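import Cfsg.Statements.S4023
import Cfsg.Agent.Lib.Helper67.PGroupSmall
import Cfsg.Agent.Lib.Helper54.Quaternion

set_option autoImplicit false
open Cfsg

namespace Cfsg.Agent.S4023

open Subgroup
open Cfsg.Agent.Lib.Helper67 Cfsg.Agent.Lib.Helper67.PGroupSmall
open Cfsg.Agent.Lib.Helper54.UniqueSubgroup

universe u

/-- subgroups of equal order are isomorphic. -/
def EqIso (Q : Type*) [Group Q] : Prop :=
  ∀ A B : Subgroup Q, Nat.card A = Nat.card B → Nonempty (A ≃* B)

theorem EqIso.transfer {Q T : Type*} [Group Q] [Group T] (h : EqIso Q) (e : Q ≃* T) :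
    EqIso T := by
  intro A B hAB
  have eA := A.equivMapOfInjective e.symm.toMonoidHom e.symm.injective
  have eB := B.equivMapOfInjective e.symm.toMonoidHom e.symm.injective
  obtain ⟨f⟩ := h (A.map e.symm.toMonoidHom) (B.map e.symm.toMonoidHom)
    (by rw [← Nat.card_congr eA.toEquiv, ← Nat.card_congr eB.toEquiv, hAB])
  exact ⟨eA.trans (f.trans eB.symm)⟩

/-- the rotation subgroup of the quaternion group. -/
def aSubgroup (n : ℕ) : Subgroup (QuaternionGroup n) where
  carrier := {g | ∃ k, g = QuaternionGroup.a k}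
  mul_mem' := by
    rintro _ _ ⟨k, rfl⟩ ⟨l, rfl⟩
    exact ⟨k + l, QuaternionGroup.a_mul_a k l⟩
  one_mem' := ⟨0, QuaternionGroup.one_def⟩
  inv_mem' := by
    rintro _ ⟨k, rfl⟩
    exact ⟨-k, rfl⟩

/-- a quaternion group of order `16 m` has non-isomorphic subgroups of order `8`. -/
theorem quat_not_eqIso (m : ℕ) [NeZero m] : ¬ EqIso (QuaternionGroup (4 * m)) := by
  intro h
  have hm0 : m ≠ 0 := NeZero.ne m
  have hne : NeZero (4 * m) := ⟨by omega⟩
  have ho1 : orderOf ((QuaternionGroup.a 1 : QuaternionGroup (4 * m)) ^ m) = 8 := by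
    rw [orderOf_pow_of_dvd hm0 (by rw [QuaternionGroup.orderOf_a_one]; exact ⟨8, by ring⟩),
      QuaternionGroup.orderOf_a_one, show 2 * (4 * m) = 8 * m by ring]
    exact Nat.mul_div_cancel _ (Nat.pos_of_ne_zero hm0)
  have hcard : Nat.card (QuaternionGroup (4 * m)) = 4 * (4 * m) := by
    rw [Nat.card_eq_fintype_card, QuaternionGroup.card]
  have ho2 : Nat.card (zpowers (QuaternionGroup.xa 0 : QuaternionGroup (4 * m))) = 2 ^ 2 := by
    rw [Nat.card_zpowers, QuaternionGroup.orderOf_xa]; norm_num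
  have h2 : Fact (Nat.Prime 2) := ⟨Nat.prime_two⟩
  obtain ⟨K, hKcard, hK⟩ := Sylow.exists_subgroup_card_pow_succ (p := 2) (n := 2)
    (by rw [hcard]; exact ⟨2 * m, by ring⟩) ho2
  obtain ⟨f⟩ := h (zpowers ((QuaternionGroup.a 1 : QuaternionGroup (4 * m)) ^ m)) K
    (by rw [Nat.card_zpowers, ho1, hKcard]; norm_num)
  have hcyc : IsCyclic K := isCyclic_of_surjective f f.surjective
  obtain ⟨c, hc⟩ := (Subgroup.isCyclic_iff_exists_zpowers_eq_top K).mp hcyc
  have hxa : (QuaternionGroup.xa 0 : QuaternionGroup (4 * m)) ∈ zpowers c :=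
    hc ▸ hK (mem_zpowers _)
  cases c with
  | a j =>
    have hle : zpowers (QuaternionGroup.a j : QuaternionGroup (4 * m)) ≤ aSubgroup (4 * m) :=
      zpowers_le.mpr ⟨j, rfl⟩
    obtain ⟨k, hk⟩ := hle hxa
    cases hk
  | xa j =>
    have h4 : Nat.card (zpowers (QuaternionGroup.xa j : QuaternionGroup (4 * m))) = 4 := by
      rw [Nat.card_zpowers, QuaternionGroup.orderOf_xa]
    rw [hc, hKcard] at h4
    norm_num at h4

/-- the abstract form: a finite `p`-group whose subgroups of equal order are isomorphic. -/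
theorem pgroup_types {Q : Type u} [Group Q] [Finite Q] {p : ℕ} [Fact p.Prime]
    (hQ : IsPGroup p Q) (hIso : EqIso Q) :
    IsCyclic Q ∨ ((∀ a b : Q, a * b = b * a) ∧ ∀ a : Q, a ^ p = 1) ∨
      (p = 2 ∧ Nonempty (Q ≃* QuaternionGroup 2)) ∨
      (p ≠ 2 ∧ (∃ a b : Q, a * b ≠ b * a) ∧ Nat.card Q = p ^ 3 ∧ Monoid.exponent Q = p) := by
  have hp : p.Prime := Fact.out
  by_cases hexp : ∀ x : Q, x ^ p = 1
  · by_cases hab : ∀ a b : Q, a * b = b * a
    · exact Or.inr (Or.inl ⟨hab, hexp⟩)
    · push Not at hab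
      refine Or.inr (Or.inr (Or.inr ?_))
      obtain ⟨H, hHcard, a, ha, b, hb, hab'⟩ := exists_nonabelian_card_cube hQ hexp hab
      obtain ⟨n, hn⟩ := hQ.exists_card_eq
      have h3n : 3 ≤ n := by
        have h1 : p ^ 3 ∣ p ^ n := by
          rw [← hHcard, ← hn]; exact Subgroup.card_subgroup_dvd_card H
        exact (Nat.pow_dvd_pow_iff_le_right hp.one_lt).mp h1
      have hn3 : n ≤ 3 := by
        by_contra h
        push Not at h
        have h4 : p ^ 4 ∣ Nat.card Q := by rw [hn]; exact pow_dvd_pow p h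
        obtain ⟨B, hBcard, hBcomm⟩ := exists_abelian_card_cube hQ h4
        obtain ⟨f⟩ := hIso H B (by rw [hHcard, hBcard])
        have h5 := hBcomm _ (f ⟨a, ha⟩).2 _ (f ⟨b, hb⟩).2
        have h6 : f ⟨a, ha⟩ * f ⟨b, hb⟩ = f ⟨b, hb⟩ * f ⟨a, ha⟩ := Subtype.ext h5
        rw [← map_mul, ← map_mul] at h6
        have h7 := f.injective h6
        exact hab' (congrArg Subtype.val h7)
      have hn' : n = 3 := le_antisymm hn3 h3n
      refine ⟨?_, hab, by rw [hn, hn'], ?_⟩
      · rintro rfl
        obtain ⟨a, b, hab⟩ := hab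
        apply hab
        have hinv : ∀ x : Q, x⁻¹ = x := fun x =>
          inv_eq_of_mul_eq_one_right (by rw [← sq]; exact hexp x)
        calc a * b = (a * b)⁻¹ := (hinv _).symm
          _ = b⁻¹ * a⁻¹ := mul_inv_rev a b
          _ = b * a := by rw [hinv, hinv]
      · have h1 : Monoid.exponent Q ∣ p := Monoid.exponent_dvd_of_forall_pow_eq_one hexp
        rcases (Nat.dvd_prime hp).mp h1 with h2 | h2
        · exfalso
          have hss : Subsingleton Q := Monoid.exp_eq_one_iff.mp h2
          obtain ⟨a, b, hab⟩ := hab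
          exact hab (Subsingleton.elim _ _)
        · exact h2
  · push Not at hexp
    obtain ⟨x, hx⟩ := hexp
    obtain ⟨k, hk⟩ := orderOf_eq_pow hQ x
    have hk2 : 2 ≤ k := by
      by_contra h
      push Not at h
      apply hx
      have h1 : orderOf x ∣ p := by
        rw [hk]
        exact (pow_dvd_pow p (by omega : k ≤ 1)).trans (by rw [pow_one])
      exact orderOf_dvd_iff_pow_eq_one.mp h1
    have hord : orderOf (x ^ (p ^ (k - 2))) = p ^ 2 := by
      rw [orderOf_pow_of_dvd (pow_ne_zero _ hp.ne_zero)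
        (by rw [hk]; exact pow_dvd_pow p (by omega)), hk, Nat.pow_div (by omega) hp.pos]
      congr 1
      omega
    have hcycsq : ∀ A : Subgroup Q, Nat.card A = p ^ 2 → IsCyclic A := by
      intro A hA
      obtain ⟨f⟩ := hIso (zpowers (x ^ (p ^ (k - 2)))) A (by rw [Nat.card_zpowers, hord, hA])
      exact isCyclic_of_surjective f f.surjective
    have hUI : UI p Q := by
      intro g h hg hh hg1
      by_contra hnot
      have hnt : Nontrivial Q := ⟨⟨g, 1, hg1⟩⟩
      obtain ⟨z, hzc, hzo⟩ := exists_central_orderOf hQ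
      have hz1 : z ≠ 1 := by
        rintro rfl
        rw [orderOf_one] at hzo
        exact hp.one_lt.ne hzo
      have hzp : z ^ p = 1 := by rw [← hzo]; exact pow_orderOf_eq_one z
      obtain ⟨w, hw, hwz⟩ : ∃ w : Q, w ^ p = 1 ∧ w ∉ zpowers z := by
        by_cases hgz : g ∈ zpowers z
        · refine ⟨h, hh, fun hhz => hnot ?_⟩
          have hle : zpowers g ≤ zpowers z := zpowers_le.mpr hgz
          have heq : zpowers g = zpowers z := by
            apply Subgroup.eq_of_le_of_card_ge hle
            rw [Nat.card_zpowers, Nat.card_zpowers, hzo, orderOf_eq_prime hg hg1]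
          rw [heq]; exact hhz
        · exact ⟨g, hg, hgz⟩
      have hZn : (zpowers z).Normal := normal_of_le_center (zpowers_le.mpr hzc)
      have hw1 : w ≠ 1 := by rintro rfl; exact hwz (one_mem _)
      have hKdvd : Nat.card ↥(zpowers z ⊔ zpowers w) ∣ p ^ 2 := by
        have h1 := SylowLift.card_sup_dvd (zpowers z) (zpowers w)
        rwa [Nat.card_zpowers, Nat.card_zpowers, hzo, orderOf_eq_prime hw hw1, ← sq] at h1
      obtain ⟨j, hj2, hj⟩ := (Nat.dvd_prime_pow hp).mp hKdvd
      have hzK : z ∈ zpowers z ⊔ zpowers w := (le_sup_left : zpowers z ≤ _) (mem_zpowers z)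
      have hwK : w ∈ zpowers z ⊔ zpowers w := (le_sup_right : zpowers w ≤ _) (mem_zpowers w)
      have hj' : j = 2 := by
        by_contra hne
        have hj1 : j ≤ 1 := by omega
        have heq : zpowers z = zpowers z ⊔ zpowers w := by
          apply Subgroup.eq_of_le_of_card_ge le_sup_left
          rw [hj, Nat.card_zpowers, hzo]
          calc p ^ j ≤ p ^ 1 := Nat.pow_le_pow_right hp.pos hj1
            _ = p := pow_one p
        exact hwz (heq ▸ hwK)
      rw [hj'] at hj
      have hKc := hcycsq _ hj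
      have h1 := mem_zpowers_of_isCyclic (K := ↥(zpowers z ⊔ zpowers w)) hj
        (z := ⟨z, hzK⟩) (w := ⟨w, hwK⟩)
        (Subtype.ext (by simpa using hzp)) (fun h0 => hz1 (congrArg Subtype.val h0))
        (Subtype.ext (by simpa using hw))
      obtain ⟨i, hi⟩ := Subgroup.mem_zpowers_iff.mp h1
      apply hwz
      rw [Subgroup.mem_zpowers_iff]
      exact ⟨i, by simpa using congrArg Subtype.val hi⟩
    rcases Cfsg.Agent.Lib.Helper54.Quaternion.isCyclic_or_quaternion_of_ui hQ hUI with
      h | ⟨hp2, n, ⟨e⟩⟩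
    · exact Or.inl h
    · rcases Nat.lt_or_ge n 2 with hn | hn
      · interval_cases n
        · left
          have hc1 : IsCyclic (QuaternionGroup (2 ^ 0)) :=
            QuaternionGroup.quaternionGroup_one_isCyclic
          exact isCyclic_of_surjective e.symm e.symm.surjective
        · exact Or.inr (Or.inr (Or.inl ⟨hp2, ⟨e⟩⟩))
      · exfalso
        obtain ⟨m, hm, hm0⟩ : ∃ m, 2 ^ n = 4 * m ∧ m ≠ 0 :=
          ⟨2 ^ (n - 2), by
            rw [show 4 = 2 ^ 2 by norm_num, ← pow_add]; congr 1; omega, by positivity⟩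
        have hT := hIso.transfer e
        rw [hm] at hT
        have hmz : NeZero m := ⟨hm0⟩
        exact quat_not_eqIso m hT

/-- Let p be a prime and G a finite group in which any two p-subgroups of the same order are conjugate, with Sylow p-subgroup P. Then P is cyclic, or elementary abelian, or p = 2 and P is a quaternion group of order 8, or p is odd and P is non-abelian of order p³ and exponent p. -/
theorem result {G : Type*} [Group G] [Finite G]
    {p : ℕ} [Fact p.Prime] (hC : ∀ H K : Subgroup G, IsPGroup p H → IsPGroup p K → Nat.card H = Nat.card K →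
      ∃ g : G, K = H.map (MulAut.conj g).toMonoidHom) (P : Sylow p G) :
    IsCyclic P ∨ Cfsg.IsElementaryAbelian p (P : Subgroup G) ∨
      (p = 2 ∧ Nonempty ((P : Subgroup G) ≃* QuaternionGroup 2)) ∨
      (p ≠ 2 ∧ ¬ IsMulCommutative P ∧ Nat.card P = p ^ 3 ∧ Monoid.exponent P = p) := by
  have hP : IsPGroup p ↥(P : Subgroup G) := P.isPGroup'
  have hIso : EqIso ↥(P : Subgroup G) := by
    intro A B hAB
    have eA := A.equivMapOfInjective (P : Subgroup G).subtype (Subgroup.subtype_injective _)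
    have eB := B.equivMapOfInjective (P : Subgroup G).subtype (Subgroup.subtype_injective _)
    have hpA : IsPGroup p ↥(A.map (P : Subgroup G).subtype) := (hP.to_subgroup A).of_equiv eA
    have hpB : IsPGroup p ↥(B.map (P : Subgroup G).subtype) := (hP.to_subgroup B).of_equiv eB
    obtain ⟨g, hg⟩ := hC _ _ hpA hpB
      (by rw [← Nat.card_congr eA.toEquiv, ← Nat.card_congr eB.toEquiv, hAB])
    have eC := (A.map (P : Subgroup G).subtype).equivMapOfInjective
      (MulAut.conj g).toMonoidHom (MulAut.conj g).injective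
    rw [← hg] at eC
    exact ⟨eA.trans (eC.trans eB.symm)⟩
  rcases pgroup_types hP hIso with h | ⟨h1, h2⟩ | h | ⟨h1, h2, h3, h4⟩
  · exact Or.inl h
  · refine Or.inr (Or.inl ⟨⟨⟨fun a b => h1 a b⟩⟩, fun a ha => ?_⟩)
    simpa using congrArg Subtype.val (h2 ⟨a, ha⟩)
  · exact Or.inr (Or.inr (Or.inl h))
  · refine Or.inr (Or.inr (Or.inr ⟨h1, ?_, h3, h4⟩))
    intro hmc
    obtain ⟨a, b, hab⟩ := h2
    exact hab (hmc.is_comm.comm a b)

end Cfsg.Agent.S4023
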