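import Cfsg.Statements.S0560
import Cfsg.Agent.Lib.Helper10.Thompson
import Mathlib

set_option autoImplicit false
open Pointwise
open Cfsg

namespace Cfsg.Agent.S0560

/-- If `A ≤ B` and `A` already meets as many cosets of `Y` as `B` does, then `B ⊆ A * Y`. -/
theorem exists_mul_of_relIndex_le {G : Type*} [Group G] [Finite G] (A B Y : Subgroup G)
    (hAB : A ≤ B) (h : Y.relIndex B ≤ Y.relIndex A) : ∀ b ∈ B, ∃ a ∈ A, a⁻¹ * b ∈ Y := by
  intro b hb
  have hinj := (Subgroup.quotientSubgroupOfEmbeddingOfLE Y hAB).injective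
  have hbij := hinj.bijective_of_nat_card_le (by
    rw [← Subgroup.index_eq_card, ← Subgroup.index_eq_card]; exact h)
  obtain ⟨x, hx⟩ := hbij.2 (QuotientGroup.mk ⟨b, hb⟩)
  induction x using QuotientGroup.induction_on with
  | _ a =>
  rw [Subgroup.quotientSubgroupOfEmbeddingOfLE_apply_mk, QuotientGroup.eq] at hx
  exact ⟨a, a.2, hx⟩

theorem card_mul_inf_le {G : Type*} [Group G] [Finite G] (H K : Subgroup G)
    (hHK : ∀ g : G, ∃ h ∈ H, ∃ k ∈ K, g = h * k) :
    Nat.card G * Nat.card (H ⊓ K : Subgroup G) ≤ Nat.card H * Nat.card K := by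
  choose hh hhH kk kkK hg using hHK
  rw [← Nat.card_prod, ← Nat.card_prod]
  apply Nat.card_le_card_of_injective (fun x : G × (H ⊓ K : Subgroup G) =>
    ((⟨hh x.1 * x.2, H.mul_mem (hhH x.1) x.2.2.1⟩ : H),
      (⟨(x.2 : G)⁻¹ * kk x.1, K.mul_mem (K.inv_mem x.2.2.2) (kkK x.1)⟩ : K)))
  rintro ⟨g, d⟩ ⟨g', d'⟩ hEq
  simp only [Prod.mk.injEq, Subtype.mk.injEq] at hEq
  obtain ⟨h1, h2⟩ := hEq
  have hgg : g = g' := by
    calc g = hh g * kk g := hg g
      _ = (hh g * d) * ((d : G)⁻¹ * kk g) := by group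
      _ = (hh g' * d') * ((d' : G)⁻¹ * kk g') := by rw [h1, h2]
      _ = hh g' * kk g' := by group
      _ = g' := (hg g').symm
  subst hgg
  have : (d : G) = d' := mul_left_cancel h1
  exact Prod.ext rfl (Subtype.ext this)

theorem card_mul_inf_eq {G : Type*} [Group G] [Finite G] (H K : Subgroup G)
    (hHK : ∀ g : G, ∃ h ∈ H, ∃ k ∈ K, g = h * k) :
    Nat.card G * Nat.card (H ⊓ K : Subgroup G) = Nat.card H * Nat.card K :=
  le_antisymm (card_mul_inf_le H K hHK)
    ((Cfsg.Agent.Lib.Helper10.Thompson.card_mul_card_le H K).trans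
      (Nat.mul_le_mul_right _ (Subgroup.card_le_card_group _)))

theorem exists_sylow_of_card {G : Type*} [Group G] [Finite G] {p : ℕ} [Fact p.Prime]
    (H X : Subgroup G) (hX : X ≤ H) (hc : Nat.card X = p ^ (Nat.card H).factorization p) :
    ∃ P : Sylow p H, (P : Subgroup H).map H.subtype = X := by
  have hc' : Nat.card (X.subgroupOf H) = p ^ (Nat.card H).factorization p := by
    rw [Cfsg.Agent.Lib.Helper10.Thompson.card_subgroupOf hX, hc]
  refine ⟨Sylow.ofCard (X.subgroupOf H) hc', ?_⟩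
  rw [Sylow.coe_ofCard, Subgroup.subgroupOf_map_subtype, inf_eq_left.mpr hX]

/-- Let the finite group G be the product HK of two subgroups and p a prime. Then there are Sylow p-subgroups P of H and Q of K and a Sylow p-subgroup R of G whose underlying set is the product set of P and Q. -/
theorem result {G : Type*} [Group G] [Finite G] (H K : Subgroup G) (hHK : ∀ g : G, ∃ h ∈ H, ∃ k ∈ K, g = h * k) (p : ℕ) [Fact p.Prime] : ∃ (P : Sylow p H) (Q : Sylow p K) (R : Sylow p G), ((R : Subgroup G) : Set G) = (((P : Subgroup H).map H.subtype : Subgroup G) : Set G) * (((Q : Subgroup K).map K.subtype : Subgroup G) : Set G) := by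
  have hp := (Fact.out : p.Prime)
  obtain ⟨P₁⟩ : Nonempty (Sylow p H) := inferInstance
  obtain ⟨Q₂⟩ : Nonempty (Sylow p K) := inferInstance
  obtain ⟨X₁, hX₁⟩ : ∃ X₁ : Subgroup G, X₁ = (P₁ : Subgroup H).map H.subtype := ⟨_, rfl⟩
  obtain ⟨Y₂, hY₂⟩ : ∃ Y₂ : Subgroup G, Y₂ = (Q₂ : Subgroup K).map K.subtype := ⟨_, rfl⟩
  have hX₁H : X₁ ≤ H := by rw [hX₁]; exact Subgroup.map_subtype_le _
  have hY₂K : Y₂ ≤ K := by rw [hY₂]; exact Subgroup.map_subtype_le _
  have hX₁c : Nat.card X₁ = p ^ (Nat.card H).factorization p := by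
    rw [hX₁, Cfsg.Agent.Lib.Helper10.Thompson.card_map_subtype, Sylow.card_eq_multiplicity]
  have hY₂c : Nat.card Y₂ = p ^ (Nat.card K).factorization p := by
    rw [hY₂, Cfsg.Agent.Lib.Helper10.Thompson.card_map_subtype, Sylow.card_eq_multiplicity]
  have hX₁p : IsPGroup p X₁ := IsPGroup.of_card hX₁c
  have hY₂p : IsPGroup p Y₂ := IsPGroup.of_card hY₂c
  obtain ⟨R₁, hR₁⟩ := hX₁p.exists_le_sylow
  obtain ⟨R₂, hR₂⟩ := hY₂p.exists_le_sylow
  obtain ⟨g, hg⟩ := MulAction.exists_smul_eq G R₁ R₂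
  obtain ⟨h', hh', k', hk', hgk⟩ := hHK g⁻¹
  have hg' : g = k'⁻¹ * h'⁻¹ := by rw [← mul_inv_rev, ← hgk, inv_inv]
  obtain ⟨R, hR⟩ : ∃ R : Sylow p G, R = h'⁻¹ • R₁ := ⟨_, rfl⟩
  have hRR₂ : R = k' • R₂ := by
    rw [hR, ← hg, smul_smul, hg', ← mul_assoc, mul_inv_cancel, one_mul]
  have hRcoe : (R : Subgroup G) = MulAut.conj h'⁻¹ • (R₁ : Subgroup G) := by
    rw [hR, Sylow.coe_subgroup_smul]
  have hRcoe2 : (R : Subgroup G) = MulAut.conj k' • (R₂ : Subgroup G) := by
    rw [hRR₂, Sylow.coe_subgroup_smul]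
  obtain ⟨X, hX⟩ : ∃ X : Subgroup G, X = MulAut.conj h'⁻¹ • X₁ := ⟨_, rfl⟩
  obtain ⟨Y, hY⟩ : ∃ Y : Subgroup G, Y = MulAut.conj k' • Y₂ := ⟨_, rfl⟩
  have hXR : X ≤ R := by
    rw [hRcoe, hX]; exact Subgroup.pointwise_smul_le_pointwise_smul_iff.mpr hR₁
  have hYR : Y ≤ R := by
    rw [hRcoe2, hY]; exact Subgroup.pointwise_smul_le_pointwise_smul_iff.mpr hR₂
  have hXH : X ≤ H := by
    have h1 : MulAut.conj h'⁻¹ • H = H := Subgroup.conj_smul_eq_self_of_mem (H.inv_mem hh')
    rw [← h1, hX]; exact Subgroup.pointwise_smul_le_pointwise_smul_iff.mpr hX₁H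
  have hYK : Y ≤ K := by
    have h1 : MulAut.conj k' • K = K := Subgroup.conj_smul_eq_self_of_mem hk'
    rw [← h1, hY]; exact Subgroup.pointwise_smul_le_pointwise_smul_iff.mpr hY₂K
  have hXc : Nat.card X = p ^ (Nat.card H).factorization p := by
    rw [← hX₁c, hX]
    exact (Nat.card_congr (Subgroup.equivSMul (MulAut.conj h'⁻¹) X₁).toEquiv).symm
  have hYc : Nat.card Y = p ^ (Nat.card K).factorization p := by
    rw [← hY₂c, hY]
    exact (Nat.card_congr (Subgroup.equivSMul (MulAut.conj k') Y₂).toEquiv).symm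
  obtain ⟨P, hP⟩ := exists_sylow_of_card H X hXH hXc
  obtain ⟨Q, hQ⟩ := exists_sylow_of_card K Y hYK hYc
  refine ⟨P, Q, R, ?_⟩
  rw [hP, hQ]
  have hcardeq := card_mul_inf_eq H K hHK
  have hfac : (Nat.card G).factorization p + (Nat.card (H ⊓ K : Subgroup G)).factorization p =
      (Nat.card H).factorization p + (Nat.card K).factorization p := by
    have h1 : (Nat.card G * Nat.card (H ⊓ K : Subgroup G)).factorization p =
        (Nat.card H * Nat.card K).factorization p := by rw [hcardeq]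
    rw [Nat.factorization_mul Nat.card_pos.ne' Nat.card_pos.ne',
      Nat.factorization_mul Nat.card_pos.ne' Nat.card_pos.ne'] at h1
    simpa using h1
  have hRc : Nat.card (R : Subgroup G) = p ^ (Nat.card G).factorization p :=
    Sylow.card_eq_multiplicity R
  have hXYle : Nat.card (Y ⊓ X : Subgroup G) ≤
      p ^ (Nat.card (H ⊓ K : Subgroup G)).factorization p := by
    have hpg : IsPGroup p (Y ⊓ X : Subgroup G) := (IsPGroup.of_card hXc).to_le inf_le_right
    obtain ⟨f, hf⟩ := IsPGroup.iff_card.mp hpg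
    have hdvd : Nat.card (Y ⊓ X : Subgroup G) ∣ Nat.card (H ⊓ K : Subgroup G) :=
      Subgroup.card_dvd_of_le (le_inf (inf_le_right.trans hXH) (inf_le_left.trans hYK))
    rw [hf] at hdvd ⊢
    exact Nat.pow_le_pow_right hp.pos ((hp.pow_dvd_iff_le_factorization Nat.card_pos.ne').mp hdvd)
  have e1 : Nat.card (Y ⊓ X : Subgroup G) * Y.relIndex X = Nat.card X := by
    rw [← Subgroup.inf_relIndex_right]
    exact Cfsg.Agent.Lib.Helper10.Thompson.card_mul_relIndex inf_le_right
  have e2 : Nat.card Y * Y.relIndex (R : Subgroup G) = Nat.card (R : Subgroup G) :=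
    Cfsg.Agent.Lib.Helper10.Thompson.card_mul_relIndex hYR
  have hle : Y.relIndex (R : Subgroup G) ≤ Y.relIndex X := by
    have h1 : Y.relIndex (R : Subgroup G) * (Nat.card Y * Nat.card (Y ⊓ X : Subgroup G)) ≤
        Y.relIndex X * (Nat.card Y * Nat.card (Y ⊓ X : Subgroup G)) := by
      calc Y.relIndex (R : Subgroup G) * (Nat.card Y * Nat.card (Y ⊓ X : Subgroup G))
          = (Nat.card Y * Y.relIndex (R : Subgroup G)) * Nat.card (Y ⊓ X : Subgroup G) := by ring
        _ = p ^ (Nat.card G).factorization p * Nat.card (Y ⊓ X : Subgroup G) := by rw [e2, hRc]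
        _ ≤ p ^ (Nat.card G).factorization p *
              p ^ (Nat.card (H ⊓ K : Subgroup G)).factorization p :=
            Nat.mul_le_mul_left _ hXYle
        _ = p ^ (Nat.card H).factorization p * p ^ (Nat.card K).factorization p := by
            rw [← pow_add, ← pow_add, hfac]
        _ = Nat.card X * Nat.card Y := by rw [hXc, hYc]
        _ = Y.relIndex X * (Nat.card Y * Nat.card (Y ⊓ X : Subgroup G)) := by rw [← e1]; ring
    exact Nat.le_of_mul_le_mul_right h1 (Nat.mul_pos Nat.card_pos Nat.card_pos)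
  have key := exists_mul_of_relIndex_le X (R : Subgroup G) Y hXR hle
  apply Set.Subset.antisymm
  · intro r hr
    obtain ⟨a, ha, hay⟩ := key r hr
    exact ⟨a, ha, a⁻¹ * r, hay, by group⟩
  · rintro _ ⟨x, hx, y, hy, rfl⟩
    exact (R : Subgroup G).mul_mem (hXR hx) (hYR hy)

end Cfsg.Agent.S0560
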