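import Mathlib
import Cfsg.Statements.S0562

set_option autoImplicit false
open Cfsg
open Pointwise

namespace Cfsg.Agent.S0562

theorem mem_normalizer_iff_smul {G : Type*} [Group G] (X : Subgroup G) (g : G) :
    g ∈ Subgroup.normalizer (X : Set G) ↔ MulAut.conj g • X = X :=
  Subgroup.mem_normalizer_iff_map_conj_eq

theorem result {G : Type*} [Group G] [Finite G] (H K A B : Subgroup G) (hHK : ∀ g : G, ∃ h ∈ H, ∃ k ∈ K, g = h * k) (hA : A ≤ H) (hAn : (A.subgroupOf H).Normal) (hB : B ≤ K) (hBn : (B.subgroupOf K).Normal) : ∀ g ∈ Subgroup.normalizer ((A ⊔ B : Subgroup G) : Set G), ∃ h ∈ Subgroup.normalizer ((A ⊔ B : Subgroup G) : Set G) ⊓ H, ∃ k ∈ Subgroup.normalizer ((A ⊔ B : Subgroup G) : Set G) ⊓ K, g = h * k := by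
  intro g hg
  obtain ⟨h, hh, k, hk, rfl⟩ := hHK g
  have hAN : H ≤ Subgroup.normalizer (A : Set G) := (Subgroup.normal_subgroupOf_iff_le_normalizer hA).mp hAn
  have hBN : K ≤ Subgroup.normalizer (B : Set G) := (Subgroup.normal_subgroupOf_iff_le_normalizer hB).mp hBn
  rw [mem_normalizer_iff_smul] at hg
  have hkB : MulAut.conj k • B = B := (mem_normalizer_iff_smul B k).mp (hBN hk)
  have hhA : MulAut.conj h⁻¹ • A = A := (mem_normalizer_iff_smul A h⁻¹).mp (hAN (H.inv_mem hh))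
  have hY : MulAut.conj k • (A ⊔ B) = MulAut.conj h⁻¹ • (A ⊔ B) := by
    conv_rhs => rw [← hg]
    rw [← mul_smul, ← map_mul]
    congr 2
    group
  have hle : A ⊔ B ≤ MulAut.conj k • (A ⊔ B) := by
    apply sup_le
    · rw [hY, ← hhA]
      simp only [Subgroup.pointwise_smul_le_pointwise_smul_iff]
      rw [hhA]; exact le_sup_left
    · rw [← hkB]
      simp only [Subgroup.pointwise_smul_le_pointwise_smul_iff]
      rw [hkB]; exact le_sup_right
  have hcard : Nat.card (MulAut.conj k • (A ⊔ B) : Subgroup G) = Nat.card (A ⊔ B : Subgroup G) :=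
    (Nat.card_congr (Subgroup.equivSMul (MulAut.conj k) (A ⊔ B)).toEquiv).symm
  have heq : A ⊔ B = MulAut.conj k • (A ⊔ B) :=
    Subgroup.eq_of_le_of_card_ge hle hcard.le
  refine ⟨h, ⟨?_, hh⟩, k, ⟨?_, hk⟩, rfl⟩
  · apply (mem_normalizer_iff_smul _ _).mpr
    have h1 : MulAut.conj h • (MulAut.conj h⁻¹ • (A ⊔ B)) = A ⊔ B := by
      rw [← mul_smul, ← map_mul]; simp
    rw [← hY, ← heq] at h1
    exact h1
  · exact (mem_normalizer_iff_smul _ _).mpr heq.symm

end Cfsg.Agent.S0562
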