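import Cfsg.Statements.S0581
import Cfsg.Agent.Lib.Helper9.MNN2
import Cfsg.Agent.Lib.Helper65.NilCoprime
import Cfsg.Agent.Lib.Helper10.Thompson
import Mathlib

set_option autoImplicit false
open Cfsg

namespace Cfsg.Agent.S0581

open scoped Pointwise
open Cfsg.Agent.Lib.Helper10.Thompson

universe u

theorem nilpotent_conj {G : Type*} [Group G] (H : Subgroup G) (hH : Group.IsNilpotent H) (x : G) :
    Group.IsNilpotent (MulAut.conj x • H : Subgroup G) :=
  Group.nilpotent_of_mulEquiv (Subgroup.equivSMul (MulAut.conj x) H)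

theorem index_conj {G : Type*} [Group G] (H : Subgroup G) (x : G) :
    (MulAut.conj x • H : Subgroup G).index = H.index :=
  Subgroup.index_map_of_bijective (MulAction.bijective (MulAut.conj x)) H

theorem nilpotent_of_injective {A B : Type*} [Group A] [Group B] (f : A →* B)
    (hf : Function.Injective f) [hB : Group.IsNilpotent B] : Group.IsNilpotent A :=
  Subgroup.isNilpotent_of_ker_le_center f (by rw [f.ker_eq_bot hf]; exact bot_le)

theorem le_normalizer_of_conj_mem {G : Type*} [Group G] (X K : Subgroup G)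
    (h : ∀ x ∈ X, ∀ k ∈ K, x * k * x⁻¹ ∈ K) : X ≤ Subgroup.normalizer (K : Set G) := by
  intro x hx
  rw [Subgroup.mem_normalizer_iff]
  intro k
  constructor
  · exact h x hx k
  · intro hk
    have h1 := h x⁻¹ (X.inv_mem hx) _ hk
    have e : x⁻¹ * (x * k * x⁻¹) * x⁻¹⁻¹ = k := by group
    rw [e] at h1
    exact h1

/-- A subgroup of index prime to `q` contains a `q`-subgroup of index prime to `q`. -/
theorem exists_sylow_in {G : Type*} [Group G] [Finite G] (H : Subgroup G) (q : ℕ)
    [Fact q.Prime] (hq : ¬ q ∣ H.index) :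
    ∃ X : Subgroup G, X ≤ H ∧ IsPGroup q X ∧ ¬ q ∣ X.index := by
  obtain ⟨S₁⟩ : Nonempty (Sylow q H) := inferInstance
  refine ⟨(S₁ : Subgroup H).map H.subtype, Subgroup.map_subtype_le _, S₁.isPGroup'.map _, ?_⟩
  rw [Subgroup.index_map_subtype]
  intro h
  rcases (Nat.Prime.dvd_mul Fact.out).mp h with h | h
  · exact S₁.not_dvd_index h
  · exact hq h

/-- Sylow: a `q`-subgroup lies in a conjugate of any subgroup of index prime to `q`. -/
theorem pgroup_le_conj {G : Type*} [Group G] [Finite G] (H : Subgroup G) (q : ℕ)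
    [Fact q.Prime] (hq : ¬ q ∣ H.index) (R : Subgroup G) (hR : IsPGroup q R) :
    ∃ g : G, R ≤ MulAut.conj g • H := by
  obtain ⟨X, hXH, hX, hidx⟩ := exists_sylow_in H q hq
  obtain ⟨P₂, hP₂⟩ := hR.exists_le_sylow
  obtain ⟨g, hg⟩ := MulAction.exists_smul_eq G (hX.toSylow hidx) P₂
  refine ⟨g, ?_⟩
  have h1 : (P₂ : Subgroup G) = MulAut.conj g • X := by
    rw [← hg, Sylow.coe_subgroup_smul]; rfl
  intro r hr
  have h2 := hP₂ hr
  rw [h1] at h2
  exact Subgroup.pointwise_smul_le_pointwise_smul_iff.mpr hXH h2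

/-- A nontrivial group all of whose proper subgroups are nilpotent has a nontrivial normal
Sylow subgroup. -/
theorem exists_normal_sylow {K : Type u} [Group K] [Finite K] [Nontrivial K]
    (hprop : ∀ M : Subgroup K, M ≠ ⊤ → Group.IsNilpotent M) :
    ∃ q : ℕ, q.Prime ∧ ∃ Q : Sylow q K, (Q : Subgroup K).Normal ∧ (Q : Subgroup K) ≠ ⊥ := by
  by_cases hnil : Group.IsNilpotent K
  · have hcard : Nat.card K ≠ 1 := (Finite.one_lt_card (α := K)).ne'
    obtain ⟨q, hq, hqK⟩ := Nat.exists_prime_and_dvd hcard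
    have : Fact q.Prime := ⟨hq⟩
    obtain ⟨Q⟩ : Nonempty (Sylow q K) := inferInstance
    refine ⟨q, hq, Q, ?_, Q.ne_bot_of_dvd_card hqK⟩
    have tf := (Group.isNilpotent_of_finite_tfae (G := K)).out 0 3
    exact tf.mp hnil q this Q
  · obtain ⟨p, q, hp, hq, hpq, P, Q, -, hQn, -, hPQ⟩ :=
      Cfsg.Agent.Lib.Helper9.MNN2.structure_of_minimal hnil hprop
    refine ⟨q, hq, Q, hQn, ?_⟩
    intro h
    apply hPQ
    rw [h]
    intro x _
    rw [Subgroup.mem_centralizer_iff]
    intro y hy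
    have : y = 1 := hy
    rw [this, one_mul, mul_one]

theorem card_map_mk {L : Type*} [Group L] [Finite L] (N : Subgroup L) [N.Normal]
    (M : Subgroup L) (hNM : N ≤ M) :
    Nat.card (M.map (QuotientGroup.mk' N)) * Nat.card N = Nat.card M := by
  have h1 : (M.map (QuotientGroup.mk' N)).index = M.index :=
    Subgroup.index_map_eq M (QuotientGroup.mk'_surjective N)
      (by rw [QuotientGroup.ker_mk']; exact hNM)
  have h2 := Subgroup.card_mul_index (M.map (QuotientGroup.mk' N))
  have h3 := Subgroup.card_mul_index M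
  have h4 : Nat.card (L ⧸ N) * Nat.card N = Nat.card L := by
    rw [← Subgroup.index_eq_card]; exact Subgroup.index_mul_card N
  have hpos : 0 < M.index := Nat.pos_of_ne_zero Subgroup.FiniteIndex.index_ne_zero
  rw [h1] at h2
  have h5 : (Nat.card (M.map (QuotientGroup.mk' N)) * Nat.card N) * M.index =
      Nat.card M * M.index := by
    rw [h3, ← h4, ← h2]; ring
  exact Nat.eq_of_mul_eq_mul_right hpos h5

theorem step (n : ℕ)
    (ih : ∀ m < n, ∀ (G : Type u) [Group G] [Finite G] (H K : Subgroup G), Nat.card K = m →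
      Group.IsNilpotent H → (∀ p : ℕ, p.Prime → p ∣ Nat.card K → ¬ p ∣ H.index) →
      ∃ x : G, K ≤ MulAut.conj x • H)
    {G : Type u} [Group G] [Finite G] (H K : Subgroup G) (hn : Nat.card K = n)
    (hH : Group.IsNilpotent H)
    (hK : ∀ p : ℕ, p.Prime → p ∣ Nat.card K → ¬ p ∣ H.index)
    (q : ℕ) [hqF : Fact q.Prime] (Q : Sylow q K) (hQn : (Q : Subgroup K).Normal)
    (hQ1 : (Q : Subgroup K) ≠ ⊥)
    (hQH : (Q : Subgroup K).map K.subtype ≤ H) : ∃ x : G, K ≤ MulAut.conj x • H := by
  obtain ⟨Q', hQ'⟩ : ∃ Q' : Subgroup G, Q' = (Q : Subgroup K).map K.subtype := ⟨_, rfl⟩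
  rw [← hQ'] at hQH
  have hQ'K : Q' ≤ K := hQ' ▸ Subgroup.map_subtype_le _
  have hQ'p : IsPGroup q Q' := hQ' ▸ Q.isPGroup'.map _
  have hQ'card : Nat.card Q' = Nat.card (Q : Subgroup K) := by
    rw [hQ']; exact card_map_subtype K _
  obtain ⟨L, hL⟩ : ∃ L : Subgroup G, L = Subgroup.normalizer (Q' : Set G) := ⟨_, rfl⟩
  have hKL : K ≤ L := by
    rw [hL]
    apply le_normalizer_of_conj_mem
    intro k hk y hy
    rw [hQ'] at hy ⊢
    obtain ⟨y₀, hy₀, rfl⟩ := hy
    exact ⟨⟨k, hk⟩ * y₀ * ⟨k, hk⟩⁻¹, hQn.conj_mem y₀ hy₀ ⟨k, hk⟩, rfl⟩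
  have hQ'L : Q' ≤ L := hL ▸ Subgroup.le_normalizer
  have hQn' : (Q'.subgroupOf L).Normal := by rw [hL]; exact Subgroup.normal_in_normalizer
  have hQK' : Q'.subgroupOf L ≤ K.subgroupOf L := fun x hx => hQ'K hx
  have hQH' : Q'.subgroupOf L ≤ H.subgroupOf L := fun x hx => hQH hx
  -- cardinalities
  have hc1 := card_map_mk (Q'.subgroupOf L) (K.subgroupOf L) hQK'
  rw [card_subgroupOf hKL, card_subgroupOf hQ'L, hQ'card] at hc1
  have hc2 : (Q : Subgroup K).index * Nat.card (Q : Subgroup K) = Nat.card K :=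
    Subgroup.index_mul_card _
  have hQpos : 1 < Nat.card (Q : Subgroup K) := (Subgroup.one_lt_card_iff_ne_bot _).mpr hQ1
  have hc3 : Nat.card ((K.subgroupOf L).map (QuotientGroup.mk' (Q'.subgroupOf L))) =
      (Q : Subgroup K).index :=
    Nat.eq_of_mul_eq_mul_right (by omega) (hc1.trans hc2.symm)
  have hlt : Nat.card ((K.subgroupOf L).map (QuotientGroup.mk' (Q'.subgroupOf L))) < n := by
    rw [← hn, ← hc1]
    have hpos : 0 < Nat.card ((K.subgroupOf L).map (QuotientGroup.mk' (Q'.subgroupOf L))) :=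
      Nat.card_pos
    nlinarith
  -- nilpotency of the image of `H ∩ L`
  have hnil1 : Group.IsNilpotent (H.subgroupOf L) := by
    let f : (H.subgroupOf L) →* H :=
      { toFun := fun x => ⟨((x : L) : G), x.2⟩
        map_one' := rfl
        map_mul' := fun _ _ => rfl }
    have hf : Function.Injective f := by
      intro a b hab
      have h0 : ((f a : H) : G) = ((f b : H) : G) := congrArg Subtype.val hab
      have : ((a : L) : G) = ((b : L) : G) := h0
      exact Subtype.ext (Subtype.ext this)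
    exact nilpotent_of_injective f hf
  have hnil2 : Group.IsNilpotent ((H.subgroupOf L).map (QuotientGroup.mk' (Q'.subgroupOf L))) :=
    Group.nilpotent_of_surjective ((QuotientGroup.mk' (Q'.subgroupOf L)).subgroupMap _)
      (MonoidHom.subgroupMap_surjective _ _)
  -- primes
  have hprimes : ∀ p : ℕ, p.Prime →
      p ∣ Nat.card ((K.subgroupOf L).map (QuotientGroup.mk' (Q'.subgroupOf L))) →
      ¬ p ∣ ((H.subgroupOf L).map (QuotientGroup.mk' (Q'.subgroupOf L))).index := by
    intro p hp hpK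
    have : Fact p.Prime := ⟨hp⟩
    rw [hc3] at hpK
    have hpq : p ≠ q := by
      rintro rfl
      exact Q.not_dvd_index hpK
    have hpK' : p ∣ Nat.card K := by
      rw [← hc2]; exact Dvd.dvd.mul_right hpK _
    have hpH := hK p hp hpK'
    obtain ⟨X, hXH, hX, hidx⟩ := exists_sylow_in H p hpH
    have hXL : X ≤ L := by
      rw [hL]
      apply le_normalizer_of_conj_mem
      intro x hx y hy
      have hcop : Nat.Coprime (orderOf x) (orderOf y) := by
        have h1 : orderOf x ∣ Nat.card X := Subgroup.orderOf_dvd_natCard X hx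
        have h2 : orderOf y ∣ Nat.card Q' := Subgroup.orderOf_dvd_natCard Q' hy
        have h3 := IsPGroup.coprime_card_of_ne p q hpq X Q' hX hQ'p
        exact Nat.Coprime.coprime_dvd_left h1 (Nat.Coprime.coprime_dvd_right h2 h3)
      have hc := Cfsg.Agent.Lib.Helper65.NilCoprime.commute_of_coprime H
        (⟨x, hXH hx⟩ : H) (⟨y, hQH hy⟩ : H) (isOfFinOrder_of_finite _) (isOfFinOrder_of_finite _)
        (by rw [Subgroup.orderOf_mk, Subgroup.orderOf_mk]; exact hcop)
      have hc' : x * y = y * x := congrArg Subtype.val hc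
      have e : x * y * x⁻¹ = y := by rw [hc']; group
      rw [e]; exact hy
    rw [Subgroup.index_map_eq _ (QuotientGroup.mk'_surjective _)
      (by rw [QuotientGroup.ker_mk']; exact hQH')]
    intro hdiv
    have h1 : H.relIndex L ∣ X.relIndex L := Subgroup.relIndex_dvd_of_le_left L hXH
    have h2 : X.relIndex L ∣ X.index := Subgroup.relIndex_dvd_index_of_le hXL
    exact hidx (hdiv.trans (h1.trans h2))
  obtain ⟨xb, hxb⟩ := ih _ hlt (L ⧸ Q'.subgroupOf L)
    ((H.subgroupOf L).map (QuotientGroup.mk' (Q'.subgroupOf L)))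
    ((K.subgroupOf L).map (QuotientGroup.mk' (Q'.subgroupOf L))) rfl hnil2 hprimes
  obtain ⟨x, rfl⟩ := QuotientGroup.mk'_surjective (Q'.subgroupOf L) xb
  refine ⟨(x : G), ?_⟩
  intro k hk
  have h1 : QuotientGroup.mk' (Q'.subgroupOf L) ⟨k, hKL hk⟩ ∈
      (K.subgroupOf L).map (QuotientGroup.mk' (Q'.subgroupOf L)) :=
    Subgroup.mem_map_of_mem _ (show (⟨k, hKL hk⟩ : L) ∈ K.subgroupOf L from hk)
  have h2 := hxb h1
  rw [Subgroup.mem_pointwise_smul_iff_inv_smul_mem, MulAut.smul_def, MulAut.conj_inv_apply] at h2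
  obtain ⟨h, hh, he⟩ := h2
  have he' : QuotientGroup.mk' (Q'.subgroupOf L) h =
      QuotientGroup.mk' (Q'.subgroupOf L) (x⁻¹ * ⟨k, hKL hk⟩ * x) := by
    rw [he]; simp
  have h3 : h⁻¹ * (x⁻¹ * ⟨k, hKL hk⟩ * x) ∈ Q'.subgroupOf L := by
    rw [QuotientGroup.mk'_apply, QuotientGroup.mk'_apply, QuotientGroup.eq] at he'
    exact he'
  have h4 : ((h⁻¹ * (x⁻¹ * ⟨k, hKL hk⟩ * x) : L) : G) ∈ H := hQH h3
  have h5 : ((h : L) : G) ∈ H := hh
  have h6 : (x : G)⁻¹ * k * (x : G) ∈ H := by
    have e : (x : G)⁻¹ * k * (x : G) =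
        ((h : L) : G) * ((h⁻¹ * (x⁻¹ * ⟨k, hKL hk⟩ * x) : L) : G) := by
      simp
    rw [e]; exact H.mul_mem h5 h4
  rw [Subgroup.mem_pointwise_smul_iff_inv_smul_mem, MulAut.smul_def, MulAut.conj_inv_apply]
  exact h6

theorem aux : ∀ (n : ℕ) (G : Type u) [Group G] [Finite G] (H K : Subgroup G), Nat.card K = n →
    Group.IsNilpotent H → (∀ p : ℕ, p.Prime → p ∣ Nat.card K → ¬ p ∣ H.index) →
    ∃ x : G, K ≤ MulAut.conj x • H := by
  intro n
  induction n using Nat.strong_induction_on with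
  | _ n ih =>
  intro G _ _ H K hn hH hK
  by_cases hK1 : K = ⊥
  · exact ⟨1, by rw [hK1]; exact bot_le⟩
  -- proper subgroups of `K` are nilpotent
  have hprop : ∀ M : Subgroup K, M ≠ ⊤ → Group.IsNilpotent M := by
    intro M hM
    have hcM : Nat.card (M.map K.subtype) = Nat.card M := card_map_subtype K M
    have hlt : Nat.card M < n := by
      rw [← hn]
      exact lt_of_le_of_ne (Subgroup.card_le_card_group M)
        (fun h => hM (Subgroup.eq_top_of_card_eq M h))
    obtain ⟨x, hx⟩ := ih (Nat.card M) hlt G H (M.map K.subtype) hcM hH (by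
      intro p hp hpM
      rw [hcM] at hpM
      exact hK p hp (hpM.trans (Subgroup.card_subgroup_dvd_card M)))
    have hnil := nilpotent_conj H hH x
    let f : M →* (MulAut.conj x • H : Subgroup G) :=
      { toFun := fun m => ⟨((m : K) : G), hx (Subgroup.mem_map_of_mem _ m.2)⟩
        map_one' := rfl
        map_mul' := fun _ _ => rfl }
    have hf : Function.Injective f := by
      intro a b hab
      have h0 : ((f a : (MulAut.conj x • H : Subgroup G)) : G) = ((f b : (MulAut.conj x • H : Subgroup G)) : G) :=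
        congrArg Subtype.val hab
      have : ((a : K) : G) = ((b : K) : G) := h0
      exact Subtype.ext (Subtype.ext this)
    exact nilpotent_of_injective f hf
  have hKnt : Nontrivial K := (Subgroup.nontrivial_iff_ne_bot K).mpr hK1
  obtain ⟨q, hq, Q, hQn, hQ1⟩ := exists_normal_sylow hprop
  have : Fact q.Prime := ⟨hq⟩
  have hqK : q ∣ Nat.card K := by
    rcases Q.isPGroup'.card_eq_or_dvd with h | h
    · exact absurd (Subgroup.card_eq_one.mp h) hQ1
    · exact h.trans (Subgroup.card_subgroup_dvd_card _)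
  have hqH : ¬ q ∣ H.index := hK q hq hqK
  obtain ⟨g, hg⟩ := pgroup_le_conj H q hqH ((Q : Subgroup K).map K.subtype) (Q.isPGroup'.map _)
  obtain ⟨x, hx⟩ := step n ih (MulAut.conj g • H) K hn (nilpotent_conj H hH g)
    (by intro p hp hpK; rw [index_conj]; exact hK p hp hpK) q Q hQn hQ1 hg
  refine ⟨x * g, ?_⟩
  rw [map_mul, mul_smul]; exact hx

/-- Let H be a nilpotent subgroup of a finite group G whose order is coprime to its index, and K a subgroup every prime divisor of whose order divides the order of H. Then K lies in some conjugate of H. -/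
theorem result {G : Type*} [Group G] [Finite G] (H K : Subgroup G) (hH : Group.IsNilpotent H) (hHall : (Nat.card H).Coprime H.index) (hK : ∀ p : ℕ, p.Prime → p ∣ Nat.card K → p ∣ Nat.card H) : ∃ x : G, K ≤ MulAut.conj x • H := by
  refine aux _ G H K rfl hH ?_
  intro p hp hpK hpi
  have h1 := hK p hp hpK
  exact hp.one_lt.ne' (Nat.eq_one_of_dvd_coprimes hHall h1 hpi) |>.elim

end Cfsg.Agent.S0581
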