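import Cfsg.Statements.S0557
import Cfsg.Agent.Lib.Helper10.Thompson
import Mathlib

set_option autoImplicit false
open Cfsg

namespace Cfsg.Agent.S0557

open scoped commutatorElement
open Cfsg.Agent.Lib.Helper10.Thompson

universe u

theorem foc_mono {G : Type*} [Group G] {H₁ H₂ : Subgroup G} (h : H₁ ≤ H₂) :
    Subgroup.focalSubgroup H₁ ≤ Subgroup.focalSubgroup H₂ := by
  rw [Subgroup.focalSubgroup_def, Subgroup.focalSubgroup_def]
  apply Subgroup.closure_mono
  rintro g ⟨hg, x, hx, u, e⟩
  exact ⟨h hg, x, h hx, u, e⟩

theorem iter_mono {G : Type*} [Group G] (n : ℕ) {H₁ H₂ : Subgroup G} (h : H₁ ≤ H₂) :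
    (fun K : Subgroup G => Subgroup.focalSubgroup K)^[n] H₁ ≤
      (fun K : Subgroup G => Subgroup.focalSubgroup K)^[n] H₂ := by
  induction n generalizing H₁ H₂ with
  | zero => exact h
  | succ n ih =>
    rw [Function.iterate_succ_apply, Function.iterate_succ_apply]
    exact ih (foc_mono h)

theorem foc_map {G : Type*} [Group G] (K : Subgroup G) (M : Subgroup K) :
    (Subgroup.focalSubgroup M).map K.subtype ≤ Subgroup.focalSubgroup (M.map K.subtype) := by
  rw [Subgroup.focalSubgroup_def, Subgroup.focalSubgroup_def, MonoidHom.map_closure]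
  apply Subgroup.closure_mono
  rintro _ ⟨g, ⟨hg, x, hx, u, rfl⟩, rfl⟩
  refine ⟨Subgroup.mem_map_of_mem _ hg, x, Subgroup.mem_map_of_mem _ hx, u, ?_⟩
  simp [commutatorElement_def]

theorem iter_foc_map {G : Type*} [Group G] (K : Subgroup G) (n : ℕ) (M : Subgroup K) :
    ((fun X : Subgroup K => Subgroup.focalSubgroup X)^[n] M).map K.subtype ≤
      (fun X : Subgroup G => Subgroup.focalSubgroup X)^[n] (M.map K.subtype) := by
  induction n generalizing M with
  | zero => exact le_refl _
  | succ n ih =>
    rw [Function.iterate_succ_apply, Function.iterate_succ_apply]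
    exact (ih _).trans (iter_mono n (foc_map K M))

/-- An element whose order is coprime to the index of a normal subgroup lies in it. -/
theorem mem_of_coprime {K : Type*} [Group K] [Finite K] (N : Subgroup K) [N.Normal] (x : K)
    (h : (orderOf x).Coprime N.index) : x ∈ N := by
  have h1 : orderOf (QuotientGroup.mk' N x) ∣ orderOf x := orderOf_map_dvd _ x
  have h2 : orderOf (QuotientGroup.mk' N x) ∣ N.index := by
    rw [Subgroup.index_eq_card]; exact orderOf_dvd_natCard _
  have h3 : orderOf (QuotientGroup.mk' N x) = 1 :=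
    (Nat.Coprime.coprime_dvd_left h1 h).eq_one_of_dvd h2
  rw [orderOf_eq_one_iff] at h3
  exact (QuotientGroup.eq_one_iff x).mp h3

/-- Kernel of the focal transfer for a Hall subgroup. -/
theorem ker_props {G : Type*} [Group G] [Finite G] (H : Subgroup G)
    (hHall : (Nat.card H).Coprime H.index) :
    H.transferFocal.ker ⊓ H = H.focalSubgroup ∧
      Nat.card H.transferFocal.ker = Nat.card H.focalSubgroup * H.index := by
  have hdvd : Nat.card (H ⧸ H.focalSubgroupOf) ∣ Nat.card H :=
    Subgroup.card_quotient_dvd_card _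
  have hcop : (Nat.card (H ⧸ H.focalSubgroupOf)).Coprime H.index :=
    Nat.Coprime.coprime_dvd_left hdvd hHall
  have h1 : H.transferFocal.ker ⊓ H = H.focalSubgroup := by
    ext x
    rw [Subgroup.mem_inf, MonoidHom.mem_ker]
    constructor
    · rintro ⟨hx1, hx2⟩
      have e := H.transferFocal_eq_pow ⟨x, hx2⟩
      rw [hx1] at e
      have ho : orderOf ((⟨x, hx2⟩ : H) : H ⧸ H.focalSubgroupOf) = 1 :=
        (Nat.Coprime.coprime_dvd_left (orderOf_dvd_natCard _) hcop).eq_one_of_dvd
          (orderOf_dvd_of_pow_eq_one e.symm)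
      rw [orderOf_eq_one_iff, QuotientGroup.eq_one_iff, Subgroup.focalSubgroupOf_def,
        Subgroup.mem_subgroupOf] at ho
      exact ho
    · intro hx
      have hx2 : x ∈ H := H.focalSubgroup_le hx
      refine ⟨?_, hx2⟩
      have e := H.transferFocal_eq_pow ⟨x, hx2⟩
      have e1 : ((⟨x, hx2⟩ : H) : H ⧸ H.focalSubgroupOf) = 1 := by
        rw [QuotientGroup.eq_one_iff, Subgroup.focalSubgroupOf_def, Subgroup.mem_subgroupOf]
        exact hx
      rw [e1, one_pow] at e
      exact e
  refine ⟨h1, ?_⟩
  have h2 : H.transferFocal.ker.index ∣ H.focalSubgroup.relIndex H := by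
    rw [Subgroup.index_ker]
    have : Nat.card H.transferFocal.range ∣ Nat.card (H ⧸ H.focalSubgroupOf) :=
      Subgroup.card_subgroup_dvd_card _
    rw [← Subgroup.index_eq_card] at this
    exact this
  have h3 : H.focalSubgroup.relIndex H ∣ H.transferFocal.ker.index := by
    rw [← h1, Subgroup.inf_relIndex_right]
    exact Subgroup.relIndex_dvd_index_of_normal _ _
  have h4 : H.transferFocal.ker.index = H.focalSubgroup.relIndex H := Nat.dvd_antisymm h2 h3
  have h5 : Nat.card H.transferFocal.ker * H.transferFocal.ker.index = Nat.card G :=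
    Subgroup.card_mul_index _
  have h6 : Nat.card H * H.index = Nat.card G := Subgroup.card_mul_index _
  have h7 : Nat.card H.focalSubgroup * H.focalSubgroup.relIndex H = Nat.card H :=
    card_mul_relIndex H.focalSubgroup_le
  have hpos : 0 < H.focalSubgroup.relIndex H := by
    rcases Nat.eq_zero_or_pos (H.focalSubgroup.relIndex H) with h | h
    · rw [h, mul_zero] at h7
      exact absurd h7.symm (Nat.card_pos (α := H)).ne'
    · exact h
  rw [h4] at h5
  rw [← h7] at h6
  have h8 : Nat.card H.transferFocal.ker * H.focalSubgroup.relIndex H =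
      (Nat.card H.focalSubgroup * H.index) * H.focalSubgroup.relIndex H := by
    rw [h5, ← h6]; ring
  exact Nat.eq_of_mul_eq_mul_right hpos h8

theorem aux (n : ℕ) : ∀ {G : Type u} [Group G] [Finite G] (H : Subgroup G),
    (Nat.card H).Coprime H.index →
    (fun K : Subgroup G => Subgroup.focalSubgroup K)^[n] H = ⊥ →
    ∃ N : Subgroup G, N.Normal ∧ Subgroup.IsComplement' N H := by
  induction n with
  | zero =>
    intro G _ _ H _ hfoc
    have hH : H = ⊥ := hfoc
    subst hH
    exact ⟨⊤, inferInstance, Subgroup.isComplement'_top_bot⟩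
  | succ n ih =>
    intro G _ _ H hHall hfoc
    rw [Function.iterate_succ_apply] at hfoc
    obtain ⟨hK1, hK2⟩ := ker_props H hHall
    obtain ⟨K, hK⟩ : ∃ K : Subgroup G, K = H.transferFocal.ker := ⟨_, rfl⟩
    rw [← hK] at hK1 hK2
    have hKn : K.Normal := by rw [hK]; infer_instance
    have hfK : H.focalSubgroup ≤ K := by rw [← hK1]; exact inf_le_left
    -- the Hall subgroup of `K`
    have hLc : Nat.card (H.focalSubgroup.subgroupOf K) = Nat.card H.focalSubgroup :=
      card_subgroupOf hfK
    have hLi : (H.focalSubgroup.subgroupOf K).index = H.index := by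
      have h1 : Nat.card (H.focalSubgroup.subgroupOf K) * (H.focalSubgroup.subgroupOf K).index =
          Nat.card K := Subgroup.card_mul_index _
      rw [hLc, hK2] at h1
      exact Nat.eq_of_mul_eq_mul_left Nat.card_pos h1
    have hLHall : (Nat.card (H.focalSubgroup.subgroupOf K)).Coprime
        (H.focalSubgroup.subgroupOf K).index := by
      rw [hLc, hLi]
      exact Nat.Coprime.coprime_dvd_left (Subgroup.card_dvd_of_le H.focalSubgroup_le) hHall
    have hLfoc : (fun X : Subgroup K => Subgroup.focalSubgroup X)^[n]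
        (H.focalSubgroup.subgroupOf K) = ⊥ := by
      have h1 := iter_foc_map K n (H.focalSubgroup.subgroupOf K)
      rw [Subgroup.map_subgroupOf_eq_of_le hfK, hfoc] at h1
      rw [eq_bot_iff]
      intro x hx
      have : (x : G) ∈ (⊥ : Subgroup G) := h1 (Subgroup.mem_map_of_mem _ hx)
      rw [Subgroup.mem_bot] at this
      rw [Subgroup.mem_bot]
      exact Subtype.ext this
    obtain ⟨N₀, hN₀n, hN₀c⟩ := ih (H.focalSubgroup.subgroupOf K) hLHall hLfoc
    have hN₀card : Nat.card N₀ = H.index := by
      have h1 := hN₀c.card_mul_card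
      have h2 : Nat.card (H.focalSubgroup.subgroupOf K) * (H.focalSubgroup.subgroupOf K).index =
          Nat.card K := Subgroup.card_mul_index _
      rw [← h2, hLi, mul_comm] at h1
      exact Nat.eq_of_mul_eq_mul_left Nat.card_pos h1
    have hN₀idx : N₀.index = Nat.card H.focalSubgroup := by
      have h1 : Nat.card N₀ * N₀.index = Nat.card K := Subgroup.card_mul_index _
      rw [hN₀card, hK2, mul_comm] at h1
      have hpos : 0 < H.index := by
        rw [← hN₀card]; exact Nat.card_pos
      exact Nat.eq_of_mul_eq_mul_right hpos h1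
    have hcard : Nat.card (N₀.map K.subtype) = H.index := by
      rw [card_map_subtype, hN₀card]
    refine ⟨N₀.map K.subtype, ?_, ?_⟩
    · constructor
      rintro _ ⟨x, hx, rfl⟩ g
      have hmem : g * (x : G) * g⁻¹ ∈ K := hKn.conj_mem _ x.2 g
      have ho : orderOf (⟨g * (x : G) * g⁻¹, hmem⟩ : K) = orderOf x := by
        rw [← Subgroup.orderOf_coe, ← Subgroup.orderOf_coe]
        have e : g * (x : G) * g⁻¹ = MulAut.conj g (x : G) := (MulAut.conj_apply g (x : G)).symm
        show orderOf (g * (x : G) * g⁻¹) = orderOf (x : G)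
        rw [e]
        exact MulEquiv.orderOf_eq _ _
      have hx' : (⟨g * (x : G) * g⁻¹, hmem⟩ : K) ∈ N₀ := by
        apply mem_of_coprime N₀
        rw [ho, hN₀idx]
        have h1 : orderOf x ∣ Nat.card N₀ := by
          have := orderOf_dvd_natCard (⟨x, hx⟩ : N₀)
          rwa [Subgroup.orderOf_mk] at this
        rw [hN₀card] at h1
        exact (Nat.Coprime.coprime_dvd_left h1
          (Nat.Coprime.coprime_dvd_left (Subgroup.card_dvd_of_le H.focalSubgroup_le) hHall).symm)
      exact ⟨_, hx', rfl⟩
    · apply Subgroup.isComplement'_of_coprime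
      · rw [hcard, mul_comm]; exact Subgroup.card_mul_index H
      · rw [hcard]; exact hHall.symm

/-- Let H be a subgroup of a finite group G with order coprime to its index. If iterating the focal-subgroup construction starting from H reaches the trivial subgroup after finitely many steps, then H has a normal complement in G. -/
theorem result {G : Type*} [Group G] [Finite G] (H : Subgroup G) (hHall : (Nat.card H).Coprime H.index) (n : ℕ) (hfoc : (fun K : Subgroup G => Subgroup.focalSubgroup K)^[n] H = ⊥) : ∃ N : Subgroup G, N.Normal ∧ Subgroup.IsComplement' N H :=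
  aux n H hHall hfoc

end Cfsg.Agent.S0557
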