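import Cfsg.Statements.S0558
import Mathlib
import Cfsg.Agent.Lib.Helper2.Frob
import Cfsg.Agent.Lib.Helper2.FusCtl
import Cfsg.Agent.Lib.Helper2.Hall
import Cfsg.Agent.Lib.Helper2.Hall2
import Cfsg.Agent.Lib.Helper2.Nilp
-- import your own Cfsg.Agent.* helpers here

set_option autoImplicit false
open Cfsg

namespace Cfsg.Agent.S0558

open Cfsg.Agent.Lib.Helper2
open scoped Pointwise

/-- A Sylow subgroup of `H` whose normalizer in `G` is `H` is a Sylow subgroup of `G`. -/
theorem sylowG {G : Type*} [Group G] [Finite G] (H : Subgroup G) (p : ℕ) [Fact p.Prime]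
    (P : Sylow p H)
    (hn : Subgroup.normalizer (((P : Subgroup H).map H.subtype : Subgroup G) : Set G) = H) :
    ∃ Ps : Sylow p G, (Ps : Subgroup G) = (P : Subgroup H).map H.subtype := by
  have hP0 : IsPGroup p ((P : Subgroup H).map H.subtype) := P.isPGroup'.map _
  obtain ⟨Ps, hle⟩ := hP0.exists_le_sylow
  refine ⟨Ps, ?_⟩
  by_contra hne
  have hlt := Frob.card_lt_card_inf_normalizer (Ps : Subgroup G) Ps.isPGroup'
    ((P : Subgroup H).map H.subtype) hle (fun h => hne h.symm)
  rw [hn] at hlt
  have hnle : ¬ ((Ps : Subgroup G) ⊓ H ≤ (P : Subgroup H).map H.subtype) := by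
    intro h
    exact absurd (Subgroup.card_le_of_le h) (not_le.mpr hlt)
  obtain ⟨x, hx, hxP⟩ := SetLike.not_le_iff_exists.mp hnle
  have hxH : x ∈ H := hx.2
  have hpg : IsPGroup p (((Ps : Subgroup G) ⊓ H).subgroupOf H) :=
    (Ps.isPGroup'.to_le inf_le_left).comap_subtype
  have hle2 : (P : Subgroup H) ≤ ((Ps : Subgroup G) ⊓ H).subgroupOf H := by
    intro y hy
    rw [Subgroup.mem_subgroupOf]
    exact ⟨hle ⟨y, hy, rfl⟩, y.2⟩
  have hmax := P.is_maximal' hpg hle2
  apply hxP
  refine ⟨⟨x, hxH⟩, ?_, rfl⟩
  have : (⟨x, hxH⟩ : H) ∈ ((Ps : Subgroup G) ⊓ H).subgroupOf H := by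
    rw [Subgroup.mem_subgroupOf]; exact hx
  rw [hmax] at this
  exact this

/-- Let H be a subgroup of a finite group G that is not a Sylow subgroup of G for any prime, and suppose that for every prime p dividing the order of H and every Sylow p-subgroup P of H the normalizer of P in G is exactly H. Then some normal subgroup of G is a complement to H. -/
theorem result {G : Type*} [Group G] [Finite G] (H : Subgroup G) (hnot : ∀ p : ℕ, p.Prime → ∀ P : Sylow p G, (P : Subgroup G) ≠ H) (hnorm : ∀ p : ℕ, p.Prime → p ∣ Nat.card H → ∀ P : Sylow p H, Subgroup.normalizer (((P : Subgroup H).map H.subtype : Subgroup G) : Set G) = H) : ∃ N : Subgroup G, N.Normal ∧ Subgroup.IsComplement' N H := by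
  -- Sylow subgroups of `H` are normal in `H`
  have hnormal : ∀ (p : ℕ) (_ : Fact p.Prime) (P : Sylow p H), (P : Subgroup H).Normal := by
    intro p hp P
    by_cases hdvd : p ∣ Nat.card H
    · constructor
      intro y hy h
      have h1 : (h : G) ∈ Subgroup.normalizer (((P : Subgroup H).map H.subtype : Subgroup G) : Set G) := by
        rw [hnorm p hp.out hdvd P]; exact h.2
      have h2 := (Subgroup.mem_normalizer_iff.mp h1 (y : G)).mp ⟨y, hy, rfl⟩
      obtain ⟨z, hz, hzeq⟩ := h2
      have : z = h * y * h⁻¹ := Subtype.ext (by simpa using hzeq)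
      rw [← this]
      exact hz
    · have h1 : Nat.card (P : Subgroup H) = 1 := by
        rw [Sylow.card_eq_multiplicity, Nat.factorization_eq_zero_of_not_dvd hdvd, pow_zero]
      rw [Subgroup.card_eq_one] at h1
      rw [h1]
      infer_instance
  have hnil : Group.IsNilpotent H := ((Group.isNilpotent_of_finite_tfae (G := H)).out 0 3).mpr hnormal
  -- normal `p`-complements
  have hK : ∀ p : ℕ, p.Prime → p ∣ Nat.card H → Cfsg.HasNormalPComplement p G := by
    intro p hp hdvd
    have : Fact p.Prime := ⟨hp⟩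
    obtain ⟨P⟩ : Nonempty (Sylow p H) := inferInstance
    obtain ⟨Ps, hPs⟩ := sylowG H p P (hnorm p hp hdvd P)
    -- another prime
    have hq : ∃ q : ℕ, q.Prime ∧ q ∣ Nat.card H ∧ q ≠ p := by
      by_contra hcon
      push Not at hcon
      have hcard : Nat.card H = p ^ (Nat.card H).primeFactorsList.length :=
        Nat.eq_prime_pow_of_unique_prime_dvd Nat.card_pos.ne' (fun {d} hd hdn => hcon d hd hdn)
      have hHp : IsPGroup p (⊤ : Subgroup H) := by
        have : IsPGroup p H := IsPGroup.of_card hcard
        exact this.to_subgroup _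
      have htop := P.is_maximal' hHp le_top
      apply hnot p hp Ps
      rw [hPs, ← htop, ← MonoidHom.range_eq_map, Subgroup.range_subtype]
    obtain ⟨q, hq, hqdvd, hqp⟩ := hq
    have : Fact q.Prime := ⟨hq⟩
    obtain ⟨Q⟩ : Nonempty (Sylow q H) := inferInstance
    obtain ⟨Qs, hQs⟩ := sylowG H q Q (hnorm q hq hqdvd Q)
    -- `Q` centralizes `P`
    have hcomm : ∀ x ∈ (Ps : Subgroup G), ∀ y ∈ (Qs : Subgroup G), y * x = x * y := by
      intro x hx y hy
      rw [hPs] at hx
      rw [hQs] at hy
      obtain ⟨x', hx', rfl⟩ := hx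
      obtain ⟨y', hy', rfl⟩ := hy
      obtain ⟨k, hk⟩ := (IsPGroup.iff_orderOf.mp P.isPGroup') ⟨x', hx'⟩
      obtain ⟨l, hl⟩ := (IsPGroup.iff_orderOf.mp Q.isPGroup') ⟨y', hy'⟩
      rw [Subgroup.orderOf_mk] at hk hl
      have hcop : Nat.Coprime (orderOf y') (orderOf x') := by
        rw [hk, hl]
        exact Nat.Coprime.pow _ _ ((Nat.coprime_primes hq hp).mpr hqp)
      have := Nilp.commute_of_coprime H inferInstance y' x' hcop
      exact congrArg Subtype.val this
    obtain ⟨K, hKn, hKc⟩ := FusCtl.exists_normal_complement Ps (by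
      intro x hx y hy ⟨g, hg⟩
      -- both `Qs` and `g • Qs` lie in the centralizer of `y`
      have memC : ∀ c : G, c ∈ Subgroup.centralizer ({y} : Set G) ↔ y * c = c * y := by
        intro c
        rw [Subgroup.mem_centralizer_iff]
        constructor
        · intro h; exact h _ rfl
        · intro h z hz
          rw [Set.mem_singleton_iff] at hz
          subst hz
          exact h
      have h1 : (Qs : Subgroup G) ≤ Subgroup.centralizer ({y} : Set G) := by
        intro c hc
        rw [memC]
        exact (hcomm y hy c hc).symm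
      have h2 : ((g • Qs : Sylow q G) : Subgroup G) ≤ Subgroup.centralizer ({y} : Set G) := by
        intro c hc
        rw [Sylow.coe_subgroup_smul, Subgroup.mem_pointwise_smul_iff_inv_smul_mem] at hc
        have hc' : g⁻¹ * c * g ∈ (Qs : Subgroup G) := by simpa [MulAut.smul_def] using hc
        rw [memC, ← hg]
        have h3 := hcomm x hx _ hc'
        calc g * x * g⁻¹ * c = g * (x * (g⁻¹ * c * g)) * g⁻¹ := by group
          _ = g * ((g⁻¹ * c * g) * x) * g⁻¹ := by rw [h3]
          _ = c * (g * x * g⁻¹) := by group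
      obtain ⟨d, hd, hdQ⟩ := Hall2.exists_smul_eq_of_le Qs (g • Qs) _ h1 h2
      rw [← mul_smul] at hdQ
      have hnH : d * g ∈ H := by
        have h3 : d * g ∈ Subgroup.normalizer ((Qs : Subgroup G) : Set G) :=
          Sylow.smul_eq_iff_mem_normalizer.mp hdQ
        rw [hQs, hnorm q hq hqdvd Q] at h3
        exact h3
      obtain ⟨a, ha, c, hc, hac⟩ := Nilp.exists_mul_centralizer P ⟨d * g, hnH⟩
      refine ⟨(a : G), ?_, ?_⟩
      · have : (a : G) ∈ (Ps : Subgroup G) := by
          rw [hPs]; exact ⟨a, ha, rfl⟩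
        exact this
      · have hx' : x ∈ (Ps : Subgroup G) := hx
        rw [hPs] at hx'
        obtain ⟨x', hx'P, rfl⟩ := hx'
        rw [Subgroup.mem_centralizer_iff] at hc
        have h4 : x' * c = c * x' := hc x' hx'P
        have h5 : (c : G) * (x' : G) * (c : G)⁻¹ = x' := by
          have := congrArg Subtype.val h4
          simp only [Subgroup.coe_mul] at this
          rw [← this]; group
        have h6 : d * g = (a : G) * (c : G) := by
          have := congrArg Subtype.val hac
          simpa using this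
        have h7 : d * y * d⁻¹ = y := by
          have := (memC d).mp hd
          rw [← this]; group
        calc (a : G) * H.subtype x' * (a : G)⁻¹
            = (a : G) * ((c : G) * (x' : G) * (c : G)⁻¹) * (a : G)⁻¹ := by rw [h5]; rfl
          _ = ((a : G) * (c : G)) * (x' : G) * ((a : G) * (c : G))⁻¹ := by group
          _ = (d * g) * (x' : G) * (d * g)⁻¹ := by rw [h6]
          _ = d * (g * (x' : G) * g⁻¹) * d⁻¹ := by group
          _ = d * y * d⁻¹ := by rw [← hg]; rfl
          _ = y := h7)
    exact ⟨Ps, K, hKn, hKc⟩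
  -- `H` is a Hall subgroup
  have hHall : Nat.Coprime (Nat.card H) H.index := by
    apply Nat.coprime_of_dvd
    intro p hp hdvd hidx
    have : Fact p.Prime := ⟨hp⟩
    obtain ⟨P⟩ : Nonempty (Sylow p H) := inferInstance
    obtain ⟨Ps, hPs⟩ := sylowG H p P (hnorm p hp hdvd P)
    have h1 : H.index ∣ (Ps : Subgroup G).index := by
      rw [hPs]
      exact Subgroup.index_dvd_of_le (Subgroup.map_subtype_le _)
    exact Ps.not_dvd_index (hidx.trans h1)
  exact Hall.exists_normal_complement_of_forall H hHall hK

end Cfsg.Agent.S0558
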