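import Cfsg.Statements.S0566
import Mathlib

set_option autoImplicit false
open Pointwise
open Cfsg

namespace Cfsg.Agent.S0566

theorem mem_conj_smul {G : Type*} [Group G] (B : Subgroup G) (x g : G) :
    g ∈ MulAut.conj x • B ↔ x⁻¹ * g * x ∈ B := by
  rw [Subgroup.mem_pointwise_smul_iff_inv_smul_mem, MulAut.smul_def, MulAut.conj_inv_apply]

/-- `C * X ⊆ X * C`, elementwise. -/
def Perm {G : Type*} [Group G] (X C : Subgroup G) : Prop :=
  ∀ c ∈ C, ∀ x ∈ X, ∃ x' ∈ X, ∃ c' ∈ C, c * x = x' * c'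

theorem perm_of_subgroup {G : Type*} [Group G] (X C S : Subgroup G)
    (hS : (S : Set G) = (X : Set G) * (C : Set G)) : Perm X C := by
  intro c hc x hx
  have h1 : x⁻¹ * c⁻¹ ∈ (S : Set G) := by
    rw [hS]; exact Set.mul_mem_mul (X.inv_mem hx) (C.inv_mem hc)
  have h2 : (x⁻¹ * c⁻¹)⁻¹ ∈ (S : Set G) := S.inv_mem h1
  rw [hS] at h2
  obtain ⟨x', hx', c', hc', e⟩ := h2
  refine ⟨x', hx', c', hc', ?_⟩
  have e' : x' * c' = (x⁻¹ * c⁻¹)⁻¹ := e
  rw [e']; group

theorem subgroup_of_perm {G : Type*} [Group G] (W C : Subgroup G) (h : Perm W C) :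
    ∃ S : Subgroup G, (S : Set G) = (W : Set G) * (C : Set G) := by
  refine ⟨{ carrier := (W : Set G) * (C : Set G)
            mul_mem' := ?_
            one_mem' := ⟨1, W.one_mem, 1, C.one_mem, by simp⟩
            inv_mem' := ?_ }, rfl⟩
  · rintro _ _ ⟨w, hw, c, hc, rfl⟩ ⟨w', hw', c', hc', rfl⟩
    obtain ⟨w'', hw'', c'', hc'', e⟩ := h c hc w' hw'
    refine ⟨w * w'', W.mul_mem hw hw'', c'' * c', C.mul_mem hc'' hc', ?_⟩
    calc w * w'' * (c'' * c') = w * (w'' * c'') * c' := by group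
      _ = w * (c * w') * c' := by rw [e]
      _ = w * c * (w' * c') := by group
  · rintro _ ⟨w, hw, c, hc, rfl⟩
    obtain ⟨w'', hw'', c'', hc'', e⟩ := h c⁻¹ (C.inv_mem hc) w⁻¹ (W.inv_mem hw)
    refine ⟨w'', hw'', c'', hc'', ?_⟩
    show w'' * c'' = (w * c)⁻¹
    rw [← e]; group

theorem perm_sup {G : Type*} [Group G] (X Y C : Subgroup G) (hX : Perm X C) (hY : Perm Y C) :
    Perm (X ⊔ Y) C := by
  let T : Subgroup G :=
    { carrier := {w | (∀ c ∈ C, ∃ w' ∈ X ⊔ Y, ∃ c' ∈ C, c * w = w' * c') ∧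
        (∀ c ∈ C, ∃ w' ∈ X ⊔ Y, ∃ c' ∈ C, c * w⁻¹ = w' * c')}
      mul_mem' := by
        rintro w₁ w₂ ⟨h1, h1'⟩ ⟨h2, h2'⟩
        refine ⟨?_, ?_⟩
        · intro c hc
          obtain ⟨u, hu, d, hd, e⟩ := h1 c hc
          obtain ⟨u', hu', d', hd', e'⟩ := h2 d hd
          refine ⟨u * u', Subgroup.mul_mem _ hu hu', d', hd', ?_⟩
          calc c * (w₁ * w₂) = (c * w₁) * w₂ := by group
            _ = u * (d * w₂) := by rw [e]; group
            _ = u * u' * d' := by rw [e']; group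
        · intro c hc
          obtain ⟨u, hu, d, hd, e⟩ := h2' c hc
          obtain ⟨u', hu', d', hd', e'⟩ := h1' d hd
          refine ⟨u * u', Subgroup.mul_mem _ hu hu', d', hd', ?_⟩
          calc c * (w₁ * w₂)⁻¹ = (c * w₂⁻¹) * w₁⁻¹ := by group
            _ = u * (d * w₁⁻¹) := by rw [e]; group
            _ = u * u' * d' := by rw [e']; group
      one_mem' := by
        refine ⟨fun c hc => ⟨1, Subgroup.one_mem _, c, hc, by simp⟩,
          fun c hc => ⟨1, Subgroup.one_mem _, c, hc, by simp⟩⟩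
      inv_mem' := by
        rintro w ⟨h1, h1'⟩
        refine ⟨h1', ?_⟩
        intro c hc
        rw [inv_inv]
        exact h1 c hc }
  have hXT : X ≤ T := by
    intro x hx
    refine ⟨?_, ?_⟩
    · intro c hc
      obtain ⟨x', hx', c', hc', e⟩ := hX c hc x hx
      exact ⟨x', Subgroup.mem_sup_left hx', c', hc', e⟩
    · intro c hc
      obtain ⟨x', hx', c', hc', e⟩ := hX c hc x⁻¹ (X.inv_mem hx)
      exact ⟨x', Subgroup.mem_sup_left hx', c', hc', e⟩
  have hYT : Y ≤ T := by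
    intro x hx
    refine ⟨?_, ?_⟩
    · intro c hc
      obtain ⟨x', hx', c', hc', e⟩ := hY c hc x hx
      exact ⟨x', Subgroup.mem_sup_right hx', c', hc', e⟩
    · intro c hc
      obtain ⟨x', hx', c', hc', e⟩ := hY c hc x⁻¹ (Y.inv_mem hx)
      exact ⟨x', Subgroup.mem_sup_right hx', c', hc', e⟩
  intro c hc w hw
  exact ((sup_le hXT hYT) hw).1 c hc

/-- Let A and B be nontrivial subgroups of a finite group G such that for every x the product set of A and xBx⁻¹ is a proper subgroup of G. Then there is a proper normal subgroup of G containing A or containing B. -/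
theorem result {G : Type*} [Group G] [Finite G] (A B : Subgroup G) (hA : A ≠ ⊥) (hB : B ≠ ⊥) (h : ∀ x : G, ∃ S : Subgroup G, S ≠ ⊤ ∧ (S : Set G) = (A : Set G) * ((MulAut.conj x • B : Subgroup G) : Set G)) : ∃ N : Subgroup G, N.Normal ∧ N ≠ ⊤ ∧ (A ≤ N ∨ B ≤ N) := by
  by_cases hBn : Subgroup.normalClosure (B : Set G) = ⊤
  swap
  · exact ⟨Subgroup.normalClosure (B : Set G), inferInstance, hBn, Or.inr Subgroup.le_normalClosure⟩
  obtain ⟨A₀, ⟨hAA₀, hP⟩, hmax⟩ := exists_maximal_of_wellFoundedGT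
    (fun X : Subgroup G => A ≤ X ∧ ∀ x : G, ∃ S : Subgroup G, S ≠ ⊤ ∧
      (S : Set G) = (X : Set G) * ((MulAut.conj x • B : Subgroup G) : Set G)) ⟨A, le_rfl, h⟩
  -- every element of a conjugate of B conjugates A₀ into itself
  have key : ∀ (y b : G), b ∈ MulAut.conj y • B → ∀ w ∈ A₀, b * w * b⁻¹ ∈ A₀ := by
    intro y b hb w hw
    have hA₁ : (A ≤ A₀ ⊔ MulAut.conj b • A₀) ∧ ∀ x : G, ∃ S : Subgroup G, S ≠ ⊤ ∧
        (S : Set G) = ((A₀ ⊔ MulAut.conj b • A₀ : Subgroup G) : Set G) *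
          ((MulAut.conj x • B : Subgroup G) : Set G) := by
      refine ⟨hAA₀.trans le_sup_left, ?_⟩
      intro x
      have hp1 : Perm A₀ (MulAut.conj x • B) := by
        obtain ⟨S, -, hS⟩ := hP x
        exact perm_of_subgroup _ _ S hS
      have hp2 : Perm (MulAut.conj b • A₀) (MulAut.conj x • B) := by
        obtain ⟨S, -, hS⟩ := hP (b⁻¹ * x)
        have hp := perm_of_subgroup _ _ S hS
        intro c hc u hu
        rw [mem_conj_smul] at hc hu
        have hc' : b⁻¹ * c * b ∈ MulAut.conj (b⁻¹ * x) • B := by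
          rw [mem_conj_smul]
          have e : (b⁻¹ * x)⁻¹ * (b⁻¹ * c * b) * (b⁻¹ * x) = x⁻¹ * c * x := by group
          rw [e]; exact hc
        obtain ⟨u', hu', c', hc'', e⟩ := hp _ hc' _ hu
        refine ⟨b * u' * b⁻¹, ?_, b * c' * b⁻¹, ?_, ?_⟩
        · rw [mem_conj_smul]
          have e1 : b⁻¹ * (b * u' * b⁻¹) * b = u' := by group
          rw [e1]; exact hu'
        · rw [mem_conj_smul] at hc'' ⊢
          have e1 : x⁻¹ * (b * c' * b⁻¹) * x = (b⁻¹ * x)⁻¹ * c' * (b⁻¹ * x) := by group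
          rw [e1]; exact hc''
        · calc c * u = b * ((b⁻¹ * c * b) * (b⁻¹ * u * b)) * b⁻¹ := by group
            _ = b * (u' * c') * b⁻¹ := by rw [e]
            _ = b * u' * b⁻¹ * (b * c' * b⁻¹) := by group
      obtain ⟨S₁, hS₁⟩ := subgroup_of_perm _ _ (perm_sup _ _ _ hp1 hp2)
      refine ⟨S₁, ?_, hS₁⟩
      intro htop
      obtain ⟨M, hMtop, hM⟩ := hP y
      have hA₀M : A₀ ≤ M := by
        intro a ha
        have : a ∈ (M : Set G) := by
          rw [hM]; exact ⟨a, ha, 1, Subgroup.one_mem _, by simp⟩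
        exact this
      have hCM : MulAut.conj y • B ≤ M := by
        intro a ha
        have : a ∈ (M : Set G) := by
          rw [hM]; exact ⟨1, Subgroup.one_mem _, a, ha, by simp⟩
        exact this
      have hbM : b ∈ M := hCM hb
      have hA₁M : A₀ ⊔ MulAut.conj b • A₀ ≤ M := by
        apply sup_le hA₀M
        intro u hu
        rw [mem_conj_smul] at hu
        have e : u = b * (b⁻¹ * u * b) * b⁻¹ := by group
        rw [e]
        exact M.mul_mem (M.mul_mem hbM (hA₀M hu)) (M.inv_mem hbM)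
      have hdec : ∀ g : G, ∃ m ∈ M, ∃ c ∈ MulAut.conj x • B, g = m * c := by
        intro g
        have hg : g ∈ (S₁ : Set G) := by rw [htop]; trivial
        rw [hS₁] at hg
        obtain ⟨u, hu, c, hc, e⟩ := hg
        exact ⟨u, hA₁M hu, c, hc, e.symm⟩
      have hCxM : MulAut.conj x • B ≤ M := by
        obtain ⟨m, hm, c, hc, e⟩ := hdec (y * x⁻¹)
        intro u hu
        -- u = c * u' * c⁻¹ with u' ∈ conj x • B
        have hu' : c⁻¹ * u * c ∈ MulAut.conj x • B :=
          Subgroup.mul_mem _ (Subgroup.mul_mem _ (Subgroup.inv_mem _ hc) hu) hc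
        have h1 : (y * x⁻¹) * (c⁻¹ * u * c) * (y * x⁻¹)⁻¹ ∈ MulAut.conj y • B := by
          rw [mem_conj_smul] at hu' ⊢
          have e1 : y⁻¹ * ((y * x⁻¹) * (c⁻¹ * u * c) * (y * x⁻¹)⁻¹) * y =
              x⁻¹ * (c⁻¹ * u * c) * x := by group
          rw [e1]; exact hu'
        have h2 := hCM h1
        rw [e] at h2
        have e2 : m * c * (c⁻¹ * u * c) * (m * c)⁻¹ = m * u * m⁻¹ := by group
        rw [e2] at h2
        have e3 : u = m⁻¹ * (m * u * m⁻¹) * m := by group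
        rw [e3]
        exact M.mul_mem (M.mul_mem (M.inv_mem hm) h2) hm
      apply hMtop
      rw [eq_top_iff]
      intro g _
      obtain ⟨m, hm, c, hc, e⟩ := hdec g
      rw [e]
      exact M.mul_mem hm (hCxM hc)
    have hle : A₀ ≤ A₀ ⊔ MulAut.conj b • A₀ := le_sup_left
    have hge := hmax hA₁ hle
    apply hge
    apply Subgroup.mem_sup_right
    rw [mem_conj_smul]
    have e : b⁻¹ * (b * w * b⁻¹) * b = w := by group
    rw [e]; exact hw
  have hnorm : Subgroup.normalizer (A₀ : Set G) = ⊤ := by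
    rw [eq_top_iff, ← hBn]
    unfold Subgroup.normalClosure
    rw [Subgroup.closure_le]
    intro g hg
    rw [Group.mem_conjugatesOfSet_iff] at hg
    obtain ⟨b₀, hb₀, hconj⟩ := hg
    rw [isConj_iff] at hconj
    obtain ⟨y, rfl⟩ := hconj
    have hmem : y * b₀ * y⁻¹ ∈ MulAut.conj y • B := by
      rw [mem_conj_smul]
      have e : y⁻¹ * (y * b₀ * y⁻¹) * y = b₀ := by group
      rw [e]; exact hb₀
    have hmem' : (y * b₀ * y⁻¹)⁻¹ ∈ MulAut.conj y • B := Subgroup.inv_mem _ hmem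
    rw [SetLike.mem_coe, Subgroup.mem_normalizer_iff]
    intro w
    constructor
    · intro hw
      exact key y _ hmem w hw
    · intro hw
      have := key y _ hmem' _ hw
      have e : (y * b₀ * y⁻¹)⁻¹ * ((y * b₀ * y⁻¹) * w * (y * b₀ * y⁻¹)⁻¹) * (y * b₀ * y⁻¹)⁻¹⁻¹ = w := by
        group
      rwa [e] at this
  refine ⟨A₀, Subgroup.normalizer_eq_top_iff.mp hnorm, ?_, Or.inl hAA₀⟩
  obtain ⟨S, hStop, hS⟩ := hP 1
  intro htop
  apply hStop
  rw [eq_top_iff]
  intro g _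
  have : g ∈ (S : Set G) := by
    rw [hS]
    exact ⟨g, by rw [htop]; trivial, 1, Subgroup.one_mem _, by simp⟩
  exact this

end Cfsg.Agent.S0566
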