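import Mathlib
import Cfsg.Statements.S0605
import Cfsg.Agent.Lib.Helper10.Thompson

set_option autoImplicit false
open Cfsg

namespace Cfsg.Agent.S0605

open Cfsg.Agent.Lib.Helper10.Thompson

theorem ea_zpowers {G : Type*} [Group G] {p : ℕ} (x : G) (hx : orderOf x = p) :
    Cfsg.IsElementaryAbelian p (Subgroup.zpowers x) := by
  refine ⟨inferInstance, ?_⟩
  intro a ha
  obtain ⟨k, rfl⟩ := Subgroup.mem_zpowers_iff.mp ha
  rw [← zpow_natCast, ← zpow_mul, mul_comm, zpow_mul, zpow_natCast, ← hx, pow_orderOf_eq_one,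
    one_zpow]

theorem result {G : Type*} [Group G] [Finite G] {p : ℕ} [Fact p.Prime] (x : G) (hx : x ∈ Subgroup.centralizer (Cfsg.thompsonSubgroup p G : Set G)) (ho : orderOf x = p) : x ∈ Cfsg.thompsonSubgroup p G := by
  obtain ⟨A, hA⟩ := exists_max (G := G) p
  have hAJ : A ≤ Cfsg.thompsonSubgroup p G := le_sSup hA
  have hcent : Subgroup.zpowers x ≤ Subgroup.centralizer (A : Set G) := by
    rw [Subgroup.zpowers_le]
    exact Subgroup.centralizer_le hAJ hx
  have hea := ea_sup (ea_zpowers x ho) hA.1 hcent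
  have hcard := hA.2 _ hea
  have heq : A = Subgroup.zpowers x ⊔ A := Subgroup.eq_of_le_of_card_ge le_sup_right hcard
  apply hAJ
  rw [heq]
  exact Subgroup.mem_sup_left (Subgroup.mem_zpowers x)

end Cfsg.Agent.S0605
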