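import Mathlib
import Cfsg.Statements.S4075

set_option autoImplicit false
open Cfsg

namespace Cfsg.Agent.S4075

/-- A subgroup containing a Sylow `p`-subgroup for every prime `p` is the whole group. -/
theorem eq_top_of_forall_sylow_le {G : Type*} [Group G] [Finite G] (K : Subgroup G)
    (h : ∀ (p : ℕ) [Fact p.Prime], ∃ P : Sylow p G, (P : Subgroup G) ≤ K) : K = ⊤ := by
  have hcard : Nat.card G ∣ Nat.card K := by
    rw [← Nat.factorization_prime_le_iff_dvd (Nat.card_pos.ne') (Nat.card_pos.ne')]
    intro p hp
    have : Fact p.Prime := ⟨hp⟩
    obtain ⟨P, hP⟩ := h p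
    have h1 := P.card_eq_multiplicity
    have h2 : Nat.card (P : Subgroup G) ∣ Nat.card K := Subgroup.card_dvd_of_le hP
    rw [h1] at h2
    exact (hp.pow_dvd_iff_le_factorization (Nat.card_pos.ne')).1 h2
  apply Subgroup.eq_top_of_card_eq
  exact Nat.dvd_antisymm (Subgroup.card_subgroup_dvd_card _) hcard

/-- Let G be a finite nilpotent group. Every non-abelian subgroup of G is self-normalizing if and only if G is abelian or G is a minimal non-abelian p-group for some prime p (non-abelian of prime-power order with every proper subgroup abelian). -/
theorem result {G : Type*} [Group G] [Finite G]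
    [Group.IsNilpotent G] :
    (∀ H : Subgroup G, ¬ IsMulCommutative H → Subgroup.normalizer (H : Set G) = H) ↔
    (IsMulCommutative G ∨ (IsPrimePow (Nat.card G) ∧ ¬ IsMulCommutative G ∧ ∀ H : Subgroup G, H ≠ ⊤ → IsMulCommutative H)) := by
  constructor
  · intro hSN
    by_cases hG : IsMulCommutative G
    · left; exact hG
    · right
      have hprop : ∀ H : Subgroup G, H ≠ ⊤ → IsMulCommutative H := by
        intro H hH
        by_contra hna
        have h1 := hSN H hna
        have h2 := Group.normalizerCondition_of_isNilpotent (G := G) H (lt_top_iff_ne_top.2 hH)
        rw [h1] at h2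
        exact lt_irrefl _ h2
      refine ⟨?_, hG, hprop⟩
      by_contra hnpp
      have hnormal : ∀ (p : ℕ) [Fact p.Prime] (P : Sylow p G), (P : Subgroup G).Normal := by
        intro p _ P
        have hnil : Group.IsNilpotent G := inferInstance
        have h := ((Group.isNilpotent_of_finite_tfae (G := G)).out 0 3).1 hnil
        exact h p inferInstance P
      have hcomm : ∀ (p : ℕ) [Fact p.Prime] (P : Sylow p G), IsMulCommutative (P : Subgroup G) := by
        intro p hp P
        apply hprop
        intro htop
        obtain ⟨k, hk⟩ := IsPGroup.iff_card.1 P.isPGroup'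
        have hcardG : Nat.card G = p ^ k := by
          rw [← hk, htop, Subgroup.card_top]
        rcases Nat.eq_zero_or_pos k with h0 | h0
        · rw [h0, pow_zero] at hcardG
          apply hG
          have hsub : Subsingleton G := (Nat.card_eq_one_iff_unique.1 hcardG).1
          exact ⟨⟨fun a b => Subsingleton.elim _ _⟩⟩
        · apply hnpp
          rw [hcardG]
          exact ⟨p, k, hp.out.prime, h0, rfl⟩
      have hcenter : ∀ (p : ℕ) [Fact p.Prime] (P : Sylow p G), (P : Subgroup G) ≤ Subgroup.center G := by
        intro p hp P
        have hK : Subgroup.centralizer ((P : Subgroup G) : Set G) = ⊤ := by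
          apply eq_top_of_forall_sylow_le
          intro q hq
          obtain ⟨Q⟩ : Nonempty (Sylow q G) := inferInstance
          refine ⟨Q, ?_⟩
          intro x hx
          rw [Subgroup.mem_centralizer_iff]
          intro y hy
          by_cases hpq : p = q
          · subst hpq
            have hPn := hnormal p P
            have hsub : Subsingleton (Sylow p G) := (Sylow.unique_of_normal P hPn).instSubsingleton
            have hQP : Q = P := Subsingleton.elim _ _
            rw [hQP] at hx
            have := hcomm p P
            exact setLike_mul_comm (s := (P : Subgroup G)) hy hx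
          · have hPn := hnormal p P
            have hQn := hnormal q Q
            have hdis : Disjoint (P : Subgroup G) (Q : Subgroup G) :=
              IsPGroup.disjoint_of_ne p q hpq _ _ P.isPGroup' Q.isPGroup'
            exact (Subgroup.commute_of_normal_of_disjoint _ _ hPn hQn hdis y x hy hx).eq
        intro x hx
        rw [Subgroup.mem_center_iff]
        intro g
        have hg : g ∈ Subgroup.centralizer ((P : Subgroup G) : Set G) := by rw [hK]; exact Subgroup.mem_top g
        rw [Subgroup.mem_centralizer_iff] at hg
        exact (hg x hx).symm
      have hZ : Subgroup.center G = ⊤ := by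
        apply eq_top_of_forall_sylow_le
        intro q hq
        obtain ⟨Q⟩ : Nonempty (Sylow q G) := inferInstance
        exact ⟨Q, hcenter q Q⟩
      apply hG
      rw [isMulCommutative_iff]
      intro a b
      have ha : a ∈ Subgroup.center G := by rw [hZ]; exact Subgroup.mem_top a
      rw [Subgroup.mem_center_iff] at ha
      exact (ha b).symm
  · rintro (hG | ⟨_, _, hprop⟩) H hH
    · have hH' : IsMulCommutative H := inferInstance
      exact absurd hH' hH
    · have htop : H = ⊤ := by
        by_contra hne
        exact hH (hprop H hne)
      rw [htop]
      exact Subgroup.normalizer_eq_top_iff.2 inferInstance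

end Cfsg.Agent.S4075
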