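import Mathlib
import Cfsg.Statements.S4074

set_option autoImplicit false
open Cfsg

namespace Cfsg.Agent.S4074

open DihedralGroup

/-- The parity map on a dihedral group of even degree. -/
def par {n : ℕ} (h2 : 2 ∣ n) : DihedralGroup n → ZMod 2
  | r i => ZMod.castHom h2 (ZMod 2) i
  | sr i => ZMod.castHom h2 (ZMod 2) i

theorem zmod2_sub (a b : ZMod 2) : a - b = a + b := by
  revert a b; decide

theorem zmod2_neg (a : ZMod 2) : -a = a := by
  revert a; decide

theorem par_mul {n : ℕ} (h2 : 2 ∣ n) (a b : DihedralGroup n) : par h2 (a * b) = par h2 a + par h2 b := by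
  cases a with
  | r i =>
    cases b with
    | r j =>
      rw [r_mul_r]
      exact map_add (ZMod.castHom h2 (ZMod 2)) i j
    | sr j =>
      rw [r_mul_sr]
      change ZMod.castHom h2 (ZMod 2) (j - i) = ZMod.castHom h2 (ZMod 2) i + ZMod.castHom h2 (ZMod 2) j
      rw [map_sub, zmod2_sub, add_comm]
  | sr i =>
    cases b with
    | r j =>
      rw [sr_mul_r]
      exact map_add (ZMod.castHom h2 (ZMod 2)) i j
    | sr j =>
      rw [sr_mul_sr]
      change ZMod.castHom h2 (ZMod 2) (j - i) = ZMod.castHom h2 (ZMod 2) i + ZMod.castHom h2 (ZMod 2) j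
      rw [map_sub, zmod2_sub, add_comm]

theorem par_inv {n : ℕ} (h2 : 2 ∣ n) (a : DihedralGroup n) : par h2 a⁻¹ = par h2 a := by
  cases a with
  | r i =>
    rw [inv_r]
    change ZMod.castHom h2 (ZMod 2) (-i) = ZMod.castHom h2 (ZMod 2) i
    rw [map_neg, zmod2_neg]
  | sr i => rw [inv_sr]

theorem mem_normalizer_closure {G : Type*} [Group G] (S : Set G) (g : G)
    (h1 : ∀ s ∈ S, g * s * g⁻¹ ∈ Subgroup.closure S) (h2 : ∀ s ∈ S, g⁻¹ * s * g ∈ Subgroup.closure S) :
    g ∈ Subgroup.normalizer (Subgroup.closure S : Set G) := by
  have key : ∀ c : G, (∀ s ∈ S, c * s * c⁻¹ ∈ Subgroup.closure S) →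
      ∀ h ∈ Subgroup.closure S, c * h * c⁻¹ ∈ Subgroup.closure S := by
    intro c hc h hh
    induction hh using Subgroup.closure_induction with
    | mem y hy => exact hc y hy
    | one => simp
    | mul a b ha hb iha ihb =>
      have : c * (a * b) * c⁻¹ = (c * a * c⁻¹) * (c * b * c⁻¹) := by group
      rw [this]
      exact Subgroup.mul_mem _ iha ihb
    | inv a ha iha =>
      have : c * a⁻¹ * c⁻¹ = (c * a * c⁻¹)⁻¹ := by group
      rw [this]
      exact Subgroup.inv_mem _ iha
  rw [Subgroup.mem_normalizer_iff]
  intro h
  constructor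
  · exact key g h1 h
  · intro hh
    have h3 := key g⁻¹ (by simpa using h2) _ hh
    have e : g⁻¹ * (g * h * g⁻¹) * g⁻¹⁻¹ = h := by group
    rwa [e] at h3

/-- For n > 2, every non-abelian subgroup of the dihedral group of order 2n is self-normalizing if and only if n = 4 or n is odd. -/
theorem result (n : ℕ) (hn : 2 < n) :
    (∀ H : Subgroup (DihedralGroup n), ¬ IsMulCommutative H → Subgroup.normalizer (H : Set (DihedralGroup n)) = H) ↔
    (n = 4 ∨ Odd n) := by
  constructor
  · intro hSN
    by_contra hcon
    push Not at hcon
    obtain ⟨hn4, hnodd⟩ := hcon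
    have heven : Even n := Nat.not_odd_iff_even.1 hnodd
    have h2 : 2 ∣ n := even_iff_two_dvd.1 heven
    have hn6 : 6 ≤ n := by
      obtain ⟨k, hk⟩ := h2
      omega
    set H : Subgroup (DihedralGroup n) := Subgroup.closure {r 2, sr 0} with hH
    have hr2 : (r 2 : DihedralGroup n) ∈ H := Subgroup.subset_closure (by simp)
    have hs0 : (sr 0 : DihedralGroup n) ∈ H := Subgroup.subset_closure (by simp)
    have hna : ¬ IsMulCommutative H := by
      intro hc
      have h1 : (r 2 : DihedralGroup n) * sr 0 = sr 0 * r 2 := setLike_mul_comm (s := H) hr2 hs0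
      rw [r_mul_sr, sr_mul_r] at h1
      have h3 : (0 : ZMod n) - 2 = 0 + 2 := by
        injection h1
      have h4 : ((4 : ℕ) : ZMod n) = 0 := by
        have : (4 : ZMod n) = 0 := by linear_combination -h3
        exact_mod_cast this
      rw [ZMod.natCast_eq_zero_iff] at h4
      have := Nat.le_of_dvd (by norm_num) h4
      omega
    have hnorm := hSN H hna
    have hr1N : (r 1 : DihedralGroup n) ∈ Subgroup.normalizer (H : Set (DihedralGroup n)) := by
      apply mem_normalizer_closure
      · intro s hs
        rcases hs with rfl | rfl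
        · have : (r 1 : DihedralGroup n) * r 2 * (r 1)⁻¹ = r 2 := by
            rw [inv_r, r_mul_r, r_mul_r]; congr 1; ring
          rw [this]; exact hr2
        · have : (r 1 : DihedralGroup n) * sr 0 * (r 1)⁻¹ = sr 0 * (r 2)⁻¹ := by
            rw [inv_r, inv_r, r_mul_sr, sr_mul_r, sr_mul_r]; congr 1; ring
          rw [this]; exact H.mul_mem hs0 (H.inv_mem hr2)
      · intro s hs
        rcases hs with rfl | rfl
        · have : (r 1 : DihedralGroup n)⁻¹ * r 2 * (r 1) = r 2 := by
            rw [inv_r, r_mul_r, r_mul_r]; congr 1; ring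
          rw [this]; exact hr2
        · have : (r 1 : DihedralGroup n)⁻¹ * sr 0 * (r 1) = sr 0 * r 2 := by
            rw [inv_r, r_mul_sr, sr_mul_r, sr_mul_r]; congr 1; ring
          rw [this]; exact H.mul_mem hs0 hr2
    have hr1H : (r 1 : DihedralGroup n) ∈ H := by
      rw [← hnorm]; exact hr1N
    have hpar : ∀ h ∈ H, par h2 h = 0 := by
      intro h hh
      induction hh using Subgroup.closure_induction with
      | mem y hy =>
        rcases hy with rfl | rfl
        · have : (ZMod.castHom h2 (ZMod 2)) (2 : ZMod n) = 0 := by
            rw [map_ofNat]; decide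
          exact this
        · exact map_zero (ZMod.castHom h2 (ZMod 2))
      | one =>
        rw [one_def]
        exact map_zero (ZMod.castHom h2 (ZMod 2))
      | mul a b ha hb iha ihb => rw [par_mul, iha, ihb, add_zero]
      | inv a ha iha => rw [par_inv, iha]
    have h9 := hpar _ hr1H
    change ZMod.castHom h2 (ZMod 2) 1 = 0 at h9
    rw [map_one] at h9
    revert h9
    decide
  · intro hn4 H hna
    apply le_antisymm _ Subgroup.le_normalizer
    rcases hn4 with rfl | hodd
    · -- n = 4: a non-abelian subgroup is everything
      have hcard : Nat.card H ∣ 2 ^ 3 := by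
        have := Subgroup.card_subgroup_dvd_card H
        rw [nat_card] at this
        exact this
      obtain ⟨k, hk, hcardk⟩ := (Nat.dvd_prime_pow Nat.prime_two).1 hcard
      have hk3 : k = 3 := by
        by_contra hk3
        apply hna
        interval_cases k
        · rw [pow_zero] at hcardk
          have hsub : Subsingleton H := (Nat.card_eq_one_iff_unique.1 hcardk).1
          exact ⟨⟨fun a b => Subsingleton.elim _ _⟩⟩
        · rw [pow_one] at hcardk
          have : IsCyclic H := isCyclic_of_prime_card hcardk
          infer_instance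
        · exact IsPGroup.isMulCommutative_of_card_eq_prime_sq hcardk
        · exact absurd rfl hk3
      have htop : H = ⊤ := by
        apply Subgroup.eq_top_of_card_eq
        rw [hcardk, hk3, nat_card]; norm_num
      rw [htop]
      exact le_top
    · -- n odd
      have hex : ∃ i : ZMod n, (sr i : DihedralGroup n) ∈ H := by
        by_contra hno
        push Not at hno
        apply hna
        rw [isMulCommutative_iff]
        rintro ⟨a, ha⟩ ⟨b, hb⟩
        apply Subtype.ext
        cases a with
        | r i =>
          cases b with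
          | r j => simp [r_mul_r, add_comm]
          | sr j => exact absurd hb (hno j)
        | sr i => exact absurd ha (hno i)
      obtain ⟨i, hi⟩ := hex
      have hrot : ∀ j : ZMod n, (r j : DihedralGroup n) ∈ Subgroup.normalizer (H : Set (DihedralGroup n)) →
          (r j : DihedralGroup n) ∈ H := by
        intro j hj
        rw [Subgroup.mem_normalizer_iff] at hj
        have h1 := (hj (sr i)).1 hi
        have h2 : (r j : DihedralGroup n) * sr i * (r j)⁻¹ = sr (i - j - j) := by
          rw [inv_r, r_mul_sr, sr_mul_r]; congr 1; ring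
        rw [h2] at h1
        have h3 : (r (j + j) : DihedralGroup n) ∈ H := by
          have h4 := H.mul_mem h1 hi
          rw [sr_mul_sr] at h4
          have h5 : i - (i - j - j) = j + j := by ring
          rw [h5] at h4
          exact h4
        obtain ⟨m, hm⟩ := hodd
        have h6 : (r (j + j) : DihedralGroup n) ^ (m + 1) = r j := by
          rw [r_pow]
          congr 1
          have hn0 : ((n : ℕ) : ZMod n) = 0 := ZMod.natCast_self n
          have h7 : ((2 * m + 1 : ℕ) : ZMod n) = 0 := by rw [← hm]; exact hn0
          push_cast at h7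
          push_cast
          linear_combination j * h7
        rw [← h6]
        exact H.pow_mem h3 _
      intro g hg
      cases g with
      | r j => exact hrot j hg
      | sr j =>
        have h1 : (sr j : DihedralGroup n) * sr i ∈ Subgroup.normalizer (H : Set (DihedralGroup n)) :=
          Subgroup.mul_mem _ hg (Subgroup.le_normalizer hi)
        rw [sr_mul_sr] at h1
        have h2 := hrot _ h1
        have h3 : (sr j : DihedralGroup n) = r (i - j) * sr i := by
          rw [r_mul_sr]; congr 1; ring
        rw [h3]
        exact H.mul_mem h2 hi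

end Cfsg.Agent.S4074
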