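import Mathlib
import Cfsg.Statements.S4072
import Cfsg.Agent.Lib.Helper70.FrattiniQuot

set_option autoImplicit false

namespace Cfsg.Agent.S4072

open scoped commutatorElement

theorem mem_normalizer_of_conj_mem {G : Type*} [Group G] [Finite G] (H : Subgroup G) (g : G)
    (h : ∀ x ∈ H, g * x * g⁻¹ ∈ H) : g ∈ Subgroup.normalizer (H : Set G) := by
  rw [Subgroup.mem_normalizer_iff]
  intro x
  refine ⟨h x, fun hx => ?_⟩
  let f : H → H := fun y => ⟨g * y * g⁻¹, h y y.2⟩
  have hinj : Function.Injective f := by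
    intro a b hab
    have h1 : g * (a : G) * g⁻¹ = g * (b : G) * g⁻¹ := congrArg Subtype.val hab
    exact Subtype.ext (by simpa using h1)
  obtain ⟨y, hy⟩ := (Finite.injective_iff_surjective.1 hinj) ⟨_, hx⟩
  have h1 : g * (y : G) * g⁻¹ = g * x * g⁻¹ := congrArg Subtype.val hy
  have hxy : (y : G) = x := by simpa using h1
  rw [← hxy]; exact y.2

theorem no_abelian_selfnormalizing_sylow {Q : Type*} [Group Q] [Finite Q] [IsSimpleGroup Q]
    (hnc : ¬ ∀ a b : Q, a * b = b * a) {r : ℕ} [Fact r.Prime] (R : Sylow r Q)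
    (hRne : (R : Subgroup Q) ≠ ⊥)
    (hRc : ∀ a ∈ (R : Subgroup Q), ∀ b ∈ (R : Subgroup Q), a * b = b * a)
    (hRn : Subgroup.normalizer ((R : Subgroup Q) : Set Q) ≤ R) : False := by
  have hNC : Subgroup.normalizer ((R : Subgroup Q) : Set Q) ≤
      Subgroup.centralizer ((R : Subgroup Q) : Set Q) := by
    intro y hy
    rw [Subgroup.mem_centralizer_iff]
    intro b hb
    exact hRc b hb y (hRn hy)
  have hcomp := MonoidHom.ker_transferSylow_isComplement' R hNC
  rcases (MonoidHom.normal_ker (MonoidHom.transferSylow R hNC)).eq_bot_or_eq_top with h | h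
  · rw [h] at hcomp
    have hcard := hcomp.card_mul_card
    have hR : (R : Subgroup Q) = ⊤ := by
      apply Subgroup.eq_top_of_card_eq
      rw [← hcard, Subgroup.card_bot, one_mul]
    apply hnc
    intro a b
    exact hRc a (by rw [hR]; trivial) b (by rw [hR]; trivial)
  · rw [h] at hcomp
    have hcard := hcomp.card_mul_card
    rw [Subgroup.card_top] at hcard
    have h1 : Nat.card (R : Subgroup Q) = 1 := by
      have hpos : 0 < Nat.card Q := Nat.card_pos
      have : Nat.card Q * Nat.card (R : Subgroup Q) = Nat.card Q * 1 := by rw [hcard, mul_one]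
      exact Nat.eq_of_mul_eq_mul_left hpos this
    exact hRne (Subgroup.card_eq_one.1 h1)

theorem central_mem_commutator_sylow {G : Type*} [Group G] [Finite G] (hperf : commutator G = ⊤)
    {p : ℕ} [Fact p.Prime] (P : Sylow p G) (z : G) (hzP : z ∈ (P : Subgroup G))
    (hzZ : z ∈ Subgroup.center G) :
    (⟨z, hzP⟩ : (P : Subgroup G)) ∈ commutator (P : Subgroup G) := by
  have hp : p.Prime := Fact.out
  let ϕ : (P : Subgroup G) →* Abelianization (P : Subgroup G) := Abelianization.of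
  have hker : (MonoidHom.transfer ϕ : G →* _).ker = ⊤ := by
    rw [eq_top_iff, ← hperf]; exact Abelianization.commutator_subset_ker _
  have h1 : MonoidHom.transfer ϕ z = 1 := by
    have : z ∈ (MonoidHom.transfer ϕ).ker := by rw [hker]; trivial
    exact this
  have key : ∀ (k : ℕ) (g₀ : G), g₀⁻¹ * z ^ k * g₀ ∈ (P : Subgroup G) →
      g₀⁻¹ * z ^ k * g₀ = z ^ k := by
    intro k g₀ _
    have hc : z ^ k ∈ Subgroup.center G := Subgroup.pow_mem _ hzZ k
    have := Subgroup.mem_center_iff.1 hc g₀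
    rw [mul_assoc, ← this, ← mul_assoc, inv_mul_cancel, one_mul]
  rw [MonoidHom.transfer_eq_pow ϕ z key] at h1
  have h2 : (⟨z, hzP⟩ : (P : Subgroup G)) ^ (P : Subgroup G).index ∈ commutator (P : Subgroup G) := by
    rw [← Abelianization.ker_of]
    exact h1
  have hcop : Nat.gcd (P : Subgroup G).index (orderOf (⟨z, hzP⟩ : (P : Subgroup G))) = 1 := by
    obtain ⟨k, hk⟩ := (IsPGroup.iff_orderOf.1 P.isPGroup') (⟨z, hzP⟩ : (P : Subgroup G))
    rw [hk]
    exact Nat.Coprime.pow_right k (Nat.Coprime.symm ((Nat.Prime.coprime_iff_not_dvd hp).2 P.not_dvd_index))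
  have h3 : (⟨z, hzP⟩ : (P : Subgroup G)) ∈
      Subgroup.zpowers ((⟨z, hzP⟩ : (P : Subgroup G)) ^ (P : Subgroup G).index) :=
    mem_zpowers_pow_iff.2 hcop
  exact (Subgroup.zpowers_le.2 h2) h3

theorem commutator_le_of_index_prime {P : Type*} [Group P] {p : ℕ} [Fact p.Prime]
    (M : Subgroup P) [M.Normal] (hi : M.index = p) : commutator P ≤ M := by
  have hcard : Nat.card (P ⧸ M) = p := by rw [← Subgroup.index_eq_card]; exact hi
  have hcyc : IsCyclic (P ⧸ M) := isCyclic_of_prime_card hcard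
  have hcomm : IsMulCommutative (P ⧸ M) := IsCyclic.isMulCommutative
  rw [commutator_def, Subgroup.commutator_le]
  intro g₁ _ g₂ _
  have h1 : (QuotientGroup.mk' M) ⁅g₁, g₂⁆ = 1 := by
    rw [map_commutatorElement, commutatorElement_eq_one_iff_commute]
    exact isMulCommutative_iff.1 hcomm _ _
  exact (QuotientGroup.eq_one_iff _).1 h1

theorem min_nonabelian {P : Type*} [Group P] [Finite P] {p : ℕ} [Fact p.Prime] (hP : IsPGroup p P)
    (a b : P) (hab : a * b ≠ b * a)
    (hmax : ∀ M : Subgroup P, M.Normal → M ≠ ⊤ → ∀ x ∈ M, ∀ y ∈ M, x * y = y * x) :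
    ⁅a, b⁆ ^ p = 1 ∧ commutator P ≤ Subgroup.zpowers ⁅a, b⁆ := by
  have hco : ∀ M : Subgroup P, IsCoatom M →
      (M.Normal ∧ M.index = p ∧ ∀ x ∈ M, ∀ y ∈ M, x * y = y * x) := by
    intro M hM
    obtain ⟨hn, hi⟩ := Cfsg.Agent.Lib.Helper70.FrattiniQuot.coatom_normal_index hP M hM
    exact ⟨hn, hi, hmax M hn hM.1⟩
  have ha_top : Subgroup.zpowers a ≠ ⊤ := by
    intro h
    have hb : b ∈ Subgroup.zpowers a := by rw [h]; trivial
    obtain ⟨k, rfl⟩ := Subgroup.mem_zpowers_iff.1 hb
    exact hab ((Commute.refl a).zpow_right k).eq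
  have hb_top : Subgroup.zpowers b ≠ ⊤ := by
    intro h
    have ha : a ∈ Subgroup.zpowers b := by rw [h]; trivial
    obtain ⟨k, rfl⟩ := Subgroup.mem_zpowers_iff.1 ha
    exact hab ((Commute.refl b).zpow_left k).eq
  obtain ⟨Ma, hMa, haM⟩ := (eq_top_or_exists_le_coatom (Subgroup.zpowers a)).resolve_left ha_top
  obtain ⟨Mb, hMb, hbM⟩ := (eq_top_or_exists_le_coatom (Subgroup.zpowers b)).resolve_left hb_top
  obtain ⟨hMan, hMai, hMac⟩ := hco Ma hMa
  obtain ⟨hMbn, hMbi, hMbc⟩ := hco Mb hMb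
  have haMa : a ∈ Ma := haM (Subgroup.mem_zpowers a)
  have hbMb : b ∈ Mb := hbM (Subgroup.mem_zpowers b)
  have hcl : Subgroup.closure ({a, b} : Set P) = ⊤ := by
    by_contra h
    obtain ⟨M, hM, hle⟩ := (eq_top_or_exists_le_coatom _).resolve_left h
    have h1 : a ∈ M := hle (Subgroup.subset_closure (by simp))
    have h2 : b ∈ M := hle (Subgroup.subset_closure (by simp))
    exact hab ((hco M hM).2.2 a h1 b h2)
  have hD : Ma ⊓ Mb ≤ Subgroup.center P := by
    intro d hd
    rw [Subgroup.mem_center_iff]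
    have h1 : (⊤ : Subgroup P) ≤ Subgroup.centralizer {d} := by
      rw [← hcl, Subgroup.closure_le]
      intro g hg
      rcases hg with rfl | rfl
      · exact Subgroup.mem_centralizer_singleton_iff.2 (hMac _ haMa d hd.1)
      · exact Subgroup.mem_centralizer_singleton_iff.2 (hMbc _ hbMb d hd.2)
    intro g
    exact Subgroup.mem_centralizer_singleton_iff.1 (h1 (Subgroup.mem_top g))
  have hcomm_le : commutator P ≤ Ma ⊓ Mb :=
    le_inf (commutator_le_of_index_prime Ma hMai) (commutator_le_of_index_prime Mb hMbi)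
  have hc_mem : ⁅a, b⁆ ∈ commutator P := by
    rw [commutator_def]
    exact Subgroup.commutator_mem_commutator (Subgroup.mem_top a) (Subgroup.mem_top b)
  have hc_cen : ⁅a, b⁆ ∈ Subgroup.center P := hD (hcomm_le hc_mem)
  have hap : a ^ p ∈ Subgroup.center P := by
    apply hD
    refine ⟨Ma.pow_mem haMa p, ?_⟩
    have := Subgroup.pow_index_mem Mb a
    rwa [hMbi] at this
  have hpow : ∀ n : ℕ, ⁅a ^ n, b⁆ = ⁅a, b⁆ ^ n := by
    intro n
    induction n with
    | zero => simp
    | succ n ih =>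
      have hcn : ⁅a, b⁆ ^ n ∈ Subgroup.center P := Subgroup.pow_mem _ hc_cen n
      have h1 := Subgroup.mem_center_iff.1 hcn a
      calc ⁅a ^ (n + 1), b⁆ = a * ⁅a ^ n, b⁆ * (b * a⁻¹ * b⁻¹) := by
            rw [commutatorElement_def, commutatorElement_def, pow_succ']; group
        _ = a * ⁅a, b⁆ ^ n * (b * a⁻¹ * b⁻¹) := by rw [ih]
        _ = ⁅a, b⁆ ^ n * a * (b * a⁻¹ * b⁻¹) := by rw [h1]
        _ = ⁅a, b⁆ ^ n * ⁅a, b⁆ := by rw [commutatorElement_def]; group
        _ = ⁅a, b⁆ ^ (n + 1) := by rw [pow_succ]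
  have hcp : ⁅a, b⁆ ^ p = 1 := by
    rw [← hpow p, commutatorElement_def]
    have := Subgroup.mem_center_iff.1 hap b
    rw [← this]; group
  refine ⟨hcp, ?_⟩
  have hzn : (Subgroup.zpowers ⁅a, b⁆).Normal := by
    refine ⟨fun n hn g => ?_⟩
    have hnc : n ∈ Subgroup.center P := (Subgroup.zpowers_le.2 hc_cen) hn
    have := Subgroup.mem_center_iff.1 hnc g
    rw [this, mul_inv_cancel_right]
    exact hn
  have hcl' : Subgroup.closure ({(QuotientGroup.mk' (Subgroup.zpowers ⁅a, b⁆)) a,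
      (QuotientGroup.mk' (Subgroup.zpowers ⁅a, b⁆)) b} : Set (P ⧸ Subgroup.zpowers ⁅a, b⁆)) = ⊤ := by
    have h1 : Subgroup.map (QuotientGroup.mk' (Subgroup.zpowers ⁅a, b⁆)) (Subgroup.closure ({a, b} : Set P)) = ⊤ := by
      rw [hcl, ← MonoidHom.range_eq_map, MonoidHom.range_eq_top]
      exact QuotientGroup.mk'_surjective _
    rw [MonoidHom.map_closure] at h1
    rw [← h1]
    congr 1
    ext y
    simp [Set.image_pair]
  have hab' : (QuotientGroup.mk' (Subgroup.zpowers ⁅a, b⁆)) a * (QuotientGroup.mk' (Subgroup.zpowers ⁅a, b⁆)) b =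
      (QuotientGroup.mk' (Subgroup.zpowers ⁅a, b⁆)) b * (QuotientGroup.mk' (Subgroup.zpowers ⁅a, b⁆)) a := by
    have h1 : (QuotientGroup.mk' (Subgroup.zpowers ⁅a, b⁆)) ⁅a, b⁆ = 1 :=
      (QuotientGroup.eq_one_iff _).2 (Subgroup.mem_zpowers _)
    rw [map_commutatorElement, commutatorElement_eq_one_iff_commute] at h1
    exact h1.eq
  have hQc : IsMulCommutative (Subgroup.closure ({(QuotientGroup.mk' (Subgroup.zpowers ⁅a, b⁆)) a,
      (QuotientGroup.mk' (Subgroup.zpowers ⁅a, b⁆)) b} : Set (P ⧸ Subgroup.zpowers ⁅a, b⁆))) := by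
    apply Subgroup.isMulCommutative_closure
    intro x hx y hy
    rcases hx with rfl | rfl <;> rcases hy with rfl | rfl
    · rfl
    · exact hab'
    · exact hab'.symm
    · rfl
  rw [commutator_def, Subgroup.commutator_le]
  intro g₁ _ g₂ _
  have h1 : (QuotientGroup.mk' (Subgroup.zpowers ⁅a, b⁆)) ⁅g₁, g₂⁆ = 1 := by
    rw [map_commutatorElement, commutatorElement_eq_one_iff_commute]
    exact isMulCommutative_iff_of_setLike.1 hQc _ (by rw [hcl']; trivial) _ (by rw [hcl']; trivial)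
  exact (QuotientGroup.eq_one_iff _).1 h1

theorem exists_max_normal {G : Type*} [Group G] [Finite G] [Nontrivial G] :
    ∃ N : Subgroup G, N.Normal ∧ N ≠ ⊤ ∧
      (∀ K : Subgroup G, K.Normal → N ≤ K → K ≠ ⊤ → K = N) ∧
      ∀ [N.Normal], IsSimpleGroup (G ⧸ N) := by
  have : Nonempty {M : Subgroup G // M.Normal ∧ M ≠ ⊤} := ⟨⟨⊥, inferInstance, bot_ne_top⟩⟩
  obtain ⟨⟨M, hMn, hMtop⟩, hmax⟩ :=
    Finite.exists_max (fun M : {M : Subgroup G // M.Normal ∧ M ≠ ⊤} => Nat.card (M : Subgroup G))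
  have hmax' : ∀ K : Subgroup G, K.Normal → M ≤ K → K ≠ ⊤ → K = M := by
    intro K hK hMK hKtop
    exact (Subgroup.eq_of_le_of_card_ge hMK (hmax ⟨K, hK, hKtop⟩)).symm
  refine ⟨M, hMn, hMtop, hmax', ?_⟩
  intro _
  have : Nontrivial (G ⧸ M) := by
    obtain ⟨g, hg⟩ : ∃ g : G, g ∉ M := by
      by_contra h
      push Not at h
      exact hMtop (eq_top_iff.2 (fun g _ => h g))
    exact ⟨⟨(g : G ⧸ M), 1, fun h => hg ((QuotientGroup.eq_one_iff g).1 h)⟩⟩
  refine ⟨fun K hK => ?_⟩
  by_cases hKtop : K = ⊤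
  · right; exact hKtop
  · left
    have h1 : K.comap (QuotientGroup.mk' M) ≠ ⊤ := by
      intro h
      apply hKtop
      rw [eq_top_iff]
      intro z _
      obtain ⟨g, rfl⟩ := QuotientGroup.mk'_surjective M z
      have : g ∈ K.comap (QuotientGroup.mk' M) := by rw [h]; trivial
      exact this
    have h3 : M ≤ K.comap (QuotientGroup.mk' M) := by
      intro m hm
      show (QuotientGroup.mk' M m) ∈ K
      have : QuotientGroup.mk' M m = 1 := (QuotientGroup.eq_one_iff m).2 hm
      rw [this]; exact K.one_mem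
    have h4 : K.comap (QuotientGroup.mk' M) = M := hmax' _ (hK.comap _) h3 h1
    rw [eq_bot_iff]
    intro z hz
    obtain ⟨g, rfl⟩ := QuotientGroup.mk'_surjective M z
    have : g ∈ M := by rw [← h4]; exact hz
    exact (Subgroup.mem_bot).2 ((QuotientGroup.eq_one_iff g).2 this)

/-- Case of a self-centralizing maximal normal subgroup. -/
theorem case_self_centralizing {G : Type*} [Group G] [Finite G]
    (hS : ∀ H : Subgroup G, ¬ IsMulCommutative H → Subgroup.normalizer (H : Set G) = H)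
    (N : Subgroup G) [hNn : N.Normal] [IsSimpleGroup (G ⧸ N)]
    (hQnc : ¬ ∀ a b : G ⧸ N, a * b = b * a)
    (hCN : Subgroup.centralizer (N : Set G) = N) : False := by
  have hcard : Nat.card (G ⧸ N) ≠ 1 := by
    intro h
    have : Subsingleton (G ⧸ N) := (Nat.card_eq_one_iff_unique.1 h).1
    exact hQnc (fun a b => Subsingleton.elim _ _)
  obtain ⟨r, hr, hrd⟩ := Nat.exists_prime_and_dvd hcard
  have : Fact r.Prime := ⟨hr⟩
  obtain ⟨R⟩ : Nonempty (Sylow r (G ⧸ N)) := inferInstance
  have hRbot : (R : Subgroup (G ⧸ N)) ≠ ⊥ := by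
    intro hbot
    have hc := R.card_eq_multiplicity
    rw [hbot, Subgroup.card_bot] at hc
    have hfac : (Nat.card (G ⧸ N)).factorization r = 0 := by
      by_contra hne
      have : 1 < r ^ (Nat.card (G ⧸ N)).factorization r := Nat.one_lt_pow hne hr.one_lt
      omega
    have hpos : Nat.card (G ⧸ N) ≠ 0 := Nat.card_pos.ne'
    rcases (Nat.factorization_eq_zero_iff _ _).1 hfac with h | h | h
    · exact h hr
    · exact h hrd
    · exact hpos h
  have hRnt : Nontrivial (R : Subgroup (G ⧸ N)) := (Subgroup.nontrivial_iff_ne_bot _).2 hRbot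
  have hcen := IsPGroup.center_nontrivial (G := (R : Subgroup (G ⧸ N))) R.isPGroup'
  obtain ⟨ζ, hζ⟩ := exists_ne (1 : Subgroup.center (R : Subgroup (G ⧸ N)))
  obtain ⟨x, hx⟩ := QuotientGroup.mk'_surjective N ((ζ : (R : Subgroup (G ⧸ N))) : G ⧸ N)
  have hzR : QuotientGroup.mk' N x ∈ (R : Subgroup (G ⧸ N)) := by rw [hx]; exact (ζ : (R : Subgroup (G ⧸ N))).2
  have hz1 : QuotientGroup.mk' N x ≠ 1 := by
    rw [hx]
    intro h
    apply hζ
    apply Subtype.ext
    apply Subtype.ext
    simpa using h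
  have hzc : ∀ y ∈ (R : Subgroup (G ⧸ N)), y * QuotientGroup.mk' N x = QuotientGroup.mk' N x * y := by
    intro y hy
    have h1 := Subgroup.mem_center_iff.1 ζ.2 ⟨y, hy⟩
    have h2 := congrArg Subtype.val h1
    rw [hx]
    simpa using h2
  have hxN : x ∉ N := fun h => hz1 ((QuotientGroup.eq_one_iff x).2 h)
  have hHna : ¬ IsMulCommutative (N ⊔ Subgroup.zpowers x : Subgroup G) := by
    intro h
    apply hxN
    rw [← hCN, Subgroup.mem_centralizer_iff]
    intro n hn
    exact isMulCommutative_iff_of_setLike.1 h n (Subgroup.mem_sup_left hn) x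
      (Subgroup.mem_sup_right (Subgroup.mem_zpowers x))
  have hHsn := hS _ hHna
  have hA : ∀ y : G, (∀ k : ℤ, ∃ j : ℤ, QuotientGroup.mk' N y * (QuotientGroup.mk' N x) ^ k *
      (QuotientGroup.mk' N y)⁻¹ = (QuotientGroup.mk' N x) ^ j) →
      QuotientGroup.mk' N y ∈ Subgroup.zpowers (QuotientGroup.mk' N x) := by
    intro y hy
    have hyn : y ∈ Subgroup.normalizer ((N ⊔ Subgroup.zpowers x : Subgroup G) : Set G) := by
      apply mem_normalizer_of_conj_mem
      intro h hh
      have hh' : h ∈ (↑(N ⊔ Subgroup.zpowers x) : Set G) := hh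
      rw [Subgroup.normal_mul] at hh'
      obtain ⟨n, hn, t, ht, rfl⟩ := Set.mem_mul.1 hh'
      obtain ⟨k, rfl⟩ := Subgroup.mem_zpowers_iff.1 ht
      obtain ⟨j, hj⟩ := hy k
      have h1 : QuotientGroup.mk' N (y * (n * x ^ k) * y⁻¹) = QuotientGroup.mk' N (x ^ j) := by
        have hn1 : QuotientGroup.mk' N n = 1 := (QuotientGroup.eq_one_iff n).2 hn
        rw [map_mul, map_mul, map_mul, map_inv, map_zpow, map_zpow, hn1, one_mul]
        exact hj
      have h2 : (x ^ j)⁻¹ * (y * (n * x ^ k) * y⁻¹) ∈ N := QuotientGroup.eq.1 h1.symm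
      have h3 : y * (n * x ^ k) * y⁻¹ = x ^ j * ((x ^ j)⁻¹ * (y * (n * x ^ k) * y⁻¹)) := by group
      rw [h3]
      exact Subgroup.mul_mem _ (Subgroup.mem_sup_right (Subgroup.zpow_mem _ (Subgroup.mem_zpowers x) j))
        (Subgroup.mem_sup_left h2)
    rw [hHsn] at hyn
    have hyn' : y ∈ (↑(N ⊔ Subgroup.zpowers x) : Set G) := hyn
    rw [Subgroup.normal_mul] at hyn'
    obtain ⟨n, hn, t, ht, rfl⟩ := Set.mem_mul.1 hyn'
    obtain ⟨k, rfl⟩ := Subgroup.mem_zpowers_iff.1 ht
    have hn1 : QuotientGroup.mk' N n = 1 := (QuotientGroup.eq_one_iff n).2 hn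
    rw [map_mul, hn1, one_mul, map_zpow]
    exact Subgroup.zpow_mem _ (Subgroup.mem_zpowers _) k
  have hRle : (R : Subgroup (G ⧸ N)) ≤ Subgroup.zpowers (QuotientGroup.mk' N x) := by
    intro y hy
    obtain ⟨y₀, rfl⟩ := QuotientGroup.mk'_surjective N y
    apply hA
    intro k
    refine ⟨k, ?_⟩
    have hc : Commute (QuotientGroup.mk' N y₀) (QuotientGroup.mk' N x) := hzc _ hy
    rw [(hc.zpow_right k).eq, mul_inv_cancel_right]
  apply no_abelian_selfnormalizing_sylow hQnc R hRbot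
  · intro a ha b hb
    obtain ⟨i, rfl⟩ := Subgroup.mem_zpowers_iff.1 (hRle ha)
    obtain ⟨j, rfl⟩ := Subgroup.mem_zpowers_iff.1 (hRle hb)
    exact ((Commute.refl _).zpow_zpow i j).eq
  · intro y hy
    obtain ⟨y₀, rfl⟩ := QuotientGroup.mk'_surjective N y
    have h1 : QuotientGroup.mk' N y₀ ∈ Subgroup.zpowers (QuotientGroup.mk' N x) := by
      apply hA
      intro k
      have h2 : (QuotientGroup.mk' N x) ^ k ∈ (R : Subgroup (G ⧸ N)) := Subgroup.zpow_mem _ hzR k
      have h3 := (Subgroup.mem_normalizer_iff.1 hy _).1 h2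
      obtain ⟨j, hj⟩ := Subgroup.mem_zpowers_iff.1 (hRle h3)
      exact ⟨j, hj.symm⟩
    exact (Subgroup.zpowers_le.2 hzR) h1

/-- Case of a central maximal normal subgroup. -/
theorem case_central {G : Type*} [Group G] [Finite G]
    (hS : ∀ H : Subgroup G, ¬ IsMulCommutative H → Subgroup.normalizer (H : Set G) = H)
    (hns : ¬ Group.IsSolvable G)
    (N : Subgroup G) [hNn : N.Normal] [IsSimpleGroup (G ⧸ N)]
    (hNbot : N ≠ ⊥)
    (hQnc : ¬ ∀ a b : G ⧸ N, a * b = b * a)
    (hNZ : N ≤ Subgroup.center G) : False := by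
  -- perfect
  have hperf : commutator G = ⊤ := by
    by_contra h
    apply hns
    have hc : ∀ a ∈ commutator G, ∀ b ∈ commutator G, a * b = b * a := by
      by_contra hc
      have h1 : ¬ IsMulCommutative (commutator G) := fun h => hc (isMulCommutative_iff_of_setLike.1 h)
      have h2 := hS _ h1
      rw [Subgroup.normalizer_eq_top] at h2
      exact h h2.symm
    have hs1 : Group.IsSolvable (commutator G) :=
      Group.isSolvable_of_comm (fun a b => Subtype.ext (hc a a.2 b b.2))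
    exact Group.isSolvable_of_ker_le_range (commutator G).subtype (Abelianization.of (G := G))
      (by rw [Abelianization.ker_of, Subgroup.range_subtype])
  have hcard : Nat.card N ≠ 1 := fun h => hNbot (Subgroup.card_eq_one.1 h)
  obtain ⟨p, hp, hpd⟩ := Nat.exists_prime_and_dvd hcard
  have hpF : Fact p.Prime := ⟨hp⟩
  obtain ⟨z₀, hz₀⟩ := exists_prime_orderOf_dvd_card' p hpd
  have hzo : orderOf (z₀ : G) = p := by rw [Subgroup.orderOf_coe]; exact hz₀
  have hzZ : (z₀ : G) ∈ Subgroup.center G := hNZ z₀.2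
  have hz1 : (z₀ : G) ≠ 1 := by
    intro h
    rw [h, orderOf_one] at hzo
    exact hp.one_lt.ne hzo
  obtain ⟨P⟩ : Nonempty (Sylow p G) := inferInstance
  have hzn : (Subgroup.zpowers (z₀ : G)).Normal := by
    refine ⟨fun n hn g => ?_⟩
    have hnc : n ∈ Subgroup.center G := (Subgroup.zpowers_le.2 hzZ) hn
    have := Subgroup.mem_center_iff.1 hnc g
    rw [this, mul_inv_cancel_right]
    exact hn
  have hzP : (z₀ : G) ∈ (P : Subgroup G) := by
    have hzp : IsPGroup p (Subgroup.zpowers (z₀ : G)) := by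
      apply IsPGroup.of_card (n := 1)
      rw [Nat.card_zpowers, hzo, pow_one]
    have h1 : IsPGroup p ((P : Subgroup G) ⊔ Subgroup.zpowers (z₀ : G) : Subgroup G) :=
      P.isPGroup'.to_sup_of_normal_right hzp
    have h2 := P.is_maximal' h1 le_sup_left
    rw [← h2]
    exact Subgroup.mem_sup_right (Subgroup.mem_zpowers _)
  have hzcomm := central_mem_commutator_sylow hperf P (z₀ : G) hzP hzZ
  -- P nonabelian
  have hPna : ∃ a b : (P : Subgroup G), a * b ≠ b * a := by
    by_contra hcon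
    push Not at hcon
    have h1 : commutator (P : Subgroup G) ≤ ⊥ := by
      rw [commutator_def, Subgroup.commutator_le]
      intro g₁ _ g₂ _
      rw [Subgroup.mem_bot, commutatorElement_eq_one_iff_commute]
      exact hcon g₁ g₂
    have h2 := h1 hzcomm
    rw [Subgroup.mem_bot] at h2
    exact hz1 (congrArg Subtype.val h2)
  obtain ⟨a, b, hab⟩ := hPna
  have hPna' : ¬ IsMulCommutative (P : Subgroup G) := fun h => hab (isMulCommutative_iff.1 h a b)
  have hPsn := hS _ hPna'
  have hmaxP : ∀ M : Subgroup (P : Subgroup G), M.Normal → M ≠ ⊤ → ∀ x ∈ M, ∀ y ∈ M, x * y = y * x := by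
    intro M hMn hMtop
    by_contra hc
    push Not at hc
    obtain ⟨x, hx, y, hy, hxy⟩ := hc
    have h1 : ¬ IsMulCommutative (M.map (P : Subgroup G).subtype) := by
      intro h
      apply hxy
      have := isMulCommutative_iff_of_setLike.1 h (x : G) (Subgroup.mem_map_of_mem _ hx)
        (y : G) (Subgroup.mem_map_of_mem _ hy)
      exact Subtype.ext this
    have h2 := hS _ h1
    apply hMtop
    rw [eq_top_iff]
    intro t _
    have h3 : (t : G) ∈ Subgroup.normalizer ((M.map (P : Subgroup G).subtype : Subgroup G) : Set G) := by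
      apply mem_normalizer_of_conj_mem
      rintro _ ⟨m, hm, rfl⟩
      exact ⟨t * m * t⁻¹, hMn.conj_mem m hm t, by simp⟩
    rw [h2] at h3
    obtain ⟨m, hm, hmt⟩ := h3
    have : m = t := Subtype.ext hmt
    rw [← this]; exact hm
  obtain ⟨hcp, hcle⟩ := min_nonabelian P.isPGroup' a b hab hmaxP
  -- the commutator subgroup of P is generated by z
  have hc1 : ⁅a, b⁆ ≠ 1 := by
    intro h
    exact hab (commutatorElement_eq_one_iff_commute.1 h).eq
  have hco : orderOf ⁅a, b⁆ = p := orderOf_eq_prime hcp hc1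
  have hzmem := hcle hzcomm
  have hzpow : (⟨(z₀ : G), hzP⟩ : (P : Subgroup G)) ∈ Submonoid.powers ⁅a, b⁆ :=
    (mem_powers_iff_mem_zpowers).2 hzmem
  obtain ⟨n, hn⟩ := hzpow
  replace hn : ⁅a, b⁆ ^ n = (⟨(z₀ : G), hzP⟩ : (P : Subgroup G)) := hn
  have hcz : ⁅a, b⁆ ∈ Subgroup.zpowers (⟨(z₀ : G), hzP⟩ : (P : Subgroup G)) := by
    rw [← hn, mem_zpowers_pow_iff, hco]
    apply (Nat.coprime_comm.1 ((Nat.Prime.coprime_iff_not_dvd hp).2 ?_))
    intro hdvd
    obtain ⟨m, rfl⟩ := hdvd
    rw [pow_mul, hcp, one_pow] at hn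
    exact hz1 (congrArg Subtype.val hn).symm
  have hcomm_cen : ∀ x ∈ (P : Subgroup G), ∀ y ∈ (P : Subgroup G), x * y * x⁻¹ * y⁻¹ ∈ N := by
    intro x hx y hy
    have h1 : ⁅(⟨x, hx⟩ : (P : Subgroup G)), ⟨y, hy⟩⁆ ∈ commutator (P : Subgroup G) := by
      rw [commutator_def]
      exact Subgroup.commutator_mem_commutator (Subgroup.mem_top _) (Subgroup.mem_top _)
    have h2 := (Subgroup.zpowers_le.2 hcz) (hcle h1)
    obtain ⟨k, hk⟩ := Subgroup.mem_zpowers_iff.1 h2
    have h3 := congrArg Subtype.val hk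
    have h4 : (z₀ : G) ^ k = x * y * x⁻¹ * y⁻¹ := by
      simpa [commutatorElement_def] using h3
    rw [← h4]
    exact N.zpow_mem z₀.2 k
  have hNP : N ≤ (P : Subgroup G) := by
    intro n hn
    have hnc := hNZ hn
    have h1 : n ∈ Subgroup.normalizer ((P : Subgroup G) : Set G) := by
      apply mem_normalizer_of_conj_mem
      intro x hx
      have := Subgroup.mem_center_iff.1 hnc x
      rw [← this, mul_inv_cancel_right]
      exact hx
    rw [hPsn] at h1
    exact h1
  -- the image of P in the quotient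
  have hsurj := QuotientGroup.mk'_surjective N
  have hPbar : ((P.mapSurjective hsurj : Sylow p (G ⧸ N)) : Subgroup (G ⧸ N)) =
      (P : Subgroup G).map (QuotientGroup.mk' N) := Sylow.coe_mapSurjective hsurj P
  apply no_abelian_selfnormalizing_sylow hQnc (P.mapSurjective hsurj)
  · rw [hPbar]
    intro hbot
    apply hab
    have ha : (a : G) ∈ N := by
      have h1 : QuotientGroup.mk' N (a : G) ∈ (P : Subgroup G).map (QuotientGroup.mk' N) :=
        Subgroup.mem_map_of_mem _ a.2
      rw [hbot, Subgroup.mem_bot] at h1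
      exact (QuotientGroup.eq_one_iff _).1 h1
    have := Subgroup.mem_center_iff.1 (hNZ ha) (b : G)
    exact Subtype.ext this.symm
  · rw [hPbar]
    rintro _ ⟨x, hx, rfl⟩ _ ⟨y, hy, rfl⟩
    have h1 := hcomm_cen x hx y hy
    have h2 : QuotientGroup.mk' N (x * y * x⁻¹ * y⁻¹) = 1 := (QuotientGroup.eq_one_iff _).2 h1
    rw [map_mul, map_mul, map_mul, map_inv, map_inv] at h2
    have h3 : Commute (QuotientGroup.mk' N x) (QuotientGroup.mk' N y) :=
      commutatorElement_eq_one_iff_commute.1 (by rw [commutatorElement_def]; exact h2)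
    exact h3.eq
  · rw [hPbar]
    intro y hy
    obtain ⟨y₀, rfl⟩ := hsurj y
    have h1 : y₀ ∈ Subgroup.normalizer ((P : Subgroup G) : Set G) := by
      apply mem_normalizer_of_conj_mem
      intro x hx
      have h2 := (Subgroup.mem_normalizer_iff.1 hy (QuotientGroup.mk' N x)).1
        (Subgroup.mem_map_of_mem _ hx)
      obtain ⟨x', hx', hxx⟩ := h2
      have h3 : QuotientGroup.mk' N x' = QuotientGroup.mk' N (y₀ * x * y₀⁻¹) := by
        rw [hxx, map_mul, map_mul, map_inv]
      have h4 : x'⁻¹ * (y₀ * x * y₀⁻¹) ∈ N := QuotientGroup.eq.1 h3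
      have h5 : y₀ * x * y₀⁻¹ = x' * (x'⁻¹ * (y₀ * x * y₀⁻¹)) := by group
      rw [h5]
      exact Subgroup.mul_mem _ hx' (hNP h4)
    rw [hPsn] at h1
    exact Subgroup.mem_map_of_mem _ h1

theorem result {G : Type*} [Group G] [Finite G] (hS : ∀ H : Subgroup G, ¬ IsMulCommutative H → Subgroup.normalizer (H : Set G) = H) :
    Group.IsSolvable G ∨ IsSimpleGroup G := by
  by_contra hcon
  push Not at hcon
  obtain ⟨hns, hnsimp⟩ := hcon
  have hnt : Nontrivial G := by
    by_contra h
    rw [not_nontrivial_iff_subsingleton] at h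
    exact hns inferInstance
  obtain ⟨N, hNn, hNtop, hNmax, hNsimple⟩ := exists_max_normal (G := G)
  have hNs : IsSimpleGroup (G ⧸ N) := hNsimple
  have hNbot : N ≠ ⊥ := by
    intro h
    apply hnsimp
    refine ⟨fun K hK => ?_⟩
    by_cases hKtop : K = ⊤
    · right; exact hKtop
    · left
      rw [hNmax K hK (by rw [h]; exact bot_le) hKtop, h]
  have hNc : ∀ a ∈ N, ∀ b ∈ N, a * b = b * a := by
    by_contra hc
    have h1 : ¬ IsMulCommutative N := fun h => hc (isMulCommutative_iff_of_setLike.1 h)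
    have h2 := hS N h1
    rw [Subgroup.normalizer_eq_top] at h2
    exact hNtop h2.symm
  have hQnc : ¬ ∀ a b : G ⧸ N, a * b = b * a := by
    intro hc
    apply hns
    have hs1 : Group.IsSolvable N := Group.isSolvable_of_comm (fun a b => Subtype.ext (hNc a a.2 b b.2))
    have hs2 : Group.IsSolvable (G ⧸ N) := Group.isSolvable_of_comm hc
    exact Group.isSolvable_of_ker_le_range N.subtype (QuotientGroup.mk' N)
      (by rw [QuotientGroup.ker_mk', Subgroup.range_subtype])
  have hCn : (Subgroup.centralizer (N : Set G)).Normal := inferInstance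
  have hNC : N ≤ Subgroup.centralizer (N : Set G) := by
    intro a ha
    rw [Subgroup.mem_centralizer_iff]
    intro b hb
    exact hNc b hb a ha
  by_cases hC : Subgroup.centralizer (N : Set G) = ⊤
  · apply case_central hS hns N hNbot hQnc
    intro a ha
    rw [Subgroup.mem_center_iff]
    intro g
    have hg : g ∈ Subgroup.centralizer (N : Set G) := by rw [hC]; trivial
    exact ((Subgroup.mem_centralizer_iff.1 hg) a ha).symm
  · exact case_self_centralizing hS N hQnc (hNmax _ hCn hNC hC)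

end Cfsg.Agent.S4072
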