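import Cfsg.Statements.S0890
-- import your own Cfsg.Agent.* helpers here
import Mathlib
import Cfsg.Agent.Lib.Helper78.ProjLift
import Cfsg.Agent.Lib.Helper78.Gallagher
import Cfsg.Agent.Lib.Helper26.GenChar
import Cfsg.Agent.Lib.Helper91.Hall
import Cfsg.Agent.Lib.CT.FrobRec
import Cfsg.Agent.Lib.CT.NormOne
import Cfsg.Agent.Lib.CT.Clifford
import Cfsg.Agent.Lib.CT.Ops

set_option autoImplicit false
open Cfsg

namespace Cfsg.Agent.S0890


open Subgroup

theorem le_normalizer_of_conj {G : Type*} [Group G] (S M : Subgroup G)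
    (h : ∀ g ∈ S, ∀ x ∈ M, g * x * g⁻¹ ∈ M) : S ≤ normalizer (M : Set G) := by
  intro g hg
  rw [mem_normalizer_iff]
  intro x
  constructor
  · exact h g hg x
  · intro hx
    have := h g⁻¹ (inv_mem hg) _ hx
    simpa [mul_assoc] using this

theorem normal_of_sup_top {G : Type*} [Group G] (H K M : Subgroup G) (hHK : H ⊔ K = ⊤)
    (hH : ∀ g ∈ H, ∀ x ∈ M, g * x * g⁻¹ ∈ M) (hK : ∀ g ∈ K, ∀ x ∈ M, g * x * g⁻¹ ∈ M) :
    M.Normal := by
  have h1 : H ⊔ K ≤ normalizer (M : Set G) :=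
    sup_le (le_normalizer_of_conj H M hH) (le_normalizer_of_conj K M hK)
  rw [hHK] at h1
  exact normalizer_eq_top_iff.mp (top_le_iff.mp h1)

theorem exists_fixed {X : Type*} [Group X] [Finite X] (p : ℕ) [Fact p.Prime]
    (P N : Subgroup X) (hP : IsPGroup p P) [hN : N.Normal] (hNp : IsPGroup p N) (hne : N ≠ ⊥) :
    ∃ y ∈ N, y ≠ 1 ∧ ∀ x ∈ P, x * y = y * x := by
  let φ : P →* MulAut N := (MulAut.conjNormal (H := N)).comp P.subtype
  let _ : MulAction P N := MulAction.compHom N φ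
  have hsmul : ∀ (x : P) (y : N), ((x • y : N) : X) = x * y * (x : X)⁻¹ := by
    intro x y
    exact MulAut.conjNormal_apply (x : X) y
  have h1 := hP.card_modEq_card_fixedPoints N
  have hpN : p ∣ Nat.card N := by
    rcases hNp.card_eq_or_dvd with h | h
    · exact absurd (Subgroup.card_eq_one.mp h) hne
    · exact h
  have hpF : p ∣ Nat.card (MulAction.fixedPoints P N) :=
    (Nat.ModEq.dvd_iff h1 (dvd_refl p)).mp hpN
  have hone : (1 : N) ∈ MulAction.fixedPoints P N := by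
    intro x
    apply Subtype.ext
    rw [hsmul]; simp
  have hFpos : 0 < Nat.card (MulAction.fixedPoints P N) :=
    Nat.card_pos_iff.mpr ⟨⟨⟨1, hone⟩⟩, inferInstance⟩
  have hF2 : 1 < Nat.card (MulAction.fixedPoints P N) := by
    have := Nat.le_of_dvd hFpos hpF
    have := (Fact.out : p.Prime).two_le
    omega
  have hnt : Nontrivial (MulAction.fixedPoints P N) := Finite.one_lt_card_iff_nontrivial.mp hF2
  obtain ⟨y, hy⟩ := exists_ne (⟨1, hone⟩ : MulAction.fixedPoints P N)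
  refine ⟨((y : N) : X), (y : N).2, ?_, ?_⟩
  · intro h
    apply hy
    apply Subtype.ext
    apply Subtype.ext
    exact h
  · intro x hx
    have h2 := y.2 ⟨x, hx⟩
    have h3 := congrArg (fun z : N => (z : X)) h2
    simp only [hsmul] at h3
    calc x * ((y : N) : X) = x * ((y : N) : X) * x⁻¹ * x := by group
      _ = ((y : N) : X) * x := by rw [h3]

theorem gt {G : Type*} [Group G] [Finite G] (L H : Subgroup G) [hLn : L.Normal] (hLH : L ≤ H)
    (hmax : IsCoatom H) (hsolv : Group.IsSolvable (G ⧸ L))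
    (hcore : ∀ N : Subgroup G, N.Normal → N ≤ H → N ≤ L) (hne : L ≠ H) :
    ∃ (K A : Subgroup G), K.Normal ∧ H ⊔ K = ⊤ ∧ H ⊓ K = L ∧ L ≤ A ∧ A ≤ H ∧
      (∀ h ∈ H, ∀ a ∈ A, h * a * h⁻¹ ∈ A) ∧ ¬ A.Normal ∧
      Nat.Coprime (L.relIndex A) (L.relIndex K) := by
  classical
  set π := QuotientGroup.mk' L with hπ
  have hπs : Function.Surjective π := QuotientGroup.mk'_surjective L
  have hker : π.ker = L := QuotientGroup.ker_mk' L
  have hmem : ∀ x : G, π x = 1 ↔ x ∈ L := fun x => by rw [← MonoidHom.mem_ker, hker]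
  have hLtop : L ≠ ⊤ := fun h => hmax.1 (top_le_iff.mp (h ▸ hLH))
  have : Nontrivial (G ⧸ L) := by
    obtain ⟨x, hx⟩ : ∃ x, x ∉ L := by
      by_contra hh
      push Not at hh
      exact hLtop (eq_top_iff.mpr fun x _ => hh x)
    exact ⟨⟨π x, 1, fun h => hx ((hmem x).mp h)⟩⟩
  obtain ⟨p, Kb, hp, hKbn, hKbc, hKbp, hKbne⟩ :=
    Cfsg.Agent.Lib.Helper91.Hall.exists_normal_abelian_pgroup (G ⧸ L)
  have := hKbn
  set K := Kb.comap π with hK
  have hKn : K.Normal := inferInstance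
  have hLK : L ≤ K := by
    intro x hx
    show π x ∈ Kb
    rw [(hmem x).mpr hx]; exact one_mem _
  have hKmap : K.map π = Kb := Subgroup.map_comap_eq_self_of_surjective hπs Kb
  have hKL : ¬ K ≤ L := by
    intro h
    apply hKbne
    rw [← hKmap, eq_bot_iff]
    rintro _ ⟨x, hx, rfl⟩
    exact (hmem x).mpr (h hx)
  have hKH : ¬ K ≤ H := fun h => hKL (hcore K hKn h)
  have hHK : H ⊔ K = ⊤ :=
    hmax.2 _ (lt_of_le_of_ne le_sup_left (fun h => hKH (h ▸ le_sup_right)))
  have hKcomm : ∀ k ∈ K, ∀ x ∈ K, k * x * k⁻¹ * x⁻¹ ∈ L := by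
    intro k hk x hx
    rw [← hmem]
    have h1 : π k * π x = π x * π k := by
      have := mul_comm' (⟨π k, hk⟩ : Kb) ⟨π x, hx⟩
      exact congrArg Subtype.val this
    simp only [map_mul, map_inv]
    rw [h1]; group
  have hHKn : (H ⊓ K).Normal := by
    apply normal_of_sup_top H K (H ⊓ K) hHK
    · intro g hg x hx
      exact ⟨H.mul_mem (H.mul_mem hg hx.1) (H.inv_mem hg), hKn.conj_mem x hx.2 g⟩
    · intro g hg x hx
      have h1 := hKcomm g hg x hx.2
      have h2 : g * x * g⁻¹ = (g * x * g⁻¹ * x⁻¹) * x := by group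
      rw [h2]
      exact ⟨H.mul_mem (hLH h1) hx.1, K.mul_mem (hLK h1) hx.2⟩
  have hHKL : H ⊓ K = L := le_antisymm (hcore _ hHKn inf_le_left) (le_inf hLH hLK)
  set Hb := H.map π with hHb
  have hHbne : Nontrivial Hb := by
    obtain ⟨x, hxH, hxL⟩ : ∃ x ∈ H, x ∉ L := by
      by_contra hh
      push Not at hh
      exact hne (le_antisymm hLH hh)
    refine ⟨⟨⟨π x, Subgroup.mem_map_of_mem π hxH⟩, 1, ?_⟩⟩
    intro h
    exact hxL ((hmem x).mp (congrArg Subtype.val h))
  have := hsolv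
  obtain ⟨q, Ab0, hq, hAb0n, hAb0c, hAb0q, hAb0ne⟩ :=
    Cfsg.Agent.Lib.Helper91.Hall.exists_normal_abelian_pgroup Hb
  set Ab := Ab0.map Hb.subtype with hAb
  set A := Ab.comap π with hA
  have hLA : L ≤ A := by
    intro x hx
    show π x ∈ Ab
    rw [(hmem x).mpr hx]; exact one_mem _
  have hAbHb : Ab ≤ Hb := by
    rintro _ ⟨y, hy, rfl⟩
    exact y.2
  have hAH : A ≤ H := by
    intro a ha
    have h1 : π a ∈ Hb := hAbHb ha
    obtain ⟨h, hh, hha⟩ := h1
    have h2 : h⁻¹ * a ∈ L := by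
      rw [← hmem]; simp [hha]
    have : a = h * (h⁻¹ * a) := by group
    rw [this]; exact H.mul_mem hh (hLH h2)
  have hHA : ∀ h ∈ H, ∀ a ∈ A, h * a * h⁻¹ ∈ A := by
    intro h hh a ha
    obtain ⟨y, hy, hya⟩ := ha
    show π (h * a * h⁻¹) ∈ Ab
    refine ⟨⟨π h, Subgroup.mem_map_of_mem π hh⟩ * y * ⟨π h, Subgroup.mem_map_of_mem π hh⟩⁻¹,
      hAb0n.conj_mem y hy _, ?_⟩
    simp only [map_mul, map_inv]
    rw [← hya]
    rfl
  have hAmap : A.map π = Ab := Subgroup.map_comap_eq_self_of_surjective hπs Ab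
  have hAL : ¬ A ≤ L := by
    intro h
    apply hAb0ne
    rw [eq_bot_iff]
    intro y hy
    have h1 : (y : G ⧸ L) ∈ Ab := ⟨y, hy, rfl⟩
    rw [← hAmap] at h1
    obtain ⟨x, hx, hxy⟩ := h1
    have : (y : G ⧸ L) = 1 := by
      rw [← hxy]; exact (hmem x).mpr (h hx)
    exact Subgroup.mem_bot.mpr (Subtype.ext this)
  have hAn : ¬ A.Normal := fun h => hAL (hcore A h hAH)
  refine ⟨K, A, hKn, hHK, hHKL, hLA, hAH, hHA, hAn, ?_⟩
  have hrel : ∀ B : Subgroup (G ⧸ L), L.relIndex (B.comap π) = Nat.card B := by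
    intro B
    calc L.relIndex (B.comap π)
        = ((⊥ : Subgroup (G ⧸ L)).comap π).relIndex (B.comap π) := by
          rw [MonoidHom.comap_bot, hker]
      _ = Nat.card B := by
          rw [Subgroup.relIndex_comap, Subgroup.map_comap_eq_self_of_surjective hπs,
            Subgroup.relIndex_bot_left]
  rw [hA, hK, hrel, hrel]
  haveI := Fact.mk hp
  haveI := Fact.mk hq
  obtain ⟨a, ha⟩ := IsPGroup.iff_card.mp hKbp
  have hAbq : IsPGroup q Ab := hAb0q.map Hb.subtype
  obtain ⟨b, hb⟩ := IsPGroup.iff_card.mp hAbq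
  rw [ha, hb]
  by_cases hpq : q = p
  · exfalso
    subst hpq
    obtain ⟨y, hyK, hy1, hyc⟩ := exists_fixed q Ab Kb hAbq hKbp hKbne
    set Zb := Kb ⊓ Subgroup.centralizer (Ab : Set (G ⧸ L)) with hZb
    set Z := Zb.comap π with hZ
    have hZK : Z ≤ K := Subgroup.comap_mono inf_le_left
    have hLZ : L ≤ Z := by
      intro x hx
      show π x ∈ Zb
      rw [(hmem x).mpr hx]; exact one_mem _
    have hZn : Z.Normal := by
      apply normal_of_sup_top H K Z hHK
      · intro g hg x hx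
        refine ⟨hKn.conj_mem x (hZK hx) g, ?_⟩
        show π (g * x * g⁻¹) ∈ Subgroup.centralizer (Ab : Set (G ⧸ L))
        rw [Subgroup.mem_centralizer_iff]
        intro ab hab
        obtain ⟨a, ha, rfl⟩ : ∃ a ∈ A, π a = ab := by
          rw [← hAmap] at hab; exact hab
        have h1 := hHA g⁻¹ (H.inv_mem hg) a ha
        have h2 := (Subgroup.mem_centralizer_iff.mp hx.2) (π (g⁻¹ * a * g⁻¹⁻¹)) h1
        simp only [map_mul, map_inv, inv_inv] at h2 ⊢
        calc π a * (π g * π x * (π g)⁻¹)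
            = π g * ((π g)⁻¹ * π a * π g * π x) * (π g)⁻¹ := by group
          _ = π g * (π x * ((π g)⁻¹ * π a * π g)) * (π g)⁻¹ := by rw [h2]
          _ = _ := by group
      · intro g hg x hx
        have h1 := hKcomm g hg x (hZK hx)
        have h2 : g * x * g⁻¹ = (g * x * g⁻¹ * x⁻¹) * x := by group
        rw [h2]
        exact Z.mul_mem (hLZ h1) hx
    have hZH : ¬ Z ≤ H := by
      intro h
      have h1 := hcore Z hZn h
      obtain ⟨z, rfl⟩ := hπs y
      have hz : z ∈ Z :=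
        ⟨hyK, Subgroup.mem_centralizer_iff.mpr (fun ab hab => hyc ab hab)⟩
      exact hy1 ((hmem z).mpr (h1 hz))
    have hHZ : H ⊔ Z = ⊤ :=
      hmax.2 _ (lt_of_le_of_ne le_sup_left (fun h => hZH (h ▸ le_sup_right)))
    have hKZ : K ≤ Z := by
      intro k hk
      have h1 : k ∈ H ⊔ Z := by rw [hHZ]; trivial
      rw [← SetLike.mem_coe, Subgroup.mul_normal] at h1
      obtain ⟨h, hh, z, hz, rfl⟩ := Set.mem_mul.mp h1
      have h2 : h ∈ K := by
        have : h = (h * z) * z⁻¹ := by group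
        rw [this]; exact K.mul_mem hk (K.inv_mem (hZK hz))
      have h3 : h ∈ L := hHKL ▸ (⟨hh, h2⟩ : h ∈ H ⊓ K)
      exact Z.mul_mem (hLZ h3) hz
    apply hAn
    apply normal_of_sup_top H K A hHK hHA
    intro g hg x hx
    show π (g * x * g⁻¹) ∈ Ab
    have h1 : π g ∈ Subgroup.centralizer (Ab : Set (G ⧸ L)) := (hKZ hg).2
    have h2 := Subgroup.mem_centralizer_iff.mp h1 (π x) hx
    simp only [map_mul, map_inv]
    rw [← h2, mul_inv_cancel_right]
    exact hx
  · exact Nat.Coprime.pow _ _ ((Nat.coprime_primes hq hp).mpr hpq)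



open Cfsg Cfsg.Agent.Lib.CT Cfsg.Agent.Lib.CT.Wedderburn Cfsg.Agent.Lib.CT.NormOne
  Cfsg.Agent.Lib.CT.Clifford Cfsg.Agent.Lib.CT.FrobRec Cfsg.Agent.Lib.CT.Ops
  Cfsg.Agent.Lib.CT.Orth
open scoped ComplexConjugate

universe u v

theorem irr_of_comp_irr {X : Type u} {Y : Type v} [Group X] [Fintype X] [Group Y] [Fintype Y]
    (f : Y →* X) {ψ : X → ℂ} (hψ : IsCharacter X ψ)
    (h : IsIrrCharacter Y (fun y => ψ (f y))) : IsIrrCharacter X ψ := by
  classical
  haveI : Finite (IrrCharacter X) := finite_irrCharacter X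
  haveI : Fintype (IrrCharacter X) := Fintype.ofFinite _
  obtain ⟨m, hm, hexp⟩ := exists_mult_sum hψ
  have hnorm := classInner_self_eq_sum m hm hexp
  apply irr_of_inner_self_eq_one hψ
  rw [hnorm]
  have hc : ∀ χ χ' : IrrCharacter X, ∃ c : ℕ,
      classInner (fun y => χ.1 (f y)) (fun y => χ'.1 (f y)) = c := fun χ χ' =>
    classInner_char_nat (isCharacter_comp_hom f (isCharacter_of_irr χ.2))
      (isCharacter_comp_hom f (isCharacter_of_irr χ'.2))
  choose c hc using hc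
  have hdiag : ∀ χ, 1 ≤ c χ χ := by
    intro χ
    have h1 := Cfsg.Agent.Lib.Helper78.Gallagher.classInner_self_ne_zero
      (isCharacter_comp_hom f (isCharacter_of_irr χ.2))
      (by simp only [map_one]; exact irr_apply_one_ne_zero χ.2)
    rw [hc] at h1
    have : c χ χ ≠ 0 := by
      intro h0
      apply h1
      rw [h0]; simp
    omega
  have h1 : (fun y => ψ (f y)) = ∑ χ : IrrCharacter X, (m χ : ℂ) • (fun y => χ.1 (f y)) := by
    funext y
    rw [hexp]
    simp [Finset.sum_apply]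
  have h2 : classInner (fun y => ψ (f y)) (fun y => ψ (f y)) =
      ((∑ χ, ∑ χ', m χ * m χ' * c χ χ' : ℕ) : ℂ) := by
    conv_lhs => rw [h1]
    rw [classInner_sum_left]
    push_cast
    apply Finset.sum_congr rfl
    intro χ _
    rw [classInner_smul_left, Cfsg.Agent.Lib.Helper26.GenChar.classInner_sum_right,
      Finset.mul_sum]
    apply Finset.sum_congr rfl
    intro χ' _
    rw [Cfsg.Agent.Lib.Helper26.GenChar.classInner_smul_right, hc]
    simp
    ring
  rw [inner_self_eq_one_of_irr h] at h2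
  have h3 : (∑ χ, ∑ χ', m χ * m χ' * c χ χ' : ℕ) = 1 := by exact_mod_cast h2.symm
  have h4 : ∑ χ, m χ * m χ ≤ ∑ χ, ∑ χ', m χ * m χ' * c χ χ' := by
    apply Finset.sum_le_sum
    intro χ _
    calc m χ * m χ ≤ m χ * m χ * c χ χ := Nat.le_mul_of_pos_right _ (hdiag χ)
      _ ≤ ∑ χ', m χ * m χ' * c χ χ' :=
        Finset.single_le_sum (f := fun χ' => m χ * m χ' * c χ χ') (fun _ _ => Nat.zero_le _)
          (Finset.mem_univ χ)
  have h5 : ∑ χ, m χ * m χ ≠ 0 := by
    intro h0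
    have h6 : classInner ψ ψ = 0 := by rw [hnorm, h0]; simp
    have hz := Cfsg.Agent.Lib.Helper26.GenChar.eq_zero_of_classInner_self_eq_zero h6
    have h7 := irr_apply_one_ne_zero h
    simp [hz] at h7
  have h8 : ∑ χ, m χ * m χ = 1 := by omega
  rw [h8]; simp

section CP

variable {G : Type u} [Group G] [Fintype G]

open Classical in
theorem sum_ite_mem (B : Subgroup G) (F : G → ℂ) :
    ∑ g : G, (if g ∈ B then F g else 0) = ∑ b : B, F b := by
  rw [← Finset.sum_filter]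
  exact Finset.sum_subtype (Finset.univ.filter (· ∈ B)) (by simp) F

open Classical in
theorem sum_ite_mem_real (B : Subgroup G) (F : G → ℝ) :
    ∑ g : G, (if g ∈ B then F g else 0) = ∑ b : B, F b := by
  rw [← Finset.sum_filter]
  exact Finset.sum_subtype (Finset.univ.filter (· ∈ B)) (by simp) F

open Classical in
theorem sum_restrict_indFun (H N : Subgroup G) [hN : N.Normal] (ϑ : H → ℂ) :
    ∑ n : N, indFun H ϑ n * conj (indFun H ϑ n) =
      (Nat.card G : ℂ) * ((Nat.card H : ℂ)⁻¹ *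
        ∑ g : G, (if g ∈ N then extendByZero H ϑ g * conj (indFun H ϑ g) else 0)) := by
  set χ := indFun H ϑ with hχ
  have hcf : IsClassFunction G χ := indFun_isClassFunction H ϑ
  set F : G → ℂ := fun g => if g ∈ N then conj (χ g) else 0 with hF
  have hFcf : IsClassFunction G F := by
    intro g h
    simp only [hF]
    have : h * g * h⁻¹ ∈ N ↔ g ∈ N := by
      constructor
      · intro hh
        have := hN.conj_mem _ hh h⁻¹
        simpa [mul_assoc] using this
      · intro hg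
        exact hN.conj_mem g hg h
    rw [hcf g h]
    simp [this]
  have h1 := sum_indFun_mul H ϑ F hFcf
  have h2 : ∑ g : G, χ g * F g = ∑ n : N, χ n * conj (χ n) := by
    rw [← sum_ite_mem N (fun g => χ g * conj (χ g))]
    apply Finset.sum_congr rfl
    intro g _
    simp only [hF]
    split_ifs <;> simp
  have h3 : ∑ h : H, ϑ h * F h =
      ∑ g : G, (if g ∈ N then extendByZero H ϑ g * conj (χ g) else 0) := by
    rw [← sum_extendByZero_mul H ϑ F]
    apply Finset.sum_congr rfl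
    intro g _
    simp only [hF]
    split_ifs <;> simp
  rw [← h2, h1, h3]

open Classical in
theorem sum_normSq (L B H : Subgroup G) (hLB : L ≤ B) (hBH : B ≤ H) (ϑ : H → ℂ)
    (hϑ : IsCharacter H ϑ)
    (hϑL : IsIrrCharacter L (fun x : L => ϑ ⟨(x : G), hBH (hLB x.2)⟩)) :
    ∑ g : G, (if g ∈ B then ‖extendByZero H ϑ g‖ ^ 2 else 0) = (Nat.card B : ℝ) := by
  have hψ : IsIrrCharacter B (fun b : B => ϑ ⟨(b : G), hBH b.2⟩) := by
    apply irr_of_comp_irr (Subgroup.inclusion hLB)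
      (isCharacter_comp_hom (Subgroup.inclusion hBH) hϑ)
    exact hϑL
  have h1 := inner_self_eq_one_of_irr hψ
  rw [Cfsg.Agent.Lib.Helper26.GenChar.classInner_self] at h1
  have h2 : (Nat.card B : ℝ)⁻¹ * ∑ b : B, ‖ϑ ⟨(b : G), hBH b.2⟩‖ ^ 2 = 1 := by
    exact_mod_cast h1
  have h3 : ∑ g : G, (if g ∈ B then ‖extendByZero H ϑ g‖ ^ 2 else 0) =
      ∑ b : B, ‖ϑ ⟨(b : G), hBH b.2⟩‖ ^ 2 := by
    rw [sum_ite_mem_real B (fun g => ‖extendByZero H ϑ g‖ ^ 2)]
    apply Finset.sum_congr rfl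
    intro b _
    rw [extendByZero_apply_of_mem H ϑ (hBH b.2)]
  rw [h3]
  have hB : (Nat.card B : ℝ) ≠ 0 := Nat.cast_ne_zero.mpr Nat.card_pos.ne'
  field_simp at h2
  linarith


theorem card_mul_relIndex' {G : Type*} [Group G] {H K : Subgroup G} (h : H ≤ K) :
    Nat.card H * H.relIndex K = Nat.card K := by
  have := Subgroup.relIndex_mul_relIndex (⊥ : Subgroup G) H K bot_le h
  rwa [Subgroup.relIndex_bot_left, Subgroup.relIndex_bot_left] at this

theorem mem_sup_normal {G : Type*} [Group G] (A K : Subgroup G) [K.Normal] (g : G)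
    (hg : g ∈ A ⊔ K) : ∃ a ∈ A, ∃ k ∈ K, a * k = g := by
  rw [← SetLike.mem_coe, Subgroup.mul_normal] at hg
  exact Set.mem_mul.mp hg

theorem sup_normal {G : Type*} [Group G] (H K A : Subgroup G) [hKn : K.Normal]
    (hHK : H ⊔ K = ⊤) (hHA : ∀ h ∈ H, ∀ a ∈ A, h * a * h⁻¹ ∈ A) : (A ⊔ K).Normal := by
  have hKM : K ≤ A ⊔ K := le_sup_right
  have hAM : A ≤ A ⊔ K := le_sup_left
  apply normal_of_sup_top H K (A ⊔ K) hHK
  · intro g hg x hx
    obtain ⟨a, ha, k, hk, rfl⟩ := mem_sup_normal A K x hx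
    have : g * (a * k) * g⁻¹ = (g * a * g⁻¹) * (g * k * g⁻¹) := by group
    rw [this]
    exact (A ⊔ K).mul_mem (hAM (hHA g hg a ha)) (hKM (hKn.conj_mem k hk g))
  · intro g hg x hx
    exact (A ⊔ K).mul_mem ((A ⊔ K).mul_mem (hKM hg) hx) ((A ⊔ K).inv_mem (hKM hg))

theorem re_mul_conj_le (a b : ℂ) : (a * conj b).re ≤ (‖a‖ ^ 2 + ‖b‖ ^ 2) / 2 := by
  have h1 : (a * conj b).re ≤ ‖a * conj b‖ := Complex.re_le_norm _
  have h2 : ‖a * conj b‖ = ‖a‖ * ‖b‖ := by rw [norm_mul, RCLike.norm_conj]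
  nlinarith [sq_nonneg (‖a‖ - ‖b‖)]

open Classical in
theorem sum_norm_irr {X : Type u} [Group X] [Fintype X] {η : X → ℂ} (hη : IsIrrCharacter X η) :
    ∑ k : X, η k * conj (η k) = (Nat.card X : ℂ) := by
  have h2 := inner_self_eq_one_of_irr hη
  unfold classInner at h2
  have hK0 : (Nat.card X : ℂ) ≠ 0 := Nat.cast_ne_zero.mpr Nat.card_pos.ne'
  field_simp at h2
  exact h2

open Classical in
theorem cp (L H K A : Subgroup G) [hLn : L.Normal] [hKn : K.Normal] (hLH : L ≤ H)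
    (hHK : H ⊔ K = ⊤) (hHKL : H ⊓ K = L) (hLA : L ≤ A) (hAH : A ≤ H)
    (hHA : ∀ h ∈ H, ∀ a ∈ A, h * a * h⁻¹ ∈ A) (hAn : ¬ A.Normal)
    (hcop : Nat.Coprime (L.relIndex A) (L.relIndex K))
    (ϑ : H → ℂ) (hϑ : IsIrrCharacter H ϑ)
    (hϑL : IsIrrCharacter L (fun x : L => ϑ ⟨(x : G), hLH x.2⟩))
    (hL : ∃ (φ : L → ℂ) (e : ℕ), IsIrrCharacter L φ ∧
      (fun m : L => indFun H ϑ m) = (e : ℂ) • φ)
    (hK : ∃ (φ : K → ℂ) (e : ℕ), IsIrrCharacter K φ ∧
      (fun m : K => indFun H ϑ m) = (e : ℂ) • φ)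
    (hM : ∃ (φ : (A ⊔ K : Subgroup G) → ℂ) (e : ℕ), IsIrrCharacter (A ⊔ K : Subgroup G) φ ∧
      (fun m : (A ⊔ K : Subgroup G) => indFun H ϑ m) = (e : ℂ) • φ) : False := by
  obtain ⟨φ₀, e₀, hφ₀, hresL⟩ := hL
  obtain ⟨η, e, hη, hresK⟩ := hK
  obtain ⟨ξ, f, hξ, hresM⟩ := hM
  set χ := indFun H ϑ with hχ
  have hLK : L ≤ K := hHKL ▸ inf_le_right
  have hKM : K ≤ A ⊔ K := le_sup_right
  have hAM : A ≤ A ⊔ K := le_sup_left
  have hMn : (A ⊔ K).Normal := sup_normal H K A hHK hHA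
  have hHM : ∀ g, g ∈ H → g ∈ A ⊔ K → g ∈ A := by
    intro g hgH hgM
    obtain ⟨a, ha, k, hk, rfl⟩ := mem_sup_normal A K g hgM
    have hkH : k ∈ H := by
      have : k = a⁻¹ * (a * k) := by group
      rw [this]; exact H.mul_mem (H.inv_mem (hAH ha)) hgH
    have hkL : k ∈ L := hHKL ▸ (⟨hkH, hk⟩ : k ∈ H ⊓ K)
    exact A.mul_mem ha (hLA hkL)
  -- cardinalities
  have hcL_H : Nat.card L * L.relIndex H = Nat.card H := card_mul_relIndex' hLH
  have hcL_A : Nat.card L * L.relIndex A = Nat.card A := card_mul_relIndex' hLA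
  have hcL_K : Nat.card L * L.relIndex K = Nat.card K := card_mul_relIndex' hLK
  have hKidx : K.index = L.relIndex H := by
    rw [← Subgroup.relIndex_top_right, ← hHK, Subgroup.relIndex_sup_right, ← hHKL,
      Subgroup.inf_relIndex_left]
  have hKrelM : K.relIndex (A ⊔ K) = L.relIndex A := by
    rw [Subgroup.relIndex_sup_right]
    have : A ⊓ K = L := le_antisymm (hHKL ▸ inf_le_inf_right K hAH) (le_inf hLA hLK)
    rw [← this, Subgroup.inf_relIndex_left]
  have hcG : Nat.card G = Nat.card K * L.relIndex H := by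
    rw [← hKidx, Subgroup.card_mul_index]
  have hcM : Nat.card (A ⊔ K : Subgroup G) = Nat.card K * L.relIndex A := by
    rw [← hKrelM]; exact (card_mul_relIndex' hKM).symm
  have hLpos : 0 < Nat.card L := Nat.card_pos
  have hHpos : 0 < Nat.card H := Nat.card_pos
  have hrelHpos : 0 < L.relIndex H := by
    rcases Nat.eq_zero_or_pos (L.relIndex H) with h | h
    · rw [h, mul_zero] at hcL_H; omega
    · exact h
  have hHidx : H.index = L.relIndex K := by
    have h1 : Nat.card H * H.index = Nat.card G := Subgroup.card_mul_index H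
    rw [hcG, ← hcL_H, ← hcL_K] at h1
    have h2 : (Nat.card L * L.relIndex H) * H.index = (Nat.card L * L.relIndex H) * L.relIndex K := by
      rw [h1]; ring
    exact Nat.eq_of_mul_eq_mul_left (Nat.mul_pos hLpos hrelHpos) h2
  have hMH : Nat.card (A ⊔ K : Subgroup G) * Nat.card H = Nat.card G * Nat.card A := by
    rw [hcM, hcG, ← hcL_H, ← hcL_A]; ring
  -- basic facts
  have hϑc : IsCharacter H ϑ := isCharacter_of_irr hϑ
  have hϑ1 : ϑ 1 ≠ 0 := irr_apply_one_ne_zero hϑ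
  have hχ1 : χ 1 = (H.index : ℂ) * ϑ 1 := indFun_one H ϑ
  have hidx0 : H.index ≠ 0 := Subgroup.index_ne_zero_of_finite
  have hχ1ne : χ 1 ≠ 0 := by
    rw [hχ1]; exact mul_ne_zero (Nat.cast_ne_zero.mpr hidx0) hϑ1
  have hK1 : ∀ k : K, χ k = e * η k := fun k => by simpa using congrFun hresK k
  have hM1 : ∀ m : (A ⊔ K : Subgroup G), χ m = f * ξ m := fun m => by
    simpa using congrFun hresM m
  have hL1 : ∀ l : L, χ l = e₀ * φ₀ l := fun l => by simpa using congrFun hresL l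
  have he0 : (e : ℂ) ≠ 0 := by
    intro h0
    have := hK1 1
    rw [h0, zero_mul, OneMemClass.coe_one] at this
    exact hχ1ne this
  have hf0 : (f : ℂ) ≠ 0 := by
    intro h0
    have := hM1 1
    rw [h0, zero_mul, OneMemClass.coe_one] at this
    exact hχ1ne this
  have hG0 : (Nat.card G : ℂ) ≠ 0 := Nat.cast_ne_zero.mpr Nat.card_pos.ne'
  have hH0 : (Nat.card H : ℂ) ≠ 0 := Nat.cast_ne_zero.mpr Nat.card_pos.ne'
  have hK0 : (Nat.card K : ℂ) ≠ 0 := Nat.cast_ne_zero.mpr Nat.card_pos.ne'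
  have hL0 : (Nat.card L : ℂ) ≠ 0 := Nat.cast_ne_zero.mpr Nat.card_pos.ne'
  -- step (c): e ^ 2 = H.index
  have hsumK : ∑ k : K, χ k * conj (χ k) = (e : ℂ) ^ 2 * Nat.card K := by
    simp_rw [hK1, map_mul, Complex.conj_natCast]
    rw [← sum_norm_irr hη, Finset.mul_sum]
    apply Finset.sum_congr rfl
    intro k _
    ring
  have hK2 := sum_restrict_indFun H K ϑ
  have hK3 : ∑ g : G, (if g ∈ K then extendByZero H ϑ g * conj (χ g) else 0) =
      ∑ l : L, ϑ ⟨(l : G), hLH l.2⟩ * conj (χ l) := by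
    have h1 : ∑ l : L, ϑ ⟨(l : G), hLH l.2⟩ * conj (χ l) =
        ∑ l : L, (fun g => extendByZero H ϑ g * conj (χ g)) l := by
      apply Finset.sum_congr rfl
      intro l _
      simp only
      rw [extendByZero_apply_of_mem H ϑ (hLH l.2)]
    rw [h1, ← sum_ite_mem L (fun g => extendByZero H ϑ g * conj (χ g))]
    apply Finset.sum_congr rfl
    intro g _
    by_cases hg : g ∈ H
    · have : g ∈ K ↔ g ∈ L :=
        ⟨fun hk => hHKL ▸ (⟨hg, hk⟩ : g ∈ H ⊓ K), fun hl => hLK hl⟩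
      simp [this]
    · rw [extendByZero_apply_of_not_mem H ϑ hg]; simp
  have hK4 : ∑ l : L, ϑ ⟨(l : G), hLH l.2⟩ * conj (χ l) =
      (e₀ : ℂ) * (Nat.card L : ℂ) * classInner (fun x : L => ϑ ⟨(x : G), hLH x.2⟩) φ₀ := by
    unfold classInner
    simp_rw [hL1, map_mul, Complex.conj_natCast]
    rw [mul_assoc, ← mul_assoc (Nat.card L : ℂ), mul_inv_cancel₀ hL0, one_mul, Finset.mul_sum]
    apply Finset.sum_congr rfl
    intro l _
    ring
  have horth := irr_orthonormal (⟨_, hϑL⟩ : IrrCharacter L) ⟨φ₀, hφ₀⟩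
  simp only at horth
  have hcGc : (Nat.card G : ℂ) * Nat.card L = Nat.card K * Nat.card H := by
    have : Nat.card G * Nat.card L = Nat.card K * Nat.card H := by
      rw [hcG, ← hcL_H]; ring
    exact_mod_cast this
  have hmain : (e : ℂ) ^ 2 =
      (e₀ : ℂ) * classInner (fun x : L => ϑ ⟨(x : G), hLH x.2⟩) φ₀ := by
    have h5 : (e : ℂ) ^ 2 * Nat.card K = (Nat.card G : ℂ) * ((Nat.card H : ℂ)⁻¹ *
        ((e₀ : ℂ) * (Nat.card L : ℂ) * classInner (fun x : L => ϑ ⟨(x : G), hLH x.2⟩) φ₀)) := by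
      rw [← hsumK, hK2, hK3, hK4]
    field_simp at h5
    have h6 : (e : ℂ) ^ 2 * ((Nat.card K : ℂ) * Nat.card H) =
        ((e₀ : ℂ) * classInner (fun x : L => ϑ ⟨(x : G), hLH x.2⟩) φ₀) *
          ((Nat.card K : ℂ) * Nat.card H) := by
      linear_combination h5 + (e₀ : ℂ) * classInner (fun x : L => ϑ ⟨(x : G), hLH x.2⟩) φ₀ * hcGc
    exact mul_right_cancel₀ (mul_ne_zero hK0 hH0) h6
  have hφeq : (fun x : L => ϑ ⟨(x : G), hLH x.2⟩) = φ₀ := by
    by_contra hne
    have h1 : (⟨_, hϑL⟩ : IrrCharacter L) ≠ ⟨φ₀, hφ₀⟩ := fun h => hne (congrArg Subtype.val h)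
    rw [horth, if_neg h1, mul_zero] at hmain
    exact he0 (pow_eq_zero_iff two_ne_zero |>.mp hmain)
  have he₀ : (e₀ : ℂ) = H.index := by
    have h1 := hL1 1
    have h2 : φ₀ 1 = ϑ 1 := by rw [← hφeq]; rfl
    rw [OneMemClass.coe_one, hχ1, h2] at h1
    exact (mul_right_cancel₀ hϑ1 h1).symm
  have hee : (e : ℂ) ^ 2 = H.index := by
    rw [hmain, hφeq, inner_self_eq_one_of_irr hφ₀, mul_one, he₀]
  have heeN : e * e = H.index := by
    have : ((e * e : ℕ) : ℂ) = (H.index : ℂ) := by rw [← hee]; push_cast; ring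
    exact_mod_cast this
  -- step (e): f = e
  set ξK : K → ℂ := fun k => ξ ⟨(k : G), hKM k.2⟩ with hξK
  have hξKc : IsCharacter K ξK :=
    isCharacter_comp_hom (Subgroup.inclusion hKM) (isCharacter_of_irr hξ)
  obtain ⟨s, hs⟩ := classInner_char_nat hξKc (isCharacter_of_irr hη)
  have hfξ : ∀ k : K, (f : ℂ) * ξK k = e * η k := by
    intro k
    rw [← hK1 k]
    exact (hM1 ⟨(k : G), hKM k.2⟩).symm
  have hfs : (f : ℂ) * s = e := by
    have h1 : classInner ((f : ℂ) • ξK) η = classInner ((e : ℂ) • η) η := by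
      congr 1
      funext k
      simp [hfξ k]
    rw [classInner_smul_left, classInner_smul_left, hs, inner_self_eq_one_of_irr hη,
      mul_one] at h1
    exact h1
  have hfsN : f * s = e := by exact_mod_cast hfs
  have hs0 : s ≠ 0 := by
    rintro rfl
    apply he0
    rw [← hfs]; simp
  have hξK' : ∀ k : K, ξK k = s * η k := by
    intro k
    have := hfξ k
    rw [← hfs, mul_assoc] at this
    exact mul_left_cancel₀ hf0 this
  have hsdvd : s ∣ K.relIndex (A ⊔ K) := by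
    have hN : (K.subgroupOf (A ⊔ K)).Normal := inferInstance
    have hηe : IsIrrCharacter (K.subgroupOf (A ⊔ K))
        (fun x => η (Subgroup.subgroupOfEquivOfLe hKM x)) :=
      isIrrCharacter_comp_mulEquiv (Subgroup.subgroupOfEquivOfLe hKM) hη
    exact Cfsg.Agent.Lib.Helper78.ProjLift.dvd_index_of_restrict_eq (K.subgroupOf (A ⊔ K))
      ξ hξ (fun x => η (Subgroup.subgroupOfEquivOfLe hKM x)) hηe s hs0 (by
        intro n
        exact hξK' (Subgroup.subgroupOfEquivOfLe hKM n))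
  rw [hKrelM] at hsdvd
  have hs1 : s = 1 := by
    have h1 : s ∣ L.relIndex K := by
      rw [← hHidx, ← heeN, ← hfsN]
      exact Dvd.dvd.mul_left (Dvd.intro_left f rfl) _
    have h2 := Nat.dvd_gcd hsdvd h1
    rw [Nat.Coprime.gcd_eq_one hcop] at h2
    exact Nat.dvd_one.mp h2
  have hfe : f = e := by rw [← hfsN, hs1, mul_one]
  -- step (d)
  have hsumM : ∑ m : (A ⊔ K : Subgroup G), χ m * conj (χ m) =
      (f : ℂ) ^ 2 * Nat.card (A ⊔ K : Subgroup G) := by
    simp_rw [hM1, map_mul, Complex.conj_natCast]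
    rw [← sum_norm_irr hξ, Finset.mul_sum]
    apply Finset.sum_congr rfl
    intro k _
    ring
  have hM2 := sum_restrict_indFun H (A ⊔ K) ϑ
  have hM3 : ∑ g : G, (if g ∈ A ⊔ K then extendByZero H ϑ g * conj (χ g) else 0) =
      ∑ g : G, (if g ∈ A then extendByZero H ϑ g * conj (χ g) else 0) := by
    apply Finset.sum_congr rfl
    intro g _
    by_cases hg : g ∈ H
    · have : g ∈ A ⊔ K ↔ g ∈ A := ⟨hHM g hg, fun h => hAM h⟩
      simp [this]
    · rw [extendByZero_apply_of_not_mem H ϑ hg]; simp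
  have hconj : ∀ g, conj (χ g) =
      (Nat.card H : ℂ)⁻¹ * ∑ x : G, conj (extendByZero H ϑ (x⁻¹ * g * x)) := by
    intro g
    rw [hχ, indFun_apply, map_mul, map_sum, map_inv₀, Complex.conj_natCast]
  set t : G → G → ℂ := fun x g =>
    if g ∈ A then extendByZero H ϑ g * conj (extendByZero H ϑ (x⁻¹ * g * x)) else 0 with ht
  have hM4 : ∑ g : G, (if g ∈ A then extendByZero H ϑ g * conj (χ g) else 0) =
      (Nat.card H : ℂ)⁻¹ * ∑ x : G, ∑ g : G, t x g := by
    rw [Finset.sum_comm, Finset.mul_sum]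
    apply Finset.sum_congr rfl
    intro g _
    simp only [ht]
    split_ifs with hg
    · rw [hconj, Finset.mul_sum, Finset.mul_sum, Finset.mul_sum]
      apply Finset.sum_congr rfl
      intro x _
      ring
    · simp
  set T : ℂ := ∑ x : G, ∑ g : G, t x g with hT
  have hTeq : T = ((Nat.card G * Nat.card A : ℕ) : ℂ) := by
    have h5 : (f : ℂ) ^ 2 * Nat.card (A ⊔ K : Subgroup G) =
        (Nat.card G : ℂ) * ((Nat.card H : ℂ)⁻¹ * ((Nat.card H : ℂ)⁻¹ * T)) := by
      rw [← hsumM, hM2, hM3, hM4]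
    rw [hfe, hee] at h5
    have h6 : (Nat.card H : ℂ) * H.index = Nat.card G := by
      exact_mod_cast Subgroup.card_mul_index H
    have h7 : ((Nat.card (A ⊔ K : Subgroup G) : ℂ)) * Nat.card H = Nat.card G * Nat.card A := by
      exact_mod_cast hMH
    have hi0 : (H.index : ℂ) ≠ 0 := Nat.cast_ne_zero.mpr hidx0
    rw [← h6] at h5
    field_simp at h5
    push_cast
    rw [← h7]
    exact h5.symm
  -- the bound
  set B : G → Subgroup G := fun x => A ⊓ A.comap (MulAut.conj x⁻¹).toMonoidHom with hB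
  have hBmem : ∀ x g, g ∈ B x ↔ g ∈ A ∧ x⁻¹ * g * x ∈ A := by
    intro x g
    simp [hB]
  have hLB : ∀ x, L ≤ B x := by
    intro x l hl
    rw [hBmem]
    refine ⟨hLA hl, hLA ?_⟩
    have := hLn.conj_mem l hl x⁻¹
    simpa using this
  have hBA : ∀ x, B x ≤ A := fun x => inf_le_left
  have hBH : ∀ x, B x ≤ H := fun x => (hBA x).trans hAH
  have hBcard : ∀ x, ∑ g : G, (if g ∈ B x then ‖extendByZero H ϑ g‖ ^ 2 else 0) =
      (Nat.card (B x) : ℝ) := fun x =>
    sum_normSq L (B x) H (hLB x) (hBH x) ϑ hϑc hϑL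
  have hpt : ∀ x g, (t x g).re ≤
      ((if g ∈ B x then ‖extendByZero H ϑ g‖ ^ 2 else 0) +
        (if x⁻¹ * g * x ∈ B x⁻¹ then ‖extendByZero H ϑ (x⁻¹ * g * x)‖ ^ 2 else 0)) / 2 := by
    intro x g
    have hnn1 : (0 : ℝ) ≤ (if g ∈ B x then ‖extendByZero H ϑ g‖ ^ 2 else 0) := by
      split_ifs <;> positivity
    have hnn2 : (0 : ℝ) ≤
        (if x⁻¹ * g * x ∈ B x⁻¹ then ‖extendByZero H ϑ (x⁻¹ * g * x)‖ ^ 2 else 0) := by
      split_ifs <;> positivity
    simp only [ht]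
    by_cases hg : g ∈ A
    · rw [if_pos hg]
      by_cases hg' : x⁻¹ * g * x ∈ A
      · have h1 : g ∈ B x := (hBmem x g).mpr ⟨hg, hg'⟩
        have h2 : x⁻¹ * g * x ∈ B x⁻¹ := by
          rw [hBmem]
          refine ⟨hg', ?_⟩
          have : x⁻¹⁻¹ * (x⁻¹ * g * x) * x⁻¹ = g := by group
          rw [this]; exact hg
        rw [if_pos h1, if_pos h2]
        exact re_mul_conj_le _ _
      · have h1 : x⁻¹ * g * x ∉ H := by
          intro hh
          apply hg'
          apply hHM _ hh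
          have := hMn.conj_mem g (hAM hg) x⁻¹
          simpa using this
        have h0 : extendByZero H ϑ (x⁻¹ * g * x) = 0 := extendByZero_apply_of_not_mem H ϑ h1
        rw [h0] at hnn2 ⊢
        simp only [map_zero, mul_zero, Complex.zero_re]
        linarith
    · rw [if_neg hg]
      simp only [Complex.zero_re]
      linarith
  have hsumg : ∀ x, ∑ g : G, (t x g).re ≤
      ((Nat.card (B x) : ℝ) + (Nat.card (B x⁻¹) : ℝ)) / 2 := by
    intro x
    have h1 : ∑ g : G,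
        (if x⁻¹ * g * x ∈ B x⁻¹ then ‖extendByZero H ϑ (x⁻¹ * g * x)‖ ^ 2 else 0) =
        ∑ g : G, (if g ∈ B x⁻¹ then ‖extendByZero H ϑ g‖ ^ 2 else (0 : ℝ)) := by
      apply Fintype.sum_equiv (MulAut.conj x⁻¹).toEquiv
      intro g
      simp
    calc ∑ g : G, (t x g).re ≤ ∑ g : G,
          ((if g ∈ B x then ‖extendByZero H ϑ g‖ ^ 2 else 0) +
          (if x⁻¹ * g * x ∈ B x⁻¹ then ‖extendByZero H ϑ (x⁻¹ * g * x)‖ ^ 2 else 0)) / 2 :=
          Finset.sum_le_sum (fun g _ => hpt x g)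
      _ = _ := by
          rw [← Finset.sum_div, Finset.sum_add_distrib, hBcard x, h1, hBcard x⁻¹]
  have hTre : T.re ≤ ∑ x : G, (Nat.card (B x) : ℝ) := by
    have h1 : T.re = ∑ x : G, ∑ g : G, (t x g).re := by
      rw [hT, Complex.re_sum]
      apply Finset.sum_congr rfl
      intro x _
      rw [Complex.re_sum]
    have h2 : ∑ x : G, (Nat.card (B x⁻¹) : ℝ) = ∑ x : G, (Nat.card (B x) : ℝ) :=
      Fintype.sum_equiv (Equiv.inv G) _ _ (fun x => rfl)
    calc T.re = ∑ x : G, ∑ g : G, (t x g).re := h1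
      _ ≤ ∑ x : G, ((Nat.card (B x) : ℝ) + (Nat.card (B x⁻¹) : ℝ)) / 2 :=
          Finset.sum_le_sum (fun x _ => hsumg x)
      _ = _ := by
          rw [← Finset.sum_div, Finset.sum_add_distrib, h2]; ring
  have hBle : ∀ x, Nat.card (B x) ≤ Nat.card A := fun x => Subgroup.card_le_of_le (hBA x)
  have hex : ∃ x, Nat.card (B x) < Nat.card A := by
    by_contra hh
    push Not at hh
    apply hAn
    constructor
    intro a ha g
    have h1 : B g⁻¹ = A := Subgroup.eq_of_le_of_card_ge (hBA g⁻¹) (hh g⁻¹)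
    have h2 : a ∈ B g⁻¹ := by rw [h1]; exact ha
    have h3 := ((hBmem g⁻¹ a).mp h2).2
    simpa using h3
  have hlt : ∑ x : G, (Nat.card (B x) : ℝ) < (Nat.card G : ℝ) * Nat.card A := by
    obtain ⟨x₁, hx₁⟩ := hex
    have h1 : ∑ x : G, (Nat.card (B x) : ℝ) < ∑ _x : G, (Nat.card A : ℝ) := by
      apply Finset.sum_lt_sum
      · intro x _
        exact_mod_cast hBle x
      · exact ⟨x₁, Finset.mem_univ _, by exact_mod_cast hx₁⟩
    rw [Finset.sum_const, Finset.card_univ, nsmul_eq_mul] at h1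
    rw [Nat.card_eq_fintype_card]
    exact h1
  have hTre2 : T.re = (Nat.card G : ℝ) * Nat.card A := by
    rw [hTeq, Complex.natCast_re]; push_cast; ring
  linarith

end CP

/-- Let L ≤ H < G with L normal in G, H a maximal subgroup and G / L solvable. Let ϑ be an irreducible character of H whose restriction to L is irreducible and whose induction χ to G is irreducible. Then there is a normal subgroup M of G containing L such that the restriction of χ to M is not a natural-number multiple of a single irreducible character of M. -/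
theorem result {G : Type*} [Group G] [Fintype G] (L H : Subgroup G) [L.Normal] (hLH : L ≤ H) (hmax : IsCoatom H) (hsolv : Group.IsSolvable (G ⧸ L)) (ϑ : H → ℂ) (hϑ : Cfsg.IsIrrCharacter H ϑ) (hϑL : Cfsg.IsIrrCharacter L (fun x : L => ϑ ⟨(x : G), hLH x.2⟩)) (hind : Cfsg.IsIrrCharacter G (Cfsg.indFun H ϑ)) : ∃ M : Subgroup G, M.Normal ∧ L ≤ M ∧ ¬ ∃ (φ : M → ℂ) (e : ℕ), Cfsg.IsIrrCharacter M φ ∧ (fun m : M => Cfsg.indFun H ϑ m) = (e : ℂ) • φ := by
  classical
  by_contra hcon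
  push Not at hcon
  set L' := H.normalCore with hL'
  have hL'n : L'.Normal := Subgroup.normalCore_normal H
  have hLL' : L ≤ L' := (Subgroup.normal_le_normalCore).mpr hLH
  have hL'H : L' ≤ H := Subgroup.normalCore_le H
  have hsolv' : Group.IsSolvable (G ⧸ L') := by
    have hle : L ≤ L'.comap (MonoidHom.id G) := hLL'
    have := hsolv
    exact Group.isSolvable_of_surjective (f := QuotientGroup.map L L' (MonoidHom.id G) hle) (by
      intro x
      obtain ⟨g, rfl⟩ := QuotientGroup.mk_surjective x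
      exact ⟨QuotientGroup.mk g, rfl⟩)
  have hϑL' : IsIrrCharacter L' (fun x : L' => ϑ ⟨(x : G), hL'H x.2⟩) := by
    apply irr_of_comp_irr (Subgroup.inclusion hLL')
      (isCharacter_comp_hom (Subgroup.inclusion hL'H) (isCharacter_of_irr hϑ))
    exact hϑL
  have hcore : ∀ N : Subgroup G, N.Normal → N ≤ H → N ≤ L' := fun N hN h =>
    (Subgroup.normal_le_normalCore (hN := hN)).mpr h
  by_cases hHL : L' = H
  · have hHn : H.Normal := hHL ▸ hL'n
    obtain ⟨φ, e, hφ, hres⟩ := hcon H hHn hLH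
    have h1 := frobenius_reciprocity' H ϑ (indFun H ϑ) (indFun_isClassFunction H ϑ)
    rw [inner_self_eq_one_of_irr hind, hres, classInner_smul_left] at h1
    have h2 := irr_orthonormal (⟨φ, hφ⟩ : IrrCharacter H) ⟨ϑ, hϑ⟩
    simp only at h2
    by_cases h3 : (⟨φ, hφ⟩ : IrrCharacter H) = ⟨ϑ, hϑ⟩
    · rw [h2, if_pos h3, mul_one] at h1
      have hφϑ : φ = ϑ := congrArg Subtype.val h3
      have h4 := congrFun hres 1
      simp only [Pi.smul_apply, smul_eq_mul] at h4
      rw [← h1, one_mul, hφϑ, OneMemClass.coe_one, indFun_one] at h4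
      have h5 : (H.index : ℂ) = 1 := by
        have := irr_apply_one_ne_zero hϑ
        exact mul_right_cancel₀ this (by rw [h4, one_mul])
      have h6 : H.index = 1 := by exact_mod_cast h5
      exact hmax.1 (Subgroup.index_eq_one.mp h6)
    · rw [h2, if_neg h3, mul_zero] at h1
      exact one_ne_zero h1
  · obtain ⟨K, A, hKn, hHK, hHKL, hLA, hAH, hHA, hAn, hcop⟩ :=
      gt L' H hL'H hmax hsolv' hcore hHL
    have hMn : (A ⊔ K).Normal := sup_normal H K A hHK hHA
    exact cp L' H K A hL'H hHK hHKL hLA hAH hHA hAn hcop ϑ hϑ hϑL' (hcon L' hL'n hLL')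
      (hcon K hKn (hLL'.trans (hHKL ▸ inf_le_right)))
      (hcon (A ⊔ K) hMn (hLL'.trans (hLA.trans le_sup_left)))

end Cfsg.Agent.S0890
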