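import Cfsg.Statements.S0070
-- import your own Cfsg.Agent.* helpers here
import Cfsg.Agent.Lib.Helper78.Fitting

set_option autoImplicit false
open Cfsg

namespace Cfsg.Agent.S0070

open Cfsg.Agent.Lib.Helper78.Fitting


/-- The Fitting subgroup commutes with passing to the Frattini quotient: the Fitting subgroup of G modulo its Frattini subgroup is the image of the Fitting subgroup of G. -/
theorem result {G : Type*} [Group G] [Finite G] :
    Cfsg.fittingSubgroup (G ⧸ frattini G) = (Cfsg.fittingSubgroup G).map (QuotientGroup.mk' (frattini G)) := by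
  have hsurj : Function.Surjective (QuotientGroup.mk' (frattini G)) := QuotientGroup.mk'_surjective _
  have hΦF : frattini G ≤ Cfsg.fittingSubgroup G :=
    le_fitting inferInstance frattini_nilpotent
  apply le_antisymm
  · rw [fitting_eq_iSup_pCore]
    apply iSup_le
    intro p
    have : Fact (p : ℕ).Prime := ⟨p.2⟩
    set Q := Cfsg.pCore (p : ℕ) (G ⧸ frattini G) with hQ
    set M := Q.comap (QuotientGroup.mk' (frattini G)) with hM
    have hQn : Q.Normal := pCore_normal (p : ℕ)
    have hMn : M.Normal := hQn.comap _
    have hΦM : frattini G ≤ M := by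
      intro x hx
      rw [hM, Subgroup.mem_comap]
      have : (QuotientGroup.mk' (frattini G)) x = 1 := by
        rw [QuotientGroup.mk'_apply, QuotientGroup.eq_one_iff]; exact hx
      rw [this]; exact Q.one_mem
    have hMQ : M.map (QuotientGroup.mk' (frattini G)) = Q :=
      Subgroup.map_comap_eq_self_of_surjective hsurj Q
    obtain ⟨P⟩ := (inferInstance : Nonempty (Sylow (p : ℕ) M))
    set P' := (P : Subgroup M).map M.subtype with hP'
    have hP'M : P' ≤ M := Subgroup.map_subtype_le _
    have h1 : Subgroup.normalizer (P' : Set G) ⊔ M = ⊤ := Sylow.normalizer_sup_eq_top P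
    set K := P' ⊔ frattini G with hK
    have hKM : K ≤ M := sup_le hP'M hΦM
    have hMK : M ≤ K := by
      rw [← Subgroup.relIndex_eq_one]
      have hd1 : K.relIndex M ∣ P'.relIndex M := Subgroup.relIndex_dvd_of_le_left M le_sup_left
      have hP'idx : P'.relIndex M = (P : Subgroup M).index := by
        rw [Subgroup.relIndex, hP']
        congr 1
        exact Subgroup.comap_map_eq_self_of_injective (Subgroup.subtype_injective M) _
      have hnd : ¬ (p : ℕ) ∣ K.relIndex M := by
        intro h
        exact P.not_dvd_index (hP'idx ▸ (h.trans hd1))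
      have e1 : (K.map (QuotientGroup.mk' (frattini G))).index = K.index := by
        rw [Subgroup.index_map, QuotientGroup.ker_mk', sup_eq_left.mpr (le_sup_right : frattini G ≤ K),
          MonoidHom.range_eq_top.mpr hsurj, Subgroup.index_top, mul_one]
      have e2 : (M.map (QuotientGroup.mk' (frattini G))).index = M.index := by
        rw [Subgroup.index_map, QuotientGroup.ker_mk', sup_eq_left.mpr hΦM,
          MonoidHom.range_eq_top.mpr hsurj, Subgroup.index_top, mul_one]
      have e3 : K.relIndex M * M.index = K.index := Subgroup.relIndex_mul_index hKM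
      have e4 : (K.map (QuotientGroup.mk' (frattini G))).relIndex (M.map (QuotientGroup.mk' (frattini G))) *
          (M.map (QuotientGroup.mk' (frattini G))).index = (K.map (QuotientGroup.mk' (frattini G))).index :=
        Subgroup.relIndex_mul_index (Subgroup.map_mono hKM)
      have e5 : K.relIndex M = (K.map (QuotientGroup.mk' (frattini G))).relIndex Q := by
        rw [e1, e2, ← e3, hMQ] at e4
        have hM0 : M.index ≠ 0 := Subgroup.index_ne_zero_of_finite
        exact (Nat.eq_of_mul_eq_mul_right (Nat.pos_of_ne_zero hM0) e4).symm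
      have hQp : IsPGroup (p : ℕ) Q := pCore_isPGroup (p : ℕ)
      obtain ⟨k, hk⟩ := hQp.exists_card_eq
      have hd2 : K.relIndex M ∣ (p : ℕ) ^ k := by
        rw [e5, ← hk]
        exact Subgroup.relIndex_dvd_card _ _
      obtain ⟨j, -, hj⟩ := (Nat.dvd_prime_pow p.2).mp hd2
      rw [hj] at hnd ⊢
      rcases Nat.eq_zero_or_pos j with h0 | hpos
      · rw [h0, pow_zero]
      · exact absurd (dvd_pow_self _ hpos.ne') hnd
    have h2 : Subgroup.normalizer (P' : Set G) ⊔ frattini G = ⊤ := by
      apply top_unique
      rw [← h1]
      apply sup_le le_sup_left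
      refine hMK.trans (sup_le (le_sup_of_le_left Subgroup.le_normalizer) le_sup_right)
    have h3 : Subgroup.normalizer (P' : Set G) = ⊤ := frattini_nongenerating h2
    have hP'n : P'.Normal := Subgroup.normalizer_eq_top_iff.mp h3
    have hP'p : IsPGroup (p : ℕ) P' := P.isPGroup'.map M.subtype
    have hP'F : P' ≤ Cfsg.fittingSubgroup G := (le_pCore hP'n hP'p).trans (pCore_le_fitting (p : ℕ))
    have hMF : M ≤ Cfsg.fittingSubgroup G := hMK.trans (sup_le hP'F hΦF)
    rw [← hMQ]
    exact Subgroup.map_mono hMF
  · apply le_fitting
    · exact (fitting_normal).map _ hsurj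
    · have : Group.IsNilpotent (Cfsg.fittingSubgroup G) := fitting_isNilpotent
      exact Group.nilpotent_of_surjective
        ((QuotientGroup.mk' (frattini G)).subgroupMap (Cfsg.fittingSubgroup G))
        (MonoidHom.subgroupMap_surjective _ _)

end Cfsg.Agent.S0070
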