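import Cfsg.Statements.S0547
import Mathlib

set_option autoImplicit false
open Cfsg

namespace Cfsg.Agent.S0547

/-- A minimal normal subgroup of a solvable group is abelian. -/
theorem comm_eq_bot {G : Type*} [Group G] [Group.IsSolvable G] (M : Subgroup G) [M.Normal]
    (hM : M ≠ ⊥) (hmin : ∀ K : Subgroup G, K.Normal → K ≤ M → K = ⊥ ∨ K = M) : ⁅M, M⁆ = ⊥ := by
  rcases hmin ⁅M, M⁆ inferInstance (Subgroup.commutator_le_left M M) with h | h
  · exact h
  · exfalso
    have key : ∀ n, M ≤ derivedSeries G n := by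
      intro n
      induction n with
      | zero => simp
      | succ n ih =>
        rw [derivedSeries_succ]
        calc M = ⁅M, M⁆ := h.symm
          _ ≤ _ := Subgroup.commutator_mono ih ih
    obtain ⟨n, hn⟩ := Group.IsSolvable.solvable (G := G)
    exact hM (le_bot_iff.mp (hn ▸ key n))

theorem commute_of_mem {G : Type*} [Group G] [Group.IsSolvable G] (M : Subgroup G) [M.Normal]
    (hM : M ≠ ⊥) (hmin : ∀ K : Subgroup G, K.Normal → K ≤ M → K = ⊥ ∨ K = M)
    {a b : G} (ha : a ∈ M) (hb : b ∈ M) : a * b = b * a := by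
  have h := comm_eq_bot M hM hmin
  rw [Subgroup.commutator_eq_bot_iff_le_centralizer] at h
  exact (Subgroup.mem_centralizer_iff.mp (h hb) a ha)

/-- A nontrivial normal subgroup of a faithful primitive group is transitive. -/
theorem pretransitive {G : Type*} [Group G] {Ω : Type*} [MulAction G Ω] [FaithfulSMul G Ω]
    (hprim : MulAction.IsPreprimitive G Ω) (M : Subgroup G) [M.Normal] (hM : M ≠ ⊥) :
    MulAction.IsPretransitive M Ω := by
  apply MulAction.IsQuasiPreprimitive.isPretransitive_of_normal (G := G)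
  intro hfix
  apply hM
  rw [Subgroup.eq_bot_iff_forall]
  intro m hm
  apply FaithfulSMul.eq_of_smul_eq_smul (α := Ω)
  intro x
  have hx : x ∈ MulAction.fixedPoints M Ω := by rw [hfix]; trivial
  rw [one_smul]
  exact hx ⟨m, hm⟩

/-- An element centralizing a transitive subgroup and fixing a point is trivial. -/
theorem eq_one_of_centralizer {G : Type*} [Group G] {Ω : Type*} [MulAction G Ω] [FaithfulSMul G Ω]
    (M : Subgroup G) (hT : MulAction.IsPretransitive M Ω) (ω : Ω) (g : G)
    (hg : g ∈ Subgroup.centralizer (M : Set G)) (hω : g • ω = ω) : g = 1 := by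
  apply FaithfulSMul.eq_of_smul_eq_smul (α := Ω)
  intro x
  obtain ⟨m, hm⟩ := MulAction.exists_smul_eq M ω x
  have hm' : (m : G) • ω = x := hm
  rw [one_smul, ← hm', smul_smul, ← Subgroup.mem_centralizer_iff.mp hg m m.2, ← smul_smul, hω]

theorem stabilizer_eq_bot {G : Type*} [Group G] [Group.IsSolvable G] {Ω : Type*} [MulAction G Ω]
    [FaithfulSMul G Ω] (hprim : MulAction.IsPreprimitive G Ω) (M : Subgroup G) [M.Normal]
    (hM : M ≠ ⊥) (hmin : ∀ K : Subgroup G, K.Normal → K ≤ M → K = ⊥ ∨ K = M) (ω : Ω) :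
    MulAction.stabilizer M ω = ⊥ := by
  rw [Subgroup.eq_bot_iff_forall]
  intro m hm
  have hc : (m : G) ∈ Subgroup.centralizer (M : Set G) := by
    rw [Subgroup.mem_centralizer_iff]
    intro h hh
    exact commute_of_mem M hM hmin hh m.2
  have h1 := eq_one_of_centralizer M (pretransitive hprim M hM) ω (m : G) hc hm
  exact Subtype.ext h1

theorem card_eq {G : Type*} [Group G] [Group.IsSolvable G] {Ω : Type*} [MulAction G Ω]
    [FaithfulSMul G Ω] (hprim : MulAction.IsPreprimitive G Ω) (M : Subgroup G) [M.Normal]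
    (hM : M ≠ ⊥) (hmin : ∀ K : Subgroup G, K.Normal → K ≤ M → K = ⊥ ∨ K = M) (ω : Ω) :
    Nat.card Ω = Nat.card M := by
  symm
  have := pretransitive hprim M hM
  apply Nat.card_eq_of_bijective (fun m : M => m • ω)
  constructor
  · intro a b hab
    have hab' : a • ω = b • ω := hab
    have h1 : b⁻¹ * a ∈ MulAction.stabilizer M ω := by
      rw [MulAction.mem_stabilizer_iff, mul_smul, hab', inv_smul_smul]
    rw [stabilizer_eq_bot hprim M hM hmin ω, Subgroup.mem_bot] at h1
    have : a = b * (b⁻¹ * a) := by group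
    rw [this, h1, mul_one]
  · intro x
    exact MulAction.exists_smul_eq M ω x

theorem card_prime_pow {G : Type*} [Group G] [Finite G] [Group.IsSolvable G] (M : Subgroup G)
    [M.Normal] (hM : M ≠ ⊥) (hmin : ∀ K : Subgroup G, K.Normal → K ≤ M → K = ⊥ ∨ K = M) :
    ∃ p d : ℕ, p.Prime ∧ 0 < d ∧ Nat.card M = p ^ d := by
  have hcard : Nat.card M ≠ 1 := by
    intro h
    exact hM (Subgroup.card_eq_one.mp h)
  obtain ⟨p, hp, hdvd⟩ := Nat.exists_prime_and_dvd hcard
  have : Fact p.Prime := ⟨hp⟩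
  let K : Subgroup G :=
    { carrier := {m | m ∈ M ∧ m ^ p = 1}
      mul_mem' := by
        rintro a b ⟨ha, ha'⟩ ⟨hb, hb'⟩
        refine ⟨M.mul_mem ha hb, ?_⟩
        have hc : Commute a b := commute_of_mem M hM hmin ha hb
        rw [hc.mul_pow, ha', hb', mul_one]
      one_mem' := ⟨M.one_mem, one_pow p⟩
      inv_mem' := by
        rintro a ⟨ha, ha'⟩
        exact ⟨M.inv_mem ha, by rw [inv_pow, ha', inv_one]⟩ }
  have hKn : K.Normal := by
    constructor
    rintro n ⟨hn, hn'⟩ g
    refine ⟨‹M.Normal›.conj_mem n hn g, ?_⟩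
    rw [conj_pow, hn', mul_one, mul_inv_cancel]
  have hKM : K ≤ M := fun x hx => hx.1
  obtain ⟨x, hx⟩ := exists_prime_orderOf_dvd_card' (G := M) p hdvd
  have hxK : (x : G) ∈ K := by
    refine ⟨x.2, ?_⟩
    have : x ^ p = 1 := by rw [← hx]; exact pow_orderOf_eq_one x
    exact_mod_cast congrArg Subtype.val this
  have hKne : K ≠ ⊥ := by
    intro h
    rw [h, Subgroup.mem_bot] at hxK
    have hx1 : x = 1 := Subtype.ext hxK
    rw [hx1, orderOf_one] at hx
    exact hp.one_lt.ne hx
  have hKeq : K = M := (hmin K hKn hKM).resolve_left hKne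
  have hpg : IsPGroup p M := by
    intro g
    refine ⟨1, ?_⟩
    have hg : (g : G) ∈ K := by rw [hKeq]; exact g.2
    rw [pow_one]
    exact Subtype.ext hg.2
  obtain ⟨d, hd⟩ := IsPGroup.iff_card.mp hpg
  refine ⟨p, d, hp, ?_, hd⟩
  rcases Nat.eq_zero_or_pos d with h0 | h0
  · rw [h0, pow_zero] at hd
    exact absurd hd hcard
  · exact h0

/-- Let a finite solvable group G act faithfully and primitively on a set, and let M be a minimal normal subgroup of G. Then M is transitive with trivial point stabilizers, and the number of points equals the order of M, which is a prime power p ^ d with d ≥ 1. -/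
theorem result {G : Type*} [Group G] [Finite G] [Group.IsSolvable G] {Ω : Type*} [Nonempty Ω] [MulAction G Ω] [FaithfulSMul G Ω] (hprim : MulAction.IsPreprimitive G Ω) (M : Subgroup G) [M.Normal] (hM : M ≠ ⊥) (hmin : ∀ K : Subgroup G, K.Normal → K ≤ M → K = ⊥ ∨ K = M) : MulAction.IsPretransitive M Ω ∧ (∀ ω : Ω, MulAction.stabilizer M ω = ⊥) ∧ ∃ p d : ℕ, p.Prime ∧ 0 < d ∧ Nat.card Ω = p ^ d ∧ Nat.card M = p ^ d := by
  refine ⟨pretransitive hprim M hM, stabilizer_eq_bot hprim M hM hmin, ?_⟩
  obtain ⟨p, d, hp, hd, hc⟩ := card_prime_pow M hM hmin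
  have ω : Ω := Classical.arbitrary Ω
  exact ⟨p, d, hp, hd, by rw [card_eq hprim M hM hmin ω, hc], hc⟩

end Cfsg.Agent.S0547
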