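import Mathlib
import Cfsg.Statements.S0585

set_option autoImplicit false
open Cfsg

namespace Cfsg.Agent.S0585

open Pointwise in
theorem result {G : Type*} [Group G] [Finite G] (hΦ : frattini G = ⊥) (A : Subgroup G) [A.Normal] [IsMulCommutative A] : ∃ H : Subgroup G, Subgroup.IsComplement' A H := by
  obtain ⟨H, hH, hmin⟩ := exists_minimal_of_wellFoundedLT (fun H : Subgroup G => A ⊔ H = ⊤) ⟨⊤, sup_top_eq _⟩
  have hAcomm : ∀ x ∈ A, ∀ y ∈ A, x * y = y * x := by
    intro x hx y hy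
    have := mul_comm' (⟨x, hx⟩ : A) ⟨y, hy⟩
    exact congrArg Subtype.val this
  have hNn : (A ⊓ H).Normal := by
    constructor
    intro x hx g
    have hg : g ∈ A ⊔ H := by rw [hH]; trivial
    obtain ⟨a, ha, h, hh, rfl⟩ := Subgroup.mem_sup_of_normal_left.mp hg
    have h1 : h * x * h⁻¹ ∈ A := (inferInstance : A.Normal).conj_mem x hx.1 h
    have h2 : h * x * h⁻¹ ∈ H := H.mul_mem (H.mul_mem hh hx.2) (H.inv_mem hh)
    have e : a * h * x * (a * h)⁻¹ = h * x * h⁻¹ := by
      have : a * h * x * (a * h)⁻¹ = a * (h * x * h⁻¹) * a⁻¹ := by group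
      rw [this, hAcomm a ha _ h1]; group
    rw [e]
    exact ⟨h1, h2⟩
  have hNbot : A ⊓ H = ⊥ := by
    rw [← le_bot_iff, ← hΦ]
    simp only [frattini, Order.radical]
    apply le_iInf₂
    intro M hM
    by_contra hNM
    have hM' : IsCoatom M := hM
    have htop : (A ⊓ H) ⊔ M = ⊤ := by
      apply hM'.2
      exact lt_of_le_of_ne le_sup_right (fun h => hNM (h ▸ le_sup_left))
    have hH' : A ⊔ (H ⊓ M) = ⊤ := by
      rw [eq_top_iff]
      intro g _
      have hg : g ∈ A ⊔ H := by rw [hH]; trivial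
      obtain ⟨a, ha, h, hh, rfl⟩ := Subgroup.mem_sup_of_normal_left.mp hg
      have hh' : h ∈ (A ⊓ H) ⊔ M := by rw [htop]; trivial
      obtain ⟨n, hn, m, hm, rfl⟩ := Subgroup.mem_sup_of_normal_left.mp hh'
      have hmH : m ∈ H := by
        have : m = n⁻¹ * (n * m) := by group
        rw [this]
        exact H.mul_mem (H.inv_mem hn.2) hh
      have : a * (n * m) = (a * n) * m := by group
      rw [this]
      exact Subgroup.mul_mem _ (Subgroup.mem_sup_left (A.mul_mem ha hn.1)) (Subgroup.mem_sup_right ⟨hmH, hm⟩)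
    have hle : H ≤ H ⊓ M := hmin hH' inf_le_left
    exact hNM (inf_le_right.trans (hle.trans inf_le_right))
  refine ⟨H, Subgroup.isComplement'_of_disjoint_and_mul_eq_univ (disjoint_iff.mpr hNbot) ?_⟩
  rw [← Subgroup.normal_mul, hH]
  rfl

end Cfsg.Agent.S0585
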