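import Cfsg.Statements.S4468
import Cfsg.Agent.Lib.Helper3.ItoPS

set_option autoImplicit false
open Cfsg

namespace Cfsg.Agent.S4468

open Cfsg.Agent.Lib.Helper80.Integrality Cfsg.Agent.Lib.Helper80.Restrict
open Cfsg.Agent.Lib.CT.Wedderburn Cfsg.Agent.Lib.Helper3.ItoPS

/-- Let the finite p-solvable group G have a faithful character χ of degree n ≤ p − 1 and suppose that a Sylow p-subgroup of G is not normal. Then n = p − 1, n is a power of 2, and χ is irreducible. -/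
theorem result {G : Type*} [Group G] [Finite G] (χ : G → ℂ) (hχ : Cfsg.IsCharacter G χ) (hfaith : ∀ g : G, χ g = χ 1 → g = 1) (n : ℕ) (hn : Cfsg.charDegree χ = n) (p : ℕ) (hp : p.Prime) (hsolv : Cfsg.IsPSolvable p G) (hnp : n + 1 ≤ p) (P : Sylow p G) (hP : ¬ (P : Subgroup G).Normal) : n + 1 = p ∧ (∃ k : ℕ, n = 2 ^ k) ∧ Cfsg.IsIrrCharacter G χ := by
  classical
  haveI := Fact.mk hp
  haveI := Fintype.ofFinite G
  haveI := finite_irrCharacter G
  haveI := Fintype.ofFinite (IrrCharacter G)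
  obtain ⟨mm, hmm1, hmm2, hmm3, -⟩ := exists_mult hχ
  -- Step 1: a constituent of degree at least `p - 1`
  obtain ⟨χ₀, hχ₀, hχ₀p⟩ : ∃ χ₀ : IrrCharacter G, classInner χ χ₀.1 ≠ 0 ∧
      p ≤ charDegree χ₀.1 + 1 := by
    by_contra hno
    push Not at hno
    exact hP (ito_normal p hsolv χ hχ hfaith (by omega) hno P)
  have hle : charDegree χ₀.1 ≤ n := hn ▸ degree_le_of_constituent hχ χ₀ hχ₀
  have hdeg0 : charDegree χ₀.1 = n := by omega
  have hnp' : n + 1 = p := by omega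
  have hnpos : 0 < n := hdeg0 ▸ charDegree_pos χ₀
  -- Step 2: `χ = χ₀`
  have hm0 : mm χ₀ ≠ 0 := by
    intro h
    apply hχ₀
    rw [hmm1 χ₀, h]
    simp
  have hsum : ∑ ψ : IrrCharacter G, mm ψ * charDegree ψ.1 = n := by rw [← hmm3, hn]
  have hsplit := Finset.add_sum_erase Finset.univ
    (fun ψ : IrrCharacter G => mm ψ * charDegree ψ.1) (Finset.mem_univ χ₀)
  have hm1 : mm χ₀ = 1 := by
    have h1 : mm χ₀ * n ≤ n := by
      rw [← hdeg0] at hsum ⊢
      calc mm χ₀ * charDegree χ₀.1 ≤ ∑ ψ : IrrCharacter G, mm ψ * charDegree ψ.1 :=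
            Finset.single_le_sum (f := fun ψ : IrrCharacter G => mm ψ * charDegree ψ.1)
              (fun _ _ => Nat.zero_le _) (Finset.mem_univ χ₀)
        _ = charDegree χ₀.1 := hsum
    have h2 : mm χ₀ ≤ 1 := by
      by_contra h
      push Not at h
      have : 2 * n ≤ mm χ₀ * n := Nat.mul_le_mul_right n h
      omega
    omega
  have hrest : ∑ ψ ∈ Finset.univ.erase χ₀, mm ψ * charDegree ψ.1 = 0 := by
    have h1 : mm χ₀ * charDegree χ₀.1 +
        ∑ ψ ∈ Finset.univ.erase χ₀, mm ψ * charDegree ψ.1 = n := by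
      rw [← hsum]
      exact hsplit
    rw [hm1, hdeg0] at h1
    omega
  have hm2 : ∀ ψ : IrrCharacter G, ψ ≠ χ₀ → mm ψ = 0 := by
    intro ψ hψ
    have h1 := (Finset.sum_eq_zero_iff.1 hrest) ψ (Finset.mem_erase.2 ⟨hψ, Finset.mem_univ ψ⟩)
    have h2 := charDegree_pos ψ
    rcases Nat.mul_eq_zero.1 h1 with h | h
    · exact h
    · omega
  have hχeq : χ = χ₀.1 := by
    funext g
    rw [hmm2 g, Finset.sum_eq_single χ₀]
    · rw [hm1]
      simp
    · intro ψ _ hψ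
      rw [hm2 ψ hψ]
      simp
    · intro h
      exact absurd (Finset.mem_univ χ₀) h
  refine ⟨hnp', ?_, hχeq ▸ χ₀.2⟩
  -- Step 3: `n` is a power of `2`
  obtain ⟨q, j, hq, hj⟩ := prime_pow_of_not_normal p hsolv χ hχ hfaith n hn hnp' P hP
  rcases hp.eq_two_or_odd with h2 | hodd
  · refine ⟨0, ?_⟩
    omega
  · have h2n : 2 ∣ n := by omega
    have hj0 : j ≠ 0 := by
      rintro rfl
      rw [pow_zero] at hj
      omega
    rw [hj] at h2n
    have h2q : 2 ∣ q := Nat.prime_two.dvd_of_dvd_pow h2n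
    have hq2 : q = 2 := ((Nat.prime_dvd_prime_iff_eq Nat.prime_two hq).1 h2q).symm
    exact ⟨j, by rw [hj, hq2]⟩

end Cfsg.Agent.S4468
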