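import Cfsg.Statements.S2565

set_option autoImplicit false
open Cfsg

namespace Cfsg.Agent.S2565

open Matrix

abbrev I := Fin 3 ⊕ Fin 3
abbrev V := I → ZMod 2
abbrev M := Matrix I I (ZMod 2)
abbrev W := Fin 8 → ZMod 2
abbrev Q : V → ZMod 2 := Cfsg.quadFormPlus 3 (ZMod 2)
abbrev O := ↥(Cfsg.isometryGroup (ZMod 2) (Cfsg.quadFormPlus 3 (ZMod 2)))

/-- Three 4-subsets of the 8 points (as 0/1 vectors). -/
def bx : Fin 3 → W := ![![1,1,1,1,0,0,0,0], ![1,1,0,0,0,1,1,0], ![1,0,1,0,0,0,1,1]]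
/-- Three more; together a hyperbolic basis of (even weight vectors) / (all-ones). -/
def bY : Fin 3 → W := ![![1,1,1,0,1,0,0,0], ![1,1,0,0,0,1,0,1], ![1,0,0,1,1,1,0,0]]

def Bm : Matrix (Fin 8) I (ZMod 2) := fun j c => Sum.elim bx bY c j
def D : Matrix I (Fin 8) (ZMod 2) := fun r i => Sum.elim bY bx r i

/-- Permutation matrix: `P σ e_j = e_{σ j}`. -/
def P (σ : Equiv.Perm (Fin 8)) : Matrix (Fin 8) (Fin 8) (ZMod 2) :=
  fun i j => if i = σ j then 1 else 0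

def m (σ : Equiv.Perm (Fin 8)) : M := D * P σ * Bm

def Rv : W := ![1,0,1,0,0,1,0,0]
def cv : W := ![0,1,0,1,1,0,1,1]

theorem P_mul (σ τ : Equiv.Perm (Fin 8)) : P (σ * τ) = P σ * P τ := by
  ext i j
  simp only [P, Matrix.mul_apply, Equiv.Perm.mul_apply]
  rw [Finset.sum_eq_single (τ j)]
  · simp only [if_true, mul_one]
    split_ifs with h <;> simp [h]
  · intro k _ hk
    simp [hk]
  · intro h; exact absurd (Finset.mem_univ _) h

theorem P_one : P 1 = 1 := by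
  ext i j
  simp only [P, Matrix.one_apply, Equiv.Perm.coe_one, id_eq]
  split_ifs with h <;> simp [h]

theorem P_mulVec_one (σ : Equiv.Perm (Fin 8)) : P σ *ᵥ (1 : W) = 1 := by
  funext i
  simp only [P, Matrix.mulVec, dotProduct, Pi.one_apply, mul_one]
  rw [Finset.sum_eq_single (σ.symm i)]
  · simp
  · intro k _ hk
    have : i ≠ σ k := fun h => hk (by rw [h]; simp)
    simp [this]
  · intro h; exact absurd (Finset.mem_univ _) h

theorem one_vecMul_P (σ : Equiv.Perm (Fin 8)) : (1 : W) ᵥ* P σ = 1 := by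
  funext j
  simp [P, Matrix.vecMul, dotProduct]

theorem D_mul_Bm : D * Bm = 1 := by decide
theorem Bm_mul_D : Bm * D = 1 + vecMulVec 1 Rv + vecMulVec cv 1 := by decide
theorem D_one : D *ᵥ (1 : W) = 0 := by decide
theorem one_Bm : (1 : W) ᵥ* Bm = 0 := by decide

theorem vecMulVec_zero' (w : W) : vecMulVec w (0 : V) = 0 := by
  ext i j
  simp [Matrix.vecMulVec_apply]

theorem m_one : m 1 = 1 := by
  unfold m; rw [P_one, Matrix.mul_one, D_mul_Bm]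

theorem m_mul (σ τ : Equiv.Perm (Fin 8)) : m (σ * τ) = m σ * m τ := by
  unfold m
  have h1 : D * P σ * Bm * (D * P τ * Bm) = D * P σ * (Bm * D) * (P τ * Bm) := by
    simp only [Matrix.mul_assoc]
  rw [h1, Bm_mul_D, Matrix.mul_add, Matrix.mul_add, Matrix.add_mul, Matrix.add_mul,
    Matrix.mul_one, Matrix.mul_vecMulVec, ← Matrix.mulVec_mulVec, P_mulVec_one, D_one,
    Matrix.zero_vecMulVec, Matrix.zero_mul, add_zero]
  rw [Matrix.mul_assoc (D * P σ) (vecMulVec cv 1) (P τ * Bm), Matrix.vecMulVec_mul,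
    ← Matrix.vecMul_vecMul, one_vecMul_P, one_Bm, vecMulVec_zero', Matrix.mul_zero,
    add_zero, P_mul]
  simp only [Matrix.mul_assoc]


/-! ### The matrices `m σ` are isometries -/

/-- Half the weight, mod 2. -/
def qh (w : W) : ZMod 2 := ((∑ j, (w j).val) / 2 : ℕ)

def vec6 (a b c d e f : ZMod 2) : V := Sum.elim ![a, b, c] ![d, e, f]

theorem vec6_eta (u : V) : u = vec6 (u (.inl 0)) (u (.inl 1)) (u (.inl 2))
    (u (.inr 0)) (u (.inr 1)) (u (.inr 2)) := by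
  funext i
  rcases i with i | i <;> fin_cases i <;> rfl

theorem vec8_eta (w : W) : w = ![w 0, w 1, w 2, w 3, w 4, w 5, w 6, w 7] := by
  funext i
  fin_cases i <;> rfl

theorem C1 : ∀ a b c d e f : ZMod 2,
    Q (vec6 a b c d e f) = qh (Bm *ᵥ vec6 a b c d e f) := by decide

theorem C1' (u : V) : Q u = qh (Bm *ᵥ u) := by
  rw [vec6_eta u]; exact C1 _ _ _ _ _ _

theorem C3 : ∀ a0 a1 a2 a3 a4 a5 a6 a7 : ZMod 2, a0 + a1 + a2 + a3 + a4 + a5 + a6 + a7 = 0 →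
    qh (![a0, a1, a2, a3, a4, a5, a6, a7] + 1) = qh ![a0, a1, a2, a3, a4, a5, a6, a7] := by
  decide

theorem C3' (w : W) (hw : (1 : W) ⬝ᵥ w = 0) : qh (w + 1) = qh w := by
  rw [vec8_eta w]
  apply C3
  rw [← hw]
  simp [dotProduct, Fin.sum_univ_eight]

theorem P_mulVec (σ : Equiv.Perm (Fin 8)) (w : W) (i : Fin 8) : (P σ *ᵥ w) i = w (σ.symm i) := by
  simp only [P, Matrix.mulVec, dotProduct]
  rw [Finset.sum_eq_single (σ.symm i)]
  · simp
  · intro k _ hk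
    have : i ≠ σ k := fun h => hk (by rw [h]; simp)
    simp [this]
  · intro h; exact absurd (Finset.mem_univ _) h

theorem C4 (σ : Equiv.Perm (Fin 8)) (w : W) : qh (P σ *ᵥ w) = qh w := by
  unfold qh
  have : ∑ j, ((P σ *ᵥ w) j).val = ∑ j, (w j).val := by
    simp only [P_mulVec]
    exact Equiv.sum_comp σ.symm (fun i => (w i).val)
  rw [this]

theorem mem_E (σ : Equiv.Perm (Fin 8)) (u : V) : (1 : W) ⬝ᵥ (P σ *ᵥ (Bm *ᵥ u)) = 0 := by
  rw [Matrix.dotProduct_mulVec, one_vecMul_P, Matrix.dotProduct_mulVec, one_Bm, zero_dotProduct]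

theorem zmod2_cases : ∀ x : ZMod 2, x = 0 ∨ x = 1 := by decide

theorem m_iso (σ : Equiv.Perm (Fin 8)) (u : V) : Q (m σ *ᵥ u) = Q u := by
  rw [C1' (m σ *ᵥ u), C1' u]
  have h1 : Bm *ᵥ (m σ *ᵥ u) = (Bm * D) *ᵥ (P σ *ᵥ (Bm *ᵥ u)) := by
    unfold m
    simp only [Matrix.mulVec_mulVec, Matrix.mul_assoc]
  rw [h1, Bm_mul_D, Matrix.add_mulVec, Matrix.add_mulVec, Matrix.one_mulVec,
    Matrix.vecMulVec_mulVec, Matrix.vecMulVec_mulVec, mem_E, MulOpposite.op_zero, zero_smul,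
    add_zero, op_smul_eq_smul]
  rcases zmod2_cases (Rv ⬝ᵥ P σ *ᵥ Bm *ᵥ u) with h | h
  · rw [h, zero_smul, add_zero, C4]
  · rw [h, one_smul, C3' _ (mem_E σ u), C4]


/-! ### Group elements -/

def gm (σ : Equiv.Perm (Fin 8)) : GL I (ZMod 2) :=
  ⟨m σ, m σ⁻¹, by rw [← m_mul, mul_inv_cancel, m_one], by rw [← m_mul, inv_mul_cancel, m_one]⟩

theorem gm_mem (σ : Equiv.Perm (Fin 8)) :
    gm σ ∈ Cfsg.isometryGroup (ZMod 2) (Cfsg.quadFormPlus 3 (ZMod 2)) := by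
  intro u _
  exact m_iso σ u

def Φ : Equiv.Perm (Fin 8) →* O where
  toFun σ := ⟨gm σ, gm_mem σ⟩
  map_one' := Subtype.ext (Units.ext m_one)
  map_mul' σ τ := Subtype.ext (Units.ext (m_mul σ τ))

/-- The matrix of an element of `O`. -/
def mat (g : O) : M := ((g : GL I (ZMod 2)) : M)

theorem mat_mul (g h : O) : mat (g * h) = mat g * mat h := rfl
theorem mat_one : mat (1 : O) = 1 := rfl
theorem mat_inj {g h : O} (e : mat g = mat h) : g = h := Subtype.ext (Units.ext e)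
theorem mat_Φ (σ : Equiv.Perm (Fin 8)) : mat (Φ σ) = m σ := rfl
theorem mat_iso (g : O) (u : V) : Q (mat g *ᵥ u) = Q u := g.2 u 0

/-- Closed form of the entries of `m σ`. -/
def mcol (σ : Equiv.Perm (Fin 8)) (r c : I) : ZMod 2 := ∑ j, D r (σ j) * Bm j c

theorem m_apply (σ : Equiv.Perm (Fin 8)) (r c : I) : m σ r c = mcol σ r c := by
  unfold m mcol
  rw [Matrix.mul_apply]
  apply Finset.sum_congr rfl
  intro j _
  congr 1
  rw [Matrix.mul_apply]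
  simp only [P]
  rw [Finset.sum_eq_single (σ j)]
  · simp
  · intro k _ hk
    simp [hk]
  · intro h; exact absurd (Finset.mem_univ _) h

/-! ### Injectivity -/

theorem c3_ne : mcol (Equiv.swap 0 1 * Equiv.swap 1 2) (.inl 1) (.inl 1) ≠ (1 : M) (.inl 1) (.inl 1) := by
  decide

theorem c3_mem : (Equiv.swap 0 1 * Equiv.swap 1 2 : Equiv.Perm (Fin 8)) ∈ alternatingGroup (Fin 8) := by
  rw [Equiv.Perm.mem_alternatingGroup, Equiv.Perm.sign_mul, Equiv.Perm.sign_swap (by decide),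
    Equiv.Perm.sign_swap (by decide)]
  rfl

theorem Φ_inj : Function.Injective Φ := by
  rw [← MonoidHom.ker_eq_bot_iff]
  by_contra hne
  have hnt : Nontrivial ↥Φ.ker := (Subgroup.nontrivial_iff_ne_bot _).mpr hne
  have hle := Equiv.Perm.alternatingGroup_le_of_normal (α := Fin 8) (by simp) hnt
  have h1 : Φ (Equiv.swap 0 1 * Equiv.swap 1 2) = 1 := hle c3_mem
  have h2 : m (Equiv.swap 0 1 * Equiv.swap 1 2) = 1 := congrArg mat h1
  apply c3_ne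
  rw [← m_apply, h2]

/-! ### Surjectivity -/

def ev (c : I) : V := Pi.single c 1

def act (g : O) (u : V) : V := mat g *ᵥ u

theorem act_mul (g h : O) (u : V) : act (g * h) u = act g (act h u) := by
  unfold act; rw [mat_mul, Matrix.mulVec_mulVec]

theorem act_one (u : V) : act 1 u = u := by
  unfold act; rw [mat_one, Matrix.one_mulVec]

theorem act_inv {g : O} {u w : V} (h : act g u = w) : act g⁻¹ w = u := by
  rw [← h, ← act_mul, inv_mul_cancel, act_one]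

theorem act_add (g : O) (u w : V) : act g (u + w) = act g u + act g w := by
  unfold act; rw [Matrix.mulVec_add]

theorem act_Q (g : O) (u : V) : Q (act g u) = Q u := mat_iso g u

theorem act_ne_zero (g : O) {u : V} (hu : u ≠ 0) : act g u ≠ 0 := by
  intro h
  apply hu
  have := act_inv h
  rw [← this]
  unfold act; rw [Matrix.mulVec_zero]

theorem act_ev (g : O) (c : I) : act g (ev c) = fun r => mat g r c := by
  unfold act ev
  rw [Matrix.mulVec_single_one]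
  rfl

theorem ev_ne (c : I) : ev c ≠ 0 := by
  intro h
  have := congrFun h c
  simp [ev] at this

def Fixes (g : O) (L : List I) : Prop := ∀ c ∈ L, act g (ev c) = ev c

theorem eq_one_of_fixes {g : O} (h : ∀ c : I, act g (ev c) = ev c) : g = 1 := by
  apply mat_inj
  rw [mat_one]
  ext r c
  have h2 : mat g r c = ev c r := by
    have := congrFun (h c) r
    rwa [act_ev] at this
  rw [h2, Matrix.one_apply]
  simp [ev, Pi.single_apply]

theorem level (L : List I) (c : I) (n : ℕ) (t : Fin n → Equiv.Perm (Fin 8))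
    (hL : ∀ a b c' d e f : ZMod 2, Q (vec6 a b c' d e f) = 0 →
      (∀ j ∈ L, Q (ev j + vec6 a b c' d e f) = Q (ev j + ev c)) →
      vec6 a b c' d e f ≠ 0 → ∃ i : Fin n, ∀ r, mcol (t i) r c = vec6 a b c' d e f r)
    (hF : ∀ i : Fin n, ∀ j ∈ L, ∀ r, mcol (t i) r j = ev j r)
    (hQ : Q (ev c) = 0) (g : O) (hg : Fixes g L) :
    ∃ i : Fin n, Fixes ((Φ (t i))⁻¹ * g) (c :: L) := by
  have h1 : Q (act g (ev c)) = 0 := by rw [act_Q, hQ]
  have h2 : ∀ j ∈ L, Q (ev j + act g (ev c)) = Q (ev j + ev c) := by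
    intro j hj
    have := hg j hj
    rw [← act_Q g (ev j + ev c), act_add, this]
  have h3 : act g (ev c) ≠ 0 := act_ne_zero g (ev_ne c)
  rw [vec6_eta (act g (ev c))] at h1 h2 h3
  obtain ⟨i, hi⟩ := hL _ _ _ _ _ _ h1 h2 h3
  rw [← vec6_eta (act g (ev c))] at hi
  refine ⟨i, ?_⟩
  have hk : act (Φ (t i)) (ev c) = act g (ev c) := by
    rw [act_ev]
    funext r
    rw [mat_Φ, m_apply, hi]
  intro c' hc'
  rw [act_mul]
  rcases List.mem_cons.mp hc' with rfl | hc'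
  · exact act_inv hk
  · rw [hg c' hc']
    apply act_inv
    rw [act_ev]
    funext r
    rw [mat_Φ, m_apply, hF i c' hc']

abbrev sw (a b : Fin 8) : Equiv.Perm (Fin 8) := Equiv.swap a b

def t0 : Fin 35 → Equiv.Perm (Fin 8) :=
  ![sw 1 3 * sw 3 5 * sw 5 2 * sw 2 4,
    sw 2 5 * sw 5 3 * sw 3 7 * sw 7 6 * sw 6 4,
    sw 1 2 * sw 2 5 * sw 5 3 * sw 3 6 * sw 6 4,
    sw 3 4,
    sw 1 4 * sw 2 6 * sw 6 3 * sw 3 7 * sw 7 5,
    sw 2 3 * sw 3 6 * sw 6 5 * sw 5 4,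
    sw 1 2 * sw 2 3 * sw 3 7 * sw 7 6 * sw 6 5 * sw 5 4,
    sw 1 2 * sw 2 6 * sw 6 4 * sw 3 7 * sw 7 5,
    sw 1 3 * sw 3 7 * sw 7 6 * sw 6 5 * sw 5 2 * sw 2 4,
    sw 1 2 * sw 2 3 * sw 3 5 * sw 5 4,
    sw 1 4 * sw 2 5 * sw 3 6,
    sw 2 5 * sw 5 3 * sw 3 6 * sw 6 4,
    sw 1 2 * sw 2 5 * sw 5 3 * sw 3 7 * sw 7 6 * sw 6 4,
    sw 2 3 * sw 3 7 * sw 7 6 * sw 6 5 * sw 5 4,
    sw 1 2 * sw 2 3 * sw 3 6 * sw 6 5 * sw 5 4,
    sw 1 3 * sw 3 6 * sw 6 5 * sw 5 2 * sw 2 4,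
    sw 2 6 * sw 6 4 * sw 3 7 * sw 7 5,
    sw 1 4 * sw 2 5 * sw 3 7 * sw 7 6,
    sw 2 3 * sw 3 5 * sw 5 4,
    1,
    sw 1 3 * sw 3 7 * sw 7 5 * sw 5 2 * sw 2 6 * sw 6 4,
    sw 2 4 * sw 3 6 * sw 6 5,
    sw 1 2 * sw 2 4 * sw 3 7 * sw 7 6 * sw 6 5,
    sw 1 2 * sw 2 4 * sw 3 5,
    sw 1 3 * sw 3 6 * sw 6 4 * sw 2 5,
    sw 2 3 * sw 3 4,
    sw 3 6 * sw 6 5 * sw 5 4,
    sw 2 4 * sw 3 7 * sw 7 6 * sw 6 5,
    sw 1 2 * sw 2 4 * sw 3 6 * sw 6 5,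
    sw 3 5 * sw 5 4,
    sw 1 5 * sw 5 2 * sw 2 6 * sw 6 3 * sw 3 7 * sw 7 4,
    sw 1 3 * sw 3 7 * sw 7 6 * sw 6 4 * sw 2 5,
    sw 2 4 * sw 3 5,
    sw 3 7 * sw 7 6 * sw 6 5 * sw 5 4,
    sw 1 2 * sw 2 3 * sw 3 4]

def t1 : Fin 16 → Equiv.Perm (Fin 8) :=
  ![1,
    sw 0 1 * sw 1 2 * sw 2 3 * sw 4 5,
    sw 2 3 * sw 4 6 * sw 6 5,
    sw 1 2 * sw 2 3 * sw 4 7 * sw 7 6 * sw 6 5,
    sw 1 2 * sw 2 3 * sw 4 5,
    sw 0 1 * sw 1 2 * sw 2 3 * sw 4 7 * sw 7 6 * sw 6 5,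
    sw 2 3 * sw 4 7 * sw 7 6 * sw 6 5,
    sw 1 2 * sw 2 3 * sw 4 6 * sw 6 5,
    sw 0 1 * sw 1 2 * sw 2 3 * sw 4 6 * sw 6 5,
    sw 2 3 * sw 4 5,
    sw 2 3,
    sw 4 6 * sw 6 5,
    sw 4 5,
    sw 0 1 * sw 1 2 * sw 2 3,
    sw 4 7 * sw 7 6 * sw 6 5,
    sw 1 2 * sw 2 3]

def t2 : Fin 9 → Equiv.Perm (Fin 8) :=
  ![sw 0 1 * sw 1 2 * sw 5 6 * sw 6 7,
    sw 6 7,
    sw 1 2,
    sw 1 2 * sw 5 6 * sw 6 7,
    sw 0 1 * sw 1 2,
    1,
    sw 1 2 * sw 6 7,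
    sw 0 1 * sw 1 2 * sw 6 7,
    sw 5 6 * sw 6 7]

def t3 : Fin 4 → Equiv.Perm (Fin 8) :=
  ![1,
    sw 0 5 * sw 1 6 * sw 2 7 * sw 3 4,
    sw 0 5 * sw 5 1 * sw 1 6 * sw 2 7 * sw 3 4,
    sw 5 6]

def t4 : Fin 2 → Equiv.Perm (Fin 8) :=
  ![sw 0 1,
    1]

def t5 : Fin 1 → Equiv.Perm (Fin 8) :=
  ![1]

set_option maxRecDepth 100000 in
theorem L0 : ∀ a b c d e f : ZMod 2, Q (vec6 a b c d e f) = 0 →
    (∀ j ∈ ([] : List I), Q (ev j + vec6 a b c d e f) = Q (ev j + ev (Sum.inl 0))) →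
    vec6 a b c d e f ≠ 0 → ∃ i : Fin 35, ∀ r, mcol (t0 i) r (Sum.inl 0) = vec6 a b c d e f r := by
  decide

set_option maxRecDepth 100000 in
theorem F0 : ∀ i : Fin 35, ∀ j ∈ ([] : List I), ∀ r, mcol (t0 i) r j = ev j r := by
  decide

set_option maxRecDepth 100000 in
theorem L1 : ∀ a b c d e f : ZMod 2, Q (vec6 a b c d e f) = 0 →
    (∀ j ∈ ([Sum.inl 0] : List I), Q (ev j + vec6 a b c d e f) = Q (ev j + ev (Sum.inr 0))) →
    vec6 a b c d e f ≠ 0 → ∃ i : Fin 16, ∀ r, mcol (t1 i) r (Sum.inr 0) = vec6 a b c d e f r := by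
  decide

set_option maxRecDepth 100000 in
theorem F1 : ∀ i : Fin 16, ∀ j ∈ ([Sum.inl 0] : List I), ∀ r, mcol (t1 i) r j = ev j r := by
  decide

set_option maxRecDepth 100000 in
theorem L2 : ∀ a b c d e f : ZMod 2, Q (vec6 a b c d e f) = 0 →
    (∀ j ∈ ([Sum.inr 0, Sum.inl 0] : List I), Q (ev j + vec6 a b c d e f) = Q (ev j + ev (Sum.inl 1))) →
    vec6 a b c d e f ≠ 0 → ∃ i : Fin 9, ∀ r, mcol (t2 i) r (Sum.inl 1) = vec6 a b c d e f r := by
  decide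

set_option maxRecDepth 100000 in
theorem F2 : ∀ i : Fin 9, ∀ j ∈ ([Sum.inr 0, Sum.inl 0] : List I), ∀ r, mcol (t2 i) r j = ev j r := by
  decide

set_option maxRecDepth 100000 in
theorem L3 : ∀ a b c d e f : ZMod 2, Q (vec6 a b c d e f) = 0 →
    (∀ j ∈ ([Sum.inl 1, Sum.inr 0, Sum.inl 0] : List I), Q (ev j + vec6 a b c d e f) = Q (ev j + ev (Sum.inr 1))) →
    vec6 a b c d e f ≠ 0 → ∃ i : Fin 4, ∀ r, mcol (t3 i) r (Sum.inr 1) = vec6 a b c d e f r := by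
  decide

set_option maxRecDepth 100000 in
theorem F3 : ∀ i : Fin 4, ∀ j ∈ ([Sum.inl 1, Sum.inr 0, Sum.inl 0] : List I), ∀ r, mcol (t3 i) r j = ev j r := by
  decide

set_option maxRecDepth 100000 in
theorem L4 : ∀ a b c d e f : ZMod 2, Q (vec6 a b c d e f) = 0 →
    (∀ j ∈ ([Sum.inr 1, Sum.inl 1, Sum.inr 0, Sum.inl 0] : List I), Q (ev j + vec6 a b c d e f) = Q (ev j + ev (Sum.inl 2))) →
    vec6 a b c d e f ≠ 0 → ∃ i : Fin 2, ∀ r, mcol (t4 i) r (Sum.inl 2) = vec6 a b c d e f r := by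
  decide

set_option maxRecDepth 100000 in
theorem F4 : ∀ i : Fin 2, ∀ j ∈ ([Sum.inr 1, Sum.inl 1, Sum.inr 0, Sum.inl 0] : List I), ∀ r, mcol (t4 i) r j = ev j r := by
  decide

set_option maxRecDepth 100000 in
theorem L5 : ∀ a b c d e f : ZMod 2, Q (vec6 a b c d e f) = 0 →
    (∀ j ∈ ([Sum.inl 2, Sum.inr 1, Sum.inl 1, Sum.inr 0, Sum.inl 0] : List I), Q (ev j + vec6 a b c d e f) = Q (ev j + ev (Sum.inr 2))) →
    vec6 a b c d e f ≠ 0 → ∃ i : Fin 1, ∀ r, mcol (t5 i) r (Sum.inr 2) = vec6 a b c d e f r := by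
  decide

set_option maxRecDepth 100000 in
theorem F5 : ∀ i : Fin 1, ∀ j ∈ ([Sum.inl 2, Sum.inr 1, Sum.inl 1, Sum.inr 0, Sum.inl 0] : List I), ∀ r, mcol (t5 i) r j = ev j r := by
  decide


theorem Q_ev : ∀ c : I, Q (ev c) = 0 := by decide

theorem surj (g : O) : g ∈ Φ.range := by
  obtain ⟨i0, h0⟩ := level [] (.inl 0) 35 t0 L0 F0 (Q_ev _) g (fun c hc => absurd hc List.not_mem_nil)
  obtain ⟨i1, h1⟩ := level [.inl 0] (.inr 0) 16 t1 L1 F1 (Q_ev _) _ h0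
  obtain ⟨i2, h2⟩ := level [.inr 0, .inl 0] (.inl 1) 9 t2 L2 F2 (Q_ev _) _ h1
  obtain ⟨i3, h3⟩ := level [.inl 1, .inr 0, .inl 0] (.inr 1) 4 t3 L3 F3 (Q_ev _) _ h2
  obtain ⟨i4, h4⟩ := level [.inr 1, .inl 1, .inr 0, .inl 0] (.inl 2) 2 t4 L4 F4 (Q_ev _) _ h3
  obtain ⟨i5, h5⟩ := level [.inl 2, .inr 1, .inl 1, .inr 0, .inl 0] (.inr 2) 1 t5 L5 F5 (Q_ev _) _ h4
  have hone := eq_one_of_fixes (g := _)
    (fun c => h5 c (by rcases c with c | c <;> fin_cases c <;> simp))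
  have key : ∀ (σ : Equiv.Perm (Fin 8)) (x : O), (Φ σ)⁻¹ * x ∈ Φ.range → x ∈ Φ.range := by
    intro σ x hx
    have := Φ.range.mul_mem ⟨σ, rfl⟩ hx
    rwa [mul_inv_cancel_left] at this
  apply key (t0 i0); apply key (t1 i1); apply key (t2 i2)
  apply key (t3 i3); apply key (t4 i4); apply key (t5 i5)
  rw [hone]; exact Φ.range.one_mem

/-- The commutator subgroup of the full orthogonal group of the plus-type form Σ xᵢyᵢ in dimension 6 over the field of two elements (the group Ω⁺₆(2), of index 2) is isomorphic to the alternating group of degree 8. -/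
theorem result :
    (Cfsg.Omega (ZMod 2) (Cfsg.quadFormPlus 3 (ZMod 2))).index = 2 ∧
    Nonempty (↥(Cfsg.Omega (ZMod 2) (Cfsg.quadFormPlus 3 (ZMod 2))) ≃* alternatingGroup (Fin 8)) := by
  have hbij : Function.Bijective Φ := ⟨Φ_inj, fun g => surj g⟩
  let e : Equiv.Perm (Fin 8) ≃* O := MulEquiv.ofBijective Φ hbij
  have halt : commutator (Equiv.Perm (Fin 8)) = alternatingGroup (Fin 8) :=
    alternatingGroup.commutator_perm_eq (by simp)
  have hcomm : (alternatingGroup (Fin 8)).map (e : Equiv.Perm (Fin 8) →* O) = commutator O := by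
    have hr : (e : Equiv.Perm (Fin 8) →* O).range = ⊤ := MonoidHom.range_eq_top.mpr e.surjective
    rw [← halt, commutator_def, commutator_def, Subgroup.map_commutator, ← MonoidHom.range_eq_map,
      hr]
  constructor
  · show (commutator O).index = 2
    rw [← hcomm, Subgroup.index_map_equiv]
    exact alternatingGroup.index_eq_two
  · refine ⟨?_⟩
    show ↥(commutator O) ≃* ↥(alternatingGroup (Fin 8))
    exact ((e.subgroupMap (alternatingGroup (Fin 8))).trans (MulEquiv.subgroupCongr hcomm)).symm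

end Cfsg.Agent.S2565
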