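import Cfsg.Statements.S0256
import Cfsg.Agent.S2565
import Cfsg.Agent.Lib.Helper43.SLCard

set_option autoImplicit false
open Cfsg

namespace Cfsg.Agent.S0256

open Matrix

abbrev I := Fin 3 ⊕ Fin 3

def pr1 : I → Fin 4 := Sum.elim ![0, 0, 0] ![2, 1, 1]
def pr2 : I → Fin 4 := Sum.elim ![1, 2, 3] ![3, 3, 2]

section Ring
variable {R : Type*} [CommRing R]

/-- The second compound (exterior square) of a 4×4 matrix. -/
def Lam (g : Matrix (Fin 4) (Fin 4) R) : Matrix I I R :=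
  fun r c => g (pr1 r) (pr1 c) * g (pr2 r) (pr2 c) - g (pr1 r) (pr2 c) * g (pr2 r) (pr1 c)

theorem Lam_mul (g h : Matrix (Fin 4) (Fin 4) R) : Lam (g * h) = Lam g * Lam h := by
  ext r c
  rcases r with r | r <;> rcases c with c | c <;> fin_cases r <;> fin_cases c <;>
  · simp [Lam, pr1, pr2, Matrix.mul_apply, Fin.sum_univ_four, Fintype.sum_sum_type,
      Fin.sum_univ_three]
    ring

theorem Lam_one : Lam (1 : Matrix (Fin 4) (Fin 4) R) = 1 := by
  ext r c
  rcases r with r | r <;> rcases c with c | c <;> fin_cases r <;> fin_cases c <;>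
    simp [Lam, pr1, pr2, Matrix.one_apply]

/-- The Pfaffian form on 2-vectors. -/
def Pf (u : I → R) : R :=
  u (.inl 0) * u (.inr 0) - u (.inl 1) * u (.inr 1) + u (.inl 2) * u (.inr 2)

theorem Pf_Lam (g : Matrix (Fin 4) (Fin 4) R) (u : I → R) :
    Pf (Lam g *ᵥ u) = g.det * Pf u := by
  simp [Pf, Lam, pr1, pr2, Matrix.mulVec, dotProduct, Fintype.sum_sum_type, Fin.sum_univ_three,
    Matrix.det_succ_row_zero, Fin.sum_univ_four, Fin.succAbove]
  ring

end Ring


/-! ### Specialisation to the field with two elements -/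

abbrev O := Cfsg.Agent.S2565.O
abbrev SL4 := Matrix.SpecialLinearGroup (Fin 4) (ZMod 2)

theorem Q_eq_Pf (u : I → ZMod 2) : Cfsg.quadFormPlus 3 (ZMod 2) u = Pf u := by
  simp only [Cfsg.quadFormPlus, Pf, Fin.sum_univ_three]
  rw [CharTwo.sub_eq_add]

theorem Lam_iso (g : SL4) (u : I → ZMod 2) :
    Cfsg.quadFormPlus 3 (ZMod 2) (Lam g.1 *ᵥ u) = Cfsg.quadFormPlus 3 (ZMod 2) u := by
  rw [Q_eq_Pf, Q_eq_Pf, Pf_Lam, g.2, one_mul]

def gΨ (g : SL4) : GL I (ZMod 2) :=
  ⟨Lam g.1, Lam (g⁻¹).1,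
    by rw [← Lam_mul, ← Matrix.SpecialLinearGroup.coe_mul, mul_inv_cancel,
      Matrix.SpecialLinearGroup.coe_one, Lam_one],
    by rw [← Lam_mul, ← Matrix.SpecialLinearGroup.coe_mul, inv_mul_cancel,
      Matrix.SpecialLinearGroup.coe_one, Lam_one]⟩

theorem gΨ_mem (g : SL4) :
    gΨ g ∈ Cfsg.isometryGroup (ZMod 2) (Cfsg.quadFormPlus 3 (ZMod 2)) := by
  intro u _
  exact Lam_iso g u

def Ψ : SL4 →* O where
  toFun g := ⟨gΨ g, gΨ_mem g⟩
  map_one' := Subtype.ext (Units.ext (by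
    show Lam ((1 : SL4).1) = 1
    rw [Matrix.SpecialLinearGroup.coe_one, Lam_one]))
  map_mul' g h := Subtype.ext (Units.ext (by
    show Lam ((g * h).1) = Lam g.1 * Lam h.1
    rw [Matrix.SpecialLinearGroup.coe_mul, Lam_mul]))

/-! ### Injectivity -/

theorem inj_key : ∀ c : I, ∀ a0 a1 a2 a3 b0 b1 b2 b3 : ZMod 2,
    (∀ r : I, ![a0, a1, a2, a3] (pr1 r) * ![b0, b1, b2, b3] (pr2 r)
        - ![b0, b1, b2, b3] (pr1 r) * ![a0, a1, a2, a3] (pr2 r) = (1 : Matrix I I (ZMod 2)) r c) →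
    ∀ i : Fin 4, i ≠ pr1 c → i ≠ pr2 c → ![a0, a1, a2, a3] i = 0 ∧ ![b0, b1, b2, b3] i = 0 := by
  decide

theorem pick : ∀ i k : Fin 4, i ≠ k →
    ∃ c : I, (k = pr1 c ∨ k = pr2 c) ∧ i ≠ pr1 c ∧ i ≠ pr2 c := by decide

theorem pick' : ∀ k : Fin 4, ∃ c : I, (k = pr1 c ∨ k = pr2 c) := by decide

theorem pr_ne : ∀ c : I, pr1 c ≠ pr2 c := by decide

theorem diag_key : ∀ x y : ZMod 2, x * y = 1 → x = 1 ∧ y = 1 := by decide

theorem vec4_col (g : Matrix (Fin 4) (Fin 4) (ZMod 2)) (k j : Fin 4) :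
    ![g 0 k, g 1 k, g 2 k, g 3 k] j = g j k := by
  fin_cases j <;> rfl

theorem Lam_inj (g : Matrix (Fin 4) (Fin 4) (ZMod 2)) (h : Lam g = 1) : g = 1 := by
  have hmin : ∀ r c : I, g (pr1 r) (pr1 c) * g (pr2 r) (pr2 c)
      - g (pr1 r) (pr2 c) * g (pr2 r) (pr1 c) = (1 : Matrix I I (ZMod 2)) r c := by
    intro r c
    exact congrFun (congrFun h r) c
  have off : ∀ i k : Fin 4, i ≠ k → g i k = 0 := by
    intro i k hik
    obtain ⟨c, hc, hi1, hi2⟩ := pick i k hik
    have key := inj_key c (g 0 (pr1 c)) (g 1 (pr1 c)) (g 2 (pr1 c)) (g 3 (pr1 c))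
      (g 0 (pr2 c)) (g 1 (pr2 c)) (g 2 (pr2 c)) (g 3 (pr2 c))
      (by intro r; simp only [vec4_col]; exact hmin r c) i hi1 hi2
    simp only [vec4_col] at key
    rcases hc with rfl | rfl
    · exact key.1
    · exact key.2
  have diag : ∀ k : Fin 4, g k k = 1 := by
    intro k
    obtain ⟨c, hc⟩ := pick' k
    have h1 := hmin c c
    rw [off (pr1 c) (pr2 c) (pr_ne c), zero_mul, sub_zero, Matrix.one_apply_eq] at h1
    have h2 := diag_key _ _ h1
    rcases hc with rfl | rfl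
    · exact h2.1
    · exact h2.2
  ext i k
  by_cases hik : i = k
  · subst hik; rw [diag, Matrix.one_apply_eq]
  · rw [off i k hik, Matrix.one_apply_ne hik]

theorem Ψ_inj : Function.Injective Ψ := by
  rw [injective_iff_map_eq_one]
  intro g hg
  have h1 : Lam g.1 = 1 := congrArg Cfsg.Agent.S2565.mat hg
  exact Subtype.ext (Lam_inj g.1 h1)


/-! ### The isomorphism -/

/-- `O₆⁺(2) ≃* S₈`, from S2565. -/
noncomputable def eO : Equiv.Perm (Fin 8) ≃* O :=
  MulEquiv.ofBijective Cfsg.Agent.S2565.Φ ⟨Cfsg.Agent.S2565.Φ_inj, fun g => Cfsg.Agent.S2565.surj g⟩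

theorem map_inj {F : Type*} [Field F] (f : F →+* ZMod 2) (hf : Function.Injective f) :
    Function.Injective (Matrix.SpecialLinearGroup.map (n := Fin 4) f) := by
  intro A B h
  apply Subtype.ext
  ext i j
  have h1 := congrArg (fun X : SL4 => X.1 i j) h
  simp only [Matrix.SpecialLinearGroup.map_apply_coe, RingHom.mapMatrix_apply, Matrix.map_apply] at h1
  exact hf h1

/-- PSL_4(2) is isomorphic to A_8. -/
theorem result {F : Type*} [Field F] [Fintype F] (hF : Fintype.card F = 2) : Nonempty (Matrix.ProjectiveSpecialLinearGroup (Fin 4) F ≃* alternatingGroup (Fin 8)) := by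
  classical
  -- the field is `ZMod 2`
  let f : F ≃+* ZMod 2 := (ZMod.ringEquivOfPrime F Nat.prime_two hF).symm
  -- `PSL = SL` since the centre is trivial
  have hc := Cfsg.Agent.Lib.Helper43.SLCard.center_SL_eq_bot_of_card_two hF 4
  let e0 : Matrix.ProjectiveSpecialLinearGroup (Fin 4) F ≃* Matrix.SpecialLinearGroup (Fin 4) F :=
    (QuotientGroup.quotientMulEquivOfEq hc).trans QuotientGroup.quotientBot
  -- the injective homomorphism to `S₈`
  let θ : Matrix.ProjectiveSpecialLinearGroup (Fin 4) F →* Equiv.Perm (Fin 8) :=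
    (eO.symm.toMonoidHom.comp (Ψ.comp (Matrix.SpecialLinearGroup.map (f : F →+* ZMod 2)))).comp
      e0.toMonoidHom
  have hθ : Function.Injective θ := by
    refine (eO.symm.injective.comp (Ψ_inj.comp (map_inj _ f.injective))).comp e0.injective
  -- its image has index 2
  have hcard : Nat.card θ.range = 20160 := by
    rw [← Nat.card_congr (MonoidHom.ofInjective hθ).toEquiv]
    exact Cfsg.Agent.Lib.Helper43.SLCard.card_PSL4 hF
  have hidx : θ.range.index = 2 := by
    have h1 := Subgroup.card_mul_index θ.range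
    rw [hcard, Nat.card_eq_fintype_card, Fintype.card_perm, Fintype.card_fin] at h1
    have h2 : (8 : ℕ).factorial = 40320 := by decide
    rw [h2] at h1
    omega
  have halt := Equiv.Perm.eq_alternatingGroup_of_index_eq_two hidx
  exact ⟨(MonoidHom.ofInjective hθ).trans (MulEquiv.subgroupCongr halt)⟩

end Cfsg.Agent.S0256
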