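import Cfsg.Statements.S1312
import Mathlib
import Cfsg.Agent.Lib.Helper22.CompInv
import Cfsg.Agent.Lib.Helper22.Layer
import Cfsg.Agent.Lib.Helper21.Layer
import Cfsg.Agent.Lib.Helper21.FStar
import Cfsg.Agent.Lib.Helper23.Cores
import Cfsg.Agent.Lib.Helper78.Fitting

set_option autoImplicit false
open Cfsg

namespace Cfsg.Agent.S1312

open Subgroup
open scoped commutatorElement
open Cfsg.Agent.Lib.Helper21 Cfsg.Agent.Lib.Helper22 Cfsg.Agent.Lib.Helper78
open Cfsg.Agent.Lib.Helper23

set_option linter.unusedSectionVars false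

variable {G : Type*} [Group G] [Finite G]

/-- every component of `M` lies in the layer of `N` (as subgroups of `G`). -/
theorem layer_map_le (M N : Subgroup G)
    (h1 : (generalizedFittingSubgroup ↥M).map M.subtype ≤ N)
    (h2 : (generalizedFittingSubgroup ↥N).map N.subtype ≤ M) :
    (layer ↥M).map M.subtype ≤ (layer ↥N).map N.subtype := by
  rw [Subgroup.map_le_iff_le_comap]
  show sSup {K : Subgroup ↥M | IsComponent K} ≤ _
  refine sSup_le ?_
  intro L hL
  have hL' : IsComponent L := hL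
  have hLN : ∀ l ∈ L, (l : G) ∈ N := by
    intro l hl
    apply h1
    exact Subgroup.mem_map_of_mem _
      (Cfsg.Agent.Lib.Helper22.Layer.layer_le_genFitting
        (Cfsg.Agent.Lib.Helper22.Layer.le_layer hL' hl))
  have hNEN : N ≤ normalizer (((layer ↥N).map N.subtype : Subgroup G) : Set G) := by
    have := Cfsg.Agent.Lib.Helper21.Layer.layer_normal ↥N
    exact LBal.le_normalizer_map_subtype N (layer ↥N)
  have hNFN : N ≤ normalizer (((fittingSubgroup ↥N).map N.subtype : Subgroup G) : Set G) := by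
    have := Fitting.fitting_normal (G := ↥N)
    exact LBal.le_normalizer_map_subtype N (fittingSubgroup ↥N)
  have hnorm : ∀ T' : Subgroup G, N ≤ normalizer (T' : Set G) →
      L ≤ normalizer ((T'.subgroupOf M : Subgroup ↥M) : Set ↥M) := by
    intro T' hT' l hl
    rw [Subgroup.mem_normalizer_iff]
    intro h
    rw [Subgroup.mem_subgroupOf, Subgroup.mem_subgroupOf]
    have := (Subgroup.mem_normalizer_iff.1 (hT' (hLN l hl)) (h : G))
    simpa using this
  rcases CompInv.component_le_or_commutator_eq_bot hL' (hnorm _ hNEN) with h | h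
  · exact h
  · exfalso
    have hsolv : Group.IsSolvable ↥(((fittingSubgroup ↥N).map N.subtype).subgroupOf M) := by
      have hnil : Group.IsNilpotent ↥(fittingSubgroup ↥N) := Fitting.fitting_isNilpotent
      have hs1 : Group.IsSolvable ↥((fittingSubgroup ↥N).map N.subtype) :=
        Group.isSolvable_of_surjective (f := N.subtype.subgroupMap (fittingSubgroup ↥N))
          (MonoidHom.subgroupMap_surjective _ _)
      let f : ↥(((fittingSubgroup ↥N).map N.subtype).subgroupOf M) →*
          ↥((fittingSubgroup ↥N).map N.subtype) :=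
        { toFun := fun x => ⟨((x : ↥M) : G), x.2⟩
          map_one' := rfl
          map_mul' := fun _ _ => rfl }
      have hf : Function.Injective f := by
        intro x y hxy
        have h3 := congrArg Subtype.val hxy
        exact Subtype.ext (Subtype.ext h3)
      exact Group.isSolvable_of_isSolvable_injective hf
    have h' := Comp.component_commutator_solvable L _ hL' hsolv (hnorm _ hNFN)
    have hc1 := Subgroup.commutator_eq_bot_iff_le_centralizer.1 h
    have hc2 := Subgroup.commutator_eq_bot_iff_le_centralizer.1 h'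
    -- each element of L, viewed in N, centralizes F*(N)
    have hcent : ∀ l : ↥M, ∀ hl : l ∈ L, (⟨(l : G), hLN l hl⟩ : ↥N) ∈
        centralizer (generalizedFittingSubgroup ↥N : Set ↥N) := by
      intro l hl
      have hle : generalizedFittingSubgroup ↥N ≤
          centralizer ({(⟨(l : G), hLN l hl⟩ : ↥N)} : Set ↥N) := by
        unfold generalizedFittingSubgroup
        apply sup_le
        · intro e he
          rw [Subgroup.mem_centralizer_singleton_iff]
          apply Subtype.ext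
          have heM : (e : G) ∈ M :=
            h2 (Subgroup.mem_map_of_mem _ (Cfsg.Agent.Lib.Helper22.Layer.layer_le_genFitting he))
          have hmem : (⟨(e : G), heM⟩ : ↥M) ∈ ((layer ↥N).map N.subtype).subgroupOf M := by
            rw [Subgroup.mem_subgroupOf]
            exact Subgroup.mem_map_of_mem _ he
          have h4 := congrArg Subtype.val (Subgroup.mem_centralizer_iff.1 (hc1 hl) _ hmem)
          exact h4
        · intro e he
          rw [Subgroup.mem_centralizer_singleton_iff]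
          apply Subtype.ext
          have heM : (e : G) ∈ M :=
            h2 (Subgroup.mem_map_of_mem _ (Cfsg.Agent.Lib.Helper22.Layer.fitting_le_genFitting he))
          have hmem : (⟨(e : G), heM⟩ : ↥M) ∈
              ((fittingSubgroup ↥N).map N.subtype).subgroupOf M := by
            rw [Subgroup.mem_subgroupOf]
            exact Subgroup.mem_map_of_mem _ he
          have h4 := congrArg Subtype.val (Subgroup.mem_centralizer_iff.1 (hc2 hl) _ hmem)
          exact h4
      rw [Subgroup.mem_centralizer_iff]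
      intro g hg
      exact Subgroup.mem_centralizer_singleton_iff.1 (hle hg)
    have hab : L ≤ centralizer (L : Set ↥M) := by
      intro a ha
      rw [Subgroup.mem_centralizer_iff]
      intro b hb
      have hb' := FStar.centralizer_gfs_le (hcent b hb)
      have h4 := congrArg Subtype.val (Subgroup.mem_centralizer_iff.1 (hcent a ha) _ hb')
      apply Subtype.ext
      exact h4
    have hbot := Subgroup.commutator_eq_bot_iff_le_centralizer.2 hab
    rw [Comp.commutator_self hL'.2] at hbot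
    exact Comp.ne_bot_of_quasisimple hL'.2 hbot

/-- the image in `G` of `O_r(M)`. -/
abbrev pc (r : ℕ) (M : Subgroup G) : Subgroup G := (pCore r ↥M).map M.subtype

theorem pc_le (r : ℕ) (M : Subgroup G) : pc r M ≤ M := Subgroup.map_subtype_le _

theorem pc_le_gfs (r : ℕ) [Fact r.Prime] (M : Subgroup G) :
    pc r M ≤ (generalizedFittingSubgroup ↥M).map M.subtype :=
  Subgroup.map_mono ((Fitting.pCore_le_fitting r).trans
    Cfsg.Agent.Lib.Helper22.Layer.fitting_le_genFitting)

theorem pc_norm (r : ℕ) (M : Subgroup G) : M ≤ normalizer (pc r M : Set G) := by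
  have := Fitting.pCore_normal (G := ↥M) r
  exact LBal.le_normalizer_map_subtype M (pCore r ↥M)

theorem pc_pgroup (r : ℕ) [Fact r.Prime] (M : Subgroup G) : IsPGroup r ↥(pc r M) :=
  (Fitting.pCore_isPGroup r).map _

theorem pow_eq_one_of_mem_pc (r : ℕ) [Fact r.Prime] (M : Subgroup G) {x : G}
    (hx : x ∈ pc r M) : ∃ k : ℕ, x ^ r ^ k = 1 := by
  obtain ⟨k, hk⟩ := pc_pgroup r M ⟨x, hx⟩
  exact ⟨k, by simpa using congrArg Subtype.val hk⟩

theorem mem_iSup_pc_of_centralizes (M : Subgroup G) (hl : layer ↥M = ⊥) {x : G} (hx : x ∈ M)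
    (hc : ∀ r : ℕ, r.Prime → ∀ y ∈ pc r M, y * x = x * y) :
    x ∈ ⨆ r : Nat.Primes, pc (r : ℕ) M := by
  have hgfs : generalizedFittingSubgroup ↥M = ⨆ r : Nat.Primes, pCore (r : ℕ) ↥M := by
    unfold generalizedFittingSubgroup
    rw [hl, bot_sup_eq, Fitting.fitting_eq_iSup_pCore]
  have hcent : (⟨x, hx⟩ : ↥M) ∈ centralizer (generalizedFittingSubgroup ↥M : Set ↥M) := by
    rw [Subgroup.mem_centralizer_iff]
    have hle : generalizedFittingSubgroup ↥M ≤ centralizer ({(⟨x, hx⟩ : ↥M)} : Set ↥M) := by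
      rw [hgfs]
      apply iSup_le
      intro r y hy
      rw [Subgroup.mem_centralizer_singleton_iff]
      apply Subtype.ext
      exact hc r r.2 (y : G) (Subgroup.mem_map_of_mem _ hy)
    intro g hg
    exact Subgroup.mem_centralizer_singleton_iff.1 (hle hg)
  have hmem := FStar.centralizer_gfs_le hcent
  rw [hgfs] at hmem
  have : x ∈ (⨆ r : Nat.Primes, pCore (r : ℕ) ↥M).map M.subtype := ⟨⟨x, hx⟩, hmem, rfl⟩
  rwa [Subgroup.map_iSup] at this

theorem pc_le_pPrime (q r : ℕ) [Fact q.Prime] [Fact r.Prime] (hne : r ≠ q) (M : Subgroup G) :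
    pc r M ≤ (pPrimeCore q ↥M).map M.subtype := by
  apply Subgroup.map_mono
  apply Cores.le_pPrimeCore q _ (Fitting.pCore_normal r)
  obtain ⟨k, hk⟩ := IsPGroup.iff_card.1 (Fitting.pCore_isPGroup (G := ↥M) r)
  rw [hk]
  exact Nat.Coprime.pow_left k ((Nat.coprime_primes Fact.out Fact.out).2 hne)

theorem coprime_of_mem_pPrime (q : ℕ) [Fact q.Prime] (M : Subgroup G) {x : G}
    (hx : x ∈ (pPrimeCore q ↥M).map M.subtype) : (orderOf x).Coprime q := by
  obtain ⟨y, hy, rfl⟩ := hx
  have h1 : orderOf (M.subtype y) = orderOf (⟨y, hy⟩ : ↥(pPrimeCore q ↥M)) := by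
    rw [← Subgroup.orderOf_coe (⟨y, hy⟩ : ↥(pPrimeCore q ↥M))]
    exact Subgroup.orderOf_coe y
  rw [h1]
  exact Nat.Coprime.coprime_dvd_left (orderOf_dvd_natCard _) (Cores.pPrimeCore_card_coprime q)

/-- the key step: a `q'`-element centralizing `O_q(M)` centralizes `O_q(N)`. -/
theorem claimB [IsSimpleGroup G] (M N : Subgroup G) (hM : IsCoatom M)
    (hlM : layer ↥M = ⊥) (q : ℕ) [hq : Fact q.Prime]
    (hPne : pc q M ≠ ⊥) (hQM : pc q N ≤ M)
    (hcomm : ∀ r : ℕ, r.Prime → r ≠ q → ∀ x ∈ pc r M, ∀ u ∈ pc q N, x * u = u * x)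
    (b : G) (hb : b ∈ centralizer (pc q M : Set G)) (hbq : (orderOf b).Coprime q) :
    b ∈ centralizer (pc q N : Set G) := by
  have hPn : normalizer (pc q M : Set G) = M :=
    CompInv.normalizer_eq_of_isCoatom hM _ hPne (pc_le q M) (pc_norm q M)
  have hbM : b ∈ M := by
    rw [← hPn]; exact Subgroup.centralizer_le_normalizer _ hb
  rw [Subgroup.mem_centralizer_iff]
  intro u hu
  have huM : u ∈ M := hQM hu
  have hNC : ∀ (r : ℕ) (m : G), m ∈ M →
      m ∈ normalizer ((centralizer (pc r M : Set G) : Subgroup G) : Set G) := by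
    intro r m hm
    exact Basic.mem_normalizer_centralizer_of_map_conj_eq
      (Basic.map_conj_eq_iff_mem_normalizer.2 (pc_norm r M hm))
  obtain ⟨c, hc⟩ : ∃ c : G, c = b * u * b⁻¹ * u⁻¹ := ⟨_, rfl⟩
  have hcM : c ∈ M := by
    rw [hc]
    exact M.mul_mem (M.mul_mem (M.mul_mem hbM huM) (M.inv_mem hbM)) (M.inv_mem huM)
  have hc1 : c ∈ centralizer (pc q M : Set G) := by
    have h1 : u * b⁻¹ * u⁻¹ ∈ centralizer (pc q M : Set G) :=
      (Subgroup.mem_normalizer_iff.1 (hNC q u huM) b⁻¹).1 (Subgroup.inv_mem _ hb)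
    have : c = b * (u * b⁻¹ * u⁻¹) := by rw [hc]; group
    rw [this]
    exact Subgroup.mul_mem _ hb h1
  have hc2 : ∀ r : ℕ, r.Prime → r ≠ q → c ∈ centralizer (pc r M : Set G) := by
    intro r hr hrq
    have hu' : u ∈ centralizer (pc r M : Set G) := by
      rw [Subgroup.mem_centralizer_iff]
      intro x hx
      exact hcomm r hr hrq x hx u hu
    have h1 : b * u * b⁻¹ ∈ centralizer (pc r M : Set G) :=
      (Subgroup.mem_normalizer_iff.1 (hNC r b hbM) u).1 hu'
    rw [hc]
    exact Subgroup.mul_mem _ h1 (Subgroup.inv_mem _ hu')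
  have hc3 : ∀ r : ℕ, r.Prime → ∀ y ∈ pc r M, y * c = c * y := by
    intro r hr y hy
    by_cases hrq : r = q
    · subst hrq; exact Subgroup.mem_centralizer_iff.1 hc1 y hy
    · exact Subgroup.mem_centralizer_iff.1 (hc2 r hr hrq) y hy
  have hcF := mem_iSup_pc_of_centralizes M hlM hcM hc3
  obtain ⟨X, hX⟩ : ∃ X : Subgroup G, X = ⨆ (r : Nat.Primes) (_ : (r : ℕ) ≠ q), pc (r : ℕ) M :=
    ⟨_, rfl⟩
  have hFle : (⨆ r : Nat.Primes, pc (r : ℕ) M) ≤ pc q M ⊔ X := by
    apply iSup_le
    intro r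
    by_cases hrq : (r : ℕ) = q
    · rw [hrq]; exact le_sup_left
    · rw [hX]; exact le_sup_of_le_right (le_iSup₂_of_le r hrq le_rfl)
  have hPr : ∀ r : ℕ, r.Prime → r ≠ q → ∀ a ∈ pc q M, ∀ t ∈ pc r M, a * t = t * a := by
    intro r hr hrq
    have : Fact r.Prime := ⟨hr⟩
    apply CompInv.commute_of_normalize_disjoint ((pc_le q M).trans (pc_norm r M))
      ((pc_le r M).trans (pc_norm q M))
    exact (IsPGroup.disjoint_of_ne q r (Ne.symm hrq) _ _ (pc_pgroup q M) (pc_pgroup r M)).eq_bot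
  have hPX : ∀ a ∈ pc q M, ∀ t ∈ X, a * t = t * a := by
    intro a ha t ht
    have hle : X ≤ centralizer ({a} : Set G) := by
      rw [hX]
      apply iSup₂_le
      intro r hrq y hy
      rw [Subgroup.mem_centralizer_singleton_iff]
      exact (hPr r r.2 hrq a ha y hy).symm
    exact (Subgroup.mem_centralizer_singleton_iff.1 (hle ht)).symm
  obtain ⟨cq, hcq, c', hc', hcc⟩ :=
    Cfsg.Agent.Lib.Helper21.Layer.mem_sup_of_commute hPX (hFle hcF)
  have hc'u : c' * u = u * c' := by
    have hle : X ≤ centralizer ({u} : Set G) := by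
      rw [hX]
      apply iSup₂_le
      intro r hrq y hy
      rw [Subgroup.mem_centralizer_singleton_iff]
      exact hcomm r r.2 hrq y hy u hu
    exact Subgroup.mem_centralizer_singleton_iff.1 (hle hc')
  have hc'cq : cq * c' = c' * cq := hPX cq hcq c' hc'
  have hXle : X ≤ (pPrimeCore q ↥M).map M.subtype := by
    rw [hX]
    apply iSup₂_le
    intro r hrq
    have : Fact (r : ℕ).Prime := ⟨r.2⟩
    exact pc_le_pPrime q r hrq M
  have hc'cop : (orderOf c').Coprime q := coprime_of_mem_pPrime q M (hXle hc')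
  obtain ⟨k, hk⟩ := pow_eq_one_of_mem_pc q N hu
  have hzu : IsPGroup q ↥(Subgroup.zpowers u) := by
    rintro ⟨g, hg⟩
    obtain ⟨i, rfl⟩ := Subgroup.mem_zpowers_iff.1 hg
    refine ⟨k, ?_⟩
    apply Subtype.ext
    show (u ^ i) ^ q ^ k = 1
    rw [← zpow_natCast, ← zpow_mul, mul_comm, zpow_mul, zpow_natCast, hk, one_zpow]
  have hsup : IsPGroup q ↥(Subgroup.zpowers u ⊔ pc q M) :=
    IsPGroup.to_sup_of_normal_right' hzu (pc_pgroup q M)
      ((Subgroup.zpowers_le.2 huM).trans (pc_norm q M))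
  have hv : cq * u ∈ Subgroup.zpowers u ⊔ pc q M :=
    Subgroup.mul_mem _ (Subgroup.mem_sup_right hcq)
      (Subgroup.mem_sup_left (Subgroup.mem_zpowers u))
  obtain ⟨j, hj⟩ := hsup ⟨cq * u, hv⟩
  have hj' : (cq * u) ^ q ^ j = 1 := by simpa using congrArg Subtype.val hj
  have hconj : b * u * b⁻¹ = c' * (cq * u) := by
    have : b * u * b⁻¹ = c * u := by rw [hc]; group
    rw [this, hcc, hc'cq, mul_assoc]
  have hcomm' : Commute c' (cq * u) := by
    show c' * (cq * u) = cq * u * c'
    rw [← mul_assoc, ← hc'cq, mul_assoc, hc'u, mul_assoc]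
  have hpow : c' ^ q ^ (k + j) = 1 := by
    have h1 : (b * u * b⁻¹) ^ q ^ (k + j) = 1 := by
      rw [conj_pow, pow_add, pow_mul, hk, one_pow]; group
    rw [hconj, hcomm'.mul_pow] at h1
    have h2 : (cq * u) ^ q ^ (k + j) = 1 := by
      rw [pow_add, mul_comm, pow_mul, hj', one_pow]
    rwa [h2, mul_one] at h1
  have hc'1 : c' = 1 := by
    have hd : orderOf c' ∣ q ^ (k + j) := orderOf_dvd_of_pow_eq_one hpow
    have : orderOf c' = 1 := Nat.Coprime.eq_one_of_dvd (Nat.Coprime.pow_right _ hc'cop) hd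
    exact orderOf_eq_one_iff.1 this
  have hcP : c ∈ pc q M := by rw [hcc, hc'1, mul_one]; exact hcq
  have hbc : b * c = c * b := (Subgroup.mem_centralizer_iff.1 hb c hcP).symm
  have hbu : b * u * b⁻¹ = c * u := by rw [hc]; group
  have hind : ∀ n : ℕ, b ^ n * u * (b ^ n)⁻¹ = c ^ n * u := by
    intro n
    induction n with
    | zero => simp
    | succ n ih =>
      have hbcn : b * c ^ n = c ^ n * b := (Commute.pow_right hbc n)
      calc b ^ (n + 1) * u * (b ^ (n + 1))⁻¹ = b * (b ^ n * u * (b ^ n)⁻¹) * b⁻¹ := by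
            rw [pow_succ']; group
        _ = b * (c ^ n * u) * b⁻¹ := by rw [ih]
        _ = (b * c ^ n) * u * b⁻¹ := by group
        _ = c ^ n * (b * u * b⁻¹) := by rw [hbcn]; group
        _ = c ^ (n + 1) * u := by rw [hbu, ← mul_assoc, ← pow_succ]
  have hcm : c ^ orderOf b = 1 := by
    have h := hind (orderOf b)
    rw [pow_orderOf_eq_one] at h
    simp only [one_mul, inv_one, mul_one] at h
    exact (mul_eq_right.1 h.symm)
  obtain ⟨a, ha⟩ := pow_eq_one_of_mem_pc q M hcP
  have hc1' : c = 1 := by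
    have hd1 : orderOf c ∣ orderOf b := orderOf_dvd_of_pow_eq_one hcm
    have hd2 : orderOf c ∣ q ^ a := orderOf_dvd_of_pow_eq_one ha
    have hcop : (orderOf b).Coprime (q ^ a) := Nat.Coprime.pow_right _ hbq
    have : orderOf c = 1 := Nat.eq_one_of_dvd_coprimes hcop hd1 hd2
    exact orderOf_eq_one_iff.1 this
  have h3 : b * u * b⁻¹ = u := by rw [hbu, hc1', one_mul]
  calc u * b = (b * u * b⁻¹) * b := by rw [h3]
    _ = b * u := by group

/-- the subgroup generated by the `q'`-elements of the centralizer of `P`. -/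
def qp (q : ℕ) (P : Subgroup G) : Subgroup G :=
  Subgroup.closure {b | b ∈ centralizer (P : Set G) ∧ (orderOf b).Coprime q}

theorem qp_le_centralizer (q : ℕ) (P : Subgroup G) : qp q P ≤ centralizer (P : Set G) := by
  unfold qp
  rw [Subgroup.closure_le]
  intro b hb
  exact hb.1

theorem le_normalizer_qp (q : ℕ) (P M : Subgroup G) (h : M ≤ normalizer (P : Set G)) :
    M ≤ normalizer ((qp q P : Subgroup G) : Set G) := by
  apply CompInv.le_normalizer_closure
  intro m hm s hs
  refine ⟨?_, ?_⟩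
  · have hmn : m ∈ normalizer ((centralizer (P : Set G) : Subgroup G) : Set G) :=
      Basic.mem_normalizer_centralizer_of_map_conj_eq
        (Basic.map_conj_eq_iff_mem_normalizer.2 (h hm))
    exact (Subgroup.mem_normalizer_iff.1 hmn s).1 hs.1
  · have : orderOf (m * s * m⁻¹) = orderOf s := (MulAut.conj m).orderOf_eq s
    rw [this]; exact hs.2

/-- if the centralizer of `O_q(M)` has no nontrivial `q'`-elements and `M` has no components,
then `F*(M)` is a `q`-group. -/
theorem isPGroup_gfs (q : Nat.Primes) (M : Subgroup G) (hl : layer ↥M = ⊥)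
    (hB : qp (q : ℕ) (pc (q : ℕ) M) = ⊥) :
    IsPGroup (q : ℕ) ↥(generalizedFittingSubgroup ↥M) := by
  have : Fact (q : ℕ).Prime := ⟨q.2⟩
  have hr : ∀ r : Nat.Primes, (r : ℕ) ≠ (q : ℕ) → pCore (r : ℕ) ↥M = ⊥ := by
    intro r hrq
    have : Fact (r : ℕ).Prime := ⟨r.2⟩
    rw [eq_bot_iff]
    intro y hy
    have hyP : (y : G) ∈ pc (r : ℕ) M := Subgroup.mem_map_of_mem _ hy
    have hyc : (y : G) ∈ centralizer (pc (q : ℕ) M : Set G) := by
      rw [Subgroup.mem_centralizer_iff]
      intro a ha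
      exact CompInv.commute_of_normalize_disjoint ((pc_le _ M).trans (pc_norm _ M))
        ((pc_le _ M).trans (pc_norm _ M))
        (IsPGroup.disjoint_of_ne (q : ℕ) (r : ℕ) (Ne.symm hrq) _ _ (pc_pgroup _ M)
          (pc_pgroup _ M)).eq_bot a ha (y : G) hyP
    obtain ⟨k, hk⟩ := pow_eq_one_of_mem_pc (r : ℕ) M hyP
    have hcop : (orderOf (y : G)).Coprime (q : ℕ) := by
      have hd : orderOf (y : G) ∣ (r : ℕ) ^ k := orderOf_dvd_of_pow_eq_one hk
      exact Nat.Coprime.coprime_dvd_left hd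
        (Nat.Coprime.pow_left k ((Nat.coprime_primes r.2 q.2).2 (fun h => hrq h)))
    have hmem : (y : G) ∈ qp (q : ℕ) (pc (q : ℕ) M) := Subgroup.subset_closure ⟨hyc, hcop⟩
    rw [hB, Subgroup.mem_bot] at hmem
    rw [Subgroup.mem_bot]
    exact Subtype.ext hmem
  have hg : generalizedFittingSubgroup ↥M = pCore (q : ℕ) ↥M := by
    unfold generalizedFittingSubgroup
    rw [hl, bot_sup_eq, Fitting.fitting_eq_iSup_pCore]
    apply le_antisymm
    · apply iSup_le
      intro r
      by_cases hrq : (r : ℕ) = (q : ℕ)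
      · rw [hrq]
      · rw [hr r hrq]; exact bot_le
    · exact le_iSup (fun r : Nat.Primes => pCore (r : ℕ) ↥M) q
  rw [hg]
  exact Fitting.pCore_isPGroup (q : ℕ)


/-- Let G be a non-abelian finite simple group and M ≠ N maximal subgroups of G with F*(M) ≤ N and F*(N) ≤ M. Then there is a prime p such that F*(M) and F*(N) are both p-groups. -/
theorem result {G : Type*} [Group G] [Finite G] [IsSimpleGroup G] (hna : ¬ IsMulCommutative G) (M N : Subgroup G) (hM : IsCoatom M) (hN : IsCoatom N) (hMN : M ≠ N) (h1 : (Cfsg.generalizedFittingSubgroup ↥M).map M.subtype ≤ N) (h2 : (Cfsg.generalizedFittingSubgroup ↥N).map N.subtype ≤ M) : ∃ p : ℕ, p.Prime ∧ IsPGroup p ↥(Cfsg.generalizedFittingSubgroup ↥M) ∧ IsPGroup p ↥(Cfsg.generalizedFittingSubgroup ↥N) := by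
  have hM1 : M ≠ ⊥ := by
    intro h
    apply hN.1
    apply hM.2
    rw [h]
    exact bot_lt_iff_ne_bot.2 (by rw [← h]; exact Ne.symm hMN)
  have hN1 : N ≠ ⊥ := by
    intro h
    apply hM.1
    apply hN.2
    rw [h]
    exact bot_lt_iff_ne_bot.2 (by rw [← h]; exact hMN)
  -- Step 1: no components
  have hE : (layer ↥M).map M.subtype = (layer ↥N).map N.subtype :=
    le_antisymm (layer_map_le M N h1 h2) (layer_map_le N M h2 h1)
  have hlM : layer ↥M = ⊥ := by
    by_contra hne
    have hne' : (layer ↥M).map M.subtype ≠ ⊥ := by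
      rwa [Ne, Subgroup.map_eq_bot_iff_of_injective _ M.subtype_injective]
    have hnM : M ≤ Subgroup.normalizer (((layer ↥M).map M.subtype : Subgroup G) : Set G) := by
      have := Cfsg.Agent.Lib.Helper21.Layer.layer_normal ↥M
      exact LBal.le_normalizer_map_subtype M (layer ↥M)
    have hnN : N ≤ Subgroup.normalizer (((layer ↥N).map N.subtype : Subgroup G) : Set G) := by
      have := Cfsg.Agent.Lib.Helper21.Layer.layer_normal ↥N
      exact LBal.le_normalizer_map_subtype N (layer ↥N)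
    have e1 := CompInv.normalizer_eq_of_isCoatom hM _ hne' (Subgroup.map_subtype_le _) hnM
    have hne'' : (layer ↥N).map N.subtype ≠ ⊥ := by rw [← hE]; exact hne'
    have e2 := CompInv.normalizer_eq_of_isCoatom hN _ hne'' (Subgroup.map_subtype_le _) hnN
    rw [hE] at e1
    exact hMN (e1.symm.trans e2)
  have hlN : layer ↥N = ⊥ := by
    have : (layer ↥N).map N.subtype = ⊥ := by rw [← hE, hlM, Subgroup.map_bot]
    exact (Subgroup.map_eq_bot_iff_of_injective _ N.subtype_injective).1 this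
  -- Step 2
  have hgM : generalizedFittingSubgroup ↥M = ⨆ r : Nat.Primes, pCore (r : ℕ) ↥M := by
    unfold generalizedFittingSubgroup
    rw [hlM, bot_sup_eq, Fitting.fitting_eq_iSup_pCore]
  have hgM1 : generalizedFittingSubgroup ↥M ≠ ⊥ := by
    intro h
    have hc := FStar.centralizer_gfs_le (G := ↥M)
    rw [h] at hc
    apply hM1
    rw [eq_bot_iff]
    intro x hx
    have hx' : (⟨x, hx⟩ : ↥M) ∈ (⊥ : Subgroup ↥M) := by
      apply hc
      rw [Subgroup.mem_centralizer_iff]
      intro y hy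
      rw [SetLike.mem_coe, Subgroup.mem_bot] at hy
      rw [hy]; simp
    rw [Subgroup.mem_bot] at hx'
    rw [Subgroup.mem_bot]
    exact congrArg Subtype.val hx'
  obtain ⟨q, hq⟩ : ∃ q : Nat.Primes, pCore (q : ℕ) ↥M ≠ ⊥ := by
    by_contra hcon
    push Not at hcon
    apply hgM1
    rw [hgM]
    simp [hcon]
  have : Fact (q : ℕ).Prime := ⟨q.2⟩
  have hPne : pc (q : ℕ) M ≠ ⊥ := by
    rwa [Ne, Subgroup.map_eq_bot_iff_of_injective _ M.subtype_injective]
  have hPQ : ∀ r s : ℕ, r.Prime → s.Prime → r ≠ s →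
      ∀ x ∈ pc r M, ∀ y ∈ pc s N, x * y = y * x := by
    intro r s hr hs hrs
    have : Fact r.Prime := ⟨hr⟩
    have : Fact s.Prime := ⟨hs⟩
    apply CompInv.commute_of_normalize_disjoint
    · exact ((pc_le_gfs r M).trans h1).trans (pc_norm s N)
    · exact ((pc_le_gfs s N).trans h2).trans (pc_norm r M)
    · exact (IsPGroup.disjoint_of_ne r s hrs _ _ (pc_pgroup r M) (pc_pgroup s N)).eq_bot
  have hQne : pc (q : ℕ) N ≠ ⊥ := by
    intro hQ
    apply hPne
    rw [eq_bot_iff]
    intro x hx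
    have hxN : x ∈ N := h1 (pc_le_gfs (q : ℕ) M hx)
    have hcx : ∀ r : ℕ, r.Prime → ∀ y ∈ pc r N, y * x = x * y := by
      intro r hr y hy
      by_cases hrq : r = (q : ℕ)
      · rw [hrq, hQ, Subgroup.mem_bot] at hy
        rw [hy]; simp
      · exact (hPQ (q : ℕ) r q.2 hr (Ne.symm hrq) x hx y hy).symm
    have hmem := mem_iSup_pc_of_centralizes N hlN hxN hcx
    have hle : (⨆ r : Nat.Primes, pc (r : ℕ) N) ≤ (pPrimeCore (q : ℕ) ↥N).map N.subtype := by
      apply iSup_le
      intro r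
      by_cases hrq : (r : ℕ) = (q : ℕ)
      · rw [hrq, hQ]; exact bot_le
      · have : Fact (r : ℕ).Prime := ⟨r.2⟩
        exact pc_le_pPrime (q : ℕ) (r : ℕ) hrq N
    have hcop := coprime_of_mem_pPrime (q : ℕ) N (hle hmem)
    obtain ⟨k, hk⟩ := pow_eq_one_of_mem_pc (q : ℕ) M hx
    have : orderOf x = 1 :=
      Nat.Coprime.eq_one_of_dvd (Nat.Coprime.pow_right _ hcop) (orderOf_dvd_of_pow_eq_one hk)
    rw [Subgroup.mem_bot]
    exact orderOf_eq_one_iff.1 this
  have h12 : qp (q : ℕ) (pc (q : ℕ) M) ≤ qp (q : ℕ) (pc (q : ℕ) N) := by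
    apply Subgroup.closure_mono
    intro b hb
    exact ⟨claimB M N hM hlM (q : ℕ) hPne ((pc_le_gfs _ N).trans h2)
      (fun r hr hrq x hx u hu => hPQ r q hr q.2 hrq x hx u hu) b hb.1 hb.2, hb.2⟩
  have h21 : qp (q : ℕ) (pc (q : ℕ) N) ≤ qp (q : ℕ) (pc (q : ℕ) M) := by
    apply Subgroup.closure_mono
    intro b hb
    exact ⟨claimB N M hN hlN (q : ℕ) hQne ((pc_le_gfs _ M).trans h1)
      (fun r hr hrq x hx u hu => (hPQ q r q.2 hr (Ne.symm hrq) u hu x hx).symm) b hb.1 hb.2, hb.2⟩
  have hS : qp (q : ℕ) (pc (q : ℕ) M) = qp (q : ℕ) (pc (q : ℕ) N) := le_antisymm h12 h21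
  have hPn : Subgroup.normalizer (pc (q : ℕ) M : Set G) = M :=
    CompInv.normalizer_eq_of_isCoatom hM _ hPne (pc_le _ M) (pc_norm _ M)
  have hQn : Subgroup.normalizer (pc (q : ℕ) N : Set G) = N :=
    CompInv.normalizer_eq_of_isCoatom hN _ hQne (pc_le _ N) (pc_norm _ N)
  have hB1M : qp (q : ℕ) (pc (q : ℕ) M) ≤ M := by
    refine (qp_le_centralizer _ _).trans ?_
    intro x hx
    rw [← hPn]; exact Subgroup.centralizer_le_normalizer _ hx
  have hB2N : qp (q : ℕ) (pc (q : ℕ) N) ≤ N := by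
    refine (qp_le_centralizer _ _).trans ?_
    intro x hx
    rw [← hQn]; exact Subgroup.centralizer_le_normalizer _ hx
  have hB1 : qp (q : ℕ) (pc (q : ℕ) M) = ⊥ := by
    by_contra hne
    have e1 := CompInv.normalizer_eq_of_isCoatom hM _ hne hB1M
      (le_normalizer_qp _ _ M (pc_norm _ M))
    have hne2 : qp (q : ℕ) (pc (q : ℕ) N) ≠ ⊥ := by rw [← hS]; exact hne
    have e2 := CompInv.normalizer_eq_of_isCoatom hN _ hne2 hB2N
      (le_normalizer_qp _ _ N (pc_norm _ N))
    rw [hS] at e1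
    exact hMN (e1.symm.trans e2)
  have hB2 : qp (q : ℕ) (pc (q : ℕ) N) = ⊥ := by rw [← hS]; exact hB1
  exact ⟨q, q.2, isPGroup_gfs q M hlM hB1, isPGroup_gfs q N hlN hB2⟩

end Cfsg.Agent.S1312
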