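import Cfsg.Statements.S4607
import Cfsg.Agent.Lib.Helper75.TwoChar

set_option autoImplicit false
open Cfsg

namespace Cfsg.Agent.S4607

/-- Let G be a finite group, p a prime, M a maximal ideal of the algebraic integers containing p, and B a p-block of G with defect group D. Then B contains exactly two irreducible characters if and only if D has order 2. -/
theorem result {G : Type*} [Group G] [Finite G] (p : ℕ) [Fact p.Prime] (M : Ideal Cfsg.AlgInt) (hM : Cfsg.IsPModular p M) (B : Set (Cfsg.IrrCharacter G)) (hB : Cfsg.IsPBlock M B) (D : Subgroup G) (hD : Cfsg.IsDefectGroup p M B D) : Nat.card B = 2 ↔ Nat.card D = 2 := by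
  constructor
  · intro h
    exact Cfsg.Agent.Lib.Helper75.TwoChar.card_two_imp p hM B hB D hD h
  · intro h
    exact Cfsg.Agent.Lib.Helper75.TwoChar.card_two_conv p hM B hB D hD h

end Cfsg.Agent.S4607
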