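import Cfsg.Statements.S0404
import Cfsg.Agent.Lib.Helper27.SimpMcL

set_option autoImplicit false
open Cfsg

namespace Cfsg.Agent.S0404

open Cfsg.Agent.Lib.Helper27 Cfsg.Agent.Lib.Helper27.Bits Cfsg.Agent.Lib.Helper27.Pk
open Cfsg.Agent.Lib.Helper27.MinTab Cfsg.Agent.Lib.Helper27.MinEnum Cfsg.Agent.Lib.Helper27.MinFast
open Cfsg.Agent.Lib.Helper27.MinAll Cfsg.Agent.Lib.Helper27.LDot Cfsg.Agent.Lib.Helper27.LMat
open Cfsg.Agent.Lib.Helper27.Spread Cfsg.Agent.Lib.Helper27.Co0Act Cfsg.Agent.Lib.Helper27.LApp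
open Cfsg.Agent.Lib.Helper27.OrbCert Cfsg.Agent.Lib.Helper27.CoGlue
open Cfsg.Agent.Lib.Helper27.CertBase Cfsg.Agent.Lib.Helper27.CoStd
open Cfsg.Agent.Lib.Helper27.SimpleCrit Cfsg.Agent.Lib.Helper27.SimpGlue
open Cfsg.Agent.Lib.Helper27.SimpM22 Cfsg.Agent.Lib.Helper27.SimpMcL
open MulAction

/-- Joint stabiliser of two minimal vectors with coordinate dot product −8 is simple of order 898128000. -/
theorem result (v w : Cfsg.leechLattice) (hv : Cfsg.sqNorm (v : Cfsg.GolayPt → ℤ) = 32) (hw : Cfsg.sqNorm (w : Cfsg.GolayPt → ℤ) = 32) (hvw : Cfsg.dotInt (v : Cfsg.GolayPt → ℤ) (w : Cfsg.GolayPt → ℤ) = -8) : Cfsg.IsMcL ↥(MulAction.stabilizer Cfsg.Co0 v ⊓ MulAction.stabilizer Cfsg.Co0 w) := by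
  obtain ⟨g0, h1, h2⟩ := std_min v w hv hw hvw
  refine simple_card_conj (stabilizer Co0 v ⊓ stabilizer Co0 w)
    (stabilizer Co0 v0 ⊓ stabilizer Co0 w0) g0 ?_ 898128000 ⟨mcl_simple, card_mcl⟩
  intro x
  rw [Subgroup.mem_inf, Subgroup.mem_inf, mem_stabilizer_iff, mem_stabilizer_iff,
    mem_stabilizer_iff, mem_stabilizer_iff, conj_fix g0 x h1, conj_fix g0 x h2]

end Cfsg.Agent.S0404
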