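import Cfsg.Statements.S1224
import Mathlib
-- import your own Cfsg.Agent.* helpers here

set_option autoImplicit false
open Cfsg

namespace Cfsg.Agent.S1224

variable {G : Type*} [Group G]

theorem sq_one {t : G} (ht : orderOf t = 2) : t * t = 1 := by
  rw [← pow_two, ← ht]; exact pow_orderOf_eq_one t

theorem inv_eq {t : G} (ht : t * t = 1) : t⁻¹ = t := by
  rw [inv_eq_iff_mul_eq_one]; exact ht

theorem orderOf_two {t : G} (ht : t * t = 1) (h1 : t ≠ 1) : orderOf t = 2 :=
  orderOf_eq_prime (by rw [pow_two]; exact ht) h1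

theorem orderOf_conj (g t : G) : orderOf (g * t * g⁻¹) = orderOf t := by
  have := MulEquiv.orderOf_eq (MulAut.conj g) t
  rwa [MulAut.conj_apply] at this

theorem orderOf_conj' (g t : G) : orderOf (g⁻¹ * t * g) = orderOf t := by
  have := orderOf_conj g⁻¹ t
  rwa [inv_inv] at this

theorem pow_mul_pow {u v : G} (hu : u * u = 1) (hv : v * v = 1) (j : ℕ) :
    (u * v) ^ j * u * (u * v) ^ j = u := by
  induction j with
  | zero => simp
  | succ j ih =>
    have h0 : (u * v) * u * (u * v) = u := by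
      calc (u * v) * u * (u * v) = u * v * (u * u) * v := by group
        _ = u := by rw [hu, mul_one, mul_assoc, hv, mul_one]
    have e1 : (u * v) ^ (j + 1) = (u * v) * (u * v) ^ j := pow_succ' _ _
    have e2 : (u * v) ^ (j + 1) = (u * v) ^ j * (u * v) := pow_succ _ _
    calc (u * v) ^ (j + 1) * u * (u * v) ^ (j + 1)
        = ((u * v) * (u * v) ^ j) * u * ((u * v) ^ j * (u * v)) := by rw [← e1, ← e2]
      _ = (u * v) * ((u * v) ^ j * u * (u * v) ^ j) * (u * v) := by simp only [mul_assoc]
      _ = u := by rw [ih, h0]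

theorem dihedral_odd {a b : G} (ha : a * a = 1) (hb : b * b = 1)
    (hodd : Odd (orderOf (a * b))) :
    ∃ w : G, w * w = 1 ∧ w * a * w = b ∧
      ∀ c : G, c * a = a * c → c * b = b * c → c * w = w * c := by
  obtain ⟨k, hk⟩ := hodd
  have hp := pow_mul_pow ha hb (k + 1)
  refine ⟨a * (a * b) ^ (k + 1), ?_, ?_, ?_⟩
  · calc a * (a * b) ^ (k + 1) * (a * (a * b) ^ (k + 1))
        = a * ((a * b) ^ (k + 1) * a * (a * b) ^ (k + 1)) := by simp only [mul_assoc]
      _ = 1 := by rw [hp, ha]
  · have h1 : (a * b) ^ (k + 1) * (a * b) ^ (k + 1) = a * b := by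
      rw [← pow_add]
      have : k + 1 + (k + 1) = orderOf (a * b) + 1 := by omega
      rw [this, pow_succ, pow_orderOf_eq_one, one_mul]
    calc a * (a * b) ^ (k + 1) * a * (a * (a * b) ^ (k + 1))
        = a * (a * b) ^ (k + 1) * (a * a) * (a * b) ^ (k + 1) := by simp only [mul_assoc]
      _ = a * ((a * b) ^ (k + 1) * (a * b) ^ (k + 1)) := by rw [ha, mul_one, mul_assoc]
      _ = b := by rw [h1, ← mul_assoc, ha, one_mul]
  · intro c hca hcb
    have h1 : Commute c a := hca
    have h2 : Commute c b := hcb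
    exact (h1.mul_right ((h1.mul_right h2).pow_right (k + 1))).eq

theorem dihedral_even [Finite G] {a b : G} (ha : a * a = 1) (hb : b * b = 1)
    (heven : Even (orderOf (a * b))) :
    ∃ z : G, orderOf z = 2 ∧ z * a = a * z ∧ z * b = b * z := by
  obtain ⟨m, hm⟩ := heven
  have hpos : 0 < orderOf (a * b) := orderOf_pos (a * b)
  have hm0 : m ≠ 0 := by rintro rfl; omega
  have hz : orderOf ((a * b) ^ m) = 2 := by
    rw [orderOf_pow' (a * b) hm0, hm]
    have : Nat.gcd (m + m) m = m := by simp
    rw [this]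
    have : m + m = 2 * m := by ring
    rw [this]
    exact Nat.mul_div_cancel _ (Nat.pos_of_ne_zero hm0)
  have hz2 : (a * b) ^ m * (a * b) ^ m = 1 := sq_one hz
  have hzinv : ((a * b) ^ m)⁻¹ = (a * b) ^ m := inv_eq hz2
  refine ⟨(a * b) ^ m, hz, ?_, ?_⟩
  · have h := pow_mul_pow ha hb m
    calc (a * b) ^ m * a = (a * b) ^ m * a * ((a * b) ^ m * (a * b) ^ m) := by
          rw [hz2, mul_one]
      _ = ((a * b) ^ m * a * (a * b) ^ m) * (a * b) ^ m := by simp only [mul_assoc]
      _ = a * (a * b) ^ m := by rw [h]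
  · have h := pow_mul_pow hb ha m
    have e : b * a = (a * b)⁻¹ := by
      rw [eq_inv_iff_mul_eq_one]
      calc b * a * (a * b) = b * (a * a) * b := by simp only [mul_assoc]
        _ = 1 := by rw [ha, mul_one, hb]
    rw [e, inv_pow, hzinv] at h
    calc (a * b) ^ m * b = (a * b) ^ m * b * ((a * b) ^ m * (a * b) ^ m) := by
          rw [hz2, mul_one]
      _ = ((a * b) ^ m * b * (a * b) ^ m) * (a * b) ^ m := by simp only [mul_assoc]
      _ = b * (a * b) ^ m := by rw [h]

theorem smul_mk_iff (H : Subgroup G) (t g : G) :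
    t • (g : G ⧸ H) = (g : G ⧸ H) ↔ g⁻¹ * t * g ∈ H := by
  rw [MulAction.Quotient.smul_mk, QuotientGroup.eq]
  have h1 : (t • g)⁻¹ * g = (g⁻¹ * t * g)⁻¹ := by
    rw [smul_eq_mul]; group
  rw [h1, inv_mem_iff]

/-- an involution fixes at most one coset of a strongly embedded subgroup -/
theorem fix_unique [Finite G] (H : Subgroup G) (hH : Cfsg.IsStronglyEmbedded H) (t : G)
    (ht : orderOf t = 2) (a b : G ⧸ H) (ha : t • a = a) (hb : t • b = b) : a = b := by
  induction a using QuotientGroup.induction_on with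
  | H g₁ =>
  induction b using QuotientGroup.induction_on with
  | H g₂ =>
  rw [smul_mk_iff] at ha hb
  by_contra hne
  have hg : g₁⁻¹ * g₂ ∉ H := fun h => hne (QuotientGroup.eq.2 h)
  have hodd := hH.2.2 (g₁⁻¹ * g₂) hg
  have hmem : g₁⁻¹ * t * g₁ ∈ H ⊓ H.map (MulAut.conj (g₁⁻¹ * g₂)).toMonoidHom := by
    refine ⟨ha, g₂⁻¹ * t * g₂, hb, ?_⟩
    simp only [MulEquiv.coe_toMonoidHom, MulAut.conj_apply]
    group
  have hdvd := Subgroup.orderOf_dvd_natCard _ hmem
  rw [orderOf_conj', ht] at hdvd
  exact (Nat.not_even_iff_odd.2 hodd) (even_iff_two_dvd.2 hdvd)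

theorem key [Finite G] (H : Subgroup G) (hH : Cfsg.IsStronglyEmbedded H) (x y : G ⧸ H)
    (hxy : x ≠ y) (s t : G) (hs : orderOf s = 2) (hsy : s • y = y) (ht : orderOf t = 2)
    (htx : t • x = x) :
    ∃ w : G, (orderOf w = 2 ∧ w • x = y ∧ w * s * w⁻¹ = t) ∧
      ∀ i : G, orderOf i = 2 → i • x = y → i * s * i⁻¹ = t → i = w := by
  have hs2 := sq_one hs
  have ht2 := sq_one ht
  have hodd : Odd (orderOf (s * t)) := by
    by_contra hne
    rw [Nat.not_odd_iff_even] at hne
    obtain ⟨z, hz, hzs, hzt⟩ := dihedral_even hs2 ht2 hne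
    have h1 : z • y = y := by
      apply fix_unique H hH s hs
      · rw [← mul_smul, ← hzs, mul_smul, hsy]
      · exact hsy
    have h2 : z • x = x := by
      apply fix_unique H hH t ht
      · rw [← mul_smul, ← hzt, mul_smul, htx]
      · exact htx
    exact hxy (fix_unique H hH z hz x y h2 h1)
  obtain ⟨w, hw2, hw, hwc⟩ := dihedral_odd hs2 ht2 hodd
  have hwinv : w⁻¹ = w := inv_eq hw2
  have hsw : s * w = w * t := by
    calc s * w = (w * w) * s * w := by rw [hw2, one_mul]
      _ = w * (w * s * w) := by simp only [mul_assoc]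
      _ = w * t := by rw [hw]
  have hws : w * s = t * w := by
    calc w * s = w * s * (w * w) := by rw [hw2, mul_one]
      _ = (w * s * w) * w := by simp only [mul_assoc]
      _ = t * w := by rw [hw]
  have hwne : w ≠ 1 := by
    rintro rfl
    rw [one_mul, mul_one] at hw
    subst hw
    exact hxy (fix_unique H hH s hs x y htx hsy)
  have hword : orderOf w = 2 := orderOf_two hw2 hwne
  have hwx : w • x = y := by
    apply fix_unique H hH s hs
    · rw [← mul_smul, hsw, mul_smul, htx]
    · exact hsy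
  have hwy : w • y = x := by
    rw [← hwx, ← mul_smul, hw2, one_smul]
  refine ⟨w, ⟨hword, hwx, by rw [hwinv]; exact hw⟩, ?_⟩
  intro i hi hix hist
  have hi2 := sq_one hi
  have hiinv : i⁻¹ = i := inv_eq hi2
  rw [hiinv] at hist
  have his : i * s = t * i := by
    calc i * s = i * s * (i * i) := by rw [hi2, mul_one]
      _ = (i * s * i) * i := by simp only [mul_assoc]
      _ = t * i := by rw [hist]
  have hit : i * t = s * i := by
    calc i * t = i * (i * s * i) := by rw [hist]
      _ = (i * i) * s * i := by simp only [mul_assoc]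
      _ = s * i := by rw [hi2, one_mul]
  have hiy : i • y = x := by
    rw [← hix, ← mul_smul, hi2, one_smul]
  -- c = w * i commutes with s and t
  have hcs : (w * i) * s = s * (w * i) := by
    calc (w * i) * s = w * (i * s) := by rw [mul_assoc]
      _ = w * t * i := by rw [his, mul_assoc]
      _ = s * (w * i) := by rw [← hsw, mul_assoc]
  have hct : (w * i) * t = t * (w * i) := by
    calc (w * i) * t = w * (i * t) := by rw [mul_assoc]
      _ = w * s * i := by rw [hit, mul_assoc]
      _ = t * (w * i) := by rw [hws, mul_assoc]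
  have hcw := hwc (w * i) hcs hct
  have hiw : i * w = w * i := by
    calc i * w = (w * w) * i * w := by rw [hw2, one_mul]
      _ = w * (w * i * w) := by simp only [mul_assoc]
      _ = w * (w * (w * i)) := by rw [hcw]
      _ = (w * w) * (w * i) := by simp only [mul_assoc]
      _ = w * i := by rw [hw2, one_mul]
  have hc2 : (w * i) * (w * i) = 1 := by
    calc (w * i) * (w * i) = w * (i * w) * i := by simp only [mul_assoc]
      _ = w * (w * i) * i := by rw [hiw]
      _ = (w * w) * (i * i) := by simp only [mul_assoc]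
      _ = 1 := by rw [hw2, hi2, one_mul]
  have hcx : (w * i) • x = x := by rw [mul_smul, hix, hwy]
  have hcy : (w * i) • y = y := by rw [mul_smul, hiy, hwx]
  have hc1 : w * i = 1 := by
    by_contra hne
    exact hxy (fix_unique H hH (w * i) (orderOf_two hc2 hne) x y hcx hcy)
  calc i = (w * w) * i := by rw [hw2, one_mul]
    _ = w * (w * i) := by rw [mul_assoc]
    _ = w := by rw [hc1, mul_one]

/-- Let H be a strongly embedded subgroup of the finite group G and x ≠ y two cosets in G/H. Then the number of involutions i of G with i • x = y equals the number of involutions lying in H. -/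
theorem result {G : Type*} [Group G] [Finite G] (H : Subgroup G) (hH : Cfsg.IsStronglyEmbedded H) (x y : G ⧸ H) (hxy : x ≠ y) : Nat.card {i : G // orderOf i = 2 ∧ i • x = y} = Nat.card {t : G // orderOf t = 2 ∧ t ∈ H} := by
  -- an involution fixing y
  obtain ⟨s, hs, hsy⟩ : ∃ s : G, orderOf s = 2 ∧ s • y = y := by
    obtain ⟨s₀, hs₀⟩ := exists_prime_orderOf_dvd_card' (G := H) 2 hH.2.1.two_dvd
    induction y using QuotientGroup.induction_on with
    | H g =>
    refine ⟨g * (s₀ : G) * g⁻¹, ?_, ?_⟩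
    · rw [orderOf_conj, Subgroup.orderOf_coe]; exact hs₀
    · rw [smul_mk_iff]
      have : g⁻¹ * (g * (s₀ : G) * g⁻¹) * g = s₀ := by group
      rw [this]; exact s₀.2
  have hs2 := sq_one hs
  -- first bijection
  have e1 : Nat.card {i : G // orderOf i = 2 ∧ i • x = y}
      = Nat.card {t : G // orderOf t = 2 ∧ t • x = x} := by
    have hwell : ∀ i : {i : G // orderOf i = 2 ∧ i • x = y},
        orderOf ((i : G) * s * (i : G)⁻¹) = 2 ∧ ((i : G) * s * (i : G)⁻¹) • x = x := by
      rintro ⟨i, hi, hix⟩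
      have hi2 := sq_one hi
      refine ⟨by rw [orderOf_conj]; exact hs, ?_⟩
      show (i * s * i⁻¹) • x = x
      have hiy : i • y = x := by rw [← hix, ← mul_smul, hi2, one_smul]
      rw [inv_eq hi2, mul_smul, mul_smul, hix, hsy, hiy]
    apply Nat.card_congr
    refine Equiv.ofBijective (fun i => ⟨(i : G) * s * (i : G)⁻¹, hwell i⟩) ⟨?_, ?_⟩
    · rintro ⟨i, hi, hix⟩ ⟨i', hi', hix'⟩ hEq
      have hEq' : i * s * i⁻¹ = i' * s * i'⁻¹ := congrArg Subtype.val hEq
      obtain ⟨w, -, hw⟩ := key H hH x y hxy s (i * s * i⁻¹) hs hsy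
        (hwell ⟨i, hi, hix⟩).1 (hwell ⟨i, hi, hix⟩).2
      have h1 := hw i hi hix rfl
      have h2 := hw i' hi' hix' hEq'.symm
      exact Subtype.ext (h1.trans h2.symm)
    · rintro ⟨t, ht, htx⟩
      obtain ⟨w, ⟨hw1, hw2, hw3⟩, -⟩ := key H hH x y hxy s t hs hsy ht htx
      exact ⟨⟨w, hw1, hw2⟩, Subtype.ext hw3⟩
  rw [e1]
  induction x using QuotientGroup.induction_on with
  | H g =>
  apply Nat.card_congr
  refine Equiv.subtypeEquiv (MulAut.conj g⁻¹).toEquiv ?_
  intro t
  simp only [MulEquiv.toEquiv_eq_coe, MulEquiv.coe_toEquiv, MulAut.conj_apply, inv_inv]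
  rw [smul_mk_iff, orderOf_conj']

end Cfsg.Agent.S1224
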