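import Cfsg.Statements.S1681
import Cfsg.Agent.Lib.Helper29.S1681.Up0
import Cfsg.Agent.Lib.Helper29.S1681.Up1
import Cfsg.Agent.Lib.Helper29.S1681.Up2
import Cfsg.Agent.Lib.Helper29.S1681.Up3
import Cfsg.Agent.Lib.Helper29.S1681.Up4
import Cfsg.Agent.Lib.Helper29.S1681.Up5
import Cfsg.Agent.Lib.Helper29.S1681.Up6
import Cfsg.Agent.Lib.Helper29.S1681.Up7
import Cfsg.Agent.Lib.Helper29.S1681.Lo0
import Cfsg.Agent.Lib.Helper29.S1681.Lo1
import Cfsg.Agent.Lib.Helper29.S1681.Lo2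
import Cfsg.Agent.Lib.Helper29.S1681.Lo3
import Cfsg.Agent.Lib.Helper29.S1681.Lo4
import Cfsg.Agent.Lib.Helper29.S1681.Lo5
import Cfsg.Agent.Lib.Helper29.S1681.Lo6
import Cfsg.Agent.Lib.Helper29.S1681.Lo7

set_option autoImplicit false
open Cfsg

namespace Cfsg.Agent.S1681

open Cfsg.Agent.Lib.Helper29 Cfsg.Agent.Lib.Helper29.TcTrace Cfsg.Agent.Lib.Helper29.TcCert
  Cfsg.Agent.Lib.Helper29.TcPerm Cfsg.Agent.Lib.Helper29.TcCox Cfsg.Agent.Lib.Helper29.S1681 in
theorem upAll : ∀ b, b < 545 → ∃ J, chkBlk D lay cols 62 33777 b J = true := fun b h =>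
  if h0 : b < 69 then up_0_69 b (Nat.zero_le _) h0 else
  if h1 : b < 138 then up_69_138 b (Nat.le_of_not_lt h0) h1 else
  if h2 : b < 207 then up_138_207 b (Nat.le_of_not_lt h1) h2 else
  if h3 : b < 276 then up_207_276 b (Nat.le_of_not_lt h2) h3 else
  if h4 : b < 345 then up_276_345 b (Nat.le_of_not_lt h3) h4 else
  if h5 : b < 414 then up_345_414 b (Nat.le_of_not_lt h4) h5 else
  if h6 : b < 483 then up_414_483 b (Nat.le_of_not_lt h5) h6 else
  up_483_545 b (Nat.le_of_not_lt h6) h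

open Cfsg.Agent.Lib.Helper29 Cfsg.Agent.Lib.Helper29.TcTrace Cfsg.Agent.Lib.Helper29.TcCert
  Cfsg.Agent.Lib.Helper29.TcPerm Cfsg.Agent.Lib.Helper29.TcCox Cfsg.Agent.Lib.Helper29.S1681 in
theorem loAll : ∀ b, b < 636 → ∃ J, chkPBlk P 4 15 36 22880 b J = true := fun b h =>
  if h0 : b < 80 then lo_0_80 b (Nat.zero_le _) h0 else
  if h1 : b < 160 then lo_80_160 b (Nat.le_of_not_lt h0) h1 else
  if h2 : b < 240 then lo_160_240 b (Nat.le_of_not_lt h1) h2 else
  if h3 : b < 320 then lo_240_320 b (Nat.le_of_not_lt h2) h3 else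
  if h4 : b < 400 then lo_320_400 b (Nat.le_of_not_lt h3) h4 else
  if h5 : b < 480 then lo_400_480 b (Nat.le_of_not_lt h4) h5 else
  if h6 : b < 560 then lo_480_560 b (Nat.le_of_not_lt h5) h6 else
  lo_560_636 b (Nat.le_of_not_lt h6) h

open Cfsg.Agent.Lib.Helper29 Cfsg.Agent.Lib.Helper29.TcTrace Cfsg.Agent.Lib.Helper29.TcCert
  Cfsg.Agent.Lib.Helper29.TcPerm Cfsg.Agent.Lib.Helper29.TcCox Cfsg.Agent.Lib.Helper29.S1681 in
theorem ok : CoxOK Cfsg.Spor.Suz.edges Cfsg.Spor.Suz.extra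
    ({Cfsg.Spor.Suz.a, Cfsg.Spor.Suz.b, Cfsg.Spor.Suz.c, Cfsg.Spor.Suz.d, Cfsg.Spor.Suz.f, Cfsg.Spor.Suz.g} : Set (FreeGroup Cfsg.Spor.Suz.Gen))
    nodesL extraWords hWords colOf colLetters invL 7 6
    D 20 675540 22880 8 1048575 VL RL MG MT PAR PL FIN VERT vtree lay cols 62 33777 545 baseL P 4 15 36 636 where
  hnodes := by decide
  hnodes' := by decide
  hextra := by rfl
  hS := by
    intro x
    simp only [Set.mem_insert_iff, Set.mem_singleton_iff, hWords, List.map_cons, List.map_nil,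
      List.mem_cons, List.not_mem_nil, or_false]
    exact Iff.rfl
  hcolOf := by rintro ⟨x, y⟩; cases x <;> cases y <;> decide
  hround := by decide
  hinvL := by decide
  hinvinv := by decide
  hnH := by rfl
  hD := by rfl
  hW := by decide
  hWN := by decide
  hN := by decide
  hRL := by decide +kernel
  hVLlen := by rfl
  hRLlen := by rfl
  hRH := by decide +kernel
  hlive0 := by decide +kernel
  hcols := by decide
  hB := by decide
  hcov := by decide
  hblk := upAll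
  hbase := by decide +kernel
  hvtree := by decide +kernel
  hWL := by decide
  hPn := by decide
  hn := by decide
  hPcols := by decide
  hPrels := by decide +kernel
  hPhws := by decide +kernel
  hPtwl := by decide +kernel
  hPnH := by rfl
  hBL := by decide
  hcovL := by decide
  hblkL := loAll
  hbound1 := by decide
  hbv := by decide +kernel

/-- In the presented sporadic Suzuki group (generators a, …, g), the subgroup generated by the images of a, b, c, d, f, g has index 22880. -/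
theorem result : (((Subgroup.closure ({Cfsg.Spor.Suz.a, Cfsg.Spor.Suz.b, Cfsg.Spor.Suz.c, Cfsg.Spor.Suz.d, Cfsg.Spor.Suz.f, Cfsg.Spor.Suz.g} : Set (FreeGroup Cfsg.Spor.Suz.Gen))).map (PresentedGroup.mk (Cfsg.Spor.coxRelators Cfsg.Spor.Suz.edges ∪ {r | r ∈ Cfsg.Spor.Suz.extra})))).index = 22880 := by
  obtain ⟨hidx, f, hf, horb⟩ := Cfsg.Agent.Lib.Helper29.TcCox.cox_main ok
  exact hidx


end Cfsg.Agent.S1681
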