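import Cfsg.Statements.S2326
import Cfsg.Agent.Lib.Helper18.ParAll
import Cfsg.Agent.Lib.Helper18.Syl
import Cfsg.Agent.S1023
import Cfsg.Agent.S1024
import Cfsg.Agent.S1035

set_option autoImplicit false
open Cfsg

namespace Cfsg.Agent.S2326

/-- In a Chevalley group of type G₂, B₂, D₄, F₄, E₆, E₇ or E₈ over a finite field of characteristic p, the subgroup U generated by the positive root elements is a Sylow p-subgroup. -/
theorem result {F : Type*} [Field F] [Fintype F] (p : ℕ) [Fact p.Prime] [CharP F p] (D : Cfsg.Lie.ChevalleyDatum) (hD : D ∈ [Cfsg.Lie.chevG2, Cfsg.Lie.chevB2, Cfsg.Lie.chevD4, Cfsg.Lie.chevF4, Cfsg.Lie.chevE6, Cfsg.Lie.chevE7, Cfsg.Lie.chevE8]) :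
    ∃ P : Sylow p ↥(D.group F), (P : Subgroup ↥(D.group F)) = (D.posUnipotent F).subgroupOf (D.group F) := by
  have hd : ∃ d : ℕ, d * Nat.card (D.diagonalSubgroup F) = (Fintype.card F - 1) ^ D.rank := by
    simp only [List.mem_cons, List.not_mem_nil, or_false] at hD
    rcases hD with rfl | rfl | rfl | rfl | rfl | rfl | rfl
    · exact ⟨_, Cfsg.Agent.S1035.result (F := F) rfl (Cfsg.Lie.chevG2, 1) (by simp)⟩
    · exact ⟨_, Cfsg.Agent.S1035.result (F := F) rfl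
        (Cfsg.Lie.chevB2, Nat.gcd 2 (Fintype.card F - 1)) (by simp)⟩
    · exact ⟨_, Cfsg.Agent.S1035.result (F := F) rfl
        (Cfsg.Lie.chevD4, Nat.gcd 2 (Fintype.card F - 1) ^ 2) (by simp)⟩
    · exact ⟨_, Cfsg.Agent.S1035.result (F := F) rfl (Cfsg.Lie.chevF4, 1) (by simp)⟩
    · exact ⟨_, Cfsg.Agent.S1035.result (F := F) rfl
        (Cfsg.Lie.chevE6, Nat.gcd 3 (Fintype.card F - 1)) (by simp)⟩
    · exact ⟨_, Cfsg.Agent.S1035.result (F := F) rfl
        (Cfsg.Lie.chevE7, Nat.gcd 2 (Fintype.card F - 1)) (by simp)⟩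
    · exact ⟨_, Cfsg.Agent.S1035.result (F := F) rfl (Cfsg.Lie.chevE8, 1) (by simp)⟩
  obtain ⟨d, hd⟩ := hd
  obtain ⟨A, X, m, w, w', N, ord, rnk, bz, c, fw, hC, hR, hU, hn, hDs, hJf⟩ :=
    Cfsg.Agent.Lib.Helper18.ParAll.exists_pfacts D hD
  exact Cfsg.Agent.Lib.Helper18.Syl.exists_sylow hC hR hU hn
    (fun r hr t u => Cfsg.Agent.S1023.result D hD r hr t u)
    (fun r hr t h => (Cfsg.Agent.S1024.result D hD r hr t).mp h) p d hd

end Cfsg.Agent.S2326
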