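import Cfsg.Statements.S0101
import Mathlib
import Cfsg.Agent.Lib.Helper63.PFrattini
-- import your own Cfsg.Agent.* helpers here

set_option autoImplicit false
open Cfsg

namespace Cfsg.Agent.S0101

/-- In a perfect central extension, the kernel meets each Sylow p-subgroup P inside the Frattini subgroup of P. -/
theorem result {H : Type*} {G : Type*} [Group H] [Group G] [Finite H] (σ : H →* G) (hσ : Function.Surjective σ) (hc : σ.ker ≤ Subgroup.center H) (hH : commutator H = ⊤) {p : ℕ} [Fact p.Prime] (P : Sylow p H) : σ.ker ⊓ (P : Subgroup H) ≤ (frattini P).map (P : Subgroup H).subtype := by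
  intro z hz
  have hzk : z ∈ σ.ker := hz.1
  have hzP : z ∈ (P : Subgroup H) := hz.2
  have hzc : z ∈ Subgroup.center H := hc hzk
  let ϕ : (P : Subgroup H) →* Abelianization (P : Subgroup H) := Abelianization.of
  let T : H →* Abelianization (P : Subgroup H) := MonoidHom.transfer ϕ
  have hT : T z = 1 := by
    have h1 : commutator H ≤ T.ker := Abelianization.commutator_subset_ker T
    rw [hH] at h1
    exact h1 (Subgroup.mem_top z)
  have key : ∀ (k : ℕ) (g₀ : H), g₀⁻¹ * z ^ k * g₀ ∈ (P : Subgroup H) → g₀⁻¹ * z ^ k * g₀ = z ^ k := by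
    intro k g₀ _
    have hzk : z ^ k ∈ Subgroup.center H := Subgroup.pow_mem _ hzc k
    rw [Subgroup.mem_center_iff] at hzk
    rw [mul_assoc, ← hzk g₀, ← mul_assoc, inv_mul_cancel, one_mul]
  have h2 : T z = ϕ ⟨z ^ (P : Subgroup H).index, MonoidHom.transfer_eq_pow_aux z key⟩ :=
    MonoidHom.transfer_eq_pow ϕ z key
  rw [hT] at h2
  have h3 : (⟨z ^ (P : Subgroup H).index, MonoidHom.transfer_eq_pow_aux z key⟩ : (P : Subgroup H)) ∈
      commutator (P : Subgroup H) := by
    rw [← Abelianization.ker_of, MonoidHom.mem_ker]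
    exact h2.symm
  have h4 : (⟨z ^ (P : Subgroup H).index, MonoidHom.transfer_eq_pow_aux z key⟩ : (P : Subgroup H)) =
      (⟨z, hzP⟩ : (P : Subgroup H)) ^ (P : Subgroup H).index := Subtype.ext (by simp)
  rw [h4] at h3
  have hcop : ((P : Subgroup H).index).Coprime (orderOf (⟨z, hzP⟩ : (P : Subgroup H))) := by
    obtain ⟨k, hk⟩ := (IsPGroup.iff_orderOf.mp P.isPGroup') (⟨z, hzP⟩ : (P : Subgroup H))
    rw [hk]
    apply Nat.Coprime.pow_right
    exact (Nat.Coprime.symm ((Nat.Prime.coprime_iff_not_dvd Fact.out).mpr P.not_dvd_index))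
  obtain ⟨m, hm⟩ := exists_pow_eq_self_of_coprime hcop
  have h5 : (⟨z, hzP⟩ : (P : Subgroup H)) ∈ commutator (P : Subgroup H) := by
    rw [← hm]
    exact Subgroup.pow_mem _ h3 m
  have h6 := Cfsg.Agent.Lib.Helper63.PFrattini.commutator_le_frattini P.isPGroup' h5
  exact ⟨⟨z, hzP⟩, h6, rfl⟩

end Cfsg.Agent.S0101
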