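-- Statement S2330: GL_2(q) has q^2 - 1 conjugacy classes.
import Cfsg.Statements.S2330

set_option autoImplicit false
open Cfsg

namespace Cfsg.Agent.S2330

open Matrix

variable {F : Type*} [Field F]

/-- Scalar element of `GL_2`. -/
noncomputable def scal (a : Fˣ) : Matrix.GeneralLinearGroup (Fin 2) F :=
  Matrix.GeneralLinearGroup.mkOfDetNeZero !![(a : F), 0; 0, (a : F)] (by simp [Matrix.det_fin_two])

/-- Companion element of `GL_2` with trace `t` and determinant `d`. -/
noncomputable def comp (t : F) (d : Fˣ) : Matrix.GeneralLinearGroup (Fin 2) F :=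
  Matrix.GeneralLinearGroup.mkOfDetNeZero !![0, -(d : F); 1, t] (by simp [Matrix.det_fin_two])

theorem scal_val (a : Fˣ) : ((scal a : Matrix.GeneralLinearGroup (Fin 2) F) : Matrix (Fin 2) (Fin 2) F)
    = !![(a : F), 0; 0, (a : F)] := rfl

theorem comp_val (t : F) (d : Fˣ) :
    ((comp t d : Matrix.GeneralLinearGroup (Fin 2) F) : Matrix (Fin 2) (Fin 2) F)
    = !![0, -(d : F); 1, t] := rfl

theorem scal_central (a : Fˣ) (c : Matrix.GeneralLinearGroup (Fin 2) F) :
    c * scal a * c⁻¹ = scal a := by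
  rw [mul_inv_eq_iff_eq_mul]
  apply Units.ext
  rw [Units.val_mul, Units.val_mul, scal_val]
  have h := Matrix.eta_fin_two (c : Matrix (Fin 2) (Fin 2) F)
  rw [h]
  simp [mul_comm]

/-- The class map. -/
noncomputable def psi : Fˣ ⊕ (F × Fˣ) → ConjClasses (Matrix.GeneralLinearGroup (Fin 2) F)
  | Sum.inl a => ConjClasses.mk (scal a)
  | Sum.inr (t, d) => ConjClasses.mk (comp t d)

theorem aux (a b c d : F) (h : ¬ (b = 0 ∧ c = 0 ∧ a = d)) :
    ∃ P : Matrix (Fin 2) (Fin 2) F, P.det ≠ 0 ∧
      !![a, b; c, d] * P = P * !![0, -(a * d - b * c); 1, a + d] := by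
  by_cases hc : c = 0
  · by_cases hb : b = 0
    · have had : a ≠ d := fun hh => h ⟨hb, hc, hh⟩
      subst hc hb
      refine ⟨!![1, a; 1, d], ?_, ?_⟩
      · simp only [Matrix.det_fin_two_of]
        intro hh
        apply had
        linear_combination -hh
      · simp only [Matrix.mul_fin_two]
        ext i j
        fin_cases i <;> fin_cases j <;> simp <;> ring
    · refine ⟨!![0, b; 1, d], ?_, ?_⟩
      · simp only [Matrix.det_fin_two_of]
        simpa using hb
      · simp only [Matrix.mul_fin_two]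
        ext i j
        fin_cases i <;> fin_cases j <;> simp <;> ring
  · refine ⟨!![1, a; 0, c], ?_, ?_⟩
    · simp only [Matrix.det_fin_two_of]
      simpa using hc
    · simp only [Matrix.mul_fin_two]
      ext i j
      fin_cases i <;> fin_cases j <;> simp <;> ring

theorem psi_surjective : Function.Surjective (psi (F := F)) := by
  intro C
  obtain ⟨g, rfl⟩ := ConjClasses.exists_rep C
  have hg := Matrix.eta_fin_two (g : Matrix (Fin 2) (Fin 2) F)
  have hdet : (g : Matrix (Fin 2) (Fin 2) F).det ≠ 0 := by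
    have := g.isUnit.map (Matrix.detMonoidHom (n := Fin 2) (R := F))
    exact IsUnit.ne_zero (by simpa using (Matrix.isUnit_iff_isUnit_det _).mp g.isUnit)
  by_cases h : ((g : Matrix (Fin 2) (Fin 2) F) 0 1 = 0 ∧ (g : Matrix (Fin 2) (Fin 2) F) 1 0 = 0 ∧
      (g : Matrix (Fin 2) (Fin 2) F) 0 0 = (g : Matrix (Fin 2) (Fin 2) F) 1 1)
  · obtain ⟨h1, h2, h3⟩ := h
    have ha : (g : Matrix (Fin 2) (Fin 2) F) 0 0 ≠ 0 := by
      intro h0
      apply hdet
      rw [Matrix.det_fin_two, h1, h0]
      simp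
    refine ⟨Sum.inl (Units.mk0 _ ha), ?_⟩
    simp only [psi]
    congr 1
    apply Units.ext
    rw [scal_val]
    conv_rhs => rw [hg]
    simp [h1, h2, ← h3]
  · obtain ⟨P, hP, hPg⟩ := aux _ _ _ _ h
    rw [← hg] at hPg
    have hd : (g : Matrix (Fin 2) (Fin 2) F) 0 0 * (g : Matrix (Fin 2) (Fin 2) F) 1 1 -
        (g : Matrix (Fin 2) (Fin 2) F) 0 1 * (g : Matrix (Fin 2) (Fin 2) F) 1 0 ≠ 0 := by
      rw [← Matrix.det_fin_two]; exact hdet
    refine ⟨Sum.inr ((g : Matrix (Fin 2) (Fin 2) F) 0 0 + (g : Matrix (Fin 2) (Fin 2) F) 1 1,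
      Units.mk0 _ hd), ?_⟩
    simp only [psi]
    rw [ConjClasses.mk_eq_mk_iff_isConj, isConj_iff]
    refine ⟨Matrix.GeneralLinearGroup.mkOfDetNeZero P hP, ?_⟩
    rw [mul_inv_eq_iff_eq_mul]
    apply Units.ext
    rw [Units.val_mul, Units.val_mul, comp_val]
    exact hPg.symm

theorem trace_conj (c g : Matrix.GeneralLinearGroup (Fin 2) F) :
    ((c * g * c⁻¹ : Matrix.GeneralLinearGroup (Fin 2) F) : Matrix (Fin 2) (Fin 2) F).trace =
      (g : Matrix (Fin 2) (Fin 2) F).trace := by
  rw [Units.val_mul, Units.val_mul]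
  exact Matrix.trace_units_conj c _

theorem det_conj (c g : Matrix.GeneralLinearGroup (Fin 2) F) :
    ((c * g * c⁻¹ : Matrix.GeneralLinearGroup (Fin 2) F) : Matrix (Fin 2) (Fin 2) F).det =
      (g : Matrix (Fin 2) (Fin 2) F).det := by
  rw [Units.val_mul, Units.val_mul]
  exact Matrix.det_units_conj c _

theorem psi_injective : Function.Injective (psi (F := F)) := by
  rintro (a | ⟨t, d⟩) (a' | ⟨t', d'⟩) h
  · simp only [psi] at h
    rw [ConjClasses.mk_eq_mk_iff_isConj, isConj_iff] at h
    obtain ⟨c, hc⟩ := h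
    rw [scal_central] at hc
    have := congrArg (fun x : Matrix.GeneralLinearGroup (Fin 2) F =>
      (x : Matrix (Fin 2) (Fin 2) F) 0 0) hc
    simp only [scal_val] at this
    congr 1
    apply Units.ext
    simpa using this
  · exfalso
    simp only [psi] at h
    rw [ConjClasses.mk_eq_mk_iff_isConj, isConj_iff] at h
    obtain ⟨c, hc⟩ := h
    rw [scal_central] at hc
    have := congrArg (fun x : Matrix.GeneralLinearGroup (Fin 2) F =>
      (x : Matrix (Fin 2) (Fin 2) F) 1 0) hc
    simp only [scal_val, comp_val] at this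
    simp at this
  · exfalso
    simp only [psi] at h
    rw [ConjClasses.mk_eq_mk_iff_isConj, isConj_iff] at h
    obtain ⟨c, hc⟩ := h
    have hc' : comp t d = c⁻¹ * scal a' * c⁻¹⁻¹ := by
      rw [← hc]; group
    rw [scal_central] at hc'
    have := congrArg (fun x : Matrix.GeneralLinearGroup (Fin 2) F =>
      (x : Matrix (Fin 2) (Fin 2) F) 1 0) hc'
    simp only [scal_val, comp_val] at this
    simp at this
  · simp only [psi] at h
    rw [ConjClasses.mk_eq_mk_iff_isConj, isConj_iff] at h
    obtain ⟨c, hc⟩ := h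
    have h1 := trace_conj c (comp t d)
    have h2 := det_conj c (comp t d)
    rw [hc] at h1 h2
    simp only [comp_val, Matrix.trace_fin_two_of, Matrix.det_fin_two_of] at h1 h2
    have ht : t' = t := by simpa using h1
    have hd : d' = d := by
      apply Units.ext
      simpa using h2
    rw [ht, hd]

/-- Over a finite field with q elements, the general linear group GL₂ has exactly q² − 1 conjugacy classes. -/
theorem result {F : Type*} [Field F] [Fintype F] :
    Nat.card (ConjClasses (Matrix.GeneralLinearGroup (Fin 2) F)) = Fintype.card F ^ 2 - 1 := by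
  classical
  rw [← Nat.card_eq_of_bijective psi ⟨psi_injective, psi_surjective⟩]
  rw [Nat.card_eq_fintype_card, Fintype.card_sum, Fintype.card_prod, Fintype.card_units]
  have hq : 1 ≤ Fintype.card F := Fintype.card_pos
  obtain ⟨k, hk⟩ : ∃ k, Fintype.card F = k + 1 := ⟨Fintype.card F - 1, by omega⟩
  rw [hk]
  simp only [Nat.add_sub_cancel]
  have : (k + 1) ^ 2 = k + (k + 1) * k + 1 := by ring
  rw [this]
  simp

end Cfsg.Agent.S2330
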