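import Cfsg.Statements.S0283
import Mathlib
import Cfsg.Agent.S0780
import Cfsg.Agent.S0781
import Cfsg.Agent.S5071

set_option autoImplicit false
open Cfsg

namespace Cfsg.Agent.S0283

open Matrix Cfsg.Agent.S0837 Cfsg.Agent.S5071
open scoped Pointwise

section basics

variable {F : Type*} [Field F] {n q : ℕ}

/-- the transvections with centre `p`, in terms of the Hermitian form -/
def TT (p : Fin n → F) : Subgroup ↥(Cfsg.SU n F q) :=
  Subgroup.closure {g | ∃ c : F, ∀ x, act g x = x + (c * Cfsg.hermForm n F q x p) • p}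

theorem herm_act (g : ↥(Cfsg.SU n F q)) (x y : Fin n → F) :
    Cfsg.hermForm n F q (act g x) (act g y) = Cfsg.hermForm n F q x y := g.2 x y

theorem conj_gen (h g : ↥(Cfsg.SU n F q)) (p : Fin n → F) (c : F)
    (hg : ∀ x, act g x = x + (c * Cfsg.hermForm n F q x p) • p) (x : Fin n → F) :
    act (h * g * h⁻¹) x = x + (c * Cfsg.hermForm n F q x (act h p)) • act h p := by
  rw [act_mul, act_mul, hg, act_add, act_act_inv, act_smul]
  have h1 := herm_act h (act h⁻¹ x) p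
  rw [act_act_inv] at h1
  rw [h1]

theorem conj_mem_TT (p : Fin n → F) (h : ↥(Cfsg.SU n F q)) (y : ↥(Cfsg.SU n F q))
    (hy : y ∈ (TT p : Subgroup ↥(Cfsg.SU n F q))) :
    h * y * h⁻¹ ∈ (TT (act h p) : Subgroup ↥(Cfsg.SU n F q)) := by
  unfold TT at hy
  induction hy using Subgroup.closure_induction with
  | mem y hy =>
    obtain ⟨c, hc⟩ := hy
    exact Subgroup.subset_closure ⟨c, conj_gen h y p c hc⟩
  | one =>
    rw [mul_one, mul_inv_cancel]
    exact Subgroup.one_mem _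
  | mul y z _ _ hy hz =>
    have h1 : h * (y * z) * h⁻¹ = (h * y * h⁻¹) * (h * z * h⁻¹) := by group
    rw [h1]
    exact Subgroup.mul_mem _ hy hz
  | inv y _ hy =>
    have h1 : h * y⁻¹ * h⁻¹ = (h * y * h⁻¹)⁻¹ := by group
    rw [h1]
    exact Subgroup.inv_mem _ hy

theorem conjBy_TT (p : Fin n → F) (h : ↥(Cfsg.SU n F q)) :
    conjBy (TT p) h = TT (act h p) := by
  ext x
  rw [Cfsg.Agent.Lib.Helper83.RankOne.mem_conjBy]
  constructor
  · intro hx
    have h2 := conj_mem_TT p h _ hx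
    have h3 : h * (h⁻¹ * x * h) * h⁻¹ = x := by group
    rw [h3] at h2
    exact h2
  · intro hx
    have h2 := conj_mem_TT (act h p) h⁻¹ _ hx
    rw [act_inv_act, inv_inv] at h2
    exact h2

/-- the transvection groups, as a type -/
def Pts (n : ℕ) (F : Type*) [Field F] (q : ℕ) : Type _ :=
  {A : Subgroup ↥(Cfsg.SU n F q) //
    ∃ p : Fin n → F, p ≠ 0 ∧ Cfsg.hermForm n F q p p = 0 ∧ A = TT p}

instance ptsAction : MulAction ↥(Cfsg.SU n F q) (Pts n F q) where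
  smul g A := ⟨conjBy A.1 g, by
    obtain ⟨p, hp0, hp, hA⟩ := A.2
    exact ⟨act g p, act_ne_zero g p hp0, by rw [herm_act, hp], by rw [hA, conjBy_TT]⟩⟩
  one_smul A := Subtype.ext (Cfsg.Agent.Lib.Helper83.RankOne.conjBy_one A.1)
  mul_smul g h A := Subtype.ext (Cfsg.Agent.Lib.Helper83.RankOne.conjBy_conjBy A.1 h g).symm

theorem smul_val (g : ↥(Cfsg.SU n F q)) (A : Pts n F q) : (g • A).1 = conjBy A.1 g := rfl

/-- the point of an isotropic vector -/
def pt (p : Fin n → F) (hp0 : p ≠ 0) (hp : Cfsg.hermForm n F q p p = 0) : Pts n F q :=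
  ⟨TT p, p, hp0, hp, rfl⟩

theorem smul_pt (g : ↥(Cfsg.SU n F q)) (p : Fin n → F) (hp0 : p ≠ 0)
    (hp : Cfsg.hermForm n F q p p = 0) :
    g • pt p hp0 hp = pt (act g p) (act_ne_zero g p hp0) (by rw [herm_act, hp]) :=
  Subtype.ext (conjBy_TT p g)

theorem exists_pt (P : Pts n F q) :
    ∃ (p : Fin n → F) (hp0 : p ≠ 0) (hp : Cfsg.hermForm n F q p p = 0), P = pt p hp0 hp := by
  obtain ⟨A, p, hp0, hp, rfl⟩ := P
  exact ⟨p, hp0, hp, rfl⟩

theorem IsTau_skew (σ : F →+* F) (hσ : ∀ x, σ x = x ^ q) (hσ2 : ∀ a, σ (σ a) = a)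
    (p : Fin n → F) (hp0 : p ≠ 0) (hp : Bh σ n p p = 0) (c : F) (g : ↥(Cfsg.SU n F q))
    (hg : IsTau σ p c g) : c + σ c = 0 := by
  have hS := Bh_symm σ hσ2 n
  obtain ⟨y, hy⟩ := exists_pairing σ p hp0
  have hy' : Bh σ n y p = 1 := by rw [← hS.eq p y, hy, map_one]
  have h1 := act_form σ hσ g y y
  rw [hg y] at h1
  simp only [map_add, map_smulₛₗ, LinearMap.add_apply, LinearMap.smul_apply, smul_eq_mul,
    RingHom.id_apply, hp, mul_zero, add_zero, hy, hy', mul_one] at h1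
  linear_combination h1

theorem TT_eq_Tu (σ : F →+* F) (hσ : ∀ x, σ x = x ^ q) (hσ2 : ∀ a, σ (σ a) = a)
    (p : Fin n → F) (hp0 : p ≠ 0) (hp : Bh σ n p p = 0) :
    (TT p : Subgroup ↥(Cfsg.SU n F q)) = Tu σ p := by
  unfold TT Tu
  congr 1
  ext g
  constructor
  · rintro ⟨c, hc⟩
    have h1 : IsTau σ p c g := by
      intro x
      rw [hc x, Bh_herm σ hσ]
    exact ⟨c, IsTau_skew σ hσ hσ2 p hp0 hp c g h1, h1⟩
  · rintro ⟨l, -, hl⟩
    refine ⟨l, fun x => ?_⟩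
    rw [hl x, Bh_herm σ hσ]

theorem mem_TT (σ : F →+* F) (hσ : ∀ x, σ x = x ^ q) (hσ2 : ∀ a, σ (σ a) = a)
    (p : Fin n → F) (hp0 : p ≠ 0) (hp : Bh σ n p p = 0) (g : ↥(Cfsg.SU n F q)) :
    g ∈ (TT p : Subgroup ↥(Cfsg.SU n F q)) ↔ ∃ l, l + σ l = 0 ∧ IsTau σ p l g := by
  rw [TT_eq_Tu σ hσ hσ2 p hp0 hp, mem_Tu σ p hp]

theorem TT_smul (σ : F →+* F) (hσ : ∀ x, σ x = x ^ q) (hσ2 : ∀ a, σ (σ a) = a)
    (p : Fin n → F) (hp0 : p ≠ 0) (hp : Bh σ n p p = 0) (a : F) (ha : a ≠ 0) :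
    (TT (a • p) : Subgroup ↥(Cfsg.SU n F q)) = TT p := by
  have hp' : Bh σ n (a • p) (a • p) = 0 := by
    simp only [map_smulₛₗ, LinearMap.smul_apply, smul_eq_mul, hp, mul_zero, RingHom.id_apply]
  rw [TT_eq_Tu σ hσ hσ2 (a • p) (smul_ne_zero ha hp0) hp', TT_eq_Tu σ hσ hσ2 p hp0 hp,
    Tu_smul σ hσ2 p hp a ha]

theorem pt_eq_of_smul (σ : F →+* F) (hσ : ∀ x, σ x = x ^ q) (hσ2 : ∀ a, σ (σ a) = a)
    (p p' : Fin n → F) (hp0 : p ≠ 0) (hp : Cfsg.hermForm n F q p p = 0) (hp'0 : p' ≠ 0)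
    (hp' : Cfsg.hermForm n F q p' p' = 0) (a : F) (ha : a ≠ 0) (h : p' = a • p) :
    pt p' hp'0 hp' = pt p hp0 hp := by
  apply Subtype.ext
  show (TT p' : Subgroup ↥(Cfsg.SU n F q)) = TT p
  rw [h]
  exact TT_smul σ hσ hσ2 p hp0 (by rw [Bh_herm σ hσ]; exact hp) a ha

end basics

section eichler

variable {F : Type*} [Field F] {n q : ℕ}

/-- the Eichler transformation `x ↦ x + (u, x) (a u + v) - (v, x) u` -/
def Ei (σ : F →+* F) (u v : Fin n → F) (a : F) : Matrix (Fin n) (Fin n) F :=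
  1 + Matrix.vecMulVec (a • u + v) (fun j => σ (u j)) +
    Matrix.vecMulVec (-u) (fun j => σ (v j))

theorem Ei_mulVec (σ : F →+* F) (u v : Fin n → F) (a : F) (x : Fin n → F) :
    Ei σ u v a *ᵥ x = x + Bh σ n u x • (a • u + v) + Bh σ n v x • (-u) := by
  rw [Ei, Matrix.add_mulVec, Matrix.add_mulVec, Matrix.one_mulVec, Matrix.vecMulVec_mulVec,
    Matrix.vecMulVec_mulVec, op_smul_eq_smul, op_smul_eq_smul, Cfsg.Agent.S0781.dot_sigma,
    Cfsg.Agent.S0781.dot_sigma]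

theorem Ei_iso (σ : F →+* F) (hσ2 : ∀ a, σ (σ a) = a) (u v : Fin n → F) (a : F)
    (hu : Bh σ n u u = 0) (huv : Bh σ n u v = 0) (ha : a + σ a + Bh σ n v v = 0)
    (x y : Fin n → F) :
    Bh σ n (Ei σ u v a *ᵥ x) (Ei σ u v a *ᵥ y) = Bh σ n x y := by
  have hS := Bh_symm σ hσ2 n
  have hvu : Bh σ n v u = 0 := by rw [← hS.eq, huv, map_zero]
  rw [Ei_mulVec, Ei_mulVec]
  simp only [map_add, map_neg, map_smul, map_smulₛₗ, LinearMap.add_apply, LinearMap.neg_apply,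
    LinearMap.smul_apply, smul_eq_mul, hu, huv, hvu, hS.eq]
  linear_combination (Bh σ n x u * Bh σ n u y) * ha

theorem Ei_det (σ : F →+* F) (u v : Fin n → F) (a : F)
    (hu : Bh σ n u u = 0) (huv : Bh σ n u v = 0) (hvu : Bh σ n v u = 0) :
    (Ei σ u v a).det = 1 := by
  have h1 : Ei σ u v a = 1 +
      (Matrix.of (fun i j => ![(a • u + v) i, (-u) i] j) : Matrix (Fin n) (Fin 2) F) *
      (Matrix.of (fun j i => ![σ (u i), σ (v i)] j) : Matrix (Fin 2) (Fin n) F) := by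
    ext i k
    rw [Ei]
    simp only [Matrix.add_apply, Matrix.mul_apply, Fin.sum_univ_two, Matrix.vecMulVec_apply,
      Matrix.of_apply, Matrix.cons_val_zero, Matrix.cons_val_one]
    ring
  rw [h1, Matrix.det_one_add_mul_comm, Matrix.det_fin_two]
  simp only [Matrix.add_apply, WU_apply, Matrix.one_apply_eq, Matrix.cons_val_zero,
    Matrix.cons_val_one, map_add, map_neg, map_smul, smul_eq_mul, hu, huv, hvu, mul_zero,
    add_zero, neg_zero]
  simp

theorem exists_eichler (σ : F →+* F) (hσ : ∀ x, σ x = x ^ q) (hσ2 : ∀ a, σ (σ a) = a)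
    (u v : Fin n → F) (a : F) (hu : Bh σ n u u = 0) (huv : Bh σ n u v = 0)
    (ha : a + σ a + Bh σ n v v = 0) :
    ∃ g : ↥(Cfsg.SU n F q), ∀ x, act g x = x + Bh σ n u x • (a • u + v) + Bh σ n v x • (-u) := by
  have hS := Bh_symm σ hσ2 n
  have hvu : Bh σ n v u = 0 := by rw [← hS.eq, huv, map_zero]
  have hpres : ∀ x y, Cfsg.hermForm n F q (Ei σ u v a *ᵥ x) (Ei σ u v a *ᵥ y) =
      Cfsg.hermForm n F q x y := by
    intro x y
    rw [← Bh_herm σ hσ, ← Bh_herm σ hσ]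
    exact Ei_iso σ hσ2 u v a hu huv ha y x
  exact ⟨⟨⟨Ei σ u v a, Ei_det σ u v a hu huv hvu⟩, fun x y => hpres x y⟩,
    fun x => Ei_mulVec σ u v a x⟩

/-- moving a point not orthogonal to `u` to another such point while fixing `u` -/
theorem move_nonperp (σ : F →+* F) (hσ : ∀ x, σ x = x ^ q) (hσ2 : ∀ a, σ (σ a) = a)
    (u w x : Fin n → F) (hu : Bh σ n u u = 0) (hw : Bh σ n w w = 0) (hx : Bh σ n x x = 0)
    (huw : Bh σ n u w ≠ 0) (hux : Bh σ n u x ≠ 0) :
    ∃ g : ↥(Cfsg.SU n F q), act g u = u ∧ ∃ a : F, a ≠ 0 ∧ act g w = a • x := by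
  have hS := Bh_symm σ hσ2 n
  obtain ⟨f, hf⟩ : ∃ f : Fin n → F, f = (Bh σ n u w)⁻¹ • w := ⟨_, rfl⟩
  obtain ⟨f', hf'⟩ : ∃ f' : Fin n → F, f' = (Bh σ n u x)⁻¹ • x := ⟨_, rfl⟩
  have huf : Bh σ n u f = 1 := by
    rw [hf, LinearMap.map_smul, smul_eq_mul, inv_mul_cancel₀ huw]
  have huf' : Bh σ n u f' = 1 := by
    rw [hf', LinearMap.map_smul, smul_eq_mul, inv_mul_cancel₀ hux]
  have hff : Bh σ n f f = 0 := by
    rw [hf]
    simp only [map_smulₛₗ, LinearMap.smul_apply, smul_eq_mul, hw, mul_zero, RingHom.id_apply]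
  have hf'f' : Bh σ n f' f' = 0 := by
    rw [hf']
    simp only [map_smulₛₗ, LinearMap.smul_apply, smul_eq_mul, hx, mul_zero, RingHom.id_apply]
  obtain ⟨d, hd⟩ : ∃ d : Fin n → F, d = f' - f := ⟨_, rfl⟩
  have hud : Bh σ n u d = 0 := by
    rw [hd, map_sub, huf, huf', sub_self]
  have hdu : Bh σ n d u = 0 := by rw [← hS.eq, hud, map_zero]
  have hf'd : f' = f + d := by
    rw [hd]
    abel
  have hcond : Bh σ n d f + σ (Bh σ n d f) + Bh σ n d d = 0 := by
    have h1 := hf'f'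
    rw [hf'd] at h1
    simp only [map_add, LinearMap.add_apply, hff, zero_add] at h1
    rw [hS.eq]
    linear_combination h1
  obtain ⟨g, hg⟩ := exists_eichler (q := q) σ hσ hσ2 u d (Bh σ n d f) hu hud hcond
  have hgu : act g u = u := by
    rw [hg u, hu, hdu, zero_smul, zero_smul, add_zero, add_zero]
  have hgf : act g f = f' := by
    rw [hg f, huf, hf'd]
    module
  refine ⟨g, hgu, Bh σ n u w * (Bh σ n u x)⁻¹, mul_ne_zero huw (inv_ne_zero hux), ?_⟩
  have hwf : w = Bh σ n u w • f := by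
    rw [hf, smul_smul, mul_inv_cancel₀ huw, one_smul]
  rw [hwf, act_smul, hgf, hf', smul_smul]
  congr 1
  rw [LinearMap.map_smul, smul_eq_mul, huf, mul_one]

end eichler

section moves

variable {F : Type*} [Field F] [Fintype F] {n q : ℕ}

/-- moving an isotropic vector to a multiple of a non-orthogonal one, fixing their common
orthogonal -/
theorem move_fix (hF : Fintype.card F = q ^ 2) (σ : F →+* F) (hσ : ∀ x, σ x = x ^ q)
    (hσ2 : ∀ a, σ (σ a) = a) (x y : Fin n → F) (hx : Bh σ n x x = 0) (hy : Bh σ n y y = 0)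
    (hxy : Bh σ n x y ≠ 0) :
    ∃ (g : ↥(Cfsg.SU n F q)) (a : F), a ≠ 0 ∧ act g x = a • y ∧
      ∀ z, Bh σ n x z = 0 → Bh σ n y z = 0 → act g z = z := by
  have hS := Bh_symm σ hσ2 n
  obtain ⟨l, hl0, hl⟩ := exists_lam hF σ hσ hσ2
  have hyx : Bh σ n y x ≠ 0 := by
    rw [← hS.eq x y]
    exact (map_ne_zero σ).2 hxy
  obtain ⟨μ, hμ⟩ : ∃ μ, μ = -(l * (Bh σ n y x * Bh σ n x y))⁻¹ := ⟨_, rfl⟩
  have hfix : σ (Bh σ n y x * Bh σ n x y) = Bh σ n y x * Bh σ n x y := by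
    rw [map_mul, hS.eq, hS.eq, mul_comm]
  have hσl : σ l = -l := by linear_combination hl
  have hμ' : μ + σ μ = 0 := by
    rw [hμ, map_neg, map_inv₀, map_mul, hfix, hσl]
    field_simp
    ring
  obtain ⟨g₁, hg₁⟩ := exists_tau (q := q) σ hσ hσ2 y hy l hl
  obtain ⟨g₂, hg₂⟩ := exists_tau (q := q) σ hσ hσ2 x hx μ hμ'
  refine ⟨g₂ * g₁, l * Bh σ n y x, mul_ne_zero hl0 hyx, ?_, ?_⟩
  · rw [act_mul, hg₁ x, hg₂]
    simp only [map_add, map_smul, smul_eq_mul, hx, zero_add]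
    have h1 : μ * (l * Bh σ n y x * Bh σ n x y) = -1 := by
      rw [hμ]
      field_simp
    rw [h1]
    module
  · intro z hxz hyz
    rw [act_mul, hg₁ z, hyz, mul_zero, zero_smul, add_zero, hg₂ z, hxz, mul_zero, zero_smul,
      add_zero]

/-- an isotropic vector orthogonal to `u` and not orthogonal to two given ones -/
theorem exists_third_perp (hF : Fintype.card F = q ^ 2) (σ : F →+* F) (hσ : ∀ x, σ x = x ^ q)
    (hσ2 : ∀ a, σ (σ a) = a) (u w x : Fin n → F) (hu0 : u ≠ 0)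
    (hw : Bh σ n w w = 0) (hwx : Bh σ n w x = 0) (huw : Bh σ n u w = 0)
    (hwu : ∀ c : F, w ≠ c • u) (hxu : ∀ c : F, x ≠ c • u) :
    ∃ s, Bh σ n s s = 0 ∧ Bh σ n u s = 0 ∧ Bh σ n w s ≠ 0 ∧ Bh σ n x s ≠ 0 := by
  have hσne := sigma_ne hF σ hσ
  have hS := Bh_symm σ hσ2 n
  obtain ⟨u', hu'⟩ := exists_pairing σ u hu0
  have key : ∀ v : Fin n → F, (∀ c : F, v ≠ c • u) → ∃ y, Bh σ n u y = 0 ∧ Bh σ n v y ≠ 0 := by
    intro v hv
    by_contra hno
    push Not at hno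
    apply hv (σ (Bh σ n v u'))
    have h1 : v - σ (Bh σ n v u') • u = 0 := by
      apply (Bh_nondeg σ n).1
      intro z
      have h2 := hno (z - Bh σ n u z • u') (by
        rw [map_sub, LinearMap.map_smul, hu', smul_eq_mul, mul_one, sub_self])
      rw [map_sub, LinearMap.map_smul, smul_eq_mul] at h2
      rw [map_sub, LinearMap.sub_apply, map_smulₛₗ, LinearMap.smul_apply, smul_eq_mul, hσ2]
      linear_combination h2
    exact sub_eq_zero.1 h1
  obtain ⟨y₁, h1u, h1⟩ := key w hwu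
  obtain ⟨y₂, h2u, h2⟩ := key x hxu
  obtain ⟨y, hyu, h3, h4⟩ : ∃ y, Bh σ n u y = 0 ∧ Bh σ n w y ≠ 0 ∧ Bh σ n x y ≠ 0 := by
    by_cases h5 : Bh σ n x y₁ = 0
    · by_cases h6 : Bh σ n w y₂ = 0
      · refine ⟨y₁ + y₂, ?_, ?_, ?_⟩
        · rw [map_add, h1u, h2u, add_zero]
        · rw [map_add, h6, add_zero]
          exact h1
        · rw [map_add, h5, zero_add]
          exact h2
      · exact ⟨y₂, h2u, h6, h2⟩
    · exact ⟨y₁, h1u, h1, h5⟩
  obtain ⟨θ, hθ⟩ := Cfsg.Agent.S0751.exists_theta σ hσne hσ2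
  obtain ⟨ν, hν⟩ : ∃ ν, ν = Bh σ n y y := ⟨_, rfl⟩
  have hσν : σ ν = ν := by rw [hν, hS.eq]
  obtain ⟨β, hβ⟩ : ∃ β, β = Bh σ n y w := ⟨_, rfl⟩
  have hβ' : Bh σ n w y = σ β := by rw [hβ, hS.eq]
  have hβ0 : β ≠ 0 := by
    intro h0
    rw [h0, map_zero] at hβ'
    exact h3 hβ'
  have hσβ0 : σ β ≠ 0 := (map_ne_zero σ).2 hβ0
  have hxw : Bh σ n x w = 0 := by rw [← hS.eq, hwx, map_zero]
  refine ⟨y + (-(θ * ν) / β) • w, ?_, ?_, ?_, ?_⟩
  · simp only [map_add, map_smulₛₗ, LinearMap.add_apply,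
      LinearMap.smul_apply, smul_eq_mul, hw, ← hν, ← hβ, hβ', map_div₀, map_neg, map_mul, hσν,
      RingHom.id_apply, mul_zero, add_zero]
    field_simp
    linear_combination (-ν) * hθ
  · rw [map_add, LinearMap.map_smul, hyu, huw, smul_zero, add_zero]
  · rw [map_add, LinearMap.map_smul, hw, smul_zero, add_zero]
    exact h3
  · rw [map_add, LinearMap.map_smul, hxw, smul_zero, add_zero]
    exact h4

/-- moving a point orthogonal to `u` to another such point while fixing `u` -/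
theorem move_perp (hF : Fintype.card F = q ^ 2) (σ : F →+* F) (hσ : ∀ x, σ x = x ^ q)
    (hσ2 : ∀ a, σ (σ a) = a) (u w x : Fin n → F) (hu0 : u ≠ 0)
    (hw : Bh σ n w w = 0) (hx : Bh σ n x x = 0)
    (huw : Bh σ n u w = 0) (hux : Bh σ n u x = 0)
    (hwu : ∀ c : F, w ≠ c • u) (hxu : ∀ c : F, x ≠ c • u) :
    ∃ g : ↥(Cfsg.SU n F q), act g u = u ∧ ∃ a : F, a ≠ 0 ∧ act g w = a • x := by
  have hS := Bh_symm σ hσ2 n
  have hwu' : Bh σ n w u = 0 := by rw [← hS.eq, huw, map_zero]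
  have hxu' : Bh σ n x u = 0 := by rw [← hS.eq, hux, map_zero]
  by_cases h : Bh σ n w x = 0
  · obtain ⟨s, hs, hus, hws, hxs⟩ := exists_third_perp hF σ hσ hσ2 u w x hu0 hw h huw hwu hxu
    have hsu : Bh σ n s u = 0 := by rw [← hS.eq, hus, map_zero]
    have hsx : Bh σ n s x ≠ 0 := by
      rw [← hS.eq x s]
      exact (map_ne_zero σ).2 hxs
    obtain ⟨g₁, a, ha, hg₁, hfix₁⟩ := move_fix hF σ hσ hσ2 w s hw hs hws
    obtain ⟨g₂, b, hb, hg₂, hfix₂⟩ := move_fix hF σ hσ hσ2 s x hs hx hsx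
    refine ⟨g₂ * g₁, ?_, a * b, mul_ne_zero ha hb, ?_⟩
    · rw [act_mul, hfix₁ u hwu' hsu, hfix₂ u hsu hxu']
    · rw [act_mul, hg₁, act_smul, hg₂, smul_smul]
  · obtain ⟨g, a, ha, hg, hfix⟩ := move_fix hF σ hσ hσ2 w x hw hx h
    exact ⟨g, hfix u hwu' hxu', a, ha, hg⟩

end moves

section prim

variable {F : Type*} [Field F] [Fintype F] {n q : ℕ}

theorem pts_transitive (hF : Fintype.card F = q ^ 2) (σ : F →+* F) (hσ : ∀ x, σ x = x ^ q)
    (hσ2 : ∀ a, σ (σ a) = a) :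
    MulAction.IsPretransitive ↥(Cfsg.SU n F q) (Pts n F q) := by
  constructor
  intro P Q
  obtain ⟨p, hp0, hp, rfl⟩ := exists_pt P
  obtain ⟨p', hp'0, hp', rfl⟩ := exists_pt Q
  have hpB : Bh σ n p p = 0 := by
    rw [Bh_herm σ hσ]
    exact hp
  have hp'B : Bh σ n p' p' = 0 := by
    rw [Bh_herm σ hσ]
    exact hp'
  obtain ⟨g, -, a, ha, hga⟩ := exists_move hF σ hσ hσ2 ⊤ (fun _ _ _ => le_top) p p' hp0 hpB
    hp'0 hp'B
  refine ⟨g, ?_⟩
  rw [smul_pt]
  exact pt_eq_of_smul σ hσ hσ2 p' (act g p) hp'0 hp' _ _ a ha hga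

omit [Fintype F] in
theorem block_move (σ : F →+* F) (hσ : ∀ x, σ x = x ^ q) (hσ2 : ∀ a, σ (σ a) = a)
    {B : Set (Pts n F q)} (hB : MulAction.IsBlock ↥(Cfsg.SU n F q) B)
    (u w x : Fin n → F) (hu0 : u ≠ 0) (hu : Cfsg.hermForm n F q u u = 0)
    (hw0 : w ≠ 0) (hw : Cfsg.hermForm n F q w w = 0)
    (hx0 : x ≠ 0) (hx : Cfsg.hermForm n F q x x = 0)
    (hpu : pt u hu0 hu ∈ B) (hpw : pt w hw0 hw ∈ B)
    (g : ↥(Cfsg.SU n F q)) (hgu : act g u = u) (a : F) (ha : a ≠ 0) (hgw : act g w = a • x) :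
    pt x hx0 hx ∈ B := by
  have h1 : g • pt u hu0 hu = pt u hu0 hu := by
    rw [smul_pt]
    apply Subtype.ext
    show (TT (act g u) : Subgroup ↥(Cfsg.SU n F q)) = TT u
    rw [hgu]
  have h2 : g • B = B := hB.smul_eq_of_mem hpu (by rw [h1]; exact hpu)
  have h3 : g • pt w hw0 hw ∈ g • B := Set.smul_mem_smul_set hpw
  rw [h2, smul_pt] at h3
  have h4 := pt_eq_of_smul σ hσ hσ2 x (act g w) hx0 hx (act_ne_zero g w hw0)
    (by rw [herm_act, hw]) a ha hgw
  rw [← h4]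
  exact h3

theorem pts_primitive (hF : Fintype.card F = q ^ 2) (σ : F →+* F) (hσ : ∀ x, σ x = x ^ q)
    (hσ2 : ∀ a, σ (σ a) = a) :
    MulAction.IsPreprimitive ↥(Cfsg.SU n F q) (Pts n F q) := by
  have hS := Bh_symm σ hσ2 n
  have hH : ∀ p : Fin n → F, Cfsg.hermForm n F q p p = 0 ↔ Bh σ n p p = 0 := fun p => by
    rw [Bh_herm σ hσ]
  refine { toIsPretransitive := pts_transitive hF σ hσ hσ2, isTrivialBlock_of_isBlock := ?_ }
  intro B hB
  by_cases hsub : B.Subsingleton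
  · exact Or.inl hsub
  right
  rw [Set.not_subsingleton_iff] at hsub
  obtain ⟨P, hP, R, hR, hPR⟩ := hsub
  obtain ⟨u, hu0, hu, rfl⟩ := exists_pt P
  obtain ⟨w, hw0, hw, rfl⟩ := exists_pt R
  have huB := (hH u).1 hu
  have hwB := (hH w).1 hw
  have hwu : ∀ c : F, w ≠ c • u := by
    intro c hc
    apply hPR
    have hc0 : c ≠ 0 := by
      rintro rfl
      rw [zero_smul] at hc
      exact hw0 hc
    exact (pt_eq_of_smul σ hσ hσ2 u w hu0 hu hw0 hw c hc0 hc).symm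
  rw [Set.eq_univ_iff_forall]
  intro T
  obtain ⟨y, hy0, hy, rfl⟩ := exists_pt T
  have hyB := (hH y).1 hy
  by_cases hyu : ∃ c : F, y = c • u
  · obtain ⟨c, hc⟩ := hyu
    have hc0 : c ≠ 0 := by
      rintro rfl
      rw [zero_smul] at hc
      exact hy0 hc
    rw [pt_eq_of_smul σ hσ hσ2 u y hu0 hu hy0 hy c hc0 hc]
    exact hP
  push Not at hyu
  by_cases h1 : Bh σ n u w = 0
  · by_cases h2 : Bh σ n u y = 0
    · obtain ⟨g, hgu, a, ha, hgw⟩ := move_perp hF σ hσ hσ2 u w y hu0 hwB hyB h1 h2 hwu hyu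
      exact block_move σ hσ hσ2 hB u w y hu0 hu hw0 hw hy0 hy hP hR g hgu a ha hgw
    · have hyu' : Bh σ n y u ≠ 0 := by
        rw [← hS.eq u y]
        exact (map_ne_zero σ).2 h2
      obtain ⟨x, hxdef⟩ : ∃ x, x = w - (Bh σ n y w / Bh σ n y u) • u := ⟨_, rfl⟩
      have hwu' : Bh σ n w u = 0 := by rw [← hS.eq, h1, map_zero]
      have hux : Bh σ n u x = 0 := by
        rw [hxdef, map_sub, LinearMap.map_smul, h1, huB, smul_zero, sub_zero]
      have hyx : Bh σ n y x = 0 := by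
        rw [hxdef, map_sub, LinearMap.map_smul, smul_eq_mul, div_mul_cancel₀ _ hyu', sub_self]
      have hxx : Bh σ n x x = 0 := by
        rw [hxdef]
        simp only [map_sub, map_smulₛₗ, LinearMap.sub_apply, LinearMap.smul_apply, smul_eq_mul,
          hwB, huB, h1, hwu', mul_zero, sub_zero]
      have hxu : ∀ c : F, x ≠ c • u := by
        intro c hc
        apply hwu (c + Bh σ n y w / Bh σ n y u)
        rw [add_smul, ← hc, hxdef]
        abel
      have hx0 : x ≠ 0 := by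
        intro h0
        exact hxu 0 (by rw [h0, zero_smul])
      have hxh := (hH x).2 hxx
      obtain ⟨g, hgu, a, ha, hgw⟩ := move_perp hF σ hσ hσ2 u w x hu0 hwB hxx h1 hux hwu hxu
      have hpx := block_move σ hσ hσ2 hB u w x hu0 hu hw0 hw hx0 hxh hP hR g hgu a ha hgw
      have hxu2 : Bh σ n x u = 0 := by rw [← hS.eq, hux, map_zero]
      have hxy2 : Bh σ n x y = 0 := by rw [← hS.eq, hyx, map_zero]
      have hux' : ∀ c : F, u ≠ c • x := by
        intro c hc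
        have hc0 : c ≠ 0 := by
          rintro rfl
          rw [zero_smul] at hc
          exact hu0 hc
        apply hxu c⁻¹
        rw [hc, smul_smul, inv_mul_cancel₀ hc0, one_smul]
      have hyx' : ∀ c : F, y ≠ c • x := by
        intro c hc
        apply h2
        rw [hc, LinearMap.map_smul, hux, smul_zero]
      obtain ⟨g', hg'x, a', ha', hg'u⟩ := move_perp hF σ hσ hσ2 x u y hx0 huB hyB hxu2 hxy2
        hux' hyx'
      exact block_move σ hσ hσ2 hB x u y hx0 hxh hu0 hu hy0 hy hpx hP g' hg'x a' ha' hg'u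
  · by_cases h2 : Bh σ n u y = 0
    · obtain ⟨r, hr, h3, h4⟩ := exists_third hF σ hσ hσ2 u y hu0 hy0 h2 huB
      have hr0 : r ≠ 0 := by
        rintro rfl
        exact h3 (map_zero _)
      have hrh := (hH r).2 hr
      obtain ⟨g, hgu, a, ha, hgw⟩ := move_nonperp (q := q) σ hσ hσ2 u w r huB hwB hr h1 h3
      have hpr := block_move σ hσ hσ2 hB u w r hu0 hu hw0 hw hr0 hrh hP hR g hgu a ha hgw
      have hru : Bh σ n r u ≠ 0 := by
        rw [← hS.eq u r]
        exact (map_ne_zero σ).2 h3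
      have hry : Bh σ n r y ≠ 0 := by
        rw [← hS.eq y r]
        exact (map_ne_zero σ).2 h4
      obtain ⟨g', hg'r, a', ha', hg'u⟩ := move_nonperp (q := q) σ hσ hσ2 r u y hr huB hyB hru hry
      exact block_move σ hσ hσ2 hB r u y hr0 hrh hu0 hu hy0 hy hpr hP g' hg'r a' ha' hg'u
    · obtain ⟨g, hgu, a, ha, hgw⟩ := move_nonperp (q := q) σ hσ hσ2 u w y huB hwB hyB h1 h2
      exact block_move σ hσ hσ2 hB u w y hu0 hu hw0 hw hy0 hy hP hR g hgu a ha hgw

end prim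

section final

variable {F : Type*} [Field F] [Fintype F] {n q : ℕ}

omit [Fintype F] in
/-- the action of the generators of `SU` -/
theorem gen_act (A : ↥(Cfsg.SU n F q)) (v : Fin n → F) (c : F)
    (hA : ((A : Matrix.SpecialLinearGroup (Fin n) F) : Matrix (Fin n) (Fin n) F) =
      Cfsg.unitaryTransvection n q v c) (x : Fin n → F) :
    act A x = x + (c * Cfsg.hermForm n F q x v) • v := by
  show ((A : Matrix.SpecialLinearGroup (Fin n) F) : Matrix (Fin n) (Fin n) F) *ᵥ x = _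
  rw [hA]
  unfold Cfsg.unitaryTransvection
  rw [← Matrix.smul_vecMulVec, Cfsg.Agent.S0781.rank_one_mulVec, smul_smul]
  congr 2
  rw [mul_comm]
  congr 1
  unfold Cfsg.hermForm dotProduct
  apply Finset.sum_congr rfl
  intro i _
  ring

/-- the Iwasawa structure of `SU` on the transvection groups -/
noncomputable def iwasawa (hF : Fintype.card F = q ^ 2) (n : ℕ) (hn : 3 ≤ n)
    (h32 : ¬ (n = 3 ∧ q = 2)) :
    MulAction.IwasawaStructure ↥(Cfsg.SU n F q) (Pts n F q) where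
  T := fun A => A.1
  is_comm := by
    rintro ⟨A, p, hp0, hp, rfl⟩
    obtain ⟨σ, hσ, hσ2⟩ := Cfsg.Agent.Lib.Helper45.GUCard.exists_conj hF
    have hpB : Bh σ n p p = 0 := by
      rw [Bh_herm σ hσ]
      exact hp
    show IsMulCommutative ↥(TT p : Subgroup ↥(Cfsg.SU n F q))
    rw [isMulCommutative_iff]
    rintro ⟨x, hx⟩ ⟨y, hy⟩
    obtain ⟨l, -, hl⟩ := (mem_TT σ hσ hσ2 p hp0 hpB x).1 hx
    obtain ⟨l', -, hl'⟩ := (mem_TT σ hσ hσ2 p hp0 hpB y).1 hy
    apply Subtype.ext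
    exact IsTau_comm σ hσ2 p p hpB l l' x y hl hl'
  is_conj := by
    intro g A
    rfl
  is_generator := by
    rw [eq_top_iff, ← Cfsg.Agent.S0780.result hF n hn h32, Subgroup.closure_le]
    rintro A ⟨v, c, hvv, hA⟩
    by_cases hv0 : v = 0
    · have h1 : A = 1 := by
        apply ext_act
        intro x
        rw [gen_act A v c hA x, act_one, hv0, smul_zero, add_zero]
      rw [h1]
      exact Subgroup.one_mem _
    · exact Subgroup.mem_iSup_of_mem (pt v hv0 hvv)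
        (Subgroup.subset_closure ⟨c, gen_act A v c hA⟩)

theorem mem_center_of_fix (hF : Fintype.card F = q ^ 2) (n : ℕ) (hn : 3 ≤ n)
    (h32 : ¬ (n = 3 ∧ q = 2)) (σ : F →+* F) (hσ : ∀ x, σ x = x ^ q) (hσ2 : ∀ a, σ (σ a) = a)
    (g : ↥(Cfsg.SU n F q)) (h : ∀ P : Pts n F q, g • P = P) :
    g ∈ Subgroup.center ↥(Cfsg.SU n F q) := by
  have hS := Bh_symm σ hσ2 n
  have hscal : ∀ p : Fin n → F, p ≠ 0 → Bh σ n p p = 0 → ∃ c : F, act g p = c • p := by
    intro p hp0 hp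
    have hph : Cfsg.hermForm n F q p p = 0 := by
      rw [← Bh_herm σ hσ]
      exact hp
    have h1 := h (pt p hp0 hph)
    rw [smul_pt] at h1
    have h2 : (TT (act g p) : Subgroup ↥(Cfsg.SU n F q)) = TT p := congrArg Subtype.val h1
    obtain ⟨l, hl0, hl⟩ := exists_lam hF σ hσ hσ2
    obtain ⟨τ, hτ⟩ := exists_tau (q := q) σ hσ hσ2 p hp l hl
    have hτ1 : τ ∈ (TT p : Subgroup ↥(Cfsg.SU n F q)) :=
      (mem_TT σ hσ hσ2 p hp0 hp τ).2 ⟨l, hl, hτ⟩
    rw [← h2] at hτ1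
    have hgp0 := act_ne_zero g p hp0
    have hgp : Bh σ n (act g p) (act g p) = 0 := by rw [act_form σ hσ, hp]
    obtain ⟨l', -, hτ'⟩ := (mem_TT σ hσ hσ2 (act g p) hgp0 hgp τ).1 hτ1
    obtain ⟨x₀, hx₀⟩ := exists_pairing σ p hp0
    have h3 : (l * Bh σ n p x₀) • p = (l' * Bh σ n (act g p) x₀) • act g p := by
      have e1 := hτ x₀
      have e2 := hτ' x₀
      rw [e1] at e2
      exact add_left_cancel e2
    rw [hx₀, mul_one] at h3
    obtain ⟨d, hd⟩ : ∃ d, d = l' * Bh σ n (act g p) x₀ := ⟨_, rfl⟩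
    rw [← hd] at h3
    have hd0 : d ≠ 0 := by
      rintro rfl
      rw [zero_smul] at h3
      exact (smul_ne_zero hl0 hp0) h3
    refine ⟨d⁻¹ * l, ?_⟩
    rw [← smul_smul, h3, smul_smul, inv_mul_cancel₀ hd0, one_smul]
  have hnorm : ∀ p : Fin n → F, p ≠ 0 → Bh σ n p p = 0 → ∀ c : F, act g p = c • p →
      c * σ c = 1 := by
    intro p hp0 hp c hc
    obtain ⟨r, hr, hpr, -⟩ := exists_third hF σ hσ hσ2 p p hp0 hp0 hp hp
    have hr0 : r ≠ 0 := by
      rintro rfl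
      exact hpr (map_zero _)
    obtain ⟨c', hc'⟩ := hscal r hr0 hr
    obtain ⟨β, hβ⟩ : ∃ β, β = Bh σ n p r := ⟨_, rfl⟩
    have hβ0 : β ≠ 0 := by
      rw [hβ]
      exact hpr
    have hrp : Bh σ n r p = σ β := by rw [hβ, hS.eq]
    have h1 := act_form σ hσ g p r
    rw [hc, hc'] at h1
    simp only [map_smulₛₗ, LinearMap.smul_apply, smul_eq_mul, RingHom.id_apply, ← hβ] at h1
    have h2 : σ c * c' = 1 := by
      have h3 : (σ c * c' - 1) * β = 0 := by linear_combination h1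
      rcases mul_eq_zero.1 h3 with h | h
      · exact sub_eq_zero.1 h
      · exact absurd h hβ0
    obtain ⟨l₀, hl₀0, hl₀⟩ := exists_lam hF σ hσ hσ2
    obtain ⟨b, hb⟩ : ∃ b, b = l₀ / β := ⟨_, rfl⟩
    have hbβ : b * β = l₀ := by rw [hb, div_mul_cancel₀ _ hβ0]
    obtain ⟨z, hz⟩ : ∃ z, z = p + b • r := ⟨_, rfl⟩
    have hzz : Bh σ n z z = 0 := by
      rw [hz]
      simp only [map_add, map_smulₛₗ, LinearMap.add_apply, LinearMap.smul_apply, smul_eq_mul,
        hp, hr, ← hβ, hrp, RingHom.id_apply, mul_zero, add_zero, zero_add]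
      have h3 : σ b * σ β = σ l₀ := by rw [← map_mul, hbβ]
      linear_combination hbβ + h3 + hl₀
    have hpz : Bh σ n p z = l₀ := by
      rw [hz, map_add, LinearMap.map_smul, hp, ← hβ, smul_eq_mul, zero_add, hbβ]
    have hz0 : z ≠ 0 := by
      intro h0
      rw [h0, map_zero] at hpz
      exact hl₀0 hpz.symm
    obtain ⟨c'', hc''⟩ := hscal z hz0 hzz
    have h3 : act g z = c • p + (b * c') • r := by
      rw [hz, act_add, act_smul, hc, hc', smul_smul]
    rw [hc'', hz, smul_add, smul_smul] at h3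
    have h4 := congrArg (fun v => Bh σ n p v) h3
    simp only [map_add, map_smul, smul_eq_mul, hp, ← hβ, mul_zero, zero_add] at h4
    have h5 := congrArg (fun v => Bh σ n r v) h3
    simp only [map_add, map_smul, smul_eq_mul, hr, hrp, mul_zero, add_zero] at h5
    have hσβ0 : σ β ≠ 0 := (map_ne_zero σ).2 hβ0
    have hb0 : b ≠ 0 := by
      rintro rfl
      rw [zero_mul] at hbβ
      exact hl₀0 hbβ.symm
    have e1 : c'' = c' := by
      have h6 : (c'' - c') * (b * β) = 0 := by linear_combination h4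
      rcases mul_eq_zero.1 h6 with h | h
      · exact sub_eq_zero.1 h
      · exact absurd h (mul_ne_zero hb0 hβ0)
    have e2 : c'' = c := by
      have h6 : (c'' - c) * σ β = 0 := by linear_combination h5
      rcases mul_eq_zero.1 h6 with h | h
      · exact sub_eq_zero.1 h
      · exact absurd h hσβ0
    rw [← e1, e2] at h2
    rw [mul_comm]
    exact h2
  rw [Subgroup.mem_center_iff]
  intro k
  have htop : (⊤ : Subgroup ↥(Cfsg.SU n F q)) ≤
      Subgroup.centralizer ({g} : Set ↥(Cfsg.SU n F q)) := by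
    rw [← Cfsg.Agent.S0780.result hF n hn h32, Subgroup.closure_le]
    rintro A ⟨v, c, hvv, hA⟩
    rw [SetLike.mem_coe, Subgroup.mem_centralizer_iff]
    intro g' hg'
    rw [Set.mem_singleton_iff] at hg'
    subst hg'
    by_cases hv0 : v = 0
    · have h1 : A = 1 := by
        apply ext_act
        intro x
        rw [gen_act A v c hA x, act_one, hv0, smul_zero, add_zero]
      rw [h1, mul_one, one_mul]
    · have hvB : Bh σ n v v = 0 := by
        rw [Bh_herm σ hσ]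
        exact hvv
      have hτ : IsTau σ v c A := fun x => by rw [gen_act A v c hA x, Bh_herm σ hσ]
      obtain ⟨c₁, hc₁⟩ := hscal v hv0 hvB
      have hN := hnorm v hv0 hvB c₁ hc₁
      have h1 := IsTau_conj σ hσ v c A g' hτ
      rw [hc₁, IsTau_smul, hN, mul_one] at h1
      have h2 := IsTau_unique σ v c _ _ h1 hτ
      calc g' * A = (g' * A * g'⁻¹) * g' := by group
        _ = A * g' := by rw [h2]
  have hk := htop (Subgroup.mem_top k)
  rw [Subgroup.mem_centralizer_iff] at hk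
  exact (hk g rfl).symm

theorem perfect (hF : Fintype.card F = q ^ 2) (n : ℕ) (hn : 3 ≤ n) (h32 : ¬ (n = 3 ∧ q = 2)) :
    commutator ↥(Cfsg.SU n F q) = ⊤ := by
  have hq := Cfsg.Agent.Lib.Helper5.HermCount.two_le hF
  have hn' : 4 ≤ n ∨ (n = 3 ∧ 3 ≤ q) := by
    by_cases h4 : 4 ≤ n
    · exact Or.inl h4
    · right
      refine ⟨by omega, ?_⟩
      by_contra hq3
      exact h32 ⟨by omega, by omega⟩
  rw [eq_top_iff, ← Cfsg.Agent.S0780.result hF n hn h32, commutator_eq_closure,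
    Subgroup.closure_le]
  rintro A ⟨v, c, hvv, hA⟩
  exact Subgroup.subset_closure (Cfsg.Agent.S0781.result hF n hn' A v c hvv hA)

theorem psu_simple (hF : Fintype.card F = q ^ 2) (n : ℕ) (hn : 3 ≤ n)
    (h32 : ¬ (n = 3 ∧ q = 2)) :
    IsSimpleGroup (↥(Cfsg.SU n F q) ⧸ Subgroup.center ↥(Cfsg.SU n F q)) := by
  obtain ⟨σ, hσ, hσ2⟩ := Cfsg.Agent.Lib.Helper45.GUCard.exists_conj hF
  have hprim := pts_primitive (n := n) hF σ hσ hσ2
  have hperf := perfect hF n hn h32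
  have hnt : Nontrivial (↥(Cfsg.SU n F q) ⧸ Subgroup.center ↥(Cfsg.SU n F q)) := by
    rw [QuotientGroup.nontrivial_iff]
    intro htop
    have h1 : commutator ↥(Cfsg.SU n F q) = ⊥ := by
      rw [commutator_def, Subgroup.commutator_top_left_eq_bot_iff_le_center, htop]
    rw [hperf] at h1
    obtain ⟨m, rfl⟩ : ∃ m, n = m + 2 := ⟨n - 2, by omega⟩
    obtain ⟨p, hp0, hp⟩ := exists_iso hF σ hσ hσ2 m
    obtain ⟨l, hl0, hl⟩ := exists_lam hF σ hσ hσ2
    obtain ⟨τ, hτ⟩ := exists_tau (q := q) σ hσ hσ2 p hp l hl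
    have h2 : τ ∈ (⊤ : Subgroup ↥(Cfsg.SU (m + 2) F q)) := Subgroup.mem_top _
    rw [h1, Subgroup.mem_bot] at h2
    exact IsTau_ne_one σ p hp0 l hl0 τ hτ h2
  refine { toNontrivial := hnt, eq_bot_or_eq_top_of_normal := ?_ }
  intro Nbar hNbar
  obtain ⟨N, hN⟩ : ∃ N : Subgroup ↥(Cfsg.SU n F q),
    N = Nbar.comap (QuotientGroup.mk' (Subgroup.center ↥(Cfsg.SU n F q))) := ⟨_, rfl⟩
  have hNn : N.Normal := by
    rw [hN]
    exact hNbar.comap _
  by_cases hfix : MulAction.fixedPoints N (Pts n F q) = Set.univ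
  · left
    rw [Subgroup.eq_bot_iff_forall]
    intro x hx
    obtain ⟨g, rfl⟩ := QuotientGroup.mk_surjective x
    have hg : g ∈ N := by
      rw [hN]
      exact hx
    rw [QuotientGroup.eq_one_iff]
    apply mem_center_of_fix hF n hn h32 σ hσ hσ2
    intro P
    have hp : P ∈ MulAction.fixedPoints N (Pts n F q) := by
      rw [hfix]
      exact Set.mem_univ _
    exact hp ⟨g, hg⟩
  · right
    have hle := (iwasawa hF n hn h32).commutator_le N hfix
    rw [hperf, top_le_iff] at hle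
    rw [eq_top_iff]
    intro x _
    obtain ⟨g, rfl⟩ := QuotientGroup.mk_surjective x
    have hg : g ∈ N := by
      rw [hle]
      exact Subgroup.mem_top _
    rw [hN] at hg
    exact hg

end final

/-- PSU_n(q) is simple for n at least 3 and (n, q) other than (3, 2). -/
theorem result {F : Type*} [Field F] [Fintype F] {q : ℕ} (hF : Fintype.card F = q ^ 2) (n : ℕ) (hn : 3 ≤ n) (h : ¬ (n = 3 ∧ q = 2)) : IsSimpleGroup (Cfsg.PSU n F q) := by
  exact psu_simple hF n hn h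

end Cfsg.Agent.S0283
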