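import Cfsg.Statements.S2572
import Cfsg.Agent.Lib.Helper43.Transv

set_option autoImplicit false
open Cfsg

namespace Cfsg.Agent.S2572

open Matrix Cfsg.Agent.Lib.Helper43.Transv

theorem card_ne_and {α : Type*} [Finite α] (p : α → Prop) (a : α) (ha : p a) :
    Nat.card {x : α // x ≠ a ∧ p x} = Nat.card {x : α // p x} - 1 := by
  have h1 : {x : α | x ≠ a ∧ p x} = {x | p x} \ {a} := by
    ext x
    simp [and_comm]
  change Nat.card ↥{x : α | x ≠ a ∧ p x} = Nat.card ↥{x : α | p x} - 1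
  rw [Nat.card_coe_set_eq, Nat.card_coe_set_eq, h1,
    Set.ncard_diff_singleton_of_mem (show a ∈ {x : α | p x} from ha)]

theorem card_ker_dot {F : Type*} [Field F] [Fintype F] {n : ℕ} (a : Fin n → F) (ha : a ≠ 0) :
    Nat.card {lam : Fin n → F // lam ⬝ᵥ a = 0} * Fintype.card F = Fintype.card F ^ n := by
  classical
  let φ : (Fin n → F) →ₗ[F] F :=
    { toFun := fun lam => lam ⬝ᵥ a
      map_add' := fun x y => add_dotProduct x y a
      map_smul' := fun c x => smul_dotProduct c x a }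
  obtain ⟨i, hi⟩ : ∃ i, a i ≠ 0 := by
    by_contra hcon
    exact ha (funext fun i => not_not.1 (not_exists.1 hcon i))
  have hsurj : Function.Surjective φ := by
    intro c
    refine ⟨Pi.single i (c / a i), ?_⟩
    show (Pi.single i (c / a i) : Fin n → F) ⬝ᵥ a = c
    rw [single_dotProduct]
    field_simp
  have h1 := Submodule.card_eq_card_quotient_mul_card (LinearMap.ker φ)
  have h2 : Nat.card ((Fin n → F) ⧸ LinearMap.ker φ) = Fintype.card F := by
    rw [Nat.card_congr (φ.quotKerEquivOfSurjective hsurj).toEquiv, Nat.card_eq_fintype_card]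
  have h3 : Nat.card (Fin n → F) = Fintype.card F ^ n := by
    rw [Nat.card_eq_fintype_card, Fintype.card_fun, Fintype.card_fin]
  have h4 : Nat.card {lam : Fin n → F // lam ⬝ᵥ a = 0} = Nat.card (LinearMap.ker φ) := rfl
  rw [h4, ← h3, h1, h2]

theorem card_fiber {F : Type*} [Field F] [Fintype F] {n : ℕ} (hn : 1 ≤ n) (a : Fin n → F)
    (ha : a ≠ 0) :
    Nat.card {lam : Fin n → F // lam ≠ 0 ∧ lam ⬝ᵥ a = 0} = Fintype.card F ^ (n - 1) - 1 := by
  rw [card_ne_and (fun lam : Fin n → F => lam ⬝ᵥ a = 0) 0 (zero_dotProduct a)]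
  congr 1
  have h1 := card_ker_dot a ha
  have hq : 0 < Fintype.card F := Fintype.card_pos
  obtain ⟨k, rfl⟩ : ∃ k, n = k + 1 := ⟨n - 1, by omega⟩
  rw [pow_succ] at h1
  simpa using Nat.eq_of_mul_eq_mul_right hq h1

/-- the pairs (a, lam) with a ≠ 0, lam ≠ 0, lam a = 0 -/
def X (F : Type*) [Field F] (n : ℕ) : Type _ :=
  {x : (Fin n → F) × (Fin n → F) // x.1 ≠ 0 ∧ x.2 ≠ 0 ∧ x.2 ⬝ᵥ x.1 = 0}

theorem card_X {F : Type*} [Field F] [Fintype F] {n : ℕ} (hn : 1 ≤ n) :
    Nat.card (X F n) = (Fintype.card F ^ n - 1) * (Fintype.card F ^ (n - 1) - 1) := by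
  classical
  let e : X F n ≃ Σ a : {a : Fin n → F // a ≠ 0}, {lam : Fin n → F // lam ≠ 0 ∧ lam ⬝ᵥ a.1 = 0} :=
    { toFun := fun x => ⟨⟨x.1.1, x.2.1⟩, ⟨x.1.2, x.2.2.1, x.2.2.2⟩⟩
      invFun := fun y => ⟨(y.1.1, y.2.1), y.1.2, y.2.2.1, y.2.2.2⟩
      left_inv := fun x => rfl
      right_inv := fun y => rfl }
  rw [Nat.card_congr e, Nat.card_sigma]
  have h1 : ∀ a : {a : Fin n → F // a ≠ 0},
      Nat.card {lam : Fin n → F // lam ≠ 0 ∧ lam ⬝ᵥ a.1 = 0} = Fintype.card F ^ (n - 1) - 1 :=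
    fun a => card_fiber hn a.1 a.2
  simp only [h1, Finset.sum_const, Finset.card_univ, smul_eq_mul]
  congr 1
  have h2 := card_ne_and (fun _ : Fin n → F => True) 0 trivial
  have h3 : Nat.card {x : Fin n → F // x ≠ 0 ∧ True} = Fintype.card {a : Fin n → F // a ≠ 0} := by
    rw [Nat.card_eq_fintype_card]
    exact Fintype.card_congr (Equiv.subtypeEquivRight (fun x => by simp))
  have h4 : Nat.card {x : Fin n → F // True} = Fintype.card F ^ n := by
    rw [Nat.card_congr (Equiv.subtypeUnivEquiv (fun _ => trivial)), Nat.card_eq_fintype_card,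
      Fintype.card_fun, Fintype.card_fin]
  rw [← h3, h2, h4]


/-- the GL element attached to a pair -/
noncomputable def toGL {F : Type*} [Field F] {n : ℕ} (x : X F n) : GL (Fin n) F :=
  GeneralLinearGroup.mk'' (1 + vecMulVec x.1.1 x.1.2) (isUnit_det_one_add _ _ x.2.2.2)

theorem isTransvection_toGL {F : Type*} [Field F] {n : ℕ} (x : X F n) :
    Cfsg.IsTransvection ((toGL x : GL (Fin n) F) : Matrix (Fin n) (Fin n) F) :=
  isTransvection_one_add _ _ x.2.1 x.2.2.1 x.2.2.2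

/-- rescaling a pair -/
def scale {F : Type*} [Field F] {n : ℕ} (c : Fˣ) (x : X F n) : X F n :=
  ⟨((c : F) • x.1.1, ((c⁻¹ : Fˣ) : F) • x.1.2), smul_ne_zero c.ne_zero x.2.1,
    smul_ne_zero (c⁻¹).ne_zero x.2.2.1, by
      show (((c⁻¹ : Fˣ) : F) • x.1.2) ⬝ᵥ ((c : F) • x.1.1) = 0
      rw [smul_dotProduct, dotProduct_smul, x.2.2.2]
      simp⟩

theorem toGL_scale {F : Type*} [Field F] {n : ℕ} (c : Fˣ) (x : X F n) :
    toGL (scale c x) = toGL x := by
  apply Units.ext
  show 1 + vecMulVec ((c : F) • x.1.1) (((c⁻¹ : Fˣ) : F) • x.1.2) = 1 + vecMulVec x.1.1 x.1.2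
  rw [smul_vecMulVec, vecMulVec_smul, smul_smul]
  simp

theorem card_X_eq {F : Type*} [Field F] [Fintype F] {n : ℕ} (t : GL (Fin n) F)
    (ht : Cfsg.IsTransvection (t : Matrix (Fin n) (Fin n) F)) :
    Nat.card (X F n) = Nat.card (ConjClasses.mk t).carrier * (Fintype.card F - 1) := by
  classical
  have hex : ∀ s : (ConjClasses.mk t).carrier, ∃ x : X F n, toGL x = s.1 := by
    rintro ⟨s, hs⟩
    have hconj : IsConj t s := by
      rw [ConjClasses.mem_carrier_iff_mk_eq, ConjClasses.mk_eq_mk_iff_isConj] at hs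
      exact hs.symm
    have hts := isTransvection_of_isConj t s ht hconj
    obtain ⟨a, lam, ha, hl, h0, hM⟩ := exists_vecMulVec_of_isTransvection _ hts
    exact ⟨⟨(a, lam), ha, hl, h0⟩, Units.ext hM.symm⟩
  choose xs hxs using hex
  have hFu : Nat.card Fˣ = Fintype.card F - 1 := by rw [Nat.card_units, Nat.card_eq_fintype_card]
  rw [← hFu, ← Nat.card_prod]
  symm
  apply Nat.card_eq_of_bijective (fun sc : (ConjClasses.mk t).carrier × Fˣ => scale sc.2 (xs sc.1))
  constructor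
  · rintro ⟨s, c⟩ ⟨s', c'⟩ h
    have h' : scale c (xs s) = scale c' (xs s') := h
    have h1 : toGL (scale c (xs s)) = toGL (scale c' (xs s')) := by rw [h']
    rw [toGL_scale, toGL_scale, hxs, hxs] at h1
    have hss : s = s' := Subtype.ext h1
    subst hss
    have h2 : (c : F) • (xs s).1.1 = (c' : F) • (xs s).1.1 := by
      have h3 := congrArg (fun x : X F n => x.1.1) h'
      exact h3
    have h4 : (c : F) = (c' : F) := smul_left_injective F (xs s).2.1 h2
    rw [Units.ext h4]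
  · intro x
    have hconj : IsConj t (toGL x) := isConj_of_isTransvection t (toGL x) ht (isTransvection_toGL x)
    have hmem : toGL x ∈ (ConjClasses.mk t).carrier := by
      rw [ConjClasses.mem_carrier_iff_mk_eq, ConjClasses.mk_eq_mk_iff_isConj]
      exact hconj.symm
    have h1 : toGL (xs ⟨toGL x, hmem⟩) = toGL x := hxs ⟨toGL x, hmem⟩
    have h2 : vecMulVec x.1.1 x.1.2 =
        vecMulVec (xs ⟨toGL x, hmem⟩).1.1 (xs ⟨toGL x, hmem⟩).1.2 := by
      have h3 := congrArg (fun g : GL (Fin n) F => (g : Matrix (Fin n) (Fin n) F)) h1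
      exact (add_left_cancel h3).symm
    obtain ⟨c, hc1, hc2⟩ := vecMulVec_eq_imp _ _ _ _ x.2.1 (xs ⟨toGL x, hmem⟩).2.1 x.2.2.1 h2
    refine ⟨(⟨toGL x, hmem⟩, c), ?_⟩
    apply Subtype.ext
    apply Prod.ext
    · exact hc1.symm
    · exact hc2.symm

theorem prod_identity (q m : ℕ) (hq : 1 ≤ q) :
    ∏ i : Fin (m + 2), (q ^ (m + 2) - q ^ (i : ℕ)) =
      (q ^ (m + 2) - 1) * (q ^ (m + 1) - 1) * q ^ (2 * m + 1) * ∏ i : Fin m, (q ^ m - q ^ (i : ℕ)) := by
  rw [Fin.prod_univ_succ, Fin.prod_univ_succ]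
  simp only [Fin.val_zero, Fin.val_succ, pow_zero]
  have h1 : q ^ (m + 2) - q ^ (0 + 1) = q * (q ^ (m + 1) - 1) := by
    rw [Nat.mul_sub, mul_one]
    ring_nf
  have h2 : ∀ i : Fin m, q ^ (m + 2) - q ^ ((i : ℕ) + 1 + 1) = q ^ 2 * (q ^ m - q ^ (i : ℕ)) := by
    intro i
    rw [Nat.mul_sub]
    ring_nf
  rw [h1]
  simp only [h2]
  rw [Finset.prod_mul_distrib, Finset.prod_const, Finset.card_univ, Fintype.card_fin]
  ring

/-- Centraliser of a transvection in GL_n(q), n ≥ 2: if t − 1 has rank one and square zero, the centraliser of t in GL_n(q) has order q^(2n−3) (q − 1) |GL_(n−2)(q)| (a group of order q^(2n−3) extended by GL_1(q) × GL_(n−2)(q)). -/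
theorem result {F : Type*} [Field F] [Fintype F] {q n : ℕ} (hF : Fintype.card F = q) (hn : 2 ≤ n) (t : GL (Fin n) F) (ht : Cfsg.IsTransvection (t : Matrix (Fin n) (Fin n) F)) : Nat.card ↥(Subgroup.centralizer ({t} : Set (GL (Fin n) F))) = q ^ (2 * n - 3) * (q - 1) * ∏ i : Fin (n - 2), (q ^ (n - 2) - q ^ (i : ℕ)) := by
  classical
  have hG : Nat.card (GL (Fin n) F) = ∏ i : Fin n, (q ^ n - q ^ (i : ℕ)) := by
    rw [← hF]
    exact Matrix.card_GL_field n
  have h1 : Nat.card ↥(Subgroup.centralizer ({t} : Set (GL (Fin n) F))) *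
      Nat.card (ConjClasses.mk t).carrier = Nat.card (GL (Fin n) F) := by
    rw [Subgroup.nat_card_centralizer_nat_card_stabilizer, ← ConjAct.orbit_eq_carrier_conjClasses,
      mul_comm, ← Nat.card_prod]
    exact Nat.card_congr ((MulAction.orbitProdStabilizerEquivGroup (ConjAct (GL (Fin n) F)) t).trans
      ConjAct.ofConjAct.toEquiv)
  have h2 := card_X_eq t ht
  have h3 := card_X (F := F) (n := n) (by omega)
  rw [hF] at h2 h3
  rw [hG] at h1
  obtain ⟨m, rfl⟩ : ∃ m, n = m + 2 := ⟨n - 2, by omega⟩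
  have hq : 2 ≤ q := by
    rw [← hF]
    exact Fintype.one_lt_card
  rw [prod_identity q m (by omega)] at h1
  have h4 : m + 2 - 1 = m + 1 := by omega
  rw [h4] at h3
  have h5 : 2 * (m + 2) - 3 = 2 * m + 1 := by omega
  rw [h5]
  change _ = q ^ (2 * m + 1) * (q - 1) * ∏ i : Fin m, (q ^ m - q ^ (i : ℕ))
  have hpos : 0 < Nat.card (ConjClasses.mk t).carrier * (q - 1) := by
    rw [← h2, h3]
    have e1 : 2 ≤ q ^ (m + 2) := le_trans hq (Nat.le_self_pow (by omega) q)
    have e2 : 2 ≤ q ^ (m + 1) := le_trans hq (Nat.le_self_pow (by omega) q)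
    exact Nat.mul_pos (by omega) (by omega)
  apply Nat.eq_of_mul_eq_mul_right hpos
  calc Nat.card ↥(Subgroup.centralizer ({t} : Set (GL (Fin (m + 2)) F))) *
        (Nat.card (ConjClasses.mk t).carrier * (q - 1))
      = (Nat.card ↥(Subgroup.centralizer ({t} : Set (GL (Fin (m + 2)) F))) *
        Nat.card (ConjClasses.mk t).carrier) * (q - 1) := by ring
    _ = (q ^ (m + 2) - 1) * (q ^ (m + 1) - 1) * q ^ (2 * m + 1) *
        (∏ i : Fin m, (q ^ m - q ^ (i : ℕ))) * (q - 1) := by rw [h1]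
    _ = q ^ (2 * m + 1) * (q - 1) * (∏ i : Fin m, (q ^ m - q ^ (i : ℕ))) *
        ((q ^ (m + 2) - 1) * (q ^ (m + 1) - 1)) := by ring
    _ = q ^ (2 * m + 1) * (q - 1) * (∏ i : Fin m, (q ^ m - q ^ (i : ℕ))) *
        (Nat.card (ConjClasses.mk t).carrier * (q - 1)) := by rw [← h3, h2]


end Cfsg.Agent.S2572
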