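-- Statement S0013.
import Cfsg.Statements.S0013
import Cfsg.Agent.Lib.Helper24.PGroupBasic
import Cfsg.Agent.Lib.Helper63.PFrattini

set_option autoImplicit false
open Cfsg

namespace Cfsg.Agent.S0013

open scoped commutatorElement

open Cfsg.Agent.Lib.Helper24.Alperin Cfsg.Agent.Lib.Helper24.PGroupBasic in
theorem frattini_le_of_quotient_elementary {G : Type*} [Group G] [Finite G] (p : ℕ) [Fact p.Prime]
    (N : Subgroup G) (hcomm : commutator G ≤ N) (hpow : ∀ x : G, x ^ p ∈ N) :
    frattini G ≤ N := by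
  have hpr : p.Prime := Fact.out
  intro x hxF
  by_contra hxN
  obtain ⟨M, ⟨hNM, hxM⟩, -, hmax⟩ := exists_maximal_subgroup
    (fun M : Subgroup G => N ≤ M ∧ x ∉ M) N ⟨le_rfl, hxN⟩
  have hMn : M.Normal := by
    refine ⟨fun m hm g => ?_⟩
    have h1 : ⁅g, m⁆ ∈ M := hNM (hcomm (by
      rw [commutator_def]
      exact Subgroup.commutator_mem_commutator (Subgroup.mem_top g) (Subgroup.mem_top m)))
    have h2 : g * m * g⁻¹ = ⁅g, m⁆ * m := by
      rw [commutatorElement_def]; group
    rw [h2]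
    exact M.mul_mem h1 hm
  have hgen : ∀ g : G, g ∈ M ⊔ Subgroup.zpowers x := by
    intro g
    by_cases hgM : g ∈ M
    · exact (le_sup_left : M ≤ _) hgM
    have hxK : x ∈ M ⊔ Subgroup.zpowers g := by
      by_contra hxK
      have := hmax (M ⊔ Subgroup.zpowers g) ⟨hNM.trans le_sup_left, hxK⟩ le_sup_left
      apply hgM
      rw [← this]
      exact (le_sup_right : Subgroup.zpowers g ≤ _) (Subgroup.mem_zpowers g)
    obtain ⟨a, ha, i, hi⟩ := exists_of_mem_sup_zpowers hxK
    have hpi : ¬ (p : ℤ) ∣ i := by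
      rintro ⟨j, rfl⟩
      apply hxM
      rw [hi]
      refine M.mul_mem ha ?_
      rw [zpow_mul, zpow_natCast]
      exact M.zpow_mem (hNM (hpow g)) j
    have hcop : IsCoprime i (p : ℤ) := by
      have h1 : IsCoprime (p : ℤ) i := (Nat.prime_iff_prime_int.mp hpr).coprime_iff_not_dvd.mpr hpi
      exact h1.symm
    obtain ⟨u, v, huv⟩ := hcop
    have hg : g = (g ^ i) ^ u * (g ^ (p : ℤ)) ^ v := by
      rw [← zpow_mul, ← zpow_mul, ← zpow_add, mul_comm i u, mul_comm (p : ℤ) v, huv, zpow_one]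
    have hgi : g ^ i = a⁻¹ * x := by rw [hi]; group
    rw [hg]
    refine Subgroup.mul_mem _ (Subgroup.zpow_mem _ ?_ u) (Subgroup.zpow_mem _ ?_ v)
    · rw [hgi]
      exact Subgroup.mul_mem _ ((le_sup_left : M ≤ _) (M.inv_mem ha))
        ((le_sup_right : Subgroup.zpowers x ≤ _) (Subgroup.mem_zpowers x))
    · rw [zpow_natCast]
      exact (le_sup_left : M ≤ _) (hNM (hpow g))
  have hcoatom : IsCoatom M := by
    refine ⟨fun h => hxM (h ▸ Subgroup.mem_top x), fun K hMK => ?_⟩
    have hxK : x ∈ K := by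
      by_contra hxK
      exact absurd (hmax K ⟨hNM.trans hMK.le, hxK⟩ hMK.le) (ne_of_gt hMK)
    rw [eq_top_iff]
    intro g _
    exact (sup_le hMK.le (Subgroup.zpowers_le.mpr hxK)) (hgen g)
  exact hxM ((Cfsg.Agent.Lib.Helper63.PFrattini.mem_frattini_iff x).mp hxF M hcoatom)

/-- In a finite p-group the Frattini subgroup is the smallest normal subgroup with elementary abelian quotient: it lies below any normal subgroup containing all commutators and all p-th powers. -/
theorem result {G : Type*} [Group G] [Finite G] (p : ℕ) [Fact p.Prime]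
    (hG : IsPGroup p G) (N : Subgroup G) [N.Normal] (hcomm : commutator G ≤ N) (hpow : ∀ x : G, x ^ p ∈ N) :
    frattini G ≤ N :=
  frattini_le_of_quotient_elementary p N hcomm hpow

end Cfsg.Agent.S0013
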