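import Cfsg.Statements.S3761
import Cfsg.Agent.Lib.Helper54.CyclicNormal

set_option autoImplicit false
open Cfsg

namespace Cfsg.Agent.S3761

/-- Let G be a finite non-abelian p-group with a cyclic normal subgroup U of order p^n such that C_G(U) = U. Then either p = 2 and G is dihedral, generalized quaternion or semidihedral of order 2^(n+1); or, writing U₁ for the subgroup generated by the p-th powers of elements of U and M = C_G(U₁), the subgroup U has index p in M and the subgroup Ω₁(M) generated by the elements of M of order dividing p is elementary abelian of order p² and characteristic in G. -/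
theorem result {G : Type*} [Group G] [Finite G] {p : ℕ} [Fact p.Prime] (hG : IsPGroup p G) (hna : ¬ IsMulCommutative G) (U : Subgroup G) [U.Normal] (hU : IsCyclic U) (n : ℕ) (hUn : Nat.card U = p ^ n) (hC : Subgroup.centralizer (U : Set G) = U) : (p = 2 ∧ Nat.card G = 2 ^ (n + 1) ∧ ((∃ m : ℕ, Nonempty (G ≃* DihedralGroup m)) ∨ (∃ m : ℕ, Nonempty (G ≃* QuaternionGroup m)) ∨ Cfsg.IsQuasiDihedral G)) ∨ (U.relIndex (Subgroup.centralizer (Cfsg.powerClosure p 1 U : Set G)) = p ∧ Cfsg.IsElementaryAbelian p (Cfsg.omegaOne p (Subgroup.centralizer (Cfsg.powerClosure p 1 U : Set G))) ∧ Nat.card ↥(Cfsg.omegaOne p (Subgroup.centralizer (Cfsg.powerClosure p 1 U : Set G))) = p ^ 2 ∧ (Cfsg.omegaOne p (Subgroup.centralizer (Cfsg.powerClosure p 1 U : Set G))).Characteristic) := by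
  classical
  obtain ⟨g, hg⟩ := hU.exists_generator
  have hUa : U = Subgroup.zpowers (g : G) := by
    apply le_antisymm
    · intro x hx
      obtain ⟨i, hi⟩ := Subgroup.mem_zpowers_iff.1 (hg ⟨x, hx⟩)
      rw [Subgroup.mem_zpowers_iff]; exact ⟨i, by simpa using congrArg Subtype.val hi⟩
    · exact Subgroup.zpowers_le.2 g.2
  obtain ⟨a, ha⟩ : ∃ a : G, a = (g : G) := ⟨_, rfl⟩
  rw [← ha] at hUa
  clear hg ha g
  subst hUa
  have hN : (Subgroup.zpowers a).Normal := inferInstance
  have hord : orderOf a = p ^ n := by rw [← hUn, Nat.card_zpowers]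
  have hC' : ∀ x : G, Commute x a → x ∈ Subgroup.zpowers a := by
    intro x hx
    rw [← hC, Subgroup.mem_centralizer_iff]
    intro y hy
    obtain ⟨i, rfl⟩ := Subgroup.mem_zpowers_iff.1 hy
    exact ((Commute.zpow_right hx i).eq).symm
  have hex : ∃ x0 : G, x0 ∉ Subgroup.zpowers a := by
    by_contra hall
    push Not at hall
    apply hna
    refine ⟨⟨fun x y => ?_⟩⟩
    exact (Cfsg.Agent.Lib.Helper54.CyclicNormal.commute_of_mem_zpowers (hall x) (hall y)).eq
  obtain ⟨x0, hx0⟩ := hex
  have hn0 : n ≠ 0 := by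
    rintro rfl
    rw [pow_zero, orderOf_eq_one_iff] at hord
    exact hx0 (hC' x0 (by rw [hord]; exact Commute.one_right x0))
  obtain ⟨n', rfl⟩ := Nat.exists_eq_succ_of_ne_zero hn0
  have hn0' : n' ≠ 0 := by
    rintro rfl
    apply hx0; apply hC'; apply Cfsg.Agent.Lib.Helper54.CyclicNormal.commute_of_conj_eq
    exact Cfsg.Agent.Lib.Helper54.CyclicNormal.conj_eq_of_pow_eq_one hG hord hN
      (Subgroup.mem_zpowers a) (by rw [← pow_orderOf_eq_one a, hord]; simp) x0
  have hM : Subgroup.centralizer (Cfsg.powerClosure p 1 (Subgroup.zpowers a) : Set G)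
      = Subgroup.centralizer ({a ^ p} : Set G) := by
    unfold Cfsg.powerClosure
    rw [Subgroup.centralizer_closure]
    apply le_antisymm
    · apply Subgroup.centralizer_le
      rintro _ rfl
      exact ⟨a, Subgroup.mem_zpowers a, by rw [pow_one]⟩
    · intro w hw
      rw [Subgroup.mem_centralizer_singleton_iff] at hw
      rw [Subgroup.mem_centralizer_iff]
      rintro _ ⟨x, hx, rfl⟩
      obtain ⟨i, rfl⟩ := Subgroup.mem_zpowers_iff.1 hx
      rw [pow_one, ← zpow_natCast, ← zpow_mul, mul_comm, zpow_mul, zpow_natCast]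
      exact ((Commute.zpow_right (show Commute w (a ^ p) from hw) i).eq).symm
  rw [hM]
  by_cases hmod : (p ≠ 2 ∨ 2 ≤ n') ∧ ∃ y : G, y ∉ Subgroup.zpowers a ∧ Commute y (a ^ p)
  · right
    obtain ⟨hpn, y, hyA, hy⟩ := hmod
    obtain ⟨E, hE, hcard, hEn, hEc, hP3, hrel⟩ :=
      Cfsg.Agent.Lib.Helper54.CyclicNormal.modular hG hord hN hC' hpn hyA hy
    have hom : Cfsg.omegaOne p (Subgroup.centralizer ({a ^ p} : Set G)) = E := by
      unfold Cfsg.omegaOne
      have : {x : G | x ∈ Subgroup.centralizer ({a ^ p} : Set G) ∧ x ^ p = 1} = (E : Set G) := by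
        ext x
        simp only [Set.mem_ofPred_eq, SetLike.mem_coe, Subgroup.mem_centralizer_singleton_iff]
        exact (hE x).symm
      rw [this, Subgroup.closure_eq]
    rw [hom]
    refine ⟨hrel, ⟨hEc, fun w hw => ((hE w).1 hw).2⟩, hcard, ?_⟩
    rw [Subgroup.characteristic_iff_map_le]
    intro φ
    apply hP3
    · exact hEn.map _ φ.surjective
    · rintro _ ⟨w, hw, rfl⟩
      have := ((hE w).1 hw).2
      rw [← map_pow, this, map_one]
  · left
    have hp2 : p = 2 := by
      by_contra hp2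
      obtain ⟨y, hyA, hy⟩ :=
        Cfsg.Agent.Lib.Helper54.CyclicNormal.exists_modular_of_odd hp2 hG hord hN hx0
      exact hmod ⟨Or.inl hp2, y, hyA, hy⟩
    subst hp2
    have hM' : n' = 1 ∨ ∀ y : G, Commute y (a ^ 2) → y ∈ Subgroup.zpowers a := by
      by_cases h1 : n' = 1
      · left; exact h1
      · right
        intro y hy
        by_contra hyA
        exact hmod ⟨Or.inr (by omega), y, hyA, hy⟩
    obtain ⟨hcard, x, hx, hcases⟩ :=
      Cfsg.Agent.Lib.Helper54.CyclicNormal.nonmodular hG hord (by omega) hN hC' hM' hx0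
    refine ⟨rfl, hcard, ?_⟩
    rcases Cfsg.Agent.Lib.Helper54.CyclicNormal.iso_of_nonmodular hord hcard hx hcases with
      h | h | h
    · left; exact ⟨_, h⟩
    · right; left; exact ⟨_, h⟩
    · right; right; exact h

end Cfsg.Agent.S3761
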