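import Cfsg.Statements.S2389
import Mathlib
import Cfsg.Agent.Lib.Helper40.SympConj
import Cfsg.Agent.Lib.Helper40.SSConj

set_option autoImplicit false
open Cfsg

namespace Cfsg.Agent.S2389
/-- In the symplectic group `Sp_{2n}(q)`, `q` a power of the prime `p`, two elements of order prime to `p` with the same characteristic polynomial are conjugate in `Sp_{2n}(q)`. -/
theorem result {F : Type*} [Field F] [Fintype F] (p : ℕ) [Fact p.Prime] [CharP F p] (n : ℕ)
    (g h : ↥(Matrix.symplecticGroup (Fin n) F)) (hg : (orderOf g).Coprime p) (hh : (orderOf h).Coprime p)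
    (hc : (g : Matrix (Fin n ⊕ Fin n) (Fin n ⊕ Fin n) F).charpoly = (h : Matrix (Fin n ⊕ Fin n) (Fin n ⊕ Fin n) F).charpoly) :
    IsConj g h := by
  classical
  have hpp : p.Prime := Fact.out
  have hN : ((orderOf g * orderOf h : ℕ) : F) ≠ 0 := by
    intro h0
    have h1 := (CharP.cast_eq_zero_iff F p (orderOf g * orderOf h)).mp h0
    rcases (Nat.Prime.dvd_mul hpp).mp h1 with h2 | h2
    · have h3 : p ∣ Nat.gcd (orderOf g) p := Nat.dvd_gcd h2 dvd_rfl
      rw [Nat.Coprime.gcd_eq_one hg] at h3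
      exact hpp.one_lt.ne' (Nat.dvd_one.mp h3)
    · have h3 : p ∣ Nat.gcd (orderOf h) p := Nat.dvd_gcd h2 dvd_rfl
      rw [Nat.Coprime.gcd_eq_one hh] at h3
      exact hpp.one_lt.ne' (Nat.dvd_one.mp h3)
  have hgN : (g : Matrix (Fin n ⊕ Fin n) (Fin n ⊕ Fin n) F) ^ (orderOf g * orderOf h) = 1 := by
    have h1 : g ^ (orderOf g * orderOf h) = 1 := by rw [pow_mul, pow_orderOf_eq_one, one_pow]
    exact congrArg Subtype.val h1
  have hhN : (h : Matrix (Fin n ⊕ Fin n) (Fin n ⊕ Fin n) F) ^ (orderOf g * orderOf h) = 1 := by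
    have h1 : h ^ (orderOf g * orderOf h) = 1 := by
      rw [mul_comm, pow_mul, pow_orderOf_eq_one, one_pow]
    exact congrArg Subtype.val h1
  obtain ⟨P, Q, hPQ, hQP, hPA⟩ := Cfsg.Agent.Lib.Helper40.SSConj.matrix_conj
    (g : Matrix (Fin n ⊕ Fin n) (Fin n ⊕ Fin n) F) (h : Matrix (Fin n ⊕ Fin n) (Fin n ⊕ Fin n) F)
    (orderOf g * orderOf h) hN hgN hhN hc
  exact Cfsg.Agent.Lib.Helper40.SympConj.symp_conj g h (orderOf g * orderOf h) hN hgN P
    (IsUnit.of_mul_eq_one Q hPQ) hPA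

end Cfsg.Agent.S2389
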