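import Cfsg.Statements.S0247
import Mathlib
import Cfsg.Agent.Lib.Helper5.SpCard

set_option autoImplicit false
open Cfsg

namespace Cfsg.Agent.S0247

open Matrix

/-- columns: basis vectors e₁ e₂ f₁ f₂ of even-weight vectors mod all-ones -/
def Q₂ : Matrix (Fin 6) (Fin 2 ⊕ Fin 2) (ZMod 2) :=
  Matrix.of fun i c => match c with
    | Sum.inl 0 => if i = 0 ∨ i = 1 then 1 else 0
    | Sum.inl 1 => if i = 3 ∨ i = 4 then 1 else 0
    | Sum.inr 0 => if i = 1 ∨ i = 2 then 1 else 0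
    | Sum.inr 1 => if i = 4 ∨ i = 5 then 1 else 0

def P₂ : Matrix (Fin 2 ⊕ Fin 2) (Fin 6) (ZMod 2) :=
  Matrix.of fun c i => match c with
    | Sum.inl 0 => if i = 1 ∨ i = 2 then 1 else 0
    | Sum.inl 1 => if i = 4 ∨ i = 5 then 1 else 0
    | Sum.inr 0 => if i = 0 ∨ i = 1 then 1 else 0
    | Sum.inr 1 => if i = 3 ∨ i = 4 then 1 else 0

/-- `j aᵀ`, `a = 000111` -/
def A₁ : Matrix (Fin 6) (Fin 6) (ZMod 2) :=
  Matrix.of fun _ k => if 3 ≤ k then 1 else 0

/-- `b jᵀ`, `b = 111000` -/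
def A₂ : Matrix (Fin 6) (Fin 6) (ZMod 2) :=
  Matrix.of fun i _ => if i < 3 then 1 else 0

theorem I1 : P₂ * Q₂ = 1 := by decide
theorem I2 : Q₂ * P₂ = 1 + A₁ + A₂ := by decide
theorem I3 : P₂ * A₁ = 0 := by decide
theorem I4 : A₂ * Q₂ = 0 := by decide
theorem I5 : Q₂ * J (Fin 2) (ZMod 2) * Q₂ᵀ = 1 + A₁ᵀ + A₂ᵀ := by decide
theorem I6 : P₂ * P₂ᵀ = J (Fin 2) (ZMod 2) := by decide
theorem I7 : P₂ * A₂ᵀ = 0 := by decide

/-- the 3-cycle used for injectivity -/
def c3 : Equiv.Perm (Fin 6) := Equiv.swap 0 1 * Equiv.swap 1 2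

theorem I8 : P₂ * (c3⁻¹).permMatrix (ZMod 2) * Q₂ ≠ 1 := by decide

theorem c3_mem : c3 ∈ alternatingGroup (Fin 6) := by
  rw [Equiv.Perm.mem_alternatingGroup]
  decide

section

variable {F : Type*} [Field F] (f : ZMod 2 →+* F)

theorem map_J : (J (Fin 2) (ZMod 2)).map f = J (Fin 2) F := by
  have h1 : (1 : F) = -1 := by
    have := map_neg f 1
    rwa [show (-1 : ZMod 2) = 1 from by decide, map_one] at this
  ext i j
  rcases i with i | i <;> rcases j with j | j <;>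
    simp [J, Matrix.one_apply, Matrix.neg_apply]
  split_ifs
  · exact h1
  · simp

theorem map_perm (σ : Equiv.Perm (Fin 6)) :
    (σ.permMatrix (ZMod 2)).map f = σ.permMatrix F := by
  ext i j
  simp [PEquiv.toMatrix_apply, apply_ite]

theorem perm_mul_A₁ (σ : Equiv.Perm (Fin 6)) : σ.permMatrix F * A₁.map f = A₁.map f := by
  rw [PEquiv.toMatrix_toPEquiv_mul]
  ext i k
  simp [A₁]

theorem A₂_mul_perm (σ : Equiv.Perm (Fin 6)) : A₂.map f * σ.permMatrix F = A₂.map f := by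
  rw [PEquiv.mul_toMatrix_toPEquiv]
  ext i k
  simp [A₂]

theorem perm_mul_A₂t (σ : Equiv.Perm (Fin 6)) : σ.permMatrix F * (A₂.map f)ᵀ = (A₂.map f)ᵀ := by
  rw [PEquiv.toMatrix_toPEquiv_mul]
  ext i k
  simp [A₂]

theorem A₁t_mul_perm (σ : Equiv.Perm (Fin 6)) : (A₁.map f)ᵀ * σ.permMatrix F = (A₁.map f)ᵀ := by
  rw [PEquiv.mul_toMatrix_toPEquiv]
  ext i k
  simp [A₁]

theorem J1 : P₂.map f * Q₂.map f = 1 := by
  have := congrArg (fun M => M.map f) I1
  simpa [Matrix.map_mul] using this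

theorem J2 : Q₂.map f * P₂.map f = 1 + A₁.map f + A₂.map f := by
  have := congrArg (fun M => M.map f) I2
  simpa [Matrix.map_mul, Matrix.map_add] using this

theorem J3 : P₂.map f * A₁.map f = 0 := by
  have := congrArg (fun M => M.map f) I3
  simpa [Matrix.map_mul] using this

theorem J4 : A₂.map f * Q₂.map f = 0 := by
  have := congrArg (fun M => M.map f) I4
  simpa [Matrix.map_mul] using this

theorem J5 : Q₂.map f * J (Fin 2) F * (Q₂.map f)ᵀ = 1 + (A₁.map f)ᵀ + (A₂.map f)ᵀ := by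
  have := congrArg (fun M => M.map f) I5
  simp only [Matrix.map_mul, Matrix.transpose_map, map_J] at this
  simpa [Matrix.map_add, Matrix.transpose_map] using this

theorem J6 : P₂.map f * (P₂.map f)ᵀ = J (Fin 2) F := by
  have := congrArg (fun M => M.map f) I6
  simp only [Matrix.map_mul, Matrix.transpose_map, map_J] at this
  simpa using this

theorem J7 : P₂.map f * (A₂.map f)ᵀ = 0 := by
  have := congrArg (fun M => M.map f) I7
  simp only [Matrix.map_mul, Matrix.transpose_map] at this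
  simpa using this

theorem J3t : (A₁.map f)ᵀ * (P₂.map f)ᵀ = 0 := by
  rw [← Matrix.transpose_mul, J3]; simp

/-- the matrix of a permutation -/
def M (σ : Equiv.Perm (Fin 6)) : Matrix (Fin 2 ⊕ Fin 2) (Fin 2 ⊕ Fin 2) F :=
  P₂.map f * (σ⁻¹).permMatrix F * Q₂.map f

theorem M_one : M f 1 = 1 := by
  simp [M, J1]

theorem M_mul (σ τ : Equiv.Perm (Fin 6)) : M f (σ * τ) = M f σ * M f τ := by
  unfold M
  have h : P₂.map f * (σ⁻¹).permMatrix F * Q₂.map f * (P₂.map f * (τ⁻¹).permMatrix F * Q₂.map f)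
      = P₂.map f * (σ⁻¹).permMatrix F * (Q₂.map f * P₂.map f) * (τ⁻¹).permMatrix F * Q₂.map f := by
    simp only [Matrix.mul_assoc]
  rw [h, J2, _root_.mul_inv_rev, permMatrix_mul]
  simp only [Matrix.mul_add, Matrix.add_mul, Matrix.mul_one]
  have h1 : P₂.map f * (σ⁻¹).permMatrix F * A₁.map f * (τ⁻¹).permMatrix F * Q₂.map f = 0 := by
    rw [Matrix.mul_assoc (P₂.map f), perm_mul_A₁, J3]; simp
  have h2 : P₂.map f * (σ⁻¹).permMatrix F * A₂.map f * (τ⁻¹).permMatrix F * Q₂.map f = 0 := by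
    rw [Matrix.mul_assoc _ (A₂.map f), A₂_mul_perm, Matrix.mul_assoc _ (A₂.map f), J4]; simp
  rw [h1, h2]
  simp [Matrix.mul_assoc]

theorem M_mem (σ : Equiv.Perm (Fin 6)) : M f σ ∈ symplecticGroup (Fin 2) F := by
  rw [SymplecticGroup.mem_iff]
  unfold M
  rw [Matrix.transpose_mul, Matrix.transpose_mul, transpose_permMatrix]
  have h : P₂.map f * (σ⁻¹).permMatrix F * Q₂.map f * J (Fin 2) F *
      ((Q₂.map f)ᵀ * ((σ⁻¹)⁻¹.permMatrix F * (P₂.map f)ᵀ))
      = P₂.map f * (σ⁻¹).permMatrix F * (Q₂.map f * J (Fin 2) F * (Q₂.map f)ᵀ) *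
        ((σ⁻¹)⁻¹.permMatrix F) * (P₂.map f)ᵀ := by
    simp only [Matrix.mul_assoc]
  rw [h, J5]
  simp only [Matrix.mul_add, Matrix.add_mul, Matrix.mul_one]
  have h0 : P₂.map f * (σ⁻¹).permMatrix F * (σ⁻¹)⁻¹.permMatrix F * (P₂.map f)ᵀ = J (Fin 2) F := by
    rw [Matrix.mul_assoc (P₂.map f), ← permMatrix_mul]
    simp [J6]
  have h1 : P₂.map f * (σ⁻¹).permMatrix F * (A₁.map f)ᵀ * (σ⁻¹)⁻¹.permMatrix F * (P₂.map f)ᵀ = 0 := by
    rw [Matrix.mul_assoc _ ((A₁.map f)ᵀ), A₁t_mul_perm, Matrix.mul_assoc _ ((A₁.map f)ᵀ), J3t]; simp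
  have h2 : P₂.map f * (σ⁻¹).permMatrix F * (A₂.map f)ᵀ * (σ⁻¹)⁻¹.permMatrix F * (P₂.map f)ᵀ = 0 := by
    rw [Matrix.mul_assoc (P₂.map f), perm_mul_A₂t, J7]; simp
  rw [h0, h1, h2]
  simp

/-- the homomorphism `S₆ → Sp₄(F)` -/
def hom : Equiv.Perm (Fin 6) →* symplecticGroup (Fin 2) F where
  toFun σ := ⟨M f σ, M_mem f σ⟩
  map_one' := Subtype.ext (M_one f)
  map_mul' σ τ := Subtype.ext (M_mul f σ τ)

theorem hom_injective : Function.Injective (hom f) := by
  rw [← MonoidHom.ker_eq_bot_iff]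
  by_contra hne
  have hnt : Nontrivial (hom f).ker := (Subgroup.nontrivial_iff_ne_bot _).mpr hne
  have hle := Equiv.Perm.alternatingGroup_le_of_normal (α := Fin 6) (by simp) hnt
  have hc := hle c3_mem
  rw [MonoidHom.mem_ker] at hc
  have hc' : M f c3 = 1 := congrArg Subtype.val hc
  apply I8
  apply Matrix.map_injective f.injective
  show (P₂ * (c3⁻¹).permMatrix (ZMod 2) * Q₂).map f = (1 : Matrix _ _ (ZMod 2)).map f
  rw [Matrix.map_mul, Matrix.map_mul, map_perm]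
  simpa [M] using hc'

end

/-- Sp_4(2) is isomorphic to the symmetric group S_6. -/
theorem result {F : Type*} [Field F] [Fintype F] (hF : Fintype.card F = 2) : Nonempty (Matrix.symplecticGroup (Fin 2) F ≃* Equiv.Perm (Fin 6)) := by
  classical
  have hchar : CharP F 2 := by
    obtain ⟨p, hp⟩ := CharP.exists F
    have hpp : p.Prime := (CharP.char_is_prime_or_zero F p).resolve_right (by
      intro h0
      subst h0
      have := CharP.charP_to_charZero F
      exact not_finite F)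
    have : Fact p.Prime := ⟨hpp⟩
    obtain ⟨n, hn⟩ := FiniteField.card F p
    rw [hF] at hn
    have : p ∣ 2 := by rw [hn.2]; exact dvd_pow_self p (PNat.ne_zero n)
    have : p = 2 := (Nat.prime_dvd_prime_iff_eq hpp Nat.prime_two).mp this
    subst this
    exact hp
  let f : ZMod 2 →+* F := ZMod.castHom (dvd_refl 2) F
  have hinj := hom_injective f
  have hcard : Nat.card (Equiv.Perm (Fin 6)) = Nat.card (symplecticGroup (Fin 2) F) := by
    rw [Cfsg.Agent.Lib.Helper5.SpCard.card_symplectic, hF, Nat.card_eq_fintype_card,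
      Fintype.card_perm]
    simp [Finset.prod_range_succ]
    decide
  have hbij : Function.Bijective (hom f) :=
    (Nat.bijective_iff_injective_and_card _).mpr ⟨hinj, hcard⟩
  exact ⟨(MulEquiv.ofBijective (hom f) hbij).symm⟩

end Cfsg.Agent.S0247
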