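import Cfsg.Statements.S2725
import Cfsg.Agent.Lib.Helper45.PlusInndiag
import Cfsg.Agent.S0790
-- import your own Cfsg.Agent.* helpers here

set_option autoImplicit false
set_option maxHeartbeats 2000000
open Cfsg

namespace Cfsg.Agent.S2725

/-- Let T = PΩ⁺_{2m}(F) with m ≥ 4 and |F| = q odd. The inner-diagonal group G = Inndiag(T) (image of the class-preserving similarities) taken modulo the inner automorphism group T is cyclic of order 2 when m is odd and q ≡ 3 (mod 4), cyclic of order 4 when m is odd and q ≡ 1 (mod 4), and elementary abelian of order 4 when m is even. -/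
theorem result {F : Type*} [Field F] [Fintype F] (hodd : Odd (Fintype.card F)) {m : ℕ} (hm : 4 ≤ m) :
    ((Odd m ∧ Fintype.card F % 4 = 3) → (∃ φ : ↥(Cfsg.inndiagPOmegaPlus m F) →* Multiplicative (ZMod 2), Function.Surjective φ ∧ φ.ker = (Cfsg.Inn (Cfsg.POmega F (Cfsg.quadFormPlus m F))).subgroupOf (Cfsg.inndiagPOmegaPlus m F))) ∧ ((Odd m ∧ Fintype.card F % 4 = 1) → (∃ φ : ↥(Cfsg.inndiagPOmegaPlus m F) →* Multiplicative (ZMod 4), Function.Surjective φ ∧ φ.ker = (Cfsg.Inn (Cfsg.POmega F (Cfsg.quadFormPlus m F))).subgroupOf (Cfsg.inndiagPOmegaPlus m F))) ∧ (Even m → (∃ φ : ↥(Cfsg.inndiagPOmegaPlus m F) →* Multiplicative (ZMod 2 × ZMod 2), Function.Surjective φ ∧ φ.ker = (Cfsg.Inn (Cfsg.POmega F (Cfsg.quadFormPlus m F))).subgroupOf (Cfsg.inndiagPOmegaPlus m F))) := by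
  have h2 : (2 : F) ≠ 0 := Cfsg.Agent.Lib.Helper44.FinSq.two_ne_zero_of_odd_card hodd
  have hcardι : Fintype.card (Fin m ⊕ Fin m) = 2 * m := by
    simp only [Fintype.card_sum, Fintype.card_fin]; omega
  have hn : 5 ≤ Fintype.card (Fin m ⊕ Fin m) := by rw [hcardι]; omega
  have hS := Cfsg.Agent.Lib.Helper44.NegPairs.sep_plusQ (F := F) m
  have : Nontrivial (Fin m ⊕ Fin m → F) := by
    have : Nonempty (Fin m ⊕ Fin m) := ⟨Sum.inl ⟨0, by omega⟩⟩
    infer_instance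
  obtain ⟨v₀, hv₀⟩ := Cfsg.Agent.Lib.Helper44.QSpace.exists_ne_zero hS
  have hδ := Cfsg.Agent.Lib.Helper45.OmegaAutSim.plus_sim (F := F) h2 m (by omega)
  obtain ⟨σ, hσ1, hσ2, hσ3⟩ := Cfsg.Agent.Lib.Helper45.PlusInndiag.plus_sigma h2 (m := m) (by omega) hv₀
  have hiff := Cfsg.Agent.S0790.result (F := F) rfl hodd m (by omega)
  have hnum := Cfsg.Agent.Lib.Helper44.NegPairs.pow_mod_four_iff hodd m
  rw [Cfsg.Agent.Lib.Helper45.PlusInndiag.inndiag_plus_eq h2 (by omega) hv₀]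
  refine ⟨?_, ?_, ?_⟩
  · rintro ⟨hm1, hq3⟩
    apply Cfsg.Agent.Lib.Helper45.OmegaInndiag.d0_mod_inn_c2 _ h2 hS hv₀ hcardι hn hδ
    intro hneg
    have h1 := hnum.mp (hiff.mp hneg)
    rcases h1 with h | h
    · exact (Nat.not_even_iff_odd.mpr hm1) h
    · exact h hq3
  · rintro ⟨hm1, hq1⟩
    have hneg := hiff.mpr (hnum.mpr (Or.inr (by omega)))
    have hdl : Cfsg.Agent.Lib.Helper45.OmegaAutMain.dl
        (Cfsg.Agent.Lib.Helper44.NegPairs.plusQ m F) hv₀ m σ = -1 := by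
      rcases Cfsg.Agent.Lib.Helper45.OmegaAutMain.dl_pm
        (Cfsg.Agent.Lib.Helper44.NegPairs.plusQ m F) hv₀ hS hcardι σ with h | h
      · exact absurd (hσ3.mpr h) (Nat.not_even_iff_odd.mpr hm1)
      · exact h
    exact Cfsg.Agent.Lib.Helper45.OmegaInndiag.d0_mod_inn_c4 _ h2 hS hv₀ hcardι hn hneg σ hσ1 hσ2 hdl
  · intro hm0
    have hneg := hiff.mpr (hnum.mpr (Or.inl hm0))
    exact Cfsg.Agent.Lib.Helper45.OmegaInndiag.d0_mod_inn_v4 _ h2 hS hv₀ hcardι hn hneg σ hσ1 hσ2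
      (hσ3.mp hm0)

end Cfsg.Agent.S2725
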