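import Cfsg.Statements.S0295
import Mathlib
import Cfsg.Agent.Lib.Helper5.OmegaSimpleMat
import Cfsg.Agent.Lib.Helper44.NegPairs

set_option autoImplicit false
open Cfsg

namespace Cfsg.Agent.S0295

open Cfsg.Agent.Lib.Helper44.NegPairs Cfsg.Agent.Lib.Helper5.OmegaSimple
open Cfsg.Agent.Lib.Helper5.OmegaSimpleMat

/-- PΩ_{2m+1}(q) is simple for q odd and m at least 3. -/
theorem result {F : Type*} [Field F] [Fintype F] (hodd : Odd (Fintype.card F)) (m : ℕ) (hm : 3 ≤ m) : IsSimpleGroup (Cfsg.POmega F (Cfsg.quadFormOdd m F)) := by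
  classical
  have h2 : (2 : F) ≠ 0 := by
    intro h
    have : CharP F 2 := CharTwo.of_one_ne_zero_of_two_eq_zero one_ne_zero h
    have h3 := FiniteField.even_card_of_char_two (ringChar.eq F 2)
    rcases hodd with ⟨k, hk⟩
    omega
  have hcard : Fintype.card (Unit ⊕ (Fin m ⊕ Fin m)) = 2 * m + 1 := by
    simp [Fintype.card_sum]
    ring
  have hS := sep_oddQ (F := F) h2 m
  have hgen := commutator_eq_EG_odd (Q := oddQ m F) h2 hS (by
    rw [Module.finrank_fintype_fun_eq_card, hcard]
    omega)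
  have h := simple_of_gen (oddQ m F) hS (by rw [hcard]; omega) hgen
  rw [coe_oddQ] at h
  exact h

end Cfsg.Agent.S0295
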