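import Cfsg.Statements.S0670
import Mathlib

set_option autoImplicit false
open Cfsg

namespace Cfsg.Agent.S0670

/-- A Sylow `p`-subgroup of a transitive group of `p`-power degree is transitive. -/
theorem sylow_transitive {G : Type*} [Group G] [Finite G] {p f : ℕ} [Fact p.Prime] {Ω : Type*}
    [Fintype Ω] [MulAction G Ω] [MulAction.IsPretransitive G Ω] (hcard : Fintype.card Ω = p ^ f)
    (P : Sylow p G) (a x : Ω) : ∃ g ∈ (P : Subgroup G), g • a = x := by
  classical
  have hp : p.Prime := Fact.out
  set n := (Nat.card G).factorization p with hn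
  have hPcard : Nat.card (P : Subgroup G) = p ^ n := P.card_eq_multiplicity
  have hidx : (MulAction.stabilizer G a).index = p ^ f := by
    rw [MulAction.index_stabilizer_of_transitive, Nat.card_eq_fintype_card, hcard]
  have hG : p ^ f * Nat.card (MulAction.stabilizer G a) = Nat.card G := by
    rw [← hidx]; exact Subgroup.index_mul_card _
  set Q := MulAction.stabilizer (P : Subgroup G) a with hQ
  have hQp : IsPGroup p Q := P.isPGroup'.to_subgroup Q
  obtain ⟨k, hk⟩ := IsPGroup.iff_card.mp hQp
  have hQdvd : Nat.card Q ∣ Nat.card (MulAction.stabilizer G a) := by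
    let φ : Q →* MulAction.stabilizer G a :=
      (((P : Subgroup G).subtype.comp Q.subtype).codRestrict (MulAction.stabilizer G a)
        (fun q => by
          rw [MulAction.mem_stabilizer_iff]
          have := q.2
          rw [MulAction.mem_stabilizer_iff] at this
          exact this))
    apply Subgroup.card_dvd_of_injective φ
    intro q₁ q₂ h
    have : ((q₁ : (P : Subgroup G)) : G) = ((q₂ : (P : Subgroup G)) : G) :=
      congrArg (fun z : MulAction.stabilizer G a => (z : G)) h
    exact Subtype.ext (Subtype.ext this)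
  have hkf : k + f ≤ n := by
    rw [hn, ← hp.pow_dvd_iff_le_factorization (Nat.card_pos.ne')]
    rw [pow_add, ← hG, mul_comm]
    exact Nat.mul_dvd_mul_left _ (hk ▸ hQdvd)
  have horb : (MulAction.orbit (P : Subgroup G) a).ncard = Q.index :=
    (MulAction.index_stabilizer _ _).symm
  have hQidx : Q.index * p ^ k = p ^ n := by
    rw [← hk, ← hPcard]; exact Subgroup.index_mul_card Q
  have hQidx' : Q.index = p ^ (n - k) := by
    have : p ^ (n - k) * p ^ k = p ^ n := by rw [← pow_add]; congr 1; omega
    exact Nat.eq_of_mul_eq_mul_right (pow_pos hp.pos k) (hQidx.trans this.symm)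
  have hge : Nat.card Ω ≤ (MulAction.orbit (P : Subgroup G) a).ncard := by
    rw [horb, hQidx', Nat.card_eq_fintype_card, hcard]
    exact Nat.pow_le_pow_right hp.pos (by omega)
  have huniv : MulAction.orbit (P : Subgroup G) a = Set.univ := by
    rw [Set.eq_univ_iff_ncard]
    exact le_antisymm (Set.ncard_le_card _) hge
  have hx : x ∈ MulAction.orbit (P : Subgroup G) a := by rw [huniv]; trivial
  obtain ⟨g, hg⟩ := hx
  exact ⟨(g : G), g.2, hg⟩

/-- A finite `p`-group acting on a nonzero invariant subspace in characteristic `p`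
fixes a nonzero vector. -/
theorem exists_fixed {G : Type*} [Group G] {K : Type*} [Field K] {p : ℕ} [Fact p.Prime]
    [CharP K p] {V : Type*} [AddCommGroup V] [Module K V] (ρ : Representation K G V)
    (P : Subgroup G) [Finite P] (hP : IsPGroup p P) (W : Submodule K V) (hW : W ≠ ⊥)
    (hinv : ∀ g ∈ P, ∀ v ∈ W, ρ g v ∈ W) : ∃ w ∈ W, w ≠ 0 ∧ ∀ g ∈ P, ρ g w = w := by
  classical
  letI : Algebra (ZMod p) K := ZMod.algebra K p
  letI : Module (ZMod p) V := Module.compHom V (algebraMap (ZMod p) K)
  have hsmul : ∀ (c : ZMod p) (x : V), c • x = (algebraMap (ZMod p) K c) • x := fun c x => rfl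
  obtain ⟨v, hvW, hv0⟩ := (Submodule.ne_bot_iff _).mp hW
  let M : Submodule (ZMod p) V := Submodule.span (ZMod p) (Set.range (fun g : P => ρ (g : G) v))
  have hMW : ∀ m ∈ M, m ∈ W := by
    intro m hm
    induction hm using Submodule.span_induction with
    | mem x hx => obtain ⟨g, rfl⟩ := hx; exact hinv g g.2 v hvW
    | zero => exact W.zero_mem
    | add x y _ _ hx hy => exact W.add_mem hx hy
    | smul c x _ hx => rw [hsmul]; exact W.smul_mem _ hx
  have hMinv : ∀ (h : P) (m : V), m ∈ M → ρ (h : G) m ∈ M := by
    intro h m hm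
    induction hm using Submodule.span_induction with
    | mem x hx =>
      obtain ⟨g, rfl⟩ := hx
      apply Submodule.subset_span
      refine ⟨h * g, ?_⟩
      simp [map_mul]
    | zero => rw [map_zero]; exact M.zero_mem
    | add x y _ _ hx hy => rw [map_add]; exact M.add_mem hx hy
    | smul c x _ hx => rw [hsmul, map_smul, ← hsmul]; exact M.smul_mem c hx
  haveI : Module.Finite (ZMod p) M := Module.Finite.span_of_finite (ZMod p) (Set.finite_range _)
  haveI : Finite M := Module.finite_of_finite (ZMod p)
  letI : SMul P M := ⟨fun h m => ⟨ρ (h : G) m.1, hMinv h m.1 m.2⟩⟩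
  have hsm : ∀ (h : P) (m : M), ((h • m : M) : V) = ρ (h : G) m.1 := fun h m => rfl
  letI : MulAction P M :=
    { one_smul := fun m => Subtype.ext (by rw [hsm]; simp)
      mul_smul := fun g h m => Subtype.ext (by rw [hsm, hsm, hsm]; simp [map_mul]) }
  have hvM : v ∈ M := Submodule.subset_span ⟨1, by simp⟩
  haveI : Nontrivial M := ⟨⟨⟨v, hvM⟩, 0, fun h => hv0 (congrArg Subtype.val h)⟩⟩
  have hpM : p ∣ Nat.card M := by
    rw [Module.natCard_eq_pow_finrank (K := ZMod p) (V := M), Nat.card_zmod]
    exact dvd_pow_self p (Module.finrank_pos (R := ZMod p) (M := M)).ne'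
  have h0 : (0 : M) ∈ MulAction.fixedPoints P M := by
    intro h
    apply Subtype.ext
    change ρ (h : G) (0 : V) = 0
    exact map_zero _
  obtain ⟨b, hb, hb0⟩ := hP.exists_fixed_point_of_prime_dvd_card_of_fixed_point M hpM h0
  refine ⟨b.1, hMW b.1 b.2, fun h => hb0 (Subtype.ext h.symm), ?_⟩
  intro g hg
  have := hb ⟨g, hg⟩
  exact congrArg Subtype.val this

/-- In characteristic `p`, the permutation module of a transitive action of degree `p ^ f` has the line of constant functions as its only irreducible submodule: every non-zero subrepresentation contains it. -/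
theorem result {G : Type*} [Group G] [Finite G] {K : Type*} [Field K] {p f : ℕ} [Fact p.Prime] [CharP K p] {Ω : Type*} [Fintype Ω] [MulAction G Ω] [MulAction.IsPretransitive G Ω] (hf : 1 ≤ f) (hcard : Fintype.card Ω = p ^ f) (W : Subrepresentation (Cfsg.permRep K G Ω)) (hW : W.toSubmodule ≠ ⊥) : (Cfsg.permConstants K G Ω).toSubmodule ≤ W.toSubmodule := by
  classical
  obtain ⟨P⟩ : Nonempty (Sylow p G) := inferInstance
  have htr := sylow_transitive (G := G) hcard P
  obtain ⟨w, hwW, hw0, hwfix⟩ := exists_fixed (Cfsg.permRep K G Ω) (P : Subgroup G) P.isPGroup'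
    W.toSubmodule hW (fun g _ v hv => W.apply_mem_toSubmodule g hv)
  obtain ⟨a⟩ : Nonempty Ω := (Fintype.card_pos_iff).mp (by
    rw [hcard]; exact pow_pos (Fact.out : p.Prime).pos f)
  have hconst : ∀ x, w x = w a := by
    intro x
    obtain ⟨g, hg, hgx⟩ := htr a x
    have := congrFun (hwfix g hg) x
    rw [← this]
    change w (g⁻¹ • x) = w a
    rw [← hgx, inv_smul_smul]
  have hwa : w a ≠ 0 := by
    intro h; apply hw0; funext x; rw [hconst x, h]; rfl
  change Submodule.span K {fun _ => 1} ≤ W.toSubmodule
  rw [Submodule.span_singleton_le_iff_mem]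
  have := W.toSubmodule.smul_mem (w a)⁻¹ hwW
  convert this using 1
  funext x
  simp only [Pi.smul_apply, smul_eq_mul]
  rw [hconst x, inv_mul_cancel₀ hwa]

end Cfsg.Agent.S0670
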