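import Cfsg.Statements.S0633
import Cfsg.Agent.Lib.Helper1.HHCoreB
import Cfsg.Agent.Lib.Helper1.HHRed
import Cfsg.Agent.Lib.Helper74.DualHH
import Cfsg.Agent.Lib.Helper11.QuadSylow

set_option autoImplicit false
open Cfsg

namespace Cfsg.Agent.S0633

open Cfsg.Agent.Lib.Helper1.HHW Cfsg.Agent.Lib.Helper1.HHRed Cfsg.Agent.Lib.Helper1.HHCoreB
  Cfsg.Agent.Lib.Helper1.HHJordan

theorem natDegree_aux (F : Type*) [Field F] (r : ℕ) :
    ((Polynomial.X - 1 : Polynomial F) ^ r).natDegree = r := by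
  rw [Polynomial.natDegree_pow, ← Polynomial.C_1, Polynomial.natDegree_X_sub_C, mul_one]

/-- Theorem B of Hall and Higman on the minimal polynomial of a p-element of order p^n in a p-solvable linear group on a nonzero vector space in characteristic p with no nontrivial normal p-subgroup: its degree is p^n, except when some p^n₀ - 1 (n₀ ≤ n) is a power of a prime q for which the Sylow q-subgroups are non-abelian, in which case the degree is at least p^(n-n₀)(p^n₀ - 1). -/
theorem result {F : Type*} [Field F] {p : ℕ} [Fact p.Prime] [CharP F p] {V : Type*} [AddCommGroup V] [Module F V] [FiniteDimensional F V] [Nontrivial V] (H : Subgroup (V ≃ₗ[F] V)) [Finite H] (hsol : Cfsg.IsPSolvable p H) (hOp : Cfsg.pCore p H = ⊥) (x : V ≃ₗ[F] V) (hx : x ∈ H) (n : ℕ) (hn : orderOf x = p ^ n) (r : ℕ) (hr : minpoly F (x : Module.End F V) = (Polynomial.X - 1) ^ r) : r = p ^ n ∨ ∃ n₀ q m : ℕ, 1 ≤ n₀ ∧ n₀ ≤ n ∧ q.Prime ∧ 1 ≤ m ∧ p ^ n₀ - 1 = q ^ m ∧ (∀ Q : Sylow q H,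 ¬ IsMulCommutative Q) ∧ p ^ (n - n₀) * (p ^ n₀ - 1) ≤ r := by
  classical
  have hp := (Fact.out : p.Prime)
  have hxP : x ^ (p ^ n) = 1 := by rw [← hn]; exact pow_orderOf_eq_one x
  rcases Nat.eq_zero_or_pos n with hn0 | hn1
  · -- trivial case
    left
    subst hn0
    rw [pow_zero] at hn ⊢
    have hx1 : x = 1 := orderOf_eq_one_iff.mp hn
    subst hx1
    have h1 : minpoly F ((1 : V ≃ₗ[F] V) : Module.End F V) = Polynomial.X - 1 :=
      minpoly.one F (Module.End F V)
    rw [h1] at hr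
    have h2 := congrArg Polynomial.natDegree hr
    rw [natDegree_aux F r] at h2
    have h3 := natDegree_aux F 1
    rw [pow_one] at h3
    omega
  -- (x-1)^r = 0
  have hr0 : (toE x - 1) ^ r = 0 := by
    have h := minpoly.aeval F (x : Module.End F V)
    rw [hr] at h
    simpa using h
  -- r ≤ p^n
  have hrle : r ≤ p ^ n := by
    have h1 : (toE x - 1) ^ (p ^ n) = 0 := by
      rw [frob_alg F p (toE x) n, ← map_pow, hxP, map_one, sub_self]
    have h2 : minpoly F (x : Module.End F V) ∣ (Polynomial.X - 1) ^ (p ^ n) := by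
      apply minpoly.dvd
      simpa using h1
    rw [hr] at h2
    have h3 := Polynomial.natDegree_le_of_dvd h2
      (pow_ne_zero _ (by rw [← Polynomial.C_1]; exact Polynomial.X_sub_C_ne_zero 1))
    rwa [natDegree_aux, natDegree_aux] at h3
  -- group theory inside `H`
  let xH : H := ⟨x, hx⟩
  have hxHo : orderOf xH = p ^ n := by
    rw [← hn]
    exact Subgroup.orderOf_mk x hx
  have hxHP : xH ^ (p ^ n) = 1 := by rw [← hxHo]; exact pow_orderOf_eq_one xH
  let yH : H := xH ^ (p ^ (n - 1))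
  have hyo : orderOf yH = p := by
    have h1 : orderOf (xH ^ (p ^ (n - 1))) = orderOf xH / p ^ (n - 1) :=
      orderOf_pow_of_dvd (pow_ne_zero _ hp.ne_zero) (by rw [hxHo]; exact pow_dvd_pow p (Nat.sub_le n 1))
    rw [hxHo, Nat.pow_div (Nat.sub_le n 1) hp.pos] at h1
    have h2 : n - (n - 1) = 1 := by omega
    rw [h2, pow_one] at h1
    exact h1
  have hNn : (pPrimeCore p H).Normal := (Cfsg.Agent.Lib.Helper76.PSolv.pPrimeCore_mem p).1
  have hNc : (Nat.card (pPrimeCore p H)).Coprime p :=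
    Cfsg.Agent.Lib.Helper76.PSolv.pPrimeCore_coprime p
  have hyN : ∃ g ∈ pPrimeCore p H, yH * g * yH⁻¹ ≠ g := by
    by_contra hall
    push Not at hall
    have hycen : yH ∈ Subgroup.centralizer (pPrimeCore p H : Set H) := by
      rw [Subgroup.mem_centralizer_iff]
      intro g hg
      have := hall g hg
      calc g * yH = (yH * g * yH⁻¹) * yH := by rw [this]
        _ = yH * g := by group
    have hyN := Cfsg.Agent.Lib.Helper74.DualHH.centralizer_pPrimeCore_le p hsol hOp hycen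
    have h1 : orderOf yH ∣ Nat.card (pPrimeCore p H) := Subgroup.orderOf_dvd_natCard _ hyN
    rw [hyo] at h1
    exact (Nat.Prime.coprime_iff_not_dvd hp).mp hNc.symm h1
  obtain ⟨q, hq, hqp, S, hS, hSx, g₀, hg₀, hg₀y⟩ :=
    exists_inv_qsub p (pPrimeCore p H) hNc xH yH n hxHP hyN
  have : Fact q.Prime := ⟨hq⟩
  -- linear side
  let φ : H →* (TensorProduct F (AlgebraicClosure F) V ≃ₗ[AlgebraicClosure F]
      TensorProduct F (AlgebraicClosure F) V) := (bc F (AlgebraicClosure F) V).comp H.subtype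
  have hφinj : Function.Injective φ :=
    (bc_injective F (AlgebraicClosure F) V).comp H.subtype_injective
  have hfinQ : Finite (S.map φ) := by
    apply Finite.of_surjective (fun s : S => (⟨φ s, Subgroup.mem_map_of_mem φ s.2⟩ : S.map φ))
    rintro ⟨g, hg⟩
    obtain ⟨s, hs, rfl⟩ := Subgroup.mem_map.mp hg
    exact ⟨⟨s, hs⟩, rfl⟩
  have hQ : IsPGroup q (S.map φ) := hS.map φ
  have hinv : ∀ g ∈ S.map φ, φ xH * g * (φ xH)⁻¹ ∈ S.map φ := by
    rintro _ ⟨s, hs, rfl⟩
    rw [← map_inv, ← map_mul, ← map_mul]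
    exact Subgroup.mem_map_of_mem φ (hSx s hs)
  have hpow : (φ xH) ^ (p ^ n) = 1 := by rw [← map_pow, hxHP, map_one]
  have hnc : ∃ g ∈ S.map φ, (φ xH) ^ (p ^ (n - 1)) * g * ((φ xH) ^ (p ^ (n - 1)))⁻¹ ≠ g := by
    refine ⟨φ g₀, Subgroup.mem_map_of_mem φ hg₀, ?_⟩
    rw [← map_pow, ← map_inv, ← map_mul, ← map_mul]
    exact fun h => hg₀y (hφinj h)
  have hnil : (toE (φ xH) - 1) ^ r = 0 := bc_sub_one_pow F (AlgebraicClosure F) V x r hr0
  have hcore := core p q hqp.symm (K := AlgebraicClosure F) _ _ rfl (S.map φ) hQ (φ xH) hinv n hn1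
    hpow hnc r hnil
  rcases hcore with h | ⟨⟨g, hg, h, hh, hne⟩, n₀, m, h1, h2, h3, h4, h5⟩
  · left
    exact le_antisymm hrle h
  · right
    refine ⟨n₀, q, m, h1, h2, hq, h3, h4, ?_, h5⟩
    intro T hT
    obtain ⟨s, hs, rfl⟩ := hg
    obtain ⟨t, ht, rfl⟩ := hh
    apply hne
    rw [← map_mul, ← map_mul,
      Cfsg.Agent.Lib.Helper11.QuadSylow.comm_of_sylow_comm T hT S hS s t hs ht]

end Cfsg.Agent.S0633
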