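-- Statement S0800: element orders in SL_2(q) prime to the characteristic.
import Mathlib
import Cfsg.Statements.S0800

set_option autoImplicit false
open Cfsg

namespace Cfsg.Agent.S0800

open Matrix

section aux

variable {F : Type*} [Field F]

theorem ch2 (M : Matrix (Fin 2) (Fin 2) F) (hdet : M.det = 1) :
    M * M = (M 0 0 + M 1 1) • M - 1 := by
  rw [Matrix.det_fin_two] at hdet
  ext i j
  fin_cases i <;> fin_cases j <;>
    simp [Matrix.mul_apply, Fin.sum_univ_two] <;>
    first | ring1 | linear_combination (-1 : F) * hdet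

theorem pow_span (M : Matrix (Fin 2) (Fin 2) F) (τ : F) (hM : M * M = τ • M - 1) (k : ℕ) :
    ∃ a b : F, M ^ k = a • M + b • (1 : Matrix (Fin 2) (Fin 2) F) := by
  induction k with
  | zero => exact ⟨0, 1, by simp⟩
  | succ k ih =>
    obtain ⟨a, b, h⟩ := ih
    refine ⟨a * τ + b, -a, ?_⟩
    rw [pow_succ, h, add_mul, smul_mul_assoc, hM, smul_mul_assoc, one_mul]
    module

theorem frob (p : ℕ) [Fact p.Prime] [CharP F p] [Fintype F] (M : Matrix (Fin 2) (Fin 2) F) (τ : F)
    (hM : M * M = τ • M - 1) :
    M ^ (Fintype.card F) * M ^ (Fintype.card F) = τ • M ^ (Fintype.card F) - 1 := by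
  obtain ⟨n, -, hq⟩ := FiniteField.card F p
  have h1 : (M * M) ^ (Fintype.card F) = M ^ (Fintype.card F) * M ^ (Fintype.card F) :=
    (Commute.refl M).mul_pow _
  rw [← h1, hM]
  have hc : Commute (τ • M) (1 : Matrix (Fin 2) (Fin 2) F) := Commute.one_right _
  have h2 : (τ • M - 1) ^ (p ^ (n : ℕ)) = (τ • M) ^ (p ^ (n : ℕ)) - 1 ^ (p ^ (n : ℕ)) :=
    sub_pow_char_pow_of_commute p (n : ℕ) hc
  rw [hq, h2, one_pow, smul_pow, ← hq, FiniteField.pow_card]

end aux

/-- Tori of SL_2(q): if g ∈ SL_2(q) has order coprime to the characteristic p, then the order of g divides q − 1 or q + 1. -/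
theorem result {F : Type*} [Field F] [Fintype F] {q : ℕ} (hF : Fintype.card F = q) (p : ℕ) [Fact p.Prime] [CharP F p] (g : Matrix.SpecialLinearGroup (Fin 2) F) (hg : Nat.Coprime (orderOf g) p) : orderOf g ∣ q - 1 ∨ orderOf g ∣ q + 1 := by
  subst hF
  obtain ⟨n, -, hqp⟩ := FiniteField.card F p
  have hM := ch2 (g : Matrix (Fin 2) (Fin 2) F) g.2
  generalize hMdef : (g : Matrix (Fin 2) (Fin 2) F) = M at hM
  generalize hτ : M 0 0 + M 1 1 = τ at hM
  have hXX := frob p M τ hM
  have hpow : ∀ k : ℕ, M ^ k = 1 → g ^ k = 1 := by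
    intro k hk
    apply Subtype.ext
    have := Matrix.SpecialLinearGroup.coe_pow g k
    rw [hMdef] at this
    rw [this, hk]
    rfl
  have hq1 : 1 ≤ Fintype.card F := Fintype.card_pos
  have h2q : 2 ≤ Fintype.card F := by
    rw [hqp]
    exact le_trans (Fact.out : p.Prime).two_le (Nat.le_self_pow n.ne_zero p)
  by_cases hsc : ∃ b : F, M ^ (Fintype.card F) = b • (1 : Matrix (Fin 2) (Fin 2) F)
  · -- X scalar
    obtain ⟨b, hb⟩ := hsc
    have hb2 : b * b = τ * b - 1 := by
      have := congrFun (congrFun hXX 0) 0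
      rw [hb] at this
      simpa using this
    have hb0 : b ≠ 0 := by
      rintro rfl
      simp at hb2
    have h1 : M ^ (Fintype.card F * (Fintype.card F - 1)) = 1 := by
      rw [pow_mul, hb, smul_pow, one_pow, FiniteField.pow_card_sub_one_eq_one b hb0, one_smul]
    have hdvd : orderOf g ∣ Fintype.card F * (Fintype.card F - 1) :=
      orderOf_dvd_of_pow_eq_one (hpow _ h1)
    left
    have hcop : Nat.Coprime (orderOf g) (Fintype.card F) := by
      rw [hqp]; exact Nat.Coprime.pow_right _ hg
    exact hcop.dvd_of_dvd_mul_left hdvd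
  · -- X not scalar
    obtain ⟨a, b, hab⟩ := pow_span M τ hM (Fintype.card F)
    have ha0 : a ≠ 0 := by
      rintro rfl
      exact hsc ⟨b, by rw [hab]; simp⟩
    have hMns : ¬ ∃ c : F, M = c • (1 : Matrix (Fin 2) (Fin 2) F) := by
      rintro ⟨c, hc⟩
      exact hsc ⟨a * c + b, by rw [hab, hc]; module⟩
    have hind : ∀ a₁ b₁ a₂ b₂ : F,
        a₁ • M + b₁ • (1 : Matrix (Fin 2) (Fin 2) F) = a₂ • M + b₂ • 1 → a₁ = a₂ ∧ b₁ = b₂ := by
      intro a₁ b₁ a₂ b₂ h
      have ha : a₁ = a₂ := by
        by_contra hne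
        apply hMns
        refine ⟨(a₁ - a₂)⁻¹ * (b₂ - b₁), ?_⟩
        have hne' : a₁ - a₂ ≠ 0 := sub_ne_zero.mpr hne
        have h' : (a₁ - a₂) • M = (b₂ - b₁) • (1 : Matrix (Fin 2) (Fin 2) F) := by
          calc (a₁ - a₂) • M = (a₁ • M + b₁ • 1) - a₂ • M - b₁ • 1 := by module
            _ = (a₂ • M + b₂ • 1) - a₂ • M - b₁ • 1 := by rw [h]
            _ = (b₂ - b₁) • 1 := by module
        calc M = (a₁ - a₂)⁻¹ • ((a₁ - a₂) • M) := by
              rw [smul_smul, inv_mul_cancel₀ hne', one_smul]
          _ = ((a₁ - a₂)⁻¹ * (b₂ - b₁)) • 1 := by rw [h', smul_smul]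
      subst ha
      refine ⟨rfl, ?_⟩
      have := congrFun (congrFun h 0) 0
      simpa using this
    have e1 : M ^ (Fintype.card F) * M ^ (Fintype.card F)
        = (a * a * τ + 2 * a * b) • M + (b * b - a * a) • (1 : Matrix (Fin 2) (Fin 2) F) := by
      rw [hab]
      have : (a • M + b • (1 : Matrix (Fin 2) (Fin 2) F)) * (a • M + b • 1)
          = (a * a) • (M * M) + (2 * a * b) • M + (b * b) • 1 := by
        simp only [add_mul, mul_add, smul_mul_assoc, mul_smul_comm, mul_one, one_mul]
        module
      rw [this, hM]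
      module
    have e2 : M ^ (Fintype.card F) * M ^ (Fintype.card F)
        = (τ * a) • M + (τ * b - 1) • (1 : Matrix (Fin 2) (Fin 2) F) := by
      rw [hXX, hab]
      module
    obtain ⟨E1, E2⟩ := hind _ _ _ _ (e1.symm.trans e2)
    have hgq_of : M ^ (Fintype.card F) = M → orderOf g ∣ Fintype.card F - 1 := by
      intro hXM
      have h0 : g ^ (Fintype.card F) = g := by
        apply Subtype.ext
        have := Matrix.SpecialLinearGroup.coe_pow g (Fintype.card F)
        rw [hMdef] at this
        rw [this, hXM, ← hMdef]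
      have h2 : g ^ (Fintype.card F - 1) = 1 := by
        have h3 : g ^ (Fintype.card F - 1) * g = 1 * g := by
          rw [← pow_succ, Nat.sub_add_cancel hq1, h0, one_mul]
        exact mul_right_cancel h3
      exact orderOf_dvd_of_pow_eq_one h2
    have hgq_inv : M ^ (Fintype.card F) * M = 1 → orderOf g ∣ Fintype.card F + 1 := by
      intro h
      exact orderOf_dvd_of_pow_eq_one (hpow _ (by rw [pow_succ]; exact h))
    have hnil : ∀ ε : F, (M - ε • (1 : Matrix (Fin 2) (Fin 2) F)) * (M - ε • 1) = 0 → False := by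
      intro ε hN
      apply hsc
      refine ⟨ε, ?_⟩
      have hMe : M = ε • (1 : Matrix (Fin 2) (Fin 2) F) + (M - ε • 1) := by abel
      have hc : Commute (ε • (1 : Matrix (Fin 2) (Fin 2) F)) (M - ε • 1) :=
        (Commute.one_left _).smul_left ε
      have h3 : (ε • (1 : Matrix (Fin 2) (Fin 2) F) + (M - ε • 1)) ^ (p ^ (n : ℕ))
          = (ε • (1 : Matrix (Fin 2) (Fin 2) F)) ^ (p ^ (n : ℕ)) + (M - ε • 1) ^ (p ^ (n : ℕ)) :=
        add_pow_char_pow_of_commute p (n : ℕ) hc
      have h4 : (M - ε • (1 : Matrix (Fin 2) (Fin 2) F)) ^ (Fintype.card F) = 0 := by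
        obtain ⟨k, hk⟩ := Nat.exists_eq_add_of_le h2q
        rw [hk, pow_add, pow_two, hN, zero_mul]
      rw [← hqp] at h3
      rw [← hMe] at h3
      rw [h3, h4, add_zero, smul_pow, one_pow, FiniteField.pow_card]
    by_cases h2 : (2 : F) = 0
    · -- characteristic 2
      have E1' : τ * (a - 1) = 0 := by
        have h3 : a * (τ * (a - 1)) = 0 := by linear_combination E1 - a * b * h2
        exact (mul_eq_zero.mp h3).resolve_left ha0
      rcases mul_eq_zero.mp E1' with hτ0 | ha1
      · exfalso
        apply hnil 1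
        have : (M - (1 : F) • (1 : Matrix (Fin 2) (Fin 2) F)) * (M - (1 : F) • 1)
            = M * M - (2 : F) • M + 1 := by
          simp only [one_smul, sub_mul, mul_sub, mul_one, one_mul]
          module
        rw [this, hM, hτ0, h2]
        simp
      · have ha1' : a = 1 := sub_eq_zero.mp ha1
        subst ha1'
        have hb : b * (b - τ) = 0 := by linear_combination E2
        rcases mul_eq_zero.mp hb with hb0 | hbτ
        · left; apply hgq_of; rw [hab, hb0]; simp
        · right; apply hgq_inv
          have hbτ' : b = τ := sub_eq_zero.mp hbτ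
          rw [hab, hbτ', add_mul, one_smul, hM, smul_mul_assoc, one_mul]
          have : τ • M - 1 + τ • M
              = 1 + ((2 * τ) • M - (2 : F) • (1 : Matrix (Fin 2) (Fin 2) F)) := by module
          rw [this, h2]
          simp
    · -- odd characteristic
      have hb : 2 * b = τ * (1 - a) := by
        have h3 : a * (a * τ + 2 * b - τ) = 0 := by linear_combination E1
        have h4 := (mul_eq_zero.mp h3).resolve_left ha0
        linear_combination h4
      have h5 : (1 - a) * (1 + a) * (4 - τ * τ) = 0 := by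
        linear_combination 4 * E2 - (τ * (1 - a) + 2 * b) * hb + 2 * τ * hb
      rcases mul_eq_zero.mp h5 with h6 | h7
      · rcases mul_eq_zero.mp h6 with h8 | h9
        · have ha1 : a = 1 := by linear_combination -h8
          have hb0 : b = 0 := by
            have : 2 * b = 0 := by rw [hb, ha1]; ring
            exact (mul_eq_zero.mp this).resolve_left h2
          left; apply hgq_of; rw [hab, ha1, hb0]; simp
        · have ha1 : a = -1 := by linear_combination h9
          have hbτ : b = τ := by
            have : 2 * (b - τ) = 0 := by rw [mul_sub, hb, ha1]; ring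
            exact sub_eq_zero.mp ((mul_eq_zero.mp this).resolve_left h2)
          right; apply hgq_inv
          rw [hab, ha1, hbτ, add_mul, smul_mul_assoc, smul_mul_assoc, one_mul, hM]
          module
      · exfalso
        have hε : τ = 2 * (τ / 2) := (mul_div_cancel₀ τ h2).symm
        generalize τ / 2 = ε at hε
        have h4 : (4 : F) ≠ 0 := by
          have : (4 : F) = 2 * 2 := by norm_num
          rw [this]; exact mul_ne_zero h2 h2
        have hε2 : ε * ε = 1 := by
          have : 4 * (ε * ε - 1) = 0 := by rw [hε] at h7; linear_combination -h7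
          exact sub_eq_zero.mp ((mul_eq_zero.mp this).resolve_left h4)
        apply hnil ε
        have : (M - ε • (1 : Matrix (Fin 2) (Fin 2) F)) * (M - ε • 1)
            = M * M - (2 * ε) • M + (ε * ε) • 1 := by
          simp only [sub_mul, mul_sub, smul_mul_assoc, mul_smul_comm, mul_one, one_mul, smul_sub,
            smul_smul]
          module
        rw [this, hM, ← hε, hε2]
        module

end Cfsg.Agent.S0800
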