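import Cfsg.Statements.S0261
import Cfsg.Agent.Lib.Helper35.SL2
import Cfsg.Agent.Lib.Helper54.Quaternion
import Cfsg.Agent.Lib.Helper38.SLCard
import Cfsg.Agent.S0800

set_option autoImplicit false
set_option linter.style.haveILetI false
open Cfsg

namespace Cfsg.Agent.S0261

/-- For q odd, the Sylow 2-subgroups of SL_2(q) are generalised quaternion. -/
theorem result {F : Type*} [Field F] [Fintype F] (hF : Odd (Fintype.card F)) (P : Sylow 2 (Matrix.SpecialLinearGroup (Fin 2) F)) : ∃ k : ℕ, 1 ≤ k ∧ Nonempty ((P : Subgroup (Matrix.SpecialLinearGroup (Fin 2) F)) ≃* QuaternionGroup (2 ^ k)) := by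
  classical
  obtain ⟨p, hchar⟩ := CharP.exists F
  haveI : CharP F p := hchar
  obtain ⟨n, hp, hq⟩ := FiniteField.card F p
  haveI : Fact p.Prime := ⟨hp⟩
  haveI : Fact (Nat.Prime 2) := ⟨Nat.prime_two⟩
  have hp2 : p ≠ 2 := by
    rintro rfl
    rw [hq] at hF
    exact (Nat.not_even_iff_odd.mpr hF) ((Nat.even_pow' n.pos.ne').mpr (by decide))
  have h2F : (2 : F) ≠ 0 := by
    intro h
    have h1 : ((2 : ℕ) : F) = 0 := by exact_mod_cast h
    have h2 := (CharP.cast_eq_zero_iff F p 2).mp h1
    exact hp2 ((Nat.prime_dvd_prime_iff_eq hp Nat.prime_two).mp h2)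
  -- unique involution
  have hinv : ∀ g : Matrix.SpecialLinearGroup (Fin 2) F, g ^ 2 = 1 → g = 1 ∨ g = -1 := by
    intro g hg
    have h1 : (g : Matrix (Fin 2) (Fin 2) F) * (g : Matrix (Fin 2) (Fin 2) F) = 1 := by
      have := congrArg (fun M : Matrix.SpecialLinearGroup (Fin 2) F => (M : Matrix (Fin 2) (Fin 2) F)) hg
      simpa [pow_two] using this
    rcases Cfsg.Agent.Lib.Helper35.SL2.eq_one_or_neg_one_of_sq _ g.2 h2F h1 with h | h
    · left
      exact Subtype.ext h
    · right
      apply Subtype.ext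
      rw [h]
      simp
  have hUI : Cfsg.Agent.Lib.Helper54.UniqueSubgroup.UI 2 (Matrix.SpecialLinearGroup (Fin 2) F) := by
    intro g h hg hh hg1
    rcases hinv g hg with hg' | hg'
    · exact absurd hg' hg1
    · rcases hinv h hh with hh' | hh'
      · rw [hh']; exact one_mem _
      · rw [hh', ← hg']; exact Subgroup.mem_zpowers g
  have hUIP := hUI.subgroup (P : Subgroup (Matrix.SpecialLinearGroup (Fin 2) F))
  -- P is not cyclic
  have hncyc : ¬ IsCyclic (P : Subgroup (Matrix.SpecialLinearGroup (Fin 2) F)) := by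
    intro hc
    obtain ⟨x, hx⟩ := IsCyclic.exists_ofOrder_eq_natCard (α := (P : Subgroup (Matrix.SpecialLinearGroup (Fin 2) F)))
    have hcardP := P.card_eq_multiplicity
    rw [Cfsg.Agent.Lib.Helper38.SLCard.card_SL2] at hcardP
    set q := Fintype.card F with hqdef
    have hx' : orderOf (x : Matrix.SpecialLinearGroup (Fin 2) F) = 2 ^ (q * (q ^ 2 - 1)).factorization 2 := by
      rw [Subgroup.orderOf_coe, hx, hcardP]
    have hq1 : 1 < q := Fintype.one_lt_card
    have hcop : Nat.Coprime (orderOf (x : Matrix.SpecialLinearGroup (Fin 2) F)) p := by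
      rw [hx']
      apply Nat.Coprime.pow_left
      rw [Nat.coprime_primes Nat.prime_two hp]
      exact fun h => hp2 h.symm
    have hm0 : q * (q ^ 2 - 1) ≠ 0 := by
      have : 1 < q ^ 2 := Nat.one_lt_pow (by norm_num) hq1
      have h3 : 0 < q ^ 2 - 1 := by omega
      positivity
    have hnd := Nat.pow_succ_factorization_not_dvd hm0 Nat.prime_two
    have hfac : q * (q ^ 2 - 1) = q * ((q - 1) * (q + 1)) := by
      congr 1
      have h1 : 1 ≤ q := by omega
      have h2 : 1 ≤ q ^ 2 := Nat.one_le_pow _ _ (by omega)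
      zify [h1, h2]
      ring
    obtain ⟨t, ht⟩ := hF
    have he1 : 2 ∣ q - 1 := ⟨t, by omega⟩
    have he2 : 2 ∣ q + 1 := ⟨t + 1, by omega⟩
    generalize (q * (q ^ 2 - 1)).factorization 2 = a at hnd hx'
    apply hnd
    rw [hfac, pow_succ]
    rcases Cfsg.Agent.S0800.result (q := q) rfl p (x : Matrix.SpecialLinearGroup (Fin 2) F) hcop with h | h
    · rw [hx'] at h
      exact Dvd.dvd.mul_left (Nat.mul_dvd_mul h he2) q
    · rw [hx'] at h
      have := Nat.mul_dvd_mul h he1
      rw [mul_comm (q + 1) (q - 1)] at this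
      exact Dvd.dvd.mul_left this q
  rcases Cfsg.Agent.Lib.Helper54.Quaternion.isCyclic_or_quaternion P.isPGroup' hUIP with h | ⟨k, ⟨e⟩⟩
  · exact absurd h hncyc
  · refine ⟨k, ?_, ⟨e⟩⟩
    by_contra hk
    have hk0 : k = 0 := by omega
    subst hk0
    haveI := QuaternionGroup.quaternionGroup_one_isCyclic
    exact hncyc ((MulEquiv.isCyclic e).mpr (by simpa using this))

end Cfsg.Agent.S0261
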