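import Cfsg.Statements.S0046
import Mathlib
-- import your own Cfsg.Agent.* helpers here

set_option autoImplicit false
open Cfsg

namespace Cfsg.Agent.S0046

/-- The preimage of a maximal subgroup of a quotient is maximal. -/
theorem comap_isCoatom {G : Type*} [Group G] (N : Subgroup G) [N.Normal]
    (Mbar : Subgroup (G ⧸ N)) (h : IsCoatom Mbar) :
    IsCoatom (Mbar.comap (QuotientGroup.mk' N)) := by
  have hsurj : Function.Surjective (QuotientGroup.mk' N) := QuotientGroup.mk'_surjective N
  refine ⟨?_, ?_⟩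
  · intro htop
    apply h.1
    rw [← Subgroup.map_comap_eq_self_of_surjective hsurj Mbar, htop]
    exact Subgroup.map_top_of_surjective _ hsurj
  · intro K hK
    have hNK : N ≤ K := by
      refine le_trans ?_ hK.le
      intro x hx
      rw [Subgroup.mem_comap]
      have : (QuotientGroup.mk' N) x = 1 := by
        rw [QuotientGroup.mk'_apply, QuotientGroup.eq_one_iff]; exact hx
      rw [this]; exact Mbar.one_mem
    have h1 : Mbar ≤ K.map (QuotientGroup.mk' N) := by
      rw [← Subgroup.map_comap_eq_self_of_surjective hsurj Mbar]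
      exact Subgroup.map_mono hK.le
    have h2 : Mbar ≠ K.map (QuotientGroup.mk' N) := by
      intro heq
      have h3 : K ≤ Mbar.comap (QuotientGroup.mk' N) := by
        rw [heq]; exact Subgroup.le_comap_map _ _
      exact not_le_of_gt hK h3
    have h4 : K.map (QuotientGroup.mk' N) = ⊤ := h.2 _ (lt_of_le_of_ne h1 h2)
    have h5 : (K.map (QuotientGroup.mk' N)).comap (QuotientGroup.mk' N) = K := by
      rw [QuotientGroup.comap_map_mk', sup_eq_right.mpr hNK]
    rw [← h5, h4, Subgroup.comap_top]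

/-- Normalizers grow in nilpotent groups. -/
theorem grow {G : Type*} [Group G] (M I : Subgroup G) (hnil : Group.IsNilpotent M)
    (hIM : I ≤ M) (hne : I ≠ M) :
    ∃ x ∈ M, x ∈ Subgroup.normalizer (I : Set G) ∧ x ∉ I := by
  have hlt : I.subgroupOf M < ⊤ := by
    rw [lt_top_iff_ne_top]
    intro h
    exact hne (le_antisymm hIM (Subgroup.subgroupOf_eq_top.mp h))
  have hlt2 := Group.normalizerCondition_of_isNilpotent (G := M) _ hlt
  rw [← Subgroup.subgroupOf_normalizer_eq hIM] at hlt2
  obtain ⟨x, hx1, hx2⟩ := SetLike.exists_of_lt hlt2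
  exact ⟨x, x.2, hx1, hx2⟩

theorem mem_conj {G : Type*} [Group G] (M : Subgroup G) (g x : G) :
    x ∈ M.map (MulAut.conj g).toMonoidHom ↔ g⁻¹ * x * g ∈ M := by
  rw [Subgroup.mem_map_equiv]
  simp

theorem conj_isCoatom {G : Type*} [Group G] (M : Subgroup G) (g : G) (h : IsCoatom M) :
    IsCoatom (M.map (MulAut.conj g).toMonoidHom) :=
  ((MulAut.conj g).mapSubgroup.isCoatom_iff (a := M)).2 h

open Classical in
/-- The non-identity elements lying in some conjugate of `M`. -/
noncomputable def conjUnion {G : Type*} [Group G] [Fintype G] (M : Subgroup G) : Finset G :=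
  Finset.univ.filter (fun x => x ≠ 1 ∧ ∃ g : G, g⁻¹ * x * g ∈ M)

/-- A nontrivial subgroup `M` with `M ∩ gMg⁻¹ = 1` for `g ∉ M`: its conjugates cover at least
half of the group. -/
theorem count {G : Type*} [Group G] [Fintype G] (M : Subgroup G)
    (hTI : ∀ g : G, (∃ m ∈ M, m ≠ 1 ∧ g * m * g⁻¹ ∈ M) → g ∈ M) (hM : M ≠ ⊥) :
    Fintype.card G ≤ 2 * (conjUnion M).card := by
  classical
  set a := Nat.card M with ha
  have ha2 : 2 ≤ a := by
    have h4 : Nat.card M ≠ 1 := fun h => hM (Subgroup.card_eq_one.mp h)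
    have h5 : 0 < Nat.card M := Nat.card_pos
    omega
  set Mset : Finset G := Finset.univ.filter (fun m => m ∈ M) with hMset
  have hMsetcard : Mset.card = a := by
    rw [ha, Nat.card_eq_fintype_card, Fintype.card_subtype]
  set Mset' : Finset G := Mset.erase 1 with hMset'
  have hcard' : Mset'.card = a - 1 := by
    rw [Finset.card_erase_of_mem (by simp [hMset, M.one_mem]), hMsetcard]
  set s : Finset (G × G) := Finset.univ ×ˢ Mset' with hs
  set f : G × G → G := fun x => x.1 * x.2 * x.1⁻¹ with hf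
  have hmem : ∀ x : G × G, x ∈ s ↔ x.2 ≠ 1 ∧ x.2 ∈ M := by
    intro x
    simp [hs, hMset', hMset]
  have himg : s.image f ⊆ conjUnion M := by
    intro y hy
    rw [Finset.mem_image] at hy
    obtain ⟨⟨g, m⟩, hgm, rfl⟩ := hy
    rw [hmem] at hgm
    simp only [conjUnion, Finset.mem_filter, Finset.mem_univ, true_and]
    refine ⟨?_, g, ?_⟩
    · intro h1
      apply hgm.1
      have h2 : m = g⁻¹ * (g * m * g⁻¹) * g := by group
      have h1' : g * m * g⁻¹ = 1 := h1
      rw [h2, h1']; group
    · have h2 : g⁻¹ * (g * m * g⁻¹) * g = m := by group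
      rw [h2]; exact hgm.2
  have hfiber : ∀ y ∈ s.image f, (s.filter (fun x => f x = y)).card ≤ a := by
    intro y hy
    rw [Finset.mem_image] at hy
    obtain ⟨⟨g₀, m₀⟩, hgm₀, rfl⟩ := hy
    rw [hmem] at hgm₀
    rw [← hMsetcard]
    apply Finset.card_le_card_of_injOn (fun x => g₀⁻¹ * x.1)
    · intro x hx
      rw [Finset.mem_coe, Finset.mem_filter, hmem] at hx
      obtain ⟨hxs, hxf⟩ := hx
      rw [Finset.mem_coe, hMset, Finset.mem_filter]
      refine ⟨Finset.mem_univ _, ?_⟩
      apply hTI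
      refine ⟨x.2, hxs.2, hxs.1, ?_⟩
      have h1 : g₀⁻¹ * x.1 * x.2 * (g₀⁻¹ * x.1)⁻¹ = g₀⁻¹ * (x.1 * x.2 * x.1⁻¹) * g₀ := by group
      have hxf' : x.1 * x.2 * x.1⁻¹ = g₀ * m₀ * g₀⁻¹ := hxf
      have h2 : g₀⁻¹ * (g₀ * m₀ * g₀⁻¹) * g₀ = m₀ := by group
      rw [h1, hxf', h2]; exact hgm₀.2
    · intro x hx x' hx' heq
      rw [Finset.mem_coe, Finset.mem_filter] at hx hx'
      have h1 : x.1 = x'.1 := mul_left_cancel heq
      have h2 : x.1 * x.2 * x.1⁻¹ = x'.1 * x'.2 * x'.1⁻¹ := hx.2.trans hx'.2.symm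
      rw [← h1] at h2
      have h3 : x.2 = x'.2 := mul_left_cancel (mul_right_cancel h2)
      exact Prod.ext h1 h3
  have h1 := Finset.card_le_mul_card_image s a hfiber
  have h2 : s.card = Fintype.card G * (a - 1) := by
    rw [hs, Finset.card_product, Finset.card_univ, hcard']
  have h3 : (s.image f).card ≤ (conjUnion M).card := Finset.card_le_card himg
  have h4 : Fintype.card G * (a - 1) ≤ a * (conjUnion M).card := by
    rw [← h2]; exact h1.trans (Nat.mul_le_mul_left a h3)
  obtain ⟨b, hb⟩ : ∃ b, a = b + 2 := ⟨a - 2, by omega⟩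
  rw [hb] at h4
  have h5 : b + 2 - 1 = b + 1 := by omega
  rw [h5] at h4
  by_contra hcon
  push Not at hcon
  nlinarith

theorem main.{u} : ∀ (n : ℕ) (G : Type u) [Group G] [Finite G], Nat.card G = n →
    (∀ M : Subgroup G, IsCoatom M → Group.IsNilpotent M) → Group.IsSolvable G := by
  intro n
  induction n using Nat.strong_induction_on with
  | _ n ih =>
  intro G _ _ hcard h
  by_contra hns
  -- Step 1: no proper nontrivial normal subgroups
  have hsimple : ∀ N : Subgroup G, N.Normal → N = ⊥ ∨ N = ⊤ := by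
    intro N hN
    by_contra hcon
    push Not at hcon
    obtain ⟨hNbot, hNtop⟩ := hcon
    apply hns
    obtain ⟨M, hM, hNM⟩ := (eq_top_or_exists_le_coatom N).resolve_left hNtop
    have hMnil := h M hM
    have hNs : Group.IsSolvable N :=
      Group.isSolvable_of_isSolvable_injective (Subgroup.inclusion_injective hNM)
    have hlt : Nat.card (G ⧸ N) < n := by
      have h1 : Nat.card G = Nat.card (G ⧸ N) * Nat.card N :=
        Subgroup.card_eq_card_quotient_mul_card_subgroup N
      have h2 : 1 < Nat.card N := by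
        have h4 : Nat.card N ≠ 1 := fun h => hNbot (Subgroup.card_eq_one.mp h)
        have h5 : 0 < Nat.card N := Nat.card_pos
        omega
      have h3 : 0 < Nat.card (G ⧸ N) := Nat.card_pos
      rw [← hcard, h1]
      nlinarith
    have hq : Group.IsSolvable (G ⧸ N) := by
      apply ih _ hlt (G ⧸ N) rfl
      intro Mbar hMbar
      have hco := comap_isCoatom N Mbar hMbar
      have hnil := h _ hco
      have hsurj : Function.Surjective (QuotientGroup.mk' N) := QuotientGroup.mk'_surjective N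
      have heq : Mbar = (Mbar.comap (QuotientGroup.mk' N)).map (QuotientGroup.mk' N) :=
        (Subgroup.map_comap_eq_self_of_surjective hsurj Mbar).symm
      rw [heq]
      exact Group.nilpotent_of_surjective _
        (MonoidHom.subgroupMap_surjective (QuotientGroup.mk' N) _)
    exact (Group.isSolvable_iff_subgroup_quotient N).2 ⟨hNs, hq⟩
  -- Step 2: the trivial subgroup is not maximal
  have hbot : ¬ IsCoatom (⊥ : Subgroup G) := by
    intro hb
    apply hns
    apply Group.isSolvable_of_comm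
    intro x y
    by_cases hx : x = 1
    · rw [hx, one_mul, mul_one]
    · have hz : Subgroup.zpowers x = ⊤ :=
        hb.2 _ (bot_lt_iff_ne_bot.mpr (by rwa [Ne, Subgroup.zpowers_eq_bot]))
      have hy : y ∈ Subgroup.zpowers x := hz ▸ Subgroup.mem_top y
      obtain ⟨k, rfl⟩ := Subgroup.mem_zpowers_iff.mp hy
      exact (Commute.self_zpow x k).eq
  -- Step 3: distinct maximal subgroups intersect trivially
  have hA : ∀ M₁ M₂ : Subgroup G, IsCoatom M₁ → IsCoatom M₂ → M₁ ≠ M₂ → M₁ ⊓ M₂ = ⊥ := by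
    by_contra hcon
    push Not at hcon
    obtain ⟨A₁, A₂, hA₁, hA₂, hA12, hAinf⟩ := hcon
    have : Nonempty {x : Subgroup G × Subgroup G //
        IsCoatom x.1 ∧ IsCoatom x.2 ∧ x.1 ≠ x.2 ∧ x.1 ⊓ x.2 ≠ ⊥} :=
      ⟨⟨(A₁, A₂), hA₁, hA₂, hA12, hAinf⟩⟩
    obtain ⟨⟨⟨M₁, M₂⟩, hM₁, hM₂, hne, hinf⟩, hmax⟩ := Finite.exists_max
      (fun x : {x : Subgroup G × Subgroup G //
        IsCoatom x.1 ∧ IsCoatom x.2 ∧ x.1 ≠ x.2 ∧ x.1 ⊓ x.2 ≠ ⊥} =>
        Nat.card (x.1.1 ⊓ x.1.2 : Subgroup G))
    simp only at hM₁ hM₂ hne hinf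
    have hmax' : ∀ Q₁ Q₂ : Subgroup G, IsCoatom Q₁ → IsCoatom Q₂ → Q₁ ≠ Q₂ → Q₁ ⊓ Q₂ ≠ ⊥ →
        Nat.card (Q₁ ⊓ Q₂ : Subgroup G) ≤ Nat.card (M₁ ⊓ M₂ : Subgroup G) :=
      fun Q₁ Q₂ h1 h2 h3 h4 => hmax ⟨(Q₁, Q₂), h1, h2, h3, h4⟩
    set I : Subgroup G := M₁ ⊓ M₂ with hI
    have hI1 : I ≠ M₁ := by
      intro heq
      have hle : M₁ ≤ M₂ := heq ▸ inf_le_right
      exact hne (by
        by_contra hne'
        exact hM₂.1 (hM₁.2 _ (lt_of_le_of_ne hle hne')))
    have hI2 : I ≠ M₂ := by
      intro heq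
      have hle : M₂ ≤ M₁ := heq ▸ inf_le_left
      exact hne (by
        by_contra hne'
        exact hM₁.1 (hM₂.2 _ (lt_of_le_of_ne hle (Ne.symm hne'))))
    obtain ⟨x₁, hx₁M, hx₁N, hx₁I⟩ := grow M₁ I (h M₁ hM₁) inf_le_left hI1
    obtain ⟨x₂, hx₂M, hx₂N, hx₂I⟩ := grow M₂ I (h M₂ hM₂) inf_le_right hI2
    have hnotnormal : Subgroup.normalizer (I : Set G) ≠ ⊤ := by
      intro htop
      rw [Subgroup.normalizer_eq_top_iff] at htop
      rcases hsimple I htop with hb | ht
      · exact hinf hb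
      · exact hM₁.1 (top_le_iff.mp (ht ▸ inf_le_left))
    obtain ⟨M, hM, hNM⟩ := (eq_top_or_exists_le_coatom _).resolve_left hnotnormal
    have hIM : I ≤ M := Subgroup.le_normalizer.trans hNM
    have key : ∀ (M' : Subgroup G) (x : G), IsCoatom M' → I ≤ M' → x ∈ M' →
        x ∈ Subgroup.normalizer (I : Set G) → x ∉ I → M = M' := by
      intro M' x hM' hIM' hxM' hxN hxI
      by_contra hneq
      have h2 : I < M ⊓ M' := by
        refine lt_of_le_of_ne (le_inf hIM hIM') ?_
        intro heq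
        apply hxI
        rw [heq]
        exact ⟨hNM hxN, hxM'⟩
      have h3 : M ⊓ M' ≠ ⊥ := fun hb => hinf (le_bot_iff.mp (hb ▸ h2.le))
      have h1 := hmax' M M' hM hM' hneq h3
      exact h2.ne (Subgroup.eq_of_le_of_card_ge h2.le h1)
    exact hne ((key M₁ x₁ hM₁ inf_le_left hx₁M hx₁N hx₁I).symm.trans
      (key M₂ x₂ hM₂ inf_le_right hx₂M hx₂N hx₂I))
  -- Step 4: maximal subgroups are self-normalising with trivial intersections of conjugates
  have hTI : ∀ M : Subgroup G, IsCoatom M →
      ∀ g : G, (∃ m ∈ M, m ≠ 1 ∧ g * m * g⁻¹ ∈ M) → g ∈ M := by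
    intro M hM g ⟨m, hm, hm1, hgm⟩
    have hco := conj_isCoatom M g hM
    have heq : M = M.map (MulAut.conj g).toMonoidHom := by
      by_contra hne
      have hbotI := hA M _ hM hco hne
      have hmem : g * m * g⁻¹ ∈ M ⊓ M.map (MulAut.conj g).toMonoidHom := by
        refine Subgroup.mem_inf.mpr ⟨hgm, ?_⟩
        rw [mem_conj]
        have h3 : g⁻¹ * (g * m * g⁻¹) * g = m := by group
        rw [h3]; exact hm
      rw [hbotI, Subgroup.mem_bot] at hmem
      apply hm1
      have h2 : m = g⁻¹ * (g * m * g⁻¹) * g := by group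
      rw [h2, hmem]; group
    have hgN : g ∈ Subgroup.normalizer (M : Set G) := by
      rw [Subgroup.mem_normalizer_iff]
      intro x
      constructor
      · intro hx
        rw [heq, mem_conj]
        have h3 : g⁻¹ * (g * x * g⁻¹) * g = x := by group
        rw [h3]; exact hx
      · intro hx
        rw [heq, mem_conj] at hx
        have h3 : g⁻¹ * (g * x * g⁻¹) * g = x := by group
        rwa [h3] at hx
    have hMne : M ≠ ⊥ := fun hb => hbot (hb ▸ hM)
    have hnn : Subgroup.normalizer (M : Set G) ≠ ⊤ := by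
      intro htop
      rw [Subgroup.normalizer_eq_top_iff] at htop
      rcases hsimple M htop with hb | ht
      · exact hMne hb
      · exact hM.1 ht
    by_contra hgM
    have hlt : M < Subgroup.normalizer (M : Set G) :=
      lt_of_le_of_ne Subgroup.le_normalizer (fun heq' => hgM (heq' ▸ hgN))
    exact hnn (hM.2 _ hlt)
  -- Step 5: two non-conjugate maximal subgroups
  have hnt : (⊥ : Subgroup G) ≠ ⊤ := by
    intro hbt
    apply hns
    exact Group.isSolvable_of_top_eq_bot G hbt.symm
  obtain ⟨M, hM, -⟩ := (eq_top_or_exists_le_coatom (⊥ : Subgroup G)).resolve_left hnt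
  have hMne : M ≠ ⊥ := fun hb => hbot (hb ▸ hM)
  have hidx : M.index ≠ 1 := fun h1 => hM.1 (Subgroup.index_eq_one.mp h1)
  obtain ⟨p, hp, hpd⟩ := Nat.exists_prime_and_dvd hidx
  have : Fact p.Prime := ⟨hp⟩
  obtain ⟨P⟩ : Nonempty (Sylow p G) := inferInstance
  have hPtop : (P : Subgroup G) ≠ ⊤ := by
    intro htop
    apply hns
    have hpg : IsPGroup p G := by
      have h1 := P.2
      rw [htop] at h1
      exact h1.of_equiv Subgroup.topEquiv
    have : Group.IsNilpotent G := hpg.isNilpotent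
    infer_instance
  obtain ⟨M', hM', hPM'⟩ := (eq_top_or_exists_le_coatom (P : Subgroup G)).resolve_left hPtop
  have hM'ne : M' ≠ ⊥ := fun hb => hbot (hb ▸ hM')
  have hnc : ∀ g : G, M.map (MulAut.conj g).toMonoidHom ≠ M' := by
    intro g heq
    have h1 : (M.map (MulAut.conj g).toMonoidHom).index = M.index :=
      Subgroup.index_map_equiv M (MulAut.conj g)
    have h2 : M'.index ∣ (P : Subgroup G).index := Subgroup.index_dvd_of_le hPM'
    rw [← heq, h1] at h2
    exact P.not_dvd_index (hpd.trans h2)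
  -- counting
  have := Fintype.ofFinite G
  classical
  have c1 := count M (hTI M hM) hMne
  have c2 := count M' (hTI M' hM') hM'ne
  have hdisj : Disjoint (conjUnion M) (conjUnion M') := by
    rw [Finset.disjoint_left]
    intro x hx hx'
    simp only [conjUnion, Finset.mem_filter, Finset.mem_univ, true_and] at hx hx'
    obtain ⟨hx1, g, hg⟩ := hx
    obtain ⟨-, g', hg'⟩ := hx'
    rw [← mem_conj] at hg hg'
    have hco := conj_isCoatom M g hM
    have hco' := conj_isCoatom M' g' hM'
    have heq : M.map (MulAut.conj g).toMonoidHom = M'.map (MulAut.conj g').toMonoidHom := by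
      by_contra hne
      have hbotI := hA _ _ hco hco' hne
      have hmem : x ∈ M.map (MulAut.conj g).toMonoidHom ⊓
          M'.map (MulAut.conj g').toMonoidHom := Subgroup.mem_inf.mpr ⟨hg, hg'⟩
      rw [hbotI, Subgroup.mem_bot] at hmem
      exact hx1 hmem
    apply hnc (g'⁻¹ * g)
    ext y
    rw [mem_conj]
    have h1 : (g'⁻¹ * g)⁻¹ * y * (g'⁻¹ * g) = g⁻¹ * (g' * y * g'⁻¹) * g := by group
    rw [h1, ← mem_conj, heq, mem_conj]
    have h2 : g'⁻¹ * (g' * y * g'⁻¹) * g' = y := by group
    rw [h2]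
  have hsub : conjUnion M ∪ conjUnion M' ⊆ (Finset.univ : Finset G).erase 1 := by
    intro x hx
    rw [Finset.mem_union] at hx
    rw [Finset.mem_erase]
    refine ⟨?_, Finset.mem_univ _⟩
    rcases hx with hx | hx
    · simp only [conjUnion, Finset.mem_filter] at hx; exact hx.2.1
    · simp only [conjUnion, Finset.mem_filter] at hx; exact hx.2.1
  have c3 := Finset.card_le_card hsub
  rw [Finset.card_union_of_disjoint hdisj, Finset.card_erase_of_mem (Finset.mem_univ _),
    Finset.card_univ] at c3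
  have hpos : 0 < Fintype.card G := Fintype.card_pos
  omega

/-- Schmidt's Theorem on minimal non-nilpotent groups: a finite group in which every maximal subgroup is nilpotent is solvable. -/
theorem result {G : Type*} [Group G] [Finite G]
    (h : ∀ M : Subgroup G, IsCoatom M → Group.IsNilpotent M) : Group.IsSolvable G :=
  main (Nat.card G) G rfl h

end Cfsg.Agent.S0046
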