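import Cfsg.Statements.S0580
import Cfsg.Agent.S0046
-- import your own Cfsg.Agent.* helpers here

set_option autoImplicit false
open Cfsg

namespace Cfsg.Agent.S0580

/-- If the normalizer of a Sylow `p`-subgroup lies in `M`, then the index of `M` is `1` mod `p`. -/
theorem index_modEq_one {G : Type*} [Group G] [Finite G] (p : ℕ) [Fact p.Prime] (P : Sylow p G)
    (M : Subgroup G) (hNM : Subgroup.normalizer (P : Set G) ≤ M) : M.index ≡ 1 [MOD p] := by
  have hPM : (P : Subgroup G) ≤ M := Subgroup.le_normalizer.trans hNM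
  have ha : Nat.card (Sylow p G) ≡ 1 [MOD p] := card_sylow_modEq_one p G
  have hb : Nat.card (Sylow p M) ≡ 1 [MOD p] := card_sylow_modEq_one p M
  rw [P.card_eq_index_normalizer] at ha
  rw [(P.subtype hPM).card_eq_index_normalizer] at hb
  have hb2 : (Subgroup.normalizer (((P : Subgroup G).subgroupOf M : Subgroup M) : Set M)).index
      ≡ 1 [MOD p] := hb
  rw [← Subgroup.subgroupOf_normalizer_eq hPM] at hb2
  have h1 : (Subgroup.normalizer (P : Set G)).relIndex M * M.index
      = (Subgroup.normalizer (P : Set G)).index := Subgroup.relIndex_mul_index hNM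
  have hb' : (Subgroup.normalizer (P : Set G)).relIndex M ≡ 1 [MOD p] := hb2
  have h2 : (Subgroup.normalizer (P : Set G)).relIndex M * M.index ≡ 1 * M.index [MOD p] :=
    Nat.ModEq.mul_right _ hb'
  rw [h1, one_mul] at h2
  exact h2.symm.trans ha

theorem main.{u} : ∀ (n : ℕ) (G : Type u) [Group G] [Finite G], Nat.card G = n →
    (∀ M : Subgroup G, IsCoatom M → M.index.Prime) → Group.IsSolvable G := by
  intro n
  induction n using Nat.strong_induction_on with
  | _ n ih =>
  intro G _ _ hcard h
  by_cases hone : Nat.card G = 1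
  · have : Subsingleton G := (Nat.card_eq_one_iff_unique.mp hone).1
    infer_instance
  -- the largest prime divisor of the order
  have hne : (Nat.card G).primeFactors.Nonempty := by
    obtain ⟨p, hp, hpd⟩ := Nat.exists_prime_and_dvd hone
    exact ⟨p, Nat.mem_primeFactors.mpr ⟨hp, hpd, Nat.card_pos.ne'⟩⟩
  set p := (Nat.card G).primeFactors.max' hne with hpdef
  have hpmem : p ∈ (Nat.card G).primeFactors := Finset.max'_mem _ hne
  have hp : p.Prime := (Nat.mem_primeFactors.mp hpmem).1
  have hpd : p ∣ Nat.card G := (Nat.mem_primeFactors.mp hpmem).2.1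
  have hpmax : ∀ q : ℕ, q.Prime → q ∣ Nat.card G → q ≤ p := fun q hq hqd =>
    Finset.le_max' _ q (Nat.mem_primeFactors.mpr ⟨hq, hqd, Nat.card_pos.ne'⟩)
  have : Fact p.Prime := ⟨hp⟩
  obtain ⟨P⟩ : Nonempty (Sylow p G) := inferInstance
  have hPn : (P : Subgroup G).Normal := by
    rw [← Subgroup.normalizer_eq_top_iff]
    by_contra hnt
    obtain ⟨M, hM, hNM⟩ := (eq_top_or_exists_le_coatom _).resolve_left hnt
    have hq := h M hM
    have hmod := index_modEq_one p P M hNM
    have hle : M.index ≤ p := hpmax _ hq (Subgroup.index_dvd_card M)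
    unfold Nat.ModEq at hmod
    rw [Nat.mod_eq_of_lt hp.one_lt] at hmod
    have h2 := hq.two_le
    rcases Nat.lt_or_ge M.index p with hlt | hge
    · rw [Nat.mod_eq_of_lt hlt] at hmod
      omega
    · have : M.index = p := le_antisymm hle hge
      rw [this, Nat.mod_self] at hmod
      omega
  have hPne : (P : Subgroup G) ≠ ⊥ := P.ne_bot_of_dvd_card hpd
  have hPs : Group.IsSolvable P := by
    have : Group.IsNilpotent P := P.2.isNilpotent
    infer_instance
  have hlt : Nat.card (G ⧸ (P : Subgroup G)) < n := by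
    have h1 : Nat.card G = Nat.card (G ⧸ (P : Subgroup G)) * Nat.card (P : Subgroup G) :=
      Subgroup.card_eq_card_quotient_mul_card_subgroup _
    have h2 : 1 < Nat.card (P : Subgroup G) := by
      have h4 : Nat.card (P : Subgroup G) ≠ 1 := fun h => hPne (Subgroup.card_eq_one.mp h)
      have h5 : 0 < Nat.card (P : Subgroup G) := Nat.card_pos
      omega
    have h3 : 0 < Nat.card (G ⧸ (P : Subgroup G)) := Nat.card_pos
    rw [← hcard, h1]
    nlinarith
  have hq : Group.IsSolvable (G ⧸ (P : Subgroup G)) := by
    apply ih _ hlt (G ⧸ (P : Subgroup G)) rfl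
    intro Mbar hMbar
    have hco := Cfsg.Agent.S0046.comap_isCoatom (P : Subgroup G) Mbar hMbar
    have hidx := h _ hco
    rwa [Subgroup.index_comap_of_surjective Mbar (QuotientGroup.mk'_surjective _)] at hidx
  exact (Group.isSolvable_iff_subgroup_quotient (P : Subgroup G)).2 ⟨hPs, hq⟩

/-- If every maximal subgroup of a finite group has prime index, then the group is solvable. -/
theorem result {G : Type*} [Group G] [Finite G] (h : ∀ M : Subgroup G, IsCoatom M → M.index.Prime) : Group.IsSolvable G :=
  main (Nat.card G) G rfl h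

end Cfsg.Agent.S0580
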