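import Mathlib
import Cfsg.Statements.S0190
import Cfsg.Agent.Lib.CT.FrobRec
-- import your own Cfsg.Agent.* helpers here

set_option autoImplicit false
open Cfsg

namespace Cfsg.Agent.S0190


/-- For a transitive action of a finite group on X, the permutation character g ↦ (number of fixed points of g) is the function induced from the principal character of the stabilizer of any point. -/
theorem result {G : Type*} [Group G] [Fintype G] (X : Type*) [MulAction G X] [Finite X] [MulAction.IsPretransitive G X] (x : X) : (fun g : G => (Nat.card (MulAction.fixedBy X g) : ℂ)) = Cfsg.indFun (MulAction.stabilizer G x) (fun _ => 1) := by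
  classical
  funext g
  have hext : ∀ z : G, Cfsg.extendByZero (MulAction.stabilizer G x) (fun _ => (1:ℂ)) z
      = if z ∈ MulAction.stabilizer G x then 1 else 0 := by
    intro z
    by_cases hz : z ∈ MulAction.stabilizer G x
    · rw [if_pos hz, Cfsg.Agent.Lib.CT.FrobRec.extendByZero_apply_of_mem _ _ hz]
    · rw [if_neg hz, Cfsg.Agent.Lib.CT.FrobRec.extendByZero_apply_of_not_mem _ _ hz]
  unfold Cfsg.indFun
  simp_rw [hext]
  rw [Finset.sum_boole]
  have hmem : ∀ y : G, y⁻¹ * g * y ∈ MulAction.stabilizer G x ↔ g • (y • x) = y • x := by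
    intro y
    rw [MulAction.mem_stabilizer_iff, mul_smul, mul_smul, inv_smul_eq_iff]
  have hr : ∀ x' : X, ∃ r : G, r • x = x' := fun x' => MulAction.exists_smul_eq G x x'
  choose r hr using hr
  let e : {y : G // y⁻¹ * g * y ∈ MulAction.stabilizer G x}
      ≃ MulAction.fixedBy X g × MulAction.stabilizer G x :=
    { toFun := fun y => (⟨y.1 • x, (hmem y.1).mp y.2⟩, ⟨(r (y.1 • x))⁻¹ * y.1, by
          rw [MulAction.mem_stabilizer_iff, mul_smul, inv_smul_eq_iff, hr]⟩)
      invFun := fun p => ⟨r p.1.1 * p.2.1, by
          rw [hmem, mul_smul]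
          have h1 : p.2.1 • x = x := p.2.2
          rw [h1, hr]
          exact p.1.2⟩
      left_inv := by
        intro y
        apply Subtype.ext
        simp
      right_inv := by
        rintro ⟨⟨x', hx'⟩, ⟨h, hh⟩⟩
        have h1 : h • x = x := hh
        ext
        · simp [mul_smul, h1, hr]
        · simp [mul_smul, h1, hr] }
  have hcount : (Finset.univ.filter (fun y : G => y⁻¹ * g * y ∈ MulAction.stabilizer G x)).card
      = Nat.card (MulAction.fixedBy X g) * Nat.card (MulAction.stabilizer G x) := by
    rw [← Fintype.card_subtype, ← Nat.card_eq_fintype_card, Nat.card_congr e, Nat.card_prod]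
  rw [hcount]
  push_cast
  have hne : (Nat.card (MulAction.stabilizer G x) : ℂ) ≠ 0 := by
    exact_mod_cast Nat.card_pos.ne'
  field_simp

end Cfsg.Agent.S0190
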