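import Cfsg.Statements.S4491
import Cfsg.Agent.Lib.Helper82.BlockDim

set_option autoImplicit false
open Cfsg

namespace Cfsg.Agent.S4491

open Cfsg.Agent.Lib.Helper82.Contrib
open Cfsg.Agent.Lib.Helper82.BlockDim
open Cfsg.Agent.Lib.Helper77.LocalRing

/-- The sum of the squares of the degrees in a block is `p^(a+e) * t` with `p ∤ t`, where `p^e`
is the least `p`-part of a degree in the block. -/
theorem exists_dim_eq {G : Type*} [Group G] [Finite G] (p : ℕ) [Fact p.Prime]
    (M : Ideal AlgInt) (hM : IsPModular p M) (B : Set (IrrCharacter G)) (hB : IsPBlock M B)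
    (χ₁ : IrrCharacter G) (hχ₁ : χ₁ ∈ B)
    (hmin : ∀ ξ ∈ B, (charDegree (χ₁ : G → ℂ)).factorization p
      ≤ (charDegree (ξ : G → ℂ)).factorization p) :
    ∃ t : ℕ, ¬ p ∣ t ∧ ∑ᶠ χ ∈ B, charDegree (χ : G → ℂ) ^ 2
      = p ^ ((Nat.card G).factorization p + (charDegree (χ₁ : G → ℂ)).factorization p) * t := by
  classical
  have hpp : p.Prime := Fact.out
  have hMp : M.IsPrime := isPrime_of_isPModular hM
  have : Fintype G := Fintype.ofFinite G
  have := Cfsg.Agent.Lib.CT.Wedderburn.finite_irrCharacter G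
  have : Fintype (IrrCharacter G) := Fintype.ofFinite _
  obtain ⟨P⟩ : Nonempty (Sylow p G) := inferInstance
  have : Fintype (P : Subgroup G) := Fintype.ofFinite _
  obtain ⟨w, hw⟩ : ∃ w : IrrCharacter G → ℕ, ∀ ψ ∈ B, charDegree (ψ : G → ℂ)
      = p ^ (charDegree (χ₁ : G → ℂ)).factorization p * w ψ := by
    refine ⟨fun ψ => charDegree (ψ : G → ℂ) / p ^ (charDegree (χ₁ : G → ℂ)).factorization p, ?_⟩
    intro ψ hψ
    refine (Nat.mul_div_cancel' ?_).symm
    exact dvd_trans (pow_dvd_pow p (hmin ψ hψ)) (Nat.ordProj_dvd (charDegree (ψ : G → ℂ)) p)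
  have h1 := not_dvd_sum_zz p P hM B hB χ₁ hχ₁ w hw
  refine ⟨_, h1, ?_⟩
  have h2 := block_dim p P hM B hB
  have h3 : ∑ᶠ χ ∈ B, charDegree (χ : G → ℂ) ^ 2
      = ∑ χ ∈ Finset.univ.filter (· ∈ B), charDegree (χ : G → ℂ) ^ 2 := by
    rw [finsum_mem_def, finsum_eq_sum_of_fintype, Finset.sum_filter]
    refine Finset.sum_congr rfl fun χ _ => ?_
    by_cases h : χ ∈ B <;> simp [h]
  rw [h3]
  have h4 : ((∑ χ ∈ Finset.univ.filter (· ∈ B), charDegree (χ : G → ℂ) ^ 2 : ℕ) : ℤ)
      = ((p ^ ((Nat.card G).factorization p + (charDegree (χ₁ : G → ℂ)).factorization p)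
        * ∑ ψ ∈ Finset.univ.filter (· ∈ B), zz p P ψ * w ψ : ℕ) : ℤ) := by
    push_cast
    rw [h2, pow_add, mul_assoc,
      Finset.mul_sum (a := (p : ℤ) ^ (charDegree (χ₁ : G → ℂ)).factorization p)]
    congr 1
    refine Finset.sum_congr rfl fun ψ hψ => ?_
    have h5 := hw ψ (Finset.mem_filter.1 hψ).2
    have h6 : ((charDegree (ψ : G → ℂ) : ℕ) : ℤ)
        = (p : ℤ) ^ (charDegree (χ₁ : G → ℂ)).factorization p * ((w ψ : ℕ) : ℤ) := by
      exact_mod_cast h5
    rw [h6]
    ring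
  exact_mod_cast h4

/-- Let B be a p-block of defect d of the finite group G (relative to a maximal ideal M of the algebraic integers containing p), and let p^a be the p-part of the order of G. Then the exact power of p dividing the sum of the squares of the degrees of the irreducible characters in B is p^(2a − d). -/
theorem result {G : Type*} [Group G] [Finite G] (p : ℕ) [Fact p.Prime] (M : Ideal Cfsg.AlgInt) (hM : Cfsg.IsPModular p M) (B : Set (Cfsg.IrrCharacter G)) (hB : Cfsg.IsPBlock M B) : (∑ᶠ χ ∈ B, Cfsg.charDegree (χ : G → ℂ) ^ 2).factorization p = 2 * (Nat.card G).factorization p - Cfsg.blockDefect p B := by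
  classical
  have hpp : p.Prime := Fact.out
  have hMp : M.IsPrime := isPrime_of_isPModular hM
  obtain ⟨χ₀, hχ₀⟩ := Cfsg.Agent.Lib.CT.DefectZeroBlock.isPBlock_nonempty hMp hB
  have hne : ((fun ψ : IrrCharacter G => (charDegree (ψ : G → ℂ)).factorization p) '' B).Nonempty :=
    ⟨_, χ₀, hχ₀, rfl⟩
  obtain ⟨χ₁, hχ₁, hχ₁e⟩ := Nat.sInf_mem hne
  have hχ₁e' : (charDegree (χ₁ : G → ℂ)).factorization p
      = sInf ((fun ψ : IrrCharacter G => (charDegree (ψ : G → ℂ)).factorization p) '' B) := hχ₁e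
  have hmin : ∀ ξ ∈ B, (charDegree (χ₁ : G → ℂ)).factorization p
      ≤ (charDegree (ξ : G → ℂ)).factorization p := by
    intro ξ hξ
    rw [hχ₁e']
    exact Nat.sInf_le ⟨ξ, hξ, rfl⟩
  have hdef : blockDefect p B = (Nat.card G).factorization p
      - (charDegree (χ₁ : G → ℂ)).factorization p := by
    rw [hχ₁e']
    rfl
  have hea : (charDegree (χ₁ : G → ℂ)).factorization p ≤ (Nat.card G).factorization p :=
    Cfsg.Agent.Lib.CT.DefectZeroBlock.factorization_charDegree_le p χ₁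
  obtain ⟨t, ht, hsum⟩ := exists_dim_eq p M hM B hB χ₁ hχ₁ hmin
  have ht0 : t ≠ 0 := fun h => ht (h ▸ dvd_zero p)
  rw [hsum, Nat.factorization_mul (pow_ne_zero _ hpp.ne_zero) ht0, Finsupp.add_apply,
    hpp.factorization_pow, Finsupp.single_eq_same, Nat.factorization_eq_zero_of_not_dvd ht, hdef]
  omega

end Cfsg.Agent.S4491
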