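import Mathlib
import Cfsg.Statements.S3744
import Cfsg.Agent.S0001
import Cfsg.Agent.Lib.Helper91.Hall
import Cfsg.Agent.Lib.Helper76.PSolv

set_option autoImplicit false

open Cfsg

open scoped Pointwise

namespace Cfsg.Agent.S3744

open Cfsg.Agent.Lib.Helper91.Hall

universe u

/-- Schur–Zassenhaus conjugacy for two subgroups with the same product with `N`. -/
theorem szsub_conj {G : Type u} [Group G] [Finite G] (N : Subgroup G) [N.Normal]
    [Group.IsSolvable N] (A B : Subgroup G) (hA : (Nat.card N).Coprime (Nat.card A))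
    (hB : (Nat.card N).Coprime (Nat.card B)) (h : N ⊔ A = N ⊔ B) :
    ∃ g : G, MulAut.conj g • A = B := by
  have hdA : Disjoint N A := Subgroup.disjoint_of_coprime_natCard hA
  have hdB : Disjoint N B := Subgroup.disjoint_of_coprime_natCard hB
  have hcA := Cfsg.Agent.S0001.compl_sup hdA (rfl : N ⊔ A = N ⊔ A)
  have hcB := Cfsg.Agent.S0001.compl_sup hdB h
  have hsolv : Group.IsSolvable (N.subgroupOf (N ⊔ A)) :=
    Cfsg.Agent.S0001.solv_subgroupOf N (N ⊔ A)
  have hcop : (Nat.card (N.subgroupOf (N ⊔ A))).Coprime (Nat.card (A.subgroupOf (N ⊔ A))) := by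
    rw [card_subgroupOf_of_le _ _ le_sup_left, card_subgroupOf_of_le _ _ le_sup_right]
    exact hA
  obtain ⟨l, hl⟩ := Cfsg.Agent.S0001.sz_conj (N.subgroupOf (N ⊔ A)) (A.subgroupOf (N ⊔ A))
    (B.subgroupOf (N ⊔ A)) hcA hcB hcop (Or.inl hsolv)
  exact ⟨(l : G), conj_of_subgroupOf (N ⊔ A) A B le_sup_right (by rw [h]; exact le_sup_right) l hl⟩

/-- Schur–Zassenhaus with containment. -/
theorem sz_contain {G : Type u} [Group G] [Finite G] (N : Subgroup G) [N.Normal]
    [Group.IsSolvable N] (hcop : (Nat.card N).Coprime N.index) (K : Subgroup G)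
    (hK : (Nat.card N).Coprime (Nat.card K)) :
    ∃ H : Subgroup G, Nat.card H = N.index ∧ K ≤ H := by
  obtain ⟨H₀, hH₀⟩ := Subgroup.exists_right_complement'_of_coprime hcop
  have hH₀c : Nat.card H₀ = N.index := hH₀.symm.index_eq_card.symm
  have hNK : N ⊓ K = ⊥ := (Subgroup.disjoint_of_coprime_natCard hK).eq_bot
  have hMc : Nat.card ↥(N ⊔ K) = Nat.card N * Nat.card K := card_sup_normal N K hNK
  have hA := card_complement_inf N H₀ (N ⊔ K) hH₀ le_sup_left
  have hAc : Nat.card ↥(H₀ ⊓ (N ⊔ K)) = Nat.card K :=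
    Nat.eq_of_mul_eq_mul_left Nat.card_pos (hA.trans hMc)
  have hAcop : (Nat.card N).Coprime (Nat.card ↥(H₀ ⊓ (N ⊔ K))) := by
    rw [hAc]
    exact hK
  have hNA : N ⊓ (H₀ ⊓ (N ⊔ K)) = ⊥ := (Subgroup.disjoint_of_coprime_natCard hAcop).eq_bot
  have hsup : N ⊔ (H₀ ⊓ (N ⊔ K)) = N ⊔ K := by
    apply Subgroup.eq_of_le_of_card_ge (sup_le le_sup_left inf_le_right)
    rw [card_sup_normal N _ hNA, hAc, hMc]
  obtain ⟨g, hg⟩ := szsub_conj N (H₀ ⊓ (N ⊔ K)) K hAcop hK hsup
  refine ⟨MulAut.conj g • H₀, by rw [card_conj_smul, hH₀c], ?_⟩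
  rw [← hg]
  intro y hy
  rw [mem_conj_smul] at hy ⊢
  exact hy.1

theorem exists_normal_of_psolv {G : Type*} [Group G] [Nontrivial G] (p : ℕ)
    (h : Cfsg.IsPSolvable p G) :
    ∃ N : Subgroup G, N.Normal ∧ N ≠ ⊥ ∧
      ((∃ j, Nat.card N = p ^ j) ∨ (Nat.card N).Coprime p) := by
  classical
  obtain ⟨n, H, h0, hlast, hmono, hnormal, hstep⟩ := h
  have hex : ∃ k : ℕ, ∃ hk : k < n + 1, H ⟨k, hk⟩ ≠ ⊥ := by
    refine ⟨n, Nat.lt_succ_self n, ?_⟩
    have h1 : (⟨n, Nat.lt_succ_self n⟩ : Fin (n + 1)) = Fin.last n := rfl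
    rw [h1, hlast]
    exact top_ne_bot
  obtain ⟨hk, hkne⟩ := Nat.find_spec hex
  have hk0 : Nat.find hex ≠ 0 := by
    intro hk0
    apply hkne
    have h1 : (⟨Nat.find hex, hk⟩ : Fin (n + 1)) = 0 := Fin.ext hk0
    rw [h1, h0]
  obtain ⟨k', hk'⟩ := Nat.exists_eq_succ_of_ne_zero hk0
  have hk'lt : k' < n := by omega
  have hprev : H (⟨k', hk'lt⟩ : Fin n).castSucc = ⊥ := by
    by_contra hne
    have h1 := Nat.find_min hex (m := k') (by omega)
    exact h1 ⟨by omega, hne⟩
  have hsucc : (⟨k', hk'lt⟩ : Fin n).succ = ⟨Nat.find hex, hk⟩ := Fin.ext (by show k' + 1 = Nat.find hex; omega)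
  refine ⟨H ⟨Nat.find hex, hk⟩, hnormal _, hkne, ?_⟩
  have h2 := hstep ⟨k', hk'lt⟩
  rw [hprev, hsucc, Subgroup.relIndex_bot_left] at h2
  exact h2

/-- `p`-complements in `p`-solvable groups: conjugacy and containment, by induction. -/
theorem psolv_aux (p : ℕ) [Fact p.Prime] (k : ℕ) : ∀ (G : Type u) [Group G] [Finite G],
    Cfsg.IsPSolvable p G → Nat.card G ≤ k →
    ∀ m e : ℕ, Nat.card G = m * p ^ e → m.Coprime p →
      (∀ H K : Subgroup G, Nat.card H = m → Nat.card K = m → ∃ g : G, MulAut.conj g • H = K) ∧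
      (∀ K : Subgroup G, (Nat.card K).Coprime p → ∃ H : Subgroup G, Nat.card H = m ∧ K ≤ H) := by
  induction k with
  | zero =>
    intro G _ _ _ hk
    have := Nat.card_pos (α := G)
    omega
  | succ k ih =>
    intro G _ _ hps hk m e hG hmp
    by_cases hlt : Nat.card G ≤ k
    · exact ih G hps hlt m e hG hmp
    have hp : p.Prime := Fact.out
    have hGpos : 0 < Nat.card G := Nat.card_pos
    have hpepos : 0 < p ^ e := pow_pos hp.pos e
    have hmpos : 0 < m := by
      rcases Nat.eq_zero_or_pos m with h | h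
      · rw [h, zero_mul] at hG; omega
      · exact h
    have hmn : m.Coprime (p ^ e) := Nat.Coprime.pow_right e hmp
    rcases subsingleton_or_nontrivial G with hsub | hnt
    · have hc1 : Nat.card G = 1 := Nat.card_eq_one_iff_unique.mpr ⟨hsub, ⟨1⟩⟩
      have hm1 : m = 1 := by
        rcases Nat.lt_or_ge m 2 with h | h
        · omega
        · have : 2 * 1 ≤ m * p ^ e := Nat.mul_le_mul h hpepos
          omega
      refine ⟨fun H K _ _ => ⟨1, ?_⟩, fun K _ => ⟨K, ?_, le_rfl⟩⟩
      · rw [map_one, one_smul]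
        ext x
        rw [Subsingleton.elim x 1]
        simp
      · have h1 := Subgroup.card_subgroup_dvd_card K
        rw [hc1] at h1
        rw [Nat.dvd_one.mp h1, hm1]
    obtain ⟨N, hNn, hNne, hNcase⟩ := exists_normal_of_psolv p hps
    have hq : Nat.card G = Nat.card (G ⧸ N) * Nat.card N :=
      Subgroup.card_eq_card_quotient_mul_card_subgroup N
    have hNpos : 0 < Nat.card N := Nat.card_pos
    have hN2 : 2 ≤ Nat.card N := by
      rcases Nat.lt_or_ge (Nat.card N) 2 with h | h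
      · exact absurd (Subgroup.card_eq_one.mp (by omega)) hNne
      · exact h
    have hqpos : 0 < Nat.card (G ⧸ N) := Nat.card_pos
    have hqlt : Nat.card (G ⧸ N) < Nat.card G := by
      rw [hq]
      nlinarith
    have hpsQ := Cfsg.Agent.Lib.Helper76.PSolv.isPSolvable_quotient p N hps
    have hNdvd : Nat.card N ∣ m * p ^ e := by
      rw [← hG, hq]
      exact dvd_mul_left _ _
    rcases hNcase with ⟨j, hj⟩ | hNcop
    · -- Case B: N is a p-group
      have hcopm : (p ^ j).Coprime m := Nat.Coprime.pow_left j hmp.symm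
      rw [hj] at hNdvd
      obtain ⟨n', hn'⟩ := hcopm.dvd_of_dvd_mul_left hNdvd
      have hpjpos : 0 < p ^ j := pow_pos hp.pos j
      have hn'dvd : n' ∣ p ^ e := ⟨p ^ j, by rw [hn']; ring⟩
      obtain ⟨e', -, he'⟩ := (Nat.dvd_prime_pow hp).mp hn'dvd
      have hQ : Nat.card (G ⧸ N) = m * p ^ e' := by
        apply Nat.eq_of_mul_eq_mul_right hpjpos
        rw [← hj, ← hq, hG, hn', hj, he']
        ring
      rw [he'] at hn'dvd
      obtain ⟨IHC, IHD⟩ := ih (G ⧸ N) hpsQ (by omega) m e' hQ hmp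
      have hNpg : IsPGroup p N := IsPGroup.of_card hj
      have hNnil : Group.IsNilpotent N := hNpg.isNilpotent
      have hNsolv : Group.IsSolvable N := inferInstance
      have hNm : (Nat.card N).Coprime m := by rw [hj]; exact hcopm
      refine ⟨?_, ?_⟩
      · intro H₁ H₂ hH₁ hH₂
        have hH₁' := card_map_mk N H₁ hG hmn hH₁ hQ dvd_rfl hn'dvd
        have hH₂' := card_map_mk N H₂ hG hmn hH₂ hQ dvd_rfl hn'dvd
        obtain ⟨gbar, hg⟩ := IHC _ _ hH₁'.1 hH₂'.1
        obtain ⟨g, rfl⟩ := QuotientGroup.mk'_surjective N gbar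
        have hsup : N ⊔ (MulAut.conj g • H₁) = N ⊔ H₂ := by
          have h1 : (MulAut.conj g • H₁).map (QuotientGroup.mk' N) =
              H₂.map (QuotientGroup.mk' N) := by
            rw [Cfsg.Agent.S0001.map_conj_smul]
            exact hg
          have h2 := congrArg (Subgroup.comap (QuotientGroup.mk' N)) h1
          rw [Subgroup.comap_map_eq, Subgroup.comap_map_eq, QuotientGroup.ker_mk'] at h2
          rw [sup_comm N, sup_comm N]
          exact h2
        obtain ⟨x, hx⟩ := szsub_conj N (MulAut.conj g • H₁) H₂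
          (by rw [card_conj_smul, hH₁]; exact hNm) (by rw [hH₂]; exact hNm) hsup
        refine ⟨x * g, ?_⟩
        rw [map_mul, mul_smul]
        exact hx
      · intro K hK
        have hK' : (Nat.card (K.map (QuotientGroup.mk' N))).Coprime p :=
          Nat.Coprime.coprime_dvd_left (Subgroup.card_map_dvd K _) hK
        obtain ⟨Lbar, hLbar, hKL⟩ := IHD _ hK'
        have hLc : Nat.card (Lbar.comap (QuotientGroup.mk' N)) = m * p ^ j := by
          rw [card_comap_mk, hLbar, hj]
        have hKLe : K ≤ Lbar.comap (QuotientGroup.mk' N) := Subgroup.map_le_iff_le_comap.mp hKL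
        have hNL : N ≤ Lbar.comap (QuotientGroup.mk' N) := by
          intro x hx
          rw [Subgroup.mem_comap]
          have h1 : QuotientGroup.mk' N x = 1 := (QuotientGroup.eq_one_iff x).mpr hx
          rw [h1]
          exact Lbar.one_mem
        have hsolv' : Group.IsSolvable (N.subgroupOf (Lbar.comap (QuotientGroup.mk' N))) :=
          Cfsg.Agent.S0001.solv_subgroupOf N _
        have hNLc : Nat.card (N.subgroupOf (Lbar.comap (QuotientGroup.mk' N))) = p ^ j := by
          rw [card_subgroupOf_of_le _ _ hNL, hj]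
        have hidx : (N.subgroupOf (Lbar.comap (QuotientGroup.mk' N))).index = m := by
          have h1 := Subgroup.card_mul_index (N.subgroupOf (Lbar.comap (QuotientGroup.mk' N)))
          rw [hNLc, hLc] at h1
          exact Nat.eq_of_mul_eq_mul_left hpjpos (by rw [h1]; ring)
        obtain ⟨H', hH', hKH'⟩ := sz_contain (N.subgroupOf (Lbar.comap (QuotientGroup.mk' N)))
          (by rw [hNLc, hidx]; exact hcopm) (K.subgroupOf (Lbar.comap (QuotientGroup.mk' N)))
          (by
            rw [hNLc, card_subgroupOf_of_le _ _ hKLe]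
            exact Nat.Coprime.pow_left j hK.symm)
        refine ⟨H'.map (Subgroup.subtype _), ?_, ?_⟩
        · rw [Subgroup.card_subtype, hH', hidx]
        · intro y hy
          exact ⟨⟨y, hKLe hy⟩, hKH' (Subgroup.mem_subgroupOf.mpr hy), rfl⟩
    · -- Case A: N is a p'-group
      have hcopn : (Nat.card N).Coprime (p ^ e) := Nat.Coprime.pow_right e hNcop
      obtain ⟨m', hm'⟩ := hcopn.dvd_of_dvd_mul_right hNdvd
      have hQ : Nat.card (G ⧸ N) = m' * p ^ e := by
        apply Nat.eq_of_mul_eq_mul_right hNpos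
        rw [← hq, hG, hm']
        ring
      have hm'dvd : m' ∣ m := ⟨Nat.card N, by rw [hm']; ring⟩
      have hcop' : m'.Coprime p := Nat.Coprime.coprime_dvd_left hm'dvd hmp
      obtain ⟨IHC, IHD⟩ := ih (G ⧸ N) hpsQ (by omega) m' e hQ hcop'
      refine ⟨?_, ?_⟩
      · intro H K hH hK
        have hH' := card_map_mk N H hG hmn hH hQ hm'dvd dvd_rfl
        have hK' := card_map_mk N K hG hmn hK hQ hm'dvd dvd_rfl
        have hNH : N ≤ H := normal_le_of_card_map N H (by rw [hH'.1, hH, hm']; ring)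
        have hNK : N ≤ K := normal_le_of_card_map N K (by rw [hK'.1, hK, hm']; ring)
        obtain ⟨gbar, hg⟩ := IHC _ _ hH'.1 hK'.1
        obtain ⟨g, rfl⟩ := QuotientGroup.mk'_surjective N gbar
        refine ⟨g, ?_⟩
        ext x
        rw [mem_conj_smul, ← mk_mem_map_iff N H hNH, ← mk_mem_map_iff N K hNK, ← hg, mem_conj_smul]
        simp
      · intro K hK
        have hK' : (Nat.card (K.map (QuotientGroup.mk' N))).Coprime p :=
          Nat.Coprime.coprime_dvd_left (Subgroup.card_map_dvd K _) hK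
        obtain ⟨Hbar, hHbar, hKH⟩ := IHD _ hK'
        refine ⟨Hbar.comap (QuotientGroup.mk' N), ?_, Subgroup.map_le_iff_le_comap.mp hKH⟩
        rw [card_comap_mk, hHbar, hm']
        ring

theorem smul_eq_map {G : Type*} [Group G] (g : G) (H : Subgroup G) :
    MulAut.conj g • H = H.map (MulAut.conj g).toMonoidHom := rfl

theorem card_eq_of_pcompl {a m e n : ℕ} {p : ℕ} (ha : a.Coprime p)
    (hm : m.Coprime p) (h : a * p ^ n = m * p ^ e) : a = m := by
  have h1 : a ∣ m := by
    have : a ∣ m * p ^ e := ⟨p ^ n, h.symm⟩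
    exact (Nat.Coprime.pow_right e ha).dvd_of_dvd_mul_right this
  have h2 : m ∣ a := by
    have : m ∣ a * p ^ n := ⟨p ^ e, h⟩
    exact (Nat.Coprime.pow_right n hm).dvd_of_dvd_mul_right this
  exact Nat.dvd_antisymm h1 h2

/-- A finite p-soluble group has a p-complement, all its p-complements are conjugate, and every subgroup of order prime to p lies in one of them. Here a p-complement is a subgroup of order prime to p whose index is a power of p. -/
theorem result {G : Type*} [Group G] [Finite G] {p : ℕ} [Fact p.Prime] (hG : Cfsg.IsPSolvable p G) : (∃ H : Subgroup G, (Nat.card H).Coprime p ∧ ∃ n : ℕ, H.index = p ^ n) ∧ (∀ H₁ H₂ : Subgroup G, (Nat.card H₁).Coprime p → (∃ n : ℕ, H₁.index = p ^ n) → (Nat.card H₂).Coprime p → (∃ n : ℕ, H₂.index = p ^ n) → ∃ g : G, H₂ = H₁.map (MulAut.conj g).toMonoidHom) ∧ (∀ U : Subgroup G, (Nat.card U).Coprime p → ∃ H : Subgroup G, (Nat.card H).Coprime p ∧ (∃ n : ℕ, H.index = p ^ n) ∧ ∃ g : G, U.map (MulAut.conj g).toMonoidHom ≤ H)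 := by
  have hp : p.Prime := Fact.out
  obtain ⟨e, m, hpm, hcard⟩ :=
    Nat.exists_eq_pow_mul_and_not_dvd (Nat.card_pos (α := G)).ne' p hp.ne_one
  have hmp : m.Coprime p := ((Nat.Prime.coprime_iff_not_dvd hp).mpr hpm).symm
  have hcard' : Nat.card G = m * p ^ e := by rw [hcard, mul_comm]
  obtain ⟨hC, hD⟩ := psolv_aux p (Nat.card G) G hG le_rfl m e hcard' hmp
  have hidx : ∀ H : Subgroup G, Nat.card H = m → H.index = p ^ e := by
    intro H hH
    have h1 := Subgroup.card_mul_index H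
    rw [hH, hcard'] at h1
    have hmpos : 0 < m := by
      rcases Nat.eq_zero_or_pos m with h | h
      · rw [h, zero_mul] at hcard'
        exact absurd hcard' (Nat.card_pos (α := G)).ne'
      · exact h
    exact Nat.eq_of_mul_eq_mul_left hmpos h1
  have hcardm : ∀ H : Subgroup G, (Nat.card H).Coprime p → (∃ n : ℕ, H.index = p ^ n) →
      Nat.card H = m := by
    rintro H hH ⟨n, hn⟩
    have h1 := Subgroup.card_mul_index H
    rw [hn, hcard'] at h1
    exact card_eq_of_pcompl hH hmp h1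
  refine ⟨?_, ?_, ?_⟩
  · obtain ⟨H, hH, -⟩ := hD ⊥ (by simp)
    exact ⟨H, by rw [hH]; exact hmp, e, hidx H hH⟩
  · intro H₁ H₂ h1 h1' h2 h2'
    obtain ⟨g, hg⟩ := hC H₁ H₂ (hcardm H₁ h1 h1') (hcardm H₂ h2 h2')
    exact ⟨g, by rw [← hg, smul_eq_map]⟩
  · intro U hU
    obtain ⟨H, hH, hUH⟩ := hD U hU
    refine ⟨H, by rw [hH]; exact hmp, ⟨e, hidx H hH⟩, 1, ?_⟩
    rintro x ⟨u, hu, rfl⟩
    have : (MulAut.conj (1 : G)).toMonoidHom u = u := by simp
    rw [this]
    exact hUH hu

end Cfsg.Agent.S3744
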