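import Cfsg.Statements.S5421
import Cfsg.Agent.Lib.Helper90.Basic
import Cfsg.Agent.Lib.Helper90.PGroup
import Cfsg.Agent.Lib.Helper90.Dihedral
import Cfsg.Agent.Lib.Helper90.Invert

set_option autoImplicit false
open Cfsg

namespace Cfsg.Agent.S5421

open scoped commutatorElement

/-- Let Q be an extraspecial 2-subgroup of the finite group G whose centralizer in G is its centre Z and which is normal in the centralizer of Z. If some involution b of Q outside Z has Z inside the largest normal 2-subgroup of the centralizer of b, then Q is a large extraspecial 2-subgroup of G. -/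
theorem result {G : Type*} [Group G] [Finite G] (Q : Subgroup G) (hL1 : Cfsg.IsExtraspecial 2 ↥Q) (hL2 : Subgroup.centralizer (Q : Set G) = ((Subgroup.center ↥Q).map Q.subtype)) (hL3 : Subgroup.centralizer (((Subgroup.center ↥Q).map Q.subtype) : Set G) ≤ Subgroup.normalizer (Q : Set G)) (b : G) (hbQ : b ∈ Q) (hbZ : b ∉ ((Subgroup.center ↥Q).map Q.subtype)) (hb : orderOf b = 2) (hZ : ((Subgroup.center ↥Q).map Q.subtype) ≤ (Cfsg.pCore 2 ↥(Subgroup.centralizer ({b} : Set G))).map (Subgroup.centralizer ({b} : Set G)).subtype) : Cfsg.IsLargeExtraspecial Q := by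
  have hQ2 : IsPGroup 2 ↥Q := hL1.1.1
  have hcard : Nat.card (Subgroup.center ↥Q) = 2 := hL1.2
  have hcomm : commutator ↥Q = Subgroup.center ↥Q := hL1.1.2.2
  refine ⟨hL1, hL2, hL3, ?_⟩
  intro K hKodd hQK
  obtain ⟨z, hzZ, hz1⟩ := Lib.Helper90.PGroup.exists_mem_center_map_ne_one hcard
  have hzQ : z ∈ Q := Lib.Helper90.PGroup.center_map_le Q hzZ
  have hzz : z * z = 1 := by
    by_contra h
    have h2 : z * z ∈ (Subgroup.center ↥Q).map Q.subtype := Subgroup.mul_mem _ hzZ hzZ
    have h3 : z * z = z := Lib.Helper90.PGroup.eq_of_mem_center_map hcard h2 hzZ h hz1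
    apply hz1
    simpa using h3
  have hb2 : b * b = 1 := Lib.Helper90.Dihedral.mul_self_of_orderOf_two hb
  have hnorm : ∀ q ∈ Q, ∀ k ∈ K, q * k * q⁻¹ ∈ K :=
    fun q hq k hk => (Subgroup.mem_normalizer_iff.mp (hQK hq) k).mp hk
  -- Step 1: z has no fixed points on K
  have hCz : ∀ k ∈ K, z * k = k * z → k = 1 := by
    intro k hk hkz
    have hkN : k ∈ Subgroup.normalizer (Q : Set G) := by
      apply hL3
      rw [Subgroup.mem_centralizer_iff]
      intro y hy
      by_cases hy1 : y = 1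
      · subst hy1; simp
      · have : y = z := Lib.Helper90.PGroup.eq_of_mem_center_map hcard hy hzZ hy1 hz1
        subst this; exact hkz
    have hkC : k ∈ Subgroup.centralizer (Q : Set G) := by
      rw [Subgroup.mem_centralizer_iff]
      intro q hq
      have h1 : k * q * k⁻¹ * q⁻¹ ∈ Q :=
        Q.mul_mem ((Subgroup.mem_normalizer_iff.mp hkN q).mp hq) (Q.inv_mem hq)
      have h2 : k * q * k⁻¹ * q⁻¹ ∈ K := by
        have h3 := hnorm q hq k⁻¹ (K.inv_mem hk)
        have := K.mul_mem hk h3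
        simpa [mul_assoc] using this
      have h4 := Lib.Helper90.Basic.eq_one_of_mem_odd_of_mem_two K Q hKodd hQ2 _ h2 h1
      have h5 : k * q = q * k := by
        have := congrArg (fun t => t * q * k) h4
        simpa [mul_assoc] using this
      exact h5.symm
    rw [hL2] at hkC
    exact Lib.Helper90.Basic.eq_one_of_mem_odd_of_mem_two K Q hKodd hQ2 _ hk
      (Lib.Helper90.PGroup.center_map_le Q hkC)
  -- Step 2: b has no fixed points on K
  have hCb : ∀ k ∈ K, b * k = k * b → k = 1 := by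
    intro k hk hkb
    apply hCz k hk
    have hkC : k ∈ Subgroup.centralizer ({b} : Set G) := by
      rw [Subgroup.mem_centralizer_iff]
      intro y hy
      rw [Set.mem_singleton_iff] at hy
      rw [hy]; exact hkb
    obtain ⟨z', hz', hzz'⟩ := hZ hzZ
    have hnormal : (Cfsg.pCore 2 ↥(Subgroup.centralizer ({b} : Set G))).Normal :=
      Lib.Helper90.Basic.pCore_normal 2
    have h1 : (⟨k, hkC⟩ : Subgroup.centralizer ({b} : Set G)) * z'⁻¹ * (⟨k, hkC⟩)⁻¹
        ∈ Cfsg.pCore 2 ↥(Subgroup.centralizer ({b} : Set G)) :=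
      hnormal.conj_mem _ (inv_mem hz') _
    have h2 : z' * ((⟨k, hkC⟩ : Subgroup.centralizer ({b} : Set G)) * z'⁻¹ * (⟨k, hkC⟩)⁻¹)
        ∈ Cfsg.pCore 2 ↥(Subgroup.centralizer ({b} : Set G)) := mul_mem hz' h1
    have hO : IsPGroup 2 ↥((Cfsg.pCore 2 ↥(Subgroup.centralizer ({b} : Set G))).map
        (Subgroup.centralizer ({b} : Set G)).subtype) :=
      (Lib.Helper90.Basic.pCore_isPGroup 2).map _
    have h3 : z * k * z⁻¹ * k⁻¹ ∈ (Cfsg.pCore 2 ↥(Subgroup.centralizer ({b} : Set G))).map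
        (Subgroup.centralizer ({b} : Set G)).subtype := by
      refine ⟨_, h2, ?_⟩
      have hzz'' : (z' : G) = z := hzz'
      simp [hzz'', mul_assoc]
    have h4 : z * k * z⁻¹ * k⁻¹ ∈ K := K.mul_mem (hnorm z hzQ k hk) (K.inv_mem hk)
    have h5 := Lib.Helper90.Basic.eq_one_of_mem_odd_of_mem_two K _ hKodd hO _ h4 h3
    have := congrArg (fun t => t * k * z) h5
    simpa [mul_assoc] using this
  -- Step 3: an element q with q b q⁻¹ = z b
  have hq : ∃ q ∈ Q, q * b * q⁻¹ = z * b := by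
    have h1 : ∃ q ∈ Q, q * b ≠ b * q := by
      by_contra hcon
      push Not at hcon
      apply hbZ
      refine ⟨⟨b, hbQ⟩, ?_, rfl⟩
      rw [SetLike.mem_coe, Subgroup.mem_center_iff]
      intro g
      ext
      simpa using hcon g g.2
    obtain ⟨q, hq, hqb⟩ := h1
    refine ⟨q, hq, ?_⟩
    have h2 : ⁅(⟨q, hq⟩ : Q), ⟨b, hbQ⟩⁆ ∈ commutator ↥Q := by
      rw [commutator_def]
      exact Subgroup.commutator_mem_commutator (Subgroup.mem_top _) (Subgroup.mem_top _)
    rw [hcomm] at h2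
    have h3 : q * b * q⁻¹ * b⁻¹ ∈ (Subgroup.center ↥Q).map Q.subtype :=
      ⟨_, h2, by simp [commutatorElement_def]⟩
    have h4 : q * b * q⁻¹ * b⁻¹ ≠ 1 := by
      intro h
      apply hqb
      have := congrArg (fun t => t * b * q) h
      simpa [mul_assoc] using this
    have h5 : q * b * q⁻¹ * b⁻¹ = z :=
      Lib.Helper90.PGroup.eq_of_mem_center_map hcard h3 hzZ h4 hz1
    have := congrArg (fun t => t * b) h5
    simpa [mul_assoc] using this
  obtain ⟨q, hqQ, hqb⟩ := hq
  have hCzb : ∀ k ∈ K, (z * b) * k = k * (z * b) → k = 1 := by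
    intro k hk hkzb
    rw [← hqb] at hkzb
    have h1 : q⁻¹ * k * q ∈ K := by
      have := hnorm q⁻¹ (Q.inv_mem hqQ) k hk
      simpa using this
    have h2 : b * (q⁻¹ * k * q) = (q⁻¹ * k * q) * b := by
      calc b * (q⁻¹ * k * q) = q⁻¹ * ((q * b * q⁻¹) * k) * q := by simp [mul_assoc]
        _ = q⁻¹ * (k * (q * b * q⁻¹)) * q := by rw [hkzb]
        _ = (q⁻¹ * k * q) * b := by simp [mul_assoc]
    have h3 := hCb _ h1 h2
    have := congrArg (fun t => q * t * q⁻¹) h3
    simpa [mul_assoc] using this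
  have hzb2 : (z * b) * (z * b) = 1 := by
    have hzb : b * z = z * b := Lib.Helper90.PGroup.center_map_comm Q hzZ hbQ
    calc (z * b) * (z * b) = z * (b * z) * b := by simp [mul_assoc]
      _ = z * (z * b) * b := by rw [hzb]
      _ = (z * z) * (b * b) := by simp [mul_assoc]
      _ = 1 := by rw [hzz, hb2, one_mul]
  have hinvz := Lib.Helper90.Invert.inverts_of_fixed_point_free K z hzz (hnorm z hzQ) hCz
  have hinvb := Lib.Helper90.Invert.inverts_of_fixed_point_free K b hb2 (hnorm b hbQ) hCb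
  have hinvzb := Lib.Helper90.Invert.inverts_of_fixed_point_free K (z * b) hzb2
    (hnorm (z * b) (Q.mul_mem hzQ hbQ)) hCzb
  rw [eq_bot_iff]
  intro k hk
  have h1 : z * k * z⁻¹ = k⁻¹ := hinvz k hk
  have h2 : b * k * b⁻¹ = k⁻¹ := hinvb k hk
  have h3 : (z * b) * k⁻¹ * (z * b)⁻¹ = k := by
    have := hinvzb k⁻¹ (K.inv_mem hk)
    simpa using this
  have e : z * k * z⁻¹ = (z * b) * (b * k * b⁻¹) * (z * b)⁻¹ := by
    have hbb' : b⁻¹ * b⁻¹ = 1 := by rw [← mul_inv_rev, hb2, inv_one]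
    calc z * k * z⁻¹ = z * (b * b) * k * (b⁻¹ * b⁻¹) * z⁻¹ := by rw [hb2, hbb']; simp
      _ = (z * b) * (b * k * b⁻¹) * (z * b)⁻¹ := by simp [mul_assoc]
  have h4 : z * k * z⁻¹ = k := by rw [e, h2, h3]
  have h5 : k * k = 1 := by
    have : k⁻¹ = k := h1.symm.trans h4
    calc k * k = k * k⁻¹ := by rw [this]
      _ = 1 := mul_inv_cancel k
  exact Lib.Helper90.Basic.eq_one_of_mem_odd_of_pow_two K hKodd k hk 1 (by simpa [pow_two] using h5)

end Cfsg.Agent.S5421
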