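import Cfsg.Statements.S5422
import Cfsg.Agent.S5421
import Cfsg.Agent.S0026
import Cfsg.Agent.Lib.Helper90.Basic
import Cfsg.Agent.Lib.Helper90.Count
import Cfsg.Agent.Lib.Helper90.ESData

set_option autoImplicit false
open Cfsg

namespace Cfsg.Agent.S5422

theorem inv_conj {G : Type*} [Group G] {a b n : G} (haa : a * a = 1) (hna : n * a = a * n)
    (hnb : n * b * n⁻¹ = a * b) : n⁻¹ * b * n = a * b := by
  have h1 : n⁻¹ * a = a * n⁻¹ := by
    have := congrArg (fun u => n⁻¹ * u * n⁻¹) hna
    simpa [mul_assoc] using this.symm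
  have h2 : b = a * (n⁻¹ * b * n) := by
    calc b = n⁻¹ * (n * b * n⁻¹) * n := by group
      _ = n⁻¹ * (a * b) * n := by rw [hnb]
      _ = (n⁻¹ * a) * b * n := by group
      _ = a * n⁻¹ * b * n := by rw [h1]
      _ = a * (n⁻¹ * b * n) := by group
  calc n⁻¹ * b * n = (a * a) * (n⁻¹ * b * n) := by rw [haa, one_mul]
    _ = a * (a * (n⁻¹ * b * n)) := by group
    _ = a * b := by rw [← h2]

theorem inv_conj' {G : Type*} [Group G] {a n : G} (hna : n * a = a * n) : n⁻¹ * a * n = a := by
  have := congrArg (fun u => n⁻¹ * u) hna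
  simpa [mul_assoc] using this.symm

theorem conj_eq {G : Type*} [Group G] {a n : G} (hna : n * a = a * n) : n * a * n⁻¹ = a := by
  rw [hna]; group

theorem conj_mul {G : Type*} [Group G] (n a b : G) :
    n * (a * b) * n⁻¹ = (n * a * n⁻¹) * (n * b * n⁻¹) := by group

theorem conj_conj {G : Type*} [Group G] (m n a : G) :
    (m * n) * a * (m * n)⁻¹ = m * (n * a * n⁻¹) * m⁻¹ := by group

/-- The normalizer of a four-group generated by commuting involutions `z`, `s` induces the
full automorphism group if it contains elements acting as two suitable transvections. -/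
theorem relIndex_four {G : Type*} [Group G] (V : Subgroup G) (z s t y : G)
    (hmemV : ∀ x, x ∈ V ↔ x = 1 ∨ x = z ∨ x = s ∨ x = z * s)
    (hz1 : z ≠ 1) (hs1 : s ≠ 1) (hzs : z ≠ s) (hzz : z * z = 1) (hss : s * s = 1)
    (hsz : s * z = z * s)
    (htz : t * z = z * t) (hts : t * s * t⁻¹ = z * s)
    (hys : y * s = s * y) (hyz : y * z * y⁻¹ = z * s) :
    (Subgroup.centralizer (V : Set G)).relIndex (Subgroup.normalizer (V : Set G)) = 6 := by
  classical
  have hzV : z ∈ V := (hmemV z).mpr (Or.inr (Or.inl rfl))
  have hsV : s ∈ V := (hmemV s).mpr (Or.inr (Or.inr (Or.inl rfl)))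
  have hzsV : z * s ∈ V := (hmemV _).mpr (Or.inr (Or.inr (Or.inr rfl)))
  have hNmem : ∀ n : G, (n * z * n⁻¹ ∈ V) → (n * s * n⁻¹ ∈ V) → (n⁻¹ * z * n ∈ V) →
      (n⁻¹ * s * n ∈ V) → n ∈ Subgroup.normalizer (V : Set G) := by
    intro n h1 h2 h3 h4
    apply S0026.mem_normalizer_of_conj_mem
    · intro x hx
      rcases (hmemV x).mp hx with h | h | h | h
      · rw [h]; simp
      · rw [h]; exact h1
      · rw [h]; exact h2
      · rw [h, conj_mul]; exact V.mul_mem h1 h2
    · intro x hx
      have e : ∀ a b : G, n⁻¹ * (a * b) * n = (n⁻¹ * a * n) * (n⁻¹ * b * n) := by intros; group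
      rcases (hmemV x).mp hx with h | h | h | h
      · rw [h]; simp
      · rw [h]; exact h3
      · rw [h]; exact h4
      · rw [h, e]; exact V.mul_mem h3 h4
  have ct_z : t * z * t⁻¹ = z := conj_eq htz
  have cy_s : y * s * y⁻¹ = s := conj_eq hys
  have htN : t ∈ Subgroup.normalizer (V : Set G) := by
    apply hNmem
    · rw [ct_z]; exact hzV
    · rw [hts]; exact hzsV
    · rw [inv_conj' htz]; exact hzV
    · rw [inv_conj hzz htz hts]; exact hzsV
  have hyz' : y * z * y⁻¹ = s * z := by rw [hyz, hsz]
  have hyN : y ∈ Subgroup.normalizer (V : Set G) := by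
    apply hNmem
    · rw [hyz]; exact hzsV
    · rw [cy_s]; exact hsV
    · rw [inv_conj hss hys hyz', hsz]; exact hzsV
    · rw [inv_conj' hys]; exact hsV
  have hcard : (({z, s, z * s} : Finset G).offDiag).card = 6 := by
    have h3 : ({z, s, z * s} : Finset G).card = 3 := by
      rw [Finset.card_eq_three]
      refine ⟨z, s, z * s, hzs, ?_, ?_, rfl⟩
      · intro h
        apply hs1
        have := congrArg (fun u => z⁻¹ * u) h
        simpa using this.symm
      · intro h
        apply hz1
        have := congrArg (fun u => u * s⁻¹) h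
        simpa using this.symm
    rw [Finset.offDiag_card, h3]
  rw [← hcard]
  apply Lib.Helper90.Count.relIndex_eq_card_of_invariant _ _ (fun n => (n * z * n⁻¹, n * s * n⁻¹))
  · intro a _ b _
    rw [Subgroup.mem_centralizer_iff]
    constructor
    · intro h
      have h1 := h z hzV
      have h2 := h s hsV
      apply Prod.ext
      · show a * z * a⁻¹ = b * z * b⁻¹
        have := congrArg (fun u => a * u * b⁻¹) h1
        simpa [mul_assoc] using this
      · show a * s * a⁻¹ = b * s * b⁻¹
        have := congrArg (fun u => a * u * b⁻¹) h2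
        simpa [mul_assoc] using this
    · intro h x hx
      have h1 : a * z * a⁻¹ = b * z * b⁻¹ := congrArg Prod.fst h
      have h2 : a * s * a⁻¹ = b * s * b⁻¹ := congrArg Prod.snd h
      have c1 : Commute z (a⁻¹ * b) := by
        show z * (a⁻¹ * b) = a⁻¹ * b * z
        have := congrArg (fun u => a⁻¹ * u * b) h1
        simpa [mul_assoc] using this
      have c2 : Commute s (a⁻¹ * b) := by
        show s * (a⁻¹ * b) = a⁻¹ * b * s
        have := congrArg (fun u => a⁻¹ * u * b) h2
        simpa [mul_assoc] using this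
      rcases (hmemV x).mp hx with h | h | h | h
      · rw [h]; simp
      · rw [h]; exact c1
      · rw [h]; exact c2
      · rw [h]; exact c1.mul_left c2
  · intro n hn
    have hnV : ∀ v, v ∈ V ↔ n * v * n⁻¹ ∈ V := fun v => Subgroup.mem_normalizer_iff.mp hn v
    rw [Finset.mem_offDiag]
    refine ⟨?_, ?_, ?_⟩
    · have h1 := (hnV z).mp hzV
      rcases (hmemV _).mp h1 with h | h | h | h
      · exfalso
        apply hz1
        have := congrArg (fun u => n⁻¹ * u * n) h
        simpa [mul_assoc] using this
      · simp [h]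
      · simp [h]
      · simp [h]
    · have h1 := (hnV s).mp hsV
      rcases (hmemV _).mp h1 with h | h | h | h
      · exfalso
        apply hs1
        have := congrArg (fun u => n⁻¹ * u * n) h
        simpa [mul_assoc] using this
      · simp [h]
      · simp [h]
      · simp [h]
    · intro h
      apply hzs
      have := congrArg (fun u => n⁻¹ * u * n) h
      simpa [mul_assoc] using this
  · rintro ⟨a, b⟩ hv
    rw [Finset.mem_offDiag] at hv
    obtain ⟨ha, hb, hab⟩ := hv
    simp only [Finset.mem_insert, Finset.mem_singleton] at ha hb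
    have e1 : z * (z * s) = s := by rw [← mul_assoc, hzz, one_mul]
    have e2 : z * s * s = z := by rw [mul_assoc, hss, mul_one]
    have e3 : s * (z * s) = z := by rw [← mul_assoc, hsz, mul_assoc, hss, mul_one]
    have hty_z : (t * y) * z * (t * y)⁻¹ = s := by
      rw [conj_conj, hyz, conj_mul, ct_z, hts, e1]
    have hty_s : (t * y) * s * (t * y)⁻¹ = z * s := by
      rw [conj_conj, cy_s, hts]
    rcases ha with ha | ha | ha <;> rcases hb with hb | hb | hb <;> rw [ha, hb] at hab ⊢
    · exact absurd rfl hab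
    · exact ⟨1, Subgroup.one_mem _, by simp⟩
    · exact ⟨t, htN, Prod.ext ct_z hts⟩
    · refine ⟨t * y * t, Subgroup.mul_mem _ (Subgroup.mul_mem _ htN hyN) htN, Prod.ext ?_ ?_⟩
      · show (t * y * t) * z * (t * y * t)⁻¹ = s
        rw [conj_conj, ct_z, hty_z]
      · show (t * y * t) * s * (t * y * t)⁻¹ = z
        rw [conj_conj, hts, conj_mul, hty_z, hty_s, e3]
    · exact absurd rfl hab
    · exact ⟨t * y, Subgroup.mul_mem _ htN hyN, Prod.ext hty_z hty_s⟩
    · refine ⟨y * t, Subgroup.mul_mem _ hyN htN, Prod.ext ?_ ?_⟩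
      · show (y * t) * z * (y * t)⁻¹ = z * s
        rw [conj_conj, ct_z, hyz]
      · show (y * t) * s * (y * t)⁻¹ = z
        rw [conj_conj, hts, conj_mul, hyz, cy_s, e2]
    · exact ⟨y, hyN, Prod.ext hyz cy_s⟩
    · exact absurd rfl hab

/-- Let Q be an extraspecial 2-subgroup of the finite group G whose centralizer in G is its centre Z and which is normal in the centralizer of Z; suppose Q has width at least 2 (order 2^(2w+1) with w ≥ 2) and g is an element of G not normalizing Z with g Z g⁻¹ inside Q. Then Z lies inside g Q g⁻¹; writing V for the subgroup generated by Z and g Z g⁻¹ (a four-group), the normalizer of V induces on V its full automorphism group, that is, the centralizer of V has index 6 in the normalizer of V; and Q is a large extraspecial 2-subgroup of G. -/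
theorem result {G : Type*} [Group G] [Finite G] (Q : Subgroup G) (hL1 : Cfsg.IsExtraspecial 2 ↥Q) (hL2 : Subgroup.centralizer (Q : Set G) = ((Subgroup.center ↥Q).map Q.subtype)) (hL3 : Subgroup.centralizer (((Subgroup.center ↥Q).map Q.subtype) : Set G) ≤ Subgroup.normalizer (Q : Set G)) (w : ℕ) (hw : 2 ≤ w) (hcard : Nat.card ↥Q = 2 ^ (2 * w + 1)) (g : G) (hg : g ∉ Subgroup.normalizer (((Subgroup.center ↥Q).map Q.subtype) : Set G)) (hZg : (((Subgroup.center ↥Q).map Q.subtype)).map (MulAut.conj g).toMonoidHom ≤ Q) : ((Subgroup.center ↥Q).map Q.subtype) ≤ (Q).map (MulAut.conj g).toMonoidHom ∧ (Subgroup.centralizer ((((Subgroup.center ↥Q).map Q.subtype) ⊔ (((Subgroup.center ↥Q).map Q.subtype)).map (MulAut.conj g).toMonoidHom : Subgroup G) : Set G)).relIndex (Subgroup.normalizer ((((Subgroup.center ↥Q).map Q.subtype) ⊔ (((Subgroup.center ↥Q).map Q.subtype)).map (MulAut.conj g).toMonoidHom : Subgroup G) : Set G)) = 6 ∧ Cfsg.IsLargeExtraspecial Q := by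
  obtain ⟨z, hE, hzZ, hZ⟩ := Lib.Helper90.ESData.exists_esd Q hL1 hL2 hL3
  have hmemZ : ∀ x, x ∈ (Subgroup.center ↥Q).map Q.subtype ↔ x = 1 ∨ x = z := by
    intro x
    constructor
    · exact hZ x
    · rintro (h | h)
      · rw [h]; exact Subgroup.one_mem _
      · rw [h]; exact hzZ
  have hcard9 : 9 ≤ Nat.card Q := by
    rw [hcard]
    calc 9 ≤ 2 ^ 5 := by norm_num
      _ ≤ 2 ^ (2 * w + 1) := Nat.pow_le_pow_right (by norm_num) (by omega)
  have hsQ : g * z * g⁻¹ ∈ Q := hZg ⟨z, hzZ, by simp [MulAut.conj_apply]⟩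
  have hsz : g * z * g⁻¹ ≠ z := by
    intro h
    apply hg
    apply S0026.mem_normalizer_of_conj_mem
    · intro x hx
      rcases (hmemZ x).mp hx with h1 | h1
      · rw [h1]; simp
      · rw [h1, h]; exact hzZ
    · intro x hx
      rcases (hmemZ x).mp hx with h1 | h1
      · rw [h1]; simp
      · rw [h1]
        have : g⁻¹ * z * g = z := by
          have := congrArg (fun t => g⁻¹ * t * g) h
          simpa [mul_assoc] using this.symm
        rw [this]; exact hzZ
  have hzQ' := hE.mem_conj_of_conj_mem hcard9 g hsQ hsz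
  have hE' := hE.conj g
  have hmemZ' : ∀ x, x ∈ ((Subgroup.center ↥Q).map Q.subtype).map (MulAut.conj g).toMonoidHom ↔
      x = 1 ∨ x = g * z * g⁻¹ := by
    intro x
    rw [Lib.Helper90.Basic.mem_map_conj_iff, hmemZ]
    constructor
    · rintro (h | h)
      · left
        have := congrArg (fun t => g * t * g⁻¹) h
        simpa [mul_assoc] using this
      · right
        have := congrArg (fun t => g * t * g⁻¹) h
        simpa [mul_assoc] using this
    · rintro (h | h)
      · left; rw [h]; simp
      · right; rw [h]; group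
  generalize hs : g * z * g⁻¹ = s at hsQ hsz hE' hmemZ'
  have hsz' : s * z = z * s := hE.zc s hsQ
  refine ⟨?_, ?_, ?_⟩
  · intro x hx
    rcases (hmemZ x).mp hx with h | h
    · rw [h]; exact Subgroup.one_mem _
    · rw [h]; exact hzQ'
  · obtain ⟨t, ht, hts⟩ := hE.exists_conj hsQ hE'.z1 hsz
    obtain ⟨y, hy, hyz⟩ := hE'.exists_conj hzQ' hE.z1 (Ne.symm hsz)
    have hmemV : ∀ x, x ∈ ((Subgroup.center ↥Q).map Q.subtype) ⊔
        (((Subgroup.center ↥Q).map Q.subtype)).map (MulAut.conj g).toMonoidHom ↔
        x = 1 ∨ x = z ∨ x = s ∨ x = z * s := by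
      intro x
      rw [Lib.Helper90.Count.mem_sup_of_commute]
      · constructor
        · rintro ⟨h, hh, k, hk, rfl⟩
          rcases (hmemZ h).mp hh with h1 | h1 <;> rcases (hmemZ' k).mp hk with h2 | h2 <;>
            simp [h1, h2]
        · rintro (h | h | h | h)
          · exact ⟨1, Subgroup.one_mem _, 1, Subgroup.one_mem _, by simp [h]⟩
          · exact ⟨z, hzZ, 1, Subgroup.one_mem _, by simp [h]⟩
          · exact ⟨1, Subgroup.one_mem _, s, (hmemZ' s).mpr (Or.inr rfl), by simp [h]⟩
          · exact ⟨z, hzZ, s, (hmemZ' s).mpr (Or.inr rfl), h⟩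
      · intro h hh k hk
        rcases (hmemZ h).mp hh with h1 | h1 <;> rcases (hmemZ' k).mp hk with h2 | h2 <;>
          simp [h1, h2, hsz']
    exact relIndex_four _ z s t y hmemV hE.z1 hE'.z1 (Ne.symm hsz) hE.zz hE'.zz hsz'
      (hE.zc t ht) hts (hE'.zc y hy) (by rw [hyz, hsz'])
  · apply S5421.result Q hL1 hL2 hL3 s hsQ
    · intro h
      rcases (hmemZ s).mp h with h1 | h1
      · exact hE'.z1 h1
      · exact hsz h1
    · have : Fact (Nat.Prime 2) := ⟨Nat.prime_two⟩
      exact orderOf_eq_prime (by rw [pow_two]; exact hE'.zz) hE'.z1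
    · intro x hx
      rcases (hmemZ x).mp hx with h | h
      · rw [h]; exact Subgroup.one_mem _
      · rw [h]
        have hzC : z ∈ Subgroup.centralizer ({s} : Set G) := by
          rw [Subgroup.mem_centralizer_iff]
          intro u hu
          rw [Set.mem_singleton_iff] at hu
          rw [hu]; exact hsz'
        have hNn : ((Q.map (MulAut.conj g).toMonoidHom).subgroupOf
            (Subgroup.centralizer ({s} : Set G))).Normal := by
          constructor
          intro n hn c
          rw [Subgroup.mem_subgroupOf] at hn ⊢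
          have hc : (c : G) * s = s * c := by
            have := Subgroup.mem_centralizer_iff.mp c.2 s (Set.mem_singleton s)
            exact this.symm
          have := hE'.norm c hc n hn
          simpa using this
        have hNp : IsPGroup 2 ((Q.map (MulAut.conj g).toMonoidHom).subgroupOf
            (Subgroup.centralizer ({s} : Set G))) := by
          have h1 : IsPGroup 2 (Q.map (MulAut.conj g).toMonoidHom) := hL1.1.1.map _
          exact h1.comap_subtype
        have h2 := Lib.Helper90.Basic.le_pCore 2 _ hNn hNp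
        have h3 : (⟨z, hzC⟩ : Subgroup.centralizer ({s} : Set G)) ∈
            (Q.map (MulAut.conj g).toMonoidHom).subgroupOf (Subgroup.centralizer ({s} : Set G)) := by
          rw [Subgroup.mem_subgroupOf]; exact hzQ'
        exact ⟨⟨z, hzC⟩, h2 h3, rfl⟩

end Cfsg.Agent.S5422
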