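import Cfsg.Statements.S0910
-- import your own Cfsg.Agent.* helpers here
import Mathlib
import Cfsg.Agent.Lib.CT.Kernel
import Cfsg.Agent.Lib.CT.LinChar
import Cfsg.Agent.Lib.Helper80.Burnside
import Cfsg.Agent.Lib.Helper80.Core
import Cfsg.Agent.Lib.Helper16.LocalIdeal

set_option autoImplicit false
open Cfsg

namespace Cfsg.Agent.S0910

/-- A nontrivial element in the centre of a Sylow `p`-subgroup has class size prime to `p`. -/
theorem exists_central_pElement {G : Type*} [Group G] [Finite G] (p : ℕ) [Fact p.Prime]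
    (hp : p ∣ Nat.card G) :
    ∃ g : G, g ≠ 1 ∧ ¬ p ∣ (Subgroup.centralizer ({g} : Set G)).index := by
  obtain ⟨P⟩ : Nonempty (Sylow p G) := inferInstance
  have hP : (P : Subgroup G) ≠ ⊥ := P.ne_bot_of_dvd_card hp
  have : Nontrivial (P : Subgroup G) := (Subgroup.nontrivial_iff_ne_bot _).mpr hP
  have := P.isPGroup'.center_nontrivial
  obtain ⟨z, hz⟩ := exists_ne (1 : Subgroup.center (P : Subgroup G))
  refine ⟨((z : (P : Subgroup G)) : G), ?_, ?_⟩
  · intro h
    apply hz
    apply Subtype.ext
    apply Subtype.ext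
    simpa using h
  · have hle : (P : Subgroup G) ≤ Subgroup.centralizer ({((z : (P : Subgroup G)) : G)} : Set G) := by
      intro x hx
      rw [Subgroup.mem_centralizer_iff]
      intro y hy
      rw [Set.mem_singleton_iff] at hy
      subst hy
      have h1 := Subgroup.mem_center_iff.mp z.2 ⟨x, hx⟩
      have h2 := congrArg Subtype.val h1
      simpa using h2.symm
    intro hdvd
    exact P.not_dvd_index (dvd_trans hdvd (Subgroup.index_dvd_of_le hle))

/-- Let G be a non-abelian finite simple group and p a prime. If an irreducible character χ lies in the principal block (relative to a maximal ideal of the algebraic integers containing p) and χ 1 is a power of p, then χ is the principal character. -/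
theorem result {G : Type*} [Group G] [Finite G] (p : ℕ) [Fact p.Prime] (M : Ideal Cfsg.AlgInt) (hM : Cfsg.IsPModular p M) [IsSimpleGroup G] (hna : ∃ a b : G, a * b ≠ b * a) (χ : Cfsg.IrrCharacter G) (hχ : χ ∈ Cfsg.principalBlock M G) (k : ℕ) (hdeg : (χ : G → ℂ) 1 = (p : ℂ) ^ k) : (χ : G → ℂ) = fun _ => 1 := by
  classical
  have : Fintype G := Fintype.ofFinite G
  have hp : p.Prime := hM.1
  have hmax : M.IsMaximal := hM.2.1
  have hirr := χ.2
  have hchar : Cfsg.IsCharacter G (χ : G → ℂ) := Cfsg.Agent.Lib.CT.Wedderburn.isCharacter_of_irr hirr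
  have hdeg' : (χ : G → ℂ) 1 = ((p ^ k : ℕ) : ℂ) := by rw [hdeg]; push_cast; rfl
  have hcd : Cfsg.charDegree (χ : G → ℂ) = p ^ k :=
    Cfsg.Agent.Lib.CT.Wedderburn.charDegree_eq_of_apply_one hdeg'
  -- the kernel
  obtain ⟨N, hNn, hN⟩ := Cfsg.Agent.Lib.CT.Kernel.exists_normal_ker hchar
  rcases hNn.eq_bot_or_eq_top with hbot | htop
  swap
  · -- χ is constant
    have hconst : ∀ g : G, (χ : G → ℂ) g = (χ : G → ℂ) 1 := fun g => (hN g).mp (by rw [htop]; trivial)
    have h1 := Cfsg.Agent.Lib.Helper80.Core.sum_normSq_eq_card χ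
    simp only [hconst, Finset.sum_const, Finset.card_univ, nsmul_eq_mul] at h1
    rw [← Nat.card_eq_fintype_card] at h1
    have hG : (0 : ℝ) < Nat.card G := by exact_mod_cast Nat.card_pos
    have h2 : Complex.normSq ((χ : G → ℂ) 1) = 1 := by
      have : (Nat.card G : ℝ) * Complex.normSq ((χ : G → ℂ) 1) = (Nat.card G : ℝ) * 1 := by
        rw [h1, mul_one]
      exact mul_left_cancel₀ hG.ne' this
    rw [hdeg', Complex.normSq_natCast] at h2
    have h3 : p ^ k * p ^ k = 1 := by exact_mod_cast h2
    have h4 : p ^ k = 1 := Nat.eq_one_of_mul_eq_one_left h3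
    funext g
    rw [hconst g, hdeg', h4, Nat.cast_one]
  -- χ is faithful
  have hfaith : ∀ g : G, (χ : G → ℂ) g = (χ : G → ℂ) 1 → g = 1 := by
    intro g hg
    have : g ∈ N := (hN g).mpr hg
    rw [hbot] at this
    exact Subgroup.mem_bot.mp this
  -- the centre of χ is trivial
  have hcentre : ∀ g : G, ‖(χ : G → ℂ) g‖ = ((χ : G → ℂ) 1).re → g = 1 := by
    intro g hg
    have hz := Cfsg.Agent.Lib.CT.Kernel.mem_center_of_norm_eq hchar hfaith hg
    have hZn : (Subgroup.center G).Normal := inferInstance
    rcases hZn.eq_bot_or_eq_top with hb | ht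
    · rw [hb] at hz
      exact Subgroup.mem_bot.mp hz
    · exfalso
      obtain ⟨a, b, hab⟩ := hna
      apply hab
      have ha : a ∈ Subgroup.center G := by rw [ht]; trivial
      exact (Subgroup.mem_center_iff.mp ha b).symm
  exfalso
  obtain ⟨a, b, hab⟩ := hna
  have hab1 : a ≠ 1 := by
    rintro rfl
    exact hab (by simp)
  by_cases hk : k = 0
  · -- linear character: every element is in the centre of χ
    subst hk
    have h1 : (χ : G → ℂ) 1 = 1 := by rw [hdeg]; simp
    have h2 := Cfsg.Agent.Lib.CT.LinChar.linear_norm hchar h1 a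
    apply hab1
    apply hcentre
    rw [h2, h1]
    simp
  · have hpk : p ∣ p ^ k := dvd_pow_self p hk
    have hpG : p ∣ Nat.card G := by
      have := Cfsg.Agent.Lib.Helper80.Integrality.charDegree_dvd_card χ
      rw [hcd] at this
      exact dvd_trans hpk this
    obtain ⟨g, hg1, hgp⟩ := exists_central_pElement (G := G) p hpG
    have hcop : Nat.Coprime (Cfsg.charDegree (χ : G → ℂ))
        (Subgroup.centralizer ({g} : Set G)).index := by
      rw [hcd]
      exact Nat.Coprime.pow_left k ((Nat.Prime.coprime_iff_not_dvd hp).mpr hgp)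
    rcases Cfsg.Agent.Lib.Helper80.Burnside.irr_eq_zero_or_norm_eq_of_coprime χ g hcop with h0 | h0
    · -- χ g = 0 : the central characters differ by the class size
      have hb : Cfsg.MemLocalIdeal M
          (Cfsg.centralChar (fun _ : G => (1 : ℂ)) g - Cfsg.centralChar (χ : G → ℂ) g) := hχ g
      have e : Cfsg.centralChar (fun _ : G => (1 : ℂ)) g - Cfsg.centralChar (χ : G → ℂ) g =
          (((Subgroup.centralizer ({g} : Set G)).index : ℕ) : ℂ) := by
        simp [Cfsg.centralChar, h0]
      rw [e] at hb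
      exact hgp ((Cfsg.Agent.Lib.Helper16.LocalIdeal.memLocalIdeal_natCast_iff hM _).mp hb)
    · exact hg1 (hcentre g h0)

end Cfsg.Agent.S0910
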