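import Cfsg.Statements.S2728
import Cfsg.Agent.Lib.Helper45.OmegaAutD8
import Cfsg.Agent.Lib.Helper45.OmegaAutSim
import Cfsg.Agent.S0791
import Cfsg.Agent.S2727
-- import your own Cfsg.Agent.* helpers here

set_option autoImplicit false
open Cfsg

namespace Cfsg.Agent.S2728

/-- Let T = PΩ⁻_{2m+2}(F) with m ≥ 3 and |F| = q odd (form with anisotropic binary part). The image G̃ of the conformal orthogonal group in Aut(T), taken modulo the inner automorphism group T, is dihedral of order 8 when m is even and q ≡ 3 (mod 4), and elementary abelian of order 4 otherwise. -/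
theorem result {F : Type*} [Field F] [Fintype F] (hodd : Odd (Fintype.card F)) {m : ℕ} (hm : 3 ≤ m) (a b : F) (hab : (∀ z₁ z₂ : F, z₁ ^ 2 + a * z₁ * z₂ + b * z₂ ^ 2 = 0 → z₁ = 0 ∧ z₂ = 0)) :
    ((Even m ∧ Fintype.card F % 4 = 3) → (∃ φ : ↥(Cfsg.pgoAut F (Cfsg.quadFormMinus m F a b)) →* DihedralGroup 4, Function.Surjective φ ∧ φ.ker = (Cfsg.Inn (Cfsg.POmega F (Cfsg.quadFormMinus m F a b))).subgroupOf (Cfsg.pgoAut F (Cfsg.quadFormMinus m F a b)))) ∧ (¬ (Even m ∧ Fintype.card F % 4 = 3) → (∃ φ : ↥(Cfsg.pgoAut F (Cfsg.quadFormMinus m F a b)) →* Multiplicative (ZMod 2 × ZMod 2), Function.Surjective φ ∧ φ.ker = (Cfsg.Inn (Cfsg.POmega F (Cfsg.quadFormMinus m F a b))).subgroupOf (Cfsg.pgoAut F (Cfsg.quadFormMinus m F a b)))) := by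
  have h2 : (2 : F) ≠ 0 := Cfsg.Agent.Lib.Helper44.FinSq.two_ne_zero_of_odd_card hodd
  have hcardι : Fintype.card ((Fin m ⊕ Fin m) ⊕ Fin 2) = 2 * (m + 1) := by
    simp only [Fintype.card_sum, Fintype.card_fin]; omega
  have hδ := Cfsg.Agent.Lib.Helper45.OmegaAutSim.minus_sim (F := F) h2 m a b hab
  have keyA := Cfsg.Agent.Lib.Helper45.OmegaAutD8.pgo_mod_inn_of_not
    (Cfsg.Agent.Lib.Helper44.NegPairs.minusQ m F a b) h2
    (Cfsg.Agent.Lib.Helper44.NegPairs.sep_minusQ h2 m a b hab) hcardι (by rw [hcardι]; omega) hδ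
  have keyB := Cfsg.Agent.Lib.Helper45.OmegaAutD8.pgo_mod_inn_of_mem
    (Cfsg.Agent.Lib.Helper44.NegPairs.minusQ m F a b) h2
    (Cfsg.Agent.Lib.Helper44.NegPairs.sep_minusQ h2 m a b hab) hcardι (by rw [hcardι]; omega) hδ
  have hiff := Cfsg.Agent.S0791.result (F := F) rfl hodd (m + 1) (by omega) a b hab
  have hnum := Cfsg.Agent.S2727.minus_cond hodd (q := Fintype.card F) m
  have e : ⇑(Cfsg.Agent.Lib.Helper44.NegPairs.minusQ m F a b) = Cfsg.quadFormMinus m F a b := rfl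
  rw [← e]
  constructor
  · intro hcond
    exact keyB (hiff.mpr (hnum.mpr hcond))
  · intro hcond
    apply keyA
    intro hneg
    exact hcond (hnum.mp (hiff.mp hneg))

end Cfsg.Agent.S2728
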