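import Cfsg.Statements.S5255
import Mathlib
import Cfsg.Agent.Lib.Helper87.FSBasic
import Cfsg.Agent.Lib.Helper87.FSSat
import Cfsg.Agent.Lib.Helper87.FSNormal
import Cfsg.Agent.Lib.Helper87.FSGen
import Cfsg.Agent.Lib.Helper87.FSPres

set_option autoImplicit false
open Cfsg

namespace Cfsg.Agent.S5255

/-- Let F be a saturated fusion system over a finite p-group S and T a subgroup of S strongly closed in F. Then T·C_S(T) is strongly closed in F. -/
theorem result {Ω : Type*} [Group Ω] {S : Subgroup Ω} [Finite S] (p : ℕ) [Fact p.Prime] (hS : IsPGroup p S) (F : Cfsg.FusionSystem S) (hF : F.IsSaturated p) (T : Subgroup Ω) (hT : F.StronglyClosed T) : F.StronglyClosed (T ⊔ Cfsg.FusionSystem.centralizerIn S T) := by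
  open Cfsg.Agent.Lib.Helper87.FSBasic Cfsg.Agent.Lib.Helper87.FSSat
    Cfsg.Agent.Lib.Helper87.FSNormal Cfsg.Agent.Lib.Helper87.FSGen
    Cfsg.Agent.Lib.Helper87.FSPres in
  have hTS := hT.1
  have hTn := le_normalizer_of_stronglyClosed F hT
  have hWS : T ⊔ Cfsg.FusionSystem.centralizerIn S T ≤ S := sup_le hTS inf_le_left
  have hconj : ∀ g ∈ S, ∀ x, x ∈ T ⊔ Cfsg.FusionSystem.centralizerIn S T →
      g * x * g⁻¹ ∈ T ⊔ Cfsg.FusionSystem.centralizerIn S T := by
    intro g hg x hx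
    rw [mem_sup_centralizerIn_iff hTS] at hx ⊢
    obtain ⟨hxS, t, ht, h⟩ := hx
    refine ⟨S.mul_mem (S.mul_mem hg hxS) (S.inv_mem hg), g * t * g⁻¹,
      ((Subgroup.mem_normalizer_iff.mp (hTn hg)) t).mp ht, fun u hu => ?_⟩
    have hu' : g⁻¹ * u * g ∈ T := by
      have := ((Subgroup.mem_normalizer_iff.mp (hTn (S.inv_mem hg))) u).mp hu
      simpa using this
    have h1 := h _ hu'
    calc g * x * g⁻¹ * u * (g * x * g⁻¹)⁻¹ = g * (x * (g⁻¹ * u * g) * x⁻¹) * g⁻¹ := by group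
      _ = g * (t * (g⁻¹ * u * g) * t⁻¹) * g⁻¹ := by rw [h1]
      _ = g * t * g⁻¹ * u * (g * t * g⁻¹)⁻¹ := by group
  have hWn : S ≤ Subgroup.normalizer
      ((T ⊔ Cfsg.FusionSystem.centralizerIn S T : Subgroup Ω) : Set Ω) := by
    intro g hg
    rw [Subgroup.mem_normalizer_iff]
    intro x
    refine ⟨hconj g hg x, fun hx => ?_⟩
    have := hconj g⁻¹ (S.inv_mem hg) _ hx
    have e : g⁻¹ * (g * x * g⁻¹) * g⁻¹⁻¹ = x := by group
    rwa [e] at this
  refine stronglyClosed_of_le_presSys F _ hWS hWn ?_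
  refine le_of_stronglyClosed hS F hF T hT (presSys F _ hWn) ?_ ?_
  · intro Y hTY α hα hr
    refine ⟨hα, fun x => ?_⟩
    rw [mem_sup_centralizerIn_iff hTS, mem_sup_centralizerIn_iff hTS]
    constructor
    · rintro ⟨hxS, t, ht, h⟩
      refine ⟨map_mem F hα x, α ⟨t, hTY ht⟩, stronglyClosed_maps F hT hα _ ht, fun u hu => ?_⟩
      obtain ⟨u', hu', rfl⟩ := stronglyClosed_surj F hT hTY hα u hu
      have e : x * u' * x⁻¹ = ⟨t, hTY ht⟩ * u' * ⟨t, hTY ht⟩⁻¹ := Subtype.ext (h u' hu')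
      have h2 := congrArg α e
      rw [map_mul, map_mul, map_inv, map_mul, map_mul, map_inv] at h2
      exact h2
    · rintro ⟨-, t', ht', h⟩
      obtain ⟨t, ht, rfl⟩ := stronglyClosed_surj F hT hTY hα t' ht'
      refine ⟨dom_le F hα x.2, t, ht, fun u hu => ?_⟩
      have h1 := h (α ⟨u, hTY hu⟩) (stronglyClosed_maps F hT hα _ hu)
      have h2 : α (x * ⟨u, hTY hu⟩ * x⁻¹) = α (t * ⟨u, hTY hu⟩ * t⁻¹) := by
        rw [map_mul, map_mul, map_inv, map_mul, map_mul, map_inv]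
        exact h1
      have h3 := F.injective_of_mem hα h2
      exact congrArg (fun z : Y => (z : Ω)) h3
  · intro Y β hβ hr hx
    refine ⟨hβ, fun x => ?_⟩
    have hxW : (x : Ω)⁻¹ * β x ∈ T ⊔ Cfsg.FusionSystem.centralizerIn S T :=
      (le_sup_left : T ≤ T ⊔ Cfsg.FusionSystem.centralizerIn S T) (hx x)
    have e : β x = x * ((x : Ω)⁻¹ * β x) := by group
    rw [e]
    exact (Subgroup.mul_mem_cancel_right _ hxW).symm

end Cfsg.Agent.S5255
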