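import Cfsg.Statements.S0992
import Cfsg.Agent.Lib.Helper17.Sylow

set_option autoImplicit false
open Cfsg

namespace Cfsg.Agent.S0992

open Cfsg.Agent.Lib.Helper17.Sylow

/-- Let G be a non-abelian finite simple group of even order not divisible by 8, and T a Sylow 2-subgroup. Then T is a Klein four-group and the centralizer of T has index 3 in the normalizer of T. -/
theorem result {G : Type*} [Group G] [Finite G] [IsSimpleGroup G] (hG : ¬ IsMulCommutative G) (h2 : Even (Nat.card G)) (h8 : ¬ 8 ∣ Nat.card G) (T : Sylow 2 G) : IsKleinFour ↥(T : Subgroup G) ∧ (Subgroup.centralizer ((T : Subgroup G) : Set G)).relIndex (Subgroup.normalizer ((T : Subgroup G) : Set G)) = 3 := by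
  have h2' : 2 ∣ Nat.card G := even_iff_two_dvd.mp h2
  have hmin : (Nat.card G).minFac = 2 := (Nat.minFac_eq_two_iff _).mpr h2'
  have hncyc : ¬ IsCyclic (T : Subgroup G) := fun hc =>
    not_normalizer_le_centralizer hG h2' T (IsCyclic.normalizer_le_centralizer hmin hc)
  obtain ⟨k, hk⟩ := T.isPGroup'.exists_card_eq
  have hTdvd : Nat.card (T : Subgroup G) ∣ Nat.card G := Subgroup.card_subgroup_dvd_card _
  have hk3 : k < 3 := by
    by_contra hlt
    apply h8
    rw [hk] at hTdvd
    exact (pow_dvd_pow 2 (by omega : 3 ≤ k)).trans hTdvd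
  have hk2 : k = 2 := by
    interval_cases k
    · exfalso
      exact T.ne_bot_of_dvd_card h2' (Subgroup.card_eq_one.mp (hk.trans (by norm_num)))
    · exfalso
      exact hncyc (isCyclic_of_prime_card (p := 2) (hk.trans (by norm_num)))
    · rfl
  have hT4 : Nat.card (T : Subgroup G) = 4 := by rw [hk, hk2]; norm_num
  have hKF : IsKleinFour (T : Subgroup G) :=
    ⟨hT4, (not_isCyclic_iff_exponent_eq_prime Nat.prime_two (by rw [hT4]; norm_num)).mp hncyc⟩
  refine ⟨hKF, ?_⟩
  have hr1 : (Subgroup.centralizer ((T : Subgroup G) : Set G)).relIndex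
      (Subgroup.normalizer ((T : Subgroup G) : Set G)) ≠ 1 := fun h =>
    not_normalizer_le_centralizer hG h2' T (Subgroup.relIndex_eq_one.mp h)
  have hr24 : (Subgroup.centralizer ((T : Subgroup G) : Set G)).relIndex
      (Subgroup.normalizer ((T : Subgroup G) : Set G)) ∣ 24 := by
    have h1 := relIndex_centralizer_normalizer_dvd (T : Subgroup G)
    have h2 : Nat.card (MulAut (T : Subgroup G)) ∣ Nat.card (Equiv.Perm (T : Subgroup G)) :=
      Subgroup.card_dvd_of_injective (MulAut.toPerm (T : Subgroup G))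
        (fun a b hab => MulEquiv.toEquiv_injective hab)
    have h3 : Nat.card (Equiv.Perm (T : Subgroup G)) = 24 := by
      rw [Nat.card_perm, hT4]; rfl
    rw [h3] at h2
    exact h1.trans h2
  have hodd : ¬ 2 ∣ (Subgroup.centralizer ((T : Subgroup G) : Set G)).relIndex
      (Subgroup.normalizer ((T : Subgroup G) : Set G)) := by
    intro h
    have hcomm := isMulCommutative_iff.mp
      (IsPGroup.isMulCommutative_of_card_eq_prime_sq (p := 2) (G := (T : Subgroup G))
        (by rw [hT4]; norm_num))
    have hTC : (T : Subgroup G) ≤ Subgroup.centralizer ((T : Subgroup G) : Set G) := by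
      intro x hx
      rw [Subgroup.mem_centralizer_iff]
      intro y hy
      exact congrArg Subtype.val (hcomm ⟨y, hy⟩ ⟨x, hx⟩)
    have h4 : 4 ∣ Nat.card (Subgroup.centralizer ((T : Subgroup G) : Set G)) := by
      rw [← hT4]; exact Subgroup.card_dvd_of_le hTC
    have h5 := card_mul_relIndex (Subgroup.centralizer_le_normalizer ((T : Subgroup G) : Set G))
    have h6 : 8 ∣ Nat.card (Subgroup.normalizer ((T : Subgroup G) : Set G)) := by
      rw [← h5]; exact Nat.mul_dvd_mul h4 h
    exact h8 (h6.trans (Subgroup.card_subgroup_dvd_card _))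
  have key : ∀ d ∈ Nat.divisors 24, d ≠ 1 → ¬ 2 ∣ d → d = 3 := by decide
  exact key _ (Nat.mem_divisors.mpr ⟨hr24, by norm_num⟩) hr1 hodd

end Cfsg.Agent.S0992
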