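import Mathlib
import Cfsg.Statements.S3209
import Cfsg.Agent.Lib.Helper53.SL2Inv
import Cfsg.Agent.Lib.Helper53.NormalizerChar

set_option autoImplicit false
open Cfsg

namespace Cfsg.Agent.S3209

open Cfsg.Agent.Lib.Helper53.SL2Inv Cfsg.Agent.Lib.Helper53.NormalizerChar

/-- elements of the join of two elementwise commuting subgroups are products -/
theorem mem_sup_of_commute {G : Type*} [Group G] (L₁ L₂ : Subgroup G)
    (hc : ∀ x ∈ L₁, ∀ y ∈ L₂, x * y = y * x) :
    ∀ y ∈ L₁ ⊔ L₂, ∃ a ∈ L₁, ∃ b ∈ L₂, y = a * b := by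
  let M : Subgroup G :=
    { carrier := {y | ∃ a ∈ L₁, ∃ b ∈ L₂, y = a * b}
      mul_mem' := by
        rintro _ _ ⟨a, ha, b, hb, rfl⟩ ⟨a', ha', b', hb', rfl⟩
        refine ⟨a * a', mul_mem ha ha', b * b', mul_mem hb hb', ?_⟩
        have h := hc a' ha' b hb
        calc a * b * (a' * b') = a * (b * a') * b' := by group
          _ = a * (a' * b) * b' := by rw [h]
          _ = a * a' * (b * b') := by group
      one_mem' := ⟨1, one_mem _, 1, one_mem _, by simp⟩
      inv_mem' := by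
        rintro _ ⟨a, ha, b, hb, rfl⟩
        refine ⟨a⁻¹, inv_mem ha, b⁻¹, inv_mem hb, ?_⟩
        have h := hc a⁻¹ (inv_mem ha) b⁻¹ (inv_mem hb)
        rw [mul_inv_rev, h] }
  have hle : L₁ ⊔ L₂ ≤ M := by
    apply sup_le
    · intro a ha; exact ⟨a, ha, 1, one_mem _, by simp⟩
    · intro b hb; exact ⟨1, one_mem _, b, hb, by simp⟩
  intro y hy
  exact hle hy

/-- Let L₁ ≅ SL₂(q₁) and L₂ ≅ SL₂(q₂), q₁ and q₂ odd, be elementwise-commuting subgroups of a finite group meeting in ⟨j⟩ for an involution j. Then L₁L₂ has exactly two conjugacy classes of involutions: the central involution j, and one further class (there is an involution x ≠ j in L₁L₂, and every involution of L₁L₂ other than j is conjugate to x by an element of L₁L₂). -/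
theorem result {G : Type*} [Group G] [Finite G]
    {F₁ : Type*} [Field F₁] [Fintype F₁] {F₂ : Type*} [Field F₂] [Fintype F₂]
    (hF₁ : Odd (Fintype.card F₁)) (hF₂ : Odd (Fintype.card F₂)) (L₁ L₂ : Subgroup G)
    (e₁ : ↥L₁ ≃* Matrix.SpecialLinearGroup (Fin 2) F₁) (e₂ : ↥L₂ ≃* Matrix.SpecialLinearGroup (Fin 2) F₂)
    (hc : ∀ x ∈ L₁, ∀ y ∈ L₂, x * y = y * x) (j : G) (hj : orderOf j = 2) (hm : L₁ ⊓ L₂ = Subgroup.zpowers j) :
    ∃ x ∈ L₁ ⊔ L₂, orderOf x = 2 ∧ x ≠ j ∧
      ∀ y ∈ L₁ ⊔ L₂, orderOf y = 2 → y = j ∨ ∃ g ∈ L₁ ⊔ L₂, g * x * g⁻¹ = y := by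
  have : Fact (Nat.Prime 2) := ⟨Nat.prime_two⟩
  have h21 := two_ne_zero_of_odd hF₁
  have h22 := two_ne_zero_of_odd hF₂
  have hj2 : j * j = 1 := by rw [← pow_two, ← hj]; exact pow_orderOf_eq_one j
  have hj1 : j ≠ 1 := by intro h; rw [h, orderOf_one] at hj; norm_num at hj
  have hjL : j ∈ L₁ ⊓ L₂ := by rw [hm]; exact Subgroup.mem_zpowers j
  have hjL1 : j ∈ L₁ := hjL.1
  have hjL2 : j ∈ L₂ := hjL.2
  -- generic: the involution of an `SL₂` copy
  have inv1 : ∀ a : L₁, a * a = 1 → a = 1 ∨ e₁ a = negOne := by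
    intro a ha
    have hsq : e₁ a * e₁ a = 1 := by rw [← map_mul, ha, map_one]
    rcases sq_eq_one h21 _ hsq with h | h
    · left; exact e₁.injective (by rw [h, map_one])
    · right; exact h
  have inv2 : ∀ a : L₂, a * a = 1 → a = 1 ∨ e₂ a = negOne := by
    intro a ha
    have hsq : e₂ a * e₂ a = 1 := by rw [← map_mul, ha, map_one]
    rcases sq_eq_one h22 _ hsq with h | h
    · left; exact e₂.injective (by rw [h, map_one])
    · right; exact h
  have he1j : e₁ ⟨j, hjL1⟩ = negOne := by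
    rcases inv1 ⟨j, hjL1⟩ (Subtype.ext hj2) with h | h
    · exact absurd (congrArg Subtype.val h) hj1
    · exact h
  have he2j : e₂ ⟨j, hjL2⟩ = negOne := by
    rcases inv2 ⟨j, hjL2⟩ (Subtype.ext hj2) with h | h
    · exact absurd (congrArg Subtype.val h) hj1
    · exact h
  -- elements of order 4
  have hw1 : ((e₁.symm W : L₁) : G) * ((e₁.symm W : L₁) : G) = j := by
    have : (e₁.symm W : L₁) * (e₁.symm W : L₁) = ⟨j, hjL1⟩ := by
      apply e₁.injective
      rw [map_mul, MulEquiv.apply_symm_apply, W_mul_W, he1j]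
    exact congrArg Subtype.val this
  have hw2 : ((e₂.symm W : L₂) : G) * ((e₂.symm W : L₂) : G) = j := by
    have : (e₂.symm W : L₂) * (e₂.symm W : L₂) = ⟨j, hjL2⟩ := by
      apply e₂.injective
      rw [map_mul, MulEquiv.apply_symm_apply, W_mul_W, he2j]
    exact congrArg Subtype.val this
  generalize hw1d : ((e₁.symm W : L₁) : G) = w1 at hw1
  generalize hw2d : ((e₂.symm W : L₂) : G) = w2 at hw2
  have hw1L : w1 ∈ L₁ := by rw [← hw1d]; exact (e₁.symm W).2
  have hw2L : w2 ∈ L₂ := by rw [← hw2d]; exact (e₂.symm W).2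
  have hinter : ∀ g, g ∈ L₁ → g ∈ L₂ → g = 1 ∨ g = j := by
    intro g h1 h2
    have : g ∈ Subgroup.zpowers j := by rw [← hm]; exact ⟨h1, h2⟩
    exact mem_zpowers_of_orderOf_two hj this
  have hw1not : w1 ∉ L₂ := by
    intro h
    rcases hinter w1 hw1L h with h1 | h1
    · rw [h1, one_mul] at hw1; exact hj1 hw1.symm
    · rw [h1, hj2] at hw1; exact hj1 hw1.symm
  have hdec := mem_sup_of_commute L₁ L₂ hc
  have hcw : w1 * w2 = w2 * w1 := hc w1 hw1L w2 hw2L
  refine ⟨w1 * w2, mul_mem (Subgroup.mem_sup_left hw1L) (Subgroup.mem_sup_right hw2L), ?_, ?_, ?_⟩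
  · apply orderOf_eq_prime
    · rw [pow_two]
      calc w1 * w2 * (w1 * w2) = w1 * (w2 * w1) * w2 := by group
        _ = w1 * (w1 * w2) * w2 := by rw [hcw]
        _ = (w1 * w1) * (w2 * w2) := by group
        _ = 1 := by rw [hw1, hw2, hj2]
    · intro h
      apply hw1not
      have : w1 = w2⁻¹ := eq_inv_of_mul_eq_one_left h
      rw [this]; exact inv_mem hw2L
  · intro h
    apply hw1not
    have : w1 = j * w2⁻¹ := by rw [← h]; group
    rw [this]; exact mul_mem hjL2 (inv_mem hw2L)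
  · intro y hy hyo
    have hy2 : y * y = 1 := by rw [← pow_two, ← hyo]; exact pow_orderOf_eq_one y
    have hy1 : y ≠ 1 := by intro h; rw [h, orderOf_one] at hyo; norm_num at hyo
    obtain ⟨a, ha, b, hb, rfl⟩ := hdec y hy
    have hab : a * b = b * a := hc a ha b hb
    have hsq : (a * a) * (b * b) = 1 := by
      calc (a * a) * (b * b) = a * (a * b) * b := by group
        _ = a * (b * a) * b := by rw [hab]
        _ = a * b * (a * b) := by group
        _ = 1 := hy2
    have haaL2 : a * a ∈ L₂ := by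
      have : a * a = (b * b)⁻¹ := eq_inv_of_mul_eq_one_left hsq
      rw [this]; exact inv_mem (mul_mem hb hb)
    rcases hinter (a * a) (mul_mem ha ha) haaL2 with haa | haa
    · -- both a and b are in {1, j}
      left
      have hbb : b * b = 1 := by rw [haa, one_mul] at hsq; exact hsq
      have ha' : a = 1 ∨ a = j := by
        rcases inv1 ⟨a, ha⟩ (Subtype.ext haa) with h | h
        · left; exact congrArg Subtype.val h
        · right
          have : (⟨a, ha⟩ : L₁) = ⟨j, hjL1⟩ := e₁.injective (by rw [h, he1j])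
          exact congrArg Subtype.val this
      have hb' : b = 1 ∨ b = j := by
        rcases inv2 ⟨b, hb⟩ (Subtype.ext hbb) with h | h
        · left; exact congrArg Subtype.val h
        · right
          have : (⟨b, hb⟩ : L₂) = ⟨j, hjL2⟩ := e₂.injective (by rw [h, he2j])
          exact congrArg Subtype.val this
      rcases ha' with rfl | rfl <;> rcases hb' with rfl | rfl
      · exact absurd (one_mul 1) hy1
      · exact one_mul _
      · exact mul_one _
      · exact absurd hj2 hy1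
    · right
      have hbb : b * b = j := by
        rw [haa] at hsq
        have : b * b = j⁻¹ := eq_inv_of_mul_eq_one_right hsq
        rw [this]
        exact inv_eq_of_mul_eq_one_left hj2
      -- conjugate a to w1 and b to w2
      have hA : e₁ ⟨a, ha⟩ * e₁ ⟨a, ha⟩ = negOne := by
        rw [← map_mul, ← he1j]
        congr 1
        exact Subtype.ext haa
      have hB : e₂ ⟨b, hb⟩ * e₂ ⟨b, hb⟩ = negOne := by
        rw [← map_mul, ← he2j]
        congr 1
        exact Subtype.ext hbb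
      obtain ⟨g1, hg1⟩ := conj_W_of_sq hF₁ _ hA
      obtain ⟨g2, hg2⟩ := conj_W_of_sq hF₂ _ hB
      have k1 : ((e₁.symm g1 : L₁) : G) * a * ((e₁.symm g1 : L₁) : G)⁻¹ = w1 := by
        have : (e₁.symm g1 : L₁) * ⟨a, ha⟩ * (e₁.symm g1 : L₁)⁻¹ = e₁.symm W := by
          apply e₁.injective
          rw [map_mul, map_mul, map_inv, MulEquiv.apply_symm_apply, MulEquiv.apply_symm_apply, hg1]
        have h2 := congrArg Subtype.val this
        rw [hw1d] at h2
        exact h2
      have k2 : ((e₂.symm g2 : L₂) : G) * b * ((e₂.symm g2 : L₂) : G)⁻¹ = w2 := by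
        have : (e₂.symm g2 : L₂) * ⟨b, hb⟩ * (e₂.symm g2 : L₂)⁻¹ = e₂.symm W := by
          apply e₂.injective
          rw [map_mul, map_mul, map_inv, MulEquiv.apply_symm_apply, MulEquiv.apply_symm_apply, hg2]
        have h2 := congrArg Subtype.val this
        rw [hw2d] at h2
        exact h2
      generalize hh1 : ((e₁.symm g1 : L₁) : G) = h1 at k1
      generalize hh2 : ((e₂.symm g2 : L₂) : G) = h2 at k2
      have hh1L : h1 ∈ L₁ := by rw [← hh1]; exact (e₁.symm g1).2
      have hh2L : h2 ∈ L₂ := by rw [← hh2]; exact (e₂.symm g2).2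
      refine ⟨h1⁻¹ * h2⁻¹, mul_mem (Subgroup.mem_sup_left (inv_mem hh1L))
        (Subgroup.mem_sup_right (inv_mem hh2L)), ?_⟩
      rw [← k1, ← k2]
      have c1 : h2⁻¹ * (h1 * a * h1⁻¹) = (h1 * a * h1⁻¹) * h2⁻¹ :=
        (hc _ (mul_mem (mul_mem hh1L ha) (inv_mem hh1L)) _ (inv_mem hh2L)).symm
      have c2 : b * h1 = h1 * b := (hc h1 hh1L b hb).symm
      calc h1⁻¹ * h2⁻¹ * (h1 * a * h1⁻¹ * (h2 * b * h2⁻¹)) * (h1⁻¹ * h2⁻¹)⁻¹
          = h1⁻¹ * (h2⁻¹ * (h1 * a * h1⁻¹)) * (h2 * b * h2⁻¹) * h2 * h1 := by group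
        _ = h1⁻¹ * ((h1 * a * h1⁻¹) * h2⁻¹) * (h2 * b * h2⁻¹) * h2 * h1 := by rw [c1]
        _ = a * (h1⁻¹ * (b * h1)) := by group
        _ = a * (h1⁻¹ * (h1 * b)) := by rw [c2]
        _ = a * b := by group

end Cfsg.Agent.S3209
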