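import Mathlib
import Cfsg.Statements.S3210
import Cfsg.Agent.Lib.Helper53.SL2Normal
import Cfsg.Agent.Lib.Helper53.SylowConj
import Cfsg.Agent.Lib.Helper38.SLCard
import Cfsg.Agent.S3209

set_option autoImplicit false
open Cfsg

namespace Cfsg.Agent.S3210

/-- elements of `zpowers j` for an involution `j` -/
theorem mem_zpowers_invol {G : Type*} [Group G] (j : G) (hj : orderOf j = 2) (x : G) :
    x ∈ Subgroup.zpowers j ↔ x = 1 ∨ x = j := by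
  have hjj : j * j = 1 := by rw [← pow_two, ← hj, pow_orderOf_eq_one]
  constructor
  · intro hx
    obtain ⟨k, rfl⟩ := Subgroup.mem_zpowers_iff.mp hx
    rcases Int.even_or_odd k with ⟨t, rfl⟩ | ⟨t, rfl⟩
    · left
      rw [← two_mul, zpow_mul, zpow_ofNat, pow_two, hjj, one_zpow]
    · right
      rw [zpow_add, zpow_mul, zpow_ofNat, pow_two, hjj, one_zpow, one_mul, zpow_one]
  · rintro (h | h)
    · rw [h]; exact one_mem _
    · rw [h]; exact Subgroup.mem_zpowers j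

/-- projection lemma: a subgroup `M` of `L₁L₂` normalized by `L₂` and meeting `L₂` only in
`{1, j}` lies in `L₁`. -/
theorem le_of_inf_small {G : Type*} [Group G] (L₁ L₂ : Subgroup G)
    (hc : ∀ x ∈ L₁, ∀ y ∈ L₂, x * y = y * x) (j : G) (hj1 : j ∈ L₁)
    (hA₂ : ∀ x ∈ L₂, (∀ y ∈ L₂, x * y * x⁻¹ * y⁻¹ = 1 ∨ x * y * x⁻¹ * y⁻¹ = j) → x = 1 ∨ x = j)
    (M : Subgroup G) (hML : M ≤ L₁ ⊔ L₂) (hMn : ∀ y ∈ L₂, ∀ m ∈ M, y * m * y⁻¹ ∈ M)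
    (hsmall : ∀ x ∈ M, x ∈ L₂ → x = 1 ∨ x = j) : M ≤ L₁ := by
  intro m hm
  obtain ⟨a, ha, b, hb, rfl⟩ := Cfsg.Agent.S3209.mem_sup_of_commute L₁ L₂ hc m (hML hm)
  have hb' : b = 1 ∨ b = j := by
    apply hA₂ b hb
    intro y hy
    have h1 : b * y * b⁻¹ * y⁻¹ = (a * b) * y * (a * b)⁻¹ * y⁻¹ := by
      have h2 : a * (b * y * b⁻¹) = (b * y * b⁻¹) * a :=
        hc a ha _ (L₂.mul_mem (L₂.mul_mem hb hy) (L₂.inv_mem hb))
      calc b * y * b⁻¹ * y⁻¹ = ((b * y * b⁻¹) * a) * a⁻¹ * y⁻¹ := by group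
        _ = (a * (b * y * b⁻¹)) * a⁻¹ * y⁻¹ := by rw [h2]
        _ = (a * b) * y * (a * b)⁻¹ * y⁻¹ := by group
    have h3 : (a * b) * y * (a * b)⁻¹ * y⁻¹ ∈ M := by
      have h4 : (a * b) * y * (a * b)⁻¹ * y⁻¹ = (a * b) * (y * (a * b)⁻¹ * y⁻¹) := by group
      rw [h4]
      exact M.mul_mem hm (hMn y hy _ (M.inv_mem hm))
    have h5 : b * y * b⁻¹ * y⁻¹ ∈ L₂ :=
      L₂.mul_mem (L₂.mul_mem (L₂.mul_mem hb hy) (L₂.inv_mem hb)) (L₂.inv_mem hy)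
    rw [← h1] at h3
    exact hsmall _ h3 h5
  rcases hb' with rfl | rfl
  · rw [mul_one]; exact ha
  · exact L₁.mul_mem ha hj1

/-- the dichotomy for the conjugate of `L₁` -/
theorem dichotomy {G : Type*} [Group G] (L₁ L₂ : Subgroup G)
    (hc : ∀ x ∈ L₁, ∀ y ∈ L₂, x * y = y * x) (j : G) (hj : orderOf j = 2)
    (hm : L₁ ⊓ L₂ = Subgroup.zpowers j)
    (hA₁ : ∀ x ∈ L₁, (∀ y ∈ L₁, x * y * x⁻¹ * y⁻¹ = 1 ∨ x * y * x⁻¹ * y⁻¹ = j) → x = 1 ∨ x = j)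
    (hA₂ : ∀ x ∈ L₂, (∀ y ∈ L₂, x * y * x⁻¹ * y⁻¹ = 1 ∨ x * y * x⁻¹ * y⁻¹ = j) → x = 1 ∨ x = j)
    (w₁ : G) (hw₁ : w₁ ≠ 1 ∧ w₁ ≠ j)
    (hB₁ : ∀ N : Subgroup G, N ≤ L₁ → (∀ x ∈ L₁, ∀ y ∈ N, x * y * x⁻¹ ∈ N) →
      (∃ y ∈ N, y ≠ 1 ∧ y ≠ j) → w₁ ∈ N)
    (n : G) (hnj : n * j = j * n) (hnL : ∀ x ∈ L₁ ⊔ L₂, n * x * n⁻¹ ∈ L₁ ⊔ L₂)
    (hnL' : ∀ x ∈ L₁ ⊔ L₂, n⁻¹ * x * n ∈ L₁ ⊔ L₂) :
    (∀ x ∈ L₁, n * x * n⁻¹ ∈ L₁) ∨ (∀ x ∈ L₁, n * x * n⁻¹ ∈ L₂) := by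
  have hj1 : j ∈ L₁ := by
    have : j ∈ L₁ ⊓ L₂ := by rw [hm]; exact Subgroup.mem_zpowers j
    exact this.1
  have hj2 : j ∈ L₂ := by
    have : j ∈ L₁ ⊓ L₂ := by rw [hm]; exact Subgroup.mem_zpowers j
    exact this.2
  have hinter : ∀ x, x ∈ L₁ → x ∈ L₂ → x = 1 ∨ x = j := by
    intro x h1 h2
    have : x ∈ L₁ ⊓ L₂ := ⟨h1, h2⟩
    rw [hm] at this
    exact (mem_zpowers_invol j hj x).mp this
  -- `L₁` and `L₂` are normalized by `L₁ ⊔ L₂`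
  have hL₁n : ∀ g ∈ L₁ ⊔ L₂, ∀ x ∈ L₁, g * x * g⁻¹ ∈ L₁ := by
    intro g hg x hx
    obtain ⟨a, ha, b, hb, rfl⟩ := Cfsg.Agent.S3209.mem_sup_of_commute L₁ L₂ hc g hg
    have h1 : (a * b) * x * (a * b)⁻¹ = a * x * a⁻¹ := by
      have h2 := hc x hx b hb
      calc (a * b) * x * (a * b)⁻¹ = a * (b * x) * b⁻¹ * a⁻¹ := by group
        _ = a * (x * b) * b⁻¹ * a⁻¹ := by rw [h2]
        _ = a * x * a⁻¹ := by group
    rw [h1]; exact L₁.mul_mem (L₁.mul_mem ha hx) (L₁.inv_mem ha)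
  have hL₂n : ∀ g ∈ L₁ ⊔ L₂, ∀ x ∈ L₂, g * x * g⁻¹ ∈ L₂ := by
    intro g hg x hx
    obtain ⟨a, ha, b, hb, rfl⟩ := Cfsg.Agent.S3209.mem_sup_of_commute L₁ L₂ hc g hg
    have h1 : (a * b) * x * (a * b)⁻¹ = b * x * b⁻¹ := by
      have h2 := hc a ha (b * x * b⁻¹) (L₂.mul_mem (L₂.mul_mem hb hx) (L₂.inv_mem hb))
      calc (a * b) * x * (a * b)⁻¹ = (a * (b * x * b⁻¹)) * a⁻¹ := by group
        _ = ((b * x * b⁻¹) * a) * a⁻¹ := by rw [h2]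
        _ = b * x * b⁻¹ := by group
    rw [h1]; exact L₂.mul_mem (L₂.mul_mem hb hx) (L₂.inv_mem hb)
  have hL₁le : L₁ ≤ L₁ ⊔ L₂ := le_sup_left
  have hL₂le : L₂ ≤ L₁ ⊔ L₂ := le_sup_right
  -- the conjugate
  obtain ⟨M, hMdef⟩ : ∃ M : Subgroup G, M = L₁.map (MulAut.conj n).toMonoidHom := ⟨_, rfl⟩
  have hMmem : ∀ x, x ∈ M ↔ n⁻¹ * x * n ∈ L₁ := by
    intro x; rw [hMdef]; exact Cfsg.Agent.Lib.Helper53.SylowConj.mem_map_conj_iff L₁ n x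
  have hML : M ≤ L₁ ⊔ L₂ := by
    intro x hx
    have h1 := hnL _ (hL₁le ((hMmem x).mp hx))
    have h2 : n * (n⁻¹ * x * n) * n⁻¹ = x := by group
    rw [h2] at h1; exact h1
  have hMn : ∀ y ∈ L₁ ⊔ L₂, ∀ m ∈ M, y * m * y⁻¹ ∈ M := by
    intro y hy m hm'
    rw [hMmem] at hm' ⊢
    have h1 := hL₁n _ (hnL' y hy) _ hm'
    have h2 : n⁻¹ * y * n * (n⁻¹ * m * n) * (n⁻¹ * y * n)⁻¹ = n⁻¹ * (y * m * y⁻¹) * n := by group
    rw [h2] at h1; exact h1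
  -- one of the two intersections is small
  have hsmall : (∀ x ∈ M, x ∈ L₁ → x = 1 ∨ x = j) ∨ (∀ x ∈ M, x ∈ L₂ → x = 1 ∨ x = j) := by
    by_contra hcon
    push Not at hcon
    obtain ⟨⟨yA, hyAM, hyA1, hyA⟩, ⟨yB, hyBM, hyB2, hyB⟩⟩ := hcon
    have hnj' : n⁻¹ * j * n = j := by rw [mul_assoc, ← hnj]; group
    have key : ∀ K : Subgroup G, (∀ g ∈ L₁ ⊔ L₂, ∀ x ∈ K, g * x * g⁻¹ ∈ K) →
        (∃ y ∈ M, y ∈ K ∧ y ≠ 1 ∧ y ≠ j) → n * w₁ * n⁻¹ ∈ K := by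
      intro K hKn ⟨y, hyM, hyK, hy1, hyj⟩
      have h1 : w₁ ∈ (M ⊓ K).map (MulAut.conj n⁻¹).toMonoidHom := by
        apply hB₁
        · rintro _ ⟨z, hz, rfl⟩
          have := (hMmem z).mp hz.1
          simpa [mul_assoc] using this
        · rintro x hx _ ⟨z, hz, rfl⟩
          refine ⟨(n * x * n⁻¹) * z * (n * x * n⁻¹)⁻¹, ⟨?_, ?_⟩, ?_⟩
          · exact hMn _ (hnL x (hL₁le hx)) z hz.1
          · exact hKn _ (hnL x (hL₁le hx)) z hz.2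
          · simp [mul_assoc]
        · refine ⟨n⁻¹ * y * n, ⟨y, ⟨hyM, hyK⟩, by simp [mul_assoc]⟩, ?_, ?_⟩
          · intro h
            apply hy1
            calc y = n * (n⁻¹ * y * n) * n⁻¹ := by group
              _ = 1 := by rw [h]; group
          · intro h
            apply hyj
            calc y = n * (n⁻¹ * y * n) * n⁻¹ := by group
              _ = n * j * n⁻¹ := by rw [h]
              _ = j := by rw [hnj]; group
      obtain ⟨z, hz, hzw⟩ := h1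
      have h2 : n * w₁ * n⁻¹ = z := by rw [← hzw]; simp [mul_assoc]
      rw [h2]; exact hz.2
    have h1 := key L₁ hL₁n ⟨yA, hyAM, hyA1, hyA⟩
    have h2 := key L₂ hL₂n ⟨yB, hyBM, hyB2, hyB⟩
    rcases hinter _ h1 h2 with h3 | h3
    · apply hw₁.1
      calc w₁ = n⁻¹ * (n * w₁ * n⁻¹) * n := by group
        _ = 1 := by rw [h3]; group
    · apply hw₁.2
      calc w₁ = n⁻¹ * (n * w₁ * n⁻¹) * n := by group
        _ = n⁻¹ * j * n := by rw [h3]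
        _ = j := hnj'
  have hconjmem : ∀ x ∈ L₁, n * x * n⁻¹ ∈ M := by
    intro x hx
    rw [hMmem]
    have : n⁻¹ * (n * x * n⁻¹) * n = x := by group
    rw [this]; exact hx
  rcases hsmall with hs | hs
  · -- M ∩ L₁ small: M ≤ L₂
    right
    have hc' : ∀ x ∈ L₂, ∀ y ∈ L₁, x * y = y * x := fun x hx y hy => (hc y hy x hx).symm
    have h1 : M ≤ L₂ := le_of_inf_small L₂ L₁ hc' j hj2 hA₁ M (by rw [sup_comm]; exact hML)
      (fun y hy m hm' => hMn y (hL₁le hy) m hm') hs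
    exact fun x hx => h1 (hconjmem x hx)
  · left
    have h1 : M ≤ L₁ := le_of_inf_small L₁ L₂ hc j hj1 hA₂ M hML
      (fun y hy m hm' => hMn y (hL₂le hy) m hm') hs
    exact fun x hx => h1 (hconjmem x hx)

/-- a conjugate landing in a subgroup of no larger order equals it -/
theorem conj_eq_of_forall {G : Type*} [Group G] [Finite G] (A B : Subgroup G) (n : G)
    (h : ∀ x ∈ A, n * x * n⁻¹ ∈ B) (hcard : Nat.card B ≤ Nat.card A) :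
    A.map (MulAut.conj n).toMonoidHom = B := by
  apply Subgroup.eq_of_le_of_card_ge
  · rintro _ ⟨x, hx, rfl⟩
    simpa using h x hx
  · rw [Cfsg.Agent.Lib.Helper53.SylowConj.card_map_conj]; exact hcard

theorem conj_card_le {G : Type*} [Group G] [Finite G] (A B : Subgroup G) (n : G)
    (h : ∀ x ∈ A, n * x * n⁻¹ ∈ B) : Nat.card A ≤ Nat.card B := by
  rw [← Cfsg.Agent.Lib.Helper53.SylowConj.card_map_conj A n]
  apply Subgroup.card_le_of_le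
  rintro _ ⟨x, hx, rfl⟩
  simpa using h x hx

/-- the group-theoretic core -/
theorem core {G : Type*} [Group G] [Finite G] (L₁ L₂ : Subgroup G)
    (hc : ∀ x ∈ L₁, ∀ y ∈ L₂, x * y = y * x) (j : G) (hj : orderOf j = 2)
    (hm : L₁ ⊓ L₂ = Subgroup.zpowers j)
    (hA₁ : ∀ x ∈ L₁, (∀ y ∈ L₁, x * y * x⁻¹ * y⁻¹ = 1 ∨ x * y * x⁻¹ * y⁻¹ = j) → x = 1 ∨ x = j)
    (hA₂ : ∀ x ∈ L₂, (∀ y ∈ L₂, x * y * x⁻¹ * y⁻¹ = 1 ∨ x * y * x⁻¹ * y⁻¹ = j) → x = 1 ∨ x = j)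
    (w₁ : G) (hw₁ : w₁ ≠ 1 ∧ w₁ ≠ j) (hw₁L : w₁ ∈ L₁)
    (hB₁ : ∀ N : Subgroup G, N ≤ L₁ → (∀ x ∈ L₁, ∀ y ∈ N, x * y * x⁻¹ ∈ N) →
      (∃ y ∈ N, y ≠ 1 ∧ y ≠ j) → w₁ ∈ N)
    (w₂ : G) (hw₂ : w₂ ≠ 1 ∧ w₂ ≠ j) (hw₂L : w₂ ∈ L₂)
    (hB₂ : ∀ N : Subgroup G, N ≤ L₂ → (∀ x ∈ L₂, ∀ y ∈ N, x * y * x⁻¹ ∈ N) →
      (∃ y ∈ N, y ≠ 1 ∧ y ≠ j) → w₂ ∈ N)
    (n : G) (hnj : n * j = j * n) (hnL : ∀ x ∈ L₁ ⊔ L₂, n * x * n⁻¹ ∈ L₁ ⊔ L₂)
    (hnL' : ∀ x ∈ L₁ ⊔ L₂, n⁻¹ * x * n ∈ L₁ ⊔ L₂) :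
    (L₁.map (MulAut.conj n).toMonoidHom = L₁ ∧ L₂.map (MulAut.conj n).toMonoidHom = L₂) ∨
    (L₁.map (MulAut.conj n).toMonoidHom = L₂ ∧ Nat.card L₁ = Nat.card L₂) := by
  have hinter : ∀ x, x ∈ L₁ → x ∈ L₂ → x = 1 ∨ x = j := by
    intro x h1 h2
    have : x ∈ L₁ ⊓ L₂ := ⟨h1, h2⟩
    rw [hm] at this
    exact (mem_zpowers_invol j hj x).mp this
  have hc' : ∀ x ∈ L₂, ∀ y ∈ L₁, x * y = y * x := fun x hx y hy => (hc y hy x hx).symm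
  have hm' : L₂ ⊓ L₁ = Subgroup.zpowers j := by rw [inf_comm]; exact hm
  have d1 := dichotomy L₁ L₂ hc j hj hm hA₁ hA₂ w₁ hw₁ hB₁ n hnj hnL hnL'
  have d2 := dichotomy L₂ L₁ hc' j hj hm' hA₂ hA₁ w₂ hw₂ hB₂ n hnj
    (by rw [sup_comm]; exact hnL) (by rw [sup_comm]; exact hnL')
  rcases d1 with d1 | d1 <;> rcases d2 with d2 | d2
  · left
    exact ⟨conj_eq_of_forall L₁ L₁ n d1 le_rfl, conj_eq_of_forall L₂ L₂ n d2 le_rfl⟩
  · exfalso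
    have h1 := conj_eq_of_forall L₁ L₁ n d1 le_rfl
    have h2 : n * w₂ * n⁻¹ ∈ L₁.map (MulAut.conj n).toMonoidHom := by rw [h1]; exact d2 w₂ hw₂L
    rw [Cfsg.Agent.Lib.Helper53.SylowConj.mem_map_conj_iff] at h2
    have h3 : n⁻¹ * (n * w₂ * n⁻¹) * n = w₂ := by group
    rw [h3] at h2
    rcases hinter w₂ h2 hw₂L with h | h
    · exact hw₂.1 h
    · exact hw₂.2 h
  · exfalso
    have h1 := conj_eq_of_forall L₂ L₂ n d2 le_rfl
    have h2 : n * w₁ * n⁻¹ ∈ L₂.map (MulAut.conj n).toMonoidHom := by rw [h1]; exact d1 w₁ hw₁L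
    rw [Cfsg.Agent.Lib.Helper53.SylowConj.mem_map_conj_iff] at h2
    have h3 : n⁻¹ * (n * w₁ * n⁻¹) * n = w₁ := by group
    rw [h3] at h2
    rcases hinter w₁ hw₁L h2 with h | h
    · exact hw₁.1 h
    · exact hw₁.2 h
  · right
    have c1 := conj_card_le L₁ L₂ n d1
    have c2 := conj_card_le L₂ L₁ n d2
    exact ⟨conj_eq_of_forall L₁ L₂ n d1 c2, le_antisymm c1 c2⟩

open Cfsg.Agent.Lib.Helper53.SL2Inv Cfsg.Agent.Lib.Helper53.SL2Normal in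
/-- the facts about a copy of `SL₂(F)`, `|F|` odd, that the core needs -/
theorem sl2_facts {G : Type*} [Group G] {F : Type*} [Field F] [Fintype F]
    (hF : Odd (Fintype.card F)) (L : Subgroup G)
    (e : ↥L ≃* Matrix.SpecialLinearGroup (Fin 2) F) (j : G) (hj : orderOf j = 2) (hjL : j ∈ L) :
    (∀ x ∈ L, (∀ y ∈ L, x * y * x⁻¹ * y⁻¹ = 1 ∨ x * y * x⁻¹ * y⁻¹ = j) → x = 1 ∨ x = j) ∧
    ∃ w : G, (w ≠ 1 ∧ w ≠ j) ∧ w ∈ L ∧
      ∀ N : Subgroup G, N ≤ L → (∀ x ∈ L, ∀ y ∈ N, x * y * x⁻¹ ∈ N) →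
        (∃ y ∈ N, y ≠ 1 ∧ y ≠ j) → w ∈ N := by
  have h2 : (2 : F) ≠ 0 := two_ne_zero_of_odd hF
  have hjj : j * j = 1 := by rw [← pow_two, ← hj, pow_orderOf_eq_one]
  have hj_ne : j ≠ 1 := by intro h; rw [h, orderOf_one] at hj; omega
  have hej : e ⟨j, hjL⟩ = negOne := by
    have h1 : e ⟨j, hjL⟩ * e ⟨j, hjL⟩ = 1 := by
      rw [← map_mul]
      have : (⟨j, hjL⟩ : L) * ⟨j, hjL⟩ = 1 := Subtype.ext hjj
      rw [this, map_one]
    rcases sq_eq_one h2 _ h1 with h | h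
    · exfalso
      have : (⟨j, hjL⟩ : L) = 1 := e.injective (by rw [h, map_one])
      exact hj_ne (congrArg Subtype.val this)
    · exact h
  have hval : ∀ (x : L), e x = 1 ∨ e x = negOne → (x : G) = 1 ∨ (x : G) = j := by
    intro x hx
    rcases hx with h | h
    · left
      have : x = 1 := e.injective (by rw [h, map_one])
      rw [this]; rfl
    · right
      have : x = ⟨j, hjL⟩ := e.injective (by rw [h, hej])
      rw [this]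
  refine ⟨?_, ((e.symm W : L) : G), ⟨?_, ?_⟩, (e.symm W).2, ?_⟩
  · intro x hx hcomm
    apply hval ⟨x, hx⟩
    apply central_of_comm h2
    intro X
    have h3 := hcomm (e.symm X) (e.symm X).2
    have h4 : e ⟨x, hx⟩ * X * (e ⟨x, hx⟩)⁻¹ * X⁻¹
        = e (⟨x, hx⟩ * e.symm X * ⟨x, hx⟩⁻¹ * (e.symm X)⁻¹) := by
      simp
    rw [h4]
    rcases h3 with h3 | h3
    · left
      have : (⟨x, hx⟩ * e.symm X * ⟨x, hx⟩⁻¹ * (e.symm X)⁻¹ : L) = 1 := Subtype.ext h3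
      rw [this, map_one]
    · right
      have : (⟨x, hx⟩ * e.symm X * ⟨x, hx⟩⁻¹ * (e.symm X)⁻¹ : L) = ⟨j, hjL⟩ := Subtype.ext h3
      rw [this, hej]
  · intro h
    have h5 : e.symm W = 1 := Subtype.ext h
    have h6 := congrArg e h5
    rw [e.apply_symm_apply, map_one] at h6
    exact W_ne_one h6
  · intro h
    have h5 : e.symm W = ⟨j, hjL⟩ := Subtype.ext h
    have h6 := congrArg e h5
    rw [e.apply_symm_apply, hej] at h6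
    exact W_ne_negOne h6
  · intro N hNL hNn ⟨y, hyN, hy1, hyj⟩
    have hnorm : ((N.subgroupOf L).map e.toMonoidHom).Normal := by
      constructor
      rintro _ ⟨z, hz, rfl⟩ g
      refine ⟨e.symm g * z * (e.symm g)⁻¹, ?_, by simp⟩
      rw [SetLike.mem_coe, Subgroup.mem_subgroupOf] at hz ⊢
      exact hNn _ (e.symm g).2 _ hz
    have hW := W_mem_normal hF ((N.subgroupOf L).map e.toMonoidHom) (e ⟨y, hNL hyN⟩)
      ⟨⟨y, hNL hyN⟩, by rw [SetLike.mem_coe, Subgroup.mem_subgroupOf]; exact hyN, rfl⟩ ?_ ?_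
    · obtain ⟨z, hz, hzW⟩ := hW
      have : e.symm W = z := by rw [← hzW]; simp
      rw [this]; exact Subgroup.mem_subgroupOf.mp hz
    · intro h
      have : (⟨y, hNL hyN⟩ : L) = 1 := e.injective (by rw [h, map_one])
      exact hy1 (congrArg Subtype.val this)
    · intro h
      have : (⟨y, hNL hyN⟩ : L) = ⟨j, hjL⟩ := e.injective (by rw [h, hej])
      exact hyj (congrArg Subtype.val this)

theorem sup_normalizes_left {G : Type*} [Group G] (L₁ L₂ : Subgroup G)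
    (hc : ∀ x ∈ L₁, ∀ y ∈ L₂, x * y = y * x) :
    ∀ g ∈ L₁ ⊔ L₂, ∀ x ∈ L₁, g * x * g⁻¹ ∈ L₁ := by
  intro g hg x hx
  obtain ⟨a, ha, b, hb, rfl⟩ := Cfsg.Agent.S3209.mem_sup_of_commute L₁ L₂ hc g hg
  have h1 : (a * b) * x * (a * b)⁻¹ = a * x * a⁻¹ := by
    have h2 := hc x hx b hb
    calc (a * b) * x * (a * b)⁻¹ = a * (b * x) * b⁻¹ * a⁻¹ := by group
      _ = a * (x * b) * b⁻¹ * a⁻¹ := by rw [h2]
      _ = a * x * a⁻¹ := by group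
  rw [h1]; exact L₁.mul_mem (L₁.mul_mem ha hx) (L₁.inv_mem ha)

theorem card_mono (a b : ℕ) (ha : 1 ≤ a) (hab : a < b) : a * (a ^ 2 - 1) < b * (b ^ 2 - 1) := by
  have h1 : a ^ 2 - 1 ≤ b ^ 2 - 1 := Nat.sub_le_sub_right (Nat.pow_le_pow_left hab.le 2) 1
  have h3 : 0 < b ^ 2 - 1 := by
    have h4 : 2 ≤ b := by omega
    have h5 : 4 ≤ b ^ 2 := by nlinarith
    omega
  calc a * (a ^ 2 - 1) ≤ a * (b ^ 2 - 1) := Nat.mul_le_mul_left _ h1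
    _ < b * (b ^ 2 - 1) := Nat.mul_lt_mul_of_pos_right hab h3

/-- Let G be a finite group with subgroups L₁ ≅ SL₂(q₁) and L₂ ≅ SL₂(q₂), q₁ and q₂ odd prime powers, which commute elementwise and meet in ⟨j⟩ for an involution j, and suppose L₁L₂ has index 2 in C_G(j). Then every element n of C_G(j) outside L₁L₂ either normalizes both L₁ and L₂, or conjugates L₁ onto L₂; in the second case q₁ = q₂ and there is an element n′ of C_G(j) outside L₁L₂ conjugating L₁ onto L₂ with n′² ∈ ⟨j⟩. -/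
theorem result {G : Type*} [Group G] [Finite G]
    {F₁ : Type*} [Field F₁] [Fintype F₁] {F₂ : Type*} [Field F₂] [Fintype F₂]
    (hF₁ : Odd (Fintype.card F₁)) (hF₂ : Odd (Fintype.card F₂)) (L₁ L₂ : Subgroup G)
    (e₁ : ↥L₁ ≃* Matrix.SpecialLinearGroup (Fin 2) F₁) (e₂ : ↥L₂ ≃* Matrix.SpecialLinearGroup (Fin 2) F₂)
    (hc : ∀ x ∈ L₁, ∀ y ∈ L₂, x * y = y * x) (j : G) (hj : orderOf j = 2) (hm : L₁ ⊓ L₂ = Subgroup.zpowers j)
    (hle : L₁ ⊔ L₂ ≤ Subgroup.centralizer ({j} : Set G)) (hi : (L₁ ⊔ L₂).relIndex (Subgroup.centralizer ({j} : Set G)) = 2) (n : G) (hn : n ∈ Subgroup.centralizer ({j} : Set G)) (hn' : n ∉ L₁ ⊔ L₂) :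
    (L₁.map (MulAut.conj n).toMonoidHom = L₁ ∧ L₂.map (MulAut.conj n).toMonoidHom = L₂) ∨
      (L₁.map (MulAut.conj n).toMonoidHom = L₂ ∧ Fintype.card F₁ = Fintype.card F₂ ∧
        ∃ n' ∈ Subgroup.centralizer ({j} : Set G), n' ∉ L₁ ⊔ L₂ ∧ L₁.map (MulAut.conj n').toMonoidHom = L₂ ∧ n' ^ 2 ∈ Subgroup.zpowers j) := by
  classical
  have hj1 : j ∈ L₁ := by
    have : j ∈ L₁ ⊓ L₂ := by rw [hm]; exact Subgroup.mem_zpowers j
    exact this.1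
  have hj2 : j ∈ L₂ := by
    have : j ∈ L₁ ⊓ L₂ := by rw [hm]; exact Subgroup.mem_zpowers j
    exact this.2
  obtain ⟨hA₁, w₁, hw₁, hw₁L, hB₁⟩ := sl2_facts hF₁ L₁ e₁ j hj hj1
  obtain ⟨hA₂, w₂, hw₂, hw₂L, hB₂⟩ := sl2_facts hF₂ L₂ e₂ j hj hj2
  have hidx : ((L₁ ⊔ L₂).subgroupOf (Subgroup.centralizer ({j} : Set G))).index = 2 := hi
  have hnormal : ((L₁ ⊔ L₂).subgroupOf (Subgroup.centralizer ({j} : Set G))).Normal :=
    Subgroup.normal_of_index_eq_two hidx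
  have hconjC : ∀ g ∈ Subgroup.centralizer ({j} : Set G), ∀ x ∈ L₁ ⊔ L₂,
      g * x * g⁻¹ ∈ L₁ ⊔ L₂ := by
    intro g hg x hx
    have h1 := hnormal.conj_mem ⟨x, hle hx⟩ (by rw [Subgroup.mem_subgroupOf]; exact hx) ⟨g, hg⟩
    rw [Subgroup.mem_subgroupOf] at h1
    simpa using h1
  have hnj : n * j = j * n := by
    have h1 := Subgroup.mem_centralizer_iff.mp hn j (Set.mem_singleton j)
    exact h1.symm
  have hnL := hconjC n hn
  have hnL' : ∀ x ∈ L₁ ⊔ L₂, n⁻¹ * x * n ∈ L₁ ⊔ L₂ := by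
    intro x hx
    have h1 := hconjC n⁻¹ (Subgroup.inv_mem _ hn) x hx
    simpa using h1
  rcases core L₁ L₂ hc j hj hm hA₁ hA₂ w₁ hw₁ hw₁L hB₁ w₂ hw₂ hw₂L hB₂ n hnj hnL hnL' with
    h | ⟨h, hcard⟩
  · left; exact h
  · right
    refine ⟨h, ?_, ?_⟩
    · have c1 : Nat.card L₁ = Fintype.card F₁ * (Fintype.card F₁ ^ 2 - 1) := by
        rw [Nat.card_congr e₁.toEquiv, Cfsg.Agent.Lib.Helper38.SLCard.card_SL2]
      have c2 : Nat.card L₂ = Fintype.card F₂ * (Fintype.card F₂ ^ 2 - 1) := by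
        rw [Nat.card_congr e₂.toEquiv, Cfsg.Agent.Lib.Helper38.SLCard.card_SL2]
      rw [c1, c2] at hcard
      have p1 : 1 ≤ Fintype.card F₁ := Fintype.card_pos
      have p2 : 1 ≤ Fintype.card F₂ := Fintype.card_pos
      rcases lt_trichotomy (Fintype.card F₁) (Fintype.card F₂) with h' | h' | h'
      · exact absurd hcard (card_mono _ _ p1 h').ne
      · exact h'
      · exact absurd hcard.symm (card_mono _ _ p2 h').ne
    · have hnn : n * n ∈ L₁ ⊔ L₂ := by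
        have h1 := Subgroup.mul_self_mem_of_index_two hidx ⟨n, hn⟩
        rw [Subgroup.mem_subgroupOf] at h1
        simpa using h1
      obtain ⟨a, ha, b, hb, hab⟩ := Cfsg.Agent.S3209.mem_sup_of_commute L₁ L₂ hc _ hnn
      have hs : n * a * n⁻¹ ∈ L₂ := by
        rw [← h]; exact ⟨a, ha, by simp⟩
      have ht : n * b * n⁻¹ ∈ L₁ := by
        have hb' : b ∈ L₁.map (MulAut.conj n).toMonoidHom := by rw [h]; exact hb
        rw [Cfsg.Agent.Lib.Helper53.SylowConj.mem_map_conj_iff] at hb'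
        have h1 := sup_normalizes_left L₁ L₂ hc _ hnn _ hb'
        have h2 : n * n * (n⁻¹ * b * n) * (n * n)⁻¹ = n * b * n⁻¹ := by group
        rw [h2] at h1; exact h1
      have hst : (n * a * n⁻¹) * (n * b * n⁻¹) = a * b := by
        calc (n * a * n⁻¹) * (n * b * n⁻¹) = n * (a * b) * n⁻¹ := by group
          _ = n * (n * n) * n⁻¹ := by rw [hab]
          _ = n * n := by group
          _ = a * b := hab
      have e1 : (n * a⁻¹) ^ 2 = (n * a * n⁻¹)⁻¹ * b := by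
        have hcomm := hc a ha b hb
        rw [pow_two]
        calc (n * a⁻¹) * (n * a⁻¹) = (n * a * n⁻¹)⁻¹ * (n * n) * a⁻¹ := by group
          _ = (n * a * n⁻¹)⁻¹ * (a * b) * a⁻¹ := by rw [hab]
          _ = (n * a * n⁻¹)⁻¹ * (b * a) * a⁻¹ := by rw [hcomm]
          _ = (n * a * n⁻¹)⁻¹ * b := by group
      have e2 : (n * a * n⁻¹)⁻¹ * b = a⁻¹ * (n * b * n⁻¹) := by
        have hcomm2 := hc a⁻¹ (L₁.inv_mem ha) (n * a * n⁻¹)⁻¹ (L₂.inv_mem hs)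
        calc (n * a * n⁻¹)⁻¹ * b = ((n * a * n⁻¹)⁻¹ * a⁻¹) * (a * b) := by group
          _ = (a⁻¹ * (n * a * n⁻¹)⁻¹) * ((n * a * n⁻¹) * (n * b * n⁻¹)) := by
            rw [← hcomm2, hst]
          _ = a⁻¹ * (n * b * n⁻¹) := by group
      have haC : a ∈ Subgroup.centralizer ({j} : Set G) := hle (Subgroup.mem_sup_left ha)
      refine ⟨n * a⁻¹, Subgroup.mul_mem _ hn (Subgroup.inv_mem _ haC), ?_, ?_, ?_⟩
      · intro hmem
        apply hn'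
        have h1 : n = (n * a⁻¹) * a := by group
        rw [h1]; exact Subgroup.mul_mem _ hmem (Subgroup.mem_sup_left ha)
      · ext x
        rw [Cfsg.Agent.Lib.Helper53.SylowConj.mem_map_conj_iff, ← h,
          Cfsg.Agent.Lib.Helper53.SylowConj.mem_map_conj_iff]
        have h1 : (n * a⁻¹)⁻¹ * x * (n * a⁻¹) = a * (n⁻¹ * x * n) * a⁻¹ := by group
        rw [h1]
        constructor
        · intro h2
          have h3 : n⁻¹ * x * n = a⁻¹ * (a * (n⁻¹ * x * n) * a⁻¹) * a := by group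
          rw [h3]; exact L₁.mul_mem (L₁.mul_mem (L₁.inv_mem ha) h2) ha
        · intro h2
          exact L₁.mul_mem (L₁.mul_mem ha h2) (L₁.inv_mem ha)
      · rw [← hm]
        refine ⟨?_, ?_⟩
        · rw [e1, e2]; exact L₁.mul_mem (L₁.inv_mem ha) ht
        · rw [e1]; exact L₂.mul_mem (L₂.inv_mem hs) hb

end Cfsg.Agent.S3210
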