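import Cfsg.Statements.S0375
import Cfsg.Agent.Lib.Helper8.SteinerUniq
import Cfsg.Agent.Lib.Helper8.CodeSpan2
import Cfsg.Agent.Lib.Helper8.SelfDual24Octads
import Cfsg.Agent.Lib.Helper8.SelfDual24Span
import Cfsg.Agent.Lib.Helper7.GolayCount
import Cfsg.Agent.S0363

set_option autoImplicit false
open Cfsg

namespace Cfsg.Agent.S0375

/-- A doubly even self-dual binary code of length 24 with no words of weight 4 is equivalent to the length-24 code built from the squares modulo 23. -/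
theorem result (C : Submodule (ZMod 2) (Fin 24 → ZMod 2)) (hdim : Module.finrank (ZMod 2) C = 12) (horth : ∀ v ∈ C, ∀ w ∈ C, ∑ i, v i * w i = 0) (h4 : ∀ w ∈ C, 4 ∣ hammingNorm w) (hno4 : ∀ w ∈ C, hammingNorm w ≠ 4) : ∃ e : Fin 24 ≃ Cfsg.GolayPt, ∀ w : Cfsg.GolayPt → ZMod 2, w ∈ Cfsg.golayCode ↔ (fun i => w (e i)) ∈ C := by
  have hmin : ∀ w ∈ C, w ≠ 0 → 8 ≤ hammingNorm w := by
    intro w hw hne
    have h1 := h4 w hw
    have h2 := hno4 w hw
    have h3 : hammingNorm w ≠ 0 := by rwa [Ne, hammingNorm_eq_zero]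
    obtain ⟨k, hk⟩ := h1
    omega
  have hS := Cfsg.Agent.Lib.Helper8.SelfDual24Octads.steiner C hdim horth hmin
  obtain ⟨Φ, hΦ⟩ := Cfsg.Agent.Lib.Helper8.SteinerUniq.u24 (by simp) hS
  obtain ⟨Φ', hΦ'⟩ := Cfsg.Agent.Lib.Helper8.SteinerUniq.u24 (α := Cfsg.GolayPt)
    (by rw [Fintype.card_option, ZMod.card]) Cfsg.Agent.S0363.result
  have hiso := Cfsg.Agent.Lib.Helper8.Plane4Model.iso_of_model Φ Φ' hΦ hΦ'
  refine ⟨Φ.trans Φ'.symm, ?_⟩
  have hC : Submodule.span (ZMod 2)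
      (Cfsg.Agent.Lib.Helper8.CodeSpan.ind '' Cfsg.Agent.Lib.Helper8.SelfDual24Octads.oct C) = C := by
    have hsp := Cfsg.Agent.Lib.Helper8.SelfDual24Span.span_octads C hdim horth hmin
    have hset : Cfsg.Agent.Lib.Helper8.CodeSpan.ind '' Cfsg.Agent.Lib.Helper8.SelfDual24Octads.oct C
        = {w : Fin 24 → ZMod 2 | w ∈ C ∧ hammingNorm w = 8} := by
      ext w
      constructor
      · rintro ⟨S, hS, rfl⟩
        rw [Cfsg.Agent.Lib.Helper8.SelfDual24Octads.mem_oct] at hS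
        exact ⟨hS.1, (Cfsg.Agent.Lib.Helper8.SelfDual24Octads.norm_chi S).trans hS.2⟩
      · rintro ⟨hw, h8⟩
        refine ⟨Finset.univ.filter (fun i => w i ≠ 0), ?_,
          Cfsg.Agent.Lib.Helper8.SelfDual24Leaders.chi_supp w⟩
        rw [Cfsg.Agent.Lib.Helper8.SelfDual24Octads.mem_oct,
          Cfsg.Agent.Lib.Helper8.SelfDual24Leaders.chi_supp]
        exact ⟨hw, h8⟩
    rw [hset]
    exact hsp
  have hG : Submodule.span (ZMod 2) (Cfsg.Agent.Lib.Helper8.CodeSpan.ind '' Cfsg.octads)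
      = Cfsg.golayCode := by
    have hle : Submodule.span (ZMod 2) (Cfsg.Agent.Lib.Helper8.CodeSpan.ind '' Cfsg.octads)
        ≤ Cfsg.golayCode := by
      refine Submodule.span_le.2 ?_
      rintro _ ⟨S, hS, rfl⟩
      obtain ⟨⟨w, hw, rfl⟩, -⟩ := hS
      rw [Cfsg.Agent.Lib.Helper8.CodeSpan2.ind_support]
      exact hw
    refine Submodule.eq_of_le_of_finrank_eq hle ?_
    rw [Cfsg.Agent.Lib.Helper7.GolayCount.finrank_golayCode, ← hiso,
      ← Cfsg.Agent.Lib.Helper8.CodeSpan2.map_span, LinearEquiv.finrank_map_eq, hC, hdim]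
  intro w
  rw [← hG, ← hiso, Cfsg.Agent.Lib.Helper8.CodeSpan2.mem_map_span, hC]

end Cfsg.Agent.S0375
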