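import Cfsg.Statements.S5199
import Cfsg.Agent.Lib.Helper87.FSBasic
import Cfsg.Agent.Lib.Helper87.FSSat
import Cfsg.Agent.Lib.Helper87.FSAlperin
import Cfsg.Agent.Lib.Helper86.FSMore

set_option autoImplicit false
open Cfsg

namespace Cfsg.Agent.S5199

open Cfsg.Agent.Lib.Helper87.FSBasic Cfsg.Agent.Lib.Helper87.FSSat Cfsg.Agent.Lib.Helper87.FSAlperin
open Cfsg.Agent.Lib.Helper86.FSMore

/-- Let F be a saturated fusion system over a finite p-group S, E a normal subsystem of F over T, and F₀ a normal subsystem of F over a subgroup U containing both T and the hyperfocal subgroup of F, such that F₀ has p-power index in F. Then E is a subsystem of F₀. -/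
theorem result {Ω : Type*} [Group Ω] {S : Subgroup Ω} [Finite S] (p : ℕ) [Fact p.Prime] (hS : IsPGroup p S) (F : Cfsg.FusionSystem S) (hF : F.IsSaturated p) {T U : Subgroup Ω} (E : Cfsg.FusionSystem T) (hE : E.IsNormalIn F p) (F₀ : Cfsg.FusionSystem U) (hF₀ : F₀.IsNormalIn F p) (hU : T ⊔ F.hyperfocalSubgroup p ≤ U) (hidx : F₀.HasPPowerIndexIn F p) : E.IsSubsystemOf F₀ := by
  have hEsat : E.IsSaturated p := hE.1.1
  have hEF : E.IsSubsystemOf F := hE.1.2.2.1
  have hTS : T ≤ S := hE.1.2.2.2.1.1
  have hTU : T ≤ U := le_sup_left.trans hU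
  have hfinT : Finite T := finite_of_le hTS
  have hT : IsPGroup p T := hS.to_le hTS
  have key := alperin_induction hT E hEsat (restrictTo F₀ T hTU) (by
    intro Y hfa hrec _ α hα hr
    have hYT : Y ≤ T := hfa.1
    have hmem := autOfMap_mem E hα hr
    have h1 := autGroup_le_of_fullyAutomized E hfa hmem
    have h2 : (Cfsg.pResidual p (E.autGroup Y)).map (E.autGroup Y).subtype ⊔ autInducedBy T Y ≤
        F₀.autGroup Y := by
      apply sup_le
      · exact (pResidual_map_le p (autGroup_mono E F hEF Y)).trans (hidx.2.2 Y (hYT.trans hTU))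
      · exact (autInducedBy_mono hTU Y).trans (autInducedBy_le_autGroup F₀ (hYT.trans hTU))
    have h3 := autGroup_hom F₀ (hYT.trans hTU) (h2 h1)
    refine ⟨mem_of_eq F₀ h3 fun x => ?_, hYT, fun x => (E.le_of_mem hα).2 x⟩
    rfl)
  intro P φ hφ
  exact (key P hφ).1

end Cfsg.Agent.S5199
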