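-- Statement S0100.
import Cfsg.Statements.S0100
import Cfsg.Agent.Lib.Helper24.PGroupBasic

set_option autoImplicit false
open Cfsg

namespace Cfsg.Agent.S0100

open Cfsg.Agent.Lib.Helper24.PGroupBasic in
/-- For odd p, a p-group without normal elementary abelian subgroups of order p^3 has p-rank at most 2. -/
theorem result {P : Type*} [Group P] [Finite P] {p : ℕ} [Fact p.Prime] (hp : p ≠ 2) (hP : IsPGroup p P) (h : ∀ A : Subgroup P, A.Normal → IsMulCommutative A → (∀ a ∈ A, a ^ p = 1) → Nat.card A ≠ p ^ 3) (E : Subgroup P) (hE : IsMulCommutative E) (hEe : ∀ e ∈ E, e ^ p = 1) : Nat.card E ≤ p ^ 2 := by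
  have hpr : p.Prime := Fact.out
  -- a maximal normal elementary abelian subgroup
  obtain ⟨A, ⟨hAn, hAc, hAe⟩, -, hAmax⟩ := exists_maximal_subgroup
    (fun A : Subgroup P => A.Normal ∧ (∀ a ∈ A, ∀ b ∈ A, a * b = b * a) ∧ ∀ a ∈ A, a ^ p = 1) ⊥
    ⟨inferInstance, by simp, by simp⟩
  have hcard : Nat.card A ≤ p ^ 2 := by
    by_contra hcon
    obtain ⟨a, ha⟩ := (hP.to_subgroup A).exists_card_eq
    have ha3 : 3 ≤ a := by
      by_contra h3
      apply hcon
      rw [ha]
      exact Nat.pow_le_pow_right hpr.pos (by omega)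
    have h3 : p ^ 3 ≤ Nat.card A := by
      rw [ha]; exact Nat.pow_le_pow_right hpr.pos ha3
    obtain ⟨B, hBn, hBA, hBc⟩ := exists_normal_le_card hP A hAe 3 h3
    refine h B hBn ?_ (fun b hb => hAe b (hBA hb)) hBc
    exact isMulCommutative_iff.mpr (fun a b => Subtype.ext (hAc a (hBA a.2) b (hBA b.2)))
  refine card_le_of_max_normal_elementary hp hP A hAc hAe ?_ hcard E ?_ hEe
  · intro B hBn hBc hBe hAB
    exact hAmax B ⟨hBn, hBc, hBe⟩ hAB
  · intro a ha b hb
    exact congrArg Subtype.val (isMulCommutative_iff.mp hE ⟨a, ha⟩ ⟨b, hb⟩)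

end Cfsg.Agent.S0100
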