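import Cfsg.Statements.S3783
import Mathlib
import Cfsg.Agent.Lib.Helper97.Avg
import Cfsg.Agent.Lib.Helper70.HallHigman2
import Cfsg.Agent.Lib.Helper74.DualHH
import Cfsg.Agent.Lib.Helper76.PSolv
import Cfsg.Agent.Lib.Helper63.PLength

set_option autoImplicit false
open Cfsg

namespace Cfsg.Agent.S3783

open Cfsg.Agent.Lib.Helper97.Avg Cfsg.Agent.Lib.Helper70.HallHigman2
open Cfsg.Agent.Lib.Helper76.PSolv Cfsg.Agent.Lib.Helper63.PLength

open scoped commutatorElement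

universe u

theorem mem_normalizer_of_forall_conj_mem {Γ : Type*} [Group Γ] (K : Subgroup Γ) [Finite K] (c : Γ)
    (h : ∀ k ∈ K, c * k * c⁻¹ ∈ K) : c ∈ Subgroup.normalizer (K : Set Γ) := by
  rw [Subgroup.mem_normalizer_iff]
  intro k
  refine ⟨h k, fun hk => ?_⟩
  let φ : K → K := fun k => ⟨c * k * c⁻¹, h k k.2⟩
  have hinj : Function.Injective φ := by
    intro a b hab
    have h1 : c * (a : Γ) * c⁻¹ = c * (b : Γ) * c⁻¹ := congrArg Subtype.val hab
    apply Subtype.ext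
    simpa using h1
  obtain ⟨a, ha⟩ := Finite.injective_iff_surjective.mp hinj ⟨c * k * c⁻¹, hk⟩
  have h1 : c * (a : Γ) * c⁻¹ = c * k * c⁻¹ := congrArg Subtype.val ha
  have hak : (a : Γ) = k := by simpa using h1
  rw [← hak]; exact a.2

/-- The linear core of the argument. -/
theorem key_abs {G : Type u} [Group G] [Finite G] (p : ℕ) [Fact p.Prime] (Q : Subgroup G)
    [Q.Normal] (hQp : IsPGroup p Q)
    (hQact : ∀ g : G, (∀ v : ↥Q ⧸ frattini ↥Q, act Q g v = v) → g ∈ Q)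
    (E : Subgroup (G ⧸ Q)) (x : G) (m : ℕ) (hm : 0 < m)
    (hxE : (x : G ⧸ Q) ∈ Subgroup.normalizer (E : Set (G ⧸ Q)))
    (hfrob : ∀ i : ℕ, ¬ m ∣ i → ∀ e ∈ E, e * (x : G ⧸ Q) ^ i = (x : G ⧸ Q) ^ i * e → e = 1)
    (hpow : ∀ u ∈ Q, (u * x) ^ m = 1)
    (hE : (Nat.card E).Coprime p) : E = ⊥ := by
  classical
  have hp : p.Prime := Fact.out
  have hVcomm : ∀ a b : ↥Q ⧸ frattini ↥Q, a * b = b * a := by
    intro a b
    obtain ⟨u, rfl⟩ := QuotientGroup.mk_surjective a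
    obtain ⟨w, rfl⟩ := QuotientGroup.mk_surjective b
    rw [← QuotientGroup.mk_mul, ← QuotientGroup.mk_mul]
    apply QuotientGroup.eq.mpr
    have h1 : (u * w)⁻¹ * (w * u) = ⁅w⁻¹, u⁻¹⁆ := by
      rw [commutatorElement_def]; group
    rw [h1]
    exact Cfsg.Agent.Lib.Helper70.FrattiniQuot.commutator_le_frattini hQp
      (Subgroup.commutator_mem_commutator (Subgroup.mem_top _) (Subgroup.mem_top _))
  letI : CommGroup (↥Q ⧸ frattini ↥Q) :=
    { (inferInstance : Group (↥Q ⧸ frattini ↥Q)) with mul_comm := hVcomm }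
  have hQtriv : ∀ u ∈ Q, ∀ v : ↥Q ⧸ frattini ↥Q, act Q u v = v := by
    intro u hu v
    obtain ⟨w, rfl⟩ := QuotientGroup.mk_surjective v
    rw [act_mk]
    have h1 : (MulAut.conjNormal u : MulAut ↥Q) w = ⟨u, hu⟩ * w * ⟨u, hu⟩⁻¹ := by
      apply Subtype.ext
      simp [MulAut.conjNormal_apply]
    rw [h1, QuotientGroup.mk_mul, QuotientGroup.mk_mul, QuotientGroup.mk_inv,
      hVcomm (QuotientGroup.mk ⟨u, hu⟩), mul_inv_cancel_right]
  let ρ : G ⧸ Q → (↥Q ⧸ frattini ↥Q) →* (↥Q ⧸ frattini ↥Q) := fun gb => act Q gb.out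
  have hρ : ∀ g : G, ρ (g : G ⧸ Q) = act Q g := by
    intro g
    obtain ⟨h, hh⟩ := QuotientGroup.mk_out_eq_mul Q g
    apply MonoidHom.ext
    intro v
    show act Q (Quotient.out (g : G ⧸ Q)) v = act Q g v
    rw [hh, act_mul, hQtriv h h.2]
  have hmul : ∀ a b v, ρ (a * b) v = ρ a (ρ b v) := by
    intro a b v
    obtain ⟨g, rfl⟩ := QuotientGroup.mk_surjective a
    obtain ⟨h, rfl⟩ := QuotientGroup.mk_surjective b
    rw [← QuotientGroup.mk_mul, hρ, hρ, hρ, act_mul]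
  have hone : ∀ v, ρ 1 v = v := by
    intro v
    have h1 : ρ ((1 : G) : G ⧸ Q) = act Q 1 := hρ 1
    rw [QuotientGroup.mk_one] at h1
    rw [h1]
    exact hQtriv 1 Q.one_mem v
  have hxm : x ^ m = 1 := by
    have := hpow 1 Q.one_mem
    rwa [one_mul] at this
  have hnorm : ∀ v, ∏ i ∈ Finset.range m, ρ ((x : G ⧸ Q) ^ i) v = 1 := by
    intro v
    obtain ⟨u, rfl⟩ := QuotientGroup.mk_surjective v
    have key : ∀ j : ℕ, ∃ w : ↥Q, (w : G) = ((u : G) * x) ^ j * x⁻¹ ^ j ∧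
        ∏ i ∈ Finset.range j, ρ ((x : G ⧸ Q) ^ i) (QuotientGroup.mk u) = QuotientGroup.mk w := by
      intro j
      induction j with
      | zero => exact ⟨1, by simp, by simp⟩
      | succ j ih =>
        obtain ⟨w, hw1, hw2⟩ := ih
        refine ⟨w * (MulAut.conjNormal (x ^ j) : MulAut ↥Q) u, ?_, ?_⟩
        · rw [Subgroup.coe_mul, hw1, MulAut.conjNormal_apply, pow_succ, pow_succ]
          group
        · rw [Finset.prod_range_succ, hw2, ← QuotientGroup.mk_pow, hρ, act_mk,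
            QuotientGroup.mk_mul]
    obtain ⟨w, hw1, hw2⟩ := key m
    rw [hw2]
    have hw : w = 1 := by
      apply Subtype.ext
      rw [hw1, hpow u u.2, one_mul, inv_pow, hxm, inv_one]
      rfl
    rw [hw]
    rfl
  have htor : ∀ v : ↥Q ⧸ frattini ↥Q, v ^ Nat.card E = 1 → v = 1 := by
    intro v hv
    obtain ⟨a, ha⟩ := (IsPGroup.iff_card).mp hQp
    have h1 : Nat.card (↥Q ⧸ frattini ↥Q) ∣ p ^ a := by
      rw [← ha]; exact Subgroup.card_quotient_dvd_card _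
    have h2 : orderOf v ∣ p ^ a := (orderOf_dvd_natCard v).trans h1
    have h3 : orderOf v ∣ Nat.card E := orderOf_dvd_of_pow_eq_one hv
    have h4 : orderOf v = 1 :=
      Nat.eq_one_of_dvd_coprimes (Nat.Coprime.pow_right a hE) h3 h2
    exact orderOf_eq_one_iff.mp h4
  have hfix := avg ρ hmul hone E (x : G ⧸ Q) hxE m hm hfrob hnorm htor
  rw [Subgroup.eq_bot_iff_forall]
  intro e he
  obtain ⟨g, rfl⟩ := QuotientGroup.mk_surjective e
  have h1 : ∀ v : ↥Q ⧸ frattini ↥Q, act Q g v = v := by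
    intro v
    have := hfix _ he v
    rwa [hρ] at this
  exact (QuotientGroup.eq_one_iff g).mpr (hQact g h1)

theorem pCore_quot_bot {G : Type u} [Group G] [Finite G] (p : ℕ) [Fact p.Prime] :
    pCore p (G ⧸ pCore p G) = ⊥ := by
  have hLbn : (pCore p (G ⧸ pCore p G)).Normal := inferInstance
  have hLn : ((pCore p (G ⧸ pCore p G)).comap (QuotientGroup.mk' (pCore p G))).Normal :=
    hLbn.comap _
  have hcard : Nat.card ((pCore p (G ⧸ pCore p G)).comap (QuotientGroup.mk' (pCore p G)))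
      = Nat.card (pCore p G) * Nat.card (pCore p (G ⧸ pCore p G)) :=
    QuotientGroup.card_preimage_mk (pCore p G) ((pCore p (G ⧸ pCore p G)) : Set (G ⧸ pCore p G))
  have hLp : IsPGroup p ((pCore p (G ⧸ pCore p G)).comap (QuotientGroup.mk' (pCore p G))) := by
    obtain ⟨a, ha⟩ := (IsPGroup.iff_card).mp (pCore_isPGroup p : IsPGroup p (pCore p G))
    obtain ⟨b, hb⟩ := (IsPGroup.iff_card).mp
      (pCore_isPGroup p : IsPGroup p (pCore p (G ⧸ pCore p G)))
    exact IsPGroup.of_card (n := a + b) (by rw [hcard, ha, hb, pow_add])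
  have hLQ := le_pCore hLn hLp
  have h1 : pCore p (G ⧸ pCore p G)
      = ((pCore p (G ⧸ pCore p G)).comap (QuotientGroup.mk' (pCore p G))).map
        (QuotientGroup.mk' (pCore p G)) :=
    (Subgroup.map_comap_eq_self_of_surjective (QuotientGroup.mk'_surjective (pCore p G)) _).symm
  rw [h1, Subgroup.map_eq_bot_iff, QuotientGroup.ker_mk']
  exact hLQ

theorem key {G : Type u} [Group G] [Finite G] (p : ℕ) [Fact p.Prime] (hG : IsPSolvable p G)
    (hab : ∀ (q : ℕ) [Fact q.Prime], q ≠ p → ∀ Q : Sylow q G, ∀ a ∈ Q, ∀ b ∈ Q, a * b = b * a)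
    (hcore : pPrimeCore p G = ⊥) (n : ℕ)
    (hexp : ∀ (P : Sylow p G), ∀ x ∈ (P : Subgroup G), x ^ p ^ (n + 1) = 1)
    (P : Sylow p G) (x : G) (hx : x ∈ (P : Subgroup G)) : x ^ p ^ n ∈ pCore p G := by
  classical
  by_contra hcon
  have hp : p.Prime := Fact.out
  have hQP : pCore p G ≤ P := pCore_le_sylow P
  have hcent : Subgroup.centralizer ((pCore p G : Subgroup G) : Set G) ≤ pCore p G :=
    centralizer_pCore_le p hG hcore
  obtain ⟨xb, hxb⟩ : ∃ xb : G ⧸ pCore p G, xb = (x : G ⧸ pCore p G) := ⟨_, rfl⟩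
  obtain ⟨yb, hyb⟩ : ∃ yb : G ⧸ pCore p G, yb = xb ^ p ^ n := ⟨_, rfl⟩
  have hyb1 : yb ≠ 1 := by
    intro h
    apply hcon
    have h1 : ((x ^ p ^ n : G) : G ⧸ pCore p G) = 1 := by
      rw [QuotientGroup.mk_pow, ← hxb, ← hyb]; exact h
    exact (QuotientGroup.eq_one_iff _).mp h1
  have hxbm : xb ^ p ^ (n + 1) = 1 := by
    rw [hxb, ← QuotientGroup.mk_pow, hexp P x hx, QuotientGroup.mk_one]
  have hybp : yb ^ p = 1 := by rw [hyb, ← pow_mul, ← pow_succ]; exact hxbm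
  have hxy : Commute xb yb := by rw [hyb]; exact (Commute.refl xb).pow_right _
  have hsolvb : IsPSolvable p (G ⧸ pCore p G) := isPSolvable_quotient p (pCore p G) hG
  have hcoreb : pCore p (G ⧸ pCore p G) = ⊥ := pCore_quot_bot p
  have hcentb := Cfsg.Agent.Lib.Helper74.DualHH.centralizer_pPrimeCore_le p hsolvb hcoreb
  have hK₀n : (pPrimeCore p (G ⧸ pCore p G)).Normal := (pPrimeCore_mem p).1
  have hK₀c : (Nat.card (pPrimeCore p (G ⧸ pCore p G))).Coprime p := pPrimeCore_coprime p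
  have hybK : yb ∉ pPrimeCore p (G ⧸ pCore p G) := by
    intro h
    have h1 : orderOf yb ∣ Nat.card (pPrimeCore p (G ⧸ pCore p G)) :=
      Subgroup.orderOf_dvd_natCard _ h
    have h2 : orderOf yb ∣ p := orderOf_dvd_of_pow_eq_one hybp
    exact hyb1 (orderOf_eq_one_iff.mp (Nat.eq_one_of_dvd_coprimes hK₀c h1 h2))
  -- the centralizer of `yb` in `K₀`
  obtain ⟨C, hC⟩ : ∃ C : Subgroup ↥(pPrimeCore p (G ⧸ pCore p G)),
      C = (Subgroup.centralizer ({yb} : Set (G ⧸ pCore p G))).subgroupOf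
        (pPrimeCore p (G ⧸ pCore p G)) := ⟨_, rfl⟩
  have hCmem : ∀ r : ↥(pPrimeCore p (G ⧸ pCore p G)), r ∈ C ↔ yb * (r : G ⧸ pCore p G) = r * yb := by
    intro r
    rw [hC, Subgroup.mem_subgroupOf, Subgroup.mem_centralizer_iff]
    constructor
    · intro h; exact h yb rfl
    · intro h z hz
      rw [Set.mem_singleton_iff.mp hz]; exact h
  have hCtop : C ≠ ⊤ := by
    intro h
    apply hybK
    apply hcentb
    rw [Subgroup.mem_centralizer_iff]
    intro k hk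
    have h1 : (⟨k, hk⟩ : ↥(pPrimeCore p (G ⧸ pCore p G))) ∈ C := by rw [h]; exact Subgroup.mem_top _
    exact ((hCmem _).mp h1).symm
  have hCidx : C.index ≠ 1 := fun h => hCtop (Subgroup.index_eq_one.mp h)
  obtain ⟨q, hq, hqC⟩ := Nat.exists_prime_and_dvd hCidx
  have : Fact q.Prime := ⟨hq⟩
  have hqp : q ≠ p := by
    rintro rfl
    have h1 : q ∣ Nat.card (pPrimeCore q (G ⧸ pCore q G)) := hqC.trans (Subgroup.index_dvd_card C)
    exact hq.one_lt.ne' (Nat.Coprime.eq_one_of_dvd hK₀c.symm h1)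
  obtain ⟨R, hR⟩ := exists_invariant_sylow (pPrimeCore p (G ⧸ pCore p G)) p hK₀c xb
    ⟨n + 1, hxbm⟩ q
  have hRC : ¬ (R : Subgroup ↥(pPrimeCore p (G ⧸ pCore p G))) ≤ C := by
    intro h
    have h1 : C.index ∣ (R : Subgroup ↥(pPrimeCore p (G ⧸ pCore p G))).index :=
      Subgroup.index_dvd_of_le h
    exact R.not_dvd_index (hqC.trans h1)
  obtain ⟨r₀, hr₀R, hr₀C⟩ := SetLike.not_le_iff_exists.mp hRC
  rw [hCmem] at hr₀C
  -- `R'`: the image of `R` in the quotient group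
  obtain ⟨R', hR'⟩ : ∃ R' : Subgroup (G ⧸ pCore p G),
      R' = (R : Subgroup ↥(pPrimeCore p (G ⧸ pCore p G))).map
        (pPrimeCore p (G ⧸ pCore p G)).subtype := ⟨_, rfl⟩
  have hR'q : IsPGroup q R' := by rw [hR']; exact R.isPGroup'.map _
  have hr₀R' : (r₀ : G ⧸ pCore p G) ∈ R' := by
    rw [hR']; exact Subgroup.mem_map.mpr ⟨r₀, hr₀R, rfl⟩
  have hR'x : ∀ s ∈ R', xb * s * xb⁻¹ ∈ R' := by
    intro s hs
    rw [hR'] at hs ⊢
    obtain ⟨r, hr, rfl⟩ := Subgroup.mem_map.mp hs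
    exact Subgroup.mem_map.mpr ⟨_, hR r hr, rfl⟩
  have hR'ab : ∀ a ∈ R', ∀ b ∈ R', a * b = b * a := by
    obtain ⟨S, hS⟩ := hR'q.exists_le_sylow
    obtain ⟨S', hS'⟩ := sylow_quot_lift (pCore p G) q S
    intro a ha b hb
    obtain ⟨s, hs, rfl⟩ := hS' a (hS ha)
    obtain ⟨t, ht, rfl⟩ := hS' b (hS hb)
    rw [← QuotientGroup.mk_mul, ← QuotientGroup.mk_mul, hab q hqp S' s hs t ht]
  have hR'xi : ∀ i : ℕ, ∀ s ∈ R', xb ^ i * s * (xb ^ i)⁻¹ ∈ R' := by
    intro i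
    induction i with
    | zero => intro s hs; simpa using hs
    | succ i ih =>
      intro s hs
      have h1 := hR'x _ (ih s hs)
      have h2 : xb ^ (i + 1) * s * (xb ^ (i + 1))⁻¹ = xb * (xb ^ i * s * (xb ^ i)⁻¹) * xb⁻¹ := by
        rw [pow_succ']; group
      rw [h2]; exact h1
  have hR'y : ∀ s ∈ R', yb * s * yb⁻¹ ∈ R' := by
    intro s hs; rw [hyb]; exact hR'xi _ s hs
  -- the subgroup `E = [R', yb]`
  let E : Subgroup (G ⧸ pCore p G) :=
    { carrier := {e | ∃ s ∈ R', e = s⁻¹ * (yb * s * yb⁻¹)}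
      one_mem' := ⟨1, R'.one_mem, by group⟩
      mul_mem' := by
        rintro _ _ ⟨s, hs, rfl⟩ ⟨t, ht, rfl⟩
        refine ⟨s * t, R'.mul_mem hs ht, ?_⟩
        have h1 : (yb * s * yb⁻¹) * t⁻¹ = t⁻¹ * (yb * s * yb⁻¹) :=
          hR'ab _ (hR'y s hs) _ (R'.inv_mem ht)
        have h2 : s⁻¹ * t⁻¹ = t⁻¹ * s⁻¹ := hR'ab _ (R'.inv_mem hs) _ (R'.inv_mem ht)
        calc s⁻¹ * (yb * s * yb⁻¹) * (t⁻¹ * (yb * t * yb⁻¹))
            = s⁻¹ * ((yb * s * yb⁻¹) * t⁻¹) * (yb * t * yb⁻¹) := by group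
          _ = s⁻¹ * (t⁻¹ * (yb * s * yb⁻¹)) * (yb * t * yb⁻¹) := by rw [h1]
          _ = (s⁻¹ * t⁻¹) * (yb * s * yb⁻¹) * (yb * t * yb⁻¹) := by group
          _ = (t⁻¹ * s⁻¹) * (yb * s * yb⁻¹) * (yb * t * yb⁻¹) := by rw [h2]
          _ = (s * t)⁻¹ * (yb * (s * t) * yb⁻¹) := by group
      inv_mem' := by
        rintro _ ⟨s, hs, rfl⟩
        refine ⟨s⁻¹, R'.inv_mem hs, ?_⟩
        have h1 : (yb * s⁻¹ * yb⁻¹) * s = s * (yb * s⁻¹ * yb⁻¹) :=
          hR'ab _ (hR'y _ (R'.inv_mem hs)) _ hs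
        calc (s⁻¹ * (yb * s * yb⁻¹))⁻¹ = (yb * s⁻¹ * yb⁻¹) * s := by group
          _ = s * (yb * s⁻¹ * yb⁻¹) := h1
          _ = s⁻¹⁻¹ * (yb * s⁻¹ * yb⁻¹) := by rw [inv_inv] }
  have hEmem : ∀ e, e ∈ E ↔ ∃ s ∈ R', e = s⁻¹ * (yb * s * yb⁻¹) := fun e => Iff.rfl
  have hER : E ≤ R' := by
    intro e he
    obtain ⟨s, hs, rfl⟩ := (hEmem e).mp he
    exact R'.mul_mem (R'.inv_mem hs) (hR'y s hs)
  have hEx : xb ∈ Subgroup.normalizer (E : Set (G ⧸ pCore p G)) := by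
    apply mem_normalizer_of_forall_conj_mem
    intro e he
    obtain ⟨s, hs, rfl⟩ := (hEmem e).mp he
    rw [hEmem]
    refine ⟨xb * s * xb⁻¹, hR'x s hs, ?_⟩
    have hc1 : xb⁻¹ * yb = yb * xb⁻¹ := hxy.inv_left.eq
    have hc2 : xb⁻¹ * yb⁻¹ = yb⁻¹ * xb⁻¹ := hxy.inv_inv.eq
    symm
    calc (xb * s * xb⁻¹)⁻¹ * (yb * (xb * s * xb⁻¹) * yb⁻¹)
        = xb * s⁻¹ * (xb⁻¹ * yb) * xb * s * (xb⁻¹ * yb⁻¹) := by group
      _ = xb * s⁻¹ * (yb * xb⁻¹) * xb * s * (yb⁻¹ * xb⁻¹) := by rw [hc1, hc2]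
      _ = xb * (s⁻¹ * (yb * s * yb⁻¹)) * xb⁻¹ := by group
  have hfrob : ∀ i : ℕ, ¬ p ^ (n + 1) ∣ i → ∀ e ∈ E, e * xb ^ i = xb ^ i * e → e = 1 := by
    intro i hi e he hcomm
    -- `e` commutes with `yb`
    have hb : ((Nat.gcd i (p ^ (n + 1)) : ℕ) : ℤ)
        = (i : ℤ) * Nat.gcdA i (p ^ (n + 1)) + ((p ^ (n + 1) : ℕ) : ℤ) * Nat.gcdB i (p ^ (n + 1)) :=
      Nat.gcd_eq_gcd_ab i (p ^ (n + 1))
    have h1 : xb ^ (Nat.gcd i (p ^ (n + 1))) = (xb ^ i) ^ (Nat.gcdA i (p ^ (n + 1))) := by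
      rw [← zpow_natCast, hb, zpow_add, zpow_mul, zpow_mul, zpow_natCast, zpow_natCast, hxbm,
        one_zpow, mul_one]
    have h2 : Commute e (xb ^ (Nat.gcd i (p ^ (n + 1)))) := by
      rw [h1]; exact (show Commute e (xb ^ i) from hcomm).zpow_right _
    obtain ⟨a, ha, hda⟩ := (Nat.dvd_prime_pow hp).mp (Nat.gcd_dvd_right i (p ^ (n + 1)))
    have han : a ≤ n := by
      by_contra hlt
      have ha1 : a = n + 1 := by omega
      rw [ha1] at hda
      apply hi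
      rw [← hda]; exact Nat.gcd_dvd_left _ _
    have h3 : yb = (xb ^ (Nat.gcd i (p ^ (n + 1)))) ^ p ^ (n - a) := by
      rw [hyb, hda, ← pow_mul, ← pow_add, Nat.add_sub_cancel' han]
    have h4 : Commute e yb := by rw [h3]; exact h2.pow_right _
    obtain ⟨s, hs, hes⟩ := (hEmem e).mp he
    have h5 : (e * yb) ^ p = 1 := by
      have h6 : e * yb = s⁻¹ * yb * s⁻¹⁻¹ := by rw [hes]; group
      rw [h6, conj_pow, hybp]; group
    rw [h4.mul_pow, hybp, mul_one] at h5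
    have h7 : orderOf e ∣ p := orderOf_dvd_of_pow_eq_one h5
    obtain ⟨k, hk⟩ := hR'q ⟨e, hER he⟩
    have h8 : e ^ q ^ k = 1 := by
      have := congrArg Subtype.val hk
      simpa using this
    have h9 : orderOf e ∣ q ^ k := orderOf_dvd_of_pow_eq_one h8
    have h10 : Nat.Coprime p (q ^ k) :=
      Nat.Coprime.pow_right k ((Nat.coprime_primes hp hq).mpr (Ne.symm hqp))
    exact orderOf_eq_one_iff.mp (Nat.eq_one_of_dvd_coprimes h10 h7 h9)
  have hpow : ∀ u ∈ pCore p G, (u * x) ^ p ^ (n + 1) = 1 := by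
    intro u hu
    exact hexp P _ (Subgroup.mul_mem _ (hQP hu) hx)
  have hEc : (Nat.card E).Coprime p := by
    obtain ⟨k, hk⟩ := (IsPGroup.iff_card).mp hR'q
    have h1 : Nat.card E ∣ q ^ k := by rw [← hk]; exact Subgroup.card_dvd_of_le hER
    exact Nat.Coprime.coprime_dvd_left h1
      (Nat.Coprime.pow_left k ((Nat.coprime_primes hq hp).mpr hqp))
  have hQact : ∀ g : G, (∀ v : ↥(pCore p G) ⧸ frattini ↥(pCore p G), act (pCore p G) g v = v) →
      g ∈ pCore p G := by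
    intro g hg
    exact (mem_pCore_iff_of_centralizer_le p hcent g).mp ((act_eq_self_iff (pCore p G) g).mp hg)
  have hEbot : E = ⊥ := by
    subst hxb
    exact key_abs p (pCore p G) (pCore_isPGroup p) hQact E x (p ^ (n + 1)) (pow_pos hp.pos _)
      hEx hfrob hpow hEc
  have he₀ : (r₀ : G ⧸ pCore p G)⁻¹ * (yb * r₀ * yb⁻¹) ∈ E := (hEmem _).mpr ⟨_, hr₀R', rfl⟩
  rw [hEbot, Subgroup.mem_bot] at he₀
  apply hr₀C
  have h1 := congrArg (fun z => (r₀ : G ⧸ pCore p G) * z * yb) he₀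
  simpa [mul_assoc] using h1

theorem hab_quot {G : Type u} [Group G] [Finite G] (p : ℕ) (N : Subgroup G) [N.Normal]
    (hab : ∀ (q : ℕ) [Fact q.Prime], q ≠ p → ∀ Q : Sylow q G, ∀ a ∈ Q, ∀ b ∈ Q, a * b = b * a) :
    ∀ (q : ℕ) [Fact q.Prime], q ≠ p → ∀ Q : Sylow q (G ⧸ N), ∀ a ∈ Q, ∀ b ∈ Q, a * b = b * a := by
  intro q _ hq Q a ha b hb
  obtain ⟨S, hS⟩ := sylow_quot_lift N q Q
  obtain ⟨s, hs, rfl⟩ := hS a ha
  obtain ⟨t, ht, rfl⟩ := hS b hb
  rw [← QuotientGroup.mk_mul, ← QuotientGroup.mk_mul, hab q hq S s hs t ht]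

theorem hexp_quot {G : Type u} [Group G] [Finite G] (p : ℕ) [Fact p.Prime] (N : Subgroup G)
    [N.Normal] (k : ℕ) (h : ∀ (P : Sylow p G), ∀ x ∈ (P : Subgroup G), x ^ k ∈ N) :
    ∀ (P : Sylow p (G ⧸ N)), ∀ y ∈ (P : Subgroup (G ⧸ N)), y ^ k = 1 := by
  intro P y hy
  obtain ⟨S, hS⟩ := sylow_quot_lift N p P
  obtain ⟨s, hs, rfl⟩ := hS y hy
  rw [← QuotientGroup.mk_pow]
  exact (QuotientGroup.eq_one_iff _).mpr (h S s hs)

theorem card_quot_lt {G : Type u} [Group G] [Finite G] (N : Subgroup G) [N.Normal] (hN : N ≠ ⊥) :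
    Nat.card (G ⧸ N) < Nat.card G := by
  have h1 : Nat.card G = Nat.card (G ⧸ N) * Nat.card N :=
    Subgroup.card_eq_card_quotient_mul_card_subgroup N
  have h2 : 1 < Nat.card N := N.one_lt_card_iff_ne_bot.mpr hN
  have h3 : 0 < Nat.card (G ⧸ N) := Nat.card_pos
  rw [h1]
  nlinarith

theorem main (p : ℕ) [Fact p.Prime] : ∀ (N : ℕ) (G : Type u) [Group G] [Finite G],
    Nat.card G = N → IsPSolvable p G →
    (∀ (q : ℕ) [Fact q.Prime], q ≠ p → ∀ Q : Sylow q G, ∀ a ∈ Q, ∀ b ∈ Q, a * b = b * a) →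
    ∀ n : ℕ, (∀ (P : Sylow p G), ∀ x ∈ (P : Subgroup G), x ^ p ^ n = 1) → PLengthLE p n G := by
  intro N
  induction N using Nat.strong_induction_on with
  | _ N ih =>
    intro G _ _ hN hG hab n hexp
    by_cases hK : pPrimeCore p G = ⊥
    · by_cases hQ : pCore p G = ⊥
      · have hcent := centralizer_pCore_le p hG hK
        rw [hQ] at hcent
        have hcard : Nat.card G = 1 := by
          rw [← Subgroup.card_top (G := G)]
          have htop : (⊤ : Subgroup G) = ⊥ := by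
            rw [eq_bot_iff]
            intro g _
            apply hcent
            rw [Subgroup.mem_centralizer_iff]
            intro h hh
            rw [Subgroup.coe_bot, Set.mem_singleton_iff] at hh
            rw [hh, one_mul, mul_one]
          rw [htop, Subgroup.card_bot]
        have h0 : PLengthLE p 0 G :=
          pLengthLE_zero_of_coprime (by rw [hcard]; exact Nat.coprime_one_left p)
        exact PLengthLE.mono h0 (Nat.zero_le n)
      · cases n with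
        | zero =>
          exfalso
          apply hQ
          rw [eq_bot_iff]
          intro u hu
          obtain ⟨P⟩ : Nonempty (Sylow p G) := inferInstance
          have h1 := hexp P u (pCore_le_sylow P hu)
          rw [pow_zero, pow_one] at h1
          rw [h1]; exact Subgroup.one_mem _
        | succ n =>
          have hkey := key p hG hab hK n hexp
          have hlt : Nat.card (G ⧸ pCore p G) < N := by rw [← hN]; exact card_quot_lt _ hQ
          have hq := ih _ hlt (G ⧸ pCore p G) rfl (isPSolvable_quotient p _ hG)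
            (hab_quot p _ hab) n (hexp_quot p _ _ hkey)
          obtain ⟨a, ha⟩ := (IsPGroup.iff_card).mp (pCore_isPGroup p : IsPGroup p (pCore p G))
          have hQ1 : PLengthLE p 1 (pCore p G) := pLengthLE_one_of_card ha
          have h2 := pLengthLE_add (pCore p G) hQ1 hq
          rwa [add_comm] at h2
    · have hKn : (pPrimeCore p G).Normal := (pPrimeCore_mem p).1
      have hlt : Nat.card (G ⧸ pPrimeCore p G) < N := by rw [← hN]; exact card_quot_lt _ hK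
      have hexp' : ∀ (P : Sylow p G), ∀ x ∈ (P : Subgroup G), x ^ p ^ n ∈ pPrimeCore p G := by
        intro P x hx
        rw [hexp P x hx]; exact Subgroup.one_mem _
      have hq := ih _ hlt (G ⧸ pPrimeCore p G) rfl (isPSolvable_quotient p _ hG)
        (hab_quot p _ hab) n (hexp_quot p _ _ hexp')
      have h0 : PLengthLE p 0 (pPrimeCore p G) :=
        pLengthLE_zero_of_coprime (pPrimeCore_coprime p)
      have h2 := pLengthLE_add (pPrimeCore p G) h0 hq
      rwa [zero_add] at h2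

/-- Let G be a finite p-soluble group in which, for every prime q ≠ p, the Sylow q-subgroups are abelian. If the Sylow p-subgroups of G have exponent dividing p^n, then G has p-length at most n. -/
theorem result {G : Type*} [Group G] [Finite G] {p : ℕ} [Fact p.Prime] (hG : Cfsg.IsPSolvable p G) (hab : ∀ (q : ℕ) [Fact q.Prime], q ≠ p → ∀ Q : Sylow q G, IsMulCommutative (Q : Subgroup G)) (n : ℕ) (hexp : ∀ (P : Sylow p G), ∀ x ∈ (P : Subgroup G), x ^ p ^ n = 1) : Cfsg.PLengthLE p n G := by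
  have hab' : ∀ (q : ℕ) [Fact q.Prime], q ≠ p → ∀ Q : Sylow q G, ∀ a ∈ Q, ∀ b ∈ Q,
      a * b = b * a := by
    intro q _ hq Q a ha b hb
    have h1 := (hab q hq Q).is_comm.comm ⟨a, ha⟩ ⟨b, hb⟩
    exact congrArg Subtype.val h1
  exact main p (Nat.card G) G rfl hG hab' n hexp

end Cfsg.Agent.S3783
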