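import Cfsg.Statements.S5198
import Cfsg.Agent.Lib.Helper87.FSBasic
import Cfsg.Agent.Lib.Helper87.FSSat
import Cfsg.Agent.Lib.Helper87.FSAlperin
import Cfsg.Agent.Lib.Helper86.FSMore
import Cfsg.Agent.Lib.Helper86.GroupAux

set_option autoImplicit false
open Cfsg

namespace Cfsg.Agent.S5198

open Cfsg.Agent.Lib.Helper87.FSBasic Cfsg.Agent.Lib.Helper87.FSSat Cfsg.Agent.Lib.Helper87.FSAlperin
open Cfsg.Agent.Lib.Helper86.FSMore Cfsg.Agent.Lib.Helper86.GroupAux

section aux

variable {Ω : Type*} [Group Ω] {S : Subgroup Ω}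

/-- strongly closed subgroups are normalized by `S` -/
theorem le_normalizer_of_stronglyClosed (F : FusionSystem S) {T : Subgroup Ω}
    (hT : F.StronglyClosed T) : S ≤ Subgroup.normalizer (T : Set Ω) := by
  intro s hs
  rw [Subgroup.mem_normalizer_iff]
  intro t
  constructor
  · intro ht
    exact hT.2 T le_rfl (conjHom T s) (F.conj_mem hT.1 hs) ⟨t, ht⟩
  · intro ht
    have h := hT.2 T le_rfl (conjHom T s⁻¹) (F.conj_mem hT.1 (S.inv_mem hs)) ⟨s * t * s⁻¹, ht⟩
    have h2 : conjHom T s⁻¹ ⟨s * t * s⁻¹, ht⟩ = t := by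
      show s⁻¹ * (s * t * s⁻¹) * s⁻¹⁻¹ = t
      group
    rwa [h2] at h

/-- the action of `S` on the strongly closed subgroup `T`, as a homomorphism into `Aut_F(T)` -/
noncomputable def cT (F : FusionSystem S) (T : Subgroup Ω) (hT : F.StronglyClosed T) :
    S →* F.autGroup T :=
  ((T.normalizerMonoidHom).comp (Subgroup.inclusion (le_normalizer_of_stronglyClosed F hT))).codRestrict
    (F.autGroup T) (fun s => autInducedBy_le_autGroup F hT.1
      (conj_mem_autInducedBy s.2 (le_normalizer_of_stronglyClosed F hT s.2)))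

theorem cT_apply (F : FusionSystem S) (T : Subgroup Ω) (hT : F.StronglyClosed T) (s : S) (t : T) :
    ((((cT F T hT s : F.autGroup T) : MulAut T) t : T) : Ω) = s * t * (s : Ω)⁻¹ := rfl

/-- `O^p(Aut_F(T)) Inn(T)` as a subgroup of `Aut_F(T)` -/
def A₀ (F : FusionSystem S) (p : ℕ) (T : Subgroup Ω) : Subgroup (F.autGroup T) :=
  Cfsg.pResidual p (F.autGroup T) ⊔ (Cfsg.Inn T).subgroupOf (F.autGroup T)

instance A₀_normal (F : FusionSystem S) (p : ℕ) (T : Subgroup Ω) : (A₀ F p T).Normal := by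
  have h1 : (Cfsg.pResidual p (F.autGroup T)).Normal := pResidual_normal p _
  have h2 : ((Cfsg.Inn T).subgroupOf (F.autGroup T)).Normal := inferInstance
  exact Subgroup.sup_normal _ _

/-- the homomorphism `S → Aut_F(T) / O^p(Aut_F(T)) Inn(T)` -/
noncomputable def θ (F : FusionSystem S) (p : ℕ) (T : Subgroup Ω) (hT : F.StronglyClosed T) :
    S →* F.autGroup T ⧸ A₀ F p T :=
  (QuotientGroup.mk' (A₀ F p T)).comp (cT F T hT)

/-- the same map extended by `1` outside `S` -/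
noncomputable def θ' (F : FusionSystem S) (p : ℕ) (T : Subgroup Ω) (hT : F.StronglyClosed T) :
    Ω → F.autGroup T ⧸ A₀ F p T := fun g => by
  classical exact if h : g ∈ S then θ F p T hT ⟨g, h⟩ else 1

theorem θ'_of_mem (F : FusionSystem S) (p : ℕ) (T : Subgroup Ω) (hT : F.StronglyClosed T) {g : Ω}
    (hg : g ∈ S) : θ' F p T hT g = θ F p T hT ⟨g, hg⟩ := by
  unfold θ'
  exact dif_pos hg

theorem θ'_mul (F : FusionSystem S) (p : ℕ) (T : Subgroup Ω) (hT : F.StronglyClosed T) {g h : Ω}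
    (hg : g ∈ S) (hh : h ∈ S) : θ' F p T hT (g * h) = θ' F p T hT g * θ' F p T hT h := by
  rw [θ'_of_mem F p T hT hg, θ'_of_mem F p T hT hh, θ'_of_mem F p T hT (S.mul_mem hg hh), ← map_mul]
  rfl

theorem θ'_inv (F : FusionSystem S) (p : ℕ) (T : Subgroup Ω) (hT : F.StronglyClosed T) {g : Ω}
    (hg : g ∈ S) : θ' F p T hT g⁻¹ = (θ' F p T hT g)⁻¹ := by
  rw [θ'_of_mem F p T hT hg, θ'_of_mem F p T hT (S.inv_mem hg), ← map_inv]
  rfl

theorem θ'_conj (F : FusionSystem S) (p : ℕ) (T : Subgroup Ω) (hT : F.StronglyClosed T) {g x : Ω}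
    (hg : g ∈ S) (hx : x ∈ S) :
    θ' F p T hT (g * x * g⁻¹) = θ' F p T hT g * θ' F p T hT x * (θ' F p T hT g)⁻¹ := by
  rw [θ'_mul F p T hT (S.mul_mem hg hx) (S.inv_mem hg), θ'_mul F p T hT hg hx, θ'_inv F p T hT hg]

theorem θ'_of_mem_T (F : FusionSystem S) (p : ℕ) (T : Subgroup Ω) (hT : F.StronglyClosed T) {t : Ω}
    (ht : t ∈ T) : θ' F p T hT t = 1 := by
  rw [θ'_of_mem F p T hT (hT.1 ht)]
  show (QuotientGroup.mk (cT F T hT ⟨t, hT.1 ht⟩) : F.autGroup T ⧸ A₀ F p T) = 1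
  rw [QuotientGroup.eq_one_iff]
  apply Subgroup.mem_sup_right
  rw [Subgroup.mem_subgroupOf]
  refine ⟨⟨t, ht⟩, ?_⟩
  ext x
  rfl

/-- the fusion system of maps compatible with `θ` up to conjugation -/
noncomputable def E (F : FusionSystem S) (p : ℕ) (T : Subgroup Ω) (hT : F.StronglyClosed T) :
    FusionSystem S where
  Hom P := {φ | φ ∈ F.Hom P ∧ ∃ b : F.autGroup T ⧸ A₀ F p T,
    ∀ x : P, θ' F p T hT (φ x) = b * θ' F p T hT x * b⁻¹}
  le_of_mem h := F.le_of_mem h.1
  injective_of_mem h := F.injective_of_mem h.1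
  conj_mem := by
    intro P g hP hg
    refine ⟨F.conj_mem hP hg, θ' F p T hT g, fun x => ?_⟩
    exact θ'_conj F p T hT hg (hP x.2)
  comp_mem := by
    rintro P Q φ ψ ⟨hφ, b₁, h₁⟩ ⟨hψ, b₂, h₂⟩ h
    refine ⟨F.comp_mem hφ hψ h, b₂ * b₁, fun x => ?_⟩
    show θ' F p T hT (ψ ⟨φ x, h x⟩) = _
    rw [h₂ ⟨φ x, h x⟩]
    show b₂ * θ' F p T hT (φ x) * b₂⁻¹ = _
    rw [h₁ x]
    group
  inv_mem := by
    rintro P φ ⟨hφ, b, hb⟩
    obtain ⟨ψ, hψ, hinv⟩ := F.inv_mem hφ
    refine ⟨ψ, ⟨hψ, b⁻¹, ?_⟩, hinv⟩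
    rintro ⟨_, x, rfl⟩
    rw [hinv x]
    show θ' F p T hT x = b⁻¹ * θ' F p T hT (φ x) * b⁻¹⁻¹
    rw [hb x]
    group

theorem finite_mulAut {Y : Subgroup Ω} (h : Finite Y) : Finite (MulAut Y) :=
  Finite.of_injective (fun α : MulAut Y => (α : Y → Y)) (fun α β h => MulEquiv.ext (congrFun h))

/-- every map of a saturated system is compatible with `θ` up to conjugation -/
theorem le_E [Finite S] {p : ℕ} [Fact p.Prime] (hS : IsPGroup p S) (F : FusionSystem S)
    (hF : F.IsSaturated p) (T : Subgroup Ω) (hT : F.StronglyClosed T) :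
    ∀ P : Subgroup Ω, F.Hom P ⊆ (E F p T hT).Hom P := by
  apply alperin_induction hS F hF (E F p T hT)
  intro Y hfa hrec IH α hα hr
  have hYS : Y ≤ S := hfa.1
  have hSNT := le_normalizer_of_stronglyClosed F hT
  by_cases hTY : T ≤ Y
  · refine ⟨hα, ?_⟩
    have hαT := restrict_mem F hα hTY
    have hfinT : Finite T := finite_of_le hT.1
    have hrT : (α.comp (Subgroup.inclusion hTY)).range = T := by
      apply Subgroup.eq_of_le_of_card_ge
      · rintro _ ⟨t, rfl⟩
        exact hT.2 T le_rfl _ hαT t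
      · exact (card_range F hαT).ge
    have hβ : autOfMap (α.comp (Subgroup.inclusion hTY)) (F.injective_of_mem hαT) hrT ∈ F.autGroup T :=
      autOfMap_mem F hαT hrT
    refine ⟨QuotientGroup.mk ⟨_, hβ⟩, fun x => ?_⟩
    have hxS : (x : Ω) ∈ S := hYS x.2
    have hαxS : α x ∈ S := (F.le_of_mem hα).2 x
    rw [θ'_of_mem F p T hT hxS, θ'_of_mem F p T hT hαxS]
    show (QuotientGroup.mk (cT F T hT ⟨α x, hαxS⟩) : F.autGroup T ⧸ A₀ F p T) =
      QuotientGroup.mk ⟨_, hβ⟩ * QuotientGroup.mk (cT F T hT ⟨x, hxS⟩) * (QuotientGroup.mk ⟨_, hβ⟩)⁻¹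
    rw [← QuotientGroup.mk_mul, ← QuotientGroup.mk_inv, ← QuotientGroup.mk_mul]
    congr 1
    rw [eq_mul_inv_iff_mul_eq]
    apply Subtype.ext
    ext t
    show α x * α (Subgroup.inclusion hTY t) * (α x)⁻¹ =
      α (Subgroup.inclusion hTY ((cT F T hT ⟨x, hxS⟩ : MulAut T) t))
    have h1 : Subgroup.inclusion hTY ((cT F T hT ⟨x, hxS⟩ : MulAut T) t) =
        x * Subgroup.inclusion hTY t * x⁻¹ := Subtype.ext rfl
    rw [h1, map_mul, map_mul, map_inv]
  · have hfinY : Finite Y := finite_of_le hYS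
    have hfinM : Finite (MulAut Y) := finite_mulAut hfinY
    obtain ⟨-, R, hR⟩ := hfa
    -- the subgroup of automorphisms acting trivially modulo `T`
    let C : Subgroup (F.autGroup Y) :=
      { carrier := {γ | ∀ x : Y, (x : Ω)⁻¹ * (((γ : MulAut Y) x : Y) : Ω) ∈ T}
        mul_mem' := by
          intro a b ha hb x
          have h1 := hb x
          have h2 := ha ((b : MulAut Y) x)
          have h3 : (x : Ω)⁻¹ * ((((a * b : F.autGroup Y) : MulAut Y) x : Y) : Ω) =
              ((x : Ω)⁻¹ * (((b : MulAut Y) x : Y) : Ω)) *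
                ((((b : MulAut Y) x : Y) : Ω)⁻¹ * (((a : MulAut Y) ((b : MulAut Y) x) : Y) : Ω)) := by
            show (x : Ω)⁻¹ * (((a : MulAut Y) ((b : MulAut Y) x) : Y) : Ω) = _
            group
          rw [h3]
          exact T.mul_mem h1 h2
        one_mem' := by
          intro x
          show (x : Ω)⁻¹ * (x : Ω) ∈ T
          rw [inv_mul_cancel]
          exact T.one_mem
        inv_mem' := by
          intro a ha x
          have h1 := ha ((a : MulAut Y)⁻¹ x)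
          rw [MulAut.apply_inv_self] at h1
          have h2 : (x : Ω)⁻¹ * ((((a⁻¹ : F.autGroup Y) : MulAut Y) x : Y) : Ω) =
              ((((a : MulAut Y)⁻¹ x : Y) : Ω)⁻¹ * (x : Ω))⁻¹ := by
            show (x : Ω)⁻¹ * ((((a : MulAut Y)⁻¹ x : Y)) : Ω) = _
            group
          rw [h2]
          exact T.inv_mem h1 }
    have hCmem : ∀ γ : F.autGroup Y, γ ∈ C ↔ ∀ x : Y, (x : Ω)⁻¹ * (((γ : MulAut Y) x : Y) : Ω) ∈ T :=
      fun γ => Iff.rfl
    have hCn : C.Normal := by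
      constructor
      intro γ hγ δ
      rw [hCmem]
      intro x
      -- y = δ⁻¹ x, t' = y⁻¹ * γ y ∈ Y ⊓ T
      set y := (δ : MulAut Y)⁻¹ x with hy
      have hty : (y : Ω)⁻¹ * (((γ : MulAut Y) y : Y) : Ω) ∈ T := hγ y
      have hδF := autGroup_hom F hYS δ.2
      have hres := restrict_mem F hδF (inf_le_right : T ⊓ Y ≤ Y)
      have hmemTY : (y : Ω)⁻¹ * (((γ : MulAut Y) y : Y) : Ω) ∈ T ⊓ Y :=
        ⟨hty, Y.mul_mem (Y.inv_mem y.2) ((γ : MulAut Y) y).2⟩
      have h1 := hT.2 (T ⊓ Y) inf_le_left _ hres ⟨_, hmemTY⟩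
      have h2 : (x : Ω)⁻¹ * ((((δ * γ * δ⁻¹ : F.autGroup Y) : MulAut Y) x : Y) : Ω) =
          (((δ : MulAut Y) (y⁻¹ * (γ : MulAut Y) y) : Y) : Ω) := by
        show (x : Ω)⁻¹ * (((δ : MulAut Y) ((γ : MulAut Y) ((δ : MulAut Y)⁻¹ x)) : Y) : Ω) = _
        rw [map_mul, map_inv]
        have h3 : (δ : MulAut Y) y = x := by rw [hy, MulAut.apply_inv_self]
        rw [h3]
        rfl
      rw [h2]
      exact h1
    obtain ⟨ν, γ, hγ, hαeq, hν⟩ := frattini_inf C R ⟨autOfMap α (F.injective_of_mem hα) hr,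
      autOfMap_mem F hα hr⟩
    -- `γ` is in `E`
    have hγE : Y.subtype.comp (γ : MulAut Y).toMonoidHom ∈ (E F p T hT).Hom Y := by
      refine ⟨autGroup_hom F hYS γ.2, 1, fun x => ?_⟩
      have h1 : ((Y.subtype.comp (γ : MulAut Y).toMonoidHom) x : Ω) =
          (x : Ω) * ((x : Ω)⁻¹ * (((γ : MulAut Y) x : Y) : Ω)) := by
        show (((γ : MulAut Y) x : Y) : Ω) = _
        group
      rw [h1, θ'_mul F p T hT (hYS x.2) (hT.1 (hγ x)), θ'_of_mem_T F p T hT (hγ x)]
      group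
    -- `ν` extends to a larger subgroup
    have hνF := autGroup_hom F hYS ν.2
    obtain ⟨ψ, hψ, hext⟩ := hrec.2 Y _ hνF (range_autHom _)
    have hNS : FusionSystem.extender S Y (Y.subtype.comp (ν : MulAut Y).toMonoidHom) ≤ S :=
      (Subgroup.closure_le _).mpr fun g hg => hg.1
    have hYN : Y ≤ FusionSystem.extender S Y (Y.subtype.comp (ν : MulAut Y).toMonoidHom) := by
      intro g hg
      apply Subgroup.subset_closure
      refine ⟨hYS hg, Subgroup.le_normalizer hg, (((ν : MulAut Y) ⟨g, hg⟩ : Y) : Ω),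
        hYS ((ν : MulAut Y) ⟨g, hg⟩).2, fun x hx => ?_⟩
      show (((ν : MulAut Y) ⟨g * x * g⁻¹, hx⟩ : Y) : Ω) =
        (((ν : MulAut Y) ⟨g, hg⟩ : Y) : Ω) * (((ν : MulAut Y) x : Y) : Ω) * (((ν : MulAut Y) ⟨g, hg⟩ : Y) : Ω)⁻¹
      have h1 : (⟨g * x * g⁻¹, hx⟩ : Y) = ⟨g, hg⟩ * x * ⟨g, hg⟩⁻¹ := Subtype.ext rfl
      rw [h1, map_mul, map_mul, map_inv]
      rfl
    -- an element of `T` normalizing `Y` outside `Y`
    have hYT : Y ≤ Y ⊔ T := le_sup_left
    have hYTS : Y ⊔ T ≤ S := sup_le hYS hT.1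
    have hfinYT : Finite (Y ⊔ T : Subgroup Ω) := finite_of_le hYTS
    have hne : Y ≠ Y ⊔ T := by
      intro h
      apply hTY
      rw [h]
      exact le_sup_right
    obtain ⟨g, hgYT, hgN, hgY⟩ := exists_normalizer_not_mem (hS.to_le hYTS) hYT hne
    obtain ⟨y, hy, t, ht, hyt⟩ := exists_mul_of_mem_sup (hYS.trans hSNT) hgYT
    have htN : t ∈ Subgroup.normalizer (Y : Set Ω) := by
      have h1 : t = y⁻¹ * g := by rw [← hyt]; group
      rw [h1]
      exact Subgroup.mul_mem _ (Subgroup.inv_mem _ (Subgroup.le_normalizer hy)) hgN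
    have htY : t ∉ Y := by
      intro h
      apply hgY
      rw [← hyt]
      exact Y.mul_mem hy h
    have htS : t ∈ S := hT.1 ht
    have htext : t ∈ FusionSystem.extender S Y (Y.subtype.comp (ν : MulAut Y).toMonoidHom) := by
      apply Subgroup.subset_closure
      refine ⟨htS, htN, ?_⟩
      have hd1 : Y.normalizerMonoidHom ⟨t, htN⟩ ∈ autInducedBy S Y := conj_mem_autInducedBy htS htN
      have hd2 : Y.normalizerMonoidHom ⟨t, htN⟩ ∈ F.autGroup Y := autInducedBy_le_autGroup F hYS hd1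
      have hdC : (⟨Y.normalizerMonoidHom ⟨t, htN⟩, hd2⟩ : F.autGroup Y) ∈ C := by
        rw [hCmem]
        intro x
        show (x : Ω)⁻¹ * (t * (x : Ω) * t⁻¹) ∈ T
        have h1 : (x : Ω)⁻¹ * t * (x : Ω)⁻¹⁻¹ ∈ T :=
          (Subgroup.mem_normalizer_iff.mp (hSNT (S.inv_mem (hYS x.2))) t).mp ht
        have h2 : (x : Ω)⁻¹ * (t * (x : Ω) * t⁻¹) = ((x : Ω)⁻¹ * t * (x : Ω)⁻¹⁻¹) * t⁻¹ := by group
        rw [h2]
        exact T.mul_mem h1 (T.inv_mem ht)
      have hdR : (⟨Y.normalizerMonoidHom ⟨t, htN⟩, hd2⟩ : F.autGroup Y) ∈ (R : Subgroup (F.autGroup Y)) := by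
        rw [hR]
        exact Subgroup.mem_subgroupOf.mpr hd1
      have h3 := (hν _ ⟨hdC, hdR⟩).2
      rw [hR] at h3
      have h4 : ((ν * ⟨Y.normalizerMonoidHom ⟨t, htN⟩, hd2⟩ * ν⁻¹ : F.autGroup Y) : MulAut Y) ∈
          autInducedBy S Y := Subgroup.mem_subgroupOf.mp h3
      obtain ⟨h, hhS, hh⟩ := (mem_autInducedBy_iff _).1 h4
      refine ⟨h, hhS, fun x hx => ?_⟩
      have h5 := hh ((ν : MulAut Y) x)
      show (((ν : MulAut Y) ⟨t * x * t⁻¹, hx⟩ : Y) : Ω) = h * (((ν : MulAut Y) x : Y) : Ω) * h⁻¹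
      rw [← h5]
      show _ = (((ν : MulAut Y) ((Y.normalizerMonoidHom ⟨t, htN⟩) ((ν : MulAut Y)⁻¹ ((ν : MulAut Y) x))) : Y) : Ω)
      rw [MulAut.inv_apply_self]
      rfl
    have hfinN : Finite (FusionSystem.extender S Y (Y.subtype.comp (ν : MulAut Y).toMonoidHom)) :=
      finite_of_le hNS
    have hlt : Nat.card Y < Nat.card (FusionSystem.extender S Y (Y.subtype.comp (ν : MulAut Y).toMonoidHom)) := by
      by_contra hcon
      have h1 := Subgroup.eq_of_le_of_card_ge hYN (not_lt.mp hcon)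
      apply htY
      rw [h1]
      exact htext
    have hψE := IH _ hlt hψ
    have hνE : Y.subtype.comp (ν : MulAut Y).toMonoidHom ∈ (E F p T hT).Hom Y := by
      refine mem_of_eq (E F p T hT) (restrict_mem (E F p T hT) hψE hYN) fun x => ?_
      exact (hext x x.2 (hYN x.2)).symm
    refine comp_mem_of_eq (E F p T hT) hγE hνE (fun x => ((γ : MulAut Y) x).2) fun x => ?_
    have h1 : α x = (((autOfMap α (F.injective_of_mem hα) hr) x : Y) : Ω) := rfl
    rw [h1]
    have h2 : autOfMap α (F.injective_of_mem hα) hr = ((ν * γ : F.autGroup Y) : MulAut Y) :=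
      congrArg Subtype.val hαeq
    rw [h2]
    rfl

theorem isPGroup_quot [Finite S] {p : ℕ} [Fact p.Prime] (F : FusionSystem S) (T : Subgroup Ω)
    (hT : F.StronglyClosed T) : IsPGroup p (F.autGroup T ⧸ A₀ F p T) := by
  have hfinT : Finite T := finite_of_le hT.1
  have hfinM : Finite (MulAut T) := finite_mulAut hfinT
  have hn : (Cfsg.pResidual p (F.autGroup T)).Normal := pResidual_normal p _
  have h := isPGroup_quotient_pResidual p (F.autGroup T)
  intro q
  obtain ⟨a, rfl⟩ := QuotientGroup.mk_surjective q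
  obtain ⟨k, hk⟩ := h (QuotientGroup.mk a)
  refine ⟨k, ?_⟩
  rw [← QuotientGroup.mk_pow, QuotientGroup.eq_one_iff] at hk ⊢
  exact Subgroup.mem_sup_left hk

theorem θ'_pResidual [Finite S] {p : ℕ} [Fact p.Prime] (hS : IsPGroup p S) (F : FusionSystem S)
    (hF : F.IsSaturated p) (T : Subgroup Ω) (hT : F.StronglyClosed T) (P : Subgroup Ω) (hP : P ≤ S)
    (α : F.autGroup P) (hα : α ∈ Cfsg.pResidual p (F.autGroup P)) (x : P) :
    θ' F p T hT ((((α : MulAut P) x : P) : Ω)) = θ' F p T hT (x : Ω) := by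
  have hp : p.Prime := Fact.out
  have hle := le_E hS F hF T hT
  have hB := isPGroup_quot (p := p) F T hT
  let Z : Subgroup (F.autGroup P) :=
    { carrier := {α | ∀ x : P, θ' F p T hT ((((α : MulAut P) x : P) : Ω)) = θ' F p T hT (x : Ω)}
      mul_mem' := by
        intro a b ha hb x
        show θ' F p T hT ((((a : MulAut P) ((b : MulAut P) x) : P) : Ω)) = _
        rw [ha, hb]
      one_mem' := fun x => rfl
      inv_mem' := by
        intro a ha x
        have h1 := ha ((a : MulAut P)⁻¹ x)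
        rw [MulAut.apply_inv_self] at h1
        exact h1.symm }
  have hZ : Cfsg.pResidual p (F.autGroup P) ≤ Z := by
    unfold Cfsg.pResidual
    rw [Subgroup.closure_le]
    intro a ha
    have hco : Nat.Coprime (orderOf a) p := ha
    obtain ⟨-, b, hb⟩ := hle P (autGroup_hom F hP a.2)
    obtain ⟨j, hj⟩ := hB b
    have hpow : ∀ (k : ℕ) (x : P), θ' F p T hT (((((a ^ k : F.autGroup P) : MulAut P) x : P) : Ω)) =
        b ^ k * θ' F p T hT (x : Ω) * (b ^ k)⁻¹ := by
      intro k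
      induction k with
      | zero => intro x; simp
      | succ k ih =>
        intro x
        have h1 : ((((a ^ (k + 1) : F.autGroup P) : MulAut P) x : P) : Ω) =
            (((a : MulAut P) (((a ^ k : F.autGroup P) : MulAut P) x) : P) : Ω) := by
          rw [pow_succ']
          rfl
        rw [h1]
        have h2 := hb (((a ^ k : F.autGroup P) : MulAut P) x)
        have h3 : θ' F p T hT ((((a : MulAut P) (((a ^ k : F.autGroup P) : MulAut P) x) : P) : Ω)) =
            b * θ' F p T hT (((((a ^ k : F.autGroup P) : MulAut P) x : P) : Ω)) * b⁻¹ := h2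
        rw [h3, ih x, pow_succ']
        group
    have hfix : ∀ x : P, θ' F p T hT (((((a ^ (p ^ j) : F.autGroup P) : MulAut P) x : P) : Ω)) =
        θ' F p T hT (x : Ω) := by
      intro x
      rw [hpow, hj]
      group
    have hco' : Nat.Coprime (p ^ j) (orderOf a) := (Nat.Coprime.pow_right j hco).symm
    obtain ⟨m, hm⟩ := exists_pow_eq_self_of_coprime hco'
    have hiter : ∀ (m : ℕ) (x : P),
        θ' F p T hT ((((((a ^ (p ^ j)) ^ m : F.autGroup P) : MulAut P) x : P) : Ω)) =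
          θ' F p T hT (x : Ω) := by
      intro m
      induction m with
      | zero => intro x; simp
      | succ m ih =>
        intro x
        have h1 : ((((((a ^ (p ^ j)) ^ (m + 1) : F.autGroup P) : MulAut P) x : P)) : Ω) =
            ((((a ^ (p ^ j) : F.autGroup P) : MulAut P)
              ((((a ^ (p ^ j)) ^ m : F.autGroup P) : MulAut P) x) : P) : Ω) := by
          rw [pow_succ']
          rfl
        rw [h1, hfix, ih]
    intro x
    have := hiter m x
    rw [hm] at this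
    exact this
  exact hZ hα x

end aux

/-- Let F be a saturated fusion system over a finite p-group S and T a subgroup of S strongly closed in F (so T is normal in S). Then every element x of the hyperfocal subgroup of F acts on T by conjugation as an element of O^p(Aut_F(T))·Inn(T): there is an automorphism of T in the subgroup generated by the elements of Aut_F(T) of order prime to p together with the inner automorphisms of T that agrees with conjugation by x. -/
theorem result {Ω : Type*} [Group Ω] {S : Subgroup Ω} [Finite S] (p : ℕ) [Fact p.Prime] (hS : IsPGroup p S) (F : Cfsg.FusionSystem S) (hF : F.IsSaturated p) (T : Subgroup Ω) (hT : F.StronglyClosed T) : ∀ x ∈ F.hyperfocalSubgroup p, ∃ α ∈ ((Cfsg.pResidual p ↥(F.autGroup T)).map (F.autGroup T).subtype ⊔ Cfsg.Inn ↥T : Subgroup (MulAut ↥T)), ∀ t : ↥T, ((α t : ↥T) : Ω) = x * (t : Ω) * x⁻¹ := by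
  have hK : F.hyperfocalSubgroup p ≤ (θ F p T hT).ker.map S.subtype := by
    unfold FusionSystem.hyperfocalSubgroup
    rw [Subgroup.closure_le]
    rintro y ⟨P, α, x, hP, hα, rfl⟩
    have hxS : (x : Ω) ∈ S := hP x.2
    have hαxS : ((((α : MulAut P) x : P)) : Ω) ∈ S := hP ((α : MulAut P) x).2
    have hmem : (x : Ω)⁻¹ * ((((α : MulAut P) x : P)) : Ω) ∈ S := S.mul_mem (S.inv_mem hxS) hαxS
    refine ⟨⟨_, hmem⟩, ?_, rfl⟩
    show θ F p T hT ⟨_, hmem⟩ = 1
    rw [← θ'_of_mem F p T hT hmem, θ'_mul F p T hT (S.inv_mem hxS) hαxS, θ'_inv F p T hT hxS,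
      θ'_pResidual hS F hF T hT P hP α hα x, inv_mul_cancel]
  intro x hx
  obtain ⟨⟨x', hx'S⟩, hker, rfl⟩ := hK hx
  have hmem : cT F T hT ⟨x', hx'S⟩ ∈ A₀ F p T := (QuotientGroup.eq_one_iff _).mp hker
  refine ⟨((cT F T hT ⟨x', hx'S⟩ : F.autGroup T) : MulAut T), ?_, fun t => rfl⟩
  have h1 : (A₀ F p T).map (F.autGroup T).subtype ≤
      (Cfsg.pResidual p ↥(F.autGroup T)).map (F.autGroup T).subtype ⊔ Cfsg.Inn ↥T := by
    unfold A₀
    rw [Subgroup.map_sup]
    apply sup_le_sup_left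
    rintro _ ⟨a, ha, rfl⟩
    exact Subgroup.mem_subgroupOf.mp ha
  exact h1 ⟨_, hmem, rfl⟩

end Cfsg.Agent.S5198
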