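import Cfsg.Statements.S2426
-- import your own Cfsg.Agent.* helpers here
import Cfsg.Agent.Lib.Helper98.SL2Sub
import Cfsg.Agent.Lib.Helper98.Steinberg

set_option autoImplicit false
open Cfsg

namespace Cfsg.Agent.S2426

section Helpers

open Matrix MatrixGroups
open Cfsg.Agent.Lib.Helper98.SL2Sub Cfsg.Agent.Lib.Helper98.Steinberg

variable {K : Type*} [Field K]

/-- images of the generators in `SL(2, K)` -/
def gen (p : Bool × K) : SL(2, K) := cond p.1 (u p.2) (l p.2)

lemma gen_true (t : K) : gen (true, t) = u t := rfl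
lemma gen_false (t : K) : gen (false, t) = l t := rfl

lemma wu_entries (t : K) (ht : t ≠ 0) :
    (u t * l (-t⁻¹) * u t).1 0 0 = 0 ∧ (u t * l (-t⁻¹) * u t).1 0 1 = t ∧
    (u t * l (-t⁻¹) * u t).1 1 0 = -t⁻¹ ∧ (u t * l (-t⁻¹) * u t).1 1 1 = 0 := by
  have hti : t * t⁻¹ = 1 := mul_inv_cancel₀ ht
  refine ⟨?_, ?_, ?_, ?_⟩ <;>
    simp only [mul00, mul01, mul10, mul11, u00, u01, u10, u11, l00, l01, l10, l11] <;>
    first
      | linear_combination (-1 : K) * hti
      | linear_combination (-t) * hti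
      | linear_combination (0 : K) * hti

lemma wl_entries (t : K) (ht : t ≠ 0) :
    (l t * u (-t⁻¹) * l t).1 0 0 = 0 ∧ (l t * u (-t⁻¹) * l t).1 0 1 = -t⁻¹ ∧
    (l t * u (-t⁻¹) * l t).1 1 0 = t ∧ (l t * u (-t⁻¹) * l t).1 1 1 = 0 := by
  have hti : t * t⁻¹ = 1 := mul_inv_cancel₀ ht
  refine ⟨?_, ?_, ?_, ?_⟩ <;>
    simp only [mul00, mul01, mul10, mul11, u00, u01, u10, u11, l00, l01, l10, l11] <;>
    first
      | linear_combination (-1 : K) * hti
      | linear_combination (-t) * hti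
      | linear_combination (0 : K) * hti

lemma sl2_relX (t s : K) (ht : t ≠ 0) :
    (u t * l (-t⁻¹) * u t) * u s * (u t * l (-t⁻¹) * u t)⁻¹ = l (-(t⁻¹ ^ 2 * s)) := by
  have hti : t * t⁻¹ = 1 := mul_inv_cancel₀ ht
  obtain ⟨h00, h01, h10, h11⟩ := wu_entries t ht
  obtain ⟨A, hA⟩ : ∃ A : SL(2, K), A = u t * l (-t⁻¹) * u t := ⟨_, rfl⟩
  rw [← hA] at h00 h01 h10 h11 ⊢
  apply sl2_ext <;>
    simp only [mul00, mul01, mul10, mul11, inv00, inv01, inv10, inv11, h00, h01, h10, h11,
      u00, u01, u10, u11, l00, l01, l10, l11] <;>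
    first
      | linear_combination (0 : K) * hti
      | linear_combination (1 : K) * hti
      | linear_combination (-1 : K) * hti

lemma sl2_relY (t s : K) (ht : t ≠ 0) :
    (l t * u (-t⁻¹) * l t) * l s * (l t * u (-t⁻¹) * l t)⁻¹ = u (-(t⁻¹ ^ 2 * s)) := by
  have hti : t * t⁻¹ = 1 := mul_inv_cancel₀ ht
  obtain ⟨h00, h01, h10, h11⟩ := wl_entries t ht
  obtain ⟨A, hA⟩ : ∃ A : SL(2, K), A = l t * u (-t⁻¹) * l t := ⟨_, rfl⟩
  rw [← hA] at h00 h01 h10 h11 ⊢
  apply sl2_ext <;>
    simp only [mul00, mul01, mul10, mul11, inv00, inv01, inv10, inv11, h00, h01, h10, h11,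
      u00, u01, u10, u11, l00, l01, l10, l11] <;>
    first
      | linear_combination (0 : K) * hti
      | linear_combination (1 : K) * hti
      | linear_combination (-1 : K) * hti

lemma stData_sl2 : StData (u : K → SL(2, K)) l where
  addX := u_mul
  addY := l_mul
  relX := fun t s ht => sl2_relX t s ht
  relY := fun t s ht => sl2_relY t s ht

lemma hE_sl2 (t : K) (ht : t ≠ 0) : hE (u : K → SL(2, K)) l t = d t ht := by
  obtain ⟨a00, a01, a10, a11⟩ := wu_entries t ht
  obtain ⟨b00, b01, b10, b11⟩ := wu_entries (1 : K) one_ne_zero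
  unfold hE wE
  obtain ⟨A, hA⟩ : ∃ A : SL(2, K), A = u t * l (-t⁻¹) * u t := ⟨_, rfl⟩
  obtain ⟨B, hB⟩ : ∃ B : SL(2, K), B = u (1 : K) * l (-(1 : K)⁻¹) * u 1 := ⟨_, rfl⟩
  rw [← hA] at a00 a01 a10 a11 ⊢
  rw [← hB] at b00 b01 b10 b11 ⊢
  apply sl2_ext <;>
    simp only [mul00, mul01, mul10, mul11, inv00, inv01, inv10, inv11, a00, a01, a10, a11,
      b00, b01, b10, b11, d00, d01, d10, d11, inv_one] <;>
    ring

lemma wE_one_sl2 : wE (u : K → SL(2, K)) l 1 = w := by
  obtain ⟨b00, b01, b10, b11⟩ := wu_entries (1 : K) one_ne_zero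
  unfold wE
  apply sl2_ext
  · rw [b00, w00]
  · rw [b01, w01]
  · rw [b10, w10, inv_one]
  · rw [b11, w11]

/-- the Steinberg relators -/
abbrev rels (K : Type*) [Field K] : Set (FreeGroup (Bool × K)) :=
  {g : FreeGroup (Bool × K) | ∃ (b : Bool) (t u : K), g = FreeGroup.of (b, t) * FreeGroup.of (b, u) * (FreeGroup.of (b, t + u))⁻¹} ∪
    {g | ∃ (b : Bool) (t u : K), t ≠ 0 ∧
      g = (FreeGroup.of (b, t) * FreeGroup.of (!b, -t⁻¹) * FreeGroup.of (b, t)) * FreeGroup.of (b, u) *
            (FreeGroup.of (b, t) * FreeGroup.of (!b, -t⁻¹) * FreeGroup.of (b, t))⁻¹ * (FreeGroup.of (!b, -(t⁻¹ ^ 2 * u)))⁻¹}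

lemma lift_rels : ∀ r ∈ rels K, FreeGroup.lift (gen (K := K)) r = 1 := by
  rintro r (⟨b, t, s, rfl⟩ | ⟨b, t, s, ht, rfl⟩)
  · simp only [map_mul, map_inv, FreeGroup.lift_apply_of]
    cases b
    · simp only [gen_false]
      rw [l_mul, mul_inv_cancel]
    · simp only [gen_true]
      rw [u_mul, mul_inv_cancel]
  · simp only [map_mul, map_inv, FreeGroup.lift_apply_of]
    cases b
    · simp only [Bool.not_false, gen_false, gen_true]
      rw [sl2_relY t s ht, mul_inv_cancel]
    · simp only [Bool.not_true, gen_false, gen_true]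
      rw [sl2_relX t s ht, mul_inv_cancel]

/-- the canonical map from the presented group -/
noncomputable def toSL (K : Type*) [Field K] : PresentedGroup (rels K) →* SL(2, K) :=
  PresentedGroup.toGroup (lift_rels (K := K))

/-- the generators `x(t)` of the presented group -/
def Xp (t : K) : PresentedGroup (rels K) := PresentedGroup.of (true, t)
/-- the generators `y(t)` of the presented group -/
def Yp (t : K) : PresentedGroup (rels K) := PresentedGroup.of (false, t)

lemma toSL_X (t : K) : toSL K (Xp t) = u t := PresentedGroup.toGroup.of _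
lemma toSL_Y (t : K) : toSL K (Yp t) = l t := PresentedGroup.toGroup.of _

lemma stData_pres : StData (Xp : K → PresentedGroup (rels K)) Yp where
  addX := by
    intro t s
    have h1 : PresentedGroup.mk (rels K)
        (FreeGroup.of (true, t) * FreeGroup.of (true, s) * (FreeGroup.of (true, t + s))⁻¹) = 1 :=
      PresentedGroup.one_of_mem (Or.inl ⟨true, t, s, rfl⟩)
    simp only [map_mul, map_inv] at h1
    exact mul_inv_eq_one.1 h1
  addY := by
    intro t s
    have h1 : PresentedGroup.mk (rels K)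
        (FreeGroup.of (false, t) * FreeGroup.of (false, s) * (FreeGroup.of (false, t + s))⁻¹) = 1 :=
      PresentedGroup.one_of_mem (Or.inl ⟨false, t, s, rfl⟩)
    simp only [map_mul, map_inv] at h1
    exact mul_inv_eq_one.1 h1
  relX := by
    intro t s ht
    have h1 : PresentedGroup.mk (rels K)
        ((FreeGroup.of (true, t) * FreeGroup.of (false, -t⁻¹) * FreeGroup.of (true, t)) *
          FreeGroup.of (true, s) *
          (FreeGroup.of (true, t) * FreeGroup.of (false, -t⁻¹) * FreeGroup.of (true, t))⁻¹ *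
          (FreeGroup.of (false, -(t⁻¹ ^ 2 * s)))⁻¹) = 1 :=
      PresentedGroup.one_of_mem (Or.inr ⟨true, t, s, ht, rfl⟩)
    simp only [map_mul, map_inv] at h1
    exact mul_inv_eq_one.1 h1
  relY := by
    intro t s ht
    have h1 : PresentedGroup.mk (rels K)
        ((FreeGroup.of (false, t) * FreeGroup.of (true, -t⁻¹) * FreeGroup.of (false, t)) *
          FreeGroup.of (false, s) *
          (FreeGroup.of (false, t) * FreeGroup.of (true, -t⁻¹) * FreeGroup.of (false, t))⁻¹ *
          (FreeGroup.of (true, -(t⁻¹ ^ 2 * s)))⁻¹) = 1 :=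
      PresentedGroup.one_of_mem (Or.inr ⟨false, t, s, ht, rfl⟩)
    simp only [map_mul, map_inv] at h1
    exact mul_inv_eq_one.1 h1

lemma closure_eq_top :
    Subgroup.closure (Set.range (Xp : K → PresentedGroup (rels K)) ∪ Set.range Yp) = ⊤ := by
  rw [eq_top_iff]
  intro x _
  refine PresentedGroup.generated_by (rels K) _ ?_ x
  rintro ⟨b, t⟩
  cases b
  · exact Subgroup.subset_closure (Or.inr ⟨t, rfl⟩)
  · exact Subgroup.subset_closure (Or.inl ⟨t, rfl⟩)

theorem main [Finite K] :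
    ∃ e : PresentedGroup (rels K) ≃* SL(2, K),
      (∀ t : K, ((e (PresentedGroup.of (true, t)) : Matrix (Fin 2) (Fin 2) K)) = !![1, t; 0, 1]) ∧
      (∀ t : K, ((e (PresentedGroup.of (false, t)) : Matrix (Fin 2) (Fin 2) K)) = !![1, 0; t, 1]) := by
  have S := stData_pres (K := K)
  have hmap_w : toSL K (wE Xp Yp 1) = w := by
    rw [← wE_one_sl2]
    simp only [wE, map_mul, toSL_X, toSL_Y]
  have hmap_h : ∀ t : K, ∀ ht : t ≠ 0, toSL K (hE Xp Yp t) = d t ht := by
    intro t ht
    rw [← hE_sl2 t ht]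
    simp only [hE, wE, map_mul, map_inv, toSL_X, toSL_Y]
  have hinj : Function.Injective (toSL K) := by
    rw [injective_iff_map_eq_one]
    intro g hg
    refine eq_one_of_map_eq_one S (toSL K) ?_ ?_ g ?_ hg
    · intro a t ht h
      rw [map_mul, toSL_X, hmap_h t ht] at h
      have h00 := congrArg (fun m : SL(2, K) => m.1 0 0) h
      have h01 := congrArg (fun m : SL(2, K) => m.1 0 1) h
      simp only [mul00, mul01, u00, u01, d00, d01, d10, d11, one00, one01] at h00 h01
      have ht1 : t = 1 := by linear_combination h00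
      have ha : a * t⁻¹ = 0 := by linear_combination h01
      have hti : t⁻¹ ≠ 0 := inv_ne_zero ht
      exact ⟨(mul_eq_zero.1 ha).resolve_right hti, ht1⟩
    · intro a t b ht h
      rw [map_mul, map_mul, map_mul, toSL_X, toSL_X, hmap_h t ht, hmap_w] at h
      have h10 := congrArg (fun m : SL(2, K) => m.1 1 0) h
      simp only [mul00, mul01, mul10, mul11, u00, u01, u10, u11, d00, d01, d10, d11,
        w00, w01, w10, w11, one10] at h10
      have h0 : t⁻¹ = 0 := by linear_combination -h10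
      exact inv_ne_zero ht h0
    · rw [closure_eq_top]; trivial
  have hsurj : Function.Surjective (toSL K) := by
    rw [← MonoidHom.range_eq_top]
    apply eq_top_of_u_l
    · intro z; exact ⟨Xp z, toSL_X z⟩
    · intro z; exact ⟨Yp z, toSL_Y z⟩
  refine ⟨MulEquiv.ofBijective (toSL K) ⟨hinj, hsurj⟩, fun t => ?_, fun t => ?_⟩
  · show ((toSL K (Xp t)) : Matrix (Fin 2) (Fin 2) K) = _
    rw [toSL_X]; rfl
  · show ((toSL K (Yp t)) : Matrix (Fin 2) (Fin 2) K) = _
    rw [toSL_Y]; rfl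

end Helpers


/-- The rank-one Steinberg presentation of `SL₂` over a finite field `K`: generators `x(t)`, `y(t)` (`t ∈ K`; the two opposite root subgroups) subject to additivity `x(t)x(u) = x(t+u)`, `y(t)y(u) = y(t+u)` and, with `w(t) = x(t) y(−t⁻¹) x(t)` and `w'(t) = y(t) x(−t⁻¹) y(t)` for `t ≠ 0`, the relations `w(t) x(u) w(t)⁻¹ = y(−t⁻² u)` and `w'(t) y(u) w'(t)⁻¹ = x(−t⁻² u)`, present `SL₂(K)`, with `x(t) ↦ (1 t; 0 1)` and `y(t) ↦ (1 0; t 1)`. -/
theorem result {K : Type*} [Field K] [Finite K] :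
    ∃ e : PresentedGroup
        ({g : FreeGroup (Bool × K) | ∃ (b : Bool) (t u : K), g = FreeGroup.of (b, t) * FreeGroup.of (b, u) * (FreeGroup.of (b, t + u))⁻¹} ∪
          {g | ∃ (b : Bool) (t u : K), t ≠ 0 ∧
            g = (FreeGroup.of (b, t) * FreeGroup.of (!b, -t⁻¹) * FreeGroup.of (b, t)) * FreeGroup.of (b, u) *
                  (FreeGroup.of (b, t) * FreeGroup.of (!b, -t⁻¹) * FreeGroup.of (b, t))⁻¹ * (FreeGroup.of (!b, -(t⁻¹ ^ 2 * u)))⁻¹})
        ≃* Matrix.SpecialLinearGroup (Fin 2) K,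
      (∀ t : K, ((e (PresentedGroup.of (true, t)) : Matrix (Fin 2) (Fin 2) K)) = !![1, t; 0, 1]) ∧
      (∀ t : K, ((e (PresentedGroup.of (false, t)) : Matrix (Fin 2) (Fin 2) K)) = !![1, 0; t, 1]) := by
  exact main

end Cfsg.Agent.S2426
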