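import Cfsg.Statements.S0025
import Mathlib
import Cfsg.Agent.S0023
import Cfsg.Agent.S0026

set_option autoImplicit false
open Cfsg

namespace Cfsg.Agent.S0025

open Pointwise Cfsg.Agent.S0023

/-- in a `p`-group a proper subgroup is properly contained in its normaliser -/
theorem exists_normalizing_elt {G : Type*} [Group G] [Finite G] (p : ℕ) [Fact p.Prime]
    (Q U : Subgroup G) (hQ : IsPGroup p Q) (hUQ : U ≤ Q) (hne : U ≠ Q) :
    ∃ x ∈ Q, x ∉ U ∧ x ∈ Subgroup.normalizer (U : Set G) := by
  haveI : Group.IsNilpotent Q := hQ.isNilpotent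
  have hlt : U.subgroupOf Q < ⊤ := by
    rw [lt_top_iff_ne_top]
    intro h
    apply hne
    apply le_antisymm hUQ
    intro x hx
    have : (⟨x, hx⟩ : Q) ∈ U.subgroupOf Q := by rw [h]; trivial
    exact Subgroup.mem_subgroupOf.mp this
  have h1 := Group.normalizerCondition_of_isNilpotent (G := Q) (U.subgroupOf Q) hlt
  obtain ⟨x, hxn, hxU⟩ := SetLike.exists_of_lt h1
  refine ⟨x, x.2, fun h => hxU (Subgroup.mem_subgroupOf.mpr h), ?_⟩
  have key : ∀ y : Q, y ∈ Subgroup.normalizer ((U.subgroupOf Q : Subgroup Q) : Set Q) →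
      ∀ h ∈ U, (y : G) * h * (y : G)⁻¹ ∈ U := by
    intro y hy h hh
    have h2 := (Subgroup.mem_normalizer_iff.mp hy ⟨h, hUQ hh⟩).mp (Subgroup.mem_subgroupOf.mpr hh)
    exact Subgroup.mem_subgroupOf.mp h2
  apply Cfsg.Agent.S0026.mem_normalizer_of_conj_mem (key x hxn)
  intro h hh
  have := key x⁻¹ (Subgroup.inv_mem _ hxn) h hh
  simpa using this

theorem aux {G : Type*} [Group G] [Finite G] (A K : Subgroup G)
    (hAK : A ≤ Subgroup.normalizer (K : Set G))
    (hcop : (Nat.card A).Coprime (Nat.card K)) (hsolv : Group.IsSolvable A ∨ Group.IsSolvable K)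
    (p : ℕ) [Fact p.Prime] (n : ℕ) : ∀ (U : Subgroup G), U ≤ K → IsPGroup p U →
    A ≤ Subgroup.normalizer (U : Set G) → Nat.card K - Nat.card U = n →
    ∃ P : Sylow p K, U ≤ (P : Subgroup K).map K.subtype ∧
      A ≤ Subgroup.normalizer ((P : Subgroup K).map K.subtype : Set G) := by
  induction n using Nat.strongRecOn with
  | ind n ih =>
  intro U hUK hU hUA hn
  set N : Subgroup G := K ⊓ Subgroup.normalizer (U : Set G) with hN
  have hNK : N ≤ K := inf_le_left
  have hUN : U ≤ N := le_inf hUK Subgroup.le_normalizer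
  have hAN : A ≤ Subgroup.normalizer (N : Set G) := by
    intro a ha
    rw [Subgroup.mem_normalizer_iff]
    intro x
    have h1 := Subgroup.mem_normalizer_iff.mp (hAK ha) x
    have h2 : x ∈ Subgroup.normalizer (U : Set G) ↔ a * x * a⁻¹ ∈ Subgroup.normalizer (U : Set G) := by
      constructor
      · intro hx
        exact Subgroup.mul_mem _ (Subgroup.mul_mem _ (hUA ha) hx) (Subgroup.inv_mem _ (hUA ha))
      · intro hx
        have := Subgroup.mul_mem _ (Subgroup.mul_mem _ (Subgroup.inv_mem _ (hUA ha)) hx) (hUA ha)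
        have e : a⁻¹ * (a * x * a⁻¹) * a = x := by group
        rwa [e] at this
    simp only [hN, Subgroup.mem_inf, h1, h2]
  have hcopN : (Nat.card A).Coprime (Nat.card N) :=
    hcop.coprime_dvd_right (Subgroup.card_dvd_of_le hNK)
  have hsolvN : Group.IsSolvable A ∨ Group.IsSolvable N := by
    rcases hsolv with h | h
    · exact Or.inl h
    · right; exact Cfsg.Agent.S0001.solv_of_le hNK
  obtain ⟨P₁, hP₁A⟩ := Cfsg.Agent.S0023.result A N hAN hcopN hsolvN p
  set U₁ : Subgroup G := (P₁ : Subgroup N).map N.subtype with hU₁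
  have hU₁N : U₁ ≤ N := by
    rintro x ⟨y, _, rfl⟩; exact y.2
  have hU₁p : IsPGroup p U₁ := P₁.isPGroup'.map N.subtype
  have hUU₁ : U ≤ U₁ := by
    haveI : (U.subgroupOf N).Normal := by
      rw [Subgroup.normal_subgroupOf_iff_le_normalizer hUN]
      exact inf_le_right
    have hp' : IsPGroup p (U.subgroupOf N) :=
      hU.comap_of_injective N.subtype N.subtype_injective
    have h1 := hp'.le_sylow_of_normal P₁
    intro x hx
    exact ⟨⟨x, hUN hx⟩, h1 (Subgroup.mem_subgroupOf.mpr hx), rfl⟩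
  by_cases hne : U₁ = U
  · -- U is a Sylow subgroup of its normaliser in K, hence of K
    obtain ⟨Q, hQ⟩ := (hU.comap_of_injective K.subtype K.subtype_injective :
      IsPGroup p (U.subgroupOf K)).exists_le_sylow
    have hUQ : U ≤ (Q : Subgroup K).map K.subtype := by
      intro x hx
      exact ⟨⟨x, hUK hx⟩, hQ (Subgroup.mem_subgroupOf.mpr hx), rfl⟩
    have hQK : (Q : Subgroup K).map K.subtype ≤ K := by
      rintro x ⟨y, _, rfl⟩; exact y.2
    have hQp : IsPGroup p ((Q : Subgroup K).map K.subtype) := Q.isPGroup'.map K.subtype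
    have hQU : (Q : Subgroup K).map K.subtype = U := by
      by_contra hcon
      obtain ⟨x, hxQ, hxU, hxn⟩ := exists_normalizing_elt p _ U hQp hUQ (Ne.symm hcon)
      set R : Subgroup G := (Q : Subgroup K).map K.subtype ⊓ Subgroup.normalizer (U : Set G) with hR
      have hRN : R ≤ N := inf_le_inf_right _ hQK
      have hRp : IsPGroup p R := hQp.to_le inf_le_left
      have hP₁R : (P₁ : Subgroup N) ≤ R.subgroupOf N := by
        intro y hy
        rw [Subgroup.mem_subgroupOf]
        have : (y : G) ∈ U₁ := ⟨y, hy, rfl⟩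
        rw [hne] at this
        exact ⟨hUQ this, Subgroup.le_normalizer this⟩
      have hRp' : IsPGroup p (R.subgroupOf N) :=
        hRp.comap_of_injective N.subtype N.subtype_injective
      have hEq := P₁.is_maximal' hRp' hP₁R
      have hxR : x ∈ R := ⟨hxQ, hxn⟩
      have : (⟨x, hRN hxR⟩ : N) ∈ (P₁ : Subgroup N) := by
        rw [← hEq]; exact Subgroup.mem_subgroupOf.mpr hxR
      apply hxU
      rw [← hne]
      exact ⟨⟨x, hRN hxR⟩, this, rfl⟩
    exact ⟨Q, hUQ, by rw [hQU]; exact hUA⟩
  · -- U₁ is strictly larger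
    have hlt : Nat.card U < Nat.card U₁ := by
      by_contra hcon
      rw [not_lt] at hcon
      exact hne (Subgroup.eq_of_le_of_card_ge hUU₁ hcon).symm
    have hle : Nat.card U₁ ≤ Nat.card K := Subgroup.card_le_of_le (hU₁N.trans hNK)
    obtain ⟨P, hP1, hP2⟩ := ih (Nat.card K - Nat.card U₁) (by omega) U₁ (hU₁N.trans hNK) hU₁p
      hP₁A rfl
    exact ⟨P, hUU₁.trans hP1, hP2⟩

/-- Under coprime action (A normalising K, coprime orders, A or K solvable), an A-invariant p-subgroup of K is contained in an A-invariant Sylow p-subgroup of K. -/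
theorem result {G : Type*} [Group G] [Finite G] (A K : Subgroup G) (hAK : A ≤ Subgroup.normalizer (K : Set G))
    (hcop : (Nat.card A).Coprime (Nat.card K)) (hsolv : Group.IsSolvable A ∨ Group.IsSolvable K)
    (p : ℕ) [Fact p.Prime] (U : Subgroup G) (hUK : U ≤ K) (hU : IsPGroup p U) (hUA : A ≤ Subgroup.normalizer (U : Set G)) :
    ∃ P : Sylow p K, U ≤ (P : Subgroup K).map K.subtype ∧ A ≤ Subgroup.normalizer ((P : Subgroup K).map K.subtype : Set G) := by
  exact aux A K hAK hcop hsolv p _ U hUK hU hUA rfl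

end Cfsg.Agent.S0025
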