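import Cfsg.Statements.S4303
import Cfsg.Agent.S4341
import Cfsg.Agent.S0025

set_option autoImplicit false
open Cfsg

namespace Cfsg.Agent.S4303

universe u

open Cfsg.Agent.Lib.Helper64.Index Cfsg.Agent.Lib.Helper64.Sylow

/-- the property to be proved, as a predicate on natural numbers -/
def Good (p : ℕ) (m : ℕ) : Prop :=
  ∃ l : List ℕ, l.prod = m ∧ ∀ x ∈ l, (IsPrimePow x ∧ x % p = 1) ∨
    ∃ (S : Type u) (_ : Group S) (_ : Finite S), IsSimpleGroup S ∧ x = Nat.card (Sylow p S)

lemma good_one (p : ℕ) : Good.{u} p 1 := ⟨[], rfl, by simp⟩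

lemma good_mul (p : ℕ) {a b : ℕ} (ha : Good.{u} p a) (hb : Good.{u} p b) : Good.{u} p (a * b) := by
  obtain ⟨l₁, h1, h1'⟩ := ha
  obtain ⟨l₂, h2, h2'⟩ := hb
  refine ⟨l₁ ++ l₂, by rw [List.prod_append, h1, h2], ?_⟩
  intro x hx
  rcases List.mem_append.mp hx with h | h
  · exact h1' x h
  · exact h2' x h

lemma good_of_prime_powers (p : ℕ) (hp : 1 < p) (n : ℕ) (hn : n ≠ 0)
    (h : ∀ q : ℕ, q.Prime → q ∣ n → q ^ n.factorization q ≡ 1 [MOD p]) : Good.{u} p n := by
  refine ⟨n.primeFactors.toList.map (fun q => q ^ n.factorization q), ?_, ?_⟩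
  · rw [Finset.prod_map_toList]
    have h1 := Nat.prod_factorization_pow_eq_self hn
    rw [Finsupp.prod, Nat.support_factorization] at h1
    exact h1
  · intro x hx
    rw [List.mem_map] at hx
    obtain ⟨q, hq, rfl⟩ := hx
    rw [Finset.mem_toList, Nat.mem_primeFactors] at hq
    obtain ⟨hqp, hqn, _⟩ := hq
    left
    refine ⟨hqp.isPrimePow.pow (hqp.factorization_pos_of_dvd hn hqn).ne', ?_⟩
    have h2 := h q hqp hqn
    rw [Nat.ModEq, Nat.mod_eq_of_lt hp] at h2
    exact h2

/-- `[R : R ∩ N_G(P)] ≡ 1 (mod p)` when `P` normalizes `R`. -/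
lemma relIndex_normalizer_modEq {G : Type*} [Group G] [Finite G] (p : ℕ) [Fact p.Prime]
    (P : Sylow p G) (R : Subgroup G)
    (hPR : (P : Subgroup G) ≤ Subgroup.normalizer (R : Set G)) :
    (Subgroup.normalizer ((P : Subgroup G) : Set G)).relIndex R ≡ 1 [MOD p] := by
  have hPL : (P : Subgroup G) ≤ R ⊔ (P : Subgroup G) := le_sup_right
  have h1 : Nat.card (Sylow p ↥(R ⊔ (P : Subgroup G))) =
      (Subgroup.normalizer ((P : Subgroup G) : Set G)).relIndex (R ⊔ (P : Subgroup G)) :=
    Cfsg.Agent.S4341.card_sylow_subgroup_eq P _ hPL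
  have h2 : (Subgroup.normalizer ((P : Subgroup G) : Set G)).relIndex (R ⊔ (P : Subgroup G)) =
      (Subgroup.normalizer ((P : Subgroup G) : Set G)).relIndex R := by
    have hLR : R ⊔ (P : Subgroup G) ≤ Subgroup.normalizer (R : Set G) :=
      sup_le Subgroup.le_normalizer hPR
    have h3 := Cfsg.Agent.S4341.relIndex_sup_of_le_normalizer
      (Subgroup.normalizer ((P : Subgroup G) : Set G) ⊓ (R ⊔ (P : Subgroup G))) R
      (inf_le_right.trans hLR)
    have h4 : R ⊔ (Subgroup.normalizer ((P : Subgroup G) : Set G) ⊓ (R ⊔ (P : Subgroup G))) =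
        R ⊔ (P : Subgroup G) := by
      apply le_antisymm
      · exact sup_le le_sup_left inf_le_right
      · exact sup_le le_sup_left (le_sup_of_le_right (le_inf Subgroup.le_normalizer hPL))
    rw [h4, Subgroup.inf_relIndex_right] at h3
    rw [h3, ← Subgroup.inf_relIndex_right, inf_assoc,
      inf_eq_right.mpr (le_sup_left : R ≤ R ⊔ (P : Subgroup G)), Subgroup.inf_relIndex_right]
  rw [← h2, ← h1]
  exact card_sylow_modEq_one p _

lemma pow_factorization_modEq {G : Type*} [Group G] [Finite G] (p : ℕ) [Fact p.Prime]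
    (P : Sylow p G) (K : Subgroup G) [hKn : K.Normal] (hPK : (P : Subgroup G) ⊓ K = ⊥) (q : ℕ)
    (hq : q.Prime) :
    q ^ ((Subgroup.normalizer ((P : Subgroup G) : Set G)).relIndex K).factorization q
      ≡ 1 [MOD p] := by
  haveI : Fact q.Prime := ⟨hq⟩
  set N := Subgroup.normalizer ((P : Subgroup G) : Set G) with hN
  have hcomm : ∀ x ∈ (P : Subgroup G), ∀ c ∈ N ⊓ K, c * x = x * c := by
    intro x hx c hc
    have hcN : c ∈ N := hc.1
    have hcK : c ∈ K := hc.2
    have h1 : c * x * c⁻¹ ∈ (P : Subgroup G) := (Subgroup.mem_normalizer_iff.mp hcN x).mp hx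
    have h2 : c * x * c⁻¹ * x⁻¹ ∈ (P : Subgroup G) :=
      Subgroup.mul_mem _ h1 (Subgroup.inv_mem _ hx)
    have h3 : c * x * c⁻¹ * x⁻¹ ∈ K := by
      have h6 : x * c⁻¹ * x⁻¹ ∈ K := hKn.conj_mem _ (Subgroup.inv_mem _ hcK) x
      have h4 := Subgroup.mul_mem _ hcK h6
      have e : c * (x * c⁻¹ * x⁻¹) = c * x * c⁻¹ * x⁻¹ := by group
      rwa [e] at h4
    have h5 : c * x * c⁻¹ * x⁻¹ ∈ (P : Subgroup G) ⊓ K := ⟨h2, h3⟩
    rw [hPK, Subgroup.mem_bot] at h5
    have e : c * x = (c * x * c⁻¹ * x⁻¹) * (x * c) := by group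
    rw [e, h5, one_mul]
  obtain ⟨Q₀⟩ : Nonempty (Sylow q ↥(N ⊓ K)) := inferInstance
  have hUC : (Q₀ : Subgroup ↥(N ⊓ K)).map (N ⊓ K).subtype ≤ N ⊓ K := Subgroup.map_subtype_le _
  have hUK : (Q₀ : Subgroup ↥(N ⊓ K)).map (N ⊓ K).subtype ≤ K := hUC.trans inf_le_right
  have hUq : IsPGroup q ((Q₀ : Subgroup ↥(N ⊓ K)).map (N ⊓ K).subtype) := Q₀.isPGroup'.map _
  have hUA : (P : Subgroup G) ≤ Subgroup.normalizer
      (((Q₀ : Subgroup ↥(N ⊓ K)).map (N ⊓ K).subtype : Subgroup G) : Set G) := by
    refine le_trans ?_ (Subgroup.centralizer_le_normalizer _)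
    intro x hx
    rw [Subgroup.mem_centralizer_iff]
    intro u hu
    exact hcomm x hx u (hUC hu)
  have hAK : (P : Subgroup G) ≤ Subgroup.normalizer (K : Set G) := by
    rw [Subgroup.normalizer_eq_top K]; exact le_top
  have hpK : ¬ p ∣ Nat.card K := by
    intro hdvd
    obtain ⟨Q, hQ⟩ := exists_sylow_subgroupOf_normal P K
    apply Q.ne_bot_of_dvd_card hdvd
    rw [hQ, Subgroup.subgroupOf_eq_bot, disjoint_iff]
    exact hPK
  have hcop : (Nat.card (P : Subgroup G)).Coprime (Nat.card K) := by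
    obtain ⟨k, hk⟩ := IsPGroup.iff_card.mp P.isPGroup'
    rw [hk]
    exact Nat.Coprime.pow_left k ((Nat.Prime.coprime_iff_not_dvd (Fact.out)).mpr hpK)
  have hsolv : Group.IsSolvable (P : Subgroup G) := by
    haveI := P.isPGroup'.isNilpotent
    exact IsNilpotent.to_isSolvable
  obtain ⟨Q, hUQ, hPQ⟩ := Cfsg.Agent.S0025.result (P : Subgroup G) K hAK hcop (Or.inl hsolv) q
    _ hUK hUq hUA
  have hRK : (Q : Subgroup K).map K.subtype ≤ K := Subgroup.map_subtype_le _
  have hF1 := relIndex_normalizer_modEq p P _ hPQ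
  have hcR : Nat.card ((Q : Subgroup K).map K.subtype) = q ^ (Nat.card K).factorization q := by
    rw [Subgroup.card_map_of_injective K.subtype_injective]
    exact Q.card_eq_multiplicity
  have hNR : N ⊓ (Q : Subgroup K).map K.subtype = (N ⊓ K) ⊓ (Q : Subgroup K).map K.subtype := by
    rw [inf_assoc, inf_eq_right.mpr hRK]
  have hcNR : Nat.card ↥(N ⊓ (Q : Subgroup K).map K.subtype) =
      q ^ (Nat.card ↥(N ⊓ K)).factorization q := by
    rw [hNR]
    have h1 : ((N ⊓ K) ⊓ (Q : Subgroup K).map K.subtype).subgroupOf (N ⊓ K) =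
        (Q₀ : Subgroup ↥(N ⊓ K)) := by
      apply Q₀.is_maximal'
      · have hRq : IsPGroup q ((Q : Subgroup K).map K.subtype) := Q.isPGroup'.map _
        have h7 : IsPGroup q ↥((N ⊓ K) ⊓ (Q : Subgroup K).map K.subtype) :=
          hRq.to_le inf_le_right
        exact h7.comap_subtype
      · intro x hx
        rw [Subgroup.mem_subgroupOf]
        exact ⟨x.2, hUQ (Subgroup.mem_map_of_mem _ hx)⟩
    rw [← Nat.card_congr (Subgroup.subgroupOfEquivOfLe
      (inf_le_left : (N ⊓ K) ⊓ (Q : Subgroup K).map K.subtype ≤ N ⊓ K)).toEquiv, h1]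
    exact Q₀.card_eq_multiplicity
  have e1 := card_inf_mul_relIndex N K
  have e2 := card_inf_mul_relIndex N ((Q : Subgroup K).map K.subtype)
  rw [hcNR, hcR] at e2
  have hn0 : N.relIndex K ≠ 0 := by
    intro h0
    rw [h0, mul_zero] at e1
    exact Nat.card_pos.ne' e1.symm
  have hc0 : Nat.card ↥(N ⊓ K) ≠ 0 := Nat.card_pos.ne'
  have hfac : (Nat.card K).factorization q =
      (Nat.card ↥(N ⊓ K)).factorization q + (N.relIndex K).factorization q := by
    rw [← e1, Nat.factorization_mul hc0 hn0]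
    rfl
  rw [hfac, pow_add] at e2
  have e3 : N.relIndex ((Q : Subgroup K).map K.subtype) = q ^ (N.relIndex K).factorization q :=
    Nat.eq_of_mul_eq_mul_left (pow_pos hq.pos _) e2
  rw [← e3]
  exact hF1

lemma index_lt_card {X : Type*} [Group X] [Finite X] (H : Subgroup X) (hH : H ≠ ⊥) :
    H.index < Nat.card X := by
  have h1 := Subgroup.index_mul_card H
  have h2 : 1 < Nat.card H := H.one_lt_card_iff_ne_bot.mpr hH
  have h3 : 0 < H.index := Nat.pos_of_ne_zero Subgroup.index_ne_zero_of_finite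
  nlinarith

lemma card_lt_card {X : Type*} [Group X] [Finite X] (H : Subgroup X) (hH : H ≠ ⊤) :
    Nat.card H < Nat.card X := by
  have h1 := Subgroup.index_mul_card H
  have h2 : H.index ≠ 1 := fun h => hH (Subgroup.index_eq_one.mp h)
  have h3 : 0 < H.index := Nat.pos_of_ne_zero Subgroup.index_ne_zero_of_finite
  have h4 : 0 < Nat.card H := Nat.card_pos
  have h5 : 2 ≤ H.index := by omega
  nlinarith

theorem good_card_sylow (p : ℕ) [Fact p.Prime] : ∀ (n : ℕ) (G : Type u) [Group G] [Finite G],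
    Nat.card G = n → Good.{u} p (Nat.card (Sylow p G)) := by
  intro n
  induction n using Nat.strong_induction_on with
  | _ n ih =>
    intro G _ _ hG
    by_cases hsimple : IsSimpleGroup G
    · exact ⟨[Nat.card (Sylow p G)], by simp, fun m hm =>
        Or.inr ⟨G, inferInstance, inferInstance, hsimple, by simpa using hm⟩⟩
    by_cases hnt : Nontrivial G
    swap
    · have hsub : Subsingleton G := not_nontrivial_iff_subsingleton.mp hnt
      obtain ⟨P⟩ : Nonempty (Sylow p G) := inferInstance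
      have h1 : Nat.card (Sylow p G) ∣ P.index := P.card_dvd_index
      have h2 : P.index ∣ Nat.card G := Subgroup.index_dvd_card _
      have h3 : Nat.card G = 1 := Nat.card_of_subsingleton 1
      rw [h3] at h2
      have h4 : Nat.card (Sylow p G) = 1 := Nat.dvd_one.mp (h1.trans h2)
      rw [h4]
      exact good_one p
    have hK : ∃ K : Subgroup G, K.Normal ∧ K ≠ ⊥ ∧ K ≠ ⊤ := by
      by_contra hcon
      push Not at hcon
      apply hsimple
      exact { eq_bot_or_eq_top_of_normal := fun K hK => by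
                by_cases h : K = ⊥
                · exact Or.inl h
                · exact Or.inr (hcon K hK h) }
    obtain ⟨K, hKn, hKb, hKt⟩ := hK
    haveI := hKn
    obtain ⟨P⟩ : Nonempty (Sylow p G) := inferInstance
    by_cases hsp : (P : Subgroup G) ⊓ K = ⊥ ∧ (P : Subgroup G) ⊔ K = ⊤
    · obtain ⟨h1, h2⟩ := hsp
      have hidx : Nat.card (Sylow p G) =
          (Subgroup.normalizer ((P : Subgroup G) : Set G)).relIndex K := by
        rw [P.card_eq_index_normalizer]
        apply index_eq_relIndex_of_sup_eq_top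
        apply top_unique
        rw [← h2, sup_comm]
        exact sup_le_sup_left Subgroup.le_normalizer K
      rw [hidx]
      apply good_of_prime_powers p (Fact.out : p.Prime).one_lt
      · rw [← hidx]
        exact Nat.card_pos.ne'
      · intro q hq _
        exact pow_factorization_modEq p P K h1 q hq
    · haveI hn : (((P : Subgroup G) ⊓ K).subgroupOf (((P : Subgroup G) ⊔ K) ⊓
          Subgroup.normalizer (((P : Subgroup G) ⊓ K : Subgroup G) : Set G))).Normal :=
        Subgroup.normal_subgroupOf_of_le_normalizer inf_le_right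
      have hres := Cfsg.Agent.S4341.result p K P (((P : Subgroup G) ⊔ K) ⊓
          Subgroup.normalizer (((P : Subgroup G) ⊓ K : Subgroup G) : Set G)) rfl
      rw [hres]
      have hGK : Nat.card (G ⧸ K) < n := by
        rw [← hG]
        exact index_lt_card K hKb
      have hKc : Nat.card K < n := by
        rw [← hG]
        exact card_lt_card K hKt
      have hND : Nat.card (↥(((P : Subgroup G) ⊔ K) ⊓
          Subgroup.normalizer (((P : Subgroup G) ⊓ K : Subgroup G) : Set G)) ⧸
          ((P : Subgroup G) ⊓ K).subgroupOf (((P : Subgroup G) ⊔ K) ⊓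
          Subgroup.normalizer (((P : Subgroup G) ⊓ K : Subgroup G) : Set G))) < n := by
        rw [← hG]
        have hNG : Nat.card ↥(((P : Subgroup G) ⊔ K) ⊓
            Subgroup.normalizer (((P : Subgroup G) ⊓ K : Subgroup G) : Set G)) ≤ Nat.card G :=
          Nat.le_of_dvd Nat.card_pos (Subgroup.card_subgroup_dvd_card _)
        by_cases hb : (P : Subgroup G) ⊓ K = ⊥
        · have ht : (P : Subgroup G) ⊔ K ≠ ⊤ := fun h => hsp ⟨hb, h⟩
          have hNt : ((P : Subgroup G) ⊔ K) ⊓
              Subgroup.normalizer (((P : Subgroup G) ⊓ K : Subgroup G) : Set G) ≠ ⊤ :=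
            fun h => ht (top_unique (h ▸ inf_le_left))
          have h3 := card_lt_card _ hNt
          have h4 : (((P : Subgroup G) ⊓ K).subgroupOf (((P : Subgroup G) ⊔ K) ⊓
              Subgroup.normalizer (((P : Subgroup G) ⊓ K : Subgroup G) : Set G))).index ≤
              Nat.card ↥(((P : Subgroup G) ⊔ K) ⊓
              Subgroup.normalizer (((P : Subgroup G) ⊓ K : Subgroup G) : Set G)) :=
            Nat.le_of_dvd Nat.card_pos (Subgroup.index_dvd_card _)
          exact lt_of_le_of_lt h4 h3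
        · have hDN : (P : Subgroup G) ⊓ K ≤ ((P : Subgroup G) ⊔ K) ⊓
              Subgroup.normalizer (((P : Subgroup G) ⊓ K : Subgroup G) : Set G) :=
            le_inf (inf_le_left.trans le_sup_left) Subgroup.le_normalizer
          have hD' : ((P : Subgroup G) ⊓ K).subgroupOf (((P : Subgroup G) ⊔ K) ⊓
              Subgroup.normalizer (((P : Subgroup G) ⊓ K : Subgroup G) : Set G)) ≠ ⊥ := by
            rw [Ne, Subgroup.subgroupOf_eq_bot]
            intro hdis
            exact hb (hdis.eq_bot_of_le hDN)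
          exact lt_of_lt_of_le (index_lt_card _ hD') hNG
      exact good_mul p (good_mul p (ih _ hGK (G ⧸ K) rfl) (ih _ hKc K rfl)) (ih _ hND _ rfl)

/-- For a finite group `G` and a prime `p`, the number of Sylow `p`-subgroups of `G` is a product of natural numbers each of which is either a prime power congruent to 1 modulo `p` or the number of Sylow `p`-subgroups of some finite simple group. -/
theorem result {G : Type u} [Group G] [Finite G]
    (p : ℕ) [Fact p.Prime] :
    ∃ l : List ℕ, l.prod = Nat.card (Sylow p G) ∧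
      ∀ m ∈ l, (IsPrimePow m ∧ m % p = 1) ∨
        ∃ (S : Type u) (_ : Group S) (_ : Finite S), IsSimpleGroup S ∧ m = Nat.card (Sylow p S) :=
  good_card_sylow p (Nat.card G) G rfl

end Cfsg.Agent.S4303
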