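import Cfsg.Statements.S0043
import Mathlib
-- import your own Cfsg.Agent.* helpers here

set_option autoImplicit false
open Cfsg

namespace Cfsg.Agent.S0043

/-- The elements of order dividing `p` in a commutative subgroup. -/
def omega {G : Type*} [Group G] (N : Subgroup G) (hcomm : ∀ x ∈ N, ∀ y ∈ N, x * y = y * x) (p : ℕ) :
    Subgroup G where
  carrier := {x | x ∈ N ∧ x ^ p = 1}
  one_mem' := ⟨N.one_mem, one_pow p⟩
  mul_mem' := by
    rintro x y ⟨hx, hxp⟩ ⟨hy, hyp⟩
    refine ⟨N.mul_mem hx hy, ?_⟩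
    have hc : Commute x y := hcomm x hx y hy
    rw [hc.mul_pow, hxp, hyp, one_mul]
  inv_mem' := by
    rintro x ⟨hx, hxp⟩
    exact ⟨N.inv_mem hx, by rw [inv_pow, hxp, inv_one]⟩

/-- A minimal normal subgroup of a finite solvable group is abelian, and for some prime p all of its elements have order dividing p. -/
theorem result {G : Type*} [Group G] [Finite G] [Group.IsSolvable G]
    (N : Subgroup G) [N.Normal] (hN : N ≠ ⊥) (hmin : ∀ M : Subgroup G, M.Normal → M ≤ N → M = ⊥ ∨ M = N) :
    IsMulCommutative N ∧ ∃ p : ℕ, p.Prime ∧ ∀ x ∈ N, x ^ p = 1 := by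
  have hNnt : Nontrivial N := (Subgroup.nontrivial_iff_ne_bot N).mpr hN
  have hcomm0 : ⁅N, N⁆ = ⊥ := by
    rcases hmin ⁅N, N⁆ inferInstance (Subgroup.commutator_le_left N N) with h | h
    · exact h
    · exfalso
      have h1 : (_root_.commutator N).map N.subtype = (⊤ : Subgroup N).map N.subtype := by
        rw [Subgroup.map_subtype_commutator, h, ← MonoidHom.range_eq_map, Subgroup.range_subtype]
      have h2 : _root_.commutator N = ⊤ := Subgroup.map_injective N.subtype_injective h1
      exact (Group.IsSolvable.commutator_lt_top_of_nontrivial N).ne h2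
  have hcomm : ∀ x ∈ N, ∀ y ∈ N, x * y = y * x := by
    rw [Subgroup.commutator_eq_bot_iff_le_centralizer] at hcomm0
    intro x hx y hy
    have := hcomm0 hx
    rw [Subgroup.mem_centralizer_iff] at this
    exact (this y hy).symm
  refine ⟨⟨⟨fun a b => Subtype.ext (hcomm a a.2 b b.2)⟩⟩, ?_⟩
  obtain ⟨p, hp, hpd⟩ := Nat.exists_prime_and_dvd (n := Nat.card N) (by
    intro h1
    rw [Subgroup.card_eq_one] at h1
    exact hN h1)
  have : Fact p.Prime := ⟨hp⟩
  obtain ⟨x, hx⟩ := exists_prime_orderOf_dvd_card' (G := N) p hpd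
  refine ⟨p, hp, ?_⟩
  have hnorm : (omega N hcomm p).Normal := by
    constructor
    rintro y ⟨hy, hyp⟩ g
    exact ⟨Subgroup.Normal.conj_mem inferInstance y hy g, by rw [conj_pow, hyp]; simp⟩
  rcases hmin (omega N hcomm p) hnorm (fun y hy => hy.1) with h | h
  · exfalso
    have hxm : (x : G) ∈ omega N hcomm p := by
      refine ⟨x.2, ?_⟩
      have := pow_orderOf_eq_one x
      rw [hx] at this
      have h2 := congrArg Subtype.val this
      simpa using h2
    rw [h, Subgroup.mem_bot] at hxm
    have hx1 : x = 1 := Subtype.ext hxm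
    rw [hx1, orderOf_one] at hx
    exact hp.one_lt.ne hx
  · intro y hy
    rw [← h] at hy
    exact hy.2

end Cfsg.Agent.S0043
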