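import Cfsg.Statements.S3743
import Cfsg.Agent.H32.PiCore
import Cfsg.Agent.Lib.Helper71.Fitting

set_option autoImplicit false
open Cfsg

namespace Cfsg.Agent.S3743

/-- In a finite group G, every subnormal nilpotent subgroup lies in the Fitting subgroup F(G), and, for a set of primes π, every subnormal subgroup all of whose prime divisors lie in π lies in O_π(G). -/
theorem result {G : Type*} [Group G] [Finite G] (A : Subgroup G) (hA : A.IsSubnormal) : (Group.IsNilpotent A → A ≤ Cfsg.fittingSubgroup G) ∧ ∀ π : Set ℕ, (∀ p : ℕ, p.Prime → p ∣ Nat.card A → p ∈ π) → A ≤ Cfsg.piCore π G := by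
  refine ⟨fun hnil => ?_, fun π hπ => Cfsg.Agent.H32.subnormal_le_piCore π A hA hπ⟩
  show A ≤ sSup {N : Subgroup G | N.Normal ∧ Group.IsNilpotent N}
  refine Cfsg.Agent.H32.subnormal_le_sSup_normal (fun N : Subgroup G => Group.IsNilpotent N)
    inferInstance ?_ ?_ A hA hnil
  · intro N g hN
    exact (Group.isNilpotent_congr (N.equivMapOfInjective _ (MulAut.conj g).injective)).mp hN
  · intro N₁ N₂ h12 h21 h1 h2
    have hA' : Group.IsNilpotent (N₁.subgroupOf (N₁ ⊔ N₂)) :=
      (Group.isNilpotent_congr (Subgroup.subgroupOfEquivOfLe (le_sup_left : N₁ ≤ N₁ ⊔ N₂))).2 h1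
    have hB' : Group.IsNilpotent (N₂.subgroupOf (N₁ ⊔ N₂)) :=
      (Group.isNilpotent_congr (Subgroup.subgroupOfEquivOfLe (le_sup_right : N₂ ≤ N₁ ⊔ N₂))).2 h2
    haveI : (N₁.subgroupOf (N₁ ⊔ N₂)).Normal :=
      (Subgroup.normal_subgroupOf_iff_le_normalizer le_sup_left).mpr
        (sup_le Subgroup.le_normalizer h21)
    haveI : (N₂.subgroupOf (N₁ ⊔ N₂)).Normal :=
      (Subgroup.normal_subgroupOf_iff_le_normalizer le_sup_right).mpr
        (sup_le h12 Subgroup.le_normalizer)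
    refine Cfsg.Agent.Lib.Helper71.Fitting.isNilpotent_of_sup_eq_top
      (N₁.subgroupOf (N₁ ⊔ N₂)) (N₂.subgroupOf (N₁ ⊔ N₂)) hA' hB' ?_
    rw [← Subgroup.subgroupOf_sup le_sup_left le_sup_right, Subgroup.subgroupOf_self]

end Cfsg.Agent.S3743
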