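import Cfsg.Statements.S0106
import Cfsg.Agent.Lib.Helper2.SL23
import Cfsg.Agent.S0071
import Cfsg.Agent.S0218
import Cfsg.Agent.H85.DihAut
import Cfsg.Agent.Lib.Helper54.Quaternion

set_option autoImplicit false
open Cfsg

namespace Cfsg.Agent.S0106
open Cfsg.Agent.Lib.Helper54.UniqueSubgroup Cfsg.Agent.Lib.Helper54.Quaternion Cfsg.Agent.Lib.Helper2.SL23

/-- A finite group with generalized quaternion Sylow 2-subgroups either has a normal 2-complement or has a section isomorphic to SL(2,3). -/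
theorem result {G : Type*} [Group G] [Finite G] (T : Sylow 2 G) (n : ℕ) (hn : 1 ≤ n) (hT : Nonempty ((T : Subgroup G) ≃* QuaternionGroup (2 ^ n))) : Cfsg.HasNormalPComplement 2 G ∨ ∃ (H K : Subgroup G) (hK : (K.subgroupOf H).Normal), Nonempty ((H ⧸ K.subgroupOf H) ≃* Matrix.SpecialLinearGroup (Fin 2) (ZMod 3)) := by
  classical
  by_contra hcon
  rw [not_or] at hcon
  obtain ⟨hnpc, hsec⟩ := hcon
  obtain ⟨eT⟩ := hT
  -- Frobenius
  have hF : ¬ ∀ Q : Subgroup G, Q ≤ (T : Subgroup G) → ∀ g ∈ Subgroup.normalizer (Q : Set G),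
      Nat.Coprime (orderOf g) 2 → g ∈ Subgroup.centralizer (Q : Set G) := by
    intro h
    obtain ⟨N, hN, hc⟩ := (Cfsg.Agent.S0071.result T).mpr h
    exact hnpc ⟨T, N, hN, hc⟩
  push Not at hF
  obtain ⟨Q, hQT, g, hgN, hgo, hgC⟩ := hF
  obtain ⟨n', rfl⟩ : ∃ n', n = n' + 1 := ⟨n - 1, by omega⟩
  have huniq : ∀ t₁ t₂ : (T : Subgroup G), orderOf t₁ = 2 → orderOf t₂ = 2 → t₁ = t₂ := by
    intro t₁ t₂ h₁ h₂
    have hc := Cfsg.Agent.S0218.result n'
    have hsub : Subsingleton {x : QuaternionGroup (2 ^ (n' + 1)) // orderOf x = 2} :=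
      (Nat.card_eq_one_iff_unique.mp hc).1
    have e1 : orderOf (eT t₁) = 2 := by rw [MulEquiv.orderOf_eq]; exact h₁
    have e2 : orderOf (eT t₂) = 2 := by rw [MulEquiv.orderOf_eq]; exact h₂
    have := Subsingleton.elim
      (⟨eT t₁, e1⟩ : {x : QuaternionGroup (2 ^ (n' + 1)) // orderOf x = 2}) ⟨eT t₂, e2⟩
    exact eT.injective (congrArg Subtype.val this)
  have hQ2 : IsPGroup 2 Q := T.isPGroup'.to_le hQT
  have hUI : UI 2 Q := by
    intro x y hx hy hx1
    by_cases hy1 : y = 1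
    · rw [hy1]; exact one_mem _
    have hox : orderOf x = 2 := orderOf_eq_prime hx hx1
    have hoy : orderOf y = 2 := orderOf_eq_prime hy hy1
    have h := huniq ⟨(x : G), hQT x.2⟩ ⟨(y : G), hQT y.2⟩
      (by rw [Subgroup.orderOf_mk, Subgroup.orderOf_coe]; exact hox)
      (by rw [Subgroup.orderOf_mk, Subgroup.orderOf_coe]; exact hoy)
    have hxy : x = y := Subtype.ext (congrArg (fun t : (T : Subgroup G) => (t : G)) h)
    rw [← hxy]; exact Subgroup.mem_zpowers x
  set m := orderOf g with hm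
  have hodd : Odd m := hgo.odd_of_right
  set gN : ↥(Subgroup.normalizer (Q : Set G)) := ⟨g, hgN⟩ with hgNdef
  set σ : MulAut Q := Q.normalizerMonoidHom gN with hσ
  have hσne : σ ≠ 1 := fun h => hgC (mem_centralizer_of_aut_eq_one Q gN h)
  have hσm : σ ^ m = 1 := by
    rw [hσ, ← map_pow]
    have : gN ^ m = 1 := Subtype.ext (by simp [hgNdef, hm, pow_orderOf_eq_one])
    rw [this, map_one]
  have hcyc : IsCyclic Q → False := by
    intro hc
    have hcardAut := IsCyclic.card_mulAut (G := Q)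
    obtain ⟨j, hj⟩ := hQ2.exists_card_eq
    have hpow : ∃ j', Nat.card (MulAut Q) = 2 ^ j' := by
      rw [hcardAut, hj]
      rcases j with _ | j
      · exact ⟨0, by simp⟩
      · exact ⟨j, by rw [Nat.totient_prime_pow Nat.prime_two (Nat.succ_pos j)]; simp⟩
    obtain ⟨j', hj'⟩ := hpow
    have h1 : orderOf σ ∣ 2 ^ j' := by rw [← hj']; exact orderOf_dvd_natCard σ
    have h2 : orderOf σ ∣ m := orderOf_dvd_of_pow_eq_one hσm
    have h3 : Nat.Coprime (orderOf σ) (2 ^ j') := (Nat.Coprime.coprime_dvd_left h2 hgo).pow_right j'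
    have h4 : orderOf σ = 1 := Nat.Coprime.eq_one_of_dvd h3 h1
    exact hσne (orderOf_eq_one_iff.mp h4)
  rcases isCyclic_or_quaternion hQ2 hUI with hc | ⟨k, ⟨e⟩⟩
  · exact hcyc hc
  rcases k with _ | _ | k
  · haveI : IsCyclic (QuaternionGroup (2 ^ 0)) := QuaternionGroup.quaternionGroup_one_isCyclic
    exact hcyc (isCyclic_of_surjective e.symm e.symm.surjective)
  swap
  · have h := Cfsg.Agent.H85.quaternion_aut_eq_one_of_odd (k + 1 + 1) (by omega) (MulAut.congr e σ) m hodd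
      (by rw [← map_pow, hσm, map_one])
    exact hσne ((MulAut.congr e).injective (h.trans (map_one _).symm))
  -- the quaternion case of order 8
  have e2 : Q ≃* QuaternionGroup 2 := e
  exact hsec (exists_section_sl23 Q e2 g hgN hgo hgC)

end Cfsg.Agent.S0106
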