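import Cfsg.Statements.S0114
import Cfsg.Agent.Lib.Helper73.MaxClass2
import Cfsg.Agent.S3224

set_option autoImplicit false
open Cfsg

namespace Cfsg.Agent.S0114

open Cfsg.Agent.Lib.Helper73.MaxClass Cfsg.Agent.Lib.Helper73.MaxClass2

/-- The central quotient of a 2-group of maximal class is dihedral. -/
theorem result {X : Type*} [Group X] [Finite X] (n : ℕ) (hn : 3 ≤ n) (hX : Nat.card X = 2 ^ n) (hc : Group.nilpotencyClass X = n - 1) : Nonempty (X ⧸ Subgroup.center X ≃* DihedralGroup (2 ^ (n - 2))) := by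
  haveI : Fact (Nat.Prime 2) := ⟨Nat.prime_two⟩
  have h4 := index_commutator_of_maximal_class n hn hX hc
  have hG : IsPGroup 2 X := IsPGroup.of_card hX
  have h8 : 8 ≤ Nat.card X := by
    rw [hX]
    calc 8 = 2 ^ 3 := by norm_num
      _ ≤ 2 ^ n := Nat.pow_le_pow_right (by norm_num) hn
  obtain ⟨j', a, x, hj, hcard, hidx, hxa, hconj, hxx, hK⟩ := structure_index_four hG h4 h8
  have hnj : n = j' + 3 := by
    have : 2 ^ n = 2 ^ (j' + 3) := by rw [← hX, hcard]; ring
    exact Nat.pow_right_injective (le_refl 2) this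
  subst hnj
  obtain ⟨b, hb⟩ : ∃ b : X, b = a ^ (2 ^ (j' + 1)) := ⟨_, rfl⟩
  rw [← hb] at hconj hxx hK
  have hb2 : b * b = 1 := by
    rw [hb, ← pow_add]
    have : 2 ^ (j' + 1) + 2 ^ (j' + 1) = 2 ^ (j' + 2) := by ring
    rw [this, ← hj]
    exact pow_orderOf_eq_one a
  have hbinv : b⁻¹ = b := inv_eq_of_mul_eq_one_left hb2
  have hnot : ∀ m, m < j' + 2 → a ^ (2 ^ m) ≠ 1 := by
    intro m hm h
    have h1 := orderOf_dvd_of_pow_eq_one h
    rw [hj] at h1
    have h2 := Nat.le_of_dvd (by positivity) h1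
    have h3 : 2 ^ m < 2 ^ (j' + 2) := Nat.pow_lt_pow_right (by norm_num) hm
    omega
  have hb1 : b ≠ 1 := by rw [hb]; exact hnot _ (by omega)
  have hbC : b ∈ Subgroup.zpowers a := by
    rw [hb]; exact Subgroup.pow_mem _ (Subgroup.mem_zpowers a) _
  have hCab : ∀ c ∈ Subgroup.zpowers a, ∀ d ∈ Subgroup.zpowers a, c * d = d * c := by
    intro c hc d hd
    obtain ⟨i, rfl⟩ := Subgroup.mem_zpowers_iff.1 hc
    obtain ⟨l, rfl⟩ := Subgroup.mem_zpowers_iff.1 hd
    exact ((Commute.refl a).zpow_zpow i l).eq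
  have haC : a ∈ Subgroup.zpowers a := Subgroup.mem_zpowers a
  have hcov : ∀ y, y ∉ Subgroup.zpowers a → ∀ g, g ∈ Subgroup.zpowers a ∨ g * y⁻¹ ∈ Subgroup.zpowers a := by
    intro y hy g
    by_cases hg : g ∈ Subgroup.zpowers a
    · exact Or.inl hg
    · right
      rw [Subgroup.mul_mem_iff_of_index_two hidx]
      constructor
      · intro h; exact absurd h hg
      · intro h; exact absurd (by simpa using (Subgroup.zpowers a).inv_mem h) hy
  have hxb : x * b * x⁻¹ = b := by
    have h1 : x * b * x⁻¹ = (x * a * x⁻¹) ^ (2 ^ (j' + 1)) := by rw [hb, conj_pow]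
    rcases hconj with h | h
    · rw [h1, h, inv_pow, ← hb, hbinv]
    · have hcomm : Commute b a⁻¹ := hCab b hbC a⁻¹ ((Subgroup.zpowers a).inv_mem haC)
      have hbm : b ^ (2 ^ (j' + 1)) = 1 := by
        rw [pow_succ, mul_comm, pow_mul, pow_two, hb2, one_pow]
      rw [h1, h, hcomm.mul_pow, hbm, one_mul, inv_pow, ← hb, hbinv]
  have hbx : x * b = b * x := by
    have : x * b = (x * b * x⁻¹) * x := by group
    rw [this, hxb]
  have hbZ : b ∈ Subgroup.center X := by
    rw [Subgroup.mem_center_iff]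
    intro g
    rcases hcov x hxa g with hg | hg
    · exact hCab g hg b hbC
    · have h1 : (g * x⁻¹) * b = b * (g * x⁻¹) := hCab _ hg b hbC
      calc g * b = (g * x⁻¹) * (x * b) := by group
        _ = (g * x⁻¹) * (b * x) := by rw [hbx]
        _ = ((g * x⁻¹) * b) * x := by group
        _ = (b * (g * x⁻¹)) * x := by rw [h1]
        _ = b * g := by group
  have hZ : ∀ z ∈ Subgroup.center X, z = 1 ∨ z = b := by
    intro z hz
    have hzc : ∀ g, g * z = z * g := Subgroup.mem_center_iff.1 hz
    have hzC : z ∈ Subgroup.zpowers a := by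
      by_contra hzn
      have hax : a * x = x * a := by
        rcases hcov z hzn x with hx | hx
        · exact absurd hx hxa
        · have h1 : a * (x * z⁻¹) = (x * z⁻¹) * a := hCab a haC _ hx
          have h2 : a * z = z * a := hzc a
          calc a * x = (a * (x * z⁻¹)) * z := by group
            _ = ((x * z⁻¹) * a) * z := by rw [h1]
            _ = x * z⁻¹ * (a * z) := by group
            _ = x * z⁻¹ * (z * a) := by rw [h2]
            _ = x * a := by group
      rcases hK a haC hax with h | h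
      · have := hnot 0 (by omega)
        rw [pow_zero, pow_one] at this
        exact this h
      · have h1 : a ^ (2 ^ 1) = 1 := by
          rw [pow_one, pow_two]
          nth_rewrite 1 [h]
          rw [h]; exact hb2
        exact hnot 1 (by omega) h1
    exact hK z hzC (hzc x).symm
  have hZeq : Subgroup.center X = Subgroup.zpowers b := by
    apply le_antisymm
    · intro z hz
      rcases hZ z hz with h | h
      · rw [h]; exact Subgroup.one_mem _
      · rw [h]; exact Subgroup.mem_zpowers b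
    · exact Subgroup.zpowers_le.2 hbZ
  have hZcard : Nat.card (Subgroup.center X) = 2 := by
    rw [hZeq, Nat.card_zpowers]
    exact orderOf_eq_prime (by rw [pow_two]; exact hb2) hb1
  have hQcard : Nat.card (X ⧸ Subgroup.center X) = 2 * 2 ^ (j' + 1) := by
    have := Subgroup.card_eq_card_quotient_mul_card_subgroup (Subgroup.center X)
    rw [hZcard, hcard] at this
    have e : 2 * 2 ^ (j' + 2) = (2 * 2 ^ (j' + 1)) * 2 := by ring
    omega
  have hord : orderOf (a : X ⧸ Subgroup.center X) = 2 ^ (j' + 1) := by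
    apply orderOf_eq_prime_pow
    · rw [← QuotientGroup.mk_pow, QuotientGroup.eq_one_iff]
      intro h
      rcases hZ _ h with h' | h'
      · exact hnot j' (by omega) h'
      · have h1 : a ^ (2 ^ j') = a ^ (2 ^ j') * a ^ (2 ^ j') := by
          rw [← pow_add]
          have : 2 ^ j' + 2 ^ j' = 2 ^ (j' + 1) := by ring
          rw [this, ← hb]; exact h'
        have h2 : a ^ (2 ^ j') = 1 := by
          have := mul_left_cancel (a := a ^ (2 ^ j')) (b := 1) (c := a ^ (2 ^ j')) (by rw [mul_one]; exact h1)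
          exact this.symm
        exact hnot j' (by omega) h2
    · rw [← QuotientGroup.mk_pow, QuotientGroup.eq_one_iff, ← hb]
      exact hbZ
  have hxx' : (x : X ⧸ Subgroup.center X) * (x : X ⧸ Subgroup.center X) = 1 := by
    rw [← QuotientGroup.mk_mul, QuotientGroup.eq_one_iff]
    rcases hxx with h | h
    · rw [h]; exact Subgroup.one_mem _
    · rw [h]; exact hbZ
  have hxa' : (x : X ⧸ Subgroup.center X) ∉ Subgroup.zpowers (a : X ⧸ Subgroup.center X) := by
    intro h
    obtain ⟨i, hi⟩ := Subgroup.mem_zpowers_iff.1 h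
    rw [← QuotientGroup.mk_zpow] at hi
    have h1 := QuotientGroup.eq.1 hi
    apply hxa
    have hai : a ^ i ∈ Subgroup.zpowers a := Subgroup.zpow_mem _ haC i
    have e : x = a ^ i * ((a ^ i)⁻¹ * x) := by group
    rw [e]
    rcases hZ _ h1 with h' | h'
    · rw [h', mul_one]; exact hai
    · rw [h']; exact Subgroup.mul_mem _ hai hbC
  have hconj' : (x : X ⧸ Subgroup.center X) * (a : X ⧸ Subgroup.center X) *
      (x : X ⧸ Subgroup.center X)⁻¹ = (a : X ⧸ Subgroup.center X)⁻¹ := by
    rw [← QuotientGroup.mk_inv, ← QuotientGroup.mk_mul, ← QuotientGroup.mk_inv,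
      ← QuotientGroup.mk_mul, QuotientGroup.eq]
    rcases hconj with h | h
    · rw [h]
      simp
    · rw [h]
      have : (b * a⁻¹)⁻¹ * a⁻¹ = a * b⁻¹ * a⁻¹ := by group
      rw [this]
      have hn' := (inferInstance : (Subgroup.center X).Normal)
      exact hn'.conj_mem _ ((Subgroup.center X).inv_mem hbZ) a
  have key := Cfsg.Agent.S3224.dihedral_iso (a : X ⧸ Subgroup.center X)
    (x : X ⧸ Subgroup.center X) (2 ^ (j' + 1)) hord (by positivity) hQcard hxx' hxa' hconj'
  have e : j' + 3 - 2 = j' + 1 := by omega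
  rw [e]
  exact key

end Cfsg.Agent.S0114
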