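import Cfsg.Statements.S0115
import Cfsg.Agent.Lib.Helper73.MaxClass2
import Cfsg.Agent.Lib.Helper70.FrattiniQuot

set_option autoImplicit false
open Cfsg

namespace Cfsg.Agent.S0115

open Cfsg.Agent.Lib.Helper73.MaxClass Cfsg.Agent.Lib.Helper73.MaxClass2
open scoped commutatorElement

/-- Lower bound for the orders of the terms of the lower central series. -/
theorem two_pow_le_card_lcs {X : Type*} [Group X] [Finite X] [Group.IsNilpotent X] (j : ℕ)
    (hj : j ≤ Group.nilpotencyClass X) :
    2 ^ j ≤ Nat.card ((⊤ : Subgroup X).lowerCentralSeries (Group.nilpotencyClass X - j)) := by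
  obtain ⟨c, hc⟩ : ∃ c, c = Group.nilpotencyClass X := ⟨_, rfl⟩
  rw [← hc] at hj ⊢
  obtain ⟨L, hL⟩ : ∃ L : ℕ → Subgroup X, L = fun i => (⊤ : Subgroup X).lowerCentralSeries i :=
    ⟨_, rfl⟩
  have hLbot : ∀ i, L i = ⊥ ↔ c ≤ i := by
    intro i
    rw [hc, hL]
    exact Subgroup.lowerCentralSeries_eq_bot_iff_nilpotencyClass_le
  have hLanti : ∀ i, L (i + 1) ≤ L i := by
    intro i
    rw [hL]
    exact Subgroup.lowerCentralSeries_antitone _ (Nat.le_succ i)
  have hLsucc : ∀ i, L (i + 1) = ⁅L i, ⊤⁆ := by
    intro i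
    rw [hL]
    exact Subgroup.lowerCentralSeries_succ _ i
  have hstab : ∀ i, L (i + 1) = L i → ∀ j, L (i + j) = L i := by
    intro i h j
    induction j with
    | zero => rfl
    | succ j ihj =>
      have : L (i + (j + 1)) = ⁅L (i + j), ⊤⁆ := hLsucc (i + j)
      rw [this, ihj, ← hLsucc i, h]
  have hstrict : ∀ i, i < c → L (i + 1) < L i := by
    intro i hi
    refine lt_of_le_of_ne (hLanti i) ?_
    intro h
    have h1 := hstab i h (c - i)
    have h2 : i + (c - i) = c := by omega
    rw [h2] at h1
    have h3 : L c = ⊥ := (hLbot _).2 le_rfl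
    have h4 : L i = ⊥ := by rw [← h1, h3]
    have := (hLbot i).1 h4
    omega
  have hdouble : ∀ i, i < c → 2 * Nat.card (L (i + 1)) ≤ Nat.card (L i) := by
    intro i hi
    have hlt := hstrict i hi
    obtain ⟨t, ht⟩ := Subgroup.card_dvd_of_le hlt.le
    have ht0 : t ≠ 0 := by
      rintro rfl
      have := Nat.card_pos (α := L i)
      omega
    have ht1 : t ≠ 1 := by
      rintro rfl
      have := Subgroup.eq_of_le_of_card_ge hlt.le (by rw [ht]; simp)
      exact hlt.ne this
    rw [ht]
    have : 2 ≤ t := by omega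
    nlinarith [Nat.card_pos (α := L (i + 1))]
  have hlow : ∀ j, j ≤ c → 2 ^ j ≤ Nat.card (L (c - j)) := by
    intro j
    induction j with
    | zero =>
      intro _
      have := Nat.card_pos (α := L c)
      simp only [pow_zero, Nat.sub_zero]
      omega
    | succ j ihj =>
      intro hj
      have h1 := ihj (by omega)
      have h2 := hdouble (c - (j + 1)) (by omega)
      have h3 : c - (j + 1) + 1 = c - j := by omega
      rw [h3] at h2
      rw [pow_succ]; omega
  have := hlow j hj
  rw [hL] at this
  exact this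

/-- Upper bound for the class of a `2`-group with commutator subgroup of index 4. -/
theorem class_le {X : Type*} [Group X] [Finite X] (n : ℕ) (hn : 3 ≤ n)
    (hX : Nat.card X = 2 ^ n) (h4 : (commutator X).index = 4) :
    Group.nilpotencyClass X ≤ n - 1 := by
  haveI : Fact (Nat.Prime 2) := ⟨Nat.prime_two⟩
  have hG : IsPGroup 2 X := IsPGroup.of_card hX
  haveI : Group.IsNilpotent X := hG.isNilpotent
  by_contra hlt
  push Not at hlt
  have h1 := two_pow_le_card_lcs (X := X) (Group.nilpotencyClass X - 1) (by omega)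
  have h2 : Group.nilpotencyClass X - (Group.nilpotencyClass X - 1) = 1 := by omega
  rw [h2, Subgroup.top_lowerCentralSeries_one] at h1
  have hmul := Subgroup.card_mul_index (commutator X)
  rw [hX, h4] at hmul
  have h2n : 2 ^ n = 2 ^ (n - 2) * 4 := by
    have : n = (n - 2) + 2 := by omega
    conv_lhs => rw [this]
    rw [pow_add]
    norm_num
  have h3 : Nat.card (commutator X) = 2 ^ (n - 2) := by omega
  rw [h3] at h1
  have h4' : Group.nilpotencyClass X - 1 ≤ n - 2 := by
    by_contra hcon
    push Not at hcon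
    have := Nat.pow_lt_pow_right (a := 2) (by norm_num) hcon
    omega
  omega

/-- Lower bound for the class of a `2`-group with commutator subgroup of index 4. -/
theorem le_class {X : Type*} [Group X] [Finite X] (n : ℕ) (hn : 3 ≤ n)
    (hX : Nat.card X = 2 ^ n) (h4 : (commutator X).index = 4) :
    n - 1 ≤ Group.nilpotencyClass X := by
  haveI : Fact (Nat.Prime 2) := ⟨Nat.prime_two⟩
  have hG : IsPGroup 2 X := IsPGroup.of_card hX
  haveI : Group.IsNilpotent X := hG.isNilpotent
  have h8 : 8 ≤ Nat.card X := by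
    rw [hX]
    calc 8 = 2 ^ 3 := by norm_num
      _ ≤ 2 ^ n := Nat.pow_le_pow_right (by norm_num) hn
  obtain ⟨j', a, x, hoa, hcard, hidx, hxa, hconj, hxx, hcent⟩ := structure_index_four hG h4 h8
  have hn' : n = j' + 3 := by
    have : (2 : ℕ) ^ n = 2 ^ (j' + 3) := by rw [← hX, hcard, pow_succ (2 : ℕ) (j' + 2)]; ring
    exact Nat.pow_right_injective (le_refl 2) this
  -- the exponent of the conjugation action
  obtain ⟨u, hu, hodd⟩ : ∃ u : ℤ, x * a * x⁻¹ = a ^ (2 * u + 1) ∧ ¬ (2 : ℤ) ∣ u := by
    rcases hconj with h | h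
    · refine ⟨-1, ?_, by decide⟩
      rw [h]; simp
    · have hj0 : j' ≠ 0 := by
        rintro rfl
        have h' : x * a * x⁻¹ = a := by
          rw [h]
          simp only [zero_add, pow_one]
          group
        have hcomm : a * x = x * a := by
          have : x * a = a * x := by
            calc x * a = x * a * x⁻¹ * x := by group
              _ = a * x := by rw [h']
          exact this.symm
        rcases hcent a (Subgroup.mem_zpowers a) hcomm with h1 | h1
        · rw [h1, orderOf_one] at hoa
          norm_num at hoa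
        · have : a ^ 1 = 1 := by
            have h2 : a * a = a := by
              conv_rhs => rw [h1]
              simp [pow_succ]
            have : a = 1 := by simpa using h2
            simp [this]
          have := orderOf_dvd_of_pow_eq_one this
          rw [hoa] at this
          have : (2 : ℕ) ^ (0 + 2) ≤ 1 := Nat.le_of_dvd (by norm_num) this
          norm_num at this
      obtain ⟨i, rfl⟩ := Nat.exists_eq_succ_of_ne_zero hj0
      refine ⟨2 ^ (i + 1) - 1, ?_, ?_⟩
      · rw [h]
        have : (2 : ℤ) * (2 ^ (i + 1) - 1) + 1 = ((2 ^ (i + 1 + 1) : ℕ) : ℤ) + (-1) := by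
          push_cast
          ring
        rw [this, zpow_add, zpow_natCast, zpow_neg_one]
      · intro hdvd
        have : (2 : ℤ) ∣ 2 ^ (i + 1) := Dvd.intro_left _ (by rw [pow_succ])
        have h1 : (2 : ℤ) ∣ 1 := by
          have := Int.dvd_sub this hdvd
          simpa using this
        norm_num at h1
  -- conjugation on powers
  have hconjk : ∀ k : ℤ, x * a ^ k * x⁻¹ = a ^ ((2 * u + 1) * k) := by
    intro k
    have : x * a ^ k * x⁻¹ = (x * a * x⁻¹) ^ k := by
      rw [← MulAut.conj_apply, map_zpow, MulAut.conj_apply]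
    rw [this, hu, ← zpow_mul]
  have hmem : ∀ i : ℕ, a ^ ((2 * u) ^ i) ∈ (⊤ : Subgroup X).lowerCentralSeries i := by
    intro i
    induction i with
    | zero => exact Subgroup.mem_top _
    | succ i ih =>
      rw [Subgroup.lowerCentralSeries_succ]
      have h1 : ⁅x, a ^ ((2 * u) ^ i)⁆ = a ^ ((2 * u) ^ (i + 1)) := by
        rw [commutatorElement_def, hconjk, ← zpow_neg, ← zpow_add]
        congr 1
        ring
      rw [← h1]
      have h2 := Subgroup.commutator_mem_commutator ih (Subgroup.mem_top x)
      have h3 : ⁅x, a ^ ((2 * u) ^ i)⁆ = ⁅a ^ ((2 * u) ^ i), x⁆⁻¹ := by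
        rw [commutatorElement_inv]
      rw [h3]
      exact inv_mem h2
  have hne : a ^ ((2 * u) ^ (j' + 1)) ≠ 1 := by
    intro h1
    have h2 := (orderOf_dvd_iff_zpow_eq_one).2 h1
    rw [hoa] at h2
    have h3 : (2 : ℤ) ^ (j' + 2) = 2 ^ (j' + 1) * 2 := pow_succ _ _
    push_cast at h2
    rw [h3, mul_pow] at h2
    have h4 : (2 : ℤ) ∣ u ^ (j' + 1) := by
      have h5 : (2 : ℤ) ^ (j' + 1) ≠ 0 := by positivity
      exact (mul_dvd_mul_iff_left h5).1 h2
    exact hodd (Int.prime_two.dvd_of_dvd_pow h4)
  by_contra hlt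
  push Not at hlt
  have hle : Group.nilpotencyClass X ≤ j' + 1 := by omega
  have hbot := (Subgroup.lowerCentralSeries_eq_bot_iff_nilpotencyClass_le (G := X)).2 hle
  have := hmem (j' + 1)
  rw [hbot, Subgroup.mem_bot] at this
  exact hne this

/-- The commutator quotient is a four-group when the commutator subgroup has index 4. -/
theorem kleinFour_of_index_four {X : Type*} [Group X] [Finite X] (n : ℕ) (hn : 3 ≤ n)
    (hX : Nat.card X = 2 ^ n) (h4 : (commutator X).index = 4) :
    IsKleinFour (X ⧸ commutator X) := by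
  haveI : Fact (Nat.Prime 2) := ⟨Nat.prime_two⟩
  have hG : IsPGroup 2 X := IsPGroup.of_card hX
  have hcard : Nat.card (X ⧸ commutator X) = 4 := h4
  have hncyc : ¬ IsCyclic (X ⧸ commutator X) := by
    intro hcyc
    obtain ⟨q, hq⟩ := hcyc.exists_generator
    obtain ⟨g, rfl⟩ := QuotientGroup.mk_surjective q
    have hsup : Subgroup.zpowers g ⊔ frattini X = ⊤ := by
      rw [eq_top_iff]
      intro y _
      obtain ⟨k, hk⟩ := Subgroup.mem_zpowers_iff.1 (hq (y : X ⧸ commutator X))
      have h1 : ((g ^ k : X) : X ⧸ commutator X) = (y : X ⧸ commutator X) := by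
        rw [QuotientGroup.mk_zpow]; exact hk
      have h2 : (g ^ k)⁻¹ * y ∈ commutator X := QuotientGroup.eq.1 h1
      have h3 : y = g ^ k * ((g ^ k)⁻¹ * y) := by group
      rw [h3]
      exact Subgroup.mul_mem_sup (Subgroup.zpow_mem_zpowers g k)
        (Cfsg.Agent.Lib.Helper70.FrattiniQuot.commutator_le_frattini hG h2)
    have htop := frattini_nongenerating hsup
    have hcomm : ∀ a b : X, a * b = b * a := by
      intro a b
      have ha : a ∈ Subgroup.zpowers g := by rw [htop]; trivial
      have hb : b ∈ Subgroup.zpowers g := by rw [htop]; trivial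
      obtain ⟨i, rfl⟩ := Subgroup.mem_zpowers_iff.1 ha
      obtain ⟨j, rfl⟩ := Subgroup.mem_zpowers_iff.1 hb
      rw [← zpow_add, ← zpow_add, add_comm]
    have hbot : commutator X = ⊥ := by
      rw [commutator_def, Subgroup.commutator_eq_bot_iff_le_centralizer]
      intro a _
      rw [Subgroup.mem_centralizer_iff]
      intro b _
      exact hcomm b a
    rw [hbot, Subgroup.index_bot, hX] at h4
    have : (2 : ℕ) ^ 3 ≤ 2 ^ n := Nat.pow_le_pow_right (by norm_num) hn
    omega
  refine ⟨hcard, ?_⟩
  have hsq : ∀ q : X ⧸ commutator X, q ^ 2 = 1 := by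
    intro q
    have hdvd : orderOf q ∣ 4 := by rw [← hcard]; exact orderOf_dvd_natCard q
    have hne4 : orderOf q ≠ 4 := by
      intro h
      exact hncyc (isCyclic_of_orderOf_eq_card q (by rw [h, hcard]))
    have hle : orderOf q ≤ 4 := Nat.le_of_dvd (by norm_num) hdvd
    have hpos : 0 < orderOf q := orderOf_pos q
    have h12 : orderOf q ∣ 2 := by
      interval_cases h : orderOf q
      · norm_num
      · norm_num
      · norm_num at hdvd
      · exact absurd rfl hne4
    exact orderOf_dvd_iff_pow_eq_one.1 h12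
  have hdvd2 : Monoid.exponent (X ⧸ commutator X) ∣ 2 :=
    Monoid.exponent_dvd_of_forall_pow_eq_one hsq
  have hne1 : Monoid.exponent (X ⧸ commutator X) ≠ 1 := by
    intro h
    rw [Monoid.exp_eq_one_iff] at h
    have := Nat.card_eq_one_iff_unique.2 ⟨h, ⟨1⟩⟩
    omega
  rcases (Nat.dvd_prime Nat.prime_two).1 hdvd2 with h | h
  · exact absurd h hne1
  · exact h

/-- A 2-group of order 2^n, n ≥ 3, is of maximal class exactly when its commutator quotient is a Klein four-group. -/
theorem result {X : Type*} [Group X] [Finite X] (n : ℕ) (hn : 3 ≤ n) (hX : Nat.card X = 2 ^ n) : Group.nilpotencyClass X = n - 1 ↔ IsKleinFour (X ⧸ commutator X) := by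
  constructor
  · intro hc
    exact kleinFour_of_index_four n hn hX (index_commutator_of_maximal_class n hn hX hc)
  · intro hK
    have h4 : (commutator X).index = 4 := hK.card_four
    exact le_antisymm (class_le n hn hX h4) (le_class n hn hX h4)

end Cfsg.Agent.S0115
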