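import Cfsg.Statements.S0127
import Cfsg.Agent.Lib.Helper54.CyclicNormal
-- import your own Cfsg.Agent.* helpers here

set_option autoImplicit false
open Cfsg

namespace Cfsg.Agent.S0127

open Subgroup Cfsg.Agent.Lib.Helper54.CyclicNormal Cfsg.Agent.Lib.Helper54.UniqueSubgroup

/-- For odd `p`, in a non-cyclic `p`-group with a cyclic subgroup of index `p` the elements of
order dividing `p` form an abelian subgroup of order `p ^ 2`. -/
theorem exists_omega {R : Type*} [Group R] [Finite R] {p : ℕ} [hp : Fact p.Prime] (hp2 : p ≠ 2)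
    (hR : IsPGroup p R) (hnc : ¬ IsCyclic R) (C : Subgroup R) (hC : IsCyclic C)
    (hCi : C.index = p) :
    ∃ E : Subgroup R, (∀ w : R, w ∈ E ↔ w ^ p = 1) ∧ Nat.card E = p ^ 2 ∧ IsMulCommutative E := by
  obtain ⟨a, rfl⟩ : ∃ a : R, C = zpowers a := by
    obtain ⟨g, hg⟩ := hC.exists_generator
    refine ⟨(g : R), le_antisymm ?_ (zpowers_le.2 g.2)⟩
    intro x hx
    obtain ⟨i, hi⟩ := mem_zpowers_iff.1 (hg ⟨x, hx⟩)
    rw [mem_zpowers_iff]; exact ⟨i, by simpa using congrArg Subtype.val hi⟩
  have hcardR : Nat.card R = orderOf a * p := by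
    rw [← Nat.card_zpowers, ← hCi]; exact (card_mul_index _).symm
  obtain ⟨k, hk⟩ := IsPGroup.iff_orderOf.1 hR a
  have hk0 : k ≠ 0 := by
    rintro rfl
    rw [pow_zero] at hk
    rw [hk, one_mul] at hcardR
    exact hnc (isCyclic_of_prime_card hcardR)
  obtain ⟨n, rfl⟩ := Nat.exists_eq_succ_of_ne_zero hk0
  have hN : (zpowers a).Normal := by
    apply normal_of_index_eq_minFac_card
    rw [hCi, hcardR, hk, ← pow_succ, Nat.Prime.pow_minFac hp.out (by omega)]
  have hmax : ∀ K : Subgroup R, zpowers a ≤ K → ¬ K ≤ zpowers a → K = ⊤ := by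
    intro K hle hnle
    have h1 := relIndex_mul_index hle
    rw [hCi] at h1
    have h2 : (zpowers a).relIndex K ≠ 1 := fun h => hnle (relIndex_eq_one.1 h)
    have h3 : (zpowers a).relIndex K ∣ p := Dvd.intro _ h1
    have h5 : (zpowers a).relIndex K = p := ((Nat.dvd_prime hp.out).1 h3).resolve_left h2
    rw [h5] at h1
    exact index_eq_one.1 (Nat.eq_of_mul_eq_mul_left hp.out.pos (by rw [h1, mul_one]))
  obtain ⟨x0, hx0⟩ : ∃ x : R, x ∉ zpowers a := by
    by_contra h
    push Not at h
    exact hnc (isCyclic_iff_exists_zpowers_eq_top.2 ⟨a, eq_top_iff.2 (fun x _ => h x)⟩)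
  by_cases hcent : ∀ x : R, Commute x a → x ∈ zpowers a
  · obtain ⟨y, hyA, hy⟩ := exists_modular_of_odd hp2 hR hk hN hx0
    obtain ⟨E, hE, hcard, -, hEc, -, hrel⟩ := modular hR hk hN hcent (Or.inl hp2) hyA hy
    have htop : centralizer ({a ^ p} : Set R) = ⊤ := by
      apply hmax
      · rw [zpowers_le, mem_centralizer_singleton_iff]
        exact ((Commute.refl a).pow_right p).eq
      · intro hle
        have := relIndex_eq_one.2 hle
        rw [hrel] at this
        exact hp.out.one_lt.ne' this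
    refine ⟨E, fun w => ?_, hcard, hEc⟩
    rw [hE]
    refine ⟨fun h => h.2, fun h => ⟨?_, h⟩⟩
    have : w ∈ centralizer ({a ^ p} : Set R) := by rw [htop]; exact mem_top w
    rw [mem_centralizer_singleton_iff] at this
    exact this
  · push Not at hcent
    obtain ⟨x, hxa, hxA⟩ := hcent
    have hacen : ∀ u : R, Commute u a := by
      intro u
      have : centralizer ({a} : Set R) = ⊤ := by
        apply hmax
        · rw [zpowers_le, mem_centralizer_singleton_iff]
        · intro hle
          apply hxA; apply hle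
          rw [mem_centralizer_singleton_iff]; exact hxa.eq
      have hu : u ∈ centralizer ({a} : Set R) := by rw [this]; exact mem_top u
      rw [mem_centralizer_singleton_iff] at hu
      exact hu
    have hsup : zpowers x ⊔ zpowers a = ⊤ := by
      apply hmax _ le_sup_right
      intro hle
      exact hxA (hle (mem_sup_left (mem_zpowers x)))
    have hdecomp : ∀ u : R, ∃ i : ℤ, ∃ b ∈ zpowers a, u = x ^ i * b := by
      intro u
      have hu : u ∈ zpowers x ⊔ zpowers a := by rw [hsup]; exact mem_top u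
      have := hN
      obtain ⟨s, hs, b, hb, rfl⟩ := mem_sup_of_normal_right.1 hu
      obtain ⟨i, rfl⟩ := mem_zpowers_iff.1 hs
      exact ⟨i, b, hb, rfl⟩
    have hxcen : ∀ u : R, Commute u x := by
      intro u
      obtain ⟨i, b, hb, rfl⟩ := hdecomp u
      obtain ⟨j, rfl⟩ := mem_zpowers_iff.1 hb
      exact ((Commute.refl x).zpow_left i).mul_left ((hacen x).symm.zpow_left j)
    have hcomm : ∀ u v : R, Commute u v := by
      intro u v
      obtain ⟨i, b, hb, rfl⟩ := hdecomp v
      obtain ⟨j, rfl⟩ := mem_zpowers_iff.1 hb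
      exact ((hxcen u).zpow_right i).mul_right ((hacen u).zpow_right j)
    have hxp : x ^ p ∈ zpowers a := by
      have := hN
      have := Subgroup.pow_index_mem (zpowers a) x
      rwa [hCi] at this
    obtain ⟨j, hj⟩ := mem_zpowers_iff.1 hxp
    have hpj : (p : ℤ) ∣ j := by
      by_contra hndvd
      have hcop : IsCoprime j ((p : ℤ) ^ (n + 1)) := by
        apply IsCoprime.pow_right
        exact ((Nat.prime_iff_prime_int.1 hp.out).irreducible.coprime_iff_not_dvd.2 hndvd).symm
      obtain ⟨u, v, huv⟩ := hcop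
      have ha' : a = (x ^ p) ^ u := by
        rw [← hj, ← zpow_mul]
        have h1 : j * u = 1 - v * (p : ℤ) ^ (n + 1) := by linarith
        have h2 : a ^ ((p : ℤ) ^ (n + 1)) = 1 := by
          have : ((p : ℤ) ^ (n + 1)) = ((p ^ (n + 1) : ℕ) : ℤ) := by push_cast; rfl
          rw [this, zpow_natCast, ← hk, pow_orderOf_eq_one]
        rw [h1, zpow_sub, zpow_one, mul_comm v, zpow_mul, h2, one_zpow, inv_one, mul_one]
      have hle : zpowers a ≤ zpowers x := by
        rw [zpowers_le, ha']
        exact zpow_mem (pow_mem (mem_zpowers x) p) u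
      have : zpowers x = ⊤ := hmax _ hle (fun hle' => hxA (hle' (mem_zpowers x)))
      exact hnc (isCyclic_iff_exists_zpowers_eq_top.2 ⟨x, this⟩)
    obtain ⟨t, rfl⟩ := hpj
    set y0 : R := x * (a ^ t)⁻¹ with hy0
    have hy0A : y0 ∉ zpowers a := by
      intro h
      apply hxA
      have := mul_mem h (zpow_mem (mem_zpowers a) t)
      rwa [hy0, inv_mul_cancel_right] at this
    have hy0p : y0 ^ p = 1 := by
      have h1 : (a ^ t) ^ p = x ^ p := by rw [← hj, ← zpow_natCast, ← zpow_mul, mul_comm]
      rw [hy0, (hcomm _ _).mul_pow, inv_pow, h1, mul_inv_cancel]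
    have hy01 : y0 ≠ 1 := fun h => hy0A (h ▸ one_mem _)
    set z : R := a ^ p ^ n with hz
    have hzp : z ^ p = 1 := pow_pow_eq_one hk
    have hz1 : z ≠ 1 := pow_ne_one hk
    have hzA : z ∈ zpowers a := pow_mem (mem_zpowers a) _
    have hsup' : zpowers y0 ⊔ zpowers a = ⊤ := by
      apply hmax _ le_sup_right
      intro hle
      exact hy0A (hle (mem_sup_left (mem_zpowers y0)))
    have hcard : Nat.card (zpowers y0 ⊔ zpowers z : Subgroup R) = p ^ 2 := by
      have hzN : (zpowers z).Normal := by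
        refine ⟨fun w hw g => ?_⟩
        rw [(hcomm g w).eq, mul_inv_cancel_right]; exact hw
      have h1 : Nat.card (zpowers y0 ⊔ zpowers z : Subgroup R)
          = Nat.card (zpowers z) * (zpowers z).relIndex (zpowers y0) := by
        rw [← relIndex_bot_left, ← relIndex_mul_relIndex ⊥ (zpowers z) (zpowers y0 ⊔ zpowers z)
          bot_le le_sup_right, relIndex_bot_left, relIndex_sup_right]
      have h2 : zpowers z ⊓ zpowers y0 = ⊥ := by
        rw [eq_bot_iff]
        exact le_trans (inf_le_inf_right _ (zpowers_le.2 hzA))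
          (le_of_eq (zpowers_inf_eq_bot hy0A hy0p))
      rw [h1, ← inf_relIndex_right, h2, relIndex_bot_left, Nat.card_zpowers, Nat.card_zpowers,
        orderOf_eq_prime hzp hz1, orderOf_eq_prime hy0p hy01, pow_two]
    refine ⟨zpowers y0 ⊔ zpowers z, fun w => ⟨fun hw => ?_, fun hw => ?_⟩, hcard,
      ⟨⟨fun u v => Subtype.ext (hcomm u v).eq⟩⟩⟩
    · have hzN : (zpowers z).Normal := by
        refine ⟨fun w hw g => ?_⟩
        rw [(hcomm g w).eq, mul_inv_cancel_right]; exact hw
      obtain ⟨u, hu, v, hv, rfl⟩ := mem_sup_of_normal_right.1 hw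
      have hup : u ^ p = 1 := by
        obtain ⟨k, rfl⟩ := mem_zpowers_iff.1 hu
        rw [← zpow_natCast, ← zpow_mul, mul_comm, zpow_mul, zpow_natCast, hy0p, one_zpow]
      have hvp : v ^ p = 1 := by
        obtain ⟨k, rfl⟩ := mem_zpowers_iff.1 hv
        rw [← zpow_natCast, ← zpow_mul, mul_comm, zpow_mul, zpow_natCast, hzp, one_zpow]
      rw [(hcomm u v).mul_pow, hup, hvp, one_mul]
    · have hw' : w ∈ zpowers y0 ⊔ zpowers a := by rw [hsup']; exact mem_top w
      have := hN
      obtain ⟨u, hu, b, hb, rfl⟩ := mem_sup_of_normal_right.1 hw'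
      have hup : u ^ p = 1 := by
        obtain ⟨k, rfl⟩ := mem_zpowers_iff.1 hu
        rw [← zpow_natCast, ← zpow_mul, mul_comm, zpow_mul, zpow_natCast, hy0p, one_zpow]
      rw [(hcomm u b).mul_pow, hup, one_mul] at hw
      exact mul_mem_sup hu (mem_zpowers_pow_of_pow_eq_one hk hb hw)

/-- For odd p, in a non-cyclic p-group with a cyclic subgroup of index p, the elements of order dividing p generate an elementary abelian subgroup of order p^2. -/
theorem result {R : Type*} [Group R] [Finite R] {p : ℕ} [Fact p.Prime] (hp : p ≠ 2) (hR : IsPGroup p R) (hnc : ¬ IsCyclic R) (C : Subgroup R) (hC : IsCyclic C) (hCi : C.index = p) : Cfsg.IsElementaryAbelian p (Subgroup.closure {x : R | x ^ p = 1}) ∧ Nat.card (Subgroup.closure {x : R | x ^ p = 1}) = p ^ 2 := by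
  obtain ⟨E, hE, hcard, hEc⟩ := exists_omega hp hR hnc C hC hCi
  have : Subgroup.closure {x : R | x ^ p = 1} = E := by
    have h1 : {x : R | x ^ p = 1} = (E : Set R) := by
      ext w; exact (hE w).symm
    rw [h1, Subgroup.closure_eq]
  rw [this]
  exact ⟨⟨hEc, fun a ha => (hE a).1 ha⟩, hcard⟩

end Cfsg.Agent.S0127
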