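import Mathlib
import Cfsg.Statements.S0191
import Cfsg.Agent.S4574
import Cfsg.Agent.Lib.Helper3.Irr
import Cfsg.Agent.Lib.CT.Wedderburn
-- import your own Cfsg.Agent.* helpers here

set_option autoImplicit false
open Cfsg

namespace Cfsg.Agent.S0191


/-- An irreducible complex representation of a finite group of degree greater than 1 has a character that vanishes somewhere. -/
theorem result {G : Type*} [Group G] [Finite G] {V : Type*} [AddCommGroup V] [Module ℂ V] [FiniteDimensional ℂ V] (ρ : Representation ℂ G V) [ρ.IsIrreducible] (hdeg : 1 < Module.finrank ℂ V) : ∃ g : G, ρ.character g = 0 := by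
  classical
  haveI := Fintype.ofFinite G
  have hχ : Cfsg.IsIrrCharacter G ρ.character :=
    Cfsg.Agent.Lib.Helper3.Irr.isIrrCharacter_of_rep ρ
  have hd : Cfsg.charDegree ρ.character = Module.finrank ℂ V := by
    apply Cfsg.Agent.Lib.CT.Wedderburn.charDegree_eq_of_apply_one
    simp [Representation.char_one]
  have h := (Cfsg.Agent.S4574.result ρ.character hχ).1
  rw [hd] at h
  have h1 : (1 : G) ∈ Finset.univ.filter
      (fun g : G => ‖ρ.character g‖ = (Module.finrank ℂ V : ℝ)) := by
    simp [Representation.char_one]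
  have hpos : 0 < (Finset.univ.filter
      (fun g : G => ‖ρ.character g‖ = (Module.finrank ℂ V : ℝ))).card :=
    Finset.card_pos.mpr ⟨1, h1⟩
  have h2 : 0 < Module.finrank ℂ V ^ 2 - 1 := by
    have : 4 ≤ Module.finrank ℂ V ^ 2 := by nlinarith
    omega
  have h3 : 0 < (Finset.univ.filter (fun g : G => ρ.character g = 0)).card :=
    lt_of_lt_of_le (Nat.mul_pos h2 hpos) h
  obtain ⟨g, hg⟩ := Finset.card_pos.mp h3
  exact ⟨g, (Finset.mem_filter.mp hg).2⟩

end Cfsg.Agent.S0191
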