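import Cfsg.Statements.S0200
import Mathlib
import Cfsg.Agent.S0199
-- import your own Cfsg.Agent.* helpers here

set_option autoImplicit false
open Cfsg

namespace Cfsg.Agent.S0200

theorem dihedral_pgroup {G : Type*} [Group G] [Finite G] (t s : G) (ht : t * t = 1)
    (hs : s * s = 1) (hu : IsPGroup 2 (Subgroup.zpowers (t * s))) (htt : IsPGroup 2 (Subgroup.zpowers t)) :
    IsPGroup 2 ↥(Subgroup.zpowers t ⊔ Subgroup.zpowers s) := by
  have tinv : t⁻¹ = t := inv_eq_of_mul_eq_one_left ht
  have sinv : s⁻¹ = s := inv_eq_of_mul_eq_one_left hs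
  have hnorm : Subgroup.zpowers t ≤ Subgroup.normalizer (Subgroup.zpowers (t * s) : Set G) := by
    rw [Subgroup.zpowers_le]
    rw [Subgroup.mem_normalizer_iff]
    have key : ∀ h, h ∈ Subgroup.zpowers (t * s) → t * h * t⁻¹ ∈ Subgroup.zpowers (t * s) := by
      intro h hh
      obtain ⟨k, rfl⟩ := hh
      refine ⟨-k, ?_⟩
      show (t * s) ^ (-k) = t * (t * s) ^ k * t⁻¹
      have h1 : t * (t * s) ^ k * t⁻¹ = (t * (t * s) * t⁻¹) ^ k := by
        rw [conj_zpow]
      rw [h1, zpow_neg, ← inv_zpow]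
      congr 1
      rw [mul_inv_rev, sinv, tinv]
      calc s * t = (t * t) * s * t := by rw [ht, one_mul]
        _ = t * (t * s) * t := by group
    intro h
    constructor
    · exact key h
    · intro hh
      have := key _ hh
      rw [tinv] at this
      have e : t * (t * h * t) * t = h := by
        calc t * (t * h * t) * t = (t * t) * h * (t * t) := by group
          _ = h := by rw [ht]; simp
      rwa [e] at this
  have hP := IsPGroup.to_sup_of_normal_right' htt hu hnorm
  refine hP.to_le ?_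
  apply sup_le
  · exact le_sup_left
  · rw [Subgroup.zpowers_le]
    have h2 : t⁻¹ * (t * s) ∈ Subgroup.zpowers t ⊔ Subgroup.zpowers (t * s) :=
      Subgroup.mul_mem _ (Subgroup.inv_mem _ (Subgroup.mem_sup_left (Subgroup.mem_zpowers t)))
        (Subgroup.mem_sup_right (Subgroup.mem_zpowers _))
    have h3 : t⁻¹ * (t * s) = s := by group
    rwa [h3] at h2

/-- An involution lying in no normal 2-subgroup of a finite group inverts a nontrivial element of odd order (a consequence of the Baer–Suzuki Theorem). -/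
theorem result {G : Type*} [Group G] [Finite G] (t : G) (ht : orderOf t = 2) (hO : ∀ N : Subgroup G, N.Normal → IsPGroup 2 N → t ∉ N) : ∃ h : G, h ≠ 1 ∧ Odd (orderOf h) ∧ t * h * t⁻¹ = h⁻¹ := by
  have : Fact (Nat.Prime 2) := ⟨Nat.prime_two⟩
  have htt : t * t = 1 := by
    have := pow_orderOf_eq_one t
    rw [ht, pow_two] at this
    exact this
  have tinv : t⁻¹ = t := inv_eq_of_mul_eq_one_left htt
  have hX : IsPGroup 2 (Subgroup.zpowers t) := by
    apply IsPGroup.of_card (n := 1)
    rw [Nat.card_zpowers, ht, pow_one]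
  have hex : ∃ g : G, ¬ IsPGroup 2 ↥(Subgroup.zpowers t ⊔ (Subgroup.zpowers t).map (MulAut.conj g).toMonoidHom) := by
    by_contra hcon
    push Not at hcon
    obtain ⟨N, hN, hNp, hXN⟩ := Cfsg.Agent.S0199.result (p := 2) (Subgroup.zpowers t) hX hcon
    exact hO N hN hNp (hXN (Subgroup.mem_zpowers t))
  obtain ⟨g, hg⟩ := hex
  rw [MonoidHom.map_zpowers] at hg
  set s : G := (MulAut.conj g).toMonoidHom t with hs
  have hss : s * s = 1 := by
    rw [hs, ← map_mul, htt, map_one]
  have sinv : s⁻¹ = s := inv_eq_of_mul_eq_one_left hss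
  have hu : ¬ IsPGroup 2 (Subgroup.zpowers (t * s)) := fun hu => hg (dihedral_pgroup t s htt hss hu hX)
  have hne : orderOf (t * s) ≠ 0 := (orderOf_pos (t * s)).ne'
  obtain ⟨a, m, hm, hord⟩ := Nat.exists_eq_two_pow_mul_odd hne
  have hm1 : m ≠ 1 := by
    rintro rfl
    apply hu
    apply IsPGroup.of_card (n := a)
    rw [Nat.card_zpowers, hord, mul_one]
  have hordh : orderOf ((t * s) ^ (2 ^ a)) = m := by
    rw [orderOf_pow, hord]
    have : Nat.gcd (2 ^ a * m) (2 ^ a) = 2 ^ a := Nat.gcd_eq_right (Dvd.intro _ rfl)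
    rw [this]
    exact Nat.mul_div_cancel_left m (by positivity)
  refine ⟨(t * s) ^ (2 ^ a), ?_, ?_, ?_⟩
  · intro h1
    rw [h1, orderOf_one] at hordh
    exact hm1 hordh.symm
  · rw [hordh]; exact hm
  · rw [← conj_pow, ← inv_pow]
    congr 1
    rw [mul_inv_rev, sinv, tinv]
    calc t * (t * s) * t = (t * t) * s * t := by group
      _ = s * t := by rw [htt, one_mul]

end Cfsg.Agent.S0200
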