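import Mathlib
import Cfsg.Statements.S0206
import Cfsg.Agent.Lib.Helper4.Dihedral
-- import your own Cfsg.Agent.* helpers here

set_option autoImplicit false
open Cfsg Cfsg.Agent.Lib.Helper4

namespace Cfsg.Agent.S0206


/-- Two distinct involutions x, y of a finite group generate a subgroup isomorphic to the dihedral group of order 2·|xy|. -/
theorem result {G : Type*} [Group G] [Finite G] (x y : G) (hx : orderOf x = 2) (hy : orderOf y = 2) (hxy : x ≠ y) : Nonempty (↥(Subgroup.closure ({x, y} : Set G)) ≃* DihedralGroup (orderOf (x * y))) := by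
  set c := x * y with hc
  set n := orderOf c with hn
  have hnpos : 0 < n := orderOf_pos c
  haveI : NeZero n := ⟨hnpos.ne'⟩
  let p : ZMod n → G := fun i => c ^ (i.val)
  have hp_add : ∀ i j : ZMod n, p (i + j) = p i * p j := by
    intro i j
    show c ^ (i + j).val = c ^ i.val * c ^ j.val
    rw [← pow_add, ZMod.val_add, pow_mod_orderOf]
  have hp_zero : p 0 = 1 := by simp [p]
  have hp_neg : ∀ i : ZMod n, p (-i) = (p i)⁻¹ := by
    intro i
    apply eq_inv_of_mul_eq_one_left
    rw [← hp_add, neg_add_cancel, hp_zero]
  have hp_inj : ∀ i : ZMod n, p i = 1 → i = 0 := by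
    intro i hi
    have h1 : n ∣ i.val := orderOf_dvd_of_pow_eq_one hi
    have h2 := ZMod.val_lt i
    have h3 : i.val = 0 := Nat.eq_zero_of_dvd_of_lt h1 h2
    exact (ZMod.val_eq_zero i).mp h3
  have hxp : ∀ i : ZMod n, x * p i = p (-i) * x := by
    intro i
    have h0 := Dihedral.x_mul_zpow hx hy (i.val : ℤ)
    rw [zpow_neg, zpow_natCast] at h0
    rw [hp_neg]
    exact h0
  have hpx : ∀ i : ZMod n, p i * x = x * p (-i) := by
    intro i
    have h0 := hxp (-i)
    rw [neg_neg] at h0
    exact h0.symm
  have hxx := Dihedral.mul_self_of_orderOf_two hx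
  have hxnot : ∀ m : ℕ, x ≠ c ^ m := by
    intro m hm
    have hcomm : x * c = c * x := by rw [hm, ← pow_succ, ← pow_succ']
    have h1 := Dihedral.conj_left hx hy
    rw [← hc, hcomm, mul_assoc, mul_inv_cancel, mul_one] at h1
    have hc2 : c ^ 2 = 1 := by rw [sq]; nth_rewrite 2 [h1]; exact mul_inv_cancel c
    rcases Nat.even_or_odd' m with ⟨k, rfl | rfl⟩
    · rw [pow_mul, hc2, one_pow] at hm; exact Dihedral.ne_one_of_orderOf_two hx hm
    · rw [pow_succ, pow_mul, hc2, one_pow, one_mul] at hm
      have h3 : y = 1 := by
        have h2 : x * 1 = x * y := by rw [mul_one]; exact hm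
        exact (mul_left_cancel h2).symm
      exact Dihedral.ne_one_of_orderOf_two hy h3
  let f : DihedralGroup n →* G :=
    { toFun := fun d => match d with
        | DihedralGroup.r i => p i
        | DihedralGroup.sr i => x * p i
      map_one' := hp_zero
      map_mul' := by
        rintro (i | i) (j | j)
        · exact hp_add i j
        · show x * p (j - i) = p i * (x * p j)
          rw [← mul_assoc, hpx, mul_assoc, ← hp_add]
          congr 2; ring
        · show x * p (i + j) = x * p i * p j
          rw [hp_add, mul_assoc]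
        · show p (j - i) = x * p i * (x * p j)
          rw [hxp, mul_assoc, ← mul_assoc x x, hxx, one_mul, ← hp_add]
          congr 1; ring }
  have hf_r : ∀ i, f (DihedralGroup.r i) = p i := fun _ => rfl
  have hf_sr : ∀ i, f (DihedralGroup.sr i) = x * p i := fun _ => rfl
  have hf_inj : Function.Injective f := by
    rw [injective_iff_map_eq_one]
    rintro (i | i) h
    · rw [hf_r] at h
      rw [hp_inj i h]; rfl
    · rw [hf_sr] at h
      exfalso
      have h1 : x = (p i)⁻¹ := eq_inv_of_mul_eq_one_left h
      rw [← hp_neg] at h1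
      exact hxnot _ h1
  have hrange : f.range = Subgroup.closure ({x, y} : Set G) := by
    apply le_antisymm
    · rintro _ ⟨d, rfl⟩
      rcases d with i | i
      · rw [hf_r]
        have := Dihedral.zpow_mem_closure x y (i.val : ℤ)
        rw [zpow_natCast] at this
        exact this
      · rw [hf_sr]
        have := Dihedral.zpow_mem_closure x y (i.val : ℤ)
        rw [zpow_natCast] at this
        exact Subgroup.mul_mem _ (Dihedral.x_mem_closure x y) this
    · rw [Subgroup.closure_le]
      intro d hd
      rcases hd with h | h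
      · rw [h]
        refine ⟨DihedralGroup.sr 0, ?_⟩
        rw [hf_sr, hp_zero, mul_one]
      · have h' : d = y := h
        rw [h']
        refine ⟨DihedralGroup.sr 1, ?_⟩
        rw [hf_sr]
        show x * c ^ ((1 : ZMod n).val) = y
        rw [ZMod.val_one_eq_one_mod, pow_mod_orderOf, pow_one, hc, ← mul_assoc, hxx, one_mul]
  exact ⟨(MulEquiv.subgroupCongr hrange.symm).trans (MonoidHom.ofInjective hf_inj).symm⟩

end Cfsg.Agent.S0206
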