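import Cfsg.Statements.S0281
import Mathlib
import Cfsg.Agent.Lib.Helper5.SUBasic
import Cfsg.Agent.Lib.Helper5.HermCount

set_option autoImplicit false
open Cfsg

namespace Cfsg.Agent.S0281

open Cfsg.Agent.Lib.Helper5

def J₀ (F : Type*) [Field F] : Matrix (Fin 2) (Fin 2) F := !![0, 1; -1, 0]
def Jt (F : Type*) [Field F] : Matrix (Fin 2) (Fin 2) F := !![0, -1; 1, 0]

theorem J₀_mul_Jt (F : Type*) [Field F] : J₀ F * Jt F = 1 := by
  ext i j
  fin_cases i <;> fin_cases j <;> simp [J₀, Jt, Matrix.mul_apply, Fin.sum_univ_two]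

theorem Jt_mul_J₀ (F : Type*) [Field F] : Jt F * J₀ F = 1 := by
  ext i j
  fin_cases i <;> fin_cases j <;> simp [J₀, Jt, Matrix.mul_apply, Fin.sum_univ_two]

theorem J_conj {F : Type*} [Field F] (M : Matrix (Fin 2) (Fin 2) F) :
    J₀ F * M * Jt F = !![M 1 1, -M 1 0; -M 0 1, M 0 0] := by
  ext i j
  fin_cases i <;> fin_cases j <;>
    simp only [Matrix.mul_apply, Fin.sum_univ_two] <;> simp [J₀, Jt]

section

variable {F : Type*} [Field F] {q : ℕ} (σ : F →+* F) (hσ : ∀ x, σ x = x ^ q)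

include hσ in
theorem herm_eq (u v : Fin 2 → F) :
    Cfsg.hermForm 2 F q u v = u 0 * σ (v 0) + u 1 * σ (v 1) := by
  simp [Cfsg.hermForm, Fin.sum_univ_two, hσ]

include hσ in
theorem mem_SU2_iff (M : Matrix.SpecialLinearGroup (Fin 2) F) :
    M ∈ Cfsg.SU 2 F q ↔
      (M : Matrix (Fin 2) (Fin 2) F).map σ = J₀ F * (M : Matrix (Fin 2) (Fin 2) F) * Jt F := by
  have hdet := M.det_coe
  rw [Matrix.det_fin_two] at hdet
  rw [J_conj]
  constructor
  · intro h
    rw [SUBasic.mem_SU_iff] at h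
    have E : ∀ j k : Fin 2, (M : Matrix (Fin 2) (Fin 2) F) 0 j * σ ((M : Matrix (Fin 2) (Fin 2) F) 0 k)
        + (M : Matrix (Fin 2) (Fin 2) F) 1 j * σ ((M : Matrix (Fin 2) (Fin 2) F) 1 k)
        = (Pi.single j 1 : Fin 2 → F) 0 * σ ((Pi.single k 1 : Fin 2 → F) 0)
          + (Pi.single j 1 : Fin 2 → F) 1 * σ ((Pi.single k 1 : Fin 2 → F) 1) := by
      intro j k
      have := h (Pi.single j 1) (Pi.single k 1)
      rw [herm_eq σ hσ, herm_eq σ hσ, Matrix.mulVec_single_one, Matrix.mulVec_single_one] at this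
      exact this
    have E00 := E 0 0
    have E01 := E 0 1
    have E10 := E 1 0
    have E11 := E 1 1
    simp at E00 E01 E10 E11
    ext i j
    fin_cases i <;> fin_cases j <;> simp
    · linear_combination (M : Matrix (Fin 2) (Fin 2) F) 1 1 * E00
        - (M : Matrix (Fin 2) (Fin 2) F) 1 0 * E10
        - σ ((M : Matrix (Fin 2) (Fin 2) F) 0 0) * hdet
    · linear_combination (M : Matrix (Fin 2) (Fin 2) F) 1 1 * E01
        - (M : Matrix (Fin 2) (Fin 2) F) 1 0 * E11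
        - σ ((M : Matrix (Fin 2) (Fin 2) F) 0 1) * hdet
    · linear_combination (M : Matrix (Fin 2) (Fin 2) F) 0 0 * E10
        - (M : Matrix (Fin 2) (Fin 2) F) 0 1 * E00
        - σ ((M : Matrix (Fin 2) (Fin 2) F) 1 0) * hdet
    · linear_combination (M : Matrix (Fin 2) (Fin 2) F) 0 0 * E11
        - (M : Matrix (Fin 2) (Fin 2) F) 0 1 * E01
        - σ ((M : Matrix (Fin 2) (Fin 2) F) 1 1) * hdet
  · intro h
    have h00 := congrFun (congrFun h 0) 0
    have h01 := congrFun (congrFun h 0) 1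
    have h10 := congrFun (congrFun h 1) 0
    have h11 := congrFun (congrFun h 1) 1
    simp at h00 h01 h10 h11
    rw [SUBasic.mem_SU_iff]
    intro u v
    rw [herm_eq σ hσ, herm_eq σ hσ]
    simp only [Matrix.mulVec, dotProduct, Fin.sum_univ_two, map_add, map_mul, h00, h01, h10, h11]
    linear_combination (u 0 * σ (v 0) + u 1 * σ (v 1)) * hdet

end

section

variable {F : Type*} [Field F] (σ : F →+* F) (ν θ : F)

/-- the base change matrix -/
def T : Matrix (Fin 2) (Fin 2) F := !![1, ν; θ, ν * σ θ]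

theorem T_det_ne (hν : ν * σ ν = -1) (hθ : σ θ ≠ θ) : (T σ ν θ).det ≠ 0 := by
  have h1 : (T σ ν θ).det = ν * (σ θ - θ) := by
    simp [T, Matrix.det_fin_two]; ring
  rw [h1]
  have hν0 : ν ≠ 0 := by
    intro h
    rw [h, zero_mul] at hν
    exact one_ne_zero (neg_eq_zero.mp hν.symm)
  exact mul_ne_zero hν0 (sub_ne_zero.mpr hθ)

theorem T_map (hσσ : ∀ x, σ (σ x) = x) (hν : ν * σ ν = -1) :
    (T σ ν θ).map σ = (-σ ν) • (T σ ν θ * Jt F) := by
  ext i j
  fin_cases i <;> fin_cases j <;>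
    simp only [Matrix.map_apply, Matrix.smul_apply, Matrix.mul_apply, Fin.sum_univ_two] <;>
    simp [T, Jt, hσσ]
  · linear_combination hν
  · linear_combination (σ θ) * hν

/-- conjugation by a unit, on `SL₂` -/
def conjHom (U : (Matrix (Fin 2) (Fin 2) F)ˣ) :
    Matrix.SpecialLinearGroup (Fin 2) F →* Matrix.SpecialLinearGroup (Fin 2) F where
  toFun g := SUBasic.mkSL (((U⁻¹ : (Matrix (Fin 2) (Fin 2) F)ˣ) : Matrix (Fin 2) (Fin 2) F)
      * (g : Matrix (Fin 2) (Fin 2) F) * (U : Matrix (Fin 2) (Fin 2) F))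
    (by rw [Matrix.det_units_conj', g.det_coe])
  map_one' := by
    apply Subtype.ext
    show ((U⁻¹ : (Matrix (Fin 2) (Fin 2) F)ˣ) : Matrix (Fin 2) (Fin 2) F)
      * (1 : Matrix (Fin 2) (Fin 2) F) * (U : Matrix (Fin 2) (Fin 2) F) = 1
    simp
  map_mul' g h := by
    apply Subtype.ext
    show ((U⁻¹ : (Matrix (Fin 2) (Fin 2) F)ˣ) : Matrix (Fin 2) (Fin 2) F)
      * ((g : Matrix (Fin 2) (Fin 2) F) * (h : Matrix (Fin 2) (Fin 2) F)) * (U : Matrix (Fin 2) (Fin 2) F)
      = (((U⁻¹ : (Matrix (Fin 2) (Fin 2) F)ˣ) : Matrix (Fin 2) (Fin 2) F)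
      * (g : Matrix (Fin 2) (Fin 2) F) * (U : Matrix (Fin 2) (Fin 2) F))
      * (((U⁻¹ : (Matrix (Fin 2) (Fin 2) F)ˣ) : Matrix (Fin 2) (Fin 2) F)
      * (h : Matrix (Fin 2) (Fin 2) F) * (U : Matrix (Fin 2) (Fin 2) F))
    simp [mul_assoc]

theorem conjHom_coe (U : (Matrix (Fin 2) (Fin 2) F)ˣ) (g : Matrix.SpecialLinearGroup (Fin 2) F) :
    ((conjHom U g : Matrix.SpecialLinearGroup (Fin 2) F) : Matrix (Fin 2) (Fin 2) F)
      = ((U⁻¹ : (Matrix (Fin 2) (Fin 2) F)ˣ) : Matrix (Fin 2) (Fin 2) F)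
      * (g : Matrix (Fin 2) (Fin 2) F) * (U : Matrix (Fin 2) (Fin 2) F) := rfl

variable {q : ℕ} (hσ : ∀ x, σ x = x ^ q) (hσσ : ∀ x, σ (σ x) = x)
  (U : (Matrix (Fin 2) (Fin 2) F)ˣ) (c : F) (hc : c ≠ 0)
  (hU : (U : Matrix (Fin 2) (Fin 2) F).map σ = c • ((U : Matrix (Fin 2) (Fin 2) F) * Jt F))

include hσ hc hU in
/-- `σ`-fixed matrices are conjugated into `SU₂`. -/
theorem conj_mem (g : Matrix.SpecialLinearGroup (Fin 2) F)
    (hg : (g : Matrix (Fin 2) (Fin 2) F).map σ = (g : Matrix (Fin 2) (Fin 2) F)) :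
    conjHom U g ∈ Cfsg.SU 2 F q := by
  rw [mem_SU2_iff σ hσ, conjHom_coe]
  set G := (g : Matrix (Fin 2) (Fin 2) F) with hG
  set Tm := (U : Matrix (Fin 2) (Fin 2) F) with hTm
  set Ti := ((U⁻¹ : (Matrix (Fin 2) (Fin 2) F)ˣ) : Matrix (Fin 2) (Fin 2) F) with hTi
  set M := Ti * G * Tm with hM
  have hTT : Tm * Ti = 1 := by rw [hTm, hTi]; exact U.mul_inv
  have hTT' : Ti * Tm = 1 := by rw [hTm, hTi]; exact U.inv_mul
  have h1 : Tm * M = G * Tm := by
    rw [hM, ← mul_assoc, ← mul_assoc, hTT, one_mul]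
  have h2 := congrArg (fun X : Matrix (Fin 2) (Fin 2) F => X.map σ) h1
  simp only [Matrix.map_mul] at h2
  rw [hg, hU, Matrix.smul_mul, Matrix.mul_smul] at h2
  have h3 : Tm * Jt F * M.map σ = G * (Tm * Jt F) := smul_right_injective _ hc h2
  have h4 : Jt F * M.map σ = M * Jt F := by
    have := congrArg (fun X : Matrix (Fin 2) (Fin 2) F => Ti * X) h3
    rw [← mul_assoc, ← mul_assoc, hTT', one_mul] at this
    rw [this, hM]
    simp only [mul_assoc]
  have h5 := congrArg (fun X : Matrix (Fin 2) (Fin 2) F => J₀ F * X) h4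
  rw [← mul_assoc, J₀_mul_Jt, one_mul] at h5
  exact h5.trans (mul_assoc _ _ _).symm

include hσ hc hU in
/-- Elements of `SU₂` are conjugates of `σ`-fixed matrices. -/
theorem conj_fixed (M : Matrix.SpecialLinearGroup (Fin 2) F) (hM : M ∈ Cfsg.SU 2 F q) :
    ((U : Matrix (Fin 2) (Fin 2) F) * (M : Matrix (Fin 2) (Fin 2) F)
      * ((U⁻¹ : (Matrix (Fin 2) (Fin 2) F)ˣ) : Matrix (Fin 2) (Fin 2) F)).map σ
    = (U : Matrix (Fin 2) (Fin 2) F) * (M : Matrix (Fin 2) (Fin 2) F)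
      * ((U⁻¹ : (Matrix (Fin 2) (Fin 2) F)ˣ) : Matrix (Fin 2) (Fin 2) F) := by
  rw [mem_SU2_iff σ hσ] at hM
  set Mm := (M : Matrix (Fin 2) (Fin 2) F) with hMm
  set Tm := (U : Matrix (Fin 2) (Fin 2) F) with hTm
  set Ti := ((U⁻¹ : (Matrix (Fin 2) (Fin 2) F)ˣ) : Matrix (Fin 2) (Fin 2) F) with hTi
  set N := Tm * Mm * Ti with hN
  have hTT : Tm * Ti = 1 := by rw [hTm, hTi]; exact U.mul_inv
  have hTT' : Ti * Tm = 1 := by rw [hTm, hTi]; exact U.inv_mul
  have h1 : N * Tm = Tm * Mm := by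
    rw [hN, mul_assoc, hTT', mul_one]
  have h2 := congrArg (fun X : Matrix (Fin 2) (Fin 2) F => X.map σ) h1
  simp only [Matrix.map_mul] at h2
  rw [hM, hU, Matrix.smul_mul, Matrix.mul_smul] at h2
  have h3 : N.map σ * (Tm * Jt F) = Tm * Jt F * (J₀ F * Mm * Jt F) := smul_right_injective _ hc h2
  have h4 : N.map σ * Tm = Tm * Mm := by
    have := congrArg (fun X : Matrix (Fin 2) (Fin 2) F => X * J₀ F) h3
    have e1 : N.map σ * (Tm * Jt F) * J₀ F = N.map σ * Tm := by
      rw [mul_assoc, mul_assoc, Jt_mul_J₀, mul_one]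
    have e2 : Tm * Jt F * (J₀ F * Mm * Jt F) * J₀ F = Tm * Mm := by
      have : Tm * Jt F * (J₀ F * Mm * Jt F) * J₀ F
          = Tm * (Jt F * J₀ F) * Mm * (Jt F * J₀ F) := by
        simp only [mul_assoc]
      rw [this, Jt_mul_J₀, mul_one, mul_one]
    rw [e1, e2] at this
    exact this
  have h5 := congrArg (fun X : Matrix (Fin 2) (Fin 2) F => X * Ti) h4
  rw [mul_assoc, hTT, mul_one] at h5
  exact h5

end

/-- an embedding of a field with `q` elements, onto the fixed points of `x ↦ x^q` -/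
theorem exists_embedding {F K : Type*} [Field F] [Fintype F] [Field K] [Fintype K] {q : ℕ}
    (hF : Fintype.card F = q ^ 2) (hK : Fintype.card K = q) :
    ∃ ι : K →+* F, ∀ y : F, y ^ q = y → ∃ x, ι x = y := by
  classical
  obtain ⟨p, hp⟩ := CharP.exists K
  have hpp : Fact p.Prime := ⟨CharP.char_is_prime K p⟩
  have : NeZero 2 := ⟨by norm_num⟩
  let E := FiniteField.Extension K p 2
  let _ : Fintype E := Fintype.ofFinite E
  have hE : Fintype.card E = Fintype.card F := by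
    rw [Fintype.card_eq_nat_card, FiniteField.natCard_extension, Nat.card_eq_fintype_card, hK, hF]
  let e : E ≃+* F := FiniteField.ringEquivOfCardEq hE
  let ι : K →+* F := e.toRingHom.comp (algebraMap K E)
  refine ⟨ι, ?_⟩
  have hq : 1 < q := hK ▸ Fintype.one_lt_card
  let S : Finset F := Finset.univ.filter (fun y => y ^ q = y)
  let R : Finset F := Finset.univ.image ι
  have hRS : R ⊆ S := by
    intro y hy
    obtain ⟨x, -, rfl⟩ := Finset.mem_image.mp hy
    simp only [S, Finset.mem_filter, Finset.mem_univ, true_and]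
    rw [← map_pow, ← hK, FiniteField.pow_card]
  have hRcard : R.card = q := by
    rw [Finset.card_image_of_injective _ ι.injective, Finset.card_univ, hK]
  have hScard : S.card ≤ q := by
    have hne := FiniteField.X_pow_card_sub_X_ne_zero F hq
    have hsub : S ⊆ (Polynomial.X ^ q - Polynomial.X : Polynomial F).roots.toFinset := by
      intro y hy
      simp only [S, Finset.mem_filter, Finset.mem_univ, true_and] at hy
      rw [Multiset.mem_toFinset, Polynomial.mem_roots hne]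
      simp [Polynomial.IsRoot, hy]
    calc S.card ≤ (Polynomial.X ^ q - Polynomial.X : Polynomial F).roots.toFinset.card :=
          Finset.card_le_card hsub
      _ ≤ Multiset.card (Polynomial.X ^ q - Polynomial.X : Polynomial F).roots :=
          Multiset.toFinset_card_le _
      _ ≤ (Polynomial.X ^ q - Polynomial.X : Polynomial F).natDegree := Polynomial.card_roots' _
      _ = q := FiniteField.X_pow_card_sub_X_natDegree_eq F hq
  have hEq : R = S := Finset.eq_of_subset_of_card_le hRS (by rw [hRcard]; exact hScard)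
  intro y hy
  have : y ∈ R := by rw [hEq]; simp [S, hy]
  obtain ⟨x, -, hx⟩ := Finset.mem_image.mp this
  exact ⟨x, hx⟩

/-- SU_2(q) is isomorphic to SL_2(q). -/
theorem result {F K : Type*} [Field F] [Fintype F] [Field K] [Fintype K] {q : ℕ} (hF : Fintype.card F = q ^ 2) (hK : Fintype.card K = q) : Nonempty (Cfsg.SU 2 F q ≃* Matrix.SpecialLinearGroup (Fin 2) K) := by
  classical
  obtain ⟨σ, hσ⟩ := HermCount.exists_ringHom hF
  have hσσ : ∀ x, σ (σ x) = x := by
    intro x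
    rw [hσ, hσ, ← pow_mul, ← sq, ← hF, FiniteField.pow_card]
  have hneg : (-1 : F) ^ q = -1 := by rw [← hσ, map_neg, map_one]
  have hcardν := HermCount.card_norm_eq hF (-1 : F) (neg_ne_zero.mpr one_ne_zero) hneg
  have hne : Nonempty {x : F // x * x ^ q = -1} := by
    have : 0 < Nat.card {x : F // x * x ^ q = -1} := by rw [hcardν]; omega
    exact (Nat.card_pos_iff.mp this).1
  obtain ⟨ν, hν'⟩ := hne
  have hν : ν * σ ν = -1 := by rw [hσ]; exact hν'
  obtain ⟨θ, hθ1, hθ2, hθ0⟩ := SUBasic.exists_root hF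
  have hθ : σ θ ≠ θ := by
    intro h
    apply hθ2
    rw [hσ] at h
    rw [pow_succ, h] at hθ1
    rw [pow_two]; exact hθ1
  obtain ⟨ι, hι⟩ := exists_embedding hF hK
  have hιfix : ∀ x, σ (ι x) = ι x := by
    intro x; rw [hσ, ← map_pow, ← hK, FiniteField.pow_card]
  let U : (Matrix (Fin 2) (Fin 2) F)ˣ :=
    Matrix.GeneralLinearGroup.mkOfDetNeZero (T σ ν θ) (T_det_ne σ ν θ hν hθ)
  have hUT : (U : Matrix (Fin 2) (Fin 2) F) = T σ ν θ := rfl
  have hc : -σ ν ≠ 0 := by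
    intro h
    rw [neg_eq_zero] at h
    rw [h, mul_zero] at hν
    exact one_ne_zero (neg_eq_zero.mp hν.symm)
  have hU : (U : Matrix (Fin 2) (Fin 2) F).map σ
      = (-σ ν) • ((U : Matrix (Fin 2) (Fin 2) F) * Jt F) := by
    rw [hUT]; exact T_map σ ν θ hσσ hν
  let φ : Matrix.SpecialLinearGroup (Fin 2) K →* Matrix.SpecialLinearGroup (Fin 2) F :=
    (conjHom U).comp (Matrix.SpecialLinearGroup.map ι)
  have hφcoe : ∀ g : Matrix.SpecialLinearGroup (Fin 2) K,
      ((φ g : Matrix.SpecialLinearGroup (Fin 2) F) : Matrix (Fin 2) (Fin 2) F)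
        = ((U⁻¹ : (Matrix (Fin 2) (Fin 2) F)ˣ) : Matrix (Fin 2) (Fin 2) F)
          * (g : Matrix (Fin 2) (Fin 2) K).map ι * (U : Matrix (Fin 2) (Fin 2) F) := fun g => rfl
  have hφmem : ∀ g, φ g ∈ Cfsg.SU 2 F q := by
    intro g
    apply conj_mem σ hσ U (-σ ν) hc hU
    ext i j
    simp [Matrix.SpecialLinearGroup.map_apply_coe, hιfix]
  let ψ : Matrix.SpecialLinearGroup (Fin 2) K →* Cfsg.SU 2 F q := φ.codRestrict _ hφmem
  have hTT : (U : Matrix (Fin 2) (Fin 2) F)
      * ((U⁻¹ : (Matrix (Fin 2) (Fin 2) F)ˣ) : Matrix (Fin 2) (Fin 2) F) = 1 := U.mul_inv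
  have hTT' : ((U⁻¹ : (Matrix (Fin 2) (Fin 2) F)ˣ) : Matrix (Fin 2) (Fin 2) F)
      * (U : Matrix (Fin 2) (Fin 2) F) = 1 := U.inv_mul
  have hinj : Function.Injective ψ := by
    intro g g' h
    have h1 : φ g = φ g' := congrArg Subtype.val h
    have h2 := congrArg (fun X : Matrix.SpecialLinearGroup (Fin 2) F =>
      (X : Matrix (Fin 2) (Fin 2) F)) h1
    simp only [hφcoe] at h2
    have h3 : (g : Matrix (Fin 2) (Fin 2) K).map ι = (g' : Matrix (Fin 2) (Fin 2) K).map ι := by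
      have := congrArg (fun X : Matrix (Fin 2) (Fin 2) F => (U : Matrix (Fin 2) (Fin 2) F) * X
        * ((U⁻¹ : (Matrix (Fin 2) (Fin 2) F)ˣ) : Matrix (Fin 2) (Fin 2) F)) h2
      simpa [mul_assoc] using this
    ext i j
    have := congrFun (congrFun h3 i) j
    simp only [Matrix.map_apply] at this
    exact ι.injective this
  have hsurj : Function.Surjective ψ := by
    rintro ⟨M, hM⟩
    have hfix := conj_fixed σ hσ U (-σ ν) hc hU M hM
    set N := (U : Matrix (Fin 2) (Fin 2) F) * (M : Matrix (Fin 2) (Fin 2) F)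
      * ((U⁻¹ : (Matrix (Fin 2) (Fin 2) F)ˣ) : Matrix (Fin 2) (Fin 2) F) with hN
    have hent : ∀ i j, ∃ x, ι x = N i j := by
      intro i j
      apply hι
      rw [← hσ]
      have := congrFun (congrFun hfix i) j
      simpa using this
    choose x hx using hent
    let g₀ : Matrix (Fin 2) (Fin 2) K := Matrix.of x
    have hg₀ : g₀.map ι = N := by
      ext i j
      exact hx i j
    have hdet : g₀.det = 1 := by
      apply ι.injective
      rw [RingHom.map_det, map_one]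
      show (g₀.map ι).det = 1
      rw [hg₀, hN, Matrix.det_units_conj, M.det_coe]
    refine ⟨SUBasic.mkSL g₀ hdet, ?_⟩
    apply Subtype.ext
    show φ (SUBasic.mkSL g₀ hdet) = M
    have h1 : ((φ (SUBasic.mkSL g₀ hdet) : Matrix.SpecialLinearGroup (Fin 2) F)
        : Matrix (Fin 2) (Fin 2) F) = (M : Matrix (Fin 2) (Fin 2) F) := by
      rw [hφcoe, SUBasic.coe_mkSL, hg₀, hN]
      simp only [← mul_assoc, hTT', one_mul]
      rw [mul_assoc, hTT', mul_one]
    exact Subtype.ext h1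
  exact ⟨(MulEquiv.ofBijective ψ ⟨hinj, hsurj⟩).symm⟩

end Cfsg.Agent.S0281
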