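import Cfsg.Statements.S0280
import Mathlib
import Cfsg.Agent.S0278
import Cfsg.Agent.S0279
import Cfsg.Agent.S0281
import Cfsg.Agent.Lib.Helper5.SL2Card

set_option autoImplicit false
open Cfsg

namespace Cfsg.Agent.S0280

/-- the centre of `SU_n(q)` has order `gcd(n, q+1)`, also for `n = 2` -/
theorem card_center {F : Type*} [Field F] [Fintype F] {q : ℕ} (hF : Fintype.card F = q ^ 2)
    (n : ℕ) (hn : 2 ≤ n) : Nat.card (Subgroup.center (Cfsg.SU n F q)) = Nat.gcd n (q + 1) := by
  classical
  rcases Nat.lt_or_ge n 3 with h | h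
  · have hn2 : n = 2 := by omega
    subst hn2
    -- a field with `q` elements
    obtain ⟨p, hp⟩ := CharP.exists F
    have hpp : Fact p.Prime := ⟨CharP.char_is_prime F p⟩
    obtain ⟨m, -, hm⟩ := FiniteField.card F p
    have hdvd : q ∣ p ^ (m : ℕ) := by
      rw [← hm, hF]
      exact dvd_pow_self q (by norm_num)
    obtain ⟨k, -, hk⟩ := (Nat.dvd_prime_pow hpp.out).mp hdvd
    have hq1 : 1 < q := by
      have h1 : 1 < Fintype.card F := Fintype.one_lt_card
      rw [hF] at h1
      by_contra hq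
      have : q ≤ 1 := by omega
      have : q ^ 2 ≤ 1 := by
        calc q ^ 2 ≤ 1 ^ 2 := Nat.pow_le_pow_left this 2
          _ = 1 := by norm_num
      omega
    have hk0 : k ≠ 0 := by
      intro h0
      rw [h0, pow_zero] at hk
      omega
    let K := GaloisField p k
    let _ : Fintype K := Fintype.ofFinite K
    have hK : Fintype.card K = q := by
      rw [Fintype.card_eq_nat_card, GaloisField.card p k hk0, hk]
    obtain ⟨e⟩ := Cfsg.Agent.S0281.result hF hK
    rw [Nat.card_congr (Subgroup.centerCongr e).toEquiv,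
      Cfsg.Agent.Lib.Helper5.SL2Card.card_center_SL_two hK]
    -- gcd 2 (q-1) = gcd 2 (q+1)
    have h2 : q + 1 = (q - 1) + 2 := by omega
    rw [h2, Nat.gcd_add_self_right]
  · exact Cfsg.Agent.S0279.result hF n h

/-- Order of PSU_n(q): gcd(n, q+1) (q+1) |PSU_n(q)| = q^(n(n-1)/2) * prod_{i=1}^{n} (q^i - (-1)^i), n at least 2. -/
theorem result {F : Type*} [Field F] [Fintype F] {q : ℕ} (hF : Fintype.card F = q ^ 2) (n : ℕ) (hn : 2 ≤ n) : Nat.gcd n (q + 1) * ((q + 1) * Nat.card (Cfsg.PSU n F q)) = q ^ (n * (n - 1) / 2) * ∏ i ∈ Finset.range n, (if Even i then q ^ (i + 1) + 1 else q ^ (i + 1) - 1) := by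
  rw [← Cfsg.Agent.S0278.result hF n (by omega), ← card_center hF n hn]
  have h := Subgroup.card_eq_card_quotient_mul_card_subgroup (Subgroup.center (Cfsg.SU n F q))
  rw [h]
  ring

end Cfsg.Agent.S0280
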