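import Mathlib
import Cfsg.Statements.S0307

set_option autoImplicit false
open Cfsg

namespace Cfsg.Agent.S0307

theorem cast_eq_zero_iff (N n : ℕ) [NeZero N] (x : ZMod N) :
    (ZMod.castHom (Nat.gcd_dvd_right n N) (ZMod (Nat.gcd n N)) x = 0) ↔
      ∃ y : ZMod N, x = (n : ZMod N) * y := by
  constructor
  · intro h
    have hx : ((x.val : ℕ) : ZMod N) = x := ZMod.natCast_zmod_val x
    rw [← hx, map_natCast, ZMod.natCast_eq_zero_iff] at h
    obtain ⟨j, hj⟩ := h
    have hb : ((Nat.gcd n N : ℕ) : ZMod N) = (n : ZMod N) * ((Nat.gcdA n N : ℤ) : ZMod N) := by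
      have h1 := Nat.gcd_eq_gcd_ab n N
      have h2 := congrArg (fun z : ℤ => (z : ZMod N)) h1
      simp only [Int.cast_natCast, Int.cast_add, Int.cast_mul] at h2
      rw [h2]; simp
    refine ⟨((Nat.gcdA n N : ℤ) : ZMod N) * (j : ZMod N), ?_⟩
    rw [← hx, hj, Nat.cast_mul, hb]; ring
  · rintro ⟨y, rfl⟩
    rw [map_mul, map_natCast]
    have h0 : ((n : ℕ) : ZMod (Nat.gcd n N)) = 0 :=
      (ZMod.natCast_eq_zero_iff n _).2 (Nat.gcd_dvd_left n N)
    rw [h0, zero_mul]

theorem cyc {C : Type*} [CommGroup C] [IsCyclic C] [Finite C] (N : ℕ) (hN : Nat.card C = N)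
    (n : ℕ) :
    ∃ φ : C →* Multiplicative (ZMod (Nat.gcd n N)), Function.Surjective φ ∧
      ∀ u, φ u = 1 ↔ ∃ w, u = w ^ n := by
  subst hN
  haveI : NeZero (Nat.card C) := ⟨Nat.card_pos.ne'⟩
  obtain ⟨e, -⟩ : ∃ e : Multiplicative (ZMod (Nat.card C)) ≃* C, True :=
    ⟨zmodCyclicMulEquiv (inferInstance : IsCyclic C), trivial⟩
  obtain ⟨c, hc⟩ : ∃ c : ZMod (Nat.card C) →+* ZMod (Nat.gcd n (Nat.card C)),
      c = ZMod.castHom (Nat.gcd_dvd_right n (Nat.card C)) (ZMod (Nat.gcd n (Nat.card C))) :=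
    ⟨_, rfl⟩
  refine ⟨(AddMonoidHom.toMultiplicative c.toAddMonoidHom).comp e.symm.toMonoidHom, ?_, ?_⟩
  · intro y
    obtain ⟨x, hx⟩ := ZMod.castHom_surjective (Nat.gcd_dvd_right n (Nat.card C))
      (Multiplicative.toAdd y)
    refine ⟨e (Multiplicative.ofAdd x), ?_⟩
    show Multiplicative.ofAdd (c (Multiplicative.toAdd (e.symm (e (Multiplicative.ofAdd x))))) = y
    rw [MulEquiv.symm_apply_apply, hc]
    exact (congrArg Multiplicative.ofAdd hx).trans (ofAdd_toAdd y)
  · intro u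
    have key : ((AddMonoidHom.toMultiplicative c.toAddMonoidHom).comp e.symm.toMonoidHom) u = 1 ↔
        c (Multiplicative.toAdd (e.symm u)) = 0 := by
      show Multiplicative.ofAdd (c (Multiplicative.toAdd (e.symm u))) = Multiplicative.ofAdd 0 ↔ _
      exact Multiplicative.ofAdd.injective.eq_iff
    rw [key, hc, cast_eq_zero_iff]
    constructor
    · rintro ⟨y, hy⟩
      refine ⟨e (Multiplicative.ofAdd y), ?_⟩
      have h1 : e.symm u = Multiplicative.ofAdd y ^ n :=
        calc e.symm u = Multiplicative.ofAdd (Multiplicative.toAdd (e.symm u)) := rfl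
          _ = Multiplicative.ofAdd ((n : ZMod (Nat.card C)) * y) := by rw [hy]
          _ = Multiplicative.ofAdd (n • y) := by rw [nsmul_eq_mul]
          _ = Multiplicative.ofAdd y ^ n := by rw [ofAdd_nsmul]
      have h2 : u = e (Multiplicative.ofAdd y ^ n) := by
        rw [← h1, MulEquiv.apply_symm_apply]
      rw [h2, map_pow]
    · rintro ⟨w, rfl⟩
      refine ⟨Multiplicative.toAdd (e.symm w), ?_⟩
      rw [map_pow, toAdd_pow, nsmul_eq_mul]

/-- PSL_n(q) is normal in PGL_n(q) with cyclic quotient of order gcd(n, q-1): the image of the natural map PSL_n → PGL_n is the kernel of a surjective homomorphism onto the cyclic group of that order. -/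
theorem result {F : Type*} [Field F] [Fintype F] {q : ℕ} (hF : Fintype.card F = q) (n : ℕ) (hn : 1 ≤ n) : ∃ g : Matrix.ProjGenLinGroup (Fin n) F →* Multiplicative (ZMod (Nat.gcd n (q - 1))), Function.Surjective g ∧ g.ker = (Matrix.ProjectiveSpecialLinearGroup.toPGL : Matrix.ProjectiveSpecialLinearGroup (Fin n) F →* Matrix.ProjGenLinGroup (Fin n) F).range := by
  classical
  haveI : Nonempty (Fin n) := ⟨⟨0, hn⟩⟩
  have hN : Nat.card Fˣ = q - 1 := by
    rw [Nat.card_eq_fintype_card, Fintype.card_units, hF]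
  obtain ⟨φ, hφs, hφk⟩ := cyc (C := Fˣ) (q - 1) hN n
  have hker : Subgroup.center (Matrix.GeneralLinearGroup (Fin n) F) ≤
      (φ.comp Matrix.GeneralLinearGroup.det).ker := by
    intro A hA
    rw [Matrix.GeneralLinearGroup.center_eq_range_scalar] at hA
    obtain ⟨u, rfl⟩ := hA
    rw [MonoidHom.mem_ker, MonoidHom.comp_apply, Matrix.GeneralLinearGroup.det_scalar, hφk]
    exact ⟨u, by rw [Fintype.card_fin]⟩
  obtain ⟨g, hg⟩ : ∃ g : Matrix.ProjGenLinGroup (Fin n) F →*
      Multiplicative (ZMod (Nat.gcd n (q - 1))),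
      ∀ A, g (Matrix.ProjGenLinGroup.mk A) = φ (Matrix.GeneralLinearGroup.det A) :=
    ⟨QuotientGroup.lift _ (φ.comp Matrix.GeneralLinearGroup.det) hker, fun A => rfl⟩
  refine ⟨g, ?_, ?_⟩
  · intro y
    obtain ⟨u, hu⟩ := hφs y
    obtain ⟨A, hA⟩ := Matrix.GeneralLinearGroup.det_surjective (n := Fin n) (R := F) u
    refine ⟨Matrix.ProjGenLinGroup.mk A, ?_⟩
    rw [hg, hA, hu]
  · ext x
    induction x using Matrix.ProjGenLinGroup.induction_on with
    | mk A =>
      rw [MonoidHom.mem_ker, MonoidHom.mem_range]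
      rw [hg, hφk]
      constructor
      · rintro ⟨w, hw⟩
        have hdetB : Matrix.GeneralLinearGroup.det
            (A * Matrix.GeneralLinearGroup.scalar (Fin n) w⁻¹) = 1 := by
          rw [map_mul, Matrix.GeneralLinearGroup.det_scalar, hw, Fintype.card_fin, inv_pow,
            mul_inv_cancel]
        have hdet' : ((A * Matrix.GeneralLinearGroup.scalar (Fin n) w⁻¹ :
            Matrix.GeneralLinearGroup (Fin n) F) : Matrix (Fin n) (Fin n) F).det = 1 := by
          have h1 := congrArg Units.val hdetB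
          simpa using h1
        obtain ⟨s, hs⟩ : ∃ s : Matrix.SpecialLinearGroup (Fin n) F,
            Matrix.SpecialLinearGroup.toGL s =
              A * Matrix.GeneralLinearGroup.scalar (Fin n) w⁻¹ :=
          ⟨⟨_, hdet'⟩, Units.ext rfl⟩
        refine ⟨(QuotientGroup.mk s : Matrix.ProjectiveSpecialLinearGroup (Fin n) F), ?_⟩
        rw [Matrix.ProjectiveSpecialLinearGroup.toPGL_mk, hs]
        symm
        rw [Matrix.ProjGenLinGroup.mk_eq_mk_iff]
        exact ⟨w⁻¹, rfl⟩
      · rintro ⟨y, hy⟩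
        obtain ⟨s, rfl⟩ := QuotientGroup.mk_surjective
          (s := Subgroup.center (Matrix.SpecialLinearGroup (Fin n) F)) y
        rw [Matrix.ProjectiveSpecialLinearGroup.toPGL_mk, Matrix.ProjGenLinGroup.mk_eq_mk_iff] at hy
        obtain ⟨u, hu⟩ := hy
        refine ⟨u, ?_⟩
        rw [← hu, map_mul, Matrix.SpecialLinearGroup.coeToGL_det, one_mul,
          Matrix.GeneralLinearGroup.det_scalar, Fintype.card_fin]

end Cfsg.Agent.S0307
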