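import Mathlib
import Cfsg.Statements.S0338
import Cfsg.Agent.Lib.Helper52.ZassFrob

set_option autoImplicit false
open Cfsg

namespace Cfsg.Agent.S0338

open Cfsg.Agent.Lib.Helper52.ZassFrob Cfsg.Agent.Lib.Helper13

theorem comm_of_eq {G : Type*} [Group G] {x k k' : G}
    (h1 : x * k * x⁻¹ * k⁻¹ = x * k' * x⁻¹ * k'⁻¹) : (k'⁻¹ * k) * x = x * (k'⁻¹ * k) := by
  have h2 : k * x⁻¹ * k⁻¹ = k' * x⁻¹ * k'⁻¹ := by
    have := congrArg (fun z => x⁻¹ * z) h1
    simpa [mul_assoc] using this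
  have h3 : (k'⁻¹ * k) * x⁻¹ = x⁻¹ * (k'⁻¹ * k) := by
    calc (k'⁻¹ * k) * x⁻¹ = k'⁻¹ * (k * x⁻¹ * k⁻¹) * k := by group
      _ = k'⁻¹ * (k' * x⁻¹ * k'⁻¹) * k := by rw [h2]
      _ = x⁻¹ * (k'⁻¹ * k) := by group
  calc (k'⁻¹ * k) * x = x * (x⁻¹ * (k'⁻¹ * k)) * x := by group
    _ = x * ((k'⁻¹ * k) * x⁻¹) * x := by rw [h3]
    _ = x * (k'⁻¹ * k) := by group

/-- A Zassenhaus group of odd degree is a simple group. -/
theorem result {G Ω : Type*} [Group G] [MulAction G Ω] [Fintype Ω]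
    (hZ : Cfsg.IsZassenhausGroup G Ω) (hodd : Odd (Fintype.card Ω)) : IsSimpleGroup G := by
  have hfin : Finite G := finite_group hZ
  obtain ⟨a₀, b₀, c₀, hab₀, hbc₀, hac₀⟩ := exists_three hZ
  -- an involution
  obtain ⟨t₀, ht₀⟩ := Zass.exists_involution hZ hab₀
  obtain ⟨ht₀2, ht₀1⟩ := (Zass.order_two_iff t₀).1 ht₀
  -- it fixes exactly one point
  have hpar := Zass.parity (Ω := Ω) t₀ ht₀2
  have hle := Zass.fix_le_two hZ ht₀1
  have hcard : Nat.card (MulAction.fixedBy Ω t₀) = 1 := by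
    have := Nat.odd_iff.1 hodd
    omega
  obtain ⟨c, hc1, hc2⟩ : ∃ c : Ω, t₀ • c = c ∧ ∀ d, t₀ • d = d → d = c := by
    rw [Nat.card_eq_one_iff_unique] at hcard
    obtain ⟨hsub, ⟨⟨c, hc⟩⟩⟩ := hcard
    exact ⟨c, hc, fun d hd => congrArg Subtype.val (hsub.elim ⟨d, hd⟩ ⟨c, hc⟩)⟩
  refine { exists_pair_ne := ⟨1, t₀, fun h => ht₀1 h.symm⟩, eq_bot_or_eq_top_of_normal := ?_ }
  intro N hNn
  by_cases hN : N = ⊥
  · exact Or.inl hN
  · right
    obtain ⟨K, hK, -⟩ := exists_kernel hZ c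
    have ht₀K : t₀ ∈ K := by
      rw [hK]
      refine ⟨hc1, Or.inr ?_⟩
      intro d hd h
      exact hd (hc2 d h)
    have ht₀N : t₀ ∈ N := kernel_le_normal hZ N hN hK ht₀K
    -- an involution `t ∈ N` swapping `a₀` and `b₀`, with a unique fixed point
    obtain ⟨d, hd⟩ := Zass.exists_moved hZ ht₀1
    obtain ⟨g, hg1, hg2⟩ := two_trans hZ (Ne.symm hd) hab₀
    have htN : g * t₀ * g⁻¹ ∈ N := hNn.conj_mem t₀ ht₀N g
    have hta : (g * t₀ * g⁻¹) • a₀ = b₀ := by
      rw [mul_smul, mul_smul, ← hg1, inv_smul_smul, hg2]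
    have htb : (g * t₀ * g⁻¹) • b₀ = a₀ := by
      rw [mul_smul, mul_smul, ← hg2, inv_smul_smul, smul_smul t₀ t₀, ht₀2, one_smul, hg1]
    have htia : (g * t₀ * g⁻¹)⁻¹ • a₀ = b₀ := by rw [inv_smul_eq_iff, htb]
    have htib : (g * t₀ * g⁻¹)⁻¹ • b₀ = a₀ := by rw [inv_smul_eq_iff, hta]
    have htc : (g * t₀ * g⁻¹) • (g • c) = g • c := by
      rw [mul_smul, mul_smul, inv_smul_smul, hc1]
    have htfix : ∀ e : Ω, (g * t₀ * g⁻¹) • e = e → e = g • c := by
      intro e he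
      rw [mul_smul, mul_smul, ← eq_inv_smul_iff] at he
      have := hc2 _ he
      rw [← this, smul_inv_smul]
    have hca : g • c ≠ a₀ := by
      intro h
      rw [h, hta] at htc
      exact hab₀ htc.symm
    have hcb : g • c ≠ b₀ := by
      intro h
      rw [h, htb] at htc
      exact hab₀ htc
    generalize g * t₀ * g⁻¹ = t at htN hta htb htia htib htc htfix
    -- the two-point stabiliser lies in `N`
    have hH : ∀ h : G, h • a₀ = a₀ → h • b₀ = b₀ → h ∈ N := by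
      have hmem : ∀ h : (MulAction.stabilizer G a₀ ⊓ MulAction.stabilizer G b₀ : Subgroup G),
          t * (h : G) * t⁻¹ * (h : G)⁻¹ ∈
            (MulAction.stabilizer G a₀ ⊓ MulAction.stabilizer G b₀ : Subgroup G) := by
        intro h
        have h1 : (h : G) • a₀ = a₀ := h.2.1
        have h2 : (h : G) • b₀ = b₀ := h.2.2
        refine Subgroup.mul_mem _ ?_ (Subgroup.inv_mem _ h.2)
        refine ⟨?_, ?_⟩
        · change (t * (h : G) * t⁻¹) • a₀ = a₀
          rw [mul_smul, mul_smul, htia, h2, htb]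
        · change (t * (h : G) * t⁻¹) • b₀ = b₀
          rw [mul_smul, mul_smul, htib, h1, hta]
      let f : (MulAction.stabilizer G a₀ ⊓ MulAction.stabilizer G b₀ : Subgroup G) →
          (MulAction.stabilizer G a₀ ⊓ MulAction.stabilizer G b₀ : Subgroup G) :=
        fun h => ⟨t * (h : G) * t⁻¹ * (h : G)⁻¹, hmem h⟩
      have hinj : Function.Injective f := by
        intro h h' hhh
        have h1 : t * (h : G) * t⁻¹ * (h : G)⁻¹ = t * (h' : G) * t⁻¹ * (h' : G)⁻¹ :=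
          congrArg Subtype.val hhh
        have hcomm := comm_of_eq h1
        have hua : ((h' : G)⁻¹ * h) • a₀ = a₀ := by
          have e1 : (h : G) • a₀ = a₀ := h.2.1
          have e2 : (h' : G) • a₀ = a₀ := h'.2.1
          rw [mul_smul, e1, inv_smul_eq_iff, e2]
        have hub : ((h' : G)⁻¹ * h) • b₀ = b₀ := by
          have e1 : (h : G) • b₀ = b₀ := h.2.2
          have e2 : (h' : G) • b₀ = b₀ := h'.2.2
          rw [mul_smul, e1, inv_smul_eq_iff, e2]
        have huc : ((h' : G)⁻¹ * h) • (g • c) = g • c := by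
          apply htfix
          rw [smul_smul, ← hcomm, mul_smul, htc]
        have hu1 := three_fix hZ hab₀ (Ne.symm hcb) (Ne.symm hca) hua hub huc
        apply Subtype.ext
        have e : (h : G) = h' * ((h' : G)⁻¹ * h) := by group
        rw [e, hu1, mul_one]
      have hsurj : Function.Surjective f := Finite.injective_iff_surjective.1 hinj
      intro h ha hb
      obtain ⟨h', hh'⟩ := hsurj ⟨h, ha, hb⟩
      have e : h = t * (h' : G) * t⁻¹ * (h' : G)⁻¹ := (congrArg Subtype.val hh').symm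
      rw [e]
      have h1 : (h' : G) * t⁻¹ * (h' : G)⁻¹ ∈ N := hNn.conj_mem _ (N.inv_mem htN) _
      have e2 : t * (h' : G) * t⁻¹ * (h' : G)⁻¹ = t * ((h' : G) * t⁻¹ * (h' : G)⁻¹) := by group
      rw [e2]
      exact N.mul_mem htN h1
    rw [eq_top_iff]
    intro x _
    have hxab : x • a₀ ≠ x • b₀ := fun h => hab₀ (smul_left_cancel _ h)
    obtain ⟨n, hn, hna, hnb⟩ := normal_two_trans hZ N hN hab₀ hxab
    have hmem : n⁻¹ * x ∈ N := by
      apply hH
      · rw [mul_smul, ← hna, inv_smul_smul]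
      · rw [mul_smul, ← hnb, inv_smul_smul]
    have e : x = n * (n⁻¹ * x) := by group
    rw [e]
    exact N.mul_mem hn hmem

end Cfsg.Agent.S0338
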