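import Cfsg.Statements.S0406
import Cfsg.Agent.Lib.Helper92.LeechChar1
import Cfsg.Agent.Lib.Helper92.LeechChar4

set_option autoImplicit false
open Matrix
open Cfsg

namespace Cfsg.Agent.S0406

/-- A rank-24 even lattice with no roots and the stated numbers of vectors of norms 4, 6, 8 is isomorphic to the Leech lattice. -/
theorem result (B : Matrix (Fin 24) (Fin 24) ℤ) (hsymm : B.IsSymm) (hpos : ∀ x : Fin 24 → ℤ, x ≠ 0 → 0 < x ⬝ᵥ (B *ᵥ x)) (heven : ∀ x : Fin 24 → ℤ, (2 : ℤ) ∣ x ⬝ᵥ (B *ᵥ x)) (h2 : ∀ x : Fin 24 → ℤ, x ⬝ᵥ (B *ᵥ x) ≠ 2) (h4 : {x : Fin 24 → ℤ | x ⬝ᵥ (B *ᵥ x) = 4}.ncard = 196560) (h6 : {x : Fin 24 → ℤ | x ⬝ᵥ (B *ᵥ x) = 6}.ncard = 16773120) (h8 : {x : Fin 24 → ℤ | x ⬝ᵥ (B *ᵥ x) = 8}.ncard = 398034000) : ∃ f : (Fin 24 → ℤ) ≃+ Cfsg.leechLattice, ∀ x : Fin 24 → ℤ, Cfsg.sqNorm ((f x : Cfsg.leechLattice) : Cfsg.GolayPt → ℤ) = 8 * (x ⬝ᵥ (B *ᵥ x)) := by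
  obtain ⟨c, hdot0, hpar, hc8, hc44⟩ :=
    Cfsg.Agent.Lib.Helper92.LeechChar1.frame_coords hsymm hpos heven h2 h4 h6 h8
  have hdot : ∀ x y : Fin 24 → ℤ, ∑ i, c x i * c y i = 8 * (x ⬝ᵥ (B *ᵥ y)) := hdot0
  have hsq : ∀ x : Fin 24 → ℤ, ∑ i, c x i ^ 2 = 8 * (x ⬝ᵥ (B *ᵥ x)) := by
    intro x
    rw [← hdot x x]
    apply Finset.sum_congr rfl
    intro i _
    ring
  have hzero : ∀ x : Fin 24 → ℤ, c x = 0 → x = 0 := by
    intro x hx
    by_contra hne
    have h1 := hpos x hne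
    have h3 := hsq x
    rw [hx] at h3
    simp only [Pi.zero_apply] at h3
    norm_num at h3
    omega
  have hinj : Function.Injective c := by
    intro x y hxy
    have h1 : c (x - y) = 0 := by rw [map_sub, hxy, sub_self]
    exact sub_eq_zero.mp (hzero _ h1)
  have H : Cfsg.Agent.Lib.Helper92.LeechChar2.Hyp c.range := by
    refine ⟨?_, ?_, ?_, ?_, hc8, hc44⟩
    · rintro _ ⟨x, rfl⟩ i j
      exact hpar x i j
    · rintro _ ⟨x, rfl⟩ _ ⟨y, rfl⟩
      rw [hdot]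
      exact dvd_mul_right 8 _
    · rintro _ ⟨x, rfl⟩
      rw [hsq]
      obtain ⟨k, hk⟩ := heven x
      exact ⟨k, by rw [hk]; ring⟩
    · rintro _ ⟨x, rfl⟩ hne
      have hx : x ≠ 0 := by
        intro hx
        apply hne
        rw [hx, map_zero]
      have h1 := hpos x hx
      have h3 := heven x
      have h5 := h2 x
      rw [hsq]
      omega
  have hcount : {m : Fin 24 → ℤ | m ∈ c.range ∧ ∑ i, m i ^ 2 = 32}.ncard = 196560 := by
    have hset : {m : Fin 24 → ℤ | m ∈ c.range ∧ ∑ i, m i ^ 2 = 32}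
        = c '' {x : Fin 24 → ℤ | x ⬝ᵥ (B *ᵥ x) = 4} := by
      ext m
      constructor
      · rintro ⟨⟨x, rfl⟩, h32⟩
        refine ⟨x, ?_, rfl⟩
        rw [hsq] at h32
        show x ⬝ᵥ (B *ᵥ x) = 4
        omega
      · rintro ⟨x, hx, rfl⟩
        refine ⟨⟨x, rfl⟩, ?_⟩
        have hx' : x ⬝ᵥ (B *ᵥ x) = 4 := hx
        rw [hsq, hx']
        norm_num
    rw [hset, Set.ncard_image_of_injective _ hinj, h4]
  obtain ⟨e, ε, hε, hiff⟩ := Cfsg.Agent.Lib.Helper92.LeechChar4.recognise H hcount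
  have hεsq : ∀ i, ε i * ε i = 1 := by
    intro i
    rcases hε i with h1 | h1 <;> rw [h1] <;> norm_num
  obtain ⟨f0, hf0⟩ : ∃ f0 : (Fin 24 → ℤ) →+ Cfsg.leechLattice,
      ∀ (x : Fin 24 → ℤ) (p : Cfsg.GolayPt),
        ((f0 x : Cfsg.leechLattice) : Cfsg.GolayPt → ℤ) p = ε (e.symm p) * c x (e.symm p) :=
    ⟨{ toFun := (fun x : Fin 24 → ℤ =>
          (⟨Cfsg.Agent.Lib.Helper92.LeechChar4.tr e ε (c x), (hiff (c x)).mp ⟨x, rfl⟩⟩ :
            Cfsg.leechLattice)),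
        map_zero' := (by
          apply Subtype.ext
          funext p
          show ε (e.symm p) * c 0 (e.symm p) = 0
          rw [map_zero, Pi.zero_apply, mul_zero]),
        map_add' := (by
          intro x y
          apply Subtype.ext
          funext p
          show ε (e.symm p) * c (x + y) (e.symm p)
            = ε (e.symm p) * c x (e.symm p) + ε (e.symm p) * c y (e.symm p)
          rw [map_add, Pi.add_apply, mul_add]) }, fun x p => rfl⟩
  have hbij : Function.Bijective f0 := by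
    constructor
    · intro x y hxy
      apply hinj
      funext i
      have h3 : ((f0 x : Cfsg.leechLattice) : Cfsg.GolayPt → ℤ) (e i)
          = ((f0 y : Cfsg.leechLattice) : Cfsg.GolayPt → ℤ) (e i) := by rw [hxy]
      rw [hf0, hf0, Equiv.symm_apply_apply] at h3
      rcases hε i with h5 | h5 <;> rw [h5] at h3 <;> linarith
    · rintro ⟨l, hl⟩
      have h1 : Cfsg.Agent.Lib.Helper92.LeechChar4.tr e ε (fun i => ε i * l (e i)) = l := by
        funext p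
        show ε (e.symm p) * (ε (e.symm p) * l (e (e.symm p))) = l p
        rw [Equiv.apply_symm_apply, ← mul_assoc, hεsq, one_mul]
      have h3 : (fun i => ε i * l (e i)) ∈ c.range := by
        rw [hiff, h1]
        exact hl
      obtain ⟨x, hx⟩ := h3
      refine ⟨x, Subtype.ext ?_⟩
      funext p
      rw [hf0, hx]
      exact congrFun h1 p
  refine ⟨AddEquiv.ofBijective f0 hbij, fun x => ?_⟩
  show Cfsg.sqNorm ((f0 x : Cfsg.leechLattice) : Cfsg.GolayPt → ℤ) = 8 * (x ⬝ᵥ (B *ᵥ x))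
  rw [← hsq x]
  unfold Cfsg.sqNorm
  rw [← Equiv.sum_comp e.symm (fun i => c x i ^ 2)]
  apply Finset.sum_congr rfl
  intro p _
  rw [hf0, mul_pow, pow_two (ε (e.symm p)), hεsq, one_mul]

end Cfsg.Agent.S0406
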