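import Cfsg.Statements.S0409
import Cfsg.Agent.Lib.Helper8.SteinerUniq23

set_option autoImplicit false
open Cfsg

namespace Cfsg.Agent.S0409

/-- Uniqueness of the Steiner system S(4, 7, 23) up to isomorphism. -/
theorem result {α β : Type*} [Fintype α] [DecidableEq α] [Fintype β] [DecidableEq β] (hα : Fintype.card α = 23) (hβ : Fintype.card β = 23) {B : Set (Finset α)} {B' : Set (Finset β)} (hB : Cfsg.IsSteinerSystem 4 7 B) (hB' : Cfsg.IsSteinerSystem 4 7 B') : Cfsg.SetSystemIso B B' := by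
  obtain ⟨φ, hφ, h⟩ := Cfsg.Agent.Lib.Helper8.SteinerUniq23.u23 hα hB
  obtain ⟨φ', hφ', h'⟩ := Cfsg.Agent.Lib.Helper8.SteinerUniq23.u23 hβ hB'
  have hΨ : (φ.trans φ'.symm) none = none := by
    rw [Equiv.trans_apply, hφ, Equiv.symm_apply_eq, hφ']
  exact ⟨Equiv.removeNone (φ.trans φ'.symm),
    Cfsg.Agent.Lib.Helper8.SteinerUniq23.iso_of_option _ hΨ
      (Cfsg.Agent.Lib.Helper8.Plane4Model.iso_of_model φ φ' h h')⟩

end Cfsg.Agent.S0409
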