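import Cfsg.Statements.S0412
import Cfsg.Agent.Lib.Helper8.SteinerUniq
import Cfsg.Agent.Lib.Helper8.AutTransport
import Cfsg.Agent.S0363
import Cfsg.Agent.S0364
import Cfsg.Agent.S0365
import Cfsg.Agent.S0366
import Cfsg.Agent.S0369

set_option autoImplicit false
open Cfsg

namespace Cfsg.Agent.S0412

/-- Aut of an S(5, 8, 24) is simple of order 244823040 and 5-transitive on points. -/
theorem result {α : Type*} [Fintype α] [DecidableEq α] (hα : Fintype.card α = 24) {B : Set (Finset α)} (hB : Cfsg.IsSteinerSystem 5 8 B) : Cfsg.IsM24 (Cfsg.setSystemAut B) ∧ MulAction.IsMultiplyPretransitive (Cfsg.setSystemAut B) α 5 := by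
  obtain ⟨φ, h⟩ := Cfsg.Agent.Lib.Helper8.SteinerUniq.u24 hα hB
  obtain ⟨φ', h'⟩ := Cfsg.Agent.Lib.Helper8.SteinerUniq.u24 (α := Cfsg.GolayPt)
    (by rw [Fintype.card_option, ZMod.card]) Cfsg.Agent.S0363.result
  have hiso := Cfsg.Agent.Lib.Helper8.Plane4Model.iso_of_model φ φ' h h'
  let ψ := (Cfsg.Agent.Lib.Helper8.AutTransport.autCongr (φ.trans φ'.symm) hiso).trans
    (MulEquiv.subgroupCongr Cfsg.Agent.S0369.result.symm)
  refine ⟨⟨?_, ?_⟩, ?_⟩
  · have := Cfsg.Agent.S0365.result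
    exact ψ.isSimpleGroup_congr.2 inferInstance
  · rw [Nat.card_congr ψ.toEquiv]
    exact Cfsg.Agent.S0364.result
  · refine Cfsg.Agent.Lib.Helper8.AutTransport.multiply_transport (φ.trans φ'.symm) hiso 5 ?_
    have h5 := Cfsg.Agent.S0366.result
    rw [Cfsg.Agent.S0369.result] at h5
    exact h5

end Cfsg.Agent.S0412
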