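import Cfsg.Statements.S0413
import Cfsg.Agent.Lib.Helper8.AutExt23
import Cfsg.Agent.S0366
import Cfsg.Agent.S0376
import Cfsg.Agent.S0377

set_option autoImplicit false
open Cfsg

namespace Cfsg.Agent.S0413

/-- Aut of an S(4, 7, 23) is simple of order 10200960 and 4-transitive. -/
theorem result {α : Type*} [Fintype α] [DecidableEq α] (hα : Fintype.card α = 23) {B : Set (Finset α)} (hB : Cfsg.IsSteinerSystem 4 7 B) : Cfsg.IsM23 (Cfsg.setSystemAut B) ∧ MulAction.IsMultiplyPretransitive (Cfsg.setSystemAut B) α 4 := by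
  obtain ⟨e, f, hinj, hsome, hnone, hsurj⟩ := Cfsg.Agent.Lib.Helper8.AutExt23.exists_hom hα hB
  have hrange : f.range = MulAction.stabilizer Cfsg.M24 (e none) := by
    ext h
    rw [MonoidHom.mem_range, MulAction.mem_stabilizer_iff]
    constructor
    · rintro ⟨g, rfl⟩
      exact hnone g
    · intro hh
      exact hsurj h hh
  let θ := (MonoidHom.ofInjective hinj).trans (MulEquiv.subgroupCongr hrange)
  refine ⟨⟨?_, ?_⟩, ?_⟩
  · have := Cfsg.Agent.S0377.result (e none)
    exact θ.isSimpleGroup_congr.2 inferInstance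
  · rw [Nat.card_congr θ.toEquiv]
    exact Cfsg.Agent.S0376.result (e none)
  · rw [MulAction.isMultiplyPretransitive_iff]
    intro x y
    have h5 := Cfsg.Agent.S0366.result
    rw [MulAction.isMultiplyPretransitive_iff] at h5
    have hx : Function.Injective
        (Fin.cons (e none) (fun i => e (some (x i))) : Fin 5 → Cfsg.GolayPt) := by
      rw [Fin.cons_injective_iff]
      refine ⟨?_, fun i j hij => x.injective (Option.some_injective _ (e.injective hij))⟩
      rintro ⟨i, hi⟩
      exact absurd (e.injective hi) (by simp)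
    have hy : Function.Injective
        (Fin.cons (e none) (fun i => e (some (y i))) : Fin 5 → Cfsg.GolayPt) := by
      rw [Fin.cons_injective_iff]
      refine ⟨?_, fun i j hij => y.injective (Option.some_injective _ (e.injective hij))⟩
      rintro ⟨i, hi⟩
      exact absurd (e.injective hi) (by simp)
    obtain ⟨h, hh⟩ := h5 ⟨_, hx⟩ ⟨_, hy⟩
    have h0 : (h : Equiv.Perm Cfsg.GolayPt) (e none) = e none :=
      congrArg (fun F : Fin 5 ↪ Cfsg.GolayPt => F 0) hh
    obtain ⟨g, rfl⟩ := hsurj h h0
    refine ⟨g, ?_⟩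
    ext i
    have hi : ((f g : Cfsg.M24) : Equiv.Perm Cfsg.GolayPt) (e (some (x i))) = e (some (y i)) :=
      congrArg (fun F : Fin 5 ↪ Cfsg.GolayPt => F i.succ) hh
    rw [hsome] at hi
    exact Option.some_injective _ (e.injective hi)

end Cfsg.Agent.S0413
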