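import Cfsg.Statements.S0427
import Cfsg.Agent.Lib.Helper8.S3622Graph

set_option autoImplicit false
open Cfsg

namespace Cfsg.Agent.S0427

open Finset Cfsg.Agent.Lib.Helper8.Steiner Cfsg.Agent.Lib.Helper8.S3622
  Cfsg.Agent.Lib.Helper8.S3622Graph

/-- cardinality of a set of blocks (as a subtype) via the finset of blocks -/
lemma card_set_eq {α : Type*} [Fintype α] {B : Set (Finset α)} (s : Set ↥B) [Fintype s]
    (P : Finset α → Prop) [DecidablePred P] (h : ∀ d : ↥B, d ∈ s ↔ P d.1) :
    Fintype.card s = ((blocks B).filter P).card := by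
  rw [Fintype.card_eq_nat_card, Nat.card_coe_set_eq,
    ← Set.ncard_image_of_injective s Subtype.val_injective]
  have e : Subtype.val '' s = ((blocks B).filter P : Set (Finset α)) := by
    ext d
    rw [Finset.mem_coe, mem_filter, mem_blocks]
    constructor
    · rintro ⟨x, hx, rfl⟩
      exact ⟨x.2, (h x).mp hx⟩
    · rintro ⟨hd, hP⟩
      exact ⟨⟨d, hd⟩, (h _).mpr hP, rfl⟩
  rw [e, Set.ncard_coe_finset]

lemma adj_iff {α : Type*} [DecidableEq α] {B : Set (Finset α)}
    (hB : Cfsg.IsSteinerSystem 3 6 B) (v d : ↥B) :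
    (Cfsg.blockGraph B).Adj v d ↔ Disjoint (d : Finset α) (v : Finset α) := by
  unfold Cfsg.blockGraph
  rw [SimpleGraph.fromRel_adj]
  constructor
  · rintro ⟨_, h | h⟩
    · exact h.symm
    · exact h
  · intro h
    refine ⟨?_, Or.inr h⟩
    intro hvd
    rw [hvd] at h
    exact not_disjoint_self hB d.2 h

/-- The block graph (adjacent = disjoint) of an S(3, 6, 22) is strongly regular with parameters (77, 16, 0, 4). -/
theorem result {α : Type*} [Fintype α] (hα : Fintype.card α = 22) {B : Set (Finset α)} (hB : Cfsg.IsSteinerSystem 3 6 B) [Fintype B] [DecidableRel (Cfsg.blockGraph B).Adj] : (Cfsg.blockGraph B).IsSRGWith 77 16 0 4 := by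
  classical
  refine ⟨?_, ?_, ?_, ?_⟩
  · rw [Fintype.card_eq_nat_card, Nat.card_coe_set_eq, ncard_eq, card_blocks hα hB]
  · intro v
    rw [← SimpleGraph.card_neighborSet_eq_degree,
      card_set_eq _ (fun d => Disjoint d (v : Finset α)) (fun d => by
        rw [SimpleGraph.mem_neighborSet, adj_iff hB])]
    exact card_disjoint hα hB v.2
  · intro v w hvw
    rw [card_set_eq _ (fun d => Disjoint d (v : Finset α) ∧ Disjoint d (w : Finset α))
      (fun d => by
        rw [SimpleGraph.mem_commonNeighbors, adj_iff hB, adj_iff hB])]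
    exact card_disjoint_disjoint hα hB v.2 w.2 (((adj_iff hB v w).mp hvw).symm)
  · intro v w hne hvw
    rw [card_set_eq _ (fun d => Disjoint d (v : Finset α) ∧ Disjoint d (w : Finset α))
      (fun d => by
        rw [SimpleGraph.mem_commonNeighbors, adj_iff hB, adj_iff hB])]
    refine card_disjoint_meet hα hB v.2 w.2 (fun h => hne (Subtype.ext h)) ?_
    intro hd
    exact hvw ((adj_iff hB v w).mpr hd.symm)

end Cfsg.Agent.S0427
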