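import Cfsg.Statements.S0436
set_option autoImplicit false
open Cfsg

namespace Cfsg.Agent.S0436

lemma comm_or_braid {G : Type*} [Group G] (e d : G) (he : e * e = 1) (hd : d * d = 1)
    (h : (e * d) ^ 2 = 1 ∨ (e * d) ^ 3 = 1) : Commute e d ∨ e * d * e = d * e * d := by
  have ie : e⁻¹ = e := inv_eq_of_mul_eq_one_left he
  have id : d⁻¹ = d := inv_eq_of_mul_eq_one_left hd
  rcases h with h2 | h3
  · left
    have h2' : e * d * (e * d) = 1 := by rwa [pow_two] at h2
    have : e * d = (e * d)⁻¹ := eq_inv_of_mul_eq_one_left h2'
    rw [mul_inv_rev, ie, id] at this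
    exact this
  · right
    have h3' : e * d * e * (d * e * d) = 1 := by
      rw [pow_succ, pow_two] at h3
      simpa [mul_assoc] using h3
    have : e * d * e = (d * e * d)⁻¹ := eq_inv_of_mul_eq_one_left h3'
    rw [mul_inv_rev, mul_inv_rev, ie, id, ← mul_assoc] at this
    exact this

theorem result {G : Type*} [Group G] {E : Set G} (hE : Cfsg.IsThreeTranspositionSet E) {a b e : G} (ha : a ∈ E) (hb : b ∈ E) (he : e ∈ E) (hab : a ≠ b) (hcomm : Commute a b) : Commute e (a * b) ↔ (Commute e a ∧ Commute e b) := by
  obtain ⟨hord, hprod⟩ := hE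
  have sq : ∀ d ∈ E, d * d = 1 := fun d hd => by
    have := pow_orderOf_eq_one d
    rw [hord d hd, pow_two] at this
    exact this
  constructor
  · intro h
    by_cases h1 : Commute e a
    · refine ⟨h1, ?_⟩
      have : Commute e (a⁻¹ * (a * b)) := h1.inv_right.mul_right h
      simpa using this
    by_cases h2 : Commute e b
    · refine ⟨?_, h2⟩
      have : Commute e (a * b * b⁻¹) := h.mul_right h2.inv_right
      simpa using this
    exfalso
    have ka := (comm_or_braid e a (sq e he) (sq a ha) (hprod e he a ha)).resolve_left h1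
    have kb := (comm_or_braid e b (sq e he) (sq b hb) (hprod e he b hb)).resolve_left h2
    have h' : a * e * a = b * e * b := by
      have h0 : e * (a * b) = a * b * e := h.eq
      calc a * e * a = a * (e * (a * b)) * b := by
            simp [mul_assoc, sq b hb]
        _ = a * (a * b * e) * b := by rw [h0]
        _ = b * e * b := by
            simp [← mul_assoc, sq a ha]
    have : e * a * e = e * b * e := by rw [ka, kb, h']
    exact hab (mul_left_cancel (mul_right_cancel this))
  · rintro ⟨h1, h2⟩
    exact h1.mul_right h2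

end Cfsg.Agent.S0436
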