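import Cfsg.Statements.S0437

set_option autoImplicit false
open Cfsg

namespace Cfsg.Agent.S0437

lemma comm_or_braid {G : Type*} [Group G] (e d : G) (he : e * e = 1) (hd : d * d = 1)
    (h : (e * d) ^ 2 = 1 ∨ (e * d) ^ 3 = 1) : Commute e d ∨ e * d * e = d * e * d := by
  have ie : e⁻¹ = e := inv_eq_of_mul_eq_one_left he
  have id : d⁻¹ = d := inv_eq_of_mul_eq_one_left hd
  rcases h with h2 | h3
  · left
    have h2' : e * d * (e * d) = 1 := by rwa [pow_two] at h2
    have : e * d = (e * d)⁻¹ := eq_inv_of_mul_eq_one_left h2'
    rw [mul_inv_rev, ie, id] at this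
    exact this
  · right
    have h3' : e * d * e * (d * e * d) = 1 := by
      rw [pow_succ, pow_two] at h3
      simpa [mul_assoc] using h3
    have : e * d * e = (d * e * d)⁻¹ := eq_inv_of_mul_eq_one_left h3'
    rw [mul_inv_rev, mul_inv_rev, ie, id, ← mul_assoc] at this
    exact this

lemma two {G : Type*} [Group G] {a b e : G} (sa : a * a = 1) (sb : b * b = 1) (se : e * e = 1)
    (pa : (e * a) ^ 2 = 1 ∨ (e * a) ^ 3 = 1) (pb : (e * b) ^ 2 = 1 ∨ (e * b) ^ 3 = 1)
    (hab : a ≠ b) (h : Commute e (a * b)) : Commute e a ∧ Commute e b := by
  by_cases h1 : Commute e a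
  · refine ⟨h1, ?_⟩
    have : Commute e (a⁻¹ * (a * b)) := h1.inv_right.mul_right h
    simpa using this
  by_cases h2 : Commute e b
  · refine ⟨?_, h2⟩
    have : Commute e (a * b * b⁻¹) := h.mul_right h2.inv_right
    simpa using this
  exfalso
  have ka := (comm_or_braid e a se sa pa).resolve_left h1
  have kb := (comm_or_braid e b se sb pb).resolve_left h2
  have h' : a * e * a = b * e * b := by
    have h0 : e * (a * b) = a * b * e := h.eq
    calc a * e * a = a * (e * (a * b)) * b := by
          simp [mul_assoc, sb]
      _ = a * (a * b * e) * b := by rw [h0]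
      _ = b * e * b := by
          simp [← mul_assoc, sa]
  have : e * a * e = e * b * e := by rw [ka, kb, h']
  exact hab (mul_left_cancel (mul_right_cancel this))

/-- For three distinct, pairwise commuting members a, b, c of a set of 3-transpositions E, a member e of E centralises a * b * c if and only if it centralises each of a, b and c. -/
theorem result {G : Type*} [Group G] {E : Set G} (hE : Cfsg.IsThreeTranspositionSet E) {a b c e : G} (ha : a ∈ E) (hb : b ∈ E) (hc : c ∈ E) (he : e ∈ E) (hab : a ≠ b) (hac : a ≠ c) (hbc : b ≠ c) (h₁ : Commute a b) (h₂ : Commute a c) (h₃ : Commute b c) : Commute e (a * b * c) ↔ (Commute e a ∧ Commute e b ∧ Commute e c) := by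
  obtain ⟨hord, hprod⟩ := hE
  have sq : ∀ d ∈ E, d * d = 1 := fun d hd => by
    have := pow_orderOf_eq_one d
    rw [hord d hd, pow_two] at this
    exact this
  have sa := sq a ha
  have sb := sq b hb
  have sc := sq c hc
  have se := sq e he
  have sqa' : ∀ x, a * (a * x) = x := fun x => by rw [← mul_assoc, sa, one_mul]
  have sqb' : ∀ x, b * (b * x) = x := fun x => by rw [← mul_assoc, sb, one_mul]
  have sqc' : ∀ x, c * (c * x) = x := fun x => by rw [← mul_assoc, sc, one_mul]
  constructor
  · intro h
    by_cases h1 : Commute e a
    · have hbc' : Commute e (b * c) := by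
        have : Commute e (a⁻¹ * (a * b * c)) := h1.inv_right.mul_right h
        simpa [mul_assoc] using this
      have := two sb sc se (hprod e he b hb) (hprod e he c hc) hbc hbc'
      exact ⟨h1, this.1, this.2⟩
    by_cases h2 : Commute e b
    · have hac' : Commute e (a * c) := by
        have : Commute e (b⁻¹ * (a * b * c)) := h2.inv_right.mul_right h
        rw [h₁.eq] at this
        simpa [mul_assoc] using this
      have := two sa sc se (hprod e he a ha) (hprod e he c hc) hac hac'
      exact ⟨this.1, h2, this.2⟩
    by_cases h3 : Commute e c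
    · have hab' : Commute e (a * b) := by
        have : Commute e (a * b * c * c⁻¹) := h.mul_right h3.inv_right
        simpa [mul_assoc] using this
      have := two sa sb se (hprod e he a ha) (hprod e he b hb) hab hab'
      exact ⟨this.1, this.2, h3⟩
    exfalso
    have ka := (comm_or_braid e a se sa (hprod e he a ha)).resolve_left h1
    have kb := (comm_or_braid e b se sb (hprod e he b hb)).resolve_left h2
    have kc := (comm_or_braid e c se sc (hprod e he c hc)).resolve_left h3
    have h0 : e * (a * (b * c)) = a * (b * (c * e)) := by simpa [mul_assoc] using h.eq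
    have P1 : b * (c * (e * (c * b))) = a * (e * a) := by
      calc b * (c * (e * (c * b))) = a * (a * (b * (c * e))) * (c * b) := by
            simp [mul_assoc, sqa']
        _ = a * (e * (a * (b * c))) * (c * b) := by rw [h0]
        _ = a * (e * a) := by simp [mul_assoc, sqc', sb]
    have hbcb : b * c * b = c := by rw [h₃.eq, mul_assoc, sb, mul_one]
    have k1 : a * e * a = e * b * e * c * (e * b * e) := by
      calc a * e * a = b * (c * e * c) * b := by rw [mul_assoc a, ← P1]; simp [mul_assoc]
        _ = b * (e * c * e) * b := by rw [kc]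
        _ = (b * e * b) * (b * c * b) * (b * e * b) := by simp [mul_assoc, sqb']
        _ = e * b * e * c * (e * b * e) := by rw [← kb, hbcb]
    have k2 : a = b * e * c * e * b := by
      have : e * a * e = e * (b * e * c * e * b) * e := by rw [ka, k1]; simp [mul_assoc]
      exact mul_left_cancel (mul_right_cancel this)
    have k3 : b * e * c * e * b = a * e * a := by
      calc b * e * c * e * b = b * (e * c * e) * b := by simp [mul_assoc]
        _ = b * (c * e * c) * b := by rw [kc]
        _ = a * e * a := by rw [mul_assoc a, ← P1]; simp [mul_assoc]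
    have k4 : a = a * e * a := k2.trans k3
    have k5 : e * a = 1 := by
      have : a * 1 = a * (e * a) := by simpa [mul_assoc] using k4
      exact (mul_left_cancel this).symm
    have k6 : e = a⁻¹ := eq_inv_of_mul_eq_one_left k5
    apply h1
    rw [k6]
    exact (Commute.refl a).inv_left
  · rintro ⟨h1, h2, h3⟩
    exact (h1.mul_right h2).mul_right h3

end Cfsg.Agent.S0437
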