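import Cfsg.Statements.S0438

set_option autoImplicit false
open Cfsg

namespace Cfsg.Agent.S0438

lemma comm_or_braid {G : Type*} [Group G] (e d : G) (he : e * e = 1) (hd : d * d = 1)
    (h : (e * d) ^ 2 = 1 ∨ (e * d) ^ 3 = 1) : Commute e d ∨ e * d * e = d * e * d := by
  have ie : e⁻¹ = e := inv_eq_of_mul_eq_one_left he
  have id : d⁻¹ = d := inv_eq_of_mul_eq_one_left hd
  rcases h with h2 | h3
  · left
    have h2' : e * d * (e * d) = 1 := by rwa [pow_two] at h2
    have : e * d = (e * d)⁻¹ := eq_inv_of_mul_eq_one_left h2'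
    rw [mul_inv_rev, ie, id] at this
    exact this
  · right
    have h3' : e * d * e * (d * e * d) = 1 := by
      rw [pow_succ, pow_two] at h3
      simpa [mul_assoc] using h3
    have : e * d * e = (d * e * d)⁻¹ := eq_inv_of_mul_eq_one_left h3'
    rw [mul_inv_rev, mul_inv_rev, ie, id, ← mul_assoc] at this
    exact this

/-- Let E be a set of 3-transpositions closed under conjugation, and x an involutory automorphism of the group mapping E to itself. If some a in E fails to commute with its image x a, then x fixes an element of E. -/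
theorem result {G : Type*} [Group G] {E : Set G} (hE : Cfsg.IsThreeTranspositionSet E) (hconj : ∀ g : G, ∀ d ∈ E, g * d * g⁻¹ ∈ E) (x : G ≃* G) (hx : ∀ g : G, x (x g) = g) (hxE : ∀ d ∈ E, x d ∈ E) {a : G} (ha : a ∈ E) (h : ¬ Commute a (x a)) : ∃ d ∈ E, x d = d := by
  obtain ⟨hord, hprod⟩ := hE
  have sq : ∀ d ∈ E, d * d = 1 := fun d hd => by
    have := pow_orderOf_eq_one d
    rw [hord d hd, pow_two] at this
    exact this
  have hb : x a ∈ E := hxE a ha
  have sa := sq a ha
  have sb := sq (x a) hb
  have k := (comm_or_braid a (x a) sa sb (hprod a ha (x a) hb)).resolve_left h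
  have ia : a⁻¹ = a := inv_eq_of_mul_eq_one_left sa
  have ib : (x a)⁻¹ = x a := inv_eq_of_mul_eq_one_left sb
  refine ⟨a * x a * a⁻¹, hconj a (x a) hb, ?_⟩
  rw [map_mul, map_mul, map_inv, hx a, ib, ia]
  exact k.symm

end Cfsg.Agent.S0438
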