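import Cfsg.Statements.S0472
import Cfsg.Agent.Lib.Helper28.F23Tr

set_option autoImplicit false
open Cfsg

namespace Cfsg.Agent.S0472

/-- The Fischer group of order 4089470473293004800 exists as a 3-transposition group: a simple group of that order generated by a conjugacy class of 31671 3-transpositions, the centraliser of each being a non-split double cover of a simple group of order 64561751654400. -/
theorem result : ∃ (G : Type) (_ : Group G) (_ : Finite G), Cfsg.IsFi23 G ∧ ∃ D : Set G, Cfsg.IsThreeTranspositionClass D ∧ Nat.card D = 31671 ∧ ∀ d ∈ D, ∃ (K : Type) (_ : Group K), Cfsg.IsFi22 K ∧ Cfsg.IsNonsplitDoubleCover (Subgroup.centralizer ({d} : Set G)) K := by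
  obtain ⟨D, h1, h2, h3⟩ := Cfsg.Agent.Lib.Helper28.F23Tr.main
  exact ⟨_, inferInstance, Cfsg.Agent.Lib.Helper28.F23Main.bound.1,
    Cfsg.Agent.Lib.Helper28.F23Main.simple_card, D, h1, h2,
    fun d hd => ⟨Cfsg.Spor.Fi22, inferInstance, Cfsg.Agent.Lib.Helper28.F22Main.simple_card,
      h3 d hd⟩⟩

end Cfsg.Agent.S0472
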