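import Cfsg.Statements.S0519
import Cfsg.Agent.Lib.Helper54.CyclicNormal

set_option autoImplicit false
open Cfsg

namespace Cfsg.Agent.S0519

/-- Let P be a finite p-group in which every abelian normal subgroup is cyclic, but which has a non-cyclic abelian
subgroup. Then p = 2 and P is generalized quaternion, dihedral of order at least 16, or quasi-dihedral. -/
theorem result {P : Type*} [Group P] [Finite P] (p : ℕ) [Fact p.Prime]
    (hP : IsPGroup p P) (hn : ∀ A : Subgroup P, A.Normal → IsMulCommutative A → IsCyclic A)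
    (hm : ∃ B : Subgroup P, IsMulCommutative B ∧ ¬ IsCyclic B) :
    p = 2 ∧ ((∃ n : ℕ, Nonempty (P ≃* QuaternionGroup n)) ∨ (∃ n : ℕ, 8 ≤ n ∧ Nonempty (P ≃* DihedralGroup n)) ∨
      Cfsg.IsQuasiDihedral P) := by
  obtain ⟨B, hBc, hBn⟩ := hm
  rcases Cfsg.Agent.Lib.Helper54.CyclicNormal.cyclic_or_two hP hn with
    hcyc | ⟨rfl, a, x, n, hn1, ha, hN, hC, hcard, hx, hcases⟩
  · exact absurd (inferInstance : IsCyclic B) hBn
  · refine ⟨rfl, ?_⟩
    rcases Cfsg.Agent.Lib.Helper54.CyclicNormal.iso_of_nonmodular ha hcard hx hcases with h | h | h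
    · right; left
      refine ⟨2 ^ (n + 1), ?_, h⟩
      by_contra hlt
      have hn1' : n = 1 := by
        by_contra hne
        have h2 : 2 ^ 3 ≤ 2 ^ (n + 1) := Nat.pow_le_pow_right (by norm_num) (by omega)
        omega
      subst hn1'
      have hc8 : Nat.card P = 2 ^ 3 := by rw [hcard]
      have hBdvd : Nat.card B ∣ 2 ^ 3 := hc8 ▸ Subgroup.card_subgroup_dvd_card B
      obtain ⟨m, hm3, hm⟩ := (Nat.dvd_prime_pow Nat.prime_two).1 hBdvd
      have hidx := B.card_mul_index
      rw [hc8, hm] at hidx
      have hnorm : ∀ (hB : B.Normal), False := fun hB => hBn (hn B hB hBc)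
      interval_cases m
      · apply hBn
        have : Subsingleton B := (Nat.card_eq_one_iff_unique.1 (by simpa using hm)).1
        exact isCyclic_of_subsingleton
      · apply hBn
        have : Fact (Nat.Prime 2) := ⟨Nat.prime_two⟩
        exact isCyclic_of_prime_card (p := 2) (by simpa using hm)
      · apply hnorm
        apply Subgroup.normal_of_index_eq_two
        omega
      · apply hnorm
        have : B.index = 1 := by omega
        rw [Subgroup.index_eq_one] at this
        rw [this]; infer_instance
    · left; exact ⟨2 ^ n, h⟩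
    · right; right; exact h

end Cfsg.Agent.S0519
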