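import Cfsg.Statements.S0521
import Cfsg.Agent.S1463
import Cfsg.Agent.Lib.Helper9.QuadOdd4
import Cfsg.Agent.Lib.Helper70.HallHigman2
import Cfsg.Agent.Lib.Helper55.SolvCore
import Cfsg.Agent.Lib.Helper63.PFrattini

set_option autoImplicit false
open Cfsg

namespace Cfsg.Agent.S0521

open scoped commutatorElement

/-- the image of the Frattini subgroup of a normal subgroup is normal -/
theorem frattini_map_normal {Y : Type*} [Group Y] (Q : Subgroup Y) [hQ : Q.Normal] :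
    ((frattini ↥Q).map Q.subtype).Normal := by
  refine ⟨fun n hn g => ?_⟩
  obtain ⟨u, hu, rfl⟩ := hn
  refine ⟨(MulAut.conjNormal g : MulAut ↥Q) u, ?_, ?_⟩
  · exact (Cfsg.Agent.S4189.char_mem (frattini ↥Q) (MulAut.conjNormal g) u).2 hu
  · simp [MulAut.conjNormal_apply]

/-- a `p`-group `A` normalizing a subgroup `E ≤ A` of order dividing `p` centralizes it -/
theorem comm_of_card_dvd {Γ : Type*} [Group Γ] [Finite Γ] {p : ℕ} [hp : Fact p.Prime]
    (A E : Subgroup Γ) (hA : IsPGroup p A) (hEA : E ≤ A)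
    (hn : ∀ a ∈ A, ∀ e ∈ E, a * e * a⁻¹ ∈ E) (hc : Nat.card E ∣ p) (a e : Γ) (ha : a ∈ A)
    (he : e ∈ E) : a * e = e * a := by
  rcases (Nat.dvd_prime hp.out).1 hc with h1 | h1
  · have : E = ⊥ := Subgroup.card_eq_one.1 h1
    rw [this, Subgroup.mem_bot] at he
    rw [he, mul_one, one_mul]
  · have : (E.subgroupOf A).Normal := by
      refine ⟨fun n hn' g => ?_⟩
      rw [Subgroup.mem_subgroupOf] at hn' ⊢
      exact hn g g.2 n hn'
    have hcard : Nat.card (E.subgroupOf A) = p := by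
      rw [Nat.card_congr (Subgroup.subgroupOfEquivOfLe hEA).toEquiv, h1]
    have hcen := Cfsg.Agent.Lib.Helper63.PFrattini.normal_card_prime_le_center hA
      (E.subgroupOf A) hcard
    have hmem : (⟨e, hEA he⟩ : ↥A) ∈ E.subgroupOf A := by
      rw [Subgroup.mem_subgroupOf]; exact he
    have h2 := Subgroup.mem_center_iff.1 (hcen hmem) ⟨a, ha⟩
    exact congrArg Subtype.val h2

/-- core of the argument, in a group with `C(O_p) ≤ O_p`. -/
theorem le_pCore_of_cyclic {Y : Type*} [Group Y] [Finite Y] (hodd : Odd (Nat.card Y)) {p : ℕ}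
    [Fact p.Prime] (hp : p ≠ 2)
    (hcent : Subgroup.centralizer ((Cfsg.pCore p Y : Subgroup Y) : Set Y) ≤ Cfsg.pCore p Y)
    (T : Subgroup Y) (hT : IsPGroup p T)
    (D : Subgroup Y) [hDc : IsCyclic D] (hDT : D ≤ T)
    (hDn : ∀ t ∈ T, ∀ d ∈ D, t * d * t⁻¹ ∈ D)
    (hcomm : ∀ q ∈ Cfsg.pCore p Y, ∀ t ∈ T, ⁅q, t⁆ ∈ D) :
    T ≤ Cfsg.pCore p Y := by
  classical
  have hQp : IsPGroup p (Cfsg.pCore p Y) := Cfsg.Agent.Lib.Helper76.PSolv.pCore_isPGroup p
  have hQn : (Cfsg.pCore p Y).Normal := inferInstance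
  have hΦn : ((frattini ↥(Cfsg.pCore p Y)).map (Cfsg.pCore p Y).subtype).Normal :=
    frattini_map_normal (Cfsg.pCore p Y)
  obtain ⟨Φ, hΦ⟩ : ∃ Φ : Subgroup Y, Φ = (frattini ↥(Cfsg.pCore p Y)).map (Cfsg.pCore p Y).subtype :=
    ⟨_, rfl⟩
  have hΦn' : Φ.Normal := hΦ ▸ hΦn
  have hΦle : Φ ≤ Cfsg.pCore p Y := hΦ ▸ Subgroup.map_subtype_le _
  have hΦp : IsPGroup p Φ := hQp.to_le hΦle
  have hρ : Function.Surjective (QuotientGroup.mk' Φ) := QuotientGroup.mk'_surjective Φ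
  apply Cfsg.Agent.Lib.Helper9.QuadOdd4.le_pCore_of_map_le Φ hΦp T
  obtain ⟨P, hP⟩ : ∃ P : Subgroup (Y ⧸ Φ), P = (Cfsg.pCore p Y).map (QuotientGroup.mk' Φ) :=
    ⟨_, rfl⟩
  obtain ⟨A, hA⟩ : ∃ A : Subgroup (Y ⧸ Φ), A = T.map (QuotientGroup.mk' Φ) := ⟨_, rfl⟩
  rw [← hA]
  have hPn : P.Normal := hP ▸ Subgroup.Normal.map hQn _ hρ
  have hPp : IsPGroup p P := hP ▸ hQp.map _
  have hAp : IsPGroup p A := hA ▸ hT.map _
  have hPexp : ∀ x ∈ P, x ^ p = 1 := by
    intro x hx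
    rw [hP] at hx
    obtain ⟨q, hq, rfl⟩ := hx
    rw [← map_pow]
    refine (QuotientGroup.eq_one_iff _).2 ?_
    have h1 := Cfsg.Agent.Lib.Helper63.PFrattini.pow_mem_frattini hQp
      (⟨q, hq⟩ : ↥(Cfsg.pCore p Y))
    rw [hΦ]
    exact ⟨_, h1, by simp⟩
  obtain ⟨E, hE⟩ : ∃ E : Subgroup (Y ⧸ Φ), E = (D ⊓ Cfsg.pCore p Y).map (QuotientGroup.mk' Φ) :=
    ⟨_, rfl⟩
  have hEP : E ≤ P := by
    rw [hE, hP]; exact Subgroup.map_mono inf_le_right
  have hEcyc : IsCyclic ↥E := by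
    have : IsCyclic ↥(D ⊓ Cfsg.pCore p Y) :=
      Subgroup.isCyclic_of_le (inf_le_left : D ⊓ Cfsg.pCore p Y ≤ D)
    rw [hE]
    exact isCyclic_of_surjective ((QuotientGroup.mk' Φ).subgroupMap (D ⊓ Cfsg.pCore p Y))
      ((QuotientGroup.mk' Φ).subgroupMap_surjective (D ⊓ Cfsg.pCore p Y))
  have hEcard : Nat.card E ∣ p := by
    obtain ⟨g, hg⟩ := hEcyc.exists_generator
    rw [← orderOf_eq_card_of_forall_mem_zpowers hg]
    apply orderOf_dvd_of_pow_eq_one
    have h1 := hPexp _ (hEP g.2)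
    exact Subtype.ext (by simpa using h1)
  have hEA : E ≤ A := by
    rw [hE, hA]; exact Subgroup.map_mono (inf_le_left.trans hDT)
  have hEn : ∀ a ∈ A, ∀ e ∈ E, a * e * a⁻¹ ∈ E := by
    intro a ha e he
    rw [hA] at ha
    rw [hE] at he ⊢
    obtain ⟨t, ht, rfl⟩ := ha
    obtain ⟨d, hd, rfl⟩ := he
    refine ⟨t * d * t⁻¹, ⟨hDn t ht d hd.1, hQn.conj_mem d hd.2 t⟩, by simp⟩
  have hquad : ∀ x ∈ P, ∀ a ∈ A, a * ⁅x, a⁆ = ⁅x, a⁆ * a := by
    intro x hx a ha
    have hc : ⁅x, a⁆ ∈ E := by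
      rw [hP] at hx
      rw [hA] at ha
      obtain ⟨q, hq, rfl⟩ := hx
      obtain ⟨t, ht, rfl⟩ := ha
      rw [← map_commutatorElement, hE]
      refine Subgroup.mem_map_of_mem _ ⟨hcomm q hq t ht, ?_⟩
      rw [commutatorElement_def]
      have h1 := hQn.conj_mem q⁻¹ ((Cfsg.pCore p Y).inv_mem hq) t
      have h2 := (Cfsg.pCore p Y).mul_mem hq h1
      simpa [mul_assoc] using h2
    exact comm_of_card_dvd A E hAp hEA hEn hEcard a _ ha hc
  have hCn : (Subgroup.centralizer (P : Set (Y ⧸ Φ))).Normal := Subgroup.normal_centralizer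
  have hCp : IsPGroup p (Subgroup.centralizer (P : Set (Y ⧸ Φ))) := by
    rintro ⟨c, hc⟩
    obtain ⟨y, rfl⟩ := hρ c
    have hy : y ∈ Cfsg.pCore p Y := by
      rw [← Cfsg.Agent.Lib.Helper70.HallHigman2.mem_pCore_iff_of_centralizer_le p hcent y]
      intro u
      have h1 : (QuotientGroup.mk' Φ) (u : Y) ∈ P := by
        rw [hP]; exact Subgroup.mem_map_of_mem _ u.2
      have h2 := (Subgroup.mem_centralizer_iff.mp hc) _ h1
      have h3 : (QuotientGroup.mk' Φ) (y * (u : Y) * y⁻¹ * (u : Y)⁻¹) = 1 := by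
        simp only [map_mul, map_inv]
        rw [← h2]
        group
      have h4 := (QuotientGroup.eq_one_iff _).1 h3
      rw [hΦ] at h4
      obtain ⟨w, hw, hwe⟩ := h4
      have h5 : w = (MulAut.conjNormal y : MulAut ↥(Cfsg.pCore p Y)) u * u⁻¹ :=
        Subtype.ext (by simpa [MulAut.conjNormal_apply] using hwe)
      rw [← h5]
      exact hw
    obtain ⟨k, hk⟩ := hQp ⟨y, hy⟩
    refine ⟨k, Subtype.ext ?_⟩
    have hk' : y ^ p ^ k = 1 := by simpa using congrArg Subtype.val hk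
    simp only [Subgroup.coe_pow, Subgroup.coe_one]
    rw [← map_pow, hk', map_one]
  have hst := Cfsg.Agent.Lib.Helper9.QuadOdd3.pstable_normal
    (fun F _ q _ _ hq H _ ho hi => Cfsg.Agent.S1463.result q hq H ho hi)
    (hodd.of_dvd_nat (Subgroup.card_quotient_dvd_card Φ)) hp P A hPp hAp hquad
    (QuotientGroup.mk' (Subgroup.centralizer (P : Set (Y ⧸ Φ)))) (QuotientGroup.mk'_surjective _)
    (by rw [QuotientGroup.ker_mk'])
  exact Cfsg.Agent.Lib.Helper9.QuadOdd4.le_pCore_of_map_le _ hCp A hst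

/-- Let X be a finite solvable group of odd order, p a prime and S a Sylow p-subgroup of X whose commutator subgroup is
cyclic. Then the product of the largest normal subgroup of X of order prime to p with S is a normal subgroup of X. -/
theorem result {X : Type*} [Group X] [Finite X] [Group.IsSolvable X]
    (hX : Odd (Nat.card X)) (p : ℕ) [Fact p.Prime] (S : Sylow p X) (hS : IsCyclic (commutator (S : Subgroup X))) :
    (Cfsg.pPrimeCore p X ⊔ (S : Subgroup X)).Normal := by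
  classical
  have hpr : p.Prime := Fact.out
  by_cases hp2 : p = 2
  · have hSbot : (S : Subgroup X) = ⊥ := by
      obtain ⟨n, hn⟩ := IsPGroup.iff_card.1 S.isPGroup'
      have hdvd : Nat.card (S : Subgroup X) ∣ Nat.card X := Subgroup.card_subgroup_dvd_card _
      have hoddS : Odd (Nat.card (S : Subgroup X)) := hX.of_dvd_nat hdvd
      rw [hn, hp2] at hoddS
      have hn0 : n = 0 := by
        by_contra h0
        exact (Nat.not_even_iff_odd.2 hoddS) (Nat.even_pow.2 ⟨even_two, h0⟩)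
      rw [hn0, pow_zero] at hn
      exact Subgroup.card_eq_one.1 hn
    rw [hSbot, sup_bot_eq]
    infer_instance
  obtain ⟨K, hK⟩ : ∃ K : Subgroup X, K = Cfsg.pPrimeCore p X := ⟨_, rfl⟩
  have hKn : K.Normal := hK ▸ inferInstance
  rw [← hK]
  have hπ : Function.Surjective (QuotientGroup.mk' K) := QuotientGroup.mk'_surjective K
  have hSbc : ((S.mapSurjective hπ : Sylow p (X ⧸ K)) : Subgroup (X ⧸ K)) =
      (S : Subgroup X).map (QuotientGroup.mk' K) := Sylow.coe_mapSurjective hπ S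
  suffices hmain : (S : Subgroup X).map (QuotientGroup.mk' K) ≤ Cfsg.pCore p (X ⧸ K) by
    have heq : K ⊔ (S : Subgroup X) = (Cfsg.pCore p (X ⧸ K)).comap (QuotientGroup.mk' K) := by
      apply le_antisymm
      · apply sup_le
        · intro x hx
          rw [Subgroup.mem_comap]
          have h1 : (QuotientGroup.mk' K) x = 1 := (QuotientGroup.eq_one_iff x).2 hx
          rw [h1]
          exact Subgroup.one_mem _
        · intro x hx
          rw [Subgroup.mem_comap]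
          exact hmain (Subgroup.mem_map_of_mem _ hx)
      · intro x hx
        rw [Subgroup.mem_comap] at hx
        have h1 : (QuotientGroup.mk' K) x ∈ ((S.mapSurjective hπ : Sylow p (X ⧸ K)) :
            Subgroup (X ⧸ K)) :=
          Cfsg.Agent.Lib.Helper76.PSolv.pCore_le_sylow (S.mapSurjective hπ) hx
        rw [hSbc] at h1
        obtain ⟨s, hs, hsx⟩ := h1
        have h2 : s⁻¹ * x ∈ K := by
          rw [← QuotientGroup.eq_one_iff]
          have h3 : (QuotientGroup.mk' K) (s⁻¹ * x) = 1 := by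
            rw [map_mul, map_inv, hsx, inv_mul_cancel]
          exact h3
        have h4 : x = s * (s⁻¹ * x) := by group
        rw [h4]
        exact Subgroup.mul_mem _ (Subgroup.mem_sup_right hs) (Subgroup.mem_sup_left h2)
    rw [heq]
    exact Subgroup.Normal.comap inferInstance _
  have hoddY : Odd (Nat.card (X ⧸ K)) := hX.of_dvd_nat (Subgroup.card_quotient_dvd_card K)
  have hcore : ∀ L : Subgroup (X ⧸ K), L.Normal → (Nat.card L).Coprime p → L = ⊥ := by
    subst hK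
    exact fun L hL hc =>
      Cfsg.Agent.Lib.Helper55.SolvCore.quotient_pPrimeCore_core_trivial p L hL hc
  have hcent : Subgroup.centralizer ((Cfsg.pCore p (X ⧸ K) : Subgroup (X ⧸ K)) : Set (X ⧸ K)) ≤
      Cfsg.pCore p (X ⧸ K) :=
    Cfsg.Agent.Lib.Helper55.SolvCore.centralizer_le_of_solvable p inferInstance hcore
      (Cfsg.pCore p (X ⧸ K)) (fun M hM hMp => Cfsg.Agent.Lib.Helper76.PSolv.le_pCore hM hMp)
  -- the cyclic subgroup D
  obtain ⟨D, hD⟩ : ∃ D : Subgroup (X ⧸ K),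
      D = (commutator (S : Subgroup X)).map ((QuotientGroup.mk' K).comp (S : Subgroup X).subtype) :=
    ⟨_, rfl⟩
  have hDc : IsCyclic ↥D := by
    rw [hD]
    exact isCyclic_of_surjective
      (((QuotientGroup.mk' K).comp (S : Subgroup X).subtype).subgroupMap
        (commutator (S : Subgroup X)))
      (((QuotientGroup.mk' K).comp (S : Subgroup X).subtype).subgroupMap_surjective
        (commutator (S : Subgroup X)))
  have hDT : D ≤ (S : Subgroup X).map (QuotientGroup.mk' K) := by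
    rw [hD]
    rintro _ ⟨d, -, rfl⟩
    exact ⟨d, d.2, rfl⟩
  have hDn : ∀ t ∈ (S : Subgroup X).map (QuotientGroup.mk' K), ∀ d ∈ D, t * d * t⁻¹ ∈ D := by
    rintro _ ⟨t, ht, rfl⟩ d hd
    rw [hD] at hd ⊢
    obtain ⟨d₀, hd₀, rfl⟩ := hd
    have hcn : (commutator (S : Subgroup X)).Normal := inferInstance
    refine ⟨(⟨t, ht⟩ : ↥(S : Subgroup X)) * d₀ * (⟨t, ht⟩ : ↥(S : Subgroup X))⁻¹,
      hcn.conj_mem d₀ hd₀ _, by simp⟩
  have hcomm : ∀ q ∈ Cfsg.pCore p (X ⧸ K), ∀ t ∈ (S : Subgroup X).map (QuotientGroup.mk' K),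
      ⁅q, t⁆ ∈ D := by
    intro q hq t ht
    have hq' : q ∈ (S : Subgroup X).map (QuotientGroup.mk' K) := by
      rw [← hSbc]
      exact Cfsg.Agent.Lib.Helper76.PSolv.pCore_le_sylow (S.mapSurjective hπ) hq
    obtain ⟨q₀, hq₀, rfl⟩ := hq'
    obtain ⟨t₀, ht₀, rfl⟩ := ht
    rw [hD]
    refine ⟨⁅(⟨q₀, hq₀⟩ : ↥(S : Subgroup X)), ⟨t₀, ht₀⟩⁆, ?_, by simp [commutatorElement_def]⟩
    rw [commutator_def]
    exact Subgroup.commutator_mem_commutator (Subgroup.mem_top _) (Subgroup.mem_top _)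
  have hTp : IsPGroup p ((S : Subgroup X).map (QuotientGroup.mk' K)) := S.isPGroup'.map _
  exact le_pCore_of_cyclic hoddY hp2 hcent _ hTp D hDT hDn hcomm

end Cfsg.Agent.S0521
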