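import Mathlib
import Cfsg.Statements.S0602
import Cfsg.Agent.Lib.Helper10.Thompson

set_option autoImplicit false
open Cfsg

namespace Cfsg.Agent.S0602

open Cfsg.Agent.Lib.Helper10.Thompson

theorem ea_zpowers {G : Type*} [Group G] {p : ℕ} (x : G) (hx : orderOf x = p) :
    Cfsg.IsElementaryAbelian p (Subgroup.zpowers x) := by
  refine ⟨inferInstance, ?_⟩
  intro a ha
  obtain ⟨k, rfl⟩ := Subgroup.mem_zpowers_iff.mp ha
  rw [← zpow_natCast, ← zpow_mul, mul_comm, zpow_mul, zpow_natCast, ← hx, pow_orderOf_eq_one,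
    one_zpow]

theorem result {G : Type*} [Group G] [Finite G] {p : ℕ} [Fact p.Prime] : (Cfsg.thompsonSubgroup p G).Characteristic ∧ (p ∣ Nat.card G → Cfsg.thompsonSubgroup p G ≠ ⊥) := by
  constructor
  · rw [Subgroup.characteristic_iff_map_le]
    intro ϕ
    rw [Subgroup.map_le_iff_le_comap]
    unfold Cfsg.thompsonSubgroup
    apply sSup_le
    intro A hA
    rw [← Subgroup.map_le_iff_le_comap]
    apply le_sSup
    refine ⟨ea_map _ hA.1, ?_⟩
    intro B hB
    have : Nat.card (A.map ϕ.toMonoidHom) = Nat.card A :=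
      (Nat.card_congr (A.equivMapOfInjective ϕ.toMonoidHom ϕ.injective).toEquiv).symm
    rw [this]
    exact hA.2 B hB
  · intro hp hbot
    obtain ⟨x, hx⟩ := exists_prime_orderOf_dvd_card' p hp
    obtain ⟨A, hA⟩ := exists_max (G := G) p
    have h1 := hA.2 _ (ea_zpowers x hx)
    rw [Nat.card_zpowers, hx] at h1
    have hAle : A ≤ Cfsg.thompsonSubgroup p G := le_sSup hA
    rw [hbot, le_bot_iff] at hAle
    rw [hAle, Subgroup.card_bot] at h1
    have := (Fact.out : p.Prime).one_lt
    omega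

end Cfsg.Agent.S0602
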