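import Mathlib
import Cfsg.Statements.S0604
import Cfsg.Agent.Lib.Helper10.Thompson

set_option autoImplicit false
open Cfsg

namespace Cfsg.Agent.S0604

open Cfsg.Agent.Lib.Helper10.Thompson
open Pointwise

theorem result {G : Type*} [Group G] [Finite G] {p : ℕ} [Fact p.Prime] : Cfsg.thompsonSubgroup p G = ⨆ S : Sylow p G, Cfsg.thompsonSubgroupOf p (S : Subgroup G) := by
  apply le_antisymm
  · have key : ∀ A ∈ Cfsg.maxElementaryAbelianSubgroups p G,
        A ≤ ⨆ S : Sylow p G, Cfsg.thompsonSubgroupOf p (S : Subgroup G) := by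
      intro A hA
      obtain ⟨S, hS⟩ := (ea_isPGroup hA.1).exists_le_sylow
      exact (le_thompsonOf hA hS).trans
        (le_iSup (fun S : Sylow p G => Cfsg.thompsonSubgroupOf p (S : Subgroup G)) S)
    exact sSup_le key
  · apply iSup_le
    intro S
    obtain ⟨A0, hA0⟩ := exists_max (G := G) p
    obtain ⟨S0, hS0⟩ := (ea_isPGroup hA0.1).exists_le_sylow
    obtain ⟨g, hg⟩ := MulAction.exists_smul_eq G S0 S
    have hA1 : (MulAut.conj g • A0 : Subgroup G) ∈ Cfsg.maxElementaryAbelianSubgroups p G := by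
      refine ⟨ea_map (MulDistribMulAction.toMonoidEnd (MulAut G) G (MulAut.conj g)) hA0.1, ?_⟩
      intro B hB
      have : Nat.card (MulAut.conj g • A0 : Subgroup G) = Nat.card A0 :=
        (Nat.card_congr (Subgroup.equivSMul (MulAut.conj g) A0).toEquiv).symm
      rw [this]
      exact hA0.2 B hB
    have hA1S : (MulAut.conj g • A0 : Subgroup G) ≤ S := by
      rw [← hg, Sylow.coe_subgroup_smul]
      exact Subgroup.pointwise_smul_le_pointwise_smul_iff.mpr hS0
    exact thompsonOf_le hA1 hA1S

end Cfsg.Agent.S0604
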