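import Cfsg.Statements.S0657
import Cfsg.Agent.Lib.Helper11.QuadStable

set_option autoImplicit false
open Cfsg

namespace Cfsg.Agent.S0657

/-- For odd p, a group that fails to be p-stable modulo its largest normal subgroup of order prime to p, and whose upper p-series does not stop there, has a section isomorphic to SL(2, p). -/
theorem result {G : Type*} [Group G] [Finite G] {p : ℕ} [Fact p.Prime] (hp : p ≠ 2) (hO : Cfsg.pPrimeCore p G < Cfsg.pPrimePCore p G) (hns : ¬ Cfsg.IsPStable p (G ⧸ Cfsg.pPrimeCore p G)) : ∃ (K L : Subgroup G) (hL : (L.subgroupOf K).Normal), K ≤ ⊤ ∧ Nonempty ((K ⧸ L.subgroupOf K) ≃* Matrix.SpecialLinearGroup (Fin 2) (ZMod p)) := by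
  classical
  have hp' : p.Prime := Fact.out
  by_contra hno
  apply hns
  have hfree : ¬ Cfsg.Involves (Matrix.SpecialLinearGroup (Fin 2) (ZMod p))
      (G ⧸ Cfsg.pPrimeCore p G) := fun h => by
    obtain ⟨K, L, hL, hiso⟩ := Cfsg.Agent.Lib.Helper11.QuadStable.involves_quotient _ h
    exact hno ⟨K, L, hL, le_top, hiso⟩
  refine ⟨hp'.odd_of_ne_two hp, ?_, ?_⟩
  · intro hbot
    have h1 : Cfsg.pPrimePCore p G = Cfsg.pPrimeCore p G := by
      unfold Cfsg.pPrimePCore
      rw [hbot, MonoidHom.comap_bot, QuotientGroup.ker_mk']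
    exact (ne_of_lt hO) h1.symm
  · intro A P hA hP hAP hPle hnorm hquad
    rintro _ ⟨n, hn, rfl⟩
    have hnA : (n : G ⧸ Cfsg.pPrimeCore p G) ∈ A := Subgroup.mem_subgroupOf.mp hn
    have hq : ⁅⁅P, Subgroup.zpowers (n : G ⧸ Cfsg.pPrimeCore p G)⁆,
        Subgroup.zpowers (n : G ⧸ Cfsg.pPrimeCore p G)⁆ = ⊥ := by
      rw [eq_bot_iff, ← hquad]
      have hz : Subgroup.zpowers (n : G ⧸ Cfsg.pPrimeCore p G) ≤ A := Subgroup.zpowers_le.mpr hnA
      exact Subgroup.commutator_mono (Subgroup.commutator_mono le_rfl hz) hz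
    rcases Cfsg.Agent.Lib.Helper11.QuadStable.normalizer_dichotomy hp P hP n.1 n.2 hq with h | h
    · exact h
    · exact absurd (Cfsg.Agent.Lib.Helper11.QuadStable.involves_subgroup _ h) hfree

end Cfsg.Agent.S0657
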