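import Cfsg.Statements.S0660
import Mathlib

set_option autoImplicit false
open Cfsg

namespace Cfsg.Agent.S0660

open scoped IsMulCommutative

/-- Maschke-type averaging: under a coprime action on a finite abelian group, a complemented
invariant subgroup has an invariant complement. -/
lemma maschke {V A : Type*} [Group V] [IsMulCommutative V] [Finite V] [Group A] [Finite A]
    [MulDistribMulAction A V]
    (hcop : (Nat.card A).Coprime (Nat.card V))
    (U W : Subgroup V) (hU : ∀ (a : A), ∀ u ∈ U, a • u ∈ U) (hUW : U ⊓ W = ⊥)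
    (hUWV : U ⊔ W = ⊤) :
    ∃ W' : Subgroup V, (∀ (a : A), ∀ w ∈ W', a • w ∈ W') ∧ U ⊓ W' = ⊥ ∧ U ⊔ W' = ⊤ := by
  classical
  letI : Fintype A := Fintype.ofFinite A
  haveI hUn : U.Normal :=
    ⟨fun n hn g => by rw [mul_comm' g n, mul_inv_cancel_right]; exact hn⟩
  let f : W →* V ⧸ U := (QuotientGroup.mk' U).comp W.subtype
  have hf : Function.Bijective f := by
    constructor
    · rw [injective_iff_map_eq_one]
      intro w hw
      have h1 : (w : V) ∈ U := (QuotientGroup.eq_one_iff (w : V)).mp hw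
      have h2 : (w : V) ∈ U ⊓ W := ⟨h1, w.2⟩
      rw [hUW, Subgroup.mem_bot] at h2
      exact Subtype.ext h2
    · intro x
      obtain ⟨v, rfl⟩ := QuotientGroup.mk_surjective x
      have hv : v ∈ U ⊔ W := by rw [hUWV]; trivial
      rw [Subgroup.mem_sup] at hv
      obtain ⟨u, hu, w, hw, rfl⟩ := hv
      refine ⟨⟨w, hw⟩, ?_⟩
      show (QuotientGroup.mk w : V ⧸ U) = QuotientGroup.mk (u * w)
      rw [QuotientGroup.eq, mul_comm' u w, inv_mul_cancel_left]
      exact hu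
  let e : W ≃* V ⧸ U := MulEquiv.ofBijective f hf
  let τ : V → V := fun v => (e.symm (QuotientGroup.mk v) : V)
  have hτmul : ∀ x y, τ (x * y) = τ x * τ y := by
    intro x y
    simp only [τ, QuotientGroup.mk_mul, map_mul, Subgroup.coe_mul]
  have hτ : ∀ v : V, (QuotientGroup.mk (τ v) : V ⧸ U) = QuotientGroup.mk v := by
    intro v
    exact e.apply_symm_apply (QuotientGroup.mk v)
  have hτU : ∀ v ∈ U, τ v = 1 := by
    intro v hv
    have h0 : (QuotientGroup.mk v : V ⧸ U) = 1 := (QuotientGroup.eq_one_iff v).mpr hv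
    simp only [τ, h0, map_one, Subgroup.coe_one]
  let q : V → V := fun v => ∏ a : A, a⁻¹ • τ (a • v)
  have hqmul : ∀ x y, q (x * y) = q x * q y := by
    intro x y
    simp only [q, smul_mul', hτmul, Finset.prod_mul_distrib]
  have hterm : ∀ (a : A) (v : V),
      (QuotientGroup.mk (a⁻¹ • τ (a • v)) : V ⧸ U) = QuotientGroup.mk v := by
    intro a v
    have h1 := hτ (a • v)
    rw [QuotientGroup.eq] at h1 ⊢
    have h2 := hU a⁻¹ _ h1
    rw [smul_mul', smul_inv', inv_smul_smul] at h2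
    exact h2
  have hmkq : ∀ v : V, (QuotientGroup.mk (q v) : V ⧸ U) =
      (QuotientGroup.mk v : V ⧸ U) ^ Fintype.card A := by
    intro v
    have h1 : (QuotientGroup.mk (q v) : V ⧸ U) =
        ∏ a : A, (QuotientGroup.mk (a⁻¹ • τ (a • v)) : V ⧸ U) :=
      map_prod (QuotientGroup.mk' U) _ _
    rw [h1, Finset.prod_congr rfl (fun a _ => hterm a v), Finset.prod_const, Finset.card_univ]
  have hqsmul : ∀ (b : A) (v : V), q (b • v) = b • q v := by
    intro b v
    show ∏ a : A, a⁻¹ • τ (a • b • v) = b • ∏ a : A, a⁻¹ • τ (a • v)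
    rw [Finset.smul_prod']
    apply Fintype.prod_equiv (Equiv.mulRight b)
    intro a
    simp only [Equiv.coe_mulRight]
    rw [← mul_smul b, mul_inv_rev, ← mul_assoc, mul_inv_cancel, one_mul, mul_smul a b v]
  have hqU : ∀ v ∈ U, q v = 1 := by
    intro v hv
    show ∏ a : A, a⁻¹ • τ (a • v) = 1
    apply Finset.prod_eq_one
    intro a _
    rw [hτU _ (hU a v hv), smul_one]
  have hcop' : (Nat.card A).Coprime (Nat.card (V ⧸ U)) :=
    Nat.Coprime.coprime_dvd_right (Subgroup.card_quotient_dvd_card U) hcop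
  have hker : ∀ v : V, q v ∈ U → v ∈ U := by
    intro v hv
    have h1 : (QuotientGroup.mk (q v) : V ⧸ U) = 1 := (QuotientGroup.eq_one_iff _).mpr hv
    rw [hmkq] at h1
    have h2 : orderOf (QuotientGroup.mk v : V ⧸ U) ∣ Fintype.card A :=
      orderOf_dvd_of_pow_eq_one h1
    have h3 : orderOf (QuotientGroup.mk v : V ⧸ U) ∣ Nat.card (V ⧸ U) := orderOf_dvd_natCard _
    rw [← Nat.card_eq_fintype_card] at h2
    have h4 : orderOf (QuotientGroup.mk v : V ⧸ U) = 1 :=
      Nat.eq_one_of_dvd_coprimes hcop' h2 h3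
    rw [orderOf_eq_one_iff] at h4
    exact (QuotientGroup.eq_one_iff v).mp h4
  let qh : V →* V := MonoidHom.mk' q hqmul
  refine ⟨qh.range, ?_, ?_, ?_⟩
  · rintro a w ⟨v, rfl⟩
    exact ⟨a • v, hqsmul a v⟩
  · rw [eq_bot_iff]
    rintro x ⟨hxU, v, rfl⟩
    have hv : v ∈ U := hker v hxU
    exact Subgroup.mem_bot.mpr (hqU v hv)
  · rw [eq_top_iff]
    intro v _
    have hc : (Nat.card V).Coprime (Fintype.card A) := by
      rw [← Nat.card_eq_fintype_card]; exact hcop.symm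
    obtain ⟨y, hy⟩ := (powCoprime hc).surjective v
    rw [powCoprime_apply] at hy
    have h1 : (q y)⁻¹ * y ^ Fintype.card A ∈ U := by
      rw [← QuotientGroup.eq, hmkq]; rfl
    rw [Subgroup.mem_sup]
    refine ⟨(q y)⁻¹ * y ^ Fintype.card A, h1, q y, ⟨y, rfl⟩, ?_⟩
    rw [mul_comm' _ (q y), mul_inv_cancel_left, hy]

theorem result {G : Type*} [Group G] [Finite G] (V A U : Subgroup G) (hVab : IsMulCommutative V) (hAV : A ≤ Subgroup.normalizer (V : Set G)) (hcop : (Nat.card A).Coprime (Nat.card V)) (hUV : U ≤ V) (hAU : A ≤ Subgroup.normalizer (U : Set G)) (W : Subgroup G) (hWV : W ≤ V) (hUW : U ⊓ W = ⊥) (hUWV : U ⊔ W = V) : ∃ W' : Subgroup G, W' ≤ V ∧ A ≤ Subgroup.normalizer (W' : Set G) ∧ U ⊓ W' = ⊥ ∧ U ⊔ W' = V := by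
  haveI := hVab
  have hconj : ∀ (a : A) (v : V), (a : G) * v * (a : G)⁻¹ ∈ V :=
    fun a v => (Subgroup.mem_normalizer_iff.mp (hAV a.2) v).mp v.2
  letI : MulDistribMulAction A V :=
    { smul := fun a v => ⟨a * v * (a : G)⁻¹, hconj a v⟩
      one_smul := fun v => Subtype.ext
        (show ((1 : A) : G) * v * ((1 : A) : G)⁻¹ = v by rw [Subgroup.coe_one]; group)
      mul_smul := fun a b v => Subtype.ext
        (show ((a * b : A) : G) * v * ((a * b : A) : G)⁻¹ =
          (a : G) * ((b : G) * v * (b : G)⁻¹) * (a : G)⁻¹ by rw [Subgroup.coe_mul]; group)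
      smul_mul := fun a v w => Subtype.ext
        (show (a : G) * ((v * w : V) : G) * (a : G)⁻¹ =
          ((a : G) * v * (a : G)⁻¹) * ((a : G) * w * (a : G)⁻¹) by
            rw [Subgroup.coe_mul]; group)
      smul_one := fun a => Subtype.ext
        (show (a : G) * ((1 : V) : G) * (a : G)⁻¹ = ((1 : V) : G) by
          rw [Subgroup.coe_one]; group) }
  have hsmul : ∀ (a : A) (v : V), ((a • v : V) : G) = a * v * (a : G)⁻¹ := fun a v => rfl
  have hUinv : ∀ (a : A), ∀ u ∈ U.subgroupOf V, a • u ∈ U.subgroupOf V := by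
    intro a u hu
    rw [Subgroup.mem_subgroupOf] at hu ⊢
    rw [hsmul]
    exact (Subgroup.mem_normalizer_iff.mp (hAU a.2) u).mp hu
  have hinf : U.subgroupOf V ⊓ W.subgroupOf V = ⊥ := by
    rw [eq_bot_iff]
    rintro x ⟨hx1, hx2⟩
    have h0 : (x : G) ∈ U ⊓ W := ⟨hx1, hx2⟩
    rw [hUW, Subgroup.mem_bot] at h0
    exact Subgroup.mem_bot.mpr (Subtype.ext h0)
  have hsup : U.subgroupOf V ⊔ W.subgroupOf V = ⊤ := by
    rw [← Subgroup.subgroupOf_sup hUV hWV, hUWV, Subgroup.subgroupOf_self]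
  obtain ⟨W'', hW''inv, hW''inf, hW''sup⟩ := maschke (V := V) (A := A) hcop
    (U.subgroupOf V) (W.subgroupOf V) hUinv hinf hsup
  refine ⟨W''.map V.subtype, Subgroup.map_subtype_le W'', ?_, ?_, ?_⟩
  · intro a ha
    rw [Subgroup.mem_normalizer_iff]
    intro x
    constructor
    · rintro ⟨w, hw, rfl⟩
      exact ⟨(⟨a, ha⟩ : A) • w, hW''inv _ w hw, rfl⟩
    · rintro ⟨w, hw, hwx⟩
      refine ⟨(⟨a, ha⟩ : A)⁻¹ • w, hW''inv _ w hw, ?_⟩
      have h0 : (w : G) = a * x * a⁻¹ := hwx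
      show (((⟨a, ha⟩ : A)⁻¹ : A) : G) * (w : G) * ((((⟨a, ha⟩ : A)⁻¹ : A) : G))⁻¹ = x
      rw [h0, Subgroup.coe_inv]
      group
  · rw [eq_bot_iff]
    rintro x ⟨hxU, w, hw, rfl⟩
    have h0 : w ∈ U.subgroupOf V ⊓ W'' := ⟨hxU, hw⟩
    rw [hW''inf, Subgroup.mem_bot] at h0
    rw [h0]
    exact Subgroup.one_mem _
  · have h1 : (U.subgroupOf V ⊔ W'').map V.subtype = U ⊔ W''.map V.subtype := by
      rw [Subgroup.map_sup, Subgroup.map_subgroupOf_eq_of_le hUV]
    rw [← h1, hW''sup, ← MonoidHom.range_eq_map, Subgroup.range_subtype]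

end Cfsg.Agent.S0660
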