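import Cfsg.Statements.S0685
import Mathlib
-- import your own Cfsg.Agent.* helpers here

set_option autoImplicit false
open Cfsg

namespace Cfsg.Agent.S0685

/-- The key contradiction: a normal abelian self-centralising subgroup `A` of a linear group `H`
regular on the non-zero vectors, with a proper non-zero `A`-invariant subspace, cannot exist. -/
theorem key {p : ℕ} [Fact p.Prime] {V : Type*} [AddCommGroup V] [Module (ZMod p) V] [Finite V]
    (H : Subgroup (V ≃ₗ[ZMod p] V))
    (hreg : ∀ v w : V, v ≠ 0 → w ≠ 0 → ∃! h : H, (h : V ≃ₗ[ZMod p] V) v = w)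
    (A : Subgroup H) (hAn : A.Normal) (hAc : ∀ a ∈ A, ∀ b ∈ A, a * b = b * a)
    (hI : IsCyclic A → ∃ W : Submodule (ZMod p) V, W ≠ ⊥ ∧ W ≠ ⊤ ∧
      ∀ a ∈ A, ∀ v ∈ W, ((a : H) : V ≃ₗ[ZMod p] V) v ∈ W)
    (hC : Subgroup.centralizer (A : Set H) = A) : False := by
  classical
  have hfinL : Finite (V ≃ₗ[ZMod p] V) :=
    Finite.of_injective (fun f : V ≃ₗ[ZMod p] V => (f : V → V)) DFunLike.coe_injective
  have hfinE : Finite (Module.End (ZMod p) V) :=
    Finite.of_injective (fun f : Module.End (ZMod p) V => (f : V → V)) DFunLike.coe_injective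
  -- the embedding into the endomorphism ring
  let emb : H → Module.End (ZMod p) V := fun h => ((h : V ≃ₗ[ZMod p] V) : V →ₗ[ZMod p] V)
  have hemb : ∀ (h : H) (v : V), emb h v = (h : V ≃ₗ[ZMod p] V) v := fun h v => rfl
  have hembmul : ∀ h h' : H, emb (h * h') = emb h * emb h' := by
    intro h h'
    ext v
    rfl
  have hemb1 : emb 1 = 1 := by
    ext v
    rfl
  have hembinv : ∀ h : H, emb h⁻¹ * emb h = 1 := by
    intro h
    rw [← hembmul, inv_mul_cancel, hemb1]
  have hembinv' : ∀ h : H, emb h * emb h⁻¹ = 1 := by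
    intro h
    rw [← hembmul, mul_inv_cancel, hemb1]
  have hembinj : Function.Injective emb := by
    intro h h' e
    apply Subtype.ext
    apply LinearEquiv.ext
    intro v
    exact DFunLike.congr_fun e v
  let S : Set (Module.End (ZMod p) V) := {f | ∃ a ∈ A, f = emb a}
  let R : Subring (Module.End (ZMod p) V) := Subring.closure S
  have hSR : ∀ a ∈ A, emb a ∈ R := fun a ha => Subring.subset_closure ⟨a, ha, rfl⟩
  have hScomm : ∀ x ∈ S, ∀ y ∈ S, x * y = y * x := by
    rintro _ ⟨a, ha, rfl⟩ _ ⟨b, hb, rfl⟩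
    rw [← hembmul, ← hembmul, hAc a ha b hb]
  have hRcommI : IsMulCommutative R := Subring.isMulCommutative_closure hScomm
  have hRcomm : ∀ r ∈ R, ∀ s ∈ R, r * s = s * r := by
    intro r hr s hs
    have h := hRcommI.is_comm.comm (⟨r, hr⟩ : R) ⟨s, hs⟩
    exact congrArg Subtype.val h
  -- H normalises R
  have hconj : ∀ (h : H), ∀ r ∈ R, emb h * r * emb h⁻¹ ∈ R := by
    intro h r hr
    induction hr using Subring.closure_induction with
    | mem x hx =>
      obtain ⟨a, ha, rfl⟩ := hx
      rw [← hembmul, ← hembmul]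
      exact hSR _ (hAn.conj_mem a ha h)
    | zero => rw [mul_zero, zero_mul]; exact R.zero_mem
    | one => rw [mul_one, hembinv']; exact R.one_mem
    | add x y _ _ hx hy => rw [mul_add, add_mul]; exact R.add_mem hx hy
    | neg x _ hx => rw [mul_neg, neg_mul]; exact R.neg_mem hx
    | mul x y _ _ hx hy =>
      have e : emb h * (x * y) * emb h⁻¹ = (emb h * x * emb h⁻¹) * (emb h * y * emb h⁻¹) := by
        calc emb h * (x * y) * emb h⁻¹ = emb h * x * 1 * y * emb h⁻¹ := by
              rw [mul_one, mul_assoc (emb h) x y]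
          _ = emb h * x * (emb h⁻¹ * emb h) * y * emb h⁻¹ := by rw [hembinv]
          _ = (emb h * x * emb h⁻¹) * (emb h * y * emb h⁻¹) := by simp only [mul_assoc]
      rw [e]
      exact R.mul_mem hx hy
  -- a non-zero vector
  have hAcyc_of : IsCyclic A → ∃ v : V, v ≠ 0 := by
    intro hc
    obtain ⟨W, hW0, -, -⟩ := hI hc
    obtain ⟨v, -, hv⟩ := Submodule.exists_mem_ne_zero_of_ne_bot hW0
    exact ⟨v, hv⟩
  by_cases hV : ∃ v : V, v ≠ 0
  swap
  · -- V is trivial: then A is trivial hence cyclic
    push Not at hV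
    have hH : ∀ h : H, h = 1 := by
      intro h
      apply Subtype.ext
      apply LinearEquiv.ext
      intro v
      rw [hV v, map_zero]
      exact (hV _).symm
    have hc : IsCyclic A := by
      refine ⟨⟨1, fun x => ?_⟩⟩
      have : x = 1 := Subtype.ext (hH x)
      rw [this]
      exact (Subgroup.zpowers (1 : A)).one_mem
    obtain ⟨v, hv⟩ := hAcyc_of hc
    exact hv (hV v)
  obtain ⟨v₁, hv₁⟩ := hV
  -- orbits under R
  let orb : V → Set V := fun v => {u | ∃ s ∈ R, s v = u}
  have horb_self : ∀ v, v ∈ orb v := fun v => ⟨1, R.one_mem, rfl⟩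
  -- (a) a vector with irreducible orbit
  have hex : ∃ n, ∃ v : V, v ≠ 0 ∧ (orb v).ncard = n := ⟨_, v₁, hv₁, rfl⟩
  obtain ⟨v₀, hv₀, hn₀⟩ := Nat.find_spec hex
  have hmin : ∀ v : V, v ≠ 0 → (orb v₀).ncard ≤ (orb v).ncard := by
    intro v hv
    rw [hn₀]
    exact Nat.find_min' hex ⟨v, hv, rfl⟩
  have ha : ∀ s ∈ R, s v₀ ≠ 0 → ∃ t ∈ R, t (s v₀) = v₀ := by
    intro s hs hne
    have hsub : orb (s v₀) ⊆ orb v₀ := by
      rintro u ⟨t, ht, rfl⟩
      exact ⟨t * s, R.mul_mem ht hs, rfl⟩
    have heq : orb (s v₀) = orb v₀ :=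
      Set.eq_of_subset_of_ncard_le hsub (hmin _ hne) (Set.toFinite _)
    have h1 : v₀ ∈ orb (s v₀) := heq ▸ horb_self v₀
    exact h1
  -- (b) every non-zero vector has an irreducible orbit
  have hb : ∀ v : V, v ≠ 0 → ∀ s ∈ R, s v ≠ 0 → ∃ t ∈ R, t (s v) = v := by
    intro v hv s hs hne
    obtain ⟨h, hh, -⟩ := hreg v₀ v hv₀ hv
    have hh' : emb h v₀ = v := hh
    have hs' : emb h⁻¹ * s * emb h ∈ R := by
      have := hconj h⁻¹ s hs
      rwa [inv_inv] at this
    have e1 : emb h ((emb h⁻¹ * s * emb h) v₀) = s v := by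
      have : emb h * (emb h⁻¹ * s * emb h) = s * emb h := by
        rw [← mul_assoc, ← mul_assoc, hembinv', one_mul]
      have h2 : (emb h * (emb h⁻¹ * s * emb h)) v₀ = (s * emb h) v₀ := DFunLike.congr_fun this v₀
      have h3 : emb h ((emb h⁻¹ * s * emb h) v₀) = s (emb h v₀) := h2
      rw [hh'] at h3
      exact h3
    have hne' : (emb h⁻¹ * s * emb h) v₀ ≠ 0 := by
      intro h0
      rw [h0, map_zero] at e1
      exact hne e1.symm
    obtain ⟨t', ht', ht'e⟩ := ha _ hs' hne'
    refine ⟨emb h * t' * emb h⁻¹, hconj h t' ht', ?_⟩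
    rw [← e1]
    have : (emb h * t' * emb h⁻¹) (emb h ((emb h⁻¹ * s * emb h) v₀))
        = emb h (t' ((emb h⁻¹ * s * emb h) v₀)) := by
      have h3 : emb h * t' * emb h⁻¹ * emb h = emb h * t' := by
        rw [mul_assoc, hembinv, mul_one]
      have h4 := DFunLike.congr_fun h3 ((emb h⁻¹ * s * emb h) v₀)
      rw [Module.End.mul_apply, Module.End.mul_apply] at h4
      exact h4
    rw [this, ht'e, hh']
  -- (c) an element of R killing a non-zero vector is zero
  have hc : ∀ r ∈ R, ∀ v : V, v ≠ 0 → r v = 0 → ∀ w : V, r w = 0 := by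
    intro r hr v hv hrv w
    by_cases hw : ∃ s ∈ R, s v = w
    · obtain ⟨s, hs, rfl⟩ := hw
      have h1 := DFunLike.congr_fun (hRcomm r hr s hs) v
      rw [Module.End.mul_apply, Module.End.mul_apply, hrv, map_zero] at h1
      exact h1
    · by_contra hrw
      have hu : v + w ≠ 0 := by
        intro h0
        apply hw
        refine ⟨-1, R.neg_mem R.one_mem, ?_⟩
        have : w = -v := (neg_eq_of_add_eq_zero_right h0).symm
        rw [this]
        simp
      have hru : r (v + w) = r w := by rw [map_add, hrv, zero_add]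
      have hru' : r (v + w) ≠ 0 := by rw [hru]; exact hrw
      obtain ⟨t, ht, hte⟩ := hb (v + w) hu r hr hru'
      rw [hru] at hte
      -- v = (t * r - 1) w
      have hv' : (t * r - 1) w = v := by
        show (t * r) w - (1 : Module.End (ZMod p) V) w = v
        rw [Module.End.mul_apply, hte]
        simp
      have hs' : t * r - 1 ∈ R := R.sub_mem (R.mul_mem ht hr) R.one_mem
      have hw0 : w ≠ 0 := by
        intro h0
        apply hrw
        rw [h0, map_zero]
      have hne : (t * r - 1) w ≠ 0 := by rw [hv']; exact hv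
      obtain ⟨t', ht', ht'e⟩ := hb w hw0 _ hs' hne
      rw [hv'] at ht'e
      exact hw ⟨t', ht', ht'e⟩
  -- R is a commutative domain
  let instCR : CommRing R := IsMulCommutative.instCommRing
  have hnzd : NoZeroDivisors R := by
    refine ⟨fun {x y} hxy => ?_⟩
    by_cases hy : y = 0
    · exact Or.inr hy
    · left
      have hy' : (y : Module.End (ZMod p) V) ≠ 0 := fun h => hy (Subtype.ext h)
      obtain ⟨w, hw⟩ : ∃ w : V, (y : Module.End (ZMod p) V) w ≠ 0 := by
        by_contra hcon
        push Not at hcon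
        apply hy'
        ext w
        exact hcon w
      have hxy' : (x : Module.End (ZMod p) V) * (y : Module.End (ZMod p) V) = 0 :=
        congrArg Subtype.val hxy
      have h1 : (x : Module.End (ZMod p) V) ((y : Module.End (ZMod p) V) w) = 0 := by
        have := DFunLike.congr_fun hxy' w
        rwa [Module.End.mul_apply] at this
      apply Subtype.ext
      ext u
      exact hc x x.2 _ hw h1 u
  have hnt : Nontrivial R := by
    refine ⟨⟨0, 1, fun h => ?_⟩⟩
    have h1 : (0 : Module.End (ZMod p) V) = 1 := congrArg Subtype.val h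
    have h2 := DFunLike.congr_fun h1 v₁
    exact hv₁ h2.symm
  have hdom : IsDomain R := NoZeroDivisors.to_isDomain R
  -- A is cyclic
  let f : A →* R :=
    { toFun := fun a => ⟨emb (a : H), hSR _ a.2⟩
      map_one' := Subtype.ext hemb1
      map_mul' := fun a b => Subtype.ext (hembmul _ _) }
  have hfinj : Function.Injective f := by
    intro a b h
    have h1 : emb (a : H) = emb (b : H) := congrArg Subtype.val h
    exact Subtype.ext (hembinj h1)
  have hcyc : IsCyclic A := isCyclic_of_injective_ringHom f hfinj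
  obtain ⟨W, hW0, hW1, hWA⟩ := hI hcyc
  have hWR : ∀ r ∈ R, ∀ v ∈ W, r v ∈ W := by
    intro r hr
    induction hr using Subring.closure_induction with
    | mem x hx =>
      obtain ⟨a, ha, rfl⟩ := hx
      exact fun v hv => hWA a ha v hv
    | zero => exact fun v _ => W.zero_mem
    | one => exact fun v hv => hv
    | add x y _ _ hx hy => exact fun v hv => W.add_mem (hx v hv) (hy v hv)
    | neg x _ hx => exact fun v hv => W.neg_mem (hx v hv)
    | mul x y _ _ hx hy => exact fun v hv => hx _ (hy v hv)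
  obtain ⟨w, hwW, hw0⟩ := Submodule.exists_mem_ne_zero_of_ne_bot hW0
  obtain ⟨v, hvW⟩ : ∃ v : V, v ∉ W := by
    by_contra hcon
    push Not at hcon
    exact hW1 (eq_top_iff.2 fun x _ => hcon x)
  have hv0 : v ≠ 0 := fun h => hvW (h ▸ W.zero_mem)
  -- |R|² ≤ |V|
  have hcard1 : Nat.card R * Nat.card R ≤ Nat.card V := by
    rw [← Nat.card_prod]
    apply Nat.card_le_card_of_injective
      (fun q : R × R => (q.1 : Module.End (ZMod p) V) w + (q.2 : Module.End (ZMod p) V) v)
    rintro ⟨r, s⟩ ⟨r', s'⟩ h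
    have h1 : ((r : Module.End (ZMod p) V) - r') w + ((s : Module.End (ZMod p) V) - s') v = 0 := by
      have h' : (r : Module.End (ZMod p) V) w + (s : Module.End (ZMod p) V) v
          = (r' : Module.End (ZMod p) V) w + (s' : Module.End (ZMod p) V) v := h
      show ((r : Module.End (ZMod p) V) w - (r' : Module.End (ZMod p) V) w)
        + ((s : Module.End (ZMod p) V) v - (s' : Module.End (ZMod p) V) v) = 0
      rw [sub_add_sub_comm, h', sub_self]
    have hx : (r : Module.End (ZMod p) V) - r' ∈ R := R.sub_mem r.2 r'.2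
    have hy : (s : Module.End (ZMod p) V) - s' ∈ R := R.sub_mem s.2 s'.2
    have hy0 : ((s : Module.End (ZMod p) V) - s') v = 0 := by
      by_contra hne
      obtain ⟨t, ht, hte⟩ := hb v hv0 _ hy hne
      apply hvW
      have h2 : ((s : Module.End (ZMod p) V) - s') v = -(((r : Module.End (ZMod p) V) - r') w) :=
        eq_neg_of_add_eq_zero_right h1
      rw [h2] at hte
      rw [← hte, map_neg]
      exact W.neg_mem (hWR t ht _ (hWR _ hx w hwW))
    have hx0 : ((r : Module.End (ZMod p) V) - r') w = 0 := by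
      rw [hy0, add_zero] at h1
      exact h1
    have e1 : (r : Module.End (ZMod p) V) = r' := by
      have : (r : Module.End (ZMod p) V) - r' = 0 := by
        ext u
        exact hc _ hx w hw0 hx0 u
      exact sub_eq_zero.1 this
    have e2 : (s : Module.End (ZMod p) V) = s' := by
      have : (s : Module.End (ZMod p) V) - s' = 0 := by
        ext u
        exact hc _ hy v hv0 hy0 u
      exact sub_eq_zero.1 this
    exact Prod.ext (Subtype.ext e1) (Subtype.ext e2)
  -- |A| + 1 ≤ |R|
  have hfinA : Finite A := inferInstance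
  have hcard2 : Nat.card A + 1 ≤ Nat.card R := by
    rw [← Finite.card_option]
    apply Nat.card_le_card_of_injective (fun o : Option A => o.elim (0 : R) f)
    have hf0 : ∀ a : A, f a ≠ 0 := by
      intro a h0
      have h1 : emb (a : H) = 0 := congrArg Subtype.val h0
      have h2 := DFunLike.congr_fun h1 v₁
      rw [hemb] at h2
      have h3 : ((a : H) : V ≃ₗ[ZMod p] V) v₁ = ((a : H) : V ≃ₗ[ZMod p] V) 0 := by
        rw [h2, map_zero]; rfl
      exact hv₁ (((a : H) : V ≃ₗ[ZMod p] V).injective h3)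
    rintro (_ | a) (_ | b) h
    · rfl
    · exact absurd h.symm (hf0 b)
    · exact absurd h (hf0 a)
    · exact congrArg some (hfinj h)
  -- |H| + 1 = |V|
  have hfinH : Finite H := inferInstance
  have hcard3 : Nat.card H + 1 = Nat.card V := by
    rw [← Finite.card_option]
    apply Nat.card_congr
    refine Equiv.ofBijective
      (fun o : Option H => o.elim (0 : V) (fun h => (h : V ≃ₗ[ZMod p] V) v₁)) ⟨?_, ?_⟩
    · have hne : ∀ h : H, (h : V ≃ₗ[ZMod p] V) v₁ ≠ 0 := by
        intro h h0
        have h3 : (h : V ≃ₗ[ZMod p] V) v₁ = (h : V ≃ₗ[ZMod p] V) 0 := by rw [h0, map_zero]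
        exact hv₁ ((h : V ≃ₗ[ZMod p] V).injective h3)
      rintro (_ | a) (_ | b) h
      · rfl
      · exact absurd h.symm (hne b)
      · exact absurd h (hne a)
      · have h' : (a : V ≃ₗ[ZMod p] V) v₁ = (b : V ≃ₗ[ZMod p] V) v₁ := h
        have hne' := hne b
        exact congrArg some ((hreg v₁ _ hv₁ hne').unique h' rfl)
    · intro u
      by_cases hu : u = 0
      · exact ⟨none, hu.symm⟩
      · obtain ⟨h, hh, -⟩ := hreg v₁ u hv₁ hu
        exact ⟨some h, hh⟩
  -- |H| ≤ |A|²
  have hcard4 : Nat.card H ≤ Nat.card A * Nat.card A := by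
    have := hAn
    let φ : H →* MulAut A := MulAut.conjNormal
    have hker : φ.ker = A := by
      refine Eq.trans ?_ hC
      ext h
      rw [MonoidHom.mem_ker, Subgroup.mem_centralizer_iff]
      constructor
      · intro hh a ha
        have h1 := DFunLike.congr_fun hh ⟨a, ha⟩
        have h2 : h * a * h⁻¹ = a := by
          have := congrArg Subtype.val h1
          rwa [MulAut.conjNormal_apply] at this
        exact (mul_inv_eq_iff_eq_mul.1 h2).symm
      · intro hh
        apply MulEquiv.ext
        intro a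
        apply Subtype.ext
        rw [MulAut.conjNormal_apply]
        show h * (a : H) * h⁻¹ = a
        rw [← hh a a.2, mul_inv_cancel_right]
    have h1 := Subgroup.card_mul_index φ.ker
    rw [Subgroup.index_ker, hker] at h1
    rw [← h1]
    apply Nat.mul_le_mul_left
    obtain ⟨g, hg⟩ := hcyc.exists_generator
    have h2 : Nat.card φ.range ≤ Nat.card (MulAut A) := Subgroup.card_le_card_group _
    have hfinM : Finite (MulAut A) :=
      Finite.of_injective (fun σ : MulAut A => (σ : A → A)) DFunLike.coe_injective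
    have h3 : Nat.card (MulAut A) ≤ Nat.card A := by
      apply Nat.card_le_card_of_injective (fun σ : MulAut A => σ g)
      intro σ τ hστ
      have hστ' : σ g = τ g := hστ
      ext x
      obtain ⟨n, rfl⟩ := Subgroup.mem_zpowers_iff.1 (hg x)
      rw [map_zpow, map_zpow, hστ']
    exact h2.trans h3
  have hpos : 0 < Nat.card A := Nat.card_pos
  nlinarith [hcard1, hcard2, hcard3, hcard4, hpos]

/-- In a linear group over the prime field that is regular on non-zero vectors and has no irreducible cyclic normal subgroup, a maximal normal abelian subgroup is properly contained in its centraliser, which is non-abelian. -/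
theorem result {p : ℕ} [Fact p.Prime] {V : Type*} [AddCommGroup V] [Module (ZMod p) V] [Finite V] (H : Subgroup (V ≃ₗ[ZMod p] V)) (hreg : ∀ v w : V, v ≠ 0 → w ≠ 0 → ∃! h : H, (h : V ≃ₗ[ZMod p] V) v = w) (hI : ∀ A : Subgroup H, A.Normal → IsCyclic A → ∃ W : Submodule (ZMod p) V, W ≠ ⊥ ∧ W ≠ ⊤ ∧ ∀ a ∈ A, ∀ v ∈ W, ((a : H) : V ≃ₗ[ZMod p] V) v ∈ W) (A : Subgroup H) (hAn : A.Normal) (hAc : IsMulCommutative A) (hAmax : ∀ B : Subgroup H, B.Normal → IsMulCommutative B → A ≤ B → B = A) : A < Subgroup.centralizer (A : Set H) ∧ ¬ IsMulCommutative (Subgroup.centralizer (A : Set H)) := by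
  have hAc' : ∀ a ∈ A, ∀ b ∈ A, a * b = b * a := by
    intro a ha b hb
    have h := hAc.is_comm.comm (⟨a, ha⟩ : A) ⟨b, hb⟩
    exact congrArg Subtype.val h
  have hle : A ≤ Subgroup.centralizer (A : Set H) := by
    intro a ha
    rw [Subgroup.mem_centralizer_iff]
    intro b hb
    exact hAc' b hb a ha
  have hne : Subgroup.centralizer (A : Set H) ≠ A := fun hC =>
    key H hreg A hAn hAc' (hI A hAn) hC
  refine ⟨lt_of_le_of_ne hle (Ne.symm hne), ?_⟩
  intro hcomm
  have := hAn
  exact hne (hAmax _ Subgroup.normal_centralizer hcomm hle)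

end Cfsg.Agent.S0685
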