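import Cfsg.Statements.S0688
import Mathlib
import Cfsg.Agent.S0685
import Cfsg.Agent.Lib.Helper12.MinQuat
import Cfsg.Agent.Lib.Helper12.QuatReg

set_option autoImplicit false
open Cfsg

namespace Cfsg.Agent.S0688

theorem prime_cases {p : ℕ} (hp : p.Prime) (h2 : p ≠ 2) (hdvd : p + 1 ∣ 24) :
    p = 3 ∨ p = 5 ∨ p = 7 ∨ p = 11 ∨ p = 23 := by
  have h23 : p ≤ 23 := by
    have := Nat.le_of_dvd (by norm_num) hdvd
    omega
  interval_cases p
  all_goals first | omega | (exfalso; norm_num at hp)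

/-- Degrees of the soluble exceptional sharply doubly transitive groups: if a solvable linear group over the prime field is regular on the non-zero vectors of `V` and has no irreducible cyclic normal subgroup, then `V` has 25, 49, 121 or 529 elements. -/
theorem result {p : ℕ} [Fact p.Prime] {V : Type*} [AddCommGroup V] [Module (ZMod p) V] [Finite V] (H : Subgroup (V ≃ₗ[ZMod p] V)) (hreg : ∀ v w : V, v ≠ 0 → w ≠ 0 → ∃! h : H, (h : V ≃ₗ[ZMod p] V) v = w) (hI : ∀ A : Subgroup H, A.Normal → IsCyclic A → ∃ W : Submodule (ZMod p) V, W ≠ ⊥ ∧ W ≠ ⊤ ∧ ∀ a ∈ A, ∀ v ∈ W, ((a : H) : V ≃ₗ[ZMod p] V) v ∈ W) (hsolv : Group.IsSolvable H) : Nat.card V = 25 ∨ Nat.card V = 49 ∨ Nat.card V = 121 ∨ Nat.card V = 529 := by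
  classical
  open Cfsg.Agent.Lib.Helper12.FpfLin Cfsg.Agent.Lib.Helper12.MinQuat
    Cfsg.Agent.Lib.Helper12.QuatReg in
  haveI : Nontrivial V := by
    obtain ⟨W, hW0, hW1, -⟩ := hI ⊥ inferInstance inferInstance
    by_contra h
    rw [not_nontrivial_iff_subsingleton] at h
    exact hW0 (by ext x; simp [Subsingleton.elim x 0])
  have hf := fpf_of_reg H hreg
  haveI : Finite H := finite_of_fpf hf
  obtain ⟨A, hAn, hAc, hAmax⟩ := exists_max_abelian H
  obtain ⟨hlt, hCna⟩ := Cfsg.Agent.S0685.result H hreg hI A hAn hAc hAmax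
  haveI := hAn
  obtain ⟨N, hNn, hNle, hNna, hNmin⟩ :=
    exists_min_nonabelian (Subgroup.centralizer (A : Set H)) inferInstance hCna
  haveI := hNn
  have hcen := cen_of_min A hAn hAc hAmax N hNle hNmin
  have hNna' : ¬ ∀ a ∈ N, ∀ b ∈ N, a * b = b * a := fun h => hNna ((comm_iff N).2 h)
  have hder : ⁅N, N⁆ ≠ N := by
    haveI := hsolv
    have hNbot : N ≠ ⊥ := by
      rintro rfl
      exact hNna' (fun a ha b hb => by rw [Subgroup.mem_bot.1 ha, Subgroup.mem_bot.1 hb])
    exact (Group.IsSolvable.commutator_lt_of_ne_bot hNbot).ne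
  obtain ⟨e⟩ := quat_of_min N (fun B hB => abelian_isCyclic hf B hB) hcen hNna' hder
  obtain ⟨h2, hcard, hdvd⟩ := quat_normal H hreg N hNn e
  have hp2 : p ≠ 2 := fun h => h2 (by
    have h3 := (ZMod.natCast_eq_zero_iff 2 p).2 (by rw [h])
    exact_mod_cast h3)
  have hp3 : p ≠ 3 := by
    intro hp3
    have hV9 : Nat.card V = 9 := by rw [hcard, hp3]; norm_num
    have hH8 : Nat.card H = 8 := by
      have h3 := card_of_reg H hreg
      omega
    have hN8 : Nat.card N = 8 := by
      rw [Nat.card_congr e.toEquiv, Nat.card_eq_fintype_card, QuaternionGroup.card]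
    have hNtop : N = ⊤ := Subgroup.eq_top_of_card_eq N (by rw [hN8, hH8])
    let e' : H ≃* QuaternionGroup 2 :=
      (Subgroup.topEquiv.symm.trans (MulEquiv.subgroupCongr hNtop.symm)).trans e
    obtain ⟨B, hBn, hBc, hAB, b, hb, k, hbk⟩ := q8_no_central_max e' A (fun x hx k => by
      have hk : k ∈ N := by rw [hNtop]; trivial
      exact Subgroup.mem_centralizer_iff.1 (hNle hk) x hx)
    have hBA := hAmax B hBn hBc hAB
    rw [hBA] at hb
    have hk : k ∈ N := by rw [hNtop]; trivial
    exact hbk (Subgroup.mem_centralizer_iff.1 (hNle hk) b hb)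
  rcases prime_cases (Fact.out : p.Prime) hp2 hdvd with h | h | h | h | h
  · exact absurd h hp3
  · left; rw [hcard, h]; norm_num
  · right; left; rw [hcard, h]; norm_num
  · right; right; left; rw [hcard, h]; norm_num
  · right; right; right; rw [hcard, h]; norm_num

end Cfsg.Agent.S0688
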