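import Mathlib
import Cfsg.Statements.S0729
import Cfsg.Agent.Lib.Helper52.S3TIdx2
import Cfsg.Agent.Lib.Helper52.S3TPerm

set_option autoImplicit false
open Cfsg

namespace Cfsg.Agent.S0729

open Cfsg.Agent.Lib.Helper52

/-- In a sharply triply transitive group of even degree at least 6, the two-point stabiliser `H = G_{a,b}` has a normal subgroup of index 2 that is normalised by the element `s` interchanging `a, b` and fixing a third point `c`. -/
theorem result {α : Type*} [Fintype α] [DecidableEq α] (heven : Even (Fintype.card α)) (h6 : 6 ≤ Fintype.card α) (G : Subgroup (Equiv.Perm α)) (h3 : MulAction.IsMultiplyPretransitive G α 3) (hsharp : ∀ x : Fin 3 ↪ α, MulAction.stabilizer G x = ⊥) {a b c : α} (hab : a ≠ b) (hac : a ≠ c) (hbc : b ≠ c) (s : G) (hsa : s • a = b) (hsb : s • b = a) (hsc : s • c = c) : ∃ N : Subgroup G, N ≤ MulAction.stabilizer G a ⊓ MulAction.stabilizer G b ∧ (N.subgroupOf (MulAction.stabilizer G a ⊓ MulAction.stabilizer G b)).Normal ∧ N.relIndex (MulAction.stabilizer G a ⊓ MulAction.stabilizer G b) = 2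 ∧ ∀ n ∈ N, s * n * s⁻¹ ∈ N := by
  have hfix' : ∀ (g : G) (x y z : α), x ≠ y → x ≠ z → y ≠ z → g • x = x → g • y = y →
      g • z = z → g = 1 := by
    intro g x y z hxy hxz hyz hx hy hz
    have hmem : g ∈ MulAction.stabilizer G (S3TPerm.emb3 x y z hxy hxz hyz) := by
      rw [MulAction.mem_stabilizer_iff]
      apply DFunLike.ext
      intro i
      fin_cases i
      · exact hx
      · exact hy
      · exact hz
    rw [hsharp, Subgroup.mem_bot] at hmem
    exact hmem
  have hcardα : Nat.card α = Fintype.card α := Nat.card_eq_fintype_card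
  exact S3TIdx2.exists_N (G := G) (Ω := α) (S3TPerm.three_trans_of_pretransitive h3) hfix'
    (by rw [hcardα]; exact heven) (by rw [hcardα]; exact h6) a b c hab hac hbc s hsa hsb hsc

end Cfsg.Agent.S0729
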