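import Cfsg.Statements.S0741
import Cfsg.Agent.Lib.Helper13.Zass

set_option autoImplicit false
open Cfsg

namespace Cfsg.Agent.S0741

open Cfsg.Agent.Lib.Helper13

/-- If the two-point stabilisers of a finite Zassenhaus group of degree `n + 1` have even order `d`, then `2d ≥ n - 1`. -/
theorem result {G Ω : Type*} [Group G] [Finite G] [MulAction G Ω] [Fintype Ω] (hZ : Cfsg.IsZassenhausGroup G Ω) {a b : Ω} (hab : a ≠ b) (heven : Even (Nat.card ↥(MulAction.stabilizer G a ⊓ MulAction.stabilizer G b))) : Fintype.card Ω - 2 ≤ 2 * Nat.card ↥(MulAction.stabilizer G a ⊓ MulAction.stabilizer G b) := by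
  classical
  haveI : Fintype G := Fintype.ofFinite G
  haveI : Fact (Nat.Prime 2) := ⟨Nat.prime_two⟩
  obtain ⟨z', hz'⟩ := exists_prime_orderOf_dvd_card'
    (G := ↥(MulAction.stabilizer G a ⊓ MulAction.stabilizer G b)) 2 heven.two_dvd
  have hzo : orderOf (z' : G) = 2 := by rw [Subgroup.orderOf_coe]; exact hz'
  obtain ⟨hz2, hz1⟩ := (Zass.order_two_iff (z' : G)).1 hzo
  have hza : (z' : G) • a = a := (Subgroup.mem_inf.1 z'.2).1
  have hzb : (z' : G) • b = b := (Subgroup.mem_inf.1 z'.2).2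
  generalize (z' : G) = z at hz2 hz1 hza hzb
  have hfix : ∀ c : Ω, z • c = c → c = a ∨ c = b := by
    intro c hc
    by_contra hcon
    rw [not_or] at hcon
    exact hz1 (hZ.2.2.1 z a b c hab (Ne.symm hcon.2) (Ne.symm hcon.1) hza hzb hc)
  have h2 := hZ.2.1
  rw [MulAction.is_two_pretransitive_iff] at h2
  have hex : ∀ x y : Ω, ∃ g : G, x ≠ y → g • a = x ∧ g • b = y := by
    intro x y
    by_cases hxy : x = y
    · exact ⟨1, fun h => absurd hxy h⟩
    · obtain ⟨g, hg⟩ := h2 hab hxy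
      exact ⟨g, fun _ => hg⟩
  choose γ hγ using hex
  have hζfix : ∀ x y : Ω, x ≠ y → ∀ c : Ω, (γ x y * z * (γ x y)⁻¹) • c = c → c = x ∨ c = y := by
    intro x y hxy c hc
    rw [mul_smul, mul_smul] at hc
    have h1 : z • ((γ x y)⁻¹ • c) = (γ x y)⁻¹ • c := (smul_eq_iff_eq_inv_smul _).1 hc
    rcases hfix _ h1 with h | h
    · left
      rw [inv_smul_eq_iff] at h
      rw [h]
      exact (hγ x y hxy).1
    · right
      rw [inv_smul_eq_iff] at h
      rw [h]
      exact (hγ x y hxy).2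
  have hζself : ∀ x y : Ω, x ≠ y → (γ x y * z * (γ x y)⁻¹) • x = x ∧
      (γ x y * z * (γ x y)⁻¹) • y = y := by
    intro x y hxy
    have h1 : (γ x y)⁻¹ • x = a := by rw [inv_smul_eq_iff]; exact (hγ x y hxy).1.symm
    have h2 : (γ x y)⁻¹ • y = b := by rw [inv_smul_eq_iff]; exact (hγ x y hxy).2.symm
    constructor
    · rw [mul_smul, mul_smul, h1, hza, (hγ x y hxy).1]
    · rw [mul_smul, mul_smul, h2, hzb, (hγ x y hxy).2]
  let P : Finset (Ω × Ω) := Finset.univ.filter (fun p => p.1 ≠ p.2)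
  let W₀ : Finset Ω := (Finset.univ.erase a).erase b
  let Sf : Finset G := Finset.univ.filter (fun t => t * t = 1 ∧ t • a = b)
  let Φ : (Ω × Ω) × Ω → (Ω × Ω) × G := fun q =>
    ((γ q.1.1 q.1.2 • q.2, γ q.1.1 q.1.2 • (z • q.2)),
      (γ (γ q.1.1 q.1.2 • q.2) (γ q.1.1 q.1.2 • (z • q.2)))⁻¹ *
        (γ q.1.1 q.1.2 * z * (γ q.1.1 q.1.2)⁻¹) *
        γ (γ q.1.1 q.1.2 • q.2) (γ q.1.1 q.1.2 • (z • q.2)))
  have hPmem : ∀ p : Ω × Ω, p ∈ P ↔ p.1 ≠ p.2 := by
    intro p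
    simp [P]
  have hWmem : ∀ w : Ω, w ∈ W₀ ↔ w ≠ b ∧ w ≠ a := by
    intro w
    simp [W₀]
  have hSmem : ∀ t : G, t ∈ Sf ↔ t * t = 1 ∧ t • a = b := by
    intro t
    simp [Sf]
  have hmaps : ∀ q ∈ P ×ˢ W₀, Φ q ∈ P ×ˢ Sf := by
    rintro ⟨⟨x, y⟩, w₀⟩ hq
    rw [Finset.mem_product, hPmem, hWmem] at hq
    obtain ⟨hxy, hwb, hwa⟩ := hq
    have hzw : z • w₀ ≠ w₀ := fun h => by
      rcases hfix w₀ h with h | h
      · exact hwa h
      · exact hwb h
    have hne : γ x y • w₀ ≠ γ x y • (z • w₀) := fun h => hzw (MulAction.injective _ h).symm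
    rw [Finset.mem_product, hPmem, hSmem]
    refine ⟨hne, ?_, ?_⟩
    · change (γ (γ x y • w₀) (γ x y • (z • w₀)))⁻¹ * (γ x y * z * (γ x y)⁻¹) *
        γ (γ x y • w₀) (γ x y • (z • w₀)) * ((γ (γ x y • w₀) (γ x y • (z • w₀)))⁻¹ *
        (γ x y * z * (γ x y)⁻¹) * γ (γ x y • w₀) (γ x y • (z • w₀))) = 1
      generalize γ (γ x y • w₀) (γ x y • (z • w₀)) = u
      generalize γ x y = g
      calc u⁻¹ * (g * z * g⁻¹) * u * (u⁻¹ * (g * z * g⁻¹) * u)
          = u⁻¹ * (g * (z * z) * g⁻¹) * u := by group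
        _ = 1 := by rw [hz2]; group
    · change ((γ (γ x y • w₀) (γ x y • (z • w₀)))⁻¹ * (γ x y * z * (γ x y)⁻¹) *
        γ (γ x y • w₀) (γ x y • (z • w₀))) • a = b
      rw [mul_smul, mul_smul, (hγ _ _ hne).1, mul_smul, mul_smul, inv_smul_smul, inv_smul_eq_iff,
        (hγ _ _ hne).2]
  have hfiber : ∀ r ∈ P ×ˢ Sf, ((P ×ˢ W₀).filter (fun q => Φ q = r)).card ≤ 2 := by
    rintro ⟨⟨u, v⟩, τ⟩ hr
    by_cases hemp : ((P ×ˢ W₀).filter (fun q => Φ q = ((u, v), τ))) = ∅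
    · rw [hemp]
      simp
    obtain ⟨⟨⟨x, y⟩, w₀⟩, hq⟩ := Finset.nonempty_of_ne_empty hemp
    rw [Finset.mem_filter, Finset.mem_product, hPmem] at hq
    obtain ⟨⟨hxy, -⟩, hqΦ⟩ := hq
    have hΦ1 : γ x y • w₀ = u := congrArg (fun r => r.1.1) hqΦ
    have hΦ2 : γ x y • (z • w₀) = v := congrArg (fun r => r.1.2) hqΦ
    have hΦ3 : (γ (γ x y • w₀) (γ x y • (z • w₀)))⁻¹ * (γ x y * z * (γ x y)⁻¹) *
        γ (γ x y • w₀) (γ x y • (z • w₀)) = τ := congrArg (fun r => r.2) hqΦ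
    rw [hΦ1, hΦ2] at hΦ3
    have hζ : γ x y * z * (γ x y)⁻¹ = γ u v * τ * (γ u v)⁻¹ := by
      rw [← hΦ3]
      group
    have hsub : ((P ×ˢ W₀).filter (fun q => Φ q = ((u, v), τ))) ⊆
        {((x, y), w₀), ((y, x), (γ y x)⁻¹ • u)} := by
      rintro ⟨⟨x', y'⟩, w₀'⟩ hq'
      rw [Finset.mem_filter, Finset.mem_product, hPmem] at hq'
      obtain ⟨⟨hxy', -⟩, hqΦ'⟩ := hq'
      have hΦ1' : γ x' y' • w₀' = u := congrArg (fun r => r.1.1) hqΦ'
      have hΦ2' : γ x' y' • (z • w₀') = v := congrArg (fun r => r.1.2) hqΦ'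
      have hΦ3' : (γ (γ x' y' • w₀') (γ x' y' • (z • w₀')))⁻¹ * (γ x' y' * z * (γ x' y')⁻¹) *
          γ (γ x' y' • w₀') (γ x' y' • (z • w₀')) = τ := congrArg (fun r => r.2) hqΦ'
      rw [hΦ1', hΦ2'] at hΦ3'
      have hζ' : γ x' y' * z * (γ x' y')⁻¹ = γ x y * z * (γ x y)⁻¹ := by
        rw [hζ, ← hΦ3']
        group
      have hx' := (hζself x' y' hxy').1
      have hy' := (hζself x' y' hxy').2
      rw [hζ'] at hx' hy'
      have hw₀ : w₀ = (γ x y)⁻¹ • u := by rw [← hΦ1, inv_smul_smul]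
      have hw₀' : w₀' = (γ x' y')⁻¹ • u := by rw [← hΦ1', inv_smul_smul]
      simp only [Finset.mem_insert, Finset.mem_singleton, Prod.mk.injEq]
      rcases hζfix x y hxy x' hx' with h1 | h1 <;> rcases hζfix x y hxy y' hy' with h2' | h2'
      · exact absurd (h1.trans h2'.symm) hxy'
      · left
        subst h1 h2'
        exact ⟨⟨rfl, rfl⟩, hw₀'.trans hw₀.symm⟩
      · right
        subst h1 h2'
        exact ⟨⟨rfl, rfl⟩, hw₀'⟩
      · exact absurd (h1.trans h2'.symm) hxy'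
    exact (Finset.card_le_card hsub).trans Finset.card_le_two
  have hcard := Finset.card_le_mul_card_image_of_maps_to hmaps 2 hfiber
  rw [Finset.card_product, Finset.card_product] at hcard
  have hW : W₀.card = Fintype.card Ω - 2 := by
    have hb : b ∈ (Finset.univ : Finset Ω).erase a := by simp [Ne.symm hab]
    rw [Finset.card_erase_of_mem hb, Finset.card_erase_of_mem (Finset.mem_univ a),
      Finset.card_univ]
    omega
  have hPpos : 0 < P.card := Finset.card_pos.2 ⟨(a, b), (hPmem _).2 hab⟩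
  have hS : Sf.card ≤ Nat.card ↥(MulAction.stabilizer G a ⊓ MulAction.stabilizer G b) := by
    have hsa := (hγ b a (Ne.symm hab)).1
    have hsb := (hγ b a (Ne.symm hab)).2
    have hmem : ∀ t ∈ Sf, (γ b a)⁻¹ * t ∈ MulAction.stabilizer G a ⊓ MulAction.stabilizer G b := by
      intro t ht
      rw [hSmem] at ht
      have htb : t • b = a := by
        rw [← ht.2, smul_smul, ht.1, one_smul]
      rw [Subgroup.mem_inf, MulAction.mem_stabilizer_iff, MulAction.mem_stabilizer_iff]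
      constructor
      · rw [mul_smul, ht.2, inv_smul_eq_iff, hsa]
      · rw [mul_smul, htb, inv_smul_eq_iff, hsb]
    rw [Nat.card_eq_fintype_card, ← Finset.card_univ]
    refine Finset.card_le_card_of_injOn (fun t => if h : t ∈ Sf then ⟨(γ b a)⁻¹ * t, hmem t h⟩
      else 1) (fun _ _ => Finset.mem_univ _) ?_
    intro t ht t' ht' htt
    simp only [Finset.mem_coe] at ht ht'
    simp only [dif_pos ht, dif_pos ht'] at htt
    have := congrArg Subtype.val htt
    exact mul_left_cancel this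
  have h3 : P.card * (Fintype.card Ω - 2) ≤ P.card * (2 * Sf.card) := by
    rw [hW] at hcard
    calc P.card * (Fintype.card Ω - 2) ≤ 2 * (P.card * Sf.card) := hcard
      _ = P.card * (2 * Sf.card) := by ring
  have h4 : Fintype.card Ω - 2 ≤ 2 * Sf.card := Nat.le_of_mul_le_mul_left h3 hPpos
  omega

end Cfsg.Agent.S0741
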