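import Cfsg.Statements.S0769
import Mathlib

set_option autoImplicit false
open Cfsg

namespace Cfsg.Agent.S0769

open Matrix

theorem cardQ {F : Type*} [Field F] [Fintype F] (n : ℕ) (i j : Fin n) :
    Nat.card {x : F // (i < j → x = 0) ∧ (j = i → x ≠ 0)} =
      (if j = i then Fintype.card F - 1 else 1) * (if j < i then Fintype.card F else 1) := by
  classical
  rcases lt_trichotomy i j with h | h | h
  · have e : {x : F // (i < j → x = 0) ∧ (j = i → x ≠ 0)} ≃ Unit :=
      { toFun := fun _ => ()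
        invFun := fun _ => ⟨0, fun _ => rfl, fun h' => absurd h'.symm (ne_of_lt h)⟩
        left_inv := by
          rintro ⟨x, hx, -⟩
          exact Subtype.ext (hx h).symm
        right_inv := fun _ => rfl }
    rw [Nat.card_congr e, if_neg (ne_of_gt h), if_neg (not_lt_of_gt h)]
    simp
  · subst h
    have e : {x : F // (i < i → x = 0) ∧ (i = i → x ≠ 0)} ≃ {x : F // x ≠ 0} :=
      Equiv.subtypeEquivRight (fun x => ⟨fun hx => hx.2 rfl,
        fun hx => ⟨fun h' => absurd h' (lt_irrefl i), fun _ => hx⟩⟩)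
    rw [Nat.card_congr e, if_pos rfl, if_neg (lt_irrefl i), mul_one, Nat.card_eq_fintype_card]
    exact Set.card_ne_eq (0 : F)
  · have e : {x : F // (i < j → x = 0) ∧ (j = i → x ≠ 0)} ≃ F :=
      { toFun := fun x => x.1
        invFun := fun x => ⟨x, fun h' => absurd h' (not_lt_of_gt h),
          fun h' => absurd h' (ne_of_lt h)⟩
        left_inv := fun x => rfl
        right_inv := fun x => rfl }
    rw [Nat.card_congr e, if_neg (ne_of_lt h), if_pos h, one_mul, Nat.card_eq_fintype_card]

/-- Order of the Borel subgroup of GL_n(q): the invertible lower-triangular n × n matrices over a field with q elements number q^(n(n-1)/2) (q-1)^n (unitriangular part times the diagonal torus). -/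
theorem result {F : Type*} [Field F] [Fintype F] {q : ℕ} (hF : Fintype.card F = q) (n : ℕ) : Nat.card {g : Matrix.GeneralLinearGroup (Fin n) F // ∀ i j : Fin n, i < j → (g : Matrix (Fin n) (Fin n) F) i j = 0} = q ^ (n * (n - 1) / 2) * (q - 1) ^ n := by
  classical
  have e1 : {g : GL (Fin n) F // ∀ i j : Fin n, i < j → (g : Matrix (Fin n) (Fin n) F) i j = 0} ≃
      {M : Fin n → Fin n → F // ∀ i, ∀ j, (i < j → M i j = 0) ∧ (j = i → M i j ≠ 0)} :=
    { toFun := fun g => ⟨fun i j => (g.1 : Matrix (Fin n) (Fin n) F) i j, fun i j => ⟨g.2 i j, by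
        rintro rfl
        have hdet : ((g.1 : GL (Fin n) F) : Matrix (Fin n) (Fin n) F).det ≠ 0 :=
          (Matrix.isUnits_det_units g.1).ne_zero
        rw [Matrix.det_of_isLowerTriangular _ (fun a b hab => g.2 a b hab)] at hdet
        exact fun h0 => hdet (Finset.prod_eq_zero (Finset.mem_univ j) h0)⟩⟩
      invFun := fun M => ⟨Matrix.GeneralLinearGroup.mkOfDetNeZero (Matrix.of M.1) (by
          rw [Matrix.det_of_isLowerTriangular (Matrix.of M.1) (fun a b hab => (M.2 a b).1 hab)]
          exact Finset.prod_ne_zero_iff.2 (fun i _ => (M.2 i i).2 rfl)),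
          fun i j hij => (M.2 i j).1 hij⟩
      left_inv := fun g => Subtype.ext (Units.ext rfl)
      right_inv := fun M => rfl }
  rw [Nat.card_congr e1]
  have e2 : {M : Fin n → Fin n → F // ∀ i, ∀ j, (i < j → M i j = 0) ∧ (j = i → M i j ≠ 0)} ≃
      ∀ i : Fin n, {r : Fin n → F // ∀ j, (i < j → r j = 0) ∧ (j = i → r j ≠ 0)} :=
    Equiv.subtypePiEquivPi (β := fun _ : Fin n => Fin n → F)
      (p := fun i r => ∀ j, (i < j → r j = 0) ∧ (j = i → r j ≠ 0))
  rw [Nat.card_congr e2, Nat.card_pi]
  have e3 : ∀ i : Fin n, {r : Fin n → F // ∀ j, (i < j → r j = 0) ∧ (j = i → r j ≠ 0)} ≃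
      ∀ j : Fin n, {x : F // (i < j → x = 0) ∧ (j = i → x ≠ 0)} :=
    fun i => Equiv.subtypePiEquivPi (β := fun _ : Fin n => F)
      (p := fun j x => (i < j → x = 0) ∧ (j = i → x ≠ 0))
  have h4 : ∀ i : Fin n,
      Nat.card {r : Fin n → F // ∀ j, (i < j → r j = 0) ∧ (j = i → r j ≠ 0)} =
        (q - 1) * q ^ (i : ℕ) := by
    intro i
    rw [Nat.card_congr (e3 i), Nat.card_pi]
    simp_rw [cardQ, hF]
    rw [Finset.prod_mul_distrib, Finset.prod_ite_eq', if_pos (Finset.mem_univ i),
      Finset.prod_ite, Finset.prod_const, Finset.prod_const_one, mul_one]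
    congr 2
    have h5 : (Finset.univ.filter (fun j : Fin n => j < i)) = Finset.Iio i := by
      ext j
      simp
    rw [h5, Fin.card_Iio]
  simp_rw [h4]
  rw [Finset.prod_mul_distrib, Finset.prod_const, Finset.prod_pow_eq_pow_sum, Finset.card_univ,
    Fintype.card_fin, Fin.sum_univ_eq_sum_range (fun i => i) n, Finset.sum_range_id, mul_comm]

end Cfsg.Agent.S0769
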