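import Cfsg.Statements.S0774
import Mathlib
import Cfsg.Agent.S0769

set_option autoImplicit false
open Cfsg

namespace Cfsg.Agent.S0774

open Matrix

theorem mem_stab_of_mapsTo {H : Type*} [Group H] {ι : Type} [Fintype ι] [DecidableEq ι]
    {F : Type*} [CommRing F] (toMat : H →* Matrix ι ι F) (S : Set (ι → F)) (hS : S.Finite) (h : H)
    (hmap : ∀ v ∈ S, toMat h *ᵥ v ∈ S) : h ∈ Cfsg.stabilizing toMat S := by
  intro v
  refine ⟨hmap v, fun hv => ?_⟩
  have hinj : Function.Injective (fun w : S => (⟨toMat h *ᵥ w.1, hmap w.1 w.2⟩ : S)) := by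
    intro a b hab
    have h1 : toMat h *ᵥ a.1 = toMat h *ᵥ b.1 := congrArg Subtype.val hab
    have h2 := congrArg (fun w => toMat h⁻¹ *ᵥ w) h1
    simp only [Matrix.mulVec_mulVec, ← map_mul, inv_mul_cancel, map_one, Matrix.one_mulVec] at h2
    exact Subtype.ext h2
  have : Finite S := hS
  obtain ⟨w, hw⟩ := Finite.surjective_of_injective hinj ⟨_, hv⟩
  have h1 : toMat h *ᵥ w.1 = toMat h *ᵥ v := congrArg Subtype.val hw
  have h2 := congrArg (fun w => toMat h⁻¹ *ᵥ w) h1
  simp only [Matrix.mulVec_mulVec, ← map_mul, inv_mul_cancel, map_one, Matrix.one_mulVec] at h2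
  rw [← h2]
  exact w.2

theorem cardZ {F : Type*} [Field F] [Fintype F] (n : ℕ) (i j : Fin n) :
    Nat.card {x : F // i < j → x = 0} = if j ≤ i then Fintype.card F else 1 := by
  classical
  by_cases h : i < j
  · have e : {x : F // i < j → x = 0} ≃ Unit :=
      { toFun := fun _ => ()
        invFun := fun _ => ⟨0, fun _ => rfl⟩
        left_inv := by
          rintro ⟨x, hx⟩
          exact Subtype.ext (hx h).symm
        right_inv := fun _ => rfl }
    rw [Nat.card_congr e, if_neg (not_le_of_gt h)]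
    simp
  · have e : {x : F // i < j → x = 0} ≃ F :=
      { toFun := fun x => x.1
        invFun := fun x => ⟨x, fun h' => absurd h' h⟩
        left_inv := fun x => rfl
        right_inv := fun x => rfl }
    rw [Nat.card_congr e, if_pos (not_lt.1 h), Nat.card_eq_fintype_card]

theorem card_symm {F : Type*} [Field F] [Fintype F] (n : ℕ) :
    Nat.card {S : Matrix (Fin n) (Fin n) F // Sᵀ = S} =
      Fintype.card F ^ (∑ i ∈ Finset.range n, (i + 1)) := by
  classical
  have e1 : {S : Matrix (Fin n) (Fin n) F // Sᵀ = S} ≃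
      {T : Fin n → Fin n → F // ∀ i, ∀ j, i < j → T i j = 0} :=
    { toFun := fun S => ⟨fun i j => if i < j then 0 else S.1 i j, fun i j hij => if_pos hij⟩
      invFun := fun T => ⟨Matrix.of (fun i j => if i < j then T.1 j i else T.1 i j), by
        ext i j
        simp only [Matrix.transpose_apply, Matrix.of_apply]
        rcases lt_trichotomy i j with h | h | h
        · rw [if_neg (not_lt_of_gt h), if_pos h]
        · subst h
          rfl
        · rw [if_pos h, if_neg (not_lt_of_gt h)]⟩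
      left_inv := by
        rintro ⟨S, hS⟩
        apply Subtype.ext
        ext i j
        simp only [Matrix.of_apply]
        by_cases h : i < j
        · rw [if_pos h, if_neg (not_lt_of_gt h)]
          have h1 := congrFun (congrFun hS i) j
          rw [Matrix.transpose_apply] at h1
          exact h1
        · rw [if_neg h, if_neg h]
      right_inv := by
        rintro ⟨T, hT⟩
        apply Subtype.ext
        funext i j
        simp only [Matrix.of_apply]
        by_cases h : i < j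
        · rw [if_pos h, hT i j h]
        · rw [if_neg h, if_neg h] }
  rw [Nat.card_congr e1]
  have e2 : {T : Fin n → Fin n → F // ∀ i, ∀ j, i < j → T i j = 0} ≃
      ∀ i : Fin n, {r : Fin n → F // ∀ j, i < j → r j = 0} :=
    Equiv.subtypePiEquivPi (β := fun _ : Fin n => Fin n → F)
      (p := fun i r => ∀ j, i < j → r j = 0)
  rw [Nat.card_congr e2, Nat.card_pi]
  have e3 : ∀ i : Fin n, {r : Fin n → F // ∀ j, i < j → r j = 0} ≃
      ∀ j : Fin n, {x : F // i < j → x = 0} :=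
    fun i => Equiv.subtypePiEquivPi (β := fun _ : Fin n => F)
      (p := fun j x => i < j → x = 0)
  have h4 : ∀ i : Fin n,
      Nat.card {r : Fin n → F // ∀ j, i < j → r j = 0} = Fintype.card F ^ ((i : ℕ) + 1) := by
    intro i
    rw [Nat.card_congr (e3 i), Nat.card_pi]
    simp_rw [cardZ]
    rw [Finset.prod_ite, Finset.prod_const, Finset.prod_const_one, mul_one]
    congr 1
    have h5 : (Finset.univ.filter (fun j : Fin n => j ≤ i)) = Finset.Iic i := by
      ext j
      simp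
    rw [h5, Fin.card_Iic]
  simp_rw [h4]
  rw [Finset.prod_pow_eq_pow_sum, Fin.sum_univ_eq_sum_range (fun i => i + 1) n]

theorem sum_aux (m : ℕ) :
    (∑ i ∈ Finset.range m, i) + (∑ i ∈ Finset.range m, (i + 1)) = m ^ 2 := by
  induction m with
  | zero => simp
  | succ k ih =>
    rw [Finset.sum_range_succ, Finset.sum_range_succ]
    have h : (k + 1) ^ 2 = k ^ 2 + 2 * k + 1 := by ring
    omega

/-- Borel subgroup of the symplectic group: the elements of Sp_2m(q) stabilising each of the totally isotropic coordinate subspaces ⟨e_0, ..., e_k⟩ (k < m) form a subgroup of order q^(m²) (q − 1)^m. -/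
theorem result {F : Type*} [Field F] [Fintype F] {q : ℕ} (hF : Fintype.card F = q) (m : ℕ) : Nat.card ↥(⨅ k : Fin m, Cfsg.stabilizing (Cfsg.spToMat m F) {v : Fin m ⊕ Fin m → F | (∀ i : Fin m, (k : ℕ) < (i : ℕ) → v (Sum.inl i) = 0) ∧ ∀ i : Fin m, v (Sum.inr i) = 0}) = q ^ (m ^ 2) * (q - 1) ^ m := by
  classical
  obtain ⟨Bor, hBor⟩ : ∃ Bor : Subgroup (Matrix.symplecticGroup (Fin m) F), Bor =
    ⨅ k : Fin m, Cfsg.stabilizing (Cfsg.spToMat m F) {v : Fin m ⊕ Fin m → F |
      (∀ i : Fin m, (k : ℕ) < (i : ℕ) → v (Sum.inl i) = 0) ∧ ∀ i : Fin m, v (Sum.inr i) = 0} :=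
    ⟨_, rfl⟩
  rw [← hBor]
  -- symplectic membership of the block matrices
  have hsymp : ∀ (L : GL (Fin m) F) (S : Matrix (Fin m) (Fin m) F), Sᵀ = S →
      Matrix.fromBlocks (L : Matrix (Fin m) (Fin m) F)ᵀ ((L : Matrix (Fin m) (Fin m) F)ᵀ * S) 0
        ((L⁻¹ : GL (Fin m) F) : Matrix (Fin m) (Fin m) F) ∈
        Matrix.symplecticGroup (Fin m) F := by
    intro L S hS
    have h1 : (L : Matrix (Fin m) (Fin m) F)ᵀ *
        ((L⁻¹ : GL (Fin m) F) : Matrix (Fin m) (Fin m) F)ᵀ = 1 := by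
      rw [← Matrix.transpose_mul, Units.inv_mul, Matrix.transpose_one]
    have h2 : ((L⁻¹ : GL (Fin m) F) : Matrix (Fin m) (Fin m) F) *
        (L : Matrix (Fin m) (Fin m) F)ᵀᵀ = 1 := by
      rw [Matrix.transpose_transpose, Units.inv_mul]
    have h3 : (L : Matrix (Fin m) (Fin m) F)ᵀ * S * (L : Matrix (Fin m) (Fin m) F)ᵀᵀ =
        (L : Matrix (Fin m) (Fin m) F)ᵀ * ((L : Matrix (Fin m) (Fin m) F)ᵀ * S)ᵀ := by
      rw [Matrix.transpose_mul, hS, Matrix.mul_assoc]
    rw [SymplecticGroup.mem_iff, Matrix.J, Matrix.fromBlocks_transpose,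
      Matrix.fromBlocks_multiply, Matrix.fromBlocks_multiply]
    simp only [Matrix.zero_mul, Matrix.mul_zero, Matrix.mul_one, Matrix.mul_neg, Matrix.neg_mul,
      Matrix.transpose_zero, zero_add, add_zero, neg_zero, h1, h2, h3]
    rw [add_neg_cancel]
  -- elements of the Borel subgroup
  have hcol : ∀ (g : Matrix.symplecticGroup (Fin m) F), g ∈ Bor →
      (∀ i j : Fin m, (g : Matrix (Fin m ⊕ Fin m) (Fin m ⊕ Fin m) F) (Sum.inr i) (Sum.inl j) = 0) ∧
      (∀ i j : Fin m, j < i →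
        (g : Matrix (Fin m ⊕ Fin m) (Fin m ⊕ Fin m) F) (Sum.inl i) (Sum.inl j) = 0) := by
    intro g hg
    rw [hBor, Subgroup.mem_iInf] at hg
    have key : ∀ j : Fin m, (g : Matrix (Fin m ⊕ Fin m) (Fin m ⊕ Fin m) F) *ᵥ
        (Pi.single (Sum.inl j) 1) ∈ {v : Fin m ⊕ Fin m → F |
          (∀ i : Fin m, (j : ℕ) < (i : ℕ) → v (Sum.inl i) = 0) ∧
            ∀ i : Fin m, v (Sum.inr i) = 0} := by
      intro j
      refine (hg j (Pi.single (Sum.inl j) 1)).1 ⟨?_, ?_⟩
      · intro i hi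
        rw [Pi.single_apply, if_neg]
        intro h
        rw [Sum.inl.injEq] at h
        subst h
        exact lt_irrefl _ hi
      · intro i
        simp
    constructor
    · intro i j
      have h1 := (key j).2 i
      rw [Matrix.mulVec_single_one] at h1
      simpa using h1
    · intro i j hji
      have h1 := (key j).1 i hji
      rw [Matrix.mulVec_single_one] at h1
      simpa using h1
  have hmem : ∀ (g : Matrix.symplecticGroup (Fin m) F),
      (∀ i j : Fin m, (g : Matrix (Fin m ⊕ Fin m) (Fin m ⊕ Fin m) F) (Sum.inr i) (Sum.inl j) = 0) →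
      (∀ i j : Fin m, j < i →
        (g : Matrix (Fin m ⊕ Fin m) (Fin m ⊕ Fin m) F) (Sum.inl i) (Sum.inl j) = 0) →
      g ∈ Bor := by
    intro g h1 h2
    rw [hBor, Subgroup.mem_iInf]
    intro k
    apply mem_stab_of_mapsTo _ _ (Set.toFinite _)
    rintro v ⟨hv1, hv2⟩
    constructor
    · intro i hi
      show ((g : Matrix (Fin m ⊕ Fin m) (Fin m ⊕ Fin m) F) *ᵥ v) (Sum.inl i) = 0
      rw [Matrix.mulVec, dotProduct, Fintype.sum_sum_type]
      rw [Finset.sum_eq_zero, Finset.sum_eq_zero, add_zero]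
      · intro j _
        rw [hv2 j, mul_zero]
      · intro j _
        by_cases hj : (k : ℕ) < (j : ℕ)
        · rw [hv1 j hj, mul_zero]
        · rw [h2 i j (by rw [Fin.lt_def]; omega), zero_mul]
    · intro i
      show ((g : Matrix (Fin m ⊕ Fin m) (Fin m ⊕ Fin m) F) *ᵥ v) (Sum.inr i) = 0
      rw [Matrix.mulVec, dotProduct, Fintype.sum_sum_type]
      rw [Finset.sum_eq_zero, Finset.sum_eq_zero, add_zero]
      · intro j _
        rw [hv2 j, mul_zero]
      · intro j _
        rw [h1 i j, zero_mul]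
  -- the parametrisation
  let f : {L : GL (Fin m) F // ∀ i j : Fin m, i < j → (L : Matrix (Fin m) (Fin m) F) i j = 0} ×
      {S : Matrix (Fin m) (Fin m) F // Sᵀ = S} → Bor := fun p =>
    ⟨⟨_, hsymp p.1.1 p.2.1 p.2.2⟩, hmem _ (fun i j => rfl) (fun i j hji => p.1.2 j i hji)⟩
  have hf : ∀ p, (((f p : Matrix.symplecticGroup (Fin m) F)) :
      Matrix (Fin m ⊕ Fin m) (Fin m ⊕ Fin m) F) =
      Matrix.fromBlocks (p.1.1 : Matrix (Fin m) (Fin m) F)ᵀ
        ((p.1.1 : Matrix (Fin m) (Fin m) F)ᵀ * p.2.1) 0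
        ((p.1.1⁻¹ : GL (Fin m) F) : Matrix (Fin m) (Fin m) F) := fun p => rfl
  have hinj : Function.Injective f := by
    rintro ⟨⟨L, hL⟩, ⟨S, hS⟩⟩ ⟨⟨L', hL'⟩, ⟨S', hS'⟩⟩ hXY
    have h1 := congrArg (fun g : Bor =>
      (((g : Matrix.symplecticGroup (Fin m) F)) : Matrix (Fin m ⊕ Fin m) (Fin m ⊕ Fin m) F)) hXY
    simp only [hf] at h1
    rw [Matrix.fromBlocks_inj] at h1
    have hLL : L = L' := Units.ext (Matrix.transpose_injective h1.1)
    subst hLL
    have h2 := congrArg (fun X => ((L⁻¹ : GL (Fin m) F) : Matrix (Fin m) (Fin m) F)ᵀ * X) h1.2.1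
    simp only [← Matrix.mul_assoc, ← Matrix.transpose_mul, Units.mul_inv, Matrix.transpose_one,
      Matrix.one_mul] at h2
    subst h2
    rfl
  have hsurj : Function.Surjective f := by
    intro g
    obtain ⟨M, hM⟩ : ∃ M : Matrix (Fin m ⊕ Fin m) (Fin m ⊕ Fin m) F,
      M = ((g : Matrix.symplecticGroup (Fin m) F) : Matrix (Fin m ⊕ Fin m) (Fin m ⊕ Fin m) F) :=
      ⟨_, rfl⟩
    obtain ⟨hc1, hc2⟩ := hcol g.1 g.2
    rw [← hM] at hc1 hc2
    have h21 : M.toBlocks₂₁ = 0 := by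
      ext i j
      exact hc1 i j
    have hMs : M ∈ Matrix.symplecticGroup (Fin m) F := by
      rw [hM]
      exact g.1.2
    have hMeq : M = Matrix.fromBlocks M.toBlocks₁₁ M.toBlocks₁₂ 0 M.toBlocks₂₂ := by
      rw [← h21, Matrix.fromBlocks_toBlocks]
    rw [SymplecticGroup.mem_iff, Matrix.J] at hMs
    rw [hMeq, Matrix.fromBlocks_transpose, Matrix.fromBlocks_multiply,
      Matrix.fromBlocks_multiply, Matrix.fromBlocks_inj] at hMs
    simp only [Matrix.zero_mul, Matrix.mul_zero, Matrix.mul_one, Matrix.mul_neg, Matrix.neg_mul,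
      Matrix.transpose_zero, zero_add, add_zero, neg_zero] at hMs
    obtain ⟨hs1, hs2, hs3, -⟩ := hMs
    have hs2' : M.toBlocks₁₁ * M.toBlocks₂₂ᵀ = 1 := neg_injective hs2
    have hs1' : M.toBlocks₁₂ * M.toBlocks₁₁ᵀ = M.toBlocks₁₁ * M.toBlocks₁₂ᵀ := by
      rw [← sub_eq_zero, sub_eq_add_neg]
      exact hs1
    have hs4 : M.toBlocks₁₁ᵀ * M.toBlocks₂₂ = 1 := _root_.mul_eq_one_comm.1 hs3
    have hs5 : M.toBlocks₂₂ᵀ * M.toBlocks₁₁ = 1 := _root_.mul_eq_one_comm.1 hs2'
    have hsym : (M.toBlocks₂₂ᵀ * M.toBlocks₁₂)ᵀ = M.toBlocks₂₂ᵀ * M.toBlocks₁₂ := by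
      rw [Matrix.transpose_mul, Matrix.transpose_transpose]
      have h1 : M.toBlocks₂₂ᵀ * (M.toBlocks₁₂ * M.toBlocks₁₁ᵀ) * M.toBlocks₂₂ =
          M.toBlocks₂₂ᵀ * (M.toBlocks₁₁ * M.toBlocks₁₂ᵀ) * M.toBlocks₂₂ := by
        rw [hs1']
      rw [← Matrix.mul_assoc, Matrix.mul_assoc, hs4, Matrix.mul_one, ← Matrix.mul_assoc, hs5,
        Matrix.one_mul] at h1
      exact h1.symm
    refine ⟨⟨⟨⟨M.toBlocks₁₁ᵀ, M.toBlocks₂₂, hs4, hs3⟩, ?_⟩, ⟨M.toBlocks₂₂ᵀ * M.toBlocks₁₂, hsym⟩⟩, ?_⟩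
    · intro i j hij
      exact hc2 j i hij
    · apply Subtype.ext
      apply Subtype.ext
      rw [hf, ← hM]
      show Matrix.fromBlocks M.toBlocks₁₁ᵀᵀ (M.toBlocks₁₁ᵀᵀ * (M.toBlocks₂₂ᵀ * M.toBlocks₁₂)) 0
        M.toBlocks₂₂ = M
      rw [Matrix.transpose_transpose, ← Matrix.mul_assoc, hs2', Matrix.one_mul]
      exact hMeq.symm
  rw [← Nat.card_congr (Equiv.ofBijective f ⟨hinj, hsurj⟩), Nat.card_prod,
    Cfsg.Agent.S0769.result hF m, card_symm, hF, ← Finset.sum_range_id, mul_right_comm,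
    ← pow_add, sum_aux]

end Cfsg.Agent.S0774
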