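import Cfsg.Statements.S0775
import Mathlib
import Cfsg.Agent.Lib.Helper13.SympMat
import Cfsg.Agent.Lib.Helper5.SpCard

set_option autoImplicit false
open Cfsg

namespace Cfsg.Agent.S0775

open Matrix Cfsg.Agent.Lib.Helper13

/-- counting a group through the fibres of an orbit map -/
theorem card_fibers {G Y : Type*} [Group G] [Finite G] (f : G → Y) (T : Set Y)
    (hT : Set.range f = T) (S : Subgroup G) (hfib : ∀ g h, f g = f h ↔ g⁻¹ * h ∈ S) :
    Nat.card G = Nat.card T * Nat.card S := by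
  classical
  subst hT
  have hfin : Finite (Set.range f) := Set.finite_range f
  have : Fintype (Set.range f) := Fintype.ofFinite _
  rw [← Nat.card_congr (Equiv.sigmaFiberEquiv (Set.rangeFactorization f)), Nat.card_sigma]
  have hc : ∀ y : Set.range f,
      Nat.card {g : G // Set.rangeFactorization f g = y} = Nat.card S := by
    intro y
    obtain ⟨g₀, hg₀⟩ := y.2
    apply Nat.card_congr
    exact
      { toFun := fun g => ⟨g₀⁻¹ * g.1,
          (hfib g₀ g.1).1 (hg₀.trans (congrArg Subtype.val g.2).symm)⟩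
        invFun := fun s => ⟨g₀ * s.1, Subtype.ext (by
          show f (g₀ * s.1) = y.1
          rw [← hg₀]
          exact ((hfib g₀ (g₀ * s.1)).2 (by
            rw [inv_mul_cancel_left]
            exact s.2)).symm)⟩
        left_inv := fun g => Subtype.ext (mul_inv_cancel_left g₀ g.1)
        right_inv := fun s => Subtype.ext (inv_mul_cancel_left g₀ s.1) }
  simp_rw [hc]
  rw [Finset.sum_const, Finset.card_univ, smul_eq_mul, ← Nat.card_eq_fintype_card]

theorem card_prod_subtype {A B : Type*} [Finite A] [Finite B] (Q : A → Prop)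
    (R : A → B → Prop) (c : ℕ) (hc : ∀ a, Q a → Nat.card {x : B // R a x} = c) :
    Nat.card {p : A × B // Q p.1 ∧ R p.1 p.2} = Nat.card {a // Q a} * c := by
  classical
  have : Fintype A := Fintype.ofFinite _
  rw [Nat.card_congr (Equiv.subtypeProdEquivSigmaSubtype (fun a x => Q a ∧ R a x)),
    Nat.card_sigma]
  have h1 : ∀ a, Nat.card {x : B // Q a ∧ R a x} = if Q a then c else 0 := by
    intro a
    by_cases h : Q a
    · rw [if_pos h, ← hc a h]
      exact Nat.card_congr (Equiv.subtypeEquivRight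
        (fun x => ⟨fun hx => hx.2, fun hx => ⟨h, hx⟩⟩))
    · rw [if_neg h]
      have : IsEmpty {x : B // Q a ∧ R a x} := ⟨fun x => h x.2.1⟩
      exact Nat.card_of_isEmpty
  simp_rw [h1]
  rw [Finset.sum_ite, Finset.sum_const, Finset.sum_const_zero, add_zero, smul_eq_mul,
    Nat.card_eq_fintype_card, Fintype.card_subtype]

theorem sum_iso {F V : Type*} [Field F] [AddCommGroup V] [Module F V]
    (B : LinearMap.BilinForm F V) {k : ℕ} (u : Fin k → V) (h : ∀ i j, B (u i) (u j) = 0)
    (c d : Fin k → F) : B (∑ i, c i • u i) (∑ j, d j • u j) = 0 := by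
  rw [LinearMap.BilinForm.sum_left]
  apply Finset.sum_eq_zero
  intro i _
  rw [LinearMap.BilinForm.sum_right]
  apply Finset.sum_eq_zero
  intro j _
  simp only [map_smul, LinearMap.smul_apply, h i j, smul_zero]

theorem frames_trans {F : Type*} [Field F] (m k : ℕ) (v v' : Fin k → (Fin m ⊕ Fin m → F))
    (hv : LinearIndependent F v) (hv' : LinearIndependent F v')
    (hiso : ∀ i j, SympMat.form m F (v i) (v j) = 0)
    (hiso' : ∀ i j, SympMat.form m F (v' i) (v' j) = 0) :
    ∃ A : Matrix.symplecticGroup (Fin m) F,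
      ∀ i, (A : Matrix (Fin m ⊕ Fin m) (Fin m ⊕ Fin m) F) *ᵥ v i = v' i := by
  classical
  have hinjL : Function.Injective (Fintype.linearCombination F v) :=
    linearIndependent_iff_injective_fintypeLinearCombination.1 hv
  obtain ⟨π, hπ⟩ := LinearMap.exists_leftInverse_of_injective (Fintype.linearCombination F v)
    (LinearMap.ker_eq_bot.2 hinjL)
  obtain ⟨f₀, hf₀⟩ : ∃ f₀ : (Fin m ⊕ Fin m → F) →ₗ[F] (Fin m ⊕ Fin m → F),
      ∀ c : Fin k → F, f₀ (∑ i, c i • v i) = ∑ i, c i • v' i := by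
    refine ⟨(Fintype.linearCombination F v') ∘ₗ π, fun c => ?_⟩
    have h1 : π (Fintype.linearCombination F v c) = c := LinearMap.congr_fun hπ c
    rw [Fintype.linearCombination_apply] at h1
    rw [LinearMap.comp_apply, h1, Fintype.linearCombination_apply]
  obtain ⟨g, hgT, hg⟩ := Symp.witt_T (SympMat.form m F) (SympMat.form_nondeg m)
    (SympMat.form_alt m) f₀ (Finset.univ.image v)
    (by
      intro x hx y hy
      rw [Finset.coe_image, Finset.coe_univ, Set.image_univ] at hx hy
      obtain ⟨c, rfl⟩ := (Submodule.mem_span_range_iff_exists_fun F).1 hx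
      obtain ⟨d, rfl⟩ := (Submodule.mem_span_range_iff_exists_fun F).1 hy
      rw [hf₀, hf₀, sum_iso _ v' hiso', sum_iso _ v hiso])
    (by
      intro x hx h0
      rw [Finset.coe_image, Finset.coe_univ, Set.image_univ] at hx
      obtain ⟨c, rfl⟩ := (Submodule.mem_span_range_iff_exists_fun F).1 hx
      rw [hf₀] at h0
      have hc := Fintype.linearIndependent_iff.1 hv' c h0
      simp [hc])
  rw [SympMat.T_eq] at hgT
  obtain ⟨A, -, rfl⟩ := hgT
  refine ⟨A, fun i => ?_⟩
  rw [← SympMat.Φ_apply, hg (v i) (Submodule.subset_span (by simp))]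
  have h1 := hf₀ (Pi.single i 1)
  simpa [Pi.single_apply, ite_smul] using h1

theorem span_iso {F : Type*} [Field F] (m k : ℕ) (v : Fin k → (Fin m ⊕ Fin m → F))
    (hiso : ∀ i j, SympMat.form m F (v i) (v j) = 0) :
    ∀ x ∈ Submodule.span F (Set.range v), ∀ y ∈ Submodule.span F (Set.range v),
      SympMat.form m F x y = 0 := by
  intro x hx y hy
  obtain ⟨c, rfl⟩ := (Submodule.mem_span_range_iff_exists_fun F).1 hx
  obtain ⟨d, rfl⟩ := (Submodule.mem_span_range_iff_exists_fun F).1 hy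
  exact sum_iso _ v hiso c d

theorem card_fiber {F : Type*} [Field F] [Fintype F] (m k : ℕ) (hk : k ≤ m)
    (v : Fin k → (Fin m ⊕ Fin m → F)) (hv : LinearIndependent F v)
    (hiso : ∀ i j, SympMat.form m F (v i) (v j) = 0) :
    Nat.card {x : Fin m ⊕ Fin m → F //
      x ∈ (SympMat.form m F).orthogonal (Submodule.span F (Set.range v)) ∧
      x ∉ Submodule.span F (Set.range v)} =
      Fintype.card F ^ (2 * m - k) - Fintype.card F ^ k := by
  classical
  obtain ⟨U, hU⟩ : ∃ U : Submodule F (Fin m ⊕ Fin m → F),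
    U = Submodule.span F (Set.range v) := ⟨_, rfl⟩
  rw [← hU]
  have hUk : Module.finrank F U = k := by
    rw [hU, finrank_span_eq_card hv, Fintype.card_fin]
  have hUperp : Module.finrank F ((SympMat.form m F).orthogonal U) = 2 * m - k := by
    rw [LinearMap.BilinForm.finrank_orthogonal (SympMat.form_nondeg m), hUk,
      Module.finrank_fintype_fun_eq_card, Fintype.card_sum, Fintype.card_fin]
    omega
  have hle : (U : Set (Fin m ⊕ Fin m → F)) ⊆ ((SympMat.form m F).orthogonal U : Set _) := by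
    intro x hx n hn
    rw [hU] at hx hn
    exact span_iso m k v hiso n hn x hx
  have h1 : Nat.card {x : Fin m ⊕ Fin m → F //
      x ∈ (SympMat.form m F).orthogonal U ∧ x ∉ U} =
      (((SympMat.form m F).orthogonal U : Set (Fin m ⊕ Fin m → F)) \
        (U : Set (Fin m ⊕ Fin m → F))).ncard := by
    rw [← Nat.card_coe_set_eq]
    rfl
  rw [h1, Set.ncard_sdiff hle (Set.toFinite _), ← Nat.card_coe_set_eq, ← Nat.card_coe_set_eq]
  have h2 : Nat.card ((SympMat.form m F).orthogonal U) = Fintype.card F ^ (2 * m - k) := by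
    rw [Module.natCard_eq_pow_finrank (K := F), hUperp, Nat.card_eq_fintype_card]
  have h3 : Nat.card U = Fintype.card F ^ k := by
    rw [Module.natCard_eq_pow_finrank (K := F), hUk, Nat.card_eq_fintype_card]
  rw [← h2, ← h3]
  rfl

theorem card_frames {F : Type*} [Field F] [Fintype F] (m : ℕ) : ∀ k : ℕ, k ≤ m →
    Nat.card {v : Fin k → (Fin m ⊕ Fin m → F) // LinearIndependent F v ∧
      ∀ i j, SympMat.form m F (v i) (v j) = 0} =
      ∏ i ∈ Finset.range k, (Fintype.card F ^ (2 * m - i) - Fintype.card F ^ i) := by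
  classical
  intro k
  induction k with
  | zero =>
    intro _
    rw [Finset.range_zero, Finset.prod_empty]
    have : Unique {v : Fin 0 → (Fin m ⊕ Fin m → F) // LinearIndependent F v ∧
        ∀ i j, SympMat.form m F (v i) (v j) = 0} :=
      { default := ⟨Fin.elim0, linearIndependent_empty_type, fun i => i.elim0⟩
        uniq := fun v => Subtype.ext (Subsingleton.elim _ _) }
    exact Nat.card_unique
  | succ k ih =>
    intro hk
    let eb : (Fin (k + 1) → (Fin m ⊕ Fin m → F)) ≃
        (Fin k → (Fin m ⊕ Fin m → F)) × (Fin m ⊕ Fin m → F) :=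
      { toFun := fun w => (Fin.tail w, w 0)
        invFun := fun p => Fin.cons p.2 p.1
        left_inv := fun w => Fin.cons_self_tail w
        right_inv := fun p => by simp }
    have hequiv : ∀ w : Fin (k + 1) → (Fin m ⊕ Fin m → F),
        (LinearIndependent F w ∧ ∀ i j, SympMat.form m F (w i) (w j) = 0) ↔
        ((LinearIndependent F (eb w).1 ∧
          ∀ i j, SympMat.form m F ((eb w).1 i) ((eb w).1 j) = 0) ∧
          ((eb w).2 ∈ (SympMat.form m F).orthogonal (Submodule.span F (Set.range (eb w).1)) ∧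
          (eb w).2 ∉ Submodule.span F (Set.range (eb w).1))) := by
      intro w
      have hw : w = Fin.cons (w 0) (Fin.tail w) := (Fin.cons_self_tail w).symm
      show _ ↔ ((LinearIndependent F (Fin.tail w) ∧
          ∀ i j, SympMat.form m F (Fin.tail w i) (Fin.tail w j) = 0) ∧
          (w 0 ∈ (SympMat.form m F).orthogonal (Submodule.span F (Set.range (Fin.tail w))) ∧
          w 0 ∉ Submodule.span F (Set.range (Fin.tail w))))
      constructor
      · rintro ⟨hli, hiso⟩
        rw [hw, linearIndependent_finCons] at hli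
        refine ⟨⟨hli.1, fun i j => hiso i.succ j.succ⟩, ?_, hli.2⟩
        intro n hn
        obtain ⟨c, rfl⟩ := (Submodule.mem_span_range_iff_exists_fun F).1 hn
        rw [LinearMap.BilinForm.sum_left]
        apply Finset.sum_eq_zero
        intro i _
        rw [map_smul, LinearMap.smul_apply]
        have h1 : SympMat.form m F (Fin.tail w i) (w 0) = 0 := hiso i.succ 0
        rw [h1, smul_zero]
      · rintro ⟨⟨hli, hiso⟩, horth, hnot⟩
        refine ⟨?_, ?_⟩
        · rw [hw, linearIndependent_finCons]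
          exact ⟨hli, hnot⟩
        · have h0 : ∀ i : Fin k, SympMat.form m F (Fin.tail w i) (w 0) = 0 := fun i =>
            horth _ (Submodule.subset_span ⟨i, rfl⟩)
          intro i j
          refine Fin.cases ?_ (fun i => ?_) i <;> refine Fin.cases ?_ (fun j => ?_) j
          · exact SympMat.form_alt m (w 0)
          · rw [← (SympMat.form_alt m).neg_eq (w j.succ) (w 0)]
            have := h0 j
            rw [Fin.tail] at this
            rw [this, neg_zero]
          · exact h0 i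
          · exact hiso i j
    rw [Nat.card_congr (Equiv.subtypeEquiv (q := fun p : (Fin k → (Fin m ⊕ Fin m → F)) ×
        (Fin m ⊕ Fin m → F) => (LinearIndependent F p.1 ∧
          ∀ i j, SympMat.form m F (p.1 i) (p.1 j) = 0) ∧
          (p.2 ∈ (SympMat.form m F).orthogonal (Submodule.span F (Set.range p.1)) ∧
          p.2 ∉ Submodule.span F (Set.range p.1))) eb hequiv),
      card_prod_subtype (fun v : Fin k → (Fin m ⊕ Fin m → F) => LinearIndependent F v ∧
        ∀ i j, SympMat.form m F (v i) (v j) = 0)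
        (fun v x => x ∈ (SympMat.form m F).orthogonal (Submodule.span F (Set.range v)) ∧
          x ∉ Submodule.span F (Set.range v))
        (Fintype.card F ^ (2 * m - k) - Fintype.card F ^ k)
        (fun v hv => card_fiber m k (by omega) v hv.1 hv.2),
      ih (by omega), Finset.prod_range_succ]

theorem arith (q m : ℕ) : ∀ k : ℕ, k ≤ m →
    q ^ (k * (k + 1) / 2 + 2 * k * (m - k)) * (q ^ ((m - k) ^ 2) *
      ∏ i ∈ Finset.range (m - k), (q ^ (2 * (i + 1)) - 1)) *
      ∏ i ∈ Finset.range k, (q ^ (2 * m - i) - q ^ i) =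
    q ^ (m ^ 2) * ∏ i ∈ Finset.range m, (q ^ (2 * (i + 1)) - 1) := by
  intro k
  induction k with
  | zero =>
    intro _
    simp
  | succ k ih =>
    intro hk
    have ih' := ih (by omega)
    rw [← ih']
    obtain ⟨r, rfl⟩ : ∃ r, m = k + 1 + r := ⟨m - (k + 1), by omega⟩
    have e1 : k + 1 + r - (k + 1) = r := by omega
    have e2 : k + 1 + r - k = r + 1 := by omega
    rw [e1, e2, Finset.prod_range_succ, Finset.prod_range_succ]
    have e3 : (k + 1) * (k + 1 + 1) / 2 = k * (k + 1) / 2 + (k + 1) := by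
      have h : (k + 1) * (k + 1 + 1) = k * (k + 1) + (k + 1) * 2 := by ring
      rw [h, Nat.add_mul_div_right _ _ (by norm_num)]
    have e4 : q ^ (2 * (k + 1 + r) - k) - q ^ k = q ^ k * (q ^ (2 * (r + 1)) - 1) := by
      rw [Nat.mul_sub, mul_one, ← pow_add]
      congr 2
      omega
    rw [e3, e4]
    generalize k * (k + 1) / 2 = T
    have e5 : q ^ (T + (k + 1) + 2 * (k + 1) * r) * q ^ (r ^ 2) * q ^ k =
        q ^ (T + 2 * k * (r + 1)) * q ^ ((r + 1) ^ 2) := by
      rw [← pow_add, ← pow_add, ← pow_add]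
      congr 1
      ring
    generalize ∏ i ∈ Finset.range r, (q ^ (2 * (i + 1)) - 1) = P
    generalize ∏ i ∈ Finset.range k, (q ^ (2 * (k + 1 + r) - i) - q ^ i) = Fr
    generalize q ^ (2 * (r + 1)) - 1 = Z
    calc q ^ (T + (k + 1) + 2 * (k + 1) * r) * (q ^ r ^ 2 * P) * (Fr * (q ^ k * Z))
        = (q ^ (T + (k + 1) + 2 * (k + 1) * r) * q ^ (r ^ 2) * q ^ k) * (P * Fr * Z) := by ring
      _ = q ^ (T + 2 * k * (r + 1)) * (q ^ (r + 1) ^ 2 * (P * Z)) * Fr := by
        rw [e5]
        ring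

/-- Maximal parabolics of the symplectic group: if W is a k-dimensional subspace of F^(2m) on which the symplectic form vanishes identically, its stabiliser in Sp_2m(q) has order q^(k(k+1)/2 + 2k(m−k)) · |Sp_(2m−2k)(q)| · |GL_k(q)|. -/
theorem result {F : Type*} [Field F] [Fintype F] {q : ℕ} (hF : Fintype.card F = q) (m k : ℕ) (hk : k ≤ m) (W : Submodule F (Fin m ⊕ Fin m → F)) (hWk : Module.finrank F W = k) (hW : ∀ u ∈ W, ∀ v ∈ W, Cfsg.sympForm m F u v = 0) : Nat.card ↥(Cfsg.stabilizing (Cfsg.spToMat m F) (W : Set (Fin m ⊕ Fin m → F))) = q ^ (k * (k + 1) / 2 + 2 * k * (m - k)) * (q ^ ((m - k) ^ 2) * ∏ i ∈ Finset.range (m - k), (q ^ (2 * (i + 1)) - 1)) * ∏ i : Fin k, (q ^ k - q ^ (i : ℕ)) := by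
  classical
  obtain ⟨b⟩ : Nonempty (Module.Basis (Fin k) F W) := ⟨Module.finBasisOfFinrankEq F W hWk⟩
  obtain ⟨v₀, hv₀⟩ : ∃ v₀ : Fin k → (Fin m ⊕ Fin m → F),
    v₀ = fun i => (b i : Fin m ⊕ Fin m → F) := ⟨_, rfl⟩
  have hv₀W : ∀ i, v₀ i ∈ W := by
    intro i
    rw [hv₀]
    exact (b i).2
  have hv₀li : LinearIndependent F v₀ := by
    rw [hv₀]
    exact b.linearIndependent.map' W.subtype (Submodule.ker_subtype W)
  have hWiso : ∀ u ∈ W, ∀ v ∈ W, SympMat.form m F u v = 0 := fun u hu v hv => by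
    rw [SympMat.form_apply]
    exact hW u hu v hv
  have hspan : ∀ v : Fin k → (Fin m ⊕ Fin m → F), LinearIndependent F v → (∀ i, v i ∈ W) →
      Submodule.span F (Set.range v) = W := by
    intro v hv hvW
    apply Submodule.eq_of_le_of_finrank_eq
    · rw [Submodule.span_le]
      rintro _ ⟨i, rfl⟩
      exact hvW i
    · rw [finrank_span_eq_card hv, Fintype.card_fin, hWk]
  have hinv : ∀ (g : Matrix.symplecticGroup (Fin m) F) (x : Fin m ⊕ Fin m → F),
      ((g⁻¹ : Matrix.symplecticGroup (Fin m) F) : Matrix (Fin m ⊕ Fin m) (Fin m ⊕ Fin m) F) *ᵥ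
        ((g : Matrix (Fin m ⊕ Fin m) (Fin m ⊕ Fin m) F) *ᵥ x) = x := by
    intro g x
    rw [Matrix.mulVec_mulVec, ← Submonoid.coe_mul, inv_mul_cancel, Submonoid.coe_one,
      Matrix.one_mulVec]
  have hinv' : ∀ (g : Matrix.symplecticGroup (Fin m) F) (x : Fin m ⊕ Fin m → F),
      (g : Matrix (Fin m ⊕ Fin m) (Fin m ⊕ Fin m) F) *ᵥ
        (((g⁻¹ : Matrix.symplecticGroup (Fin m) F) :
          Matrix (Fin m ⊕ Fin m) (Fin m ⊕ Fin m) F) *ᵥ x) = x := by
    intro g x
    rw [Matrix.mulVec_mulVec, ← Submonoid.coe_mul, mul_inv_cancel, Submonoid.coe_one,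
      Matrix.one_mulVec]
  have hli : ∀ (g : Matrix.symplecticGroup (Fin m) F), LinearIndependent F
      (fun i => (g : Matrix (Fin m ⊕ Fin m) (Fin m ⊕ Fin m) F) *ᵥ v₀ i) := by
    intro g
    have h1 := hv₀li.map' (SympMat.Φ m g).toLinearMap (LinearEquiv.ker _)
    have h2 : (fun i => (g : Matrix (Fin m ⊕ Fin m) (Fin m ⊕ Fin m) F) *ᵥ v₀ i) =
        (SympMat.Φ m g).toLinearMap ∘ v₀ := by
      funext i
      exact (SympMat.Φ_apply m g (v₀ i)).symm
    rw [h2]
    exact h1
  -- the pointwise stabiliser of the frame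
  let PS : Subgroup (Matrix.symplecticGroup (Fin m) F) :=
    { carrier := {g | ∀ i, (g : Matrix (Fin m ⊕ Fin m) (Fin m ⊕ Fin m) F) *ᵥ v₀ i = v₀ i}
      mul_mem' := by
        intro a b ha hb i
        show ((a * b : Matrix.symplecticGroup (Fin m) F) :
          Matrix (Fin m ⊕ Fin m) (Fin m ⊕ Fin m) F) *ᵥ v₀ i = v₀ i
        rw [Submonoid.coe_mul, ← Matrix.mulVec_mulVec, hb i, ha i]
      one_mem' := by
        intro i
        show ((1 : Matrix.symplecticGroup (Fin m) F) :
          Matrix (Fin m ⊕ Fin m) (Fin m ⊕ Fin m) F) *ᵥ v₀ i = v₀ i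
        rw [Submonoid.coe_one, Matrix.one_mulVec]
      inv_mem' := by
        intro a ha i
        have h1 := hinv a (v₀ i)
        rw [ha i] at h1
        exact h1 }
  have hPS : ∀ g : Matrix.symplecticGroup (Fin m) F, g ∈ PS ↔
      ∀ i, (g : Matrix (Fin m ⊕ Fin m) (Fin m ⊕ Fin m) F) *ᵥ v₀ i = v₀ i := fun g => Iff.rfl
  have hfibG : ∀ g h : Matrix.symplecticGroup (Fin m) F,
      ((fun i => (g : Matrix (Fin m ⊕ Fin m) (Fin m ⊕ Fin m) F) *ᵥ v₀ i) =
        (fun i => (h : Matrix (Fin m ⊕ Fin m) (Fin m ⊕ Fin m) F) *ᵥ v₀ i)) ↔ g⁻¹ * h ∈ PS := by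
    intro g h
    rw [hPS]
    constructor
    · intro hgh i
      have h1 : (g : Matrix (Fin m ⊕ Fin m) (Fin m ⊕ Fin m) F) *ᵥ v₀ i =
          (h : Matrix (Fin m ⊕ Fin m) (Fin m ⊕ Fin m) F) *ᵥ v₀ i := congrFun hgh i
      rw [Submonoid.coe_mul, ← Matrix.mulVec_mulVec, ← h1, hinv]
    · intro hgh
      funext i
      have h1 := hgh i
      rw [Submonoid.coe_mul, ← Matrix.mulVec_mulVec] at h1
      have h2 := congrArg (fun w => (g : Matrix (Fin m ⊕ Fin m) (Fin m ⊕ Fin m) F) *ᵥ w) h1
      simp only [hinv'] at h2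
      exact h2.symm
  -- first count: the whole group on all frames
  have h1 := card_fibers
    (fun g : Matrix.symplecticGroup (Fin m) F => fun i =>
      (g : Matrix (Fin m ⊕ Fin m) (Fin m ⊕ Fin m) F) *ᵥ v₀ i)
    {v : Fin k → (Fin m ⊕ Fin m → F) | LinearIndependent F v ∧
      ∀ i j, SympMat.form m F (v i) (v j) = 0}
    (by
      ext v
      constructor
      · rintro ⟨g, rfl⟩
        refine ⟨hli g, fun i j => ?_⟩
        show SympMat.form m F ((g : Matrix (Fin m ⊕ Fin m) (Fin m ⊕ Fin m) F) *ᵥ v₀ i)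
          ((g : Matrix (Fin m ⊕ Fin m) (Fin m ⊕ Fin m) F) *ᵥ v₀ j) = 0
        rw [← SympMat.Φ_apply, ← SympMat.Φ_apply, SympMat.Φ_isometry]
        exact hWiso _ (hv₀W i) _ (hv₀W j)
      · rintro ⟨hv, hiso⟩
        obtain ⟨A, hA⟩ := frames_trans m k v₀ v hv₀li hv
          (fun i j => hWiso _ (hv₀W i) _ (hv₀W j)) hiso
        exact ⟨A, funext hA⟩) PS hfibG
  -- membership in the stabiliser of W
  have hP : ∀ (A : Matrix.symplecticGroup (Fin m) F) (v : Fin k → (Fin m ⊕ Fin m → F)),
      (∀ i, (A : Matrix (Fin m ⊕ Fin m) (Fin m ⊕ Fin m) F) *ᵥ v₀ i = v i) →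
      LinearIndependent F v → (∀ i, v i ∈ W) →
      A ∈ Cfsg.stabilizing (Cfsg.spToMat m F) (W : Set (Fin m ⊕ Fin m → F)) := by
    intro A v hA hv hvW x
    show x ∈ W ↔ (A : Matrix (Fin m ⊕ Fin m) (Fin m ⊕ Fin m) F) *ᵥ x ∈ W
    have hAsum : ∀ c : Fin k → F, (A : Matrix (Fin m ⊕ Fin m) (Fin m ⊕ Fin m) F) *ᵥ
        (∑ i, c i • v₀ i) = ∑ i, c i • v i := by
      intro c
      rw [Matrix.mulVec_sum]
      apply Finset.sum_congr rfl
      intro i _
      rw [Matrix.mulVec_smul, hA i]
    constructor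
    · intro hx
      rw [← hspan v₀ hv₀li hv₀W] at hx
      obtain ⟨c, rfl⟩ := (Submodule.mem_span_range_iff_exists_fun F).1 hx
      rw [hAsum]
      exact Submodule.sum_mem _ (fun i _ => W.smul_mem _ (hvW i))
    · intro hx
      rw [← hspan v hv hvW] at hx
      obtain ⟨c, hc⟩ := (Submodule.mem_span_range_iff_exists_fun F).1 hx
      rw [← hAsum] at hc
      have h2 := congrArg (fun w => ((A⁻¹ : Matrix.symplecticGroup (Fin m) F) :
        Matrix (Fin m ⊕ Fin m) (Fin m ⊕ Fin m) F) *ᵥ w) hc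
      simp only [hinv] at h2
      rw [← h2]
      exact Submodule.sum_mem _ (fun i _ => W.smul_mem _ (hv₀W i))
  have hPSle : PS ≤ Cfsg.stabilizing (Cfsg.spToMat m F) (W : Set (Fin m ⊕ Fin m → F)) :=
    fun g hg => hP g v₀ hg hv₀li hv₀W
  -- second count: the stabiliser on the frames of W
  have h2 := card_fibers
    (fun g : ↥(Cfsg.stabilizing (Cfsg.spToMat m F) (W : Set (Fin m ⊕ Fin m → F))) => fun i =>
      ((g : Matrix.symplecticGroup (Fin m) F) : Matrix (Fin m ⊕ Fin m) (Fin m ⊕ Fin m) F) *ᵥ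
        v₀ i)
    {v : Fin k → (Fin m ⊕ Fin m → F) | LinearIndependent F v ∧ ∀ i, v i ∈ W}
    (by
      ext v
      constructor
      · rintro ⟨g, rfl⟩
        exact ⟨hli g.1, fun i => (g.2 (v₀ i)).1 (hv₀W i)⟩
      · rintro ⟨hv, hvW⟩
        obtain ⟨A, hA⟩ := frames_trans m k v₀ v hv₀li hv
          (fun i j => hWiso _ (hv₀W i) _ (hv₀W j)) (fun i j => hWiso _ (hvW i) _ (hvW j))
        exact ⟨⟨A, hP A v hA hv hvW⟩, funext hA⟩)
    (PS.subgroupOf (Cfsg.stabilizing (Cfsg.spToMat m F) (W : Set (Fin m ⊕ Fin m → F))))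
    (by
      intro g h
      rw [Subgroup.mem_subgroupOf]
      exact hfibG g.1 h.1)
  rw [Nat.card_congr (Subgroup.subgroupOfEquivOfLe hPSle).toEquiv] at h2
  -- the frames of W
  have hGL : Nat.card ↥{v : Fin k → (Fin m ⊕ Fin m → F) | LinearIndependent F v ∧
      ∀ i, v i ∈ W} = ∏ i : Fin k, (q ^ k - q ^ (i : ℕ)) := by
    have hfinW : Finite W := Module.finite_of_finite F
    have h3 := card_linearIndependent (K := F) (V := W) (k := k) (le_of_eq hWk.symm)
    rw [hWk, hF] at h3
    rw [← h3]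
    apply Nat.card_congr
    exact
      { toFun := fun v => ⟨fun i => ⟨v.1 i, v.2.2 i⟩,
          LinearIndependent.of_comp W.subtype v.2.1⟩
        invFun := fun s => ⟨fun i => (s.1 i : Fin m ⊕ Fin m → F),
          s.2.map' W.subtype (Submodule.ker_subtype W), fun i => (s.1 i).2⟩
        left_inv := fun v => rfl
        right_inv := fun s => rfl }
  have hFr := card_frames (F := F) m k hk
  rw [hF] at hFr
  have hSp := Cfsg.Agent.Lib.Helper5.SpCard.card_symplectic (F := F) m
  rw [hF] at hSp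
  have harith := arith q m k hk
  rw [hGL] at h2
  have hFrpos : 0 < ∏ i ∈ Finset.range k, (q ^ (2 * m - i) - q ^ i) := by
    rw [← hFr]
    apply Nat.pos_of_ne_zero
    intro h0
    have hpos : 0 < Nat.card (Matrix.symplecticGroup (Fin m) F) := Nat.card_pos
    have h1' : Nat.card (Matrix.symplecticGroup (Fin m) F) =
        Nat.card {v : Fin k → (Fin m ⊕ Fin m → F) // LinearIndependent F v ∧
          ∀ i j, SympMat.form m F (v i) (v j) = 0} * Nat.card PS := h1
    rw [h0, zero_mul] at h1'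
    omega
  apply Nat.eq_of_mul_eq_mul_right hFrpos
  have h1' : Nat.card (Matrix.symplecticGroup (Fin m) F) =
      (∏ i ∈ Finset.range k, (q ^ (2 * m - i) - q ^ i)) * Nat.card PS := by
    rw [← hFr]
    exact h1
  rw [h2]
  calc (∏ i : Fin k, (q ^ k - q ^ (i : ℕ))) * Nat.card PS *
        ∏ i ∈ Finset.range k, (q ^ (2 * m - i) - q ^ i)
      = (∏ i : Fin k, (q ^ k - q ^ (i : ℕ))) *
        ((∏ i ∈ Finset.range k, (q ^ (2 * m - i) - q ^ i)) * Nat.card PS) := by ring
    _ = (∏ i : Fin k, (q ^ k - q ^ (i : ℕ))) *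
        (q ^ (m ^ 2) * ∏ i ∈ Finset.range m, (q ^ (2 * (i + 1)) - 1)) := by
      rw [← h1', hSp]
    _ = _ := by
      rw [← harith]
      ring

end Cfsg.Agent.S0775
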