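import Cfsg.Statements.S0782
import Mathlib
import Cfsg.Agent.S0751
import Cfsg.Agent.S0755
import Cfsg.Agent.S0774
import Cfsg.Agent.S0775
import Cfsg.Agent.S0781
import Cfsg.Agent.S0837
import Cfsg.Agent.S2669
import Cfsg.Agent.Lib.Helper45.GUCard
import Cfsg.Agent.Lib.Helper45.SUCard
import Cfsg.Agent.Lib.Helper5.HermCount

set_option autoImplicit false
open Cfsg

namespace Cfsg.Agent.S0782

open Matrix Cfsg.Agent.S0837

section
variable {F : Type*} [Field F] {n : ℕ}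

/-- coordinatewise conjugation -/
def conj (σ : F →+* F) (x : Fin n → F) : Fin n → F := fun i => σ (x i)

theorem conj_sum (σ : F →+* F) {k : ℕ} (c : Fin k → F) (v : Fin k → (Fin n → F)) :
    conj σ (∑ i, c i • v i) = ∑ i, σ (c i) • conj σ (v i) := by
  funext j
  simp only [conj, Finset.sum_apply, Pi.smul_apply, smul_eq_mul, map_sum, map_mul]

theorem conj_conj (σ : F →+* F) (hσ2 : ∀ a, σ (σ a) = a) (x : Fin n → F) :
    conj σ (conj σ x) = x := by
  funext j
  exact hσ2 (x j)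

/-- the dot product as a bilinear form -/
noncomputable def Dt (F : Type*) [Field F] (n : ℕ) : LinearMap.BilinForm F (Fin n → F) :=
  Bh (RingHom.id F) n

theorem Dt_apply (x y : Fin n → F) : Dt F n x y = ∑ i, y i * x i := rfl

theorem Dt_nondeg : (Dt F n).Nondegenerate := Bh_nondeg (RingHom.id F) n

theorem Dt_symm (x y : Fin n → F) : Dt F n x y = Dt F n y x := by
  rw [Dt_apply, Dt_apply]
  apply Finset.sum_congr rfl
  intro i _
  ring

theorem Dt_refl : (Dt F n).IsRefl := fun x y h => by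
  rw [Dt_symm]
  exact h

theorem B_Dt (σ : F →+* F) (z x : Fin n → F) : Bh σ n z x = Dt F n (conj σ z) x := by
  rw [Bh_apply, Dt_apply]
  rfl

/-- the orthogonal complement of a frame -/
noncomputable def Perp (σ : F →+* F) {k : ℕ} (v : Fin k → (Fin n → F)) :
    Submodule F (Fin n → F) :=
  (Dt F n).orthogonal (Submodule.span F (Set.range (fun i => conj σ (v i))))

theorem mem_Perp (σ : F →+* F) {k : ℕ} (v : Fin k → (Fin n → F)) (x : Fin n → F) :
    x ∈ Perp σ v ↔ ∀ i, Bh σ n (v i) x = 0 := by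
  rw [Perp, LinearMap.BilinForm.mem_orthogonal_iff]
  constructor
  · intro h i
    rw [B_Dt]
    exact h _ (Submodule.subset_span ⟨i, rfl⟩)
  · intro h m hm
    obtain ⟨c, rfl⟩ := (Submodule.mem_span_range_iff_exists_fun F).1 hm
    show Dt F n (∑ i, c i • conj σ (v i)) x = 0
    rw [map_sum, LinearMap.sum_apply]
    apply Finset.sum_eq_zero
    intro i _
    rw [map_smul, LinearMap.smul_apply, ← B_Dt, h i, smul_zero]

theorem mem_Perp_span (σ : F →+* F) {k : ℕ} (v : Fin k → (Fin n → F)) (x : Fin n → F)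
    (hx : x ∈ Perp σ v) (z : Fin n → F) (hz : z ∈ Submodule.span F (Set.range v)) :
    Bh σ n z x = 0 := by
  rw [mem_Perp] at hx
  obtain ⟨c, rfl⟩ := (Submodule.mem_span_range_iff_exists_fun F).1 hz
  rw [map_sum, LinearMap.sum_apply]
  apply Finset.sum_eq_zero
  intro i _
  rw [map_smulₛₗ, LinearMap.smul_apply, hx i, smul_zero]

theorem conj_li (σ : F →+* F) (hσ2 : ∀ a, σ (σ a) = a) {k : ℕ} (v : Fin k → (Fin n → F))
    (hv : LinearIndependent F v) : LinearIndependent F (fun i => conj σ (v i)) := by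
  rw [Fintype.linearIndependent_iff] at hv ⊢
  intro c hc i
  have h1 : conj σ (∑ i, σ (c i) • v i) = 0 := by
    rw [conj_sum]
    simp only [hσ2]
    exact hc
  have h2 : ∑ i, σ (c i) • v i = 0 := by
    have h3 := congrArg (conj σ) h1
    rw [conj_conj σ hσ2] at h3
    rw [h3]
    funext j
    simp [conj]
  have h3 := hv _ h2 i
  exact (map_eq_zero σ).1 h3

theorem finrank_Perp (σ : F →+* F) (hσ2 : ∀ a, σ (σ a) = a) {k : ℕ}
    (v : Fin k → (Fin n → F)) (hv : LinearIndependent F v) :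
    Module.finrank F (Perp σ v) = n - k := by
  rw [Perp, LinearMap.BilinForm.finrank_orthogonal Dt_nondeg,
    finrank_span_eq_card (conj_li σ hσ2 v hv), Module.finrank_fintype_fun_eq_card,
    Fintype.card_fin, Fintype.card_fin]

theorem double_perp (σ : F →+* F) (hσ2 : ∀ a, σ (σ a) = a) {k : ℕ}
    (v : Fin k → (Fin n → F)) (u : Fin n → F) (hu : ∀ x ∈ Perp σ v, Bh σ n u x = 0) :
    u ∈ Submodule.span F (Set.range v) := by
  have h1 : conj σ u ∈ (Dt F n).orthogonal (Perp σ v) := by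
    rw [LinearMap.BilinForm.mem_orthogonal_iff]
    intro x hx
    show Dt F n x (conj σ u) = 0
    rw [Dt_symm, ← B_Dt]
    exact hu x hx
  rw [Perp, LinearMap.BilinForm.orthogonal_orthogonal Dt_nondeg Dt_refl] at h1
  obtain ⟨c, hc⟩ := (Submodule.mem_span_range_iff_exists_fun F).1 h1
  have h2 : u = ∑ i, σ (c i) • v i := by
    have h3 : conj σ (∑ i, σ (c i) • v i) = conj σ u := by
      rw [conj_sum]
      simp only [hσ2]
      exact hc
    have h4 := congrArg (conj σ) h3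
    rw [conj_conj σ hσ2, conj_conj σ hσ2] at h4
    exact h4.symm
  rw [h2]
  exact Submodule.sum_mem _ (fun i _ => Submodule.smul_mem _ _ (Submodule.subset_span ⟨i, rfl⟩))

theorem iso_count [Fintype F] {q : ℕ} (hF : Fintype.card F = q ^ 2) (σ : F →+* F)
    (hσ : ∀ x, σ x = x ^ q) (hσ2 : ∀ a, σ (σ a) = a)
    (U : Submodule F (Fin n → F)) (d : ℕ) (hUd : Module.finrank F U = d)
    (hU : ∀ u ∈ U, (∀ u' ∈ U, Bh σ n u u' = 0) → u = 0) :
    Nat.card {u : Fin n → F // u ∈ U ∧ Bh σ n u u = 0} =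
      Cfsg.Agent.Lib.Helper5.HermCount.A q d (0 : F) := by
  classical
  have hσne := sigma_ne hF σ hσ
  obtain ⟨a, haU, hab⟩ := ortho_system σ hσne hσ2 n d U hUd hU
  have hB : ∀ (c : Fin d → F) (j : Fin d), Bh σ n (a j) (∑ i, c i • a i) = c j := by
    intro c j
    rw [map_sum, Finset.sum_eq_single j]
    · rw [map_smul, hab, if_pos rfl, smul_eq_mul, mul_one]
    · intro i _ hij
      rw [map_smul, hab, if_neg (Ne.symm hij), smul_zero]
    · intro h
      exact absurd (Finset.mem_univ _) h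
  have hli : LinearIndependent F a := by
    rw [Fintype.linearIndependent_iff]
    intro c hc j
    have h1 := hB c j
    rw [hc, map_zero] at h1
    exact h1.symm
  have hspan : Submodule.span F (Set.range a) = U := by
    apply Submodule.eq_of_le_of_finrank_eq
    · rw [Submodule.span_le]
      rintro _ ⟨i, rfl⟩
      exact haU i
    · rw [finrank_span_eq_card hli, Fintype.card_fin, hUd]
  have hnorm : ∀ c : Fin d → F,
      Bh σ n (∑ i, c i • a i) (∑ i, c i • a i) = ∑ i, c i * c i ^ q := by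
    intro c
    rw [map_sum]
    apply Finset.sum_congr rfl
    intro j _
    rw [LinearMap.map_smul, smul_eq_mul, ← (Bh_symm σ hσ2 n).eq (a j) (∑ i, c i • a i), hB c j, hσ]
  symm
  unfold Cfsg.Agent.Lib.Helper5.HermCount.A
  apply Nat.card_congr
  refine Equiv.ofBijective (fun c => ⟨∑ i, c.1 i • a i, ?_, ?_⟩) ⟨?_, ?_⟩
  · exact Submodule.sum_mem _ (fun i _ => U.smul_mem _ (haU i))
  · rw [hnorm]
    exact c.2
  · intro c c' h
    have h1 : ∑ i, c.1 i • a i = ∑ i, c'.1 i • a i := congrArg Subtype.val h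
    apply Subtype.ext
    funext j
    rw [← hB c.1 j, ← hB c'.1 j, h1]
  · rintro ⟨u, huU, hu0⟩
    rw [← hspan] at huU
    obtain ⟨c, rfl⟩ := (Submodule.mem_span_range_iff_exists_fun F).1 huU
    refine ⟨⟨c, ?_⟩, rfl⟩
    rw [← hnorm]
    exact hu0

theorem card_fiber [Fintype F] {q : ℕ} (hF : Fintype.card F = q ^ 2) (σ : F →+* F)
    (hσ : ∀ x, σ x = x ^ q) (hσ2 : ∀ a, σ (σ a) = a) {k : ℕ}
    (v : Fin k → (Fin n → F)) (hv : LinearIndependent F v)
    (hiso : ∀ i j, Bh σ n (v i) (v j) = 0) :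
    Nat.card {x : Fin n → F // (∀ i, Bh σ n (v i) x = 0) ∧
      x ∉ Submodule.span F (Set.range v) ∧ Bh σ n x x = 0} =
      (q ^ 2) ^ k * (Cfsg.Agent.Lib.Helper5.HermCount.A q (n - 2 * k) (0 : F) - 1) := by
  classical
  have hS := Bh_symm σ hσ2 n
  obtain ⟨Z, hZ⟩ : ∃ Z : Submodule F (Fin n → F), Z = Submodule.span F (Set.range v) :=
    ⟨_, rfl⟩
  obtain ⟨P, hP⟩ : ∃ P : Submodule F (Fin n → F), P = Perp σ v := ⟨_, rfl⟩
  rw [← hZ]
  have hZk : Module.finrank F Z = k := by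
    rw [hZ, finrank_span_eq_card hv, Fintype.card_fin]
  have hPd : Module.finrank F P = n - k := by
    rw [hP]
    exact finrank_Perp σ hσ2 v hv
  have hmemP : ∀ x, x ∈ P ↔ ∀ i, Bh σ n (v i) x = 0 := by
    intro x
    rw [hP]
    exact mem_Perp σ v x
  have hPZ : ∀ x ∈ P, ∀ z ∈ Z, Bh σ n z x = 0 := by
    intro x hx z hz
    rw [hP] at hx
    rw [hZ] at hz
    exact mem_Perp_span σ v x hx z hz
  have hZti : ∀ z ∈ Z, ∀ z' ∈ Z, Bh σ n z z' = 0 := by
    intro z hz z' hz'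
    rw [hZ] at hz hz'
    obtain ⟨c, rfl⟩ := (Submodule.mem_span_range_iff_exists_fun F).1 hz
    obtain ⟨c', rfl⟩ := (Submodule.mem_span_range_iff_exists_fun F).1 hz'
    rw [map_sum]
    apply Finset.sum_eq_zero
    intro j _
    have h1 : Bh σ n (v j) (∑ i, c i • v i) = 0 := by
      rw [map_sum]
      apply Finset.sum_eq_zero
      intro i _
      rw [LinearMap.map_smul, hiso, smul_zero]
    rw [LinearMap.map_smul, ← hS.eq (v j) (∑ i, c i • v i), h1, map_zero, smul_zero]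
  have hZP : Z ≤ P := by
    intro z hz
    rw [hmemP]
    intro i
    exact hZti _ (by rw [hZ]; exact Submodule.subset_span ⟨i, rfl⟩) z hz
  obtain ⟨U₀, hU₀⟩ := Submodule.exists_isCompl Z
  obtain ⟨U, hUdef⟩ : ∃ U : Submodule F (Fin n → F), U = U₀ ⊓ P := ⟨_, rfl⟩
  have hZU : Z ⊓ U = ⊥ := by
    rw [hUdef, ← inf_assoc, hU₀.inf_eq_bot, bot_inf_eq]
  have hZUP : Z ⊔ U = P := by
    rw [hUdef, ← sup_inf_assoc_of_le U₀ hZP, hU₀.sup_eq_top, top_inf_eq]
  have hUP : U ≤ P := by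
    rw [hUdef]
    exact inf_le_right
  have hUd : Module.finrank F U = n - 2 * k := by
    have h1 := Submodule.finrank_sup_add_finrank_inf_eq Z U
    rw [hZU, hZUP, finrank_bot, hPd, hZk] at h1
    omega
  have hUnd : ∀ u ∈ U, (∀ u' ∈ U, Bh σ n u u' = 0) → u = 0 := by
    intro u hu h
    have h1 : u ∈ Z := by
      rw [hZ]
      apply double_perp σ hσ2 v u
      intro x hx
      rw [← hP, ← hZUP, Submodule.mem_sup] at hx
      obtain ⟨z, hz, u', hu', rfl⟩ := hx
      rw [map_add, h u' hu', add_zero, ← hS.eq, hPZ u (hUP hu) z hz, map_zero]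
    have h2 : u ∈ Z ⊓ U := Submodule.mem_inf.2 ⟨h1, hu⟩
    rw [hZU] at h2
    exact (Submodule.mem_bot F).1 h2
  have hcount := iso_count hF σ hσ hσ2 U (n - 2 * k) hUd hUnd
  have hnorm : ∀ z ∈ Z, ∀ u ∈ U, Bh σ n (z + u) (z + u) = Bh σ n u u := by
    intro z hz u hu
    have h1 : Bh σ n z u = 0 := hPZ u (hUP hu) z hz
    have h2 : Bh σ n u z = 0 := by rw [← hS.eq z u, h1, map_zero]
    have h3 : Bh σ n z z = 0 := hZti z hz z hz
    simp only [map_add, LinearMap.add_apply, h1, h2, h3]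
    ring
  have hbij : Nat.card {x : Fin n → F // (∀ i, Bh σ n (v i) x = 0) ∧ x ∉ Z ∧
      Bh σ n x x = 0} =
      Nat.card (↥Z × {u : Fin n → F // u ∈ U ∧ Bh σ n u u = 0 ∧ u ≠ 0}) := by
    symm
    apply Nat.card_congr
    refine Equiv.ofBijective (fun p => ⟨(p.1 : Fin n → F) + p.2.1, ?_, ?_, ?_⟩) ⟨?_, ?_⟩
    · rw [← hmemP]
      exact P.add_mem (hZP p.1.2) (hUP p.2.2.1)
    · intro h
      have h1 : p.2.1 ∈ Z := by
        have h3 := Z.sub_mem h p.1.2
        rwa [add_sub_cancel_left] at h3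
      have h2 : p.2.1 ∈ Z ⊓ U := Submodule.mem_inf.2 ⟨h1, p.2.2.1⟩
      rw [hZU] at h2
      exact p.2.2.2.2 ((Submodule.mem_bot F).1 h2)
    · rw [hnorm _ p.1.2 _ p.2.2.1]
      exact p.2.2.2.1
    · rintro ⟨⟨z, hz⟩, ⟨u, hu, hu0, hune⟩⟩ ⟨⟨z', hz'⟩, ⟨u', hu', hu0', hune'⟩⟩ h
      have h1 : z + u = z' + u' := congrArg Subtype.val h
      have h2 : z - z' = u' - u := by
        rw [sub_eq_sub_iff_add_eq_add, h1, add_comm]
      have h3 : z - z' ∈ Z ⊓ U :=
        Submodule.mem_inf.2 ⟨Z.sub_mem hz hz', by rw [h2]; exact U.sub_mem hu' hu⟩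
      rw [hZU] at h3
      have h4 : z = z' := sub_eq_zero.1 ((Submodule.mem_bot F).1 h3)
      subst h4
      have h5 : u = u' := add_left_cancel h1
      subst h5
      rfl
    · rintro ⟨x, hx1, hx2, hx3⟩
      have hxP : x ∈ P := (hmemP x).2 hx1
      rw [← hZUP, Submodule.mem_sup] at hxP
      obtain ⟨z, hz, u, hu, rfl⟩ := hxP
      refine ⟨(⟨z, hz⟩, ⟨u, hu, ?_, ?_⟩), rfl⟩
      · rw [← hnorm z hz u hu]
        exact hx3
      · intro h0
        apply hx2
        rw [h0, add_zero]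
        exact hz
  rw [hbij, Nat.card_prod]
  have hZcard : Nat.card Z = (q ^ 2) ^ k := by
    rw [Module.natCard_eq_pow_finrank (K := F), hZk, Nat.card_eq_fintype_card, hF]
  rw [hZcard]
  congr 1
  rw [← hcount]
  have h1 : Nat.card {u : Fin n → F // u ∈ U ∧ Bh σ n u u = 0 ∧ u ≠ 0} =
      ({u : Fin n → F | u ∈ U ∧ Bh σ n u u = 0} \ {0}).ncard := by
    rw [← Nat.card_coe_set_eq]
    apply Nat.card_congr
    exact Equiv.subtypeEquivRight (fun u => by simp [and_assoc])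
  have h0 : (0 : Fin n → F) ∈ {u : Fin n → F | u ∈ U ∧ Bh σ n u u = 0} :=
    ⟨U.zero_mem, by rw [map_zero]⟩
  rw [h1, Set.ncard_sdiff_singleton_of_mem h0, ← Nat.card_coe_set_eq]
  rfl

theorem card_frames [Fintype F] {q : ℕ} (hF : Fintype.card F = q ^ 2) (σ : F →+* F)
    (hσ : ∀ x, σ x = x ^ q) (hσ2 : ∀ a, σ (σ a) = a) : ∀ k : ℕ,
    Nat.card {v : Fin k → (Fin n → F) // LinearIndependent F v ∧
      ∀ i j, Bh σ n (v i) (v j) = 0} =
      ∏ i ∈ Finset.range k, ((q ^ 2) ^ i *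
        (Cfsg.Agent.Lib.Helper5.HermCount.A q (n - 2 * i) (0 : F) - 1)) := by
  classical
  have hS := Bh_symm σ hσ2 n
  intro k
  induction k with
  | zero =>
    rw [Finset.range_zero, Finset.prod_empty]
    have : Unique {v : Fin 0 → (Fin n → F) // LinearIndependent F v ∧
        ∀ i j, Bh σ n (v i) (v j) = 0} :=
      { default := ⟨Fin.elim0, linearIndependent_empty_type, fun i => i.elim0⟩
        uniq := fun v => Subtype.ext (Subsingleton.elim _ _) }
    exact Nat.card_unique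
  | succ k ih =>
    let eb : (Fin (k + 1) → (Fin n → F)) ≃ (Fin k → (Fin n → F)) × (Fin n → F) :=
      { toFun := fun w => (Fin.tail w, w 0)
        invFun := fun p => Fin.cons p.2 p.1
        left_inv := fun w => Fin.cons_self_tail w
        right_inv := fun p => by simp }
    have hequiv : ∀ w : Fin (k + 1) → (Fin n → F),
        (LinearIndependent F w ∧ ∀ i j, Bh σ n (w i) (w j) = 0) ↔
        ((LinearIndependent F (eb w).1 ∧ ∀ i j, Bh σ n ((eb w).1 i) ((eb w).1 j) = 0) ∧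
          ((∀ i, Bh σ n ((eb w).1 i) (eb w).2 = 0) ∧
          (eb w).2 ∉ Submodule.span F (Set.range (eb w).1) ∧ Bh σ n (eb w).2 (eb w).2 = 0)) := by
      intro w
      have hw : w = Fin.cons (w 0) (Fin.tail w) := (Fin.cons_self_tail w).symm
      show _ ↔ ((LinearIndependent F (Fin.tail w) ∧
          ∀ i j, Bh σ n (Fin.tail w i) (Fin.tail w j) = 0) ∧
          ((∀ i, Bh σ n (Fin.tail w i) (w 0) = 0) ∧
          w 0 ∉ Submodule.span F (Set.range (Fin.tail w)) ∧ Bh σ n (w 0) (w 0) = 0))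
      constructor
      · rintro ⟨hli, hiso⟩
        rw [hw, linearIndependent_finCons] at hli
        exact ⟨⟨hli.1, fun i j => hiso i.succ j.succ⟩, fun i => hiso i.succ 0, hli.2, hiso 0 0⟩
      · rintro ⟨⟨hli, hiso⟩, horth, hnot, h00⟩
        refine ⟨?_, ?_⟩
        · rw [hw, linearIndependent_finCons]
          exact ⟨hli, hnot⟩
        · intro i j
          refine Fin.cases ?_ (fun i => ?_) i <;> refine Fin.cases ?_ (fun j => ?_) j
          · exact h00
          · rw [← hS.eq (w j.succ) (w 0)]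
            have h1 := horth j
            rw [Fin.tail] at h1
            rw [h1, map_zero]
          · exact horth i
          · exact hiso i j
    rw [Nat.card_congr (Equiv.subtypeEquiv (q := fun p : (Fin k → (Fin n → F)) ×
        (Fin n → F) => (LinearIndependent F p.1 ∧ ∀ i j, Bh σ n (p.1 i) (p.1 j) = 0) ∧
          ((∀ i, Bh σ n (p.1 i) p.2 = 0) ∧
          p.2 ∉ Submodule.span F (Set.range p.1) ∧ Bh σ n p.2 p.2 = 0)) eb hequiv),
      Cfsg.Agent.S0775.card_prod_subtype (fun v : Fin k → (Fin n → F) => LinearIndependent F v ∧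
        ∀ i j, Bh σ n (v i) (v j) = 0)
        (fun v x => (∀ i, Bh σ n (v i) x = 0) ∧
          x ∉ Submodule.span F (Set.range v) ∧ Bh σ n x x = 0)
        ((q ^ 2) ^ k * (Cfsg.Agent.Lib.Helper5.HermCount.A q (n - 2 * k) (0 : F) - 1))
        (fun v hv => card_fiber hF σ hσ hσ2 v hv.1 hv.2),
      ih, Finset.prod_range_succ]

end

section
variable {F : Type*} [Field F] {n : ℕ}

theorem sum_iso (σ : F →+* F) {k : ℕ} (u : Fin k → (Fin n → F))
    (h : ∀ i j, Bh σ n (u i) (u j) = 0) (c d : Fin k → F) :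
    Bh σ n (∑ i, c i • u i) (∑ j, d j • u j) = 0 := by
  rw [map_sum]
  apply Finset.sum_eq_zero
  intro j _
  have h1 : Bh σ n (∑ i, c i • u i) (u j) = 0 := by
    rw [map_sum, LinearMap.sum_apply]
    apply Finset.sum_eq_zero
    intro i _
    rw [map_smulₛₗ, LinearMap.smul_apply, h, smul_zero]
  rw [LinearMap.map_smul, h1, smul_zero]

/-- GU is transitive on isotropic frames -/
theorem frames_trans [Fintype F] {q : ℕ} (hF : Fintype.card F = q ^ 2) (σ : F →+* F)
    (hσ : ∀ x, σ x = x ^ q) (hσ2 : ∀ a, σ (σ a) = a) {k : ℕ}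
    (v v' : Fin k → (Fin n → F)) (hv : LinearIndependent F v) (hv' : LinearIndependent F v')
    (hiso : ∀ i j, Bh σ n (v i) (v j) = 0) (hiso' : ∀ i j, Bh σ n (v' i) (v' j) = 0) :
    ∃ M : Matrix (Fin n) (Fin n) F,
      (∀ x y, Cfsg.hermForm n F q (M *ᵥ x) (M *ᵥ y) = Cfsg.hermForm n F q x y) ∧
      ∀ i, M *ᵥ v i = v' i := by
  classical
  have hσne := sigma_ne hF σ hσ
  have hS := Bh_symm σ hσ2 n
  have hinjL : Function.Injective (Fintype.linearCombination F v) :=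
    linearIndependent_iff_injective_fintypeLinearCombination.1 hv
  obtain ⟨π, hπ⟩ := LinearMap.exists_leftInverse_of_injective (Fintype.linearCombination F v)
    (LinearMap.ker_eq_bot.2 hinjL)
  obtain ⟨f₀, hf₀⟩ : ∃ f₀ : (Fin n → F) →ₗ[F] (Fin n → F),
      ∀ c : Fin k → F, f₀ (∑ i, c i • v i) = ∑ i, c i • v' i := by
    refine ⟨(Fintype.linearCombination F v') ∘ₗ π, fun c => ?_⟩
    have h1 : π (Fintype.linearCombination F v c) = c := LinearMap.congr_fun hπ c
    rw [Fintype.linearCombination_apply] at h1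
    rw [LinearMap.comp_apply, h1, Fintype.linearCombination_apply]
  obtain ⟨g, hgB, hg⟩ := Cfsg.Agent.S0751.witt_aux σ hσne hσ2 (Bh σ n) hS (Bh_nondeg σ n)
    _ (Submodule.span F (Set.range v)) rfl f₀
    (by
      intro x hx y hy
      obtain ⟨c, rfl⟩ := (Submodule.mem_span_range_iff_exists_fun F).1 hx
      obtain ⟨d, rfl⟩ := (Submodule.mem_span_range_iff_exists_fun F).1 hy
      rw [hf₀, hf₀, sum_iso σ v' hiso', sum_iso σ v hiso])
    (by
      intro x hx h0
      obtain ⟨c, rfl⟩ := (Submodule.mem_span_range_iff_exists_fun F).1 hx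
      rw [hf₀] at h0
      have hc := Fintype.linearIndependent_iff.1 hv' c h0
      simp [hc])
  obtain ⟨M, hM⟩ : ∃ M : Matrix (Fin n) (Fin n) F, M = LinearMap.toMatrix' g.toLinearMap :=
    ⟨_, rfl⟩
  have hMv : ∀ v, M *ᵥ v = g v := by
    intro v
    rw [hM, ← Matrix.toLin'_apply, Matrix.toLin'_toMatrix']
    rfl
  refine ⟨M, ?_, fun i => ?_⟩
  · intro u v
    rw [← Bh_herm σ hσ, ← Bh_herm σ hσ, hMv, hMv, hgB]
  · rw [hMv, hg (v i) (Submodule.subset_span ⟨i, rfl⟩)]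
    have h1 := hf₀ (Pi.single i 1)
    simpa [Pi.single_apply, ite_smul] using h1

/-- the factors of the order of `GU` -/
def tf (q i : ℕ) : ℕ := if Even i then q ^ (i + 1) + 1 else q ^ (i + 1) - 1

/-- the order of `GU_d(q)` -/
def GUo (q d : ℕ) : ℕ := q ^ (d * (d - 1) / 2) * ∏ i ∈ Finset.range d, tf q i

theorem tf_cast (q i : ℕ) (hq : 1 ≤ q) :
    ((tf q i : ℕ) : ℤ) = (q : ℤ) ^ (i + 1) - (-1) ^ (i + 1) := by
  unfold tf
  have h1 : 1 ≤ q ^ (i + 1) := Nat.one_le_pow _ _ hq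
  by_cases h : Even i
  · rw [if_pos h, (Even.add_one h).neg_one_pow]
    push_cast
    ring
  · rw [if_neg h]
    have h2 : Even (i + 1) := by
      rw [Nat.even_add_one]
      exact h
    rw [h2.neg_one_pow, Nat.cast_sub h1]
    push_cast
    ring

theorem iso_arith [Fintype F] {q : ℕ} (hF : Fintype.card F = q ^ 2) (e : ℕ) :
    Cfsg.Agent.Lib.Helper5.HermCount.A q (e + 2) (0 : F) - 1 = tf q (e + 1) * tf q e := by
  have hq := Cfsg.Agent.Lib.Helper5.HermCount.two_le hF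
  have h := (Cfsg.Agent.Lib.Helper5.HermCount.main hF (e + 2)).1
  have hq0 : (q : ℤ) ≠ 0 := by
    have : (2 : ℤ) ≤ q := by exact_mod_cast hq
    omega
  have h1 : ((Cfsg.Agent.Lib.Helper5.HermCount.A q (e + 2) (0 : F) : ℕ) : ℤ) =
      ((tf q (e + 1) * tf q e + 1 : ℕ) : ℤ) := by
    apply mul_left_cancel₀ hq0
    rw [h]
    push_cast
    rw [tf_cast q (e + 1) (by omega), tf_cast q e (by omega)]
    have h2 : ((-1 : ℤ) ^ e) * ((-1 : ℤ) ^ e) = 1 := by
      rw [← pow_add, ← two_mul, pow_mul]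
      norm_num
    linear_combination (q : ℤ) * h2
  have h3 : Cfsg.Agent.Lib.Helper5.HermCount.A q (e + 2) (0 : F) =
      tf q (e + 1) * tf q e + 1 := by
    exact_mod_cast h1
  rw [h3, Nat.add_sub_cancel]

theorem GUo_step (q e : ℕ) :
    GUo q (e + 2) = q ^ (2 * e + 1) * (tf q (e + 1) * tf q e) * GUo q e := by
  unfold GUo
  rw [Finset.prod_range_succ, Finset.prod_range_succ]
  have h1 : (e + 2) * (e + 2 - 1) / 2 = e * (e - 1) / 2 + (2 * e + 1) := by
    have h2 : (e + 2) * (e + 2 - 1) = e * (e - 1) + 2 * (2 * e + 1) := by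
      cases e with
      | zero => rfl
      | succ m =>
        show (m + 1 + 2) * (m + 2) = (m + 1) * m + 2 * (2 * (m + 1) + 1)
        ring
    rw [h2, Nat.add_mul_div_left _ _ (by norm_num : 0 < 2)]
  rw [h1, pow_add]
  ring

theorem arith [Fintype F] {q : ℕ} (hF : Fintype.card F = q ^ 2) (n : ℕ) :
    ∀ k : ℕ, 2 * k ≤ n →
    GUo q n = (∏ i ∈ Finset.range k, ((q ^ 2) ^ i *
        (Cfsg.Agent.Lib.Helper5.HermCount.A q (n - 2 * i) (0 : F) - 1))) *
      (q ^ (k * (2 * n - 3 * k)) * GUo q (n - 2 * k)) := by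
  intro k
  induction k with
  | zero =>
    intro _
    simp
  | succ k ih =>
    intro hk
    rw [ih (by omega), Finset.prod_range_succ]
    obtain ⟨r, rfl⟩ : ∃ r, n = 2 * k + 2 + r := ⟨n - (2 * k + 2), by omega⟩
    have e1 : 2 * k + 2 + r - 2 * k = r + 2 := by omega
    have e2 : 2 * k + 2 + r - 2 * (k + 1) = r := by omega
    rw [e1, e2, iso_arith hF r, GUo_step q r]
    have e3 : q ^ (k * (2 * (2 * k + 2 + r) - 3 * k)) * q ^ (2 * r + 1) =
        (q ^ 2) ^ k * q ^ ((k + 1) * (2 * (2 * k + 2 + r) - 3 * (k + 1))) := by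
      rw [← pow_mul, ← pow_add, ← pow_add]
      congr 1
      have e4 : 2 * (2 * k + 2 + r) - 3 * k = k + 4 + 2 * r := by omega
      have e5 : 2 * (2 * k + 2 + r) - 3 * (k + 1) = k + 1 + 2 * r := by omega
      rw [e4, e5]
      ring
    generalize ∏ i ∈ Finset.range k, ((q ^ 2) ^ i *
      (Cfsg.Agent.Lib.Helper5.HermCount.A q (2 * k + 2 + r - 2 * i) (0 : F) - 1)) = Fr
    generalize tf q (r + 1) * tf q r = Z
    calc Fr * (q ^ (k * (2 * (2 * k + 2 + r) - 3 * k)) * (q ^ (2 * r + 1) * Z * GUo q r))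
        = Fr * Z * GUo q r * (q ^ (k * (2 * (2 * k + 2 + r) - 3 * k)) * q ^ (2 * r + 1)) := by
          ring
      _ = _ := by
          rw [e3]
          ring

/-- the matrix of an element of `GU` -/
def mat {q : ℕ} (g : ↥(Cfsg.GU n F q)) : Matrix (Fin n) (Fin n) F :=
  ((g : GL (Fin n) F) : Matrix (Fin n) (Fin n) F)

theorem mat_mul {q : ℕ} (g h : ↥(Cfsg.GU n F q)) : mat (g * h) = mat g * mat h := rfl

theorem mat_one {q : ℕ} : mat (1 : ↥(Cfsg.GU n F q)) = 1 := rfl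

theorem mat_inv_mulVec {q : ℕ} (g : ↥(Cfsg.GU n F q)) (x : Fin n → F) :
    mat g⁻¹ *ᵥ (mat g *ᵥ x) = x := by
  rw [Matrix.mulVec_mulVec, ← mat_mul, inv_mul_cancel, mat_one, Matrix.one_mulVec]

theorem mat_mulVec_inv {q : ℕ} (g : ↥(Cfsg.GU n F q)) (x : Fin n → F) :
    mat g *ᵥ (mat g⁻¹ *ᵥ x) = x := by
  rw [Matrix.mulVec_mulVec, ← mat_mul, mul_inv_cancel, mat_one, Matrix.one_mulVec]

theorem mat_pres {q : ℕ} (σ : F →+* F) (hσ : ∀ x, σ x = x ^ q) (g : ↥(Cfsg.GU n F q))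
    (x y : Fin n → F) : Bh σ n (mat g *ᵥ x) (mat g *ᵥ y) = Bh σ n x y := by
  rw [Bh_herm σ hσ, Bh_herm σ hσ]
  exact (Cfsg.Agent.Lib.Helper45.GUCard.mem_GU_iff g.1).1 g.2 y x

/-- the stabiliser of a subspace in `GU` -/
def SG (q : ℕ) (W : Submodule F (Fin n → F)) : Subgroup ↥(Cfsg.GU n F q) :=
  Cfsg.stabilizing ((Cfsg.glToMat (Fin n) F).comp (Cfsg.GU n F q).subtype)
    (W : Set (Fin n → F))

theorem mem_SG {q : ℕ} (W : Submodule F (Fin n → F)) (g : ↥(Cfsg.GU n F q)) :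
    g ∈ SG q W ↔ ∀ v, v ∈ W ↔ mat g *ᵥ v ∈ W := Iff.rfl

theorem torus_mulVec (σ : F →+* F) (e f : Fin n → F) (α β : F) (hf : Bh σ n f f = 0)
    (x : Fin n → F) :
    ((1 + Matrix.vecMulVec (α • e) (fun j => σ (f j))) *
      (1 + Matrix.vecMulVec (β • f) (fun j => σ (e j)))) *ᵥ x =
      x + (α * Bh σ n f x) • e + (β * Bh σ n e x) • f := by
  rw [← Matrix.mulVec_mulVec, Cfsg.Agent.S0781.rank_one_mulVec,
    Cfsg.Agent.S0781.rank_one_mulVec, Cfsg.Agent.S0781.dot_sigma, Cfsg.Agent.S0781.dot_sigma]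
  simp only [map_add, map_smul, smul_eq_mul, hf, mul_zero, add_zero]
  module

theorem torus_det (σ : F →+* F) (e f : Fin n → F) (α β : F) (hfe : Bh σ n f e = 1)
    (hef : Bh σ n e f = 1) :
    ((1 + Matrix.vecMulVec (α • e) (fun j => σ (f j))) *
      (1 + Matrix.vecMulVec (β • f) (fun j => σ (e j)))).det = (1 + α) * (1 + β) := by
  rw [Matrix.det_mul, Cfsg.Agent.S0781.det_rank_one, Cfsg.Agent.S0781.det_rank_one,
    Cfsg.Agent.S0781.dot_sigma, Cfsg.Agent.S0781.dot_sigma, LinearMap.map_smul,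
    LinearMap.map_smul, hfe, hef, smul_eq_mul, smul_eq_mul, mul_one, mul_one]

theorem torus_unitary (σ : F →+* F) (hσ2 : ∀ a, σ (σ a) = a) (e f : Fin n → F) (α β : F)
    (he : Bh σ n e e = 0) (hf : Bh σ n f f = 0) (hef : Bh σ n e f = 1)
    (hαβ : α + σ β + σ β * α = 0) (x y : Fin n → F) :
    Bh σ n (x + (α * Bh σ n f x) • e + (β * Bh σ n e x) • f)
      (y + (α * Bh σ n f y) • e + (β * Bh σ n e y) • f) = Bh σ n x y := by
  have hS := Bh_symm σ hσ2 n
  have hfe : Bh σ n f e = 1 := by rw [← hS.eq, hef, map_one]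
  have hαβ' : β + σ α + σ α * β = 0 := by
    have h1 := congrArg σ hαβ
    simp only [map_add, map_mul, hσ2, map_zero] at h1
    linear_combination h1
  simp only [map_add, map_smul, map_smulₛₗ, LinearMap.add_apply, LinearMap.smul_apply,
    smul_eq_mul, map_mul, he, hf, hef, hfe, hS.eq]
  linear_combination (Bh σ n x e * Bh σ n f y) * hαβ + (Bh σ n x f * Bh σ n e y) * hαβ'

theorem exists_det [Fintype F] {q : ℕ} (hF : Fintype.card F = q ^ 2) (σ : F →+* F)
    (hσ : ∀ x, σ x = x ^ q) (hσ2 : ∀ a, σ (σ a) = a) (hn : 1 ≤ n)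
    (W : Submodule F (Fin n → F)) (hW : ∀ u ∈ W, ∀ v ∈ W, Bh σ n u v = 0) (c : F)
    (hc : c * σ c = 1) :
    ∃ M : Matrix (Fin n) (Fin n) F, (∀ x y, Bh σ n (M *ᵥ x) (M *ᵥ y) = Bh σ n x y) ∧
      (∀ w ∈ W, M *ᵥ w ∈ W) ∧ M.det = c := by
  classical
  have hσne := sigma_ne hF σ hσ
  have hS := Bh_symm σ hσ2 n
  by_cases hbot : W = ⊥
  · subst hbot
    obtain ⟨d, hd⟩ : ∃ d : Fin n → F, d = Function.update (fun _ => (1 : F)) ⟨0, hn⟩ c :=
      ⟨_, rfl⟩
    have hdd : ∀ i, d i * σ (d i) = 1 := by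
      intro i
      rw [hd]
      by_cases hi : i = ⟨0, hn⟩
      · subst hi
        simp [hc]
      · simp [Function.update_of_ne hi]
    refine ⟨Matrix.diagonal d, ?_, ?_, ?_⟩
    · intro x y
      rw [Bh_apply, Bh_apply]
      apply Finset.sum_congr rfl
      intro i _
      rw [Matrix.mulVec_diagonal, Matrix.mulVec_diagonal, map_mul]
      linear_combination (y i * σ (x i)) * hdd i
    · intro w hw
      rw [Submodule.mem_bot] at hw ⊢
      rw [hw, Matrix.mulVec_zero]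
    · rw [Matrix.det_diagonal, hd]
      simp [Finset.prod_update_of_mem]
  · obtain ⟨e, heW, he0⟩ := Submodule.exists_mem_ne_zero_of_ne_bot hbot
    have hee : Bh σ n e e = 0 := hW e heW e heW
    obtain ⟨y, hy⟩ : ∃ y, Bh σ n e y ≠ 0 := by
      by_contra hno
      push Not at hno
      exact he0 ((Bh_nondeg σ n).1 e hno)
    obtain ⟨y', hy'⟩ : ∃ y', Bh σ n e y' = 1 := ⟨(Bh σ n e y)⁻¹ • y, by
      rw [LinearMap.map_smul, smul_eq_mul, inv_mul_cancel₀ hy]⟩
    obtain ⟨θ, hθ⟩ := Cfsg.Agent.S0751.exists_theta σ hσne hσ2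
    obtain ⟨ν, hν⟩ : ∃ ν, ν = Bh σ n y' y' := ⟨_, rfl⟩
    have hσν : σ ν = ν := by rw [hν, hS.eq]
    have hy'e : Bh σ n y' e = 1 := by rw [← hS.eq, hy', map_one]
    obtain ⟨f, hf⟩ : ∃ f, f = y' + (-(θ * ν)) • e := ⟨_, rfl⟩
    have hef : Bh σ n e f = 1 := by
      rw [hf, map_add, LinearMap.map_smul, hee, smul_zero, add_zero, hy']
    have hff : Bh σ n f f = 0 := by
      rw [hf]
      simp only [map_add, map_smulₛₗ, LinearMap.add_apply,
        LinearMap.smul_apply, smul_eq_mul, hee, hy', hy'e, ← hν, map_neg, map_mul, hσν,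
        RingHom.id_apply]
      linear_combination (-ν) * hθ
    obtain ⟨a, ha0, hac⟩ : ∃ a : F, a ≠ 0 ∧ a = c * σ a := by
      by_cases hc1 : c = -1
      · have h1 : ∃ z : F, σ z ≠ z := by
          by_contra hno
          push Not at hno
          exact hσne (RingHom.ext hno)
        obtain ⟨z, hz⟩ := h1
        refine ⟨z - σ z, sub_ne_zero.2 (Ne.symm hz), ?_⟩
        rw [hc1, map_sub, hσ2]
        ring
      · refine ⟨1 + c, ?_, ?_⟩
        · intro h0
          apply hc1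
          linear_combination h0
        · rw [map_add, map_one]
          linear_combination -hc
    have hσa0 : σ a ≠ 0 := (map_ne_zero σ).2 ha0
    obtain ⟨α, hα⟩ : ∃ α, α = a - 1 := ⟨_, rfl⟩
    obtain ⟨β, hβ⟩ : ∃ β, β = (σ a)⁻¹ - 1 := ⟨_, rfl⟩
    have hαβ : α + σ β + σ β * α = 0 := by
      rw [hα, hβ, map_sub, map_inv₀, hσ2, map_one]
      field_simp
      ring
    refine ⟨(1 + Matrix.vecMulVec (α • e) (fun j => σ (f j))) *
      (1 + Matrix.vecMulVec (β • f) (fun j => σ (e j))), ?_, ?_, ?_⟩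
    · intro x y
      rw [torus_mulVec σ e f α β hff, torus_mulVec σ e f α β hff]
      exact torus_unitary σ hσ2 e f α β hee hff hef hαβ x y
    · intro w hw
      rw [torus_mulVec σ e f α β hff, hW e heW w hw, mul_zero, zero_smul, add_zero]
      exact W.add_mem hw (W.smul_mem _ heW)
    · have hfe : Bh σ n f e = 1 := by rw [← hS.eq, hef, map_one]
      have h1 : a * (σ a)⁻¹ = c := (mul_inv_eq_iff_eq_mul₀ hσa0).2 hac
      rw [torus_det σ e f α β hfe hef, hα, hβ]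
      linear_combination h1

theorem card_SG [Fintype F] {q : ℕ} (hF : Fintype.card F = q ^ 2) (σ : F →+* F)
    (hσ : ∀ x, σ x = x ^ q) (hσ2 : ∀ a, σ (σ a) = a) (hn : 1 ≤ n)
    (W : Submodule F (Fin n → F)) (hW : ∀ u ∈ W, ∀ v ∈ W, Bh σ n u v = 0) :
    Nat.card ↥(SG q W) = (q + 1) * Nat.card ↥((Cfsg.stabilizing (Cfsg.slToMat n F)
      (W : Set (Fin n → F))).subgroupOf (Cfsg.SU n F q)) := by
  classical
  have hcard := Cfsg.Agent.Lib.Helper5.HermCount.card_norm_eq hF 1 one_ne_zero (one_pow q)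
  rw [← hcard]
  let f : ↥(SG q W) → {x : F // x * x ^ q = 1} := fun g =>
    ⟨(mat g.1).det, Cfsg.Agent.Lib.Helper45.SUCard.det_mul_det_pow σ hσ _
      (fun u v => (Cfsg.Agent.Lib.Helper45.GUCard.mem_GU_iff g.1.1).1 g.1.2 u v)⟩
  let toSG : ↥((Cfsg.stabilizing (Cfsg.slToMat n F)
      (W : Set (Fin n → F))).subgroupOf (Cfsg.SU n F q)) → ↥(SG q W) := fun s =>
    ⟨Cfsg.Agent.Lib.Helper45.SUCard.toGU s.1, fun v => (Subgroup.mem_subgroupOf.1 s.2) v⟩
  let act : ↥((Cfsg.stabilizing (Cfsg.slToMat n F)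
      (W : Set (Fin n → F))).subgroupOf (Cfsg.SU n F q)) → ↥(SG q W) → ↥(SG q W) :=
    fun s g => g * toSG s
  apply Cfsg.Agent.S2669.card_eq_mul f act
  · rintro ⟨c, hc⟩
    obtain ⟨M, hM, hMW, hdet⟩ := exists_det hF σ hσ hσ2 hn W hW c (by rw [hσ]; exact hc)
    have hMp : ∀ u v, Cfsg.hermForm n F q (M *ᵥ u) (M *ᵥ v) = Cfsg.hermForm n F q u v := by
      intro u v
      rw [← Bh_herm σ hσ, ← Bh_herm σ hσ]
      exact hM v u
    refine ⟨⟨Cfsg.Agent.Lib.Helper45.GUCard.mkGU σ hσ M hMp, ?_⟩, ?_⟩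
    · exact Cfsg.Agent.S0774.mem_stab_of_mapsTo _ _ (Set.toFinite _) _ (fun v hv => hMW v hv)
    · apply Subtype.ext
      exact hdet
  · intro s g
    apply Subtype.ext
    show (mat (g.1 * Cfsg.Agent.Lib.Helper45.SUCard.toGU s.1)).det = (mat g.1).det
    rw [mat_mul, Matrix.det_mul]
    have h1 : (mat (Cfsg.Agent.Lib.Helper45.SUCard.toGU s.1)).det = 1 := s.1.1.det_coe
    rw [h1, mul_one]
  · intro g g₂ hgg
    have h1 : (mat g.1).det = (mat g₂.1).det := congrArg Subtype.val hgg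
    have hg0 : (mat g.1).det ≠ 0 := by
      have := (Matrix.isUnit_iff_isUnit_det _).1 g.1.1.isUnit
      exact this.ne_zero
    have h2 : (mat (g⁻¹ * g₂).1).det = 1 := by
      have h3 : (mat g.1).det * (mat (g⁻¹ * g₂).1).det = (mat g.1).det := by
        rw [← Matrix.det_mul, ← mat_mul, ← Subgroup.coe_mul, mul_inv_cancel_left, h1]
      exact mul_left_cancel₀ hg0 (by rw [h3, mul_one])
    let s₀ : Matrix.SpecialLinearGroup (Fin n) F := ⟨mat (g⁻¹ * g₂).1, h2⟩
    have hs₀ : s₀ ∈ Cfsg.SU n F q :=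
      fun u v => (Cfsg.Agent.Lib.Helper45.GUCard.mem_GU_iff (g⁻¹ * g₂).1.1).1
        (g⁻¹ * g₂).1.2 u v
    have hs₀W : (⟨s₀, hs₀⟩ : ↥(Cfsg.SU n F q)) ∈ (Cfsg.stabilizing (Cfsg.slToMat n F)
        (W : Set (Fin n → F))).subgroupOf (Cfsg.SU n F q) := by
      rw [Subgroup.mem_subgroupOf]
      exact fun v => (g⁻¹ * g₂).2 v
    have h4 : toSG ⟨⟨s₀, hs₀⟩, hs₀W⟩ = g⁻¹ * g₂ := by
      apply Subtype.ext
      apply Subtype.ext
      apply Units.ext
      rfl
    refine ⟨⟨⟨s₀, hs₀⟩, hs₀W⟩, ?_, ?_⟩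
    · show g * toSG ⟨⟨s₀, hs₀⟩, hs₀W⟩ = g₂
      rw [h4, mul_inv_cancel_left]
    · intro s' hs'
      have h5 : g * toSG s' = g₂ := hs'
      have h6 : toSG s' = toSG ⟨⟨s₀, hs₀⟩, hs₀W⟩ := by
        rw [h4, ← h5, inv_mul_cancel_left]
      apply Subtype.ext
      apply Subtype.ext
      apply Subtype.ext
      exact congrArg (fun z : ↥(SG q W) => mat z.1) h6

end

/-- Maximal parabolics of SU_n(q): if W is a k-dimensional subspace of F^n (n ≥ 1, |F| = q²) on which the Hermitian form vanishes, then (q + 1) times the order of its stabiliser in SU_n(q) equals q^(k(2n−3k)) · |GL_k(q²)| · |GU_(n−2k)(q)|, where |GU_m(q)| = q^(m(m−1)/2) Π_(i=1..m) (q^i − (−1)^i). -/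
theorem result {F : Type*} [Field F] [Fintype F] {q : ℕ} (hF : Fintype.card F = q ^ 2) (n k : ℕ) (hn : 1 ≤ n) (hk : 2 * k ≤ n) (W : Submodule F (Fin n → F)) (hWk : Module.finrank F W = k) (hW : ∀ u ∈ W, ∀ v ∈ W, Cfsg.hermForm n F q u v = 0) : (q + 1) * Nat.card ↥((Cfsg.stabilizing (Cfsg.slToMat n F) (W : Set (Fin n → F))).subgroupOf (Cfsg.SU n F q)) = q ^ (k * (2 * n - 3 * k)) * (∏ i : Fin k, ((q ^ 2) ^ k - (q ^ 2) ^ (i : ℕ))) * (q ^ ((n - 2 * k) * ((n - 2 * k) - 1) / 2) * ∏ i ∈ Finset.range (n - 2 * k), (if Even i then q ^ (i + 1) + 1 else q ^ (i + 1) - 1)) := by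
  classical
  obtain ⟨σ, hσ, hσ2⟩ := Cfsg.Agent.Lib.Helper45.GUCard.exists_conj hF
  have hS := Bh_symm σ hσ2 n
  have hWiso : ∀ u ∈ W, ∀ v ∈ W, Bh σ n u v = 0 := fun u hu v hv => by
    rw [Bh_herm σ hσ]
    exact hW v hv u hu
  rw [← card_SG hF σ hσ hσ2 hn W hWiso]
  obtain ⟨b⟩ : Nonempty (Module.Basis (Fin k) F W) := ⟨Module.finBasisOfFinrankEq F W hWk⟩
  obtain ⟨v₀, hv₀⟩ : ∃ v₀ : Fin k → (Fin n → F), v₀ = fun i => (b i : Fin n → F) := ⟨_, rfl⟩
  have hv₀W : ∀ i, v₀ i ∈ W := by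
    intro i
    rw [hv₀]
    exact (b i).2
  have hv₀li : LinearIndependent F v₀ := by
    rw [hv₀]
    exact b.linearIndependent.map' W.subtype (Submodule.ker_subtype W)
  have hspan : ∀ v : Fin k → (Fin n → F), LinearIndependent F v → (∀ i, v i ∈ W) →
      Submodule.span F (Set.range v) = W := by
    intro v hv hvW
    apply Submodule.eq_of_le_of_finrank_eq
    · rw [Submodule.span_le]
      rintro _ ⟨i, rfl⟩
      exact hvW i
    · rw [finrank_span_eq_card hv, Fintype.card_fin, hWk]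
  have hli : ∀ g : ↥(Cfsg.GU n F q), LinearIndependent F (fun i => mat g *ᵥ v₀ i) := by
    intro g
    have h0 := Fintype.linearIndependent_iff.1 hv₀li
    rw [Fintype.linearIndependent_iff]
    intro c hc
    apply h0 c
    have h2 : mat g *ᵥ (∑ i, c i • v₀ i) = 0 := by
      rw [Matrix.mulVec_sum, ← hc]
      apply Finset.sum_congr rfl
      intro i _
      rw [Matrix.mulVec_smul]
    have h3 := congrArg (fun w => mat g⁻¹ *ᵥ w) h2
    simp only [mat_inv_mulVec, Matrix.mulVec_zero] at h3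
    exact h3
  let PS : Subgroup ↥(Cfsg.GU n F q) :=
    { carrier := {g | ∀ i, mat g *ᵥ v₀ i = v₀ i}
      mul_mem' := by
        intro a b ha hb i
        show mat (a * b) *ᵥ v₀ i = v₀ i
        rw [mat_mul, ← Matrix.mulVec_mulVec, hb i, ha i]
      one_mem' := by
        intro i
        show mat (1 : ↥(Cfsg.GU n F q)) *ᵥ v₀ i = v₀ i
        rw [mat_one, Matrix.one_mulVec]
      inv_mem' := by
        intro a ha i
        have h1 := mat_inv_mulVec a (v₀ i)
        rw [ha i] at h1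
        exact h1 }
  have hPS : ∀ g : ↥(Cfsg.GU n F q), g ∈ PS ↔ ∀ i, mat g *ᵥ v₀ i = v₀ i := fun g => Iff.rfl
  have hfibG : ∀ g h : ↥(Cfsg.GU n F q),
      ((fun i => mat g *ᵥ v₀ i) = (fun i => mat h *ᵥ v₀ i)) ↔ g⁻¹ * h ∈ PS := by
    intro g h
    rw [hPS]
    constructor
    · intro hgh i
      have h1 : mat g *ᵥ v₀ i = mat h *ᵥ v₀ i := congrFun hgh i
      rw [mat_mul, ← Matrix.mulVec_mulVec, ← h1, mat_inv_mulVec]
    · intro hgh
      funext i
      have h1 := hgh i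
      rw [mat_mul, ← Matrix.mulVec_mulVec] at h1
      have h2 := congrArg (fun w => mat g *ᵥ w) h1
      simp only [mat_mulVec_inv] at h2
      exact h2.symm
  have h1 := Cfsg.Agent.S0775.card_fibers
    (fun g : ↥(Cfsg.GU n F q) => fun i => mat g *ᵥ v₀ i)
    {v : Fin k → (Fin n → F) | LinearIndependent F v ∧ ∀ i j, Bh σ n (v i) (v j) = 0}
    (by
      ext v
      constructor
      · rintro ⟨g, rfl⟩
        refine ⟨hli g, fun i j => ?_⟩
        show Bh σ n (mat g *ᵥ v₀ i) (mat g *ᵥ v₀ j) = 0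
        rw [mat_pres σ hσ]
        exact hWiso _ (hv₀W i) _ (hv₀W j)
      · rintro ⟨hv, hiso⟩
        obtain ⟨M, hMp, hM⟩ := frames_trans hF σ hσ hσ2 v₀ v hv₀li hv
          (fun i j => hWiso _ (hv₀W i) _ (hv₀W j)) hiso
        exact ⟨Cfsg.Agent.Lib.Helper45.GUCard.mkGU σ hσ M hMp, funext hM⟩) PS hfibG
  have hP : ∀ (A : ↥(Cfsg.GU n F q)) (v : Fin k → (Fin n → F)),
      (∀ i, mat A *ᵥ v₀ i = v i) → LinearIndependent F v → (∀ i, v i ∈ W) →
      A ∈ SG q W := by
    intro A v hA hv hvW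
    rw [mem_SG]
    intro x
    have hAsum : ∀ c : Fin k → F, mat A *ᵥ (∑ i, c i • v₀ i) = ∑ i, c i • v i := by
      intro c
      rw [Matrix.mulVec_sum]
      apply Finset.sum_congr rfl
      intro i _
      rw [Matrix.mulVec_smul, hA i]
    constructor
    · intro hx
      rw [← hspan v₀ hv₀li hv₀W] at hx
      obtain ⟨c, rfl⟩ := (Submodule.mem_span_range_iff_exists_fun F).1 hx
      rw [hAsum]
      exact Submodule.sum_mem _ (fun i _ => W.smul_mem _ (hvW i))
    · intro hx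
      rw [← hspan v hv hvW] at hx
      obtain ⟨c, hc⟩ := (Submodule.mem_span_range_iff_exists_fun F).1 hx
      rw [← hAsum] at hc
      have h2 := congrArg (fun w => mat A⁻¹ *ᵥ w) hc
      simp only [mat_inv_mulVec] at h2
      rw [← h2]
      exact Submodule.sum_mem _ (fun i _ => W.smul_mem _ (hv₀W i))
  have hPSle : PS ≤ SG q W := fun g hg => hP g v₀ hg hv₀li hv₀W
  have h2 := Cfsg.Agent.S0775.card_fibers
    (fun g : ↥(SG q W) => fun i => mat g.1 *ᵥ v₀ i)
    {v : Fin k → (Fin n → F) | LinearIndependent F v ∧ ∀ i, v i ∈ W}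
    (by
      ext v
      constructor
      · rintro ⟨g, rfl⟩
        exact ⟨hli g.1, fun i => ((mem_SG W g.1).1 g.2 (v₀ i)).1 (hv₀W i)⟩
      · rintro ⟨hv, hvW⟩
        obtain ⟨M, hMp, hM⟩ := frames_trans hF σ hσ hσ2 v₀ v hv₀li hv
          (fun i j => hWiso _ (hv₀W i) _ (hv₀W j)) (fun i j => hWiso _ (hvW i) _ (hvW j))
        exact ⟨⟨Cfsg.Agent.Lib.Helper45.GUCard.mkGU σ hσ M hMp, hP _ v hM hv hvW⟩,
          funext hM⟩)
    (PS.subgroupOf (SG q W))
    (by
      intro g h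
      rw [Subgroup.mem_subgroupOf]
      exact hfibG g.1 h.1)
  rw [Nat.card_congr (Subgroup.subgroupOfEquivOfLe hPSle).toEquiv] at h2
  have hGL : Nat.card ↥{v : Fin k → (Fin n → F) | LinearIndependent F v ∧ ∀ i, v i ∈ W} =
      ∏ i : Fin k, ((q ^ 2) ^ k - (q ^ 2) ^ (i : ℕ)) := by
    have hfinW : Finite W := Module.finite_of_finite F
    have h3 := card_linearIndependent (K := F) (V := W) (k := k) (le_of_eq hWk.symm)
    rw [hWk, hF] at h3
    rw [← h3]
    apply Nat.card_congr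
    exact
      { toFun := fun v => ⟨fun i => ⟨v.1 i, v.2.2 i⟩,
          LinearIndependent.of_comp W.subtype v.2.1⟩
        invFun := fun s => ⟨fun i => (s.1 i : Fin n → F),
          s.2.map' W.subtype (Submodule.ker_subtype W), fun i => (s.1 i).2⟩
        left_inv := fun v => rfl
        right_inv := fun s => rfl }
  have hFr := card_frames (n := n) hF σ hσ hσ2 k
  have hGU : Nat.card ↥(Cfsg.GU n F q) = GUo q n :=
    Cfsg.Agent.Lib.Helper45.GUCard.card_GU hF n
  have harith := arith (F := F) hF n k hk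
  rw [hGL] at h2
  obtain ⟨Fr, hFrdef⟩ : ∃ Fr : ℕ, Fr = ∏ i ∈ Finset.range k, ((q ^ 2) ^ i *
      (Cfsg.Agent.Lib.Helper5.HermCount.A q (n - 2 * i) (0 : F) - 1)) := ⟨_, rfl⟩
  rw [← hFrdef] at hFr harith
  have h1' : Nat.card ↥(Cfsg.GU n F q) = Fr * Nat.card PS := by
    rw [← hFr]
    exact h1
  have hFrpos : 0 < Fr := by
    apply Nat.pos_of_ne_zero
    intro h0
    have hpos : 0 < Nat.card ↥(Cfsg.GU n F q) := Nat.card_pos
    rw [h1', h0, zero_mul] at hpos
    omega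
  apply Nat.eq_of_mul_eq_mul_right hFrpos
  have hgoal : q ^ ((n - 2 * k) * ((n - 2 * k) - 1) / 2) * ∏ i ∈ Finset.range (n - 2 * k),
      (if Even i then q ^ (i + 1) + 1 else q ^ (i + 1) - 1) = GUo q (n - 2 * k) := rfl
  rw [h2, hgoal]
  calc (∏ i : Fin k, ((q ^ 2) ^ k - (q ^ 2) ^ (i : ℕ))) * Nat.card PS * Fr
      = (∏ i : Fin k, ((q ^ 2) ^ k - (q ^ 2) ^ (i : ℕ))) * (Fr * Nat.card PS) := by ring
    _ = (∏ i : Fin k, ((q ^ 2) ^ k - (q ^ 2) ^ (i : ℕ))) * GUo q n := by rw [← h1', hGU]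
    _ = _ := by
      rw [harith]
      ring

end Cfsg.Agent.S0782
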