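import Cfsg.Statements.S0802
import Cfsg.Agent.Lib.Helper14.Tri
import Cfsg.Agent.Lib.Helper14.A4Pres
import Cfsg.Agent.Lib.Helper42.SL2Even

set_option autoImplicit false
open Cfsg

namespace Cfsg.Agent.S0802

open Matrix Cfsg.Agent.Lib.Helper14.Tri Cfsg.Agent.Lib.Helper59.PSL2Spec
  Cfsg.Agent.Lib.Helper14.A4Pres Cfsg.Agent.Lib.Helper42.SL2Even

section mat

variable {F : Type*} [Field F]

/-- characteristic 2: an element `G` of trace 1 and an involution `T ≠ 1` with `tr (G T) = 1`
force a root of `λ² + λ + 1`. -/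
theorem exists_root (h2 : (2 : F) = 0) (g₁ g₂ g₃ g₄ a b c d : F)
    (H1 : g₁ * g₄ - g₂ * g₃ = 1) (H2 : g₁ + g₄ = 1) (H3 : a * d - b * c = 1) (H4 : a + d = 0)
    (H5 : g₁ * a + g₂ * c + g₃ * b + g₄ * d = 1) (hT : ¬ (a = 1 ∧ b = 0 ∧ c = 0 ∧ d = 1)) :
    ∃ lam : F, lam ^ 2 + lam + 1 = 0 := by
  by_cases hc : c = 0
  · subst hc
    have ha : a = 1 := by
      have h : (a - 1) ^ 2 = 0 := by
        linear_combination (-1 : F) * H3 + a * H4 + (-a) * h2
      have := pow_eq_zero_iff (two_ne_zero) |>.mp h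
      linear_combination this
    subst ha
    have hd : d = 1 := by linear_combination H4 - h2
    subst hd
    have hb : b ≠ 0 := fun hb => hT ⟨rfl, hb, rfl, rfl⟩
    have hg3 : g₃ = 0 := by
      have : g₃ * b = 0 := by linear_combination H5 - H2
      rcases mul_eq_zero.mp this with h | h
      · exact h
      · exact absurd h hb
    subst hg3
    exact ⟨g₁, by linear_combination (-1 : F) * H1 + g₁ * H2 + g₁ * h2⟩
  · refine ⟨(g₃ * (a + 1) + g₄ * c) / c, ?_⟩
    have hE : (g₃ * (a + 1) + g₄ * c) ^ 2 + (g₃ * (a + 1) + g₄ * c) * c + c ^ 2 = 0 := by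
      linear_combination c ^ 2 * H1 + (-(g₃ * c * a) - c ^ 2 * g₄) * H2 + g₃ ^ 2 * H3 +
        (-(g₃ * c * g₄) - g₃ ^ 2 * a) * H4 + g₃ * c * H5 +
        (g₃ * (a + 1) * c + g₃ * c * (-a + g₄ * a) + g₃ ^ 2 * (a ^ 2 + a + 1) +
          c ^ 2 * (g₄ ^ 2 + 1) + g₃ * g₄ * (a + 1) * c) * h2
    have : ((g₃ * (a + 1) + g₄ * c) / c) ^ 2 + (g₃ * (a + 1) + g₄ * c) / c + 1 =
        ((g₃ * (a + 1) + g₄ * c) ^ 2 + (g₃ * (a + 1) + g₄ * c) * c + c ^ 2) / c ^ 2 := by
      field_simp
    rw [this, hE, zero_div]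

end mat


/-- PSL_2(p^n) has a subgroup isomorphic to A_4 if and only if it is not the case that p = 2 and n is odd. -/
theorem result {F : Type*} [Field F] [Fintype F] (p n : ℕ) [Fact p.Prime] [CharP F p] (hF : Fintype.card F = p ^ n) : (∃ H : Subgroup (Matrix.ProjectiveSpecialLinearGroup (Fin 2) F), Nonempty (H ≃* alternatingGroup (Fin 4))) ↔ ¬ (p = 2 ∧ Odd n) := by
  classical
  constructor
  · rintro ⟨H, ⟨e⟩⟩ ⟨rfl, hn⟩
    have h2 : (2 : F) = 0 := CharTwo.two_eq_zero
    let ι : alternatingGroup (Fin 4) →* SpecialLinearGroup (Fin 2) F :=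
      ((slEquivPSL (F := F)).symm.toMonoidHom.comp H.subtype).comp e.symm.toMonoidHom
    have hι : Function.Injective ι :=
      ((slEquivPSL (F := F)).symm.injective.comp Subtype.val_injective).comp e.symm.injective
    have hcen : ∀ M : SpecialLinearGroup (Fin 2) F, M ≠ 1 →
        M ∉ Subgroup.center (SpecialLinearGroup (Fin 2) F) := by
      intro M hM hMc
      rw [center_eq_bot, Subgroup.mem_bot] at hMc
      exact hM hMc
    have htr3 : ∀ M : SpecialLinearGroup (Fin 2) F, M ≠ 1 → M ^ 3 = 1 →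
        (M : Matrix (Fin 2) (Fin 2) F).trace = 1 := by
      intro M hM h3
      have hl := lucas_of_pow_mem_center M (hcen M hM) 3 (by rw [h3]; exact one_mem _)
      rw [lucas_three] at hl
      have h : ((M : Matrix (Fin 2) (Fin 2) F).trace - 1) ^ 2 = 0 := by
        linear_combination hl + (1 - (M : Matrix (Fin 2) (Fin 2) F).trace) * h2
      have := pow_eq_zero_iff (two_ne_zero) |>.mp h
      linear_combination this
    have htr2 : ∀ M : SpecialLinearGroup (Fin 2) F, M ≠ 1 → M ^ 2 = 1 →
        (M : Matrix (Fin 2) (Fin 2) F).trace = 0 := by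
      intro M hM h3
      have hl := lucas_of_pow_mem_center M (hcen M hM) 2 (by rw [h3]; exact one_mem _)
      rw [lucas_two] at hl
      exact hl
    have ga3 : ga ^ 3 = 1 := by decide
    have ga1 : ga ≠ 1 := by decide
    have t2 : (ga * gb) ^ 2 = 1 := by decide
    have t1 : ga * gb ≠ 1 := by decide
    have gt3 : (ga * (ga * gb)) ^ 3 = 1 := by decide
    have gt1 : ga * (ga * gb) ≠ 1 := by decide
    have hG := htr3 (ι ga) (fun h => ga1 (hι (h.trans (map_one ι).symm)))
      (by rw [← map_pow, ga3, map_one])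
    have hT := htr2 (ι (ga * gb)) (fun h => t1 (hι (h.trans (map_one ι).symm)))
      (by rw [← map_pow, t2, map_one])
    have hGT := htr3 (ι ga * ι (ga * gb))
      (fun h => gt1 (hι ((map_mul ι _ _).trans (h.trans (map_one ι).symm))))
      (by rw [← map_mul, ← map_pow, gt3, map_one])
    have hTne : ι (ga * gb) ≠ 1 := fun h => t1 (hι (h.trans (map_one ι).symm))
    generalize ι ga = Gm at hG hGT
    generalize ι (ga * gb) = Tm at hT hGT hTne
    rw [Matrix.trace_fin_two] at hG hT
    rw [Matrix.SpecialLinearGroup.coe_mul, Matrix.trace_fin_two, Matrix.mul_apply,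
      Matrix.mul_apply, Fin.sum_univ_two, Fin.sum_univ_two] at hGT
    have hdG := Cfsg.Agent.Lib.Helper42.SL2Even.det_eq Gm
    have hdT := Cfsg.Agent.Lib.Helper42.SL2Even.det_eq Tm
    obtain ⟨lam, hlam⟩ := exists_root h2 (Gm 0 0) (Gm 0 1) (Gm 1 0) (Gm 1 1) (Tm 0 0) (Tm 0 1)
      (Tm 1 0) (Tm 1 1) hdG hG hdT hT (by linear_combination hGT) (by
        rintro ⟨h00, h01, h10, h11⟩
        apply hTne
        apply Cfsg.Agent.Lib.Helper42.SL2Even.ext_entries <;> simp [h00, h01, h10, h11])
    -- no root of λ² + λ + 1 when n is odd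
    have hl3 : lam ^ 3 = 1 := by linear_combination (lam - 1) * hlam
    have hl0 : lam ≠ 0 := by
      rintro rfl
      simp at hl3
    have hl1 : lam ≠ 1 := by
      rintro rfl
      have : (1 : F) = 0 := by linear_combination hlam - h2
      exact one_ne_zero this
    have hpow := FiniteField.pow_card_sub_one_eq_one lam hl0
    rw [hF] at hpow
    obtain ⟨m, rfl⟩ := hn
    have h4 : 4 ^ m % 3 = 1 := by rw [Nat.pow_mod]; simp
    have h24 : 2 ^ (2 * m + 1) = 2 * 4 ^ m := by rw [pow_succ, pow_mul]; ring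
    have hk : 2 ^ (2 * m + 1) - 1 = 3 * ((2 ^ (2 * m + 1) - 1) / 3) + 1 := by
      have := Nat.div_add_mod (2 ^ (2 * m + 1) - 1) 3
      omega
    rw [hk, pow_succ, pow_mul, hl3, one_pow, one_mul] at hpow
    exact hl1 hpow
  · intro hnot
    have hconic : ∃ a b : F, a ^ 2 - (-1) * a + b ^ 2 - b + 1 = 0 := by
      by_cases hp : p = 2
      · subst hp
        have hn : Even n := by
          rcases Nat.even_or_odd n with h | h
          · exact h
          · exact absurd ⟨rfl, h⟩ hnot
        have h2 : (2 : F) = 0 := CharTwo.two_eq_zero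
        obtain ⟨m, rfl⟩ := hn
        have h3 : 3 ∣ Nat.card Fˣ := by
          rw [Nat.card_units, Nat.card_eq_fintype_card, hF]
          have : 2 ^ (m + m) = 4 ^ m := by rw [← two_mul, pow_mul]; norm_num
          rw [this]
          exact Nat.sub_one_dvd_pow_sub_one (x := 4) (n := m)
        have : Fact (Nat.Prime 3) := ⟨by norm_num⟩
        obtain ⟨u, hu⟩ := exists_prime_orderOf_dvd_card' 3 h3
        have hu3 : (u : F) ^ 3 = 1 := by
          have : u ^ 3 = 1 := by rw [← hu]; exact pow_orderOf_eq_one u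
          rw [← Units.val_pow_eq_pow_val, this, Units.val_one]
        have hu1 : (u : F) ≠ 1 := by
          intro h
          have : u = 1 := Units.ext h
          rw [this, orderOf_one] at hu
          omega
        have hω : (u : F) ^ 2 + (u : F) + 1 = 0 := by
          have h : ((u : F) - 1) * ((u : F) ^ 2 + (u : F) + 1) = 0 := by linear_combination hu3
          rcases mul_eq_zero.mp h with h | h
          · exact absurd (sub_eq_zero.mp h) hu1
          · exact h
        exact ⟨0, (u : F), by linear_combination hω - (u : F) * h2⟩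
      · have hodd : Fintype.card F % 2 = 1 := by
          rw [hF]
          exact Nat.odd_iff.mp (((Fact.out : p.Prime).odd_of_ne_two hp).pow)
        exact exists_conic hodd (-1)
    obtain ⟨a, b, hab⟩ := hconic
    exact exists_A4 (QuotientGroup.mk (X a b (-1) hab)) (QuotientGroup.mk (Y a b (-1) hab))
      (mk_X_pow a b (-1) hab) (mk_Y_pow a b (-1) hab 3 (by rw [lucas_three]; ring))
      (mk_XY_pow a b (-1) hab) (mk_XY_ne_one a b (-1) hab)


end Cfsg.Agent.S0802
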