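import Cfsg.Statements.S0818
import Cfsg.Agent.S2696
import Cfsg.Agent.Lib.Helper45.MAut
import Cfsg.Agent.Lib.Helper43.MAutGS
import Cfsg.Agent.Lib.Helper98.MAutSS
import Cfsg.Agent.Lib.Helper72.MAutSU
import Cfsg.Agent.Lib.Helper72.MAutSE
import Cfsg.Agent.Lib.Helper97.MFldMB
import Cfsg.Agent.Lib.Helper15.MFldKM2
import Cfsg.Agent.Lib.Helper59.MAutIC
import Cfsg.Agent.Lib.Helper82.MAutIO
import Cfsg.Agent.Lib.Helper98.MAutI2

set_option autoImplicit false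
open Cfsg

namespace Cfsg.Agent.S0818

/-- |Aut(PΩ⁻_2m(q))| for q = p^f, m ≥ 4 (form quadFormMinus (m−1) with anisotropic binary part): |PΩ⁻_2m(q)| times f, times 2 if p = 2, and times 4 or 8 if p is odd according as m(q−1)/2 is even or odd. -/
theorem result {F : Type*} [Field F] [Fintype F] (p f : ℕ) [Fact p.Prime] (hf : 1 ≤ f) (hF : Fintype.card F = p ^ f) (m : ℕ) (hm : 4 ≤ m) (a b : F) (hab : ∀ z₁ z₂ : F, z₁ ^ 2 + a * z₁ * z₂ + b * z₂ ^ 2 = 0 → z₁ = 0 ∧ z₂ = 0) : Nat.card (MulAut (Cfsg.POmega F (Cfsg.quadFormMinus (m - 1) F a b))) = (if p = 2 then 2 else (if Even (m * (p ^ f - 1) / 2) then 4 else 8)) * f * Nat.card (Cfsg.POmega F (Cfsg.quadFormMinus (m - 1) F a b)) := by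
  exact Cfsg.Agent.Lib.Helper45.MAut.assembly Cfsg.Agent.Lib.Helper43.MAutGS.main
    Cfsg.Agent.Lib.Helper98.MAutSS.main Cfsg.Agent.Lib.Helper72.MAutSU.main
    Cfsg.Agent.Lib.Helper72.MAutSE.main Cfsg.Agent.Lib.Helper97.MFldMB.isoMinus
    (Cfsg.Agent.Lib.Helper15.MFldKM2.main Cfsg.Agent.Lib.Helper97.MFldMB.sepMinus)
    Cfsg.Agent.Lib.Helper59.MAutIC.main Cfsg.Agent.Lib.Helper82.MAutIO.main
    Cfsg.Agent.Lib.Helper98.MAutI2.main p f hf hF m hm a b hab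
    (Cfsg.Agent.S2696.result (by omega) a b hab)

end Cfsg.Agent.S0818
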