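import Cfsg.Statements.S0821
import Mathlib
import Cfsg.Agent.Lib.Helper5.TwoRankSp
import Cfsg.Agent.Lib.Helper5.OddElemAb
import Cfsg.Agent.Lib.Helper13.SympMat
import Cfsg.Agent.S0246

set_option autoImplicit false
open Cfsg

namespace Cfsg.Agent.S0821

open Cfsg.Agent.Lib.Helper5.TwoRankSp Cfsg.Agent.Lib.Helper5.OddElemAb
open Cfsg.Agent.Lib.Helper13.SympMat
open Matrix

section aux

variable {F : Type*} [Field F] (m : ℕ)

/-- the symplectic form as an `AltForm` -/
theorem altForm_form : AltForm (fun u v : Fin m ⊕ Fin m → F => form m F u v) where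
  add_left u v w := by simp
  smul_left c u v := by simp
  add_right u v w := by simp
  smul_right c u v := by simp
  self v := form_alt m v
  nondeg v hv := (form_nondeg (F := F) m).1 v hv

/-- the natural representation of a subgroup of the symplectic group -/
noncomputable def rep (H : Subgroup (Matrix.symplecticGroup (Fin m) F)) :
    ↥H →* Module.End F (Fin m ⊕ Fin m → F) where
  toFun g := Matrix.toLin' (((g : Matrix.symplecticGroup (Fin m) F) :
    Matrix (Fin m ⊕ Fin m) (Fin m ⊕ Fin m) F))
  map_one' := by
    rw [Subgroup.coe_one, Submonoid.coe_one, Matrix.toLin'_one]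
    rfl
  map_mul' g h := by
    rw [Subgroup.coe_mul, Submonoid.coe_mul, Matrix.toLin'_mul]
    rfl

theorem rep_apply (H : Subgroup (Matrix.symplecticGroup (Fin m) F)) (g : ↥H)
    (v : Fin m ⊕ Fin m → F) :
    rep m H g v = ((g : Matrix.symplecticGroup (Fin m) F) :
      Matrix (Fin m ⊕ Fin m) (Fin m ⊕ Fin m) F) *ᵥ v :=
  Matrix.toLin'_apply _ _

theorem rep_injective (H : Subgroup (Matrix.symplecticGroup (Fin m) F)) :
    Function.Injective (rep m H) := by
  intro g h hgh
  apply Subtype.ext
  apply Subtype.ext
  exact Matrix.toLin'.injective hgh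

end aux

/-- PSp_2m(q) ≇ PΩ_(2m+1)(q) for q odd and m ≥ 3 (they have the same order). -/
theorem result {F : Type*} [Field F] [Fintype F] (hodd : Odd (Fintype.card F)) (m : ℕ) (hm : 3 ≤ m) : IsEmpty (Cfsg.PSp m F ≃* Cfsg.POmega F (Cfsg.quadFormOdd m F)) := by
  classical
  constructor
  intro e
  have h2 : (2 : F) ≠ 0 := Cfsg.Agent.Lib.Helper44.FinSq.two_ne_zero_of_odd_card hodd
  obtain ⟨E, hEsq, hEcard⟩ := exists_elemAb h2 m (by omega)
  -- pull back to the symplectic group
  set Z := Subgroup.center (Matrix.symplecticGroup (Fin m) F) with hZ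
  set E' : Subgroup (Matrix.symplecticGroup (Fin m) F ⧸ Z) := E.comap e.toMonoidHom with hE'
  set H : Subgroup (Matrix.symplecticGroup (Fin m) F) := E'.comap (QuotientGroup.mk' Z) with hH
  have hE'card : Nat.card E ≤ Nat.card E' := by
    apply Nat.card_le_card_of_injective (fun x : E => (⟨e.symm x, by
      rw [hE', Subgroup.mem_comap]
      show e (e.symm x) ∈ E
      rw [MulEquiv.apply_symm_apply]
      exact x.2⟩ : E'))
    intro x y hxy
    apply Subtype.ext
    have := congrArg (fun t : E' => e (t : Matrix.symplecticGroup (Fin m) F ⧸ Z)) hxy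
    simpa using this
  have hZcard : Nat.card Z = 2 := by
    have h := Cfsg.Agent.S0246.result (F := F) (q := Fintype.card F) rfl m (by omega)
    rw [hZ, h]
    rcases hodd with ⟨k, hk⟩
    have : Fintype.card F - 1 = 2 * k := by omega
    rw [this]
    exact Nat.gcd_mul_right_right k 2
  have hHcard : Nat.card H = Nat.card E' * 2 := by
    have hA := Subgroup.card_mul_index H
    have hB := Subgroup.card_mul_index E'
    have hC := Subgroup.card_eq_card_quotient_mul_card_subgroup Z
    have hD : H.index = E'.index :=
      Subgroup.index_comap_of_surjective _ (QuotientGroup.mk'_surjective Z)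
    have hpos : 0 < E'.index := Nat.pos_of_ne_zero Subgroup.index_ne_zero_of_finite
    rw [hD, hC, ← hB, hZcard] at hA
    have : Nat.card H * E'.index = (Nat.card E' * 2) * E'.index := by rw [hA]; ring
    exact Nat.eq_of_mul_eq_mul_right hpos this
  -- the bound
  have hρ : PreRep (fun u v : Fin m ⊕ Fin m → F => form m F u v) (rep m H) := by
    constructor
    · intro g v w
      rw [rep_apply, rep_apply]
      exact (mem_symp_iff m _).1 (g : Matrix.symplecticGroup (Fin m) F).2 v w
    · intro g
      have hg : ((g * g : H) : Matrix.symplecticGroup (Fin m) F) ∈ Z := by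
        have h1 : QuotientGroup.mk' Z (g : Matrix.symplecticGroup (Fin m) F) ∈ E' := g.2
        have h3 := hEsq _ h1
        rw [← map_mul, ← map_one e.toMonoidHom] at h3
        have h4 := e.injective h3
        rw [← map_mul] at h4
        have h5 : ((g : Matrix.symplecticGroup (Fin m) F) * g) ∈ (QuotientGroup.mk' Z).ker :=
          MonoidHom.mem_ker.mpr h4
        rw [QuotientGroup.ker_mk'] at h5
        rw [Subgroup.coe_mul]
        exact h5
      obtain ⟨a, ha, hA⟩ := Cfsg.Agent.S0246.center_scalar m (by omega) _ hg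
      rw [sq] at ha
      rcases mul_self_eq_one_iff.mp ha with rfl | rfl
      · left
        apply LinearMap.ext
        intro v
        rw [rep_apply, hA, one_smul, Matrix.one_mulVec]
        rfl
      · right
        apply LinearMap.ext
        intro v
        rw [rep_apply, hA, neg_one_smul, Matrix.neg_mulVec, Matrix.one_mulVec]
        rfl
  have hfr : Module.finrank F (Fin m ⊕ Fin m → F) = m + m := by
    rw [Module.finrank_fintype_fun_eq_card, Fintype.card_sum, Fintype.card_fin]
  have hbound := card_le_main h2 (altForm_form m) (rep m H) hρ (rep_injective m H)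
    (by rw [hfr]; omega)
  rw [hfr] at hbound
  have e1 : 2 * ((m + m) / 2) - 1 = 2 * m - 1 := by omega
  rw [e1, hHcard] at hbound
  have h5 : 2 ^ (2 * m - 1) * 2 ≤ 2 ^ (2 * m - 1) :=
    le_trans (Nat.mul_le_mul_right 2 (le_trans hEcard hE'card)) hbound
  have h6 : 0 < 2 ^ (2 * m - 1) := pos_of_gt (Nat.one_lt_two_pow (by omega))
  omega

end Cfsg.Agent.S0821
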