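import Mathlib
import Cfsg.Statements.S0861
import Cfsg.Agent.S0169
import Cfsg.Agent.S4574
import Cfsg.Agent.S0187
import Cfsg.Agent.Lib.Helper3.Orth
import Cfsg.Agent.Lib.Helper3.Spectral
import Cfsg.Agent.Lib.Helper3.Irr
import Cfsg.Agent.Lib.CT.Wedderburn
import Cfsg.Agent.Lib.Helper81.Irr
-- import your own Cfsg.Agent.* helpers here

set_option autoImplicit false
open Cfsg

namespace Cfsg.Agent.S0861

open Cfsg.Agent.Lib.CT Cfsg.Agent.Lib.Helper3

/-- If a sum of `d` roots of unity of `p`-power order vanishes, then `p` divides `d`. -/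
theorem dvd_of_sum_roots_eq_zero (p : ℕ) [Fact p.Prime] (a : ℕ) {d : ℕ} (μ : Fin d → ℂ)
    (hμ : ∀ i, μ i ^ (p ^ a) = 1) (h0 : ∑ i, μ i = 0) : p ∣ d := by
  have hp : p.Prime := Fact.out
  rcases Nat.eq_zero_or_pos a with rfl | ha
  · have h1 : ∀ i, μ i = 1 := fun i => by simpa using hμ i
    have h2 : (d : ℂ) = 0 := by
      rw [← h0]
      simp [h1]
    have h3 : d = 0 := by exact_mod_cast h2
    rw [h3]
    exact dvd_zero p
  · obtain ⟨b, rfl⟩ := Nat.exists_eq_succ_of_ne_zero ha.ne'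
    have hqpos : 0 < p ^ (b + 1) := pow_pos hp.pos _
    haveI : NeZero (p ^ (b + 1)) := ⟨hqpos.ne'⟩
    have hζ : IsPrimitiveRoot (Complex.exp (2 * Real.pi * Complex.I / ((p ^ (b + 1) : ℕ) : ℂ)))
        (p ^ (b + 1)) := Complex.isPrimitiveRoot_exp (p ^ (b + 1)) hqpos.ne'
    set ζ : ℂ := Complex.exp (2 * Real.pi * Complex.I / ((p ^ (b + 1) : ℕ) : ℂ)) with hζdef
    have hex : ∀ i, ∃ e : ℕ, e < p ^ (b + 1) ∧ ζ ^ e = μ i :=
      fun i => hζ.eq_pow_of_pow_eq_one (hμ i)
    choose e he1 he2 using hex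
    let F : Polynomial ℤ := ∑ i, Polynomial.X ^ (e i)
    have hF : Polynomial.aeval ζ F = 0 := by
      simp only [F, map_sum, map_pow, Polynomial.aeval_X, he2]
      exact h0
    have hint : IsIntegral ℤ ζ := hζ.isIntegral hqpos
    have hdvd : minpoly ℤ ζ ∣ F := minpoly.isIntegrallyClosed_dvd hint hF
    rw [← Polynomial.cyclotomic_eq_minpoly hζ hqpos] at hdvd
    obtain ⟨Q, hQ⟩ := hdvd
    have h1 : Polynomial.eval 1 F = (d : ℤ) := by
      simp [F, Polynomial.eval_finsetSum]
    have h2 : Polynomial.eval 1 (Polynomial.cyclotomic (p ^ (b + 1)) ℤ) = (p : ℤ) :=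
      Polynomial.eval_one_cyclotomic_prime_pow b
    have h3 : (d : ℤ) = (p : ℤ) * Polynomial.eval 1 Q := by
      rw [← h1, hQ, Polynomial.eval_mul, h2]
    exact Int.natCast_dvd_natCast.mp ⟨_, h3⟩


/-- Let P be a normal abelian Sylow p-subgroup of the finite group G and suppose some element g of P has centralizer exactly P. Then the number of irreducible characters of G is at most the order of P, and if equality holds then G / P is abelian (the commutator subgroup lies in P). -/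
theorem result {G : Type*} [Group G] [Finite G] (p : ℕ) [Fact p.Prime] (P : Sylow p G) [(P : Subgroup G).Normal] (hab : ∀ a ∈ P, ∀ b ∈ P, a * b = b * a) (g : G) (hg : g ∈ P) (hC : Subgroup.centralizer ({g} : Set G) = P) : Nat.card (Cfsg.IrrCharacter G) ≤ Nat.card P ∧ (Nat.card (Cfsg.IrrCharacter G) = Nat.card P → commutator G ≤ P) := by
  classical
  haveI := Fintype.ofFinite G
  haveI : Finite (IrrCharacter G) := Wedderburn.finite_irrCharacter G
  haveI := Fintype.ofFinite (IrrCharacter G)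
  haveI : NeZero (Nat.card G) := ⟨Nat.card_pos.ne'⟩
  -- nonvanishing on P
  have hnv : ∀ χ : IrrCharacter G, ∀ x ∈ (P : Subgroup G), χ.1 x ≠ 0 := by
    intro χ x hx h0
    obtain ⟨n, ρ, hρ, hρχ⟩ := χ.2
    haveI := hρ
    have hdvd : n ∣ (P : Subgroup G).index := Cfsg.Agent.S0169.ito ρ hρ (P : Subgroup G) hab
    have hpn : ¬ p ∣ n := fun h => P.not_dvd_index (h.trans hdvd)
    obtain ⟨b, μ, hb, hμ⟩ := Spectral.exists_eigenbasis ρ x
    obtain ⟨a, ha⟩ := (IsPGroup.iff_orderOf.mp P.isPGroup') ⟨x, hx⟩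
    have ha' : orderOf x = p ^ a := by
      rw [← ha]
      exact (Subgroup.orderOf_mk x hx).symm
    have hsum : ρ.character x = ∑ i, μ i := Spectral.trace_eq_sum_of_eigenbasis b (ρ x) μ hb
    have h1 := dvd_of_sum_roots_eq_zero p a μ (fun i => by rw [← ha']; exact hμ i)
      (by rw [← hsum, hρχ]; exact h0)
    apply hpn
    simpa using h1
  -- centralizers of the powers
  have hcent : ∀ k : (ZMod (Nat.card G))ˣ,
      Nat.card (Subgroup.centralizer ({g ^ (k : ZMod (Nat.card G)).val} : Set G)) =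
        Nat.card P := by
    intro k
    have hcop : Nat.Coprime (k : ZMod (Nat.card G)).val (Nat.card G) :=
      ZMod.val_coe_unit_coprime k
    have hcop' : Nat.Coprime (orderOf g) (k : ZMod (Nat.card G)).val :=
      (Nat.Coprime.coprime_dvd_right (orderOf_dvd_natCard g) hcop).symm
    have hord : orderOf (g ^ (k : ZMod (Nat.card G)).val) = orderOf g :=
      Nat.Coprime.orderOf_pow hcop'
    have hz : Subgroup.zpowers (g ^ (k : ZMod (Nat.card G)).val) = Subgroup.zpowers g := by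
      apply Subgroup.eq_of_le_of_card_ge
      · rw [Subgroup.zpowers_le]
        exact Subgroup.pow_mem _ (Subgroup.mem_zpowers g) _
      · rw [Nat.card_zpowers, Nat.card_zpowers, hord]
    have hceq : Subgroup.centralizer ({g ^ (k : ZMod (Nat.card G)).val} : Set G) =
        Subgroup.centralizer ({g} : Set G) := by
      ext y
      rw [Subgroup.mem_centralizer_iff, Subgroup.mem_centralizer_iff]
      simp only [Set.mem_singleton_iff, forall_eq]
      constructor
      · intro h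
        have hgm : g ∈ Subgroup.zpowers (g ^ (k : ZMod (Nat.card G)).val) := by
          rw [hz]
          exact Subgroup.mem_zpowers g
        obtain ⟨j, hj⟩ := Subgroup.mem_zpowers_iff.mp hgm
        rw [← hj]
        exact (Commute.zpow_left (show Commute (g ^ (k : ZMod (Nat.card G)).val) y from h) j).eq
      · intro h
        exact (Commute.pow_left (show Commute g y from h) _).eq
    rw [hceq, hC]
  have hrow : ∀ k : (ZMod (Nat.card G))ˣ,
      ∑ χ : IrrCharacter G, ‖χ.1 (g ^ (k : ZMod (Nat.card G)).val)‖ ^ 2 = (Nat.card P : ℝ) := by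
    intro k
    have h1 := Orth.second_orthogonality_sum (g ^ (k : ZMod (Nat.card G)).val)
      (g ^ (k : ZMod (Nat.card G)).val)
    rw [if_pos (IsConj.refl _), hcent k] at h1
    have h2 : ∀ χ : IrrCharacter G, χ.1 (g ^ (k : ZMod (Nat.card G)).val) *
        (starRingEnd ℂ) (χ.1 (g ^ (k : ZMod (Nat.card G)).val)) =
        ((‖χ.1 (g ^ (k : ZMod (Nat.card G)).val)‖ ^ 2 : ℝ) : ℂ) := by
      intro χ
      rw [Complex.mul_conj, Complex.normSq_eq_norm_sq]
    rw [Finset.sum_congr rfl (fun χ _ => h2 χ)] at h1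
    exact_mod_cast h1
  have hcol : ∀ χ : IrrCharacter G, (Nat.totient (Nat.card G) : ℝ) ≤
      ∑ k : (ZMod (Nat.card G))ˣ, ‖χ.1 (g ^ (k : ZMod (Nat.card G)).val)‖ ^ 2 := by
    intro χ
    obtain ⟨n, ρ, hρ, hρχ⟩ := χ.2
    haveI := hρ
    have h1 := Cfsg.Agent.S4574.totient_le_sum ρ g (by rw [hρχ]; exact hnv χ g hg)
    rw [hρχ] at h1
    exact h1
  have hcardU : (Finset.univ : Finset (ZMod (Nat.card G))ˣ).card = Nat.totient (Nat.card G) := by
    rw [Finset.card_univ, ZMod.card_units_eq_totient]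
  have hcardI : (Finset.univ : Finset (IrrCharacter G)).card = Nat.card (IrrCharacter G) := by
    rw [Finset.card_univ, Nat.card_eq_fintype_card]
  have hswap : ∑ χ : IrrCharacter G, ∑ k : (ZMod (Nat.card G))ˣ,
      ‖χ.1 (g ^ (k : ZMod (Nat.card G)).val)‖ ^ 2 =
      (Nat.totient (Nat.card G) : ℝ) * (Nat.card P : ℝ) := by
    rw [Finset.sum_comm, Finset.sum_congr rfl (fun k _ => hrow k), Finset.sum_const, hcardU,
      nsmul_eq_mul]
  have htot : (Nat.totient (Nat.card G) : ℝ) * (Nat.card (IrrCharacter G) : ℝ) ≤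
      (Nat.totient (Nat.card G) : ℝ) * (Nat.card P : ℝ) := by
    rw [← hswap]
    calc (Nat.totient (Nat.card G) : ℝ) * (Nat.card (IrrCharacter G) : ℝ)
        = ∑ χ : IrrCharacter G, (Nat.totient (Nat.card G) : ℝ) := by
          rw [Finset.sum_const, hcardI, nsmul_eq_mul, mul_comm]
      _ ≤ _ := Finset.sum_le_sum (fun χ _ => hcol χ)
  have hφpos : (0 : ℝ) < Nat.totient (Nat.card G) := by
    exact_mod_cast Nat.totient_pos.mpr Nat.card_pos
  have hle : Nat.card (IrrCharacter G) ≤ Nat.card P := by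
    have := le_of_mul_le_mul_left htot hφpos
    exact_mod_cast this
  refine ⟨hle, fun heq => ?_⟩
  have hcoleq : ∀ χ : IrrCharacter G, ∑ k : (ZMod (Nat.card G))ˣ,
      ‖χ.1 (g ^ (k : ZMod (Nat.card G)).val)‖ ^ 2 = (Nat.totient (Nat.card G) : ℝ) := by
    have hsumeq : ∑ χ : IrrCharacter G, (Nat.totient (Nat.card G) : ℝ) =
        ∑ χ : IrrCharacter G, ∑ k : (ZMod (Nat.card G))ˣ,
          ‖χ.1 (g ^ (k : ZMod (Nat.card G)).val)‖ ^ 2 := by
      rw [hswap, Finset.sum_const, hcardI, nsmul_eq_mul, heq, mul_comm]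
    have h1 := (Finset.sum_eq_sum_iff_of_le (fun χ _ => hcol χ)).mp hsumeq
    intro χ
    exact (h1 χ (Finset.mem_univ χ)).symm
  have hlin : ∀ ψ : IrrCharacter (G ⧸ (P : Subgroup G)),
      (ψ : G ⧸ (P : Subgroup G) → ℂ) 1 = 1 := by
    intro ψ
    let χ : IrrCharacter G := ⟨fun x => ψ.1 (QuotientGroup.mk' (P : Subgroup G) x),
      Cfsg.Agent.Lib.Helper81.Irr.isIrrCharacter_comp ψ.2 (QuotientGroup.mk' (P : Subgroup G))
        (QuotientGroup.mk'_surjective _)⟩
    have h1 := hcoleq χ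
    have h2 : ∀ k : (ZMod (Nat.card G))ˣ,
        χ.1 (g ^ (k : ZMod (Nat.card G)).val) = ψ.1 1 := by
      intro k
      show ψ.1 (QuotientGroup.mk' (P : Subgroup G) (g ^ (k : ZMod (Nat.card G)).val)) = ψ.1 1
      have h8 : QuotientGroup.mk' (P : Subgroup G) (g ^ (k : ZMod (Nat.card G)).val) = 1 := by
        rw [QuotientGroup.mk'_apply, QuotientGroup.eq_one_iff]
        exact Subgroup.pow_mem _ hg _
      rw [h8]
    obtain ⟨d, hdpos, hd⟩ := Irr.IsIrrCharacter.exists_apply_one_pos ψ.2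
    simp only [h2, hd] at h1
    rw [Finset.sum_const, hcardU, nsmul_eq_mul] at h1
    have h3 : ‖(d : ℂ)‖ ^ 2 = 1 := mul_left_cancel₀ hφpos.ne' (h1.trans (mul_one _).symm)
    have h4 : ((d : ℝ)) ^ 2 = 1 := by
      rw [Complex.norm_natCast] at h3
      exact h3
    have h5 : d = 1 := by
      have h6 : (0 : ℝ) < d := Nat.cast_pos.mpr hdpos
      have : (d : ℝ) = 1 := by nlinarith [sq_nonneg ((d : ℝ) - 1)]
      exact_mod_cast this
    rw [hd, h5]
    simp
  have hcomm : ∀ a b : G ⧸ (P : Subgroup G), a * b = b * a :=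
    Cfsg.Agent.S0187.result.mpr hlin
  rw [commutator_def, Subgroup.commutator_le]
  intro a _ b _
  rw [← QuotientGroup.eq_one_iff, commutatorElement_def]
  have h7 := hcomm (a : G ⧸ (P : Subgroup G)) (b : G ⧸ (P : Subgroup G))
  simp only [QuotientGroup.mk_mul, QuotientGroup.mk_inv]
  rw [h7]
  group

end Cfsg.Agent.S0861
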