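import Cfsg.Statements.S0894
import Cfsg.Agent.S0154
import Cfsg.Agent.S0187
import Cfsg.Agent.Lib.CT.Kernel
import Cfsg.Agent.Lib.CT.Orth
import Cfsg.Agent.Lib.Helper3.Irr
import Cfsg.Agent.Lib.Helper80.Core
import Cfsg.Agent.Lib.Helper80.Integrality

set_option autoImplicit false
open Cfsg

namespace Cfsg.Agent.S0894

open Cfsg.Agent.Lib.Helper80.Integrality
open scoped commutatorElement

/-- An irreducible character with the commutator subgroup in its kernel is linear. -/
theorem linear_of_comm {P : Type*} [Group P] [Finite P] (χ : IrrCharacter P)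
    (h : ∀ c ∈ commutator P, (χ : P → ℂ) c = (χ : P → ℂ) 1) : (χ : P → ℂ) 1 = 1 := by
  obtain ⟨χbar, hirr, hval⟩ := Cfsg.Agent.Lib.CT.Kernel.exists_quotient_irr (commutator P) χ.2 h
  have hab : ∀ a b : P ⧸ commutator P, a * b = b * a := by
    intro a b
    induction a using QuotientGroup.induction_on with
    | H a =>
      induction b using QuotientGroup.induction_on with
      | H b =>
        rw [← QuotientGroup.mk_mul, ← QuotientGroup.mk_mul]
        apply QuotientGroup.eq.2
        have h1 : ⁅a⁻¹, b⁻¹⁆ ∈ commutator P := by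
          rw [commutator_def]
          exact Subgroup.commutator_mem_commutator (Subgroup.mem_top _) (Subgroup.mem_top _)
        have h2 : (a * b)⁻¹ * (b * a) = ⁅b⁻¹, a⁻¹⁆ := by
          rw [commutatorElement_def]; group
        rw [h2, commutator_def]
        exact Subgroup.commutator_mem_commutator (Subgroup.mem_top _) (Subgroup.mem_top _)
  have h1 := Cfsg.Agent.S0187.result.1 hab (⟨χbar, hirr⟩ : IrrCharacter (P ⧸ commutator P))
  have h2 := hval 1
  rw [QuotientGroup.mk_one] at h2
  rw [← h2]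
  exact h1

/-- A nonlinear irreducible character of an extraspecial group vanishes off the centre. -/
theorem vanish {P : Type*} [Group P] [Finite P] (p : ℕ) [Fact p.Prime]
    (hcomm : commutator P = Subgroup.center P) (hZ : Nat.card (Subgroup.center P) = p)
    (χ : IrrCharacter P) (hχ : (χ : P → ℂ) 1 ≠ 1) (g : P) (hg : g ∉ Subgroup.center P) :
    (χ : P → ℂ) g = 0 := by
  have hc : IsCharacter P (χ : P → ℂ) := isCharacter_of_isIrrCharacter χ.2
  rw [Subgroup.mem_center_iff] at hg
  push Not at hg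
  obtain ⟨h, hh⟩ := hg
  set c : P := h * g * h⁻¹ * g⁻¹ with hcdef
  have hc1 : c ≠ 1 := by
    intro h1
    apply hh
    calc h * g = (h * g * h⁻¹ * g⁻¹) * (g * h) := by group
      _ = g * h := by rw [← hcdef, h1, one_mul]
  have hcZ : c ∈ Subgroup.center P := by
    rw [← hcomm, commutator_def]
    have : c = ⁅h, g⁆ := by rw [commutatorElement_def]
    rw [this]
    exact Subgroup.commutator_mem_commutator (Subgroup.mem_top _) (Subgroup.mem_top _)
  have hnorm := Cfsg.Agent.Lib.CT.Kernel.norm_eq_of_mem_center χ.2 hcZ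
  obtain ⟨ω, hω1, -, hω3⟩ := Cfsg.Agent.Lib.CT.Kernel.exists_scalar_of_norm_eq hc hnorm
  have hcl : (χ : P → ℂ) (h * g * h⁻¹) = (χ : P → ℂ) g :=
    Cfsg.Agent.Lib.Helper3.Irr.IsCharacter.isClassFunction hc g h
  have hcg : h * g * h⁻¹ = c * g := by rw [hcdef]; group
  rw [hcg, hω1 g] at hcl
  by_contra hne
  have hω : ω = 1 := by
    have : (ω - 1) * (χ : P → ℂ) g = 0 := by linear_combination hcl
    rcases mul_eq_zero.1 this with h1 | h1
    · linear_combination h1
    · exact absurd h1 hne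
  rw [hω, one_mul] at hω3
  -- c lies in the kernel, hence so does the whole centre
  obtain ⟨N, hN, hmem⟩ := Cfsg.Agent.Lib.CT.Kernel.exists_normal_ker hc
  have hcN : c ∈ N := (hmem c).2 hω3
  have : Fact (Nat.card (Subgroup.center P)).Prime := ⟨by rw [hZ]; exact Fact.out⟩
  have hle : Subgroup.center P ≤ N := by
    rcases Subgroup.eq_bot_or_eq_top_of_prime_card (N.subgroupOf (Subgroup.center P)) with hb | ht
    · exfalso
      have h1 : (⟨c, hcZ⟩ : Subgroup.center P) ∈ N.subgroupOf (Subgroup.center P) := by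
        rw [Subgroup.mem_subgroupOf]; exact hcN
      rw [hb, Subgroup.mem_bot] at h1
      exact hc1 (congrArg Subtype.val h1)
    · exact Subgroup.subgroupOf_eq_top.1 ht
  exact hχ (linear_of_comm χ (fun c' hc' => (hmem c').1 (hle (hcomm ▸ hc'))))

/-- The degree of a nonlinear irreducible character of an extraspecial group. -/
theorem deg_nonlinear {P : Type*} [Group P] [Finite P] (p n : ℕ) [Fact p.Prime]
    (hcomm : commutator P = Subgroup.center P) (hZ : Nat.card (Subgroup.center P) = p)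
    (hcard : Nat.card P = p ^ (2 * n + 1))
    (χ : IrrCharacter P) (hχ : (χ : P → ℂ) 1 ≠ 1) : charDegree (χ : P → ℂ) = p ^ n := by
  classical
  have : Fintype P := Fintype.ofFinite P
  have hpp : p.Prime := Fact.out
  have h1 := Cfsg.Agent.Lib.Helper80.Core.sum_normSq_eq_card χ
  have h2 : ∀ g : P, Complex.normSq ((χ : P → ℂ) g)
      = if g ∈ Subgroup.center P then ((charDegree (χ : P → ℂ) : ℝ)) ^ 2 else 0 := by
    intro g
    by_cases hg : g ∈ Subgroup.center P
    · rw [if_pos hg, Complex.normSq_eq_norm_sq,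
        Cfsg.Agent.Lib.Helper80.Core.norm_apply_of_mem_center χ g hg]
    · rw [if_neg hg, vanish p hcomm hZ χ hχ g hg]
      simp
  simp only [h2] at h1
  rw [← Finset.sum_filter, Finset.sum_const, nsmul_eq_mul] at h1
  have h3 : (Finset.univ.filter (fun g : P => g ∈ Subgroup.center P)).card = p := by
    rw [← hZ, Nat.card_eq_fintype_card, Fintype.card_subtype]
  rw [h3, hcard] at h1
  have h4 : p * charDegree (χ : P → ℂ) ^ 2 = p ^ (2 * n + 1) := by exact_mod_cast h1
  have h5 : charDegree (χ : P → ℂ) ^ 2 = (p ^ n) ^ 2 := by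
    have : p * charDegree (χ : P → ℂ) ^ 2 = p * (p ^ n) ^ 2 := by
      rw [h4]; ring
    exact Nat.eq_of_mul_eq_mul_left hpp.pos this
  exact Nat.pow_left_injective (by norm_num : 2 ≠ 0) h5

/-- Let P be an extraspecial p-group of order p ^ (2 * n + 1). Then every irreducible character of P has degree 1 or p ^ n, and exactly p - 1 of them have degree p ^ n. -/
theorem result {P : Type*} [Group P] [Finite P] (p n : ℕ) [Fact p.Prime] (hP : Cfsg.IsExtraspecial p P) (hcard : Nat.card P = p ^ (2 * n + 1)) : (∀ χ : Cfsg.IrrCharacter P, (χ : P → ℂ) 1 = 1 ∨ (χ : P → ℂ) 1 = (p : ℂ) ^ n) ∧ Nat.card {χ : Cfsg.IrrCharacter P // (χ : P → ℂ) 1 = (p : ℂ) ^ n} = p - 1 := by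
  classical
  obtain ⟨⟨-, -, hcomm⟩, hZ⟩ := hP
  have hpp : p.Prime := Fact.out
  have : Fintype P := Fintype.ofFinite P
  have := Cfsg.Agent.Lib.CT.Wedderburn.finite_irrCharacter P
  have : Fintype (IrrCharacter P) := Fintype.ofFinite _
  have hd : ∀ χ : IrrCharacter P, (χ : P → ℂ) 1 = (charDegree (χ : P → ℂ) : ℂ) := fun χ =>
    apply_one_eq_charDegree (isCharacter_of_isIrrCharacter χ.2)
  have hfirst : ∀ χ : Cfsg.IrrCharacter P, (χ : P → ℂ) 1 = 1 ∨ (χ : P → ℂ) 1 = (p : ℂ) ^ n := by
    intro χ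
    by_cases h1 : (χ : P → ℂ) 1 = 1
    · exact Or.inl h1
    · right
      rw [hd χ, deg_nonlinear p n hcomm hZ hcard χ h1]
      push_cast
      rfl
  refine ⟨hfirst, ?_⟩
  -- n is positive
  have hn : n ≠ 0 := by
    rintro rfl
    have h1 : Nat.card (Subgroup.center P) = Nat.card P := by rw [hZ, hcard]; simp
    have h2 : Subgroup.center P = ⊤ := (Subgroup.card_eq_iff_eq_top _).1 h1
    have h3 : commutator P = ⊥ := (commutator_eq_bot_iff_center_eq_top P).2 h2
    rw [← hcomm, h3] at hZ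
    rw [Subgroup.card_bot] at hZ
    exact hpp.one_lt.ne hZ
  have hpn : (p : ℂ) ^ n ≠ 1 := by
    have h1 : 1 < p ^ n := Nat.one_lt_pow hn hpp.one_lt
    have h2 : ((p ^ n : ℕ) : ℂ) ≠ 1 := by exact_mod_cast h1.ne'
    simpa using h2
  -- number of linear characters
  have hL : (Finset.univ.filter (fun χ : IrrCharacter P => (χ : P → ℂ) 1 = 1)).card = p ^ (2 * n) := by
    have h1 := Cfsg.Agent.S0154.result (G := P)
    rw [Nat.card_eq_fintype_card, Fintype.card_subtype] at h1
    rw [h1]
    have h2 := Subgroup.index_mul_card (commutator P)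
    rw [hcomm, hZ, hcard] at h2
    rw [hcomm]
    have h3 : (Subgroup.center P).index * p = p ^ (2 * n) * p := by rw [h2]; ring
    exact Nat.eq_of_mul_eq_mul_right hpp.pos h3
  have hsq : ∑ χ : IrrCharacter P, charDegree (χ : P → ℂ) ^ 2 = Nat.card P :=
    Cfsg.Agent.Lib.CT.Orth.sum_charDegree_sq_sum
  rw [← Finset.sum_filter_add_sum_filter_not Finset.univ
    (fun χ : IrrCharacter P => (χ : P → ℂ) 1 = 1)] at hsq
  have hs1 : ∑ χ ∈ Finset.univ.filter (fun χ : IrrCharacter P => (χ : P → ℂ) 1 = 1),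
      charDegree (χ : P → ℂ) ^ 2 = p ^ (2 * n) := by
    rw [← hL, Finset.card_eq_sum_ones]
    refine Finset.sum_congr rfl (fun χ hχ => ?_)
    have h1 : (χ : P → ℂ) 1 = 1 := (Finset.mem_filter.1 hχ).2
    rw [hd χ] at h1
    have h2 : charDegree (χ : P → ℂ) = 1 := by exact_mod_cast h1
    rw [h2]; simp
  have hs2 : ∑ χ ∈ Finset.univ.filter (fun χ : IrrCharacter P => ¬ (χ : P → ℂ) 1 = 1),
      charDegree (χ : P → ℂ) ^ 2
      = (Finset.univ.filter (fun χ : IrrCharacter P => ¬ (χ : P → ℂ) 1 = 1)).card * p ^ (2 * n) := by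
    rw [Finset.card_eq_sum_ones, Finset.sum_mul]
    refine Finset.sum_congr rfl (fun χ hχ => ?_)
    have h1 : ¬ (χ : P → ℂ) 1 = 1 := (Finset.mem_filter.1 hχ).2
    rw [deg_nonlinear p n hcomm hZ hcard χ h1]
    ring
  rw [hs1, hs2, hcard] at hsq
  have hfilter : (Finset.univ.filter (fun χ : IrrCharacter P => ¬ (χ : P → ℂ) 1 = 1))
      = Finset.univ.filter (fun χ : IrrCharacter P => (χ : P → ℂ) 1 = (p : ℂ) ^ n) := by
    ext χ
    simp only [Finset.mem_filter, Finset.mem_univ, true_and]
    constructor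
    · intro h
      rcases hfirst χ with h1 | h1
      · exact absurd h1 h
      · exact h1
    · intro h h1
      rw [h] at h1
      exact hpn h1
  rw [Nat.card_eq_fintype_card, Fintype.card_subtype, ← hfilter]
  set N := (Finset.univ.filter (fun χ : IrrCharacter P => ¬ (χ : P → ℂ) 1 = 1)).card
  have h6 : (1 + N) * p ^ (2 * n) = p * p ^ (2 * n) := by
    rw [add_mul, one_mul, hsq]; ring
  have h7 : 1 + N = p := Nat.eq_of_mul_eq_mul_right (pow_pos hpp.pos _) h6
  omega

end Cfsg.Agent.S0894
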