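import Cfsg.Statements.S0899
import Cfsg.Agent.Lib.Helper3.FTBmain

set_option autoImplicit false
open Cfsg

namespace Cfsg.Agent.S0899

open Cfsg.Agent.Lib.Helper3.FTBmain Cfsg.Agent.Lib.Helper80.Integrality

universe u

/-- A normal Sylow subgroup is transported along an isomorphism. -/
theorem exists_normal_sylow_of_equiv (p : ℕ) [Fact p.Prime] {A B : Type*} [Group A] [Group B]
    [Finite A] (e : A ≃* B) (h : ∃ Q : Sylow p A, (Q : Subgroup A).Normal) :
    ∃ Q : Sylow p B, (Q : Subgroup B).Normal := by
  obtain ⟨Q, hQ⟩ := h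
  have hs : Function.Surjective e.toMonoidHom := e.surjective
  refine ⟨Sylow.mapSurjective hs Q, ?_⟩
  rw [Sylow.coe_mapSurjective]
  exact Subgroup.Normal.map hQ _ hs

/-- The induction over the subgroups of `G`. -/
theorem main (p : ℕ) [Fact p.Prime] {G : Type u} [Group G] [Finite G] (n : ℕ) (hnp : n + 1 < p)
    (Φ : G → ℂ) (hΦ : IsCharacter G Φ) (hfaith : ∀ g, Φ g = Φ 1 → g = 1)
    (hdeg : charDegree Φ = n)
    (hsmall : ∀ K : Subgroup G, p ^ (Nat.card K).factorization p < (n + 1) ^ 2 →
      ∃ Q : Sylow p K, (Q : Subgroup K).Normal) :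
    ∀ (N : ℕ) (K : Subgroup G), Nat.card K ≤ N → ∃ Q : Sylow p K, (Q : Subgroup K).Normal := by
  intro N
  induction N with
  | zero =>
    intro K hK
    have h1 := Nat.card_pos (α := K)
    omega
  | succ N ih =>
    intro K hK
    by_cases hs : p ^ (Nat.card K).factorization p < (n + 1) ^ 2
    · exact hsmall K hs
    · push Not at hs
      apply ftb p n hnp (fun k : K => Φ k) (Cfsg.Agent.Lib.CT.Ops.isCharacter_restrict K hΦ)
        (fun k hk => Subtype.ext (hfaith _ hk)) hdeg ?_ hs
      intro K' hK'
      have hlt : Nat.card K' < Nat.card K := by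
        have h1 : Nat.card K' ≤ Nat.card K := Subgroup.card_le_card_group K'
        rcases Nat.lt_or_ge (Nat.card K') (Nat.card K) with h | h
        · exact h
        · exact absurd (Subgroup.eq_top_of_card_eq K' (le_antisymm h1 h)) hK'
      have hcard : Nat.card (K'.map K.subtype) = Nat.card K' :=
        (Nat.card_congr (K'.equivMapOfInjective K.subtype K.subtype_injective).toEquiv).symm
      have h2 := ih (K'.map K.subtype) (by omega)
      exact exists_normal_sylow_of_equiv p
        (K'.equivMapOfInjective K.subtype K.subtype_injective).symm h2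

/-- Let G be a finite group with a faithful complex representation of degree n (on Fin n → ℂ) and p a prime. Suppose either that (n + 1) ^ 2 ≤ p, or that n + 1 < p and every subgroup of G whose order is not divisible by p ^ 2 has a normal Sylow p-subgroup. Then every Sylow p-subgroup of G is normal. -/
theorem result {G : Type*} [Group G] [Finite G] (n : ℕ) (ρ : Representation ℂ G (Fin n → ℂ)) (hρ : Function.Injective ρ) (p : ℕ) [Fact p.Prime] (h : (n + 1) ^ 2 ≤ p ∨ (n + 1 < p ∧ ∀ K : Subgroup G, ¬ p ^ 2 ∣ Nat.card K → ∀ Q : Sylow p K, (Q : Subgroup K).Normal)) (P : Sylow p G) : (P : Subgroup G).Normal := by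
  classical
  have hp : p.Prime := Fact.out
  have hnp : n + 1 < p := by
    rcases h with h | h
    · rcases Nat.eq_zero_or_pos n with h0 | hn
      · have h2 := hp.two_le
        omega
      · have h2 : n + 1 < (n + 1) ^ 2 := by nlinarith
        omega
    · exact h.1
  have hΦ : IsCharacter G ρ.character := ⟨n, ρ, rfl⟩
  have hfaith : ∀ g, ρ.character g = ρ.character 1 → g = 1 := by
    intro g hg
    have h1 := (Cfsg.Agent.Lib.CT.Kernel.rep_char_eq_iff ρ g).1 hg
    apply hρ
    rw [h1, map_one]
  have hdeg : charDegree ρ.character = n := by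
    rw [charDegree_eq_finrank]
    simp
  have hsmall : ∀ K : Subgroup G, p ^ (Nat.card K).factorization p < (n + 1) ^ 2 →
      ∃ Q : Sylow p K, (Q : Subgroup K).Normal := by
    intro K hK
    obtain ⟨Q⟩ : Nonempty (Sylow p K) := inferInstance
    rcases h with h | h
    · have hv : (Nat.card K).factorization p = 0 := by
        by_contra hv
        have h2 : p ^ 1 ≤ p ^ (Nat.card K).factorization p :=
          Nat.pow_le_pow_right hp.pos (Nat.pos_of_ne_zero hv)
        rw [pow_one] at h2
        omega
      refine ⟨Q, ?_⟩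
      have hcard : Nat.card (Q : Subgroup K) = 1 := by
        rw [Q.card_eq_multiplicity, hv, pow_zero]
      have hbot : (Q : Subgroup K) = ⊥ := Subgroup.card_eq_one.1 hcard
      rw [hbot]
      infer_instance
    · refine ⟨Q, h.2 K ?_ Q⟩
      intro hdvd
      have hv : 2 ≤ (Nat.card K).factorization p :=
        (hp.pow_dvd_iff_le_factorization Nat.card_pos.ne').1 hdvd
      have h2 : p ^ 2 ≤ p ^ (Nat.card K).factorization p := Nat.pow_le_pow_right hp.pos hv
      have h3 : (n + 1) ^ 2 < p ^ 2 := Nat.pow_lt_pow_left h.1 (by norm_num)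
      omega
  obtain ⟨Q, hQ⟩ := main p n hnp ρ.character hΦ hfaith hdeg hsmall
    (Nat.card (⊤ : Subgroup G)) ⊤ le_rfl
  obtain ⟨Q', hQ'⟩ := exists_normal_sylow_of_equiv p
    (Subgroup.topEquiv : (⊤ : Subgroup G) ≃* G) ⟨Q, hQ⟩
  haveI := Sylow.unique_of_normal Q' hQ'
  rw [Subsingleton.elim P Q']
  exact hQ'

end Cfsg.Agent.S0899
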