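import Cfsg.Statements.S0939
import Cfsg.Agent.Lib.Helper16.Quot
import Cfsg.Agent.Lib.Helper75.SelfCentCore

set_option autoImplicit false
open Cfsg

namespace Cfsg.Agent.S0939

open Cfsg Cfsg.Agent.Lib.Helper77.LocalRing Cfsg.Agent.Lib.Helper77.CentralChar Cfsg.Agent.Lib.Helper16.Quot Cfsg.Agent.Lib.Helper16.Over Cfsg.Agent.Lib.CT.Kernel Cfsg.Agent.Lib.CT.Ops Cfsg.Agent.Lib.Helper75.SelfCentCore

/-- Let G be a finite group with a normal p-complement (the largest normal subgroup O_p'(G) of order prime to p has p-power index). Then, relative to any maximal ideal M of the algebraic integers containing p, the principal block of G is the set of irreducible characters χ with χ n = χ 1 for every n ∈ O_p'(G). -/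
theorem result {G : Type*} [Group G] [Finite G] (p : ℕ) [Fact p.Prime] (M : Ideal Cfsg.AlgInt) (hM : Cfsg.IsPModular p M) (hnc : ∃ k : ℕ, (Cfsg.pPrimeCore p G).index = p ^ k) : Cfsg.principalBlock M G = {χ : Cfsg.IrrCharacter G | ∀ n ∈ Cfsg.pPrimeCore p G, (χ : G → ℂ) n = (χ : G → ℂ) 1} := by
  classical
  have hp : p.Prime := Fact.out
  have hMp := isPrime_of_isPModular hM
  haveI hNn : (pPrimeCore p G).Normal := pPrimeCore_normal G p
  have hpN : ¬ p ∣ Nat.card (pPrimeCore p G) := pPrimeCore_not_dvd G hp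
  letI : Fintype (pPrimeCore p G) := Fintype.ofFinite _
  ext χ
  constructor
  · intro hχ
    have hs : SameBlock M (fun _ : G => (1:ℂ)) (χ : G → ℂ) := hχ
    have h1 : classInner (fun n : pPrimeCore p G => (χ : G → ℂ) n) (fun _ => (1:ℂ)) ≠ 0 := by
      refine constituent_of_sameBlock hM _ hNn hpN ⟨fun _ => 1, isIrrCharacter_one⟩ χ hs
        ⟨fun _ => 1, isIrrCharacter_one⟩ ?_
      have h0 : classInner (fun _ : pPrimeCore p G => (1:ℂ)) (fun _ => (1:ℂ)) = 1 :=
        classInner_inflation_trivial (pPrimeCore p G) (fun _ => 1)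
      show classInner (fun _ : pPrimeCore p G => (1:ℂ)) (fun _ => (1:ℂ)) ≠ 0
      rw [h0]
      exact one_ne_zero
    exact apply_eq_of_over_trivial _ hNn (χ : G → ℂ) χ.2 h1
  · intro hχ
    obtain ⟨χb, hχb, hχb'⟩ := exists_quotient_irr (pPrimeCore p G) χ.2 hχ
    have hPG : IsPGroup p (G ⧸ pPrimeCore p G) := by
      obtain ⟨k, hk⟩ := hnc
      apply IsPGroup.of_card (n := k)
      rw [← hk]
      exact (Subgroup.index_eq_card _).symm
    have h2 := sameBlock_of_isPGroup p M hM hPG ⟨fun _ => 1, isIrrCharacter_one⟩ ⟨χb, hχb⟩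
    have h3 := sameBlock_comp_mk hMp (pPrimeCore p G) _ _ h2
    have h4 : (fun g : G => χb (g : G ⧸ pPrimeCore p G)) = (χ : G → ℂ) := funext hχb'
    show SameBlock M (fun _ : G => (1:ℂ)) (χ : G → ℂ)
    rw [← h4]
    exact h3

end Cfsg.Agent.S0939
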