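import Cfsg.Statements.S0974
import Cfsg.Agent.Lib.Helper17.InvCount

set_option autoImplicit false
open Cfsg

namespace Cfsg.Agent.S0974

open Subgroup
open Cfsg.Agent.Lib.Helper17.Sylow Cfsg.Agent.Lib.Helper17.Sylow2 Cfsg.Agent.Lib.Helper17.InvCount

theorem key1 : ∀ n ∈ Nat.divisors 192, n % 19 = 1 → n ≠ 1 → n = 96 := by
  decide +kernel

/-- No finite simple group has order 3648 = 2^6 * 3 * 19. -/
theorem result {G : Type*} [Group G] [Finite G] [IsSimpleGroup G] : Nat.card G ≠ 3648 := by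
  intro h
  have hG : ¬ IsMulCommutative G := not_comm_of_not_prime (by rw [h]; norm_num)
  have : Fact (Nat.Prime 19) := ⟨by norm_num⟩
  have h19 : 19 ∣ Nat.card G := by rw [h]; norm_num
  have hd : Nat.card (Sylow 19 G) ∣ 192 :=
    card_sylow_dvd (k := 1) (h.trans (by norm_num)) (by norm_num)
  have hn : Nat.card (Sylow 19 G) = 96 :=
    key1 _ (Nat.mem_divisors.mpr ⟨hd, by norm_num⟩) (card_sylow_mod (G := G) 19)
      (card_sylow_ne_one hG h19)
  have hP : ∀ P : Sylow 19 G, Nat.card (P : Subgroup G) = 19 := by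
    intro P
    simpa using card_sylow_subgroup (k := 1) (m := 192) (h.trans (by norm_num)) (by norm_num) P
  have hN : ∀ P : Sylow 19 G, Nat.card (normalizer ((P : Subgroup G) : Set G)) = 2 * 19 := by
    intro P
    have h1 := card_normalizer_mul_card_sylow P
    rw [hn, h] at h1
    omega
  have hC : ∀ P : Sylow 19 G, Nat.card (centralizer ((P : Subgroup G) : Set G)) = 19 := by
    intro P
    obtain ⟨r, hr1, hr18, hCr, ⟨m, hm⟩⟩ := sylow_prime_centralizer hG P (hP P)
    rw [hN P, hm] at hCr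
    have hmr : m * r = 2 := by
      have : 19 * (m * r) = 19 * 2 := by rw [← hCr]; ring
      exact Nat.eq_of_mul_eq_mul_left (by norm_num) this
    have hm2 : m ∣ 2 := ⟨r, hmr.symm⟩
    rcases (Nat.dvd_prime Nat.prime_two).mp hm2 with h1 | h1
    · rw [hm, h1]
    · exfalso
      rw [h1] at hmr
      apply hr1
      omega
  obtain ⟨c, a, d, h1, h2, h3, h4⟩ := counts (G := G) (p := 19) ⟨hP, hN, hC⟩
  rw [hn] at h1 h2 h3
  have h5 := h4 8
  norm_num at h1 h2 h3 h5
  omega

end Cfsg.Agent.S0974
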