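import Cfsg.Statements.S0975
import Cfsg.Agent.Lib.Helper17.ExcSimple
import Cfsg.Agent.Lib.Helper17.Sylow2

set_option autoImplicit false
open Cfsg

namespace Cfsg.Agent.S0975

open Subgroup
open Cfsg.Agent.Lib.Helper17.Sylow Cfsg.Agent.Lib.Helper17.Sylow2
open Cfsg.Agent.Lib.Helper17.ExcSimple

theorem key1 : ∀ n ∈ Nat.divisors 288, n % 13 = 1 → n ≠ 1 → n = 144 := by
  decide +kernel

theorem key2 : ∀ r ∈ Nat.divisors 12, r = 1 ∨ r = 2 ∨ r = 3 ∨ r = 4 ∨ r = 6 ∨ r = 12 := by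
  decide

theorem key3 : ∀ D ∈ Nat.divisors 3744, D ≠ 1 →
    (D % 13 = 1 → ¬ (D + 1 ∣ 3744)) ∧ (D % 13 = 12 → ¬ (D - 1 ∣ 3744)) := by
  decide +kernel

/-- No finite simple group has order 3744 = 2^5 * 3^2 * 13. -/
theorem result {G : Type*} [Group G] [Finite G] [IsSimpleGroup G] : Nat.card G ≠ 3744 := by
  intro h
  have hG : ¬ IsMulCommutative G := not_comm_of_not_prime (by rw [h]; norm_num)
  have : Fact (Nat.Prime 13) := ⟨by norm_num⟩
  have h13 : 13 ∣ Nat.card G := by rw [h]; norm_num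
  have hd : Nat.card (Sylow 13 G) ∣ 288 :=
    card_sylow_dvd (k := 1) (h.trans (by norm_num)) (by norm_num)
  have hm := card_sylow_mod (G := G) 13
  have hne := card_sylow_ne_one hG h13
  obtain ⟨P⟩ : Nonempty (Sylow 13 G) := inferInstance
  have hP : Nat.card (P : Subgroup G) = 13 := by
    simpa using card_sylow_subgroup (k := 1) (m := 288) (h.trans (by norm_num)) (by norm_num) P
  have hNn := card_normalizer_mul_card_sylow P
  rw [h] at hNn
  obtain ⟨r, hr1, hr12, hCr, hC13⟩ := sylow_prime_centralizer hG P hP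
  have hr := key2 r (Nat.mem_divisors.mpr ⟨hr12, by norm_num⟩)
  have hn := key1 _ (Nat.mem_divisors.mpr ⟨hd, by norm_num⟩) hm hne
  rw [hn] at hNn
  have hN : Nat.card (normalizer ((P : Subgroup G) : Set G)) = 13 * 2 := by omega
  have hC : Nat.card (centralizer ((P : Subgroup G) : Set G)) = 13 := by
    rcases hr with rfl | rfl | rfl | rfl | rfl | rfl <;> omega
  obtain ⟨D, d, hD, hd', hD1, hcase⟩ :=
    degrees_two hG (P : Subgroup G) (by norm_num) hP hC hN (by norm_num)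
  rw [h] at hD hd'
  have hk := key3 D (Nat.mem_divisors.mpr ⟨hD, by norm_num⟩) hD1
  rcases hcase with ⟨h1, h2⟩ | ⟨h1, h2⟩
  · exact hk.1 h1 (h2 ▸ hd')
  · apply hk.2 h1
    have h3 : D - 1 = d := by omega
    rw [h3]
    exact hd'

end Cfsg.Agent.S0975
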