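import Cfsg.Statements.S0979
import Cfsg.Agent.Lib.Helper17.ExcSimple
import Cfsg.Agent.Lib.Helper17.Sylow2

set_option autoImplicit false
open Cfsg

namespace Cfsg.Agent.S0979

open Subgroup
open Cfsg.Agent.Lib.Helper17.Sylow Cfsg.Agent.Lib.Helper17.Sylow2
open Cfsg.Agent.Lib.Helper17.ExcSimple

theorem key1 : ∀ n ∈ Nat.divisors 288, n % 19 = 1 → n ≠ 1 → n = 96 := by
  decide +kernel

theorem key2 : ∀ r ∈ Nat.divisors 18, r = 1 ∨ r = 2 ∨ r = 3 ∨ r = 6 ∨ r = 9 ∨ r = 18 := by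
  decide

theorem key3 : ∀ D ∈ Nat.divisors 5472, D ≠ 1 →
    (D % 19 = 1 → D = 96) ∧ (D % 19 = 18 → D = 18) := by
  decide +kernel

/-- No finite simple group has order 5472 = 2^5 * 3^2 * 19. -/
theorem result {G : Type*} [Group G] [Finite G] [IsSimpleGroup G] : Nat.card G ≠ 5472 := by
  intro h
  have hG : ¬ IsMulCommutative G := not_comm_of_not_prime (by rw [h]; norm_num)
  have : Fact (Nat.Prime 19) := ⟨by norm_num⟩
  have h19 : 19 ∣ Nat.card G := by rw [h]; norm_num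
  have hd : Nat.card (Sylow 19 G) ∣ 288 :=
    card_sylow_dvd (k := 1) (h.trans (by norm_num)) (by norm_num)
  have hm := card_sylow_mod (G := G) 19
  have hne := card_sylow_ne_one hG h19
  obtain ⟨P⟩ : Nonempty (Sylow 19 G) := inferInstance
  have hP : Nat.card (P : Subgroup G) = 19 := by
    simpa using card_sylow_subgroup (k := 1) (m := 288) (h.trans (by norm_num)) (by norm_num) P
  have hNn := card_normalizer_mul_card_sylow P
  rw [h] at hNn
  obtain ⟨r, hr1, hr18, hCr, hC19⟩ := sylow_prime_centralizer hG P hP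
  have hr := key2 r (Nat.mem_divisors.mpr ⟨hr18, by norm_num⟩)
  have hn := key1 _ (Nat.mem_divisors.mpr ⟨hd, by norm_num⟩) hm hne
  rw [hn] at hNn
  have hN : Nat.card (normalizer ((P : Subgroup G) : Set G)) = 19 * 3 := by omega
  have hC : Nat.card (centralizer ((P : Subgroup G) : Set G)) = 19 := by
    rcases hr with rfl | rfl | rfl | rfl | rfl | rfl <;> omega
  obtain ⟨D₁, D₂, d, δ₁, δ₂, ε, hD₁, hD₂, hd', hD₁1, hD₂1, hp₁, hp₂, hpd, hε, hδ₁, hδ₂,
    ⟨a₁, ha₁⟩, ⟨a₂, ha₂⟩, heq⟩ :=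
    degrees_three hG (P : Subgroup G) (by norm_num) hP hC hN (by norm_num)
  rw [h] at hD₁ hD₂ hd'
  have hk₁ := key3 D₁ (Nat.mem_divisors.mpr ⟨hD₁, by norm_num⟩) hD₁1
  have hk₂ := key3 D₂ (Nat.mem_divisors.mpr ⟨hD₂, by norm_num⟩) hD₂1
  have hd3 : d = 193 ∨ d = 79 ∨ d = 35 := by
    rcases hδ₁ with rfl | rfl <;> rcases hδ₂ with rfl | rfl
    · have e1 := hk₁.1 (by omega)
      have e2 := hk₂.1 (by omega)
      rcases hε with rfl | rfl <;> omega
    · have e1 := hk₁.1 (by omega)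
      have e2 := hk₂.2 (by omega)
      rcases hε with rfl | rfl <;> omega
    · have e1 := hk₁.2 (by omega)
      have e2 := hk₂.1 (by omega)
      rcases hε with rfl | rfl <;> omega
    · have e1 := hk₁.2 (by omega)
      have e2 := hk₂.2 (by omega)
      rcases hε with rfl | rfl <;> omega
  rcases hd3 with rfl | rfl | rfl <;> norm_num at hd'

end Cfsg.Agent.S0979
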