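import Cfsg.Statements.S0981
import Cfsg.Agent.Lib.Helper17.EvenPSL
import Cfsg.Agent.Lib.Helper17.Sylow2

set_option autoImplicit false
open Cfsg

namespace Cfsg.Agent.S0981

open Subgroup
open Cfsg.Agent.Lib.Helper17.Sylow Cfsg.Agent.Lib.Helper17.Sylow2
open Cfsg.Agent.Lib.Helper17.EvenPSL

theorem deg_arith1 : ∀ j : ℕ, j < 241 → (17 * j + 1) ∣ 4080 → j ≠ 0 → ¬ (17 * j + 2) ∣ 4080 := by
  decide +kernel

theorem deg_arith2 : ∀ j : ℕ, j < 241 → (17 * j + 16) ∣ 4080 → (17 * j + 15) ∣ 4080 → j = 0 := by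
  decide +kernel

theorem sylow_arith : ∀ n : ℕ, n < 241 → n ∣ 240 → n % 17 = 1 → n = 1 ∨ n = 120 := by
  decide +kernel

/-- A simple group of order 4080 is isomorphic to the projective special linear group of dimension 2 over the field with 16 elements. -/
theorem result {G : Type*} [Group G] [Finite G] [IsSimpleGroup G] (h : Nat.card G = 4080) {F : Type*} [Field F] [Fintype F] (hF : Fintype.card F = 16) : Nonempty (G ≃* Matrix.ProjectiveSpecialLinearGroup (Fin 2) F) := by
  have hG : ¬ IsMulCommutative G := not_comm_of_not_prime (by rw [h]; norm_num)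
  haveI : Fact (Nat.Prime 17) := ⟨by norm_num⟩
  obtain ⟨P⟩ : Nonempty (Sylow 17 G) := inferInstance
  have hP : Nat.card (P : Subgroup G) = 17 := by
    have h1 := card_sylow_subgroup (p := 17) (k := 1) (m := 240) (by rw [h]; norm_num) (by norm_num) P
    rw [h1]
    norm_num
  have hdvd : Nat.card (Sylow 17 G) ∣ 240 :=
    card_sylow_dvd (p := 17) (k := 1) (m := 240) (by rw [h]; norm_num) (by norm_num)
  have hmod : Nat.card (Sylow 17 G) % 17 = 1 := card_sylow_mod 17
  have hne : Nat.card (Sylow 17 G) ≠ 1 := card_sylow_ne_one hG (by rw [h]; norm_num)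
  have hn : Nat.card (Sylow 17 G) = 120 := by
    rcases sylow_arith _ (Nat.lt_succ_of_le (Nat.le_of_dvd (by norm_num) hdvd)) hdvd hmod with
      h1 | h1
    · exact absurd h1 hne
    · exact h1
  have hN : Nat.card (normalizer ((P : Subgroup G) : Set G)) = 17 * 2 := by
    have h1 := card_normalizer_mul_card_sylow P
    rw [hn, h] at h1
    omega
  have hC : Nat.card (centralizer ((P : Subgroup G) : Set G)) = 17 := by
    obtain ⟨r, hr1, hr, hCN, c, hc⟩ := sylow_prime_centralizer hG P hP
    rw [hN, hc] at hCN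
    rw [hc]
    have h1 : c * r = 2 := by nlinarith
    have h2 : c ∣ 2 := Dvd.intro _ h1
    have h3 : c ≤ 2 := Nat.le_of_dvd (by norm_num) h2
    interval_cases c
    · omega
    · rfl
    · exfalso
      apply hr1
      omega
  refine psl_of_sylow hG (P : Subgroup G) (by norm_num : Nat.Prime 17) hP hC hN (by norm_num)
    16 4 (by norm_num) (by norm_num) ?_ 255 (by rw [h]) (by norm_num) (by norm_num) hF
  intro D d hD hd hD1 hcase
  rw [h] at hD hd ⊢
  have hDlt : D < 4081 := Nat.lt_succ_of_le (Nat.le_of_dvd (by norm_num) hD)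
  have hDj : D = 17 * (D / 17) + D % 17 := (Nat.div_add_mod D 17).symm
  have hjlt : D / 17 < 241 := by omega
  rcases hcase with ⟨hmod1, hd1⟩ | ⟨hmod2, hd2⟩
  · exfalso
    rw [hd1] at hd
    rw [hmod1] at hDj
    rw [hDj] at hD hd
    exact deg_arith1 (D / 17) hjlt hD (by omega) hd
  · norm_num at hmod2
    rw [hmod2] at hDj
    have hd' : d = 17 * (D / 17) + 15 := by omega
    rw [hDj] at hD
    rw [hd'] at hd
    have hj0 := deg_arith2 (D / 17) hjlt hD hd
    rw [hj0] at hDj hd'
    rw [hDj, hd']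
    norm_num

end Cfsg.Agent.S0981
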