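import Cfsg.Statements.S0985
import Cfsg.Agent.Lib.Helper17.Orbits

set_option autoImplicit false
open Cfsg

namespace Cfsg.Agent.S0985

open Cfsg.Agent.Lib.Helper17.Orbits

/-- If the number of Sylow p-subgroups of a finite group is not congruent to 1 modulo p^k, then there are two distinct Sylow p-subgroups P and R such that the index of P ∩ R in P is at most p^(k-1). -/
theorem result {G : Type*} [Group G] [Finite G] (p k : ℕ) [Fact p.Prime] (h : ¬ Nat.card (Sylow p G) ≡ 1 [MOD p ^ k]) : ∃ P R : Sylow p G, P ≠ R ∧ ((R : Subgroup G).subgroupOf (P : Subgroup G)).index ≤ p ^ (k - 1) := by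
  have hp : p.Prime := Fact.out
  obtain ⟨P⟩ : Nonempty (Sylow p G) := inferInstance
  by_contra hcon
  push Not at hcon
  apply h
  apply card_modEq_one_of_orbits (H := (P : Subgroup G)) (p ^ k) P
  · intro g
    exact Sylow.smul_eq_iff_mem_normalizer.mpr (Subgroup.le_normalizer g.2)
  · intro R hR
    rw [card_orbit_sylow]
    have h1 := hcon P R (Ne.symm hR)
    have h2 : ((R : Subgroup G).subgroupOf (P : Subgroup G)).index ∣ Nat.card (P : Subgroup G) :=
      Subgroup.index_dvd_card _
    obtain ⟨a, ha⟩ := P.isPGroup'.exists_card_eq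
    rw [ha] at h2
    obtain ⟨j, hj, hj'⟩ := (Nat.dvd_prime_pow hp).mp h2
    rw [hj'] at h1 ⊢
    apply pow_dvd_pow
    by_contra hlt
    push Not at hlt
    have : p ^ j ≤ p ^ (k - 1) := Nat.pow_le_pow_right hp.pos (by omega)
    omega

end Cfsg.Agent.S0985
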