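import Cfsg.Statements.S1011
import Cfsg.Agent.S1230
import Cfsg.Agent.Lib.Helper99.G504c
import Cfsg.Agent.Lib.Helper99.PSLCongr
-- import your own Cfsg.Agent.* helpers here

set_option autoImplicit false
open Cfsg

namespace Cfsg.Agent.S1011

open Cfsg.Agent.Lib.Helper99.G504 Cfsg.Agent.Lib.Helper99.PSLCongr

/-- A simple group of order 504 is isomorphic to the projective special linear group of dimension 2 over the field with 8 elements. -/
theorem result {G : Type*} [Group G] [Finite G] [IsSimpleGroup G] (h : Nat.card G = 504) {F : Type*} [Field F] [Fintype F] (hF : Fintype.card F = 8) : Nonempty (G ≃* Matrix.ProjectiveSpecialLinearGroup (Fin 2) F) := by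
  obtain ⟨T⟩ : Nonempty (Sylow 2 G) := inferInstance
  obtain ⟨K, hKf, hKfin, hKcard, ⟨e⟩⟩ := Cfsg.Agent.S1230.result T (not_isCyclic_P2 h T)
    (not_normal_P2 h T)
    (fun t ht => ⟨comm_centralizer h t ht, fun c hc => sq_eq_one_of_mem_centralizer h t ht c hc⟩)
  have hcard : Fintype.card K = Fintype.card F := by
    rw [hKcard, hF]
    exact card_P2 h T
  obtain ⟨e2⟩ := nonempty_pslCongr_of_card_eq (n := Fin 2) hcard
  exact ⟨e.trans e2⟩

end Cfsg.Agent.S1011
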