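import Cfsg.Statements.S1138
import Cfsg.Agent.S1137
import Cfsg.Agent.Lib.Helper88.SuzCl2
import Cfsg.Agent.Lib.Helper88.SuzOrd
-- import your own Cfsg.Agent.* helpers here

set_option autoImplicit false
open Cfsg

namespace Cfsg.Agent.S1138

/-- Let `P` be a Suzuki 2-group with `|Z(P)| = q`. Then every square lies in `Z(P)` and `P/Z(P)` is abelian (so elementary abelian), `|P| = q²` or `|P| = q³`, and `P` has exponent 4. -/
theorem result {P : Type*} [Group P] (hP : Cfsg.IsSuzukiTwoGroup P) :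
    (∀ x : P, x * x ∈ Subgroup.center P) ∧ (∀ x y : P, x⁻¹ * y⁻¹ * x * y ∈ Subgroup.center P) ∧
      (Nat.card P = Nat.card (Subgroup.center P) ^ 2 ∨ Nat.card P = Nat.card (Subgroup.center P) ^ 3) ∧
      Monoid.exponent P = 4 := by
  obtain ⟨K, hSetup⟩ := Cfsg.Agent.S1137.setup_of_suzuki hP
  have h37 := Cfsg.Agent.S1137.result hP
  obtain ⟨hfin, h2, hnc, ⟨x0, y0, hxy, hx1, hx2, hy1, hy2⟩, -⟩ := hP
  have : Finite P := hfin
  have hZ : ∀ x : P, x ∈ Subgroup.center P ↔ x * x = 1 := by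
    intro x
    constructor
    · exact h37.2 x
    · intro hx
      by_cases hx1' : x = 1
      · rw [hx1']; exact Subgroup.one_mem _
      · exact ((h37.1 x).1 ⟨hx1', hx⟩).1
  have hK : ∃ k ∈ K, k ≠ 1 := by
    obtain ⟨k, hk, hkx⟩ := hSetup.reg x0 y0 hx1 hx2 hy1 hy2
    refine ⟨k, hk, fun h => hxy ?_⟩
    rw [← hkx, h]; rfl
  have hsq := Cfsg.Agent.Lib.Helper88.SuzCl2.sq_central hSetup h2 hZ hnc hK
  have hcc := Cfsg.Agent.Lib.Helper88.SuzCl2.comm_central hSetup h2 hZ hnc hK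
  have hfree : ∀ k ∈ K, ∀ x : P, x ≠ 1 → k x = x → k = 1 :=
    fun k hk x hx1 hx => Cfsg.Agent.Lib.Helper88.SuzCl2.fpf' h2 hSetup k hk x hx hx1
  refine ⟨hsq, hcc, Cfsg.Agent.Lib.Helper88.SuzOrd.card_eq hSetup h2 hZ hsq hcc hnc hfree, ?_⟩
  have h4 : ∀ g : P, g ^ 4 = 1 := by
    intro g
    have h := (hZ _).1 (hsq g)
    calc g ^ 4 = (g * g) * (g * g) := by
          rw [show (4:ℕ) = 2 + 2 from rfl, pow_add, pow_two]
      _ = 1 := h
  apply Nat.dvd_antisymm
  · exact Monoid.exponent_dvd_of_forall_pow_eq_one h4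
  · obtain ⟨a, b, hab⟩ := hnc
    have ha : a ∉ Subgroup.center P := fun h => hab (Subgroup.mem_center_iff.1 h b).symm
    have ha2 : a * a ≠ 1 := fun h => ha ((hZ a).2 h)
    have hord : orderOf a = 4 := by
      have h1 : orderOf a ∣ 2 ^ 2 := orderOf_dvd_of_pow_eq_one (by norm_num; exact h4 a)
      obtain ⟨k, hk, hk'⟩ := (Nat.dvd_prime_pow Nat.prime_two).1 h1
      have hpow := pow_orderOf_eq_one a
      rw [hk'] at hpow
      interval_cases k
      · exfalso
        rw [pow_zero, pow_one] at hpow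
        exact ha2 (by rw [hpow, mul_one])
      · exfalso
        rw [pow_one, pow_two] at hpow
        exact ha2 hpow
      · rw [hk']; norm_num
    rw [← hord]
    exact Monoid.order_dvd_exponent a

end Cfsg.Agent.S1138
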