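import Mathlib
import Cfsg.Statements.S3737
import Cfsg.Agent.S3736
import Cfsg.Agent.Lib.Helper24.Baer
import Cfsg.Agent.Lib.Helper24.ConjAction
import Cfsg.Agent.Lib.Helper24.Alperin

set_option autoImplicit false
open Cfsg

namespace Cfsg.Agent.S3737

open scoped commutatorElement
open Cfsg.Agent.Lib.Helper24

theorem mem_normalizer_sup {X : Type*} [Group X] {A B : Subgroup X} {b : X}
    (hA : b ∈ Subgroup.normalizer (A : Set X)) (hB : b ∈ Subgroup.normalizer (B : Set X)) :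
    b ∈ Subgroup.normalizer ((A ⊔ B : Subgroup X) : Set X) := by
  have key : ∀ c : X, c ∈ Subgroup.normalizer (A : Set X) → c ∈ Subgroup.normalizer (B : Set X) →
      ∀ h ∈ A ⊔ B, c * h * c⁻¹ ∈ A ⊔ B := by
    intro c hcA hcB
    have hle : A ⊔ B ≤ (A ⊔ B).comap (MulAut.conj c).toMonoidHom := by
      apply sup_le
      · intro a ha
        rw [Subgroup.mem_comap]
        show c * a * c⁻¹ ∈ A ⊔ B
        exact Subgroup.mem_sup_left ((Subgroup.mem_normalizer_iff.mp hcA a).mp ha)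
      · intro a ha
        rw [Subgroup.mem_comap]
        show c * a * c⁻¹ ∈ A ⊔ B
        exact Subgroup.mem_sup_right ((Subgroup.mem_normalizer_iff.mp hcB a).mp ha)
    intro h hh
    exact hle hh
  rw [Subgroup.mem_normalizer_iff]
  intro h
  constructor
  · exact key b hA hB h
  · intro hh
    have := key b⁻¹ (inv_mem hA) (inv_mem hB) _ hh
    simpa [mul_assoc] using this

theorem mem_normalizer_inf_centralizer {X : Type*} [Group X] {G₁ Q : Subgroup X} {b : X}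
    (hb1 : b ∈ Subgroup.normalizer (G₁ : Set X)) (hb2 : b ∈ Subgroup.normalizer (Q : Set X)) :
    b ∈ Subgroup.normalizer ((G₁ ⊓ Subgroup.centralizer (Q : Set X) : Subgroup X) : Set X) := by
  have key : ∀ c : X, c ∈ Subgroup.normalizer (G₁ : Set X) → c ∈ Subgroup.normalizer (Q : Set X) →
      ∀ z ∈ G₁ ⊓ Subgroup.centralizer (Q : Set X),
        c * z * c⁻¹ ∈ G₁ ⊓ Subgroup.centralizer (Q : Set X) := by
    intro c hc1 hc2 z hz
    obtain ⟨hz1, hz2⟩ := Subgroup.mem_inf.mp hz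
    refine Subgroup.mem_inf.mpr ⟨(Subgroup.mem_normalizer_iff.mp hc1 z).mp hz1, ?_⟩
    rw [Subgroup.mem_centralizer_iff]
    intro q hq
    have hq' : c⁻¹ * q * c ∈ Q := by
      have := (Subgroup.mem_normalizer_iff.mp (inv_mem hc2) q).mp hq
      simpa using this
    have h := Subgroup.mem_centralizer_iff.mp hz2 _ hq'
    calc q * (c * z * c⁻¹) = c * ((c⁻¹ * q * c) * z) * c⁻¹ := by group
      _ = c * (z * (c⁻¹ * q * c)) * c⁻¹ := by rw [h]
      _ = c * z * c⁻¹ * q := by group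
  rw [Subgroup.mem_normalizer_iff]
  intro h
  constructor
  · exact key b hb1 hb2 h
  · intro hh
    have := key b⁻¹ (inv_mem hb1) (inv_mem hb2) _ hh
    simpa [mul_assoc] using this

/-- Thompson's strengthening of the P × Q lemma for odd primes. Let p be an odd prime and let P, Q and G be subgroups of a finite group with P a p-group, Q of order prime to p and normalized by P, and G a p-group normalized by both P and Q. If every element of G centralized by P is centralized by Q, then Q centralizes G. -/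
theorem result {X : Type*} [Group X] [Finite X] {p : ℕ} [Fact p.Prime] (hp : p ≠ 2) (P Q G : Subgroup X) (hP : IsPGroup p P) (hQ : (Nat.card Q).Coprime p) (hPQ : P ≤ Subgroup.normalizer (Q : Set X)) (hG : IsPGroup p G) (hPG : P ≤ Subgroup.normalizer (G : Set X)) (hQG : Q ≤ Subgroup.normalizer (G : Set X)) (hC : G ⊓ Subgroup.centralizer (P : Set X) ≤ Subgroup.centralizer (Q : Set X)) : Q ≤ Subgroup.centralizer (G : Set X) := by
  classical
  by_contra hcon
  obtain ⟨G₁, ⟨hG₁G, hPG₁, hQG₁, hnc⟩, hmin0⟩ :=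
    WellFounded.has_min (wellFounded_lt (α := Subgroup X))
      {U : Subgroup X | U ≤ G ∧ P ≤ Subgroup.normalizer (U : Set X) ∧
        Q ≤ Subgroup.normalizer (U : Set X) ∧ ¬ Q ≤ Subgroup.centralizer (U : Set X)}
      ⟨G, le_rfl, hPG, hQG, hcon⟩
  have hG₁p : IsPGroup p G₁ := hG.to_le hG₁G
  have hnt : ⁅G₁, Q⁆ ≠ ⊥ := by
    intro h
    rw [Subgroup.commutator_eq_bot_iff_le_centralizer] at h
    exact hnc (Subgroup.le_centralizer_iff.mp h)
  have hBP : P ⊔ Q ≤ Subgroup.normalizer (G₁ : Set X) := sup_le hPG₁ hQG₁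
  have hAn : P ⊔ Q ≤ Subgroup.normalizer (Q : Set X) := sup_le hPQ Subgroup.le_normalizer
  have hmin : ∀ U : Subgroup X, U < G₁ → P ⊔ Q ≤ Subgroup.normalizer (U : Set X) →
      ⁅U, Q⁆ = ⊥ := by
    intro U hU hBU
    by_contra h
    apply hmin0 U ⟨hU.le.trans hG₁G, le_sup_left.trans hBU, le_sup_right.trans hBU, ?_⟩ hU
    intro h'
    exact h (Subgroup.commutator_eq_bot_iff_le_centralizer.mpr (Subgroup.le_centralizer_iff.mp h'))
  obtain ⟨h1, h2, h3, h4⟩ :=
    Cfsg.Agent.S3736.result (P ⊔ Q) Q G₁ hG₁p hBP le_sup_right hAn hQ hnt hmin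
  have hexp : ∀ x ∈ G₁, x ^ p = 1 := h4 hp
  set Z₀ : Subgroup X := G₁ ⊓ Subgroup.centralizer (Q : Set X) with hZ₀
  have hZ₀G₁ : Z₀ ≤ G₁ := inf_le_left
  have hZ₀P : P ≤ Subgroup.normalizer (Z₀ : Set X) :=
    fun b hb => mem_normalizer_inf_centralizer (hPG₁ hb) (hPQ hb)
  have hZ₀Q : Q ≤ Subgroup.normalizer (Z₀ : Set X) :=
    fun b hb => mem_normalizer_inf_centralizer (hQG₁ hb) (Subgroup.le_normalizer hb)
  have hG₁Z₀ : ¬ G₁ ≤ Z₀ := fun h => hnc (Subgroup.le_centralizer_iff.mp (h.trans inf_le_right))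
  -- `Z₀` is central in `G₁`
  have hZ₀c : ∀ z ∈ Z₀, ∀ g ∈ G₁, z * g = g * z := by
    rcases h2 with ⟨hab, _⟩ | ⟨_, hfr, hcm⟩
    · intro z hz g hg
      have := isMulCommutative_iff.mp hab ⟨z, hZ₀G₁ hz⟩ ⟨g, hg⟩
      exact congrArg Subtype.val this
    · have hΦn : P ⊔ Q ≤ Subgroup.normalizer
          (((frattini ↥G₁).map G₁.subtype : Subgroup X) : Set X) :=
        hBP.trans (ConjAction.le_normalizer_map_of_characteristic G₁ (frattini ↥G₁) inferInstance)
      have hU := h3 ((frattini ↥G₁).map G₁.subtype ⊔ Z₀) le_sup_left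
        (sup_le (Subgroup.map_subtype_le _) hZ₀G₁)
        (fun b hb => mem_normalizer_sup (hΦn hb) ((sup_le hZ₀P hZ₀Q) hb))
      rcases hU with hU | hU
      · intro z hz g hg
        have hzΦ : z ∈ (frattini ↥G₁).map G₁.subtype := by
          rw [← hU]; exact Subgroup.mem_sup_right hz
        obtain ⟨z', hz', rfl⟩ := hzΦ
        have hz'' : z' ∈ Subgroup.center ↥G₁ := by
          rw [← hfr]; exact hz'
        have := Subgroup.mem_center_iff.mp hz'' ⟨g, hg⟩
        exact (congrArg Subtype.val this).symm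
      · exfalso
        have htop : Z₀.subgroupOf G₁ ⊔ frattini ↥G₁ = ⊤ := by
          apply Subgroup.map_injective G₁.subtype_injective
          rw [Subgroup.map_sup, Subgroup.map_subgroupOf_eq_of_le hZ₀G₁, ← MonoidHom.range_eq_map,
            Subgroup.range_subtype, sup_comm]
          exact hU
        have := frattini_nongenerating htop
        exact hG₁Z₀ (Subgroup.subgroupOf_eq_top.mp this)
  -- the Baer structure on `G₁`
  obtain ⟨c, hc⟩ : ∃ c, 2 * c = p + 1 := by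
    rcases (Fact.out : p.Prime).eq_two_or_odd' with h | h
    · exact absurd h hp
    · obtain ⟨k, hk⟩ := h
      exact ⟨k + 1, by omega⟩
  haveI hBD : Baer.BaerData ↥G₁ c := by
    rcases h2 with ⟨hab, _⟩ | ⟨_, hfr, hcm⟩
    · refine ⟨fun x y z => ?_, fun x y => ?_⟩
      · exact isMulCommutative_iff.mp hab _ _
      · have : ⁅x, y⁆ = 1 := by
          rw [commutatorElement_eq_one_iff_commute]
          exact isMulCommutative_iff.mp hab x y
        rw [this, one_pow]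
    · refine ⟨fun x y z => ?_, fun x y => ?_⟩
      · have hmem : ⁅x, y⁆ ∈ Subgroup.center ↥G₁ := by
          rw [← hcm]
          exact Subgroup.commutator_mem_commutator (Subgroup.mem_top x) (Subgroup.mem_top y)
        exact (Subgroup.mem_center_iff.mp hmem z).symm
      · have he : ⁅x, y⁆ ^ p = 1 := Subtype.ext (by simpa using hexp _ (⁅x, y⁆).2)
        rw [hc, pow_succ, he, one_mul]
  haveI : Fintype ↥Q := Fintype.ofFinite _
  set φ : ↥Q →* MulAut ↥G₁ := ConjAction.conjHom Q G₁ hQG₁ with hφ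
  -- an element outside `Z₀` fixed by `P` modulo `Z₀`
  have hnil : Group.IsNilpotent ↥(G₁ ⊔ P) :=
    (IsPGroup.to_sup_of_normal_left' hG₁p hP hPG₁).isNilpotent
  obtain ⟨x, hxG₁, hxZ₀, hxc⟩ := Alperin.exists_commutator_mem hnil le_sup_left
    (sup_le Subgroup.le_normalizer hPG₁) hG₁Z₀
  -- norms lie in `Z₀`
  have hNfix : ∀ y : ↥G₁, ((Baer.norm c φ y : ↥G₁) : X) ∈ Z₀ := by
    intro y
    refine Subgroup.mem_inf.mpr ⟨(Baer.norm c φ y).2, ?_⟩
    rw [Subgroup.mem_centralizer_iff]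
    intro q hq
    have h := congrArg Subtype.val (Baer.norm_fixed c φ y ⟨q, hq⟩)
    rw [hφ, ConjAction.conjHom_apply] at h
    exact mul_inv_eq_iff_eq_mul.mp h
  have hZ₀p : IsPGroup p Z₀ := hG₁p.to_le hZ₀G₁
  have hm : (Nat.card ↥Z₀).Coprime (Nat.card ↥Q) := by
    obtain ⟨n, hn⟩ := IsPGroup.iff_card.mp hZ₀p
    rw [hn]
    exact Nat.Coprime.pow_left n hQ.symm
  obtain ⟨z, hz⟩ := (powCoprime hm).surjective
    ⟨((Baer.norm c φ ⟨x, hxG₁⟩ : ↥G₁) : X)⁻¹, inv_mem (hNfix _)⟩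
  have hz' : (z : X) ^ Nat.card ↥Q = ((Baer.norm c φ ⟨x, hxG₁⟩ : ↥G₁) : X)⁻¹ := by
    have := congrArg Subtype.val hz
    simpa using this
  have hcen : ∀ (u : X) (hu : u ∈ Z₀) (g : ↥G₁),
      (⟨u, hZ₀G₁ hu⟩ : ↥G₁) * g = g * ⟨u, hZ₀G₁ hu⟩ :=
    fun u hu g => Subtype.ext (hZ₀c u hu g g.2)
  have hfix : ∀ (u : X) (hu : u ∈ Z₀) (q : ↥Q), φ q ⟨u, hZ₀G₁ hu⟩ = ⟨u, hZ₀G₁ hu⟩ := by
    intro u hu q
    apply Subtype.ext
    rw [hφ, ConjAction.conjHom_apply]
    have := Subgroup.mem_centralizer_iff.mp (Subgroup.mem_inf.mp hu).2 q q.2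
    show (q : X) * u * (q : X)⁻¹ = u
    rw [this, mul_inv_cancel_right]
  have hNmul : ∀ (y : ↥G₁) (u : X) (hu : u ∈ Z₀),
      Baer.norm c φ (y * ⟨u, hZ₀G₁ hu⟩) = Baer.norm c φ y * ⟨u, hZ₀G₁ hu⟩ ^ Fintype.card ↥Q :=
    fun y u hu => Baer.norm_mul_central c φ y _ (hcen u hu) (hfix u hu)
  have hNw : Baer.norm c φ (⟨x, hxG₁⟩ * ⟨(z : X), hZ₀G₁ z.2⟩) = 1 := by
    rw [hNmul ⟨x, hxG₁⟩ z z.2]
    apply Subtype.ext
    simp only [Subgroup.coe_mul, Subgroup.coe_pow, Subgroup.coe_one]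
    rw [← Nat.card_eq_fintype_card, hz', mul_inv_cancel]
  -- `x * z` is centralized by `P`
  have hfixP : ∀ t ∈ P, t * (x * z) * t⁻¹ = x * z := by
    intro t ht
    have hk : ⁅x, t⁆ ∈ Z₀ := hxc t (Subgroup.mem_sup_right ht)
    have e1 : t * x * t⁻¹ = x * ⁅x, t⁆⁻¹ := by
      rw [← hZ₀c _ (inv_mem hk) x hxG₁, commutatorElement_def]
      group
    have htz : t * (z : X) * t⁻¹ ∈ Z₀ := (Subgroup.mem_normalizer_iff.mp (hZ₀P ht) z).mp z.2
    have hu : (z : X)⁻¹ * ⁅x, t⁆⁻¹ * (t * (z : X) * t⁻¹) ∈ Z₀ :=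
      mul_mem (mul_mem (inv_mem z.2) (inv_mem hk)) htz
    have e2 : t * (x * z) * t⁻¹ = x * z * ((z : X)⁻¹ * ⁅x, t⁆⁻¹ * (t * (z : X) * t⁻¹)) := by
      have : t * (x * z) * t⁻¹ = (t * x * t⁻¹) * (t * z * t⁻¹) := by group
      rw [this, e1]
      group
    set u : X := (z : X)⁻¹ * ⁅x, t⁆⁻¹ * (t * (z : X) * t⁻¹) with hu_def
    -- the automorphism induced by `t`
    have hσ : ∀ q (y : ↥G₁), ConjAction.conjAut G₁ t (hPG₁ ht) (φ q y)
        = φ ((ConjAction.conjAut Q t (hPQ ht)).toEquiv q) (ConjAction.conjAut G₁ t (hPG₁ ht) y) := by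
      intro q y
      apply Subtype.ext
      rw [hφ]
      simp only [ConjAction.conjAut_apply, ConjAction.conjHom_apply, MulEquiv.toEquiv_eq_coe,
        EquivLike.coe_coe]
      group
    have hN1 := Baer.norm_equivariant c φ (ConjAction.conjAut G₁ t (hPG₁ ht))
      (ConjAction.conjAut Q t (hPQ ht)).toEquiv hσ (⟨x, hxG₁⟩ * ⟨(z : X), hZ₀G₁ z.2⟩)
    rw [hNw, map_one] at hN1
    have hσw : ConjAction.conjAut G₁ t (hPG₁ ht) (⟨x, hxG₁⟩ * ⟨(z : X), hZ₀G₁ z.2⟩)
        = (⟨x, hxG₁⟩ * ⟨(z : X), hZ₀G₁ z.2⟩) * ⟨u, hZ₀G₁ hu⟩ := by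
      apply Subtype.ext
      rw [ConjAction.conjAut_apply]
      exact e2
    rw [hσw, hNmul _ u hu, hNw, one_mul] at hN1
    have hu1 : (⟨u, hu⟩ : ↥Z₀) = 1 := by
      apply (powCoprime hm).injective
      apply Subtype.ext
      have := congrArg Subtype.val hN1
      simp only [Subgroup.coe_pow, Subgroup.coe_one] at this
      rw [← Nat.card_eq_fintype_card] at this
      simp only [powCoprime_apply, Subgroup.coe_pow, Subgroup.coe_one, one_pow]
      exact this.symm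
    have hu1' : u = 1 := congrArg Subtype.val hu1
    rw [e2, hu1', mul_one]
  have hxz : x * z ∈ G ⊓ Subgroup.centralizer (P : Set X) := by
    refine Subgroup.mem_inf.mpr ⟨hG₁G (mul_mem hxG₁ (hZ₀G₁ z.2)), ?_⟩
    rw [Subgroup.mem_centralizer_iff]
    intro t ht
    exact mul_inv_eq_iff_eq_mul.mp (hfixP t ht)
  have hxz' : x * z ∈ Z₀ := Subgroup.mem_inf.mpr ⟨mul_mem hxG₁ (hZ₀G₁ z.2), hC hxz⟩
  apply hxZ₀
  have := mul_mem hxz' (inv_mem z.2)
  simpa using this

end Cfsg.Agent.S3737
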