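import Cfsg.Statements.S1302
import Mathlib
import Cfsg.Agent.S3737
import Cfsg.Agent.Lib.Helper22.PCons

set_option autoImplicit false
open Cfsg

namespace Cfsg.Agent.S1302

open scoped commutatorElement
open Cfsg.Agent.Lib.Helper24
open Cfsg.Agent.Lib.Helper22.PCons
open Cfsg.Agent.Lib.Helper78
open Cfsg.Agent.Lib.Helper23.Cores

/-- Variant of helper24's S3737 (Thompson's `P × Q` lemma for odd `p`), with the hypothesis only on
the elements of order dividing `p` (the proof is that of `Cfsg.Agent.S3737.result`). -/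
theorem pq_order_p {X : Type*} [Group X] [Finite X] {p : ℕ} [Fact p.Prime] (hp : p ≠ 2)
    (P Q G : Subgroup X) (hP : IsPGroup p P) (hQ : (Nat.card Q).Coprime p)
    (hPQ : P ≤ Subgroup.normalizer (Q : Set X)) (hG : IsPGroup p G)
    (hPG : P ≤ Subgroup.normalizer (G : Set X)) (hQG : Q ≤ Subgroup.normalizer (G : Set X))
    (hC : ∀ x ∈ G ⊓ Subgroup.centralizer (P : Set X), x ^ p = 1 →
      x ∈ Subgroup.centralizer (Q : Set X)) :
    Q ≤ Subgroup.centralizer (G : Set X) := by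
  classical
  by_contra hcon
  obtain ⟨G₁, ⟨hG₁G, hPG₁, hQG₁, hnc⟩, hmin0⟩ :=
    WellFounded.has_min (wellFounded_lt (α := Subgroup X))
      {U : Subgroup X | U ≤ G ∧ P ≤ Subgroup.normalizer (U : Set X) ∧
        Q ≤ Subgroup.normalizer (U : Set X) ∧ ¬ Q ≤ Subgroup.centralizer (U : Set X)}
      ⟨G, le_rfl, hPG, hQG, hcon⟩
  have hG₁p : IsPGroup p G₁ := hG.to_le hG₁G
  have hnt : ⁅G₁, Q⁆ ≠ ⊥ := by
    intro h
    rw [Subgroup.commutator_eq_bot_iff_le_centralizer] at h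
    exact hnc (Subgroup.le_centralizer_iff.mp h)
  have hBP : P ⊔ Q ≤ Subgroup.normalizer (G₁ : Set X) := sup_le hPG₁ hQG₁
  have hAn : P ⊔ Q ≤ Subgroup.normalizer (Q : Set X) := sup_le hPQ Subgroup.le_normalizer
  have hmin : ∀ U : Subgroup X, U < G₁ → P ⊔ Q ≤ Subgroup.normalizer (U : Set X) →
      ⁅U, Q⁆ = ⊥ := by
    intro U hU hBU
    by_contra h
    apply hmin0 U ⟨hU.le.trans hG₁G, le_sup_left.trans hBU, le_sup_right.trans hBU, ?_⟩ hU
    intro h'
    exact h (Subgroup.commutator_eq_bot_iff_le_centralizer.mpr (Subgroup.le_centralizer_iff.mp h'))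
  obtain ⟨h1, h2, h3, h4⟩ :=
    Cfsg.Agent.S3736.result (P ⊔ Q) Q G₁ hG₁p hBP le_sup_right hAn hQ hnt hmin
  have hexp : ∀ x ∈ G₁, x ^ p = 1 := h4 hp
  set Z₀ : Subgroup X := G₁ ⊓ Subgroup.centralizer (Q : Set X) with hZ₀
  have hZ₀G₁ : Z₀ ≤ G₁ := inf_le_left
  have hZ₀P : P ≤ Subgroup.normalizer (Z₀ : Set X) :=
    fun b hb => Cfsg.Agent.S3737.mem_normalizer_inf_centralizer (hPG₁ hb) (hPQ hb)
  have hZ₀Q : Q ≤ Subgroup.normalizer (Z₀ : Set X) :=
    fun b hb => Cfsg.Agent.S3737.mem_normalizer_inf_centralizer (hQG₁ hb) (Subgroup.le_normalizer hb)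
  have hG₁Z₀ : ¬ G₁ ≤ Z₀ := fun h => hnc (Subgroup.le_centralizer_iff.mp (h.trans inf_le_right))
  -- `Z₀` is central in `G₁`
  have hZ₀c : ∀ z ∈ Z₀, ∀ g ∈ G₁, z * g = g * z := by
    rcases h2 with ⟨hab, _⟩ | ⟨_, hfr, hcm⟩
    · intro z hz g hg
      have := isMulCommutative_iff.mp hab ⟨z, hZ₀G₁ hz⟩ ⟨g, hg⟩
      exact congrArg Subtype.val this
    · have hΦn : P ⊔ Q ≤ Subgroup.normalizer
          (((frattini ↥G₁).map G₁.subtype : Subgroup X) : Set X) :=
        hBP.trans (ConjAction.le_normalizer_map_of_characteristic G₁ (frattini ↥G₁) inferInstance)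
      have hU := h3 ((frattini ↥G₁).map G₁.subtype ⊔ Z₀) le_sup_left
        (sup_le (Subgroup.map_subtype_le _) hZ₀G₁)
        (fun b hb => Cfsg.Agent.S3737.mem_normalizer_sup (hΦn hb) ((sup_le hZ₀P hZ₀Q) hb))
      rcases hU with hU | hU
      · intro z hz g hg
        have hzΦ : z ∈ (frattini ↥G₁).map G₁.subtype := by
          rw [← hU]; exact Subgroup.mem_sup_right hz
        obtain ⟨z', hz', rfl⟩ := hzΦ
        have hz'' : z' ∈ Subgroup.center ↥G₁ := by
          rw [← hfr]; exact hz'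
        have := Subgroup.mem_center_iff.mp hz'' ⟨g, hg⟩
        exact (congrArg Subtype.val this).symm
      · exfalso
        have htop : Z₀.subgroupOf G₁ ⊔ frattini ↥G₁ = ⊤ := by
          apply Subgroup.map_injective G₁.subtype_injective
          rw [Subgroup.map_sup, Subgroup.map_subgroupOf_eq_of_le hZ₀G₁, ← MonoidHom.range_eq_map,
            Subgroup.range_subtype, sup_comm]
          exact hU
        have := frattini_nongenerating htop
        exact hG₁Z₀ (Subgroup.subgroupOf_eq_top.mp this)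
  -- the Baer structure on `G₁`
  obtain ⟨c, hc⟩ : ∃ c, 2 * c = p + 1 := by
    rcases (Fact.out : p.Prime).eq_two_or_odd' with h | h
    · exact absurd h hp
    · obtain ⟨k, hk⟩ := h
      exact ⟨k + 1, by omega⟩
  have hBD : Baer.BaerData ↥G₁ c := by
    rcases h2 with ⟨hab, _⟩ | ⟨_, hfr, hcm⟩
    · refine ⟨fun x y z => ?_, fun x y => ?_⟩
      · exact isMulCommutative_iff.mp hab _ _
      · have : ⁅x, y⁆ = 1 := by
          rw [commutatorElement_eq_one_iff_commute]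
          exact isMulCommutative_iff.mp hab x y
        rw [this, one_pow]
    · refine ⟨fun x y z => ?_, fun x y => ?_⟩
      · have hmem : ⁅x, y⁆ ∈ Subgroup.center ↥G₁ := by
          rw [← hcm]
          exact Subgroup.commutator_mem_commutator (Subgroup.mem_top x) (Subgroup.mem_top y)
        exact (Subgroup.mem_center_iff.mp hmem z).symm
      · have he : ⁅x, y⁆ ^ p = 1 := Subtype.ext (by simpa using hexp _ (⁅x, y⁆).2)
        rw [hc, pow_succ, he, one_mul]
  haveI : Fintype ↥Q := Fintype.ofFinite _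
  set φ : ↥Q →* MulAut ↥G₁ := ConjAction.conjHom Q G₁ hQG₁ with hφ
  -- an element outside `Z₀` fixed by `P` modulo `Z₀`
  have hnil : Group.IsNilpotent ↥(G₁ ⊔ P) :=
    (IsPGroup.to_sup_of_normal_left' hG₁p hP hPG₁).isNilpotent
  obtain ⟨x, hxG₁, hxZ₀, hxc⟩ := Alperin.exists_commutator_mem hnil le_sup_left
    (sup_le Subgroup.le_normalizer hPG₁) hG₁Z₀
  -- norms lie in `Z₀`
  have hNfix : ∀ y : ↥G₁, ((Baer.norm c φ y : ↥G₁) : X) ∈ Z₀ := by
    intro y
    refine Subgroup.mem_inf.mpr ⟨(Baer.norm c φ y).2, ?_⟩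
    rw [Subgroup.mem_centralizer_iff]
    intro q hq
    have h := congrArg Subtype.val (Baer.norm_fixed c φ y ⟨q, hq⟩)
    rw [hφ, ConjAction.conjHom_apply] at h
    exact mul_inv_eq_iff_eq_mul.mp h
  have hZ₀p : IsPGroup p Z₀ := hG₁p.to_le hZ₀G₁
  have hm : (Nat.card ↥Z₀).Coprime (Nat.card ↥Q) := by
    obtain ⟨n, hn⟩ := IsPGroup.iff_card.mp hZ₀p
    rw [hn]
    exact Nat.Coprime.pow_left n hQ.symm
  obtain ⟨z, hz⟩ := (powCoprime hm).surjective
    ⟨((Baer.norm c φ ⟨x, hxG₁⟩ : ↥G₁) : X)⁻¹, inv_mem (hNfix _)⟩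
  have hz' : (z : X) ^ Nat.card ↥Q = ((Baer.norm c φ ⟨x, hxG₁⟩ : ↥G₁) : X)⁻¹ := by
    have := congrArg Subtype.val hz
    simpa using this
  have hcen : ∀ (u : X) (hu : u ∈ Z₀) (g : ↥G₁),
      (⟨u, hZ₀G₁ hu⟩ : ↥G₁) * g = g * ⟨u, hZ₀G₁ hu⟩ :=
    fun u hu g => Subtype.ext (hZ₀c u hu g g.2)
  have hfix : ∀ (u : X) (hu : u ∈ Z₀) (q : ↥Q), φ q ⟨u, hZ₀G₁ hu⟩ = ⟨u, hZ₀G₁ hu⟩ := by
    intro u hu q
    apply Subtype.ext
    rw [hφ, ConjAction.conjHom_apply]
    have := Subgroup.mem_centralizer_iff.mp (Subgroup.mem_inf.mp hu).2 q q.2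
    show (q : X) * u * (q : X)⁻¹ = u
    rw [this, mul_inv_cancel_right]
  have hNmul : ∀ (y : ↥G₁) (u : X) (hu : u ∈ Z₀),
      Baer.norm c φ (y * ⟨u, hZ₀G₁ hu⟩) = Baer.norm c φ y * ⟨u, hZ₀G₁ hu⟩ ^ Fintype.card ↥Q :=
    fun y u hu => Baer.norm_mul_central c φ y _ (hcen u hu) (hfix u hu)
  have hNw : Baer.norm c φ (⟨x, hxG₁⟩ * ⟨(z : X), hZ₀G₁ z.2⟩) = 1 := by
    rw [hNmul ⟨x, hxG₁⟩ z z.2]
    apply Subtype.ext
    simp only [Subgroup.coe_mul, Subgroup.coe_pow, Subgroup.coe_one]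
    rw [← Nat.card_eq_fintype_card, hz', mul_inv_cancel]
  -- `x * z` is centralized by `P`
  have hfixP : ∀ t ∈ P, t * (x * z) * t⁻¹ = x * z := by
    intro t ht
    have hk : ⁅x, t⁆ ∈ Z₀ := hxc t (Subgroup.mem_sup_right ht)
    have e1 : t * x * t⁻¹ = x * ⁅x, t⁆⁻¹ := by
      rw [← hZ₀c _ (inv_mem hk) x hxG₁, commutatorElement_def]
      group
    have htz : t * (z : X) * t⁻¹ ∈ Z₀ := (Subgroup.mem_normalizer_iff.mp (hZ₀P ht) z).mp z.2
    have hu : (z : X)⁻¹ * ⁅x, t⁆⁻¹ * (t * (z : X) * t⁻¹) ∈ Z₀ :=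
      mul_mem (mul_mem (inv_mem z.2) (inv_mem hk)) htz
    have e2 : t * (x * z) * t⁻¹ = x * z * ((z : X)⁻¹ * ⁅x, t⁆⁻¹ * (t * (z : X) * t⁻¹)) := by
      have : t * (x * z) * t⁻¹ = (t * x * t⁻¹) * (t * z * t⁻¹) := by group
      rw [this, e1]
      group
    set u : X := (z : X)⁻¹ * ⁅x, t⁆⁻¹ * (t * (z : X) * t⁻¹) with hu_def
    -- the automorphism induced by `t`
    have hσ : ∀ q (y : ↥G₁), ConjAction.conjAut G₁ t (hPG₁ ht) (φ q y)
        = φ ((ConjAction.conjAut Q t (hPQ ht)).toEquiv q) (ConjAction.conjAut G₁ t (hPG₁ ht) y) := by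
      intro q y
      apply Subtype.ext
      rw [hφ]
      simp only [ConjAction.conjAut_apply, ConjAction.conjHom_apply, MulEquiv.toEquiv_eq_coe,
        EquivLike.coe_coe]
      group
    have hN1 := Baer.norm_equivariant c φ (ConjAction.conjAut G₁ t (hPG₁ ht))
      (ConjAction.conjAut Q t (hPQ ht)).toEquiv hσ (⟨x, hxG₁⟩ * ⟨(z : X), hZ₀G₁ z.2⟩)
    rw [hNw, map_one] at hN1
    have hσw : ConjAction.conjAut G₁ t (hPG₁ ht) (⟨x, hxG₁⟩ * ⟨(z : X), hZ₀G₁ z.2⟩)
        = (⟨x, hxG₁⟩ * ⟨(z : X), hZ₀G₁ z.2⟩) * ⟨u, hZ₀G₁ hu⟩ := by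
      apply Subtype.ext
      rw [ConjAction.conjAut_apply]
      exact e2
    rw [hσw, hNmul _ u hu, hNw, one_mul] at hN1
    have hu1 : (⟨u, hu⟩ : ↥Z₀) = 1 := by
      apply (powCoprime hm).injective
      apply Subtype.ext
      have := congrArg Subtype.val hN1
      simp only [Subgroup.coe_pow, Subgroup.coe_one] at this
      rw [← Nat.card_eq_fintype_card] at this
      simp only [powCoprime_apply, Subgroup.coe_pow, Subgroup.coe_one, one_pow]
      exact this.symm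
    have hu1' : u = 1 := congrArg Subtype.val hu1
    rw [e2, hu1', mul_one]
  have hxz : x * z ∈ G ⊓ Subgroup.centralizer (P : Set X) := by
    refine Subgroup.mem_inf.mpr ⟨hG₁G (mul_mem hxG₁ (hZ₀G₁ z.2)), ?_⟩
    rw [Subgroup.mem_centralizer_iff]
    intro t ht
    exact mul_inv_eq_iff_eq_mul.mp (hfixP t ht)
  have hxzp : (x * z) ^ p = 1 := hexp _ (mul_mem hxG₁ (hZ₀G₁ z.2))
  have hxz' : x * z ∈ Z₀ := Subgroup.mem_inf.mpr ⟨mul_mem hxG₁ (hZ₀G₁ z.2), hC _ hxz hxzp⟩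
  apply hxZ₀
  have := mul_mem hxz' (inv_mem z.2)
  simpa using this



/-- Let X be a finite p-constrained group, p an odd prime, and A an abelian p-subgroup of X containing every element of order p of C_X(A). Then every subgroup of X of order prime to p that is normalized by A lies in O_{p'}(X). -/
theorem result {X : Type*} [Group X] [Finite X] (p : ℕ) [Fact p.Prime] (hp : p ≠ 2) (hX : Cfsg.IsPConstrained p X) (A : Subgroup X) (hA : IsMulCommutative ↥A) (hAp : IsPGroup p ↥A) (hΩ : ∀ x ∈ Subgroup.centralizer (A : Set X), orderOf x = p → x ∈ A) (Q : Subgroup X) (hQ : ¬ p ∣ Nat.card ↥Q) (hAQ : A ≤ Subgroup.normalizer (Q : Set X)) : Q ≤ Cfsg.pPrimeCore p X := by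
  classical
  have hpr : p.Prime := Fact.out
  set π := QuotientGroup.mk' (pPrimeCore p X) with hπdef
  have hπ : Function.Surjective π := QuotientGroup.mk'_surjective _
  set Pb := pCore p (X ⧸ pPrimeCore p X) with hPb
  have hPbn : Pb.Normal := Fitting.pCore_normal p
  have hPbp : IsPGroup p Pb := Fitting.pCore_isPGroup p
  have hNcop : (Nat.card (pPrimeCore p X)).Coprime p := pPrimeCore_card_coprime p
  have hNp : ¬ p ∣ Nat.card (pPrimeCore p X) := by
    intro hd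
    exact hpr.one_lt.ne' (Nat.Coprime.eq_one_of_dvd (Nat.coprime_comm.1 hNcop) hd)
  have hNnorm : ∀ K : Subgroup X, K ≤ Subgroup.normalizer ((pPrimeCore p X : Subgroup X) : Set X) := by
    intro K
    rw [Subgroup.normalizer_eq_top]; exact le_top
  -- `C(O_p) ≤ O_p` in the quotient
  have hCP : Subgroup.centralizer (Pb : Set (X ⧸ pPrimeCore p X)) ≤ Pb := by
    intro xb hxb
    obtain ⟨x, rfl⟩ := hπ xb
    obtain ⟨P⟩ : Nonempty (Sylow p ↥(pPrimePCore p X)) := inferInstance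
    obtain ⟨y, hy, hyx⟩ := exists_centralizer_lift p P x hxb
    have h1 := hX P hy
    rw [← hyx]
    exact h1
  set Ab := A.map π with hAb
  set Qb := Q.map π with hQb
  have hAbp : IsPGroup p Ab := hAp.map π
  have hQcop : (Nat.card Q).Coprime p := ((Nat.Prime.coprime_iff_not_dvd hpr).mpr hQ).symm
  have hQbc : (Nat.card Qb).Coprime p := by
    have hd : Nat.card Qb ∣ Nat.card Q := Subgroup.card_map_dvd Q π
    exact Nat.Coprime.coprime_dvd_left hd hQcop
  have hdisj : Qb ⊓ Pb = ⊥ := by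
    apply disjoint_iff.mp
    apply Subgroup.disjoint_of_coprime_natCard
    obtain ⟨n, hn⟩ := IsPGroup.iff_card.mp hPbp
    rw [hn]
    exact Nat.Coprime.pow_right n hQbc
  have hAQb : Ab ≤ Subgroup.normalizer (Qb : Set (X ⧸ pPrimeCore p X)) := by
    rintro _ ⟨a, ha, rfl⟩
    have key : ∀ c : X, c ∈ Subgroup.normalizer (Q : Set X) → ∀ h ∈ Qb, π c * h * (π c)⁻¹ ∈ Qb := by
      rintro c hc _ ⟨q, hq, rfl⟩
      refine ⟨c * q * c⁻¹, (Subgroup.mem_normalizer_iff.mp hc q).mp hq, ?_⟩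
      simp
    rw [Subgroup.mem_normalizer_iff]
    intro h
    constructor
    · exact key a (hAQ ha) h
    · intro hh
      have := key a⁻¹ (inv_mem (hAQ ha)) _ hh
      simpa [mul_assoc] using this
  have hnormP : ∀ K : Subgroup (X ⧸ pPrimeCore p X),
      K ≤ Subgroup.normalizer (Pb : Set (X ⧸ pPrimeCore p X)) := by
    intro K
    rw [Subgroup.normalizer_eq_top]; exact le_top
  have hcent : Qb ≤ Subgroup.centralizer (Pb : Set (X ⧸ pPrimeCore p X)) := by
    apply pq_order_p hp Ab Qb Pb hAbp hQbc hAQb hPbp (hnormP Ab) (hnormP Qb)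
    intro xb hxb hxp
    by_cases h1 : xb = 1
    · rw [h1]; exact one_mem _
    obtain ⟨hxP, hxA⟩ := Subgroup.mem_inf.mp hxb
    obtain ⟨x, rfl⟩ := hπ xb
    have hxk : ∀ k ∈ A, x⁻¹ * k * x * k⁻¹ ∈ pPrimeCore p X := by
      intro k hk
      have hc := Subgroup.mem_centralizer_iff.1 hxA (π k) (Subgroup.mem_map_of_mem π hk)
      have h2 : π (x⁻¹ * k * x * k⁻¹) = 1 := by
        rw [map_mul, map_mul, map_mul, map_inv, map_inv, mul_assoc (π x)⁻¹, hc]
        group
      exact (QuotientGroup.eq_one_iff _).1 h2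
    obtain ⟨n, hn, hfix⟩ := Cfsg.Agent.Lib.Helper48.CoprimeQ.exists_fixed_in_coset A
      (pPrimeCore p X) hAp hNp (hNnorm A) x hxk
    have hyA : x * n ∈ Subgroup.centralizer (A : Set X) := by
      rw [Subgroup.mem_centralizer_iff]
      intro k hk
      have := hfix k hk
      calc k * (x * n) = k * (x * n) * k⁻¹ * k := by group
        _ = x * n * k := by rw [this]
    have hπy : π (x * n) = π x := by
      have hn1 : π n = 1 := (QuotientGroup.eq_one_iff n).2 hn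
      rw [map_mul, hn1, mul_one]
    obtain ⟨u, -, hu⟩ := Nat.exists_mul_mod_eq_one_of_coprime hNcop hpr.one_lt
    have hyp : (x * n) ^ p ∈ pPrimeCore p X := by
      have h2 : π ((x * n) ^ p) = 1 := by
        rw [map_pow, hπy]; exact hxp
      exact (QuotientGroup.eq_one_iff _).1 h2
    have hwA : (x * n) ^ (Nat.card (pPrimeCore p X) * u) ∈ Subgroup.centralizer (A : Set X) :=
      pow_mem hyA _
    have hwp : ((x * n) ^ (Nat.card (pPrimeCore p X) * u)) ^ p = 1 := by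
      have e : ((x * n) ^ (Nat.card (pPrimeCore p X) * u)) ^ p
          = (((x * n) ^ p) ^ Nat.card (pPrimeCore p X)) ^ u := by
        rw [← pow_mul, ← pow_mul, ← pow_mul]; congr 1; ring
      rw [e]
      have h2 : ((x * n) ^ p) ^ Nat.card (pPrimeCore p X) = 1 := by
        have h3 : (⟨(x * n) ^ p, hyp⟩ : ↥(pPrimeCore p X)) ^ Nat.card ↥(pPrimeCore p X) = 1 :=
          pow_card_eq_one'
        have h4 := congrArg Subtype.val h3
        simpa only [Subgroup.coe_pow, Subgroup.coe_one] using h4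
      rw [h2, one_pow]
    have hπw : π ((x * n) ^ (Nat.card (pPrimeCore p X) * u)) = π x := by
      rw [map_pow, hπy]
      have e : Nat.card (pPrimeCore p X) * u
          = p * (Nat.card (pPrimeCore p X) * u / p) + 1 := by
        have := Nat.div_add_mod (Nat.card (pPrimeCore p X) * u) p
        omega
      rw [e, pow_add, pow_mul, hxp, one_pow, one_mul, pow_one]
    have hw1 : (x * n) ^ (Nat.card (pPrimeCore p X) * u) ≠ 1 := by
      intro h; apply h1; rw [← hπw, h, map_one]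
    have hwo : orderOf ((x * n) ^ (Nat.card (pPrimeCore p X) * u)) = p := orderOf_eq_prime hwp hw1
    have hwAmem : (x * n) ^ (Nat.card (pPrimeCore p X) * u) ∈ A := hΩ _ hwA hwo
    have hxAb : π x ∈ Ab := by rw [← hπw]; exact Subgroup.mem_map_of_mem π hwAmem
    rw [Subgroup.mem_centralizer_iff]
    intro qb hqb
    have hcQ : π x * qb * (π x)⁻¹ * qb⁻¹ ∈ Qb := by
      have := (Subgroup.mem_normalizer_iff.mp (hAQb hxAb) qb).mp hqb
      exact mul_mem this (inv_mem hqb)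
    have hcP : π x * qb * (π x)⁻¹ * qb⁻¹ ∈ Pb := by
      have : π x * (qb * (π x)⁻¹ * qb⁻¹) ∈ Pb := mul_mem hxP (hPbn.conj_mem _ (inv_mem hxP) qb)
      simpa [mul_assoc] using this
    have h3 : π x * qb * (π x)⁻¹ * qb⁻¹ = 1 := by
      have : π x * qb * (π x)⁻¹ * qb⁻¹ ∈ Qb ⊓ Pb := Subgroup.mem_inf.mpr ⟨hcQ, hcP⟩
      rw [hdisj] at this; exact Subgroup.mem_bot.mp this
    have h4 := mul_inv_eq_one.mp h3
    exact (mul_inv_eq_iff_eq_mul.mp h4).symm
  have hQP : Qb ≤ Pb := hcent.trans hCP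
  have hQbot : Qb = ⊥ := by
    rw [← hdisj]; exact (inf_eq_left.mpr hQP).symm
  intro q hq
  have h5 : π q ∈ Qb := Subgroup.mem_map_of_mem π hq
  rw [hQbot, Subgroup.mem_bot] at h5
  exact (QuotientGroup.eq_one_iff q).1 h5

end Cfsg.Agent.S1302
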