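-- Statement S1313.
import Cfsg.Statements.S1313
import Cfsg.Agent.Lib.Helper22.Layer

set_option autoImplicit false
open Cfsg

namespace Cfsg.Agent.S1313

open Subgroup
open Cfsg.Agent.Lib.Helper29
open Cfsg.Agent.Lib.Helper22

/-- For a finite group H, |H| ≤ |F*(H)|!. -/
theorem result {H : Type*} [Group H] [Finite H] : Nat.card H ≤ Nat.factorial (Nat.card ↥(Cfsg.generalizedFittingSubgroup H)) := by
  classical
  have hFn : (Cfsg.generalizedFittingSubgroup H).Normal := Basic.generalizedFittingSubgroup_normal H
  let φ : H →* MulAut (Cfsg.generalizedFittingSubgroup H) := MulAut.conjNormal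
  have hker : φ.ker ≤ Cfsg.generalizedFittingSubgroup H := by
    intro h hh
    apply Layer.centralizer_genFitting_le
    rw [mem_centralizer_iff]
    intro f hf
    have h1 : φ h = 1 := MonoidHom.mem_ker.1 hh
    have h2 : ((φ h ⟨f, hf⟩ : Cfsg.generalizedFittingSubgroup H) : H) = f := by rw [h1]; rfl
    have h3 : ((φ h ⟨f, hf⟩ : Cfsg.generalizedFittingSubgroup H) : H) = h * f * h⁻¹ :=
      MulAut.conjNormal_apply h ⟨f, hf⟩
    rw [h3] at h2
    calc f * h = (h * f * h⁻¹) * h := by rw [h2]
      _ = h * f := by group
  have h1 : Nat.card H = Nat.card φ.ker * Nat.card φ.range := by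
    rw [← Subgroup.index_ker φ]
    exact (Subgroup.card_mul_index φ.ker).symm
  have h2 : Nat.card φ.ker ≤ Nat.card (Cfsg.generalizedFittingSubgroup H) :=
    Subgroup.card_le_of_le hker
  have h3 : Nat.card (Cfsg.generalizedFittingSubgroup H) * Nat.card φ.range ≤
      Nat.card (Equiv.Perm (Cfsg.generalizedFittingSubgroup H)) := by
    rw [← Nat.card_prod]
    apply Nat.card_le_card_of_injective
      (fun p : (Cfsg.generalizedFittingSubgroup H) × φ.range =>
        ((p.2 : MulAut (Cfsg.generalizedFittingSubgroup H)).toEquiv.trans (Equiv.mulLeft p.1) :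
          Equiv.Perm (Cfsg.generalizedFittingSubgroup H)))
    rintro ⟨f, α⟩ ⟨f', α'⟩ heq
    have hval : ∀ x : Cfsg.generalizedFittingSubgroup H,
        f * (α : MulAut (Cfsg.generalizedFittingSubgroup H)) x =
          f' * (α' : MulAut (Cfsg.generalizedFittingSubgroup H)) x := by
      intro x
      have := congrArg (fun e : Equiv.Perm (Cfsg.generalizedFittingSubgroup H) => e x) heq
      simpa using this
    have hf : f = f' := by
      have := hval 1
      simpa using this
    subst hf
    have hα : (α : MulAut (Cfsg.generalizedFittingSubgroup H)) = α' := by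
      ext x
      have := hval x
      exact congrArg Subtype.val (mul_left_cancel this)
    have : α = α' := Subtype.ext hα
    rw [this]
  calc Nat.card H = Nat.card φ.ker * Nat.card φ.range := h1
    _ ≤ Nat.card (Cfsg.generalizedFittingSubgroup H) * Nat.card φ.range := Nat.mul_le_mul_right _ h2
    _ ≤ Nat.card (Equiv.Perm (Cfsg.generalizedFittingSubgroup H)) := h3
    _ = Nat.factorial (Nat.card ↥(Cfsg.generalizedFittingSubgroup H)) := Nat.card_perm

end Cfsg.Agent.S1313
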