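import Cfsg.Statements.S1618
import Cfsg.Agent.S5560
import Cfsg.Agent.Lib.Helper89.Tt56

set_option autoImplicit false
open Cfsg

namespace Cfsg.Agent.S1618

open scoped commutatorElement

/-- A group generated by a class of involutions whose pairwise products (of distinct members) have p-power order for a fixed odd prime p has nilpotent derived subgroup. -/
theorem result {G : Type*} [Group G] [Finite G] (p : ℕ) (hp : p.Prime) (hodd : p ≠ 2) {D : Set G} (hinv : ∀ d ∈ D, orderOf d = 2) (hconj : ∃ d ∈ D, D = conjugatesOf d) (hgen : Subgroup.closure D = ⊤) (hprod : ∀ x ∈ D, ∀ y ∈ D, x ≠ y → ∃ k : ℕ, orderOf (x * y) = p ^ k) : Group.IsNilpotent ↥(commutator G) := by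
  classical
  have hp' : Fact p.Prime := ⟨hp⟩
  obtain ⟨d, hd, rfl⟩ := hconj
  have hprod' : ∀ a ∈ conjugatesOf d, ∀ b ∈ conjugatesOf d, ∃ k : ℕ, orderOf (a * b) = p ^ k := by
    intro a ha b hb
    by_cases hab : a = b
    · refine ⟨0, ?_⟩
      subst hab
      have h2 := hinv a ha
      have : a * a = 1 := by
        have := pow_orderOf_eq_one a
        rwa [h2, pow_two] at this
      rw [this, orderOf_one, pow_zero]
    · exact hprod a ha b hb hab
  have hcore := Cfsg.Agent.S5560.result hp hodd d (hinv d hd) hprod'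
  have hPn : (Cfsg.pCore p G).Normal := Cfsg.Agent.Lib.Helper89.Tt56.pCore_normal p
  have hPp : IsPGroup p (Cfsg.pCore p G) := Cfsg.Agent.Lib.Helper89.Tt56.pCore_isPGroup p
  -- the quotient by the `p`-core is generated by the image of `d`
  let π : G →* G ⧸ Cfsg.pCore p G := QuotientGroup.mk' (Cfsg.pCore p G)
  have hdd : d * d = 1 := by
    have := pow_orderOf_eq_one d
    rwa [hinv d hd, pow_two] at this
  have himg : ∀ a ∈ conjugatesOf d, π a = π d := by
    intro a ha
    have h1 : a * d ∈ Cfsg.pCore p G := hcore a ha d hd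
    have h2 : π (a * d) = 1 := (QuotientGroup.eq_one_iff _).mpr h1
    rw [map_mul] at h2
    have h3 : π d * π d = 1 := by rw [← map_mul, hdd, map_one]
    calc π a = π a * (π d * π d) := by rw [h3, mul_one]
      _ = (π a * π d) * π d := by rw [mul_assoc]
      _ = π d := by rw [h2, one_mul]
  have hall : ∀ g : G, π g ∈ Subgroup.zpowers (π d) := by
    intro g
    have hg : g ∈ Subgroup.closure (conjugatesOf d) := by rw [hgen]; exact Subgroup.mem_top g
    induction hg using Subgroup.closure_induction with
    | mem x hx => rw [himg x hx]; exact Subgroup.mem_zpowers _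
    | one => rw [map_one]; exact Subgroup.one_mem _
    | mul x y _ _ hx hy => rw [map_mul]; exact Subgroup.mul_mem _ hx hy
    | inv x _ hx => rw [map_inv]; exact Subgroup.inv_mem _ hx
  have hle : commutator G ≤ Cfsg.pCore p G := by
    rw [commutator_def, Subgroup.commutator_le]
    intro g _ h _
    rw [← QuotientGroup.eq_one_iff]
    show π ⁅g, h⁆ = 1
    rw [map_commutatorElement, commutatorElement_eq_one_iff_commute]
    obtain ⟨i, hi⟩ := Subgroup.mem_zpowers_iff.mp (hall g)
    obtain ⟨j, hj⟩ := Subgroup.mem_zpowers_iff.mp (hall h)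
    rw [← hi, ← hj]
    exact (Commute.refl (π d)).zpow_zpow i j
  have hCp : IsPGroup p (commutator G) := hPp.to_le hle
  exact hCp.isNilpotent

end Cfsg.Agent.S1618
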