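import Cfsg.Statements.S1892
import Cfsg.Agent.Lib.Helper76.PSolv
import Cfsg.Agent.Lib.Helper24.Coprime

set_option autoImplicit false
open Cfsg

namespace Cfsg.Agent.S1892

open scoped commutatorElement

/-- Elements normalizing `B` and acting trivially on `P` modulo `B`. -/
def stab {G : Type*} [Group G] (B P : Subgroup G) : Subgroup G where
  carrier := {h | h ∈ Subgroup.normalizer (B : Set G) ∧ ∀ x ∈ P, x * h * x⁻¹ * h⁻¹ ∈ B}
  one_mem' := ⟨Subgroup.one_mem _, fun x _ => by simp⟩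
  mul_mem' := by
    rintro h k ⟨hh1, hh2⟩ ⟨hk1, hk2⟩
    refine ⟨Subgroup.mul_mem _ hh1 hk1, fun x hx => ?_⟩
    have e : x * (h * k) * x⁻¹ * (h * k)⁻¹
        = (x * h * x⁻¹ * h⁻¹) * (h * (x * k * x⁻¹ * k⁻¹) * h⁻¹) := by group
    show x * (h * k) * x⁻¹ * (h * k)⁻¹ ∈ B
    rw [e]
    exact B.mul_mem (hh2 x hx) ((Subgroup.mem_normalizer_iff.1 hh1 _).1 (hk2 x hx))
  inv_mem' := by
    rintro h ⟨hh1, hh2⟩
    refine ⟨Subgroup.inv_mem _ hh1, fun x hx => ?_⟩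
    have e : x * h⁻¹ * x⁻¹ * h⁻¹⁻¹ = h⁻¹ * (x * h * x⁻¹ * h⁻¹)⁻¹ * h⁻¹⁻¹ := by group
    show x * h⁻¹ * x⁻¹ * h⁻¹⁻¹ ∈ B
    rw [e]
    exact (Subgroup.mem_normalizer_iff.1 (Subgroup.inv_mem _ hh1) _).1 (B.inv_mem (hh2 x hx))

theorem mem_stab {G : Type*} [Group G] {B P : Subgroup G} {h : G} :
    h ∈ stab B P ↔
      (h ∈ Subgroup.normalizer (B : Set G) ∧ ∀ x ∈ P, x * h * x⁻¹ * h⁻¹ ∈ B) := Iff.rfl

/-- Let S be a finite p-solvable group with no nontrivial normal subgroup of order prime to p, A a p-subgroup of S, and Q a nontrivial A-invariant subgroup of order prime to p with [A, Q] = Q. Then the commutator [O_p(S), A, Q] is nontrivial. -/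
theorem result {S : Type*} [Group S] [Finite S] {p : ℕ} [Fact p.Prime]
    (hS : Cfsg.IsPSolvable p S) (hred : Cfsg.pPrimeCore p S = ⊥)
    (A Q : Subgroup S) (hA : IsPGroup p A) (hQ : ¬ p ∣ Nat.card Q) (hQ1 : Q ≠ ⊥)
    (hinv : ∀ a ∈ A, ∀ x ∈ Q, a * x * a⁻¹ ∈ Q) (hAQ : ⁅A, Q⁆ = Q) :
    ⁅⁅Cfsg.pCore p S, A⁆, Q⁆ ≠ ⊥ := by
  intro hcontra
  have hp : p.Prime := Fact.out
  have hPn : (Cfsg.pCore p S).Normal := Subgroup.sSup_normal _ (fun _ h => h.1)
  have hPp : IsPGroup p (Cfsg.pCore p S) := Cfsg.Agent.Lib.Helper76.PSolv.pCore_isPGroup p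
  have hQB : ∀ y ∈ Q, ∀ b ∈ ⁅Cfsg.pCore p S, A⁆, b * y = y * b := by
    have h1 : ⁅Cfsg.pCore p S, A⁆ ≤ Subgroup.centralizer (Q : Set S) :=
      Subgroup.commutator_eq_bot_iff_le_centralizer.1 hcontra
    intro y hy b hb
    exact (Subgroup.mem_centralizer_iff.1 (h1 hb) y hy).symm
  have hQN : Q ≤ Subgroup.normalizer ((⁅Cfsg.pCore p S, A⁆ : Subgroup S) : Set S) := by
    intro y hy
    exact Cfsg.Agent.Lib.Helper24.Coprime.mem_normalizer_of_commute (fun b hb => hQB y hy b hb)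
  have hAN : A ≤ Subgroup.normalizer ((⁅Cfsg.pCore p S, A⁆ : Subgroup S) : Set S) := by
    intro a ha
    refine Cfsg.Agent.Lib.Helper24.Coprime.mem_normalizer_commutator ?_ (Subgroup.le_normalizer ha)
    rw [Subgroup.normalizer_eq_top]; exact Subgroup.mem_top a
  have hAK : A ≤ stab ⁅Cfsg.pCore p S, A⁆ (Cfsg.pCore p S) := fun a ha =>
    mem_stab.2 ⟨hAN ha, fun x hx => Subgroup.commutator_mem_commutator hx ha⟩
  have hQK : Q ≤ stab ⁅Cfsg.pCore p S, A⁆ (Cfsg.pCore p S) := by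
    have h0 : ⁅A, Q⁆ ≤ stab ⁅Cfsg.pCore p S, A⁆ (Cfsg.pCore p S) := by
      rw [Subgroup.commutator_le]
      intro a ha y hy
      have h1 : y * a⁻¹ * y⁻¹ ∈ stab ⁅Cfsg.pCore p S, A⁆ (Cfsg.pCore p S) := by
        obtain ⟨h2, h3⟩ := mem_stab.1 (Subgroup.inv_mem _ (hAK ha))
        refine mem_stab.2 ⟨?_, fun x hx => ?_⟩
        · exact Subgroup.mul_mem _ (Subgroup.mul_mem _ (hQN hy) h2) (Subgroup.inv_mem _ (hQN hy))
        · have hx' : y⁻¹ * x * y ∈ Cfsg.pCore p S := by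
            have := hPn.conj_mem x hx y⁻¹
            simpa using this
          have e : x * (y * a⁻¹ * y⁻¹) * x⁻¹ * (y * a⁻¹ * y⁻¹)⁻¹
              = y * ((y⁻¹ * x * y) * a⁻¹ * (y⁻¹ * x * y)⁻¹ * a⁻¹⁻¹) * y⁻¹ := by group
          rw [e]
          exact (Subgroup.mem_normalizer_iff.1 (hQN hy) _).1 (h3 _ hx')
      have e : ⁅a, y⁆ = a * (y * a⁻¹ * y⁻¹) := by rw [commutatorElement_def]; group
      rw [e]
      exact Subgroup.mul_mem _ (hAK ha) h1
    rw [hAQ] at h0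
    exact h0
  have hcent : Q ≤ Subgroup.centralizer ((Cfsg.pCore p S : Subgroup S) : Set S) := by
    intro y hy
    rw [Subgroup.mem_centralizer_iff]
    intro x hx
    have hyN : y ∈ Subgroup.normalizer ((Cfsg.pCore p S : Subgroup S) : Set S) := by
      rw [Subgroup.normalizer_eq_top]; exact Subgroup.mem_top y
    have hcop : (orderOf y).Coprime (Nat.card (Cfsg.pCore p S)) := by
      obtain ⟨n, hn⟩ := hPp.exists_card_eq
      rw [hn]
      have h1 : orderOf y ∣ Nat.card Q := by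
        have := orderOf_dvd_natCard (⟨y, hy⟩ : Q)
        rwa [Subgroup.orderOf_mk] at this
      have h2 : (Nat.card Q).Coprime p := ((Nat.Prime.coprime_iff_not_dvd hp).2 hQ).symm
      exact Nat.Coprime.pow_right n (Nat.Coprime.coprime_dvd_left h1 h2)
    have hc := (mem_stab.1 (hQK hy)).2 x hx
    exact Cfsg.Agent.Lib.Helper24.Coprime.commute_of_commutator_commute hyN hcop hx
      (hQB y hy _ hc)
  have hQP : Q ≤ Cfsg.pCore p S :=
    hcent.trans (Cfsg.Agent.Lib.Helper76.PSolv.centralizer_pCore_le p hS hred)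
  apply hQ1
  have hQp : IsPGroup p Q := hPp.to_le hQP
  obtain ⟨m, hm⟩ := hQp.exists_card_eq
  rw [hm] at hQ
  have hm0 : m = 0 := by
    by_contra h0
    exact hQ (dvd_pow_self p h0)
  rw [hm0, pow_zero] at hm
  exact Subgroup.card_eq_one.1 hm

end Cfsg.Agent.S1892
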