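import Cfsg.Statements.S1894
import Cfsg.Agent.H32.PGroup

set_option autoImplicit false
open Cfsg

namespace Cfsg.Agent.S1894

/-- Let P be a finite p-group, A a normal subgroup of P and B an abelian subgroup of A that is normal in P. Then some subgroup C of A containing B is normal in P and is self-centralizing and normal in A (C ∈ SCN(A)). -/
theorem result {P : Type*} [Group P] [Finite P] {p : ℕ} [Fact p.Prime] (hP : IsPGroup p P)
    (A : Subgroup P) [A.Normal] (B : Subgroup P) [B.Normal] (hBA : B ≤ A) (hB : IsMulCommutative B) :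
    ∃ C : Subgroup P, C.Normal ∧ B ≤ C ∧ Cfsg.IsSCN A C := by
  classical
  -- choose C maximal among normal abelian subgroups between B and A
  have hfin : Set.Finite {C : Subgroup P | C.Normal ∧ IsMulCommutative C ∧ B ≤ C ∧ C ≤ A} := Set.toFinite _
  have hne : Set.Nonempty {C : Subgroup P | C.Normal ∧ IsMulCommutative C ∧ B ≤ C ∧ C ≤ A} :=
    ⟨B, inferInstance, hB, le_rfl, hBA⟩
  obtain ⟨C, ⟨hCn, hCc, hBC, hCA⟩, hCmax⟩ := hfin.exists_maximal hne
  refine ⟨C, hCn, hBC, hCA, ?_, ?_⟩
  · intro a _
    exact Subgroup.normalizer_eq_top_iff.mpr hCn ▸ Subgroup.mem_top a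
  · -- self-centralizing
    have hCcomm : ∀ c ∈ C, ∀ d ∈ C, c * d = d * c := by
      intro c hc d hd
      have := hCc.is_comm.comm (⟨c, hc⟩ : C) ⟨d, hd⟩
      exact congrArg Subtype.val this
    have hCle : C ≤ A ⊓ Subgroup.centralizer (C : Set P) := by
      apply le_inf hCA
      intro c hc
      rw [Subgroup.mem_centralizer_iff]
      intro d hd
      exact hCcomm d hd c hc
    by_contra hne'
    set D := A ⊓ Subgroup.centralizer (C : Set P) with hD
    have hlt : ¬ D ≤ C := fun h => hne' (le_antisymm h hCle)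
    have hDn : D.Normal := inferInstance
    -- pass to the quotient P ⧸ C
    let π := QuotientGroup.mk' C
    have hDn' : (D.map π).Normal := Subgroup.Normal.map hDn π (QuotientGroup.mk'_surjective C)
    have hD1 : D.map π ≠ ⊥ := by
      intro h
      apply hlt
      intro d hd
      have : π d ∈ D.map π := Subgroup.mem_map_of_mem π hd
      rw [h, Subgroup.mem_bot] at this
      exact (QuotientGroup.eq_one_iff d).mp this
    have hQ : IsPGroup p (P ⧸ C) := hP.to_quotient C
    obtain ⟨y, hyD, hy1, hyZ⟩ := Cfsg.Agent.H32.exists_mem_center_of_normal hQ (D.map π) hD1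
    obtain ⟨x, hxD, rfl⟩ := hyD
    have hxC : x ∉ C := fun h => hy1 ((QuotientGroup.eq_one_iff x).mpr h)
    have hxcomm : ∀ g : P, g * x * g⁻¹ * x⁻¹ ∈ C := by
      intro g
      rw [Subgroup.mem_center_iff] at hyZ
      have := hyZ (π g)
      have h2 : π (g * x * g⁻¹ * x⁻¹) = 1 := by
        rw [map_mul, map_mul, map_mul, this, map_inv, map_inv]
        group
      exact (QuotientGroup.eq_one_iff _).mp h2
    -- the bigger subgroup
    set C' := C ⊔ Subgroup.zpowers x with hC'
    have hxC' : x ∈ C' := Subgroup.mem_sup_right (Subgroup.mem_zpowers x)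
    have hCC' : C ≤ C' := le_sup_left
    have hxcen : x ∈ Subgroup.centralizer (C : Set P) := hxD.2
    have hC'n : C'.Normal := by
      constructor
      intro n hn g
      rw [hC', Subgroup.mem_sup_of_normal_left] at hn
      obtain ⟨c, hc, z, hz, rfl⟩ := hn
      obtain ⟨k, rfl⟩ := Subgroup.mem_zpowers_iff.mp hz
      have e : g * (c * x ^ k) * g⁻¹ = (g * c * g⁻¹) * (g * x * g⁻¹) ^ k := by
        rw [conj_zpow]; group
      rw [e]
      apply C'.mul_mem (hCC' (hCn.conj_mem c hc g))
      apply C'.zpow_mem
      have : g * x * g⁻¹ = (g * x * g⁻¹ * x⁻¹) * x := by group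
      rw [this]
      exact C'.mul_mem (hCC' (hxcomm g)) hxC'
    have hC'c : IsMulCommutative C' := by
      have h1 : C' = Subgroup.closure ((C : Set P) ∪ {x}) := by
        rw [hC', Subgroup.closure_union, Subgroup.closure_eq, Subgroup.zpowers_eq_closure]
      rw [h1]
      apply Subgroup.isMulCommutative_closure
      intro a ha b hb
      rw [Subgroup.mem_centralizer_iff] at hxcen
      rcases ha with ha | ha <;> rcases hb with hb | hb
      · exact hCcomm a ha b hb
      · rw [Set.mem_singleton_iff] at hb; subst hb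
        exact hxcen a ha
      · rw [Set.mem_singleton_iff] at ha; subst ha
        exact (hxcen b hb).symm
      · rw [Set.mem_singleton_iff] at ha hb; subst ha; subst hb; rfl
    have hC'A : C' ≤ A := by
      apply sup_le hCA
      rw [Subgroup.zpowers_le]
      exact hxD.1
    have hmem : C' ∈ {C : Subgroup P | C.Normal ∧ IsMulCommutative C ∧ B ≤ C ∧ C ≤ A} :=
      ⟨hC'n, hC'c, hBC.trans hCC', hC'A⟩
    exact hxC (hCmax hmem hCC' hxC')

end Cfsg.Agent.S1894
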