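import Cfsg.Statements.S1898

set_option autoImplicit false
open Cfsg

namespace Cfsg.Agent.S1898

/-- Let X be a finite 2-group whose derived subgroup is elementary abelian and central. Then the subgroup generated by the elements of order dividing 4 has exponent dividing 4, and every automorphism of X fixing each element of order dividing 4 has 2-power order. -/
theorem result {X : Type*} [Group X] [Finite X] (hX : IsPGroup 2 X)
    (hel : Cfsg.IsElementaryAbelian 2 (commutator X)) (hcen : commutator X ≤ Subgroup.center X) :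
    (∀ x ∈ Subgroup.closure {g : X | g ^ 4 = 1}, x ^ 4 = 1) ∧
      ∀ φ : MulAut X, (∀ g : X, g ^ 4 = 1 → φ g = g) → ∃ k : ℕ, φ ^ (2 ^ k) = 1 := by
  classical
  -- commutators are central of order ≤ 2
  have hc_mem : ∀ x y : X, x * y * x⁻¹ * y⁻¹ ∈ commutator X := by
    intro x y
    have := Subgroup.commutator_mem_commutator (Subgroup.mem_top x) (Subgroup.mem_top y)
    rw [commutatorElement_def] at this
    exact this
  have hc_cen : ∀ x y z : X, z * (x * y * x⁻¹ * y⁻¹) = (x * y * x⁻¹ * y⁻¹) * z := by
    intro x y z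
    have := hcen (hc_mem x y)
    rw [Subgroup.mem_center_iff] at this
    exact this z
  have hc_sq : ∀ x y : X, (x * y * x⁻¹ * y⁻¹) ^ 2 = 1 := fun x y => hel.2 _ (hc_mem x y)
  -- squares are central
  have hsq_cen : ∀ x y : X, y ^ 2 * x = x * y ^ 2 := by
    intro x y
    set c := y * x * y⁻¹ * x⁻¹ with hc
    have h1 : y * x = c * x * y := by rw [hc]; group
    have hcc : c * c = 1 := by rw [← pow_two]; exact hc_sq y x
    have hccen : ∀ z : X, z * c = c * z := fun z => hc_cen y x z
    calc y ^ 2 * x = y * (y * x) := by rw [pow_two, mul_assoc]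
      _ = y * (c * x * y) := by rw [h1]
      _ = c * (y * x) * y := by rw [mul_assoc c, ← mul_assoc y c, hccen y]; group
      _ = c * (c * x * y) * y := by rw [h1]
      _ = (c * c) * x * (y * y) := by group
      _ = x * y ^ 2 := by rw [hcc, one_mul, pow_two]
  -- (x y)^4 = x^4 y^4
  have hpow4 : ∀ x y : X, (x * y) ^ 4 = x ^ 4 * y ^ 4 := by
    intro x y
    set c := y * x * y⁻¹ * x⁻¹ with hc
    have h1 : y * x = c * x * y := by rw [hc]; group
    have hcc : c * c = 1 := by rw [← pow_two]; exact hc_sq y x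
    have hccen : ∀ z : X, z * c = c * z := fun z => hc_cen y x z
    have h2 : (x * y) ^ 2 = c * (x ^ 2 * y ^ 2) := by
      calc (x * y) ^ 2 = x * (y * x) * y := by rw [pow_two]; group
        _ = x * (c * x * y) * y := by rw [h1]
        _ = (x * c) * x * (y * y) := by group
        _ = c * (x ^ 2 * y ^ 2) := by rw [hccen x]; rw [pow_two, pow_two]; group
    have hx2 : ∀ z : X, x ^ 2 * z = z * x ^ 2 := fun z => hsq_cen z x
    have hy2 : ∀ z : X, y ^ 2 * z = z * y ^ 2 := fun z => hsq_cen z y
    calc (x * y) ^ 4 = ((x * y) ^ 2) ^ 2 := by rw [← pow_mul]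
      _ = (c * (x ^ 2 * y ^ 2)) ^ 2 := by rw [h2]
      _ = c * (x ^ 2 * y ^ 2) * (c * (x ^ 2 * y ^ 2)) := by rw [pow_two]
      _ = (c * c) * (x ^ 2 * (y ^ 2 * x ^ 2) * y ^ 2) := by
          rw [mul_assoc c, ← mul_assoc (x ^ 2 * y ^ 2) c, hccen (x ^ 2 * y ^ 2)]; group
      _ = x ^ 2 * (x ^ 2 * y ^ 2) * y ^ 2 := by rw [hcc, one_mul, hy2 (x ^ 2)]
      _ = x ^ 4 * y ^ 4 := by
          have e4 : ∀ z : X, z ^ 4 = z ^ 2 * z ^ 2 := fun z => by rw [← pow_add]
          rw [e4 x, e4 y]; group
  -- the fourth-power homomorphism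
  let f : X →* X :=
    { toFun := fun x => x ^ 4
      map_one' := one_pow 4
      map_mul' := hpow4 }
  have hf : ∀ x : X, f x = x ^ 4 := fun x => rfl
  constructor
  · intro x hx
    have : Subgroup.closure {g : X | g ^ 4 = 1} ≤ f.ker := by
      rw [Subgroup.closure_le]
      intro g hg
      exact hg
    exact this hx
  · intro φ hφ
    -- key: φ^(4^i) fixes every x with x^(4^(i+1)) = 1
    have key : ∀ i : ℕ, ∀ x : X, x ^ (4 ^ (i + 1)) = 1 → (φ ^ (4 ^ i)) x = x := by
      intro i
      induction i with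
      | zero =>
        intro x hx
        simp only [pow_zero, pow_one, zero_add] at hx ⊢
        exact hφ x hx
      | succ i ih =>
        intro x hx
        set ψ := φ ^ (4 ^ i) with hψ
        -- ψ fixes x^4
        have h1 : ψ (x ^ 4) = x ^ 4 := by
          apply ih
          rw [← pow_mul, ← pow_succ']
          exact hx
        -- k = ψ x * x⁻¹ has k^4 = 1
        set k := ψ x * x⁻¹ with hk
        have hk4 : k ^ 4 = 1 := by
          rw [hk, ← hf, map_mul, hf, hf, ← map_pow, h1, inv_pow, mul_inv_cancel]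
        have hkfix : ψ k = k := by
          apply ih
          rw [pow_succ, pow_mul', hk4, one_pow]
        have hψx : ψ x = k * x := by rw [hk]; group
        have hiter : ∀ j : ℕ, (ψ ^ j) x = k ^ j * x := by
          intro j
          induction j with
          | zero => simp
          | succ j ihj =>
            rw [pow_succ', MulAut.mul_apply, ihj, map_mul, map_pow, hkfix, hψx, pow_succ]
            group
        have : φ ^ (4 ^ (i + 1)) = ψ ^ 4 := by
          rw [hψ, ← pow_mul, ← pow_succ]
        rw [this, hiter 4, hk4, one_mul]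
    -- every element has 2-power order
    obtain ⟨n, hn⟩ := IsPGroup.iff_card.mp hX
    refine ⟨2 * n, ?_⟩
    ext x
    have hx : x ^ (4 ^ (n + 1)) = 1 := by
      have h1 : x ^ (2 ^ n) = 1 := by rw [← hn]; exact pow_card_eq_one'
      have h2 : (4 : ℕ) ^ (n + 1) = 2 ^ n * (2 ^ n * 4) := by
        have : (4 : ℕ) = 2 ^ 2 := by norm_num
        rw [this, ← pow_mul]; ring
      rw [h2, pow_mul, h1, one_pow]
    have h3 := key n x hx
    have h4 : (2 : ℕ) ^ (2 * n) = 4 ^ n := by
      rw [pow_mul]; norm_num
    rw [h4, h3]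
    rfl

end Cfsg.Agent.S1898
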