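import Cfsg.Statements.S1899

set_option autoImplicit false
open Cfsg

namespace Cfsg.Agent.S1899

/-- Let a dihedral group of order 2n, n odd and n > 1, act on a finite abelian 2-group A through automorphisms d and t with d^n = 1, t² = 1 and t d t⁻¹ = d⁻¹, and suppose that d fixes only the identity. Then A is the internal direct product of C_A(t) and its image under d. -/
theorem result {A : Type*} [CommGroup A] [Finite A] (hA : IsPGroup 2 A)
    {n : ℕ} (hn : Odd n) (hn1 : 1 < n) (d t : MulAut A) (hd : d ^ n = 1) (ht : t ^ 2 = 1) (hdt : t * d * t⁻¹ = d⁻¹)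
    (hfix : ∀ a : A, d a = a → a = 1) :
    (MulEquiv.toMonoidHom t).eqLocus (MonoidHom.id A) ⊓ ((MulEquiv.toMonoidHom t).eqLocus (MonoidHom.id A)).map d.toMonoidHom = ⊥ ∧
      (MulEquiv.toMonoidHom t).eqLocus (MonoidHom.id A) ⊔ ((MulEquiv.toMonoidHom t).eqLocus (MonoidHom.id A)).map d.toMonoidHom = ⊤ := by
  classical
  have mul_app : ∀ (f g : MulAut A) (x : A), f (g x) = (f * g) x := fun f g x => rfl
  -- basic relations
  have htd : t * d = d⁻¹ * t := by
    rw [← hdt]; group
  have htt : t * t = 1 := by rw [← pow_two]; exact ht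
  -- d² has no nontrivial fixed points
  have hfix2 : ∀ a : A, (d * d) a = a → a = 1 := by
    intro a ha
    apply hfix
    obtain ⟨k, rfl⟩ := hn
    -- d = (d*d)^(k+1) since d^(2k+1) = 1
    have h1 : d = (d * d) ^ (k + 1) := by
      rw [← pow_two, ← pow_mul]
      have : 2 * (k + 1) = (2 * k + 1) + 1 := by ring
      rw [this, pow_succ, hd, one_mul]
    have h2 : ∀ m : ℕ, ((d * d) ^ m) a = a := by
      intro m
      induction m with
      | zero => simp
      | succ m ih => rw [pow_succ, ← mul_app, ha, ih]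
    rw [h1]
    exact h2 (k + 1)
  set C := (MulEquiv.toMonoidHom t).eqLocus (MonoidHom.id A) with hC
  have hCmem : ∀ a : A, a ∈ C ↔ t a = a := fun a => Iff.rfl
  constructor
  · rw [eq_bot_iff]
    rintro x ⟨hx1, c, hc, rfl⟩
    have hx1' : d c ∈ C := hx1
    have hc' : c ∈ C := hc
    rw [hCmem] at hx1' hc'
    -- t (d c) = d c, and t (d c) = d⁻¹ (t c) = d⁻¹ c
    have h1 : t (d c) = d⁻¹ c := by
      rw [mul_app, htd, ← mul_app, hc']
    rw [h1] at hx1'
    have h2 : (d * d) c = c := by
      rw [← mul_app]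
      have := congrArg d hx1'
      rw [mul_app d d⁻¹, mul_inv_cancel, MulAut.one_apply] at this
      exact this.symm
    have h3 := hfix2 c h2
    rw [h3]
    show d 1 ∈ (⊥ : Subgroup A)
    rw [map_one, Subgroup.mem_bot]
  · rw [eq_top_iff]
    intro b _
    -- φ a = a * (d⁻¹ d⁻¹ a)⁻¹ is injective, hence surjective
    let φ : A →* A :=
      { toFun := fun a => a * ((d⁻¹ * d⁻¹) a)⁻¹
        map_one' := by simp
        map_mul' := by
          intro x y
          rw [map_mul, mul_inv]
          exact mul_mul_mul_comm _ _ _ _ }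
    have hφinj : Function.Injective φ := by
      rw [injective_iff_map_eq_one]
      intro a ha
      apply hfix2
      have h1 : a = (d⁻¹ * d⁻¹) a := by
        have : a * ((d⁻¹ * d⁻¹) a)⁻¹ = 1 := ha
        exact mul_inv_eq_one.mp this
      have h2 := congrArg (d * d) h1
      rw [mul_app] at h2
      have h3 : d * d * (d⁻¹ * d⁻¹) = 1 := by group
      rw [h3, MulAut.one_apply] at h2
      exact h2
    have hφsurj : Function.Surjective φ := Finite.surjective_of_injective hφinj
    obtain ⟨a, ha⟩ := hφsurj (t b)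
    -- b = t (φ a) = u * u'⁻¹
    have hb : b = t (φ a) := by
      rw [ha, mul_app, htt, MulAut.one_apply]
    -- u = a * t a ∈ C
    have hu : a * t a ∈ C := by
      rw [hCmem, map_mul, mul_app t t, htt, MulAut.one_apply, mul_comm]
    -- c = d⁻¹ a * t (d⁻¹ a) ∈ C
    have hc : d⁻¹ a * t (d⁻¹ a) ∈ C := by
      rw [hCmem, map_mul, mul_app t t, htt, MulAut.one_apply, mul_comm]
    have hu' : d (d⁻¹ a * t (d⁻¹ a)) ∈ C.map d.toMonoidHom := ⟨_, hc, rfl⟩
    -- d (d⁻¹ a * t (d⁻¹ a)) = a * (d t d⁻¹) a = a * t (d⁻¹ d⁻¹ a)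
    have h1 : d (d⁻¹ a * t (d⁻¹ a)) = a * t ((d⁻¹ * d⁻¹) a) := by
      rw [map_mul, mul_app d d⁻¹, mul_inv_cancel, MulAut.one_apply]
      congr 1
      have e : d * t * d⁻¹ = t * (d⁻¹ * d⁻¹) := by
        have h3 : d * t = t * d⁻¹ := by
          have h4 : d * (t * d) * d⁻¹ = d * (d⁻¹ * t) * d⁻¹ := by rw [htd]
          have h5 : d * (t * d) * d⁻¹ = d * t := by group
          have h6 : d * (d⁻¹ * t) * d⁻¹ = t * d⁻¹ := by group
          rw [h5, h6] at h4
          exact h4
        rw [h3]; group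
      have e2 := congrArg (fun f : MulAut A => f a) e
      exact e2
    have h2 : b = (a * t a) * (d (d⁻¹ a * t (d⁻¹ a)))⁻¹ := by
      rw [h1, hb]
      show t (a * ((d⁻¹ * d⁻¹) a)⁻¹) = _
      rw [map_mul, map_inv, mul_inv, mul_mul_mul_comm, mul_inv_cancel, one_mul]
    rw [h2]
    exact Subgroup.mul_mem _ (Subgroup.mem_sup_left hu) (Subgroup.inv_mem _ (Subgroup.mem_sup_right hu'))

end Cfsg.Agent.S1899
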