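import Cfsg.Statements.S1900
import Cfsg.Agent.Lib.Helper31.CoprimeGen

set_option autoImplicit false
open Cfsg

namespace Cfsg.Agent.S1900

section aux

variable {S : Type*} [Group S]

theorem centralizer_zpowers (x : S) :
    Subgroup.centralizer ((Subgroup.zpowers x : Subgroup S) : Set S)
      = Subgroup.centralizer {x} := by
  ext g
  rw [Subgroup.mem_centralizer_iff, Subgroup.mem_centralizer_singleton_iff]
  constructor
  · intro h
    exact (h x (Subgroup.mem_zpowers x)).symm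
  · intro h y hy
    obtain ⟨k, rfl⟩ := Subgroup.mem_zpowers_iff.1 hy
    exact ((show Commute g x from h).zpow_right k).eq.symm

/-- `H` is stable under conjugation by the elements of `K`. -/
def Stab (K H : Subgroup S) : Prop := ∀ y ∈ K, ∀ g ∈ H, y * g * y⁻¹ ∈ H

theorem Stab.inf {K H₁ H₂ : Subgroup S} (h1 : Stab K H₁) (h2 : Stab K H₂) :
    Stab K (H₁ ⊓ H₂) :=
  fun y hy g hg => Subgroup.mem_inf.2
    ⟨h1 y hy g (Subgroup.mem_inf.1 hg).1, h2 y hy g (Subgroup.mem_inf.1 hg).2⟩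

theorem Stab.sup {K H₁ H₂ : Subgroup S} (h1 : Stab K H₁) (h2 : Stab K H₂) :
    Stab K (H₁ ⊔ H₂) := by
  intro y hy g hg
  have h3 : H₁ ⊔ H₂ ≤ (H₁ ⊔ H₂).comap (MulAut.conj y).toMonoidHom := by
    refine sup_le ?_ ?_
    · intro a ha
      exact Subgroup.mem_comap.2 ((le_sup_left : H₁ ≤ H₁ ⊔ H₂) (h1 y hy a ha))
    · intro a ha
      exact Subgroup.mem_comap.2 ((le_sup_right : H₂ ≤ H₁ ⊔ H₂) (h2 y hy a ha))
  exact Subgroup.mem_comap.1 (h3 hg)

theorem Stab.centralizer {K H : Subgroup S} (h : Stab K H) :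
    Stab K (Subgroup.centralizer (H : Set S)) := by
  intro y hy c hc
  rw [Subgroup.mem_centralizer_iff] at hc ⊢
  intro a ha
  have ha' : y⁻¹ * a * y ∈ H := by
    have := h y⁻¹ (K.inv_mem hy) a ha
    simpa using this
  have h1 := hc _ ha'
  calc a * (y * c * y⁻¹) = y * ((y⁻¹ * a * y) * c) * y⁻¹ := by group
    _ = y * (c * (y⁻¹ * a * y)) * y⁻¹ := by rw [h1]
    _ = y * c * y⁻¹ * a := by group

theorem Stab.le_normalizer {K H : Subgroup S} (h : Stab K H) :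
    K ≤ Subgroup.normalizer (H : Set S) := by
  intro y hy
  rw [Subgroup.mem_normalizer_iff]
  intro z
  constructor
  · exact h y hy z
  · intro hz
    have h1 := h y⁻¹ (K.inv_mem hy) _ hz
    have e : y⁻¹ * (y * z * y⁻¹) * y⁻¹⁻¹ = z := by group
    rw [e] at h1
    exact h1

theorem Stab.normalizer {K H : Subgroup S} (h : Stab K H) :
    Stab K (Subgroup.normalizer (H : Set S)) := by
  intro y hy g hg
  have hyN := h.le_normalizer hy
  exact Subgroup.mul_mem _ (Subgroup.mul_mem _ hyN hg) (Subgroup.inv_mem _ hyN)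

theorem stab_of_le {K H : Subgroup S} (h : K ≤ H) : Stab K H :=
  fun y hy g hg => H.mul_mem (H.mul_mem (h hy) hg) (H.inv_mem (h hy))

theorem stab_of_normal {K H : Subgroup S} (h : H.Normal) : Stab K H :=
  fun y _ g hg => h.conj_mem g hg y

/-- Fixed-point-free conjugation: every element is a twisted commutator. -/
theorem exists_twist [Finite S] (R : Subgroup S) (x : S) (hinv : ∀ r ∈ R, x * r * x⁻¹ ∈ R)
    (hfpf : ∀ r ∈ R, x * r = r * x → r = 1) :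
    ∀ r ∈ R, ∃ g ∈ R, r = g⁻¹ * (x * g * x⁻¹) := by
  let f : R → R := fun g =>
    ⟨(g : S)⁻¹ * (x * g * x⁻¹), R.mul_mem (R.inv_mem g.2) (hinv g g.2)⟩
  have hf : Function.Injective f := by
    intro g h hgh
    have h1 : (g : S)⁻¹ * (x * g * x⁻¹) = (h : S)⁻¹ * (x * h * x⁻¹) := congrArg Subtype.val hgh
    have h2 : x * ((h : S) * (g : S)⁻¹) = ((h : S) * (g : S)⁻¹) * x := by
      calc x * ((h : S) * (g : S)⁻¹)
          = (h : S) * ((h : S)⁻¹ * (x * h * x⁻¹)) * x * (g : S)⁻¹ := by group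
        _ = (h : S) * ((g : S)⁻¹ * (x * g * x⁻¹)) * x * (g : S)⁻¹ := by rw [h1]
        _ = ((h : S) * (g : S)⁻¹) * x := by group
    have h3 := hfpf _ (R.mul_mem h.2 (R.inv_mem g.2)) h2
    apply Subtype.ext
    exact (mul_inv_eq_one.1 h3).symm
  have hs : Function.Surjective f := Finite.surjective_of_injective hf
  intro r hr
  obtain ⟨g, hg⟩ := hs ⟨r, hr⟩
  exact ⟨g, g.2, (congrArg Subtype.val hg).symm⟩

/-- If `x` acts fixed-point-freely on `A`, centralizes `R`, and `A` normalizes `R`, then `A`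
centralizes `R`. -/
theorem centralizes_of_fpf [Finite S] (A R : Subgroup S) (x : S)
    (hinv : ∀ a ∈ A, x * a * x⁻¹ ∈ A)
    (hfpf : ∀ a ∈ A, x * a = a * x → a = 1) (hR : ∀ r ∈ R, x * r = r * x)
    (hAR : ∀ a ∈ A, ∀ r ∈ R, a * r * a⁻¹ ∈ R) : ∀ a ∈ A, ∀ r ∈ R, a * r = r * a := by
  intro a ha r hr
  obtain ⟨g, hg, rfl⟩ := exists_twist A x hinv hfpf a ha
  have hs := hR _ (hAR g hg r hr)
  have hr' := hR r hr
  calc g⁻¹ * (x * g * x⁻¹) * r = g⁻¹ * x * g * x⁻¹ * (r * x) * x⁻¹ := by group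
    _ = g⁻¹ * x * g * x⁻¹ * (x * r) * x⁻¹ := by rw [hr']
    _ = g⁻¹ * (x * (g * r * g⁻¹)) * g * x⁻¹ := by group
    _ = g⁻¹ * ((g * r * g⁻¹) * x) * g * x⁻¹ := by rw [hs]
    _ = r * (g⁻¹ * (x * g * x⁻¹)) := by group

/-- The commuting part of the statement, for two commuting elements `x₁`, `x₂` of `Q`. -/
theorem core [Finite S] {p : ℕ} [Fact p.Prime] (P Q : Subgroup S) (hP : IsPGroup p P)
    (x₁ x₂ : S) (sP : Stab Q P) (hQC₁ : Q ≤ Subgroup.centralizer {x₁})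
    (hQC₂ : Q ≤ Subgroup.centralizer {x₂}) (hx₁ : x₁ ∈ Q) (hx₂ : x₂ ∈ Q)
    (hgen : ∀ R : Subgroup S, R ≤ P → Stab Q R →
      R ≤ (R ⊓ Subgroup.centralizer {x₂}) ⊔ (R ⊓ Subgroup.centralizer {x₁}))
    (hdisj : ∀ g ∈ P, g * x₁ = x₁ * g → g * x₂ = x₂ * g → g = 1) :
    ∀ a ∈ P ⊓ Subgroup.centralizer {x₁}, ∀ b ∈ P ⊓ Subgroup.centralizer {x₂},
      a * b = b * a := by
  classical
  have sC₁ : Stab Q (Subgroup.centralizer {x₁}) := stab_of_le hQC₁
  have sC₂ : Stab Q (Subgroup.centralizer {x₂}) := stab_of_le hQC₂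
  have sP₁ : Stab Q (P ⊓ Subgroup.centralizer {x₁}) := sP.inf sC₁
  have sP₂ : Stab Q (P ⊓ Subgroup.centralizer {x₂}) := sP.inf sC₂
  obtain ⟨P₁, hP₁⟩ : ∃ P₁ : Subgroup S, P₁ = P ⊓ Subgroup.centralizer {x₁} := ⟨_, rfl⟩
  obtain ⟨P₂, hP₂⟩ : ∃ P₂ : Subgroup S, P₂ = P ⊓ Subgroup.centralizer {x₂} := ⟨_, rfl⟩
  rw [← hP₁] at sP₁ ⊢
  rw [← hP₂] at sP₂ ⊢
  have m₁ : ∀ g, g ∈ P₁ ↔ g ∈ P ∧ g * x₁ = x₁ * g := by
    intro g; rw [hP₁, Subgroup.mem_inf, Subgroup.mem_centralizer_singleton_iff]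
  have m₂ : ∀ g, g ∈ P₂ ↔ g ∈ P ∧ g * x₂ = x₂ * g := by
    intro g; rw [hP₂, Subgroup.mem_inf, Subgroup.mem_centralizer_singleton_iff]
  have hP₁P : P₁ ≤ P := by rw [hP₁]; exact inf_le_left
  have hP₂P : P₂ ≤ P := by rw [hP₂]; exact inf_le_left
  have h12 : ∀ g ∈ P₁, g ∈ P₂ → g = 1 := fun g h1 h2 =>
    hdisj g ((m₁ g).1 h1).1 ((m₁ g).1 h1).2 ((m₂ g).1 h2).2
  obtain ⟨B, hB⟩ : ∃ B : Subgroup S, B = P₂ ⊓ Subgroup.centralizer (P₁ : Set S) := ⟨_, rfl⟩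
  have sB : Stab Q B := by rw [hB]; exact sP₂.inf sP₁.centralizer
  have mB : ∀ g, g ∈ B ↔ g ∈ P₂ ∧ ∀ a ∈ P₁, a * g = g * a := by
    intro g
    rw [hB]
    exact ⟨fun h => ⟨(Subgroup.mem_inf.1 h).1, fun a ha =>
        Subgroup.mem_centralizer_iff.1 (Subgroup.mem_inf.1 h).2 a ha⟩,
      fun h => Subgroup.mem_inf.2 ⟨h.1, Subgroup.mem_centralizer_iff.2 (fun a ha => h.2 a ha)⟩⟩
  have hBP₂ : B ≤ P₂ := by rw [hB]; exact inf_le_left
  obtain ⟨N, hN⟩ : ∃ N : Subgroup S, N = P₁ ⊔ B := ⟨_, rfl⟩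
  have sN : Stab Q N := by rw [hN]; exact sP₁.sup sB
  have hP₁N : P₁ ≤ N := by rw [hN]; exact le_sup_left
  have hBN : B ≤ N := by rw [hN]; exact le_sup_right
  have hNP : N ≤ P := by rw [hN]; exact sup_le hP₁P (hBP₂.trans hP₂P)
  have hNprod : ∀ n ∈ N, ∃ a ∈ P₁, ∃ b ∈ B, n = a * b := by
    intro n hn
    have hle : B ≤ Subgroup.normalizer (P₁ : Set S) := by
      intro b hb
      exact (Subgroup.centralizer_le_normalizer _)
        (Subgroup.mem_centralizer_iff.2 ((mB b).1 hb).2)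
    have h1 : n ∈ ((B ⊔ P₁ : Subgroup S) : Set S) := by rw [sup_comm, ← hN]; exact hn
    rw [Subgroup.coe_mul_of_left_le_normalizer_right B P₁ hle] at h1
    obtain ⟨b, hb, a, ha, rfl⟩ := Set.mem_mul.1 h1
    exact ⟨a, ha, b, hb, (((mB b).1 hb).2 a ha).symm⟩
  have hNeq : N = P := by
    by_contra hne
    have hlt : N.subgroupOf P < ⊤ := by
      rw [lt_top_iff_ne_top]
      intro h
      exact hne (le_antisymm hNP (Subgroup.subgroupOf_eq_top.1 h))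
    haveI : Group.IsNilpotent P := hP.isNilpotent
    have hnc := Group.normalizerCondition_of_isNilpotent (N.subgroupOf P) hlt
    obtain ⟨g, hgn, hgN⟩ := SetLike.exists_of_lt hnc
    have hgN' : (g : S) ∉ N := fun h => hgN (Subgroup.mem_subgroupOf.2 h)
    have hgnorm : (g : S) ∈ Subgroup.normalizer (N : Set S) := by
      rw [Subgroup.mem_normalizer_iff]
      intro n
      constructor
      · intro hn
        have h1 := (Subgroup.mem_normalizer_iff.1 hgn ⟨n, hNP hn⟩).1 (Subgroup.mem_subgroupOf.2 hn)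
        exact Subgroup.mem_subgroupOf.1 h1
      · intro hn
        have hnP : n ∈ P := by
          have e : n = (g : S)⁻¹ * ((g : S) * n * (g : S)⁻¹) * (g : S) := by group
          rw [e]
          exact P.mul_mem (P.mul_mem (P.inv_mem g.2) (hNP hn)) g.2
        have h1 := (Subgroup.mem_normalizer_iff.1 hgn ⟨n, hnP⟩).2 (Subgroup.mem_subgroupOf.2 hn)
        exact Subgroup.mem_subgroupOf.1 h1
    obtain ⟨R, hR⟩ : ∃ R : Subgroup S, R = P ⊓ Subgroup.normalizer (N : Set S) := ⟨_, rfl⟩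
    have sR : Stab Q R := by rw [hR]; exact sP.inf sN.normalizer
    have hRP : R ≤ P := by rw [hR]; exact inf_le_left
    have hRN : R ≤ Subgroup.normalizer (N : Set S) := by rw [hR]; exact inf_le_right
    have hgR : (g : S) ∈ R := by rw [hR]; exact Subgroup.mem_inf.2 ⟨g.2, hgnorm⟩
    have hNR : N ≤ R := by rw [hR]; exact le_inf hNP Subgroup.le_normalizer
    have hgenR := hgen R hRP sR
    have hB'not : ¬ (R ⊓ Subgroup.centralizer {x₂} ≤ N) := by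
      intro hle
      have h1 : R ⊓ Subgroup.centralizer {x₁} ≤ N := by
        refine le_trans ?_ hP₁N
        rw [hP₁]
        exact inf_le_inf_right _ hRP
      exact hgN' ((hgenR.trans (sup_le hle h1)) hgR)
    obtain ⟨b₀, hb₀, hb₀N⟩ := SetLike.not_le_iff_exists.1 hB'not
    obtain ⟨B', hB'⟩ : ∃ B' : Subgroup S, B' = R ⊓ Subgroup.centralizer {x₂} := ⟨_, rfl⟩
    rw [← hB'] at hb₀
    have sB' : Stab Q B' := by rw [hB']; exact sR.inf sC₂
    have mB' : ∀ g, g ∈ B' ↔ g ∈ R ∧ g * x₂ = x₂ * g := by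
      intro g; rw [hB', Subgroup.mem_inf, Subgroup.mem_centralizer_singleton_iff]
    have hfpf₁ : ∀ r ∈ B', x₁ * r = r * x₁ → r = 1 := by
      intro r hr h
      exact hdisj r (hRP ((mB' r).1 hr).1) h.symm ((mB' r).1 hr).2
    have haux : ∀ α ∈ P₁, ∀ b ∈ B', α⁻¹ * b * α ∈ Subgroup.centralizer {x₂} := by
      intro α hα b hb
      obtain ⟨g', hg', hbg⟩ := exists_twist B' x₁ (fun r hr => sB' x₁ hx₁ r hr) hfpf₁ b hb
      have hg'N : g' * α * g'⁻¹ ∈ N :=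
        (Subgroup.mem_normalizer_iff.1 (hRN ((mB' g').1 hg').1) α).1 (hP₁N hα)
      obtain ⟨a', ha', n, hn, h3⟩ := hNprod _ hg'N
      have hα₁ : α * x₁ = x₁ * α := ((m₁ α).1 hα).2
      have ha'₁ : a' * x₁ = x₁ * a' := ((m₁ a').1 ha').2
      have hα' : x₁⁻¹ * α * x₁ = α := by
        rw [mul_assoc, hα₁, ← mul_assoc, inv_mul_cancel, one_mul]
      have e1 : b * α * b⁻¹ = g'⁻¹ * a' * (x₁ * n * x₁⁻¹) * g' := by
        calc b * α * b⁻¹ = g'⁻¹ * x₁ * g' * (x₁⁻¹ * α * x₁) * g'⁻¹ * x₁⁻¹ * g' := by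
              rw [hbg]; group
          _ = g'⁻¹ * x₁ * (g' * α * g'⁻¹) * x₁⁻¹ * g' := by rw [hα']; group
          _ = g'⁻¹ * x₁ * (a' * n) * x₁⁻¹ * g' := by rw [h3]
          _ = g'⁻¹ * (x₁ * a') * n * x₁⁻¹ * g' := by group
          _ = g'⁻¹ * (a' * x₁) * n * x₁⁻¹ * g' := by rw [ha'₁]
          _ = g'⁻¹ * a' * (x₁ * n * x₁⁻¹) * g' := by group
      have e2 : α = g'⁻¹ * (a' * n) * g' := by rw [← h3]; group
      have e3 : α⁻¹ * b * α = (g'⁻¹ * (n⁻¹ * (x₁ * n * x₁⁻¹)) * g') * b := by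
        calc α⁻¹ * b * α = α⁻¹ * (b * α * b⁻¹) * b := by group
          _ = (g'⁻¹ * (a' * n) * g')⁻¹ * (g'⁻¹ * a' * (x₁ * n * x₁⁻¹) * g') * b := by
              rw [e1, ← e2]
          _ = (g'⁻¹ * (n⁻¹ * (x₁ * n * x₁⁻¹)) * g') * b := by group
      have hg₂ : g' ∈ Subgroup.centralizer {x₂} :=
        Subgroup.mem_centralizer_singleton_iff.2 ((mB' g').1 hg').2
      have hb₂ : b ∈ Subgroup.centralizer {x₂} :=
        Subgroup.mem_centralizer_singleton_iff.2 ((mB' b).1 hb).2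
      have hn₂ : n ∈ Subgroup.centralizer {x₂} :=
        Subgroup.mem_centralizer_singleton_iff.2 ((m₂ n).1 (hBP₂ hn)).2
      have hx₁₂ : x₁ ∈ Subgroup.centralizer {x₂} := hQC₂ hx₁
      rw [e3]
      exact Subgroup.mul_mem _ (Subgroup.mul_mem _ (Subgroup.mul_mem _ (Subgroup.inv_mem _ hg₂)
        (Subgroup.mul_mem _ (Subgroup.inv_mem _ hn₂)
          (Subgroup.mul_mem _ (Subgroup.mul_mem _ hx₁₂ hn₂) (Subgroup.inv_mem _ hx₁₂)))) hg₂) hb₂
    have hnorm : ∀ a ∈ P₁, ∀ b ∈ B', a * b * a⁻¹ ∈ B' := by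
      intro a ha b hb
      rw [mB']
      have haR : a ∈ R := hNR (hP₁N ha)
      refine ⟨R.mul_mem (R.mul_mem haR ((mB' b).1 hb).1) (R.inv_mem haR), ?_⟩
      have h1 := haux a⁻¹ (P₁.inv_mem ha) b hb
      rw [inv_inv] at h1
      exact Subgroup.mem_centralizer_singleton_iff.1 h1
    have hcent := centralizes_of_fpf P₁ B' x₂ (fun a ha => sP₁ x₂ hx₂ a ha)
      (fun a ha h => h12 a ha ((m₂ a).2 ⟨hP₁P ha, h.symm⟩))
      (fun r hr => ((mB' r).1 hr).2.symm) hnorm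
    apply hb₀N
    apply hBN
    rw [mB]
    exact ⟨(m₂ b₀).2 ⟨hRP ((mB' b₀).1 hb₀).1, ((mB' b₀).1 hb₀).2⟩,
      fun a ha => hcent a ha b₀ hb₀⟩
  intro a ha b hb
  have hbN : b ∈ N := by rw [hNeq]; exact hP₂P hb
  obtain ⟨a', ha', n, hn, rfl⟩ := hNprod b hbN
  have ha'1 : a' = 1 := by
    apply h12 a' ha'
    have e : a' = (a' * n) * n⁻¹ := by group
    rw [e]
    exact P₂.mul_mem hb (P₂.inv_mem (hBP₂ hn))
  rw [ha'1, one_mul]
  exact ((mB n).1 hn).2 a ha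

end aux

/-- Let S = PQ be a finite group with P a normal Sylow p-subgroup and Q elementary abelian of order q², q a prime different from p. If exactly two subgroups X₁, X₂ of order q in Q have a nontrivial centralizer in P, then P is the internal direct product of C_P(X₁) and C_P(X₂): they commute elementwise, meet trivially and generate P. -/
theorem result {S : Type*} [Group S] [Finite S] {p q : ℕ} [Fact p.Prime] [Fact q.Prime] (hpq : p ≠ q)
    (P : Sylow p S) [(P : Subgroup S).Normal] (Q : Subgroup S) (hQ : Cfsg.IsElementaryAbelian q Q) (hQc : Nat.card Q = q ^ 2)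
    (hS : (P : Subgroup S) ⊔ Q = ⊤)
    (X₁ X₂ : Subgroup S) (h₁ : X₁ ≤ Q) (h₂ : X₂ ≤ Q) (h₁₂ : X₁ ≠ X₂) (hc₁ : Nat.card X₁ = q) (hc₂ : Nat.card X₂ = q)
    (hf₁ : (P : Subgroup S) ⊓ Subgroup.centralizer (X₁ : Set S) ≠ ⊥)
    (hf₂ : (P : Subgroup S) ⊓ Subgroup.centralizer (X₂ : Set S) ≠ ⊥)
    (honly : ∀ X : Subgroup S, X ≤ Q → Nat.card X = q →
      (P : Subgroup S) ⊓ Subgroup.centralizer (X : Set S) ≠ ⊥ → X = X₁ ∨ X = X₂) :
    ⁅(P : Subgroup S) ⊓ Subgroup.centralizer (X₁ : Set S), (P : Subgroup S) ⊓ Subgroup.centralizer (X₂ : Set S)⁆ = ⊥ ∧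
      ((P : Subgroup S) ⊓ Subgroup.centralizer (X₁ : Set S)) ⊓ ((P : Subgroup S) ⊓ Subgroup.centralizer (X₂ : Set S)) = ⊥ ∧
      ((P : Subgroup S) ⊓ Subgroup.centralizer (X₁ : Set S)) ⊔ ((P : Subgroup S) ⊓ Subgroup.centralizer (X₂ : Set S)) = P := by
  classical
  have hp : p.Prime := Fact.out
  have hq : q.Prime := Fact.out
  obtain ⟨hQcomm, hQexp⟩ := hQ
  have hQc' : ∀ a ∈ Q, ∀ b ∈ Q, a * b = b * a := by
    intro a ha b hb
    exact congrArg Subtype.val (mul_comm' (⟨a, ha⟩ : Q) ⟨b, hb⟩)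
  have hcardz : ∀ y ∈ Q, y ≠ 1 → Nat.card (Subgroup.zpowers y) = q := by
    intro y hy hy1
    rw [Nat.card_zpowers]
    exact orderOf_eq_prime (hQexp y hy) hy1
  have hzle : ∀ y ∈ Q, Subgroup.zpowers y ≤ Q := fun y hy => (Subgroup.zpowers_le).2 hy
  have heqz : ∀ X : Subgroup S, Nat.card X = q → ∀ y ∈ X, y ∈ Q → y ≠ 1 →
      Subgroup.zpowers y = X := by
    intro X hX y hyX hyQ hy1
    apply Subgroup.eq_of_le_of_card_ge ((Subgroup.zpowers_le).2 hyX)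
    exact le_of_eq (by rw [hX, hcardz y hyQ hy1])
  have hexne : ∀ X : Subgroup S, Nat.card X = q → ∃ x ∈ X, x ≠ 1 := by
    intro X hX
    by_contra hno
    push Not at hno
    have h1 : X = ⊥ := (Subgroup.eq_bot_iff_forall _).2 hno
    rw [h1, Subgroup.card_bot] at hX
    exact hq.one_lt.ne hX
  obtain ⟨x₁, hx₁X, hx₁1⟩ := hexne X₁ hc₁
  obtain ⟨x₂, hx₂X, hx₂1⟩ := hexne X₂ hc₂
  have hx₁Q : x₁ ∈ Q := h₁ hx₁X
  have hx₂Q : x₂ ∈ Q := h₂ hx₂X
  have hz₁ : Subgroup.zpowers x₁ = X₁ := heqz X₁ hc₁ x₁ hx₁X hx₁Q hx₁1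
  have hz₂ : Subgroup.zpowers x₂ = X₂ := heqz X₂ hc₂ x₂ hx₂X hx₂Q hx₂1
  have hdisjX : ∀ z ∈ X₁, z ∈ X₂ → z = 1 := by
    intro z hz1 hz2
    by_contra hz
    exact h₁₂ ((heqz X₁ hc₁ z hz1 (h₁ hz1) hz).symm.trans (heqz X₂ hc₂ z hz2 (h₂ hz2) hz))
  have hcomm12 : x₁ * x₂ = x₂ * x₁ := hQc' x₁ hx₁Q x₂ hx₂Q
  have ho₂ : orderOf x₂ = q := orderOf_eq_prime (hQexp x₂ hx₂Q) hx₂1
  have hfree : ∀ j : ℕ, 0 < j → j < q →
      (P : Subgroup S) ⊓ Subgroup.centralizer {x₁ * x₂ ^ j} = ⊥ := by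
    intro j hj0 hjq
    have hyQ : x₁ * x₂ ^ j ∈ Q := Q.mul_mem hx₁Q (Q.pow_mem hx₂Q j)
    have hpow1 : x₂ ^ j ≠ 1 := by
      intro h
      have h1 := orderOf_dvd_of_pow_eq_one h
      rw [ho₂] at h1
      exact absurd (Nat.le_of_dvd hj0 h1) (not_le.2 hjq)
    have hyX₁ : x₁ * x₂ ^ j ∉ X₁ := by
      intro h
      have h1 : x₂ ^ j ∈ X₁ := by
        have e : x₂ ^ j = x₁⁻¹ * (x₁ * x₂ ^ j) := by group
        rw [e]; exact X₁.mul_mem (X₁.inv_mem hx₁X) h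
      exact hpow1 (hdisjX _ h1 (X₂.pow_mem hx₂X j))
    have hyX₂ : x₁ * x₂ ^ j ∉ X₂ := by
      intro h
      have h1 : x₁ ∈ X₂ := by
        have e : x₁ = (x₁ * x₂ ^ j) * (x₂ ^ j)⁻¹ := by group
        rw [e]; exact X₂.mul_mem h (X₂.inv_mem (X₂.pow_mem hx₂X j))
      exact hx₁1 (hdisjX _ hx₁X h1)
    have hy1 : x₁ * x₂ ^ j ≠ 1 := fun h => hyX₁ (by rw [h]; exact X₁.one_mem)
    by_contra hne
    have hne' : (P : Subgroup S) ⊓ Subgroup.centralizer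
        ((Subgroup.zpowers (x₁ * x₂ ^ j) : Subgroup S) : Set S) ≠ ⊥ := by
      rw [centralizer_zpowers]; exact hne
    rcases honly (Subgroup.zpowers (x₁ * x₂ ^ j)) (hzle _ hyQ) (hcardz _ hyQ hy1) hne' with h | h
    · exact hyX₁ (by rw [← h]; exact Subgroup.mem_zpowers _)
    · exact hyX₂ (by rw [← h]; exact Subgroup.mem_zpowers _)
  rw [← hz₁, ← hz₂, centralizer_zpowers, centralizer_zpowers]
  have sP : Stab Q (P : Subgroup S) := stab_of_normal inferInstance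
  have hQC₁ : Q ≤ Subgroup.centralizer {x₁} := fun y hy =>
    Subgroup.mem_centralizer_singleton_iff.2 (hQc' y hy x₁ hx₁Q)
  have hQC₂ : Q ≤ Subgroup.centralizer {x₂} := fun y hy =>
    Subgroup.mem_centralizer_singleton_iff.2 (hQc' y hy x₂ hx₂Q)
  have hQp : IsPGroup q Q := IsPGroup.of_card hQc
  have hnq : ∀ R : Subgroup S, R ≤ (P : Subgroup S) → ¬ q ∣ Nat.card R := by
    intro R hR hdvd
    obtain ⟨m, hm⟩ := (P.isPGroup'.to_le hR).exists_card_eq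
    rw [hm] at hdvd
    exact hpq ((Nat.prime_dvd_prime_iff_eq hq hp).1 (hq.dvd_of_dvd_pow hdvd)).symm
  have hgen : ∀ R : Subgroup S, R ≤ (P : Subgroup S) → Stab Q R →
      R ≤ (R ⊓ Subgroup.centralizer {x₂}) ⊔ (R ⊓ Subgroup.centralizer {x₁}) := by
    intro R hR sR
    have h1 := Cfsg.Agent.Lib.Helper31.CoprimeGen.rank_two_generation Q R hQp (hnq R hR)
      sR.le_normalizer x₁ x₂ hx₁Q hx₂Q hcomm12 (hQexp x₁ hx₁Q) (hQexp x₂ hx₂Q)
    refine h1.trans (sup_le le_sup_left ?_)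
    refine iSup₂_le ?_
    intro j hj
    rw [Finset.mem_range] at hj
    by_cases hj0 : j = 0
    · subst hj0
      rw [pow_zero, mul_one]
      exact le_sup_right
    · have h2 : R ⊓ Subgroup.centralizer {x₁ * x₂ ^ j}
          ≤ (P : Subgroup S) ⊓ Subgroup.centralizer {x₁ * x₂ ^ j} := inf_le_inf_right _ hR
      rw [hfree j (Nat.pos_of_ne_zero hj0) hj] at h2
      exact h2.trans bot_le
  have hdisj : ∀ g ∈ (P : Subgroup S), g * x₁ = x₁ * g → g * x₂ = x₂ * g → g = 1 := by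
    intro g hg h1 h2
    have h3 : g ∈ (P : Subgroup S) ⊓ Subgroup.centralizer {x₁ * x₂ ^ 1} := by
      refine Subgroup.mem_inf.2 ⟨hg, Subgroup.mem_centralizer_singleton_iff.2 ?_⟩
      exact ((show Commute g x₁ from h1).mul_right ((show Commute g x₂ from h2).pow_right 1)).eq
    rw [hfree 1 Nat.one_pos hq.one_lt] at h3
    exact Subgroup.mem_bot.1 h3
  have hcore := core (P : Subgroup S) Q P.isPGroup' x₁ x₂ sP hQC₁ hQC₂ hx₁Q hx₂Q hgen hdisj
  refine ⟨?_, ?_, ?_⟩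
  · rw [Subgroup.commutator_eq_bot_iff_le_centralizer]
    intro a ha
    rw [Subgroup.mem_centralizer_iff]
    intro b hb
    exact (hcore a ha b hb).symm
  · rw [eq_bot_iff]
    intro g hg
    obtain ⟨hg1, hg2⟩ := Subgroup.mem_inf.1 hg
    obtain ⟨hgP, hgc1⟩ := Subgroup.mem_inf.1 hg1
    obtain ⟨-, hgc2⟩ := Subgroup.mem_inf.1 hg2
    exact Subgroup.mem_bot.2 (hdisj g hgP (Subgroup.mem_centralizer_singleton_iff.1 hgc1)
      (Subgroup.mem_centralizer_singleton_iff.1 hgc2))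
  · apply le_antisymm (sup_le inf_le_left inf_le_left)
    have h1 := hgen (P : Subgroup S) le_rfl sP
    rw [sup_comm] at h1
    exact h1

end Cfsg.Agent.S1900
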