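import Cfsg.Statements.S1905
import Cfsg.Agent.Lib.Helper48.StrEmb

set_option autoImplicit false
open Cfsg

namespace Cfsg.Agent.S1905

theorem orderOf_conj_eq {G : Type*} [Group G] (g x : G) : orderOf (g * x * g⁻¹) = orderOf x := by
  have hsc : SemiconjBy g x (g * x * g⁻¹) := by simp [SemiconjBy]
  exact (hsc.orderOf_eq g).symm

theorem sq_of_order_two {G : Type*} [Group G] {a : G} (h : orderOf a = 2) : a * a = 1 := by
  have h1 := pow_orderOf_eq_one a
  rw [h, pow_two] at h1
  exact h1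

/-- Two involutions are conjugate by an involution of the group they generate, or commute with a
common involution. -/
theorem dih {G : Type*} [Group G] [Finite G] (a b : G) (ha : a * a = 1) (hb : b * b = 1) :
    (∃ v : G, v * v = 1 ∧ v * a * v = b) ∨
    (∃ z : G, orderOf z = 2 ∧ z * a = a * z ∧ z * b = b * z) := by
  have ha' : a⁻¹ = a := inv_eq_of_mul_eq_one_right ha
  have hb' : b⁻¹ = b := inv_eq_of_mul_eq_one_right hb
  have hr : a * (a * b) * a = (a * b)⁻¹ := by
    rw [mul_inv_rev, ha', hb', ← mul_assoc, ha, one_mul]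
  have hrk : ∀ k : ℕ, a * (a * b) ^ k * a = ((a * b) ^ k)⁻¹ := by
    intro k
    induction k with
    | zero => simp [ha]
    | succ k ih =>
      have e : a * (a * b) ^ (k + 1) * a = (a * (a * b) ^ k * a) * (a * (a * b) * a) := by
        calc a * (a * b) ^ (k + 1) * a = a * ((a * b) ^ k * (a * b)) * a := by rw [pow_succ]
          _ = a * (a * b) ^ k * 1 * (a * b) * a := by simp only [mul_assoc, mul_one]
          _ = a * (a * b) ^ k * (a * a) * (a * b) * a := by rw [ha]
          _ = (a * (a * b) ^ k * a) * (a * (a * b) * a) := by simp only [mul_assoc]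
      rw [e, ih, hr, pow_succ', mul_inv_rev (a * b) ((a * b) ^ k)]
  rcases Nat.even_or_odd' (orderOf (a * b)) with ⟨k, hk | hk⟩
  · right
    have hn : 0 < orderOf (a * b) := orderOf_pos (a * b)
    have hk0 : 0 < k := by omega
    obtain ⟨z, hz⟩ : ∃ z : G, z = (a * b) ^ k := ⟨_, rfl⟩
    have hzz : z * z = 1 := by
      rw [hz, ← pow_add, ← two_mul, ← hk]; exact pow_orderOf_eq_one _
    have hz1 : z ≠ 1 := by
      intro h
      rw [hz] at h
      have h1 := orderOf_dvd_of_pow_eq_one h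
      rw [hk] at h1
      have h2 := Nat.le_of_dvd hk0 h1
      omega
    have hza : z * a = a * z := by
      have h1 : a * z * a = z := by
        rw [hz, hrk k, ← hz]; exact inv_eq_of_mul_eq_one_right hzz
      calc z * a = (a * z * a) * a := by rw [h1]
        _ = a * z * (a * a) := by simp only [mul_assoc]
        _ = a * z := by rw [ha, mul_one]
    refine ⟨z, ?_, hza, ?_⟩
    · haveI : Fact (Nat.Prime 2) := ⟨Nat.prime_two⟩
      exact orderOf_eq_prime (by rw [pow_two]; exact hzz) hz1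
    · have hb_eq : a * (a * b) = b := by rw [← mul_assoc, ha, one_mul]
      have c1 : Commute z a := hza
      have c2 : Commute z (a * b) := by rw [hz]; exact Commute.pow_self (a * b) k
      have c3 : Commute z (a * (a * b)) := c1.mul_right c2
      rw [hb_eq] at c3
      exact c3.eq
  · left
    refine ⟨(a * b) ^ k * a, ?_, ?_⟩
    · calc (a * b) ^ k * a * ((a * b) ^ k * a) = (a * b) ^ k * (a * (a * b) ^ k * a) := by
            simp only [mul_assoc]
        _ = (a * b) ^ k * ((a * b) ^ k)⁻¹ := by rw [hrk k]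
        _ = 1 := mul_inv_cancel _
    · have hpow : (a * b) ^ k * (a * b) ^ k * (a * b) = 1 := by
        rw [← pow_add, ← pow_succ, ← two_mul, ← hk]; exact pow_orderOf_eq_one _
      have h2 : (a * b) ^ k * (a * b) ^ k = b * a := by
        have h3 := eq_inv_of_mul_eq_one_left hpow
        rw [h3, mul_inv_rev, ha', hb']
      calc (a * b) ^ k * a * a * ((a * b) ^ k * a)
          = (a * b) ^ k * (a * a) * (a * b) ^ k * a := by simp only [mul_assoc]
        _ = ((a * b) ^ k * (a * b) ^ k) * a := by rw [ha, mul_one]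
        _ = b * a * a := by rw [h2]
        _ = b := by rw [mul_assoc, ha, mul_one]

theorem exists_normalizer_of_lt {G : Type*} [Group G] [Finite G] {p : ℕ} [Fact p.Prime]
    (P N : Subgroup G) (hP : IsPGroup p P) (hNP : N ≤ P) (hne : ¬ P ≤ N) :
    ∃ g ∈ P, g ∉ N ∧ g ∈ Subgroup.normalizer (N : Set G) := by
  have hlt : N.subgroupOf P < ⊤ := by
    rw [lt_top_iff_ne_top]
    intro h
    exact hne (Subgroup.subgroupOf_eq_top.1 h)
  have : Group.IsNilpotent P := hP.isNilpotent
  have hnc := Group.normalizerCondition_of_isNilpotent (N.subgroupOf P) hlt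
  obtain ⟨g, hgn, hgN⟩ := SetLike.exists_of_lt hnc
  refine ⟨g, g.2, fun h => hgN (Subgroup.mem_subgroupOf.2 h), ?_⟩
  rw [Subgroup.mem_normalizer_iff]
  intro n
  constructor
  · intro hn
    have h1 := (Subgroup.mem_normalizer_iff.1 hgn ⟨n, hNP hn⟩).1 (Subgroup.mem_subgroupOf.2 hn)
    exact Subgroup.mem_subgroupOf.1 h1
  · intro hn
    have hnP : n ∈ P := by
      have e : n = (g : G)⁻¹ * ((g : G) * n * (g : G)⁻¹) * (g : G) := by group
      rw [e]
      exact P.mul_mem (P.mul_mem (P.inv_mem g.2) (hNP hn)) g.2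
    have h1 := (Subgroup.mem_normalizer_iff.1 hgn ⟨n, hnP⟩).2 (Subgroup.mem_subgroupOf.2 hn)
    exact Subgroup.mem_subgroupOf.1 h1

/-- Let M be a subgroup of even order of a finite group S such that M contains the centralizer in S of each of its involutions and the normal core of M in S has odd order. Then all involutions of S are conjugate. If moreover N_S(X) ≤ M for a Sylow 2-subgroup X of M and I is an involution in the centre of X, then all involutions of M are conjugate in M and M = M₀ C_M(I) for some subgroup M₀ of M of odd order. -/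
theorem result {S : Type*} [Group S] [Finite S] (M : Subgroup S) (hM : Even (Nat.card M))
    (hC : ∀ i ∈ M, orderOf i = 2 → Subgroup.centralizer ({i} : Set S) ≤ M) (hcore : Odd (Nat.card M.normalCore)) :
    (∀ x y : S, orderOf x = 2 → orderOf y = 2 → IsConj x y) ∧
      ∀ (X : Sylow 2 M) (I : M), I ∈ (Subgroup.center ↥(X : Subgroup ↥M)).map (X : Subgroup ↥M).subtype → orderOf I = 2 →
        Subgroup.normalizer (((X : Subgroup M).map M.subtype : Subgroup S) : Set S) ≤ M →
        (∀ x y : M, orderOf x = 2 → orderOf y = 2 → IsConj x y) ∧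
          ∃ M₀ : Subgroup M, Odd (Nat.card M₀) ∧
            ∀ m : M, ∃ a ∈ M₀, ∃ c ∈ Subgroup.centralizer ({I} : Set M), m = a * c := by
  classical
  have : Fact (Nat.Prime 2) := ⟨Nat.prime_two⟩
  obtain ⟨i, hi⟩ := exists_prime_orderOf_dvd_card' (G := M) 2 (even_iff_two_dvd.1 hM)
  have hi₀ : orderOf (i : S) = 2 := by rw [Subgroup.orderOf_coe]; exact hi
  have hB : ∀ t : S, t ∈ M → orderOf t = 2 → ∀ j : S, orderOf j = 2 → ¬ IsConj t j → j ∈ M := by
    intro t htM ht j hj hnc
    rcases dih t j (sq_of_order_two ht) (sq_of_order_two hj) with ⟨v, hv, hvt⟩ | ⟨z, hz, hzt, hzj⟩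
    · exfalso
      apply hnc
      rw [isConj_iff]
      refine ⟨v, ?_⟩
      rw [inv_eq_of_mul_eq_one_right hv]; exact hvt
    · have hzM : z ∈ M := hC t htM ht (Subgroup.mem_centralizer_singleton_iff.2 hzt)
      exact hC z hzM hz (Subgroup.mem_centralizer_singleton_iff.2 hzj.symm)
  have hcore2 : ∀ j : S, orderOf j = 2 → j ∉ M.normalCore := by
    intro j hj hjc
    have h1 : orderOf (⟨j, hjc⟩ : M.normalCore) = 2 := by rw [Subgroup.orderOf_mk]; exact hj
    have h2 : 2 ∣ Nat.card M.normalCore := by rw [← h1]; exact orderOf_dvd_natCard _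
    exact (Nat.not_even_iff_odd.2 hcore) (even_iff_two_dvd.2 h2)
  have hall : ∀ j : S, orderOf j = 2 → IsConj (i : S) j := by
    intro j hj
    by_contra hnc
    apply hcore2 j hj
    show ∀ b : S, b * j * b⁻¹ ∈ M
    intro b
    apply hB (i : S) i.2 hi₀ (b * j * b⁻¹) (by rw [orderOf_conj_eq]; exact hj)
    intro hc
    apply hnc
    obtain ⟨c, hc⟩ := isConj_iff.1 hc
    rw [isConj_iff]
    refine ⟨b⁻¹ * c, ?_⟩
    calc b⁻¹ * c * (i : S) * (b⁻¹ * c)⁻¹ = b⁻¹ * (c * (i : S) * c⁻¹) * b := by group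
      _ = b⁻¹ * (b * j * b⁻¹) * b := by rw [hc]
      _ = j := by group
  refine ⟨fun x y hx hy => (hall x hx).symm.trans (hall y hy), ?_⟩
  intro X I hIZ hI2 hN
  have hX₀ : IsPGroup 2 ((X : Subgroup M).map M.subtype) := X.isPGroup'.map M.subtype
  obtain ⟨P, hP⟩ := hX₀.exists_le_sylow
  have hPeq : (P : Subgroup S) = (X : Subgroup M).map M.subtype := by
    apply le_antisymm _ hP
    have hQ : ((P : Subgroup S) ⊓ M).subgroupOf M = (X : Subgroup M) := by
      apply X.is_maximal' ((P.isPGroup'.to_le inf_le_left).comap_subtype)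
      intro x hx
      show (x : S) ∈ (P : Subgroup S) ⊓ M
      exact Subgroup.mem_inf.2 ⟨hP (Subgroup.mem_map_of_mem _ hx), x.2⟩
    by_contra hnle
    obtain ⟨a, haP, haX, haN⟩ := exists_normalizer_of_lt (P : Subgroup S) _ P.isPGroup' hP hnle
    have haM : a ∈ M := hN haN
    have h1 : (⟨a, haM⟩ : M) ∈ ((P : Subgroup S) ⊓ M).subgroupOf M :=
      Subgroup.mem_subgroupOf.2 (Subgroup.mem_inf.2 ⟨haP, haM⟩)
    rw [hQ] at h1
    exact haX (Subgroup.mem_map.2 ⟨⟨a, haM⟩, h1, rfl⟩)
  have hPM : (P : Subgroup S) ≤ M := by rw [hPeq]; exact Subgroup.map_subtype_le _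
  have hnP : Subgroup.normalizer ((P : Subgroup S) : Set S) ≤ M := by rw [hPeq]; exact hN
  have FC : ∀ x g : S, x ∈ M → orderOf x = 2 → g * x * g⁻¹ ∈ M → g ∈ M := fun x g hx hx2 hg =>
    Cfsg.Agent.Lib.Helper48.StrEmb.mem_of_conj_mem P hPM hC hnP hx hx2 hg
  constructor
  · intro x y hx hy
    have hx' : orderOf (x : S) = 2 := by rw [Subgroup.orderOf_coe]; exact hx
    have hy' : orderOf (y : S) = 2 := by rw [Subgroup.orderOf_coe]; exact hy
    have hxy : IsConj (x : S) (y : S) := (hall _ hx').symm.trans (hall _ hy')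
    obtain ⟨c, hc⟩ := isConj_iff.1 hxy
    have hcM : c ∈ M := FC x c x.2 hx' (by rw [hc]; exact y.2)
    rw [isConj_iff]
    exact ⟨⟨c, hcM⟩, Subtype.ext hc⟩
  · have hIS : orderOf (I : S) = 2 := by rw [Subgroup.orderOf_coe]; exact hI2
    obtain ⟨u, hu2, huM⟩ : ∃ u : S, orderOf u = 2 ∧ u ∉ M := by
      by_contra hno
      push Not at hno
      apply hcore2 (i : S) hi₀
      show ∀ b : S, b * (i : S) * b⁻¹ ∈ M
      intro b
      exact hno _ (by rw [orderOf_conj_eq]; exact hi₀)
    have huu : u * u = 1 := sq_of_order_two hu2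
    have hu' : u⁻¹ = u := inv_eq_of_mul_eq_one_right huu
    refine ⟨(M.comap (MulAut.conj u).toMonoidHom).subgroupOf M, ?_, ?_⟩
    · rw [← Nat.not_even_iff_odd]
      intro hev
      obtain ⟨s, hs⟩ := exists_prime_orderOf_dvd_card'
        (G := ↥((M.comap (MulAut.conj u).toMonoidHom).subgroupOf M)) 2 (even_iff_two_dvd.1 hev)
      have hs' : orderOf ((s : M) : S) = 2 := by
        rw [Subgroup.orderOf_coe, Subgroup.orderOf_coe]; exact hs
      have hsmem : u * ((s : M) : S) * u⁻¹ ∈ M := by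
        have h1 := s.2
        rw [Subgroup.mem_subgroupOf, Subgroup.mem_comap] at h1
        exact h1
      exact huM (FC _ u (s : M).2 hs' hsmem)
    · intro m
      have ht'M : (m : S) * (I : S) * (m : S)⁻¹ ∈ M :=
        M.mul_mem (M.mul_mem m.2 I.2) (M.inv_mem m.2)
      have ht'2 : orderOf ((m : S) * (I : S) * (m : S)⁻¹) = 2 := by
        rw [orderOf_conj_eq]; exact hIS
      have hs'2 : orderOf (u * ((m : S) * (I : S) * (m : S)⁻¹) * u⁻¹) = 2 := by
        rw [orderOf_conj_eq]; exact ht'2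
      rcases dih (I : S) (u * ((m : S) * (I : S) * (m : S)⁻¹) * u⁻¹) (sq_of_order_two hIS)
        (sq_of_order_two hs'2) with ⟨v, hvv, hv⟩ | ⟨z, hz, hzt, hzs⟩
      · have hv' : v⁻¹ = v := inv_eq_of_mul_eq_one_right hvv
        have hd : (u⁻¹ * v) * (I : S) * (u⁻¹ * v)⁻¹ = (m : S) * (I : S) * (m : S)⁻¹ := by
          calc (u⁻¹ * v) * (I : S) * (u⁻¹ * v)⁻¹ = u⁻¹ * (v * (I : S) * v⁻¹) * u := by group
            _ = u⁻¹ * (v * (I : S) * v) * u := by rw [hv']
            _ = u⁻¹ * (u * ((m : S) * (I : S) * (m : S)⁻¹) * u⁻¹) * u := by rw [hv]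
            _ = (m : S) * (I : S) * (m : S)⁻¹ := by group
        have hdM : u⁻¹ * v ∈ M := FC (I : S) _ I.2 hIS (by rw [hd]; exact ht'M)
        have hdK : u * (u⁻¹ * v) * u⁻¹ ∈ M := by
          have e : u * (u⁻¹ * v) * u⁻¹ = (u⁻¹ * v)⁻¹ := by
            have e1 : u * (u⁻¹ * v) * u⁻¹ = v * u⁻¹ := by group
            have e2 : (u⁻¹ * v)⁻¹ = v⁻¹ * u := by group
            rw [e1, e2, hv', hu']
          rw [e]; exact M.inv_mem hdM
        refine ⟨⟨u⁻¹ * v, hdM⟩, ?_, (⟨u⁻¹ * v, hdM⟩ : M)⁻¹ * m, ?_, ?_⟩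
        · rw [Subgroup.mem_subgroupOf, Subgroup.mem_comap]; exact hdK
        · rw [Subgroup.mem_centralizer_singleton_iff]
          apply Subtype.ext
          show (u⁻¹ * v)⁻¹ * (m : S) * (I : S) = (I : S) * ((u⁻¹ * v)⁻¹ * (m : S))
          calc (u⁻¹ * v)⁻¹ * (m : S) * (I : S)
              = (u⁻¹ * v)⁻¹ * ((m : S) * (I : S) * (m : S)⁻¹) * (m : S) := by group
            _ = (u⁻¹ * v)⁻¹ * ((u⁻¹ * v) * (I : S) * (u⁻¹ * v)⁻¹) * (m : S) := by rw [hd]
            _ = (I : S) * ((u⁻¹ * v)⁻¹ * (m : S)) := by group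
        · group
      · exfalso
        have hzM : z ∈ M := hC (I : S) I.2 hIS (Subgroup.mem_centralizer_singleton_iff.2 hzt)
        have hs'M : u * ((m : S) * (I : S) * (m : S)⁻¹) * u⁻¹ ∈ M :=
          hC z hzM hz (Subgroup.mem_centralizer_singleton_iff.2 hzs.symm)
        exact huM (FC _ u ht'M ht'2 hs'M)

end Cfsg.Agent.S1905
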