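import Mathlib
import Cfsg.Statements.S1924
import Cfsg.Agent.Lib.Helper34.PResidual
import Cfsg.Agent.Lib.Helper21.PLocal
import Cfsg.Agent.Lib.Helper64.Index

set_option autoImplicit false
set_option linter.style.haveILetI false
set_option linter.unusedSimpArgs false
open Cfsg

namespace Cfsg.Agent.S1924

/-- A permutation of order dividing `2^(j+1)` whose `2^j`-th power has no fixed point has sign
`(-1)^(number of cycles)`. -/
theorem sign_free {X : Type*} [Fintype X] [DecidableEq X] (σ : Equiv.Perm X) (j : ℕ)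
    (hσ : σ ^ (2 ^ (j + 1)) = 1) (hfix : ∀ x, (σ ^ (2 ^ j)) x ≠ x) :
    Equiv.Perm.sign σ = (-1 : ℤˣ) ^ (Fintype.card X / 2 ^ (j + 1)) := by
  have hct : ∀ n ∈ σ.cycleType, n = 2 ^ (j + 1) := by
    intro n hn
    have hdvd : n ∣ 2 ^ (j + 1) :=
      (Equiv.Perm.dvd_of_mem_cycleType hn).trans (orderOf_dvd_of_pow_eq_one hσ)
    obtain ⟨i, hi, rfl⟩ := (Nat.dvd_prime_pow Nat.prime_two).1 hdvd
    by_contra hne
    have hi' : i ≤ j := by
      by_contra h
      exact hne (by congr 1; omega)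
    rw [Equiv.Perm.cycleType_def, Multiset.mem_map] at hn
    obtain ⟨c, hc, hcard⟩ := hn
    have hc' := Equiv.Perm.mem_cycleFactorsFinset_iff.1 hc
    obtain ⟨a, ha, -⟩ := hc'.1
    have hasup : a ∈ c.support := Equiv.Perm.mem_support.2 ha
    have hpow : ∀ k : ℕ, (σ ^ k) a = (c ^ k) a := by
      intro k
      induction k with
      | zero => simp
      | succ k ih =>
        rw [pow_succ', pow_succ', Equiv.Perm.mul_apply, Equiv.Perm.mul_apply, ih]
        exact (hc'.2 _ (Equiv.Perm.pow_apply_mem_support.2 hasup)).symm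
    have hord : c ^ (2 ^ i) = 1 := by
      have h1 : orderOf c = 2 ^ i := by rw [hc'.1.orderOf]; exact hcard
      rw [← h1]; exact pow_orderOf_eq_one c
    have h1 : (σ ^ (2 ^ i)) a = a := by rw [hpow, hord]; rfl
    have h2 : (σ ^ (2 ^ j)) a = a := by
      have h3 : 2 ^ j = 2 ^ i * 2 ^ (j - i) := by rw [← pow_add]; congr 1; omega
      rw [h3, pow_mul]
      exact Equiv.Perm.pow_apply_eq_self_of_apply_eq_self h1 _
    exact hfix a h2
  obtain ⟨k, hk⟩ : ∃ k, σ.cycleType = Multiset.replicate k (2 ^ (j + 1)) :=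
    ⟨_, Multiset.eq_replicate.2 ⟨rfl, hct⟩⟩
  have hsupp : σ.support = Finset.univ := by
    ext x
    simp only [Equiv.Perm.mem_support, Finset.mem_univ, iff_true]
    intro hx
    exact hfix x (Equiv.Perm.pow_apply_eq_self_of_apply_eq_self hx _)
  have hsum : k * 2 ^ (j + 1) = Fintype.card X := by
    have h := Equiv.Perm.sum_cycleType σ
    rw [hk, Multiset.sum_replicate, smul_eq_mul, hsupp, Finset.card_univ] at h
    exact h
  have heven : (-1 : ℤˣ) ^ (2 ^ (j + 1)) = 1 :=
    Even.neg_one_pow ((Nat.even_pow).2 ⟨even_two, by omega⟩)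
  rw [Equiv.Perm.sign_of_cycleType, hk, Multiset.sum_replicate, Multiset.card_replicate,
    smul_eq_mul, ← hsum, Nat.mul_div_cancel _ (by positivity), pow_add, pow_mul', heven, one_pow,
    one_mul]

/-- Cayley's argument: an element acting freely with an odd number of cycles of even length
is an odd permutation. -/
theorem cayley {H : Type*} [Group H] [Finite H] (R : Subgroup H) (c : H) (j m : ℕ)
    (hc : c ^ (2 ^ (j + 1)) = 1) (hfree : ∀ k : H, k⁻¹ * c ^ (2 ^ j) * k ∉ R)
    (hidx : R.index = 2 ^ (j + 1) * m) (hm : Odd m) : ∃ σ : H →* ℤˣ, σ c = -1 := by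
  classical
  haveI : Fintype (H ⧸ R) := Fintype.ofFinite _
  refine ⟨(Equiv.Perm.sign).comp (MulAction.toPermHom H (H ⧸ R)), ?_⟩
  show Equiv.Perm.sign (MulAction.toPermHom H (H ⧸ R) c) = -1
  rw [sign_free (MulAction.toPermHom H (H ⧸ R) c) j ?_ ?_]
  · have hcard : Fintype.card (H ⧸ R) = 2 ^ (j + 1) * m := by
      rw [← Nat.card_eq_fintype_card, ← hidx]; rfl
    rw [hcard, Nat.mul_div_cancel_left _ (by positivity)]
    exact hm.neg_one_pow
  · rw [← map_pow, hc, map_one]
  · intro q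
    induction q using QuotientGroup.induction_on with
    | H k =>
      rw [← map_pow]
      intro h
      have h' : (c ^ (2 ^ j)) • (k : H ⧸ R) = (k : H ⧸ R) := h
      rw [MulAction.Quotient.smul_mk, QuotientGroup.eq, smul_eq_mul] at h'
      apply hfree k
      have e : k⁻¹ * c ^ 2 ^ j * k = ((c ^ 2 ^ j * k)⁻¹ * k)⁻¹ := by group
      rw [e]
      exact R.inv_mem h'

theorem sign_odd {H : Type*} [Group H] (σ : H →* ℤˣ) (g : H) (hg : Nat.Coprime (orderOf g) 2) :
    σ g = 1 := by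
  rcases Int.units_eq_one_or (σ g) with h | h
  · exact h
  · exfalso
    have h1 : (σ g) ^ orderOf g = 1 := by rw [← map_pow, pow_orderOf_eq_one, map_one]
    rw [h, (Nat.Coprime.odd_of_right hg).neg_one_pow] at h1
    exact absurd h1 (by decide)

theorem relIndex_mul_card' {G : Type*} [Group G] {H K : Subgroup G} (h : H ≤ K) :
    H.relIndex K * Nat.card H = Nat.card K := by
  have h1 := Cfsg.Agent.Lib.Helper64.Index.card_inf_mul_relIndex H K
  rw [inf_of_le_left h] at h1
  rw [mul_comm]; exact h1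

theorem card_mul_le {G : Type*} [Group G] [Finite G] (A B : Subgroup G) :
    Nat.card A * Nat.card B ≤ Nat.card ↥(A ⊔ B) * Nat.card ↥(A ⊓ B) := by
  have h := Subgroup.relIndex_inf_le (H := A) (K := B) (L := A ⊔ B)
  have hi := relIndex_mul_card' (show A ⊓ B ≤ A ⊔ B from inf_le_left.trans le_sup_left)
  have ha := relIndex_mul_card' (show A ≤ A ⊔ B from le_sup_left)
  have hb := relIndex_mul_card' (show B ≤ A ⊔ B from le_sup_right)
  have hpos : 0 < (A ⊓ B).relIndex (A ⊔ B) := by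
    rcases Nat.eq_zero_or_pos ((A ⊓ B).relIndex (A ⊔ B)) with h0 | h0
    · rw [h0, zero_mul] at hi
      exact absurd hi.symm (Nat.card_pos.ne')
    · exact h0
  apply Nat.le_of_mul_le_mul_right _ hpos
  calc Nat.card A * Nat.card B * (A ⊓ B).relIndex (A ⊔ B)
      ≤ Nat.card A * Nat.card B * (A.relIndex (A ⊔ B) * B.relIndex (A ⊔ B)) :=
        Nat.mul_le_mul_left _ h
    _ = (A.relIndex (A ⊔ B) * Nat.card A) * (B.relIndex (A ⊔ B) * Nat.card B) := by ring
    _ = Nat.card ↥(A ⊔ B) * ((A ⊓ B).relIndex (A ⊔ B) * Nat.card ↥(A ⊓ B)) := by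
        rw [ha, hb, hi]
    _ = Nat.card ↥(A ⊔ B) * Nat.card ↥(A ⊓ B) * (A ⊓ B).relIndex (A ⊔ B) := by ring

theorem card_eq_of_sylow {G : Type*} [Group G] [Finite G] (L A B : Subgroup G) (hA : A ≤ L)
    (hB : B ≤ L) (hA2 : IsPGroup 2 A) (hB2 : IsPGroup 2 B) (hAi : ¬ 2 ∣ A.relIndex L)
    (hBi : ¬ 2 ∣ B.relIndex L) : Nat.card A = Nat.card B := by
  obtain ⟨a, ha⟩ := IsPGroup.iff_card.1 hA2
  obtain ⟨b, hb⟩ := IsPGroup.iff_card.1 hB2
  have h1 := relIndex_mul_card' hA
  have h2 := relIndex_mul_card' hB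
  have key : ∀ (r s x y : ℕ), ¬ 2 ∣ s → r * 2 ^ x = s * 2 ^ y → 2 ^ x ∣ 2 ^ y := by
    intro r s x y hs h
    have hc : Nat.Coprime (2 ^ x) s :=
      Nat.Coprime.pow_left x ((Nat.Prime.coprime_iff_not_dvd Nat.prime_two).2 hs)
    exact hc.dvd_of_dvd_mul_left (Dvd.intro_left r h)
  rw [ha] at h1
  rw [hb] at h2
  rw [ha, hb]
  exact Nat.dvd_antisymm (key _ _ _ _ hBi (h1.trans h2.symm)) (key _ _ _ _ hAi (h2.trans h1.symm))

/-- In a dihedral group, the elements outside a cyclic subgroup of index 2 are involutions. -/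
theorem dih_invol (n : ℕ) (hn : 2 ≤ n) (C' : Subgroup (DihedralGroup n)) (hcyc : IsCyclic ↥C')
    (hidx : C'.index = 2) (y : DihedralGroup n) (hy : y ∉ C') : orderOf y = 2 := by
  haveI : NeZero n := ⟨by omega⟩
  cases y with
  | sr k => exact DihedralGroup.orderOf_sr k
  | r k =>
    by_cases hn2 : n = 2
    · subst hn2
      apply orderOf_eq_prime
      · rw [pow_two, DihedralGroup.r_mul_r]
        have h0 : ∀ k' : ZMod 2, k' + k' = 0 := by decide
        rw [h0 k]; rfl
      · intro h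
        exact hy (h ▸ C'.one_mem)
    · exfalso
      have hcard : Nat.card C' = n := by
        have h := C'.card_mul_index
        rw [hidx, DihedralGroup.nat_card] at h
        omega
      obtain ⟨g, hg⟩ := hcyc.exists_generator
      have hog : orderOf (g : DihedralGroup n) = n := by
        rw [Subgroup.orderOf_coe, orderOf_eq_card_of_forall_mem_zpowers hg, hcard]
      have hgr : (g : DihedralGroup n) ∈ Subgroup.zpowers (DihedralGroup.r (1 : ZMod n)) := by
        rcases hgv : (g : DihedralGroup n) with i | i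
        · refine ⟨(i.val : ℤ), ?_⟩
          simp [DihedralGroup.r_one_pow]
        · rw [hgv, DihedralGroup.orderOf_sr] at hog
          omega
      have hle : C' ≤ Subgroup.zpowers (DihedralGroup.r (1 : ZMod n)) := by
        intro c hc
        obtain ⟨t, ht⟩ := Subgroup.mem_zpowers_iff.1 (hg ⟨c, hc⟩)
        have h1 : c = (g : DihedralGroup n) ^ t := by
          have h2 := congrArg Subtype.val ht
          simpa using h2.symm
        rw [h1]
        exact Subgroup.zpow_mem _ hgr t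
      have heq := Subgroup.eq_of_le_of_card_ge hle (by
        rw [Nat.card_zpowers, DihedralGroup.orderOf_r_one, hcard])
      apply hy
      rw [heq]
      refine ⟨(k.val : ℤ), ?_⟩
      simp [DihedralGroup.r_one_pow]

theorem result {G : Type*} [Group G] [Finite G] (L T S D C : Subgroup G) (hL : Cfsg.pResidual 2 ↥L = ⊤)
    (hTL : T ≤ L) (hT2 : IsPGroup 2 T) (hTsyl : ¬ 2 ∣ T.relIndex L)
    (hS2 : IsPGroup 2 S) (hSsyl : ¬ 2 ∣ S.index) (hTS : T ≤ S)
    (hDS : D ≤ S) (hDih : ∃ n : ℕ, 2 ≤ n ∧ Nonempty (↥D ≃* DihedralGroup n)) (hDT : D ⊓ T = ⊥) (hTD : T ⊔ D = S) (hTDc : Nat.card T * Nat.card D = Nat.card S)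
    (hCD : C ≤ D) (hC : IsCyclic ↥C) (hCi : C.relIndex D = 2)
    (h1 : ∀ x ∈ D, x ∉ C → orderOf x = 2 → ∀ g : G, g * x * g⁻¹ ∈ T ⊔ C → False)
    (h2 : ∀ c ∈ C, orderOf c = 2 → ∀ g : G, g * c * g⁻¹ ∈ T → False) :
    ∃ K : Subgroup G, K.Normal ∧ K ⊔ D = ⊤ ∧
      ∀ T' : Subgroup G, T' ≤ L → IsPGroup 2 T' → ¬ 2 ∣ T'.relIndex L → T' ≤ K ∧ ¬ 2 ∣ T'.relIndex K := by
  classical
  haveI := hC
  obtain ⟨K, hKdef⟩ : ∃ K : Subgroup G, K = Cfsg.pResidual 2 G := ⟨_, rfl⟩
  haveI hKn : K.Normal := by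
    rw [hKdef]; exact Cfsg.Agent.Lib.Helper34.PResidual.pResidual_normal 2 G
  have hKodd : ∀ g : G, Nat.Coprime (orderOf g) 2 → g ∈ K := by
    intro g hg
    rw [hKdef]
    exact Subgroup.subset_closure hg
  have hKle : ∀ M : Subgroup G, (∀ g : G, Nat.Coprime (orderOf g) 2 → g ∈ M) → K ≤ M := by
    intro M hM
    rw [hKdef]
    exact (Subgroup.closure_le M).2 (fun g hg => hM g hg)
  have hLK : L ≤ K :=
    Cfsg.Agent.Lib.Helper21.PLocal.le_of_pResidual_eq_top 2 L K hL (fun a _ h => hKodd a h)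
  have hTK : T ≤ K := hTL.trans hLK
  have hKS : K ⊔ S = ⊤ := by
    rw [eq_top_iff]
    intro x _
    obtain ⟨s, hs, m, hm, rfl⟩ :=
      Cfsg.Agent.Lib.Helper34.PResidual.exists_mul_of_not_dvd_index Nat.prime_two S hSsyl x
    rw [← hKdef] at hm
    exact Subgroup.mul_mem _ (Subgroup.mem_sup_right hs) (Subgroup.mem_sup_left hm)
  have hKker : ∀ σ : G →* ℤˣ, K ≤ σ.ker :=
    fun σ => hKle _ (fun g hg => MonoidHom.mem_ker.2 (sign_odd σ g hg))
  have hKker' : ∀ (σ : ↥K →* ℤˣ) (k : ↥K), σ k = 1 := by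
    intro σ k
    have hle : K ≤ (σ.ker).map K.subtype := by
      apply hKle
      intro g hg
      refine ⟨⟨g, hKodd g hg⟩, MonoidHom.mem_ker.2 (sign_odd σ _ ?_), rfl⟩
      rw [Subgroup.orderOf_mk]; exact hg
    obtain ⟨y, hy, hyk⟩ := hle k.2
    have hyk' : y = k := Subtype.ext hyk
    rw [← hyk']
    exact MonoidHom.mem_ker.1 hy
  have hSodd : Odd S.index := Nat.odd_iff.2 (Nat.two_dvd_ne_zero.1 hSsyl)
  -- elements of D outside C are involutions
  have hDinv : ∀ x ∈ D, x ∉ C → orderOf x = 2 := by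
    obtain ⟨n, hn, ⟨φ⟩⟩ := hDih
    intro x hxD hxC
    haveI : IsCyclic ↥(C.subgroupOf D) :=
      isCyclic_of_surjective (Subgroup.subgroupOfEquivOfLe hCD).symm.toMonoidHom
        (Subgroup.subgroupOfEquivOfLe hCD).symm.surjective
    have hcyc : IsCyclic ↥((C.subgroupOf D).map (φ : ↥D →* DihedralGroup n)) :=
      isCyclic_of_surjective ((φ : ↥D →* DihedralGroup n).subgroupMap (C.subgroupOf D))
        ((φ : ↥D →* DihedralGroup n).subgroupMap_surjective _)
    have hidx : ((C.subgroupOf D).map (φ : ↥D →* DihedralGroup n)).index = 2 := by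
      rw [Subgroup.index_map_equiv]
      exact hCi
    have hy : φ ⟨x, hxD⟩ ∉ (C.subgroupOf D).map (φ : ↥D →* DihedralGroup n) := by
      rintro ⟨c, hc, hcx⟩
      have hcx' : c = ⟨x, hxD⟩ := φ.injective hcx
      rw [hcx'] at hc
      exact hxC (Subgroup.mem_subgroupOf.1 hc)
    have h3 := dih_invol n hn _ hcyc hidx _ hy
    rw [MulEquiv.orderOf_eq, Subgroup.orderOf_mk] at h3
    exact h3
  obtain ⟨x₀, hx₀D, hx₀C⟩ : ∃ x ∈ D, x ∉ C := by
    by_contra hcon
    push Not at hcon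
    have h3 : C.relIndex D = 1 := Subgroup.relIndex_eq_one.2 hcon
    omega
  -- the subgroup T ⊔ C has index 2 in S
  have hTCS : T ⊔ C ≤ S := sup_le hTS (hCD.trans hDS)
  have hTC_ne : T ⊔ C ≠ S := by
    intro h
    refine h1 x₀ hx₀D hx₀C (hDinv x₀ hx₀D hx₀C) 1 ?_
    rw [one_mul, inv_one, mul_one, h]
    exact hDS hx₀D
  have hcardD : 2 * Nat.card C = Nat.card D := by
    have h3 := relIndex_mul_card' hCD
    rw [hCi] at h3
    exact h3
  have hTCbot : T ⊓ C = ⊥ := by
    rw [eq_bot_iff, ← hDT]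
    exact le_inf (inf_le_right.trans hCD) inf_le_left
  have hMidx : (T ⊔ C).index = 2 * S.index := by
    have h3 := card_mul_le T C
    rw [hTCbot, Subgroup.card_bot, mul_one] at h3
    have h4 := relIndex_mul_card' hTCS
    have h5 : (T ⊔ C).relIndex S ≠ 1 := by
      intro h
      exact hTC_ne (le_antisymm hTCS (Subgroup.relIndex_eq_one.1 h))
    have h6 : (T ⊔ C).relIndex S = 2 := by
      have hpos : 0 < Nat.card ↥(T ⊔ C) := Nat.card_pos
      have h7 : (T ⊔ C).relIndex S * Nat.card ↥(T ⊔ C) ≤ 2 * Nat.card ↥(T ⊔ C) := by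
        rw [h4, ← hTDc, ← hcardD]
        nlinarith
      have h8 : (T ⊔ C).relIndex S ≤ 2 := Nat.le_of_mul_le_mul_right h7 hpos
      have h9 : (T ⊔ C).relIndex S ≠ 0 := by
        intro h0
        rw [h0, zero_mul] at h4
        exact absurd h4.symm (Nat.card_pos.ne')
      omega
    rw [← Subgroup.relIndex_mul_index hTCS, h6]
  have hDK : ∀ x ∈ D, x ∈ K → x ∈ C := by
    intro x hxD hxK
    by_contra hxC
    have hox := hDinv x hxD hxC
    obtain ⟨σ, hσ⟩ := cayley (T ⊔ C) x 0 S.index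
      (by rw [zero_add, pow_one, ← hox]; exact pow_orderOf_eq_one x)
      (by
        intro k hk
        rw [pow_zero, pow_one] at hk
        apply h1 x hxD hxC hox k⁻¹
        rw [inv_inv]
        exact hk)
      (by rw [zero_add, pow_one]; exact hMidx) hSodd
    have h3 := MonoidHom.mem_ker.1 (hKker σ hxK)
    rw [hσ] at h3
    exact absurd h3 (by decide)
  -- the order of S ⊓ K
  have hstar : Nat.card ↥(S ⊓ K) = Nat.card T * Nat.card ↥(K ⊓ D) := by
    apply le_antisymm
    · have h3 := card_mul_le (S ⊓ K) D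
      have h4 : Nat.card ↥(S ⊓ K ⊔ D) ≤ Nat.card S :=
        Subgroup.card_le_of_le (sup_le inf_le_left hDS)
      have h5 : Nat.card ↥(S ⊓ K ⊓ D) ≤ Nat.card ↥(K ⊓ D) :=
        Subgroup.card_le_of_le (le_inf (inf_le_left.trans inf_le_right) inf_le_right)
      have hposD : 0 < Nat.card D := Nat.card_pos
      have h6 : Nat.card ↥(S ⊓ K) * Nat.card D ≤ Nat.card T * Nat.card ↥(K ⊓ D) * Nat.card D :=
        calc Nat.card ↥(S ⊓ K) * Nat.card D
            ≤ Nat.card ↥(S ⊓ K ⊔ D) * Nat.card ↥(S ⊓ K ⊓ D) := h3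
          _ ≤ Nat.card S * Nat.card ↥(K ⊓ D) := Nat.mul_le_mul h4 h5
          _ = Nat.card T * Nat.card ↥(K ⊓ D) * Nat.card D := by rw [← hTDc]; ring
      exact Nat.le_of_mul_le_mul_right h6 hposD
    · have h3 := card_mul_le T (K ⊓ D)
      have h4 : T ⊓ (K ⊓ D) = ⊥ := by
        rw [eq_bot_iff, ← hDT]
        exact le_inf (inf_le_right.trans inf_le_right) inf_le_left
      rw [h4, Subgroup.card_bot, mul_one] at h3
      exact h3.trans (Subgroup.card_le_of_le
        (sup_le (le_inf hTS hTK) (le_inf (inf_le_right.trans hDS) inf_le_left)))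
  have hTKidx : T.relIndex K = Nat.card ↥(K ⊓ D) * S.index := by
    have h3 : T.relIndex (S ⊓ K) = Nat.card ↥(K ⊓ D) := by
      have h4 := relIndex_mul_card' (le_inf hTS hTK)
      rw [hstar, mul_comm (Nat.card T)] at h4
      exact Nat.eq_of_mul_eq_mul_right Nat.card_pos h4
    have h5 : (S ⊓ K).relIndex K = S.index := by
      rw [Subgroup.inf_relIndex_right,
        ← Cfsg.Agent.Lib.Helper64.Index.relIndex_sup_of_normal S K, hKS,
        Subgroup.relIndex_top_right]
    rw [← Subgroup.relIndex_mul_relIndex T (S ⊓ K) K (le_inf hTS hTK) inf_le_right, h3, h5]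
  have hKD : K ⊓ D = ⊥ := by
    by_contra hne
    have hD₀C : K ⊓ D ≤ C := fun d hd => hDK d hd.2 hd.1
    haveI : IsCyclic ↥(K ⊓ D) :=
      isCyclic_of_surjective (Subgroup.subgroupOfEquivOfLe hD₀C).toMonoidHom
        (Subgroup.subgroupOfEquivOfLe hD₀C).surjective
    obtain ⟨g, hg⟩ := IsCyclic.exists_generator (α := ↥(K ⊓ D))
    have hog : orderOf (g : G) = Nat.card ↥(K ⊓ D) := by
      rw [Subgroup.orderOf_coe]; exact orderOf_eq_card_of_forall_mem_zpowers hg
    have hD₀2 : IsPGroup 2 ↥(K ⊓ D) := hS2.to_le (inf_le_right.trans hDS)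
    obtain ⟨a, ha⟩ := (IsPGroup.iff_card).1 hD₀2
    have ha0 : a ≠ 0 := by
      rintro rfl
      rw [pow_zero] at ha
      exact hne (Subgroup.card_eq_one.1 ha)
    obtain ⟨j, rfl⟩ := Nat.exists_eq_succ_of_ne_zero ha0
    have hz2 : orderOf ((g : G) ^ (2 ^ j)) = 2 := by
      rw [orderOf_pow_of_dvd (pow_ne_zero j two_ne_zero)
        (by rw [hog, ha]; exact pow_dvd_pow 2 (Nat.le_succ j)), hog, ha, Nat.succ_eq_add_one,
        pow_succ]
      exact Nat.mul_div_cancel_left 2 (pow_pos two_pos j)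
    have hzC : (g : G) ^ (2 ^ j) ∈ C := C.pow_mem (hD₀C g.2) _
    have hgK : (g : G) ∈ K := g.2.1
    obtain ⟨σ, hσ⟩ := cayley (T.subgroupOf K) (⟨(g : G), hgK⟩ : ↥K) j S.index
      (by
        apply Subtype.ext
        rw [Subgroup.coe_pow, Subgroup.coe_one]
        show (g : G) ^ 2 ^ (j + 1) = 1
        rw [← ha, ← hog]
        exact pow_orderOf_eq_one _)
      (by
        intro k hk
        rw [Subgroup.mem_subgroupOf] at hk
        apply h2 _ hzC hz2 (k : G)⁻¹
        rw [inv_inv]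
        simpa using hk)
      (by
        show T.relIndex K = _
        rw [hTKidx, ha])
      hSodd
    have h3 := hKker' σ ⟨(g : G), hgK⟩
    rw [hσ] at h3
    exact absurd h3 (by decide)
  refine ⟨K, hKn, ?_, ?_⟩
  · rw [eq_top_iff, ← hKS]
    refine sup_le le_sup_left ?_
    rw [← hTD]
    exact sup_le (hTK.trans le_sup_left) le_sup_right
  · intro T' hT'L hT'2 hT'syl
    refine ⟨hT'L.trans hLK, ?_⟩
    have hcT : Nat.card T' = Nat.card T := card_eq_of_sylow L T' T hT'L hTL hT'2 hT2 hT'syl hTsyl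
    have hTKodd : T.relIndex K = S.index := by
      rw [hTKidx, hKD, Subgroup.card_bot, one_mul]
    have h3 := relIndex_mul_card' (hT'L.trans hLK)
    have h4 := relIndex_mul_card' hTK
    have h5 : T'.relIndex K = T.relIndex K := by
      rw [hcT] at h3
      exact Nat.eq_of_mul_eq_mul_right Nat.card_pos (h3.trans h4.symm)
    rw [h5, hTKodd]
    exact hSsyl

end Cfsg.Agent.S1924
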