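-- Statement S1935: F-module for a p-group has a 2-subnormal quadratic offender (p ≥ 5).
import Cfsg.Statements.S1935
import Cfsg.Agent.Lib.Helper64.OffCore

set_option autoImplicit false
set_option linter.unusedSectionVars false
set_option linter.style.haveILetI false
open Cfsg
open Cfsg.Agent.Lib.Helper64.OffMain Cfsg.Agent.Lib.Helper64.OffCore

namespace Cfsg.Agent.S1935

section abstract

variable {Γ R : Type*} [Group Γ] [Ring R]

lemma quad_comm {ρ : Γ →* R} (hinj : Function.Injective ρ) {A : Subgroup Γ} (hA : Quad ρ A)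
    {x y : Γ} (hx : x ∈ A) (hy : y ∈ A) : x * y = y * x := by
  apply hinj
  have h1 := rho_mul_sub_one ρ x y
  have h2 := rho_mul_sub_one ρ y x
  rw [hA x hx y hy, add_zero] at h1
  rw [hA y hy x hx, add_zero] at h2
  have : ρ (x * y) - 1 = ρ (y * x) - 1 := by rw [h1, h2, add_comm]
  exact sub_left_injective this

lemma quad_pow {ρ : Γ →* R} {A : Subgroup Γ} (hA : Quad ρ A) {x : Γ} (hx : x ∈ A) (k : ℕ) :
    ρ (x ^ k) - 1 = k • (ρ x - 1) := by
  induction k with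
  | zero => simp
  | succ k ih =>
    rw [pow_succ, rho_mul_sub_one, ih, smul_mul_assoc, hA x hx x hx, smul_zero, add_zero,
      succ_nsmul]

lemma mem_normalizer_map {Ω : Type*} [Group Ω] {G : Subgroup Ω} {A' : Subgroup ↥G} {y : ↥G}
    (hy : y ∈ Subgroup.normalizer (A' : Set ↥G)) :
    (y : Ω) ∈ Subgroup.normalizer ((A'.map G.subtype : Subgroup Ω) : Set Ω) := by
  rw [Subgroup.mem_normalizer_iff]
  intro z
  constructor
  · rintro ⟨z', hz', rfl⟩
    exact ⟨y * z' * y⁻¹, (Subgroup.mem_normalizer_iff.1 hy z').1 hz', rfl⟩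
  · rintro ⟨t, ht, hte⟩
    refine ⟨y⁻¹ * t * y, ?_, ?_⟩
    · refine (Subgroup.mem_normalizer_iff.1 hy (y⁻¹ * t * y)).2 ?_
      have : y * (y⁻¹ * t * y) * y⁻¹ = t := by group
      rw [this]; exact ht
    · show (y : Ω)⁻¹ * (t : Ω) * (y : Ω) = z
      have : (t : Ω) = y * z * (y : Ω)⁻¹ := hte
      rw [this]; group

end abstract

section transfer

variable {Ω : Type*} [Group Ω] (V G : Subgroup Ω)

/-- Commutative group structure on an abelian subgroup. -/
@[reducible] def commVF [h : Fact (∀ a ∈ V, ∀ b ∈ V, a * b = b * a)] : CommGroup ↥V :=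
  { (inferInstance : Group ↥V) with
    mul_comm := fun a b => Subtype.ext (h.out a a.2 b b.2) }

attribute [local instance] commVF

/-- Conjugation by an element of `G ≤ N(V)` as an endomorphism of `V`. -/
def conjHom (hGV : G ≤ Subgroup.normalizer (V : Set Ω)) (g : ↥G) : ↥V →* ↥V where
  toFun v := ⟨(g : Ω) * v * (g : Ω)⁻¹, (Subgroup.mem_normalizer_iff.1 (hGV g.2) _).1 v.2⟩
  map_one' := by apply Subtype.ext; simp
  map_mul' := by intro a b; apply Subtype.ext; simp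

/-- The conjugation representation on `Additive V`. -/
def rhoV (hGV : G ≤ Subgroup.normalizer (V : Set Ω)) : ↥G →* AddMonoid.End (Additive ↥V) where
  toFun g := MonoidHom.toAdditive (conjHom V G hGV g)
  map_one' := by
    apply AddMonoidHom.ext; intro v
    apply Additive.toMul.injective; apply Subtype.ext
    show ((1 : ↥G) : Ω) * ((Additive.toMul v : ↥V) : Ω) * ((1 : ↥G) : Ω)⁻¹ =
      ((Additive.toMul v : ↥V) : Ω)
    simp
  map_mul' := by
    intro g h
    apply AddMonoidHom.ext; intro v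
    apply Additive.toMul.injective; apply Subtype.ext
    show ((g * h : ↥G) : Ω) * ((Additive.toMul v : ↥V) : Ω) * ((g * h : ↥G) : Ω)⁻¹ =
      (g : Ω) * ((h : Ω) * ((Additive.toMul v : ↥V) : Ω) * (h : Ω)⁻¹) * (g : Ω)⁻¹
    simp [mul_assoc]

variable {V G} [hVF : Fact (∀ a ∈ V, ∀ b ∈ V, a * b = b * a)]
  (hGV : G ≤ Subgroup.normalizer (V : Set Ω))

lemma rhoV_injective (hfaith : G ⊓ Subgroup.centralizer (V : Set Ω) = ⊥) :
    Function.Injective (rhoV V G hGV) := by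
  intro g h hgh
  have hmem : (h : Ω)⁻¹ * (g : Ω) ∈ G ⊓ Subgroup.centralizer (V : Set Ω) := by
    refine Subgroup.mem_inf.2 ⟨G.mul_mem (G.inv_mem h.2) g.2, ?_⟩
    rw [Subgroup.mem_centralizer_iff]
    intro v hv
    have h2 : (g : Ω) * v * (g : Ω)⁻¹ = (h : Ω) * v * (h : Ω)⁻¹ :=
      congrArg (fun f : AddMonoid.End (Additive ↥V) =>
        ((Additive.toMul (f (Additive.ofMul ⟨v, hv⟩)) : ↥V) : Ω)) hgh
    calc v * ((h : Ω)⁻¹ * (g : Ω)) = (h : Ω)⁻¹ * ((h : Ω) * v * (h : Ω)⁻¹) * g := by group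
      _ = (h : Ω)⁻¹ * ((g : Ω) * v * (g : Ω)⁻¹) * g := by rw [h2]
      _ = (h : Ω)⁻¹ * (g : Ω) * v := by group
  rw [hfaith, Subgroup.mem_bot] at hmem
  apply Subtype.ext
  exact (inv_mul_eq_one.1 hmem).symm

lemma endFaith : ∀ x : AddMonoid.End (Additive ↥V), (∀ w : Additive ↥V, x • w = 0) → x = 0 :=
  fun _ h => AddMonoidHom.ext h

lemma nsmul_W (p : ℕ) (hVp : ∀ a ∈ V, a ^ p = 1) (w : Additive ↥V) : p • w = 0 := by
  apply Additive.toMul.injective
  apply Subtype.ext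
  show (((Additive.toMul w) ^ p : ↥V) : Ω) = 1
  rw [Subgroup.coe_pow]; exact hVp _ (Additive.toMul w).2

lemma nsmul_End (p : ℕ) (hVp : ∀ a ∈ V, a ^ p = 1) (x : AddMonoid.End (Additive ↥V)) :
    p • x = 0 := by
  apply AddMonoidHom.ext; intro w
  show p • x w = 0
  exact nsmul_W p hVp _

lemma half_End (p : ℕ) (hVp : ∀ a ∈ V, a ^ p = 1) (k : ℕ) (hk : p = 2 * k + 1) :
    ∀ x : AddMonoid.End (Additive ↥V), (k + 1) • (x + x) = x := by
  intro x
  have hpx := nsmul_End p hVp x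
  have e : (k + 1) • (x + x) = p • x + x := by
    rw [hk, succ_nsmul, nsmul_add, succ_nsmul, two_mul, add_nsmul, add_assoc (k • x + k • x) x x]
  rw [e, hpx, zero_add]

open scoped commutatorElement in
lemma lcs_mem (P : Subgroup Ω) (hGP : G ≤ P) (hVP : V ≤ P) :
    ∀ (l : List ↥G) (w : Additive ↥V),
      ((Additive.toMul ((l.map (fun g => rhoV V G hGV g - 1)).prod w) : ↥V) : Ω) ∈
        P.lowerCentralSeries l.length := by
  intro l
  induction l with
  | nil =>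
    intro w
    simp only [List.map_nil, List.prod_nil, List.length_nil, Subgroup.lowerCentralSeries_zero]
    exact hVP (Additive.toMul w).2
  | cons g l ih =>
    intro w
    have hy := ih w
    obtain ⟨y, hydef⟩ : ∃ y : Ω, y =
        ((Additive.toMul ((l.map (fun g => rhoV V G hGV g - 1)).prod w) : ↥V) : Ω) := ⟨_, rfl⟩
    rw [← hydef] at hy
    have e : ((Additive.toMul (((g :: l).map (fun g => rhoV V G hGV g - 1)).prod w) : ↥V) : Ω) =
        (g : Ω) * y * (g : Ω)⁻¹ / y := by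
      rw [List.map_cons, List.prod_cons, hydef]; rfl
    rw [e, List.length_cons, Subgroup.mem_lowerCentralSeries_succ_iff]
    have e2 : (g : Ω) * y * (g : Ω)⁻¹ / y = ⁅y, (g : Ω)⁆⁻¹ := by
      rw [commutatorElement_def, div_eq_mul_inv]; group
    rw [e2]
    exact Subgroup.inv_mem _ (Subgroup.subset_closure ⟨y, hy, g, hGP g.2, rfl⟩)

lemma exists_nilp [Finite Ω] (p : ℕ) [Fact p.Prime] (hG : IsPGroup p ↥G)
    (hVp : ∀ a ∈ V, a ^ p = 1) :
    ∃ N : ℕ, ∀ l : List ↥G, l.length = N →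
      (l.map (fun g => rhoV V G hGV g - 1)).prod = 0 := by
  have hVP : IsPGroup p ↥V := by
    intro v
    refine ⟨1, ?_⟩
    apply Subtype.ext
    rw [pow_one, Subgroup.coe_pow]; exact hVp _ v.2
  have hP : IsPGroup p ↥(G ⊔ V) := IsPGroup.to_sup_of_normal_right' hG hVP hGV
  haveI : Group.IsNilpotent ↥(G ⊔ V) := hP.isNilpotent
  obtain ⟨N, hN⟩ := (Subgroup.isNilpotent_iff_lowerCentralSeries (G ⊔ V)).1 inferInstance
  refine ⟨N, fun l hl => ?_⟩
  apply AddMonoidHom.ext; intro w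
  have := lcs_mem hGV (G ⊔ V) le_sup_left le_sup_right l w
  rw [hl, hN, Subgroup.mem_bot] at this
  apply Additive.toMul.injective; apply Subtype.ext
  exact this

lemma card_ann_eq (B : Subgroup ↥G) :
    Nat.card ↥(annS (Additive ↥V) (dsub (rhoV V G hGV) B)) =
      Nat.card ↥(V ⊓ Subgroup.centralizer ((B.map G.subtype : Subgroup Ω) : Set Ω)) := by
  have key : ∀ w : Additive ↥V, w ∈ annS (Additive ↥V) (dsub (rhoV V G hGV) B) ↔
      ((Additive.toMul w : ↥V) : Ω) ∈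
        Subgroup.centralizer ((B.map G.subtype : Subgroup Ω) : Set Ω) := by
    intro w
    rw [mem_annS_dsub, Subgroup.mem_centralizer_iff]
    constructor
    · rintro h _ ⟨a, ha, rfl⟩
      have h1 : (a : Ω) * ((Additive.toMul w : ↥V) : Ω) * (a : Ω)⁻¹ =
          ((Additive.toMul w : ↥V) : Ω) :=
        congrArg (fun w' : Additive ↥V => ((Additive.toMul w' : ↥V) : Ω)) (h a ha)
      show (a : Ω) * ((Additive.toMul w : ↥V) : Ω) = ((Additive.toMul w : ↥V) : Ω) * (a : Ω)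
      calc (a : Ω) * ((Additive.toMul w : ↥V) : Ω)
          = ((a : Ω) * ((Additive.toMul w : ↥V) : Ω) * (a : Ω)⁻¹) * a := by group
        _ = ((Additive.toMul w : ↥V) : Ω) * (a : Ω) := by rw [h1]
    · intro h a ha
      have h1 : (a : Ω) * ((Additive.toMul w : ↥V) : Ω) = ((Additive.toMul w : ↥V) : Ω) * (a : Ω) :=
        h (a : Ω) ⟨a, ha, rfl⟩
      apply Additive.toMul.injective; apply Subtype.ext
      show (a : Ω) * ((Additive.toMul w : ↥V) : Ω) * (a : Ω)⁻¹ = ((Additive.toMul w : ↥V) : Ω)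
      rw [h1]; group
  refine Nat.card_eq_of_bijective
    (fun w : ↥(annS (Additive ↥V) (dsub (rhoV V G hGV) B)) =>
      (⟨((Additive.toMul w.1 : ↥V) : Ω),
        Subgroup.mem_inf.2 ⟨(Additive.toMul w.1).2, (key w.1).1 w.2⟩⟩ :
        ↥(V ⊓ Subgroup.centralizer ((B.map G.subtype : Subgroup Ω) : Set Ω)))) ⟨?_, ?_⟩
  · intro w w' h
    have h' : ((Additive.toMul w.1 : ↥V) : Ω) = ((Additive.toMul w'.1 : ↥V) : Ω) :=
      congrArg (fun z : ↥(V ⊓ Subgroup.centralizer ((B.map G.subtype : Subgroup Ω) : Set Ω)) =>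
        (z : Ω)) h
    exact Subtype.ext (Additive.toMul.injective (Subtype.ext h'))
  · rintro ⟨v, hv⟩
    obtain ⟨hvV, hvC⟩ := Subgroup.mem_inf.1 hv
    exact ⟨⟨Additive.ofMul ⟨v, hvV⟩, (key _).2 hvC⟩, rfl⟩

end transfer

attribute [local instance] commVF

open scoped commutatorElement in
/-- Let p ≥ 5 be a prime and, inside an ambient finite group, let G be a p-subgroup acting faithfully by conjugation on an elementary abelian p-subgroup V that it normalizes (only the identity of G centralizes V). Suppose V is an F-module for G: some nontrivial elementary abelian subgroup E of G satisfies #E · #C_V(E) ≥ #V. Then G contains such an offender A that moreover acts quadratically on V ([V, A, A] = 1) and is normal in its normal closure in G. -/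
theorem result {Ω : Type*} [Group Ω] [Finite Ω] (p : ℕ) [Fact p.Prime] (hp : 5 ≤ p) (V G : Subgroup Ω) (hV : Cfsg.IsElementaryAbelian p V) (hG : IsPGroup p ↥G) (hGV : G ≤ Subgroup.normalizer (V : Set Ω)) (hfaith : G ⊓ Subgroup.centralizer (V : Set Ω) = ⊥) (hF : ∃ E : Subgroup Ω, E ≤ G ∧ E ≠ ⊥ ∧ Cfsg.IsElementaryAbelian p E ∧ Nat.card ↥V ≤ Nat.card ↥E * Nat.card ↥(V ⊓ Subgroup.centralizer (E : Set Ω))) : ∃ A : Subgroup Ω, A ≤ G ∧ A ≠ ⊥ ∧ Cfsg.IsElementaryAbelian p A ∧ Nat.card ↥V ≤ Nat.card ↥A * Nat.card ↥(V ⊓ Subgroup.centralizer (A : Set Ω)) ∧ ⁅⁅V, A⁆, A⁆ = ⊥ ∧ ∀ g ∈ Subgroup.closure {x : Ω | ∃ h ∈ G, ∃ a ∈ A, x = h * a * h⁻¹}, ∀ a ∈ A, g * a * g⁻¹ ∈ A := by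
  obtain ⟨E, hEG, hE1, hEel, hEoff⟩ := hF
  have hVc : ∀ a ∈ V, ∀ b ∈ V, a * b = b * a := by
    intro a ha b hb
    haveI := hV.1
    exact congrArg Subtype.val (mul_comm' (⟨a, ha⟩ : ↥V) ⟨b, hb⟩)
  haveI hVF : Fact (∀ a ∈ V, ∀ b ∈ V, a * b = b * a) := ⟨hVc⟩
  obtain ⟨k, hk⟩ : ∃ k, p = 2 * k + 1 := by
    rcases Nat.Prime.eq_two_or_odd (Fact.out : p.Prime) with h | h
    · omega
    · exact ⟨p / 2, by omega⟩
  haveI : Group.IsNilpotent ↥G := hG.isNilpotent
  obtain ⟨N, hN⟩ := exists_nilp hGV p hG hV.2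
  have hE'1 : E.subgroupOf G ≠ ⊥ := by
    intro h
    apply hE1
    rw [← Subgroup.map_subgroupOf_eq_of_le hEG, h, Subgroup.map_bot]
  have hE'c : ∀ x ∈ E.subgroupOf G, ∀ y ∈ E.subgroupOf G, x * y = y * x := by
    intro x hx y hy
    haveI := hEel.1
    have := mul_comm' (⟨(x : Ω), Subgroup.mem_subgroupOf.1 hx⟩ : ↥E)
      ⟨(y : Ω), Subgroup.mem_subgroupOf.1 hy⟩
    have h3 : (x : Ω) * (y : Ω) = (y : Ω) * (x : Ω) := congrArg (fun z : ↥E => (z : Ω)) this
    exact Subtype.ext h3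
  have hE'off : Nat.card (Additive ↥V) ≤ Nat.card ↥(E.subgroupOf G) *
      Nat.card ↥(annS (Additive ↥V) (dsub (rhoV V G hGV) (E.subgroupOf G))) := by
    rw [card_ann_eq hGV, Subgroup.map_subgroupOf_eq_of_le hEG,
      Nat.card_congr (Subgroup.subgroupOfEquivOfLe hEG).toEquiv]
    exact hEoff
  haveI : Finite (Additive ↥V) := inferInstanceAs (Finite ↥V)
  haveI : Finite (AddMonoid.End (Additive ↥V)) :=
    Finite.of_injective (fun f : AddMonoid.End (Additive ↥V) => (f : Additive ↥V → Additive ↥V))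
      DFunLike.coe_injective
  obtain ⟨A', hA'1, hA'q, hA'off, hA'n⟩ := core (Additive ↥V) (rhoV V G hGV)
    (rhoV_injective hGV hfaith) endFaith (k + 1) (half_End p hV.2 k hk) N hN
    (E.subgroupOf G) hE'1 hE'c hE'off
  have hinj := rhoV_injective (hVF := hVF) hGV hfaith
  refine ⟨A'.map G.subtype, Subgroup.map_subtype_le A', ?_, ⟨?_, ?_⟩, ?_, ?_, ?_⟩
  · intro h
    exact hA'1 ((Subgroup.map_eq_bot_iff_of_injective A' (Subgroup.subtype_injective G)).1 h)
  · refine isMulCommutative_iff.2 ?_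
    rintro ⟨_, a, ha, rfl⟩ ⟨_, b, hb, rfl⟩
    apply Subtype.ext
    show (a : Ω) * (b : Ω) = (b : Ω) * (a : Ω)
    exact congrArg Subtype.val (quad_comm hinj hA'q ha hb)
  · rintro _ ⟨a, ha, rfl⟩
    have h1 := quad_pow hA'q ha p
    rw [nsmul_End p hV.2, sub_eq_zero] at h1
    have h2 : a ^ p = 1 := hinj (by rw [h1, map_one])
    show ((a : Ω)) ^ p = 1
    rw [← Subgroup.coe_pow, h2]; rfl
  · rw [Subgroup.card_map_of_injective (Subgroup.subtype_injective G), ← card_ann_eq hGV A']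
    exact hA'off
  · rw [Subgroup.commutator_eq_bot_iff_le_centralizer, Subgroup.commutator_le]
    rintro v hv _ ⟨a, ha, rfl⟩
    rw [Subgroup.mem_centralizer_iff]
    rintro _ ⟨b, hb, rfl⟩
    have hq := hA'q b hb a ha
    have h1 : (b : Ω) * ((a : Ω) * v * (a : Ω)⁻¹ / v) * (b : Ω)⁻¹ /
        ((a : Ω) * v * (a : Ω)⁻¹ / v) = 1 :=
      congrArg (fun f : AddMonoid.End (Additive ↥V) =>
        ((Additive.toMul (f (Additive.ofMul ⟨v, hv⟩)) : ↥V) : Ω)) hq
    show (b : Ω) * ⁅v, (a : Ω)⁆ = ⁅v, (a : Ω)⁆ * (b : Ω)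
    rw [commutatorElement_def]
    rw [div_eq_one, div_eq_mul_inv] at h1
    obtain ⟨c, hcdef⟩ : ∃ c : Ω, c = (a : Ω) * v * (a : Ω)⁻¹ * v⁻¹ := ⟨_, rfl⟩
    rw [← hcdef] at h1
    have e : v * (a : Ω) * v⁻¹ * (a : Ω)⁻¹ = c⁻¹ := by rw [hcdef]; group
    rw [e]
    have h2 : (b : Ω) * c = c * b := by
      calc (b : Ω) * c = ((b : Ω) * c * (b : Ω)⁻¹) * b := by group
        _ = c * b := by rw [h1]
    calc (b : Ω) * c⁻¹ = c⁻¹ * (c * (b : Ω)) * c⁻¹ := by group
      _ = c⁻¹ * ((b : Ω) * c) * c⁻¹ := by rw [h2]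
      _ = c⁻¹ * (b : Ω) := by group
  · intro g hg a ha
    have hle : Subgroup.closure {x : Ω | ∃ h ∈ G, ∃ a ∈ A'.map G.subtype, x = h * a * h⁻¹} ≤
        Subgroup.normalizer ((A'.map G.subtype : Subgroup Ω) : Set Ω) := by
      rw [Subgroup.closure_le]
      rintro _ ⟨h, hh, _, ⟨a, ha, rfl⟩, rfl⟩
      exact mem_normalizer_map (hA'n ⟨h, hh⟩ a ha)
    exact (Subgroup.mem_normalizer_iff.1 (hle hg) a).1 ha

end Cfsg.Agent.S1935
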