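import Cfsg.Statements.S1940

set_option autoImplicit false
open Cfsg

namespace Cfsg.Agent.S1940

/-- Let the finite group L act by automorphisms on the finite abelian group M, and let N be an L-invariant subgroup of M such that M/N is a p-group on which L acts trivially (every l • m lies in the coset mN). If every element of M is a product of an element of N and an element fixed by a Sylow p-subgroup T of L, then every element of M is a product of an element of N and an element fixed by all of L. -/
theorem result {L : Type*} [Group L] [Finite L] {M : Type*} [CommGroup M] [Finite M] [MulDistribMulAction L M]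
    {p : ℕ} [Fact p.Prime] (N : Subgroup M) (hN : ∀ (l : L) (m : M), m ∈ N → l • m ∈ N)
    (hquot : IsPGroup p (M ⧸ N)) (htriv : ∀ (l : L) (m : M), (l • m) * m⁻¹ ∈ N) (T : Sylow p L)
    (hT : ∀ m : M, ∃ n ∈ N, ∃ c : M, (∀ t ∈ (T : Subgroup L), t • c = c) ∧ m = n * c) :
    ∀ m : M, ∃ n ∈ N, ∃ c : M, (∀ l : L, l • c = c) ∧ m = n * c := by
  classical
  intro m
  obtain ⟨n, hn, c, hc, rfl⟩ := hT m
  have : Fintype (L ⧸ (T : Subgroup L)) := Fintype.ofFinite _
  -- the norm of c over L/T
  let f : L ⧸ (T : Subgroup L) → M := fun q =>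
    Quotient.liftOn' q (fun l => l • c) (by
      intro a b hab
      rw [QuotientGroup.leftRel_apply] at hab
      have := hc _ hab
      show a • c = b • c
      calc a • c = a • ((a⁻¹ * b) • c) := by rw [this]
        _ = b • c := by rw [smul_smul, mul_inv_cancel_left])
  have hf : ∀ l : L, f (QuotientGroup.mk l) = l • c := fun l => rfl
  let c' : M := ∏ q : L ⧸ (T : Subgroup L), f q
  have hc'fix : ∀ l : L, l • c' = c' := by
    intro l
    show l • (∏ q : L ⧸ (T : Subgroup L), f q) = ∏ q : L ⧸ (T : Subgroup L), f q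
    rw [Finset.smul_prod']
    apply Fintype.prod_equiv (MulAction.toPerm l)
    intro q
    induction q using QuotientGroup.induction_on with
    | H a =>
      rw [hf]
      show l • a • c = f (QuotientGroup.mk (l * a))
      rw [hf, mul_smul]
  -- c' ≡ c ^ k mod N, where k = index of T
  set k := Fintype.card (L ⧸ (T : Subgroup L)) with hk
  have hc'mod : c' * (c ^ k)⁻¹ ∈ N := by
    have h1 : c' * (c ^ k)⁻¹ = ∏ q : L ⧸ (T : Subgroup L), (f q * c⁻¹) := by
      rw [Finset.prod_mul_distrib, Finset.prod_const, Finset.card_univ, inv_pow]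
    rw [h1]
    apply Subgroup.prod_mem
    intro q _
    induction q using QuotientGroup.induction_on with
    | H a =>
      rw [hf]
      exact htriv a c
  have hkp : k.Coprime p := by
    have h1 : k = (T : Subgroup L).index := by
      rw [hk, Subgroup.index, Nat.card_eq_fintype_card]
    rw [h1]
    have := T.not_dvd_index
    exact (Nat.Coprime.symm ((Nat.Prime.coprime_iff_not_dvd Fact.out).mpr this))
  -- c has p-power order mod N
  obtain ⟨e, he⟩ := hquot (QuotientGroup.mk c)
  have he' : c ^ p ^ e ∈ N := by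
    rw [← QuotientGroup.mk_pow] at he
    exact (QuotientGroup.eq_one_iff _).mp he
  have hcop : k.Coprime (p ^ e) := Nat.Coprime.pow_right e hkp
  -- find j, i with j * k = 1 + i * p ^ e
  obtain ⟨j, i, hji⟩ : ∃ j i : ℕ, k * j = 1 + i * p ^ e := by
    by_cases h1 : p ^ e = 1
    · exact ⟨1, k - 1, by
        rw [h1]
        have : 0 < k := by
          rw [hk]; exact Fintype.card_pos
        omega⟩
    · have h2 : 1 < p ^ e := by
        have : 0 < p ^ e := pow_pos (Nat.Prime.pos Fact.out) e
        omega
      obtain ⟨j, -, hj⟩ := Nat.exists_mul_mod_eq_one_of_coprime hcop h2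
      refine ⟨j, k * j / p ^ e, ?_⟩
      have := Nat.div_add_mod (k * j) (p ^ e)
      rw [hj] at this
      rw [mul_comm (k * j / p ^ e)]
      omega
  refine ⟨n * (c * (c' ^ j)⁻¹), ?_, c' ^ j, ?_, ?_⟩
  · apply N.mul_mem hn
    -- c * (c'^j)⁻¹ ∈ N
    have h1 : (c' * (c ^ k)⁻¹) ^ j ∈ N := N.pow_mem hc'mod j
    have h2 : (c ^ p ^ e) ^ i ∈ N := N.pow_mem he' i
    have h3 : c * (c' ^ j)⁻¹ = ((c' * (c ^ k)⁻¹) ^ j)⁻¹ * ((c ^ p ^ e) ^ i)⁻¹ := by
      rw [mul_pow, inv_pow, ← pow_mul, ← pow_mul, mul_comm (p ^ e) i]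
      have : c ^ (k * j) = c * c ^ (i * p ^ e) := by rw [hji, pow_add, pow_one]
      rw [this]
      simp only [mul_inv_rev, inv_inv]
      rw [mul_comm (c * c ^ (i * p ^ e)), mul_assoc, mul_assoc, mul_inv_cancel, mul_one, mul_comm]
    rw [h3]
    exact N.mul_mem (N.inv_mem h1) (N.inv_mem h2)
  · intro l
    rw [smul_pow', hc'fix]
  · rw [mul_assoc, mul_assoc, inv_mul_cancel, mul_one]

end Cfsg.Agent.S1940
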