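import Cfsg.Statements.S1941
import Cfsg.Agent.Lib.Helper22.Layer

set_option autoImplicit false
open Cfsg

namespace Cfsg.Agent.S1941

/-- Averaging a cocycle that vanishes on a subgroup of index prime to the exponent. -/
theorem cocycle_avg {G A : Type*} [Group G] [Finite G] [CommGroup A] (T : Subgroup G)
    (N : ℕ) (hN0 : 0 < N) (hN : ∀ a : A, a ^ N = 1) (hcop : Nat.Coprime T.index N)
    (act : G → A → A)
    (hmul : ∀ g a b, act g (a * b) = act g a * act g b)
    (d : G → A) (hd : ∀ g h, d (g * h) = d g * act g (d h)) (hT : ∀ t ∈ T, d t = 1) :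
    ∃ z : A, ∀ h : G, d h = z * (act h z)⁻¹ := by
  classical
  have : Fintype (G ⧸ T) := Fintype.ofFinite _
  have hact1 : ∀ g, act g 1 = 1 := by
    intro g
    have h1 := hmul g 1 1
    rw [mul_one] at h1
    have h2 : act g 1 * act g 1 = act g 1 * 1 := by rw [mul_one]; exact h1.symm
    exact mul_left_cancel h2
  let actHom : G → (A →* A) := fun g =>
    { toFun := act g, map_one' := hact1 g, map_mul' := hmul g }
  have hdT : ∀ g t, t ∈ T → d (g * t) = d g := by
    intro g t ht
    rw [hd, hT t ht, hact1, mul_one]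
  let f : G ⧸ T → A := fun q =>
    Quotient.liftOn' q d (by
      intro a b hab
      rw [QuotientGroup.leftRel_apply] at hab
      have h1 := hdT a (a⁻¹ * b) hab
      rw [mul_inv_cancel_left] at h1
      exact h1.symm)
  have hf : ∀ g : G, f (QuotientGroup.mk g) = d g := fun g => rfl
  set m : A := ∏ q : G ⧸ T, f q with hm
  set n := Fintype.card (G ⧸ T) with hn
  have hkey : ∀ h : G, d h ^ n = m * (act h m)⁻¹ := by
    intro h
    have h1 : ∏ q : G ⧸ T, f (h • q) = m := by
      rw [hm]
      exact Fintype.prod_equiv (MulAction.toPerm h) _ _ (fun q => rfl)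
    have h2 : ∀ q : G ⧸ T, f (h • q) = d h * act h (f q) := by
      intro q
      induction q using QuotientGroup.induction_on with
      | H a =>
        show f (QuotientGroup.mk (h * a)) = d h * act h (f (QuotientGroup.mk a))
        rw [hf, hf, hd]
    have h3 : ∏ q : G ⧸ T, f (h • q) = d h ^ n * act h m := by
      rw [Finset.prod_congr rfl (fun q _ => h2 q), Finset.prod_mul_distrib, Finset.prod_const,
        Finset.card_univ]
      congr 1
      exact (map_prod (actHom h) f Finset.univ).symm
    rw [h1] at h3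
    exact eq_mul_inv_of_mul_eq h3.symm
  have hnidx : n = T.index := by
    rw [hn, Subgroup.index, Nat.card_eq_fintype_card]
  obtain ⟨j, i, hji⟩ : ∃ j i : ℕ, n * j = 1 + i * N := by
    by_cases h1 : N = 1
    · refine ⟨1, n - 1, ?_⟩
      have h0 : 0 < n := by rw [hn]; exact Fintype.card_pos
      rw [h1]; omega
    · have h2 : 1 < N := by omega
      have hcop' : Nat.Coprime n N := by rw [hnidx]; exact hcop
      obtain ⟨j, -, hj⟩ := Nat.exists_mul_mod_eq_one_of_coprime hcop' h2
      refine ⟨j, n * j / N, ?_⟩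
      have h3 := Nat.div_add_mod (n * j) N
      rw [hj] at h3
      rw [mul_comm (n * j / N)]
      omega
  refine ⟨m ^ j, fun h => ?_⟩
  have h1 : d h ^ (n * j) = d h := by
    rw [hji, pow_add, pow_one, mul_comm i N, pow_mul, hN, one_pow, mul_one]
  have h2 : act h (m ^ j) = act h m ^ j := map_pow (actHom h) m j
  calc d h = d h ^ (n * j) := h1.symm
    _ = (d h ^ n) ^ j := pow_mul _ _ _
    _ = (m * (act h m)⁻¹) ^ j := by rw [hkey h]
    _ = m ^ j * (act h (m ^ j))⁻¹ := by rw [mul_pow, inv_pow, h2]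

/-- A subgroup whose elements commute, as a commutative group. -/
@[reducible] def commGroupOfComm {G : Type*} [Group G] (C : Subgroup G)
    (h : ∀ a b : C, a * b = b * a) : CommGroup C :=
  { (inferInstance : Group C) with mul_comm := h }

/-- Let G be a finite group with no nontrivial normal subgroup of order prime to p, T a Sylow p-subgroup of G and E(G) the layer of G (the subgroup generated by its components). An automorphism of G of p-power order that fixes T and E(G) elementwise is inner. -/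
theorem result {G : Type*} [Group G] [Finite G] {p : ℕ} [Fact p.Prime] (hcore : Cfsg.pPrimeCore p G = ⊥)
    (T : Sylow p G) (α : MulAut G) (hα : ∃ j : ℕ, orderOf α = p ^ j) (hfixT : ∀ x ∈ (T : Subgroup G), α x = x)
    (hfixE : ∀ x ∈ Cfsg.layer G, α x = x) : ∃ g : G, ∀ x : G, α x = g * x * g⁻¹ := by
  classical
  have hp : p.Prime := Fact.out
  have hFn : (Cfsg.generalizedFittingSubgroup G).Normal :=
    Cfsg.Agent.Lib.Helper29.Basic.generalizedFittingSubgroup_normal G
  -- F(G) ≤ T
  have hFT : Cfsg.fittingSubgroup G ≤ (T : Subgroup G) := by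
    rw [Cfsg.Agent.Lib.Helper78.Fitting.fitting_eq_iSup_pCore]
    refine iSup_le ?_
    intro q
    by_cases hq : (q : ℕ) = p
    · rw [hq]
      exact Cfsg.Agent.Lib.Helper78.Fitting.pCore_le_sylow T
    · have : Fact (q : ℕ).Prime := ⟨q.2⟩
      have h1 : Cfsg.pCore (q : ℕ) G ≤ Cfsg.pPrimeCore p G := by
        apply le_sSup
        refine ⟨Cfsg.Agent.Lib.Helper78.Fitting.pCore_normal _, ?_⟩
        obtain ⟨k, hk⟩ :=
          (Cfsg.Agent.Lib.Helper78.Fitting.pCore_isPGroup (G := G) (q : ℕ)).exists_card_eq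
        rw [hk]
        exact Nat.Coprime.pow_left k ((Nat.coprime_primes q.2 hp).2 hq)
      rw [hcore] at h1
      exact h1.trans bot_le
  -- α fixes F*(G)
  have hfixF : ∀ y ∈ Cfsg.generalizedFittingSubgroup G, α y = y := by
    have h1 : Cfsg.layer G ⊔ Cfsg.fittingSubgroup G
        ≤ MonoidHom.eqLocus α.toMonoidHom (MonoidHom.id G) := by
      refine sup_le ?_ ?_
      · intro y hy; exact hfixE y hy
      · intro y hy; exact hfixT y (hFT hy)
    intro y hy
    exact h1 hy
  set C := Subgroup.centralizer ((Cfsg.generalizedFittingSubgroup G : Subgroup G) : Set G) with hC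
  have hCn : C.Normal := Subgroup.normal_centralizer
  have hCle : C ≤ Cfsg.generalizedFittingSubgroup G :=
    Cfsg.Agent.Lib.Helper22.Layer.centralizer_genFitting_le
  have hCcomm : ∀ a b : C, a * b = b * a := by
    intro a b
    apply Subtype.ext
    have h1 := Subgroup.mem_centralizer_iff.1 b.2 a.1 (hCle a.2)
    exact h1
  have hCT : C ≤ (T : Subgroup G) := by
    have hnil : Group.IsNilpotent C := by
      have : IsMulCommutative C := ⟨⟨hCcomm⟩⟩
      exact Cfsg.Agent.Lib.Helper29.Basic.isNilpotent_of_isMulCommutative C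
    exact (Cfsg.Agent.Lib.Helper78.Fitting.le_fitting hCn hnil).trans hFT
  have hd : ∀ g : G, α g * g⁻¹ ∈ C := by
    intro g
    rw [hC, Subgroup.mem_centralizer_iff]
    intro y hy
    have hy' : g⁻¹ * y * g ∈ Cfsg.generalizedFittingSubgroup G := by
      have := hFn.conj_mem y hy g⁻¹
      simpa using this
    have h1 : α (g⁻¹ * y * g) = g⁻¹ * y * g := hfixF _ hy'
    rw [map_mul, map_mul, map_inv, hfixF y hy] at h1
    calc y * (α g * g⁻¹) = α g * ((α g)⁻¹ * y * α g) * g⁻¹ := by group
      _ = α g * (g⁻¹ * y * g) * g⁻¹ := by rw [h1]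
      _ = α g * g⁻¹ * y := by group
  obtain ⟨E, hE⟩ := T.isPGroup'.exists_card_eq
  have hcop : Nat.Coprime (T : Subgroup G).index (Nat.card (T : Subgroup G)) := by
    rw [hE]
    exact Nat.Coprime.pow_right E ((Nat.Prime.coprime_iff_not_dvd hp).2 T.not_dvd_index).symm
  have hexp : ∀ c : C, c ^ Nat.card (T : Subgroup G) = 1 := by
    intro c
    have h1 : (⟨c.1, hCT c.2⟩ : (T : Subgroup G)) ^ Nat.card (T : Subgroup G) = 1 :=
      pow_card_eq_one'
    apply Subtype.ext
    have h2 : (c.1 : G) ^ Nat.card (T : Subgroup G) = 1 := congrArg Subtype.val h1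
    exact h2
  obtain ⟨z, hz⟩ := @cocycle_avg G C _ _ (commGroupOfComm C hCcomm) (T : Subgroup G)
    (Nat.card (T : Subgroup G)) Nat.card_pos hexp hcop
    (fun g c => ⟨g * c.1 * g⁻¹, hCn.conj_mem c.1 c.2 g⟩)
    (by
      intro g a b
      apply Subtype.ext
      show g * (a.1 * b.1) * g⁻¹ = (g * a.1 * g⁻¹) * (g * b.1 * g⁻¹)
      group)
    (fun g => ⟨α g * g⁻¹, hd g⟩)
    (by
      intro g h
      apply Subtype.ext
      show α (g * h) * (g * h)⁻¹ = (α g * g⁻¹) * (g * (α h * h⁻¹) * g⁻¹)
      rw [map_mul]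
      group)
    (by
      intro t ht
      apply Subtype.ext
      show α t * t⁻¹ = 1
      rw [hfixT t ht, mul_inv_cancel])
  refine ⟨z.1, fun x => ?_⟩
  have h1 := congrArg Subtype.val (hz x)
  have h2 : α x * x⁻¹ = z.1 * (x * z.1 * x⁻¹)⁻¹ := h1
  calc α x = (α x * x⁻¹) * x := by group
    _ = (z.1 * (x * z.1 * x⁻¹)⁻¹) * x := by rw [h2]
    _ = z.1 * x * z.1⁻¹ := by group

end Cfsg.Agent.S1941
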