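import Cfsg.Statements.S1947
import Cfsg.Agent.S0071
import Cfsg.Agent.Lib.Helper54.OmegaTwo

set_option autoImplicit false
open Cfsg

namespace Cfsg.Agent.S1947

/-- Let G be a finite group and p a prime. If every element of G of order dividing p (dividing 4 when p = 2) lies in some fixed term Z_n(G) of the upper central series, then G has a normal p-complement. -/
theorem result {G : Type*} [Group G] [Finite G] {p : ℕ} [Fact p.Prime] (n : ℕ)
    (h : ∀ a : G, (a ^ p = 1 ∨ (p = 2 ∧ a ^ 4 = 1)) → a ∈ Subgroup.upperCentralSeries G n) : Cfsg.HasNormalPComplement p G := by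
  obtain ⟨P⟩ := (inferInstance : Nonempty (Sylow p G))
  have hcomp : ∃ N : Subgroup G, N.Normal ∧ N.IsComplement' (P : Subgroup G) := by
    rw [Cfsg.Agent.S0071.result P]
    intro Q hQP g hg hcop
    rw [Subgroup.mem_centralizer_iff]
    intro x hx
    have hQ : IsPGroup p Q := P.isPGroup'.to_le hQP
    exact Cfsg.Agent.Lib.Helper54.OmegaTwo.centralizes_of_centralizes_omega' p g hcop Q hQ hg (by
      intro y hy hyp
      exact Cfsg.Agent.Lib.Helper54.OmegaTwo.commute_of_mem_upperCentralSeries p g hcop Q hQ hg n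
        y hy (h y hyp)) x hx
  obtain ⟨N, hN, hNP⟩ := hcomp
  exact ⟨P, N, hN, hNP⟩

end Cfsg.Agent.S1947
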