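import Cfsg.Statements.S1948
import Cfsg.Agent.Lib.Helper11.PConstr
import Cfsg.Agent.Lib.Helper23.Cores
import Cfsg.Agent.Lib.Helper34.PComplement
import Cfsg.Agent.Lib.Helper48.CharPSub

set_option autoImplicit false
open Cfsg

namespace Cfsg.Agent.S1948

open Cfsg.Agent.Lib.Helper11.PConstr

variable {G : Type*} [Group G] [Finite G] {p : ℕ} [Fact p.Prime]

omit [Finite G] in
/-- A `p`-element centralizing a Sylow `p`-subgroup lies in it. -/
theorem mem_sylow_of_centralizes (S : Sylow p G) {x : G}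
    (hx : x ∈ Subgroup.centralizer ((S : Subgroup G) : Set G)) {k : ℕ} (hxp : x ^ p ^ k = 1) :
    x ∈ (S : Subgroup G) := by
  have hp : p.Prime := Fact.out
  have hz : IsPGroup p ↥(Subgroup.zpowers x) := by
    obtain ⟨j, -, hj⟩ := (Nat.dvd_prime_pow hp).mp (orderOf_dvd_of_pow_eq_one hxp)
    exact IsPGroup.of_card (n := j) (by rw [Nat.card_zpowers, hj])
  have hn : Subgroup.zpowers x ≤ Subgroup.normalizer ((S : Subgroup G) : Set G) := by
    rw [Subgroup.zpowers_le]
    exact Subgroup.centralizer_le_normalizer _ hx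
  have h1 : IsPGroup p ↥(Subgroup.zpowers x ⊔ (S : Subgroup G)) :=
    IsPGroup.to_sup_of_normal_right' hz S.2 hn
  have h2 := S.is_maximal' h1 le_sup_right
  rw [← h2]
  exact Subgroup.mem_sup_left (Subgroup.mem_zpowers x)

/-- Every element is the product of a `p'`-power and a `p`-power of itself. -/
theorem exists_decomp (c : G) :
    ∃ (a b : ℤ) (m k : ℕ), m.Coprime p ∧ (c ^ a) ^ m = 1 ∧ (c ^ b) ^ p ^ k = 1 ∧ c = c ^ a * c ^ b := by
  have hp : p.Prime := Fact.out
  obtain ⟨k, m, hm, hkm⟩ := Nat.exists_eq_pow_mul_and_not_dvd (orderOf_pos c).ne' p hp.ne_one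
  have hcop : Nat.Coprime (p ^ k) m :=
    Nat.Coprime.pow_left k ((Nat.Prime.coprime_iff_not_dvd hp).mpr hm)
  have hg := Int.gcd_eq_gcd_ab (p ^ k : ℕ) (m : ℕ)
  rw [Int.gcd_natCast_natCast, hcop] at hg
  refine ⟨(p ^ k : ℕ) * Int.gcdA (p ^ k : ℕ) (m : ℕ), (m : ℕ) * Int.gcdB (p ^ k : ℕ) (m : ℕ), m, k,
    ((Nat.Prime.coprime_iff_not_dvd hp).mpr hm).symm, ?_, ?_, ?_⟩
  · rw [← zpow_natCast, ← zpow_mul, mul_comm, ← mul_assoc, zpow_mul]
    have : c ^ ((m : ℤ) * ((p ^ k : ℕ) : ℤ)) = 1 := by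
      rw [← Nat.cast_mul, zpow_natCast, mul_comm, ← hkm, pow_orderOf_eq_one]
    rw [this, one_zpow]
  · rw [← zpow_natCast, ← zpow_mul, mul_comm, ← mul_assoc, zpow_mul]
    have : c ^ (((p ^ k : ℕ) : ℤ) * (m : ℤ)) = 1 := by
      rw [← Nat.cast_mul, zpow_natCast, ← hkm, pow_orderOf_eq_one]
    rw [this, one_zpow]
  · rw [← zpow_add, ← hg]
    simp

/-- If `G = N_G(S) O_{p'}(G)`, then `C_G(S) ≤ O_{p'}(G) S`. -/
theorem centralizer_le (S : Sylow p G)
    (h : Subgroup.normalizer ((S : Subgroup G) : Set G) ⊔ Cfsg.pPrimeCore p G = ⊤) :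
    Subgroup.centralizer ((S : Subgroup G) : Set G) ≤ Cfsg.pPrimeCore p G ⊔ (S : Subgroup G) := by
  classical
  have hp : p.Prime := Fact.out
  have hKn : (Cfsg.pPrimeCore p G).Normal :=
    (Cfsg.Agent.Lib.Helper76.PSolv.pPrimeCore_mem p).1
  set C : Subgroup G := Subgroup.centralizer ((S : Subgroup G) : Set G) with hC
  -- the normal p-complement of C
  obtain ⟨Z⟩ := (inferInstance : Nonempty (Sylow p ↥(⊤ : Subgroup ↥C)))
  have hZ : ∀ z ∈ Z, ∀ c : ↥(⊤ : Subgroup ↥C), z * c = c * z := by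
    intro z hz c
    obtain ⟨k, hk⟩ := Z.2 ⟨z, hz⟩
    have hk' : (((z : ↥C) : G)) ^ p ^ k = 1 := by
      have := congrArg (fun t : ↥(Z : Subgroup ↥(⊤ : Subgroup ↥C)) => (((t : ↥(⊤ : Subgroup ↥C)) : ↥C) : G)) hk
      simpa using this
    have hzS : ((z : ↥C) : G) ∈ (S : Subgroup G) := mem_sylow_of_centralizes S (z : ↥C).2 hk'
    have h1 := Subgroup.mem_centralizer_iff.mp (c : ↥C).2 _ hzS
    apply Subtype.ext
    apply Subtype.ext
    simpa using h1
  obtain ⟨P, K', hK'n, hcompl⟩ :=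
    Cfsg.Agent.Lib.Helper34.PComplement.exists_normal_complement_of_central_sylow
      (N := ↥C) (⊤ : Subgroup ↥C) (fun g _ => Subgroup.mem_top g) Z hZ
  have hcardK' : ¬ p ∣ Nat.card ↥K' := by
    have h1 := hcompl.card_mul_card
    have h2 := Subgroup.card_mul_index (P : Subgroup ↥C)
    have h3 : Nat.card ↥K' = (P : Subgroup ↥C).index := by
      have hpos : 0 < Nat.card ↥(P : Subgroup ↥C) := Nat.card_pos
      have : Nat.card ↥K' * Nat.card ↥(P : Subgroup ↥C)
          = (P : Subgroup ↥C).index * Nat.card ↥(P : Subgroup ↥C) := by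
        rw [h1, mul_comm, h2]
      exact Nat.eq_of_mul_eq_mul_right hpos this
    rw [h3]
    exact P.not_dvd_index
  have hidx : ∃ j, K'.index = p ^ j := by
    have h1 : K'.index = Nat.card ↥(P : Subgroup ↥C) := by
      have := hcompl.symm.index_eq_card
      exact this
    rw [h1]
    exact IsPGroup.iff_card.mp P.2
  have hmemK' : ∀ y : ↥C, ∀ m : ℕ, m.Coprime p → y ^ m = 1 → y ∈ K' := by
    intro y m hm hym
    obtain ⟨j, hj⟩ := hidx
    have h1 : (QuotientGroup.mk y : ↥C ⧸ K') ^ p ^ j = 1 := by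
      have := pow_card_eq_one' (G := ↥C ⧸ K') (x := (QuotientGroup.mk y : ↥C ⧸ K'))
      rwa [← Subgroup.index_eq_card, hj] at this
    have h2 : (QuotientGroup.mk y : ↥C ⧸ K') ^ m = 1 := by
      rw [← QuotientGroup.mk_pow, hym]
      rfl
    have h3 : orderOf (QuotientGroup.mk y : ↥C ⧸ K') = 1 :=
      Nat.eq_one_of_dvd_coprimes (Nat.Coprime.pow_right j hm)
        (orderOf_dvd_of_pow_eq_one h2) (orderOf_dvd_of_pow_eq_one h1)
    exact (QuotientGroup.eq_one_iff y).mp (orderOf_eq_one_iff.mp h3)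
  -- the subgroup generated by the p'-elements of C
  set L : Subgroup G := Subgroup.closure {y : G | y ∈ C ∧ ∃ m : ℕ, m.Coprime p ∧ y ^ m = 1} with hL
  have hLD : L ≤ K'.map C.subtype := by
    rw [hL, Subgroup.closure_le]
    rintro y ⟨hyC, m, hm, hym⟩
    refine ⟨⟨y, hyC⟩, hmemK' ⟨y, hyC⟩ m hm ?_, rfl⟩
    apply Subtype.ext
    simpa using hym
  have hLcop : (Nat.card ↥L).Coprime p := by
    rw [Nat.coprime_comm, Nat.Prime.coprime_iff_not_dvd hp]
    intro hd
    apply hcardK'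
    have h1 : Nat.card ↥(K'.map C.subtype) = Nat.card ↥K' :=
      Subgroup.card_map_of_injective C.subtype_injective
    rw [← h1]
    exact dvd_trans hd (Subgroup.card_dvd_of_le hLD)
  have hLnorm : Subgroup.normalizer ((S : Subgroup G) : Set G) ≤ Subgroup.normalizer (L : Set G) := by
    intro n hn
    rw [Subgroup.mem_normalizer_iff_map_conj_eq]
    apply Subgroup.eq_of_le_of_card_ge
    · rw [hL, MonoidHom.map_closure, Subgroup.closure_le]
      rintro _ ⟨y, ⟨hyC, m, hm, hym⟩, rfl⟩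
      apply Subgroup.subset_closure
      refine ⟨?_, m, hm, ?_⟩
      · rw [hC, Subgroup.mem_centralizer_iff]
        intro s hs
        have hs' : n⁻¹ * s * n ∈ (S : Subgroup G) := by
          have := (Subgroup.mem_normalizer_iff.mp (Subgroup.inv_mem _ hn) s).mp hs
          simpa using this
        have h1 := Subgroup.mem_centralizer_iff.mp hyC _ hs'
        show s * (n * y * n⁻¹) = n * y * n⁻¹ * s
        calc s * (n * y * n⁻¹) = n * ((n⁻¹ * s * n) * y) * n⁻¹ := by group
          _ = n * (y * (n⁻¹ * s * n)) * n⁻¹ := by rw [h1]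
          _ = n * y * n⁻¹ * s := by group
      · show (n * y * n⁻¹) ^ m = 1
        rw [conj_pow, hym]
        group
    · exact (Subgroup.card_map_of_injective (MulAut.conj n).injective).ge
  have hLKn : (L ⊔ Cfsg.pPrimeCore p G).Normal := by
    rw [← Subgroup.normalizer_eq_top_iff, eq_top_iff, ← h]
    apply sup_le
    · intro n hn
      rw [Subgroup.mem_normalizer_iff_map_conj_eq, Subgroup.map_sup,
        Subgroup.mem_normalizer_iff_map_conj_eq.mp (hLnorm hn),
        Subgroup.mem_normalizer_iff_map_conj_eq.mp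
          (Subgroup.normalizer_eq_top_iff.mpr hKn ▸ Subgroup.mem_top n)]
    · exact le_sup_right.trans Subgroup.le_normalizer
  have hLK : L ⊔ Cfsg.pPrimeCore p G ≤ Cfsg.pPrimeCore p G := by
    apply Cfsg.Agent.Lib.Helper23.Cores.le_pPrimeCore p _ hLKn
    exact Nat.Coprime.coprime_dvd_left
      (Cfsg.Agent.Lib.Helper23.Cores.card_sup_dvd_mul L (Cfsg.pPrimeCore p G))
      (Nat.Coprime.mul_left hLcop (Cfsg.Agent.Lib.Helper23.Cores.pPrimeCore_card_coprime p))
  -- conclusion
  intro c hc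
  obtain ⟨a, b, m, k, hm, ha, hb, hab⟩ := exists_decomp (p := p) c
  have h1 : c ^ a ∈ Cfsg.pPrimeCore p G := by
    apply hLK
    apply Subgroup.mem_sup_left
    apply Subgroup.subset_closure
    exact ⟨Subgroup.zpow_mem _ hc a, m, hm, ha⟩
  have h2 : c ^ b ∈ (S : Subgroup G) := mem_sylow_of_centralizes S (Subgroup.zpow_mem _ hc b) hb
  rw [hab]
  exact Subgroup.mul_mem _ (Subgroup.mem_sup_left h1) (Subgroup.mem_sup_right h2)

omit [Fact (Nat.Prime p)] in
/-- If `G = N_G(S) O_{p'}(G)`, then `S ≤ O_{p',p}(G)`. -/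
theorem sylow_le (S : Sylow p G)
    (h : Subgroup.normalizer ((S : Subgroup G) : Set G) ⊔ Cfsg.pPrimeCore p G = ⊤) :
    (S : Subgroup G) ≤ Cfsg.pPrimePCore p G := by
  have hKn : (Cfsg.pPrimeCore p G).Normal :=
    (Cfsg.Agent.Lib.Helper76.PSolv.pPrimeCore_mem p).1
  have hSKn : ((S : Subgroup G) ⊔ Cfsg.pPrimeCore p G).Normal := by
    rw [← Subgroup.normalizer_eq_top_iff, eq_top_iff, ← h]
    apply sup_le
    · intro n hn
      rw [Subgroup.mem_normalizer_iff_map_conj_eq, Subgroup.map_sup,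
        Subgroup.mem_normalizer_iff_map_conj_eq.mp hn,
        Subgroup.mem_normalizer_iff_map_conj_eq.mp
          (Subgroup.normalizer_eq_top_iff.mpr hKn ▸ Subgroup.mem_top n)]
    · exact le_sup_right.trans Subgroup.le_normalizer
  have hKbot : (Cfsg.pPrimeCore p G).map (QuotientGroup.mk' (Cfsg.pPrimeCore p G)) = ⊥ := by
    rw [Subgroup.map_eq_bot_iff, QuotientGroup.ker_mk']
  have himg : ((S : Subgroup G) ⊔ Cfsg.pPrimeCore p G).map (QuotientGroup.mk' (Cfsg.pPrimeCore p G))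
      = (S : Subgroup G).map (QuotientGroup.mk' (Cfsg.pPrimeCore p G)) := by
    rw [Subgroup.map_sup, hKbot, sup_bot_eq]
  have hn : ((S : Subgroup G).map (QuotientGroup.mk' (Cfsg.pPrimeCore p G))).Normal := by
    rw [← himg]
    exact hSKn.map _ (QuotientGroup.mk'_surjective _)
  have hle := Cfsg.Agent.Lib.Helper23.Cores.le_pCore p _ hn (S.2.map _)
  intro s hs
  show (QuotientGroup.mk' (Cfsg.pPrimeCore p G) s) ∈ Cfsg.pCore p (G ⧸ Cfsg.pPrimeCore p G)
  exact hle ⟨s, hs, rfl⟩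


/-- Let S be a Sylow p-subgroup of the finite group G. Then G = N_G(S)·O_{p'}(G) if and only if G is p-constrained and N_G(S) controls fusion in S, in the sense that whenever a subgroup Q of S has a conjugate g Q g⁻¹ inside S, the element g is a product n c with n normalizing S and c centralizing Q. -/
theorem result {G : Type*} [Group G] [Finite G] {p : ℕ} [Fact p.Prime] (S : Sylow p G) :
    Subgroup.normalizer ((S : Subgroup G) : Set G) ⊔ Cfsg.pPrimeCore p G = ⊤ ↔
      (Cfsg.IsPConstrained p G ∧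
        ∀ Q : Subgroup G, Q ≤ (S : Subgroup G) → ∀ g : G, Q.map (MulAut.conj g).toMonoidHom ≤ (S : Subgroup G) →
          ∃ n ∈ Subgroup.normalizer ((S : Subgroup G) : Set G), ∃ c ∈ Subgroup.centralizer (Q : Set G), g = n * c) := by
  have hp : p.Prime := Fact.out
  have hKn : (Cfsg.pPrimeCore p G).Normal :=
    (Cfsg.Agent.Lib.Helper76.PSolv.pPrimeCore_mem p).1
  have hMn : (Cfsg.pPrimePCore p G).Normal := pPrimePCore_normal p G
  constructor
  · intro h
    constructor
    · -- p-constraint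
      have hSM := sylow_le S h
      apply isPConstrained_of_one (S.subtype hSM)
      have e : ((S.subtype hSM : Sylow p ↥(Cfsg.pPrimePCore p G)) :
          Subgroup ↥(Cfsg.pPrimePCore p G)).map (Cfsg.pPrimePCore p G).subtype = (S : Subgroup G) := by
        rw [Sylow.coe_subtype, Subgroup.map_subgroupOf_eq_of_le hSM]
      rw [e]
      exact (centralizer_le S h).trans (sup_le (pPrimeCore_le_pPrimePCore p G) hSM)
    · -- fusion control
      intro Q hQS g hg
      have hgm : g ∈ ((Subgroup.normalizer ((S : Subgroup G) : Set G) ⊔ Cfsg.pPrimeCore p G :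
          Subgroup G) : Set G) := by rw [h]; trivial
      rw [Subgroup.mul_normal] at hgm
      obtain ⟨n, hn, k, hk, rfl⟩ := Set.mem_mul.mp hgm
      refine ⟨n, hn, k, ?_, rfl⟩
      rw [Subgroup.mem_centralizer_iff]
      intro x hx
      have h1 : n * k * x * (n * k)⁻¹ ∈ (S : Subgroup G) := hg ⟨x, hx, rfl⟩
      have h2 : k * x * k⁻¹ ∈ (S : Subgroup G) := by
        have := (Subgroup.mem_normalizer_iff.mp (Subgroup.inv_mem _ hn) _).mp h1
        have e : n⁻¹ * (n * k * x * (n * k)⁻¹) * n⁻¹⁻¹ = k * x * k⁻¹ := by group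
        rwa [e] at this
      have h3 : k * x * k⁻¹ * x⁻¹ ∈ (S : Subgroup G) ⊓ Cfsg.pPrimeCore p G := by
        refine Subgroup.mem_inf.mpr ⟨Subgroup.mul_mem _ h2 (Subgroup.inv_mem _ (hQS hx)), ?_⟩
        have : k * x * k⁻¹ * x⁻¹ = k * (x * k⁻¹ * x⁻¹) := by group
        rw [this]
        exact Subgroup.mul_mem _ hk (hKn.conj_mem _ (Subgroup.inv_mem _ hk) x)
      have hdisj : (S : Subgroup G) ⊓ Cfsg.pPrimeCore p G = ⊥ := by
        apply Disjoint.eq_bot
        apply Subgroup.disjoint_of_coprime_natCard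
        obtain ⟨j, hj⟩ := IsPGroup.iff_card.mp S.2
        rw [hj]
        exact Nat.Coprime.pow_left j
          (Cfsg.Agent.Lib.Helper23.Cores.pPrimeCore_card_coprime p).symm
      rw [hdisj, Subgroup.mem_bot] at h3
      calc x * k = (k * x * k⁻¹ * x⁻¹)⁻¹ * (k * x) := by group
        _ = k * x := by rw [h3]; group
  · rintro ⟨hcon, hfus⟩
    -- a Sylow p-subgroup of O_{p',p}(G) inside S
    have hSyl : Cfsg.Agent.Lib.Helper33.Conj.IsSylIn p ((S : Subgroup G) ⊓ Cfsg.pPrimePCore p G)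
        (Cfsg.pPrimePCore p G) :=
      Cfsg.Agent.Lib.Helper48.CharPSub.isSylIn_inf_of_normal
        (Cfsg.Agent.Lib.Helper33.Conj.isSylIn_of_sylow S le_top) le_top
        (by rw [Subgroup.normalizer_eq_top_iff.mpr hMn])
    let P : Sylow p ↥(Cfsg.pPrimePCore p G) :=
      (hSyl.2.1.comap_subtype (K := Cfsg.pPrimePCore p G)).toSylow hSyl.2.2
    have hPmap : (P : Subgroup ↥(Cfsg.pPrimePCore p G)).map (Cfsg.pPrimePCore p G).subtype
        = (S : Subgroup G) ⊓ Cfsg.pPrimePCore p G :=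
      Subgroup.map_subgroupOf_eq_of_le inf_le_right
    have hfr := normalizer_sylow_sup_pPrimeCore P
    have hsup := sylow_sup_pPrimeCore P
    have hc := hcon P
    rw [hPmap] at hfr hsup hc
    rw [eq_top_iff, ← hfr]
    apply sup_le _ le_sup_right
    intro g hg
    have hg' : ((S : Subgroup G) ⊓ Cfsg.pPrimePCore p G).map (MulAut.conj g).toMonoidHom
        ≤ (S : Subgroup G) := by
      have := Subgroup.mem_normalizer_iff_map_conj_eq.mp hg
      intro y hy
      have hy' : y ∈ (S : Subgroup G) ⊓ Cfsg.pPrimePCore p G := by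
        rw [← this]; exact hy
      exact (Subgroup.mem_inf.mp hy').1
    obtain ⟨n, hn, c, hcc, rfl⟩ := hfus _ inf_le_left g hg'
    have hcM : c ∈ (S : Subgroup G) ⊓ Cfsg.pPrimePCore p G ⊔ Cfsg.pPrimeCore p G := by
      rw [hsup]; exact hc hcc
    have hle : (S : Subgroup G) ⊓ Cfsg.pPrimePCore p G ⊔ Cfsg.pPrimeCore p G
        ≤ Subgroup.normalizer ((S : Subgroup G) : Set G) ⊔ Cfsg.pPrimeCore p G :=
      sup_le (inf_le_left.trans (Subgroup.le_normalizer.trans le_sup_left)) le_sup_right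
    exact Subgroup.mul_mem _ (Subgroup.mem_sup_left hn) (hle hcM)

end Cfsg.Agent.S1948
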