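import Mathlib
import Cfsg.Statements.S1952

set_option autoImplicit false
open Cfsg

namespace Cfsg.Agent.S1952

theorem fact_val (p : ℕ) (hp : p.Prime) : ((p ^ 2).factorial).factorization p = p + 1 := by
  have h1 : (p * p).factorial.factorization p = (p).factorial.factorization p + p :=
    Nat.factorization_factorial_mul hp
  have h2 : (p * 1).factorial.factorization p = (1).factorial.factorization p + 1 :=
    Nat.factorization_factorial_mul hp
  rw [mul_one] at h2
  rw [pow_two, h1, h2, Nat.factorial_one, Nat.factorization_one, Finsupp.zero_apply]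
  omega

theorem hyperplane {V : Type*} [CommGroup V] [Finite V] {p : ℕ} [hp : Fact p.Prime]
    (hexp : ∀ v : V, v ^ p = 1) (z : V) (hz : z ≠ 1) :
    ∃ B : Subgroup V, z ∉ B ∧ B.index = p := by
  obtain ⟨B, -, hB⟩ := (Set.toFinite {B : Subgroup V | z ∉ B}).exists_le_maximal (a := ⊥)
    (show (⊥ : Subgroup V) ∈ {B : Subgroup V | z ∉ B} from fun h => hz (Subgroup.mem_bot.1 h))
  have hzB : z ∉ B := hB.1
  have hmax : ∀ C : Subgroup V, z ∉ C → B ≤ C → C ≤ B := fun C hC hBC => hB.2 hC hBC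
  refine ⟨B, hzB, ?_⟩
  have htop : Subgroup.zpowers z ⊔ B = ⊤ := by
    rw [eq_top_iff]
    intro v _
    by_cases hv : v ∈ B
    · exact (le_sup_right : B ≤ Subgroup.zpowers z ⊔ B) hv
    · have hzC : z ∈ B ⊔ Subgroup.zpowers v := by
        by_contra hcon
        have hle := hmax _ hcon le_sup_left
        exact hv (hle ((le_sup_right : Subgroup.zpowers v ≤ B ⊔ Subgroup.zpowers v)
          (Subgroup.mem_zpowers v)))
      obtain ⟨b, hb, w, hw, hbw⟩ := Subgroup.mem_sup.1 hzC
      obtain ⟨k, rfl⟩ := Subgroup.mem_zpowers_iff.1 hw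
      have hvk : v ^ k ∉ B := by
        intro h
        apply hzB
        rw [← hbw]
        exact B.mul_mem hb h
      have hndvd : ¬ (p : ℤ) ∣ k := by
        rintro ⟨j, rfl⟩
        apply hvk
        rw [zpow_mul, zpow_natCast, hexp v, one_zpow]
        exact B.one_mem
      have hpZ : Prime (p : ℤ) := Nat.prime_iff_prime_int.1 hp.out
      obtain ⟨a, c, hac⟩ := hpZ.coprime_iff_not_dvd.2 hndvd
      have hv_eq : v = (v ^ k) ^ c := by
        have h1 : v ^ (a * (p : ℤ) + c * k) = v := by rw [hac, zpow_one]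
        rw [zpow_add, mul_comm a, zpow_mul, zpow_natCast, hexp v, one_zpow, one_mul, mul_comm c,
          zpow_mul] at h1
        exact h1.symm
      have hvk_eq : v ^ k = z * b⁻¹ := by
        rw [← hbw, mul_comm b, mul_inv_cancel_right]
      rw [hv_eq, hvk_eq]
      exact Subgroup.zpow_mem _ (Subgroup.mul_mem _
        ((le_sup_left : Subgroup.zpowers z ≤ Subgroup.zpowers z ⊔ B) (Subgroup.mem_zpowers z))
        ((le_sup_right : B ≤ Subgroup.zpowers z ⊔ B) (B.inv_mem hb))) c
  have h1 : B.index = B.relIndex (Subgroup.zpowers z) := by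
    rw [← Subgroup.relIndex_top_right, ← htop, Subgroup.relIndex_sup_right]
  have hcard : Nat.card (Subgroup.zpowers z) = p := by
    rw [Nat.card_zpowers]
    exact orderOf_eq_prime (hexp z) hz
  have hdvd : B.relIndex (Subgroup.zpowers z) ∣ p := by
    have h := Subgroup.relIndex_dvd_card B (Subgroup.zpowers z)
    rwa [hcard] at h
  rcases (Nat.dvd_prime hp.out).1 hdvd with h | h
  · exfalso
    exact hzB ((Subgroup.relIndex_eq_one.1 h) (Subgroup.mem_zpowers z))
  · rw [h1, h]

theorem index_lower {V : Type*} [CommGroup V] [Finite V] {p : ℕ} [hp : Fact p.Prime]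
    (hexp : ∀ v : V, v ^ p = 1) (θ : V ≃* V) (K : Subgroup V)
    (hK : ∀ k ∈ K, θ k ∈ K) (X : ZMod p → V) (hXs : ∀ i, X (i + 1) = θ (X i))
    (hv : ∏ i : ZMod p, X i ∉ K) :
    p ^ p ≤ K.index := by
  classical
  haveI : NeZero p := ⟨hp.out.ne_zero⟩
  have hpow : ∀ (w : V) (n : ℕ), w ^ (n % p) = w ^ n :=
    fun w n => (pow_eq_pow_mod n (hexp w)).symm
  obtain ⟨Ψ, hΨ⟩ : ∃ Ψ : (ZMod p → ZMod p) → V, ∀ c, Ψ c = ∏ i : ZMod p, X i ^ (c i).val :=
    ⟨fun c => ∏ i : ZMod p, X i ^ (c i).val, fun c => rfl⟩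
  have hΨadd : ∀ c c' : ZMod p → ZMod p, Ψ (c + c') = Ψ c * Ψ c' := by
    intro c c'
    rw [hΨ, hΨ, hΨ, ← Finset.prod_mul_distrib]
    refine Finset.prod_congr rfl (fun i _ => ?_)
    rw [Pi.add_apply, ZMod.val_add, hpow, pow_add]
  have hΨ0 : Ψ 0 = 1 := by
    rw [hΨ]
    simp
  have hΨneg : ∀ c : ZMod p → ZMod p, Ψ (-c) = (Ψ c)⁻¹ := by
    intro c
    apply eq_inv_of_mul_eq_one_left
    rw [← hΨadd, neg_add_cancel, hΨ0]
  have hΨσ : ∀ c : ZMod p → ZMod p, Ψ (fun i => c (i - 1)) = θ (Ψ c) := by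
    intro c
    rw [hΨ, hΨ, map_prod]
    symm
    refine Fintype.prod_equiv (Equiv.addRight (1 : ZMod p)) _ _ (fun i => ?_)
    show θ (X i ^ (c i).val) = X (i + 1) ^ (c (i + 1 - 1)).val
    rw [add_sub_cancel_right, hXs, map_pow]
  obtain ⟨L, hL⟩ : ∃ L : AddSubgroup (ZMod p → ZMod p), ∀ c, c ∈ L ↔ Ψ c ∈ K :=
    ⟨{ carrier := {c | Ψ c ∈ K}
       zero_mem' := by
         show Ψ 0 ∈ K
         rw [hΨ0]; exact K.one_mem
       add_mem' := by
         intro a b ha hb
         show Ψ (a + b) ∈ K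
         rw [hΨadd]; exact K.mul_mem ha hb
       neg_mem' := by
         intro a ha
         show Ψ (-a) ∈ K
         rw [hΨneg]; exact K.inv_mem ha }, fun c => Iff.rfl⟩
  have hLbot : L = ⊥ := by
    by_contra hne
    have hσL : ∀ c ∈ L, (fun i => c (i - 1)) ∈ L := by
      intro c hc
      rw [hL] at hc ⊢
      rw [hΨσ]; exact hK _ hc
    let f : Function.End ↥L := fun c => ⟨fun i => c.1 (i - 1), hσL c.1 c.2⟩
    have hfn : ∀ (n : ℕ) (c : ↥L), ((f ^ n) c).1 = fun i => c.1 (i - (n : ZMod p)) := by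
      intro n
      induction n with
      | zero =>
        intro c
        rw [pow_zero]
        funext i
        show c.1 i = c.1 (i - ((0 : ℕ) : ZMod p))
        rw [Nat.cast_zero, sub_zero]
      | succ n ih =>
        intro c
        have e : (f ^ (n + 1)) c = (f ^ n) (f c) := congrFun (pow_succ f n) c
        rw [e, ih (f c)]
        funext i
        show c.1 (i - (n : ZMod p) - 1) = c.1 (i - ((n + 1 : ℕ) : ZMod p))
        rw [Nat.cast_add, Nat.cast_one, sub_sub]
    have hf : f ^ p ^ 1 = 1 := by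
      funext c
      apply Subtype.ext
      rw [pow_one, hfn p c]
      funext i
      show c.1 (i - ((p : ℕ) : ZMod p)) = c.1 i
      rw [ZMod.natCast_self, sub_zero]
    haveI : Fintype ↥L := Fintype.ofFinite _
    have hmod := Equiv.Perm.card_fixedPoints_modEq (p := p) (n := 1) hf
    rw [Fintype.card_eq_nat_card, Fintype.card_eq_nat_card] at hmod
    have hcardL : p ∣ Nat.card ↥L := by
      have hdvd : Nat.card ↥L ∣ p ^ p := by
        have h := AddSubgroup.card_addSubgroup_dvd_card L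
        rwa [Nat.card_fun, Nat.card_zmod] at h
      obtain ⟨k, -, hk⟩ := (Nat.dvd_prime_pow hp.out).1 hdvd
      have hk0 : k ≠ 0 := by
        rintro rfl
        rw [pow_zero] at hk
        exact hne ((AddSubgroup.eq_bot_iff_card L).2 hk)
      rw [hk]
      exact dvd_pow_self p hk0
    have hfix0 : (0 : ↥L) ∈ Function.fixedPoints f := by
      show f 0 = 0
      apply Subtype.ext
      funext i
      rfl
    haveI : Nonempty ↥(Function.fixedPoints f) := ⟨⟨0, hfix0⟩⟩
    have hposF : 0 < Nat.card ↥(Function.fixedPoints f) := Nat.card_pos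
    have hdF : p ∣ Nat.card ↥(Function.fixedPoints f) :=
      (Nat.modEq_zero_iff_dvd).1 (hmod.symm.trans ((Nat.modEq_zero_iff_dvd).2 hcardL))
    have hcardF : 1 < Nat.card ↥(Function.fixedPoints f) :=
      lt_of_lt_of_le hp.out.one_lt (Nat.le_of_dvd hposF hdF)
    letI : Fintype ↥(Function.fixedPoints f) := Fintype.ofFinite _
    rw [Nat.card_eq_fintype_card] at hcardF
    obtain ⟨⟨c, hc⟩, hcne⟩ := Fintype.exists_ne_of_one_lt_card hcardF ⟨0, hfix0⟩
    have hc' : f c = c := hc
    have hc0 : c.1 ≠ 0 := by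
      intro h
      apply hcne
      apply Subtype.ext
      apply Subtype.ext
      exact h
    have hcσ : ∀ i, c.1 (i - 1) = c.1 i := by
      intro i
      have h := congrArg (fun d : ↥L => d.1 i) hc'
      exact h
    have hconst : ∀ n : ℕ, c.1 (n : ZMod p) = c.1 0 := by
      intro n
      induction n with
      | zero => rw [Nat.cast_zero]
      | succ n ih =>
        have h := hcσ ((n : ZMod p) + 1)
        rw [add_sub_cancel_right] at h
        rw [Nat.cast_add, Nat.cast_one, ← h, ih]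
    have hcall : ∀ i : ZMod p, c.1 i = c.1 0 := by
      intro i
      have h := hconst i.val
      rwa [ZMod.natCast_zmod_val] at h
    have hα0 : c.1 0 ≠ 0 := by
      intro h
      apply hc0
      funext i
      have h2 : c.1 i = 0 := by rw [hcall i, h]
      exact h2
    have hΨc : Ψ c.1 = (∏ i : ZMod p, X i) ^ (c.1 0).val := by
      rw [hΨ, ← Finset.prod_pow]
      refine Finset.prod_congr rfl (fun i _ => ?_)
      rw [hcall i]
    have hzK : (∏ i : ZMod p, X i) ^ (c.1 0).val ∈ K := by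
      rw [← hΨc]; exact (hL c.1).1 c.2
    have hcop : Nat.Coprime (c.1 0).val p := by
      apply Nat.Coprime.symm
      rw [Nat.Prime.coprime_iff_not_dvd hp.out]
      intro hd
      have hlt := ZMod.val_lt (c.1 0)
      have hpos : 0 < (c.1 0).val := by
        rw [Nat.pos_iff_ne_zero]
        intro h0
        exact hα0 ((ZMod.val_eq_zero _).1 h0)
      exact absurd (Nat.le_of_dvd hpos hd) (not_le.2 hlt)
    obtain ⟨m, -, hm⟩ := Nat.exists_mul_mod_eq_one_of_coprime hcop hp.out.one_lt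
    apply hv
    have e : (∏ i : ZMod p, X i) = ((∏ i : ZMod p, X i) ^ (c.1 0).val) ^ m := by
      rw [← pow_mul, ← hpow _ ((c.1 0).val * m), hm, pow_one]
    rw [e]
    exact K.pow_mem hzK m
  have hinj : Function.Injective
      (fun c : ZMod p → ZMod p => (QuotientGroup.mk (Ψ c) : V ⧸ K)) := by
    intro c c' h
    have h0 : (QuotientGroup.mk (Ψ c) : V ⧸ K) = QuotientGroup.mk (Ψ c') := h
    have h' : (Ψ c)⁻¹ * Ψ c' ∈ K := QuotientGroup.eq.1 h0
    have h2 : (c' - c) ∈ L := by
      rw [hL, sub_eq_add_neg, hΨadd, hΨneg, mul_comm]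
      exact h'
    rw [hLbot, AddSubgroup.mem_bot, sub_eq_zero] at h2
    exact h2.symm
  have hle := Nat.card_le_card_of_injective _ hinj
  rw [Nat.card_fun, Nat.card_zmod] at hle
  exact hle

open scoped IsMulCommutative in
theorem main {P : Type*} [Group P] [Finite P] {p : ℕ} [Fact p.Prime] (hP : IsPGroup p P)
    (A : Subgroup P) [A.Normal]
    (hA : Cfsg.IsElementaryAbelian p A) (hidx : A.index = p) (x y : P) (hx : x ∈ A)
    (hprod : ((List.range p).map (fun i => (y ^ i)⁻¹ * x * y ^ i)).prod ≠ 1) :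
    ∃ (Q : Sylow p (Equiv.Perm (Fin (p ^ 2))))
      (f : P →* ↥(Q : Subgroup (Equiv.Perm (Fin (p ^ 2))))), Function.Surjective f := by
  classical
  have hp : p.Prime := Fact.out
  haveI : NeZero p := ⟨hp.ne_zero⟩
  obtain ⟨hAc, hAe⟩ := hA
  haveI : IsMulCommutative ↥A := hAc
  have hexpA : ∀ v : ↥A, v ^ p = 1 := fun v => Subtype.ext (hAe v.1 v.2)
  have hypA : y ^ p ∈ A := by
    have h := A.pow_index_mem y
    rwa [hidx] at h
  obtain ⟨θ, hθdef⟩ : ∃ θ : MulAut ↥A, θ = MulAut.conjNormal y⁻¹ := ⟨_, rfl⟩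
  have hθn : ∀ (n : ℕ) (a : ↥A), (((θ ^ n) a : ↥A) : P) = (y ^ n)⁻¹ * a * y ^ n := by
    intro n a
    have h : θ ^ n = MulAut.conjNormal ((y⁻¹) ^ n) := by
      rw [hθdef]; exact (map_pow MulAut.conjNormal y⁻¹ n).symm
    rw [h, MulAut.conjNormal_apply, inv_pow, inv_inv]
  have hθ1 : ∀ a : ↥A, ((θ a : ↥A) : P) = y⁻¹ * a * y := by
    intro a
    rw [hθdef, MulAut.conjNormal_apply, inv_inv]
  have hθp : θ ^ p = 1 := by
    refine MulEquiv.ext (fun a => Subtype.ext ?_)
    rw [hθn p a]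
    show (y ^ p)⁻¹ * (a : P) * y ^ p = a
    have hc : (⟨y ^ p, hypA⟩ : ↥A) * a = a * ⟨y ^ p, hypA⟩ := mul_comm' _ _
    have hc' : y ^ p * (a : P) = a * y ^ p := congrArg Subtype.val hc
    rw [mul_assoc, ← hc', inv_mul_cancel_left]
  obtain ⟨X, hXdef⟩ : ∃ X : ZMod p → ↥A, ∀ i, X i = (θ ^ i.val) ⟨x, hx⟩ :=
    ⟨fun i => (θ ^ i.val) ⟨x, hx⟩, fun i => rfl⟩
  have h1 : (1 : ZMod p).val = 1 := by
    have h := ZMod.val_natCast_of_lt (n := p) (a := 1) hp.one_lt
    rwa [Nat.cast_one] at h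
  have hXs : ∀ i : ZMod p, X (i + 1) = θ (X i) := by
    intro i
    rw [hXdef, hXdef, ZMod.val_add, h1, ← pow_eq_pow_mod _ hθp, pow_succ', MulAut.mul_apply]
  have hθx : ∀ n : ℕ, (((θ ^ n) ⟨x, hx⟩ : ↥A) : P) = (y ^ n)⁻¹ * x * y ^ n :=
    fun n => hθn n ⟨x, hx⟩
  have hlist : ∀ m : ℕ, ((∏ n ∈ Finset.range m, (θ ^ n) ⟨x, hx⟩ : ↥A) : P)
      = ((List.range m).map (fun i => (y ^ i)⁻¹ * x * y ^ i)).prod := by
    intro m
    induction m with
    | zero => simp
    | succ m ih =>
      have e1 : ((List.range (m + 1)).map (fun i => (y ^ i)⁻¹ * x * y ^ i)).prod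
          = ((List.range m).map (fun i => (y ^ i)⁻¹ * x * y ^ i)).prod
            * ((y ^ m)⁻¹ * x * y ^ m) := by
        rw [List.range_succ, List.map_append, List.prod_append]
        simp
      rw [e1, ← ih, Finset.prod_range_succ]
      exact congrArg (fun w => ((∏ n ∈ Finset.range m, (θ ^ n) ⟨x, hx⟩ : ↥A) : P) * w) (hθx m)
  have hprodX : ((∏ i : ZMod p, X i : ↥A) : P)
      = ((List.range p).map (fun i => (y ^ i)⁻¹ * x * y ^ i)).prod := by
    have himg : (Finset.univ : Finset (ZMod p)).image ZMod.val = Finset.range p := by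
      ext n
      simp only [Finset.mem_image, Finset.mem_univ, true_and, Finset.mem_range]
      constructor
      · rintro ⟨a, rfl⟩
        exact ZMod.val_lt a
      · intro h
        exact ⟨(n : ZMod p), ZMod.val_natCast_of_lt h⟩
    have hstep : (∏ i : ZMod p, X i) = ∏ n ∈ Finset.range p, (θ ^ n) ⟨x, hx⟩ := by
      rw [← himg, Finset.prod_image (ZMod.val_injective p).injOn]
      exact Finset.prod_congr rfl (fun i _ => hXdef i)
    rw [hstep]
    exact hlist p
  have hz'ne : (∏ i : ZMod p, X i) ≠ 1 := by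
    intro h
    apply hprod
    rw [← hprodX]
    exact congrArg Subtype.val h
  obtain ⟨B', hzB', hB'idx⟩ : ∃ B' : Subgroup ↥A, (∏ i : ZMod p, X i) ∉ B' ∧ B'.index = p :=
    hyperplane hexpA _ hz'ne
  obtain ⟨B, hBdef⟩ : ∃ B : Subgroup P, B = B'.map A.subtype := ⟨_, rfl⟩
  have hBA : B ≤ A := by rw [hBdef]; exact Subgroup.map_subtype_le B'
  have hBidx : B.index = p * p := by
    rw [hBdef, Subgroup.index_map_subtype, hB'idx, hidx]
  have hKB : B.normalCore ≤ B := Subgroup.normalCore_le B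
  have hKA : B.normalCore ≤ A := hKB.trans hBA
  have hKn : B.normalCore.Normal := inferInstance
  have hzK : (∏ i : ZMod p, X i) ∉ B.normalCore.subgroupOf A := by
    intro h
    apply hzB'
    have h1 : ((∏ i : ZMod p, X i : ↥A) : P) ∈ B'.map A.subtype := by
      rw [← hBdef]; exact hKB (Subgroup.mem_subgroupOf.1 h)
    obtain ⟨b, hb, hbe⟩ := Subgroup.mem_map.1 h1
    have hbz : b = ∏ i : ZMod p, X i := Subtype.ext hbe
    rw [← hbz]; exact hb
  have hKinv : ∀ k ∈ B.normalCore.subgroupOf A, θ k ∈ B.normalCore.subgroupOf A := by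
    intro k hk
    rw [Subgroup.mem_subgroupOf] at hk ⊢
    rw [hθ1 k]
    have h := hKn.conj_mem _ hk y⁻¹
    rwa [inv_inv] at h
  have hrel : p ^ p ≤ B.normalCore.relIndex A :=
    index_lower hexpA θ (B.normalCore.subgroupOf A) hKinv X hXs hzK
  have hKidx : p ^ (p + 1) ≤ B.normalCore.index := by
    rw [← Subgroup.relIndex_mul_index hKA, hidx, pow_succ]
    exact Nat.mul_le_mul_right p hrel
  obtain ⟨φ, hφdef⟩ : ∃ φ : P →* Equiv.Perm (P ⧸ B), φ = MulAction.toPermHom P (P ⧸ B) :=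
    ⟨_, rfl⟩
  have hφker : φ.ker = B.normalCore := by
    rw [hφdef]; exact (Subgroup.normalCore_eq_ker B).symm
  have hcardQ : Nat.card (P ⧸ B) = p ^ 2 := by
    have h : Nat.card (P ⧸ B) = B.index := rfl
    rw [h, hBidx, pow_two]
  let e : (P ⧸ B) ≃ Fin (p ^ 2) := Finite.equivFinOfCardEq hcardQ
  obtain ⟨ψ, hψdef⟩ : ∃ ψ : P →* Equiv.Perm (Fin (p ^ 2)), ∀ g, ψ g = e.permCongrHom (φ g) :=
    ⟨e.permCongrHom.toMonoidHom.comp φ, fun g => rfl⟩
  have hψker : ψ.ker = B.normalCore := by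
    rw [← hφker]
    ext g
    rw [MonoidHom.mem_ker, MonoidHom.mem_ker, hψdef]
    constructor
    · intro h
      apply e.permCongrHom.injective
      rw [h, map_one]
    · intro h
      rw [h, map_one]
  have hcardR : Nat.card ψ.range = B.normalCore.index := by
    rw [← hψker, Subgroup.index_ker]
  obtain ⟨n, hn⟩ := IsPGroup.iff_card.1 hP
  have hdvd : B.normalCore.index ∣ p ^ n := by
    rw [← hn]; exact Subgroup.index_dvd_card _
  obtain ⟨m, -, hm⟩ := (Nat.dvd_prime_pow hp).1 hdvd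
  have hm1 : p + 1 ≤ m := by
    rw [hm] at hKidx
    exact (Nat.pow_le_pow_iff_right hp.one_lt).1 hKidx
  have hfact : Nat.card (Equiv.Perm (Fin (p ^ 2))) = (p ^ 2).factorial := by
    rw [Nat.card_perm, Nat.card_eq_fintype_card, Fintype.card_fin]
  have hm2 : m ≤ p + 1 := by
    have h1 : p ^ m ∣ (p ^ 2).factorial := by
      rw [← hm, ← hcardR, ← hfact]
      exact Subgroup.card_subgroup_dvd_card ψ.range
    rw [← fact_val p hp]
    exact (hp.pow_dvd_iff_le_factorization (Nat.factorial_ne_zero _)).1 h1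
  have hcard : Nat.card ψ.range
      = p ^ (Nat.card (Equiv.Perm (Fin (p ^ 2)))).factorization p := by
    rw [hfact, fact_val p hp, hcardR, hm, le_antisymm hm2 hm1]
  exact ⟨Sylow.ofCard ψ.range hcard, ψ.rangeRestrict, ψ.rangeRestrict_surjective⟩

/-- Let P be a finite p-group with a normal elementary abelian subgroup A of index p, and let x ∈ A and y ∈ P with y outside A. If the product of the p conjugates y^(-i) x y^i (i = 0, …, p−1) is not the identity, then the wreath product Z_p ≀ Z_p, realised as a Sylow p-subgroup of the symmetric group of degree p², is a homomorphic image of P. -/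
theorem result {P : Type*} [Group P] [Finite P] {p : ℕ} [Fact p.Prime] (hP : IsPGroup p P) (A : Subgroup P) [A.Normal]
    (hA : Cfsg.IsElementaryAbelian p A) (hidx : A.index = p) (x y : P) (hx : x ∈ A) (hy : y ∉ A)
    (hprod : ((List.range p).map (fun i => (y ^ i)⁻¹ * x * y ^ i)).prod ≠ 1) :
    ∃ (Q : Sylow p (Equiv.Perm (Fin (p ^ 2)))) (f : P →* ↥(Q : Subgroup (Equiv.Perm (Fin (p ^ 2))))), Function.Surjective f := by
  exact main hP A hA hidx x y hx hprod

end Cfsg.Agent.S1952
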