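import Cfsg.Statements.S1954
import Cfsg.Agent.Lib.Helper33.SecBase

set_option autoImplicit false
open Cfsg

namespace Cfsg.Agent.S1954

open Cfsg.Agent.Lib.Helper33.Conj
open Cfsg.Agent.Lib.Helper33.Control2
open Cfsg.Agent.Lib.Helper33.GenLocal
open Cfsg.Agent.Lib.Helper33.SecBase
open scoped Pointwise

section Aux

variable {G : Type*} [Group G]

theorem good_goodRel (L S : Subgroup G) : GoodRel S (Good L) where
  one := Good.one L
  trans := Good.trans
  mono := by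
    rintro A B h ⟨x, hx, e⟩ hBA
    exact ⟨x, hx, fun a ha => e a (hBA ha)⟩
  symm := by
    rintro A h ⟨x, hx, e⟩ -
    refine ⟨x⁻¹, L.inv_mem hx, ?_⟩
    rintro _ ⟨a, ha, rfl⟩
    have h1 := e a ha
    show x⁻¹ * (h * a * h⁻¹) * x⁻¹⁻¹ = h⁻¹ * (h * a * h⁻¹) * h⁻¹⁻¹
    calc x⁻¹ * (h * a * h⁻¹) * x⁻¹⁻¹ = x⁻¹ * (x * a * x⁻¹) * x⁻¹⁻¹ := by rw [h1]
      _ = a := by group
      _ = h⁻¹ * (h * a * h⁻¹) * h⁻¹⁻¹ := by group
  bot := fun hA y => Good.of_subset_bot hA y

theorem normalizer_sup_le (A B : Subgroup G) :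
    Subgroup.normalizer (A : Set G) ⊓ Subgroup.normalizer (B : Set G) ≤
      Subgroup.normalizer ((A ⊔ B : Subgroup G) : Set G) := by
  intro g hg
  rw [mem_normalizer_iff_cj_eq, Subgroup.map_sup, cj_eq_of_mem_normalizer hg.1,
    cj_eq_of_mem_normalizer hg.2]

theorem conj_mem_of_mem_normalizer' {T : Subgroup G} {y a : G}
    (hy : y ∈ Subgroup.normalizer (T : Set G)) (ha : a ∈ T) : y * a * y⁻¹ ∈ T :=
  (Subgroup.mem_normalizer_iff.mp hy a).mp ha

theorem pow_mul_mem {A C : Subgroup G} (hAC : A ≤ Subgroup.normalizer (C : Set G)) {w c : G}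
    (hw : w ∈ A) (hc : c ∈ C) (j : ℕ) : ∃ c' ∈ C, (w * c) ^ j = w ^ j * c' := by
  induction j with
  | zero => exact ⟨1, C.one_mem, by simp⟩
  | succ j ih =>
    obtain ⟨c', hc', e⟩ := ih
    refine ⟨w⁻¹ * c' * w⁻¹⁻¹ * c, C.mul_mem ?_ hc, ?_⟩
    · exact conj_mem_of_mem_normalizer' (Subgroup.inv_mem _ (hAC hw)) hc'
    · rw [pow_succ, e, pow_succ]
      group

theorem conj_pow_eq' {d r z : G} (hz : d * r * d⁻¹ = z * r) (hdz : d * z = z * d) (j : ℕ) :
    d ^ j * r * (d ^ j)⁻¹ = z ^ j * r := by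
  induction j with
  | zero => simp
  | succ j ih =>
    have hc : d * z ^ j = z ^ j * d := by
      have : Commute d z := hdz
      exact (this.pow_right j).eq
    calc d ^ (j + 1) * r * (d ^ (j + 1))⁻¹ = d * (d ^ j * r * (d ^ j)⁻¹) * d⁻¹ := by
          rw [pow_succ']; group
      _ = d * (z ^ j * r) * d⁻¹ := by rw [ih]
      _ = (d * z ^ j) * r * d⁻¹ := by group
      _ = (z ^ j * d) * r * d⁻¹ := by rw [hc]
      _ = z ^ j * (d * r * d⁻¹) := by group
      _ = z ^ j * (z * r) := by rw [hz]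
      _ = z ^ (j + 1) * r := by rw [pow_succ]; group

end Aux

/-- Let N be a normal subgroup of the finite group G, P a Sylow p-subgroup of G, and V a subgroup of P ∩ N normal in P ∩ N such that N_N(V) controls strong fusion in P ∩ N with respect to N (whenever a subgroup A of P ∩ N has n A n⁻¹ ≤ P ∩ N for some n in N, then n = h c with h in N_N(V) and c in C_N(A)). Let W be the subgroup generated by the conjugates of V under N_G(P ∩ N). Then N_G(W) controls strong fusion in P with respect to G. -/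
theorem result {G : Type*} [Group G] [Finite G] {p : ℕ} [Fact p.Prime] (N : Subgroup G) [N.Normal] (P : Sylow p G) (V : Subgroup G)
    (hV : V ≤ (P : Subgroup G) ⊓ N) (hVn : ∀ x ∈ (P : Subgroup G) ⊓ N, V.map (MulAut.conj x).toMonoidHom = V)
    (hctrl : ∀ A : Subgroup G, A ≤ (P : Subgroup G) ⊓ N → ∀ n ∈ N, A.map (MulAut.conj n).toMonoidHom ≤ (P : Subgroup G) ⊓ N →
      ∃ h ∈ N ⊓ Subgroup.normalizer (V : Set G), ∃ c ∈ N ⊓ Subgroup.centralizer (A : Set G), n = h * c)
    (W : Subgroup G) (hW : W = Subgroup.closure (⋃ x ∈ Subgroup.normalizer (((P : Subgroup G) ⊓ N : Subgroup G) : Set G),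
      ((V.map (MulAut.conj x).toMonoidHom : Subgroup G) : Set G))) :
    ∀ A : Subgroup G, A ≤ (P : Subgroup G) → ∀ g : G, A.map (MulAut.conj g).toMonoidHom ≤ (P : Subgroup G) →
        ∃ h ∈ Subgroup.normalizer (W : Set G), ∃ c ∈ Subgroup.centralizer (A : Set G), g = h * c := by
  classical
  obtain ⟨Q, hQdef⟩ : ∃ Q : Subgroup G, Q = (P : Subgroup G) ⊓ N := ⟨_, rfl⟩
  rw [← hQdef] at hV hVn hctrl hW
  obtain ⟨M, hMdef⟩ : ∃ M : Subgroup G, M = Subgroup.normalizer (Q : Set G) := ⟨_, rfl⟩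
  rw [← hMdef] at hW
  have hNtop : ∀ g : G, g ∈ Subgroup.normalizer (N : Set G) := fun g => by
    rw [Subgroup.normalizer_eq_top]; trivial
  have hQP : Q ≤ (P : Subgroup G) := hQdef ▸ inf_le_left
  have hQN : Q ≤ N := hQdef ▸ inf_le_right
  have hMmem : ∀ m ∈ M, m ∈ Subgroup.normalizer (Q : Set G) := fun m hm => by
    rw [hMdef] at hm; exact hm
  have hMQ : ∀ m ∈ M, Q.map (MulAut.conj m).toMonoidHom = Q := fun m hm =>
    cj_eq_of_mem_normalizer (hMmem m hm)
  -- conjugates of V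
  have hVm_le : ∀ m ∈ M, V.map (MulAut.conj m).toMonoidHom ≤ Q := by
    intro m hm
    have h1 : V.map (MulAut.conj m).toMonoidHom ≤ Q.map (MulAut.conj m).toMonoidHom :=
      cj_mono hV
    rwa [hMQ m hm] at h1
  have hVmW : ∀ m ∈ M, V.map (MulAut.conj m).toMonoidHom ≤ W := by
    intro m hm
    rw [hW]
    intro v hv
    apply Subgroup.subset_closure
    exact Set.mem_iUnion₂.mpr ⟨m, hm, hv⟩
  have hWQ : W ≤ Q := by
    rw [hW, Subgroup.closure_le]
    intro v hv
    obtain ⟨m, hm, hv⟩ := Set.mem_iUnion₂.mp hv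
    exact hVm_le m hm hv
  -- an element normalizing all conjugates of V normalizes W
  have hnormW : ∀ h : G, (∀ m ∈ M, ∃ m' ∈ M, ∀ v ∈ V.map (MulAut.conj m).toMonoidHom,
      h * v * h⁻¹ ∈ V.map (MulAut.conj m').toMonoidHom) → h ∈ Subgroup.normalizer (W : Set G) := by
    intro h hh
    apply mem_normalizer_of_forall_conj_mem
    intro v hv
    rw [hW] at hv
    induction hv using Subgroup.closure_induction with
    | mem v hv =>
      obtain ⟨m, hm, hv⟩ := Set.mem_iUnion₂.mp hv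
      obtain ⟨m', hm', h2⟩ := hh m hm
      exact hVmW m' hm' (h2 v hv)
    | one => simp
    | mul a b _ _ ha hb =>
      have e : h * (a * b) * h⁻¹ = (h * a * h⁻¹) * (h * b * h⁻¹) := by group
      rw [e]; exact W.mul_mem ha hb
    | inv a _ ha =>
      have e : h * a⁻¹ * h⁻¹ = (h * a * h⁻¹)⁻¹ := by group
      rw [e]; exact W.inv_mem ha
  have hMW : M ≤ Subgroup.normalizer (W : Set G) := by
    intro m hm
    apply hnormW
    intro m₁ hm₁
    refine ⟨m * m₁, M.mul_mem hm hm₁, ?_⟩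
    intro v hv
    rw [← cj_cj]
    exact conj_mem_cj hv
  have hPM : (P : Subgroup G) ≤ M := by
    intro s hs
    rw [hMdef, hQdef]
    exact normalizer_inf_le _ _ ⟨Subgroup.le_normalizer hs, hNtop s⟩
  -- control by the normalizer of each conjugate of V
  have hctl_m : ∀ m ∈ M, ∀ A : Subgroup G, A ≤ Q → ∀ n ∈ N,
      A.map (MulAut.conj n).toMonoidHom ≤ Q →
      ∃ h ∈ N, h ∈ Subgroup.normalizer ((V.map (MulAut.conj m).toMonoidHom : Subgroup G) : Set G) ∧
        ∃ c ∈ N ⊓ Subgroup.centralizer (A : Set G), n = h * c := by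
    intro m hm A hA n hn hAn
    have hm' : m⁻¹ ∈ M := M.inv_mem hm
    have hA' : A.map (MulAut.conj m⁻¹).toMonoidHom ≤ Q := by
      have h1 : A.map (MulAut.conj m⁻¹).toMonoidHom ≤ Q.map (MulAut.conj m⁻¹).toMonoidHom :=
        cj_mono hA
      rwa [hMQ _ hm'] at h1
    have hn' : m⁻¹ * n * m ∈ N := by
      have := ‹N.Normal›.conj_mem n hn m⁻¹
      simpa using this
    have hAn' : (A.map (MulAut.conj m⁻¹).toMonoidHom).map (MulAut.conj (m⁻¹ * n * m)).toMonoidHom
        ≤ Q := by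
      rw [cj_cj]
      have e : m⁻¹ * n * m * m⁻¹ = m⁻¹ * n := by group
      rw [e, ← cj_cj]
      have h1 : (A.map (MulAut.conj n).toMonoidHom).map (MulAut.conj m⁻¹).toMonoidHom ≤
          Q.map (MulAut.conj m⁻¹).toMonoidHom := cj_mono hAn
      rwa [hMQ _ hm'] at h1
    obtain ⟨h', hh', c', hc', e⟩ := hctrl _ hA' _ hn' hAn'
    refine ⟨m * h' * m⁻¹, ‹N.Normal›.conj_mem h' hh'.1 m, ?_, m * c' * m⁻¹,
      ⟨‹N.Normal›.conj_mem c' hc'.1 m, ?_⟩, ?_⟩
    · rw [normalizer_cj]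
      exact conj_mem_cj hh'.2
    · have h1 : m * c' * m⁻¹ ∈ (Subgroup.centralizer
          ((A.map (MulAut.conj m⁻¹).toMonoidHom : Subgroup G) : Set G)).map
          (MulAut.conj m).toMonoidHom := conj_mem_cj hc'.2
      rw [← centralizer_cj, cj_cj] at h1
      simpa [cj_one] using h1
    · have e2 : n = m * (m⁻¹ * n * m) * m⁻¹ := by group
      rw [e2, e]
      group
  -- control by the intersection of finitely many of these normalizers
  have hfin : ∀ F : Finset G, (∀ m ∈ F, m ∈ M) → ∀ A : Subgroup G, A ≤ Q → ∀ n ∈ N,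
      A.map (MulAut.conj n).toMonoidHom ≤ Q →
      ∃ h ∈ N, (∀ m ∈ F, h ∈ Subgroup.normalizer
          ((V.map (MulAut.conj m).toMonoidHom : Subgroup G) : Set G)) ∧
        ∃ c ∈ N ⊓ Subgroup.centralizer (A : Set G), n = h * c := by
    intro F
    induction F using Finset.induction_on with
    | empty =>
      intro _ A hA n hn hAn
      exact ⟨n, hn, by simp, 1, Subgroup.one_mem _, by simp⟩
    | insert m₀ F hm₀ ih =>
      intro hF A hA n hn hAn
      have hm₀M : m₀ ∈ M := hF m₀ (Finset.mem_insert_self _ _)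
      obtain ⟨h, hhN, hh, c, hc, e⟩ := hctl_m m₀ hm₀M A hA n hn hAn
      have hAh : (A ⊔ V.map (MulAut.conj m₀).toMonoidHom).map (MulAut.conj h).toMonoidHom ≤ Q := by
        rw [Subgroup.map_sup, cj_eq_of_mem_normalizer hh]
        refine sup_le ?_ (hVm_le m₀ hm₀M)
        rintro _ ⟨a, ha, rfl⟩
        have h1 : n * a * n⁻¹ ∈ Q := hAn (conj_mem_cj ha)
        have hca : a * c = c * a := Subgroup.mem_centralizer_iff.mp hc.2 a ha
        have e2 : n * a * n⁻¹ = h * a * h⁻¹ := by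
          rw [e]
          calc h * c * a * (h * c)⁻¹ = h * (c * a) * c⁻¹ * h⁻¹ := by group
            _ = h * (a * c) * c⁻¹ * h⁻¹ := by rw [hca]
            _ = h * a * h⁻¹ := by group
        rw [e2] at h1
        simpa [MulAut.conj_apply] using h1
      obtain ⟨h₂, hh₂N, hh₂, c₂, hc₂, e₂⟩ := ih (fun m hm => hF m (Finset.mem_insert_of_mem hm))
        (A ⊔ V.map (MulAut.conj m₀).toMonoidHom) (sup_le hA (hVm_le m₀ hm₀M)) h hhN hAh
      have hc₂A : c₂ ∈ Subgroup.centralizer (A : Set G) :=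
        Subgroup.centralizer_le (SetLike.coe_subset_coe.mpr le_sup_left) hc₂.2
      have hc₂V : c₂ ∈ Subgroup.centralizer
          ((V.map (MulAut.conj m₀).toMonoidHom : Subgroup G) : Set G) :=
        Subgroup.centralizer_le (SetLike.coe_subset_coe.mpr le_sup_right) hc₂.2
      refine ⟨h₂, hh₂N, ?_, c₂ * c, ⟨N.mul_mem hc₂.1 hc.1, Subgroup.mul_mem _ hc₂A hc.2⟩, ?_⟩
      · intro m hm
        rcases Finset.mem_insert.mp hm with rfl | hm
        · have e3 : h₂ = h * c₂⁻¹ := by rw [e₂]; group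
          rw [e3]
          exact Subgroup.mul_mem _ hh (Subgroup.inv_mem _ (Subgroup.centralizer_le_normalizer _ hc₂V))
        · exact hh₂ m hm
      · rw [e, e₂]; group
  -- control in N by N ∩ N(W)
  have hSN : ∀ A : Subgroup G, A ≤ Q → ∀ n ∈ N, A.map (MulAut.conj n).toMonoidHom ≤ Q →
      ∃ h ∈ N, h ∈ Subgroup.normalizer (W : Set G) ∧
        ∃ c ∈ N ⊓ Subgroup.centralizer (A : Set G), n = h * c := by
    intro A hA n hn hAn
    obtain ⟨h, hhN, hh, c, hc, e⟩ := hfin (Set.toFinite (M : Set G)).toFinset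
      (fun m hm => (Set.Finite.mem_toFinset _).mp hm) A hA n hn hAn
    refine ⟨h, hhN, ?_, c, hc, e⟩
    apply hnormW
    intro m hm
    refine ⟨m, hm, fun v hv => ?_⟩
    exact conj_mem_of_mem_normalizer' (hh m ((Set.Finite.mem_toFinset _).mpr hm)) hv
  -- control in G of fusion inside Q by N(W)
  have hsylQ : IsSylIn p Q N := by
    rw [hQdef]
    exact isSylIn_inf_normal (isSylIn_of_sylow P le_top) le_top (fun g _ => hNtop g)
  have hSG : ∀ A : Subgroup G, A ≤ Q → ∀ g : G, A.map (MulAut.conj g).toMonoidHom ≤ Q →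
      ∃ h ∈ Subgroup.normalizer (W : Set G), ∃ c ∈ Subgroup.centralizer (A : Set G), g = h * c := by
    intro A hA g hAg
    obtain ⟨k, hk, hkg⟩ := frattini_rel hsylQ (hNtop g)
    have hmM : k * g ∈ M := by rw [hMdef]; exact hkg
    have hmM' : (k * g)⁻¹ ∈ M := M.inv_mem hmM
    have hn' : (k * g)⁻¹ * k⁻¹ * (k * g) ∈ N := by
      have := ‹N.Normal›.conj_mem k⁻¹ (N.inv_mem hk) (k * g)⁻¹
      simpa using this
    have hAn' : A.map (MulAut.conj ((k * g)⁻¹ * k⁻¹ * (k * g))).toMonoidHom ≤ Q := by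
      have e : (k * g)⁻¹ * k⁻¹ * (k * g) = (k * g)⁻¹ * g := by group
      rw [e, ← cj_cj]
      have h1 : (A.map (MulAut.conj g).toMonoidHom).map (MulAut.conj (k * g)⁻¹).toMonoidHom ≤
          Q.map (MulAut.conj (k * g)⁻¹).toMonoidHom := cj_mono hAg
      rwa [hMQ _ hmM'] at h1
    obtain ⟨h, -, hh, c, hc, e⟩ := hSN A hA _ hn' hAn'
    refine ⟨k * g * h, Subgroup.mul_mem _ (hMW hmM) hh, c, hc.2, ?_⟩
    have e2 : g = (k * g) * ((k * g)⁻¹ * k⁻¹ * (k * g)) := by group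
    calc g = (k * g) * ((k * g)⁻¹ * k⁻¹ * (k * g)) := e2
      _ = k * g * (h * c) := by rw [e]
      _ = k * g * h * c := by group
  -- the main local-to-global argument
  obtain ⟨L, hLdef⟩ : ∃ L : Subgroup G, L = Subgroup.normalizer (W : Set G) := ⟨_, rfl⟩
  have hLmem : ∀ x, x ∈ Subgroup.normalizer (W : Set G) → x ∈ L := fun x hx => by
    rw [hLdef]; exact hx
  have hWP : W ≤ (P : Subgroup G) := hWQ.trans hQP
  have hWN : W ≤ N := hWQ.trans hQN
  have hPW : (P : Subgroup G) ≤ Subgroup.normalizer (W : Set G) := hPM.trans hMW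
  have hPcard : ∀ z ∈ (P : Subgroup G), z ^ Nat.card (P : Subgroup G) = 1 := by
    intro z hz
    have h1 : (⟨z, hz⟩ : (P : Subgroup G)) ^ Nat.card (P : Subgroup G) = 1 := pow_card_eq_one'
    exact congrArg Subtype.val h1
  obtain ⟨e₀, he₀⟩ := (IsPGroup.iff_card).mp P.2
  have hmain : ∀ (A : Set G) (g : G), A ⊆ ((P : Subgroup G) : Set G) →
      (fun a => g * a * g⁻¹) '' A ⊆ ((P : Subgroup G) : Set G) → Good L A g := by
    intro A g hA hAg
    apply good_of_fn_step P (good_goodRel L (P : Subgroup G)) _ A g hA hAg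
    intro T hT hTfn hbig x hx
    by_cases hWT : W ≤ T
    · -- x normalizes W
      have hWx : W.map (MulAut.conj x).toMonoidHom ≤ Q := by
        rw [hQdef]
        refine le_inf ?_ ?_
        · have h1 : W.map (MulAut.conj x).toMonoidHom ≤ T.map (MulAut.conj x).toMonoidHom :=
            cj_mono hWT
          rw [cj_eq_of_mem_normalizer hx] at h1
          exact h1.trans hT
        · have h1 : W.map (MulAut.conj x).toMonoidHom ≤ N.map (MulAut.conj x).toMonoidHom :=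
            cj_mono hWN
          rwa [cj_eq_of_mem_normalizer (hNtop x)] at h1
      obtain ⟨h, hh, c, hc, e⟩ := hSG W hWQ x hWx
      have hxL : x ∈ L := by
        apply hLmem
        rw [e]
        exact Subgroup.mul_mem _ hh (Subgroup.centralizer_le_normalizer _ hc)
      exact ⟨x, hxL, fun _ _ => rfl⟩
    · obtain ⟨T₀, hT₀def⟩ : ∃ T₀ : Subgroup G, T₀ = T ⊓ N := ⟨_, rfl⟩
      obtain ⟨NT, hNTdef⟩ : ∃ NT : Subgroup G, NT = Subgroup.normalizer (T : Set G) := ⟨_, rfl⟩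
      obtain ⟨NT₀, hNT₀def⟩ : ∃ NT₀ : Subgroup G, NT₀ = Subgroup.normalizer (T₀ : Set G) :=
        ⟨_, rfl⟩
      obtain ⟨CT, hCTdef⟩ : ∃ CT : Subgroup G, CT = Subgroup.centralizer (T : Set G) := ⟨_, rfl⟩
      obtain ⟨CT₀, hCT₀def⟩ : ∃ CT₀ : Subgroup G, CT₀ = Subgroup.centralizer (T₀ : Set G) :=
        ⟨_, rfl⟩
      have hT₀T : T₀ ≤ T := hT₀def ▸ inf_le_left
      have hT₀N : T₀ ≤ N := hT₀def ▸ inf_le_right
      have hT₀Q : T₀ ≤ Q := by
        rw [hQdef]; exact le_inf (hT₀T.trans hT) hT₀N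
      have hNT_le : NT ≤ NT₀ := by
        intro y hy
        rw [hNT₀def, hT₀def]
        rw [hNTdef] at hy
        exact normalizer_inf_le _ _ ⟨hy, hNtop y⟩
      have hCT₀_le : CT₀ ≤ NT₀ := by
        rw [hCT₀def, hNT₀def]; exact Subgroup.centralizer_le_normalizer _
      have hCT_le : CT ≤ NT := by
        rw [hCTdef, hNTdef]; exact Subgroup.centralizer_le_normalizer _
      have hNT₀_CT₀ : NT₀ ≤ Subgroup.normalizer (CT₀ : Set G) := by
        rw [hNT₀def, hCT₀def]; exact normalizer_le_normalizer_centralizer T₀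
      have hNT_CT : NT ≤ Subgroup.normalizer (CT : Set G) := by
        rw [hNTdef, hCTdef]; exact normalizer_le_normalizer_centralizer T
      obtain ⟨Z₀, hZ₀def⟩ : ∃ Z₀ : Subgroup G, Z₀ = (W ⊓ NT₀) ⊔ CT₀ := ⟨_, rfl⟩
      have hZ₀norm : ∀ y ∈ NT₀, y ∈ Subgroup.normalizer (Z₀ : Set G) := by
        intro y hy
        have hy' : y ∈ Subgroup.normalizer (T₀ : Set G) := by rw [hNT₀def] at hy; exact hy
        have hT₀y : T₀.map (MulAut.conj y).toMonoidHom ≤ Q := by
          rw [cj_eq_of_mem_normalizer hy']; exact hT₀Q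
        obtain ⟨h, hh, c, hc, e⟩ := hSG T₀ hT₀Q y hT₀y
        have hcC : c ∈ CT₀ := by rw [hCT₀def]; exact hc
        have hhN : h ∈ NT₀ := by
          have e3 : h = y * c⁻¹ := by rw [e]; group
          rw [e3]
          exact NT₀.mul_mem hy (NT₀.inv_mem (hCT₀_le hcC))
        have h1 : h ∈ Subgroup.normalizer (Z₀ : Set G) := by
          rw [hZ₀def]
          apply normalizer_sup_le
          refine ⟨normalizer_inf_le _ _ ⟨hh, Subgroup.le_normalizer hhN⟩, hNT₀_CT₀ hhN⟩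
        have h2 : c ∈ Subgroup.normalizer (Z₀ : Set G) := by
          apply Subgroup.le_normalizer
          rw [hZ₀def]
          exact Subgroup.mem_sup_right hcC
        rw [e]
        exact Subgroup.mul_mem _ h1 h2
      obtain ⟨D, hDdef⟩ : ∃ D : Subgroup G, D = NT ⊓ N ⊓ Z₀ := ⟨_, rfl⟩
      have hDNT : D ≤ NT := hDdef ▸ inf_le_left.trans inf_le_left
      have hDn : NT ≤ Subgroup.normalizer (D : Set G) := by
        intro y hy
        rw [hDdef]
        exact normalizer_inf_le _ _ ⟨normalizer_inf_le _ _ ⟨Subgroup.le_normalizer hy, hNtop y⟩,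
          hZ₀norm y (hNT_le hy)⟩
      have hDM : ∀ d ∈ D, ∃ k : ℕ, d ^ (p ^ k) ∈ CT := by
        intro d hd
        rw [hDdef] at hd
        obtain ⟨⟨hdNT, hdN⟩, hdZ⟩ := hd
        have hWn : W ⊓ NT₀ ≤ Subgroup.normalizer (CT₀ : Set G) := inf_le_right.trans hNT₀_CT₀
        have hcoe : ((W ⊓ NT₀ ⊔ CT₀ : Subgroup G) : Set G) = ((W ⊓ NT₀ : Subgroup G) : Set G) *
            (CT₀ : Set G) := Subgroup.coe_mul_of_left_le_normalizer_right _ _ hWn
        obtain ⟨w, hw, c, hc, hwc⟩ : d ∈ ((W ⊓ NT₀ : Subgroup G) : Set G) * (CT₀ : Set G) := by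
          rw [← hcoe, ← hZ₀def]; exact hdZ
        obtain ⟨c', hc', e⟩ := pow_mul_mem hWn hw hc (p ^ e₀)
        have hw1 : w ^ (p ^ e₀) = 1 := by
          rw [← he₀]; exact hPcard w (hWP hw.1)
        have hd1 : d ^ (p ^ e₀) ∈ CT₀ := by
          have hwc' : d = w * c := hwc.symm
          rw [hwc', e, hw1, one_mul]; exact hc'
        refine ⟨e₀ + e₀, ?_⟩
        rw [pow_add, pow_mul]
        have hd1NT : d ^ (p ^ e₀) ∈ Subgroup.normalizer (T : Set G) := by
          rw [← hNTdef]; exact NT.pow_mem hdNT _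
        have hd1N : d ^ (p ^ e₀) ∈ N := N.pow_mem hdN _
        generalize d ^ (p ^ e₀) = d₁ at hd1 hd1NT hd1N
        rw [hCTdef, Subgroup.mem_centralizer_iff]
        intro r hr
        have hzT : d₁ * r * d₁⁻¹ * r⁻¹ ∈ T :=
          T.mul_mem (conj_mem_of_mem_normalizer' hd1NT hr) (T.inv_mem hr)
        have hzN : d₁ * r * d₁⁻¹ * r⁻¹ ∈ N := by
          have h1 : r * d₁⁻¹ * r⁻¹ ∈ N := ‹N.Normal›.conj_mem _ (N.inv_mem hd1N) r
          have e1 : d₁ * r * d₁⁻¹ * r⁻¹ = d₁ * (r * d₁⁻¹ * r⁻¹) := by group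
          rw [e1]; exact N.mul_mem hd1N h1
        have hzT₀ : d₁ * r * d₁⁻¹ * r⁻¹ ∈ T₀ := by rw [hT₀def]; exact ⟨hzT, hzN⟩
        have hdz : d₁ * (d₁ * r * d₁⁻¹ * r⁻¹) = (d₁ * r * d₁⁻¹ * r⁻¹) * d₁ := by
          rw [hCT₀def] at hd1
          exact (Subgroup.mem_centralizer_iff.mp hd1 _ hzT₀).symm
        have hz : d₁ * r * d₁⁻¹ = (d₁ * r * d₁⁻¹ * r⁻¹) * r := by group
        have h2 := conj_pow_eq' hz hdz (p ^ e₀)
        have h3 : (d₁ * r * d₁⁻¹ * r⁻¹) ^ (p ^ e₀) = 1 := by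
          rw [← he₀]; exact hPcard _ (hT hzT)
        rw [h3, one_mul] at h2
        calc r * d₁ ^ p ^ e₀ = (d₁ ^ p ^ e₀ * r * (d₁ ^ p ^ e₀)⁻¹) * d₁ ^ p ^ e₀ := by rw [h2]
          _ = d₁ ^ p ^ e₀ * r := by group
      have hsylNT : IsSylIn p ((P : Subgroup G) ⊓ NT) NT := by
        rw [hNTdef]; exact ⟨inf_le_right, P.2.to_inf_left, hTfn⟩
      have hDdecomp := exists_mul_of_pquot hsylNT hNT_CT hDNT hDn hDM
      obtain ⟨B, hBdef⟩ : ∃ B : Subgroup G, B = ((P : Subgroup G) ⊓ NT) ⊔ CT := ⟨_, rfl⟩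
      have hBNT : B ≤ NT := by
        rw [hBdef]; exact sup_le inf_le_right hCT_le
      have hDB : D ≤ B := by
        intro d hd
        obtain ⟨r, hr, m, hm, e⟩ := hDdecomp d hd
        rw [e, hBdef]
        exact Subgroup.mul_mem _ (Subgroup.mem_sup_left hr) (Subgroup.mem_sup_right hm)
      have hsylB : IsSylIn p ((P : Subgroup G) ⊓ NT) B := by
        refine ⟨hBdef ▸ le_sup_left, hsylNT.2.1, fun hdvd => hsylNT.2.2 ?_⟩
        rw [← Subgroup.relIndex_mul_relIndex _ B NT (hBdef ▸ le_sup_left) hBNT]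
        exact Dvd.dvd.mul_right hdvd _
      obtain ⟨R₁, hR₁def⟩ : ∃ R₁ : Subgroup G, R₁ = T ⊔ (W ⊓ NT) := ⟨_, rfl⟩
      have hxNT : x ∈ NT := by rw [hNTdef]; exact hx
      have hTNT : T ≤ NT := by rw [hNTdef]; exact Subgroup.le_normalizer
      have hR₁P : R₁ ≤ (P : Subgroup G) := by
        rw [hR₁def]; exact sup_le hT (inf_le_left.trans hWP)
      have hR₁x : R₁.map (MulAut.conj x).toMonoidHom ≤ B := by
        rw [hR₁def, Subgroup.map_sup, cj_eq_of_mem_normalizer hx]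
        refine sup_le ?_ ?_
        · rw [hBdef]; exact le_sup_of_le_left (le_inf hT hTNT)
        · refine le_trans ?_ hDB
          rintro _ ⟨w, hw, rfl⟩
          show x * w * x⁻¹ ∈ D
          rw [hDdef]
          refine ⟨⟨NT.mul_mem (NT.mul_mem hxNT hw.2) (NT.inv_mem hxNT),
            ‹N.Normal›.conj_mem w (hWN hw.1) x⟩, ?_⟩
          apply conj_mem_of_mem_normalizer' (hZ₀norm x (hNT_le hxNT))
          rw [hZ₀def]
          exact Subgroup.mem_sup_left ⟨hw.1, hNT_le hw.2⟩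
      obtain ⟨b, hb, hble⟩ := hsylB.exists_cj_le hR₁x (isPGroup_cj x (P.2.to_le hR₁P))
      have hPn : (P : Subgroup G) ⊓ NT ≤ Subgroup.normalizer (CT : Set G) := inf_le_right.trans hNT_CT
      have hcoeB : ((((P : Subgroup G) ⊓ NT) ⊔ CT : Subgroup G) : Set G) =
          (((P : Subgroup G) ⊓ NT : Subgroup G) : Set G) * (CT : Set G) :=
        Subgroup.coe_mul_of_left_le_normalizer_right _ _ hPn
      obtain ⟨s, hs, c, hc, hsc⟩ : b ∈ (((P : Subgroup G) ⊓ NT : Subgroup G) : Set G) *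
          (CT : Set G) := by
        rw [← hcoeB, ← hBdef]; exact hb
      have hmap : R₁.map (MulAut.conj (c * x)).toMonoidHom ≤ (P : Subgroup G) := by
        rintro _ ⟨a, ha, rfl⟩
        show c * x * a * (c * x)⁻¹ ∈ (P : Subgroup G)
        have h1 : b * (x * a * x⁻¹) * b⁻¹ ∈ (P : Subgroup G) ⊓ NT :=
          hble (conj_mem_cj (conj_mem_cj ha))
        have hsc' : b = s * c := hsc.symm
        have e1 : c * x * a * (c * x)⁻¹ = s⁻¹ * (b * (x * a * x⁻¹) * b⁻¹) * s := by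
          rw [hsc']; group
        rw [e1]
        exact Subgroup.mul_mem _ (Subgroup.mul_mem _ (Subgroup.inv_mem _ hs.1) h1.1) hs.1
      have hlt : T < R₁ := by
        rw [hR₁def]
        refine lt_of_le_of_ne le_sup_left (fun heq => hWT ?_)
        apply le_of_normalizer_inf_le P hT hWP hPW
        intro y hy
        have : y ∈ T ⊔ W ⊓ NT := Subgroup.mem_sup_right ⟨hy.2, by rw [hNTdef]; exact hy.1⟩
        rw [← heq] at this
        exact this
      obtain ⟨l, hl, e⟩ := hbig R₁ hR₁P (card_lt_card_of_lt' hlt) (c * x) hmap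
      refine ⟨l, hl, fun a ha => ?_⟩
      have h1 := e a (by rw [hR₁def]; exact Subgroup.mem_sup_left ha)
      rw [h1]
      have hxa : x * a * x⁻¹ ∈ T := conj_mem_of_mem_normalizer' hx ha
      have hcomm : (x * a * x⁻¹) * c = c * (x * a * x⁻¹) := by
        rw [hCTdef] at hc
        exact Subgroup.mem_centralizer_iff.mp hc _ hxa
      calc c * x * a * (c * x)⁻¹ = (c * (x * a * x⁻¹)) * c⁻¹ := by group
        _ = ((x * a * x⁻¹) * c) * c⁻¹ := by rw [hcomm]
        _ = x * a * x⁻¹ := by group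
  intro A hA g hAg
  have hAg' : (fun a => g * a * g⁻¹) '' (A : Set G) ⊆ ((P : Subgroup G) : Set G) := by
    rintro _ ⟨a, ha, rfl⟩
    exact hAg (conj_mem_cj ha)
  obtain ⟨l, hl, e⟩ := hmain (A : Set G) g hA hAg'
  refine ⟨l, by rw [← hLdef]; exact hl, l⁻¹ * g, ?_, by group⟩
  rw [Subgroup.mem_centralizer_iff]
  intro a ha
  have h1 := e a ha
  calc a * (l⁻¹ * g) = l⁻¹ * (l * a * l⁻¹) * g := by group
    _ = l⁻¹ * (g * a * g⁻¹) * g := by rw [h1]
    _ = l⁻¹ * g * a := by group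

end Cfsg.Agent.S1954
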