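import Cfsg.Statements.S2002
import Cfsg.Agent.Lib.Helper34.GoodFus
import Cfsg.Agent.Lib.Helper34.SylIn2
import Cfsg.Agent.Lib.Helper32.SylowRel

set_option autoImplicit false
open Cfsg

namespace Cfsg.Agent.S2002

open Cfsg.Agent.Lib.Helper34.Alperin Cfsg.Agent.Lib.Helper34.SylIn2 Cfsg.Agent.Lib.Helper34.GoodFus

section basics

variable {G : Type*} [Group G]

/-- the allowed factors for the Sylow subgroup `Q` -/
def MM (W V : Subgroup G → Subgroup G) (Q : Subgroup G) : Set G :=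
  {b | b ∈ Subgroup.normalizer ((W Q : Subgroup G) : Set G) ∨
    b ∈ Subgroup.centralizer ((V Q : Subgroup G) : Set G)}

theorem MM_inv (W V : Subgroup G → Subgroup G) (Q : Subgroup G) : ∀ b ∈ MM W V Q, b⁻¹ ∈ MM W V Q := by
  rintro b (hb | hb)
  · exact Or.inl (Subgroup.inv_mem _ hb)
  · exact Or.inr (Subgroup.inv_mem _ hb)

theorem centralizer_cjs (g : G) (D : Subgroup G) :
    Subgroup.centralizer ((cjs g D : Subgroup G) : Set G) = cjs g (Subgroup.centralizer (D : Set G)) := by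
  ext b
  rw [mem_cjs]
  constructor
  · intro hb
    refine Subgroup.mem_centralizer_iff.mpr ?_
    intro d hd
    have hd' : g⁻¹ * d * g ∈ cjs g D := mem_cjs.mpr (by simpa [mul_assoc] using hd)
    have := Subgroup.mem_centralizer_iff.mp hb _ hd'
    calc d * (g * b * g⁻¹) = g * ((g⁻¹ * d * g) * b) * g⁻¹ := by group
      _ = g * (b * (g⁻¹ * d * g)) * g⁻¹ := by rw [this]
      _ = g * b * g⁻¹ * d := by group
  · intro hb
    refine Subgroup.mem_centralizer_iff.mpr ?_
    intro u hu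
    have hu' := mem_cjs.mp hu
    have := Subgroup.mem_centralizer_iff.mp hb _ hu'
    calc u * b = g⁻¹ * ((g * u * g⁻¹) * (g * b * g⁻¹)) * g := by group
      _ = g⁻¹ * ((g * b * g⁻¹) * (g * u * g⁻¹)) * g := by rw [this]
      _ = b * u := by group

theorem cj_MM {p : ℕ} (W V : Subgroup G → Subgroup G) (hW : Cfsg.IsConjugacyFunctor p W)
    (hV : Cfsg.IsConjugacyFunctor p V) (Q : Subgroup G) (hQ : IsPGroup p Q) (g : G) :
    cj g (MM W V Q) = MM W V (cjs g Q) := by
  have hW' : W (cjs g Q) = cjs g (W Q) := (hW Q hQ).2.2 g⁻¹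
  have hV' : V (cjs g Q) = cjs g (V Q) := (hV Q hQ).2.2 g⁻¹
  ext b
  rw [mem_cj]
  show (g * b * g⁻¹ ∈ Subgroup.normalizer ((W Q : Subgroup G) : Set G) ∨
      g * b * g⁻¹ ∈ Subgroup.centralizer ((V Q : Subgroup G) : Set G)) ↔
    (b ∈ Subgroup.normalizer ((W (cjs g Q) : Subgroup G) : Set G) ∨
      b ∈ Subgroup.centralizer ((V (cjs g Q) : Subgroup G) : Set G))
  rw [hW', hV', normalizer_cjs, centralizer_cjs, mem_cjs, mem_cjs]

theorem normalizer_le_W {p : ℕ} (W : Subgroup G → Subgroup G) (hW : Cfsg.IsConjugacyFunctor p W)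
    (Q : Subgroup G) (hQ : IsPGroup p Q) :
    Subgroup.normalizer (Q : Set G) ≤ Subgroup.normalizer ((W Q : Subgroup G) : Set G) := by
  intro g hg
  have h1 : Q.map (MulAut.conj g).toMonoidHom = Q := Subgroup.mem_normalizer_iff_map_conj_eq.mp hg
  have h2 := (hW Q hQ).2.2 g
  rw [h1] at h2
  exact Subgroup.mem_normalizer_iff_map_conj_eq.mpr h2.symm

/-- local control in `N(T)` with respect to `Q` -/
def LC (W V : Subgroup G → Subgroup G) (T Q : Subgroup G) : Prop :=
  ∀ (X : Set G) (a : G), X ⊆ (Q : Set G) → a ∈ Subgroup.normalizer (T : Set G) → cj a X ⊆ (Q : Set G) →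
    Good (MM W V Q) (Q : Set G) X a

theorem LC_conj {p : ℕ} (W V : Subgroup G → Subgroup G) (hW : Cfsg.IsConjugacyFunctor p W)
    (hV : Cfsg.IsConjugacyFunctor p V) {T Q : Subgroup G} (hQ : IsPGroup p Q) (h : LC W V T Q) (g : G) :
    LC W V (cjs g T) (cjs g Q) := by
  intro X a hX ha hXa
  have hX₀ : cj g⁻¹ X ⊆ (Q : Set G) := by
    intro x hx
    rw [mem_cj] at hx
    have h2 := mem_cjs.mp (hX hx)
    simpa [mul_assoc] using h2
  have ha₀ : g * a * g⁻¹ ∈ Subgroup.normalizer (T : Set G) := by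
    rw [normalizer_cjs] at ha
    exact mem_cjs.mp ha
  have hXa₀ : cj (g * a * g⁻¹) (cj g⁻¹ X) ⊆ (Q : Set G) := by
    rw [cj_mul]
    have e : g⁻¹ * (g * a * g⁻¹) = a * g⁻¹ := by group
    rw [e, ← cj_mul]
    intro x hx
    rw [mem_cj] at hx
    have h2 := mem_cjs.mp (hXa hx)
    simpa [mul_assoc] using h2
  have h1 := (h _ _ hX₀ ha₀ hXa₀).conj g
  rw [cj_MM W V hW hV Q hQ g, ← coe_cjs, cj_mul] at h1
  have e1 : g⁻¹ * g = 1 := by group
  have e2 : g⁻¹ * (g * a * g⁻¹) * g = a := by group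
  rw [e1, cj_one, e2] at h1
  exact h1

theorem good_of_fin {M S X : Set G} {a c : G} (hc : c ∈ Subgroup.centralizer X) (n : ℕ) (b : Fin n → G)
    (hb : ∀ i, b i ∈ M) (ha : a = c * (List.ofFn b).prod)
    (hk : ∀ k : ℕ, k ≤ n → (fun x => (((List.ofFn b).take k).prod)⁻¹ * x * ((List.ofFn b).take k).prod) ''
      ((fun x => c⁻¹ * x * c) '' X) ⊆ S) : Good M S X a := by
  refine ⟨c, hc, List.ofFn b, gchain_of_take _ ?_ ?_, ha⟩
  · intro b' hb'
    obtain ⟨i, rfl⟩ := (List.mem_ofFn' b b').mp hb'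
    exact hb i
  · intro k hk'
    have := hk k (by simpa using hk')
    have e : (fun x => c⁻¹ * x * c) '' X = X := cj_eq_of_mem_centralizer hc
    rw [e] at this
    exact this

theorem fin_of_good {M S X : Set G} {a : G} (h : Good M S X a) :
    ∃ c ∈ Subgroup.centralizer X, ∃ (n : ℕ) (b : Fin n → G), (∀ i, b i ∈ M) ∧ a = c * (List.ofFn b).prod ∧
      ∀ k : ℕ, k ≤ n → (fun x => (((List.ofFn b).take k).prod)⁻¹ * x * ((List.ofFn b).take k).prod) ''
        ((fun x => c⁻¹ * x * c) '' X) ⊆ S := by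
  obtain ⟨c, hc, l, hl, rfl⟩ := h
  refine ⟨c, hc, l.length, l.get, fun i => gchain_mem l hl _ (List.get_mem l i), by rw [List.ofFn_get], ?_⟩
  intro k _
  rw [List.ofFn_get]
  have e : (fun x => c⁻¹ * x * c) '' X = X := cj_eq_of_mem_centralizer hc
  rw [e]
  exact gchain_take l hl k

theorem card_lt_of_le_of_mem [Finite G] {A B : Subgroup G} (h : A ≤ B) {x : G} (hx : x ∈ B) (hxA : x ∉ A) :
    Nat.card A < Nat.card B := by
  have h1 : Nat.card A ≤ Nat.card B := Subgroup.card_le_of_le h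
  rcases h1.lt_or_eq with h2 | h2
  · exact h2
  · exfalso
    have := Subgroup.eq_of_le_of_card_ge h h2.ge
    rw [this] at hxA
    exact hxA hx

theorem center_ne_bot [Finite G] {p : ℕ} [Fact p.Prime] {S : Subgroup G} (hS : IsPGroup p S) (hne : S ≠ ⊥) :
    S ⊓ Subgroup.centralizer (S : Set G) ≠ ⊥ := by
  have hnt : Nontrivial S := (Subgroup.nontrivial_iff_ne_bot S).mpr hne
  have := hS.center_nontrivial
  obtain ⟨w, hw⟩ := exists_ne (1 : Subgroup.center S)
  intro hbot
  have hwm : ((w : S) : G) ∈ S ⊓ Subgroup.centralizer (S : Set G) := by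
    refine ⟨(w : S).2, ?_⟩
    refine Subgroup.mem_centralizer_iff.mpr ?_
    intro t ht
    have := (Subgroup.mem_center_iff.mp w.2) ⟨t, ht⟩
    exact congrArg Subtype.val this
  rw [hbot, Subgroup.mem_bot] at hwm
  apply hw
  apply Subtype.ext; apply Subtype.ext; exact hwm

theorem sylIn_inf_normal [Finite G] {p : ℕ} {Q₀ N M : Subgroup G} (hi : ¬ p ∣ Q₀.relIndex N)
    (hMN : M ≤ N) (hnorm : (M.subgroupOf N).Normal) : ¬ p ∣ (Q₀ ⊓ M).relIndex M := by
  intro h
  apply hi
  rw [Subgroup.inf_relIndex_right, ← Subgroup.relIndex_subgroupOf hMN] at h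
  exact dvd_trans h (Cfsg.Agent.Lib.Helper32.SylowRel.relIndex_dvd_index_of_normal_right _ _)

end basics

section main

variable {G : Type*} [Group G] [Finite G] {p : ℕ} [Fact p.Prime]

theorem lc_all (P : Sylow p G) (W V : Subgroup G → Subgroup G) (hW : Cfsg.IsConjugacyFunctor p W)
    (hV : Cfsg.IsConjugacyFunctor p V)
    (hL : ∀ H : Subgroup G, (P : Subgroup G) ⊓ Subgroup.centralizer ((P : Subgroup G) : Set G) ≤ H →
      H ≤ (P : Subgroup G) → ∃ Q : Subgroup G, Q ≤ Subgroup.normalizer (H : Set G) ∧ IsPGroup p ↥Q ∧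
        ¬ p ∣ Q.relIndex (Subgroup.normalizer (H : Set G)) ∧ LC W V H Q)
    (S : Sylow p G) (T Q : Subgroup G)
    (hZT : (S : Subgroup G) ⊓ Subgroup.centralizer ((S : Subgroup G) : Set G) ≤ T) (hTS : T ≤ S)
    (hQN : Q ≤ Subgroup.normalizer (T : Set G)) (hQp : IsPGroup p Q)
    (hQi : ¬ p ∣ Q.relIndex (Subgroup.normalizer (T : Set G))) : LC W V T Q := by
  obtain ⟨g, hg⟩ := MulAction.exists_smul_eq G P S
  have hSmem : ∀ x, x ∈ (S : Subgroup G) ↔ g⁻¹ * x * g ∈ (P : Subgroup G) := fun x => by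
    rw [← hg]; exact mem_smul_sylow P g x
  have hZH : (P : Subgroup G) ⊓ Subgroup.centralizer ((P : Subgroup G) : Set G) ≤ cjs g T := by
    intro z hz
    rw [mem_cjs]
    apply hZT
    have e0 : g⁻¹ * (g * z * g⁻¹) * g = z := by group
    refine ⟨(hSmem _).mpr (by rw [e0]; exact hz.1), ?_⟩
    refine Subgroup.mem_centralizer_iff.mpr ?_
    intro s hs
    have hs' := (hSmem s).mp hs
    have := Subgroup.mem_centralizer_iff.mp hz.2 _ hs'
    calc s * (g * z * g⁻¹) = g * ((g⁻¹ * s * g) * z) * g⁻¹ := by group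
      _ = g * (z * (g⁻¹ * s * g)) * g⁻¹ := by rw [this]
      _ = g * z * g⁻¹ * s := by group
  have hHP : cjs g T ≤ P := by
    intro h hh
    have := (hSmem _).mp (hTS (mem_cjs.mp hh))
    simpa [mul_assoc] using this
  obtain ⟨Q₀, hQ₀N, hQ₀p, hQ₀i, hLC₀⟩ := hL (cjs g T) hZH hHP
  have hT : cjs g⁻¹ (cjs g T) = T := by
    rw [cjs_cjs]
    ext x
    rw [mem_cjs]
    simp
  have hLC₁ : LC W V T (cjs g⁻¹ Q₀) := by
    have := LC_conj W V hW hV hQ₀p hLC₀ g⁻¹
    rwa [hT] at this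
  have hN : Subgroup.normalizer (T : Set G) =
      cjs g⁻¹ (Subgroup.normalizer ((cjs g T : Subgroup G) : Set G)) := by
    rw [← normalizer_cjs, hT]
  have hQ₁N : cjs g⁻¹ Q₀ ≤ Subgroup.normalizer (T : Set G) := by
    rw [hN]; exact cjs_mono hQ₀N _
  have hQ₁p : IsPGroup p (cjs g⁻¹ Q₀) := hQ₀p.map _
  have hQ₁i : ¬ p ∣ (cjs g⁻¹ Q₀).relIndex (Subgroup.normalizer (T : Set G)) := by
    rw [hN, relIndex_cjs]; exact hQ₀i
  obtain ⟨m, hm, hmc⟩ := exists_conj_mem_of_sylIn hQ₁N hQ₁p hQ₁i hQN hQp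
  have hmN : m ∈ Subgroup.normalizer (T : Set G) := pGen_le _ hm
  have hle : Q ≤ cjs m⁻¹ (cjs g⁻¹ Q₀) := by
    intro x hx
    rw [mem_cjs]
    simpa using hmc x hx
  have hge : cjs m⁻¹ (cjs g⁻¹ Q₀) ≤ Q := by
    apply le_of_sylIn hle ?_ (hQ₁p.map _) hQi
    have : cjs m⁻¹ (Subgroup.normalizer (T : Set G)) = Subgroup.normalizer (T : Set G) :=
      cjs_eq_of_mem (Subgroup.inv_mem _ hmN)
    rw [← this]; exact cjs_mono hQ₁N _
  have hQeq : Q = cjs m⁻¹ (cjs g⁻¹ Q₀) := le_antisymm hle hge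
  have hT2 : cjs m⁻¹ T = T := cjs_eq_of_mem_normalizer (Subgroup.inv_mem _ hmN)
  have := LC_conj W V hW hV hQ₁p hLC₁ m⁻¹
  rwa [hT2, ← hQeq] at this

/-- control in `N(T)` transferred to the Sylow subgroup `S` -/
def Theta (W V : Subgroup G → Subgroup G) (k : ℕ) : Prop :=
  ∀ (S : Sylow p G) (T : Subgroup G),
    (S : Subgroup G) ⊓ Subgroup.centralizer ((S : Subgroup G) : Set G) ≤ T → T ≤ S →
    ¬ p ∣ ((S : Subgroup G) ⊓ Subgroup.normalizer (T : Set G)).relIndex (Subgroup.normalizer (T : Set G)) →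
    k ≤ Nat.card ((S : Subgroup G) ⊓ Subgroup.normalizer (T : Set G) : Subgroup G) →
    ∀ (X : Set G) (b : G),
      X ⊆ (((S : Subgroup G) ⊓ Subgroup.normalizer (T : Set G) : Subgroup G) : Set G) →
      b ∈ Subgroup.normalizer (T : Set G) →
      cj b X ⊆ (((S : Subgroup G) ⊓ Subgroup.normalizer (T : Set G) : Subgroup G) : Set G) →
      Good (MM W V S) ((S : Subgroup G) : Set G) X b

/-- control of fusion of subgroups of order at least `k` -/
def Psi (W V : Subgroup G → Subgroup G) (k : ℕ) : Prop :=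
  ∀ (S : Sylow p G) (R : Subgroup G) (a : G), R ≤ S → cjs a R ≤ S → k ≤ Nat.card R →
    Good (MM W V S) ((S : Subgroup G) : Set G) (R : Set G) a

theorem theta_step (W V : Subgroup G → Subgroup G) (hW : Cfsg.IsConjugacyFunctor p W)
    (hV : Cfsg.IsConjugacyFunctor p V) (hdiv : p ∣ Nat.card G)
    (hWZ : ∀ H : Subgroup G, IsPGroup p ↥H → H ⊓ Subgroup.centralizer ((H : Subgroup G) : Set G) ≤ W H)
    (hVmono : ∀ H K : Subgroup G, IsPGroup p ↥H → IsPGroup p ↥K → H ≠ ⊥ → K ≠ ⊥ →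
      H ⊓ Subgroup.centralizer ((H : Subgroup G) : Set G) ≤ K ⊓ Subgroup.centralizer ((K : Subgroup G) : Set G) →
      V H ≤ V K)
    (hLC : ∀ (S : Sylow p G) (T Q : Subgroup G),
      (S : Subgroup G) ⊓ Subgroup.centralizer ((S : Subgroup G) : Set G) ≤ T → T ≤ S →
      Q ≤ Subgroup.normalizer (T : Set G) → IsPGroup p Q →
      ¬ p ∣ Q.relIndex (Subgroup.normalizer (T : Set G)) → LC W V T Q)
    (k : ℕ) (hΘ : Theta (p := p) W V (k + 1)) (hΨ : Psi (p := p) W V (k + 1)) : Theta (p := p) W V k := by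
  intro S T hZT hTS hQi hk X b hX hb hXb
  have hQS : (S : Subgroup G) ⊓ Subgroup.normalizer (T : Set G) ≤ S := inf_le_left
  have hQN : (S : Subgroup G) ⊓ Subgroup.normalizer (T : Set G) ≤ Subgroup.normalizer (T : Set G) := inf_le_right
  have hQp : IsPGroup p ((S : Subgroup G) ⊓ Subgroup.normalizer (T : Set G) : Subgroup G) := S.2.to_le hQS
  have hTQ : T ≤ (S : Subgroup G) ⊓ Subgroup.normalizer (T : Set G) := le_inf hTS Subgroup.le_normalizer
  generalize hQdef : (S : Subgroup G) ⊓ Subgroup.normalizer (T : Set G) = Q at *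
  have hZSQ : (S : Subgroup G) ⊓ Subgroup.centralizer ((S : Subgroup G) : Set G) ≤
      Q ⊓ Subgroup.centralizer (Q : Set G) :=
    le_inf (hZT.trans hTQ) (inf_le_right.trans (Subgroup.centralizer_le hQS))
  have hSne : (S : Subgroup G) ≠ ⊥ := S.ne_bot_of_dvd_card hdiv
  have hZne := center_ne_bot S.2 hSne
  have hQne : Q ≠ ⊥ := by
    intro h
    apply hZne
    rw [eq_bot_iff, ← h]
    exact hZT.trans hTQ
  have hVS : V S ≤ V Q := hVmono S Q S.2 hQp hSne hQne hZSQ
  have step : ∀ (Y : Set G) (b₁ : G), Y ⊆ (Q : Set G) → cj b₁ Y ⊆ (Q : Set G) → b₁ ∈ MM W V Q →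
      Good (MM W V S) ((S : Subgroup G) : Set G) Y b₁ := by
    intro Y b₁ hY hYb hb₁
    rcases hb₁ with hb₁ | hb₁
    · by_cases hQeq : Q = S
      · have hb' : b₁ ∈ MM W V S := Or.inl (by rw [← hQeq]; exact hb₁)
        exact Good.of_mem hb' (hY.trans hQS) (hYb.trans hQS)
      · have hWQ : W Q ≤ Q := (hW Q hQp).1
        have hNQ := normalizer_le_W W hW Q hQp
        obtain ⟨x, hxS, hxN, hxQ⟩ := exists_mem_normalizer_notMem S hQS hQeq
        have hQR₁ : Q ≤ (S : Subgroup G) ⊓ Subgroup.normalizer ((W Q : Subgroup G) : Set G) :=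
          le_inf hQS (Subgroup.le_normalizer.trans hNQ)
        have hxR₁ : x ∈ (S : Subgroup G) ⊓ Subgroup.normalizer ((W Q : Subgroup G) : Set G) := ⟨hxS, hNQ hxN⟩
        have hcard := card_lt_of_le_of_mem hQR₁ hxR₁ hxQ
        obtain ⟨Q₂, hR₁Q₂, hQ₂N, hQ₂p, hQ₂i⟩ := exists_sylIn_ge
          (inf_le_right : (S : Subgroup G) ⊓ Subgroup.normalizer ((W Q : Subgroup G) : Set G) ≤ _)
          (S.2.to_le inf_le_left)
        obtain ⟨S', hS'⟩ := hQ₂p.exists_le_sylow
        have hQ₂eq : (S' : Subgroup G) ⊓ Subgroup.normalizer ((W Q : Subgroup G) : Set G) = Q₂ :=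
          le_antisymm (le_of_sylIn (le_inf hS' hQ₂N) inf_le_right (S'.2.to_le inf_le_left) hQ₂i)
            (le_inf hS' hQ₂N)
        have hQS' : Q ≤ S' := hQR₁.trans (hR₁Q₂.trans hS')
        have hZ' : (S' : Subgroup G) ⊓ Subgroup.centralizer ((S' : Subgroup G) : Set G) ≤ W Q := by
          intro z hz
          apply hWZ Q hQp
          have hzQ : z ∈ Q := by
            have h1 : (S' : Subgroup G) ⊓ Subgroup.normalizer (T : Set G) ≤ Q :=
              le_of_sylIn (le_inf hQS' hQN) inf_le_right (S'.2.to_le inf_le_left) hQi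
            apply h1
            refine ⟨hz.1, ?_⟩
            apply Subgroup.centralizer_le_normalizer
            exact Subgroup.centralizer_le (hTQ.trans hQS') hz.2
          exact ⟨hzQ, Subgroup.centralizer_le hQS' hz.2⟩
        have hT₂S' : W Q ≤ S' := hWQ.trans hQS'
        have hk' : k + 1 ≤ Nat.card ((S' : Subgroup G) ⊓ Subgroup.normalizer ((W Q : Subgroup G) : Set G) : Subgroup G) := by
          rw [hQ₂eq]
          have := Subgroup.card_le_of_le hR₁Q₂
          omega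
        have hQQ₂ : (Q : Set G) ⊆ (((S' : Subgroup G) ⊓ Subgroup.normalizer ((W Q : Subgroup G) : Set G) : Subgroup G) : Set G) := by
          rw [hQ₂eq]; exact hQR₁.trans hR₁Q₂
        have hG' : Good (MM W V S') ((S' : Subgroup G) : Set G) Y b₁ :=
          hΘ S' (W Q) hZ' hT₂S' (by rw [hQ₂eq]; exact hQ₂i) hk' Y b₁ (hY.trans hQQ₂) hb₁ (hYb.trans hQQ₂)
        obtain ⟨v, hv⟩ := MulAction.exists_smul_eq G S S'
        have hS'mem : ∀ x, x ∈ (S' : Subgroup G) ↔ v⁻¹ * x * v ∈ (S : Subgroup G) := fun x => by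
          rw [← hv]; exact mem_smul_sylow S v x
        have hS'coe : cjs v (S' : Subgroup G) = S := by
          ext u
          rw [mem_cjs, hS'mem]
          have : v⁻¹ * (v * u * v⁻¹) * v = u := by group
          rw [this]
        have hR₁v : cjs v ((S : Subgroup G) ⊓ Subgroup.normalizer ((W Q : Subgroup G) : Set G)) ≤ S := by
          have h6 := cjs_mono (hR₁Q₂.trans hS') v
          rwa [hS'coe] at h6
        have hGv : Good (MM W V S) ((S : Subgroup G) : Set G)
            (((S : Subgroup G) ⊓ Subgroup.normalizer ((W Q : Subgroup G) : Set G) : Subgroup G) : Set G) v :=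
          hΨ S _ v inf_le_left hR₁v (by omega)
        have hG'' := hG'.conj v
        rw [cj_MM W V hW hV S' S'.2 v, ← coe_cjs, hS'coe] at hG''
        have g1 : Good (MM W V S) ((S : Subgroup G) : Set G) Y v := hGv.mono (hY.trans hQR₁)
        have g3 : Good (MM W V S) ((S : Subgroup G) : Set G) (cj v (cj b₁ Y)) v⁻¹ :=
          (hGv.mono (hYb.trans hQR₁)).inv (MM_inv W V S)
        have e3 : cj (v * (v⁻¹ * b₁ * v)) Y = cj v (cj b₁ Y) := by
          rw [cj_mul]; congr 1; group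
        have h5 := (g1.trans hG'').trans (by rw [e3]; exact g3)
        have e4 : v * (v⁻¹ * b₁ * v) * v⁻¹ = b₁ := by group
        rwa [e4] at h5
    · have hb' : b₁ ∈ MM W V S := Or.inr (Subgroup.centralizer_le (fun x hx => hVS hx) hb₁)
      exact Good.of_mem hb' (hY.trans hQS) (hYb.trans hQS)
  have chain : ∀ (l : List G) (Y : Set G), GChain (MM W V Q) (Q : Set G) Y l →
      Good (MM W V S) ((S : Subgroup G) : Set G) Y l.prod := by
    intro l
    induction l with
    | nil =>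
      intro Y h
      have h' : Y ⊆ (Q : Set G) := h
      simpa using Good.one (M := MM W V S) (h'.trans hQS)
    | cons b₁ l ih =>
      intro Y h
      rw [List.prod_cons]
      exact (step Y b₁ h.1 h.2.2.subset h.2.1).trans (ih _ h.2.2)
  obtain ⟨c, hc, l, hl, rfl⟩ := hLC S T Q hZT hTS hQN hQp hQi X b hX hb hXb
  exact (chain l X hl).centralizer_mul hc

theorem star_lemma (W V : Subgroup G → Subgroup G) (k : ℕ) (hΘ : Theta (p := p) W V k)
    (hΨ : Psi (p := p) W V (k + 1)) (S : Sylow p G) (D : Subgroup G) (hDS : D ≤ S) (x : G)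
    (hxN : x ∈ Subgroup.normalizer (D : Set G))
    (hSyl : ¬ p ∣ ((S : Subgroup G) ⊓ Subgroup.normalizer (D : Set G)).relIndex (Subgroup.normalizer (D : Set G)))
    (hkD : k ≤ Nat.card D) : Good (MM W V S) ((S : Subgroup G) : Set G) (D : Set G) x := by
  have hCSi : ¬ p ∣ ((S : Subgroup G) ⊓ Subgroup.centralizer (D : Set G)).relIndex (Subgroup.centralizer (D : Set G)) := by
    have h1 := sylIn_inf_normal hSyl (Subgroup.centralizer_le_normalizer (D : Set G))
      (Subgroup.normal_subgroupOf_centralizer_normalizer (D : Set G))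
    have h2 : (S : Subgroup G) ⊓ Subgroup.normalizer (D : Set G) ⊓ Subgroup.centralizer (D : Set G) =
        (S : Subgroup G) ⊓ Subgroup.centralizer (D : Set G) := by
      rw [inf_assoc, inf_eq_right.mpr (Subgroup.centralizer_le_normalizer (D : Set G))]
    rwa [h2] at h1
  have hcjCS : cjs x ((S : Subgroup G) ⊓ Subgroup.centralizer (D : Set G)) ≤ Subgroup.centralizer (D : Set G) := by
    have h1 : cjs x (Subgroup.centralizer (D : Set G)) = Subgroup.centralizer (D : Set G) := by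
      rw [← centralizer_cjs, cjs_eq_of_mem_normalizer hxN]
    have h2 := cjs_mono (inf_le_right : (S : Subgroup G) ⊓ Subgroup.centralizer (D : Set G) ≤ _) x
    rwa [h1] at h2
  obtain ⟨m, hm, hmc⟩ := exists_conj_mem_of_sylIn
    (inf_le_right : (S : Subgroup G) ⊓ Subgroup.centralizer (D : Set G) ≤ Subgroup.centralizer (D : Set G))
    (S.2.to_le inf_le_left) hCSi hcjCS ((S.2.to_le inf_le_left).map _)
  have hmC : m ∈ Subgroup.centralizer (D : Set G) := pGen_le _ hm
  have hx'D : cjs (x * m) D = D := by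
    rw [← cjs_cjs, cjs_eq_of_mem_normalizer hxN,
      cjs_eq_of_mem_normalizer (Subgroup.centralizer_le_normalizer (D : Set G) hmC)]
  have hx'CS : cjs (x * m) ((S : Subgroup G) ⊓ Subgroup.centralizer (D : Set G)) ≤
      (S : Subgroup G) ⊓ Subgroup.centralizer (D : Set G) := by
    rw [← cjs_cjs]
    intro u hu
    have h1 := hmc _ (mem_cjs.mp hu)
    have e : m⁻¹ * (m * u * m⁻¹) * m = u := by group
    rwa [e] at h1
  by_cases hCD : (S : Subgroup G) ⊓ Subgroup.centralizer (D : Set G) ≤ D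
  · have hZD : (S : Subgroup G) ⊓ Subgroup.centralizer ((S : Subgroup G) : Set G) ≤ D :=
      (inf_le_inf_left _ (Subgroup.centralizer_le hDS)).trans hCD
    have hDQ₀ : D ≤ (S : Subgroup G) ⊓ Subgroup.normalizer (D : Set G) := le_inf hDS Subgroup.le_normalizer
    refine hΘ S D hZD hDS hSyl (hkD.trans (Subgroup.card_le_of_le hDQ₀)) (D : Set G) x hDQ₀ hxN ?_
    rw [← coe_cjs, cjs_eq_of_mem_normalizer hxN]
    exact hDQ₀
  · have hD'S : D ⊔ ((S : Subgroup G) ⊓ Subgroup.centralizer (D : Set G)) ≤ S := sup_le hDS inf_le_left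
    have hx'D' : cjs (x * m) (D ⊔ ((S : Subgroup G) ⊓ Subgroup.centralizer (D : Set G))) ≤ S := by
      have h1 : cjs (x * m) (D ⊔ ((S : Subgroup G) ⊓ Subgroup.centralizer (D : Set G))) =
          cjs (x * m) D ⊔ cjs (x * m) ((S : Subgroup G) ⊓ Subgroup.centralizer (D : Set G)) :=
        Subgroup.map_sup _ _ _
      rw [h1, hx'D]
      exact sup_le hDS (hx'CS.trans inf_le_left)
    have hlt : Nat.card D < Nat.card (D ⊔ ((S : Subgroup G) ⊓ Subgroup.centralizer (D : Set G)) : Subgroup G) := by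
      obtain ⟨u, hu, huD⟩ := SetLike.not_le_iff_exists.mp hCD
      exact card_lt_of_le_of_mem le_sup_left (Subgroup.mem_sup_right hu) huD
    have g1 := hΨ S (D ⊔ ((S : Subgroup G) ⊓ Subgroup.centralizer (D : Set G))) (x * m) hD'S hx'D' (by omega)
    have g1' : Good (MM W V S) ((S : Subgroup G) : Set G) (D : Set G) (x * m) :=
      g1.mono (show (D : Set G) ⊆ ((D ⊔ ((S : Subgroup G) ⊓ Subgroup.centralizer (D : Set G)) : Subgroup G) : Set G)
        from (le_sup_left : D ≤ _))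
    have g2 : Good (MM W V S) ((S : Subgroup G) : Set G) (cj (x * m) (D : Set G)) m⁻¹ := by
      rw [← coe_cjs, hx'D]
      exact Good.of_centralizer (Subgroup.inv_mem _ hmC) hDS
    have h5 := g1'.trans g2
    have e : x * m * m⁻¹ = x := by group
    rwa [e] at h5

theorem psi_step (W V : Subgroup G → Subgroup G) (k : ℕ) (hΘ : Theta (p := p) W V k)
    (hΨ : Psi (p := p) W V (k + 1)) : Psi (p := p) W V k := by
  intro S R a hRS hRa hk
  have chain : ∀ (l : List (Sylow p G × G)) (R' : Subgroup G), R' ≤ S → k ≤ Nat.card R' →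
      Chain S (R' : Set G) l → Good (MM W V S) ((S : Subgroup G) : Set G) (R' : Set G) (l.map Prod.snd).prod := by
    intro l
    induction l with
    | nil =>
      intro R' hR' _ _
      simpa using Good.one (M := MM W V S) (show (R' : Set G) ⊆ ((S : Subgroup G) : Set G) from hR')
    | cons qx l ih =>
      intro R' hR' hk' hch
      obtain ⟨Q, x⟩ := qx
      obtain ⟨hstep, hsub, hrest⟩ := hch
      have hR'D : R' ≤ (S : Subgroup G) ⊓ (Q : Subgroup G) := hsub
      have g0 := star_lemma W V k hΘ hΨ S ((S : Subgroup G) ⊓ (Q : Subgroup G)) inf_le_left x hstep.1 hstep.2.1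
        (hk'.trans (Subgroup.card_le_of_le hR'D))
      have g1 : Good (MM W V S) ((S : Subgroup G) : Set G) (R' : Set G) x := g0.mono hR'D
      have hcjs : cjs x R' ≤ S := by
        have h1 : cjs x ((S : Subgroup G) ⊓ (Q : Subgroup G)) = (S : Subgroup G) ⊓ (Q : Subgroup G) :=
          cjs_eq_of_mem_normalizer hstep.1
        exact ((cjs_mono hR'D x).trans h1.le).trans inf_le_left
      rw [← coe_cjs] at hrest
      have g2 := ih (cjs x R') hcjs (by rw [card_cjs]; exact hk') hrest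
      rw [coe_cjs] at g2
      simpa using g1.trans g2
  obtain ⟨l, hl, rfl⟩ := fus_main S (R : Set G) a hRS (by rw [← coe_cjs]; exact hRa)
  exact chain l R hRS hk hl

theorem main_ind (P : Sylow p G) (W V : Subgroup G → Subgroup G) (hW : Cfsg.IsConjugacyFunctor p W)
    (hV : Cfsg.IsConjugacyFunctor p V) (hdiv : p ∣ Nat.card G)
    (hWZ : ∀ H : Subgroup G, IsPGroup p ↥H → H ⊓ Subgroup.centralizer ((H : Subgroup G) : Set G) ≤ W H)
    (hVmono : ∀ H K : Subgroup G, IsPGroup p ↥H → IsPGroup p ↥K → H ≠ ⊥ → K ≠ ⊥ →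
      H ⊓ Subgroup.centralizer ((H : Subgroup G) : Set G) ≤ K ⊓ Subgroup.centralizer ((K : Subgroup G) : Set G) →
      V H ≤ V K)
    (hLC : ∀ (S : Sylow p G) (T Q : Subgroup G),
      (S : Subgroup G) ⊓ Subgroup.centralizer ((S : Subgroup G) : Set G) ≤ T → T ≤ S →
      Q ≤ Subgroup.normalizer (T : Set G) → IsPGroup p Q →
      ¬ p ∣ Q.relIndex (Subgroup.normalizer (T : Set G)) → LC W V T Q) :
    ∀ d k : ℕ, Nat.card (P : Subgroup G) < k + d → Theta (p := p) W V k ∧ Psi (p := p) W V k := by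
  have hcard : ∀ S : Sylow p G, Nat.card (S : Subgroup G) = Nat.card (P : Subgroup G) := by
    intro S
    rw [Sylow.card_eq_multiplicity, Sylow.card_eq_multiplicity]
  intro d
  induction d with
  | zero =>
    intro k hk
    constructor
    · intro S T _ _ _ hk' _ _ _ _ _
      exfalso
      have h1 := Subgroup.card_le_of_le (inf_le_left : (S : Subgroup G) ⊓ Subgroup.normalizer (T : Set G) ≤ S)
      have h2 := hcard S
      omega
    · intro S R a hRS _ hk'
      exfalso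
      have h1 := Subgroup.card_le_of_le hRS
      have h2 := hcard S
      omega
  | succ d ih =>
    intro k hk
    obtain ⟨hΘ, hΨ⟩ := ih (k + 1) (by omega)
    have hΘk := theta_step W V hW hV hdiv hWZ hVmono hLC k hΘ hΨ
    exact ⟨hΘk, psi_step W V k hΘk hΨ⟩

end main

/-- Let p be a prime dividing the order of the finite group G, P a Sylow p-subgroup, W a conjugacy functor for p on G with Z(H) ≤ W(H) for every nontrivial p-subgroup H, and V a central functor (a conjugacy functor with V(H) ≤ Z(H), and V(H) ≤ V(K) whenever Z(H) ≤ Z(K)). Say that W with V controls strong fusion in a subgroup L when some Sylow p-subgroup Q of L has the property: whenever X ⊆ Q and a ∈ L with a⁻¹Xa ⊆ Q, then a = c b with c ∈ C_L(X) and b = b₁ ⋯ bₙ a product of elements each in N_L(W(Q)) or in C_L(V(Q)) such that every partial conjugate (b₁ ⋯ bₖ)⁻¹ X (b₁ ⋯ bₖ) lies in Q. If W with V controls strong fusion in N_G(H) for every subgroup H with Z(P) ≤ H ≤ P, then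 W with V controls strong fusion in G. -/
theorem result {G : Type*} [Group G] [Finite G] {p : ℕ} [Fact p.Prime] (hdiv : p ∣ Nat.card G) (P : Sylow p G) (W V : Subgroup G → Subgroup G) (hW : Cfsg.IsConjugacyFunctor p W) (hV : Cfsg.IsConjugacyFunctor p V) (hWZ : ∀ H : Subgroup G, IsPGroup p ↥H → H ⊓ Subgroup.centralizer ((H : Subgroup G) : Set G) ≤ W H) (hVZ : ∀ H : Subgroup G, IsPGroup p ↥H → V H ≤ H ⊓ Subgroup.centralizer ((H : Subgroup G) : Set G)) (hVmono : ∀ H K : Subgroup G, IsPGroup p ↥H → IsPGroup p ↥K → H ≠ ⊥ → K ≠ ⊥ → H ⊓ Subgroup.centralizer ((H : Subgroup G) : Set G) ≤ K ⊓ Subgroup.centralizer ((K : Subgroup G) : Set G) → V H ≤ V K) (hloc : ∀ H : Subgroup G, (P : Subgroup G) ⊓ Subgroup.centralizer (((P : Subgroup G) : Subgroup G) : Set G) ≤ H → H ≤ (P : Subgroup G) → ∃ Q : Subgroup G, Q ≤ Subgroup.normalizer ((H : Subgroup G) : Set G) ∧ IsPGroup p ↥Q ∧ ¬ p ∣ (Q).relIndex (Subgroup.normalizer ((H : Subgroup G) : Set G)) ∧ ∀ (X : Set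 G) (a : G), X ⊆ Q → a ∈ Subgroup.normalizer ((H : Subgroup G) : Set G) → (fun x => a⁻¹ * x * a) '' X ⊆ Q → ∃ c ∈ Subgroup.normalizer ((H : Subgroup G) : Set G) ⊓ Subgroup.centralizer X, ∃ (n : ℕ) (b : Fin n → G), (∀ i, b i ∈ Subgroup.normalizer ((H : Subgroup G) : Set G) ⊓ Subgroup.normalizer ((W Q : Subgroup G) : Set G) ∨ b i ∈ Subgroup.normalizer ((H : Subgroup G) : Set G) ⊓ Subgroup.centralizer ((V Q : Subgroup G) : Set G)) ∧ a = c * (List.ofFn b).prod ∧ ∀ k : ℕ, k ≤ n → (fun x => (((List.ofFn b).take k).prod)⁻¹ * x * ((List.ofFn b).take k).prod) '' ((fun x => c⁻¹ * x * c) '' X) ⊆ Q) : ∃ Q : Subgroup G, IsPGroup p ↥Q ∧ ¬ p ∣ Q.index ∧ ∀ (X : Set G) (a : G), X ⊆ Q → (fun x => a⁻¹ * x * a) '' X ⊆ Q → ∃ c ∈ Subgroup.centralizer X, ∃ (n : ℕ) (b : Fin n → G), (∀ i, b i ∈ ⊤ ⊓ Subgroup.normalizer ((W Q : Subgroup G) : Set G) ∨ b i ∈ ⊤ ⊓ Subgroup.centralizer ((V Q : Subgroup G) : Set G)) ∧ a = c * (List.ofFn b).prod ∧ ∀ k : ℕ, k ≤ n → (fun x => (((List.ofFn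 b).take k).prod)⁻¹ * x * ((List.ofFn b).take k).prod) '' ((fun x => c⁻¹ * x * c) '' X) ⊆ Q := by
  have hL : ∀ H : Subgroup G, (P : Subgroup G) ⊓ Subgroup.centralizer ((P : Subgroup G) : Set G) ≤ H →
      H ≤ (P : Subgroup G) → ∃ Q : Subgroup G, Q ≤ Subgroup.normalizer (H : Set G) ∧ IsPGroup p ↥Q ∧
        ¬ p ∣ Q.relIndex (Subgroup.normalizer (H : Set G)) ∧ LC W V H Q := by
    intro H hZ hHP
    obtain ⟨Q, hQN, hQp, hQi, hQ⟩ := hloc H hZ hHP
    refine ⟨Q, hQN, hQp, hQi, ?_⟩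
    intro X a hX ha hXa
    obtain ⟨c, hc, n, b, hb, hab, hk⟩ := hQ X a hX ha hXa
    exact good_of_fin hc.2 n b (fun i => (hb i).imp (fun h => h.2) (fun h => h.2)) hab hk
  have hLC := lc_all P W V hW hV hL
  obtain ⟨-, hΨ⟩ := main_ind P W V hW hV hdiv hWZ hVmono hLC (Nat.card (P : Subgroup G) + 1) 0 (by omega)
  refine ⟨P, P.2, P.not_dvd_index, ?_⟩
  intro X a hX hXa
  have hcl : Subgroup.closure X ≤ (P : Subgroup G) := (Subgroup.closure_le _).mpr hX
  have hcla : cjs a (Subgroup.closure X) ≤ (P : Subgroup G) := by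
    have h1 : cjs a (Subgroup.closure X) = Subgroup.closure (cj a X) := by
      rw [cjs, MonoidHom.map_closure]
      congr 1
      ext u
      simp [cj, MulAut.conj_apply]
    rw [h1]
    exact (Subgroup.closure_le _).mpr hXa
  have hgood := (hΨ P (Subgroup.closure X) a hcl hcla (Nat.zero_le _)).mono (Subgroup.subset_closure)
  obtain ⟨c, hc, n, b, hb, hab, hk⟩ := fin_of_good hgood
  refine ⟨c, hc, n, b, ?_, hab, hk⟩
  intro i
  rcases hb i with h | h
  · exact Or.inl ⟨Subgroup.mem_top _, h⟩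
  · exact Or.inr ⟨Subgroup.mem_top _, h⟩

end Cfsg.Agent.S2002
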