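import Cfsg.Statements.S2001
import Cfsg.Agent.S2002
import Cfsg.Agent.Lib.Helper34.Alperin
import Cfsg.Agent.Lib.Helper34.SylIn2

set_option autoImplicit false
open Cfsg

namespace Cfsg.Agent.S2001

open Cfsg.Agent.Lib.Helper34.Alperin Cfsg.Agent.Lib.Helper34.SylIn2
open Cfsg.Agent.S2002 (centralizer_cjs normalizer_le_W card_lt_of_le_of_mem center_ne_bot sylIn_inf_normal)
open scoped commutatorElement

section basics

variable {G : Type*} [Group G]

theorem cjs_inf (g : G) (A B : Subgroup G) : cjs g (A ⊓ B) = cjs g A ⊓ cjs g B :=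
  Subgroup.map_inf _ _ _ (MulAut.conj g⁻¹).injective

theorem cjs_sup (g : G) (A B : Subgroup G) : cjs g (A ⊔ B) = cjs g A ⊔ cjs g B :=
  Subgroup.map_sup _ _ _

theorem cjs_comm (g : G) (A B : Subgroup G) : cjs g ⁅A, B⁆ = ⁅cjs g A, cjs g B⁆ :=
  Subgroup.map_commutator _ _ _

/-- the product of the two transfer terms of the Sylow subgroup `S` -/
def FF (W V : Subgroup G → Subgroup G) (S : Subgroup G) : Subgroup G :=
  (S ⊓ ⁅Subgroup.normalizer ((W S : Subgroup G) : Set G), Subgroup.normalizer ((W S : Subgroup G) : Set G)⁆) ⊔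
  (S ⊓ ⁅Subgroup.centralizer ((V S : Subgroup G) : Set G), Subgroup.centralizer ((V S : Subgroup G) : Set G)⁆)

theorem FF_cjs {p : ℕ} (W V : Subgroup G → Subgroup G) (hW : Cfsg.IsConjugacyFunctor p W)
    (hV : Cfsg.IsConjugacyFunctor p V) (Q : Subgroup G) (hQ : IsPGroup p Q) (g : G) :
    FF W V (cjs g Q) = cjs g (FF W V Q) := by
  have hW' : W (cjs g Q) = cjs g (W Q) := (hW Q hQ).2.2 g⁻¹
  have hV' : V (cjs g Q) = cjs g (V Q) := (hV Q hQ).2.2 g⁻¹
  unfold FF
  rw [hW', hV', normalizer_cjs, centralizer_cjs, cjs_sup, cjs_inf, cjs_inf, cjs_comm, cjs_comm]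

/-- transfer-goodness: the commutators `[x, b]`, `x ∈ X`, lie in `F` -/
def TG (F : Subgroup G) (X : Set G) (b : G) : Prop := ∀ x ∈ X, x⁻¹ * (b⁻¹ * x * b) ∈ F

theorem TG.one (F : Subgroup G) (X : Set G) : TG F X 1 := by
  intro x _
  have e : x⁻¹ * ((1 : G)⁻¹ * x * 1) = 1 := by group
  rw [e]; exact F.one_mem

theorem TG.mono {F : Subgroup G} {X Y : Set G} {b : G} (h : TG F X b) (hYX : Y ⊆ X) : TG F Y b :=
  fun x hx => h x (hYX hx)

theorem TG.trans {F : Subgroup G} {X : Set G} {a b : G} (h₁ : TG F X a) (h₂ : TG F (cj a X) b) :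
    TG F X (a * b) := by
  intro x hx
  have h3 := h₁ x hx
  have h4 := h₂ (a⁻¹ * x * a) ⟨x, hx, rfl⟩
  have e : x⁻¹ * ((a * b)⁻¹ * x * (a * b)) =
      (x⁻¹ * (a⁻¹ * x * a)) * ((a⁻¹ * x * a)⁻¹ * (b⁻¹ * (a⁻¹ * x * a) * b)) := by group
  rw [e]; exact F.mul_mem h3 h4

theorem TG.of_centralizer {F : Subgroup G} {X : Set G} {c : G} (hc : c ∈ Subgroup.centralizer X) :
    TG F X c := by
  intro x hx
  have h1 : x * c = c * x := Subgroup.mem_centralizer_iff.mp hc x hx
  have e : x⁻¹ * (c⁻¹ * x * c) = 1 := by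
    rw [mul_assoc c⁻¹ x c, h1]; group
  rw [e]; exact F.one_mem

/-- local control of transfer in `N(T)` with respect to `Q`, as an inclusion of subgroups -/
def LT (W V : Subgroup G → Subgroup G) (T Q : Subgroup G) : Prop :=
  Q ⊓ ⁅Subgroup.normalizer (T : Set G), Subgroup.normalizer (T : Set G)⁆ ≤
    (Q ⊓ ⁅Subgroup.normalizer (T : Set G) ⊓ Subgroup.normalizer ((W Q : Subgroup G) : Set G),
         Subgroup.normalizer (T : Set G) ⊓ Subgroup.normalizer ((W Q : Subgroup G) : Set G)⁆) ⊔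
    (Q ⊓ ⁅Subgroup.normalizer (T : Set G) ⊓ Subgroup.centralizer ((V Q : Subgroup G) : Set G),
         Subgroup.normalizer (T : Set G) ⊓ Subgroup.centralizer ((V Q : Subgroup G) : Set G)⁆)

theorem LT_conj {p : ℕ} (W V : Subgroup G → Subgroup G) (hW : Cfsg.IsConjugacyFunctor p W)
    (hV : Cfsg.IsConjugacyFunctor p V) {T Q : Subgroup G} (hQ : IsPGroup p Q) (h : LT W V T Q) (g : G) :
    LT W V (cjs g T) (cjs g Q) := by
  have hW' : W (cjs g Q) = cjs g (W Q) := (hW Q hQ).2.2 g⁻¹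
  have hV' : V (cjs g Q) = cjs g (V Q) := (hV Q hQ).2.2 g⁻¹
  have h1 := cjs_mono h g
  rw [cjs_sup, cjs_inf, cjs_inf, cjs_inf, cjs_comm, cjs_comm, cjs_comm, cjs_inf, cjs_inf] at h1
  unfold LT
  rw [hW', hV', normalizer_cjs, normalizer_cjs, centralizer_cjs]
  exact h1

end basics

section main

variable {G : Type*} [Group G] [Finite G] {p : ℕ} [Fact p.Prime]

theorem loc_all (P : Sylow p G) (L : Subgroup G → Subgroup G → Prop)
    (hconj : ∀ (T Q : Subgroup G) (g : G), IsPGroup p Q → L T Q → L (cjs g T) (cjs g Q))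
    (hL : ∀ H : Subgroup G, (P : Subgroup G) ⊓ Subgroup.centralizer ((P : Subgroup G) : Set G) ≤ H →
      H ≤ (P : Subgroup G) → ∃ Q : Subgroup G, Q ≤ Subgroup.normalizer (H : Set G) ∧ IsPGroup p ↥Q ∧
        ¬ p ∣ Q.relIndex (Subgroup.normalizer (H : Set G)) ∧ L H Q)
    (S : Sylow p G) (T Q : Subgroup G)
    (hZT : (S : Subgroup G) ⊓ Subgroup.centralizer ((S : Subgroup G) : Set G) ≤ T) (hTS : T ≤ S)
    (hQN : Q ≤ Subgroup.normalizer (T : Set G)) (hQp : IsPGroup p Q)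
    (hQi : ¬ p ∣ Q.relIndex (Subgroup.normalizer (T : Set G))) : L T Q := by
  obtain ⟨g, hg⟩ := MulAction.exists_smul_eq G P S
  have hSmem : ∀ x, x ∈ (S : Subgroup G) ↔ g⁻¹ * x * g ∈ (P : Subgroup G) := fun x => by
    rw [← hg]; exact mem_smul_sylow P g x
  have hZH : (P : Subgroup G) ⊓ Subgroup.centralizer ((P : Subgroup G) : Set G) ≤ cjs g T := by
    intro z hz
    rw [mem_cjs]
    apply hZT
    have e0 : g⁻¹ * (g * z * g⁻¹) * g = z := by group
    refine ⟨(hSmem _).mpr (by rw [e0]; exact hz.1), ?_⟩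
    refine Subgroup.mem_centralizer_iff.mpr ?_
    intro s hs
    have hs' := (hSmem s).mp hs
    have := Subgroup.mem_centralizer_iff.mp hz.2 _ hs'
    calc s * (g * z * g⁻¹) = g * ((g⁻¹ * s * g) * z) * g⁻¹ := by group
      _ = g * (z * (g⁻¹ * s * g)) * g⁻¹ := by rw [this]
      _ = g * z * g⁻¹ * s := by group
  have hHP : cjs g T ≤ P := by
    intro h hh
    have := (hSmem _).mp (hTS (mem_cjs.mp hh))
    simpa [mul_assoc] using this
  obtain ⟨Q₀, hQ₀N, hQ₀p, hQ₀i, hLC₀⟩ := hL (cjs g T) hZH hHP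
  have hT : cjs g⁻¹ (cjs g T) = T := by
    rw [cjs_cjs]
    ext x
    rw [mem_cjs]
    simp
  have hLC₁ : L T (cjs g⁻¹ Q₀) := by
    have := hconj _ _ g⁻¹ hQ₀p hLC₀
    rwa [hT] at this
  have hN : Subgroup.normalizer (T : Set G) =
      cjs g⁻¹ (Subgroup.normalizer ((cjs g T : Subgroup G) : Set G)) := by
    rw [← normalizer_cjs, hT]
  have hQ₁N : cjs g⁻¹ Q₀ ≤ Subgroup.normalizer (T : Set G) := by
    rw [hN]; exact cjs_mono hQ₀N _
  have hQ₁p : IsPGroup p (cjs g⁻¹ Q₀) := hQ₀p.map _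
  have hQ₁i : ¬ p ∣ (cjs g⁻¹ Q₀).relIndex (Subgroup.normalizer (T : Set G)) := by
    rw [hN, relIndex_cjs]; exact hQ₀i
  obtain ⟨m, hm, hmc⟩ := exists_conj_mem_of_sylIn hQ₁N hQ₁p hQ₁i hQN hQp
  have hmN : m ∈ Subgroup.normalizer (T : Set G) := pGen_le _ hm
  have hle : Q ≤ cjs m⁻¹ (cjs g⁻¹ Q₀) := by
    intro x hx
    rw [mem_cjs]
    simpa using hmc x hx
  have hge : cjs m⁻¹ (cjs g⁻¹ Q₀) ≤ Q := by
    apply le_of_sylIn hle ?_ (hQ₁p.map _) hQi
    have : cjs m⁻¹ (Subgroup.normalizer (T : Set G)) = Subgroup.normalizer (T : Set G) :=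
      cjs_eq_of_mem (Subgroup.inv_mem _ hmN)
    rw [← this]; exact cjs_mono hQ₁N _
  have hQeq : Q = cjs m⁻¹ (cjs g⁻¹ Q₀) := le_antisymm hle hge
  have hT2 : cjs m⁻¹ T = T := cjs_eq_of_mem_normalizer (Subgroup.inv_mem _ hmN)
  have := hconj _ _ m⁻¹ hQ₁p hLC₁
  rwa [hT2, ← hQeq] at this

/-- transfer in `N(T)` is controlled by the Sylow subgroup `S` -/
def Theta (W V : Subgroup G → Subgroup G) (k : ℕ) : Prop :=
  ∀ (S : Sylow p G) (T : Subgroup G),
    (S : Subgroup G) ⊓ Subgroup.centralizer ((S : Subgroup G) : Set G) ≤ T → T ≤ S →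
    ¬ p ∣ ((S : Subgroup G) ⊓ Subgroup.normalizer (T : Set G)).relIndex (Subgroup.normalizer (T : Set G)) →
    k ≤ Nat.card ((S : Subgroup G) ⊓ Subgroup.normalizer (T : Set G) : Subgroup G) →
    ((S : Subgroup G) ⊓ Subgroup.normalizer (T : Set G)) ⊓
      ⁅Subgroup.normalizer (T : Set G), Subgroup.normalizer (T : Set G)⁆ ≤ FF W V S

/-- fusion of subgroups of order at least `k` is transfer-good -/
def Psi (W V : Subgroup G → Subgroup G) (k : ℕ) : Prop :=
  ∀ (S : Sylow p G) (R : Subgroup G) (a : G), R ≤ S → cjs a R ≤ S → k ≤ Nat.card R →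
    TG (FF W V S) (R : Set G) a

theorem theta_step (W V : Subgroup G → Subgroup G) (hW : Cfsg.IsConjugacyFunctor p W)
    (hV : Cfsg.IsConjugacyFunctor p V) (hdiv : p ∣ Nat.card G)
    (hWZ : ∀ H : Subgroup G, IsPGroup p ↥H → H ⊓ Subgroup.centralizer ((H : Subgroup G) : Set G) ≤ W H)
    (hVmono : ∀ H K : Subgroup G, IsPGroup p ↥H → IsPGroup p ↥K → H ≠ ⊥ → K ≠ ⊥ →
      H ⊓ Subgroup.centralizer ((H : Subgroup G) : Set G) ≤ K ⊓ Subgroup.centralizer ((K : Subgroup G) : Set G) →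
      V H ≤ V K)
    (hLT : ∀ (S : Sylow p G) (T Q : Subgroup G),
      (S : Subgroup G) ⊓ Subgroup.centralizer ((S : Subgroup G) : Set G) ≤ T → T ≤ S →
      Q ≤ Subgroup.normalizer (T : Set G) → IsPGroup p Q →
      ¬ p ∣ Q.relIndex (Subgroup.normalizer (T : Set G)) → LT W V T Q)
    (k : ℕ) (hΘ : Theta (p := p) W V (k + 1)) (hΨ : Psi (p := p) W V (k + 1)) : Theta (p := p) W V k := by
  intro S T hZT hTS hQi hk
  have hQS : (S : Subgroup G) ⊓ Subgroup.normalizer (T : Set G) ≤ S := inf_le_left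
  have hQN : (S : Subgroup G) ⊓ Subgroup.normalizer (T : Set G) ≤ Subgroup.normalizer (T : Set G) := inf_le_right
  have hQp : IsPGroup p ((S : Subgroup G) ⊓ Subgroup.normalizer (T : Set G) : Subgroup G) := S.2.to_le hQS
  have hTQ : T ≤ (S : Subgroup G) ⊓ Subgroup.normalizer (T : Set G) := le_inf hTS Subgroup.le_normalizer
  generalize hQdef : (S : Subgroup G) ⊓ Subgroup.normalizer (T : Set G) = Q at *
  have hZSQ : (S : Subgroup G) ⊓ Subgroup.centralizer ((S : Subgroup G) : Set G) ≤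
      Q ⊓ Subgroup.centralizer (Q : Set G) :=
    le_inf (hZT.trans hTQ) (inf_le_right.trans (Subgroup.centralizer_le hQS))
  have hSne : (S : Subgroup G) ≠ ⊥ := S.ne_bot_of_dvd_card hdiv
  have hZne := center_ne_bot S.2 hSne
  have hQne : Q ≠ ⊥ := by
    intro h
    apply hZne
    rw [eq_bot_iff, ← h]
    exact hZT.trans hTQ
  have hVS : V S ≤ V Q := hVmono S Q S.2 hQp hSne hQne hZSQ
  have hCV : Subgroup.centralizer ((V Q : Subgroup G) : Set G) ≤
      Subgroup.centralizer ((V (S : Subgroup G) : Subgroup G) : Set G) :=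
    Subgroup.centralizer_le (fun x hx => hVS hx)
  have hlt := hLT S T Q hZT hTS hQN hQp hQi
  refine le_trans hlt (sup_le ?_ ?_)
  · by_cases hQeq : Q = S
    · refine le_trans ?_ (le_sup_left : _ ≤ FF W V S)
      rw [hQeq]
      exact inf_le_inf_left _ (Subgroup.commutator_mono inf_le_right inf_le_right)
    · have hWQ : W Q ≤ Q := (hW Q hQp).1
      have hNQ := normalizer_le_W W hW Q hQp
      obtain ⟨x, hxS, hxN, hxQ⟩ := exists_mem_normalizer_notMem S hQS hQeq
      have hQR₁ : Q ≤ (S : Subgroup G) ⊓ Subgroup.normalizer ((W Q : Subgroup G) : Set G) :=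
        le_inf hQS (Subgroup.le_normalizer.trans hNQ)
      have hxR₁ : x ∈ (S : Subgroup G) ⊓ Subgroup.normalizer ((W Q : Subgroup G) : Set G) := ⟨hxS, hNQ hxN⟩
      have hcard := card_lt_of_le_of_mem hQR₁ hxR₁ hxQ
      obtain ⟨Q₂, hR₁Q₂, hQ₂N, hQ₂p, hQ₂i⟩ := exists_sylIn_ge
        (inf_le_right : (S : Subgroup G) ⊓ Subgroup.normalizer ((W Q : Subgroup G) : Set G) ≤ _)
        (S.2.to_le inf_le_left)
      obtain ⟨S', hS'⟩ := hQ₂p.exists_le_sylow
      have hQ₂eq : (S' : Subgroup G) ⊓ Subgroup.normalizer ((W Q : Subgroup G) : Set G) = Q₂ :=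
        le_antisymm (le_of_sylIn (le_inf hS' hQ₂N) inf_le_right (S'.2.to_le inf_le_left) hQ₂i)
          (le_inf hS' hQ₂N)
      have hQS' : Q ≤ S' := hQR₁.trans (hR₁Q₂.trans hS')
      have hZ' : (S' : Subgroup G) ⊓ Subgroup.centralizer ((S' : Subgroup G) : Set G) ≤ W Q := by
        intro z hz
        apply hWZ Q hQp
        have hzQ : z ∈ Q := by
          have h1 : (S' : Subgroup G) ⊓ Subgroup.normalizer (T : Set G) ≤ Q :=
            le_of_sylIn (le_inf hQS' hQN) inf_le_right (S'.2.to_le inf_le_left) hQi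
          apply h1
          refine ⟨hz.1, ?_⟩
          apply Subgroup.centralizer_le_normalizer
          exact Subgroup.centralizer_le (hTQ.trans hQS') hz.2
        exact ⟨hzQ, Subgroup.centralizer_le hQS' hz.2⟩
      have hT₂S' : W Q ≤ S' := hWQ.trans hQS'
      have hk' : k + 1 ≤ Nat.card ((S' : Subgroup G) ⊓ Subgroup.normalizer ((W Q : Subgroup G) : Set G) : Subgroup G) := by
        rw [hQ₂eq]
        have := Subgroup.card_le_of_le hR₁Q₂
        omega
      have hΘ' := hΘ S' (W Q) hZ' hT₂S' (by rw [hQ₂eq]; exact hQ₂i) hk'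
      obtain ⟨v, hv⟩ := MulAction.exists_smul_eq G S S'
      have hS'mem : ∀ x, x ∈ (S' : Subgroup G) ↔ v⁻¹ * x * v ∈ (S : Subgroup G) := fun x => by
        rw [← hv]; exact mem_smul_sylow S v x
      have hS'coe : cjs v (S' : Subgroup G) = S := by
        ext u
        rw [mem_cjs, hS'mem]
        have : v⁻¹ * (v * u * v⁻¹) * v = u := by group
        rw [this]
      have hR₁v : cjs v ((S : Subgroup G) ⊓ Subgroup.normalizer ((W Q : Subgroup G) : Set G)) ≤ S := by
        have h6 := cjs_mono (hR₁Q₂.trans hS') v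
        rwa [hS'coe] at h6
      have hGv : TG (FF W V S)
          (((S : Subgroup G) ⊓ Subgroup.normalizer ((W Q : Subgroup G) : Set G) : Subgroup G) : Set G) v :=
        hΨ S _ v inf_le_left hR₁v (by omega)
      have hFF : FF W V S = cjs v (FF W V S') := by
        rw [← FF_cjs W V hW hV S' S'.2 v, hS'coe]
      intro a ha
      have haQ₂ : a ∈ (S' : Subgroup G) ⊓ Subgroup.normalizer ((W Q : Subgroup G) : Set G) := by
        rw [hQ₂eq]; exact hR₁Q₂ (hQR₁ ha.1)
      have ha' : a ∈ FF W V S' :=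
        hΘ' ⟨haQ₂, Subgroup.commutator_mono inf_le_right inf_le_right ha.2⟩
      have h1 : v⁻¹ * a * v ∈ FF W V S := by
        rw [hFF, mem_cjs]
        have e : v * (v⁻¹ * a * v) * v⁻¹ = a := by group
        rw [e]; exact ha'
      have h2 := hGv a (hQR₁ ha.1)
      have e2 : a = (v⁻¹ * a * v) * (a⁻¹ * (v⁻¹ * a * v))⁻¹ := by group
      rw [e2]; exact Subgroup.mul_mem _ h1 (Subgroup.inv_mem _ h2)
  · refine le_trans ?_ (le_sup_right : _ ≤ FF W V S)
    exact inf_le_inf hQS (Subgroup.commutator_mono (inf_le_right.trans hCV) (inf_le_right.trans hCV))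

theorem star_lemma (W V : Subgroup G → Subgroup G) (k : ℕ) (hΘ : Theta (p := p) W V k)
    (hΨ : Psi (p := p) W V (k + 1)) (S : Sylow p G) (D : Subgroup G) (hDS : D ≤ S) (x : G)
    (hxN : x ∈ Subgroup.normalizer (D : Set G))
    (hSyl : ¬ p ∣ ((S : Subgroup G) ⊓ Subgroup.normalizer (D : Set G)).relIndex (Subgroup.normalizer (D : Set G)))
    (hkD : k ≤ Nat.card D) : TG (FF W V S) (D : Set G) x := by
  have hCSi : ¬ p ∣ ((S : Subgroup G) ⊓ Subgroup.centralizer (D : Set G)).relIndex (Subgroup.centralizer (D : Set G)) := by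
    have h1 := sylIn_inf_normal hSyl (Subgroup.centralizer_le_normalizer (D : Set G))
      (Subgroup.normal_subgroupOf_centralizer_normalizer (D : Set G))
    have h2 : (S : Subgroup G) ⊓ Subgroup.normalizer (D : Set G) ⊓ Subgroup.centralizer (D : Set G) =
        (S : Subgroup G) ⊓ Subgroup.centralizer (D : Set G) := by
      rw [inf_assoc, inf_eq_right.mpr (Subgroup.centralizer_le_normalizer (D : Set G))]
    rwa [h2] at h1
  have hcjCS : cjs x ((S : Subgroup G) ⊓ Subgroup.centralizer (D : Set G)) ≤ Subgroup.centralizer (D : Set G) := by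
    have h1 : cjs x (Subgroup.centralizer (D : Set G)) = Subgroup.centralizer (D : Set G) := by
      rw [← centralizer_cjs, cjs_eq_of_mem_normalizer hxN]
    have h2 := cjs_mono (inf_le_right : (S : Subgroup G) ⊓ Subgroup.centralizer (D : Set G) ≤ _) x
    rwa [h1] at h2
  obtain ⟨m, hm, hmc⟩ := exists_conj_mem_of_sylIn
    (inf_le_right : (S : Subgroup G) ⊓ Subgroup.centralizer (D : Set G) ≤ Subgroup.centralizer (D : Set G))
    (S.2.to_le inf_le_left) hCSi hcjCS ((S.2.to_le inf_le_left).map _)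
  have hmC : m ∈ Subgroup.centralizer (D : Set G) := pGen_le _ hm
  have hx'D : cjs (x * m) D = D := by
    rw [← cjs_cjs, cjs_eq_of_mem_normalizer hxN,
      cjs_eq_of_mem_normalizer (Subgroup.centralizer_le_normalizer (D : Set G) hmC)]
  have hx'CS : cjs (x * m) ((S : Subgroup G) ⊓ Subgroup.centralizer (D : Set G)) ≤
      (S : Subgroup G) ⊓ Subgroup.centralizer (D : Set G) := by
    rw [← cjs_cjs]
    intro u hu
    have h1 := hmc _ (mem_cjs.mp hu)
    have e : m⁻¹ * (m * u * m⁻¹) * m = u := by group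
    rwa [e] at h1
  by_cases hCD : (S : Subgroup G) ⊓ Subgroup.centralizer (D : Set G) ≤ D
  · have hZD : (S : Subgroup G) ⊓ Subgroup.centralizer ((S : Subgroup G) : Set G) ≤ D :=
      (inf_le_inf_left _ (Subgroup.centralizer_le hDS)).trans hCD
    have hDQ₀ : D ≤ (S : Subgroup G) ⊓ Subgroup.normalizer (D : Set G) := le_inf hDS Subgroup.le_normalizer
    have h := hΘ S D hZD hDS hSyl (hkD.trans (Subgroup.card_le_of_le hDQ₀))
    intro d hd
    apply h
    have hd' : x⁻¹ * d * x ∈ D := by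
      have := (Subgroup.mem_normalizer_iff.mp (Subgroup.inv_mem _ hxN) d).mp hd
      simpa using this
    refine ⟨hDQ₀ (D.mul_mem (D.inv_mem hd) hd'), ?_⟩
    have e : d⁻¹ * (x⁻¹ * d * x) = ⁅d⁻¹, x⁻¹⁆ := by rw [commutatorElement_def]; group
    rw [e]
    exact Subgroup.commutator_mem_commutator (Subgroup.le_normalizer (D.inv_mem hd)) (Subgroup.inv_mem _ hxN)
  · have hD'S : D ⊔ ((S : Subgroup G) ⊓ Subgroup.centralizer (D : Set G)) ≤ S := sup_le hDS inf_le_left
    have hx'D' : cjs (x * m) (D ⊔ ((S : Subgroup G) ⊓ Subgroup.centralizer (D : Set G))) ≤ S := by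
      have h1 : cjs (x * m) (D ⊔ ((S : Subgroup G) ⊓ Subgroup.centralizer (D : Set G))) =
          cjs (x * m) D ⊔ cjs (x * m) ((S : Subgroup G) ⊓ Subgroup.centralizer (D : Set G)) :=
        Subgroup.map_sup _ _ _
      rw [h1, hx'D]
      exact sup_le hDS (hx'CS.trans inf_le_left)
    have hlt : Nat.card D < Nat.card (D ⊔ ((S : Subgroup G) ⊓ Subgroup.centralizer (D : Set G)) : Subgroup G) := by
      obtain ⟨u, hu, huD⟩ := SetLike.not_le_iff_exists.mp hCD
      exact card_lt_of_le_of_mem le_sup_left (Subgroup.mem_sup_right hu) huD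
    have g1 := hΨ S (D ⊔ ((S : Subgroup G) ⊓ Subgroup.centralizer (D : Set G))) (x * m) hD'S hx'D' (by omega)
    have g1' : TG (FF W V S) (D : Set G) (x * m) :=
      g1.mono (show (D : Set G) ⊆ ((D ⊔ ((S : Subgroup G) ⊓ Subgroup.centralizer (D : Set G)) : Subgroup G) : Set G)
        from (le_sup_left : D ≤ _))
    have g2 : TG (FF W V S) (cj (x * m) (D : Set G)) m⁻¹ := by
      rw [← coe_cjs, hx'D]
      exact TG.of_centralizer (Subgroup.inv_mem _ hmC)
    have h5 := g1'.trans g2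
    have e : x * m * m⁻¹ = x := by group
    rwa [e] at h5

theorem psi_step (W V : Subgroup G → Subgroup G) (k : ℕ) (hΘ : Theta (p := p) W V k)
    (hΨ : Psi (p := p) W V (k + 1)) : Psi (p := p) W V k := by
  intro S R a hRS hRa hk
  have chain : ∀ (l : List (Sylow p G × G)) (R' : Subgroup G), R' ≤ S → k ≤ Nat.card R' →
      Chain S (R' : Set G) l → TG (FF W V S) (R' : Set G) (l.map Prod.snd).prod := by
    intro l
    induction l with
    | nil =>
      intro R' hR' _ _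
      simpa using TG.one (FF W V S) (R' : Set G)
    | cons qx l ih =>
      intro R' hR' hk' hch
      obtain ⟨Q, x⟩ := qx
      obtain ⟨hstep, hsub, hrest⟩ := hch
      have hR'D : R' ≤ (S : Subgroup G) ⊓ (Q : Subgroup G) := hsub
      have g0 := star_lemma W V k hΘ hΨ S ((S : Subgroup G) ⊓ (Q : Subgroup G)) inf_le_left x hstep.1 hstep.2.1
        (hk'.trans (Subgroup.card_le_of_le hR'D))
      have g1 : TG (FF W V S) (R' : Set G) x := g0.mono hR'D
      have hcjs : cjs x R' ≤ S := by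
        have h1 : cjs x ((S : Subgroup G) ⊓ (Q : Subgroup G)) = (S : Subgroup G) ⊓ (Q : Subgroup G) :=
          cjs_eq_of_mem_normalizer hstep.1
        exact ((cjs_mono hR'D x).trans h1.le).trans inf_le_left
      rw [← coe_cjs] at hrest
      have g2 := ih (cjs x R') hcjs (by rw [card_cjs]; exact hk') hrest
      rw [coe_cjs] at g2
      simpa using g1.trans g2
  obtain ⟨l, hl, rfl⟩ := fus_main S (R : Set G) a hRS (by rw [← coe_cjs]; exact hRa)
  exact chain l R hRS hk hl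

theorem main_ind (P : Sylow p G) (W V : Subgroup G → Subgroup G) (hW : Cfsg.IsConjugacyFunctor p W)
    (hV : Cfsg.IsConjugacyFunctor p V) (hdiv : p ∣ Nat.card G)
    (hWZ : ∀ H : Subgroup G, IsPGroup p ↥H → H ⊓ Subgroup.centralizer ((H : Subgroup G) : Set G) ≤ W H)
    (hVmono : ∀ H K : Subgroup G, IsPGroup p ↥H → IsPGroup p ↥K → H ≠ ⊥ → K ≠ ⊥ →
      H ⊓ Subgroup.centralizer ((H : Subgroup G) : Set G) ≤ K ⊓ Subgroup.centralizer ((K : Subgroup G) : Set G) →
      V H ≤ V K)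
    (hLT : ∀ (S : Sylow p G) (T Q : Subgroup G),
      (S : Subgroup G) ⊓ Subgroup.centralizer ((S : Subgroup G) : Set G) ≤ T → T ≤ S →
      Q ≤ Subgroup.normalizer (T : Set G) → IsPGroup p Q →
      ¬ p ∣ Q.relIndex (Subgroup.normalizer (T : Set G)) → LT W V T Q) :
    ∀ d k : ℕ, Nat.card (P : Subgroup G) < k + d → Theta (p := p) W V k ∧ Psi (p := p) W V k := by
  have hcard : ∀ S : Sylow p G, Nat.card (S : Subgroup G) = Nat.card (P : Subgroup G) := by
    intro S
    rw [Sylow.card_eq_multiplicity, Sylow.card_eq_multiplicity]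
  intro d
  induction d with
  | zero =>
    intro k hk
    constructor
    · intro S T _ _ _ hk'
      exfalso
      have h1 := Subgroup.card_le_of_le (inf_le_left : (S : Subgroup G) ⊓ Subgroup.normalizer (T : Set G) ≤ S)
      have h2 := hcard S
      omega
    · intro S R a hRS _ hk'
      exfalso
      have h1 := Subgroup.card_le_of_le hRS
      have h2 := hcard S
      omega
  | succ d ih =>
    intro k hk
    obtain ⟨hΘ, hΨ⟩ := ih (k + 1) (by omega)
    have hΘk := theta_step W V hW hV hdiv hWZ hVmono hLT k hΘ hΨ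
    exact ⟨hΘk, psi_step W V k hΘk hΨ⟩

end main

/-- Let p be a prime dividing the order of the finite group G, P a Sylow p-subgroup, W a conjugacy functor for p on G with Z(H) ≤ W(H) for every nontrivial p-subgroup H, and V a central functor: a conjugacy functor with V(H) ≤ Z(H), and V(H) ≤ V(K) whenever Z(H) ≤ Z(K), for nontrivial p-subgroups H, K. Say that W with V controls transfer in a subgroup L when some Sylow p-subgroup Q of L satisfies Q ∩ L' = (Q ∩ (N_L(W(Q)))')·(Q ∩ (C_L(V(Q)))') as a product of two subgroups. If W with V controls transfer in N_G(H) for every subgroup H with Z(P) ≤ H ≤ P, then W with V controls transfer in G. -/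
theorem result {G : Type*} [Group G] [Finite G] {p : ℕ} [Fact p.Prime] (hdiv : p ∣ Nat.card G) (P : Sylow p G) (W V : Subgroup G → Subgroup G) (hW : Cfsg.IsConjugacyFunctor p W) (hV : Cfsg.IsConjugacyFunctor p V) (hWZ : ∀ H : Subgroup G, IsPGroup p ↥H → H ⊓ Subgroup.centralizer ((H : Subgroup G) : Set G) ≤ W H) (hVZ : ∀ H : Subgroup G, IsPGroup p ↥H → V H ≤ H ⊓ Subgroup.centralizer ((H : Subgroup G) : Set G)) (hVmono : ∀ H K : Subgroup G, IsPGroup p ↥H → IsPGroup p ↥K → H ≠ ⊥ → K ≠ ⊥ → H ⊓ Subgroup.centralizer ((H : Subgroup G) : Set G) ≤ K ⊓ Subgroup.centralizer ((K : Subgroup G) : Set G) → V H ≤ V K) (hloc : ∀ H : Subgroup G, (P : Subgroup G) ⊓ Subgroup.centralizer (((P : Subgroup G) : Subgroup G) : Set G) ≤ H → H ≤ (P : Subgroup G) → ∃ Q : Subgroup G, Q ≤ Subgroup.normalizer ((H : Subgroup G) : Set G) ∧ IsPGroup p ↥Q ∧ ¬ p ∣ (Q).relIndex (Subgroup.normalizer ((H : Subgroup G) : Set G)) ∧ ∀ x : G, x ∈ Q ⊓ ⁅Subgroup.normalizer ((H : Subgroup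 G) : Set G), Subgroup.normalizer ((H : Subgroup G) : Set G)⁆ ↔ ∃ a ∈ Q ⊓ ⁅Subgroup.normalizer ((H : Subgroup G) : Set G) ⊓ Subgroup.normalizer ((W Q : Subgroup G) : Set G), Subgroup.normalizer ((H : Subgroup G) : Set G) ⊓ Subgroup.normalizer ((W Q : Subgroup G) : Set G)⁆, ∃ b ∈ Q ⊓ ⁅Subgroup.normalizer ((H : Subgroup G) : Set G) ⊓ Subgroup.centralizer ((V Q : Subgroup G) : Set G), Subgroup.normalizer ((H : Subgroup G) : Set G) ⊓ Subgroup.centralizer ((V Q : Subgroup G) : Set G)⁆, x = a * b) : ∃ Q : Subgroup G, IsPGroup p ↥Q ∧ ¬ p ∣ Q.index ∧ ∀ x : G, x ∈ Q ⊓ commutator G ↔ ∃ a ∈ Q ⊓ ⁅Subgroup.normalizer ((W Q : Subgroup G) : Set G), Subgroup.normalizer ((W Q : Subgroup G) : Set G)⁆, ∃ b ∈ Q ⊓ ⁅Subgroup.centralizer ((V Q : Subgroup G) : Set G), Subgroup.centralizer ((V Q : Subgroup G) : Set G)⁆, x = a * b := by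
  have hL : ∀ H : Subgroup G, (P : Subgroup G) ⊓ Subgroup.centralizer ((P : Subgroup G) : Set G) ≤ H →
      H ≤ (P : Subgroup G) → ∃ Q : Subgroup G, Q ≤ Subgroup.normalizer (H : Set G) ∧ IsPGroup p ↥Q ∧
        ¬ p ∣ Q.relIndex (Subgroup.normalizer (H : Set G)) ∧ LT W V H Q := by
    intro H hZ hHP
    obtain ⟨Q, hQN, hQp, hQi, hQ⟩ := hloc H hZ hHP
    refine ⟨Q, hQN, hQp, hQi, ?_⟩
    intro x hx
    obtain ⟨a, ha, b, hb, rfl⟩ := (hQ x).mp hx
    exact Subgroup.mul_mem_sup ha hb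
  have hLT := loc_all P (LT W V) (fun T Q g hQ h => LT_conj W V hW hV hQ h g) hL
  obtain ⟨-, hΨ⟩ := main_ind P W V hW hV hdiv hWZ hVmono hLT (Nat.card (P : Subgroup G) + 1) 0 (by omega)
  refine ⟨P, P.2, P.not_dvd_index, ?_⟩
  have hfoc : (P : Subgroup G) ⊓ commutator G ≤ FF W V P := by
    rw [inf_comm, Subgroup.commutator_inf_eq_focalSubgroup P, Subgroup.focalSubgroup_def, Subgroup.closure_le]
    rintro g ⟨hgP, x, hxP, u, rfl⟩
    have hux : u * x * u⁻¹ ∈ (P : Subgroup G) := by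
      have h1 : u * x * u⁻¹ = (x⁻¹ * ⁅x, u⁆)⁻¹ := by rw [commutatorElement_def]; group
      rw [h1]
      exact Subgroup.inv_mem _ (Subgroup.mul_mem _ (Subgroup.inv_mem _ hxP) hgP)
    have hcj : cjs u⁻¹ (Subgroup.zpowers x) ≤ P := by
      rw [cjs, MonoidHom.map_zpowers, Subgroup.zpowers_le]
      have h1 : (MulAut.conj u⁻¹⁻¹).toMonoidHom x = u * x * u⁻¹ := by simp [MulAut.conj_apply]
      rw [h1]; exact hux
    have hT := hΨ P (Subgroup.zpowers x) u⁻¹ (Subgroup.zpowers_le.mpr hxP) hcj (Nat.zero_le _) x⁻¹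
      (Subgroup.inv_mem _ (Subgroup.mem_zpowers x))
    have e : ⁅x, u⁆ = x⁻¹⁻¹ * (u⁻¹⁻¹ * x⁻¹ * u⁻¹) := by rw [commutatorElement_def]; group
    rw [e]; exact hT
  have hPC : (P : Subgroup G) ≤ Subgroup.centralizer ((V (P : Subgroup G) : Subgroup G) : Set G) := by
    intro y hy
    refine Subgroup.mem_centralizer_iff.mpr ?_
    intro z hz
    have hz' := (hVZ P P.2 hz).2
    exact (Subgroup.mem_centralizer_iff.mp hz' y hy).symm
  have key : ∀ a ∈ (P : Subgroup G), ∀ b ∈ (P : Subgroup G) ⊓ ⁅Subgroup.centralizer ((V (P : Subgroup G) : Subgroup G) : Set G), Subgroup.centralizer ((V (P : Subgroup G) : Subgroup G) : Set G)⁆,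
      a * b * a⁻¹ ∈ (P : Subgroup G) ⊓ ⁅Subgroup.centralizer ((V (P : Subgroup G) : Subgroup G) : Set G), Subgroup.centralizer ((V (P : Subgroup G) : Subgroup G) : Set G)⁆ := by
    intro a ha b hb
    refine ⟨Subgroup.mul_mem _ (Subgroup.mul_mem _ ha hb.1) (Subgroup.inv_mem _ ha), ?_⟩
    have e : a * b * a⁻¹ = ⁅a, b⁆ * b := by rw [commutatorElement_def]; group
    rw [e]
    exact Subgroup.mul_mem _ (Subgroup.commutator_mem_commutator (hPC ha) (hPC hb.1)) hb.2
  have hnorm : (P : Subgroup G) ⊓ ⁅Subgroup.normalizer ((W (P : Subgroup G) : Subgroup G) : Set G), Subgroup.normalizer ((W (P : Subgroup G) : Subgroup G) : Set G)⁆ ≤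
      Subgroup.normalizer ((((P : Subgroup G) ⊓ ⁅Subgroup.centralizer ((V (P : Subgroup G) : Subgroup G) : Set G), Subgroup.centralizer ((V (P : Subgroup G) : Subgroup G) : Set G)⁆ : Subgroup G)) : Set G) := by
    intro a ha
    refine Subgroup.mem_normalizer_iff.mpr ?_
    intro b
    constructor
    · intro hb
      exact key a ha.1 b hb
    · intro hb
      have := key a⁻¹ (Subgroup.inv_mem _ ha.1) _ hb
      have e : a⁻¹ * (a * b * a⁻¹) * a⁻¹⁻¹ = b := by group
      rwa [e] at this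
  have hcoe := Subgroup.coe_mul_of_left_le_normalizer_right _ _ hnorm
  intro x
  constructor
  · intro hx
    have hx' : x ∈ ((FF W V P : Subgroup G) : Set G) := hfoc hx
    unfold FF at hx'
    rw [hcoe] at hx'
    obtain ⟨a, ha, b, hb, rfl⟩ := hx'
    exact ⟨a, ha, b, hb, rfl⟩
  · rintro ⟨a, ha, b, hb, rfl⟩
    refine ⟨Subgroup.mul_mem _ ha.1 hb.1, ?_⟩
    rw [commutator_def]
    exact Subgroup.mul_mem _ (Subgroup.commutator_mono le_top le_top ha.2)
      (Subgroup.commutator_mono le_top le_top hb.2)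

end Cfsg.Agent.S2001
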