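import Cfsg.Statements.S2004
import Cfsg.Agent.Lib.Helper11.QuadLift

set_option autoImplicit false
open Cfsg

namespace Cfsg.Agent.S2004

/-- Let p be an odd prime and G a finite group such that SL₂(p) is not involved in N_G(P) for any nonidentity p-subgroup P of G. Then every section of G is p-stable in the normalizer form: in each section, whenever an element of the normalizer of a p-subgroup Q acts quadratically on Q, its image in N(Q)/C(Q) lies in O_p(N(Q)/C(Q)). -/
theorem result {G : Type*} [Group G] [Finite G] {p : ℕ} [Fact p.Prime] (hp : p ≠ 2) (h : ∀ P : Subgroup G, IsPGroup p ↥P → P ≠ ⊥ → ¬ Cfsg.Involves (Matrix.SpecialLinearGroup (Fin 2) (ZMod p)) ↥(Subgroup.normalizer ((P : Subgroup G) : Set G))) : ∀ (K R : Subgroup G) [hR : (R.subgroupOf K).Normal], Cfsg.IsNormalizerPStable p (↥K ⧸ R.subgroupOf K) := by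
  intro K R hR P hP g hg hq
  by_cases hbot : P = ⊥
  · subst hbot
    have h1 : (QuotientGroup.mk (s := (Subgroup.centralizer (((⊥ : Subgroup (↥K ⧸ R.subgroupOf K))) :
        Set (↥K ⧸ R.subgroupOf K))).subgroupOf (Subgroup.normalizer (((⊥ : Subgroup (↥K ⧸ R.subgroupOf K))) :
        Set (↥K ⧸ R.subgroupOf K)))) (⟨g, hg⟩ : ↥(Subgroup.normalizer (((⊥ : Subgroup (↥K ⧸ R.subgroupOf K))) :
        Set (↥K ⧸ R.subgroupOf K))))) = 1 := by
      rw [QuotientGroup.eq_one_iff, Subgroup.mem_subgroupOf, Subgroup.mem_centralizer_iff]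
      intro h hh
      have h0 : h = 1 := hh
      rw [h0]
      simp
    rw [h1]
    exact Subgroup.one_mem _
  · rcases Cfsg.Agent.Lib.Helper11.QuadStable.normalizer_dichotomy hp P hP g hg hq with h1 | h1
    · exact h1
    · exfalso
      obtain ⟨P₀, hP₀, hmap, hnorm⟩ := Cfsg.Agent.Lib.Helper11.QuadLift.exists_lift_normalizer
        (QuotientGroup.mk' (R.subgroupOf K)) (QuotientGroup.mk'_surjective _) P hP
      have hP₁ : IsPGroup p ↥(P₀.map K.subtype) := hP₀.map _
      have hP₁ne : P₀.map K.subtype ≠ ⊥ := by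
        intro h0
        apply hbot
        have h3 : P₀ = ⊥ := by
          rw [eq_bot_iff]
          intro x hx
          have h4 : (x : G) ∈ P₀.map K.subtype := ⟨x, hx, rfl⟩
          rw [h0, Subgroup.mem_bot] at h4
          rw [Subgroup.mem_bot]
          exact Subtype.ext h4
        rw [← hmap, h3, Subgroup.map_bot]
      apply h (P₀.map K.subtype) hP₁ hP₁ne
      have hmem : ∀ x : ↥(Subgroup.normalizer (P₀ : Set ↥K)),
          ((QuotientGroup.mk' (R.subgroupOf K)).comp (Subgroup.subtype _)) x ∈
            Subgroup.normalizer (P : Set (↥K ⧸ R.subgroupOf K)) := fun x => by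
        rw [← hnorm]
        exact ⟨x.1, x.2, rfl⟩
      have hφ₀ : Function.Surjective (MonoidHom.codRestrict
          ((QuotientGroup.mk' (R.subgroupOf K)).comp (Subgroup.subtype _)) _ hmem) := by
        rintro ⟨y, hy⟩
        have hy' : y ∈ (Subgroup.normalizer (P₀ : Set ↥K)).map (QuotientGroup.mk' (R.subgroupOf K)) :=
          hnorm.symm ▸ hy
        obtain ⟨x, hx, rfl⟩ := hy'
        exact ⟨⟨x, hx⟩, Subtype.ext rfl⟩
      have h2 : Cfsg.Involves (Matrix.SpecialLinearGroup (Fin 2) (ZMod p))
          ↥(Subgroup.normalizer (P₀ : Set ↥K)) :=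
        Cfsg.Agent.Lib.Helper11.QuadLift.involves_of_surjective _ hφ₀ h1
      have hι : ∀ x : ↥(Subgroup.normalizer (P₀ : Set ↥K)),
          (K.subtype.comp (Subgroup.subtype _)) x ∈
            Subgroup.normalizer ((P₀.map K.subtype : Subgroup G) : Set G) := fun x =>
        Subgroup.le_normalizer_map K.subtype ⟨x.1, x.2, rfl⟩
      have hιinj : Function.Injective (MonoidHom.codRestrict
          (K.subtype.comp (Subgroup.subtype _)) _ hι) := by
        intro x y hxy
        have h5 := congrArg Subtype.val hxy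
        exact Subtype.ext (Subtype.ext h5)
      exact Cfsg.Agent.Lib.Helper11.QuadLift.involves_of_injective _ hιinj h2

end Cfsg.Agent.S2004
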