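import Cfsg.Statements.S2132
import Cfsg.Agent.Lib.Helper27.McMain
import Cfsg.Agent.Lib.Helper27.McIso
import Cfsg.Agent.Lib.Helper26.McLInv
import Cfsg.Agent.Lib.Helper26.McPSI
import Cfsg.Agent.Lib.Helper51.McGEN4
import Cfsg.Agent.Lib.Helper51.McBRIDGE
import Cfsg.Agent.Lib.Helper21.McNSDC
import Cfsg.Agent.Lib.Helper21.McTRANSB
import Cfsg.Agent.Lib.Helper21.McEQV
import Cfsg.Agent.Lib.Helper97.OzOHOM
import Cfsg.Agent.Lib.Helper29.OzGENO
import Cfsg.Agent.Lib.Helper50.OzOFACTS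
import Cfsg.Agent.Lib.Helper93.OzRANGE
import Cfsg.Agent.Lib.Helper93.OzKER
import Cfsg.Agent.Lib.Helper86.CzK1STR
import Cfsg.Agent.Lib.Helper69.CzK1XS

set_option autoImplicit false
open Cfsg

namespace Cfsg.Agent.S2132

/-- The McLaughlin group (as a two-vector stabiliser in the automorphism group of the rank-24 lattice) has a single conjugacy class of involutions, and the centraliser of an involution is a non-split double cover of the alternating group of degree 8. -/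
theorem result : (∀ x y : ↥Cfsg.Spor.McL, orderOf x = 2 → orderOf y = 2 → IsConj x y) ∧ ∃ t : ↥Cfsg.Spor.McL, orderOf t = 2 ∧ Cfsg.IsNonsplitDoubleCover ↥(Subgroup.centralizer ({t} : Set ↥Cfsg.Spor.McL)) ↥(alternatingGroup (Fin 8)) :=
  ⟨Cfsg.Agent.Lib.Helper26.McLInv.mcl_inv_conj,
    Cfsg.Agent.Lib.Helper21.McTRANSB.main _ _ Cfsg.Agent.Lib.Helper27.McIso.iso_mcl
      (Cfsg.Agent.Lib.Helper27.McMain.main Cfsg.Agent.Lib.Helper97.OzOHOM.main
        Cfsg.Agent.Lib.Helper29.OzGENO.main Cfsg.Agent.Lib.Helper50.OzOFACTS.main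
        Cfsg.Agent.Lib.Helper93.OzRANGE.main Cfsg.Agent.Lib.Helper93.OzKER.main
        Cfsg.Agent.Lib.Helper86.CzK1STR.main Cfsg.Agent.Lib.Helper69.CzK1XS.main
        Cfsg.Agent.Lib.Helper26.McPSI.main Cfsg.Agent.Lib.Helper51.McGEN4.main
        Cfsg.Agent.Lib.Helper21.McNSDC.main Cfsg.Agent.Lib.Helper21.McEQV.main
        Cfsg.Agent.Lib.Helper51.McBRIDGE.main)⟩

end Cfsg.Agent.S2132
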