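import Cfsg.Statements.S2133
import Cfsg.Agent.Lib.Helper93.Cent2A
import Cfsg.Agent.Lib.Helper93.TransvCent

set_option autoImplicit false
open Cfsg

namespace Cfsg.Agent.S2133

/-- The Mathieu group M₂₄ (the automorphism group of the length-24 binary code) has an involution whose centraliser is isomorphic to the centraliser of a transvection in SL(5, 2) (a group of shape 2^{1+6}:GL(3, 2)). -/
theorem result (s : Matrix.SpecialLinearGroup (Fin 5) (ZMod 2)) (hs : (s : Matrix (Fin 5) (Fin 5) (ZMod 2)) = Matrix.transvection 0 1 1) : ∃ z : ↥Cfsg.M24, orderOf z = 2 ∧ Nonempty (↥(Subgroup.centralizer ({z} : Set ↥Cfsg.M24)) ≃* ↥(Subgroup.centralizer ({s} : Set (Matrix.SpecialLinearGroup (Fin 5) (ZMod 2))))) := by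
  classical
  open Cfsg.Agent.Lib.Helper93.Cent2A in
  refine ⟨zM, orderOf_zM, ?_⟩
  have hsz : rho zC = s := Subtype.ext (by rw [hs]; exact rho_zC)
  have hmem : ∀ c, rho c ∈ Subgroup.centralizer ({s} : Set (Matrix.SpecialLinearGroup (Fin 5) (ZMod 2))) := by
    intro c
    rw [Subgroup.mem_centralizer_singleton_iff, ← hsz, ← map_mul, ← map_mul, zC_comm c]
  let f : ↥(Subgroup.centralizer ({zM} : Set ↥Cfsg.M24)) →*
      ↥(Subgroup.centralizer ({s} : Set (Matrix.SpecialLinearGroup (Fin 5) (ZMod 2)))) :=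
    rho.codRestrict _ hmem
  have hf : Function.Injective f := fun a b h => rho_injective (congrArg Subtype.val h)
  have hcard : Nat.card ↥(Subgroup.centralizer ({s} : Set (Matrix.SpecialLinearGroup (Fin 5) (ZMod 2)))) ≤
      Nat.card ↥(Subgroup.centralizer ({zM} : Set ↥Cfsg.M24)) := by
    have h1 := card_le
    have h2 := Cfsg.Agent.Lib.Helper93.TransvCent.card_cent_le hs
    omega
  exact ⟨MulEquiv.ofBijective f (hf.bijective_of_nat_card_le hcard)⟩

end Cfsg.Agent.S2133
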