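import Cfsg.Statements.S2134
import Cfsg.Agent.Lib.Helper28.CeHe
import Cfsg.Agent.Lib.Helper28.CeMat

set_option autoImplicit false
open Cfsg

namespace Cfsg.Agent.S2134

/-- The Held group (presented on seven involutions, as in the definitions) has an involution whose centraliser is isomorphic to the centraliser of a transvection in SL(5, 2) (a group of shape 2^{1+6}:GL(3, 2)). -/
theorem result (s : Matrix.SpecialLinearGroup (Fin 5) (ZMod 2)) (hs : (s : Matrix (Fin 5) (Fin 5) (ZMod 2)) = Matrix.transvection 0 1 1) : ∃ z : Cfsg.Spor.He, orderOf z = 2 ∧ Nonempty (↥(Subgroup.centralizer ({z} : Set Cfsg.Spor.He)) ≃* ↥(Subgroup.centralizer ({s} : Set (Matrix.SpecialLinearGroup (Fin 5) (ZMod 2))))) := by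
  obtain ⟨z, hz, θ1, h1, r1⟩ := Cfsg.Agent.Lib.Helper28.CeHe.main
  obtain ⟨θ2, h2, r2⟩ := Cfsg.Agent.Lib.Helper28.CeMat.main
  have hsT : s = Cfsg.Agent.Lib.Helper28.CeMat.gT :=
    Subtype.ext (hs.trans Cfsg.Agent.Lib.Helper28.CeMat.gT_eq.symm)
  refine ⟨z, hz, ⟨?_⟩⟩
  rw [hsT]
  exact ((MulEquiv.subgroupCongr r1).symm.trans (MonoidHom.ofInjective h1).symm).trans
    ((MonoidHom.ofInjective h2).trans (MulEquiv.subgroupCongr r2))

end Cfsg.Agent.S2134
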