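import Cfsg.Statements.S2135
import Cfsg.Agent.Lib.Helper26.J3Cen3
import Cfsg.Agent.Lib.Helper26.J3CenQ
import Cfsg.Agent.Lib.Helper66.ESA5

set_option autoImplicit false
open Cfsg

namespace Cfsg.Agent.S2135

open Cfsg.Spor Cfsg.Agent.Lib.Helper26.J3Cen
open Cfsg.Agent.Lib.Helper26.J3Out (qm t' t_mul qt_ne)

/-- For any field with 4 elements and any element ω of it with ω² + ω + 1 = 0: in the Janko group J₃ (the group generated by explicit 9 × 9 matrices over that field built from ω, taken modulo its centre) all involutions are conjugate, and the centraliser C of an involution has a normal extraspecial subgroup Q of order 32 containing no elementary abelian subgroup of order 8, complemented in C, with C / Q isomorphic to the alternating group of degree 5 (shape 2^{1+4}_-:A₅). -/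
theorem result {F : Type*} [Field F] [Fintype F] (hF : Fintype.card F = 4) (ω : F) (hω : ω ^ 2 + ω + 1 = 0) : (∀ x y : Cfsg.Spor.J3 F ω, orderOf x = 2 → orderOf y = 2 → IsConj x y) ∧ ∃ t : Cfsg.Spor.J3 F ω, orderOf t = 2 ∧ ∃ (Q : Subgroup ↥(Subgroup.centralizer ({t} : Set (Cfsg.Spor.J3 F ω)))) (_ : Q.Normal), Cfsg.IsExtraspecial 2 Q ∧ Nat.card Q = 32 ∧ (∀ E : Subgroup Q, Cfsg.IsElementaryAbelian 2 E → Nat.card E ≤ 2 ^ 2) ∧ (∃ H : Subgroup ↥(Subgroup.centralizer ({t} : Set (Cfsg.Spor.J3 F ω))), Q.IsComplement' H) ∧ Nonempty (↥(Subgroup.centralizer ({t} : Set (Cfsg.Spor.J3 F ω))) ⧸ Q ≃* ↥(alternatingGroup (Fin 5))) := by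
  have h2 : (2 : F) = 0 := Cfsg.Agent.Lib.Helper26.J3Rep.two_eq_zero F hF
  have hd := j3_data h2 hω
  have : Finite (J3 F ω) :=
    Nat.finite_of_card_ne_zero (by rw [(Cfsg.Agent.Lib.Helper26.J3Main.main_thm h2 hω).2.2.1]; norm_num)
  have inv_of_order : ∀ x : J3 F ω, orderOf x = 2 → x * x = 1 ∧ x ≠ 1 := by
    intro x hx
    refine ⟨?_, ?_⟩
    · have := pow_orderOf_eq_one x
      rw [hx, pow_two] at this
      exact this
    · intro h
      rw [h, orderOf_one] at hx
      exact absurd hx (by norm_num)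
  refine ⟨?_, qm (t' h2 hω), ?_, ?_⟩
  · intro x y hx hy
    obtain ⟨g, hg⟩ := hd.conj x (inv_of_order x hx).1 (inv_of_order x hx).2
    obtain ⟨h, hh⟩ := hd.conj y (inv_of_order y hy).1 (inv_of_order y hy).2
    rw [isConj_iff]
    refine ⟨h * g⁻¹, ?_⟩
    rw [← hg, ← hh]
    group
  · exact orderOf_eq_prime (by rw [pow_two]; exact hd.t_sq) hd.t_ne
  -- the centraliser
  have hK : Nat.card (Subgroup.centralizer ({qm (t' h2 hω)} : Set (J3 F ω))) = 1920 := by
    rw [cent_eq h2 hω]; exact card_CJ h2 hω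
  have hQC : QH h2 hω ≤ CH h2 hω := (QH_le h2 hω).trans (SH_le h2 hω)
  have hCmem : ∀ c ∈ CH h2 hω,
      (qm c : J3 F ω) ∈ Subgroup.centralizer ({qm (t' h2 hω)} : Set (J3 F ω)) := by
    intro c hc
    exact CJ_le h2 hω (Subgroup.mem_map_of_mem _ hc)
  have hQJC : QJ h2 hω ≤ Subgroup.centralizer ({qm (t' h2 hω)} : Set (J3 F ω)) := by
    intro g hg
    obtain ⟨q, hq, rfl⟩ := Subgroup.mem_map.mp hg
    exact hCmem q (hQC hq)
  have inj : ∀ {x y : threeJ3 F ω}, x ∈ CH h2 hω → y ∈ CH h2 hω →
      (qm x : J3 F ω) = qm y → x = y := fun hx hy h => qm_inj_CH h2 hω hx hy h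
  have hliftQ : ∀ g : Subgroup.centralizer ({qm (t' h2 hω)} : Set (J3 F ω)),
      g ∈ (QJ h2 hω).subgroupOf (Subgroup.centralizer ({qm (t' h2 hω)} : Set (J3 F ω))) →
      ∃ q ∈ QH h2 hω, (qm q : J3 F ω) = g := by
    intro g hg
    exact Subgroup.mem_map.mp (Subgroup.mem_subgroupOf.mp hg)
  have hmemQ : ∀ q (hq : q ∈ QH h2 hω),
      (⟨qm q, hCmem q (hQC hq)⟩ : Subgroup.centralizer ({qm (t' h2 hω)} : Set (J3 F ω))) ∈
        (QJ h2 hω).subgroupOf (Subgroup.centralizer ({qm (t' h2 hω)} : Set (J3 F ω))) := by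
    intro q hq
    exact Subgroup.mem_subgroupOf.mpr (Subgroup.mem_map_of_mem _ hq)
  have hQ : Nat.card ((QJ h2 hω).subgroupOf
      (Subgroup.centralizer ({qm (t' h2 hω)} : Set (J3 F ω)))) = 32 := by
    rw [Nat.card_congr (Subgroup.subgroupOfEquivOfLe hQJC).toEquiv]
    exact card_QJ h2 hω
  have hn : ((QJ h2 hω).subgroupOf
      (Subgroup.centralizer ({qm (t' h2 hω)} : Set (J3 F ω)))).Normal := by
    constructor
    intro n hn g
    rw [Subgroup.mem_subgroupOf] at hn ⊢
    have hg : (g : J3 F ω) * qm (t' h2 hω) = qm (t' h2 hω) * g :=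
      (Subgroup.mem_centralizer_iff.mp g.2 _ rfl).symm
    exact hd.Q_norm g hg n hn
  have ht1 : t' h2 hω ≠ 1 := fun h => qt_ne h2 hω (by rw [h, map_one])
  have htC : t' h2 hω ∈ CH h2 hω := hQC (t_mem_QH h2 hω)
  refine ⟨(QJ h2 hω).subgroupOf (Subgroup.centralizer ({qm (t' h2 hω)} : Set (J3 F ω))), hn,
    ?_, hQ, ?_, ?_⟩
  · -- extraspecial
    apply Cfsg.Agent.Lib.Helper66.ESA5.extraspecial _ ⟨qm (t' h2 hω), hCmem _ htC⟩ hQ
      (hmemQ _ (t_mem_QH h2 hω))
    · intro h
      exact hd.t_ne (congrArg Subtype.val h)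
    · intro q _
      exact Subtype.ext (Subgroup.mem_centralizer_iff.mp q.2 _ rfl)
    · intro x hx
      obtain ⟨q, hq, hqx⟩ := hliftQ x hx
      rcases QH_sq h2 hω q hq with h | h
      · left
        apply Subtype.ext
        show (x : J3 F ω) * x = 1
        rw [← hqx, ← map_mul, h, map_one]
      · right
        apply Subtype.ext
        show (x : J3 F ω) * x = qm (t' h2 hω)
        rw [← hqx, ← map_mul, h]
    · intro x hx y hy
      obtain ⟨q, hq, hqx⟩ := hliftQ x hx
      obtain ⟨r, hr, hry⟩ := hliftQ y hy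
      rcases QH_comm h2 hω q hq r hr with h | h
      · left
        apply Subtype.ext
        show (x : J3 F ω) * y = y * x
        rw [← hqx, ← hry, ← map_mul, h, map_mul]
      · right
        apply Subtype.ext
        show (x : J3 F ω) * y = qm (t' h2 hω) * (y * x)
        rw [← hqx, ← hry, ← map_mul, h, map_mul, map_mul]
    · obtain ⟨q, hq, r, hr, hqr⟩ := QH_noncomm h2 hω
      refine ⟨_, hmemQ q hq, _, hmemQ r hr, ?_⟩
      intro h
      apply hqr
      apply inj (Subgroup.mul_mem _ (hQC hq) (hQC hr)) (Subgroup.mul_mem _ (hQC hr) (hQC hq))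
      rw [map_mul, map_mul]
      exact congrArg Subtype.val h
    · intro c hc hcomm
      obtain ⟨q, hq, hqc⟩ := hliftQ c hc
      have hk : ∀ k : Fin 4, q * qH h2 hω k = qH h2 hω k * q := by
        intro k
        have hkQ : qH h2 hω k ∈ QH h2 hω := Subgroup.subset_closure ⟨k, rfl⟩
        apply inj (Subgroup.mul_mem _ (hQC hq) (hQC hkQ)) (Subgroup.mul_mem _ (hQC hkQ) (hQC hq))
        rw [map_mul, map_mul, hqc]
        exact congrArg Subtype.val (hcomm _ (hmemQ _ hkQ))
      rcases cent_QH h2 hω q (hQC hq) hk with h | h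
      · left
        apply Subtype.ext
        show (c : J3 F ω) = 1
        rw [← hqc, h, map_one]
      · right
        apply Subtype.ext
        show (c : J3 F ω) = qm (t' h2 hω)
        rw [← hqc, h]
  · -- no E8
    apply Cfsg.Agent.Lib.Helper66.ESA5.no_E8
    intro x hx y hy z hz hxx hyy hzz hxy hxz hyz hx1 hy1 hyx
    obtain ⟨q, hq, hqx⟩ := hliftQ x hx
    obtain ⟨r, hr, hry⟩ := hliftQ y hy
    obtain ⟨s, hs, hsz⟩ := hliftQ z hz
    have hqC := hQC hq
    have hrC := hQC hr
    have hsC := hQC hs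
    have e1 : q * q = 1 := by
      apply inj (Subgroup.mul_mem _ hqC hqC) (Subgroup.one_mem _)
      rw [map_mul, map_one, hqx]
      exact congrArg Subtype.val hxx
    have e2 : r * r = 1 := by
      apply inj (Subgroup.mul_mem _ hrC hrC) (Subgroup.one_mem _)
      rw [map_mul, map_one, hry]
      exact congrArg Subtype.val hyy
    have e3 : s * s = 1 := by
      apply inj (Subgroup.mul_mem _ hsC hsC) (Subgroup.one_mem _)
      rw [map_mul, map_one, hsz]
      exact congrArg Subtype.val hzz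
    have e4 : q * r = r * q := by
      apply inj (Subgroup.mul_mem _ hqC hrC) (Subgroup.mul_mem _ hrC hqC)
      rw [map_mul, map_mul, hqx, hry]
      exact congrArg Subtype.val hxy
    have e5 : q * s = s * q := by
      apply inj (Subgroup.mul_mem _ hqC hsC) (Subgroup.mul_mem _ hsC hqC)
      rw [map_mul, map_mul, hqx, hsz]
      exact congrArg Subtype.val hxz
    have e6 : r * s = s * r := by
      apply inj (Subgroup.mul_mem _ hrC hsC) (Subgroup.mul_mem _ hsC hrC)
      rw [map_mul, map_mul, hry, hsz]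
      exact congrArg Subtype.val hyz
    have e7 : q ≠ 1 := by
      intro h
      apply hx1
      apply Subtype.ext
      show (x : J3 F ω) = 1
      rw [← hqx, h, map_one]
    have e8 : r ≠ 1 := by
      intro h
      apply hy1
      apply Subtype.ext
      show (y : J3 F ω) = 1
      rw [← hry, h, map_one]
    have e9 : r ≠ q := by
      intro h
      apply hyx
      apply Subtype.ext
      rw [← hry, ← hqx, h]
    rcases QH_noE8 h2 hω q hq r hr s hs e1 e2 e3 e4 e5 e6 e7 e8 e9 with h | h | h | h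
    · left
      apply Subtype.ext
      show (z : J3 F ω) = 1
      rw [← hsz, h, map_one]
    · right; left
      apply Subtype.ext
      rw [← hsz, ← hqx, h]
    · right; right; left
      apply Subtype.ext
      rw [← hsz, ← hry, h]
    · right; right; right
      apply Subtype.ext
      show (z : J3 F ω) = x * y
      rw [← hsz, ← hqx, ← hry, h, map_mul]
  · -- complement and quotient
    have := hn
    apply Cfsg.Agent.Lib.Helper66.ESA5.complement _ hK hQ
    obtain ⟨x, hx, y, hy, hx3, hy5, hxy, hy1⟩ := A5gens h2 hω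
    refine ⟨⟨qm x, hCmem x hx⟩, ⟨qm y, hCmem y hy⟩, ?_, ?_, ?_, ?_⟩
    · apply Subtype.ext
      show (qm x : J3 F ω) ^ 3 = 1
      rw [← map_pow, hx3, map_one]
    · apply Subtype.ext
      show (qm y : J3 F ω) ^ 5 = 1
      rw [← map_pow, hy5, map_one]
    · apply Subtype.ext
      show ((qm x : J3 F ω) * qm y) ^ 2 = 1
      rw [← map_mul, ← map_pow, hxy, map_one]
    · intro h
      apply hy1
      apply inj hy (Subgroup.one_mem _)
      rw [map_one]
      exact congrArg Subtype.val h

end Cfsg.Agent.S2135
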