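import Cfsg.Statements.S2162


set_option autoImplicit false
open Cfsg

namespace Cfsg.Agent.S2162

section Helpers

open Module

variable {F : Type*} [Field F] {V : Type*} [AddCommGroup V] [Module F V] [FiniteDimensional F V]

theorem exists_normal_basis (hV : 0 < finrank F V) (f : V →ₗ[F] V) (hf : ∀ v, f (f v) = 0) :
    ∃ (s t : ℕ) (b : Basis (Fin s ⊕ (Fin s ⊕ Fin t)) F V),
      (∀ k, f (b (Sum.inl k)) = b (Sum.inr (Sum.inl k))) ∧
      (∀ k, f (b (Sum.inr (Sum.inl k))) = 0) ∧
      (∀ j, f (b (Sum.inr (Sum.inr j))) = 0) ∧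
      s = finrank F (LinearMap.range f) := by
  classical
  set K := LinearMap.ker f with hK
  obtain ⟨W, hW⟩ := Submodule.exists_isCompl K
  have hIK : LinearMap.range f ≤ K := by
    rintro _ ⟨v, rfl⟩
    rw [hK, LinearMap.mem_ker]
    exact hf v
  obtain ⟨U', hU'⟩ := Submodule.exists_isCompl ((LinearMap.range f).comap K.subtype)
  let bw := Module.finBasis F W
  let bu := Module.finBasis F U'
  let v1 : Fin (finrank F W) → V := fun k => (bw k : V)
  let v2 : Fin (finrank F W) → V := fun k => f (bw k : V)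
  let v3 : Fin (finrank F U') → V := fun j => ((bu j : K) : V)
  have hv1 : LinearIndependent F v1 :=
    bw.linearIndependent.map' W.subtype (Submodule.ker_subtype W)
  have hspan1 : Submodule.span F (Set.range v1) ≤ W := by
    rw [Submodule.span_le]
    rintro _ ⟨k, rfl⟩
    exact (bw k).2
  have hv2 : LinearIndependent F v2 := by
    have : v2 = f ∘ v1 := rfl
    rw [this]
    apply hv1.map
    exact (hW.symm.disjoint).mono_left hspan1
  have hv3 : LinearIndependent F v3 := by
    have h1 : LinearIndependent F (fun j => (bu j : K)) :=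
      bu.linearIndependent.map' U'.subtype (Submodule.ker_subtype U')
    exact h1.map' K.subtype (Submodule.ker_subtype K)
  have hspan2 : Submodule.span F (Set.range v2) ≤ LinearMap.range f := by
    rw [Submodule.span_le]
    rintro _ ⟨k, rfl⟩
    exact ⟨_, rfl⟩
  have hspan3 : Submodule.span F (Set.range v3) ≤ U'.map K.subtype := by
    rw [Submodule.span_le]
    rintro _ ⟨j, rfl⟩
    exact ⟨bu j, (bu j).2, rfl⟩
  have hdisj23 : Disjoint (Submodule.span F (Set.range v2)) (Submodule.span F (Set.range v3)) := by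
    refine Disjoint.mono hspan2 hspan3 ?_
    rw [Submodule.disjoint_def]
    rintro x hx ⟨u, hu, rfl⟩
    have : u ∈ (LinearMap.range f).comap K.subtype ⊓ U' := ⟨hx, hu⟩
    rw [hU'.inf_eq_bot] at this
    rw [(Submodule.mem_bot F).mp this]
    rfl
  have hv23 : LinearIndependent F (Sum.elim v2 v3) := hv2.sum_type hv3 hdisj23
  have hspan23 : Submodule.span F (Set.range (Sum.elim v2 v3)) ≤ K := by
    rw [Submodule.span_le]
    rintro _ ⟨i, rfl⟩
    rcases i with k | j
    · exact hIK ⟨_, rfl⟩
    · exact (bu j : K).2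
  have hdisj : Disjoint (Submodule.span F (Set.range v1))
      (Submodule.span F (Set.range (Sum.elim v2 v3))) :=
    Disjoint.mono hspan1 hspan23 hW.symm.disjoint
  have hli : LinearIndependent F (Sum.elim v1 (Sum.elim v2 v3)) := hv1.sum_type hv23 hdisj
  -- dimension count
  have h1 : finrank F K + finrank F W = finrank F V := Submodule.finrank_add_eq_of_isCompl hW
  have h2 : finrank F ((LinearMap.range f).comap K.subtype) + finrank F U' = finrank F K :=
    Submodule.finrank_add_eq_of_isCompl hU'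
  have h3 : finrank F ((LinearMap.range f).comap K.subtype) = finrank F (LinearMap.range f) :=
    (Submodule.comapSubtypeEquivOfLe hIK).finrank_eq
  have h4 : finrank F (LinearMap.range f) + finrank F K = finrank F V :=
    LinearMap.finrank_range_add_finrank_ker f
  have hs : finrank F W = finrank F (LinearMap.range f) := by omega
  have hcard : Fintype.card (Fin (finrank F W) ⊕ (Fin (finrank F W) ⊕ Fin (finrank F U')))
      = finrank F V := by
    simp only [Fintype.card_sum, Fintype.card_fin]
    omega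
  have hne : Nonempty (Fin (finrank F W) ⊕ (Fin (finrank F W) ⊕ Fin (finrank F U'))) := by
    rw [← Fintype.card_pos_iff, hcard]
    exact hV
  refine ⟨finrank F W, finrank F U', basisOfLinearIndependentOfCardEqFinrank hli hcard, ?_, ?_, ?_, hs⟩
  · intro k
    rw [coe_basisOfLinearIndependentOfCardEqFinrank]
    rfl
  · intro k
    rw [coe_basisOfLinearIndependentOfCardEqFinrank]
    exact hf _
  · intro j
    rw [coe_basisOfLinearIndependentOfCardEqFinrank]
    show f ((bu j : K) : V) = 0
    exact LinearMap.mem_ker.mp (bu j : K).2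


section Diag

variable {s t : ℕ}

/-- scaling the normal basis -/
noncomputable def dmap (b : Basis (Fin s ⊕ (Fin s ⊕ Fin t)) F V) (x : Fin s → F) (z : Fin t → F) :
    V →ₗ[F] V :=
  b.constr F (fun i => (Sum.elim x (Sum.elim x z)) i • b i)

theorem dmap_apply (b : Basis (Fin s ⊕ (Fin s ⊕ Fin t)) F V) (x : Fin s → F) (z : Fin t → F)
    (i : Fin s ⊕ (Fin s ⊕ Fin t)) :
    dmap b x z (b i) = (Sum.elim x (Sum.elim x z)) i • b i := by
  simp [dmap, Basis.constr_basis]

theorem dmap_det (b : Basis (Fin s ⊕ (Fin s ⊕ Fin t)) F V) (x : Fin s → F) (z : Fin t → F) :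
    LinearMap.det (dmap b x z) = (∏ k, x k) * ((∏ k, x k) * ∏ j, z j) := by
  classical
  rw [← LinearMap.det_toMatrix b]
  have : LinearMap.toMatrix b b (dmap b x z) = Matrix.diagonal (Sum.elim x (Sum.elim x z)) := by
    ext i j
    rw [LinearMap.toMatrix_apply, dmap_apply, map_smul, Basis.repr_self, Matrix.diagonal_apply]
    by_cases h : i = j
    · subst h; simp
    · simp [h, Finsupp.single_apply, Ne.symm h]
  rw [this, Matrix.det_diagonal, Fintype.prod_sum_type, Fintype.prod_sum_type]
  simp

theorem dmap_comm (b : Basis (Fin s ⊕ (Fin s ⊕ Fin t)) F V) (f : V →ₗ[F] V)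
    (h1 : ∀ k, f (b (Sum.inl k)) = b (Sum.inr (Sum.inl k)))
    (h2 : ∀ k, f (b (Sum.inr (Sum.inl k))) = 0)
    (h3 : ∀ j, f (b (Sum.inr (Sum.inr j))) = 0) (x : Fin s → F) (z : Fin t → F) :
    (dmap b x z) ∘ₗ f = f ∘ₗ (dmap b x z) := by
  apply b.ext
  intro i
  rcases i with k | k | j
  · simp [dmap_apply, h1]
  · simp [dmap_apply, h2]
  · simp [dmap_apply, h3]

end Diag

theorem exists_conj [Fintype F] [CharP F 2] {n : ℕ} (hn : 3 ≤ n) (A B : Matrix (Fin n) (Fin n) F)
    (hA : A * A = 0) (hB : B * B = 0) (hr : A.rank = B.rank) :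
    ∃ h : Matrix (Fin n) (Fin n) F, h.det = 1 ∧ h * A = B * h := by
  classical
  have hV : 0 < finrank F (Fin n → F) := by
    simp only [Module.finrank_fin_fun]
    omega
  have hfA : ∀ v, A.mulVecLin (A.mulVecLin v) = 0 := by
    intro v
    simp [Matrix.mulVec_mulVec, hA]
  have hfB : ∀ v, B.mulVecLin (B.mulVecLin v) = 0 := by
    intro v
    simp [Matrix.mulVec_mulVec, hB]
  obtain ⟨s, t, bA, a1, a2, a3, as⟩ := exists_normal_basis hV A.mulVecLin hfA
  obtain ⟨s', t', bB, b1, b2, b3, bs⟩ := exists_normal_basis hV B.mulVecLin hfB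
  have hss : s = s' := by
    rw [as, bs]
    exact hr
  subst hss
  have htt : t = t' := by
    have e1 := Module.finrank_eq_card_basis bA
    have e2 := Module.finrank_eq_card_basis bB
    simp only [Fintype.card_sum, Fintype.card_fin] at e1 e2
    omega
  subst htt
  obtain ⟨φ, hφb⟩ : ∃ φ : (Fin n → F) ≃ₗ[F] (Fin n → F), ∀ i, φ (bA i) = bB i :=
    ⟨bA.equiv bB (Equiv.refl _), fun i => by simp⟩
  have hφ : φ.toLinearMap ∘ₗ A.mulVecLin = B.mulVecLin ∘ₗ φ.toLinearMap := by
    apply bA.ext
    intro i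
    rcases i with k | k | j
    · simp only [LinearMap.comp_apply, LinearEquiv.coe_coe, a1, hφb, b1]
    · simp only [LinearMap.comp_apply, LinearEquiv.coe_coe, a2, hφb, b2, map_zero]
    · simp only [LinearMap.comp_apply, LinearEquiv.coe_coe, a3, hφb, b3, map_zero]
  have hdet : IsUnit (LinearMap.det φ.toLinearMap) := LinearEquiv.isUnit_det' φ
  obtain ⟨x, z, hxz⟩ : ∃ (x : Fin s → F) (z : Fin t → F),
      (∏ k, x k) * ((∏ k, x k) * ∏ j, z j) * LinearMap.det φ.toLinearMap = 1 := by
    obtain ⟨lam, hlam⟩ : ∃ lam : F, lam * LinearMap.det φ.toLinearMap = 1 :=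
      ⟨(LinearMap.det φ.toLinearMap)⁻¹, inv_mul_cancel₀ hdet.ne_zero⟩
    by_cases ht : t = 0
    · subst ht
      have hs : 0 < s := by
        have e1 := Module.finrank_eq_card_basis bA
        simp only [Fintype.card_sum, Fintype.card_fin, Module.finrank_fin_fun] at e1
        omega
      obtain ⟨mu, hmu⟩ : ∃ mu : F, mu * mu = lam := by
        have hinj : Function.Injective (frobenius F 2) := frobenius_inj F 2
        obtain ⟨mu, hmu⟩ := Finite.surjective_of_injective hinj lam
        exact ⟨mu, by rw [← hmu, frobenius_def, pow_two]⟩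
      refine ⟨fun k => if k = ⟨0, hs⟩ then mu else 1, fun _ => 1, ?_⟩
      simp only [Finset.prod_ite_eq', Finset.mem_univ, if_true, Finset.prod_const_one, mul_one]
      rw [hmu, hlam]
    · refine ⟨fun _ => 1, fun j => if j = ⟨0, Nat.pos_of_ne_zero ht⟩ then lam else 1, ?_⟩
      simp only [Finset.prod_ite_eq', Finset.mem_univ, if_true, Finset.prod_const_one, one_mul]
      exact hlam
  refine ⟨LinearMap.toMatrix' ((dmap bB x z) ∘ₗ φ.toLinearMap), ?_, ?_⟩
  · rw [LinearMap.det_toMatrix', LinearMap.det_comp, dmap_det]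
    exact hxz
  · have hc := dmap_comm bB B.mulVecLin b1 b2 b3 x z
    have e1 : A = LinearMap.toMatrix' A.mulVecLin := by
      rw [← Matrix.toLin'_apply', LinearMap.toMatrix'_toLin']
    have e2 : B = LinearMap.toMatrix' B.mulVecLin := by
      rw [← Matrix.toLin'_apply', LinearMap.toMatrix'_toLin']
    conv_lhs => rw [e1]
    conv_rhs => rw [e2]
    rw [← LinearMap.toMatrix'_comp, ← LinearMap.toMatrix'_comp]
    congr 1
    rw [LinearMap.comp_assoc, hφ, ← LinearMap.comp_assoc, hc, LinearMap.comp_assoc]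

end Helpers


/-- Conjugacy of involutions in the special linear group over a finite field of characteristic two, in dimension at least 3: two elements of order 2 of SL_n(F) are conjugate in SL_n(F) exactly when the matrices a − 1 and b − 1 have the same rank (the rank of a − 1 is the dimension of the commutator space [V, a]). -/
theorem result {F : Type*} [Field F] [Fintype F] [CharP F 2] {n : ℕ} (hn : 3 ≤ n) (a b : Matrix.SpecialLinearGroup (Fin n) F) (ha : orderOf a = 2) (hb : orderOf b = 2) :
    IsConj a b ↔ ((a : Matrix (Fin n) (Fin n) F) - 1).rank = ((b : Matrix (Fin n) (Fin n) F) - 1).rank := by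
  classical
  have h2 : (2 : F) = 0 := CharTwo.two_eq_zero
  have hsq : ∀ c : Matrix.SpecialLinearGroup (Fin n) F, orderOf c = 2 →
      ((c : Matrix (Fin n) (Fin n) F) - 1) * ((c : Matrix (Fin n) (Fin n) F) - 1) = 0 := by
    intro c hc
    have h1 : (c : Matrix (Fin n) (Fin n) F) * (c : Matrix (Fin n) (Fin n) F) = 1 := by
      have := pow_orderOf_eq_one c
      rw [hc, pow_two] at this
      have h' := congrArg (fun x : Matrix.SpecialLinearGroup (Fin n) F => (x : Matrix (Fin n) (Fin n) F)) this
      simpa using h'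
    have : ((c : Matrix (Fin n) (Fin n) F) - 1) * ((c : Matrix (Fin n) (Fin n) F) - 1)
        = (2 : F) • (1 - (c : Matrix (Fin n) (Fin n) F)) := by
      rw [Matrix.sub_mul, Matrix.mul_sub, Matrix.mul_sub, h1, Matrix.mul_one, Matrix.one_mul,
        Matrix.one_mul, two_smul]
      abel
    rw [this, h2, zero_smul]
  constructor
  · intro hc
    obtain ⟨c, hc⟩ := isConj_iff.mp hc
    have hcm : (b : Matrix (Fin n) (Fin n) F) - 1
        = (c : Matrix (Fin n) (Fin n) F) * ((a : Matrix (Fin n) (Fin n) F) - 1)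
          * ((c⁻¹ : Matrix.SpecialLinearGroup (Fin n) F) : Matrix (Fin n) (Fin n) F) := by
      have h1 : (c : Matrix (Fin n) (Fin n) F)
          * ((c⁻¹ : Matrix.SpecialLinearGroup (Fin n) F) : Matrix (Fin n) (Fin n) F) = 1 := by
        rw [← Matrix.SpecialLinearGroup.coe_mul, mul_inv_cancel, Matrix.SpecialLinearGroup.coe_one]
      rw [← hc, Matrix.SpecialLinearGroup.coe_mul, Matrix.SpecialLinearGroup.coe_mul, Matrix.mul_sub,
        Matrix.sub_mul, Matrix.mul_one, h1]
    rw [hcm]
    have hu1 : IsUnit (c : Matrix (Fin n) (Fin n) F).det := by rw [c.det_coe]; exact isUnit_one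
    have hu2 : IsUnit ((c⁻¹ : Matrix.SpecialLinearGroup (Fin n) F) : Matrix (Fin n) (Fin n) F).det := by
      rw [(c⁻¹).det_coe]; exact isUnit_one
    rw [Matrix.rank_mul_eq_left_of_isUnit_det _ _ hu2, Matrix.rank_mul_eq_right_of_isUnit_det _ _ hu1]
  · intro hr
    obtain ⟨h, hdet, hh⟩ := exists_conj hn _ _ (hsq a ha) (hsq b hb) hr
    obtain ⟨c, hc⟩ : ∃ c : Matrix.SpecialLinearGroup (Fin n) F,
        (c : Matrix (Fin n) (Fin n) F) = h := ⟨⟨h, hdet⟩, rfl⟩
    rw [isConj_iff]
    refine ⟨c, ?_⟩
    rw [mul_inv_eq_iff_eq_mul]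
    apply Subtype.ext
    change (c : Matrix (Fin n) (Fin n) F) * (a : Matrix (Fin n) (Fin n) F)
      = (b : Matrix (Fin n) (Fin n) F) * (c : Matrix (Fin n) (Fin n) F)
    rw [hc]
    have := hh
    rw [Matrix.mul_sub, Matrix.sub_mul, Matrix.mul_one, Matrix.one_mul] at this
    exact sub_left_injective this

end Cfsg.Agent.S2162
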