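import Cfsg.Statements.S2163

set_option autoImplicit false
open Cfsg

namespace Cfsg.Agent.S2163

/-- the nilpotent part -/
def nMat (F : Type*) [Field F] (n ℓ : ℕ) : Matrix (Fin n) (Fin n) F :=
  Matrix.of (fun i j : Fin n => if j.val < ℓ ∧ i.val = j.val + (n - ℓ) then (1 : F) else 0)

def aMat (F : Type*) [Field F] (n ℓ : ℕ) : Matrix (Fin n) (Fin ℓ) F :=
  Matrix.of (fun i k => if i.val = k.val + (n - ℓ) then (1 : F) else 0)

def bMat (F : Type*) [Field F] (n ℓ : ℕ) : Matrix (Fin ℓ) (Fin n) F :=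
  Matrix.of (fun k j => if j.val = k.val then (1 : F) else 0)

theorem nMat_eq {F : Type*} [Field F] (n ℓ : ℕ) : nMat F n ℓ = aMat F n ℓ * bMat F n ℓ := by
  ext i j
  simp only [nMat, aMat, bMat, Matrix.mul_apply, Matrix.of_apply]
  by_cases hj : j.val < ℓ
  · rw [Finset.sum_eq_single (⟨j.val, hj⟩ : Fin ℓ)]
    · simp [hj]
    · intro k _ hk
      have : ¬ (j.val = k.val) := by
        intro h
        apply hk
        ext
        simp [h]
      simp [this]
    · simp
  · have : ∀ k : Fin ℓ, ¬ (j.val = k.val) := by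
      intro k h
      exact hj (h ▸ k.isLt)
    simp [hj, this]

theorem bMat_mul_transpose {F : Type*} [Field F] (n ℓ : ℕ) (h : ℓ ≤ n) :
    bMat F n ℓ * (bMat F n ℓ).transpose = 1 := by
  ext i j
  simp only [bMat, Matrix.mul_apply, Matrix.of_apply, Matrix.transpose_apply, Matrix.one_apply]
  rw [Finset.sum_eq_single (⟨i.val, lt_of_lt_of_le i.isLt h⟩ : Fin n)]
  · by_cases hij : i = j
    · simp [hij]
    · have : ¬ (i.val = j.val) := fun h' => hij (Fin.ext h')
      simp [hij, this]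
  · intro k _ hk
    have : ¬ (k.val = i.val) := by
      intro h'
      apply hk
      ext
      simp [h']
    simp [this]
  · simp

theorem aMat_transpose_mul {F : Type*} [Field F] (n ℓ : ℕ) (h : ℓ ≤ n) :
    (aMat F n ℓ).transpose * aMat F n ℓ = 1 := by
  ext i j
  simp only [aMat, Matrix.mul_apply, Matrix.of_apply, Matrix.transpose_apply, Matrix.one_apply]
  have hi : i.val + (n - ℓ) < n := by have := i.isLt; omega
  rw [Finset.sum_eq_single (⟨i.val + (n - ℓ), hi⟩ : Fin n)]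
  · by_cases hij : i = j
    · simp [hij]
    · have : ¬ (i.val = j.val) := fun h' => hij (Fin.ext h')
      simp [hij, this]
  · intro k _ hk
    have : ¬ (k.val = i.val + (n - ℓ)) := by
      intro h'
      apply hk
      ext
      simp [h']
    simp [this]
  · simp

theorem nMat_rank {F : Type*} [Field F] (n ℓ : ℕ) (h : ℓ ≤ n) : (nMat F n ℓ).rank = ℓ := by
  apply le_antisymm
  · rw [nMat_eq]
    calc (aMat F n ℓ * bMat F n ℓ).rank ≤ (aMat F n ℓ).rank := Matrix.rank_mul_le_left _ _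
      _ ≤ Fintype.card (Fin ℓ) := Matrix.rank_le_card_width _
      _ = ℓ := Fintype.card_fin ℓ
  · have h1 : (aMat F n ℓ).transpose * nMat F n ℓ * (bMat F n ℓ).transpose = 1 := by
      rw [nMat_eq, ← Matrix.mul_assoc, aMat_transpose_mul n ℓ h, Matrix.one_mul,
        bMat_mul_transpose n ℓ h]
    calc ℓ = Fintype.card (Fin ℓ) := (Fintype.card_fin ℓ).symm
      _ = (1 : Matrix (Fin ℓ) (Fin ℓ) F).rank := (Matrix.rank_one).symm
      _ = ((aMat F n ℓ).transpose * nMat F n ℓ * (bMat F n ℓ).transpose).rank := by rw [h1]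
      _ ≤ ((aMat F n ℓ).transpose * nMat F n ℓ).rank := Matrix.rank_mul_le_left _ _
      _ ≤ (nMat F n ℓ).rank := Matrix.rank_mul_le_right _ _

theorem nMat_sq {F : Type*} [Field F] (n ℓ : ℕ) (h : 2 * ℓ ≤ n) : nMat F n ℓ * nMat F n ℓ = 0 := by
  ext i j
  simp only [nMat, Matrix.mul_apply, Matrix.of_apply, Matrix.zero_apply]
  apply Finset.sum_eq_zero
  intro k _
  by_cases h1 : k.val < ℓ ∧ i.val = k.val + (n - ℓ)
  · have : ¬ (j.val < ℓ ∧ k.val = j.val + (n - ℓ)) := by omega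
    simp [this]
  · simp [h1]

theorem nMat_ne_zero {F : Type*} [Field F] (n ℓ : ℕ) (h1 : 1 ≤ ℓ) (h : 2 * ℓ ≤ n) : nMat F n ℓ ≠ 0 := by
  intro h0
  have hr := nMat_rank (F := F) n ℓ (by omega)
  rw [h0, Matrix.rank_zero] at hr
  omega

theorem nMat_det {F : Type*} [Field F] (n ℓ : ℕ) (h1 : 1 ≤ ℓ) (h : 2 * ℓ ≤ n) :
    (1 + nMat F n ℓ).det = 1 := by
  have hT : (1 + nMat F n ℓ).BlockTriangular OrderDual.toDual := by
    intro i j hij
    have hij' : i.val < j.val := hij
    have hne : i ≠ j := by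
      intro h'
      rw [h'] at hij'
      exact lt_irrefl _ hij'
    simp only [nMat, Matrix.add_apply, Matrix.one_apply, Matrix.of_apply]
    have : ¬ (j.val < ℓ ∧ i.val = j.val + (n - ℓ)) := by omega
    simp [hne, this]
  rw [Matrix.det_of_isLowerTriangular _ hT]
  apply Finset.prod_eq_one
  intro i _
  simp only [nMat, Matrix.add_apply, Matrix.one_apply, Matrix.of_apply]
  have : ¬ (i.val < ℓ ∧ i.val = i.val + (n - ℓ)) := by omega
  rw [if_neg this]
  simp

theorem result {F : Type*} [Field F] [Fintype F] [CharP F 2] {n : ℕ} (hn : 3 ≤ n) (ℓ : ℕ) (h1 : 1 ≤ ℓ) (h2 : 2 * ℓ ≤ n) :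
    ∃ a : Matrix.SpecialLinearGroup (Fin n) F, (a : Matrix (Fin n) (Fin n) F) = 1 + Matrix.of (fun i j : Fin n => if j.val < ℓ ∧ i.val = j.val + (n - ℓ) then (1 : F) else 0) ∧ orderOf a = 2 ∧ ((a : Matrix (Fin n) (Fin n) F) - 1).rank = ℓ := by
  obtain ⟨a, ha⟩ : ∃ a : Matrix.SpecialLinearGroup (Fin n) F,
      (a : Matrix (Fin n) (Fin n) F) = 1 + nMat F n ℓ :=
    ⟨⟨1 + nMat F n ℓ, nMat_det n ℓ h1 h2⟩, rfl⟩
  refine ⟨a, ha, ?_, ?_⟩
  · have hp : Fact (Nat.Prime 2) := ⟨Nat.prime_two⟩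
    apply orderOf_eq_prime
    · apply Matrix.SpecialLinearGroup.ext
      intro i j
      rw [Matrix.SpecialLinearGroup.coe_pow, Matrix.SpecialLinearGroup.coe_one, ha]
      rw [pow_two]
      rw [Matrix.add_mul, Matrix.mul_add, Matrix.mul_add, Matrix.one_mul, Matrix.mul_one,
        Matrix.one_mul, nMat_sq n ℓ h2, add_zero]
      have h2' : nMat F n ℓ + nMat F n ℓ = 0 := by
        rw [← two_smul F (nMat F n ℓ)]
        have : (2 : F) = 0 := CharP.cast_eq_zero F 2
        rw [this, zero_smul]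
      rw [add_assoc, h2', add_zero]
    · intro h
      have h' := congrArg Subtype.val h
      rw [ha] at h'
      simp only [Matrix.SpecialLinearGroup.coe_one] at h'
      exact nMat_ne_zero (F := F) n ℓ h1 h2 (by simpa using h')
  · rw [ha, add_sub_cancel_left]
    exact nMat_rank n ℓ (by omega)

end Cfsg.Agent.S2163
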