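import Cfsg.Statements.S2164
import Mathlib
import Cfsg.Agent.S0751
import Cfsg.Agent.S0755
import Cfsg.Agent.S0781
import Cfsg.Agent.S0782
import Cfsg.Agent.S0837
import Cfsg.Agent.S2162
import Cfsg.Agent.Lib.Helper45.GUCard
import Cfsg.Agent.Lib.Helper45.SUCard

set_option autoImplicit false
open Cfsg

namespace Cfsg.Agent.S2164

open Matrix Cfsg.Agent.S0837

section
variable {F : Type*} [Field F] {n : ℕ}

/-- a self-adjoint square-zero map has an isotropic frame with a dual system -/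
theorem frame [Finite F] (σ : F →+* F) (hσne : σ ≠ RingHom.id F) (hσ2 : ∀ a, σ (σ a) = a)
    (N : Matrix (Fin n) (Fin n) F)
    (hN2 : ∀ x, N *ᵥ (N *ᵥ x) = 0)
    (hadj : ∀ x y, Bh σ n (N *ᵥ x) y = Bh σ n x (N *ᵥ y)) (r : ℕ) (hr : N.rank = r) :
    ∃ e v : Fin r → (Fin n → F), (∀ i j, Bh σ n (e i) (e j) = 0) ∧
      (∀ i j, Bh σ n (v i) (e j) = if i = j then 1 else 0) ∧
      ∀ y, N *ᵥ y = ∑ i, Bh σ n (e i) y • e i := by
  classical
  have hS := Bh_symm σ hσ2 n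
  have hnd := Bh_nondeg σ n
  obtain ⟨C, hC⟩ := Submodule.exists_isCompl (LinearMap.ker N.mulVecLin)
  have hCr : Module.finrank F C = r := by
    have h1 := Submodule.finrank_add_eq_of_isCompl hC
    have h2 := LinearMap.finrank_range_add_finrank_ker N.mulVecLin
    have h3 : Module.finrank F (LinearMap.range N.mulVecLin) = r := hr
    omega
  subst hCr
  have hdec : ∀ y : Fin n → F, ∃ c ∈ C, N *ᵥ y = N *ᵥ c := by
    intro y
    have hy : y ∈ LinearMap.ker N.mulVecLin ⊔ C := by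
      rw [hC.sup_eq_top]
      trivial
    obtain ⟨k, hk, c, hc, rfl⟩ := Submodule.mem_sup.1 hy
    refine ⟨c, hc, ?_⟩
    have hk' : N *ᵥ k = 0 := hk
    rw [Matrix.mulVec_add, hk', zero_add]
  obtain ⟨β, hβ⟩ : ∃ β : C →ₛₗ[σ] C →ₗ[F] F,
      β = ((Bh σ n).compl₂ N.mulVecLin).domRestrict₁₂ C C := ⟨_, rfl⟩
  have hβa : ∀ x y : C, β x y = Bh σ n (x : Fin n → F) (N *ᵥ (y : Fin n → F)) := by
    intro x y
    rw [hβ]
    rfl
  have hβS : β.IsSymm := ⟨fun x y => by rw [hβa, hβa, hS.eq, hadj]⟩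
  have hβL : ∀ x : C, (∀ y : C, β x y = 0) → x = 0 := by
    intro x hx
    have h1 : N *ᵥ (x : Fin n → F) = 0 := by
      apply hnd.1
      intro z
      obtain ⟨c, hc, hz⟩ := hdec z
      rw [hadj, hz]
      have h2 := hx ⟨c, hc⟩
      rw [hβa] at h2
      exact h2
    have h2 : (x : Fin n → F) ∈ LinearMap.ker N.mulVecLin ⊓ C := ⟨h1, x.2⟩
    rw [hC.inf_eq_bot] at h2
    exact Subtype.ext ((Submodule.mem_bot F).1 h2)
  have hβnd : β.Nondegenerate := by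
    constructor
    · exact hβL
    · intro y hy
      apply hβL
      intro x
      rw [← hβS.eq, hy x, map_zero]
  obtain ⟨b, hb⟩ := Cfsg.Agent.S0755.result σ hσne hσ2 β hβS hβnd
  refine ⟨fun i => N *ᵥ (b i : Fin n → F), fun i => (b i : Fin n → F), ?_, ?_, ?_⟩
  · intro i j
    rw [hadj, hN2, map_zero]
  · intro i j
    rw [← hβa]
    exact hb i j
  · intro y
    obtain ⟨c, hc, hy⟩ := hdec y
    have h2 : N *ᵥ c = ∑ j, b.repr ⟨c, hc⟩ j • N *ᵥ (b j : Fin n → F) := by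
      have h3 := congrArg (fun z : C => N.mulVecLin (z : Fin n → F)) (b.sum_repr ⟨c, hc⟩)
      simp only [Submodule.coe_sum, Submodule.coe_smul, map_sum, map_smul,
        Matrix.mulVecLin_apply] at h3
      exact h3.symm
    have h1 : ∀ i, Bh σ n (N *ᵥ (b i : Fin n → F)) y = b.repr ⟨c, hc⟩ i := by
      intro i
      rw [hadj, hy, h2, map_sum, Finset.sum_eq_single i]
      · rw [LinearMap.map_smul, ← hβa, hb, if_pos rfl, smul_eq_mul, mul_one]
      · intro j _ hji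
        rw [LinearMap.map_smul, ← hβa, hb, if_neg (Ne.symm hji), smul_zero]
      · intro hi
        exact absurd (Finset.mem_univ i) hi
    rw [hy, h2]
    apply Finset.sum_congr rfl
    intro i _
    rw [h1]

/-- an involution preserving the form, in characteristic 2 -/
theorem invol_N [CharP F 2] (σ : F →+* F) (A : Matrix (Fin n) (Fin n) F)
    (hA : ∀ x y, Bh σ n (A *ᵥ x) (A *ᵥ y) = Bh σ n x y) (hA2 : A * A = 1) :
    (∀ x, (A - 1) *ᵥ ((A - 1) *ᵥ x) = 0) ∧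
    ∀ x y, Bh σ n ((A - 1) *ᵥ x) y = Bh σ n x ((A - 1) *ᵥ y) := by
  constructor
  · intro x
    rw [Matrix.mulVec_mulVec]
    have h : (A - 1) * (A - 1) = 0 := by
      have h2 : (A - 1) * (A - 1) = A * A - (A + A) + 1 := by
        rw [sub_mul, mul_sub, mul_sub, mul_one, one_mul, one_mul]
        abel
      have h3 : A + A = 0 := by
        ext i j
        rw [Matrix.add_apply]
        exact CharTwo.add_self_eq_zero _
      have h4 : (1 : Matrix (Fin n) (Fin n) F) + 1 = 0 := by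
        ext i j
        rw [Matrix.add_apply]
        exact CharTwo.add_self_eq_zero _
      rw [h2, hA2, h3, sub_zero, h4]
    rw [h, Matrix.zero_mulVec]
  · intro x y
    have h1 : Bh σ n (A *ᵥ x) y = Bh σ n x (A *ᵥ y) := by
      have h2 := hA x (A *ᵥ y)
      rw [Matrix.mulVec_mulVec, hA2, Matrix.one_mulVec] at h2
      exact h2
    rw [Matrix.sub_mulVec, Matrix.sub_mulVec, Matrix.one_mulVec, Matrix.one_mulVec, map_sub,
      map_sub, LinearMap.sub_apply, h1]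

theorem main [Fintype F] [CharP F 2] {q : ℕ} (hF : Fintype.card F = q ^ 2)
    (A B : Matrix (Fin n) (Fin n) F)
    (hA : ∀ x y, Cfsg.hermForm n F q (A *ᵥ x) (A *ᵥ y) = Cfsg.hermForm n F q x y)
    (hB : ∀ x y, Cfsg.hermForm n F q (B *ᵥ x) (B *ᵥ y) = Cfsg.hermForm n F q x y)
    (hA2 : A * A = 1) (hB2 : B * B = 1) (hB1 : B ≠ 1)
    (hrk : (A - 1).rank = (B - 1).rank) :
    ∃ G : Matrix (Fin n) (Fin n) F, G.det = 1 ∧
      (∀ x y, Cfsg.hermForm n F q (G *ᵥ x) (G *ᵥ y) = Cfsg.hermForm n F q x y) ∧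
      G * A = B * G := by
  classical
  obtain ⟨σ, hσ, hσ2⟩ := Cfsg.Agent.Lib.Helper45.GUCard.exists_conj hF
  have hσne := sigma_ne hF σ hσ
  have hS := Bh_symm σ hσ2 n
  have hA' : ∀ x y, Bh σ n (A *ᵥ x) (A *ᵥ y) = Bh σ n x y := by
    intro x y
    rw [Bh_herm σ hσ, Bh_herm σ hσ]
    exact hA y x
  have hB' : ∀ x y, Bh σ n (B *ᵥ x) (B *ᵥ y) = Bh σ n x y := by
    intro x y
    rw [Bh_herm σ hσ, Bh_herm σ hσ]
    exact hB y x
  obtain ⟨hNA2, hNAadj⟩ := invol_N σ A hA' hA2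
  obtain ⟨hNB2, hNBadj⟩ := invol_N σ B hB' hB2
  obtain ⟨r, hr⟩ : ∃ r, (A - 1).rank = r := ⟨_, rfl⟩
  obtain ⟨e, v, hee, hve, hNA⟩ := frame σ hσne hσ2 (A - 1) hNA2 hNAadj r hr
  obtain ⟨e', v', hee', hve', hNB⟩ := frame σ hσne hσ2 (B - 1) hNB2 hNBadj r (hrk ▸ hr)
  have hAx : ∀ x, A *ᵥ x = x + (A - 1) *ᵥ x := by
    intro x
    rw [Matrix.sub_mulVec, Matrix.one_mulVec]
    abel
  have hBx : ∀ x, B *ᵥ x = x + (B - 1) *ᵥ x := by
    intro x
    rw [Matrix.sub_mulVec, Matrix.one_mulVec]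
    abel
  have hr0 : 0 < r := by
    rcases Nat.eq_zero_or_pos r with h0 | h0
    · exfalso
      subst h0
      apply hB1
      rw [Matrix.ext_iff_mulVec]
      intro x
      rw [hBx, hNB x, Matrix.one_mulVec]
      simp
    · exact h0
  have hli : ∀ (e v : Fin r → (Fin n → F)),
      (∀ i j, Bh σ n (v i) (e j) = if i = j then 1 else 0) → LinearIndependent F e := by
    intro e v hve
    rw [Fintype.linearIndependent_iff]
    intro c hc i
    have h1 := congrArg (Bh σ n (v i)) hc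
    rw [map_sum, map_zero, Finset.sum_eq_single i] at h1
    · rw [LinearMap.map_smul, hve, if_pos rfl, smul_eq_mul, mul_one] at h1
      exact h1
    · intro j _ hji
      rw [LinearMap.map_smul, hve, if_neg (Ne.symm hji), smul_zero]
    · intro hi
      exact absurd (Finset.mem_univ i) hi
  obtain ⟨M₀, hM₀, hM₀e⟩ := Cfsg.Agent.S0782.frames_trans hF σ hσ hσ2 e e'
    (hli e v hve) (hli e' v' hve') hee hee'
  have hM₀' : ∀ x y, Bh σ n (M₀ *ᵥ x) (M₀ *ᵥ y) = Bh σ n x y := by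
    intro x y
    rw [Bh_herm σ hσ, Bh_herm σ hσ]
    exact hM₀ y x
  have hD := Cfsg.Agent.Lib.Helper45.SUCard.det_mul_det_pow σ hσ M₀ hM₀
  obtain ⟨D, hDdef⟩ : ∃ D : F, D = M₀.det := ⟨_, rfl⟩
  rw [← hDdef] at hD
  have hq2 : 2 ∣ q := by
    have h1 : ((q ^ 2 : ℕ) : F) = 0 := by
      rw [← hF]
      exact FiniteField.cast_card_eq_zero F
    have h2 : (q : F) = 0 := by
      rw [Nat.cast_pow] at h1
      exact (pow_eq_zero_iff two_ne_zero).1 h1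
    exact (CharP.cast_eq_zero_iff F 2 q).1 h2
  obtain ⟨m, hm⟩ := hq2
  obtain ⟨μ, hμ⟩ : ∃ μ : F, μ = D ^ m := ⟨_, rfl⟩
  have hμD : μ * μ * D = 1 := by
    rw [hμ, ← pow_add, ← two_mul, ← hm, mul_comm]
    exact hD
  have hμσ : μ * σ μ = 1 := by
    rw [hμ, map_pow, hσ, ← mul_pow, hD, one_pow]
  obtain ⟨i₀, hi₀⟩ : ∃ i₀ : Fin r, i₀ = ⟨0, hr0⟩ := ⟨_, rfl⟩
  obtain ⟨θ, hθ⟩ := Cfsg.Agent.S0751.exists_theta σ hσne hσ2
  obtain ⟨t, ht⟩ : ∃ t : F, t = Bh σ n (v' i₀) (v' i₀) := ⟨_, rfl⟩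
  have hσt : σ t = t := by rw [ht, hS.eq]
  obtain ⟨e₁, he₁⟩ : ∃ e₁ : Fin n → F, e₁ = e' i₀ := ⟨_, rfl⟩
  obtain ⟨v₁, hv₁⟩ : ∃ v₁ : Fin n → F, v₁ = v' i₀ + (-(θ * t)) • e₁ := ⟨_, rfl⟩
  have hev0 : Bh σ n e₁ (v' i₀) = 1 := by
    rw [he₁, ← hS.eq, hve', if_pos rfl, map_one]
  have hv₁e : ∀ j, Bh σ n v₁ (e' j) = if i₀ = j then 1 else 0 := by
    intro j
    rw [hv₁, he₁, map_add, map_smulₛₗ, LinearMap.add_apply, LinearMap.smul_apply, hee', hve',
      smul_zero, add_zero]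
  have hev₁ : ∀ j, Bh σ n (e' j) v₁ = if i₀ = j then 1 else 0 := by
    intro j
    rw [← hS.eq, hv₁e]
    split_ifs <;> simp
  have he₁e : ∀ j, Bh σ n e₁ (e' j) = 0 := fun j => by rw [he₁, hee']
  have hee₁ : ∀ j, Bh σ n (e' j) e₁ = 0 := fun j => by rw [he₁, hee']
  have h11 : Bh σ n e₁ e₁ = 0 := by rw [he₁, hee']
  have hv1e1 : Bh σ n v₁ e₁ = 1 := by rw [he₁, hv₁e, if_pos rfl]
  have he1v1 : Bh σ n e₁ v₁ = 1 := by rw [he₁, hev₁, if_pos rfl]
  have hv1v1 : Bh σ n v₁ v₁ = 0 := by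
    have h1 : Bh σ n v₁ (v' i₀) = t - σ (θ * t) := by
      rw [hv₁, map_add, map_smulₛₗ, LinearMap.add_apply, LinearMap.smul_apply, hev0, ← ht,
        smul_eq_mul, mul_one, map_neg]
      ring
    have h2 : Bh σ n v₁ v₁ = Bh σ n v₁ (v' i₀) + (-(θ * t)) * Bh σ n v₁ e₁ := by
      conv_lhs => rw [hv₁]
      rw [map_add, LinearMap.map_smul, smul_eq_mul, ← hv₁]
    rw [h2, h1, hv1e1, map_mul, hσt]
    linear_combination (-t) * hθ
  -- the plane scaling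
  obtain ⟨Z₁, hZ₁def⟩ : ∃ Z₁ : Matrix (Fin n) (Fin n) F,
      Z₁ = 1 + Matrix.vecMulVec ((μ - 1) • e₁) (fun j => σ (v₁ j)) := ⟨_, rfl⟩
  obtain ⟨Z₂, hZ₂def⟩ : ∃ Z₂ : Matrix (Fin n) (Fin n) F,
      Z₂ = 1 + Matrix.vecMulVec ((μ - 1) • v₁) (fun j => σ (e₁ j)) := ⟨_, rfl⟩
  have hZ₁ : ∀ x, Z₁ *ᵥ x = x + Bh σ n v₁ x • ((μ - 1) • e₁) := by
    intro x
    rw [hZ₁def, Cfsg.Agent.S0781.rank_one_mulVec, Cfsg.Agent.S0781.dot_sigma]
  have hZ₂ : ∀ x, Z₂ *ᵥ x = x + Bh σ n e₁ x • ((μ - 1) • v₁) := by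
    intro x
    rw [hZ₂def, Cfsg.Agent.S0781.rank_one_mulVec, Cfsg.Agent.S0781.dot_sigma]
  have hZ₁det : Z₁.det = μ := by
    rw [hZ₁def, Cfsg.Agent.S0781.det_rank_one, Cfsg.Agent.S0781.dot_sigma, LinearMap.map_smul,
      hv1e1, smul_eq_mul, mul_one]
    ring
  have hZ₂det : Z₂.det = μ := by
    rw [hZ₂def, Cfsg.Agent.S0781.det_rank_one, Cfsg.Agent.S0781.dot_sigma, LinearMap.map_smul,
      he1v1, smul_eq_mul, mul_one]
    ring
  obtain ⟨Z, hZdef⟩ : ∃ Z : Matrix (Fin n) (Fin n) F, Z = Z₁ * Z₂ := ⟨_, rfl⟩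
  have hZ : ∀ x, Z *ᵥ x = x + (μ - 1) • (Bh σ n v₁ x • e₁ + Bh σ n e₁ x • v₁) := by
    intro x
    rw [hZdef, ← Matrix.mulVec_mulVec, hZ₂, hZ₁, map_add, LinearMap.map_smul, LinearMap.map_smul,
      hv1v1]
    module
  have hZp : ∀ x y, Bh σ n (Z *ᵥ x) (Z *ᵥ y) = Bh σ n x y := by
    intro x y
    obtain ⟨a1, ha1⟩ : ∃ a1 : F, a1 = Bh σ n v₁ x := ⟨_, rfl⟩
    obtain ⟨a2, ha2⟩ : ∃ a2 : F, a2 = Bh σ n e₁ x := ⟨_, rfl⟩
    obtain ⟨b1, hb1⟩ : ∃ b1 : F, b1 = Bh σ n v₁ y := ⟨_, rfl⟩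
    obtain ⟨b2, hb2⟩ : ∃ b2 : F, b2 = Bh σ n e₁ y := ⟨_, rfl⟩
    have hx1 : Bh σ n x v₁ = σ a1 := by rw [ha1, hS.eq]
    have hx2 : Bh σ n x e₁ = σ a2 := by rw [ha2, hS.eq]
    rw [hZ, hZ, ← ha1, ← ha2, ← hb1, ← hb2]
    simp only [map_add, map_smulₛₗ, LinearMap.add_apply, LinearMap.smul_apply, smul_eq_mul,
      RingHom.id_apply, map_sub, map_one, hx1, hx2, ← hb1, ← hb2, h11, hv1v1, hv1e1, he1v1]
    linear_combination (σ a1 * b2 + σ a2 * b1) * hμσ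
  obtain ⟨G, hG⟩ : ∃ G : Matrix (Fin n) (Fin n) F, G = Z * M₀ := ⟨_, rfl⟩
  have hM₀A : ∀ x, M₀ *ᵥ (A *ᵥ x) = B *ᵥ (M₀ *ᵥ x) := by
    intro x
    rw [hAx, hBx, hNA, hNB, Matrix.mulVec_add]
    congr 1
    rw [← Matrix.mulVecLin_apply, map_sum]
    apply Finset.sum_congr rfl
    intro i _
    rw [LinearMap.map_smul, Matrix.mulVecLin_apply, hM₀e, ← hM₀e i, hM₀', hM₀e]
  have hNBe : (B - 1) *ᵥ e₁ = 0 := by
    rw [hNB]
    apply Finset.sum_eq_zero
    intro i _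
    rw [hee₁, zero_smul]
  have hNBv : (B - 1) *ᵥ v₁ = e₁ := by
    rw [hNB, Finset.sum_eq_single i₀]
    · rw [hev₁, if_pos rfl, one_smul, he₁]
    · intro j _ hj
      rw [hev₁, if_neg (Ne.symm hj), zero_smul]
    · intro hi
      exact absurd (Finset.mem_univ i₀) hi
  have hZB : ∀ y, Z *ᵥ (B *ᵥ y) = B *ᵥ (Z *ᵥ y) := by
    intro y
    have h1 : Bh σ n v₁ ((B - 1) *ᵥ y) = Bh σ n e₁ y := by rw [← hNBadj, hNBv]
    have h2 : Bh σ n e₁ ((B - 1) *ᵥ y) = 0 := by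
      rw [← hNBadj, hNBe, map_zero, LinearMap.zero_apply]
    have h3 : (B - 1) *ᵥ (Z *ᵥ y) = (B - 1) *ᵥ y + (μ - 1) • Bh σ n e₁ y • e₁ := by
      rw [hZ, Matrix.mulVec_add, Matrix.mulVec_smul, Matrix.mulVec_add, Matrix.mulVec_smul,
        Matrix.mulVec_smul, hNBe, hNBv, smul_zero, zero_add]
    rw [hBx (Z *ᵥ y), h3, hBx y, hZ, hZ, map_add, map_add, h1, h2]
    module
  refine ⟨G, ?_, ?_, ?_⟩
  · rw [hG, Matrix.det_mul, hZdef, Matrix.det_mul, hZ₁det, hZ₂det, ← hDdef]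
    exact hμD
  · intro x y
    rw [← Bh_herm σ hσ, ← Bh_herm σ hσ, hG, ← Matrix.mulVec_mulVec, ← Matrix.mulVec_mulVec, hZp,
      hM₀']
  · rw [Matrix.ext_iff_mulVec]
    intro x
    rw [← Matrix.mulVec_mulVec, ← Matrix.mulVec_mulVec, hG, ← Matrix.mulVec_mulVec,
      ← Matrix.mulVec_mulVec, hM₀A, hZB]

end

/-- Conjugacy of involutions in the special unitary group SU_n(q), q even, n ≥ 3, realised over the field F with q² elements as the matrices of determinant 1 preserving the form Σ u_i v_i^q: for two elements of order 2 of SU_n(q) the following are equivalent — they are conjugate in SU_n(q); they are conjugate in SL_n(F); the matrices a − 1 and b − 1 have the same rank. -/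
theorem result {F : Type*} [Field F] [Fintype F] [CharP F 2] {n q : ℕ} (hF : Fintype.card F = q ^ 2) (hn : 3 ≤ n) (a b : ↥(Cfsg.SU n F q)) (ha : orderOf a = 2) (hb : orderOf b = 2) :
    (IsConj a b ↔ IsConj (a : Matrix.SpecialLinearGroup (Fin n) F) (b : Matrix.SpecialLinearGroup (Fin n) F)) ∧
    (IsConj a b ↔ (((a : Matrix.SpecialLinearGroup (Fin n) F) : Matrix (Fin n) (Fin n) F) - 1).rank = (((b : Matrix.SpecialLinearGroup (Fin n) F) : Matrix (Fin n) (Fin n) F) - 1).rank) := by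
  have ha' : orderOf (a : Matrix.SpecialLinearGroup (Fin n) F) = 2 := by
    rw [Subgroup.orderOf_coe]
    exact ha
  have hb' : orderOf (b : Matrix.SpecialLinearGroup (Fin n) F) = 2 := by
    rw [Subgroup.orderOf_coe]
    exact hb
  have h62 := Cfsg.Agent.S2162.result hn (a : Matrix.SpecialLinearGroup (Fin n) F)
    (b : Matrix.SpecialLinearGroup (Fin n) F) ha' hb'
  have hsq : ∀ c : Matrix.SpecialLinearGroup (Fin n) F, orderOf c = 2 →
      (c : Matrix (Fin n) (Fin n) F) * (c : Matrix (Fin n) (Fin n) F) = 1 := by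
    intro c hc
    have h1 := pow_orderOf_eq_one c
    rw [hc, sq] at h1
    exact congrArg Subtype.val h1
  have hmain : (((a : Matrix.SpecialLinearGroup (Fin n) F) : Matrix (Fin n) (Fin n) F) - 1).rank =
      (((b : Matrix.SpecialLinearGroup (Fin n) F) : Matrix (Fin n) (Fin n) F) - 1).rank →
      IsConj a b := by
    intro hrk
    have hb1 : ((b : Matrix.SpecialLinearGroup (Fin n) F) : Matrix (Fin n) (Fin n) F) ≠ 1 := by
      intro h
      have h1 : (b : Matrix.SpecialLinearGroup (Fin n) F) = 1 := Subtype.ext h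
      rw [h1, orderOf_one] at hb'
      omega
    obtain ⟨G, hGdet, hGp, hGAB⟩ := main hF
      (((a : Matrix.SpecialLinearGroup (Fin n) F) : Matrix (Fin n) (Fin n) F))
      (((b : Matrix.SpecialLinearGroup (Fin n) F) : Matrix (Fin n) (Fin n) F))
      (fun x y => (Cfsg.Agent.Lib.Helper45.SUCard.mem_SU_iff a.1).1 a.2 x y)
      (fun x y => (Cfsg.Agent.Lib.Helper45.SUCard.mem_SU_iff b.1).1 b.2 x y)
      (hsq _ ha') (hsq _ hb') hb1 hrk
    rw [isConj_iff]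
    refine ⟨⟨⟨G, hGdet⟩, fun x y => hGp x y⟩, ?_⟩
    rw [mul_inv_eq_iff_eq_mul]
    apply Subtype.ext
    apply Subtype.ext
    exact hGAB
  have hmap : IsConj a b → IsConj (a : Matrix.SpecialLinearGroup (Fin n) F)
      (b : Matrix.SpecialLinearGroup (Fin n) F) := by
    intro h
    obtain ⟨c, hc⟩ := isConj_iff.1 h
    exact isConj_iff.2 ⟨(c : Matrix.SpecialLinearGroup (Fin n) F), by rw [← hc]; rfl⟩
  exact ⟨⟨hmap, fun h => hmain (h62.1 h)⟩, ⟨fun h => h62.1 (hmap h), hmain⟩⟩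

end Cfsg.Agent.S2164
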