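-- Statement S2165.
import Cfsg.Statements.S2165

set_option autoImplicit false
open Cfsg

namespace Cfsg.Agent.S2165

/-- the swap `i ↔ i + (n - ℓ)` for `i < ℓ`. -/
def sw (n ℓ : ℕ) (i : Fin n) : Fin n :=
  if h : i.val < ℓ then ⟨i.val + (n - ℓ), by have := i.isLt; omega⟩
  else if h2 : n - ℓ ≤ i.val then ⟨i.val - (n - ℓ), by have := i.isLt; omega⟩ else i

theorem sw_val (n ℓ : ℕ) (i : Fin n) :
    (sw n ℓ i).val = if i.val < ℓ then i.val + (n - ℓ) else if n - ℓ ≤ i.val then i.val - (n - ℓ)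
      else i.val := by
  unfold sw
  split_ifs <;> rfl

theorem sw_sw (n ℓ : ℕ) (h2 : 2 * ℓ ≤ n) (i : Fin n) : sw n ℓ (sw n ℓ i) = i := by
  apply Fin.ext
  rw [sw_val, sw_val]
  have := i.isLt
  split_ifs <;> omega

/-- the permutation matrix -/
def pMat (F : Type*) [Field F] (n ℓ : ℕ) : Matrix (Fin n) (Fin n) F :=
  Matrix.of (fun i j : Fin n => if j = sw n ℓ i then (1 : F) else 0)

theorem pMat_eq (F : Type*) [Field F] (n ℓ : ℕ) (h2 : 2 * ℓ ≤ n) :
    Matrix.of (fun i j : Fin n => if (j.val < ℓ ∧ i.val = j.val + (n - ℓ)) ∨ (i.val < ℓ ∧ j.val = i.val + (n - ℓ)) ∨ (i = j ∧ ℓ ≤ i.val ∧ i.val < n - ℓ) then (1 : F) else 0) = pMat F n ℓ := by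
  ext i j
  simp only [pMat, Matrix.of_apply]
  have hi := i.isLt
  have hj := j.isLt
  have key : ((j.val < ℓ ∧ i.val = j.val + (n - ℓ)) ∨ (i.val < ℓ ∧ j.val = i.val + (n - ℓ)) ∨ (i = j ∧ ℓ ≤ i.val ∧ i.val < n - ℓ)) ↔ j = sw n ℓ i := by
    rw [Fin.ext_iff, Fin.ext_iff, sw_val]
    split_ifs <;> omega
  by_cases h : j = sw n ℓ i
  · rw [if_pos (key.mpr h), if_pos h]
  · rw [if_neg (fun h' => h (key.mp h')), if_neg h]

theorem pMat_mulVec (F : Type*) [Field F] (n ℓ : ℕ) (v : Fin n → F) (i : Fin n) :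
    (pMat F n ℓ).mulVec v i = v (sw n ℓ i) := by
  simp [pMat, Matrix.mulVec, dotProduct]

theorem pMat_mul_self (F : Type*) [Field F] (n ℓ : ℕ) (h2 : 2 * ℓ ≤ n) :
    pMat F n ℓ * pMat F n ℓ = 1 := by
  ext i j
  simp only [pMat, Matrix.mul_apply, Matrix.of_apply, Matrix.one_apply]
  rw [Finset.sum_eq_single (sw n ℓ i)]
  · by_cases hij : i = j
    · subst hij
      simp [sw_sw n ℓ h2]
    · have : ¬ (j = sw n ℓ (sw n ℓ i)) := by
        rw [sw_sw n ℓ h2]
        exact fun h => hij h.symm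
      simp [hij, this]
  · intro k _ hk
    simp [hk]
  · simp

theorem pMat_det (F : Type*) [Field F] [CharP F 2] (n ℓ : ℕ) (h2 : 2 * ℓ ≤ n) :
    (pMat F n ℓ).det = 1 := by
  have h : (pMat F n ℓ).det * (pMat F n ℓ).det = 1 := by
    rw [← Matrix.det_mul, pMat_mul_self F n ℓ h2, Matrix.det_one]
  have h2F : (2 : F) = 0 := CharP.cast_eq_zero F 2
  have h3 : ((pMat F n ℓ).det - 1) * ((pMat F n ℓ).det - 1) = 0 := by
    have : ((pMat F n ℓ).det - 1) * ((pMat F n ℓ).det - 1)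
        = (pMat F n ℓ).det * (pMat F n ℓ).det - 2 * (pMat F n ℓ).det + 1 := by ring
    rw [this, h, h2F]
    ring_nf
    exact h2F
  have h4 : (pMat F n ℓ).det - 1 = 0 := by
    rcases mul_eq_zero.mp h3 with h | h <;> exact h
  exact sub_eq_zero.mp h4

def cMat (F : Type*) [Field F] (n ℓ : ℕ) : Matrix (Fin ℓ) (Fin n) F :=
  Matrix.of (fun k i => if i.val = k.val then (1 : F) else 0)

def eMat (F : Type*) [Field F] (n ℓ : ℕ) : Matrix (Fin n) (Fin ℓ) F :=
  Matrix.of (fun j k => if j.val = k.val + (n - ℓ) then (1 : F) else 0)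

/-- left factor -/
def aMat (F : Type*) [Field F] (n ℓ : ℕ) : Matrix (Fin n) (Fin ℓ) F :=
  Matrix.of (fun i k => (if i.val = k.val then (1 : F) else 0) -
    (if i.val = k.val + (n - ℓ) then (1 : F) else 0))

/-- right factor -/
def bMat (F : Type*) [Field F] (n ℓ : ℕ) : Matrix (Fin ℓ) (Fin n) F :=
  Matrix.of (fun k j => (if j.val = k.val + (n - ℓ) then (1 : F) else 0) -
    (if j.val = k.val then (1 : F) else 0))

theorem pMat_sub_one_apply (F : Type*) [Field F] (n ℓ : ℕ) (i j : Fin n) :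
    (pMat F n ℓ - 1) i j = (if j.val = (sw n ℓ i).val then (1 : F) else 0) -
      (if i.val = j.val then (1 : F) else 0) := by
  simp only [pMat, Matrix.sub_apply, Matrix.of_apply, Matrix.one_apply, Fin.ext_iff]

theorem pMat_sub_one_eq (F : Type*) [Field F] (n ℓ : ℕ) (h2 : 2 * ℓ ≤ n) :
    pMat F n ℓ - 1 = aMat F n ℓ * bMat F n ℓ := by
  ext i j
  rw [pMat_sub_one_apply, sw_val]
  simp only [aMat, bMat, Matrix.mul_apply, Matrix.of_apply]
  have hi := i.isLt
  have hj := j.isLt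
  by_cases c1 : i.val < ℓ
  · rw [Finset.sum_eq_single (⟨i.val, c1⟩ : Fin ℓ)]
    · have e1 : ¬ (i.val = i.val + (n - ℓ)) := by omega
      simp only [c1, if_true, e1, if_false, sub_zero, one_mul]
      congr 1
      by_cases c : i.val = j.val
      · rw [if_pos c, if_pos c.symm]
      · rw [if_neg c, if_neg (fun h => c h.symm)]
    · intro k _ hk
      have hk' : ¬ (i.val = k.val) := fun h => hk (Fin.ext h.symm)
      have hk2 : ¬ (i.val = k.val + (n - ℓ)) := by have := k.isLt; omega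
      simp [hk', hk2]
    · simp
  · by_cases c2 : n - ℓ ≤ i.val
    · have c3 : i.val - (n - ℓ) < ℓ := by omega
      rw [Finset.sum_eq_single (⟨i.val - (n - ℓ), c3⟩ : Fin ℓ)]
      · have e1 : ¬ (i.val = i.val - (n - ℓ)) := by omega
        have e2 : i.val = i.val - (n - ℓ) + (n - ℓ) := by omega
        simp only [c1, if_false, c2, if_true, e1, zero_sub, neg_mul]
        rw [if_pos e2, one_mul]
        by_cases c : i.val = j.val
        · have c' : j.val = i.val - (n - ℓ) + (n - ℓ) := by omega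
          rw [if_pos c, if_pos c']
          ring
        · have c' : ¬ (j.val = i.val - (n - ℓ) + (n - ℓ)) := by omega
          rw [if_neg c, if_neg c']
          ring
      · intro k _ hk
        have hk' : ¬ (i.val = k.val) := by have := k.isLt; omega
        have hk2 : ¬ (i.val = k.val + (n - ℓ)) := by
          intro h
          apply hk
          apply Fin.ext
          simp only
          omega
        simp [hk', hk2]
      · simp
    · have e : ∀ k : Fin ℓ, ¬ (i.val = k.val) ∧ ¬ (i.val = k.val + (n - ℓ)) := by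
        intro k
        have := k.isLt
        constructor <;> omega
      simp only [c1, c2, if_false]
      rw [Finset.sum_eq_zero]
      · by_cases c : i.val = j.val
        · rw [if_pos c.symm, if_pos c, sub_self]
        · rw [if_neg (fun h => c h.symm), if_neg c, sub_self]
      · intro k _
        simp [(e k).1, (e k).2]

theorem cMat_mul_eMat (F : Type*) [Field F] (n ℓ : ℕ) (h2 : 2 * ℓ ≤ n) :
    cMat F n ℓ * (pMat F n ℓ - 1) * eMat F n ℓ = 1 := by
  ext a b
  simp only [Matrix.mul_apply, cMat, eMat, Matrix.of_apply, Matrix.one_apply]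
  have ha := a.isLt
  have hb := b.isLt
  have ha' : a.val < n := by omega
  have hb' : b.val + (n - ℓ) < n := by omega
  rw [Finset.sum_eq_single (⟨b.val + (n - ℓ), hb'⟩ : Fin n)]
  · rw [Finset.sum_eq_single (⟨a.val, ha'⟩ : Fin n)]
    · rw [pMat_sub_one_apply, sw_val]
      simp only [if_true, one_mul, mul_one, ha]
      have e1 : ¬ (a.val = b.val + (n - ℓ)) := by omega
      rw [if_neg e1, sub_zero]
      by_cases c : a = b
      · subst c
        simp
      · have : ¬ (b.val + (n - ℓ) = a.val + (n - ℓ)) := by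
          intro h
          apply c
          apply Fin.ext
          omega
        rw [if_neg this, if_neg c]
    · intro k _ hk
      have : ¬ (k.val = a.val) := fun h => hk (Fin.ext h)
      simp [this]
    · simp
  · intro k _ hk
    have : ¬ (k.val = b.val + (n - ℓ)) := fun h => hk (Fin.ext h)
    simp [this]
  · simp

theorem pMat_rank (F : Type*) [Field F] (n ℓ : ℕ) (h2 : 2 * ℓ ≤ n) :
    (pMat F n ℓ - 1).rank = ℓ := by
  apply le_antisymm
  · rw [pMat_sub_one_eq F n ℓ h2]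
    calc (aMat F n ℓ * bMat F n ℓ).rank ≤ (aMat F n ℓ).rank := Matrix.rank_mul_le_left _ _
      _ ≤ Fintype.card (Fin ℓ) := Matrix.rank_le_card_width _
      _ = ℓ := Fintype.card_fin ℓ
  · calc ℓ = Fintype.card (Fin ℓ) := (Fintype.card_fin ℓ).symm
      _ = (1 : Matrix (Fin ℓ) (Fin ℓ) F).rank := (Matrix.rank_one).symm
      _ = (cMat F n ℓ * (pMat F n ℓ - 1) * eMat F n ℓ).rank := by rw [cMat_mul_eMat F n ℓ h2]
      _ ≤ (cMat F n ℓ * (pMat F n ℓ - 1)).rank := Matrix.rank_mul_le_left _ _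
      _ ≤ (pMat F n ℓ - 1).rank := Matrix.rank_mul_le_right _ _

theorem pMat_ne_one (F : Type*) [Field F] (n ℓ : ℕ) (h1 : 1 ≤ ℓ) (h2 : 2 * ℓ ≤ n) :
    pMat F n ℓ ≠ 1 := by
  intro h
  have hr := pMat_rank F n ℓ h2
  rw [h, sub_self, Matrix.rank_zero] at hr
  omega

theorem pMat_herm (F : Type*) [Field F] (n ℓ q : ℕ) (h2 : 2 * ℓ ≤ n) (u v : Fin n → F) :
    hermForm n F q ((pMat F n ℓ).mulVec u) ((pMat F n ℓ).mulVec v) = hermForm n F q u v := by
  unfold hermForm
  simp only [pMat_mulVec]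
  exact Fintype.sum_bijective (sw n ℓ)
    (Function.Involutive.bijective (sw_sw n ℓ h2)) _ _ (fun _ => rfl)

theorem result {F : Type*} [Field F] [Fintype F] [CharP F 2] {n q : ℕ} (hF : Fintype.card F = q ^ 2) (hn : 3 ≤ n) (ℓ : ℕ) (h1 : 1 ≤ ℓ) (h2 : 2 * ℓ ≤ n) :
    ∃ a : ↥(Cfsg.SU n F q), (((a : Matrix.SpecialLinearGroup (Fin n) F) : Matrix (Fin n) (Fin n) F) = Matrix.of (fun i j : Fin n => if (j.val < ℓ ∧ i.val = j.val + (n - ℓ)) ∨ (i.val < ℓ ∧ j.val = i.val + (n - ℓ)) ∨ (i = j ∧ ℓ ≤ i.val ∧ i.val < n - ℓ) then (1 : F) else 0)) ∧ orderOf a = 2 ∧ ((((a : Matrix.SpecialLinearGroup (Fin n) F) : Matrix (Fin n) (Fin n) F)) - 1).rank = ℓ := by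
  rw [pMat_eq F n ℓ h2]
  obtain ⟨s, hs⟩ : ∃ s : Matrix.SpecialLinearGroup (Fin n) F,
      (s : Matrix (Fin n) (Fin n) F) = pMat F n ℓ :=
    ⟨⟨pMat F n ℓ, pMat_det F n ℓ h2⟩, rfl⟩
  have hmem : s ∈ Cfsg.SU n F q := by
    intro u v
    show hermForm n F q ((s : Matrix (Fin n) (Fin n) F).mulVec u)
      ((s : Matrix (Fin n) (Fin n) F).mulVec v) = hermForm n F q u v
    rw [hs]
    exact pMat_herm F n ℓ q h2 u v
  refine ⟨⟨s, hmem⟩, hs, ?_, ?_⟩
  · have hp : Fact (Nat.Prime 2) := ⟨Nat.prime_two⟩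
    apply orderOf_eq_prime
    · apply Subtype.ext
      apply Matrix.SpecialLinearGroup.ext
      intro i j
      rw [Subgroup.coe_pow, Subgroup.coe_one, Matrix.SpecialLinearGroup.coe_pow,
        Matrix.SpecialLinearGroup.coe_one]
      show ((s : Matrix (Fin n) (Fin n) F) ^ 2) i j = _
      rw [hs, pow_two, pMat_mul_self F n ℓ h2]
    · intro h
      have h' : s = 1 := congrArg Subtype.val h
      have h'' := congrArg Subtype.val h'
      rw [hs] at h''
      exact pMat_ne_one F n ℓ h1 h2 h''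
  · show ((s : Matrix (Fin n) (Fin n) F) - 1).rank = ℓ
    rw [hs]
    exact pMat_rank F n ℓ h2

end Cfsg.Agent.S2165
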