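import Cfsg.Statements.S2166
import Mathlib
import Cfsg.Agent.S0752
import Cfsg.Agent.S0755
import Cfsg.Agent.Lib.Helper13.Symp
import Cfsg.Agent.Lib.Helper13.SympMat

set_option autoImplicit false
open Cfsg

namespace Cfsg.Agent.S2166

open Matrix Cfsg.Agent.Lib.Helper13 Cfsg.Agent.Lib.Helper13.SympMat

theorem snoc_ortho {F V : Type*} [Field F] [AddCommGroup V] [Module F V]
    (β : LinearMap.BilinForm F V) (hS : ∀ x y, β x y = β y x) {k : ℕ} (e : Fin k → V)
    (he : ∀ i j, β (e i) (e j) = if i = j then 1 else 0) (w : V) (hw : ∀ i, β (e i) w = 0)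
    (hww : β w w = 1) :
    ∀ i j, β ((Fin.snoc e w : Fin (k + 1) → V) i) ((Fin.snoc e w : Fin (k + 1) → V) j) =
      if i = j then 1 else 0 := by
  intro i j
  refine Fin.lastCases ?_ (fun i => ?_) i <;> refine Fin.lastCases ?_ (fun j => ?_) j
  · simp only [Fin.snoc_last]
    rw [hww, if_pos trivial]
  · simp only [Fin.snoc_last, Fin.snoc_castSucc]
    rw [hS, hw j, if_neg (Fin.castSucc_lt_last j).ne']
  · simp only [Fin.snoc_last, Fin.snoc_castSucc]
    rw [hw i, if_neg (Fin.castSucc_lt_last i).ne]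
  · simp only [Fin.snoc_castSucc, he, Fin.castSucc_inj]

theorem ortho_step {F V : Type*} [Field F] [Finite F] [CharP F 2] [AddCommGroup V] [Module F V]
    [FiniteDimensional F V] (β : LinearMap.BilinForm F V) (hS : ∀ x y, β x y = β y x)
    (hnd : ∀ x, (∀ y, β x y = 0) → x = 0) {k : ℕ} (e : Fin (k + 1) → V)
    (he : ∀ i j, β (e i) (e j) = if i = j then 1 else 0) (hk : k + 1 < Module.finrank F V) :
    ∃ e' : Fin (k + 1 + 1) → V, ∀ i j, β (e' i) (e' j) = if i = j then 1 else 0 := by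
  classical
  have hli := Cfsg.Agent.S0755.li_of_orthonormal (RingHom.id F) β e he
  have hP : ∀ u i, β (e i) (u - ∑ j, (β (e j) u) • e j) = 0 := by
    intro u i
    simp only [map_sub, map_sum, map_smul, smul_eq_mul, he, mul_ite, mul_one, mul_zero,
      Finset.sum_ite_eq, Finset.mem_univ, if_true, sub_self]
  have hlt : Submodule.span F (Set.range e) < ⊤ := by
    rw [lt_top_iff_ne_top]
    intro htop
    have h1 := finrank_span_eq_card hli
    rw [htop, finrank_top] at h1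
    simp at h1
    omega
  obtain ⟨u, -, hu⟩ := SetLike.exists_of_lt hlt
  have hPu : u - ∑ j, (β (e j) u) • e j ≠ 0 := by
    intro h0
    apply hu
    rw [sub_eq_zero.1 h0]
    exact Submodule.sum_mem _ fun i _ => Submodule.smul_mem _ _ (Submodule.subset_span ⟨i, rfl⟩)
  have hsq : ∀ d : F, ∃ s : F, s * s = d := fun d => by
    obtain ⟨s, hs⟩ := FiniteField.isSquare_of_char_two (ringChar.eq F 2) d
    exact ⟨s, hs.symm⟩
  by_cases h : ∃ w, (∀ i, β (e i) w = 0) ∧ β w w ≠ 0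
  · obtain ⟨w, hw, hd⟩ := h
    obtain ⟨s, hs⟩ := hsq (β w w)⁻¹
    refine ⟨(Fin.snoc e (s • w) : Fin (k + 1 + 1) → V), snoc_ortho β hS e he (s • w) ?_ ?_⟩
    · intro i
      rw [map_smul, hw i, smul_zero]
    · rw [map_smul, LinearMap.map_smul, LinearMap.smul_apply, smul_eq_mul, smul_eq_mul,
        ← mul_assoc, hs, inv_mul_cancel₀ hd]
  · have hiso : ∀ w, (∀ i, β (e i) w = 0) → β w w = 0 := by
      intro w hw
      by_contra hne
      exact h ⟨w, hw, hne⟩
    obtain ⟨w, hw⟩ : ∃ w, w = u - ∑ j, (β (e j) u) • e j := ⟨_, rfl⟩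
    rw [← hw] at hPu
    have hwU : ∀ i, β (e i) w = 0 := fun i => by rw [hw]; exact hP u i
    obtain ⟨y, hy⟩ : ∃ y, β w y ≠ 0 := by
      by_contra hcon
      apply hPu
      apply hnd
      intro y
      by_contra hne
      exact hcon ⟨y, hne⟩
    obtain ⟨y', hy'⟩ : ∃ y', y' = y - ∑ j, (β (e j) y) • e j := ⟨_, rfl⟩
    have hy'U : ∀ i, β (e i) y' = 0 := fun i => by rw [hy']; exact hP y i
    have hwy' : β w y' = β w y := by
      rw [hy', map_sub, map_sum, sub_eq_self]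
      apply Finset.sum_eq_zero
      intro j _
      rw [map_smul, hS w (e j), hwU, smul_zero]
    obtain ⟨x₂, hx₂⟩ : ∃ x₂, x₂ = (β w y)⁻¹ • y' := ⟨_, rfl⟩
    have hx₂U : ∀ i, β (e i) x₂ = 0 := fun i => by rw [hx₂, map_smul, hy'U, smul_zero]
    have hwx₂ : β w x₂ = 1 := by
      rw [hx₂, map_smul, hwy', smul_eq_mul, inv_mul_cancel₀ hy]
    have hww : β w w = 0 := hiso w hwU
    have hx₂x₂ : β x₂ x₂ = 0 := hiso x₂ hx₂U
    obtain ⟨z, hz⟩ : ∃ z, z = e (Fin.last k) := ⟨_, rfl⟩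
    have hzz : β z z = 1 := by rw [hz, he, if_pos rfl]
    have hzw : β z w = 0 := by rw [hz, hwU]
    have hzx₂ : β z x₂ = 0 := by rw [hz, hx₂U]
    have h11 : (1 : F) + 1 = 0 := CharTwo.add_self_eq_zero 1
    have he₀ : ∀ i j : Fin k, β (e (Fin.castSucc i)) (e (Fin.castSucc j)) =
        if i = j then 1 else 0 := by
      intro i j
      simp only [he, Fin.castSucc_inj]
    have hez : ∀ i : Fin k, β (e (Fin.castSucc i)) z = 0 := by
      intro i
      rw [hz, he, if_neg (Fin.castSucc_lt_last i).ne]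
    have h1 := snoc_ortho β hS (fun i : Fin k => e (Fin.castSucc i)) he₀ (z + w)
      (fun i => by rw [map_add, hez, hwU, add_zero])
      (by
        simp only [map_add, LinearMap.add_apply]
        rw [hzz, hzw, hS w z, hzw, hww]
        ring)
    have h2 := snoc_ortho β hS _ h1 (z + x₂)
      (fun i => by
        refine Fin.lastCases ?_ (fun i => ?_) i
        · simp only [Fin.snoc_last]
          simp only [map_add, LinearMap.add_apply]
          rw [hzz, hzx₂, hS w z, hzw, hwx₂]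
          linear_combination h11
        · simp only [Fin.snoc_castSucc]
          rw [map_add, hez, hx₂U, add_zero])
      (by
        simp only [map_add, LinearMap.add_apply]
        rw [hzz, hzx₂, hS x₂ z, hzx₂, hx₂x₂]
        ring)
    exact ⟨_, h2⟩

theorem ortho_basis {F V : Type*} [Field F] [Finite F] [CharP F 2] [AddCommGroup V] [Module F V]
    [FiniteDimensional F V] (β : LinearMap.BilinForm F V) (hS : ∀ x y, β x y = β y x)
    (hnd : ∀ x, (∀ y, β x y = 0) → x = 0) (hna : ∃ x, β x x ≠ 0) :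
    ∃ b : Module.Basis (Fin (Module.finrank F V)) F V,
      ∀ i j, β (b i) (b j) = if i = j then 1 else 0 := by
  classical
  obtain ⟨x, hx⟩ := hna
  have hpos : 0 < Module.finrank F V := by
    apply Module.finrank_pos_iff_exists_ne_zero.2
    refine ⟨x, ?_⟩
    rintro rfl
    apply hx
    simp
  have hfam : ∀ k, 1 ≤ k → k ≤ Module.finrank F V →
      ∃ e : Fin k → V, ∀ i j, β (e i) (e j) = if i = j then 1 else 0 := by
    intro k
    induction k with
    | zero => intro h; omega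
    | succ k ih =>
      intro _ hk
      rcases Nat.eq_zero_or_pos k with h0 | h0
      · subst h0
        obtain ⟨s, hs⟩ := FiniteField.isSquare_of_char_two (ringChar.eq F 2) (β x x)⁻¹
        refine ⟨fun _ => s • x, ?_⟩
        intro i j
        have hij : i = j := Fin.ext (by omega)
        rw [if_pos hij, map_smul, LinearMap.map_smul, LinearMap.smul_apply, smul_eq_mul,
          smul_eq_mul, ← mul_assoc, ← hs, inv_mul_cancel₀ hx]
      · obtain ⟨k', rfl⟩ := Nat.exists_eq_succ_of_ne_zero h0.ne'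
        obtain ⟨e, he⟩ := ih (by omega) (by omega)
        exact ortho_step β hS hnd e he (by omega)
  obtain ⟨e, he⟩ := hfam _ hpos le_rfl
  have hli := Cfsg.Agent.S0755.li_of_orthonormal (RingHom.id F) β e he
  refine ⟨basisOfLinearIndependentOfCardEqFinrank' e hli (by simp), ?_⟩
  intro i j
  rw [coe_basisOfLinearIndependentOfCardEqFinrank']
  exact he i j

section
variable {F : Type*} [Field F] {m : ℕ}

theorem hdec (N : Matrix (Fin m ⊕ Fin m) (Fin m ⊕ Fin m) F)
    (C : Submodule F (Fin m ⊕ Fin m → F))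
    (hC : IsCompl (LinearMap.ker N.mulVecLin) C) (y : Fin m ⊕ Fin m → F) :
    ∃ c ∈ C, ∃ k, N *ᵥ k = 0 ∧ y = k + c := by
  have hy : y ∈ LinearMap.ker N.mulVecLin ⊔ C := by
    rw [hC.sup_eq_top]
    trivial
  obtain ⟨k, hk, c, hc, rfl⟩ := Submodule.mem_sup.1 hy
  exact ⟨c, hc, k, hk, rfl⟩

theorem frame_of_basis {ι : Type*} [Fintype ι] [DecidableEq ι] (π : ι → ι)
    (hπ : ∀ p, π (π p) = p)
    (N : Matrix (Fin m ⊕ Fin m) (Fin m ⊕ Fin m) F)
    (hN2 : ∀ x, N *ᵥ (N *ᵥ x) = 0)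
    (hadj : ∀ x y, form m F (N *ᵥ x) y = form m F x (N *ᵥ y))
    (C : Submodule F (Fin m ⊕ Fin m → F)) (hC : IsCompl (LinearMap.ker N.mulVecLin) C)
    (b : Module.Basis ι F C)
    (hb : ∀ p q, form m F (b p : Fin m ⊕ Fin m → F) (N *ᵥ (b q : Fin m ⊕ Fin m → F)) =
      if π p = q then 1 else 0) :
    ∃ e v : ι → (Fin m ⊕ Fin m → F), (∀ p q, form m F (e p) (e q) = 0) ∧
      (∀ p q, form m F (v p) (e q) = if p = q then 1 else 0) ∧
      ∀ y, N *ᵥ y = ∑ p, form m F (e (π p)) y • e p := by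
  refine ⟨fun p => N *ᵥ (b p : Fin m ⊕ Fin m → F), fun p => (b (π p) : Fin m ⊕ Fin m → F),
    ?_, ?_, ?_⟩
  · intro p q
    rw [hadj, hN2, map_zero]
  · intro p q
    rw [hb, hπ]
  · intro y
    obtain ⟨c, hc, k, hk, rfl⟩ := hdec N C hC y
    have h2 : N *ᵥ c = ∑ j, b.repr ⟨c, hc⟩ j • N *ᵥ (b j : Fin m ⊕ Fin m → F) := by
      have h3 := congrArg (fun z : C => N.mulVecLin (z : Fin m ⊕ Fin m → F)) (b.sum_repr ⟨c, hc⟩)
      simp only [Submodule.coe_sum, Submodule.coe_smul, map_sum, map_smul,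
        Matrix.mulVecLin_apply] at h3
      exact h3.symm
    have hy : N *ᵥ (k + c) = N *ᵥ c := by rw [Matrix.mulVec_add, hk, zero_add]
    have h1 : ∀ p, form m F (N *ᵥ (b (π p) : Fin m ⊕ Fin m → F)) (k + c) = b.repr ⟨c, hc⟩ p := by
      intro p
      rw [hadj, hy, h2, map_sum, Finset.sum_eq_single p]
      · rw [LinearMap.map_smul, hb, hπ, if_pos rfl, smul_eq_mul, mul_one]
      · intro j _ hjp
        rw [LinearMap.map_smul, hb, hπ, if_neg (Ne.symm hjp), smul_zero]
      · intro hp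
        exact absurd (Finset.mem_univ p) hp
    rw [hy, h2]
    apply Finset.sum_congr rfl
    intro p _
    rw [h1]

theorem exists_beta [CharP F 2] (N : Matrix (Fin m ⊕ Fin m) (Fin m ⊕ Fin m) F)
    (hadj : ∀ x y, form m F (N *ᵥ x) y = form m F x (N *ᵥ y))
    (C : Submodule F (Fin m ⊕ Fin m → F)) (hC : IsCompl (LinearMap.ker N.mulVecLin) C) :
    ∃ β : LinearMap.BilinForm F C,
      (∀ x y : C, β x y = form m F (x : Fin m ⊕ Fin m → F) (N *ᵥ (y : Fin m ⊕ Fin m → F))) ∧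
      (∀ x y, β x y = β y x) ∧ (∀ x : C, (∀ y : C, β x y = 0) → x = 0) := by
  refine ⟨((form m F).compl₂ N.mulVecLin).domRestrict₁₂ C C, fun x y => rfl, ?_, ?_⟩
  · intro x y
    show form m F (x : Fin m ⊕ Fin m → F) (N *ᵥ (y : Fin m ⊕ Fin m → F)) =
      form m F (y : Fin m ⊕ Fin m → F) (N *ᵥ (x : Fin m ⊕ Fin m → F))
    rw [← hadj, ← (form_alt m).neg_eq, CharTwo.neg_eq]
  · intro x hx
    have h1 : N *ᵥ (x : Fin m ⊕ Fin m → F) = 0 := by
      apply (form_nondeg m).1
      intro z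
      obtain ⟨c, hc, k, hk, rfl⟩ := hdec N C hC z
      rw [hadj, Matrix.mulVec_add, hk, zero_add]
      exact hx ⟨c, hc⟩
    have h2 : (x : Fin m ⊕ Fin m → F) ∈ LinearMap.ker N.mulVecLin ⊓ C := ⟨h1, x.2⟩
    rw [hC.inf_eq_bot] at h2
    exact Subtype.ext ((Submodule.mem_bot F).1 h2)

theorem finrank_compl (N : Matrix (Fin m ⊕ Fin m) (Fin m ⊕ Fin m) F)
    (C : Submodule F (Fin m ⊕ Fin m → F)) (hC : IsCompl (LinearMap.ker N.mulVecLin) C) :
    Module.finrank F C = N.rank := by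
  have h1 := Submodule.finrank_add_eq_of_isCompl hC
  have h2 := LinearMap.finrank_range_add_finrank_ker N.mulVecLin
  have h3 : Module.finrank F (LinearMap.range N.mulVecLin) = N.rank := rfl
  omega

theorem frame_alt [Finite F] [CharP F 2] (N : Matrix (Fin m ⊕ Fin m) (Fin m ⊕ Fin m) F)
    (hN2 : ∀ x, N *ᵥ (N *ᵥ x) = 0)
    (hadj : ∀ x y, form m F (N *ᵥ x) y = form m F x (N *ᵥ y))
    (halt : ∀ x, form m F x (N *ᵥ x) = 0) :
    ∃ l : ℕ, N.rank = l + l ∧ ∃ e v : Fin l ⊕ Fin l → (Fin m ⊕ Fin m → F),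
      (∀ p q, form m F (e p) (e q) = 0) ∧
      (∀ p q, form m F (v p) (e q) = if p = q then 1 else 0) ∧
      ∀ y, N *ᵥ y = ∑ p, form m F (e (Sum.swap p)) y • e p := by
  classical
  obtain ⟨C, hC⟩ := Submodule.exists_isCompl (LinearMap.ker N.mulVecLin)
  have hCr := finrank_compl N C hC
  obtain ⟨β, hβa, hβS, hβnd⟩ := exists_beta N hadj C hC
  have hβalt : β.IsAlt := fun x => by rw [hβa]; exact halt _
  obtain ⟨l, k, b, h1, h2, h3, h4⟩ := Cfsg.Agent.S0752.result β hβalt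
  have hk : k = 0 := by
    by_contra hk
    obtain ⟨k', rfl⟩ := Nat.exists_eq_succ_of_ne_zero hk
    exact b.ne_zero (Sum.inr 0) (hβnd _ (h4 0))
  subst hk
  have hcard : Module.finrank F C = l + l := by
    rw [Module.finrank_eq_card_basis b]
    simp
  obtain ⟨b', hb'⟩ : ∃ b' : Module.Basis (Fin l ⊕ Fin l) F C, ∀ p, b' p = b (Sum.inl p) :=
    ⟨b.reindex (Equiv.sumEmpty _ _), fun p => by simp⟩
  refine ⟨l, by omega, ?_⟩
  refine frame_of_basis Sum.swap (fun p => Sum.swap_swap p) N hN2 hadj C hC b' ?_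
  intro p q
  rw [← hβa, hb', hb']
  rcases p with i | i <;> rcases q with j | j
  · rw [h2]; simp
  · rw [h1]; simp
  · rw [hβS, h1]; simp [eq_comm]
  · rw [h3]; simp

theorem frame_nalt [Finite F] [CharP F 2] (N : Matrix (Fin m ⊕ Fin m) (Fin m ⊕ Fin m) F)
    (hN2 : ∀ x, N *ᵥ (N *ᵥ x) = 0)
    (hadj : ∀ x y, form m F (N *ᵥ x) y = form m F x (N *ᵥ y))
    (hnalt : ∃ x, form m F x (N *ᵥ x) ≠ 0) (r : ℕ) (hr : N.rank = r) :
    ∃ e v : Fin r → (Fin m ⊕ Fin m → F),
      (∀ p q, form m F (e p) (e q) = 0) ∧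
      (∀ p q, form m F (v p) (e q) = if p = q then 1 else 0) ∧
      ∀ y, N *ᵥ y = ∑ p, form m F (e (id p)) y • e p := by
  classical
  obtain ⟨C, hC⟩ := Submodule.exists_isCompl (LinearMap.ker N.mulVecLin)
  have hCr : Module.finrank F C = r := by rw [finrank_compl N C hC, hr]
  subst hCr
  obtain ⟨β, hβa, hβS, hβnd⟩ := exists_beta N hadj C hC
  have hna : ∃ x : C, β x x ≠ 0 := by
    obtain ⟨x, hx⟩ := hnalt
    obtain ⟨c, hc, k, hk, rfl⟩ := hdec N C hC x
    refine ⟨⟨c, hc⟩, ?_⟩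
    rw [hβa]
    intro h0
    apply hx
    rw [Matrix.mulVec_add, hk, zero_add, map_add, LinearMap.add_apply, ← hadj, hk, map_zero,
      LinearMap.zero_apply, zero_add]
    exact h0
  obtain ⟨b, hb⟩ := ortho_basis β hβS hβnd hna
  refine frame_of_basis id (fun p => rfl) N hN2 hadj C hC b ?_
  intro p q
  rw [← hβa, hb]
  rfl

theorem conj_of_frames {ι : Type*} [Fintype ι] [DecidableEq ι] (π : ι → ι)
    (A A' : Matrix (Fin m ⊕ Fin m) (Fin m ⊕ Fin m) F)
    (e v e' v' : ι → (Fin m ⊕ Fin m → F))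
    (hee : ∀ p q, form m F (e p) (e q) = 0)
    (hve : ∀ p q, form m F (v p) (e q) = if p = q then 1 else 0)
    (hN : ∀ y, (A - 1) *ᵥ y = ∑ p, form m F (e (π p)) y • e p)
    (hee' : ∀ p q, form m F (e' p) (e' q) = 0)
    (hve' : ∀ p q, form m F (v' p) (e' q) = if p = q then 1 else 0)
    (hN' : ∀ y, (A' - 1) *ᵥ y = ∑ p, form m F (e' (π p)) y • e' p) :
    ∃ G ∈ Matrix.symplecticGroup (Fin m) F, G * A = A' * G := by
  classical
  obtain ⟨f, hf⟩ : ∃ f : (Fin m ⊕ Fin m → F) →ₗ[F] (Fin m ⊕ Fin m → F),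
      ∀ x, f x = ∑ p, form m F (v p) x • e' p :=
    ⟨∑ p, (form m F (v p)).smulRight (e' p), fun x => by
      rw [LinearMap.sum_apply]
      rfl⟩
  have hfe : ∀ c : ι → F, f (∑ q, c q • e q) = ∑ q, c q • e' q := by
    intro c
    rw [hf]
    apply Finset.sum_congr rfl
    intro p _
    rw [map_sum, Finset.sum_eq_single p]
    · rw [map_smul, hve, if_pos rfl, smul_eq_mul, mul_one]
    · intro q _ hqp
      rw [map_smul, hve, if_neg (Ne.symm hqp), smul_zero]
    · intro hp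
      exact absurd (Finset.mem_univ p) hp
  have hspan : Submodule.span F ((Finset.image e Finset.univ : Finset (Fin m ⊕ Fin m → F)) :
      Set (Fin m ⊕ Fin m → F)) = Submodule.span F (Set.range e) := by
    rw [Finset.coe_image, Finset.coe_univ, Set.image_univ]
  have hmem : ∀ x ∈ Submodule.span F (Set.range e), ∃ c : ι → F, x = ∑ q, c q • e q := by
    intro x hx
    obtain ⟨c, rfl⟩ := (Submodule.mem_span_range_iff_exists_fun F).1 hx
    exact ⟨c, rfl⟩
  have hiso0 : ∀ c d : ι → F, form m F (∑ q, c q • e q) (∑ q, d q • e q) = 0 := by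
    intro c d
    simp only [map_sum, map_smul, LinearMap.sum_apply, LinearMap.smul_apply, hee, smul_zero,
      Finset.sum_const_zero]
  have hiso0' : ∀ c d : ι → F, form m F (∑ q, c q • e' q) (∑ q, d q • e' q) = 0 := by
    intro c d
    simp only [map_sum, map_smul, LinearMap.sum_apply, LinearMap.smul_apply, hee', smul_zero,
      Finset.sum_const_zero]
  obtain ⟨g, hg, hgf⟩ := Symp.witt_T (form m F) (form_nondeg m) (form_alt m) f
    (Finset.image e Finset.univ)
    (by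
      rw [hspan]
      intro x hx x' hx'
      obtain ⟨c, rfl⟩ := hmem x hx
      obtain ⟨d, rfl⟩ := hmem x' hx'
      rw [hfe, hfe, hiso0, hiso0'])
    (by
      rw [hspan]
      intro x hx h0
      obtain ⟨c, rfl⟩ := hmem x hx
      rw [hfe] at h0
      apply Finset.sum_eq_zero
      intro p _
      have h1 := congrArg (form m F (v' p)) h0
      rw [map_sum, map_zero, Finset.sum_eq_single p] at h1
      · rw [map_smul, hve', if_pos rfl, smul_eq_mul, mul_one] at h1
        rw [h1, zero_smul]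
      · intro q _ hqp
        rw [map_smul, hve', if_neg (Ne.symm hqp), smul_zero]
      · intro hp
        exact absurd (Finset.mem_univ p) hp)
  have hge : ∀ p, g (e p) = e' p := by
    intro p
    rw [hgf (e p) (by rw [hspan]; exact Submodule.subset_span ⟨p, rfl⟩), hf,
      Finset.sum_eq_single p]
    · rw [hve, if_pos rfl, one_smul]
    · intro q _ hqp
      rw [hve, if_neg hqp, zero_smul]
    · intro hp
      exact absurd (Finset.mem_univ p) hp
  have hgiso := Symp.T_isometry (form m F) (form_alt m) hg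
  obtain ⟨G, hGdef⟩ : ∃ G : Matrix (Fin m ⊕ Fin m) (Fin m ⊕ Fin m) F,
      G = LinearMap.toMatrix' (g : (Fin m ⊕ Fin m → F) →ₗ[F] (Fin m ⊕ Fin m → F)) := ⟨_, rfl⟩
  have hG : ∀ x, G *ᵥ x = g x := by
    intro x
    rw [hGdef, ← Matrix.toLin'_apply, Matrix.toLin'_toMatrix']
    rfl
  refine ⟨G, (mem_symp_iff m G).2 (fun u w => by rw [hG, hG]; exact hgiso u w), ?_⟩
  rw [Matrix.ext_iff_mulVec]
  intro x
  have hAx : ∀ (A : Matrix (Fin m ⊕ Fin m) (Fin m ⊕ Fin m) F) x, A *ᵥ x = x + (A - 1) *ᵥ x := by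
    intro A x
    rw [Matrix.sub_mulVec, Matrix.one_mulVec]
    abel
  rw [← Matrix.mulVec_mulVec, ← Matrix.mulVec_mulVec, hG, hG, hAx A x, hAx A' (g x), map_add,
    hN, hN', map_sum]
  congr 1
  apply Finset.sum_congr rfl
  intro p _
  rw [map_smul, hge, ← hge (π p), hgiso]

theorem invol_N [CharP F 2] (A : Matrix (Fin m ⊕ Fin m) (Fin m ⊕ Fin m) F)
    (hA : A ∈ Matrix.symplecticGroup (Fin m) F) (hA2 : A * A = 1) :
    (∀ x, (A - 1) *ᵥ ((A - 1) *ᵥ x) = 0) ∧
    (∀ x y, form m F ((A - 1) *ᵥ x) y = form m F x ((A - 1) *ᵥ y)) ∧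
    ∀ x, Cfsg.sympForm m F x (A *ᵥ x) = form m F x ((A - 1) *ᵥ x) := by
  refine ⟨?_, ?_, ?_⟩
  · intro x
    rw [Matrix.mulVec_mulVec]
    have h : (A - 1) * (A - 1) = 0 := by
      have h2 : (A - 1) * (A - 1) = A * A - (A + A) + 1 := by
        rw [sub_mul, mul_sub, mul_sub, mul_one, one_mul, one_mul]
        abel
      have h3 : A + A = 0 := by
        ext i j
        rw [Matrix.add_apply]
        exact CharTwo.add_self_eq_zero _
      have h4 : (1 : Matrix (Fin m ⊕ Fin m) (Fin m ⊕ Fin m) F) + 1 = 0 := by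
        ext i j
        rw [Matrix.add_apply]
        exact CharTwo.add_self_eq_zero _
      rw [h2, hA2, h3, sub_zero, h4]
    rw [h, Matrix.zero_mulVec]
  · intro x y
    have h1 : form m F (A *ᵥ x) y = form m F x (A *ᵥ y) := by
      have h2 := (mem_symp_iff m A).1 hA x (A *ᵥ y)
      rw [Matrix.mulVec_mulVec, hA2, Matrix.one_mulVec] at h2
      exact h2
    rw [Matrix.sub_mulVec, Matrix.sub_mulVec, Matrix.one_mulVec, Matrix.one_mulVec, map_sub,
      map_sub, LinearMap.sub_apply, h1]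
  · intro x
    rw [← form_apply, Matrix.sub_mulVec, Matrix.one_mulVec, map_sub, (form_alt m) x, sub_zero]

theorem all_of_card [Finite F] (P Q : (Fin m ⊕ Fin m → F) → Prop) (hP : ∀ v, P v)
    (h : Nat.card {v // P v} = Nat.card {v // Q v}) : ∀ v, Q v := by
  have h1 : Nat.card {v // P v} = Nat.card (Fin m ⊕ Fin m → F) :=
    Nat.card_congr (Equiv.subtypeUnivEquiv hP)
  have h2 : Function.Bijective (Subtype.val : {v // Q v} → (Fin m ⊕ Fin m → F)) :=
    Function.Injective.bijective_of_nat_card_le Subtype.val_injective (by rw [← h, h1])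
  intro v
  obtain ⟨x, rfl⟩ := h2.2 v
  exact x.2

theorem conj_main [Finite F] [CharP F 2] (A A' : Matrix (Fin m ⊕ Fin m) (Fin m ⊕ Fin m) F)
    (hA : A ∈ Matrix.symplecticGroup (Fin m) F) (hA' : A' ∈ Matrix.symplecticGroup (Fin m) F)
    (hA2 : A * A = 1) (hA'2 : A' * A' = 1)
    (hrk : (A - 1).rank = (A' - 1).rank)
    (hcard : Even (A - 1).rank → Nat.card {v // Cfsg.sympForm m F v (A *ᵥ v) = 0} =
      Nat.card {v // Cfsg.sympForm m F v (A' *ᵥ v) = 0}) :
    ∃ G ∈ Matrix.symplecticGroup (Fin m) F, G * A = A' * G := by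
  classical
  obtain ⟨hN2, hadj, hform⟩ := invol_N A hA hA2
  obtain ⟨hN2', hadj', hform'⟩ := invol_N A' hA' hA'2
  by_cases h1 : ∀ x, form m F x ((A - 1) *ᵥ x) = 0
  · obtain ⟨l, hl, e, v, hee, hve, hN⟩ := frame_alt (A - 1) hN2 hadj h1
    have h2 : ∀ x, form m F x ((A' - 1) *ᵥ x) = 0 := by
      intro x
      rw [← hform']
      exact all_of_card _ _ (fun v => by rw [hform]; exact h1 v) (hcard ⟨l, hl⟩) x
    obtain ⟨l', hl', e', v', hee', hve', hN'⟩ := frame_alt (A' - 1) hN2' hadj' h2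
    have hll : l = l' := by omega
    subst hll
    exact conj_of_frames Sum.swap A A' e v e' v' hee hve hN hee' hve' hN'
  · have h2 : ¬ ∀ x, form m F x ((A' - 1) *ᵥ x) = 0 := by
      intro h2
      obtain ⟨l', hl', -⟩ := frame_alt (A' - 1) hN2' hadj' h2
      apply h1
      intro x
      rw [← hform]
      exact all_of_card _ _ (fun v => by rw [hform']; exact h2 v)
        (hcard ⟨l', by rw [hrk]; exact hl'⟩).symm x
    push_neg at h1 h2
    obtain ⟨e, v, hee, hve, hN⟩ := frame_nalt (A - 1) hN2 hadj h1 _ rfl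
    obtain ⟨e', v', hee', hve', hN'⟩ := frame_nalt (A' - 1) hN2' hadj' h2 _ hrk.symm
    exact conj_of_frames id A A' e v e' v' hee hve hN hee' hve' hN'

end

/-- Conjugacy of involutions in the symplectic group Sp_{2m}(F), F a finite field of characteristic two, m ≥ 2 (Sp taken as the matrices A with A J Aᵀ = J, acting on column vectors, with the alternating form f(u, v) = u ⬝ (J v)). For an involution t write V(t) for the set of vectors v with f(v, t v) = 0 (a subspace). Two involutions a, b are conjugate in Sp_{2m}(F) exactly when a − 1 and b − 1 have the same rank and, in case that rank is even, V(a) and V(b) have the same number of elements. -/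
theorem result {F : Type*} [Field F] [Fintype F] [CharP F 2] {m : ℕ} (hm : 2 ≤ m) (a b : ↥(Matrix.symplecticGroup (Fin m) F)) (ha : orderOf a = 2) (hb : orderOf b = 2) :
    IsConj a b ↔ ((((a : ↥(Matrix.symplecticGroup (Fin m) F)) : Matrix (Fin m ⊕ Fin m) (Fin m ⊕ Fin m) F) - 1).rank = (((b : ↥(Matrix.symplecticGroup (Fin m) F)) : Matrix (Fin m ⊕ Fin m) (Fin m ⊕ Fin m) F) - 1).rank ∧
      (Even (((a : ↥(Matrix.symplecticGroup (Fin m) F)) : Matrix (Fin m ⊕ Fin m) (Fin m ⊕ Fin m) F) - 1).rank → Nat.card {v : Fin m ⊕ Fin m → F // Cfsg.sympForm m F v (Matrix.mulVec ((a : ↥(Matrix.symplecticGroup (Fin m) F)) : Matrix (Fin m ⊕ Fin m) (Fin m ⊕ Fin m) F) v) = 0} = Nat.card {v : Fin m ⊕ Fin m → F // Cfsg.sympForm m F v (Matrix.mulVec ((b : ↥(Matrix.symplecticGroup (Fin m) F)) : Matrix (Fin m ⊕ Fin m) (Fin m ⊕ Fin m) F) v) = 0})) := by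
  classical
  have hsq : ∀ c : ↥(Matrix.symplecticGroup (Fin m) F), orderOf c = 2 →
      (c : Matrix (Fin m ⊕ Fin m) (Fin m ⊕ Fin m) F) *
        (c : Matrix (Fin m ⊕ Fin m) (Fin m ⊕ Fin m) F) = 1 := by
    intro c hc
    have h1 : c * c = 1 := by
      rw [← pow_two, ← hc]
      exact pow_orderOf_eq_one c
    exact congrArg Subtype.val h1
  have ha2 := hsq a ha
  have hb2 := hsq b hb
  constructor
  · intro h
    obtain ⟨c, hc⟩ := isConj_iff.1 h
    have hcb : (c : Matrix (Fin m ⊕ Fin m) (Fin m ⊕ Fin m) F) *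
        (a : Matrix (Fin m ⊕ Fin m) (Fin m ⊕ Fin m) F) =
        (b : Matrix (Fin m ⊕ Fin m) (Fin m ⊕ Fin m) F) *
        (c : Matrix (Fin m ⊕ Fin m) (Fin m ⊕ Fin m) F) := by
      have h1 : c * a = b * c := by
        rw [← hc]
        group
      exact congrArg Subtype.val h1
    have hcinv : (c : Matrix (Fin m ⊕ Fin m) (Fin m ⊕ Fin m) F) *
        ((c⁻¹ : ↥(Matrix.symplecticGroup (Fin m) F)) :
          Matrix (Fin m ⊕ Fin m) (Fin m ⊕ Fin m) F) = 1 :=
      congrArg Subtype.val (mul_inv_cancel c)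
    have hdet : IsUnit (c : Matrix (Fin m ⊕ Fin m) (Fin m ⊕ Fin m) F).det := by
      have h1 := congrArg Matrix.det hcinv
      rw [Matrix.det_mul, Matrix.det_one] at h1
      exact IsUnit.of_mul_eq_one _ h1
    constructor
    · have h3 : (c : Matrix (Fin m ⊕ Fin m) (Fin m ⊕ Fin m) F) *
          ((a : Matrix (Fin m ⊕ Fin m) (Fin m ⊕ Fin m) F) - 1) =
          ((b : Matrix (Fin m ⊕ Fin m) (Fin m ⊕ Fin m) F) - 1) *
          (c : Matrix (Fin m ⊕ Fin m) (Fin m ⊕ Fin m) F) := by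
        rw [mul_sub, sub_mul, hcb, mul_one, one_mul]
      have h4 := Matrix.rank_mul_eq_right_of_isUnit_det
        (c : Matrix (Fin m ⊕ Fin m) (Fin m ⊕ Fin m) F)
        ((a : Matrix (Fin m ⊕ Fin m) (Fin m ⊕ Fin m) F) - 1) hdet
      have h5 := Matrix.rank_mul_eq_left_of_isUnit_det
        (c : Matrix (Fin m ⊕ Fin m) (Fin m ⊕ Fin m) F)
        ((b : Matrix (Fin m ⊕ Fin m) (Fin m ⊕ Fin m) F) - 1) hdet
      rw [← h4, h3, h5]
    · intro _
      apply Nat.card_congr
      refine Equiv.subtypeEquiv ((Cfsg.Agent.Lib.Helper13.SympMat.Φ m c).toEquiv) ?_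
      intro v
      show _ ↔ Cfsg.sympForm m F (Cfsg.Agent.Lib.Helper13.SympMat.Φ m c v)
        ((b : Matrix (Fin m ⊕ Fin m) (Fin m ⊕ Fin m) F) *ᵥ
          (Cfsg.Agent.Lib.Helper13.SympMat.Φ m c v)) = 0
      rw [Cfsg.Agent.Lib.Helper13.SympMat.Φ_apply, Matrix.mulVec_mulVec, ← hcb,
        ← Matrix.mulVec_mulVec, ← Cfsg.Agent.Lib.Helper13.SympMat.form_apply,
        ← Cfsg.Agent.Lib.Helper13.SympMat.form_apply,
        (Cfsg.Agent.Lib.Helper13.SympMat.mem_symp_iff m _).1 c.2]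
  · rintro ⟨hrk, hcard⟩
    obtain ⟨G, hG, hGA⟩ := conj_main (a : Matrix (Fin m ⊕ Fin m) (Fin m ⊕ Fin m) F)
      (b : Matrix (Fin m ⊕ Fin m) (Fin m ⊕ Fin m) F) a.2 b.2 ha2 hb2 hrk hcard
    rw [isConj_iff]
    refine ⟨⟨G, hG⟩, ?_⟩
    rw [mul_inv_eq_iff_eq_mul]
    exact Subtype.ext hGA

end Cfsg.Agent.S2166
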