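import Cfsg.Statements.S2167
import Mathlib
import Cfsg.Agent.Lib.Helper40.AltRank
import Cfsg.Agent.Lib.Helper40.SympConj

set_option autoImplicit false
open Cfsg

namespace Cfsg.Agent.S2167
/-- For an involution t of the symplectic group Sp_{2m}(F), m ≥ 2, F a finite field of characteristic two (matrices A with A J Aᵀ = J acting on column vectors, alternating form f(u, v) = u ⬝ (J v)): the set V(t) of vectors v with f(v, t v) = 0 has either q^{2m} or q^{2m−1} elements, q the order of F (it is a subspace of codimension at most 1), and if it is the whole space then t − 1 has even rank. -/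
theorem result {F : Type*} [Field F] [Fintype F] [CharP F 2] {m : ℕ} (hm : 2 ≤ m) (a : ↥(Matrix.symplecticGroup (Fin m) F)) (ha : orderOf a = 2) :
    (Nat.card {v : Fin m ⊕ Fin m → F // Cfsg.sympForm m F v (Matrix.mulVec ((a : ↥(Matrix.symplecticGroup (Fin m) F)) : Matrix (Fin m ⊕ Fin m) (Fin m ⊕ Fin m) F) v) = 0} = Fintype.card F ^ (2 * m) ∨ Nat.card {v : Fin m ⊕ Fin m → F // Cfsg.sympForm m F v (Matrix.mulVec ((a : ↥(Matrix.symplecticGroup (Fin m) F)) : Matrix (Fin m ⊕ Fin m) (Fin m ⊕ Fin m) F) v) = 0} * Fintype.card F = Fintype.card F ^ (2 * m)) ∧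
    ((∀ v : Fin m ⊕ Fin m → F, Cfsg.sympForm m F v (Matrix.mulVec ((a : ↥(Matrix.symplecticGroup (Fin m) F)) : Matrix (Fin m ⊕ Fin m) (Fin m ⊕ Fin m) F) v) = 0) → Even (((a : ↥(Matrix.symplecticGroup (Fin m) F)) : Matrix (Fin m ⊕ Fin m) (Fin m ⊕ Fin m) F) - 1).rank) := by
  classical
  obtain ⟨A, hAdef⟩ : ∃ A : Matrix (Fin m ⊕ Fin m) (Fin m ⊕ Fin m) F,
      A = ((a : ↥(Matrix.symplecticGroup (Fin m) F)) : Matrix (Fin m ⊕ Fin m) (Fin m ⊕ Fin m) F) :=
    ⟨_, rfl⟩
  rw [← hAdef]
  have hA2 : A * A = 1 := by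
    have h1 : a ^ 2 = 1 := by
      rw [← ha]
      exact pow_orderOf_eq_one a
    have h2 := congrArg Subtype.val h1
    rw [pow_two] at h2
    rw [hAdef]
    exact h2
  have hsymp : Cfsg.Agent.Lib.Helper40.SympConj.sadj A * A = 1 := by
    rw [hAdef]
    exact (Cfsg.Agent.Lib.Helper40.SympConj.mem_symp_iff _).mp a.2
  have hsadj : Cfsg.Agent.Lib.Helper40.SympConj.sadj A = A := by
    calc Cfsg.Agent.Lib.Helper40.SympConj.sadj A
        = Cfsg.Agent.Lib.Helper40.SympConj.sadj A * (A * A) := by rw [hA2, mul_one]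
      _ = A := by rw [← mul_assoc, hsymp, one_mul]
  obtain ⟨qf, hqf⟩ : ∃ qf : (Fin m ⊕ Fin m → F) → F,
      ∀ v, qf v = Cfsg.sympForm m F v (Matrix.mulVec A v) := ⟨_, fun v => rfl⟩
  simp only [← hqf]
  have hq' : ∀ v, qf v = v ⬝ᵥ (Matrix.mulVec (Matrix.J (Fin m) F) (Matrix.mulVec A v)) :=
    fun v => by rw [hqf]; rfl
  have hJt : ∀ u v : Fin m ⊕ Fin m → F, u ⬝ᵥ (Matrix.mulVec (Matrix.J (Fin m) F) v) =
      -(v ⬝ᵥ (Matrix.mulVec (Matrix.J (Fin m) F) u)) := by
    intro u v
    have h1 := Cfsg.Agent.Lib.Helper40.SympConj.J_alt (u + v)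
    rw [Matrix.mulVec_add, add_dotProduct, dotProduct_add, dotProduct_add,
      Cfsg.Agent.Lib.Helper40.SympConj.J_alt u, Cfsg.Agent.Lib.Helper40.SympConj.J_alt v] at h1
    linear_combination h1
  have hcross : ∀ u v : Fin m ⊕ Fin m → F,
      v ⬝ᵥ (Matrix.mulVec (Matrix.J (Fin m) F) (Matrix.mulVec A u)) =
      -(u ⬝ᵥ (Matrix.mulVec (Matrix.J (Fin m) F) (Matrix.mulVec A v))) := by
    intro u v
    have h1 := Cfsg.Agent.Lib.Helper40.SympConj.adjoint_rel A v u
    rw [hsadj] at h1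
    rw [← h1, hJt]
  have hqadd : ∀ u v, qf (u + v) = qf u + qf v := by
    intro u v
    rw [hq', hq', hq', Matrix.mulVec_add, Matrix.mulVec_add, add_dotProduct, dotProduct_add,
      dotProduct_add, hcross u v]
    ring
  have hqsmul : ∀ (c : F) v, qf (c • v) = c ^ 2 * qf v := by
    intro c v
    rw [hq', hq', Matrix.mulVec_smul, Matrix.mulVec_smul, smul_dotProduct, dotProduct_smul,
      smul_eq_mul, smul_eq_mul]
    ring
  have hfrob : ∀ c : F, (frobeniusEquiv F 2).symm (c ^ 2) = c := by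
    intro c
    have h1 := frobeniusEquiv_symm_apply_frobenius F 2 c
    rwa [frobenius_def] at h1
  obtain ⟨ℓ, hℓ⟩ : ∃ ℓ : (Fin m ⊕ Fin m → F) →ₗ[F] F,
      ∀ v, ℓ v = (frobeniusEquiv F 2).symm (qf v) :=
    ⟨{ toFun := fun v => (frobeniusEquiv F 2).symm (qf v)
       map_add' := fun u v => by rw [hqadd, map_add]
       map_smul' := fun c v => by
         rw [hqsmul, map_mul, hfrob]
         rfl }, fun v => rfl⟩
  have hker : ∀ v, qf v = 0 ↔ v ∈ LinearMap.ker ℓ := by
    intro v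
    rw [LinearMap.mem_ker, hℓ]
    constructor
    · intro h
      rw [h, map_zero]
    · intro h
      exact (EmbeddingLike.map_eq_zero_iff).mp h
  have hcard : Nat.card {v : Fin m ⊕ Fin m → F // qf v = 0} =
      Fintype.card F ^ Module.finrank F (LinearMap.ker ℓ) := by
    rw [Nat.card_congr (Equiv.subtypeEquivRight hker), ← Nat.card_eq_fintype_card]
    exact Module.natCard_eq_pow_finrank (K := F) (V := LinearMap.ker ℓ)
  constructor
  · have h1 := LinearMap.finrank_range_add_finrank_ker ℓ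
    have h2 : Module.finrank F (LinearMap.range ℓ) ≤ 1 := by
      have h5 := Submodule.finrank_le (LinearMap.range ℓ)
      rwa [Module.finrank_self] at h5
    have h3 : Module.finrank F (Fin m ⊕ Fin m → F) = 2 * m := by
      rw [Module.finrank_fintype_fun_eq_card, Fintype.card_sum, Fintype.card_fin]
      ring
    rw [hcard]
    by_cases h4 : Module.finrank F (LinearMap.range ℓ) = 0
    · left
      congr 1
      omega
    · right
      have h5 : Module.finrank F (LinearMap.ker ℓ) + 1 = 2 * m := by omega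
      rw [← h5, pow_succ]
  · intro hall
    have hG := Cfsg.Agent.Lib.Helper40.AltRank.even_rank_of_alt (Matrix.J (Fin m) F * (A - 1)) (by
      intro v
      rw [← Matrix.mulVec_mulVec, Matrix.sub_mulVec, Matrix.one_mulVec, Matrix.mulVec_sub,
        dotProduct_sub, ← hq', hall v, Cfsg.Agent.Lib.Helper40.SympConj.J_alt, sub_zero])
    rw [Matrix.rank_mul_eq_right_of_isUnit_det _ _ (Matrix.isUnit_det_J (Fin m) F)] at hG
    exact hG

end Cfsg.Agent.S2167
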