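import Cfsg.Statements.S2173
import Cfsg.Agent.Lib.Helper44.Inv8

set_option autoImplicit false
open Cfsg

namespace Cfsg.Agent.S2173

open Cfsg.Agent.Lib.Helper44.Inv6 Cfsg.Agent.Lib.Helper44.Inv7 Cfsg.Agent.Lib.Helper44.Inv8 Cfsg.Agent.Lib.Helper44.NegPairs Cfsg.Agent.Lib.Helper44.Omega2 Cfsg.Agent.Lib.Helper44.Inv1 Cfsg.Agent.Lib.Helper44.OMat Cfsg.Agent.Lib.Helper44.OGroup


/-- For the quadratic form Σ x_i y_i + (z₁² + c z₁ z₂ + d z₂²) in dimension 2m with anisotropic binary part over a finite field F of characteristic two, m ≥ 4 (minus type): two involutions of the commutator subgroup Ω that are conjugate in the full isometry group O are conjugate by an element of Ω (no class of involutions of O inside Ω splits). -/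
theorem result {F : Type*} [Field F] [Fintype F] [CharP F 2] {m : ℕ} (hm : 4 ≤ m) (c d : F) (hcd : ∀ z₁ z₂ : F, z₁ ^ 2 + c * z₁ * z₂ + d * z₂ ^ 2 = 0 → z₁ = 0 ∧ z₂ = 0) (t s : ↥(Cfsg.isometryGroup F (Cfsg.quadFormMinus (m - 1) F c d))) (ht : orderOf t = 2) (hs : orderOf s = 2) (htO : t ∈ Cfsg.Omega F (Cfsg.quadFormMinus (m - 1) F c d)) (hsO : s ∈ Cfsg.Omega F (Cfsg.quadFormMinus (m - 1) F c d)) (hconj : IsConj t s) :
    ∃ g ∈ Cfsg.Omega F (Cfsg.quadFormMinus (m - 1) F c d), g * t * g⁻¹ = s := by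
  have hS := sep_minusQ_two (m - 1) c d hcd
  have hG := good_minusQ hS hcd
  apply omega_conj_of_not_max (minusQ (m - 1) F c d) hS hG t s ht hconj
  rintro ⟨hA, hrk⟩
  have hW : ∀ w ∈ LinearMap.range (nil ((isoEquiv (minusQ (m - 1) F c d) t :
      ↥(O (minusQ (m - 1) F c d))) : (((Fin (m - 1) ⊕ Fin (m - 1)) ⊕ Fin 2) → F) ≃ₗ[F] _)),
      minusQ (m - 1) F c d w = 0 := by
    rintro _ ⟨v, rfl⟩
    exact hA v
  have h1 := minus_ts_le hS hcd hW
  simp only [Fintype.card_sum, Fintype.card_fin] at hrk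
  unfold rk at hrk
  omega

end Cfsg.Agent.S2173
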