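import Cfsg.Statements.S2178
import Cfsg.Agent.Lib.Helper18.Cent2
import Cfsg.Agent.S1023
import Cfsg.Agent.S1024

set_option autoImplicit false
open Cfsg

namespace Cfsg.Agent.S2178

/-- Centralizers of the long and the short root involutions in the Chevalley group G of type F₄ over a finite field F of characteristic two (this problem's root numbering for type F₄, from the Chevalley data module: fundamental roots p₁, p₂ short, p₃, p₄ long, with indices 33, 27, 25, 24, their negatives 14, 20, 22, 23; highest root 47, highest short root 44; U the subgroup generated by the positive root subgroups). For an element t of G with matrix x_47(1): the centralizer of t in G is the subgroup generated by U and the root subgroups X_{−p₁}, X_{−p₂}, X_{−p₃} (the unipotent radical of the maximal parabolic subgroup whose Levi factor has fundamental roots p₁, p₂, p₃, together with that Levi factor's root subgroups; the Levi factor is of type C₃). For an element u of G with matrix x_44(1): the centralizer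 of u in G is generated by U and X_{−p₂}, X_{−p₃}, X_{−p₄} (the same construction for the Levi factor with fundamental roots p₂, p₃, p₄, of type B₃). -/
theorem result {F : Type*} [Field F] [Fintype F] [CharP F 2] (t u : GL Cfsg.Lie.chevF4.Idx F) (ht : (t : Matrix Cfsg.Lie.chevF4.Idx Cfsg.Lie.chevF4.Idx F) = Cfsg.Lie.chevF4.x F 47 1) (hu : (u : Matrix Cfsg.Lie.chevF4.Idx Cfsg.Lie.chevF4.Idx F) = Cfsg.Lie.chevF4.x F 44 1) :
    Cfsg.Lie.chevF4.group F ⊓ Subgroup.centralizer {t} = Cfsg.Lie.chevF4.posUnipotent F ⊔ Cfsg.Lie.chevF4.rootSubgroup F 14 ⊔ Cfsg.Lie.chevF4.rootSubgroup F 20 ⊔ Cfsg.Lie.chevF4.rootSubgroup F 22 ∧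
    Cfsg.Lie.chevF4.group F ⊓ Subgroup.centralizer {u} = Cfsg.Lie.chevF4.posUnipotent F ⊔ Cfsg.Lie.chevF4.rootSubgroup F 20 ⊔ Cfsg.Lie.chevF4.rootSubgroup F 22 ⊔ Cfsg.Lie.chevF4.rootSubgroup F 23 := by
  have hD : Cfsg.Lie.chevF4 ∈ [Cfsg.Lie.chevG2, Cfsg.Lie.chevB2, Cfsg.Lie.chevD4, Cfsg.Lie.chevF4,
      Cfsg.Lie.chevE6, Cfsg.Lie.chevE7, Cfsg.Lie.chevE8] := by simp
  have hadd := fun r hr (t u : F) => Cfsg.Agent.S1023.result Cfsg.Lie.chevF4 hD r hr t u
  have hinj := fun r hr (t : F) h => (Cfsg.Agent.S1024.result Cfsg.Lie.chevF4 hD r hr t).mp h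
  constructor
  · rw [Cfsg.Agent.Lib.Helper18.Cent2.cent_result Cfsg.Agent.Lib.Helper18.CAll.cfF4
      Cfsg.Agent.Lib.Helper18.ChainAll.rF4 Cfsg.Agent.Lib.Helper18.UAll.uF4 (by decide) hadd hinj
      Cfsg.Agent.Lib.Helper18.CentTab.zF4a [14, 20, 22] (by decide +kernel) (by decide +kernel) t ht,
      Cfsg.Agent.Lib.Helper18.Cent2.closure_list3, sup_assoc, sup_assoc, sup_assoc]
  · rw [Cfsg.Agent.Lib.Helper18.Cent2.cent_result Cfsg.Agent.Lib.Helper18.CAll.cfF4
      Cfsg.Agent.Lib.Helper18.ChainAll.rF4 Cfsg.Agent.Lib.Helper18.UAll.uF4 (by decide) hadd hinj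
      Cfsg.Agent.Lib.Helper18.CentTab.zF4b [20, 22, 23] (by decide +kernel) (by decide +kernel) u hu,
      Cfsg.Agent.Lib.Helper18.Cent2.closure_list3, sup_assoc, sup_assoc, sup_assoc]

end Cfsg.Agent.S2178
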