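import Cfsg.Statements.S2180
import Cfsg.Agent.Lib.Helper36.CentG2
import Cfsg.Agent.S1023
import Cfsg.Agent.S1024

set_option autoImplicit false
open Cfsg

namespace Cfsg.Agent.S2180

/-- Centralizers of involutions in the Chevalley group G of type G₂ over a finite field F of characteristic two with at least four elements (this problem's root numbering for type G₂, from the Chevalley data module: a = p₁ short with index 7, b = p₂ long with index 6, −a = 4, −b = 5, 2a + b = 9, 3a + b = 10, 3a + 2b = 11; U generated by the positive root subgroups). For an element z of G with matrix x_{3a+2b}(1): the centralizer of z in G is generated by U and X_{−a}. For an element t of G with matrix x_{2a+b}(1): the centralizer of t in G is generated by X_{2a+b}, X_{3a+b}, X_{3a+2b}, X_b and X_{−b}. -/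
theorem result {F : Type*} [Field F] [Fintype F] [CharP F 2] (hF : 4 ≤ Fintype.card F) (z t : GL Cfsg.Lie.chevG2.Idx F) (hz : (z : Matrix Cfsg.Lie.chevG2.Idx Cfsg.Lie.chevG2.Idx F) = Cfsg.Lie.chevG2.x F 11 1) (ht : (t : Matrix Cfsg.Lie.chevG2.Idx Cfsg.Lie.chevG2.Idx F) = Cfsg.Lie.chevG2.x F 9 1) :
    Cfsg.Lie.chevG2.group F ⊓ Subgroup.centralizer {z} = Cfsg.Lie.chevG2.posUnipotent F ⊔ Cfsg.Lie.chevG2.rootSubgroup F 4 ∧
    Cfsg.Lie.chevG2.group F ⊓ Subgroup.centralizer {t} = Cfsg.Lie.chevG2.rootSubgroup F 9 ⊔ Cfsg.Lie.chevG2.rootSubgroup F 10 ⊔ Cfsg.Lie.chevG2.rootSubgroup F 11 ⊔ Cfsg.Lie.chevG2.rootSubgroup F 6 ⊔ Cfsg.Lie.chevG2.rootSubgroup F 5 := by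
  have hD : Cfsg.Lie.chevG2 ∈ [Cfsg.Lie.chevG2, Cfsg.Lie.chevB2, Cfsg.Lie.chevD4, Cfsg.Lie.chevF4,
      Cfsg.Lie.chevE6, Cfsg.Lie.chevE7, Cfsg.Lie.chevE8] := by simp
  have hadd : ∀ r, r < Cfsg.Lie.chevG2.nroots → ∀ t u : F,
      Cfsg.Lie.chevG2.x F r t * Cfsg.Lie.chevG2.x F r u = Cfsg.Lie.chevG2.x F r (t + u) :=
    fun r hr t u => Cfsg.Agent.S1023.result Cfsg.Lie.chevG2 hD r hr t u
  have hinj : ∀ r, r < Cfsg.Lie.chevG2.nroots → ∀ t : F,
      Cfsg.Lie.chevG2.x F r t = 1 → t = 0 :=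
    fun r hr t h => (Cfsg.Agent.S1024.result Cfsg.Lie.chevG2 hD r hr t).mp h
  exact ⟨Cfsg.Agent.Lib.Helper36.CentG2.cent11 hadd hinj z hz,
    Cfsg.Agent.Lib.Helper36.CentG2.cent9 hadd hinj t ht⟩

end Cfsg.Agent.S2180
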