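import Cfsg.Statements.S2186
import Cfsg.Agent.Lib.Helper18.PairTab
import Cfsg.Agent.S1023
import Cfsg.Agent.S1024

set_option autoImplicit false
open Cfsg

namespace Cfsg.Agent.S2186

/-- Let G be the Chevalley group of type G₂ (over a field with at least four elements), D₄, E₆, E₇ or E₈ over a finite field F of characteristic two, and let X be the root subgroup of the highest root (the last root index) — a long root subgroup, of order |F|. For every g in G, the subgroup generated by X and its conjugate g X g⁻¹ is either a 2-group or is conjugate by an element of G to the subgroup generated by X and the root subgroup of the lowest root (index 0, the negative of the highest root), which is a copy of SL₂(F). -/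
theorem result {F : Type*} [Field F] [Fintype F] [CharP F 2] (D : Cfsg.Lie.ChevalleyDatum) (hD : D ∈ [Cfsg.Lie.chevG2, Cfsg.Lie.chevD4, Cfsg.Lie.chevE6, Cfsg.Lie.chevE7, Cfsg.Lie.chevE8]) (hF : D = Cfsg.Lie.chevG2 → 4 ≤ Fintype.card F) (g : GL D.Idx F) (hg : g ∈ D.group F) :
    IsPGroup 2 ↥(D.rootSubgroup F (D.nroots - 1) ⊔ (D.rootSubgroup F (D.nroots - 1)).map (MulAut.conj g).toMonoidHom) ∨
    ∃ h ∈ D.group F, (D.rootSubgroup F (D.nroots - 1) ⊔ (D.rootSubgroup F (D.nroots - 1)).map (MulAut.conj g).toMonoidHom).map (MulAut.conj h).toMonoidHom = D.rootSubgroup F (D.nroots - 1) ⊔ D.rootSubgroup F 0 := by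
  simp only [List.mem_cons, List.not_mem_nil, or_false] at hD
  rcases hD with rfl | rfl | rfl | rfl | rfl
  · have hD' : Cfsg.Lie.chevG2 ∈ [Cfsg.Lie.chevG2, Cfsg.Lie.chevB2, Cfsg.Lie.chevD4,
        Cfsg.Lie.chevF4, Cfsg.Lie.chevE6, Cfsg.Lie.chevE7, Cfsg.Lie.chevE8] := by simp
    have key := Cfsg.Agent.Lib.Helper18.Pair.pair_main Cfsg.Agent.Lib.Helper18.CAll.cfG2
      Cfsg.Agent.Lib.Helper18.ChainAll.rG2 Cfsg.Agent.Lib.Helper18.UAll.uG2 (by decide)
      (fun r hr (t u : F) => Cfsg.Agent.S1023.result Cfsg.Lie.chevG2 hD' r hr t u)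
      (fun r hr (t : F) h => (Cfsg.Agent.S1024.result Cfsg.Lie.chevG2 hD' r hr t).mp h)
      (β := 11) (by decide) Cfsg.Agent.Lib.Helper18.PairTab.c1G2
      Cfsg.Agent.Lib.Helper18.PairTab.pairG2 hg
    have e : Cfsg.Agent.Lib.Helper18.FTabG2.fd.neg 11 = 0 := by decide +kernel
    rw [e] at key
    exact key
  · have hD' : Cfsg.Lie.chevD4 ∈ [Cfsg.Lie.chevG2, Cfsg.Lie.chevB2, Cfsg.Lie.chevD4,
        Cfsg.Lie.chevF4, Cfsg.Lie.chevE6, Cfsg.Lie.chevE7, Cfsg.Lie.chevE8] := by simp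
    have key := Cfsg.Agent.Lib.Helper18.Pair.pair_main Cfsg.Agent.Lib.Helper18.CAll.cfD4
      Cfsg.Agent.Lib.Helper18.ChainAll.rD4 Cfsg.Agent.Lib.Helper18.UAll.uD4 (by decide)
      (fun r hr (t u : F) => Cfsg.Agent.S1023.result Cfsg.Lie.chevD4 hD' r hr t u)
      (fun r hr (t : F) h => (Cfsg.Agent.S1024.result Cfsg.Lie.chevD4 hD' r hr t).mp h)
      (β := 23) (by decide) Cfsg.Agent.Lib.Helper18.PairTab.c1D4
      Cfsg.Agent.Lib.Helper18.PairTab.pairD4 hg
    have e : Cfsg.Agent.Lib.Helper18.FTabD4.fd.neg 23 = 0 := by decide +kernel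
    rw [e] at key
    exact key
  · have hD' : Cfsg.Lie.chevE6 ∈ [Cfsg.Lie.chevG2, Cfsg.Lie.chevB2, Cfsg.Lie.chevD4,
        Cfsg.Lie.chevF4, Cfsg.Lie.chevE6, Cfsg.Lie.chevE7, Cfsg.Lie.chevE8] := by simp
    have key := Cfsg.Agent.Lib.Helper18.Pair.pair_main Cfsg.Agent.Lib.Helper18.CAll.cfE6
      Cfsg.Agent.Lib.Helper18.ChainAll.rE6 Cfsg.Agent.Lib.Helper18.UAll.uE6 (by decide)
      (fun r hr (t u : F) => Cfsg.Agent.S1023.result Cfsg.Lie.chevE6 hD' r hr t u)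
      (fun r hr (t : F) h => (Cfsg.Agent.S1024.result Cfsg.Lie.chevE6 hD' r hr t).mp h)
      (β := 71) (by decide) Cfsg.Agent.Lib.Helper18.CentTab.zE6.c1
      Cfsg.Agent.Lib.Helper18.PairTab.pairE6 hg
    have e : Cfsg.Agent.Lib.Helper18.FTabE6.fd.neg 71 = 0 := by decide +kernel
    rw [e] at key
    exact key
  · have hD' : Cfsg.Lie.chevE7 ∈ [Cfsg.Lie.chevG2, Cfsg.Lie.chevB2, Cfsg.Lie.chevD4,
        Cfsg.Lie.chevF4, Cfsg.Lie.chevE6, Cfsg.Lie.chevE7, Cfsg.Lie.chevE8] := by simp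
    have key := Cfsg.Agent.Lib.Helper18.Pair.pair_main Cfsg.Agent.Lib.Helper18.CAll.cfE7
      Cfsg.Agent.Lib.Helper18.ChainAll.rE7 Cfsg.Agent.Lib.Helper18.UAll.uE7 (by decide)
      (fun r hr (t u : F) => Cfsg.Agent.S1023.result Cfsg.Lie.chevE7 hD' r hr t u)
      (fun r hr (t : F) h => (Cfsg.Agent.S1024.result Cfsg.Lie.chevE7 hD' r hr t).mp h)
      (β := 125) (by decide) Cfsg.Agent.Lib.Helper18.CentTab.zE7.c1
      Cfsg.Agent.Lib.Helper18.PairTab.pairE7 hg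
    have e : Cfsg.Agent.Lib.Helper18.FTabE7.fd.neg 125 = 0 := by decide +kernel
    rw [e] at key
    exact key
  · have hD' : Cfsg.Lie.chevE8 ∈ [Cfsg.Lie.chevG2, Cfsg.Lie.chevB2, Cfsg.Lie.chevD4,
        Cfsg.Lie.chevF4, Cfsg.Lie.chevE6, Cfsg.Lie.chevE7, Cfsg.Lie.chevE8] := by simp
    have key := Cfsg.Agent.Lib.Helper18.Pair.pair_main Cfsg.Agent.Lib.Helper18.CAll.cfE8
      Cfsg.Agent.Lib.Helper18.ChainAll.rE8 Cfsg.Agent.Lib.Helper18.UAll.uE8 (by decide)
      (fun r hr (t u : F) => Cfsg.Agent.S1023.result Cfsg.Lie.chevE8 hD' r hr t u)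
      (fun r hr (t : F) h => (Cfsg.Agent.S1024.result Cfsg.Lie.chevE8 hD' r hr t).mp h)
      (β := 239) (by decide) Cfsg.Agent.Lib.Helper18.CentTabE8.zE8.c1
      Cfsg.Agent.Lib.Helper18.PairTab.pairE8 hg
    have e : Cfsg.Agent.Lib.Helper18.FTabE8.fd.neg 239 = 0 := by decide +kernel
    rw [e] at key
    exact key

end Cfsg.Agent.S2186
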