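import Cfsg.Statements.S2197
import Cfsg.Agent.Lib.Helper61.TitsFin
import Cfsg.Agent.Lib.Helper61.T2Data
import Cfsg.Agent.Lib.Helper61.T2Fin
import Cfsg.Agent.Lib.Helper79.T2P65
import Cfsg.Agent.Lib.Helper76.T2ARITH
import Cfsg.Agent.Lib.Helper76.T2CARD25
import Cfsg.Agent.Lib.Helper76.T2CQ
import Cfsg.Agent.Lib.Helper21.T2JORDAN
import Cfsg.Agent.Lib.Helper21.T2SYLFIX
import Cfsg.Agent.Lib.Helper21.T2CYC
import Cfsg.Agent.Lib.Helper2.T2TOOLS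
import Cfsg.Agent.Lib.Helper2.T2P27
import Cfsg.Agent.Lib.Helper2.T2P40A
import Cfsg.Agent.Lib.Helper2.T2N1625
import Cfsg.Agent.Lib.Helper74.T2P26
import Cfsg.Agent.Lib.Helper74.T2P40B
import Cfsg.Agent.Lib.Helper10.T2P40C
import Cfsg.Agent.Lib.Helper10.T2P40E
import Cfsg.Agent.Lib.Helper20.T2SMALL
import Cfsg.Agent.Lib.Helper20.T2TRANSPORT

set_option autoImplicit false
open Cfsg

namespace Cfsg.Agent.S2197

open Cfsg.Agent.Lib.Helper61.TitsMain Cfsg.Agent.Lib.Helper61.TitsGrp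
open Cfsg.Agent.Lib.Helper61.TitsSimp Cfsg.Agent.Lib.Helper61.TitsG

/-- The Tits group (the commutator subgroup of ²F₄(2)) has no faithful 2-transitive action on a finite set with more than two points. -/
theorem result {Ω : Type*} [Fintype Ω] [MulAction Cfsg.Lie.TitsGroup Ω] [FaithfulSMul Cfsg.Lie.TitsGroup Ω] (hΩ : 3 ≤ Fintype.card Ω) :
    ¬ MulAction.IsMultiplyPretransitive Cfsg.Lie.TitsGroup Ω 2 := by
  have hc := Cfsg.Agent.Lib.Helper61.TitsFin.comm_gen G K K_le_G index_two simpleK not_commK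
  have hfin : Finite ↥K := Nat.finite_of_card_ne_zero (by rw [cardK]; norm_num)
  have dat := Cfsg.Agent.Lib.Helper61.T2Data.dat Cfsg.Agent.Lib.Helper76.T2CARD25.main
    Cfsg.Agent.Lib.Helper76.T2CQ.main
  exact Cfsg.Agent.Lib.Helper61.T2Fin.final_gen G K K_le_G hc hfin dat
    Cfsg.Agent.Lib.Helper76.T2ARITH.main
    Cfsg.Agent.Lib.Helper2.T2TOOLS.main Cfsg.Agent.Lib.Helper20.T2SMALL.main
    Cfsg.Agent.Lib.Helper21.T2CYC.main Cfsg.Agent.Lib.Helper21.T2SYLFIX.main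
    Cfsg.Agent.Lib.Helper21.T2JORDAN.main Cfsg.Agent.Lib.Helper2.T2N1625.main
    Cfsg.Agent.Lib.Helper2.T2P27.main Cfsg.Agent.Lib.Helper79.T2P65.main
    Cfsg.Agent.Lib.Helper74.T2P26.main Cfsg.Agent.Lib.Helper2.T2P40A.main
    Cfsg.Agent.Lib.Helper74.T2P40B.main Cfsg.Agent.Lib.Helper10.T2P40C.main
    Cfsg.Agent.Lib.Helper10.T2P40E.main Cfsg.Agent.Lib.Helper20.T2TRANSPORT.main hΩ

end Cfsg.Agent.S2197
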