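import Cfsg.Statements.S2214
import Cfsg.Agent.Lib.Helper36.ChevCent
import Cfsg.Agent.Lib.Helper36.ChevBC

set_option autoImplicit false
open Cfsg

namespace Cfsg.Agent.S2214

/-- Let k be an algebraically closed field of prime characteristic p, G the adjoint Chevalley group of type G₂, B₂, D₄, F₄, E₆, E₇ or E₈ over k (the matrix group generated by the root elements x_s(t), t ∈ k, acting on the Lie algebra), q = p^a with a ≥ 1, and K a subgroup of G containing every root element x_s(t) with t^q = t and consisting of matrices all of whose entries c satisfy c^q = c. Then the centralizer of K in G is trivial, and the normalizer of K in G is exactly the set of elements of G all of whose entries c satisfy c^q = c. -/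
theorem result {k : Type*} [Field k] [IsAlgClosed k] (p : ℕ) [Fact p.Prime] [CharP k p] (D : Cfsg.Lie.ChevalleyDatum) (hD : D ∈ [Cfsg.Lie.chevG2, Cfsg.Lie.chevB2, Cfsg.Lie.chevD4, Cfsg.Lie.chevF4, Cfsg.Lie.chevE6, Cfsg.Lie.chevE7, Cfsg.Lie.chevE8]) (a : ℕ) (ha : 1 ≤ a) (K : Subgroup (GL D.Idx k)) (hKG : K ≤ D.group k)
    (hLK : Subgroup.closure {g : GL D.Idx k | ∃ (s : ℕ) (t : k), t ^ (p ^ a) = t ∧ (g : Matrix D.Idx D.Idx k) = D.x k s t} ≤ K)
    (hKfix : ∀ g ∈ K, ∀ i j : D.Idx, ((g : Matrix D.Idx D.Idx k) i j) ^ (p ^ a) = (g : Matrix D.Idx D.Idx k) i j) :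
    D.group k ⊓ Subgroup.centralizer (K : Set (GL D.Idx k)) = ⊥ ∧
    ∀ g : GL D.Idx k, g ∈ D.group k → (g ∈ Subgroup.normalizer (K : Set (GL D.Idx k)) ↔ ∀ i j : D.Idx, ((g : Matrix D.Idx D.Idx k) i j) ^ (p ^ a) = (g : Matrix D.Idx D.Idx k) i j) := by
  classical
  let σ : k →+* k := iterateFrobenius k p a
  have hσt : ∀ t : k, σ t = t ^ p ^ a := fun t => rfl
  have hfix_iff : ∀ g : GL D.Idx k, Matrix.GeneralLinearGroup.map σ g = g ↔
      ∀ i j : D.Idx, ((g : Matrix D.Idx D.Idx k) i j) ^ (p ^ a) =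
        (g : Matrix D.Idx D.Idx k) i j := by
    intro g
    constructor
    · intro h i j
      have h1 := congrArg (fun g : GL D.Idx k => (g : Matrix D.Idx D.Idx k) i j) h
      simp only [Cfsg.Agent.Lib.Helper36.ChevBC.coe_glMap, Matrix.map_apply] at h1
      rw [← hσt]
      exact h1
    · intro h
      apply Units.ext
      rw [Cfsg.Agent.Lib.Helper36.ChevBC.coe_glMap]
      ext i j
      rw [Matrix.map_apply, hσt]
      exact h i j
  have hLK' : Subgroup.closure {g : GL D.Idx k | ∃ (s : ℕ) (t : k), σ t = t ∧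
      (g : Matrix D.Idx D.Idx k) = D.x k s t} ≤ K := by
    refine le_trans (Subgroup.closure_mono ?_) hLK
    rintro g ⟨s, t, ht, hg⟩
    exact ⟨s, t, by rw [← hσt]; exact ht, hg⟩
  have hKfix' : ∀ g ∈ K, Matrix.GeneralLinearGroup.map σ g = g :=
    fun g hg => (hfix_iff g).mpr (hKfix g hg)
  have hcent : D.group k ⊓ Subgroup.centralizer (K : Set (GL D.Idx k)) = ⊥ := by
    rw [eq_bot_iff]
    rintro c ⟨hcG, hcK⟩
    rw [Subgroup.mem_bot]
    apply Cfsg.Agent.Lib.Helper36.ChevCent.cent_trivial D hD c hcG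
    intro y s t ht hy
    have hyK : y ∈ K := by
      apply hLK'
      apply Subgroup.subset_closure
      refine ⟨s, t, ?_, hy⟩
      rcases ht with rfl | rfl
      · exact map_one σ
      · rw [map_neg, map_one]
    have hcK' := Subgroup.mem_centralizer_iff.mp hcK
    exact (hcK' y hyK).symm
  refine ⟨hcent, ?_⟩
  intro g hg
  rw [← hfix_iff]
  constructor
  · intro hn
    have h1 : g⁻¹ * Matrix.GeneralLinearGroup.map σ g ∈
        D.group k ⊓ Subgroup.centralizer (K : Set (GL D.Idx k)) := by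
      refine Subgroup.mem_inf.mpr ⟨Subgroup.mul_mem _ (Subgroup.inv_mem _ hg)
        (Cfsg.Agent.Lib.Helper36.ChevBC.map_group_le σ D (Subgroup.mem_map_of_mem _ hg)), ?_⟩
      refine Subgroup.mem_centralizer_iff.mpr ?_
      intro x hx
      have h2 : g * x * g⁻¹ ∈ K := (Subgroup.mem_set_normalizer_iff.mp hn x).mp hx
      have h3 := hKfix' _ h2
      rw [map_mul, map_mul, map_inv, hKfix' x hx] at h3
      calc x * (g⁻¹ * Matrix.GeneralLinearGroup.map σ g)
          = g⁻¹ * (g * x * g⁻¹) * Matrix.GeneralLinearGroup.map σ g := by group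
        _ = g⁻¹ * (Matrix.GeneralLinearGroup.map σ g * x *
              (Matrix.GeneralLinearGroup.map σ g)⁻¹) * Matrix.GeneralLinearGroup.map σ g := by
            rw [h3]
        _ = g⁻¹ * Matrix.GeneralLinearGroup.map σ g * x := by group
    rw [hcent, Subgroup.mem_bot] at h1
    exact (inv_mul_eq_one.mp h1).symm
  · intro hfix
    rw [Subgroup.mem_set_normalizer_iff]
    intro x
    constructor
    · exact Cfsg.Agent.Lib.Helper36.ChevCent.normalizes D hD σ K hKG hLK' hKfix' g hg hfix x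
    · intro h1
      have h2 := Cfsg.Agent.Lib.Helper36.ChevCent.normalizes D hD σ K hKG hLK' hKfix' g⁻¹
        (Subgroup.inv_mem _ hg) (by rw [map_inv, hfix]) _ h1
      have e : g⁻¹ * (g * x * g⁻¹) * g⁻¹⁻¹ = x := by group
      rwa [e] at h2

end Cfsg.Agent.S2214
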