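import Cfsg.Statements.S2221
import Cfsg.Agent.Lib.Helper96.SylAltAsm
import Cfsg.Agent.Lib.Helper1.SATRANSFER
import Cfsg.Agent.Lib.Helper76.SACENTRE
import Cfsg.Agent.Lib.Helper11.SACARD
import Cfsg.Agent.Lib.Helper11.SASPLIT
import Cfsg.Agent.Lib.Helper76.SAPG
import Cfsg.Agent.Lib.Helper76.SAZB
import Cfsg.Agent.Lib.Helper28.SAOSC
import Cfsg.Agent.Lib.Helper28.SAOSN
import Cfsg.Agent.Lib.Helper28.SAOSTWO
import Cfsg.Agent.Lib.Helper87.SAOSBIG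
import Cfsg.Agent.Lib.Helper52.SAZC
import Cfsg.Agent.Lib.Helper87.SAONEORB
import Cfsg.Agent.Lib.Helper58.SADSET
import Cfsg.Agent.Lib.Helper74.SADCORE
import Cfsg.Agent.Lib.Helper58.SASMALL
import Cfsg.Agent.Lib.Helper1.SAM1
import Cfsg.Agent.Lib.Helper51.SAEB
import Cfsg.Agent.Lib.Helper74.SASTEP1
import Cfsg.Agent.Lib.Helper50.SAM3
import Cfsg.Agent.Lib.Helper52.SAF3
import Cfsg.Agent.Lib.Helper74.SAMA1
import Cfsg.Agent.Lib.Helper96.SAMA2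
import Cfsg.Agent.Lib.Helper96.SAMB

set_option autoImplicit false
open Cfsg

namespace Cfsg.Agent.S2221

/-- Direct decomposability of the Sylow 2-subgroups of the alternating groups. Let n ≥ 4 and let P be a Sylow 2-subgroup of the alternating group of degree n. Then P is the internal direct product of two nontrivial subgroups if and only if n = 4, n = 5, or n ≡ 2, 3 (mod 4) with 4⌊n/4⌋ not a power of 2. In the remaining cases (n ≡ 0, 1 (mod 4) with n ≥ 8, or n ≡ 2, 3 (mod 4) with 4⌊n/4⌋ a power of 2) P is directly indecomposable. -/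
theorem result (n : ℕ) (hn : 4 ≤ n)
    (P : Sylow 2 (alternatingGroup (Fin n))) :
    (∃ S₁ S₂ : Subgroup (alternatingGroup (Fin n)), S₁ ≠ ⊥ ∧ S₂ ≠ ⊥ ∧
        Cfsg.IsInternalDirectProduct S₁ S₂ (P : Subgroup (alternatingGroup (Fin n)))) ↔
      (n = 4 ∨ n = 5 ∨ ((n % 4 = 2 ∨ n % 4 = 3) ∧ ∀ r : ℕ, 4 * (n / 4) ≠ 2 ^ r)) :=
  Cfsg.Agent.Lib.Helper96.SylAltAsm.full
    Cfsg.Agent.Lib.Helper1.SATRANSFER.main
    Cfsg.Agent.Lib.Helper76.SACENTRE.main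
    Cfsg.Agent.Lib.Helper11.SACARD.main
    Cfsg.Agent.Lib.Helper11.SASPLIT.main
    Cfsg.Agent.Lib.Helper76.SAPG.main
    Cfsg.Agent.Lib.Helper76.SAZB.main
    Cfsg.Agent.Lib.Helper28.SAOSC.main
    Cfsg.Agent.Lib.Helper28.SAOSN.main
    Cfsg.Agent.Lib.Helper28.SAOSTWO.main
    Cfsg.Agent.Lib.Helper87.SAOSBIG.main
    Cfsg.Agent.Lib.Helper52.SAZC.main
    Cfsg.Agent.Lib.Helper87.SAONEORB.main
    Cfsg.Agent.Lib.Helper58.SADSET.main
    Cfsg.Agent.Lib.Helper74.SADCORE.main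
    Cfsg.Agent.Lib.Helper58.SASMALL.main
    Cfsg.Agent.Lib.Helper1.SAM1.main
    Cfsg.Agent.Lib.Helper51.SAEB.main
    Cfsg.Agent.Lib.Helper74.SASTEP1.main
    Cfsg.Agent.Lib.Helper50.SAM3.main
    Cfsg.Agent.Lib.Helper52.SAF3.main
    Cfsg.Agent.Lib.Helper74.SAMA1.main
    Cfsg.Agent.Lib.Helper96.SAMA2.main
    Cfsg.Agent.Lib.Helper96.SAMB.main
    n hn P

end Cfsg.Agent.S2221
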