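import Cfsg.Statements.S2222
import Cfsg.Agent.Lib.Lead.SylTwoAlt

set_option autoImplicit false
open Cfsg

namespace Cfsg.Agent.S2222

open Cfsg.Agent.Lib.Lead.SylTwoAlt Cfsg.Agent.Lib.Helper68.Pronormal

/-- In the alternating group of degree n ≥ 5 every subgroup H of odd index is pronormal: for every element g, the subgroups H and gHg⁻¹ are conjugate by an element of the subgroup they generate. -/
theorem result (n : ℕ) (hn : 5 ≤ n)
    (H : Subgroup (alternatingGroup (Fin n))) (hH : Odd H.index) : Cfsg.IsPronormal H := by
  rcases Nat.lt_or_ge n 6 with h | h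
  · have h5 : n = 5 := by omega
    subst h5
    exact pronormal_five H hH
  · have : Fact (Nat.Prime 2) := ⟨Nat.prime_two⟩
    have hnd : ¬ 2 ∣ H.index := by
      rw [← even_iff_two_dvd, Nat.not_even_iff_odd]
      exact hH
    obtain ⟨S, hS⟩ := exists_sylow_le (p := 2) H hnd
    apply pronormal_of_sylow_normalizer H S hS
    intro c hc
    rw [alt_normalizer_eq h S] at hc
    exact cj_of_mem (hS hc)

end Cfsg.Agent.S2222
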