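-- Statement S2231: PSL₂(K), K finite of odd characteristic p, does not involve Qd(p).
import Cfsg.Statements.S2231
import Cfsg.Agent.H37.Involve
import Cfsg.Agent.H37.QdBasic
import Cfsg.Agent.H37.SL2Abel

set_option autoImplicit false
open Cfsg

namespace Cfsg.Agent.S2231

/-- Let p be an odd prime and K a finite field of characteristic p. Then Qd(p) (the natural semidirect product of an elementary abelian group of order p² by SL₂(p)) is not involved in the projective special linear group PSL₂(K). -/
theorem result {p : ℕ} [Fact p.Prime] (hp : p ≠ 2) {K : Type*} [Field K] [Fintype K] [CharP K p] : ¬ Cfsg.Involves ↥(Cfsg.qd p) (Matrix.ProjectiveSpecialLinearGroup (Fin 2) K) := by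
  intro h
  obtain ⟨K', f, hf⟩ := Cfsg.Agent.H37.surj_of_quotient _ (Cfsg.Agent.H37.involves_exists_surj h)
  have h1 : Cfsg.Agent.H37.PSubComm p K' := (Cfsg.Agent.H37.sl2_pSubComm (p := p) (K := K)).subgroup K'
  have h2 := h1.of_surjective f hf
  exact Cfsg.Agent.H37.qd_not_pSubComm p hp h2

end Cfsg.Agent.S2231
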