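-- Statement S2232: PSU₃(pⁿ), p odd, does not involve Qd(p).
import Cfsg.Statements.S2232
import Cfsg.Agent.H37.Involve
import Cfsg.Agent.H37.QdBasic
import Cfsg.Agent.Lib.Helper37.UnitaryFlag
import Cfsg.Agent.Lib.Helper37.QdBlock

set_option autoImplicit false
open Cfsg

namespace Cfsg.Agent.S2232

open Cfsg.Agent.H37 Cfsg.Agent.Lib.Helper37.UnitaryFlag Cfsg.Agent.Lib.Helper37.QdBlock

/-- Let p be an odd prime, q a power of p and K a finite field with q² elements. Then Qd(p) (the natural semidirect product of an elementary abelian group of order p² by SL₂(p)) is not involved in the projective special unitary group PSU₃(q) realised over K. -/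
theorem result {p : ℕ} [Fact p.Prime] (hp : p ≠ 2) {K : Type*} [Field K] [Fintype K] [CharP K p] (n : ℕ) (hn : 1 ≤ n) (hK : Fintype.card K = (p ^ n) ^ 2) : ¬ Cfsg.Involves ↥(Cfsg.qd p) (Cfsg.PSU 3 K (p ^ n)) := by
  classical
  intro h
  obtain ⟨L, f, hf⟩ := surj_of_quotient _ (involves_exists_surj h)
  let φ : L →* Matrix (Fin 2) (Fin 2) (ZMod p) := (blk p).comp f
  let V : Subgroup L := φ.ker
  have hVmem : ∀ v : L, v ∈ V ↔ φ v = 1 := fun v => MonoidHom.mem_ker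
  obtain P : Sylow p V := default
  have hPne : (P : Subgroup V) ≠ ⊥ := by
    obtain ⟨v0, hv0⟩ := hf ⟨zE p, zE_mem p⟩
    have hv0V : v0 ∈ V := by
      rw [hVmem]
      show blk p (f v0) = 1
      rw [hv0, blk_zE]
    apply P.ne_bot_of_dvd_card
    have h1 : p ∣ orderOf (⟨v0, hv0V⟩ : V) := by
      have h2 := orderOf_map_dvd (f.comp V.subtype) (⟨v0, hv0V⟩ : V)
      have h3 : (f.comp V.subtype) ⟨v0, hv0V⟩ = ⟨zE p, zE_mem p⟩ := hv0
      rw [h3, zE_order p hp] at h2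
      exact h2
    exact h1.trans (orderOf_dvd_natCard _)
  have hfrat := Sylow.normalizer_sup_eq_top P
  set P₁ : Subgroup L := (P : Subgroup V).map V.subtype with hP₁
  let ι : L →* Matrix.SpecialLinearGroup (Fin 3) K :=
    (Cfsg.SU 3 K (p ^ n)).subtype.comp L.subtype
  have hι : Function.Injective ι :=
    (Subgroup.subtype_injective _).comp (Subgroup.subtype_injective _)
  set P₃ : Subgroup (Matrix.SpecialLinearGroup (Fin 3) K) := P₁.map ι with hP₃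
  have hP₃p : IsPGroup p P₃ := (P.isPGroup'.map _).map _
  have hP₃1 : ∃ g ∈ P₃, g ≠ 1 := by
    obtain ⟨x, hx1⟩ := (Subgroup.ne_bot_iff_exists_ne_one).mp hPne
    refine ⟨ι (V.subtype x.1), ⟨V.subtype x.1, ⟨x.1, x.2, rfl⟩, rfl⟩, ?_⟩
    intro h1
    apply hx1
    have h2 : V.subtype x.1 = 1 := hι (by rw [h1, map_one])
    have h3 : x.1 = 1 := Subgroup.subtype_injective V (by rw [h2, map_one])
    exact Subtype.ext h3
  have hP₃SU : P₃ ≤ Cfsg.SU 3 K (p ^ n) := by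
    rintro _ ⟨x, -, rfl⟩
    exact x.1.2
  have hdec : ∀ k : L, ∃ h ∈ Subgroup.normalizer (P₁ : Set L), φ h = φ k := by
    intro k
    have hk : k ∈ (↑(Subgroup.normalizer (P₁ : Set L) ⊔ V) : Set L) := by
      rw [hfrat]
      trivial
    rw [Subgroup.mul_normal] at hk
    obtain ⟨h, hh, v, hv, rfl⟩ := hk
    refine ⟨h, hh, ?_⟩
    rw [map_mul, (hVmem v).mp hv, mul_one]
  have hnorm : ∀ h ∈ Subgroup.normalizer (P₁ : Set L), ∀ a ∈ P₃, ι h * a * (ι h)⁻¹ ∈ P₃ := by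
    rintro h hh _ ⟨b, hb, rfl⟩
    exact ⟨h * b * h⁻¹, (Subgroup.mem_normalizer_iff.mp hh b).mp hb, by simp⟩
  have hnorm' : ∀ h ∈ Subgroup.normalizer (P₁ : Set L), ∀ a ∈ P₃, (ι h)⁻¹ * a * ι h ∈ P₃ := by
    intro h hh a ha
    have := hnorm h⁻¹ (inv_mem hh) a ha
    simpa using this
  obtain ⟨k1, hk1⟩ := hf ⟨heisX p, zX_mem p⟩
  obtain ⟨k2, hk2⟩ := hf ⟨zY p, zY_mem p⟩
  obtain ⟨h1, hh1, e1⟩ := hdec k1
  obtain ⟨h2, hh2, e2⟩ := hdec k2
  have hc := comm_pow_eq_one hp n P₃ hP₃p hP₃1 hP₃SU (ι h1) (ι h2) h1.1.2 h2.1.2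
    (hnorm h1 hh1) (hnorm' h1 hh1) (hnorm h2 hh2) (hnorm' h2 hh2)
  have hc' : (h1 * h2 * h1⁻¹ * h2⁻¹) ^ p = 1 := by
    apply hι
    simpa using hc
  have hφc : (φ (h1 * h2 * h1⁻¹ * h2⁻¹)) ^ p = 1 := by rw [← map_pow, hc', map_one]
  have hrel : φ (h1 * h2 * h1⁻¹ * h2⁻¹) * (φ h2 * φ h1) = φ h1 * φ h2 := by
    rw [← map_mul, ← map_mul, ← map_mul]
    congr 1
    group
  have e1' : φ h1 = !![1, 1; 0, 1] := by
    rw [e1]
    show blk p (f k1) = _
    rw [hk1, blk_zX]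
  have e2' : φ h2 = !![1, 0; 1, 1] := by
    rw [e2]
    show blk p (f k2) = _
    rw [hk2, blk_zY]
  rw [e1', e2'] at hrel
  exact no_p_elt _ hφc hrel

end Cfsg.Agent.S2232
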