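import Cfsg.Statements.S2245
import Cfsg.Agent.Lib.Lead.MaxAsm
import Cfsg.Agent.Lib.Lead.MaxP1
import Cfsg.Agent.Lib.Helper49.MaxHALVES
import Cfsg.Agent.Lib.Helper49.MaxDICH
import Cfsg.Agent.Lib.Helper50.MaxCARD
import Cfsg.Agent.Lib.Helper20.MaxCYC
import Cfsg.Agent.Lib.Helper46.MaxSNU
import Cfsg.Agent.Lib.Helper24.MaxALTMAX
import Cfsg.Agent.Lib.Helper46.MaxANU
import Cfsg.Agent.Lib.Helper50.MaxTT
import Cfsg.Agent.Lib.Helper50.MaxPRIM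
import Cfsg.Agent.Lib.Helper63.MaxSU
import Cfsg.Agent.Lib.Helper64.MaxTCS
import Cfsg.Agent.Lib.Helper20.MaxTCI
import Cfsg.Agent.Lib.Helper63.MaxAUB
import Cfsg.Agent.Lib.Helper24.MaxAU5

set_option autoImplicit false
open Cfsg

namespace Cfsg.Agent.S2245

/-- For n ≥ 5 with n ≠ 6, a Sylow 2-subgroup of the alternating group A_n lies in exactly one maximal subgroup of A_n if and only if n = 2^k + 1 for some k ≥ 2; the same holds for the symmetric group S_n. -/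
theorem result (n : ℕ) (hn : 5 ≤ n) (h6 : n ≠ 6) :
    ((∀ R : Sylow 2 ↥(alternatingGroup (Fin n)), (∃! M : Subgroup ↥(alternatingGroup (Fin n)), IsCoatom M ∧ (R : Subgroup ↥(alternatingGroup (Fin n))) ≤ M) ↔ ∃ k : ℕ, 2 ≤ k ∧ n = 2 ^ k + 1) ∧
    (∀ R : Sylow 2 (Equiv.Perm (Fin n)), (∃! M : Subgroup (Equiv.Perm (Fin n)), IsCoatom M ∧ (R : Subgroup (Equiv.Perm (Fin n))) ≤ M) ↔ ∃ k : ℕ, 2 ≤ k ∧ n = 2 ^ k + 1)) := by
  exact Cfsg.Agent.Lib.Lead.MaxAsm.assembly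
    Cfsg.Agent.Lib.Lead.MaxP1.main
    Cfsg.Agent.Lib.Helper49.MaxHALVES.main
    Cfsg.Agent.Lib.Helper49.MaxDICH.main
    Cfsg.Agent.Lib.Helper50.MaxCARD.main
    Cfsg.Agent.Lib.Helper20.MaxCYC.main
    Cfsg.Agent.Lib.Helper46.MaxSNU.main
    Cfsg.Agent.Lib.Helper24.MaxALTMAX.main
    Cfsg.Agent.Lib.Helper46.MaxANU.main
    Cfsg.Agent.Lib.Helper50.MaxTT.main
    Cfsg.Agent.Lib.Helper50.MaxPRIM.main
    Cfsg.Agent.Lib.Helper63.MaxSU.main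
    Cfsg.Agent.Lib.Helper64.MaxTCS.main
    Cfsg.Agent.Lib.Helper20.MaxTCI.main
    Cfsg.Agent.Lib.Helper63.MaxAUB.main
    Cfsg.Agent.Lib.Helper24.MaxAU5.main
    n hn

end Cfsg.Agent.S2245
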