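import Cfsg.Statements.S2249
import Mathlib
import Cfsg.Agent.H41.GLRankA
import Cfsg.Agent.H41.GLRankM

set_option autoImplicit false
open Cfsg

namespace Cfsg.Agent.S2249

/-- The normal 2-rank of the general linear group over a finite field of odd order q: for n ≥ 1 and S a Sylow 2-subgroup of GL_n(F), the largest rank of an elementary abelian subgroup of S that is normal in S equals n when q ≡ 1 (mod 4) and ⌊(n + 1)/2⌋ when q ≡ 3 (mod 4). -/
theorem result {F : Type*} [Field F] [Fintype F] {q : ℕ} (hF : Fintype.card F = q) (hodd : Odd q) (n : ℕ) (hn : 1 ≤ n) (S : Sylow 2 (Matrix.GeneralLinearGroup (Fin n) F)) :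
    (q % 4 = 1 → ((∃ E : Subgroup ↥(S : Subgroup (Matrix.GeneralLinearGroup (Fin n) F)), E.Normal ∧ Cfsg.IsElementaryAbelian 2 E ∧ 2 ^ (n) ≤ Nat.card ↥E) ∧
      ∀ E : Subgroup ↥(S : Subgroup (Matrix.GeneralLinearGroup (Fin n) F)), E.Normal → Cfsg.IsElementaryAbelian 2 E → Nat.card ↥E ≤ 2 ^ (n))) ∧
    (q % 4 = 3 → ((∃ E : Subgroup ↥(S : Subgroup (Matrix.GeneralLinearGroup (Fin n) F)), E.Normal ∧ Cfsg.IsElementaryAbelian 2 E ∧ 2 ^ ((n + 1) / 2) ≤ Nat.card ↥E) ∧
      ∀ E : Subgroup ↥(S : Subgroup (Matrix.GeneralLinearGroup (Fin n) F)), E.Normal → Cfsg.IsElementaryAbelian 2 E → Nat.card ↥E ≤ 2 ^ ((n + 1) / 2))) := by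
  classical
  subst hF
  have hq1 : 1 < Fintype.card F := Fintype.one_lt_card
  have hodd2 : Fintype.card F % 2 = 1 := Nat.odd_iff.1 hodd
  have hchar : ringChar F ≠ 2 := by
    intro h
    have h1 : Fintype.card F % 2 = 0 := FiniteField.even_card_of_char_two h
    omega
  have h2 : (2 : F) ≠ 0 := Ring.two_ne_zero hchar
  have hGL1 : Nat.card (Matrix.GeneralLinearGroup (Fin 1) F) = Fintype.card F - 1 := by
    rw [Matrix.card_GL_field (𝔽 := F) 1]
    simp
  constructor
  · intro hq
    constructor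
    · have hval : padicValNat 2 (Nat.card (Matrix.GeneralLinearGroup (Fin n) F))
          ≤ padicValNat 2 (Nat.card (Matrix.GeneralLinearGroup (Fin 1) F) ^ n
            * (Fintype.card F - 1) ^ 0 * n.factorial) := by
        rw [Matrix.card_GL_field (𝔽 := F) n, hGL1,
          Cfsg.Agent.H41.GLRankA.val_gl_of_one _ hq hq1 n, pow_zero, mul_one,
          padicValNat.mul (pow_ne_zero _ (by omega)) (Nat.factorial_ne_zero n),
          padicValNat.pow]
      obtain ⟨E, hE1, hE2, hE3⟩ := Cfsg.Agent.H41.GLRankM.exists_of_blocks (F := F) n 1 n 0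
        (by omega) (by omega) h2 hval S
      exact ⟨E, hE1, hE2, by rw [hE3, add_zero]⟩
    · intro E _ hE
      exact Cfsg.Agent.H41.GLRankM.upper_one n h2 S E hE
  · intro hq
    constructor
    · have hv1 : padicValNat 2 (Fintype.card F - 1) = 1 :=
        Cfsg.Agent.H41.GLRankA.val_two_mod_four _ (by omega)
      have hGL2 : padicValNat 2 (Nat.card (Matrix.GeneralLinearGroup (Fin 2) F))
          = 2 + padicValNat 2 (Fintype.card F + 1) := by
        rw [Matrix.card_GL_field (𝔽 := F) 2, Cfsg.Agent.H41.GLRankA.val_gl_of_three _ hq 2]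
        simp
      have hne2 : Nat.card (Matrix.GeneralLinearGroup (Fin 2) F) ≠ 0 := Nat.card_pos.ne'
      have hnmr : n = 2 * (n / 2) + n % 2 := by omega
      have hval : padicValNat 2 (Nat.card (Matrix.GeneralLinearGroup (Fin n) F))
          ≤ padicValNat 2 (Nat.card (Matrix.GeneralLinearGroup (Fin 2) F) ^ (n / 2)
            * (Fintype.card F - 1) ^ (n % 2) * (n / 2).factorial) := by
        rw [Matrix.card_GL_field (𝔽 := F) n, Cfsg.Agent.H41.GLRankA.val_gl_of_three _ hq n,
          padicValNat.mul (mul_ne_zero (pow_ne_zero _ hne2) (pow_ne_zero _ (by omega)))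
            (Nat.factorial_ne_zero _),
          padicValNat.mul (pow_ne_zero _ hne2) (pow_ne_zero _ (by omega)),
          padicValNat.pow, padicValNat.pow, hGL2, hv1]
        have e1 : n / 2 * (2 + padicValNat 2 (Fintype.card F + 1))
            = 2 * (n / 2) + n / 2 * padicValNat 2 (Fintype.card F + 1) := by ring
        rw [e1]
        omega
      obtain ⟨E, hE1, hE2, hE3⟩ := Cfsg.Agent.H41.GLRankM.exists_of_blocks (F := F) n 2 (n / 2)
        (n % 2) hnmr (by omega) h2 hval S
      refine ⟨E, hE1, hE2, ?_⟩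
      rw [hE3]
      have e2 : (n + 1) / 2 = n / 2 + n % 2 := by omega
      rw [e2]
    · intro E hEn hE
      exact Cfsg.Agent.H41.GLRankM.upper_three n hn hq S E hEn hE

end Cfsg.Agent.S2249
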