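import Cfsg.Statements.S2250
import Mathlib
import Cfsg.Agent.Lib.Helper5.TwoRankSp
import Cfsg.Agent.Lib.Helper5.SL2Card
import Cfsg.Agent.Lib.Helper13.SympMat
import Cfsg.Agent.S0245
import Cfsg.Agent.S0821

set_option autoImplicit false
open Cfsg

namespace Cfsg.Agent.S2250

open Matrix

section constr

variable {F : Type*} [Field F] (n : ℕ)

/-- the sign matrices `diag(ε, ε)` -/
def dMat (ε : Fin n → ℤˣ) : Matrix (Fin n ⊕ Fin n) (Fin n ⊕ Fin n) F :=
  fromBlocks (diagonal fun i => ((ε i : ℤ) : F)) 0 0 (diagonal fun i => ((ε i : ℤ) : F))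

theorem dMat_mem (ε : Fin n → ℤˣ) : dMat (F := F) n ε ∈ Matrix.symplecticGroup (Fin n) F := by
  rw [dMat, SymplecticGroup.fromBlocks_mem_iff]
  refine ⟨by simp, by simp, ?_⟩
  rw [diagonal_transpose, diagonal_mul_diagonal, Matrix.transpose_zero, Matrix.zero_mul, sub_zero,
    ← diagonal_one]
  congr 1
  funext i
  rw [← Int.cast_mul, Int.units_coe_mul_self, Int.cast_one]

theorem dMat_one : dMat (F := F) n 1 = 1 := by
  rw [dMat]
  simp [← fromBlocks_one]

theorem dMat_mul (ε ε' : Fin n → ℤˣ) :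
    dMat (F := F) n (ε * ε') = dMat n ε * dMat n ε' := by
  rw [dMat, dMat, dMat, fromBlocks_multiply]
  simp [diagonal_mul_diagonal]

/-- the sign matrices as a homomorphism -/
def δ : (Fin n → ℤˣ) →* Matrix.symplecticGroup (Fin n) F where
  toFun ε := ⟨dMat n ε, dMat_mem n ε⟩
  map_one' := Subtype.ext (dMat_one n)
  map_mul' ε ε' := Subtype.ext (dMat_mul n ε ε')

theorem δ_injective (h2 : (2 : F) ≠ 0) : Function.Injective (δ (F := F) n) := by
  intro ε ε' h
  have h1 : dMat (F := F) n ε = dMat n ε' := congrArg Subtype.val h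
  funext i
  have h3 := congrFun (congrFun h1 (Sum.inl i)) (Sum.inl i)
  simp only [dMat, fromBlocks_apply₁₁, diagonal_apply_eq] at h3
  rcases Int.units_eq_one_or (ε i) with h4 | h4 <;> rcases Int.units_eq_one_or (ε' i) with h5 | h5
  · rw [h4, h5]
  · exfalso
    rw [h4, h5] at h3
    apply h2
    have : (1 : F) = -1 := by simpa using h3
    calc (2 : F) = 1 + 1 := by norm_num
      _ = 1 + (-1) := by rw [← this]
      _ = 0 := by ring
  · exfalso
    rw [h4, h5] at h3
    apply h2
    have : (-1 : F) = 1 := by simpa using h3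
    calc (2 : F) = 1 + 1 := by norm_num
      _ = 1 + (-1) := by rw [this]
      _ = 0 := by ring
  · rw [h4, h5]

/-- block-diagonal embedding of `SL₂ⁿ` -/
def iMat (A : Fin n → Matrix.SpecialLinearGroup (Fin 2) F) :
    Matrix (Fin n ⊕ Fin n) (Fin n ⊕ Fin n) F :=
  fromBlocks (diagonal fun i => (A i : Matrix (Fin 2) (Fin 2) F) 0 0) (diagonal fun i => (A i : Matrix (Fin 2) (Fin 2) F) 0 1)
    (diagonal fun i => (A i : Matrix (Fin 2) (Fin 2) F) 1 0) (diagonal fun i => (A i : Matrix (Fin 2) (Fin 2) F) 1 1)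

theorem iMat_mem (A : Fin n → Matrix.SpecialLinearGroup (Fin 2) F) :
    iMat n A ∈ Matrix.symplecticGroup (Fin n) F := by
  rw [iMat, SymplecticGroup.fromBlocks_mem_iff]
  simp only [diagonal_transpose, diagonal_mul_diagonal]
  refine ⟨?_, ?_, ?_⟩
  · congr 1; funext i; ring
  · congr 1; funext i; ring
  · rw [diagonal_sub, ← diagonal_one]
    congr 1
    funext i
    have h := (A i).det_coe
    rw [Matrix.det_fin_two] at h
    linear_combination h

theorem iMat_one : iMat (F := F) n 1 = 1 := by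
  rw [iMat]
  simp [← fromBlocks_one]

theorem iMat_mul (A B : Fin n → Matrix.SpecialLinearGroup (Fin 2) F) :
    iMat n (A * B) = iMat n A * iMat n B := by
  have key : ∀ i a b, ((A * B) i : Matrix (Fin 2) (Fin 2) F) a b = (A i : Matrix (Fin 2) (Fin 2) F) a 0 * (B i : Matrix (Fin 2) (Fin 2) F) 0 b + (A i : Matrix (Fin 2) (Fin 2) F) a 1 * (B i : Matrix (Fin 2) (Fin 2) F) 1 b :=
    fun i a b => by
      rw [Pi.mul_apply, Matrix.SpecialLinearGroup.coe_mul, Matrix.mul_apply, Fin.sum_univ_two]
  rw [iMat, iMat, iMat, fromBlocks_multiply]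
  simp only [diagonal_mul_diagonal, diagonal_add, key]

/-- block-diagonal embedding of `SL₂ⁿ` as a homomorphism -/
def ι : (Fin n → Matrix.SpecialLinearGroup (Fin 2) F) →* Matrix.symplecticGroup (Fin n) F where
  toFun A := ⟨iMat n A, iMat_mem n A⟩
  map_one' := Subtype.ext (iMat_one n)
  map_mul' A B := Subtype.ext (iMat_mul n A B)

theorem ι_injective : Function.Injective (ι (F := F) n) := by
  intro A B h
  have h1 : iMat (F := F) n A = iMat n B := congrArg Subtype.val h
  funext i
  apply Matrix.SpecialLinearGroup.ext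
  have h00 := congrFun (congrFun h1 (Sum.inl i)) (Sum.inl i)
  have h01 := congrFun (congrFun h1 (Sum.inl i)) (Sum.inr i)
  have h10 := congrFun (congrFun h1 (Sum.inr i)) (Sum.inl i)
  have h11 := congrFun (congrFun h1 (Sum.inr i)) (Sum.inr i)
  simp only [iMat, fromBlocks_apply₁₁, fromBlocks_apply₁₂, fromBlocks_apply₂₁,
    fromBlocks_apply₂₂, diagonal_apply_eq] at h00 h01 h10 h11
  intro a b
  fin_cases a <;> fin_cases b <;> assumption

theorem ι_comm_δ (A : Fin n → Matrix.SpecialLinearGroup (Fin 2) F) (ε : Fin n → ℤˣ) :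
    ι n A * δ n ε = δ n ε * ι n A := by
  apply Subtype.ext
  show iMat n A * dMat n ε = dMat n ε * iMat n A
  rw [iMat, dMat, fromBlocks_multiply, fromBlocks_multiply]
  simp only [diagonal_mul_diagonal, Matrix.mul_zero, Matrix.zero_mul, add_zero, zero_add]
  congr 1 <;> congr 1 <;> funext i <;> ring

/-- permutation matrices on both halves -/
def kMat (σ : Equiv.Perm (Fin n)) : Matrix (Fin n ⊕ Fin n) (Fin n ⊕ Fin n) F :=
  fromBlocks (σ⁻¹.permMatrix F) 0 0 (σ⁻¹.permMatrix F)

theorem permMatrix_transpose_mul (τ : Equiv.Perm (Fin n)) :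
    (τ.permMatrix F)ᵀ * τ.permMatrix F = 1 := by
  ext i j
  simp only [Matrix.mul_apply, Matrix.transpose_apply, Equiv.Perm.permMatrix,
    PEquiv.toMatrix_apply, Equiv.toPEquiv_apply, Option.mem_def, Option.some.injEq,
    Matrix.one_apply]
  by_cases h : i = j
  · subst h
    rw [if_pos rfl, Finset.sum_eq_single (τ.symm i)]
    · simp
    · intro b _ hb
      have : τ b ≠ i := fun h => hb (by rw [← h]; simp)
      simp [this]
    · intro h; exact absurd (Finset.mem_univ _) h
  · rw [if_neg h]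
    apply Finset.sum_eq_zero
    intro b _
    by_cases h1 : τ b = i
    · have : τ b ≠ j := fun h2 => h (h1.symm.trans h2)
      simp [this]
    · simp [h1]

theorem kMat_mem (σ : Equiv.Perm (Fin n)) :
    kMat (F := F) n σ ∈ Matrix.symplecticGroup (Fin n) F := by
  rw [kMat, SymplecticGroup.fromBlocks_mem_iff]
  refine ⟨by simp, by simp, ?_⟩
  rw [permMatrix_transpose_mul, Matrix.transpose_zero, Matrix.zero_mul, sub_zero]

theorem kMat_one : kMat (F := F) n 1 = 1 := by
  rw [kMat]
  simp [← fromBlocks_one]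

theorem kMat_mul (σ τ : Equiv.Perm (Fin n)) :
    kMat (F := F) n (σ * τ) = kMat n σ * kMat n τ := by
  rw [kMat, kMat, kMat, fromBlocks_multiply]
  simp [_root_.mul_inv_rev, Matrix.permMatrix_mul]

/-- permutations of the hyperbolic pairs as a homomorphism -/
def κ : Equiv.Perm (Fin n) →* Matrix.symplecticGroup (Fin n) F where
  toFun σ := ⟨kMat n σ, kMat_mem n σ⟩
  map_one' := Subtype.ext (kMat_one n)
  map_mul' σ τ := Subtype.ext (kMat_mul n σ τ)

theorem permMatrix_mul_diagonal (τ : Equiv.Perm (Fin n)) (d : Fin n → F) :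
    τ.permMatrix F * diagonal d = diagonal (fun i => d (τ i)) * τ.permMatrix F := by
  ext i j
  simp only [Equiv.Perm.permMatrix, Matrix.mul_diagonal, Matrix.diagonal_mul,
    PEquiv.toMatrix_apply, Equiv.toPEquiv_apply, Option.mem_def, Option.some.injEq]
  by_cases h : τ i = j
  · subst h; simp
  · simp [h]

theorem κ_mul_δ (σ : Equiv.Perm (Fin n)) (ε : Fin n → ℤˣ) :
    κ (F := F) n σ * δ n ε = δ n (fun i => ε (σ⁻¹ i)) * κ n σ := by
  apply Subtype.ext
  show kMat n σ * dMat n ε = dMat n (fun i => ε (σ⁻¹ i)) * kMat n σ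
  rw [kMat, dMat, dMat, fromBlocks_multiply, fromBlocks_multiply]
  simp only [Matrix.mul_zero, Matrix.zero_mul, add_zero, zero_add, permMatrix_mul_diagonal]

theorem κ_conj_δ (σ : Equiv.Perm (Fin n)) (ε : Fin n → ℤˣ) :
    κ (F := F) n σ * δ n ε * (κ n σ)⁻¹ = δ n (fun i => ε (σ⁻¹ i)) := by
  rw [κ_mul_δ, mul_assoc, mul_inv_cancel, mul_one]

end constr

section arith

/-- the 2-part of `|Sp_{2n}(q)|` is that of `|SL₂(q)|ⁿ · n!` -/
theorem two_part (q : ℕ) (hq : Odd q) (hq1 : 1 < q) (n : ℕ) :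
    (q ^ (n ^ 2) * ∏ i ∈ Finset.range n, (q ^ (2 * (i + 1)) - 1)).factorization 2 =
      ((q * (q ^ 2 - 1)) ^ n * n.factorial).factorization 2 := by
  have hq2 : ¬ 2 ∣ q := fun h => (Nat.not_even_iff_odd.mpr hq) (even_iff_two_dvd.mpr h)
  have hq0 : q ≠ 0 := by omega
  have hvq : q.factorization 2 = 0 := Nat.factorization_eq_zero_of_not_dvd hq2
  have hpos : ∀ j : ℕ, j ≠ 0 → q ^ (2 * j) - 1 ≠ 0 := by
    intro j hj
    have : 1 < q ^ (2 * j) := Nat.one_lt_pow (by omega) hq1
    omega
  have hsq : q ^ 2 - 1 ≠ 0 := by simpa using hpos 1 one_ne_zero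
  have key : ∀ j : ℕ, j ≠ 0 → (q ^ (2 * j) - 1).factorization 2 =
      (q ^ 2 - 1).factorization 2 + j.factorization 2 := by
    intro j hj
    have h1 := padicValNat.pow_two_sub_one hq1 hq2 (n := 2 * j) (by omega) (even_two_mul j)
    have h2 := padicValNat.pow_two_sub_one hq1 hq2 (n := 2) (by omega) even_two
    have h3 : padicValNat 2 (2 * j) = 1 + padicValNat 2 j := by
      rw [padicValNat.mul (by norm_num) hj, padicValNat_self]
    have h4 : padicValNat 2 2 = 1 := padicValNat_self
    rw [Nat.factorization_def _ Nat.prime_two, Nat.factorization_def _ Nat.prime_two,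
      Nat.factorization_def _ Nat.prime_two]
    omega
  have hprod : (∏ i ∈ Finset.range n, (q ^ (2 * (i + 1)) - 1)) ≠ 0 :=
    Finset.prod_ne_zero_iff.mpr (fun i _ => hpos (i + 1) (by omega))
  have hfact : n.factorial.factorization 2 = ∑ i ∈ Finset.range n, (i + 1).factorization 2 := by
    rw [← Finset.prod_range_add_one_eq_factorial, Nat.factorization_prod (fun i _ => by omega)]
    simp
  rw [Nat.factorization_mul (pow_ne_zero _ hq0) hprod, Nat.factorization_pow,
    Nat.factorization_prod (fun i _ => hpos (i + 1) (by omega)),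
    Nat.factorization_mul (pow_ne_zero _ (mul_ne_zero hq0 hsq)) (Nat.factorial_ne_zero n),
    Nat.factorization_pow, Nat.factorization_mul hq0 hsq]
  simp only [Finsupp.coe_add, Finsupp.coe_smul, Pi.add_apply, Pi.smul_apply, smul_eq_mul,
    Finsupp.coe_finsetSum, Finset.sum_apply, hvq, mul_zero, zero_add]
  rw [hfact, Finset.sum_congr rfl (fun i _ => key (i + 1) (by omega)), Finset.sum_add_distrib,
    Finset.sum_const, Finset.card_range, smul_eq_mul]

end arith

section grp

variable (F : Type*) [Field F] (n : ℕ)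

/-- the group of sign matrices -/
def Dn : Subgroup (Matrix.symplecticGroup (Fin n) F) := (δ (F := F) n).range

/-- its normalizer -/
def Nn : Subgroup (Matrix.symplecticGroup (Fin n) F) :=
  Subgroup.normalizer ((Dn F n : Subgroup (Matrix.symplecticGroup (Fin n) F)) :
    Set (Matrix.symplecticGroup (Fin n) F))

variable {F}

theorem κ_mem_normalizer (σ : Equiv.Perm (Fin n)) : κ (F := F) n σ ∈ Nn F n := by
  rw [Nn, Subgroup.mem_normalizer_iff]
  intro d
  constructor
  · rintro ⟨ε, rfl⟩
    rw [κ_conj_δ]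
    exact ⟨_, rfl⟩
  · rintro ⟨ε, hε⟩
    refine ⟨fun i => ε (σ i), ?_⟩
    have h := κ_conj_δ (F := F) n σ⁻¹ ε
    rw [map_inv, inv_inv] at h
    simp only [inv_inv] at h
    rw [← h, hε]
    group

theorem ι_mem_normalizer (A : Fin n → Matrix.SpecialLinearGroup (Fin 2) F) :
    ι (F := F) n A ∈ Nn F n := by
  rw [Nn, Subgroup.mem_normalizer_iff]
  intro d
  constructor
  · rintro ⟨ε, rfl⟩
    rw [ι_comm_δ, mul_assoc, mul_inv_cancel, mul_one]
    exact ⟨_, rfl⟩
  · rintro ⟨ε, hε⟩
    refine ⟨ε, ?_⟩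
    have h : d = (ι n A)⁻¹ * δ n ε * ι n A := by rw [hε]; group
    rw [h, mul_assoc, ← ι_comm_δ, ← mul_assoc, inv_mul_cancel, one_mul]

/-- the order of the normalizer of the sign group is divisible by `|SL₂|ⁿ · n!` -/
theorem card_normalizer_dvd [Fintype F] (h2 : (2 : F) ≠ 0) :
    Nat.card (Matrix.SpecialLinearGroup (Fin 2) F) ^ n * n.factorial ∣ Nat.card ↥(Nn F n) := by
  classical
  set D : Subgroup (Matrix.symplecticGroup (Fin n) F) := Dn F n with hD
  set N : Subgroup (Matrix.symplecticGroup (Fin n) F) := Nn F n with hN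
  have hDN : (D.subgroupOf N).Normal := by
    rw [hN, Nn]
    exact Subgroup.normal_in_normalizer
  let θ : ↥N →* MulAut ↥(D.subgroupOf N) := MulAut.conjNormal
  let ι' : (Fin n → Matrix.SpecialLinearGroup (Fin 2) F) →* ↥N :=
    (ι n).codRestrict N (ι_mem_normalizer n)
  let κ' : Equiv.Perm (Fin n) →* ↥N := (κ n).codRestrict N (κ_mem_normalizer n)
  have hι' : Function.Injective ι' := by
    intro A B h
    exact ι_injective n (congrArg Subtype.val h)
  have h1 : ι'.range ≤ θ.ker := by
    rintro _ ⟨A, rfl⟩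
    rw [MonoidHom.mem_ker]
    apply MulEquiv.ext
    intro d
    rw [MulAut.one_apply]
    obtain ⟨ε, hε⟩ : (d : ↥N).1 ∈ D := d.2
    apply Subtype.ext
    rw [show (((θ (ι' A)) d : ↥(D.subgroupOf N)) : ↥N) = ι' A * d * (ι' A)⁻¹ from
      MulAut.conjNormal_apply _ _]
    apply Subtype.ext
    show ι n A * (d : ↥N).1 * (ι n A)⁻¹ = (d : ↥N).1
    rw [← hε, ι_comm_δ, mul_assoc, mul_inv_cancel, mul_one]
  have h3 : Function.Injective (θ.comp κ') := by
    rw [injective_iff_map_eq_one]
    intro σ hσ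
    have key : ∀ ε : Fin n → ℤˣ, (fun i => ε (σ⁻¹ i)) = ε := by
      intro ε
      apply δ_injective n h2
      have hd : δ (F := F) n ε ∈ D := ⟨ε, rfl⟩
      have hdN : δ (F := F) n ε ∈ N := Subgroup.le_normalizer hd
      let d : ↥(D.subgroupOf N) := ⟨⟨δ n ε, hdN⟩, hd⟩
      have h4 := congrArg (fun f : MulAut ↥(D.subgroupOf N) => ((f d : ↥(D.subgroupOf N)) : ↥N).1) hσ
      have h5 : (((θ (κ' σ)) d : ↥(D.subgroupOf N)) : ↥N) = κ' σ * d * (κ' σ)⁻¹ :=
        MulAut.conjNormal_apply _ _
      simp only [MonoidHom.comp_apply, MulAut.one_apply] at h4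
      rw [h5] at h4
      rw [← κ_conj_δ]
      exact h4
    apply Equiv.ext
    intro i
    rw [Equiv.Perm.one_apply]
    by_contra hne
    have h7 : σ⁻¹ (σ i) = i := by simp
    have h6 := congrFun (key (fun j => if j = σ i then -1 else 1)) (σ i)
    simp only [h7] at h6
    rw [if_neg (fun h => hne h.symm), if_pos trivial] at h6
    exact absurd h6 (by decide)
  have hcard := Subgroup.card_mul_index θ.ker
  rw [Subgroup.index_ker] at hcard
  rw [← hcard]
  apply Nat.mul_dvd_mul
  · have e1 : Nat.card ι'.range = Nat.card (Matrix.SpecialLinearGroup (Fin 2) F) ^ n := by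
      rw [← Nat.card_congr (MonoidHom.ofInjective hι').toEquiv, Nat.card_fun, Nat.card_fin]
    rw [← e1]
    exact Subgroup.card_dvd_of_le h1
  · have e2 : Nat.card (θ.comp κ').range = n.factorial := by
      rw [← Nat.card_congr (MonoidHom.ofInjective h3).toEquiv, Nat.card_perm, Nat.card_fin]
    rw [← e2]
    apply Subgroup.card_dvd_of_le
    rintro _ ⟨σ, rfl⟩
    exact ⟨κ' σ, rfl⟩

theorem Dn_sq (d : Matrix.symplecticGroup (Fin n) F) (hd : d ∈ Dn F n) : d * d = 1 := by
  obtain ⟨ε, rfl⟩ := hd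
  rw [← map_mul]
  have : ε * ε = 1 := by
    funext i
    exact Int.units_mul_self (ε i)
  rw [this, map_one]

theorem Dn_comm (d d' : Matrix.symplecticGroup (Fin n) F) (hd : d ∈ Dn F n) (hd' : d' ∈ Dn F n) :
    d * d' = d' * d := by
  obtain ⟨ε, rfl⟩ := hd
  obtain ⟨ε', rfl⟩ := hd'
  rw [← map_mul, ← map_mul, mul_comm]

theorem card_Dn (h2 : (2 : F) ≠ 0) : Nat.card ↥(Dn F n) = 2 ^ n := by
  rw [Dn, ← Nat.card_congr (MonoidHom.ofInjective (δ_injective n h2)).toEquiv, Nat.card_fun,
    Nat.card_fin, Nat.card_eq_fintype_card, Fintype.card_units_int]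

/-- a Sylow 2-subgroup containing and normalizing the sign group -/
theorem exists_sylow [Fintype F] (hF : Odd (Fintype.card F)) (h2 : (2 : F) ≠ 0) :
    ∃ P : Sylow 2 (Matrix.symplecticGroup (Fin n) F),
      Dn F n ≤ (P : Subgroup (Matrix.symplecticGroup (Fin n) F)) ∧
      (P : Subgroup (Matrix.symplecticGroup (Fin n) F)) ≤ Nn F n := by
  classical
  have hG := Cfsg.Agent.S0245.result (F := F) (q := Fintype.card F) rfl n
  have hSL := Cfsg.Agent.Lib.Helper5.SL2Card.card_SL_two (F := F) (q := Fintype.card F) rfl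
  have hdvd := card_normalizer_dvd (F := F) n h2
  have hq1 : 1 < Fintype.card F := Fintype.one_lt_card
  have ha : (Nat.card (Matrix.symplecticGroup (Fin n) F)).factorization 2 =
      (Nat.card (Matrix.SpecialLinearGroup (Fin 2) F) ^ n * n.factorial).factorization 2 := by
    rw [hG, hSL]
    exact two_part _ hF hq1 n
  have hNG : Nat.card ↥(Nn F n) ∣ Nat.card (Matrix.symplecticGroup (Fin n) F) :=
    Subgroup.card_subgroup_dvd_card _
  have hfac : (Nat.card ↥(Nn F n)).factorization 2 =
      (Nat.card (Matrix.symplecticGroup (Fin n) F)).factorization 2 := by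
    apply le_antisymm
    · exact (Nat.factorization_le_iff_dvd Nat.card_pos.ne' Nat.card_pos.ne').mpr hNG 2
    · rw [ha]
      refine (Nat.factorization_le_iff_dvd ?_ Nat.card_pos.ne').mpr hdvd 2
      exact mul_ne_zero (pow_ne_zero _ Nat.card_pos.ne') (Nat.factorial_ne_zero n)
  have hD2 : IsPGroup 2 ↥((Dn F n).subgroupOf (Nn F n)) := by
    intro g
    refine ⟨1, ?_⟩
    apply Subtype.ext
    apply Subtype.ext
    rw [pow_one, sq]
    exact Dn_sq n _ g.2
  obtain ⟨PN, hPN⟩ := IsPGroup.exists_le_sylow hD2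
  let Q : Subgroup (Matrix.symplecticGroup (Fin n) F) :=
    (PN : Subgroup ↥(Nn F n)).map (Nn F n).subtype
  have hQcard : Nat.card Q = 2 ^ (Nat.card (Matrix.symplecticGroup (Fin n) F)).factorization 2 := by
    rw [Subgroup.card_map_of_injective (Subgroup.subtype_injective _), Sylow.card_eq_multiplicity,
      hfac]
  refine ⟨Sylow.ofCard Q hQcard, ?_, ?_⟩
  · intro d hd
    have hdN : d ∈ Nn F n := Subgroup.le_normalizer hd
    exact ⟨⟨d, hdN⟩, hPN (show (⟨d, hdN⟩ : ↥(Nn F n)) ∈ (Dn F n).subgroupOf (Nn F n) from hd), rfl⟩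
  · rintro _ ⟨x, _, rfl⟩
    exact x.2

end grp

open Cfsg.Agent.Lib.Helper5.TwoRankSp Cfsg.Agent.Lib.Helper13.SympMat in
/-- The normal 2-rank of the symplectic group over a finite field of odd order: for n ≥ 1 and S a Sylow 2-subgroup of Sp_{2n}(F), the largest rank of an elementary abelian subgroup of S that is normal in S equals n. -/
theorem result {F : Type*} [Field F] [Fintype F] (hF : Odd (Fintype.card F)) (n : ℕ) (hn : 1 ≤ n) (S : Sylow 2 ↥(Matrix.symplecticGroup (Fin n) F)) :
    ((∃ E : Subgroup ↥(S : Subgroup ↥(Matrix.symplecticGroup (Fin n) F)), E.Normal ∧ Cfsg.IsElementaryAbelian 2 E ∧ 2 ^ (n) ≤ Nat.card ↥E) ∧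
      ∀ E : Subgroup ↥(S : Subgroup ↥(Matrix.symplecticGroup (Fin n) F)), E.Normal → Cfsg.IsElementaryAbelian 2 E → Nat.card ↥E ≤ 2 ^ (n)) := by
  classical
  have h2 : (2 : F) ≠ 0 := Cfsg.Agent.Lib.Helper44.FinSq.two_ne_zero_of_odd_card hF
  constructor
  · obtain ⟨P, hDP, hPN⟩ := exists_sylow n hF h2
    obtain ⟨g, hg⟩ := MulAction.exists_smul_eq (Matrix.symplecticGroup (Fin n) F) P S
    have hS : ∀ x : Matrix.symplecticGroup (Fin n) F,
        x ∈ (S : Subgroup (Matrix.symplecticGroup (Fin n) F)) ↔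
          g⁻¹ * x * g ∈ (P : Subgroup (Matrix.symplecticGroup (Fin n) F)) := by
      intro x
      rw [← hg, Sylow.coe_subgroup_smul, Subgroup.mem_pointwise_smul_iff_inv_smul_mem]
      simp [MulAut.smul_def]
    let Dg : Subgroup (Matrix.symplecticGroup (Fin n) F) :=
      (Dn F n).map (MulAut.conj g).toMonoidHom
    have hDg : ∀ x : Matrix.symplecticGroup (Fin n) F, x ∈ Dg ↔ g⁻¹ * x * g ∈ Dn F n := by
      intro x
      constructor
      · rintro ⟨d, hd, rfl⟩
        have : g⁻¹ * (MulAut.conj g).toMonoidHom d * g = d := by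
          simp [MulAut.conj_apply]
          group
        rw [this]
        exact hd
      · intro hx
        refine ⟨g⁻¹ * x * g, hx, ?_⟩
        simp [MulAut.conj_apply]
        group
    have hDgS : Dg ≤ (S : Subgroup (Matrix.symplecticGroup (Fin n) F)) :=
      fun x hx => (hS x).2 (hDP ((hDg x).1 hx))
    refine ⟨Dg.subgroupOf (S : Subgroup (Matrix.symplecticGroup (Fin n) F)), ?_, ?_, ?_⟩
    · constructor
      intro x hx s
      rw [Subgroup.mem_subgroupOf] at hx ⊢
      rw [hDg] at hx ⊢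
      have hsN : g⁻¹ * (s : Matrix.symplecticGroup (Fin n) F) * g ∈ Nn F n :=
        hPN ((hS s).1 s.2)
      rw [Nn] at hsN
      have h3 := (Subgroup.mem_normalizer_iff.mp hsN (g⁻¹ * (x : Matrix.symplecticGroup (Fin n) F) * g)).1 hx
      have h4 : g⁻¹ * ((s * x * s⁻¹ : ↥(S : Subgroup (Matrix.symplecticGroup (Fin n) F))) :
          Matrix.symplecticGroup (Fin n) F) * g =
          g⁻¹ * (s : Matrix.symplecticGroup (Fin n) F) * g * (g⁻¹ * (x : Matrix.symplecticGroup (Fin n) F) * g) *
            (g⁻¹ * (s : Matrix.symplecticGroup (Fin n) F) * g)⁻¹ := by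
        rw [Subgroup.coe_mul, Subgroup.coe_mul, Subgroup.coe_inv]
        group
      rw [h4]
      exact h3
    · refine ⟨⟨⟨fun a b => ?_⟩⟩, fun a ha => ?_⟩
      · have ha := (hDg _).1 a.2
        have hb := (hDg _).1 b.2
        have h3 := Dn_comm n _ _ ha hb
        apply Subtype.ext
        apply Subtype.ext
        have h4 : ((a : ↥(S : Subgroup (Matrix.symplecticGroup (Fin n) F))) :
            Matrix.symplecticGroup (Fin n) F) * b = b * a := by
          have h5 : g⁻¹ * (((a : ↥(S : Subgroup (Matrix.symplecticGroup (Fin n) F))) :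
              Matrix.symplecticGroup (Fin n) F) * b) * g = g⁻¹ * (b * a) * g := by
            calc g⁻¹ * (((a : ↥(S : Subgroup (Matrix.symplecticGroup (Fin n) F))) :
                Matrix.symplecticGroup (Fin n) F) * b) * g
                = (g⁻¹ * a * g) * (g⁻¹ * b * g) := by group
              _ = (g⁻¹ * b * g) * (g⁻¹ * a * g) := h3
              _ = g⁻¹ * (b * a) * g := by group
          exact mul_left_cancel (mul_right_cancel h5)
        exact h4
      · have ha' := (hDg _).1 ha
        have h3 := Dn_sq n _ ha'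
        apply Subtype.ext
        rw [sq]
        have h5 : g⁻¹ * ((a : Matrix.symplecticGroup (Fin n) F) * a) * g = g⁻¹ * 1 * g := by
          calc g⁻¹ * ((a : Matrix.symplecticGroup (Fin n) F) * a) * g
              = (g⁻¹ * a * g) * (g⁻¹ * a * g) := by group
            _ = 1 := h3
            _ = g⁻¹ * 1 * g := by group
        exact mul_left_cancel (mul_right_cancel h5)
    · rw [Nat.card_congr (Subgroup.subgroupOfEquivOfLe hDgS).toEquiv,
        Subgroup.card_map_of_injective (MulEquiv.injective _), card_Dn n h2]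
  · intro E _ hE
    let ρ : ↥E →* Module.End F (Fin n ⊕ Fin n → F) :=
      (Cfsg.Agent.S0821.rep n (S : Subgroup (Matrix.symplecticGroup (Fin n) F))).comp E.subtype
    have hρ1 : ∀ g : ↥E, ρ (g * g) = 1 := by
      intro g
      have h3 : g * g = 1 := by
        apply Subtype.ext
        have := hE.2 (g : ↥(S : Subgroup (Matrix.symplecticGroup (Fin n) F))) g.2
        rw [sq] at this
        exact this
      rw [h3, map_one]
    have hρ : PreRep (fun u v : Fin n ⊕ Fin n → F => form n F u v) ρ := by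
      constructor
      · intro g v w
        show form n F (Cfsg.Agent.S0821.rep n _ (E.subtype g) v)
          (Cfsg.Agent.S0821.rep n _ (E.subtype g) w) = form n F v w
        rw [Cfsg.Agent.S0821.rep_apply, Cfsg.Agent.S0821.rep_apply]
        exact (mem_symp_iff n _).1
          ((E.subtype g : ↥(S : Subgroup (Matrix.symplecticGroup (Fin n) F))) :
            Matrix.symplecticGroup (Fin n) F).2 v w
      · intro g
        exact Or.inl (hρ1 g)
    have hfr : Module.finrank F (Fin n ⊕ Fin n → F) = n + n := by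
      rw [Module.finrank_fintype_fun_eq_card, Fintype.card_sum, Fintype.card_fin]
    have hbound := card_le_of_sq_one h2 (n + n) ↥E (Fin n ⊕ Fin n → F) _
      (Cfsg.Agent.S0821.altForm_form n) ρ hρ hρ1 hfr
    have hk : ρ.ker = ⊥ := by
      rw [eq_bot_iff]
      intro k hk
      rw [Subgroup.mem_bot]
      have h3 : Cfsg.Agent.S0821.rep n (S : Subgroup (Matrix.symplecticGroup (Fin n) F))
          (E.subtype k) = Cfsg.Agent.S0821.rep n
            (S : Subgroup (Matrix.symplecticGroup (Fin n) F)) 1 := by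
        rw [map_one]
        exact MonoidHom.mem_ker.mp hk
      exact Subtype.ext (Cfsg.Agent.S0821.rep_injective n _ h3)
    rw [hk, Subgroup.card_bot, one_mul] at hbound
    have e1 : (n + n) / 2 = n := by omega
    rwa [e1] at hbound

end Cfsg.Agent.S2250
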