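import Cfsg.Statements.S2255
import Cfsg.Agent.Lib.Helper38.NilpAlt

set_option autoImplicit false
open Cfsg

namespace Cfsg.Agent.S2255

/-- Let n be a natural number not congruent to 3 modulo 4, with n ∉ {5, 6, 9}. Then every nilpotent subgroup of the alternating group on n letters has order at most the order of a Sylow 2-subgroup of the alternating group (so the nilpotent subgroups of largest order are exactly the Sylow 2-subgroups). -/
theorem result  (n : ℕ) (hn : n % 4 ≠ 3)
    (h5 : n ≠ 5) (h6 : n ≠ 6) (h9 : n ≠ 9)
    (N : Subgroup (alternatingGroup (Fin n))) (hN : Group.IsNilpotent N)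
    (P : Sylow 2 (alternatingGroup (Fin n))) :
    Nat.card N ≤ Nat.card P := by
  by_cases hn1 : n ≤ 1
  · have hsub : Subsingleton (Equiv.Perm (Fin n)) := by
      interval_cases n <;> infer_instance
    have hsub2 : Subsingleton (alternatingGroup (Fin n)) := inferInstance
    have hsub3 : Subsingleton N := inferInstance
    rw [Nat.card_of_subsingleton (1 : N)]
    exact Nat.card_pos
  · have h2 : 2 ≤ n := by omega
    have key := Cfsg.Agent.Lib.Helper38.NilpAlt.two_mul_card_le_g N hN
    rw [Cfsg.Agent.Lib.Helper38.NilpNumA.g_of_ne h2 (by omega) h5 h6 h9,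
      Cfsg.Agent.Lib.Helper38.NilpNum.h_of_not hn] at key
    have hP := Cfsg.Agent.Lib.Helper38.NilpAlt.two_mul_card_sylow_alt n h2 P
    omega

end Cfsg.Agent.S2255
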