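import Cfsg.Statements.S2257
import Cfsg.Agent.Lib.Helper6.DE9

set_option autoImplicit false
open Cfsg

namespace Cfsg.Agent.S2257

/-- Let G = PSL_2(F) with F a field of order q = 2^p, p prime, and for x ∈ G call the solubilizer of x the set of y ∈ G such that x and y generate a solvable subgroup. Then the solubilizer of an involution has 3q(q − 1) elements; that of a non-identity element of order dividing q − 1 has 2q(q − 1) elements; and that of a non-identity element of order dividing q + 1 has 2(q + 1) elements. -/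
theorem result (p : ℕ) (hp : p.Prime) {F : Type*} [Field F] [Fintype F]
    (hF : Fintype.card F = 2 ^ p) (x : Matrix.ProjectiveSpecialLinearGroup (Fin 2) F) :
    (orderOf x = 2 → Nat.card {y : Matrix.ProjectiveSpecialLinearGroup (Fin 2) F // Group.IsSolvable ↥(Subgroup.closure ({x, y} : Set (Matrix.ProjectiveSpecialLinearGroup (Fin 2) F)))} = 3 * 2 ^ p * (2 ^ p - 1)) ∧
    (x ≠ 1 → orderOf x ∣ 2 ^ p - 1 → Nat.card {y : Matrix.ProjectiveSpecialLinearGroup (Fin 2) F // Group.IsSolvable ↥(Subgroup.closure ({x, y} : Set (Matrix.ProjectiveSpecialLinearGroup (Fin 2) F)))} = 2 * 2 ^ p * (2 ^ p - 1)) ∧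
    (x ≠ 1 → orderOf x ∣ 2 ^ p + 1 → Nat.card {y : Matrix.ProjectiveSpecialLinearGroup (Fin 2) F // Group.IsSolvable ↥(Subgroup.closure ({x, y} : Set (Matrix.ProjectiveSpecialLinearGroup (Fin 2) F)))} = 2 * (2 ^ p + 1)) := by
  haveI : CharP F 2 := Cfsg.Agent.Lib.Helper42.SL2Even.charP_two_of_even
    (by rw [hF]; exact dvd_pow_self 2 hp.ne_zero)
  have key := Cfsg.Agent.Lib.Helper6.SzT1.card_sol_map
    (Cfsg.Agent.Lib.Helper42.SL2Even.slEquivPSL (F := F)).symm x
  have hord : orderOf ((Cfsg.Agent.Lib.Helper42.SL2Even.slEquivPSL (F := F)).symm x) = orderOf x :=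
    MulEquiv.orderOf_eq _ x
  have hne : x ≠ 1 → (Cfsg.Agent.Lib.Helper42.SL2Even.slEquivPSL (F := F)).symm x ≠ 1 := by
    intro h h'
    exact h ((MulEquiv.map_eq_one_iff _).1 h')
  refine ⟨fun h2 => ?_, fun hx1 hd => ?_, fun hx1 hd => ?_⟩
  · rw [key, ← hF]
    apply Cfsg.Agent.Lib.Helper6.DE9.card_sol_invol hp hF
    · intro h
      rw [h, orderOf_one] at hord
      omega
    · have := pow_orderOf_eq_one ((Cfsg.Agent.Lib.Helper42.SL2Even.slEquivPSL (F := F)).symm x)
      rw [hord, h2, pow_two] at this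
      exact this
  · rw [key, ← hF]
    exact Cfsg.Agent.Lib.Helper6.DE9.card_sol_split hp hF _ (hne hx1) (by rw [hord, hF]; exact hd)
  · rw [key, ← hF]
    exact Cfsg.Agent.Lib.Helper6.DE9.card_sol_nonsplit hp hF _ (hne hx1)
      (by rw [hord, hF]; exact hd)

end Cfsg.Agent.S2257
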