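import Cfsg.Statements.S2268

set_option autoImplicit false
open Cfsg

namespace Cfsg.Agent.S2268

/-- Let G be a finite group with an abelian Sylow p-subgroup P and let Q ≤ P. Then N_G(Q) = (N_G(Q) ∩ N_G(P))·C_G(Q), so that N_G(Q)/C_G(Q) is a homomorphic image of the subgroup (N_G(Q) ∩ N_G(P))/C_G(P) of N_G(P)/C_G(P); in particular the order of N_G(Q)/C_G(Q) divides the order of N_G(P)/C_G(P). -/
theorem result {G : Type*} [Group G] [Finite G] {p : ℕ} [Fact p.Prime]
    (P : Sylow p G) (hP : IsMulCommutative (P : Subgroup G)) (Q : Subgroup G) (hQ : Q ≤ (P : Subgroup G)) :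
    Subgroup.normalizer (Q : Set G) =
      (Subgroup.normalizer (Q : Set G) ⊓ Subgroup.normalizer ((P : Subgroup G) : Set G)) ⊔ Subgroup.centralizer (Q : Set G) ∧
    ((Subgroup.centralizer (Q : Set G)).subgroupOf (Subgroup.normalizer (Q : Set G))).index ∣ ((Subgroup.centralizer ((P : Subgroup G) : Set G)).subgroupOf (Subgroup.normalizer ((P : Subgroup G) : Set G))).index := by
  set K := Subgroup.normalizer (Q : Set G) with hK
  set C := Subgroup.centralizer (Q : Set G) with hC
  set L := Subgroup.normalizer ((P : Subgroup G) : Set G) with hL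
  set Z := Subgroup.centralizer ((P : Subgroup G) : Set G) with hZ
  have hcomm : ∀ x ∈ (P : Subgroup G), ∀ y ∈ (P : Subgroup G), x * y = y * x := by
    intro x hx y hy
    have := hP.is_comm.comm (⟨x, hx⟩ : (P : Subgroup G)) ⟨y, hy⟩
    exact congrArg Subtype.val this
  have hPC : (P : Subgroup G) ≤ C := by
    intro x hx
    rw [hC, Subgroup.mem_centralizer_iff]
    intro q hq
    exact hcomm q (hQ hq) x hx
  have hCK : C ≤ K := Subgroup.centralizer_le_normalizer (Q : Set G)
  have hZC : Z ≤ C := Subgroup.centralizer_le hQ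
  have hZL : Z ≤ L := Subgroup.centralizer_le_normalizer ((P : Subgroup G) : Set G)
  -- normality of C in K
  have hnorm : ∀ g ∈ K, ∀ c ∈ C, g * c * g⁻¹ ∈ C := by
    intro g hg c hc
    rw [hC, Subgroup.mem_centralizer_iff] at hc ⊢
    intro q hq
    have hq' : g⁻¹ * q * g ∈ Q := by
      have := (Subgroup.mem_normalizer_iff''.1 hg q).1 hq
      exact this
    have h1 := hc _ hq'
    calc q * (g * c * g⁻¹) = g * ((g⁻¹ * q * g) * c) * g⁻¹ := by group
      _ = g * (c * (g⁻¹ * q * g)) * g⁻¹ := by rw [h1]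
      _ = g * c * g⁻¹ * q := by group
  have key : ∀ g ∈ K, g ∈ (K ⊓ L) ⊔ C := by
    intro g hg
    have h2 : ((g • P : Sylow p G) : Subgroup G) ≤ C := by
      intro x hx
      rw [Sylow.coe_subgroup_smul, Subgroup.mem_pointwise_smul_iff_inv_smul_mem] at hx
      have hx' : g⁻¹ * x * g ∈ (P : Subgroup G) := by
        simpa [MulAut.smul_def] using hx
      have := hnorm g hg _ (hPC hx')
      simpa [mul_assoc] using this
    obtain ⟨h, hh⟩ := MulAction.exists_smul_eq C ((g • P).subtype h2) (P.subtype hPC)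
    simp_rw [Sylow.smul_subtype, Subgroup.smul_def, smul_smul] at hh
    have h3 : (h : G) * g ∈ L := Sylow.smul_eq_iff_mem_normalizer.mp (Sylow.subtype_injective hh)
    have h4 : (h : G) * g ∈ K := K.mul_mem (hCK h.2) hg
    have h5 : g = (h : G)⁻¹ * ((h : G) * g) := by group
    rw [h5, sup_comm]
    exact Subgroup.mul_mem_sup (C.inv_mem h.2) ⟨h4, h3⟩
  have part1 : K = (K ⊓ L) ⊔ C := by
    apply le_antisymm
    · exact fun g hg => key g hg
    · exact sup_le inf_le_left hCK
  refine ⟨part1, ?_⟩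
  -- index computation
  have hCn : (C.subgroupOf K).Normal := by
    constructor
    intro c hc g
    rw [Subgroup.mem_subgroupOf] at hc ⊢
    simpa using hnorm g g.2 c hc
  have hsup : (K ⊓ L).subgroupOf K ⊔ C.subgroupOf K = ⊤ := by
    rw [← Subgroup.subgroupOf_sup inf_le_left hCK, ← part1]
    exact Subgroup.subgroupOf_self K
  have e1 : (C.subgroupOf K).index = C.relIndex (K ⊓ L) := by
    rw [← Subgroup.relIndex_top_right, ← hsup, Subgroup.relIndex_sup_right,
      Subgroup.relIndex_subgroupOf inf_le_left]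
  have e2 : C.relIndex (K ⊓ L) = (C ⊓ (K ⊓ L)).relIndex (K ⊓ L) := (Subgroup.inf_relIndex_right C (K ⊓ L)).symm
  have hZ1 : Z ≤ C ⊓ (K ⊓ L) := le_inf hZC (le_inf (hZC.trans hCK) hZL)
  have d1 : (C ⊓ (K ⊓ L)).relIndex (K ⊓ L) ∣ Z.relIndex (K ⊓ L) := Subgroup.relIndex_dvd_of_le_left _ hZ1
  have d2 : Z.relIndex (K ⊓ L) ∣ Z.relIndex L :=
    Dvd.intro _ (Subgroup.relIndex_mul_relIndex Z (K ⊓ L) L (hZ1.trans inf_le_right) inf_le_right)
  rw [e1, e2]
  exact d1.trans d2

end Cfsg.Agent.S2268
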