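import Cfsg.Statements.S2269
import Cfsg.Agent.Lib.Helper38.InvertIndex

set_option autoImplicit false
open Cfsg

namespace Cfsg.Agent.S2269

open Equiv

/-- the explicit elements generating a dihedral group of order 8 inside `A_6` -/
def x0 : Perm (Fin 6) := swap 0 1 * swap 1 2 * swap 2 3 * swap 4 5
def y0 : Perm (Fin 6) := swap 0 2 * swap 4 5

set_option maxRecDepth 100000 in
theorem facts6 : x0 ^ 4 = 1 ∧ y0 ^ 2 = 1 ∧ y0 * x0 * y0⁻¹ = x0⁻¹ ∧ x0 * x0 ≠ 1 ∧
    Perm.sign x0 = 1 ∧ Perm.sign y0 = 1 := by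
  decide

set_option maxRecDepth 100000 in
theorem facts5 : ∀ σ : Perm (Fin 5), Perm.sign σ = 1 → σ ^ 4 = 1 → σ ^ 2 = 1 := by
  decide

theorem sign_via {n : ℕ} (ι : Fin 6 ↪ Fin n) (e : Perm (Fin 6)) :
    Perm.sign (Perm.viaEmbeddingHom ι e) = Perm.sign e := by
  rw [Perm.viaEmbeddingHom_apply]
  unfold Perm.viaEmbedding
  rw [Equiv.Perm.sign_extendDomain]

/-- Elements of a conjugate of a commutative Sylow subgroup commute. -/
theorem sylow_comm {G : Type*} [Group G] [Finite G] {p : ℕ} [Fact p.Prime] (P : Sylow p G)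
    (hP : IsMulCommutative (P : Subgroup G)) (Q : Subgroup G) (hQ : IsPGroup p Q)
    (a b : G) (ha : a ∈ Q) (hb : b ∈ Q) : a * b = b * a := by
  obtain ⟨P', hQP'⟩ := hQ.exists_le_sylow
  obtain ⟨g, rfl⟩ := MulAction.exists_smul_eq G P P'
  have ha' := hQP' ha
  have hb' := hQP' hb
  rw [Sylow.coe_subgroup_smul, Subgroup.mem_pointwise_smul_iff_inv_smul_mem] at ha' hb'
  have ha'' : g⁻¹ * a * g ∈ (P : Subgroup G) := by simpa [MulAut.smul_def] using ha'
  have hb'' : g⁻¹ * b * g ∈ (P : Subgroup G) := by simpa [MulAut.smul_def] using hb'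
  have h := hP.is_comm.comm (⟨_, ha''⟩ : (P : Subgroup G)) ⟨_, hb''⟩
  have h' : (g⁻¹ * a * g) * (g⁻¹ * b * g) = (g⁻¹ * b * g) * (g⁻¹ * a * g) := congrArg Subtype.val h
  have h1 : g⁻¹ * (a * b) * g = g⁻¹ * (b * a) * g := by
    calc g⁻¹ * (a * b) * g = (g⁻¹ * a * g) * (g⁻¹ * b * g) := by group
      _ = (g⁻¹ * b * g) * (g⁻¹ * a * g) := h'
      _ = g⁻¹ * (b * a) * g := by group
  have h2 := congrArg (fun z => g * z * g⁻¹) h1
  simpa [mul_assoc] using h2

theorem two_case (n : ℕ) (hn : 6 ≤ n) (P : Sylow 2 (alternatingGroup (Fin n)))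
    (hP : IsMulCommutative (P : Subgroup (alternatingGroup (Fin n)))) : False := by
  obtain ⟨hx4, hy2, hconj, hxx, hsx, hsy⟩ := facts6
  let ι : Fin 6 ↪ Fin n := Fin.castLEEmb hn
  let φ : Perm (Fin 6) →* Perm (Fin n) := Perm.viaEmbeddingHom ι
  have hφ : Function.Injective φ := Perm.viaEmbeddingHom_injective ι
  let x : alternatingGroup (Fin n) := ⟨φ x0, by
    rw [Equiv.Perm.mem_alternatingGroup]; exact (sign_via ι x0).trans hsx⟩
  let y : alternatingGroup (Fin n) := ⟨φ y0, by
    rw [Equiv.Perm.mem_alternatingGroup]; exact (sign_via ι y0).trans hsy⟩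
  have hx4' : x ^ 4 = 1 := by
    apply Subtype.ext
    change φ x0 ^ 4 = 1
    rw [← map_pow, hx4, map_one]
  have hy2' : y ^ 2 = 1 := by
    apply Subtype.ext
    change φ y0 ^ 2 = 1
    rw [← map_pow, hy2, map_one]
  have hconj' : y * x * y⁻¹ = x⁻¹ := by
    apply Subtype.ext
    change φ y0 * φ x0 * (φ y0)⁻¹ = (φ x0)⁻¹
    rw [← map_inv, ← map_mul, ← map_mul, hconj, map_inv]
  have hxx' : x * x ≠ 1 := by
    intro h
    have h' : φ x0 * φ x0 = 1 := congrArg Subtype.val h
    rw [← map_mul] at h'
    exact hxx (hφ (h'.trans (map_one φ).symm))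
  -- the 2-group generated by x and y
  have hpx : IsPGroup 2 (Subgroup.zpowers x) := by
    have hd : orderOf x ∣ 2 ^ 2 := orderOf_dvd_of_pow_eq_one hx4'
    obtain ⟨j, -, hj⟩ := (Nat.dvd_prime_pow Nat.prime_two).1 hd
    exact IsPGroup.of_card (n := j) (by rw [Nat.card_zpowers, hj])
  have hpy : IsPGroup 2 (Subgroup.zpowers y) := by
    have hd : orderOf y ∣ 2 ^ 1 := orderOf_dvd_of_pow_eq_one hy2'
    obtain ⟨j, -, hj⟩ := (Nat.dvd_prime_pow Nat.prime_two).1 hd
    exact IsPGroup.of_card (n := j) (by rw [Nat.card_zpowers, hj])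
  have hnorm : Subgroup.zpowers y ≤ Subgroup.normalizer (Subgroup.zpowers x : Set (alternatingGroup (Fin n))) := by
    rw [Subgroup.zpowers_le, Subgroup.mem_normalizer_iff_map_conj_eq, MonoidHom.map_zpowers]
    change Subgroup.zpowers (y * x * y⁻¹) = Subgroup.zpowers x
    rw [hconj', Subgroup.zpowers_inv]
  have hQ : IsPGroup 2 (Subgroup.zpowers y ⊔ Subgroup.zpowers x : Subgroup (alternatingGroup (Fin n))) :=
    IsPGroup.to_sup_of_normal_right' hpy hpx hnorm
  have hcomm := sylow_comm P hP _ hQ x y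
    ((le_sup_right : Subgroup.zpowers x ≤ _) (Subgroup.mem_zpowers x))
    ((le_sup_left : Subgroup.zpowers y ≤ _) (Subgroup.mem_zpowers y))
  apply hxx'
  have h1 : x⁻¹ = x := by
    rw [← hconj', ← hcomm]; group
  calc x * x = x⁻¹ * x := by rw [h1]
    _ = 1 := inv_mul_cancel x

theorem odd_case (n : ℕ) {p : ℕ} [Fact p.Prime] (hp2 : p ≠ 2)
    (P : Sylow p (alternatingGroup (Fin n)))
    (hP : IsMulCommutative (P : Subgroup (alternatingGroup (Fin n)))) :
    2 ∣ ((Subgroup.centralizer ((P : Subgroup (alternatingGroup (Fin n))) : Set (alternatingGroup (Fin n)))).subgroupOf (Subgroup.normalizer ((P : Subgroup (alternatingGroup (Fin n))) : Set (alternatingGroup (Fin n))))).index ∨ IsCyclic (P : Subgroup (alternatingGroup (Fin n))) := by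
  have hpp : p.Prime := Fact.out
  by_cases hbot : (P : Subgroup (alternatingGroup (Fin n))) = ⊥
  · right
    rw [hbot]
    infer_instance
  -- an element of order p in P
  have hcard : p ∣ Nat.card (P : Subgroup (alternatingGroup (Fin n))) := by
    obtain ⟨k, hk⟩ := IsPGroup.iff_card.1 P.isPGroup'
    rw [hk]
    rcases Nat.eq_zero_or_pos k with h0 | hpos
    · exfalso
      apply hbot
      rw [h0, pow_zero] at hk
      exact Subgroup.card_eq_one.1 hk
    · exact dvd_pow_self p hpos.ne'
  obtain ⟨y, hy⟩ := exists_prime_orderOf_dvd_card' p hcard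
  obtain ⟨x, hx⟩ : ∃ x : alternatingGroup (Fin n), x = y.1 := ⟨_, rfl⟩
  have hxP : x ∈ (P : Subgroup (alternatingGroup (Fin n))) := hx ▸ y.2
  have hxord : orderOf x = p := by rw [hx, Subgroup.orderOf_coe]; exact hy
  obtain ⟨σ, hσ⟩ : ∃ σ : Perm (Fin n), σ = x.1 := ⟨_, rfl⟩
  have hσord : orderOf σ = p := by rw [hσ, Subgroup.orderOf_coe]; exact hxord
  by_cases hcent : Subgroup.centralizer {σ} ≤ alternatingGroup (Fin n)
  · right
    obtain ⟨k, hk⟩ := Equiv.Perm.cycleType_prime_order (σ := σ) (by rw [hσord]; exact hpp)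
    rw [hσord] at hk
    have hcount := Equiv.Perm.count_le_one_of_centralizer_le_alternating hcent p
    rw [hk, Multiset.count_replicate_self] at hcount
    have hk0 : k = 0 := by omega
    have hsum : σ.cycleType.sum = p := by rw [hk, hk0]; simp
    have hle := Equiv.Perm.card_le_of_centralizer_le_alternating hcent
    rw [hsum, Fintype.card_fin] at hle
    obtain ⟨j, hj⟩ := IsPGroup.iff_card.1 P.isPGroup'
    have hdvd1 : p ^ j ∣ (p + 1).factorial := by
      rw [← hj]
      have h1 : Nat.card (P : Subgroup (alternatingGroup (Fin n))) ∣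
          Nat.card (alternatingGroup (Fin n)) := Subgroup.card_subgroup_dvd_card _
      have h2 : Nat.card (alternatingGroup (Fin n)) ∣ Nat.card (Perm (Fin n)) :=
        Subgroup.card_subgroup_dvd_card _
      have h3 : Nat.card (Perm (Fin n)) = n.factorial := by
        rw [Nat.card_eq_fintype_card, Fintype.card_perm, Fintype.card_fin]
      rw [h3] at h2
      exact h1.trans (h2.trans (Nat.factorial_dvd_factorial hle))
    have hj1 : j ≤ 1 := by
      by_contra hj2
      have hj2' : 2 ≤ j := by omega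
      have h4 : p ^ 2 ∣ (p + 1).factorial := (pow_dvd_pow p hj2').trans hdvd1
      obtain ⟨q, hq⟩ : ∃ q, p = q + 1 := ⟨p - 1, by have := hpp.pos; omega⟩
      have h5 : p ∣ (p + 1) * q.factorial := by
        have : p * p ∣ p * ((p + 1) * q.factorial) := by
          have e : (p + 1).factorial = p * ((p + 1) * q.factorial) := by
            rw [Nat.factorial_succ]
            nth_rewrite 2 [hq]
            rw [Nat.factorial_succ, ← hq]
            ring
          rw [← pow_two, ← e]; exact h4
        exact Nat.dvd_of_mul_dvd_mul_left hpp.pos this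
      rcases (Nat.Prime.dvd_mul hpp).1 h5 with h | h
      · have : p ∣ 1 := (Nat.dvd_add_right (dvd_refl p)).1 h
        exact hpp.one_lt.ne' (Nat.dvd_one.1 this)
      · have := (Nat.Prime.dvd_factorial hpp).1 h
        omega
    have hj0 : j ≠ 0 := by
      rintro rfl
      apply hbot
      rw [pow_zero] at hj
      exact Subgroup.card_eq_one.1 hj
    have hj' : j = 1 := by omega
    rw [hj', pow_one] at hj
    exact isCyclic_of_prime_card hj
  · left
    obtain ⟨t, htc, htalt⟩ := SetLike.not_le_iff_exists.1 hcent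
    have hts : Perm.sign t = -1 := by
      rcases Int.units_eq_one_or (Perm.sign t) with h | h
      · exact absurd (Equiv.Perm.mem_alternatingGroup.2 h) htalt
      · exact h
    have htσ : t * σ = σ * t := (Subgroup.mem_centralizer_iff.1 htc σ rfl).symm
    obtain ⟨g, hg⟩ := isConj_iff.1
      (Equiv.Perm.isConj_iff_cycleType_eq.2 (Equiv.Perm.cycleType_inv σ).symm : IsConj σ σ⁻¹)
    obtain ⟨m0, hm0s, hm0⟩ : ∃ m0 : Perm (Fin n), Perm.sign m0 = 1 ∧ m0 * σ * m0⁻¹ = σ⁻¹ := by
      rcases Int.units_eq_one_or (Perm.sign g) with h | h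
      · exact ⟨g, h, hg⟩
      · refine ⟨g * t, by rw [map_mul, h, hts]; decide, ?_⟩
        calc g * t * σ * (g * t)⁻¹ = g * (t * σ) * t⁻¹ * g⁻¹ := by group
          _ = g * (σ * t) * t⁻¹ * g⁻¹ := by rw [htσ]
          _ = g * σ * g⁻¹ := by group
          _ = σ⁻¹ := hg
    let m1 : alternatingGroup (Fin n) := ⟨m0, Equiv.Perm.mem_alternatingGroup.2 hm0s⟩
    have hm1 : m1 * x * m1⁻¹ = x⁻¹ := by
      apply Subtype.ext
      change m0 * x.1 * m0⁻¹ = (x.1)⁻¹
      rw [← hσ]; exact hm0
    have hxx : x ≠ x⁻¹ := by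
      intro h
      have h2 : x ^ 2 = 1 := by
        rw [pow_two]
        nth_rewrite 2 [h]
        exact mul_inv_cancel x
      have := orderOf_dvd_of_pow_eq_one h2
      rw [hxord] at this
      exact hp2 ((Nat.prime_dvd_prime_iff_eq hpp Nat.prime_two).1 this)
    have : IsMulCommutative (P : Subgroup (alternatingGroup (Fin n))) := hP
    have hy' : (m1⁻¹)⁻¹ * x * m1⁻¹ ∈ (P : Subgroup (alternatingGroup (Fin n))) := by
      rw [inv_inv, hm1]; exact inv_mem hxP
    obtain ⟨m, hm, hmx⟩ := P.conj_eq_normalizer_conj_of_mem x m1⁻¹ hxP hy'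
    rw [inv_inv, hm1] at hmx
    refine Cfsg.Agent.Lib.Helper38.InvertIndex.even_index_of_inverting
      (P : Subgroup (alternatingGroup (Fin n))) x hxP hxx m⁻¹ (inv_mem hm) ?_
    rw [inv_inv]; exact hmx.symm

theorem five_case (P : Sylow 2 (alternatingGroup (Fin 5)))
    (hP : IsMulCommutative (P : Subgroup (alternatingGroup (Fin 5)))) :
    ((Subgroup.centralizer ((P : Subgroup (alternatingGroup (Fin 5))) : Set (alternatingGroup (Fin 5)))).subgroupOf (Subgroup.normalizer ((P : Subgroup (alternatingGroup (Fin 5))) : Set (alternatingGroup (Fin 5))))).index = 3 ∧ IsKleinFour (P : Subgroup (alternatingGroup (Fin 5))) := by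
  have hG : Nat.card (alternatingGroup (Fin 5)) = 60 := by
    rw [nat_card_alternatingGroup, Nat.card_fin]; decide
  have hmulidx : Nat.card (P : Subgroup (alternatingGroup (Fin 5))) *
      (P : Subgroup (alternatingGroup (Fin 5))).index = 60 := by
    rw [Subgroup.card_mul_index, hG]
  have hP4 : Nat.card (P : Subgroup (alternatingGroup (Fin 5))) = 4 := by
    obtain ⟨k, hk⟩ := IsPGroup.iff_card.1 P.isPGroup'
    have h2 : ¬ 2 ∣ (P : Subgroup (alternatingGroup (Fin 5))).index := P.not_dvd_index
    have h1 := hmulidx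
    rw [hk] at h1 ⊢
    have hk5 : k < 6 := by
      by_contra h
      have h6 : 6 ≤ k := by omega
      have : 2 ^ 6 ≤ 2 ^ k := Nat.pow_le_pow_right (by norm_num) h6
      have hpos : 0 < (P : Subgroup (alternatingGroup (Fin 5))).index := by
        rcases Nat.eq_zero_or_pos (P : Subgroup (alternatingGroup (Fin 5))).index with h0 | h0
        · rw [h0] at h1; omega
        · exact h0
      nlinarith
    interval_cases k <;> omega
  have hidx : (P : Subgroup (alternatingGroup (Fin 5))).index = 15 := by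
    rw [hP4] at hmulidx; omega
  have hexp : ∀ g : (P : Subgroup (alternatingGroup (Fin 5))), g ^ 2 = 1 := by
    intro g
    have h4 : g ^ 4 = 1 := by rw [← hP4]; exact pow_card_eq_one'
    have h4' : (g.1.1) ^ 4 = 1 := by
      have := congrArg (fun z : (P : Subgroup (alternatingGroup (Fin 5))) => z.1.1) h4
      simpa using this
    have h2' := facts5 g.1.1 (Equiv.Perm.mem_alternatingGroup.1 g.1.2) h4'
    apply Subtype.ext
    apply Subtype.ext
    simpa using h2'
  have hK : IsKleinFour (P : Subgroup (alternatingGroup (Fin 5))) := by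
    refine ⟨hP4, ?_⟩
    have hd : Monoid.exponent (P : Subgroup (alternatingGroup (Fin 5))) ∣ 2 :=
      Monoid.exponent_dvd_of_forall_pow_eq_one hexp
    rcases (Nat.dvd_prime Nat.prime_two).1 hd with h | h
    · exfalso
      have hs := Monoid.exp_eq_one_iff.1 h
      have : Nat.card (P : Subgroup (alternatingGroup (Fin 5))) = 1 := Nat.card_of_subsingleton 1
      omega
    · exact h
  refine ⟨?_, hK⟩
  have hcomm : ∀ a ∈ (P : Subgroup (alternatingGroup (Fin 5))), ∀ b ∈ (P : Subgroup (alternatingGroup (Fin 5))), a * b = b * a := by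
    intro a ha b hb
    have := hP.is_comm.comm (⟨a, ha⟩ : (P : Subgroup (alternatingGroup (Fin 5)))) ⟨b, hb⟩
    exact congrArg Subtype.val this
  have hPC : (P : Subgroup (alternatingGroup (Fin 5))) ≤
      Subgroup.centralizer ((P : Subgroup (alternatingGroup (Fin 5))) : Set (alternatingGroup (Fin 5))) := by
    intro a ha
    rw [Subgroup.mem_centralizer_iff]
    intro b hb
    exact hcomm b hb a ha
  have d15 : ((Subgroup.centralizer ((P : Subgroup (alternatingGroup (Fin 5))) : Set (alternatingGroup (Fin 5)))).subgroupOf (Subgroup.normalizer ((P : Subgroup (alternatingGroup (Fin 5))) : Set (alternatingGroup (Fin 5))))).index ∣ 15 := by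
    have d1 := Subgroup.relIndex_dvd_of_le_left (Subgroup.normalizer ((P : Subgroup (alternatingGroup (Fin 5))) : Set (alternatingGroup (Fin 5)))) hPC
    have d2 : (P : Subgroup (alternatingGroup (Fin 5))).relIndex (Subgroup.normalizer ((P : Subgroup (alternatingGroup (Fin 5))) : Set (alternatingGroup (Fin 5)))) ∣ 15 := by
      rw [← hidx]
      exact Dvd.intro _ (Subgroup.relIndex_mul_index Subgroup.le_normalizer)
    exact d1.trans d2
  have d24 : ((Subgroup.centralizer ((P : Subgroup (alternatingGroup (Fin 5))) : Set (alternatingGroup (Fin 5)))).subgroupOf (Subgroup.normalizer ((P : Subgroup (alternatingGroup (Fin 5))) : Set (alternatingGroup (Fin 5))))).index ∣ 24 := by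
    rw [← Subgroup.normalizerMonoidHom_ker, Subgroup.index_ker]
    have e1 := Subgroup.card_subgroup_dvd_card
      ((P : Subgroup (alternatingGroup (Fin 5))).normalizerMonoidHom.range)
    have e2 : Nat.card (MulAut (P : Subgroup (alternatingGroup (Fin 5)))) ∣
        Nat.card (Perm (P : Subgroup (alternatingGroup (Fin 5)))) :=
      Subgroup.card_dvd_of_injective (MulAut.toPerm _) (fun a b h => MulEquiv.toEquiv_injective h)
    have e3 : Nat.card (Perm (P : Subgroup (alternatingGroup (Fin 5)))) = 24 := by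
      rw [Nat.card_perm, hP4]; decide
    rw [e3] at e2
    exact e1.trans e2
  have d3 : ((Subgroup.centralizer ((P : Subgroup (alternatingGroup (Fin 5))) : Set (alternatingGroup (Fin 5)))).subgroupOf (Subgroup.normalizer ((P : Subgroup (alternatingGroup (Fin 5))) : Set (alternatingGroup (Fin 5))))).index ∣ 3 := by
    have := Nat.dvd_gcd d15 d24
    simpa using this
  rcases (Nat.dvd_prime Nat.prime_three).1 d3 with h1 | h3
  · exfalso
    rw [Subgroup.index_eq_one, Subgroup.subgroupOf_eq_top] at h1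
    have hcomp := MonoidHom.ker_transferSylow_isComplement' P h1
    have hcard := hcomp.card_mul_card
    rw [hP4, hG] at hcard
    have hnorm : (MonoidHom.transferSylow P h1).ker.Normal := MonoidHom.normal_ker _
    rcases hnorm.eq_bot_or_eq_top with h | h
    · rw [h, Subgroup.card_bot] at hcard; omega
    · rw [h, Subgroup.card_top, hG] at hcard; omega
  · exact h3

/-- Let n ≥ 5 and let P be an abelian Sylow p-subgroup of the alternating group A_n. Then N(P)/C(P) (taken in A_n) has even order, or P is cyclic, except when n = 5 and p = 2, where P is a four-group and N(P)/C(P) has order 3. -/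
theorem result (n : ℕ) (hn : 5 ≤ n) {p : ℕ} [Fact p.Prime]
    (P : Sylow p (alternatingGroup (Fin n))) (hP : IsMulCommutative (P : Subgroup (alternatingGroup (Fin n)))) :
    (¬ (n = 5 ∧ p = 2) → 2 ∣ ((Subgroup.centralizer ((P : Subgroup (alternatingGroup (Fin n))) : Set (alternatingGroup (Fin n)))).subgroupOf (Subgroup.normalizer ((P : Subgroup (alternatingGroup (Fin n))) : Set (alternatingGroup (Fin n))))).index ∨ IsCyclic (P : Subgroup (alternatingGroup (Fin n)))) ∧
    ((n = 5 ∧ p = 2) → ((Subgroup.centralizer ((P : Subgroup (alternatingGroup (Fin n))) : Set (alternatingGroup (Fin n)))).subgroupOf (Subgroup.normalizer ((P : Subgroup (alternatingGroup (Fin n))) : Set (alternatingGroup (Fin n))))).index = 3 ∧ IsKleinFour (P : Subgroup (alternatingGroup (Fin n)))) := by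
  constructor
  · intro hne
    by_cases hp2 : p = 2
    · subst hp2
      exfalso
      have h6 : 6 ≤ n := by
        rcases Nat.lt_or_ge n 6 with h | h
        · exfalso
          apply hne
          exact ⟨by omega, rfl⟩
        · exact h
      exact two_case n h6 P hP
    · exact odd_case n hp2 P hP
  · rintro ⟨rfl, rfl⟩
    exact five_case P hP

end Cfsg.Agent.S2269
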