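import Cfsg.Statements.S2270
import Cfsg.Agent.Lib.Helper38.InvertIndex

set_option autoImplicit false
open Cfsg

namespace Cfsg.Agent.S2270

/-- Let n ≥ 3, p an odd prime, and P an abelian Sylow p-subgroup of the symmetric group S_n (with p dividing n!, so that P ≠ 1). Then N(P)/C(P) has even order. -/
theorem result (n : ℕ) (hn : 3 ≤ n) {p : ℕ} [Fact p.Prime] (hp : p ≠ 2) (hpn : p ≤ n)
    (P : Sylow p (Equiv.Perm (Fin n))) (hP : IsMulCommutative (P : Subgroup (Equiv.Perm (Fin n)))) :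
    2 ∣ ((Subgroup.centralizer ((P : Subgroup (Equiv.Perm (Fin n))) : Set (Equiv.Perm (Fin n)))).subgroupOf (Subgroup.normalizer ((P : Subgroup (Equiv.Perm (Fin n))) : Set (Equiv.Perm (Fin n))))).index := by
  have hpp : p.Prime := Fact.out
  -- P is nontrivial
  have hdvd : p ∣ Nat.card (Equiv.Perm (Fin n)) := by
    rw [Nat.card_eq_fintype_card, Fintype.card_perm, Fintype.card_fin]
    exact (Nat.Prime.dvd_factorial hpp).2 hpn
  have hne : (P : Subgroup (Equiv.Perm (Fin n))) ≠ ⊥ := P.ne_bot_of_dvd_card hdvd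
  obtain ⟨x, hxP, hx1⟩ := (Subgroup.ne_bot_iff_exists_ne_one).1 hne |>.imp (fun x h => h) |> fun ⟨x, hx⟩ => (⟨x.1, x.2, fun h => hx (Subtype.ext h)⟩ : ∃ x : Equiv.Perm (Fin n), x ∈ (P : Subgroup (Equiv.Perm (Fin n))) ∧ x ≠ 1)
  -- x is not its own inverse
  have hxx : x ≠ x⁻¹ := by
    intro h
    apply hx1
    have h2 : x ^ 2 = 1 := by
      rw [pow_two]
      nth_rewrite 2 [h]
      exact mul_inv_cancel x
    obtain ⟨k, hk⟩ := P.isPGroup' ⟨x, hxP⟩
    have hk' : x ^ (p ^ k) = 1 := by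
      have := congrArg Subtype.val hk
      simpa using this
    have hcop : Nat.Coprime 2 (p ^ k) :=
      Nat.Coprime.pow_right k ((Nat.coprime_primes Nat.prime_two hpp).2 (Ne.symm hp))
    have := pow_gcd_eq_one.2 ⟨h2, hk'⟩
    rw [Nat.Coprime.gcd_eq_one hcop, pow_one] at this
    exact this
  -- x is conjugate to its inverse
  have hconj : IsConj x x⁻¹ := Equiv.Perm.isConj_iff_cycleType_eq.2 (Equiv.Perm.cycleType_inv x).symm
  obtain ⟨g, hg⟩ := isConj_iff.1 hconj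
  have : IsMulCommutative (P : Subgroup (Equiv.Perm (Fin n))) := hP
  have hy : (g⁻¹)⁻¹ * x * g⁻¹ ∈ (P : Subgroup (Equiv.Perm (Fin n))) := by
    rw [inv_inv, hg]
    exact inv_mem hxP
  obtain ⟨m, hm, hmx⟩ := P.conj_eq_normalizer_conj_of_mem x g⁻¹ hxP hy
  rw [inv_inv, hg] at hmx
  refine Cfsg.Agent.Lib.Helper38.InvertIndex.even_index_of_inverting (P : Subgroup (Equiv.Perm (Fin n))) x hxP hxx m⁻¹ (inv_mem hm) ?_
  rw [inv_inv]
  exact hmx.symm

end Cfsg.Agent.S2270
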