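import Mathlib
import Cfsg.Statements.S2279
import Cfsg.Agent.Lib.Helper53.SLnChain
import Cfsg.Agent.Lib.Helper53.SLnPair
import Cfsg.Agent.Lib.Helper53.SL4Pair

set_option autoImplicit false
open Cfsg

namespace Cfsg.Agent.S2279

/-- Let F be a finite field with q elements and n ≥ 4. Then SL_n(F) is generated by two regular unipotent elements (elements u with u − 1 nilpotent and (u − 1)^(n−1) ≠ 0); if q is prime, the two can be taken conjugate in SL_n(F). -/
theorem result {F : Type*} [Field F] [Fintype F] (n : ℕ) (hn : 4 ≤ n) :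
    (∃ u v : Matrix.SpecialLinearGroup (Fin n) F, (IsNilpotent ((u : Matrix (Fin n) (Fin n) F) - 1) ∧ ((u : Matrix (Fin n) (Fin n) F) - 1) ^ (n - 1) ≠ 0) ∧ (IsNilpotent ((v : Matrix (Fin n) (Fin n) F) - 1) ∧ ((v : Matrix (Fin n) (Fin n) F) - 1) ^ (n - 1) ≠ 0) ∧
      Subgroup.closure ({u, v} : Set (Matrix.SpecialLinearGroup (Fin n) F)) = ⊤) ∧
    ((Fintype.card F).Prime → ∃ u g : Matrix.SpecialLinearGroup (Fin n) F, (IsNilpotent ((u : Matrix (Fin n) (Fin n) F) - 1) ∧ ((u : Matrix (Fin n) (Fin n) F) - 1) ^ (n - 1) ≠ 0) ∧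
      Subgroup.closure ({u, g * u * g⁻¹} : Set (Matrix.SpecialLinearGroup (Fin n) F)) = ⊤) := by
  obtain ⟨m, rfl⟩ : ∃ m, n = m + 3 := ⟨n - 3, by omega⟩
  have hm : 1 ≤ m := by omega
  refine ⟨?_, fun hp => Cfsg.Agent.Lib.Helper53.SLnChain.prime_pair hm hp⟩
  by_cases hp : (Fintype.card F).Prime
  · obtain ⟨u, g, hreg, hcl⟩ := Cfsg.Agent.Lib.Helper53.SLnChain.prime_pair (m := m) hm hp
    exact ⟨u, g * u * g⁻¹, hreg, Cfsg.Agent.Lib.Helper53.SLnChain.reg_conj u g _ hreg, hcl⟩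
  · have h1 : 1 < Fintype.card F := Fintype.one_lt_card
    have h4 : 4 ≤ Fintype.card F := by
      by_contra hlt
      have h23 : Fintype.card F = 2 ∨ Fintype.card F = 3 := by omega
      rcases h23 with h | h
      · exact hp (h ▸ Nat.prime_two)
      · exact hp (h ▸ Nat.prime_three)
    by_cases hm1 : m = 1
    · subst hm1
      exact Cfsg.Agent.Lib.Helper53.SL4Pair.pair_four h4
    · exact Cfsg.Agent.Lib.Helper53.SLnPair.pair_ge5 (by omega) (by omega)

end Cfsg.Agent.S2279
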