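import Cfsg.Statements.S2280
import Cfsg.Agent.Lib.Helper46.SLnJ

set_option autoImplicit false
open Cfsg

namespace Cfsg.Agent.S2280

open Matrix
open Cfsg.Agent.Lib.Helper46.SLnTv Cfsg.Agent.Lib.Helper46.SLnJ

variable {F : Type*} [Field F]

/-- a nonzero element generating the finite field `F` as a ring -/
theorem exists_gen [Fintype F] : ∃ θ : F, θ ≠ 0 ∧ ∀ S : Subring F, θ ∈ S → S = ⊤ := by
  obtain ⟨g, hg⟩ := IsCyclic.exists_generator (α := Fˣ)
  refine ⟨(g : F), g.ne_zero, fun S hS => ?_⟩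
  rw [eq_top_iff]
  intro x _
  by_cases hx : x = 0
  · rw [hx]; exact S.zero_mem
  · have h1 : Units.mk0 x hx ∈ Subgroup.zpowers g := hg _
    rw [← mem_powers_iff_mem_zpowers] at h1
    obtain ⟨n, hn⟩ := h1
    have h2 : x = (g : F) ^ n := by
      have h3 := congrArg (fun u : Fˣ => (u : F)) hn
      simpa using h3.symm
    rw [h2]; exact S.pow_mem hS n

/-- the reversal permutation matrix -/
def Wm (F : Type*) [Field F] (L : ℕ) : Matrix (Fin (L + 1)) (Fin (L + 1)) F :=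
  (1 : Matrix (Fin (L + 1)) (Fin (L + 1)) F).submatrix (Fin.revPerm) id

theorem Wm_det_ne (L : ℕ) : (Wm F L).det ≠ 0 := by
  unfold Wm
  rw [det_permute, det_one, mul_one]
  rcases Int.units_eq_one_or (Equiv.Perm.sign (Fin.revPerm : Equiv.Perm (Fin (L + 1)))) with h | h <;>
    rw [h] <;> simp

theorem Wm_mulVec (L : ℕ) (v : Fin (L + 1) → F) (i : Fin (L + 1)) :
    (Wm F L *ᵥ v) i = v (Fin.rev i) := by
  simp [Wm, mulVec, dotProduct, Matrix.one_apply]

theorem vecMul_Wm (L : ℕ) (v : Fin (L + 1) → F) (j : Fin (L + 1)) :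
    (v ᵥ* Wm F L) j = v (Fin.rev j) := by
  simp only [Wm, vecMul, dotProduct, submatrix_apply, Matrix.one_apply, id]
  rw [Finset.sum_eq_single (Fin.rev j)]
  · simp
  · intro b _ hb
    rw [if_neg, mul_zero]
    intro h; apply hb; rw [← h]; simp
  · intro h; exact absurd (Finset.mem_univ _) h

theorem Wm_mulVec_e (L k : ℕ) (hk : k ≤ L) : Wm F L *ᵥ e F L k = e F L (L - k) := by
  ext i
  rw [Wm_mulVec]
  simp only [e, Fin.val_rev]
  have := i.2
  by_cases h : (i : ℕ) = L - k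
  · rw [if_pos (by omega), if_pos h]
  · rw [if_neg (by omega), if_neg h]

theorem e_vecMul_Wm (L k : ℕ) (hk : k ≤ L) : e F L k ᵥ* Wm F L = e F L (L - k) := by
  ext i
  rw [vecMul_Wm]
  simp only [e, Fin.val_rev]
  have := i.2
  by_cases h : (i : ℕ) = L - k
  · rw [if_pos (by omega), if_pos h]
  · rw [if_neg (by omega), if_neg h]

/-- diagonal entries -/
def δ (L : ℕ) (d θ : F) (k : ℕ) : F := (if k = 0 then d else 1) * (if k = L then θ else 1)

/-- the diagonal matrix -/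
def Dm (L : ℕ) (d θ : F) : Matrix (Fin (L + 1)) (Fin (L + 1)) F :=
  diagonal fun i => δ L d θ (i : ℕ)

theorem Dm_det (L : ℕ) (d θ : F) : (Dm L d θ).det = d * θ := by
  unfold Dm
  rw [det_diagonal]
  simp only [δ]
  rw [Finset.prod_mul_distrib, Finset.prod_eq_single (0 : Fin (L + 1)),
    Finset.prod_eq_single (Fin.last L)]
  · simp
  · intro b _ hb
    rw [if_neg]
    intro h; exact hb (Fin.ext h)
  · intro h; exact absurd (Finset.mem_univ _) h
  · intro b _ hb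
    rw [if_neg]
    intro h; exact hb (Fin.ext h)
  · intro h; exact absurd (Finset.mem_univ _) h

theorem Dm_mulVec_e (L : ℕ) (d θ : F) (k : ℕ) :
    Dm L d θ *ᵥ e F L k = δ L d θ k • e F L k := by
  ext i
  unfold Dm
  rw [mulVec_diagonal, Pi.smul_apply, smul_eq_mul]
  simp only [e]
  by_cases h : (i : ℕ) = k
  · rw [if_pos h, h]
  · rw [if_neg h, mul_zero, mul_zero]

theorem e_vecMul_Dm (L : ℕ) (d θ : F) (k : ℕ) :
    e F L k ᵥ* Dm L d θ = δ L d θ k • e F L k := by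
  ext i
  unfold Dm
  rw [vecMul_diagonal, Pi.smul_apply, smul_eq_mul]
  simp only [e]
  by_cases h : (i : ℕ) = k
  · rw [if_pos h, h, one_mul, mul_one]
  · rw [if_neg h, zero_mul, mul_zero]

/-- the first conjugating matrix -/
def Gm (L : ℕ) (d θ : F) : Matrix (Fin (L + 1)) (Fin (L + 1)) F := Wm F L * Dm L d θ

theorem Gm_mulVec_eL (L : ℕ) (hL : 2 ≤ L) (d θ : F) : Gm L d θ *ᵥ e F L L = θ • e F L 0 := by
  unfold Gm
  rw [← mulVec_mulVec, Dm_mulVec_e, mulVec_smul, Wm_mulVec_e L L le_rfl, Nat.sub_self]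
  have h : δ L d θ L = θ := by
    unfold δ; rw [if_neg (by omega), if_pos rfl, one_mul]
  rw [h]

theorem Gm_mulVec_eL1 (L : ℕ) (hL : 2 ≤ L) (d θ : F) :
    Gm L d θ *ᵥ e F L (L - 1) = e F L 1 := by
  unfold Gm
  rw [← mulVec_mulVec, Dm_mulVec_e, mulVec_smul, Wm_mulVec_e L (L - 1) (by omega)]
  have h1 : L - (L - 1) = 1 := by omega
  have h2 : δ L d θ (L - 1) = 1 := by
    unfold δ; rw [if_neg (by omega), if_neg (by omega), one_mul]
  rw [h1, h2, one_smul]

theorem eL_vecMul_Gm (L : ℕ) (hL : 2 ≤ L) (d θ : F) :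
    e F L L ᵥ* Gm L d θ = d • e F L 0 := by
  unfold Gm
  rw [← vecMul_vecMul, e_vecMul_Wm L L le_rfl, Nat.sub_self, e_vecMul_Dm]
  have h : δ L d θ 0 = d := by
    unfold δ; rw [if_pos rfl, if_neg (by omega), mul_one]
  rw [h]

theorem Gm_det (L : ℕ) {θ : F} (hθ : θ ≠ 0) :
    (Gm L ((Wm F L).det⁻¹ * θ⁻¹) θ).det = 1 := by
  unfold Gm
  rw [det_mul, Dm_det L]
  have := Wm_det_ne (F := F) L
  field_simp

theorem e0_dot_eL (L : ℕ) (hL : 2 ≤ L) : e F L 0 ⬝ᵥ e F L L = 0 := by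
  rw [dotProduct_comm, dot_eL]
  simp only [e, Fin.val_last]
  rw [if_neg (by omega)]

theorem main [Fintype F] (L : ℕ) (hL : 2 ≤ L) :
    ∃ u g h : SpecialLinearGroup (Fin (L + 1)) F,
      (IsNilpotent ((u : Matrix (Fin (L + 1)) (Fin (L + 1)) F) - 1) ∧
        ((u : Matrix (Fin (L + 1)) (Fin (L + 1)) F) - 1) ^ L ≠ 0) ∧
      Subgroup.closure ({u, g * u * g⁻¹, h * u * h⁻¹} :
        Set (SpecialLinearGroup (Fin (L + 1)) F)) = ⊤ := by
  obtain ⟨θ, hθ0, hθ⟩ := exists_gen (F := F)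
  set d : F := (Wm F L).det⁻¹ * θ⁻¹ with hd
  let g₁ : SpecialLinearGroup (Fin (L + 1)) F := ⟨Gm L d θ, Gm_det L hθ0⟩
  have h0L : (0 : Fin (L + 1)) ≠ Fin.last L := by
    intro h
    have := congrArg Fin.val h
    simp at this
    omega
  have hL1 : Fin.last L ≠ (⟨1, by omega⟩ : Fin (L + 1)) := by
    intro h
    have := congrArg Fin.val h
    simp at this
    omega
  let x : SpecialLinearGroup (Fin (L + 1)) F := Matrix.SpecialLinearGroup.transvection hL1 (d / θ)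
  let zS : SpecialLinearGroup (Fin (L + 1)) F := Matrix.SpecialLinearGroup.transvection h0L 1
  let g₂ : SpecialLinearGroup (Fin (L + 1)) F := g₁ * x
  refine ⟨jl F L, g₁, g₂, ⟨jl_nilpotent, jl_pow_ne⟩, ?_⟩
  set H := Subgroup.closure ({jl F L, g₁ * jl F L * g₁⁻¹, g₂ * jl F L * g₂⁻¹} :
    Set (SpecialLinearGroup (Fin (L + 1)) F)) with hH
  have hj : jl F L ∈ H := Subgroup.subset_closure (by simp)
  have hu : g₁ * jl F L * g₁⁻¹ ∈ H := Subgroup.subset_closure (by simp)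
  have hv : g₂ * jl F L * g₂⁻¹ ∈ H := Subgroup.subset_closure (by simp)
  set u₁ : SpecialLinearGroup (Fin (L + 1)) F := g₁ * jl F L * g₁⁻¹ with hu₁
  have hUG : (u₁ : Matrix (Fin (L + 1)) (Fin (L + 1)) F) * Gm L d θ =
      Gm L d θ * (1 + Nl F L) := by
    have h1 : u₁ * g₁ = g₁ * jl F L := by rw [hu₁]; group
    have h2 := congrArg (fun g : SpecialLinearGroup (Fin (L + 1)) F =>
      (g : Matrix (Fin (L + 1)) (Fin (L + 1)) F)) h1
    exact h2
  have hu1 : (u₁ : Matrix (Fin (L + 1)) (Fin (L + 1)) F) *ᵥ e F L 0 = e F L 0 := by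
    have h1 : (u₁ : Matrix (Fin (L + 1)) (Fin (L + 1)) F) *ᵥ (θ • e F L 0) = θ • e F L 0 := by
      calc (u₁ : Matrix (Fin (L + 1)) (Fin (L + 1)) F) *ᵥ (θ • e F L 0)
          = (u₁ : Matrix (Fin (L + 1)) (Fin (L + 1)) F) *ᵥ (Gm L d θ *ᵥ e F L L) := by
            rw [Gm_mulVec_eL L hL]
        _ = Gm L d θ *ᵥ ((1 + Nl F L) *ᵥ e F L L) := by
            rw [mulVec_mulVec, hUG, ← mulVec_mulVec]
        _ = θ • e F L 0 := by
            rw [Jl_mulVec_e, e_eq_zero (k := L + 1) (by omega), add_zero, Gm_mulVec_eL L hL]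
    rw [mulVec_smul] at h1
    have h2 := congrArg (fun v => θ⁻¹ • v) h1
    simp only [smul_smul, inv_mul_cancel₀ hθ0, one_smul] at h2
    exact h2
  have hu3 : (u₁ : Matrix (Fin (L + 1)) (Fin (L + 1)) F) *ᵥ e F L 1 =
      e F L 1 + θ • e F L 0 := by
    calc (u₁ : Matrix (Fin (L + 1)) (Fin (L + 1)) F) *ᵥ e F L 1
        = (u₁ : Matrix (Fin (L + 1)) (Fin (L + 1)) F) *ᵥ (Gm L d θ *ᵥ e F L (L - 1)) := by
          rw [Gm_mulVec_eL1 L hL]
      _ = Gm L d θ *ᵥ ((1 + Nl F L) *ᵥ e F L (L - 1)) := by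
          rw [mulVec_mulVec, hUG, ← mulVec_mulVec]
      _ = e F L 1 + θ • e F L 0 := by
          rw [Jl_mulVec_e, mulVec_add, (show L - 1 + 1 = L by omega), Gm_mulVec_eL L hL,
            Gm_mulVec_eL1 L hL]
  have hu2 : e F L L ᵥ* (u₁ : Matrix (Fin (L + 1)) (Fin (L + 1)) F) = e F L L := by
    have h1 : (e F L L ᵥ* (u₁ : Matrix (Fin (L + 1)) (Fin (L + 1)) F)) ᵥ* Gm L d θ =
        e F L L ᵥ* Gm L d θ := by
      rw [vecMul_vecMul, hUG, ← vecMul_vecMul, eL_vecMul_Gm L hL, smul_vecMul, e_vecMul_Jl_zero]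
    have h2 := congrArg (fun v => v ᵥ* ((g₁⁻¹ : SpecialLinearGroup (Fin (L + 1)) F) :
      Matrix (Fin (L + 1)) (Fin (L + 1)) F)) h1
    simp only [vecMul_vecMul] at h2
    have h3 : Gm L d θ * ((g₁⁻¹ : SpecialLinearGroup (Fin (L + 1)) F) :
      Matrix (Fin (L + 1)) (Fin (L + 1)) F) = 1 := coe_mul_inv g₁
    rw [Matrix.mul_assoc, h3, mul_one, vecMul_one] at h2
    exact h2
  have hZ1 : Gm L d θ * tv (e F L L) (e F L 0) (d / θ) =
      tv (e F L 0) (e F L L) 1 * Gm L d θ := by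
    unfold tv
    rw [mul_add, add_mul, mul_one, one_mul, Matrix.mul_smul, Matrix.smul_mul, mul_vecMulVec,
      vecMulVec_mul, Gm_mulVec_eL L hL, eL_vecMul_Gm L hL, smul_vecMulVec, vecMulVec_smul,
      smul_smul, one_smul]
    have e1 : d / θ * θ = d := by field_simp
    rw [e1]
  have hZ2 : tv (e F L L) (e F L 1) (d / θ) * (1 + Nl F L) =
      tv (e F L L) (e F L 0) (d / θ) * (1 + Nl F L) * tv (e F L L) (e F L 1) (d / θ) := by
    have hAJ : vecMulVec (e F L L) (e F L 1) * (1 + Nl F L) =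
        vecMulVec (e F L L) (e F L 1) + vecMulVec (e F L L) (e F L 0) := by
      rw [vecMulVec_mul, e_vecMul_Jl_succ 0 (by omega), vecMulVec_add]
    have hBJ : vecMulVec (e F L L) (e F L 0) * (1 + Nl F L) = vecMulVec (e F L L) (e F L 0) := by
      rw [vecMulVec_mul, e_vecMul_Jl_zero]
    have hJA : (1 + Nl F L) * vecMulVec (e F L L) (e F L 1) = vecMulVec (e F L L) (e F L 1) := by
      rw [mul_vecMulVec, Jl_mulVec_e, e_eq_zero (k := L + 1) (by omega), add_zero]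
    have hBA : vecMulVec (e F L L) (e F L 0) * vecMulVec (e F L L) (e F L 1) = 0 := by
      rw [vmv_mul, e0_dot_eL L hL, zero_smul]
    unfold tv
    calc (1 + (d / θ) • vecMulVec (e F L L) (e F L 1)) * (1 + Nl F L)
        = (1 + Nl F L) + (d / θ) • vecMulVec (e F L L) (e F L 1) +
            (d / θ) • vecMulVec (e F L L) (e F L 0) := by
          rw [add_mul, one_mul, Matrix.smul_mul, hAJ, smul_add]
          abel
      _ = (1 + (d / θ) • vecMulVec (e F L L) (e F L 0)) * (1 + Nl F L) *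
            (1 + (d / θ) • vecMulVec (e F L L) (e F L 1)) := by
          rw [add_mul 1, one_mul, Matrix.smul_mul, hBJ, mul_add, mul_one, add_mul,
            Matrix.mul_smul, hJA, Matrix.smul_mul, Matrix.mul_smul, hBA, smul_zero, smul_zero,
            add_zero]
          abel
  have hx : (x : Matrix (Fin (L + 1)) (Fin (L + 1)) F) = tv (e F L L) (e F L 1) (d / θ) :=
    transvection_coe_tv hL1 _
  have hzc : (zS : Matrix (Fin (L + 1)) (Fin (L + 1)) F) = tv (e F L 0) (e F L L) 1 :=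
    transvection_coe_tv h0L 1
  have hrel : g₂ * jl F L * g₂⁻¹ = zS * u₁ := by
    rw [mul_inv_eq_iff_eq_mul]
    apply Subtype.ext
    show Gm L d θ * (x : Matrix (Fin (L + 1)) (Fin (L + 1)) F) * (1 + Nl F L) =
      (zS : Matrix (Fin (L + 1)) (Fin (L + 1)) F) * (u₁ : Matrix (Fin (L + 1)) (Fin (L + 1)) F) *
        (Gm L d θ * (x : Matrix (Fin (L + 1)) (Fin (L + 1)) F))
    rw [hx, hzc]
    calc Gm L d θ * tv (e F L L) (e F L 1) (d / θ) * (1 + Nl F L)
        = Gm L d θ * (tv (e F L L) (e F L 1) (d / θ) * (1 + Nl F L)) := by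
          rw [Matrix.mul_assoc]
      _ = Gm L d θ * (tv (e F L L) (e F L 0) (d / θ) * (1 + Nl F L) *
            tv (e F L L) (e F L 1) (d / θ)) := by rw [hZ2]
      _ = (Gm L d θ * tv (e F L L) (e F L 0) (d / θ)) * (1 + Nl F L) *
            tv (e F L L) (e F L 1) (d / θ) := by simp only [Matrix.mul_assoc]
      _ = tv (e F L 0) (e F L L) 1 * (Gm L d θ * (1 + Nl F L)) *
            tv (e F L L) (e F L 1) (d / θ) := by rw [hZ1]; simp only [Matrix.mul_assoc]
      _ = tv (e F L 0) (e F L L) 1 * ((u₁ : Matrix (Fin (L + 1)) (Fin (L + 1)) F) * Gm L d θ) *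
            tv (e F L L) (e F L 1) (d / θ) := by rw [hUG]
      _ = _ := by simp only [Matrix.mul_assoc]
  have hzS : zS ∈ H := by
    have h1 : zS = (g₂ * jl F L * g₂⁻¹) * u₁⁻¹ := by rw [hrel]; group
    rw [h1]; exact H.mul_mem hv (H.inv_mem hu)
  have hz : Hm H (tv (e F L 0) (e F L L) 1) := ⟨zS, hzS, hzc⟩
  exact gen_jl hL hj hz hu hu1 hu2 hu3 hθ


/-- Let F be a finite field and n ≥ 3. Then SL_n(F) is generated by three conjugate regular unipotent elements: there are u with u − 1 nilpotent and (u − 1)^(n−1) ≠ 0, and g, h, such that u, g u g⁻¹ and h u h⁻¹ generate SL_n(F). -/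
theorem result {F : Type*} [Field F] [Fintype F] (n : ℕ) (hn : 3 ≤ n) :
    ∃ u g h : Matrix.SpecialLinearGroup (Fin n) F, (IsNilpotent ((u : Matrix (Fin n) (Fin n) F) - 1) ∧ ((u : Matrix (Fin n) (Fin n) F) - 1) ^ (n - 1) ≠ 0) ∧
      Subgroup.closure ({u, g * u * g⁻¹, h * u * h⁻¹} : Set (Matrix.SpecialLinearGroup (Fin n) F)) = ⊤ := by
  obtain ⟨L, rfl⟩ : ∃ L, n = L + 1 := ⟨n - 1, by omega⟩
  have h := main (F := F) L (by omega)
  rw [Nat.add_sub_cancel]
  exact h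

end Cfsg.Agent.S2280
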