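import Cfsg.Statements.S2281
import Cfsg.Agent.Lib.Helper46.SpAbs
import Cfsg.Agent.Lib.Helper46.SpModel

set_option autoImplicit false
open Cfsg

namespace Cfsg.Agent.S2281

open Matrix
open Cfsg.Agent.Lib.Helper13
open Cfsg.Agent.Lib.Helper46.SLnJ Cfsg.Agent.Lib.Helper46.SpAbs Cfsg.Agent.Lib.Helper46.SpModel

variable {F : Type*} [Field F]

/-- transfer from linear equivalences to the matrix group -/
theorem transfer (m : ℕ) (U : symplecticGroup (Fin m) F)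
    (h : ∃ g₁ ∈ Symp.T (SympMat.form m F) (SympMat.form_alt m),
      ∃ g₂ ∈ Symp.T (SympMat.form m F) (SympMat.form_alt m),
      ∀ H : Subgroup ((Fin m ⊕ Fin m → F) ≃ₗ[F] (Fin m ⊕ Fin m → F)),
        H ≤ Symp.T (SympMat.form m F) (SympMat.form_alt m) → SympMat.Φ m U ∈ H →
        g₁ * SympMat.Φ m U * g₁⁻¹ ∈ H → g₂ * SympMat.Φ m U * g₂⁻¹ ∈ H →
        H = Symp.T (SympMat.form m F) (SympMat.form_alt m)) :
    ∃ G₁ G₂ : symplecticGroup (Fin m) F,
      Subgroup.closure ({U, G₁ * U * G₁⁻¹, G₂ * U * G₂⁻¹} : Set (symplecticGroup (Fin m) F)) = ⊤ := by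
  obtain ⟨g₁, hg₁, g₂, hg₂, hH⟩ := h
  rw [SympMat.T_eq] at hg₁ hg₂
  obtain ⟨G₁, -, rfl⟩ := hg₁
  obtain ⟨G₂, -, rfl⟩ := hg₂
  refine ⟨G₁, G₂, ?_⟩
  set Hm := Subgroup.closure ({U, G₁ * U * G₁⁻¹, G₂ * U * G₂⁻¹} : Set (symplecticGroup (Fin m) F))
    with hHm
  have h1 := hH (Hm.map (SympMat.Φ m))
    (by
      rintro _ ⟨A, -, rfl⟩
      exact SympMat.Φ_mem_T m A)
    (Subgroup.mem_map_of_mem _ (Subgroup.subset_closure (by simp)))
    (by
      rw [← map_inv, ← map_mul, ← map_mul]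
      exact Subgroup.mem_map_of_mem _ (Subgroup.subset_closure (by simp)))
    (by
      rw [← map_inv, ← map_mul, ← map_mul]
      exact Subgroup.mem_map_of_mem _ (Subgroup.subset_closure (by simp)))
  rw [eq_top_iff]
  intro A _
  have h2 : SympMat.Φ m A ∈ Hm.map (SympMat.Φ m) := by
    rw [h1]; exact SympMat.Φ_mem_T m A
  obtain ⟨A', hA', hAA'⟩ := h2
  rw [← SympMat.Φ_injective m hAA']
  exact hA'

variable [Fintype F]

theorem inv_mem_subring (S : Subring F) {a : F} (ha : a ∈ S) : a⁻¹ ∈ S := by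
  by_cases h0 : a = 0
  · rw [h0, _root_.inv_zero]; exact S.zero_mem
  · have h1 := FiniteField.pow_card_sub_one_eq_one a h0
    have h2 : 2 ≤ Fintype.card F := Fintype.one_lt_card
    have h3 : a⁻¹ = a ^ (Fintype.card F - 2) := by
      have e : Fintype.card F - 1 = (Fintype.card F - 2) + 1 := by omega
      rw [e, pow_succ] at h1
      exact inv_eq_of_mul_eq_one_left h1
    rw [h3]; exact S.pow_mem ha _

theorem exists_gen : ∃ θ : F, θ ≠ 0 ∧ ∀ y : F, y ≠ 0 → ∃ k : ℕ, y = θ ^ k := by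
  obtain ⟨g, hg⟩ := IsCyclic.exists_generator (α := Fˣ)
  refine ⟨g, g.ne_zero, ?_⟩
  intro y hy
  have h1 := hg (Units.mk0 y hy)
  rw [← mem_powers_iff_mem_zpowers] at h1
  obtain ⟨k, hk⟩ := h1
  refine ⟨k, ?_⟩
  have := congrArg (fun u : Fˣ => (u : F)) hk
  simpa using this.symm

omit [Fintype F] in
theorem sq_mem_of_gen (θ : F) (hθ : ∀ y : F, y ≠ 0 → ∃ k : ℕ, y = θ ^ k) (S : Subring F)
    (h : θ ^ 2 ∈ S) (y : F) : y ^ 2 ∈ S := by
  by_cases hy : y = 0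
  · rw [hy]; simp
  · obtain ⟨k, rfl⟩ := hθ y hy
    rw [← pow_mul, mul_comm, pow_mul]
    exact S.pow_mem h k

theorem gen_odd (h2 : (2 : F) ≠ 0) :
    ∃ θ : F, θ ≠ 0 ∧ ∀ S : Subring F, 2 * θ ^ 2 ∈ S → S = ⊤ := by
  obtain ⟨θ, hθ0, hθ⟩ := exists_gen (F := F)
  refine ⟨θ, hθ0, fun S hS => ?_⟩
  have h2S : (2 : F) ∈ S := by
    have : (2 : F) = 1 + 1 := by norm_num
    rw [this]; exact S.add_mem S.one_mem S.one_mem
  have h2i : (2 : F)⁻¹ ∈ S := inv_mem_subring S h2S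
  have hθ2 : θ ^ 2 ∈ S := by
    have : θ ^ 2 = (2 : F)⁻¹ * (2 * θ ^ 2) := by field_simp
    rw [this]; exact S.mul_mem h2i hS
  have hsq := sq_mem_of_gen θ hθ S hθ2
  rw [eq_top_iff]
  intro x _
  have : x = ((x + 1) * (2 : F)⁻¹) ^ 2 - ((x - 1) * (2 : F)⁻¹) ^ 2 := by
    field_simp; ring
  rw [this]
  exact S.sub_mem (hsq _) (hsq _)

theorem gen_even (h2 : (2 : F) = 0) :
    ∃ lam : F, lam ≠ 0 ∧ ∀ S : Subring F, lam ^ 2 ∈ S → S = ⊤ := by
  obtain ⟨θ, hθ0, hθ⟩ := exists_gen (F := F)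
  refine ⟨θ, hθ0, fun S hS => ?_⟩
  have hsq := sq_mem_of_gen θ hθ S hS
  rw [eq_top_iff]
  intro x _
  have hc : ringChar F = 2 :=
    CharP.ringChar_of_prime_eq_zero Nat.prime_two (by exact_mod_cast h2)
  obtain ⟨y, rfl⟩ := FiniteField.isSquare_of_char_two hc x
  rw [← sq]; exact hsq y

theorem exists_ne_zero_one (h : Fintype.card F ≠ 2) : ∃ r : F, r ≠ 0 ∧ r ≠ 1 := by
  classical
  by_contra hcon
  push Not at hcon
  have h1 : (Finset.univ : Finset F) ⊆ {0, 1} := by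
    intro x _
    by_cases hx : x = 0
    · simp [hx]
    · simp [hcon x hx]
  have h2 := Finset.card_le_card h1
  have h3 : ({0, 1} : Finset F).card ≤ 2 := Finset.card_le_two
  have h4 : 2 ≤ Fintype.card F := Fintype.one_lt_card
  rw [Finset.card_univ] at h2
  omega


/-- Let F be a finite field and n ≥ 2, excluding the case n = 2 with F of two elements (where the group is not quasisimple). Then the symplectic group Sp_2n(F) is generated by three conjugate regular unipotent elements: there are u ∈ Sp_2n(F) with u − 1 nilpotent and (u − 1)^(2n−1) ≠ 0, and g, h ∈ Sp_2n(F), such that u, g u g⁻¹ and h u h⁻¹ generate Sp_2n(F). -/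
theorem result {F : Type*} [Field F] [Fintype F] (n : ℕ) (hn : 2 ≤ n) (h22 : ¬ (n = 2 ∧ Fintype.card F = 2)) :
    ∃ u g h : Matrix.symplecticGroup (Fin n) F,
      IsNilpotent ((u : Matrix (Fin n ⊕ Fin n) (Fin n ⊕ Fin n) F) - 1) ∧
      ((u : Matrix (Fin n ⊕ Fin n) (Fin n ⊕ Fin n) F) - 1) ^ (2 * n - 1) ≠ 0 ∧
      Subgroup.closure ({u, g * u * g⁻¹, h * u * h⁻¹} : Set (Matrix.symplecticGroup (Fin n) F)) = ⊤ := by
  obtain ⟨L, rfl⟩ : ∃ L, n = L + 1 := ⟨n - 1, by omega⟩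
  have hL : 1 ≤ L := by omega
  suffices h : ∃ G₁ G₂ : symplecticGroup (Fin (L + 1)) F,
      Subgroup.closure ({Vm F L, G₁ * Vm F L * G₁⁻¹, G₂ * Vm F L * G₂⁻¹} :
        Set (symplecticGroup (Fin (L + 1)) F)) = ⊤ by
    obtain ⟨G₁, G₂, h⟩ := h
    exact ⟨Vm F L, G₁, G₂, Vm_nilpotent, Vm_pow_ne hL, h⟩
  apply transfer
  have hdim : Module.finrank F (Fin (L + 1) ⊕ Fin (L + 1) → F) = 2 * (L + 1) := by
    rw [Module.finrank_fintype_fun_eq_card]; simp; ring
  have hvT : vm F L ∈ Symp.T (SympMat.form (L + 1) F) (SympMat.form_alt (L + 1)) :=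
    SympMat.Φ_mem_T _ _
  change ∃ g₁ ∈ Symp.T (SympMat.form (L + 1) F) (SympMat.form_alt (L + 1)),
      ∃ g₂ ∈ Symp.T (SympMat.form (L + 1) F) (SympMat.form_alt (L + 1)),
      ∀ H : Subgroup ((Fin (L + 1) ⊕ Fin (L + 1) → F) ≃ₗ[F] (Fin (L + 1) ⊕ Fin (L + 1) → F)),
        H ≤ Symp.T (SympMat.form (L + 1) F) (SympMat.form_alt (L + 1)) → vm F L ∈ H →
        g₁ * vm F L * g₁⁻¹ ∈ H → g₂ * vm F L * g₂⁻¹ ∈ H →
        H = Symp.T (SympMat.form (L + 1) F) (SympMat.form_alt (L + 1))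
  by_cases h2 : (2 : F) = 0
  · by_cases hL2 : 2 ≤ L
    · obtain ⟨lam, hlam, hgen⟩ := gen_even h2
      have hκ : SympMat.form (L + 1) F (ir (e F L 1)) (ir (e F L 2)) = 0 := form_ir_ir _ _
      refine main_even (SympMat.form_alt (L + 1)) (SympMat.form_nondeg (L + 1)) h2 (L + 1) hn hdim
        hvT (pat_zero hL) (pat_ne hL) vm_b1 (vm_b2 hL) (vm_b3 hL2) (form_ir_ir _ _)
        (form_ir_ir _ _)
        (LinearMap.proj (Sum.inr ⟨0, by omega⟩)) (LinearMap.proj (Sum.inr ⟨1, by omega⟩))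
        (LinearMap.proj (Sum.inr ⟨2, by omega⟩))
        (by simp [ir, e]) (by simp [ir, e]) (by simp [ir, e]) (by simp [ir, e])
        (by simp [ir, e]) (by simp [ir, e]) (by simp [ir, e]) (by simp [ir, e])
        (by simp [ir, e]) hlam hgen (α := 1) (r := 1) one_ne_zero ?_ ?_
      · rw [hκ, pat_zero hL 2 (by omega) (by omega), mul_zero]
      · rw [hκ, mul_zero, add_zero]; exact one_ne_zero
    · obtain rfl : L = 1 := by omega
      obtain ⟨lam, hlam, hgen⟩ := gen_even h2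
      have hcard : Fintype.card F ≠ 2 := fun h => h22 ⟨rfl, h⟩
      obtain ⟨r, hr0, hr1⟩ := exists_ne_zero_one hcard
      have hκ : SympMat.form (1 + 1) F (ir (e F 1 1)) (-(il (e F 1 1) + ir (e F 1 1))) = -1 := by
        rw [map_neg, map_add, form_ir_il, form_ir_ir, add_zero]
        simp [e, dotProduct]
      have h13 : SympMat.form (1 + 1) F (ir (e F 1 0)) (-(il (e F 1 1) + ir (e F 1 1))) = 0 := by
        rw [map_neg, map_add, form_ir_il, form_ir_ir, add_zero]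
        simp [e, dotProduct]
      have hγ := pat_ne (F := F) (L := 1) le_rfl
      have hc : ringChar F = 2 :=
        CharP.ringChar_of_prime_eq_zero Nat.prime_two (by exact_mod_cast h2)
      obtain ⟨α, hα⟩ := FiniteField.isSquare_of_char_two hc
        (-(lam * SympMat.form (1 + 1) F (pv F 1) ((vm F 1 ^ (1 + 1)) (pv F 1)))⁻¹)
      have hα0 : α ≠ 0 := by
        rintro rfl
        rw [mul_zero, neg_eq_zero, inv_eq_zero] at hα
        exact mul_ne_zero hlam hγ hα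
      have hαeq : α ^ 2 * lam * SympMat.form (1 + 1) F (pv F 1) ((vm F 1 ^ (1 + 1)) (pv F 1))
          = -1 := by
        rw [sq, ← hα, neg_mul, neg_mul, mul_assoc, inv_mul_cancel₀ (mul_ne_zero hlam hγ)]
      refine main_even (B := SympMat.form (1 + 1) F) (SympMat.form_alt (1 + 1))
        (SympMat.form_nondeg (1 + 1)) h2 (1 + 1) hn hdim
        hvT (pat_zero hL) (pat_ne hL) vm_b1 (vm_b2 hL) vm_b3' (form_ir_ir _ _) h13
        (LinearMap.proj (Sum.inr 0))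
        ((LinearMap.proj (Sum.inr 1) : (Fin (1 + 1) ⊕ Fin (1 + 1) → F) →ₗ[F] F) -
          (LinearMap.proj (Sum.inl 1) : (Fin (1 + 1) ⊕ Fin (1 + 1) → F) →ₗ[F] F))
        (-(LinearMap.proj (Sum.inl 1) : (Fin (1 + 1) ⊕ Fin (1 + 1) → F) →ₗ[F] F))
        ?_ ?_ ?_ ?_ ?_ ?_ ?_ ?_ ?_ hlam hgen (α := α) (r := r) hα0 ?_ ?_
      · simp [ir, e]
      · simp [ir, e]
      · simp [ir, il, e]
      · simp [ir, il, e, LinearMap.sub_apply]
      · simp [ir, il, e, LinearMap.sub_apply]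
      · simp [ir, il, e, LinearMap.sub_apply]
      · simp [ir, il, e, LinearMap.neg_apply]
      · simp [ir, il, e, LinearMap.neg_apply]
      · simp [ir, il, e, LinearMap.neg_apply]
      · rw [hκ]; exact hαeq
      · rw [hκ]
        have : r + r ^ 2 * (-1 : F) = r * (1 - r) := by ring
        rw [this]
        exact mul_ne_zero hr0 (sub_ne_zero.mpr (Ne.symm hr1))
  · obtain ⟨θ, hθ0, hθ⟩ := gen_odd h2
    refine main_odd (B := SympMat.form (L + 1) F) (SympMat.form_alt (L + 1))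
      (SympMat.form_nondeg (L + 1)) h2 (L + 1) hn hdim
      hvT (pat_zero hL) (pat_ne hL) vm_b1 (vm_b2 hL) (form_ir_ir _ _)
      (LinearMap.proj (Sum.inr ⟨0, by omega⟩)) (LinearMap.proj (Sum.inr ⟨1, by omega⟩))
      ?_ ?_ ?_ ?_ hθ0 hθ
    · simp [ir, e]
    · simp [ir, e]
    · simp [ir, e]
    · simp [ir, e]

end Cfsg.Agent.S2281
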