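import Cfsg.Statements.S2283
import Mathlib
import Cfsg.Agent.Lib.Helper46.SU3JM
import Cfsg.Agent.Lib.Helper46.SU3Gen

set_option autoImplicit false
open Cfsg

namespace Cfsg.Agent.S2283

open Matrix Cfsg.Agent.Lib.Helper46.SU3J Cfsg.Agent.Lib.Helper46.SU3Field
open Cfsg.Agent.Lib.Helper46.SU3Gen

section Cases

variable {G : Type*} [Group G] {F : Type*} [Field F] [Fintype F] {φ : F →+* F}

theorem norm_surj {q : ℕ} (hF : Fintype.card F = q ^ 2) (hφ : ∀ x, φ x = x ^ q) (r : F)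
    (hr : r ≠ 0) (hr' : φ r = r) : ∃ c, c * φ c = r := by
  have h := Cfsg.Agent.Lib.Helper5.HermCount.card_norm_eq hF r hr (by rw [← hφ]; exact hr')
  have hne' : Nonempty {x : F // x * x ^ q = r} := by
    apply (Nat.card_pos_iff.mp _).1
    rw [h]
    omega
  obtain ⟨⟨x, hx⟩⟩ := hne'
  exact ⟨x, by rw [hφ]; exact hx⟩

theorem bad5 {r k : ℕ} (hk : 2 ≤ k) (hrk : r ^ k = 5 ^ 2) : r = 5 := by
  have hr : r ∣ 5 ^ 2 := by rw [← hrk]; exact dvd_pow_self r (by omega)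
  obtain ⟨j, hj, rfl⟩ := (Nat.dvd_prime_pow Nat.prime_five).mp hr
  rw [← pow_mul] at hrk
  have hjk : j * k = 2 := Nat.pow_right_injective (show 2 ≤ 5 by norm_num) hrk
  have hj1 : j = 1 := by
    interval_cases j
    · omega
    · rfl
    · omega
  rw [hj1]
  rfl

theorem bad8 {r k : ℕ} (hk : 2 ≤ k) (hrk : r ^ k = 8 ^ 2) : r = 2 ∨ r = 4 ∨ r = 8 := by
  have h8 : (8 : ℕ) ^ 2 = 2 ^ 6 := by norm_num
  rw [h8] at hrk
  have hr : r ∣ 2 ^ 6 := by rw [← hrk]; exact dvd_pow_self r (by omega)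
  obtain ⟨j, hj, rfl⟩ := (Nat.dvd_prime_pow Nat.prime_two).mp hr
  rw [← pow_mul] at hrk
  have hjk : j * k = 6 := Nat.pow_right_injective (le_refl 2) hrk
  have hj3 : j ≤ 3 := by nlinarith
  interval_cases j
  · omega
  · left; rfl
  · right; left; rfl
  · right; right; rfl

theorem case5 (hF : Fintype.card F = 5 ^ 2) (M : JModel G φ) (hφ : ∀ x, φ x = x ^ 5)
    (hinv : ∀ x, φ (φ x) = x) (htr : ∀ c, φ c = c → ∃ b, b + φ b = c) :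
    ∃ a₀ b₀ : F, a₀ ≠ 0 ∧ ∃ u g : G, M.mat u = uM φ a₀ b₀ ∧
      Subgroup.closure ({u, g * u * g⁻¹} : Set G) = ⊤ := by
  have h5 : (5 : F) = 0 := by
    have h := Nat.cast_card_eq_zero F
    rw [hF] at h
    push_cast at h
    have h' : (5 : F) ^ 2 = 0 := by exact_mod_cast h
    exact pow_eq_zero_iff (two_ne_zero) |>.mp h'
  have h2ne : (2 : F) ≠ 0 := by
    intro h
    exact one_ne_zero (by linear_combination h5 - 2 * h : (1 : F) = 0)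
  have hchar : ringChar F ≠ 2 := by
    intro h
    have h' := ringChar.Nat.cast_ringChar (R := F)
    rw [h] at h'
    exact h2ne (by exact_mod_cast h')
  obtain ⟨θ, hθ⟩ : ∃ θ : F, θ ^ 2 = 2 := by
    have hsq : IsSquare (2 : F) := by
      rw [FiniteField.isSquare_iff hchar h2ne, hF]
      norm_num
      linear_combination (819) * h5
    obtain ⟨θ, hθ⟩ := hsq
    exact ⟨θ, by rw [hθ]; ring⟩
  have hφθ : φ θ = -θ := by
    rw [hφ]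
    linear_combination (2*θ + θ^3) * hθ + (θ) * h5
  have hφnθ : φ (-θ) = θ := by rw [map_neg, hφθ, neg_neg]
  have hφb : φ (2 + θ) = 2 - θ := by rw [map_add, map_ofNat, hφθ]; ring
  have hφd : φ (1 + 3*θ) = 1 - 3*θ := by rw [map_add, map_mul, map_one, map_ofNat, hφθ]; ring
  have hφt : φ (2*θ) = -(2*θ) := by rw [map_mul, map_ofNat, hφθ]; ring
  have hθ0 : θ ≠ 0 := by
    intro h
    exact one_ne_zero (by linear_combination (3*θ) * h + (-3) * hθ + (-1) * h5 : (1 : F) = 0)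
  have ht0 : 2*θ ≠ 0 := mul_ne_zero h2ne hθ0
  have hd0 : 1 + 3*θ ≠ 0 := by
    intro h
    exact one_ne_zero
      (by linear_combination (2 + 4*θ) * h + (-12) * hθ + (-5 - 2*θ) * h5 : (1 : F) = 0)
  have hrelu : (2 + θ) + φ (2 + θ) + 1 * φ 1 = 0 := by
    rw [hφb, map_one]
    linear_combination (1) * h5
  have hrelv : (1 + 3*θ) + φ (1 + 3*θ) + θ * φ θ = 0 := by
    rw [hφd, hφθ]
    linear_combination (-1) * hθ
  have hct : θ * (2*θ) ^ 2 = φ (2*θ) * φ 1 := by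
    rw [hφt, map_one]
    linear_combination (4*θ) * hθ + (2*θ) * h5
  have s1 : vM φ (θ) (1 + 3*θ) *ᵥ ![1, 0, 0] = ![1, θ, 1 + 3*θ] := by
    rw [vM_mulVec' φ hφθ]
    apply vec3_ext
    · ring
    · ring
    · ring
  have s2 : vM φ (θ) (1 + 3*θ) *ᵥ ![1, θ, 1 + 3*θ] = ![1, 2*θ, 4 + θ] := by
    rw [vM_mulVec' φ hφθ]
    apply vec3_ext
    · ring
    · ring
    · linear_combination (1) * hθ + (θ) * h5
  have s3 : uM φ (1) (2 + θ) *ᵥ ![1, 2*θ, 4 + θ] = ![1 + 3*θ, 1 + θ, 4 + θ] := by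
    rw [uM_mulVec' φ (map_one φ)]
    apply vec3_ext
    · linear_combination (1) * hθ + (2 + θ) * h5
    · linear_combination (-1) * h5
    · ring
  have s4 : vM φ (-θ) (1 - 3*θ) *ᵥ ![1 + 3*θ, 1 + θ, 4 + θ] = ![1 + 3*θ, 0, 0] := by
    rw [vM_mulVec' φ hφnθ]
    apply vec3_ext
    · ring
    · linear_combination (-3) * hθ + (-1) * h5
    · linear_combination (-10) * hθ + (-3) * h5
  refine ⟨1, 2 + θ, one_ne_zero, ?_⟩
  apply core M hinv htr hrelu hrelv ht0 hct hθ0 hd0 (fun u v => v⁻¹ * u * v * v)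
    (fun L u v hu hv => L.mul_mem (L.mul_mem (L.mul_mem (L.inv_mem hv) hu) hv) hv) (σ := θ)
  · intro u v hu hv
    have hvi := M.mat_inv_v hinv hv
    rw [hφd] at hvi
    have hvec : M.mat (v⁻¹ * u * v * v) *ᵥ ![1, 0, 0] = ![1 + 3*θ, 0, 0] := by
      rw [map_mul, map_mul, map_mul, hu, hv, hvi, ← Matrix.mulVec_mulVec, ← Matrix.mulVec_mulVec,
        ← Matrix.mulVec_mulVec, s1, s2, s3, s4]
    refine ⟨?_, ?_, ?_⟩
    · exact (col_zero _ 1).trans (by rw [hvec]; rfl)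
    · exact (col_zero _ 2).trans (by rw [hvec]; rfl)
    · have h00 : M.mat (v⁻¹ * u * v * v) 0 0 = 1 + 3*θ :=
        (col_zero _ 0).trans (by rw [hvec]; rfl)
      rw [h00, hφd]
      linear_combination (-12) * hθ + (-5 - θ) * h5
  · intro A hA0 hAσ
    refine field_span hF A hA0 one_ne_zero hAσ ?_
    intro r k hk hrk h
    have hr := bad5 hk hrk
    rw [hr] at h
    exact one_ne_zero
      (by linear_combination (θ) * h + (-3 - 2*θ^2 - θ^4) * hθ + (-1) * h5 : (1 : F) = 0)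

theorem exists_omega_zeta (hF : Fintype.card F = 8 ^ 2) (h2 : (2 : F) = 0) :
    ∃ ω ζ : F, ω ^ 2 = ω + 1 ∧ ζ ^ 3 = ζ + 1 := by
  classical
  obtain ⟨g, hg⟩ := IsCyclic.exists_ofOrder_eq_natCard (α := Fˣ)
  have hcard : Nat.card Fˣ = 63 := by
    rw [Nat.card_units, Nat.card_eq_fintype_card, hF]
    norm_num
  have hord : orderOf (g : F) = 63 := by rw [orderOf_units, hg, hcard]
  have hg0 : (g : F) ≠ 0 := g.ne_zero
  have h63 : (g : F) ^ 63 = 1 := by rw [← hord]; exact pow_orderOf_eq_one _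
  have hω : ((g : F) ^ 21) ^ 2 = (g : F) ^ 21 + 1 := by
    have hne : (g : F) ^ 21 - 1 ≠ 0 := by
      intro h
      have h1 : (g : F) ^ 21 = 1 := by linear_combination h
      have := orderOf_dvd_of_pow_eq_one h1
      rw [hord] at this
      omega
    have hmul : ((g : F) ^ 21 - 1) * (((g : F) ^ 21) ^ 2 - ((g : F) ^ 21 + 1)) = 0 := by
      linear_combination h63 - (((g : F) ^ 21) ^ 2 - 1) * h2
    rcases mul_eq_zero.mp hmul with h | h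
    · exact absurd h hne
    · linear_combination h
  refine ⟨(g : F) ^ 21, ?_⟩
  obtain ⟨y, hy⟩ : ∃ y : F, y = (g : F) ^ 9 := ⟨_, rfl⟩
  have hy0 : y ≠ 0 := by rw [hy]; exact pow_ne_zero _ hg0
  have hy7 : y ^ 7 = 1 := by rw [hy, ← pow_mul]; exact h63
  have hne : y - 1 ≠ 0 := by
    intro h
    have h1 : (g : F) ^ 9 = 1 := by rw [← hy]; linear_combination h
    have := orderOf_dvd_of_pow_eq_one h1
    rw [hord] at this
    omega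
  have hmul : (y - 1) * ((y ^ 3 - (y + 1)) * (y ^ 3 + y ^ 2 + 1)) = 0 := by
    linear_combination hy7 - (y ^ 5 - 1) * h2
  rcases mul_eq_zero.mp hmul with h | h
  · exact absurd h hne
  rcases mul_eq_zero.mp h with h | h
  · exact ⟨y, hω, by linear_combination h⟩
  · refine ⟨y⁻¹, hω, ?_⟩
    field_simp
    linear_combination -h + h2

theorem case8 (hF : Fintype.card F = 8 ^ 2) (M : JModel G φ) (hφ : ∀ x, φ x = x ^ 8)
    (hinv : ∀ x, φ (φ x) = x) (htr : ∀ c, φ c = c → ∃ b, b + φ b = c) :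
    ∃ a₀ b₀ : F, a₀ ≠ 0 ∧ ∃ u g : G, M.mat u = uM φ a₀ b₀ ∧
      Subgroup.closure ({u, g * u * g⁻¹} : Set G) = ⊤ := by
  have h2 : (2 : F) = 0 := by
    have h := Nat.cast_card_eq_zero F
    rw [hF] at h
    have h' : (2 : F) ^ 6 = 0 := by
      have : ((8 ^ 2 : ℕ) : F) = (2 : F) ^ 6 := by norm_num
      rw [← this]; exact h
    exact pow_eq_zero_iff (by norm_num) |>.mp h'
  obtain ⟨ω, ζ, hω, hζ⟩ := exists_omega_zeta hF h2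
  have hφω : φ ω = ω + 1 := by
    rw [hφ]
    linear_combination (13 + 8*ω + 5*ω^2 + 3*ω^3 + 2*ω^4 + ω^5 + ω^6) * hω + (6 + 10*ω) * h2
  have hφζ : φ ζ = ζ := by
    rw [hφ]
    linear_combination (2 + ζ + ζ^2 + ζ^3 + ζ^5) * hζ + (1 + ζ + ζ^2) * h2
  have hφc : φ (ζ + ζ^2) = ζ + ζ^2 := by rw [map_add, map_pow, hφζ]
  have hφnc : φ (-(ζ + ζ^2)) = -(ζ + ζ^2) := by rw [map_neg, hφc]
  have hφn1 : φ (-1) = -1 := by rw [map_neg, map_one]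
  have hφb : φ (1 + ζ + ω) = ζ + ω := by
    rw [map_add, map_add, map_one, hφζ, hφω]
    linear_combination h2
  have hφd : φ (1 + ζ + ω*ζ) = 1 + ω*ζ := by
    rw [map_add, map_add, map_mul, map_one, hφζ, hφω]
    linear_combination ζ * h2
  have hφt : φ (1 + ζ) = 1 + ζ := by rw [map_add, map_one, hφζ]
  have hc0 : ζ + ζ^2 ≠ 0 := by
    intro h
    exact one_ne_zero
      (by linear_combination (1 + ζ) * h + (-1) * hζ + (-ζ - ζ^2) * h2 : (1 : F) = 0)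
  have ht0 : 1 + ζ ≠ 0 := by
    intro h
    exact one_ne_zero
      (by linear_combination (ζ + ζ^2) * h + (-1) * hζ + (-ζ - ζ^2) * h2 : (1 : F) = 0)
  have hd0 : 1 + ζ + ω*ζ ≠ 0 := by
    intro h
    exact one_ne_zero
      (by linear_combination (ω + ζ^2 + ω*ζ) * h + (-ζ - ζ^2) * hω + (-1 - ω) * hζ + (-ζ - ω - ζ^2 - 2*ω*ζ - ω*ζ^2) * h2 : (1 : F) = 0)
  have hrelu : (1 + ζ + ω) + φ (1 + ζ + ω) + 1 * φ 1 = 0 := by
    rw [hφb, map_one]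
    linear_combination (1 + ζ + ω) * h2
  have hrelv : (1 + ζ + ω*ζ) + φ (1 + ζ + ω*ζ) + (ζ + ζ^2) * φ (ζ + ζ^2) = 0 := by
    rw [hφd, hφc]
    linear_combination (2 + ζ) * hζ + (2 + 2*ζ + ζ^2 + ω*ζ) * h2
  have hct : (ζ + ζ^2) * (1 + ζ) ^ 2 = φ (1 + ζ) * φ 1 := by
    rw [hφt, map_one]
    linear_combination (3 + ζ) * hζ + (1 + 2*ζ + 2*ζ^2) * h2
  have s1 : vM φ (ζ + ζ^2) (1 + ζ + ω*ζ) *ᵥ ![1, 0, 0] = ![1, ζ + ζ^2, 1 + ζ + ω*ζ] := by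
    rw [vM_mulVec' φ hφc]
    apply vec3_ext
    · ring
    · ring
    · ring
  have s2 : uM φ (-1) (ζ + ω) *ᵥ ![1, ζ + ζ^2, 1 + ζ + ω*ζ] = ![1 + ζ + ω + ω*ζ^2, 1 + ζ^2 + ω*ζ, 1 + ζ + ω*ζ] := by
    rw [uM_mulVec' φ hφn1]
    apply vec3_ext
    · linear_combination (ζ) * hω + (ω*ζ) * h2
    · linear_combination (ζ) * h2
    · ring
  have s3 : vM φ (ζ + ζ^2) (1 + ζ + ω*ζ) *ᵥ ![1 + ζ + ω + ω*ζ^2, 1 + ζ^2 + ω*ζ, 1 + ζ + ω*ζ] = ![1 + ζ + ω + ω*ζ^2, ω + ζ^2, ζ^2 + ω*ζ + ω*ζ^2] := by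
    rw [vM_mulVec' φ hφc]
    apply vec3_ext
    · ring
    · linear_combination (1 + ω + ω*ζ) * hζ + (1 + ζ + ζ^2 + 2*ω*ζ + ω*ζ^2) * h2
    · linear_combination (ζ + ζ^3) * hω + (-ζ + ω) * hζ + (1 + ζ + ω - ζ^2 + 2*ω*ζ) * h2
  have s4 : uM φ (-1) (ζ + ω) *ᵥ ![1 + ζ + ω + ω*ζ^2, ω + ζ^2, ζ^2 + ω*ζ + ω*ζ^2] = ![ζ + ω, ω + ω*ζ + ω*ζ^2, ζ^2 + ω*ζ + ω*ζ^2] := by
    rw [uM_mulVec' φ hφn1]
    apply vec3_ext
    · linear_combination (ζ + ζ^2) * hω + (1 + ω) * hζ + (1 + ζ + ω*ζ + 2*ω*ζ^2) * h2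
    · linear_combination (ζ^2) * h2
    · ring
  have s5 : uM φ (-1) (ζ + ω) *ᵥ ![ζ + ω, ω + ω*ζ + ω*ζ^2, ζ^2 + ω*ζ + ω*ζ^2] = ![1 + ζ + ω + ζ^2 + ω*ζ, ω + ζ^2, ζ^2 + ω*ζ + ω*ζ^2] := by
    rw [uM_mulVec' φ hφn1]
    apply vec3_ext
    · linear_combination (ζ + ζ^2) * hω + (1 + ω) * hζ + (ζ + ω*ζ^2) * h2
    · linear_combination (ω*ζ + ω*ζ^2) * h2
    · ring
  have s6 : vM φ (-(ζ + ζ^2)) (1 + ω*ζ) *ᵥ ![1 + ζ + ω + ζ^2 + ω*ζ, ω + ζ^2, ζ^2 + ω*ζ + ω*ζ^2] = ![1 + ζ + ω + ζ^2 + ω*ζ, 0, 0] := by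
    rw [vM_mulVec' φ hφnc]
    apply vec3_ext
    · ring
    · linear_combination (-2 - ζ - ω) * hζ + (-1 - 2*ζ - ζ^2 - ω*ζ - ω*ζ^2) * h2
    · linear_combination (ζ + ζ^2) * hω + (1 + ζ + ω) * hζ + (1 + 2*ζ + ω + 2*ζ^2 + 3*ω*ζ + 2*ω*ζ^2) * h2
  refine ⟨1, 1 + ζ + ω, one_ne_zero, ?_⟩
  apply core M hinv htr hrelu hrelv ht0 hct hc0 hd0 (fun u v => v⁻¹ * u⁻¹ * u⁻¹ * v * u⁻¹ * v)
    (fun L u v hu hv => L.mul_mem (L.mul_mem (L.mul_mem (L.mul_mem (L.mul_mem (L.inv_mem hv)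
      (L.inv_mem hu)) (L.inv_mem hu)) hv) (L.inv_mem hu)) hv) (σ := ω*ζ)
  · intro u v hu hv
    have hvi := M.mat_inv_v hinv hv
    rw [hφd] at hvi
    have hui := M.mat_inv_u hinv hu
    rw [hφb] at hui
    have hvec : M.mat (v⁻¹ * u⁻¹ * u⁻¹ * v * u⁻¹ * v) *ᵥ ![1, 0, 0] =
        ![1 + ζ + ω + ζ^2 + ω*ζ, 0, 0] := by
      rw [map_mul, map_mul, map_mul, map_mul, map_mul, hui, hv, hvi, ← Matrix.mulVec_mulVec,
        ← Matrix.mulVec_mulVec, ← Matrix.mulVec_mulVec, ← Matrix.mulVec_mulVec,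
        ← Matrix.mulVec_mulVec, s1, s2, s3, s4, s5, s6]
    refine ⟨?_, ?_, ?_⟩
    · exact (col_zero _ 1).trans (by rw [hvec]; rfl)
    · exact (col_zero _ 2).trans (by rw [hvec]; rfl)
    · have h00 : M.mat (v⁻¹ * u⁻¹ * u⁻¹ * v * u⁻¹ * v) 0 0 = 1 + ζ + ω + ζ^2 + ω*ζ :=
        (col_zero _ 0).trans (by rw [hvec]; rfl)
      have hφs : φ (1 + ζ + ω + ζ^2 + ω*ζ) = 2 + 2*ζ + ω + ζ^2 + ω*ζ := by
        simp only [map_add, map_mul, map_pow, map_one, hφζ, hφω]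
        ring
      rw [h00, hφs]
      linear_combination (-1 - ζ) * hω + (-2 - ζ - ω) * hζ + (-2 - 3*ζ - 2*ω - 2*ζ^2 - 2*ω*ζ - ω*ζ^2) * h2
  · intro A hA0 hAσ
    refine field_span hF A hA0 one_ne_zero hAσ ?_
    intro r k hk hrk h
    rcases bad8 hk hrk with hr | hr | hr
    · rw [hr] at h
      exact one_ne_zero
        (by linear_combination (ζ + ω*ζ + ω*ζ^2) * h + (ζ^2 - ζ^3 - ζ^4 - ω*ζ^3 - ω*ζ^4) * hω + (-1 - ζ - 2*ω - 2*ω*ζ) * hζ + (-ζ - ω - 2*ω*ζ) * h2 : (1 : F) = 0)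
    · rw [hr] at h
      exact one_ne_zero
        (by linear_combination (1 + ζ + ω + ζ^2 + ω*ζ + ω*ζ^2) * h + (ζ + ζ^2 + ζ^3 - 5*ζ^4 - 5*ζ^5 - 3*ω*ζ^4 - 5*ζ^6 - 3*ω*ζ^5 - 2*ω^2*ζ^4 - 3*ω*ζ^6 - 2*ω^2*ζ^5 - ω^3*ζ^4 - 2*ω^2*ζ^6 - ω^3*ζ^5 - ω^3*ζ^6) * hω + (-9 - 10*ζ - 14*ω - 5*ζ^2 - 16*ω*ζ - 5*ζ^3 - 8*ω*ζ^2 - 8*ω*ζ^3) * hζ + (-4 - 9*ζ - 7*ω - 7*ζ^2 - 14*ω*ζ - 11*ω*ζ^2) * h2 : (1 : F) = 0)
    · rw [hr] at h
      exact one_ne_zero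
        (by linear_combination (1 + ζ^2) * h + (-13*ζ^8 - 8*ω*ζ^8 - 13*ζ^10 - 5*ω^2*ζ^8 - 8*ω*ζ^10 - 3*ω^3*ζ^8 - 5*ω^2*ζ^10 - 2*ω^4*ζ^8 - 3*ω^3*ζ^10 - ω^5*ζ^8 - 2*ω^4*ζ^10 - ω^6*ζ^8 - ω^5*ζ^10 - ω^6*ζ^10) * hω + (-65 - 39*ζ - 104*ω - 39*ζ^2 - 63*ω*ζ - 26*ζ^3 - 63*ω*ζ^2 - 13*ζ^4 - 42*ω*ζ^3 - 26*ζ^5 - 21*ω*ζ^4 - 42*ω*ζ^5 - 13*ζ^7 - 21*ω*ζ^7) * hζ + (-32 - 52*ζ - 52*ω - 39*ζ^2 - 83*ω*ζ - 63*ω*ζ^2) * h2 : (1 : F) = 0)

end Cases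


/-- Let F be a field with q² elements, q ≥ 3, and SU_3(q) the special unitary group of the standard Hermitian form. Then SU_3(q) is generated by two conjugate regular unipotent elements: there are u ∈ SU_3(q) with u − 1 nilpotent and (u − 1)² ≠ 0, and g ∈ SU_3(q), such that u and g u g⁻¹ generate SU_3(q). -/
theorem result {F : Type*} [Field F] [Fintype F] (q : ℕ) (hq : 3 ≤ q) (hF : Fintype.card F = q ^ 2) :
    ∃ u g : ↥(Cfsg.SU 3 F q), (IsNilpotent (((u : Matrix.SpecialLinearGroup (Fin 3) F) : Matrix (Fin 3) (Fin 3) F) - 1) ∧ (((u : Matrix.SpecialLinearGroup (Fin 3) F) : Matrix (Fin 3) (Fin 3) F) - 1) ^ (3 - 1) ≠ 0) ∧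
      Subgroup.closure ({u, g * u * g⁻¹} : Set ↥(Cfsg.SU 3 F q)) = ⊤ := by
  obtain ⟨φ, M, P, Q, hφ, hinv, htr, hPQ, hQP, hmat⟩ :=
    Cfsg.Agent.Lib.Helper46.SU3JM.exists_model hF (show q ≠ 2 by omega)
  have key : ∃ a₀ b₀ : F, a₀ ≠ 0 ∧ ∃ u g : ↥(Cfsg.SU 3 F q), M.mat u = uM φ a₀ b₀ ∧
      Subgroup.closure ({u, g * u * g⁻¹} : Set ↥(Cfsg.SU 3 F q)) = ⊤ := by
    by_cases hq5 : q = 5
    · subst hq5
      exact case5 hF M hφ hinv htr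
    by_cases hq8 : q = 8
    · subst hq8
      exact case8 hF M hφ hinv htr
    exact generic_case hF hq hq5 hq8 M hφ hinv htr (norm_surj hF hφ)
  obtain ⟨a₀, b₀, ha₀, u, g, hu, hcl⟩ := key
  exact ⟨u, g, regular_of φ hPQ hQP ha₀ (by rw [hmat u, hu]), hcl⟩

end Cfsg.Agent.S2283
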