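import Cfsg.Statements.S2286
-- import your own Cfsg.Agent.* helpers here
import Cfsg.Agent.Lib.Helper98.PresFin

set_option autoImplicit false
open Cfsg

namespace Cfsg.Agent.S2286

/-- For every finite field F, SL_2(F) and PSL_2(F) have presentations with 3 generators and at most 9 relations; when F has characteristic 2, PSL_2(F) has a presentation with 3 generators and at most 5 relations. -/
theorem result {F : Type*} [Field F] [Fintype F] :
    (∃ rels : Finset (FreeGroup (Fin 3)), rels.card ≤ 9 ∧ Nonempty (PresentedGroup (↑rels : Set (FreeGroup (Fin 3))) ≃* Matrix.SpecialLinearGroup (Fin 2) F)) ∧ (∃ rels : Finset (FreeGroup (Fin 3)), rels.card ≤ 9 ∧ Nonempty (PresentedGroup (↑rels : Set (FreeGroup (Fin 3))) ≃* Matrix.ProjectiveSpecialLinearGroup (Fin 2) F)) ∧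
    (CharP F 2 → ∃ rels : Finset (FreeGroup (Fin 3)), rels.card ≤ 5 ∧ Nonempty (PresentedGroup (↑rels : Set (FreeGroup (Fin 3))) ≃* Matrix.ProjectiveSpecialLinearGroup (Fin 2) F)) := by
  obtain ⟨p, hchar⟩ := CharP.exists F
  haveI := hchar
  haveI : Fact p.Prime := ⟨CharP.char_is_prime F p⟩
  by_cases hp2 : p = 2
  · subst hp2
    obtain ⟨rels, hcard, ⟨eS⟩⟩ := Cfsg.Agent.Lib.Helper98.PresFin.even_pres (F := F)
    exact ⟨⟨rels, le_trans hcard (by norm_num), ⟨eS⟩⟩,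
      ⟨rels, le_trans hcard (by norm_num),
        ⟨eS.trans Cfsg.Agent.Lib.Helper98.PresFin.pslEquiv.symm⟩⟩,
      fun _ => ⟨rels, hcard, ⟨eS.trans Cfsg.Agent.Lib.Helper98.PresFin.pslEquiv.symm⟩⟩⟩
  · obtain ⟨r1, h1, e1⟩ := Cfsg.Agent.Lib.Helper98.PresFin.odd_pres_SL (F := F) p hp2
    obtain ⟨r2, h2, e2⟩ := Cfsg.Agent.Lib.Helper98.PresFin.odd_pres_PSL (F := F) p hp2
    exact ⟨⟨r1, h1, e1⟩, ⟨r2, h2, e2⟩, fun h2' => absurd (CharP.eq F hchar h2') hp2⟩

end Cfsg.Agent.S2286
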