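import Cfsg.Statements.S2332
import Cfsg.Agent.Lib.Helper39.SLMinMain

set_option autoImplicit false
open Cfsg

namespace Cfsg.Agent.S2332

/-- Smallest degree of a non-linear irreducible complex representation of SL_n over a finite field with q elements, for n ≥ 3 and (n, q) not one of (3, 2), (3, 4), (4, 2), (4, 3): every irreducible complex representation of SL_n(F) of degree at least 2 has degree at least (q^n − q)/(q − 1), and there is an irreducible complex representation of exactly that degree. -/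
theorem result {F : Type*} [Field F] [Fintype F] [DecidableEq F] (n : ℕ) (hn : 3 ≤ n)
    (hex : (n, Fintype.card F) ≠ (3, 2) ∧ (n, Fintype.card F) ≠ (3, 4) ∧ (n, Fintype.card F) ≠ (4, 2) ∧ (n, Fintype.card F) ≠ (4, 3)) :
    (∀ (k : ℕ) (ρ : Representation ℂ (Matrix.SpecialLinearGroup (Fin n) F) (Fin k → ℂ)), ρ.IsIrreducible → 2 ≤ k → (Fintype.card F ^ n - Fintype.card F) / (Fintype.card F - 1) ≤ k) ∧
    (∃ ρ : Representation ℂ (Matrix.SpecialLinearGroup (Fin n) F) (Fin ((Fintype.card F ^ n - Fintype.card F) / (Fintype.card F - 1)) → ℂ), ρ.IsIrreducible) := by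
  obtain ⟨m, rfl⟩ : ∃ m, n = m + 3 := ⟨n - 3, by omega⟩
  have hq2 : 2 ≤ Fintype.card F := Fintype.one_lt_card
  rw [Cfsg.Agent.Lib.Helper39.SLMinArith.div_eq (Fintype.card F) (m + 3) hq2 (by omega)]
  have hex' : ¬ (m + 3 = 3 ∧ (Fintype.card F = 2 ∨ Fintype.card F = 4)) ∧
      ¬ (m + 3 = 4 ∧ (Fintype.card F = 2 ∨ Fintype.card F = 3)) := by
    obtain ⟨h1, h2, h3, h4⟩ := hex
    constructor
    · rintro ⟨hm, hq | hq⟩
      · exact h1 (by rw [hm, hq])
      · exact h2 (by rw [hm, hq])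
    · rintro ⟨hm, hq | hq⟩
      · exact h3 (by rw [hm, hq])
      · exact h4 (by rw [hm, hq])
  exact ⟨fun k ρ hirr hk => Cfsg.Agent.Lib.Helper39.SLMinMain.lower m hex' k ρ hirr hk,
    Cfsg.Agent.Lib.Helper39.SLMinMain.exists_rep m⟩

end Cfsg.Agent.S2332
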