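import Cfsg.Statements.S2334
import Cfsg.Agent.Lib.Helper39.LSOdd

set_option autoImplicit false
open Cfsg

namespace Cfsg.Agent.S2334

theorem result {F : Type*} [Field F] [Fintype F] [DecidableEq F] (n q : ℕ) (hn : 3 ≤ n) (hodd : Odd n) (hF : Fintype.card F = q ^ 2) (hex : (n, q) ≠ (3, 2)) :
    (∀ (k : ℕ) (ρ : Representation ℂ (Cfsg.SU n F q) (Fin k → ℂ)), ρ.IsIrreducible → 2 ≤ k → (q ^ n - q) / (q + 1) ≤ k) := by
  intro k ρ hirr hk
  exact Cfsg.Agent.Lib.Helper39.LSOdd.odd_bound n q hn hodd hF hex k ρ hirr hk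

end Cfsg.Agent.S2334
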