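import Cfsg.Statements.S2347
import Cfsg.Agent.Lib.Helper39.LSSpOdd
import Cfsg.Agent.Lib.Helper39.WeilIrr

set_option autoImplicit false
open Cfsg

namespace Cfsg.Agent.S2347

/-- Smallest degree of a non-linear irreducible complex representation of the symplectic group Sp_{2n} over a finite field of odd order q, n ≥ 2: every irreducible complex representation of degree at least 2 has degree at least (q^n − 1)/2, and there is an irreducible complex representation of exactly that degree (a Weil representation). -/
theorem result {F : Type*} [Field F] [Fintype F] [DecidableEq F] (n : ℕ) (hn : 2 ≤ n) (hodd : Odd (Fintype.card F)) :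
    (∀ (k : ℕ) (ρ : Representation ℂ (Matrix.symplecticGroup (Fin n) F) (Fin k → ℂ)), ρ.IsIrreducible → 2 ≤ k → (Fintype.card F ^ n - 1) / 2 ≤ k) ∧
    (∃ ρ : Representation ℂ (Matrix.symplecticGroup (Fin n) F) (Fin ((Fintype.card F ^ n - 1) / 2) → ℂ), ρ.IsIrreducible) := by
  exact ⟨fun k ρ hirr hk => Cfsg.Agent.Lib.Helper39.LSSpOdd.sp_odd_bound n hn hodd k ρ hirr hk,
    Cfsg.Agent.Lib.Helper39.WeilIrr.weil_exists n (by omega)
      (Cfsg.Agent.Lib.Helper39.LSSpOdd.two_ne_zero_of_odd hodd)⟩

end Cfsg.Agent.S2347
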