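-- Statement S2352: a nontrivial word is a law in only finitely many alternating groups.
import Cfsg.Statements.S2352
import Cfsg.Agent.Lib.Helper39.FreeGroupPerm

set_option autoImplicit false
open Cfsg

namespace Cfsg.Agent.S2352

open Cfsg.Agent.Lib.Helper39.FreeGroupPerm

/-- A non-trivial law holds in only finitely many alternating groups: for every non-trivial element w of the free group on countably many generators there is N such that for all n ≥ N some substitution of elements of the alternating group of degree n into w is not the identity. -/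
theorem result (w : FreeGroup ℕ) (hw : w ≠ 1) :
    ∃ N : ℕ, ∀ n : ℕ, N ≤ n → ∃ f : ℕ → alternatingGroup (Fin n), FreeGroup.lift f w ≠ 1 := by
  obtain ⟨k, f₀, hf₀⟩ := exists_perm_lift_ne_one w hw
  refine ⟨2 * k, fun n hn => ?_⟩
  obtain ⟨φ, hφ⟩ := exists_hom_alternating k n hn
  refine ⟨fun a => φ (f₀ a), ?_⟩
  have hcomp : FreeGroup.lift (fun a => φ (f₀ a)) = φ.comp (FreeGroup.lift f₀) := by
    apply FreeGroup.ext_hom
    intro a
    simp
  rw [hcomp, MonoidHom.comp_apply]
  intro h
  apply hf₀
  apply hφ
  rw [h, map_one]

end Cfsg.Agent.S2352
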