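import Cfsg.Statements.S2353
import Cfsg.Agent.Lib.Helper39.PSL2Law

set_option autoImplicit false
open Cfsg

namespace Cfsg.Agent.S2353

open Cfsg.Agent.Lib.Helper39.PSL2Law Polynomial

/-- A non-trivial law holds in PSL_2 over only finitely many finite fields: for every non-trivial element w of the free group on countably many generators there is N such that over every finite field with at least N elements some substitution of elements of PSL_2 into w is not the identity. -/
theorem result (w : FreeGroup ℕ) (hw : w ≠ 1) :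
    ∃ N : ℕ, ∀ (F : Type*) [Field F] [Fintype F], N ≤ Fintype.card F →
      ∃ f : ℕ → Matrix.ProjectiveSpecialLinearGroup (Fin 2) F, FreeGroup.lift f w ≠ 1 := by
  refine ⟨3 * bound w.toWord + 1, ?_⟩
  intro F _ _ hcard
  obtain ⟨t₀, a, b, h0, h1, h2⟩ := exists_eval (F := F) w hw (by omega)
  let φ : Matrix.SpecialLinearGroup (Fin 2) F[X] →* Matrix.SpecialLinearGroup (Fin 2) F :=
    Matrix.SpecialLinearGroup.map (Polynomial.evalRingHom t₀)
  let π : Matrix.SpecialLinearGroup (Fin 2) F →* Matrix.ProjectiveSpecialLinearGroup (Fin 2) F :=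
    QuotientGroup.mk' _
  refine ⟨fun i => π (φ (cSL F i)), ?_⟩
  have hlift : FreeGroup.lift (fun i => π (φ (cSL F i))) =
      π.comp (φ.comp (FreeGroup.lift (cSL F))) := by
    ext i
    simp
  rw [hlift]
  intro h
  have hmem : φ (FreeGroup.lift (cSL F) w) ∈
      Subgroup.center (Matrix.SpecialLinearGroup (Fin 2) F) := by
    have : π (φ (FreeGroup.lift (cSL F) w)) = 1 := h
    exact (QuotientGroup.eq_one_iff _).mp this
  obtain ⟨r, hr, hscal⟩ := Matrix.SpecialLinearGroup.mem_center_iff.mp hmem
  have hentry : (φ (FreeGroup.lift (cSL F) w) : Matrix (Fin 2) (Fin 2) F) a b =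
      ((FreeGroup.lift (cSL F) w : Matrix.SpecialLinearGroup (Fin 2) F[X]) a b).eval t₀ := rfl
  have hr2 : r = 1 ∨ r = -1 := by
    rw [Fintype.card_fin] at hr
    exact sq_eq_one_iff.mp hr
  have hval := congrFun (congrFun hscal a) b
  rw [hentry] at hval
  by_cases hab : a = b
  · subst hab
    simp only [Matrix.scalar_apply, Matrix.diagonal_apply_eq] at hval
    rcases hr2 with hr2 | hr2
    · exact h1 (by rw [← hval, hr2])
    · exact h2 (by rw [← hval, hr2])
  · simp only [Matrix.scalar_apply, Matrix.diagonal_apply_ne _ hab] at hval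
    exact h0 hval.symm

end Cfsg.Agent.S2353
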