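import Cfsg.Statements.S2355
import Cfsg.Agent.Lib.Helper39.LawFam

set_option autoImplicit false
open Cfsg

namespace Cfsg.Agent.S2355

open Cfsg.Agent.Lib.Helper39.Law Cfsg.Agent.Lib.Helper39.LawEmb Cfsg.Agent.Lib.Helper39.LawSU
  Cfsg.Agent.Lib.Helper39.LawFam

theorem omega_val_injective {F : Type*} [Field F] {ι : Type} [Fintype ι] [DecidableEq ι]
    (Q : (ι → F) → F) :
    Function.Injective (fun g : ↥(Cfsg.Omega F Q) =>
      (((g : ↥(Cfsg.isometryGroup F Q)) : Matrix.GeneralLinearGroup ι F) : Matrix ι ι F)) := by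
  intro a b hab
  apply Subtype.ext
  apply Subtype.ext
  exact Units.ext hab

/-- A non-trivial law is satisfied by only finitely many finite simple groups that are alternating or classical, up to isomorphism: for every non-trivial element w of the free group on countably many generators there is a bound N such that every alternating group of degree ≥ 5 and every simple classical group (linear, symplectic, unitary or orthogonal, in this problem's sense) in which w is a law has order at most N. -/
theorem result (w : FreeGroup ℕ) (hw : w ≠ 1) :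
    ∃ N : ℕ, ∀ (G : Type*) [Group G] [Finite G],
      (Cfsg.IsAlternating G ∨ Cfsg.IsPSL G ∨ Cfsg.IsPSp G ∨ Cfsg.IsPSU G ∨ Cfsg.IsPOmegaOdd G ∨
          Cfsg.IsPOmegaPlus G ∨ Cfsg.IsPOmegaMinus G) →
      (∀ f : ℕ → G, FreeGroup.lift f w = 1) → Nat.card G ≤ N := by
  obtain ⟨n₁, hn₁⟩ := exists_nl_alternating w hw
  obtain ⟨B, hB⟩ : ∃ B, B = max n₁ 5 := ⟨_, rfl⟩
  obtain ⟨Q, hQ⟩ : ∃ Q, Q = qBound w := ⟨_, rfl⟩
  refine ⟨B.factorial + (Q ^ 2) ^ ((2 * B + 1) ^ 2), ?_⟩
  intro G _ _ hfam hlaw
  have hno : ∀ {H : Type} [Group H], (G ≃* H ⧸ Subgroup.center H) → ¬ NL w H := by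
    intro H _ e h
    obtain ⟨f, hf⟩ := h.of_equiv e
    exact hf (hlaw f)
  have hle : ∀ x : ℕ, x ≤ (Q ^ 2) ^ ((2 * B + 1) ^ 2) →
      x ≤ B.factorial + (Q ^ 2) ^ ((2 * B + 1) ^ 2) :=
    fun x hx => le_trans hx (Nat.le_add_left _ _)
  have hQ2 : Q ≤ Q ^ 2 := Nat.le_self_pow (by norm_num) Q
  rcases hfam with h | h | h | h | h | h | h
  · -- alternating
    obtain ⟨n, hn5, ⟨e⟩⟩ := h
    have hnB : n < n₁ := by
      by_contra hcon
      push Not at hcon
      obtain ⟨f, hf⟩ := hn₁ n hcon
      apply hf
      have h1 := lift_comp e.symm.toMonoidHom f w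
      have h2 := hlaw (fun a => e.symm (f a))
      have h3 : e.symm (FreeGroup.lift f w) = 1 := by
        rw [← h2]
        exact h1.symm
      have h4 : FreeGroup.lift f w = 1 := by simpa using congrArg e h3
      rw [h4]
      exact Subgroup.one_mem _
    calc Nat.card G = Nat.card (alternatingGroup (Fin n)) := Nat.card_congr e.toEquiv
      _ ≤ Nat.card (Equiv.Perm (Fin n)) := Nat.card_le_card_of_injective _ Subtype.val_injective
      _ = n.factorial := by rw [Nat.card_eq_fintype_card, Fintype.card_perm, Fintype.card_fin]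
      _ ≤ B.factorial := Nat.factorial_le (by omega)
      _ ≤ _ := Nat.le_add_right _ _
  · -- PSL
    obtain ⟨F, hFf, hFfin, n, hn2, -, ⟨e⟩⟩ := h
    have hnl := hno e
    have hsmall : n < B ∧ Fintype.card F < Q := by
      by_contra hcon
      apply hnl
      apply nl_SL w hw n₁ hn₁ n hn2
      rcases not_and_or.mp hcon with h1 | h1
      · left
        omega
      · right
        omega
    apply hle
    exact card_le_of_equiv e (Fin n) (fun g => (g : Matrix (Fin n) (Fin n) F))
      Subtype.val_injective (2 * B + 1) (Q ^ 2) (by simp; omega) (le_trans hsmall.2.le hQ2)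
  · -- PSp
    obtain ⟨F, hFf, hFfin, m, hm2, -, ⟨e⟩⟩ := h
    have hnl := hno e
    have hsmall : m < B ∧ Fintype.card F < Q := by
      by_contra hcon
      apply hnl
      apply nl_Sp w hw n₁ hn₁ m hm2
      rcases not_and_or.mp hcon with h1 | h1
      · left
        omega
      · right
        omega
    apply hle
    exact card_le_of_equiv e (Fin m ⊕ Fin m)
      (fun g => (g : Matrix (Fin m ⊕ Fin m) (Fin m ⊕ Fin m) F))
      Subtype.val_injective (2 * B + 1) (Q ^ 2) (by simp; omega) (le_trans hsmall.2.le hQ2)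
  · -- PSU
    obtain ⟨F, hFf, hFfin, n, q, hF, hn3, -, ⟨e⟩⟩ := h
    have hnl := hno e
    have hsmall : n < B ∧ q < Q := by
      by_contra hcon
      apply hnl
      apply nl_SU w hw n₁ hn₁ n q (by omega) hF
      rcases not_and_or.mp hcon with h1 | h1
      · left
        omega
      · right
        omega
    apply hle
    refine card_le_of_equiv e (Fin n)
      (fun g => (((g : Matrix.SpecialLinearGroup (Fin n) F)) : Matrix (Fin n) (Fin n) F))
      (fun a b hab => Subtype.ext (Subtype.ext hab)) (2 * B + 1) (Q ^ 2) (by simp; omega) ?_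
    rw [hF]
    exact Nat.pow_le_pow_left hsmall.2.le 2
  · -- odd orthogonal
    obtain ⟨F, hFf, hFfin, m, hm3, -, ⟨e⟩⟩ := h
    have hnl := hno e
    have hsmall : m < B ∧ Fintype.card F < Q := by
      by_contra hcon
      apply hnl
      apply nl_Omega w hw n₁ hn₁ m (by omega) (Cfsg.quadFormOdd m F) (leviOdd m F)
        (leviOdd_injective m)
      rcases not_and_or.mp hcon with h1 | h1
      · left
        omega
      · right
        omega
    apply hle
    exact card_le_of_equiv e (Unit ⊕ (Fin m ⊕ Fin m)) _ (omega_val_injective _)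
      (2 * B + 1) (Q ^ 2) (by simp; omega) (le_trans hsmall.2.le hQ2)
  · -- plus orthogonal
    obtain ⟨F, hFf, hFfin, m, hm4, ⟨e⟩⟩ := h
    have hnl := hno e
    have hsmall : m < B ∧ Fintype.card F < Q := by
      by_contra hcon
      apply hnl
      apply nl_Omega w hw n₁ hn₁ m (by omega) (Cfsg.quadFormPlus m F) (leviPlus m F)
        (leviPlus_injective m)
      rcases not_and_or.mp hcon with h1 | h1
      · left
        omega
      · right
        omega
    apply hle
    exact card_le_of_equiv e (Fin m ⊕ Fin m) _ (omega_val_injective _)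
      (2 * B + 1) (Q ^ 2) (by simp; omega) (le_trans hsmall.2.le hQ2)
  · -- minus orthogonal
    obtain ⟨F, hFf, hFfin, m, a, b, hm4, -, ⟨e⟩⟩ := h
    have hnl := hno e
    have hsmall : m - 1 < B ∧ Fintype.card F < Q := by
      by_contra hcon
      apply hnl
      apply nl_Omega w hw n₁ hn₁ (m - 1) (by omega) (Cfsg.quadFormMinus (m - 1) F a b)
        (leviMinus (m - 1) F a b) (leviMinus_injective (m - 1) a b)
      rcases not_and_or.mp hcon with h1 | h1
      · left
        omega
      · right
        omega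
    apply hle
    exact card_le_of_equiv e ((Fin (m - 1) ⊕ Fin (m - 1)) ⊕ Fin 2) _ (omega_val_injective _)
      (2 * B + 1) (Q ^ 2) (by simp; omega) (le_trans hsmall.2.le hQ2)

end Cfsg.Agent.S2355
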