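import Cfsg.Statements.S2360
import Cfsg.Agent.Lib.Helper39.SU3Count

set_option autoImplicit false
open Cfsg

namespace Cfsg.Agent.S2360

/-- Let q be odd, F the field with q² elements and S = SU_3(F) (determinant-one isometries of the standard Hermitian form). Then all involutions of S are conjugate; there are exactly q²(q²−q+1) of them; the centralizer of an involution has order q(q+1)(q²−1), the order of the full unitary group of degree 2; and for two distinct commuting involutions t and x there is exactly one further involution commuting with both. -/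
theorem result {F : Type*} [Field F] [Fintype F] {q : ℕ} (hq : Odd q)
    (hF : Fintype.card F = q ^ 2) (t : ↥(Cfsg.SU 3 F q)) (ht : t ≠ 1) (ht2 : t * t = 1) :
    (∀ x : ↥(Cfsg.SU 3 F q), x ≠ 1 → x * x = 1 → ∃ g : ↥(Cfsg.SU 3 F q), g * t * g⁻¹ = x) ∧
    Nat.card {x : ↥(Cfsg.SU 3 F q) // x ≠ 1 ∧ x * x = 1} = q ^ 2 * (q ^ 2 - q + 1) ∧
    Nat.card ↥(Subgroup.centralizer ({t} : Set ↥(Cfsg.SU 3 F q))) = q * (q + 1) * (q ^ 2 - 1) ∧
    ∀ x : ↥(Cfsg.SU 3 F q), x ≠ 1 → x * x = 1 → x ≠ t → Commute t x →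
      Nat.card {y : ↥(Cfsg.SU 3 F q) // y ≠ 1 ∧ y * y = 1 ∧ y ≠ t ∧ y ≠ x ∧ Commute t y ∧ Commute x y} = 1 := by
  obtain ⟨φ, hφ, hinv⟩ := Cfsg.Agent.Lib.Helper45.GUCard.exists_conj hF
  refine ⟨fun x hx hx2 => Cfsg.Agent.Lib.Helper39.SU3Conj.all_conj φ hφ hinv hF hq t x ht ht2 hx hx2,
    Cfsg.Agent.Lib.Helper39.SU3Count.card_inv hF hq φ hφ hinv,
    Cfsg.Agent.Lib.Helper39.SU3Count.card_centralizer hF hq φ hφ hinv t ht ht2,
    fun x hx hx2 hxt hc =>
      Cfsg.Agent.Lib.Helper39.SU3Count.card_common hF hq φ hφ hinv t x ht ht2 hx hx2 hxt hc⟩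

end Cfsg.Agent.S2360
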