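import Cfsg.Statements.S2394
import Mathlib
import Cfsg.Agent.Lib.Helper5.SpCard
import Cfsg.Agent.S2904

set_option autoImplicit false
open scoped MatrixGroups
open Cfsg

namespace Cfsg.Agent.S2394

theorem num_aux (q n d : ℕ) (hq : 1 < q) (hn : 0 < n) (hd : d < 2 * n)
    (hdvd : q ^ (n ^ 2) * ∏ i ∈ Finset.range n, (q ^ (2 * (i + 1)) - 1) ∣
      ∏ i : Fin d, (q ^ d - q ^ (i : ℕ))) : False := by
  have hpos : 0 < ∏ i : Fin d, (q ^ d - q ^ (i : ℕ)) := by
    apply Finset.prod_pos
    intro i _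
    exact Nat.sub_pos_of_lt (Nat.pow_lt_pow_right hq i.2)
  by_cases hn1 : n = 1
  · subst hn1
    have hle := Nat.le_of_dvd hpos hdvd
    have h1 : ∏ i : Fin d, (q ^ d - q ^ (i : ℕ)) ≤ q - 1 := by
      have hd' : d = 0 ∨ d = 1 := by omega
      rcases hd' with rfl | rfl
      · simp
        omega
      · simp
    have h2 : q ≤ q ^ (1 ^ 2) * ∏ i ∈ Finset.range 1, (q ^ (2 * (i + 1)) - 1) := by
      simp only [one_pow, pow_one, Finset.range_one, Finset.prod_singleton, zero_add, mul_one]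
      have h3 : 1 ≤ q ^ 2 - 1 := by
        have : 2 ^ 2 ≤ q ^ 2 := Nat.pow_le_pow_left hq 2
        omega
      calc q = q * 1 := (mul_one q).symm
        _ ≤ q * (q ^ 2 - 1) := Nat.mul_le_mul_left q h3
    omega
  by_cases h6 : q = 2 ∧ n = 3
  · obtain ⟨rfl, rfl⟩ := h6
    have hd' : d ≤ 5 := by omega
    interval_cases d <;> simp [Finset.prod_range_succ, Fin.prod_univ_succ] at hdvd
  · obtain ⟨r, hr, hrdvd, hrprim⟩ := Cfsg.Agent.S2904.result q (2 * n) hq (by omega)
      (fun h => h6 ⟨h.1, by omega⟩) (fun h => hn1 (by omega))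
    have h1 : r ∣ ∏ i : Fin d, (q ^ d - q ^ (i : ℕ)) := by
      refine dvd_trans ?_ hdvd
      apply Dvd.dvd.mul_left
      refine dvd_trans ?_ (Finset.dvd_prod_of_mem _ (Finset.mem_range.mpr (Nat.sub_lt hn one_pos)))
      have e : 2 * (n - 1 + 1) = 2 * n := by omega
      rw [e]
      exact hrdvd
    obtain ⟨i, -, hi⟩ := (Prime.dvd_finsetProd_iff (Nat.prime_iff.mp hr) _).mp h1
    have hrq : ¬ r ∣ q := by
      intro h
      have h2 : r ∣ q ^ (2 * n) := dvd_pow h (by omega)
      have h3 : 1 ≤ q ^ (2 * n) := Nat.one_le_pow _ _ (by omega)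
      have h4 : r ∣ 1 := by
        have := Nat.dvd_sub h2 hrdvd
        rwa [Nat.sub_sub_self h3] at this
      exact hr.one_lt.ne' (Nat.dvd_one.mp h4)
    have e : q ^ d - q ^ (i : ℕ) = q ^ (i : ℕ) * (q ^ (d - i) - 1) := by
      rw [Nat.mul_sub, mul_one, ← pow_add]
      congr 2
      have := i.2
      omega
    rw [e] at hi
    rcases (Nat.Prime.dvd_mul hr).mp hi with h | h
    · exact hrq (hr.dvd_of_dvd_pow h)
    · exact hrprim (d - i) (by have := i.2; omega) (by omega) h

/-- The smallest degree of a faithful representation of the symplectic group `Sp_{2n}(q)` over its own field `F_q` is `2n`: every injective homomorphism from `Sp_{2n}(F)` to `GL_d(F)`, `F` the field with `q` elements, has `d ≥ 2n`. -/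
theorem result {F : Type*} [Field F] [Fintype F] (n : ℕ) {d : ℕ}
    (ρ : ↥(Matrix.symplecticGroup (Fin n) F) →* GL (Fin d) F) (hρ : Function.Injective ρ) : 2 * n ≤ d := by
  classical
  by_contra hcon
  push Not at hcon
  have hq : 1 < Fintype.card F := Fintype.one_lt_card
  have hdvd : Nat.card (Matrix.symplecticGroup (Fin n) F) ∣ Nat.card (GL (Fin d) F) :=
    Subgroup.card_dvd_of_injective ρ hρ
  rw [Cfsg.Agent.Lib.Helper5.SpCard.card_symplectic, Matrix.card_GL_field] at hdvd
  exact num_aux (Fintype.card F) n d hq (by omega) hcon hdvd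

end Cfsg.Agent.S2394
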