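import Cfsg.Statements.S2450
import Mathlib

set_option autoImplicit false
open Cfsg

namespace Cfsg.Agent.S2450

open Polynomial in
/-- A non-constant polynomial function of degree at most two over a finite field with at least
four elements avoids the two values `0` and `κ` somewhere (`κ = 0` when the field has four
elements). -/
theorem quad_avoid {F : Type*} [Field F] [Fintype F] (h4 : 4 ≤ Fintype.card F)
    (a b c κ : F) (hab : a ≠ 0 ∨ b ≠ 0) (hκ : Fintype.card F < 5 → κ = 0) :
    ∃ r : F, a * r ^ 2 + b * r + c ≠ 0 ∧ a * r ^ 2 + b * r + c ≠ κ := by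
  classical
  set p : F[X] := C a * X ^ 2 + C b * X + C c with hp
  set p' : F[X] := C a * X ^ 2 + C b * X + C (c - κ) with hp'
  have hpne : p ≠ 0 := by
    intro h
    have h1 : p.coeff 1 = 0 := by rw [h]; simp
    have h2 : p.coeff 2 = 0 := by rw [h]; simp
    simp [hp, Polynomial.coeff_C] at h1 h2
    rcases hab with h | h
    · exact h h2
    · exact h h1
  have hp'ne : p' ≠ 0 := by
    intro h
    have h1 : p'.coeff 1 = 0 := by rw [h]; simp
    have h2 : p'.coeff 2 = 0 := by rw [h]; simp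
    simp [hp', Polynomial.coeff_C] at h1 h2
    rcases hab with h | h
    · exact h h2
    · exact h h1
  have hd : p.natDegree ≤ 2 := natDegree_quadratic_le
  have hd' : p'.natDegree ≤ 2 := natDegree_quadratic_le
  have hc : p.roots.toFinset.card ≤ 2 :=
    (Multiset.toFinset_card_le _).trans ((Polynomial.card_roots' p).trans hd)
  have hc' : p'.roots.toFinset.card ≤ 2 :=
    (Multiset.toFinset_card_le _).trans ((Polynomial.card_roots' p').trans hd')
  have hev : ∀ r : F, p.eval r = a * r ^ 2 + b * r + c := by intro r; simp [hp]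
  have hev' : ∀ r : F, p'.eval r = a * r ^ 2 + b * r + c - κ := by intro r; simp [hp']; ring
  have hex : ∃ r : F, r ∉ p.roots.toFinset ∪ p'.roots.toFinset := by
    by_contra hcon
    push Not at hcon
    have huniv : (Finset.univ : Finset F) ⊆ p.roots.toFinset ∪ p'.roots.toFinset :=
      fun r _ => hcon r
    have hcard := Finset.card_le_card huniv
    rw [Finset.card_univ] at hcard
    by_cases h5 : Fintype.card F < 5
    · have hk := hκ h5
      have : p' = p := by rw [hp', hp, hk, sub_zero]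
      rw [this, Finset.union_self] at hcard
      omega
    · have := Finset.card_union_le p.roots.toFinset p'.roots.toFinset
      omega
  obtain ⟨r, hr⟩ := hex
  rw [Finset.mem_union, not_or, Multiset.mem_toFinset, Multiset.mem_toFinset,
    Polynomial.mem_roots hpne, Polynomial.mem_roots hp'ne, Polynomial.IsRoot.def,
    Polynomial.IsRoot.def, hev, hev'] at hr
  exact ⟨r, hr.1, fun h => hr.2 (by rw [h, sub_self])⟩

theorem two_eq_zero_of_card_lt {F : Type*} [Field F] [Fintype F] (h4 : 4 ≤ Fintype.card F)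
    (h5 : Fintype.card F < 5) : (2 : F) = 0 := by
  have h : Fintype.card F = 4 := by omega
  have h0 : ((Fintype.card F : ℕ) : F) = 0 := FiniteField.cast_card_eq_zero F
  rw [h] at h0
  have h22 : (2 : F) * 2 = 0 := by
    have : ((4 : ℕ) : F) = 2 * 2 := by norm_num
    rw [← this]; exact h0
  exact mul_self_eq_zero.1 h22

open Matrix in
/-- For non-scalar `2 × 2` matrices `A`, `B` over a finite field with at least four elements,
some conjugate `P A P⁻¹` (with `det P = 1`) has `tr (P A P⁻¹ B) ≠ ± tr (A B)`. -/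
theorem exists_conj_trace_ne {F : Type*} [Field F] [Fintype F] (h4 : 4 ≤ Fintype.card F)
    (A B : Matrix (Fin 2) (Fin 2) F)
    (hA : A 0 1 ≠ 0 ∨ A 1 0 ≠ 0 ∨ A 0 0 ≠ A 1 1) (hB : B 0 1 ≠ 0 ∨ B 1 0 ≠ 0 ∨ B 0 0 ≠ B 1 1) :
    ∃ P : Matrix (Fin 2) (Fin 2) F, P.det = 1 ∧
      trace (P * A * P.adjugate * B) ≠ trace (A * B) ∧
      trace (P * A * P.adjugate * B) ≠ - trace (A * B) := by
  obtain ⟨a, b, c, d, rfl⟩ : ∃ a b c d, A = !![a, b; c, d] := ⟨_, _, _, _, Matrix.eta_fin_two A⟩
  obtain ⟨e, f, g, h, rfl⟩ : ∃ e f g h, B = !![e, f; g, h] := ⟨_, _, _, _, Matrix.eta_fin_two B⟩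
  simp only [Matrix.of_apply, Matrix.cons_val', Matrix.cons_val_zero, Matrix.cons_val_one,
    Matrix.cons_val_fin_one] at hA hB
  set T₀ : F := a * e + b * g + c * f + d * h with hT₀
  have hT : trace (!![a, b; c, d] * !![e, f; g, h]) = T₀ := by
    simp [Matrix.trace_fin_two, hT₀]; ring
  have hκ : Fintype.card F < 5 → -2 * T₀ = 0 := fun h5 => by
    rw [two_eq_zero_of_card_lt h4 h5]; ring
  -- reduction
  have key : ∀ (P : Matrix (Fin 2) (Fin 2) F) (δ : F), P.det = 1 →
      trace (P * !![a, b; c, d] * P.adjugate * !![e, f; g, h]) = T₀ + δ → δ ≠ 0 → δ ≠ -2 * T₀ →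
      ∃ P : Matrix (Fin 2) (Fin 2) F, P.det = 1 ∧
        trace (P * !![a, b; c, d] * P.adjugate * !![e, f; g, h])
          ≠ trace (!![a, b; c, d] * !![e, f; g, h]) ∧
        trace (P * !![a, b; c, d] * P.adjugate * !![e, f; g, h])
          ≠ - trace (!![a, b; c, d] * !![e, f; g, h]) := by
    intro P δ hdet htr h0 h1
    refine ⟨P, hdet, ?_, ?_⟩
    · rw [htr, hT]; intro h; exact h0 (by linear_combination h)
    · rw [htr, hT]; intro h; exact h1 (by linear_combination h)
  -- the four "generic" coefficients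
  by_cases h1 : c * g ≠ 0 ∨ c * (e - h) + (d - a) * g ≠ 0
  · -- upper unipotent conjugators
    obtain ⟨r, hr0, hr1⟩ := quad_avoid h4 (-(c * g)) (c * (e - h) + (d - a) * g) 0 (-2 * T₀)
      (by rcases h1 with h | h
          · left; exact neg_ne_zero.2 h
          · right; exact h) hκ
    refine key !![1, r; 0, 1] _ (by simp [Matrix.det_fin_two]) ?_ hr0 hr1
    simp [Matrix.trace_fin_two, Matrix.adjugate_fin_two, hT₀]
    ring
  by_cases h2 : b * f ≠ 0 ∨ b * (h - e) + (a - d) * f ≠ 0
  · -- lower unipotent conjugators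
    obtain ⟨r, hr0, hr1⟩ := quad_avoid h4 (-(b * f)) (b * (h - e) + (a - d) * f) 0 (-2 * T₀)
      (by rcases h2 with h | h
          · left; exact neg_ne_zero.2 h
          · right; exact h) hκ
    refine key !![1, 0; r, 1] _ (by simp [Matrix.det_fin_two]) ?_ hr0 hr1
    simp [Matrix.trace_fin_two, Matrix.adjugate_fin_two, hT₀]
    ring
  push Not at h1 h2
  obtain ⟨h1a, h1b⟩ := h1
  obtain ⟨h2a, h2b⟩ := h2
  by_cases hc : c ≠ 0
  · -- A lower triangular with equal diagonal, B upper triangular with equal diagonal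
    have hg : g = 0 := by
      rcases mul_eq_zero.1 h1a with h | h
      · exact absurd h hc
      · exact h
    have heh : e = h := by
      rw [hg, mul_zero, add_zero] at h1b
      rcases mul_eq_zero.1 h1b with h' | h'
      · exact absurd h' hc
      · exact sub_eq_zero.1 h'
    have hf : f ≠ 0 := by
      rcases hB with h' | h' | h'
      · exact h'
      · exact absurd hg h'
      · exact absurd heh h'
    have hb : b = 0 := by
      rcases mul_eq_zero.1 h2a with h' | h'
      · exact h'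
      · exact absurd h' hf
    have had : a = d := by
      rw [hb, zero_mul, zero_add] at h2b
      rcases mul_eq_zero.1 h2b with h' | h'
      · exact sub_eq_zero.1 h'
      · exact absurd h' hf
    obtain ⟨w, hw0, hw1⟩ := quad_avoid h4 (c * f) 0 (-(c * f)) (-2 * T₀)
      (Or.inl (mul_ne_zero hc hf)) hκ
    refine key !![0, -1; 1, w] _ (by simp [Matrix.det_fin_two]) ?_ hw0 hw1
    subst hb hg had heh
    simp [Matrix.trace_fin_two, Matrix.adjugate_fin_two, hT₀]
    ring
  push Not at hc
  by_cases hb : b ≠ 0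
  · have hf : f = 0 := by
      rcases mul_eq_zero.1 h2a with h' | h'
      · exact absurd h' hb
      · exact h'
    have heh : e = h := by
      rw [hf, mul_zero, add_zero] at h2b
      rcases mul_eq_zero.1 h2b with h' | h'
      · exact absurd h' hb
      · exact (sub_eq_zero.1 h').symm
    have hg : g ≠ 0 := by
      rcases hB with h' | h' | h'
      · exact absurd hf h'
      · exact h'
      · exact absurd heh h'
    have had : a = d := by
      rw [hc, zero_mul, zero_add] at h1b
      rcases mul_eq_zero.1 h1b with h' | h'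
      · exact (sub_eq_zero.1 h').symm
      · exact absurd h' hg
    obtain ⟨x, hx0, hx1⟩ := quad_avoid h4 (b * g) 0 (-(b * g)) (-2 * T₀)
      (Or.inl (mul_ne_zero hb hg)) hκ
    refine key !![x, -1; 1, 0] _ (by simp [Matrix.det_fin_two]) ?_ hx0 hx1
    subst hc hf had heh
    simp [Matrix.trace_fin_two, Matrix.adjugate_fin_two, hT₀]
    ring
  push Not at hb
  -- both diagonal
  have had : a ≠ d := by
    rcases hA with h' | h' | h'
    · exact absurd hb h'
    · exact absurd hc h'
    · exact h'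
  have hg : g = 0 := by
    rw [hc, zero_mul, zero_add] at h1b
    rcases mul_eq_zero.1 h1b with h' | h'
    · exact absurd (sub_eq_zero.1 h').symm had
    · exact h'
  have hf : f = 0 := by
    rw [hb, zero_mul, zero_add] at h2b
    rcases mul_eq_zero.1 h2b with h' | h'
    · exact absurd (sub_eq_zero.1 h') had
    · exact h'
  have heh : e ≠ h := by
    rcases hB with h' | h' | h'
    · exact absurd hf h'
    · exact absurd hg h'
    · exact h'
  obtain ⟨m, hm0, hm1⟩ := quad_avoid h4 0 ((a - d) * (e - h)) 0 (-2 * T₀)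
    (Or.inr (mul_ne_zero (sub_ne_zero.2 had) (sub_ne_zero.2 heh))) hκ
  refine key !![1 + m, m; 1, 1] _ (by simp [Matrix.det_fin_two]) ?_ hm0 hm1
  subst hb hc hf hg
  simp [Matrix.trace_fin_two, Matrix.adjugate_fin_two, hT₀]
  ring

open Matrix in
/-- Conjugate elements of `PSL₂` have lifts whose traces agree up to sign. -/
theorem trace_eq_or_neg_of_isConj {F : Type*} [Field F] (M₁ M₂ : SpecialLinearGroup (Fin 2) F)
    (h : IsConj (M₁ : ProjectiveSpecialLinearGroup (Fin 2) F)
      (M₂ : ProjectiveSpecialLinearGroup (Fin 2) F)) :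
    trace (M₂ : Matrix (Fin 2) (Fin 2) F) = trace (M₁ : Matrix (Fin 2) (Fin 2) F) ∨
      trace (M₂ : Matrix (Fin 2) (Fin 2) F) = - trace (M₁ : Matrix (Fin 2) (Fin 2) F) := by
  rw [isConj_iff] at h
  obtain ⟨u, hu⟩ := h
  obtain ⟨Q, rfl⟩ := QuotientGroup.mk_surjective u
  rw [← QuotientGroup.mk_inv, ← QuotientGroup.mk_mul, ← QuotientGroup.mk_mul, QuotientGroup.eq,
    Matrix.SpecialLinearGroup.mem_center_iff] at hu
  obtain ⟨r, hr, hrM⟩ := hu
  have hM2 : M₂ = (Q * M₁ * Q⁻¹) * ((Q * M₁ * Q⁻¹)⁻¹ * M₂) := by group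
  have hM2' : (M₂ : Matrix (Fin 2) (Fin 2) F)
      = (Q : Matrix (Fin 2) (Fin 2) F) * (M₁ : Matrix (Fin 2) (Fin 2) F)
        * (Q : Matrix (Fin 2) (Fin 2) F).adjugate * Matrix.scalar (Fin 2) r := by
    conv_lhs => rw [hM2]
    rw [Matrix.SpecialLinearGroup.coe_mul, ← hrM]
    simp [Matrix.SpecialLinearGroup.coe_mul, Matrix.SpecialLinearGroup.coe_inv]
  have hQ : (Q : Matrix (Fin 2) (Fin 2) F).adjugate * (Q : Matrix (Fin 2) (Fin 2) F) = 1 := by
    rw [Matrix.adjugate_mul, Q.2, one_smul]
  have htr : trace (M₂ : Matrix (Fin 2) (Fin 2) F)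
      = r * trace (M₁ : Matrix (Fin 2) (Fin 2) F) := by
    rw [hM2']
    have hsc : Matrix.scalar (Fin 2) r = r • (1 : Matrix (Fin 2) (Fin 2) F) := by
      ext i j; simp [Matrix.one_apply, Matrix.diagonal_apply]
    rw [hsc, Matrix.mul_smul, Matrix.trace_smul, mul_one, Matrix.trace_mul_comm, ← mul_assoc, hQ,
      one_mul, smul_eq_mul]
  have hr' : r = 1 ∨ r = -1 := by
    have : r * r = 1 := by simpa [pow_two] using hr
    exact mul_self_eq_one_iff.1 this
  rcases hr' with rfl | rfl
  · left; rw [htr, one_mul]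
  · right; rw [htr, neg_one_mul]

open Matrix in
/-- The Arad–Herzog conjecture for PSL(2,q): let F be a finite field with q ≥ 4 elements. For any two non-identity elements a, b of PSL(2,F), the set of products of a conjugate of a with a conjugate of b is not a single conjugacy class. -/
theorem result {F : Type*} [Field F] [Fintype F] (h4 : 4 ≤ Fintype.card F)
    (a b : Matrix.ProjectiveSpecialLinearGroup (Fin 2) F) (ha : a ≠ 1) (hb : b ≠ 1) (c : Matrix.ProjectiveSpecialLinearGroup (Fin 2) F) :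
    {g : Matrix.ProjectiveSpecialLinearGroup (Fin 2) F | ∃ u v : Matrix.ProjectiveSpecialLinearGroup (Fin 2) F, g = (u * a * u⁻¹) * (v * b * v⁻¹)} ≠ {g | IsConj c g} := by
  intro hset
  obtain ⟨A, rfl⟩ := QuotientGroup.mk_surjective a
  obtain ⟨B, rfl⟩ := QuotientGroup.mk_surjective b
  have nonscalar : ∀ M : SpecialLinearGroup (Fin 2) F,
      (M : ProjectiveSpecialLinearGroup (Fin 2) F) ≠ 1 →
      (M : Matrix (Fin 2) (Fin 2) F) 0 1 ≠ 0 ∨ (M : Matrix (Fin 2) (Fin 2) F) 1 0 ≠ 0 ∨
        (M : Matrix (Fin 2) (Fin 2) F) 0 0 ≠ (M : Matrix (Fin 2) (Fin 2) F) 1 1 := by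
    intro M hM
    by_contra hcon
    push Not at hcon
    obtain ⟨h01, h10, h00⟩ := hcon
    apply hM
    rw [QuotientGroup.eq_one_iff, Matrix.SpecialLinearGroup.mem_center_iff]
    refine ⟨(M : Matrix (Fin 2) (Fin 2) F) 0 0, ?_, ?_⟩
    · have hdet := M.2
      rw [Matrix.det_fin_two, h01, h10, ← h00] at hdet
      simpa [pow_two] using hdet
    · ext i j
      fin_cases i <;> fin_cases j <;> simp [h01, h10, ← h00]
  obtain ⟨P, hP, h1, h2⟩ := exists_conj_trace_ne h4 (A : Matrix (Fin 2) (Fin 2) F)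
    (B : Matrix (Fin 2) (Fin 2) F) (nonscalar A ha) (nonscalar B hb)
  let P' : SpecialLinearGroup (Fin 2) F := ⟨P, hP⟩
  have m1 : ((A * B : SpecialLinearGroup (Fin 2) F) : ProjectiveSpecialLinearGroup (Fin 2) F) ∈
      {g : Matrix.ProjectiveSpecialLinearGroup (Fin 2) F | ∃ u v : Matrix.ProjectiveSpecialLinearGroup (Fin 2) F, g = (u * (A : ProjectiveSpecialLinearGroup (Fin 2) F) * u⁻¹) * (v * (B : ProjectiveSpecialLinearGroup (Fin 2) F) * v⁻¹)} :=
    ⟨1, 1, by simp⟩
  have m2 : ((P' * A * P'⁻¹ * B : SpecialLinearGroup (Fin 2) F) : ProjectiveSpecialLinearGroup (Fin 2) F) ∈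
      {g : Matrix.ProjectiveSpecialLinearGroup (Fin 2) F | ∃ u v : Matrix.ProjectiveSpecialLinearGroup (Fin 2) F, g = (u * (A : ProjectiveSpecialLinearGroup (Fin 2) F) * u⁻¹) * (v * (B : ProjectiveSpecialLinearGroup (Fin 2) F) * v⁻¹)} :=
    ⟨(P' : ProjectiveSpecialLinearGroup (Fin 2) F), 1, by simp⟩
  rw [hset] at m1 m2
  have hconj : IsConj ((A * B : SpecialLinearGroup (Fin 2) F) : ProjectiveSpecialLinearGroup (Fin 2) F)
      ((P' * A * P'⁻¹ * B : SpecialLinearGroup (Fin 2) F) : ProjectiveSpecialLinearGroup (Fin 2) F) :=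
    (IsConj.symm m1).trans m2
  have hcoe : ((P' * A * P'⁻¹ * B : SpecialLinearGroup (Fin 2) F) : Matrix (Fin 2) (Fin 2) F)
      = P * (A : Matrix (Fin 2) (Fin 2) F) * P.adjugate * (B : Matrix (Fin 2) (Fin 2) F) := by
    rw [Matrix.SpecialLinearGroup.coe_mul, Matrix.SpecialLinearGroup.coe_mul,
      Matrix.SpecialLinearGroup.coe_mul, Matrix.SpecialLinearGroup.coe_inv]
  rcases trace_eq_or_neg_of_isConj _ _ hconj with h | h
  · rw [hcoe, Matrix.SpecialLinearGroup.coe_mul] at h
    exact h1 h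
  · rw [hcoe, Matrix.SpecialLinearGroup.coe_mul] at h
    exact h2 h

end Cfsg.Agent.S2450
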