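import Cfsg.Statements.S2455
import Cfsg.Agent.H41.SL2Cover
import Cfsg.Agent.H41.PSL2Basic
import Cfsg.Agent.H41.SL2Poly

set_option autoImplicit false
open Cfsg

namespace Cfsg.Agent.S2455

open Cfsg.Agent.H41

/-- A strong covering result in the direction of Thompson's conjecture (non-identity elements) for PSL(2,q), q odd: let F be a finite field of odd characteristic p with at least 5 elements and let x ∈ PSL(2,F) have order greater than 2 and not divisible by p (so x is not unipotent). Then every non-identity element of PSL(2,F) is a product of two conjugates of x. -/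
theorem result {F : Type*} [Field F] [Fintype F] (p : ℕ) [Fact p.Prime] [CharP F p] (hp : p ≠ 2) (h5 : 5 ≤ Fintype.card F)
    (x : Matrix.ProjectiveSpecialLinearGroup (Fin 2) F) (hx2 : 2 < orderOf x) (hxp : ¬ p ∣ orderOf x) : ∀ g : Matrix.ProjectiveSpecialLinearGroup (Fin 2) F, g ≠ 1 → ∃ u v : Matrix.ProjectiveSpecialLinearGroup (Fin 2) F, g = (u * x * u⁻¹) * (v * x * v⁻¹) := by
  intro g hg
  obtain ⟨X, rfl⟩ := QuotientGroup.mk_surjective x
  obtain ⟨G, rfl⟩ := QuotientGroup.mk_surjective g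
  have hpp : p.Prime := Fact.out
  have hodd : Fintype.card F % 2 = 1 := by
    apply FiniteField.odd_card_of_char_ne_two
    rw [ringChar.eq F p]
    exact hp
  have h2 : (2 : F) ≠ 0 := two_ne_zero_of_card_mod hodd
  have ht0 : ent X 0 0 + ent X 1 1 ≠ 0 := by
    intro h
    have hXX : (X : Matrix (Fin 2) (Fin 2) F) ^ 2 = (-1 : F) • (1 : Matrix (Fin 2) (Fin 2) F) := by
      rw [pow_two, mul_self_eq_of_det_one _ X.2]
      have h' : (X : Matrix (Fin 2) (Fin 2) F) 0 0 + (X : Matrix (Fin 2) (Fin 2) F) 1 1 = 0 := h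
      rw [h']
      simp
    have h1 : (X : Matrix.ProjectiveSpecialLinearGroup (Fin 2) F) ^ 2 = 1 :=
      (psl_mk_pow_eq_one_iff X 2).2 ⟨-1, by ring, hXX⟩
    have h3 := Nat.le_of_dvd (by norm_num) (orderOf_dvd_of_pow_eq_one h1)
    omega
  have ht : (ent X 0 0 + ent X 1 1) ^ 2 ≠ 4 := by
    intro h
    have ha1 : (ent X 0 0 + ent X 1 1) / 2 + (ent X 0 0 + ent X 1 1) / 2 =
        ent X 0 0 + ent X 1 1 := by
      field_simp
      ring
    have ha2 : (ent X 0 0 + ent X 1 1) / 2 * ((ent X 0 0 + ent X 1 1) / 2) = 1 := by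
      field_simp
      linear_combination h
    have hXp : (X : Matrix (Fin 2) (Fin 2) F) ^ p =
        (((ent X 0 0 + ent X 1 1) / 2) ^ p) • (1 : Matrix (Fin 2) (Fin 2) F) :=
      pow_eq_smul_of_tpoly_dvd _ X.2 p _ (tpoly_dvd_of_double_root p _ _ ha1 ha2)
    have h1 : (X : Matrix.ProjectiveSpecialLinearGroup (Fin 2) F) ^ p = 1 :=
      (psl_mk_pow_eq_one_iff X p).2 ⟨_, by rw [← mul_pow, ha2, one_pow], hXp⟩
    have hdvd := orderOf_dvd_of_pow_eq_one h1
    rcases (Nat.dvd_prime hpp).1 hdvd with h3 | h3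
    · omega
    · exact hxp (by rw [h3])
  have hGns := nonscalar_of_mk_ne_one G hg
  by_cases hs : ent G 0 0 + ent G 1 1 = 2
  · have hG' : ent (negOne * G) 0 1 ≠ 0 ∨ ent (negOne * G) 1 0 ≠ 0 ∨
        ent (negOne * G) 0 0 ≠ ent (negOne * G) 1 1 := by
      simp only [negOne_mul_ent]
      rcases hGns with h | h | h
      · left; exact neg_ne_zero.2 h
      · right; left; exact neg_ne_zero.2 h
      · right; right; intro h'; exact h (neg_injective h')
    have hs' : ent (negOne * G) 0 0 + ent (negOne * G) 1 1 ≠ 2 := by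
      simp only [negOne_mul_ent]
      intro h
      apply h2
      have : (2 : F) + 2 = 0 := by linear_combination (-1 : F) * hs - h
      have h4 : (2 : F) * 2 = 0 := by linear_combination this
      rcases mul_eq_zero.1 h4 with h' | h' <;> exact h'
    obtain ⟨u, v, huv⟩ := cover_odd hodd X (negOne * G) ht0 ht hG' hs'
    refine ⟨(u : Matrix.ProjectiveSpecialLinearGroup (Fin 2) F),
      (v : Matrix.ProjectiveSpecialLinearGroup (Fin 2) F), ?_⟩
    rw [← psl_mk_negOne_mul G, huv]
    rfl
  · obtain ⟨u, v, huv⟩ := cover_odd hodd X G ht0 ht hGns hs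
    refine ⟨(u : Matrix.ProjectiveSpecialLinearGroup (Fin 2) F),
      (v : Matrix.ProjectiveSpecialLinearGroup (Fin 2) F), ?_⟩
    rw [huv]
    rfl

end Cfsg.Agent.S2455
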