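import Cfsg.Statements.S2456
import Cfsg.Agent.H41.SL2Cover
import Cfsg.Agent.H41.PSL2Basic
import Cfsg.Agent.H41.SL2Quad

set_option autoImplicit false
open Cfsg

namespace Cfsg.Agent.S2456

open Cfsg.Agent.H41

/-- A strong covering result in the direction of Thompson's conjecture (non-identity elements) for PSL(2,q), q even: let F be a finite field of characteristic 2 with q ≥ 4 elements and let x ∈ PSL(2,F) have order greater than 2 and not dividing q + 1. Then every non-identity element of PSL(2,F) is a product of two conjugates of x. -/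
theorem result {F : Type*} [Field F] [Fintype F] [CharP F 2] (h4 : 4 ≤ Fintype.card F)
    (x : Matrix.ProjectiveSpecialLinearGroup (Fin 2) F) (hx2 : 2 < orderOf x) (hxq : ¬ orderOf x ∣ Fintype.card F + 1) : ∀ g : Matrix.ProjectiveSpecialLinearGroup (Fin 2) F, g ≠ 1 → ∃ u v : Matrix.ProjectiveSpecialLinearGroup (Fin 2) F, g = (u * x * u⁻¹) * (v * x * v⁻¹) := by
  intro g hg
  obtain ⟨X, rfl⟩ := QuotientGroup.mk_surjective x
  obtain ⟨G, rfl⟩ := QuotientGroup.mk_surjective g
  have h2 : (2 : F) = 0 := CharTwo.two_eq_zero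
  have h4' : (4 : F) = 0 := by
    have : (4 : F) = 2 * 2 := by norm_num
    rw [this, h2, mul_zero]
  have ht0 : ent X 0 0 + ent X 1 1 ≠ 0 := by
    intro h
    have hXX : (X : Matrix (Fin 2) (Fin 2) F) ^ 2 = (-1 : F) • (1 : Matrix (Fin 2) (Fin 2) F) := by
      rw [pow_two, mul_self_eq_of_det_one _ X.2]
      have h' : (X : Matrix (Fin 2) (Fin 2) F) 0 0 + (X : Matrix (Fin 2) (Fin 2) F) 1 1 = 0 := h
      rw [h']
      simp
    have h1 : (X : Matrix.ProjectiveSpecialLinearGroup (Fin 2) F) ^ 2 = 1 :=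
      (psl_mk_pow_eq_one_iff X 2).2 ⟨-1, by ring, hXX⟩
    have h3 := Nat.le_of_dvd (by norm_num) (orderOf_dvd_of_pow_eq_one h1)
    omega
  have ht : (ent X 0 0 + ent X 1 1) ^ 2 ≠ 4 := by
    rw [h4']
    exact pow_ne_zero 2 ht0
  have hsplit : ∃ lam : F, lam ^ 2 - (ent X 0 0 + ent X 1 1) * lam + 1 = 0 := by
    by_contra hroot
    push Not at hroot
    apply hxq
    have : NeZero (2 : ℕ) := ⟨by norm_num⟩
    have hfin : Module.finrank F (FiniteField.Extension F 2 2) = 2 :=
      FiniteField.finrank_extension F 2 2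
    have hirr : Irreducible (tpoly (ent X 0 0 + ent X 1 1)) :=
      Polynomial.irreducible_of_degree_le_three_of_not_isRoot (by rw [tpoly_natDegree]; decide)
        (fun x hx => hroot x (by simpa [tpoly_eval] using hx))
    obtain ⟨a, ha⟩ := exists_root_quad (K := FiniteField.Extension F 2 2) 2 hfin
      (tpoly (ent X 0 0 + ent X 1 1)) hirr (tpoly_natDegree _)
    have ha' : a ^ 2 - algebraMap F (FiniteField.Extension F 2 2) (ent X 0 0 + ent X 1 1) * a
        + 1 = 0 := by
      simpa [tpoly] using ha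
    obtain ⟨-, h3⟩ := root_pow_card _ hroot a ha'
    have hmin := minpoly.eq_of_irreducible_of_monic hirr ha (tpoly_monic _)
    have hXq : (X : Matrix (Fin 2) (Fin 2) F) ^ (Fintype.card F + 1) =
        (1 : F) • (1 : Matrix (Fin 2) (Fin 2) F) := by
      apply pow_eq_smul_of_tpoly_dvd _ X.2
      show tpoly (ent X 0 0 + ent X 1 1) ∣ _
      rw [hmin]
      apply minpoly.dvd
      simp [h3]
    have h1 : (X : Matrix.ProjectiveSpecialLinearGroup (Fin 2) F) ^ (Fintype.card F + 1) = 1 :=
      (psl_mk_pow_eq_one_iff X _).2 ⟨1, by ring, hXq⟩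
    exact orderOf_dvd_of_pow_eq_one h1
  obtain ⟨lam, hlam⟩ := hsplit
  have hGns := nonscalar_of_mk_ne_one G hg
  obtain ⟨u, v, huv⟩ := cover_split X G lam hlam ht hGns
  refine ⟨(u : Matrix.ProjectiveSpecialLinearGroup (Fin 2) F),
    (v : Matrix.ProjectiveSpecialLinearGroup (Fin 2) F), ?_⟩
  rw [huv]
  rfl

end Cfsg.Agent.S2456
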