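import Cfsg.Statements.S2459
import Cfsg.Agent.H41.PSL3CC

set_option autoImplicit false
open Cfsg

namespace Cfsg.Agent.S2459

/-- A form of Thompson's conjecture for PSL(3,q), q > 2 (covering the non-identity elements), with a semisimple class: for F a finite field of characteristic p with more than 2 elements there is an element x of PSL(3,F) of order prime to p such that every non-identity element of PSL(3,F) is a product of two conjugates of x. -/
theorem result {F : Type*} [Field F] [Fintype F] (p : ℕ) [Fact p.Prime] [CharP F p] (h3 : 3 ≤ Fintype.card F) :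
    ∃ x : Matrix.ProjectiveSpecialLinearGroup (Fin 3) F, ¬ p ∣ orderOf x ∧ ∀ g : Matrix.ProjectiveSpecialLinearGroup (Fin 3) F, g ≠ 1 → ∃ u v : Matrix.ProjectiveSpecialLinearGroup (Fin 3) F, g = (u * x * u⁻¹) * (v * x * v⁻¹) := by
  have hp : p.Prime := Fact.out
  by_cases h3p : p = 3
  · have ht : (0 : F) ≠ 2 := by
      intro h
      have h2 : ((2 : ℕ) : F) = 0 := by
        rw [Nat.cast_ofNat]
        exact h.symm
      have h3 := (CharP.cast_eq_zero_iff F p 2).1 h2
      rw [h3p] at h3
      omega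
    refine ⟨(Cfsg.Agent.H41.xtSL (0 : F) : Matrix.ProjectiveSpecialLinearGroup (Fin 3) F), ?_,
      fun g hg => Cfsg.Agent.H41.psl3_cc 0 ht g hg⟩
    have hord : orderOf (Cfsg.Agent.H41.xtSL (0 : F) :
        Matrix.ProjectiveSpecialLinearGroup (Fin 3) F) ∣ 4 :=
      Cfsg.Agent.H41.psl_orderOf_dvd (Cfsg.Agent.H41.xtSL 0) 4 1 (by
        rw [one_smul]
        exact Cfsg.Agent.H41.xt_zero_pow)
    intro hdiv
    have h4 := dvd_trans hdiv hord
    rw [h3p] at h4
    omega
  · have ht : (-1 : F) ≠ 2 := by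
      intro h
      have h3 : ((3 : ℕ) : F) = 0 := by
        push_cast
        linear_combination (-1 : F) * h
      have h4 := (CharP.cast_eq_zero_iff F p 3).1 h3
      exact h3p ((Nat.prime_dvd_prime_iff_eq hp Nat.prime_three).1 h4)
    refine ⟨(Cfsg.Agent.H41.xtSL (-1 : F) : Matrix.ProjectiveSpecialLinearGroup (Fin 3) F), ?_,
      fun g hg => Cfsg.Agent.H41.psl3_cc (-1) ht g hg⟩
    have hord : orderOf (Cfsg.Agent.H41.xtSL (-1 : F) :
        Matrix.ProjectiveSpecialLinearGroup (Fin 3) F) ∣ 3 :=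
      Cfsg.Agent.H41.psl_orderOf_dvd (Cfsg.Agent.H41.xtSL (-1)) 3 1 (by
        rw [one_smul]
        exact Cfsg.Agent.H41.xt_neg_one_pow)
    intro hdiv
    have h4 := dvd_trans hdiv hord
    exact h3p ((Nat.prime_dvd_prime_iff_eq hp Nat.prime_three).1 h4)


end Cfsg.Agent.S2459
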