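import Cfsg.Statements.S2466
import Cfsg.Agent.H41.AltOrders

set_option autoImplicit false
open Cfsg

namespace Cfsg.Agent.S2466

open Cfsg.Agent.H41 in
/-- Adjacency of odd primes in the prime graph of the alternating groups: let r ≠ s be odd primes at most n. The alternating group of degree n has an element of order r·s if and only if r + s ≤ n. -/
theorem result (n r s : ℕ) (hr : r.Prime) (hs : s.Prime) (hr2 : r ≠ 2) (hs2 : s ≠ 2) (hrs : r ≠ s) (hrn : r ≤ n) (hsn : s ≤ n) :
    (r * s ∈ Set.range (orderOf : alternatingGroup (Fin n) → ℕ)) ↔ r + s ≤ n := by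
  rw [mem_range_orderOf_alt_iff]
  have hcop : Nat.Coprime r s := (Nat.coprime_primes hr hs).2 hrs
  constructor
  · rintro ⟨m, h2, hsum, hev, hlcm⟩
    obtain ⟨a, ha, hra⟩ := exists_mem_dvd_of_prime_dvd_lcm hr m (hlcm ▸ dvd_mul_right r s)
    obtain ⟨b, hb, hsb⟩ := exists_mem_dvd_of_prime_dvd_lcm hs m (hlcm ▸ dvd_mul_left s r)
    by_cases hab : a = b
    · subst hab
      have h1 : r * s ∣ a := Nat.Coprime.mul_dvd_of_dvd_of_dvd hcop hra hsb
      have ha0 : 0 < a := by have := h2 a ha; omega
      have h3 := Nat.le_of_dvd ha0 h1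
      have h4 := le_sum_of_mem_nat ha
      have h5 : r + s ≤ r * s := by nlinarith [hr.two_le, hs.two_le]
      omega
    · have h3 := add_le_sum_of_mem_of_ne ha hb hab
      have h1 := Nat.le_of_dvd (by have := h2 a ha; omega) hra
      have h2' := Nat.le_of_dvd (by have := h2 b hb; omega) hsb
      omega
  · intro h
    have hro : Odd r := hr.odd_of_ne_two hr2
    have hso : Odd s := hs.odd_of_ne_two hs2
    refine ⟨{r, s}, ?_, ?_, ?_, ?_⟩
    · intro a ha
      simp only [Multiset.insert_eq_cons, Multiset.mem_cons, Multiset.mem_singleton] at ha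
      rcases ha with rfl | rfl
      · exact hr.two_le
      · exact hs.two_le
    · simpa [Multiset.insert_eq_cons] using h
    · simp only [Multiset.insert_eq_cons, Multiset.sum_cons, Multiset.sum_singleton,
        Multiset.card_cons, Multiset.card_singleton]
      obtain ⟨x, hx⟩ := hro
      obtain ⟨y, hy⟩ := hso
      exact ⟨x + y + 2, by omega⟩
    · simp only [Multiset.insert_eq_cons, Multiset.lcm_cons, Multiset.lcm_singleton]
      simp [lcm_eq_nat_lcm, hcop.lcm_eq_mul]

end Cfsg.Agent.S2466
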