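import Cfsg.Statements.S2467
import Cfsg.Agent.H41.AltOrders

set_option autoImplicit false
open Cfsg

namespace Cfsg.Agent.S2467

theorem sum_card_of_three (x y z : ℕ) (hxy : x ≠ y) (hxz : x ≠ z) (hyz : y ≠ z) (m : Multiset ℕ)
    (h : ∀ a ∈ m, a = x ∨ a = y ∨ a = z) :
    m.sum = x * m.count x + y * m.count y + z * m.count z ∧
      Multiset.card m = m.count x + m.count y + m.count z := by
  induction m using Multiset.induction_on with
  | empty => simp
  | cons a m ih =>
    obtain ⟨ih1, ih2⟩ := ih (fun b hb => h b (Multiset.mem_cons_of_mem hb))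
    rw [Multiset.sum_cons, Multiset.card_cons, Multiset.count_cons, Multiset.count_cons,
      Multiset.count_cons, ih1, ih2]
    rcases h a (Multiset.mem_cons_self a m) with rfl | rfl | rfl
    · simp [hxy.symm, hxz.symm]; constructor <;> ring
    · simp [hxy, hyz.symm]; constructor <;> ring
    · simp [hxz, hyz]; constructor <;> ring

theorem dvd_two_mul_prime {a r : ℕ} (hr : r.Prime) (h : a ∣ 2 * r) (ha : 2 ≤ a) :
    a = 2 ∨ a = r ∨ a = 2 * r := by
  rcases Nat.coprime_or_dvd_of_prime hr a with hc | hd
  · have h2 : a ∣ 2 := (Nat.Coprime.dvd_of_dvd_mul_right hc.symm h)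
    have := Nat.le_of_dvd (by norm_num) h2
    left; omega
  · obtain ⟨k, rfl⟩ := hd
    have hk : k ∣ 2 := by
      rw [mul_comm 2 r] at h
      exact (Nat.mul_dvd_mul_iff_left hr.pos).1 h
    have hk2 := Nat.le_of_dvd (by norm_num) hk
    have hk0 : k ≠ 0 := by rintro rfl; simp at hk
    have : k = 1 ∨ k = 2 := by omega
    rcases this with rfl | rfl
    · right; left; ring
    · right; right; ring

open Cfsg.Agent.H41 in
/-- Adjacency of 2 and an odd prime in the prime graph of the alternating groups: let r be an odd prime at most n, with n ≥ 4. The alternating group of degree n has an element of order 2r if and only if r + 4 ≤ n. -/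
theorem result (n r : ℕ) (hn : 4 ≤ n) (hr : r.Prime) (hr2 : r ≠ 2) (hrn : r ≤ n) :
    (2 * r ∈ Set.range (orderOf : alternatingGroup (Fin n) → ℕ)) ↔ r + 4 ≤ n := by
  rw [mem_range_orderOf_alt_iff]
  have hro : Odd r := hr.odd_of_ne_two hr2
  obtain ⟨k, hk⟩ := hro
  have hr3 : 3 ≤ r := by have := hr.two_le; omega
  constructor
  · rintro ⟨m, h2, hsum, hev, hlcm⟩
    have hmem : ∀ a ∈ m, a = 2 ∨ a = r ∨ a = 2 * r := fun a ha =>
      dvd_two_mul_prime hr (hlcm ▸ Multiset.dvd_lcm ha) (h2 a ha)
    obtain ⟨hs, hc⟩ := sum_card_of_three 2 r (2 * r) (by omega) (by omega) (by omega) m hmem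
    obtain ⟨a, ha, hra⟩ := exists_mem_dvd_of_prime_dvd_lcm hr m (hlcm ▸ dvd_mul_left r 2)
    obtain ⟨b, hb, h2b⟩ := exists_mem_dvd_of_prime_dvd_lcm Nat.prime_two m (hlcm ▸ dvd_mul_right 2 r)
    have h1 : 1 ≤ m.count r + m.count (2 * r) := by
      rcases hmem a ha with rfl | rfl | rfl
      · have := Nat.le_of_dvd (by norm_num) hra; omega
      · have := Multiset.count_pos.2 ha; omega
      · have := Multiset.count_pos.2 ha; omega
    have h2' : 1 ≤ m.count 2 + m.count (2 * r) := by
      rcases hmem b hb with rfl | rfl | rfl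
      · have := Multiset.count_pos.2 hb; omega
      · omega
      · have := Multiset.count_pos.2 hb; omega
    set cx := m.count 2
    set cy := m.count r
    set cz := m.count (2 * r)
    have hev' : Even (cx + cz) := by
      rw [hs, hc] at hev
      have e : 2 * cx + r * cy + 2 * r * cz + (cx + cy + cz)
          = 2 * (cx + (k + 1) * cy + r * cz) + (cx + cz) := by
        rw [hk]; ring
      rw [e] at hev
      exact (Nat.even_add.1 hev).1 (even_two_mul _)
    obtain ⟨j, hj⟩ := hev'
    have hP : cy ≥ 1 → r ≤ r * cy := fun h => Nat.le_mul_of_pos_right r h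
    have hQ : cz ≥ 1 → 2 * r ≤ 2 * r * cz := fun h => Nat.le_mul_of_pos_right (2 * r) h
    have hQ2 : cz ≥ 2 → 4 * r ≤ 2 * r * cz := fun h => by nlinarith
    rw [hs] at hsum
    rcases Nat.lt_or_ge cz 1 with hz | hz
    · have := hP (by omega)
      omega
    · have := hQ hz
      rcases Nat.lt_or_ge cz 2 with hz2 | hz2
      · omega
      · have := hQ2 hz2
        omega
  · intro h
    refine ⟨{r, 2, 2}, ?_, ?_, ?_, ?_⟩
    · intro a ha
      simp only [Multiset.insert_eq_cons, Multiset.mem_cons, Multiset.mem_singleton] at ha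
      rcases ha with rfl | rfl | rfl <;> omega
    · simp only [Multiset.insert_eq_cons, Multiset.sum_cons, Multiset.sum_singleton]
      omega
    · simp only [Multiset.insert_eq_cons, Multiset.sum_cons, Multiset.sum_singleton,
        Multiset.card_cons, Multiset.card_singleton]
      exact ⟨k + 4, by omega⟩
    · simp only [Multiset.insert_eq_cons, Multiset.lcm_cons, Multiset.lcm_singleton]
      have hcop : Nat.Coprime r 2 := by
        rw [Nat.coprime_comm, Nat.coprime_primes Nat.prime_two hr]; omega
      simp [lcm_eq_nat_lcm, hcop.lcm_eq_mul, mul_comm]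

end Cfsg.Agent.S2467
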