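import Cfsg.Statements.S2471
import Mathlib

set_option autoImplicit false
open Cfsg

namespace Cfsg.Agent.S2471

open Matrix in
/-- Cayley–Hamilton for a 2×2 matrix of determinant one. -/
theorem sq_eq_of_det_one {F : Type*} [Field F] (A : Matrix (Fin 2) (Fin 2) F) (hA : A.det = 1) :
    A * A = (A 0 0 + A 1 1) • A - 1 := by
  rw [Matrix.det_fin_two] at hA
  ext i j
  fin_cases i <;> fin_cases j <;>
    simp [Matrix.mul_apply, Fin.sum_univ_two] <;>
    first | linear_combination (-1 : F) * hA | ring1

/-- In PSL(2,q) with q odd, the characteristic p is isolated from 2 in the prime graph: for F a finite field of odd characteristic p with at least 5 elements, PSL(2,F) has no element of order 2p. -/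
theorem result {F : Type*} [Field F] [Fintype F] (p : ℕ) [Fact p.Prime] [CharP F p] (_hp : p ≠ 2) (_h5 : 5 ≤ Fintype.card F) (g : Matrix.ProjectiveSpecialLinearGroup (Fin 2) F) :
    orderOf g ≠ 2 * p := by
  intro hord
  have hpp : p.Prime := Fact.out
  obtain ⟨A, rfl⟩ := QuotientGroup.mk_surjective g
  -- A^(2p) is central
  have h1 : ((A : Matrix.ProjectiveSpecialLinearGroup (Fin 2) F)) ^ (2 * p) = 1 := by
    rw [← hord]; exact pow_orderOf_eq_one _
  rw [← QuotientGroup.mk_pow, QuotientGroup.eq_one_iff, Matrix.SpecialLinearGroup.mem_center_iff] at h1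
  obtain ⟨c, hc, hcA⟩ := h1
  set M : Matrix (Fin 2) (Fin 2) F := (A : Matrix (Fin 2) (Fin 2) F) with hM
  have hdet : M.det = 1 := A.2
  have hCH := sq_eq_of_det_one M hdet
  set t : F := M 0 0 + M 1 1 with ht
  have hM2p : M ^ (2 * p) = Matrix.scalar (Fin 2) c := by
    rw [hcA]; simp [hM]
  by_cases ht0 : t = 0
  · -- A^2 = -1 is central
    have hA2 : (A : Matrix.ProjectiveSpecialLinearGroup (Fin 2) F) ^ 2 = 1 := by
      rw [← QuotientGroup.mk_pow, QuotientGroup.eq_one_iff, Matrix.SpecialLinearGroup.mem_center_iff]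
      refine ⟨-1, by simp, ?_⟩
      have : ((A ^ 2 : Matrix.SpecialLinearGroup (Fin 2) F) : Matrix (Fin 2) (Fin 2) F) = M * M := by
        simp [hM, pow_two]
      rw [this, hCH, ht0]
      ext i j
      fin_cases i <;> fin_cases j <;> simp
    have := orderOf_dvd_of_pow_eq_one hA2
    rw [hord] at this
    have := Nat.le_of_dvd (by norm_num) this
    have := hpp.two_le
    omega
  · -- A = t⁻¹ (A^2 + 1), so A^p is scalar
    have hMeq : M = t⁻¹ • (M * M + 1) := by
      rw [hCH]; simp [smul_smul, inv_mul_cancel₀ ht0]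
    have hcomm : Commute (M * M) (1 : Matrix (Fin 2) (Fin 2) F) := Commute.one_right _
    have hMp : M ^ p = Matrix.scalar (Fin 2) ((t⁻¹) ^ p * (c + 1)) := by
      conv_lhs => rw [hMeq]
      rw [smul_pow, add_pow_char_of_commute _ hcomm, one_pow, ← pow_two, ← pow_mul, hM2p]
      ext i j
      fin_cases i <;> fin_cases j <;> simp
    have hAp : (A : Matrix.ProjectiveSpecialLinearGroup (Fin 2) F) ^ p = 1 := by
      rw [← QuotientGroup.mk_pow, QuotientGroup.eq_one_iff, Matrix.SpecialLinearGroup.mem_center_iff]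
      have hval : ((A ^ p : Matrix.SpecialLinearGroup (Fin 2) F) : Matrix (Fin 2) (Fin 2) F) = M ^ p := by
        simp [hM]
      refine ⟨(t⁻¹) ^ p * (c + 1), ?_, ?_⟩
      · have hd : ((A ^ p : Matrix.SpecialLinearGroup (Fin 2) F) : Matrix (Fin 2) (Fin 2) F).det = 1 := (A ^ p).2
        rw [hval, hMp] at hd
        simpa using hd
      · rw [hval, hMp]
    have := orderOf_dvd_of_pow_eq_one hAp
    rw [hord] at this
    have := Nat.le_of_dvd hpp.pos this
    have := hpp.two_le
    omega

end Cfsg.Agent.S2471
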