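import Cfsg.Statements.S2478
-- import your own Cfsg.Agent.* helpers here
import Cfsg.Agent.Lib.Helper95.KGLA
import Cfsg.Agent.Lib.Helper95.KGLB
import Cfsg.Agent.Lib.Helper95.KGLC

set_option autoImplicit false
open Cfsg

namespace Cfsg.Agent.S2478

open Polynomial Cfsg.Agent.Lib.Helper95.KGLA Cfsg.Agent.Lib.Helper95.KGLB in
theorem upper_bound {F : Type*} [Field F] [Fintype F] (n : ℕ) :
    Nat.card (ConjClasses (Matrix.GeneralLinearGroup (Fin n) F)) ≤ Fintype.card F ^ n := by
  classical
  choose rep hrep using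
    (ConjClasses.exists_rep : ∀ c : ConjClasses (Matrix.GeneralLinearGroup (Fin n) F), _)
  have hex : ∀ c : ConjClasses (Matrix.GeneralLinearGroup (Fin n) F),
      ∃ D, HasDecomp (Matrix.toLin' (rep c).1) D := fun c => exists_hasDecomp _
  choose Dof hDof using hex
  have hgood : ∀ c, Good (Dof c) n := by
    intro c
    refine ⟨?_, ?_⟩
    · intro x hx
      obtain ⟨h1, h2, h3⟩ := hasDecomp_props _ _ (hDof c) x hx
      exact ⟨h1, h2, h3,
        hasDecomp_coeff_zero _ (toLin'_injective_of_unit (rep c)) _ (hDof c) x hx⟩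
    · rw [hasDecomp_sum _ _ (hDof c), Module.finrank_fin_fun]
  let ψ : ConjClasses (Matrix.GeneralLinearGroup (Fin n) F) → List.Vector F n :=
    fun c => ⟨code (Dof c) n, code_length _ _ (hgood c)⟩
  have hinj : Function.Injective ψ := by
    intro c c' h
    have h1 : code (Dof c) n = code (Dof c') n := congrArg Subtype.val h
    have h2 := code_injective _ _ n (hgood c) (hgood c') h1
    have h3 := isConj_of_hasDecomp _ _ _ (hDof c) (h2 ▸ hDof c')
    rw [← ConjClasses.mk_eq_mk_iff_isConj, hrep, hrep] at h3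
    exact h3
  calc Nat.card (ConjClasses (Matrix.GeneralLinearGroup (Fin n) F))
      ≤ Nat.card (List.Vector F n) := Nat.card_le_card_of_injective ψ hinj
    _ = Fintype.card F ^ n := by rw [Nat.card_eq_fintype_card, card_vector]


/-- The number of conjugacy classes of GL(n,q): for F a finite field with q elements and n ≥ 1, the number k of conjugacy classes of GL(n,F) satisfies q^n − q^(n−1) ≤ k ≤ q^n. -/
theorem result {F : Type*} [Field F] [Fintype F] (n : ℕ) (hn : 1 ≤ n) :
    Fintype.card F ^ n - Fintype.card F ^ (n - 1) ≤ Nat.card (ConjClasses (Matrix.GeneralLinearGroup (Fin n) F)) ∧ Nat.card (ConjClasses (Matrix.GeneralLinearGroup (Fin n) F)) ≤ Fintype.card F ^ n := by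
  refine ⟨?_, upper_bound n⟩
  obtain ⟨m, rfl⟩ : ∃ m, n = m + 1 := ⟨n - 1, by omega⟩
  exact Cfsg.Agent.Lib.Helper95.KGLC.lower_bound m

end Cfsg.Agent.S2478
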