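import Cfsg.Statements.S2485
import Mathlib

set_option autoImplicit false
open scoped Pointwise
open Cfsg

namespace Cfsg.Agent.S2485

open Matrix

/-- The matrix `J = [[0,-1],[1,0]]`. -/
def Jm (F : Type*) [Field F] : Matrix (Fin 2) (Fin 2) F := !![0, -1; 1, 0]

theorem Jm_mul_self (F : Type*) [Field F] : Jm F * Jm F = -1 := by
  ext i j
  fin_cases i <;> fin_cases j <;> simp [Jm, Matrix.mul_apply, Fin.sum_univ_two]

/-- Invertible matrices commuting or anticommuting with `J`. -/
def Ntil (F : Type*) [Field F] : Subgroup (GL (Fin 2) F) where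
  carrier := {X | (X : Matrix (Fin 2) (Fin 2) F) * Jm F = Jm F * X ∨
    (X : Matrix (Fin 2) (Fin 2) F) * Jm F = -(Jm F * X)}
  one_mem' := by left; simp
  mul_mem' := by
    rintro X Y (hX | hX) (hY | hY)
    · left; rw [Units.val_mul, mul_assoc, hY, ← mul_assoc, hX, mul_assoc]
    · right; rw [Units.val_mul, mul_assoc, hY, mul_neg, ← mul_assoc, hX, mul_assoc]
    · right; rw [Units.val_mul, mul_assoc, hY, ← mul_assoc, hX, neg_mul, mul_assoc]
    · left; rw [Units.val_mul, mul_assoc, hY, mul_neg, ← mul_assoc, hX, neg_mul, neg_neg,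
        mul_assoc]
  inv_mem' := by
    rintro X (hX | hX)
    · left
      calc (↑X⁻¹ : Matrix (Fin 2) (Fin 2) F) * Jm F
          = ↑X⁻¹ * (Jm F * ↑X) * ↑X⁻¹ := by
            rw [mul_assoc, mul_assoc, Units.mul_inv, mul_one]
        _ = ↑X⁻¹ * (↑X * Jm F) * ↑X⁻¹ := by rw [hX]
        _ = Jm F * ↑X⁻¹ := by rw [← mul_assoc, Units.inv_mul, one_mul]
    · right
      calc (↑X⁻¹ : Matrix (Fin 2) (Fin 2) F) * Jm F
          = ↑X⁻¹ * (Jm F * ↑X) * ↑X⁻¹ := by
            rw [mul_assoc, mul_assoc, Units.mul_inv, mul_one]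
        _ = -(↑X⁻¹ * (↑X * Jm F) * ↑X⁻¹) := by rw [hX]; simp
        _ = -(Jm F * ↑X⁻¹) := by rw [← mul_assoc, Units.inv_mul, one_mul]

theorem mem_Ntil {F : Type*} [Field F] (X : GL (Fin 2) F) :
    X ∈ Ntil F ↔ (X : Matrix (Fin 2) (Fin 2) F) * Jm F = Jm F * X ∨
      (X : Matrix (Fin 2) (Fin 2) F) * Jm F = -(Jm F * X) := Iff.rfl

variable {F : Type*} [Field F]

/-- Explicit form of matrices commuting with `J`. -/
theorem comm_form (X : Matrix (Fin 2) (Fin 2) F) :
    X * Jm F = Jm F * X ↔ X = !![X 0 0, -X 1 0; X 1 0, X 0 0] := by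
  constructor
  · intro h
    have e1 := congrFun (congrFun h 0) 0
    have e2 := congrFun (congrFun h 0) 1
    simp [Jm, Matrix.mul_apply, Fin.sum_univ_two] at e1 e2
    ext i j
    fin_cases i <;> fin_cases j <;> simp
    · linear_combination e1
    · linear_combination (-1 : F) * e2
  · intro h
    rw [h]
    ext i j
    fin_cases i <;> fin_cases j <;> simp [Jm, Matrix.mul_apply, Fin.sum_univ_two]

/-- Explicit form of matrices anticommuting with `J`. -/
theorem anti_form (X : Matrix (Fin 2) (Fin 2) F) :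
    X * Jm F = -(Jm F * X) ↔ X = !![X 0 0, X 1 0; X 1 0, -X 0 0] := by
  constructor
  · intro h
    have e1 := congrFun (congrFun h 0) 0
    have e2 := congrFun (congrFun h 0) 1
    simp only [Matrix.neg_apply, Matrix.mul_apply, Fin.sum_univ_two] at e1 e2
    simp [Jm] at e1 e2
    ext i j
    fin_cases i <;> fin_cases j <;> simp
    · linear_combination e1
    · linear_combination (-1 : F) * e2
  · intro h
    rw [h]
    ext i j
    fin_cases i <;> fin_cases j <;>
      simp [Jm, Matrix.mul_apply, Fin.sum_univ_two, Matrix.neg_apply]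

/-- `-1` is not a square, in the form we use. -/
def NS (F : Type*) [Field F] : Prop := ∀ a b : F, a ^ 2 + b ^ 2 = 0 → a = 0 ∧ b = 0

theorem NS.two_ne_zero (hns : NS F) : (2 : F) ≠ 0 := by
  intro h
  have := (hns 1 1 (by linear_combination h)).1
  exact one_ne_zero this

theorem det_c1 (a b : F) : (!![a, -b; b, a] : Matrix (Fin 2) (Fin 2) F).det = a ^ 2 + b ^ 2 := by
  rw [Matrix.det_fin_two_of]; ring

theorem det_c2 (a b : F) :
    (!![a, b; b, -a] : Matrix (Fin 2) (Fin 2) F).det = -(a ^ 2 + b ^ 2) := by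
  rw [Matrix.det_fin_two_of]; ring

/-- The matrix `[[a,-b],[b,a]]` as an element of `GL_2`. -/
noncomputable def c1 (hns : NS F) (v : {v : F × F // v ≠ 0}) : GL (Fin 2) F :=
  Matrix.GeneralLinearGroup.mkOfDetNeZero !![v.1.1, -v.1.2; v.1.2, v.1.1] (by
    rw [det_c1]; intro h; exact v.2 (Prod.ext (hns _ _ h).1 (hns _ _ h).2))

/-- The matrix `[[a,b],[b,-a]]` as an element of `GL_2`. -/
noncomputable def c2 (hns : NS F) (v : {v : F × F // v ≠ 0}) : GL (Fin 2) F :=
  Matrix.GeneralLinearGroup.mkOfDetNeZero !![v.1.1, v.1.2; v.1.2, -v.1.1] (by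
    rw [det_c2]; intro h
    have h' : v.1.1 ^ 2 + v.1.2 ^ 2 = 0 := neg_eq_zero.1 h
    exact v.2 (Prod.ext (hns _ _ h').1 (hns _ _ h').2))

theorem c1_val (hns : NS F) (v : {v : F × F // v ≠ 0}) :
    ((c1 hns v : GL (Fin 2) F) : Matrix (Fin 2) (Fin 2) F) = !![v.1.1, -v.1.2; v.1.2, v.1.1] :=
  rfl

theorem c2_val (hns : NS F) (v : {v : F × F // v ≠ 0}) :
    ((c2 hns v : GL (Fin 2) F) : Matrix (Fin 2) (Fin 2) F) = !![v.1.1, v.1.2; v.1.2, -v.1.1] :=
  rfl

theorem range_c (hns : NS F) :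
    Set.range (Sum.elim (c1 hns) (c2 hns)) = (Ntil F : Set (GL (Fin 2) F)) := by
  ext X
  constructor
  · rintro ⟨v | v, rfl⟩
    · simp only [Sum.elim_inl, SetLike.mem_coe, mem_Ntil]
      left
      rw [comm_form, c1_val]
      simp
    · simp only [Sum.elim_inr, SetLike.mem_coe, mem_Ntil]
      right
      rw [anti_form, c2_val]
      simp
  · intro hX
    have hX0 : (X : Matrix (Fin 2) (Fin 2) F) ≠ 0 := by
      intro h0
      have := Units.mul_inv X
      rw [h0, zero_mul] at this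
      exact zero_ne_one this
    rcases hX with h | h
    · rw [comm_form] at h
      have hv : ((X : Matrix (Fin 2) (Fin 2) F) 0 0, (X : Matrix (Fin 2) (Fin 2) F) 1 0) ≠ 0 := by
        intro h0
        have h1 := congrArg Prod.fst h0
        have h2 := congrArg Prod.snd h0
        simp only [Prod.fst_zero, Prod.snd_zero] at h1 h2
        apply hX0
        rw [h, h1, h2]
        ext i j
        fin_cases i <;> fin_cases j <;> simp
      refine ⟨Sum.inl ⟨_, hv⟩, ?_⟩
      apply Units.ext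
      rw [Sum.elim_inl, c1_val]
      exact h.symm
    · rw [anti_form] at h
      have hv : ((X : Matrix (Fin 2) (Fin 2) F) 0 0, (X : Matrix (Fin 2) (Fin 2) F) 1 0) ≠ 0 := by
        intro h0
        have h1 := congrArg Prod.fst h0
        have h2 := congrArg Prod.snd h0
        simp only [Prod.fst_zero, Prod.snd_zero] at h1 h2
        apply hX0
        rw [h, h1, h2]
        ext i j
        fin_cases i <;> fin_cases j <;> simp
      refine ⟨Sum.inr ⟨_, hv⟩, ?_⟩
      apply Units.ext
      rw [Sum.elim_inr, c2_val]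
      exact h.symm

theorem inj_c (hns : NS F) : Function.Injective (Sum.elim (c1 hns) (c2 hns)) := by
  have h2 := hns.two_ne_zero
  rintro (v | v) (w | w) h
  · simp only [Sum.elim_inl] at h
    have h' := congrArg Units.val h
    rw [c1_val, c1_val] at h'
    have e1 := congrFun (congrFun h' 0) 0
    have e2 := congrFun (congrFun h' 1) 0
    simp at e1 e2
    congr 1
    exact Subtype.ext (Prod.ext e1 e2)
  · exfalso
    simp only [Sum.elim_inl, Sum.elim_inr] at h
    have h' := congrArg Units.val h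
    rw [c1_val, c2_val] at h'
    have e1 := congrFun (congrFun h' 0) 0
    have e2 := congrFun (congrFun h' 1) 0
    have e3 := congrFun (congrFun h' 0) 1
    have e4 := congrFun (congrFun h' 1) 1
    simp at e1 e2 e3 e4
    have ha : v.1.1 = 0 := by
      have : (2 : F) * v.1.1 = 0 := by linear_combination e1 + e4
      exact (mul_eq_zero.1 this).resolve_left h2
    have hb : v.1.2 = 0 := by
      have : (2 : F) * v.1.2 = 0 := by linear_combination e2 - e3
      exact (mul_eq_zero.1 this).resolve_left h2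
    exact v.2 (Prod.ext ha hb)
  · exfalso
    simp only [Sum.elim_inl, Sum.elim_inr] at h
    have h' := congrArg Units.val h
    rw [c1_val, c2_val] at h'
    have e1 := congrFun (congrFun h' 0) 0
    have e2 := congrFun (congrFun h' 1) 0
    have e3 := congrFun (congrFun h' 0) 1
    have e4 := congrFun (congrFun h' 1) 1
    simp at e1 e2 e3 e4
    have ha : w.1.1 = 0 := by
      have : (2 : F) * w.1.1 = 0 := by linear_combination (-1 : F) * e1 - e4
      exact (mul_eq_zero.1 this).resolve_left h2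
    have hb : w.1.2 = 0 := by
      have : (2 : F) * w.1.2 = 0 := by linear_combination (-1 : F) * e2 + e3
      exact (mul_eq_zero.1 this).resolve_left h2
    exact w.2 (Prod.ext ha hb)
  · simp only [Sum.elim_inr] at h
    have h' := congrArg Units.val h
    rw [c2_val, c2_val] at h'
    have e1 := congrFun (congrFun h' 0) 0
    have e2 := congrFun (congrFun h' 1) 0
    simp at e1 e2
    congr 1
    exact Subtype.ext (Prod.ext e1 e2)

theorem card_Ntil [Fintype F] (hns : NS F) :
    Nat.card (Ntil F) = 2 * (Fintype.card F ^ 2 - 1) := by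
  classical
  have h1 : Nat.card (Ntil F) = Nat.card (Set.range (Sum.elim (c1 hns) (c2 hns))) := by
    rw [range_c hns]
    rfl
  rw [h1, Nat.card_range_of_injective (inj_c hns), Nat.card_sum, ← two_mul]
  congr 1
  rw [Nat.card_eq_fintype_card, Fintype.card_subtype_compl, Fintype.card_subtype_eq,
    Fintype.card_prod, pow_two]

theorem card_center [Fintype F] :
    Nat.card (Subgroup.center (GL (Fin 2) F)) = Fintype.card F - 1 := by
  classical
  rw [Matrix.GeneralLinearGroup.center_eq_range_scalar]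
  have hinj : Function.Injective
      (Matrix.GeneralLinearGroup.scalar (Fin 2) : Fˣ →* GL (Fin 2) F) := by
    intro a b hab
    have h := congrArg (fun g : GL (Fin 2) F => (g : Matrix (Fin 2) (Fin 2) F) 0 0) hab
    simp at h
    exact Units.ext h
  rw [← Fintype.card_units, ← Nat.card_eq_fintype_card]
  exact (Nat.card_congr (Equiv.ofInjective _ hinj)).symm

theorem center_le_Ntil : Subgroup.center (GL (Fin 2) F) ≤ Ntil F := by
  intro X hX
  rw [Matrix.GeneralLinearGroup.mem_center_iff_val_mem_range_scalar] at hX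
  obtain ⟨a, ha⟩ := hX
  left
  rw [← ha]
  ext i j
  fin_cases i <;> fin_cases j <;> simp [Jm, Matrix.mul_apply, Fin.sum_univ_two]

theorem not_center_of_anti (hns : NS F) (X : GL (Fin 2) F)
    (h : (X : Matrix (Fin 2) (Fin 2) F) * Jm F = -(Jm F * X)) :
    X ∉ Subgroup.center (GL (Fin 2) F) := by
  intro hX
  rw [Matrix.GeneralLinearGroup.mem_center_iff_val_mem_range_scalar] at hX
  obtain ⟨a, ha⟩ := hX
  have hX0 : (X : Matrix (Fin 2) (Fin 2) F) ≠ 0 := by
    intro h0
    have := Units.mul_inv X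
    rw [h0, zero_mul] at this
    exact zero_ne_one this
  rw [anti_form] at h
  have e1 := congrFun (congrFun ha 0) 0
  have e2 := congrFun (congrFun ha 1) 0
  have e3 := congrFun (congrFun ha 1) 1
  simp at e1 e2 e3
  have e4 := congrFun (congrFun h 1) 1
  simp at e4
  have hx : (X : Matrix (Fin 2) (Fin 2) F) 0 0 = 0 := by
    have : (2 : F) * (X : Matrix (Fin 2) (Fin 2) F) 0 0 = 0 := by
      linear_combination e3 - e1 + e4
    exact (mul_eq_zero.1 this).resolve_left hns.two_ne_zero
  apply hX0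
  rw [h, hx, ← e2]
  ext i j
  fin_cases i <;> fin_cases j <;> simp

theorem key (hns : NS F) (Y : GL (Fin 2) F) :
    ∃ M : GL (Fin 2) F, M ∉ Subgroup.center (GL (Fin 2) F) ∧ M ∈ Ntil F ∧
      Y⁻¹ * M * Y ∈ Ntil F := by
  have h2 := hns.two_ne_zero
  have hJJ := Jm_mul_self F
  set Ym : Matrix (Fin 2) (Fin 2) F := (Y : Matrix (Fin 2) (Fin 2) F) with hYm
  set Yi : Matrix (Fin 2) (Fin 2) F := ((Y⁻¹ : GL (Fin 2) F) : Matrix (Fin 2) (Fin 2) F) with hYi
  have hYYi : Ym * Yi = 1 := Units.mul_inv Y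
  have hYiY : Yi * Ym = 1 := Units.inv_mul Y
  set J' : Matrix (Fin 2) (Fin 2) F := Ym * Jm F * Yi with hJ'def
  have hJ'Y : J' * Ym = Ym * Jm F := by
    rw [hJ'def, mul_assoc, hYiY, mul_one]
  have hYJ' : Yi * J' = Jm F * Yi := by
    rw [hJ'def, ← mul_assoc, ← mul_assoc, hYiY, one_mul]
  have hJ' : J' * J' = -1 := by
    calc J' * J' = Ym * Jm F * Yi * J' := by
          rw [← hJ'def]
      _ = Ym * Jm F * (Yi * J') := by
          rw [mul_assoc]
      _ = Ym * (Jm F * Jm F) * Yi := by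
          rw [hYJ']; simp only [mul_assoc]
      _ = -1 := by rw [hJJ]; simp [hYYi]
  set M₀ : Matrix (Fin 2) (Fin 2) F := Jm F * J' - J' * Jm F with hM₀
  have hM₀J : M₀ * Jm F = -(Jm F * M₀) := by
    rw [hM₀, sub_mul, mul_sub, mul_assoc J' (Jm F) (Jm F), hJJ, ← mul_assoc (Jm F) (Jm F) J', hJJ]
    simp only [mul_neg, mul_one, neg_mul, one_mul, mul_assoc]
    abel
  have hM₀J' : M₀ * J' = -(J' * M₀) := by
    rw [hM₀, sub_mul, mul_sub, mul_assoc (Jm F) J' J', hJ', ← mul_assoc J' J' (Jm F), hJ']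
    simp only [mul_neg, mul_one, neg_mul, one_mul, mul_assoc]
    abel
  have hJdet : (Jm F).det ≠ 0 := by
    rw [Jm, Matrix.det_fin_two_of]; simp
  by_cases h0 : M₀ = 0
  · have hc : J' * Jm F = Jm F * J' := (sub_eq_zero.1 h0).symm
    have hc' := hc
    rw [comm_form] at hc
    have e1 := congrFun (congrFun hJ' 0) 0
    have e2 := congrFun (congrFun hJ' 1) 0
    rw [hc] at e1 e2
    simp [Matrix.mul_apply, Fin.sum_univ_two] at e1 e2
    have hab : J' 0 0 * J' 1 0 = 0 := by
      have : (2 : F) * (J' 0 0 * J' 1 0) = 0 := by linear_combination e2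
      exact (mul_eq_zero.1 this).resolve_left h2
    have ha : J' 0 0 = 0 := by
      rcases mul_eq_zero.1 hab with h | h
      · exact h
      · exfalso
        rw [h] at e1
        have := (hns (J' 0 0) 1 (by linear_combination e1)).2
        exact one_ne_zero this
    have hb : J' 1 0 = 1 ∨ J' 1 0 = -1 := by
      rw [ha] at e1
      have : (J' 1 0 - 1) * (J' 1 0 + 1) = 0 := by linear_combination (-1 : F) * e1
      rcases mul_eq_zero.1 this with h | h
      · left; exact sub_eq_zero.1 h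
      · right; exact eq_neg_of_add_eq_zero_left h
    have hY : Y ∈ Ntil F := by
      rcases hb with hb | hb
      · left
        rw [← hJ'Y, hc, ha, hb]
        rfl
      · right
        rw [← hJ'Y, hc, ha, hb, ← neg_mul]
        congr 1
        ext i j
        fin_cases i <;> fin_cases j <;> simp [Jm]
    have hJN : Matrix.GeneralLinearGroup.mkOfDetNeZero (Jm F) hJdet ∈ Ntil F := by
      left; rfl
    refine ⟨Matrix.GeneralLinearGroup.mkOfDetNeZero (Jm F) hJdet, ?_, hJN,
      mul_mem (mul_mem (inv_mem hY) hJN) hY⟩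
    intro hcen
    rw [Matrix.GeneralLinearGroup.mem_center_iff_val_mem_range_scalar] at hcen
    obtain ⟨a, ha⟩ := hcen
    have e := congrFun (congrFun ha 1) 0
    simp [Matrix.GeneralLinearGroup.mkOfDetNeZero, Jm] at e
  · have hform := hM₀J
    rw [anti_form] at hform
    have hdet : M₀.det ≠ 0 := by
      rw [hform, det_c2]
      intro h
      have h' : M₀ 0 0 ^ 2 + M₀ 1 0 ^ 2 = 0 := neg_eq_zero.1 h
      apply h0
      rw [hform, (hns _ _ h').1, (hns _ _ h').2]
      ext i j
      fin_cases i <;> fin_cases j <;> simp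
    refine ⟨Matrix.GeneralLinearGroup.mkOfDetNeZero M₀ hdet, ?_, Or.inr hM₀J, Or.inr ?_⟩
    · exact not_center_of_anti hns _ hM₀J
    · show Yi * M₀ * Ym * Jm F = -(Jm F * (Yi * M₀ * Ym))
      calc Yi * M₀ * Ym * Jm F
          = Yi * (M₀ * J') * Ym := by
            rw [mul_assoc _ Ym (Jm F), ← hJ'Y]
            simp only [mul_assoc]
        _ = -(Yi * J' * M₀ * Ym) := by
            rw [hM₀J']
            simp only [mul_neg, neg_mul, mul_assoc]
        _ = -(Jm F * (Yi * M₀ * Ym)) := by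
            rw [hYJ']
            simp only [mul_assoc]

theorem main_aux [Fintype F] (hns : NS F) {k : ℕ} (hk : Fintype.card F + 1 = 2 ^ k)
    (hq : 7 ≤ Fintype.card F)
    (Z : Subgroup (GL (Fin 2) F)) [Z.Normal] (hZ : Z = Subgroup.center (GL (Fin 2) F))
    (H : Sylow 2 (GL (Fin 2) F ⧸ Z))
    (x : GL (Fin 2) F ⧸ Z) :
    (H : Subgroup (GL (Fin 2) F ⧸ Z)) ⊓
      MulAut.conj x • (H : Subgroup _) ≠ ⊥ := by
  classical
  set π := QuotientGroup.mk' Z with hπ
  set H₀ : Subgroup (GL (Fin 2) F ⧸ Z) := (Ntil F).map π with hH₀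
  -- the key claim, in the quotient
  have keyq : ∀ y : GL (Fin 2) F ⧸ Z, ∃ m, m ≠ 1 ∧ m ∈ H₀ ∧ y⁻¹ * m * y ∈ H₀ := by
    intro y
    obtain ⟨Y, rfl⟩ := QuotientGroup.mk'_surjective Z y
    obtain ⟨M, hM1, hM2, hM3⟩ := key hns Y
    refine ⟨π M, ?_, Subgroup.mem_map_of_mem _ hM2, ?_⟩
    · intro h
      apply hM1
      have h' : M ∈ (QuotientGroup.mk' Z).ker := h
      rwa [QuotientGroup.ker_mk', hZ] at h'
    · have : (π Y)⁻¹ * π M * π Y = π (Y⁻¹ * M * Y) := by simp
      rw [this]
      exact Subgroup.mem_map_of_mem _ hM3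
  -- arithmetic
  obtain ⟨j, rfl⟩ : ∃ j, k = j + 1 := by
    rcases k with _ | j
    · exfalso
      have : (2 : ℕ) ^ 0 = 1 := rfl
      omega
    · exact ⟨j, rfl⟩
  obtain ⟨i, rfl⟩ : ∃ i, j = i + 1 := by
    rcases j with _ | i
    · exfalso
      have : (2 : ℕ) ^ (0 + 1) = 2 := rfl
      omega
    · exact ⟨i, rfl⟩
  set t := 2 ^ i with ht
  have hkt : Fintype.card F + 1 = 4 * t := by rw [hk, ht]; ring
  obtain ⟨s, hs⟩ : ∃ s, Fintype.card F = 2 * s + 1 := ⟨2 * t - 1, by omega⟩
  have hst : s + 1 = 2 * t := by omega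
  have hs0 : 0 < s := by omega
  have hsodd : ¬ 2 ∣ s := by omega
  -- cardinalities
  have hcGL : Nat.card (GL (Fin 2) F) = 4 * s * (s + 1) * (2 * s * (2 * s + 1)) := by
    rw [Matrix.card_GL_field]
    simp only [Fin.prod_univ_two, Fin.val_zero, Fin.val_one, pow_zero, pow_one, hs]
    have e1 : (2 * s + 1) ^ 2 - 1 = 4 * s * (s + 1) := by
      have : (2 * s + 1) ^ 2 = 4 * s * (s + 1) + 1 := by ring
      omega
    have e2 : (2 * s + 1) ^ 2 - (2 * s + 1) = 2 * s * (2 * s + 1) := by
      have : (2 * s + 1) ^ 2 = 2 * s * (2 * s + 1) + (2 * s + 1) := by ring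
      omega
    rw [e1, e2]
  have hcZ : Nat.card Z = 2 * s := by
    rw [hZ, card_center, hs]
    omega
  have hcN : Nat.card (Ntil F) = 8 * s * (s + 1) := by
    rw [card_Ntil hns, hs]
    have e1 : (2 * s + 1) ^ 2 - 1 = 4 * s * (s + 1) := by
      have : (2 * s + 1) ^ 2 = 4 * s * (s + 1) + 1 := by ring
      omega
    rw [e1]
    ring
  have h3 : Nat.card (GL (Fin 2) F) = Nat.card (GL (Fin 2) F ⧸ Z) * Nat.card Z :=
    Subgroup.card_eq_card_quotient_mul_card_subgroup Z
  have hcG : Nat.card (GL (Fin 2) F ⧸ Z) = 4 * (s + 1) * (s * (2 * s + 1)) := by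
    rw [hcGL, hcZ] at h3
    have h2s : 0 < 2 * s := by omega
    apply Nat.eq_of_mul_eq_mul_right h2s
    rw [← h3]
    ring
  have h_idx : H₀.index = (Ntil F).index := by
    rw [← Subgroup.index_comap_of_surjective H₀ (QuotientGroup.mk'_surjective Z), hH₀,
      Subgroup.comap_map_eq_self (by rw [QuotientGroup.ker_mk', hZ]; exact center_le_Ntil)]
  have h1 : Nat.card H₀ * H₀.index = Nat.card (GL (Fin 2) F ⧸ Z) := Subgroup.card_mul_index H₀
  have h2 : Nat.card (Ntil F) * (Ntil F).index = Nat.card (GL (Fin 2) F) :=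
    Subgroup.card_mul_index _
  have hidx0 : 0 < (Ntil F).index := Nat.pos_of_ne_zero Subgroup.index_ne_zero_of_finite
  have hcH : Nat.card H₀ = 4 * (s + 1) := by
    have h2s : 0 < 2 * s := by omega
    apply Nat.eq_of_mul_eq_mul_right h2s
    apply Nat.eq_of_mul_eq_mul_right hidx0
    calc Nat.card H₀ * (2 * s) * (Ntil F).index
        = (Nat.card H₀ * H₀.index) * Nat.card Z := by rw [h_idx, hcZ]; ring
      _ = Nat.card (GL (Fin 2) F) := by rw [h1, h3]
      _ = 4 * (s + 1) * (2 * s) * (Ntil F).index := by rw [← h2, hcN]; ring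
  have hpow : 4 * (s + 1) = 2 ^ (i + 1 + 1 + 1) := by
    rw [hst, ht]; ring
  have hfac : (Nat.card (GL (Fin 2) F ⧸ Z)).factorization 2 = i + 1 + 1 + 1 := by
    rw [hcG, hpow]
    have hodd : ¬ 2 ∣ s * (2 * s + 1) := by
      rw [Nat.Prime.dvd_mul Nat.prime_two]
      omega
    rw [Nat.factorization_mul (by positivity) (by positivity)]
    simp only [Finsupp.coe_add, Pi.add_apply]
    rw [Nat.Prime.factorization_pow Nat.prime_two, Nat.factorization_eq_zero_of_not_dvd hodd]
    simp
  -- `H₀` is a Sylow 2-subgroup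
  let S₀ : Sylow 2 (GL (Fin 2) F ⧸ Z) := Sylow.ofCard H₀ (by rw [hfac, hcH, hpow])
  obtain ⟨g, hg⟩ := MulAction.exists_smul_eq (GL (Fin 2) F ⧸ Z) S₀ H
  have hH : (H : Subgroup (GL (Fin 2) F ⧸ Z)) = MulAut.conj g • H₀ := by
    rw [← hg]
    rfl
  obtain ⟨m, hm1, hm2, hm3⟩ := keyq (g⁻¹ * x * g)
  intro hbot
  have hz : g * m * g⁻¹ ∈ (H : Subgroup (GL (Fin 2) F ⧸ Z)) ⊓
      MulAut.conj x • (H : Subgroup (GL (Fin 2) F ⧸ Z)) := by
    rw [hH]
    refine Subgroup.mem_inf.2 ⟨?_, ?_⟩
    · rw [Subgroup.mem_pointwise_smul_iff_inv_smul_mem]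
      have : (MulAut.conj g)⁻¹ • (g * m * g⁻¹) = m := by
        simp [MulAut.smul_def, mul_assoc]
      rw [this]
      exact hm2
    · rw [Subgroup.mem_pointwise_smul_iff_inv_smul_mem,
        Subgroup.mem_pointwise_smul_iff_inv_smul_mem]
      have : (MulAut.conj g)⁻¹ • (MulAut.conj x)⁻¹ • (g * m * g⁻¹)
          = (g⁻¹ * x * g)⁻¹ * m * (g⁻¹ * x * g) := by
        simp only [MulAut.smul_def, MulAut.conj_inv_apply]
        group
      rw [this]
      exact hm3
  rw [hbot, Subgroup.mem_bot] at hz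
  apply hm1
  have : m = g⁻¹ * (g * m * g⁻¹) * g := by group
  rw [this, hz]
  group

/-- Let q = 2^k − 1 ≥ 7 be a prime and let G = PGL(2,q), the general linear group of degree 2 over the field with q elements modulo its centre. Then any two Sylow 2-subgroups of G have a non-trivial intersection: for a Sylow 2-subgroup H and every x ∈ G, H ∩ H^x ≠ 1. -/
theorem result {q k : ℕ} [Fact q.Prime] (hk : q + 1 = 2 ^ k) (hq : 7 ≤ q)
    (H : Sylow 2 (GL (Fin 2) (ZMod q) ⧸ Subgroup.center (GL (Fin 2) (ZMod q))))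
    (x : GL (Fin 2) (ZMod q) ⧸ Subgroup.center (GL (Fin 2) (ZMod q))) :
    (H : Subgroup (GL (Fin 2) (ZMod q) ⧸ Subgroup.center (GL (Fin 2) (ZMod q)))) ⊓ MulAut.conj x • (H : Subgroup _) ≠ ⊥ := by
  have hq4 : q % 4 = 3 := by
    rcases k with _ | _ | j
    · exfalso
      have : (2 : ℕ) ^ 0 = 1 := rfl
      omega
    · exfalso
      have : (2 : ℕ) ^ (0 + 1) = 2 := rfl
      omega
    · have : 2 ^ (j + 1 + 1) = 4 * 2 ^ j := by ring
      omega
  have hns : NS (ZMod q) := by
    intro a b hab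
    have hb : b = 0 := by
      by_contra hb
      have : IsSquare (-1 : ZMod q) := by
        refine ⟨a / b, ?_⟩
        field_simp
        linear_combination (-1 : ZMod q) * hab
      rw [ZMod.exists_sq_eq_neg_one_iff] at this
      exact this hq4
    refine ⟨?_, hb⟩
    rw [hb] at hab
    simpa using hab
  have hk' : Fintype.card (ZMod q) + 1 = 2 ^ k := by rw [ZMod.card]; exact hk
  have hq' : 7 ≤ Fintype.card (ZMod q) := by rw [ZMod.card]; exact hq
  exact main_aux hns hk' hq' _ rfl H x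

end Cfsg.Agent.S2485
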