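import Cfsg.Statements.S2486
import Cfsg.Agent.H41.BorelF2B
import Cfsg.Agent.H41.SylInter

set_option autoImplicit false
open scoped Pointwise
open Cfsg

namespace Cfsg.Agent.S2486

/-- Let n ≥ 4 and let G be a finite group with a normal subgroup N of index 2 isomorphic to SL(n,2) and with trivial centralizer in G (so G is the extension of the simple group L_n(2) by its inverse-transpose automorphism, its full automorphism group). Then any two Sylow 2-subgroups of G have a non-trivial intersection: for a Sylow 2-subgroup H and every x ∈ G, H ∩ H^x ≠ 1. -/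
theorem result {G : Type*} [Group G] [Finite G] {n : ℕ} (hn : 4 ≤ n) (N : Subgroup G) [N.Normal]
    (e : N ≃* Matrix.SpecialLinearGroup (Fin n) (ZMod 2)) (hidx : N.index = 2)
    (hC : Subgroup.centralizer (N : Set G) = ⊥)
    (H : Sylow 2 G) (x : G) :
    (H : Subgroup G) ⊓ MulAut.conj x • (H : Subgroup G) ≠ ⊥ := by
  exact Cfsg.Agent.H41.sylow_inter_ne_bot_of_equiv N hidx e (Cfsg.Agent.H41.borelF2 n)
    (Cfsg.Agent.H41.borelF2_isPGroup n) (fun l h => Cfsg.Agent.H41.borelF2_normalizer l h)
    (fun g₁ g₂ h₁ h₂ => Cfsg.Agent.H41.oppF2_unique g₁ g₂ h₁ h₂) H x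

end Cfsg.Agent.S2486
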