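import Cfsg.Statements.S2488
import Mathlib
import Cfsg.Agent.Lib.Helper42.A6Facts

set_option autoImplicit false
set_option linter.unusedSectionVars false
set_option linter.style.haveILetI false
open scoped Pointwise
open Cfsg

namespace Cfsg.Agent.S2488

open Cfsg.Agent.Lib.Helper42.A6Facts

section general
variable {G : Type*} [Group G]

/-- conjugation action on an invariant subtype -/
@[reducible] def conjSub {K : Type*} [Group K] (φ : K →* G) (P : G → Prop)
    (hP : ∀ k v, P v → P (φ k * v * (φ k)⁻¹)) : MulAction K {v : G // P v} where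
  smul k v := ⟨φ k * v.1 * (φ k)⁻¹, hP k v.1 v.2⟩
  one_smul v := Subtype.ext (by
    show φ 1 * v.1 * (φ 1)⁻¹ = v.1
    simp)
  mul_smul k k' v := Subtype.ext (by
    show φ (k * k') * v.1 * (φ (k * k'))⁻¹ = φ k * (φ k' * v.1 * (φ k')⁻¹) * (φ k)⁻¹
    simp [mul_assoc])

/-- the number of solutions of `v² = 1` in a group of even order is even -/
lemma even_card_sq (N : Subgroup G) [Finite N] (h : 2 ∣ Nat.card N) :
    2 ∣ Nat.card {v : G // v ∈ N ∧ v ^ 2 = 1} := by
  classical
  have := Fintype.ofFinite N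
  let f : Function.End N := fun v => v⁻¹
  have hf : f ^ 2 ^ 1 = 1 := by
    rw [pow_one, pow_two]
    funext v
    show ((v : N)⁻¹)⁻¹ = v
    exact inv_inv v
  have key := Equiv.Perm.card_fixedPoints_modEq (p := 2) (n := 1) hf
  rw [← Nat.card_eq_fintype_card, ← Nat.card_eq_fintype_card] at key
  have e : Function.fixedPoints f ≃ {v : G // v ∈ N ∧ v ^ 2 = 1} :=
    { toFun := fun w => ⟨w.1.1, w.1.2, by
        have h1 : (w.1)⁻¹ = w.1 := w.2
        have h2 : (w.1 : G)⁻¹ = w.1 := congrArg Subtype.val h1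
        rw [pow_two]
        nth_rewrite 1 [← h2]
        exact inv_mul_cancel _⟩
      invFun := fun v => ⟨⟨v.1, v.2.1⟩, by
        show (⟨v.1, v.2.1⟩ : N)⁻¹ = ⟨v.1, v.2.1⟩
        apply Subtype.ext
        show (v.1)⁻¹ = v.1
        have h1 := v.2.2
        rw [pow_two] at h1
        exact inv_eq_of_mul_eq_one_left h1⟩
      left_inv := fun w => rfl
      right_inv := fun v => rfl }
  rw [← Nat.card_congr e]
  exact (Nat.ModEq.dvd_iff key (dvd_refl 2)).mp h

end general

section main
variable {G : Type*} [Group G] [Finite G] (N : Subgroup G) [N.Normal]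

omit [Finite G] in
lemma pow_four_mem (hidx : N.index = 4) (c : G) : c ^ 4 ∈ N := by
  have h1 : ((c : G) : G ⧸ N) ^ Nat.card (G ⧸ N) = 1 := pow_card_eq_one'
  have h2 : Nat.card (G ⧸ N) = 4 := hidx
  rw [h2, ← QuotientGroup.mk_pow] at h1
  exact (QuotientGroup.eq_one_iff _).mp h1

lemma mem_of_odd (hidx : N.index = 4) (c : G) (hc : Odd (orderOf c)) : c ∈ N := by
  have hcop : Nat.Coprime 4 (orderOf c) := by
    have : Nat.Coprime 2 (orderOf c) := Nat.coprime_two_left.mpr hc
    exact Nat.Coprime.pow_left 2 this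
  obtain ⟨m, hm⟩ := exists_pow_eq_self_of_coprime hcop
  rw [← hm]
  exact N.pow_mem (pow_four_mem N hidx c) m

lemma order_le (hpow : ∀ v ∈ N, v ^ 2 = 1 ∨ v ^ 3 = 1 ∨ v ^ 4 = 1 ∨ v ^ 5 = 1) (v : G)
    (hv : v ∈ N) : orderOf v ≤ 5 := by
  rcases hpow v hv with h | h | h | h
  · exact le_trans (Nat.le_of_dvd (by norm_num) (orderOf_dvd_of_pow_eq_one h)) (by norm_num)
  · exact le_trans (Nat.le_of_dvd (by norm_num) (orderOf_dvd_of_pow_eq_one h)) (by norm_num)
  · exact le_trans (Nat.le_of_dvd (by norm_num) (orderOf_dvd_of_pow_eq_one h)) (by norm_num)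
  · exact le_trans (Nat.le_of_dvd (by norm_num) (orderOf_dvd_of_pow_eq_one h)) (by norm_num)

/-- the centralizer of an involution of `N` is a `2`-group -/
lemma isPGroup_centralizer (hidx : N.index = 4)
    (hpow : ∀ v ∈ N, v ^ 2 = 1 ∨ v ^ 3 = 1 ∨ v ^ 4 = 1 ∨ v ^ 5 = 1)
    (t : G) (ht : t ∈ N) (ht2 : orderOf t = 2) :
    IsPGroup 2 (Subgroup.centralizer {t}) := by
  rw [IsPGroup.iff_card]
  rcases Nat.eq_two_pow_or_exists_odd_prime_and_dvd (Nat.card (Subgroup.centralizer {t})) with
    ⟨k, hk⟩ | ⟨p, hp, hpdvd, hodd⟩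
  · exact ⟨k, hk⟩
  · exfalso
    have : Fact p.Prime := ⟨hp⟩
    obtain ⟨c, hc⟩ := exists_prime_orderOf_dvd_card' p hpdvd
    have hc' : orderOf (c : G) = p := by rw [Subgroup.orderOf_coe, hc]
    have hcN : (c : G) ∈ N := mem_of_odd N hidx c (by rw [hc']; exact hodd)
    have hcomm : Commute t (c : G) := by
      have := Subgroup.mem_centralizer_singleton_iff.mp c.2
      exact this.symm
    have hcop : (orderOf t).Coprime (orderOf (c : G)) := by
      rw [ht2, hc']
      exact Nat.coprime_two_left.mpr hodd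
    have hord := hcomm.orderOf_mul_eq_mul_orderOf_of_coprime hcop
    rw [ht2, hc'] at hord
    have hle := order_le N hpow (t * c) (N.mul_mem ht hcN)
    have hp3 : 3 ≤ p := by
      have := hp.two_le
      rcases hodd with ⟨j, hj⟩
      omega
    omega

omit [Finite G] [N.Normal] in
lemma comm_of_conj_inv (a u : G) (m : ℕ) (h : a * u * a⁻¹ = u⁻¹) (hm : u ^ m * u ^ m = 1) :
    u ^ m * a = a * u ^ m := by
  have h1 : a * u ^ m * a⁻¹ = (u ^ m)⁻¹ := by rw [← conj_pow, h, inv_pow]
  have h2 : (u ^ m)⁻¹ = u ^ m := inv_eq_of_mul_eq_one_left hm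
  rw [h2] at h1
  exact (mul_inv_eq_iff_eq_mul.mp h1).symm

/-- the centralizer of an element of order `3` or `5` of `N` has even order -/
lemma even_card_centralizer (hidx : N.index = 4) (hcardG : Nat.card G = 1440)
    (hpow : ∀ v ∈ N, v ^ 2 = 1 ∨ v ^ 3 = 1 ∨ v ^ 4 = 1 ∨ v ^ 5 = 1)
    (hE3 : Nat.card {v : G // v ∈ N ∧ orderOf v = 3} ≤ 80)
    (hE5 : Nat.card {v : G // v ∈ N ∧ orderOf v = 5} ≤ 144)
    (u : G) (huN : u ∈ N) (k : ℕ) (hk : orderOf u = k) (hk35 : k = 3 ∨ k = 5) :
    2 ∣ Nat.card (Subgroup.centralizer {u}) := by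
  by_contra hodd
  set C := Subgroup.centralizer ({u} : Set G) with hC
  letI := conjSub (MonoidHom.id G) (fun v => v ∈ N ∧ orderOf v = k) (fun g v hv => by
    refine ⟨Subgroup.Normal.conj_mem inferInstance v hv.1 g, ?_⟩
    have : orderOf (g * v * g⁻¹) = orderOf v := MulEquiv.orderOf_eq (MulAut.conj g) v
    rw [← hv.2]
    exact this)
  let x₀ : {v : G // v ∈ N ∧ orderOf v = k} := ⟨u, huN, hk⟩
  have hstab : MulAction.stabilizer G x₀ = C := by
    ext g
    rw [MulAction.mem_stabilizer_iff, hC, Subgroup.mem_centralizer_singleton_iff]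
    constructor
    · intro h
      have h1 : g * u * g⁻¹ = u := congrArg Subtype.val h
      exact mul_inv_eq_iff_eq_mul.mp h1
    · intro h
      apply Subtype.ext
      show g * u * g⁻¹ = u
      exact mul_inv_eq_iff_eq_mul.mpr h
  have hindex : C.index ≤ Nat.card {v : G // v ∈ N ∧ orderOf v = k} := by
    rw [← hstab, MulAction.index_stabilizer]
    exact Set.ncard_le_card _
  have hmul : C.index * Nat.card C = 1440 := by rw [Subgroup.index_mul_card, hcardG]
  have hoddC : Odd (Nat.card C) := Nat.odd_iff.mpr (by omega)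
  have hdvd45 : Nat.card C ∣ 45 := by
    have h1 : Nat.card C ∣ 32 * 45 := ⟨C.index, by
      have h32 : 32 * 45 = 1440 := by norm_num
      rw [h32, mul_comm]
      exact hmul.symm⟩
    have hcop : Nat.Coprime (Nat.card C) 32 := by
      have : Nat.Coprime (Nat.card C) 2 := Nat.coprime_two_right.mpr hoddC
      exact Nat.Coprime.pow_right 5 this
    exact hcop.dvd_of_dvd_mul_left h1
  have hle45 : Nat.card C ≤ 45 := Nat.le_of_dvd (by norm_num) hdvd45
  -- a prime `p ≠ k` dividing the order of the centralizer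
  obtain ⟨p, hp, hpk, hpdvd, hp35⟩ : ∃ p : ℕ, p.Prime ∧ p * k = 15 ∧ p ∣ Nat.card C ∧
      (p = 3 ∨ p = 5) := by
    rcases hk35 with rfl | rfl
    · have hi : C.index ≤ 80 := le_trans hindex hE3
      have hge : 18 ≤ Nat.card C := by
        by_contra hlt
        have : C.index * Nat.card C ≤ 80 * 17 := Nat.mul_le_mul hi (by omega)
        omega
      refine ⟨5, by norm_num, by norm_num, ?_, Or.inr rfl⟩
      generalize Nat.card C = m at hdvd45 hle45 hge
      interval_cases m <;> omega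
    · have hi : C.index ≤ 144 := le_trans hindex hE5
      have hge : 10 ≤ Nat.card C := by
        by_contra hlt
        have : C.index * Nat.card C ≤ 144 * 9 := Nat.mul_le_mul hi (by omega)
        omega
      refine ⟨3, by norm_num, by norm_num, ?_, Or.inl rfl⟩
      generalize Nat.card C = m at hdvd45 hle45 hge
      interval_cases m <;> omega
  have : Fact p.Prime := ⟨hp⟩
  obtain ⟨c, hc⟩ := exists_prime_orderOf_dvd_card' p hpdvd
  have hc' : orderOf (c : G) = p := by rw [Subgroup.orderOf_coe, hc]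
  have hcN : (c : G) ∈ N := mem_of_odd N hidx c (by
    rw [hc']
    rcases hp35 with rfl | rfl <;> decide)
  have hcomm : Commute (c : G) u := Subgroup.mem_centralizer_singleton_iff.mp c.2
  have hcop : (orderOf (c : G)).Coprime (orderOf u) := by
    rw [hc', hk]
    rcases hp35 with rfl | rfl <;> rcases hk35 with rfl | rfl <;> first | decide | omega
  have hord := hcomm.orderOf_mul_eq_mul_orderOf_of_coprime hcop
  rw [hc', hk, hpk] at hord
  have hle := order_le N hpow (c * u) (N.mul_mem hcN huN)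
  omega

/-- two involutions of `N` are centralized by a common nontrivial element -/
lemma exists_common (hidx : N.index = 4) (hcardG : Nat.card G = 1440)
    (hpow : ∀ v ∈ N, v ^ 2 = 1 ∨ v ^ 3 = 1 ∨ v ^ 4 = 1 ∨ v ^ 5 = 1)
    (hE3 : Nat.card {v : G // v ∈ N ∧ orderOf v = 3} ≤ 80)
    (hE5 : Nat.card {v : G // v ∈ N ∧ orderOf v = 5} ≤ 144)
    (s t : G) (hs : s ∈ N) (ht : t ∈ N) (hs2 : s ^ 2 = 1) (ht2 : t ^ 2 = 1) (ht1 : t ≠ 1) :
    ∃ c : G, c ≠ 1 ∧ c * s = s * c ∧ c * t = t * c := by
  obtain ⟨u, hu⟩ : ∃ u : G, u = s * t := ⟨s * t, rfl⟩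
  have huN : u ∈ N := by rw [hu]; exact N.mul_mem hs ht
  have hss : s * s = 1 := by rw [← pow_two]; exact hs2
  have htt : t * t = 1 := by rw [← pow_two]; exact ht2
  have hsinv : s⁻¹ = s := inv_eq_of_mul_eq_one_left hss
  have htinv : t⁻¹ = t := inv_eq_of_mul_eq_one_left htt
  have huinv : u⁻¹ = t * s := by rw [hu, mul_inv_rev, hsinv, htinv]
  have hconj_t : t * u * t⁻¹ = u⁻¹ := by
    rw [huinv, hu]
    group
  have hconj_s : s * u * s⁻¹ = u⁻¹ := by
    rw [huinv, hu, hsinv]
    calc s * (s * t) * s = (s * s) * t * s := by group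
      _ = t * s := by rw [hss, one_mul]
  have hsut : s = u * t := by
    rw [hu, mul_assoc, htt, mul_one]
  have hk5 := order_le N hpow u huN
  have hk0 : 0 < orderOf u := orderOf_pos u
  have hcases : orderOf u = 1 ∨ orderOf u = 2 ∨ orderOf u = 3 ∨ orderOf u = 4 ∨ orderOf u = 5 := by
    omega
  -- the even case
  have heven : ∀ m : ℕ, 0 < m → orderOf u = 2 * m →
      ∃ c : G, c ≠ 1 ∧ c * s = s * c ∧ c * t = t * c := by
    intro m hm hk
    have hmm : u ^ m * u ^ m = 1 := by
      rw [← pow_add, ← two_mul, ← hk]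
      exact pow_orderOf_eq_one u
    refine ⟨u ^ m, pow_ne_one_of_lt_orderOf (by omega) (by omega), ?_, ?_⟩
    · exact comm_of_conj_inv s u m hconj_s hmm
    · exact comm_of_conj_inv t u m hconj_t hmm
  -- the odd case
  have hodd : ∀ k : ℕ, orderOf u = k → (k = 3 ∨ k = 5) →
      ∃ c : G, c ≠ 1 ∧ c * s = s * c ∧ c * t = t * c := by
    intro k hk hk35
    have h2 := even_card_centralizer N hidx hcardG hpow hE3 hE5 u huN k hk hk35
    set C := Subgroup.centralizer ({u} : Set G) with hC
    have hmemC : ∀ h : G, h ∈ C ↔ Commute h u := fun h => by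
      rw [hC, Subgroup.mem_centralizer_singleton_iff]
      rfl
    have hnorm : t ∈ Subgroup.normalizer (C : Set G) := by
      rw [Subgroup.mem_normalizer_iff]
      intro h
      rw [hmemC, hmemC]
      constructor
      · intro hh
        have h1 : Commute (t * h * t⁻¹) (t * u * t⁻¹) := (Commute.conj_iff t).mpr hh
        rw [hconj_t] at h1
        exact Commute.inv_right_iff.mp h1
      · intro hh
        have h1 : Commute (t * h * t⁻¹) (t * u * t⁻¹) := by
          rw [hconj_t]
          exact Commute.inv_right_iff.mpr hh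
        exact (Commute.conj_iff t).mp h1
    have hot : orderOf t = 2 := orderOf_eq_prime ht2 ht1
    have hK : IsPGroup 2 (Subgroup.zpowers t) :=
      IsPGroup.of_card (n := 1) (by rw [Nat.card_zpowers, hot, pow_one])
    have hKle : Subgroup.zpowers t ≤ Subgroup.normalizer (C : Set G) := Subgroup.zpowers_le.mpr hnorm
    letI := conjSub (Subgroup.zpowers t).subtype (fun v => v ∈ C) (fun g v hv =>
      (Subgroup.mem_normalizer_iff.mp (hKle g.2) v).mp hv)
    let one' : {v : G // v ∈ C} := ⟨1, C.one_mem⟩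
    have hfix1 : one' ∈ MulAction.fixedPoints (Subgroup.zpowers t) {v : G // v ∈ C} := by
      intro g
      apply Subtype.ext
      show (g : G) * 1 * (g : G)⁻¹ = 1
      simp
    obtain ⟨b, hb, hne⟩ := hK.exists_fixed_point_of_prime_dvd_card_of_fixed_point
      {v : G // v ∈ C} h2 hfix1
    have hbt : t * b.1 * t⁻¹ = b.1 := by
      have := hb ⟨t, Subgroup.mem_zpowers t⟩
      exact congrArg Subtype.val this
    have hbu : Commute b.1 u := (hmemC b.1).mp b.2
    have hbt' : b.1 * t = t * b.1 := (mul_inv_eq_iff_eq_mul.mp hbt).symm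
    refine ⟨b.1, ?_, ?_, hbt'⟩
    · intro h1
      apply hne
      apply Subtype.ext
      exact h1.symm
    · have e1 : b.1 * (u * t) = (u * t) * b.1 := by
        calc b.1 * (u * t) = (b.1 * u) * t := by rw [mul_assoc]
          _ = (u * b.1) * t := by rw [hbu.eq]
          _ = u * (b.1 * t) := by rw [mul_assoc]
          _ = u * (t * b.1) := by rw [hbt']
          _ = (u * t) * b.1 := by rw [mul_assoc]
      rw [← hsut] at e1
      exact e1
  rcases hcases with h | h | h | h | h
  · have hu1 : u = 1 := orderOf_eq_one_iff.mp h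
    have hst : s = t := by
      rw [hsut, hu1, one_mul]
    exact ⟨t, ht1, by rw [hst], rfl⟩
  · exact heven 1 (by norm_num) h
  · exact hodd 3 h (Or.inl rfl)
  · exact heven 2 (by norm_num) h
  · exact hodd 5 h (Or.inr rfl)

theorem main (hidx : N.index = 4) (hcardN : Nat.card N = 360)
    (hpow : ∀ v ∈ N, v ^ 2 = 1 ∨ v ^ 3 = 1 ∨ v ^ 4 = 1 ∨ v ^ 5 = 1)
    (hE3 : Nat.card {v : G // v ∈ N ∧ orderOf v = 3} ≤ 80)
    (hE5 : Nat.card {v : G // v ∈ N ∧ orderOf v = 5} ≤ 144)
    (H : Sylow 2 G) (x : G) :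
    (H : Subgroup G) ⊓ MulAut.conj x • (H : Subgroup G) ≠ ⊥ := by
  have hcardG : Nat.card G = 1440 := by
    rw [← Subgroup.card_mul_index N, hcardN, hidx]
  -- an involution of `N` centralized by `H`
  have hJ : 2 ∣ Nat.card {v : G // v ∈ N ∧ v ^ 2 = 1} :=
    even_card_sq N (by rw [hcardN]; norm_num)
  letI := conjSub (H : Subgroup G).subtype (fun v => v ∈ N ∧ v ^ 2 = 1) (fun g v hv => by
    refine ⟨Subgroup.Normal.conj_mem inferInstance v hv.1 _, ?_⟩
    rw [conj_pow, hv.2, mul_one, mul_inv_cancel])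
  let one' : {v : G // v ∈ N ∧ v ^ 2 = 1} := ⟨1, N.one_mem, one_pow 2⟩
  have hfix1 : one' ∈ MulAction.fixedPoints (H : Subgroup G) {v : G // v ∈ N ∧ v ^ 2 = 1} := by
    intro g
    apply Subtype.ext
    show (g : G) * 1 * (g : G)⁻¹ = 1
    simp
  obtain ⟨b, hb, hne⟩ := H.isPGroup'.exists_fixed_point_of_prime_dvd_card_of_fixed_point
    {v : G // v ∈ N ∧ v ^ 2 = 1} hJ hfix1
  set t : G := b.1 with ht
  have htN : t ∈ N := b.2.1
  have ht2 : t ^ 2 = 1 := b.2.2
  have ht1 : t ≠ 1 := by
    intro h1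
    apply hne
    apply Subtype.ext
    exact h1.symm
  have hot : orderOf t = 2 := orderOf_eq_prime ht2 ht1
  have hHt : ∀ g ∈ (H : Subgroup G), g * t = t * g := by
    intro g hg
    have := hb ⟨g, hg⟩
    have h1 : g * t * g⁻¹ = t := congrArg Subtype.val this
    exact mul_inv_eq_iff_eq_mul.mp h1
  have hHle : (H : Subgroup G) ≤ Subgroup.centralizer {t} := by
    intro g hg
    rw [Subgroup.mem_centralizer_singleton_iff]
    exact hHt g hg
  have hHeq : Subgroup.centralizer {t} = (H : Subgroup G) :=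
    H.is_maximal' (isPGroup_centralizer N hidx hpow t htN hot) hHle
  -- the conjugate involution
  set s : G := x * t * x⁻¹ with hs
  have hsN : s ∈ N := Subgroup.Normal.conj_mem inferInstance t htN x
  have hs2 : s ^ 2 = 1 := by rw [hs, conj_pow, ht2, mul_one, mul_inv_cancel]
  obtain ⟨c, hc1, hcs, hct⟩ := exists_common N hidx hcardG hpow hE3 hE5 s t hsN htN hs2 ht2 ht1
  intro hbot
  apply hc1
  have hmem : c ∈ (H : Subgroup G) ⊓ MulAut.conj x • (H : Subgroup G) := by
    refine Subgroup.mem_inf.mpr ⟨?_, ?_⟩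
    · rw [← hHeq, Subgroup.mem_centralizer_singleton_iff]
      exact hct
    · rw [Subgroup.mem_pointwise_smul_iff_inv_smul_mem, ← hHeq,
        Subgroup.mem_centralizer_singleton_iff]
      show (MulAut.conj x)⁻¹ c * t = t * (MulAut.conj x)⁻¹ c
      rw [MulAut.conj_inv_apply]
      have h1 : c * (x * t * x⁻¹) = (x * t * x⁻¹) * c := hcs
      calc x⁻¹ * c * x * t = x⁻¹ * (c * (x * t * x⁻¹)) * x := by group
        _ = x⁻¹ * ((x * t * x⁻¹) * c) * x := by rw [h1]
        _ = t * (x⁻¹ * c * x) := by group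
  rw [hbot, Subgroup.mem_bot] at hmem
  exact hmem

end main

/-- Let G be a finite group with a normal subgroup N of index 4 isomorphic to the alternating group of degree 6 and with trivial centralizer in G (so G is the full automorphism group of A₆). Then any two Sylow 2-subgroups of G have a non-trivial intersection: for a Sylow 2-subgroup H and every x ∈ G, H ∩ H^x ≠ 1. -/
theorem result {G : Type*} [Group G] [Finite G] (N : Subgroup G) [N.Normal]
    (e : N ≃* alternatingGroup (Fin 6)) (hidx : N.index = 4)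
    (hC : Subgroup.centralizer (N : Set G) = ⊥)
    (H : Sylow 2 G) (x : G) :
    (H : Subgroup G) ⊓ MulAut.conj x • (H : Subgroup G) ≠ ⊥ := by
  have _ := hC
  have hcardN : Nat.card N = 360 := by rw [Nat.card_congr e.toEquiv, alt6_card]
  have hpow : ∀ v ∈ N, v ^ 2 = 1 ∨ v ^ 3 = 1 ∨ v ^ 4 = 1 ∨ v ^ 5 = 1 := by
    intro v hv
    have key : ∀ j : ℕ, (e ⟨v, hv⟩) ^ j = 1 → v ^ j = 1 := by
      intro j hj
      rw [← map_pow] at hj
      have h1 : (⟨v, hv⟩ : N) ^ j = 1 := by
        apply e.injective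
        rw [hj, map_one]
      exact congrArg Subtype.val h1
    rcases alt6_pow (e ⟨v, hv⟩) with h | h | h | h
    · exact Or.inl (key 2 h)
    · exact Or.inr (Or.inl (key 3 h))
    · exact Or.inr (Or.inr (Or.inl (key 4 h)))
    · exact Or.inr (Or.inr (Or.inr (key 5 h)))
  have hE : ∀ k : ℕ, Nat.card {v : G // v ∈ N ∧ orderOf v = k} ≤
      Nat.card {σ : alternatingGroup (Fin 6) // orderOf σ = k} := by
    intro k
    apply Nat.card_le_card_of_injective
      (fun v : {v : G // v ∈ N ∧ orderOf v = k} =>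
        (⟨e ⟨v.1, v.2.1⟩, by
          rw [MulEquiv.orderOf_eq, Subgroup.orderOf_mk]
          exact v.2.2⟩ : {σ : alternatingGroup (Fin 6) // orderOf σ = k}))
    intro v w hvw
    have h1 : e ⟨v.1, v.2.1⟩ = e ⟨w.1, w.2.1⟩ := congrArg Subtype.val hvw
    have h2 : (⟨v.1, v.2.1⟩ : N) = ⟨w.1, w.2.1⟩ := e.injective h1
    exact Subtype.ext (congrArg (fun z : N => (z : G)) h2)
  exact main N hidx hcardN hpow (le_trans (hE 3) alt6_card_order3)
    (le_trans (hE 5) alt6_card_order5) H x

end Cfsg.Agent.S2488
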