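import Cfsg.Statements.S2503
import Mathlib
import Cfsg.Agent.Lib.Helper42.SL2Even

set_option autoImplicit false
set_option linter.unusedSectionVars false
open Cfsg

namespace Cfsg.Agent.S2503

open Cfsg.Agent.Lib.Helper42.SL2Even

section
variable {F : Type*} [Field F] [Fintype F] [CharP F 2]

local notation "SL2F" => Matrix.SpecialLinearGroup (Fin 2) F

/-- the generator of the nonsplit torus -/
def g0 (t : F) : SL2F := ⟨!![0, 1; 1, t], by
  rw [Matrix.det_fin_two_of]
  linear_combination (-1 : F) * (two_eq_zero' (F := F))⟩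

lemma g0_entries (t : F) :
    (g0 t) 0 0 = 0 ∧ (g0 t) 0 1 = 1 ∧ (g0 t) 1 0 = 1 ∧ (g0 t) 1 1 = t := ⟨rfl, rfl, rfl, rfl⟩

lemma g0_ne_one (t : F) : g0 t ≠ 1 := by
  intro h
  have := congrArg (fun x : SL2F => x 0 0) h
  simp only [(g0_entries t).1] at this
  simp at this

lemma mem_torus_iff (t : F) (x : SL2F) :
    x ∈ Subgroup.centralizer {g0 t} ↔ x 0 1 = x 1 0 ∧ x 1 1 = x 0 0 + t * x 1 0 := by
  rw [Subgroup.mem_centralizer_singleton_iff]
  obtain ⟨a00, a01, a10, a11⟩ := mul_entries x (g0 t)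
  obtain ⟨b00, b01, b10, b11⟩ := mul_entries (g0 t) x
  obtain ⟨g00, g01, g10, g11⟩ := g0_entries t
  rw [g00, g10] at a00 a10
  rw [g01, g11] at a01 a11
  rw [g00, g01] at b00 b01
  rw [g10, g11] at b10 b11
  constructor
  · intro h
    have e00 : (x * g0 t) 0 0 = (g0 t * x) 0 0 := by rw [h]
    have e10 : (x * g0 t) 1 0 = (g0 t * x) 1 0 := by rw [h]
    rw [a00, b00] at e00
    rw [a10, b10] at e10
    refine ⟨?_, ?_⟩
    · linear_combination e00
    · linear_combination e10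
  · rintro ⟨h1, h2⟩
    apply ext_entries
    · rw [a00, b00]; linear_combination h1
    · rw [a01, b01]; linear_combination t * h1 - h2
    · rw [a10, b10]; linear_combination h2
    · rw [a11, b11]; linear_combination -h1

/-- a torus element with prescribed first column, up to a scalar -/
lemma exists_torus (t : F) (ht : ∀ r : F, r ^ 2 + t * r + 1 ≠ 0) (α β : F) (h : ¬ (α = 0 ∧ β = 0)) :
    ∃ c ∈ Subgroup.centralizer {g0 t}, ∃ s : F, s ≠ 0 ∧ c 0 0 = α / s ∧ c 0 1 = β / s ∧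
      c 1 0 = β / s ∧ c 1 1 = (α + t * β) / s := by
  have h2 : (2 : F) = 0 := two_eq_zero'
  have hν : α ^ 2 + t * α * β + β ^ 2 ≠ 0 := by
    intro hν
    by_cases hβ : β = 0
    · subst hβ
      simp at hν
      exact h ⟨hν, rfl⟩
    · apply ht (α / β)
      have : (α / β) ^ 2 + t * (α / β) + 1 = (α ^ 2 + t * α * β + β ^ 2) / β ^ 2 := by
        field_simp
      rw [this, hν, zero_div]
  obtain ⟨s, hs⟩ := exists_sqrt (α ^ 2 + t * α * β + β ^ 2)
  have hs0 : s ≠ 0 := by
    rintro rfl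
    apply hν
    rw [← hs]
    simp
  let c : SL2F := ⟨!![α / s, β / s; β / s, (α + t * β) / s], by
    rw [Matrix.det_fin_two_of]
    field_simp
    linear_combination -hs - β ^ 2 * h2⟩
  have hc : c 0 0 = α / s ∧ c 0 1 = β / s ∧ c 1 0 = β / s ∧ c 1 1 = (α + t * β) / s :=
    ⟨rfl, rfl, rfl, rfl⟩
  refine ⟨c, ?_, s, hs0, hc⟩
  rw [mem_torus_iff]
  obtain ⟨c00, c01, c10, c11⟩ := hc
  refine ⟨by rw [c01, c10], ?_⟩
  rw [c11, c00, c10]
  field_simp

/-- an element of trace zero fixes a nonzero vector -/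
lemma exists_fixed (τ : SL2F) (htr : τ 0 0 + τ 1 1 = 0) :
    ∃ v1 v2 : F, ¬ (v1 = 0 ∧ v2 = 0) ∧ τ 0 0 * v1 + τ 0 1 * v2 = v1 ∧
      τ 1 0 * v1 + τ 1 1 * v2 = v2 := by
  have h2 : (2 : F) = 0 := two_eq_zero'
  have hd := det_eq τ
  by_cases hcase : τ 0 1 = 0 ∧ τ 0 0 + 1 = 0
  · obtain ⟨h01, h00⟩ := hcase
    refine ⟨0, 1, by simp, ?_, ?_⟩
    · rw [h01]; ring
    · linear_combination htr - h00
  · refine ⟨τ 0 1, τ 0 0 + 1, hcase, ?_, ?_⟩
    · linear_combination (τ 0 0 * τ 0 1) * h2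
    · linear_combination -hd + htr + (τ 1 1 * τ 0 0 - τ 0 0 - 1) * h2

/-- the unipotent hom -/
def unip : Multiplicative F →* SL2F where
  toFun b := ⟨!![1, Multiplicative.toAdd b; 0, 1], by simp [Matrix.det_fin_two_of]⟩
  map_one' := by
    apply ext_entries <;> rfl
  map_mul' b b' := by
    obtain ⟨m00, m01, m10, m11⟩ := mul_entries
      (⟨!![1, Multiplicative.toAdd b; 0, 1], by simp [Matrix.det_fin_two_of]⟩ : SL2F)
      (⟨!![1, Multiplicative.toAdd b'; 0, 1], by simp [Matrix.det_fin_two_of]⟩ : SL2F)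
    apply ext_entries
    · rw [m00]
      show (1 : F) = 1 * 1 + Multiplicative.toAdd b * 0
      ring
    · rw [m01]
      show Multiplicative.toAdd b + Multiplicative.toAdd b' = 1 * Multiplicative.toAdd b' + Multiplicative.toAdd b * 1
      ring
    · rw [m10]
      show (0 : F) = 0 * 1 + 1 * 0
      ring
    · rw [m11]
      show (1 : F) = 0 * Multiplicative.toAdd b' + 1 * 1
      ring

lemma unip_entries (b : Multiplicative F) :
    (unip b) 0 0 = 1 ∧ (unip b) 0 1 = Multiplicative.toAdd b ∧ (unip b) 1 0 = 0 ∧ (unip b) 1 1 = 1 :=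
  ⟨rfl, rfl, rfl, rfl⟩

lemma unip_injective : Function.Injective (unip (F := F)) := by
  intro b b' h
  have := congrArg (fun x : SL2F => x 0 1) h
  exact this

lemma mem_unip_range (x : SL2F) (h00 : x 0 0 = 1) (h10 : x 1 0 = 0) : x ∈ (unip (F := F)).range := by
  have hd := det_eq x
  rw [h00, h10, mul_zero, sub_zero, one_mul] at hd
  refine ⟨Multiplicative.ofAdd (x 0 1), ?_⟩
  apply ext_entries
  · rw [h00]; rfl
  · rfl
  · rw [h10]; rfl
  · rw [hd]; rfl

/-- the `ABA` factorisation in `SL₂` -/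
lemma aba (t : F) (ht : ∀ r : F, r ^ 2 + t * r + 1 ≠ 0) (g : SL2F) :
    ∃ a ∈ Subgroup.centralizer {g0 t}, ∃ b ∈ (unip (F := F)).range,
      ∃ c ∈ Subgroup.centralizer {g0 t}, g = a * b * c := by
  have h2 : (2 : F) = 0 := two_eq_zero'
  -- step 1: an element c of the torus with trace (g c) = 0
  obtain ⟨α, β, hαβ, hT⟩ : ∃ α β : F, ¬ (α = 0 ∧ β = 0) ∧
      α * (g 0 0 + g 1 1) + β * (g 0 1 + g 1 0 + t * g 1 1) = 0 := by
    by_cases hcase : g 0 1 + g 1 0 + t * g 1 1 = 0 ∧ g 0 0 + g 1 1 = 0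
    · refine ⟨1, 0, by simp, ?_⟩
      rw [hcase.2]
      ring
    · refine ⟨g 0 1 + g 1 0 + t * g 1 1, g 0 0 + g 1 1, hcase, ?_⟩
      linear_combination ((g 0 1 + g 1 0 + t * g 1 1) * (g 0 0 + g 1 1)) * h2
  obtain ⟨c, hc, s, hs0, c00, c01, c10, c11⟩ := exists_torus t ht α β hαβ
  obtain ⟨m00, m01, m10, m11⟩ := mul_entries g c
  have htr : (g * c) 0 0 + (g * c) 1 1 = 0 := by
    rw [m00, m11, c00, c01, c10, c11]
    field_simp
    linear_combination hT
  -- step 2: a fixed vector and a torus element moving e₁ to it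
  obtain ⟨v1, v2, hv, hfix1, hfix2⟩ := exists_fixed (g * c) htr
  obtain ⟨a, ha, s', hs'0, a00, a01, a10, a11⟩ := exists_torus t ht v1 v2 hv
  -- step 3: b = a⁻¹ (g c) a is unipotent
  set b : SL2F := a⁻¹ * (g * c) * a with hb
  have hab : a * b = (g * c) * a := by
    rw [hb]
    group
  obtain ⟨p00, p01, p10, p11⟩ := mul_entries a b
  obtain ⟨q00, q01, q10, q11⟩ := mul_entries (g * c) a
  have hda := det_eq a
  have e00 : a 0 0 * b 0 0 + a 0 1 * b 1 0 = a 0 0 := by
    rw [← p00, hab, q00, a00, a10]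
    have : (g * c) 0 0 * (v1 / s') + (g * c) 0 1 * (v2 / s') =
        ((g * c) 0 0 * v1 + (g * c) 0 1 * v2) / s' := by ring
    rw [this, hfix1]
  have e10 : a 1 0 * b 0 0 + a 1 1 * b 1 0 = a 1 0 := by
    rw [← p10, hab, q10, a00, a10]
    have : (g * c) 1 0 * (v1 / s') + (g * c) 1 1 * (v2 / s') =
        ((g * c) 1 0 * v1 + (g * c) 1 1 * v2) / s' := by ring
    rw [this, hfix2]
  have hb00 : b 0 0 = 1 := by
    linear_combination (-(b 0 0 - 1)) * hda + a 1 1 * e00 - a 0 1 * e10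
  have hb10 : b 1 0 = 0 := by
    linear_combination (-(b 1 0)) * hda + a 0 0 * e10 - a 1 0 * e00
  refine ⟨a, ha, b, mem_unip_range b hb00 hb10, a⁻¹ * c⁻¹, ?_, ?_⟩
  · exact Subgroup.mul_mem _ (Subgroup.inv_mem _ ha) (Subgroup.inv_mem _ hc)
  · rw [hb]
    group

/-- the nonsplit torus is cyclic -/
lemma torus_cyclic (t : F) (ht : ∀ r : F, r ^ 2 + t * r + 1 ≠ 0) :
    IsCyclic (Subgroup.centralizer {g0 t}) := by
  have h2 : (2 : F) = 0 := two_eq_zero'
  let E := AlgebraicClosure F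
  have h2E : (2 : E) = 0 := by
    rw [← map_ofNat (algebraMap F E) 2, h2, map_zero]
  let p : Polynomial F := Polynomial.X ^ 2 + Polynomial.C t * Polynomial.X + 1
  have hp : p.degree ≠ 0 := by
    have : p.degree = 2 := by
      simp only [p]
      compute_degree!
    rw [this]
    norm_num
  obtain ⟨ρ, hρ'⟩ := IsAlgClosed.exists_aeval_eq_zero E p hp
  have hρ : ρ ^ 2 + algebraMap F E t * ρ + 1 = 0 := by
    simpa [p] using hρ'
  have hinjA : Function.Injective (algebraMap F E) := (algebraMap F E).injective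
  let χ : Subgroup.centralizer {g0 t} →* E :=
    { toFun := fun x => algebraMap F E (x.1 0 0) + algebraMap F E (x.1 1 0) * ρ
      map_one' := by
        show algebraMap F E ((1 : SL2F) 0 0) + algebraMap F E ((1 : SL2F) 1 0) * ρ = 1
        simp
      map_mul' := by
        rintro ⟨x, hx⟩ ⟨y, hy⟩
        obtain ⟨hx1, hx2⟩ := (mem_torus_iff t x).mp hx
        obtain ⟨m00, m01, m10, m11⟩ := mul_entries x y
        show algebraMap F E ((x * y) 0 0) + algebraMap F E ((x * y) 1 0) * ρ =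
          (algebraMap F E (x 0 0) + algebraMap F E (x 1 0) * ρ) *
            (algebraMap F E (y 0 0) + algebraMap F E (y 1 0) * ρ)
        rw [m00, m10, hx1, hx2]
        simp only [map_add, map_mul]
        linear_combination (-(algebraMap F E (x 1 0) * algebraMap F E (y 1 0))) * hρ +
          (algebraMap F E (x 1 0) * algebraMap F E (y 1 0) * (algebraMap F E t * ρ + 1)) * h2E }
  have hχ : Function.Injective χ := by
    rintro ⟨x, hx⟩ ⟨y, hy⟩ hxy
    obtain ⟨hx1, hx2⟩ := (mem_torus_iff t x).mp hx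
    obtain ⟨hy1, hy2⟩ := (mem_torus_iff t y).mp hy
    have hxy' : algebraMap F E (x 0 0) + algebraMap F E (x 1 0) * ρ =
        algebraMap F E (y 0 0) + algebraMap F E (y 1 0) * ρ := hxy
    have h10 : x 1 0 = y 1 0 := by
      by_contra hne
      have hne' : x 1 0 - y 1 0 ≠ 0 := sub_ne_zero.mpr hne
      have hne'' : algebraMap F E (x 1 0 - y 1 0) ≠ 0 := by
        intro h0
        exact hne' (hinjA (by rw [h0, map_zero]))
      apply ht (-(x 0 0 - y 0 0) / (x 1 0 - y 1 0))
      apply hinjA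
      have hρeq : ρ = algebraMap F E (-(x 0 0 - y 0 0) / (x 1 0 - y 1 0)) := by
        rw [map_div₀, eq_div_iff hne'']
        simp only [map_neg, map_sub]
        linear_combination hxy'
      rw [map_zero, map_add, map_add, map_mul, map_pow, map_one, ← hρeq]
      exact hρ
    have h00 : x 0 0 = y 0 0 := by
      apply hinjA
      rw [h10] at hxy'
      exact add_right_cancel hxy'
    apply Subtype.ext
    show x = y
    apply ext_entries h00
    · rw [hx1, hy1, h10]
    · exact h10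
    · rw [hx2, hy2, h00, h10]
  exact isCyclic_of_subgroup_isDomain χ hχ

end

theorem result {F : Type*} [Field F] [Fintype F]
    (h2 : 2 ∣ Fintype.card F) (h4 : 4 ≤ Fintype.card F) :
    ∃ A B : Subgroup (Matrix.ProjectiveSpecialLinearGroup (Fin 2) F),
      IsCyclic A ∧ Nat.card A = Fintype.card F + 1 ∧ IsMulCommutative B ∧ (∀ b ∈ B, b * b = 1) ∧
        Nat.card B = Fintype.card F ∧
        ∀ g : Matrix.ProjectiveSpecialLinearGroup (Fin 2) F, ∃ a ∈ A, ∃ b ∈ B, ∃ c ∈ A, g = a * b * c := by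
  classical
  have : CharP F 2 := charP_two_of_even h2
  have h2F : (2 : F) = 0 := two_eq_zero'
  obtain ⟨t, ht0, ht⟩ := exists_nonsplit (F := F)
  let e := slEquivPSL (F := F)
  let A₀ : Subgroup (Matrix.SpecialLinearGroup (Fin 2) F) := Subgroup.centralizer {g0 t}
  let B₀ : Subgroup (Matrix.SpecialLinearGroup (Fin 2) F) := (unip (F := F)).range
  have hA₀cyc : IsCyclic A₀ := torus_cyclic t ht
  have hA₀card : Nat.card A₀ = Fintype.card F + 1 := by
    show Nat.card (Subgroup.centralizer {g0 t}) = _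
    rw [card_centralizer (g0 t) (g0_ne_one t)]
    apply card_sol_nonsplit
    rw [(g0_entries t).1, (g0_entries t).2.2.2, zero_add]
    exact ht
  have hB₀card : Nat.card B₀ = Fintype.card F := by
    show Nat.card (unip (F := F)).range = _
    rw [← Nat.card_congr (MonoidHom.ofInjective (unip_injective (F := F))).toEquiv]
    rw [Nat.card_eq_fintype_card]
    exact Fintype.card_congr Multiplicative.toAdd
  have hB₀comm : IsMulCommutative B₀ := by
    apply IsMulCommutative.of_setLike_mul_comm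
    rintro _ ⟨b, rfl⟩ _ ⟨b', rfl⟩
    rw [← map_mul, ← map_mul, mul_comm]
  have hB₀sq : ∀ b ∈ B₀, b * b = 1 := by
    rintro _ ⟨b, rfl⟩
    rw [← map_mul]
    have : b * b = 1 := by
      apply Multiplicative.toAdd.injective
      show Multiplicative.toAdd b + Multiplicative.toAdd b = 0
      exact CharTwo.add_self_eq_zero _
    rw [this, map_one]
  refine ⟨A₀.map (e : _ →* _), B₀.map (e : _ →* _), ?_, ?_, ?_, ?_, ?_, ?_⟩
  · exact isCyclic_of_surjective (e.subgroupMap A₀) (e.subgroupMap A₀).surjective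
  · rw [← Nat.card_congr (e.subgroupMap A₀).toEquiv, hA₀card]
  · exact Subgroup.map_isMulCommutative _ _
  · rintro _ ⟨b, hb, rfl⟩
    show e b * e b = 1
    rw [← map_mul, hB₀sq b hb, map_one]
  · rw [← Nat.card_congr (e.subgroupMap B₀).toEquiv, hB₀card]
  · intro g'
    obtain ⟨g, rfl⟩ := e.surjective g'
    obtain ⟨a, ha, b, hb, c, hc, habc⟩ := aba t ht g
    refine ⟨e a, ⟨a, ha, rfl⟩, e b, ⟨b, hb, rfl⟩, e c, ⟨c, hc, rfl⟩, ?_⟩
    rw [habc, map_mul, map_mul]

end Cfsg.Agent.S2503
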