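import Cfsg.Statements.S2504
import Mathlib
import Cfsg.Agent.Lib.Helper42.AbelPerm

set_option autoImplicit false
open Cfsg

namespace Cfsg.Agent.S2504

open Cfsg.Agent.Lib.Helper42.AbelPerm

/-- The largest order of an abelian subgroup of the alternating group of degree n is 3^k when n = 3k, 4·3^(k−1) when n = 3k + 1, and 16·3^(k−2) when n = 3k + 2, for every k ≥ 2 (so for all degrees n ≥ 6). -/
theorem result (k : ℕ) (hk : 2 ≤ k) :
    IsGreatest {c : ℕ | ∃ A : Subgroup (alternatingGroup (Fin (3 * k))), IsMulCommutative A ∧ Nat.card A = c} (3 ^ k) ∧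
    IsGreatest {c : ℕ | ∃ A : Subgroup (alternatingGroup (Fin (3 * k + 1))), IsMulCommutative A ∧ Nat.card A = c}
      (4 * 3 ^ (k - 1)) ∧
    IsGreatest {c : ℕ | ∃ A : Subgroup (alternatingGroup (Fin (3 * k + 2))), IsMulCommutative A ∧ Nat.card A = c}
      (16 * 3 ^ (k - 2)) := by
  obtain ⟨j, rfl⟩ : ∃ j, k = j + 2 := ⟨k - 2, by omega⟩
  have e1 : j + 2 - 1 = j + 1 := by omega
  have e2 : j + 2 - 2 = j := by omega
  rw [e1, e2]
  refine ⟨⟨?_, ?_⟩, ⟨?_, ?_⟩, ⟨?_, ?_⟩⟩
  · exact exists_alt_of_hasAb (hasAb_three_pow True (j + 2))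
  · rintro c ⟨A, hA, rfl⟩
    obtain ⟨A', hA', -, hc⟩ := exists_perm_of_alt A hA
    have := card_le_g (3 * (j + 2)) (Fin (3 * (j + 2))) (by simp) A' hA'
    rw [g_three_mul, hc] at this
    exact this
  · exact exists_alt_of_hasAb (hasAb_three_mul_add_one True (j + 1))
  · rintro c ⟨A, hA, rfl⟩
    obtain ⟨A', hA', -, hc⟩ := exists_perm_of_alt A hA
    have := card_le_g (3 * (j + 1 + 1) + 1) (Fin (3 * (j + 1 + 1) + 1)) (by simp) A' hA'
    rw [g_three_mul_add_one, hc] at this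
    exact this
  · exact exists_alt_of_hasAb (hasAb_even_three_mul_add_two j)
  · rintro c ⟨A, hA, rfl⟩
    obtain ⟨A', hA', heven, hc⟩ := exists_perm_of_alt A hA
    have := card_le_even j A' hA' heven
    rw [hc] at this
    exact this

end Cfsg.Agent.S2504
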