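import Cfsg.Statements.S2505
import Mathlib
import Cfsg.Agent.Lib.Helper42.AbelPerm

set_option autoImplicit false
open Cfsg

namespace Cfsg.Agent.S2505

open Cfsg.Agent.Lib.Helper42.AbelPerm

/-- The largest order of an abelian subgroup of the symmetric group of degree n is 3^k when n = 3k, 4·3^(k−1) when n = 3k + 1, and 2·3^k when n = 3k + 2, for every k ≥ 1. -/
theorem result (k : ℕ) (hk : 1 ≤ k) :
    IsGreatest {c : ℕ | ∃ A : Subgroup (Equiv.Perm (Fin (3 * k))), IsMulCommutative A ∧ Nat.card A = c} (3 ^ k) ∧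
    IsGreatest {c : ℕ | ∃ A : Subgroup (Equiv.Perm (Fin (3 * k + 1))), IsMulCommutative A ∧ Nat.card A = c}
      (4 * 3 ^ (k - 1)) ∧
    IsGreatest {c : ℕ | ∃ A : Subgroup (Equiv.Perm (Fin (3 * k + 2))), IsMulCommutative A ∧ Nat.card A = c}
      (2 * 3 ^ k) := by
  obtain ⟨j, rfl⟩ : ∃ j, k = j + 1 := ⟨k - 1, by omega⟩
  rw [Nat.add_sub_cancel]
  refine ⟨⟨?_, ?_⟩, ⟨?_, ?_⟩, ⟨?_, ?_⟩⟩
  · obtain ⟨A, hA, -, hc⟩ := hasAb_three_pow False (j + 1)
    exact ⟨A, hA, hc⟩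
  · rintro c ⟨A, hA, rfl⟩
    have := card_le_g (3 * (j + 1)) (Fin (3 * (j + 1))) (by simp) A hA
    rw [g_three_mul] at this
    exact this
  · obtain ⟨A, hA, -, hc⟩ := hasAb_three_mul_add_one False j
    exact ⟨A, hA, hc⟩
  · rintro c ⟨A, hA, rfl⟩
    have := card_le_g (3 * (j + 1) + 1) (Fin (3 * (j + 1) + 1)) (by simp) A hA
    rw [g_three_mul_add_one] at this
    exact this
  · obtain ⟨A, hA, -, hc⟩ := hasAb_three_mul_add_two (j + 1)
    exact ⟨A, hA, hc⟩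
  · rintro c ⟨A, hA, rfl⟩
    have := card_le_g (3 * (j + 1) + 2) (Fin (3 * (j + 1) + 2)) (by simp) A hA
    rw [g_three_mul_add_two] at this
    exact this

end Cfsg.Agent.S2505
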