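import Cfsg.Statements.S2506
import Mathlib
import Cfsg.Agent.Lib.Helper42.AbelConj2

set_option autoImplicit false
open scoped Pointwise
open Cfsg

namespace Cfsg.Agent.S2506

open Cfsg.Agent.Lib.Helper42.AbelPerm Cfsg.Agent.Lib.Helper42.AbelConj
  Cfsg.Agent.Lib.Helper42.AbelConj2

lemma mem_map_iff {n : ℕ} (A : Subgroup (alternatingGroup (Fin n)))
    (x : alternatingGroup (Fin n)) :
    (x : Equiv.Perm (Fin n)) ∈ A.map (alternatingGroup (Fin n)).subtype ↔ x ∈ A := by
  constructor
  · rintro ⟨y, hy, e⟩
    have : y = x := Subtype.ext e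
    rwa [← this]
  · intro h
    exact ⟨x, h, rfl⟩

/-- two subgroups of the alternating group with the extremal structure and of the same order
are conjugate in the alternating group -/
theorem conj_of_good {n : ℕ} (hn : 3 ≤ n) (A B : Subgroup (alternatingGroup (Fin n)))
    (hA : IsMulCommutative A) (hB : IsMulCommutative B)
    (hGA : Good (A.map (alternatingGroup (Fin n)).subtype))
    (hGB : Good (B.map (alternatingGroup (Fin n)).subtype))
    (hcard : Nat.card A = Nat.card B) :
    ∃ g : alternatingGroup (Fin n), B = MulAut.conj g • A := by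
  obtain ⟨A', hA'⟩ : ∃ A', A' = A.map (alternatingGroup (Fin n)).subtype := ⟨_, rfl⟩
  obtain ⟨B', hB'⟩ : ∃ B', B' = B.map (alternatingGroup (Fin n)).subtype := ⟨_, rfl⟩
  have hAc : IsMulCommutative A' := by rw [hA']; infer_instance
  have hBc : IsMulCommutative B' := by rw [hB']; infer_instance
  rw [← hA'] at hGA
  rw [← hB'] at hGB
  have hcard' : Nat.card A' = Nat.card B' := by
    rw [hA', hB', Subgroup.card_map_of_injective (Subgroup.subtype_injective _),
      Subgroup.card_map_of_injective (Subgroup.subtype_injective _), hcard]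
  obtain ⟨φ, hφ⟩ := exists_matching n (Fin n) (Fin n) (by simp) (by simp) A' B' hAc hBc
    hGA hGB hcard'
  obtain ⟨φ', hφ', hsign⟩ : ∃ φ' : Equiv.Perm (Fin n),
      (∀ u v, φ' v ∈ orb B' (φ' u) ↔ v ∈ orb A' u) ∧ Equiv.Perm.sign φ' = 1 := by
    rcases Int.units_eq_one_or (Equiv.Perm.sign φ) with h | h
    · exact ⟨φ, hφ, h⟩
    · let x : Fin n := ⟨0, by omega⟩
      have h3 : 1 < (orb A' x).ncard := by
        rcases (hGA x).1 with h | ⟨h, -⟩ <;> omega
      obtain ⟨y, hy, hyx⟩ := Set.exists_ne_of_one_lt_ncard h3 x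
      have hs : ∀ w, Equiv.swap x y w ∈ orb A' w := by
        intro w
        by_cases hwx : w = x
        · rw [hwx, Equiv.swap_apply_left]
          exact hy
        · by_cases hwy : w = y
          · rw [hwy, Equiv.swap_apply_right]
            exact mem_orb_symm A' hy
          · rw [Equiv.swap_apply_of_ne_of_ne hwx hwy]
            exact mem_orb_self A' w
      refine ⟨φ * Equiv.swap x y, ?_, ?_⟩
      · intro u v
        rw [Equiv.Perm.mul_apply, Equiv.Perm.mul_apply, hφ]
        constructor
        · intro h'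
          exact mem_orb_trans A' (mem_orb_trans A' (hs u) h') (mem_orb_symm A' (hs v))
        · intro h'
          exact mem_orb_trans A' (mem_orb_trans A' (mem_orb_symm A' (hs u)) h') (hs v)
      · rw [Equiv.Perm.sign_mul, h, Equiv.Perm.sign_swap hyx.symm]
        rfl
  let g : alternatingGroup (Fin n) := ⟨φ', Equiv.Perm.mem_alternatingGroup.mpr hsign⟩
  refine ⟨g, ?_⟩
  ext b
  rw [Subgroup.mem_pointwise_smul_iff_inv_smul_mem, MulAut.smul_def, MulAut.conj_inv_apply]
  rw [← mem_map_iff B b, ← mem_map_iff A (g⁻¹ * b * g), ← hA', ← hB']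
  have h1 := conj_iff A' B' hGA hGB φ' hφ' (φ'⁻¹ * (b : Equiv.Perm (Fin n)) * φ')
  have e : Equiv.permCongr φ' (φ'⁻¹ * (b : Equiv.Perm (Fin n)) * φ') = b := by
    ext y
    simp
  rw [e] at h1
  exact h1

/-- In the alternating group of any degree, any two abelian subgroups of the largest possible order (among abelian subgroups) are conjugate. -/
theorem result (n : ℕ)
    (A B : Subgroup (alternatingGroup (Fin n))) (hA : IsMulCommutative A) (hB : IsMulCommutative B)
    (hAmax : ∀ C : Subgroup (alternatingGroup (Fin n)), IsMulCommutative C → Nat.card C ≤ Nat.card A)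
    (hBmax : ∀ C : Subgroup (alternatingGroup (Fin n)), IsMulCommutative C → Nat.card C ≤ Nat.card B) :
    ∃ g : alternatingGroup (Fin n), B = MulAut.conj g • A := by
  have hcard : Nat.card A = Nat.card B := le_antisymm (hBmax A hA) (hAmax B hB)
  by_cases hn2 : n ≤ 2
  · have hone : ∀ a : Equiv.Perm (Fin n), Equiv.Perm.sign a = 1 → a = 1 := by
      interval_cases n <;> decide
    have hsub : Subsingleton (alternatingGroup (Fin n)) :=
      ⟨fun a b => Subtype.ext (by
        rw [hone a.1 (Equiv.Perm.mem_alternatingGroup.mp a.2),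
          hone b.1 (Equiv.Perm.mem_alternatingGroup.mp b.2)])⟩
    exact ⟨1, Subsingleton.elim _ _⟩
  by_cases hn5 : n = 5
  · subst hn5
    have h5 : ∀ (X : Subgroup (alternatingGroup (Fin 5))), IsMulCommutative X →
        (∀ C : Subgroup (alternatingGroup (Fin 5)), IsMulCommutative C →
          Nat.card C ≤ Nat.card X) → Nat.card X = 5 := by
      intro X hX hXmax
      obtain ⟨C, hC, hCc⟩ := exists_alt_of_hasAb
        (hasAb_rotate 5 (by norm_num) True (fun _ => by decide))
      have hge : 5 ≤ Nat.card X := by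
        have := hXmax C hC
        omega
      obtain ⟨X', hX', hX'even, hX'c⟩ := exists_perm_of_alt X hX
      have hsmall : ∀ x, 3 ≤ (orb X' x).ncard :=
        three_le_orb X' hX'even 5 (by omega) (fun j hj hj2 => by
          have : Nat.card (Fin 5) = 5 := by simp
          rw [this]
          interval_cases j <;> decide)
      have hle := card_le_g3 5 (Fin 5) (by simp) X' hX' hsmall
      have : g3 5 = 5 := rfl
      omega
    have hA5 := h5 A hA hAmax
    have hB5 := h5 B hB hBmax
    have hp : Fact (Nat.Prime 5) := ⟨by norm_num⟩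
    have hcardG : Nat.card (alternatingGroup (Fin 5)) = 60 := by
      have h2 := two_mul_nat_card_alternatingGroup (α := Fin 5)
      rw [Nat.card_perm] at h2
      have h3 : (Nat.card (Fin 5)).factorial = 120 := by
        simp [Nat.factorial]
      omega
    have hidx : ∀ X : Subgroup (alternatingGroup (Fin 5)), Nat.card X = 5 → ¬ 5 ∣ X.index := by
      intro X hX h
      have := X.card_mul_index
      rw [hX, hcardG] at this
      omega
    let P : Sylow 5 (alternatingGroup (Fin 5)) :=
      (IsPGroup.of_card (n := 1) (by rw [hA5]; rfl)).toSylow (hidx A hA5)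
    let Q : Sylow 5 (alternatingGroup (Fin 5)) :=
      (IsPGroup.of_card (n := 1) (by rw [hB5]; rfl)).toSylow (hidx B hB5)
    obtain ⟨g, hg⟩ := MulAction.exists_smul_eq (alternatingGroup (Fin 5)) P Q
    refine ⟨g, ?_⟩
    have h1 : ((g • P : Sylow 5 (alternatingGroup (Fin 5))) : Subgroup (alternatingGroup (Fin 5)))
        = MulAut.conj g • (P : Subgroup (alternatingGroup (Fin 5))) := rfl
    rw [hg] at h1
    exact h1
  have key : ∀ (X : Subgroup (alternatingGroup (Fin n))), IsMulCommutative X →
      (∀ C : Subgroup (alternatingGroup (Fin n)), IsMulCommutative C →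
        Nat.card C ≤ Nat.card X) → Good (X.map (alternatingGroup (Fin n)).subtype) := by
    intro X hX hXmax
    have hXeven : ∀ a ∈ X.map (alternatingGroup (Fin n)).subtype, Equiv.Perm.sign a = 1 := by
      rintro _ ⟨a, -, rfl⟩
      exact Equiv.Perm.mem_alternatingGroup.mp a.2
    have hXcard : Nat.card (X.map (alternatingGroup (Fin n)).subtype) = Nat.card X :=
      Subgroup.card_map_of_injective (Subgroup.subtype_injective _)
    have hnc : Nat.card (Fin n) = n := by simp
    obtain ⟨k, hk⟩ : ∃ k, (n = 3 * k ∧ 1 ≤ k) ∨ n = 3 * (k + 1) + 1 ∨ n = 3 * (k + 2) + 2 := by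
      rcases (by omega : n % 3 = 0 ∨ n % 3 = 1 ∨ n % 3 = 2) with h | h | h
      · exact ⟨n / 3, Or.inl ⟨by omega, by omega⟩⟩
      · exact ⟨n / 3 - 1, Or.inr (Or.inl (by omega))⟩
      · exact ⟨n / 3 - 2, Or.inr (Or.inr (by omega))⟩
    obtain ⟨X', hX'⟩ : ∃ X', X' = X.map (alternatingGroup (Fin n)).subtype := ⟨_, rfl⟩
    have hX'c : IsMulCommutative X' := by rw [hX']; infer_instance
    rw [← hX'] at hXeven hXcard ⊢
    have hRg : ∀ x, Nat.card (restrC X' x).range ≤ g (Nat.card (Fin n) - (orb X' x).ncard) := by
      intro x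
      have h4 := card_compl_orb X' x
      have h5 : Nat.card (restrC X' x).range ≤ g (Nat.card ↥(orb X' x)ᶜ) :=
        card_le_g _ _ rfl _ inferInstance
      have e : Nat.card (Fin n) - (orb X' x).ncard = Nat.card ↥(orb X' x)ᶜ := by omega
      rw [e]
      exact h5
    rcases hk with ⟨hk, hk1⟩ | hk | hk
    · obtain ⟨C, hC, hCc⟩ := exists_alt_of_hasAb (hasAb_three_pow True k)
      have hM : 3 ^ k ≤ Nat.card X' := by
        rw [hXcard, ← hCc]
        subst hk
        exact hXmax C hC
      have hsmall := three_le_orb X' hXeven (3 ^ k) hM (fun j hj hj2 => by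
        rw [hnc, hk]
        exact num0_small k j hk1 hj hj2)
      refine good_of_max X' hXeven g (3 ^ k) hM hsmall hRg ?_
      intro j c hj hjn hc h
      rw [hnc, hk] at hjn h
      exact num0 k j c hj hjn hc h
    · obtain ⟨C, hC, hCc⟩ := exists_alt_of_hasAb (hasAb_three_mul_add_one True k)
      have hM : 4 * 3 ^ k ≤ Nat.card X' := by
        rw [hXcard, ← hCc]
        subst hk
        exact hXmax C hC
      have hsmall := three_le_orb X' hXeven (4 * 3 ^ k) hM (fun j hj hj2 => by
        rw [hnc, hk]
        exact num1_small k j hj hj2)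
      refine good_of_max X' hXeven g (4 * 3 ^ k) hM hsmall hRg ?_
      intro j c hj hjn hc h
      rw [hnc, hk] at hjn h
      exact num1 k j c hj hjn hc h
    · obtain ⟨C, hC, hCc⟩ := exists_alt_of_hasAb (hasAb_even_three_mul_add_two k)
      have hM : 16 * 3 ^ k ≤ Nat.card X' := by
        rw [hXcard, ← hCc]
        subst hk
        exact hXmax C hC
      have hsmall := three_le_orb X' hXeven (16 * 3 ^ k) hM (fun j hj hj2 => by
        rw [hnc, hk]
        exact num2_small k j hj hj2)
      refine good_of_max X' hXeven g3 (16 * 3 ^ k) hM hsmall ?_ ?_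
      · intro x
        have h4 := card_compl_orb X' x
        have h5 : Nat.card (restrC X' x).range ≤ g3 (Nat.card ↥(orb X' x)ᶜ) := by
          apply card_le_g3 _ _ rfl _ inferInstance
          intro y
          rw [orb_range_ncard]
          exact hsmall _
        have e : Nat.card (Fin n) - (orb X' x).ncard = Nat.card ↥(orb X' x)ᶜ := by omega
        rw [e]
        exact h5
      · intro j c hj hjn hc h
        rw [hnc, hk] at hjn h
        exact num2 k j c hj hjn hc h
  exact conj_of_good (by omega) A B hA hB (key A hA hAmax) (key B hB hBmax) hcard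

end Cfsg.Agent.S2506
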