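import Cfsg.Statements.S2508
import Mathlib
import Cfsg.Agent.Lib.Helper42.SL2Odd

set_option autoImplicit false
open Cfsg

namespace Cfsg.Agent.S2508

open Cfsg.Agent.Lib.Helper42.SL2Odd

/-- Let F be a finite field with q elements, q odd and q ≥ 7. If q ≡ 1 (mod 4) the conjugacy class sizes of PSL(2,F) are exactly 1, (q² − 1)/2, q(q + 1)/2, q(q − 1) and q(q + 1); if q ≡ 3 (mod 4) they are exactly 1, (q² − 1)/2, q(q − 1)/2, q(q + 1) and q(q − 1). -/
theorem result {F : Type*} [Field F] [Fintype F]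
    (hodd : ¬ 2 ∣ Fintype.card F) (h7 : 7 ≤ Fintype.card F) :
    (Fintype.card F % 4 = 1 →
      Set.range (fun g : (Matrix.ProjectiveSpecialLinearGroup (Fin 2) F) => (Subgroup.centralizer ({g} : Set (Matrix.ProjectiveSpecialLinearGroup (Fin 2) F))).index) =
        {1, (Fintype.card F ^ 2 - 1) / 2, Fintype.card F * (Fintype.card F + 1) / 2,
          Fintype.card F * (Fintype.card F - 1), Fintype.card F * (Fintype.card F + 1)}) ∧
    (Fintype.card F % 4 = 3 →
      Set.range (fun g : (Matrix.ProjectiveSpecialLinearGroup (Fin 2) F) => (Subgroup.centralizer ({g} : Set (Matrix.ProjectiveSpecialLinearGroup (Fin 2) F))).index) =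
        {1, (Fintype.card F ^ 2 - 1) / 2, Fintype.card F * (Fintype.card F - 1) / 2,
          Fintype.card F * (Fintype.card F + 1), Fintype.card F * (Fintype.card F - 1)}) := by
  classical
  have h2 : (2 : F) ≠ 0 := two_ne_zero_of_odd hodd
  obtain ⟨g1, hg1⟩ := exists_index_one (F := F)
  obtain ⟨g2, hg2⟩ := exists_index_parabolic h2
  obtain ⟨g3, hg3a, hg3b⟩ := exists_index_trace_zero h2
  obtain ⟨g4, hg4⟩ := exists_index_split h2 (by omega)
  obtain ⟨g5, hg5⟩ := exists_index_nonsplit h2 (by omega)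
  constructor
  · intro hq
    ext n
    simp only [Set.mem_range, Set.mem_insert_iff, Set.mem_singleton_iff]
    constructor
    · rintro ⟨g', rfl⟩
      rcases index_classification h2 g' with h | h | h | h | ⟨h, -⟩
      · exact Or.inl h
      · exact Or.inr (Or.inl h)
      · exact Or.inr (Or.inr (Or.inr (Or.inr h)))
      · exact Or.inr (Or.inr (Or.inr (Or.inl h)))
      · exact Or.inr (Or.inr (Or.inl (h hq)))
    · rintro (rfl | rfl | rfl | rfl | rfl)
      · exact ⟨g1, hg1⟩
      · exact ⟨g2, hg2⟩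
      · exact ⟨g3, hg3a hq⟩
      · exact ⟨g5, hg5⟩
      · exact ⟨g4, hg4⟩
  · intro hq
    ext n
    simp only [Set.mem_range, Set.mem_insert_iff, Set.mem_singleton_iff]
    constructor
    · rintro ⟨g', rfl⟩
      rcases index_classification h2 g' with h | h | h | h | ⟨-, h⟩
      · exact Or.inl h
      · exact Or.inr (Or.inl h)
      · exact Or.inr (Or.inr (Or.inr (Or.inl h)))
      · exact Or.inr (Or.inr (Or.inr (Or.inr h)))
      · exact Or.inr (Or.inr (Or.inl (h hq)))
    · rintro (rfl | rfl | rfl | rfl | rfl)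
      · exact ⟨g1, hg1⟩
      · exact ⟨g2, hg2⟩
      · exact ⟨g3, hg3b hq⟩
      · exact ⟨g4, hg4⟩
      · exact ⟨g5, hg5⟩

end Cfsg.Agent.S2508
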