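import Cfsg.Statements.S2510
import Mathlib
import Cfsg.Agent.Lib.Helper42.PslOrdB

set_option autoImplicit false
open Cfsg

namespace Cfsg.Agent.S2510

open Cfsg.Agent.Lib.Helper42.PslOrdA Cfsg.Agent.Lib.Helper42.PslOrdB

section generic
variable {H : Type*} [Group H]

/-- the family `g` can be replaced by a family whose orders have least common multiple the
least common multiple of `r` and the orders of `g` -/
def Target (r : ℕ) {ι : Type*} (g : ι → H) : Prop :=
  ∃ h : ι → H, ∀ K : ℕ, (∀ i, orderOf (h i) ∣ K) ↔ (r ∣ K ∧ ∀ i, orderOf (g i) ∣ K)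

variable {ι : Type*} [DecidableEq ι]

omit [DecidableEq ι] in
lemma caseR (r : ℕ) (g : ι → H) (hR : ∃ i, r ∣ orderOf (g i)) : Target r g := by
  obtain ⟨i, hi⟩ := hR
  exact ⟨g, fun K => ⟨fun hK => ⟨hi.trans (hK i), hK⟩, fun hK => hK.2⟩⟩

lemma caseD (r : ℕ) (hr : r.Prime) (g : ι → H) (i : ι) (hi : H)
    (hh : orderOf hi = r * orderOf (g i)) (hnd : ¬ r ∣ orderOf (g i)) : Target r g := by
  refine ⟨Function.update g i hi, fun K => ⟨fun hK => ?_, fun hK k => ?_⟩⟩
  · have Hi := hK i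
    rw [Function.update_self, hh] at Hi
    refine ⟨dvd_of_mul_right_dvd Hi, fun k => ?_⟩
    by_cases hk : k = i
    · rw [hk]
      exact dvd_of_mul_left_dvd Hi
    · have := hK k
      rwa [Function.update_of_ne hk] at this
  · by_cases hk : k = i
    · rw [hk, Function.update_self, hh]
      exact Nat.Coprime.mul_dvd_of_dvd_of_dvd ((Nat.Prime.coprime_iff_not_dvd hr).mpr hnd) hK.1
        (hK.2 i)
    · rw [Function.update_of_ne hk]
      exact hK.2 k

lemma caseU (p : ℕ) (hp : p.Prime) (r : ℕ) (hr : r.Prime) (g : ι → H) (i j : ι) (hij : i ≠ j)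
    (hi : H)
    (hh : orderOf hi = r * (orderOf (g i) / p ^ (orderOf (g i)).factorization p))
    (hle : (orderOf (g i)).factorization p ≤ (orderOf (g j)).factorization p)
    (hnd : ¬ r ∣ orderOf (g i)) (hpos : 0 < orderOf (g i)) : Target r g := by
  have hPm := Nat.ordProj_mul_ordCompl_eq_self (orderOf (g i)) p
  have hcop : Nat.Coprime (p ^ (orderOf (g i)).factorization p)
      (orderOf (g i) / p ^ (orderOf (g i)).factorization p) :=
    Nat.Coprime.pow_left _ (Nat.coprime_ordCompl hp hpos.ne')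
  have hmdvd : orderOf (g i) / p ^ (orderOf (g i)).factorization p ∣ orderOf (g i) :=
    Dvd.intro_left _ hPm
  refine ⟨Function.update g i hi, fun K => ⟨fun hK => ?_, fun hK k => ?_⟩⟩
  · have Hi := hK i
    rw [Function.update_self, hh] at Hi
    have Hj := hK j
    rw [Function.update_of_ne hij.symm] at Hj
    refine ⟨dvd_of_mul_right_dvd Hi, fun k => ?_⟩
    by_cases hk : k = i
    · rw [hk, ← hPm]
      apply Nat.Coprime.mul_dvd_of_dvd_of_dvd hcop _ (dvd_of_mul_left_dvd Hi)
      exact ((pow_dvd_pow p hle).trans (Nat.ordProj_dvd _ p)).trans Hj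
    · have := hK k
      rwa [Function.update_of_ne hk] at this
  · by_cases hk : k = i
    · rw [hk, Function.update_self, hh]
      apply Nat.Coprime.mul_dvd_of_dvd_of_dvd _ hK.1 (hmdvd.trans (hK.2 i))
      exact (Nat.Prime.coprime_iff_not_dvd hr).mpr (fun h => hnd (h.trans hmdvd))
    · rw [Function.update_of_ne hk]
      exact hK.2 k

lemma caseS (r : ℕ) (g : ι → H) (i j : ι) (hij : i ≠ j) (hi : H)
    (hh : orderOf hi = Nat.lcm (orderOf (g i)) (orderOf (g j))) (t : H) (ht : orderOf t = r) :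
    Target r g := by
  refine ⟨Function.update (Function.update g i hi) j t, fun K => ⟨fun hK => ?_, fun hK k => ?_⟩⟩
  · have Hi := hK i
    rw [Function.update_of_ne hij, Function.update_self, hh] at Hi
    have Hj := hK j
    rw [Function.update_self, ht] at Hj
    refine ⟨Hj, fun k => ?_⟩
    by_cases hk : k = i
    · rw [hk]
      exact (Nat.dvd_lcm_left _ _).trans Hi
    · by_cases hk' : k = j
      · rw [hk']
        exact (Nat.dvd_lcm_right _ _).trans Hi
      · have := hK k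
        rwa [Function.update_of_ne hk', Function.update_of_ne hk] at this
  · by_cases hk' : k = j
    · rw [hk', Function.update_self, ht]
      exact hK.1
    · rw [Function.update_of_ne hk']
      by_cases hk : k = i
      · rw [hk, Function.update_self, hh]
        exact Nat.lcm_dvd (hK.2 i) (hK.2 j)
      · rw [Function.update_of_ne hk]
        exact hK.2 k

lemma caseM (p : ℕ) (hp : p.Prime) (r : ℕ) (hr : r.Prime) (hrp : r ≠ p) (g : ι → H) (i j : ι)
    (hij : i ≠ j) (hi : H) (hh1 : orderOf hi = r * p ^ (orderOf (g i)).factorization p) (hj : H)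
    (hh2 : orderOf hj = Nat.lcm (orderOf (g i) / p ^ (orderOf (g i)).factorization p)
      (orderOf (g j))) (hpos : 0 < orderOf (g i)) : Target r g := by
  have hPm := Nat.ordProj_mul_ordCompl_eq_self (orderOf (g i)) p
  have hcop : Nat.Coprime (p ^ (orderOf (g i)).factorization p)
      (orderOf (g i) / p ^ (orderOf (g i)).factorization p) :=
    Nat.Coprime.pow_left _ (Nat.coprime_ordCompl hp hpos.ne')
  have hmdvd : orderOf (g i) / p ^ (orderOf (g i)).factorization p ∣ orderOf (g i) :=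
    Dvd.intro_left _ hPm
  refine ⟨Function.update (Function.update g i hi) j hj, fun K => ⟨fun hK => ?_, fun hK k => ?_⟩⟩
  · have Hi := hK i
    rw [Function.update_of_ne hij, Function.update_self, hh1] at Hi
    have Hj := hK j
    rw [Function.update_self, hh2] at Hj
    refine ⟨dvd_of_mul_right_dvd Hi, fun k => ?_⟩
    by_cases hk : k = i
    · rw [hk, ← hPm]
      exact Nat.Coprime.mul_dvd_of_dvd_of_dvd hcop (dvd_of_mul_left_dvd Hi)
        ((Nat.dvd_lcm_left _ _).trans Hj)
    · by_cases hk' : k = j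
      · rw [hk']
        exact (Nat.dvd_lcm_right _ _).trans Hj
      · have := hK k
        rwa [Function.update_of_ne hk', Function.update_of_ne hk] at this
  · by_cases hk' : k = j
    · rw [hk', Function.update_self, hh2]
      exact Nat.lcm_dvd (hmdvd.trans (hK.2 i)) (hK.2 j)
    · rw [Function.update_of_ne hk']
      by_cases hk : k = i
      · rw [hk, Function.update_self, hh1]
        apply Nat.Coprime.mul_dvd_of_dvd_of_dvd _ hK.1 ((Nat.ordProj_dvd _ p).trans (hK.2 i))
        exact Nat.Coprime.pow_right _ ((Nat.coprime_primes hr hp).mpr hrp)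
      · rw [Function.update_of_ne hk]
        exact hK.2 k

lemma orderOf_triple_dvd (a b c : H) (K : ℕ) :
    orderOf (a, b, c) ∣ K ↔ orderOf a ∣ K ∧ orderOf b ∣ K ∧ orderOf c ∣ K := by
  rw [Prod.orderOf_mk, Prod.orderOf_mk, Nat.lcm_dvd_iff, Nat.lcm_dvd_iff]

lemma orderOf_pair_dvd (a b : H) (K : ℕ) :
    orderOf (a, b) ∣ K ↔ orderOf a ∣ K ∧ orderOf b ∣ K := by
  rw [Prod.orderOf_mk, Nat.lcm_dvd_iff]

lemma target_prod3 (r : ℕ) (g₁ g₂ g₃ : H) (T : Target r ![g₁, g₂, g₃]) :
    ∃ h₁ h₂ h₃ : H, orderOf (h₁, h₂, h₃) = Nat.lcm r (orderOf (g₁, g₂, g₃)) := by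
  obtain ⟨h, hh⟩ := T
  refine ⟨h 0, h 1, h 2, Nat.dvd_antisymm ?_ ?_⟩
  · rw [orderOf_triple_dvd]
    have h1 := (hh (Nat.lcm r (orderOf (g₁, g₂, g₃)))).mpr ⟨Nat.dvd_lcm_left _ _, fun i => by
      have h2 := (orderOf_triple_dvd g₁ g₂ g₃ _).mp (Nat.dvd_lcm_right r (orderOf (g₁, g₂, g₃)))
      fin_cases i
      · exact h2.1
      · exact h2.2.1
      · exact h2.2.2⟩
    exact ⟨h1 0, h1 1, h1 2⟩
  · have h1 := (hh (orderOf (h 0, h 1, h 2))).mp (fun i => by
      have h2 := (orderOf_triple_dvd (h 0) (h 1) (h 2) _).mp dvd_rfl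
      fin_cases i
      · exact h2.1
      · exact h2.2.1
      · exact h2.2.2)
    apply Nat.lcm_dvd h1.1
    rw [orderOf_triple_dvd]
    exact ⟨h1.2 0, h1.2 1, h1.2 2⟩

lemma target_prod2 (r : ℕ) (g₁ g₂ : H) (T : Target r ![g₁, g₂]) :
    ∃ h₁ h₂ : H, orderOf (h₁, h₂) = Nat.lcm r (orderOf (g₁, g₂)) := by
  obtain ⟨h, hh⟩ := T
  refine ⟨h 0, h 1, Nat.dvd_antisymm ?_ ?_⟩
  · rw [orderOf_pair_dvd]
    have h1 := (hh (Nat.lcm r (orderOf (g₁, g₂)))).mpr ⟨Nat.dvd_lcm_left _ _, fun i => by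
      have h2 := (orderOf_pair_dvd g₁ g₂ _).mp (Nat.dvd_lcm_right r (orderOf (g₁, g₂)))
      fin_cases i
      · exact h2.1
      · exact h2.2⟩
    exact ⟨h1 0, h1 1⟩
  · have h1 := (hh (orderOf (h 0, h 1))).mp (fun i => by
      have h2 := (orderOf_pair_dvd (h 0) (h 1) _).mp dvd_rfl
      fin_cases i
      · exact h2.1
      · exact h2.2)
    apply Nat.lcm_dvd h1.1
    rw [orderOf_pair_dvd]
    exact ⟨h1.2 0, h1.2 1⟩

end generic

section psl
variable {F : Type*} [Field F] [Fintype F] {n : ℕ}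

theorem target3 (p : ℕ) [hp : Fact p.Prime] [CharP F p] (hn : 2 ≤ n) (r : ℕ) (hr : r.Prime) (hrq : r ∣ Fintype.card F - 1)
    (hrn : ¬ r ∣ n) (g : Fin 3 → Matrix.ProjectiveSpecialLinearGroup (Fin n) F) :
    Target r g := by
  have hne : NeZero n := ⟨by omega⟩
  by_cases hR : ∃ i, r ∣ orderOf (g i)
  · exact caseR r g hR
  push Not at hR
  choose G hG using fun i => pr_surjective (g i)
  by_cases hD : ∃ i, Dec (G i : Matrix (Fin n) (Fin n) F)
  · obtain ⟨i, hi⟩ := hD
    obtain ⟨h, hh⟩ := order_mul_r r hr hrq hrn (G i) hi (by rw [hG]; exact hR i)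
    rw [hG] at hh
    exact caseD r hr g i h hh (hR i)
  push Not at hD
  have hU : ∀ i j, i ≠ j → p ∣ orderOf (g i) → p ∣ orderOf (g j) → Target r g := by
    intro i j hij hi hj
    rcases le_total ((orderOf (g i)).factorization p) ((orderOf (g j)).factorization p)
      with hle | hle
    · obtain ⟨h, hh⟩ := order_pprime p r hr hrq hrn (G i) (by rw [hG]; exact hi)
        (by rw [hG]; exact hR i)
      rw [hG] at hh
      exact caseU p hp.out r hr g i j hij h hh hle (hR i) (orderOf_pos _)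
    · obtain ⟨h, hh⟩ := order_pprime p r hr hrq hrn (G j) (by rw [hG]; exact hj)
        (by rw [hG]; exact hR j)
      rw [hG] at hh
      exact caseU p hp.out r hr g j i hij.symm h hh hle (hR j) (orderOf_pos _)
  have hS : ∀ i j, i ≠ j → ¬ p ∣ orderOf (g i) → ¬ p ∣ orderOf (g j) → Target r g := by
    intro i j hij hi hj
    obtain ⟨h, hh⟩ := order_lcm p (G i) (G j) (hD i) (hD j) (by rw [hG]; exact hj)
    rw [hG, hG] at hh
    have e : orderOf (g i) / p ^ (orderOf (g i)).factorization p = orderOf (g i) := by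
      rw [Nat.factorization_eq_zero_of_not_dvd hi, pow_zero, Nat.div_one]
    rw [e] at hh
    obtain ⟨t, ht⟩ := exists_order_r (F := F) hn r hr hrq hrn
    exact caseS r g i j hij h hh t ht
  by_cases h0 : p ∣ orderOf (g 0) <;> by_cases h1 : p ∣ orderOf (g 1) <;>
    by_cases h2 : p ∣ orderOf (g 2)
  · exact hU 0 1 (by decide) h0 h1
  · exact hU 0 1 (by decide) h0 h1
  · exact hU 0 2 (by decide) h0 h2
  · exact hS 1 2 (by decide) h1 h2
  · exact hU 1 2 (by decide) h1 h2
  · exact hS 0 2 (by decide) h0 h2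
  · exact hS 0 1 (by decide) h0 h1
  · exact hS 0 1 (by decide) h0 h1

theorem target2 (p : ℕ) [hp : Fact p.Prime] [CharP F p] (hn : 2 ≤ n) (hnp : ¬ ∃ j : ℕ, n - 1 = p ^ j) (r : ℕ) (hr : r.Prime)
    (hrq : r ∣ Fintype.card F - 1) (hrn : ¬ r ∣ n)
    (g : Fin 2 → Matrix.ProjectiveSpecialLinearGroup (Fin n) F) : Target r g := by
  have hne : NeZero n := ⟨by omega⟩
  by_cases hR : ∃ i, r ∣ orderOf (g i)
  · exact caseR r g hR
  push Not at hR
  choose G hG using fun i => pr_surjective (g i)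
  by_cases hD : ∃ i, Dec (G i : Matrix (Fin n) (Fin n) F)
  · obtain ⟨i, hi⟩ := hD
    obtain ⟨h, hh⟩ := order_mul_r r hr hrq hrn (G i) hi (by rw [hG]; exact hR i)
    rw [hG] at hh
    exact caseD r hr g i h hh (hR i)
  push Not at hD
  have hrp : r ≠ p := by
    rintro rfl
    exact not_dvd_card_sub_one (F := F) r hrq
  have hU : ∀ i j, i ≠ j → p ∣ orderOf (g i) → p ∣ orderOf (g j) → Target r g := by
    intro i j hij hi hj
    rcases le_total ((orderOf (g i)).factorization p) ((orderOf (g j)).factorization p)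
      with hle | hle
    · obtain ⟨h, hh⟩ := order_pprime p r hr hrq hrn (G i) (by rw [hG]; exact hi)
        (by rw [hG]; exact hR i)
      rw [hG] at hh
      exact caseU p hp.out r hr g i j hij h hh hle (hR i) (orderOf_pos _)
    · obtain ⟨h, hh⟩ := order_pprime p r hr hrq hrn (G j) (by rw [hG]; exact hj)
        (by rw [hG]; exact hR j)
      rw [hG] at hh
      exact caseU p hp.out r hr g j i hij.symm h hh hle (hR j) (orderOf_pos _)
  have hS : ∀ i j, i ≠ j → ¬ p ∣ orderOf (g i) → ¬ p ∣ orderOf (g j) → Target r g := by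
    intro i j hij hi hj
    obtain ⟨h, hh⟩ := order_lcm p (G i) (G j) (hD i) (hD j) (by rw [hG]; exact hj)
    rw [hG, hG] at hh
    have e : orderOf (g i) / p ^ (orderOf (g i)).factorization p = orderOf (g i) := by
      rw [Nat.factorization_eq_zero_of_not_dvd hi, pow_zero, Nat.div_one]
    rw [e] at hh
    obtain ⟨t, ht⟩ := exists_order_r (F := F) hn r hr hrq hrn
    exact caseS r g i j hij h hh t ht
  have hM : ∀ i j, i ≠ j → p ∣ orderOf (g i) → ¬ p ∣ orderOf (g j) → Target r g := by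
    intro i j hij hi hj
    obtain ⟨h1, hh1⟩ := order_r_ppart p hn hnp r hr hrq hrn (G i) (by rw [hG]; exact hi)
    obtain ⟨h2, hh2⟩ := order_lcm p (G i) (G j) (hD i) (hD j) (by rw [hG]; exact hj)
    rw [hG] at hh1
    rw [hG, hG] at hh2
    exact caseM p hp.out r hr hrp g i j hij h1 hh1 h2 hh2 (orderOf_pos _)
  by_cases h0 : p ∣ orderOf (g 0) <;> by_cases h1 : p ∣ orderOf (g 1)
  · exact hU 0 1 (by decide) h0 h1
  · exact hM 0 1 (by decide) h0 h1
  · exact hM 1 0 (by decide) h1 h0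
  · exact hS 0 1 (by decide) h0 h1

end psl

lemma orderOf_zmod_pow (r m : ℕ) (hr : r.Prime) (z : Multiplicative (Fin m → ZMod r)) :
    orderOf z = 1 ∨ orderOf z = r := by
  have h1 : z ^ r = 1 := by
    have h2 : r • (Multiplicative.toAdd z) = 0 := by
      funext i
      simp
    exact congrArg Multiplicative.ofAdd h2
  exact (Nat.dvd_prime hr).mp (orderOf_dvd_of_pow_eq_one h1)

/-- Let F be a finite field with q = p^a elements, n ≥ 2 (with q ≥ 4 when n = 2), L = PSL(n, F), and let r be a prime dividing q − 1 and not dividing n. Then for every m the direct product L × L × L × (ℤ/r)^m has the same set of element orders as L × L × L; and if n − 1 ≠ p^j for every j ≥ 0 (so never when n = 2, since 1 = p^0), then already L × L × (ℤ/r)^m has the same set of element orders as L × L. -/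
theorem result {F : Type*} [Field F] [Fintype F] (p a n r m : ℕ) (hp : p.Prime) (ha : 1 ≤ a) (hF : Fintype.card F = p ^ a)
    (hn : 2 ≤ n) (hn2 : n = 2 → 4 ≤ Fintype.card F) (hr : r.Prime) (hrq : r ∣ Fintype.card F - 1) (hrn : ¬ r ∣ n) :
    Set.range (orderOf : Matrix.ProjectiveSpecialLinearGroup (Fin n) F × Matrix.ProjectiveSpecialLinearGroup (Fin n) F × Matrix.ProjectiveSpecialLinearGroup (Fin n) F × Multiplicative (Fin m → ZMod r) → ℕ) =
      Set.range (orderOf : Matrix.ProjectiveSpecialLinearGroup (Fin n) F × Matrix.ProjectiveSpecialLinearGroup (Fin n) F × Matrix.ProjectiveSpecialLinearGroup (Fin n) F → ℕ) ∧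
    ((¬ ∃ j : ℕ, n - 1 = p ^ j) →
      Set.range (orderOf : Matrix.ProjectiveSpecialLinearGroup (Fin n) F × Matrix.ProjectiveSpecialLinearGroup (Fin n) F × Multiplicative (Fin m → ZMod r) → ℕ) =
        Set.range (orderOf : Matrix.ProjectiveSpecialLinearGroup (Fin n) F × Matrix.ProjectiveSpecialLinearGroup (Fin n) F → ℕ)) := by
  have hpf : Fact p.Prime := ⟨hp⟩
  have hchar : CharP F p := by
    obtain ⟨p', hp'⟩ := CharP.exists F
    obtain ⟨k, hk1, hk2⟩ := FiniteField.card F p'
    have h1 : p ∣ p' ^ (k : ℕ) := by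
      rw [← hk2, hF]
      exact dvd_pow_self p (by omega)
    have h2 : p = p' := (Nat.prime_dvd_prime_iff_eq hp hk1).mp (hp.dvd_of_dvd_pow h1)
    rw [h2]
    exact hp'
  constructor
  · apply Set.eq_of_subset_of_subset
    · rintro _ ⟨⟨g₁, g₂, g₃, z⟩, rfl⟩
      have e1 : orderOf (g₁, g₂, g₃, z) = Nat.lcm (orderOf (g₁, g₂, g₃)) (orderOf z) := by
        rw [Prod.orderOf_mk, Prod.orderOf_mk, Prod.orderOf_mk, Prod.orderOf_mk, Prod.orderOf_mk,
          Nat.lcm_assoc, Nat.lcm_assoc]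
      rcases orderOf_zmod_pow r m hr z with hz | hz
      · exact ⟨(g₁, g₂, g₃), by rw [e1, hz, Nat.lcm_one_right]⟩
      · obtain ⟨h₁, h₂, h₃, hh⟩ := target_prod3 r g₁ g₂ g₃ (target3 p hn r hr hrq hrn _)
        exact ⟨(h₁, h₂, h₃), by rw [e1, hz, hh, Nat.lcm_comm]⟩
    · rintro _ ⟨⟨g₁, g₂, g₃⟩, rfl⟩
      refine ⟨(g₁, g₂, g₃, 1), ?_⟩
      rw [Prod.orderOf_mk, Prod.orderOf_mk, Prod.orderOf_mk, Prod.orderOf_mk, Prod.orderOf_mk,
        orderOf_one, Nat.lcm_one_right]
  · intro hnp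
    apply Set.eq_of_subset_of_subset
    · rintro _ ⟨⟨g₁, g₂, z⟩, rfl⟩
      have e1 : orderOf (g₁, g₂, z) = Nat.lcm (orderOf (g₁, g₂)) (orderOf z) := by
        rw [Prod.orderOf_mk, Prod.orderOf_mk, Prod.orderOf_mk, Nat.lcm_assoc]
      rcases orderOf_zmod_pow r m hr z with hz | hz
      · exact ⟨(g₁, g₂), by rw [e1, hz, Nat.lcm_one_right]⟩
      · obtain ⟨h₁, h₂, hh⟩ := target_prod2 r g₁ g₂ (target2 p hn hnp r hr hrq hrn _)
        exact ⟨(h₁, h₂), by rw [e1, hz, hh, Nat.lcm_comm]⟩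
    · rintro _ ⟨⟨g₁, g₂⟩, rfl⟩
      refine ⟨(g₁, g₂, 1), ?_⟩
      rw [Prod.orderOf_mk, Prod.orderOf_mk, Prod.orderOf_mk, orderOf_one, Nat.lcm_one_right]

end Cfsg.Agent.S2510
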