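import Cfsg.Statements.S2511
import Mathlib
import Cfsg.Agent.S2510
import Cfsg.Agent.Lib.Helper42.PsuOrdF

set_option autoImplicit false
open Cfsg

namespace Cfsg.Agent.S2511

open Cfsg.Agent.Lib.Helper40.HermAdj
open Cfsg.Agent.Lib.Helper42.PsuOrdA Cfsg.Agent.Lib.Helper42.PsuOrdE
open Cfsg.Agent.Lib.Helper42.PsuOrdF

section psu
variable {F : Type*} [Field F] [Fintype F] {n q : ℕ}

theorem target3U (p a : ℕ) [hp : Fact p.Prime] [CharP F p] (hq : q = p ^ a)
    (hF : Fintype.card F = q ^ 2) (hn : 3 ≤ n) (φ : F →+* F) (hφ : ∀ x, φ x = x ^ q)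
    (hφ2 : ∀ x, φ (φ x) = x) (r : ℕ) (hr : r.Prime) (hrq : r ∣ q + 1) (hrn : ¬ r ∣ n)
    (g : Fin 3 → Cfsg.PSU n F q) : Cfsg.Agent.S2510.Target r g := by
  have hne : NeZero n := ⟨by omega⟩
  by_cases hR : ∃ i, r ∣ orderOf (g i)
  · exact Cfsg.Agent.S2510.caseR r g hR
  push Not at hR
  choose G hG using fun i => pr_surjective (g i)
  by_cases hD : ∃ i, DecU φ (mat (G i))
  · obtain ⟨i, hi⟩ := hD
    obtain ⟨h, hh⟩ := order_mul_r hF hn φ hφ r hr hrq hrn (G i) hi (by rw [hG]; exact hR i)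
    rw [hG] at hh
    exact Cfsg.Agent.S2510.caseD r hr g i h hh (hR i)
  push Not at hD
  have hU : ∀ i j, i ≠ j → p ∣ orderOf (g i) → p ∣ orderOf (g j) →
      Cfsg.Agent.S2510.Target r g := by
    intro i j hij hi hj
    rcases le_total ((orderOf (g i)).factorization p) ((orderOf (g j)).factorization p)
      with hle | hle
    · obtain ⟨h, hh⟩ := order_pprime p hF hn φ hφ hφ2 r hr hrq hrn (G i)
        (by rw [hG]; exact hi) (by rw [hG]; exact hR i)
      rw [hG] at hh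
      exact Cfsg.Agent.S2510.caseU p hp.out r hr g i j hij h hh hle (hR i) (orderOf_pos _)
    · obtain ⟨h, hh⟩ := order_pprime p hF hn φ hφ hφ2 r hr hrq hrn (G j)
        (by rw [hG]; exact hj) (by rw [hG]; exact hR j)
      rw [hG] at hh
      exact Cfsg.Agent.S2510.caseU p hp.out r hr g j i hij.symm h hh hle (hR j) (orderOf_pos _)
  have hS : ∀ i j, i ≠ j → ¬ p ∣ orderOf (g i) → ¬ p ∣ orderOf (g j) →
      Cfsg.Agent.S2510.Target r g := by
    intro i j hij hi hj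
    obtain ⟨h, hh⟩ := order_lcm p hF hn a hq φ hφ hφ2 (G i) (G j) (hD i) (hD j)
      (by rw [hG]; exact hj)
    rw [hG, hG] at hh
    have e : orderOf (g i) / p ^ (orderOf (g i)).factorization p = orderOf (g i) := by
      rw [Nat.factorization_eq_zero_of_not_dvd hi, pow_zero, Nat.div_one]
    rw [e] at hh
    obtain ⟨t, ht⟩ := exists_order_r (n := n) hF hn φ hφ r hr hrq hrn
    exact Cfsg.Agent.S2510.caseS r g i j hij h hh t ht
  by_cases h0 : p ∣ orderOf (g 0) <;> by_cases h1 : p ∣ orderOf (g 1) <;>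
    by_cases h2 : p ∣ orderOf (g 2)
  · exact hU 0 1 (by decide) h0 h1
  · exact hU 0 1 (by decide) h0 h1
  · exact hU 0 2 (by decide) h0 h2
  · exact hS 1 2 (by decide) h1 h2
  · exact hU 1 2 (by decide) h1 h2
  · exact hS 0 2 (by decide) h0 h2
  · exact hS 0 1 (by decide) h0 h1
  · exact hS 0 1 (by decide) h0 h1

theorem target2U (p a : ℕ) [hp : Fact p.Prime] [CharP F p] (hq : q = p ^ a)
    (hF : Fintype.card F = q ^ 2) (hn : 3 ≤ n) (φ : F →+* F) (hφ : ∀ x, φ x = x ^ q)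
    (hφ2 : ∀ x, φ (φ x) = x) (l : F) (hl : φ l ≠ l) (hnp : ¬ ∃ j : ℕ, n - 1 = p ^ j)
    (r : ℕ) (hr : r.Prime) (hrq : r ∣ q + 1) (hrn : ¬ r ∣ n) (hrp : r ≠ p)
    (g : Fin 2 → Cfsg.PSU n F q) : Cfsg.Agent.S2510.Target r g := by
  have hne : NeZero n := ⟨by omega⟩
  by_cases hR : ∃ i, r ∣ orderOf (g i)
  · exact Cfsg.Agent.S2510.caseR r g hR
  push Not at hR
  choose G hG using fun i => pr_surjective (g i)
  by_cases hD : ∃ i, DecU φ (mat (G i))
  · obtain ⟨i, hi⟩ := hD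
    obtain ⟨h, hh⟩ := order_mul_r hF hn φ hφ r hr hrq hrn (G i) hi (by rw [hG]; exact hR i)
    rw [hG] at hh
    exact Cfsg.Agent.S2510.caseD r hr g i h hh (hR i)
  push Not at hD
  have hU : ∀ i j, i ≠ j → p ∣ orderOf (g i) → p ∣ orderOf (g j) →
      Cfsg.Agent.S2510.Target r g := by
    intro i j hij hi hj
    rcases le_total ((orderOf (g i)).factorization p) ((orderOf (g j)).factorization p)
      with hle | hle
    · obtain ⟨h, hh⟩ := order_pprime p hF hn φ hφ hφ2 r hr hrq hrn (G i)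
        (by rw [hG]; exact hi) (by rw [hG]; exact hR i)
      rw [hG] at hh
      exact Cfsg.Agent.S2510.caseU p hp.out r hr g i j hij h hh hle (hR i) (orderOf_pos _)
    · obtain ⟨h, hh⟩ := order_pprime p hF hn φ hφ hφ2 r hr hrq hrn (G j)
        (by rw [hG]; exact hj) (by rw [hG]; exact hR j)
      rw [hG] at hh
      exact Cfsg.Agent.S2510.caseU p hp.out r hr g j i hij.symm h hh hle (hR j) (orderOf_pos _)
  have hS : ∀ i j, i ≠ j → ¬ p ∣ orderOf (g i) → ¬ p ∣ orderOf (g j) →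
      Cfsg.Agent.S2510.Target r g := by
    intro i j hij hi hj
    obtain ⟨h, hh⟩ := order_lcm p hF hn a hq φ hφ hφ2 (G i) (G j) (hD i) (hD j)
      (by rw [hG]; exact hj)
    rw [hG, hG] at hh
    have e : orderOf (g i) / p ^ (orderOf (g i)).factorization p = orderOf (g i) := by
      rw [Nat.factorization_eq_zero_of_not_dvd hi, pow_zero, Nat.div_one]
    rw [e] at hh
    obtain ⟨t, ht⟩ := exists_order_r (n := n) hF hn φ hφ r hr hrq hrn
    exact Cfsg.Agent.S2510.caseS r g i j hij h hh t ht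
  have hM : ∀ i j, i ≠ j → p ∣ orderOf (g i) → ¬ p ∣ orderOf (g j) →
      Cfsg.Agent.S2510.Target r g := by
    intro i j hij hi hj
    obtain ⟨h1, hh1⟩ := order_r_ppart p hF hn φ hφ hφ2 l hl hnp r hr hrq hrn hrp (G i)
      (by rw [hG]; exact hi)
    obtain ⟨h2, hh2⟩ := order_lcm p hF hn a hq φ hφ hφ2 (G i) (G j) (hD i) (hD j)
      (by rw [hG]; exact hj)
    rw [hG] at hh1
    rw [hG, hG] at hh2
    exact Cfsg.Agent.S2510.caseM p hp.out r hr hrp g i j hij h1 hh1 h2 hh2 (orderOf_pos _)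
  by_cases h0 : p ∣ orderOf (g 0) <;> by_cases h1 : p ∣ orderOf (g 1)
  · exact hU 0 1 (by decide) h0 h1
  · exact hM 0 1 (by decide) h0 h1
  · exact hM 1 0 (by decide) h1 h0
  · exact hS 0 1 (by decide) h0 h1

end psu

/-- Let F be a finite field with q² elements, q = p^a, n ≥ 3 with (n, q) ≠ (3, 2), L = PSU(n, q) realised over F, and let r be a prime dividing q + 1 and not dividing n. Then for every m the direct product L × L × L × (ℤ/r)^m has the same set of element orders as L × L × L; and if n − 1 is not a power of p, then already L × L × (ℤ/r)^m has the same set of element orders as L × L. -/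
theorem result {F : Type*} [Field F] [Fintype F] (p a n q r m : ℕ) (hp : p.Prime) (ha : 1 ≤ a) (hq : q = p ^ a) (hF : Fintype.card F = q ^ 2)
    (hn : 3 ≤ n) (hn3 : ¬ (n = 3 ∧ q = 2)) (hr : r.Prime) (hrq : r ∣ q + 1) (hrn : ¬ r ∣ n) :
    Set.range (orderOf : Cfsg.PSU n F q × Cfsg.PSU n F q × Cfsg.PSU n F q × Multiplicative (Fin m → ZMod r) → ℕ) = Set.range (orderOf : Cfsg.PSU n F q × Cfsg.PSU n F q × Cfsg.PSU n F q → ℕ) ∧
    ((¬ ∃ j : ℕ, n - 1 = p ^ j) →
      Set.range (orderOf : Cfsg.PSU n F q × Cfsg.PSU n F q × Multiplicative (Fin m → ZMod r) → ℕ) = Set.range (orderOf : Cfsg.PSU n F q × Cfsg.PSU n F q → ℕ)) := by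
  have hpf : Fact p.Prime := ⟨hp⟩
  have hchar : CharP F p := by
    obtain ⟨p', hp'⟩ := CharP.exists F
    obtain ⟨k, hk1, hk2⟩ := FiniteField.card F p'
    have h1 : p ∣ p' ^ (k : ℕ) := by
      rw [← hk2, hF, hq]
      exact dvd_pow (dvd_pow_self p (by omega)) (by norm_num)
    have h2 : p = p' := (Nat.prime_dvd_prime_iff_eq hp hk1).mp (hp.dvd_of_dvd_pow h1)
    rw [h2]
    exact hp'
  obtain ⟨φ, hφ, hφ2, l, hl⟩ := exists_phi hF
  have hrp : r ≠ p := by
    rintro rfl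
    have h1 : r ∣ q := by
      rw [hq]
      exact dvd_pow_self r (by omega)
    have h2 : r ∣ 1 := (Nat.dvd_add_right h1).mp hrq
    exact hr.one_lt.ne' (Nat.dvd_one.mp h2)
  constructor
  · apply Set.eq_of_subset_of_subset
    · rintro _ ⟨⟨g₁, g₂, g₃, z⟩, rfl⟩
      have e1 : orderOf (g₁, g₂, g₃, z) = Nat.lcm (orderOf (g₁, g₂, g₃)) (orderOf z) := by
        rw [Prod.orderOf_mk, Prod.orderOf_mk, Prod.orderOf_mk, Prod.orderOf_mk, Prod.orderOf_mk,
          Nat.lcm_assoc, Nat.lcm_assoc]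
      rcases Cfsg.Agent.S2510.orderOf_zmod_pow r m hr z with hz | hz
      · exact ⟨(g₁, g₂, g₃), by rw [e1, hz, Nat.lcm_one_right]⟩
      · obtain ⟨h₁, h₂, h₃, hh⟩ := Cfsg.Agent.S2510.target_prod3 r g₁ g₂ g₃
          (target3U p a hq hF hn φ hφ hφ2 r hr hrq hrn _)
        exact ⟨(h₁, h₂, h₃), by rw [e1, hz, hh, Nat.lcm_comm]⟩
    · rintro _ ⟨⟨g₁, g₂, g₃⟩, rfl⟩
      refine ⟨(g₁, g₂, g₃, 1), ?_⟩
      rw [Prod.orderOf_mk, Prod.orderOf_mk, Prod.orderOf_mk, Prod.orderOf_mk, Prod.orderOf_mk,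
        orderOf_one, Nat.lcm_one_right]
  · intro hnp
    apply Set.eq_of_subset_of_subset
    · rintro _ ⟨⟨g₁, g₂, z⟩, rfl⟩
      have e1 : orderOf (g₁, g₂, z) = Nat.lcm (orderOf (g₁, g₂)) (orderOf z) := by
        rw [Prod.orderOf_mk, Prod.orderOf_mk, Prod.orderOf_mk, Nat.lcm_assoc]
      rcases Cfsg.Agent.S2510.orderOf_zmod_pow r m hr z with hz | hz
      · exact ⟨(g₁, g₂), by rw [e1, hz, Nat.lcm_one_right]⟩
      · obtain ⟨h₁, h₂, hh⟩ := Cfsg.Agent.S2510.target_prod2 r g₁ g₂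
          (target2U p a hq hF hn φ hφ hφ2 l hl hnp r hr hrq hrn hrp _)
        exact ⟨(h₁, h₂), by rw [e1, hz, hh, Nat.lcm_comm]⟩
    · rintro _ ⟨⟨g₁, g₂⟩, rfl⟩
      refine ⟨(g₁, g₂, 1), ?_⟩
      rw [Prod.orderOf_mk, Prod.orderOf_mk, Prod.orderOf_mk, orderOf_one, Nat.lcm_one_right]

end Cfsg.Agent.S2511
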