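import Cfsg.Statements.S2512
import Mathlib
import Cfsg.Agent.S2510
import Cfsg.Agent.Lib.Helper42.SpOrdD

set_option autoImplicit false
open Cfsg

namespace Cfsg.Agent.S2512

open Cfsg.Agent.Lib.Helper42.SpOrdA Cfsg.Agent.Lib.Helper42.SpOrdD
open Cfsg.Agent.Lib.Helper43.SpBasic (pr pr_surjective)

section psp
variable {F : Type*} [Field F] [Fintype F] {n : ℕ}

theorem targetCommon (p : ℕ) [hp : Fact p.Prime] [CharP F p] (hn : 2 ≤ n) (h2 : (2 : F) ≠ 0)
    (hq : Odd (Fintype.card F)) {ι : Type*} [DecidableEq ι] (g : ι → Cfsg.PSp n F)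
    (G : ι → Matrix.symplecticGroup (Fin n) F) (hG : ∀ i, orderOf (G i) = orderOf (g i))
    (hR : ∀ i, ¬ 2 ∣ orderOf (g i))
    (hD : ∀ i, ¬ DecS (Jn n F) (rho (G i : Matrix (Fin n ⊕ Fin n) (Fin n ⊕ Fin n) F))) :
    (∀ i j, i ≠ j → p ∣ orderOf (g i) → p ∣ orderOf (g j) → Cfsg.Agent.S2510.Target 2 g) ∧
    (∀ i j, i ≠ j → ¬ p ∣ orderOf (g i) → ¬ p ∣ orderOf (g j) →
      Cfsg.Agent.S2510.Target 2 g) := by
  have hoddG : ∀ i, Odd (orderOf (G i)) := by
    intro i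
    rw [hG, ← Nat.not_even_iff_odd, even_iff_two_dvd]
    exact hR i
  constructor
  · intro i j hij hi hj
    rcases le_total ((orderOf (g i)).factorization p) ((orderOf (g j)).factorization p)
      with hle | hle
    · obtain ⟨h, hh⟩ := order_pprime p hn h2 (G i) (hoddG i) (by rw [hG]; exact hi)
      rw [hG] at hh
      exact Cfsg.Agent.S2510.caseU p hp.out 2 Nat.prime_two g i j hij h hh hle (hR i)
        (orderOf_pos _)
    · obtain ⟨h, hh⟩ := order_pprime p hn h2 (G j) (hoddG j) (by rw [hG]; exact hj)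
      rw [hG] at hh
      exact Cfsg.Agent.S2510.caseU p hp.out 2 Nat.prime_two g j i hij.symm h hh hle (hR j)
        (orderOf_pos _)
  · intro i j hij hi hj
    rcases order_regular p hn h2 hq (G i) (G j) (hoddG i) (hoddG j) (by rw [hG]; exact hi)
      (by rw [hG]; exact hj) (hD i) (hD j) with ⟨h, hh⟩ | ⟨h, hh⟩ | ⟨h, hh⟩
    · rw [hG, hG] at hh
      obtain ⟨t, ht⟩ := exists_involution (F := F) (n := n) hn h2
      exact Cfsg.Agent.S2510.caseS 2 g i j hij h hh t ht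
    · rw [hG] at hh
      exact Cfsg.Agent.S2510.caseD 2 Nat.prime_two g i h hh (hR i)
    · rw [hG] at hh
      exact Cfsg.Agent.S2510.caseD 2 Nat.prime_two g j h hh (hR j)

omit [Fintype F] in
theorem exists_lifts (hn : 2 ≤ n) {ι : Type*} (g : ι → Cfsg.PSp n F)
    (hR : ∀ i, ¬ 2 ∣ orderOf (g i)) :
    ∃ G : ι → Matrix.symplecticGroup (Fin n) F, ∀ i, orderOf (G i) = orderOf (g i) := by
  have hoddg : ∀ i, Odd (orderOf (g i)) := by
    intro i
    rw [← Nat.not_even_iff_odd, even_iff_two_dvd]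
    exact hR i
  choose G hG1 hG2 using fun i => exists_odd_lift (by omega : 1 ≤ n) (g i) (hoddg i)
  exact ⟨G, hG2⟩

theorem target3S (p : ℕ) [hp : Fact p.Prime] [CharP F p] (hn : 2 ≤ n) (h2 : (2 : F) ≠ 0)
    (hq : Odd (Fintype.card F)) (g : Fin 3 → Cfsg.PSp n F) : Cfsg.Agent.S2510.Target 2 g := by
  by_cases hR : ∃ i, 2 ∣ orderOf (g i)
  · exact Cfsg.Agent.S2510.caseR 2 g hR
  push Not at hR
  obtain ⟨G, hG⟩ := exists_lifts hn g hR
  have hoddG : ∀ i, Odd (orderOf (G i)) := by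
    intro i
    rw [hG, ← Nat.not_even_iff_odd, even_iff_two_dvd]
    exact hR i
  by_cases hD : ∃ i, DecS (Jn n F) (rho (G i : Matrix (Fin n ⊕ Fin n) (Fin n ⊕ Fin n) F))
  · obtain ⟨i, hi⟩ := hD
    obtain ⟨h, hh⟩ := order_two_mul (by omega) h2 (G i) (hoddG i) hi
    rw [hG] at hh
    exact Cfsg.Agent.S2510.caseD 2 Nat.prime_two g i h hh (hR i)
  push Not at hD
  obtain ⟨hU, hS⟩ := targetCommon p hn h2 hq g G hG hR hD
  by_cases h0 : p ∣ orderOf (g 0) <;> by_cases h1 : p ∣ orderOf (g 1) <;>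
    by_cases h2 : p ∣ orderOf (g 2)
  · exact hU 0 1 (by decide) h0 h1
  · exact hU 0 1 (by decide) h0 h1
  · exact hU 0 2 (by decide) h0 h2
  · exact hS 1 2 (by decide) h1 h2
  · exact hU 1 2 (by decide) h1 h2
  · exact hS 0 2 (by decide) h0 h2
  · exact hS 0 1 (by decide) h0 h1
  · exact hS 0 1 (by decide) h0 h1

theorem target2S (p : ℕ) [hp : Fact p.Prime] [CharP F p] (hn : 2 ≤ n) (h2 : (2 : F) ≠ 0)
    (hq : Odd (Fintype.card F)) (hnp : ¬ ∃ j : ℕ, 2 * n - 1 = p ^ j)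
    (g : Fin 2 → Cfsg.PSp n F) : Cfsg.Agent.S2510.Target 2 g := by
  by_cases hR : ∃ i, 2 ∣ orderOf (g i)
  · exact Cfsg.Agent.S2510.caseR 2 g hR
  push Not at hR
  obtain ⟨G, hG⟩ := exists_lifts hn g hR
  have hoddG : ∀ i, Odd (orderOf (G i)) := by
    intro i
    rw [hG, ← Nat.not_even_iff_odd, even_iff_two_dvd]
    exact hR i
  by_cases hD : ∃ i, DecS (Jn n F) (rho (G i : Matrix (Fin n ⊕ Fin n) (Fin n ⊕ Fin n) F))
  · obtain ⟨i, hi⟩ := hD
    obtain ⟨h, hh⟩ := order_two_mul (by omega) h2 (G i) (hoddG i) hi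
    rw [hG] at hh
    exact Cfsg.Agent.S2510.caseD 2 Nat.prime_two g i h hh (hR i)
  push Not at hD
  obtain ⟨hU, hS⟩ := targetCommon p hn h2 hq g G hG hR hD
  have hM : ∀ i, p ∣ orderOf (g i) → Cfsg.Agent.S2510.Target 2 g := by
    intro i hi
    obtain ⟨h, hh⟩ := order_singular p hn h2 hnp (G i) (hoddG i) (by rw [hG]; exact hi) (hD i)
    rw [hG] at hh
    exact Cfsg.Agent.S2510.caseD 2 Nat.prime_two g i h hh (hR i)
  by_cases h0 : p ∣ orderOf (g 0)
  · exact hM 0 h0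
  by_cases h1 : p ∣ orderOf (g 1)
  · exact hM 1 h1
  exact hS 0 1 (by decide) h0 h1

end psp

/-- Let F be a finite field of odd order q = p^a, n ≥ 2 (with q ≥ 3 automatic), and L = PSp(2n, F). Then for every m the direct product L × L × L × (ℤ/2)^m has the same set of element orders as L × L × L; and if 2n − 1 is not a power of p, then already L × L × (ℤ/2)^m has the same set of element orders as L × L. -/
theorem result {F : Type*} [Field F] [Fintype F] (p a n m : ℕ) (hp : p.Prime) (ha : 1 ≤ a) (hF : Fintype.card F = p ^ a) (hodd : Odd (Fintype.card F))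
    (hn : 2 ≤ n) :
    Set.range (orderOf : Cfsg.PSp n F × Cfsg.PSp n F × Cfsg.PSp n F × Multiplicative (Fin m → ZMod 2) → ℕ) = Set.range (orderOf : Cfsg.PSp n F × Cfsg.PSp n F × Cfsg.PSp n F → ℕ) ∧
    ((¬ ∃ j : ℕ, 2 * n - 1 = p ^ j) →
      Set.range (orderOf : Cfsg.PSp n F × Cfsg.PSp n F × Multiplicative (Fin m → ZMod 2) → ℕ) = Set.range (orderOf : Cfsg.PSp n F × Cfsg.PSp n F → ℕ)) := by
  have hpf : Fact p.Prime := ⟨hp⟩
  have hchar : CharP F p := by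
    obtain ⟨p', hp'⟩ := CharP.exists F
    obtain ⟨k, hk1, hk2⟩ := FiniteField.card F p'
    have h1 : p ∣ p' ^ (k : ℕ) := by
      rw [← hk2, hF]
      exact dvd_pow_self p (by omega)
    have h2 : p = p' := (Nat.prime_dvd_prime_iff_eq hp hk1).mp (hp.dvd_of_dvd_pow h1)
    rw [h2]
    exact hp'
  have hp2 : p ≠ 2 := by
    rintro rfl
    rw [hF] at hodd
    have : Even (2 ^ a) := (Nat.even_pow' (by omega)).mpr even_two
    exact (Nat.not_even_iff_odd.mpr hodd) this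
  have h2 : (2 : F) ≠ 0 := by
    intro h
    have h3 : ((2 : ℕ) : F) = 0 := by exact_mod_cast h
    have h4 : p ∣ 2 := (CharP.cast_eq_zero_iff F p 2).mp h3
    exact hp2 ((Nat.prime_dvd_prime_iff_eq hp Nat.prime_two).mp h4)
  constructor
  · apply Set.eq_of_subset_of_subset
    · rintro _ ⟨⟨g₁, g₂, g₃, z⟩, rfl⟩
      have e1 : orderOf (g₁, g₂, g₃, z) = Nat.lcm (orderOf (g₁, g₂, g₃)) (orderOf z) := by
        rw [Prod.orderOf_mk, Prod.orderOf_mk, Prod.orderOf_mk, Prod.orderOf_mk, Prod.orderOf_mk,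
          Nat.lcm_assoc, Nat.lcm_assoc]
      rcases Cfsg.Agent.S2510.orderOf_zmod_pow 2 m Nat.prime_two z with hz | hz
      · exact ⟨(g₁, g₂, g₃), by rw [e1, hz, Nat.lcm_one_right]⟩
      · obtain ⟨h₁, h₂, h₃, hh⟩ := Cfsg.Agent.S2510.target_prod3 2 g₁ g₂ g₃
          (target3S p hn h2 hodd _)
        exact ⟨(h₁, h₂, h₃), by rw [e1, hz, hh, Nat.lcm_comm]⟩
    · rintro _ ⟨⟨g₁, g₂, g₃⟩, rfl⟩
      refine ⟨(g₁, g₂, g₃, 1), ?_⟩
      rw [Prod.orderOf_mk, Prod.orderOf_mk, Prod.orderOf_mk, Prod.orderOf_mk, Prod.orderOf_mk,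
        orderOf_one, Nat.lcm_one_right]
  · intro hnp
    apply Set.eq_of_subset_of_subset
    · rintro _ ⟨⟨g₁, g₂, z⟩, rfl⟩
      have e1 : orderOf (g₁, g₂, z) = Nat.lcm (orderOf (g₁, g₂)) (orderOf z) := by
        rw [Prod.orderOf_mk, Prod.orderOf_mk, Prod.orderOf_mk, Nat.lcm_assoc]
      rcases Cfsg.Agent.S2510.orderOf_zmod_pow 2 m Nat.prime_two z with hz | hz
      · exact ⟨(g₁, g₂), by rw [e1, hz, Nat.lcm_one_right]⟩
      · obtain ⟨h₁, h₂, hh⟩ := Cfsg.Agent.S2510.target_prod2 2 g₁ g₂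
          (target2S p hn h2 hodd hnp _)
        exact ⟨(h₁, h₂), by rw [e1, hz, hh, Nat.lcm_comm]⟩
    · rintro _ ⟨⟨g₁, g₂⟩, rfl⟩
      refine ⟨(g₁, g₂, 1), ?_⟩
      rw [Prod.orderOf_mk, Prod.orderOf_mk, Prod.orderOf_mk, orderOf_one, Nat.lcm_one_right]

end Cfsg.Agent.S2512
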