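import Cfsg.Statements.S2513
import Mathlib
import Cfsg.Agent.Lib.Helper42.PSLReindex

set_option autoImplicit false
open Cfsg

namespace Cfsg.Agent.S2513

/-! ### the abstract argument -/

lemma pi_pow_eq_one_iff {ι L : Type*} [Group L] (x : ι → L) (j : ℕ) :
    x ^ j = 1 ↔ ∀ i, orderOf (x i) ∣ j := by
  constructor
  · intro h i
    rw [orderOf_dvd_iff_pow_eq_one]
    exact congrFun h i
  · intro h
    funext i
    exact orderOf_dvd_iff_pow_eq_one.mp (h i)

/-- a prime power dividing the order of a tuple is the order of an element -/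
lemma exists_orderOf_eq_prime_pow {ι L : Type*} [Finite ι] [Group L] [Finite L] (x : ι → L)
    (r b : ℕ) (hr : r.Prime) (h : r ^ b ∣ orderOf x) : ∃ t : L, orderOf t = r ^ b := by
  rcases Nat.eq_zero_or_pos b with rfl | hb
  · exact ⟨1, by simp⟩
  obtain ⟨c, rfl⟩ : ∃ c, b = c + 1 := ⟨b - 1, by omega⟩
  have hfact : Fact r.Prime := ⟨hr⟩
  have hNpos : 0 < orderOf x := orderOf_pos x
  have hdvd : orderOf x / r ^ (c + 1) ∣ orderOf x := Nat.div_dvd_of_dvd h
  have hne : orderOf x / r ^ (c + 1) ≠ 0 := by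
    intro h0
    have := Nat.div_mul_cancel h
    rw [h0, zero_mul] at this
    omega
  have hord : orderOf (x ^ (orderOf x / r ^ (c + 1))) = r ^ (c + 1) := by
    rw [orderOf_pow_of_dvd hne hdvd, Nat.div_div_self h hNpos.ne']
  have h1 : (x ^ (orderOf x / r ^ (c + 1))) ^ r ^ (c + 1) = 1 := by
    have h0 := pow_orderOf_eq_one (x ^ (orderOf x / r ^ (c + 1)))
    rwa [hord] at h0
  have h2 : ¬ (x ^ (orderOf x / r ^ (c + 1))) ^ r ^ c = 1 := by
    intro h3
    have := orderOf_dvd_of_pow_eq_one h3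
    rw [hord] at this
    have h4 := Nat.le_of_dvd (pow_pos hr.pos c) this
    have h5 : r ^ c < r ^ (c + 1) := Nat.pow_lt_pow_right hr.one_lt (by omega)
    omega
  have h3 : ∃ i, ¬ ((x ^ (orderOf x / r ^ (c + 1))) i) ^ r ^ c = 1 := by
    by_contra hall
    push Not at hall
    exact h2 (funext hall)
  obtain ⟨i, hi⟩ := h3
  exact ⟨_, orderOf_eq_prime_pow hi (congrFun h1 i)⟩

lemma doubling : ∀ (n d : ℕ), 1 ≤ d → d ≤ n → ∃ D, d ∣ D ∧ D ≤ n ∧ n < 2 * D := by
  intro n
  have key : ∀ s d, n - d ≤ s → 1 ≤ d → d ≤ n → ∃ D, d ∣ D ∧ D ≤ n ∧ n < 2 * D := by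
    intro s
    induction s with
    | zero =>
      intro d hs h1 h2
      exact ⟨d, dvd_refl d, h2, by omega⟩
    | succ s ih =>
      intro d hs h1 h2
      by_cases h : n < 2 * d
      · exact ⟨d, dvd_refl d, h2, h⟩
      · obtain ⟨D, hD1, hD2, hD3⟩ := ih (2 * d) (by omega) (by omega) (by omega)
        exact ⟨D, dvd_trans (dvd_mul_left d 2) hD1, hD2, hD3⟩
  intro d h1 h2
  exact key (n - d) d le_rfl h1 h2

/-- the abstract form: the orders of the tuples of a group whose odd prime power element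
orders divide some `2 ^ d - 1` with `d ≤ n`, all the divisors of these numbers being element
orders -/
theorem core {L : Type*} [Group L] [Finite L] (n : ℕ)
    (H1 : ∀ (t : L) (r a : ℕ), r.Prime → r ≠ 2 → 1 ≤ a → orderOf t = r ^ a →
      ∃ d, 1 ≤ d ∧ d ≤ n ∧ r ^ a ∣ 2 ^ d - 1)
    (H2 : ∀ d, 1 ≤ d → d ≤ n → ∀ c, c ∣ 2 ^ d - 1 → ∃ h : L, orderOf h = c)
    (k : ℕ) (hk : (n + 3) / 2 ≤ k) :
    Set.range (orderOf : (Fin k → L) → ℕ) =
      Set.range (orderOf : (Fin ((n + 3) / 2) → L) → ℕ) := by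
  apply Set.eq_of_subset_of_subset
  · rintro _ ⟨x, rfl⟩
    have hNpos : 0 < orderOf x := orderOf_pos x
    obtain ⟨N, hN⟩ : ∃ N, N = orderOf x := ⟨_, rfl⟩
    rw [← hN] at hNpos ⊢
    obtain ⟨e, he⟩ : ∃ e, e = N.factorization 2 := ⟨_, rfl⟩
    obtain ⟨m, hm⟩ : ∃ m, m = N / 2 ^ e := ⟨_, rfl⟩
    have hNem : N = 2 ^ e * m := by
      rw [hm, he]
      exact (Nat.ordProj_mul_ordCompl_eq_self N 2).symm
    have hmodd : ¬ 2 ∣ m := by
      rw [hm, he]
      exact Nat.not_dvd_ordCompl Nat.prime_two hNpos.ne'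
    have hcop : Nat.Coprime (2 ^ e) m :=
      Nat.Coprime.pow_left e ((Nat.Prime.coprime_iff_not_dvd Nat.prime_two).mpr hmodd)
    have h2e : 2 ^ e ∣ N := ⟨m, hNem⟩
    obtain ⟨h0, hh0⟩ := exists_orderOf_eq_prime_pow x 2 e Nat.prime_two (by rw [← hN]; exact h2e)
    have hH : ∀ d, ∃ h : L, 1 ≤ d → d ≤ n → orderOf h = Nat.gcd m (2 ^ d - 1) := by
      intro d
      by_cases hd : 1 ≤ d ∧ d ≤ n
      · obtain ⟨h, hh⟩ := H2 d hd.1 hd.2 (Nat.gcd m (2 ^ d - 1)) (Nat.gcd_dvd_right _ _)
        exact ⟨h, fun _ _ => hh⟩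
      · exact ⟨1, fun h1 h2 => absurd ⟨h1, h2⟩ hd⟩
    choose Hd hHd using hH
    refine ⟨fun i => if (i : ℕ) = 0 then h0 else Hd (n + 1 - i), ?_⟩
    have key : ∀ j, (fun i : Fin ((n + 3) / 2) => if (i : ℕ) = 0 then h0 else Hd (n + 1 - i)) ^ j
        = 1 ↔ N ∣ j := by
      intro j
      rw [pi_pow_eq_one_iff]
      constructor
      · intro hy
        rw [hNem]
        apply Nat.Coprime.mul_dvd_of_dvd_of_dvd hcop
        · have h1 := hy ⟨0, by omega⟩
          simp only [if_true] at h1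
          rwa [hh0] at h1
        · rw [Nat.dvd_iff_prime_pow_dvd_dvd]
          intro r b hr hrb
          rcases Nat.eq_zero_or_pos b with rfl | hb
          · simp
          · have hr2 : r ≠ 2 := by
              rintro rfl
              exact hmodd (dvd_trans (dvd_pow_self 2 hb.ne') hrb)
            have hrN : r ^ b ∣ N := by
              rw [hNem]
              exact dvd_mul_of_dvd_right hrb _
            obtain ⟨t, ht⟩ := exists_orderOf_eq_prime_pow x r b hr (by rw [← hN]; exact hrN)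
            obtain ⟨d', hd1, hdn, hdvd⟩ := H1 t r b hr hr2 hb ht
            obtain ⟨D, hdD, hDn, hnD⟩ := doubling n d' hd1 hdn
            have hD1 : 1 ≤ D := by
              rcases Nat.eq_zero_or_pos D with h0 | h0
              · rw [h0] at hnD
                omega
              · exact h0
            have hi : n + 1 - D < (n + 3) / 2 := by omega
            have h1 := hy ⟨n + 1 - D, hi⟩
            have hne : ¬ (n + 1 - D = 0) := by omega
            simp only [hne, if_false] at h1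
            have hDD : n + 1 - (n + 1 - D) = D := by omega
            rw [hDD, hHd D hD1 hDn] at h1
            refine dvd_trans (Nat.dvd_gcd hrb (dvd_trans hdvd ?_)) h1
            obtain ⟨c, rfl⟩ := hdD
            rw [pow_mul]
            simpa only [one_pow] using Nat.sub_dvd_pow_sub_pow (2 ^ d') 1 c
      · intro hNj i
        by_cases hi : (i : ℕ) = 0
        · simp only [hi, if_true]
          rw [hh0]
          exact dvd_trans h2e hNj
        · simp only [hi, if_false]
          have hi2 := i.2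
          rw [hHd _ (by omega) (by omega)]
          exact dvd_trans (Nat.gcd_dvd_left _ _) (dvd_trans ⟨2 ^ e, by rw [hNem]; ring⟩ hNj)
    apply Nat.dvd_antisymm
    · rw [orderOf_dvd_iff_pow_eq_one, key]
    · rw [← key]
      exact pow_orderOf_eq_one _
  · rintro _ ⟨y, rfl⟩
    refine ⟨fun i => if h : (i : ℕ) < (n + 3) / 2 then y ⟨i, h⟩ else 1, ?_⟩
    rw [orderOf_eq_orderOf_iff]
    intro j
    rw [pi_pow_eq_one_iff, pi_pow_eq_one_iff]
    constructor
    · intro h i'
      have h1 := h ⟨i', lt_of_lt_of_le i'.2 hk⟩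
      simp only [i'.2, dif_pos] at h1
      exact h1
    · intro h i
      by_cases hi : (i : ℕ) < (n + 3) / 2
      · simp only [hi, dif_pos]
        exact h _
      · simp only [hi, dif_neg, not_false_eq_true, orderOf_one, isUnit_iff_eq_one, IsUnit.dvd]


/-! ### linear groups over the field with two elements -/

section linear
variable {F : Type*} [Field F] [Fintype F]

open Matrix Cfsg.Agent.Lib.Helper42.PSLReindex

lemma eq_zero_or_one (hF : Fintype.card F = 2) (x : F) : x = 0 ∨ x = 1 := by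
  by_contra h
  push Not at h
  have h3 : 2 < Fintype.card F :=
    Fintype.two_lt_card_iff.mpr ⟨0, 1, x, zero_ne_one, h.1.symm, h.2.symm⟩
  omega

lemma two_eq_zero (hF : Fintype.card F = 2) : (2 : F) = 0 := by
  rcases eq_zero_or_one hF (2 : F) with h | h
  · exact h
  · exfalso
    have h1 : (1 : F) = 0 := by linear_combination h
    exact one_ne_zero h1

lemma center_eq_bot (hF : Fintype.card F = 2) (n : ℕ) (hn : 1 ≤ n) :
    Subgroup.center (Matrix.SpecialLinearGroup (Fin n) F) = ⊥ := by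
  rw [eq_bot_iff]
  intro A hA
  rw [Subgroup.mem_bot]
  obtain ⟨r, hr, hs⟩ := Matrix.SpecialLinearGroup.mem_center_iff.mp hA
  rcases eq_zero_or_one hF r with rfl | rfl
  · rw [Fintype.card_fin, zero_pow (by omega)] at hr
    exact absurd hr zero_ne_one
  · apply Subtype.ext
    rw [← hs]
    simp

lemma mk_injective (hF : Fintype.card F = 2) (n : ℕ) (hn : 1 ≤ n) :
    Function.Injective
      (QuotientGroup.mk' (Subgroup.center (Matrix.SpecialLinearGroup (Fin n) F))) := by
  rw [← MonoidHom.ker_eq_bot_iff, QuotientGroup.ker_mk', center_eq_bot hF n hn]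

/-- a finite group of matrices acting freely on the nonzero vectors of an invariant subspace -/
theorem card_dvd_of_free {n : ℕ} (G : Subgroup (Matrix.SpecialLinearGroup (Fin n) F))
    (W : Submodule F (Fin n → F))
    (hinv : ∀ g ∈ G, ∀ v ∈ W, (g : Matrix (Fin n) (Fin n) F) *ᵥ v ∈ W)
    (hfree : ∀ g ∈ G, ∀ v ∈ W, v ≠ 0 → (g : Matrix (Fin n) (Fin n) F) *ᵥ v = v → g = 1) :
    Nat.card G ∣ Nat.card W - 1 := by
  classical
  let _inst : MulAction G {v : W // v ≠ 0} :=
    { smul := fun g s => ⟨⟨(g.1 : Matrix (Fin n) (Fin n) F) *ᵥ (s.1 : Fin n → F),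
        hinv g.1 g.2 _ s.1.2⟩, by
        intro h0
        apply s.2
        have h1 : (g.1 : Matrix (Fin n) (Fin n) F) *ᵥ (s.1 : Fin n → F) = 0 :=
          congrArg Subtype.val h0
        have h2 : ((g.1⁻¹ : Matrix.SpecialLinearGroup (Fin n) F) : Matrix (Fin n) (Fin n) F) *ᵥ
            ((g.1 : Matrix (Fin n) (Fin n) F) *ᵥ (s.1 : Fin n → F)) = s.1 := by
          rw [Matrix.mulVec_mulVec, ← Matrix.SpecialLinearGroup.coe_mul, inv_mul_cancel,
            Matrix.SpecialLinearGroup.coe_one, Matrix.one_mulVec]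
        rw [h1, Matrix.mulVec_zero] at h2
        exact Subtype.ext h2.symm⟩
      one_smul := fun s => Subtype.ext (Subtype.ext (by
        show ((1 : G).1 : Matrix (Fin n) (Fin n) F) *ᵥ (s.1 : Fin n → F) = s.1
        rw [Subgroup.coe_one, Matrix.SpecialLinearGroup.coe_one, Matrix.one_mulVec]))
      mul_smul := fun g h s => Subtype.ext (Subtype.ext (by
        show ((g * h : G).1 : Matrix (Fin n) (Fin n) F) *ᵥ (s.1 : Fin n → F) =
          (g.1 : Matrix (Fin n) (Fin n) F) *ᵥ ((h.1 : Matrix (Fin n) (Fin n) F) *ᵥ (s.1 : Fin n → F))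
        rw [Matrix.mulVec_mulVec, Subgroup.coe_mul, Matrix.SpecialLinearGroup.coe_mul])) }
  have hstab : ∀ s : {v : W // v ≠ 0}, MulAction.stabilizer G s = ⊥ := by
    intro s
    rw [eq_bot_iff]
    intro g hg
    rw [Subgroup.mem_bot]
    have h1 : g • s = s := MulAction.mem_stabilizer_iff.mp hg
    have h2 : (g.1 : Matrix (Fin n) (Fin n) F) *ᵥ (s.1 : Fin n → F) = s.1 :=
      congrArg (fun t : {v : W // v ≠ 0} => (t.1 : Fin n → F)) h1
    have h3 := hfree g.1 g.2 _ s.1.2 (fun h0 => s.2 (Subtype.ext h0)) h2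
    exact Subtype.ext h3
  have e := MulAction.selfEquivOrbitsQuotientProd hstab
  have hcard : Nat.card {v : W // v ≠ 0} =
      Nat.card (Quotient (MulAction.orbitRel G {v : W // v ≠ 0})) * Nat.card G := by
    rw [Nat.card_congr e, Nat.card_prod]
  have hS : Nat.card {v : W // v ≠ 0} = Nat.card W - 1 := by
    rw [Nat.card_eq_fintype_card, Nat.card_eq_fintype_card]
    exact (Fintype.card_subtype_compl (fun v : W => v = 0)).trans (by simp)
  rw [← hS, hcard]
  exact dvd_mul_left _ _

/-- every non-trivial subgroup of a cyclic group of prime power order contains the subgroup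
of prime order -/
lemma exists_pow_eq_min {G : Type*} [Group G] [Finite G] (T : G) (r a : ℕ) (hr : r.Prime)
    (ha : 1 ≤ a) (hT : orderOf T = r ^ a) (g : G) (hg : g ∈ Subgroup.zpowers T) (hg1 : g ≠ 1) :
    ∃ i : ℕ, g ^ i = T ^ (r ^ (a - 1)) := by
  obtain ⟨j, rfl⟩ := (Submonoid.mem_powers_iff _ _).mp (mem_powers_iff_mem_zpowers.mpr hg)
  have hj0 : j ≠ 0 := by
    rintro rfl
    exact hg1 (pow_zero T)
  obtain ⟨s, j', hj', rfl⟩ := Nat.exists_eq_pow_mul_and_not_dvd hj0 r hr.ne_one
  have hsa : s < a := by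
    by_contra h
    apply hg1
    have h1 : r ^ a ∣ r ^ s * j' := dvd_mul_of_dvd_left (pow_dvd_pow r (by omega)) _
    rw [← hT] at h1
    exact orderOf_dvd_iff_pow_eq_one.mp h1
  have hN : orderOf (T ^ (r ^ (a - 1))) = r := by
    rw [orderOf_pow_of_dvd (pow_pos hr.pos _).ne' (by rw [hT]; exact pow_dvd_pow r (by omega)),
      hT, Nat.pow_div (by omega) hr.pos]
    have : a - (a - 1) = 1 := by omega
    rw [this, pow_one]
  have hcop : Nat.Coprime j' (orderOf (T ^ (r ^ (a - 1)))) := by
    rw [hN]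
    exact ((Nat.Prime.coprime_iff_not_dvd hr).mpr hj').symm
  obtain ⟨i', hi'⟩ := exists_pow_eq_self_of_coprime hcop
  refine ⟨r ^ (a - 1 - s) * i', ?_⟩
  rw [← hi', ← pow_mul, ← pow_mul, ← pow_mul]
  congr 1
  have h2 : r ^ (a - 1) = r ^ s * r ^ (a - 1 - s) := by
    rw [← pow_add]
    congr 1
    omega
  rw [h2]
  ring

/-- an odd prime power element order of the linear group of degree `n` over the field with two
elements divides `2 ^ d - 1` for some `d ≤ n` -/
theorem prime_pow_dvd (hF : Fintype.card F = 2) (n : ℕ)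
    (T : Matrix.SpecialLinearGroup (Fin n) F) (r a : ℕ) (hr : r.Prime) (hr2 : r ≠ 2)
    (ha : 1 ≤ a) (hT : orderOf T = r ^ a) : ∃ d, 1 ≤ d ∧ d ≤ n ∧ r ^ a ∣ 2 ^ d - 1 := by
  classical
  obtain ⟨Nn, hNn⟩ : ∃ Nn, Nn = T ^ (r ^ (a - 1)) := ⟨_, rfl⟩
  have hNr : Nn ^ r = 1 := by
    rw [hNn, ← pow_mul, ← pow_succ, (by omega : a - 1 + 1 = a), ← hT]
    exact pow_orderOf_eq_one T
  have hN1 : Nn ≠ 1 := by
    intro h
    rw [hNn] at h
    have h3 := orderOf_dvd_of_pow_eq_one h
    rw [hT] at h3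
    have h4 := Nat.le_of_dvd (pow_pos hr.pos _) h3
    have h5 : r ^ (a - 1) < r ^ a := Nat.pow_lt_pow_right hr.one_lt (by omega)
    omega
  obtain ⟨M, hM⟩ : ∃ M : Matrix (Fin n) (Fin n) F, M = (Nn : Matrix (Fin n) (Fin n) F) :=
    ⟨_, rfl⟩
  have hMr : M ^ r = 1 := by
    have h := congrArg (fun A : Matrix.SpecialLinearGroup (Fin n) F =>
      (A : Matrix (Fin n) (Fin n) F)) hNr
    simp only [Matrix.SpecialLinearGroup.coe_pow, Matrix.SpecialLinearGroup.coe_one] at h
    rw [hM]
    exact h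
  have hr1 : ((r : ℕ) : F) = 1 := by
    obtain ⟨t, ht⟩ := hr.eq_two_or_odd'.resolve_left hr2
    rw [ht]
    push_cast
    rw [two_eq_zero hF]
    ring
  have hfix : ∀ v ∈ LinearMap.range (Matrix.mulVecLin (M - 1)), M *ᵥ v = v → v = 0 := by
    rintro v ⟨w, rfl⟩ hv
    simp only [Matrix.mulVecLin_apply] at hv ⊢
    obtain ⟨v, hvdef⟩ : ∃ v, v = (M - 1) *ᵥ w := ⟨_, rfl⟩
    rw [← hvdef] at hv ⊢
    have h1 : (∑ i ∈ Finset.range r, M ^ i) *ᵥ v = 0 := by
      rw [hvdef, Matrix.mulVec_mulVec, geom_sum_mul, hMr, sub_self, Matrix.zero_mulVec]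
    have h2 : ∀ i : ℕ, (M ^ i) *ᵥ v = v := by
      intro i
      induction i with
      | zero => simp
      | succ i ih => rw [pow_succ, ← Matrix.mulVec_mulVec, hv, ih]
    rw [Matrix.sum_mulVec] at h1
    simp only [h2, Finset.sum_const, Finset.card_range] at h1
    rw [← Nat.cast_smul_eq_nsmul F, hr1, one_smul] at h1
    exact h1
  have hWne : LinearMap.range (Matrix.mulVecLin (M - 1)) ≠ ⊥ := by
    intro hW
    apply hN1
    apply Subtype.ext
    show (Nn : Matrix (Fin n) (Fin n) F) = 1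
    rw [← hM]
    have h0 : ∀ w, (M - 1) *ᵥ w = 0 := by
      intro w
      have h1 : (M - 1) *ᵥ w ∈ LinearMap.range (Matrix.mulVecLin (M - 1)) := ⟨w, rfl⟩
      rw [hW] at h1
      exact (Submodule.mem_bot F).mp h1
    have h1 : M - 1 = 0 := by
      ext i j
      have h2 := congrFun (h0 (Pi.single j 1)) i
      simpa using h2
    exact sub_eq_zero.mp h1
  have hdvd := card_dvd_of_free (Subgroup.zpowers T) (LinearMap.range (Matrix.mulVecLin (M - 1)))
    (by
      intro g hg v hv
      obtain ⟨w, rfl⟩ := hv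
      refine ⟨(g : Matrix (Fin n) (Fin n) F) *ᵥ w, ?_⟩
      simp only [Matrix.mulVecLin_apply]
      have hc : g * Nn = Nn * g := by
        obtain ⟨k, rfl⟩ := Subgroup.mem_zpowers_iff.mp hg
        rw [hNn]
        exact ((Commute.refl T).zpow_left k).pow_right _
      have hc' := congrArg (fun A : Matrix.SpecialLinearGroup (Fin n) F =>
        (A : Matrix (Fin n) (Fin n) F)) hc
      simp only [Matrix.SpecialLinearGroup.coe_mul] at hc'
      rw [← hM] at hc'
      have hcomm : (g : Matrix (Fin n) (Fin n) F) * (M - 1) =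
          (M - 1) * (g : Matrix (Fin n) (Fin n) F) := by
        rw [mul_sub, sub_mul, mul_one, one_mul, hc']
      rw [Matrix.mulVec_mulVec, Matrix.mulVec_mulVec, hcomm])
    (by
      intro g hg v hv hv0 hgv
      by_contra hg1
      obtain ⟨i, hi⟩ := exists_pow_eq_min T r a hr ha hT g hg hg1
      apply hv0
      apply hfix v hv
      have h2 : ∀ i : ℕ, ((g ^ i : Matrix.SpecialLinearGroup (Fin n) F) :
          Matrix (Fin n) (Fin n) F) *ᵥ v = v := by
        intro i
        induction i with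
        | zero => simp
        | succ i ih =>
          rw [pow_succ, Matrix.SpecialLinearGroup.coe_mul, ← Matrix.mulVec_mulVec, hgv, ih]
      have h3 := h2 i
      rw [hi, ← hNn, ← hM] at h3
      exact h3)
  rw [Nat.card_zpowers, hT, Module.natCard_eq_pow_finrank (K := F), Nat.card_eq_fintype_card,
    hF] at hdvd
  refine ⟨Module.finrank F (LinearMap.range (Matrix.mulVecLin (M - 1))), ?_, ?_, hdvd⟩
  · exact Submodule.one_le_finrank_iff.mpr hWne
  · have h := Submodule.finrank_le (LinearMap.range (Matrix.mulVecLin (M - 1)))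
    rwa [Module.finrank_fin_fun] at h

/-- the divisors of `2 ^ d - 1` are element orders, by the multiplication of a field with
`2 ^ d` elements -/
theorem exists_singer (hF : Fintype.card F = 2) (n d : ℕ) (hd1 : 1 ≤ d) (hdn : d ≤ n) (c : ℕ)
    (hc : c ∣ 2 ^ d - 1) : ∃ h : Matrix.SpecialLinearGroup (Fin n) F, orderOf h = c := by
  classical
  have hp2 : Fact (Nat.Prime 2) := ⟨Nat.prime_two⟩
  let e : ZMod 2 ≃+* F := ZMod.ringEquivOfPrime F Nat.prime_two hF
  let _inst : Algebra F (GaloisField 2 d) :=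
    RingHom.toAlgebra ((algebraMap (ZMod 2) (GaloisField 2 d)).comp e.symm.toRingHom)
  have hKcard : Nat.card (GaloisField 2 d) = 2 ^ d := GaloisField.card 2 d (by omega)
  have hKfin : Finite (GaloisField 2 d) := Nat.finite_of_card_ne_zero (by rw [hKcard]; positivity)
  have hfr : Module.finrank F (GaloisField 2 d) = d := by
    have h1 := Module.natCard_eq_pow_finrank (K := F) (V := GaloisField 2 d)
    rw [hKcard, Nat.card_eq_fintype_card, hF] at h1
    exact (Nat.pow_right_injective (le_refl 2) h1).symm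
  let b : Module.Basis (Fin d) F (GaloisField 2 d) := Module.finBasisOfFinrankEq F _ hfr
  obtain ⟨ζ, hζ⟩ := IsCyclic.exists_generator (α := (GaloisField 2 d)ˣ)
  have hordζ : orderOf ζ = 2 ^ d - 1 := by
    rw [orderOf_eq_card_of_forall_mem_zpowers hζ, Nat.card_units, hKcard]
  have h2d : 2 ≤ 2 ^ d := by
    calc 2 = 2 ^ 1 := by norm_num
      _ ≤ 2 ^ d := Nat.pow_le_pow_right (by norm_num) hd1
  obtain ⟨z, hz⟩ : ∃ z : (GaloisField 2 d)ˣ, orderOf z = c := by
    obtain ⟨q, hq⟩ := hc
    have hq0 : q ≠ 0 := by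
      rintro rfl
      omega
    refine ⟨ζ ^ q, ?_⟩
    rw [orderOf_pow_of_dvd hq0 (by rw [hordζ, hq]; exact dvd_mul_left q c), hordζ, hq,
      Nat.mul_div_cancel _ (Nat.pos_of_ne_zero hq0)]
  have hdet : ∀ u : (GaloisField 2 d)ˣ,
      (Algebra.leftMulMatrix b (u : GaloisField 2 d)).det = 1 := by
    intro u
    have h1 : (Algebra.leftMulMatrix b (u : GaloisField 2 d)).det *
        (Algebra.leftMulMatrix b ((u⁻¹ : (GaloisField 2 d)ˣ) : GaloisField 2 d)).det = 1 := by
      rw [← Matrix.det_mul, ← map_mul, ← Units.val_mul, mul_inv_cancel, Units.val_one, map_one,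
        Matrix.det_one]
    rcases eq_zero_or_one hF (Algebra.leftMulMatrix b (u : GaloisField 2 d)).det with h | h
    · rw [h, zero_mul] at h1
      exact absurd h1 zero_ne_one
    · exact h
  let ψ : (GaloisField 2 d)ˣ →* Matrix.SpecialLinearGroup (Fin d ⊕ Fin (n - d)) F :=
    { toFun := fun u => ⟨Matrix.fromBlocks (Algebra.leftMulMatrix b (u : GaloisField 2 d)) 0 0 1,
        by rw [Matrix.det_fromBlocks_zero₁₂, hdet, Matrix.det_one, mul_one]⟩
      map_one' := Subtype.ext (by
        show Matrix.fromBlocks (Algebra.leftMulMatrix b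
          (((1 : (GaloisField 2 d)ˣ)) : GaloisField 2 d)) 0 0 1 = 1
        rw [Units.val_one, map_one, Matrix.fromBlocks_one])
      map_mul' := fun u v => Subtype.ext (by
        show Matrix.fromBlocks (Algebra.leftMulMatrix b
          ((u * v : (GaloisField 2 d)ˣ) : GaloisField 2 d)) 0 0 1 =
          Matrix.fromBlocks (Algebra.leftMulMatrix b (u : GaloisField 2 d)) 0 0 1 *
            Matrix.fromBlocks (Algebra.leftMulMatrix b (v : GaloisField 2 d)) 0 0 1
        rw [Matrix.fromBlocks_multiply, Units.val_mul, map_mul]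
        simp) }
  have hψ : Function.Injective ψ := by
    intro u v huv
    have h1 := congrArg (fun A : Matrix.SpecialLinearGroup (Fin d ⊕ Fin (n - d)) F =>
      (A : Matrix (Fin d ⊕ Fin (n - d)) (Fin d ⊕ Fin (n - d)) F)) huv
    have h2 : Algebra.leftMulMatrix b (u : GaloisField 2 d) =
        Algebra.leftMulMatrix b (v : GaloisField 2 d) := (Matrix.fromBlocks_inj.mp h1).1
    exact Units.ext (Algebra.leftMulMatrix_injective b h2)
  have hcard : Fintype.card (Fin d ⊕ Fin (n - d)) = n := by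
    rw [Fintype.card_sum, Fintype.card_fin, Fintype.card_fin]
    omega
  refine ⟨slReindex F (Fintype.equivFinOfCardEq hcard) (ψ z), ?_⟩
  rw [← hz]
  exact orderOf_injective ((slReindex F (Fintype.equivFinOfCardEq hcard)).toMonoidHom.comp ψ)
    ((slReindex F (Fintype.equivFinOfCardEq hcard)).injective.comp hψ) z

end linear

/-- Let F be the field with two elements, n ≥ 2, L = PSL(n, F) and k₀ = ⌊(n + 3)/2⌋. Then for every k ≥ k₀ the direct product of k copies of L has the same set of element orders as the direct product of k₀ copies of L. -/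
theorem result {F : Type*} [Field F] [Fintype F] (hF : Fintype.card F = 2) (n k : ℕ) (hn : 2 ≤ n) (hk : (n + 3) / 2 ≤ k) :
    Set.range (orderOf : (Fin k → Matrix.ProjectiveSpecialLinearGroup (Fin n) F) → ℕ) = Set.range (orderOf : (Fin ((n + 3) / 2) → Matrix.ProjectiveSpecialLinearGroup (Fin n) F) → ℕ) := by
  have hinj := mk_injective hF n (by omega)
  apply core n ?_ ?_ k hk
  · intro t r a hr hr2 ha ht
    obtain ⟨T, rfl⟩ := QuotientGroup.mk'_surjective _ t
    have hT : orderOf T = r ^ a := by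
      rw [← ht]
      exact (orderOf_injective _ hinj T).symm
    exact prime_pow_dvd hF n T r a hr hr2 ha hT
  · intro d hd1 hdn c hc
    obtain ⟨h, hh⟩ := exists_singer hF n d hd1 hdn c hc
    exact ⟨QuotientGroup.mk' _ h, by rw [orderOf_injective _ hinj h, hh]⟩

end Cfsg.Agent.S2513
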