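import Cfsg.Statements.S2514
import Mathlib

set_option autoImplicit false
open Cfsg

namespace Cfsg.Agent.S2514

/-- spectrum is closed under divisors -/
lemma exists_orderOf_eq_of_dvd {X : Type*} [Group X] [Finite X] (x : X) (d : ℕ) (hd : d ∣ orderOf x) :
    ∃ y : X, orderOf y = d := by
  have hpos : 0 < orderOf x := orderOf_pos x
  obtain ⟨e, he⟩ := hd
  have he0 : e ≠ 0 := by
    rintro rfl
    rw [mul_zero] at he
    omega
  refine ⟨x ^ e, ?_⟩
  rw [orderOf_pow_of_dvd he0 ⟨d, by rw [he, mul_comm]⟩, he]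
  exact Nat.mul_div_cancel _ (Nat.pos_of_ne_zero he0)

/-- every element order divides a maximal one -/
lemma exists_maximal_order {X : Type*} [Group X] [Finite X] (x : X) :
    ∃ M : ℕ, (M ∈ Set.range (orderOf : X → ℕ) ∧ ∀ m ∈ Set.range (orderOf : X → ℕ), M ∣ m → m = M) ∧
      orderOf x ∣ M := by
  classical
  let P : ℕ → Prop := fun m => m ∈ Set.range (orderOf : X → ℕ) ∧ orderOf x ∣ m
  have hP : P (orderOf x) := ⟨⟨x, rfl⟩, dvd_rfl⟩
  have hle : orderOf x ≤ Nat.card X := orderOf_le_card
  have hspec : P (Nat.findGreatest P (Nat.card X)) := Nat.findGreatest_spec hle hP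
  refine ⟨Nat.findGreatest P (Nat.card X), ⟨hspec.1, ?_⟩, hspec.2⟩
  rintro m ⟨y, rfl⟩ hdiv
  have hPm : P (orderOf y) := ⟨⟨y, rfl⟩, hspec.2.trans hdiv⟩
  have h1 : orderOf y ≤ Nat.findGreatest P (Nat.card X) := Nat.le_findGreatest orderOf_le_card hPm
  have h2 : Nat.findGreatest P (Nat.card X) ≤ orderOf y := Nat.le_of_dvd (orderOf_pos y) hdiv
  omega

theorem result {G H : Type*} [Group G] [Finite G] [Group H] [Finite H] (k : ℕ) (hk : 1 ≤ k)
    (hsub : {n : ℕ | n ∈ Set.range (orderOf : H → ℕ) ∧ ∀ m ∈ Set.range (orderOf : H → ℕ), n ∣ m → m = n} ⊆ {n : ℕ | n ∈ Set.range (orderOf : G → ℕ) ∧ ∀ m ∈ Set.range (orderOf : G → ℕ), n ∣ m → m = n})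
    (hfew : ({n : ℕ | n ∈ Set.range (orderOf : G → ℕ) ∧ ∀ m ∈ Set.range (orderOf : G → ℕ), n ∣ m → m = n} \ {n : ℕ | n ∈ Set.range (orderOf : H → ℕ) ∧ ∀ m ∈ Set.range (orderOf : H → ℕ), n ∣ m → m = n}).ncard < k) :
    Set.range (orderOf : (Fin k → G) → ℕ) = Set.range (orderOf : (Fin (k - 1) → G) × H → ℕ) := by
  classical
  obtain ⟨k, rfl⟩ : ∃ k', k = k' + 1 := ⟨k - 1, by omega⟩
  show Set.range (orderOf : (Fin (k + 1) → G) → ℕ) = Set.range (orderOf : (Fin k → G) × H → ℕ)
  -- ω(H) ⊆ ω(G)
  have hHG : ∀ h : H, ∃ g : G, orderOf g = orderOf h := by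
    intro h
    obtain ⟨M, hM, hdiv⟩ := exists_maximal_order h
    obtain ⟨⟨g, hg⟩, -⟩ := hsub hM
    exact exists_orderOf_eq_of_dvd g _ (hg ▸ hdiv)
  apply Set.eq_of_subset_of_subset
  · rintro _ ⟨x, rfl⟩
    -- choose maximal orders
    choose M hM hMdiv using fun i => exists_maximal_order (x i)
    by_cases hcase : ∃ i, M i ∈ {n : ℕ | n ∈ Set.range (orderOf : H → ℕ) ∧ ∀ m ∈ Set.range (orderOf : H → ℕ), n ∣ m → m = n}
    · obtain ⟨i, hi⟩ := hcase
      obtain ⟨⟨h0, hh0⟩, -⟩ := hi
      obtain ⟨h, hh⟩ := exists_orderOf_eq_of_dvd h0 (orderOf (x i)) (hh0 ▸ hMdiv i)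
      refine ⟨(fun l => x (i.succAbove l), h), ?_⟩
      rw [orderOf_eq_orderOf_iff]
      intro n
      rw [Prod.ext_iff, funext_iff, funext_iff]
      simp only [Prod.pow_fst, Prod.pow_snd, Pi.pow_apply, Prod.fst_one, Prod.snd_one, Pi.one_apply]
      constructor
      · rintro ⟨h1, h2⟩ j
        rcases Fin.eq_self_or_eq_succAbove i j with rfl | ⟨l, rfl⟩
        · rw [← orderOf_dvd_iff_pow_eq_one] at h2 ⊢
          rwa [← hh]
        · exact h1 l
      · intro h1
        refine ⟨fun l => h1 _, ?_⟩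
        have := h1 i
        rw [← orderOf_dvd_iff_pow_eq_one] at this ⊢
        rwa [hh]
    · push Not at hcase
      -- all M i lie in the difference set, which has fewer than k+1 elements
      have hnotinj : ¬ Function.Injective M := by
        intro hinj
        have hfin : ({n : ℕ | n ∈ Set.range (orderOf : G → ℕ) ∧ ∀ m ∈ Set.range (orderOf : G → ℕ), n ∣ m → m = n} \ {n : ℕ | n ∈ Set.range (orderOf : H → ℕ) ∧ ∀ m ∈ Set.range (orderOf : H → ℕ), n ∣ m → m = n}).Finite := by
          apply Set.Finite.subset (Set.finite_range (orderOf : G → ℕ))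
          rintro n ⟨⟨hn, -⟩, -⟩
          exact hn
        have hsubset : Set.range M ⊆ ({n : ℕ | n ∈ Set.range (orderOf : G → ℕ) ∧ ∀ m ∈ Set.range (orderOf : G → ℕ), n ∣ m → m = n} \ {n : ℕ | n ∈ Set.range (orderOf : H → ℕ) ∧ ∀ m ∈ Set.range (orderOf : H → ℕ), n ∣ m → m = n}) := by
          rintro _ ⟨i, rfl⟩
          exact ⟨hM i, hcase i⟩
        have h1 : (Set.range M).ncard ≤ _ := Set.ncard_le_ncard hsubset hfin
        have h2 : (Set.range M).ncard = k + 1 := by
          rw [Set.ncard_range_of_injective hinj]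
          simp
        omega
      obtain ⟨i, j, hMij, hij⟩ : ∃ i j, M i = M j ∧ i ≠ j := by
        by_contra hcon
        push Not at hcon
        exact hnotinj (fun i j h => hcon i j h)
      -- an element of order lcm (orderOf (x i)) (orderOf (x j))
      obtain ⟨⟨g0, hg0⟩, -⟩ := hM i
      have hlcm : Nat.lcm (orderOf (x i)) (orderOf (x j)) ∣ orderOf g0 := by
        rw [hg0]
        exact Nat.lcm_dvd (hMdiv i) (hMij ▸ hMdiv j)
      obtain ⟨g, hg⟩ := exists_orderOf_eq_of_dvd g0 _ hlcm
      refine ⟨(fun l => Function.update x i g (j.succAbove l), 1), ?_⟩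
      rw [orderOf_eq_orderOf_iff]
      intro n
      rw [Prod.ext_iff, funext_iff, funext_iff]
      simp only [Prod.pow_fst, Prod.pow_snd, Pi.pow_apply, Prod.fst_one, Prod.snd_one, Pi.one_apply,
        one_pow, and_true]
      have hgn : g ^ n = 1 ↔ x i ^ n = 1 ∧ x j ^ n = 1 := by
        rw [← orderOf_dvd_iff_pow_eq_one, ← orderOf_dvd_iff_pow_eq_one, ← orderOf_dvd_iff_pow_eq_one, hg]
        exact Nat.lcm_dvd_iff
      constructor
      · intro h1 l
        by_cases hli : l = i
        · subst hli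
          rcases Fin.eq_self_or_eq_succAbove j l with hlj | ⟨l', hl'⟩
          · exact absurd hlj hij
          · have := h1 l'
            rw [← hl', Function.update_self] at this
            exact (hgn.mp this).1
        · rcases Fin.eq_self_or_eq_succAbove j l with hlj | ⟨l', hl'⟩
          · obtain ⟨i', hi'⟩ : ∃ i', i = j.succAbove i' := by
              rcases Fin.eq_self_or_eq_succAbove j i with h | ⟨i', hi'⟩
              · exact absurd h hij
              · exact ⟨i', hi'⟩
            have := h1 i'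
            rw [← hi', Function.update_self] at this
            rw [hlj]
            exact (hgn.mp this).2
          · have := h1 l'
            rw [← hl', Function.update_of_ne hli] at this
            exact this
      · intro h1 l
        by_cases hli : j.succAbove l = i
        · rw [hli, Function.update_self]
          exact hgn.mpr ⟨h1 i, h1 j⟩
        · rw [Function.update_of_ne hli]
          exact h1 _
  · rintro _ ⟨⟨x, h⟩, rfl⟩
    obtain ⟨g, hg⟩ := hHG h
    refine ⟨Fin.lastCases g x, ?_⟩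
    rw [orderOf_eq_orderOf_iff]
    intro n
    rw [Prod.ext_iff, funext_iff, funext_iff]
    simp only [Prod.pow_fst, Prod.pow_snd, Pi.pow_apply, Prod.fst_one, Prod.snd_one, Pi.one_apply]
    constructor
    · intro h1
      refine ⟨fun l => ?_, ?_⟩
      · have := h1 l.castSucc
        simpa using this
      · have := h1 (Fin.last k)
        rw [Fin.lastCases_last] at this
        rw [← orderOf_dvd_iff_pow_eq_one] at this ⊢
        rwa [← hg]
    · rintro ⟨h1, h2⟩ l
      induction l using Fin.lastCases with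
      | last =>
        rw [Fin.lastCases_last]
        rw [← orderOf_dvd_iff_pow_eq_one] at h2 ⊢
        rwa [hg]
      | cast l =>
        rw [Fin.lastCases_castSucc]
        exact h1 l

end Cfsg.Agent.S2514
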