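import Cfsg.Statements.S2516
import Mathlib

set_option autoImplicit false
open Cfsg

namespace Cfsg.Agent.S2516

section
variable {F : Type*} [Field F] {V : Type*} [AddCommGroup V] [Module F V]
    {G : Type*} [Group G] (ρ : Representation F G V)

/-- the action used in the semidirect product -/
noncomputable abbrev act : G →* MulAut (Multiplicative V) :=
  (MulAutMultiplicative V).symm.toMonoidHom.comp
        ((DistribMulAction.toAddAut ((V →ₗ[F] V)ˣ) V).comp ρ.asGroupHom)

lemma act_apply (h : G) (v : V) :
    act ρ h (Multiplicative.ofAdd v) = Multiplicative.ofAdd (ρ h v) := rfl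

lemma pow_formula (v : V) (g : G) (n : ℕ) :
    ((⟨Multiplicative.ofAdd v, g⟩ : Multiplicative V ⋊[act ρ] G) ^ n) =
      ⟨Multiplicative.ofAdd (∑ i ∈ Finset.range n, ((ρ g) ^ i) v), g ^ n⟩ := by
  induction n with
  | zero =>
    rw [pow_zero, pow_zero, Finset.range_zero, Finset.sum_empty]
    rfl
  | succ n ih =>
    rw [pow_succ, ih, SemidirectProduct.mul_def]
    apply SemidirectProduct.ext
    · show Multiplicative.ofAdd _ * act ρ (g ^ n) (Multiplicative.ofAdd v) = _
      rw [act_apply, ← ofAdd_add, Finset.sum_range_succ, map_pow]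
    · show g ^ n * g = g ^ (n + 1)
      rw [pow_succ]

lemma aeval_sum_apply (g : G) (k : ℕ) (v : V) :
    (Polynomial.aeval (ρ g) (∑ i ∈ Finset.range k, (Polynomial.X : Polynomial F) ^ i)) v =
      ∑ i ∈ Finset.range k, ((ρ g) ^ i) v := by
  rw [map_sum]
  simp [LinearMap.sum_apply]

end

theorem result {F : Type*} [Field F] (p : ℕ) [Fact p.Prime] [CharP F p] {V : Type*} [AddCommGroup V] [Module F V] [FiniteDimensional F V] [Nontrivial V]
    {G : Type*} [Group G] [Finite G] (ρ : Representation F G V) (g : G) :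
    (∃ x : Multiplicative V ⋊[(MulAutMultiplicative V).symm.toMonoidHom.comp
        ((DistribMulAction.toAddAut ((V →ₗ[F] V)ˣ) V).comp ρ.asGroupHom)] G,
        x.right = g ∧ orderOf x = p * orderOf g) ↔
      ¬ (minpoly F (ρ g) ∣ ∑ i ∈ Finset.range (orderOf g), (Polynomial.X : Polynomial F) ^ i) := by
  classical
  have hp : p.Prime := Fact.out
  have hk : 0 < orderOf g := orderOf_pos g
  -- key computation of the order
  have key : ∀ v : V, orderOf (⟨Multiplicative.ofAdd v, g⟩ : Multiplicative V ⋊[act ρ] G) =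
      orderOf g * (if (∑ i ∈ Finset.range (orderOf g), ((ρ g) ^ i) v) = 0 then 1 else p) := by
    intro v
    set x : Multiplicative V ⋊[act ρ] G := ⟨Multiplicative.ofAdd v, g⟩ with hx
    set w : V := ∑ i ∈ Finset.range (orderOf g), ((ρ g) ^ i) v with hw
    have hxk : x ^ orderOf g = SemidirectProduct.inl (Multiplicative.ofAdd w) := by
      rw [hx, pow_formula, pow_orderOf_eq_one]
      rfl
    have hdvd : orderOf g ∣ orderOf x := by
      apply orderOf_dvd_of_pow_eq_one
      have h1 : (x ^ orderOf x).right = g ^ orderOf x := by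
        rw [hx, pow_formula]
      rw [← h1, pow_orderOf_eq_one]
      rfl
    have h2 : orderOf (x ^ orderOf g) = orderOf x / orderOf g :=
      orderOf_pow_of_dvd hk.ne' hdvd
    have h3 : orderOf (x ^ orderOf g) = if w = 0 then 1 else p := by
      rw [hxk, orderOf_injective _ SemidirectProduct.inl_injective, orderOf_ofAdd_eq_addOrderOf]
      split_ifs with h0
      · rw [h0, addOrderOf_zero]
      · apply addOrderOf_eq_prime _ h0
        rw [← Nat.cast_smul_eq_nsmul F, CharP.cast_eq_zero, zero_smul]
    rw [← h3, h2, Nat.mul_div_cancel' hdvd]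
  rw [minpoly.dvd_iff]
  constructor
  · rintro ⟨x, hxg, hxo⟩ h0
    obtain ⟨l, r⟩ := x
    simp only at hxg
    subst hxg
    have := key (Multiplicative.toAdd l)
    rw [ofAdd_toAdd] at this
    have hx' : orderOf (⟨l, r⟩ : Multiplicative V ⋊[act ρ] G) = p * orderOf r := hxo
    rw [hx', ← aeval_sum_apply, h0] at this
    simp only [LinearMap.zero_apply, if_true, mul_one] at this
    have h2 : 2 ≤ p := hp.two_le
    nlinarith
  · intro h0
    obtain ⟨v, hv⟩ : ∃ v : V, (Polynomial.aeval (ρ g) (∑ i ∈ Finset.range (orderOf g), (Polynomial.X : Polynomial F) ^ i)) v ≠ 0 := by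
      by_contra hcon
      push Not at hcon
      exact h0 (LinearMap.ext hcon)
    refine ⟨⟨Multiplicative.ofAdd v, g⟩, rfl, ?_⟩
    have := key v
    rw [← aeval_sum_apply, if_neg hv] at this
    rw [mul_comm]
    exact this

end Cfsg.Agent.S2516
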