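import Cfsg.Statements.S2518
import Cfsg.Agent.Lib.Helper61.G23Chk
import Cfsg.Agent.H18.ChevMap
import Cfsg.Agent.Lib.Helper5.SL2Card
import Cfsg.Agent.S1059

set_option autoImplicit false
open Cfsg

namespace Cfsg.Agent.S2518

open Matrix Cfsg.Agent.Lib.Helper61

/-! ### transport of the Chevalley group along a field isomorphism -/

section transport

variable {F K : Type*} [Field F] [Field K]

noncomputable def glEquiv (e : F ≃+* K) :
    GL Cfsg.Lie.chevG2.Idx F ≃* GL Cfsg.Lie.chevG2.Idx K :=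
  Units.mapEquiv (RingEquiv.mapMatrix e).toMulEquiv

theorem glEquiv_val (e : F ≃+* K) (g : GL Cfsg.Lie.chevG2.Idx F) :
    ((glEquiv e g : GL Cfsg.Lie.chevG2.Idx K) : Matrix Cfsg.Lie.chevG2.Idx Cfsg.Lie.chevG2.Idx K) =
      (g : Matrix Cfsg.Lie.chevG2.Idx Cfsg.Lie.chevG2.Idx F).map e := rfl

theorem glEquiv_symm_val (e : F ≃+* K) (g : GL Cfsg.Lie.chevG2.Idx K) :
    (((glEquiv e).symm g : GL Cfsg.Lie.chevG2.Idx F) :
      Matrix Cfsg.Lie.chevG2.Idx Cfsg.Lie.chevG2.Idx F) =
      (g : Matrix Cfsg.Lie.chevG2.Idx Cfsg.Lie.chevG2.Idx K).map e.symm := rfl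

theorem map_group (e : F ≃+* K) :
    (Cfsg.Lie.chevG2.group F).map ((glEquiv e : _ ≃* _) : _ →* _) = Cfsg.Lie.chevG2.group K := by
  unfold Cfsg.Lie.ChevalleyDatum.group
  rw [MonoidHom.map_closure]
  congr 1
  ext g'
  constructor
  · rintro ⟨g, ⟨r, t, hg⟩, rfl⟩
    refine ⟨r, e t, ?_⟩
    show ((glEquiv e g : GL Cfsg.Lie.chevG2.Idx K) :
      Matrix Cfsg.Lie.chevG2.Idx Cfsg.Lie.chevG2.Idx K) = _
    rw [glEquiv_val, hg]
    exact Cfsg.Agent.H18.xMat_map _ (e : F →+* K) r t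
  · rintro ⟨r, t, hg⟩
    refine ⟨(glEquiv e).symm g', ⟨r, e.symm t, ?_⟩, (glEquiv e).apply_symm_apply g'⟩
    rw [glEquiv_symm_val, hg]
    exact Cfsg.Agent.H18.xMat_map _ (e.symm : K →+* F) r t

/-- the Chevalley groups over isomorphic fields are isomorphic. -/
noncomputable def groupEquiv (e : F ≃+* K) :
    ↥(Cfsg.Lie.chevG2.group F) ≃* ↥(Cfsg.Lie.chevG2.group K) :=
  ((glEquiv e).subgroupMap (Cfsg.Lie.chevG2.group F)).trans (MulEquiv.subgroupCongr (map_group e))

end transport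

/-! ### arithmetic -/

theorem prime_dvd_card (r : ℕ) (hr : r.Prime) (h : r ∣ 4245696) :
    r = 2 ∨ r = 3 ∨ r = 7 ∨ r = 13 := by
  have h0 : (4245696 : ℕ) = 2 ^ 6 * 3 ^ 6 * 7 * 13 := by norm_num
  rw [h0] at h
  rcases (Nat.Prime.dvd_mul hr).mp h with h | h
  · rcases (Nat.Prime.dvd_mul hr).mp h with h | h
    · rcases (Nat.Prime.dvd_mul hr).mp h with h | h
      · left
        exact (Nat.prime_dvd_prime_iff_eq hr (by norm_num)).mp (hr.dvd_of_dvd_pow h)
      · right; left
        exact (Nat.prime_dvd_prime_iff_eq hr (by norm_num)).mp (hr.dvd_of_dvd_pow h)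
    · right; right; left
      exact (Nat.prime_dvd_prime_iff_eq hr (by norm_num)).mp h
  · right; right; right
    exact (Nat.prime_dvd_prime_iff_eq hr (by norm_num)).mp h

theorem two_primes (r s : ℕ) (hr : r.Prime) (hs : s.Prime) (hrs : r ≠ s) (n : ℕ)
    (hn : n = 13 ∨ n = 6 ∨ n = 7) (hd : r * s ∣ n) : r * s = 6 := by
  have hrd : r ∣ n := Dvd.dvd.trans (Dvd.intro _ rfl) hd
  have hsd : s ∣ n := Dvd.dvd.trans (Dvd.intro_left _ rfl) hd
  rcases hn with rfl | rfl | rfl
  · have h1 := (Nat.prime_dvd_prime_iff_eq hr (by norm_num)).mp hrd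
    have h2 := (Nat.prime_dvd_prime_iff_eq hs (by norm_num)).mp hsd
    omega
  · have h1 : r ≤ 6 := Nat.le_of_dvd (by norm_num) hrd
    have h2 : s ≤ 6 := Nat.le_of_dvd (by norm_num) hsd
    interval_cases r <;> interval_cases s <;> simp_all (config := { decide := true })
  · have h1 := (Nat.prime_dvd_prime_iff_eq hr (by norm_num)).mp hrd
    have h2 := (Nat.prime_dvd_prime_iff_eq hs (by norm_num)).mp hsd
    omega

/-! ### `G_2(3)` -/

theorem g2_iff {F : Type*} [Field F] [Fintype F] (hF : Fintype.card F = 3) (r s : ℕ)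
    (hr : r.Prime) (hs : s.Prime) (hrs : r ≠ s) :
    (∃ x : ↥(Cfsg.Lie.chevG2.group F), orderOf x = r * s) ↔ r * s = 6 := by
  obtain ⟨φ⟩ : Nonempty (↥(Cfsg.Lie.chevG2.group F) ≃* G23Main.G3) :=
    ⟨groupEquiv (ZMod.ringEquivOfPrime F Nat.prime_three hF).symm⟩
  constructor
  · rintro ⟨x, hx⟩
    have hy : orderOf (φ x) = r * s := by rw [φ.orderOf_eq, hx]
    have hdvd : r * s ∣ 4245696 := by
      rw [← G23Chk.card_G3, ← hy]
      exact orderOf_dvd_natCard _
    have hr4 := prime_dvd_card r hr (Dvd.dvd.trans (Dvd.intro _ rfl) hdvd)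
    have hs4 := prime_dvd_card s hs (Dvd.dvd.trans (Dvd.intro_left _ rfl) hdvd)
    have h7 := G23Chk.no7
    have h13 := G23Chk.no13
    rcases hr4 with rfl | rfl | rfl | rfl
    · rcases hs4 with rfl | rfl | rfl | rfl
      · exact absurd rfl hrs
      · rfl
      · exact absurd (by rw [hy]) (h7 2 (by norm_num) (φ x))
      · exact absurd (by rw [hy]) (h13 2 (by norm_num) (φ x))
    · rcases hs4 with rfl | rfl | rfl | rfl
      · rfl
      · exact absurd rfl hrs
      · exact absurd (by rw [hy]) (h7 3 (by norm_num) (φ x))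
      · exact absurd (by rw [hy]) (h13 3 (by norm_num) (φ x))
    · exact absurd hy (h7 s hs.one_lt (φ x))
    · exact absurd hy (h13 s hs.one_lt (φ x))
  · intro h6
    obtain ⟨y, hy⟩ := G23Chk.ex6
    refine ⟨φ.symm y, ?_⟩
    have h1 : orderOf (φ.symm y) = orderOf y :=
      orderOf_injective φ.symm.toMonoidHom φ.symm.injective y
    rw [h1, hy, h6]

/-! ### `PSL_2(13)` -/

section psl

variable {E : Type*} [Field E]

/-- Cayley–Hamilton for `2 × 2` matrices of determinant one. -/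
theorem cayley2 (M : Matrix (Fin 2) (Fin 2) E) (hdet : M.det = 1) :
    M * M = M.trace • M - 1 := by
  rw [Matrix.det_fin_two] at hdet
  ext i j
  fin_cases i <;> fin_cases j <;>
    simp [Matrix.mul_apply, Fin.sum_univ_two, Matrix.trace] <;>
    first | ring1 | linear_combination (-1 : E) * hdet

/-- coefficients of `A^n = a_n A + b_n` when `A² = tA − 1`. -/
def ab {R : Type*} [CommRing R] (t : R) : ℕ → R × R
  | 0 => (0, 1)
  | n + 1 => ((ab t n).1 * t + (ab t n).2, -(ab t n).1)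

theorem ab_map {R S : Type*} [CommRing R] [CommRing S] (f : R →+* S) (t : R) (n : ℕ) :
    ab (f t) n = (f (ab t n).1, f (ab t n).2) := by
  induction n with
  | zero => simp [ab]
  | succ n ih => simp [ab, ih]

theorem pow_eq_ab (A : Matrix (Fin 2) (Fin 2) E) (hdet : A.det = 1) (n : ℕ) :
    A ^ n = (ab A.trace n).1 • A + (ab A.trace n).2 • (1 : Matrix (Fin 2) (Fin 2) E) := by
  induction n with
  | zero => simp [ab]
  | succ n ih =>
    rw [pow_succ, ih, add_mul, Matrix.smul_mul, Matrix.smul_mul, one_mul, cayley2 A hdet]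
    simp only [ab]
    module

theorem ab_zmod : ∀ t : ZMod 13, (ab t 13).1 = 0 ∨ (ab t 6).1 = 0 ∨ (ab t 7).1 = 0 := by
  decide

theorem mk_eq_one_of_scalar (M : Matrix.SpecialLinearGroup (Fin 2) E) (c : E)
    (h : (M : Matrix (Fin 2) (Fin 2) E) = c • 1) :
    (QuotientGroup.mk M : Matrix.ProjectiveSpecialLinearGroup (Fin 2) E) = 1 := by
  rw [QuotientGroup.eq_one_iff, Subgroup.mem_center_iff]
  intro g
  apply Subtype.ext
  show g.1 * M.1 = M.1 * g.1
  rw [h]
  simp

theorem psl_pow [Fintype E] (hE : Fintype.card E = 13)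
    (y : Matrix.ProjectiveSpecialLinearGroup (Fin 2) E) : y ^ 13 = 1 ∨ y ^ 6 = 1 ∨ y ^ 7 = 1 := by
  obtain ⟨M, rfl⟩ := QuotientGroup.mk_surjective y
  let e : ZMod 13 ≃+* E := ZMod.ringEquivOfPrime E (by norm_num) hE
  obtain ⟨t0, ht0⟩ := e.surjective (M.1.trace)
  have key : ∀ n, (ab t0 n).1 = 0 →
      (QuotientGroup.mk M : Matrix.ProjectiveSpecialLinearGroup (Fin 2) E) ^ n = 1 := by
    intro n hn
    rw [← QuotientGroup.mk_pow]
    apply mk_eq_one_of_scalar (M ^ n) (ab M.1.trace n).2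
    have h1 : (ab M.1.trace n).1 = 0 := by
      rw [← ht0]
      have := ab_map (e : ZMod 13 →+* E) t0 n
      simp only [RingEquiv.coe_toRingHom] at this
      rw [this, hn]
      simp
    refine (Matrix.SpecialLinearGroup.coe_pow M n).trans ?_
    rw [pow_eq_ab M.1 M.2 n, h1, zero_smul, zero_add]
  rcases ab_zmod t0 with h | h | h
  · exact Or.inl (key 13 h)
  · exact Or.inr (Or.inl (key 6 h))
  · exact Or.inr (Or.inr (key 7 h))

/-- a diagonal element of `SL_2(13)`. -/
def dg (a b : ZMod 13) (h : a * b = 1) : Matrix.SpecialLinearGroup (Fin 2) (ZMod 13) :=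
  ⟨!![a, 0; 0, b], by rw [Matrix.det_fin_two_of]; simp [h]⟩

theorem dg_pow (a b : ZMod 13) (h : a * b = 1) (n : ℕ) :
    ((dg a b h ^ n : Matrix.SpecialLinearGroup (Fin 2) (ZMod 13)) : Matrix (Fin 2) (Fin 2) (ZMod 13)) =
      !![a ^ n, 0; 0, b ^ n] := by
  induction n with
  | zero =>
    ext i j
    fin_cases i <;> fin_cases j <;> simp
  | succ n ih =>
    rw [pow_succ]
    refine (Matrix.SpecialLinearGroup.coe_mul _ _).trans ?_
    rw [ih]
    ext i j
    fin_cases i <;> fin_cases j <;> simp [dg, Matrix.mul_apply, Fin.sum_univ_two, pow_succ]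

theorem map_dg_pow (e : ZMod 13 →+* E) (a b : ZMod 13) (h : a * b = 1) (n : ℕ) :
    ((Matrix.SpecialLinearGroup.map e (dg a b h) ^ n : Matrix.SpecialLinearGroup (Fin 2) E) :
      Matrix (Fin 2) (Fin 2) E) = !![e (a ^ n), 0; 0, e (b ^ n)] := by
  rw [← map_pow]
  refine (Matrix.SpecialLinearGroup.map_apply_coe _ _).trans ?_
  rw [dg_pow]
  ext i j
  fin_cases i <;> fin_cases j <;> simp

theorem ex6_psl [Fintype E] (hE : Fintype.card E = 13) :
    ∃ y : Matrix.ProjectiveSpecialLinearGroup (Fin 2) E, orderOf y = 6 := by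
  let e : ZMod 13 ≃+* E := ZMod.ringEquivOfPrime E (by norm_num) hE
  let D : Matrix.SpecialLinearGroup (Fin 2) E := Matrix.SpecialLinearGroup.map (e : ZMod 13 →+* E) (dg 2 7 (by decide))
  have hne : ∀ n : ℕ, (2 : ZMod 13) ^ n ≠ 7 ^ n →
      (QuotientGroup.mk D : Matrix.ProjectiveSpecialLinearGroup (Fin 2) E) ^ n ≠ 1 := by
    intro n hn h1
    rw [← QuotientGroup.mk_pow, QuotientGroup.eq_one_iff, Subgroup.mem_center_iff] at h1
    have h2 := h1 ⟨!![1, 1; 0, 1], by rw [Matrix.det_fin_two_of]; simp⟩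
    have h3 : (!![1, 1; 0, 1] : Matrix (Fin 2) (Fin 2) E) *
        ((D ^ n : Matrix.SpecialLinearGroup (Fin 2) E) : Matrix (Fin 2) (Fin 2) E) =
        ((D ^ n : Matrix.SpecialLinearGroup (Fin 2) E) : Matrix (Fin 2) (Fin 2) E) *
          (!![1, 1; 0, 1] : Matrix (Fin 2) (Fin 2) E) := congrArg Subtype.val h2
    rw [map_dg_pow] at h3
    have h4 := congrFun (congrFun h3 0) 1
    simp [Matrix.mul_apply, Fin.sum_univ_two] at h4
    rw [← map_pow, ← map_pow] at h4
    exact hn (e.injective h4).symm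
  refine ⟨QuotientGroup.mk D, ?_⟩
  apply VecCert.order_six
  · rw [← QuotientGroup.mk_pow]
    apply mk_eq_one_of_scalar _ (e 12)
    rw [map_dg_pow]
    have h1 : (2 : ZMod 13) ^ 6 = 12 := by decide
    have h2 : (7 : ZMod 13) ^ 6 = 12 := by decide
    rw [h1, h2]
    ext i j
    fin_cases i <;> fin_cases j <;> simp
  · exact hne 2 (by decide)
  · exact hne 3 (by decide)

theorem psl_iff [Fintype E] (hE : Fintype.card E = 13) (r s : ℕ) (hr : r.Prime) (hs : s.Prime)
    (hrs : r ≠ s) :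
    (∃ y : Matrix.ProjectiveSpecialLinearGroup (Fin 2) E, orderOf y = r * s) ↔ r * s = 6 := by
  constructor
  · rintro ⟨y, hy⟩
    rcases psl_pow hE y with h | h | h
    · exact two_primes r s hr hs hrs 13 (Or.inl rfl) (hy ▸ orderOf_dvd_of_pow_eq_one h)
    · exact two_primes r s hr hs hrs 6 (Or.inr (Or.inl rfl)) (hy ▸ orderOf_dvd_of_pow_eq_one h)
    · exact two_primes r s hr hs hrs 7 (Or.inr (Or.inr rfl)) (hy ▸ orderOf_dvd_of_pow_eq_one h)
  · intro h6
    obtain ⟨y, hy⟩ := ex6_psl hE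
    exact ⟨y, by rw [hy, h6]⟩

theorem card_psl [Fintype E] (hE : Fintype.card E = 13) :
    Nat.card (Matrix.ProjectiveSpecialLinearGroup (Fin 2) E) = 1092 := by
  have h := Cfsg.Agent.Lib.Helper5.SL2Card.card_PSL_two (F := E) hE
  norm_num at h
  omega

end psl

/-- Let F₃ be the field with 3 elements and F₁₃ the field with 13 elements. The Chevalley group G₂(F₃) and PSL(2, F₁₃) have the same prime graph: the same prime divisors of their orders, and for distinct primes r, s an element of order rs in one iff in the other. -/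
theorem result {F : Type*} [Field F] [Fintype F] (hF : Fintype.card F = 3) {E : Type*} [Field E] [Fintype E] (hE : Fintype.card E = 13) :
    ((∀ r : ℕ, r.Prime → (r ∣ Nat.card ↥(Cfsg.Lie.chevG2.group F) ↔ r ∣ Nat.card (Matrix.ProjectiveSpecialLinearGroup (Fin 2) E))) ∧
      (∀ r s : ℕ, r.Prime → s.Prime → r ≠ s → ((∃ x : ↥(Cfsg.Lie.chevG2.group F), orderOf x = r * s) ↔ (∃ y : (Matrix.ProjectiveSpecialLinearGroup (Fin 2) E), orderOf y = r * s)))) := by
  have hcF : Nat.card ↥(Cfsg.Lie.chevG2.group F) = 4245696 := by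
    rw [Cfsg.Agent.S1059.result (F := F) (q := 3) hF]
    norm_num
  refine ⟨?_, ?_⟩
  · intro r hr
    rw [hcF, card_psl hE]
    constructor
    · intro h
      rcases prime_dvd_card r hr h with rfl | rfl | rfl | rfl <;> norm_num
    · intro h
      exact Dvd.dvd.trans h (by norm_num)
  · intro r s hr hs hrs
    rw [g2_iff hF r s hr hs hrs, psl_iff hE r s hr hs hrs]

end Cfsg.Agent.S2518
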