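import Cfsg.Statements.S2521

set_option autoImplicit false
open Cfsg

namespace Cfsg.Agent.S2521

/-- Let B be a finite group that is the semidirect product of a nilpotent normal subgroup U by an abelian subgroup T (U ∩ T = 1, UT = B), and let t ∈ T have centralizer exactly T. Then every element of the coset tU is conjugate to t in B: for each u ∈ U there is b ∈ B with b t b⁻¹ = t u. -/
theorem result {B : Type*} [Group B] [Finite B] (U T : Subgroup B) [U.Normal] (hU : Group.IsNilpotent ↥U) (hT : IsMulCommutative ↥T)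
    (hcompl : Subgroup.IsComplement' U T) (t : B) (ht : t ∈ T) (hreg : Subgroup.centralizer ({t} : Set B) = T) (u : B) (hu : u ∈ U) :
    ∃ b : B, b * t * b⁻¹ = t * u := by
  -- the map v ↦ t⁻¹ * (v * t * v⁻¹) is an injective self-map of U
  have hmem : ∀ v : U, t⁻¹ * ((v : B) * t * (v : B)⁻¹) ∈ U := by
    intro v
    have h1 : t⁻¹ * (v : B) * t ∈ U := by
      have := ‹U.Normal›.conj_mem (v : B) v.2 t⁻¹
      simpa using this
    have h2 : (t⁻¹ * (v : B) * t) * (v : B)⁻¹ ∈ U := U.mul_mem h1 (U.inv_mem v.2)
    simpa [mul_assoc] using h2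
  let f : U → U := fun v => ⟨t⁻¹ * ((v : B) * t * (v : B)⁻¹), hmem v⟩
  have hinj : Function.Injective f := by
    intro v w hvw
    have h1 : (v : B) * t * (v : B)⁻¹ = (w : B) * t * (w : B)⁻¹ := by
      have := congrArg Subtype.val hvw
      simpa [f] using this
    -- then w⁻¹ v centralizes t
    have h2 : (w : B)⁻¹ * (v : B) ∈ Subgroup.centralizer ({t} : Set B) := by
      rw [Subgroup.mem_centralizer_iff]
      intro x hx
      rw [Set.mem_singleton_iff] at hx
      subst hx
      have : (w : B)⁻¹ * ((v : B) * x * (v : B)⁻¹) * (v : B) = (w : B)⁻¹ * ((w : B) * x * (w : B)⁻¹) * (v : B) := by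
        rw [h1]
      simp [mul_assoc] at this
      simp [mul_assoc, this]
    rw [hreg] at h2
    have h3 : (w : B)⁻¹ * (v : B) ∈ U := U.mul_mem (U.inv_mem w.2) v.2
    have hdisj : Disjoint U T := hcompl.disjoint
    have h4 : (w : B)⁻¹ * (v : B) ∈ U ⊓ T := ⟨h3, h2⟩
    rw [hdisj.eq_bot, Subgroup.mem_bot] at h4
    have : (v : B) = (w : B) := by
      have := inv_mul_eq_one.mp h4
      exact this.symm
    exact Subtype.ext this
  have hsurj : Function.Surjective f := Finite.surjective_of_injective hinj
  obtain ⟨v, hv⟩ := hsurj ⟨u, hu⟩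
  refine ⟨(v : B), ?_⟩
  have := congrArg Subtype.val hv
  simp only [f] at this
  rw [← this]
  group

end Cfsg.Agent.S2521
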