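-- S2522: a non-scalar matrix of determinant 1 is a product of two regular unipotent conjugates.
-- Assembly of the pieces of Cfsg/Agent/Lib/Helper53/RUStmt.lean (see RUAsm.lean).
import Cfsg.Statements.S2522
import Cfsg.Agent.Lib.Helper53.RUAsm
import Cfsg.Agent.Lib.Helper53.RUPHIA
import Cfsg.Agent.Lib.Helper53.RUPHIB
import Cfsg.Agent.Lib.Helper53.RUEB
import Cfsg.Agent.Lib.Helper53.RUFIN
import Cfsg.Agent.Lib.Helper53.RUUNI
import Cfsg.Agent.Lib.Helper58.RUCOV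
import Cfsg.Agent.Lib.Helper58.RUFIXX
import Cfsg.Agent.Lib.Helper58.RUCU
import Cfsg.Agent.Lib.Helper58.RUPCORE
import Cfsg.Agent.Lib.Helper58.RUECORE
import Cfsg.Agent.Lib.Helper58.RUD2V
import Cfsg.Agent.Lib.Helper86.RUD2NIL
import Cfsg.Agent.Lib.Helper86.RUC13
import Cfsg.Agent.Lib.Helper41.RUCHAIN
import Cfsg.Agent.Lib.Helper41.RUCONJ
import Cfsg.Agent.Lib.Helper30.RULIFT
import Cfsg.Agent.Lib.Helper30.RUEXTB
import Cfsg.Agent.Lib.Helper30.RUDIM2
import Cfsg.Agent.Lib.Helper74.RUC23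
import Cfsg.Agent.Lib.Helper20.RUDET
import Cfsg.Agent.Lib.Helper20.RUNSC
import Cfsg.Agent.Lib.Helper20.RURANK

set_option autoImplicit false
open Cfsg

namespace Cfsg.Agent.S2522

/-- Let K be a field with at least four elements (finite or infinite), n ≥ 3, and J ∈ GL(n, K) the regular unipotent matrix (ones on the diagonal and the superdiagonal, zeros elsewhere). Then every non-scalar g ∈ GL(n, K) with det g = 1 is a product of two GL(n, K)-conjugates of J. -/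
theorem result {K : Type*} [Field K] (hK : 4 ≤ Cardinal.mk K) (n : ℕ) (hn : 3 ≤ n) (J g : GL (Fin n) K)
    (hJ : ∀ i j : Fin n, (J : Matrix (Fin n) (Fin n) K) i j = if i = j then 1 else if j.val = i.val + 1 then 1 else 0)
    (hg : ¬ ∃ c : K, (g : Matrix (Fin n) (Fin n) K) = c • (1 : Matrix (Fin n) (Fin n) K))
    (hdet : (g : Matrix (Fin n) (Fin n) K).det = 1) :
    ∃ x y : GL (Fin n) K, g = (x * J * x⁻¹) * (y * J * y⁻¹) := by
  exact Cfsg.Agent.Lib.Helper53.RUAsm.assembly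
    Cfsg.Agent.Lib.Helper58.RUCOV.main Cfsg.Agent.Lib.Helper58.RUPCORE.main
    Cfsg.Agent.Lib.Helper58.RUCU.main
    Cfsg.Agent.Lib.Helper53.RUPHIA.main Cfsg.Agent.Lib.Helper53.RUPHIB.main
    Cfsg.Agent.Lib.Helper86.RUC13.main Cfsg.Agent.Lib.Helper74.RUC23.main
    Cfsg.Agent.Lib.Helper58.RUECORE.main
    Cfsg.Agent.Lib.Helper53.RUEB.mainA Cfsg.Agent.Lib.Helper53.RUEB.main
    Cfsg.Agent.Lib.Helper20.RURANK.main Cfsg.Agent.Lib.Helper20.RUNSC.main
    Cfsg.Agent.Lib.Helper20.RUDET.main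
    Cfsg.Agent.Lib.Helper30.RULIFT.main Cfsg.Agent.Lib.Helper30.RUEXTB.main
    Cfsg.Agent.Lib.Helper58.RUFIXX.main
    Cfsg.Agent.Lib.Helper53.RUUNI.main
    Cfsg.Agent.Lib.Helper58.RUD2V.main Cfsg.Agent.Lib.Helper86.RUD2NIL.main
    Cfsg.Agent.Lib.Helper30.RUDIM2.main
    Cfsg.Agent.Lib.Helper41.RUCHAIN.main Cfsg.Agent.Lib.Helper41.RUCONJ.main
    Cfsg.Agent.Lib.Helper53.RUFIN.main
    hK n hn J g hJ hg hdet

end Cfsg.Agent.S2522
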