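import Cfsg.Statements.S2593
import Mathlib
import Cfsg.Agent.S2166
import Cfsg.Agent.Lib.Helper13.Symp
import Cfsg.Agent.Lib.Helper13.SympMat

set_option autoImplicit false
open Cfsg

namespace Cfsg.Agent.S2593

open Matrix Cfsg.Agent.Lib.Helper13 Cfsg.Agent.Lib.Helper13.SympMat Cfsg.Agent.S2166

section
variable {F : Type*} [Field F] {m : ℕ}

theorem form_formula (u w : Fin m ⊕ Fin m → F) :
    form m F u w = ∑ i, (u (Sum.inr i) * w (Sum.inl i) - u (Sum.inl i) * w (Sum.inr i)) := by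
  rw [form_apply, Cfsg.sympForm, Matrix.J, Matrix.fromBlocks_mulVec]
  simp only [dotProduct, Fintype.sum_sum_type, Sum.elim_inl, Sum.elim_inr, Matrix.zero_mulVec,
    Matrix.neg_mulVec, Matrix.one_mulVec, zero_add, add_zero, Pi.neg_apply, Function.comp_apply]
  rw [← Finset.sum_add_distrib]
  apply Finset.sum_congr rfl
  intro i _
  ring

theorem form_symm2 [CharP F 2] (u w : Fin m ⊕ Fin m → F) : form m F u w = form m F w u := by
  rw [← (form_alt m).neg_eq, CharTwo.neg_eq]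

theorem rank_of_frame {ι : Type*} [Fintype ι] [DecidableEq ι] (π : ι → ι)
    (hπ : ∀ p, π (π p) = p)
    (N : Matrix (Fin m ⊕ Fin m) (Fin m ⊕ Fin m) F) (e v : ι → (Fin m ⊕ Fin m → F))
    (hve : ∀ p q, form m F (v p) (e q) = if p = q then 1 else 0)
    (hN : ∀ y, N *ᵥ y = ∑ p, form m F (e (π p)) y • e p) : N.rank = Fintype.card ι := by
  have hli : LinearIndependent F e := by
    rw [Fintype.linearIndependent_iff]
    intro c hc i
    have h1 := congrArg (form m F (v i)) hc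
    rw [map_sum, map_zero, Finset.sum_eq_single i] at h1
    · rw [map_smul, hve, if_pos rfl, smul_eq_mul, mul_one] at h1
      exact h1
    · intro j _ hji
      rw [map_smul, hve, if_neg (Ne.symm hji), smul_zero]
    · intro hi
      exact absurd (Finset.mem_univ i) hi
  have hrange : LinearMap.range N.mulVecLin = Submodule.span F (Set.range e) := by
    apply le_antisymm
    · rintro _ ⟨y, rfl⟩
      rw [Matrix.mulVecLin_apply, hN]
      exact Submodule.sum_mem _ fun p _ => Submodule.smul_mem _ _ (Submodule.subset_span ⟨p, rfl⟩)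
    · rw [Submodule.span_le]
      rintro _ ⟨q, rfl⟩
      refine ⟨-v (π q), ?_⟩
      rw [Matrix.mulVecLin_apply, hN, Finset.sum_eq_single q]
      · rw [map_neg, (form_alt m).neg_eq, hve, if_pos rfl, one_smul]
      · intro p _ hpq
        rw [map_neg, (form_alt m).neg_eq, hve, if_neg, zero_smul]
        intro h
        apply hpq
        rw [← hπ p, ← hπ q, h]
      · intro hq
        exact absurd (Finset.mem_univ q) hq
  show Module.finrank F (LinearMap.range N.mulVecLin) = Fintype.card ι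
  rw [hrange]
  exact finrank_span_eq_card hli

theorem rank_le_of_sq (N : Matrix (Fin m ⊕ Fin m) (Fin m ⊕ Fin m) F)
    (hN2 : ∀ x, N *ᵥ (N *ᵥ x) = 0) : N.rank ≤ m := by
  have h1 : LinearMap.range N.mulVecLin ≤ LinearMap.ker N.mulVecLin := by
    rintro _ ⟨y, rfl⟩
    exact hN2 y
  have h2 := Submodule.finrank_mono h1
  have h3 := LinearMap.finrank_range_add_finrank_ker N.mulVecLin
  have h4 : Module.finrank F (Fin m ⊕ Fin m → F) = m + m := by
    rw [Module.finrank_fintype_fun_eq_card, Fintype.card_sum, Fintype.card_fin]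
  have h5 : Module.finrank F (LinearMap.range N.mulVecLin) = N.rank := rfl
  omega

theorem eq_one_of_rank (A : Matrix (Fin m ⊕ Fin m) (Fin m ⊕ Fin m) F)
    (h : (A - 1).rank = 0) : A = 1 := by
  have h1 : Module.finrank F (LinearMap.range (A - 1).mulVecLin) = 0 := h
  rw [Submodule.finrank_eq_zero] at h1
  rw [Matrix.ext_iff_mulVec]
  intro x
  have h2 : (A - 1).mulVecLin x ∈ LinearMap.range (A - 1).mulVecLin := ⟨x, rfl⟩
  rw [h1, Submodule.mem_bot, Matrix.mulVecLin_apply, Matrix.sub_mulVec] at h2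
  exact sub_eq_zero.1 h2

theorem alt_of_frame [CharP F 2] {l : ℕ} (N : Matrix (Fin m ⊕ Fin m) (Fin m ⊕ Fin m) F)
    (e : Fin l ⊕ Fin l → (Fin m ⊕ Fin m → F))
    (hN : ∀ y, N *ᵥ y = ∑ p, form m F (e (Sum.swap p)) y • e p) :
    ∀ x, form m F x (N *ᵥ x) = 0 := by
  intro x
  rw [hN, map_sum]
  simp only [map_smul, smul_eq_mul, Fintype.sum_sum_type, Sum.swap_inl, Sum.swap_inr]
  rw [← Finset.sum_add_distrib]
  apply Finset.sum_eq_zero
  intro i _
  rw [form_symm2 x (e (Sum.inl i)), form_symm2 x (e (Sum.inr i)), mul_comm]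
  exact CharTwo.add_self_eq_zero _

theorem nalt_of_frame [CharP F 2] {r : ℕ} (hr : 0 < r)
    (N : Matrix (Fin m ⊕ Fin m) (Fin m ⊕ Fin m) F)
    (e v : Fin r → (Fin m ⊕ Fin m → F))
    (hve : ∀ p q, form m F (v p) (e q) = if p = q then 1 else 0)
    (hN : ∀ y, N *ᵥ y = ∑ p, form m F (e (id p)) y • e p) :
    ¬ ∀ x, form m F x (N *ᵥ x) = 0 := by
  intro h
  have h1 := h (v ⟨0, hr⟩)
  rw [hN, map_sum, Finset.sum_eq_single ⟨0, hr⟩] at h1
  · rw [map_smul, id, form_symm2 (e ⟨0, hr⟩), hve, if_pos rfl, smul_eq_mul, mul_one] at h1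
    exact one_ne_zero h1
  · intro p _ hp
    rw [map_smul, hve, if_neg (Ne.symm hp), smul_zero]
  · intro hq
    exact absurd (Finset.mem_univ _) hq

theorem exists_invol [CharP F 2] {ι : Type*} [Fintype ι] [DecidableEq ι] (π : ι → ι)
    (hπ : ∀ p, π (π p) = p) (ψ : ι → Fin m) (hψ : Function.Injective ψ) :
    ∃ t : ↥(Matrix.symplecticGroup (Fin m) F), t * t = 1 ∧
      ∃ e v : ι → (Fin m ⊕ Fin m → F),
      (∀ p q, form m F (v p) (e q) = if p = q then 1 else 0) ∧
      ∀ y, ((t : Matrix (Fin m ⊕ Fin m) (Fin m ⊕ Fin m) F) - 1) *ᵥ y =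
        ∑ p, form m F (e (π p)) y • e p := by
  classical
  obtain ⟨e, he⟩ : ∃ e : ι → (Fin m ⊕ Fin m → F), e = fun p => Pi.single (Sum.inl (ψ p)) 1 :=
    ⟨_, rfl⟩
  obtain ⟨v, hv⟩ : ∃ v : ι → (Fin m ⊕ Fin m → F), v = fun p => Pi.single (Sum.inr (ψ p)) 1 :=
    ⟨_, rfl⟩
  have he_inl : ∀ p i, e p (Sum.inl i) = if i = ψ p then 1 else 0 := by
    intro p i
    rw [he]
    simp [Pi.single_apply]
  have he_inr : ∀ p i, e p (Sum.inr i) = 0 := by
    intro p i
    rw [he]
    simp [Pi.single_apply]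
  have hv_inr : ∀ p i, v p (Sum.inr i) = if i = ψ p then 1 else 0 := by
    intro p i
    rw [hv]
    simp [Pi.single_apply]
  have hv_inl : ∀ p i, v p (Sum.inl i) = 0 := by
    intro p i
    rw [hv]
    simp [Pi.single_apply]
  have hee : ∀ p q, form m F (e p) (e q) = 0 := by
    intro p q
    rw [form_formula]
    apply Finset.sum_eq_zero
    intro i _
    rw [he_inr, he_inr, zero_mul, mul_zero, sub_zero]
  have hve : ∀ p q, form m F (v p) (e q) = if p = q then 1 else 0 := by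
    intro p q
    rw [form_formula]
    simp only [hv_inr, he_inl, hv_inl, he_inr, mul_zero, sub_zero, ite_mul, one_mul, zero_mul,
      Finset.sum_ite_eq', Finset.mem_univ, if_true]
    by_cases hpq : p = q
    · subst hpq
      rw [if_pos rfl, if_pos rfl]
    · rw [if_neg hpq, if_neg (hψ.ne hpq)]
  obtain ⟨N, hNdef⟩ : ∃ N : Matrix (Fin m ⊕ Fin m) (Fin m ⊕ Fin m) F,
      N = LinearMap.toMatrix' (∑ p, (form m F (e (π p))).smulRight (e p)) := ⟨_, rfl⟩
  have hNy : ∀ y, N *ᵥ y = ∑ p, form m F (e (π p)) y • e p := by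
    intro y
    rw [hNdef, ← Matrix.toLin'_apply, Matrix.toLin'_toMatrix', LinearMap.sum_apply]
    rfl
  have hNN : ∀ u w, form m F (N *ᵥ u) (N *ᵥ w) = 0 := by
    intro u w
    rw [hNy, hNy]
    simp only [map_sum, map_smul, LinearMap.sum_apply, LinearMap.smul_apply, hee, smul_zero,
      Finset.sum_const_zero]
  have hN0 : ∀ u, N *ᵥ (N *ᵥ u) = 0 := by
    intro u
    rw [hNy (N *ᵥ u)]
    apply Finset.sum_eq_zero
    intro p _
    rw [hNy u, map_sum, Finset.sum_eq_zero, zero_smul]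
    intro q _
    rw [map_smul, hee, smul_zero]
  have hadj : ∀ u w, form m F (N *ᵥ u) w = form m F u (N *ᵥ w) := by
    intro u w
    rw [hNy, hNy, map_sum, map_sum, LinearMap.sum_apply]
    have hπ' : Function.Involutive π := hπ
    rw [← Equiv.sum_comp (Function.Involutive.toPerm π hπ')]
    apply Finset.sum_congr rfl
    intro p _
    have h1 : (Function.Involutive.toPerm π hπ') p = π p := rfl
    rw [h1, hπ, map_smul, map_smul, LinearMap.smul_apply, smul_eq_mul,
      smul_eq_mul, form_symm2 u (e p), mul_comm]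
  have hTx : ∀ x, (1 + N) *ᵥ x = x + N *ᵥ x := by
    intro x
    rw [Matrix.add_mulVec, Matrix.one_mulVec]
  have hmem : (1 + N) ∈ Matrix.symplecticGroup (Fin m) F := by
    rw [mem_symp_iff]
    intro u w
    rw [hTx, hTx]
    simp only [map_add, LinearMap.add_apply]
    rw [hNN, hadj, add_zero, add_assoc, CharTwo.add_self_eq_zero, add_zero]
  have hTT : (1 + N) * (1 + N) = 1 := by
    rw [Matrix.ext_iff_mulVec]
    intro x
    rw [← Matrix.mulVec_mulVec, hTx, hTx, Matrix.mulVec_add, hN0, add_zero, Matrix.one_mulVec,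
      add_assoc]
    have h2 : N *ᵥ x + N *ᵥ x = 0 := by
      rw [← two_smul F, CharTwo.two_eq_zero, zero_smul]
    rw [h2, add_zero]
  refine ⟨⟨1 + N, hmem⟩, Subtype.ext hTT, e, v, hve, ?_⟩
  intro y
  show (1 + N - 1) *ᵥ y = _
  rw [add_sub_cancel_left, hNy]

theorem exists_nalt [CharP F 2] (s : ℕ) (hs : 1 ≤ s) (hsm : s ≤ m) :
    ∃ t : ↥(Matrix.symplecticGroup (Fin m) F), t * t = 1 ∧
      ((t : Matrix (Fin m ⊕ Fin m) (Fin m ⊕ Fin m) F) - 1).rank = s ∧
      ¬ ∀ y, form m F y (((t : Matrix (Fin m ⊕ Fin m) (Fin m ⊕ Fin m) F) - 1) *ᵥ y) = 0 := by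
  obtain ⟨t, htt, e, v, hve, hN⟩ := exists_invol (F := F) (id : Fin s → Fin s) (fun _ => rfl)
    (Fin.castLE hsm) (Fin.castLE_injective hsm)
  refine ⟨t, htt, ?_, nalt_of_frame (by omega) _ e v hve hN⟩
  rw [rank_of_frame id (fun _ => rfl) _ e v hve hN, Fintype.card_fin]

theorem exists_alt [CharP F 2] (l : ℕ) (hlm : l + l ≤ m) :
    ∃ t : ↥(Matrix.symplecticGroup (Fin m) F), t * t = 1 ∧
      ((t : Matrix (Fin m ⊕ Fin m) (Fin m ⊕ Fin m) F) - 1).rank = l + l ∧
      ∀ y, form m F y (((t : Matrix (Fin m ⊕ Fin m) (Fin m ⊕ Fin m) F) - 1) *ᵥ y) = 0 := by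
  obtain ⟨t, htt, e, v, hve, hN⟩ := exists_invol (F := F) (Sum.swap : Fin l ⊕ Fin l → Fin l ⊕ Fin l)
    Sum.swap_swap (fun p => Fin.castLE hlm (finSumFinEquiv p))
    ((Fin.castLE_injective hlm).comp finSumFinEquiv.injective)
  refine ⟨t, htt, ?_, alt_of_frame _ e hN⟩
  rw [rank_of_frame Sum.swap Sum.swap_swap _ e v hve hN, Fintype.card_sum, Fintype.card_fin]

theorem conj_main' [Finite F] [CharP F 2] (A A' : Matrix (Fin m ⊕ Fin m) (Fin m ⊕ Fin m) F)
    (hA : A ∈ Matrix.symplecticGroup (Fin m) F) (hA' : A' ∈ Matrix.symplecticGroup (Fin m) F)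
    (hA2 : A * A = 1) (hA'2 : A' * A' = 1)
    (hrk : (A - 1).rank = (A' - 1).rank)
    (halt : (∀ x, form m F x ((A - 1) *ᵥ x) = 0) ↔ (∀ x, form m F x ((A' - 1) *ᵥ x) = 0)) :
    ∃ G ∈ Matrix.symplecticGroup (Fin m) F, G * A = A' * G := by
  classical
  obtain ⟨hN2, hadj, hform⟩ := invol_N A hA hA2
  obtain ⟨hN2', hadj', hform'⟩ := invol_N A' hA' hA'2
  by_cases h1 : ∀ x, form m F x ((A - 1) *ᵥ x) = 0
  · obtain ⟨l, hl, e, v, hee, hve, hN⟩ := frame_alt (A - 1) hN2 hadj h1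
    obtain ⟨l', hl', e', v', hee', hve', hN'⟩ := frame_alt (A' - 1) hN2' hadj' (halt.1 h1)
    have hll : l = l' := by omega
    subst hll
    exact conj_of_frames Sum.swap A A' e v e' v' hee hve hN hee' hve' hN'
  · have h2 : ¬ ∀ x, form m F x ((A' - 1) *ᵥ x) = 0 := fun h2 => h1 (halt.2 h2)
    push_neg at h1 h2
    obtain ⟨e, v, hee, hve, hN⟩ := frame_nalt (A - 1) hN2 hadj h1 _ rfl
    obtain ⟨e', v', hee', hve', hN'⟩ := frame_nalt (A' - 1) hN2' hadj' h2 _ hrk.symm
    exact conj_of_frames id A A' e v e' v' hee hve hN hee' hve' hN'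

/-- conjugacy of involutions is detected by the rank and the alternating property -/
theorem conj_iff [Finite F] [CharP F 2] (a b : ↥(Matrix.symplecticGroup (Fin m) F))
    (ha : a * a = 1) (hb : b * b = 1) :
    IsConj a b ↔ (((a : Matrix (Fin m ⊕ Fin m) (Fin m ⊕ Fin m) F) - 1).rank =
      ((b : Matrix (Fin m ⊕ Fin m) (Fin m ⊕ Fin m) F) - 1).rank ∧
      ((∀ x, form m F x (((a : Matrix (Fin m ⊕ Fin m) (Fin m ⊕ Fin m) F) - 1) *ᵥ x) = 0) ↔
        (∀ x, form m F x (((b : Matrix (Fin m ⊕ Fin m) (Fin m ⊕ Fin m) F) - 1) *ᵥ x) = 0))) := by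
  classical
  constructor
  · intro h
    obtain ⟨c, hc⟩ := isConj_iff.1 h
    have hcb : (c : Matrix (Fin m ⊕ Fin m) (Fin m ⊕ Fin m) F) *
        (a : Matrix (Fin m ⊕ Fin m) (Fin m ⊕ Fin m) F) =
        (b : Matrix (Fin m ⊕ Fin m) (Fin m ⊕ Fin m) F) *
        (c : Matrix (Fin m ⊕ Fin m) (Fin m ⊕ Fin m) F) := by
      have h1 : c * a = b * c := by
        rw [← hc]
        group
      exact congrArg Subtype.val h1
    have hcinv : (c : Matrix (Fin m ⊕ Fin m) (Fin m ⊕ Fin m) F) *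
        ((c⁻¹ : ↥(Matrix.symplecticGroup (Fin m) F)) :
          Matrix (Fin m ⊕ Fin m) (Fin m ⊕ Fin m) F) = 1 :=
      congrArg Subtype.val (mul_inv_cancel c)
    have hdet : IsUnit (c : Matrix (Fin m ⊕ Fin m) (Fin m ⊕ Fin m) F).det := by
      have h1 := congrArg Matrix.det hcinv
      rw [Matrix.det_mul, Matrix.det_one] at h1
      exact IsUnit.of_mul_eq_one _ h1
    have h3 : (c : Matrix (Fin m ⊕ Fin m) (Fin m ⊕ Fin m) F) *
        ((a : Matrix (Fin m ⊕ Fin m) (Fin m ⊕ Fin m) F) - 1) =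
        ((b : Matrix (Fin m ⊕ Fin m) (Fin m ⊕ Fin m) F) - 1) *
        (c : Matrix (Fin m ⊕ Fin m) (Fin m ⊕ Fin m) F) := by
      rw [mul_sub, sub_mul, hcb, mul_one, one_mul]
    have hkey : ∀ x, form m F ((c : Matrix (Fin m ⊕ Fin m) (Fin m ⊕ Fin m) F) *ᵥ x)
        (((b : Matrix (Fin m ⊕ Fin m) (Fin m ⊕ Fin m) F) - 1) *ᵥ
          ((c : Matrix (Fin m ⊕ Fin m) (Fin m ⊕ Fin m) F) *ᵥ x)) =
        form m F x (((a : Matrix (Fin m ⊕ Fin m) (Fin m ⊕ Fin m) F) - 1) *ᵥ x) := by
      intro x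
      rw [Matrix.mulVec_mulVec, ← h3, ← Matrix.mulVec_mulVec, (mem_symp_iff m _).1 c.2]
    constructor
    · have h4 := Matrix.rank_mul_eq_right_of_isUnit_det
        (c : Matrix (Fin m ⊕ Fin m) (Fin m ⊕ Fin m) F)
        ((a : Matrix (Fin m ⊕ Fin m) (Fin m ⊕ Fin m) F) - 1) hdet
      have h5 := Matrix.rank_mul_eq_left_of_isUnit_det
        (c : Matrix (Fin m ⊕ Fin m) (Fin m ⊕ Fin m) F)
        ((b : Matrix (Fin m ⊕ Fin m) (Fin m ⊕ Fin m) F) - 1) hdet
      rw [← h4, h3, h5]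
    · constructor
      · intro h1 x
        have h6 := hkey (((c⁻¹ : ↥(Matrix.symplecticGroup (Fin m) F)) :
          Matrix (Fin m ⊕ Fin m) (Fin m ⊕ Fin m) F) *ᵥ x)
        rw [Matrix.mulVec_mulVec, hcinv, Matrix.one_mulVec, h1] at h6
        exact h6
      · intro h1 x
        rw [← hkey, h1]
  · rintro ⟨hrk, halt⟩
    obtain ⟨G, hG, hGA⟩ := conj_main' (a : Matrix (Fin m ⊕ Fin m) (Fin m ⊕ Fin m) F)
      (b : Matrix (Fin m ⊕ Fin m) (Fin m ⊕ Fin m) F) a.2 b.2 (congrArg Subtype.val ha)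
      (congrArg Subtype.val hb) hrk halt
    rw [isConj_iff]
    refine ⟨⟨G, hG⟩, ?_⟩
    rw [mul_inv_eq_iff_eq_mul]
    exact Subtype.ext hGA

end

/-- Number of conjugacy classes of involutions in the symplectic group Sp_2m(F) over a finite field of characteristic two (m ≥ 1): for each s with 1 ≤ s ≤ m there is one class with rank(t − 1) = s if s is odd and two if s is even (according as v ↦ f(v, tv), f the symplectic form, vanishes identically or not), so m + ⌊m/2⌋ classes in all. -/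
theorem result {F : Type*} [Field F] [Fintype F] [CharP F 2] {m : ℕ} (hm : 1 ≤ m) : Nat.card {C : ConjClasses ↥(Matrix.symplecticGroup (Fin m) F) // ∃ g : Matrix.symplecticGroup (Fin m) F, ConjClasses.mk g = C ∧ orderOf g = 2} = m + m / 2 := by
  classical
  have hsq : ∀ c : ↥(Matrix.symplecticGroup (Fin m) F), orderOf c = 2 → c * c = 1 := by
    intro c hc
    rw [← pow_two, ← hc]
    exact pow_orderOf_eq_one c
  have hne : ∀ c : ↥(Matrix.symplecticGroup (Fin m) F), orderOf c = 2 →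
      ((c : Matrix (Fin m ⊕ Fin m) (Fin m ⊕ Fin m) F) - 1).rank ≠ 0 := by
    intro c hc h0
    have h1 : c = 1 := Subtype.ext (eq_one_of_rank _ h0)
    rw [h1, orderOf_one] at hc
    omega
  have hord : ∀ c : ↥(Matrix.symplecticGroup (Fin m) F), c * c = 1 →
      ((c : Matrix (Fin m ⊕ Fin m) (Fin m ⊕ Fin m) F) - 1).rank ≠ 0 → orderOf c = 2 := by
    intro c hc h0
    apply orderOf_eq_prime
    · rw [pow_two, hc]
    · rintro rfl
      apply h0
      show ((1 : Matrix (Fin m ⊕ Fin m) (Fin m ⊕ Fin m) F) - 1).rank = 0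
      rw [sub_self, Matrix.rank_zero]
  have hstd : ∀ x : Fin m ⊕ Fin (m / 2), ∃ t : ↥(Matrix.symplecticGroup (Fin m) F), t * t = 1 ∧
      ((t : Matrix (Fin m ⊕ Fin m) (Fin m ⊕ Fin m) F) - 1).rank =
        Sum.elim (fun i : Fin m => (i : ℕ) + 1) (fun j : Fin (m / 2) => ((j : ℕ) + 1) + ((j : ℕ) + 1)) x ∧
      ((∀ y, Cfsg.Agent.Lib.Helper13.SympMat.form m F y
        (((t : Matrix (Fin m ⊕ Fin m) (Fin m ⊕ Fin m) F) - 1) *ᵥ y) = 0) ↔ x.isRight = true) := by
    intro x
    rcases x with i | j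
    · obtain ⟨t, h1, h2, h3⟩ := exists_nalt (F := F) (m := m) ((i : ℕ) + 1) (by omega)
        (by have := i.2; omega)
      exact ⟨t, h1, h2, by simpa using h3⟩
    · obtain ⟨t, h1, h2, h3⟩ := exists_alt (F := F) (m := m) ((j : ℕ) + 1)
        (by have := j.2; omega)
      exact ⟨t, h1, h2, by simpa using h3⟩
  choose std hstd1 hstd2 hstd3 using hstd
  have hstdord : ∀ x, orderOf (std x) = 2 := by
    intro x
    apply hord _ (hstd1 x)
    rw [hstd2]
    rcases x with i | j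
    · simp
    · simp
  have hbij : Function.Bijective (fun x : Fin m ⊕ Fin (m / 2) =>
      (⟨ConjClasses.mk (std x), std x, rfl, hstdord x⟩ :
        {C : ConjClasses ↥(Matrix.symplecticGroup (Fin m) F) //
          ∃ g : Matrix.symplecticGroup (Fin m) F, ConjClasses.mk g = C ∧ orderOf g = 2})) := by
    constructor
    · intro x y hxy
      have h1 : ConjClasses.mk (std x) = ConjClasses.mk (std y) := congrArg Subtype.val hxy
      rw [ConjClasses.mk_eq_mk_iff_isConj, conj_iff _ _ (hstd1 x) (hstd1 y), hstd2, hstd2,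
        hstd3, hstd3] at h1
      obtain ⟨h2, h3⟩ := h1
      rcases x with i | j <;> rcases y with i' | j'
      · simp only [Sum.elim_inl] at h2
        congr 1
        exact Fin.ext (by omega)
      · simp at h3
      · simp at h3
      · simp only [Sum.elim_inr] at h2
        congr 1
        exact Fin.ext (by omega)
    · rintro ⟨C, g, rfl, hg⟩
      have hgg := hsq g hg
      have hg0 := hne g hg
      obtain ⟨hN2, hadj, -⟩ := Cfsg.Agent.S2166.invol_N
        (g : Matrix (Fin m ⊕ Fin m) (Fin m ⊕ Fin m) F) g.2 (congrArg Subtype.val hgg)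
      have hle := rank_le_of_sq _ hN2
      by_cases halt : ∀ y, Cfsg.Agent.Lib.Helper13.SympMat.form m F y
          (((g : Matrix (Fin m ⊕ Fin m) (Fin m ⊕ Fin m) F) - 1) *ᵥ y) = 0
      · obtain ⟨l, hl, -⟩ := Cfsg.Agent.S2166.frame_alt _ hN2 hadj halt
        refine ⟨Sum.inr ⟨l - 1, by omega⟩, ?_⟩
        apply Subtype.ext
        show ConjClasses.mk (std _) = ConjClasses.mk g
        rw [ConjClasses.mk_eq_mk_iff_isConj, conj_iff _ _ (hstd1 _) hgg, hstd2, hstd3]
        refine ⟨?_, ?_⟩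
        · simp only [Sum.elim_inr]
          omega
        · simp [halt]
      · refine ⟨Sum.inl ⟨((g : Matrix (Fin m ⊕ Fin m) (Fin m ⊕ Fin m) F) - 1).rank - 1,
          by omega⟩, ?_⟩
        apply Subtype.ext
        show ConjClasses.mk (std _) = ConjClasses.mk g
        rw [ConjClasses.mk_eq_mk_iff_isConj, conj_iff _ _ (hstd1 _) hgg, hstd2, hstd3]
        refine ⟨?_, ?_⟩
        · simp only [Sum.elim_inl]
          omega
        · simp [halt]
  rw [← Nat.card_congr (Equiv.ofBijective _ hbij), Nat.card_eq_fintype_card, Fintype.card_sum,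
    Fintype.card_fin, Fintype.card_fin]

end Cfsg.Agent.S2593
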