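import Cfsg.Statements.S2606
-- import your own Cfsg.Agent.* helpers here
import Mathlib
import Cfsg.Agent.S2696
import Cfsg.Agent.S2728
import Cfsg.Agent.S2729
import Cfsg.Agent.Lib.Helper43.M3Out

set_option autoImplicit false
open Cfsg

namespace Cfsg.Agent.S2606



/-- Outer automorphism group of PΩ⁻_2m(q), m ≥ 4, q = p^f odd: it is dihedral of order 8 times cyclic of order f when q ≡ 3 (mod 4) and m is odd, and otherwise the direct product of a group of order 2 with a cyclic group of order 2f. -/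
theorem result {F : Type*} [Field F] [Fintype F] {p f m : ℕ} [Fact p.Prime] (hf : 1 ≤ f) (hF : Fintype.card F = p ^ f) (hp : p ≠ 2) (hm : 4 ≤ m) (a b : F) (hab : ∀ z₁ z₂ : F, z₁ ^ 2 + a * z₁ * z₂ + b * z₂ ^ 2 = 0 → z₁ = 0 ∧ z₂ = 0) : if p ^ f % 4 = 3 ∧ Odd m then Nonempty (Cfsg.Out (Cfsg.POmega F (Cfsg.quadFormMinus (m - 1) F a b)) ≃* DihedralGroup 4 × Multiplicative (ZMod f)) else Nonempty (Cfsg.Out (Cfsg.POmega F (Cfsg.quadFormMinus (m - 1) F a b)) ≃* Multiplicative (ZMod 2 × ZMod (2 * f))) := by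
  haveI : CharP F p := Cfsg.Agent.Lib.Helper43.M3Out.charP_of_card hf hF
  have hpodd : Odd p := (Fact.out : p.Prime).odd_of_ne_two hp
  have hodd : Odd (Fintype.card F) := by
    rw [hF]
    exact hpodd.pow
  have h2 : (2 : F) ≠ 0 := Cfsg.Agent.Lib.Helper44.FinSq.two_ne_zero_of_odd_card hodd
  have hΓ := Cfsg.Agent.S2696.result (m := m - 1) (by omega) a b hab
  have h28 := Cfsg.Agent.S2728.result hodd (m := m - 1) (by omega) a b hab
  have h29 := Cfsg.Agent.S2729.result hodd (m := m - 1) (by omega) a b hab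
  split_ifs with h
  · have hc : Even (m - 1) ∧ Fintype.card F % 4 = 3 := by
      refine ⟨?_, by rw [hF]; exact h.1⟩
      obtain ⟨k, hk⟩ := h.2
      exact ⟨k, by omega⟩
    exact Cfsg.Agent.Lib.Helper43.M3Out.out_A p h2 (by omega) a b hab f
      (Cfsg.Agent.Lib.Helper43.M3Out.odd_of_pow_mod h.1) hF hΓ (h28.1 hc) (h29.1 hc)
  · have hc : ¬ (Even (m - 1) ∧ Fintype.card F % 4 = 3) := by
      rintro ⟨h1, h3⟩
      apply h
      refine ⟨by rw [← hF]; exact h3, ?_⟩
      obtain ⟨k, hk⟩ := h1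
      exact ⟨k, by omega⟩
    exact Cfsg.Agent.Lib.Helper43.M3Out.out_B p h2 (by omega) a b hab f (by omega) hF hΓ
      (h28.2 hc) (h29.2 hc)

end Cfsg.Agent.S2606
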