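import Cfsg.Statements.S2618
import Cfsg.Agent.Lib.Helper44.QBasis

set_option autoImplicit false
open Cfsg

namespace Cfsg.Agent.S2618

open Module QuadraticMap
open Cfsg.Agent.Lib.Helper44.QSpace Cfsg.Agent.Lib.Helper44.QClass Cfsg.Agent.Lib.Helper44.QBasis

/-- Standard (parabolic) basis of a non-degenerate quadratic space of odd dimension 2m + 1 over a finite field. -/
theorem result {F V : Type*} [Field F] [Finite F] [AddCommGroup V] [Module F V] [FiniteDimensional F V] {m : ℕ} (hV : Module.finrank F V = 2 * m + 1) (Q : QuadraticForm F V) (hQ : (QuadraticMap.polarBilin Q).Nondegenerate) : ∃ b : Module.Basis (Unit ⊕ (Fin m ⊕ Fin m)) F V, Q (b (Sum.inl ())) ≠ 0 ∧ (∀ i, QuadraticMap.polar ⇑Q (b (Sum.inl ())) (b (Sum.inr (Sum.inl i))) = 0 ∧ QuadraticMap.polar ⇑Q (b (Sum.inl ())) (b (Sum.inr (Sum.inr i))) = 0) ∧ (∀ i, Q (b (Sum.inr (Sum.inl i))) = 0 ∧ Q (b (Sum.inr (Sum.inr i))) = 0) ∧ (∀ i j, QuadraticMap.polar ⇑Q (b (Sum.inr (Sum.inl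 i))) (b (Sum.inr (Sum.inr j))) = if i = j then 1 else 0) ∧ (∀ i j, QuadraticMap.polar ⇑Q (b (Sum.inr (Sum.inl i))) (b (Sum.inr (Sum.inl j))) = 0 ∧ QuadraticMap.polar ⇑Q (b (Sum.inr (Sum.inr i))) (b (Sum.inr (Sum.inr j))) = 0) := by
  obtain ⟨e, f, x, hH, hx, hxe, hxf⟩ := exists_hyp_odd m V Q hV (sep_of_nondegenerate hQ)
  have hx0 : x ≠ 0 := by
    rintro rfl
    simp at hx
  have hr : LinearIndependent F (fun _ : Unit => x) := by
    rw [Fintype.linearIndependent_iff]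
    intro g hg i
    simp only [Finset.univ_unique, Finset.sum_singleton] at hg
    rcases smul_eq_zero.mp hg with h | h
    · exact h
    · exact absurd h hx0
  obtain ⟨b, hb⟩ := exists_hyp_basis hH (fun _ : Unit => x) hr
    (fun i _ => by rw [polar_comm]; exact hxe i) (fun i _ => by rw [polar_comm]; exact hxf i)
    (by simp; omega)
  obtain ⟨h1, h2, h3, h4, h5⟩ := hH
  refine ⟨b.reindex (Equiv.sumComm _ _), ?_, ?_, ?_, ?_, ?_⟩
  · simpa [Basis.reindex_apply, hb] using hx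
  · intro i
    simp only [Basis.reindex_apply, hb, Equiv.sumComm_symm, Equiv.sumComm_apply, Sum.swap_inl,
      Sum.swap_inr, Sum.elim_inl, Sum.elim_inr]
    exact ⟨hxe i, hxf i⟩
  · intro i
    simp only [Basis.reindex_apply, hb, Equiv.sumComm_symm, Equiv.sumComm_apply, Sum.swap_inl,
      Sum.swap_inr, Sum.elim_inl, Sum.elim_inr]
    exact ⟨h1 i, h2 i⟩
  · intro i j
    simp only [Basis.reindex_apply, hb, Equiv.sumComm_symm, Equiv.sumComm_apply, Sum.swap_inl,
      Sum.swap_inr, Sum.elim_inl, Sum.elim_inr]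
    exact h3 i j
  · intro i j
    simp only [Basis.reindex_apply, hb, Equiv.sumComm_symm, Equiv.sumComm_apply, Sum.swap_inl,
      Sum.swap_inr, Sum.elim_inl, Sum.elim_inr]
    exact ⟨h4 i j, h5 i j⟩

end Cfsg.Agent.S2618
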