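import Cfsg.Statements.S2648
-- import your own Cfsg.Agent.* helpers here
import Mathlib
import Cfsg.Agent.Lib.Helper42.DerLenB
import Cfsg.Agent.Lib.Helper42.SpWr

set_option autoImplicit false
open Cfsg

namespace Cfsg.Agent.S2648

theorem upper {F : Type*} [Field F] [Fintype F] [DecidableEq F] (h2 : (2 : F) ≠ 0) (n : ℕ)
    (R : Sylow 2 ↥(Matrix.symplecticGroup (Fin n) F)) :
    derivedSeries ↥(R : Subgroup ↥(Matrix.symplecticGroup (Fin n) F))
      (Nat.log 2 (2 * n) + 1) = ⊥ := by
  obtain ⟨ρ, hρ⟩ : ∃ ρ : ↥(R : Subgroup ↥(Matrix.symplecticGroup (Fin n) F)) →*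
      Module.End (AlgebraicClosure F) (Fin n ⊕ Fin n → AlgebraicClosure F),
      ∀ g, ρ g = Matrix.toLin' ((g.1.1).map (algebraMap F (AlgebraicClosure F))) :=
    ⟨{ toFun := fun g => Matrix.toLin' ((g.1.1).map (algebraMap F (AlgebraicClosure F)))
       map_one' := by
         show Matrix.toLin' ((1 : Matrix (Fin n ⊕ Fin n) (Fin n ⊕ Fin n) F).map
           (algebraMap F (AlgebraicClosure F))) = 1
         rw [Matrix.map_one _ (map_zero _) (map_one _), Matrix.toLin'_one]
         rfl
       map_mul' := fun g h => by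
         show Matrix.toLin' ((g.1.1 * h.1.1).map (algebraMap F (AlgebraicClosure F))) = _
         rw [Matrix.map_mul, Matrix.toLin'_mul]
         rfl }, fun g => rfl⟩
  have hinj : Function.Injective ρ := by
    intro g h hgh
    rw [hρ, hρ] at hgh
    have h1 := Matrix.toLin'.injective hgh
    have h3 : g.1.1 = h.1.1 :=
      Matrix.map_injective (algebraMap F (AlgebraicClosure F)).injective h1
    exact Subtype.ext (Subtype.ext h3)
  have h2L : ((2 : ℕ) : AlgebraicClosure F) ≠ 0 := by
    have e : ((2 : ℕ) : AlgebraicClosure F) = algebraMap F (AlgebraicClosure F) 2 := by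
      rw [Nat.cast_ofNat]
      exact (map_ofNat (algebraMap F (AlgebraicClosure F)) 2).symm
    rw [e]
    exact (map_ne_zero _).mpr h2
  have hfr : Module.finrank (AlgebraicClosure F) (Fin n ⊕ Fin n → AlgebraicClosure F) =
      2 * n := by
    rw [Module.finrank_fintype_fun_eq_card, Fintype.card_sum, Fintype.card_fin]
    ring
  have hb := Cfsg.Agent.Lib.Helper42.DerLenB.main_bound (K := AlgebraicClosure F) (p := 2) h2L
    (2 * n) ↥(R : Subgroup ↥(Matrix.symplecticGroup (Fin n) F)) R.isPGroup'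
    (Fin n ⊕ Fin n → AlgebraicClosure F) hfr ρ
  rw [eq_bot_iff]
  intro g hg
  have h3 := hb hg
  rw [MonoidHom.mem_ker] at h3
  rw [Subgroup.mem_bot]
  exact hinj (h3.trans (map_one ρ).symm)

/-- Let q be odd, F a field with q elements and n ≥ 1. A Sylow 2-subgroup R of the symplectic group Sp_{2n}(F) has derived length exactly k + 1, where 2^k ≤ 2n < 2^{k+1}: the (k+1)-st term of its derived series is trivial and the k-th is not. -/
theorem result {F : Type*} [Field F] [Fintype F] [DecidableEq F] (q : ℕ) (hF : Fintype.card F = q) (hq : Odd q) (n : ℕ) (hn : 1 ≤ n) (R : Sylow 2 ↥(Matrix.symplecticGroup (Fin n) F)) : derivedSeries ↥(R : Subgroup ↥(Matrix.symplecticGroup (Fin n) F)) (Nat.log 2 (2 * n) + 1) = ⊥ ∧ derivedSeries ↥(R : Subgroup ↥(Matrix.symplecticGroup (Fin n) F)) (Nat.log 2 (2 * n)) ≠ ⊥ := by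
  have hodd : Fintype.card F % 2 = 1 := by
    rw [hF]
    exact Nat.odd_iff.mp hq
  have h2 : (2 : F) ≠ 0 := by
    apply Ring.two_ne_zero
    intro hc
    rw [FiniteField.even_card_iff_char_two] at hc
    omega
  refine ⟨upper h2 n R, ?_⟩
  have hlog : Nat.log 2 (2 * n) = Nat.log 2 n + 1 := by
    rw [mul_comm]
    exact Nat.log_mul_base (by norm_num) (by omega)
  rw [hlog]
  exact Cfsg.Agent.Lib.Helper42.SpWr.lower F hodd h2 n hn R

end Cfsg.Agent.S2648
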