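import Cfsg.Statements.S2681
import Mathlib
import Cfsg.Agent.S0775
import Cfsg.Agent.S2166
import Cfsg.Agent.S2593
import Cfsg.Agent.Lib.Helper13.Symp
import Cfsg.Agent.Lib.Helper13.SympMat
import Cfsg.Agent.Lib.Helper5.SpCard

set_option autoImplicit false
open Cfsg

namespace Cfsg.Agent.S2681

open Matrix Cfsg.Agent.Lib.Helper13 Cfsg.Agent.Lib.Helper13.SympMat

section
variable {F : Type*} [Field F] {m : ℕ}

theorem hinv (g : ↥(Matrix.symplecticGroup (Fin m) F)) (x : (Fin m ⊕ Fin m → F)) : ((g⁻¹ : ↥(Matrix.symplecticGroup (Fin m) F)) : Matrix (Fin m ⊕ Fin m) (Fin m ⊕ Fin m) F) *ᵥ (((g : ↥(Matrix.symplecticGroup (Fin m) F)) : Matrix (Fin m ⊕ Fin m) (Fin m ⊕ Fin m) F) *ᵥ x) = x := by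
  rw [Matrix.mulVec_mulVec, ← Submonoid.coe_mul, inv_mul_cancel, Submonoid.coe_one,
    Matrix.one_mulVec]

theorem hinv' (g : ↥(Matrix.symplecticGroup (Fin m) F)) (x : (Fin m ⊕ Fin m → F)) : ((g : ↥(Matrix.symplecticGroup (Fin m) F)) : Matrix (Fin m ⊕ Fin m) (Fin m ⊕ Fin m) F) *ᵥ (((g⁻¹ : ↥(Matrix.symplecticGroup (Fin m) F)) : Matrix (Fin m ⊕ Fin m) (Fin m ⊕ Fin m) F) *ᵥ x) = x := by
  rw [Matrix.mulVec_mulVec, ← Submonoid.coe_mul, mul_inv_cancel, Submonoid.coe_one,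
    Matrix.one_mulVec]

theorem giso (g : ↥(Matrix.symplecticGroup (Fin m) F)) (x y : (Fin m ⊕ Fin m → F)) : form m F (((g : ↥(Matrix.symplecticGroup (Fin m) F)) : Matrix (Fin m ⊕ Fin m) (Fin m ⊕ Fin m) F) *ᵥ x) (((g : ↥(Matrix.symplecticGroup (Fin m) F)) : Matrix (Fin m ⊕ Fin m) (Fin m ⊕ Fin m) F) *ᵥ y) = form m F x y :=
  (mem_symp_iff m _).1 g.2 x y

theorem mem_cent_iff (t g : ↥(Matrix.symplecticGroup (Fin m) F)) :
    g ∈ Subgroup.centralizer ({t} : Set ↥(Matrix.symplecticGroup (Fin m) F)) ↔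
      ∀ y : (Fin m ⊕ Fin m → F), ((g : ↥(Matrix.symplecticGroup (Fin m) F)) : Matrix (Fin m ⊕ Fin m) (Fin m ⊕ Fin m) F) *ᵥ ((((t : ↥(Matrix.symplecticGroup (Fin m) F)) : Matrix (Fin m ⊕ Fin m) (Fin m ⊕ Fin m) F) - 1) *ᵥ (((g⁻¹ : ↥(Matrix.symplecticGroup (Fin m) F)) : Matrix (Fin m ⊕ Fin m) (Fin m ⊕ Fin m) F) *ᵥ y)) = (((t : ↥(Matrix.symplecticGroup (Fin m) F)) : Matrix (Fin m ⊕ Fin m) (Fin m ⊕ Fin m) F) - 1) *ᵥ y := by
  rw [Subgroup.mem_centralizer_iff]
  constructor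
  · intro h y
    have h1 : t * g = g * t := h t rfl
    have h2 : ((t : ↥(Matrix.symplecticGroup (Fin m) F)) : Matrix (Fin m ⊕ Fin m) (Fin m ⊕ Fin m) F) * ((g : ↥(Matrix.symplecticGroup (Fin m) F)) : Matrix (Fin m ⊕ Fin m) (Fin m ⊕ Fin m) F) = ((g : ↥(Matrix.symplecticGroup (Fin m) F)) : Matrix (Fin m ⊕ Fin m) (Fin m ⊕ Fin m) F) * ((t : ↥(Matrix.symplecticGroup (Fin m) F)) : Matrix (Fin m ⊕ Fin m) (Fin m ⊕ Fin m) F) := congrArg Subtype.val h1
    have h3 : ((g : ↥(Matrix.symplecticGroup (Fin m) F)) : Matrix (Fin m ⊕ Fin m) (Fin m ⊕ Fin m) F) * (((t : ↥(Matrix.symplecticGroup (Fin m) F)) : Matrix (Fin m ⊕ Fin m) (Fin m ⊕ Fin m) F) - 1) = (((t : ↥(Matrix.symplecticGroup (Fin m) F)) : Matrix (Fin m ⊕ Fin m) (Fin m ⊕ Fin m) F) - 1) * ((g : ↥(Matrix.symplecticGroup (Fin m) F)) : Matrix (Fin m ⊕ Fin m) (Fin m ⊕ Fin m) F) := by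
      rw [mul_sub, sub_mul, h2, mul_one, one_mul]
    rw [Matrix.mulVec_mulVec, h3, ← Matrix.mulVec_mulVec, hinv']
  · intro h x hx
    rw [Set.mem_singleton_iff] at hx
    subst hx
    apply Subtype.ext
    show ((x : ↥(Matrix.symplecticGroup (Fin m) F)) : Matrix (Fin m ⊕ Fin m) (Fin m ⊕ Fin m) F) * ((g : ↥(Matrix.symplecticGroup (Fin m) F)) : Matrix (Fin m ⊕ Fin m) (Fin m ⊕ Fin m) F) = ((g : ↥(Matrix.symplecticGroup (Fin m) F)) : Matrix (Fin m ⊕ Fin m) (Fin m ⊕ Fin m) F) * ((x : ↥(Matrix.symplecticGroup (Fin m) F)) : Matrix (Fin m ⊕ Fin m) (Fin m ⊕ Fin m) F)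
    have h3 : ((g : ↥(Matrix.symplecticGroup (Fin m) F)) : Matrix (Fin m ⊕ Fin m) (Fin m ⊕ Fin m) F) * (((x : ↥(Matrix.symplecticGroup (Fin m) F)) : Matrix (Fin m ⊕ Fin m) (Fin m ⊕ Fin m) F) - 1) = (((x : ↥(Matrix.symplecticGroup (Fin m) F)) : Matrix (Fin m ⊕ Fin m) (Fin m ⊕ Fin m) F) - 1) * ((g : ↥(Matrix.symplecticGroup (Fin m) F)) : Matrix (Fin m ⊕ Fin m) (Fin m ⊕ Fin m) F) := by
      rw [Matrix.ext_iff_mulVec]
      intro y
      have h4 := h (((g : ↥(Matrix.symplecticGroup (Fin m) F)) : Matrix (Fin m ⊕ Fin m) (Fin m ⊕ Fin m) F) *ᵥ y)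
      rw [hinv] at h4
      rw [← Matrix.mulVec_mulVec, ← Matrix.mulVec_mulVec]
      exact h4
    rw [mul_sub, sub_mul, mul_one, one_mul] at h3
    exact (sub_left_injective h3).symm

theorem nof_mat {ι : Type*} [Fintype ι] [DecidableEq ι] (π : ι → ι) (hπ : ∀ p, π (π p) = p)
    (Pm : Matrix ι ι F) (hPm : ∀ p q, Pm p q = if q = π p then 1 else 0) (e : ι → (Fin m ⊕ Fin m → F))
    (M : Matrix ι ι F) (y : (Fin m ⊕ Fin m → F)) :
    ∑ p, form m F (∑ q, M q (π p) • e q) y • (∑ q, M q p • e q) =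
      ∑ q, (∑ r, (M * Pm * Mᵀ) q r * form m F (e r) y) • e q := by
  have hπ' : Function.Involutive π := hπ
  have hMPm : ∀ q p', (M * Pm) q p' = M q (π p') := by
    intro q p'
    rw [Matrix.mul_apply, Finset.sum_eq_single (π p')]
    · rw [hPm, hπ, if_pos rfl, mul_one]
    · intro p _ hp
      rw [hPm, if_neg, mul_zero]
      intro h
      apply hp
      rw [h, hπ]
    · intro h
      exact absurd (Finset.mem_univ _) h
  have hMM : ∀ q r, (M * Pm * Mᵀ) q r = ∑ p', M q (π p') * M r p' := by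
    intro q r
    rw [Matrix.mul_apply]
    apply Finset.sum_congr rfl
    intro p' _
    rw [hMPm, Matrix.transpose_apply]
  have h1 : ∀ p, form m F (∑ q, M q (π p) • e q) y = ∑ r, M r (π p) * form m F (e r) y := by
    intro p
    simp only [map_sum, map_smul, LinearMap.sum_apply, LinearMap.smul_apply, smul_eq_mul]
  have key : ∀ q, ∑ p, (∑ r, M r (π p) * form m F (e r) y) * M q p =
      ∑ r, (M * Pm * Mᵀ) q r * form m F (e r) y := by
    intro q
    have e1 : ∑ p, (∑ r, M r (π p) * form m F (e r) y) * M q p =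
        ∑ p, (∑ r, M r (π (π p)) * form m F (e r) y) * M q (π p) :=
      (Equiv.sum_comp (Function.Involutive.toPerm π hπ')
        (fun p => (∑ r, M r (π p) * form m F (e r) y) * M q p)).symm
    rw [e1]
    simp only [hπ, hMM, Finset.sum_mul]
    rw [Finset.sum_comm]
    apply Finset.sum_congr rfl
    intro r _
    apply Finset.sum_congr rfl
    intro p _
    ring
  simp only [h1, Finset.smul_sum, smul_smul]
  rw [Finset.sum_comm]
  apply Finset.sum_congr rfl
  intro q _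
  rw [← Finset.sum_smul, key]

theorem frame_iff [CharP F 2] {ι : Type*} [Fintype ι] [DecidableEq ι] (π : ι → ι)
    (hπ : ∀ p, π (π p) = p)
    (Pm : Matrix ι ι F) (hPm : ∀ p q, Pm p q = if q = π p then 1 else 0) (e v : ι → (Fin m ⊕ Fin m → F))
    (hve : ∀ p q, form m F (v p) (e q) = if p = q then 1 else 0)
    (heli : LinearIndependent F e)
    (M : Matrix ι ι F) :
    (∀ y, ∑ p, form m F (∑ q, M q (π p) • e q) y • (∑ q, M q p • e q) = ∑ p, form m F (e (π p)) y • e p) ↔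
      M * Pm * Mᵀ = Pm := by
  have h0 : ∀ y, ∑ p, form m F (e (π p)) y • e p = ∑ q, (∑ r, Pm q r * form m F (e r) y) • e q := by
    intro y
    apply Finset.sum_congr rfl
    intro q _
    congr 1
    rw [Finset.sum_eq_single (π q)]
    · rw [hPm, if_pos rfl, one_mul]
    · intro r _ hr
      rw [hPm, if_neg hr, zero_mul]
    · intro h
      exact absurd (Finset.mem_univ _) h
  constructor
  · intro h
    ext q r₀
    have h1 := h (v r₀)
    rw [nof_mat π hπ Pm hPm, h0] at h1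
    have hinj := linearIndependent_iff_injective_fintypeLinearCombination.1 heli
    have h2 : (fun q => ∑ r, (M * Pm * Mᵀ) q r * form m F (e r) (v r₀)) =
        (fun q => ∑ r, Pm q r * form m F (e r) (v r₀)) := by
      apply hinj
      rw [Fintype.linearCombination_apply, Fintype.linearCombination_apply]
      exact h1
    have h3 := congrFun h2 q
    have hsym : ∀ r, form m F (e r) (v r₀) = if r₀ = r then 1 else 0 := by
      intro r
      rw [← hve, ← (form_alt m).neg_eq, CharTwo.neg_eq]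
    simp only [hsym, mul_ite, mul_one, mul_zero, Finset.sum_ite_eq, Finset.mem_univ, if_true] at h3
    exact h3
  · intro h y
    rw [nof_mat π hπ Pm hPm, h0, h]

theorem card_frames_equiv {ι κ : Type*} [Fintype ι] [Fintype κ] (σ : ι ≃ κ) :
    Nat.card {u : ι → (Fin m ⊕ Fin m → F) // LinearIndependent F u ∧ ∀ p q, form m F (u p) (u q) = 0} =
    Nat.card {u : κ → (Fin m ⊕ Fin m → F) // LinearIndependent F u ∧ ∀ p q, form m F (u p) (u q) = 0} := by
  apply Nat.card_congr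
  refine Equiv.subtypeEquiv (Equiv.arrowCongr σ (Equiv.refl _)) ?_
  intro u
  have h1 : (Equiv.arrowCongr σ (Equiv.refl (Fin m ⊕ Fin m → F))) u = u ∘ σ.symm := rfl
  rw [h1]
  constructor
  · rintro ⟨hu, huu⟩
    exact ⟨hu.comp _ σ.symm.injective, fun p q => huu _ _⟩
  · rintro ⟨hu, huu⟩
    refine ⟨(linearIndependent_equiv σ.symm).1 hu, fun p q => ?_⟩
    have := huu (σ p) (σ q)
    simpa using this

theorem cent_count [Fintype F] [CharP F 2] {ι : Type} [Fintype ι] [DecidableEq ι]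
    (π : ι → ι) (hπ : ∀ p, π (π p) = p) (Pm : Matrix ι ι F)
    (hPm : ∀ p q, Pm p q = if q = π p then 1 else 0)
    (t : ↥(Matrix.symplecticGroup (Fin m) F)) (e v : ι → (Fin m ⊕ Fin m → F))
    (hee : ∀ p q, form m F (e p) (e q) = 0)
    (hve : ∀ p q, form m F (v p) (e q) = if p = q then 1 else 0)
    (hN : ∀ y, (((t : ↥(Matrix.symplecticGroup (Fin m) F)) : Matrix (Fin m ⊕ Fin m) (Fin m ⊕ Fin m) F) - 1) *ᵥ y = ∑ p, form m F (e (π p)) y • e p) :
    Nat.card ↥(Subgroup.centralizer ({t} : Set ↥(Matrix.symplecticGroup (Fin m) F))) *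
      Nat.card {u : ι → (Fin m ⊕ Fin m → F) // LinearIndependent F u ∧ ∀ p q, form m F (u p) (u q) = 0} =
    Nat.card {M : Matrix ι ι F // M * Pm * Mᵀ = Pm} * Nat.card ↥(Matrix.symplecticGroup (Fin m) F) := by
  classical
  have heli : LinearIndependent F e := by
    rw [Fintype.linearIndependent_iff]
    intro c hc i
    have h1 := congrArg (form m F (v i)) hc
    rw [map_sum, map_zero, Finset.sum_eq_single i] at h1
    · rw [map_smul, hve, if_pos rfl, smul_eq_mul, mul_one] at h1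
      exact h1
    · intro j _ hji
      rw [map_smul, hve, if_neg (Ne.symm hji), smul_zero]
    · intro hi
      exact absurd (Finset.mem_univ i) hi
  have hspaniso : ∀ x ∈ Submodule.span F (Set.range e), ∀ y ∈ Submodule.span F (Set.range e),
      form m F x y = 0 := by
    intro x hx y hy
    obtain ⟨c, rfl⟩ := (Submodule.mem_span_range_iff_exists_fun F).1 hx
    obtain ⟨d, rfl⟩ := (Submodule.mem_span_range_iff_exists_fun F).1 hy
    simp only [map_sum, map_smul, LinearMap.sum_apply, LinearMap.smul_apply, hee, smul_zero,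
      Finset.sum_const_zero]
  have htrans : ∀ u : ι → (Fin m ⊕ Fin m → F), LinearIndependent F u → (∀ p q, form m F (u p) (u q) = 0) →
      ∃ A : ↥(Matrix.symplecticGroup (Fin m) F), ∀ p, ((A : ↥(Matrix.symplecticGroup (Fin m) F)) : Matrix (Fin m ⊕ Fin m) (Fin m ⊕ Fin m) F) *ᵥ e p = u p := by
    intro u hu huu
    obtain ⟨σ⟩ : Nonempty (ι ≃ Fin (Fintype.card ι)) := ⟨Fintype.equivFin ι⟩
    obtain ⟨A, hA⟩ := Cfsg.Agent.S0775.frames_trans m (Fintype.card ι) (fun i => e (σ.symm i))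
      (fun i => u (σ.symm i)) (heli.comp _ σ.symm.injective) (hu.comp _ σ.symm.injective)
      (fun i j => hee _ _) (fun i j => huu _ _)
    refine ⟨A, fun p => ?_⟩
    have h1 := hA (σ p)
    rwa [Equiv.symm_apply_apply] at h1
  have hli : ∀ g : ↥(Matrix.symplecticGroup (Fin m) F), LinearIndependent F (fun p => ((g : ↥(Matrix.symplecticGroup (Fin m) F)) : Matrix (Fin m ⊕ Fin m) (Fin m ⊕ Fin m) F) *ᵥ e p) := by
    intro g
    have h1 := heli.map' (SympMat.Φ m g).toLinearMap (LinearEquiv.ker _)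
    have h2 : (fun p => ((g : ↥(Matrix.symplecticGroup (Fin m) F)) : Matrix (Fin m ⊕ Fin m) (Fin m ⊕ Fin m) F) *ᵥ e p) = (SympMat.Φ m g).toLinearMap ∘ e := by
      funext p
      exact (SympMat.Φ_apply m g (e p)).symm
    rw [h2]
    exact h1
  have hconj : ∀ (g : ↥(Matrix.symplecticGroup (Fin m) F)) (y : (Fin m ⊕ Fin m → F)), ((g : ↥(Matrix.symplecticGroup (Fin m) F)) : Matrix (Fin m ⊕ Fin m) (Fin m ⊕ Fin m) F) *ᵥ ((((t : ↥(Matrix.symplecticGroup (Fin m) F)) : Matrix (Fin m ⊕ Fin m) (Fin m ⊕ Fin m) F) - 1) *ᵥ (((g⁻¹ : ↥(Matrix.symplecticGroup (Fin m) F)) : Matrix (Fin m ⊕ Fin m) (Fin m ⊕ Fin m) F) *ᵥ y)) =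
      ∑ p, form m F (((g : ↥(Matrix.symplecticGroup (Fin m) F)) : Matrix (Fin m ⊕ Fin m) (Fin m ⊕ Fin m) F) *ᵥ e (π p)) y • (((g : ↥(Matrix.symplecticGroup (Fin m) F)) : Matrix (Fin m ⊕ Fin m) (Fin m ⊕ Fin m) F) *ᵥ e p) := by
    intro g y
    rw [hN, Matrix.mulVec_sum]
    apply Finset.sum_congr rfl
    intro p _
    rw [Matrix.mulVec_smul]
    congr 1
    have h1 := giso g (e (π p)) (((g⁻¹ : ↥(Matrix.symplecticGroup (Fin m) F)) : Matrix (Fin m ⊕ Fin m) (Fin m ⊕ Fin m) F) *ᵥ y)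
    rw [hinv'] at h1
    exact h1.symm
  have hrk : Module.finrank F (LinearMap.range (((t : ↥(Matrix.symplecticGroup (Fin m) F)) : Matrix (Fin m ⊕ Fin m) (Fin m ⊕ Fin m) F) - 1).mulVecLin) = Fintype.card ι :=
    Cfsg.Agent.S2593.rank_of_frame π hπ _ e v hve hN
  have hrange_e : LinearMap.range (((t : ↥(Matrix.symplecticGroup (Fin m) F)) : Matrix (Fin m ⊕ Fin m) (Fin m ⊕ Fin m) F) - 1).mulVecLin ≤ Submodule.span F (Set.range e) := by
    rintro _ ⟨y, rfl⟩
    rw [Matrix.mulVecLin_apply, hN]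
    exact Submodule.sum_mem _ fun p _ => Submodule.smul_mem _ _ (Submodule.subset_span ⟨p, rfl⟩)
  -- frames of N
  have hY : ∀ u : ι → (Fin m ⊕ Fin m → F), (∀ y, ∑ p, form m F (u (π p)) y • u p = (((t : ↥(Matrix.symplecticGroup (Fin m) F)) : Matrix (Fin m ⊕ Fin m) (Fin m ⊕ Fin m) F) - 1) *ᵥ y) →
      LinearMap.range (((t : ↥(Matrix.symplecticGroup (Fin m) F)) : Matrix (Fin m ⊕ Fin m) (Fin m ⊕ Fin m) F) - 1).mulVecLin = Submodule.span F (Set.range u) := by
    intro u hu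
    have h1 : LinearMap.range (((t : ↥(Matrix.symplecticGroup (Fin m) F)) : Matrix (Fin m ⊕ Fin m) (Fin m ⊕ Fin m) F) - 1).mulVecLin ≤ Submodule.span F (Set.range u) := by
      rintro _ ⟨y, rfl⟩
      rw [Matrix.mulVecLin_apply, ← hu y]
      exact Submodule.sum_mem _ fun p _ =>
        Submodule.smul_mem _ _ (Submodule.subset_span ⟨p, rfl⟩)
    apply Submodule.eq_of_le_of_finrank_le h1
    rw [hrk]
    exact finrank_range_le_card u
  have hYmem : ∀ u : ι → (Fin m ⊕ Fin m → F), (∀ y, ∑ p, form m F (u (π p)) y • u p = (((t : ↥(Matrix.symplecticGroup (Fin m) F)) : Matrix (Fin m ⊕ Fin m) (Fin m ⊕ Fin m) F) - 1) *ᵥ y) →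
      ∀ p, u p ∈ Submodule.span F (Set.range e) := by
    intro u hu p
    apply hrange_e
    rw [hY u hu]
    exact Submodule.subset_span ⟨p, rfl⟩
  have hYli : ∀ u : ι → (Fin m ⊕ Fin m → F), (∀ y, ∑ p, form m F (u (π p)) y • u p = (((t : ↥(Matrix.symplecticGroup (Fin m) F)) : Matrix (Fin m ⊕ Fin m) (Fin m ⊕ Fin m) F) - 1) *ᵥ y) →
      LinearIndependent F u := by
    intro u hu
    rw [linearIndependent_iff_card_eq_finrank_span]
    have h1 : Set.finrank F (Set.range u) = Module.finrank F (Submodule.span F (Set.range u)) :=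
      rfl
    rw [h1, ← hY u hu, hrk]
  -- the pointwise stabiliser of the frame
  let PS : Subgroup ↥(Matrix.symplecticGroup (Fin m) F) :=
    { carrier := {g | ∀ p, ((g : ↥(Matrix.symplecticGroup (Fin m) F)) : Matrix (Fin m ⊕ Fin m) (Fin m ⊕ Fin m) F) *ᵥ e p = e p}
      mul_mem' := by
        intro a b ha hb p
        show ((a * b : ↥(Matrix.symplecticGroup (Fin m) F)) : Matrix (Fin m ⊕ Fin m) (Fin m ⊕ Fin m) F) *ᵥ e p = e p
        rw [Submonoid.coe_mul, ← Matrix.mulVec_mulVec, hb p, ha p]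
      one_mem' := by
        intro p
        show ((1 : ↥(Matrix.symplecticGroup (Fin m) F)) : Matrix (Fin m ⊕ Fin m) (Fin m ⊕ Fin m) F) *ᵥ e p = e p
        rw [Submonoid.coe_one, Matrix.one_mulVec]
      inv_mem' := by
        intro a ha p
        have h1 := hinv a (e p)
        rw [ha p] at h1
        exact h1 }
  have hPS : ∀ g : ↥(Matrix.symplecticGroup (Fin m) F), g ∈ PS ↔ ∀ p, ((g : ↥(Matrix.symplecticGroup (Fin m) F)) : Matrix (Fin m ⊕ Fin m) (Fin m ⊕ Fin m) F) *ᵥ e p = e p := fun g => Iff.rfl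
  have hfibG : ∀ g h : ↥(Matrix.symplecticGroup (Fin m) F),
      ((fun p => ((g : ↥(Matrix.symplecticGroup (Fin m) F)) : Matrix (Fin m ⊕ Fin m) (Fin m ⊕ Fin m) F) *ᵥ e p) = (fun p => ((h : ↥(Matrix.symplecticGroup (Fin m) F)) : Matrix (Fin m ⊕ Fin m) (Fin m ⊕ Fin m) F) *ᵥ e p)) ↔ g⁻¹ * h ∈ PS := by
    intro g h
    rw [hPS]
    constructor
    · intro hgh p
      have h1 : ((g : ↥(Matrix.symplecticGroup (Fin m) F)) : Matrix (Fin m ⊕ Fin m) (Fin m ⊕ Fin m) F) *ᵥ e p = ((h : ↥(Matrix.symplecticGroup (Fin m) F)) : Matrix (Fin m ⊕ Fin m) (Fin m ⊕ Fin m) F) *ᵥ e p := congrFun hgh p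
      rw [Submonoid.coe_mul, ← Matrix.mulVec_mulVec, ← h1, hinv]
    · intro hgh
      funext p
      have h1 := hgh p
      rw [Submonoid.coe_mul, ← Matrix.mulVec_mulVec] at h1
      have h2 := congrArg (fun w => ((g : ↥(Matrix.symplecticGroup (Fin m) F)) : Matrix (Fin m ⊕ Fin m) (Fin m ⊕ Fin m) F) *ᵥ w) h1
      simp only [hinv'] at h2
      exact h2.symm
  have h1 := Cfsg.Agent.S0775.card_fibers
    (fun g : ↥(Matrix.symplecticGroup (Fin m) F) => fun p => ((g : ↥(Matrix.symplecticGroup (Fin m) F)) : Matrix (Fin m ⊕ Fin m) (Fin m ⊕ Fin m) F) *ᵥ e p)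
    {u : ι → (Fin m ⊕ Fin m → F) | LinearIndependent F u ∧ ∀ p q, form m F (u p) (u q) = 0}
    (by
      ext u
      constructor
      · rintro ⟨g, rfl⟩
        refine ⟨hli g, fun p q => ?_⟩
        show form m F (((g : ↥(Matrix.symplecticGroup (Fin m) F)) : Matrix (Fin m ⊕ Fin m) (Fin m ⊕ Fin m) F) *ᵥ e p) (((g : ↥(Matrix.symplecticGroup (Fin m) F)) : Matrix (Fin m ⊕ Fin m) (Fin m ⊕ Fin m) F) *ᵥ e q) = 0
        rw [giso, hee]
      · rintro ⟨hu, huu⟩
        obtain ⟨A, hA⟩ := htrans u hu huu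
        exact ⟨A, funext hA⟩) PS hfibG
  have hPSle : PS ≤ Subgroup.centralizer ({t} : Set ↥(Matrix.symplecticGroup (Fin m) F)) := by
    intro g hg
    rw [mem_cent_iff]
    intro y
    rw [hconj, hN]
    apply Finset.sum_congr rfl
    intro p _
    rw [hg p, hg (π p)]
  have h2 := Cfsg.Agent.S0775.card_fibers
    (fun g : ↥(Subgroup.centralizer ({t} : Set ↥(Matrix.symplecticGroup (Fin m) F))) => fun p => ((g.1 : ↥(Matrix.symplecticGroup (Fin m) F)) : Matrix (Fin m ⊕ Fin m) (Fin m ⊕ Fin m) F) *ᵥ e p)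
    {u : ι → (Fin m ⊕ Fin m → F) | ∀ y, ∑ p, form m F (u (π p)) y • u p = (((t : ↥(Matrix.symplecticGroup (Fin m) F)) : Matrix (Fin m ⊕ Fin m) (Fin m ⊕ Fin m) F) - 1) *ᵥ y}
    (by
      ext u
      constructor
      · rintro ⟨g, rfl⟩
        intro y
        have h3 := (mem_cent_iff t g.1).1 g.2 y
        rw [hconj] at h3
        exact h3
      · intro hu
        have huu : ∀ p q, form m F (u p) (u q) = 0 := fun p q =>
          hspaniso _ (hYmem u hu p) _ (hYmem u hu q)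
        obtain ⟨A, hA⟩ := htrans u (hYli u hu) huu
        refine ⟨⟨A, ?_⟩, funext hA⟩
        rw [mem_cent_iff]
        intro y
        rw [hconj, ← hu y]
        apply Finset.sum_congr rfl
        intro p _
        rw [hA p, hA (π p)])
    (PS.subgroupOf (Subgroup.centralizer ({t} : Set ↥(Matrix.symplecticGroup (Fin m) F))))
    (by
      intro g h
      rw [Subgroup.mem_subgroupOf]
      exact hfibG g.1 h.1)
  rw [Nat.card_congr (Subgroup.subgroupOfEquivOfLe hPSle).toEquiv] at h2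
  -- frames of N versus matrices
  have h3 : Nat.card {M : Matrix ι ι F // M * Pm * Mᵀ = Pm} =
      Nat.card ↥{u : ι → (Fin m ⊕ Fin m → F) | ∀ y, ∑ p, form m F (u (π p)) y • u p = (((t : ↥(Matrix.symplecticGroup (Fin m) F)) : Matrix (Fin m ⊕ Fin m) (Fin m ⊕ Fin m) F) - 1) *ᵥ y} := by
    have hφ : ∀ M : {M : Matrix ι ι F // M * Pm * Mᵀ = Pm},
        (fun p => ∑ q, M.1 q p • e q) ∈
          {u : ι → (Fin m ⊕ Fin m → F) | ∀ y, ∑ p, form m F (u (π p)) y • u p = (((t : ↥(Matrix.symplecticGroup (Fin m) F)) : Matrix (Fin m ⊕ Fin m) (Fin m ⊕ Fin m) F) - 1) *ᵥ y} := by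
      intro M y
      rw [hN]
      exact (frame_iff π hπ Pm hPm e v hve heli M.1).2 M.2 y
    obtain ⟨φ, hφdef⟩ : ∃ φ : {M : Matrix ι ι F // M * Pm * Mᵀ = Pm} →
        ↥{u : ι → (Fin m ⊕ Fin m → F) | ∀ y, ∑ p, form m F (u (π p)) y • u p = (((t : ↥(Matrix.symplecticGroup (Fin m) F)) : Matrix (Fin m ⊕ Fin m) (Fin m ⊕ Fin m) F) - 1) *ᵥ y},
        ∀ M, (φ M).1 = fun p => ∑ q, M.1 q p • e q :=
      ⟨fun M => ⟨_, hφ M⟩, fun M => rfl⟩
    have hinj := linearIndependent_iff_injective_fintypeLinearCombination.1 heli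
    have hbij : Function.Bijective φ := by
      constructor
      · intro M M' hMM'
        have h4 : (fun p => ∑ q, M.1 q p • e q) = (fun p => ∑ q, M'.1 q p • e q) := by
          rw [← hφdef, ← hφdef, hMM']
        apply Subtype.ext
        ext q p
        have h5 := congrFun h4 p
        have h6 : (fun q => M.1 q p) = (fun q => M'.1 q p) := by
          apply hinj
          rw [Fintype.linearCombination_apply, Fintype.linearCombination_apply]
          exact h5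
        exact congrFun h6 q
      · rintro ⟨u, hu⟩
        have hc : ∀ p, ∃ c : ι → F, ∑ q, c q • e q = u p := fun p =>
          (Submodule.mem_span_range_iff_exists_fun F).1 (hYmem u hu p)
        choose c hc using hc
        have hM : (Matrix.of fun q p => c p q) * Pm * (Matrix.of fun q p => c p q)ᵀ = Pm := by
          apply (frame_iff π hπ Pm hPm e v hve heli _).1
          intro y
          simp only [Matrix.of_apply, hc]
          rw [hu y, hN]
        refine ⟨⟨Matrix.of fun q p => c p q, hM⟩, ?_⟩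
        apply Subtype.ext
        rw [hφdef]
        funext p
        simp only [Matrix.of_apply, hc]
    exact Nat.card_congr (Equiv.ofBijective φ hbij)
  have h1' : Nat.card ↥(Matrix.symplecticGroup (Fin m) F) =
      Nat.card {u : ι → (Fin m ⊕ Fin m → F) // LinearIndependent F u ∧ ∀ p q, form m F (u p) (u q) = 0} * Nat.card PS :=
    h1
  rw [h2, h3, h1']
  ring

theorem cent_card [Fintype F] [CharP F 2] {q : ℕ} (hF : Fintype.card F = q)
    {ι : Type} [Fintype ι] [DecidableEq ι]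
    (π : ι → ι) (hπ : ∀ p, π (π p) = p) (Pm : Matrix ι ι F)
    (hPm : ∀ p q, Pm p q = if q = π p then 1 else 0)
    (t : ↥(Matrix.symplecticGroup (Fin m) F)) (e v : ι → (Fin m ⊕ Fin m → F))
    (hee : ∀ p q, form m F (e p) (e q) = 0)
    (hve : ∀ p q, form m F (v p) (e q) = if p = q then 1 else 0)
    (hN : ∀ y, (((t : ↥(Matrix.symplecticGroup (Fin m) F)) : Matrix (Fin m ⊕ Fin m) (Fin m ⊕ Fin m) F) - 1) *ᵥ y = ∑ p, form m F (e (π p)) y • e p)
    (k : ℕ) (hk : Fintype.card ι = k) (hkm : k ≤ m) :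
    Nat.card ↥(Subgroup.centralizer ({t} : Set ↥(Matrix.symplecticGroup (Fin m) F))) =
      Nat.card {M : Matrix ι ι F // M * Pm * Mᵀ = Pm} *
      (q ^ (k * (k + 1) / 2 + 2 * k * (m - k)) * (q ^ ((m - k) ^ 2) *
        ∏ i ∈ Finset.range (m - k), (q ^ (2 * (i + 1)) - 1))) := by
  classical
  have hcount := cent_count π hπ Pm hPm t e v hee hve hN
  have heli : LinearIndependent F e := by
    rw [Fintype.linearIndependent_iff]
    intro c hc i
    have h1 := congrArg (form m F (v i)) hc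
    rw [map_sum, map_zero, Finset.sum_eq_single i] at h1
    · rw [map_smul, hve, if_pos rfl, smul_eq_mul, mul_one] at h1
      exact h1
    · intro j _ hji
      rw [map_smul, hve, if_neg (Ne.symm hji), smul_zero]
    · intro hi
      exact absurd (Finset.mem_univ i) hi
  have hpos : 0 < Nat.card {u : ι → (Fin m ⊕ Fin m → F) // LinearIndependent F u ∧ ∀ p q, form m F (u p) (u q) = 0} := by
    have : Nonempty {u : ι → (Fin m ⊕ Fin m → F) // LinearIndependent F u ∧ ∀ p q, form m F (u p) (u q) = 0} :=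
      ⟨⟨e, heli, hee⟩⟩
    exact Nat.card_pos
  have hFr : Nat.card {u : ι → (Fin m ⊕ Fin m → F) // LinearIndependent F u ∧ ∀ p q, form m F (u p) (u q) = 0} =
      ∏ i ∈ Finset.range k, (q ^ (2 * m - i) - q ^ i) := by
    rw [card_frames_equiv (Fintype.equivFinOfCardEq hk), ← hF]
    exact Cfsg.Agent.S0775.card_frames (F := F) m k hkm
  have hSp := Cfsg.Agent.Lib.Helper5.SpCard.card_symplectic (F := F) m
  rw [hF] at hSp
  have harith := Cfsg.Agent.S0775.arith q m k hkm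
  rw [hFr] at hpos
  rw [hFr, hSp, ← harith] at hcount
  apply Nat.eq_of_mul_eq_mul_right hpos
  rw [hcount]
  ring

theorem exp_eq (m k : ℕ) (hk : k ≤ m) :
    2 * m * k - (3 * k ^ 2 - k) / 2 = k * (k + 1) / 2 + 2 * k * (m - k) := by
  obtain ⟨r, rfl⟩ : ∃ r, m = k + r := ⟨m - k, by omega⟩
  obtain ⟨K, hK⟩ : ∃ K, K = k ^ 2 := ⟨_, rfl⟩
  obtain ⟨R, hR⟩ : ∃ R, R = k * r := ⟨_, rfl⟩
  have h1 : 2 * (k + r) * k = 2 * K + 2 * R := by rw [hK, hR]; ring
  have h2 : 2 * k * (k + r - k) = 2 * R := by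
    rw [hR, Nat.add_sub_cancel_left]
    ring
  have h3 : k * (k + 1) = K + k := by rw [hK]; ring
  have h4 : k ≤ K := by
    rw [hK]
    nlinarith
  have h5 : (K + k) % 2 = 0 := by
    rw [← h3]
    exact Nat.even_iff.1 (Nat.even_mul_succ_self k)
  rw [h1, h2, h3, ← hK]
  omega

end

/-- Centraliser order of an involution t of Sp_2m(q), q even, with s = rank(t − 1) even and f(v, tv) = 0 for every v, f the symplectic form (type a_s): |C(t)| = q^(2ms − (3s² − s)/2) · |Sp_s(q)| · |Sp_(2m−2s)(q)|. -/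
theorem result {F : Type*} [Field F] [Fintype F] [CharP F 2] {q : ℕ} (hF : Fintype.card F = q) {m s : ℕ} (t : Matrix.symplecticGroup (Fin m) F) (ht : t ^ 2 = 1) (ht1 : t ≠ 1) (hs : ((t : Matrix (Fin m ⊕ Fin m) (Fin m ⊕ Fin m) F) - 1).rank = s) (heven : Even s) (halt : ∀ v : Fin m ⊕ Fin m → F, Cfsg.sympForm m F v ((t : Matrix (Fin m ⊕ Fin m) (Fin m ⊕ Fin m) F).mulVec v) = 0) : Nat.card ↥(Subgroup.centralizer ({t} : Set ↥(Matrix.symplecticGroup (Fin m) F))) = q ^ (2 * m * s - (3 * s ^ 2 - s) / 2) * ((q : ℕ) ^ ((s / 2) ^ 2) * ∏ i : Fin (s / 2), (q ^ (2 * ((i : ℕ) + 1)) - 1)) * ((q : ℕ) ^ ((m - s) ^ 2) * ∏ i : Fin (m - s), (q ^ (2 * ((i : ℕ) + 1)) - 1)) := by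
  classical
  have hsq : ((t : ↥(Matrix.symplecticGroup (Fin m) F)) : Matrix (Fin m ⊕ Fin m) (Fin m ⊕ Fin m) F) * ((t : ↥(Matrix.symplecticGroup (Fin m) F)) : Matrix (Fin m ⊕ Fin m) (Fin m ⊕ Fin m) F) = 1 := by
    have h1 : t * t = 1 := by
      rw [← pow_two]
      exact ht
    exact congrArg Subtype.val h1
  obtain ⟨hN2, hadj, hform⟩ := Cfsg.Agent.S2166.invol_N ((t : ↥(Matrix.symplecticGroup (Fin m) F)) : Matrix (Fin m ⊕ Fin m) (Fin m ⊕ Fin m) F) t.2 hsq
  have halt' : ∀ x, Cfsg.Agent.Lib.Helper13.SympMat.form m F x ((((t : ↥(Matrix.symplecticGroup (Fin m) F)) : Matrix (Fin m ⊕ Fin m) (Fin m ⊕ Fin m) F) - 1) *ᵥ x) = 0 := fun x => by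
    rw [← hform]
    exact halt x
  obtain ⟨l, hl, e, v, hee, hve, hN⟩ := Cfsg.Agent.S2166.frame_alt (((t : ↥(Matrix.symplecticGroup (Fin m) F)) : Matrix (Fin m ⊕ Fin m) (Fin m ⊕ Fin m) F) - 1) hN2 hadj halt'
  have hle := Cfsg.Agent.S2593.rank_le_of_sq _ hN2
  have hsl : s = l + l := by rw [← hs, hl]
  subst hsl
  have hJ : ∀ p q : Fin l ⊕ Fin l,
      Matrix.J (Fin l) F p q = if q = Sum.swap p then 1 else 0 := by
    intro p q
    rcases p with i | i <;> rcases q with j | j <;>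
      simp [Matrix.J, Matrix.one_apply, eq_comm, CharTwo.neg_eq]
  have hcard := cent_card hF Sum.swap Sum.swap_swap (Matrix.J (Fin l) F) hJ t e v hee hve hN
    (l + l) (by simp) (by omega)
  have hO : Nat.card {M : Matrix (Fin l ⊕ Fin l) (Fin l ⊕ Fin l) F //
      M * Matrix.J (Fin l) F * Mᵀ = Matrix.J (Fin l) F} =
      q ^ (l ^ 2) * ∏ i ∈ Finset.range l, (q ^ (2 * (i + 1)) - 1) := by
    rw [← hF, ← Cfsg.Agent.Lib.Helper5.SpCard.card_symplectic l]
    exact Nat.card_congr (Equiv.subtypeEquivRight (fun M => SymplecticGroup.mem_iff.symm))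
  rw [hcard, hO, exp_eq m (l + l) (by omega)]
  have h2 : (l + l) / 2 = l := by omega
  rw [h2, Fin.prod_univ_eq_prod_range (fun i => q ^ (2 * (i + 1)) - 1) l,
    Fin.prod_univ_eq_prod_range (fun i => q ^ (2 * (i + 1)) - 1) (m - (l + l))]
  ring

end Cfsg.Agent.S2681
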