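import Cfsg.Statements.S2680
import Mathlib
import Cfsg.Agent.S0775
import Cfsg.Agent.S2166
import Cfsg.Agent.S2593
import Cfsg.Agent.S2681
import Cfsg.Agent.Lib.Helper13.Symp
import Cfsg.Agent.Lib.Helper13.SympMat
import Cfsg.Agent.Lib.Helper5.SpCard

set_option autoImplicit false
open Cfsg

namespace Cfsg.Agent.S2680

open Matrix Cfsg.Agent.Lib.Helper13 Cfsg.Agent.Lib.Helper13.SympMat

section
variable {F : Type*} [Field F]

/-- the isometry group of the dot product, as a subgroup of GL -/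
def Og (ι : Type*) [Fintype ι] [DecidableEq ι] (F : Type*) [Field F] : Subgroup (GL ι F) where
  carrier := {g | (g : Matrix ι ι F) * (g : Matrix ι ι F)ᵀ = 1}
  mul_mem' := by
    intro a b ha hb
    show ((a * b : GL ι F) : Matrix ι ι F) * ((a * b : GL ι F) : Matrix ι ι F)ᵀ = 1
    rw [Units.val_mul, Matrix.transpose_mul, Matrix.mul_assoc,
      ← Matrix.mul_assoc (b : Matrix ι ι F), hb, Matrix.one_mul, ha]
  one_mem' := by
    show ((1 : GL ι F) : Matrix ι ι F) * ((1 : GL ι F) : Matrix ι ι F)ᵀ = 1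
    rw [Units.val_one, Matrix.transpose_one, Matrix.one_mul]
  inv_mem' := by
    intro a ha
    have h1 : ((a⁻¹ : GL ι F) : Matrix ι ι F) = (a : Matrix ι ι F)ᵀ := by
      calc ((a⁻¹ : GL ι F) : Matrix ι ι F)
          = ((a⁻¹ : GL ι F) : Matrix ι ι F) * ((a : Matrix ι ι F) * (a : Matrix ι ι F)ᵀ) := by
            rw [ha, Matrix.mul_one]
        _ = (a : Matrix ι ι F)ᵀ := by
            rw [← Matrix.mul_assoc, Units.inv_mul, Matrix.one_mul]
    show ((a⁻¹ : GL ι F) : Matrix ι ι F) * ((a⁻¹ : GL ι F) : Matrix ι ι F)ᵀ = 1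
    rw [h1, Matrix.transpose_transpose]
    exact mul_eq_one_comm.1 ha

theorem card_Og {ι : Type*} [Fintype ι] [DecidableEq ι] :
    Nat.card {M : Matrix ι ι F // M * Mᵀ = 1} = Nat.card ↥(Og ι F) := by
  apply Nat.card_congr
  exact
    { toFun := fun M => ⟨⟨M.1, M.1ᵀ, M.2, mul_eq_one_comm.1 M.2⟩, M.2⟩
      invFun := fun g => ⟨(g.1 : Matrix ι ι F), g.2⟩
      left_inv := fun M => rfl
      right_inv := fun g => Subtype.ext (Units.ext rfl) }

theorem sub_orth {α β : Type*} [Fintype α] [DecidableEq α] [Fintype β] [DecidableEq β]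
    (τ : β ≃ α) (M : Matrix α α F) (h : M * Mᵀ = 1) :
    (M.submatrix τ τ) * (M.submatrix τ τ)ᵀ = 1 := by
  rw [Matrix.transpose_submatrix, Matrix.submatrix_mul_equiv, h, Matrix.submatrix_one_equiv]

theorem card_OM_equiv {ι κ : Type*} [Fintype ι] [DecidableEq ι] [Fintype κ] [DecidableEq κ]
    (σ : ι ≃ κ) :
    Nat.card {M : Matrix ι ι F // M * Mᵀ = 1} = Nat.card {M : Matrix κ κ F // M * Mᵀ = 1} := by
  apply Nat.card_congr
  exact
    { toFun := fun M => ⟨M.1.submatrix σ.symm σ.symm, sub_orth σ.symm M.1 M.2⟩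
      invFun := fun M => ⟨M.1.submatrix σ σ, sub_orth σ M.1 M.2⟩
      left_inv := fun M => Subtype.ext (by
        ext i j
        simp)
      right_inv := fun M => Subtype.ext (by
        ext i j
        simp) }

theorem dot_iso {ι : Type*} [Fintype ι] [DecidableEq ι] (M : Matrix ι ι F) (hM : M * Mᵀ = 1)
    (x y : ι → F) : (M *ᵥ x) ⬝ᵥ (M *ᵥ y) = x ⬝ᵥ y := by
  have h' : Mᵀ * M = 1 := mul_eq_one_comm.1 hM
  rw [← Matrix.vecMul_transpose M x, ← Matrix.dotProduct_mulVec, Matrix.mulVec_mulVec, h',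
    Matrix.one_mulVec]

theorem dot_self [CharP F 2] {ι : Type*} [Fintype ι] (x : ι → F) :
    x ⬝ᵥ x = (∑ i, x i) ^ 2 := by
  rw [sum_pow_char 2]
  simp only [dotProduct, pow_two]

theorem one_dot {ι : Type*} [Fintype ι] (x : ι → F) : (fun _ => (1 : F)) ⬝ᵥ x = ∑ i, x i := by
  simp only [dotProduct, one_mul]

theorem sq_eq_one [CharP F 2] (a : F) (h : a ^ 2 = 1) : a = 1 := by
  have h1 : (a + 1) ^ 2 = 0 := by
    have h2 : (a + 1) ^ 2 = a ^ 2 + 1 + (a + a) := by ring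
    rw [h2, h, CharTwo.add_self_eq_zero, CharTwo.add_self_eq_zero, add_zero]
  have h3 : a + 1 = 0 := (pow_eq_zero_iff (two_ne_zero)).1 h1
  rw [← CharTwo.neg_eq (1 : F)]
  exact eq_neg_of_add_eq_zero_left h3

theorem im_sub [CharP F 2] {n : ℕ} (hn : 1 ≤ n)
    (M : Matrix (Fin n ⊕ Unit) (Fin n ⊕ Unit) F) (hM : M * Mᵀ = 1) :
    (M *ᵥ Pi.single (Sum.inr ()) 1) ⬝ᵥ (M *ᵥ Pi.single (Sum.inr ()) 1) = 1 ∧
      M *ᵥ Pi.single (Sum.inr ()) 1 ≠ fun _ => 1 := by
  constructor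
  · rw [dot_iso M hM, dotProduct_single, Pi.single_eq_same, mul_one]
  · intro hd
    have h1 := dot_iso M hM (Pi.single (Sum.inl ⟨0, hn⟩) 1) (Pi.single (Sum.inr ()) 1)
    rw [hd, dotProduct_single, Pi.single_apply, if_neg (by simp), zero_mul, dotProduct_comm,
      one_dot] at h1
    have h2 := dot_iso M hM (Pi.single (Sum.inl ⟨0, hn⟩) 1) (Pi.single (Sum.inl ⟨0, hn⟩) 1)
    rw [dot_self, h1, dotProduct_single, Pi.single_eq_same, mul_one] at h2
    simp at h2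

theorem im_sup [Finite F] [CharP F 2] {n : ℕ} (x : Fin n ⊕ Unit → F) (hx : x ⬝ᵥ x = 1)
    (hxd : x ≠ fun _ => 1) :
    ∃ M : Matrix (Fin n ⊕ Unit) (Fin n ⊕ Unit) F, M * Mᵀ = 1 ∧
      M *ᵥ Pi.single (Sum.inr ()) 1 = x := by
  classical
  obtain ⟨D, hD⟩ : ∃ D : LinearMap.BilinForm F (Fin n ⊕ Unit → F), ∀ u w, D u w = u ⬝ᵥ w :=
    ⟨Matrix.toBilin' 1, fun u w => by rw [Matrix.toBilin'_apply', Matrix.one_mulVec]⟩
  obtain ⟨U, hU⟩ : ∃ U : Submodule F (Fin n ⊕ Unit → F), U = LinearMap.ker (D x) := ⟨_, rfl⟩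
  have hUmem : ∀ y, y ∈ U ↔ x ⬝ᵥ y = 0 := by
    intro y
    rw [hU, LinearMap.mem_ker, hD]
  have hfr : Module.finrank F U = n := by
    have h1 := LinearMap.finrank_range_add_finrank_ker (D x)
    have h2 : LinearMap.range (D x) = ⊤ := by
      rw [LinearMap.range_eq_top]
      intro c
      refine ⟨c • x, ?_⟩
      rw [map_smul, hD, hx, smul_eq_mul, mul_one]
    rw [h2, finrank_top, Module.finrank_self, ← hU, Module.finrank_fintype_fun_eq_card,
      Fintype.card_sum, Fintype.card_fin, Fintype.card_unit] at h1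
    omega
  obtain ⟨β, hβ⟩ : ∃ β : LinearMap.BilinForm F U,
      ∀ a b : U, β a b = (a : Fin n ⊕ Unit → F) ⬝ᵥ (b : Fin n ⊕ Unit → F) :=
    ⟨D.domRestrict₁₂ U U, fun a b => hD _ _⟩
  have hS : ∀ a b, β a b = β b a := fun a b => by rw [hβ, hβ, dotProduct_comm]
  have hxd1 : x ⬝ᵥ (fun _ => (1 : F)) = 1 := by
    apply sq_eq_one
    rw [dotProduct_comm, one_dot, ← dot_self, hx]
  have hnd : ∀ a : U, (∀ b : U, β a b = 0) → a = 0 := by
    intro a ha
    have hw : ∀ w : Fin n ⊕ Unit → F, (a : Fin n ⊕ Unit → F) ⬝ᵥ w = 0 := by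
      intro w
      have hw' : w + (x ⬝ᵥ w) • x ∈ U := by
        rw [hUmem, dotProduct_add, dotProduct_smul, hx, smul_eq_mul, mul_one]
        exact CharTwo.add_self_eq_zero _
      have h3 := ha ⟨_, hw'⟩
      rw [hβ] at h3
      have h4 : (a : Fin n ⊕ Unit → F) ⬝ᵥ (w + (x ⬝ᵥ w) • x) = 0 := h3
      rw [dotProduct_add, dotProduct_smul, dotProduct_comm (a : Fin n ⊕ Unit → F) x,
        (hUmem _).1 a.2, smul_zero, add_zero] at h4
      exact h4
    apply Subtype.ext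
    funext i
    have h5 := hw (Pi.single i 1)
    rw [dotProduct_single, mul_one] at h5
    exact h5
  have hna : ∃ a : U, β a a ≠ 0 := by
    by_contra hcon
    have hcon' : ∀ a : U, β a a = 0 := by
      intro a
      by_contra h
      exact hcon ⟨a, h⟩
    have hy : (fun _ => (1 : F)) + x ∈ U := by
      rw [hUmem, dotProduct_add, hxd1, hx]
      exact CharTwo.add_self_eq_zero _
    have hyU : ∀ b : U, β ⟨_, hy⟩ b = 0 := by
      intro b
      rw [hβ]
      show ((fun _ => (1 : F)) + x) ⬝ᵥ (b : Fin n ⊕ Unit → F) = 0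
      have h4 := hcon' b
      rw [hβ, dot_self] at h4
      have h5 : ∑ i, (b : Fin n ⊕ Unit → F) i = 0 := (pow_eq_zero_iff (two_ne_zero)).1 h4
      rw [add_dotProduct, (hUmem _).1 b.2, add_zero, one_dot, h5]
    have h6 := hnd ⟨_, hy⟩ hyU
    have h7 : (fun _ => (1 : F)) + x = 0 := congrArg Subtype.val h6
    apply hxd
    have h8 : x = -(fun _ => (1 : F)) := eq_neg_of_add_eq_zero_right h7
    rw [h8]
    funext i
    exact CharTwo.neg_eq (1 : F)
  obtain ⟨b, hb⟩ := Cfsg.Agent.S2166.ortho_basis β hS hnd hna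
  obtain ⟨c, hc1, hc2⟩ : ∃ c : Fin n ⊕ Unit → (Fin n ⊕ Unit → F),
      (∀ j, c (Sum.inl j) = (b (Fin.cast hfr.symm j) : Fin n ⊕ Unit → F)) ∧
      ∀ u, c (Sum.inr u) = x :=
    ⟨Sum.elim (fun j => (b (Fin.cast hfr.symm j) : Fin n ⊕ Unit → F)) (fun _ => x),
      fun j => rfl, fun u => rfl⟩
  have hcc : ∀ j j', c j ⬝ᵥ c j' = if j = j' then 1 else 0 := by
    intro j j'
    rcases j with j | j <;> rcases j' with j' | j'
    · rw [hc1, hc1, ← hβ, hb]
      by_cases hjj : j = j'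
      · subst hjj
        rw [if_pos rfl, if_pos rfl]
      · rw [if_neg, if_neg]
        · intro h
          exact hjj (Sum.inl_injective h)
        · intro h
          exact hjj (Fin.cast_injective _ h)
    · rw [hc1, hc2, dotProduct_comm, (hUmem _).1 (b _).2, if_neg (by simp)]
    · rw [hc1, hc2, (hUmem _).1 (b _).2, if_neg (by simp)]
    · rw [hc2, hx, if_pos (congrArg Sum.inr (Subsingleton.elim j j'))]
  refine ⟨Matrix.of (fun i j => c j i), ?_, ?_⟩
  · apply mul_eq_one_comm.1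
    ext j j'
    rw [Matrix.mul_apply, Matrix.one_apply, ← hcc j j']
    rfl
  · rw [Matrix.mulVec_single_one]
    funext i
    show c (Sum.inr ()) i = x i
    rw [hc2]

end
section
variable {F : Type*} [Field F]

theorem card_im [Fintype F] [CharP F 2] (n : ℕ) :
    Nat.card ↥{x : Fin n ⊕ Unit → F | x ⬝ᵥ x = 1 ∧ x ≠ fun _ => 1} =
      Fintype.card F ^ n - (if Even n then 1 else 0) := by
  classical
  have hS : ∀ x : Fin n ⊕ Unit → F, x ⬝ᵥ x = 1 ↔ ∑ i, x i = 1 := by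
    intro x
    rw [dot_self]
    constructor
    · exact sq_eq_one _
    · intro h
      rw [h, one_pow]
  have hset : {x : Fin n ⊕ Unit → F | x ⬝ᵥ x = 1 ∧ x ≠ fun _ => 1} =
      {x : Fin n ⊕ Unit → F | ∑ i, x i = 1} \ {fun _ => 1} := by
    ext x
    simp only [Set.mem_setOf_eq, Set.mem_diff, Set.mem_singleton_iff, hS]
  have hcardS : Nat.card ↥{x : Fin n ⊕ Unit → F | ∑ i, x i = 1} = Fintype.card F ^ n := by
    have h1 : Nat.card (Fin n → F) = Fintype.card F ^ n := by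
      rw [Nat.card_eq_fintype_card, Fintype.card_fun, Fintype.card_fin]
    rw [← h1]
    apply Nat.card_congr
    exact
      { toFun := fun x => fun j => x.1 (Sum.inl j)
        invFun := fun y => ⟨Sum.elim y (fun _ => 1 + ∑ j, y j), by
          show ∑ i, (Sum.elim y (fun _ => 1 + ∑ j, y j) : Fin n ⊕ Unit → F) i = 1
          rw [Fintype.sum_sum_type]
          simp only [Sum.elim_inl, Sum.elim_inr, Finset.univ_unique, Finset.sum_singleton]
          rw [add_comm (1 : F), ← add_assoc, CharTwo.add_self_eq_zero, zero_add]⟩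
        left_inv := by
          intro x
          apply Subtype.ext
          funext i
          rcases i with j | u
          · rfl
          · have h2 : ∑ i, x.1 i = 1 := x.2
            rw [Fintype.sum_sum_type] at h2
            simp only [Finset.univ_unique, Finset.sum_singleton] at h2
            have h3 := eq_sub_of_add_eq' h2
            rw [CharTwo.sub_eq_add] at h3
            exact h3.symm
        right_inv := fun y => rfl }
  have hd : ((fun _ => 1) : Fin n ⊕ Unit → F) ∈ {x : Fin n ⊕ Unit → F | ∑ i, x i = 1} ↔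
      Even n := by
    show ∑ _i : Fin n ⊕ Unit, (1 : F) = 1 ↔ Even n
    rw [Finset.sum_const, Finset.card_univ, Fintype.card_sum, Fintype.card_fin, Fintype.card_unit,
      nsmul_eq_mul, mul_one, Nat.cast_add, Nat.cast_one, add_eq_right,
      CharP.cast_eq_zero_iff F 2 n, even_iff_two_dvd]
  rw [hset, Nat.card_coe_set_eq]
  by_cases hn : Even n
  · rw [Set.ncard_diff_singleton_of_mem (hd.2 hn), ← Nat.card_coe_set_eq, hcardS, if_pos hn]
  · rw [Set.diff_singleton_eq_self (fun h => hn (hd.1 h)), ← Nat.card_coe_set_eq, hcardS,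
      if_neg hn, Nat.sub_zero]

theorem block_struct {n : ℕ} (M : Matrix (Fin n ⊕ Unit) (Fin n ⊕ Unit) F) (hM : M * Mᵀ = 1)
    (hfix : M *ᵥ Pi.single (Sum.inr ()) 1 = Pi.single (Sum.inr ()) 1) :
    M = Matrix.fromBlocks M.toBlocks₁₁ 0 0 1 ∧ M.toBlocks₁₁ * M.toBlocks₁₁ᵀ = 1 := by
  have h' : Mᵀ * M = 1 := mul_eq_one_comm.1 hM
  have hcol : ∀ i, M i (Sum.inr ()) = (Pi.single (Sum.inr ()) 1 : Fin n ⊕ Unit → F) i := by
    intro i
    have h1 := congrFun hfix i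
    rw [Matrix.mulVec_single_one] at h1
    exact h1
  have hfix' : Mᵀ *ᵥ Pi.single (Sum.inr ()) 1 = Pi.single (Sum.inr ()) 1 := by
    conv_lhs => rw [← hfix]
    rw [Matrix.mulVec_mulVec, h', Matrix.one_mulVec]
  have hrow : ∀ j, M (Sum.inr ()) j = (Pi.single (Sum.inr ()) 1 : Fin n ⊕ Unit → F) j := by
    intro j
    have h1 := congrFun hfix' j
    rw [Matrix.mulVec_single_one] at h1
    exact h1
  have hblock : M = Matrix.fromBlocks M.toBlocks₁₁ 0 0 1 := by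
    ext i j
    rcases i with i | u <;> rcases j with j | u'
    · rfl
    · rw [Matrix.fromBlocks_apply₁₂, hcol]
      simp
    · rw [Matrix.fromBlocks_apply₂₁, hrow]
      simp
    · rw [Matrix.fromBlocks_apply₂₂, hcol]
      simp
  refine ⟨hblock, ?_⟩
  have h2 := hM
  rw [hblock, Matrix.fromBlocks_transpose, Matrix.fromBlocks_multiply, ← Matrix.fromBlocks_one,
    Matrix.fromBlocks_inj] at h2
  have h3 := h2.1
  simp only [Matrix.transpose_zero, Matrix.mul_zero, add_zero] at h3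
  exact h3

theorem block_orth {n : ℕ} (A : Matrix (Fin n) (Fin n) F) (hA : A * Aᵀ = 1) :
    (Matrix.fromBlocks A 0 0 (1 : Matrix Unit Unit F)) *
      (Matrix.fromBlocks A 0 0 (1 : Matrix Unit Unit F))ᵀ = 1 ∧
    (Matrix.fromBlocks A 0 0 (1 : Matrix Unit Unit F)) *ᵥ Pi.single (Sum.inr ()) 1 =
      Pi.single (Sum.inr ()) 1 := by
  constructor
  · rw [Matrix.fromBlocks_transpose, Matrix.fromBlocks_multiply, ← Matrix.fromBlocks_one]
    simp [hA]
  · rw [Matrix.mulVec_single_one]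
    funext i
    rcases i with i | u
    · simp
    · simp

theorem card_step [Fintype F] [CharP F 2] (n : ℕ) (hn : 1 ≤ n) :
    Nat.card {M : Matrix (Fin n ⊕ Unit) (Fin n ⊕ Unit) F // M * Mᵀ = 1} =
      (Fintype.card F ^ n - (if Even n then 1 else 0)) *
        Nat.card {M : Matrix (Fin n) (Fin n) F // M * Mᵀ = 1} := by
  classical
  rw [card_Og]
  have hGLinv : ∀ (g : GL (Fin n ⊕ Unit) F) (x : Fin n ⊕ Unit → F),
      ((g⁻¹ : GL (Fin n ⊕ Unit) F) : Matrix (Fin n ⊕ Unit) (Fin n ⊕ Unit) F) *ᵥ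
        ((g : Matrix (Fin n ⊕ Unit) (Fin n ⊕ Unit) F) *ᵥ x) = x := by
    intro g x
    rw [Matrix.mulVec_mulVec, Units.inv_mul, Matrix.one_mulVec]
  have hGLinv' : ∀ (g : GL (Fin n ⊕ Unit) F) (x : Fin n ⊕ Unit → F),
      (g : Matrix (Fin n ⊕ Unit) (Fin n ⊕ Unit) F) *ᵥ
        (((g⁻¹ : GL (Fin n ⊕ Unit) F) : Matrix (Fin n ⊕ Unit) (Fin n ⊕ Unit) F) *ᵥ x) = x := by
    intro g x
    rw [Matrix.mulVec_mulVec, Units.mul_inv, Matrix.one_mulVec]
  let S₀ : Subgroup ↥(Og (Fin n ⊕ Unit) F) :=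
    { carrier := {g | ((g : GL (Fin n ⊕ Unit) F) : Matrix (Fin n ⊕ Unit) (Fin n ⊕ Unit) F) *ᵥ
        Pi.single (Sum.inr ()) 1 = Pi.single (Sum.inr ()) 1}
      mul_mem' := by
        intro a b ha hb
        show (((a * b : ↥(Og (Fin n ⊕ Unit) F)) : GL (Fin n ⊕ Unit) F) :
          Matrix (Fin n ⊕ Unit) (Fin n ⊕ Unit) F) *ᵥ Pi.single (Sum.inr ()) 1 =
            Pi.single (Sum.inr ()) 1
        rw [Subgroup.coe_mul, Units.val_mul, ← Matrix.mulVec_mulVec]
        have hb' : ((b : GL (Fin n ⊕ Unit) F) : Matrix (Fin n ⊕ Unit) (Fin n ⊕ Unit) F) *ᵥ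
          Pi.single (Sum.inr ()) 1 = Pi.single (Sum.inr ()) 1 := hb
        have ha' : ((a : GL (Fin n ⊕ Unit) F) : Matrix (Fin n ⊕ Unit) (Fin n ⊕ Unit) F) *ᵥ
          Pi.single (Sum.inr ()) 1 = Pi.single (Sum.inr ()) 1 := ha
        rw [hb', ha']
      one_mem' := by
        show (((1 : ↥(Og (Fin n ⊕ Unit) F)) : GL (Fin n ⊕ Unit) F) :
          Matrix (Fin n ⊕ Unit) (Fin n ⊕ Unit) F) *ᵥ Pi.single (Sum.inr ()) 1 =
            Pi.single (Sum.inr ()) 1
        rw [Subgroup.coe_one, Units.val_one, Matrix.one_mulVec]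
      inv_mem' := by
        intro a ha
        have ha' : ((a : GL (Fin n ⊕ Unit) F) : Matrix (Fin n ⊕ Unit) (Fin n ⊕ Unit) F) *ᵥ
          Pi.single (Sum.inr ()) 1 = Pi.single (Sum.inr ()) 1 := ha
        show (((a⁻¹ : ↥(Og (Fin n ⊕ Unit) F)) : GL (Fin n ⊕ Unit) F) :
          Matrix (Fin n ⊕ Unit) (Fin n ⊕ Unit) F) *ᵥ Pi.single (Sum.inr ()) 1 =
            Pi.single (Sum.inr ()) 1
        have h1 := hGLinv (a : GL (Fin n ⊕ Unit) F) (Pi.single (Sum.inr ()) 1)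
        rw [ha'] at h1
        rw [Subgroup.coe_inv]
        exact h1 }
  have hS₀ : ∀ g : ↥(Og (Fin n ⊕ Unit) F), g ∈ S₀ ↔
      ((g : GL (Fin n ⊕ Unit) F) : Matrix (Fin n ⊕ Unit) (Fin n ⊕ Unit) F) *ᵥ
        Pi.single (Sum.inr ()) 1 = Pi.single (Sum.inr ()) 1 := fun g => Iff.rfl
  have h1 := Cfsg.Agent.S0775.card_fibers
    (fun g : ↥(Og (Fin n ⊕ Unit) F) =>
      ((g : GL (Fin n ⊕ Unit) F) : Matrix (Fin n ⊕ Unit) (Fin n ⊕ Unit) F) *ᵥ
        Pi.single (Sum.inr ()) 1)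
    {x : Fin n ⊕ Unit → F | x ⬝ᵥ x = 1 ∧ x ≠ fun _ => 1}
    (by
      ext x
      constructor
      · rintro ⟨g, rfl⟩
        exact im_sub hn _ g.2
      · rintro ⟨hx, hxd⟩
        obtain ⟨M, hM, hMx⟩ := im_sup x hx hxd
        exact ⟨⟨⟨M, Mᵀ, hM, mul_eq_one_comm.1 hM⟩, hM⟩, hMx⟩) S₀
    (by
      intro g h
      rw [hS₀, Subgroup.coe_mul, Subgroup.coe_inv, Units.val_mul, ← Matrix.mulVec_mulVec]
      constructor
      · intro hgh
        have hgh' : ((g : GL (Fin n ⊕ Unit) F) : Matrix (Fin n ⊕ Unit) (Fin n ⊕ Unit) F) *ᵥ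
            Pi.single (Sum.inr ()) 1 =
          ((h : GL (Fin n ⊕ Unit) F) : Matrix (Fin n ⊕ Unit) (Fin n ⊕ Unit) F) *ᵥ
            Pi.single (Sum.inr ()) 1 := hgh
        rw [← hgh', hGLinv]
      · intro hgh
        have h2 := congrArg (fun w =>
          ((g : GL (Fin n ⊕ Unit) F) : Matrix (Fin n ⊕ Unit) (Fin n ⊕ Unit) F) *ᵥ w) hgh
        simp only [hGLinv'] at h2
        exact h2.symm)
  have h2 : Nat.card S₀ = Nat.card {M : Matrix (Fin n) (Fin n) F // M * Mᵀ = 1} := by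
    apply Nat.card_congr
    exact
      { toFun := fun g => ⟨((g.1 : GL (Fin n ⊕ Unit) F) :
            Matrix (Fin n ⊕ Unit) (Fin n ⊕ Unit) F).toBlocks₁₁,
          (block_struct _ g.1.2 g.2).2⟩
        invFun := fun A => ⟨⟨⟨Matrix.fromBlocks A.1 0 0 1, (Matrix.fromBlocks A.1 0 0 1)ᵀ,
            (block_orth A.1 A.2).1, mul_eq_one_comm.1 (block_orth A.1 A.2).1⟩,
            (block_orth A.1 A.2).1⟩, (block_orth A.1 A.2).2⟩
        left_inv := fun g => Subtype.ext (Subtype.ext (Units.ext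
          (block_struct _ g.1.2 g.2).1.symm))
        right_inv := fun A => Subtype.ext (Matrix.toBlocks_fromBlocks₁₁ _ _ _ _) }
  rw [h1, h2, card_im]

theorem card_one [CharP F 2] :
    Nat.card {M : Matrix (Fin 1) (Fin 1) F // M * Mᵀ = 1} = 1 := by
  rw [Nat.card_eq_one_iff_unique]
  constructor
  · constructor
    intro M M'
    have key : ∀ M : {M : Matrix (Fin 1) (Fin 1) F // M * Mᵀ = 1}, M.1 0 0 = 1 := by
      intro M
      have h1 := congrFun (congrFun M.2 0) 0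
      rw [Matrix.mul_apply, Fin.sum_univ_one, Matrix.transpose_apply, Matrix.one_apply_eq,
        ← pow_two] at h1
      exact sq_eq_one _ h1
    apply Subtype.ext
    ext i j
    rw [Subsingleton.elim i 0, Subsingleton.elim j 0, key M, key M']
  · exact ⟨⟨1, by rw [Matrix.transpose_one, Matrix.one_mul]⟩⟩

theorem card_succ [Fintype F] [CharP F 2] (n : ℕ) (hn : 1 ≤ n) :
    Nat.card {M : Matrix (Fin (n + 1)) (Fin (n + 1)) F // M * Mᵀ = 1} =
      (Fintype.card F ^ n - (if Even n then 1 else 0)) *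
        Nat.card {M : Matrix (Fin n) (Fin n) F // M * Mᵀ = 1} := by
  rw [← card_step n hn]
  apply card_OM_equiv
  exact Fintype.equivOfCardEq (by simp)

theorem card_closed [Fintype F] [CharP F 2] (j : ℕ) :
    Nat.card {M : Matrix (Fin (2 * j + 1)) (Fin (2 * j + 1)) F // M * Mᵀ = 1} =
      Fintype.card F ^ (j ^ 2) * ∏ i ∈ Finset.range j, (Fintype.card F ^ (2 * (i + 1)) - 1) ∧
    Nat.card {M : Matrix (Fin (2 * j + 2)) (Fin (2 * j + 2)) F // M * Mᵀ = 1} =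
      Fintype.card F ^ (2 * j + 1) * (Fintype.card F ^ (j ^ 2) *
        ∏ i ∈ Finset.range j, (Fintype.card F ^ (2 * (i + 1)) - 1)) := by
  induction j with
  | zero =>
    have h1 : Nat.card {M : Matrix (Fin (2 * 0 + 1)) (Fin (2 * 0 + 1)) F // M * Mᵀ = 1} = 1 :=
      card_one
    refine ⟨by rw [h1]; simp, ?_⟩
    have h2 := card_succ (F := F) 1 le_rfl
    rw [if_neg (by decide), Nat.sub_zero] at h2
    have h3 : Nat.card {M : Matrix (Fin (2 * 0 + 2)) (Fin (2 * 0 + 2)) F // M * Mᵀ = 1} =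
        Fintype.card F ^ 1 * Nat.card {M : Matrix (Fin 1) (Fin 1) F // M * Mᵀ = 1} := h2
    rw [h3, card_one]
    simp
  | succ j ih =>
    obtain ⟨ih1, ih2⟩ := ih
    have h1 := card_succ (F := F) (2 * j + 2) (by omega)
    rw [if_pos (by exact ⟨j + 1, by ring⟩), ih2] at h1
    have h1' : Nat.card {M : Matrix (Fin (2 * (j + 1) + 1)) (Fin (2 * (j + 1) + 1)) F //
        M * Mᵀ = 1} = Fintype.card F ^ ((j + 1) ^ 2) *
          ∏ i ∈ Finset.range (j + 1), (Fintype.card F ^ (2 * (i + 1)) - 1) := by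
      have e : 2 * (j + 1) + 1 = 2 * j + 2 + 1 := by ring
      rw [e, h1, Finset.prod_range_succ]
      have e2 : Fintype.card F ^ ((j + 1) ^ 2) =
          Fintype.card F ^ (2 * j + 1) * Fintype.card F ^ (j ^ 2) := by
        rw [← pow_add]
        congr 1
        ring
      rw [e2]
      ring
    refine ⟨h1', ?_⟩
    have h2 := card_succ (F := F) (2 * j + 3) (by omega)
    rw [if_neg (by
      rw [Nat.not_even_iff_odd]
      exact ⟨j + 1, by ring⟩), Nat.sub_zero] at h2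
    have e : 2 * (j + 1) + 2 = 2 * j + 3 + 1 := by ring
    have e' : 2 * (j + 1) + 1 = 2 * j + 3 := by ring
    rw [e, h2, ← e', h1']

end
section
variable {F : Type*} [Field F] {m : ℕ}

theorem cent_nalt [Fintype F] [CharP F 2] {q : ℕ} (hF : Fintype.card F = q) {s : ℕ} (t : ↥(Matrix.symplecticGroup (Fin m) F))
    (ht : t ^ 2 = 1) (hs : (((t : ↥(Matrix.symplecticGroup (Fin m) F)) : Matrix (Fin m ⊕ Fin m) (Fin m ⊕ Fin m) F) - 1).rank = s) (hna : ∃ x, form m F x ((((t : ↥(Matrix.symplecticGroup (Fin m) F)) : Matrix (Fin m ⊕ Fin m) (Fin m ⊕ Fin m) F) - 1) *ᵥ x) ≠ 0) :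
    s ≤ m ∧ Nat.card ↥(Subgroup.centralizer ({t} : Set ↥(Matrix.symplecticGroup (Fin m) F))) =
      Nat.card {M : Matrix (Fin s) (Fin s) F // M * Mᵀ = 1} *
      (q ^ (s * (s + 1) / 2 + 2 * s * (m - s)) * (q ^ ((m - s) ^ 2) *
        ∏ i ∈ Finset.range (m - s), (q ^ (2 * (i + 1)) - 1))) := by
  classical
  have hsq : ((t : ↥(Matrix.symplecticGroup (Fin m) F)) : Matrix (Fin m ⊕ Fin m) (Fin m ⊕ Fin m) F) * ((t : ↥(Matrix.symplecticGroup (Fin m) F)) : Matrix (Fin m ⊕ Fin m) (Fin m ⊕ Fin m) F) = 1 := by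
    have h1 : t * t = 1 := by
      rw [← pow_two]
      exact ht
    exact congrArg Subtype.val h1
  obtain ⟨hN2, hadj, hform⟩ := Cfsg.Agent.S2166.invol_N ((t : ↥(Matrix.symplecticGroup (Fin m) F)) : Matrix (Fin m ⊕ Fin m) (Fin m ⊕ Fin m) F) t.2 hsq
  obtain ⟨e, v, hee, hve, hN⟩ := Cfsg.Agent.S2166.frame_nalt (((t : ↥(Matrix.symplecticGroup (Fin m) F)) : Matrix (Fin m ⊕ Fin m) (Fin m ⊕ Fin m) F) - 1) hN2 hadj hna s hs
  have hle := Cfsg.Agent.S2593.rank_le_of_sq _ hN2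
  rw [hs] at hle
  refine ⟨hle, ?_⟩
  have hOne : ∀ p q : Fin s, (1 : Matrix (Fin s) (Fin s) F) p q = if q = id p then 1 else 0 := by
    intro p q
    rw [Matrix.one_apply]
    simp [eq_comm]
  rw [Cfsg.Agent.S2681.cent_card hF id (fun _ => rfl) 1 hOne t e v hee hve hN s
    (Fintype.card_fin s) hle]
  congr 1
  exact Nat.card_congr (Equiv.subtypeEquivRight (fun M => by rw [Matrix.mul_one]))

theorem exp_eq2 (m s : ℕ) (hs1 : 1 ≤ s) (hsm : s ≤ m) :
    2 * m * s - (3 * s ^ 2 - 3 * s) / 2 - 1 = s * (s + 1) / 2 + 2 * s * (m - s) + (s - 1) := by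
  obtain ⟨r, rfl⟩ : ∃ r, m = s + r := ⟨m - s, by omega⟩
  obtain ⟨K, hK⟩ : ∃ K, K = s ^ 2 := ⟨_, rfl⟩
  obtain ⟨R, hR⟩ : ∃ R, R = s * r := ⟨_, rfl⟩
  have h1 : 2 * (s + r) * s = 2 * K + 2 * R := by rw [hK, hR]; ring
  have h2 : 2 * s * (s + r - s) = 2 * R := by
    rw [hR, Nat.add_sub_cancel_left]
    ring
  have h3 : s * (s + 1) = K + s := by rw [hK]; ring
  have h4 : s ≤ K := by
    rw [hK]
    nlinarith
  have h5 : (K + s) % 2 = 0 := by
    rw [← h3]
    exact Nat.even_iff.1 (Nat.even_mul_succ_self s)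
  rw [h1, h2, h3, ← hK]
  omega

end

/-- Centraliser order of an involution t of Sp_2m(q), q even, with s = rank(t − 1) odd (type b_s): |C(t)| = q^(2ms − (3s² − s)/2) · |Sp_(s−1)(q)| · |Sp_(2m−2s)(q)|, where |Sp_2k(q)| = q^(k²) Π_(i=1)^k (q^(2i) − 1). -/
theorem result {F : Type*} [Field F] [Fintype F] [CharP F 2] {q : ℕ} (hF : Fintype.card F = q) {m s : ℕ} (t : Matrix.symplecticGroup (Fin m) F) (ht : t ^ 2 = 1) (hs : ((t : Matrix (Fin m ⊕ Fin m) (Fin m ⊕ Fin m) F) - 1).rank = s) (hodd : Odd s) : Nat.card ↥(Subgroup.centralizer ({t} : Set ↥(Matrix.symplecticGroup (Fin m) F))) = q ^ (2 * m * s - (3 * s ^ 2 - s) / 2) * ((q : ℕ) ^ (((s - 1) / 2) ^ 2) * ∏ i : Fin ((s - 1) / 2), (q ^ (2 * ((i : ℕ) + 1)) - 1)) * ((q : ℕ) ^ ((m - s) ^ 2) * ∏ i : Fin (m - s), (q ^ (2 * ((i : ℕ) + 1)) - 1)) := by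
  classical
  have hsq : ((t : ↥(Matrix.symplecticGroup (Fin m) F)) : Matrix (Fin m ⊕ Fin m) (Fin m ⊕ Fin m) F) * ((t : ↥(Matrix.symplecticGroup (Fin m) F)) : Matrix (Fin m ⊕ Fin m) (Fin m ⊕ Fin m) F) = 1 := by
    have h1 : t * t = 1 := by
      rw [← pow_two]
      exact ht
    exact congrArg Subtype.val h1
  obtain ⟨hN2, hadj, hform⟩ := Cfsg.Agent.S2166.invol_N ((t : ↥(Matrix.symplecticGroup (Fin m) F)) : Matrix (Fin m ⊕ Fin m) (Fin m ⊕ Fin m) F) t.2 hsq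
  have hna : ∃ x, Cfsg.Agent.Lib.Helper13.SympMat.form m F x ((((t : ↥(Matrix.symplecticGroup (Fin m) F)) : Matrix (Fin m ⊕ Fin m) (Fin m ⊕ Fin m) F) - 1) *ᵥ x) ≠ 0 := by
    by_contra hcon
    have halt : ∀ x, Cfsg.Agent.Lib.Helper13.SympMat.form m F x ((((t : ↥(Matrix.symplecticGroup (Fin m) F)) : Matrix (Fin m ⊕ Fin m) (Fin m ⊕ Fin m) F) - 1) *ᵥ x) = 0 := by
      intro x
      by_contra h
      exact hcon ⟨x, h⟩
    obtain ⟨l, hl, -⟩ := Cfsg.Agent.S2166.frame_alt (((t : ↥(Matrix.symplecticGroup (Fin m) F)) : Matrix (Fin m ⊕ Fin m) (Fin m ⊕ Fin m) F) - 1) hN2 hadj halt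
    obtain ⟨k, hk⟩ := hodd
    omega
  obtain ⟨hsm, hC⟩ := cent_nalt hF t ht hs hna
  obtain ⟨j, rfl⟩ := hodd
  rw [hC, (card_closed j).1, hF, Cfsg.Agent.S2681.exp_eq m (2 * j + 1) hsm]
  have h2 : (2 * j + 1 - 1) / 2 = j := by omega
  rw [h2, Fin.prod_univ_eq_prod_range (fun i => q ^ (2 * (i + 1)) - 1) j,
    Fin.prod_univ_eq_prod_range (fun i => q ^ (2 * (i + 1)) - 1) (m - (2 * j + 1))]
  ring

end Cfsg.Agent.S2680
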