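import Cfsg.Statements.S2682
import Mathlib
import Cfsg.Agent.S0775
import Cfsg.Agent.S2166
import Cfsg.Agent.S2593
import Cfsg.Agent.S2680
import Cfsg.Agent.S2681
import Cfsg.Agent.Lib.Helper13.Symp
import Cfsg.Agent.Lib.Helper13.SympMat
import Cfsg.Agent.Lib.Helper5.SpCard

set_option autoImplicit false
open Cfsg

namespace Cfsg.Agent.S2682

open Matrix

/-- Centraliser order of an involution t of Sp_2m(q), q even, with s = rank(t − 1) even and f(v, tv) ≠ 0 for some v, f the symplectic form (type c_s): |C(t)| = q^(2ms − (3s² − 3s)/2 − 1) · |Sp_(s−2)(q)| · |Sp_(2m−2s)(q)|. -/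
theorem result {F : Type*} [Field F] [Fintype F] [CharP F 2] {q : ℕ} (hF : Fintype.card F = q) {m s : ℕ} (t : Matrix.symplecticGroup (Fin m) F) (ht : t ^ 2 = 1) (hs : ((t : Matrix (Fin m ⊕ Fin m) (Fin m ⊕ Fin m) F) - 1).rank = s) (heven : Even s) (hna : ∃ v : Fin m ⊕ Fin m → F, Cfsg.sympForm m F v ((t : Matrix (Fin m ⊕ Fin m) (Fin m ⊕ Fin m) F).mulVec v) ≠ 0) : Nat.card ↥(Subgroup.centralizer ({t} : Set ↥(Matrix.symplecticGroup (Fin m) F))) = q ^ (2 * m * s - (3 * s ^ 2 - 3 * s) / 2 - 1) * ((q : ℕ) ^ (((s - 2) / 2) ^ 2) * ∏ i : Fin ((s - 2) / 2), (q ^ (2 * ((i : ℕ) + 1)) - 1)) * ((q : ℕ) ^ ((m - s) ^ 2) * ∏ i : Fin (m - s), (q ^ (2 * ((i : ℕ) + 1)) - 1)) := by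
  classical
  have hsq : ((t : ↥(Matrix.symplecticGroup (Fin m) F)) : Matrix (Fin m ⊕ Fin m) (Fin m ⊕ Fin m) F) * ((t : ↥(Matrix.symplecticGroup (Fin m) F)) : Matrix (Fin m ⊕ Fin m) (Fin m ⊕ Fin m) F) = 1 := by
    have h1 : t * t = 1 := by
      rw [← pow_two]
      exact ht
    exact congrArg Subtype.val h1
  obtain ⟨hN2, hadj, hform⟩ := Cfsg.Agent.S2166.invol_N ((t : ↥(Matrix.symplecticGroup (Fin m) F)) : Matrix (Fin m ⊕ Fin m) (Fin m ⊕ Fin m) F) t.2 hsq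
  have hna' : ∃ x, Cfsg.Agent.Lib.Helper13.SympMat.form m F x ((((t : ↥(Matrix.symplecticGroup (Fin m) F)) : Matrix (Fin m ⊕ Fin m) (Fin m ⊕ Fin m) F) - 1) *ᵥ x) ≠ 0 := by
    obtain ⟨x, hx⟩ := hna
    refine ⟨x, ?_⟩
    rw [← hform]
    exact hx
  obtain ⟨hsm, hC⟩ := Cfsg.Agent.S2680.cent_nalt hF t ht hs hna'
  have hs0 : s ≠ 0 := by
    rintro rfl
    have h1 := Cfsg.Agent.S2593.eq_one_of_rank _ hs
    obtain ⟨x, hx⟩ := hna'
    apply hx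
    rw [h1, sub_self, Matrix.zero_mulVec, map_zero]
  obtain ⟨j, rfl⟩ : ∃ j, s = 2 * j + 2 := by
    obtain ⟨k, hk⟩ := heven
    exact ⟨k - 1, by omega⟩
  rw [hC, (Cfsg.Agent.S2680.card_closed j).2, hF,
    Cfsg.Agent.S2680.exp_eq2 m (2 * j + 2) (by omega) hsm]
  have h2 : (2 * j + 2 - 2) / 2 = j := by omega
  have h3 : 2 * j + 2 - 1 = 2 * j + 1 := by omega
  rw [h2, h3, Fin.prod_univ_eq_prod_range (fun i => q ^ (2 * (i + 1)) - 1) j,
    Fin.prod_univ_eq_prod_range (fun i => q ^ (2 * (i + 1)) - 1) (m - (2 * j + 2)), pow_add]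
  ring

end Cfsg.Agent.S2682
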