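import Cfsg.Statements.S2685
import Mathlib
import Cfsg.Agent.S0775
import Cfsg.Agent.S2166
import Cfsg.Agent.S2593
import Cfsg.Agent.S2682
import Cfsg.Agent.Lib.Helper13.Symp
import Cfsg.Agent.Lib.Helper13.SympMat
import Cfsg.Agent.Lib.Helper44.Inv6
import Cfsg.Agent.Lib.Helper45.OmegaRank

set_option autoImplicit false
open Cfsg

namespace Cfsg.Agent.S2685

open Matrix Cfsg.Agent.Lib.Helper13 Cfsg.Agent.Lib.Helper13.SympMat

section

variable {F : Type*} [Field F] {m : ℕ}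

theorem Q_add [CharP F 2] (u v : Fin m ⊕ Fin m → F) :
    Cfsg.quadFormPlus m F (u + v) =
      Cfsg.quadFormPlus m F u + Cfsg.quadFormPlus m F v + form m F u v := by
  rw [Cfsg.Agent.S2593.form_formula]
  simp only [Cfsg.quadFormPlus, Pi.add_apply]
  rw [← Finset.sum_add_distrib, ← Finset.sum_add_distrib]
  apply Finset.sum_congr rfl
  intro i _
  rw [sub_eq_add_neg, CharTwo.neg_eq]
  ring

theorem Q_smul (c : F) (v : Fin m ⊕ Fin m → F) :
    Cfsg.quadFormPlus m F (c • v) = c ^ 2 * Cfsg.quadFormPlus m F v := by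
  simp only [Cfsg.quadFormPlus, Pi.smul_apply, smul_eq_mul]
  rw [Finset.mul_sum]
  apply Finset.sum_congr rfl
  intro i _
  ring

theorem Q_zero : Cfsg.quadFormPlus m F 0 = 0 := by
  simp [Cfsg.quadFormPlus]

/-- the Artin–Schreier map -/
def wp (F : Type*) [Field F] [CharP F 2] : F →+ F where
  toFun b := b * b + b
  map_zero' := by simp
  map_add' a b := by
    rw [CharTwo.add_mul_self]
    ring

theorem wp_apply [CharP F 2] (b : F) : wp F b = b * b + b := rfl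

theorem wp_index [Fintype F] [CharP F 2] : (wp F).range.index = 2 := by
  classical
  have h1 := AddSubgroup.card_mul_index (wp F).range
  have h2 := AddSubgroup.card_mul_index (wp F).ker
  rw [AddSubgroup.index_ker] at h2
  have h3 : Nat.card (wp F).ker = 2 := by
    rw [Nat.card_eq_two_iff]
    refine ⟨⟨0, by rw [AddMonoidHom.mem_ker, map_zero]⟩,
      ⟨1, by rw [AddMonoidHom.mem_ker, wp_apply, mul_one]; exact CharTwo.add_self_eq_zero 1⟩, ?_, ?_⟩
    · intro h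
      exact zero_ne_one (congrArg Subtype.val h)
    · rw [Set.eq_univ_iff_forall]
      rintro ⟨b, hb⟩
      rw [AddMonoidHom.mem_ker, wp_apply] at hb
      have h4 : b * (b + 1) = 0 := by rw [mul_add, mul_one]; exact hb
      rcases mul_eq_zero.1 h4 with h5 | h5
      · left
        exact Subtype.ext h5
      · right
        apply Subtype.ext
        show b = 1
        exact (CharTwo.add_eq_zero.1 h5)
  rw [h3] at h2
  have h5 : 0 < Nat.card (wp F).range := Nat.card_pos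
  rw [← h2, mul_comm 2] at h1
  exact Nat.eq_of_mul_eq_mul_left h5 h1

theorem exists_not_wp [Fintype F] [CharP F 2] : ∃ c : F, c ∉ (wp F).range := by
  by_contra h
  have h1 : (wp F).range = ⊤ := by
    rw [eq_top_iff]
    intro c _
    by_contra hc
    exact h ⟨c, hc⟩
  have h2 := wp_index (F := F)
  rw [h1, AddSubgroup.index_top] at h2
  omega

theorem Q_transv [CharP F 2] (Q' : (Fin m ⊕ Fin m → F) → F)
    (hadd : ∀ u v, Q' (u + v) = Q' u + Q' v + form m F u v)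
    (hsm : ∀ (c : F) v, Q' (c • v) = c ^ 2 * Q' v)
    (w v : Fin m ⊕ Fin m → F) (a : F) :
    Q' (Cfsg.sympTransvection m w a *ᵥ v) = Q' v + (a + a ^ 2 * Q' w) * (form m F v w) ^ 2 := by
  rw [SympMat.transvection_mulVec, hadd, hsm, map_smul, smul_eq_mul]
  ring

theorem exists_transv [CharP F 2] (Q' : (Fin m ⊕ Fin m → F) → F)
    (hadd : ∀ u v, Q' (u + v) = Q' u + Q' v + form m F u v)
    (hsm : ∀ (c : F) v, Q' (c • v) = c ^ 2 * Q' v)
    (w : Fin m ⊕ Fin m → F) (hw : Q' w ∈ (wp F).range) :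
    ∃ h : ↥(Matrix.symplecticGroup (Fin m) F), ∀ v,
      Q' ((h : Matrix (Fin m ⊕ Fin m) (Fin m ⊕ Fin m) F) *ᵥ v) = Q' v + (form m F v w) ^ 2 := by
  obtain ⟨b, hb⟩ := hw
  rw [wp_apply] at hb
  by_cases h0 : Q' w = 0
  · refine ⟨⟨Cfsg.sympTransvection m w 1, SympMat.transvection_mem m w 1⟩, fun v => ?_⟩
    show Q' (Cfsg.sympTransvection m w 1 *ᵥ v) = _
    rw [Q_transv Q' hadd hsm, h0]
    ring
  · refine ⟨⟨Cfsg.sympTransvection m w (b / Q' w), SympMat.transvection_mem m w _⟩, fun v => ?_⟩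
    show Q' (Cfsg.sympTransvection m w (b / Q' w) *ᵥ v) = _
    rw [Q_transv Q' hadd hsm]
    have h1 : b / Q' w + (b / Q' w) ^ 2 * Q' w = (b * b + b) / Q' w := by
      field_simp
      ring
    rw [h1, hb, div_self h0, one_mul]

theorem card_fiber_lin [Fintype F] {V : Type*} [AddCommGroup V] [Module F V] [Finite V]
    (φ : V →ₗ[F] F) (w₁ : V) (h1 : φ w₁ = 1) (c : F) :
    Nat.card V = Fintype.card F * Nat.card {w : V // φ w = c} := by
  rw [← Nat.card_eq_fintype_card, ← Nat.card_prod]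
  apply Nat.card_congr
  exact
    { toFun := fun u => (φ u, ⟨u - (φ u - c) • w₁, by
        rw [map_sub, map_smul, h1, smul_eq_mul, mul_one]
        ring⟩)
      invFun := fun p => p.2.1 + (p.1 - c) • w₁
      left_inv := fun u => by
        show u - (φ u - c) • w₁ + (φ u - c) • w₁ = u
        rw [sub_add_cancel]
      right_inv := fun p => by
        obtain ⟨a, w, hw⟩ := p
        have e : φ (w + (a - c) • w₁) = a := by
          rw [map_add, map_smul, h1, hw, smul_eq_mul, mul_one]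
          ring
        apply Prod.ext
        · exact e
        · apply Subtype.ext
          show w + (a - c) • w₁ - (φ (w + (a - c) • w₁) - c) • w₁ = w
          rw [e, add_sub_cancel_right] }

theorem sq_inj2 [CharP F 2] (a b : F) (h : a ^ 2 = b ^ 2) : a = b := by
  have h1 : (a + b) ^ 2 = 0 := by
    rw [CharTwo.add_sq, h]
    exact CharTwo.add_self_eq_zero _
  have h2 : a + b = 0 := by
    exact pow_eq_zero_iff (two_ne_zero) |>.1 h1
  exact CharTwo.add_eq_zero.1 h2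

end

section

variable {F : Type*} [Field F] [Fintype F] [CharP F 2] {m : ℕ}

theorem exists_form_one (v : Fin m ⊕ Fin m → F) (hv : v ≠ 0) :
    ∃ w₁, form m F v w₁ = 1 := by
  have h1 : ∃ u, form m F v u ≠ 0 := by
    by_contra h
    apply hv
    apply (form_nondeg m).1 v
    intro u
    by_contra h2
    exact h ⟨u, h2⟩
  obtain ⟨u, hu⟩ := h1
  refine ⟨(form m F v u)⁻¹ • u, ?_⟩
  rw [map_smul, smul_eq_mul, inv_mul_cancel₀ hu]

theorem wp_of_iso (w : Fin m ⊕ Fin m → F) (g : ↥(Matrix.symplecticGroup (Fin m) F))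
    (hg : ∀ v, Cfsg.quadFormPlus m F ((g : Matrix (Fin m ⊕ Fin m) (Fin m ⊕ Fin m) F) *ᵥ v) =
      Cfsg.quadFormPlus m F v + (form m F v w) ^ 2) :
    Cfsg.quadFormPlus m F w ∈ (wp F).range := by
  classical
  by_contra hw
  have hA : ∀ w' : Fin m ⊕ Fin m → F, ∃ h : ↥(Matrix.symplecticGroup (Fin m) F), ∀ v,
      Cfsg.quadFormPlus m F ((h : Matrix (Fin m ⊕ Fin m) (Fin m ⊕ Fin m) F) *ᵥ v) =
        Cfsg.quadFormPlus m F v + (form m F v w') ^ 2 := by
    intro w'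
    by_cases hw' : Cfsg.quadFormPlus m F w' ∈ (wp F).range
    · exact exists_transv _ Q_add Q_smul w' hw'
    · have hQ'add : ∀ u v : Fin m ⊕ Fin m → F,
          Cfsg.quadFormPlus m F ((g : Matrix (Fin m ⊕ Fin m) (Fin m ⊕ Fin m) F) *ᵥ (u + v)) =
          Cfsg.quadFormPlus m F ((g : Matrix (Fin m ⊕ Fin m) (Fin m ⊕ Fin m) F) *ᵥ u) +
          Cfsg.quadFormPlus m F ((g : Matrix (Fin m ⊕ Fin m) (Fin m ⊕ Fin m) F) *ᵥ v) +
            form m F u v := by
        intro u v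
        rw [Matrix.mulVec_add, Q_add, (SympMat.mem_symp_iff m _).1 g.2 u v]
      have hQ'sm : ∀ (c : F) (v : Fin m ⊕ Fin m → F),
          Cfsg.quadFormPlus m F ((g : Matrix (Fin m ⊕ Fin m) (Fin m ⊕ Fin m) F) *ᵥ (c • v)) =
          c ^ 2 * Cfsg.quadFormPlus m F ((g : Matrix (Fin m ⊕ Fin m) (Fin m ⊕ Fin m) F) *ᵥ v) := by
        intro c v
        rw [Matrix.mulVec_smul, Q_smul]
      have hmem : Cfsg.quadFormPlus m F
          ((g : Matrix (Fin m ⊕ Fin m) (Fin m ⊕ Fin m) F) *ᵥ (w' + w)) ∈ (wp F).range := by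
        rw [hg, Q_add]
        have e1 : form m F (w' + w) w = form m F w' w := by
          rw [map_add, LinearMap.add_apply, SympMat.form_alt m w, add_zero]
        rw [e1]
        have e2 : Cfsg.quadFormPlus m F w' + Cfsg.quadFormPlus m F w + form m F w' w +
            (form m F w' w) ^ 2 =
            (Cfsg.quadFormPlus m F w' + Cfsg.quadFormPlus m F w) + wp F (form m F w' w) := by
          rw [wp_apply]
          ring
        rw [e2]
        refine AddSubgroup.add_mem _ ?_ ⟨_, rfl⟩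
        rw [AddSubgroup.add_mem_iff_of_index_two wp_index]
        exact ⟨fun h => absurd h hw', fun h => absurd h hw⟩
      obtain ⟨h, hh⟩ := exists_transv
        (fun v => Cfsg.quadFormPlus m F ((g : Matrix (Fin m ⊕ Fin m) (Fin m ⊕ Fin m) F) *ᵥ v))
        hQ'add hQ'sm (w' + w) hmem
      refine ⟨g * h, fun v => ?_⟩
      have h3 := hh v
      show Cfsg.quadFormPlus m F (((g : Matrix (Fin m ⊕ Fin m) (Fin m ⊕ Fin m) F) *
        (h : Matrix (Fin m ⊕ Fin m) (Fin m ⊕ Fin m) F)) *ᵥ v) = _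
      rw [← Matrix.mulVec_mulVec, h3, hg, map_add, CharTwo.add_sq]
      have h4 := CharTwo.add_self_eq_zero ((form m F v w) ^ 2)
      linear_combination h4
  have hB : ∀ w' : Fin m ⊕ Fin m → F,
      Nat.card {v : Fin m ⊕ Fin m → F //
        Cfsg.quadFormPlus m F v + (form m F v w') ^ 2 = 0} =
      Nat.card {v : Fin m ⊕ Fin m → F // Cfsg.quadFormPlus m F v = 0} := by
    intro w'
    obtain ⟨h, hh⟩ := hA w'
    apply Nat.card_congr
    refine Equiv.subtypeEquiv (SympMat.Φ m h).toEquiv (fun v => ?_)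
    show _ ↔ Cfsg.quadFormPlus m F (SympMat.Φ m h v) = 0
    rw [SympMat.Φ_apply, hh]
  have hw0 : w ≠ 0 := by
    rintro rfl
    apply hw
    rw [Q_zero]
    exact zero_mem _
  have hC : ∀ v : Fin m ⊕ Fin m → F, v ≠ 0 →
      Nat.card (Fin m ⊕ Fin m → F) = Fintype.card F * Nat.card {w' : Fin m ⊕ Fin m → F //
        Cfsg.quadFormPlus m F v + (form m F v w') ^ 2 = 0} := by
    intro v hv
    obtain ⟨w₁, hw₁⟩ := exists_form_one v hv
    rw [card_fiber_lin (form m F v) w₁ hw₁ ((frobeniusEquiv F 2).symm (Cfsg.quadFormPlus m F v))]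
    congr 1
    apply Nat.card_congr
    refine Equiv.subtypeEquivRight (fun w' => ?_)
    constructor
    · intro h
      rw [h, frobeniusEquiv_symm_pow_p]
      exact CharTwo.add_self_eq_zero _
    · intro h
      apply sq_inj2
      rw [frobeniusEquiv_symm_pow_p]
      exact (CharTwo.add_eq_zero.1 h).symm
  -- double counting
  obtain ⟨Z, hZ⟩ : ∃ Z, Z = Nat.card {v : Fin m ⊕ Fin m → F // Cfsg.quadFormPlus m F v = 0} :=
    ⟨_, rfl⟩
  obtain ⟨n, hn⟩ : ∃ n, n = Nat.card (Fin m ⊕ Fin m → F) := ⟨_, rfl⟩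
  obtain ⟨q, hq⟩ : ∃ q, q = Fintype.card F := ⟨_, rfl⟩
  have hq2 : 2 ≤ q := by
    rw [hq]
    exact Fintype.one_lt_card
  have hn0 : 0 < n := by
    rw [hn]
    exact Nat.card_pos
  have hT1 : (Finset.univ.filter (fun p : (Fin m ⊕ Fin m → F) × (Fin m ⊕ Fin m → F) =>
      Cfsg.quadFormPlus m F p.1 + (form m F p.1 p.2) ^ 2 = 0)).card = n * Z := by
    rw [Finset.card_filter, Fintype.sum_prod_type_right]
    have h1 : ∀ w' : Fin m ⊕ Fin m → F, (∑ v : Fin m ⊕ Fin m → F,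
        if Cfsg.quadFormPlus m F (v, w').1 + (form m F (v, w').1 (v, w').2) ^ 2 = 0 then 1 else 0)
        = Z := by
      intro w'
      rw [← Finset.card_filter, hZ, ← hB w', Nat.card_eq_fintype_card, Fintype.card_subtype]
    rw [Finset.sum_congr rfl (fun w' _ => h1 w'), Finset.sum_const, Finset.card_univ,
      smul_eq_mul, hn, Nat.card_eq_fintype_card]
  have hT2 : q * (Finset.univ.filter (fun p : (Fin m ⊕ Fin m → F) × (Fin m ⊕ Fin m → F) =>
      Cfsg.quadFormPlus m F p.1 + (form m F p.1 p.2) ^ 2 = 0)).card = q * n + (n - 1) * n := by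
    rw [Finset.card_filter, Fintype.sum_prod_type, Finset.mul_sum]
    have h1 : ∀ v : Fin m ⊕ Fin m → F, q * (∑ w' : Fin m ⊕ Fin m → F,
        if Cfsg.quadFormPlus m F (v, w').1 + (form m F (v, w').1 (v, w').2) ^ 2 = 0 then 1 else 0)
        = if v = 0 then q * n else n := by
      intro v
      by_cases hv : v = 0
      · rw [if_pos hv, hv]
        congr 1
        rw [Finset.sum_congr rfl (fun w' _ => if_pos (by
          show Cfsg.quadFormPlus m F 0 + (form m F 0 w') ^ 2 = 0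
          rw [Q_zero, map_zero, LinearMap.zero_apply]
          ring))]
        rw [Finset.sum_const, Finset.card_univ, smul_eq_mul, mul_one, hn,
          Nat.card_eq_fintype_card]
      · rw [if_neg hv, ← Finset.card_filter, hn, hC v hv, hq, Nat.card_eq_fintype_card,
          Fintype.card_subtype]
    rw [Finset.sum_congr rfl (fun v _ => h1 v), Finset.sum_ite, Finset.sum_const,
      Finset.sum_const, smul_eq_mul, smul_eq_mul]
    have h2 : (Finset.univ.filter (fun v : Fin m ⊕ Fin m → F => v = 0)).card = 1 := by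
      rw [Finset.filter_eq', if_pos (Finset.mem_univ _), Finset.card_singleton]
    have h3 : (Finset.univ.filter (fun v : Fin m ⊕ Fin m → F => ¬ v = 0)).card = n - 1 := by
      rw [Finset.filter_not, Finset.card_sdiff_of_subset (Finset.filter_subset _ _), h2,
        Finset.card_univ, hn,
        Nat.card_eq_fintype_card]
    rw [h2, h3, one_mul]
  rw [hT1] at hT2
  have h5 : q ∣ n := by
    rw [hn, hC w hw0, hq]
    exact Dvd.intro _ rfl
  obtain ⟨c, hc⟩ := h5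
  have h6 : q * Z + 1 = q + n := by
    have h7 : n * (q * Z + 1) = n * (q + n) := by
      have h8 : (n - 1) * n + n = n * n := by
        obtain ⟨k, rfl⟩ : ∃ k, n = k + 1 := ⟨n - 1, by omega⟩
        rw [Nat.add_sub_cancel]
        ring
      calc n * (q * Z + 1) = q * (n * Z) + n := by ring
        _ = q * n + (n - 1) * n + n := by rw [hT2]
        _ = q * n + n * n := by rw [add_assoc, h8]
        _ = n * (q + n) := by ring
    exact Nat.eq_of_mul_eq_mul_left hn0 h7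
  rw [hc] at h6
  have h9 : q ∣ 1 := by
    have h10 : q * Z + 1 = q * (1 + c) := by rw [h6]; ring
    have h11 : q ∣ q * Z + 1 := Dvd.intro _ h10.symm
    exact (Nat.dvd_add_right (Dvd.intro _ rfl)).1 h11
  have := Nat.le_of_dvd (by norm_num) h9
  omega

theorem exists_w (g : ↥(Matrix.symplecticGroup (Fin m) F)) :
    ∃ w : Fin m ⊕ Fin m → F, ∀ v,
      Cfsg.quadFormPlus m F ((g : Matrix (Fin m ⊕ Fin m) (Fin m ⊕ Fin m) F) *ᵥ v) =
        Cfsg.quadFormPlus m F v + (form m F v w) ^ 2 := by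
  obtain ⟨L, hL⟩ : ∃ L : (Fin m ⊕ Fin m → F) →ₗ[F] F, ∀ v, L v = (frobeniusEquiv F 2).symm
      (Cfsg.quadFormPlus m F ((g : Matrix (Fin m ⊕ Fin m) (Fin m ⊕ Fin m) F) *ᵥ v) +
        Cfsg.quadFormPlus m F v) := by
    refine ⟨{ toFun := fun v => ((frobeniusEquiv F 2).symm
                  (Cfsg.quadFormPlus m F ((g : Matrix (Fin m ⊕ Fin m) (Fin m ⊕ Fin m) F) *ᵥ v) +
                    Cfsg.quadFormPlus m F v))
              map_add' := ?_
              map_smul' := ?_ }, fun v => rfl⟩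
    · intro u v
      rw [← map_add]
      congr 1
      rw [Matrix.mulVec_add, Q_add, Q_add, (SympMat.mem_symp_iff m _).1 g.2 u v]
      have h4 := CharTwo.add_self_eq_zero (form m F u v)
      linear_combination h4
    · intro c v
      rw [Matrix.mulVec_smul, Q_smul, Q_smul, ← mul_add, map_mul, RingHom.id_apply, smul_eq_mul]
      congr 1
      rw [RingEquiv.symm_apply_eq, frobeniusEquiv_apply, frobenius_def]
  obtain ⟨w, hw⟩ : ∃ w, ∀ v, form m F v w = L v := by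
    refine ⟨((form m F).toDual (form_nondeg m)).symm L, fun v => ?_⟩
    rw [Cfsg.Agent.S2593.form_symm2, ← LinearMap.BilinForm.toDual_def (form_nondeg m),
      LinearEquiv.apply_symm_apply]
  refine ⟨w, fun v => ?_⟩
  rw [hw, hL, frobeniusEquiv_symm_pow_p]
  have h4 := CharTwo.add_self_eq_zero (Cfsg.quadFormPlus m F v)
  linear_combination (-1 : F) * h4

end

section

variable {F : Type*} [Field F] [CharP F 2] {m : ℕ}

theorem O_mem_symp (A : Matrix (Fin m ⊕ Fin m) (Fin m ⊕ Fin m) F)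
    (hA : ∀ v, Cfsg.quadFormPlus m F (A *ᵥ v) = Cfsg.quadFormPlus m F v) :
    A ∈ Matrix.symplecticGroup (Fin m) F := by
  rw [SympMat.mem_symp_iff]
  intro u v
  have h1 := Q_add (A *ᵥ u) (A *ᵥ v)
  rw [← Matrix.mulVec_add, hA, hA, hA, Q_add] at h1
  exact (add_left_cancel h1).symm

/-- the orthogonal group inside the symplectic group -/
def toSp : ↥(Cfsg.isometryGroup F (Cfsg.quadFormPlus m F)) →*
    ↥(Matrix.symplecticGroup (Fin m) F) where
  toFun x := ⟨((x : GL (Fin m ⊕ Fin m) F) : Matrix (Fin m ⊕ Fin m) (Fin m ⊕ Fin m) F),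
    O_mem_symp _ (fun v => x.2 v v)⟩
  map_one' := Subtype.ext rfl
  map_mul' x y := Subtype.ext rfl

theorem toSp_coe (x : ↥(Cfsg.isometryGroup F (Cfsg.quadFormPlus m F))) :
    ((toSp x : ↥(Matrix.symplecticGroup (Fin m) F)) :
      Matrix (Fin m ⊕ Fin m) (Fin m ⊕ Fin m) F) =
    ((x : GL (Fin m ⊕ Fin m) F) : Matrix (Fin m ⊕ Fin m) (Fin m ⊕ Fin m) F) := rfl

theorem toSp_Q (x : ↥(Cfsg.isometryGroup F (Cfsg.quadFormPlus m F))) (v : Fin m ⊕ Fin m → F) :
    Cfsg.quadFormPlus m F (((toSp x : ↥(Matrix.symplecticGroup (Fin m) F)) :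
      Matrix (Fin m ⊕ Fin m) (Fin m ⊕ Fin m) F) *ᵥ v) = Cfsg.quadFormPlus m F v := x.2 v v

theorem sp_mul_inv (A : ↥(Matrix.symplecticGroup (Fin m) F)) :
    (A : Matrix (Fin m ⊕ Fin m) (Fin m ⊕ Fin m) F) *
      ((A⁻¹ : ↥(Matrix.symplecticGroup (Fin m) F)) : Matrix (Fin m ⊕ Fin m) (Fin m ⊕ Fin m) F)
      = 1 :=
  congrArg Subtype.val (mul_inv_cancel A)

theorem sp_inv_mul (A : ↥(Matrix.symplecticGroup (Fin m) F)) :
    ((A⁻¹ : ↥(Matrix.symplecticGroup (Fin m) F)) : Matrix (Fin m ⊕ Fin m) (Fin m ⊕ Fin m) F) *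
      (A : Matrix (Fin m ⊕ Fin m) (Fin m ⊕ Fin m) F) = 1 :=
  congrArg Subtype.val (inv_mul_cancel A)

/-- a `Q`-preserving symplectic matrix as an element of the orthogonal group -/
def toO (A : ↥(Matrix.symplecticGroup (Fin m) F))
    (hA : ∀ v, Cfsg.quadFormPlus m F
      ((A : Matrix (Fin m ⊕ Fin m) (Fin m ⊕ Fin m) F) *ᵥ v) = Cfsg.quadFormPlus m F v) :
    ↥(Cfsg.isometryGroup F (Cfsg.quadFormPlus m F)) :=
  ⟨⟨(A : Matrix (Fin m ⊕ Fin m) (Fin m ⊕ Fin m) F),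
    ((A⁻¹ : ↥(Matrix.symplecticGroup (Fin m) F)) : Matrix (Fin m ⊕ Fin m) (Fin m ⊕ Fin m) F),
    sp_mul_inv A, sp_inv_mul A⟩, fun u _ => hA u⟩

theorem toSp_toO (A : ↥(Matrix.symplecticGroup (Fin m) F))
    (hA : ∀ v, Cfsg.quadFormPlus m F
      ((A : Matrix (Fin m ⊕ Fin m) (Fin m ⊕ Fin m) F) *ᵥ v) = Cfsg.quadFormPlus m F v) :
    toSp (toO A hA) = A := Subtype.ext rfl

theorem toO_toSp (x : ↥(Cfsg.isometryGroup F (Cfsg.quadFormPlus m F))) :
    toO (toSp x) (toSp_Q x) = x := Subtype.ext (Units.ext rfl)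

theorem toSp_injective :
    Function.Injective (toSp : ↥(Cfsg.isometryGroup F (Cfsg.quadFormPlus m F)) → _) := by
  intro x y h
  rw [← toO_toSp x, ← toO_toSp y]
  congr 1

/-- the `Q`-preserving part of the symplectic centraliser -/
def OC (t : ↥(Matrix.symplecticGroup (Fin m) F)) :
    Subgroup ↥(Subgroup.centralizer ({t} : Set ↥(Matrix.symplecticGroup (Fin m) F))) where
  carrier := {g | ∀ v, Cfsg.quadFormPlus m F
    (((g : ↥(Matrix.symplecticGroup (Fin m) F)) : Matrix (Fin m ⊕ Fin m) (Fin m ⊕ Fin m) F) *ᵥ v)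
      = Cfsg.quadFormPlus m F v}
  one_mem' := fun v => by
    show Cfsg.quadFormPlus m F ((1 : Matrix (Fin m ⊕ Fin m) (Fin m ⊕ Fin m) F) *ᵥ v) = _
    rw [Matrix.one_mulVec]
  mul_mem' := fun {a b} ha hb v => by
    show Cfsg.quadFormPlus m F
      ((((a : ↥(Matrix.symplecticGroup (Fin m) F)) : Matrix (Fin m ⊕ Fin m) (Fin m ⊕ Fin m) F) *
        ((b : ↥(Matrix.symplecticGroup (Fin m) F)) : Matrix (Fin m ⊕ Fin m) (Fin m ⊕ Fin m) F))
        *ᵥ v) = _
    rw [← Matrix.mulVec_mulVec, ha, hb]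
  inv_mem' := fun {a} ha v => by
    show Cfsg.quadFormPlus m F
      ((((a : ↥(Matrix.symplecticGroup (Fin m) F))⁻¹ : ↥(Matrix.symplecticGroup (Fin m) F)) :
        Matrix (Fin m ⊕ Fin m) (Fin m ⊕ Fin m) F) *ᵥ v) = _
    have h1 := ha ((((a : ↥(Matrix.symplecticGroup (Fin m) F))⁻¹ :
      ↥(Matrix.symplecticGroup (Fin m) F)) : Matrix (Fin m ⊕ Fin m) (Fin m ⊕ Fin m) F) *ᵥ v)
    rw [Matrix.mulVec_mulVec, sp_mul_inv, Matrix.one_mulVec] at h1
    exact h1.symm

theorem mem_OC (t : ↥(Matrix.symplecticGroup (Fin m) F))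
    (g : ↥(Subgroup.centralizer ({t} : Set ↥(Matrix.symplecticGroup (Fin m) F)))) :
    g ∈ OC t ↔ ∀ v, Cfsg.quadFormPlus m F
    (((g : ↥(Matrix.symplecticGroup (Fin m) F)) : Matrix (Fin m ⊕ Fin m) (Fin m ⊕ Fin m) F) *ᵥ v)
      = Cfsg.quadFormPlus m F v := Iff.rfl

theorem card_OC [Finite F] (x : ↥(Cfsg.isometryGroup F (Cfsg.quadFormPlus m F))) :
    Nat.card ↥(OC (toSp x)) =
      Nat.card {g : ↥(Cfsg.isometryGroup F (Cfsg.quadFormPlus m F)) // g * x = x * g} := by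
  apply Nat.card_congr
  exact
    { toFun := fun g => ⟨toO g.1.1 ((mem_OC _ _).1 g.2), by
        apply toSp_injective
        rw [map_mul, map_mul, toSp_toO]
        exact (Subgroup.mem_centralizer_iff.1 g.1.2 (toSp x) rfl).symm⟩
      invFun := fun g => ⟨⟨toSp g.1, by
        rw [Subgroup.mem_centralizer_iff]
        intro y hy
        rw [Set.mem_singleton_iff.1 hy, ← map_mul, ← map_mul, g.2]⟩, toSp_Q g.1⟩
      left_inv := fun g => Subtype.ext (Subtype.ext (toSp_toO _ _))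
      right_inv := fun g => Subtype.ext (toO_toSp _) }

end

section

variable {F : Type*} [Field F] [Fintype F] [CharP F 2] {m : ℕ}

theorem orbit_count (t : ↥(Matrix.symplecticGroup (Fin m) F)) (ht : t * t = 1) (ht1 : t ≠ 1)
    (htQ : ∀ v, Cfsg.quadFormPlus m F
      ((t : Matrix (Fin m ⊕ Fin m) (Fin m ⊕ Fin m) F) *ᵥ v) = Cfsg.quadFormPlus m F v) :
    Nat.card ↥(Subgroup.centralizer ({t} : Set ↥(Matrix.symplecticGroup (Fin m) F))) =
      Nat.card {w : Fin m ⊕ Fin m → F //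
        (t : Matrix (Fin m ⊕ Fin m) (Fin m ⊕ Fin m) F) *ᵥ w = w ∧
        Cfsg.quadFormPlus m F w ∈ (wp F).range} * Nat.card ↥(OC t) := by
  classical
  have htt : (t : Matrix (Fin m ⊕ Fin m) (Fin m ⊕ Fin m) F) *
      (t : Matrix (Fin m ⊕ Fin m) (Fin m ⊕ Fin m) F) = 1 := congrArg Subtype.val ht
  obtain ⟨f, hf⟩ : ∃ f : ↥(Subgroup.centralizer ({t} : Set ↥(Matrix.symplecticGroup (Fin m) F)))
      → ((Fin m ⊕ Fin m → F) → F), ∀ g v, f g v = Cfsg.quadFormPlus m F ((g⁻¹).1.1 *ᵥ v) :=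
    ⟨_, fun _ _ => rfl⟩
  obtain ⟨Qw, hQw⟩ : ∃ Qw : (Fin m ⊕ Fin m → F) → ((Fin m ⊕ Fin m → F) → F),
      ∀ w v, Qw w v = Cfsg.quadFormPlus m F v + (form m F v w) ^ 2 := ⟨_, fun _ _ => rfl⟩
  have hinj : Function.Injective Qw := by
    intro w w' h
    have h1 : ∀ v, form m F v (w - w') = 0 := by
      intro v
      have h2 := congrFun h v
      rw [hQw, hQw] at h2
      have h3 := sq_inj2 _ _ (add_left_cancel h2)
      rw [map_sub, h3, sub_self]
    exact sub_eq_zero.1 ((form_nondeg m).2 _ h1)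
  have hfib : ∀ g h, f g = f h ↔ g⁻¹ * h ∈ OC t := by
    intro g h
    rw [mem_OC]
    constructor
    · intro h1 v
      have h2 := congrFun h1 (h.1.1 *ᵥ v)
      rw [hf, hf, Matrix.mulVec_mulVec, Matrix.mulVec_mulVec] at h2
      have h3 : (h⁻¹).1.1 * h.1.1 = 1 := sp_inv_mul h.1
      rw [h3, Matrix.one_mulVec] at h2
      exact h2
    · intro h1
      funext v
      rw [hf, hf]
      have h2 := h1 ((h⁻¹).1.1 *ᵥ v)
      rw [← h2]
      show Cfsg.quadFormPlus m F ((g⁻¹).1.1 *ᵥ v) =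
        Cfsg.quadFormPlus m F (((g⁻¹).1.1 * h.1.1) *ᵥ ((h⁻¹).1.1 *ᵥ v))
      have h3 : h.1.1 * (h⁻¹).1.1 = 1 := sp_mul_inv h.1
      rw [Matrix.mulVec_mulVec, Matrix.mul_assoc, h3, Matrix.mul_one]
  have hT : Set.range f = Qw '' {w : Fin m ⊕ Fin m → F |
        (t : Matrix (Fin m ⊕ Fin m) (Fin m ⊕ Fin m) F) *ᵥ w = w ∧
        Cfsg.quadFormPlus m F w ∈ (wp F).range} := by
    ext φ
    constructor
    · rintro ⟨g, rfl⟩
      obtain ⟨w, hw⟩ := exists_w ((g⁻¹).1)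
      have hcomm : t * (g⁻¹).1 = (g⁻¹).1 * t := Subgroup.mem_centralizer_iff.1 (g⁻¹).2 t rfl
      have hcm : t.1 * (g⁻¹).1.1 = (g⁻¹).1.1 * t.1 := congrArg Subtype.val hcomm
      refine ⟨w, ⟨?_, wp_of_iso w _ hw⟩, ?_⟩
      · have h1 : ∀ v, form m F v (t.1 *ᵥ w - w) = 0 := by
          intro v
          have h2 := hw (t.1 *ᵥ v)
          rw [Matrix.mulVec_mulVec, ← hcm, ← Matrix.mulVec_mulVec, htQ, htQ, hw v] at h2
          have h3 := sq_inj2 _ _ (add_left_cancel h2)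
          have h4 : form m F (t.1 *ᵥ v) w = form m F v (t.1 *ᵥ w) := by
            have h5 := (SympMat.mem_symp_iff m _).1 t.2 v (t.1 *ᵥ w)
            rw [Matrix.mulVec_mulVec, htt, Matrix.one_mulVec] at h5
            exact h5
          rw [map_sub, ← h4, ← h3, sub_self]
        exact sub_eq_zero.1 ((form_nondeg m).2 _ h1)
      · funext v
        rw [hQw, hf, hw]
    · rintro ⟨w, ⟨hw1, hw2⟩, rfl⟩
      obtain ⟨h, hh⟩ := exists_transv _ Q_add Q_smul w hw2
      have ht'Q : ∀ v, Cfsg.quadFormPlus m F ((h * t * h⁻¹).1 *ᵥ v) =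
          Cfsg.quadFormPlus m F v := by
        intro v
        show Cfsg.quadFormPlus m F ((h.1 * t.1 * (h⁻¹).1) *ᵥ v) = Cfsg.quadFormPlus m F v
        rw [← Matrix.mulVec_mulVec, ← Matrix.mulVec_mulVec, hh, htQ]
        have h1 : form m F (t.1 *ᵥ ((h⁻¹).1 *ᵥ v)) w = form m F ((h⁻¹).1 *ᵥ v) w := by
          nth_rewrite 1 [← hw1]
          exact (SympMat.mem_symp_iff m _).1 t.2 _ _
        rw [h1, ← hh, Matrix.mulVec_mulVec, sp_mul_inv, Matrix.one_mulVec]
      have ho1 : orderOf (toO t htQ) = 2 := by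
        apply orderOf_eq_prime
        · apply toSp_injective
          rw [map_pow, toSp_toO, map_one, pow_two, ht]
        · intro h1
          apply ht1
          rw [← toSp_toO t htQ, h1, map_one]
      have ho2 : orderOf (toO (h * t * h⁻¹) ht'Q) = 2 := by
        apply orderOf_eq_prime
        · apply toSp_injective
          rw [map_pow, toSp_toO, map_one, pow_two]
          have h1 : (h * t * h⁻¹) * (h * t * h⁻¹) = h * (t * t) * h⁻¹ := by group
          rw [h1, ht, mul_one, mul_inv_cancel]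
        · intro h1
          apply ht1
          have h2 : h * t * h⁻¹ = 1 := by
            rw [← toSp_toO (h * t * h⁻¹) ht'Q, h1, map_one]
          exact conj_eq_one_iff.1 h2
      have hconj : IsConj (toO t htQ) (toO (h * t * h⁻¹) ht'Q) := by
        apply (Cfsg.Agent.Lib.Helper44.Inv6.isConj_iff_polar
          (Cfsg.Agent.Lib.Helper44.NegPairs.plusQ m F)
          (Cfsg.Agent.Lib.Helper44.NegPairs.sep_plusQ m) (toO t htQ) (toO (h * t * h⁻¹) ht'Q)
          ho1 ho2).2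
        refine ⟨⟨h.1, (h⁻¹).1, sp_mul_inv h, sp_inv_mul h⟩, ?_, ?_⟩
        · intro u v
          show Cfsg.quadFormPlus m F (h.1 *ᵥ u + h.1 *ᵥ v) - Cfsg.quadFormPlus m F (h.1 *ᵥ u) -
            Cfsg.quadFormPlus m F (h.1 *ᵥ v) =
            Cfsg.quadFormPlus m F (u + v) - Cfsg.quadFormPlus m F u - Cfsg.quadFormPlus m F v
          rw [Q_add, Q_add, (SympMat.mem_symp_iff m _).1 h.2 u v]
          ring
        · apply Units.ext
          rfl
      obtain ⟨k, hk⟩ := isConj_iff.1 hconj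
      have hk2 : toSp k * t * (toSp k)⁻¹ = h * t * h⁻¹ := by
        have h1 := congrArg toSp hk
        rw [map_mul, map_mul, map_inv, toSp_toO, toSp_toO] at h1
        exact h1
      have hgc : h⁻¹ * toSp k ∈
          Subgroup.centralizer ({t} : Set ↥(Matrix.symplecticGroup (Fin m) F)) := by
        rw [Subgroup.mem_centralizer_iff]
        intro y hy
        rw [Set.mem_singleton_iff.1 hy]
        calc t * (h⁻¹ * toSp k) = h⁻¹ * (h * t * h⁻¹) * toSp k := by group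
          _ = h⁻¹ * (toSp k * t * (toSp k)⁻¹) * toSp k := by rw [hk2]
          _ = h⁻¹ * toSp k * t := by group
      refine ⟨⟨h⁻¹ * toSp k, hgc⟩, ?_⟩
      funext v
      rw [hf, hQw]
      have e : ((⟨h⁻¹ * toSp k, hgc⟩ : ↥(Subgroup.centralizer
          ({t} : Set ↥(Matrix.symplecticGroup (Fin m) F))))⁻¹).1 = toSp k⁻¹ * h := by
        show (h⁻¹ * toSp k)⁻¹ = _
        rw [_root_.mul_inv_rev, inv_inv, map_inv]
      rw [e]
      show Cfsg.quadFormPlus m F (((toSp k⁻¹).1 * h.1) *ᵥ v) = _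
      rw [← Matrix.mulVec_mulVec, toSp_Q, hh]
  rw [Cfsg.Agent.S0775.card_fibers f _ hT (OC t) hfib, Nat.card_image_of_injective hinj]
  rfl

end

theorem card_half {X : Type*} [Finite X] (P : X → Prop) (σ : X → X) (hσ : ∀ x, σ (σ x) = x)
    (h : ∀ x, P (σ x) ↔ ¬ P x) : 2 * Nat.card {x // P x} = Nat.card X := by
  classical
  have h1 : Nat.card {x // P x} = Nat.card {x // ¬ P x} := by
    apply Nat.card_congr
    exact
      { toFun := fun x => ⟨σ x.1, fun hc => (h x.1).1 hc x.2⟩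
        invFun := fun x => ⟨σ x.1, (h x.1).2 x.2⟩
        left_inv := fun x => Subtype.ext (hσ x.1)
        right_inv := fun x => Subtype.ext (hσ x.1) }
  have h2 := Nat.card_congr (Equiv.sumCompl P)
  rw [Nat.card_sum] at h2
  omega

theorem card_index_two {G : Type*} [Group G] [Finite G] (ψ : G →* Multiplicative (ZMod 2))
    (C : Subgroup G) (g₀ : G) (hg₀ : g₀ ∈ C) (h : ψ g₀ ≠ 1) :
    Nat.card C = 2 * Nat.card {g : G // g ∈ C ∧ ψ g = 1} := by
  have h1 := Subgroup.card_mul_index (ψ.comp C.subtype).ker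
  rw [Subgroup.index_ker] at h1
  have h2 : Nat.card (ψ.comp C.subtype).range = 2 := by
    have h3 : (ψ.comp C.subtype).range = ⊤ := by
      rw [eq_top_iff]
      intro y _
      by_cases hy : y = 1
      · rw [hy]
        exact one_mem _
      · refine ⟨⟨g₀, hg₀⟩, ?_⟩
        have key : ∀ a b : ZMod 2, a ≠ 0 → b ≠ 0 → a = b := by decide
        exact Multiplicative.toAdd.injective (key _ _
          (fun h0 => h (Multiplicative.toAdd.injective h0))
          (fun h0 => hy (Multiplicative.toAdd.injective h0)))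
    rw [h3, Subgroup.card_top, Nat.card_eq_fintype_card]
    rfl
  rw [h2] at h1
  rw [← h1, mul_comm]
  congr 1
  apply Nat.card_congr
  exact
    { toFun := fun g => ⟨g.1.1, g.1.2, MonoidHom.mem_ker.1 g.2⟩
      invFun := fun g => ⟨⟨g.1, g.2.1⟩, MonoidHom.mem_ker.2 g.2.2⟩
      left_inv := fun g => rfl
      right_inv := fun g => rfl }

section

variable {F : Type*} [Field F] [Fintype F] {m : ℕ}

theorem card_fix (A : Matrix (Fin m ⊕ Fin m) (Fin m ⊕ Fin m) F) :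
    Nat.card {w : Fin m ⊕ Fin m → F // A *ᵥ w = w} =
      Fintype.card F ^ (m + m - (A - 1).rank) := by
  have h1 : Nat.card {w : Fin m ⊕ Fin m → F // A *ᵥ w = w} =
      Nat.card ↥(LinearMap.ker (A - 1).mulVecLin) := by
    apply Nat.card_congr
    refine Equiv.subtypeEquivRight (fun w => ?_)
    rw [LinearMap.mem_ker, Matrix.mulVecLin_apply, Matrix.sub_mulVec, Matrix.one_mulVec,
      sub_eq_zero]
  rw [h1, Module.natCard_eq_pow_finrank (K := F), Nat.card_eq_fintype_card]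
  congr 1
  have h3 := LinearMap.finrank_range_add_finrank_ker (A - 1).mulVecLin
  rw [Module.finrank_fintype_fun_eq_card, Fintype.card_sum, Fintype.card_fin] at h3
  have h5 : Module.finrank F (LinearMap.range (A - 1).mulVecLin) = (A - 1).rank := rfl
  omega

variable [CharP F 2]

/-- the parity (Dickson) homomorphism, with kernel `Ω` -/
theorem exists_psi (hgood : Fintype.card F ≠ 2 ∨ m ≠ 2) :
    ∃ ψ : ↥(Cfsg.isometryGroup F (Cfsg.quadFormPlus m F)) →* Multiplicative (ZMod 2),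
      (∀ g, ψ g = 1 ↔ g ∈ Cfsg.Omega F (Cfsg.quadFormPlus m F)) ∧
      ∀ g : ↥(Cfsg.isometryGroup F (Cfsg.quadFormPlus m F)), ψ g = 1 ↔
        Even (((g : GL (Fin m ⊕ Fin m) F) : Matrix (Fin m ⊕ Fin m) (Fin m ⊕ Fin m) F) - 1).rank := by
  have hS := Cfsg.Agent.Lib.Helper44.NegPairs.sep_plusQ (F := F) m
  have hG : Cfsg.Agent.Lib.Helper44.CD2a.Good (Cfsg.Agent.Lib.Helper44.NegPairs.plusQ m F) := by
    apply Cfsg.Agent.Lib.Helper44.Omega2.good_of_card hS
    rcases hgood with h | h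
    · exact Or.inl h
    · right
      rw [Module.finrank_fintype_fun_eq_card, Fintype.card_sum, Fintype.card_fin]
      omega
  have hmem : ∀ g : ↥(Cfsg.isometryGroup F (Cfsg.quadFormPlus m F)),
      g ∈ Cfsg.Omega F (Cfsg.quadFormPlus m F) ↔
      Even (((g : GL (Fin m ⊕ Fin m) F) : Matrix (Fin m ⊕ Fin m) (Fin m ⊕ Fin m) F) - 1).rank :=
    fun g => Cfsg.Agent.Lib.Helper45.OmegaRank.mem_omega_iff_even_rank
      (Cfsg.Agent.Lib.Helper44.NegPairs.plusQ m F) hS hG g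
  have hψ : ∀ g : ↥(Cfsg.isometryGroup F (Cfsg.quadFormPlus m F)),
      ((Cfsg.Agent.Lib.Helper44.Omega2.parHom hS
        (Cfsg.Agent.Lib.Helper44.Omega2.cdp_two hS hG)).comp
        (Cfsg.Agent.Lib.Helper44.OMat.isoEquiv
          (Cfsg.Agent.Lib.Helper44.NegPairs.plusQ m F)).toMonoidHom) g = 1 ↔
      g ∈ Cfsg.Omega F (Cfsg.quadFormPlus m F) := by
    intro g
    have h1 : g ∈ Cfsg.Omega F (Cfsg.quadFormPlus m F) ↔
        Cfsg.Agent.Lib.Helper44.OMat.isoEquiv (Cfsg.Agent.Lib.Helper44.NegPairs.plusQ m F) g ∈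
          commutator _ :=
      Cfsg.Agent.Lib.Helper44.OMat.mem_omega_iff (Cfsg.Agent.Lib.Helper44.NegPairs.plusQ m F) g
    rw [h1, Cfsg.Agent.Lib.Helper44.Omega2.commutator_eq_ker_two hS hG, MonoidHom.mem_ker]
    rfl
  exact ⟨_, hψ, fun g => (hψ g).trans (hmem g)⟩

theorem nonalt_main (hgood : Fintype.card F ≠ 2 ∨ m ≠ 2)
    (x : ↥(Cfsg.isometryGroup F (Cfsg.quadFormPlus m F))) (hx : x ^ 2 = 1)
    (hna : ∃ v : Fin m ⊕ Fin m → F, Cfsg.quadFormPlus m F
      ((((x : GL (Fin m ⊕ Fin m) F) : Matrix (Fin m ⊕ Fin m) (Fin m ⊕ Fin m) F) - 1) *ᵥ v) ≠ 0) :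
    Nat.card ↥(Subgroup.centralizer ({toSp x} : Set ↥(Matrix.symplecticGroup (Fin m) F))) =
      Fintype.card F ^ (m + m -
        (((x : GL (Fin m ⊕ Fin m) F) : Matrix (Fin m ⊕ Fin m) (Fin m ⊕ Fin m) F) - 1).rank) *
        Nat.card {g : ↥(Cfsg.Omega F (Cfsg.quadFormPlus m F)) //
          (g : ↥(Cfsg.isometryGroup F (Cfsg.quadFormPlus m F))) * x =
            x * (g : ↥(Cfsg.isometryGroup F (Cfsg.quadFormPlus m F)))} := by
  classical
  obtain ⟨t, ht⟩ : ∃ t, t = toSp x := ⟨_, rfl⟩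
  rw [← ht]
  have htt : t * t = 1 := by rw [ht, ← map_mul, ← pow_two, hx, map_one]
  have hmat : (t : Matrix (Fin m ⊕ Fin m) (Fin m ⊕ Fin m) F) =
      ((x : GL (Fin m ⊕ Fin m) F) : Matrix (Fin m ⊕ Fin m) (Fin m ⊕ Fin m) F) := by
    rw [ht]
    rfl
  have htQ : ∀ v, Cfsg.quadFormPlus m F
      ((t : Matrix (Fin m ⊕ Fin m) (Fin m ⊕ Fin m) F) *ᵥ v) = Cfsg.quadFormPlus m F v := by
    rw [ht]
    exact toSp_Q x
  obtain ⟨hN2, hadj, -⟩ := Cfsg.Agent.S2166.invol_N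
    (t : Matrix (Fin m ⊕ Fin m) (Fin m ⊕ Fin m) F) t.2 (congrArg Subtype.val htt)
  obtain ⟨v₀, hv₀⟩ := hna
  rw [← hmat] at hv₀ ⊢
  obtain ⟨u₁, hu₁⟩ : ∃ u₁, u₁ = ((t : Matrix (Fin m ⊕ Fin m) (Fin m ⊕ Fin m) F) - 1) *ᵥ v₀ :=
    ⟨_, rfl⟩
  rw [← hu₁] at hv₀
  have htu₁ : (t : Matrix (Fin m ⊕ Fin m) (Fin m ⊕ Fin m) F) *ᵥ u₁ = u₁ := by
    have h := hN2 v₀
    rw [← hu₁, Matrix.sub_mulVec, Matrix.one_mulVec, sub_eq_zero] at h
    exact h
  have hu₁0 : u₁ ≠ 0 := by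
    rintro h
    apply hv₀
    rw [h, Q_zero]
  have ht1 : t ≠ 1 := by
    rintro h1
    apply hu₁0
    rw [hu₁, h1]
    show ((1 : Matrix (Fin m ⊕ Fin m) (Fin m ⊕ Fin m) F) - 1) *ᵥ v₀ = 0
    rw [sub_self, Matrix.zero_mulVec]
  have hfu : ∀ w, (t : Matrix (Fin m ⊕ Fin m) (Fin m ⊕ Fin m) F) *ᵥ w = w →
      form m F w u₁ = 0 := by
    intro w hw
    rw [hu₁, ← hadj, Matrix.sub_mulVec, Matrix.one_mulVec, hw, sub_self, map_zero,
      LinearMap.zero_apply]
  have h1 := orbit_count t htt ht1 htQ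
  obtain ⟨c₀, hc₀⟩ := exists_not_wp (F := F)
  obtain ⟨lam, hlam⟩ : ∃ lam : F, lam ^ 2 * Cfsg.quadFormPlus m F u₁ = c₀ := by
    refine ⟨(frobeniusEquiv F 2).symm (c₀ / Cfsg.quadFormPlus m F u₁), ?_⟩
    rw [frobeniusEquiv_symm_pow_p, div_mul_cancel₀ _ hv₀]
  have hu₀Q : Cfsg.quadFormPlus m F (lam • u₁) = c₀ := by rw [Q_smul, hlam]
  have h2 : 2 * Nat.card {w : Fin m ⊕ Fin m → F //
        (t : Matrix (Fin m ⊕ Fin m) (Fin m ⊕ Fin m) F) *ᵥ w = w ∧
        Cfsg.quadFormPlus m F w ∈ (wp F).range} =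
      Nat.card {w : Fin m ⊕ Fin m → F //
        (t : Matrix (Fin m ⊕ Fin m) (Fin m ⊕ Fin m) F) *ᵥ w = w} := by
    rw [← Nat.card_congr (Equiv.subtypeSubtypeEquivSubtypeInter
      (fun w : Fin m ⊕ Fin m → F => (t : Matrix (Fin m ⊕ Fin m) (Fin m ⊕ Fin m) F) *ᵥ w = w)
      (fun w => Cfsg.quadFormPlus m F w ∈ (wp F).range))]
    apply card_half (fun w : {w : Fin m ⊕ Fin m → F //
        (t : Matrix (Fin m ⊕ Fin m) (Fin m ⊕ Fin m) F) *ᵥ w = w} =>
        Cfsg.quadFormPlus m F w.1 ∈ (wp F).range)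
      (fun w => ⟨w.1 + lam • u₁, by rw [Matrix.mulVec_add, Matrix.mulVec_smul, w.2, htu₁]⟩)
    · intro w
      apply Subtype.ext
      show w.1 + lam • u₁ + lam • u₁ = w.1
      rw [add_assoc, ← add_smul, CharTwo.add_self_eq_zero, zero_smul, add_zero]
    · intro w
      show Cfsg.quadFormPlus m F (w.1 + lam • u₁) ∈ (wp F).range ↔
        ¬ Cfsg.quadFormPlus m F w.1 ∈ (wp F).range
      rw [Q_add, hu₀Q, map_smul, hfu w.1 w.2, smul_zero, add_zero,
        AddSubgroup.add_mem_iff_of_index_two wp_index]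
      constructor
      · intro h hw
        exact hc₀ (h.1 hw)
      · intro h
        exact ⟨fun hw => absurd hw h, fun hc => absurd hc hc₀⟩
  obtain ⟨a, ha⟩ : ∃ a : F, a = (Cfsg.quadFormPlus m F u₁)⁻¹ := ⟨_, rfl⟩
  have ha0 : a ≠ 0 := by
    rw [ha]
    exact inv_ne_zero hv₀
  have hTQ : ∀ v, Cfsg.quadFormPlus m F (Cfsg.sympTransvection m u₁ a *ᵥ v) =
      Cfsg.quadFormPlus m F v := by
    intro v
    rw [Q_transv _ Q_add Q_smul]
    have h3 : a + a ^ 2 * Cfsg.quadFormPlus m F u₁ = 0 := by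
      rw [ha, pow_two, mul_assoc, inv_mul_cancel₀ hv₀, mul_one]
      exact CharTwo.add_self_eq_zero _
    rw [h3, zero_mul, add_zero]
  obtain ⟨g₀, hg₀⟩ : ∃ g₀, g₀ = toO ⟨Cfsg.sympTransvection m u₁ a,
    SympMat.transvection_mem m u₁ a⟩ hTQ := ⟨_, rfl⟩
  have hg₀mat : ((g₀ : GL (Fin m ⊕ Fin m) F) : Matrix (Fin m ⊕ Fin m) (Fin m ⊕ Fin m) F) =
      Cfsg.sympTransvection m u₁ a := by
    rw [hg₀]
    rfl
  have hg₀x : g₀ * x = x * g₀ := by
    apply Subtype.ext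
    apply Units.ext
    show ((g₀ : GL (Fin m ⊕ Fin m) F) : Matrix (Fin m ⊕ Fin m) (Fin m ⊕ Fin m) F) *
      ((x : GL (Fin m ⊕ Fin m) F) : Matrix (Fin m ⊕ Fin m) (Fin m ⊕ Fin m) F) =
      ((x : GL (Fin m ⊕ Fin m) F) : Matrix (Fin m ⊕ Fin m) (Fin m ⊕ Fin m) F) *
      ((g₀ : GL (Fin m ⊕ Fin m) F) : Matrix (Fin m ⊕ Fin m) (Fin m ⊕ Fin m) F)
    rw [hg₀mat, ← hmat, Matrix.ext_iff_mulVec]
    intro v
    rw [← Matrix.mulVec_mulVec, ← Matrix.mulVec_mulVec, SympMat.transvection_mulVec,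
      SympMat.transvection_mulVec, Matrix.mulVec_add, Matrix.mulVec_smul, htu₁]
    congr 3
    nth_rewrite 1 [← htu₁]
    exact (SympMat.mem_symp_iff m _).1 t.2 v u₁
  have hg₀rank : (((g₀ : GL (Fin m ⊕ Fin m) F) : Matrix (Fin m ⊕ Fin m) (Fin m ⊕ Fin m) F)
      - 1).rank = 1 := by
    rw [hg₀mat]
    have e : Cfsg.sympTransvection m u₁ a - 1 =
        Matrix.vecMulVec (a • u₁) (Matrix.J (Fin m) F *ᵥ u₁) := by
      rw [Cfsg.sympTransvection, add_sub_cancel_left, Matrix.smul_vecMulVec]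
    have h3 : (Cfsg.sympTransvection m u₁ a - 1).rank ≤ 1 := by
      rw [e]
      exact Matrix.rank_vecMulVec_le _ _
    have h4 : (Cfsg.sympTransvection m u₁ a - 1).rank ≠ 0 := by
      intro h0
      have h5 := Cfsg.Agent.S2593.eq_one_of_rank _ h0
      obtain ⟨w₁, hw₁⟩ := exists_form_one u₁ hu₁0
      have h6 : Cfsg.sympTransvection m u₁ a *ᵥ w₁ = w₁ := by
        rw [h5, Matrix.one_mulVec]
      rw [SympMat.transvection_mulVec, add_eq_left, Cfsg.Agent.S2593.form_symm2, hw₁,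
        mul_one] at h6
      rcases smul_eq_zero.1 h6 with h7 | h7
      · exact ha0 h7
      · exact hu₁0 h7
    omega
  obtain ⟨ψ, hψ, hψr⟩ := exists_psi (F := F) (m := m) hgood
  have hg₀ψ : ψ g₀ ≠ 1 := by
    rw [Ne, hψr, hg₀rank]
    decide
  have h3 := card_index_two ψ (Subgroup.centralizer
    ({x} : Set ↥(Cfsg.isometryGroup F (Cfsg.quadFormPlus m F)))) g₀ (by
      rw [Subgroup.mem_centralizer_iff]
      intro y hy
      rw [Set.mem_singleton_iff.1 hy]
      exact hg₀x.symm) hg₀ψ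
  have h4 : Nat.card ↥(OC t) = Nat.card ↥(Subgroup.centralizer
      ({x} : Set ↥(Cfsg.isometryGroup F (Cfsg.quadFormPlus m F)))) := by
    rw [ht, card_OC]
    apply Nat.card_congr
    refine Equiv.subtypeEquivRight (fun g => ?_)
    rw [Subgroup.mem_centralizer_iff]
    constructor
    · intro h y hy
      rw [Set.mem_singleton_iff.1 hy]
      exact h.symm
    · intro h
      exact (h x rfl).symm
  have h5 : Nat.card {g : ↥(Cfsg.isometryGroup F (Cfsg.quadFormPlus m F)) //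
      g ∈ Subgroup.centralizer ({x} : Set ↥(Cfsg.isometryGroup F (Cfsg.quadFormPlus m F))) ∧
        ψ g = 1} =
      Nat.card {g : ↥(Cfsg.Omega F (Cfsg.quadFormPlus m F)) //
          (g : ↥(Cfsg.isometryGroup F (Cfsg.quadFormPlus m F))) * x =
            x * (g : ↥(Cfsg.isometryGroup F (Cfsg.quadFormPlus m F)))} := by
    apply Nat.card_congr
    exact
      { toFun := fun g => ⟨⟨g.1, (hψ g.1).1 g.2.2⟩,
          ((Subgroup.mem_centralizer_iff.1 g.2.1) x rfl).symm⟩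
        invFun := fun g => ⟨g.1.1, by
          rw [Subgroup.mem_centralizer_iff]
          intro y hy
          rw [Set.mem_singleton_iff.1 hy]
          exact g.2.symm, (hψ g.1.1).2 g.1.2⟩
        left_inv := fun g => rfl
        right_inv := fun g => rfl }
  rw [h1, h4, h3, h5, ← card_fix, ← h2]
  ring

end

theorem exp_c (m s : ℕ) (hs2 : 2 ≤ s) (hsm : s ≤ m) (hev : Even s) :
    2 * m * s - (3 * s ^ 2 - 3 * s) / 2 - 1 =
      (m + m - s) + (2 * m * (s - 1) - (3 * s ^ 2 - 5 * s) / 2 - 1) := by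
  obtain ⟨i, rfl⟩ : ∃ i, s = 2 * i + 2 := by
    obtain ⟨j, hj⟩ := hev
    exact ⟨j - 1, by omega⟩
  obtain ⟨r, rfl⟩ : ∃ r, m = 2 * i + 2 + r := ⟨m - (2 * i + 2), by omega⟩
  obtain ⟨K, hK⟩ : ∃ K, K = i * i := ⟨_, rfl⟩
  obtain ⟨R, hR⟩ : ∃ R, R = i * r := ⟨_, rfl⟩
  have h1 : 2 * (2 * i + 2 + r) * (2 * i + 2) = 8 * K + 16 * i + 8 + 4 * R + 4 * r := by
    rw [hK, hR]
    ring
  have h2 : 3 * (2 * i + 2) ^ 2 = 12 * K + 24 * i + 12 := by
    rw [hK]
    ring
  have h3 : 2 * (2 * i + 2 + r) * (2 * i + 2 - 1) = 8 * K + 12 * i + 4 + 4 * R + 2 * r := by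
    have h4 : 2 * i + 2 - 1 = 2 * i + 1 := by omega
    rw [h4, hK, hR]
    ring
  rw [h1, h2, h3]
  omega

theorem exp_b (m s : ℕ) (hsm : s ≤ m) (hodd : Odd s) :
    2 * m * s - (3 * s ^ 2 - s) / 2 =
      (m + m - s) + (2 * m * (s - 1) - (3 * s ^ 2 - 3 * s) / 2) := by
  obtain ⟨i, rfl⟩ := hodd
  obtain ⟨r, rfl⟩ : ∃ r, m = 2 * i + 1 + r := ⟨m - (2 * i + 1), by omega⟩
  obtain ⟨K, hK⟩ : ∃ K, K = i * i := ⟨_, rfl⟩
  obtain ⟨R, hR⟩ : ∃ R, R = i * r := ⟨_, rfl⟩
  have h1 : 2 * (2 * i + 1 + r) * (2 * i + 1) = 8 * K + 8 * i + 2 + 4 * R + 2 * r := by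
    rw [hK, hR]
    ring
  have h2 : 3 * (2 * i + 1) ^ 2 = 12 * K + 12 * i + 3 := by
    rw [hK]
    ring
  have h3 : 2 * (2 * i + 1 + r) * (2 * i + 1 - 1) = 8 * K + 4 * i + 4 * R := by
    have h4 : 2 * i + 1 - 1 = 2 * i := by omega
    rw [h4, hK, hR]
    ring
  rw [h1, h2, h3]
  omega

section

variable {F : Type*} [Field F] [Fintype F] [CharP F 2] {m : ℕ}

/-- data of the symplectic element attached to an orthogonal involution -/
theorem sp_data (x : ↥(Cfsg.isometryGroup F (Cfsg.quadFormPlus m F))) (hx : x ^ 2 = 1) :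
    toSp x ^ 2 = 1 ∧
    (((toSp x : ↥(Matrix.symplecticGroup (Fin m) F)) :
        Matrix (Fin m ⊕ Fin m) (Fin m ⊕ Fin m) F) - 1).rank ≤ m ∧
    ∀ v : Fin m ⊕ Fin m → F, Cfsg.sympForm m F v
      (((toSp x : ↥(Matrix.symplecticGroup (Fin m) F)) :
        Matrix (Fin m ⊕ Fin m) (Fin m ⊕ Fin m) F).mulVec v) =
      Cfsg.quadFormPlus m F
        ((((x : GL (Fin m ⊕ Fin m) F) : Matrix (Fin m ⊕ Fin m) (Fin m ⊕ Fin m) F) - 1) *ᵥ v) := by
  have htt : toSp x ^ 2 = 1 := by rw [← map_pow, hx, map_one]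
  have hsq : ((toSp x : ↥(Matrix.symplecticGroup (Fin m) F)) :
        Matrix (Fin m ⊕ Fin m) (Fin m ⊕ Fin m) F) * ((toSp x : ↥(Matrix.symplecticGroup (Fin m) F)) :
        Matrix (Fin m ⊕ Fin m) (Fin m ⊕ Fin m) F) = 1 := by
    have h1 : toSp x * toSp x = 1 := by
      rw [← pow_two]
      exact htt
    exact congrArg Subtype.val h1
  obtain ⟨hN2, hadj, hform⟩ := Cfsg.Agent.S2166.invol_N _ (toSp x).2 hsq
  refine ⟨htt, Cfsg.Agent.S2593.rank_le_of_sq _ hN2, fun v => ?_⟩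
  show Cfsg.sympForm m F v (((toSp x : ↥(Matrix.symplecticGroup (Fin m) F)) :
        Matrix (Fin m ⊕ Fin m) (Fin m ⊕ Fin m) F) *ᵥ v) = _
  rw [hform v]
  have h1 := toSp_Q x v
  have h2 : ((toSp x : ↥(Matrix.symplecticGroup (Fin m) F)) :
        Matrix (Fin m ⊕ Fin m) (Fin m ⊕ Fin m) F) *ᵥ v =
      v + (((toSp x : ↥(Matrix.symplecticGroup (Fin m) F)) :
        Matrix (Fin m ⊕ Fin m) (Fin m ⊕ Fin m) F) - 1) *ᵥ v := by
    rw [Matrix.sub_mulVec, Matrix.one_mulVec]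
    abel
  rw [h2, Q_add] at h1
  have h3 : Cfsg.quadFormPlus m F ((((toSp x : ↥(Matrix.symplecticGroup (Fin m) F)) :
        Matrix (Fin m ⊕ Fin m) (Fin m ⊕ Fin m) F) - 1) *ᵥ v) +
      form m F v ((((toSp x : ↥(Matrix.symplecticGroup (Fin m) F)) :
        Matrix (Fin m ⊕ Fin m) (Fin m ⊕ Fin m) F) - 1) *ᵥ v) = 0 := by
    linear_combination h1
  exact (CharTwo.add_eq_zero.1 h3).symm

end

/-- For the hyperbolic form Q = Σ x_j y_j on F^(2m) over a finite field with q elements, q even (excluding m = 2 over the field of two elements), and an involution x of the orthogonal group with s = rank(x − 1) even and Q not vanishing on the image of x − 1 (f(v, xv) ≠ 0 for some v, where f(u, w) = Q(u + w) − Q(u) − Q(w) is the bilinear form of Q; type c_s, which lies in Ω): its centraliser in Ω (the commutator subgroup of the orthogonal group) has order q^(2m(s−1) − (3s² − 5s)/2 − 1) · |Sp_(s−2)(q)| · |Sp_(2m−2s)(q)|. -/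
theorem result {F : Type*} [Field F] [Fintype F] [CharP F 2] {q : ℕ} (hF : Fintype.card F = q) {m s : ℕ} (h : Fintype.card F ≠ 2 ∨ m ≠ 2) (x : ↥(Cfsg.isometryGroup F (Cfsg.quadFormPlus m F))) (hx : x ^ 2 = 1) (hs : (((x : Matrix.GeneralLinearGroup (Fin m ⊕ Fin m) F) : Matrix (Fin m ⊕ Fin m) (Fin m ⊕ Fin m) F) - 1).rank = s) (heven : Even s) (hna : ∃ v : Fin m ⊕ Fin m → F, Cfsg.quadFormPlus m F ((((x : Matrix.GeneralLinearGroup (Fin m ⊕ Fin m) F) : Matrix (Fin m ⊕ Fin m) (Fin m ⊕ Fin m) F) - 1).mulVec v) ≠ 0) : Nat.card {g : ↥(Cfsg.Omega F (Cfsg.quadFormPlus m F)) // (g : ↥(Cfsg.isometryGroup F (Cfsg.quadFormPlus m F))) * x = x * (g : ↥(Cfsg.isometryGroup F (Cfsg.quadFormPlus m F)))} = q ^ (2 * m * (s - 1) - (3 * s ^ 2 - 5 * s) / 2 - 1) * ((q : ℕ) ^ (((s - 2) / 2) ^ 2) * ∏ i : Fin ((s - 2) / 2), (q ^ (2 * ((i : ℕ) + 1)) - 1)) * ((q : ℕ) ^ ((m - s) ^ 2) * ∏ i : Fin (m - s), (q ^ (2 * ((i : ℕ) + 1)) - 1)) := by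
  classical
  obtain ⟨htt, hrk, hform⟩ := sp_data x hx
  have hs' : (((toSp x : ↥(Matrix.symplecticGroup (Fin m) F)) :
      Matrix (Fin m ⊕ Fin m) (Fin m ⊕ Fin m) F) - 1).rank = s := hs
  have hna' : ∃ v : Fin m ⊕ Fin m → F, Cfsg.sympForm m F v
      (((toSp x : ↥(Matrix.symplecticGroup (Fin m) F)) :
        Matrix (Fin m ⊕ Fin m) (Fin m ⊕ Fin m) F).mulVec v) ≠ 0 := by
    obtain ⟨v, hv⟩ := hna
    refine ⟨v, ?_⟩
    rw [hform v]
    exact hv
  have hS := Cfsg.Agent.S2682.result hF (toSp x) htt hs' heven hna'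
  have hM := nonalt_main h x hx hna
  rw [hS, hs, hF] at hM
  have hsm : s ≤ m := by
    rw [← hs']
    exact hrk
  have hs2 : 2 ≤ s := by
    have hs0 : s ≠ 0 := by
      rintro rfl
      have h1 := Cfsg.Agent.S2593.eq_one_of_rank _ hs
      obtain ⟨v, hv⟩ := hna
      apply hv
      rw [h1, sub_self, Matrix.zero_mulVec, Q_zero]
    obtain ⟨j, hj⟩ := heven
    omega
  rw [exp_c m s hs2 hsm heven, pow_add] at hM
  have hq0 : 0 < q ^ (m + m - s) := by
    apply Nat.pow_pos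
    rw [← hF]
    exact Fintype.card_pos
  apply Nat.eq_of_mul_eq_mul_left hq0
  rw [← hM]
  ring

end Cfsg.Agent.S2685
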