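import Cfsg.Statements.S2683
import Mathlib
import Cfsg.Agent.S2166
import Cfsg.Agent.S2593
import Cfsg.Agent.S2680
import Cfsg.Agent.S2685
import Cfsg.Agent.Lib.Helper13.SympMat

set_option autoImplicit false
open Cfsg

namespace Cfsg.Agent.S2683

/-- For the hyperbolic form Σ x_j y_j on F^(2m) over a finite field with q elements, q even (excluding m = 2 over the field of two elements), and an involution x of the orthogonal group with s = rank(x − 1) odd (type b_s; such x lie outside Ω): the elements of Ω (the commutator subgroup of the orthogonal group) commuting with x number q^(2m(s−1) − (3s² − 3s)/2) · |Sp_(s−1)(q)| · |Sp_(2m−2s)(q)|, where |Sp_2k(q)| = q^(k²) Π_(i=1)^k (q^(2i) − 1). -/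
theorem result {F : Type*} [Field F] [Fintype F] [CharP F 2] {q : ℕ} (hF : Fintype.card F = q) {m s : ℕ} (h : Fintype.card F ≠ 2 ∨ m ≠ 2) (x : ↥(Cfsg.isometryGroup F (Cfsg.quadFormPlus m F))) (hx : x ^ 2 = 1) (hs : (((x : Matrix.GeneralLinearGroup (Fin m ⊕ Fin m) F) : Matrix (Fin m ⊕ Fin m) (Fin m ⊕ Fin m) F) - 1).rank = s) (hodd : Odd s) : Nat.card {g : ↥(Cfsg.Omega F (Cfsg.quadFormPlus m F)) // (g : ↥(Cfsg.isometryGroup F (Cfsg.quadFormPlus m F))) * x = x * (g : ↥(Cfsg.isometryGroup F (Cfsg.quadFormPlus m F)))} = q ^ (2 * m * (s - 1) - (3 * s ^ 2 - 3 * s) / 2) * ((q : ℕ) ^ (((s - 1) / 2) ^ 2) * ∏ i : Fin ((s - 1) / 2), (q ^ (2 * ((i : ℕ) + 1)) - 1)) * ((q : ℕ) ^ ((m - s) ^ 2) * ∏ i : Fin (m - s), (q ^ (2 * ((i : ℕ) + 1)) - 1)) := by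
  classical
  obtain ⟨htt, hrk, hform⟩ := Cfsg.Agent.S2685.sp_data x hx
  have hs' : (((Cfsg.Agent.S2685.toSp x : ↥(Matrix.symplecticGroup (Fin m) F)) :
      Matrix (Fin m ⊕ Fin m) (Fin m ⊕ Fin m) F) - 1).rank = s := hs
  have hsq : ((Cfsg.Agent.S2685.toSp x : ↥(Matrix.symplecticGroup (Fin m) F)) :
        Matrix (Fin m ⊕ Fin m) (Fin m ⊕ Fin m) F) *
      ((Cfsg.Agent.S2685.toSp x : ↥(Matrix.symplecticGroup (Fin m) F)) :
        Matrix (Fin m ⊕ Fin m) (Fin m ⊕ Fin m) F) = 1 := by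
    have h1 : Cfsg.Agent.S2685.toSp x * Cfsg.Agent.S2685.toSp x = 1 := by
      rw [← pow_two]
      exact htt
    exact congrArg Subtype.val h1
  obtain ⟨hN2, hadj, hform2⟩ := Cfsg.Agent.S2166.invol_N _ (Cfsg.Agent.S2685.toSp x).2 hsq
  have hna : ∃ v : Fin m ⊕ Fin m → F, Cfsg.quadFormPlus m F
      ((((x : Matrix.GeneralLinearGroup (Fin m ⊕ Fin m) F) :
        Matrix (Fin m ⊕ Fin m) (Fin m ⊕ Fin m) F) - 1).mulVec v) ≠ 0 := by
    by_contra hcon
    have halt : ∀ v, Cfsg.Agent.Lib.Helper13.SympMat.form m F v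
        ((((Cfsg.Agent.S2685.toSp x : ↥(Matrix.symplecticGroup (Fin m) F)) :
          Matrix (Fin m ⊕ Fin m) (Fin m ⊕ Fin m) F) - 1).mulVec v) = 0 := by
      intro v
      by_contra h0
      exact hcon ⟨v, fun h1 => h0 ((hform2 v).symm.trans ((hform v).trans h1))⟩
    obtain ⟨l, hl, -⟩ := Cfsg.Agent.S2166.frame_alt _ hN2 hadj halt
    obtain ⟨k, hk⟩ := hodd
    omega
  have hS := Cfsg.Agent.S2680.result hF (Cfsg.Agent.S2685.toSp x) htt hs' hodd
  have hM := Cfsg.Agent.S2685.nonalt_main h x hx hna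
  rw [hS, hs, hF] at hM
  have hsm : s ≤ m := by
    rw [← hs']
    exact hrk
  rw [Cfsg.Agent.S2685.exp_b m s hsm hodd, pow_add] at hM
  have hq0 : 0 < q ^ (m + m - s) := by
    apply Nat.pow_pos
    rw [← hF]
    exact Fintype.card_pos
  apply Nat.eq_of_mul_eq_mul_left hq0
  rw [← hM]
  ring

end Cfsg.Agent.S2683
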