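import Cfsg.Statements.S2684
import Mathlib
import Cfsg.Agent.S0775
import Cfsg.Agent.S2166
import Cfsg.Agent.S2593
import Cfsg.Agent.S2681
import Cfsg.Agent.S2685
import Cfsg.Agent.S2630
import Cfsg.Agent.Lib.Helper13.Symp
import Cfsg.Agent.Lib.Helper13.SympMat
import Cfsg.Agent.Lib.Helper44.Inv6
import Cfsg.Agent.Lib.Helper45.OmegaRank

set_option autoImplicit false
open Cfsg

namespace Cfsg.Agent.S2684

open Matrix Cfsg.Agent.Lib.Helper13 Cfsg.Agent.Lib.Helper13.SympMat Cfsg.Agent.S2593 Cfsg.Agent.S2685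

section

variable {F : Type*} [Field F] {m : ℕ}

theorem exists_invol2 [CharP F 2] {ι : Type*} [Fintype ι] [DecidableEq ι] (π : ι → ι)
    (hπ : ∀ p, π (π p) = p) (ψ : ι → Fin m) (hψ : Function.Injective ψ) :
    ∃ t : ↥(Matrix.symplecticGroup (Fin m) F), t * t = 1 ∧
      ∃ e v : ι → (Fin m ⊕ Fin m → F),
      (∀ p q, form m F (v p) (e q) = if p = q then 1 else 0) ∧
      (∀ y, ((t : Matrix (Fin m ⊕ Fin m) (Fin m ⊕ Fin m) F) - 1) *ᵥ y =
        ∑ p, form m F (e (π p)) y • e p) ∧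
      (∀ p i, e p (Sum.inl i) = if i = ψ p then 1 else 0) ∧
      (∀ p i, e p (Sum.inr i) = 0) := by
  classical
  obtain ⟨e, he⟩ : ∃ e : ι → (Fin m ⊕ Fin m → F), e = fun p => Pi.single (Sum.inl (ψ p)) 1 :=
    ⟨_, rfl⟩
  obtain ⟨v, hv⟩ : ∃ v : ι → (Fin m ⊕ Fin m → F), v = fun p => Pi.single (Sum.inr (ψ p)) 1 :=
    ⟨_, rfl⟩
  have he_inl : ∀ p i, e p (Sum.inl i) = if i = ψ p then 1 else 0 := by
    intro p i
    rw [he]
    simp [Pi.single_apply]
  have he_inr : ∀ p i, e p (Sum.inr i) = 0 := by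
    intro p i
    rw [he]
    simp [Pi.single_apply]
  have hv_inr : ∀ p i, v p (Sum.inr i) = if i = ψ p then 1 else 0 := by
    intro p i
    rw [hv]
    simp [Pi.single_apply]
  have hv_inl : ∀ p i, v p (Sum.inl i) = 0 := by
    intro p i
    rw [hv]
    simp [Pi.single_apply]
  have hee : ∀ p q, form m F (e p) (e q) = 0 := by
    intro p q
    rw [form_formula]
    apply Finset.sum_eq_zero
    intro i _
    rw [he_inr, he_inr, zero_mul, mul_zero, sub_zero]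
  have hve : ∀ p q, form m F (v p) (e q) = if p = q then 1 else 0 := by
    intro p q
    rw [form_formula]
    simp only [hv_inr, he_inl, hv_inl, he_inr, mul_zero, sub_zero, ite_mul, one_mul, zero_mul,
      Finset.sum_ite_eq', Finset.mem_univ, if_true]
    by_cases hpq : p = q
    · subst hpq
      rw [if_pos rfl, if_pos rfl]
    · rw [if_neg hpq, if_neg (hψ.ne hpq)]
  obtain ⟨N, hNdef⟩ : ∃ N : Matrix (Fin m ⊕ Fin m) (Fin m ⊕ Fin m) F,
      N = LinearMap.toMatrix' (∑ p, (form m F (e (π p))).smulRight (e p)) := ⟨_, rfl⟩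
  have hNy : ∀ y, N *ᵥ y = ∑ p, form m F (e (π p)) y • e p := by
    intro y
    rw [hNdef, ← Matrix.toLin'_apply, Matrix.toLin'_toMatrix', LinearMap.sum_apply]
    rfl
  have hNN : ∀ u w, form m F (N *ᵥ u) (N *ᵥ w) = 0 := by
    intro u w
    rw [hNy, hNy]
    simp only [map_sum, map_smul, LinearMap.sum_apply, LinearMap.smul_apply, hee, smul_zero,
      Finset.sum_const_zero]
  have hN0 : ∀ u, N *ᵥ (N *ᵥ u) = 0 := by
    intro u
    rw [hNy (N *ᵥ u)]
    apply Finset.sum_eq_zero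
    intro p _
    rw [hNy u, map_sum, Finset.sum_eq_zero, zero_smul]
    intro q _
    rw [map_smul, hee, smul_zero]
  have hadj : ∀ u w, form m F (N *ᵥ u) w = form m F u (N *ᵥ w) := by
    intro u w
    rw [hNy, hNy, map_sum, map_sum, LinearMap.sum_apply]
    have hπ' : Function.Involutive π := hπ
    rw [← Equiv.sum_comp (Function.Involutive.toPerm π hπ')]
    apply Finset.sum_congr rfl
    intro p _
    have h1 : (Function.Involutive.toPerm π hπ') p = π p := rfl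
    rw [h1, hπ, map_smul, map_smul, LinearMap.smul_apply, smul_eq_mul,
      smul_eq_mul, form_symm2 u (e p), mul_comm]
  have hTx : ∀ x, (1 + N) *ᵥ x = x + N *ᵥ x := by
    intro x
    rw [Matrix.add_mulVec, Matrix.one_mulVec]
  have hmem : (1 + N) ∈ Matrix.symplecticGroup (Fin m) F := by
    rw [mem_symp_iff]
    intro u w
    rw [hTx, hTx]
    simp only [map_add, LinearMap.add_apply]
    rw [hNN, hadj, add_zero, add_assoc, CharTwo.add_self_eq_zero, add_zero]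
  have hTT : (1 + N) * (1 + N) = 1 := by
    rw [Matrix.ext_iff_mulVec]
    intro x
    rw [← Matrix.mulVec_mulVec, hTx, hTx, Matrix.mulVec_add, hN0, add_zero, Matrix.one_mulVec,
      add_assoc]
    have h2 : N *ᵥ x + N *ᵥ x = 0 := by
      rw [← two_smul F, CharTwo.two_eq_zero, zero_smul]
    rw [h2, add_zero]
  refine ⟨⟨1 + N, hmem⟩, Subtype.ext hTT, e, v, hve, ?_, he_inl, he_inr⟩
  intro y
  show (1 + N - 1) *ᵥ y = _
  rw [add_sub_cancel_left, hNy]


end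

section

variable {F : Type*} [Field F] [CharP F 2] {m : ℕ}

theorem std_rep (l : ℕ) (hlm : l + l ≤ m) :
    ∃ t₀ : ↥(Matrix.symplecticGroup (Fin m) F), t₀ * t₀ = 1 ∧
      ((t₀ : Matrix (Fin m ⊕ Fin m) (Fin m ⊕ Fin m) F) - 1).rank = l + l ∧
      (∀ y, form m F y (((t₀ : Matrix (Fin m ⊕ Fin m) (Fin m ⊕ Fin m) F) - 1) *ᵥ y) = 0) ∧
      (∀ v, Cfsg.quadFormPlus m F ((t₀ : Matrix (Fin m ⊕ Fin m) (Fin m ⊕ Fin m) F) *ᵥ v) =
        Cfsg.quadFormPlus m F v) ∧
      ∃ ψ : Fin l ⊕ Fin l → Fin m, Function.Injective ψ ∧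
        (∀ w, (t₀ : Matrix (Fin m ⊕ Fin m) (Fin m ⊕ Fin m) F) *ᵥ w = w ↔
          ∀ p, w (Sum.inr (ψ p)) = 0) ∧
        (∀ y i, (((t₀ : Matrix (Fin m ⊕ Fin m) (Fin m ⊕ Fin m) F) - 1) *ᵥ y) (Sum.inr i) = 0) := by
  classical
  obtain ⟨ψ, hψdef⟩ : ∃ ψ : Fin l ⊕ Fin l → Fin m,
      ψ = fun p => Fin.castLE hlm (finSumFinEquiv p) := ⟨_, rfl⟩
  have hψ : Function.Injective ψ := by
    rw [hψdef]
    exact (Fin.castLE_injective hlm).comp finSumFinEquiv.injective
  obtain ⟨t, htt, e, v, hve, hN, he_inl, he_inr⟩ := exists_invol2 (F := F)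
    (Sum.swap : Fin l ⊕ Fin l → Fin l ⊕ Fin l) Sum.swap_swap ψ hψ
  have halt := alt_of_frame _ e hN
  have hinr : ∀ y i, (((t : Matrix (Fin m ⊕ Fin m) (Fin m ⊕ Fin m) F) - 1) *ᵥ y) (Sum.inr i)
      = 0 := by
    intro y i
    rw [hN, Finset.sum_apply]
    apply Finset.sum_eq_zero
    intro p _
    rw [Pi.smul_apply, he_inr, smul_zero]
  have hQN : ∀ y, Cfsg.quadFormPlus m F
      (((t : Matrix (Fin m ⊕ Fin m) (Fin m ⊕ Fin m) F) - 1) *ᵥ y) = 0 := by
    intro y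
    unfold Cfsg.quadFormPlus
    apply Finset.sum_eq_zero
    intro i _
    rw [hinr, mul_zero]
  have hfe : ∀ q w, form m F (e q) w = w (Sum.inr (ψ q)) := by
    intro q w
    rw [form_formula]
    simp only [he_inr, he_inl, zero_mul, zero_sub, ite_mul, one_mul]
    rw [Finset.sum_neg_distrib, Finset.sum_ite_eq' Finset.univ (ψ q), if_pos (Finset.mem_univ _),
      CharTwo.neg_eq]
  refine ⟨t, htt, ?_, halt, ?_, ψ, hψ, ?_, hinr⟩
  · rw [rank_of_frame Sum.swap Sum.swap_swap _ e v hve hN, Fintype.card_sum, Fintype.card_fin]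
  · intro v'
    have h2 : (t : Matrix (Fin m ⊕ Fin m) (Fin m ⊕ Fin m) F) *ᵥ v' =
        v' + ((t : Matrix (Fin m ⊕ Fin m) (Fin m ⊕ Fin m) F) - 1) *ᵥ v' := by
      rw [Matrix.sub_mulVec, Matrix.one_mulVec]
      abel
    rw [h2, Q_add, hQN, halt, add_zero, add_zero]
  · intro w
    have h1 : (t : Matrix (Fin m ⊕ Fin m) (Fin m ⊕ Fin m) F) *ᵥ w = w ↔
        ((t : Matrix (Fin m ⊕ Fin m) (Fin m ⊕ Fin m) F) - 1) *ᵥ w = 0 := by
      rw [Matrix.sub_mulVec, Matrix.one_mulVec, sub_eq_zero]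
    rw [h1, hN]
    constructor
    · intro h p
      have h3 := congrArg (form m F (v (Sum.swap p))) h
      rw [map_sum, map_zero] at h3
      simp only [map_smul, smul_eq_mul, hve, mul_ite, mul_one, mul_zero, Finset.sum_ite_eq,
        Finset.mem_univ, if_true, Sum.swap_swap] at h3
      rw [← hfe p w]
      exact h3
    · intro h
      apply Finset.sum_eq_zero
      intro p _
      rw [hfe, h, zero_smul]

end

section

variable {F : Type*} [Field F] [Fintype F] {m : ℕ}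

theorem card_B0 {ι : Type*} [Fintype ι] (ψ : ι → Fin m) (hψ : Function.Injective ψ) :
    Nat.card {b : Fin m → F // ∀ p, b (ψ p) = 0} = Fintype.card F ^ (m - Fintype.card ι) := by
  classical
  have e : {b : Fin m → F // ∀ p, b (ψ p) = 0} ≃ ({i : Fin m // i ∉ Set.range ψ} → F) :=
    { toFun := fun b i => b.1 i.1
      invFun := fun c => ⟨fun i => if h : i ∈ Set.range ψ then 0 else c ⟨i, h⟩,
        fun p => dif_pos ⟨p, rfl⟩⟩
      left_inv := fun b => by
        apply Subtype.ext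
        funext i
        by_cases h : i ∈ Set.range ψ
        · obtain ⟨p, rfl⟩ := h
          show (if h : ψ p ∈ Set.range ψ then (0 : F) else b.1 (⟨ψ p, h⟩ :
            {i : Fin m // i ∉ Set.range ψ}).1) = _
          rw [dif_pos ⟨p, rfl⟩, b.2 p]
        · show (if h : i ∈ Set.range ψ then (0 : F) else b.1 (⟨i, h⟩ :
            {i : Fin m // i ∉ Set.range ψ}).1) = _
          rw [dif_neg h]
      right_inv := fun c => by
        funext i
        show (if h : i.1 ∈ Set.range ψ then (0 : F) else c ⟨i.1, h⟩) = c i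
        rw [dif_neg i.2] }
  rw [Nat.card_congr e, Nat.card_fun, Nat.card_eq_fintype_card (α := F)]
  congr 1
  have h1 := Nat.card_congr (Equiv.sumCompl (fun i : Fin m => i ∈ Set.range ψ))
  rw [Nat.card_sum, Nat.card_eq_fintype_card (α := Fin m), Fintype.card_fin] at h1
  have h2 : Nat.card {i : Fin m // i ∈ Set.range ψ} = Fintype.card ι := by
    rw [← Nat.card_eq_fintype_card]
    exact Nat.card_range_of_injective hψ
  omega

variable [CharP F 2]

theorem count_alt {ι : Type*} [Fintype ι] (ψ : ι → Fin m) (hψ : Function.Injective ψ) :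
    2 * Nat.card {w : Fin m ⊕ Fin m → F // (∀ p, w (Sum.inr (ψ p)) = 0) ∧
      Cfsg.quadFormPlus m F w ∈ (wp F).range} =
      Fintype.card F ^ m * (Fintype.card F ^ (m - Fintype.card ι) + 1) := by
  classical
  obtain ⟨n, hn⟩ : ∃ n, n = Fintype.card F ^ m := ⟨_, rfl⟩
  have hn' : Fintype.card (Fin m → F) = n := by rw [hn, Fintype.card_pi_const]
  have hc0 : (Finset.univ.filter (fun a : Fin m → F =>
      a ⬝ᵥ (0 : Fin m → F) ∈ (wp F).range)).card = n := by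
    rw [Finset.filter_true_of_mem (fun a _ => by rw [dotProduct_zero]; exact zero_mem _),
      Finset.card_univ, hn']
  have hc1 : ∀ b : Fin m → F, b ≠ 0 → 2 * (Finset.univ.filter (fun a : Fin m → F =>
      a ⬝ᵥ b ∈ (wp F).range)).card = n := by
    intro b hb
    obtain ⟨i, hi⟩ : ∃ i, b i ≠ 0 := by
      by_contra h
      apply hb
      funext i
      by_contra h2
      exact h ⟨i, h2⟩
    obtain ⟨c₀, hc₀⟩ := exists_not_wp (F := F)
    have h1 := card_half (fun a : Fin m → F => a ⬝ᵥ b ∈ (wp F).range)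
      (fun a => a + Pi.single i (c₀ / b i))
      (fun a => by
        have h2 : Pi.single i (c₀ / b i) + Pi.single i (c₀ / b i) = (0 : Fin m → F) := by
          rw [← Pi.single_add, CharTwo.add_self_eq_zero, Pi.single_zero]
        rw [add_assoc, h2, add_zero])
      (fun a => by
        show (a + Pi.single i (c₀ / b i)) ⬝ᵥ b ∈ (wp F).range ↔ ¬ a ⬝ᵥ b ∈ (wp F).range
        rw [add_dotProduct, single_dotProduct, div_mul_cancel₀ _ hi,
          AddSubgroup.add_mem_iff_of_index_two wp_index]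
        constructor
        · intro h hw
          exact hc₀ (h.1 hw)
        · intro h
          exact ⟨fun hw => absurd hw h, fun hc => absurd hc hc₀⟩)
    rw [Nat.card_eq_fintype_card, Nat.card_eq_fintype_card, Fintype.card_subtype, hn'] at h1
    exact h1
  have hT : Nat.card {w : Fin m ⊕ Fin m → F // (∀ p, w (Sum.inr (ψ p)) = 0) ∧
      Cfsg.quadFormPlus m F w ∈ (wp F).range} =
      (Finset.univ.filter (fun p : (Fin m → F) × (Fin m → F) =>
        (∀ i, p.2 (ψ i) = 0) ∧ p.1 ⬝ᵥ p.2 ∈ (wp F).range)).card := by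
    rw [← Fintype.card_subtype, ← Nat.card_eq_fintype_card]
    apply Nat.card_congr
    exact Equiv.subtypeEquiv (Equiv.sumArrowEquivProdArrow (Fin m) (Fin m) F) (fun w => Iff.rfl)
  rw [hT, Finset.card_filter, Fintype.sum_prod_type_right, Finset.mul_sum]
  have h1 : ∀ b : Fin m → F, 2 * (∑ a : Fin m → F,
      if ((∀ i, (a, b).2 (ψ i) = 0) ∧ (a, b).1 ⬝ᵥ (a, b).2 ∈ (wp F).range) then 1 else 0) =
      (if (∀ i, b (ψ i) = 0) then n else 0) + (if b = 0 then n else 0) := by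
    intro b
    by_cases hb : ∀ i, b (ψ i) = 0
    · rw [if_pos hb]
      have h2 : (∑ a : Fin m → F,
          if ((∀ i, (a, b).2 (ψ i) = 0) ∧ (a, b).1 ⬝ᵥ (a, b).2 ∈ (wp F).range) then 1 else 0) =
          (Finset.univ.filter (fun a : Fin m → F => a ⬝ᵥ b ∈ (wp F).range)).card := by
        rw [Finset.card_filter]
        apply Finset.sum_congr rfl
        intro a _
        by_cases h3 : a ⬝ᵥ b ∈ (wp F).range
        · rw [if_pos ⟨hb, h3⟩, if_pos h3]
        · rw [if_neg (fun h => h3 h.2), if_neg h3]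
      rw [h2]
      by_cases hb0 : b = 0
      · rw [if_pos hb0, hb0, hc0]
        ring
      · rw [if_neg hb0, hc1 b hb0, add_zero]
    · rw [if_neg hb]
      have hb0 : b ≠ 0 := by
        rintro rfl
        exact hb (fun i => rfl)
      rw [if_neg hb0, add_zero, Finset.sum_eq_zero (fun a _ => if_neg (fun h => hb h.1)),
        mul_zero]
  rw [Finset.sum_congr rfl (fun b _ => h1 b), Finset.sum_add_distrib,
    Finset.sum_ite_eq' Finset.univ (0 : Fin m → F), if_pos (Finset.mem_univ _),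
    ← Finset.sum_filter, Finset.sum_const, smul_eq_mul, ← Fintype.card_subtype,
    ← Nat.card_eq_fintype_card, card_B0 ψ hψ, hn]
  ring

end

theorem card_conj {G : Type*} [Group G] (H : Subgroup G) [hH : H.Normal] (x k : G) :
    Nat.card {g : H // (g : G) * x = x * g} =
      Nat.card {g : H // (g : G) * (k * x * k⁻¹) = (k * x * k⁻¹) * g} := by
  apply Nat.card_congr
  exact
    { toFun := fun g => ⟨⟨k * g.1.1 * k⁻¹, hH.conj_mem _ g.1.2 k⟩, by
        show k * g.1.1 * k⁻¹ * (k * x * k⁻¹) = k * x * k⁻¹ * (k * g.1.1 * k⁻¹)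
        calc k * g.1.1 * k⁻¹ * (k * x * k⁻¹) = k * (g.1.1 * x) * k⁻¹ := by group
          _ = k * (x * g.1.1) * k⁻¹ := by rw [g.2]
          _ = _ := by group⟩
      invFun := fun g => ⟨⟨k⁻¹ * g.1.1 * k, by
          have h := hH.conj_mem _ g.1.2 k⁻¹
          rwa [inv_inv] at h⟩, by
        show k⁻¹ * g.1.1 * k * x = x * (k⁻¹ * g.1.1 * k)
        have h := g.2
        calc k⁻¹ * g.1.1 * k * x = k⁻¹ * (g.1.1 * (k * x * k⁻¹)) * k := by group
          _ = k⁻¹ * (k * x * k⁻¹ * g.1.1) * k := by rw [h]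
          _ = _ := by group⟩
      left_inv := fun g => Subtype.ext (Subtype.ext (by
        show k⁻¹ * (k * g.1.1 * k⁻¹) * k = g.1.1
        group))
      right_inv := fun g => Subtype.ext (Subtype.ext (by
        show k * (k⁻¹ * g.1.1 * k) * k⁻¹ = g.1.1
        group)) }

theorem exp_a (m s : ℕ) (hsm : s ≤ m) (hev : Even s) :
    2 * m * s - (3 * s ^ 2 - s) / 2 + (m - s) ^ 2 =
      m + (2 * m * s - (3 * s ^ 2 + s) / 2) + (m - s) * (m - s - 1) := by
  obtain ⟨i, rfl⟩ : ∃ i, s = 2 * i := by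
    obtain ⟨j, hj⟩ := hev
    exact ⟨j, by omega⟩
  obtain ⟨r, rfl⟩ : ∃ r, m = 2 * i + r := ⟨m - 2 * i, by omega⟩
  obtain ⟨K, hK⟩ : ∃ K, K = i * i := ⟨_, rfl⟩
  obtain ⟨R, hR⟩ : ∃ R, R = i * r := ⟨_, rfl⟩
  obtain ⟨D, hD⟩ : ∃ D, D = r * (r - 1) := ⟨_, rfl⟩
  have h1 : 2 * (2 * i + r) * (2 * i) = 8 * K + 4 * R := by
    rw [hK, hR]
    ring
  have h2 : 3 * (2 * i) ^ 2 = 12 * K := by
    rw [hK]
    ring
  have h3 : 2 * i + r - 2 * i = r := by omega
  have h4 : r ^ 2 = D + r := by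
    rw [hD]
    cases r with
    | zero => rfl
    | succ r' =>
      rw [Nat.add_sub_cancel]
      ring
  have h5 : i ≤ K := by
    rw [hK]
    exact Nat.le_mul_self i
  rw [h1, h2, h3, h4, ← hD]
  omega

theorem final_lt (q m s A C S : ℕ) (hq : 0 < q) (hsm : s < m) (hev : Even s)
    (h1 : S * (2 * C) = q ^ (2 * m * s - (3 * s ^ 2 - s) / 2) * A *
      (q ^ ((m - s) ^ 2) * ∏ i : Fin (m - s), (q ^ (2 * ((i : ℕ) + 1)) - 1)))
    (h2 : 2 * S = q ^ m * (q ^ (m - s) + 1)) :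
    C = q ^ (2 * m * s - (3 * s ^ 2 + s) / 2) * A *
      (q ^ ((m - s) * (m - s - 1)) * (q ^ (m - s) - 1) *
        ∏ i : Fin (m - s - 1), (q ^ (2 * ((i : ℕ) + 1)) - 1)) := by
  have hexp := exp_a m s hsm.le hev
  obtain ⟨d, hd⟩ : ∃ d, m - s = d + 1 := ⟨m - s - 1, by omega⟩
  rw [hd] at h1 h2 hexp ⊢
  rw [Nat.add_sub_cancel] at hexp ⊢
  rw [Fin.prod_univ_castSucc] at h1
  simp only [Fin.val_castSucc, Fin.val_last] at h1
  obtain ⟨y, hy⟩ : ∃ y, q ^ (d + 1) = y + 1 :=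
    ⟨q ^ (d + 1) - 1, by have := Nat.pow_pos (n := d + 1) hq; omega⟩
  have hy2 : q ^ (2 * (d + 1)) - 1 = y * (y + 2) := by
    have h3 : q ^ (2 * (d + 1)) = y * (y + 2) + 1 := by
      rw [mul_comm 2, pow_mul, hy]
      ring
    rw [h3, Nat.add_sub_cancel]
  rw [hy2] at h1
  rw [hy] at h2 ⊢
  rw [Nat.add_sub_cancel]
  generalize (∏ i : Fin d, (q ^ (2 * ((i : ℕ) + 1)) - 1)) = P at h1 ⊢
  have hX : q ^ (2 * m * s - (3 * s ^ 2 - s) / 2) * q ^ ((d + 1) ^ 2) =
      q ^ m * q ^ (2 * m * s - (3 * s ^ 2 + s) / 2) * q ^ ((d + 1) * d) := by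
    rw [← pow_add, ← pow_add, ← pow_add, hexp]
  have hX₃ : 0 < q ^ m := Nat.pow_pos hq
  generalize q ^ (2 * m * s - (3 * s ^ 2 - s) / 2) = X₁ at h1 hX ⊢
  generalize q ^ ((d + 1) ^ 2) = X₂ at h1 hX
  generalize q ^ (2 * m * s - (3 * s ^ 2 + s) / 2) = X₄ at hX ⊢
  generalize q ^ ((d + 1) * d) = X₅ at hX ⊢
  generalize q ^ m = X₃ at h2 hX hX₃
  have hpos : 0 < X₃ * (y + 1 + 1) := Nat.mul_pos hX₃ (by omega)
  apply Nat.eq_of_mul_eq_mul_left hpos
  calc X₃ * (y + 1 + 1) * C = S * (2 * C) := by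
        rw [← h2]
        ring
    _ = X₁ * A * (X₂ * (P * (y * (y + 2)))) := h1
    _ = (X₁ * X₂) * (A * P * y * (y + 2)) := by ring
    _ = X₃ * (y + 1 + 1) * (X₄ * A * (X₅ * y * P)) := by
        rw [hX]
        ring

theorem final_eq (q m A C S : ℕ) (hq : 0 < q) (hev : Even m)
    (h1 : S * C = q ^ (2 * m * m - (3 * m ^ 2 - m) / 2) * A *
      (q ^ ((m - m) ^ 2) * ∏ i : Fin (m - m), (q ^ (2 * ((i : ℕ) + 1)) - 1)))
    (h2 : 2 * S = q ^ m * (q ^ (m - m) + 1)) :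
    C = q ^ (2 * m * m - (3 * m ^ 2 + m) / 2) * A * 1 := by
  have hexp := exp_a m m le_rfl hev
  rw [Nat.sub_self] at h1 h2 hexp
  have h1' : S * C = q ^ (2 * m * m - (3 * m ^ 2 - m) / 2) * A := by
    rw [h1]
    simp
  have h2' : S = q ^ m := by
    have h3 : 2 * S = q ^ m * 2 := by
      rw [h2]
      simp
    omega
  have hexp' : 2 * m * m - (3 * m ^ 2 - m) / 2 = m + (2 * m * m - (3 * m ^ 2 + m) / 2) := by
    simpa using hexp
  rw [h2', hexp', pow_add, mul_assoc] at h1'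
  rw [mul_one]
  exact Nat.eq_of_mul_eq_mul_left (Nat.pow_pos hq) h1'

section

variable {F : Type*} [Field F] [Fintype F] [CharP F 2] {m : ℕ}

theorem index_two_of_vec (hgood : Fintype.card F ≠ 2 ∨ m ≠ 2)
    (x : ↥(Cfsg.isometryGroup F (Cfsg.quadFormPlus m F))) (u₁ : Fin m ⊕ Fin m → F)
    (htu₁ : ((x : GL (Fin m ⊕ Fin m) F) : Matrix (Fin m ⊕ Fin m) (Fin m ⊕ Fin m) F) *ᵥ u₁ = u₁)
    (hv₀ : Cfsg.quadFormPlus m F u₁ ≠ 0) :
    Nat.card {g : ↥(Cfsg.isometryGroup F (Cfsg.quadFormPlus m F)) // g * x = x * g} =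
      2 * Nat.card {g : ↥(Cfsg.Omega F (Cfsg.quadFormPlus m F)) //
          (g : ↥(Cfsg.isometryGroup F (Cfsg.quadFormPlus m F))) * x =
            x * (g : ↥(Cfsg.isometryGroup F (Cfsg.quadFormPlus m F)))} := by
  classical
  have hu₁0 : u₁ ≠ 0 := by
    rintro h
    apply hv₀
    rw [h, Q_zero]
  obtain ⟨a, ha⟩ : ∃ a : F, a = (Cfsg.quadFormPlus m F u₁)⁻¹ := ⟨_, rfl⟩
  have ha0 : a ≠ 0 := by
    rw [ha]
    exact inv_ne_zero hv₀
  have hTQ : ∀ v, Cfsg.quadFormPlus m F (Cfsg.sympTransvection m u₁ a *ᵥ v) =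
      Cfsg.quadFormPlus m F v := by
    intro v
    rw [Q_transv _ Q_add Q_smul]
    have h3 : a + a ^ 2 * Cfsg.quadFormPlus m F u₁ = 0 := by
      rw [ha, pow_two, mul_assoc, inv_mul_cancel₀ hv₀, mul_one]
      exact CharTwo.add_self_eq_zero _
    rw [h3, zero_mul, add_zero]
  obtain ⟨g₀, hg₀⟩ : ∃ g₀, g₀ = toO ⟨Cfsg.sympTransvection m u₁ a,
    SympMat.transvection_mem m u₁ a⟩ hTQ := ⟨_, rfl⟩
  have hg₀mat : ((g₀ : GL (Fin m ⊕ Fin m) F) : Matrix (Fin m ⊕ Fin m) (Fin m ⊕ Fin m) F) =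
      Cfsg.sympTransvection m u₁ a := by
    rw [hg₀]
    rfl
  have hg₀x : g₀ * x = x * g₀ := by
    apply Subtype.ext
    apply Units.ext
    show ((g₀ : GL (Fin m ⊕ Fin m) F) : Matrix (Fin m ⊕ Fin m) (Fin m ⊕ Fin m) F) *
      ((x : GL (Fin m ⊕ Fin m) F) : Matrix (Fin m ⊕ Fin m) (Fin m ⊕ Fin m) F) =
      ((x : GL (Fin m ⊕ Fin m) F) : Matrix (Fin m ⊕ Fin m) (Fin m ⊕ Fin m) F) *
      ((g₀ : GL (Fin m ⊕ Fin m) F) : Matrix (Fin m ⊕ Fin m) (Fin m ⊕ Fin m) F)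
    rw [hg₀mat, Matrix.ext_iff_mulVec]
    intro v
    rw [← Matrix.mulVec_mulVec, ← Matrix.mulVec_mulVec, SympMat.transvection_mulVec,
      SympMat.transvection_mulVec, Matrix.mulVec_add, Matrix.mulVec_smul, htu₁]
    congr 3
    nth_rewrite 1 [← htu₁]
    exact (SympMat.mem_symp_iff m _).1 (toSp x).2 v u₁
  have hg₀rank : (((g₀ : GL (Fin m ⊕ Fin m) F) : Matrix (Fin m ⊕ Fin m) (Fin m ⊕ Fin m) F)
      - 1).rank = 1 := by
    rw [hg₀mat]
    have e : Cfsg.sympTransvection m u₁ a - 1 =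
        Matrix.vecMulVec (a • u₁) (Matrix.J (Fin m) F *ᵥ u₁) := by
      rw [Cfsg.sympTransvection, add_sub_cancel_left, Matrix.smul_vecMulVec]
    have h3 : (Cfsg.sympTransvection m u₁ a - 1).rank ≤ 1 := by
      rw [e]
      exact Matrix.rank_vecMulVec_le _ _
    have h4 : (Cfsg.sympTransvection m u₁ a - 1).rank ≠ 0 := by
      intro h0
      have h5 := Cfsg.Agent.S2593.eq_one_of_rank _ h0
      obtain ⟨w₁, hw₁⟩ := exists_form_one u₁ hu₁0
      have h6 : Cfsg.sympTransvection m u₁ a *ᵥ w₁ = w₁ := by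
        rw [h5, Matrix.one_mulVec]
      rw [SympMat.transvection_mulVec, add_eq_left, Cfsg.Agent.S2593.form_symm2, hw₁,
        mul_one] at h6
      rcases smul_eq_zero.1 h6 with h7 | h7
      · exact ha0 h7
      · exact hu₁0 h7
    omega
  obtain ⟨ψ, hψ, hψr⟩ := exists_psi (F := F) (m := m) hgood
  have hg₀ψ : ψ g₀ ≠ 1 := by
    rw [Ne, hψr, hg₀rank]
    decide
  have h3 := card_index_two ψ (Subgroup.centralizer
    ({x} : Set ↥(Cfsg.isometryGroup F (Cfsg.quadFormPlus m F)))) g₀ (by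
      rw [Subgroup.mem_centralizer_iff]
      intro y hy
      rw [Set.mem_singleton_iff.1 hy]
      exact hg₀x.symm) hg₀ψ
  have h4 : Nat.card {g : ↥(Cfsg.isometryGroup F (Cfsg.quadFormPlus m F)) // g * x = x * g} =
      Nat.card ↥(Subgroup.centralizer
      ({x} : Set ↥(Cfsg.isometryGroup F (Cfsg.quadFormPlus m F)))) := by
    apply Nat.card_congr
    refine Equiv.subtypeEquivRight (fun g => ?_)
    rw [Subgroup.mem_centralizer_iff]
    constructor
    · intro h y hy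
      rw [Set.mem_singleton_iff.1 hy]
      exact h.symm
    · intro h
      exact (h x rfl).symm
  have h5 : Nat.card {g : ↥(Cfsg.isometryGroup F (Cfsg.quadFormPlus m F)) //
      g ∈ Subgroup.centralizer ({x} : Set ↥(Cfsg.isometryGroup F (Cfsg.quadFormPlus m F))) ∧
        ψ g = 1} =
      Nat.card {g : ↥(Cfsg.Omega F (Cfsg.quadFormPlus m F)) //
          (g : ↥(Cfsg.isometryGroup F (Cfsg.quadFormPlus m F))) * x =
            x * (g : ↥(Cfsg.isometryGroup F (Cfsg.quadFormPlus m F)))} := by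
    apply Nat.card_congr
    exact
      { toFun := fun g => ⟨⟨g.1, (hψ g.1).1 g.2.2⟩,
          ((Subgroup.mem_centralizer_iff.1 g.2.1) x rfl).symm⟩
        invFun := fun g => ⟨g.1.1, by
          rw [Subgroup.mem_centralizer_iff]
          intro y hy
          rw [Set.mem_singleton_iff.1 hy]
          exact g.2.symm, (hψ g.1.1).2 g.1.2⟩
        left_inv := fun g => rfl
        right_inv := fun g => rfl }
  rw [h4, h3, h5]

omit [Fintype F] [CharP F 2] in
theorem finrank_U0 : Module.finrank F ↥(LinearMap.ker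
    (LinearMap.funLeft F F (Sum.inr : Fin m → Fin m ⊕ Fin m))) = m := by
  have h1 := LinearMap.finrank_range_add_finrank_ker
    (LinearMap.funLeft F F (Sum.inr : Fin m → Fin m ⊕ Fin m))
  have h2 : LinearMap.range (LinearMap.funLeft F F (Sum.inr : Fin m → Fin m ⊕ Fin m)) = ⊤ :=
    LinearMap.range_eq_top.2
      (LinearMap.funLeft_surjective_of_injective F F _ Sum.inr_injective)
  rw [h2, finrank_top, Module.finrank_fintype_fun_eq_card, Module.finrank_fintype_fun_eq_card,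
    Fintype.card_sum, Fintype.card_fin] at h1
  omega

theorem cent_in_omega (hm : 1 ≤ m) (hgood : Fintype.card F ≠ 2 ∨ m ≠ 2)
    (x₀ : ↥(Cfsg.isometryGroup F (Cfsg.quadFormPlus m F)))
    (hrk : (((x₀ : GL (Fin m ⊕ Fin m) F) : Matrix (Fin m ⊕ Fin m) (Fin m ⊕ Fin m) F) - 1).rank
      = m)
    (hinr : ∀ y i, ((((x₀ : GL (Fin m ⊕ Fin m) F) :
      Matrix (Fin m ⊕ Fin m) (Fin m ⊕ Fin m) F) - 1) *ᵥ y) (Sum.inr i) = 0)
    (g : ↥(Cfsg.isometryGroup F (Cfsg.quadFormPlus m F))) (hg : g * x₀ = x₀ * g) :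
    g ∈ Cfsg.Omega F (Cfsg.quadFormPlus m F) := by
  rw [← Cfsg.Agent.S2630.result hm hgood g]
  have hrange : LinearMap.range (((x₀ : GL (Fin m ⊕ Fin m) F) :
      Matrix (Fin m ⊕ Fin m) (Fin m ⊕ Fin m) F) - 1).mulVecLin =
      LinearMap.ker (LinearMap.funLeft F F (Sum.inr : Fin m → Fin m ⊕ Fin m)) := by
    apply Submodule.eq_of_le_of_finrank_eq
    · rintro _ ⟨y, rfl⟩
      rw [LinearMap.mem_ker]
      funext i
      rw [LinearMap.funLeft_apply, Matrix.mulVecLin_apply]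
      exact hinr y i
    · rw [finrank_U0]
      exact hrk
  have hmap : (LinearMap.ker (LinearMap.funLeft F F (Sum.inr : Fin m → Fin m ⊕ Fin m))).map
      (Matrix.mulVecLin ((g : Matrix.GeneralLinearGroup (Fin m ⊕ Fin m) F) :
        Matrix (Fin m ⊕ Fin m) (Fin m ⊕ Fin m) F)) =
      LinearMap.ker (LinearMap.funLeft F F (Sum.inr : Fin m → Fin m ⊕ Fin m)) := by
    rw [← hrange, ← LinearMap.range_comp]
    have hcomm : (Matrix.mulVecLin ((g : Matrix.GeneralLinearGroup (Fin m ⊕ Fin m) F) :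
        Matrix (Fin m ⊕ Fin m) (Fin m ⊕ Fin m) F)).comp
        (((x₀ : GL (Fin m ⊕ Fin m) F) :
          Matrix (Fin m ⊕ Fin m) (Fin m ⊕ Fin m) F) - 1).mulVecLin =
        (((x₀ : GL (Fin m ⊕ Fin m) F) :
          Matrix (Fin m ⊕ Fin m) (Fin m ⊕ Fin m) F) - 1).mulVecLin.comp
        (Matrix.mulVecLin ((g : Matrix.GeneralLinearGroup (Fin m ⊕ Fin m) F) :
        Matrix (Fin m ⊕ Fin m) (Fin m ⊕ Fin m) F)) := by
      rw [← Matrix.mulVecLin_mul, ← Matrix.mulVecLin_mul]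
      congr 1
      have h1 : ((g : GL (Fin m ⊕ Fin m) F) : Matrix (Fin m ⊕ Fin m) (Fin m ⊕ Fin m) F) *
          ((x₀ : GL (Fin m ⊕ Fin m) F) : Matrix (Fin m ⊕ Fin m) (Fin m ⊕ Fin m) F) =
          ((x₀ : GL (Fin m ⊕ Fin m) F) : Matrix (Fin m ⊕ Fin m) (Fin m ⊕ Fin m) F) *
          ((g : GL (Fin m ⊕ Fin m) F) : Matrix (Fin m ⊕ Fin m) (Fin m ⊕ Fin m) F) :=
        congrArg (fun y : ↥(Cfsg.isometryGroup F (Cfsg.quadFormPlus m F)) =>
          ((y : GL (Fin m ⊕ Fin m) F) : Matrix (Fin m ⊕ Fin m) (Fin m ⊕ Fin m) F)) hg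
      rw [mul_sub, sub_mul, h1, mul_one, one_mul]
    rw [hcomm, LinearMap.range_comp_of_range_eq_top]
    apply LinearMap.range_eq_top.2
    intro y
    refine ⟨(((g : GL (Fin m ⊕ Fin m) F)⁻¹ : GL (Fin m ⊕ Fin m) F) :
      Matrix (Fin m ⊕ Fin m) (Fin m ⊕ Fin m) F) *ᵥ y, ?_⟩
    rw [Matrix.mulVecLin_apply, Matrix.mulVec_mulVec, Units.mul_inv, Matrix.one_mulVec]
  rw [hmap, inf_idem, finrank_U0, Nat.sub_self]
  exact Even.zero

end

/-- For the hyperbolic form Q = Σ x_j y_j on F^(2m) over a finite field with q elements, q even (excluding m = 2 over the field of two elements), and an involution x ≠ 1 of the orthogonal group with s = rank(x − 1) even and Q vanishing on the image of x − 1 (equivalently f(v, xv) = 0 for all v, where f(u, w) = Q(u + w) − Q(u) − Q(w) is the bilinear form of Q; type a_s, which lies in Ω): its centraliser in Ω (the commutator subgroup of the orthogonal group) has order q^(2ms − (3s² + s)/2)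 · |Sp_s(q)| · |Ω⁺_(2m−2s)(q)|, where |Ω⁺_2k(q)| = q^(k(k−1)) (q^k − 1) Π_(i=1)^(k−1) (q^(2i) − 1) for k ≥ 1 and the last factor is 1 when s = m. -/
theorem result {F : Type*} [Field F] [Fintype F] [CharP F 2] {q : ℕ} (hF : Fintype.card F = q) {m s : ℕ} (h : Fintype.card F ≠ 2 ∨ m ≠ 2) (x : ↥(Cfsg.isometryGroup F (Cfsg.quadFormPlus m F))) (hx : x ^ 2 = 1) (hx1 : x ≠ 1) (hs : (((x : Matrix.GeneralLinearGroup (Fin m ⊕ Fin m) F) : Matrix (Fin m ⊕ Fin m) (Fin m ⊕ Fin m) F) - 1).rank = s) (heven : Even s) (halt : ∀ v : Fin m ⊕ Fin m → F, Cfsg.quadFormPlus m F ((((x : Matrix.GeneralLinearGroup (Fin m ⊕ Fin m) F) : Matrix (Fin m ⊕ Fin m) (Fin m ⊕ Fin m) F) - 1).mulVec v) = 0) : Nat.card {g : ↥(Cfsg.Omega F (Cfsg.quadFormPlus m F)) // (g : ↥(Cfsg.isometryGroup F (Cfsg.quadFormPlus m F))) * x = x * (g : ↥(Cfsg.isometryGroup F (Cfsg.quadFormPlus m F)))} = q ^ (2 * m * s - (3 * s ^ 2 + s) / 2) * ((q : ℕ) ^ ((s / 2) ^ 2) * ∏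 i : Fin (s / 2), (q ^ (2 * ((i : ℕ) + 1)) - 1)) * (if s = m then 1 else q ^ ((m - s) * (m - s - 1)) * (q ^ (m - s) - 1) * ∏ i : Fin (m - s - 1), (q ^ (2 * ((i : ℕ) + 1)) - 1)) := by
  classical
  obtain ⟨htt, hrk, hform⟩ := sp_data x hx
  have hs' : (((toSp x : ↥(Matrix.symplecticGroup (Fin m) F)) :
      Matrix (Fin m ⊕ Fin m) (Fin m ⊕ Fin m) F) - 1).rank = s := hs
  have hsm : s ≤ m := by
    rw [← hs']
    exact hrk
  have hs0 : s ≠ 0 := by
    rintro rfl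
    apply hx1
    apply Subtype.ext
    apply Units.ext
    exact eq_one_of_rank _ hs
  obtain ⟨l, hl⟩ := heven
  obtain ⟨t₀, ht₀2, hrk₀, halt₀, hQ₀, ψ, hψ, hfix₀, hinr₀⟩ :=
    std_rep (F := F) (m := m) l (by omega)
  have hq0 : 0 < q := by
    rw [← hF]
    exact Fintype.card_pos
  have ha : toSp x * toSp x = 1 := by
    rw [← pow_two]
    exact htt
  have hsq : ((toSp x : ↥(Matrix.symplecticGroup (Fin m) F)) :
      Matrix (Fin m ⊕ Fin m) (Fin m ⊕ Fin m) F) *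
      ((toSp x : ↥(Matrix.symplecticGroup (Fin m) F)) :
      Matrix (Fin m ⊕ Fin m) (Fin m ⊕ Fin m) F) = 1 := congrArg Subtype.val ha
  obtain ⟨hN2, hadj, hform2⟩ := Cfsg.Agent.S2166.invol_N _ (toSp x).2 hsq
  have haltx : ∀ v, form m F v ((((toSp x : ↥(Matrix.symplecticGroup (Fin m) F)) :
      Matrix (Fin m ⊕ Fin m) (Fin m ⊕ Fin m) F) - 1) *ᵥ v) = 0 := by
    intro v
    rw [← hform2 v]
    exact (hform v).trans (halt v)
  have hconjSp : IsConj (toSp x) t₀ := by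
    rw [Cfsg.Agent.S2593.conj_iff (toSp x) t₀ ha ht₀2]
    exact ⟨by rw [hs', hrk₀, hl], ⟨fun _ => halt₀, fun _ => haltx⟩⟩
  obtain ⟨c, hc⟩ := isConj_iff.1 hconjSp
  obtain ⟨x₀, hx₀⟩ : ∃ x₀, x₀ = toO t₀ hQ₀ := ⟨_, rfl⟩
  have hx₀sp : toSp x₀ = t₀ := by rw [hx₀, toSp_toO]
  have hx₀mat : ((x₀ : GL (Fin m ⊕ Fin m) F) : Matrix (Fin m ⊕ Fin m) (Fin m ⊕ Fin m) F) =
      (t₀ : Matrix (Fin m ⊕ Fin m) (Fin m ⊕ Fin m) F) := by
    rw [hx₀]
    rfl
  have ho1 : orderOf x = 2 := orderOf_eq_prime hx hx1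
  have ht₀1 : t₀ ≠ 1 := by
    rintro h1
    rw [h1] at hrk₀
    have h2 : (((1 : ↥(Matrix.symplecticGroup (Fin m) F)) :
        Matrix (Fin m ⊕ Fin m) (Fin m ⊕ Fin m) F) - 1).rank = 0 := by
      show ((1 : Matrix (Fin m ⊕ Fin m) (Fin m ⊕ Fin m) F) - 1).rank = 0
      rw [sub_self, Matrix.rank_zero]
    omega
  have ho2 : orderOf x₀ = 2 := by
    apply orderOf_eq_prime
    · apply toSp_injective
      rw [map_pow, hx₀sp, map_one, pow_two, ht₀2]
    · intro h1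
      apply ht₀1
      rw [← hx₀sp, h1, map_one]
  have hconjO : IsConj x x₀ := by
    apply (Cfsg.Agent.Lib.Helper44.Inv6.isConj_iff_polar
      (Cfsg.Agent.Lib.Helper44.NegPairs.plusQ m F)
      (Cfsg.Agent.Lib.Helper44.NegPairs.sep_plusQ m) x x₀ ho1 ho2).2
    refine ⟨⟨c.1, (c⁻¹).1, sp_mul_inv c, sp_inv_mul c⟩, ?_, ?_⟩
    · intro u v
      show Cfsg.quadFormPlus m F (c.1 *ᵥ u + c.1 *ᵥ v) - Cfsg.quadFormPlus m F (c.1 *ᵥ u) -
        Cfsg.quadFormPlus m F (c.1 *ᵥ v) =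
        Cfsg.quadFormPlus m F (u + v) - Cfsg.quadFormPlus m F u - Cfsg.quadFormPlus m F v
      rw [Q_add, Q_add, (SympMat.mem_symp_iff m _).1 c.2 u v]
      ring
    · apply Units.ext
      rw [hx₀]
      exact congrArg Subtype.val hc
  obtain ⟨k, hk⟩ := isConj_iff.1 hconjO
  have hC : Nat.card {g : ↥(Cfsg.Omega F (Cfsg.quadFormPlus m F)) //
      (g : ↥(Cfsg.isometryGroup F (Cfsg.quadFormPlus m F))) * x =
        x * (g : ↥(Cfsg.isometryGroup F (Cfsg.quadFormPlus m F)))} =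
      Nat.card {g : ↥(Cfsg.Omega F (Cfsg.quadFormPlus m F)) //
      (g : ↥(Cfsg.isometryGroup F (Cfsg.quadFormPlus m F))) * x₀ =
        x₀ * (g : ↥(Cfsg.isometryGroup F (Cfsg.quadFormPlus m F)))} := by
    rw [← hk]
    exact card_conj (Cfsg.Omega F (Cfsg.quadFormPlus m F)) x k
  rw [hC]
  have h1 := orbit_count t₀ ht₀2 ht₀1 hQ₀
  have h2 : 2 * Nat.card {w : Fin m ⊕ Fin m → F //
      (t₀ : Matrix (Fin m ⊕ Fin m) (Fin m ⊕ Fin m) F) *ᵥ w = w ∧
      Cfsg.quadFormPlus m F w ∈ (wp F).range} = q ^ m * (q ^ (m - s) + 1) := by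
    rw [Nat.card_congr (Equiv.subtypeEquivRight (fun w => and_congr (hfix₀ w) Iff.rfl)),
      count_alt ψ hψ, hF, Fintype.card_sum, Fintype.card_fin, ← hl]
  have h3 : Nat.card ↥(OC t₀) =
      Nat.card {g : ↥(Cfsg.isometryGroup F (Cfsg.quadFormPlus m F)) // g * x₀ = x₀ * g} := by
    rw [← hx₀sp]
    exact card_OC x₀
  have hrk₀' : ((t₀ : Matrix (Fin m ⊕ Fin m) (Fin m ⊕ Fin m) F) - 1).rank = s := by
    rw [hrk₀, hl]
  have halt₀' : ∀ v : Fin m ⊕ Fin m → F, Cfsg.sympForm m F v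
      ((t₀ : Matrix (Fin m ⊕ Fin m) (Fin m ⊕ Fin m) F).mulVec v) = 0 := by
    intro v
    obtain ⟨-, -, hf3⟩ := Cfsg.Agent.S2166.invol_N
      (t₀ : Matrix (Fin m ⊕ Fin m) (Fin m ⊕ Fin m) F) t₀.2 (congrArg Subtype.val ht₀2)
    exact (hf3 v).trans (halt₀ v)
  have hS := Cfsg.Agent.S2681.result hF t₀ (by rw [pow_two]; exact ht₀2) ht₀1 hrk₀' ⟨l, hl⟩
    halt₀'
  rw [h1, h3] at hS
  by_cases hsm' : s = m
  · rw [if_pos hsm']
    have hm : 1 ≤ m := by omega
    have h4 : Nat.card {g : ↥(Cfsg.isometryGroup F (Cfsg.quadFormPlus m F)) //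
        g * x₀ = x₀ * g} =
        Nat.card {g : ↥(Cfsg.Omega F (Cfsg.quadFormPlus m F)) //
          (g : ↥(Cfsg.isometryGroup F (Cfsg.quadFormPlus m F))) * x₀ =
          x₀ * (g : ↥(Cfsg.isometryGroup F (Cfsg.quadFormPlus m F)))} := by
      apply Nat.card_congr
      exact
        { toFun := fun g => ⟨⟨g.1, cent_in_omega hm h x₀ (by rw [hx₀mat, hrk₀', hsm'])
            (by rw [hx₀mat]; exact hinr₀) g.1 g.2⟩, g.2⟩
          invFun := fun g => ⟨g.1.1, g.2⟩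
          left_inv := fun g => rfl
          right_inv := fun g => rfl }
    rw [h4] at hS
    subst hsm'
    exact final_eq q s _ _ _ hq0 ⟨l, hl⟩ hS h2
  · rw [if_neg hsm']
    have hlt : s < m := lt_of_le_of_ne hsm hsm'
    obtain ⟨j, hj⟩ : ∃ j : Fin m, j ∉ Set.range ψ := by
      by_contra hcon
      have hsurj : Function.Surjective ψ := fun j => by
        by_contra h2
        exact hcon ⟨j, h2⟩
      have h5 := Fintype.card_le_of_surjective ψ hsurj
      rw [Fintype.card_fin, Fintype.card_sum, Fintype.card_fin] at h5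
      omega
    obtain ⟨u, hu⟩ : ∃ u : Fin m ⊕ Fin m → F,
        u = Pi.single (Sum.inl j) 1 + Pi.single (Sum.inr j) 1 := ⟨_, rfl⟩
    have hQu : Cfsg.quadFormPlus m F u = 1 := by
      rw [hu]
      unfold Cfsg.quadFormPlus
      rw [Finset.sum_eq_single j]
      · simp
      · intro i _ hij
        simp [hij]
      · intro h6
        exact absurd (Finset.mem_univ j) h6
    have htu : ((x₀ : GL (Fin m ⊕ Fin m) F) : Matrix (Fin m ⊕ Fin m) (Fin m ⊕ Fin m) F) *ᵥ u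
        = u := by
      rw [hx₀mat, hfix₀]
      intro p
      rw [hu]
      have h6 : ψ p ≠ j := fun h7 => hj ⟨p, h7⟩
      simp [h6]
    have h4 := index_two_of_vec h x₀ u htu (by rw [hQu]; exact one_ne_zero)
    rw [h4] at hS
    exact final_lt q m s _ _ _ hq0 hlt ⟨l, hl⟩ hS h2

end Cfsg.Agent.S2684
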