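import Cfsg.Statements.S2714
-- import your own Cfsg.Agent.* helpers here
import Cfsg.Agent.S2694
import Cfsg.Agent.Lib.Helper45.FldCent

set_option autoImplicit false
open Cfsg

namespace Cfsg.Agent.S2714

open Cfsg.Agent.Lib.Helper44.NegPairs Cfsg.Agent.Lib.Helper44.QSpace
  Cfsg.Agent.Lib.Helper45.OmegaAut Cfsg.Agent.Lib.Helper45.OmegaAutIdx
  Cfsg.Agent.Lib.Helper45.SemiAut Cfsg.Agent.Lib.Helper45.OddAut
  Cfsg.Agent.Lib.Helper45.FldCoset Cfsg.Agent.Lib.Helper45.FldCent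
  Cfsg.Agent.Lib.Helper45.SplitOut
  Cfsg.Agent.Lib.Helper43.H90GL Cfsg.Agent.Lib.Helper43.H90Fin
  Cfsg.Agent.Lib.Helper43.SplitCount Cfsg.Agent.Lib.Helper43.SplitCountN

theorem compat_odd {F : Type*} [Field F] {K : Type*} [Field K] (m : ℕ) (φ : K →+* F)
    (v : Unit ⊕ (Fin m ⊕ Fin m) → K) :
    oddQ m F (fun i => φ (v i)) = φ (oddQ m K v) := by
  show Cfsg.quadFormOdd m F (fun i => φ (v i)) = φ (Cfsg.quadFormOdd m K v)
  simp only [Cfsg.quadFormOdd, map_add, map_pow, map_sum, map_mul]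

theorem q_e0 {K : Type*} [Field K] (m : ℕ) :
    oddQ m K (Pi.single (Sum.inl ()) 1) = 1 := by
  show Cfsg.quadFormOdd m K (Pi.single (Sum.inl ()) 1) = 1
  simp [Cfsg.quadFormOdd]

theorem q_eta {K : Type*} [Field K] (m : ℕ) (i₀ : Fin m) (η : K) :
    oddQ m K (η • Pi.single (Sum.inr (Sum.inr i₀)) (1 : K) + Pi.single (Sum.inr (Sum.inl i₀)) 1)
      = η := by
  rw [odd_H1, QuadraticMap.map_smul, q_single (oddQ m K) Sum.inr (odd_H1 m) (Sum.inr i₀)]
  simp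

theorem char_ne_two {K : Type*} [Field K] (h2 : (2 : K) ≠ 0) : ringChar K ≠ 2 := by
  intro h
  apply h2
  have h3 := ringChar.Nat.cast_ringChar (R := K)
  rw [h] at h3
  exact_mod_cast h3

theorem main {F : Type*} [Field F] [Fintype F] {p f : ℕ} [Fact p.Prime]
    (hF : Fintype.card F = p ^ f) (hf : 1 ≤ f) (hodd : Odd (Fintype.card F)) {m : ℕ} (hm : 3 ≤ m)
    (hΓ : Cfsg.gammaPOmega F (⇑(oddQ m F)) = ⊤)
    (x : MulAut (Cfsg.POmega F (⇑(oddQ m F))))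
    (hx : Cfsg.IsFieldAutClassPOmega (⇑(oddQ m F)) x) {r : ℕ} (hr : r.Prime)
    (hxr : orderOf x = r) (F₀ : Type*) [Field F₀] [Fintype F₀]
    (hF₀ : Fintype.card F₀ = p ^ (f / r)) :
    r ∣ f ∧
    Nonempty (↥((Phi (⇑(oddQ m F))).range ⊓ Subgroup.centralizer {x}) ≃*
      ↥(Phi (⇑(oddQ m F₀))).range) ∧
    (Odd r → Cfsg.splitClassCount (Phi (⇑(oddQ m F))).range
      (Cfsg.Inn (Cfsg.POmega F (⇑(oddQ m F)))) x = 1) ∧
    (r = 2 → Cfsg.splitClassCount (Phi (⇑(oddQ m F))).range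
      (Cfsg.Inn (Cfsg.POmega F (⇑(oddQ m F)))) x = 2) := by
  have h2 : (2 : F) ≠ 0 := Cfsg.Agent.Lib.Helper44.FinSq.two_ne_zero_of_odd_card hodd
  have hcard : Fintype.card (Unit ⊕ (Fin m ⊕ Fin m)) = 2 * m + 1 := by
    simp only [Fintype.card_sum, Fintype.card_fin, Fintype.card_unit]; omega
  have hi : (⟨0, by omega⟩ : Fin m) ≠ ⟨1, by omega⟩ := by
    intro h
    have := congrArg Fin.val h
    simp at this
  have hP := probe_of_frame (oddQ m F) Sum.inr Sum.inr_injective (odd_H1 m) hi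
  have hS := sep_oddQ h2 m
  have hσ : SigInv (⇑(oddQ m F)) := sigInv_odd m
  have hQ := Cfsg.Agent.Lib.Helper94.OrthPara.nondeg_of_sep (oddQ m F) hS
  have hn : 5 ≤ Fintype.card (Unit ⊕ (Fin m ⊕ Fin m)) := by rw [hcard]; omega
  have hZ := center_eq_bot (oddQ m F) h2 hS hcard (by omega)
  have hsup : (Phi (⇑(oddQ m F))).range ⊔ (cσHom hσ).range = ⊤ := by
    rw [← top_le_iff, ← hΓ]
    exact gamma_le hσ
  have hN : (Phi (⇑(oddQ m F))).range.Normal := range_normal hσ hsup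
  have hinjσ : Function.Injective (cσHom hσ) := cσHom_injective hQ hσ hn hZ hP
  obtain ⟨α, φ₁, σ, -, hφ₁, hα⟩ := hx
  rw [fieldAut_eq hσ hφ₁] at hα
  obtain ⟨β, hβ⟩ : ∃ β : MulAut (Cfsg.POmega F (⇑(oddQ m F))), x = β * cσ hσ σ * β⁻¹ :=
    ⟨α⁻¹, by rw [← hα]; group⟩
  subst hβ
  have hord : orderOf σ = r := by
    rw [← hxr]
    have h1 : orderOf (cσHom hσ σ) = orderOf σ := orderOf_injective (cσHom hσ) hinjσ σ
    rw [← h1]
    exact ((MulAut.conj β).orderOf_eq (cσ hσ σ)).symm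
  have hdvd : r ∣ f := by
    have h1 := (ringAut_cyclic_card' hf hF).2
    rw [← hord, ← h1]
    exact orderOf_dvd_natCard σ
  have hp : p.Prime := Fact.out
  have hcardF : Nat.card F = p ^ f := by rw [Nat.card_eq_fintype_card, hF]
  have hq₀ : Nat.card (fixF σ) = p ^ (f / r) := by
    have h1 := card_fixF σ
    rw [hord, hcardF] at h1
    have h3 : Nat.card (fixF σ) ∣ p ^ f := by
      rw [← h1]
      exact dvd_pow_self _ hr.ne_zero
    obtain ⟨k, hk, hk2⟩ := (Nat.dvd_prime_pow hp).1 h3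
    rw [hk2, ← pow_mul] at h1
    have h4 : k * r = f := Nat.pow_right_injective hp.two_le h1
    rw [hk2]
    congr 1
    exact (Nat.div_eq_of_eq_mul_left hr.pos h4.symm).symm
  haveI := Fintype.ofFinite (fixF σ)
  have hc₀ : Fintype.card (fixF σ) = Fintype.card F₀ := by
    rw [hF₀, ← hq₀, Nat.card_eq_fintype_card]
  obtain ⟨e⟩ : Nonempty (↥(fixF σ) ≃+* F₀) := ⟨FiniteField.ringEquivOfCardEq hc₀⟩
  obtain ⟨φ, hφ⟩ : ∃ φ : F₀ →+* F, ∀ b, φ b = ((e.symm b : fixF σ) : F) :=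
    ⟨(fixF σ).subtype.comp (e.symm : F₀ →+* ↥(fixF σ)), fun b => rfl⟩
  have hφ2 : ∀ a, σ a = a ↔ ∃ b, φ b = a := by
    intro a
    constructor
    · intro ha
      refine ⟨e ⟨a, (mem_fixF σ a).2 ha⟩, ?_⟩
      rw [hφ, RingEquiv.symm_apply_apply]
    · rintro ⟨b, rfl⟩
      rw [hφ]
      exact (mem_fixF σ _).1 (e.symm b).2
  have hφ' : ∀ b, σ (φ b) = φ b := fun b => (hφ2 _).2 ⟨b, rfl⟩
  have h2K : (2 : F₀) ≠ 0 := by
    intro h
    apply h2
    have h5 := congrArg φ h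
    rwa [map_ofNat, map_zero] at h5
  have hS' := sep_oddQ h2K m
  have hinjF : Function.Injective (fSO (oddQ m F)) :=
    (MonoidHom.ker_eq_bot_iff _).1 (fSO_ker (oddQ m F) h2 hS hcard (by omega))
  have hinjK : Function.Injective (fSO (oddQ m F₀)) :=
    (MonoidHom.ker_eq_bot_iff _).1 (fSO_ker (oddQ m F₀) h2K hS' hcard (by omega))
  have hrangeF : (Phi (⇑(oddQ m F))).range = (fSO (oddQ m F)).range := by
    rw [← pso_eq', pso_eq_range (oddQ m F) hS hcard]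
  have hrangeK : (Phi (⇑(oddQ m F₀))).range = (fSO (oddQ m F₀)).range := by
    rw [← pso_eq', pso_eq_range (oddQ m F₀) hS' hcard]
  have hidx := relIndex_inn (oddQ m F) h2 hS hcard (by omega)
  refine ⟨hdvd, ?_, ?_, ?_⟩
  · obtain ⟨e1⟩ := centralizer_equiv (oddQ m F) (oddQ m F₀) φ h2 h2K (compat_odd m φ) hσ σ hφ2
      hinjF hrangeF hinjK hrangeK
    obtain ⟨e2⟩ := centralizer_conj_equiv_normal (Phi (⇑(oddQ m F))).range hN (cσ hσ σ) β
    exact ⟨e2.symm.trans e1⟩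
  · intro hrodd
    rw [splitClassCount_conj_normal _ _ hN (inn_normal' _)]
    obtain ⟨η, hη⟩ := FiniteField.exists_nonsquare (F := F₀) (char_ne_two h2K)
    have hη0 : η ≠ 0 := by
      rintro rfl
      exact hη ⟨0, (mul_zero 0).symm⟩
    refine split_odd (oddQ m F) (oddQ m F₀) φ h2 h2K hS (by omega) (compat_odd m φ) hσ σ hφ2
      hinjF hrangeF (Pi.single (Sum.inl ()) 1)
      (η • Pi.single (Sum.inr (Sum.inr ⟨0, by omega⟩)) (1 : F₀)
        + Pi.single (Sum.inr (Sum.inl ⟨0, by omega⟩)) 1) ?_ ?_ ?_ hidx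
    · rw [q_e0]
      exact one_ne_zero
    · rw [q_eta]
      exact hη0
    · rw [q_e0, q_eta, map_one, one_mul]
      exact nonsq_of_odd σ (by rw [hord]; exact hrodd) φ (fun a ha => (hφ2 a).1 ha) hφ' η hη
  · intro hr2
    rw [splitClassCount_conj_normal _ _ hN (inn_normal' _)]
    exact split_two (oddQ m F) (oddQ m F₀) φ h2 h2K hS hS' (by omega) (compat_odd m φ) hσ σ hφ2
      hinjF hrangeF (fun b => sq_of_two h2 σ (hord.trans hr2) (φ b) (hφ' b)) hidx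

/-- Let T = Ω_{2m+1}(F) (m ≥ 3, |F| = p^f odd; realised as PΩ of the form x₀² + Σ xᵢ yᵢ), G = Inndiag(T) the image of the conformal orthogonal group in Aut(T), and x a field automorphism of T of prime order r. Then r divides f; C_G(x) is isomorphic to Inndiag(Ω_{2m+1}(F₀)) for a field F₀ with p^(f/r) elements; and the G-class of x is a single T-class when r is odd and the union of exactly two T-classes when r = 2. -/
theorem result {F : Type*} [Field F] [Fintype F] {p f : ℕ} [Fact p.Prime] (hF : Fintype.card F = p ^ f) (hf : 1 ≤ f) (hodd : Odd (Fintype.card F)) {m : ℕ} (hm : 3 ≤ m) (x : MulAut (Cfsg.POmega F (Cfsg.quadFormOdd m F))) (hx : Cfsg.IsFieldAutClassPOmega (Cfsg.quadFormOdd m F) x) {r : ℕ} (hr : r.Prime) (hxr : orderOf x = r) (F₀ : Type*) [Field F₀] [Fintype F₀] (hF₀ : Fintype.card F₀ = p ^ (f / r)) :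
    r ∣ f ∧ Nonempty (↥(Cfsg.inndiagPOmegaOdd m F ⊓ Subgroup.centralizer {x}) ≃* ↥(Cfsg.inndiagPOmegaOdd m F₀)) ∧ (Odd r → Cfsg.splitClassCount (Cfsg.inndiagPOmegaOdd m F) (Cfsg.Inn (Cfsg.POmega F (Cfsg.quadFormOdd m F))) x = 1) ∧ (r = 2 → Cfsg.splitClassCount (Cfsg.inndiagPOmegaOdd m F) (Cfsg.Inn (Cfsg.POmega F (Cfsg.quadFormOdd m F))) x = 2) := by
  have hinn : Cfsg.inndiagPOmegaOdd m F = (Phi (Cfsg.quadFormOdd m F)).range :=
    pgo_eq (Cfsg.quadFormOdd m F)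
  have hinn₀ : Cfsg.inndiagPOmegaOdd m F₀ = (Phi (Cfsg.quadFormOdd m F₀)).range :=
    pgo_eq (Cfsg.quadFormOdd m F₀)
  rw [hinn, hinn₀]
  exact main hF hf hodd hm (Cfsg.Agent.S2694.result hodd hm) x hx hr hxr F₀ hF₀

end Cfsg.Agent.S2714
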