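import Cfsg.Statements.S2721
import Mathlib
import Cfsg.Agent.Lib.Helper44.SMFin
import Cfsg.Agent.Lib.Helper1.SMLIFT
import Cfsg.Agent.Lib.Helper43.SMCOMM
import Cfsg.Agent.Lib.Helper1.SMFIX
import Cfsg.Agent.Lib.Helper43.SMNOFIX
import Cfsg.Agent.Lib.Helper20.SMALT
import Cfsg.Agent.Lib.Helper7.SMDARB
import Cfsg.Agent.Lib.Helper20.SMSPD
import Cfsg.Agent.Lib.Helper8.SMPO
import Cfsg.Agent.Lib.Helper7.SMCOS
import Cfsg.Agent.Lib.Helper8.SMGEN
import Cfsg.Agent.Lib.Helper7.SMPSO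

set_option autoImplicit false
open Cfsg

namespace Cfsg.Agent.S2721


universe u

theorem hAlt : Cfsg.Agent.Lib.Helper44.SMStmt.AltSimDet.{u} :=
  Cfsg.Agent.Lib.Helper20.SMALT.main Cfsg.Agent.Lib.Helper7.SMDARB.main Cfsg.Agent.Lib.Helper20.SMSPD.main


/-- Let T = PΩ⁻_{2m+2}(F) (m ≥ 3, F finite of odd characteristic p), G = Inndiag(T), and let x be an automorphism of T induced by a similarity of the form (an element of the image G̃ of the conformal orthogonal group) of odd prime order r ≠ p. Then the T-class, the PSO-class and the G-class of x coincide (conjugacy under inner automorphisms, under the image of the special orthogonal group, and under G), and the PO-class of x coincides with its G̃-class. (In characteristic 2 the first equality fails: there the special orthogonal group is the full orthogonal group and some such classes split.) -/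
theorem result {F : Type*} [Field F] [Fintype F] {p : ℕ} [Fact p.Prime] [CharP F p] (hp : p ≠ 2) {m : ℕ} (hm : 3 ≤ m) (a b : F) (hab : (∀ z₁ z₂ : F, z₁ ^ 2 + a * z₁ * z₂ + b * z₂ ^ 2 = 0 → z₁ = 0 ∧ z₂ = 0)) (x : MulAut (Cfsg.POmega F (Cfsg.quadFormMinus m F a b))) (hx : x ∈ Cfsg.pgoAut F (Cfsg.quadFormMinus m F a b)) {r : ℕ} (hr : r.Prime) (hro : Odd r) (hrp : r ≠ p) (hxr : orderOf x = r) :
    (∀ y : MulAut (Cfsg.POmega F (Cfsg.quadFormMinus m F a b)), (Cfsg.IsConjUnder (Cfsg.Inn (Cfsg.POmega F (Cfsg.quadFormMinus m F a b))) x y ↔ Cfsg.IsConjUnder (Cfsg.inndiagPOmegaMinus m F a b) x y) ∧ (Cfsg.IsConjUnder (Cfsg.psoAut F (Cfsg.quadFormMinus m F a b)) x y ↔ Cfsg.IsConjUnder (Cfsg.inndiagPOmegaMinus m F a b) x y)) ∧ (∀ y : MulAut (Cfsg.POmega F (Cfsg.quadFormMinus m F a b)), Cfsg.IsConjUnder (Cfsg.poAut F (Cfsg.quadFormMinus m F a b)) x y ↔ Cfsg.IsConjUnder (Cfsg.pgoAut F (Cfsg.quadFormMinus m F a b)) x y) := by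
  exact Cfsg.Agent.Lib.Helper44.SMFin.final_of Cfsg.Agent.Lib.Helper1.SMLIFT.main Cfsg.Agent.Lib.Helper43.SMCOMM.main Cfsg.Agent.Lib.Helper1.SMFIX.main
    (Cfsg.Agent.Lib.Helper43.SMNOFIX.main hAlt) (Cfsg.Agent.Lib.Helper7.SMCOS.main Cfsg.Agent.Lib.Helper8.SMPO.main) Cfsg.Agent.Lib.Helper8.SMPO.main Cfsg.Agent.Lib.Helper8.SMGEN.main Cfsg.Agent.Lib.Helper7.SMPSO.main
    hp hm a b hab x hx hr hro hrp hxr

end Cfsg.Agent.S2721
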