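import Cfsg.Statements.S2735
-- import your own Cfsg.Agent.* helpers here
import Cfsg.Agent.S2694
import Cfsg.Agent.Lib.Helper45.FldCoset

set_option autoImplicit false
open Cfsg

namespace Cfsg.Agent.S2735

open Cfsg.Agent.Lib.Helper44.NegPairs Cfsg.Agent.Lib.Helper45.OmegaAut
  Cfsg.Agent.Lib.Helper45.OddAut Cfsg.Agent.Lib.Helper45.FldCoset

/-- Let T = Ω_{2m+1}(F) (m ≥ 3, |F| odd) and x a field automorphism of T of prime order r. Then an element y of the coset Inndiag(T)·x (y = δ x with δ induced by a similarity of the form) has order r if and only if y is conjugate to x by an element of Inndiag(T). (T has no graph or graph-field automorphisms.) -/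
theorem result {F : Type*} [Field F] [Fintype F] (hodd : Odd (Fintype.card F)) {m : ℕ} (hm : 3 ≤ m) (x δ : MulAut (Cfsg.POmega F (Cfsg.quadFormOdd m F))) (hx : Cfsg.IsFieldAutClassPOmega (Cfsg.quadFormOdd m F) x) {r : ℕ} (hr : r.Prime) (hxr : orderOf x = r) (hδ : δ ∈ Cfsg.inndiagPOmegaOdd m F) :
    orderOf (δ * x) = r ↔ Cfsg.IsConjUnder (Cfsg.inndiagPOmegaOdd m F) x (δ * x) := by
  have h2 : (2 : F) ≠ 0 := Cfsg.Agent.Lib.Helper44.FinSq.two_ne_zero_of_odd_card hodd
  have hΓ := Cfsg.Agent.S2694.result hodd hm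
  have hcard : Fintype.card (Unit ⊕ (Fin m ⊕ Fin m)) = 2 * m + 1 := by
    simp only [Fintype.card_sum, Fintype.card_fin, Fintype.card_unit]; omega
  have hi : (⟨0, by omega⟩ : Fin m) ≠ ⟨1, by omega⟩ := by
    intro h
    have := congrArg Fin.val h
    simp at this
  have hinn : Cfsg.inndiagPOmegaOdd m F = (Phi (Cfsg.quadFormOdd m F)).range :=
    pgo_eq (Cfsg.quadFormOdd m F)
  rw [hinn] at hδ ⊢
  exact coset_conj (oddQ m F) h2 (sep_oddQ h2 m) (sigInv_odd m) hcard (by omega)
    (probe_of_frame (oddQ m F) Sum.inr Sum.inr_injective (odd_H1 m) hi) hΓ x δ hx hxr hδ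

end Cfsg.Agent.S2735
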