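import Cfsg.Statements.S2737
import Mathlib
import Cfsg.Agent.S2696
import Cfsg.Agent.Lib.Helper44.MFldM
import Cfsg.Agent.Lib.Helper44.MFldT
import Cfsg.Agent.Lib.Helper44.MFldFin
import Cfsg.Agent.Lib.Helper65.MFldGA
import Cfsg.Agent.Lib.Helper15.MFldKM2
import Cfsg.Agent.Lib.Helper30.MFldPC
import Cfsg.Agent.Lib.Helper72.MFldEF
import Cfsg.Agent.Lib.Helper50.MFldGE
import Cfsg.Agent.Lib.Helper98.MFldII2
import Cfsg.Agent.Lib.Helper85.MFldITO
import Cfsg.Agent.Lib.Helper14.MFldKM1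
import Cfsg.Agent.Lib.Helper97.MFldMB
import Cfsg.Agent.Lib.Helper50.MFldMC
import Cfsg.Agent.Lib.Helper89.MFldNH
import Cfsg.Agent.Lib.Helper69.MFldNO
import Cfsg.Agent.Lib.Helper22.MFldRK
import Cfsg.Agent.Lib.Helper97.OFldMb
import Cfsg.Agent.Lib.Helper14.OFldA6

set_option autoImplicit false
open Cfsg

namespace Cfsg.Agent.S2737




/-- Let T = PΩ⁻_{2m+2}(F) (m ≥ 3; form with anisotropic binary part) and x a field automorphism of T of prime order r. Then an element y of the coset Inndiag(T)·x has order r if and only if y is conjugate to x by an element of Inndiag(T). (T has no graph-field automorphisms.) -/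
theorem result {F : Type*} [Field F] [Fintype F] {m : ℕ} (hm : 3 ≤ m) (a b : F) (hab : (∀ z₁ z₂ : F, z₁ ^ 2 + a * z₁ * z₂ + b * z₂ ^ 2 = 0 → z₁ = 0 ∧ z₂ = 0)) (x δ : MulAut (Cfsg.POmega F (Cfsg.quadFormMinus m F a b))) (hx : Cfsg.IsFieldAutClassPOmegaMinus m x) {r : ℕ} (hr : r.Prime) (hxr : orderOf x = r) (hδ : δ ∈ Cfsg.inndiagPOmegaMinus m F a b) :
    orderOf (δ * x) = r ↔ Cfsg.IsConjUnder (Cfsg.inndiagPOmegaMinus m F a b) x (δ * x) := by
  have hS := Cfsg.Agent.Lib.Helper97.MFldMB.sepMinus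
  have hMC := Cfsg.Agent.Lib.Helper50.MFldMC.main Cfsg.Agent.Lib.Helper22.MFldRK.main
    Cfsg.Agent.Lib.Helper50.MFldGE.main
  exact Cfsg.Agent.Lib.Helper44.MFldFin.final_of
    Cfsg.Agent.Lib.Helper65.MFldGA.fieldAutEqQ Cfsg.Agent.Lib.Helper65.MFldGA.csMulPhiQ
    Cfsg.Agent.Lib.Helper65.MFldGA.powEqQ Cfsg.Agent.Lib.Helper14.MFldKM1.main
    (Cfsg.Agent.Lib.Helper15.MFldKM2.main hS) Cfsg.Agent.Lib.Helper97.MFldMB.minusInv
    Cfsg.Agent.Lib.Helper97.MFldMB.inndiagLeRange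
    (Cfsg.Agent.Lib.Helper44.MFldM.twisted_conj_minus_of Cfsg.Agent.Lib.Helper72.MFldEF.main
      Cfsg.Agent.Lib.Helper97.OFldMb.main (Cfsg.Agent.Lib.Helper89.MFldNH.main hS) hS
      Cfsg.Agent.Lib.Helper14.OFldA6.reflMap)
    (Cfsg.Agent.Lib.Helper44.MFldT.minus_adj_of hMC)
    (Cfsg.Agent.Lib.Helper44.MFldT.transportT_of
      (Cfsg.Agent.Lib.Helper98.MFldII2.main hMC hS)
      (Cfsg.Agent.Lib.Helper69.MFldNO.main Cfsg.Agent.Lib.Helper65.MFldGA.semiConj)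
      Cfsg.Agent.Lib.Helper65.MFldGA.inducedEq
      (Cfsg.Agent.Lib.Helper85.MFldITO.main Cfsg.Agent.Lib.Helper30.MFldPC.main
        Cfsg.Agent.Lib.Helper97.MFldMB.isoMinus)
      (fun F _ _ m hm a b hab => Cfsg.Agent.S2696.result hm a b hab))
    hm a b hab x δ hx hr hxr hδ

end Cfsg.Agent.S2737
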