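import Cfsg.Statements.S2807
import Cfsg.Agent.Lib.Helper87.YoshidaFocal
import Cfsg.Agent.Lib.Helper33.FocalLocal
import Cfsg.Agent.S5076
import Cfsg.Agent.S5096

set_option autoImplicit false
open Cfsg

namespace Cfsg.Agent.S2807

/-- Let S be a Sylow p-subgroup of the finite group G. If S ∩ G' ≠ S ∩ (N_G(S))' (derived subgroups), then the wreath product Z_p ≀ Z_p — realised as a Sylow p-subgroup of the symmetric group of degree p² — is a homomorphic image of S. -/
theorem result {G : Type*} [Group G] [Finite G] {p : ℕ} [Fact p.Prime] (S : Sylow p G) (h : (S : Subgroup G) ⊓ commutator G ≠ (S : Subgroup G) ⊓ ⁅Subgroup.normalizer ((S : Subgroup G) : Set G), Subgroup.normalizer ((S : Subgroup G) : Set G)⁆) : ∃ (P : Sylow p (Equiv.Perm (Fin (p ^ 2)))) (f : ↥(S : Subgroup G) →* ↥(P : Subgroup (Equiv.Perm (Fin (p ^ 2))))), Function.Surjective f := by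
  classical
  by_contra hnw
  apply h
  have hSp : IsPGroup p (S : Subgroup G) := S.isPGroup'
  obtain ⟨F, hFdef⟩ : ∃ F : Cfsg.FusionSystem (S : Subgroup G),
      F = Cfsg.groupFusionSystem (S : Subgroup G) := ⟨_, rfl⟩
  have hF : F.IsSaturated p := by
    rw [hFdef]
    exact Cfsg.Agent.S5076.result p S
  obtain ⟨N, hN⟩ := Cfsg.Agent.S5096.result F (S : Subgroup G) le_rfl
  have hfoc := Cfsg.Agent.Lib.Helper87.YoshidaFocal.focal_eq hSp F hF hnw N hN
  apply le_antisymm
  · -- the focal subgroup theorem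
    have h1 : (S : Subgroup G) ⊓ commutator G ≤ F.focalSubgroup := by
      have hsyl : Cfsg.Agent.Lib.Helper33.Conj.IsSylIn p (S : Subgroup G) ⊤ := by
        refine ⟨le_top, hSp, ?_⟩
        rw [Subgroup.relIndex_top_right]
        exact S.not_dvd_index
      have h2 := Cfsg.Agent.Lib.Helper33.FocalLocal.focal_rel hsyl
      rw [commutator_def]
      refine h2.trans ?_
      rw [Subgroup.closure_le]
      rintro _ ⟨a, ha, g, -, hga, rfl⟩
      have hP : Subgroup.zpowers a ≤ (S : Subgroup G) := by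
        rw [Subgroup.zpowers_le]
        exact ha
      have hval : ∀ x : Subgroup.zpowers a, Cfsg.conjHom (Subgroup.zpowers a) g x ∈
          (S : Subgroup G) := by
        rintro ⟨x, k, rfl⟩
        show g * a ^ k * g⁻¹ ∈ (S : Subgroup G)
        have e : g * a ^ k * g⁻¹ = (g * a * g⁻¹) ^ k := by
          rw [conj_zpow]
        rw [e]
        exact Subgroup.zpow_mem _ hga k
      have hmem : Cfsg.conjHom (Subgroup.zpowers a) g ∈ F.Hom (Subgroup.zpowers a) := by
        rw [hFdef]
        exact ⟨hP, hval, g, fun x => rfl⟩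
      have h3 : ((⟨a⁻¹, Subgroup.inv_mem _ (Subgroup.mem_zpowers a)⟩ : Subgroup.zpowers a) : G)⁻¹ *
          Cfsg.conjHom (Subgroup.zpowers a) g ⟨a⁻¹, Subgroup.inv_mem _ (Subgroup.mem_zpowers a)⟩ ∈
          F.focalSubgroup := Subgroup.subset_closure ⟨_, _, _, hmem, rfl⟩
      have h4 := Subgroup.inv_mem _ h3
      have e : (((⟨a⁻¹, Subgroup.inv_mem _ (Subgroup.mem_zpowers a)⟩ : Subgroup.zpowers a) : G)⁻¹ *
          Cfsg.conjHom (Subgroup.zpowers a) g
            ⟨a⁻¹, Subgroup.inv_mem _ (Subgroup.mem_zpowers a)⟩)⁻¹ = g * a * g⁻¹ * a⁻¹ := by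
        show ((a⁻¹)⁻¹ * (g * a⁻¹ * g⁻¹))⁻¹ = _
        group
      rw [e] at h4
      exact h4
    refine h1.trans ?_
    rw [← hfoc]
    unfold Cfsg.FusionSystem.focalSubgroup
    rw [Subgroup.closure_le]
    rintro _ ⟨P, φ, x, hφ, rfl⟩
    obtain ⟨α, hα, hx, hφx⟩ :=
      Cfsg.Agent.Lib.Helper87.YoshidaFocal.exists_aut_of_mem F N hN hφ x
    have hαS := Cfsg.Agent.Lib.Helper87.FSBasic.map_mem F hα
    have hr := Cfsg.Agent.Lib.Helper87.FSSat.range_eq_top F hα
    rw [hFdef] at hα
    obtain ⟨-, -, g, hg⟩ := hα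
    have hgN : g ∈ Subgroup.normalizer (((S : Subgroup G) : Subgroup G) : Set G) := by
      rw [Subgroup.mem_normalizer_iff]
      intro z
      constructor
      · intro hz
        have := hαS ⟨z, hz⟩
        rw [hg] at this
        exact this
      · intro hz
        rw [← hr] at hz
        obtain ⟨s, hs⟩ := hz
        rw [hg] at hs
        have : (s : G) = z := mul_left_cancel (mul_right_cancel hs)
        rw [← this]
        exact s.2
    rw [hφx, hg]
    refine ⟨Subgroup.mul_mem _ (Subgroup.inv_mem _ hx) ?_, ?_⟩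
    · have := hαS ⟨x, hx⟩
      rw [hg] at this
      exact this
    · exact Cfsg.Agent.Lib.Helper87.FSBurn.inv_mul_conj_mem_commutator
        (Subgroup.le_normalizer hx) hgN
  · rw [commutator_def]
    exact inf_le_inf_left _ (Subgroup.commutator_mono le_top le_top)

end Cfsg.Agent.S2807
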