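import Cfsg.Statements.S2896
import Cfsg.Agent.Lib.Helper48.CharP
import Cfsg.Agent.Lib.Helper48.CharPGfs
import Cfsg.Agent.Lib.Helper48.StrEmb
import Cfsg.Agent.Lib.Helper33.Conj

set_option autoImplicit false
open Cfsg

namespace Cfsg.Agent.S2896

open Subgroup Cfsg.Agent.Lib.Helper48.CharP Cfsg.Agent.Lib.Helper48.CharPGfs

/-- Let p be a prime dividing the order of the finite group G, S a Sylow p-subgroup of G and X a subgroup of S. (i) If some nontrivial element z of the centre of X has F*(C_G(z)) = O_p(C_G(z)), then F*(N_G(X)) = O_p(N_G(X)). (ii) G has parabolic characteristic p if and only if F*(C_G(z)) = O_p(C_G(z)) for every nontrivial z ∈ Ω₁(Z(S)). (iii) If F*(C_G(z)) = O_p(C_G(z)) for every element z of S of order p, then G has local characteristic p. -/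
theorem result {G : Type*} [Group G] [Finite G] {p : ℕ} [Fact p.Prime] (hdiv : p ∣ Nat.card G) (S : Sylow p G) (X : Subgroup G) (hX : X ≤ (S : Subgroup G)) : (∀ z : G, z ≠ 1 → z ∈ X → (∀ x ∈ X, x * z = z * x) → Cfsg.generalizedFittingSubgroup ↥(Subgroup.centralizer ({z} : Set G)) = Cfsg.pCore p ↥(Subgroup.centralizer ({z} : Set G)) → Cfsg.generalizedFittingSubgroup ↥(Subgroup.normalizer (X : Set G)) = Cfsg.pCore p ↥(Subgroup.normalizer (X : Set G))) ∧ (Cfsg.IsOfParabolicCharacteristic p G ↔ ∀ z : G, z ≠ 1 → z ∈ Cfsg.omegaOne p ((S : Subgroup G) ⊓ Subgroup.centralizer ((S : Subgroup G) : Set G)) → Cfsg.generalizedFittingSubgroup ↥(Subgroup.centralizer ({z} : Set G)) = Cfsg.pCore p ↥(Subgroup.centralizer ({z} : Set G))) ∧ ((∀ z : G, z ∈ (S : Subgroup G) → orderOf z = p → Cfsg.generalizedFittingSubgroup ↥(Subgroup.centralizer ({z} : Set G)) = Cfsg.pCore p ↥(Subgroup.centralizer ({z} : Set G))) → Cfsg.IsOfLocalCharacteristic p G) := by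
  have hΩ : Cfsg.omegaOne p ((S : Subgroup G) ⊓ centralizer ((S : Subgroup G) : Set G)) ≤
      (S : Subgroup G) ⊓ centralizer ((S : Subgroup G) : Set G) := by
    unfold Cfsg.omegaOne
    rw [closure_le]
    intro a ha
    exact ha.1
  refine ⟨?_, ⟨?_, ?_⟩, ?_⟩
  · -- (i)
    intro z _ hzX hzZ hgfs
    rw [gfs_iff_chP] at hgfs ⊢
    exact chP_normalizer_of_centralizer (S.isPGroup'.to_le hX) hzX hzZ hgfs
  · -- (ii) →
    intro hpar z hz1 hzΩ
    obtain ⟨hzS, hzC⟩ := mem_inf.mp (hΩ hzΩ)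
    rw [gfs_iff_chP]
    apply chP_centralizer_of_normalizer_zpowers
    rw [← Cfsg.Agent.Lib.Helper48.CharP.charP_iff]
    apply hpar (zpowers z)
    · exact S.isPGroup'.to_le (zpowers_le.mpr hzS)
    · rw [Ne, zpowers_eq_bot]
      exact hz1
    · refine ⟨S, ?_⟩
      intro s hs
      apply Cfsg.Agent.Lib.Helper48.StrEmb.centralizer_singleton_le_normalizer_zpowers z
      rw [mem_centralizer_iff]
      intro y hy
      rw [Set.mem_singleton_iff] at hy
      subst hy
      exact (mem_centralizer_iff.mp hzC s hs).symm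
  · -- (ii) ←
    intro h R hR hR1 hpar
    obtain ⟨T, hT⟩ := hpar
    rw [Cfsg.Agent.Lib.Helper48.CharP.charP_iff]
    have hRT : R ≤ (T : Subgroup G) := by
      have h1 : IsPGroup p (R ⊔ (T : Subgroup G) : Subgroup G) :=
        IsPGroup.to_sup_of_normal_left' hR T.isPGroup' hT
      have h2 := T.is_maximal' h1 le_sup_right
      rw [← h2]
      exact le_sup_left
    have hne' : (T : Subgroup G) ⊓ R ≠ ⊥ := by
      rw [inf_eq_right.mpr hRT]
      exact hR1
    obtain ⟨z, hzT, hzR, hzp, hzZ⟩ := exists_central_orderOf T.isPGroup' hT hne'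
    obtain ⟨x, -, hx⟩ := (Cfsg.Agent.Lib.Helper33.Conj.isSylIn_of_sylow S le_top).exists_cj_eq
      (Cfsg.Agent.Lib.Helper33.Conj.isSylIn_of_sylow T le_top)
    have hzpow : z ^ p = 1 := by rw [← hzp, pow_orderOf_eq_one]
    have hz1 : z ≠ 1 := by
      rintro rfl
      rw [orderOf_one] at hzp
      exact (Fact.out : p.Prime).ne_one hzp.symm
    have hy : x * z * x⁻¹ ∈ Cfsg.omegaOne p ((S : Subgroup G) ⊓
        centralizer ((S : Subgroup G) : Set G)) := by
      apply Subgroup.subset_closure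
      refine ⟨mem_inf.mpr ⟨?_, ?_⟩, ?_⟩
      · rw [← hx]
        exact Cfsg.Agent.Lib.Helper33.Conj.conj_mem_cj hzT
      · rw [mem_centralizer_iff]
        intro s hs
        have hs' : s ∈ (S : Subgroup G) := hs
        rw [← hx, Cfsg.Agent.Lib.Helper33.Conj.mem_cj] at hs'
        have := hzZ _ hs'
        calc s * (x * z * x⁻¹) = x * (x⁻¹ * s * x * z) * x⁻¹ := by group
          _ = x * (z * (x⁻¹ * s * x)) * x⁻¹ := by rw [this]
          _ = x * z * x⁻¹ * s := by group
      · rw [conj_pow, hzpow]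
        group
    have hy1 : x * z * x⁻¹ ≠ 1 := by
      intro h1
      apply hz1
      have : z = x⁻¹ * (x * z * x⁻¹) * x := by group
      rw [this, h1]
      group
    have hC := h _ hy1 hy
    rw [gfs_iff_chP, chP_centralizer_conj_iff] at hC
    exact chP_normalizer_of_centralizer hR hzR (fun r hr => hzZ r (hRT hr)) hC
  · -- (iii)
    intro h
    refine ⟨hdiv, ?_⟩
    intro T hT hT1
    rw [Cfsg.Agent.Lib.Helper48.CharP.charP_iff]
    have hne' : T ⊓ T ≠ ⊥ := by
      rw [inf_idem]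
      exact hT1
    obtain ⟨z, hzT, -, hzp, hzZ⟩ := exists_central_orderOf hT le_normalizer hne'
    obtain ⟨x, hx⟩ := Cfsg.Agent.Lib.Helper33.Conj.exists_cj_le_sylow S hT
    have hyS : x * z * x⁻¹ ∈ (S : Subgroup G) :=
      hx (Cfsg.Agent.Lib.Helper33.Conj.conj_mem_cj hzT)
    have hyp : orderOf (x * z * x⁻¹) = p := by
      rw [Cfsg.Agent.Lib.Helper48.StrEmb.orderOf_conj']
      exact hzp
    have hC := h _ hyS hyp
    rw [gfs_iff_chP, chP_centralizer_conj_iff] at hC
    exact chP_normalizer_of_centralizer hT hzT hzZ hC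

end Cfsg.Agent.S2896
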