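import Cfsg.Statements.S2897
import Cfsg.Agent.Lib.Helper48.CharP
import Cfsg.Agent.Lib.Helper48.StrEmb
import Cfsg.Agent.Lib.Helper24.Coprime
import Cfsg.Agent.Lib.Helper33.Conj

set_option autoImplicit false
open Cfsg

namespace Cfsg.Agent.S2897

open Subgroup Cfsg.Agent.Lib.Helper48.CharP

/-- Let p be a prime dividing the order of the finite group G, suppose G has parabolic characteristic p, let S be a Sylow p-subgroup of G and G₁ a normal subgroup of G. If Ω₁(Z(S ∩ G₁)) is nontrivial and contained in Ω₁(Z(S)), then G₁ has parabolic characteristic p. -/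
theorem result {G : Type*} [Group G] [Finite G] {p : ℕ} [Fact p.Prime] (hdiv : p ∣ Nat.card G) (hG : Cfsg.IsOfParabolicCharacteristic p G) (S : Sylow p G) (G₁ : Subgroup G) [G₁.Normal] (hne : Cfsg.omegaOne p (((S : Subgroup G) ⊓ G₁) ⊓ Subgroup.centralizer (((S : Subgroup G) ⊓ G₁ : Subgroup G) : Set G)) ≠ ⊥) (hle : Cfsg.omegaOne p (((S : Subgroup G) ⊓ G₁) ⊓ Subgroup.centralizer (((S : Subgroup G) ⊓ G₁ : Subgroup G) : Set G)) ≤ Cfsg.omegaOne p ((S : Subgroup G) ⊓ Subgroup.centralizer ((S : Subgroup G) : Set G))) : Cfsg.IsOfParabolicCharacteristic p ↥G₁ := by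
  intro R hR hR1 hpar
  obtain ⟨T, hT⟩ := hpar
  obtain ⟨Q, hQ⟩ := T.exists_comap_subtype_eq
  have hG₁n : G₁.Normal := inferInstance
  -- R ≤ T
  have hRT : R ≤ (T : Subgroup ↥G₁) := by
    have h1 : IsPGroup p (R ⊔ (T : Subgroup ↥G₁) : Subgroup ↥G₁) :=
      IsPGroup.to_sup_of_normal_left' hR T.isPGroup' hT
    have h2 := T.is_maximal' h1 le_sup_right
    rw [← h2]
    exact le_sup_left
  have hR'G : R.map G₁.subtype ≤ G₁ := by
    rintro _ ⟨r, _, rfl⟩
    exact r.2
  have hR'p : IsPGroup p (R.map G₁.subtype) := hR.map _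
  have hR'1 : R.map G₁.subtype ≠ ⊥ := by
    rw [Ne, Subgroup.map_eq_bot_iff_of_injective _ G₁.subtype_injective]
    exact hR1
  have hR'Q : R.map G₁.subtype ≤ (Q : Subgroup G) := by
    rintro _ ⟨r, hr, rfl⟩
    have := hRT hr
    rw [← hQ] at this
    exact this
  have hTn : (Q : Subgroup G) ⊓ G₁ ≤ normalizer ((R.map G₁.subtype : Subgroup G) : Set G) := by
    intro t ht
    obtain ⟨htQ, htG⟩ := mem_inf.mp ht
    have h1 : (⟨t, htG⟩ : ↥G₁) ∈ (T : Subgroup ↥G₁) := by
      rw [← hQ]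
      exact htQ
    exact le_normalizer_map G₁.subtype ⟨⟨t, htG⟩, hT h1, rfl⟩
  have hTp : IsPGroup p ((Q : Subgroup G) ⊓ G₁ : Subgroup G) := Q.isPGroup'.to_le inf_le_left
  have hne' : ((Q : Subgroup G) ⊓ G₁) ⊓ R.map G₁.subtype ≠ ⊥ := by
    rw [inf_eq_right.mpr (le_inf hR'Q hR'G)]
    exact hR'1
  obtain ⟨z, hzT, hzR, hzp, hzZ⟩ := exists_central_orderOf hTp hTn hne'
  -- conjugate Q to S
  obtain ⟨x, -, hx⟩ := (Cfsg.Agent.Lib.Helper33.Conj.isSylIn_of_sylow S le_top).exists_cj_eq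
    (Cfsg.Agent.Lib.Helper33.Conj.isSylIn_of_sylow Q le_top)
  have hzpow : z ^ p = 1 := by rw [← hzp, pow_orderOf_eq_one]
  have hy : x * z * x⁻¹ ∈ Cfsg.omegaOne p (((S : Subgroup G) ⊓ G₁) ⊓
      centralizer (((S : Subgroup G) ⊓ G₁ : Subgroup G) : Set G)) := by
    apply Subgroup.subset_closure
    refine ⟨mem_inf.mpr ⟨mem_inf.mpr ⟨?_, ?_⟩, ?_⟩, ?_⟩
    · rw [← hx]
      exact Cfsg.Agent.Lib.Helper33.Conj.conj_mem_cj (mem_inf.mp hzT).1
    · exact hG₁n.conj_mem z (mem_inf.mp hzT).2 x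
    · rw [mem_centralizer_iff]
      intro s hs
      obtain ⟨hsS, hsG⟩ := mem_inf.mp hs
      rw [← hx, Cfsg.Agent.Lib.Helper33.Conj.mem_cj] at hsS
      have hs' : x⁻¹ * s * x ∈ (Q : Subgroup G) ⊓ G₁ :=
        mem_inf.mpr ⟨hsS, by simpa using hG₁n.conj_mem s hsG x⁻¹⟩
      have := hzZ _ hs'
      calc s * (x * z * x⁻¹) = x * (x⁻¹ * s * x * z) * x⁻¹ := by group
        _ = x * (z * (x⁻¹ * s * x)) * x⁻¹ := by rw [this]
        _ = x * z * x⁻¹ * s := by group
    · rw [conj_pow, hzpow]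
      group
  have hy2 := hle hy
  have hΩ : Cfsg.omegaOne p ((S : Subgroup G) ⊓ centralizer ((S : Subgroup G) : Set G)) ≤
      (S : Subgroup G) ⊓ centralizer ((S : Subgroup G) : Set G) := by
    unfold Cfsg.omegaOne
    rw [closure_le]
    intro a ha
    exact ha.1
  have hy3 := hΩ hy2
  have hzQ : ∀ q ∈ (Q : Subgroup G), q * z = z * q := by
    intro q hq
    have hq' : x * q * x⁻¹ ∈ (S : Subgroup G) := by
      rw [← hx]
      exact Cfsg.Agent.Lib.Helper33.Conj.conj_mem_cj hq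
    have := mem_centralizer_iff.mp (mem_inf.mp hy3).2 _ hq'
    have e : x * (q * z) * x⁻¹ = x * (z * q) * x⁻¹ := by
      calc x * (q * z) * x⁻¹ = x * q * x⁻¹ * (x * z * x⁻¹) := by group
        _ = x * z * x⁻¹ * (x * q * x⁻¹) := this
        _ = x * (z * q) * x⁻¹ := by group
    exact mul_left_cancel (mul_right_cancel e)
  have hCL : centralizer ({z} : Set G) ≤ normalizer ((zpowers z : Subgroup G) : Set G) :=
    Cfsg.Agent.Lib.Helper48.StrEmb.centralizer_singleton_le_normalizer_zpowers z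
  have hQL : (Q : Subgroup G) ≤ normalizer ((zpowers z : Subgroup G) : Set G) := by
    intro q hq
    apply hCL
    rw [mem_centralizer_iff]
    intro y hy
    rw [Set.mem_singleton_iff] at hy
    subst hy
    exact (hzQ q hq).symm
  have hz1 : z ≠ 1 := by
    rintro rfl
    rw [orderOf_one] at hzp
    exact (Fact.out : p.Prime).ne_one hzp.symm
  have hL : ChP p (normalizer ((zpowers z : Subgroup G) : Set G)) := by
    rw [← Cfsg.Agent.Lib.Helper48.CharP.charP_iff]
    apply hG (zpowers z)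
    · exact IsPGroup.of_card (n := 1) (by rw [Nat.card_zpowers, hzp, pow_one])
    · rw [Ne, zpowers_eq_bot]
      exact hz1
    · exact ⟨Q, hQL⟩
  have hcz : centralizer ({z} : Set G) = centralizer ((zpowers z : Subgroup G) : Set G) := by
    apply le_antisymm
    · intro g hg
      rw [mem_centralizer_iff] at hg ⊢
      intro y hy
      exact (Cfsg.Agent.Lib.Helper24.Coprime.commute_zpowers
        (hg z (Set.mem_singleton z)).symm hy).symm
    · apply centralizer_le
      intro y hy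
      rw [Set.mem_singleton_iff] at hy
      subst hy
      exact mem_zpowers _
  have hL₁ : ChP p (G₁ ⊓ centralizer ({z} : Set G)) := by
    apply hL.of_normal (inf_le_right.trans hCL)
    intro g hg
    apply mem_normalizer_inf
    · rw [normalizer_eq_top]
      exact mem_top g
    · rw [hcz]
      exact mem_normalizer_centralizer hg
  have hR'L₁ : R.map G₁.subtype ≤ G₁ ⊓ centralizer ({z} : Set G) := by
    intro r hr
    refine mem_inf.mpr ⟨hR'G hr, ?_⟩
    rw [mem_centralizer_iff]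
    intro y hy
    rw [Set.mem_singleton_iff] at hy
    subst hy
    exact (hzZ r (mem_inf.mpr ⟨hR'Q hr, hR'G hr⟩)).symm
  have hN₁ : ChP p (G₁ ⊓ centralizer ({z} : Set G) ⊓
      normalizer ((R.map G₁.subtype : Subgroup G) : Set G)) := hL₁.normalizer_inf hR'L₁ hR'p
  have hN : ChP p (G₁ ⊓ normalizer ((R.map G₁.subtype : Subgroup G) : Set G)) := by
    apply ChP.of_centralizer (z := z)
    · exact le_O (le_inf hR'G le_normalizer) hR'p inf_le_right hzR
    · rw [inf_right_comm]
      exact hN₁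
  -- transport to the subgroup type
  have hmap : (normalizer (R : Set ↥G₁)).map G₁.subtype =
      G₁ ⊓ normalizer ((R.map G₁.subtype : Subgroup G) : Set G) := by
    have h1 := subgroupOf_normalizer_eq hR'G
    have h2 : (R.map G₁.subtype).subgroupOf G₁ = R :=
      comap_map_eq_self_of_injective G₁.subtype_injective R
    rw [h2] at h1
    rw [← h1, subgroupOf_map_subtype, inf_comm]
  rw [Cfsg.Agent.Lib.Helper48.CharP.charP_iff, ← charP_map_iff p _ G₁.subtype G₁.subtype_injective, hmap]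
  exact hN

end Cfsg.Agent.S2897
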