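import Cfsg.Statements.S2898
import Cfsg.Agent.Lib.Helper48.CharP
import Cfsg.Agent.Lib.Helper48.StrEmb
import Cfsg.Agent.Lib.Helper34.Crit19
import Cfsg.Agent.Lib.Helper23.Cores
import Cfsg.Agent.Lib.Helper33.Conj

set_option autoImplicit false
open Cfsg

namespace Cfsg.Agent.S2898

open Subgroup

/-- Let G be a finite group of even order with parabolic characteristic 2. If the centre of G ⧸ O(G) is trivial, then O(G) = 1. -/
theorem result {G : Type*} [Group G] [Finite G] (h2 : 2 ∣ Nat.card G) (hG : Cfsg.IsOfParabolicCharacteristic 2 G) [hN : (Cfsg.oddCore G).Normal] (hZ : Subgroup.center (G ⧸ Cfsg.oddCore G) = ⊥) : Cfsg.oddCore G = ⊥ := by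
  have : Fact (Nat.Prime 2) := ⟨Nat.prime_two⟩
  obtain ⟨S⟩ : Nonempty (Sylow 2 G) := inferInstance
  have hOodd : (Nat.card (Cfsg.oddCore G)).Coprime 2 :=
    Cfsg.Agent.Lib.Helper23.Cores.pPrimeCore_card_coprime 2
  have hodd1 : ∀ x ∈ Cfsg.oddCore G, (orderOf x).Coprime 2 := fun x hx =>
    Nat.Coprime.coprime_dvd_left (Subgroup.orderOf_dvd_natCard _ hx) hOodd
  -- Step 1: every involution of Z(S) inverts O(G)
  have hinv : ∀ z : G, z ∈ (S : Subgroup G) → (∀ s ∈ (S : Subgroup G), s * z = z * s) →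
      orderOf z = 2 → ∀ n ∈ Cfsg.oddCore G, z * n * z⁻¹ = n⁻¹ := by
    intro z hzS hzZ hz2
    have hz1 : z ≠ 1 := by
      rintro rfl
      simp at hz2
    have hzz : z * z = 1 := by rw [← pow_two, ← hz2, pow_orderOf_eq_one]
    apply Cfsg.Agent.Lib.Helper34.Crit19.inverts_of_fixedPointFree (Cfsg.oddCore G) z hzz
    have hCL : centralizer ({z} : Set G) ≤ normalizer ((zpowers z : Subgroup G) : Set G) :=
      Cfsg.Agent.Lib.Helper48.StrEmb.centralizer_singleton_le_normalizer_zpowers z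
    have hSL : (S : Subgroup G) ≤ normalizer ((zpowers z : Subgroup G) : Set G) := by
      intro s hs
      apply hCL
      rw [mem_centralizer_iff]
      intro y hy
      rw [Set.mem_singleton_iff] at hy
      subst hy
      exact (hzZ s hs).symm
    have hLchar : Cfsg.Agent.Lib.Helper48.CharP.ChP 2
        (normalizer ((zpowers z : Subgroup G) : Set G)) := by
      rw [← Cfsg.Agent.Lib.Helper48.CharP.charP_iff]
      apply hG (zpowers z)
      · exact IsPGroup.of_card (n := 1) (by rw [Nat.card_zpowers, hz2, pow_one])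
      · rw [Ne, zpowers_eq_bot]
        exact hz1
      · exact ⟨S, hSL⟩
    rw [eq_bot_iff]
    intro x hx
    obtain ⟨hxO, hxC⟩ := mem_inf.mp hx
    have hxL : x ∈ normalizer ((zpowers z : Subgroup G) : Set G) := hCL hxC
    rw [mem_bot]
    refine Cfsg.Agent.Lib.Helper48.CharP.eq_one_of_mem_O_of_coprime (p := 2)
      (X := normalizer ((zpowers z : Subgroup G) : Set G)) (hLchar (mem_inf.mpr ⟨hxL, ?_⟩))
      (hodd1 x hxO)
    rw [mem_centralizer_iff]
    intro y hy
    have hc1 : y * x * y⁻¹ * x⁻¹ ∈ Cfsg.oddCore G :=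
      mul_mem (hN.conj_mem x hxO y) (inv_mem hxO)
    have hc2 : y * x * y⁻¹ * x⁻¹ ∈
        Cfsg.Agent.Lib.Helper48.CharP.O 2 (normalizer ((zpowers z : Subgroup G) : Set G)) := by
      have h1 := (mem_normalizer_iff.mp
        (Cfsg.Agent.Lib.Helper48.CharP.O_normalizer 2 _ hxL) y⁻¹).mp (inv_mem hy)
      have h2 := mul_mem hy h1
      have e : y * (x * y⁻¹ * x⁻¹) = y * x * y⁻¹ * x⁻¹ := by group
      rwa [e] at h2
    have hc3 := Cfsg.Agent.Lib.Helper48.CharP.eq_one_of_mem_O_of_coprime hc2 (hodd1 _ hc1)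
    rw [mul_inv_eq_one, mul_inv_eq_iff_eq_mul] at hc3
    exact hc3
  have comm_of_inv : ∀ w₁ w₂ : G, (∀ n ∈ Cfsg.oddCore G, w₁ * n * w₁⁻¹ = n⁻¹) →
      (∀ n ∈ Cfsg.oddCore G, w₂ * n * w₂⁻¹ = n⁻¹) →
      ∀ n ∈ Cfsg.oddCore G, n * (w₁ * w₂⁻¹) = (w₁ * w₂⁻¹) * n := by
    intro w₁ w₂ h1 h2 n hn
    have e1 := h1 n⁻¹ (inv_mem hn)
    have e2 := h2 n⁻¹ (inv_mem hn)
    rw [inv_inv] at e1 e2
    calc n * (w₁ * w₂⁻¹) = (w₁ * n⁻¹ * w₁⁻¹) * (w₁ * w₂⁻¹) := by rw [e1]
      _ = w₁ * w₂⁻¹ * (w₂ * n⁻¹ * w₂⁻¹) := by group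
      _ = w₁ * w₂⁻¹ * n := by rw [e2]
  have hCn : (centralizer ((Cfsg.oddCore G : Subgroup G) : Set G)).Normal := inferInstance
  have hSp : IsPGroup 2 (S : Subgroup G) := S.isPGroup'
  by_cases hcase : (S : Subgroup G) ⊓ centralizer ((Cfsg.oddCore G : Subgroup G) : Set G) = ⊥
  · -- C_G(O(G)) has odd order, hence lies in O(G)
    exfalso
    have hCodd : ¬ 2 ∣ Nat.card (centralizer ((Cfsg.oddCore G : Subgroup G) : Set G)) := by
      intro hdvd
      obtain ⟨t, ht⟩ := exists_prime_orderOf_dvd_card' 2 hdvd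
      have ht' : orderOf (t : G) = 2 := by rw [Subgroup.orderOf_coe]; exact ht
      have hQ : IsPGroup 2 (zpowers (t : G)) :=
        IsPGroup.of_card (n := 1) (by rw [Nat.card_zpowers, ht', pow_one])
      obtain ⟨x, hx⟩ := Cfsg.Agent.Lib.Helper33.Conj.exists_cj_le_sylow S hQ
      have h1 : x * (t : G) * x⁻¹ ∈ (S : Subgroup G) :=
        hx (Cfsg.Agent.Lib.Helper33.Conj.conj_mem_cj (mem_zpowers _))
      have h2 : x * (t : G) * x⁻¹ ∈ centralizer ((Cfsg.oddCore G : Subgroup G) : Set G) :=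
        hCn.conj_mem _ t.2 x
      have h3 : x * (t : G) * x⁻¹ ∈
          (S : Subgroup G) ⊓ centralizer ((Cfsg.oddCore G : Subgroup G) : Set G) :=
        mem_inf.mpr ⟨h1, h2⟩
      rw [hcase, mem_bot] at h3
      have h4 : (t : G) = 1 := by
        have : (t : G) = x⁻¹ * (x * (t : G) * x⁻¹) * x := by group
        rw [this, h3]; group
      rw [h4] at ht'
      simp at ht'
    have hCO : centralizer ((Cfsg.oddCore G : Subgroup G) : Set G) ≤ Cfsg.oddCore G :=
      Cfsg.Agent.Lib.Helper23.Cores.le_pPrimeCore 2 _ hCn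
        ((Nat.Prime.coprime_iff_not_dvd Nat.prime_two).mpr hCodd).symm
    have hSne : (S : Subgroup G) ⊓ (S : Subgroup G) ≠ ⊥ := by
      rw [inf_idem]
      exact S.ne_bot_of_dvd_card h2
    obtain ⟨z, hzS, -, hz2, hzZ⟩ :=
      Cfsg.Agent.Lib.Helper48.CharP.exists_central_orderOf hSp le_normalizer hSne
    have hz := hinv z hzS hzZ hz2
    have hzz : z * z = 1 := by rw [← pow_two, ← hz2, pow_orderOf_eq_one]
    have hzi : z⁻¹ = z := inv_eq_of_mul_eq_one_left hzz
    have hcomm : ∀ g : G, z * g * z⁻¹ * g⁻¹ ∈ Cfsg.oddCore G := by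
      intro g
      apply hCO
      rw [mem_centralizer_iff]
      have h2' : ∀ n ∈ Cfsg.oddCore G, (g * z * g⁻¹) * n * (g * z * g⁻¹)⁻¹ = n⁻¹ := by
        intro n hn
        have hn' : g⁻¹ * n * g ∈ Cfsg.oddCore G := by simpa using hN.conj_mem n hn g⁻¹
        have e := hz (g⁻¹ * n * g) hn'
        calc (g * z * g⁻¹) * n * (g * z * g⁻¹)⁻¹ = g * (z * (g⁻¹ * n * g) * z⁻¹) * g⁻¹ := by
              group
          _ = g * (g⁻¹ * n * g)⁻¹ * g⁻¹ := by rw [e]
          _ = n⁻¹ := by group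
      intro n hn
      have := comm_of_inv z (g * z * g⁻¹) hz h2' n hn
      have e : z * (g * z * g⁻¹)⁻¹ = z * g * z⁻¹ * g⁻¹ := by group
      rw [e] at this
      exact this
    have hzc : (z : G ⧸ Cfsg.oddCore G) ∈ Subgroup.center (G ⧸ Cfsg.oddCore G) := by
      rw [Subgroup.mem_center_iff]
      intro q
      obtain ⟨g, rfl⟩ := QuotientGroup.mk_surjective q
      rw [← QuotientGroup.mk_mul, ← QuotientGroup.mk_mul, QuotientGroup.eq]
      have := hcomm g⁻¹
      have e : (g * z)⁻¹ * (z * g) = z * g⁻¹ * z⁻¹ * g⁻¹⁻¹ := by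
        simp only [mul_inv_rev, inv_inv, hzi, mul_assoc]
      rw [e]
      exact this
    rw [hZ, mem_bot, QuotientGroup.eq_one_iff] at hzc
    have := hodd1 z hzc
    rw [hz2] at this
    exact absurd this (by decide)
  · -- an involution of Z(S) centralizing O(G) also inverts it
    have hSC : (S : Subgroup G) ≤
        normalizer ((centralizer ((Cfsg.oddCore G : Subgroup G) : Set G) : Subgroup G) : Set G) :=
      fun s _ => by rw [normalizer_eq_top]; exact mem_top s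
    obtain ⟨z, hzS, hzC, hz2, hzZ⟩ :=
      Cfsg.Agent.Lib.Helper48.CharP.exists_central_orderOf hSp hSC hcase
    have hz := hinv z hzS hzZ hz2
    rw [eq_bot_iff]
    intro n hn
    rw [mem_bot]
    have e1 := hz n hn
    have e2 : z * n = n * z := (mem_centralizer_iff.mp hzC n hn).symm
    have e3 : n = n⁻¹ := by
      rw [← e1, e2]; group
    have e4 : n ^ 2 = 1 := by
      rw [pow_two]
      nth_rewrite 1 [e3]
      exact inv_mul_cancel n
    have e5 : orderOf n ∣ 2 := orderOf_dvd_of_pow_eq_one e4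
    have e6 : orderOf n = 1 := Nat.Coprime.eq_one_of_dvd (hodd1 n hn) e5
    exact orderOf_eq_one_iff.mp e6

end Cfsg.Agent.S2898
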