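import Cfsg.Statements.S2905
-- import your own Cfsg.Agent.* helpers here
import Cfsg.Agent.Lib.Helper48.PMin

set_option autoImplicit false
open Cfsg

namespace Cfsg.Agent.S2905

/-- Let P be a finite p-minimal group (a Sylow p-subgroup S is not normal and lies in a unique maximal subgroup M of P) and let F be the normal core of M. Then: every subnormal subgroup N of P contained in M satisfies N ∩ S ≤ O_p(P); if O^p(P) has a normal Sylow p-subgroup then the order of P has at most two prime divisors; every normal subgroup N of P either contains O^p(P) or is contained in F; and O^p(P)F ⧸ F is a minimal normal subgroup of P ⧸ F. -/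
theorem result {P : Type*} [Group P] [Finite P] {p : ℕ} [Fact p.Prime] (hP : Cfsg.IsPMinimal p P) (S : Sylow p P) (M : Subgroup P) (hM : IsCoatom M) (hSM : (S : Subgroup P) ≤ M) [hF : M.normalCore.Normal] : (∀ N : Subgroup P, N.IsSubnormal → N ≤ M → N ⊓ (S : Subgroup P) ≤ Cfsg.pCore p P) ∧ ((∀ T : Sylow p ↥(Cfsg.pResidual p P), (T : Subgroup ↥(Cfsg.pResidual p P)).Normal) → (Nat.card P).primeFactors.card ≤ 2) ∧ (∀ N : Subgroup P, N.Normal → Cfsg.pResidual p P ≤ N ∨ N ≤ M.normalCore) ∧ (∀ N : Subgroup P, N.Normal → M.normalCore ≤ N → N ≤ Cfsg.pResidual p P ⊔ M.normalCore → N = M.normalCore ∨ N = Cfsg.pResidual p P ⊔ M.normalCore) ∧ M.normalCore < Cfsg.pResidual p P ⊔ M.normalCore := by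
  have hR := Cfsg.Agent.Lib.Helper34.PResidual.pResidual_normal p P
  refine ⟨fun N hN hNM => Cfsg.Agent.Lib.Helper48.PMin.subnormal_inf_le_pCore hP S hM hSM hN hNM,
    ?_, fun N hN => Cfsg.Agent.Lib.Helper48.PMin.normal_dichotomy hP S hM hSM N hN, ?_, ?_⟩
  · intro hT
    obtain ⟨t, ht, hq⟩ := Cfsg.Agent.Lib.Helper48.PMin.exists_prime_of_sylow_normal hP S hM hSM hT
    have hp : p.Prime := Fact.out
    have hsub : (Nat.card P).primeFactors ⊆ {p, t} := by
      intro q hqm
      have h1 := Nat.prime_of_mem_primeFactors hqm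
      have h2 := Nat.dvd_of_mem_primeFactors hqm
      rcases hq q h1 h2 with h | h
      · simp [h]
      · simp [h]
    exact (Finset.card_le_card hsub).trans Finset.card_le_two
  · intro N hN hFN hNle
    rcases Cfsg.Agent.Lib.Helper48.PMin.normal_dichotomy hP S hM hSM N hN with h | h
    · exact Or.inr (le_antisymm hNle (sup_le h hFN))
    · exact Or.inl (le_antisymm h hFN)
  · refine lt_of_le_of_ne le_sup_right ?_
    intro h
    have h1 : Cfsg.pResidual p P ≤ M.normalCore := h ▸ le_sup_left
    exact Cfsg.Agent.Lib.Helper48.PMin.pResidual_not_le S hM hSM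
      (h1.trans (Subgroup.normalCore_le M))

end Cfsg.Agent.S2905
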