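import Cfsg.Statements.S2907
import Mathlib

set_option autoImplicit false
open Cfsg

namespace Cfsg.Agent.S2907

open Subgroup
open scoped commutatorElement

/-- Let X be a finite semi-extraspecial p-group and x an element of X outside the centre. Then the index of C_X(x) in X equals the order of Z(X), and the commutators [x, y], y ∈ X, form exactly the centre Z(X). -/
theorem result {X : Type*} [Group X] [Finite X] {p : ℕ} [Fact p.Prime] (hX : Cfsg.IsSemiExtraspecial p X) (x : X) (hx : x ∉ Subgroup.center X) : (Subgroup.centralizer ({x} : Set X)).index = Nat.card ↥(Subgroup.center X) ∧ {z : X | ∃ y : X, z = x * y * x⁻¹ * y⁻¹} = (Subgroup.center X : Set X) := by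
  obtain ⟨⟨-, -, hcomm⟩, hsemi⟩ := hX
  have hmem : ∀ y : X, x * y * x⁻¹ * y⁻¹ ∈ Subgroup.center X := by
    intro y
    rw [← hcomm, _root_.commutator_def]
    exact Subgroup.commutator_mem_commutator (Subgroup.mem_top x) (Subgroup.mem_top y)
  -- the homomorphism `y ↦ [x, y]`
  let φ : X →* Subgroup.center X :=
    { toFun := fun y => ⟨x * y * x⁻¹ * y⁻¹, hmem y⟩
      map_one' := by apply Subtype.ext; simp
      map_mul' := by
        intro y z
        apply Subtype.ext
        show x * (y * z) * x⁻¹ * (y * z)⁻¹ = (x * y * x⁻¹ * y⁻¹) * (x * z * x⁻¹ * z⁻¹)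
        have hc := Subgroup.mem_center_iff.mp (hmem z) y
        calc x * (y * z) * x⁻¹ * (y * z)⁻¹
            = (x * y * x⁻¹ * y⁻¹) * (y * (x * z * x⁻¹ * z⁻¹)) * y⁻¹ := by group
          _ = (x * y * x⁻¹ * y⁻¹) * ((x * z * x⁻¹ * z⁻¹) * y) * y⁻¹ := by rw [hc]
          _ = (x * y * x⁻¹ * y⁻¹) * (x * z * x⁻¹ * z⁻¹) := by group }
  have hφ : ∀ y, (φ y : X) = x * y * x⁻¹ * y⁻¹ := fun y => rfl
  have hker : φ.ker = Subgroup.centralizer ({x} : Set X) := by
    ext y
    rw [MonoidHom.mem_ker, Subgroup.mem_centralizer_iff]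
    constructor
    · intro h
      have h1 : x * y * x⁻¹ * y⁻¹ = 1 := by rw [← hφ y, h]; rfl
      intro w hw
      rw [Set.mem_singleton_iff] at hw; subst hw
      calc w * y = (w * y * w⁻¹ * y⁻¹) * y * w := by group
        _ = y * w := by rw [h1, one_mul]
    · intro h
      have h1 := h x rfl
      apply Subtype.ext
      rw [hφ y]
      show x * y * x⁻¹ * y⁻¹ = 1
      rw [h1]; group
  have hrange : φ.range = ⊤ := by
    rcases IsCoatomic.eq_top_or_exists_le_coatom φ.range with h | ⟨Y', hY', hle⟩
    · exact h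
    · exfalso
      set Y : Subgroup X := Y'.map (Subgroup.center X).subtype with hYdef
      have hYZ : Y ≤ Subgroup.center X := Subgroup.map_subtype_le _
      have hYsub : Y.subgroupOf (Subgroup.center X) = Y' := by
        rw [hYdef]
        exact Subgroup.comap_map_eq_self_of_injective (Subgroup.subtype_injective _) Y'
      obtain ⟨hYn, ⟨-, hcard⟩⟩ := hsemi Y hYZ (by rw [hYsub]; exact hY')
      -- image of `x` is central in `X ⧸ Y`
      have hxc : (QuotientGroup.mk x : X ⧸ Y) ∈ Subgroup.center (X ⧸ Y) := by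
        rw [Subgroup.mem_center_iff]
        intro w
        obtain ⟨y, rfl⟩ := QuotientGroup.mk_surjective w
        have h1 : x * y * x⁻¹ * y⁻¹ ∈ Y := by
          have : φ y ∈ Y' := hle ⟨y, rfl⟩
          exact Subgroup.mem_map.mpr ⟨φ y, this, rfl⟩
        have h2 : ((x * y * x⁻¹ * y⁻¹ : X) : X ⧸ Y) = 1 := (QuotientGroup.eq_one_iff _).mpr h1
        have e : x * y = (x * y * x⁻¹ * y⁻¹) * (y * x) := by group
        have h3 : (QuotientGroup.mk (x * y) : X ⧸ Y) = QuotientGroup.mk (y * x) := by
          calc (QuotientGroup.mk (x * y) : X ⧸ Y)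
              = QuotientGroup.mk ((x * y * x⁻¹ * y⁻¹) * (y * x)) := by rw [← e]
            _ = QuotientGroup.mk (x * y * x⁻¹ * y⁻¹) * QuotientGroup.mk (y * x) := rfl
            _ = QuotientGroup.mk (y * x) := by rw [h2, one_mul]
        exact h3.symm
      -- image of the centre
      set Zb : Subgroup (X ⧸ Y) := (Subgroup.center X).map (QuotientGroup.mk' Y) with hZb
      have hZbc : Zb ≤ Subgroup.center (X ⧸ Y) := by
        rintro _ ⟨z, hz, rfl⟩
        rw [Subgroup.mem_center_iff]
        intro w
        obtain ⟨y, rfl⟩ := QuotientGroup.mk_surjective w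
        have := Subgroup.mem_center_iff.mp hz y
        show (QuotientGroup.mk y : X ⧸ Y) * QuotientGroup.mk z = QuotientGroup.mk z * QuotientGroup.mk y
        rw [← QuotientGroup.mk_mul, ← QuotientGroup.mk_mul, this]
      have hprime : Fact (Nat.card (Subgroup.center (X ⧸ Y))).Prime := by
        rw [hcard]; infer_instance
      rcases Subgroup.eq_bot_or_eq_top_of_prime_card (Zb.subgroupOf (Subgroup.center (X ⧸ Y))) with hb | ht
      · -- then the centre is inside `Y`, so `Y' = ⊤`
        rw [Subgroup.subgroupOf_eq_bot] at hb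
        have hZbot : Zb = ⊥ := by
          rw [← inf_eq_left.mpr hZbc]; exact disjoint_iff.mp hb
        apply hY'.1
        rw [eq_top_iff]
        intro z _
        have h1 : (QuotientGroup.mk (z : X) : X ⧸ Y) ∈ Zb := ⟨z, z.2, rfl⟩
        rw [hZbot, Subgroup.mem_bot, QuotientGroup.eq_one_iff] at h1
        obtain ⟨z', hz', he⟩ := Subgroup.mem_map.mp h1
        have : z' = z := Subtype.ext he
        rw [← this]; exact hz'
      · rw [Subgroup.subgroupOf_eq_top] at ht
        obtain ⟨z, hz, he⟩ := ht hxc
        have h1 : (QuotientGroup.mk (z⁻¹ * x) : X ⧸ Y) = 1 := by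
          rw [QuotientGroup.mk_mul, QuotientGroup.mk_inv]
          have : (QuotientGroup.mk z : X ⧸ Y) = QuotientGroup.mk x := he
          rw [this, inv_mul_cancel]
        rw [QuotientGroup.eq_one_iff] at h1
        apply hx
        have e : x = z * (z⁻¹ * x) := by group
        rw [e]
        exact (Subgroup.center X).mul_mem hz (hYZ h1)
  constructor
  · rw [← hker, Subgroup.index_ker, hrange, Subgroup.card_top]
  · ext z
    constructor
    · rintro ⟨y, rfl⟩
      exact hmem y
    · intro hz
      have : (⟨z, hz⟩ : Subgroup.center X) ∈ φ.range := by rw [hrange]; trivial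
      obtain ⟨y, hy⟩ := this
      exact ⟨y, by rw [← hφ y, hy]⟩

end Cfsg.Agent.S2907
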