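import Cfsg.Statements.S2908
import Cfsg.Agent.Lib.Helper48.CoprimeQ
import Cfsg.Agent.Lib.Helper78.Fitting

set_option autoImplicit false
open Cfsg

namespace Cfsg.Agent.S2908

open Subgroup Cfsg.Agent.Lib.Helper48.CoprimeQ
open scoped commutatorElement

/-- Let P be a p-subgroup of a finite group, normalized by a p-subgroup A and by a subgroup B of order prime to p that commutes elementwise with A. If [P, B] ≤ [P, A], then B centralizes P. -/
theorem result {G : Type*} [Group G] [Finite G] {p : ℕ} [Fact p.Prime] (P A B : Subgroup G) (hP : IsPGroup p ↥P) (hA : IsPGroup p ↥A) (hB : ¬ p ∣ Nat.card ↥B) (hnA : A ≤ Subgroup.normalizer (P : Set G)) (hnB : B ≤ Subgroup.normalizer (P : Set G)) (hAB : ⁅A, B⁆ = ⊥) (hcomm : ⁅P, B⁆ ≤ ⁅P, A⁆) : ⁅P, B⁆ = ⊥ := by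
  rw [Subgroup.commutator_eq_bot_iff_le_centralizer, Subgroup.le_centralizer_iff]
  have hAB' : ∀ a ∈ A, ∀ b ∈ B, b * a = a * b := by
    rw [Subgroup.commutator_eq_bot_iff_le_centralizer] at hAB
    intro a ha b hb
    exact Subgroup.mem_centralizer_iff.mp (hAB ha) b hb
  -- it suffices to treat the Sylow subgroups of `B`
  have key : ∀ (q : Nat.Primes) (S : Sylow (q : ℕ) B),
      (S : Subgroup B) ≤ (centralizer (P : Set G)).subgroupOf B := by
    intro q S
    have : Fact (q : ℕ).Prime := ⟨q.2⟩
    by_cases hqp : (q : ℕ) = p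
    · -- the Sylow `p`-subgroup of `B` is trivial
      have hcard := S.card_eq_multiplicity
      have h0 : (Nat.card B).factorization (q : ℕ) = 0 := by
        rw [hqp]
        exact Nat.factorization_eq_zero_of_not_dvd hB
      rw [h0, pow_zero] at hcard
      have hbot : (S : Subgroup B) = ⊥ := Subgroup.card_eq_one.mp hcard
      rw [hbot]; exact bot_le
    · set K : Subgroup G := (S : Subgroup B).map B.subtype with hKdef
      have hKB : K ≤ B := Subgroup.map_subtype_le _
      have hKq : IsPGroup (q : ℕ) K := S.2.map _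
      have hcent := centralizes_of_commutator_le hqp P A K hP hA hKq hnA (le_trans hKB hnB)
        (fun a ha k hk => hAB' a ha k (hKB hk))
        (fun x hx k hk => by
          have h1 : ⁅x⁻¹, k⁆ ∈ ⁅P, B⁆ :=
            Subgroup.commutator_mem_commutator (P.inv_mem hx) (hKB hk)
          have h2 := hcomm h1
          rw [commutatorElement_def, inv_inv] at h2
          exact h2)
      intro s hs
      rw [Subgroup.mem_subgroupOf, Subgroup.mem_centralizer_iff]
      intro x hx
      have hsK : (s : G) ∈ K := Subgroup.mem_map.mpr ⟨s, hs, rfl⟩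
      have := hcent x hx (s : G) hsK
      calc x * (s : G) = ((s : G) * x * (s : G)⁻¹) * (s : G) := by rw [this]
        _ = (s : G) * x := by group
  have htop : (centralizer (P : Set G)).subgroupOf B = ⊤ := by
    rw [eq_top_iff, ← Cfsg.Agent.Lib.Helper78.Fitting.iSup_sylow_eq_top B]
    exact iSup_le fun q => iSup_le fun S => key q S
  intro b hb
  have : (⟨b, hb⟩ : B) ∈ (centralizer (P : Set G)).subgroupOf B := by rw [htop]; trivial
  rwa [Subgroup.mem_subgroupOf] at this

end Cfsg.Agent.S2908
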