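import Cfsg.Statements.S2909
import Cfsg.Agent.S0058
import Cfsg.Agent.S2908
import Cfsg.Agent.Lib.Helper24.Coprime
import Cfsg.Agent.Lib.Helper48.CharP
import Cfsg.Agent.Lib.Helper48.CharPGfs
import Cfsg.Agent.Lib.Helper48.StrEmb

set_option autoImplicit false
open Cfsg

namespace Cfsg.Agent.S2909

open Subgroup
open scoped commutatorElement

/-- Let p be a prime, E a normal p-subgroup of the finite group G, and U a non-cyclic elementary abelian p-subgroup of G such that either C_E(U) = C_E(u) for every nontrivial u ∈ U, or [E, U] = [E, ⟨u⟩] for every nontrivial u ∈ U. If R is a subgroup of order prime to p normalized by U, then [R, U] centralizes E. -/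
theorem result {G : Type*} [Group G] [Finite G] {p : ℕ} [Fact p.Prime] (E : Subgroup G) [E.Normal] (hE : IsPGroup p ↥E) (U : Subgroup G) (hU : Cfsg.IsElementaryAbelian p U) (hnc : ¬ IsCyclic ↥U) (hcond : (∀ u ∈ U, u ≠ 1 → E ⊓ Subgroup.centralizer (U : Set G) = E ⊓ Subgroup.centralizer ({u} : Set G)) ∨ (∀ u ∈ U, u ≠ 1 → ⁅E, U⁆ = ⁅E, Subgroup.zpowers u⁆)) (R : Subgroup G) (hR : ¬ p ∣ Nat.card ↥R) (hRU : U ≤ Subgroup.normalizer (R : Set G)) : ⁅R, U⁆ ≤ Subgroup.centralizer (E : Set G) := by
  have hp : p.Prime := Fact.out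
  have hUc : IsMulCommutative ↥U := hU.1
  have hUp : IsPGroup p U := fun g => ⟨1, by
    rw [pow_one]
    exact Subtype.ext (by simpa using hU.2 g g.2)⟩
  have hcopU : ∀ K : Subgroup G, K ≤ R → (Nat.card U).Coprime (Nat.card K) := by
    intro K hK
    obtain ⟨n, hn⟩ := IsPGroup.iff_card.mp hUp
    rw [hn]
    apply Nat.Coprime.pow_left
    rw [Nat.Prime.coprime_iff_not_dvd hp]
    intro h
    exact hR (h.trans (Subgroup.card_dvd_of_le hK))
  have hW_le : ⁅R, U⁆ ≤ R := Cfsg.Agent.Lib.Helper24.Coprime.commutator_le_of_le_normalizer hRU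
  have hUW : U ≤ normalizer ((⁅R, U⁆ : Subgroup G) : Set G) := fun u hu =>
    Cfsg.Agent.Lib.Helper24.Coprime.mem_normalizer_commutator (hRU hu) (le_normalizer hu)
  have genR := Cfsg.Agent.S0058.result U R hnc hRU (hcopU R le_rfl)
  have genW := Cfsg.Agent.S0058.result U ⁅R, U⁆ hnc hUW (hcopU _ hW_le)
  suffices h : ∀ u ∈ U, u ≠ 1 →
      ⁅R, U⁆ ⊓ centralizer ({u} : Set G) ≤ centralizer (E : Set G) by
    rw [← genW]
    apply iSup₂_le
    rintro a ⟨haU, ha1⟩
    exact h a haU ha1
  have hordR : ∀ a ∈ R, (orderOf a).Coprime p := by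
    intro a ha
    rw [Nat.coprime_comm, Nat.Prime.coprime_iff_not_dvd hp]
    intro h
    exact hR (h.trans (Subgroup.orderOf_dvd_natCard _ ha))
  have hEn : E.Normal := inferInstance
  have hEtop : normalizer (E : Set G) = ⊤ := normalizer_eq_top E
  rcases hcond with hcond | hcond
  · -- case (a)
    have hR0 : R ≤ normalizer ((E ⊓ centralizer (U : Set G) : Subgroup G) : Set G) := by
      rw [← genR]
      apply iSup₂_le
      rintro a ⟨haU, ha1⟩
      intro x hx
      rw [hcond a haU ha1]
      apply Cfsg.Agent.Lib.Helper48.CharP.mem_normalizer_inf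
      · rw [hEtop]
        exact mem_top x
      · rw [Cfsg.Agent.Lib.Helper48.CharPGfs.centralizer_singleton_eq_zpowers]
        exact Cfsg.Agent.Lib.Helper48.CharP.mem_normalizer_centralizer
          (Cfsg.Agent.Lib.Helper48.StrEmb.centralizer_singleton_le_normalizer_zpowers a
            (mem_inf.mp hx).2)
    have hWE0 : ⁅R, U⁆ ≤
        centralizer ((E ⊓ centralizer (U : Set G) : Subgroup G) : Set G) := by
      rw [Subgroup.commutator_le]
      intro r hr u hu
      have hu0 : u ∈ centralizer ((E ⊓ centralizer (U : Set G) : Subgroup G) : Set G) := by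
        rw [mem_centralizer_iff]
        intro x hx
        exact (mem_centralizer_iff.mp (mem_inf.mp hx).2 u hu).symm
      have hr0 := Cfsg.Agent.Lib.Helper48.CharP.mem_normalizer_centralizer (hR0 hr)
      rw [commutatorElement_def]
      exact mul_mem ((mem_normalizer_iff.mp hr0 u).mp hu0) (inv_mem hu0)
    intro u hu hu1 a ha
    obtain ⟨haW, haC⟩ := mem_inf.mp ha
    rw [mem_centralizer_iff]
    have hH : IsPGroup p (E ⊔ zpowers u : Subgroup G) :=
      IsPGroup.to_sup_of_normal_left' hE (hUp.to_le (zpowers_le.mpr hu))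
        (by rw [hEtop]; exact le_top)
    have hau : u * a = a * u := mem_centralizer_iff.mp haC u (Set.mem_singleton u)
    refine Cfsg.Agent.Lib.Helper24.Coprime.thompson_AxB p (E ⊔ zpowers u) hH (zpowers u)
      le_sup_right a (hordR a (hW_le haW)) ?_ E le_sup_left (by rw [hEtop]; exact mem_top a)
      (by rw [hEtop]; exact le_top) ?_
    · intro b hb
      exact (Cfsg.Agent.Lib.Helper24.Coprime.commute_zpowers hau.symm hb).symm
    · intro x hx hxB
      have hx0 : x ∈ E ⊓ centralizer (U : Set G) := by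
        rw [hcond u hu hu1]
        refine mem_inf.mpr ⟨hx, ?_⟩
        rw [mem_centralizer_iff]
        intro y hy
        rw [Set.mem_singleton_iff] at hy
        subst hy
        exact hxB y (mem_zpowers y)
      exact mem_centralizer_iff.mp (hWE0 haW) x hx0
  · -- case (b)
    have hR1 : R ≤ normalizer ((⁅E, U⁆ : Subgroup G) : Set G) := by
      rw [← genR]
      apply iSup₂_le
      rintro a ⟨haU, ha1⟩
      intro x hx
      rw [hcond a haU ha1]
      exact Cfsg.Agent.Lib.Helper24.Coprime.mem_normalizer_commutator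
        (by rw [hEtop]; exact mem_top x)
        (Cfsg.Agent.Lib.Helper48.StrEmb.centralizer_singleton_le_normalizer_zpowers a
          (mem_inf.mp hx).2)
    have hU1 : U ≤ normalizer ((⁅E, U⁆ : Subgroup G) : Set G) := fun u hu =>
      Cfsg.Agent.Lib.Helper24.Coprime.mem_normalizer_commutator
        (by rw [hEtop]; exact mem_top u) (le_normalizer hu)
    let K : Subgroup G :=
      { carrier := {g | g ∈ normalizer ((⁅E, U⁆ : Subgroup G) : Set G) ∧
          ∀ e ∈ E, ⁅e, g⁆ ∈ ⁅E, U⁆}
        one_mem' := ⟨one_mem _, fun e _ => by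
          rw [commutatorElement_one_right]
          exact one_mem _⟩
        mul_mem' := by
          rintro g h ⟨hg, hg'⟩ ⟨hh, hh'⟩
          refine ⟨mul_mem hg hh, fun e he => ?_⟩
          have e1 : ⁅e, g * h⁆ = ⁅e, g⁆ * (g * ⁅e, h⁆ * g⁻¹) := by
            simp only [commutatorElement_def]
            group
          rw [e1]
          exact mul_mem (hg' e he) ((mem_normalizer_iff.mp hg _).mp (hh' e he))
        inv_mem' := by
          rintro g ⟨hg, hg'⟩
          refine ⟨inv_mem hg, fun e he => ?_⟩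
          have e1 : ⁅e, g⁻¹⁆ = g⁻¹ * (⁅e, g⁆)⁻¹ * g⁻¹⁻¹ := by
            simp only [commutatorElement_def]
            group
          rw [e1]
          exact (mem_normalizer_iff.mp (inv_mem hg) _).mp (inv_mem (hg' e he)) }
    have hUK : ∀ u ∈ U, u ∈ K := fun u hu =>
      ⟨hU1 hu, fun e he => commutator_mem_commutator he hu⟩
    have hconjK : ∀ r ∈ R, ∀ u ∈ U, r * u * r⁻¹ ∈ K := by
      intro r hr u hu
      refine ⟨mul_mem (mul_mem (hR1 hr) (hU1 hu)) (inv_mem (hR1 hr)), fun e he => ?_⟩
      have e1 : ⁅e, r * u * r⁻¹⁆ = r * ⁅r⁻¹ * e * r, u⁆ * r⁻¹ := by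
        simp only [commutatorElement_def]
        group
      rw [e1]
      have he' : r⁻¹ * e * r ∈ E := by simpa using hEn.conj_mem e he r⁻¹
      exact (mem_normalizer_iff.mp (hR1 hr) _).mp (commutator_mem_commutator he' hu)
    have hWK : ⁅R, U⁆ ≤ K := by
      rw [Subgroup.commutator_le]
      intro r hr u hu
      rw [commutatorElement_def]
      exact mul_mem (hconjK r hr u hu) (inv_mem (hUK u hu))
    have hEW : ⁅E, ⁅R, U⁆⁆ ≤ ⁅E, U⁆ := by
      rw [Subgroup.commutator_le]
      intro e he w hw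
      exact (hWK hw).2 e he
    intro u hu hu1
    have hB : ¬ p ∣ Nat.card ↥(⁅R, U⁆ ⊓ centralizer ({u} : Set G) : Subgroup G) := fun h =>
      hR (h.trans (Subgroup.card_dvd_of_le (inf_le_left.trans hW_le)))
    have hAB : ⁅zpowers u, ⁅R, U⁆ ⊓ centralizer ({u} : Set G)⁆ = ⊥ := by
      rw [commutator_eq_bot_iff_le_centralizer, zpowers_le, mem_centralizer_iff]
      intro b hb
      exact (mem_centralizer_iff.mp (mem_inf.mp hb).2 u (Set.mem_singleton u)).symm
    have hcomm : ⁅E, ⁅R, U⁆ ⊓ centralizer ({u} : Set G)⁆ ≤ ⁅E, zpowers u⁆ := by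
      rw [← hcond u hu hu1]
      exact (commutator_mono le_rfl inf_le_left).trans hEW
    have h0 := Cfsg.Agent.S2908.result E (zpowers u) (⁅R, U⁆ ⊓ centralizer ({u} : Set G)) hE
      (hUp.to_le (zpowers_le.mpr hu)) hB (by rw [hEtop]; exact le_top)
      (by rw [hEtop]; exact le_top) hAB hcomm
    rw [commutator_comm, commutator_eq_bot_iff_le_centralizer] at h0
    exact h0

end Cfsg.Agent.S2909
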