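import Cfsg.Statements.S2922
import Cfsg.Agent.Lib.Helper48.CharPGfs

set_option autoImplicit false
open Cfsg

namespace Cfsg.Agent.S2922

open Subgroup Cfsg.Agent.Lib.Helper48.CharP Cfsg.Agent.Lib.Helper48.CharPGfs

/-- Let p be a prime, X a finite group, B a p-subgroup of X and C a normal subgroup of B. If N_X(C) has characteristic p (its generalized Fitting subgroup is O_p(N_X(C))), then N_X(B) and C_X(B) have characteristic p. -/
theorem result {X : Type*} [Group X] [Finite X] {p : ℕ} [Fact p.Prime] (B C : Subgroup X) (hB : IsPGroup p ↥B) (hCB : C ≤ B) (hCn : (C.subgroupOf B).Normal) (hC : Cfsg.generalizedFittingSubgroup ↥(Subgroup.normalizer (C : Set X)) = Cfsg.pCore p ↥(Subgroup.normalizer (C : Set X))) : Cfsg.generalizedFittingSubgroup ↥(Subgroup.normalizer (B : Set X)) = Cfsg.pCore p ↥(Subgroup.normalizer (B : Set X)) ∧ Cfsg.generalizedFittingSubgroup ↥(Subgroup.centralizer (B : Set X)) = Cfsg.pCore p ↥(Subgroup.centralizer (B : Set X)) := by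
  have hN : ChP p (normalizer (C : Set X)) := (gfs_iff_chP p _).mp hC
  have hBN : B ≤ normalizer (C : Set X) := (normal_subgroupOf_iff_le_normalizer hCB).mp hCn
  have hL : ChP p (normalizer (C : Set X) ⊓ normalizer (B : Set X)) := hN.normalizer_inf hBN hB
  have hBO : B ≤ O p (normalizer (B : Set X)) := le_O le_normalizer hB le_rfl
  have hWH : normalizer (B : Set X) ≤ normalizer
      ((normalizer (B : Set X) ⊓ centralizer (O p (normalizer (B : Set X)) : Set X) :
        Subgroup X) : Set X) :=
    fun y hy => mem_normalizer_inf (le_normalizer hy)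
      (mem_normalizer_centralizer (O_normalizer p _ hy))
  have hWL : normalizer (B : Set X) ⊓ centralizer (O p (normalizer (B : Set X)) : Set X) ≤
      normalizer (C : Set X) ⊓ normalizer (B : Set X) := by
    intro w hw
    obtain ⟨h1, h2⟩ := mem_inf.mp hw
    refine mem_inf.mpr ⟨?_, h1⟩
    apply centralizer_le_normalizer
    have h3 : (C : Set X) ⊆ (O p (normalizer (B : Set X)) : Set X) :=
      fun c hc => hBO (hCB hc)
    exact centralizer_le h3 h2
  have hWchar : ChP p (normalizer (B : Set X) ⊓
      centralizer (O p (normalizer (B : Set X)) : Set X)) :=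
    hL.of_normal hWL (inf_le_right.trans hWH)
  have hOW : O p (normalizer (B : Set X) ⊓
      centralizer (O p (normalizer (B : Set X)) : Set X)) ≤ O p (normalizer (B : Set X)) :=
    le_O ((O_le p _).trans inf_le_left) (O_isPGroup p _)
      (hWH.trans (normalizer_le_normalizer_O p _))
  have hH : ChP p (normalizer (B : Set X)) := by
    intro w hw
    apply hOW
    apply hWchar
    refine mem_inf.mpr ⟨hw, ?_⟩
    rw [mem_centralizer_iff]
    intro x hx
    exact mem_centralizer_iff.mp (mem_inf.mp hw).2 x (hOW hx)
  have hK : ChP p (centralizer (B : Set X)) :=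
    hH.of_normal (centralizer_le_normalizer _) (fun y hy => mem_normalizer_centralizer hy)
  exact ⟨(gfs_iff_chP p _).mpr hH, (gfs_iff_chP p _).mpr hK⟩

end Cfsg.Agent.S2922
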