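import Cfsg.Statements.S2941
import Cfsg.Agent.Lib.Helper49.Isolated

set_option autoImplicit false
open Cfsg

namespace Cfsg.Agent.S2941

open Cfsg.Agent.Lib.Helper49.CharP Cfsg.Agent.Lib.Helper49.Isolated

/-- If the `p`-group `J` normalizes `K`, then every element of `K ⊔ J` killed by a number prime to `p`
lies in `K`. -/
theorem mem_of_mem_sup_of_coprime {G : Type*} [Group G] {p : ℕ} [Fact p.Prime] {K J : Subgroup G}
    (hJ : IsPGroup p J) (hJK : J ≤ Subgroup.normalizer (K : Set G)) {g : G} (hg : g ∈ K ⊔ J) {m : ℕ}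
    (hm : Nat.Coprime m p) (hgm : g ^ m = 1) : g ∈ K := by
  set N : Subgroup G := Subgroup.normalizer (K : Set G) with hN
  have hKN : K ≤ N := Subgroup.le_normalizer
  have hgN : g ∈ N := (sup_le hKN hJK) hg
  have hnorm : (K.subgroupOf N).Normal := Subgroup.normal_in_normalizer
  set π := QuotientGroup.mk' (K.subgroupOf N) with hπ
  have h1 : (⟨g, hgN⟩ : ↥N) ∈ K.subgroupOf N ⊔ J.subgroupOf N := by
    rw [← Subgroup.subgroupOf_sup hKN hJK]
    exact Subgroup.mem_subgroupOf.mpr hg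
  have h2 : π ⟨g, hgN⟩ ∈ (J.subgroupOf N).map π := by
    have h3 : π ⟨g, hgN⟩ ∈ (K.subgroupOf N ⊔ J.subgroupOf N).map π := Subgroup.mem_map_of_mem π h1
    rw [Subgroup.map_sup, hπ, QuotientGroup.map_mk'_self, bot_sup_eq] at h3
    exact h3
  have hp2 : IsPGroup p ((J.subgroupOf N).map π) := (hJ.comap_subtype).map π
  obtain ⟨j, hj⟩ := hp2 ⟨_, h2⟩
  have hj' : (π ⟨g, hgN⟩) ^ (p ^ j) = 1 := by
    have := congrArg Subtype.val hj
    simpa using this
  have hm' : (π ⟨g, hgN⟩) ^ m = 1 := by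
    rw [← map_pow]
    have : (⟨g, hgN⟩ : ↥N) ^ m = 1 := Subtype.ext (by simpa using hgm)
    rw [this, map_one]
  have h4 : π ⟨g, hgN⟩ = 1 := eq_one_of_pow_eq_one_of_coprime hj' hm' hm
  have h5 : (⟨g, hgN⟩ : ↥N) ∈ K.subgroupOf N := (QuotientGroup.eq_one_iff _).mp h4
  exact Subgroup.mem_subgroupOf.mp h5

/-- Let G be a finite group of characteristic 2 type in which every 2-local subgroup is solvable and the centralizer of Ω₁(Z(S)) lies in N_G(S) for every Sylow 2-subgroup S, and let T be a nontrivial 2-subgroup and K a J(T)-component (J the Thompson subgroup generated by the elementary abelian 2-subgroups of largest order). If a subgroup Q is normalized by ⟨K, J(T)⟩ and normalizes J(T), then Q normalizes K. -/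
theorem result {G : Type*} [Group G] [Finite G] (hL : Cfsg.IsCharacteristicTwoType G) (hN : ∀ N : Subgroup G, Cfsg.IsTwoLocal N → Group.IsSolvable ↥N)
    (hZ : ∀ S : Sylow 2 G, Subgroup.centralizer (Cfsg.omegaCenterOf (S : Subgroup G) : Set G) ≤ Subgroup.normalizer ((S : Subgroup G) : Set G)) (T : Subgroup G) (hT : IsPGroup 2 ↥T) (hT1 : T ≠ ⊥) (K : Subgroup G) (hK : Cfsg.IsJComponent T K)
    (Q : Subgroup G) (hQ1 : K ⊔ Cfsg.thompsonSubgroupOf 2 T ≤ Subgroup.normalizer (Q : Set G)) (hQ2 : Q ≤ Subgroup.normalizer (Cfsg.thompsonSubgroupOf 2 T : Set G)) :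
    Q ≤ Subgroup.normalizer (K : Set G) := by
  have : Fact (Nat.Prime 2) := ⟨Nat.prime_two⟩
  set J : Subgroup G := Cfsg.thompsonSubgroupOf 2 T with hJdef
  have hJT : J ≤ T := by
    rw [hJdef, Cfsg.thompsonSubgroupOf]
    rintro _ ⟨y, -, rfl⟩
    exact y.2
  have hJ2 : IsPGroup 2 J := hT.to_le hJT
  have hKodd := hK.1
  have hKJ : ⁅K, J⁆ = K := hK.2.1
  have hJK : J ≤ Subgroup.normalizer (K : Set G) := by
    have := Subgroup.normalizer_commutator_ge_right (H₁ := K) (H₂ := J)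
    rwa [hKJ] at this
  -- X = K ⊔ J is generated by the K-conjugates of J
  set S₀ : Set G := {z : G | ∃ k ∈ K, ∃ j ∈ J, z = k * j * k⁻¹} with hS₀
  have hS₀X : Subgroup.closure S₀ ≤ K ⊔ J := by
    rw [Subgroup.closure_le]
    rintro z ⟨k, hk, j, hj, rfl⟩
    have hk' : k ∈ K ⊔ J := (le_sup_left : K ≤ K ⊔ J) hk
    have hj' : j ∈ K ⊔ J := (le_sup_right : J ≤ K ⊔ J) hj
    exact (K ⊔ J).mul_mem ((K ⊔ J).mul_mem hk' hj') ((K ⊔ J).inv_mem hk')
  have hJS₀ : J ≤ Subgroup.closure S₀ := by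
    intro j hj
    apply Subgroup.subset_closure
    exact ⟨1, K.one_mem, j, hj, by simp⟩
  have hKS₀ : K ≤ Subgroup.closure S₀ := by
    rw [← hKJ, Subgroup.commutator_le]
    intro k hk j hj
    have h1 : k * j * k⁻¹ ∈ Subgroup.closure S₀ := Subgroup.subset_closure ⟨k, hk, j, hj, rfl⟩
    have h2 : j⁻¹ ∈ Subgroup.closure S₀ := (Subgroup.closure S₀).inv_mem (hJS₀ hj)
    have h3 := (Subgroup.closure S₀).mul_mem h1 h2
    rw [commutatorElement_def]
    exact h3
  have hXeq : K ⊔ J = Subgroup.closure S₀ := le_antisymm (sup_le hKS₀ hJS₀) hS₀X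
  -- Q normalizes X
  have hQX : Q ≤ Subgroup.normalizer ((K ⊔ J : Subgroup G) : Set G) := by
    rw [hXeq, Subgroup.le_normalizer_closure_iff]
    rintro q hq z ⟨k, hk, j, hj, rfl⟩
    apply Subgroup.subset_closure
    have hkN : k⁻¹ ∈ Subgroup.normalizer (Q : Set G) := hQ1 ((le_sup_left : K ≤ K ⊔ J) (K.inv_mem hk))
    have h1 : k⁻¹ * q * k ∈ Q := by
      have := (Subgroup.mem_normalizer_iff.mp hkN q).1 hq
      simpa using this
    have h2 : k⁻¹ * q * k * q⁻¹ ∈ Q := Q.mul_mem h1 (Q.inv_mem hq)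
    have h3 : q * j * q⁻¹ ∈ J := (Subgroup.mem_normalizer_iff.mp (hQ2 hq) j).1 hj
    have h4 : (k⁻¹ * q * k * q⁻¹) * (q * j * q⁻¹) * (k⁻¹ * q * k * q⁻¹)⁻¹ ∈ J :=
      (Subgroup.mem_normalizer_iff.mp (hQ2 h2) _).1 h3
    refine ⟨k, hk, _, h4, ?_⟩
    group
  -- conclude
  have key := Subgroup.le_normalizer_closure_iff (H := Q) (s := {g : G | g ∈ K ∧ Odd (orderOf g)})
  rw [hKodd] at key
  rw [key]
  rintro q hq g ⟨hgK, hgodd⟩
  have h1 : q * g * q⁻¹ ∈ K ⊔ J :=
    (Subgroup.mem_normalizer_iff.mp (hQX hq) g).1 ((le_sup_left : K ≤ K ⊔ J) hgK)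
  have h2 : (q * g * q⁻¹) ^ (orderOf g) = 1 := by
    rw [conj_pow, pow_orderOf_eq_one]; group
  have h3 : Nat.Coprime (orderOf g) 2 := Nat.coprime_two_right.mpr hgodd
  exact mem_of_mem_sup_of_coprime hJ2 hJK h1 h3 h2

end Cfsg.Agent.S2941
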