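import Cfsg.Statements.S2924
import Cfsg.Agent.Lib.Helper48.CharPGfs
import Cfsg.Agent.Lib.Helper21.FStar
import Cfsg.Agent.Lib.Helper22.Basic
import Cfsg.Agent.S2941

set_option autoImplicit false
open Cfsg

namespace Cfsg.Agent.S2924

open Subgroup Cfsg.Agent.Lib.Helper48.CharP Cfsg.Agent.Lib.Helper48.CharPGfs

variable {X : Type*} [Group X]

/-- The odd core of a subgroup, as a subgroup of the ambient group. -/
def th (C : Subgroup X) : Subgroup X := (pPrimeCore 2 ↥C).map C.subtype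

theorem th_le (C : Subgroup X) : th C ≤ C := Subgroup.map_subtype_le _

theorem th_card [Finite X] (C : Subgroup X) : (Nat.card ↥(th C)).Coprime 2 := by
  unfold th
  rw [Subgroup.card_subtype]
  exact Cfsg.Agent.Lib.Helper23.Cores.pPrimeCore_card_coprime 2

theorem th_orderOf [Finite X] {C : Subgroup X} {d : X} (hd : d ∈ th C) :
    (orderOf d).Coprime 2 := by
  have h1 : orderOf d ∣ Nat.card ↥(th C) := by
    have h2 := orderOf_dvd_natCard (⟨d, hd⟩ : ↥(th C))
    rwa [Subgroup.orderOf_mk] at h2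
  exact Nat.Coprime.coprime_dvd_left h1 (th_card C)

theorem th_normalizer (C : Subgroup X) : C ≤ normalizer (th C : Set X) := by
  have hn : (pPrimeCore 2 ↥C).Normal := Subgroup.sSup_normal _ (fun _ h => h.1)
  have key : ∀ c ∈ C, ∀ x ∈ th C, c * x * c⁻¹ ∈ th C := by
    intro c hc x hx
    obtain ⟨x', hx', rfl⟩ := Subgroup.mem_map.mp hx
    exact Subgroup.mem_map.mpr ⟨⟨c, hc⟩ * x' * ⟨c, hc⟩⁻¹, hn.conj_mem x' hx' ⟨c, hc⟩, rfl⟩
  intro c hc
  rw [mem_normalizer_iff]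
  intro x
  constructor
  · exact key c hc x
  · intro h
    have h2 := key c⁻¹ (C.inv_mem hc) _ h
    have e : c⁻¹ * (c * x * c⁻¹) * c⁻¹⁻¹ = x := by group
    rwa [e] at h2

theorem th_conj (g y : X) :
    th (centralizer ({g * y * g⁻¹} : Set X)) =
      (th (centralizer ({y} : Set X))).map (MulAut.conj g).toMonoidHom := by
  rw [Cfsg.Agent.Lib.Helper22.Basic.centralizer_singleton_conj]
  exact Cfsg.Agent.Lib.Helper23.Cores.pPrimeCore_subgroup_conj 2 g _

theorem mem_centralizer_singleton {a b : X} (h : a * b = b * a) :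
    a ∈ centralizer ({b} : Set X) := by
  rw [mem_centralizer_iff]
  intro c hc
  rw [Set.mem_singleton_iff] at hc
  rw [hc]
  exact h.symm

/-- Conjugation by a normalizing element, as an endomorphism of the subgroup. -/
def conjHom (T : Subgroup X) (z : X) (hz : z ∈ normalizer (T : Set X)) : ↥T →* ↥T where
  toFun a := ⟨z * a * z⁻¹, (mem_normalizer_iff.mp hz a).mp a.2⟩
  map_one' := by
    apply Subtype.ext
    simp
  map_mul' a b := by
    apply Subtype.ext
    simp only [Subgroup.coe_mul]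
    group

/-- An involution normalizing a finite subgroup and fixing no nontrivial element of it inverts
it, and the subgroup is abelian. -/
theorem inverts_of_fpf [Finite X] {T : Subgroup X} {z : X} (hzT : z ∈ normalizer (T : Set X))
    (hz2 : z * z = 1) (hfix : ∀ d ∈ T, d * z = z * d → d = 1) :
    (∀ a ∈ T, z * a * z⁻¹ = a⁻¹) ∧ ∀ a ∈ T, ∀ b ∈ T, a * b = b * a := by
  have hfpf : MonoidHom.FixedPointFree (conjHom T z hzT) := by
    intro g hg
    have h1 : z * (g : X) * z⁻¹ = g := congrArg Subtype.val hg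
    have h2 : (g : X) * z = z * g := by
      calc (g : X) * z = (z * (g : X) * z⁻¹) * z := by rw [h1]
        _ = z * g := by group
    exact Subtype.ext (hfix g g.2 h2)
  have hinv : Function.Involutive (conjHom T z hzT) := by
    intro a
    apply Subtype.ext
    show z * (z * (a : X) * z⁻¹) * z⁻¹ = a
    have e : z * (z * (a : X) * z⁻¹) * z⁻¹ = (z * z) * a * (z * z)⁻¹ := by group
    rw [e, hz2]
    simp
  constructor
  · intro a ha
    have h := MonoidHom.FixedPointFree.coe_eq_inv_of_involutive hfpf hinv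
    have h2 := congrFun h ⟨a, ha⟩
    exact congrArg Subtype.val h2
  · intro a ha b hb
    have h := MonoidHom.FixedPointFree.commute_all_of_involutive hfpf hinv ⟨a, ha⟩ ⟨b, hb⟩
    exact congrArg Subtype.val h.eq

/-- An odd-order element of `O(C(y))` centralizing `u` centralizes `O₂(C(u))`
(Thompson's `A × B` lemma). -/
theorem centralizes_O [Finite X] {y u d : X} (hyu : y * u = u * y) (hy2 : y ^ 2 = 1)
    (hd : d ∈ th (centralizer ({y} : Set X))) (hdu : d * u = u * d) :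
    ∀ x ∈ O 2 (centralizer ({u} : Set X)), x * d = d * x := by
  have hp2 : Fact (Nat.Prime 2) := ⟨Nat.prime_two⟩
  have hyC : y ∈ centralizer ({u} : Set X) := mem_centralizer_singleton hyu
  have hdC : d ∈ centralizer ({u} : Set X) := mem_centralizer_singleton hdu
  have hdy : y * d = d * y := by
    have h1 := th_le _ hd
    rw [mem_centralizer_iff] at h1
    exact h1 y rfl
  have hB2 : IsPGroup 2 ↥(zpowers y) := by
    rintro ⟨b, hb⟩
    refine ⟨1, ?_⟩
    obtain ⟨k, rfl⟩ := mem_zpowers_iff.mp hb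
    apply Subtype.ext
    show (y ^ k) ^ 2 ^ 1 = 1
    rw [pow_one, ← zpow_natCast, ← zpow_mul, mul_comm, zpow_mul, zpow_natCast, hy2, one_zpow]
  have hBN : zpowers y ≤ normalizer ((O 2 (centralizer ({u} : Set X)) : Subgroup X) : Set X) := by
    rw [zpowers_le]
    exact O_normalizer 2 _ hyC
  have hH : IsPGroup 2 ↥(O 2 (centralizer ({u} : Set X)) ⊔ zpowers y : Subgroup X) :=
    IsPGroup.to_sup_of_normal_left' (O_isPGroup 2 _) hB2 hBN
  refine Cfsg.Agent.Lib.Helper24.Coprime.thompson_AxB 2 _ hH (zpowers y) le_sup_right d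
    (th_orderOf hd) ?_ _ le_sup_left (O_normalizer 2 _ hdC) hBN ?_
  · intro b hb
    exact (Cfsg.Agent.Lib.Helper24.Coprime.commute_zpowers hdy.symm hb).symm
  · intro x hx hxB
    have hxy : y * x = x * y := hxB y (mem_zpowers y)
    have hxC : x ∈ centralizer ({y} : Set X) := mem_centralizer_singleton hxy.symm
    have h1 : x * d * x⁻¹ ∈ th (centralizer ({y} : Set X)) :=
      (mem_normalizer_iff.mp (th_normalizer _ hxC) d).mp hd
    have h2 : x * d * x⁻¹ * d⁻¹ ∈ th (centralizer ({y} : Set X)) :=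
      Subgroup.mul_mem _ h1 (Subgroup.inv_mem _ hd)
    have h3 : d * x⁻¹ * d⁻¹ ∈ O 2 (centralizer ({u} : Set X)) :=
      (mem_normalizer_iff.mp (O_normalizer 2 _ hdC) x⁻¹).mp (Subgroup.inv_mem _ hx)
    have h4 : x * d * x⁻¹ * d⁻¹ ∈ O 2 (centralizer ({u} : Set X)) := by
      have e : x * d * x⁻¹ * d⁻¹ = x * (d * x⁻¹ * d⁻¹) := by group
      rw [e]
      exact Subgroup.mul_mem _ hx h3
    have h5 : x * d * x⁻¹ * d⁻¹ = 1 := eq_one_of_mem_O_of_coprime h4 (th_orderOf h2)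
    have e : x * d = (x * d * x⁻¹ * d⁻¹) * (d * x) := by group
    rw [e, h5, one_mul]

/-- If `C(z)` has characteristic 2, then `z` fixes no nontrivial element of `O(C(y))`. -/
theorem fpf [Finite X] {y z d : X} (hyz : y * z = z * y) (hy2 : y ^ 2 = 1)
    (hz : ChP 2 (centralizer ({z} : Set X))) (hd : d ∈ th (centralizer ({y} : Set X)))
    (hdz : d * z = z * d) : d = 1 := by
  have h1 := centralizes_O hyz hy2 hd hdz
  have hdC : d ∈ centralizer ({z} : Set X) := mem_centralizer_singleton hdz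
  have h2 : d ∈ O 2 (centralizer ({z} : Set X)) := by
    apply hz
    refine mem_inf.mpr ⟨hdC, ?_⟩
    rw [mem_centralizer_iff]
    intro x hx
    exact h1 x hx
  exact eq_one_of_mem_O_of_coprime h2 (th_orderOf hd)

theorem commute_of_sq_commute {d r : X} (hodd : (orderOf d).Coprime 2)
    (h : Commute (d * d) r) : Commute d r := by
  have ho : Odd (orderOf d) := Nat.coprime_two_right.mp hodd
  obtain ⟨k, hk⟩ := ho
  have h1 : (d * d) ^ (k + 1) = d := by
    rw [← pow_two, ← pow_mul]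
    have e : 2 * (k + 1) = orderOf d + 1 := by omega
    rw [e, pow_succ, pow_orderOf_eq_one, one_mul]
  have h2 : Commute ((d * d) ^ (k + 1)) r := h.pow_left (k + 1)
  rwa [h1] at h2

/-- Balance. -/
theorem balance [Finite X] {y u z d : X} (hyu : y * u = u * y) (hy2 : y ^ 2 = 1)
    (hzy : ∀ a ∈ th (centralizer ({y} : Set X)), z * a * z⁻¹ = a⁻¹)
    (hzu : ∀ a ∈ th (centralizer ({u} : Set X)), z * a * z⁻¹ = a⁻¹)
    (hE : layer ↥(centralizer ({u} : Set X)) = ⊥)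
    (hd : d ∈ th (centralizer ({y} : Set X))) (hdu : d * u = u * d) :
    d ∈ th (centralizer ({u} : Set X)) := by
  have hp2 : Fact (Nat.Prime 2) := ⟨Nat.prime_two⟩
  have hdC : d ∈ centralizer ({u} : Set X) := mem_centralizer_singleton hdu
  have hodd := th_orderOf hd
  have h1 := centralizes_O hyu hy2 hd hdu
  have h2 : ∀ r ∈ th (centralizer ({u} : Set X)), r * d = d * r := by
    intro r hr
    have hr' : d * r * d⁻¹ ∈ th (centralizer ({u} : Set X)) :=
      (mem_normalizer_iff.mp (th_normalizer _ hdC) r).mp hr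
    have e1 : z * (d * r * d⁻¹) * z⁻¹ = (d * r * d⁻¹)⁻¹ := hzu _ hr'
    have e2 : z * (d * r * d⁻¹) * z⁻¹ = (z * d * z⁻¹) * (z * r * z⁻¹) * (z * d * z⁻¹)⁻¹ := by
      group
    rw [e2, hzy d hd, hzu r hr] at e1
    have e4 : d⁻¹ * r⁻¹ * d = d * r⁻¹ * d⁻¹ := by
      have e3 : (d * r * d⁻¹)⁻¹ = d * r⁻¹ * d⁻¹ := by group
      rw [e3, inv_inv] at e1
      exact e1
    have e5 : (d * d) * r⁻¹ = r⁻¹ * (d * d) := by
      calc (d * d) * r⁻¹ = d * (d * r⁻¹ * d⁻¹) * d := by group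
        _ = d * (d⁻¹ * r⁻¹ * d) * d := by rw [e4]
        _ = r⁻¹ * (d * d) := by group
    have e6 : Commute (d * d) r⁻¹ := e5
    have e7 : Commute (d * d) r := Commute.inv_right_iff.mp e6
    exact (commute_of_sq_commute hodd e7).eq.symm
  have hFle : fittingSubgroup ↥(centralizer ({u} : Set X)) ≤
      pPrimeCore 2 ↥(centralizer ({u} : Set X)) ⊔ pCore 2 ↥(centralizer ({u} : Set X)) := by
    rw [Cfsg.Agent.Lib.Helper78.Fitting.fitting_eq_iSup_pCore]
    apply iSup_le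
    intro q
    by_cases hq : (q : ℕ) = 2
    · rw [hq]
      exact le_sup_right
    · refine le_trans ?_ le_sup_left
      have hqp : Fact (q : ℕ).Prime := ⟨q.2⟩
      apply Cfsg.Agent.Lib.Helper23.Cores.le_pPrimeCore 2 _
        (Cfsg.Agent.Lib.Helper78.Fitting.pCore_normal (q : ℕ))
      obtain ⟨k, hk⟩ := IsPGroup.iff_card.mp
        (Cfsg.Agent.Lib.Helper78.Fitting.pCore_isPGroup
          (G := ↥(centralizer ({u} : Set X))) (q : ℕ))
      rw [hk]
      exact Nat.Coprime.pow_left k ((Nat.coprime_primes q.2 Nat.prime_two).mpr hq)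
  have hle : pPrimeCore 2 ↥(centralizer ({u} : Set X)) ⊔ pCore 2 ↥(centralizer ({u} : Set X)) ≤
      centralizer ({(⟨d, hdC⟩ : ↥(centralizer ({u} : Set X)))} :
        Set ↥(centralizer ({u} : Set X))) := by
    apply sup_le
    · intro f hf
      apply mem_centralizer_singleton
      apply Subtype.ext
      have hf' : (f : X) ∈ th (centralizer ({u} : Set X)) := Subgroup.mem_map.mpr ⟨f, hf, rfl⟩
      exact h2 _ hf'
    · intro f hf
      apply mem_centralizer_singleton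
      apply Subtype.ext
      have hf' : (f : X) ∈ O 2 (centralizer ({u} : Set X)) := Subgroup.mem_map.mpr ⟨f, hf, rfl⟩
      exact h1 _ hf'
  have hgfs : generalizedFittingSubgroup ↥(centralizer ({u} : Set X)) =
      fittingSubgroup ↥(centralizer ({u} : Set X)) := by
    unfold generalizedFittingSubgroup
    rw [hE, bot_sup_eq]
  have hd'F : (⟨d, hdC⟩ : ↥(centralizer ({u} : Set X))) ∈
      fittingSubgroup ↥(centralizer ({u} : Set X)) := by
    rw [← hgfs]
    apply Cfsg.Agent.Lib.Helper21.FStar.centralizer_gfs_le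
    rw [mem_centralizer_iff, hgfs]
    intro f hf
    have h3 := mem_centralizer_iff.mp (hle (hFle hf)) ⟨d, hdC⟩ rfl
    exact h3.symm
  have hK : (pPrimeCore 2 ↥(centralizer ({u} : Set X))).Normal :=
    Subgroup.sSup_normal _ (fun _ h => h.1)
  have hd'm : (⟨d, hdC⟩ : ↥(centralizer ({u} : Set X))) ^ orderOf d = 1 := by
    apply Subtype.ext
    simp [pow_orderOf_eq_one]
  have h5 := Cfsg.Agent.S2941.mem_of_mem_sup_of_coprime (p := 2)
    (Cfsg.Agent.Lib.Helper78.Fitting.pCore_isPGroup (G := ↥(centralizer ({u} : Set X))) 2)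
    (le_of_le_of_eq le_top (Subgroup.normalizer_eq_top_iff.mpr hK).symm) (hFle hd'F) hodd hd'm
  exact Subgroup.mem_map.mpr ⟨⟨d, hdC⟩, h5, rfl⟩

/-- Splitting the square of an element of an abelian group inverted by `z` along an involution
`v`. -/
theorem split {T : Subgroup X} {z v a : X} (hcomm : ∀ s ∈ T, ∀ t ∈ T, s * t = t * s)
    (hz : ∀ s ∈ T, z * s * z⁻¹ = s⁻¹) (hvT : v ∈ normalizer (T : Set X)) (hv2 : v * v = 1)
    (ha : a ∈ T) :
    ∃ a₁ ∈ T, ∃ a₂ ∈ T, a * a = a₁ * a₂ ∧ a₁ * v = v * a₁ ∧ a₂ * (v * z) = (v * z) * a₂ := by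
  have ha' : v * a * v⁻¹ ∈ T := (mem_normalizer_iff.mp hvT a).mp ha
  have hva' : v * (v * a * v⁻¹) * v⁻¹ = a := by
    have e : v * (v * a * v⁻¹) * v⁻¹ = (v * v) * a * (v * v)⁻¹ := by group
    rw [e, hv2]
    simp
  have hc : (v * a * v⁻¹) * a = a * (v * a * v⁻¹) := hcomm _ ha' a ha
  have ha₂ : a * (v * a * v⁻¹)⁻¹ ∈ T := T.mul_mem ha (T.inv_mem ha')
  refine ⟨a * (v * a * v⁻¹), T.mul_mem ha ha', a * (v * a * v⁻¹)⁻¹, ha₂, ?_, ?_, ?_⟩
  · calc a * a = a * ((a * (v * a * v⁻¹)) * (v * a * v⁻¹)⁻¹) := by group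
      _ = a * (((v * a * v⁻¹) * a) * (v * a * v⁻¹)⁻¹) := by rw [hc]
      _ = a * (v * a * v⁻¹) * (a * (v * a * v⁻¹)⁻¹) := by group
  · calc a * (v * a * v⁻¹) * v = (v * a * v⁻¹) * a * v := by rw [hc]
      _ = (v * a * v⁻¹) * (v * (v * a * v⁻¹) * v⁻¹) * v := by rw [hva']
      _ = v * (a * (v * a * v⁻¹)) := by group
  · have hza₂ : z * (a * (v * a * v⁻¹)⁻¹) * z⁻¹ = (a * (v * a * v⁻¹)⁻¹)⁻¹ := hz _ ha₂
    have h2 : v * (a * (v * a * v⁻¹)⁻¹)⁻¹ * v⁻¹ = a * (v * a * v⁻¹)⁻¹ := by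
      have e : v * (a * (v * a * v⁻¹)⁻¹)⁻¹ * v⁻¹ =
          (v * (v * a * v⁻¹) * v⁻¹) * (v * a * v⁻¹)⁻¹ := by group
      rw [e, hva']
    calc a * (v * a * v⁻¹)⁻¹ * (v * z)
        = (v * (a * (v * a * v⁻¹)⁻¹)⁻¹ * v⁻¹) * (v * z) := by rw [h2]
      _ = v * (a * (v * a * v⁻¹)⁻¹)⁻¹ * z := by group
      _ = v * (z * (a * (v * a * v⁻¹)⁻¹) * z⁻¹) * z := by rw [hza₂]
      _ = (v * z) * (a * (v * a * v⁻¹)⁻¹) := by group

theorem exists_fifth [Finite X] (Y : Subgroup X) (h8 : 8 ≤ Nat.card ↥Y) (y z : X) :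
    ∃ v ∈ Y, v ≠ 1 ∧ v ≠ y ∧ v ≠ z ∧ v ≠ y * z := by
  classical
  by_contra hcon
  have hsub : (Y : Set X) ⊆ (({1, y, z, y * z} : Finset X) : Set X) := by
    intro v hv
    by_contra hv'
    apply hcon
    refine ⟨v, hv, ?_, ?_, ?_, ?_⟩ <;>
    · intro h
      apply hv'
      simp [h]
  have h1 : Nat.card ↥Y ≤ 4 := by
    have h2 : Nat.card ↥Y = (Y : Set X).ncard := Nat.card_coe_set_eq (Y : Set X)
    rw [h2]
    calc (Y : Set X).ncard ≤ ((({1, y, z, y * z} : Finset X) : Set X)).ncard :=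
          Set.ncard_le_ncard hsub (Finset.finite_toSet _)
      _ = ({1, y, z, y * z} : Finset X).card := Set.ncard_coe_finset _
      _ ≤ 4 := Finset.card_le_four
  omega

/-- The subgroups `θ(y)`, `y ∈ Y^#`, commute pairwise. -/
theorem commute_all [Finite X] (Y : Subgroup X) (hYc : ∀ a ∈ Y, ∀ b ∈ Y, a * b = b * a)
    (hY2 : ∀ a ∈ Y, a ^ 2 = 1) (h8 : 8 ≤ Nat.card ↥Y) (z : X) (hzY : z ∈ Y)
    (θ : X → Subgroup X)
    (hθc : ∀ y ∈ Y, y ≠ 1 → ∀ a ∈ θ y, a * y = y * a)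
    (hθn : ∀ y ∈ Y, y ≠ 1 → ∀ v ∈ Y, v ∈ normalizer (θ y : Set X))
    (hodd : ∀ y ∈ Y, y ≠ 1 → ∀ a ∈ θ y, (orderOf a).Coprime 2)
    (hinv : ∀ y ∈ Y, y ≠ 1 → ∀ a ∈ θ y, z * a * z⁻¹ = a⁻¹)
    (hab : ∀ y ∈ Y, y ≠ 1 → ∀ a ∈ θ y, ∀ b ∈ θ y, a * b = b * a)
    (hbal : ∀ y ∈ Y, y ≠ 1 → ∀ u ∈ Y, u ≠ 1 → ∀ d ∈ θ y, d * u = u * d → d ∈ θ u)
    (hθz : ∀ a ∈ θ z, a = 1) :
    ∀ y ∈ Y, y ≠ 1 → ∀ u ∈ Y, u ≠ 1 → ∀ a ∈ θ y, ∀ b ∈ θ u, Commute a b := by
  intro y hy hy1 u hu hu1 a ha b hb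
  by_cases hyz : y = z
  · have h1 : a = 1 := hθz a (hyz ▸ ha)
    rw [h1]
    exact Commute.one_left b
  by_cases huz : u = z
  · have h1 : b = 1 := hθz b (huz ▸ hb)
    rw [h1]
    exact Commute.one_right a
  by_cases huy : u = y
  · subst huy
    exact hab u hu hu1 a ha b hb
  have sq : ∀ v ∈ Y, v * v = 1 := by
    intro v hv
    have h1 := hY2 v hv
    rwa [pow_two] at h1
  have hz2 : z * z = 1 := sq z hzY
  have invY : ∀ v ∈ Y, v⁻¹ = v := fun v hv => inv_eq_of_mul_eq_one_left (sq v hv)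
  have hsplit : ∀ w ∈ Y, w ≠ 1 → ∀ v ∈ Y, ∀ c ∈ θ w, ∃ c₁ ∈ θ w, ∃ c₂ ∈ θ w,
      c * c = c₁ * c₂ ∧ c₁ * v = v * c₁ ∧ c₂ * (v * z) = (v * z) * c₂ :=
    fun w hw hw1 v hv c hc =>
      split (hab w hw hw1) (hinv w hw hw1) (hθn w hw hw1 v hv) (sq v hv) hc
  have hcommon : ∀ w₁ ∈ Y, w₁ ≠ 1 → ∀ w₂ ∈ Y, w₂ ≠ 1 → ∀ t ∈ Y, t ≠ 1 → ∀ c₁ ∈ θ w₁,
      ∀ c₂ ∈ θ w₂, c₁ * t = t * c₁ → c₂ * t = t * c₂ → Commute c₁ c₂ :=
    fun w₁ hw₁ hw₁1 w₂ hw₂ hw₂1 t ht ht1 c₁ hc₁ c₂ hc₂ h1 h2 =>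
      hab t ht ht1 c₁ (hbal w₁ hw₁ hw₁1 t ht ht1 c₁ hc₁ h1) c₂
        (hbal w₂ hw₂ hw₂1 t ht ht1 c₂ hc₂ h2)
  have hsqL : ∀ w ∈ Y, w ≠ 1 → ∀ c ∈ θ w, ∀ e : X, Commute (c * c) e → Commute c e :=
    fun w hw hw1 c hc e h => commute_of_sq_commute (hodd w hw hw1 c hc) h
  have hsqR : ∀ w ∈ Y, w ≠ 1 → ∀ c ∈ θ w, ∀ e : X, Commute e (c * c) → Commute e c :=
    fun w hw hw1 c hc e h => (hsqL w hw hw1 c hc e h.symm).symm
  -- commuting with two elements gives commuting with the product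
  have hmul2 : ∀ (c s t : X), c * s = s * c → c * t = t * c → c * (s * t) = (s * t) * c := by
    intro c s t h1 h2
    rw [← mul_assoc, h1, mul_assoc, h2, ← mul_assoc]
  by_cases huyz : u = y * z
  · obtain ⟨v, hvY, hv1, hvy, hvz, hvyz⟩ := exists_fifth Y h8 y z
    obtain ⟨a₁, ha₁, a₂, ha₂, haa, ha₁v, ha₂vz⟩ := hsplit y hy hy1 v hvY a ha
    obtain ⟨b₁, hb₁, b₂, hb₂, hbb, hb₁v, hb₂vz⟩ := hsplit u hu hu1 v hvY b hb
    have hvzY : v * z ∈ Y := Y.mul_mem hvY hzY
    have hvz1 : v * z ≠ 1 := by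
      intro h
      apply hvz
      have h1 : v = z⁻¹ := eq_inv_of_mul_eq_one_left h
      rw [h1, invY z hzY]
    have c11 : Commute a₁ b₁ :=
      hcommon y hy hy1 u hu hu1 v hvY hv1 a₁ ha₁ b₁ hb₁ ha₁v hb₁v
    have c22 : Commute a₂ b₂ :=
      hcommon y hy hy1 u hu hu1 (v * z) hvzY hvz1 a₂ ha₂ b₂ hb₂ ha₂vz hb₂vz
    have c12 : Commute a₁ b₂ := by
      have hyv : y * v ∈ Y := Y.mul_mem hy hvY
      have hyv1 : y * v ≠ 1 := by
        intro h
        apply hvy
        have h1 : v = y⁻¹ := eq_inv_of_mul_eq_one_right h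
        rw [h1, invY y hy]
      have e1 : a₁ * (y * v) = (y * v) * a₁ := hmul2 a₁ y v (hθc y hy hy1 a₁ ha₁) ha₁v
      have e2 : b₂ * (y * v) = (y * v) * b₂ := by
        have h2 : u * (v * z) = y * v := by
          rw [huyz]
          have h3 := hYc z hzY v hvY
          calc y * z * (v * z) = y * ((z * v) * z) := by group
            _ = y * ((v * z) * z) := by rw [h3]
            _ = y * v * (z * z) := by group
            _ = y * v := by rw [hz2, mul_one]
        rw [← h2]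
        exact hmul2 b₂ u (v * z) (hθc u hu hu1 b₂ hb₂) hb₂vz
      exact hcommon y hy hy1 u hu hu1 (y * v) hyv hyv1 a₁ ha₁ b₂ hb₂ e1 e2
    have c21 : Commute a₂ b₁ := by
      have ht : y * (v * z) ∈ Y := Y.mul_mem hy hvzY
      have ht1 : y * (v * z) ≠ 1 := by
        intro h
        apply hvyz
        have h1 : v * z = y⁻¹ := eq_inv_of_mul_eq_one_right h
        have h2 : v = y⁻¹ * z⁻¹ := by
          rw [← h1]
          group
        rw [h2, invY y hy, invY z hzY]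
      have e1 : a₂ * (y * (v * z)) = (y * (v * z)) * a₂ :=
        hmul2 a₂ y (v * z) (hθc y hy hy1 a₂ ha₂) ha₂vz
      have e2 : b₁ * (y * (v * z)) = (y * (v * z)) * b₁ := by
        have h2 : u * v = y * (v * z) := by
          rw [huyz]
          have h3 := hYc z hzY v hvY
          rw [mul_assoc, h3]
        rw [← h2]
        exact hmul2 b₁ u v (hθc u hu hu1 b₁ hb₁) hb₁v
      exact hcommon y hy hy1 u hu hu1 _ ht ht1 a₂ ha₂ b₁ hb₁ e1 e2
    have hA₁ : Commute a₁ (b * b) := by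
      rw [hbb]
      exact c11.mul_right c12
    have hA₂ : Commute a₂ (b * b) := by
      rw [hbb]
      exact c21.mul_right c22
    have hA₁' : Commute a₁ b := hsqR u hu hu1 b hb a₁ hA₁
    have hA₂' : Commute a₂ b := hsqR u hu hu1 b hb a₂ hA₂
    have hfin : Commute (a * a) b := by
      rw [haa]
      exact hA₁'.mul_left hA₂'
    exact hsqL y hy hy1 a ha b hfin
  · obtain ⟨a₁, ha₁, a₂, ha₂, haa, ha₁u, ha₂uz⟩ := hsplit y hy hy1 u hu a ha
    obtain ⟨b₁, hb₁, b₂, hb₂, hbb, hb₁y, hb₂yz⟩ := hsplit u hu hu1 y hy b hb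
    have hA₁ : Commute a₁ b :=
      hab u hu hu1 a₁ (hbal y hy hy1 u hu hu1 a₁ ha₁ ha₁u) b hb
    have c21 : Commute a₂ b₁ :=
      hab y hy hy1 a₂ ha₂ b₁ (hbal u hu hu1 y hy hy1 b₁ hb₁ hb₁y)
    have c22 : Commute a₂ b₂ := by
      have ht : y * (u * z) ∈ Y := Y.mul_mem hy (Y.mul_mem hu hzY)
      have ht1 : y * (u * z) ≠ 1 := by
        intro h
        apply huyz
        have h1 : u * z = y⁻¹ := eq_inv_of_mul_eq_one_right h
        have h2 : u = y⁻¹ * z⁻¹ := by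
          rw [← h1]
          group
        rw [h2, invY y hy, invY z hzY]
      have e1 : a₂ * (y * (u * z)) = (y * (u * z)) * a₂ :=
        hmul2 a₂ y (u * z) (hθc y hy hy1 a₂ ha₂) ha₂uz
      have e2 : b₂ * (y * (u * z)) = (y * (u * z)) * b₂ := by
        have h2 : u * (y * z) = y * (u * z) := by
          have h3 := hYc u hu y hy
          rw [← mul_assoc, h3, mul_assoc]
        rw [← h2]
        exact hmul2 b₂ u (y * z) (hθc u hu hu1 b₂ hb₂) hb₂yz
      exact hcommon y hy hy1 u hu hu1 _ ht ht1 a₂ ha₂ b₂ hb₂ e1 e2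
    have hA₂ : Commute a₂ (b * b) := by
      rw [hbb]
      exact c21.mul_right c22
    have hA₂' : Commute a₂ b := hsqR u hu hu1 b hb a₂ hA₂
    have hfin : Commute (a * a) b := by
      rw [haa]
      exact hA₁.mul_left hA₂'
    exact hsqL y hy hy1 a ha b hfin

/-- The main statement, with the odd cores written with `th`. -/
theorem main [Finite X] (Y : Subgroup X) (hY : Cfsg.IsElementaryAbelian 2 Y)
    (h8 : 8 ≤ Nat.card ↥Y)
    (hE : ∀ x ∈ Y, x ≠ 1 → Cfsg.layer ↥(Subgroup.centralizer ({x} : Set X)) = ⊥)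
    (hz : ∃ z ∈ Y, z ≠ 1 ∧
      Cfsg.generalizedFittingSubgroup ↥(Subgroup.centralizer ({z} : Set X)) =
        Cfsg.pCore 2 ↥(Subgroup.centralizer ({z} : Set X))) :
    Odd (Nat.card ↥(⨆ y : {y : X // y ∈ Y ∧ y ≠ 1}, th (centralizer ({(y : X)} : Set X)))) ∧
      normalizer (Y : Set X) ≤ normalizer
        ((⨆ y : {y : X // y ∈ Y ∧ y ≠ 1}, th (centralizer ({(y : X)} : Set X)) : Subgroup X) :
          Set X) := by
  classical
  have hp2 : Fact (Nat.Prime 2) := ⟨Nat.prime_two⟩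
  obtain ⟨z, hzY, hz1, hzF⟩ := hz
  have hzCh : ChP 2 (centralizer ({z} : Set X)) := (gfs_iff_chP 2 _).mp hzF
  have hYc : ∀ a ∈ Y, ∀ b ∈ Y, a * b = b * a := by
    intro a ha b hb
    have hI : IsMulCommutative ↥Y := hY.1
    exact congrArg Subtype.val (mul_comm' (⟨a, ha⟩ : ↥Y) ⟨b, hb⟩)
  have hY2 : ∀ a ∈ Y, a ^ 2 = 1 := hY.2
  have hθc : ∀ y ∈ Y, y ≠ 1 → ∀ a ∈ th (centralizer ({y} : Set X)), a * y = y * a := by
    intro y _ _ a ha
    have h1 := th_le _ ha
    rw [mem_centralizer_iff] at h1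
    exact (h1 y rfl).symm
  have hθn : ∀ y ∈ Y, y ≠ 1 → ∀ v ∈ Y,
      v ∈ normalizer ((th (centralizer ({y} : Set X)) : Subgroup X) : Set X) := by
    intro y hy _ v hv
    exact th_normalizer _ (mem_centralizer_singleton (hYc v hv y hy))
  have hodd : ∀ y ∈ Y, y ≠ 1 → ∀ a ∈ th (centralizer ({y} : Set X)), (orderOf a).Coprime 2 :=
    fun y _ _ a ha => th_orderOf ha
  have hfpf : ∀ y ∈ Y, y ≠ 1 → ∀ d ∈ th (centralizer ({y} : Set X)), d * z = z * d → d = 1 := by
    intro y hy _ d hd hdz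
    exact fpf (hYc y hy z hzY) (hY2 y hy) hzCh hd hdz
  have hz2 : z * z = 1 := by
    have h1 := hY2 z hzY
    rwa [pow_two] at h1
  have hinvab : ∀ y ∈ Y, y ≠ 1 →
      (∀ a ∈ th (centralizer ({y} : Set X)), z * a * z⁻¹ = a⁻¹) ∧
      ∀ a ∈ th (centralizer ({y} : Set X)), ∀ b ∈ th (centralizer ({y} : Set X)),
        a * b = b * a := by
    intro y hy hy1
    exact inverts_of_fpf (hθn y hy hy1 z hzY) hz2 (hfpf y hy hy1)
  have hbal : ∀ y ∈ Y, y ≠ 1 → ∀ u ∈ Y, u ≠ 1 → ∀ d ∈ th (centralizer ({y} : Set X)),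
      d * u = u * d → d ∈ th (centralizer ({u} : Set X)) := by
    intro y hy hy1 u hu hu1 d hd hdu
    exact balance (hYc y hy u hu) (hY2 y hy) (hinvab y hy hy1).1 (hinvab u hu hu1).1
      (hE u hu hu1) hd hdu
  have hθz : ∀ a ∈ th (centralizer ({z} : Set X)), a = 1 :=
    fun a ha => hfpf z hzY hz1 a ha (hθc z hzY hz1 a ha)
  have hcomm := commute_all Y hYc hY2 h8 z hzY (fun y => th (centralizer ({y} : Set X)))
    hθc hθn hodd (fun y hy hy1 => (hinvab y hy hy1).1) (fun y hy hy1 => (hinvab y hy hy1).2)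
    hbal hθz
  have hWcl : (⨆ y : {y : X // y ∈ Y ∧ y ≠ 1}, th (centralizer ({(y : X)} : Set X))) =
      closure (⋃ y : {y : X // y ∈ Y ∧ y ≠ 1},
        ((th (centralizer ({(y : X)} : Set X)) : Subgroup X) : Set X)) :=
    Subgroup.iSup_eq_closure _
  have hgen : ∀ s ∈ (⋃ y : {y : X // y ∈ Y ∧ y ≠ 1},
      ((th (centralizer ({(y : X)} : Set X)) : Subgroup X) : Set X)),
      ∀ t ∈ (⋃ y : {y : X // y ∈ Y ∧ y ≠ 1},
      ((th (centralizer ({(y : X)} : Set X)) : Subgroup X) : Set X)), Commute s t := by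
    intro s hs t ht
    obtain ⟨y, hy⟩ := Set.mem_iUnion.mp hs
    obtain ⟨u, hu⟩ := Set.mem_iUnion.mp ht
    exact hcomm y y.2.1 y.2.2 u u.2.1 u.2.2 s hy t hu
  have st1 : ∀ w ∈ closure (⋃ y : {y : X // y ∈ Y ∧ y ≠ 1},
      ((th (centralizer ({(y : X)} : Set X)) : Subgroup X) : Set X)),
      ∀ t ∈ (⋃ y : {y : X // y ∈ Y ∧ y ≠ 1},
      ((th (centralizer ({(y : X)} : Set X)) : Subgroup X) : Set X)), Commute w t := by
    intro w hw t ht
    have h1 : closure (⋃ y : {y : X // y ∈ Y ∧ y ≠ 1},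
        ((th (centralizer ({(y : X)} : Set X)) : Subgroup X) : Set X)) ≤
        centralizer ({t} : Set X) := by
      rw [closure_le]
      intro s hs
      exact mem_centralizer_singleton (hgen s hs t ht).eq
    have h2 := mem_centralizer_iff.mp (h1 hw) t rfl
    exact h2.symm
  have hWc : ∀ w ∈ closure (⋃ y : {y : X // y ∈ Y ∧ y ≠ 1},
      ((th (centralizer ({(y : X)} : Set X)) : Subgroup X) : Set X)),
      ∀ w' ∈ closure (⋃ y : {y : X // y ∈ Y ∧ y ≠ 1},
      ((th (centralizer ({(y : X)} : Set X)) : Subgroup X) : Set X)), Commute w w' := by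
    intro w hw w' hw'
    have h1 : closure (⋃ y : {y : X // y ∈ Y ∧ y ≠ 1},
        ((th (centralizer ({(y : X)} : Set X)) : Subgroup X) : Set X)) ≤
        centralizer ({w} : Set X) := by
      rw [closure_le]
      intro s hs
      exact mem_centralizer_singleton (st1 w hw s hs).eq.symm
    have h2 := mem_centralizer_iff.mp (h1 hw') w rfl
    exact h2
  have hWodd : ∀ w ∈ closure (⋃ y : {y : X // y ∈ Y ∧ y ≠ 1},
      ((th (centralizer ({(y : X)} : Set X)) : Subgroup X) : Set X)),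
      (orderOf w).Coprime 2 := by
    intro w hw
    induction hw using Subgroup.closure_induction with
    | mem s hs =>
      obtain ⟨y, hy⟩ := Set.mem_iUnion.mp hs
      exact th_orderOf hy
    | one =>
      rw [orderOf_one]
      exact Nat.coprime_one_left 2
    | mul a b ha hb iha ihb =>
      have h1 : orderOf (a * b) ∣ Nat.lcm (orderOf a) (orderOf b) :=
        (hWc a ha b hb).orderOf_mul_dvd_lcm
      have h2 : Nat.lcm (orderOf a) (orderOf b) ∣ orderOf a * orderOf b := Nat.lcm_dvd_mul _ _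
      exact Nat.Coprime.coprime_dvd_left (h1.trans h2) (Nat.Coprime.mul_left iha ihb)
    | inv a ha iha =>
      rw [orderOf_inv]
      exact iha
  constructor
  · rw [hWcl]
    by_contra hcon
    have h2 : 2 ∣ Nat.card ↥(closure (⋃ y : {y : X // y ∈ Y ∧ y ≠ 1},
        ((th (centralizer ({(y : X)} : Set X)) : Subgroup X) : Set X))) :=
      even_iff_two_dvd.mp (Nat.not_odd_iff_even.mp hcon)
    obtain ⟨w, hw⟩ := exists_prime_orderOf_dvd_card' 2 h2
    have h3 := hWodd (w : X) w.2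
    rw [Subgroup.orderOf_coe, hw] at h3
    exact absurd h3 (by decide)
  · have hmap : ∀ g ∈ normalizer (Y : Set X),
        ∀ w ∈ (⨆ y : {y : X // y ∈ Y ∧ y ≠ 1}, th (centralizer ({(y : X)} : Set X))),
        g * w * g⁻¹ ∈ (⨆ y : {y : X // y ∈ Y ∧ y ≠ 1}, th (centralizer ({(y : X)} : Set X))) := by
      intro g hg w hw
      have h1 : (⨆ y : {y : X // y ∈ Y ∧ y ≠ 1},
          th (centralizer ({(y : X)} : Set X))).map (MulAut.conj g).toMonoidHom ≤
          (⨆ y : {y : X // y ∈ Y ∧ y ≠ 1}, th (centralizer ({(y : X)} : Set X))) := by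
        rw [Subgroup.map_iSup]
        apply iSup_le
        intro y
        have hy' : g * (y : X) * g⁻¹ ∈ Y ∧ g * (y : X) * g⁻¹ ≠ 1 := by
          refine ⟨(mem_normalizer_iff.mp hg _).mp y.2.1, ?_⟩
          intro h
          apply y.2.2
          have e : (y : X) = g⁻¹ * (g * (y : X) * g⁻¹) * g := by group
          rw [e, h]
          group
        rw [← th_conj]
        exact le_iSup (fun y : {y : X // y ∈ Y ∧ y ≠ 1} =>
          th (centralizer ({(y : X)} : Set X))) ⟨g * (y : X) * g⁻¹, hy'⟩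
      exact h1 (Subgroup.mem_map.mpr ⟨w, hw, rfl⟩)
    intro g hg
    rw [mem_normalizer_iff]
    intro w
    constructor
    · exact hmap g hg w
    · intro h
      have h2 := hmap g⁻¹ (Subgroup.inv_mem _ hg) _ h
      have e : g⁻¹ * (g * w * g⁻¹) * g⁻¹⁻¹ = w := by group
      rwa [e] at h2

/-- Let X be a finite group and Y an elementary abelian 2-subgroup of X of order at least 8 such that C_X(x) has no components (E(C_X(x)) = 1) for every nontrivial x ∈ Y, and F*(C_X(z)) = O₂(C_X(z)) for some nontrivial z ∈ Y. Then the subgroup generated by the cores O(C_X(y)), y ∈ Y nontrivial, has odd order and is normalized by N_X(Y). -/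
theorem result {X : Type*} [Group X] [Finite X] (Y : Subgroup X) (hY : Cfsg.IsElementaryAbelian 2 Y) (h8 : 8 ≤ Nat.card ↥Y) (hE : ∀ x ∈ Y, x ≠ 1 → Cfsg.layer ↥(Subgroup.centralizer ({x} : Set X)) = ⊥) (hz : ∃ z ∈ Y, z ≠ 1 ∧ Cfsg.generalizedFittingSubgroup ↥(Subgroup.centralizer ({z} : Set X)) = Cfsg.pCore 2 ↥(Subgroup.centralizer ({z} : Set X))) : Odd (Nat.card ↥(⨆ y : {y : X // y ∈ Y ∧ y ≠ 1}, (Cfsg.oddCore ↥(Subgroup.centralizer ({(y : X)} : Set X))).map (Subgroup.centralizer ({(y : X)} : Set X)).subtype)) ∧ Subgroup.normalizer (Y : Set X) ≤ Subgroup.normalizer ((⨆ y : {y : X // y ∈ Y ∧ y ≠ 1}, (Cfsg.oddCore ↥(Subgroup.centralizer ({(y : X)} : Set X))).map (Subgroup.centralizer ({(y : X)} : Set X)).subtype : Subgroup X) : Set X) := by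
  exact main Y hY h8 hE hz

end Cfsg.Agent.S2924
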