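import Cfsg.Statements.S2925
import Cfsg.Agent.Lib.Helper21.Comp
import Cfsg.Agent.Lib.Helper29.Basic
import Cfsg.Agent.Lib.Helper48.CharPSub
import Cfsg.Agent.Lib.Helper49.SylowConj

set_option autoImplicit false
open Cfsg

namespace Cfsg.Agent.S2925

open Subgroup Cfsg.Agent.Lib.Helper49.SylowConj
open scoped commutatorElement

/-- Let K be a component of the finite group X and T a Sylow 2-subgroup of X. If some abelian normal subgroup Y of T does not normalize K, then K ⧸ Z(K) has abelian Sylow 2-subgroups. -/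
theorem result {X : Type*} [Group X] [Finite X] (K : Subgroup X) (hK : Cfsg.IsComponent K) (T : Sylow 2 X) (Y : Subgroup X) (hYT : Y ≤ (T : Subgroup X)) (hYn : (Y.subgroupOf (T : Subgroup X)).Normal) (hYab : IsMulCommutative ↥Y) (hnot : ¬ Y ≤ Subgroup.normalizer (K : Set X)) (P : Sylow 2 (↥K ⧸ Subgroup.center ↥K)) : IsMulCommutative ↥(P : Subgroup (↥K ⧸ Subgroup.center ↥K)) := by
  have hp2 : Fact (Nat.Prime 2) := ⟨Nat.prime_two⟩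
  obtain ⟨y, hyY, hyN⟩ := SetLike.not_le_iff_exists.mp hnot
  have hLc : IsComponent (K.map (MulAut.conj y).toMonoidHom) :=
    Cfsg.Agent.Lib.Helper29.Basic.isComponent_map_conj hK y
  have hLK : K.map (MulAut.conj y).toMonoidHom ≠ K :=
    fun h => hyN (Subgroup.mem_normalizer_iff_map_conj_eq.mpr h)
  have hcomm := Cfsg.Agent.Lib.Helper21.Comp.components_commute _ K hLc hK hLK
  have hLKc : ∀ l ∈ K.map (MulAut.conj y).toMonoidHom, ∀ k ∈ K, l * k = k * l := by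
    intro l hl k hk
    have h1 : ⁅l, k⁆ ∈ ⁅K.map (MulAut.conj y).toMonoidHom, K⁆ :=
      Subgroup.commutator_mem_commutator hl hk
    rw [hcomm, Subgroup.mem_bot] at h1
    exact commutatorElement_eq_one_iff_mul_comm.mp h1
  have hL' : ∀ u ∈ K, y * u * y⁻¹ ∈ K.map (MulAut.conj y).toMonoidHom :=
    fun u hu => ⟨u, hu, rfl⟩
  have hnorm : ∀ u ∈ (T : Subgroup X), u * y * u⁻¹ ∈ Y := by
    intro u hu
    have h1 := hYn.conj_mem ⟨y, hYT hyY⟩ (Subgroup.mem_subgroupOf.mpr hyY) ⟨u, hu⟩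
    exact Subgroup.mem_subgroupOf.mp h1
  have key : ∀ t ∈ (T : Subgroup X) ⊓ K, ∀ s ∈ (T : Subgroup X) ⊓ K, ∀ k ∈ K,
      (t⁻¹ * s⁻¹ * t * s) * k = k * (t⁻¹ * s⁻¹ * t * s) := by
    intro t ht s hs k hk
    obtain ⟨htT, htK⟩ := Subgroup.mem_inf.mp ht
    obtain ⟨hsT, hsK⟩ := Subgroup.mem_inf.mp hs
    have h1 : t * y * t⁻¹ * y⁻¹ ∈ Y := Y.mul_mem (hnorm t htT) (Y.inv_mem hyY)
    have h2 : s * y * s⁻¹ * y⁻¹ ∈ Y := Y.mul_mem (hnorm s hsT) (Y.inv_mem hyY)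
    have h3 : (t * y * t⁻¹ * y⁻¹) * (s * y * s⁻¹ * y⁻¹) =
        (s * y * s⁻¹ * y⁻¹) * (t * y * t⁻¹ * y⁻¹) :=
      congrArg Subtype.val (mul_comm' (⟨_, h1⟩ : ↥Y) ⟨_, h2⟩)
    have ha : y * t⁻¹ * y⁻¹ ∈ K.map (MulAut.conj y).toMonoidHom := hL' _ (K.inv_mem htK)
    have hb : y * s⁻¹ * y⁻¹ ∈ K.map (MulAut.conj y).toMonoidHom := hL' _ (K.inv_mem hsK)
    have has : (y * t⁻¹ * y⁻¹) * s = s * (y * t⁻¹ * y⁻¹) := hLKc _ ha s hsK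
    have hbt : (y * s⁻¹ * y⁻¹) * t = t * (y * s⁻¹ * y⁻¹) := hLKc _ hb t htK
    have h3' : (t * (y * t⁻¹ * y⁻¹)) * (s * (y * s⁻¹ * y⁻¹)) =
        (s * (y * s⁻¹ * y⁻¹)) * (t * (y * t⁻¹ * y⁻¹)) := by
      simp only [mul_assoc] at h3 ⊢
      exact h3
    have e1 : t * s * ((y * t⁻¹ * y⁻¹) * (y * s⁻¹ * y⁻¹)) =
        s * t * ((y * s⁻¹ * y⁻¹) * (y * t⁻¹ * y⁻¹)) := by
      calc t * s * ((y * t⁻¹ * y⁻¹) * (y * s⁻¹ * y⁻¹))
          = t * (s * (y * t⁻¹ * y⁻¹)) * (y * s⁻¹ * y⁻¹) := by simp only [mul_assoc]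
        _ = t * ((y * t⁻¹ * y⁻¹) * s) * (y * s⁻¹ * y⁻¹) := by rw [has]
        _ = (t * (y * t⁻¹ * y⁻¹)) * (s * (y * s⁻¹ * y⁻¹)) := by simp only [mul_assoc]
        _ = (s * (y * s⁻¹ * y⁻¹)) * (t * (y * t⁻¹ * y⁻¹)) := h3'
        _ = s * ((y * s⁻¹ * y⁻¹) * t) * (y * t⁻¹ * y⁻¹) := by simp only [mul_assoc]
        _ = s * (t * (y * s⁻¹ * y⁻¹)) * (y * t⁻¹ * y⁻¹) := by rw [hbt]
        _ = s * t * ((y * s⁻¹ * y⁻¹) * (y * t⁻¹ * y⁻¹)) := by simp only [mul_assoc]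
    have hc : t⁻¹ * s⁻¹ * t * s =
        (y * s⁻¹ * y⁻¹) * (y * t⁻¹ * y⁻¹) * (y * s⁻¹ * y⁻¹)⁻¹ * (y * t⁻¹ * y⁻¹)⁻¹ := by
      have h4 : (s * t)⁻¹ * (t * s * ((y * t⁻¹ * y⁻¹) * (y * s⁻¹ * y⁻¹))) *
          ((y * t⁻¹ * y⁻¹) * (y * s⁻¹ * y⁻¹))⁻¹ =
          (s * t)⁻¹ * (s * t * ((y * s⁻¹ * y⁻¹) * (y * t⁻¹ * y⁻¹))) *
          ((y * t⁻¹ * y⁻¹) * (y * s⁻¹ * y⁻¹))⁻¹ := by
        rw [e1]
      have l : (s * t)⁻¹ * (t * s * ((y * t⁻¹ * y⁻¹) * (y * s⁻¹ * y⁻¹))) *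
          ((y * t⁻¹ * y⁻¹) * (y * s⁻¹ * y⁻¹))⁻¹ = t⁻¹ * s⁻¹ * t * s := by group
      have r : (s * t)⁻¹ * (s * t * ((y * s⁻¹ * y⁻¹) * (y * t⁻¹ * y⁻¹))) *
          ((y * t⁻¹ * y⁻¹) * (y * s⁻¹ * y⁻¹))⁻¹ =
          (y * s⁻¹ * y⁻¹) * (y * t⁻¹ * y⁻¹) * (y * s⁻¹ * y⁻¹)⁻¹ * (y * t⁻¹ * y⁻¹)⁻¹ := by group
      rw [l, r] at h4
      exact h4
    have hcL : t⁻¹ * s⁻¹ * t * s ∈ K.map (MulAut.conj y).toMonoidHom := by
      rw [hc]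
      exact Subgroup.mul_mem _ (Subgroup.mul_mem _ (Subgroup.mul_mem _ hb ha)
        (Subgroup.inv_mem _ hb)) (Subgroup.inv_mem _ ha)
    exact hLKc _ hcL k hk
  -- the Sylow 2-subgroup T ∩ K of K and its image in K / Z(K)
  have hSyl := Cfsg.Agent.Lib.Helper48.CharPSub.isSylIn_inf_of_subnormal T hK.1
  obtain ⟨-, hRp, hRidx⟩ := hSyl
  have hRp' : IsPGroup 2 ↥(((T : Subgroup X) ⊓ K).subgroupOf K) := hRp.comap_subtype
  have hQp : IsPGroup 2 ↥((((T : Subgroup X) ⊓ K).subgroupOf K).map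
      (QuotientGroup.mk' (Subgroup.center ↥K))) := hRp'.map _
  have hQidx : ¬ 2 ∣ ((((T : Subgroup X) ⊓ K).subgroupOf K).map
      (QuotientGroup.mk' (Subgroup.center ↥K))).index := by
    intro h
    apply hRidx
    exact h.trans (Subgroup.index_map_dvd _ (QuotientGroup.mk'_surjective _))
  have hQcomm : ∀ a ∈ (((T : Subgroup X) ⊓ K).subgroupOf K).map
      (QuotientGroup.mk' (Subgroup.center ↥K)),
      ∀ b ∈ (((T : Subgroup X) ⊓ K).subgroupOf K).map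
      (QuotientGroup.mk' (Subgroup.center ↥K)), a * b = b * a := by
    intro a ha b hb
    obtain ⟨r₁, hr₁, rfl⟩ := Subgroup.mem_map.mp ha
    obtain ⟨r₂, hr₂, rfl⟩ := Subgroup.mem_map.mp hb
    rw [Subgroup.mem_subgroupOf] at hr₁ hr₂
    have h1 : (r₂ * r₁)⁻¹ * (r₁ * r₂) ∈ Subgroup.center ↥K := by
      rw [Subgroup.mem_center_iff]
      intro k
      apply Subtype.ext
      have h2 := key r₁ hr₁ r₂ hr₂ k k.2
      have h3 : (((r₂ * r₁)⁻¹ * (r₁ * r₂) : ↥K) : X) =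
          (r₁ : X)⁻¹ * (r₂ : X)⁻¹ * (r₁ : X) * (r₂ : X) := by
        push_cast
        group
      push_cast at h3 ⊢
      rw [h3]
      exact h2.symm
    have h4 : QuotientGroup.mk' (Subgroup.center ↥K) (r₂ * r₁) =
        QuotientGroup.mk' (Subgroup.center ↥K) (r₁ * r₂) :=
      QuotientGroup.eq.mpr h1
    rw [← map_mul, ← map_mul]
    exact h4.symm
  obtain ⟨g, hg⟩ := MulAction.exists_smul_eq (↥K ⧸ Subgroup.center ↥K) (hQp.toSylow hQidx) P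
  refine ⟨⟨fun a b => ?_⟩⟩
  apply Subtype.ext
  have ha : g⁻¹ * (a : ↥K ⧸ Subgroup.center ↥K) * g ∈
      ((hQp.toSylow hQidx : Sylow 2 (↥K ⧸ Subgroup.center ↥K)) :
        Subgroup (↥K ⧸ Subgroup.center ↥K)) := by
    rw [← mem_smul_sylow_iff, hg]
    exact a.2
  have hb : g⁻¹ * (b : ↥K ⧸ Subgroup.center ↥K) * g ∈
      ((hQp.toSylow hQidx : Sylow 2 (↥K ⧸ Subgroup.center ↥K)) :
        Subgroup (↥K ⧸ Subgroup.center ↥K)) := by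
    rw [← mem_smul_sylow_iff, hg]
    exact b.2
  rw [IsPGroup.toSylow_coe] at ha hb
  have h5 := hQcomm _ ha _ hb
  have e1 : (a : ↥K ⧸ Subgroup.center ↥K) * b =
      g * (g⁻¹ * a * g * (g⁻¹ * b * g)) * g⁻¹ := by group
  have e2 : (b : ↥K ⧸ Subgroup.center ↥K) * a =
      g * (g⁻¹ * b * g * (g⁻¹ * a * g)) * g⁻¹ := by group
  show (a : ↥K ⧸ Subgroup.center ↥K) * b = b * a
  rw [e1, e2, h5]

end Cfsg.Agent.S2925
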