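import Cfsg.Statements.S2931
import Cfsg.Agent.Lib.Helper5.SpCard
import Cfsg.Agent.S0288

set_option autoImplicit false
open Cfsg

namespace Cfsg.Agent.S2931

/-- A subgroup whose order is the full power of two is isomorphic to every Sylow 2-subgroup. -/
theorem sylow_equiv {G : Type*} [Group G] [Finite G] (H : Subgroup G) (k : ℕ)
    (hH : Nat.card H = 2 ^ k) (hG : ¬ 2 ^ (k + 1) ∣ Nat.card G) (P : Sylow 2 G) :
    Nonempty (↥(P : Subgroup G) ≃* ↥H) := by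
  have hne : Nat.card G ≠ 0 := Nat.card_pos.ne'
  have hfact : (Nat.card G).factorization 2 = k := by
    have h1 : 2 ^ k ∣ Nat.card G := hH ▸ Subgroup.card_subgroup_dvd_card H
    apply le_antisymm
    · by_contra hlt
      push Not at hlt
      exact hG ((Nat.Prime.pow_dvd_iff_le_factorization Nat.prime_two hne).mpr hlt)
    · exact (Nat.Prime.pow_dvd_iff_le_factorization Nat.prime_two hne).mp h1
  haveI : Fact (Nat.Prime 2) := ⟨Nat.prime_two⟩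
  let Q : Sylow 2 G := Sylow.ofCard H (by rw [hH, hfact])
  exact ⟨(Sylow.equiv P Q).trans (MulEquiv.subgroupCongr (Sylow.coe_ofCard H _))⟩

section sp

variable {F : Type*} [Field F]

abbrev Sp3 := Matrix.symplecticGroup (Fin 2) (ZMod 3)

theorem J_map (f : ZMod 3 →+* F) : (Matrix.J (Fin 2) (ZMod 3)).map f = Matrix.J (Fin 2) F := by
  ext i j
  rcases i with i | i <;> rcases j with j | j <;>
    simp [Matrix.J, Matrix.fromBlocks, Matrix.one_apply, apply_ite]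

/-- Entrywise map of symplectic matrices. -/
def mapSp (f : ZMod 3 →+* F) : Sp3 →* Matrix.symplecticGroup (Fin 2) F where
  toFun A := ⟨A.1.map f, by
    rw [SymplecticGroup.mem_iff]
    have h := A.2
    rw [SymplecticGroup.mem_iff] at h
    have h2 := congrArg (fun M => M.map f) h
    simp only [Matrix.map_mul, J_map] at h2
    rw [Matrix.transpose_map] at h2
    exact h2⟩
  map_one' := by
    apply Subtype.ext
    show (1 : Matrix (Fin 2 ⊕ Fin 2) (Fin 2 ⊕ Fin 2) (ZMod 3)).map f = 1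
    exact Matrix.map_one f (map_zero f) (map_one f)
  map_mul' A B := by
    apply Subtype.ext
    show (A.1 * B.1).map f = A.1.map f * B.1.map f
    exact Matrix.map_mul

theorem mapSp_inj (f : ZMod 3 →+* F) : Function.Injective (mapSp f) := by
  intro A B h
  apply Subtype.ext
  have h1 : A.1.map f = B.1.map f := congrArg Subtype.val h
  exact Matrix.map_injective (RingHom.injective f) h1

/-- `Sp(4, 3) → PSp(4, F)`. -/
noncomputable def q (f : ZMod 3 →+* F) : Sp3 →* Cfsg.PSp 2 F :=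
  (QuotientGroup.mk' (Subgroup.center (Matrix.symplecticGroup (Fin 2) F))).comp (mapSp f)

theorem q_eq_one_iff (f : ZMod 3 →+* F) (m : Sp3) :
    q f m = 1 ↔ mapSp f m ∈ Subgroup.center (Matrix.symplecticGroup (Fin 2) F) := by
  unfold q
  rw [MonoidHom.comp_apply, QuotientGroup.mk'_apply, QuotientGroup.eq_one_iff]

theorem q_comm (f : ZMod 3 →+* F) (m : Sp3) (h : q f m = 1) (t : Sp3) : m * t = t * m := by
  rw [q_eq_one_iff, Subgroup.mem_center_iff] at h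
  apply mapSp_inj f
  rw [map_mul, map_mul]
  exact (h (mapSp f t)).symm

def negOne : Sp3 := ⟨-1, by rw [SymplecticGroup.mem_iff]; decide⟩

theorem negOne_comm (t : Sp3) : negOne * t = t * negOne := by
  apply Subtype.ext
  show (-1 : Matrix _ _ _) * t.1 = t.1 * (-1)
  rw [neg_one_mul, mul_neg_one]

theorem negOne_sq : negOne * negOne = 1 := by decide

theorem negOne_ne : negOne ≠ 1 := by decide

theorem mapSp_negOne_center (f : ZMod 3 →+* F) :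
    mapSp f negOne ∈ Subgroup.center (Matrix.symplecticGroup (Fin 2) F) := by
  rw [Subgroup.mem_center_iff]
  intro g
  apply Subtype.ext
  show g.1 * (negOne.1.map f) = (negOne.1.map f) * g.1
  have : negOne.1.map f = -1 := by
    show (-1 : Matrix (Fin 2 ⊕ Fin 2) (Fin 2 ⊕ Fin 2) (ZMod 3)).map f = -1
    ext i j
    simp [Matrix.one_apply, apply_ite]
  rw [this, neg_one_mul, mul_neg_one]

theorem q_negOne (f : ZMod 3 →+* F) : q f negOne = 1 := by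
  rw [q_eq_one_iff]
  exact mapSp_negOne_center f

theorem card_PSp_not_dvd [Fintype F] (hF : Fintype.card F = 3) (f : ZMod 3 →+* F) :
    ¬ 2 ^ (6 + 1) ∣ Nat.card (Cfsg.PSp 2 F) := by
  have hc := Cfsg.Agent.Lib.Helper5.SpCard.card_symplectic (F := F) 2
  rw [hF] at hc
  have hc' : Nat.card (Matrix.symplecticGroup (Fin 2) F) = 51840 := by
    rw [hc]; decide
  have hfin : Finite (Matrix.symplecticGroup (Fin 2) F) :=
    Nat.finite_of_card_ne_zero (by rw [hc']; norm_num)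
  have hq := Subgroup.card_eq_card_quotient_mul_card_subgroup
    (Subgroup.center (Matrix.symplecticGroup (Fin 2) F))
  rw [hc'] at hq
  -- the centre has even order
  have h2 : 2 ∣ Nat.card (Subgroup.center (Matrix.symplecticGroup (Fin 2) F)) := by
    let z : Subgroup.center (Matrix.symplecticGroup (Fin 2) F) :=
      ⟨mapSp f negOne, mapSp_negOne_center f⟩
    have hz : orderOf z = 2 := by
      apply orderOf_eq_prime
      · apply Subtype.ext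
        show mapSp f negOne ^ 2 = 1
        rw [← map_pow, pow_two, negOne_sq, map_one]
      · intro h
        have h1 : mapSp f negOne = 1 := congrArg Subtype.val h
        rw [← map_one (mapSp f)] at h1
        exact negOne_ne (mapSp_inj f h1)
    have hdvd := orderOf_dvd_natCard z
    rw [hz] at hdvd
    exact hdvd
  obtain ⟨c, hc2⟩ := h2
  rw [hc2] at hq
  intro h128
  obtain ⟨d, hd⟩ := h128
  rw [hd] at hq
  have h256 : 256 ∣ 51840 := ⟨d * c, by rw [hq]; ring⟩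
  exact absurd h256 (by decide)

end sp

section orth

open Matrix

abbrev ι := (Fin 2 ⊕ Fin 2) ⊕ Fin 2

variable {K : Type} [Field K]

theorem ab_eq : ∀ a' b' : ZMod 2,
    (∀ z₁ z₂ : ZMod 2, z₁ ^ 2 + a' * z₁ * z₂ + b' * z₂ ^ 2 = 0 → z₁ = 0 ∧ z₂ = 0) →
      a' = 1 ∧ b' = 1 := by decide

theorem quad_map (f : ZMod 2 →+* K) (w : ι → ZMod 2) :
    Cfsg.quadFormMinus 2 K 1 1 (f ∘ w) = f (Cfsg.quadFormMinus 2 (ZMod 2) 1 1 w) := by
  simp only [Cfsg.quadFormMinus, map_add, map_mul, map_pow, map_sum, Function.comp_apply, map_one]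

theorem mem_iso (f : ZMod 2 →+* K) (hf : Function.Surjective f) (g : GL ι (ZMod 2))
    (hg : ∀ u : ι → ZMod 2, Cfsg.quadFormMinus 2 (ZMod 2) 1 1 ((g : Matrix ι ι (ZMod 2)) *ᵥ u) =
      Cfsg.quadFormMinus 2 (ZMod 2) 1 1 u) :
    Matrix.GeneralLinearGroup.map f g ∈ Cfsg.isometryGroup K (Cfsg.quadFormMinus 2 K 1 1) := by
  intro u _
  show Cfsg.quadFormMinus 2 K 1 1 ((g : Matrix ι ι (ZMod 2)).map f *ᵥ u) =
    Cfsg.quadFormMinus 2 K 1 1 u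
  have hu : ∃ w : ι → ZMod 2, u = f ∘ w := by
    choose w hw using hf
    exact ⟨fun i => w (u i), by ext i; simp [hw]⟩
  obtain ⟨w, rfl⟩ := hu
  have h1 : (g : Matrix ι ι (ZMod 2)).map f *ᵥ (f ∘ w) = f ∘ ((g : Matrix ι ι (ZMod 2)) *ᵥ w) := by
    ext i
    exact (RingHom.map_mulVec f _ w i).symm
  rw [h1, quad_map, quad_map, hg]

theorem card_iso_not_dvd [Fintype K] (hK : Fintype.card K = 2) (a b : K)
    (hab : ∀ z₁ z₂ : K, z₁ ^ 2 + a * z₁ * z₂ + b * z₂ ^ 2 = 0 → z₁ = 0 ∧ z₂ = 0) :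
    ¬ 2 ^ (7 + 1) ∣ Nat.card ↥(Cfsg.isometryGroup K (Cfsg.quadFormMinus 2 K a b)) := by
  have h := Cfsg.Agent.S0288.result hK 3 (by norm_num) a b hab
  have h' : Nat.card ↥(Cfsg.isometryGroup K (Cfsg.quadFormMinus 2 K a b)) = 51840 := by
    rw [h]; decide
  rw [h']
  decide

end orth


theorem card_alt_not_dvd : ¬ 2 ^ (6 + 1) ∣ Nat.card ↥(alternatingGroup (Fin 8)) := by
  have h := two_mul_card_alternatingGroup (α := Fin 8)
  rw [Fintype.card_perm, Fintype.card_fin] at h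
  rw [Nat.card_eq_fintype_card]
  have h8 : (8 : ℕ).factorial = 40320 := by decide
  rw [h8] at h
  omega

theorem card_perm_not_dvd : ¬ 2 ^ (7 + 1) ∣ Nat.card (Equiv.Perm (Fin 8)) := by
  rw [Nat.card_eq_fintype_card, Fintype.card_perm, Fintype.card_fin]
  decide

/-! ### The group of order 64: Sylow 2-subgroups of `Alt(8)` and `PSp(4,3)` -/

namespace A

abbrev fx : FreeGroup (Fin 3) := FreeGroup.of 0

abbrev fy : FreeGroup (Fin 3) := FreeGroup.of 1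

abbrev fz : FreeGroup (Fin 3) := FreeGroup.of 2

abbrev rels : Set (FreeGroup (Fin 3)) :=
  {fz * fz,
   fz * fy * fy * fz * fx * fx,
   fz * fx * fz * fx * fz * fx * fz * fx,
   fz * fy * fx * fy * fx * fz * fx * fx,
   fz * fy * fy * fz * fy * fx * fy * fx,
   fz * fy * fz * fx * fz * fy * fz * fx,
   fz * fy * fz * fy * fz * fy * fz * fy}

abbrev P := PresentedGroup rels

noncomputable def x : P := PresentedGroup.of 0

noncomputable def y : P := PresentedGroup.of 1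

noncomputable def z : P := PresentedGroup.of 2

theorem hR0 : z * z = 1 := by
  have h : PresentedGroup.mk rels (fz * fz) = 1 :=
    PresentedGroup.one_of_mem (by simp [rels])
  simp only [map_mul] at h
  exact h
theorem rel0 (a : P) : a * z * z = a := by
  calc a * z * z = a * (z * z) := by simp only [mul_assoc]
    _ = a := by rw [hR0, mul_one]

theorem hR1 : z * y * y * z * x * x = 1 := by
  have h : PresentedGroup.mk rels (fz * fy * fy * fz * fx * fx) = 1 :=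
    PresentedGroup.one_of_mem (by simp [rels])
  simp only [map_mul] at h
  exact h
theorem rel1 (a : P) : a * z * y * y * z * x * x = a := by
  calc a * z * y * y * z * x * x = a * (z * y * y * z * x * x) := by simp only [mul_assoc]
    _ = a := by rw [hR1, mul_one]

theorem hR2 : z * x * z * x * z * x * z * x = 1 := by
  have h : PresentedGroup.mk rels (fz * fx * fz * fx * fz * fx * fz * fx) = 1 :=
    PresentedGroup.one_of_mem (by simp [rels])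
  simp only [map_mul] at h
  exact h
theorem rel2 (a : P) : a * z * x * z * x * z * x * z * x = a := by
  calc a * z * x * z * x * z * x * z * x = a * (z * x * z * x * z * x * z * x) := by simp only [mul_assoc]
    _ = a := by rw [hR2, mul_one]

theorem hR3 : z * y * x * y * x * z * x * x = 1 := by
  have h : PresentedGroup.mk rels (fz * fy * fx * fy * fx * fz * fx * fx) = 1 :=
    PresentedGroup.one_of_mem (by simp [rels])
  simp only [map_mul] at h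
  exact h
theorem rel3 (a : P) : a * z * y * x * y * x * z * x * x = a := by
  calc a * z * y * x * y * x * z * x * x = a * (z * y * x * y * x * z * x * x) := by simp only [mul_assoc]
    _ = a := by rw [hR3, mul_one]

theorem hR4 : z * y * y * z * y * x * y * x = 1 := by
  have h : PresentedGroup.mk rels (fz * fy * fy * fz * fy * fx * fy * fx) = 1 :=
    PresentedGroup.one_of_mem (by simp [rels])
  simp only [map_mul] at h
  exact h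
theorem rel4 (a : P) : a * z * y * y * z * y * x * y * x = a := by
  calc a * z * y * y * z * y * x * y * x = a * (z * y * y * z * y * x * y * x) := by simp only [mul_assoc]
    _ = a := by rw [hR4, mul_one]

theorem hR5 : z * y * z * x * z * y * z * x = 1 := by
  have h : PresentedGroup.mk rels (fz * fy * fz * fx * fz * fy * fz * fx) = 1 :=
    PresentedGroup.one_of_mem (by simp [rels])
  simp only [map_mul] at h
  exact h
theorem rel5 (a : P) : a * z * y * z * x * z * y * z * x = a := by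
  calc a * z * y * z * x * z * y * z * x = a * (z * y * z * x * z * y * z * x) := by simp only [mul_assoc]
    _ = a := by rw [hR5, mul_one]

theorem hR6 : z * y * z * y * z * y * z * y = 1 := by
  have h : PresentedGroup.mk rels (fz * fy * fz * fy * fz * fy * fz * fy) = 1 :=
    PresentedGroup.one_of_mem (by simp [rels])
  simp only [map_mul] at h
  exact h
theorem rel6 (a : P) : a * z * y * z * y * z * y * z * y = a := by
  calc a * z * y * z * y * z * y * z * y = a * (z * y * z * y * z * y * z * y) := by simp only [mul_assoc]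
    _ = a := by rw [hR6, mul_one]

noncomputable def r0 : P := 1
noncomputable def r1 : P := r0 * x
noncomputable def r2 : P := r0 * y
noncomputable def r3 : P := r0 * z
noncomputable def r4 : P := r1 * x
noncomputable def r5 : P := r1 * y
noncomputable def r6 : P := r1 * z
noncomputable def r7 : P := r2 * x
noncomputable def r8 : P := r2 * z
noncomputable def r9 : P := r3 * x
noncomputable def r10 : P := r3 * y
noncomputable def r11 : P := r4 * x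
noncomputable def r12 : P := r4 * y
noncomputable def r13 : P := r4 * z
noncomputable def r14 : P := r5 * z
noncomputable def r15 : P := r6 * x
noncomputable def r16 : P := r6 * y
noncomputable def r17 : P := r7 * z
noncomputable def r18 : P := r8 * x
noncomputable def r19 : P := r8 * y
noncomputable def r20 : P := r9 * y
noncomputable def r21 : P := r9 * z
noncomputable def r22 : P := r10 * x
noncomputable def r23 : P := r10 * z
noncomputable def r24 : P := r11 * z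
noncomputable def r25 : P := r12 * z
noncomputable def r26 : P := r13 * x
noncomputable def r27 : P := r13 * y
noncomputable def r28 : P := r14 * x
noncomputable def r29 : P := r14 * y
noncomputable def r30 : P := r15 * y
noncomputable def r31 : P := r15 * z
noncomputable def r32 : P := r16 * x
noncomputable def r33 : P := r16 * z
noncomputable def r34 : P := r17 * x
noncomputable def r35 : P := r17 * y
noncomputable def r36 : P := r18 * y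
noncomputable def r37 : P := r18 * z
noncomputable def r38 : P := r19 * x
noncomputable def r39 : P := r19 * z
noncomputable def r40 : P := r20 * z
noncomputable def r41 : P := r22 * z
noncomputable def r42 : P := r24 * x
noncomputable def r43 : P := r24 * y
noncomputable def r44 : P := r25 * x
noncomputable def r45 : P := r25 * y
noncomputable def r46 : P := r26 * z
noncomputable def r47 : P := r27 * z
noncomputable def r48 : P := r28 * y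
noncomputable def r49 : P := r28 * z
noncomputable def r50 : P := r29 * x
noncomputable def r51 : P := r29 * z
noncomputable def r52 : P := r30 * z
noncomputable def r53 : P := r32 * z
noncomputable def r54 : P := r34 * z
noncomputable def r55 : P := r35 * z
noncomputable def r56 : P := r36 * z
noncomputable def r57 : P := r38 * z
noncomputable def r58 : P := r42 * z
noncomputable def r59 : P := r43 * z
noncomputable def r60 : P := r44 * z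
noncomputable def r61 : P := r45 * z
noncomputable def r62 : P := r48 * z
noncomputable def r63 : P := r50 * z
theorem e_0_x : r0 * x = r1 := rfl
theorem e_0_y : r0 * y = r2 := rfl
theorem e_0_z : r0 * z = r3 := rfl
theorem e_1_x : r1 * x = r4 := rfl
theorem e_1_y : r1 * y = r5 := rfl
theorem e_1_z : r1 * z = r6 := rfl
theorem e_2_x : r2 * x = r7 := rfl
theorem e_2_z : r2 * z = r8 := rfl
theorem e_3_x : r3 * x = r9 := rfl
theorem e_3_y : r3 * y = r10 := rfl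
theorem e_4_x : r4 * x = r11 := rfl
theorem e_4_y : r4 * y = r12 := rfl
theorem e_4_z : r4 * z = r13 := rfl
theorem e_5_z : r5 * z = r14 := rfl
theorem e_6_x : r6 * x = r15 := rfl
theorem e_6_y : r6 * y = r16 := rfl
theorem e_7_z : r7 * z = r17 := rfl
theorem e_8_x : r8 * x = r18 := rfl
theorem e_8_y : r8 * y = r19 := rfl
theorem e_9_y : r9 * y = r20 := rfl
theorem e_9_z : r9 * z = r21 := rfl
theorem e_10_x : r10 * x = r22 := rfl
theorem e_10_z : r10 * z = r23 := rfl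
theorem e_11_z : r11 * z = r24 := rfl
theorem e_12_z : r12 * z = r25 := rfl
theorem e_13_x : r13 * x = r26 := rfl
theorem e_13_y : r13 * y = r27 := rfl
theorem e_14_x : r14 * x = r28 := rfl
theorem e_14_y : r14 * y = r29 := rfl
theorem e_15_y : r15 * y = r30 := rfl
theorem e_15_z : r15 * z = r31 := rfl
theorem e_16_x : r16 * x = r32 := rfl
theorem e_16_z : r16 * z = r33 := rfl
theorem e_17_x : r17 * x = r34 := rfl
theorem e_17_y : r17 * y = r35 := rfl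
theorem e_18_y : r18 * y = r36 := rfl
theorem e_18_z : r18 * z = r37 := rfl
theorem e_19_x : r19 * x = r38 := rfl
theorem e_19_z : r19 * z = r39 := rfl
theorem e_20_z : r20 * z = r40 := rfl
theorem e_22_z : r22 * z = r41 := rfl
theorem e_24_x : r24 * x = r42 := rfl
theorem e_24_y : r24 * y = r43 := rfl
theorem e_25_x : r25 * x = r44 := rfl
theorem e_25_y : r25 * y = r45 := rfl
theorem e_26_z : r26 * z = r46 := rfl
theorem e_27_z : r27 * z = r47 := rfl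
theorem e_28_y : r28 * y = r48 := rfl
theorem e_28_z : r28 * z = r49 := rfl
theorem e_29_x : r29 * x = r50 := rfl
theorem e_29_z : r29 * z = r51 := rfl
theorem e_30_z : r30 * z = r52 := rfl
theorem e_32_z : r32 * z = r53 := rfl
theorem e_34_z : r34 * z = r54 := rfl
theorem e_35_z : r35 * z = r55 := rfl
theorem e_36_z : r36 * z = r56 := rfl
theorem e_38_z : r38 * z = r57 := rfl
theorem e_42_z : r42 * z = r58 := rfl
theorem e_43_z : r43 * z = r59 := rfl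
theorem e_44_z : r44 * z = r60 := rfl
theorem e_45_z : r45 * z = r61 := rfl
theorem e_48_z : r48 * z = r62 := rfl
theorem e_50_z : r50 * z = r63 := rfl
theorem e_3_z : r3 * z = r0 := by
  have h := rel0 r0
  simp only [e_0_z] at h
  exact h
theorem e_6_z : r6 * z = r1 := by
  have h := rel0 r1
  simp only [e_1_z] at h
  exact h
theorem e_8_z : r8 * z = r2 := by
  have h := rel0 r2
  simp only [e_2_z] at h
  exact h
theorem e_13_z : r13 * z = r4 := by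
  have h := rel0 r4
  simp only [e_4_z] at h
  exact h
theorem e_14_z : r14 * z = r5 := by
  have h := rel0 r5
  simp only [e_5_z] at h
  exact h
theorem e_17_z : r17 * z = r7 := by
  have h := rel0 r7
  simp only [e_7_z] at h
  exact h
theorem e_21_z : r21 * z = r9 := by
  have h := rel0 r9
  simp only [e_9_z] at h
  exact h
theorem e_23_z : r23 * z = r10 := by
  have h := rel0 r10
  simp only [e_10_z] at h
  exact h
theorem e_24_z : r24 * z = r11 := by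
  have h := rel0 r11
  simp only [e_11_z] at h
  exact h
theorem e_25_z : r25 * z = r12 := by
  have h := rel0 r12
  simp only [e_12_z] at h
  exact h
theorem e_31_z : r31 * z = r15 := by
  have h := rel0 r15
  simp only [e_15_z] at h
  exact h
theorem e_33_z : r33 * z = r16 := by
  have h := rel0 r16
  simp only [e_16_z] at h
  exact h
theorem e_37_z : r37 * z = r18 := by
  have h := rel0 r18
  simp only [e_18_z] at h
  exact h
theorem e_39_z : r39 * z = r19 := by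
  have h := rel0 r19
  simp only [e_19_z] at h
  exact h
theorem e_40_z : r40 * z = r20 := by
  have h := rel0 r20
  simp only [e_20_z] at h
  exact h
theorem e_41_z : r41 * z = r22 := by
  have h := rel0 r22
  simp only [e_22_z] at h
  exact h
theorem e_46_z : r46 * z = r26 := by
  have h := rel0 r26
  simp only [e_26_z] at h
  exact h
theorem e_47_z : r47 * z = r27 := by
  have h := rel0 r27
  simp only [e_27_z] at h
  exact h
theorem e_49_z : r49 * z = r28 := by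
  have h := rel0 r28
  simp only [e_28_z] at h
  exact h
theorem e_51_z : r51 * z = r29 := by
  have h := rel0 r29
  simp only [e_29_z] at h
  exact h
theorem e_52_z : r52 * z = r30 := by
  have h := rel0 r30
  simp only [e_30_z] at h
  exact h
theorem e_53_z : r53 * z = r32 := by
  have h := rel0 r32
  simp only [e_32_z] at h
  exact h
theorem e_54_z : r54 * z = r34 := by
  have h := rel0 r34
  simp only [e_34_z] at h
  exact h
theorem e_55_z : r55 * z = r35 := by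
  have h := rel0 r35
  simp only [e_35_z] at h
  exact h
theorem e_56_z : r56 * z = r36 := by
  have h := rel0 r36
  simp only [e_36_z] at h
  exact h
theorem e_57_z : r57 * z = r38 := by
  have h := rel0 r38
  simp only [e_38_z] at h
  exact h
theorem e_58_z : r58 * z = r42 := by
  have h := rel0 r42
  simp only [e_42_z] at h
  exact h
theorem e_59_z : r59 * z = r43 := by
  have h := rel0 r43
  simp only [e_43_z] at h
  exact h
theorem e_60_z : r60 * z = r44 := by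
  have h := rel0 r44
  simp only [e_44_z] at h
  exact h
theorem e_61_z : r61 * z = r45 := by
  have h := rel0 r45
  simp only [e_45_z] at h
  exact h
theorem e_62_z : r62 * z = r48 := by
  have h := rel0 r48
  simp only [e_48_z] at h
  exact h
theorem e_63_z : r63 * z = r50 := by
  have h := rel0 r50
  simp only [e_50_z] at h
  exact h
theorem e_27_y : r27 * y = r3 := by
  have h := rel1 r4
  simp only [e_4_z, e_13_y] at h
  have h2 : r3 * z * x * x = r4 := by simp only [e_3_z, e_0_x, e_1_x]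
  exact (mul_right_cancel (mul_right_cancel (mul_right_cancel (h.trans h2.symm))))
theorem e_43_y : r43 * y = r6 := by
  have h := rel1 r11
  simp only [e_11_z, e_24_y] at h
  have h2 : r6 * z * x * x = r11 := by simp only [e_6_z, e_1_x, e_4_x]
  exact (mul_right_cancel (mul_right_cancel (mul_right_cancel (h.trans h2.symm))))
theorem e_7_y : r7 * y = r1 := by
  have h := rel4 r4
  simp only [e_4_z, e_13_y, e_27_y, e_3_z, e_0_y, e_2_x] at h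
  have h2 : r1 * x = r4 := by simp only [e_1_x]
  exact (mul_right_cancel (h.trans h2.symm))
theorem e_33_x : r33 * x = r47 := by
  have h := rel5 r1
  simp only [e_1_z, e_6_y, e_16_z] at h
  have h2 : r47 * z * y * z * x = r1 := by simp only [e_47_z, e_27_y, e_3_z, e_0_x]
  exact (mul_right_cancel (mul_right_cancel (mul_right_cancel (mul_right_cancel (h.trans h2.symm)))))
theorem e_47_x : r47 * x = r59 := by
  have h := rel5 r4
  simp only [e_4_z, e_13_y, e_27_z] at h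
  have h2 : r59 * z * y * z * x = r4 := by simp only [e_59_z, e_43_y, e_6_z, e_1_x]
  exact (mul_right_cancel (mul_right_cancel (mul_right_cancel (mul_right_cancel (h.trans h2.symm)))))
theorem e_39_y : r39 * y = r47 := by
  have h := rel6 r2
  simp only [e_2_z, e_8_y, e_19_z] at h
  have h2 : r47 * z * y * z * y = r2 := by simp only [e_47_z, e_27_y, e_3_z, e_0_y]
  exact (mul_right_cancel (mul_right_cancel (mul_right_cancel (mul_right_cancel (h.trans h2.symm)))))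
theorem e_51_y : r51 * y = r59 := by
  have h := rel6 r5
  simp only [e_5_z, e_14_y, e_29_z] at h
  have h2 : r59 * z * y * z * y = r5 := by simp only [e_59_z, e_43_y, e_6_z, e_1_y]
  exact (mul_right_cancel (mul_right_cancel (mul_right_cancel (mul_right_cancel (h.trans h2.symm)))))
theorem e_28_x : r28 * x = r17 := by
  have h := rel1 r17
  simp only [e_17_z, e_7_y, e_1_y, e_5_z, e_14_x] at h
  exact h
theorem e_23_x : r23 * x = r33 := by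
  have h := rel1 r47
  simp only [e_47_z, e_27_y, e_3_y, e_10_z] at h
  have h2 : r33 * x = r47 := by simp only [e_33_x]
  exact (mul_right_cancel (h.trans h2.symm))
theorem e_26_x : r26 * x = r3 := by
  have h := rel3 r3
  simp only [e_3_z, e_0_y, e_2_x, e_7_y, e_1_x, e_4_z, e_13_x] at h
  exact h
theorem e_12_x : r12 * x = r5 := by
  have h := rel3 r17
  simp only [e_17_z, e_7_y, e_1_x, e_4_y] at h
  have h2 : r5 * z * x * x = r17 := by simp only [e_5_z, e_14_x, e_28_x]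
  exact (mul_right_cancel (mul_right_cancel (mul_right_cancel (h.trans h2.symm))))
theorem e_20_x : r20 * x = r10 := by
  have h := rel3 r47
  simp only [e_47_z, e_27_y, e_3_x, e_9_y] at h
  have h2 : r10 * z * x * x = r47 := by simp only [e_10_z, e_23_x, e_33_x]
  exact (mul_right_cancel (mul_right_cancel (mul_right_cancel (h.trans h2.symm))))
theorem e_30_x : r30 * x = r16 := by
  have h := rel3 r59
  simp only [e_59_z, e_43_y, e_6_x, e_15_y] at h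
  have h2 : r16 * z * x * x = r59 := by simp only [e_16_z, e_33_x, e_47_x]
  exact (mul_right_cancel (mul_right_cancel (mul_right_cancel (h.trans h2.symm))))
theorem e_29_y : r29 * y = r17 := by
  have h := rel4 r5
  simp only [e_5_z, e_14_y] at h
  have h2 : r17 * z * y * x * y * x = r5 := by simp only [e_17_z, e_7_y, e_1_x, e_4_y, e_12_x]
  exact (mul_right_cancel (mul_right_cancel (mul_right_cancel (mul_right_cancel (mul_right_cancel (h.trans h2.symm))))))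
theorem e_23_y : r23 * y = r39 := by
  have h := rel4 r10
  simp only [e_10_z] at h
  have h2 : r39 * y * z * y * x * y * x = r10 := by simp only [e_39_y, e_47_z, e_27_y, e_3_x, e_9_y, e_20_x]
  exact (mul_right_cancel (mul_right_cancel (mul_right_cancel (mul_right_cancel (mul_right_cancel (mul_right_cancel (h.trans h2.symm)))))))
theorem e_33_y : r33 * y = r51 := by
  have h := rel4 r16
  simp only [e_16_z] at h
  have h2 : r51 * y * z * y * x * y * x = r16 := by simp only [e_51_y, e_59_z, e_43_y, e_6_x, e_15_y, e_30_x]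
  exact (mul_right_cancel (mul_right_cancel (mul_right_cancel (mul_right_cancel (mul_right_cancel (mul_right_cancel (h.trans h2.symm)))))))
theorem e_50_y : r50 * y = r28 := by
  have h := rel4 r17
  simp only [e_17_z, e_7_y, e_1_y, e_5_z, e_14_y, e_29_x] at h
  have h2 : r28 * x = r17 := by simp only [e_28_x]
  exact (mul_right_cancel (h.trans h2.symm))
theorem e_51_x : r51 * x = r39 := by
  have h := rel4 r59
  simp only [e_59_z, e_43_y, e_6_y, e_16_z, e_33_y] at h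
  have h2 : r39 * y * x = r59 := by simp only [e_39_y, e_47_x]
  exact (mul_right_cancel (mul_right_cancel (h.trans h2.symm)))
theorem e_37_y : r37 * y = r46 := by
  have h := rel5 r3
  simp only [e_3_z, e_0_y, e_2_z, e_8_x, e_18_z] at h
  have h2 : r46 * z * x = r3 := by simp only [e_46_z, e_26_x]
  exact (mul_right_cancel (mul_right_cancel (h.trans h2.symm)))
theorem e_19_y : r19 * y = r25 := by
  have h := rel5 r5
  simp only [e_5_z, e_14_y, e_29_z, e_51_x, e_39_z] at h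
  have h2 : r25 * z * x = r5 := by simp only [e_25_z, e_12_x]
  exact (mul_right_cancel (mul_right_cancel (h.trans h2.symm)))
theorem e_57_y : r57 * y = r40 := by
  have h := rel5 r10
  simp only [e_10_z, e_23_y, e_39_z, e_19_x, e_38_z] at h
  have h2 : r40 * z * x = r10 := by simp only [e_40_z, e_20_x]
  exact (mul_right_cancel (mul_right_cancel (h.trans h2.symm)))
theorem e_31_y : r31 * y = r49 := by
  have h := rel5 r15
  simp only [e_15_z] at h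
  have h2 : r49 * z * x * z * y * z * x = r15 := by simp only [e_49_z, e_28_x, e_17_z, e_7_y, e_1_z, e_6_x]
  exact (mul_right_cancel (mul_right_cancel (mul_right_cancel (mul_right_cancel (mul_right_cancel (mul_right_cancel (h.trans h2.symm)))))))
theorem e_63_y : r63 * y = r52 := by
  have h := rel5 r16
  simp only [e_16_z, e_33_y, e_51_z, e_29_x, e_50_z] at h
  have h2 : r52 * z * x = r16 := by simp only [e_52_z, e_30_x]
  exact (mul_right_cancel (mul_right_cancel (h.trans h2.symm)))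
theorem e_12_y : r12 * y = r0 := by
  have h := rel6 r0
  simp only [e_0_z, e_3_y, e_10_z, e_23_y, e_39_z, e_19_y, e_25_z] at h
  exact h
theorem e_5_x : r5 * x = r2 := by
  have h := rel1 r2
  simp only [e_2_z, e_8_y, e_19_y, e_25_z, e_12_x] at h
  exact h
theorem e_2_y : r2 * y = r4 := by
  have h := rel1 r3
  simp only [e_3_z, e_0_y] at h
  have h2 : r4 * z * x * x = r3 := by simp only [e_4_z, e_13_x, e_26_x]
  exact (mul_right_cancel (mul_right_cancel (mul_right_cancel (h.trans h2.symm))))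
theorem e_7_x : r7 * x = r12 := by
  have h := rel1 r5
  simp only [e_5_z, e_14_y, e_29_y, e_17_z] at h
  have h2 : r12 * x = r5 := by simp only [e_12_x]
  exact (mul_right_cancel (h.trans h2.symm))
theorem e_35_y : r35 * y = r14 := by
  have h := rel1 r7
  simp only [e_7_z, e_17_y] at h
  have h2 : r14 * z * x * x = r7 := by simp only [e_14_z, e_5_x, e_2_x]
  exact (mul_right_cancel (mul_right_cancel (mul_right_cancel (h.trans h2.symm))))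
theorem e_44_x : r44 * x = r8 := by
  have h := rel1 r8
  simp only [e_8_z, e_2_y, e_4_y, e_12_z, e_25_x] at h
  exact h
theorem e_21_y : r21 * y = r37 := by
  have h := rel1 r9
  simp only [e_9_z] at h
  have h2 : r37 * y * z * x * x = r9 := by simp only [e_37_y, e_46_z, e_26_x, e_3_x]
  exact (mul_right_cancel (mul_right_cancel (mul_right_cancel (mul_right_cancel (h.trans h2.symm)))))
theorem e_27_x : r27 * x = r20 := by
  have h := rel1 r10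
  simp only [e_10_z, e_23_y, e_39_y, e_47_z] at h
  have h2 : r20 * x = r10 := by simp only [e_20_x]
  exact (mul_right_cancel (h.trans h2.symm))
theorem e_45_y : r45 * y = r8 := by
  have h := rel1 r12
  simp only [e_12_z, e_25_y] at h
  have h2 : r8 * z * x * x = r12 := by simp only [e_8_z, e_2_x, e_7_x]
  exact (mul_right_cancel (mul_right_cancel (mul_right_cancel (h.trans h2.symm))))
theorem e_9_x : r9 * x = r13 := by
  have h := rel1 r13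
  simp only [e_13_z, e_4_y, e_12_y, e_0_z, e_3_x] at h
  exact h
theorem e_43_x : r43 * x = r30 := by
  have h := rel1 r16
  simp only [e_16_z, e_33_y, e_51_y, e_59_z] at h
  have h2 : r30 * x = r16 := by simp only [e_30_x]
  exact (mul_right_cancel (h.trans h2.symm))
theorem e_46_y : r46 * y = r60 := by
  have h := rel1 r18
  simp only [e_18_z, e_37_y] at h
  have h2 : r60 * z * x * x = r18 := by simp only [e_60_z, e_44_x, e_8_x]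
  exact (mul_right_cancel (mul_right_cancel (mul_right_cancel (h.trans h2.symm))))
theorem e_41_y : r41 * y = r57 := by
  have h := rel1 r22
  simp only [e_22_z] at h
  have h2 : r57 * y * z * x * x = r22 := by simp only [e_57_y, e_40_z, e_20_x, e_10_x]
  exact (mul_right_cancel (mul_right_cancel (mul_right_cancel (mul_right_cancel (h.trans h2.symm)))))
theorem e_18_x : r18 * x = r25 := by
  have h := rel1 r25
  simp only [e_25_z, e_12_y, e_0_y, e_2_z, e_8_x] at h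
  exact h
theorem e_60_y : r60 * y = r21 := by
  have h := rel1 r26
  simp only [e_26_z, e_46_y] at h
  have h2 : r21 * z * x * x = r26 := by simp only [e_21_z, e_9_x, e_13_x]
  exact (mul_right_cancel (mul_right_cancel (mul_right_cancel (h.trans h2.symm))))
theorem e_53_y : r53 * y = r63 := by
  have h := rel1 r32
  simp only [e_32_z] at h
  have h2 : r63 * y * z * x * x = r32 := by simp only [e_63_y, e_52_z, e_30_x, e_16_x]
  exact (mul_right_cancel (mul_right_cancel (mul_right_cancel (mul_right_cancel (h.trans h2.symm)))))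
theorem e_54_y : r54 * y = r31 := by
  have h := rel1 r34
  simp only [e_34_z] at h
  have h2 : r31 * y * z * x * x = r34 := by simp only [e_31_y, e_49_z, e_28_x, e_17_x]
  exact (mul_right_cancel (mul_right_cancel (mul_right_cancel (mul_right_cancel (h.trans h2.symm)))))
theorem e_61_x : r61 * x = r51 := by
  have h := rel1 r39
  simp only [e_39_z, e_19_y, e_25_y, e_45_z] at h
  have h2 : r51 * x = r39 := by simp only [e_51_x]
  exact (mul_right_cancel (h.trans h2.symm))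
theorem e_55_x : r55 * x = r61 := by
  have h := rel1 r51
  simp only [e_51_z, e_29_y, e_17_y, e_35_z] at h
  have h2 : r61 * x = r51 := by simp only [e_61_x]
  exact (mul_right_cancel (h.trans h2.symm))
theorem e_39_x : r39 * x = r55 := by
  have h := rel1 r55
  simp only [e_55_z, e_35_y, e_14_y, e_29_z, e_51_x] at h
  exact h
theorem e_31_x : r31 * x = r46 := by
  have h := rel2 r1
  simp only [e_1_z, e_6_x, e_15_z] at h
  have h2 : r46 * z * x * z * x = r1 := by simp only [e_46_z, e_26_x, e_3_z, e_0_x]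
  exact (mul_right_cancel (mul_right_cancel (mul_right_cancel (mul_right_cancel (h.trans h2.symm)))))
theorem e_49_x : r49 * x = r37 := by
  have h := rel2 r5
  simp only [e_5_z, e_14_x, e_28_z] at h
  have h2 : r37 * z * x * z * x = r5 := by simp only [e_37_z, e_18_x, e_25_z, e_12_x]
  exact (mul_right_cancel (mul_right_cancel (mul_right_cancel (mul_right_cancel (h.trans h2.symm)))))
theorem e_54_x : r54 * x = r60 := by
  have h := rel2 r7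
  simp only [e_7_z, e_17_x, e_34_z] at h
  have h2 : r60 * z * x * z * x = r7 := by simp only [e_60_z, e_44_x, e_8_z, e_2_x]
  exact (mul_right_cancel (mul_right_cancel (mul_right_cancel (mul_right_cancel (h.trans h2.symm)))))
theorem e_53_x : r53 * x = r40 := by
  have h := rel2 r10
  simp only [e_10_z, e_23_x, e_33_z, e_16_x, e_32_z] at h
  have h2 : r40 * z * x = r10 := by simp only [e_40_z, e_20_x]
  exact (mul_right_cancel (mul_right_cancel (h.trans h2.symm)))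
theorem e_58_x : r58 * x = r21 := by
  have h := rel2 r11
  simp only [e_11_z, e_24_x, e_42_z] at h
  have h2 : r21 * z * x * z * x = r11 := by simp only [e_21_z, e_9_x, e_13_z, e_4_x]
  exact (mul_right_cancel (mul_right_cancel (mul_right_cancel (mul_right_cancel (h.trans h2.symm)))))
theorem e_60_x : r60 * x = r49 := by
  have h := rel2 r12
  simp only [e_12_z, e_25_x, e_44_z] at h
  have h2 : r49 * z * x * z * x = r12 := by simp only [e_49_z, e_28_x, e_17_z, e_7_x]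
  exact (mul_right_cancel (mul_right_cancel (mul_right_cancel (mul_right_cancel (h.trans h2.symm)))))
theorem e_40_x : r40 * x = r52 := by
  have h := rel2 r16
  simp only [e_16_z, e_33_x, e_47_z, e_27_x, e_20_z] at h
  have h2 : r52 * z * x = r16 := by simp only [e_52_z, e_30_x]
  exact (mul_right_cancel (mul_right_cancel (h.trans h2.symm)))
theorem e_38_y : r38 * y = r18 := by
  have h := rel3 r2
  simp only [e_2_z, e_8_y, e_19_x] at h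
  have h2 : r18 * x * z * x * x = r2 := by simp only [e_18_x, e_25_z, e_12_x, e_5_x]
  exact (mul_right_cancel (mul_right_cancel (mul_right_cancel (mul_right_cancel (h.trans h2.symm)))))
theorem e_20_y : r20 * y = r26 := by
  have h := rel3 r4
  simp only [e_4_z, e_13_y, e_27_x] at h
  have h2 : r26 * x * z * x * x = r4 := by simp only [e_26_x, e_3_z, e_0_x, e_1_x]
  exact (mul_right_cancel (mul_right_cancel (mul_right_cancel (mul_right_cancel (h.trans h2.symm)))))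
theorem e_42_x : r42 * x = r6 := by
  have h := rel3 r6
  simp only [e_6_z, e_1_y, e_5_x, e_2_y, e_4_x, e_11_z, e_24_x] at h
  exact h
theorem e_11_y : r11 * y = r7 := by
  have h := rel3 r8
  simp only [e_8_z, e_2_y, e_4_x] at h
  have h2 : r7 * x * z * x * x = r8 := by simp only [e_7_x, e_12_z, e_25_x, e_44_x]
  exact (mul_right_cancel (mul_right_cancel (mul_right_cancel (mul_right_cancel (h.trans h2.symm)))))
theorem e_37_x : r37 * x = r54 := by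
  have h := rel3 r9
  simp only [e_9_z, e_21_y] at h
  have h2 : r54 * y * x * z * x * x = r9 := by simp only [e_54_y, e_31_x, e_46_z, e_26_x, e_3_x]
  exact (mul_right_cancel (mul_right_cancel (mul_right_cancel (mul_right_cancel (mul_right_cancel (h.trans h2.symm))))))
theorem e_55_y : r55 * y = r33 := by
  have h := rel3 r10
  simp only [e_10_z, e_23_y, e_39_x] at h
  have h2 : r33 * x * z * x * x = r10 := by simp only [e_33_x, e_47_z, e_27_x, e_20_x]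
  exact (mul_right_cancel (mul_right_cancel (mul_right_cancel (mul_right_cancel (h.trans h2.symm)))))
theorem e_30_y : r30 * y = r42 := by
  have h := rel3 r11
  simp only [e_11_z, e_24_y, e_43_x] at h
  have h2 : r42 * x * z * x * x = r11 := by simp only [e_42_x, e_6_z, e_1_x, e_4_x]
  exact (mul_right_cancel (mul_right_cancel (mul_right_cancel (mul_right_cancel (h.trans h2.symm)))))
theorem e_46_x : r46 * x = r58 := by
  have h := rel3 r15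
  simp only [e_15_z, e_31_y, e_49_x, e_37_y] at h
  have h2 : r58 * z * x * x = r15 := by simp only [e_58_z, e_42_x, e_6_x]
  exact (mul_right_cancel (mul_right_cancel (mul_right_cancel (h.trans h2.symm))))
theorem e_58_y : r58 * y = r54 := by
  have h := rel3 r18
  simp only [e_18_z, e_37_y, e_46_x] at h
  have h2 : r54 * x * z * x * x = r18 := by simp only [e_54_x, e_60_z, e_44_x, e_8_x]
  exact (mul_right_cancel (mul_right_cancel (mul_right_cancel (mul_right_cancel (h.trans h2.symm)))))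
theorem e_10_y : r10 * y = r13 := by
  have h := rel3 r21
  simp only [e_21_z, e_9_y, e_20_x] at h
  have h2 : r13 * x * z * x * x = r21 := by simp only [e_13_x, e_26_z, e_46_x, e_58_x]
  exact (mul_right_cancel (mul_right_cancel (mul_right_cancel (mul_right_cancel (h.trans h2.symm)))))
theorem e_15_x : r15 * x = r24 := by
  have h := rel3 r24
  simp only [e_24_z, e_11_y, e_7_x, e_12_y, e_0_x, e_1_z, e_6_x] at h
  exact h
theorem e_49_y : r49 * y = r58 := by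
  have h := rel3 r26
  simp only [e_26_z, e_46_y, e_60_x] at h
  have h2 : r58 * x * z * x * x = r26 := by simp only [e_58_x, e_21_z, e_9_x, e_13_x]
  exact (mul_right_cancel (mul_right_cancel (mul_right_cancel (mul_right_cancel (h.trans h2.symm)))))
theorem e_34_x : r34 * x = r14 := by
  have h := rel3 r28
  simp only [e_28_z, e_49_y, e_58_x, e_21_y, e_37_x, e_54_z] at h
  have h2 : r14 * x = r28 := by simp only [e_14_x]
  exact (mul_right_cancel (h.trans h2.symm))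
theorem e_63_x : r63 * x = r57 := by
  have h := rel3 r32
  simp only [e_32_z, e_53_y] at h
  have h2 : r57 * y * x * z * x * x = r32 := by simp only [e_57_y, e_40_x, e_52_z, e_30_x, e_16_x]
  exact (mul_right_cancel (mul_right_cancel (mul_right_cancel (mul_right_cancel (mul_right_cancel (h.trans h2.symm))))))
theorem e_36_x : r36 * x = r19 := by
  have h := rel3 r37
  simp only [e_37_z, e_18_y] at h
  have h2 : r19 * y * x * z * x * x = r37 := by simp only [e_19_y, e_25_x, e_44_z, e_60_x, e_49_x]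
  exact (mul_right_cancel (mul_right_cancel (mul_right_cancel (mul_right_cancel (mul_right_cancel (h.trans h2.symm))))))
theorem e_41_x : r41 * x = r53 := by
  have h := rel3 r40
  simp only [e_40_z, e_20_y, e_26_x, e_3_y, e_10_x, e_22_z] at h
  have h2 : r53 * x = r40 := by simp only [e_53_x]
  exact (mul_right_cancel (h.trans h2.symm))
theorem e_21_x : r21 * x = r31 := by
  have h := rel3 r42
  simp only [e_42_z, e_58_y, e_54_x, e_60_y] at h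
  have h2 : r31 * z * x * x = r42 := by simp only [e_31_z, e_15_x, e_24_x]
  exact (mul_right_cancel (mul_right_cancel (mul_right_cancel (h.trans h2.symm))))
theorem e_48_x : r48 * x = r29 := by
  have h := rel3 r49
  simp only [e_49_z, e_28_y] at h
  have h2 : r29 * y * x * z * x * x = r49 := by simp only [e_29_y, e_17_x, e_34_z, e_54_x, e_60_x]
  exact (mul_right_cancel (mul_right_cancel (mul_right_cancel (mul_right_cancel (mul_right_cancel (h.trans h2.symm))))))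
theorem e_16_y : r16 * y = r24 := by
  have h := rel4 r1
  simp only [e_1_z, e_6_y] at h
  have h2 : r24 * z * y * x * y * x = r1 := by simp only [e_24_z, e_11_y, e_7_x, e_12_y, e_0_x]
  exact (mul_right_cancel (mul_right_cancel (mul_right_cancel (mul_right_cancel (mul_right_cancel (h.trans h2.symm))))))
theorem e_5_y : r5 * y = r11 := by
  have h := rel4 r6
  simp only [e_6_z, e_1_y] at h
  have h2 : r11 * z * y * x * y * x = r6 := by simp only [e_11_z, e_24_y, e_43_x, e_30_y, e_42_x]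
  exact (mul_right_cancel (mul_right_cancel (mul_right_cancel (mul_right_cancel (mul_right_cancel (h.trans h2.symm))))))
theorem e_11_x : r11 * x = r0 := by
  have h := rel4 r7
  simp only [e_7_z, e_17_y, e_35_y, e_14_z, e_5_y] at h
  have h2 : r0 * y * x = r7 := by simp only [e_0_y, e_2_x]
  exact (mul_right_cancel (mul_right_cancel (h.trans h2.symm)))
theorem e_22_y : r22 * y = r9 := by
  have h := rel4 r13
  simp only [e_13_z, e_4_y, e_12_y, e_0_z, e_3_y, e_10_x] at h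
  have h2 : r9 * x = r13 := by simp only [e_9_x]
  exact (mul_right_cancel (h.trans h2.symm))
theorem e_47_y : r47 * y = r61 := by
  have h := rel4 r19
  simp only [e_19_z, e_39_y] at h
  have h2 : r61 * z * y * x * y * x = r19 := by simp only [e_61_z, e_45_y, e_8_x, e_18_y, e_36_x]
  exact (mul_right_cancel (mul_right_cancel (mul_right_cancel (mul_right_cancel (mul_right_cancel (h.trans h2.symm))))))
theorem e_59_x : r59 * x = r23 := by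
  have h := rel4 r23
  simp only [e_23_z, e_10_y, e_13_y, e_27_z, e_47_y, e_61_x, e_51_y] at h
  exact h
theorem e_32_y : r32 * y = r15 := by
  have h := rel4 r24
  simp only [e_24_z, e_11_y, e_7_y, e_1_z, e_6_y, e_16_x] at h
  have h2 : r15 * x = r24 := by simp only [e_15_x]
  exact (mul_right_cancel (h.trans h2.symm))
theorem e_59_y : r59 * y = r55 := by
  have h := rel4 r29
  simp only [e_29_z, e_51_y] at h
  have h2 : r55 * z * y * x * y * x = r29 := by simp only [e_55_z, e_35_y, e_14_x, e_28_y, e_48_x]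
  exact (mul_right_cancel (mul_right_cancel (mul_right_cancel (mul_right_cancel (mul_right_cancel (h.trans h2.symm))))))
theorem e_61_y : r61 * y = r23 := by
  have h := rel4 r33
  simp only [e_33_z, e_16_y, e_24_y, e_43_z, e_59_y, e_55_x] at h
  have h2 : r23 * x = r33 := by simp only [e_23_x]
  exact (mul_right_cancel (h.trans h2.symm))
theorem e_36_y : r36 * y = r44 := by
  have h := rel4 r37
  simp only [e_37_z, e_18_y] at h
  have h2 : r44 * z * y * x * y * x = r37 := by simp only [e_44_z, e_60_y, e_21_x, e_31_y, e_49_x]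
  exact (mul_right_cancel (mul_right_cancel (mul_right_cancel (mul_right_cancel (mul_right_cancel (h.trans h2.symm))))))
theorem e_40_y : r40 * y = r56 := by
  have h := rel4 r38
  simp only [e_38_z, e_57_y] at h
  have h2 : r56 * z * y * x * y * x = r38 := by simp only [e_56_z, e_36_y, e_44_x, e_8_y, e_19_x]
  exact (mul_right_cancel (mul_right_cancel (mul_right_cancel (mul_right_cancel (mul_right_cancel (h.trans h2.symm))))))
theorem e_26_y : r26 * y = r22 := by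
  have h := rel4 r46
  simp only [e_46_z] at h
  have h2 : r22 * y * z * y * x * y * x = r46 := by simp only [e_22_y, e_9_z, e_21_y, e_37_x, e_54_y, e_31_x]
  exact (mul_right_cancel (mul_right_cancel (mul_right_cancel (mul_right_cancel (mul_right_cancel (mul_right_cancel (h.trans h2.symm)))))))
theorem e_48_y : r48 * y = r34 := by
  have h := rel4 r49
  simp only [e_49_z, e_28_y] at h
  have h2 : r34 * z * y * x * y * x = r49 := by simp only [e_34_z, e_54_y, e_31_x, e_46_y, e_60_x]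
  exact (mul_right_cancel (mul_right_cancel (mul_right_cancel (mul_right_cancel (mul_right_cancel (h.trans h2.symm))))))
theorem e_52_y : r52 * y = r62 := by
  have h := rel4 r50
  simp only [e_50_z, e_63_y] at h
  have h2 : r62 * z * y * x * y * x = r50 := by simp only [e_62_z, e_48_y, e_34_x, e_14_y, e_29_x]
  exact (mul_right_cancel (mul_right_cancel (mul_right_cancel (mul_right_cancel (mul_right_cancel (h.trans h2.symm))))))
theorem e_42_y : r42 * y = r32 := by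
  have h := rel4 r52
  simp only [e_52_z, e_30_y] at h
  have h2 : r32 * z * y * x * y * x = r52 := by simp only [e_32_z, e_53_y, e_63_x, e_57_y, e_40_x]
  exact (mul_right_cancel (mul_right_cancel (mul_right_cancel (mul_right_cancel (mul_right_cancel (h.trans h2.symm))))))
theorem e_34_y : r34 * y = r50 := by
  have h := rel4 r54
  simp only [e_54_z] at h
  have h2 : r50 * y * z * y * x * y * x = r54 := by simp only [e_50_y, e_28_z, e_49_y, e_58_x, e_21_y, e_37_x]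
  exact (mul_right_cancel (mul_right_cancel (mul_right_cancel (mul_right_cancel (mul_right_cancel (mul_right_cancel (h.trans h2.symm)))))))
theorem e_56_y : r56 * y = r41 := by
  have h := rel4 r57
  simp only [e_57_z, e_38_y, e_18_y, e_36_z] at h
  have h2 : r41 * x * y * x = r57 := by simp only [e_41_x, e_53_y, e_63_x]
  exact (mul_right_cancel (mul_right_cancel (mul_right_cancel (h.trans h2.symm))))
theorem e_44_y : r44 * y = r38 := by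
  have h := rel4 r60
  simp only [e_60_z] at h
  have h2 : r38 * y * z * y * x * y * x = r60 := by simp only [e_38_y, e_18_z, e_37_y, e_46_x, e_58_y, e_54_x]
  exact (mul_right_cancel (mul_right_cancel (mul_right_cancel (mul_right_cancel (mul_right_cancel (mul_right_cancel (h.trans h2.symm)))))))
theorem e_38_x : r38 * x = r45 := by
  have h := rel5 r22
  simp only [e_22_z, e_41_y, e_57_z] at h
  have h2 : r45 * z * y * z * x = r22 := by simp only [e_45_z, e_61_y, e_23_z, e_10_x]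
  exact (mul_right_cancel (mul_right_cancel (mul_right_cancel (mul_right_cancel (h.trans h2.symm)))))
theorem e_52_x : r52 * x = r41 := by
  have h := rel5 r31
  simp only [e_31_z, e_15_y, e_30_z] at h
  have h2 : r41 * z * y * z * x = r31 := by simp only [e_41_z, e_22_y, e_9_z, e_21_x]
  exact (mul_right_cancel (mul_right_cancel (mul_right_cancel (mul_right_cancel (h.trans h2.symm)))))
theorem e_50_x : r50 * x = r35 := by
  have h := rel5 r32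
  simp only [e_32_z, e_53_y, e_63_z] at h
  have h2 : r35 * z * y * z * x = r32 := by simp only [e_35_z, e_55_y, e_33_z, e_16_x]
  exact (mul_right_cancel (mul_right_cancel (mul_right_cancel (mul_right_cancel (h.trans h2.symm)))))
theorem e_56_x : r56 * x = r63 := by
  have h := rel5 r37
  simp only [e_37_z, e_18_y, e_36_z] at h
  have h2 : r63 * z * y * z * x = r37 := by simp only [e_63_z, e_50_y, e_28_z, e_49_x]
  exact (mul_right_cancel (mul_right_cancel (mul_right_cancel (mul_right_cancel (h.trans h2.symm)))))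
theorem e_62_x : r62 * x = r56 := by
  have h := rel5 r49
  simp only [e_49_z, e_28_y, e_48_z] at h
  have h2 : r56 * z * y * z * x = r49 := by simp only [e_56_z, e_36_y, e_44_z, e_60_x]
  exact (mul_right_cancel (mul_right_cancel (mul_right_cancel (mul_right_cancel (h.trans h2.symm)))))
theorem e_57_x : r57 * x = r62 := by
  have h := rel5 r60
  simp only [e_60_z, e_44_y, e_38_z] at h
  have h2 : r62 * z * y * z * x = r60 := by simp only [e_62_z, e_48_y, e_34_z, e_54_x]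
  exact (mul_right_cancel (mul_right_cancel (mul_right_cancel (mul_right_cancel (h.trans h2.symm)))))
theorem e_62_y : r62 * y = r53 := by
  have h := rel6 r15
  simp only [e_15_z, e_31_y, e_49_z, e_28_y, e_48_z] at h
  have h2 : r53 * z * y = r15 := by simp only [e_53_z, e_32_y]
  exact (mul_right_cancel (mul_right_cancel (h.trans h2.symm)))
theorem e_45_x : r45 * x = r36 := by
  have h := rel1 r19
  simp only [e_19_z, e_39_y, e_47_y, e_61_z] at h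
  have h2 : r36 * x = r19 := by simp only [e_36_x]
  exact (mul_right_cancel (h.trans h2.symm))
theorem e_22_x : r22 * x = r27 := by
  have h := rel1 r20
  simp only [e_20_z, e_40_y, e_56_y, e_41_z] at h
  have h2 : r27 * x = r20 := by simp only [e_27_x]
  exact (mul_right_cancel (h.trans h2.symm))
theorem e_35_x : r35 * x = r48 := by
  have h := rel1 r29
  simp only [e_29_z, e_51_y, e_59_y, e_55_z] at h
  have h2 : r48 * x = r29 := by simp only [e_48_x]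
  exact (mul_right_cancel (h.trans h2.symm))
theorem e_32_x : r32 * x = r43 := by
  have h := rel1 r30
  simp only [e_30_z, e_52_y, e_62_y, e_53_z] at h
  have h2 : r43 * x = r30 := by simp only [e_43_x]
  exact (mul_right_cancel (h.trans h2.symm))
abbrev Idx := Fin 1 × Fin 64
noncomputable def rep_c0 : Fin 64 → P
  | ⟨0, _⟩ => r0
  | ⟨1, _⟩ => r1
  | ⟨2, _⟩ => r2
  | ⟨3, _⟩ => r3
  | ⟨4, _⟩ => r4
  | ⟨5, _⟩ => r5
  | ⟨6, _⟩ => r6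
  | ⟨7, _⟩ => r7
  | ⟨8, _⟩ => r8
  | ⟨9, _⟩ => r9
  | ⟨10, _⟩ => r10
  | ⟨11, _⟩ => r11
  | ⟨12, _⟩ => r12
  | ⟨13, _⟩ => r13
  | ⟨14, _⟩ => r14
  | ⟨15, _⟩ => r15
  | ⟨16, _⟩ => r16
  | ⟨17, _⟩ => r17
  | ⟨18, _⟩ => r18
  | ⟨19, _⟩ => r19
  | ⟨20, _⟩ => r20
  | ⟨21, _⟩ => r21
  | ⟨22, _⟩ => r22
  | ⟨23, _⟩ => r23
  | ⟨24, _⟩ => r24
  | ⟨25, _⟩ => r25
  | ⟨26, _⟩ => r26
  | ⟨27, _⟩ => r27
  | ⟨28, _⟩ => r28
  | ⟨29, _⟩ => r29
  | ⟨30, _⟩ => r30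
  | ⟨31, _⟩ => r31
  | ⟨32, _⟩ => r32
  | ⟨33, _⟩ => r33
  | ⟨34, _⟩ => r34
  | ⟨35, _⟩ => r35
  | ⟨36, _⟩ => r36
  | ⟨37, _⟩ => r37
  | ⟨38, _⟩ => r38
  | ⟨39, _⟩ => r39
  | ⟨40, _⟩ => r40
  | ⟨41, _⟩ => r41
  | ⟨42, _⟩ => r42
  | ⟨43, _⟩ => r43
  | ⟨44, _⟩ => r44
  | ⟨45, _⟩ => r45
  | ⟨46, _⟩ => r46
  | ⟨47, _⟩ => r47
  | ⟨48, _⟩ => r48
  | ⟨49, _⟩ => r49
  | ⟨50, _⟩ => r50
  | ⟨51, _⟩ => r51
  | ⟨52, _⟩ => r52
  | ⟨53, _⟩ => r53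
  | ⟨54, _⟩ => r54
  | ⟨55, _⟩ => r55
  | ⟨56, _⟩ => r56
  | ⟨57, _⟩ => r57
  | ⟨58, _⟩ => r58
  | ⟨59, _⟩ => r59
  | ⟨60, _⟩ => r60
  | ⟨61, _⟩ => r61
  | ⟨62, _⟩ => r62
  | ⟨63, _⟩ => r63
  | ⟨n+64, h⟩ => absurd h (by omega)
noncomputable def rep_ch : Fin 1 → Fin 64 → P
  | ⟨0, _⟩ => rep_c0
  | ⟨n+1, h⟩ => absurd h (by omega)
noncomputable def rep (i : Idx) : P := rep_ch i.1 i.2
def nx_x_c0 : Fin 64 → Idx
  | ⟨0, _⟩ => (0, 1)
  | ⟨1, _⟩ => (0, 4)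
  | ⟨2, _⟩ => (0, 7)
  | ⟨3, _⟩ => (0, 9)
  | ⟨4, _⟩ => (0, 11)
  | ⟨5, _⟩ => (0, 2)
  | ⟨6, _⟩ => (0, 15)
  | ⟨7, _⟩ => (0, 12)
  | ⟨8, _⟩ => (0, 18)
  | ⟨9, _⟩ => (0, 13)
  | ⟨10, _⟩ => (0, 22)
  | ⟨11, _⟩ => (0, 0)
  | ⟨12, _⟩ => (0, 5)
  | ⟨13, _⟩ => (0, 26)
  | ⟨14, _⟩ => (0, 28)
  | ⟨15, _⟩ => (0, 24)
  | ⟨16, _⟩ => (0, 32)
  | ⟨17, _⟩ => (0, 34)
  | ⟨18, _⟩ => (0, 25)
  | ⟨19, _⟩ => (0, 38)
  | ⟨20, _⟩ => (0, 10)
  | ⟨21, _⟩ => (0, 31)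
  | ⟨22, _⟩ => (0, 27)
  | ⟨23, _⟩ => (0, 33)
  | ⟨24, _⟩ => (0, 42)
  | ⟨25, _⟩ => (0, 44)
  | ⟨26, _⟩ => (0, 3)
  | ⟨27, _⟩ => (0, 20)
  | ⟨28, _⟩ => (0, 17)
  | ⟨29, _⟩ => (0, 50)
  | ⟨30, _⟩ => (0, 16)
  | ⟨31, _⟩ => (0, 46)
  | ⟨32, _⟩ => (0, 43)
  | ⟨33, _⟩ => (0, 47)
  | ⟨34, _⟩ => (0, 14)
  | ⟨35, _⟩ => (0, 48)
  | ⟨36, _⟩ => (0, 19)
  | ⟨37, _⟩ => (0, 54)
  | ⟨38, _⟩ => (0, 45)
  | ⟨39, _⟩ => (0, 55)
  | ⟨40, _⟩ => (0, 52)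
  | ⟨41, _⟩ => (0, 53)
  | ⟨42, _⟩ => (0, 6)
  | ⟨43, _⟩ => (0, 30)
  | ⟨44, _⟩ => (0, 8)
  | ⟨45, _⟩ => (0, 36)
  | ⟨46, _⟩ => (0, 58)
  | ⟨47, _⟩ => (0, 59)
  | ⟨48, _⟩ => (0, 29)
  | ⟨49, _⟩ => (0, 37)
  | ⟨50, _⟩ => (0, 35)
  | ⟨51, _⟩ => (0, 39)
  | ⟨52, _⟩ => (0, 41)
  | ⟨53, _⟩ => (0, 40)
  | ⟨54, _⟩ => (0, 60)
  | ⟨55, _⟩ => (0, 61)
  | ⟨56, _⟩ => (0, 63)
  | ⟨57, _⟩ => (0, 62)
  | ⟨58, _⟩ => (0, 21)
  | ⟨59, _⟩ => (0, 23)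
  | ⟨60, _⟩ => (0, 49)
  | ⟨61, _⟩ => (0, 51)
  | ⟨62, _⟩ => (0, 56)
  | ⟨63, _⟩ => (0, 57)
  | ⟨n+64, h⟩ => absurd h (by omega)
def nx_x_ch : Fin 1 → Fin 64 → Idx
  | ⟨0, _⟩ => nx_x_c0
  | ⟨n+1, h⟩ => absurd h (by omega)
def nx_x (i : Idx) : Idx := nx_x_ch i.1 i.2
def px_x_c0 : Fin 64 → Idx
  | ⟨0, _⟩ => (0, 11)
  | ⟨1, _⟩ => (0, 0)
  | ⟨2, _⟩ => (0, 5)
  | ⟨3, _⟩ => (0, 26)
  | ⟨4, _⟩ => (0, 1)
  | ⟨5, _⟩ => (0, 12)
  | ⟨6, _⟩ => (0, 42)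
  | ⟨7, _⟩ => (0, 2)
  | ⟨8, _⟩ => (0, 44)
  | ⟨9, _⟩ => (0, 3)
  | ⟨10, _⟩ => (0, 20)
  | ⟨11, _⟩ => (0, 4)
  | ⟨12, _⟩ => (0, 7)
  | ⟨13, _⟩ => (0, 9)
  | ⟨14, _⟩ => (0, 34)
  | ⟨15, _⟩ => (0, 6)
  | ⟨16, _⟩ => (0, 30)
  | ⟨17, _⟩ => (0, 28)
  | ⟨18, _⟩ => (0, 8)
  | ⟨19, _⟩ => (0, 36)
  | ⟨20, _⟩ => (0, 27)
  | ⟨21, _⟩ => (0, 58)
  | ⟨22, _⟩ => (0, 10)
  | ⟨23, _⟩ => (0, 59)
  | ⟨24, _⟩ => (0, 15)
  | ⟨25, _⟩ => (0, 18)
  | ⟨26, _⟩ => (0, 13)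
  | ⟨27, _⟩ => (0, 22)
  | ⟨28, _⟩ => (0, 14)
  | ⟨29, _⟩ => (0, 48)
  | ⟨30, _⟩ => (0, 43)
  | ⟨31, _⟩ => (0, 21)
  | ⟨32, _⟩ => (0, 16)
  | ⟨33, _⟩ => (0, 23)
  | ⟨34, _⟩ => (0, 17)
  | ⟨35, _⟩ => (0, 50)
  | ⟨36, _⟩ => (0, 45)
  | ⟨37, _⟩ => (0, 49)
  | ⟨38, _⟩ => (0, 19)
  | ⟨39, _⟩ => (0, 51)
  | ⟨40, _⟩ => (0, 53)
  | ⟨41, _⟩ => (0, 52)
  | ⟨42, _⟩ => (0, 24)
  | ⟨43, _⟩ => (0, 32)
  | ⟨44, _⟩ => (0, 25)
  | ⟨45, _⟩ => (0, 38)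
  | ⟨46, _⟩ => (0, 31)
  | ⟨47, _⟩ => (0, 33)
  | ⟨48, _⟩ => (0, 35)
  | ⟨49, _⟩ => (0, 60)
  | ⟨50, _⟩ => (0, 29)
  | ⟨51, _⟩ => (0, 61)
  | ⟨52, _⟩ => (0, 40)
  | ⟨53, _⟩ => (0, 41)
  | ⟨54, _⟩ => (0, 37)
  | ⟨55, _⟩ => (0, 39)
  | ⟨56, _⟩ => (0, 62)
  | ⟨57, _⟩ => (0, 63)
  | ⟨58, _⟩ => (0, 46)
  | ⟨59, _⟩ => (0, 47)
  | ⟨60, _⟩ => (0, 54)
  | ⟨61, _⟩ => (0, 55)
  | ⟨62, _⟩ => (0, 57)
  | ⟨63, _⟩ => (0, 56)
  | ⟨n+64, h⟩ => absurd h (by omega)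
def px_x_ch : Fin 1 → Fin 64 → Idx
  | ⟨0, _⟩ => px_x_c0
  | ⟨n+1, h⟩ => absurd h (by omega)
def px_x (i : Idx) : Idx := px_x_ch i.1 i.2
theorem closed_x_c0 : ∀ b : Fin 64, rep_c0 b * x = rep (nx_x_c0 b)
  | ⟨0, _⟩ => e_0_x
  | ⟨1, _⟩ => e_1_x
  | ⟨2, _⟩ => e_2_x
  | ⟨3, _⟩ => e_3_x
  | ⟨4, _⟩ => e_4_x
  | ⟨5, _⟩ => e_5_x
  | ⟨6, _⟩ => e_6_x
  | ⟨7, _⟩ => e_7_x
  | ⟨8, _⟩ => e_8_x
  | ⟨9, _⟩ => e_9_x
  | ⟨10, _⟩ => e_10_x
  | ⟨11, _⟩ => e_11_x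
  | ⟨12, _⟩ => e_12_x
  | ⟨13, _⟩ => e_13_x
  | ⟨14, _⟩ => e_14_x
  | ⟨15, _⟩ => e_15_x
  | ⟨16, _⟩ => e_16_x
  | ⟨17, _⟩ => e_17_x
  | ⟨18, _⟩ => e_18_x
  | ⟨19, _⟩ => e_19_x
  | ⟨20, _⟩ => e_20_x
  | ⟨21, _⟩ => e_21_x
  | ⟨22, _⟩ => e_22_x
  | ⟨23, _⟩ => e_23_x
  | ⟨24, _⟩ => e_24_x
  | ⟨25, _⟩ => e_25_x
  | ⟨26, _⟩ => e_26_x
  | ⟨27, _⟩ => e_27_x
  | ⟨28, _⟩ => e_28_x
  | ⟨29, _⟩ => e_29_x
  | ⟨30, _⟩ => e_30_x
  | ⟨31, _⟩ => e_31_x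
  | ⟨32, _⟩ => e_32_x
  | ⟨33, _⟩ => e_33_x
  | ⟨34, _⟩ => e_34_x
  | ⟨35, _⟩ => e_35_x
  | ⟨36, _⟩ => e_36_x
  | ⟨37, _⟩ => e_37_x
  | ⟨38, _⟩ => e_38_x
  | ⟨39, _⟩ => e_39_x
  | ⟨40, _⟩ => e_40_x
  | ⟨41, _⟩ => e_41_x
  | ⟨42, _⟩ => e_42_x
  | ⟨43, _⟩ => e_43_x
  | ⟨44, _⟩ => e_44_x
  | ⟨45, _⟩ => e_45_x
  | ⟨46, _⟩ => e_46_x
  | ⟨47, _⟩ => e_47_x
  | ⟨48, _⟩ => e_48_x
  | ⟨49, _⟩ => e_49_x
  | ⟨50, _⟩ => e_50_x
  | ⟨51, _⟩ => e_51_x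
  | ⟨52, _⟩ => e_52_x
  | ⟨53, _⟩ => e_53_x
  | ⟨54, _⟩ => e_54_x
  | ⟨55, _⟩ => e_55_x
  | ⟨56, _⟩ => e_56_x
  | ⟨57, _⟩ => e_57_x
  | ⟨58, _⟩ => e_58_x
  | ⟨59, _⟩ => e_59_x
  | ⟨60, _⟩ => e_60_x
  | ⟨61, _⟩ => e_61_x
  | ⟨62, _⟩ => e_62_x
  | ⟨63, _⟩ => e_63_x
  | ⟨n+64, h⟩ => absurd h (by omega)
theorem closed_x_ch : ∀ (a : Fin 1) (b : Fin 64), rep_ch a b * x = rep (nx_x_ch a b)
  | ⟨0, _⟩ => closed_x_c0
  | ⟨n+1, h⟩ => absurd h (by omega)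
theorem closed_x (i : Idx) : rep i * x = rep (nx_x i) :=
  closed_x_ch i.1 i.2
theorem pre_x_c0 : ∀ b : Fin 64, rep (px_x_c0 b) * x = rep_c0 b
  | ⟨0, _⟩ => e_11_x
  | ⟨1, _⟩ => e_0_x
  | ⟨2, _⟩ => e_5_x
  | ⟨3, _⟩ => e_26_x
  | ⟨4, _⟩ => e_1_x
  | ⟨5, _⟩ => e_12_x
  | ⟨6, _⟩ => e_42_x
  | ⟨7, _⟩ => e_2_x
  | ⟨8, _⟩ => e_44_x
  | ⟨9, _⟩ => e_3_x
  | ⟨10, _⟩ => e_20_x
  | ⟨11, _⟩ => e_4_x
  | ⟨12, _⟩ => e_7_x
  | ⟨13, _⟩ => e_9_x
  | ⟨14, _⟩ => e_34_x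
  | ⟨15, _⟩ => e_6_x
  | ⟨16, _⟩ => e_30_x
  | ⟨17, _⟩ => e_28_x
  | ⟨18, _⟩ => e_8_x
  | ⟨19, _⟩ => e_36_x
  | ⟨20, _⟩ => e_27_x
  | ⟨21, _⟩ => e_58_x
  | ⟨22, _⟩ => e_10_x
  | ⟨23, _⟩ => e_59_x
  | ⟨24, _⟩ => e_15_x
  | ⟨25, _⟩ => e_18_x
  | ⟨26, _⟩ => e_13_x
  | ⟨27, _⟩ => e_22_x
  | ⟨28, _⟩ => e_14_x
  | ⟨29, _⟩ => e_48_x
  | ⟨30, _⟩ => e_43_x
  | ⟨31, _⟩ => e_21_x
  | ⟨32, _⟩ => e_16_x
  | ⟨33, _⟩ => e_23_x
  | ⟨34, _⟩ => e_17_x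
  | ⟨35, _⟩ => e_50_x
  | ⟨36, _⟩ => e_45_x
  | ⟨37, _⟩ => e_49_x
  | ⟨38, _⟩ => e_19_x
  | ⟨39, _⟩ => e_51_x
  | ⟨40, _⟩ => e_53_x
  | ⟨41, _⟩ => e_52_x
  | ⟨42, _⟩ => e_24_x
  | ⟨43, _⟩ => e_32_x
  | ⟨44, _⟩ => e_25_x
  | ⟨45, _⟩ => e_38_x
  | ⟨46, _⟩ => e_31_x
  | ⟨47, _⟩ => e_33_x
  | ⟨48, _⟩ => e_35_x
  | ⟨49, _⟩ => e_60_x
  | ⟨50, _⟩ => e_29_x
  | ⟨51, _⟩ => e_61_x
  | ⟨52, _⟩ => e_40_x
  | ⟨53, _⟩ => e_41_x
  | ⟨54, _⟩ => e_37_x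
  | ⟨55, _⟩ => e_39_x
  | ⟨56, _⟩ => e_62_x
  | ⟨57, _⟩ => e_63_x
  | ⟨58, _⟩ => e_46_x
  | ⟨59, _⟩ => e_47_x
  | ⟨60, _⟩ => e_54_x
  | ⟨61, _⟩ => e_55_x
  | ⟨62, _⟩ => e_57_x
  | ⟨63, _⟩ => e_56_x
  | ⟨n+64, h⟩ => absurd h (by omega)
theorem pre_x_ch : ∀ (a : Fin 1) (b : Fin 64), rep (px_x_ch a b) * x = rep_ch a b
  | ⟨0, _⟩ => pre_x_c0
  | ⟨n+1, h⟩ => absurd h (by omega)
theorem pre_x (i : Idx) : rep (px_x i) * x = rep i :=
  pre_x_ch i.1 i.2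
def nx_y_c0 : Fin 64 → Idx
  | ⟨0, _⟩ => (0, 2)
  | ⟨1, _⟩ => (0, 5)
  | ⟨2, _⟩ => (0, 4)
  | ⟨3, _⟩ => (0, 10)
  | ⟨4, _⟩ => (0, 12)
  | ⟨5, _⟩ => (0, 11)
  | ⟨6, _⟩ => (0, 16)
  | ⟨7, _⟩ => (0, 1)
  | ⟨8, _⟩ => (0, 19)
  | ⟨9, _⟩ => (0, 20)
  | ⟨10, _⟩ => (0, 13)
  | ⟨11, _⟩ => (0, 7)
  | ⟨12, _⟩ => (0, 0)
  | ⟨13, _⟩ => (0, 27)
  | ⟨14, _⟩ => (0, 29)
  | ⟨15, _⟩ => (0, 30)
  | ⟨16, _⟩ => (0, 24)
  | ⟨17, _⟩ => (0, 35)
  | ⟨18, _⟩ => (0, 36)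
  | ⟨19, _⟩ => (0, 25)
  | ⟨20, _⟩ => (0, 26)
  | ⟨21, _⟩ => (0, 37)
  | ⟨22, _⟩ => (0, 9)
  | ⟨23, _⟩ => (0, 39)
  | ⟨24, _⟩ => (0, 43)
  | ⟨25, _⟩ => (0, 45)
  | ⟨26, _⟩ => (0, 22)
  | ⟨27, _⟩ => (0, 3)
  | ⟨28, _⟩ => (0, 48)
  | ⟨29, _⟩ => (0, 17)
  | ⟨30, _⟩ => (0, 42)
  | ⟨31, _⟩ => (0, 49)
  | ⟨32, _⟩ => (0, 15)
  | ⟨33, _⟩ => (0, 51)
  | ⟨34, _⟩ => (0, 50)
  | ⟨35, _⟩ => (0, 14)
  | ⟨36, _⟩ => (0, 44)
  | ⟨37, _⟩ => (0, 46)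
  | ⟨38, _⟩ => (0, 18)
  | ⟨39, _⟩ => (0, 47)
  | ⟨40, _⟩ => (0, 56)
  | ⟨41, _⟩ => (0, 57)
  | ⟨42, _⟩ => (0, 32)
  | ⟨43, _⟩ => (0, 6)
  | ⟨44, _⟩ => (0, 38)
  | ⟨45, _⟩ => (0, 8)
  | ⟨46, _⟩ => (0, 60)
  | ⟨47, _⟩ => (0, 61)
  | ⟨48, _⟩ => (0, 34)
  | ⟨49, _⟩ => (0, 58)
  | ⟨50, _⟩ => (0, 28)
  | ⟨51, _⟩ => (0, 59)
  | ⟨52, _⟩ => (0, 62)
  | ⟨53, _⟩ => (0, 63)
  | ⟨54, _⟩ => (0, 31)
  | ⟨55, _⟩ => (0, 33)
  | ⟨56, _⟩ => (0, 41)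
  | ⟨57, _⟩ => (0, 40)
  | ⟨58, _⟩ => (0, 54)
  | ⟨59, _⟩ => (0, 55)
  | ⟨60, _⟩ => (0, 21)
  | ⟨61, _⟩ => (0, 23)
  | ⟨62, _⟩ => (0, 53)
  | ⟨63, _⟩ => (0, 52)
  | ⟨n+64, h⟩ => absurd h (by omega)
def nx_y_ch : Fin 1 → Fin 64 → Idx
  | ⟨0, _⟩ => nx_y_c0
  | ⟨n+1, h⟩ => absurd h (by omega)
def nx_y (i : Idx) : Idx := nx_y_ch i.1 i.2
def px_y_c0 : Fin 64 → Idx
  | ⟨0, _⟩ => (0, 12)
  | ⟨1, _⟩ => (0, 7)
  | ⟨2, _⟩ => (0, 0)
  | ⟨3, _⟩ => (0, 27)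
  | ⟨4, _⟩ => (0, 2)
  | ⟨5, _⟩ => (0, 1)
  | ⟨6, _⟩ => (0, 43)
  | ⟨7, _⟩ => (0, 11)
  | ⟨8, _⟩ => (0, 45)
  | ⟨9, _⟩ => (0, 22)
  | ⟨10, _⟩ => (0, 3)
  | ⟨11, _⟩ => (0, 5)
  | ⟨12, _⟩ => (0, 4)
  | ⟨13, _⟩ => (0, 10)
  | ⟨14, _⟩ => (0, 35)
  | ⟨15, _⟩ => (0, 32)
  | ⟨16, _⟩ => (0, 6)
  | ⟨17, _⟩ => (0, 29)
  | ⟨18, _⟩ => (0, 38)
  | ⟨19, _⟩ => (0, 8)
  | ⟨20, _⟩ => (0, 9)
  | ⟨21, _⟩ => (0, 60)
  | ⟨22, _⟩ => (0, 26)
  | ⟨23, _⟩ => (0, 61)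
  | ⟨24, _⟩ => (0, 16)
  | ⟨25, _⟩ => (0, 19)
  | ⟨26, _⟩ => (0, 20)
  | ⟨27, _⟩ => (0, 13)
  | ⟨28, _⟩ => (0, 50)
  | ⟨29, _⟩ => (0, 14)
  | ⟨30, _⟩ => (0, 15)
  | ⟨31, _⟩ => (0, 54)
  | ⟨32, _⟩ => (0, 42)
  | ⟨33, _⟩ => (0, 55)
  | ⟨34, _⟩ => (0, 48)
  | ⟨35, _⟩ => (0, 17)
  | ⟨36, _⟩ => (0, 18)
  | ⟨37, _⟩ => (0, 21)
  | ⟨38, _⟩ => (0, 44)
  | ⟨39, _⟩ => (0, 23)
  | ⟨40, _⟩ => (0, 57)
  | ⟨41, _⟩ => (0, 56)
  | ⟨42, _⟩ => (0, 30)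
  | ⟨43, _⟩ => (0, 24)
  | ⟨44, _⟩ => (0, 36)
  | ⟨45, _⟩ => (0, 25)
  | ⟨46, _⟩ => (0, 37)
  | ⟨47, _⟩ => (0, 39)
  | ⟨48, _⟩ => (0, 28)
  | ⟨49, _⟩ => (0, 31)
  | ⟨50, _⟩ => (0, 34)
  | ⟨51, _⟩ => (0, 33)
  | ⟨52, _⟩ => (0, 63)
  | ⟨53, _⟩ => (0, 62)
  | ⟨54, _⟩ => (0, 58)
  | ⟨55, _⟩ => (0, 59)
  | ⟨56, _⟩ => (0, 40)
  | ⟨57, _⟩ => (0, 41)
  | ⟨58, _⟩ => (0, 49)
  | ⟨59, _⟩ => (0, 51)
  | ⟨60, _⟩ => (0, 46)
  | ⟨61, _⟩ => (0, 47)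
  | ⟨62, _⟩ => (0, 52)
  | ⟨63, _⟩ => (0, 53)
  | ⟨n+64, h⟩ => absurd h (by omega)
def px_y_ch : Fin 1 → Fin 64 → Idx
  | ⟨0, _⟩ => px_y_c0
  | ⟨n+1, h⟩ => absurd h (by omega)
def px_y (i : Idx) : Idx := px_y_ch i.1 i.2
theorem closed_y_c0 : ∀ b : Fin 64, rep_c0 b * y = rep (nx_y_c0 b)
  | ⟨0, _⟩ => e_0_y
  | ⟨1, _⟩ => e_1_y
  | ⟨2, _⟩ => e_2_y
  | ⟨3, _⟩ => e_3_y
  | ⟨4, _⟩ => e_4_y
  | ⟨5, _⟩ => e_5_y
  | ⟨6, _⟩ => e_6_y
  | ⟨7, _⟩ => e_7_y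
  | ⟨8, _⟩ => e_8_y
  | ⟨9, _⟩ => e_9_y
  | ⟨10, _⟩ => e_10_y
  | ⟨11, _⟩ => e_11_y
  | ⟨12, _⟩ => e_12_y
  | ⟨13, _⟩ => e_13_y
  | ⟨14, _⟩ => e_14_y
  | ⟨15, _⟩ => e_15_y
  | ⟨16, _⟩ => e_16_y
  | ⟨17, _⟩ => e_17_y
  | ⟨18, _⟩ => e_18_y
  | ⟨19, _⟩ => e_19_y
  | ⟨20, _⟩ => e_20_y
  | ⟨21, _⟩ => e_21_y
  | ⟨22, _⟩ => e_22_y
  | ⟨23, _⟩ => e_23_y
  | ⟨24, _⟩ => e_24_y
  | ⟨25, _⟩ => e_25_y
  | ⟨26, _⟩ => e_26_y
  | ⟨27, _⟩ => e_27_y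
  | ⟨28, _⟩ => e_28_y
  | ⟨29, _⟩ => e_29_y
  | ⟨30, _⟩ => e_30_y
  | ⟨31, _⟩ => e_31_y
  | ⟨32, _⟩ => e_32_y
  | ⟨33, _⟩ => e_33_y
  | ⟨34, _⟩ => e_34_y
  | ⟨35, _⟩ => e_35_y
  | ⟨36, _⟩ => e_36_y
  | ⟨37, _⟩ => e_37_y
  | ⟨38, _⟩ => e_38_y
  | ⟨39, _⟩ => e_39_y
  | ⟨40, _⟩ => e_40_y
  | ⟨41, _⟩ => e_41_y
  | ⟨42, _⟩ => e_42_y
  | ⟨43, _⟩ => e_43_y
  | ⟨44, _⟩ => e_44_y
  | ⟨45, _⟩ => e_45_y
  | ⟨46, _⟩ => e_46_y
  | ⟨47, _⟩ => e_47_y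
  | ⟨48, _⟩ => e_48_y
  | ⟨49, _⟩ => e_49_y
  | ⟨50, _⟩ => e_50_y
  | ⟨51, _⟩ => e_51_y
  | ⟨52, _⟩ => e_52_y
  | ⟨53, _⟩ => e_53_y
  | ⟨54, _⟩ => e_54_y
  | ⟨55, _⟩ => e_55_y
  | ⟨56, _⟩ => e_56_y
  | ⟨57, _⟩ => e_57_y
  | ⟨58, _⟩ => e_58_y
  | ⟨59, _⟩ => e_59_y
  | ⟨60, _⟩ => e_60_y
  | ⟨61, _⟩ => e_61_y
  | ⟨62, _⟩ => e_62_y
  | ⟨63, _⟩ => e_63_y
  | ⟨n+64, h⟩ => absurd h (by omega)
theorem closed_y_ch : ∀ (a : Fin 1) (b : Fin 64), rep_ch a b * y = rep (nx_y_ch a b)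
  | ⟨0, _⟩ => closed_y_c0
  | ⟨n+1, h⟩ => absurd h (by omega)
theorem closed_y (i : Idx) : rep i * y = rep (nx_y i) :=
  closed_y_ch i.1 i.2
theorem pre_y_c0 : ∀ b : Fin 64, rep (px_y_c0 b) * y = rep_c0 b
  | ⟨0, _⟩ => e_12_y
  | ⟨1, _⟩ => e_7_y
  | ⟨2, _⟩ => e_0_y
  | ⟨3, _⟩ => e_27_y
  | ⟨4, _⟩ => e_2_y
  | ⟨5, _⟩ => e_1_y
  | ⟨6, _⟩ => e_43_y
  | ⟨7, _⟩ => e_11_y
  | ⟨8, _⟩ => e_45_y
  | ⟨9, _⟩ => e_22_y
  | ⟨10, _⟩ => e_3_y
  | ⟨11, _⟩ => e_5_y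
  | ⟨12, _⟩ => e_4_y
  | ⟨13, _⟩ => e_10_y
  | ⟨14, _⟩ => e_35_y
  | ⟨15, _⟩ => e_32_y
  | ⟨16, _⟩ => e_6_y
  | ⟨17, _⟩ => e_29_y
  | ⟨18, _⟩ => e_38_y
  | ⟨19, _⟩ => e_8_y
  | ⟨20, _⟩ => e_9_y
  | ⟨21, _⟩ => e_60_y
  | ⟨22, _⟩ => e_26_y
  | ⟨23, _⟩ => e_61_y
  | ⟨24, _⟩ => e_16_y
  | ⟨25, _⟩ => e_19_y
  | ⟨26, _⟩ => e_20_y
  | ⟨27, _⟩ => e_13_y
  | ⟨28, _⟩ => e_50_y
  | ⟨29, _⟩ => e_14_y
  | ⟨30, _⟩ => e_15_y
  | ⟨31, _⟩ => e_54_y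
  | ⟨32, _⟩ => e_42_y
  | ⟨33, _⟩ => e_55_y
  | ⟨34, _⟩ => e_48_y
  | ⟨35, _⟩ => e_17_y
  | ⟨36, _⟩ => e_18_y
  | ⟨37, _⟩ => e_21_y
  | ⟨38, _⟩ => e_44_y
  | ⟨39, _⟩ => e_23_y
  | ⟨40, _⟩ => e_57_y
  | ⟨41, _⟩ => e_56_y
  | ⟨42, _⟩ => e_30_y
  | ⟨43, _⟩ => e_24_y
  | ⟨44, _⟩ => e_36_y
  | ⟨45, _⟩ => e_25_y
  | ⟨46, _⟩ => e_37_y
  | ⟨47, _⟩ => e_39_y
  | ⟨48, _⟩ => e_28_y
  | ⟨49, _⟩ => e_31_y
  | ⟨50, _⟩ => e_34_y
  | ⟨51, _⟩ => e_33_y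
  | ⟨52, _⟩ => e_63_y
  | ⟨53, _⟩ => e_62_y
  | ⟨54, _⟩ => e_58_y
  | ⟨55, _⟩ => e_59_y
  | ⟨56, _⟩ => e_40_y
  | ⟨57, _⟩ => e_41_y
  | ⟨58, _⟩ => e_49_y
  | ⟨59, _⟩ => e_51_y
  | ⟨60, _⟩ => e_46_y
  | ⟨61, _⟩ => e_47_y
  | ⟨62, _⟩ => e_52_y
  | ⟨63, _⟩ => e_53_y
  | ⟨n+64, h⟩ => absurd h (by omega)
theorem pre_y_ch : ∀ (a : Fin 1) (b : Fin 64), rep (px_y_ch a b) * y = rep_ch a b
  | ⟨0, _⟩ => pre_y_c0
  | ⟨n+1, h⟩ => absurd h (by omega)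
theorem pre_y (i : Idx) : rep (px_y i) * y = rep i :=
  pre_y_ch i.1 i.2
def nx_z_c0 : Fin 64 → Idx
  | ⟨0, _⟩ => (0, 3)
  | ⟨1, _⟩ => (0, 6)
  | ⟨2, _⟩ => (0, 8)
  | ⟨3, _⟩ => (0, 0)
  | ⟨4, _⟩ => (0, 13)
  | ⟨5, _⟩ => (0, 14)
  | ⟨6, _⟩ => (0, 1)
  | ⟨7, _⟩ => (0, 17)
  | ⟨8, _⟩ => (0, 2)
  | ⟨9, _⟩ => (0, 21)
  | ⟨10, _⟩ => (0, 23)
  | ⟨11, _⟩ => (0, 24)
  | ⟨12, _⟩ => (0, 25)
  | ⟨13, _⟩ => (0, 4)
  | ⟨14, _⟩ => (0, 5)
  | ⟨15, _⟩ => (0, 31)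
  | ⟨16, _⟩ => (0, 33)
  | ⟨17, _⟩ => (0, 7)
  | ⟨18, _⟩ => (0, 37)
  | ⟨19, _⟩ => (0, 39)
  | ⟨20, _⟩ => (0, 40)
  | ⟨21, _⟩ => (0, 9)
  | ⟨22, _⟩ => (0, 41)
  | ⟨23, _⟩ => (0, 10)
  | ⟨24, _⟩ => (0, 11)
  | ⟨25, _⟩ => (0, 12)
  | ⟨26, _⟩ => (0, 46)
  | ⟨27, _⟩ => (0, 47)
  | ⟨28, _⟩ => (0, 49)
  | ⟨29, _⟩ => (0, 51)
  | ⟨30, _⟩ => (0, 52)
  | ⟨31, _⟩ => (0, 15)
  | ⟨32, _⟩ => (0, 53)
  | ⟨33, _⟩ => (0, 16)
  | ⟨34, _⟩ => (0, 54)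
  | ⟨35, _⟩ => (0, 55)
  | ⟨36, _⟩ => (0, 56)
  | ⟨37, _⟩ => (0, 18)
  | ⟨38, _⟩ => (0, 57)
  | ⟨39, _⟩ => (0, 19)
  | ⟨40, _⟩ => (0, 20)
  | ⟨41, _⟩ => (0, 22)
  | ⟨42, _⟩ => (0, 58)
  | ⟨43, _⟩ => (0, 59)
  | ⟨44, _⟩ => (0, 60)
  | ⟨45, _⟩ => (0, 61)
  | ⟨46, _⟩ => (0, 26)
  | ⟨47, _⟩ => (0, 27)
  | ⟨48, _⟩ => (0, 62)
  | ⟨49, _⟩ => (0, 28)
  | ⟨50, _⟩ => (0, 63)
  | ⟨51, _⟩ => (0, 29)
  | ⟨52, _⟩ => (0, 30)
  | ⟨53, _⟩ => (0, 32)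
  | ⟨54, _⟩ => (0, 34)
  | ⟨55, _⟩ => (0, 35)
  | ⟨56, _⟩ => (0, 36)
  | ⟨57, _⟩ => (0, 38)
  | ⟨58, _⟩ => (0, 42)
  | ⟨59, _⟩ => (0, 43)
  | ⟨60, _⟩ => (0, 44)
  | ⟨61, _⟩ => (0, 45)
  | ⟨62, _⟩ => (0, 48)
  | ⟨63, _⟩ => (0, 50)
  | ⟨n+64, h⟩ => absurd h (by omega)
def nx_z_ch : Fin 1 → Fin 64 → Idx
  | ⟨0, _⟩ => nx_z_c0
  | ⟨n+1, h⟩ => absurd h (by omega)
def nx_z (i : Idx) : Idx := nx_z_ch i.1 i.2
def px_z_c0 : Fin 64 → Idx
  | ⟨0, _⟩ => (0, 3)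
  | ⟨1, _⟩ => (0, 6)
  | ⟨2, _⟩ => (0, 8)
  | ⟨3, _⟩ => (0, 0)
  | ⟨4, _⟩ => (0, 13)
  | ⟨5, _⟩ => (0, 14)
  | ⟨6, _⟩ => (0, 1)
  | ⟨7, _⟩ => (0, 17)
  | ⟨8, _⟩ => (0, 2)
  | ⟨9, _⟩ => (0, 21)
  | ⟨10, _⟩ => (0, 23)
  | ⟨11, _⟩ => (0, 24)
  | ⟨12, _⟩ => (0, 25)
  | ⟨13, _⟩ => (0, 4)
  | ⟨14, _⟩ => (0, 5)
  | ⟨15, _⟩ => (0, 31)
  | ⟨16, _⟩ => (0, 33)
  | ⟨17, _⟩ => (0, 7)
  | ⟨18, _⟩ => (0, 37)
  | ⟨19, _⟩ => (0, 39)
  | ⟨20, _⟩ => (0, 40)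
  | ⟨21, _⟩ => (0, 9)
  | ⟨22, _⟩ => (0, 41)
  | ⟨23, _⟩ => (0, 10)
  | ⟨24, _⟩ => (0, 11)
  | ⟨25, _⟩ => (0, 12)
  | ⟨26, _⟩ => (0, 46)
  | ⟨27, _⟩ => (0, 47)
  | ⟨28, _⟩ => (0, 49)
  | ⟨29, _⟩ => (0, 51)
  | ⟨30, _⟩ => (0, 52)
  | ⟨31, _⟩ => (0, 15)
  | ⟨32, _⟩ => (0, 53)
  | ⟨33, _⟩ => (0, 16)
  | ⟨34, _⟩ => (0, 54)
  | ⟨35, _⟩ => (0, 55)
  | ⟨36, _⟩ => (0, 56)
  | ⟨37, _⟩ => (0, 18)
  | ⟨38, _⟩ => (0, 57)
  | ⟨39, _⟩ => (0, 19)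
  | ⟨40, _⟩ => (0, 20)
  | ⟨41, _⟩ => (0, 22)
  | ⟨42, _⟩ => (0, 58)
  | ⟨43, _⟩ => (0, 59)
  | ⟨44, _⟩ => (0, 60)
  | ⟨45, _⟩ => (0, 61)
  | ⟨46, _⟩ => (0, 26)
  | ⟨47, _⟩ => (0, 27)
  | ⟨48, _⟩ => (0, 62)
  | ⟨49, _⟩ => (0, 28)
  | ⟨50, _⟩ => (0, 63)
  | ⟨51, _⟩ => (0, 29)
  | ⟨52, _⟩ => (0, 30)
  | ⟨53, _⟩ => (0, 32)
  | ⟨54, _⟩ => (0, 34)
  | ⟨55, _⟩ => (0, 35)
  | ⟨56, _⟩ => (0, 36)
  | ⟨57, _⟩ => (0, 38)
  | ⟨58, _⟩ => (0, 42)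
  | ⟨59, _⟩ => (0, 43)
  | ⟨60, _⟩ => (0, 44)
  | ⟨61, _⟩ => (0, 45)
  | ⟨62, _⟩ => (0, 48)
  | ⟨63, _⟩ => (0, 50)
  | ⟨n+64, h⟩ => absurd h (by omega)
def px_z_ch : Fin 1 → Fin 64 → Idx
  | ⟨0, _⟩ => px_z_c0
  | ⟨n+1, h⟩ => absurd h (by omega)
def px_z (i : Idx) : Idx := px_z_ch i.1 i.2
theorem closed_z_c0 : ∀ b : Fin 64, rep_c0 b * z = rep (nx_z_c0 b)
  | ⟨0, _⟩ => e_0_z
  | ⟨1, _⟩ => e_1_z
  | ⟨2, _⟩ => e_2_z
  | ⟨3, _⟩ => e_3_z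
  | ⟨4, _⟩ => e_4_z
  | ⟨5, _⟩ => e_5_z
  | ⟨6, _⟩ => e_6_z
  | ⟨7, _⟩ => e_7_z
  | ⟨8, _⟩ => e_8_z
  | ⟨9, _⟩ => e_9_z
  | ⟨10, _⟩ => e_10_z
  | ⟨11, _⟩ => e_11_z
  | ⟨12, _⟩ => e_12_z
  | ⟨13, _⟩ => e_13_z
  | ⟨14, _⟩ => e_14_z
  | ⟨15, _⟩ => e_15_z
  | ⟨16, _⟩ => e_16_z
  | ⟨17, _⟩ => e_17_z
  | ⟨18, _⟩ => e_18_z
  | ⟨19, _⟩ => e_19_z
  | ⟨20, _⟩ => e_20_z
  | ⟨21, _⟩ => e_21_z
  | ⟨22, _⟩ => e_22_z
  | ⟨23, _⟩ => e_23_z
  | ⟨24, _⟩ => e_24_z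
  | ⟨25, _⟩ => e_25_z
  | ⟨26, _⟩ => e_26_z
  | ⟨27, _⟩ => e_27_z
  | ⟨28, _⟩ => e_28_z
  | ⟨29, _⟩ => e_29_z
  | ⟨30, _⟩ => e_30_z
  | ⟨31, _⟩ => e_31_z
  | ⟨32, _⟩ => e_32_z
  | ⟨33, _⟩ => e_33_z
  | ⟨34, _⟩ => e_34_z
  | ⟨35, _⟩ => e_35_z
  | ⟨36, _⟩ => e_36_z
  | ⟨37, _⟩ => e_37_z
  | ⟨38, _⟩ => e_38_z
  | ⟨39, _⟩ => e_39_z
  | ⟨40, _⟩ => e_40_z
  | ⟨41, _⟩ => e_41_z
  | ⟨42, _⟩ => e_42_z
  | ⟨43, _⟩ => e_43_z
  | ⟨44, _⟩ => e_44_z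
  | ⟨45, _⟩ => e_45_z
  | ⟨46, _⟩ => e_46_z
  | ⟨47, _⟩ => e_47_z
  | ⟨48, _⟩ => e_48_z
  | ⟨49, _⟩ => e_49_z
  | ⟨50, _⟩ => e_50_z
  | ⟨51, _⟩ => e_51_z
  | ⟨52, _⟩ => e_52_z
  | ⟨53, _⟩ => e_53_z
  | ⟨54, _⟩ => e_54_z
  | ⟨55, _⟩ => e_55_z
  | ⟨56, _⟩ => e_56_z
  | ⟨57, _⟩ => e_57_z
  | ⟨58, _⟩ => e_58_z
  | ⟨59, _⟩ => e_59_z
  | ⟨60, _⟩ => e_60_z
  | ⟨61, _⟩ => e_61_z
  | ⟨62, _⟩ => e_62_z
  | ⟨63, _⟩ => e_63_z
  | ⟨n+64, h⟩ => absurd h (by omega)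
theorem closed_z_ch : ∀ (a : Fin 1) (b : Fin 64), rep_ch a b * z = rep (nx_z_ch a b)
  | ⟨0, _⟩ => closed_z_c0
  | ⟨n+1, h⟩ => absurd h (by omega)
theorem closed_z (i : Idx) : rep i * z = rep (nx_z i) :=
  closed_z_ch i.1 i.2
theorem pre_z_c0 : ∀ b : Fin 64, rep (px_z_c0 b) * z = rep_c0 b
  | ⟨0, _⟩ => e_3_z
  | ⟨1, _⟩ => e_6_z
  | ⟨2, _⟩ => e_8_z
  | ⟨3, _⟩ => e_0_z
  | ⟨4, _⟩ => e_13_z
  | ⟨5, _⟩ => e_14_z
  | ⟨6, _⟩ => e_1_z
  | ⟨7, _⟩ => e_17_z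
  | ⟨8, _⟩ => e_2_z
  | ⟨9, _⟩ => e_21_z
  | ⟨10, _⟩ => e_23_z
  | ⟨11, _⟩ => e_24_z
  | ⟨12, _⟩ => e_25_z
  | ⟨13, _⟩ => e_4_z
  | ⟨14, _⟩ => e_5_z
  | ⟨15, _⟩ => e_31_z
  | ⟨16, _⟩ => e_33_z
  | ⟨17, _⟩ => e_7_z
  | ⟨18, _⟩ => e_37_z
  | ⟨19, _⟩ => e_39_z
  | ⟨20, _⟩ => e_40_z
  | ⟨21, _⟩ => e_9_z
  | ⟨22, _⟩ => e_41_z
  | ⟨23, _⟩ => e_10_z
  | ⟨24, _⟩ => e_11_z
  | ⟨25, _⟩ => e_12_z
  | ⟨26, _⟩ => e_46_z
  | ⟨27, _⟩ => e_47_z
  | ⟨28, _⟩ => e_49_z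
  | ⟨29, _⟩ => e_51_z
  | ⟨30, _⟩ => e_52_z
  | ⟨31, _⟩ => e_15_z
  | ⟨32, _⟩ => e_53_z
  | ⟨33, _⟩ => e_16_z
  | ⟨34, _⟩ => e_54_z
  | ⟨35, _⟩ => e_55_z
  | ⟨36, _⟩ => e_56_z
  | ⟨37, _⟩ => e_18_z
  | ⟨38, _⟩ => e_57_z
  | ⟨39, _⟩ => e_19_z
  | ⟨40, _⟩ => e_20_z
  | ⟨41, _⟩ => e_22_z
  | ⟨42, _⟩ => e_58_z
  | ⟨43, _⟩ => e_59_z
  | ⟨44, _⟩ => e_60_z
  | ⟨45, _⟩ => e_61_z
  | ⟨46, _⟩ => e_26_z
  | ⟨47, _⟩ => e_27_z
  | ⟨48, _⟩ => e_62_z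
  | ⟨49, _⟩ => e_28_z
  | ⟨50, _⟩ => e_63_z
  | ⟨51, _⟩ => e_29_z
  | ⟨52, _⟩ => e_30_z
  | ⟨53, _⟩ => e_32_z
  | ⟨54, _⟩ => e_34_z
  | ⟨55, _⟩ => e_35_z
  | ⟨56, _⟩ => e_36_z
  | ⟨57, _⟩ => e_38_z
  | ⟨58, _⟩ => e_42_z
  | ⟨59, _⟩ => e_43_z
  | ⟨60, _⟩ => e_44_z
  | ⟨61, _⟩ => e_45_z
  | ⟨62, _⟩ => e_48_z
  | ⟨63, _⟩ => e_50_z
  | ⟨n+64, h⟩ => absurd h (by omega)
theorem pre_z_ch : ∀ (a : Fin 1) (b : Fin 64), rep (px_z_ch a b) * z = rep_ch a b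
  | ⟨0, _⟩ => pre_z_c0
  | ⟨n+1, h⟩ => absurd h (by omega)
theorem pre_z (i : Idx) : rep (px_z i) * z = rep i :=
  pre_z_ch i.1 i.2

theorem rep_surj : Function.Surjective rep := by
  let H : Subgroup P :=
    { carrier := {p | ∀ s : P, s ∈ Set.range rep ↔ s * p ∈ Set.range rep}
      mul_mem' := by
        intro a b ha hb s
        rw [ha s, hb (s * a), mul_assoc]
      one_mem' := by intro s; rw [mul_one]
      inv_mem' := by
        intro a ha s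
        rw [ha (s * a⁻¹), inv_mul_cancel_right] }
  have hgen : ∀ j : Fin 3, (PresentedGroup.of j : P) ∈ H := by
    intro j
    fin_cases j
    · intro s
      constructor
      · rintro ⟨i, rfl⟩
        exact ⟨nx_x i, (closed_x i).symm⟩
      · rintro ⟨i, hi⟩
        refine ⟨px_x i, ?_⟩
        have := pre_x i
        rw [hi] at this
        exact mul_right_cancel this
    · intro s
      constructor
      · rintro ⟨i, rfl⟩
        exact ⟨nx_y i, (closed_y i).symm⟩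
      · rintro ⟨i, hi⟩
        refine ⟨px_y i, ?_⟩
        have := pre_y i
        rw [hi] at this
        exact mul_right_cancel this
    · intro s
      constructor
      · rintro ⟨i, rfl⟩
        exact ⟨nx_z i, (closed_z i).symm⟩
      · rintro ⟨i, hi⟩
        refine ⟨px_z i, ?_⟩
        have := pre_z i
        rw [hi] at this
        exact mul_right_cancel this
  intro p
  have hp : p ∈ H := PresentedGroup.generated_by rels H hgen p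
  have h1 : (1 : P) * p ∈ Set.range rep := (hp 1).mp ⟨(0, 0), rfl⟩
  rw [one_mul] at h1
  exact h1

abbrev sw (a b : Fin 8) : Equiv.Perm (Fin 8) := Equiv.swap a b
def gX : Equiv.Perm (Fin 8) := sw 0 6 * sw 6 1 * sw 1 7 * sw 2 5 * sw 5 3 * sw 3 4
def gY : Equiv.Perm (Fin 8) := sw 0 4 * sw 4 1 * sw 1 5 * sw 2 6 * sw 6 3 * sw 3 7
def gZ : Equiv.Perm (Fin 8) := sw 0 2 * sw 1 3
set_option maxRecDepth 100000 in
theorem lift_rel8 : ∀ r ∈ rels, FreeGroup.lift ![gX, gY, gZ] r = 1 := by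
  intro r hr
  simp only [rels, Set.mem_insert_iff, Set.mem_singleton_iff] at hr
  rcases hr with rfl | rfl | rfl | rfl | rfl | rfl | rfl
  all_goals
    simp only [map_mul, FreeGroup.lift_apply_of]
    decide
noncomputable def ψ0 : P →* Equiv.Perm (Fin 8) := PresentedGroup.toGroup lift_rel8
theorem ψ0_x : ψ0 x = gX := by simp [ψ0, x]
theorem ψ0_y : ψ0 y = gY := by simp [ψ0, y]
theorem ψ0_z : ψ0 z = gZ := by simp [ψ0, z]
def m8_0 : Equiv.Perm (Fin 8) := 1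
def m8_1 : Equiv.Perm (Fin 8) := sw 0 6 * sw 6 1 * sw 1 7 * sw 2 5 * sw 5 3 * sw 3 4
def m8_2 : Equiv.Perm (Fin 8) := sw 0 4 * sw 4 1 * sw 1 5 * sw 2 6 * sw 6 3 * sw 3 7
def m8_3 : Equiv.Perm (Fin 8) := sw 0 2 * sw 1 3
def m8_4 : Equiv.Perm (Fin 8) := sw 0 1 * sw 2 3 * sw 4 5 * sw 6 7
def m8_5 : Equiv.Perm (Fin 8) := sw 0 2 * sw 2 1 * sw 1 3 * sw 4 7 * sw 7 5 * sw 5 6
def m8_6 : Equiv.Perm (Fin 8) := sw 0 5 * sw 5 3 * sw 3 7 * sw 1 4 * sw 4 2 * sw 2 6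
def m8_7 : Equiv.Perm (Fin 8) := sw 0 3 * sw 3 1 * sw 1 2 * sw 4 6 * sw 6 5 * sw 5 7
def m8_8 : Equiv.Perm (Fin 8) := sw 0 6 * sw 6 3 * sw 3 5 * sw 1 7 * sw 7 2 * sw 2 4
def m8_9 : Equiv.Perm (Fin 8) := sw 0 6 * sw 6 3 * sw 3 4 * sw 1 7 * sw 7 2 * sw 2 5
def m8_10 : Equiv.Perm (Fin 8) := sw 0 4 * sw 4 3 * sw 3 7 * sw 1 5 * sw 5 2 * sw 2 6
def m8_11 : Equiv.Perm (Fin 8) := sw 0 7 * sw 7 1 * sw 1 6 * sw 2 4 * sw 4 3 * sw 3 5
def m8_12 : Equiv.Perm (Fin 8) := sw 0 5 * sw 5 1 * sw 1 4 * sw 2 7 * sw 7 3 * sw 3 6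
def m8_13 : Equiv.Perm (Fin 8) := sw 0 3 * sw 1 2 * sw 4 5 * sw 6 7
def m8_14 : Equiv.Perm (Fin 8) := sw 0 1 * sw 4 7 * sw 7 5 * sw 5 6
def m8_15 : Equiv.Perm (Fin 8) := sw 0 1 * sw 2 3 * sw 4 6 * sw 5 7
def m8_16 : Equiv.Perm (Fin 8) := sw 0 2 * sw 2 1 * sw 1 3 * sw 6 7
def m8_17 : Equiv.Perm (Fin 8) := sw 2 3 * sw 4 6 * sw 6 5 * sw 5 7
def m8_18 : Equiv.Perm (Fin 8) := sw 0 3 * sw 3 1 * sw 1 2 * sw 6 7
def m8_19 : Equiv.Perm (Fin 8) := sw 0 1 * sw 2 3 * sw 4 7 * sw 5 6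
def m8_20 : Equiv.Perm (Fin 8) := sw 2 3 * sw 4 7 * sw 7 5 * sw 5 6
def m8_21 : Equiv.Perm (Fin 8) := sw 0 5 * sw 5 1 * sw 1 4 * sw 2 6 * sw 6 3 * sw 3 7
def m8_22 : Equiv.Perm (Fin 8) := sw 0 1 * sw 4 6 * sw 6 5 * sw 5 7
def m8_23 : Equiv.Perm (Fin 8) := sw 0 6 * sw 6 1 * sw 1 7 * sw 2 4 * sw 4 3 * sw 3 5
def m8_24 : Equiv.Perm (Fin 8) := sw 0 4 * sw 4 3 * sw 3 6 * sw 1 5 * sw 5 2 * sw 2 7
def m8_25 : Equiv.Perm (Fin 8) := sw 0 7 * sw 7 3 * sw 3 4 * sw 1 6 * sw 6 2 * sw 2 5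
def m8_26 : Equiv.Perm (Fin 8) := sw 0 7 * sw 7 3 * sw 3 5 * sw 1 6 * sw 6 2 * sw 2 4
def m8_27 : Equiv.Perm (Fin 8) := sw 0 5 * sw 5 3 * sw 3 6 * sw 1 4 * sw 4 2 * sw 2 7
def m8_28 : Equiv.Perm (Fin 8) := sw 0 4 * sw 4 2 * sw 2 6 * sw 1 5 * sw 5 3 * sw 3 7
def m8_29 : Equiv.Perm (Fin 8) := sw 0 7 * sw 7 2 * sw 2 4 * sw 1 6 * sw 6 3 * sw 3 5
def m8_30 : Equiv.Perm (Fin 8) := sw 0 6 * sw 6 2 * sw 2 4 * sw 1 7 * sw 7 3 * sw 3 5
def m8_31 : Equiv.Perm (Fin 8) := sw 0 3 * sw 1 2 * sw 4 6 * sw 5 7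
def m8_32 : Equiv.Perm (Fin 8) := sw 0 7 * sw 7 2 * sw 2 5 * sw 1 6 * sw 6 3 * sw 3 4
def m8_33 : Equiv.Perm (Fin 8) := sw 0 1 * sw 6 7
def m8_34 : Equiv.Perm (Fin 8) := sw 0 5 * sw 5 2 * sw 2 7 * sw 1 4 * sw 4 3 * sw 3 6
def m8_35 : Equiv.Perm (Fin 8) := sw 0 6 * sw 6 2 * sw 2 5 * sw 1 7 * sw 7 3 * sw 3 4
def m8_36 : Equiv.Perm (Fin 8) := sw 0 4 * sw 4 2 * sw 2 7 * sw 1 5 * sw 5 3 * sw 3 6
def m8_37 : Equiv.Perm (Fin 8) := sw 2 3 * sw 6 7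
def m8_38 : Equiv.Perm (Fin 8) := sw 0 5 * sw 5 2 * sw 2 6 * sw 1 4 * sw 4 3 * sw 3 7
def m8_39 : Equiv.Perm (Fin 8) := sw 0 3 * sw 1 2 * sw 4 7 * sw 5 6
def m8_40 : Equiv.Perm (Fin 8) := sw 0 3 * sw 3 1 * sw 1 2 * sw 4 7 * sw 7 5 * sw 5 6
def m8_41 : Equiv.Perm (Fin 8) := sw 0 2 * sw 2 1 * sw 1 3 * sw 4 6 * sw 6 5 * sw 5 7
def m8_42 : Equiv.Perm (Fin 8) := sw 4 7 * sw 5 6
def m8_43 : Equiv.Perm (Fin 8) := sw 0 3 * sw 3 1 * sw 1 2 * sw 4 5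
def m8_44 : Equiv.Perm (Fin 8) := sw 0 2 * sw 2 1 * sw 1 3 * sw 4 5
def m8_45 : Equiv.Perm (Fin 8) := sw 4 6 * sw 5 7
def m8_46 : Equiv.Perm (Fin 8) := sw 0 4 * sw 4 1 * sw 1 5 * sw 2 7 * sw 7 3 * sw 3 6
def m8_47 : Equiv.Perm (Fin 8) := sw 0 7 * sw 7 1 * sw 1 6 * sw 2 5 * sw 5 3 * sw 3 4
def m8_48 : Equiv.Perm (Fin 8) := sw 0 2 * sw 1 3 * sw 4 5 * sw 6 7
def m8_49 : Equiv.Perm (Fin 8) := sw 0 6 * sw 1 7 * sw 2 4 * sw 3 5
def m8_50 : Equiv.Perm (Fin 8) := sw 0 3 * sw 1 2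
def m8_51 : Equiv.Perm (Fin 8) := sw 0 4 * sw 1 5 * sw 2 7 * sw 3 6
def m8_52 : Equiv.Perm (Fin 8) := sw 0 4 * sw 1 5 * sw 2 6 * sw 3 7
def m8_53 : Equiv.Perm (Fin 8) := sw 0 5 * sw 1 4 * sw 2 7 * sw 3 6
def m8_54 : Equiv.Perm (Fin 8) := sw 0 7 * sw 1 6 * sw 2 5 * sw 3 4
def m8_55 : Equiv.Perm (Fin 8) := sw 0 5 * sw 1 4 * sw 2 6 * sw 3 7
def m8_56 : Equiv.Perm (Fin 8) := sw 0 7 * sw 1 6 * sw 2 4 * sw 3 5
def m8_57 : Equiv.Perm (Fin 8) := sw 0 6 * sw 1 7 * sw 2 5 * sw 3 4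
def m8_58 : Equiv.Perm (Fin 8) := sw 0 2 * sw 1 3 * sw 4 7 * sw 5 6
def m8_59 : Equiv.Perm (Fin 8) := sw 2 3 * sw 4 5
def m8_60 : Equiv.Perm (Fin 8) := sw 0 1 * sw 4 5
def m8_61 : Equiv.Perm (Fin 8) := sw 0 2 * sw 1 3 * sw 4 6 * sw 5 7
def m8_62 : Equiv.Perm (Fin 8) := sw 4 5 * sw 6 7
def m8_63 : Equiv.Perm (Fin 8) := sw 0 1 * sw 2 3
theorem t8_0 : ψ0 r0 = m8_0 := by
  show ψ0 1 = m8_0
  rw [map_one]; rfl
theorem t8_1 : ψ0 r1 = m8_1 := by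
  show ψ0 (r0 * x) = m8_1
  rw [map_mul, t8_0, ψ0_x]; decide
theorem t8_2 : ψ0 r2 = m8_2 := by
  show ψ0 (r0 * y) = m8_2
  rw [map_mul, t8_0, ψ0_y]; decide
theorem t8_3 : ψ0 r3 = m8_3 := by
  show ψ0 (r0 * z) = m8_3
  rw [map_mul, t8_0, ψ0_z]; decide
theorem t8_4 : ψ0 r4 = m8_4 := by
  show ψ0 (r1 * x) = m8_4
  rw [map_mul, t8_1, ψ0_x]; decide
theorem t8_5 : ψ0 r5 = m8_5 := by
  show ψ0 (r1 * y) = m8_5
  rw [map_mul, t8_1, ψ0_y]; decide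
theorem t8_6 : ψ0 r6 = m8_6 := by
  show ψ0 (r1 * z) = m8_6
  rw [map_mul, t8_1, ψ0_z]; decide
theorem t8_7 : ψ0 r7 = m8_7 := by
  show ψ0 (r2 * x) = m8_7
  rw [map_mul, t8_2, ψ0_x]; decide
theorem t8_8 : ψ0 r8 = m8_8 := by
  show ψ0 (r2 * z) = m8_8
  rw [map_mul, t8_2, ψ0_z]; decide
theorem t8_9 : ψ0 r9 = m8_9 := by
  show ψ0 (r3 * x) = m8_9
  rw [map_mul, t8_3, ψ0_x]; decide
theorem t8_10 : ψ0 r10 = m8_10 := by
  show ψ0 (r3 * y) = m8_10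
  rw [map_mul, t8_3, ψ0_y]; decide
theorem t8_11 : ψ0 r11 = m8_11 := by
  show ψ0 (r4 * x) = m8_11
  rw [map_mul, t8_4, ψ0_x]; decide
theorem t8_12 : ψ0 r12 = m8_12 := by
  show ψ0 (r4 * y) = m8_12
  rw [map_mul, t8_4, ψ0_y]; decide
theorem t8_13 : ψ0 r13 = m8_13 := by
  show ψ0 (r4 * z) = m8_13
  rw [map_mul, t8_4, ψ0_z]; decide
theorem t8_14 : ψ0 r14 = m8_14 := by
  show ψ0 (r5 * z) = m8_14
  rw [map_mul, t8_5, ψ0_z]; decide
theorem t8_15 : ψ0 r15 = m8_15 := by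
  show ψ0 (r6 * x) = m8_15
  rw [map_mul, t8_6, ψ0_x]; decide
theorem t8_16 : ψ0 r16 = m8_16 := by
  show ψ0 (r6 * y) = m8_16
  rw [map_mul, t8_6, ψ0_y]; decide
theorem t8_17 : ψ0 r17 = m8_17 := by
  show ψ0 (r7 * z) = m8_17
  rw [map_mul, t8_7, ψ0_z]; decide
theorem t8_18 : ψ0 r18 = m8_18 := by
  show ψ0 (r8 * x) = m8_18
  rw [map_mul, t8_8, ψ0_x]; decide
theorem t8_19 : ψ0 r19 = m8_19 := by
  show ψ0 (r8 * y) = m8_19
  rw [map_mul, t8_8, ψ0_y]; decide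
theorem t8_20 : ψ0 r20 = m8_20 := by
  show ψ0 (r9 * y) = m8_20
  rw [map_mul, t8_9, ψ0_y]; decide
theorem t8_21 : ψ0 r21 = m8_21 := by
  show ψ0 (r9 * z) = m8_21
  rw [map_mul, t8_9, ψ0_z]; decide
theorem t8_22 : ψ0 r22 = m8_22 := by
  show ψ0 (r10 * x) = m8_22
  rw [map_mul, t8_10, ψ0_x]; decide
theorem t8_23 : ψ0 r23 = m8_23 := by
  show ψ0 (r10 * z) = m8_23
  rw [map_mul, t8_10, ψ0_z]; decide
theorem t8_24 : ψ0 r24 = m8_24 := by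
  show ψ0 (r11 * z) = m8_24
  rw [map_mul, t8_11, ψ0_z]; decide
theorem t8_25 : ψ0 r25 = m8_25 := by
  show ψ0 (r12 * z) = m8_25
  rw [map_mul, t8_12, ψ0_z]; decide
theorem t8_26 : ψ0 r26 = m8_26 := by
  show ψ0 (r13 * x) = m8_26
  rw [map_mul, t8_13, ψ0_x]; decide
theorem t8_27 : ψ0 r27 = m8_27 := by
  show ψ0 (r13 * y) = m8_27
  rw [map_mul, t8_13, ψ0_y]; decide
theorem t8_28 : ψ0 r28 = m8_28 := by
  show ψ0 (r14 * x) = m8_28
  rw [map_mul, t8_14, ψ0_x]; decide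
theorem t8_29 : ψ0 r29 = m8_29 := by
  show ψ0 (r14 * y) = m8_29
  rw [map_mul, t8_14, ψ0_y]; decide
theorem t8_30 : ψ0 r30 = m8_30 := by
  show ψ0 (r15 * y) = m8_30
  rw [map_mul, t8_15, ψ0_y]; decide
theorem t8_31 : ψ0 r31 = m8_31 := by
  show ψ0 (r15 * z) = m8_31
  rw [map_mul, t8_15, ψ0_z]; decide
theorem t8_32 : ψ0 r32 = m8_32 := by
  show ψ0 (r16 * x) = m8_32
  rw [map_mul, t8_16, ψ0_x]; decide
theorem t8_33 : ψ0 r33 = m8_33 := by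
  show ψ0 (r16 * z) = m8_33
  rw [map_mul, t8_16, ψ0_z]; decide
theorem t8_34 : ψ0 r34 = m8_34 := by
  show ψ0 (r17 * x) = m8_34
  rw [map_mul, t8_17, ψ0_x]; decide
theorem t8_35 : ψ0 r35 = m8_35 := by
  show ψ0 (r17 * y) = m8_35
  rw [map_mul, t8_17, ψ0_y]; decide
theorem t8_36 : ψ0 r36 = m8_36 := by
  show ψ0 (r18 * y) = m8_36
  rw [map_mul, t8_18, ψ0_y]; decide
theorem t8_37 : ψ0 r37 = m8_37 := by
  show ψ0 (r18 * z) = m8_37
  rw [map_mul, t8_18, ψ0_z]; decide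
theorem t8_38 : ψ0 r38 = m8_38 := by
  show ψ0 (r19 * x) = m8_38
  rw [map_mul, t8_19, ψ0_x]; decide
theorem t8_39 : ψ0 r39 = m8_39 := by
  show ψ0 (r19 * z) = m8_39
  rw [map_mul, t8_19, ψ0_z]; decide
theorem t8_40 : ψ0 r40 = m8_40 := by
  show ψ0 (r20 * z) = m8_40
  rw [map_mul, t8_20, ψ0_z]; decide
theorem t8_41 : ψ0 r41 = m8_41 := by
  show ψ0 (r22 * z) = m8_41
  rw [map_mul, t8_22, ψ0_z]; decide
theorem t8_42 : ψ0 r42 = m8_42 := by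
  show ψ0 (r24 * x) = m8_42
  rw [map_mul, t8_24, ψ0_x]; decide
theorem t8_43 : ψ0 r43 = m8_43 := by
  show ψ0 (r24 * y) = m8_43
  rw [map_mul, t8_24, ψ0_y]; decide
theorem t8_44 : ψ0 r44 = m8_44 := by
  show ψ0 (r25 * x) = m8_44
  rw [map_mul, t8_25, ψ0_x]; decide
theorem t8_45 : ψ0 r45 = m8_45 := by
  show ψ0 (r25 * y) = m8_45
  rw [map_mul, t8_25, ψ0_y]; decide
theorem t8_46 : ψ0 r46 = m8_46 := by
  show ψ0 (r26 * z) = m8_46
  rw [map_mul, t8_26, ψ0_z]; decide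
theorem t8_47 : ψ0 r47 = m8_47 := by
  show ψ0 (r27 * z) = m8_47
  rw [map_mul, t8_27, ψ0_z]; decide
theorem t8_48 : ψ0 r48 = m8_48 := by
  show ψ0 (r28 * y) = m8_48
  rw [map_mul, t8_28, ψ0_y]; decide
theorem t8_49 : ψ0 r49 = m8_49 := by
  show ψ0 (r28 * z) = m8_49
  rw [map_mul, t8_28, ψ0_z]; decide
theorem t8_50 : ψ0 r50 = m8_50 := by
  show ψ0 (r29 * x) = m8_50
  rw [map_mul, t8_29, ψ0_x]; decide
theorem t8_51 : ψ0 r51 = m8_51 := by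
  show ψ0 (r29 * z) = m8_51
  rw [map_mul, t8_29, ψ0_z]; decide
theorem t8_52 : ψ0 r52 = m8_52 := by
  show ψ0 (r30 * z) = m8_52
  rw [map_mul, t8_30, ψ0_z]; decide
theorem t8_53 : ψ0 r53 = m8_53 := by
  show ψ0 (r32 * z) = m8_53
  rw [map_mul, t8_32, ψ0_z]; decide
theorem t8_54 : ψ0 r54 = m8_54 := by
  show ψ0 (r34 * z) = m8_54
  rw [map_mul, t8_34, ψ0_z]; decide
theorem t8_55 : ψ0 r55 = m8_55 := by
  show ψ0 (r35 * z) = m8_55
  rw [map_mul, t8_35, ψ0_z]; decide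
theorem t8_56 : ψ0 r56 = m8_56 := by
  show ψ0 (r36 * z) = m8_56
  rw [map_mul, t8_36, ψ0_z]; decide
theorem t8_57 : ψ0 r57 = m8_57 := by
  show ψ0 (r38 * z) = m8_57
  rw [map_mul, t8_38, ψ0_z]; decide
theorem t8_58 : ψ0 r58 = m8_58 := by
  show ψ0 (r42 * z) = m8_58
  rw [map_mul, t8_42, ψ0_z]; decide
theorem t8_59 : ψ0 r59 = m8_59 := by
  show ψ0 (r43 * z) = m8_59
  rw [map_mul, t8_43, ψ0_z]; decide
theorem t8_60 : ψ0 r60 = m8_60 := by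
  show ψ0 (r44 * z) = m8_60
  rw [map_mul, t8_44, ψ0_z]; decide
theorem t8_61 : ψ0 r61 = m8_61 := by
  show ψ0 (r45 * z) = m8_61
  rw [map_mul, t8_45, ψ0_z]; decide
theorem t8_62 : ψ0 r62 = m8_62 := by
  show ψ0 (r48 * z) = m8_62
  rw [map_mul, t8_48, ψ0_z]; decide
theorem t8_63 : ψ0 r63 = m8_63 := by
  show ψ0 (r50 * z) = m8_63
  rw [map_mul, t8_50, ψ0_z]; decide
def M8_c0 : Fin 64 → Equiv.Perm (Fin 8)
  | ⟨0, _⟩ => m8_0
  | ⟨1, _⟩ => m8_1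
  | ⟨2, _⟩ => m8_2
  | ⟨3, _⟩ => m8_3
  | ⟨4, _⟩ => m8_4
  | ⟨5, _⟩ => m8_5
  | ⟨6, _⟩ => m8_6
  | ⟨7, _⟩ => m8_7
  | ⟨8, _⟩ => m8_8
  | ⟨9, _⟩ => m8_9
  | ⟨10, _⟩ => m8_10
  | ⟨11, _⟩ => m8_11
  | ⟨12, _⟩ => m8_12
  | ⟨13, _⟩ => m8_13
  | ⟨14, _⟩ => m8_14
  | ⟨15, _⟩ => m8_15
  | ⟨16, _⟩ => m8_16
  | ⟨17, _⟩ => m8_17
  | ⟨18, _⟩ => m8_18
  | ⟨19, _⟩ => m8_19
  | ⟨20, _⟩ => m8_20
  | ⟨21, _⟩ => m8_21
  | ⟨22, _⟩ => m8_22
  | ⟨23, _⟩ => m8_23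
  | ⟨24, _⟩ => m8_24
  | ⟨25, _⟩ => m8_25
  | ⟨26, _⟩ => m8_26
  | ⟨27, _⟩ => m8_27
  | ⟨28, _⟩ => m8_28
  | ⟨29, _⟩ => m8_29
  | ⟨30, _⟩ => m8_30
  | ⟨31, _⟩ => m8_31
  | ⟨32, _⟩ => m8_32
  | ⟨33, _⟩ => m8_33
  | ⟨34, _⟩ => m8_34
  | ⟨35, _⟩ => m8_35
  | ⟨36, _⟩ => m8_36
  | ⟨37, _⟩ => m8_37
  | ⟨38, _⟩ => m8_38
  | ⟨39, _⟩ => m8_39
  | ⟨40, _⟩ => m8_40
  | ⟨41, _⟩ => m8_41
  | ⟨42, _⟩ => m8_42
  | ⟨43, _⟩ => m8_43
  | ⟨44, _⟩ => m8_44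
  | ⟨45, _⟩ => m8_45
  | ⟨46, _⟩ => m8_46
  | ⟨47, _⟩ => m8_47
  | ⟨48, _⟩ => m8_48
  | ⟨49, _⟩ => m8_49
  | ⟨50, _⟩ => m8_50
  | ⟨51, _⟩ => m8_51
  | ⟨52, _⟩ => m8_52
  | ⟨53, _⟩ => m8_53
  | ⟨54, _⟩ => m8_54
  | ⟨55, _⟩ => m8_55
  | ⟨56, _⟩ => m8_56
  | ⟨57, _⟩ => m8_57
  | ⟨58, _⟩ => m8_58
  | ⟨59, _⟩ => m8_59
  | ⟨60, _⟩ => m8_60
  | ⟨61, _⟩ => m8_61
  | ⟨62, _⟩ => m8_62
  | ⟨63, _⟩ => m8_63
  | ⟨n+64, h⟩ => absurd h (by omega)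
def M8_ch : Fin 1 → Fin 64 → Equiv.Perm (Fin 8)
  | ⟨0, _⟩ => M8_c0
  | ⟨n+1, h⟩ => absurd h (by omega)
def M8 (i : Idx) : Equiv.Perm (Fin 8) := M8_ch i.1 i.2
theorem ψ0_rep_c0 : ∀ b : Fin 64, ψ0 (rep_c0 b) = M8_c0 b
  | ⟨0, _⟩ => t8_0
  | ⟨1, _⟩ => t8_1
  | ⟨2, _⟩ => t8_2
  | ⟨3, _⟩ => t8_3
  | ⟨4, _⟩ => t8_4
  | ⟨5, _⟩ => t8_5
  | ⟨6, _⟩ => t8_6
  | ⟨7, _⟩ => t8_7
  | ⟨8, _⟩ => t8_8
  | ⟨9, _⟩ => t8_9
  | ⟨10, _⟩ => t8_10
  | ⟨11, _⟩ => t8_11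
  | ⟨12, _⟩ => t8_12
  | ⟨13, _⟩ => t8_13
  | ⟨14, _⟩ => t8_14
  | ⟨15, _⟩ => t8_15
  | ⟨16, _⟩ => t8_16
  | ⟨17, _⟩ => t8_17
  | ⟨18, _⟩ => t8_18
  | ⟨19, _⟩ => t8_19
  | ⟨20, _⟩ => t8_20
  | ⟨21, _⟩ => t8_21
  | ⟨22, _⟩ => t8_22
  | ⟨23, _⟩ => t8_23
  | ⟨24, _⟩ => t8_24
  | ⟨25, _⟩ => t8_25
  | ⟨26, _⟩ => t8_26
  | ⟨27, _⟩ => t8_27
  | ⟨28, _⟩ => t8_28
  | ⟨29, _⟩ => t8_29
  | ⟨30, _⟩ => t8_30
  | ⟨31, _⟩ => t8_31
  | ⟨32, _⟩ => t8_32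
  | ⟨33, _⟩ => t8_33
  | ⟨34, _⟩ => t8_34
  | ⟨35, _⟩ => t8_35
  | ⟨36, _⟩ => t8_36
  | ⟨37, _⟩ => t8_37
  | ⟨38, _⟩ => t8_38
  | ⟨39, _⟩ => t8_39
  | ⟨40, _⟩ => t8_40
  | ⟨41, _⟩ => t8_41
  | ⟨42, _⟩ => t8_42
  | ⟨43, _⟩ => t8_43
  | ⟨44, _⟩ => t8_44
  | ⟨45, _⟩ => t8_45
  | ⟨46, _⟩ => t8_46
  | ⟨47, _⟩ => t8_47
  | ⟨48, _⟩ => t8_48
  | ⟨49, _⟩ => t8_49
  | ⟨50, _⟩ => t8_50
  | ⟨51, _⟩ => t8_51
  | ⟨52, _⟩ => t8_52
  | ⟨53, _⟩ => t8_53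
  | ⟨54, _⟩ => t8_54
  | ⟨55, _⟩ => t8_55
  | ⟨56, _⟩ => t8_56
  | ⟨57, _⟩ => t8_57
  | ⟨58, _⟩ => t8_58
  | ⟨59, _⟩ => t8_59
  | ⟨60, _⟩ => t8_60
  | ⟨61, _⟩ => t8_61
  | ⟨62, _⟩ => t8_62
  | ⟨63, _⟩ => t8_63
  | ⟨n+64, h⟩ => absurd h (by omega)
theorem ψ0_rep_ch : ∀ (a : Fin 1) (b : Fin 64), ψ0 (rep_ch a b) = M8_ch a b
  | ⟨0, _⟩ => ψ0_rep_c0
  | ⟨n+1, h⟩ => absurd h (by omega)
theorem ψ0_rep (i : Idx) : ψ0 (rep i) = M8 i :=
  ψ0_rep_ch i.1 i.2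
def codes8 : List ℕ := [16434824, 371070, 4988844, 16433690, 14570689, 11759706, 372645, 9953811, 4987710, 5015934, 343980, 2177847, 6852069, 14569555, 11761281, 11789505, 14598234, 9954504, 14598675, 9925825, 11760840, 5017509, 9954945, 342846, 2178540, 6850935, 6822711, 2207205, 2207660, 5016375, 6851390, 11788371, 4987255, 14599809, 343525, 6822270, 372204, 14599368, 2178981, 9924691, 11760147, 9953370, 9926280, 16405011, 16404570, 11789960, 6823404, 2206071, 14570010, 2206526, 16433235, 5017068, 6852524, 4988389, 342391, 6823845, 371511, 2177406, 9925146, 16405704, 16406145, 11788826, 14571144, 16434369]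
def enc8 (σ : Equiv.Perm (Fin 8)) : ℕ :=
  (σ 0).val + 8 * (σ 1).val + 64 * (σ 2).val + 512 * (σ 3).val + 4096 * (σ 4).val
    + 32768 * (σ 5).val + 262144 * (σ 6).val + 2097152 * (σ 7).val

set_option maxRecDepth 100000 in
theorem dec8_M8 : ∀ i : Idx, codes8.idxOf (enc8 (M8 i)) = i.1.val * 64 + i.2.val := by
  decide +kernel

theorem ψ0_rep_inj : ∀ i j : Idx, ψ0 (rep i) = ψ0 (rep j) → i = j := by
  intro i j h
  rw [ψ0_rep, ψ0_rep] at h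
  have h1 := dec8_M8 i
  rw [h, dec8_M8 j] at h1
  have hi := i.2.isLt
  have hj := j.2.isLt
  apply Prod.ext
  · apply Fin.ext; omega
  · apply Fin.ext; omega

theorem rep_inj : Function.Injective rep := by
  intro i j h
  exact ψ0_rep_inj i j (by rw [h])

theorem card_P : Nat.card P = 64 := by
  rw [← Nat.card_congr (Equiv.ofBijective rep ⟨rep_inj, rep_surj⟩), Nat.card_prod, Nat.card_fin,
    Nat.card_fin]

instance finite_P : Finite P := Finite.of_surjective rep rep_surj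

theorem ψ0_inj : Function.Injective ψ0 := by
  intro p p' h
  obtain ⟨i, rfl⟩ := rep_surj p
  obtain ⟨j, rfl⟩ := rep_surj p'
  rw [ψ0_rep_inj i j h]

theorem ψ0_alt (p : P) : ψ0 p ∈ alternatingGroup (Fin 8) := by
  have hgen : ∀ j : Fin 3, (PresentedGroup.of j : P) ∈ (alternatingGroup (Fin 8)).comap ψ0 := by
    intro j
    fin_cases j
    · show ψ0 x ∈ alternatingGroup (Fin 8)
      rw [ψ0_x, Equiv.Perm.mem_alternatingGroup]; decide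
    · show ψ0 y ∈ alternatingGroup (Fin 8)
      rw [ψ0_y, Equiv.Perm.mem_alternatingGroup]; decide
    · show ψ0 z ∈ alternatingGroup (Fin 8)
      rw [ψ0_z, Equiv.Perm.mem_alternatingGroup]; decide
  exact PresentedGroup.generated_by rels _ hgen p

/-- The presented group inside the alternating group. -/
noncomputable def ψa : P →* ↥(alternatingGroup (Fin 8)) := ψ0.codRestrict _ ψ0_alt

theorem ψa_inj : Function.Injective ψa := by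
  intro p p' h
  apply ψ0_inj
  exact congrArg Subtype.val h

def sX : Sp3 := ⟨Matrix.fromBlocks !![0, 0; 0, 1] !![2, 0; 0, 0] !![1, 0; 0, 0] !![0, 0; 0, 1], by
  rw [SymplecticGroup.mem_iff]; decide⟩
def sY : Sp3 := ⟨Matrix.fromBlocks !![1, 0; 0, 1] !![1, 0; 0, 0] !![1, 0; 0, 0] !![2, 0; 0, 1], by
  rw [SymplecticGroup.mem_iff]; decide⟩
def sZ : Sp3 := ⟨Matrix.fromBlocks !![0, 1; 1, 0] !![0, 0; 0, 0] !![0, 0; 0, 0] !![0, 1; 1, 0], by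
  rw [SymplecticGroup.mem_iff]; decide⟩
theorem sR0 : sZ * sZ = 1 := by decide
theorem sR1 : sZ * sY * sY * sZ * sX * sX = negOne := by decide
theorem sR2 : sZ * sX * sZ * sX * sZ * sX * sZ * sX = negOne := by decide
theorem sR3 : sZ * sY * sX * sY * sX * sZ * sX * sX = negOne := by decide
theorem sR4 : sZ * sY * sY * sZ * sY * sX * sY * sX = negOne := by decide
theorem sR5 : sZ * sY * sZ * sX * sZ * sY * sZ * sX = negOne := by decide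
theorem sR6 : sZ * sY * sZ * sY * sZ * sY * sZ * sY = negOne := by decide
def m4_0 : Sp3 := ⟨Matrix.fromBlocks !![1, 0; 0, 1] !![0, 0; 0, 0] !![0, 0; 0, 0] !![1, 0; 0, 1], by
  rw [SymplecticGroup.mem_iff]; decide⟩
def m4_1 : Sp3 := ⟨Matrix.fromBlocks !![0, 0; 0, 1] !![2, 0; 0, 0] !![1, 0; 0, 0] !![0, 0; 0, 1], by
  rw [SymplecticGroup.mem_iff]; decide⟩
def m4_2 : Sp3 := ⟨Matrix.fromBlocks !![1, 0; 0, 1] !![1, 0; 0, 0] !![1, 0; 0, 0] !![2, 0; 0, 1], by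
  rw [SymplecticGroup.mem_iff]; decide⟩
def m4_3 : Sp3 := ⟨Matrix.fromBlocks !![0, 1; 1, 0] !![0, 0; 0, 0] !![0, 0; 0, 0] !![0, 1; 1, 0], by
  rw [SymplecticGroup.mem_iff]; decide⟩
def m4_4 : Sp3 := ⟨Matrix.fromBlocks !![2, 0; 0, 1] !![0, 0; 0, 0] !![0, 0; 0, 0] !![2, 0; 0, 1], by
  rw [SymplecticGroup.mem_iff]; decide⟩
def m4_5 : Sp3 := ⟨Matrix.fromBlocks !![2, 0; 0, 1] !![1, 0; 0, 0] !![1, 0; 0, 0] !![1, 0; 0, 1], by
  rw [SymplecticGroup.mem_iff]; decide⟩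
def m4_6 : Sp3 := ⟨Matrix.fromBlocks !![0, 0; 1, 0] !![0, 2; 0, 0] !![0, 1; 0, 0] !![0, 0; 1, 0], by
  rw [SymplecticGroup.mem_iff]; decide⟩
def m4_7 : Sp3 := ⟨Matrix.fromBlocks !![1, 0; 0, 1] !![2, 0; 0, 0] !![2, 0; 0, 0] !![2, 0; 0, 1], by
  rw [SymplecticGroup.mem_iff]; decide⟩
def m4_8 : Sp3 := ⟨Matrix.fromBlocks !![0, 1; 1, 0] !![0, 1; 0, 0] !![0, 1; 0, 0] !![0, 2; 1, 0], by
  rw [SymplecticGroup.mem_iff]; decide⟩
def m4_9 : Sp3 := ⟨Matrix.fromBlocks !![0, 1; 0, 0] !![0, 0; 2, 0] !![0, 0; 1, 0] !![0, 1; 0, 0], by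
  rw [SymplecticGroup.mem_iff]; decide⟩
def m4_10 : Sp3 := ⟨Matrix.fromBlocks !![0, 1; 1, 0] !![0, 0; 1, 0] !![0, 0; 1, 0] !![0, 1; 2, 0], by
  rw [SymplecticGroup.mem_iff]; decide⟩
def m4_11 : Sp3 := ⟨Matrix.fromBlocks !![0, 0; 0, 1] !![1, 0; 0, 0] !![2, 0; 0, 0] !![0, 0; 0, 1], by
  rw [SymplecticGroup.mem_iff]; decide⟩
def m4_12 : Sp3 := ⟨Matrix.fromBlocks !![2, 0; 0, 1] !![2, 0; 0, 0] !![2, 0; 0, 0] !![1, 0; 0, 1], by
  rw [SymplecticGroup.mem_iff]; decide⟩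
def m4_13 : Sp3 := ⟨Matrix.fromBlocks !![0, 2; 1, 0] !![0, 0; 0, 0] !![0, 0; 0, 0] !![0, 2; 1, 0], by
  rw [SymplecticGroup.mem_iff]; decide⟩
def m4_14 : Sp3 := ⟨Matrix.fromBlocks !![0, 2; 1, 0] !![0, 1; 0, 0] !![0, 1; 0, 0] !![0, 1; 1, 0], by
  rw [SymplecticGroup.mem_iff]; decide⟩
def m4_15 : Sp3 := ⟨Matrix.fromBlocks !![0, 0; 0, 0] !![0, 2; 2, 0] !![0, 1; 1, 0] !![0, 0; 0, 0], by
  rw [SymplecticGroup.mem_iff]; decide⟩
def m4_16 : Sp3 := ⟨Matrix.fromBlocks !![0, 0; 1, 0] !![0, 2; 1, 0] !![0, 1; 1, 0] !![0, 0; 2, 0], by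
  rw [SymplecticGroup.mem_iff]; decide⟩
def m4_17 : Sp3 := ⟨Matrix.fromBlocks !![0, 1; 1, 0] !![0, 2; 0, 0] !![0, 2; 0, 0] !![0, 2; 1, 0], by
  rw [SymplecticGroup.mem_iff]; decide⟩
def m4_18 : Sp3 := ⟨Matrix.fromBlocks !![0, 1; 0, 0] !![0, 1; 2, 0] !![0, 1; 1, 0] !![0, 2; 0, 0], by
  rw [SymplecticGroup.mem_iff]; decide⟩
def m4_19 : Sp3 := ⟨Matrix.fromBlocks !![0, 1; 1, 0] !![0, 1; 1, 0] !![0, 1; 1, 0] !![0, 2; 2, 0], by
  rw [SymplecticGroup.mem_iff]; decide⟩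
def m4_20 : Sp3 := ⟨Matrix.fromBlocks !![0, 1; 2, 0] !![0, 0; 1, 0] !![0, 0; 1, 0] !![0, 1; 1, 0], by
  rw [SymplecticGroup.mem_iff]; decide⟩
def m4_21 : Sp3 := ⟨Matrix.fromBlocks !![1, 0; 0, 0] !![0, 0; 0, 2] !![0, 0; 0, 1] !![1, 0; 0, 0], by
  rw [SymplecticGroup.mem_iff]; decide⟩
def m4_22 : Sp3 := ⟨Matrix.fromBlocks !![0, 1; 1, 0] !![0, 0; 2, 0] !![0, 0; 2, 0] !![0, 1; 2, 0], by
  rw [SymplecticGroup.mem_iff]; decide⟩
def m4_23 : Sp3 := ⟨Matrix.fromBlocks !![1, 0; 0, 1] !![0, 0; 0, 1] !![0, 0; 0, 1] !![1, 0; 0, 2], by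
  rw [SymplecticGroup.mem_iff]; decide⟩
def m4_24 : Sp3 := ⟨Matrix.fromBlocks !![0, 0; 1, 0] !![0, 1; 0, 0] !![0, 2; 0, 0] !![0, 0; 1, 0], by
  rw [SymplecticGroup.mem_iff]; decide⟩
def m4_25 : Sp3 := ⟨Matrix.fromBlocks !![0, 2; 1, 0] !![0, 2; 0, 0] !![0, 2; 0, 0] !![0, 1; 1, 0], by
  rw [SymplecticGroup.mem_iff]; decide⟩
def m4_26 : Sp3 := ⟨Matrix.fromBlocks !![0, 2; 0, 0] !![0, 0; 2, 0] !![0, 0; 1, 0] !![0, 2; 0, 0], by
  rw [SymplecticGroup.mem_iff]; decide⟩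
def m4_27 : Sp3 := ⟨Matrix.fromBlocks !![0, 2; 1, 0] !![0, 0; 1, 0] !![0, 0; 1, 0] !![0, 2; 2, 0], by
  rw [SymplecticGroup.mem_iff]; decide⟩
def m4_28 : Sp3 := ⟨Matrix.fromBlocks !![0, 2; 0, 0] !![0, 1; 2, 0] !![0, 1; 1, 0] !![0, 1; 0, 0], by
  rw [SymplecticGroup.mem_iff]; decide⟩
def m4_29 : Sp3 := ⟨Matrix.fromBlocks !![0, 2; 1, 0] !![0, 1; 1, 0] !![0, 1; 1, 0] !![0, 1; 2, 0], by
  rw [SymplecticGroup.mem_iff]; decide⟩
def m4_30 : Sp3 := ⟨Matrix.fromBlocks !![0, 0; 2, 0] !![0, 2; 1, 0] !![0, 1; 1, 0] !![0, 0; 1, 0], by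
  rw [SymplecticGroup.mem_iff]; decide⟩
def m4_31 : Sp3 := ⟨Matrix.fromBlocks !![0, 0; 0, 0] !![2, 0; 0, 2] !![1, 0; 0, 1] !![0, 0; 0, 0], by
  rw [SymplecticGroup.mem_iff]; decide⟩
def m4_32 : Sp3 := ⟨Matrix.fromBlocks !![0, 0; 1, 0] !![0, 2; 2, 0] !![0, 1; 2, 0] !![0, 0; 2, 0], by
  rw [SymplecticGroup.mem_iff]; decide⟩
def m4_33 : Sp3 := ⟨Matrix.fromBlocks !![0, 0; 0, 1] !![2, 0; 0, 1] !![1, 0; 0, 1] !![0, 0; 0, 2], by
  rw [SymplecticGroup.mem_iff]; decide⟩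
def m4_34 : Sp3 := ⟨Matrix.fromBlocks !![0, 1; 0, 0] !![0, 2; 2, 0] !![0, 2; 1, 0] !![0, 2; 0, 0], by
  rw [SymplecticGroup.mem_iff]; decide⟩
def m4_35 : Sp3 := ⟨Matrix.fromBlocks !![0, 1; 1, 0] !![0, 2; 1, 0] !![0, 2; 1, 0] !![0, 2; 2, 0], by
  rw [SymplecticGroup.mem_iff]; decide⟩
def m4_36 : Sp3 := ⟨Matrix.fromBlocks !![0, 1; 2, 0] !![0, 1; 1, 0] !![0, 1; 1, 0] !![0, 2; 1, 0], by
  rw [SymplecticGroup.mem_iff]; decide⟩
def m4_37 : Sp3 := ⟨Matrix.fromBlocks !![1, 0; 0, 0] !![1, 0; 0, 2] !![1, 0; 0, 1] !![2, 0; 0, 0], by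
  rw [SymplecticGroup.mem_iff]; decide⟩
def m4_38 : Sp3 := ⟨Matrix.fromBlocks !![0, 1; 1, 0] !![0, 1; 2, 0] !![0, 1; 2, 0] !![0, 2; 2, 0], by
  rw [SymplecticGroup.mem_iff]; decide⟩
def m4_39 : Sp3 := ⟨Matrix.fromBlocks !![1, 0; 0, 1] !![1, 0; 0, 1] !![1, 0; 0, 1] !![2, 0; 0, 2], by
  rw [SymplecticGroup.mem_iff]; decide⟩
def m4_40 : Sp3 := ⟨Matrix.fromBlocks !![1, 0; 0, 2] !![0, 0; 0, 1] !![0, 0; 0, 1] !![1, 0; 0, 1], by
  rw [SymplecticGroup.mem_iff]; decide⟩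
def m4_41 : Sp3 := ⟨Matrix.fromBlocks !![1, 0; 0, 1] !![0, 0; 0, 2] !![0, 0; 0, 2] !![1, 0; 0, 2], by
  rw [SymplecticGroup.mem_iff]; decide⟩
def m4_42 : Sp3 := ⟨Matrix.fromBlocks !![0, 0; 0, 0] !![0, 1; 2, 0] !![0, 2; 1, 0] !![0, 0; 0, 0], by
  rw [SymplecticGroup.mem_iff]; decide⟩
def m4_43 : Sp3 := ⟨Matrix.fromBlocks !![0, 0; 1, 0] !![0, 1; 1, 0] !![0, 2; 1, 0] !![0, 0; 2, 0], by
  rw [SymplecticGroup.mem_iff]; decide⟩
def m4_44 : Sp3 := ⟨Matrix.fromBlocks !![0, 2; 0, 0] !![0, 2; 2, 0] !![0, 2; 1, 0] !![0, 1; 0, 0], by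
  rw [SymplecticGroup.mem_iff]; decide⟩
def m4_45 : Sp3 := ⟨Matrix.fromBlocks !![0, 2; 1, 0] !![0, 2; 1, 0] !![0, 2; 1, 0] !![0, 1; 2, 0], by
  rw [SymplecticGroup.mem_iff]; decide⟩
def m4_46 : Sp3 := ⟨Matrix.fromBlocks !![2, 0; 0, 0] !![0, 0; 0, 2] !![0, 0; 0, 1] !![2, 0; 0, 0], by
  rw [SymplecticGroup.mem_iff]; decide⟩
def m4_47 : Sp3 := ⟨Matrix.fromBlocks !![2, 0; 0, 1] !![0, 0; 0, 1] !![0, 0; 0, 1] !![2, 0; 0, 2], by
  rw [SymplecticGroup.mem_iff]; decide⟩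
def m4_48 : Sp3 := ⟨Matrix.fromBlocks !![0, 2; 2, 0] !![0, 1; 1, 0] !![0, 1; 1, 0] !![0, 1; 1, 0], by
  rw [SymplecticGroup.mem_iff]; decide⟩
def m4_49 : Sp3 := ⟨Matrix.fromBlocks !![2, 0; 0, 0] !![1, 0; 0, 2] !![1, 0; 0, 1] !![1, 0; 0, 0], by
  rw [SymplecticGroup.mem_iff]; decide⟩
def m4_50 : Sp3 := ⟨Matrix.fromBlocks !![0, 2; 1, 0] !![0, 1; 2, 0] !![0, 1; 2, 0] !![0, 1; 2, 0], by
  rw [SymplecticGroup.mem_iff]; decide⟩
def m4_51 : Sp3 := ⟨Matrix.fromBlocks !![2, 0; 0, 1] !![1, 0; 0, 1] !![1, 0; 0, 1] !![1, 0; 0, 2], by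
  rw [SymplecticGroup.mem_iff]; decide⟩
def m4_52 : Sp3 := ⟨Matrix.fromBlocks !![0, 0; 0, 2] !![2, 0; 0, 1] !![1, 0; 0, 1] !![0, 0; 0, 1], by
  rw [SymplecticGroup.mem_iff]; decide⟩
def m4_53 : Sp3 := ⟨Matrix.fromBlocks !![0, 0; 0, 1] !![2, 0; 0, 2] !![1, 0; 0, 2] !![0, 0; 0, 2], by
  rw [SymplecticGroup.mem_iff]; decide⟩
def m4_54 : Sp3 := ⟨Matrix.fromBlocks !![1, 0; 0, 0] !![2, 0; 0, 2] !![2, 0; 0, 1] !![2, 0; 0, 0], by
  rw [SymplecticGroup.mem_iff]; decide⟩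
def m4_55 : Sp3 := ⟨Matrix.fromBlocks !![1, 0; 0, 1] !![2, 0; 0, 1] !![2, 0; 0, 1] !![2, 0; 0, 2], by
  rw [SymplecticGroup.mem_iff]; decide⟩
def m4_56 : Sp3 := ⟨Matrix.fromBlocks !![1, 0; 0, 2] !![1, 0; 0, 1] !![1, 0; 0, 1] !![2, 0; 0, 1], by
  rw [SymplecticGroup.mem_iff]; decide⟩
def m4_57 : Sp3 := ⟨Matrix.fromBlocks !![1, 0; 0, 1] !![1, 0; 0, 2] !![1, 0; 0, 2] !![2, 0; 0, 2], by
  rw [SymplecticGroup.mem_iff]; decide⟩
def m4_58 : Sp3 := ⟨Matrix.fromBlocks !![0, 0; 0, 0] !![1, 0; 0, 2] !![2, 0; 0, 1] !![0, 0; 0, 0], by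
  rw [SymplecticGroup.mem_iff]; decide⟩
def m4_59 : Sp3 := ⟨Matrix.fromBlocks !![0, 0; 0, 1] !![1, 0; 0, 1] !![2, 0; 0, 1] !![0, 0; 0, 2], by
  rw [SymplecticGroup.mem_iff]; decide⟩
def m4_60 : Sp3 := ⟨Matrix.fromBlocks !![2, 0; 0, 0] !![2, 0; 0, 2] !![2, 0; 0, 1] !![1, 0; 0, 0], by
  rw [SymplecticGroup.mem_iff]; decide⟩
def m4_61 : Sp3 := ⟨Matrix.fromBlocks !![2, 0; 0, 1] !![2, 0; 0, 1] !![2, 0; 0, 1] !![1, 0; 0, 2], by
  rw [SymplecticGroup.mem_iff]; decide⟩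
def m4_62 : Sp3 := ⟨Matrix.fromBlocks !![2, 0; 0, 2] !![1, 0; 0, 1] !![1, 0; 0, 1] !![1, 0; 0, 1], by
  rw [SymplecticGroup.mem_iff]; decide⟩
def m4_63 : Sp3 := ⟨Matrix.fromBlocks !![2, 0; 0, 1] !![1, 0; 0, 2] !![1, 0; 0, 2] !![1, 0; 0, 2], by
  rw [SymplecticGroup.mem_iff]; decide⟩
theorem m4_0_eq : m4_0 = 1 := by decide
theorem tm_1 : m4_0 * sX = m4_1 := by decide
theorem tm_2 : m4_0 * sY = m4_2 := by decide
theorem tm_3 : m4_0 * sZ = m4_3 := by decide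
theorem tm_4 : m4_1 * sX = m4_4 := by decide
theorem tm_5 : m4_1 * sY = m4_5 := by decide
theorem tm_6 : m4_1 * sZ = m4_6 := by decide
theorem tm_7 : m4_2 * sX = m4_7 := by decide
theorem tm_8 : m4_2 * sZ = m4_8 := by decide
theorem tm_9 : m4_3 * sX = m4_9 := by decide
theorem tm_10 : m4_3 * sY = m4_10 := by decide
theorem tm_11 : m4_4 * sX = m4_11 := by decide
theorem tm_12 : m4_4 * sY = m4_12 := by decide
theorem tm_13 : m4_4 * sZ = m4_13 := by decide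
theorem tm_14 : m4_5 * sZ = m4_14 := by decide
theorem tm_15 : m4_6 * sX = m4_15 := by decide
theorem tm_16 : m4_6 * sY = m4_16 := by decide
theorem tm_17 : m4_7 * sZ = m4_17 := by decide
theorem tm_18 : m4_8 * sX = m4_18 := by decide
theorem tm_19 : m4_8 * sY = m4_19 := by decide
theorem tm_20 : m4_9 * sY = m4_20 := by decide
theorem tm_21 : m4_9 * sZ = m4_21 := by decide
theorem tm_22 : m4_10 * sX = m4_22 := by decide
theorem tm_23 : m4_10 * sZ = m4_23 := by decide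
theorem tm_24 : m4_11 * sZ = m4_24 := by decide
theorem tm_25 : m4_12 * sZ = m4_25 := by decide
theorem tm_26 : m4_13 * sX = m4_26 := by decide
theorem tm_27 : m4_13 * sY = m4_27 := by decide
theorem tm_28 : m4_14 * sX = m4_28 := by decide
theorem tm_29 : m4_14 * sY = m4_29 := by decide
theorem tm_30 : m4_15 * sY = m4_30 := by decide
theorem tm_31 : m4_15 * sZ = m4_31 := by decide
theorem tm_32 : m4_16 * sX = m4_32 := by decide
theorem tm_33 : m4_16 * sZ = m4_33 := by decide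
theorem tm_34 : m4_17 * sX = m4_34 := by decide
theorem tm_35 : m4_17 * sY = m4_35 := by decide
theorem tm_36 : m4_18 * sY = m4_36 := by decide
theorem tm_37 : m4_18 * sZ = m4_37 := by decide
theorem tm_38 : m4_19 * sX = m4_38 := by decide
theorem tm_39 : m4_19 * sZ = m4_39 := by decide
theorem tm_40 : m4_20 * sZ = m4_40 := by decide
theorem tm_41 : m4_22 * sZ = m4_41 := by decide
theorem tm_42 : m4_24 * sX = m4_42 := by decide
theorem tm_43 : m4_24 * sY = m4_43 := by decide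
theorem tm_44 : m4_25 * sX = m4_44 := by decide
theorem tm_45 : m4_25 * sY = m4_45 := by decide
theorem tm_46 : m4_26 * sZ = m4_46 := by decide
theorem tm_47 : m4_27 * sZ = m4_47 := by decide
theorem tm_48 : m4_28 * sY = m4_48 := by decide
theorem tm_49 : m4_28 * sZ = m4_49 := by decide
theorem tm_50 : m4_29 * sX = m4_50 := by decide
theorem tm_51 : m4_29 * sZ = m4_51 := by decide
theorem tm_52 : m4_30 * sZ = m4_52 := by decide
theorem tm_53 : m4_32 * sZ = m4_53 := by decide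
theorem tm_54 : m4_34 * sZ = m4_54 := by decide
theorem tm_55 : m4_35 * sZ = m4_55 := by decide
theorem tm_56 : m4_36 * sZ = m4_56 := by decide
theorem tm_57 : m4_38 * sZ = m4_57 := by decide
theorem tm_58 : m4_42 * sZ = m4_58 := by decide
theorem tm_59 : m4_43 * sZ = m4_59 := by decide
theorem tm_60 : m4_44 * sZ = m4_60 := by decide
theorem tm_61 : m4_45 * sZ = m4_61 := by decide
theorem tm_62 : m4_48 * sZ = m4_62 := by decide
theorem tm_63 : m4_50 * sZ = m4_63 := by decide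
def M4_c0 : Fin 64 → Sp3
  | ⟨0, _⟩ => m4_0
  | ⟨1, _⟩ => m4_1
  | ⟨2, _⟩ => m4_2
  | ⟨3, _⟩ => m4_3
  | ⟨4, _⟩ => m4_4
  | ⟨5, _⟩ => m4_5
  | ⟨6, _⟩ => m4_6
  | ⟨7, _⟩ => m4_7
  | ⟨8, _⟩ => m4_8
  | ⟨9, _⟩ => m4_9
  | ⟨10, _⟩ => m4_10
  | ⟨11, _⟩ => m4_11
  | ⟨12, _⟩ => m4_12
  | ⟨13, _⟩ => m4_13
  | ⟨14, _⟩ => m4_14
  | ⟨15, _⟩ => m4_15
  | ⟨16, _⟩ => m4_16
  | ⟨17, _⟩ => m4_17
  | ⟨18, _⟩ => m4_18
  | ⟨19, _⟩ => m4_19
  | ⟨20, _⟩ => m4_20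
  | ⟨21, _⟩ => m4_21
  | ⟨22, _⟩ => m4_22
  | ⟨23, _⟩ => m4_23
  | ⟨24, _⟩ => m4_24
  | ⟨25, _⟩ => m4_25
  | ⟨26, _⟩ => m4_26
  | ⟨27, _⟩ => m4_27
  | ⟨28, _⟩ => m4_28
  | ⟨29, _⟩ => m4_29
  | ⟨30, _⟩ => m4_30
  | ⟨31, _⟩ => m4_31
  | ⟨32, _⟩ => m4_32
  | ⟨33, _⟩ => m4_33
  | ⟨34, _⟩ => m4_34
  | ⟨35, _⟩ => m4_35
  | ⟨36, _⟩ => m4_36
  | ⟨37, _⟩ => m4_37
  | ⟨38, _⟩ => m4_38
  | ⟨39, _⟩ => m4_39
  | ⟨40, _⟩ => m4_40
  | ⟨41, _⟩ => m4_41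
  | ⟨42, _⟩ => m4_42
  | ⟨43, _⟩ => m4_43
  | ⟨44, _⟩ => m4_44
  | ⟨45, _⟩ => m4_45
  | ⟨46, _⟩ => m4_46
  | ⟨47, _⟩ => m4_47
  | ⟨48, _⟩ => m4_48
  | ⟨49, _⟩ => m4_49
  | ⟨50, _⟩ => m4_50
  | ⟨51, _⟩ => m4_51
  | ⟨52, _⟩ => m4_52
  | ⟨53, _⟩ => m4_53
  | ⟨54, _⟩ => m4_54
  | ⟨55, _⟩ => m4_55
  | ⟨56, _⟩ => m4_56
  | ⟨57, _⟩ => m4_57
  | ⟨58, _⟩ => m4_58
  | ⟨59, _⟩ => m4_59
  | ⟨60, _⟩ => m4_60
  | ⟨61, _⟩ => m4_61
  | ⟨62, _⟩ => m4_62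
  | ⟨63, _⟩ => m4_63
  | ⟨n+64, h⟩ => absurd h (by omega)
def M4_ch : Fin 1 → Fin 64 → Sp3
  | ⟨0, _⟩ => M4_c0
  | ⟨n+1, h⟩ => absurd h (by omega)
def M4 (i : Idx) : Sp3 := M4_ch i.1 i.2
set_option maxRecDepth 100000 in
theorem ker4 : ∀ i : Idx, M4 i * sX = sX * M4 i → M4 i * sY = sY * M4 i → M4 i * sZ = sZ * M4 i →
    i = (0, 0) := by decide +kernel

section target4
variable {F : Type*} [Field F] (f : ZMod 3 →+* F)
theorem lift_rel4 : ∀ r ∈ rels, FreeGroup.lift ![q f sX, q f sY, q f sZ] r = 1 := by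
  intro r hr
  simp only [rels, Set.mem_insert_iff, Set.mem_singleton_iff] at hr
  rcases hr with rfl | rfl | rfl | rfl | rfl | rfl | rfl
  · simp only [map_mul, FreeGroup.lift_apply_of]
    show q f sZ * q f sZ = 1
    simp only [← map_mul]
    rw [sR0, map_one]
  · simp only [map_mul, FreeGroup.lift_apply_of]
    show q f sZ * q f sY * q f sY * q f sZ * q f sX * q f sX = 1
    simp only [← map_mul]
    rw [sR1, q_negOne]
  · simp only [map_mul, FreeGroup.lift_apply_of]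
    show q f sZ * q f sX * q f sZ * q f sX * q f sZ * q f sX * q f sZ * q f sX = 1
    simp only [← map_mul]
    rw [sR2, q_negOne]
  · simp only [map_mul, FreeGroup.lift_apply_of]
    show q f sZ * q f sY * q f sX * q f sY * q f sX * q f sZ * q f sX * q f sX = 1
    simp only [← map_mul]
    rw [sR3, q_negOne]
  · simp only [map_mul, FreeGroup.lift_apply_of]
    show q f sZ * q f sY * q f sY * q f sZ * q f sY * q f sX * q f sY * q f sX = 1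
    simp only [← map_mul]
    rw [sR4, q_negOne]
  · simp only [map_mul, FreeGroup.lift_apply_of]
    show q f sZ * q f sY * q f sZ * q f sX * q f sZ * q f sY * q f sZ * q f sX = 1
    simp only [← map_mul]
    rw [sR5, q_negOne]
  · simp only [map_mul, FreeGroup.lift_apply_of]
    show q f sZ * q f sY * q f sZ * q f sY * q f sZ * q f sY * q f sZ * q f sY = 1
    simp only [← map_mul]
    rw [sR6, q_negOne]
noncomputable def Φ : P →* Cfsg.PSp 2 F := PresentedGroup.toGroup (lift_rel4 f)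
theorem Φ_x : Φ f x = q f sX := by simp [Φ, x]
theorem Φ_y : Φ f y = q f sY := by simp [Φ, y]
theorem Φ_z : Φ f z = q f sZ := by simp [Φ, z]
theorem t4_0 : Φ f r0 = q f m4_0 := by
  show Φ f 1 = q f m4_0
  rw [map_one, m4_0_eq, map_one]
theorem t4_1 : Φ f r1 = q f m4_1 := by
  show Φ f (r0 * x) = q f m4_1
  rw [map_mul, t4_0, Φ_x, ← map_mul, tm_1]
theorem t4_2 : Φ f r2 = q f m4_2 := by
  show Φ f (r0 * y) = q f m4_2
  rw [map_mul, t4_0, Φ_y, ← map_mul, tm_2]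
theorem t4_3 : Φ f r3 = q f m4_3 := by
  show Φ f (r0 * z) = q f m4_3
  rw [map_mul, t4_0, Φ_z, ← map_mul, tm_3]
theorem t4_4 : Φ f r4 = q f m4_4 := by
  show Φ f (r1 * x) = q f m4_4
  rw [map_mul, t4_1, Φ_x, ← map_mul, tm_4]
theorem t4_5 : Φ f r5 = q f m4_5 := by
  show Φ f (r1 * y) = q f m4_5
  rw [map_mul, t4_1, Φ_y, ← map_mul, tm_5]
theorem t4_6 : Φ f r6 = q f m4_6 := by
  show Φ f (r1 * z) = q f m4_6
  rw [map_mul, t4_1, Φ_z, ← map_mul, tm_6]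
theorem t4_7 : Φ f r7 = q f m4_7 := by
  show Φ f (r2 * x) = q f m4_7
  rw [map_mul, t4_2, Φ_x, ← map_mul, tm_7]
theorem t4_8 : Φ f r8 = q f m4_8 := by
  show Φ f (r2 * z) = q f m4_8
  rw [map_mul, t4_2, Φ_z, ← map_mul, tm_8]
theorem t4_9 : Φ f r9 = q f m4_9 := by
  show Φ f (r3 * x) = q f m4_9
  rw [map_mul, t4_3, Φ_x, ← map_mul, tm_9]
theorem t4_10 : Φ f r10 = q f m4_10 := by
  show Φ f (r3 * y) = q f m4_10
  rw [map_mul, t4_3, Φ_y, ← map_mul, tm_10]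
theorem t4_11 : Φ f r11 = q f m4_11 := by
  show Φ f (r4 * x) = q f m4_11
  rw [map_mul, t4_4, Φ_x, ← map_mul, tm_11]
theorem t4_12 : Φ f r12 = q f m4_12 := by
  show Φ f (r4 * y) = q f m4_12
  rw [map_mul, t4_4, Φ_y, ← map_mul, tm_12]
theorem t4_13 : Φ f r13 = q f m4_13 := by
  show Φ f (r4 * z) = q f m4_13
  rw [map_mul, t4_4, Φ_z, ← map_mul, tm_13]
theorem t4_14 : Φ f r14 = q f m4_14 := by
  show Φ f (r5 * z) = q f m4_14
  rw [map_mul, t4_5, Φ_z, ← map_mul, tm_14]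
theorem t4_15 : Φ f r15 = q f m4_15 := by
  show Φ f (r6 * x) = q f m4_15
  rw [map_mul, t4_6, Φ_x, ← map_mul, tm_15]
theorem t4_16 : Φ f r16 = q f m4_16 := by
  show Φ f (r6 * y) = q f m4_16
  rw [map_mul, t4_6, Φ_y, ← map_mul, tm_16]
theorem t4_17 : Φ f r17 = q f m4_17 := by
  show Φ f (r7 * z) = q f m4_17
  rw [map_mul, t4_7, Φ_z, ← map_mul, tm_17]
theorem t4_18 : Φ f r18 = q f m4_18 := by
  show Φ f (r8 * x) = q f m4_18
  rw [map_mul, t4_8, Φ_x, ← map_mul, tm_18]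
theorem t4_19 : Φ f r19 = q f m4_19 := by
  show Φ f (r8 * y) = q f m4_19
  rw [map_mul, t4_8, Φ_y, ← map_mul, tm_19]
theorem t4_20 : Φ f r20 = q f m4_20 := by
  show Φ f (r9 * y) = q f m4_20
  rw [map_mul, t4_9, Φ_y, ← map_mul, tm_20]
theorem t4_21 : Φ f r21 = q f m4_21 := by
  show Φ f (r9 * z) = q f m4_21
  rw [map_mul, t4_9, Φ_z, ← map_mul, tm_21]
theorem t4_22 : Φ f r22 = q f m4_22 := by
  show Φ f (r10 * x) = q f m4_22
  rw [map_mul, t4_10, Φ_x, ← map_mul, tm_22]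
theorem t4_23 : Φ f r23 = q f m4_23 := by
  show Φ f (r10 * z) = q f m4_23
  rw [map_mul, t4_10, Φ_z, ← map_mul, tm_23]
theorem t4_24 : Φ f r24 = q f m4_24 := by
  show Φ f (r11 * z) = q f m4_24
  rw [map_mul, t4_11, Φ_z, ← map_mul, tm_24]
theorem t4_25 : Φ f r25 = q f m4_25 := by
  show Φ f (r12 * z) = q f m4_25
  rw [map_mul, t4_12, Φ_z, ← map_mul, tm_25]
theorem t4_26 : Φ f r26 = q f m4_26 := by
  show Φ f (r13 * x) = q f m4_26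
  rw [map_mul, t4_13, Φ_x, ← map_mul, tm_26]
theorem t4_27 : Φ f r27 = q f m4_27 := by
  show Φ f (r13 * y) = q f m4_27
  rw [map_mul, t4_13, Φ_y, ← map_mul, tm_27]
theorem t4_28 : Φ f r28 = q f m4_28 := by
  show Φ f (r14 * x) = q f m4_28
  rw [map_mul, t4_14, Φ_x, ← map_mul, tm_28]
theorem t4_29 : Φ f r29 = q f m4_29 := by
  show Φ f (r14 * y) = q f m4_29
  rw [map_mul, t4_14, Φ_y, ← map_mul, tm_29]
theorem t4_30 : Φ f r30 = q f m4_30 := by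
  show Φ f (r15 * y) = q f m4_30
  rw [map_mul, t4_15, Φ_y, ← map_mul, tm_30]
theorem t4_31 : Φ f r31 = q f m4_31 := by
  show Φ f (r15 * z) = q f m4_31
  rw [map_mul, t4_15, Φ_z, ← map_mul, tm_31]
theorem t4_32 : Φ f r32 = q f m4_32 := by
  show Φ f (r16 * x) = q f m4_32
  rw [map_mul, t4_16, Φ_x, ← map_mul, tm_32]
theorem t4_33 : Φ f r33 = q f m4_33 := by
  show Φ f (r16 * z) = q f m4_33
  rw [map_mul, t4_16, Φ_z, ← map_mul, tm_33]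
theorem t4_34 : Φ f r34 = q f m4_34 := by
  show Φ f (r17 * x) = q f m4_34
  rw [map_mul, t4_17, Φ_x, ← map_mul, tm_34]
theorem t4_35 : Φ f r35 = q f m4_35 := by
  show Φ f (r17 * y) = q f m4_35
  rw [map_mul, t4_17, Φ_y, ← map_mul, tm_35]
theorem t4_36 : Φ f r36 = q f m4_36 := by
  show Φ f (r18 * y) = q f m4_36
  rw [map_mul, t4_18, Φ_y, ← map_mul, tm_36]
theorem t4_37 : Φ f r37 = q f m4_37 := by
  show Φ f (r18 * z) = q f m4_37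
  rw [map_mul, t4_18, Φ_z, ← map_mul, tm_37]
theorem t4_38 : Φ f r38 = q f m4_38 := by
  show Φ f (r19 * x) = q f m4_38
  rw [map_mul, t4_19, Φ_x, ← map_mul, tm_38]
theorem t4_39 : Φ f r39 = q f m4_39 := by
  show Φ f (r19 * z) = q f m4_39
  rw [map_mul, t4_19, Φ_z, ← map_mul, tm_39]
theorem t4_40 : Φ f r40 = q f m4_40 := by
  show Φ f (r20 * z) = q f m4_40
  rw [map_mul, t4_20, Φ_z, ← map_mul, tm_40]
theorem t4_41 : Φ f r41 = q f m4_41 := by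
  show Φ f (r22 * z) = q f m4_41
  rw [map_mul, t4_22, Φ_z, ← map_mul, tm_41]
theorem t4_42 : Φ f r42 = q f m4_42 := by
  show Φ f (r24 * x) = q f m4_42
  rw [map_mul, t4_24, Φ_x, ← map_mul, tm_42]
theorem t4_43 : Φ f r43 = q f m4_43 := by
  show Φ f (r24 * y) = q f m4_43
  rw [map_mul, t4_24, Φ_y, ← map_mul, tm_43]
theorem t4_44 : Φ f r44 = q f m4_44 := by
  show Φ f (r25 * x) = q f m4_44
  rw [map_mul, t4_25, Φ_x, ← map_mul, tm_44]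
theorem t4_45 : Φ f r45 = q f m4_45 := by
  show Φ f (r25 * y) = q f m4_45
  rw [map_mul, t4_25, Φ_y, ← map_mul, tm_45]
theorem t4_46 : Φ f r46 = q f m4_46 := by
  show Φ f (r26 * z) = q f m4_46
  rw [map_mul, t4_26, Φ_z, ← map_mul, tm_46]
theorem t4_47 : Φ f r47 = q f m4_47 := by
  show Φ f (r27 * z) = q f m4_47
  rw [map_mul, t4_27, Φ_z, ← map_mul, tm_47]
theorem t4_48 : Φ f r48 = q f m4_48 := by
  show Φ f (r28 * y) = q f m4_48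
  rw [map_mul, t4_28, Φ_y, ← map_mul, tm_48]
theorem t4_49 : Φ f r49 = q f m4_49 := by
  show Φ f (r28 * z) = q f m4_49
  rw [map_mul, t4_28, Φ_z, ← map_mul, tm_49]
theorem t4_50 : Φ f r50 = q f m4_50 := by
  show Φ f (r29 * x) = q f m4_50
  rw [map_mul, t4_29, Φ_x, ← map_mul, tm_50]
theorem t4_51 : Φ f r51 = q f m4_51 := by
  show Φ f (r29 * z) = q f m4_51
  rw [map_mul, t4_29, Φ_z, ← map_mul, tm_51]
theorem t4_52 : Φ f r52 = q f m4_52 := by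
  show Φ f (r30 * z) = q f m4_52
  rw [map_mul, t4_30, Φ_z, ← map_mul, tm_52]
theorem t4_53 : Φ f r53 = q f m4_53 := by
  show Φ f (r32 * z) = q f m4_53
  rw [map_mul, t4_32, Φ_z, ← map_mul, tm_53]
theorem t4_54 : Φ f r54 = q f m4_54 := by
  show Φ f (r34 * z) = q f m4_54
  rw [map_mul, t4_34, Φ_z, ← map_mul, tm_54]
theorem t4_55 : Φ f r55 = q f m4_55 := by
  show Φ f (r35 * z) = q f m4_55
  rw [map_mul, t4_35, Φ_z, ← map_mul, tm_55]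
theorem t4_56 : Φ f r56 = q f m4_56 := by
  show Φ f (r36 * z) = q f m4_56
  rw [map_mul, t4_36, Φ_z, ← map_mul, tm_56]
theorem t4_57 : Φ f r57 = q f m4_57 := by
  show Φ f (r38 * z) = q f m4_57
  rw [map_mul, t4_38, Φ_z, ← map_mul, tm_57]
theorem t4_58 : Φ f r58 = q f m4_58 := by
  show Φ f (r42 * z) = q f m4_58
  rw [map_mul, t4_42, Φ_z, ← map_mul, tm_58]
theorem t4_59 : Φ f r59 = q f m4_59 := by
  show Φ f (r43 * z) = q f m4_59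
  rw [map_mul, t4_43, Φ_z, ← map_mul, tm_59]
theorem t4_60 : Φ f r60 = q f m4_60 := by
  show Φ f (r44 * z) = q f m4_60
  rw [map_mul, t4_44, Φ_z, ← map_mul, tm_60]
theorem t4_61 : Φ f r61 = q f m4_61 := by
  show Φ f (r45 * z) = q f m4_61
  rw [map_mul, t4_45, Φ_z, ← map_mul, tm_61]
theorem t4_62 : Φ f r62 = q f m4_62 := by
  show Φ f (r48 * z) = q f m4_62
  rw [map_mul, t4_48, Φ_z, ← map_mul, tm_62]
theorem t4_63 : Φ f r63 = q f m4_63 := by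
  show Φ f (r50 * z) = q f m4_63
  rw [map_mul, t4_50, Φ_z, ← map_mul, tm_63]
theorem Φ_rep_c0 : ∀ b : Fin 64, Φ f (rep_c0 b) = q f (M4_c0 b)
  | ⟨0, _⟩ => t4_0 f
  | ⟨1, _⟩ => t4_1 f
  | ⟨2, _⟩ => t4_2 f
  | ⟨3, _⟩ => t4_3 f
  | ⟨4, _⟩ => t4_4 f
  | ⟨5, _⟩ => t4_5 f
  | ⟨6, _⟩ => t4_6 f
  | ⟨7, _⟩ => t4_7 f
  | ⟨8, _⟩ => t4_8 f
  | ⟨9, _⟩ => t4_9 f
  | ⟨10, _⟩ => t4_10 f
  | ⟨11, _⟩ => t4_11 f
  | ⟨12, _⟩ => t4_12 f
  | ⟨13, _⟩ => t4_13 f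
  | ⟨14, _⟩ => t4_14 f
  | ⟨15, _⟩ => t4_15 f
  | ⟨16, _⟩ => t4_16 f
  | ⟨17, _⟩ => t4_17 f
  | ⟨18, _⟩ => t4_18 f
  | ⟨19, _⟩ => t4_19 f
  | ⟨20, _⟩ => t4_20 f
  | ⟨21, _⟩ => t4_21 f
  | ⟨22, _⟩ => t4_22 f
  | ⟨23, _⟩ => t4_23 f
  | ⟨24, _⟩ => t4_24 f
  | ⟨25, _⟩ => t4_25 f
  | ⟨26, _⟩ => t4_26 f
  | ⟨27, _⟩ => t4_27 f
  | ⟨28, _⟩ => t4_28 f
  | ⟨29, _⟩ => t4_29 f
  | ⟨30, _⟩ => t4_30 f
  | ⟨31, _⟩ => t4_31 f
  | ⟨32, _⟩ => t4_32 f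
  | ⟨33, _⟩ => t4_33 f
  | ⟨34, _⟩ => t4_34 f
  | ⟨35, _⟩ => t4_35 f
  | ⟨36, _⟩ => t4_36 f
  | ⟨37, _⟩ => t4_37 f
  | ⟨38, _⟩ => t4_38 f
  | ⟨39, _⟩ => t4_39 f
  | ⟨40, _⟩ => t4_40 f
  | ⟨41, _⟩ => t4_41 f
  | ⟨42, _⟩ => t4_42 f
  | ⟨43, _⟩ => t4_43 f
  | ⟨44, _⟩ => t4_44 f
  | ⟨45, _⟩ => t4_45 f
  | ⟨46, _⟩ => t4_46 f
  | ⟨47, _⟩ => t4_47 f
  | ⟨48, _⟩ => t4_48 f
  | ⟨49, _⟩ => t4_49 f
  | ⟨50, _⟩ => t4_50 f
  | ⟨51, _⟩ => t4_51 f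
  | ⟨52, _⟩ => t4_52 f
  | ⟨53, _⟩ => t4_53 f
  | ⟨54, _⟩ => t4_54 f
  | ⟨55, _⟩ => t4_55 f
  | ⟨56, _⟩ => t4_56 f
  | ⟨57, _⟩ => t4_57 f
  | ⟨58, _⟩ => t4_58 f
  | ⟨59, _⟩ => t4_59 f
  | ⟨60, _⟩ => t4_60 f
  | ⟨61, _⟩ => t4_61 f
  | ⟨62, _⟩ => t4_62 f
  | ⟨63, _⟩ => t4_63 f
  | ⟨n+64, h⟩ => absurd h (by omega)
theorem Φ_rep_ch : ∀ (a : Fin 1) (b : Fin 64), Φ f (rep_ch a b) = q f (M4_ch a b)
  | ⟨0, _⟩ => Φ_rep_c0 f
  | ⟨n+1, h⟩ => absurd h (by omega)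
theorem Φ_rep (i : Idx) : Φ f (rep i) = q f (M4 i) :=
  Φ_rep_ch f i.1 i.2
theorem Φ_inj : Function.Injective (Φ f) := by
  rw [injective_iff_map_eq_one]
  intro p hp
  obtain ⟨i, rfl⟩ := rep_surj p
  rw [Φ_rep] at hp
  rw [ker4 i (q_comm f _ hp sX) (q_comm f _ hp sY) (q_comm f _ hp sZ)]
  rfl

end target4

end A

/-! ### The group of order 128: Sylow 2-subgroups of `Sym(8)` and the orthogonal group -/

namespace B

open Matrix

abbrev fx : FreeGroup (Fin 3) := FreeGroup.of 0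

abbrev fy : FreeGroup (Fin 3) := FreeGroup.of 1

abbrev fz : FreeGroup (Fin 3) := FreeGroup.of 2

abbrev rels : Set (FreeGroup (Fin 3)) :=
  {fz * fz * fz * fz,
   fz * fz * fy * fz * fy * fy * fz * fy,
   fz * fz * fz * fy * fz * fz * fz * fy,
   fz * fy * fx * fz * fx * fz * fy * fx * fz * fx,
   fz * fy * fy * fy * fz * fy * fy * fx * fy * fx,
   fz * fz * fx * fz * fy * fx * fy * fx * fz * fx,
   fz * fz * fy * fy * fz * fz * fx * fy * fx * fy,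
   fz * fz * fy * fz * fx * fy * fx * fy * fz * fy,
   fz * fz * fy * fz * fx * fy * fy * fx * fz * fy,
   fz * fz * fy * fz * fy * fx * fy * fx * fz * fy,
   fz * fz * fy * fz * fy * fy * fz * fx * fy * fx,
   fz * fz * fy * fz * fz * fx * fz * fy * fz * fx,
   fz * fz * fz * fy * fz * fz * fz * fx * fy * fx}

abbrev P := PresentedGroup rels

noncomputable def x : P := PresentedGroup.of 0

noncomputable def y : P := PresentedGroup.of 1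

noncomputable def z : P := PresentedGroup.of 2

theorem hR0 : z * z * z * z = 1 := by
  have h : PresentedGroup.mk rels (fz * fz * fz * fz) = 1 :=
    PresentedGroup.one_of_mem (by simp [rels])
  simp only [map_mul] at h
  exact h
theorem rel0 (a : P) : a * z * z * z * z = a := by
  calc a * z * z * z * z = a * (z * z * z * z) := by simp only [mul_assoc]
    _ = a := by rw [hR0, mul_one]

theorem hR1 : z * z * y * z * y * y * z * y = 1 := by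
  have h : PresentedGroup.mk rels (fz * fz * fy * fz * fy * fy * fz * fy) = 1 :=
    PresentedGroup.one_of_mem (by simp [rels])
  simp only [map_mul] at h
  exact h
theorem rel1 (a : P) : a * z * z * y * z * y * y * z * y = a := by
  calc a * z * z * y * z * y * y * z * y = a * (z * z * y * z * y * y * z * y) := by simp only [mul_assoc]
    _ = a := by rw [hR1, mul_one]

theorem hR2 : z * z * z * y * z * z * z * y = 1 := by
  have h : PresentedGroup.mk rels (fz * fz * fz * fy * fz * fz * fz * fy) = 1 :=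
    PresentedGroup.one_of_mem (by simp [rels])
  simp only [map_mul] at h
  exact h
theorem rel2 (a : P) : a * z * z * z * y * z * z * z * y = a := by
  calc a * z * z * z * y * z * z * z * y = a * (z * z * z * y * z * z * z * y) := by simp only [mul_assoc]
    _ = a := by rw [hR2, mul_one]

theorem hR3 : z * y * x * z * x * z * y * x * z * x = 1 := by
  have h : PresentedGroup.mk rels (fz * fy * fx * fz * fx * fz * fy * fx * fz * fx) = 1 :=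
    PresentedGroup.one_of_mem (by simp [rels])
  simp only [map_mul] at h
  exact h
theorem rel3 (a : P) : a * z * y * x * z * x * z * y * x * z * x = a := by
  calc a * z * y * x * z * x * z * y * x * z * x = a * (z * y * x * z * x * z * y * x * z * x) := by simp only [mul_assoc]
    _ = a := by rw [hR3, mul_one]

theorem hR4 : z * y * y * y * z * y * y * x * y * x = 1 := by
  have h : PresentedGroup.mk rels (fz * fy * fy * fy * fz * fy * fy * fx * fy * fx) = 1 :=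
    PresentedGroup.one_of_mem (by simp [rels])
  simp only [map_mul] at h
  exact h
theorem rel4 (a : P) : a * z * y * y * y * z * y * y * x * y * x = a := by
  calc a * z * y * y * y * z * y * y * x * y * x = a * (z * y * y * y * z * y * y * x * y * x) := by simp only [mul_assoc]
    _ = a := by rw [hR4, mul_one]

theorem hR5 : z * z * x * z * y * x * y * x * z * x = 1 := by
  have h : PresentedGroup.mk rels (fz * fz * fx * fz * fy * fx * fy * fx * fz * fx) = 1 :=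
    PresentedGroup.one_of_mem (by simp [rels])
  simp only [map_mul] at h
  exact h
theorem rel5 (a : P) : a * z * z * x * z * y * x * y * x * z * x = a := by
  calc a * z * z * x * z * y * x * y * x * z * x = a * (z * z * x * z * y * x * y * x * z * x) := by simp only [mul_assoc]
    _ = a := by rw [hR5, mul_one]

theorem hR6 : z * z * y * y * z * z * x * y * x * y = 1 := by
  have h : PresentedGroup.mk rels (fz * fz * fy * fy * fz * fz * fx * fy * fx * fy) = 1 :=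
    PresentedGroup.one_of_mem (by simp [rels])
  simp only [map_mul] at h
  exact h
theorem rel6 (a : P) : a * z * z * y * y * z * z * x * y * x * y = a := by
  calc a * z * z * y * y * z * z * x * y * x * y = a * (z * z * y * y * z * z * x * y * x * y) := by simp only [mul_assoc]
    _ = a := by rw [hR6, mul_one]

theorem hR7 : z * z * y * z * x * y * x * y * z * y = 1 := by
  have h : PresentedGroup.mk rels (fz * fz * fy * fz * fx * fy * fx * fy * fz * fy) = 1 :=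
    PresentedGroup.one_of_mem (by simp [rels])
  simp only [map_mul] at h
  exact h
theorem rel7 (a : P) : a * z * z * y * z * x * y * x * y * z * y = a := by
  calc a * z * z * y * z * x * y * x * y * z * y = a * (z * z * y * z * x * y * x * y * z * y) := by simp only [mul_assoc]
    _ = a := by rw [hR7, mul_one]

theorem hR8 : z * z * y * z * x * y * y * x * z * y = 1 := by
  have h : PresentedGroup.mk rels (fz * fz * fy * fz * fx * fy * fy * fx * fz * fy) = 1 :=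
    PresentedGroup.one_of_mem (by simp [rels])
  simp only [map_mul] at h
  exact h
theorem rel8 (a : P) : a * z * z * y * z * x * y * y * x * z * y = a := by
  calc a * z * z * y * z * x * y * y * x * z * y = a * (z * z * y * z * x * y * y * x * z * y) := by simp only [mul_assoc]
    _ = a := by rw [hR8, mul_one]

theorem hR9 : z * z * y * z * y * x * y * x * z * y = 1 := by
  have h : PresentedGroup.mk rels (fz * fz * fy * fz * fy * fx * fy * fx * fz * fy) = 1 :=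
    PresentedGroup.one_of_mem (by simp [rels])
  simp only [map_mul] at h
  exact h
theorem rel9 (a : P) : a * z * z * y * z * y * x * y * x * z * y = a := by
  calc a * z * z * y * z * y * x * y * x * z * y = a * (z * z * y * z * y * x * y * x * z * y) := by simp only [mul_assoc]
    _ = a := by rw [hR9, mul_one]

theorem hR10 : z * z * y * z * y * y * z * x * y * x = 1 := by
  have h : PresentedGroup.mk rels (fz * fz * fy * fz * fy * fy * fz * fx * fy * fx) = 1 :=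
    PresentedGroup.one_of_mem (by simp [rels])
  simp only [map_mul] at h
  exact h
theorem rel10 (a : P) : a * z * z * y * z * y * y * z * x * y * x = a := by
  calc a * z * z * y * z * y * y * z * x * y * x = a * (z * z * y * z * y * y * z * x * y * x) := by simp only [mul_assoc]
    _ = a := by rw [hR10, mul_one]

theorem hR11 : z * z * y * z * z * x * z * y * z * x = 1 := by
  have h : PresentedGroup.mk rels (fz * fz * fy * fz * fz * fx * fz * fy * fz * fx) = 1 :=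
    PresentedGroup.one_of_mem (by simp [rels])
  simp only [map_mul] at h
  exact h
theorem rel11 (a : P) : a * z * z * y * z * z * x * z * y * z * x = a := by
  calc a * z * z * y * z * z * x * z * y * z * x = a * (z * z * y * z * z * x * z * y * z * x) := by simp only [mul_assoc]
    _ = a := by rw [hR11, mul_one]

theorem hR12 : z * z * z * y * z * z * z * x * y * x = 1 := by
  have h : PresentedGroup.mk rels (fz * fz * fz * fy * fz * fz * fz * fx * fy * fx) = 1 :=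
    PresentedGroup.one_of_mem (by simp [rels])
  simp only [map_mul] at h
  exact h
theorem rel12 (a : P) : a * z * z * z * y * z * z * z * x * y * x = a := by
  calc a * z * z * z * y * z * z * z * x * y * x = a * (z * z * z * y * z * z * z * x * y * x) := by simp only [mul_assoc]
    _ = a := by rw [hR12, mul_one]

noncomputable def r0 : P := 1
noncomputable def r1 : P := r0 * x
noncomputable def r2 : P := r0 * y
noncomputable def r3 : P := r0 * z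
noncomputable def r4 : P := r1 * y
noncomputable def r5 : P := r1 * z
noncomputable def r6 : P := r2 * y
noncomputable def r7 : P := r2 * z
noncomputable def r8 : P := r3 * x
noncomputable def r9 : P := r3 * y
noncomputable def r10 : P := r3 * z
noncomputable def r11 : P := r4 * y
noncomputable def r12 : P := r4 * z
noncomputable def r13 : P := r5 * x
noncomputable def r14 : P := r5 * y
noncomputable def r15 : P := r5 * z
noncomputable def r16 : P := r6 * y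
noncomputable def r17 : P := r6 * z
noncomputable def r18 : P := r7 * x
noncomputable def r19 : P := r7 * y
noncomputable def r20 : P := r7 * z
noncomputable def r21 : P := r8 * y
noncomputable def r22 : P := r8 * z
noncomputable def r23 : P := r9 * y
noncomputable def r24 : P := r9 * z
noncomputable def r25 : P := r10 * x
noncomputable def r26 : P := r10 * y
noncomputable def r27 : P := r10 * z
noncomputable def r28 : P := r11 * y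
noncomputable def r29 : P := r11 * z
noncomputable def r30 : P := r12 * x
noncomputable def r31 : P := r12 * y
noncomputable def r32 : P := r12 * z
noncomputable def r33 : P := r13 * y
noncomputable def r34 : P := r13 * z
noncomputable def r35 : P := r14 * y
noncomputable def r36 : P := r14 * z
noncomputable def r37 : P := r15 * x
noncomputable def r38 : P := r15 * y
noncomputable def r39 : P := r15 * z
noncomputable def r40 : P := r16 * z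
noncomputable def r41 : P := r17 * x
noncomputable def r42 : P := r17 * y
noncomputable def r43 : P := r17 * z
noncomputable def r44 : P := r18 * y
noncomputable def r45 : P := r18 * z
noncomputable def r46 : P := r19 * y
noncomputable def r47 : P := r19 * z
noncomputable def r48 : P := r20 * x
noncomputable def r49 : P := r20 * z
noncomputable def r50 : P := r21 * y
noncomputable def r51 : P := r21 * z
noncomputable def r52 : P := r22 * x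
noncomputable def r53 : P := r22 * y
noncomputable def r54 : P := r22 * z
noncomputable def r55 : P := r25 * y
noncomputable def r56 : P := r25 * z
noncomputable def r57 : P := r27 * x
noncomputable def r58 : P := r28 * z
noncomputable def r59 : P := r29 * x
noncomputable def r60 : P := r29 * y
noncomputable def r61 : P := r29 * z
noncomputable def r62 : P := r30 * y
noncomputable def r63 : P := r30 * z
noncomputable def r64 : P := r31 * y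
noncomputable def r65 : P := r31 * z
noncomputable def r66 : P := r32 * x
noncomputable def r67 : P := r32 * z
noncomputable def r68 : P := r33 * y
noncomputable def r69 : P := r33 * z
noncomputable def r70 : P := r34 * x
noncomputable def r71 : P := r34 * y
noncomputable def r72 : P := r34 * z
noncomputable def r73 : P := r37 * y
noncomputable def r74 : P := r37 * z
noncomputable def r75 : P := r39 * x
noncomputable def r76 : P := r40 * x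
noncomputable def r77 : P := r41 * y
noncomputable def r78 : P := r41 * z
noncomputable def r79 : P := r42 * y
noncomputable def r80 : P := r42 * z
noncomputable def r81 : P := r43 * x
noncomputable def r82 : P := r43 * z
noncomputable def r83 : P := r44 * y
noncomputable def r84 : P := r44 * z
noncomputable def r85 : P := r45 * y
noncomputable def r86 : P := r45 * z
noncomputable def r87 : P := r49 * x
noncomputable def r88 : P := r51 * y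
noncomputable def r89 : P := r51 * z
noncomputable def r90 : P := r54 * z
noncomputable def r91 : P := r55 * z
noncomputable def r92 : P := r56 * x
noncomputable def r93 : P := r56 * y
noncomputable def r94 : P := r56 * z
noncomputable def r95 : P := r57 * z
noncomputable def r96 : P := r58 * x
noncomputable def r97 : P := r59 * y
noncomputable def r98 : P := r59 * z
noncomputable def r99 : P := r60 * y
noncomputable def r100 : P := r60 * z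
noncomputable def r101 : P := r61 * x
noncomputable def r102 : P := r61 * z
noncomputable def r103 : P := r62 * y
noncomputable def r104 : P := r62 * z
noncomputable def r105 : P := r63 * y
noncomputable def r106 : P := r63 * z
noncomputable def r107 : P := r67 * x
noncomputable def r108 : P := r69 * y
noncomputable def r109 : P := r69 * z
noncomputable def r110 : P := r72 * z
noncomputable def r111 : P := r73 * z
noncomputable def r112 : P := r74 * x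
noncomputable def r113 : P := r74 * y
noncomputable def r114 : P := r74 * z
noncomputable def r115 : P := r75 * z
noncomputable def r116 : P := r76 * z
noncomputable def r117 : P := r77 * y
noncomputable def r118 : P := r77 * z
noncomputable def r119 : P := r78 * y
noncomputable def r120 : P := r86 * z
noncomputable def r121 : P := r87 * z
noncomputable def r122 : P := r96 * z
noncomputable def r123 : P := r97 * y
noncomputable def r124 : P := r97 * z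
noncomputable def r125 : P := r98 * y
noncomputable def r126 : P := r106 * z
noncomputable def r127 : P := r107 * z
theorem e_0_x : r0 * x = r1 := rfl
theorem e_0_y : r0 * y = r2 := rfl
theorem e_0_z : r0 * z = r3 := rfl
theorem e_1_y : r1 * y = r4 := rfl
theorem e_1_z : r1 * z = r5 := rfl
theorem e_2_y : r2 * y = r6 := rfl
theorem e_2_z : r2 * z = r7 := rfl
theorem e_3_x : r3 * x = r8 := rfl
theorem e_3_y : r3 * y = r9 := rfl
theorem e_3_z : r3 * z = r10 := rfl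
theorem e_4_y : r4 * y = r11 := rfl
theorem e_4_z : r4 * z = r12 := rfl
theorem e_5_x : r5 * x = r13 := rfl
theorem e_5_y : r5 * y = r14 := rfl
theorem e_5_z : r5 * z = r15 := rfl
theorem e_6_y : r6 * y = r16 := rfl
theorem e_6_z : r6 * z = r17 := rfl
theorem e_7_x : r7 * x = r18 := rfl
theorem e_7_y : r7 * y = r19 := rfl
theorem e_7_z : r7 * z = r20 := rfl
theorem e_8_y : r8 * y = r21 := rfl
theorem e_8_z : r8 * z = r22 := rfl
theorem e_9_y : r9 * y = r23 := rfl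
theorem e_9_z : r9 * z = r24 := rfl
theorem e_10_x : r10 * x = r25 := rfl
theorem e_10_y : r10 * y = r26 := rfl
theorem e_10_z : r10 * z = r27 := rfl
theorem e_11_y : r11 * y = r28 := rfl
theorem e_11_z : r11 * z = r29 := rfl
theorem e_12_x : r12 * x = r30 := rfl
theorem e_12_y : r12 * y = r31 := rfl
theorem e_12_z : r12 * z = r32 := rfl
theorem e_13_y : r13 * y = r33 := rfl
theorem e_13_z : r13 * z = r34 := rfl
theorem e_14_y : r14 * y = r35 := rfl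
theorem e_14_z : r14 * z = r36 := rfl
theorem e_15_x : r15 * x = r37 := rfl
theorem e_15_y : r15 * y = r38 := rfl
theorem e_15_z : r15 * z = r39 := rfl
theorem e_16_z : r16 * z = r40 := rfl
theorem e_17_x : r17 * x = r41 := rfl
theorem e_17_y : r17 * y = r42 := rfl
theorem e_17_z : r17 * z = r43 := rfl
theorem e_18_y : r18 * y = r44 := rfl
theorem e_18_z : r18 * z = r45 := rfl
theorem e_19_y : r19 * y = r46 := rfl
theorem e_19_z : r19 * z = r47 := rfl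
theorem e_20_x : r20 * x = r48 := rfl
theorem e_20_z : r20 * z = r49 := rfl
theorem e_21_y : r21 * y = r50 := rfl
theorem e_21_z : r21 * z = r51 := rfl
theorem e_22_x : r22 * x = r52 := rfl
theorem e_22_y : r22 * y = r53 := rfl
theorem e_22_z : r22 * z = r54 := rfl
theorem e_25_y : r25 * y = r55 := rfl
theorem e_25_z : r25 * z = r56 := rfl
theorem e_27_x : r27 * x = r57 := rfl
theorem e_28_z : r28 * z = r58 := rfl
theorem e_29_x : r29 * x = r59 := rfl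
theorem e_29_y : r29 * y = r60 := rfl
theorem e_29_z : r29 * z = r61 := rfl
theorem e_30_y : r30 * y = r62 := rfl
theorem e_30_z : r30 * z = r63 := rfl
theorem e_31_y : r31 * y = r64 := rfl
theorem e_31_z : r31 * z = r65 := rfl
theorem e_32_x : r32 * x = r66 := rfl
theorem e_32_z : r32 * z = r67 := rfl
theorem e_33_y : r33 * y = r68 := rfl
theorem e_33_z : r33 * z = r69 := rfl
theorem e_34_x : r34 * x = r70 := rfl
theorem e_34_y : r34 * y = r71 := rfl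
theorem e_34_z : r34 * z = r72 := rfl
theorem e_37_y : r37 * y = r73 := rfl
theorem e_37_z : r37 * z = r74 := rfl
theorem e_39_x : r39 * x = r75 := rfl
theorem e_40_x : r40 * x = r76 := rfl
theorem e_41_y : r41 * y = r77 := rfl
theorem e_41_z : r41 * z = r78 := rfl
theorem e_42_y : r42 * y = r79 := rfl
theorem e_42_z : r42 * z = r80 := rfl
theorem e_43_x : r43 * x = r81 := rfl
theorem e_43_z : r43 * z = r82 := rfl
theorem e_44_y : r44 * y = r83 := rfl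
theorem e_44_z : r44 * z = r84 := rfl
theorem e_45_y : r45 * y = r85 := rfl
theorem e_45_z : r45 * z = r86 := rfl
theorem e_49_x : r49 * x = r87 := rfl
theorem e_51_y : r51 * y = r88 := rfl
theorem e_51_z : r51 * z = r89 := rfl
theorem e_54_z : r54 * z = r90 := rfl
theorem e_55_z : r55 * z = r91 := rfl
theorem e_56_x : r56 * x = r92 := rfl
theorem e_56_y : r56 * y = r93 := rfl
theorem e_56_z : r56 * z = r94 := rfl
theorem e_57_z : r57 * z = r95 := rfl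
theorem e_58_x : r58 * x = r96 := rfl
theorem e_59_y : r59 * y = r97 := rfl
theorem e_59_z : r59 * z = r98 := rfl
theorem e_60_y : r60 * y = r99 := rfl
theorem e_60_z : r60 * z = r100 := rfl
theorem e_61_x : r61 * x = r101 := rfl
theorem e_61_z : r61 * z = r102 := rfl
theorem e_62_y : r62 * y = r103 := rfl
theorem e_62_z : r62 * z = r104 := rfl
theorem e_63_y : r63 * y = r105 := rfl
theorem e_63_z : r63 * z = r106 := rfl
theorem e_67_x : r67 * x = r107 := rfl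
theorem e_69_y : r69 * y = r108 := rfl
theorem e_69_z : r69 * z = r109 := rfl
theorem e_72_z : r72 * z = r110 := rfl
theorem e_73_z : r73 * z = r111 := rfl
theorem e_74_x : r74 * x = r112 := rfl
theorem e_74_y : r74 * y = r113 := rfl
theorem e_74_z : r74 * z = r114 := rfl
theorem e_75_z : r75 * z = r115 := rfl
theorem e_76_z : r76 * z = r116 := rfl
theorem e_77_y : r77 * y = r117 := rfl
theorem e_77_z : r77 * z = r118 := rfl
theorem e_78_y : r78 * y = r119 := rfl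
theorem e_86_z : r86 * z = r120 := rfl
theorem e_87_z : r87 * z = r121 := rfl
theorem e_96_z : r96 * z = r122 := rfl
theorem e_97_y : r97 * y = r123 := rfl
theorem e_97_z : r97 * z = r124 := rfl
theorem e_98_y : r98 * y = r125 := rfl
theorem e_106_z : r106 * z = r126 := rfl
theorem e_107_z : r107 * z = r127 := rfl
theorem e_27_z : r27 * z = r0 := by
  have h := rel0 r0
  simp only [e_0_z, e_3_z, e_10_z] at h
  exact h
theorem e_39_z : r39 * z = r1 := by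
  have h := rel0 r1
  simp only [e_1_z, e_5_z, e_15_z] at h
  exact h
theorem e_49_z : r49 * z = r2 := by
  have h := rel0 r2
  simp only [e_2_z, e_7_z, e_20_z] at h
  exact h
theorem e_67_z : r67 * z = r4 := by
  have h := rel0 r4
  simp only [e_4_z, e_12_z, e_32_z] at h
  exact h
theorem e_82_z : r82 * z = r6 := by
  have h := rel0 r6
  simp only [e_6_z, e_17_z, e_43_z] at h
  exact h
theorem e_90_z : r90 * z = r8 := by
  have h := rel0 r8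
  simp only [e_8_z, e_22_z, e_54_z] at h
  exact h
theorem e_102_z : r102 * z = r11 := by
  have h := rel0 r11
  simp only [e_11_z, e_29_z, e_61_z] at h
  exact h
theorem e_110_z : r110 * z = r13 := by
  have h := rel0 r13
  simp only [e_13_z, e_34_z, e_72_z] at h
  exact h
theorem e_120_z : r120 * z = r18 := by
  have h := rel0 r18
  simp only [e_18_z, e_45_z, e_86_z] at h
  exact h
theorem e_126_z : r126 * z = r30 := by
  have h := rel0 r30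
  simp only [e_30_z, e_63_z, e_106_z] at h
  exact h
theorem e_49_y : r49 * y = r3 := by
  have h := rel2 r2
  simp only [e_2_z, e_7_z, e_20_z] at h
  have h2 : r3 * z * z * z * y = r2 := by simp only [e_3_z, e_10_z, e_27_z, e_0_y]
  exact (mul_right_cancel (mul_right_cancel (mul_right_cancel (mul_right_cancel (h.trans h2.symm)))))
theorem e_67_y : r67 * y = r5 := by
  have h := rel2 r4
  simp only [e_4_z, e_12_z, e_32_z] at h
  have h2 : r5 * z * z * z * y = r4 := by simp only [e_5_z, e_15_z, e_39_z, e_1_y]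
  exact (mul_right_cancel (mul_right_cancel (mul_right_cancel (mul_right_cancel (h.trans h2.symm)))))
theorem e_82_y : r82 * y = r7 := by
  have h := rel2 r6
  simp only [e_6_z, e_17_z, e_43_z] at h
  have h2 : r7 * z * z * z * y = r6 := by simp only [e_7_z, e_20_z, e_49_z, e_2_y]
  exact (mul_right_cancel (mul_right_cancel (mul_right_cancel (mul_right_cancel (h.trans h2.symm)))))
theorem e_102_y : r102 * y = r12 := by
  have h := rel2 r11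
  simp only [e_11_z, e_29_z, e_61_z] at h
  have h2 : r12 * z * z * z * y = r11 := by simp only [e_12_z, e_32_z, e_67_z, e_4_y]
  exact (mul_right_cancel (mul_right_cancel (mul_right_cancel (mul_right_cancel (h.trans h2.symm)))))
theorem e_4_x : r4 * x = r2 := by
  have h := rel12 r2
  simp only [e_2_z, e_7_z, e_20_z, e_49_y, e_3_z, e_10_z, e_27_z, e_0_x, e_1_y] at h
  exact h
theorem e_6_x : r6 * x = r11 := by
  have h := rel12 r11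
  simp only [e_11_z, e_29_z, e_61_z, e_102_y, e_12_z, e_32_z, e_67_z, e_4_x, e_2_y] at h
  exact h
theorem e_26_y : r26 * y = r43 := by
  have h := rel1 r7
  simp only [e_7_z, e_20_z, e_49_y, e_3_z, e_10_y] at h
  have h2 : r43 * z * y = r7 := by simp only [e_43_z, e_82_y]
  exact (mul_right_cancel (mul_right_cancel (h.trans h2.symm)))
theorem e_38_y : r38 * y = r61 := by
  have h := rel1 r12
  simp only [e_12_z, e_32_z, e_67_y, e_5_z, e_15_y] at h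
  have h2 : r61 * z * y = r12 := by simp only [e_61_z, e_102_y]
  exact (mul_right_cancel (mul_right_cancel (h.trans h2.symm)))
theorem e_55_x : r55 * x = r26 := by
  have h := rel7 r7
  simp only [e_7_z, e_20_z, e_49_y, e_3_z, e_10_x, e_25_y] at h
  have h2 : r26 * y * z * y = r7 := by simp only [e_26_y, e_43_z, e_82_y]
  exact (mul_right_cancel (mul_right_cancel (mul_right_cancel (h.trans h2.symm))))
theorem e_73_x : r73 * x = r38 := by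
  have h := rel7 r12
  simp only [e_12_z, e_32_z, e_67_y, e_5_z, e_15_x, e_37_y] at h
  have h2 : r38 * y * z * y = r12 := by simp only [e_38_y, e_61_z, e_102_y]
  exact (mul_right_cancel (mul_right_cancel (mul_right_cancel (h.trans h2.symm))))
theorem e_16_y : r16 * y = r0 := by
  have h := rel6 r43
  simp only [e_43_z, e_82_z, e_6_y] at h
  have h2 : r0 * z * z * x * y * x * y = r43 := by simp only [e_0_z, e_3_z, e_10_x, e_25_y, e_55_x, e_26_y]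
  exact (mul_right_cancel (mul_right_cancel (mul_right_cancel (mul_right_cancel (mul_right_cancel (mul_right_cancel (h.trans h2.symm)))))))
theorem e_28_y : r28 * y = r1 := by
  have h := rel6 r61
  simp only [e_61_z, e_102_z, e_11_y] at h
  have h2 : r1 * z * z * x * y * x * y = r61 := by simp only [e_1_z, e_5_z, e_15_x, e_37_y, e_73_x, e_38_y]
  exact (mul_right_cancel (mul_right_cancel (mul_right_cancel (mul_right_cancel (mul_right_cancel (mul_right_cancel (h.trans h2.symm)))))))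
theorem e_46_y : r46 * y = r82 := by
  have h := rel4 r2
  simp only [e_2_z, e_7_y, e_19_y] at h
  have h2 : r82 * z * y * y * x * y * x = r2 := by simp only [e_82_z, e_6_y, e_16_y, e_0_x, e_1_y, e_4_x]
  exact (mul_right_cancel (mul_right_cancel (mul_right_cancel (mul_right_cancel (mul_right_cancel (mul_right_cancel (h.trans h2.symm)))))))
theorem e_28_x : r28 * x = r16 := by
  have h := rel6 r0
  simp only [e_0_z, e_3_z, e_10_y, e_26_y, e_43_z, e_82_z, e_6_x, e_11_y] at h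
  have h2 : r16 * y = r0 := by simp only [e_16_y]
  exact (mul_right_cancel (h.trans h2.symm))
theorem e_24_z : r24 * z = r46 := by
  have h := rel7 r9
  simp only [e_9_z] at h
  have h2 : r46 * y * z * x * y * x * y * z * y = r9 := by simp only [e_46_y, e_82_z, e_6_x, e_11_y, e_28_x, e_16_y, e_0_z, e_3_y]
  exact (mul_right_cancel (mul_right_cancel (mul_right_cancel (mul_right_cancel (mul_right_cancel (mul_right_cancel (mul_right_cancel (mul_right_cancel (h.trans h2.symm)))))))))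
theorem e_1_x : r1 * x = r0 := by
  have h := rel8 r9
  simp only [e_9_z, e_24_z, e_46_y, e_82_z, e_6_x, e_11_y, e_28_y] at h
  have h2 : r0 * z * y = r9 := by simp only [e_0_z, e_3_y]
  exact (mul_right_cancel (mul_right_cancel (h.trans h2.symm)))
theorem e_16_x : r16 * x = r28 := by
  have h := rel9 r9
  simp only [e_9_z, e_24_z, e_46_y, e_82_z, e_6_y] at h
  have h2 : r28 * y * x * z * y = r9 := by simp only [e_28_y, e_1_x, e_0_z, e_3_y]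
  exact (mul_right_cancel (mul_right_cancel (mul_right_cancel (mul_right_cancel (h.trans h2.symm)))))
theorem e_21_x : r21 * x = r9 := by
  have h := rel10 r9
  simp only [e_9_z, e_24_z, e_46_y, e_82_z, e_6_y, e_16_y, e_0_z, e_3_x, e_8_y] at h
  exact h
theorem e_119_z : r119 * z = r21 := by
  have h := rel11 r9
  simp only [e_9_z, e_24_z, e_46_y, e_82_z, e_6_z, e_17_x, e_41_z, e_78_y] at h
  have h2 : r21 * x = r9 := by simp only [e_21_x]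
  exact (mul_right_cancel (h.trans h2.symm))
theorem e_2_x : r2 * x = r4 := by
  have h := rel12 r4
  simp only [e_4_z, e_12_z, e_32_z, e_67_y, e_5_z, e_15_z, e_39_z, e_1_x, e_0_y] at h
  exact h
theorem e_11_x : r11 * x = r6 := by
  have h := rel12 r6
  simp only [e_6_z, e_17_z, e_43_z, e_82_y, e_7_z, e_20_z, e_49_z, e_2_x, e_4_y] at h
  exact h
theorem e_89_z : r89 * z = r119 := by
  have h := rel0 r21
  simp only [e_21_z, e_51_z] at h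
  have h2 : r119 * z = r21 := by simp only [e_119_z]
  exact (mul_right_cancel (h.trans h2.symm))
theorem e_119_y : r119 * y = r22 := by
  have h := rel2 r21
  simp only [e_21_z, e_51_z, e_89_z] at h
  have h2 : r22 * z * z * z * y = r21 := by simp only [e_22_z, e_54_z, e_90_z, e_8_y]
  exact (mul_right_cancel (mul_right_cancel (mul_right_cancel (mul_right_cancel (h.trans h2.symm)))))
theorem e_23_y : r23 * y = r49 := by
  have h := rel4 r0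
  simp only [e_0_z, e_3_y, e_9_y] at h
  have h2 : r49 * z * y * y * x * y * x = r0 := by simp only [e_49_z, e_2_y, e_6_y, e_16_x, e_28_y, e_1_x]
  exact (mul_right_cancel (mul_right_cancel (mul_right_cancel (mul_right_cancel (mul_right_cancel (mul_right_cancel (h.trans h2.symm)))))))
theorem e_35_y : r35 * y = r67 := by
  have h := rel4 r1
  simp only [e_1_z, e_5_y, e_14_y] at h
  have h2 : r67 * z * y * y * x * y * x = r1 := by simp only [e_67_z, e_4_y, e_11_y, e_28_x, e_16_y, e_0_x]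
  exact (mul_right_cancel (mul_right_cancel (mul_right_cancel (mul_right_cancel (mul_right_cancel (mul_right_cancel (h.trans h2.symm)))))))
theorem e_64_y : r64 * y = r102 := by
  have h := rel4 r4
  simp only [e_4_z, e_12_y, e_31_y] at h
  have h2 : r102 * z * y * y * x * y * x = r4 := by simp only [e_102_z, e_11_y, e_28_y, e_1_x, e_0_y, e_2_x]
  exact (mul_right_cancel (mul_right_cancel (mul_right_cancel (mul_right_cancel (mul_right_cancel (mul_right_cancel (h.trans h2.symm)))))))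
theorem e_54_x : r54 * x = r82 := by
  have h := rel5 r8
  simp only [e_8_z, e_22_z] at h
  have h2 : r82 * z * y * x * y * x * z * x = r8 := by simp only [e_82_z, e_6_y, e_16_x, e_28_y, e_1_x, e_0_z, e_3_x]
  exact (mul_right_cancel (mul_right_cancel (mul_right_cancel (mul_right_cancel (mul_right_cancel (mul_right_cancel (mul_right_cancel (h.trans h2.symm))))))))
theorem e_72_x : r72 * x = r102 := by
  have h := rel5 r13
  simp only [e_13_z, e_34_z] at h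
  have h2 : r102 * z * y * x * y * x * z * x = r13 := by simp only [e_102_z, e_11_y, e_28_x, e_16_y, e_0_x, e_1_z, e_5_x]
  exact (mul_right_cancel (mul_right_cancel (mul_right_cancel (mul_right_cancel (mul_right_cancel (mul_right_cancel (mul_right_cancel (h.trans h2.symm))))))))
theorem e_36_z : r36 * z = r64 := by
  have h := rel7 r14
  simp only [e_14_z] at h
  have h2 : r64 * y * z * x * y * x * y * z * y = r14 := by simp only [e_64_y, e_102_z, e_11_x, e_6_y, e_16_x, e_28_y, e_1_z, e_5_y]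
  exact (mul_right_cancel (mul_right_cancel (mul_right_cancel (mul_right_cancel (mul_right_cancel (mul_right_cancel (mul_right_cancel (mul_right_cancel (h.trans h2.symm)))))))))
theorem e_84_y : r84 * y = r51 := by
  have h := rel7 r51
  simp only [e_51_z, e_89_z, e_119_y, e_22_z, e_54_x, e_82_y, e_7_x, e_18_y, e_44_z] at h
  exact h
theorem e_19_x : r19 * x = r44 := by
  have h := rel8 r51
  simp only [e_51_z, e_89_z, e_119_y, e_22_z, e_54_x, e_82_y, e_7_y] at h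
  have h2 : r44 * z * y = r51 := by simp only [e_44_z, e_84_y]
  exact (mul_right_cancel (mul_right_cancel (h.trans h2.symm)))
theorem e_33_x : r33 * x = r14 := by
  have h := rel10 r14
  simp only [e_14_z, e_36_z, e_64_y, e_102_z, e_11_y, e_28_y, e_1_z, e_5_x, e_13_y] at h
  exact h
theorem e_86_y : r86 * y = r41 := by
  have h := rel10 r18
  simp only [e_18_z, e_45_z] at h
  have h2 : r41 * z * y * y * z * x * y * x = r18 := by simp only [e_41_z, e_78_y, e_119_y, e_22_z, e_54_x, e_82_y, e_7_x]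
  exact (mul_right_cancel (mul_right_cancel (mul_right_cancel (mul_right_cancel (mul_right_cancel (mul_right_cancel (mul_right_cancel (h.trans h2.symm))))))))
theorem e_125_z : r125 * z = r33 := by
  have h := rel11 r14
  simp only [e_14_z, e_36_z, e_64_y, e_102_z, e_11_z, e_29_x, e_59_z, e_98_y] at h
  have h2 : r33 * x = r14 := by simp only [e_33_x]
  exact (mul_right_cancel (h.trans h2.symm))
theorem e_120_y : r120 * y = r90 := by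
  have h := rel12 r18
  simp only [e_18_z, e_45_z, e_86_z] at h
  have h2 : r90 * z * z * z * x * y * x = r18 := by simp only [e_90_z, e_8_z, e_22_z, e_54_x, e_82_y, e_7_x]
  exact (mul_right_cancel (mul_right_cancel (mul_right_cancel (mul_right_cancel (mul_right_cancel (mul_right_cancel (h.trans h2.symm)))))))
theorem e_126_y : r126 * y = r110 := by
  have h := rel12 r30
  simp only [e_30_z, e_63_z, e_106_z] at h
  have h2 : r110 * z * z * z * x * y * x = r30 := by simp only [e_110_z, e_13_z, e_34_z, e_72_x, e_102_y, e_12_x]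
  exact (mul_right_cancel (mul_right_cancel (mul_right_cancel (mul_right_cancel (mul_right_cancel (mul_right_cancel (h.trans h2.symm)))))))
theorem e_109_z : r109 * z = r125 := by
  have h := rel0 r33
  simp only [e_33_z, e_69_z] at h
  have h2 : r125 * z = r33 := by simp only [e_125_z]
  exact (mul_right_cancel (h.trans h2.symm))
theorem e_54_y : r54 * y = r18 := by
  have h := rel1 r18
  simp only [e_18_z, e_45_z, e_86_y, e_41_z, e_78_y, e_119_y, e_22_z] at h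
  exact h
theorem e_72_y : r72 * y = r30 := by
  have h := rel2 r30
  simp only [e_30_z, e_63_z, e_106_z, e_126_y, e_110_z, e_13_z, e_34_z] at h
  exact h
theorem e_125_y : r125 * y = r34 := by
  have h := rel2 r33
  simp only [e_33_z, e_69_z, e_109_z] at h
  have h2 : r34 * z * z * z * y = r33 := by simp only [e_34_z, e_72_z, e_110_z, e_13_y]
  exact (mul_right_cancel (mul_right_cancel (mul_right_cancel (mul_right_cancel (h.trans h2.symm)))))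
theorem e_104_y : r104 * y = r69 := by
  have h := rel7 r69
  simp only [e_69_z, e_109_z, e_125_y, e_34_z, e_72_x, e_102_y, e_12_x, e_30_y, e_62_z] at h
  exact h
theorem e_31_x : r31 * x = r62 := by
  have h := rel8 r69
  simp only [e_69_z, e_109_z, e_125_y, e_34_z, e_72_x, e_102_y, e_12_y] at h
  have h2 : r62 * z * y = r69 := by simp only [e_62_z, e_104_y]
  exact (mul_right_cancel (mul_right_cancel (h.trans h2.symm)))
theorem e_18_x : r18 * x = r7 := by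
  have h := rel9 r51
  simp only [e_51_z, e_89_z, e_119_y, e_22_z, e_54_y] at h
  have h2 : r7 * y * x * z * y = r51 := by simp only [e_7_y, e_19_x, e_44_z, e_84_y]
  exact (mul_right_cancel (mul_right_cancel (mul_right_cancel (mul_right_cancel (h.trans h2.symm)))))
theorem e_30_x : r30 * x = r12 := by
  have h := rel9 r69
  simp only [e_69_z, e_109_z, e_125_y, e_34_z, e_72_y] at h
  have h2 : r12 * y * x * z * y = r69 := by simp only [e_12_y, e_31_x, e_62_z, e_104_y]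
  exact (mul_right_cancel (mul_right_cancel (mul_right_cancel (mul_right_cancel (h.trans h2.symm)))))
theorem e_82_x : r82 * x = r54 := by
  have h := rel10 r7
  simp only [e_7_z, e_20_z, e_49_y, e_3_z, e_10_y, e_26_y, e_43_z] at h
  have h2 : r54 * y * x = r7 := by simp only [e_54_y, e_18_x]
  exact (mul_right_cancel (mul_right_cancel (h.trans h2.symm)))
theorem e_102_x : r102 * x = r72 := by
  have h := rel10 r12
  simp only [e_12_z, e_32_z, e_67_y, e_5_z, e_15_y, e_38_y, e_61_z] at h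
  have h2 : r72 * y * x = r12 := by simp only [e_72_y, e_30_x]
  exact (mul_right_cancel (mul_right_cancel (h.trans h2.symm)))
theorem e_106_y : r106 * y = r59 := by
  have h := rel10 r30
  simp only [e_30_z, e_63_z] at h
  have h2 : r59 * z * y * y * z * x * y * x = r30 := by simp only [e_59_z, e_98_y, e_125_y, e_34_z, e_72_x, e_102_y, e_12_x]
  exact (mul_right_cancel (mul_right_cancel (mul_right_cancel (mul_right_cancel (mul_right_cancel (mul_right_cancel (mul_right_cancel (h.trans h2.symm))))))))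
theorem e_95_y : r95 * y = r120 := by
  have h := rel11 r7
  simp only [e_7_z, e_20_z, e_49_y, e_3_z, e_10_z, e_27_x, e_57_z] at h
  have h2 : r120 * z * x = r7 := by simp only [e_120_z, e_18_x]
  exact (mul_right_cancel (mul_right_cancel (h.trans h2.symm)))
theorem e_115_y : r115 * y = r126 := by
  have h := rel11 r12
  simp only [e_12_z, e_32_z, e_67_y, e_5_z, e_15_z, e_39_x, e_75_z] at h
  have h2 : r126 * z * x = r12 := by simp only [e_126_z, e_30_x]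
  exact (mul_right_cancel (mul_right_cancel (h.trans h2.symm)))
theorem e_89_y : r89 * y = r57 := by
  have h := rel1 r21
  simp only [e_21_z, e_51_z] at h
  have h2 : r57 * z * y * y * z * y = r21 := by simp only [e_57_z, e_95_y, e_120_y, e_90_z, e_8_y]
  exact (mul_right_cancel (mul_right_cancel (mul_right_cancel (mul_right_cancel (mul_right_cancel (h.trans h2.symm))))))
theorem e_109_y : r109 * y = r75 := by
  have h := rel1 r33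
  simp only [e_33_z, e_69_z] at h
  have h2 : r75 * z * y * y * z * y = r33 := by simp only [e_75_z, e_115_y, e_126_y, e_110_z, e_13_y]
  exact (mul_right_cancel (mul_right_cancel (mul_right_cancel (mul_right_cancel (mul_right_cancel (h.trans h2.symm))))))
theorem e_78_z : r78 * z = r57 := by
  have h := rel2 r41
  simp only [e_41_z] at h
  have h2 : r57 * z * y * z * z * z * y = r41 := by simp only [e_57_z, e_95_y, e_120_z, e_18_z, e_45_z, e_86_y]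
  exact (mul_right_cancel (mul_right_cancel (mul_right_cancel (mul_right_cancel (mul_right_cancel (mul_right_cancel (h.trans h2.symm)))))))
theorem e_95_z : r95 * z = r41 := by
  have h := rel2 r57
  simp only [e_57_z] at h
  have h2 : r41 * z * y * z * z * z * y = r57 := by simp only [e_41_z, e_78_y, e_119_z, e_21_z, e_51_z, e_89_y]
  exact (mul_right_cancel (mul_right_cancel (mul_right_cancel (mul_right_cancel (mul_right_cancel (mul_right_cancel (h.trans h2.symm)))))))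
theorem e_98_z : r98 * z = r75 := by
  have h := rel2 r59
  simp only [e_59_z] at h
  have h2 : r75 * z * y * z * z * z * y = r59 := by simp only [e_75_z, e_115_y, e_126_z, e_30_z, e_63_z, e_106_y]
  exact (mul_right_cancel (mul_right_cancel (mul_right_cancel (mul_right_cancel (mul_right_cancel (mul_right_cancel (h.trans h2.symm)))))))
theorem e_115_z : r115 * z = r59 := by
  have h := rel2 r75
  simp only [e_75_z] at h
  have h2 : r59 * z * y * z * z * z * y = r75 := by simp only [e_59_z, e_98_y, e_125_z, e_33_z, e_69_z, e_109_y]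
  exact (mul_right_cancel (mul_right_cancel (mul_right_cancel (mul_right_cancel (mul_right_cancel (mul_right_cancel (h.trans h2.symm)))))))
theorem e_57_x : r57 * x = r27 := by
  have h := rel5 r41
  simp only [e_41_z, e_78_z] at h
  have h2 : r27 * z * y * x * y * x * z * x = r41 := by simp only [e_27_z, e_0_y, e_2_x, e_4_y, e_11_x, e_6_z, e_17_x]
  exact (mul_right_cancel (mul_right_cancel (mul_right_cancel (mul_right_cancel (mul_right_cancel (mul_right_cancel (mul_right_cancel (h.trans h2.symm))))))))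
theorem e_75_x : r75 * x = r39 := by
  have h := rel5 r59
  simp only [e_59_z, e_98_z] at h
  have h2 : r39 * z * y * x * y * x * z * x = r59 := by simp only [e_39_z, e_1_y, e_4_x, e_2_y, e_6_x, e_11_z, e_29_x]
  exact (mul_right_cancel (mul_right_cancel (mul_right_cancel (mul_right_cancel (mul_right_cancel (mul_right_cancel (mul_right_cancel (h.trans h2.symm))))))))
theorem e_121_y : r121 * y = r95 := by
  have h := rel8 r95
  simp only [e_95_z, e_41_z, e_78_y, e_119_z, e_21_x, e_9_y, e_23_y, e_49_x, e_87_z] at h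
  exact h
theorem e_127_y : r127 * y = r115 := by
  have h := rel8 r115
  simp only [e_115_z, e_59_z, e_98_y, e_125_z, e_33_x, e_14_y, e_35_y, e_67_x, e_107_z] at h
  exact h
theorem e_50_x : r50 * x = r23 := by
  have h := rel9 r95
  simp only [e_95_z, e_41_z, e_78_y, e_119_z, e_21_y] at h
  have h2 : r23 * y * x * z * y = r95 := by simp only [e_23_y, e_49_x, e_87_z, e_121_y]
  exact (mul_right_cancel (mul_right_cancel (mul_right_cancel (mul_right_cancel (h.trans h2.symm)))))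
theorem e_68_x : r68 * x = r35 := by
  have h := rel9 r115
  simp only [e_115_z, e_59_z, e_98_y, e_125_z, e_33_y] at h
  have h2 : r35 * y * x * z * y = r115 := by simp only [e_35_y, e_67_x, e_107_z, e_127_y]
  exact (mul_right_cancel (mul_right_cancel (mul_right_cancel (mul_right_cancel (h.trans h2.symm)))))
theorem e_41_x : r41 * x = r17 := by
  have h := rel11 r17
  simp only [e_17_z, e_43_z, e_82_y, e_7_z, e_20_z, e_49_x, e_87_z, e_121_y, e_95_z] at h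
  exact h
theorem e_59_x : r59 * x = r29 := by
  have h := rel11 r29
  simp only [e_29_z, e_61_z, e_102_y, e_12_z, e_32_z, e_67_x, e_107_z, e_127_y, e_115_z] at h
  exact h
theorem e_118_y : r118 * y = r84 := by
  have h := rel1 r57
  simp only [e_57_z, e_95_z, e_41_y, e_77_z] at h
  have h2 : r84 * y * z * y = r57 := by simp only [e_84_y, e_51_z, e_89_y]
  exact (mul_right_cancel (mul_right_cancel (mul_right_cancel (h.trans h2.symm))))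
theorem e_124_y : r124 * y = r104 := by
  have h := rel1 r75
  simp only [e_75_z, e_115_z, e_59_y, e_97_z] at h
  have h2 : r104 * y * z * y = r75 := by simp only [e_104_y, e_69_z, e_109_y]
  exact (mul_right_cancel (mul_right_cancel (mul_right_cancel (h.trans h2.symm))))
theorem e_50_y : r50 * y = r87 := by
  have h := rel1 r95
  simp only [e_95_z, e_41_z, e_78_y, e_119_z, e_21_y] at h
  have h2 : r87 * z * y = r95 := by simp only [e_87_z, e_121_y]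
  exact (mul_right_cancel (mul_right_cancel (h.trans h2.symm)))
theorem e_68_y : r68 * y = r107 := by
  have h := rel1 r115
  simp only [e_115_z, e_59_z, e_98_y, e_125_z, e_33_y] at h
  have h2 : r107 * z * y = r115 := by simp only [e_107_z, e_127_y]
  exact (mul_right_cancel (mul_right_cancel (h.trans h2.symm)))
theorem e_85_x : r85 * x = r98 := by
  have h := rel3 r18
  simp only [e_18_z, e_45_y] at h
  have h2 : r98 * z * x * z * y * x * z * x = r18 := by simp only [e_98_z, e_75_x, e_39_z, e_1_y, e_4_x, e_2_z, e_7_x]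
  exact (mul_right_cancel (mul_right_cancel (mul_right_cancel (mul_right_cancel (mul_right_cancel (mul_right_cancel (mul_right_cancel (h.trans h2.symm))))))))
theorem e_105_x : r105 * x = r78 := by
  have h := rel3 r27
  simp only [e_27_z, e_0_y, e_2_x, e_4_z, e_12_x, e_30_z, e_63_y] at h
  have h2 : r78 * z * x = r27 := by simp only [e_78_z, e_57_x]
  exact (mul_right_cancel (mul_right_cancel (h.trans h2.symm)))
theorem e_93_x : r93 * x = r109 := by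
  have h := rel5 r0
  simp only [e_0_z, e_3_z, e_10_x, e_25_z, e_56_y] at h
  have h2 : r109 * y * x * z * x = r0 := by simp only [e_109_y, e_75_x, e_39_z, e_1_x]
  exact (mul_right_cancel (mul_right_cancel (mul_right_cancel (mul_right_cancel (h.trans h2.symm)))))
theorem e_113_x : r113 * x = r89 := by
  have h := rel5 r1
  simp only [e_1_z, e_5_z, e_15_x, e_37_z, e_74_y] at h
  have h2 : r89 * y * x * z * x = r1 := by simp only [e_89_y, e_57_x, e_27_z, e_0_x]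
  exact (mul_right_cancel (mul_right_cancel (mul_right_cancel (mul_right_cancel (h.trans h2.symm)))))
theorem e_53_x : r53 * x = r63 := by
  have h := rel5 r27
  simp only [e_27_z, e_0_z, e_3_x, e_8_z, e_22_y] at h
  have h2 : r63 * y * x * z * x = r27 := by simp only [e_63_y, e_105_x, e_78_z, e_57_x]
  exact (mul_right_cancel (mul_right_cancel (mul_right_cancel (mul_right_cancel (h.trans h2.symm)))))
theorem e_71_x : r71 * x = r45 := by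
  have h := rel5 r39
  simp only [e_39_z, e_1_z, e_5_x, e_13_z, e_34_y] at h
  have h2 : r45 * y * x * z * x = r39 := by simp only [e_45_y, e_85_x, e_98_z, e_75_x]
  exact (mul_right_cancel (mul_right_cancel (mul_right_cancel (mul_right_cancel (h.trans h2.symm)))))
theorem e_23_x : r23 * x = r50 := by
  have h := rel7 r95
  simp only [e_95_z, e_41_z, e_78_y, e_119_z, e_21_x, e_9_y] at h
  have h2 : r50 * y * z * y = r95 := by simp only [e_50_y, e_87_z, e_121_y]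
  exact (mul_right_cancel (mul_right_cancel (mul_right_cancel (h.trans h2.symm))))
theorem e_35_x : r35 * x = r68 := by
  have h := rel7 r115
  simp only [e_115_z, e_59_z, e_98_y, e_125_z, e_33_x, e_14_y] at h
  have h2 : r68 * y * z * y = r115 := by simp only [e_68_y, e_107_z, e_127_y]
  exact (mul_right_cancel (mul_right_cancel (mul_right_cancel (h.trans h2.symm))))
theorem e_20_y : r20 * y = r37 := by
  have h := rel9 r2
  simp only [e_2_z, e_7_z] at h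
  have h2 : r37 * z * y * x * y * x * z * y = r2 := by simp only [e_37_z, e_74_y, e_113_x, e_89_y, e_57_x, e_27_z, e_0_y]
  exact (mul_right_cancel (mul_right_cancel (mul_right_cancel (mul_right_cancel (mul_right_cancel (mul_right_cancel (mul_right_cancel (h.trans h2.symm))))))))
theorem e_32_y : r32 * y = r25 := by
  have h := rel9 r4
  simp only [e_4_z, e_12_z] at h
  have h2 : r25 * z * y * x * y * x * z * y = r4 := by simp only [e_25_z, e_56_y, e_93_x, e_109_y, e_75_x, e_39_z, e_1_y]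
  exact (mul_right_cancel (mul_right_cancel (mul_right_cancel (mul_right_cancel (mul_right_cancel (mul_right_cancel (mul_right_cancel (h.trans h2.symm))))))))
theorem e_94_y : r94 * y = r36 := by
  have h := rel9 r25
  simp only [e_25_z, e_56_z] at h
  have h2 : r36 * z * y * x * y * x * z * y = r25 := by simp only [e_36_z, e_64_y, e_102_x, e_72_y, e_30_x, e_12_z, e_32_y]
  exact (mul_right_cancel (mul_right_cancel (mul_right_cancel (mul_right_cancel (mul_right_cancel (mul_right_cancel (mul_right_cancel (h.trans h2.symm))))))))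
theorem e_114_y : r114 * y = r24 := by
  have h := rel9 r37
  simp only [e_37_z, e_74_z] at h
  have h2 : r24 * z * y * x * y * x * z * y = r37 := by simp only [e_24_z, e_46_y, e_82_x, e_54_y, e_18_x, e_7_z, e_20_y]
  exact (mul_right_cancel (mul_right_cancel (mul_right_cancel (mul_right_cancel (mul_right_cancel (mul_right_cancel (mul_right_cancel (h.trans h2.symm))))))))
theorem e_113_y : r113 * y = r27 := by
  have h := rel10 r2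
  simp only [e_2_z, e_7_z, e_20_y, e_37_z, e_74_y] at h
  have h2 : r27 * z * x * y * x = r2 := by simp only [e_27_z, e_0_x, e_1_y, e_4_x]
  exact (mul_right_cancel (mul_right_cancel (mul_right_cancel (mul_right_cancel (h.trans h2.symm)))))
theorem e_93_y : r93 * y = r39 := by
  have h := rel10 r4
  simp only [e_4_z, e_12_z, e_32_y, e_25_z, e_56_y] at h
  have h2 : r39 * z * x * y * x = r4 := by simp only [e_39_z, e_1_x, e_0_y, e_2_x]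
  exact (mul_right_cancel (mul_right_cancel (mul_right_cancel (mul_right_cancel (h.trans h2.symm)))))
theorem e_111_x : r111 * x = r86 := by
  have h := rel10 r17
  simp only [e_17_z, e_43_z, e_82_y, e_7_z, e_20_y, e_37_y, e_73_z] at h
  have h2 : r86 * y * x = r17 := by simp only [e_86_y, e_41_x]
  exact (mul_right_cancel (mul_right_cancel (h.trans h2.symm)))
theorem e_66_y : r66 * y = r10 := by
  have h := rel10 r25
  simp only [e_25_z, e_56_z, e_94_y, e_36_z, e_64_y, e_102_y, e_12_z, e_32_x] at h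
  have h2 : r10 * x = r25 := by simp only [e_10_x]
  exact (mul_right_cancel (h.trans h2.symm))
theorem e_91_x : r91 * x = r106 := by
  have h := rel10 r29
  simp only [e_29_z, e_61_z, e_102_y, e_12_z, e_32_y, e_25_y, e_55_z] at h
  have h2 : r106 * y * x = r29 := by simp only [e_106_y, e_59_x]
  exact (mul_right_cancel (mul_right_cancel (h.trans h2.symm)))
theorem e_48_y : r48 * y = r15 := by
  have h := rel10 r37
  simp only [e_37_z, e_74_z, e_114_y, e_24_z, e_46_y, e_82_y, e_7_z, e_20_x] at h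
  have h2 : r15 * x = r37 := by simp only [e_15_x]
  exact (mul_right_cancel (h.trans h2.symm))
theorem e_84_z : r84 * z = r50 := by
  have h := rel10 r44
  simp only [e_44_z] at h
  have h2 : r50 * y * z * y * y * z * x * y * x = r44 := by simp only [e_50_y, e_87_z, e_121_y, e_95_y, e_120_z, e_18_x, e_7_y, e_19_x]
  exact (mul_right_cancel (mul_right_cancel (mul_right_cancel (mul_right_cancel (mul_right_cancel (mul_right_cancel (mul_right_cancel (mul_right_cancel (h.trans h2.symm)))))))))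
theorem e_89_x : r89 * x = r113 := by
  have h := rel10 r57
  simp only [e_57_z, e_95_z, e_41_y, e_77_z, e_118_y, e_84_y, e_51_z] at h
  have h2 : r113 * y * x = r57 := by simp only [e_113_y, e_27_x]
  exact (mul_right_cancel (mul_right_cancel (h.trans h2.symm)))
theorem e_104_z : r104 * z = r68 := by
  have h := rel10 r62
  simp only [e_62_z] at h
  have h2 : r68 * y * z * y * y * z * x * y * x = r62 := by simp only [e_68_y, e_107_z, e_127_y, e_115_y, e_126_z, e_30_x, e_12_y, e_31_x]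
  exact (mul_right_cancel (mul_right_cancel (mul_right_cancel (mul_right_cancel (mul_right_cancel (mul_right_cancel (mul_right_cancel (mul_right_cancel (h.trans h2.symm)))))))))
theorem e_109_x : r109 * x = r93 := by
  have h := rel10 r75
  simp only [e_75_z, e_115_z, e_59_y, e_97_z, e_124_y, e_104_y, e_69_z] at h
  have h2 : r93 * y * x = r75 := by simp only [e_93_y, e_39_x]
  exact (mul_right_cancel (mul_right_cancel (h.trans h2.symm)))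
theorem e_83_z : r83 * z = r53 := by
  have h := rel10 r78
  simp only [e_78_z, e_57_z, e_95_y, e_120_z, e_18_y, e_44_y] at h
  have h2 : r53 * x * y * x = r78 := by simp only [e_53_x, e_63_y, e_105_x]
  exact (mul_right_cancel (mul_right_cancel (mul_right_cancel (h.trans h2.symm))))
theorem e_103_z : r103 * z = r71 := by
  have h := rel10 r98
  simp only [e_98_z, e_75_z, e_115_y, e_126_z, e_30_y, e_62_y] at h
  have h2 : r71 * x * y * x = r98 := by simp only [e_71_x, e_45_y, e_85_x]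
  exact (mul_right_cancel (mul_right_cancel (mul_right_cancel (h.trans h2.symm))))
theorem e_52_z : r52 * z = r62 := by
  have h := rel11 r45
  simp only [e_45_z, e_86_z, e_120_y, e_90_z, e_8_z, e_22_x] at h
  have h2 : r62 * y * z * x = r45 := by simp only [e_62_y, e_103_z, e_71_x]
  exact (mul_right_cancel (mul_right_cancel (mul_right_cancel (h.trans h2.symm))))
theorem e_113_z : r113 * z = r26 := by
  have h := rel11 r54
  simp only [e_54_z, e_90_z, e_8_y, e_21_z, e_51_z, e_89_x] at h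
  have h2 : r26 * y * z * x = r54 := by simp only [e_26_y, e_43_z, e_82_x]
  exact (mul_right_cancel (mul_right_cancel (mul_right_cancel (h.trans h2.symm))))
theorem e_70_z : r70 * z = r44 := by
  have h := rel11 r63
  simp only [e_63_z, e_106_z, e_126_y, e_110_z, e_13_z, e_34_x] at h
  have h2 : r44 * y * z * x = r63 := by simp only [e_44_y, e_83_z, e_53_x]
  exact (mul_right_cancel (mul_right_cancel (mul_right_cancel (h.trans h2.symm))))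
theorem e_93_z : r93 * z = r38 := by
  have h := rel11 r72
  simp only [e_72_z, e_110_z, e_13_y, e_33_z, e_69_z, e_109_x] at h
  have h2 : r38 * y * z * x = r72 := by simp only [e_38_y, e_61_z, e_102_x]
  exact (mul_right_cancel (mul_right_cancel (mul_right_cancel (h.trans h2.symm))))
theorem e_80_z : r80 * z = r113 := by
  have h := rel11 r82
  simp only [e_82_z, e_6_z, e_17_y, e_42_z] at h
  have h2 : r113 * x * z * y * z * x = r82 := by simp only [e_113_x, e_89_z, e_119_y, e_22_z, e_54_x]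
  exact (mul_right_cancel (mul_right_cancel (mul_right_cancel (mul_right_cancel (mul_right_cancel (h.trans h2.symm))))))
theorem e_23_z : r23 * z = r37 := by
  have h := rel11 r86
  simp only [e_86_z, e_120_z, e_18_y, e_44_z, e_84_z, e_50_x] at h
  have h2 : r37 * y * z * x = r86 := by simp only [e_37_y, e_73_z, e_111_x]
  exact (mul_right_cancel (mul_right_cancel (mul_right_cancel (h.trans h2.symm))))
theorem e_100_z : r100 * z = r93 := by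
  have h := rel11 r102
  simp only [e_102_z, e_11_z, e_29_y, e_60_z] at h
  have h2 : r93 * x * z * y * z * x = r102 := by simp only [e_93_x, e_109_z, e_125_y, e_34_z, e_72_x]
  exact (mul_right_cancel (mul_right_cancel (mul_right_cancel (mul_right_cancel (mul_right_cancel (h.trans h2.symm))))))
theorem e_35_z : r35 * z = r25 := by
  have h := rel11 r106
  simp only [e_106_z, e_126_z, e_30_y, e_62_z, e_104_z, e_68_x] at h
  have h2 : r25 * y * z * x = r106 := by simp only [e_25_y, e_55_z, e_91_x]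
  exact (mul_right_cancel (mul_right_cancel (mul_right_cancel (h.trans h2.symm))))
theorem e_46_z : r46 * z = r66 := by
  have h := rel12 r9
  simp only [e_9_z, e_24_z] at h
  have h2 : r66 * y * z * z * z * x * y * x = r9 := by simp only [e_66_y, e_10_z, e_27_z, e_0_z, e_3_x, e_8_y, e_21_x]
  exact (mul_right_cancel (mul_right_cancel (mul_right_cancel (mul_right_cancel (mul_right_cancel (mul_right_cancel (mul_right_cancel (h.trans h2.symm))))))))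
theorem e_64_z : r64 * z = r48 := by
  have h := rel12 r14
  simp only [e_14_z, e_36_z] at h
  have h2 : r48 * y * z * z * z * x * y * x = r14 := by simp only [e_48_y, e_15_z, e_39_z, e_1_z, e_5_x, e_13_y, e_33_x]
  exact (mul_right_cancel (mul_right_cancel (mul_right_cancel (mul_right_cancel (mul_right_cancel (mul_right_cancel (mul_right_cancel (h.trans h2.symm))))))))
theorem e_40_z : r40 * z = r73 := by
  have h := rel12 r17
  simp only [e_17_z, e_43_z, e_82_z, e_6_y, e_16_z] at h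
  have h2 : r73 * z * x * y * x = r17 := by simp only [e_73_z, e_111_x, e_86_y, e_41_x]
  exact (mul_right_cancel (mul_right_cancel (mul_right_cancel (mul_right_cancel (h.trans h2.symm)))))
theorem e_94_z : r94 * z = r35 := by
  have h := rel12 r25
  simp only [e_25_z, e_56_z] at h
  have h2 : r35 * y * z * z * z * x * y * x = r25 := by simp only [e_35_y, e_67_z, e_4_z, e_12_z, e_32_x, e_66_y, e_10_x]
  exact (mul_right_cancel (mul_right_cancel (mul_right_cancel (mul_right_cancel (mul_right_cancel (mul_right_cancel (mul_right_cancel (h.trans h2.symm))))))))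
theorem e_26_z : r26 * z = r42 := by
  have h := rel12 r26
  have h2 : r42 * z * z * y * z * z * z * x * y * x = r26 := by simp only [e_42_z, e_80_z, e_113_y, e_27_z, e_0_z, e_3_z, e_10_x, e_25_y, e_55_x]
  exact (mul_right_cancel (mul_right_cancel (mul_right_cancel (mul_right_cancel (mul_right_cancel (mul_right_cancel (mul_right_cancel (mul_right_cancel (mul_right_cancel (h.trans h2.symm))))))))))
theorem e_58_z : r58 * z = r55 := by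
  have h := rel12 r29
  simp only [e_29_z, e_61_z, e_102_z, e_11_y, e_28_z] at h
  have h2 : r55 * z * x * y * x = r29 := by simp only [e_55_z, e_91_x, e_106_y, e_59_x]
  exact (mul_right_cancel (mul_right_cancel (mul_right_cancel (mul_right_cancel (h.trans h2.symm)))))
theorem e_114_z : r114 * z = r23 := by
  have h := rel12 r37
  simp only [e_37_z, e_74_z] at h
  have h2 : r23 * y * z * z * z * x * y * x = r37 := by simp only [e_23_y, e_49_z, e_2_z, e_7_z, e_20_x, e_48_y, e_15_x]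
  exact (mul_right_cancel (mul_right_cancel (mul_right_cancel (mul_right_cancel (mul_right_cancel (mul_right_cancel (mul_right_cancel (h.trans h2.symm))))))))
theorem e_38_z : r38 * z = r60 := by
  have h := rel12 r38
  have h2 : r60 * z * z * y * z * z * z * x * y * x = r38 := by simp only [e_60_z, e_100_z, e_93_y, e_39_z, e_1_z, e_5_z, e_15_x, e_37_y, e_73_x]
  exact (mul_right_cancel (mul_right_cancel (mul_right_cancel (mul_right_cancel (mul_right_cancel (mul_right_cancel (mul_right_cancel (mul_right_cancel (mul_right_cancel (h.trans h2.symm))))))))))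
theorem e_77_x : r77 * x = r42 := by
  have h := rel12 r42
  simp only [e_42_z, e_80_z, e_113_z, e_26_y, e_43_z, e_82_z, e_6_z, e_17_x, e_41_y] at h
  exact h
theorem e_87_x : r87 * x = r49 := by
  have h := rel12 r49
  simp only [e_49_z, e_2_z, e_7_z, e_20_y, e_37_z, e_74_z, e_114_z, e_23_x, e_50_y] at h
  exact h
theorem e_50_z : r50 * z = r70 := by
  have h := rel12 r50
  have h2 : r70 * z * z * y * z * z * z * x * y * x = r50 := by simp only [e_70_z, e_44_z, e_84_y, e_51_z, e_89_z, e_119_z, e_21_x, e_9_y, e_23_x]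
  exact (mul_right_cancel (mul_right_cancel (mul_right_cancel (mul_right_cancel (mul_right_cancel (mul_right_cancel (mul_right_cancel (mul_right_cancel (mul_right_cancel (h.trans h2.symm))))))))))
theorem e_97_x : r97 * x = r60 := by
  have h := rel12 r60
  simp only [e_60_z, e_100_z, e_93_z, e_38_y, e_61_z, e_102_z, e_11_z, e_29_x, e_59_y] at h
  exact h
theorem e_107_x : r107 * x = r67 := by
  have h := rel12 r67
  simp only [e_67_z, e_4_z, e_12_z, e_32_y, e_25_z, e_56_z, e_94_z, e_35_x, e_68_y] at h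
  exact h
theorem e_68_z : r68 * z = r52 := by
  have h := rel12 r68
  have h2 : r52 * z * z * y * z * z * z * x * y * x = r68 := by simp only [e_52_z, e_62_z, e_104_y, e_69_z, e_109_z, e_125_z, e_33_x, e_14_y, e_35_x]
  exact (mul_right_cancel (mul_right_cancel (mul_right_cancel (mul_right_cancel (mul_right_cancel (mul_right_cancel (mul_right_cancel (mul_right_cancel (mul_right_cancel (h.trans h2.symm))))))))))
theorem e_118_z : r118 * z = r83 := by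
  have h := rel12 r78
  simp only [e_78_z, e_57_z, e_95_z, e_41_y, e_77_z] at h
  have h2 : r83 * z * x * y * x = r78 := by simp only [e_83_z, e_53_x, e_63_y, e_105_x]
  exact (mul_right_cancel (mul_right_cancel (mul_right_cancel (mul_right_cancel (h.trans h2.symm)))))
theorem e_124_z : r124 * z = r103 := by
  have h := rel12 r98
  simp only [e_98_z, e_75_z, e_115_z, e_59_y, e_97_z] at h
  have h2 : r103 * z * x * y * x = r98 := by simp only [e_103_z, e_71_x, e_45_y, e_85_x]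
  exact (mul_right_cancel (mul_right_cancel (mul_right_cancel (mul_right_cancel (h.trans h2.symm)))))
theorem e_66_z : r66 * z = r9 := by
  have h := rel0 r9
  simp only [e_9_z, e_24_z, e_46_z] at h
  exact h
theorem e_48_z : r48 * z = r14 := by
  have h := rel0 r14
  simp only [e_14_z, e_36_z, e_64_z] at h
  exact h
theorem e_111_z : r111 * z = r16 := by
  have h := rel0 r16
  simp only [e_16_z, e_40_z, e_73_z] at h
  exact h
theorem e_91_z : r91 * z = r28 := by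
  have h := rel0 r28
  simp only [e_28_z, e_58_z, e_55_z] at h
  exact h
theorem e_53_z : r53 * z = r77 := by
  have h := rel0 r53
  have h2 : r77 * z * z * z = r53 := by simp only [e_77_z, e_118_z, e_83_z]
  exact (mul_right_cancel (mul_right_cancel (mul_right_cancel (h.trans h2.symm))))
theorem e_71_z : r71 * z = r97 := by
  have h := rel0 r71
  have h2 : r97 * z * z * z = r71 := by simp only [e_97_z, e_124_z, e_103_z]
  exact (mul_right_cancel (mul_right_cancel (mul_right_cancel (h.trans h2.symm))))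
theorem e_79_y : r79 * y = r111 := by
  have h := rel1 r0
  simp only [e_0_z, e_3_z, e_10_y, e_26_z, e_42_y] at h
  have h2 : r111 * z * y = r0 := by simp only [e_111_z, e_16_y]
  exact (mul_right_cancel (mul_right_cancel (h.trans h2.symm)))
theorem e_99_y : r99 * y = r91 := by
  have h := rel1 r1
  simp only [e_1_z, e_5_z, e_15_y, e_38_z, e_60_y] at h
  have h2 : r91 * z * y = r1 := by simp only [e_91_z, e_28_y]
  exact (mul_right_cancel (mul_right_cancel (h.trans h2.symm)))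
theorem e_43_y : r43 * y = r66 := by
  have h := rel1 r6
  simp only [e_6_z, e_17_z] at h
  have h2 : r66 * z * y * y * z * y = r6 := by simp only [e_66_z, e_9_y, e_23_y, e_49_z, e_2_y]
  exact (mul_right_cancel (mul_right_cancel (mul_right_cancel (mul_right_cancel (mul_right_cancel (h.trans h2.symm))))))
theorem e_61_y : r61 * y = r48 := by
  have h := rel1 r11
  simp only [e_11_z, e_29_z] at h
  have h2 : r48 * z * y * y * z * y = r11 := by simp only [e_48_z, e_14_y, e_35_y, e_67_z, e_4_y]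
  exact (mul_right_cancel (mul_right_cancel (mul_right_cancel (mul_right_cancel (mul_right_cancel (h.trans h2.symm))))))
theorem e_111_y : r111 * y = r17 := by
  have h := rel1 r17
  simp only [e_17_z, e_43_z, e_82_y, e_7_z, e_20_y, e_37_y, e_73_z] at h
  exact h
theorem e_47_z : r47 * z = r79 := by
  have h := rel1 r19
  simp only [e_19_z] at h
  have h2 : r79 * y * z * y * y * z * y = r19 := by simp only [e_79_y, e_111_z, e_16_y, e_0_y, e_2_z, e_7_y]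
  exact (mul_right_cancel (mul_right_cancel (mul_right_cancel (mul_right_cancel (mul_right_cancel (mul_right_cancel (h.trans h2.symm)))))))
theorem e_80_y : r80 * y = r114 := by
  have h := rel1 r26
  simp only [e_26_z, e_42_z] at h
  have h2 : r114 * z * y * y * z * y = r26 := by simp only [e_114_z, e_23_y, e_49_y, e_3_z, e_10_y]
  exact (mul_right_cancel (mul_right_cancel (mul_right_cancel (mul_right_cancel (mul_right_cancel (h.trans h2.symm))))))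
theorem e_91_y : r91 * y = r29 := by
  have h := rel1 r29
  simp only [e_29_z, e_61_z, e_102_y, e_12_z, e_32_y, e_25_y, e_55_z] at h
  exact h
theorem e_65_z : r65 * z = r99 := by
  have h := rel1 r31
  simp only [e_31_z] at h
  have h2 : r99 * y * z * y * y * z * y = r31 := by simp only [e_99_y, e_91_z, e_28_y, e_1_y, e_4_z, e_12_y]
  exact (mul_right_cancel (mul_right_cancel (mul_right_cancel (mul_right_cancel (mul_right_cancel (mul_right_cancel (h.trans h2.symm)))))))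
theorem e_100_y : r100 * y = r94 := by
  have h := rel1 r38
  simp only [e_38_z, e_60_z] at h
  have h2 : r94 * z * y * y * z * y = r38 := by simp only [e_94_z, e_35_y, e_67_y, e_5_z, e_15_y]
  exact (mul_right_cancel (mul_right_cancel (mul_right_cancel (mul_right_cancel (mul_right_cancel (h.trans h2.symm))))))
theorem e_27_y : r27 * y = r40 := by
  have h := rel1 r40
  simp only [e_40_z, e_73_z, e_111_y, e_17_z, e_43_y, e_66_y, e_10_z] at h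
  exact h
theorem e_40_y : r40 * y = r74 := by
  have h := rel1 r43
  simp only [e_43_z, e_82_z, e_6_y, e_16_z] at h
  have h2 : r74 * y * z * y = r43 := by simp only [e_74_y, e_113_z, e_26_y]
  exact (mul_right_cancel (mul_right_cancel (mul_right_cancel (h.trans h2.symm))))
theorem e_70_y : r70 * y = r45 := by
  have h := rel1 r45
  simp only [e_45_z, e_86_z, e_120_y, e_90_z, e_8_y, e_21_y, e_50_z] at h
  exact h
theorem e_36_y : r36 * y = r65 := by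
  have h := rel1 r48
  simp only [e_48_z, e_14_z] at h
  have h2 : r65 * z * y * y * z * y = r48 := by simp only [e_65_z, e_99_y, e_91_y, e_29_z, e_61_y]
  exact (mul_right_cancel (mul_right_cancel (mul_right_cancel (mul_right_cancel (mul_right_cancel (h.trans h2.symm))))))
theorem e_47_y : r47 * y = r80 := by
  have h := rel1 r49
  simp only [e_49_z, e_2_z, e_7_y, e_19_z] at h
  have h2 : r80 * y * z * y = r49 := by simp only [e_80_y, e_114_z, e_23_y]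
  exact (mul_right_cancel (mul_right_cancel (mul_right_cancel (h.trans h2.symm))))
theorem e_53_y : r53 * y = r78 := by
  have h := rel1 r50
  simp only [e_50_z, e_70_z, e_44_y, e_83_z] at h
  have h2 : r78 * y * z * y = r50 := by simp only [e_78_y, e_119_z, e_21_y]
  exact (mul_right_cancel (mul_right_cancel (mul_right_cancel (h.trans h2.symm))))
theorem e_87_y : r87 * y = r8 := by
  have h := rel1 r53
  simp only [e_53_z, e_77_z, e_118_y, e_84_z, e_50_y] at h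
  have h2 : r8 * z * y = r53 := by simp only [e_8_z, e_22_y]
  exact (mul_right_cancel (mul_right_cancel (h.trans h2.symm)))
theorem e_58_y : r58 * y = r56 := by
  have h := rel1 r56
  simp only [e_56_z, e_94_z, e_35_y, e_67_z, e_4_y, e_11_y, e_28_z] at h
  exact h
theorem e_39_y : r39 * y = r58 := by
  have h := rel1 r58
  simp only [e_58_z, e_55_z, e_91_y, e_29_z, e_61_y, e_48_y, e_15_z] at h
  exact h
theorem e_52_y : r52 * y = r63 := by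
  have h := rel1 r63
  simp only [e_63_z, e_106_z, e_126_y, e_110_z, e_13_y, e_33_y, e_68_z] at h
  exact h
theorem e_24_y : r24 * y = r47 := by
  have h := rel1 r66
  simp only [e_66_z, e_9_z] at h
  have h2 : r47 * z * y * y * z * y = r66 := by simp only [e_47_z, e_79_y, e_111_y, e_17_z, e_43_y]
  exact (mul_right_cancel (mul_right_cancel (mul_right_cancel (mul_right_cancel (mul_right_cancel (h.trans h2.symm))))))
theorem e_65_y : r65 * y = r100 := by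
  have h := rel1 r67
  simp only [e_67_z, e_4_z, e_12_y, e_31_z] at h
  have h2 : r100 * y * z * y = r67 := by simp only [e_100_y, e_94_z, e_35_y]
  exact (mul_right_cancel (mul_right_cancel (mul_right_cancel (h.trans h2.symm))))
theorem e_71_y : r71 * y = r98 := by
  have h := rel1 r68
  simp only [e_68_z, e_52_z, e_62_y, e_103_z] at h
  have h2 : r98 * y * z * y = r68 := by simp only [e_98_y, e_125_z, e_33_y]
  exact (mul_right_cancel (mul_right_cancel (mul_right_cancel (h.trans h2.symm))))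
theorem e_107_y : r107 * y = r13 := by
  have h := rel1 r71
  simp only [e_71_z, e_97_z, e_124_y, e_104_z, e_68_y] at h
  have h2 : r13 * z * y = r71 := by simp only [e_13_z, e_34_y]
  exact (mul_right_cancel (mul_right_cancel (h.trans h2.symm)))
theorem e_117_y : r117 * y = r86 := by
  have h := rel1 r90
  simp only [e_90_z, e_8_z, e_22_y, e_53_z, e_77_y] at h
  have h2 : r86 * z * y = r90 := by simp only [e_86_z, e_120_y]
  exact (mul_right_cancel (mul_right_cancel (h.trans h2.symm)))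
theorem e_123_y : r123 * y = r106 := by
  have h := rel1 r110
  simp only [e_110_z, e_13_z, e_34_y, e_71_z, e_97_y] at h
  have h2 : r106 * z * y = r110 := by simp only [e_106_z, e_126_y]
  exact (mul_right_cancel (mul_right_cancel (h.trans h2.symm)))
theorem e_88_z : r88 * z = r117 := by
  have h := rel1 r119
  simp only [e_119_z, e_21_z, e_51_y] at h
  have h2 : r117 * y * y * z * y = r119 := by simp only [e_117_y, e_86_y, e_41_z, e_78_y]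
  exact (mul_right_cancel (mul_right_cancel (mul_right_cancel (mul_right_cancel (h.trans h2.symm)))))
theorem e_108_z : r108 * z = r123 := by
  have h := rel1 r125
  simp only [e_125_z, e_33_z, e_69_y] at h
  have h2 : r123 * y * y * z * y = r125 := by simp only [e_123_y, e_106_y, e_59_z, e_98_y]
  exact (mul_right_cancel (mul_right_cancel (mul_right_cancel (mul_right_cancel (h.trans h2.symm)))))
theorem e_83_y : r83 * y = r54 := by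
  have h := rel2 r53
  simp only [e_53_z, e_77_z, e_118_z] at h
  have h2 : r54 * z * z * z * y = r53 := by simp only [e_54_z, e_90_z, e_8_z, e_22_y]
  exact (mul_right_cancel (mul_right_cancel (mul_right_cancel (mul_right_cancel (h.trans h2.symm)))))
theorem e_103_y : r103 * y = r72 := by
  have h := rel2 r71
  simp only [e_71_z, e_97_z, e_124_z] at h
  have h2 : r72 * z * z * z * y = r71 := by simp only [e_72_z, e_110_z, e_13_z, e_34_y]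
  exact (mul_right_cancel (mul_right_cancel (mul_right_cancel (mul_right_cancel (h.trans h2.symm)))))
theorem e_84_x : r84 * x = r104 := by
  have h := rel3 r2
  simp only [e_2_z, e_7_y, e_19_x, e_44_z] at h
  have h2 : r104 * z * y * x * z * x = r2 := by simp only [e_104_z, e_68_y, e_107_x, e_67_z, e_4_x]
  exact (mul_right_cancel (mul_right_cancel (mul_right_cancel (mul_right_cancel (mul_right_cancel (h.trans h2.symm))))))
theorem e_104_x : r104 * x = r84 := by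
  have h := rel3 r4
  simp only [e_4_z, e_12_y, e_31_x, e_62_z] at h
  have h2 : r84 * z * y * x * z * x = r4 := by simp only [e_84_z, e_50_y, e_87_x, e_49_z, e_2_x]
  exact (mul_right_cancel (mul_right_cancel (mul_right_cancel (mul_right_cancel (mul_right_cancel (h.trans h2.symm))))))
theorem e_106_x : r106 * x = r91 := by
  have h := rel3 r8
  simp only [e_8_z, e_22_y, e_53_x, e_63_z] at h
  have h2 : r91 * z * y * x * z * x = r8 := by simp only [e_91_z, e_28_y, e_1_x, e_0_z, e_3_x]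
  exact (mul_right_cancel (mul_right_cancel (mul_right_cancel (mul_right_cancel (mul_right_cancel (h.trans h2.symm))))))
theorem e_86_x : r86 * x = r111 := by
  have h := rel3 r13
  simp only [e_13_z, e_34_y, e_71_x, e_45_z] at h
  have h2 : r111 * z * y * x * z * x = r13 := by simp only [e_111_z, e_16_y, e_0_x, e_1_z, e_5_x]
  exact (mul_right_cancel (mul_right_cancel (mul_right_cancel (mul_right_cancel (mul_right_cancel (h.trans h2.symm))))))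
theorem e_52_x : r52 * x = r22 := by
  have h := rel3 r22
  simp only [e_22_z, e_54_y, e_18_x, e_7_z, e_20_x, e_48_z, e_14_y, e_35_x, e_68_z] at h
  exact h
theorem e_60_x : r60 * x = r97 := by
  have h := rel3 r23
  simp only [e_23_z, e_37_y, e_73_x, e_38_z] at h
  have h2 : r97 * z * y * x * z * x = r23 := by simp only [e_97_z, e_124_y, e_104_x, e_84_z, e_50_x]
  exact (mul_right_cancel (mul_right_cancel (mul_right_cancel (mul_right_cancel (mul_right_cancel (h.trans h2.symm))))))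
theorem e_70_x : r70 * x = r34 := by
  have h := rel3 r34
  simp only [e_34_z, e_72_y, e_30_x, e_12_z, e_32_x, e_66_z, e_9_y, e_23_x, e_50_z] at h
  exact h
theorem e_42_x : r42 * x = r77 := by
  have h := rel3 r35
  simp only [e_35_z, e_25_y, e_55_x, e_26_z] at h
  have h2 : r77 * z * y * x * z * x = r35 := by simp only [e_77_z, e_118_y, e_84_x, e_104_z, e_68_x]
  exact (mul_right_cancel (mul_right_cancel (mul_right_cancel (mul_right_cancel (mul_right_cancel (h.trans h2.symm))))))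
theorem e_116_y : r116 * y = r70 := by
  have h := rel3 r76
  simp only [e_76_z] at h
  have h2 : r70 * x * z * x * z * y * x * z * x = r76 := by simp only [e_70_x, e_34_z, e_72_x, e_102_z, e_11_y, e_28_x, e_16_z, e_40_x]
  exact (mul_right_cancel (mul_right_cancel (mul_right_cancel (mul_right_cancel (mul_right_cancel (mul_right_cancel (mul_right_cancel (mul_right_cancel (h.trans h2.symm)))))))))
theorem e_122_y : r122 * y = r52 := by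
  have h := rel3 r82
  simp only [e_82_z, e_6_y, e_16_x, e_28_z, e_58_x, e_96_z] at h
  have h2 : r52 * x * z * x = r82 := by simp only [e_52_x, e_22_z, e_54_x]
  exact (mul_right_cancel (mul_right_cancel (mul_right_cancel (h.trans h2.symm))))
theorem e_124_x : r124 * x = r118 := by
  have h := rel3 r118
  simp only [e_118_z, e_83_y, e_54_x, e_82_z, e_6_x, e_11_z, e_29_y, e_60_x, e_97_z] at h
  exact h
theorem e_118_x : r118 * x = r124 := by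
  have h := rel3 r124
  simp only [e_124_z, e_103_y, e_72_x, e_102_z, e_11_x, e_6_z, e_17_y, e_42_x, e_77_z] at h
  exact h
theorem e_8_x : r8 * x = r3 := by
  have h := rel4 r3
  simp only [e_3_z, e_10_y, e_26_y, e_43_y, e_66_z, e_9_y, e_23_y, e_49_x, e_87_y] at h
  exact h
theorem e_13_x : r13 * x = r5 := by
  have h := rel4 r5
  simp only [e_5_z, e_15_y, e_38_y, e_61_y, e_48_z, e_14_y, e_35_y, e_67_x, e_107_y] at h
  exact h
theorem e_85_y : r85 * y = r116 := by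
  have h := rel4 r18
  simp only [e_18_z, e_45_y] at h
  have h2 : r116 * y * z * y * y * x * y * x = r18 := by simp only [e_116_y, e_70_z, e_44_y, e_83_y, e_54_x, e_82_y, e_7_x]
  exact (mul_right_cancel (mul_right_cancel (mul_right_cancel (mul_right_cancel (mul_right_cancel (mul_right_cancel (mul_right_cancel (h.trans h2.symm))))))))
theorem e_44_x : r44 * x = r19 := by
  have h := rel4 r19
  simp only [e_19_z, e_47_y, e_80_y, e_114_y, e_24_z, e_46_y, e_82_y, e_7_x, e_18_y] at h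
  exact h
theorem e_119_x : r119 * x = r122 := by
  have h := rel4 r22
  simp only [e_22_z, e_54_y, e_18_y, e_44_y, e_83_z, e_53_y, e_78_y] at h
  have h2 : r122 * y * x = r22 := by simp only [e_122_y, e_52_x]
  exact (mul_right_cancel (mul_right_cancel (h.trans h2.symm)))
theorem e_105_y : r105 * y = r122 := by
  have h := rel4 r30
  simp only [e_30_z, e_63_y] at h
  have h2 : r122 * y * z * y * y * x * y * x = r30 := by simp only [e_122_y, e_52_z, e_62_y, e_103_y, e_72_x, e_102_y, e_12_x]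
  exact (mul_right_cancel (mul_right_cancel (mul_right_cancel (mul_right_cancel (mul_right_cancel (mul_right_cancel (mul_right_cancel (h.trans h2.symm))))))))
theorem e_62_x : r62 * x = r31 := by
  have h := rel4 r31
  simp only [e_31_z, e_65_y, e_100_y, e_94_y, e_36_z, e_64_y, e_102_y, e_12_x, e_30_y] at h
  exact h
theorem e_125_x : r125 * x = r116 := by
  have h := rel4 r34
  simp only [e_34_z, e_72_y, e_30_y, e_62_y, e_103_z, e_71_y, e_98_y] at h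
  have h2 : r116 * y * x = r34 := by simp only [e_116_y, e_70_x]
  exact (mul_right_cancel (mul_right_cancel (h.trans h2.symm)))
theorem e_88_y : r88 * y = r118 := by
  have h := rel4 r44
  simp only [e_44_z, e_84_y, e_51_y] at h
  have h2 : r118 * z * y * y * x * y * x = r44 := by simp only [e_118_z, e_83_y, e_54_y, e_18_x, e_7_y, e_19_x]
  exact (mul_right_cancel (mul_right_cancel (mul_right_cancel (mul_right_cancel (mul_right_cancel (mul_right_cancel (h.trans h2.symm)))))))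
theorem e_117_z : r117 * z = r85 := by
  have h := rel4 r45
  simp only [e_45_z, e_86_y, e_41_y, e_77_y] at h
  have h2 : r85 * y * y * x * y * x = r45 := by simp only [e_85_y, e_116_y, e_70_x, e_34_y, e_71_x]
  exact (mul_right_cancel (mul_right_cancel (mul_right_cancel (mul_right_cancel (mul_right_cancel (h.trans h2.symm))))))
theorem e_83_x : r83 * x = r46 := by
  have h := rel4 r46
  simp only [e_46_z, e_66_y, e_10_y, e_26_y, e_43_z, e_82_y, e_7_y, e_19_x, e_44_y] at h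
  exact h
theorem e_101_y : r101 * y = r20 := by
  have h := rel4 r48
  simp only [e_48_z, e_14_y, e_35_y, e_67_y, e_5_z, e_15_y, e_38_y, e_61_x] at h
  have h2 : r20 * x = r48 := by simp only [e_20_x]
  exact (mul_right_cancel (h.trans h2.symm))
theorem e_116_z : r116 * z = r87 := by
  have h := rel4 r50
  simp only [e_50_z, e_70_y, e_45_y, e_85_y] at h
  have h2 : r87 * y * y * x * y * x = r50 := by simp only [e_87_y, e_8_y, e_21_x, e_9_y, e_23_x]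
  exact (mul_right_cancel (mul_right_cancel (mul_right_cancel (mul_right_cancel (mul_right_cancel (h.trans h2.symm))))))
theorem e_122_x : r122 * x = r119 := by
  have h := rel4 r52
  simp only [e_52_z, e_62_y, e_103_y, e_72_y, e_30_z, e_63_y, e_105_y] at h
  have h2 : r119 * y * x = r52 := by simp only [e_119_y, e_22_x]
  exact (mul_right_cancel (mul_right_cancel (h.trans h2.symm)))
theorem e_63_x : r63 * x = r53 := by
  have h := rel4 r53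
  simp only [e_53_z, e_77_y, e_117_y, e_86_y, e_41_z, e_78_y, e_119_y, e_22_x, e_52_y] at h
  exact h
theorem e_90_y : r90 * y = r121 := by
  have h := rel4 r54
  simp only [e_54_z] at h
  have h2 : r121 * y * y * z * y * y * x * y * x = r54 := by simp only [e_121_y, e_95_y, e_120_z, e_18_y, e_44_y, e_83_x, e_46_y, e_82_x]
  exact (mul_right_cancel (mul_right_cancel (mul_right_cancel (mul_right_cancel (mul_right_cancel (mul_right_cancel (mul_right_cancel (mul_right_cancel (h.trans h2.symm)))))))))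
theorem e_108_y : r108 * y = r124 := by
  have h := rel4 r62
  simp only [e_62_z, e_104_y, e_69_y] at h
  have h2 : r124 * z * y * y * x * y * x = r62 := by simp only [e_124_z, e_103_y, e_72_y, e_30_x, e_12_y, e_31_x]
  exact (mul_right_cancel (mul_right_cancel (mul_right_cancel (mul_right_cancel (mul_right_cancel (mul_right_cancel (h.trans h2.symm)))))))
theorem e_123_z : r123 * z = r105 := by
  have h := rel4 r63
  simp only [e_63_z, e_106_y, e_59_y, e_97_y] at h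
  have h2 : r105 * y * y * x * y * x = r63 := by simp only [e_105_y, e_122_y, e_52_x, e_22_y, e_53_x]
  exact (mul_right_cancel (mul_right_cancel (mul_right_cancel (mul_right_cancel (mul_right_cancel (h.trans h2.symm))))))
theorem e_103_x : r103 * x = r64 := by
  have h := rel4 r64
  simp only [e_64_z, e_48_y, e_15_y, e_38_y, e_61_z, e_102_y, e_12_y, e_31_x, e_62_y] at h
  exact h
theorem e_81_y : r81 * y = r32 := by
  have h := rel4 r66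
  simp only [e_66_z, e_9_y, e_23_y, e_49_y, e_3_z, e_10_y, e_26_y, e_43_x] at h
  have h2 : r32 * x = r66 := by simp only [e_32_x]
  exact (mul_right_cancel (h.trans h2.symm))
theorem e_122_z : r122 * z = r107 := by
  have h := rel4 r68
  simp only [e_68_z, e_52_y, e_63_y, e_105_y] at h
  have h2 : r107 * y * y * x * y * x = r68 := by simp only [e_107_y, e_13_y, e_33_x, e_14_y, e_35_x]
  exact (mul_right_cancel (mul_right_cancel (mul_right_cancel (mul_right_cancel (mul_right_cancel (h.trans h2.symm))))))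
theorem e_116_x : r116 * x = r125 := by
  have h := rel4 r70
  simp only [e_70_z, e_44_y, e_83_y, e_54_y, e_18_z, e_45_y, e_85_y] at h
  have h2 : r125 * y * x = r70 := by simp only [e_125_y, e_34_x]
  exact (mul_right_cancel (mul_right_cancel (h.trans h2.symm)))
theorem e_45_x : r45 * x = r71 := by
  have h := rel4 r71
  simp only [e_71_z, e_97_y, e_123_y, e_106_y, e_59_z, e_98_y, e_125_y, e_34_x, e_70_y] at h
  exact h
theorem e_110_y : r110 * y = r127 := by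
  have h := rel4 r72
  simp only [e_72_z] at h
  have h2 : r127 * y * y * z * y * y * x * y * x = r72 := by simp only [e_127_y, e_115_y, e_126_z, e_30_y, e_62_y, e_103_x, e_64_y, e_102_x]
  exact (mul_right_cancel (mul_right_cancel (mul_right_cancel (mul_right_cancel (mul_right_cancel (mul_right_cancel (mul_right_cancel (mul_right_cancel (h.trans h2.symm)))))))))
theorem e_81_z : r81 * z = r31 := by
  have h := rel4 r81
  have h2 : r31 * y * y * y * z * y * y * x * y * x = r81 := by simp only [e_31_y, e_64_y, e_102_y, e_12_z, e_32_y, e_25_y, e_55_x, e_26_y, e_43_x]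
  exact (mul_right_cancel (mul_right_cancel (mul_right_cancel (mul_right_cancel (mul_right_cancel (mul_right_cancel (mul_right_cancel (mul_right_cancel (mul_right_cancel (h.trans h2.symm))))))))))
theorem e_46_x : r46 * x = r83 := by
  have h := rel4 r82
  simp only [e_82_z, e_6_y, e_16_y, e_0_y, e_2_z, e_7_y, e_19_y] at h
  have h2 : r83 * y * x = r82 := by simp only [e_83_y, e_54_x]
  exact (mul_right_cancel (mul_right_cancel (h.trans h2.symm)))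
theorem e_117_x : r117 * x = r79 := by
  have h := rel4 r86
  simp only [e_86_z, e_120_y, e_90_y, e_121_y, e_95_z, e_41_y, e_77_y] at h
  have h2 : r79 * y * x = r86 := by simp only [e_79_y, e_111_x]
  exact (mul_right_cancel (mul_right_cancel (h.trans h2.symm)))
theorem e_99_x : r99 * x = r123 := by
  have h := rel4 r91
  simp only [e_91_z, e_28_y, e_1_y, e_4_y, e_11_z, e_29_y, e_60_y] at h
  have h2 : r123 * y * x = r91 := by simp only [e_123_y, e_106_x]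
  exact (mul_right_cancel (mul_right_cancel (h.trans h2.symm)))
theorem e_92_y : r92 * y = r109 := by
  have h := rel4 r93
  simp only [e_93_z, e_38_y, e_61_y, e_48_y, e_15_z, e_39_y, e_58_y, e_56_x] at h
  have h2 : r109 * x = r93 := by simp only [e_109_x]
  exact (mul_right_cancel (h.trans h2.symm))
theorem e_105_z : r105 * z = r92 := by
  have h := rel4 r96
  simp only [e_96_z, e_122_y, e_52_y, e_63_y] at h
  have h2 : r92 * y * y * x * y * x = r96 := by simp only [e_92_y, e_109_y, e_75_x, e_39_y, e_58_x]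
  exact (mul_right_cancel (mul_right_cancel (mul_right_cancel (mul_right_cancel (mul_right_cancel (h.trans h2.symm))))))
theorem e_101_z : r101 * z = r19 := by
  have h := rel4 r101
  have h2 : r19 * y * y * y * z * y * y * x * y * x = r101 := by simp only [e_19_y, e_46_y, e_82_y, e_7_z, e_20_y, e_37_y, e_73_x, e_38_y, e_61_x]
  exact (mul_right_cancel (mul_right_cancel (mul_right_cancel (mul_right_cancel (mul_right_cancel (mul_right_cancel (mul_right_cancel (mul_right_cancel (mul_right_cancel (h.trans h2.symm))))))))))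
theorem e_64_x : r64 * x = r103 := by
  have h := rel4 r102
  simp only [e_102_z, e_11_y, e_28_y, e_1_y, e_4_z, e_12_y, e_31_y] at h
  have h2 : r103 * y * x = r102 := by simp only [e_103_y, e_72_x]
  exact (mul_right_cancel (mul_right_cancel (h.trans h2.symm)))
theorem e_123_x : r123 * x = r99 := by
  have h := rel4 r106
  simp only [e_106_z, e_126_y, e_110_y, e_127_y, e_115_z, e_59_y, e_97_y] at h
  have h2 : r99 * y * x = r106 := by simp only [e_99_y, e_91_x]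
  exact (mul_right_cancel (mul_right_cancel (h.trans h2.symm)))
theorem e_79_x : r79 * x = r117 := by
  have h := rel4 r111
  simp only [e_111_z, e_16_y, e_0_y, e_2_y, e_6_z, e_17_y, e_42_y] at h
  have h2 : r117 * y * x = r111 := by simp only [e_117_y, e_86_x]
  exact (mul_right_cancel (mul_right_cancel (h.trans h2.symm)))
theorem e_112_y : r112 * y = r89 := by
  have h := rel4 r113
  simp only [e_113_z, e_26_y, e_43_y, e_66_y, e_10_z, e_27_y, e_40_y, e_74_x] at h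
  have h2 : r89 * x = r113 := by simp only [e_89_x]
  exact (mul_right_cancel (h.trans h2.symm))
theorem e_88_x : r88 * x = r108 := by
  have h := rel4 r118
  simp only [e_118_z, e_83_y, e_54_y, e_18_y, e_44_z, e_84_y, e_51_y] at h
  have h2 : r108 * y * x = r118 := by simp only [e_108_y, e_124_x]
  exact (mul_right_cancel (mul_right_cancel (h.trans h2.symm)))
theorem e_78_x : r78 * x = r105 := by
  have h := rel4 r119
  simp only [e_119_z, e_21_y, e_50_y, e_87_y, e_8_z, e_22_y, e_53_y] at h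
  have h2 : r105 * y * x = r119 := by simp only [e_105_y, e_122_x]
  exact (mul_right_cancel (mul_right_cancel (h.trans h2.symm)))
theorem e_108_x : r108 * x = r88 := by
  have h := rel4 r124
  simp only [e_124_z, e_103_y, e_72_y, e_30_y, e_62_z, e_104_y, e_69_y] at h
  have h2 : r88 * y * x = r124 := by simp only [e_88_y, e_118_x]
  exact (mul_right_cancel (mul_right_cancel (h.trans h2.symm)))
theorem e_98_x : r98 * x = r85 := by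
  have h := rel4 r125
  simp only [e_125_z, e_33_y, e_68_y, e_107_y, e_13_z, e_34_y, e_71_y] at h
  have h2 : r85 * y * x = r125 := by simp only [e_85_y, e_116_x]
  exact (mul_right_cancel (mul_right_cancel (h.trans h2.symm)))
theorem e_48_x : r48 * x = r20 := by
  have h := rel5 r20
  simp only [e_20_z, e_49_z, e_2_x, e_4_z, e_12_y, e_31_x, e_62_y, e_103_x, e_64_z] at h
  exact h
theorem e_9_x : r9 * x = r21 := by
  have h := rel5 r21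
  simp only [e_21_z, e_51_z, e_89_x, e_113_z, e_26_y, e_43_x, e_81_y, e_32_x, e_66_z] at h
  exact h
theorem e_90_x : r90 * x = r110 := by
  have h := rel5 r22
  simp only [e_22_z, e_54_z] at h
  have h2 : r110 * z * y * x * y * x * z * x = r22 := by simp only [e_110_z, e_13_y, e_33_x, e_14_y, e_35_x, e_68_z, e_52_x]
  exact (mul_right_cancel (mul_right_cancel (mul_right_cancel (mul_right_cancel (mul_right_cancel (mul_right_cancel (mul_right_cancel (h.trans h2.symm))))))))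
theorem e_112_z : r112 * z = r88 := by
  have h := rel5 r23
  simp only [e_23_z, e_37_z, e_74_x] at h
  have h2 : r88 * y * x * y * x * z * x = r23 := by simp only [e_88_y, e_118_x, e_124_y, e_104_x, e_84_z, e_50_x]
  exact (mul_right_cancel (mul_right_cancel (mul_right_cancel (mul_right_cancel (mul_right_cancel (mul_right_cancel (h.trans h2.symm)))))))
theorem e_94_x : r94 * x = r114 := by
  have h := rel5 r25
  simp only [e_25_z, e_56_z] at h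
  have h2 : r114 * z * y * x * y * x * z * x = r25 := by simp only [e_114_z, e_23_y, e_49_x, e_87_y, e_8_x, e_3_z, e_10_x]
  exact (mul_right_cancel (mul_right_cancel (mul_right_cancel (mul_right_cancel (mul_right_cancel (mul_right_cancel (mul_right_cancel (h.trans h2.symm))))))))
theorem e_66_x : r66 * x = r32 := by
  have h := rel5 r32
  simp only [e_32_z, e_67_z, e_4_x, e_2_z, e_7_y, e_19_x, e_44_y, e_83_x, e_46_z] at h
  exact h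
theorem e_14_x : r14 * x = r33 := by
  have h := rel5 r33
  simp only [e_33_z, e_69_z, e_109_x, e_93_z, e_38_y, e_61_x, e_101_y, e_20_x, e_48_z] at h
  exact h
theorem e_110_x : r110 * x = r90 := by
  have h := rel5 r34
  simp only [e_34_z, e_72_z] at h
  have h2 : r90 * z * y * x * y * x * z * x = r34 := by simp only [e_90_z, e_8_y, e_21_x, e_9_y, e_23_x, e_50_z, e_70_x]
  exact (mul_right_cancel (mul_right_cancel (mul_right_cancel (mul_right_cancel (mul_right_cancel (mul_right_cancel (mul_right_cancel (h.trans h2.symm))))))))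
theorem e_92_z : r92 * z = r108 := by
  have h := rel5 r35
  simp only [e_35_z, e_25_z, e_56_x] at h
  have h2 : r108 * y * x * y * x * z * x = r35 := by simp only [e_108_y, e_124_x, e_118_y, e_84_x, e_104_z, e_68_x]
  exact (mul_right_cancel (mul_right_cancel (mul_right_cancel (mul_right_cancel (mul_right_cancel (mul_right_cancel (h.trans h2.symm)))))))
theorem e_24_x : r24 * x = r36 := by
  have h := rel5 r36
  simp only [e_36_z, e_64_z, e_48_x, e_20_z, e_49_y, e_3_x, e_8_y, e_21_x, e_9_z] at h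
  exact h
theorem e_114_x : r114 * x = r94 := by
  have h := rel5 r37
  simp only [e_37_z, e_74_z] at h
  have h2 : r94 * z * y * x * y * x * z * x = r37 := by simp only [e_94_z, e_35_y, e_67_x, e_107_y, e_13_x, e_5_z, e_15_x]
  exact (mul_right_cancel (mul_right_cancel (mul_right_cancel (mul_right_cancel (mul_right_cancel (mul_right_cancel (mul_right_cancel (h.trans h2.symm))))))))
theorem e_120_x : r120 * x = r126 := by
  have h := rel5 r45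
  simp only [e_45_z, e_86_z] at h
  have h2 : r126 * z * y * x * y * x * z * x = r45 := by simp only [e_126_z, e_30_y, e_62_x, e_31_y, e_64_x, e_103_z, e_71_x]
  exact (mul_right_cancel (mul_right_cancel (mul_right_cancel (mul_right_cancel (mul_right_cancel (mul_right_cancel (mul_right_cancel (h.trans h2.symm))))))))
theorem e_36_x : r36 * x = r24 := by
  have h := rel5 r48
  simp only [e_48_z, e_14_z] at h
  have h2 : r24 * z * y * x * y * x * z * x = r48 := by simp only [e_24_z, e_46_y, e_82_x, e_54_y, e_18_x, e_7_z, e_20_x]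
  exact (mul_right_cancel (mul_right_cancel (mul_right_cancel (mul_right_cancel (mul_right_cancel (mul_right_cancel (mul_right_cancel (h.trans h2.symm))))))))
theorem e_80_x : r80 * x = r100 := by
  have h := rel5 r50
  simp only [e_50_z, e_70_z, e_44_x, e_19_z, e_47_y] at h
  have h2 : r100 * y * x * z * x = r50 := by simp only [e_100_y, e_94_x, e_114_z, e_23_x]
  exact (mul_right_cancel (mul_right_cancel (mul_right_cancel (mul_right_cancel (h.trans h2.symm)))))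
theorem e_69_x : r69 * x = r51 := by
  have h := rel5 r51
  simp only [e_51_z, e_89_z, e_119_x, e_122_z, e_107_y, e_13_x, e_5_y, e_14_x, e_33_z] at h
  exact h
theorem e_26_x : r26 * x = r55 := by
  have h := rel5 r55
  simp only [e_55_z, e_91_z, e_28_x, e_16_z, e_40_y, e_74_x, e_112_y, e_89_x, e_113_z] at h
  exact h
theorem e_92_x : r92 * x = r56 := by
  have h := rel5 r56
  simp only [e_56_z, e_94_z, e_35_x, e_68_z, e_52_y, e_63_x, e_53_y, e_78_x, e_105_z] at h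
  exact h
theorem e_25_x : r25 * x = r10 := by
  have h := rel5 r57
  simp only [e_57_z, e_95_z, e_41_x, e_17_z, e_43_y, e_66_x, e_32_y] at h
  have h2 : r10 * z * x = r57 := by simp only [e_10_z, e_27_x]
  exact (mul_right_cancel (mul_right_cancel (h.trans h2.symm)))
theorem e_126_x : r126 * x = r120 := by
  have h := rel5 r63
  simp only [e_63_z, e_106_z] at h
  have h2 : r120 * z * y * x * y * x * z * x = r63 := by simp only [e_120_z, e_18_y, e_44_x, e_19_y, e_46_x, e_83_z, e_53_x]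
  exact (mul_right_cancel (mul_right_cancel (mul_right_cancel (mul_right_cancel (mul_right_cancel (mul_right_cancel (mul_right_cancel (h.trans h2.symm))))))))
theorem e_100_x : r100 * x = r80 := by
  have h := rel5 r68
  simp only [e_68_z, e_52_z, e_62_x, e_31_z, e_65_y] at h
  have h2 : r80 * y * x * z * x = r68 := by simp only [e_80_y, e_114_x, e_94_z, e_35_x]
  exact (mul_right_cancel (mul_right_cancel (mul_right_cancel (mul_right_cancel (h.trans h2.symm)))))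
theorem e_51_x : r51 * x = r69 := by
  have h := rel5 r69
  simp only [e_69_z, e_109_z, e_125_x, e_116_z, e_87_y, e_8_x, e_3_y, e_9_x, e_21_z] at h
  exact h
theorem e_38_x : r38 * x = r73 := by
  have h := rel5 r73
  simp only [e_73_z, e_111_z, e_16_x, e_28_z, e_58_y, e_56_x, e_92_y, e_109_x, e_93_z] at h
  exact h
theorem e_37_x : r37 * x = r15 := by
  have h := rel5 r75
  simp only [e_75_z, e_115_z, e_59_x, e_29_z, e_61_y, e_48_x, e_20_y] at h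
  have h2 : r15 * z * x = r75 := by simp only [e_15_z, e_39_x]
  exact (mul_right_cancel (mul_right_cancel (h.trans h2.symm)))
theorem e_95_x : r95 * x = r115 := by
  have h := rel5 r78
  simp only [e_78_z, e_57_z] at h
  have h2 : r115 * z * y * x * y * x * z * x = r78 := by simp only [e_115_z, e_59_y, e_97_x, e_60_y, e_99_x, e_123_z, e_105_x]
  exact (mul_right_cancel (mul_right_cancel (mul_right_cancel (mul_right_cancel (mul_right_cancel (mul_right_cancel (mul_right_cancel (h.trans h2.symm))))))))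
theorem e_79_z : r79 * z = r101 := by
  have h := rel5 r79
  have h2 : r101 * z * x * z * y * x * y * x * z * x = r79 := by simp only [e_101_z, e_19_x, e_44_z, e_84_y, e_51_x, e_69_y, e_108_x, e_88_z, e_117_x]
  exact (mul_right_cancel (mul_right_cancel (mul_right_cancel (mul_right_cancel (mul_right_cancel (mul_right_cancel (mul_right_cancel (mul_right_cancel (mul_right_cancel (h.trans h2.symm))))))))))
theorem e_65_x : r65 * x = r47 := by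
  have h := rel5 r81
  simp only [e_81_z, e_31_z] at h
  have h2 : r47 * z * y * x * y * x * z * x = r81 := by simp only [e_47_z, e_79_y, e_111_x, e_86_y, e_41_x, e_17_z, e_43_x]
  exact (mul_right_cancel (mul_right_cancel (mul_right_cancel (mul_right_cancel (mul_right_cancel (mul_right_cancel (mul_right_cancel (h.trans h2.symm))))))))
theorem e_85_z : r85 * z = r112 := by
  have h := rel5 r85
  have h2 : r112 * z * x * z * y * x * y * x * z * x = r85 := by simp only [e_112_z, e_88_x, e_108_z, e_123_y, e_106_x, e_91_y, e_29_x, e_59_z, e_98_x]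
  exact (mul_right_cancel (mul_right_cancel (mul_right_cancel (mul_right_cancel (mul_right_cancel (mul_right_cancel (mul_right_cancel (mul_right_cancel (mul_right_cancel (h.trans h2.symm))))))))))
theorem e_47_x : r47 * x = r65 := by
  have h := rel5 r89
  simp only [e_89_z, e_119_z, e_21_x, e_9_z, e_24_y] at h
  have h2 : r65 * y * x * z * x = r89 := by simp only [e_65_y, e_100_x, e_80_z, e_113_x]
  exact (mul_right_cancel (mul_right_cancel (mul_right_cancel (mul_right_cancel (h.trans h2.symm)))))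
theorem e_99_z : r99 * z = r81 := by
  have h := rel5 r92
  simp only [e_92_z, e_108_z, e_123_x] at h
  have h2 : r81 * y * x * y * x * z * x = r92 := by simp only [e_81_y, e_32_x, e_66_y, e_10_x, e_25_z, e_56_x]
  exact (mul_right_cancel (mul_right_cancel (mul_right_cancel (mul_right_cancel (mul_right_cancel (mul_right_cancel (h.trans h2.symm)))))))
theorem e_115_x : r115 * x = r95 := by
  have h := rel5 r95
  simp only [e_95_z, e_41_z, e_78_x, e_105_z, e_92_y, e_109_x, e_93_y, e_39_x, e_75_z] at h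
  exact h
theorem e_96_y : r96 * y = r92 := by
  have h := rel5 r114
  simp only [e_114_z, e_23_z, e_37_x, e_15_z, e_39_y, e_58_x] at h
  have h2 : r92 * x * z * x = r114 := by simp only [e_92_x, e_56_z, e_94_x]
  exact (mul_right_cancel (mul_right_cancel (mul_right_cancel (h.trans h2.symm))))
theorem e_112_x : r112 * x = r74 := by
  have h := rel5 r117
  simp only [e_117_z, e_85_z] at h
  have h2 : r74 * z * y * x * y * x * z * x = r117 := by simp only [e_74_z, e_114_y, e_24_x, e_36_y, e_65_x, e_47_z, e_79_x]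
  exact (mul_right_cancel (mul_right_cancel (mul_right_cancel (mul_right_cancel (mul_right_cancel (mul_right_cancel (mul_right_cancel (h.trans h2.symm))))))))
theorem e_73_y : r73 * y = r101 := by
  have h := rel6 r16
  simp only [e_16_z, e_40_z] at h
  have h2 : r101 * y * z * z * x * y * x * y = r16 := by simp only [e_101_y, e_20_z, e_49_z, e_2_x, e_4_y, e_11_x, e_6_y]
  exact (mul_right_cancel (mul_right_cancel (mul_right_cancel (mul_right_cancel (mul_right_cancel (mul_right_cancel (mul_right_cancel (h.trans h2.symm))))))))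
theorem e_57_y : r57 * y = r76 := by
  have h := rel6 r21
  simp only [e_21_z, e_51_z, e_89_y] at h
  have h2 : r76 * z * z * x * y * x * y = r21 := by simp only [e_76_z, e_116_z, e_87_x, e_49_y, e_3_x, e_8_y]
  exact (mul_right_cancel (mul_right_cancel (mul_right_cancel (mul_right_cancel (mul_right_cancel (mul_right_cancel (h.trans h2.symm)))))))
theorem e_81_x : r81 * x = r43 := by
  have h := rel6 r25
  simp only [e_25_z, e_56_z, e_94_y, e_36_y, e_65_z, e_99_z] at h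
  have h2 : r43 * y * x * y = r25 := by simp only [e_43_y, e_66_x, e_32_y]
  exact (mul_right_cancel (mul_right_cancel (mul_right_cancel (h.trans h2.symm))))
theorem e_55_y : r55 * y = r81 := by
  have h := rel6 r28
  simp only [e_28_z, e_58_z] at h
  have h2 : r81 * y * z * z * x * y * x * y = r28 := by simp only [e_81_y, e_32_z, e_67_z, e_4_x, e_2_y, e_6_x, e_11_y]
  exact (mul_right_cancel (mul_right_cancel (mul_right_cancel (mul_right_cancel (mul_right_cancel (mul_right_cancel (mul_right_cancel (h.trans h2.symm))))))))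
theorem e_75_y : r75 * y = r96 := by
  have h := rel6 r33
  simp only [e_33_z, e_69_z, e_109_y] at h
  have h2 : r96 * z * z * x * y * x * y = r33 := by simp only [e_96_z, e_122_z, e_107_x, e_67_y, e_5_x, e_13_y]
  exact (mul_right_cancel (mul_right_cancel (mul_right_cancel (mul_right_cancel (mul_right_cancel (mul_right_cancel (h.trans h2.symm)))))))
theorem e_101_x : r101 * x = r61 := by
  have h := rel6 r37
  simp only [e_37_z, e_74_z, e_114_y, e_24_y, e_47_z, e_79_z] at h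
  have h2 : r61 * y * x * y = r37 := by simp only [e_61_y, e_48_x, e_20_y]
  exact (mul_right_cancel (mul_right_cancel (mul_right_cancel (h.trans h2.symm))))
theorem e_76_y : r76 * y = r112 := by
  have h := rel6 r41
  simp only [e_41_z, e_78_z, e_57_y] at h
  have h2 : r112 * z * z * x * y * x * y = r41 := by simp only [e_112_z, e_88_z, e_117_x, e_79_y, e_111_x, e_86_y]
  exact (mul_right_cancel (mul_right_cancel (mul_right_cancel (mul_right_cancel (mul_right_cancel (mul_right_cancel (h.trans h2.symm)))))))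
theorem e_121_z : r121 * z = r76 := by
  have h := rel6 r45
  simp only [e_45_z, e_86_z, e_120_y, e_90_y] at h
  have h2 : r76 * z * x * y * x * y = r45 := by simp only [e_76_z, e_116_x, e_125_y, e_34_x, e_70_y]
  exact (mul_right_cancel (mul_right_cancel (mul_right_cancel (mul_right_cancel (mul_right_cancel (h.trans h2.symm))))))
theorem e_96_x : r96 * x = r58 := by
  have h := rel6 r56
  simp only [e_56_z, e_94_z, e_35_y, e_67_y, e_5_z, e_15_z, e_39_x, e_75_y] at h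
  have h2 : r58 * y = r56 := by simp only [e_58_y]
  exact (mul_right_cancel (h.trans h2.symm))
theorem e_127_z : r127 * z = r96 := by
  have h := rel6 r63
  simp only [e_63_z, e_106_z, e_126_y, e_110_y] at h
  have h2 : r96 * z * x * y * x * y = r63 := by simp only [e_96_z, e_122_x, e_119_y, e_22_x, e_52_y]
  exact (mul_right_cancel (mul_right_cancel (mul_right_cancel (mul_right_cancel (mul_right_cancel (h.trans h2.symm))))))
theorem e_76_x : r76 * x = r40 := by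
  have h := rel6 r74
  simp only [e_74_z, e_114_z, e_23_y, e_49_y, e_3_z, e_10_z, e_27_x, e_57_y] at h
  have h2 : r40 * y = r74 := by simp only [e_40_y]
  exact (mul_right_cancel (h.trans h2.symm))
theorem e_127_x : r127 * x = r121 := by
  have h := rel6 r95
  simp only [e_95_z, e_41_z, e_78_y, e_119_y, e_22_z, e_54_z, e_90_x, e_110_y] at h
  have h2 : r121 * y = r95 := by simp only [e_121_y]
  exact (mul_right_cancel (h.trans h2.symm))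
theorem e_121_x : r121 * x = r127 := by
  have h := rel6 r115
  simp only [e_115_z, e_59_z, e_98_y, e_125_y, e_34_z, e_72_z, e_110_x, e_90_y] at h
  have h2 : r127 * y = r115 := by simp only [e_127_y]
  exact (mul_right_cancel (h.trans h2.symm))
abbrev Idx := Fin 1 × Fin 128
noncomputable def rep_c0 : Fin 128 → P
  | ⟨0, _⟩ => r0
  | ⟨1, _⟩ => r1
  | ⟨2, _⟩ => r2
  | ⟨3, _⟩ => r3
  | ⟨4, _⟩ => r4
  | ⟨5, _⟩ => r5
  | ⟨6, _⟩ => r6
  | ⟨7, _⟩ => r7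
  | ⟨8, _⟩ => r8
  | ⟨9, _⟩ => r9
  | ⟨10, _⟩ => r10
  | ⟨11, _⟩ => r11
  | ⟨12, _⟩ => r12
  | ⟨13, _⟩ => r13
  | ⟨14, _⟩ => r14
  | ⟨15, _⟩ => r15
  | ⟨16, _⟩ => r16
  | ⟨17, _⟩ => r17
  | ⟨18, _⟩ => r18
  | ⟨19, _⟩ => r19
  | ⟨20, _⟩ => r20
  | ⟨21, _⟩ => r21
  | ⟨22, _⟩ => r22
  | ⟨23, _⟩ => r23
  | ⟨24, _⟩ => r24
  | ⟨25, _⟩ => r25
  | ⟨26, _⟩ => r26
  | ⟨27, _⟩ => r27
  | ⟨28, _⟩ => r28
  | ⟨29, _⟩ => r29
  | ⟨30, _⟩ => r30
  | ⟨31, _⟩ => r31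
  | ⟨32, _⟩ => r32
  | ⟨33, _⟩ => r33
  | ⟨34, _⟩ => r34
  | ⟨35, _⟩ => r35
  | ⟨36, _⟩ => r36
  | ⟨37, _⟩ => r37
  | ⟨38, _⟩ => r38
  | ⟨39, _⟩ => r39
  | ⟨40, _⟩ => r40
  | ⟨41, _⟩ => r41
  | ⟨42, _⟩ => r42
  | ⟨43, _⟩ => r43
  | ⟨44, _⟩ => r44
  | ⟨45, _⟩ => r45
  | ⟨46, _⟩ => r46
  | ⟨47, _⟩ => r47
  | ⟨48, _⟩ => r48
  | ⟨49, _⟩ => r49
  | ⟨50, _⟩ => r50
  | ⟨51, _⟩ => r51
  | ⟨52, _⟩ => r52
  | ⟨53, _⟩ => r53
  | ⟨54, _⟩ => r54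
  | ⟨55, _⟩ => r55
  | ⟨56, _⟩ => r56
  | ⟨57, _⟩ => r57
  | ⟨58, _⟩ => r58
  | ⟨59, _⟩ => r59
  | ⟨60, _⟩ => r60
  | ⟨61, _⟩ => r61
  | ⟨62, _⟩ => r62
  | ⟨63, _⟩ => r63
  | ⟨64, _⟩ => r64
  | ⟨65, _⟩ => r65
  | ⟨66, _⟩ => r66
  | ⟨67, _⟩ => r67
  | ⟨68, _⟩ => r68
  | ⟨69, _⟩ => r69
  | ⟨70, _⟩ => r70
  | ⟨71, _⟩ => r71
  | ⟨72, _⟩ => r72
  | ⟨73, _⟩ => r73
  | ⟨74, _⟩ => r74
  | ⟨75, _⟩ => r75
  | ⟨76, _⟩ => r76
  | ⟨77, _⟩ => r77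
  | ⟨78, _⟩ => r78
  | ⟨79, _⟩ => r79
  | ⟨80, _⟩ => r80
  | ⟨81, _⟩ => r81
  | ⟨82, _⟩ => r82
  | ⟨83, _⟩ => r83
  | ⟨84, _⟩ => r84
  | ⟨85, _⟩ => r85
  | ⟨86, _⟩ => r86
  | ⟨87, _⟩ => r87
  | ⟨88, _⟩ => r88
  | ⟨89, _⟩ => r89
  | ⟨90, _⟩ => r90
  | ⟨91, _⟩ => r91
  | ⟨92, _⟩ => r92
  | ⟨93, _⟩ => r93
  | ⟨94, _⟩ => r94
  | ⟨95, _⟩ => r95
  | ⟨96, _⟩ => r96
  | ⟨97, _⟩ => r97
  | ⟨98, _⟩ => r98
  | ⟨99, _⟩ => r99
  | ⟨100, _⟩ => r100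
  | ⟨101, _⟩ => r101
  | ⟨102, _⟩ => r102
  | ⟨103, _⟩ => r103
  | ⟨104, _⟩ => r104
  | ⟨105, _⟩ => r105
  | ⟨106, _⟩ => r106
  | ⟨107, _⟩ => r107
  | ⟨108, _⟩ => r108
  | ⟨109, _⟩ => r109
  | ⟨110, _⟩ => r110
  | ⟨111, _⟩ => r111
  | ⟨112, _⟩ => r112
  | ⟨113, _⟩ => r113
  | ⟨114, _⟩ => r114
  | ⟨115, _⟩ => r115
  | ⟨116, _⟩ => r116
  | ⟨117, _⟩ => r117
  | ⟨118, _⟩ => r118
  | ⟨119, _⟩ => r119
  | ⟨120, _⟩ => r120
  | ⟨121, _⟩ => r121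
  | ⟨122, _⟩ => r122
  | ⟨123, _⟩ => r123
  | ⟨124, _⟩ => r124
  | ⟨125, _⟩ => r125
  | ⟨126, _⟩ => r126
  | ⟨127, _⟩ => r127
  | ⟨n+128, h⟩ => absurd h (by omega)
noncomputable def rep_ch : Fin 1 → Fin 128 → P
  | ⟨0, _⟩ => rep_c0
  | ⟨n+1, h⟩ => absurd h (by omega)
noncomputable def rep (i : Idx) : P := rep_ch i.1 i.2
def nx_x_c0 : Fin 128 → Idx
  | ⟨0, _⟩ => (0, 1)
  | ⟨1, _⟩ => (0, 0)
  | ⟨2, _⟩ => (0, 4)
  | ⟨3, _⟩ => (0, 8)
  | ⟨4, _⟩ => (0, 2)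
  | ⟨5, _⟩ => (0, 13)
  | ⟨6, _⟩ => (0, 11)
  | ⟨7, _⟩ => (0, 18)
  | ⟨8, _⟩ => (0, 3)
  | ⟨9, _⟩ => (0, 21)
  | ⟨10, _⟩ => (0, 25)
  | ⟨11, _⟩ => (0, 6)
  | ⟨12, _⟩ => (0, 30)
  | ⟨13, _⟩ => (0, 5)
  | ⟨14, _⟩ => (0, 33)
  | ⟨15, _⟩ => (0, 37)
  | ⟨16, _⟩ => (0, 28)
  | ⟨17, _⟩ => (0, 41)
  | ⟨18, _⟩ => (0, 7)
  | ⟨19, _⟩ => (0, 44)
  | ⟨20, _⟩ => (0, 48)
  | ⟨21, _⟩ => (0, 9)
  | ⟨22, _⟩ => (0, 52)
  | ⟨23, _⟩ => (0, 50)
  | ⟨24, _⟩ => (0, 36)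
  | ⟨25, _⟩ => (0, 10)
  | ⟨26, _⟩ => (0, 55)
  | ⟨27, _⟩ => (0, 57)
  | ⟨28, _⟩ => (0, 16)
  | ⟨29, _⟩ => (0, 59)
  | ⟨30, _⟩ => (0, 12)
  | ⟨31, _⟩ => (0, 62)
  | ⟨32, _⟩ => (0, 66)
  | ⟨33, _⟩ => (0, 14)
  | ⟨34, _⟩ => (0, 70)
  | ⟨35, _⟩ => (0, 68)
  | ⟨36, _⟩ => (0, 24)
  | ⟨37, _⟩ => (0, 15)
  | ⟨38, _⟩ => (0, 73)
  | ⟨39, _⟩ => (0, 75)
  | ⟨40, _⟩ => (0, 76)
  | ⟨41, _⟩ => (0, 17)
  | ⟨42, _⟩ => (0, 77)
  | ⟨43, _⟩ => (0, 81)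
  | ⟨44, _⟩ => (0, 19)
  | ⟨45, _⟩ => (0, 71)
  | ⟨46, _⟩ => (0, 83)
  | ⟨47, _⟩ => (0, 65)
  | ⟨48, _⟩ => (0, 20)
  | ⟨49, _⟩ => (0, 87)
  | ⟨50, _⟩ => (0, 23)
  | ⟨51, _⟩ => (0, 69)
  | ⟨52, _⟩ => (0, 22)
  | ⟨53, _⟩ => (0, 63)
  | ⟨54, _⟩ => (0, 82)
  | ⟨55, _⟩ => (0, 26)
  | ⟨56, _⟩ => (0, 92)
  | ⟨57, _⟩ => (0, 27)
  | ⟨58, _⟩ => (0, 96)
  | ⟨59, _⟩ => (0, 29)
  | ⟨60, _⟩ => (0, 97)
  | ⟨61, _⟩ => (0, 101)
  | ⟨62, _⟩ => (0, 31)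
  | ⟨63, _⟩ => (0, 53)
  | ⟨64, _⟩ => (0, 103)
  | ⟨65, _⟩ => (0, 47)
  | ⟨66, _⟩ => (0, 32)
  | ⟨67, _⟩ => (0, 107)
  | ⟨68, _⟩ => (0, 35)
  | ⟨69, _⟩ => (0, 51)
  | ⟨70, _⟩ => (0, 34)
  | ⟨71, _⟩ => (0, 45)
  | ⟨72, _⟩ => (0, 102)
  | ⟨73, _⟩ => (0, 38)
  | ⟨74, _⟩ => (0, 112)
  | ⟨75, _⟩ => (0, 39)
  | ⟨76, _⟩ => (0, 40)
  | ⟨77, _⟩ => (0, 42)
  | ⟨78, _⟩ => (0, 105)
  | ⟨79, _⟩ => (0, 117)
  | ⟨80, _⟩ => (0, 100)
  | ⟨81, _⟩ => (0, 43)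
  | ⟨82, _⟩ => (0, 54)
  | ⟨83, _⟩ => (0, 46)
  | ⟨84, _⟩ => (0, 104)
  | ⟨85, _⟩ => (0, 98)
  | ⟨86, _⟩ => (0, 111)
  | ⟨87, _⟩ => (0, 49)
  | ⟨88, _⟩ => (0, 108)
  | ⟨89, _⟩ => (0, 113)
  | ⟨90, _⟩ => (0, 110)
  | ⟨91, _⟩ => (0, 106)
  | ⟨92, _⟩ => (0, 56)
  | ⟨93, _⟩ => (0, 109)
  | ⟨94, _⟩ => (0, 114)
  | ⟨95, _⟩ => (0, 115)
  | ⟨96, _⟩ => (0, 58)
  | ⟨97, _⟩ => (0, 60)
  | ⟨98, _⟩ => (0, 85)
  | ⟨99, _⟩ => (0, 123)
  | ⟨100, _⟩ => (0, 80)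
  | ⟨101, _⟩ => (0, 61)
  | ⟨102, _⟩ => (0, 72)
  | ⟨103, _⟩ => (0, 64)
  | ⟨104, _⟩ => (0, 84)
  | ⟨105, _⟩ => (0, 78)
  | ⟨106, _⟩ => (0, 91)
  | ⟨107, _⟩ => (0, 67)
  | ⟨108, _⟩ => (0, 88)
  | ⟨109, _⟩ => (0, 93)
  | ⟨110, _⟩ => (0, 90)
  | ⟨111, _⟩ => (0, 86)
  | ⟨112, _⟩ => (0, 74)
  | ⟨113, _⟩ => (0, 89)
  | ⟨114, _⟩ => (0, 94)
  | ⟨115, _⟩ => (0, 95)
  | ⟨116, _⟩ => (0, 125)
  | ⟨117, _⟩ => (0, 79)
  | ⟨118, _⟩ => (0, 124)
  | ⟨119, _⟩ => (0, 122)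
  | ⟨120, _⟩ => (0, 126)
  | ⟨121, _⟩ => (0, 127)
  | ⟨122, _⟩ => (0, 119)
  | ⟨123, _⟩ => (0, 99)
  | ⟨124, _⟩ => (0, 118)
  | ⟨125, _⟩ => (0, 116)
  | ⟨126, _⟩ => (0, 120)
  | ⟨127, _⟩ => (0, 121)
  | ⟨n+128, h⟩ => absurd h (by omega)
def nx_x_ch : Fin 1 → Fin 128 → Idx
  | ⟨0, _⟩ => nx_x_c0
  | ⟨n+1, h⟩ => absurd h (by omega)
def nx_x (i : Idx) : Idx := nx_x_ch i.1 i.2
def px_x_c0 : Fin 128 → Idx
  | ⟨0, _⟩ => (0, 1)
  | ⟨1, _⟩ => (0, 0)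
  | ⟨2, _⟩ => (0, 4)
  | ⟨3, _⟩ => (0, 8)
  | ⟨4, _⟩ => (0, 2)
  | ⟨5, _⟩ => (0, 13)
  | ⟨6, _⟩ => (0, 11)
  | ⟨7, _⟩ => (0, 18)
  | ⟨8, _⟩ => (0, 3)
  | ⟨9, _⟩ => (0, 21)
  | ⟨10, _⟩ => (0, 25)
  | ⟨11, _⟩ => (0, 6)
  | ⟨12, _⟩ => (0, 30)
  | ⟨13, _⟩ => (0, 5)
  | ⟨14, _⟩ => (0, 33)
  | ⟨15, _⟩ => (0, 37)
  | ⟨16, _⟩ => (0, 28)
  | ⟨17, _⟩ => (0, 41)
  | ⟨18, _⟩ => (0, 7)
  | ⟨19, _⟩ => (0, 44)
  | ⟨20, _⟩ => (0, 48)
  | ⟨21, _⟩ => (0, 9)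
  | ⟨22, _⟩ => (0, 52)
  | ⟨23, _⟩ => (0, 50)
  | ⟨24, _⟩ => (0, 36)
  | ⟨25, _⟩ => (0, 10)
  | ⟨26, _⟩ => (0, 55)
  | ⟨27, _⟩ => (0, 57)
  | ⟨28, _⟩ => (0, 16)
  | ⟨29, _⟩ => (0, 59)
  | ⟨30, _⟩ => (0, 12)
  | ⟨31, _⟩ => (0, 62)
  | ⟨32, _⟩ => (0, 66)
  | ⟨33, _⟩ => (0, 14)
  | ⟨34, _⟩ => (0, 70)
  | ⟨35, _⟩ => (0, 68)
  | ⟨36, _⟩ => (0, 24)
  | ⟨37, _⟩ => (0, 15)
  | ⟨38, _⟩ => (0, 73)
  | ⟨39, _⟩ => (0, 75)
  | ⟨40, _⟩ => (0, 76)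
  | ⟨41, _⟩ => (0, 17)
  | ⟨42, _⟩ => (0, 77)
  | ⟨43, _⟩ => (0, 81)
  | ⟨44, _⟩ => (0, 19)
  | ⟨45, _⟩ => (0, 71)
  | ⟨46, _⟩ => (0, 83)
  | ⟨47, _⟩ => (0, 65)
  | ⟨48, _⟩ => (0, 20)
  | ⟨49, _⟩ => (0, 87)
  | ⟨50, _⟩ => (0, 23)
  | ⟨51, _⟩ => (0, 69)
  | ⟨52, _⟩ => (0, 22)
  | ⟨53, _⟩ => (0, 63)
  | ⟨54, _⟩ => (0, 82)
  | ⟨55, _⟩ => (0, 26)
  | ⟨56, _⟩ => (0, 92)
  | ⟨57, _⟩ => (0, 27)
  | ⟨58, _⟩ => (0, 96)
  | ⟨59, _⟩ => (0, 29)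
  | ⟨60, _⟩ => (0, 97)
  | ⟨61, _⟩ => (0, 101)
  | ⟨62, _⟩ => (0, 31)
  | ⟨63, _⟩ => (0, 53)
  | ⟨64, _⟩ => (0, 103)
  | ⟨65, _⟩ => (0, 47)
  | ⟨66, _⟩ => (0, 32)
  | ⟨67, _⟩ => (0, 107)
  | ⟨68, _⟩ => (0, 35)
  | ⟨69, _⟩ => (0, 51)
  | ⟨70, _⟩ => (0, 34)
  | ⟨71, _⟩ => (0, 45)
  | ⟨72, _⟩ => (0, 102)
  | ⟨73, _⟩ => (0, 38)
  | ⟨74, _⟩ => (0, 112)
  | ⟨75, _⟩ => (0, 39)
  | ⟨76, _⟩ => (0, 40)
  | ⟨77, _⟩ => (0, 42)
  | ⟨78, _⟩ => (0, 105)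
  | ⟨79, _⟩ => (0, 117)
  | ⟨80, _⟩ => (0, 100)
  | ⟨81, _⟩ => (0, 43)
  | ⟨82, _⟩ => (0, 54)
  | ⟨83, _⟩ => (0, 46)
  | ⟨84, _⟩ => (0, 104)
  | ⟨85, _⟩ => (0, 98)
  | ⟨86, _⟩ => (0, 111)
  | ⟨87, _⟩ => (0, 49)
  | ⟨88, _⟩ => (0, 108)
  | ⟨89, _⟩ => (0, 113)
  | ⟨90, _⟩ => (0, 110)
  | ⟨91, _⟩ => (0, 106)
  | ⟨92, _⟩ => (0, 56)
  | ⟨93, _⟩ => (0, 109)
  | ⟨94, _⟩ => (0, 114)
  | ⟨95, _⟩ => (0, 115)
  | ⟨96, _⟩ => (0, 58)
  | ⟨97, _⟩ => (0, 60)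
  | ⟨98, _⟩ => (0, 85)
  | ⟨99, _⟩ => (0, 123)
  | ⟨100, _⟩ => (0, 80)
  | ⟨101, _⟩ => (0, 61)
  | ⟨102, _⟩ => (0, 72)
  | ⟨103, _⟩ => (0, 64)
  | ⟨104, _⟩ => (0, 84)
  | ⟨105, _⟩ => (0, 78)
  | ⟨106, _⟩ => (0, 91)
  | ⟨107, _⟩ => (0, 67)
  | ⟨108, _⟩ => (0, 88)
  | ⟨109, _⟩ => (0, 93)
  | ⟨110, _⟩ => (0, 90)
  | ⟨111, _⟩ => (0, 86)
  | ⟨112, _⟩ => (0, 74)
  | ⟨113, _⟩ => (0, 89)
  | ⟨114, _⟩ => (0, 94)
  | ⟨115, _⟩ => (0, 95)
  | ⟨116, _⟩ => (0, 125)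
  | ⟨117, _⟩ => (0, 79)
  | ⟨118, _⟩ => (0, 124)
  | ⟨119, _⟩ => (0, 122)
  | ⟨120, _⟩ => (0, 126)
  | ⟨121, _⟩ => (0, 127)
  | ⟨122, _⟩ => (0, 119)
  | ⟨123, _⟩ => (0, 99)
  | ⟨124, _⟩ => (0, 118)
  | ⟨125, _⟩ => (0, 116)
  | ⟨126, _⟩ => (0, 120)
  | ⟨127, _⟩ => (0, 121)
  | ⟨n+128, h⟩ => absurd h (by omega)
def px_x_ch : Fin 1 → Fin 128 → Idx
  | ⟨0, _⟩ => px_x_c0
  | ⟨n+1, h⟩ => absurd h (by omega)
def px_x (i : Idx) : Idx := px_x_ch i.1 i.2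
theorem closed_x_c0 : ∀ b : Fin 128, rep_c0 b * x = rep (nx_x_c0 b)
  | ⟨0, _⟩ => e_0_x
  | ⟨1, _⟩ => e_1_x
  | ⟨2, _⟩ => e_2_x
  | ⟨3, _⟩ => e_3_x
  | ⟨4, _⟩ => e_4_x
  | ⟨5, _⟩ => e_5_x
  | ⟨6, _⟩ => e_6_x
  | ⟨7, _⟩ => e_7_x
  | ⟨8, _⟩ => e_8_x
  | ⟨9, _⟩ => e_9_x
  | ⟨10, _⟩ => e_10_x
  | ⟨11, _⟩ => e_11_x
  | ⟨12, _⟩ => e_12_x
  | ⟨13, _⟩ => e_13_x
  | ⟨14, _⟩ => e_14_x
  | ⟨15, _⟩ => e_15_x
  | ⟨16, _⟩ => e_16_x
  | ⟨17, _⟩ => e_17_x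
  | ⟨18, _⟩ => e_18_x
  | ⟨19, _⟩ => e_19_x
  | ⟨20, _⟩ => e_20_x
  | ⟨21, _⟩ => e_21_x
  | ⟨22, _⟩ => e_22_x
  | ⟨23, _⟩ => e_23_x
  | ⟨24, _⟩ => e_24_x
  | ⟨25, _⟩ => e_25_x
  | ⟨26, _⟩ => e_26_x
  | ⟨27, _⟩ => e_27_x
  | ⟨28, _⟩ => e_28_x
  | ⟨29, _⟩ => e_29_x
  | ⟨30, _⟩ => e_30_x
  | ⟨31, _⟩ => e_31_x
  | ⟨32, _⟩ => e_32_x
  | ⟨33, _⟩ => e_33_x
  | ⟨34, _⟩ => e_34_x
  | ⟨35, _⟩ => e_35_x
  | ⟨36, _⟩ => e_36_x
  | ⟨37, _⟩ => e_37_x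
  | ⟨38, _⟩ => e_38_x
  | ⟨39, _⟩ => e_39_x
  | ⟨40, _⟩ => e_40_x
  | ⟨41, _⟩ => e_41_x
  | ⟨42, _⟩ => e_42_x
  | ⟨43, _⟩ => e_43_x
  | ⟨44, _⟩ => e_44_x
  | ⟨45, _⟩ => e_45_x
  | ⟨46, _⟩ => e_46_x
  | ⟨47, _⟩ => e_47_x
  | ⟨48, _⟩ => e_48_x
  | ⟨49, _⟩ => e_49_x
  | ⟨50, _⟩ => e_50_x
  | ⟨51, _⟩ => e_51_x
  | ⟨52, _⟩ => e_52_x
  | ⟨53, _⟩ => e_53_x
  | ⟨54, _⟩ => e_54_x
  | ⟨55, _⟩ => e_55_x
  | ⟨56, _⟩ => e_56_x
  | ⟨57, _⟩ => e_57_x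
  | ⟨58, _⟩ => e_58_x
  | ⟨59, _⟩ => e_59_x
  | ⟨60, _⟩ => e_60_x
  | ⟨61, _⟩ => e_61_x
  | ⟨62, _⟩ => e_62_x
  | ⟨63, _⟩ => e_63_x
  | ⟨64, _⟩ => e_64_x
  | ⟨65, _⟩ => e_65_x
  | ⟨66, _⟩ => e_66_x
  | ⟨67, _⟩ => e_67_x
  | ⟨68, _⟩ => e_68_x
  | ⟨69, _⟩ => e_69_x
  | ⟨70, _⟩ => e_70_x
  | ⟨71, _⟩ => e_71_x
  | ⟨72, _⟩ => e_72_x
  | ⟨73, _⟩ => e_73_x
  | ⟨74, _⟩ => e_74_x
  | ⟨75, _⟩ => e_75_x
  | ⟨76, _⟩ => e_76_x
  | ⟨77, _⟩ => e_77_x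
  | ⟨78, _⟩ => e_78_x
  | ⟨79, _⟩ => e_79_x
  | ⟨80, _⟩ => e_80_x
  | ⟨81, _⟩ => e_81_x
  | ⟨82, _⟩ => e_82_x
  | ⟨83, _⟩ => e_83_x
  | ⟨84, _⟩ => e_84_x
  | ⟨85, _⟩ => e_85_x
  | ⟨86, _⟩ => e_86_x
  | ⟨87, _⟩ => e_87_x
  | ⟨88, _⟩ => e_88_x
  | ⟨89, _⟩ => e_89_x
  | ⟨90, _⟩ => e_90_x
  | ⟨91, _⟩ => e_91_x
  | ⟨92, _⟩ => e_92_x
  | ⟨93, _⟩ => e_93_x
  | ⟨94, _⟩ => e_94_x
  | ⟨95, _⟩ => e_95_x
  | ⟨96, _⟩ => e_96_x
  | ⟨97, _⟩ => e_97_x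
  | ⟨98, _⟩ => e_98_x
  | ⟨99, _⟩ => e_99_x
  | ⟨100, _⟩ => e_100_x
  | ⟨101, _⟩ => e_101_x
  | ⟨102, _⟩ => e_102_x
  | ⟨103, _⟩ => e_103_x
  | ⟨104, _⟩ => e_104_x
  | ⟨105, _⟩ => e_105_x
  | ⟨106, _⟩ => e_106_x
  | ⟨107, _⟩ => e_107_x
  | ⟨108, _⟩ => e_108_x
  | ⟨109, _⟩ => e_109_x
  | ⟨110, _⟩ => e_110_x
  | ⟨111, _⟩ => e_111_x
  | ⟨112, _⟩ => e_112_x
  | ⟨113, _⟩ => e_113_x
  | ⟨114, _⟩ => e_114_x
  | ⟨115, _⟩ => e_115_x
  | ⟨116, _⟩ => e_116_x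
  | ⟨117, _⟩ => e_117_x
  | ⟨118, _⟩ => e_118_x
  | ⟨119, _⟩ => e_119_x
  | ⟨120, _⟩ => e_120_x
  | ⟨121, _⟩ => e_121_x
  | ⟨122, _⟩ => e_122_x
  | ⟨123, _⟩ => e_123_x
  | ⟨124, _⟩ => e_124_x
  | ⟨125, _⟩ => e_125_x
  | ⟨126, _⟩ => e_126_x
  | ⟨127, _⟩ => e_127_x
  | ⟨n+128, h⟩ => absurd h (by omega)
theorem closed_x_ch : ∀ (a : Fin 1) (b : Fin 128), rep_ch a b * x = rep (nx_x_ch a b)
  | ⟨0, _⟩ => closed_x_c0
  | ⟨n+1, h⟩ => absurd h (by omega)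
theorem closed_x (i : Idx) : rep i * x = rep (nx_x i) :=
  closed_x_ch i.1 i.2
theorem pre_x_c0 : ∀ b : Fin 128, rep (px_x_c0 b) * x = rep_c0 b
  | ⟨0, _⟩ => e_1_x
  | ⟨1, _⟩ => e_0_x
  | ⟨2, _⟩ => e_4_x
  | ⟨3, _⟩ => e_8_x
  | ⟨4, _⟩ => e_2_x
  | ⟨5, _⟩ => e_13_x
  | ⟨6, _⟩ => e_11_x
  | ⟨7, _⟩ => e_18_x
  | ⟨8, _⟩ => e_3_x
  | ⟨9, _⟩ => e_21_x
  | ⟨10, _⟩ => e_25_x
  | ⟨11, _⟩ => e_6_x
  | ⟨12, _⟩ => e_30_x
  | ⟨13, _⟩ => e_5_x
  | ⟨14, _⟩ => e_33_x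
  | ⟨15, _⟩ => e_37_x
  | ⟨16, _⟩ => e_28_x
  | ⟨17, _⟩ => e_41_x
  | ⟨18, _⟩ => e_7_x
  | ⟨19, _⟩ => e_44_x
  | ⟨20, _⟩ => e_48_x
  | ⟨21, _⟩ => e_9_x
  | ⟨22, _⟩ => e_52_x
  | ⟨23, _⟩ => e_50_x
  | ⟨24, _⟩ => e_36_x
  | ⟨25, _⟩ => e_10_x
  | ⟨26, _⟩ => e_55_x
  | ⟨27, _⟩ => e_57_x
  | ⟨28, _⟩ => e_16_x
  | ⟨29, _⟩ => e_59_x
  | ⟨30, _⟩ => e_12_x
  | ⟨31, _⟩ => e_62_x
  | ⟨32, _⟩ => e_66_x
  | ⟨33, _⟩ => e_14_x
  | ⟨34, _⟩ => e_70_x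
  | ⟨35, _⟩ => e_68_x
  | ⟨36, _⟩ => e_24_x
  | ⟨37, _⟩ => e_15_x
  | ⟨38, _⟩ => e_73_x
  | ⟨39, _⟩ => e_75_x
  | ⟨40, _⟩ => e_76_x
  | ⟨41, _⟩ => e_17_x
  | ⟨42, _⟩ => e_77_x
  | ⟨43, _⟩ => e_81_x
  | ⟨44, _⟩ => e_19_x
  | ⟨45, _⟩ => e_71_x
  | ⟨46, _⟩ => e_83_x
  | ⟨47, _⟩ => e_65_x
  | ⟨48, _⟩ => e_20_x
  | ⟨49, _⟩ => e_87_x
  | ⟨50, _⟩ => e_23_x
  | ⟨51, _⟩ => e_69_x
  | ⟨52, _⟩ => e_22_x
  | ⟨53, _⟩ => e_63_x
  | ⟨54, _⟩ => e_82_x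
  | ⟨55, _⟩ => e_26_x
  | ⟨56, _⟩ => e_92_x
  | ⟨57, _⟩ => e_27_x
  | ⟨58, _⟩ => e_96_x
  | ⟨59, _⟩ => e_29_x
  | ⟨60, _⟩ => e_97_x
  | ⟨61, _⟩ => e_101_x
  | ⟨62, _⟩ => e_31_x
  | ⟨63, _⟩ => e_53_x
  | ⟨64, _⟩ => e_103_x
  | ⟨65, _⟩ => e_47_x
  | ⟨66, _⟩ => e_32_x
  | ⟨67, _⟩ => e_107_x
  | ⟨68, _⟩ => e_35_x
  | ⟨69, _⟩ => e_51_x
  | ⟨70, _⟩ => e_34_x
  | ⟨71, _⟩ => e_45_x
  | ⟨72, _⟩ => e_102_x
  | ⟨73, _⟩ => e_38_x
  | ⟨74, _⟩ => e_112_x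
  | ⟨75, _⟩ => e_39_x
  | ⟨76, _⟩ => e_40_x
  | ⟨77, _⟩ => e_42_x
  | ⟨78, _⟩ => e_105_x
  | ⟨79, _⟩ => e_117_x
  | ⟨80, _⟩ => e_100_x
  | ⟨81, _⟩ => e_43_x
  | ⟨82, _⟩ => e_54_x
  | ⟨83, _⟩ => e_46_x
  | ⟨84, _⟩ => e_104_x
  | ⟨85, _⟩ => e_98_x
  | ⟨86, _⟩ => e_111_x
  | ⟨87, _⟩ => e_49_x
  | ⟨88, _⟩ => e_108_x
  | ⟨89, _⟩ => e_113_x
  | ⟨90, _⟩ => e_110_x
  | ⟨91, _⟩ => e_106_x
  | ⟨92, _⟩ => e_56_x
  | ⟨93, _⟩ => e_109_x
  | ⟨94, _⟩ => e_114_x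
  | ⟨95, _⟩ => e_115_x
  | ⟨96, _⟩ => e_58_x
  | ⟨97, _⟩ => e_60_x
  | ⟨98, _⟩ => e_85_x
  | ⟨99, _⟩ => e_123_x
  | ⟨100, _⟩ => e_80_x
  | ⟨101, _⟩ => e_61_x
  | ⟨102, _⟩ => e_72_x
  | ⟨103, _⟩ => e_64_x
  | ⟨104, _⟩ => e_84_x
  | ⟨105, _⟩ => e_78_x
  | ⟨106, _⟩ => e_91_x
  | ⟨107, _⟩ => e_67_x
  | ⟨108, _⟩ => e_88_x
  | ⟨109, _⟩ => e_93_x
  | ⟨110, _⟩ => e_90_x
  | ⟨111, _⟩ => e_86_x
  | ⟨112, _⟩ => e_74_x
  | ⟨113, _⟩ => e_89_x
  | ⟨114, _⟩ => e_94_x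
  | ⟨115, _⟩ => e_95_x
  | ⟨116, _⟩ => e_125_x
  | ⟨117, _⟩ => e_79_x
  | ⟨118, _⟩ => e_124_x
  | ⟨119, _⟩ => e_122_x
  | ⟨120, _⟩ => e_126_x
  | ⟨121, _⟩ => e_127_x
  | ⟨122, _⟩ => e_119_x
  | ⟨123, _⟩ => e_99_x
  | ⟨124, _⟩ => e_118_x
  | ⟨125, _⟩ => e_116_x
  | ⟨126, _⟩ => e_120_x
  | ⟨127, _⟩ => e_121_x
  | ⟨n+128, h⟩ => absurd h (by omega)
theorem pre_x_ch : ∀ (a : Fin 1) (b : Fin 128), rep (px_x_ch a b) * x = rep_ch a b
  | ⟨0, _⟩ => pre_x_c0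
  | ⟨n+1, h⟩ => absurd h (by omega)
theorem pre_x (i : Idx) : rep (px_x i) * x = rep i :=
  pre_x_ch i.1 i.2
def nx_y_c0 : Fin 128 → Idx
  | ⟨0, _⟩ => (0, 2)
  | ⟨1, _⟩ => (0, 4)
  | ⟨2, _⟩ => (0, 6)
  | ⟨3, _⟩ => (0, 9)
  | ⟨4, _⟩ => (0, 11)
  | ⟨5, _⟩ => (0, 14)
  | ⟨6, _⟩ => (0, 16)
  | ⟨7, _⟩ => (0, 19)
  | ⟨8, _⟩ => (0, 21)
  | ⟨9, _⟩ => (0, 23)
  | ⟨10, _⟩ => (0, 26)
  | ⟨11, _⟩ => (0, 28)
  | ⟨12, _⟩ => (0, 31)
  | ⟨13, _⟩ => (0, 33)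
  | ⟨14, _⟩ => (0, 35)
  | ⟨15, _⟩ => (0, 38)
  | ⟨16, _⟩ => (0, 0)
  | ⟨17, _⟩ => (0, 42)
  | ⟨18, _⟩ => (0, 44)
  | ⟨19, _⟩ => (0, 46)
  | ⟨20, _⟩ => (0, 37)
  | ⟨21, _⟩ => (0, 50)
  | ⟨22, _⟩ => (0, 53)
  | ⟨23, _⟩ => (0, 49)
  | ⟨24, _⟩ => (0, 47)
  | ⟨25, _⟩ => (0, 55)
  | ⟨26, _⟩ => (0, 43)
  | ⟨27, _⟩ => (0, 40)
  | ⟨28, _⟩ => (0, 1)
  | ⟨29, _⟩ => (0, 60)
  | ⟨30, _⟩ => (0, 62)
  | ⟨31, _⟩ => (0, 64)
  | ⟨32, _⟩ => (0, 25)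
  | ⟨33, _⟩ => (0, 68)
  | ⟨34, _⟩ => (0, 71)
  | ⟨35, _⟩ => (0, 67)
  | ⟨36, _⟩ => (0, 65)
  | ⟨37, _⟩ => (0, 73)
  | ⟨38, _⟩ => (0, 61)
  | ⟨39, _⟩ => (0, 58)
  | ⟨40, _⟩ => (0, 74)
  | ⟨41, _⟩ => (0, 77)
  | ⟨42, _⟩ => (0, 79)
  | ⟨43, _⟩ => (0, 66)
  | ⟨44, _⟩ => (0, 83)
  | ⟨45, _⟩ => (0, 85)
  | ⟨46, _⟩ => (0, 82)
  | ⟨47, _⟩ => (0, 80)
  | ⟨48, _⟩ => (0, 15)
  | ⟨49, _⟩ => (0, 3)
  | ⟨50, _⟩ => (0, 87)
  | ⟨51, _⟩ => (0, 88)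
  | ⟨52, _⟩ => (0, 63)
  | ⟨53, _⟩ => (0, 78)
  | ⟨54, _⟩ => (0, 18)
  | ⟨55, _⟩ => (0, 81)
  | ⟨56, _⟩ => (0, 93)
  | ⟨57, _⟩ => (0, 76)
  | ⟨58, _⟩ => (0, 56)
  | ⟨59, _⟩ => (0, 97)
  | ⟨60, _⟩ => (0, 99)
  | ⟨61, _⟩ => (0, 48)
  | ⟨62, _⟩ => (0, 103)
  | ⟨63, _⟩ => (0, 105)
  | ⟨64, _⟩ => (0, 102)
  | ⟨65, _⟩ => (0, 100)
  | ⟨66, _⟩ => (0, 10)
  | ⟨67, _⟩ => (0, 5)
  | ⟨68, _⟩ => (0, 107)
  | ⟨69, _⟩ => (0, 108)
  | ⟨70, _⟩ => (0, 45)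
  | ⟨71, _⟩ => (0, 98)
  | ⟨72, _⟩ => (0, 30)
  | ⟨73, _⟩ => (0, 101)
  | ⟨74, _⟩ => (0, 113)
  | ⟨75, _⟩ => (0, 96)
  | ⟨76, _⟩ => (0, 112)
  | ⟨77, _⟩ => (0, 117)
  | ⟨78, _⟩ => (0, 119)
  | ⟨79, _⟩ => (0, 111)
  | ⟨80, _⟩ => (0, 114)
  | ⟨81, _⟩ => (0, 32)
  | ⟨82, _⟩ => (0, 7)
  | ⟨83, _⟩ => (0, 54)
  | ⟨84, _⟩ => (0, 51)
  | ⟨85, _⟩ => (0, 116)
  | ⟨86, _⟩ => (0, 41)
  | ⟨87, _⟩ => (0, 8)
  | ⟨88, _⟩ => (0, 118)
  | ⟨89, _⟩ => (0, 57)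
  | ⟨90, _⟩ => (0, 121)
  | ⟨91, _⟩ => (0, 29)
  | ⟨92, _⟩ => (0, 109)
  | ⟨93, _⟩ => (0, 39)
  | ⟨94, _⟩ => (0, 36)
  | ⟨95, _⟩ => (0, 120)
  | ⟨96, _⟩ => (0, 92)
  | ⟨97, _⟩ => (0, 123)
  | ⟨98, _⟩ => (0, 125)
  | ⟨99, _⟩ => (0, 91)
  | ⟨100, _⟩ => (0, 94)
  | ⟨101, _⟩ => (0, 20)
  | ⟨102, _⟩ => (0, 12)
  | ⟨103, _⟩ => (0, 72)
  | ⟨104, _⟩ => (0, 69)
  | ⟨105, _⟩ => (0, 122)
  | ⟨106, _⟩ => (0, 59)
  | ⟨107, _⟩ => (0, 13)
  | ⟨108, _⟩ => (0, 124)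
  | ⟨109, _⟩ => (0, 75)
  | ⟨110, _⟩ => (0, 127)
  | ⟨111, _⟩ => (0, 17)
  | ⟨112, _⟩ => (0, 89)
  | ⟨113, _⟩ => (0, 27)
  | ⟨114, _⟩ => (0, 24)
  | ⟨115, _⟩ => (0, 126)
  | ⟨116, _⟩ => (0, 70)
  | ⟨117, _⟩ => (0, 86)
  | ⟨118, _⟩ => (0, 84)
  | ⟨119, _⟩ => (0, 22)
  | ⟨120, _⟩ => (0, 90)
  | ⟨121, _⟩ => (0, 95)
  | ⟨122, _⟩ => (0, 52)
  | ⟨123, _⟩ => (0, 106)
  | ⟨124, _⟩ => (0, 104)
  | ⟨125, _⟩ => (0, 34)
  | ⟨126, _⟩ => (0, 110)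
  | ⟨127, _⟩ => (0, 115)
  | ⟨n+128, h⟩ => absurd h (by omega)
def nx_y_ch : Fin 1 → Fin 128 → Idx
  | ⟨0, _⟩ => nx_y_c0
  | ⟨n+1, h⟩ => absurd h (by omega)
def nx_y (i : Idx) : Idx := nx_y_ch i.1 i.2
def px_y_c0 : Fin 128 → Idx
  | ⟨0, _⟩ => (0, 16)
  | ⟨1, _⟩ => (0, 28)
  | ⟨2, _⟩ => (0, 0)
  | ⟨3, _⟩ => (0, 49)
  | ⟨4, _⟩ => (0, 1)
  | ⟨5, _⟩ => (0, 67)
  | ⟨6, _⟩ => (0, 2)
  | ⟨7, _⟩ => (0, 82)
  | ⟨8, _⟩ => (0, 87)
  | ⟨9, _⟩ => (0, 3)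
  | ⟨10, _⟩ => (0, 66)
  | ⟨11, _⟩ => (0, 4)
  | ⟨12, _⟩ => (0, 102)
  | ⟨13, _⟩ => (0, 107)
  | ⟨14, _⟩ => (0, 5)
  | ⟨15, _⟩ => (0, 48)
  | ⟨16, _⟩ => (0, 6)
  | ⟨17, _⟩ => (0, 111)
  | ⟨18, _⟩ => (0, 54)
  | ⟨19, _⟩ => (0, 7)
  | ⟨20, _⟩ => (0, 101)
  | ⟨21, _⟩ => (0, 8)
  | ⟨22, _⟩ => (0, 119)
  | ⟨23, _⟩ => (0, 9)
  | ⟨24, _⟩ => (0, 114)
  | ⟨25, _⟩ => (0, 32)
  | ⟨26, _⟩ => (0, 10)
  | ⟨27, _⟩ => (0, 113)
  | ⟨28, _⟩ => (0, 11)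
  | ⟨29, _⟩ => (0, 91)
  | ⟨30, _⟩ => (0, 72)
  | ⟨31, _⟩ => (0, 12)
  | ⟨32, _⟩ => (0, 81)
  | ⟨33, _⟩ => (0, 13)
  | ⟨34, _⟩ => (0, 125)
  | ⟨35, _⟩ => (0, 14)
  | ⟨36, _⟩ => (0, 94)
  | ⟨37, _⟩ => (0, 20)
  | ⟨38, _⟩ => (0, 15)
  | ⟨39, _⟩ => (0, 93)
  | ⟨40, _⟩ => (0, 27)
  | ⟨41, _⟩ => (0, 86)
  | ⟨42, _⟩ => (0, 17)
  | ⟨43, _⟩ => (0, 26)
  | ⟨44, _⟩ => (0, 18)
  | ⟨45, _⟩ => (0, 70)
  | ⟨46, _⟩ => (0, 19)
  | ⟨47, _⟩ => (0, 24)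
  | ⟨48, _⟩ => (0, 61)
  | ⟨49, _⟩ => (0, 23)
  | ⟨50, _⟩ => (0, 21)
  | ⟨51, _⟩ => (0, 84)
  | ⟨52, _⟩ => (0, 122)
  | ⟨53, _⟩ => (0, 22)
  | ⟨54, _⟩ => (0, 83)
  | ⟨55, _⟩ => (0, 25)
  | ⟨56, _⟩ => (0, 58)
  | ⟨57, _⟩ => (0, 89)
  | ⟨58, _⟩ => (0, 39)
  | ⟨59, _⟩ => (0, 106)
  | ⟨60, _⟩ => (0, 29)
  | ⟨61, _⟩ => (0, 38)
  | ⟨62, _⟩ => (0, 30)
  | ⟨63, _⟩ => (0, 52)
  | ⟨64, _⟩ => (0, 31)
  | ⟨65, _⟩ => (0, 36)
  | ⟨66, _⟩ => (0, 43)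
  | ⟨67, _⟩ => (0, 35)
  | ⟨68, _⟩ => (0, 33)
  | ⟨69, _⟩ => (0, 104)
  | ⟨70, _⟩ => (0, 116)
  | ⟨71, _⟩ => (0, 34)
  | ⟨72, _⟩ => (0, 103)
  | ⟨73, _⟩ => (0, 37)
  | ⟨74, _⟩ => (0, 40)
  | ⟨75, _⟩ => (0, 109)
  | ⟨76, _⟩ => (0, 57)
  | ⟨77, _⟩ => (0, 41)
  | ⟨78, _⟩ => (0, 53)
  | ⟨79, _⟩ => (0, 42)
  | ⟨80, _⟩ => (0, 47)
  | ⟨81, _⟩ => (0, 55)
  | ⟨82, _⟩ => (0, 46)
  | ⟨83, _⟩ => (0, 44)
  | ⟨84, _⟩ => (0, 118)
  | ⟨85, _⟩ => (0, 45)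
  | ⟨86, _⟩ => (0, 117)
  | ⟨87, _⟩ => (0, 50)
  | ⟨88, _⟩ => (0, 51)
  | ⟨89, _⟩ => (0, 112)
  | ⟨90, _⟩ => (0, 120)
  | ⟨91, _⟩ => (0, 99)
  | ⟨92, _⟩ => (0, 96)
  | ⟨93, _⟩ => (0, 56)
  | ⟨94, _⟩ => (0, 100)
  | ⟨95, _⟩ => (0, 121)
  | ⟨96, _⟩ => (0, 75)
  | ⟨97, _⟩ => (0, 59)
  | ⟨98, _⟩ => (0, 71)
  | ⟨99, _⟩ => (0, 60)
  | ⟨100, _⟩ => (0, 65)
  | ⟨101, _⟩ => (0, 73)
  | ⟨102, _⟩ => (0, 64)
  | ⟨103, _⟩ => (0, 62)
  | ⟨104, _⟩ => (0, 124)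
  | ⟨105, _⟩ => (0, 63)
  | ⟨106, _⟩ => (0, 123)
  | ⟨107, _⟩ => (0, 68)
  | ⟨108, _⟩ => (0, 69)
  | ⟨109, _⟩ => (0, 92)
  | ⟨110, _⟩ => (0, 126)
  | ⟨111, _⟩ => (0, 79)
  | ⟨112, _⟩ => (0, 76)
  | ⟨113, _⟩ => (0, 74)
  | ⟨114, _⟩ => (0, 80)
  | ⟨115, _⟩ => (0, 127)
  | ⟨116, _⟩ => (0, 85)
  | ⟨117, _⟩ => (0, 77)
  | ⟨118, _⟩ => (0, 88)
  | ⟨119, _⟩ => (0, 78)
  | ⟨120, _⟩ => (0, 95)
  | ⟨121, _⟩ => (0, 90)
  | ⟨122, _⟩ => (0, 105)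
  | ⟨123, _⟩ => (0, 97)
  | ⟨124, _⟩ => (0, 108)
  | ⟨125, _⟩ => (0, 98)
  | ⟨126, _⟩ => (0, 115)
  | ⟨127, _⟩ => (0, 110)
  | ⟨n+128, h⟩ => absurd h (by omega)
def px_y_ch : Fin 1 → Fin 128 → Idx
  | ⟨0, _⟩ => px_y_c0
  | ⟨n+1, h⟩ => absurd h (by omega)
def px_y (i : Idx) : Idx := px_y_ch i.1 i.2
theorem closed_y_c0 : ∀ b : Fin 128, rep_c0 b * y = rep (nx_y_c0 b)
  | ⟨0, _⟩ => e_0_y
  | ⟨1, _⟩ => e_1_y
  | ⟨2, _⟩ => e_2_y
  | ⟨3, _⟩ => e_3_y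
  | ⟨4, _⟩ => e_4_y
  | ⟨5, _⟩ => e_5_y
  | ⟨6, _⟩ => e_6_y
  | ⟨7, _⟩ => e_7_y
  | ⟨8, _⟩ => e_8_y
  | ⟨9, _⟩ => e_9_y
  | ⟨10, _⟩ => e_10_y
  | ⟨11, _⟩ => e_11_y
  | ⟨12, _⟩ => e_12_y
  | ⟨13, _⟩ => e_13_y
  | ⟨14, _⟩ => e_14_y
  | ⟨15, _⟩ => e_15_y
  | ⟨16, _⟩ => e_16_y
  | ⟨17, _⟩ => e_17_y
  | ⟨18, _⟩ => e_18_y
  | ⟨19, _⟩ => e_19_y
  | ⟨20, _⟩ => e_20_y
  | ⟨21, _⟩ => e_21_y
  | ⟨22, _⟩ => e_22_y
  | ⟨23, _⟩ => e_23_y
  | ⟨24, _⟩ => e_24_y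
  | ⟨25, _⟩ => e_25_y
  | ⟨26, _⟩ => e_26_y
  | ⟨27, _⟩ => e_27_y
  | ⟨28, _⟩ => e_28_y
  | ⟨29, _⟩ => e_29_y
  | ⟨30, _⟩ => e_30_y
  | ⟨31, _⟩ => e_31_y
  | ⟨32, _⟩ => e_32_y
  | ⟨33, _⟩ => e_33_y
  | ⟨34, _⟩ => e_34_y
  | ⟨35, _⟩ => e_35_y
  | ⟨36, _⟩ => e_36_y
  | ⟨37, _⟩ => e_37_y
  | ⟨38, _⟩ => e_38_y
  | ⟨39, _⟩ => e_39_y
  | ⟨40, _⟩ => e_40_y
  | ⟨41, _⟩ => e_41_y
  | ⟨42, _⟩ => e_42_y
  | ⟨43, _⟩ => e_43_y
  | ⟨44, _⟩ => e_44_y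
  | ⟨45, _⟩ => e_45_y
  | ⟨46, _⟩ => e_46_y
  | ⟨47, _⟩ => e_47_y
  | ⟨48, _⟩ => e_48_y
  | ⟨49, _⟩ => e_49_y
  | ⟨50, _⟩ => e_50_y
  | ⟨51, _⟩ => e_51_y
  | ⟨52, _⟩ => e_52_y
  | ⟨53, _⟩ => e_53_y
  | ⟨54, _⟩ => e_54_y
  | ⟨55, _⟩ => e_55_y
  | ⟨56, _⟩ => e_56_y
  | ⟨57, _⟩ => e_57_y
  | ⟨58, _⟩ => e_58_y
  | ⟨59, _⟩ => e_59_y
  | ⟨60, _⟩ => e_60_y
  | ⟨61, _⟩ => e_61_y
  | ⟨62, _⟩ => e_62_y
  | ⟨63, _⟩ => e_63_y
  | ⟨64, _⟩ => e_64_y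
  | ⟨65, _⟩ => e_65_y
  | ⟨66, _⟩ => e_66_y
  | ⟨67, _⟩ => e_67_y
  | ⟨68, _⟩ => e_68_y
  | ⟨69, _⟩ => e_69_y
  | ⟨70, _⟩ => e_70_y
  | ⟨71, _⟩ => e_71_y
  | ⟨72, _⟩ => e_72_y
  | ⟨73, _⟩ => e_73_y
  | ⟨74, _⟩ => e_74_y
  | ⟨75, _⟩ => e_75_y
  | ⟨76, _⟩ => e_76_y
  | ⟨77, _⟩ => e_77_y
  | ⟨78, _⟩ => e_78_y
  | ⟨79, _⟩ => e_79_y
  | ⟨80, _⟩ => e_80_y
  | ⟨81, _⟩ => e_81_y
  | ⟨82, _⟩ => e_82_y
  | ⟨83, _⟩ => e_83_y
  | ⟨84, _⟩ => e_84_y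
  | ⟨85, _⟩ => e_85_y
  | ⟨86, _⟩ => e_86_y
  | ⟨87, _⟩ => e_87_y
  | ⟨88, _⟩ => e_88_y
  | ⟨89, _⟩ => e_89_y
  | ⟨90, _⟩ => e_90_y
  | ⟨91, _⟩ => e_91_y
  | ⟨92, _⟩ => e_92_y
  | ⟨93, _⟩ => e_93_y
  | ⟨94, _⟩ => e_94_y
  | ⟨95, _⟩ => e_95_y
  | ⟨96, _⟩ => e_96_y
  | ⟨97, _⟩ => e_97_y
  | ⟨98, _⟩ => e_98_y
  | ⟨99, _⟩ => e_99_y
  | ⟨100, _⟩ => e_100_y
  | ⟨101, _⟩ => e_101_y
  | ⟨102, _⟩ => e_102_y
  | ⟨103, _⟩ => e_103_y
  | ⟨104, _⟩ => e_104_y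
  | ⟨105, _⟩ => e_105_y
  | ⟨106, _⟩ => e_106_y
  | ⟨107, _⟩ => e_107_y
  | ⟨108, _⟩ => e_108_y
  | ⟨109, _⟩ => e_109_y
  | ⟨110, _⟩ => e_110_y
  | ⟨111, _⟩ => e_111_y
  | ⟨112, _⟩ => e_112_y
  | ⟨113, _⟩ => e_113_y
  | ⟨114, _⟩ => e_114_y
  | ⟨115, _⟩ => e_115_y
  | ⟨116, _⟩ => e_116_y
  | ⟨117, _⟩ => e_117_y
  | ⟨118, _⟩ => e_118_y
  | ⟨119, _⟩ => e_119_y
  | ⟨120, _⟩ => e_120_y
  | ⟨121, _⟩ => e_121_y
  | ⟨122, _⟩ => e_122_y
  | ⟨123, _⟩ => e_123_y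
  | ⟨124, _⟩ => e_124_y
  | ⟨125, _⟩ => e_125_y
  | ⟨126, _⟩ => e_126_y
  | ⟨127, _⟩ => e_127_y
  | ⟨n+128, h⟩ => absurd h (by omega)
theorem closed_y_ch : ∀ (a : Fin 1) (b : Fin 128), rep_ch a b * y = rep (nx_y_ch a b)
  | ⟨0, _⟩ => closed_y_c0
  | ⟨n+1, h⟩ => absurd h (by omega)
theorem closed_y (i : Idx) : rep i * y = rep (nx_y i) :=
  closed_y_ch i.1 i.2
theorem pre_y_c0 : ∀ b : Fin 128, rep (px_y_c0 b) * y = rep_c0 b
  | ⟨0, _⟩ => e_16_y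
  | ⟨1, _⟩ => e_28_y
  | ⟨2, _⟩ => e_0_y
  | ⟨3, _⟩ => e_49_y
  | ⟨4, _⟩ => e_1_y
  | ⟨5, _⟩ => e_67_y
  | ⟨6, _⟩ => e_2_y
  | ⟨7, _⟩ => e_82_y
  | ⟨8, _⟩ => e_87_y
  | ⟨9, _⟩ => e_3_y
  | ⟨10, _⟩ => e_66_y
  | ⟨11, _⟩ => e_4_y
  | ⟨12, _⟩ => e_102_y
  | ⟨13, _⟩ => e_107_y
  | ⟨14, _⟩ => e_5_y
  | ⟨15, _⟩ => e_48_y
  | ⟨16, _⟩ => e_6_y
  | ⟨17, _⟩ => e_111_y
  | ⟨18, _⟩ => e_54_y
  | ⟨19, _⟩ => e_7_y
  | ⟨20, _⟩ => e_101_y
  | ⟨21, _⟩ => e_8_y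
  | ⟨22, _⟩ => e_119_y
  | ⟨23, _⟩ => e_9_y
  | ⟨24, _⟩ => e_114_y
  | ⟨25, _⟩ => e_32_y
  | ⟨26, _⟩ => e_10_y
  | ⟨27, _⟩ => e_113_y
  | ⟨28, _⟩ => e_11_y
  | ⟨29, _⟩ => e_91_y
  | ⟨30, _⟩ => e_72_y
  | ⟨31, _⟩ => e_12_y
  | ⟨32, _⟩ => e_81_y
  | ⟨33, _⟩ => e_13_y
  | ⟨34, _⟩ => e_125_y
  | ⟨35, _⟩ => e_14_y
  | ⟨36, _⟩ => e_94_y
  | ⟨37, _⟩ => e_20_y
  | ⟨38, _⟩ => e_15_y
  | ⟨39, _⟩ => e_93_y
  | ⟨40, _⟩ => e_27_y
  | ⟨41, _⟩ => e_86_y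
  | ⟨42, _⟩ => e_17_y
  | ⟨43, _⟩ => e_26_y
  | ⟨44, _⟩ => e_18_y
  | ⟨45, _⟩ => e_70_y
  | ⟨46, _⟩ => e_19_y
  | ⟨47, _⟩ => e_24_y
  | ⟨48, _⟩ => e_61_y
  | ⟨49, _⟩ => e_23_y
  | ⟨50, _⟩ => e_21_y
  | ⟨51, _⟩ => e_84_y
  | ⟨52, _⟩ => e_122_y
  | ⟨53, _⟩ => e_22_y
  | ⟨54, _⟩ => e_83_y
  | ⟨55, _⟩ => e_25_y
  | ⟨56, _⟩ => e_58_y
  | ⟨57, _⟩ => e_89_y
  | ⟨58, _⟩ => e_39_y
  | ⟨59, _⟩ => e_106_y
  | ⟨60, _⟩ => e_29_y
  | ⟨61, _⟩ => e_38_y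
  | ⟨62, _⟩ => e_30_y
  | ⟨63, _⟩ => e_52_y
  | ⟨64, _⟩ => e_31_y
  | ⟨65, _⟩ => e_36_y
  | ⟨66, _⟩ => e_43_y
  | ⟨67, _⟩ => e_35_y
  | ⟨68, _⟩ => e_33_y
  | ⟨69, _⟩ => e_104_y
  | ⟨70, _⟩ => e_116_y
  | ⟨71, _⟩ => e_34_y
  | ⟨72, _⟩ => e_103_y
  | ⟨73, _⟩ => e_37_y
  | ⟨74, _⟩ => e_40_y
  | ⟨75, _⟩ => e_109_y
  | ⟨76, _⟩ => e_57_y
  | ⟨77, _⟩ => e_41_y
  | ⟨78, _⟩ => e_53_y
  | ⟨79, _⟩ => e_42_y
  | ⟨80, _⟩ => e_47_y
  | ⟨81, _⟩ => e_55_y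
  | ⟨82, _⟩ => e_46_y
  | ⟨83, _⟩ => e_44_y
  | ⟨84, _⟩ => e_118_y
  | ⟨85, _⟩ => e_45_y
  | ⟨86, _⟩ => e_117_y
  | ⟨87, _⟩ => e_50_y
  | ⟨88, _⟩ => e_51_y
  | ⟨89, _⟩ => e_112_y
  | ⟨90, _⟩ => e_120_y
  | ⟨91, _⟩ => e_99_y
  | ⟨92, _⟩ => e_96_y
  | ⟨93, _⟩ => e_56_y
  | ⟨94, _⟩ => e_100_y
  | ⟨95, _⟩ => e_121_y
  | ⟨96, _⟩ => e_75_y
  | ⟨97, _⟩ => e_59_y
  | ⟨98, _⟩ => e_71_y
  | ⟨99, _⟩ => e_60_y
  | ⟨100, _⟩ => e_65_y
  | ⟨101, _⟩ => e_73_y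
  | ⟨102, _⟩ => e_64_y
  | ⟨103, _⟩ => e_62_y
  | ⟨104, _⟩ => e_124_y
  | ⟨105, _⟩ => e_63_y
  | ⟨106, _⟩ => e_123_y
  | ⟨107, _⟩ => e_68_y
  | ⟨108, _⟩ => e_69_y
  | ⟨109, _⟩ => e_92_y
  | ⟨110, _⟩ => e_126_y
  | ⟨111, _⟩ => e_79_y
  | ⟨112, _⟩ => e_76_y
  | ⟨113, _⟩ => e_74_y
  | ⟨114, _⟩ => e_80_y
  | ⟨115, _⟩ => e_127_y
  | ⟨116, _⟩ => e_85_y
  | ⟨117, _⟩ => e_77_y
  | ⟨118, _⟩ => e_88_y
  | ⟨119, _⟩ => e_78_y
  | ⟨120, _⟩ => e_95_y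
  | ⟨121, _⟩ => e_90_y
  | ⟨122, _⟩ => e_105_y
  | ⟨123, _⟩ => e_97_y
  | ⟨124, _⟩ => e_108_y
  | ⟨125, _⟩ => e_98_y
  | ⟨126, _⟩ => e_115_y
  | ⟨127, _⟩ => e_110_y
  | ⟨n+128, h⟩ => absurd h (by omega)
theorem pre_y_ch : ∀ (a : Fin 1) (b : Fin 128), rep (px_y_ch a b) * y = rep_ch a b
  | ⟨0, _⟩ => pre_y_c0
  | ⟨n+1, h⟩ => absurd h (by omega)
theorem pre_y (i : Idx) : rep (px_y i) * y = rep i :=
  pre_y_ch i.1 i.2
def nx_z_c0 : Fin 128 → Idx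
  | ⟨0, _⟩ => (0, 3)
  | ⟨1, _⟩ => (0, 5)
  | ⟨2, _⟩ => (0, 7)
  | ⟨3, _⟩ => (0, 10)
  | ⟨4, _⟩ => (0, 12)
  | ⟨5, _⟩ => (0, 15)
  | ⟨6, _⟩ => (0, 17)
  | ⟨7, _⟩ => (0, 20)
  | ⟨8, _⟩ => (0, 22)
  | ⟨9, _⟩ => (0, 24)
  | ⟨10, _⟩ => (0, 27)
  | ⟨11, _⟩ => (0, 29)
  | ⟨12, _⟩ => (0, 32)
  | ⟨13, _⟩ => (0, 34)
  | ⟨14, _⟩ => (0, 36)
  | ⟨15, _⟩ => (0, 39)
  | ⟨16, _⟩ => (0, 40)
  | ⟨17, _⟩ => (0, 43)
  | ⟨18, _⟩ => (0, 45)
  | ⟨19, _⟩ => (0, 47)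
  | ⟨20, _⟩ => (0, 49)
  | ⟨21, _⟩ => (0, 51)
  | ⟨22, _⟩ => (0, 54)
  | ⟨23, _⟩ => (0, 37)
  | ⟨24, _⟩ => (0, 46)
  | ⟨25, _⟩ => (0, 56)
  | ⟨26, _⟩ => (0, 42)
  | ⟨27, _⟩ => (0, 0)
  | ⟨28, _⟩ => (0, 58)
  | ⟨29, _⟩ => (0, 61)
  | ⟨30, _⟩ => (0, 63)
  | ⟨31, _⟩ => (0, 65)
  | ⟨32, _⟩ => (0, 67)
  | ⟨33, _⟩ => (0, 69)
  | ⟨34, _⟩ => (0, 72)
  | ⟨35, _⟩ => (0, 25)
  | ⟨36, _⟩ => (0, 64)
  | ⟨37, _⟩ => (0, 74)
  | ⟨38, _⟩ => (0, 60)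
  | ⟨39, _⟩ => (0, 1)
  | ⟨40, _⟩ => (0, 73)
  | ⟨41, _⟩ => (0, 78)
  | ⟨42, _⟩ => (0, 80)
  | ⟨43, _⟩ => (0, 82)
  | ⟨44, _⟩ => (0, 84)
  | ⟨45, _⟩ => (0, 86)
  | ⟨46, _⟩ => (0, 66)
  | ⟨47, _⟩ => (0, 79)
  | ⟨48, _⟩ => (0, 14)
  | ⟨49, _⟩ => (0, 2)
  | ⟨50, _⟩ => (0, 70)
  | ⟨51, _⟩ => (0, 89)
  | ⟨52, _⟩ => (0, 62)
  | ⟨53, _⟩ => (0, 77)
  | ⟨54, _⟩ => (0, 90)
  | ⟨55, _⟩ => (0, 91)
  | ⟨56, _⟩ => (0, 94)
  | ⟨57, _⟩ => (0, 95)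
  | ⟨58, _⟩ => (0, 55)
  | ⟨59, _⟩ => (0, 98)
  | ⟨60, _⟩ => (0, 100)
  | ⟨61, _⟩ => (0, 102)
  | ⟨62, _⟩ => (0, 104)
  | ⟨63, _⟩ => (0, 106)
  | ⟨64, _⟩ => (0, 48)
  | ⟨65, _⟩ => (0, 99)
  | ⟨66, _⟩ => (0, 9)
  | ⟨67, _⟩ => (0, 4)
  | ⟨68, _⟩ => (0, 52)
  | ⟨69, _⟩ => (0, 109)
  | ⟨70, _⟩ => (0, 44)
  | ⟨71, _⟩ => (0, 97)
  | ⟨72, _⟩ => (0, 110)
  | ⟨73, _⟩ => (0, 111)
  | ⟨74, _⟩ => (0, 114)
  | ⟨75, _⟩ => (0, 115)
  | ⟨76, _⟩ => (0, 116)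
  | ⟨77, _⟩ => (0, 118)
  | ⟨78, _⟩ => (0, 57)
  | ⟨79, _⟩ => (0, 101)
  | ⟨80, _⟩ => (0, 113)
  | ⟨81, _⟩ => (0, 31)
  | ⟨82, _⟩ => (0, 6)
  | ⟨83, _⟩ => (0, 53)
  | ⟨84, _⟩ => (0, 50)
  | ⟨85, _⟩ => (0, 112)
  | ⟨86, _⟩ => (0, 120)
  | ⟨87, _⟩ => (0, 121)
  | ⟨88, _⟩ => (0, 117)
  | ⟨89, _⟩ => (0, 119)
  | ⟨90, _⟩ => (0, 8)
  | ⟨91, _⟩ => (0, 28)
  | ⟨92, _⟩ => (0, 108)
  | ⟨93, _⟩ => (0, 38)
  | ⟨94, _⟩ => (0, 35)
  | ⟨95, _⟩ => (0, 41)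
  | ⟨96, _⟩ => (0, 122)
  | ⟨97, _⟩ => (0, 124)
  | ⟨98, _⟩ => (0, 75)
  | ⟨99, _⟩ => (0, 81)
  | ⟨100, _⟩ => (0, 93)
  | ⟨101, _⟩ => (0, 19)
  | ⟨102, _⟩ => (0, 11)
  | ⟨103, _⟩ => (0, 71)
  | ⟨104, _⟩ => (0, 68)
  | ⟨105, _⟩ => (0, 92)
  | ⟨106, _⟩ => (0, 126)
  | ⟨107, _⟩ => (0, 127)
  | ⟨108, _⟩ => (0, 123)
  | ⟨109, _⟩ => (0, 125)
  | ⟨110, _⟩ => (0, 13)
  | ⟨111, _⟩ => (0, 16)
  | ⟨112, _⟩ => (0, 88)
  | ⟨113, _⟩ => (0, 26)
  | ⟨114, _⟩ => (0, 23)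
  | ⟨115, _⟩ => (0, 59)
  | ⟨116, _⟩ => (0, 87)
  | ⟨117, _⟩ => (0, 85)
  | ⟨118, _⟩ => (0, 83)
  | ⟨119, _⟩ => (0, 21)
  | ⟨120, _⟩ => (0, 18)
  | ⟨121, _⟩ => (0, 76)
  | ⟨122, _⟩ => (0, 107)
  | ⟨123, _⟩ => (0, 105)
  | ⟨124, _⟩ => (0, 103)
  | ⟨125, _⟩ => (0, 33)
  | ⟨126, _⟩ => (0, 30)
  | ⟨127, _⟩ => (0, 96)
  | ⟨n+128, h⟩ => absurd h (by omega)
def nx_z_ch : Fin 1 → Fin 128 → Idx
  | ⟨0, _⟩ => nx_z_c0
  | ⟨n+1, h⟩ => absurd h (by omega)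
def nx_z (i : Idx) : Idx := nx_z_ch i.1 i.2
def px_z_c0 : Fin 128 → Idx
  | ⟨0, _⟩ => (0, 27)
  | ⟨1, _⟩ => (0, 39)
  | ⟨2, _⟩ => (0, 49)
  | ⟨3, _⟩ => (0, 0)
  | ⟨4, _⟩ => (0, 67)
  | ⟨5, _⟩ => (0, 1)
  | ⟨6, _⟩ => (0, 82)
  | ⟨7, _⟩ => (0, 2)
  | ⟨8, _⟩ => (0, 90)
  | ⟨9, _⟩ => (0, 66)
  | ⟨10, _⟩ => (0, 3)
  | ⟨11, _⟩ => (0, 102)
  | ⟨12, _⟩ => (0, 4)
  | ⟨13, _⟩ => (0, 110)
  | ⟨14, _⟩ => (0, 48)
  | ⟨15, _⟩ => (0, 5)
  | ⟨16, _⟩ => (0, 111)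
  | ⟨17, _⟩ => (0, 6)
  | ⟨18, _⟩ => (0, 120)
  | ⟨19, _⟩ => (0, 101)
  | ⟨20, _⟩ => (0, 7)
  | ⟨21, _⟩ => (0, 119)
  | ⟨22, _⟩ => (0, 8)
  | ⟨23, _⟩ => (0, 114)
  | ⟨24, _⟩ => (0, 9)
  | ⟨25, _⟩ => (0, 35)
  | ⟨26, _⟩ => (0, 113)
  | ⟨27, _⟩ => (0, 10)
  | ⟨28, _⟩ => (0, 91)
  | ⟨29, _⟩ => (0, 11)
  | ⟨30, _⟩ => (0, 126)
  | ⟨31, _⟩ => (0, 81)
  | ⟨32, _⟩ => (0, 12)
  | ⟨33, _⟩ => (0, 125)
  | ⟨34, _⟩ => (0, 13)
  | ⟨35, _⟩ => (0, 94)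
  | ⟨36, _⟩ => (0, 14)
  | ⟨37, _⟩ => (0, 23)
  | ⟨38, _⟩ => (0, 93)
  | ⟨39, _⟩ => (0, 15)
  | ⟨40, _⟩ => (0, 16)
  | ⟨41, _⟩ => (0, 95)
  | ⟨42, _⟩ => (0, 26)
  | ⟨43, _⟩ => (0, 17)
  | ⟨44, _⟩ => (0, 70)
  | ⟨45, _⟩ => (0, 18)
  | ⟨46, _⟩ => (0, 24)
  | ⟨47, _⟩ => (0, 19)
  | ⟨48, _⟩ => (0, 64)
  | ⟨49, _⟩ => (0, 20)
  | ⟨50, _⟩ => (0, 84)
  | ⟨51, _⟩ => (0, 21)
  | ⟨52, _⟩ => (0, 68)
  | ⟨53, _⟩ => (0, 83)
  | ⟨54, _⟩ => (0, 22)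
  | ⟨55, _⟩ => (0, 58)
  | ⟨56, _⟩ => (0, 25)
  | ⟨57, _⟩ => (0, 78)
  | ⟨58, _⟩ => (0, 28)
  | ⟨59, _⟩ => (0, 115)
  | ⟨60, _⟩ => (0, 38)
  | ⟨61, _⟩ => (0, 29)
  | ⟨62, _⟩ => (0, 52)
  | ⟨63, _⟩ => (0, 30)
  | ⟨64, _⟩ => (0, 36)
  | ⟨65, _⟩ => (0, 31)
  | ⟨66, _⟩ => (0, 46)
  | ⟨67, _⟩ => (0, 32)
  | ⟨68, _⟩ => (0, 104)
  | ⟨69, _⟩ => (0, 33)
  | ⟨70, _⟩ => (0, 50)
  | ⟨71, _⟩ => (0, 103)
  | ⟨72, _⟩ => (0, 34)
  | ⟨73, _⟩ => (0, 40)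
  | ⟨74, _⟩ => (0, 37)
  | ⟨75, _⟩ => (0, 98)
  | ⟨76, _⟩ => (0, 121)
  | ⟨77, _⟩ => (0, 53)
  | ⟨78, _⟩ => (0, 41)
  | ⟨79, _⟩ => (0, 47)
  | ⟨80, _⟩ => (0, 42)
  | ⟨81, _⟩ => (0, 99)
  | ⟨82, _⟩ => (0, 43)
  | ⟨83, _⟩ => (0, 118)
  | ⟨84, _⟩ => (0, 44)
  | ⟨85, _⟩ => (0, 117)
  | ⟨86, _⟩ => (0, 45)
  | ⟨87, _⟩ => (0, 116)
  | ⟨88, _⟩ => (0, 112)
  | ⟨89, _⟩ => (0, 51)
  | ⟨90, _⟩ => (0, 54)
  | ⟨91, _⟩ => (0, 55)
  | ⟨92, _⟩ => (0, 105)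
  | ⟨93, _⟩ => (0, 100)
  | ⟨94, _⟩ => (0, 56)
  | ⟨95, _⟩ => (0, 57)
  | ⟨96, _⟩ => (0, 127)
  | ⟨97, _⟩ => (0, 71)
  | ⟨98, _⟩ => (0, 59)
  | ⟨99, _⟩ => (0, 65)
  | ⟨100, _⟩ => (0, 60)
  | ⟨101, _⟩ => (0, 79)
  | ⟨102, _⟩ => (0, 61)
  | ⟨103, _⟩ => (0, 124)
  | ⟨104, _⟩ => (0, 62)
  | ⟨105, _⟩ => (0, 123)
  | ⟨106, _⟩ => (0, 63)
  | ⟨107, _⟩ => (0, 122)
  | ⟨108, _⟩ => (0, 92)
  | ⟨109, _⟩ => (0, 69)
  | ⟨110, _⟩ => (0, 72)
  | ⟨111, _⟩ => (0, 73)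
  | ⟨112, _⟩ => (0, 85)
  | ⟨113, _⟩ => (0, 80)
  | ⟨114, _⟩ => (0, 74)
  | ⟨115, _⟩ => (0, 75)
  | ⟨116, _⟩ => (0, 76)
  | ⟨117, _⟩ => (0, 88)
  | ⟨118, _⟩ => (0, 77)
  | ⟨119, _⟩ => (0, 89)
  | ⟨120, _⟩ => (0, 86)
  | ⟨121, _⟩ => (0, 87)
  | ⟨122, _⟩ => (0, 96)
  | ⟨123, _⟩ => (0, 108)
  | ⟨124, _⟩ => (0, 97)
  | ⟨125, _⟩ => (0, 109)
  | ⟨126, _⟩ => (0, 106)
  | ⟨127, _⟩ => (0, 107)
  | ⟨n+128, h⟩ => absurd h (by omega)
def px_z_ch : Fin 1 → Fin 128 → Idx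
  | ⟨0, _⟩ => px_z_c0
  | ⟨n+1, h⟩ => absurd h (by omega)
def px_z (i : Idx) : Idx := px_z_ch i.1 i.2
theorem closed_z_c0 : ∀ b : Fin 128, rep_c0 b * z = rep (nx_z_c0 b)
  | ⟨0, _⟩ => e_0_z
  | ⟨1, _⟩ => e_1_z
  | ⟨2, _⟩ => e_2_z
  | ⟨3, _⟩ => e_3_z
  | ⟨4, _⟩ => e_4_z
  | ⟨5, _⟩ => e_5_z
  | ⟨6, _⟩ => e_6_z
  | ⟨7, _⟩ => e_7_z
  | ⟨8, _⟩ => e_8_z
  | ⟨9, _⟩ => e_9_z
  | ⟨10, _⟩ => e_10_z
  | ⟨11, _⟩ => e_11_z
  | ⟨12, _⟩ => e_12_z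
  | ⟨13, _⟩ => e_13_z
  | ⟨14, _⟩ => e_14_z
  | ⟨15, _⟩ => e_15_z
  | ⟨16, _⟩ => e_16_z
  | ⟨17, _⟩ => e_17_z
  | ⟨18, _⟩ => e_18_z
  | ⟨19, _⟩ => e_19_z
  | ⟨20, _⟩ => e_20_z
  | ⟨21, _⟩ => e_21_z
  | ⟨22, _⟩ => e_22_z
  | ⟨23, _⟩ => e_23_z
  | ⟨24, _⟩ => e_24_z
  | ⟨25, _⟩ => e_25_z
  | ⟨26, _⟩ => e_26_z
  | ⟨27, _⟩ => e_27_z
  | ⟨28, _⟩ => e_28_z
  | ⟨29, _⟩ => e_29_z
  | ⟨30, _⟩ => e_30_z
  | ⟨31, _⟩ => e_31_z
  | ⟨32, _⟩ => e_32_z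
  | ⟨33, _⟩ => e_33_z
  | ⟨34, _⟩ => e_34_z
  | ⟨35, _⟩ => e_35_z
  | ⟨36, _⟩ => e_36_z
  | ⟨37, _⟩ => e_37_z
  | ⟨38, _⟩ => e_38_z
  | ⟨39, _⟩ => e_39_z
  | ⟨40, _⟩ => e_40_z
  | ⟨41, _⟩ => e_41_z
  | ⟨42, _⟩ => e_42_z
  | ⟨43, _⟩ => e_43_z
  | ⟨44, _⟩ => e_44_z
  | ⟨45, _⟩ => e_45_z
  | ⟨46, _⟩ => e_46_z
  | ⟨47, _⟩ => e_47_z
  | ⟨48, _⟩ => e_48_z
  | ⟨49, _⟩ => e_49_z
  | ⟨50, _⟩ => e_50_z
  | ⟨51, _⟩ => e_51_z
  | ⟨52, _⟩ => e_52_z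
  | ⟨53, _⟩ => e_53_z
  | ⟨54, _⟩ => e_54_z
  | ⟨55, _⟩ => e_55_z
  | ⟨56, _⟩ => e_56_z
  | ⟨57, _⟩ => e_57_z
  | ⟨58, _⟩ => e_58_z
  | ⟨59, _⟩ => e_59_z
  | ⟨60, _⟩ => e_60_z
  | ⟨61, _⟩ => e_61_z
  | ⟨62, _⟩ => e_62_z
  | ⟨63, _⟩ => e_63_z
  | ⟨64, _⟩ => e_64_z
  | ⟨65, _⟩ => e_65_z
  | ⟨66, _⟩ => e_66_z
  | ⟨67, _⟩ => e_67_z
  | ⟨68, _⟩ => e_68_z
  | ⟨69, _⟩ => e_69_z
  | ⟨70, _⟩ => e_70_z
  | ⟨71, _⟩ => e_71_z
  | ⟨72, _⟩ => e_72_z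
  | ⟨73, _⟩ => e_73_z
  | ⟨74, _⟩ => e_74_z
  | ⟨75, _⟩ => e_75_z
  | ⟨76, _⟩ => e_76_z
  | ⟨77, _⟩ => e_77_z
  | ⟨78, _⟩ => e_78_z
  | ⟨79, _⟩ => e_79_z
  | ⟨80, _⟩ => e_80_z
  | ⟨81, _⟩ => e_81_z
  | ⟨82, _⟩ => e_82_z
  | ⟨83, _⟩ => e_83_z
  | ⟨84, _⟩ => e_84_z
  | ⟨85, _⟩ => e_85_z
  | ⟨86, _⟩ => e_86_z
  | ⟨87, _⟩ => e_87_z
  | ⟨88, _⟩ => e_88_z
  | ⟨89, _⟩ => e_89_z
  | ⟨90, _⟩ => e_90_z
  | ⟨91, _⟩ => e_91_z
  | ⟨92, _⟩ => e_92_z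
  | ⟨93, _⟩ => e_93_z
  | ⟨94, _⟩ => e_94_z
  | ⟨95, _⟩ => e_95_z
  | ⟨96, _⟩ => e_96_z
  | ⟨97, _⟩ => e_97_z
  | ⟨98, _⟩ => e_98_z
  | ⟨99, _⟩ => e_99_z
  | ⟨100, _⟩ => e_100_z
  | ⟨101, _⟩ => e_101_z
  | ⟨102, _⟩ => e_102_z
  | ⟨103, _⟩ => e_103_z
  | ⟨104, _⟩ => e_104_z
  | ⟨105, _⟩ => e_105_z
  | ⟨106, _⟩ => e_106_z
  | ⟨107, _⟩ => e_107_z
  | ⟨108, _⟩ => e_108_z
  | ⟨109, _⟩ => e_109_z
  | ⟨110, _⟩ => e_110_z
  | ⟨111, _⟩ => e_111_z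
  | ⟨112, _⟩ => e_112_z
  | ⟨113, _⟩ => e_113_z
  | ⟨114, _⟩ => e_114_z
  | ⟨115, _⟩ => e_115_z
  | ⟨116, _⟩ => e_116_z
  | ⟨117, _⟩ => e_117_z
  | ⟨118, _⟩ => e_118_z
  | ⟨119, _⟩ => e_119_z
  | ⟨120, _⟩ => e_120_z
  | ⟨121, _⟩ => e_121_z
  | ⟨122, _⟩ => e_122_z
  | ⟨123, _⟩ => e_123_z
  | ⟨124, _⟩ => e_124_z
  | ⟨125, _⟩ => e_125_z
  | ⟨126, _⟩ => e_126_z
  | ⟨127, _⟩ => e_127_z
  | ⟨n+128, h⟩ => absurd h (by omega)
theorem closed_z_ch : ∀ (a : Fin 1) (b : Fin 128), rep_ch a b * z = rep (nx_z_ch a b)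
  | ⟨0, _⟩ => closed_z_c0
  | ⟨n+1, h⟩ => absurd h (by omega)
theorem closed_z (i : Idx) : rep i * z = rep (nx_z i) :=
  closed_z_ch i.1 i.2
theorem pre_z_c0 : ∀ b : Fin 128, rep (px_z_c0 b) * z = rep_c0 b
  | ⟨0, _⟩ => e_27_z
  | ⟨1, _⟩ => e_39_z
  | ⟨2, _⟩ => e_49_z
  | ⟨3, _⟩ => e_0_z
  | ⟨4, _⟩ => e_67_z
  | ⟨5, _⟩ => e_1_z
  | ⟨6, _⟩ => e_82_z
  | ⟨7, _⟩ => e_2_z
  | ⟨8, _⟩ => e_90_z
  | ⟨9, _⟩ => e_66_z
  | ⟨10, _⟩ => e_3_z
  | ⟨11, _⟩ => e_102_z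
  | ⟨12, _⟩ => e_4_z
  | ⟨13, _⟩ => e_110_z
  | ⟨14, _⟩ => e_48_z
  | ⟨15, _⟩ => e_5_z
  | ⟨16, _⟩ => e_111_z
  | ⟨17, _⟩ => e_6_z
  | ⟨18, _⟩ => e_120_z
  | ⟨19, _⟩ => e_101_z
  | ⟨20, _⟩ => e_7_z
  | ⟨21, _⟩ => e_119_z
  | ⟨22, _⟩ => e_8_z
  | ⟨23, _⟩ => e_114_z
  | ⟨24, _⟩ => e_9_z
  | ⟨25, _⟩ => e_35_z
  | ⟨26, _⟩ => e_113_z
  | ⟨27, _⟩ => e_10_z
  | ⟨28, _⟩ => e_91_z
  | ⟨29, _⟩ => e_11_z
  | ⟨30, _⟩ => e_126_z
  | ⟨31, _⟩ => e_81_z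
  | ⟨32, _⟩ => e_12_z
  | ⟨33, _⟩ => e_125_z
  | ⟨34, _⟩ => e_13_z
  | ⟨35, _⟩ => e_94_z
  | ⟨36, _⟩ => e_14_z
  | ⟨37, _⟩ => e_23_z
  | ⟨38, _⟩ => e_93_z
  | ⟨39, _⟩ => e_15_z
  | ⟨40, _⟩ => e_16_z
  | ⟨41, _⟩ => e_95_z
  | ⟨42, _⟩ => e_26_z
  | ⟨43, _⟩ => e_17_z
  | ⟨44, _⟩ => e_70_z
  | ⟨45, _⟩ => e_18_z
  | ⟨46, _⟩ => e_24_z
  | ⟨47, _⟩ => e_19_z
  | ⟨48, _⟩ => e_64_z
  | ⟨49, _⟩ => e_20_z
  | ⟨50, _⟩ => e_84_z
  | ⟨51, _⟩ => e_21_z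
  | ⟨52, _⟩ => e_68_z
  | ⟨53, _⟩ => e_83_z
  | ⟨54, _⟩ => e_22_z
  | ⟨55, _⟩ => e_58_z
  | ⟨56, _⟩ => e_25_z
  | ⟨57, _⟩ => e_78_z
  | ⟨58, _⟩ => e_28_z
  | ⟨59, _⟩ => e_115_z
  | ⟨60, _⟩ => e_38_z
  | ⟨61, _⟩ => e_29_z
  | ⟨62, _⟩ => e_52_z
  | ⟨63, _⟩ => e_30_z
  | ⟨64, _⟩ => e_36_z
  | ⟨65, _⟩ => e_31_z
  | ⟨66, _⟩ => e_46_z
  | ⟨67, _⟩ => e_32_z
  | ⟨68, _⟩ => e_104_z
  | ⟨69, _⟩ => e_33_z
  | ⟨70, _⟩ => e_50_z
  | ⟨71, _⟩ => e_103_z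
  | ⟨72, _⟩ => e_34_z
  | ⟨73, _⟩ => e_40_z
  | ⟨74, _⟩ => e_37_z
  | ⟨75, _⟩ => e_98_z
  | ⟨76, _⟩ => e_121_z
  | ⟨77, _⟩ => e_53_z
  | ⟨78, _⟩ => e_41_z
  | ⟨79, _⟩ => e_47_z
  | ⟨80, _⟩ => e_42_z
  | ⟨81, _⟩ => e_99_z
  | ⟨82, _⟩ => e_43_z
  | ⟨83, _⟩ => e_118_z
  | ⟨84, _⟩ => e_44_z
  | ⟨85, _⟩ => e_117_z
  | ⟨86, _⟩ => e_45_z
  | ⟨87, _⟩ => e_116_z
  | ⟨88, _⟩ => e_112_z
  | ⟨89, _⟩ => e_51_z
  | ⟨90, _⟩ => e_54_z
  | ⟨91, _⟩ => e_55_z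
  | ⟨92, _⟩ => e_105_z
  | ⟨93, _⟩ => e_100_z
  | ⟨94, _⟩ => e_56_z
  | ⟨95, _⟩ => e_57_z
  | ⟨96, _⟩ => e_127_z
  | ⟨97, _⟩ => e_71_z
  | ⟨98, _⟩ => e_59_z
  | ⟨99, _⟩ => e_65_z
  | ⟨100, _⟩ => e_60_z
  | ⟨101, _⟩ => e_79_z
  | ⟨102, _⟩ => e_61_z
  | ⟨103, _⟩ => e_124_z
  | ⟨104, _⟩ => e_62_z
  | ⟨105, _⟩ => e_123_z
  | ⟨106, _⟩ => e_63_z
  | ⟨107, _⟩ => e_122_z
  | ⟨108, _⟩ => e_92_z
  | ⟨109, _⟩ => e_69_z
  | ⟨110, _⟩ => e_72_z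
  | ⟨111, _⟩ => e_73_z
  | ⟨112, _⟩ => e_85_z
  | ⟨113, _⟩ => e_80_z
  | ⟨114, _⟩ => e_74_z
  | ⟨115, _⟩ => e_75_z
  | ⟨116, _⟩ => e_76_z
  | ⟨117, _⟩ => e_88_z
  | ⟨118, _⟩ => e_77_z
  | ⟨119, _⟩ => e_89_z
  | ⟨120, _⟩ => e_86_z
  | ⟨121, _⟩ => e_87_z
  | ⟨122, _⟩ => e_96_z
  | ⟨123, _⟩ => e_108_z
  | ⟨124, _⟩ => e_97_z
  | ⟨125, _⟩ => e_109_z
  | ⟨126, _⟩ => e_106_z
  | ⟨127, _⟩ => e_107_z
  | ⟨n+128, h⟩ => absurd h (by omega)
theorem pre_z_ch : ∀ (a : Fin 1) (b : Fin 128), rep (px_z_ch a b) * z = rep_ch a b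
  | ⟨0, _⟩ => pre_z_c0
  | ⟨n+1, h⟩ => absurd h (by omega)
theorem pre_z (i : Idx) : rep (px_z i) * z = rep i :=
  pre_z_ch i.1 i.2

theorem rep_surj : Function.Surjective rep := by
  let H : Subgroup P :=
    { carrier := {p | ∀ s : P, s ∈ Set.range rep ↔ s * p ∈ Set.range rep}
      mul_mem' := by
        intro a b ha hb s
        rw [ha s, hb (s * a), mul_assoc]
      one_mem' := by intro s; rw [mul_one]
      inv_mem' := by
        intro a ha s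
        rw [ha (s * a⁻¹), inv_mul_cancel_right] }
  have hgen : ∀ j : Fin 3, (PresentedGroup.of j : P) ∈ H := by
    intro j
    fin_cases j
    · intro s
      constructor
      · rintro ⟨i, rfl⟩
        exact ⟨nx_x i, (closed_x i).symm⟩
      · rintro ⟨i, hi⟩
        refine ⟨px_x i, ?_⟩
        have := pre_x i
        rw [hi] at this
        exact mul_right_cancel this
    · intro s
      constructor
      · rintro ⟨i, rfl⟩
        exact ⟨nx_y i, (closed_y i).symm⟩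
      · rintro ⟨i, hi⟩
        refine ⟨px_y i, ?_⟩
        have := pre_y i
        rw [hi] at this
        exact mul_right_cancel this
    · intro s
      constructor
      · rintro ⟨i, rfl⟩
        exact ⟨nx_z i, (closed_z i).symm⟩
      · rintro ⟨i, hi⟩
        refine ⟨px_z i, ?_⟩
        have := pre_z i
        rw [hi] at this
        exact mul_right_cancel this
  intro p
  have hp : p ∈ H := PresentedGroup.generated_by rels H hgen p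
  have h1 : (1 : P) * p ∈ Set.range rep := (hp 1).mp ⟨(0, 0), rfl⟩
  rw [one_mul] at h1
  exact h1

abbrev sw (a b : Fin 8) : Equiv.Perm (Fin 8) := Equiv.swap a b
def gX : Equiv.Perm (Fin 8) := sw 0 1
def gY : Equiv.Perm (Fin 8) := sw 0 1 * sw 4 6 * sw 6 5 * sw 5 7
def gZ : Equiv.Perm (Fin 8) := sw 0 4 * sw 4 2 * sw 2 6 * sw 1 5 * sw 5 3 * sw 3 7
set_option maxRecDepth 100000 in
theorem lift_rel8 : ∀ r ∈ rels, FreeGroup.lift ![gX, gY, gZ] r = 1 := by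
  intro r hr
  simp only [rels, Set.mem_insert_iff, Set.mem_singleton_iff] at hr
  rcases hr with rfl | rfl | rfl | rfl | rfl | rfl | rfl | rfl | rfl | rfl | rfl | rfl | rfl
  all_goals
    simp only [map_mul, FreeGroup.lift_apply_of]
    decide
noncomputable def ψ0 : P →* Equiv.Perm (Fin 8) := PresentedGroup.toGroup lift_rel8
theorem ψ0_x : ψ0 x = gX := by simp [ψ0, x]
theorem ψ0_y : ψ0 y = gY := by simp [ψ0, y]
theorem ψ0_z : ψ0 z = gZ := by simp [ψ0, z]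
def m8_0 : Equiv.Perm (Fin 8) := 1
def m8_1 : Equiv.Perm (Fin 8) := sw 0 1
def m8_2 : Equiv.Perm (Fin 8) := sw 0 1 * sw 4 6 * sw 6 5 * sw 5 7
def m8_3 : Equiv.Perm (Fin 8) := sw 0 4 * sw 4 2 * sw 2 6 * sw 1 5 * sw 5 3 * sw 3 7
def m8_4 : Equiv.Perm (Fin 8) := sw 4 6 * sw 6 5 * sw 5 7
def m8_5 : Equiv.Perm (Fin 8) := sw 0 4 * sw 4 2 * sw 2 6 * sw 6 1 * sw 1 5 * sw 5 3 * sw 3 7
def m8_6 : Equiv.Perm (Fin 8) := sw 4 5 * sw 6 7
def m8_7 : Equiv.Perm (Fin 8) := sw 0 6 * sw 6 1 * sw 1 7 * sw 2 5 * sw 5 3 * sw 3 4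
def m8_8 : Equiv.Perm (Fin 8) := sw 0 5 * sw 5 3 * sw 3 7 * sw 7 1 * sw 1 4 * sw 4 2 * sw 2 6
def m8_9 : Equiv.Perm (Fin 8) := sw 0 5 * sw 5 1 * sw 1 4 * sw 2 6 * sw 6 3 * sw 3 7
def m8_10 : Equiv.Perm (Fin 8) := sw 0 2 * sw 1 3 * sw 4 6 * sw 5 7
def m8_11 : Equiv.Perm (Fin 8) := sw 0 1 * sw 4 5 * sw 6 7
def m8_12 : Equiv.Perm (Fin 8) := sw 0 6 * sw 1 7 * sw 2 5 * sw 5 3 * sw 3 4
def m8_13 : Equiv.Perm (Fin 8) := sw 0 5 * sw 5 3 * sw 3 7 * sw 1 4 * sw 4 2 * sw 2 6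
def m8_14 : Equiv.Perm (Fin 8) := sw 0 5 * sw 1 4 * sw 2 6 * sw 6 3 * sw 3 7
def m8_15 : Equiv.Perm (Fin 8) := sw 0 2 * sw 2 1 * sw 1 3 * sw 4 6 * sw 5 7
def m8_16 : Equiv.Perm (Fin 8) := sw 0 1 * sw 4 7 * sw 7 5 * sw 5 6
def m8_17 : Equiv.Perm (Fin 8) := sw 0 5 * sw 5 3 * sw 3 6 * sw 1 4 * sw 4 2 * sw 2 7
def m8_18 : Equiv.Perm (Fin 8) := sw 0 7 * sw 1 6 * sw 2 5 * sw 5 3 * sw 3 4
def m8_19 : Equiv.Perm (Fin 8) := sw 0 7 * sw 7 2 * sw 2 5 * sw 1 6 * sw 6 3 * sw 3 4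
def m8_20 : Equiv.Perm (Fin 8) := sw 0 2 * sw 2 1 * sw 1 3 * sw 4 5
def m8_21 : Equiv.Perm (Fin 8) := sw 0 4 * sw 1 5 * sw 2 6 * sw 6 3 * sw 3 7
def m8_22 : Equiv.Perm (Fin 8) := sw 0 2 * sw 1 3 * sw 4 6 * sw 6 5 * sw 5 7
def m8_23 : Equiv.Perm (Fin 8) := sw 0 4 * sw 4 3 * sw 3 7 * sw 1 5 * sw 5 2 * sw 2 6
def m8_24 : Equiv.Perm (Fin 8) := sw 2 3 * sw 4 6 * sw 6 5 * sw 5 7
def m8_25 : Equiv.Perm (Fin 8) := sw 0 3 * sw 3 1 * sw 1 2 * sw 4 6 * sw 5 7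
def m8_26 : Equiv.Perm (Fin 8) := sw 0 3 * sw 3 1 * sw 1 2 * sw 6 7
def m8_27 : Equiv.Perm (Fin 8) := sw 0 6 * sw 6 2 * sw 2 4 * sw 1 7 * sw 7 3 * sw 3 5
def m8_28 : Equiv.Perm (Fin 8) := sw 4 7 * sw 7 5 * sw 5 6
def m8_29 : Equiv.Perm (Fin 8) := sw 0 5 * sw 5 3 * sw 3 6 * sw 6 1 * sw 1 4 * sw 4 2 * sw 2 7
def m8_30 : Equiv.Perm (Fin 8) := sw 0 7 * sw 7 1 * sw 1 6 * sw 2 5 * sw 5 3 * sw 3 4
def m8_31 : Equiv.Perm (Fin 8) := sw 0 7 * sw 7 2 * sw 2 5 * sw 5 1 * sw 1 6 * sw 6 3 * sw 3 4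
def m8_32 : Equiv.Perm (Fin 8) := sw 0 2 * sw 1 3 * sw 4 5
def m8_33 : Equiv.Perm (Fin 8) := sw 0 4 * sw 4 1 * sw 1 5 * sw 2 6 * sw 6 3 * sw 3 7
def m8_34 : Equiv.Perm (Fin 8) := sw 0 2 * sw 2 1 * sw 1 3 * sw 4 6 * sw 6 5 * sw 5 7
def m8_35 : Equiv.Perm (Fin 8) := sw 0 4 * sw 4 3 * sw 3 7 * sw 7 1 * sw 1 5 * sw 5 2 * sw 2 6
def m8_36 : Equiv.Perm (Fin 8) := sw 0 1 * sw 2 3 * sw 4 6 * sw 6 5 * sw 5 7
def m8_37 : Equiv.Perm (Fin 8) := sw 0 3 * sw 1 2 * sw 4 6 * sw 5 7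
def m8_38 : Equiv.Perm (Fin 8) := sw 0 3 * sw 1 2 * sw 6 7
def m8_39 : Equiv.Perm (Fin 8) := sw 0 6 * sw 6 2 * sw 2 4 * sw 4 1 * sw 1 7 * sw 7 3 * sw 3 5
def m8_40 : Equiv.Perm (Fin 8) := sw 0 7 * sw 1 6 * sw 2 4 * sw 3 5
def m8_41 : Equiv.Perm (Fin 8) := sw 0 4 * sw 4 2 * sw 2 7 * sw 7 1 * sw 1 5 * sw 5 3 * sw 3 6
def m8_42 : Equiv.Perm (Fin 8) := sw 0 4 * sw 1 5 * sw 2 7 * sw 3 6
def m8_43 : Equiv.Perm (Fin 8) := sw 0 2 * sw 1 3 * sw 4 7 * sw 5 6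
def m8_44 : Equiv.Perm (Fin 8) := sw 0 6 * sw 6 3 * sw 3 4 * sw 4 1 * sw 1 7 * sw 7 2 * sw 2 5
def m8_45 : Equiv.Perm (Fin 8) := sw 0 2 * sw 2 1 * sw 1 3 * sw 4 5 * sw 6 7
def m8_46 : Equiv.Perm (Fin 8) := sw 0 6 * sw 1 7 * sw 2 5 * sw 3 4
def m8_47 : Equiv.Perm (Fin 8) := sw 0 1 * sw 2 3 * sw 4 5 * sw 6 7
def m8_48 : Equiv.Perm (Fin 8) := sw 0 3 * sw 1 2 * sw 4 5
def m8_49 : Equiv.Perm (Fin 8) := sw 0 5 * sw 1 4 * sw 2 6 * sw 3 7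
def m8_50 : Equiv.Perm (Fin 8) := sw 0 5 * sw 5 2 * sw 2 6 * sw 6 1 * sw 1 4 * sw 4 3 * sw 3 7
def m8_51 : Equiv.Perm (Fin 8) := sw 2 3 * sw 4 6 * sw 5 7
def m8_52 : Equiv.Perm (Fin 8) := sw 0 3 * sw 3 1 * sw 1 2 * sw 4 6 * sw 6 5 * sw 5 7
def m8_53 : Equiv.Perm (Fin 8) := sw 0 3 * sw 3 1 * sw 1 2 * sw 4 5 * sw 6 7
def m8_54 : Equiv.Perm (Fin 8) := sw 0 6 * sw 6 2 * sw 2 5 * sw 5 1 * sw 1 7 * sw 7 3 * sw 3 4
def m8_55 : Equiv.Perm (Fin 8) := sw 0 2 * sw 1 3 * sw 6 7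
def m8_56 : Equiv.Perm (Fin 8) := sw 0 6 * sw 6 3 * sw 3 5 * sw 5 1 * sw 1 7 * sw 7 2 * sw 2 4
def m8_57 : Equiv.Perm (Fin 8) := sw 0 7 * sw 7 3 * sw 3 5 * sw 5 1 * sw 1 6 * sw 6 2 * sw 2 4
def m8_58 : Equiv.Perm (Fin 8) := sw 0 7 * sw 7 1 * sw 1 6 * sw 2 4 * sw 3 5
def m8_59 : Equiv.Perm (Fin 8) := sw 0 4 * sw 4 2 * sw 2 7 * sw 1 5 * sw 5 3 * sw 3 6
def m8_60 : Equiv.Perm (Fin 8) := sw 0 4 * sw 4 1 * sw 1 5 * sw 2 7 * sw 3 6
def m8_61 : Equiv.Perm (Fin 8) := sw 0 2 * sw 2 1 * sw 1 3 * sw 4 7 * sw 5 6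
def m8_62 : Equiv.Perm (Fin 8) := sw 0 6 * sw 6 3 * sw 3 4 * sw 1 7 * sw 7 2 * sw 2 5
def m8_63 : Equiv.Perm (Fin 8) := sw 0 2 * sw 1 3 * sw 4 5 * sw 6 7
def m8_64 : Equiv.Perm (Fin 8) := sw 0 6 * sw 6 1 * sw 1 7 * sw 2 5 * sw 3 4
def m8_65 : Equiv.Perm (Fin 8) := sw 2 3 * sw 4 5 * sw 6 7
def m8_66 : Equiv.Perm (Fin 8) := sw 0 3 * sw 3 1 * sw 1 2 * sw 4 5
def m8_67 : Equiv.Perm (Fin 8) := sw 0 5 * sw 5 1 * sw 1 4 * sw 2 6 * sw 3 7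
def m8_68 : Equiv.Perm (Fin 8) := sw 0 5 * sw 5 2 * sw 2 6 * sw 1 4 * sw 4 3 * sw 3 7
def m8_69 : Equiv.Perm (Fin 8) := sw 0 1 * sw 2 3 * sw 4 6 * sw 5 7
def m8_70 : Equiv.Perm (Fin 8) := sw 0 3 * sw 1 2 * sw 4 6 * sw 6 5 * sw 5 7
def m8_71 : Equiv.Perm (Fin 8) := sw 0 3 * sw 1 2 * sw 4 5 * sw 6 7
def m8_72 : Equiv.Perm (Fin 8) := sw 0 6 * sw 6 2 * sw 2 5 * sw 1 7 * sw 7 3 * sw 3 4
def m8_73 : Equiv.Perm (Fin 8) := sw 0 2 * sw 2 1 * sw 1 3 * sw 6 7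
def m8_74 : Equiv.Perm (Fin 8) := sw 0 6 * sw 6 3 * sw 3 5 * sw 1 7 * sw 7 2 * sw 2 4
def m8_75 : Equiv.Perm (Fin 8) := sw 0 7 * sw 7 3 * sw 3 5 * sw 1 6 * sw 6 2 * sw 2 4
def m8_76 : Equiv.Perm (Fin 8) := sw 0 6 * sw 6 1 * sw 1 7 * sw 2 4 * sw 3 5
def m8_77 : Equiv.Perm (Fin 8) := sw 0 5 * sw 5 1 * sw 1 4 * sw 2 7 * sw 3 6
def m8_78 : Equiv.Perm (Fin 8) := sw 0 2 * sw 1 3 * sw 4 7 * sw 7 5 * sw 5 6
def m8_79 : Equiv.Perm (Fin 8) := sw 0 5 * sw 5 2 * sw 2 7 * sw 1 4 * sw 4 3 * sw 3 6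
def m8_80 : Equiv.Perm (Fin 8) := sw 2 3 * sw 4 7 * sw 7 5 * sw 5 6
def m8_81 : Equiv.Perm (Fin 8) := sw 0 3 * sw 3 1 * sw 1 2 * sw 4 7 * sw 5 6
def m8_82 : Equiv.Perm (Fin 8) := sw 0 7 * sw 7 3 * sw 3 4 * sw 1 6 * sw 6 2 * sw 2 5
def m8_83 : Equiv.Perm (Fin 8) := sw 0 7 * sw 7 1 * sw 1 6 * sw 2 5 * sw 3 4
def m8_84 : Equiv.Perm (Fin 8) := sw 0 1 * sw 2 3 * sw 4 5
def m8_85 : Equiv.Perm (Fin 8) := sw 0 3 * sw 1 2 * sw 4 7 * sw 7 5 * sw 5 6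
def m8_86 : Equiv.Perm (Fin 8) := sw 0 5 * sw 1 4 * sw 2 7 * sw 7 3 * sw 3 6
def m8_87 : Equiv.Perm (Fin 8) := sw 0 4 * sw 4 1 * sw 1 5 * sw 2 6 * sw 3 7
def m8_88 : Equiv.Perm (Fin 8) := sw 0 1 * sw 2 3 * sw 6 7
def m8_89 : Equiv.Perm (Fin 8) := sw 0 6 * sw 1 7 * sw 2 4 * sw 4 3 * sw 3 5
def m8_90 : Equiv.Perm (Fin 8) := sw 4 5
def m8_91 : Equiv.Perm (Fin 8) := sw 0 4 * sw 1 5 * sw 2 7 * sw 7 3 * sw 3 6
def m8_92 : Equiv.Perm (Fin 8) := sw 0 7 * sw 7 2 * sw 2 4 * sw 1 6 * sw 6 3 * sw 3 5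
def m8_93 : Equiv.Perm (Fin 8) := sw 0 7 * sw 1 6 * sw 2 4 * sw 4 3 * sw 3 5
def m8_94 : Equiv.Perm (Fin 8) := sw 2 3
def m8_95 : Equiv.Perm (Fin 8) := sw 6 7
def m8_96 : Equiv.Perm (Fin 8) := sw 0 6 * sw 1 7 * sw 2 4 * sw 3 5
def m8_97 : Equiv.Perm (Fin 8) := sw 0 5 * sw 1 4 * sw 2 7 * sw 3 6
def m8_98 : Equiv.Perm (Fin 8) := sw 0 2 * sw 2 1 * sw 1 3 * sw 4 7 * sw 7 5 * sw 5 6
def m8_99 : Equiv.Perm (Fin 8) := sw 0 5 * sw 5 2 * sw 2 7 * sw 7 1 * sw 1 4 * sw 4 3 * sw 3 6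
def m8_100 : Equiv.Perm (Fin 8) := sw 0 1 * sw 2 3 * sw 4 7 * sw 7 5 * sw 5 6
def m8_101 : Equiv.Perm (Fin 8) := sw 0 3 * sw 1 2 * sw 4 7 * sw 5 6
def m8_102 : Equiv.Perm (Fin 8) := sw 0 7 * sw 7 3 * sw 3 4 * sw 4 1 * sw 1 6 * sw 6 2 * sw 2 5
def m8_103 : Equiv.Perm (Fin 8) := sw 0 7 * sw 1 6 * sw 2 5 * sw 3 4
def m8_104 : Equiv.Perm (Fin 8) := sw 2 3 * sw 4 5
def m8_105 : Equiv.Perm (Fin 8) := sw 0 3 * sw 3 1 * sw 1 2 * sw 4 7 * sw 7 5 * sw 5 6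
def m8_106 : Equiv.Perm (Fin 8) := sw 0 5 * sw 5 1 * sw 1 4 * sw 2 7 * sw 7 3 * sw 3 6
def m8_107 : Equiv.Perm (Fin 8) := sw 0 4 * sw 1 5 * sw 2 6 * sw 3 7
def m8_108 : Equiv.Perm (Fin 8) := sw 2 3 * sw 6 7
def m8_109 : Equiv.Perm (Fin 8) := sw 0 6 * sw 6 1 * sw 1 7 * sw 2 4 * sw 4 3 * sw 3 5
def m8_110 : Equiv.Perm (Fin 8) := sw 0 1 * sw 4 5
def m8_111 : Equiv.Perm (Fin 8) := sw 0 4 * sw 4 1 * sw 1 5 * sw 2 7 * sw 7 3 * sw 3 6
def m8_112 : Equiv.Perm (Fin 8) := sw 0 7 * sw 7 2 * sw 2 4 * sw 4 1 * sw 1 6 * sw 6 3 * sw 3 5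
def m8_113 : Equiv.Perm (Fin 8) := sw 0 7 * sw 7 1 * sw 1 6 * sw 2 4 * sw 4 3 * sw 3 5
def m8_114 : Equiv.Perm (Fin 8) := sw 0 1 * sw 2 3
def m8_115 : Equiv.Perm (Fin 8) := sw 0 1 * sw 6 7
def m8_116 : Equiv.Perm (Fin 8) := sw 0 2 * sw 2 1 * sw 1 3
def m8_117 : Equiv.Perm (Fin 8) := sw 0 4 * sw 4 3 * sw 3 6 * sw 6 1 * sw 1 5 * sw 5 2 * sw 2 7
def m8_118 : Equiv.Perm (Fin 8) := sw 2 3 * sw 4 7 * sw 5 6
def m8_119 : Equiv.Perm (Fin 8) := sw 0 3 * sw 3 1 * sw 1 2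
def m8_120 : Equiv.Perm (Fin 8) := sw 0 1 * sw 4 7 * sw 5 6
def m8_121 : Equiv.Perm (Fin 8) := sw 0 1 * sw 4 6 * sw 5 7
def m8_122 : Equiv.Perm (Fin 8) := sw 0 2 * sw 1 3
def m8_123 : Equiv.Perm (Fin 8) := sw 0 4 * sw 4 3 * sw 3 6 * sw 1 5 * sw 5 2 * sw 2 7
def m8_124 : Equiv.Perm (Fin 8) := sw 0 1 * sw 2 3 * sw 4 7 * sw 5 6
def m8_125 : Equiv.Perm (Fin 8) := sw 0 3 * sw 1 2
def m8_126 : Equiv.Perm (Fin 8) := sw 4 7 * sw 5 6
def m8_127 : Equiv.Perm (Fin 8) := sw 4 6 * sw 5 7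
theorem t8_0 : ψ0 r0 = m8_0 := by
  show ψ0 1 = m8_0
  rw [map_one]; rfl
theorem t8_1 : ψ0 r1 = m8_1 := by
  show ψ0 (r0 * x) = m8_1
  rw [map_mul, t8_0, ψ0_x]; decide
theorem t8_2 : ψ0 r2 = m8_2 := by
  show ψ0 (r0 * y) = m8_2
  rw [map_mul, t8_0, ψ0_y]; decide
theorem t8_3 : ψ0 r3 = m8_3 := by
  show ψ0 (r0 * z) = m8_3
  rw [map_mul, t8_0, ψ0_z]; decide
theorem t8_4 : ψ0 r4 = m8_4 := by
  show ψ0 (r1 * y) = m8_4
  rw [map_mul, t8_1, ψ0_y]; decide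
theorem t8_5 : ψ0 r5 = m8_5 := by
  show ψ0 (r1 * z) = m8_5
  rw [map_mul, t8_1, ψ0_z]; decide
theorem t8_6 : ψ0 r6 = m8_6 := by
  show ψ0 (r2 * y) = m8_6
  rw [map_mul, t8_2, ψ0_y]; decide
theorem t8_7 : ψ0 r7 = m8_7 := by
  show ψ0 (r2 * z) = m8_7
  rw [map_mul, t8_2, ψ0_z]; decide
theorem t8_8 : ψ0 r8 = m8_8 := by
  show ψ0 (r3 * x) = m8_8
  rw [map_mul, t8_3, ψ0_x]; decide
theorem t8_9 : ψ0 r9 = m8_9 := by
  show ψ0 (r3 * y) = m8_9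
  rw [map_mul, t8_3, ψ0_y]; decide
theorem t8_10 : ψ0 r10 = m8_10 := by
  show ψ0 (r3 * z) = m8_10
  rw [map_mul, t8_3, ψ0_z]; decide
theorem t8_11 : ψ0 r11 = m8_11 := by
  show ψ0 (r4 * y) = m8_11
  rw [map_mul, t8_4, ψ0_y]; decide
theorem t8_12 : ψ0 r12 = m8_12 := by
  show ψ0 (r4 * z) = m8_12
  rw [map_mul, t8_4, ψ0_z]; decide
theorem t8_13 : ψ0 r13 = m8_13 := by
  show ψ0 (r5 * x) = m8_13
  rw [map_mul, t8_5, ψ0_x]; decide
theorem t8_14 : ψ0 r14 = m8_14 := by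
  show ψ0 (r5 * y) = m8_14
  rw [map_mul, t8_5, ψ0_y]; decide
theorem t8_15 : ψ0 r15 = m8_15 := by
  show ψ0 (r5 * z) = m8_15
  rw [map_mul, t8_5, ψ0_z]; decide
theorem t8_16 : ψ0 r16 = m8_16 := by
  show ψ0 (r6 * y) = m8_16
  rw [map_mul, t8_6, ψ0_y]; decide
theorem t8_17 : ψ0 r17 = m8_17 := by
  show ψ0 (r6 * z) = m8_17
  rw [map_mul, t8_6, ψ0_z]; decide
theorem t8_18 : ψ0 r18 = m8_18 := by
  show ψ0 (r7 * x) = m8_18
  rw [map_mul, t8_7, ψ0_x]; decide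
theorem t8_19 : ψ0 r19 = m8_19 := by
  show ψ0 (r7 * y) = m8_19
  rw [map_mul, t8_7, ψ0_y]; decide
theorem t8_20 : ψ0 r20 = m8_20 := by
  show ψ0 (r7 * z) = m8_20
  rw [map_mul, t8_7, ψ0_z]; decide
theorem t8_21 : ψ0 r21 = m8_21 := by
  show ψ0 (r8 * y) = m8_21
  rw [map_mul, t8_8, ψ0_y]; decide
theorem t8_22 : ψ0 r22 = m8_22 := by
  show ψ0 (r8 * z) = m8_22
  rw [map_mul, t8_8, ψ0_z]; decide
theorem t8_23 : ψ0 r23 = m8_23 := by
  show ψ0 (r9 * y) = m8_23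
  rw [map_mul, t8_9, ψ0_y]; decide
theorem t8_24 : ψ0 r24 = m8_24 := by
  show ψ0 (r9 * z) = m8_24
  rw [map_mul, t8_9, ψ0_z]; decide
theorem t8_25 : ψ0 r25 = m8_25 := by
  show ψ0 (r10 * x) = m8_25
  rw [map_mul, t8_10, ψ0_x]; decide
theorem t8_26 : ψ0 r26 = m8_26 := by
  show ψ0 (r10 * y) = m8_26
  rw [map_mul, t8_10, ψ0_y]; decide
theorem t8_27 : ψ0 r27 = m8_27 := by
  show ψ0 (r10 * z) = m8_27
  rw [map_mul, t8_10, ψ0_z]; decide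
theorem t8_28 : ψ0 r28 = m8_28 := by
  show ψ0 (r11 * y) = m8_28
  rw [map_mul, t8_11, ψ0_y]; decide
theorem t8_29 : ψ0 r29 = m8_29 := by
  show ψ0 (r11 * z) = m8_29
  rw [map_mul, t8_11, ψ0_z]; decide
theorem t8_30 : ψ0 r30 = m8_30 := by
  show ψ0 (r12 * x) = m8_30
  rw [map_mul, t8_12, ψ0_x]; decide
theorem t8_31 : ψ0 r31 = m8_31 := by
  show ψ0 (r12 * y) = m8_31
  rw [map_mul, t8_12, ψ0_y]; decide
theorem t8_32 : ψ0 r32 = m8_32 := by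
  show ψ0 (r12 * z) = m8_32
  rw [map_mul, t8_12, ψ0_z]; decide
theorem t8_33 : ψ0 r33 = m8_33 := by
  show ψ0 (r13 * y) = m8_33
  rw [map_mul, t8_13, ψ0_y]; decide
theorem t8_34 : ψ0 r34 = m8_34 := by
  show ψ0 (r13 * z) = m8_34
  rw [map_mul, t8_13, ψ0_z]; decide
theorem t8_35 : ψ0 r35 = m8_35 := by
  show ψ0 (r14 * y) = m8_35
  rw [map_mul, t8_14, ψ0_y]; decide
theorem t8_36 : ψ0 r36 = m8_36 := by
  show ψ0 (r14 * z) = m8_36
  rw [map_mul, t8_14, ψ0_z]; decide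
theorem t8_37 : ψ0 r37 = m8_37 := by
  show ψ0 (r15 * x) = m8_37
  rw [map_mul, t8_15, ψ0_x]; decide
theorem t8_38 : ψ0 r38 = m8_38 := by
  show ψ0 (r15 * y) = m8_38
  rw [map_mul, t8_15, ψ0_y]; decide
theorem t8_39 : ψ0 r39 = m8_39 := by
  show ψ0 (r15 * z) = m8_39
  rw [map_mul, t8_15, ψ0_z]; decide
theorem t8_40 : ψ0 r40 = m8_40 := by
  show ψ0 (r16 * z) = m8_40
  rw [map_mul, t8_16, ψ0_z]; decide
theorem t8_41 : ψ0 r41 = m8_41 := by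
  show ψ0 (r17 * x) = m8_41
  rw [map_mul, t8_17, ψ0_x]; decide
theorem t8_42 : ψ0 r42 = m8_42 := by
  show ψ0 (r17 * y) = m8_42
  rw [map_mul, t8_17, ψ0_y]; decide
theorem t8_43 : ψ0 r43 = m8_43 := by
  show ψ0 (r17 * z) = m8_43
  rw [map_mul, t8_17, ψ0_z]; decide
theorem t8_44 : ψ0 r44 = m8_44 := by
  show ψ0 (r18 * y) = m8_44
  rw [map_mul, t8_18, ψ0_y]; decide
theorem t8_45 : ψ0 r45 = m8_45 := by
  show ψ0 (r18 * z) = m8_45
  rw [map_mul, t8_18, ψ0_z]; decide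
theorem t8_46 : ψ0 r46 = m8_46 := by
  show ψ0 (r19 * y) = m8_46
  rw [map_mul, t8_19, ψ0_y]; decide
theorem t8_47 : ψ0 r47 = m8_47 := by
  show ψ0 (r19 * z) = m8_47
  rw [map_mul, t8_19, ψ0_z]; decide
theorem t8_48 : ψ0 r48 = m8_48 := by
  show ψ0 (r20 * x) = m8_48
  rw [map_mul, t8_20, ψ0_x]; decide
theorem t8_49 : ψ0 r49 = m8_49 := by
  show ψ0 (r20 * z) = m8_49
  rw [map_mul, t8_20, ψ0_z]; decide
theorem t8_50 : ψ0 r50 = m8_50 := by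
  show ψ0 (r21 * y) = m8_50
  rw [map_mul, t8_21, ψ0_y]; decide
theorem t8_51 : ψ0 r51 = m8_51 := by
  show ψ0 (r21 * z) = m8_51
  rw [map_mul, t8_21, ψ0_z]; decide
theorem t8_52 : ψ0 r52 = m8_52 := by
  show ψ0 (r22 * x) = m8_52
  rw [map_mul, t8_22, ψ0_x]; decide
theorem t8_53 : ψ0 r53 = m8_53 := by
  show ψ0 (r22 * y) = m8_53
  rw [map_mul, t8_22, ψ0_y]; decide
theorem t8_54 : ψ0 r54 = m8_54 := by
  show ψ0 (r22 * z) = m8_54
  rw [map_mul, t8_22, ψ0_z]; decide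
theorem t8_55 : ψ0 r55 = m8_55 := by
  show ψ0 (r25 * y) = m8_55
  rw [map_mul, t8_25, ψ0_y]; decide
theorem t8_56 : ψ0 r56 = m8_56 := by
  show ψ0 (r25 * z) = m8_56
  rw [map_mul, t8_25, ψ0_z]; decide
theorem t8_57 : ψ0 r57 = m8_57 := by
  show ψ0 (r27 * x) = m8_57
  rw [map_mul, t8_27, ψ0_x]; decide
theorem t8_58 : ψ0 r58 = m8_58 := by
  show ψ0 (r28 * z) = m8_58
  rw [map_mul, t8_28, ψ0_z]; decide
theorem t8_59 : ψ0 r59 = m8_59 := by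
  show ψ0 (r29 * x) = m8_59
  rw [map_mul, t8_29, ψ0_x]; decide
theorem t8_60 : ψ0 r60 = m8_60 := by
  show ψ0 (r29 * y) = m8_60
  rw [map_mul, t8_29, ψ0_y]; decide
theorem t8_61 : ψ0 r61 = m8_61 := by
  show ψ0 (r29 * z) = m8_61
  rw [map_mul, t8_29, ψ0_z]; decide
theorem t8_62 : ψ0 r62 = m8_62 := by
  show ψ0 (r30 * y) = m8_62
  rw [map_mul, t8_30, ψ0_y]; decide
theorem t8_63 : ψ0 r63 = m8_63 := by
  show ψ0 (r30 * z) = m8_63
  rw [map_mul, t8_30, ψ0_z]; decide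
theorem t8_64 : ψ0 r64 = m8_64 := by
  show ψ0 (r31 * y) = m8_64
  rw [map_mul, t8_31, ψ0_y]; decide
theorem t8_65 : ψ0 r65 = m8_65 := by
  show ψ0 (r31 * z) = m8_65
  rw [map_mul, t8_31, ψ0_z]; decide
theorem t8_66 : ψ0 r66 = m8_66 := by
  show ψ0 (r32 * x) = m8_66
  rw [map_mul, t8_32, ψ0_x]; decide
theorem t8_67 : ψ0 r67 = m8_67 := by
  show ψ0 (r32 * z) = m8_67
  rw [map_mul, t8_32, ψ0_z]; decide
theorem t8_68 : ψ0 r68 = m8_68 := by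
  show ψ0 (r33 * y) = m8_68
  rw [map_mul, t8_33, ψ0_y]; decide
theorem t8_69 : ψ0 r69 = m8_69 := by
  show ψ0 (r33 * z) = m8_69
  rw [map_mul, t8_33, ψ0_z]; decide
theorem t8_70 : ψ0 r70 = m8_70 := by
  show ψ0 (r34 * x) = m8_70
  rw [map_mul, t8_34, ψ0_x]; decide
theorem t8_71 : ψ0 r71 = m8_71 := by
  show ψ0 (r34 * y) = m8_71
  rw [map_mul, t8_34, ψ0_y]; decide
theorem t8_72 : ψ0 r72 = m8_72 := by
  show ψ0 (r34 * z) = m8_72
  rw [map_mul, t8_34, ψ0_z]; decide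
theorem t8_73 : ψ0 r73 = m8_73 := by
  show ψ0 (r37 * y) = m8_73
  rw [map_mul, t8_37, ψ0_y]; decide
theorem t8_74 : ψ0 r74 = m8_74 := by
  show ψ0 (r37 * z) = m8_74
  rw [map_mul, t8_37, ψ0_z]; decide
theorem t8_75 : ψ0 r75 = m8_75 := by
  show ψ0 (r39 * x) = m8_75
  rw [map_mul, t8_39, ψ0_x]; decide
theorem t8_76 : ψ0 r76 = m8_76 := by
  show ψ0 (r40 * x) = m8_76
  rw [map_mul, t8_40, ψ0_x]; decide
theorem t8_77 : ψ0 r77 = m8_77 := by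
  show ψ0 (r41 * y) = m8_77
  rw [map_mul, t8_41, ψ0_y]; decide
theorem t8_78 : ψ0 r78 = m8_78 := by
  show ψ0 (r41 * z) = m8_78
  rw [map_mul, t8_41, ψ0_z]; decide
theorem t8_79 : ψ0 r79 = m8_79 := by
  show ψ0 (r42 * y) = m8_79
  rw [map_mul, t8_42, ψ0_y]; decide
theorem t8_80 : ψ0 r80 = m8_80 := by
  show ψ0 (r42 * z) = m8_80
  rw [map_mul, t8_42, ψ0_z]; decide
theorem t8_81 : ψ0 r81 = m8_81 := by
  show ψ0 (r43 * x) = m8_81
  rw [map_mul, t8_43, ψ0_x]; decide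
theorem t8_82 : ψ0 r82 = m8_82 := by
  show ψ0 (r43 * z) = m8_82
  rw [map_mul, t8_43, ψ0_z]; decide
theorem t8_83 : ψ0 r83 = m8_83 := by
  show ψ0 (r44 * y) = m8_83
  rw [map_mul, t8_44, ψ0_y]; decide
theorem t8_84 : ψ0 r84 = m8_84 := by
  show ψ0 (r44 * z) = m8_84
  rw [map_mul, t8_44, ψ0_z]; decide
theorem t8_85 : ψ0 r85 = m8_85 := by
  show ψ0 (r45 * y) = m8_85
  rw [map_mul, t8_45, ψ0_y]; decide
theorem t8_86 : ψ0 r86 = m8_86 := by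
  show ψ0 (r45 * z) = m8_86
  rw [map_mul, t8_45, ψ0_z]; decide
theorem t8_87 : ψ0 r87 = m8_87 := by
  show ψ0 (r49 * x) = m8_87
  rw [map_mul, t8_49, ψ0_x]; decide
theorem t8_88 : ψ0 r88 = m8_88 := by
  show ψ0 (r51 * y) = m8_88
  rw [map_mul, t8_51, ψ0_y]; decide
theorem t8_89 : ψ0 r89 = m8_89 := by
  show ψ0 (r51 * z) = m8_89
  rw [map_mul, t8_51, ψ0_z]; decide
theorem t8_90 : ψ0 r90 = m8_90 := by
  show ψ0 (r54 * z) = m8_90
  rw [map_mul, t8_54, ψ0_z]; decide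
theorem t8_91 : ψ0 r91 = m8_91 := by
  show ψ0 (r55 * z) = m8_91
  rw [map_mul, t8_55, ψ0_z]; decide
theorem t8_92 : ψ0 r92 = m8_92 := by
  show ψ0 (r56 * x) = m8_92
  rw [map_mul, t8_56, ψ0_x]; decide
theorem t8_93 : ψ0 r93 = m8_93 := by
  show ψ0 (r56 * y) = m8_93
  rw [map_mul, t8_56, ψ0_y]; decide
theorem t8_94 : ψ0 r94 = m8_94 := by
  show ψ0 (r56 * z) = m8_94
  rw [map_mul, t8_56, ψ0_z]; decide
theorem t8_95 : ψ0 r95 = m8_95 := by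
  show ψ0 (r57 * z) = m8_95
  rw [map_mul, t8_57, ψ0_z]; decide
theorem t8_96 : ψ0 r96 = m8_96 := by
  show ψ0 (r58 * x) = m8_96
  rw [map_mul, t8_58, ψ0_x]; decide
theorem t8_97 : ψ0 r97 = m8_97 := by
  show ψ0 (r59 * y) = m8_97
  rw [map_mul, t8_59, ψ0_y]; decide
theorem t8_98 : ψ0 r98 = m8_98 := by
  show ψ0 (r59 * z) = m8_98
  rw [map_mul, t8_59, ψ0_z]; decide
theorem t8_99 : ψ0 r99 = m8_99 := by
  show ψ0 (r60 * y) = m8_99
  rw [map_mul, t8_60, ψ0_y]; decide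
theorem t8_100 : ψ0 r100 = m8_100 := by
  show ψ0 (r60 * z) = m8_100
  rw [map_mul, t8_60, ψ0_z]; decide
theorem t8_101 : ψ0 r101 = m8_101 := by
  show ψ0 (r61 * x) = m8_101
  rw [map_mul, t8_61, ψ0_x]; decide
theorem t8_102 : ψ0 r102 = m8_102 := by
  show ψ0 (r61 * z) = m8_102
  rw [map_mul, t8_61, ψ0_z]; decide
theorem t8_103 : ψ0 r103 = m8_103 := by
  show ψ0 (r62 * y) = m8_103
  rw [map_mul, t8_62, ψ0_y]; decide
theorem t8_104 : ψ0 r104 = m8_104 := by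
  show ψ0 (r62 * z) = m8_104
  rw [map_mul, t8_62, ψ0_z]; decide
theorem t8_105 : ψ0 r105 = m8_105 := by
  show ψ0 (r63 * y) = m8_105
  rw [map_mul, t8_63, ψ0_y]; decide
theorem t8_106 : ψ0 r106 = m8_106 := by
  show ψ0 (r63 * z) = m8_106
  rw [map_mul, t8_63, ψ0_z]; decide
theorem t8_107 : ψ0 r107 = m8_107 := by
  show ψ0 (r67 * x) = m8_107
  rw [map_mul, t8_67, ψ0_x]; decide
theorem t8_108 : ψ0 r108 = m8_108 := by
  show ψ0 (r69 * y) = m8_108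
  rw [map_mul, t8_69, ψ0_y]; decide
theorem t8_109 : ψ0 r109 = m8_109 := by
  show ψ0 (r69 * z) = m8_109
  rw [map_mul, t8_69, ψ0_z]; decide
theorem t8_110 : ψ0 r110 = m8_110 := by
  show ψ0 (r72 * z) = m8_110
  rw [map_mul, t8_72, ψ0_z]; decide
theorem t8_111 : ψ0 r111 = m8_111 := by
  show ψ0 (r73 * z) = m8_111
  rw [map_mul, t8_73, ψ0_z]; decide
theorem t8_112 : ψ0 r112 = m8_112 := by
  show ψ0 (r74 * x) = m8_112
  rw [map_mul, t8_74, ψ0_x]; decide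
theorem t8_113 : ψ0 r113 = m8_113 := by
  show ψ0 (r74 * y) = m8_113
  rw [map_mul, t8_74, ψ0_y]; decide
theorem t8_114 : ψ0 r114 = m8_114 := by
  show ψ0 (r74 * z) = m8_114
  rw [map_mul, t8_74, ψ0_z]; decide
theorem t8_115 : ψ0 r115 = m8_115 := by
  show ψ0 (r75 * z) = m8_115
  rw [map_mul, t8_75, ψ0_z]; decide
theorem t8_116 : ψ0 r116 = m8_116 := by
  show ψ0 (r76 * z) = m8_116
  rw [map_mul, t8_76, ψ0_z]; decide
theorem t8_117 : ψ0 r117 = m8_117 := by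
  show ψ0 (r77 * y) = m8_117
  rw [map_mul, t8_77, ψ0_y]; decide
theorem t8_118 : ψ0 r118 = m8_118 := by
  show ψ0 (r77 * z) = m8_118
  rw [map_mul, t8_77, ψ0_z]; decide
theorem t8_119 : ψ0 r119 = m8_119 := by
  show ψ0 (r78 * y) = m8_119
  rw [map_mul, t8_78, ψ0_y]; decide
theorem t8_120 : ψ0 r120 = m8_120 := by
  show ψ0 (r86 * z) = m8_120
  rw [map_mul, t8_86, ψ0_z]; decide
theorem t8_121 : ψ0 r121 = m8_121 := by
  show ψ0 (r87 * z) = m8_121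
  rw [map_mul, t8_87, ψ0_z]; decide
theorem t8_122 : ψ0 r122 = m8_122 := by
  show ψ0 (r96 * z) = m8_122
  rw [map_mul, t8_96, ψ0_z]; decide
theorem t8_123 : ψ0 r123 = m8_123 := by
  show ψ0 (r97 * y) = m8_123
  rw [map_mul, t8_97, ψ0_y]; decide
theorem t8_124 : ψ0 r124 = m8_124 := by
  show ψ0 (r97 * z) = m8_124
  rw [map_mul, t8_97, ψ0_z]; decide
theorem t8_125 : ψ0 r125 = m8_125 := by
  show ψ0 (r98 * y) = m8_125
  rw [map_mul, t8_98, ψ0_y]; decide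
theorem t8_126 : ψ0 r126 = m8_126 := by
  show ψ0 (r106 * z) = m8_126
  rw [map_mul, t8_106, ψ0_z]; decide
theorem t8_127 : ψ0 r127 = m8_127 := by
  show ψ0 (r107 * z) = m8_127
  rw [map_mul, t8_107, ψ0_z]; decide
def M8_c0 : Fin 128 → Equiv.Perm (Fin 8)
  | ⟨0, _⟩ => m8_0
  | ⟨1, _⟩ => m8_1
  | ⟨2, _⟩ => m8_2
  | ⟨3, _⟩ => m8_3
  | ⟨4, _⟩ => m8_4
  | ⟨5, _⟩ => m8_5
  | ⟨6, _⟩ => m8_6
  | ⟨7, _⟩ => m8_7
  | ⟨8, _⟩ => m8_8
  | ⟨9, _⟩ => m8_9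
  | ⟨10, _⟩ => m8_10
  | ⟨11, _⟩ => m8_11
  | ⟨12, _⟩ => m8_12
  | ⟨13, _⟩ => m8_13
  | ⟨14, _⟩ => m8_14
  | ⟨15, _⟩ => m8_15
  | ⟨16, _⟩ => m8_16
  | ⟨17, _⟩ => m8_17
  | ⟨18, _⟩ => m8_18
  | ⟨19, _⟩ => m8_19
  | ⟨20, _⟩ => m8_20
  | ⟨21, _⟩ => m8_21
  | ⟨22, _⟩ => m8_22
  | ⟨23, _⟩ => m8_23
  | ⟨24, _⟩ => m8_24
  | ⟨25, _⟩ => m8_25
  | ⟨26, _⟩ => m8_26
  | ⟨27, _⟩ => m8_27
  | ⟨28, _⟩ => m8_28
  | ⟨29, _⟩ => m8_29
  | ⟨30, _⟩ => m8_30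
  | ⟨31, _⟩ => m8_31
  | ⟨32, _⟩ => m8_32
  | ⟨33, _⟩ => m8_33
  | ⟨34, _⟩ => m8_34
  | ⟨35, _⟩ => m8_35
  | ⟨36, _⟩ => m8_36
  | ⟨37, _⟩ => m8_37
  | ⟨38, _⟩ => m8_38
  | ⟨39, _⟩ => m8_39
  | ⟨40, _⟩ => m8_40
  | ⟨41, _⟩ => m8_41
  | ⟨42, _⟩ => m8_42
  | ⟨43, _⟩ => m8_43
  | ⟨44, _⟩ => m8_44
  | ⟨45, _⟩ => m8_45
  | ⟨46, _⟩ => m8_46
  | ⟨47, _⟩ => m8_47
  | ⟨48, _⟩ => m8_48
  | ⟨49, _⟩ => m8_49
  | ⟨50, _⟩ => m8_50
  | ⟨51, _⟩ => m8_51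
  | ⟨52, _⟩ => m8_52
  | ⟨53, _⟩ => m8_53
  | ⟨54, _⟩ => m8_54
  | ⟨55, _⟩ => m8_55
  | ⟨56, _⟩ => m8_56
  | ⟨57, _⟩ => m8_57
  | ⟨58, _⟩ => m8_58
  | ⟨59, _⟩ => m8_59
  | ⟨60, _⟩ => m8_60
  | ⟨61, _⟩ => m8_61
  | ⟨62, _⟩ => m8_62
  | ⟨63, _⟩ => m8_63
  | ⟨64, _⟩ => m8_64
  | ⟨65, _⟩ => m8_65
  | ⟨66, _⟩ => m8_66
  | ⟨67, _⟩ => m8_67
  | ⟨68, _⟩ => m8_68
  | ⟨69, _⟩ => m8_69
  | ⟨70, _⟩ => m8_70
  | ⟨71, _⟩ => m8_71
  | ⟨72, _⟩ => m8_72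
  | ⟨73, _⟩ => m8_73
  | ⟨74, _⟩ => m8_74
  | ⟨75, _⟩ => m8_75
  | ⟨76, _⟩ => m8_76
  | ⟨77, _⟩ => m8_77
  | ⟨78, _⟩ => m8_78
  | ⟨79, _⟩ => m8_79
  | ⟨80, _⟩ => m8_80
  | ⟨81, _⟩ => m8_81
  | ⟨82, _⟩ => m8_82
  | ⟨83, _⟩ => m8_83
  | ⟨84, _⟩ => m8_84
  | ⟨85, _⟩ => m8_85
  | ⟨86, _⟩ => m8_86
  | ⟨87, _⟩ => m8_87
  | ⟨88, _⟩ => m8_88
  | ⟨89, _⟩ => m8_89
  | ⟨90, _⟩ => m8_90
  | ⟨91, _⟩ => m8_91
  | ⟨92, _⟩ => m8_92
  | ⟨93, _⟩ => m8_93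
  | ⟨94, _⟩ => m8_94
  | ⟨95, _⟩ => m8_95
  | ⟨96, _⟩ => m8_96
  | ⟨97, _⟩ => m8_97
  | ⟨98, _⟩ => m8_98
  | ⟨99, _⟩ => m8_99
  | ⟨100, _⟩ => m8_100
  | ⟨101, _⟩ => m8_101
  | ⟨102, _⟩ => m8_102
  | ⟨103, _⟩ => m8_103
  | ⟨104, _⟩ => m8_104
  | ⟨105, _⟩ => m8_105
  | ⟨106, _⟩ => m8_106
  | ⟨107, _⟩ => m8_107
  | ⟨108, _⟩ => m8_108
  | ⟨109, _⟩ => m8_109
  | ⟨110, _⟩ => m8_110
  | ⟨111, _⟩ => m8_111
  | ⟨112, _⟩ => m8_112
  | ⟨113, _⟩ => m8_113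
  | ⟨114, _⟩ => m8_114
  | ⟨115, _⟩ => m8_115
  | ⟨116, _⟩ => m8_116
  | ⟨117, _⟩ => m8_117
  | ⟨118, _⟩ => m8_118
  | ⟨119, _⟩ => m8_119
  | ⟨120, _⟩ => m8_120
  | ⟨121, _⟩ => m8_121
  | ⟨122, _⟩ => m8_122
  | ⟨123, _⟩ => m8_123
  | ⟨124, _⟩ => m8_124
  | ⟨125, _⟩ => m8_125
  | ⟨126, _⟩ => m8_126
  | ⟨127, _⟩ => m8_127
  | ⟨n+128, h⟩ => absurd h (by omega)
def M8_ch : Fin 1 → Fin 128 → Equiv.Perm (Fin 8)
  | ⟨0, _⟩ => M8_c0
  | ⟨n+1, h⟩ => absurd h (by omega)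
def M8 (i : Idx) : Equiv.Perm (Fin 8) := M8_ch i.1 i.2
theorem ψ0_rep_c0 : ∀ b : Fin 128, ψ0 (rep_c0 b) = M8_c0 b
  | ⟨0, _⟩ => t8_0
  | ⟨1, _⟩ => t8_1
  | ⟨2, _⟩ => t8_2
  | ⟨3, _⟩ => t8_3
  | ⟨4, _⟩ => t8_4
  | ⟨5, _⟩ => t8_5
  | ⟨6, _⟩ => t8_6
  | ⟨7, _⟩ => t8_7
  | ⟨8, _⟩ => t8_8
  | ⟨9, _⟩ => t8_9
  | ⟨10, _⟩ => t8_10
  | ⟨11, _⟩ => t8_11
  | ⟨12, _⟩ => t8_12
  | ⟨13, _⟩ => t8_13
  | ⟨14, _⟩ => t8_14
  | ⟨15, _⟩ => t8_15
  | ⟨16, _⟩ => t8_16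
  | ⟨17, _⟩ => t8_17
  | ⟨18, _⟩ => t8_18
  | ⟨19, _⟩ => t8_19
  | ⟨20, _⟩ => t8_20
  | ⟨21, _⟩ => t8_21
  | ⟨22, _⟩ => t8_22
  | ⟨23, _⟩ => t8_23
  | ⟨24, _⟩ => t8_24
  | ⟨25, _⟩ => t8_25
  | ⟨26, _⟩ => t8_26
  | ⟨27, _⟩ => t8_27
  | ⟨28, _⟩ => t8_28
  | ⟨29, _⟩ => t8_29
  | ⟨30, _⟩ => t8_30
  | ⟨31, _⟩ => t8_31
  | ⟨32, _⟩ => t8_32
  | ⟨33, _⟩ => t8_33
  | ⟨34, _⟩ => t8_34
  | ⟨35, _⟩ => t8_35
  | ⟨36, _⟩ => t8_36
  | ⟨37, _⟩ => t8_37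
  | ⟨38, _⟩ => t8_38
  | ⟨39, _⟩ => t8_39
  | ⟨40, _⟩ => t8_40
  | ⟨41, _⟩ => t8_41
  | ⟨42, _⟩ => t8_42
  | ⟨43, _⟩ => t8_43
  | ⟨44, _⟩ => t8_44
  | ⟨45, _⟩ => t8_45
  | ⟨46, _⟩ => t8_46
  | ⟨47, _⟩ => t8_47
  | ⟨48, _⟩ => t8_48
  | ⟨49, _⟩ => t8_49
  | ⟨50, _⟩ => t8_50
  | ⟨51, _⟩ => t8_51
  | ⟨52, _⟩ => t8_52
  | ⟨53, _⟩ => t8_53
  | ⟨54, _⟩ => t8_54
  | ⟨55, _⟩ => t8_55
  | ⟨56, _⟩ => t8_56
  | ⟨57, _⟩ => t8_57
  | ⟨58, _⟩ => t8_58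
  | ⟨59, _⟩ => t8_59
  | ⟨60, _⟩ => t8_60
  | ⟨61, _⟩ => t8_61
  | ⟨62, _⟩ => t8_62
  | ⟨63, _⟩ => t8_63
  | ⟨64, _⟩ => t8_64
  | ⟨65, _⟩ => t8_65
  | ⟨66, _⟩ => t8_66
  | ⟨67, _⟩ => t8_67
  | ⟨68, _⟩ => t8_68
  | ⟨69, _⟩ => t8_69
  | ⟨70, _⟩ => t8_70
  | ⟨71, _⟩ => t8_71
  | ⟨72, _⟩ => t8_72
  | ⟨73, _⟩ => t8_73
  | ⟨74, _⟩ => t8_74
  | ⟨75, _⟩ => t8_75
  | ⟨76, _⟩ => t8_76
  | ⟨77, _⟩ => t8_77
  | ⟨78, _⟩ => t8_78
  | ⟨79, _⟩ => t8_79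
  | ⟨80, _⟩ => t8_80
  | ⟨81, _⟩ => t8_81
  | ⟨82, _⟩ => t8_82
  | ⟨83, _⟩ => t8_83
  | ⟨84, _⟩ => t8_84
  | ⟨85, _⟩ => t8_85
  | ⟨86, _⟩ => t8_86
  | ⟨87, _⟩ => t8_87
  | ⟨88, _⟩ => t8_88
  | ⟨89, _⟩ => t8_89
  | ⟨90, _⟩ => t8_90
  | ⟨91, _⟩ => t8_91
  | ⟨92, _⟩ => t8_92
  | ⟨93, _⟩ => t8_93
  | ⟨94, _⟩ => t8_94
  | ⟨95, _⟩ => t8_95
  | ⟨96, _⟩ => t8_96
  | ⟨97, _⟩ => t8_97
  | ⟨98, _⟩ => t8_98
  | ⟨99, _⟩ => t8_99
  | ⟨100, _⟩ => t8_100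
  | ⟨101, _⟩ => t8_101
  | ⟨102, _⟩ => t8_102
  | ⟨103, _⟩ => t8_103
  | ⟨104, _⟩ => t8_104
  | ⟨105, _⟩ => t8_105
  | ⟨106, _⟩ => t8_106
  | ⟨107, _⟩ => t8_107
  | ⟨108, _⟩ => t8_108
  | ⟨109, _⟩ => t8_109
  | ⟨110, _⟩ => t8_110
  | ⟨111, _⟩ => t8_111
  | ⟨112, _⟩ => t8_112
  | ⟨113, _⟩ => t8_113
  | ⟨114, _⟩ => t8_114
  | ⟨115, _⟩ => t8_115
  | ⟨116, _⟩ => t8_116
  | ⟨117, _⟩ => t8_117
  | ⟨118, _⟩ => t8_118
  | ⟨119, _⟩ => t8_119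
  | ⟨120, _⟩ => t8_120
  | ⟨121, _⟩ => t8_121
  | ⟨122, _⟩ => t8_122
  | ⟨123, _⟩ => t8_123
  | ⟨124, _⟩ => t8_124
  | ⟨125, _⟩ => t8_125
  | ⟨126, _⟩ => t8_126
  | ⟨127, _⟩ => t8_127
  | ⟨n+128, h⟩ => absurd h (by omega)
theorem ψ0_rep_ch : ∀ (a : Fin 1) (b : Fin 128), ψ0 (rep_ch a b) = M8_ch a b
  | ⟨0, _⟩ => ψ0_rep_c0
  | ⟨n+1, h⟩ => absurd h (by omega)
theorem ψ0_rep (i : Idx) : ψ0 (rep i) = M8 i :=
  ψ0_rep_ch i.1 i.2
def codes8 : List ℕ := [16434824, 16434817, 9954945, 2207660, 9954952, 372652, 14571144, 371070, 2207653, 5017509, 11788826, 14571137, 2206078, 372645, 4988837, 11788378, 11761281, 2207205, 371063, 4987255, 16404570, 5017516, 9953818, 343980, 9954504, 11788819, 14598675, 6851390, 11761288, 372197, 2206071, 5015927, 16405018, 4988844, 9953370, 2178988, 9954497, 11788371, 14598227, 6822718, 371511, 2207212, 5017068, 9925146, 4987262, 14569562,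 2177406, 14570689, 16404563, 6823845, 343973, 11789512, 9953811, 14570003, 6850942, 14598682, 5016382, 6851383, 2206519, 372204, 4988396, 9924698, 5015934, 14570010, 342398, 14570696, 16405011, 6852517, 2178981, 11789505, 9953363, 14569555, 6822270, 14598234, 4987710, 6822711, 371518, 5017061, 11760154, 343525, 11760840, 9925139, 6850935, 2177399, 16405697, 11759699, 6823397, 6823852, 14599361, 2177854, 16406152, 6852076, 5016375, 342839, 16434376, 14599816, 2206526, 4988389, 11759706, 2178533, 11760833, 9924691, 6822263, 342391, 16405704, 11760147, 6852069, 6852524, 14599368, 342846, 16406145, 6823404, 4987703, 2177847, 16434369, 14599809, 16433242, 343532, 9925832, 16433683, 9926273, 11789953, 16433690, 2178540, 9925825, 16433235, 9926280, 11789960]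
def enc8 (σ : Equiv.Perm (Fin 8)) : ℕ :=
  (σ 0).val + 8 * (σ 1).val + 64 * (σ 2).val + 512 * (σ 3).val + 4096 * (σ 4).val
    + 32768 * (σ 5).val + 262144 * (σ 6).val + 2097152 * (σ 7).val

set_option maxRecDepth 100000 in
theorem dec8_M8 : ∀ i : Idx, codes8.idxOf (enc8 (M8 i)) = i.1.val * 128 + i.2.val := by
  decide +kernel

theorem ψ0_rep_inj : ∀ i j : Idx, ψ0 (rep i) = ψ0 (rep j) → i = j := by
  intro i j h
  rw [ψ0_rep, ψ0_rep] at h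
  have h1 := dec8_M8 i
  rw [h, dec8_M8 j] at h1
  have hi := i.2.isLt
  have hj := j.2.isLt
  apply Prod.ext
  · apply Fin.ext; omega
  · apply Fin.ext; omega

theorem rep_inj : Function.Injective rep := by
  intro i j h
  exact ψ0_rep_inj i j (by rw [h])

theorem card_P : Nat.card P = 128 := by
  rw [← Nat.card_congr (Equiv.ofBijective rep ⟨rep_inj, rep_surj⟩), Nat.card_prod, Nat.card_fin,
    Nat.card_fin]

instance finite_P : Finite P := Finite.of_surjective rep rep_surj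

theorem ψ0_inj : Function.Injective ψ0 := by
  intro p p' h
  obtain ⟨i, rfl⟩ := rep_surj p
  obtain ⟨j, rfl⟩ := rep_surj p'
  rw [ψ0_rep_inj i j h]

abbrev G2 := GL ι (ZMod 2)

/-- Position of a coordinate. -/
def enc : ι → ℕ
  | Sum.inl (Sum.inl i) => i.val
  | Sum.inl (Sum.inr i) => 2 + i.val
  | Sum.inr j => 4 + j.val

/-- A matrix over the field with two elements, given by the bitmasks of its rows. -/
def lit (rws : List ℕ) : Matrix ι ι (ZMod 2) :=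
  fun i j => if (rws.getD (enc i) 0).testBit (enc j) then 1 else 0

theorem lit_one : lit [1, 2, 4, 8, 16, 32] = 1 := by decide

theorem invX1 : lit [8, 4, 2, 1, 16, 32] * lit [8, 4, 2, 1, 16, 32] = 1 := by decide
theorem invX2 : lit [8, 4, 2, 1, 16, 32] * lit [8, 4, 2, 1, 16, 32] = 1 := by decide
def hX : G2 := ⟨lit [8, 4, 2, 1, 16, 32], lit [8, 4, 2, 1, 16, 32], invX1, invX2⟩
theorem vX : (hX : Matrix ι ι (ZMod 2)) = lit [8, 4, 2, 1, 16, 32] := rfl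
set_option maxRecDepth 100000 in
theorem isoX : ∀ u : ι → ZMod 2, Cfsg.quadFormMinus 2 (ZMod 2) 1 1 (lit [8, 4, 2, 1, 16, 32] *ᵥ u) =
    Cfsg.quadFormMinus 2 (ZMod 2) 1 1 u := by decide
theorem invY1 : lit [23, 45, 43, 30, 63, 38] * lit [62, 43, 45, 55, 57, 38] = 1 := by decide
theorem invY2 : lit [62, 43, 45, 55, 57, 38] * lit [23, 45, 43, 30, 63, 38] = 1 := by decide
def hY : G2 := ⟨lit [23, 45, 43, 30, 63, 38], lit [62, 43, 45, 55, 57, 38], invY1, invY2⟩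
theorem vY : (hY : Matrix ι ι (ZMod 2)) = lit [23, 45, 43, 30, 63, 38] := rfl
set_option maxRecDepth 100000 in
theorem isoY : ∀ u : ι → ZMod 2, Cfsg.quadFormMinus 2 (ZMod 2) 1 1 (lit [23, 45, 43, 30, 63, 38] *ᵥ u) =
    Cfsg.quadFormMinus 2 (ZMod 2) 1 1 u := by decide
theorem invZ1 : lit [12, 15, 9, 39, 63, 31] * lit [62, 61, 59, 58, 34, 48] = 1 := by decide
theorem invZ2 : lit [62, 61, 59, 58, 34, 48] * lit [12, 15, 9, 39, 63, 31] = 1 := by decide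
def hZ : G2 := ⟨lit [12, 15, 9, 39, 63, 31], lit [62, 61, 59, 58, 34, 48], invZ1, invZ2⟩
theorem vZ : (hZ : Matrix ι ι (ZMod 2)) = lit [12, 15, 9, 39, 63, 31] := rfl
set_option maxRecDepth 100000 in
theorem isoZ : ∀ u : ι → ZMod 2, Cfsg.quadFormMinus 2 (ZMod 2) 1 1 (lit [12, 15, 9, 39, 63, 31] *ᵥ u) =
    Cfsg.quadFormMinus 2 (ZMod 2) 1 1 u := by decide

theorem st0 : lit [12, 15, 9, 39, 63, 31] * lit [12, 15, 9, 39, 63, 31] = lit [46, 45, 43, 21, 13, 18] := by decide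
theorem st1 : lit [46, 45, 43, 21, 13, 18] * lit [12, 15, 9, 39, 63, 31] = lit [62, 61, 59, 58, 34, 48] := by decide
theorem st2 : lit [62, 61, 59, 58, 34, 48] * lit [12, 15, 9, 39, 63, 31] = lit [1, 2, 4, 8, 16, 32] := by decide
theorem st3 : lit [46, 45, 43, 21, 13, 18] * lit [23, 45, 43, 30, 63, 38] = lit [62, 4, 2, 3, 34, 18] := by decide
theorem st4 : lit [62, 4, 2, 3, 34, 18] * lit [12, 15, 9, 39, 63, 31] = lit [1, 9, 15, 3, 16, 48] := by decide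
theorem st5 : lit [1, 9, 15, 3, 16, 48] * lit [23, 45, 43, 30, 63, 38] = lit [23, 9, 15, 58, 63, 25] := by decide
theorem st6 : lit [23, 9, 15, 58, 63, 25] * lit [23, 45, 43, 30, 63, 38] = lit [46, 9, 15, 42, 22, 54] := by decide
theorem st7 : lit [46, 9, 15, 42, 22, 54] * lit [12, 15, 9, 39, 63, 31] = lit [62, 43, 45, 55, 57, 38] := by decide
theorem st8 : lit [62, 43, 45, 55, 57, 38] * lit [23, 45, 43, 30, 63, 38] = lit [1, 2, 4, 8, 16, 32] := by decide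
theorem st9 : lit [62, 61, 59, 58, 34, 48] * lit [23, 45, 43, 30, 63, 38] = lit [1, 59, 61, 42, 11, 25] := by decide
theorem st10 : lit [1, 59, 61, 42, 11, 25] * lit [12, 15, 9, 39, 63, 31] = lit [12, 4, 2, 55, 36, 20] := by decide
theorem st11 : lit [12, 4, 2, 55, 36, 20] * lit [12, 15, 9, 39, 63, 31] = lit [46, 9, 15, 42, 22, 54] := by decide
theorem st12 : lit [12, 15, 9, 39, 63, 31] * lit [23, 45, 43, 30, 63, 38] = lit [53, 15, 9, 55, 22, 48] := by decide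
theorem st13 : lit [53, 15, 9, 55, 22, 48] * lit [8, 4, 2, 1, 16, 32] = lit [58, 15, 9, 62, 22, 48] := by decide
theorem st14 : lit [58, 15, 9, 62, 22, 48] * lit [12, 15, 9, 39, 63, 31] = lit [8, 45, 43, 1, 57, 32] := by decide
theorem st15 : lit [8, 45, 43, 1, 57, 32] * lit [8, 4, 2, 1, 16, 32] = lit [1, 43, 45, 8, 57, 32] := by decide
theorem st16 : lit [1, 43, 45, 8, 57, 32] * lit [12, 15, 9, 39, 63, 31] = lit [12, 59, 61, 39, 11, 31] := by decide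
theorem st17 : lit [12, 59, 61, 39, 11, 31] * lit [23, 45, 43, 30, 63, 38] = lit [53, 61, 59, 55, 36, 48] := by decide
theorem st18 : lit [53, 61, 59, 55, 36, 48] * lit [8, 4, 2, 1, 16, 32] = lit [58, 59, 61, 62, 34, 48] := by decide
theorem st19 : lit [58, 59, 61, 62, 34, 48] * lit [12, 15, 9, 39, 63, 31] = lit [8, 4, 2, 1, 16, 32] := by decide
theorem st20 : lit [8, 4, 2, 1, 16, 32] * lit [8, 4, 2, 1, 16, 32] = lit [1, 2, 4, 8, 16, 32] := by decide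
theorem st21 : lit [53, 15, 9, 55, 22, 48] * lit [23, 45, 43, 30, 63, 38] = lit [37, 15, 9, 8, 57, 25] := by decide
theorem st22 : lit [37, 15, 9, 8, 57, 25] * lit [23, 45, 43, 30, 63, 38] = lit [26, 15, 9, 30, 16, 54] := by decide
theorem st23 : lit [26, 15, 9, 30, 16, 54] * lit [12, 15, 9, 39, 63, 31] = lit [23, 45, 43, 30, 63, 38] := by decide
theorem st24 : lit [23, 45, 43, 30, 63, 38] * lit [23, 45, 43, 30, 63, 38] = lit [46, 4, 2, 39, 22, 32] := by decide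
theorem st25 : lit [46, 4, 2, 39, 22, 32] * lit [23, 45, 43, 30, 63, 38] = lit [62, 43, 45, 55, 57, 38] := by decide
theorem st26 : lit [62, 43, 45, 55, 57, 38] * lit [8, 4, 2, 1, 16, 32] = lit [55, 45, 43, 62, 57, 38] := by decide
theorem st27 : lit [55, 45, 43, 62, 57, 38] * lit [23, 45, 43, 30, 63, 38] = lit [8, 4, 2, 1, 16, 32] := by decide
theorem st28 : lit [46, 45, 43, 21, 13, 18] * lit [8, 4, 2, 1, 16, 32] = lit [39, 43, 45, 26, 11, 20] := by decide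
theorem st29 : lit [39, 43, 45, 26, 11, 20] * lit [12, 15, 9, 39, 63, 31] = lit [21, 59, 61, 23, 36, 54] := by decide
theorem st30 : lit [21, 59, 61, 23, 36, 54] * lit [23, 45, 43, 30, 63, 38] = lit [3, 61, 59, 46, 13, 31] := by decide
theorem st31 : lit [3, 61, 59, 46, 13, 31] * lit [8, 4, 2, 1, 16, 32] = lit [12, 59, 61, 39, 11, 31] := by decide
theorem st32 : lit [62, 4, 2, 3, 34, 18] * lit [23, 45, 43, 30, 63, 38] = lit [1, 43, 45, 58, 11, 18] := by decide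
theorem st33 : lit [1, 43, 45, 58, 11, 18] * lit [12, 15, 9, 39, 63, 31] = lit [12, 59, 61, 8, 36, 48] := by decide
theorem st34 : lit [12, 59, 61, 8, 36, 48] * lit [12, 15, 9, 39, 63, 31] = lit [46, 4, 2, 39, 22, 32] := by decide
theorem st35 : lit [46, 4, 2, 39, 22, 32] * lit [8, 4, 2, 1, 16, 32] = lit [39, 2, 4, 46, 22, 32] := by decide
theorem st36 : lit [39, 2, 4, 46, 22, 32] * lit [23, 45, 43, 30, 63, 38] = lit [55, 45, 43, 62, 57, 38] := by decide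
theorem st37 : lit [55, 45, 43, 62, 57, 38] * lit [8, 4, 2, 1, 16, 32] = lit [62, 43, 45, 55, 57, 38] := by decide
theorem st38 : lit [1, 9, 15, 3, 16, 48] * lit [8, 4, 2, 1, 16, 32] = lit [8, 9, 15, 12, 16, 48] := by decide
theorem st39 : lit [8, 9, 15, 12, 16, 48] * lit [23, 45, 43, 30, 63, 38] = lit [30, 9, 15, 53, 63, 25] := by decide
theorem st40 : lit [30, 9, 15, 53, 63, 25] * lit [8, 4, 2, 1, 16, 32] = lit [23, 9, 15, 58, 63, 25] := by decide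
theorem st41 : lit [30, 9, 15, 53, 63, 25] * lit [23, 45, 43, 30, 63, 38] = lit [39, 9, 15, 37, 22, 54] := by decide
theorem st42 : lit [39, 9, 15, 37, 22, 54] * lit [8, 4, 2, 1, 16, 32] = lit [46, 9, 15, 42, 22, 54] := by decide
theorem st43 : lit [23, 9, 15, 58, 63, 25] * lit [8, 4, 2, 1, 16, 32] = lit [30, 9, 15, 53, 63, 25] := by decide
theorem st44 : lit [1, 9, 15, 3, 16, 48] * lit [12, 15, 9, 39, 63, 31] = lit [12, 43, 45, 3, 63, 32] := by decide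
theorem st45 : lit [12, 43, 45, 3, 63, 32] * lit [8, 4, 2, 1, 16, 32] = lit [3, 45, 43, 12, 63, 32] := by decide
theorem st46 : lit [3, 45, 43, 12, 63, 32] * lit [12, 15, 9, 39, 63, 31] = lit [3, 61, 59, 46, 13, 31] := by decide
theorem st47 : lit [3, 61, 59, 46, 13, 31] * lit [23, 45, 43, 30, 63, 38] = lit [58, 59, 61, 62, 34, 48] := by decide
theorem st48 : lit [1, 2, 4, 8, 16, 32] * lit [8, 4, 2, 1, 16, 32] = lit [8, 4, 2, 1, 16, 32] := by decide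
theorem st49 : lit [1, 2, 4, 8, 16, 32] * lit [23, 45, 43, 30, 63, 38] = lit [23, 45, 43, 30, 63, 38] := by decide
theorem st50 : lit [1, 2, 4, 8, 16, 32] * lit [12, 15, 9, 39, 63, 31] = lit [12, 15, 9, 39, 63, 31] := by decide
theorem st51 : lit [8, 4, 2, 1, 16, 32] * lit [23, 45, 43, 30, 63, 38] = lit [30, 43, 45, 23, 63, 38] := by decide
theorem st52 : lit [8, 4, 2, 1, 16, 32] * lit [12, 15, 9, 39, 63, 31] = lit [39, 9, 15, 12, 63, 31] := by decide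
theorem st53 : lit [23, 45, 43, 30, 63, 38] * lit [12, 15, 9, 39, 63, 31] = lit [53, 61, 59, 30, 13, 25] := by decide
theorem st54 : lit [12, 15, 9, 39, 63, 31] * lit [8, 4, 2, 1, 16, 32] = lit [3, 15, 9, 46, 63, 31] := by decide
theorem st55 : lit [30, 43, 45, 23, 63, 38] * lit [23, 45, 43, 30, 63, 38] = lit [39, 2, 4, 46, 22, 32] := by decide
theorem st56 : lit [30, 43, 45, 23, 63, 38] * lit [12, 15, 9, 39, 63, 31] = lit [30, 59, 61, 53, 13, 25] := by decide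
theorem st57 : lit [39, 9, 15, 12, 63, 31] * lit [8, 4, 2, 1, 16, 32] = lit [46, 9, 15, 3, 63, 31] := by decide
theorem st58 : lit [39, 9, 15, 12, 63, 31] * lit [23, 45, 43, 30, 63, 38] = lit [55, 9, 15, 53, 22, 48] := by decide
theorem st59 : lit [39, 9, 15, 12, 63, 31] * lit [12, 15, 9, 39, 63, 31] = lit [21, 43, 45, 46, 13, 18] := by decide
theorem st60 : lit [46, 4, 2, 39, 22, 32] * lit [12, 15, 9, 39, 63, 31] = lit [62, 9, 15, 21, 57, 31] := by decide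
theorem st61 : lit [53, 61, 59, 30, 13, 25] * lit [8, 4, 2, 1, 16, 32] = lit [58, 59, 61, 23, 11, 25] := by decide
theorem st62 : lit [53, 61, 59, 30, 13, 25] * lit [23, 45, 43, 30, 63, 38] = lit [37, 59, 61, 39, 34, 54] := by decide
theorem st63 : lit [53, 61, 59, 30, 13, 25] * lit [12, 15, 9, 39, 63, 31] = lit [37, 2, 4, 30, 34, 20] := by decide
theorem st64 : lit [3, 15, 9, 46, 63, 31] * lit [23, 45, 43, 30, 63, 38] = lit [58, 15, 9, 62, 22, 48] := by decide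
theorem st65 : lit [3, 15, 9, 46, 63, 31] * lit [12, 15, 9, 39, 63, 31] = lit [3, 45, 43, 62, 13, 18] := by decide
theorem st66 : lit [53, 15, 9, 55, 22, 48] * lit [12, 15, 9, 39, 63, 31] = lit [37, 45, 43, 42, 57, 32] := by decide
theorem st67 : lit [39, 2, 4, 46, 22, 32] * lit [12, 15, 9, 39, 63, 31] = lit [21, 15, 9, 62, 57, 31] := by decide
theorem st68 : lit [30, 59, 61, 53, 13, 25] * lit [8, 4, 2, 1, 16, 32] = lit [23, 61, 59, 58, 11, 25] := by decide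
theorem st69 : lit [30, 59, 61, 53, 13, 25] * lit [23, 45, 43, 30, 63, 38] = lit [39, 61, 59, 37, 34, 54] := by decide
theorem st70 : lit [30, 59, 61, 53, 13, 25] * lit [12, 15, 9, 39, 63, 31] = lit [30, 4, 2, 37, 34, 20] := by decide
theorem st71 : lit [46, 9, 15, 3, 63, 31] * lit [23, 45, 43, 30, 63, 38] = lit [62, 9, 15, 58, 22, 48] := by decide
theorem st72 : lit [46, 9, 15, 3, 63, 31] * lit [12, 15, 9, 39, 63, 31] = lit [62, 43, 45, 3, 13, 18] := by decide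
theorem st73 : lit [55, 9, 15, 53, 22, 48] * lit [23, 45, 43, 30, 63, 38] = lit [8, 9, 15, 37, 57, 25] := by decide
theorem st74 : lit [55, 9, 15, 53, 22, 48] * lit [12, 15, 9, 39, 63, 31] = lit [42, 43, 45, 37, 57, 32] := by decide
theorem st75 : lit [21, 43, 45, 46, 13, 18] * lit [8, 4, 2, 1, 16, 32] = lit [26, 45, 43, 39, 11, 20] := by decide
theorem st76 : lit [21, 43, 45, 46, 13, 18] * lit [23, 45, 43, 30, 63, 38] = lit [3, 2, 4, 62, 34, 18] := by decide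
theorem st77 : lit [21, 43, 45, 46, 13, 18] * lit [12, 15, 9, 39, 63, 31] = lit [58, 59, 61, 62, 34, 48] := by decide
theorem st78 : lit [62, 43, 45, 55, 57, 38] * lit [12, 15, 9, 39, 63, 31] = lit [1, 59, 61, 42, 11, 25] := by decide
theorem st79 : lit [62, 9, 15, 21, 57, 31] * lit [8, 4, 2, 1, 16, 32] = lit [55, 9, 15, 26, 57, 31] := by decide
theorem st80 : lit [62, 9, 15, 21, 57, 31] * lit [23, 45, 43, 30, 63, 38] = lit [1, 9, 15, 3, 16, 48] := by decide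
theorem st81 : lit [62, 9, 15, 21, 57, 31] * lit [12, 15, 9, 39, 63, 31] = lit [1, 43, 45, 58, 11, 18] := by decide
theorem st82 : lit [58, 59, 61, 23, 11, 25] * lit [23, 45, 43, 30, 63, 38] = lit [42, 61, 59, 46, 36, 54] := by decide
theorem st83 : lit [58, 59, 61, 23, 11, 25] * lit [12, 15, 9, 39, 63, 31] = lit [8, 4, 2, 53, 36, 20] := by decide
theorem st84 : lit [37, 59, 61, 39, 34, 54] * lit [23, 45, 43, 30, 63, 38] = lit [26, 61, 59, 55, 11, 31] := by decide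
theorem st85 : lit [37, 59, 61, 39, 34, 54] * lit [12, 15, 9, 39, 63, 31] = lit [26, 4, 2, 21, 16, 38] := by decide
theorem st86 : lit [37, 2, 4, 30, 34, 20] * lit [8, 4, 2, 1, 16, 32] = lit [42, 4, 2, 23, 36, 18] := by decide
theorem st87 : lit [37, 2, 4, 30, 34, 20] * lit [12, 15, 9, 39, 63, 31] = lit [26, 15, 9, 30, 16, 54] := by decide
theorem st88 : lit [58, 15, 9, 62, 22, 48] * lit [23, 45, 43, 30, 63, 38] = lit [42, 15, 9, 1, 57, 25] := by decide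
theorem st89 : lit [3, 45, 43, 62, 13, 18] * lit [8, 4, 2, 1, 16, 32] = lit [12, 43, 45, 55, 11, 20] := by decide
theorem st90 : lit [3, 45, 43, 62, 13, 18] * lit [23, 45, 43, 30, 63, 38] = lit [58, 4, 2, 1, 34, 18] := by decide
theorem st91 : lit [3, 45, 43, 62, 13, 18] * lit [12, 15, 9, 39, 63, 31] = lit [3, 61, 59, 1, 34, 48] := by decide
theorem st92 : lit [39, 43, 45, 26, 11, 20] * lit [23, 45, 43, 30, 63, 38] = lit [55, 2, 4, 12, 36, 20] := by decide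
theorem st93 : lit [62, 61, 59, 58, 34, 48] * lit [8, 4, 2, 1, 16, 32] = lit [55, 59, 61, 53, 36, 48] := by decide
theorem st94 : lit [55, 45, 43, 62, 57, 38] * lit [12, 15, 9, 39, 63, 31] = lit [42, 61, 59, 1, 11, 25] := by decide
theorem st95 : lit [21, 15, 9, 62, 57, 31] * lit [8, 4, 2, 1, 16, 32] = lit [26, 15, 9, 55, 57, 31] := by decide
theorem st96 : lit [21, 15, 9, 62, 57, 31] * lit [23, 45, 43, 30, 63, 38] = lit [3, 15, 9, 1, 16, 48] := by decide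
theorem st97 : lit [21, 15, 9, 62, 57, 31] * lit [12, 15, 9, 39, 63, 31] = lit [58, 45, 43, 1, 11, 18] := by decide
theorem st98 : lit [23, 61, 59, 58, 11, 25] * lit [23, 45, 43, 30, 63, 38] = lit [46, 59, 61, 42, 36, 54] := by decide
theorem st99 : lit [23, 61, 59, 58, 11, 25] * lit [12, 15, 9, 39, 63, 31] = lit [53, 2, 4, 8, 36, 20] := by decide
theorem st100 : lit [39, 61, 59, 37, 34, 54] * lit [23, 45, 43, 30, 63, 38] = lit [55, 59, 61, 26, 11, 31] := by decide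
theorem st101 : lit [39, 61, 59, 37, 34, 54] * lit [12, 15, 9, 39, 63, 31] = lit [21, 2, 4, 26, 16, 38] := by decide
theorem st102 : lit [30, 4, 2, 37, 34, 20] * lit [8, 4, 2, 1, 16, 32] = lit [23, 2, 4, 42, 36, 18] := by decide
theorem st103 : lit [30, 4, 2, 37, 34, 20] * lit [12, 15, 9, 39, 63, 31] = lit [30, 9, 15, 26, 16, 54] := by decide
theorem st104 : lit [62, 9, 15, 58, 22, 48] * lit [23, 45, 43, 30, 63, 38] = lit [1, 9, 15, 42, 57, 25] := by decide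
theorem st105 : lit [62, 9, 15, 58, 22, 48] * lit [12, 15, 9, 39, 63, 31] = lit [1, 43, 45, 8, 57, 32] := by decide
theorem st106 : lit [62, 43, 45, 3, 13, 18] * lit [8, 4, 2, 1, 16, 32] = lit [55, 45, 43, 12, 11, 20] := by decide
theorem st107 : lit [62, 43, 45, 3, 13, 18] * lit [23, 45, 43, 30, 63, 38] = lit [1, 2, 4, 58, 34, 18] := by decide
theorem st108 : lit [62, 43, 45, 3, 13, 18] * lit [12, 15, 9, 39, 63, 31] = lit [1, 59, 61, 3, 34, 48] := by decide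
theorem st109 : lit [26, 45, 43, 39, 11, 20] * lit [23, 45, 43, 30, 63, 38] = lit [12, 4, 2, 55, 36, 20] := by decide
theorem st110 : lit [26, 45, 43, 39, 11, 20] * lit [12, 15, 9, 39, 63, 31] = lit [23, 61, 59, 21, 36, 54] := by decide
theorem st111 : lit [58, 59, 61, 62, 34, 48] * lit [8, 4, 2, 1, 16, 32] = lit [53, 61, 59, 55, 36, 48] := by decide
theorem st112 : lit [1, 59, 61, 42, 11, 25] * lit [8, 4, 2, 1, 16, 32] = lit [8, 61, 59, 37, 13, 25] := by decide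
theorem st113 : lit [55, 9, 15, 26, 57, 31] * lit [23, 45, 43, 30, 63, 38] = lit [8, 9, 15, 12, 16, 48] := by decide
theorem st114 : lit [55, 9, 15, 26, 57, 31] * lit [12, 15, 9, 39, 63, 31] = lit [42, 43, 45, 23, 11, 18] := by decide
theorem st115 : lit [1, 43, 45, 58, 11, 18] * lit [8, 4, 2, 1, 16, 32] = lit [8, 45, 43, 53, 13, 20] := by decide
theorem st116 : lit [42, 61, 59, 46, 36, 54] * lit [23, 45, 43, 30, 63, 38] = lit [21, 59, 61, 62, 13, 31] := by decide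
theorem st117 : lit [42, 61, 59, 46, 36, 54] * lit [12, 15, 9, 39, 63, 31] = lit [55, 2, 4, 62, 22, 38] := by decide
theorem st118 : lit [8, 4, 2, 53, 36, 20] * lit [23, 45, 43, 30, 63, 38] = lit [30, 43, 45, 37, 13, 20] := by decide
theorem st119 : lit [8, 4, 2, 53, 36, 20] * lit [12, 15, 9, 39, 63, 31] = lit [39, 9, 15, 37, 22, 54] := by decide
theorem st120 : lit [26, 15, 9, 30, 16, 54] * lit [8, 4, 2, 1, 16, 32] = lit [21, 15, 9, 23, 16, 54] := by decide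
theorem st121 : lit [8, 45, 43, 1, 57, 32] * lit [23, 45, 43, 30, 63, 38] = lit [30, 4, 2, 23, 16, 38] := by decide
theorem st122 : lit [8, 45, 43, 1, 57, 32] * lit [12, 15, 9, 39, 63, 31] = lit [39, 61, 59, 12, 11, 31] := by decide
theorem st123 : lit [3, 61, 59, 1, 34, 48] * lit [12, 15, 9, 39, 63, 31] = lit [3, 2, 4, 12, 16, 32] := by decide
theorem st124 : lit [55, 2, 4, 12, 36, 20] * lit [12, 15, 9, 39, 63, 31] = lit [42, 15, 9, 46, 22, 54] := by decide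
theorem st125 : lit [21, 59, 61, 23, 36, 54] * lit [8, 4, 2, 1, 16, 32] = lit [26, 61, 59, 30, 34, 54] := by decide
theorem st126 : lit [21, 59, 61, 23, 36, 54] * lit [12, 15, 9, 39, 63, 31] = lit [58, 4, 2, 53, 22, 38] := by decide
theorem st127 : lit [55, 59, 61, 53, 36, 48] * lit [12, 15, 9, 39, 63, 31] = lit [42, 4, 2, 37, 22, 32] := by decide
theorem st128 : lit [42, 61, 59, 1, 11, 25] * lit [8, 4, 2, 1, 16, 32] = lit [37, 59, 61, 8, 13, 25] := by decide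
theorem st129 : lit [26, 15, 9, 55, 57, 31] * lit [23, 45, 43, 30, 63, 38] = lit [12, 15, 9, 8, 16, 48] := by decide
theorem st130 : lit [26, 15, 9, 55, 57, 31] * lit [12, 15, 9, 39, 63, 31] = lit [23, 45, 43, 42, 11, 18] := by decide
theorem st131 : lit [3, 15, 9, 1, 16, 48] * lit [23, 45, 43, 30, 63, 38] = lit [58, 15, 9, 23, 63, 25] := by decide
theorem st132 : lit [3, 15, 9, 1, 16, 48] * lit [12, 15, 9, 39, 63, 31] = lit [3, 45, 43, 12, 63, 32] := by decide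
theorem st133 : lit [58, 45, 43, 1, 11, 18] * lit [8, 4, 2, 1, 16, 32] = lit [53, 43, 45, 8, 13, 20] := by decide
theorem st134 : lit [58, 45, 43, 1, 11, 18] * lit [12, 15, 9, 39, 63, 31] = lit [8, 61, 59, 12, 36, 48] := by decide
theorem st135 : lit [46, 59, 61, 42, 36, 54] * lit [23, 45, 43, 30, 63, 38] = lit [62, 61, 59, 21, 13, 31] := by decide
theorem st136 : lit [46, 59, 61, 42, 36, 54] * lit [12, 15, 9, 39, 63, 31] = lit [62, 4, 2, 55, 22, 38] := by decide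
theorem st137 : lit [53, 2, 4, 8, 36, 20] * lit [23, 45, 43, 30, 63, 38] = lit [37, 45, 43, 30, 13, 20] := by decide
theorem st138 : lit [53, 2, 4, 8, 36, 20] * lit [12, 15, 9, 39, 63, 31] = lit [37, 15, 9, 39, 22, 54] := by decide
theorem st139 : lit [30, 9, 15, 26, 16, 54] * lit [8, 4, 2, 1, 16, 32] = lit [23, 9, 15, 21, 16, 54] := by decide
theorem st140 : lit [1, 43, 45, 8, 57, 32] * lit [23, 45, 43, 30, 63, 38] = lit [23, 2, 4, 30, 16, 38] := by decide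
theorem st141 : lit [1, 59, 61, 3, 34, 48] * lit [12, 15, 9, 39, 63, 31] = lit [12, 4, 2, 3, 16, 32] := by decide
theorem st142 : lit [23, 61, 59, 21, 36, 54] * lit [8, 4, 2, 1, 16, 32] = lit [30, 59, 61, 26, 34, 54] := by decide
theorem st143 : lit [23, 61, 59, 21, 36, 54] * lit [23, 45, 43, 30, 63, 38] = lit [46, 59, 61, 3, 13, 31] := by decide
theorem st144 : lit [23, 61, 59, 21, 36, 54] * lit [12, 15, 9, 39, 63, 31] = lit [53, 2, 4, 58, 22, 38] := by decide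
theorem st145 : lit [53, 61, 59, 55, 36, 48] * lit [12, 15, 9, 39, 63, 31] = lit [37, 2, 4, 42, 22, 32] := by decide
theorem st146 : lit [8, 61, 59, 37, 13, 25] * lit [12, 15, 9, 39, 63, 31] = lit [39, 2, 4, 26, 34, 20] := by decide
theorem st147 : lit [8, 9, 15, 12, 16, 48] * lit [12, 15, 9, 39, 63, 31] = lit [39, 43, 45, 46, 63, 32] := by decide
theorem st148 : lit [42, 43, 45, 23, 11, 18] * lit [23, 45, 43, 30, 63, 38] = lit [21, 2, 4, 46, 36, 18] := by decide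
theorem st149 : lit [39, 9, 15, 37, 22, 54] * lit [12, 15, 9, 39, 63, 31] = lit [21, 43, 45, 26, 57, 38] := by decide
theorem st150 : lit [21, 15, 9, 23, 16, 54] * lit [12, 15, 9, 39, 63, 31] = lit [58, 45, 43, 53, 63, 38] := by decide
theorem st151 : lit [37, 59, 61, 8, 13, 25] * lit [12, 15, 9, 39, 63, 31] = lit [26, 4, 2, 39, 34, 20] := by decide
theorem st152 : lit [12, 15, 9, 8, 16, 48] * lit [23, 45, 43, 30, 63, 38] = lit [53, 15, 9, 30, 63, 25] := by decide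
theorem st153 : lit [12, 15, 9, 8, 16, 48] * lit [12, 15, 9, 39, 63, 31] = lit [46, 45, 43, 39, 63, 32] := by decide
theorem st154 : lit [23, 45, 43, 42, 11, 18] * lit [23, 45, 43, 30, 63, 38] = lit [46, 4, 2, 21, 36, 18] := by decide
theorem st155 : lit [37, 15, 9, 39, 22, 54] * lit [12, 15, 9, 39, 63, 31] = lit [26, 45, 43, 21, 57, 38] := by decide
theorem st156 : lit [23, 9, 15, 21, 16, 54] * lit [12, 15, 9, 39, 63, 31] = lit [53, 43, 45, 58, 63, 38] := by decide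

theorem hG0 : hZ * hZ * hZ * hZ = 1 := by
  apply Units.ext
  simp only [Units.val_mul, Units.val_one, vX, vY, vZ]
  simp only [st0, st1, st2]
  exact lit_one
theorem hG1 : hZ * hZ * hY * hZ * hY * hY * hZ * hY = 1 := by
  apply Units.ext
  simp only [Units.val_mul, Units.val_one, vX, vY, vZ]
  simp only [st0, st3, st4, st5, st6, st7, st8]
  exact lit_one
theorem hG2 : hZ * hZ * hZ * hY * hZ * hZ * hZ * hY = 1 := by
  apply Units.ext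
  simp only [Units.val_mul, Units.val_one, vX, vY, vZ]
  simp only [st0, st1, st9, st10, st11, st7, st8]
  exact lit_one
theorem hG3 : hZ * hY * hX * hZ * hX * hZ * hY * hX * hZ * hX = 1 := by
  apply Units.ext
  simp only [Units.val_mul, Units.val_one, vX, vY, vZ]
  simp only [st12, st13, st14, st15, st16, st17, st18, st19, st20]
  exact lit_one
theorem hG4 : hZ * hY * hY * hY * hZ * hY * hY * hX * hY * hX = 1 := by
  apply Units.ext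
  simp only [Units.val_mul, Units.val_one, vX, vY, vZ]
  simp only [st12, st21, st22, st23, st24, st25, st26, st27, st20]
  exact lit_one
theorem hG5 : hZ * hZ * hX * hZ * hY * hX * hY * hX * hZ * hX = 1 := by
  apply Units.ext
  simp only [Units.val_mul, Units.val_one, vX, vY, vZ]
  simp only [st0, st28, st29, st30, st31, st17, st18, st19, st20]
  exact lit_one
theorem hG6 : hZ * hZ * hY * hY * hZ * hZ * hX * hY * hX * hY = 1 := by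
  apply Units.ext
  simp only [Units.val_mul, Units.val_one, vX, vY, vZ]
  simp only [st0, st3, st32, st33, st34, st35, st36, st37, st8]
  exact lit_one
theorem hG7 : hZ * hZ * hY * hZ * hX * hY * hX * hY * hZ * hY = 1 := by
  apply Units.ext
  simp only [Units.val_mul, Units.val_one, vX, vY, vZ]
  simp only [st0, st3, st4, st38, st39, st40, st6, st7, st8]
  exact lit_one
theorem hG8 : hZ * hZ * hY * hZ * hX * hY * hY * hX * hZ * hY = 1 := by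
  apply Units.ext
  simp only [Units.val_mul, Units.val_one, vX, vY, vZ]
  simp only [st0, st3, st4, st38, st39, st41, st42, st7, st8]
  exact lit_one
theorem hG9 : hZ * hZ * hY * hZ * hY * hX * hY * hX * hZ * hY = 1 := by
  apply Units.ext
  simp only [Units.val_mul, Units.val_one, vX, vY, vZ]
  simp only [st0, st3, st4, st5, st43, st41, st42, st7, st8]
  exact lit_one
theorem hG10 : hZ * hZ * hY * hZ * hY * hY * hZ * hX * hY * hX = 1 := by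
  apply Units.ext
  simp only [Units.val_mul, Units.val_one, vX, vY, vZ]
  simp only [st0, st3, st4, st5, st6, st7, st26, st27, st20]
  exact lit_one
theorem hG11 : hZ * hZ * hY * hZ * hZ * hX * hZ * hY * hZ * hX = 1 := by
  apply Units.ext
  simp only [Units.val_mul, Units.val_one, vX, vY, vZ]
  simp only [st0, st3, st4, st44, st45, st46, st47, st19, st20]
  exact lit_one
theorem hG12 : hZ * hZ * hZ * hY * hZ * hZ * hZ * hX * hY * hX = 1 := by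
  apply Units.ext
  simp only [Units.val_mul, Units.val_one, vX, vY, vZ]
  simp only [st0, st1, st9, st10, st11, st7, st26, st27, st20]
  exact lit_one

theorem lift_relG : ∀ r ∈ rels, FreeGroup.lift ![hX, hY, hZ] r = 1 := by
  intro r hr
  simp only [rels, Set.mem_insert_iff, Set.mem_singleton_iff] at hr
  rcases hr with rfl | rfl | rfl | rfl | rfl | rfl | rfl | rfl | rfl | rfl | rfl | rfl | rfl
  · simp only [map_mul, FreeGroup.lift_apply_of]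
    exact hG0
  · simp only [map_mul, FreeGroup.lift_apply_of]
    exact hG1
  · simp only [map_mul, FreeGroup.lift_apply_of]
    exact hG2
  · simp only [map_mul, FreeGroup.lift_apply_of]
    exact hG3
  · simp only [map_mul, FreeGroup.lift_apply_of]
    exact hG4
  · simp only [map_mul, FreeGroup.lift_apply_of]
    exact hG5
  · simp only [map_mul, FreeGroup.lift_apply_of]
    exact hG6
  · simp only [map_mul, FreeGroup.lift_apply_of]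
    exact hG7
  · simp only [map_mul, FreeGroup.lift_apply_of]
    exact hG8
  · simp only [map_mul, FreeGroup.lift_apply_of]
    exact hG9
  · simp only [map_mul, FreeGroup.lift_apply_of]
    exact hG10
  · simp only [map_mul, FreeGroup.lift_apply_of]
    exact hG11
  · simp only [map_mul, FreeGroup.lift_apply_of]
    exact hG12

noncomputable def φ2 : P →* G2 := PresentedGroup.toGroup lift_relG

theorem φ2_x : φ2 x = hX := by simp [φ2, x]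
theorem φ2_y : φ2 y = hY := by simp [φ2, y]
theorem φ2_z : φ2 z = hZ := by simp [φ2, z]

theorem t2_0 : ((φ2 r0 : G2) : Matrix ι ι (ZMod 2)) = lit [1, 2, 4, 8, 16, 32] := by
  show ((φ2 1 : G2) : Matrix ι ι (ZMod 2)) = _
  rw [map_one, Units.val_one, lit_one]
theorem t2_1 : ((φ2 r1 : G2) : Matrix ι ι (ZMod 2)) = lit [8, 4, 2, 1, 16, 32] := by
  show ((φ2 (r0 * x) : G2) : Matrix ι ι (ZMod 2)) = _
  rw [map_mul, Units.val_mul, t2_0, φ2_x, vX, st48]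
theorem t2_2 : ((φ2 r2 : G2) : Matrix ι ι (ZMod 2)) = lit [23, 45, 43, 30, 63, 38] := by
  show ((φ2 (r0 * y) : G2) : Matrix ι ι (ZMod 2)) = _
  rw [map_mul, Units.val_mul, t2_0, φ2_y, vY, st49]
theorem t2_3 : ((φ2 r3 : G2) : Matrix ι ι (ZMod 2)) = lit [12, 15, 9, 39, 63, 31] := by
  show ((φ2 (r0 * z) : G2) : Matrix ι ι (ZMod 2)) = _
  rw [map_mul, Units.val_mul, t2_0, φ2_z, vZ, st50]
theorem t2_4 : ((φ2 r4 : G2) : Matrix ι ι (ZMod 2)) = lit [30, 43, 45, 23, 63, 38] := by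
  show ((φ2 (r1 * y) : G2) : Matrix ι ι (ZMod 2)) = _
  rw [map_mul, Units.val_mul, t2_1, φ2_y, vY, st51]
theorem t2_5 : ((φ2 r5 : G2) : Matrix ι ι (ZMod 2)) = lit [39, 9, 15, 12, 63, 31] := by
  show ((φ2 (r1 * z) : G2) : Matrix ι ι (ZMod 2)) = _
  rw [map_mul, Units.val_mul, t2_1, φ2_z, vZ, st52]
theorem t2_6 : ((φ2 r6 : G2) : Matrix ι ι (ZMod 2)) = lit [46, 4, 2, 39, 22, 32] := by
  show ((φ2 (r2 * y) : G2) : Matrix ι ι (ZMod 2)) = _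
  rw [map_mul, Units.val_mul, t2_2, φ2_y, vY, st24]
theorem t2_7 : ((φ2 r7 : G2) : Matrix ι ι (ZMod 2)) = lit [53, 61, 59, 30, 13, 25] := by
  show ((φ2 (r2 * z) : G2) : Matrix ι ι (ZMod 2)) = _
  rw [map_mul, Units.val_mul, t2_2, φ2_z, vZ, st53]
theorem t2_8 : ((φ2 r8 : G2) : Matrix ι ι (ZMod 2)) = lit [3, 15, 9, 46, 63, 31] := by
  show ((φ2 (r3 * x) : G2) : Matrix ι ι (ZMod 2)) = _
  rw [map_mul, Units.val_mul, t2_3, φ2_x, vX, st54]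
theorem t2_9 : ((φ2 r9 : G2) : Matrix ι ι (ZMod 2)) = lit [53, 15, 9, 55, 22, 48] := by
  show ((φ2 (r3 * y) : G2) : Matrix ι ι (ZMod 2)) = _
  rw [map_mul, Units.val_mul, t2_3, φ2_y, vY, st12]
theorem t2_10 : ((φ2 r10 : G2) : Matrix ι ι (ZMod 2)) = lit [46, 45, 43, 21, 13, 18] := by
  show ((φ2 (r3 * z) : G2) : Matrix ι ι (ZMod 2)) = _
  rw [map_mul, Units.val_mul, t2_3, φ2_z, vZ, st0]
theorem t2_11 : ((φ2 r11 : G2) : Matrix ι ι (ZMod 2)) = lit [39, 2, 4, 46, 22, 32] := by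
  show ((φ2 (r4 * y) : G2) : Matrix ι ι (ZMod 2)) = _
  rw [map_mul, Units.val_mul, t2_4, φ2_y, vY, st55]
theorem t2_12 : ((φ2 r12 : G2) : Matrix ι ι (ZMod 2)) = lit [30, 59, 61, 53, 13, 25] := by
  show ((φ2 (r4 * z) : G2) : Matrix ι ι (ZMod 2)) = _
  rw [map_mul, Units.val_mul, t2_4, φ2_z, vZ, st56]
theorem t2_13 : ((φ2 r13 : G2) : Matrix ι ι (ZMod 2)) = lit [46, 9, 15, 3, 63, 31] := by
  show ((φ2 (r5 * x) : G2) : Matrix ι ι (ZMod 2)) = _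
  rw [map_mul, Units.val_mul, t2_5, φ2_x, vX, st57]
theorem t2_14 : ((φ2 r14 : G2) : Matrix ι ι (ZMod 2)) = lit [55, 9, 15, 53, 22, 48] := by
  show ((φ2 (r5 * y) : G2) : Matrix ι ι (ZMod 2)) = _
  rw [map_mul, Units.val_mul, t2_5, φ2_y, vY, st58]
theorem t2_15 : ((φ2 r15 : G2) : Matrix ι ι (ZMod 2)) = lit [21, 43, 45, 46, 13, 18] := by
  show ((φ2 (r5 * z) : G2) : Matrix ι ι (ZMod 2)) = _
  rw [map_mul, Units.val_mul, t2_5, φ2_z, vZ, st59]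
theorem t2_16 : ((φ2 r16 : G2) : Matrix ι ι (ZMod 2)) = lit [62, 43, 45, 55, 57, 38] := by
  show ((φ2 (r6 * y) : G2) : Matrix ι ι (ZMod 2)) = _
  rw [map_mul, Units.val_mul, t2_6, φ2_y, vY, st25]
theorem t2_17 : ((φ2 r17 : G2) : Matrix ι ι (ZMod 2)) = lit [62, 9, 15, 21, 57, 31] := by
  show ((φ2 (r6 * z) : G2) : Matrix ι ι (ZMod 2)) = _
  rw [map_mul, Units.val_mul, t2_6, φ2_z, vZ, st60]
theorem t2_18 : ((φ2 r18 : G2) : Matrix ι ι (ZMod 2)) = lit [58, 59, 61, 23, 11, 25] := by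
  show ((φ2 (r7 * x) : G2) : Matrix ι ι (ZMod 2)) = _
  rw [map_mul, Units.val_mul, t2_7, φ2_x, vX, st61]
theorem t2_19 : ((φ2 r19 : G2) : Matrix ι ι (ZMod 2)) = lit [37, 59, 61, 39, 34, 54] := by
  show ((φ2 (r7 * y) : G2) : Matrix ι ι (ZMod 2)) = _
  rw [map_mul, Units.val_mul, t2_7, φ2_y, vY, st62]
theorem t2_20 : ((φ2 r20 : G2) : Matrix ι ι (ZMod 2)) = lit [37, 2, 4, 30, 34, 20] := by
  show ((φ2 (r7 * z) : G2) : Matrix ι ι (ZMod 2)) = _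
  rw [map_mul, Units.val_mul, t2_7, φ2_z, vZ, st63]
theorem t2_21 : ((φ2 r21 : G2) : Matrix ι ι (ZMod 2)) = lit [58, 15, 9, 62, 22, 48] := by
  show ((φ2 (r8 * y) : G2) : Matrix ι ι (ZMod 2)) = _
  rw [map_mul, Units.val_mul, t2_8, φ2_y, vY, st64]
theorem t2_22 : ((φ2 r22 : G2) : Matrix ι ι (ZMod 2)) = lit [3, 45, 43, 62, 13, 18] := by
  show ((φ2 (r8 * z) : G2) : Matrix ι ι (ZMod 2)) = _
  rw [map_mul, Units.val_mul, t2_8, φ2_z, vZ, st65]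
theorem t2_23 : ((φ2 r23 : G2) : Matrix ι ι (ZMod 2)) = lit [37, 15, 9, 8, 57, 25] := by
  show ((φ2 (r9 * y) : G2) : Matrix ι ι (ZMod 2)) = _
  rw [map_mul, Units.val_mul, t2_9, φ2_y, vY, st21]
theorem t2_24 : ((φ2 r24 : G2) : Matrix ι ι (ZMod 2)) = lit [37, 45, 43, 42, 57, 32] := by
  show ((φ2 (r9 * z) : G2) : Matrix ι ι (ZMod 2)) = _
  rw [map_mul, Units.val_mul, t2_9, φ2_z, vZ, st66]
theorem t2_25 : ((φ2 r25 : G2) : Matrix ι ι (ZMod 2)) = lit [39, 43, 45, 26, 11, 20] := by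
  show ((φ2 (r10 * x) : G2) : Matrix ι ι (ZMod 2)) = _
  rw [map_mul, Units.val_mul, t2_10, φ2_x, vX, st28]
theorem t2_26 : ((φ2 r26 : G2) : Matrix ι ι (ZMod 2)) = lit [62, 4, 2, 3, 34, 18] := by
  show ((φ2 (r10 * y) : G2) : Matrix ι ι (ZMod 2)) = _
  rw [map_mul, Units.val_mul, t2_10, φ2_y, vY, st3]
theorem t2_27 : ((φ2 r27 : G2) : Matrix ι ι (ZMod 2)) = lit [62, 61, 59, 58, 34, 48] := by
  show ((φ2 (r10 * z) : G2) : Matrix ι ι (ZMod 2)) = _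
  rw [map_mul, Units.val_mul, t2_10, φ2_z, vZ, st1]
theorem t2_28 : ((φ2 r28 : G2) : Matrix ι ι (ZMod 2)) = lit [55, 45, 43, 62, 57, 38] := by
  show ((φ2 (r11 * y) : G2) : Matrix ι ι (ZMod 2)) = _
  rw [map_mul, Units.val_mul, t2_11, φ2_y, vY, st36]
theorem t2_29 : ((φ2 r29 : G2) : Matrix ι ι (ZMod 2)) = lit [21, 15, 9, 62, 57, 31] := by
  show ((φ2 (r11 * z) : G2) : Matrix ι ι (ZMod 2)) = _
  rw [map_mul, Units.val_mul, t2_11, φ2_z, vZ, st67]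
theorem t2_30 : ((φ2 r30 : G2) : Matrix ι ι (ZMod 2)) = lit [23, 61, 59, 58, 11, 25] := by
  show ((φ2 (r12 * x) : G2) : Matrix ι ι (ZMod 2)) = _
  rw [map_mul, Units.val_mul, t2_12, φ2_x, vX, st68]
theorem t2_31 : ((φ2 r31 : G2) : Matrix ι ι (ZMod 2)) = lit [39, 61, 59, 37, 34, 54] := by
  show ((φ2 (r12 * y) : G2) : Matrix ι ι (ZMod 2)) = _
  rw [map_mul, Units.val_mul, t2_12, φ2_y, vY, st69]
theorem t2_32 : ((φ2 r32 : G2) : Matrix ι ι (ZMod 2)) = lit [30, 4, 2, 37, 34, 20] := by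
  show ((φ2 (r12 * z) : G2) : Matrix ι ι (ZMod 2)) = _
  rw [map_mul, Units.val_mul, t2_12, φ2_z, vZ, st70]
theorem t2_33 : ((φ2 r33 : G2) : Matrix ι ι (ZMod 2)) = lit [62, 9, 15, 58, 22, 48] := by
  show ((φ2 (r13 * y) : G2) : Matrix ι ι (ZMod 2)) = _
  rw [map_mul, Units.val_mul, t2_13, φ2_y, vY, st71]
theorem t2_34 : ((φ2 r34 : G2) : Matrix ι ι (ZMod 2)) = lit [62, 43, 45, 3, 13, 18] := by
  show ((φ2 (r13 * z) : G2) : Matrix ι ι (ZMod 2)) = _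
  rw [map_mul, Units.val_mul, t2_13, φ2_z, vZ, st72]
theorem t2_35 : ((φ2 r35 : G2) : Matrix ι ι (ZMod 2)) = lit [8, 9, 15, 37, 57, 25] := by
  show ((φ2 (r14 * y) : G2) : Matrix ι ι (ZMod 2)) = _
  rw [map_mul, Units.val_mul, t2_14, φ2_y, vY, st73]
theorem t2_36 : ((φ2 r36 : G2) : Matrix ι ι (ZMod 2)) = lit [42, 43, 45, 37, 57, 32] := by
  show ((φ2 (r14 * z) : G2) : Matrix ι ι (ZMod 2)) = _
  rw [map_mul, Units.val_mul, t2_14, φ2_z, vZ, st74]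
theorem t2_37 : ((φ2 r37 : G2) : Matrix ι ι (ZMod 2)) = lit [26, 45, 43, 39, 11, 20] := by
  show ((φ2 (r15 * x) : G2) : Matrix ι ι (ZMod 2)) = _
  rw [map_mul, Units.val_mul, t2_15, φ2_x, vX, st75]
theorem t2_38 : ((φ2 r38 : G2) : Matrix ι ι (ZMod 2)) = lit [3, 2, 4, 62, 34, 18] := by
  show ((φ2 (r15 * y) : G2) : Matrix ι ι (ZMod 2)) = _
  rw [map_mul, Units.val_mul, t2_15, φ2_y, vY, st76]
theorem t2_39 : ((φ2 r39 : G2) : Matrix ι ι (ZMod 2)) = lit [58, 59, 61, 62, 34, 48] := by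
  show ((φ2 (r15 * z) : G2) : Matrix ι ι (ZMod 2)) = _
  rw [map_mul, Units.val_mul, t2_15, φ2_z, vZ, st77]
theorem t2_40 : ((φ2 r40 : G2) : Matrix ι ι (ZMod 2)) = lit [1, 59, 61, 42, 11, 25] := by
  show ((φ2 (r16 * z) : G2) : Matrix ι ι (ZMod 2)) = _
  rw [map_mul, Units.val_mul, t2_16, φ2_z, vZ, st78]
theorem t2_41 : ((φ2 r41 : G2) : Matrix ι ι (ZMod 2)) = lit [55, 9, 15, 26, 57, 31] := by
  show ((φ2 (r17 * x) : G2) : Matrix ι ι (ZMod 2)) = _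
  rw [map_mul, Units.val_mul, t2_17, φ2_x, vX, st79]
theorem t2_42 : ((φ2 r42 : G2) : Matrix ι ι (ZMod 2)) = lit [1, 9, 15, 3, 16, 48] := by
  show ((φ2 (r17 * y) : G2) : Matrix ι ι (ZMod 2)) = _
  rw [map_mul, Units.val_mul, t2_17, φ2_y, vY, st80]
theorem t2_43 : ((φ2 r43 : G2) : Matrix ι ι (ZMod 2)) = lit [1, 43, 45, 58, 11, 18] := by
  show ((φ2 (r17 * z) : G2) : Matrix ι ι (ZMod 2)) = _
  rw [map_mul, Units.val_mul, t2_17, φ2_z, vZ, st81]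
theorem t2_44 : ((φ2 r44 : G2) : Matrix ι ι (ZMod 2)) = lit [42, 61, 59, 46, 36, 54] := by
  show ((φ2 (r18 * y) : G2) : Matrix ι ι (ZMod 2)) = _
  rw [map_mul, Units.val_mul, t2_18, φ2_y, vY, st82]
theorem t2_45 : ((φ2 r45 : G2) : Matrix ι ι (ZMod 2)) = lit [8, 4, 2, 53, 36, 20] := by
  show ((φ2 (r18 * z) : G2) : Matrix ι ι (ZMod 2)) = _
  rw [map_mul, Units.val_mul, t2_18, φ2_z, vZ, st83]
theorem t2_46 : ((φ2 r46 : G2) : Matrix ι ι (ZMod 2)) = lit [26, 61, 59, 55, 11, 31] := by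
  show ((φ2 (r19 * y) : G2) : Matrix ι ι (ZMod 2)) = _
  rw [map_mul, Units.val_mul, t2_19, φ2_y, vY, st84]
theorem t2_47 : ((φ2 r47 : G2) : Matrix ι ι (ZMod 2)) = lit [26, 4, 2, 21, 16, 38] := by
  show ((φ2 (r19 * z) : G2) : Matrix ι ι (ZMod 2)) = _
  rw [map_mul, Units.val_mul, t2_19, φ2_z, vZ, st85]
theorem t2_48 : ((φ2 r48 : G2) : Matrix ι ι (ZMod 2)) = lit [42, 4, 2, 23, 36, 18] := by
  show ((φ2 (r20 * x) : G2) : Matrix ι ι (ZMod 2)) = _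
  rw [map_mul, Units.val_mul, t2_20, φ2_x, vX, st86]
theorem t2_49 : ((φ2 r49 : G2) : Matrix ι ι (ZMod 2)) = lit [26, 15, 9, 30, 16, 54] := by
  show ((φ2 (r20 * z) : G2) : Matrix ι ι (ZMod 2)) = _
  rw [map_mul, Units.val_mul, t2_20, φ2_z, vZ, st87]
theorem t2_50 : ((φ2 r50 : G2) : Matrix ι ι (ZMod 2)) = lit [42, 15, 9, 1, 57, 25] := by
  show ((φ2 (r21 * y) : G2) : Matrix ι ι (ZMod 2)) = _
  rw [map_mul, Units.val_mul, t2_21, φ2_y, vY, st88]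
theorem t2_51 : ((φ2 r51 : G2) : Matrix ι ι (ZMod 2)) = lit [8, 45, 43, 1, 57, 32] := by
  show ((φ2 (r21 * z) : G2) : Matrix ι ι (ZMod 2)) = _
  rw [map_mul, Units.val_mul, t2_21, φ2_z, vZ, st14]
theorem t2_52 : ((φ2 r52 : G2) : Matrix ι ι (ZMod 2)) = lit [12, 43, 45, 55, 11, 20] := by
  show ((φ2 (r22 * x) : G2) : Matrix ι ι (ZMod 2)) = _
  rw [map_mul, Units.val_mul, t2_22, φ2_x, vX, st89]
theorem t2_53 : ((φ2 r53 : G2) : Matrix ι ι (ZMod 2)) = lit [58, 4, 2, 1, 34, 18] := by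
  show ((φ2 (r22 * y) : G2) : Matrix ι ι (ZMod 2)) = _
  rw [map_mul, Units.val_mul, t2_22, φ2_y, vY, st90]
theorem t2_54 : ((φ2 r54 : G2) : Matrix ι ι (ZMod 2)) = lit [3, 61, 59, 1, 34, 48] := by
  show ((φ2 (r22 * z) : G2) : Matrix ι ι (ZMod 2)) = _
  rw [map_mul, Units.val_mul, t2_22, φ2_z, vZ, st91]
theorem t2_55 : ((φ2 r55 : G2) : Matrix ι ι (ZMod 2)) = lit [55, 2, 4, 12, 36, 20] := by
  show ((φ2 (r25 * y) : G2) : Matrix ι ι (ZMod 2)) = _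
  rw [map_mul, Units.val_mul, t2_25, φ2_y, vY, st92]
theorem t2_56 : ((φ2 r56 : G2) : Matrix ι ι (ZMod 2)) = lit [21, 59, 61, 23, 36, 54] := by
  show ((φ2 (r25 * z) : G2) : Matrix ι ι (ZMod 2)) = _
  rw [map_mul, Units.val_mul, t2_25, φ2_z, vZ, st29]
theorem t2_57 : ((φ2 r57 : G2) : Matrix ι ι (ZMod 2)) = lit [55, 59, 61, 53, 36, 48] := by
  show ((φ2 (r27 * x) : G2) : Matrix ι ι (ZMod 2)) = _
  rw [map_mul, Units.val_mul, t2_27, φ2_x, vX, st93]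
theorem t2_58 : ((φ2 r58 : G2) : Matrix ι ι (ZMod 2)) = lit [42, 61, 59, 1, 11, 25] := by
  show ((φ2 (r28 * z) : G2) : Matrix ι ι (ZMod 2)) = _
  rw [map_mul, Units.val_mul, t2_28, φ2_z, vZ, st94]
theorem t2_59 : ((φ2 r59 : G2) : Matrix ι ι (ZMod 2)) = lit [26, 15, 9, 55, 57, 31] := by
  show ((φ2 (r29 * x) : G2) : Matrix ι ι (ZMod 2)) = _
  rw [map_mul, Units.val_mul, t2_29, φ2_x, vX, st95]
theorem t2_60 : ((φ2 r60 : G2) : Matrix ι ι (ZMod 2)) = lit [3, 15, 9, 1, 16, 48] := by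
  show ((φ2 (r29 * y) : G2) : Matrix ι ι (ZMod 2)) = _
  rw [map_mul, Units.val_mul, t2_29, φ2_y, vY, st96]
theorem t2_61 : ((φ2 r61 : G2) : Matrix ι ι (ZMod 2)) = lit [58, 45, 43, 1, 11, 18] := by
  show ((φ2 (r29 * z) : G2) : Matrix ι ι (ZMod 2)) = _
  rw [map_mul, Units.val_mul, t2_29, φ2_z, vZ, st97]
theorem t2_62 : ((φ2 r62 : G2) : Matrix ι ι (ZMod 2)) = lit [46, 59, 61, 42, 36, 54] := by
  show ((φ2 (r30 * y) : G2) : Matrix ι ι (ZMod 2)) = _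
  rw [map_mul, Units.val_mul, t2_30, φ2_y, vY, st98]
theorem t2_63 : ((φ2 r63 : G2) : Matrix ι ι (ZMod 2)) = lit [53, 2, 4, 8, 36, 20] := by
  show ((φ2 (r30 * z) : G2) : Matrix ι ι (ZMod 2)) = _
  rw [map_mul, Units.val_mul, t2_30, φ2_z, vZ, st99]
theorem t2_64 : ((φ2 r64 : G2) : Matrix ι ι (ZMod 2)) = lit [55, 59, 61, 26, 11, 31] := by
  show ((φ2 (r31 * y) : G2) : Matrix ι ι (ZMod 2)) = _
  rw [map_mul, Units.val_mul, t2_31, φ2_y, vY, st100]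
theorem t2_65 : ((φ2 r65 : G2) : Matrix ι ι (ZMod 2)) = lit [21, 2, 4, 26, 16, 38] := by
  show ((φ2 (r31 * z) : G2) : Matrix ι ι (ZMod 2)) = _
  rw [map_mul, Units.val_mul, t2_31, φ2_z, vZ, st101]
theorem t2_66 : ((φ2 r66 : G2) : Matrix ι ι (ZMod 2)) = lit [23, 2, 4, 42, 36, 18] := by
  show ((φ2 (r32 * x) : G2) : Matrix ι ι (ZMod 2)) = _
  rw [map_mul, Units.val_mul, t2_32, φ2_x, vX, st102]
theorem t2_67 : ((φ2 r67 : G2) : Matrix ι ι (ZMod 2)) = lit [30, 9, 15, 26, 16, 54] := by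
  show ((φ2 (r32 * z) : G2) : Matrix ι ι (ZMod 2)) = _
  rw [map_mul, Units.val_mul, t2_32, φ2_z, vZ, st103]
theorem t2_68 : ((φ2 r68 : G2) : Matrix ι ι (ZMod 2)) = lit [1, 9, 15, 42, 57, 25] := by
  show ((φ2 (r33 * y) : G2) : Matrix ι ι (ZMod 2)) = _
  rw [map_mul, Units.val_mul, t2_33, φ2_y, vY, st104]
theorem t2_69 : ((φ2 r69 : G2) : Matrix ι ι (ZMod 2)) = lit [1, 43, 45, 8, 57, 32] := by
  show ((φ2 (r33 * z) : G2) : Matrix ι ι (ZMod 2)) = _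
  rw [map_mul, Units.val_mul, t2_33, φ2_z, vZ, st105]
theorem t2_70 : ((φ2 r70 : G2) : Matrix ι ι (ZMod 2)) = lit [55, 45, 43, 12, 11, 20] := by
  show ((φ2 (r34 * x) : G2) : Matrix ι ι (ZMod 2)) = _
  rw [map_mul, Units.val_mul, t2_34, φ2_x, vX, st106]
theorem t2_71 : ((φ2 r71 : G2) : Matrix ι ι (ZMod 2)) = lit [1, 2, 4, 58, 34, 18] := by
  show ((φ2 (r34 * y) : G2) : Matrix ι ι (ZMod 2)) = _
  rw [map_mul, Units.val_mul, t2_34, φ2_y, vY, st107]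
theorem t2_72 : ((φ2 r72 : G2) : Matrix ι ι (ZMod 2)) = lit [1, 59, 61, 3, 34, 48] := by
  show ((φ2 (r34 * z) : G2) : Matrix ι ι (ZMod 2)) = _
  rw [map_mul, Units.val_mul, t2_34, φ2_z, vZ, st108]
theorem t2_73 : ((φ2 r73 : G2) : Matrix ι ι (ZMod 2)) = lit [12, 4, 2, 55, 36, 20] := by
  show ((φ2 (r37 * y) : G2) : Matrix ι ι (ZMod 2)) = _
  rw [map_mul, Units.val_mul, t2_37, φ2_y, vY, st109]
theorem t2_74 : ((φ2 r74 : G2) : Matrix ι ι (ZMod 2)) = lit [23, 61, 59, 21, 36, 54] := by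
  show ((φ2 (r37 * z) : G2) : Matrix ι ι (ZMod 2)) = _
  rw [map_mul, Units.val_mul, t2_37, φ2_z, vZ, st110]
theorem t2_75 : ((φ2 r75 : G2) : Matrix ι ι (ZMod 2)) = lit [53, 61, 59, 55, 36, 48] := by
  show ((φ2 (r39 * x) : G2) : Matrix ι ι (ZMod 2)) = _
  rw [map_mul, Units.val_mul, t2_39, φ2_x, vX, st111]
theorem t2_76 : ((φ2 r76 : G2) : Matrix ι ι (ZMod 2)) = lit [8, 61, 59, 37, 13, 25] := by
  show ((φ2 (r40 * x) : G2) : Matrix ι ι (ZMod 2)) = _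
  rw [map_mul, Units.val_mul, t2_40, φ2_x, vX, st112]
theorem t2_77 : ((φ2 r77 : G2) : Matrix ι ι (ZMod 2)) = lit [8, 9, 15, 12, 16, 48] := by
  show ((φ2 (r41 * y) : G2) : Matrix ι ι (ZMod 2)) = _
  rw [map_mul, Units.val_mul, t2_41, φ2_y, vY, st113]
theorem t2_78 : ((φ2 r78 : G2) : Matrix ι ι (ZMod 2)) = lit [42, 43, 45, 23, 11, 18] := by
  show ((φ2 (r41 * z) : G2) : Matrix ι ι (ZMod 2)) = _
  rw [map_mul, Units.val_mul, t2_41, φ2_z, vZ, st114]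
theorem t2_79 : ((φ2 r79 : G2) : Matrix ι ι (ZMod 2)) = lit [23, 9, 15, 58, 63, 25] := by
  show ((φ2 (r42 * y) : G2) : Matrix ι ι (ZMod 2)) = _
  rw [map_mul, Units.val_mul, t2_42, φ2_y, vY, st5]
theorem t2_80 : ((φ2 r80 : G2) : Matrix ι ι (ZMod 2)) = lit [12, 43, 45, 3, 63, 32] := by
  show ((φ2 (r42 * z) : G2) : Matrix ι ι (ZMod 2)) = _
  rw [map_mul, Units.val_mul, t2_42, φ2_z, vZ, st44]
theorem t2_81 : ((φ2 r81 : G2) : Matrix ι ι (ZMod 2)) = lit [8, 45, 43, 53, 13, 20] := by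
  show ((φ2 (r43 * x) : G2) : Matrix ι ι (ZMod 2)) = _
  rw [map_mul, Units.val_mul, t2_43, φ2_x, vX, st115]
theorem t2_82 : ((φ2 r82 : G2) : Matrix ι ι (ZMod 2)) = lit [12, 59, 61, 8, 36, 48] := by
  show ((φ2 (r43 * z) : G2) : Matrix ι ι (ZMod 2)) = _
  rw [map_mul, Units.val_mul, t2_43, φ2_z, vZ, st33]
theorem t2_83 : ((φ2 r83 : G2) : Matrix ι ι (ZMod 2)) = lit [21, 59, 61, 62, 13, 31] := by
  show ((φ2 (r44 * y) : G2) : Matrix ι ι (ZMod 2)) = _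
  rw [map_mul, Units.val_mul, t2_44, φ2_y, vY, st116]
theorem t2_84 : ((φ2 r84 : G2) : Matrix ι ι (ZMod 2)) = lit [55, 2, 4, 62, 22, 38] := by
  show ((φ2 (r44 * z) : G2) : Matrix ι ι (ZMod 2)) = _
  rw [map_mul, Units.val_mul, t2_44, φ2_z, vZ, st117]
theorem t2_85 : ((φ2 r85 : G2) : Matrix ι ι (ZMod 2)) = lit [30, 43, 45, 37, 13, 20] := by
  show ((φ2 (r45 * y) : G2) : Matrix ι ι (ZMod 2)) = _
  rw [map_mul, Units.val_mul, t2_45, φ2_y, vY, st118]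
theorem t2_86 : ((φ2 r86 : G2) : Matrix ι ι (ZMod 2)) = lit [39, 9, 15, 37, 22, 54] := by
  show ((φ2 (r45 * z) : G2) : Matrix ι ι (ZMod 2)) = _
  rw [map_mul, Units.val_mul, t2_45, φ2_z, vZ, st119]
theorem t2_87 : ((φ2 r87 : G2) : Matrix ι ι (ZMod 2)) = lit [21, 15, 9, 23, 16, 54] := by
  show ((φ2 (r49 * x) : G2) : Matrix ι ι (ZMod 2)) = _
  rw [map_mul, Units.val_mul, t2_49, φ2_x, vX, st120]
theorem t2_88 : ((φ2 r88 : G2) : Matrix ι ι (ZMod 2)) = lit [30, 4, 2, 23, 16, 38] := by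
  show ((φ2 (r51 * y) : G2) : Matrix ι ι (ZMod 2)) = _
  rw [map_mul, Units.val_mul, t2_51, φ2_y, vY, st121]
theorem t2_89 : ((φ2 r89 : G2) : Matrix ι ι (ZMod 2)) = lit [39, 61, 59, 12, 11, 31] := by
  show ((φ2 (r51 * z) : G2) : Matrix ι ι (ZMod 2)) = _
  rw [map_mul, Units.val_mul, t2_51, φ2_z, vZ, st122]
theorem t2_90 : ((φ2 r90 : G2) : Matrix ι ι (ZMod 2)) = lit [3, 2, 4, 12, 16, 32] := by
  show ((φ2 (r54 * z) : G2) : Matrix ι ι (ZMod 2)) = _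
  rw [map_mul, Units.val_mul, t2_54, φ2_z, vZ, st123]
theorem t2_91 : ((φ2 r91 : G2) : Matrix ι ι (ZMod 2)) = lit [42, 15, 9, 46, 22, 54] := by
  show ((φ2 (r55 * z) : G2) : Matrix ι ι (ZMod 2)) = _
  rw [map_mul, Units.val_mul, t2_55, φ2_z, vZ, st124]
theorem t2_92 : ((φ2 r92 : G2) : Matrix ι ι (ZMod 2)) = lit [26, 61, 59, 30, 34, 54] := by
  show ((φ2 (r56 * x) : G2) : Matrix ι ι (ZMod 2)) = _
  rw [map_mul, Units.val_mul, t2_56, φ2_x, vX, st125]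
theorem t2_93 : ((φ2 r93 : G2) : Matrix ι ι (ZMod 2)) = lit [3, 61, 59, 46, 13, 31] := by
  show ((φ2 (r56 * y) : G2) : Matrix ι ι (ZMod 2)) = _
  rw [map_mul, Units.val_mul, t2_56, φ2_y, vY, st30]
theorem t2_94 : ((φ2 r94 : G2) : Matrix ι ι (ZMod 2)) = lit [58, 4, 2, 53, 22, 38] := by
  show ((φ2 (r56 * z) : G2) : Matrix ι ι (ZMod 2)) = _
  rw [map_mul, Units.val_mul, t2_56, φ2_z, vZ, st126]
theorem t2_95 : ((φ2 r95 : G2) : Matrix ι ι (ZMod 2)) = lit [42, 4, 2, 37, 22, 32] := by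
  show ((φ2 (r57 * z) : G2) : Matrix ι ι (ZMod 2)) = _
  rw [map_mul, Units.val_mul, t2_57, φ2_z, vZ, st127]
theorem t2_96 : ((φ2 r96 : G2) : Matrix ι ι (ZMod 2)) = lit [37, 59, 61, 8, 13, 25] := by
  show ((φ2 (r58 * x) : G2) : Matrix ι ι (ZMod 2)) = _
  rw [map_mul, Units.val_mul, t2_58, φ2_x, vX, st128]
theorem t2_97 : ((φ2 r97 : G2) : Matrix ι ι (ZMod 2)) = lit [12, 15, 9, 8, 16, 48] := by
  show ((φ2 (r59 * y) : G2) : Matrix ι ι (ZMod 2)) = _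
  rw [map_mul, Units.val_mul, t2_59, φ2_y, vY, st129]
theorem t2_98 : ((φ2 r98 : G2) : Matrix ι ι (ZMod 2)) = lit [23, 45, 43, 42, 11, 18] := by
  show ((φ2 (r59 * z) : G2) : Matrix ι ι (ZMod 2)) = _
  rw [map_mul, Units.val_mul, t2_59, φ2_z, vZ, st130]
theorem t2_99 : ((φ2 r99 : G2) : Matrix ι ι (ZMod 2)) = lit [58, 15, 9, 23, 63, 25] := by
  show ((φ2 (r60 * y) : G2) : Matrix ι ι (ZMod 2)) = _
  rw [map_mul, Units.val_mul, t2_60, φ2_y, vY, st131]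
theorem t2_100 : ((φ2 r100 : G2) : Matrix ι ι (ZMod 2)) = lit [3, 45, 43, 12, 63, 32] := by
  show ((φ2 (r60 * z) : G2) : Matrix ι ι (ZMod 2)) = _
  rw [map_mul, Units.val_mul, t2_60, φ2_z, vZ, st132]
theorem t2_101 : ((φ2 r101 : G2) : Matrix ι ι (ZMod 2)) = lit [53, 43, 45, 8, 13, 20] := by
  show ((φ2 (r61 * x) : G2) : Matrix ι ι (ZMod 2)) = _
  rw [map_mul, Units.val_mul, t2_61, φ2_x, vX, st133]
theorem t2_102 : ((φ2 r102 : G2) : Matrix ι ι (ZMod 2)) = lit [8, 61, 59, 12, 36, 48] := by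
  show ((φ2 (r61 * z) : G2) : Matrix ι ι (ZMod 2)) = _
  rw [map_mul, Units.val_mul, t2_61, φ2_z, vZ, st134]
theorem t2_103 : ((φ2 r103 : G2) : Matrix ι ι (ZMod 2)) = lit [62, 61, 59, 21, 13, 31] := by
  show ((φ2 (r62 * y) : G2) : Matrix ι ι (ZMod 2)) = _
  rw [map_mul, Units.val_mul, t2_62, φ2_y, vY, st135]
theorem t2_104 : ((φ2 r104 : G2) : Matrix ι ι (ZMod 2)) = lit [62, 4, 2, 55, 22, 38] := by
  show ((φ2 (r62 * z) : G2) : Matrix ι ι (ZMod 2)) = _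
  rw [map_mul, Units.val_mul, t2_62, φ2_z, vZ, st136]
theorem t2_105 : ((φ2 r105 : G2) : Matrix ι ι (ZMod 2)) = lit [37, 45, 43, 30, 13, 20] := by
  show ((φ2 (r63 * y) : G2) : Matrix ι ι (ZMod 2)) = _
  rw [map_mul, Units.val_mul, t2_63, φ2_y, vY, st137]
theorem t2_106 : ((φ2 r106 : G2) : Matrix ι ι (ZMod 2)) = lit [37, 15, 9, 39, 22, 54] := by
  show ((φ2 (r63 * z) : G2) : Matrix ι ι (ZMod 2)) = _
  rw [map_mul, Units.val_mul, t2_63, φ2_z, vZ, st138]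
theorem t2_107 : ((φ2 r107 : G2) : Matrix ι ι (ZMod 2)) = lit [23, 9, 15, 21, 16, 54] := by
  show ((φ2 (r67 * x) : G2) : Matrix ι ι (ZMod 2)) = _
  rw [map_mul, Units.val_mul, t2_67, φ2_x, vX, st139]
theorem t2_108 : ((φ2 r108 : G2) : Matrix ι ι (ZMod 2)) = lit [23, 2, 4, 30, 16, 38] := by
  show ((φ2 (r69 * y) : G2) : Matrix ι ι (ZMod 2)) = _
  rw [map_mul, Units.val_mul, t2_69, φ2_y, vY, st140]
theorem t2_109 : ((φ2 r109 : G2) : Matrix ι ι (ZMod 2)) = lit [12, 59, 61, 39, 11, 31] := by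
  show ((φ2 (r69 * z) : G2) : Matrix ι ι (ZMod 2)) = _
  rw [map_mul, Units.val_mul, t2_69, φ2_z, vZ, st16]
theorem t2_110 : ((φ2 r110 : G2) : Matrix ι ι (ZMod 2)) = lit [12, 4, 2, 3, 16, 32] := by
  show ((φ2 (r72 * z) : G2) : Matrix ι ι (ZMod 2)) = _
  rw [map_mul, Units.val_mul, t2_72, φ2_z, vZ, st141]
theorem t2_111 : ((φ2 r111 : G2) : Matrix ι ι (ZMod 2)) = lit [46, 9, 15, 42, 22, 54] := by
  show ((φ2 (r73 * z) : G2) : Matrix ι ι (ZMod 2)) = _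
  rw [map_mul, Units.val_mul, t2_73, φ2_z, vZ, st11]
theorem t2_112 : ((φ2 r112 : G2) : Matrix ι ι (ZMod 2)) = lit [30, 59, 61, 26, 34, 54] := by
  show ((φ2 (r74 * x) : G2) : Matrix ι ι (ZMod 2)) = _
  rw [map_mul, Units.val_mul, t2_74, φ2_x, vX, st142]
theorem t2_113 : ((φ2 r113 : G2) : Matrix ι ι (ZMod 2)) = lit [46, 59, 61, 3, 13, 31] := by
  show ((φ2 (r74 * y) : G2) : Matrix ι ι (ZMod 2)) = _
  rw [map_mul, Units.val_mul, t2_74, φ2_y, vY, st143]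
theorem t2_114 : ((φ2 r114 : G2) : Matrix ι ι (ZMod 2)) = lit [53, 2, 4, 58, 22, 38] := by
  show ((φ2 (r74 * z) : G2) : Matrix ι ι (ZMod 2)) = _
  rw [map_mul, Units.val_mul, t2_74, φ2_z, vZ, st144]
theorem t2_115 : ((φ2 r115 : G2) : Matrix ι ι (ZMod 2)) = lit [37, 2, 4, 42, 22, 32] := by
  show ((φ2 (r75 * z) : G2) : Matrix ι ι (ZMod 2)) = _
  rw [map_mul, Units.val_mul, t2_75, φ2_z, vZ, st145]
theorem t2_116 : ((φ2 r116 : G2) : Matrix ι ι (ZMod 2)) = lit [39, 2, 4, 26, 34, 20] := by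
  show ((φ2 (r76 * z) : G2) : Matrix ι ι (ZMod 2)) = _
  rw [map_mul, Units.val_mul, t2_76, φ2_z, vZ, st146]
theorem t2_117 : ((φ2 r117 : G2) : Matrix ι ι (ZMod 2)) = lit [30, 9, 15, 53, 63, 25] := by
  show ((φ2 (r77 * y) : G2) : Matrix ι ι (ZMod 2)) = _
  rw [map_mul, Units.val_mul, t2_77, φ2_y, vY, st39]
theorem t2_118 : ((φ2 r118 : G2) : Matrix ι ι (ZMod 2)) = lit [39, 43, 45, 46, 63, 32] := by
  show ((φ2 (r77 * z) : G2) : Matrix ι ι (ZMod 2)) = _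
  rw [map_mul, Units.val_mul, t2_77, φ2_z, vZ, st147]
theorem t2_119 : ((φ2 r119 : G2) : Matrix ι ι (ZMod 2)) = lit [21, 2, 4, 46, 36, 18] := by
  show ((φ2 (r78 * y) : G2) : Matrix ι ι (ZMod 2)) = _
  rw [map_mul, Units.val_mul, t2_78, φ2_y, vY, st148]
theorem t2_120 : ((φ2 r120 : G2) : Matrix ι ι (ZMod 2)) = lit [21, 43, 45, 26, 57, 38] := by
  show ((φ2 (r86 * z) : G2) : Matrix ι ι (ZMod 2)) = _
  rw [map_mul, Units.val_mul, t2_86, φ2_z, vZ, st149]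
theorem t2_121 : ((φ2 r121 : G2) : Matrix ι ι (ZMod 2)) = lit [58, 45, 43, 53, 63, 38] := by
  show ((φ2 (r87 * z) : G2) : Matrix ι ι (ZMod 2)) = _
  rw [map_mul, Units.val_mul, t2_87, φ2_z, vZ, st150]
theorem t2_122 : ((φ2 r122 : G2) : Matrix ι ι (ZMod 2)) = lit [26, 4, 2, 39, 34, 20] := by
  show ((φ2 (r96 * z) : G2) : Matrix ι ι (ZMod 2)) = _
  rw [map_mul, Units.val_mul, t2_96, φ2_z, vZ, st151]
theorem t2_123 : ((φ2 r123 : G2) : Matrix ι ι (ZMod 2)) = lit [53, 15, 9, 30, 63, 25] := by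
  show ((φ2 (r97 * y) : G2) : Matrix ι ι (ZMod 2)) = _
  rw [map_mul, Units.val_mul, t2_97, φ2_y, vY, st152]
theorem t2_124 : ((φ2 r124 : G2) : Matrix ι ι (ZMod 2)) = lit [46, 45, 43, 39, 63, 32] := by
  show ((φ2 (r97 * z) : G2) : Matrix ι ι (ZMod 2)) = _
  rw [map_mul, Units.val_mul, t2_97, φ2_z, vZ, st153]
theorem t2_125 : ((φ2 r125 : G2) : Matrix ι ι (ZMod 2)) = lit [46, 4, 2, 21, 36, 18] := by
  show ((φ2 (r98 * y) : G2) : Matrix ι ι (ZMod 2)) = _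
  rw [map_mul, Units.val_mul, t2_98, φ2_y, vY, st154]
theorem t2_126 : ((φ2 r126 : G2) : Matrix ι ι (ZMod 2)) = lit [26, 45, 43, 21, 57, 38] := by
  show ((φ2 (r106 * z) : G2) : Matrix ι ι (ZMod 2)) = _
  rw [map_mul, Units.val_mul, t2_106, φ2_z, vZ, st155]
theorem t2_127 : ((φ2 r127 : G2) : Matrix ι ι (ZMod 2)) = lit [53, 43, 45, 58, 63, 38] := by
  show ((φ2 (r107 * z) : G2) : Matrix ι ι (ZMod 2)) = _
  rw [map_mul, Units.val_mul, t2_107, φ2_z, vZ, st156]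
def M2_c0 : Fin 128 → List ℕ
  | ⟨0, _⟩ => [1, 2, 4, 8, 16, 32]
  | ⟨1, _⟩ => [8, 4, 2, 1, 16, 32]
  | ⟨2, _⟩ => [23, 45, 43, 30, 63, 38]
  | ⟨3, _⟩ => [12, 15, 9, 39, 63, 31]
  | ⟨4, _⟩ => [30, 43, 45, 23, 63, 38]
  | ⟨5, _⟩ => [39, 9, 15, 12, 63, 31]
  | ⟨6, _⟩ => [46, 4, 2, 39, 22, 32]
  | ⟨7, _⟩ => [53, 61, 59, 30, 13, 25]
  | ⟨8, _⟩ => [3, 15, 9, 46, 63, 31]
  | ⟨9, _⟩ => [53, 15, 9, 55, 22, 48]
  | ⟨10, _⟩ => [46, 45, 43, 21, 13, 18]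
  | ⟨11, _⟩ => [39, 2, 4, 46, 22, 32]
  | ⟨12, _⟩ => [30, 59, 61, 53, 13, 25]
  | ⟨13, _⟩ => [46, 9, 15, 3, 63, 31]
  | ⟨14, _⟩ => [55, 9, 15, 53, 22, 48]
  | ⟨15, _⟩ => [21, 43, 45, 46, 13, 18]
  | ⟨16, _⟩ => [62, 43, 45, 55, 57, 38]
  | ⟨17, _⟩ => [62, 9, 15, 21, 57, 31]
  | ⟨18, _⟩ => [58, 59, 61, 23, 11, 25]
  | ⟨19, _⟩ => [37, 59, 61, 39, 34, 54]
  | ⟨20, _⟩ => [37, 2, 4, 30, 34, 20]
  | ⟨21, _⟩ => [58, 15, 9, 62, 22, 48]
  | ⟨22, _⟩ => [3, 45, 43, 62, 13, 18]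
  | ⟨23, _⟩ => [37, 15, 9, 8, 57, 25]
  | ⟨24, _⟩ => [37, 45, 43, 42, 57, 32]
  | ⟨25, _⟩ => [39, 43, 45, 26, 11, 20]
  | ⟨26, _⟩ => [62, 4, 2, 3, 34, 18]
  | ⟨27, _⟩ => [62, 61, 59, 58, 34, 48]
  | ⟨28, _⟩ => [55, 45, 43, 62, 57, 38]
  | ⟨29, _⟩ => [21, 15, 9, 62, 57, 31]
  | ⟨30, _⟩ => [23, 61, 59, 58, 11, 25]
  | ⟨31, _⟩ => [39, 61, 59, 37, 34, 54]
  | ⟨32, _⟩ => [30, 4, 2, 37, 34, 20]
  | ⟨33, _⟩ => [62, 9, 15, 58, 22, 48]
  | ⟨34, _⟩ => [62, 43, 45, 3, 13, 18]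
  | ⟨35, _⟩ => [8, 9, 15, 37, 57, 25]
  | ⟨36, _⟩ => [42, 43, 45, 37, 57, 32]
  | ⟨37, _⟩ => [26, 45, 43, 39, 11, 20]
  | ⟨38, _⟩ => [3, 2, 4, 62, 34, 18]
  | ⟨39, _⟩ => [58, 59, 61, 62, 34, 48]
  | ⟨40, _⟩ => [1, 59, 61, 42, 11, 25]
  | ⟨41, _⟩ => [55, 9, 15, 26, 57, 31]
  | ⟨42, _⟩ => [1, 9, 15, 3, 16, 48]
  | ⟨43, _⟩ => [1, 43, 45, 58, 11, 18]
  | ⟨44, _⟩ => [42, 61, 59, 46, 36, 54]
  | ⟨45, _⟩ => [8, 4, 2, 53, 36, 20]
  | ⟨46, _⟩ => [26, 61, 59, 55, 11, 31]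
  | ⟨47, _⟩ => [26, 4, 2, 21, 16, 38]
  | ⟨48, _⟩ => [42, 4, 2, 23, 36, 18]
  | ⟨49, _⟩ => [26, 15, 9, 30, 16, 54]
  | ⟨50, _⟩ => [42, 15, 9, 1, 57, 25]
  | ⟨51, _⟩ => [8, 45, 43, 1, 57, 32]
  | ⟨52, _⟩ => [12, 43, 45, 55, 11, 20]
  | ⟨53, _⟩ => [58, 4, 2, 1, 34, 18]
  | ⟨54, _⟩ => [3, 61, 59, 1, 34, 48]
  | ⟨55, _⟩ => [55, 2, 4, 12, 36, 20]
  | ⟨56, _⟩ => [21, 59, 61, 23, 36, 54]
  | ⟨57, _⟩ => [55, 59, 61, 53, 36, 48]
  | ⟨58, _⟩ => [42, 61, 59, 1, 11, 25]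
  | ⟨59, _⟩ => [26, 15, 9, 55, 57, 31]
  | ⟨60, _⟩ => [3, 15, 9, 1, 16, 48]
  | ⟨61, _⟩ => [58, 45, 43, 1, 11, 18]
  | ⟨62, _⟩ => [46, 59, 61, 42, 36, 54]
  | ⟨63, _⟩ => [53, 2, 4, 8, 36, 20]
  | ⟨64, _⟩ => [55, 59, 61, 26, 11, 31]
  | ⟨65, _⟩ => [21, 2, 4, 26, 16, 38]
  | ⟨66, _⟩ => [23, 2, 4, 42, 36, 18]
  | ⟨67, _⟩ => [30, 9, 15, 26, 16, 54]
  | ⟨68, _⟩ => [1, 9, 15, 42, 57, 25]
  | ⟨69, _⟩ => [1, 43, 45, 8, 57, 32]
  | ⟨70, _⟩ => [55, 45, 43, 12, 11, 20]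
  | ⟨71, _⟩ => [1, 2, 4, 58, 34, 18]
  | ⟨72, _⟩ => [1, 59, 61, 3, 34, 48]
  | ⟨73, _⟩ => [12, 4, 2, 55, 36, 20]
  | ⟨74, _⟩ => [23, 61, 59, 21, 36, 54]
  | ⟨75, _⟩ => [53, 61, 59, 55, 36, 48]
  | ⟨76, _⟩ => [8, 61, 59, 37, 13, 25]
  | ⟨77, _⟩ => [8, 9, 15, 12, 16, 48]
  | ⟨78, _⟩ => [42, 43, 45, 23, 11, 18]
  | ⟨79, _⟩ => [23, 9, 15, 58, 63, 25]
  | ⟨80, _⟩ => [12, 43, 45, 3, 63, 32]
  | ⟨81, _⟩ => [8, 45, 43, 53, 13, 20]
  | ⟨82, _⟩ => [12, 59, 61, 8, 36, 48]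
  | ⟨83, _⟩ => [21, 59, 61, 62, 13, 31]
  | ⟨84, _⟩ => [55, 2, 4, 62, 22, 38]
  | ⟨85, _⟩ => [30, 43, 45, 37, 13, 20]
  | ⟨86, _⟩ => [39, 9, 15, 37, 22, 54]
  | ⟨87, _⟩ => [21, 15, 9, 23, 16, 54]
  | ⟨88, _⟩ => [30, 4, 2, 23, 16, 38]
  | ⟨89, _⟩ => [39, 61, 59, 12, 11, 31]
  | ⟨90, _⟩ => [3, 2, 4, 12, 16, 32]
  | ⟨91, _⟩ => [42, 15, 9, 46, 22, 54]
  | ⟨92, _⟩ => [26, 61, 59, 30, 34, 54]
  | ⟨93, _⟩ => [3, 61, 59, 46, 13, 31]
  | ⟨94, _⟩ => [58, 4, 2, 53, 22, 38]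
  | ⟨95, _⟩ => [42, 4, 2, 37, 22, 32]
  | ⟨96, _⟩ => [37, 59, 61, 8, 13, 25]
  | ⟨97, _⟩ => [12, 15, 9, 8, 16, 48]
  | ⟨98, _⟩ => [23, 45, 43, 42, 11, 18]
  | ⟨99, _⟩ => [58, 15, 9, 23, 63, 25]
  | ⟨100, _⟩ => [3, 45, 43, 12, 63, 32]
  | ⟨101, _⟩ => [53, 43, 45, 8, 13, 20]
  | ⟨102, _⟩ => [8, 61, 59, 12, 36, 48]
  | ⟨103, _⟩ => [62, 61, 59, 21, 13, 31]
  | ⟨104, _⟩ => [62, 4, 2, 55, 22, 38]
  | ⟨105, _⟩ => [37, 45, 43, 30, 13, 20]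
  | ⟨106, _⟩ => [37, 15, 9, 39, 22, 54]
  | ⟨107, _⟩ => [23, 9, 15, 21, 16, 54]
  | ⟨108, _⟩ => [23, 2, 4, 30, 16, 38]
  | ⟨109, _⟩ => [12, 59, 61, 39, 11, 31]
  | ⟨110, _⟩ => [12, 4, 2, 3, 16, 32]
  | ⟨111, _⟩ => [46, 9, 15, 42, 22, 54]
  | ⟨112, _⟩ => [30, 59, 61, 26, 34, 54]
  | ⟨113, _⟩ => [46, 59, 61, 3, 13, 31]
  | ⟨114, _⟩ => [53, 2, 4, 58, 22, 38]
  | ⟨115, _⟩ => [37, 2, 4, 42, 22, 32]
  | ⟨116, _⟩ => [39, 2, 4, 26, 34, 20]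
  | ⟨117, _⟩ => [30, 9, 15, 53, 63, 25]
  | ⟨118, _⟩ => [39, 43, 45, 46, 63, 32]
  | ⟨119, _⟩ => [21, 2, 4, 46, 36, 18]
  | ⟨120, _⟩ => [21, 43, 45, 26, 57, 38]
  | ⟨121, _⟩ => [58, 45, 43, 53, 63, 38]
  | ⟨122, _⟩ => [26, 4, 2, 39, 34, 20]
  | ⟨123, _⟩ => [53, 15, 9, 30, 63, 25]
  | ⟨124, _⟩ => [46, 45, 43, 39, 63, 32]
  | ⟨125, _⟩ => [46, 4, 2, 21, 36, 18]
  | ⟨126, _⟩ => [26, 45, 43, 21, 57, 38]
  | ⟨127, _⟩ => [53, 43, 45, 58, 63, 38]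
  | ⟨n+128, h⟩ => absurd h (by omega)
def M2_ch : Fin 1 → Fin 128 → List ℕ
  | ⟨0, _⟩ => M2_c0
  | ⟨n+1, h⟩ => absurd h (by omega)
def M2 (i : Idx) : List ℕ := M2_ch i.1 i.2
theorem φ2_rep_c0 : ∀ b : Fin 128, ((φ2 (rep_c0 b) : G2) : Matrix ι ι (ZMod 2)) = lit (M2_c0 b)
  | ⟨0, _⟩ => t2_0
  | ⟨1, _⟩ => t2_1
  | ⟨2, _⟩ => t2_2
  | ⟨3, _⟩ => t2_3
  | ⟨4, _⟩ => t2_4
  | ⟨5, _⟩ => t2_5
  | ⟨6, _⟩ => t2_6
  | ⟨7, _⟩ => t2_7
  | ⟨8, _⟩ => t2_8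
  | ⟨9, _⟩ => t2_9
  | ⟨10, _⟩ => t2_10
  | ⟨11, _⟩ => t2_11
  | ⟨12, _⟩ => t2_12
  | ⟨13, _⟩ => t2_13
  | ⟨14, _⟩ => t2_14
  | ⟨15, _⟩ => t2_15
  | ⟨16, _⟩ => t2_16
  | ⟨17, _⟩ => t2_17
  | ⟨18, _⟩ => t2_18
  | ⟨19, _⟩ => t2_19
  | ⟨20, _⟩ => t2_20
  | ⟨21, _⟩ => t2_21
  | ⟨22, _⟩ => t2_22
  | ⟨23, _⟩ => t2_23
  | ⟨24, _⟩ => t2_24
  | ⟨25, _⟩ => t2_25
  | ⟨26, _⟩ => t2_26
  | ⟨27, _⟩ => t2_27
  | ⟨28, _⟩ => t2_28
  | ⟨29, _⟩ => t2_29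
  | ⟨30, _⟩ => t2_30
  | ⟨31, _⟩ => t2_31
  | ⟨32, _⟩ => t2_32
  | ⟨33, _⟩ => t2_33
  | ⟨34, _⟩ => t2_34
  | ⟨35, _⟩ => t2_35
  | ⟨36, _⟩ => t2_36
  | ⟨37, _⟩ => t2_37
  | ⟨38, _⟩ => t2_38
  | ⟨39, _⟩ => t2_39
  | ⟨40, _⟩ => t2_40
  | ⟨41, _⟩ => t2_41
  | ⟨42, _⟩ => t2_42
  | ⟨43, _⟩ => t2_43
  | ⟨44, _⟩ => t2_44
  | ⟨45, _⟩ => t2_45
  | ⟨46, _⟩ => t2_46
  | ⟨47, _⟩ => t2_47
  | ⟨48, _⟩ => t2_48
  | ⟨49, _⟩ => t2_49
  | ⟨50, _⟩ => t2_50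
  | ⟨51, _⟩ => t2_51
  | ⟨52, _⟩ => t2_52
  | ⟨53, _⟩ => t2_53
  | ⟨54, _⟩ => t2_54
  | ⟨55, _⟩ => t2_55
  | ⟨56, _⟩ => t2_56
  | ⟨57, _⟩ => t2_57
  | ⟨58, _⟩ => t2_58
  | ⟨59, _⟩ => t2_59
  | ⟨60, _⟩ => t2_60
  | ⟨61, _⟩ => t2_61
  | ⟨62, _⟩ => t2_62
  | ⟨63, _⟩ => t2_63
  | ⟨64, _⟩ => t2_64
  | ⟨65, _⟩ => t2_65
  | ⟨66, _⟩ => t2_66
  | ⟨67, _⟩ => t2_67
  | ⟨68, _⟩ => t2_68
  | ⟨69, _⟩ => t2_69
  | ⟨70, _⟩ => t2_70
  | ⟨71, _⟩ => t2_71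
  | ⟨72, _⟩ => t2_72
  | ⟨73, _⟩ => t2_73
  | ⟨74, _⟩ => t2_74
  | ⟨75, _⟩ => t2_75
  | ⟨76, _⟩ => t2_76
  | ⟨77, _⟩ => t2_77
  | ⟨78, _⟩ => t2_78
  | ⟨79, _⟩ => t2_79
  | ⟨80, _⟩ => t2_80
  | ⟨81, _⟩ => t2_81
  | ⟨82, _⟩ => t2_82
  | ⟨83, _⟩ => t2_83
  | ⟨84, _⟩ => t2_84
  | ⟨85, _⟩ => t2_85
  | ⟨86, _⟩ => t2_86
  | ⟨87, _⟩ => t2_87
  | ⟨88, _⟩ => t2_88
  | ⟨89, _⟩ => t2_89
  | ⟨90, _⟩ => t2_90
  | ⟨91, _⟩ => t2_91
  | ⟨92, _⟩ => t2_92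
  | ⟨93, _⟩ => t2_93
  | ⟨94, _⟩ => t2_94
  | ⟨95, _⟩ => t2_95
  | ⟨96, _⟩ => t2_96
  | ⟨97, _⟩ => t2_97
  | ⟨98, _⟩ => t2_98
  | ⟨99, _⟩ => t2_99
  | ⟨100, _⟩ => t2_100
  | ⟨101, _⟩ => t2_101
  | ⟨102, _⟩ => t2_102
  | ⟨103, _⟩ => t2_103
  | ⟨104, _⟩ => t2_104
  | ⟨105, _⟩ => t2_105
  | ⟨106, _⟩ => t2_106
  | ⟨107, _⟩ => t2_107
  | ⟨108, _⟩ => t2_108
  | ⟨109, _⟩ => t2_109
  | ⟨110, _⟩ => t2_110
  | ⟨111, _⟩ => t2_111
  | ⟨112, _⟩ => t2_112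
  | ⟨113, _⟩ => t2_113
  | ⟨114, _⟩ => t2_114
  | ⟨115, _⟩ => t2_115
  | ⟨116, _⟩ => t2_116
  | ⟨117, _⟩ => t2_117
  | ⟨118, _⟩ => t2_118
  | ⟨119, _⟩ => t2_119
  | ⟨120, _⟩ => t2_120
  | ⟨121, _⟩ => t2_121
  | ⟨122, _⟩ => t2_122
  | ⟨123, _⟩ => t2_123
  | ⟨124, _⟩ => t2_124
  | ⟨125, _⟩ => t2_125
  | ⟨126, _⟩ => t2_126
  | ⟨127, _⟩ => t2_127
  | ⟨n+128, h⟩ => absurd h (by omega)
theorem φ2_rep_ch : ∀ (a : Fin 1) (b : Fin 128), ((φ2 (rep_ch a b) : G2) : Matrix ι ι (ZMod 2)) = lit (M2_ch a b)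
  | ⟨0, _⟩ => φ2_rep_c0
  | ⟨n+1, h⟩ => absurd h (by omega)
theorem φ2_rep (i : Idx) : ((φ2 (rep i) : G2) : Matrix ι ι (ZMod 2)) = lit (M2 i) :=
  φ2_rep_ch i.1 i.2

set_option maxRecDepth 100000 in
theorem ker2 : ∀ i : Idx, lit (M2 i) = 1 → i = (0, 0) := by decide +kernel

theorem φ2_inj : Function.Injective φ2 := by
  rw [injective_iff_map_eq_one]
  intro p hp
  obtain ⟨i, rfl⟩ := rep_surj p
  have h1 : ((φ2 (rep i) : G2) : Matrix ι ι (ZMod 2)) = 1 := by rw [hp]; rfl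
  rw [φ2_rep] at h1
  rw [ker2 i h1]
  rfl

section field

variable {K : Type} [Field K] (f : ZMod 2 →+* K)

/-- The presented group inside `GL` over `K`. -/
noncomputable def φ : P →* GL ι K := (Matrix.GeneralLinearGroup.map f).comp φ2

theorem map_inj : Function.Injective (Matrix.GeneralLinearGroup.map (n := ι) f) := by
  intro g h hgh
  apply Units.ext
  have h1 : (g : Matrix ι ι (ZMod 2)).map f = (h : Matrix ι ι (ZMod 2)).map f :=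
    congrArg (fun u : GL ι K => (u : Matrix ι ι K)) hgh
  exact Matrix.map_injective (RingHom.injective f) h1

theorem φ_inj : Function.Injective (φ f) := (map_inj f).comp φ2_inj

theorem φ_mem (hf : Function.Surjective f) (p : P) :
    φ f p ∈ Cfsg.isometryGroup K (Cfsg.quadFormMinus 2 K 1 1) := by
  have hgen : ∀ j : Fin 3, (PresentedGroup.of j : P) ∈
      (Cfsg.isometryGroup K (Cfsg.quadFormMinus 2 K 1 1)).comap (φ f) := by
    intro j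
    fin_cases j
    · show Matrix.GeneralLinearGroup.map f (φ2 x) ∈ Cfsg.isometryGroup K (Cfsg.quadFormMinus 2 K 1 1)
      rw [φ2_x]
      exact mem_iso f hf hX isoX
    · show Matrix.GeneralLinearGroup.map f (φ2 y) ∈ Cfsg.isometryGroup K (Cfsg.quadFormMinus 2 K 1 1)
      rw [φ2_y]
      exact mem_iso f hf hY isoY
    · show Matrix.GeneralLinearGroup.map f (φ2 z) ∈ Cfsg.isometryGroup K (Cfsg.quadFormMinus 2 K 1 1)
      rw [φ2_z]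
      exact mem_iso f hf hZ isoZ
  exact PresentedGroup.generated_by rels _ hgen p

/-- The presented group inside the isometry group. -/
noncomputable def φI (hf : Function.Surjective f) :
    P →* ↥(Cfsg.isometryGroup K (Cfsg.quadFormMinus 2 K 1 1)) :=
  (φ f).codRestrict _ (φ_mem f hf)

theorem φI_inj (hf : Function.Surjective f) : Function.Injective (φI f hf) := by
  intro p p' h
  apply φ_inj f
  exact congrArg Subtype.val h

end field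

end B

/-- The Sylow 2-subgroups of the alternating group of degree 8 and of PSp₄(3) are isomorphic, and so are the Sylow 2-subgroups of the symmetric group of degree 8 and of the full isometry group of a non-degenerate quadratic form of minus type in dimension 6 over the field with 2 elements. -/
theorem result (F : Type) [Field F] [Fintype F] (hF : Fintype.card F = 3) (K : Type) [Field K] [Fintype K] (hK : Fintype.card K = 2) (a b : K) (hab : ∀ z₁ z₂ : K, z₁ ^ 2 + a * z₁ * z₂ + b * z₂ ^ 2 = 0 → z₁ = 0 ∧ z₂ = 0) (P : Sylow 2 ↥(alternatingGroup (Fin 8))) (Q : Sylow 2 (Cfsg.PSp 2 F)) (P' : Sylow 2 (Equiv.Perm (Fin 8))) (Q' : Sylow 2 ↥(Cfsg.isometryGroup K (Cfsg.quadFormMinus 2 K a b))) : Nonempty (↥(P : Subgroup ↥(alternatingGroup (Fin 8))) ≃* ↥(Q : Subgroup (Cfsg.PSp 2 F))) ∧ Nonempty (↥(P' : Subgroup (Equiv.Perm (Fin 8))) ≃* ↥(Q' : Subgroup ↥(Cfsg.isometryGroup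 K (Cfsg.quadFormMinus 2 K a b)))) := by
  classical
  let e3 : ZMod 3 ≃+* F := ZMod.ringEquivOfPrime F Nat.prime_three hF
  let e2 : ZMod 2 ≃+* K := ZMod.ringEquivOfPrime K Nat.prime_two hK
  have hab' : a = 1 ∧ b = 1 := by
    obtain ⟨a', rfl⟩ := e2.surjective a
    obtain ⟨b', rfl⟩ := e2.surjective b
    have h1 := ab_eq a' b' (by
      intro z1 z2 h
      have h2 := hab (e2 z1) (e2 z2) (by
        rw [← map_pow, ← map_mul, ← map_mul, ← map_pow, ← map_mul, ← map_add, ← map_add, h,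
          map_zero])
      exact ⟨e2.injective (by rw [h2.1, map_zero]), e2.injective (by rw [h2.2, map_zero])⟩)
    rw [h1.1, h1.2, map_one]
    exact ⟨rfl, rfl⟩
  obtain ⟨rfl, rfl⟩ := hab'
  constructor
  · -- order 64
    have hfin : Finite (Cfsg.PSp 2 F) := inferInstance
    have c1 : Nat.card ↥A.ψa.range = 2 ^ 6 := by
      rw [← Nat.card_congr (MonoidHom.ofInjective A.ψa_inj).toEquiv, A.card_P]; norm_num
    have c2 : Nat.card ↥(A.Φ e3.toRingHom).range = 2 ^ 6 := by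
      rw [← Nat.card_congr (MonoidHom.ofInjective (A.Φ_inj e3.toRingHom)).toEquiv, A.card_P]
      norm_num
    obtain ⟨E1⟩ := sylow_equiv A.ψa.range 6 c1 card_alt_not_dvd P
    obtain ⟨E2⟩ := sylow_equiv (A.Φ e3.toRingHom).range 6 c2 (card_PSp_not_dvd hF e3.toRingHom) Q
    exact ⟨E1.trans ((MonoidHom.ofInjective A.ψa_inj).symm.trans
      ((MonoidHom.ofInjective (A.Φ_inj e3.toRingHom)).trans E2.symm))⟩
  · -- order 128
    have hfin : Finite ↥(Cfsg.isometryGroup K (Cfsg.quadFormMinus 2 K 1 1)) := inferInstance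
    have c1 : Nat.card ↥B.ψ0.range = 2 ^ 7 := by
      rw [← Nat.card_congr (MonoidHom.ofInjective B.ψ0_inj).toEquiv, B.card_P]; norm_num
    have c2 : Nat.card ↥(B.φI e2.toRingHom e2.surjective).range = 2 ^ 7 := by
      rw [← Nat.card_congr (MonoidHom.ofInjective (B.φI_inj e2.toRingHom e2.surjective)).toEquiv,
        B.card_P]
      norm_num
    obtain ⟨E1⟩ := sylow_equiv B.ψ0.range 7 c1 card_perm_not_dvd P'
    obtain ⟨E2⟩ := sylow_equiv (B.φI e2.toRingHom e2.surjective).range 7 c2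
      (card_iso_not_dvd hK 1 1 hab) Q'
    exact ⟨E1.trans ((MonoidHom.ofInjective B.ψ0_inj).symm.trans
      ((MonoidHom.ofInjective (B.φI_inj e2.toRingHom e2.surjective)).trans E2.symm))⟩

end Cfsg.Agent.S2931
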