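import Cfsg.Statements.S2939
import Cfsg.Agent.Lib.Helper49.SylowChain

set_option autoImplicit false
open Cfsg

namespace Cfsg.Agent.S2939

open Cfsg.Agent.Lib.Helper49.SylowConj Cfsg.Agent.Lib.Helper49.SylowChain

/-- Fusion sequences, as lists of pairs (member, element): each element lies in its member, a
member of `𝓕(S)`, and the successive conjugates of `A` stay in `S ∩ Y`. -/
def FusionSeq {G : Type*} [Group G] (p : ℕ) (𝓕 : Set (Subgroup G)) (S : Subgroup G) :
    Set G → List (Subgroup G × G) → Prop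
  | _, [] => True
  | A, Yy :: l => Yy.1 ∈ sylowMembers p 𝓕 S ∧ Yy.2 ∈ Yy.1 ∧
      conjRight Yy.2 A ⊆ (S : Set G) ∩ (Yy.1 : Set G) ∧ FusionSeq p 𝓕 S (conjRight Yy.2 A) l

theorem exists_fin_of_fusionSeq {G : Type*} [Group G] {p : ℕ} {𝓕 : Set (Subgroup G)}
    {S : Subgroup G} (l : List (Subgroup G × G)) :
    ∀ (A : Set G), FusionSeq p 𝓕 S A l →
    ∃ (n : ℕ) (Y : Fin n → Subgroup G) (y : Fin n → G),
      (∀ i : Fin n, Y i ∈ sylowMembers p 𝓕 S ∧ y i ∈ Y i) ∧
      (List.ofFn y).prod = (l.map Prod.snd).prod ∧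
      ∀ i : Fin n, conjRight (((List.ofFn y).take (i.val + 1)).prod) A ⊆
        (S : Set G) ∩ (Y i : Set G) := by
  induction l with
  | nil =>
    intro A _
    exact ⟨0, Fin.elim0, Fin.elim0, fun i => i.elim0, by simp, fun i => i.elim0⟩
  | cons Yy l ih =>
    intro A h
    obtain ⟨h1, h2, h3, h4⟩ := h
    obtain ⟨n, Y, y, hYy, hprod, hpre⟩ := ih _ h4
    refine ⟨n + 1, Fin.cons Yy.1 Y, Fin.cons Yy.2 y, ?_, ?_, ?_⟩
    · intro i
      induction i using Fin.cases with
      | zero => exact ⟨h1, h2⟩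
      | succ j => exact hYy j
    · rw [List.ofFn_cons, List.prod_cons, hprod, List.map_cons, List.prod_cons]
    · intro i
      induction i using Fin.cases with
      | zero =>
        rw [List.ofFn_cons]
        simpa using h3
      | succ j =>
        rw [List.ofFn_cons]
        have := hpre j
        simp only [Fin.val_succ, List.take_succ_cons, List.prod_cons, Fin.cons_succ]
        rw [conjRight_mul]
        exact this

theorem fusionSeq_of_fin {G : Type*} [Group G] {p : ℕ} {𝓕 : Set (Subgroup G)}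
    {S : Subgroup G} (n : ℕ) :
    ∀ (A : Set G) (Y : Fin n → Subgroup G) (y : Fin n → G),
    (∀ i : Fin n, Y i ∈ sylowMembers p 𝓕 S ∧ y i ∈ Y i) →
    (∀ i : Fin n, conjRight (((List.ofFn y).take (i.val + 1)).prod) A ⊆
        (S : Set G) ∩ (Y i : Set G)) →
    ∃ l : List (Subgroup G × G), FusionSeq p 𝓕 S A l ∧
      (l.map Prod.snd).prod = (List.ofFn y).prod := by
  induction n with
  | zero =>
    intro A Y y _ _
    exact ⟨[], trivial, by simp⟩
  | succ n ih =>
    intro A Y y h1 h2
    have h0 : conjRight (y 0) A ⊆ (S : Set G) ∩ (Y 0 : Set G) := by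
      have := h2 0
      rw [List.ofFn_succ] at this
      simpa using this
    obtain ⟨l, hl, hprod⟩ := ih (conjRight (y 0) A) (fun i => Y i.succ) (fun i => y i.succ)
      (fun i => h1 i.succ) (by
        intro i
        have := h2 i.succ
        rw [List.ofFn_succ] at this
        simp only [Fin.val_succ, List.take_succ_cons, List.prod_cons] at this
        rw [conjRight_mul] at this
        exact this)
    refine ⟨(Y 0, y 0) :: l, ⟨(h1 0).1, (h1 0).2, h0, hl⟩, ?_⟩
    rw [List.map_cons, List.prod_cons, hprod, List.ofFn_succ, List.prod_cons]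

/-- From a control chain to a fusion sequence. -/
theorem fusion_of_chain {G : Type*} [Group G] [Finite G] {p : ℕ} [Fact p.Prime]
    {𝓕 : Set (Subgroup G)} (h𝓕 : IsNormalSet 𝓕) (S : Sylow p G) (A : Set G) (D : Subgroup G)
    (hAD : A ⊆ (D : Set G)) (g : G) (c : Sylow p G)
    (hc : Relation.ReflTransGen (Link p 𝓕 D) c (g • S)) :
    ∀ u : G, c = u • S →
      ∃ (l : List (Subgroup G × G)) (y₀ : G),
        y₀ ∈ Subgroup.normalizer ((S : Subgroup G) : Set G) ∧
        FusionSeq p 𝓕 (S : Subgroup G) (conjRight u A) l ∧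
        g = u * (l.map Prod.snd).prod * y₀ := by
  induction hc using Relation.ReflTransGen.head_induction_on with
  | refl =>
    intro u hu
    refine ⟨[], u⁻¹ * g, ?_, trivial, by simp⟩
    apply Sylow.smul_eq_iff_mem_normalizer.mp
    rw [mul_smul, hu, inv_smul_smul]
  | @head c c' hlink _ ih =>
    intro u hu
    obtain ⟨X, x, hXc, hXc', hxX, hconj, hD⟩ := hlink
    rw [subgroupConjRight_sylow] at hconj
    have h5 : x⁻¹ • c' = c := Sylow.ext hconj
    have hc' : c' = (x * u) • S := by
      rw [mul_smul, ← hu, ← h5, smul_inv_smul]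
    obtain ⟨l', y₀, hy₀, hl', hg⟩ := ih (x * u) hc'
    have hY : subgroupConjRight u X ∈ sylowMembers p 𝓕 (S : Subgroup G) := by
      have h1 := sylowMembers_conj h𝓕 c.isPGroup' u hXc
      have h2 : subgroupConjRight u (c : Subgroup G) = (S : Subgroup G) := by
        rw [subgroupConjRight_sylow, hu, inv_smul_smul]
      rwa [h2] at h1
    have hy : u⁻¹ * x * u ∈ subgroupConjRight u X := by
      rw [mem_subgroupConjRight_iff]
      have : u * (u⁻¹ * x * u) * u⁻¹ = x := by group
      rw [this]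
      exact hxX
    have heq : conjRight (u⁻¹ * x * u) (conjRight u A) = conjRight (x * u) A := by
      rw [← conjRight_mul]
      congr 1
      group
    have hsub : conjRight (x * u) A ⊆
        ((S : Subgroup G) : Set G) ∩ (subgroupConjRight u X : Set G) := by
      intro v hv
      rw [mem_conjRight_iff] at hv
      have hv' := hD (hAD hv)
      have hv1 : x * u * v * (x * u)⁻¹ ∈ (c' : Subgroup G) := (Subgroup.mem_inf.mp hv').1
      have hv2 : x * u * v * (x * u)⁻¹ ∈ X := (Subgroup.mem_inf.mp hv').2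
      constructor
      · rw [hc', mem_smul_sylow_iff] at hv1
        have : (x * u)⁻¹ * (x * u * v * (x * u)⁻¹) * (x * u) = v := by group
        rw [this] at hv1
        exact hv1
      · rw [SetLike.mem_coe, mem_subgroupConjRight_iff]
        have h6 := X.mul_mem (X.mul_mem (X.inv_mem hxX) hv2) hxX
        have : x⁻¹ * (x * u * v * (x * u)⁻¹) * x = u * v * u⁻¹ := by group
        rwa [this] at h6
    refine ⟨(subgroupConjRight u X, u⁻¹ * x * u) :: l', y₀, hy₀, ⟨hY, hy, ?_, ?_⟩, ?_⟩
    · rw [heq]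
      exact hsub
    · rw [heq]
      exact hl'
    · rw [hg, List.map_cons, List.prod_cons]
      group

/-- From a fusion sequence to a control chain. -/
theorem chain_of_fusionSeq {G : Type*} [Group G] [Finite G] {p : ℕ} [Fact p.Prime]
    {𝓕 : Set (Subgroup G)} (h𝓕 : IsNormalSet 𝓕) (S : Sylow p G) (l : List (Subgroup G × G)) :
    ∀ (A : Set G), A ⊆ ((S : Subgroup G) : Set G) → FusionSeq p 𝓕 (S : Subgroup G) A l →
    ∀ (w : G) (D : Subgroup G), (D : Set G) ⊆ conjRight ((l.map Prod.snd).prod * w) A →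
      Relation.ReflTransGen (Link p 𝓕 D) (w⁻¹ • S) (((l.map Prod.snd).prod * w)⁻¹ • S) := by
  induction l with
  | nil =>
    intro A _ _ w D _
    simp only [List.map_nil, List.prod_nil, one_mul]
    exact Relation.ReflTransGen.refl
  | cons Yy l ih =>
    intro A hA h w D hD
    obtain ⟨Y, y⟩ := Yy
    obtain ⟨hY, hyY, hsub, hrest⟩ := h
    simp only at hY hyY hsub hrest
    rw [List.map_cons, List.prod_cons] at hD ⊢
    simp only at hD ⊢
    set q : G := (l.map Prod.snd).prod with hq
    have hA' : conjRight y A ⊆ ((S : Subgroup G) : Set G) := fun v hv => (hsub hv).1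
    have hD' : (D : Set G) ⊆ conjRight (q * w) (conjRight y A) := by
      rw [← conjRight_mul, ← mul_assoc]
      exact hD
    have h1 := ih (conjRight y A) hA' hrest w D hD'
    refine h1.tail ?_
    set w' : G := q * w with hw'
    have e0 : subgroupConjRight w' Y ∈ sylowMembers p 𝓕 ((w'⁻¹ • S : Sylow p G) : Subgroup G) := by
      have := sylowMembers_conj h𝓕 S.isPGroup' w' hY
      rwa [subgroupConjRight_sylow] at this
    have e1 : Y ∈ sylowMembers p 𝓕 ((y⁻¹ • S : Sylow p G) : Subgroup G) := by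
      have := sylowMembers_conj h𝓕 S.isPGroup' y hY
      rwa [subgroupConjRight_of_mem hyY, subgroupConjRight_sylow] at this
    have e2 : subgroupConjRight w' Y ∈
        sylowMembers p 𝓕 (((y * q * w)⁻¹ • S : Sylow p G) : Subgroup G) := by
      have := sylowMembers_conj h𝓕 (y⁻¹ • S : Sylow p G).isPGroup' w' e1
      rw [subgroupConjRight_sylow, ← mul_smul, ← mul_inv_rev, hw', ← mul_assoc] at this
      exact this
    refine ⟨subgroupConjRight w' Y, w'⁻¹ * y⁻¹ * w', e0, e2, ?_, ?_, ?_⟩
    · rw [mem_subgroupConjRight_iff]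
      have : w' * (w'⁻¹ * y⁻¹ * w') * w'⁻¹ = y⁻¹ := by group
      rw [this]
      exact Y.inv_mem hyY
    · rw [subgroupConjRight_sylow, ← mul_smul]
      congr 2
      rw [hw']
      group
    · intro d hd
      have hd' := hD hd
      rw [mem_conjRight_iff] at hd'
      refine Subgroup.mem_inf.mpr ⟨?_, ?_⟩
      · rw [mem_smul_sylow_iff, inv_inv]
        exact hA hd'
      · rw [mem_subgroupConjRight_iff]
        have h2 : w' * d * w'⁻¹ ∈ conjRight y A := by
          rw [mem_conjRight_iff]
          have : y * (w' * d * w'⁻¹) * y⁻¹ = y * q * w * d * (y * q * w)⁻¹ := by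
            rw [hw']
            group
          rw [this]
          exact hd'
        exact (hsub h2).2

/-- Let p be a prime dividing the order of the finite group G and 𝓕 a family of subgroups of G closed under conjugation, with conjugates taken as X^g = g⁻¹Xg. Then 𝓕 controls Sylow p-intersections in G (any two distinct Sylow p-subgroups S and T with S ∩ T ≠ 1 are joined by a chain S = S₀, S₁, …, Sₙ = T of Sylow p-subgroups where, for each i, some member Xᵢ of 𝓕 meets both S_{i-1} and Sᵢ in Sylow p-subgroups of Xᵢ, satisfies S ∩ T ≤ Sᵢ ∩ Xᵢ, and contains an element xᵢ with Sᵢ^{xᵢ} = S_{i-1}) if and only if 𝓕 strongly controls p-fusion in G (whenever A is a subset of a Sylow p-subgroup S, A contains an element other than 1, and A^g ⊆ S, the element g factorises as g = y₁⋯yₙy with y ∈ N_G(S) and each yᵢ in a member Yᵢ of 𝓕 that meets S in a Sylow p-subgroup of Yᵢ, with A^{y₁⋯yᵢ} ⊆ S ∩ Yᵢ for each i). -/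
theorem result {G : Type*} [Group G] [Finite G] {p : ℕ} [Fact p.Prime] (hdiv : p ∣ Nat.card G) (𝓕 : Set (Subgroup G)) (h𝓕 : Cfsg.IsNormalSet 𝓕) : Cfsg.ControlsSylowIntersections p 𝓕 ↔ Cfsg.FamilyStronglyControlsFusion p 𝓕 := by
  constructor
  · intro hc S A g hA hne hg
    obtain ⟨a, ha, ha1⟩ := hne
    have hAT : A ⊆ (((g • S : Sylow p G) : Subgroup G) : Set G) := by
      intro u hu
      rw [SetLike.mem_coe, mem_smul_sylow_iff]
      exact hg ⟨u, hu, rfl⟩
    have hchain : Relation.ReflTransGen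
        (Link p 𝓕 ((S : Subgroup G) ⊓ ((g • S : Sylow p G) : Subgroup G))) S (g • S) := by
      by_cases hST : g • S = S
      · rw [hST]
      · apply controls_iff.mp hc S (g • S) (Ne.symm hST)
        intro hbot
        have : a ∈ (S : Subgroup G) ⊓ ((g • S : Sylow p G) : Subgroup G) :=
          Subgroup.mem_inf.mpr ⟨hA ha, hAT ha⟩
        rw [hbot, Subgroup.mem_bot] at this
        exact ha1 this
    have hAD : A ⊆ (((S : Subgroup G) ⊓ ((g • S : Sylow p G) : Subgroup G) : Subgroup G) : Set G) :=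
      fun u hu => Subgroup.mem_inf.mpr ⟨hA hu, hAT hu⟩
    obtain ⟨l, y₀, hy₀, hl, hgeq⟩ :=
      fusion_of_chain h𝓕 S A _ hAD g S hchain 1 (one_smul _ _).symm
    rw [conjRight_one] at hl
    obtain ⟨n, Y, y, hYy, hprod, hpre⟩ := exists_fin_of_fusionSeq l A hl
    refine ⟨n, Y, y, y₀, hy₀, hYy, ?_, hpre⟩
    rw [hprod, hgeq, one_mul]
  · intro hf
    rw [controls_iff]
    intro S T hne hbot
    obtain ⟨k, hk⟩ := MulAction.exists_smul_eq G S T
    set g : G := k⁻¹ with hgk
    have hT : T = g⁻¹ • S := by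
      rw [hgk, inv_inv, hk]
    set A : Set G := conjRight g⁻¹ (((S : Subgroup G) ⊓ (T : Subgroup G) : Subgroup G) : Set G)
      with hAdef
    have hA : A ⊆ ((S : Subgroup G) : Set G) := by
      intro u hu
      rw [hAdef, mem_conjRight_iff] at hu
      have h1 : g⁻¹ * u * g⁻¹⁻¹ ∈ (T : Subgroup G) := (Subgroup.mem_inf.mp hu).2
      rw [hT, mem_smul_sylow_iff] at h1
      have : g⁻¹⁻¹ * (g⁻¹ * u * g⁻¹⁻¹) * g⁻¹ = u := by group
      rw [this] at h1
      exact h1
    have hgA : conjRight g A = (((S : Subgroup G) ⊓ (T : Subgroup G) : Subgroup G) : Set G) := by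
      rw [hAdef, ← conjRight_mul, inv_mul_cancel, conjRight_one]
    have hne1 : ∃ a ∈ A, a ≠ 1 := by
      obtain ⟨b, hb1⟩ := (Subgroup.ne_bot_iff_exists_ne_one).mp hbot
      have hbm : (b : G) ∈ (S : Subgroup G) ⊓ (T : Subgroup G) := b.2
      refine ⟨g * b * g⁻¹, ?_, ?_⟩
      · rw [hAdef, mem_conjRight_iff]
        have : g⁻¹ * (g * (b : G) * g⁻¹) * g⁻¹⁻¹ = b := by group
        rw [this]
        exact hbm
      · intro h
        apply hb1
        have h2 : (b : G) = g⁻¹ * (g * (b : G) * g⁻¹) * g := by group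
        rw [h, mul_one, inv_mul_cancel] at h2
        exact Subtype.ext h2
    have hgS : conjRight g A ⊆ ((S : Subgroup G) : Set G) := by
      rw [hgA]
      intro u hu
      exact (Subgroup.mem_inf.mp hu).1
    obtain ⟨n, Y, y, y₀, hy₀, hYy, hgeq, hpre⟩ := hf S A g hA hne1 hgS
    obtain ⟨l, hl, hprod⟩ := fusionSeq_of_fin n A Y y hYy hpre
    have hD : ((((S : Subgroup G) ⊓ (T : Subgroup G) : Subgroup G)) : Set G) ⊆
        conjRight ((l.map Prod.snd).prod * y₀) A := by
      rw [hprod, ← hgeq, hgA]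
    have h1 := chain_of_fusionSeq h𝓕 S l A hA hl y₀ _ hD
    rw [hprod, ← hgeq, ← hT] at h1
    have h2 : y₀⁻¹ • S = S :=
      Sylow.smul_eq_iff_mem_normalizer.mpr (Subgroup.inv_mem _ hy₀)
    rw [h2] at h1
    exact h1

end Cfsg.Agent.S2939
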