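import Cfsg.Statements.S2940
import Cfsg.Agent.Lib.Helper49.SylowConj

set_option autoImplicit false
open Cfsg

namespace Cfsg.Agent.S2940

open Cfsg.Agent.Lib.Helper49.SylowConj

/-- Let S be a Sylow p-subgroup of the finite group G and G₁, G₂ subgroups containing S with G = G₁G₂. Then for every g ∈ G there is a Sylow p-subgroup U of G with S ∩ S^g ≤ U ≤ G₁ ∩ G₂^g (conjugates taken as X^g = g⁻¹Xg). -/
theorem result {G : Type*} [Group G] [Finite G] {p : ℕ} [Fact p.Prime] (S : Sylow p G) (G₁ G₂ : Subgroup G) (h1 : (S : Subgroup G) ≤ G₁) (h2 : (S : Subgroup G) ≤ G₂) (hfact : ∀ g : G, ∃ g₁ ∈ G₁, ∃ g₂ ∈ G₂, g = g₁ * g₂) (g : G) : ∃ U : Sylow p G, (S : Subgroup G) ⊓ Cfsg.subgroupConjRight g (S : Subgroup G) ≤ (U : Subgroup G) ∧ (U : Subgroup G) ≤ G₁ ⊓ Cfsg.subgroupConjRight g G₂ := by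
  obtain ⟨a, ha, b, hb, hab⟩ := hfact g⁻¹
  have hg : g = b⁻¹ * a⁻¹ := by
    have : g = (g⁻¹)⁻¹ := (inv_inv g).symm
    rw [this, hab, mul_inv_rev]
  have hS'D : ((a • S : Sylow p G) : Subgroup G) ≤ G₁ ⊓ Cfsg.subgroupConjRight g G₂ := by
    intro u hu
    rw [mem_smul_sylow_iff] at hu
    refine Subgroup.mem_inf.mpr ⟨?_, ?_⟩
    · have h3 := G₁.mul_mem (G₁.mul_mem ha (h1 hu)) (G₁.inv_mem ha)
      have h4 : a * (a⁻¹ * u * a) * a⁻¹ = u := by group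
      rwa [h4] at h3
    · rw [mem_subgroupConjRight_iff]
      have h3 := G₂.mul_mem (G₂.mul_mem (G₂.inv_mem hb) (h2 hu)) hb
      have h4 : b⁻¹ * (a⁻¹ * u * a) * b = g * u * g⁻¹ := by rw [hg]; group
      rwa [h4] at h3
  have hQD : (S : Subgroup G) ⊓ Cfsg.subgroupConjRight g (S : Subgroup G)
      ≤ G₁ ⊓ Cfsg.subgroupConjRight g G₂ :=
    inf_le_inf h1 (subgroupConjRight_mono g h2)
  have hQ : IsPGroup p ((S : Subgroup G) ⊓ Cfsg.subgroupConjRight g (S : Subgroup G) : Subgroup G) :=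
    S.isPGroup'.to_inf_left
  obtain ⟨d, -, hd1, hd2⟩ := exists_smul_sylow_ge (a • S) _ _ hS'D hQD hQ
  exact ⟨d • (a • S), hd1, hd2⟩

end Cfsg.Agent.S2940
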