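import Cfsg.Statements.S2955
import Cfsg.Agent.Lib.Helper49.SylowChain

set_option autoImplicit false
open Cfsg

namespace Cfsg.Agent.S2955

open Cfsg.Agent.Lib.Helper49.SylowConj Cfsg.Agent.Lib.Helper49.SylowChain

/-- Let p be a prime dividing the order of the finite group G and 𝓕 a conjugation-closed family of subgroups that controls Sylow p-intersections in G. Suppose the Sylow p-subgroups of G are chain-connected: any two of them are joined by a chain of Sylow p-subgroups, consecutive ones distinct with nontrivial intersection, all containing the intersection of the two ends (equivalently, the graph on the Sylow p-subgroups whose edges are the distinct pairs meeting nontrivially is connected). Then for every Sylow p-subgroup S, G is generated by N_G(S) together with the members of 𝓕 that meet S in a Sylow p-subgroup of themselves. -/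
theorem result {G : Type*} [Group G] [Finite G] (p : ℕ) [Fact p.Prime] (hdiv : p ∣ Nat.card G)
    (𝓕 : Set (Subgroup G)) (h𝓕 : Cfsg.IsNormalSet 𝓕) (hc : Cfsg.ControlsSylowIntersections p 𝓕)
    (hconn : Cfsg.IsSylowChainConnected p G) (S : Sylow p G) :
    (⨆ X ∈ Cfsg.sylowMembers p 𝓕 (S : Subgroup G), X) ⊔ Subgroup.normalizer ((S : Subgroup G) : Set G) = ⊤ := by
  set H : Subgroup G := (⨆ X ∈ Cfsg.sylowMembers p 𝓕 (S : Subgroup G), X) ⊔
    Subgroup.normalizer ((S : Subgroup G) : Set G) with hH
  have hXH : ∀ X ∈ sylowMembers p 𝓕 (S : Subgroup G), X ≤ H := by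
    intro X hX
    exact (le_biSup (fun X => X) hX).trans le_sup_left
  have hNH : Subgroup.normalizer ((S : Subgroup G) : Set G) ≤ H := le_sup_right
  have stepA : ∀ (D : Subgroup G) (A B : Sylow p G), (∃ h ∈ H, h • S = A) → Link p 𝓕 D A B →
      ∃ h ∈ H, h • S = B := by
    rintro D A B ⟨h, hh, rfl⟩ ⟨X, x, hXA, hXB, hxX, hconj, -⟩
    have h1 := sylowMembers_conj h𝓕 (h • S).isPGroup' h hXA
    have h2 : subgroupConjRight h ((h • S : Sylow p G) : Subgroup G) = (S : Subgroup G) := by
      rw [subgroupConjRight_sylow, inv_smul_smul]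
    rw [h2] at h1
    have h3 : h⁻¹ * x * h ∈ H := by
      apply hXH _ h1
      rw [mem_subgroupConjRight_iff]
      have : h * (h⁻¹ * x * h) * h⁻¹ = x := by group
      rw [this]
      exact hxX
    have hxH : x ∈ H := by
      have := H.mul_mem (H.mul_mem hh h3) (H.inv_mem hh)
      have h4 : h * (h⁻¹ * x * h) * h⁻¹ = x := by group
      rwa [h4] at this
    refine ⟨x * h, H.mul_mem hxH hh, ?_⟩
    rw [subgroupConjRight_sylow] at hconj
    have h5 : x⁻¹ • B = h • S := Sylow.ext hconj
    rw [mul_smul, ← h5, smul_inv_smul]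
  have stepB : ∀ (A B : Sylow p G), (∃ h ∈ H, h • S = A) → A ≠ B →
      (A : Subgroup G) ⊓ (B : Subgroup G) ≠ ⊥ → ∃ h ∈ H, h • S = B := by
    intro A B hA hne hbot
    have h1 := controls_iff.mp hc A B hne hbot
    have key : ∀ (D : Subgroup G) (B' : Sylow p G), Relation.ReflTransGen (Link p 𝓕 D) A B' →
        ∃ h ∈ H, h • S = B' := by
      intro D B' h2
      induction h2 with
      | refl => exact hA
      | tail _ hlink ih => exact stepA _ _ _ ih hlink
    exact key _ _ h1
  have hall : ∀ T : Sylow p G, ∃ h ∈ H, h • S = T := by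
    intro T
    have h1 := chainConnected_reflTransGen hconn S T
    induction h1 with
    | refl => exact ⟨1, H.one_mem, one_smul _ _⟩
    | tail _ hlink ih => exact stepB _ _ ih hlink.1 hlink.2
  rw [eq_top_iff]
  intro g _
  obtain ⟨h, hh, hhS⟩ := hall (g • S)
  have h1 : (h⁻¹ * g) • S = S := by
    rw [mul_smul, ← hhS, inv_smul_smul]
  have h2 : h⁻¹ * g ∈ H := hNH (Sylow.smul_eq_iff_mem_normalizer.mp h1)
  have := H.mul_mem hh h2
  simpa using this

end Cfsg.Agent.S2955
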