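import Cfsg.Statements.S2956
import Cfsg.Agent.Lib.Helper49.AxB
import Cfsg.Agent.Lib.Helper49.FunctorRegular

set_option autoImplicit false
open Cfsg

namespace Cfsg.Agent.S2956

open Cfsg.Agent.Lib.Helper49.AxB Cfsg.Agent.Lib.Helper49.SylowConj
  Cfsg.Agent.Lib.Helper49.SylowChain Cfsg.Agent.Lib.Helper49.FunctorRegular

variable {G : Type*} [Group G]

/-- A `p`-subgroup of `M` lies in (the image of) a Sylow `p`-subgroup of `M`. -/
theorem exists_sylowIn_ge {p : ℕ} {M E : Subgroup G} (hE : IsPGroup p ↥E) (hEM : E ≤ M) :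
    ∃ Q : Sylow p ↥M, E ≤ (Q : Subgroup ↥M).map M.subtype := by
  have hE' : IsPGroup p ↥(E.subgroupOf M) := hE.comap_subtype
  obtain ⟨Q, hQ⟩ := hE'.exists_le_sylow
  refine ⟨Q, fun u hu => ?_⟩
  exact Subgroup.mem_map.mpr ⟨⟨u, hEM hu⟩, hQ (Subgroup.mem_subgroupOf.mpr hu), rfl⟩

theorem card_sylowIn_eq [Finite G] {p : ℕ} [Fact p.Prime] {M : Subgroup G} (Q Q' : Sylow p ↥M) :
    Nat.card ↥((Q : Subgroup ↥M).map M.subtype) =
      Nat.card ↥((Q' : Subgroup ↥M).map M.subtype) := by
  rw [Subgroup.card_subtype, Subgroup.card_subtype, Sylow.card_eq_multiplicity,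
    Sylow.card_eq_multiplicity]

theorem card_le_card_sylowIn [Finite G] {p : ℕ} [Fact p.Prime] {M E : Subgroup G}
    (hE : IsPGroup p ↥E) (hEM : E ≤ M) (Q : Sylow p ↥M) :
    Nat.card ↥E ≤ Nat.card ↥((Q : Subgroup ↥M).map M.subtype) := by
  obtain ⟨Q', hQ'⟩ := exists_sylowIn_ge hE hEM
  rw [card_sylowIn_eq Q Q']
  exact Subgroup.card_le_of_le hQ'

/-- A Sylow `p`-subgroup of `M` inside a `p`-subgroup `A` of `G` is `A ∩ M`. -/
theorem sylowIn_eq_inf {p : ℕ} {M : Subgroup G} (Q : Sylow p ↥M) {A : Subgroup G}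
    (hA : IsPGroup p ↥A) (hQA : (Q : Subgroup ↥M).map M.subtype ≤ A) :
    (Q : Subgroup ↥M).map M.subtype = A ⊓ M := by
  have h1 : IsPGroup p ↥((A ⊓ M).subgroupOf M) := (hA.to_inf_left).comap_subtype
  have h2 : (Q : Subgroup ↥M) ≤ (A ⊓ M).subgroupOf M := by
    intro u hu
    rw [Subgroup.mem_subgroupOf]
    exact Subgroup.mem_inf.mpr ⟨hQA (Subgroup.mem_map.mpr ⟨u, hu, rfl⟩), u.2⟩
  have h3 := Q.is_maximal' h1 h2
  have h4 : ((A ⊓ M).subgroupOf M).map M.subtype = A ⊓ M :=
    Subgroup.map_subgroupOf_eq_of_le inf_le_right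
  rw [← h4]
  exact congrArg (fun Z => Subgroup.map M.subtype Z) h3.symm

theorem exists_maximalPLocal_ge [Finite G] {p : ℕ} {N : Subgroup G} (hN : IsPLocal p N) :
    ∃ M, IsMaximalPLocal p M ∧ N ≤ M := by
  obtain ⟨M, hNM, hM⟩ := Finite.exists_le_maximal (p := IsPLocal p) hN
  exact ⟨M, ⟨hM.1, fun N' hN' hMN' => le_antisymm (hM.2 hN' hMN') hMN'⟩, hNM⟩

theorem link_mono {p : ℕ} {𝓚 : Set (Subgroup G)} {D D' : Subgroup G} (h : D' ≤ D)
    {A B : Sylow p G} (hl : Link p 𝓚 D A B) : Link p 𝓚 D' A B := by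
  obtain ⟨X, x, h1, h2, h3, h4, h5⟩ := hl
  exact ⟨X, x, h1, h2, h3, h4, h.trans h5⟩

theorem link_of_glink [Finite G] {p : ℕ} [Fact p.Prime] {f : Subgroup G → Set (Subgroup G)}
    (hf : IsNormalizerFunctor p f) (𝓕' : Set (Subgroup G)) {D : Subgroup G} {A B : Sylow p G}
    (hl : GLink p f D A B) : Link p (functorFamily p f ⊤ ∪ 𝓕') D A B := by
  obtain ⟨P, F, x, hF, hA, hB, hxN, hconj, hD⟩ := hl
  have hX : ⊤ ⊓ Subgroup.normalizer (F : Set G) ∈ functorFamily p f ⊤ := by
    refine ⟨P.subtype (le_top : (P : Subgroup G) ≤ ⊤), F, ?_, rfl⟩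
    rw [Sylow.coe_subtype, Subgroup.map_subgroupOf_eq_of_le le_top]
    exact hF
  have hfP := (hf _ P.isPGroup').1 F hF
  have hPX : (P : Subgroup G) ≤ ⊤ ⊓ Subgroup.normalizer (F : Set G) :=
    le_inf le_top (Subgroup.le_normalizer.trans hfP.2)
  exact ⟨⊤ ⊓ Subgroup.normalizer (F : Set G), x,
    ⟨Or.inl hX, (sylowInter_iff_le P A hPX).mpr (le_inf le_top hA)⟩,
    ⟨Or.inl hX, (sylowInter_iff_le P B hPX).mpr (le_inf le_top hB)⟩,
    Subgroup.mem_inf.mpr ⟨Subgroup.mem_top x, hxN⟩, hconj,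
    le_inf hD (hD.trans (le_inf le_top hB))⟩

/-- One link inside a regular maximal `p`-local subgroup lifts to a chain in `G`. -/
theorem step [Finite G] {p : ℕ} [Fact p.Prime] {f : Subgroup G → Set (Subgroup G)}
    (hf : IsNormalizerFunctor p f)
    (hf1 : ∀ P : Subgroup G, IsPGroup p ↥P → P ≠ ⊥ → ∀ F ∈ f P, F ≠ ⊥)
    (𝓕' : Set (Subgroup G)) (D : Subgroup G) (hDne : D ≠ ⊥)
    (C1 : ∀ (S' T' : Sylow p G) (E : Subgroup G), E ≤ (S' : Subgroup G) → E ≤ (T' : Subgroup G) →
      D ≤ E → D ≠ E → Relation.ReflTransGen (Link p (functorFamily p f ⊤ ∪ 𝓕') D) S' T')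
    (k : ℕ) (M : Subgroup G)
    (IH : ∀ (M' : Subgroup G), IsMaximalPLocal p M' → ∀ (S₁ T₁ : Sylow p ↥M'),
      Nat.card G < Nat.card ↥((S₁ : Subgroup ↥M').map M'.subtype) + k →
      D ≤ (S₁ : Subgroup ↥M').map M'.subtype → D ≤ (T₁ : Subgroup ↥M').map M'.subtype →
      D ≠ (S₁ : Subgroup ↥M').map M'.subtype →
      ∀ Sstar Tstar : Sylow p G, (S₁ : Subgroup ↥M').map M'.subtype ≤ (Sstar : Subgroup G) →
        (T₁ : Subgroup ↥M').map M'.subtype ≤ (Tstar : Subgroup G) →
        Relation.ReflTransGen (Link p (functorFamily p f ⊤ ∪ 𝓕') D) Sstar Tstar)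
    (c c' : Sylow p ↥M) (D₁ : Subgroup G) (hDD₁ : D ≤ D₁)
    (hDc : D ≤ (c : Subgroup ↥M).map M.subtype) (hDc_ne : D ≠ (c : Subgroup ↥M).map M.subtype)
    (hk : Nat.card G < Nat.card ↥((c : Subgroup ↥M).map M.subtype) + (k + 1))
    (hl : MLink p f M D₁ c c') (C C' : Sylow p G)
    (hC : (c : Subgroup ↥M).map M.subtype ≤ (C : Subgroup G))
    (hC' : (c' : Subgroup ↥M).map M.subtype ≤ (C' : Subgroup G)) :
    Relation.ReflTransGen (Link p (functorFamily p f ⊤ ∪ 𝓕') D) C C' := by
  obtain ⟨P, F, x, hF, hcN, hc'N, hxM, hxN, hconj, hD₁c'⟩ := hl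
  have hPp : IsPGroup p ↥((P : Subgroup ↥M).map M.subtype) := P.isPGroup'.map _
  have hfP := (hf _ hPp).1 F hF
  have hcard_c : Nat.card ↥((c : Subgroup ↥M).map M.subtype) =
      Nat.card ↥((P : Subgroup ↥M).map M.subtype) := card_sylowIn_eq c P
  have hcard_c' : Nat.card ↥((c' : Subgroup ↥M).map M.subtype) =
      Nat.card ↥((P : Subgroup ↥M).map M.subtype) := card_sylowIn_eq c' P
  have hDc' : D ≤ (c' : Subgroup ↥M).map M.subtype := hDD₁.trans hD₁c'
  have hDc'_ne : D ≠ (c' : Subgroup ↥M).map M.subtype := by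
    intro h
    apply hDc_ne
    apply Subgroup.eq_of_le_of_card_ge hDc
    rw [hcard_c, ← hcard_c', ← h]
  have hPne : (P : Subgroup ↥M).map M.subtype ≠ ⊥ := by
    intro h
    apply hDne
    rw [eq_bot_iff]
    have h1 : (c : Subgroup ↥M).map M.subtype = ⊥ := by
      rw [← Subgroup.card_eq_one, hcard_c, h, Subgroup.card_bot]
    rw [← h1]
    exact hDc
  have hFne : F ≠ ⊥ := hf1 _ hPp hPne F hF
  have hFp : IsPGroup p ↥F := hPp.to_le hfP.1
  by_cases hSyl : ∃ Pstar : Sylow p G, (Pstar : Subgroup G) = (P : Subgroup ↥M).map M.subtype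
  · obtain ⟨Pstar, hPstar⟩ := hSyl
    have hCeq : (c : Subgroup ↥M).map M.subtype = (C : Subgroup G) := by
      apply Subgroup.eq_of_le_of_card_ge hC
      rw [hcard_c, ← hPstar, Sylow.card_eq_multiplicity, Sylow.card_eq_multiplicity]
    have hC'eq : (c' : Subgroup ↥M).map M.subtype = (C' : Subgroup G) := by
      apply Subgroup.eq_of_le_of_card_ge hC'
      rw [hcard_c', ← hPstar, Sylow.card_eq_multiplicity, Sylow.card_eq_multiplicity]
    refine Relation.ReflTransGen.single ?_
    apply link_of_glink hf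
    refine ⟨Pstar, F, x, ?_, ?_, ?_, hxN, ?_, ?_⟩
    · rw [hPstar]
      exact hF
    · rw [← hCeq]
      exact hcN
    · rw [← hC'eq]
      exact hc'N
    · rw [← hCeq, ← hC'eq]
      exact hconj
    · rw [← hC'eq]
      exact hDc'
  · obtain ⟨Pstar, hPstar⟩ := hPp.exists_le_sylow
    have hne : (P : Subgroup ↥M).map M.subtype ≠ (Pstar : Subgroup G) :=
      fun h => hSyl ⟨Pstar, h.symm⟩
    obtain ⟨g, hg1, hg2, hg3⟩ := exists_mem_normalizer_not_mem Pstar.isPGroup' hPstar hne
    have hR₀p : IsPGroup p ↥((Pstar : Subgroup G) ⊓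
        Subgroup.normalizer (((P : Subgroup ↥M).map M.subtype : Subgroup G) : Set G) :
        Subgroup G) := Pstar.isPGroup'.to_inf_left
    have hPR₀ : (P : Subgroup ↥M).map M.subtype ≤ (Pstar : Subgroup G) ⊓
        Subgroup.normalizer (((P : Subgroup ↥M).map M.subtype : Subgroup G) : Set G) :=
      le_inf hPstar Subgroup.le_normalizer
    have hcardR₀ : Nat.card ↥((P : Subgroup ↥M).map M.subtype) <
        Nat.card ↥((Pstar : Subgroup G) ⊓
          Subgroup.normalizer (((P : Subgroup ↥M).map M.subtype : Subgroup G) : Set G) :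
          Subgroup G) := by
      by_contra hcon
      have h1 := Subgroup.eq_of_le_of_card_ge hPR₀ (not_lt.mp hcon)
      apply hg3
      rw [h1]
      exact Subgroup.mem_inf.mpr ⟨hg1, hg2⟩
    have hR₀N : (Pstar : Subgroup G) ⊓
        Subgroup.normalizer (((P : Subgroup ↥M).map M.subtype : Subgroup G) : Set G) ≤
        Subgroup.normalizer (F : Set G) := inf_le_right.trans hfP.2
    have hNloc : IsPLocal p (Subgroup.normalizer (F : Set G)) := ⟨F, hFp, hFne, rfl⟩
    obtain ⟨M', hM', hNM'⟩ := exists_maximalPLocal_ge hNloc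
    have hcp : IsPGroup p ↥((c : Subgroup ↥M).map M.subtype) := c.isPGroup'.map _
    have hc'p : IsPGroup p ↥((c' : Subgroup ↥M).map M.subtype) := c'.isPGroup'.map _
    obtain ⟨c₁, hc₁⟩ := exists_sylowIn_ge hcp (hcN.trans hNM')
    obtain ⟨c₁', hc₁'⟩ := exists_sylowIn_ge hc'p (hc'N.trans hNM')
    have hcard₁ : Nat.card ↥((c : Subgroup ↥M).map M.subtype) <
        Nat.card ↥((c₁ : Subgroup ↥M').map M'.subtype) := by
      rw [hcard_c]
      exact lt_of_lt_of_le hcardR₀ (card_le_card_sylowIn hR₀p (hR₀N.trans hNM') c₁)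
    obtain ⟨C₁, hC₁⟩ := (c₁.isPGroup'.map M'.subtype).exists_le_sylow
    obtain ⟨C₁', hC₁'⟩ := (c₁'.isPGroup'.map M'.subtype).exists_le_sylow
    have hDc₁_ne : D ≠ (c₁ : Subgroup ↥M').map M'.subtype := by
      intro h
      have h1 : Nat.card ↥D ≤ Nat.card ↥((c : Subgroup ↥M).map M.subtype) :=
        Subgroup.card_le_of_le hDc
      rw [h] at h1
      omega
    have h1 := IH M' hM' c₁ c₁' (by omega) (hDc.trans hc₁) (hDc'.trans hc₁') hDc₁_ne C₁ C₁'
      hC₁ hC₁'
    have h2 := C1 C C₁ _ hC (hc₁.trans hC₁) hDc hDc_ne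
    have h3 := C1 C₁' C' _ (hc₁'.trans hC₁') hC' hDc' hDc'_ne
    exact (h2.trans h1).trans h3

/-- Sylow `p`-subgroups of `G` over Sylow `p`-subgroups of a maximal `p`-local subgroup that
contain `D` properly are joined by a chain over `D`. -/
theorem claim [Finite G] {p : ℕ} [Fact p.Prime] {f : Subgroup G → Set (Subgroup G)}
    (hf : IsNormalizerFunctor p f)
    (hf1 : ∀ P : Subgroup G, IsPGroup p ↥P → P ≠ ⊥ → ∀ F ∈ f P, F ≠ ⊥)
    (𝓕' : Set (Subgroup G))
    (h𝓕' : 𝓕' = {M | IsMaximalPLocal p M ∧ ¬ IsFunctorRegular p f M})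
    (D : Subgroup G) (hDne : D ≠ ⊥)
    (C1 : ∀ (S' T' : Sylow p G) (E : Subgroup G), E ≤ (S' : Subgroup G) → E ≤ (T' : Subgroup G) →
      D ≤ E → D ≠ E → Relation.ReflTransGen (Link p (functorFamily p f ⊤ ∪ 𝓕') D) S' T')
    (k : ℕ) :
    ∀ (M : Subgroup G), IsMaximalPLocal p M → ∀ (S₁ T₁ : Sylow p ↥M),
      Nat.card G < Nat.card ↥((S₁ : Subgroup ↥M).map M.subtype) + k →
      D ≤ (S₁ : Subgroup ↥M).map M.subtype → D ≤ (T₁ : Subgroup ↥M).map M.subtype →
      D ≠ (S₁ : Subgroup ↥M).map M.subtype →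
      ∀ Sstar Tstar : Sylow p G, (S₁ : Subgroup ↥M).map M.subtype ≤ (Sstar : Subgroup G) →
        (T₁ : Subgroup ↥M).map M.subtype ≤ (Tstar : Subgroup G) →
        Relation.ReflTransGen (Link p (functorFamily p f ⊤ ∪ 𝓕') D) Sstar Tstar := by
  induction k with
  | zero =>
    intro M _ S₁ T₁ hk
    exfalso
    have h1 : Nat.card ↥((S₁ : Subgroup ↥M).map M.subtype) ≤ Nat.card G :=
      Subgroup.card_le_card_group _
    omega
  | succ k ih =>
    intro M hM S₁ T₁ hk hDS hDT hDS_ne Sstar Tstar hS hT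
    by_cases hreg : IsFunctorRegular p f M
    · by_cases hST : S₁ = T₁
      · subst hST
        exact C1 Sstar Tstar _ hS hT hDS hDS_ne
      · have hbot : (S₁ : Subgroup ↥M) ⊓ (T₁ : Subgroup ↥M) ≠ ⊥ := by
          intro h
          apply hDne
          rw [eq_bot_iff]
          have h1 : D ≤ (S₁ : Subgroup ↥M).map M.subtype ⊓ (T₁ : Subgroup ↥M).map M.subtype :=
            le_inf hDS hDT
          rw [← Subgroup.map_inf _ _ _ (Subgroup.subtype_injective M), h, Subgroup.map_bot] at h1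
          exact h1
        have hchain := mlink_chain_of_regular hf hreg S₁ T₁ hST hbot
        have key : ∀ c : Sylow p ↥M,
            Relation.ReflTransGen (MLink p f M ((S₁ : Subgroup ↥M).map M.subtype ⊓
              (T₁ : Subgroup ↥M).map M.subtype)) S₁ c →
            (D ≤ (c : Subgroup ↥M).map M.subtype ∧ ∀ C : Sylow p G,
              (c : Subgroup ↥M).map M.subtype ≤ (C : Subgroup G) →
              Relation.ReflTransGen (Link p (functorFamily p f ⊤ ∪ 𝓕') D) Sstar C) := by
          intro c hc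
          induction hc with
          | refl => exact ⟨hDS, fun C hC => C1 Sstar C _ hS hC hDS hDS_ne⟩
          | @tail c c' _ hl ih2 =>
            obtain ⟨hDc, ih3⟩ := ih2
            have hDc' : D ≤ (c' : Subgroup ↥M).map M.subtype := by
              obtain ⟨_, _, _, _, _, _, _, _, _, h⟩ := hl
              exact (le_inf hDS hDT).trans h
            refine ⟨hDc', fun C' hC' => ?_⟩
            obtain ⟨C, hC⟩ := (c.isPGroup'.map M.subtype).exists_le_sylow
            have h1 := ih3 C hC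
            have hDc_ne : D ≠ (c : Subgroup ↥M).map M.subtype := by
              intro h
              apply hDS_ne
              apply Subgroup.eq_of_le_of_card_ge hDS
              rw [card_sylowIn_eq S₁ c, ← h]
            have hk' : Nat.card G < Nat.card ↥((c : Subgroup ↥M).map M.subtype) + (k + 1) := by
              rw [card_sylowIn_eq c S₁]
              exact hk
            have h2 := step hf hf1 𝓕' D hDne C1 k M ih c c' _ (le_inf hDS hDT) hDc hDc_ne hk' hl
              C C' hC hC'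
            exact h1.trans h2
        exact (key T₁ hchain).2 Tstar hT
    · have hM𝓕' : M ∈ 𝓕' := by
        rw [h𝓕']
        exact ⟨hM, hreg⟩
      obtain ⟨x', hx'⟩ := MulAction.exists_smul_eq ↥M S₁ T₁
      have hSA : (S₁ : Subgroup ↥M).map M.subtype ≤
          (((x' : G)⁻¹ • Tstar : Sylow p G) : Subgroup G) := by
        intro u hu
        rw [mem_smul_sylow_iff, inv_inv]
        apply hT
        obtain ⟨v, hv, rfl⟩ := Subgroup.mem_map.mp hu
        refine Subgroup.mem_map.mpr ⟨x' * v * x'⁻¹, ?_, rfl⟩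
        rw [← hx', mem_smul_sylow_iff]
        have h1 : x'⁻¹ * (x' * v * x'⁻¹) * x' = v := by group
        rw [h1]
        exact hv
      have h1 := C1 Sstar ((x' : G)⁻¹ • Tstar) _ hS hSA hDS hDS_ne
      have hlink : Link p (functorFamily p f ⊤ ∪ 𝓕') D ((x' : G)⁻¹ • Tstar) Tstar := by
        refine ⟨M, (x' : G),
          ⟨Or.inr hM𝓕', S₁, sylowIn_eq_inf S₁ ((x' : G)⁻¹ • Tstar : Sylow p G).isPGroup' hSA⟩,
          ⟨Or.inr hM𝓕', T₁, sylowIn_eq_inf T₁ Tstar.isPGroup' hT⟩, x'.2, ?_, ?_⟩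
        · rw [subgroupConjRight_sylow]
        · exact le_inf (hDT.trans hT) (hDT.trans (Subgroup.map_subtype_le _))
      exact h1.tail hlink

/-- Let p be a prime dividing the order of the finite group G, and f an assignment to every p-subgroup P of a set f(P) of subgroups of P, each normalized by N_G(P), compatible with conjugation, such that for P ≠ 1 the members of f(P) are nontrivial. Let 𝓕 be the family of the normalizers N_G(F) of the members F of f(S) over the Sylow p-subgroups S of G, and 𝓕' the family of the maximal p-local subgroups M of G that are singular for f (the corresponding family of normalizers inside M does not control Sylow p-intersections in M). Then 𝓕 ∪ 𝓕' controls Sylow p-intersections in G. -/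
theorem result {G : Type*} [Group G] [Finite G] (p : ℕ) [Fact p.Prime] (hdiv : p ∣ Nat.card G)
    (f : Subgroup G → Set (Subgroup G)) (hf : Cfsg.IsNormalizerFunctor p f)
    (hf1 : ∀ P : Subgroup G, IsPGroup p ↥P → P ≠ ⊥ → ∀ F ∈ f P, F ≠ ⊥)
    (𝓕 𝓕' : Set (Subgroup G)) (h𝓕 : 𝓕 = Cfsg.functorFamily p f ⊤)
    (h𝓕' : 𝓕' = {M | Cfsg.IsMaximalPLocal p M ∧ ¬ Cfsg.IsFunctorRegular p f M}) :
    Cfsg.ControlsSylowIntersections p (𝓕 ∪ 𝓕') := by
  subst h𝓕
  rw [controls_iff]
  have Q : ∀ (n : ℕ) (S T : Sylow p G), S ≠ T → (S : Subgroup G) ⊓ (T : Subgroup G) ≠ ⊥ →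
      Nat.card G < Nat.card ↥((S : Subgroup G) ⊓ (T : Subgroup G) : Subgroup G) + n →
      Relation.ReflTransGen
        (Link p (functorFamily p f ⊤ ∪ 𝓕') ((S : Subgroup G) ⊓ (T : Subgroup G))) S T := by
    intro n
    induction n with
    | zero =>
      intro S T _ _ h
      exfalso
      have h1 := Subgroup.card_le_card_group ((S : Subgroup G) ⊓ (T : Subgroup G))
      omega
    | succ n ih =>
      intro S T hne hbot hn
      have C1 : ∀ (S' T' : Sylow p G) (E : Subgroup G), E ≤ (S' : Subgroup G) →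
          E ≤ (T' : Subgroup G) → (S : Subgroup G) ⊓ (T : Subgroup G) ≤ E →
          (S : Subgroup G) ⊓ (T : Subgroup G) ≠ E →
          Relation.ReflTransGen
            (Link p (functorFamily p f ⊤ ∪ 𝓕') ((S : Subgroup G) ⊓ (T : Subgroup G))) S' T' := by
        intro S' T' E hES hET hDE hDE_ne
        by_cases h : S' = T'
        · rw [h]
        · have hDle : (S : Subgroup G) ⊓ (T : Subgroup G) ≤ (S' : Subgroup G) ⊓ (T' : Subgroup G) :=
            hDE.trans (le_inf hES hET)
          have hcard : Nat.card ↥((S : Subgroup G) ⊓ (T : Subgroup G) : Subgroup G) <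
              Nat.card ↥((S' : Subgroup G) ⊓ (T' : Subgroup G) : Subgroup G) := by
            by_contra hcon
            have h1 := Subgroup.eq_of_le_of_card_ge hDle (not_lt.mp hcon)
            apply hDE_ne
            apply le_antisymm hDE
            rw [h1]
            exact le_inf hES hET
          have hb : (S' : Subgroup G) ⊓ (T' : Subgroup G) ≠ ⊥ := by
            intro h2
            apply hbot
            rw [eq_bot_iff, ← h2]
            exact hDle
          have h3 := ih S' T' h hb (by omega)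
          exact Relation.ReflTransGen.mono (fun a b hl => link_mono hDle hl) _ _ h3
      have hDp : IsPGroup p ↥((S : Subgroup G) ⊓ (T : Subgroup G) : Subgroup G) :=
        S.isPGroup'.to_inf_left
      have hDS : (S : Subgroup G) ⊓ (T : Subgroup G) ≠ (S : Subgroup G) := by
        intro h
        apply hne
        have h1 : (S : Subgroup G) ≤ (T : Subgroup G) := by
          rw [← h]
          exact inf_le_right
        exact Sylow.ext (S.is_maximal' T.isPGroup' h1).symm
      have hDT : (S : Subgroup G) ⊓ (T : Subgroup G) ≠ (T : Subgroup G) := by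
        intro h
        apply hne
        have h1 : (T : Subgroup G) ≤ (S : Subgroup G) := by
          rw [← h]
          exact inf_le_left
        exact Sylow.ext (T.is_maximal' S.isPGroup' h1)
      obtain ⟨gS, hgS1, hgS2, hgS3⟩ := exists_mem_normalizer_not_mem S.isPGroup' inf_le_left hDS
      obtain ⟨gT, hgT1, hgT2, hgT3⟩ := exists_mem_normalizer_not_mem T.isPGroup' inf_le_right hDT
      have hDES : (S : Subgroup G) ⊓ (T : Subgroup G) ≤ (S : Subgroup G) ⊓
          Subgroup.normalizer ((((S : Subgroup G) ⊓ (T : Subgroup G) : Subgroup G)) : Set G) :=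
        le_inf inf_le_left Subgroup.le_normalizer
      have hDET : (S : Subgroup G) ⊓ (T : Subgroup G) ≤ (T : Subgroup G) ⊓
          Subgroup.normalizer ((((S : Subgroup G) ⊓ (T : Subgroup G) : Subgroup G)) : Set G) :=
        le_inf inf_le_right Subgroup.le_normalizer
      have hDES_ne : (S : Subgroup G) ⊓ (T : Subgroup G) ≠ (S : Subgroup G) ⊓
          Subgroup.normalizer ((((S : Subgroup G) ⊓ (T : Subgroup G) : Subgroup G)) : Set G) := by
        intro h
        apply hgS3
        rw [h]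
        exact Subgroup.mem_inf.mpr ⟨hgS1, hgS2⟩
      have hDET_ne : (S : Subgroup G) ⊓ (T : Subgroup G) ≠ (T : Subgroup G) ⊓
          Subgroup.normalizer ((((S : Subgroup G) ⊓ (T : Subgroup G) : Subgroup G)) : Set G) := by
        intro h
        apply hgT3
        rw [h]
        exact Subgroup.mem_inf.mpr ⟨hgT1, hgT2⟩
      have hNloc : IsPLocal p
          (Subgroup.normalizer ((((S : Subgroup G) ⊓ (T : Subgroup G) : Subgroup G)) : Set G)) :=
        ⟨_, hDp, hbot, rfl⟩
      obtain ⟨M, hM, hNM⟩ := exists_maximalPLocal_ge hNloc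
      obtain ⟨S₁, hS₁⟩ := exists_sylowIn_ge
        (S.isPGroup'.to_inf_left : IsPGroup p ↥((S : Subgroup G) ⊓
          Subgroup.normalizer ((((S : Subgroup G) ⊓ (T : Subgroup G) : Subgroup G)) : Set G) :
          Subgroup G)) (inf_le_right.trans hNM)
      obtain ⟨T₁, hT₁⟩ := exists_sylowIn_ge
        (T.isPGroup'.to_inf_left : IsPGroup p ↥((T : Subgroup G) ⊓
          Subgroup.normalizer ((((S : Subgroup G) ⊓ (T : Subgroup G) : Subgroup G)) : Set G) :
          Subgroup G)) (inf_le_right.trans hNM)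
      obtain ⟨Sstar, hSstar⟩ := (S₁.isPGroup'.map M.subtype).exists_le_sylow
      obtain ⟨Tstar, hTstar⟩ := (T₁.isPGroup'.map M.subtype).exists_le_sylow
      have hDS₁_ne : (S : Subgroup G) ⊓ (T : Subgroup G) ≠ (S₁ : Subgroup ↥M).map M.subtype := by
        intro h
        apply hDES_ne
        apply le_antisymm hDES
        exact hS₁.trans (le_of_eq h.symm)
      have hcl := claim hf hf1 𝓕' h𝓕' _ hbot C1 (Nat.card G + 1) M hM S₁ T₁ (by omega)
        (hDES.trans hS₁) (hDET.trans hT₁) hDS₁_ne Sstar Tstar hSstar hTstar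
      have h1 := C1 S Sstar _ inf_le_left (hS₁.trans hSstar) hDES hDES_ne
      have h2 := C1 Tstar T _ (hT₁.trans hTstar) inf_le_left hDET hDET_ne
      exact (h1.trans hcl).trans h2
  intro S T hne hbot
  exact Q (Nat.card G + 1) S T hne hbot (by omega)

end Cfsg.Agent.S2956
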