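import Cfsg.Statements.S2957
import Cfsg.Agent.S2940
import Cfsg.Agent.Lib.Helper49.FunctorRegular

set_option autoImplicit false
open Cfsg

namespace Cfsg.Agent.S2957

open Cfsg.Agent.Lib.Helper49.SylowConj Cfsg.Agent.Lib.Helper49.SylowChain
  Cfsg.Agent.Lib.Helper49.FunctorRegular

theorem subgroupConjRight_bot {G : Type*} [Group G] (g : G) :
    subgroupConjRight g (⊥ : Subgroup G) = ⊥ := by
  unfold subgroupConjRight
  exact Subgroup.map_bot _

/-- Let p be a prime dividing the order of the finite group G, f an equivariant assignment of a set of subgroups f(P) of P to every p-subgroup P, each normalized by N_G(P), and S a Sylow p-subgroup. If G = G₁G₂ for subgroups G₁, G₂ both containing S and both regular for f (in each Gᵢ, the family of normalizers in Gᵢ of the members of f(P), P a Sylow p-subgroup of Gᵢ, controls Sylow p-intersections), then G itself is regular for f. -/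
theorem result {G : Type*} [Group G] [Finite G] (p : ℕ) [Fact p.Prime] (hdiv : p ∣ Nat.card G)
    (f : Subgroup G → Set (Subgroup G)) (hf : Cfsg.IsNormalizerFunctor p f) (S : Sylow p G)
    (G₁ G₂ : Subgroup G) (h₁ : (S : Subgroup G) ≤ G₁) (h₂ : (S : Subgroup G) ≤ G₂)
    (hprod : ∀ g : G, ∃ g₁ ∈ G₁, ∃ g₂ ∈ G₂, g = g₁ * g₂)
    (hr₁ : Cfsg.IsFunctorRegular p f G₁) (hr₂ : Cfsg.IsFunctorRegular p f G₂) :
    Cfsg.IsFunctorRegular p f ⊤ := by
  apply regular_top_of_glink_chain hf
  have core : ∀ g : G, (S : Subgroup G) ⊓ ((g⁻¹ • S : Sylow p G) : Subgroup G) ≠ ⊥ →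
      Relation.ReflTransGen
        (GLink p f ((S : Subgroup G) ⊓ ((g⁻¹ • S : Sylow p G) : Subgroup G))) S (g⁻¹ • S) := by
    intro g hbot
    obtain ⟨U, hU1, hU2⟩ := Cfsg.Agent.S2940.result S G₁ G₂ h₁ h₂ hprod g
    rw [subgroupConjRight_sylow] at hU1
    have hUG₁ : (U : Subgroup G) ≤ G₁ := hU2.trans inf_le_left
    have hUG₂ : ((g • U : Sylow p G) : Subgroup G) ≤ G₂ := by
      intro u hu
      rw [mem_smul_sylow_iff] at hu
      have h3 := (hU2.trans inf_le_right) hu
      rw [mem_subgroupConjRight_iff] at h3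
      have e : g * (g⁻¹ * u * g) * g⁻¹ = u := by group
      rwa [e] at h3
    have part1 : Relation.ReflTransGen
        (GLink p f ((S : Subgroup G) ⊓ ((g⁻¹ • S : Sylow p G) : Subgroup G))) S U := by
      by_cases hSU : S = U
      · rw [← hSU]
      · have hb : (S : Subgroup G) ⊓ (U : Subgroup G) ≠ ⊥ := by
          intro h
          apply hbot
          rw [eq_bot_iff, ← h]
          exact le_inf inf_le_left hU1
        have h3 := glink_chain_of_regular hf S h₁ hr₁ S U h₁ hUG₁ hSU hb
        exact Relation.ReflTransGen.mono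
          (fun a b hl => hl.mono (le_inf inf_le_left hU1)) _ _ h3
    have part2 : Relation.ReflTransGen
        (GLink p f ((S : Subgroup G) ⊓ ((g⁻¹ • S : Sylow p G) : Subgroup G))) U (g⁻¹ • S) := by
      by_cases hUS : g • U = S
      · have h3 : U = g⁻¹ • S := by
          rw [← hUS, inv_smul_smul]
        rw [← h3]
      · have hDU : (S : Subgroup G) ⊓ ((g⁻¹ • S : Sylow p G) : Subgroup G) ≤
            (U : Subgroup G) ⊓ ((g⁻¹ • S : Sylow p G) : Subgroup G) := le_inf hU1 inf_le_right
        have hconjD : subgroupConjRight g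
            (((g • U : Sylow p G) : Subgroup G) ⊓ (S : Subgroup G)) =
            (U : Subgroup G) ⊓ ((g⁻¹ • S : Sylow p G) : Subgroup G) := by
          rw [subgroupConjRight_inf, subgroupConjRight_sylow, subgroupConjRight_sylow,
            inv_smul_smul]
        have hb : ((g • U : Sylow p G) : Subgroup G) ⊓ (S : Subgroup G) ≠ ⊥ := by
          intro h
          rw [h, subgroupConjRight_bot] at hconjD
          apply hbot
          rw [eq_bot_iff]
          refine hDU.trans ?_
          rw [← hconjD]
        have h3 := glink_chain_of_regular hf S h₂ hr₂ (g • U) S hUG₂ h₂ hUS hb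
        have h4 := Relation.ReflTransGen.lift (fun R : Sylow p G => g⁻¹ • R)
          (r := GLink p f (((g • U : Sylow p G) : Subgroup G) ⊓ (S : Subgroup G)))
          (p := GLink p f ((S : Subgroup G) ⊓ ((g⁻¹ • S : Sylow p G) : Subgroup G)))
          (fun a b hl => (glink_conj hf g hl).mono (by
            rw [hconjD]
            exact hDU)) _ _ h3
        simp only [Function.onFun, inv_smul_smul] at h4
        exact h4
    exact part1.trans part2
  intro A B hne hbot
  obtain ⟨a, ha⟩ := MulAction.exists_smul_eq G S A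
  obtain ⟨b, hb⟩ := MulAction.exists_smul_eq G S B
  set g : G := b⁻¹ * a with hg
  have hB : a • (g⁻¹ • S) = B := by
    rw [← mul_smul, hg, mul_inv_rev, inv_inv, mul_inv_cancel_left, hb]
  have hconjD : subgroupConjRight a⁻¹
      ((S : Subgroup G) ⊓ ((g⁻¹ • S : Sylow p G) : Subgroup G)) =
      (A : Subgroup G) ⊓ (B : Subgroup G) := by
    rw [subgroupConjRight_inf, subgroupConjRight_sylow, subgroupConjRight_sylow, inv_inv, ha, hB]
  have hbot' : (S : Subgroup G) ⊓ ((g⁻¹ • S : Sylow p G) : Subgroup G) ≠ ⊥ := by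
    intro h
    rw [h, subgroupConjRight_bot] at hconjD
    exact hbot hconjD.symm
  have h3 := core g hbot'
  have h4 := Relation.ReflTransGen.lift (fun R : Sylow p G => a⁻¹⁻¹ • R)
    (r := GLink p f ((S : Subgroup G) ⊓ ((g⁻¹ • S : Sylow p G) : Subgroup G)))
    (p := GLink p f ((A : Subgroup G) ⊓ (B : Subgroup G)))
    (fun a' b' hl => (glink_conj hf a⁻¹ hl).mono (by rw [hconjD])) _ _ h3
  simp only [Function.onFun, inv_inv] at h4
  rw [ha, hB] at h4
  exact h4

end Cfsg.Agent.S2957
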