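import Cfsg.Statements.S2958

set_option autoImplicit false
open Cfsg

namespace Cfsg.Agent.S2958

/-- Let X, A, B be subgroups of a group G such that G is generated by the conjugates of X and every conjugate of X is contained in A or in B. Then A = G or B = G. -/
theorem result {G : Type*} [Group G] (X A B : Subgroup G) (hgen : (⨆ g : G, X.map (MulAut.conj g).toMonoidHom) = ⊤) (hcover : ∀ g : G, X.map (MulAut.conj g).toMonoidHom ≤ A ∨ X.map (MulAut.conj g).toMonoidHom ≤ B) : A = ⊤ ∨ B = ⊤ := by
  classical
  by_cases hall : ∀ g : G, X.map (MulAut.conj g).toMonoidHom ≤ A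
  · left
    rw [eq_top_iff, ← hgen]
    exact iSup_le hall
  · right
    obtain ⟨g₀, hg₀⟩ := not_forall.mp hall
    -- B₀ = join of conjugates not in A
    set B₀ : Subgroup G := ⨆ g : {g : G // ¬ X.map (MulAut.conj g).toMonoidHom ≤ A},
      X.map (MulAut.conj g.1).toMonoidHom with hB₀
    have hB₀B : B₀ ≤ B := by
      rw [hB₀]
      refine iSup_le ?_
      rintro ⟨g, hg⟩
      exact (hcover g).resolve_left hg
    have hmem : ∀ g : G, ¬ X.map (MulAut.conj g).toMonoidHom ≤ A →
        X.map (MulAut.conj g).toMonoidHom ≤ B₀ := by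
      intro g hg
      exact le_iSup (fun g : {g : G // ¬ X.map (MulAut.conj g).toMonoidHom ≤ A} =>
        X.map (MulAut.conj g.1).toMonoidHom) ⟨g, hg⟩
    -- conjugating a conjugate
    have hconj : ∀ (a g : G), (X.map (MulAut.conj g).toMonoidHom).map (MulAut.conj a).toMonoidHom
        = X.map (MulAut.conj (a * g)).toMonoidHom := by
      intro a g
      rw [Subgroup.map_map]
      congr 1
      ext x
      simp [mul_assoc]
    -- elements of A normalize B₀
    have hAnorm : ∀ a ∈ A, B₀.map (MulAut.conj a).toMonoidHom ≤ B₀ := by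
      intro a ha
      rw [hB₀, Subgroup.map_iSup]
      refine iSup_le ?_
      rintro ⟨g, hg⟩
      rw [hconj]
      apply hmem
      intro hcon
      apply hg
      intro x hx
      have h1 : a * x * a⁻¹ ∈ X.map (MulAut.conj (a * g)).toMonoidHom := by
        rw [← hconj]
        exact ⟨x, hx, rfl⟩
      have h2 := hcon h1
      have h3 : a⁻¹ * (a * x * a⁻¹) * a ∈ A := A.mul_mem (A.mul_mem (A.inv_mem ha) h2) ha
      simpa [mul_assoc] using h3
    have hBnorm : ∀ b ∈ B₀, B₀.map (MulAut.conj b).toMonoidHom ≤ B₀ := by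
      intro b hb
      rintro _ ⟨x, hx, rfl⟩
      exact B₀.mul_mem (B₀.mul_mem hb hx) (B₀.inv_mem hb)
    -- the set of elements g with g B₀ g⁻¹ ≤ B₀ and g⁻¹ B₀ g ≤ B₀ is a subgroup = normalizer
    have hN : ∀ g : G, B₀.map (MulAut.conj g).toMonoidHom ≤ B₀ := by
      have key : (⊤ : Subgroup G) ≤ Subgroup.normalizer (B₀ : Set G) := by
        rw [← hgen]
        refine iSup_le ?_
        intro g
        by_cases hg : X.map (MulAut.conj g).toMonoidHom ≤ A
        · intro y hy
          have hyA : y ∈ A := hg hy
          rw [Subgroup.mem_normalizer_iff]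
          intro h
          constructor
          · intro hh
            exact hAnorm y hyA ⟨h, hh, rfl⟩
          · intro hh
            have := hAnorm y⁻¹ (A.inv_mem hyA) ⟨_, hh, rfl⟩
            simpa [mul_assoc] using this
        · exact (hmem g hg).trans Subgroup.le_normalizer
      intro g
      rintro _ ⟨x, hx, rfl⟩
      have hg : g ∈ Subgroup.normalizer (B₀ : Set G) := key (Subgroup.mem_top g)
      rw [Subgroup.mem_normalizer_iff] at hg
      exact (hg x).1 hx
    -- all conjugates of X lie in B₀
    have hallB : ∀ g : G, X.map (MulAut.conj g).toMonoidHom ≤ B₀ := by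
      intro g
      have h1 : X.map (MulAut.conj g).toMonoidHom
          = (X.map (MulAut.conj g₀).toMonoidHom).map (MulAut.conj (g * g₀⁻¹)).toMonoidHom := by
        rw [hconj]
        simp
      rw [h1]
      exact (Subgroup.map_mono (hmem g₀ hg₀)).trans (hN _)
    rw [eq_top_iff, ← hgen]
    exact (iSup_le hallB).trans hB₀B

end Cfsg.Agent.S2958
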