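import Cfsg.Statements.S2961
import Cfsg.Agent.Lib.Helper49.AxB

set_option autoImplicit false
open Cfsg

namespace Cfsg.Agent.S2961

open Cfsg.Agent.Lib.Helper49.CharP Cfsg.Agent.Lib.Helper49.AxB

/-- A `p'`-element `y` of `C_L(O_p(L))` whose commutators with `O_p(G)` lie in `L` is trivial, when `G` has
characteristic `p`. -/
theorem eq_one_of_commutators_mem {G : Type*} [Group G] [Finite G] {p : ℕ} [Fact p.Prime]
    (hG : Subgroup.centralizer (pCore p G : Set G) ≤ pCore p G) (L : Subgroup G) (y : ↥L)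
    (hy : y ∈ Subgroup.centralizer (pCore p ↥L : Set ↥L)) {m : ℕ} (hm : Nat.Coprime m p)
    (hym : y ^ m = 1) (hcomm : ∀ a ∈ pCore p G, a⁻¹ * (y : G) * a * (y : G)⁻¹ ∈ L) : y = 1 := by
  have hPG := pCore_isPGroup p G
  have hsub : (pCore p G).subgroupOf L ≤ pCore p ↥L :=
    le_pCore inferInstance (hPG.comap_subtype)
  have hym' : (y : G) ^ m = 1 := by
    have := congrArg Subtype.val hym
    simpa using this
  have hcent : (y : G) ∈ Subgroup.centralizer (pCore p G : Set G) := by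
    rw [Subgroup.mem_centralizer_iff]
    intro a ha
    have hc1 : a⁻¹ * (y : G) * a * (y : G)⁻¹ ∈ pCore p G := by
      have h1 : (y : G) * a * (y : G)⁻¹ ∈ pCore p G := (pCore_normal p G).conj_mem a ha y
      have h2 := (pCore p G).mul_mem ((pCore p G).inv_mem ha) h1
      simpa [mul_assoc] using h2
    have hc2 := hcomm a ha
    have hc3 : (⟨a⁻¹ * (y : G) * a * (y : G)⁻¹, hc2⟩ : ↥L) ∈ pCore p ↥L := hsub hc1
    have hc4 := (Subgroup.mem_centralizer_iff.mp hy) _ hc3
    have hc5 : Commute (y : G) (a⁻¹ * (y : G) * a * (y : G)⁻¹) := by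
      have := congrArg Subtype.val hc4
      exact this.symm
    obtain ⟨j, hj⟩ := hPG ⟨_, hc1⟩
    have hj' : (a⁻¹ * (y : G) * a * (y : G)⁻¹) ^ (p ^ j) = 1 := by
      have := congrArg Subtype.val hj
      simpa using this
    exact (commute_of_commutator_commute hym' hj' (Nat.Coprime.pow_right j hm) hc5).eq.symm
  obtain ⟨j, hj⟩ := hPG ⟨_, hG hcent⟩
  have hj' : (y : G) ^ (p ^ j) = 1 := by
    have := congrArg Subtype.val hj
    simpa using this
  exact Subtype.ext (eq_one_of_pow_eq_one_of_coprime hj' hym' hm)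

/-- Let G be a finite group of characteristic p (C_G(O_p(G)) ≤ O_p(G)), p prime, T a Sylow p-subgroup of G and Q a normal subgroup of T with C_T(Q) ≤ Q. Then every subgroup L of G containing Q has characteristic p: C_L(O_p(L)) ≤ O_p(L). -/
theorem result {G : Type*} [Group G] [Finite G] {p : ℕ} [Fact p.Prime] (hG : Subgroup.centralizer (Cfsg.pCore p G : Set G) ≤ Cfsg.pCore p G) (T : Sylow p G) (Q : Subgroup G) (hQT : Q ≤ (T : Subgroup G)) (hQn : (T : Subgroup G) ≤ Subgroup.normalizer (Q : Set G)) (hC : (T : Subgroup G) ⊓ Subgroup.centralizer (Q : Set G) ≤ Q) (L : Subgroup G) (hQL : Q ≤ L) : Subgroup.centralizer (Cfsg.pCore p ↥L : Set ↥L) ≤ Cfsg.pCore p ↥L := by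
  classical
  have hPG := pCore_isPGroup p G
  have hPT : pCore p G ≤ (T : Subgroup G) := hPG.le_sylow_of_normal T
  have hQp : IsPGroup p Q := T.isPGroup'.to_le hQT
  have hCQ : Subgroup.centralizer (Q : Set G) ≤ Q := centralizer_le_of_sylow hG T Q hQT hQn hC
  -- conjugates of Q are normalized by O_p(G)
  have hF3 : ∀ g : G, ∀ a ∈ pCore p G, ∀ q ∈ Q, ∃ q' ∈ Q, a * (g * q * g⁻¹) * a⁻¹ = g * q' * g⁻¹ := by
    intro g a ha q hq
    have h1 : g⁻¹ * a * g ∈ pCore p G := by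
      have := (pCore_normal p G).conj_mem a ha g⁻¹
      simpa using this
    have h2 : g⁻¹ * a * g ∈ Subgroup.normalizer (Q : Set G) := hQn (hPT h1)
    have h3 : (g⁻¹ * a * g) * q * (g⁻¹ * a * g)⁻¹ ∈ Q := (Subgroup.mem_normalizer_iff.mp h2 q).1 hq
    refine ⟨_, h3, ?_⟩
    group
  -- the normal closure of Q in L
  let S₀ : Set G := {z : G | ∃ l ∈ L, ∃ q ∈ Q, z = l * q * l⁻¹}
  let L₀ : Subgroup G := Subgroup.closure S₀
  have hS₀L : S₀ ⊆ (L : Set G) := by
    rintro z ⟨l, hl, q, hq, rfl⟩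
    exact L.mul_mem (L.mul_mem hl (hQL hq)) (L.inv_mem hl)
  have hL₀L : L₀ ≤ L := (Subgroup.closure_le L).mpr hS₀L
  have hQL₀ : Q ≤ L₀ := by
    intro q hq
    apply Subgroup.subset_closure
    exact ⟨1, L.one_mem, q, hq, by simp⟩
  have hLnorm : L ≤ Subgroup.normalizer (L₀ : Set G) := by
    rw [Subgroup.le_normalizer_closure_iff]
    rintro h hh z ⟨l, hl, q, hq, rfl⟩
    apply Subgroup.subset_closure
    exact ⟨h * l, L.mul_mem hh hl, q, hq, by group⟩
  -- commutators of O_p(G) with L₀ lie in O_p(G) ⊓ L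
  have hd : ∀ z ∈ L₀, ∀ a ∈ pCore p G, a * z * a⁻¹ * z⁻¹ ∈ pCore p G ⊓ L := by
    intro z hz
    induction hz using Subgroup.closure_induction with
    | mem z hz =>
      intro a ha
      obtain ⟨l, hl, q, hq, rfl⟩ := hz
      obtain ⟨q', hq', he⟩ := hF3 l a ha q hq
      constructor
      · have h1 : (l * q * l⁻¹) * a⁻¹ * (l * q * l⁻¹)⁻¹ ∈ pCore p G :=
          (pCore_normal p G).conj_mem _ ((pCore p G).inv_mem ha) _
        have h2 := (pCore p G).mul_mem ha h1
        have h3 : a * (l * q * l⁻¹ * a⁻¹ * (l * q * l⁻¹)⁻¹) = a * (l * q * l⁻¹) * a⁻¹ * (l * q * l⁻¹)⁻¹ := by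
          group
        rw [h3] at h2
        exact h2
      · rw [he]
        have h1 : l * q' * l⁻¹ ∈ L := L.mul_mem (L.mul_mem hl (hQL hq')) (L.inv_mem hl)
        have h2 : l * q * l⁻¹ ∈ L := L.mul_mem (L.mul_mem hl (hQL hq)) (L.inv_mem hl)
        exact L.mul_mem h1 (L.inv_mem h2)
    | one =>
      intro a ha
      simp
    | mul z₁ z₂ hz₁ hz₂ ih₁ ih₂ =>
      intro a ha
      have h1 := ih₁ a ha
      have h2 := ih₂ a ha
      have hz₁L : z₁ ∈ L := hL₀L hz₁
      have h3 : z₁ * (a * z₂ * a⁻¹ * z₂⁻¹) * z₁⁻¹ ∈ pCore p G ⊓ L :=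
        ⟨(pCore_normal p G).conj_mem _ h2.1 _, L.mul_mem (L.mul_mem hz₁L h2.2) (L.inv_mem hz₁L)⟩
      have h4 := (pCore p G ⊓ L).mul_mem h1 h3
      have h5 : a * z₁ * a⁻¹ * z₁⁻¹ * (z₁ * (a * z₂ * a⁻¹ * z₂⁻¹) * z₁⁻¹)
          = a * (z₁ * z₂) * a⁻¹ * (z₁ * z₂)⁻¹ := by group
      rw [h5] at h4
      exact h4
    | inv z hz ih =>
      intro a ha
      have h1 := ih a ha
      have hzL : z ∈ L := hL₀L hz
      have h2 := (pCore p G ⊓ L).inv_mem h1
      have h3 : z⁻¹ * (a * z * a⁻¹ * z⁻¹)⁻¹ * z⁻¹⁻¹ ∈ pCore p G ⊓ L :=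
        ⟨(pCore_normal p G).conj_mem _ h2.1 _,
          L.mul_mem (L.mul_mem (L.inv_mem hzL) h2.2) (L.inv_mem (L.inv_mem hzL))⟩
      have h4 : z⁻¹ * (a * z * a⁻¹ * z⁻¹)⁻¹ * z⁻¹⁻¹ = a * z⁻¹ * a⁻¹ * z⁻¹⁻¹ := by group
      rw [h4] at h3
      exact h3
  -- the relevant subgroups of L
  set R : Subgroup ↥L := pCore p ↥L with hRdef
  have hRp : IsPGroup p R := pCore_isPGroup p ↥L
  set D : Subgroup ↥L := Subgroup.centralizer (R : Set ↥L) with hDdef
  have hDn : D.Normal := inferInstance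
  have hL₀n : (L₀.subgroupOf L).Normal :=
    (Subgroup.normal_subgroupOf_iff_le_normalizer hL₀L).mpr hLnorm
  have hEn : (L₀.subgroupOf L ⊓ D).Normal := inferInstance
  -- E = L₀ ⊓ D is a p-group, hence inside R
  have hEp : IsPGroup p (L₀.subgroupOf L ⊓ D : Subgroup ↥L) := by
    apply isPGroup_of_forall_coprime_eq_one
    intro y hy m hm hym
    apply eq_one_of_commutators_mem hG L y hy.2 hm hym
    intro a ha
    have h1 : (y : G) ∈ L₀ := Subgroup.mem_subgroupOf.mp hy.1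
    have h2 := (hd (y : G) h1 a⁻¹ ((pCore p G).inv_mem ha)).2
    simpa using h2
  have hER : (L₀.subgroupOf L ⊓ D : Subgroup ↥L) ≤ R := le_pCore hEn hEp
  -- D is a p-group
  have hDp : IsPGroup p D := by
    apply isPGroup_of_forall_coprime_eq_one
    intro y hy m hm hym
    have hym' : (y : G) ^ m = 1 := by
      have := congrArg Subtype.val hym
      simpa using this
    have hyQ : (y : G) ∈ Subgroup.centralizer (Q : Set G) := by
      rw [Subgroup.mem_centralizer_iff]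
      intro q hq
      set q' : ↥L := ⟨q, hQL hq⟩ with hq'def
      set w : ↥L := y * q' * y⁻¹ * q'⁻¹ with hwdef
      have hwD : w ∈ D := by
        have h1 : q' * y⁻¹ * q'⁻¹ ∈ D := hDn.conj_mem _ (D.inv_mem hy) _
        have h2 := D.mul_mem hy h1
        have h3 : y * (q' * y⁻¹ * q'⁻¹) = w := by rw [hwdef]; group
        rwa [h3] at h2
      have hwL₀ : w ∈ L₀.subgroupOf L := by
        rw [Subgroup.mem_subgroupOf]
        have h1 : (y : G) * q * (y : G)⁻¹ ∈ L₀ :=
          Subgroup.subset_closure ⟨(y : G), y.2, q, hq, rfl⟩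
        have h2 : q⁻¹ ∈ L₀ := L₀.inv_mem (hQL₀ hq)
        have h3 := L₀.mul_mem h1 h2
        have h4 : ((w : ↥L) : G) = (y : G) * q * (y : G)⁻¹ * q⁻¹ := by
          rw [hwdef]; simp [hq'def]
        rw [h4]
        exact h3
      have hwR : w ∈ R := hER ⟨hwL₀, hwD⟩
      have hyw : Commute y w := ((Subgroup.mem_centralizer_iff.mp hy) w hwR).symm
      obtain ⟨j, hj⟩ := hRp ⟨w, hwR⟩
      have hj' : w ^ (p ^ j) = 1 := by
        have := congrArg Subtype.val hj
        simpa using this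
      have h5 : y⁻¹ * w = q' * y⁻¹ * q'⁻¹ := by rw [hwdef]; group
      have h6 : (y⁻¹ * w) ^ m = 1 := by
        rw [h5]
        have : (q' * y⁻¹ * q'⁻¹) ^ m = q' * (y⁻¹) ^ m * q'⁻¹ := by
          rw [conj_pow]
        rw [this, inv_pow, hym]
        group
      have h7 : (y⁻¹ * w) ^ m = (y⁻¹) ^ m * w ^ m := (hyw.inv_left).mul_pow m
      have h8 : w ^ m = 1 := by
        rw [h7, inv_pow, hym] at h6
        simpa using h6
      have hw1 : w = 1 := eq_one_of_pow_eq_one_of_coprime hj' h8 hm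
      have h9 : y * q' = q' * y := by
        have : y * q' * y⁻¹ * q'⁻¹ = 1 := hw1
        calc y * q' = (y * q' * y⁻¹ * q'⁻¹) * (q' * y) := by group
          _ = q' * y := by rw [this, one_mul]
      have h10 := congrArg Subtype.val h9
      simpa [hq'def] using h10.symm
    have hyQ' : (y : G) ∈ Q := hCQ hyQ
    obtain ⟨j, hj⟩ := hQp ⟨_, hyQ'⟩
    have hj' : (y : G) ^ (p ^ j) = 1 := by
      have := congrArg Subtype.val hj
      simpa using this
    exact Subtype.ext (eq_one_of_pow_eq_one_of_coprime hj' hym' hm)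
  exact le_pCore hDn hDp

end Cfsg.Agent.S2961
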