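import Cfsg.Statements.S2963

set_option autoImplicit false
open Cfsg

namespace Cfsg.Agent.S2963

open scoped Pointwise

/-- Let n be odd. If the symmetric group of degree n is a minimal parabolic group for the prime 2, that is, a Sylow 2-subgroup is not normal and lies in exactly one maximal subgroup, then n = 2^m + 1 for some natural number m. -/
theorem result (n : ℕ) (hn : Odd n) (h : Cfsg.IsPMinimal 2 (Equiv.Perm (Fin n))) : ∃ m : ℕ, n = 2 ^ m + 1 := by
  classical
  have hp2 : Fact (Nat.Prime 2) := ⟨Nat.prime_two⟩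
  obtain ⟨S⟩ := (inferInstance : Nonempty (Sylow 2 (Equiv.Perm (Fin n))))
  obtain ⟨hSn, M, ⟨hMco, hSM⟩, hMuniq⟩ := h S
  have hcard : ¬ 2 ∣ Nat.card (Fin n) := by
    rw [Nat.card_fin]
    exact hn.not_two_dvd_nat
  obtain ⟨x₀, hx₀⟩ := S.isPGroup'.nonempty_fixed_point_of_prime_not_dvd_card (Fin n) hcard
  have hfix : ∀ s ∈ (S : Subgroup (Equiv.Perm (Fin n))), s x₀ = x₀ := by
    intro s hs
    exact hx₀ ⟨s, hs⟩
  by_cases hex : ∃ y : Fin n, y ≠ x₀
  · obtain ⟨y, hy⟩ := hex
    have key : ∀ A : Set (Fin n), A.Nonempty → Aᶜ.Nonempty →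
        (∀ s ∈ (S : Subgroup (Equiv.Perm (Fin n))), s • A = A) →
        MulAction.stabilizer (Equiv.Perm (Fin n)) A = M := by
      intro A hA hAc hS
      apply hMuniq
      refine ⟨Equiv.Perm.isCoatom_stabilizer hA hAc ?_, fun s hs => hS s hs⟩
      rw [Nat.card_fin]
      intro h2
      exact hn.not_two_dvd_nat ⟨_, h2⟩
    have hM : MulAction.stabilizer (Equiv.Perm (Fin n)) ({x₀} : Set (Fin n)) = M := by
      apply key
      · exact Set.singleton_nonempty _
      · exact ⟨y, hy⟩
      · intro s hs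
        rw [Set.smul_set_singleton, Equiv.Perm.smul_def, hfix s hs]
    set O : Set (Fin n) := MulAction.orbit ↥(S : Subgroup (Equiv.Perm (Fin n))) y with hO
    have hx₀O : x₀ ∉ O := by
      rintro ⟨s, hs⟩
      have h1 : s • x₀ = x₀ := hx₀ s
      have h2 : s • y = s • x₀ := hs.trans h1.symm
      exact hy (smul_left_cancel s h2)
    have hOM : MulAction.stabilizer (Equiv.Perm (Fin n)) O = M := by
      apply key
      · exact ⟨y, MulAction.mem_orbit_self y⟩
      · exact ⟨x₀, hx₀O⟩
      · intro s hs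
        have := MulAction.smul_orbit (⟨s, hs⟩ : ↥(S : Subgroup (Equiv.Perm (Fin n)))) y
        exact this
    have hOc : ∀ b, b ∉ O → b = x₀ := by
      intro b hb
      by_contra hbx
      have h1 : Equiv.swap y b ∈ MulAction.stabilizer (Equiv.Perm (Fin n)) ({x₀} : Set (Fin n)) := by
        rw [MulAction.mem_stabilizer_iff, Set.smul_set_singleton, Equiv.Perm.smul_def,
          Equiv.swap_apply_of_ne_of_ne (Ne.symm hy) (Ne.symm hbx)]
      rw [hM, ← hOM, MulAction.mem_stabilizer_iff] at h1
      have h2 : Equiv.swap y b • y ∈ Equiv.swap y b • O :=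
        Set.smul_mem_smul_set (MulAction.mem_orbit_self y)
      rw [h1, Equiv.Perm.smul_def, Equiv.swap_apply_left] at h2
      exact hb h2
    obtain ⟨m, hm⟩ := S.isPGroup'.card_orbit y
    refine ⟨m, ?_⟩
    have hOeq : O = {x₀}ᶜ := by
      ext b
      constructor
      · intro hb hbx
        exact hx₀O (hbx ▸ hb)
      · intro hb
        by_contra hbO
        exact hb (hOc b hbO)
    have h3 : Nat.card O = n - 1 := by
      rw [hOeq, Nat.card_coe_set_eq, Set.ncard_compl, Set.ncard_singleton, Nat.card_fin]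
    rw [← hm]
    change n = Nat.card O + 1
    rw [h3]
    have : 1 ≤ n := by
      rcases hn with ⟨k, rfl⟩
      omega
    omega
  · exfalso
    apply hSn
    have hex' : ∀ y : Fin n, y = x₀ := by
      intro y
      by_contra hy
      exact hex ⟨y, hy⟩
    have : Subsingleton (Fin n) := ⟨fun a b => (hex' a).trans (hex' b).symm⟩
    constructor
    intro a ha g
    rw [Subsingleton.elim (g * a * g⁻¹) a]
    exact ha

end Cfsg.Agent.S2963
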