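import Cfsg.Statements.S2998
import Mathlib

set_option autoImplicit false
open Cfsg

namespace Cfsg.Agent.S2998

open Subgroup in
theorem mem_normalizer_of_conj_mem {G : Type*} [Group G] [Finite G] (H : Subgroup G) (g : G)
    (h : ∀ x ∈ H, g * x * g⁻¹ ∈ H) : g ∈ Subgroup.normalizer (H : Set G) := by
  have hle : H.map (MulAut.conj g).toMonoidHom ≤ H := by
    rintro _ ⟨x, hx, rfl⟩
    exact h x hx
  have hcard : Nat.card (H.map (MulAut.conj g).toMonoidHom) = Nat.card H :=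
    Subgroup.card_map_of_injective (MulAut.conj g).injective
  have heq : H.map (MulAut.conj g).toMonoidHom = H :=
    Subgroup.eq_of_le_of_card_ge hle (le_of_eq hcard.symm)
  rw [Subgroup.mem_normalizer_iff]
  intro x
  constructor
  · intro hx
    exact h x hx
  · intro hx
    have hx' : g * x * g⁻¹ ∈ H.map (MulAut.conj g).toMonoidHom := by rw [heq]; exact hx
    obtain ⟨y, hy, hyx⟩ := hx'
    have : y = x := by
      have h2 : g * y * g⁻¹ = g * x * g⁻¹ := hyx
      simpa using h2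
    rw [← this]; exact hy

theorem part1 {G : Type*} [Group G] [Finite G] {p : ℕ} [Fact p.Prime] (P : Sylow p G) (x : G)
    (hlc : ∀ R : Subgroup G, R ≤ (P : Subgroup G) → R ≠ ⊥ →
      Subgroup.normalizer (R : Set G) ≤ Subgroup.centralizer ({x} : Set G)) :
    (P : Subgroup G) ≤ Subgroup.centralizer ({x} : Set G) := by
  by_cases hP : (P : Subgroup G) = ⊥
  · rw [hP]; exact bot_le
  · exact le_trans Subgroup.le_normalizer (hlc P le_rfl hP)

theorem part2 {G : Type*} [Group G] [Finite G] {p : ℕ} [Fact p.Prime] (P : Sylow p G) (x : G)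
    (hxP : x ∈ (P : Subgroup G))
    (hlc : ∀ R : Subgroup G, R ≤ (P : Subgroup G) → R ≠ ⊥ →
      Subgroup.normalizer (R : Set G) ≤ Subgroup.centralizer ({x} : Set G))
    (g : G) (hg : g * x * g⁻¹ ∈ (P : Subgroup G)) : g * x * g⁻¹ = x := by
  by_cases hx1 : x = 1
  · subst hx1; simp
  have h1 := part1 P x hlc
  have hy1 : g * x * g⁻¹ ≠ 1 := by
    intro h
    apply hx1
    have : x = g⁻¹ * (g * x * g⁻¹) * g := by group
    rw [this, h]; group
  have hzy : Subgroup.zpowers (g * x * g⁻¹) ≤ (P : Subgroup G) := Subgroup.zpowers_le.mpr hg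
  have hzy1 : Subgroup.zpowers (g * x * g⁻¹) ≠ ⊥ := by
    rw [Ne, Subgroup.zpowers_eq_bot]; exact hy1
  have hN := hlc _ hzy hzy1
  have h2 : ((g • P : Sylow p G) : Subgroup G) ≤ Subgroup.centralizer ({x} : Set G) := by
    intro q hq
    apply hN
    have hq' : q ∈ Subgroup.centralizer ((Subgroup.zpowers (g * x * g⁻¹) : Subgroup G) : Set G) := by
      rw [Subgroup.zpowers_eq_closure, Subgroup.centralizer_closure,
        Subgroup.mem_centralizer_singleton_iff]
      rw [Sylow.coe_subgroup_smul, Subgroup.mem_smul_pointwise_iff_exists] at hq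
      obtain ⟨u, hu, rfl⟩ := hq
      have hux : u * x = x * u := Subgroup.mem_centralizer_singleton_iff.mp (h1 hu)
      rw [MulAut.smul_def, MulAut.conj_apply]
      have e1 : g * u * g⁻¹ * (g * x * g⁻¹) = g * (u * x) * g⁻¹ := by group
      have e2 : g * x * g⁻¹ * (g * u * g⁻¹) = g * (x * u) * g⁻¹ := by group
      rw [e1, e2, hux]
    exact Subgroup.centralizer_le_normalizer _ hq'
  obtain ⟨c, hc⟩ := MulAction.exists_smul_eq (Subgroup.centralizer ({x} : Set G))
    ((g • P).subtype h2) (P.subtype h1)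
  simp_rw [Sylow.smul_subtype, Subgroup.smul_def, smul_smul] at hc
  have hcg : (c : G) * g ∈ Subgroup.normalizer ((P : Subgroup G) : Set G) :=
    Sylow.smul_eq_iff_mem_normalizer.mp (Sylow.subtype_injective hc)
  have hPne : (P : Subgroup G) ≠ ⊥ := by
    intro h
    rw [h] at hxP
    exact hx1 (Subgroup.mem_bot.mp hxP)
  have hcgC := hlc P le_rfl hPne hcg
  have hgC : g ∈ Subgroup.centralizer ({x} : Set G) := by
    have : g = (c : G)⁻¹ * ((c : G) * g) := by group
    rw [this]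
    exact mul_mem (inv_mem c.2) hcgC
  rw [Subgroup.mem_centralizer_singleton_iff] at hgC
  rw [hgC, mul_inv_cancel_right]

theorem part3 {G : Type*} [Group G] [Finite G] {p : ℕ} [Fact p.Prime] (P : Sylow p G) (x : G)
    (hlc : ∀ R : Subgroup G, R ≤ (P : Subgroup G) → R ≠ ⊥ →
      Subgroup.normalizer (R : Set G) ≤ Subgroup.centralizer ({x} : Set G))
    (N : Subgroup G) [N.Normal] (R : Subgroup (G ⧸ N))
    (hR : R ≤ (P : Subgroup G).map (QuotientGroup.mk' N)) (hR1 : R ≠ ⊥) :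
    Subgroup.normalizer (R : Set (G ⧸ N)) ≤
      Subgroup.centralizer ({(QuotientGroup.mk x : G ⧸ N)} : Set (G ⧸ N)) := by
  intro gbar hgbar
  obtain ⟨g, rfl⟩ := QuotientGroup.mk_surjective gbar
  set M : Subgroup G := R.comap (QuotientGroup.mk' N) with hM
  set R₁ : Subgroup G := (P : Subgroup G) ⊓ M with hR₁
  have hNM : N ≤ M := by
    intro n hn
    rw [hM, Subgroup.mem_comap]
    have : QuotientGroup.mk' N n = 1 := (QuotientGroup.eq_one_iff n).mpr hn
    rw [this]; exact one_mem _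
  have hMle : M ≤ N ⊔ (P : Subgroup G) := by
    intro m hm
    have hm' : QuotientGroup.mk' N m ∈ R := hm
    obtain ⟨u, hu, hum⟩ := hR hm'
    have hn : m * u⁻¹ ∈ N := by
      rw [← QuotientGroup.eq_one_iff, QuotientGroup.mk_mul, QuotientGroup.mk_inv]
      have : (QuotientGroup.mk u : G ⧸ N) = QuotientGroup.mk m := hum
      rw [this, mul_inv_cancel]
    have : m = (m * u⁻¹) * u := by group
    rw [this]
    exact mul_mem (Subgroup.mem_sup_left hn) (Subgroup.mem_sup_right hu)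
  have hgM : ∀ r ∈ M, g * r * g⁻¹ ∈ M := by
    intro r hr
    rw [hM, Subgroup.mem_comap] at hr ⊢
    have := (Subgroup.mem_normalizer_iff.mp hgbar (QuotientGroup.mk' N r)).mp hr
    simpa using this
  have hR₁ne : R₁ ≠ ⊥ := by
    obtain ⟨⟨rbar, hrbar⟩, hne⟩ := Subgroup.ne_bot_iff_exists_ne_one.mp hR1
    obtain ⟨r, hr, hrr⟩ := hR hrbar
    intro hbot
    apply hne
    have hrM : r ∈ M := by
      rw [hM, Subgroup.mem_comap, hrr]; exact hrbar
    have hrR₁ : r ∈ R₁ := Subgroup.mem_inf.mpr ⟨hr, hrM⟩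
    rw [hbot, Subgroup.mem_bot] at hrR₁
    apply Subtype.ext
    show rbar = 1
    rw [← hrr, hrR₁, map_one]
  set L : Subgroup G := N ⊔ (P : Subgroup G) with hL
  have hPL : (P : Subgroup G) ≤ L := le_sup_right
  set R₂ : Subgroup G := R₁.map (MulAut.conj g).toMonoidHom with hR₂
  have hR₂M : R₂ ≤ M := by
    rintro _ ⟨r, hr, rfl⟩
    exact hgM r (Subgroup.mem_inf.mp hr).2
  have hR₂L : R₂ ≤ L := le_trans hR₂M hMle
  have hR₁p : IsPGroup p ↥R₁ := P.2.to_le inf_le_left
  have hR₂p : IsPGroup p ↥(R₂.subgroupOf L) := (hR₁p.map _).comap_subtype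
  obtain ⟨S, hS⟩ := hR₂p.exists_le_sylow
  obtain ⟨k, hk⟩ := MulAction.exists_smul_eq ↥L (P.subtype hPL) S
  rw [Sylow.smul_subtype] at hk
  have hkL : (k : G) ∈ ((N ⊔ (P : Subgroup G) : Subgroup G) : Set G) := k.2
  rw [Subgroup.normal_mul] at hkL
  obtain ⟨n, hn, u₀, hu₀, hnk⟩ := hkL
  have key : ∀ r ∈ R₁, (n⁻¹ * g) * r * (n⁻¹ * g)⁻¹ ∈ R₁ := by
    intro r hr
    have h1 : g * r * g⁻¹ ∈ R₂ := ⟨r, hr, rfl⟩
    have h2 : (⟨g * r * g⁻¹, hR₂L h1⟩ : ↥L) ∈ R₂.subgroupOf L := by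
      rw [Subgroup.mem_subgroupOf]; exact h1
    have h3 := hS h2
    rw [← hk] at h3
    have h4 : g * r * g⁻¹ ∈ ((k • P : Sylow p G) : Subgroup G) := h3
    rw [Subgroup.smul_def, Sylow.coe_subgroup_smul, Subgroup.mem_smul_pointwise_iff_exists] at h4
    obtain ⟨u, hu, hur⟩ := h4
    rw [MulAut.smul_def, MulAut.conj_apply] at hur
    refine Subgroup.mem_inf.mpr ⟨?_, ?_⟩
    · have e : (n⁻¹ * g) * r * (n⁻¹ * g)⁻¹ = u₀ * u * u₀⁻¹ := by
        have e1 : (n⁻¹ * g) * r * (n⁻¹ * g)⁻¹ = n⁻¹ * (g * r * g⁻¹) * n := by group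
        rw [e1, ← hur, ← hnk]
        show n⁻¹ * (n * u₀ * u * (n * u₀)⁻¹) * n = u₀ * u * u₀⁻¹
        group
      rw [e]
      exact mul_mem (mul_mem hu₀ hu) (inv_mem hu₀)
    · have e1 : (n⁻¹ * g) * r * (n⁻¹ * g)⁻¹ = n⁻¹ * (g * r * g⁻¹) * n := by group
      rw [e1]
      exact mul_mem (mul_mem (inv_mem (hNM hn)) (hR₂M h1)) (hNM hn)
  have hnorm : n⁻¹ * g ∈ Subgroup.normalizer (R₁ : Set G) := mem_normalizer_of_conj_mem R₁ _ key
  have hcent := hlc R₁ inf_le_left hR₁ne hnorm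
  rw [Subgroup.mem_centralizer_singleton_iff] at hcent ⊢
  have hmk : (QuotientGroup.mk (n⁻¹ * g) : G ⧸ N) = QuotientGroup.mk g := by
    rw [QuotientGroup.mk_mul, QuotientGroup.mk_inv, (QuotientGroup.eq_one_iff n).mpr hn, inv_one,
      one_mul]
  rw [← hmk, ← QuotientGroup.mk_mul, ← QuotientGroup.mk_mul, hcent]

/-- Let G be a finite group, p a prime, P a Sylow p-subgroup of G and x ∈ P an element such that N_G(R) ≤ C_G(x) for every nontrivial subgroup R of P. Then P ≤ C_G(x); every G-conjugate of x lying in P equals x (so g ∈ C_G(x) whenever g x g⁻¹ ∈ P); and for every normal subgroup N of G, the image of x in G ⧸ N has the same property with respect to the image of P: the normalizer of every nontrivial subgroup of the image of P centralizes the image of x. -/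
theorem result {G : Type*} [Group G] [Finite G] {p : ℕ} [Fact p.Prime] (P : Sylow p G) (x : G) (hxP : x ∈ (P : Subgroup G)) (hlc : ∀ R : Subgroup G, R ≤ (P : Subgroup G) → R ≠ ⊥ → Subgroup.normalizer (R : Set G) ≤ Subgroup.centralizer ({x} : Set G)) : (P : Subgroup G) ≤ Subgroup.centralizer ({x} : Set G) ∧ (∀ g : G, g * x * g⁻¹ ∈ (P : Subgroup G) → g * x * g⁻¹ = x) ∧ ∀ (N : Subgroup G) [N.Normal], ∀ R : Subgroup (G ⧸ N), R ≤ (P : Subgroup G).map (QuotientGroup.mk' N) → R ≠ ⊥ → Subgroup.normalizer (R : Set (G ⧸ N)) ≤ Subgroup.centralizer ({(QuotientGroup.mk x : G ⧸ N)} : Set (G ⧸ N)) := by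
  refine ⟨part1 P x hlc, part2 P x hxP hlc, ?_⟩
  intro N _ R hR hR1
  exact part3 P x hlc N R hR hR1

end Cfsg.Agent.S2998
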