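import Cfsg.Statements.S3003
import Mathlib
import Cfsg.Agent.Lib.Helper50.CoprimeConj

set_option autoImplicit false
open Cfsg

namespace Cfsg.Agent.S3003

theorem part_a {G : Type*} [Group G] [Finite G] {p : ℕ} (Q : Subgroup G) (hQp : IsPGroup p ↥Q)
    (hlarge : Cfsg.IsLarge Q) (G₁ : Subgroup G) (hQG : Q ≤ G₁) (R : Subgroup G)
    (hR : (Nat.card ↥R).Coprime p) (hGR : G₁ ≤ Subgroup.normalizer (R : Set G)) (U : Subgroup G)
    (hex : ∃ x ∈ U, x ≠ 1 ∧ ∃ g ∈ G₁, g * x * g⁻¹ ∈ Q ⊓ Subgroup.centralizer (Q : Set G)) :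
    R ⊓ Subgroup.centralizer (U : Set G) = ⊥ := by
  obtain ⟨x, hxU, hx1, g, hgG, hz⟩ := hex
  obtain ⟨hzQ, hzC⟩ := Subgroup.mem_inf.mp hz
  have hz1 : g * x * g⁻¹ ≠ 1 := by
    intro h
    apply hx1
    have : x = g⁻¹ * (g * x * g⁻¹) * g := by group
    rw [this, h]; group
  have hclaim : ∀ z : G, z ∈ Subgroup.centralizer (Q : Set G) → z ≠ 1 →
      ∀ a ∈ R, a * z = z * a → a = 1 := by
    intro z hzC hz1
    have hNQ : ∀ a ∈ R, a * z = z * a → a ∈ Subgroup.normalizer (Q : Set G) := by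
      intro a haR haz
      apply hlarge.2 (Subgroup.zpowers z) (by rw [Subgroup.zpowers_le]; exact hzC)
        (by rw [Ne, Subgroup.zpowers_eq_bot]; exact hz1)
      apply Lib.Helper50.Transfer.mem_normalizer_of_conj_mem
      intro y hy
      obtain ⟨k, rfl⟩ := Subgroup.mem_zpowers_iff.mp hy
      have hc : Commute a (z ^ k) := (show Commute a z from haz).zpow_right k
      have h1 : a * z ^ k * a⁻¹ = z ^ k := by rw [hc.eq]; group
      rw [h1]; exact hy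
    have hQX : ∀ q ∈ Q, ∀ a ∈ R, q * a * q⁻¹ ∈ R := by
      intro q hq a haR
      exact (Subgroup.mem_normalizer_iff.mp (hGR (hQG hq)) a).mp haR
    intro a haR haz
    have haN := hNQ a haR haz
    have hcomm : ∀ q ∈ Q, q * a = a * q := by
      intro q hq
      have h1 : a * q * a⁻¹ ∈ Q := (Subgroup.mem_normalizer_iff.mp haN q).mp hq
      have h2 : a * q * a⁻¹ * q⁻¹ ∈ Q := mul_mem h1 (inv_mem hq)
      have h3 := hQX q hq a⁻¹ (inv_mem haR)
      have h4 : a * q * a⁻¹ * q⁻¹ ∈ R := by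
        have : a * q * a⁻¹ * q⁻¹ = a * (q * a⁻¹ * q⁻¹) := by group
        rw [this]; exact mul_mem haR h3
      have h5 := Lib.Helper50.CoprimeConj.eq_one_of_mem_of_mem R Q hR hQp _ h4 h2
      have h6 : q * a = (a * q * a⁻¹ * q⁻¹)⁻¹ * (a * q) := by group
      rw [h6, h5]; group
    have haQ : a ∈ Q := hlarge.1 (Subgroup.mem_centralizer_iff.mpr hcomm)
    exact Lib.Helper50.CoprimeConj.eq_one_of_mem_of_mem R Q hR hQp a haR haQ
  rw [eq_bot_iff]
  intro r hr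
  obtain ⟨hrR, hrC⟩ := Subgroup.mem_inf.mp hr
  rw [Subgroup.mem_bot]
  have hrx : x * r = r * x := Subgroup.mem_centralizer_iff.mp hrC x hxU
  have h1 : g * r * g⁻¹ ∈ R := (Subgroup.mem_normalizer_iff.mp (hGR hgG) r).mp hrR
  have h2 : (g * r * g⁻¹) * (g * x * g⁻¹) = (g * x * g⁻¹) * (g * r * g⁻¹) := by
    calc g * r * g⁻¹ * (g * x * g⁻¹) = g * (r * x) * g⁻¹ := by group
      _ = g * (x * r) * g⁻¹ := by rw [hrx]
      _ = g * x * g⁻¹ * (g * r * g⁻¹) := by group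
  have h3 := hclaim _ hzC hz1 _ h1 h2
  have h4 : r = g⁻¹ * (g * r * g⁻¹) * g := by group
  rw [h4, h3]; group

/-- Let G be a finite group, p a prime and Q a large p-subgroup of G: C_G(Q) ≤ Q and N_G(U) ≤ N_G(Q) for every nontrivial subgroup U of C_G(Q). Let Q ≤ G₁ ≤ G, let R be a subgroup of order prime to p normalized by G₁, and let U ≤ G₁ be a p-subgroup. If U contains a nontrivial element which is G₁-conjugate to an element of Z(Q), then C_R(U) = 1. In particular, if U is elementary abelian of order at least p² and every maximal subgroup of U contains a nontrivial element G₁-conjugate into Z(Q), then R = 1. -/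
theorem result {G : Type*} [Group G] [Finite G] {p : ℕ} [Fact p.Prime] (Q : Subgroup G) (hQp : IsPGroup p ↥Q) (hlarge : Cfsg.IsLarge Q) (G₁ : Subgroup G) (hQG : Q ≤ G₁) (R : Subgroup G) (hR : (Nat.card ↥R).Coprime p) (hGR : G₁ ≤ Subgroup.normalizer (R : Set G)) (U : Subgroup G) (hUG : U ≤ G₁) (hUp : IsPGroup p ↥U) : ((∃ x ∈ U, x ≠ 1 ∧ ∃ g ∈ G₁, g * x * g⁻¹ ∈ Q ⊓ Subgroup.centralizer (Q : Set G)) → R ⊓ Subgroup.centralizer (U : Set G) = ⊥) ∧ (Cfsg.IsElementaryAbelian p U → p ^ 2 ≤ Nat.card ↥U → (∀ U₀ : Subgroup G, U₀ ≤ U → IsCoatom (U₀.subgroupOf U) → ∃ x ∈ U₀, x ≠ 1 ∧ ∃ g ∈ G₁, g * x * g⁻¹ ∈ Q ⊓ Subgroup.centralizer (Q : Set G)) → R = ⊥) := by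
  refine ⟨fun hex => part_a Q hQp hlarge G₁ hQG R hR hGR U hex, ?_⟩
  intro hUe hcard hyp
  obtain ⟨hUc, hUp'⟩ := hUe
  apply Lib.Helper50.CoprimeConj.coprime_hyperplanes p U R
  · intro a ha b hb
    exact congrArg Subtype.val (hUc.is_comm.comm ⟨a, ha⟩ ⟨b, hb⟩)
  · exact hUp'
  · rintro rfl
    have hp : p.Prime := Fact.out
    have h1 : Nat.card (⊥ : Subgroup G) = 1 := Subgroup.card_bot
    rw [h1] at hcard
    have h2 : 1 < p ^ 2 := Nat.one_lt_pow (by norm_num) hp.one_lt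
    omega
  · exact hR
  · exact hUG.trans hGR
  · intro U₀ hU₀ hco
    exact part_a Q hQp hlarge G₁ hQG R hR hGR U₀ (hyp U₀ hU₀ hco)

end Cfsg.Agent.S3003
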