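import Cfsg.Statements.S3008
import Cfsg.Agent.Lib.Helper50.CD
import Cfsg.Agent.Lib.Helper50.CL
import Cfsg.Agent.Lib.Helper50.CL2
import Cfsg.Agent.Lib.Helper50.CL3
import Cfsg.Agent.Lib.Helper57.GlaubRepl

set_option autoImplicit false
open Cfsg

namespace Cfsg.Agent.S3008

open Subgroup
open Cfsg.Agent.Lib.Helper50.CD Cfsg.Agent.Lib.Helper50.CL Cfsg.Agent.Lib.Helper50.CL2
  Cfsg.Agent.Lib.Helper50.CL3

/-- `Q ⊔ J(P)` is centrally large for a centrally large `Q`. -/
theorem cl_sup_thompsonA {P : Type*} [Group P] [Finite P] (Q : Subgroup P)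
    (hQ : Cfsg.IsCentrallyLarge Q) :
    Cfsg.IsCentrallyLarge (Q ⊔ Cfsg.thompsonSubgroupA P) := by
  have hne : (Cfsg.maxAbelianSubgroups P).Nonempty := exists_maxAbelian
  have h : Q ⊔ Cfsg.thompsonSubgroupA P =
      sSup ((fun A => Q ⊔ A) '' Cfsg.maxAbelianSubgroups P) := by
    apply le_antisymm
    · apply sup_le
      · obtain ⟨A, hA⟩ := hne
        exact le_trans le_sup_left (le_sSup ⟨A, hA, rfl⟩)
      · apply sSup_le
        intro A hA
        exact le_trans le_sup_right (le_sSup ⟨A, hA, rfl⟩)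
    · apply sSup_le
      rintro _ ⟨A, hA, rfl⟩
      exact sup_le_sup_left (le_sSup hA) Q
  rw [h]
  apply cl_sSup
  · exact hne.image _
  · rintro _ ⟨A, hA, rfl⟩
    exact (cl_sup_maxAbelian Q A hQ hA).2.1

/-- Let P be a finite p-group, with J(P) generated by its abelian subgroups of largest order and J̃(P) = C_P(Z(J(P))); call R ≤ P centrally large if |R|·|Z(R)| is as large as possible, and let P_MCL be generated by the minimal centrally large subgroups. Then: for every centrally large Q, Q·J(P) ⊇ J̃(P); some minimal centrally large subgroup of P is normalized by both J(P) and P_MCL; if P = J(P) and d(P)² = |P|·|Z(P)|, where d(P) is the largest order of an abelian subgroup, then every minimal centrally large subgroup of P is abelian; and if every minimal centrally large subgroup is abelian then J̃(P) = J(P). -/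
theorem result {p : ℕ} [Fact p.Prime] (P : Type*) [Group P] [Finite P] (hP : IsPGroup p P) : (∀ Q : Subgroup P, Cfsg.IsCentrallyLarge Q → Subgroup.centralizer ((Cfsg.thompsonSubgroupA P ⊓ Subgroup.centralizer (Cfsg.thompsonSubgroupA P : Set P) : Subgroup P) : Set P) ≤ Q ⊔ Cfsg.thompsonSubgroupA P) ∧ (∃ Q : Subgroup P, Cfsg.IsMinimalCentrallyLarge Q ∧ Cfsg.thompsonSubgroupA P ≤ Subgroup.normalizer (Q : Set P) ∧ Cfsg.minimalCentrallyLargeJoin P ≤ Subgroup.normalizer (Q : Set P)) ∧ (Cfsg.thompsonSubgroupA P = ⊤ → (∀ A ∈ Cfsg.maxAbelianSubgroups P, Nat.card ↥A ^ 2 = Nat.card P * Nat.card ↥(Subgroup.center P)) → ∀ Q : Subgroup P, Cfsg.IsMinimalCentrallyLarge Q → IsMulCommutative ↥Q) ∧ ((∀ Q : Subgroup P, Cfsg.IsMinimalCentrallyLarge Q → IsMulCommutative ↥Q) → Subgroup.centralizer ((Cfsg.thompsonSubgroupA P ⊓ Subgroup.centralizer (Cfsg.thompsonSubgroupA P : Set P) : Subgroup P) : Set P) = Cfsg.thompsonSubgroupA P) := by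
  refine ⟨?_, ?_, ?_, ?_⟩
  · -- (a)
    intro Q hQ
    have hR := cl_sup_thompsonA Q hQ
    obtain ⟨hR1, hR2⟩ := centralizerLarge_of_cl _ hR
    obtain ⟨-, hcc⟩ := cd_centralizer _ hR1
    obtain ⟨A, hA⟩ := exists_maxAbelian (G := P)
    have hAJ : A ≤ Cfsg.thompsonSubgroupA P := le_sSup hA
    have hJR : Cfsg.thompsonSubgroupA P ≤ Q ⊔ Cfsg.thompsonSubgroupA P := le_sup_right
    have h1 : centralizer ((Q ⊔ Cfsg.thompsonSubgroupA P : Subgroup P) : Set P) ≤
        Cfsg.thompsonSubgroupA P := by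
      refine le_trans ?_ hAJ
      rw [← maxAbelian_centralizer A hA]
      exact centralizer_le (by exact_mod_cast le_trans hAJ hJR)
    have h2 : centralizer ((Q ⊔ Cfsg.thompsonSubgroupA P : Subgroup P) : Set P) ≤
        centralizer (Cfsg.thompsonSubgroupA P : Set P) :=
      centralizer_le (by exact_mod_cast hJR)
    calc centralizer ((Cfsg.thompsonSubgroupA P ⊓
          centralizer (Cfsg.thompsonSubgroupA P : Set P) : Subgroup P) : Set P)
        ≤ centralizer ((centralizer ((Q ⊔ Cfsg.thompsonSubgroupA P : Subgroup P) : Set P) :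
            Subgroup P) : Set P) := centralizer_le (by exact_mod_cast le_inf h1 h2)
      _ = Q ⊔ Cfsg.thompsonSubgroupA P := hcc.symm
  · -- (b)
    exact Cfsg.Agent.Helper57.GR.exists_minimal_cl_normalized hP.isNilpotent
  · -- (c)
    intro hJ hd Q hQ
    have hL := cl_centrallyLargeJoin (G := P)
    have hJL := thompsonA_le_centrallyLargeJoin (G := P)
    rw [hJ] at hJL
    have hLtop : Cfsg.centrallyLargeJoin P = ⊤ := top_le_iff.mp hJL
    rw [hLtop] at hL
    obtain ⟨hT1, -⟩ := centralizerLarge_of_cl _ hL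
    -- `mu ⊤ = |P| * |Z(P)|`
    have hTm : Nat.card P * Nat.card ↥(Subgroup.center P) = Cfsg.maxCentralizerProduct P := by
      have h : Nat.card (⊤ : Subgroup P) *
          Nat.card (centralizer (((⊤ : Subgroup P) : Set P))) = Cfsg.maxCentralizerProduct P := hT1
      rw [Subgroup.card_top] at h
      have hc : centralizer (((⊤ : Subgroup P) : Set P)) = Subgroup.center P := by
        rw [Subgroup.coe_top, Subgroup.centralizer_univ]
      rw [hc] at h
      exact h
    obtain ⟨A, hA⟩ := exists_maxAbelian (G := P)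
    have hCA := maxAbelian_centralizer A hA
    have hAmem : Cfsg.IsCentralizerLarge A := by
      show Nat.card A * Nat.card (centralizer (A : Set P)) = Cfsg.maxCentralizerProduct P
      rw [hCA, ← hTm, ← hd A hA, sq]
    have hAcl : Cfsg.IsCentrallyLarge A := cl_of_centralizerLarge A hAmem (le_of_eq hCA)
    obtain ⟨Q', hQ'le, hQ'min⟩ := exists_minimal_cl_le A hAcl
    have hAab : A ≤ centralizer (A : Set P) := le_of_eq hCA.symm
    have hQ'ab : IsMulCommutative ↥Q' := by
      rw [← Subgroup.le_centralizer_iff_isMulCommutative]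
      exact le_trans hQ'le (le_trans hAab (centralizer_le (by exact_mod_cast hQ'le)))
    exact ((min_cl_iff_maxAbelian Q' hQ'min hQ'ab Q).mp hQ).1
  · -- (d)
    intro hall
    obtain ⟨Q, hQ⟩ := exists_minimal_cl (G := P)
    have hiff := min_cl_iff_maxAbelian Q hQ (hall Q hQ)
    have hJeq : Cfsg.thompsonSubgroupA P = Cfsg.minimalCentrallyLargeJoin P := by
      unfold Cfsg.thompsonSubgroupA Cfsg.minimalCentrallyLargeJoin
      congr 1
      ext X
      exact (hiff X).symm
    have hL := cl_minimalCentrallyLargeJoin (G := P)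
    rw [← hJeq] at hL
    obtain ⟨hJ1, hJ2⟩ := centralizerLarge_of_cl _ hL
    obtain ⟨-, hcc⟩ := cd_centralizer _ hJ1
    rw [inf_eq_right.mpr hJ2]
    exact hcc.symm

end Cfsg.Agent.S3008
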