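import Cfsg.Statements.S3011
import Mathlib
import Cfsg.Agent.Lib.Helper67.RealOdd
import Cfsg.Agent.Lib.Helper67.BaerSuzuki
import Cfsg.Agent.Lib.Helper50.Cores

set_option autoImplicit false
open Cfsg

namespace Cfsg.Agent.S3011

theorem odd_inv_comm {G : Type*} [Group G] (a h : G) (hodd : Odd (orderOf h))
    (hinv : a * h * a⁻¹ = h⁻¹) (hc : a * h = h * a) : h = 1 := by
  have h1 : a * h * a⁻¹ = h := by rw [hc]; group
  have h2 : h⁻¹ = h := by rw [← hinv, h1]
  have h3 : h ^ 2 = 1 := by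
    rw [sq]
    nth_rewrite 1 [← h2]
    exact inv_mul_cancel h
  have h4 : orderOf h ∣ 2 := orderOf_dvd_of_pow_eq_one h3
  rcases (Nat.dvd_prime Nat.prime_two).mp h4 with h5 | h5
  · exact orderOf_eq_one_iff.mp h5
  · rw [h5] at hodd
    exact absurd hodd (by decide)

theorem mem_of_sq_mem {G : Type*} [Group G] (H : Subgroup G) (q : G) (hq : Odd (orderOf q))
    (h : q * q ∈ H) : q ∈ H := by
  obtain ⟨j, hj⟩ := hq
  have h1 : q = (q * q) ^ (j + 1) := by
    rw [← sq, ← pow_mul]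
    have : 2 * (j + 1) = orderOf q + 1 := by omega
    rw [this, pow_succ, pow_orderOf_eq_one, one_mul]
  rw [h1]
  exact pow_mem h _

theorem odd_inverts_odd {G : Type*} [Group G] (q h : G) (hq : Odd (orderOf q))
    (hh : Odd (orderOf h)) (hinv : q * h * q⁻¹ = h⁻¹) : h = 1 := by
  have h5 : q * q ∈ Subgroup.centralizer ({h} : Set G) := by
    rw [Subgroup.mem_centralizer_iff]
    intro z hz
    rw [Set.mem_singleton_iff] at hz
    subst hz
    have e1 : q * z = z⁻¹ * q := by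
      have : q * z = (q * z * q⁻¹) * q := by group
      rw [this, hinv]
    have e2 : q * z⁻¹ = z * q := by
      have : q * z⁻¹ = (q * z * q⁻¹)⁻¹ * q := by group
      rw [this, hinv, inv_inv]
    calc z * (q * q) = (z * q) * q := by group
      _ = (q * z⁻¹) * q := by rw [e2]
      _ = q * (z⁻¹ * q) := by group
      _ = q * (q * z) := by rw [e1]
      _ = (q * q) * z := by group
  have h6 := mem_of_sq_mem _ q hq h5
  rw [Subgroup.mem_centralizer_iff] at h6
  exact odd_inv_comm q h hh hinv (h6 h rfl).symm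

theorem odd_orderOf_conj {G : Type*} [Group G] (g h : G) (hodd : Odd (orderOf h)) :
    Odd (orderOf (g * h * g⁻¹)) := by
  have : g * h * g⁻¹ = MulAut.conj g h := by simp
  rw [this, MulEquiv.orderOf_eq]; exact hodd

theorem exists_inverted {G : Type*} [Group G] [Finite G] (v : G) (hv : v * v = 1)
    (hvO : v ∉ Cfsg.pCore 2 G) : ∃ h : G, h ≠ 1 ∧ Odd (orderOf h) ∧ v * h * v⁻¹ = h⁻¹ := by
  by_contra hno
  have hno' : ∀ h : G, Odd (orderOf h) → v * h * v⁻¹ = h⁻¹ → h = 1 := by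
    intro h h1 h2
    by_contra h3
    exact hno ⟨h, h3, h1, h2⟩
  have hv1 : v ≠ 1 := by
    rintro rfl
    exact hvO (one_mem _)
  have hfact : Fact (Nat.Prime 2) := ⟨Nat.prime_two⟩
  have hvord : orderOf v = 2 := orderOf_eq_prime (by rw [sq]; exact hv) hv1
  have hK : ∀ g x, x ∈ {x : G | ∃ g : G, x = g * v * g⁻¹} →
      g * x * g⁻¹ ∈ {x : G | ∃ g : G, x = g * v * g⁻¹} := by
    rintro g x ⟨g', rfl⟩
    exact ⟨g * g', by group⟩
  have hpair : ∀ x ∈ {x : G | ∃ g : G, x = g * v * g⁻¹},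
      ∀ y ∈ {x : G | ∃ g : G, x = g * v * g⁻¹},
      IsPGroup 2 (Subgroup.closure ({x, y} : Set G)) := by
    rintro x ⟨g₁, hxdef⟩ y ⟨g₂, hydef⟩
    have hx : orderOf x = 2 := by
      have : x = MulAut.conj g₁ v := by rw [hxdef]; simp
      rw [this, MulEquiv.orderOf_eq]; exact hvord
    have hy : orderOf y = 2 := by
      have : y = MulAut.conj g₂ v := by rw [hydef]; simp
      rw [this, MulEquiv.orderOf_eq]; exact hvord
    obtain ⟨k, m, hm, hn⟩ := Nat.exists_eq_two_pow_mul_odd (orderOf_pos (x * y)).ne'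
    have hxx : x * x = 1 := by rw [← sq, ← hx]; exact pow_orderOf_eq_one x
    have hyy : y * y = 1 := by rw [← sq, ← hy]; exact pow_orderOf_eq_one y
    have hxi : x⁻¹ = x := inv_eq_of_mul_eq_one_left hxx
    have hyi : y⁻¹ = y := inv_eq_of_mul_eq_one_left hyy
    have hxinv : x * (x * y) * x⁻¹ = (x * y)⁻¹ := by
      rw [mul_inv_rev, hxi, hyi, ← mul_assoc, hxx, one_mul]
    have hord : orderOf ((x * y) ^ (2 ^ k)) = m := by
      rw [orderOf_pow_of_dvd (by positivity) (Dvd.intro m hn.symm), hn,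
        Nat.mul_div_cancel_left _ (by positivity)]
    have hinv : x * (x * y) ^ (2 ^ k) * x⁻¹ = ((x * y) ^ (2 ^ k))⁻¹ := by
      rw [Lib.Helper67.RealOdd.conj_pow_eq, hxinv, inv_pow]
    have h1 : g₁⁻¹ * (x * y) ^ (2 ^ k) * g₁ = 1 := by
      apply hno'
      · have : g₁⁻¹ * (x * y) ^ (2 ^ k) * g₁ = MulAut.conj g₁⁻¹ ((x * y) ^ (2 ^ k)) := by simp
        rw [this, MulEquiv.orderOf_eq, hord]; exact hm
      · have h3 : v = g₁⁻¹ * x * g₁ := by rw [hxdef]; group
        have : v * (g₁⁻¹ * (x * y) ^ (2 ^ k) * g₁) * v⁻¹ =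
            g₁⁻¹ * (x * (x * y) ^ (2 ^ k) * x⁻¹) * g₁ := by rw [h3]; group
        rw [this, hinv]; group
    have h2 : (x * y) ^ (2 ^ k) = 1 := by
      have : (x * y) ^ (2 ^ k) = g₁ * (g₁⁻¹ * (x * y) ^ (2 ^ k) * g₁) * g₁⁻¹ := by group
      rw [this, h1]; group
    have hm1 : m = 1 := by rw [← hord, h2, orderOf_one]
    exact Lib.Helper67.RealOdd.isPGroup_two_closure_pair x y hx hy k
      (by rw [hn, hm1, mul_one])
  have hP := Lib.Helper67.BaerSuzuki.isPGroup_closure _ hK hpair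
  have hN := Lib.Helper67.RealOdd.closure_normal_of_conj_invariant _ hK
  have hle := Lib.Helper50.Cores.le_pCore 2 _ hN hP
  exact hvO (hle (Subgroup.subset_closure ⟨1, by simp⟩))

theorem lemmaL {G : Type*} [Group G] (V : Subgroup G) (hS : Cfsg.IsSidkiPair V) (x y h k : G)
    (hxV : x ∈ V) (hyV : y ∈ V) (hxx : x * x = 1) (hyy : y * y = 1)
    (hV4 : ∀ w ∈ V, w = 1 ∨ w = x ∨ w = y ∨ w = x * y)
    (hh1 : h ≠ 1) (hk1 : k ≠ 1) (hhodd : Odd (orderOf h)) (hkodd : Odd (orderOf k))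
    (hxh : x * h * x⁻¹ = h⁻¹) (hyh : y * h = h * y) (hyk : y * k * y⁻¹ = k⁻¹)
    (hxk : x * k = k * x) : False := by
  have hxi : x⁻¹ = x := inv_eq_of_mul_eq_one_left hxx
  have hyi : y⁻¹ = y := inv_eq_of_mul_eq_one_left hyy
  have hyh' : y * h * y⁻¹ = h := by rw [hyh]; group
  have hxk' : x * k * x⁻¹ = k := by rw [hxk]; group
  have hxki : x * k⁻¹ * x⁻¹ = k⁻¹ := by
    have : x * k⁻¹ * x⁻¹ = (x * k * x⁻¹)⁻¹ := by group
    rw [this, hxk']
  have hyki : y * k⁻¹ * y⁻¹ = k := by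
    have : y * k⁻¹ * y⁻¹ = (y * k * y⁻¹)⁻¹ := by group
    rw [this, hyk, inv_inv]
  -- x inverts k h k⁻¹
  have hinv' : x * (k * h * k⁻¹) * x⁻¹ = (k * h * k⁻¹)⁻¹ := by
    have : x * (k * h * k⁻¹) * x⁻¹ = (x * k * x⁻¹) * (x * h * x⁻¹) * (x * k⁻¹ * x⁻¹) := by group
    rw [this, hxk', hxh, hxki]; group
  obtain ⟨w, hwV, hw1, hwc⟩ := hS (k * h * k⁻¹) x hxV (odd_orderOf_conj k h hhodd) hinv'
  have hyconj : y * (k * h * k⁻¹) * y⁻¹ = k⁻¹ * h * k := by
    have : y * (k * h * k⁻¹) * y⁻¹ = (y * k * y⁻¹) * (y * h * y⁻¹) * (y * k⁻¹ * y⁻¹) := by group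
    rw [this, hyk, hyh', hyki]
  rcases hV4 w hwV with rfl | rfl | rfl | rfl
  · exact hw1 rfl
  · have h1 := odd_inv_comm w (k * h * k⁻¹) (odd_orderOf_conj k h hhodd) hinv' hwc
    apply hh1
    have : h = k⁻¹ * (k * h * k⁻¹) * k := by group
    rw [this, h1]; group
  · -- w = y: k² commutes with h
    have h1 : w * (k * h * k⁻¹) * w⁻¹ = k * h * k⁻¹ := by rw [hwc]; group
    rw [hyconj] at h1
    have h2 : (k * k) ∈ Subgroup.centralizer ({h} : Set G) := by
      rw [Subgroup.mem_centralizer_iff]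
      intro z hz
      rw [Set.mem_singleton_iff] at hz
      subst hz
      have : z * (k * k) = k * (k⁻¹ * z * k) * k := by group
      rw [this, h1]; group
    have h3 := mem_of_sq_mem _ k hkodd h2
    rw [Subgroup.mem_centralizer_iff] at h3
    have hhk : h * k = k * h := h3 h rfl
    -- x * w inverts h * k
    have hzh : (x * w) * h * (x * w)⁻¹ = h⁻¹ := by
      have : (x * w) * h * (x * w)⁻¹ = x * (w * h * w⁻¹) * x⁻¹ := by group
      rw [this, hyh', hxh]
    have hzk : (x * w) * k * (x * w)⁻¹ = k⁻¹ := by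
      have : (x * w) * k * (x * w)⁻¹ = x * (w * k * w⁻¹) * x⁻¹ := by group
      rw [this, hyk, hxki]
    have hzhk : (x * w) * (h * k) * (x * w)⁻¹ = (h * k)⁻¹ := by
      have : (x * w) * (h * k) * (x * w)⁻¹ =
          ((x * w) * h * (x * w)⁻¹) * ((x * w) * k * (x * w)⁻¹) := by group
      rw [this, hzh, hzk, hhk, mul_inv_rev]
    have hoddhk : Odd (orderOf (h * k)) := by
      have hcomm : Commute h k := hhk
      have hdvd := hcomm.orderOf_mul_dvd_lcm
      have hl : Odd (Nat.lcm (orderOf h) (orderOf k)) := by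
        rw [Nat.odd_iff, ← Nat.two_dvd_ne_zero]
        intro h2
        have hcop : Nat.Coprime 2 (orderOf h) := Nat.coprime_two_left.mpr hhodd
        have hcop2 : Nat.Coprime 2 (orderOf k) := Nat.coprime_two_left.mpr hkodd
        have h5 : 2 ∣ orderOf h * orderOf k := h2.trans (Nat.lcm_dvd_mul _ _)
        have h6 := (Nat.Coprime.dvd_mul_left hcop).mp h5
        rw [Nat.odd_iff] at hkodd
        omega
      exact Odd.of_dvd_nat hl hdvd
    obtain ⟨w', hw'V, hw'1, hw'c⟩ := hS (h * k) (x * w) (mul_mem hxV hyV) hoddhk hzhk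
    have hw'c' : w' * (h * k) * w'⁻¹ = h * k := by rw [hw'c]; group
    rcases hV4 w' hw'V with rfl | rfl | rfl | rfl
    · exact hw'1 rfl
    · -- w' = x
      have : w' * (h * k) * w'⁻¹ = (w' * h * w'⁻¹) * (w' * k * w'⁻¹) := by group
      rw [this, hxh, hxk'] at hw'c'
      have h5 : h⁻¹ = h := mul_right_cancel hw'c'
      apply hh1
      apply odd_inv_comm w' h hhodd hxh
      have : w' * h = (w' * h * w'⁻¹) * w' := by group
      rw [this, hxh, h5]
    · -- w' = y
      have : w' * (h * k) * w'⁻¹ = (w' * h * w'⁻¹) * (w' * k * w'⁻¹) := by group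
      rw [this, hyh', hyk] at hw'c'
      have h5 : k⁻¹ = k := mul_left_cancel hw'c'
      apply hk1
      apply odd_inv_comm w' k hkodd hyk
      have : w' * k = (w' * k * w'⁻¹) * w' := by group
      rw [this, hyk, h5]
    · -- w' = x * y
      have h5 := odd_inv_comm (x * w) (h * k) hoddhk hzhk hw'c
      have h6 : k = h⁻¹ := by
        rw [eq_inv_iff_mul_eq_one, ← hhk]; exact h5
      apply hk1
      apply odd_inv_comm x k hkodd _ hxk
      rw [h6]
      have : x * h⁻¹ * x⁻¹ = (x * h * x⁻¹)⁻¹ := by group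
      rw [this, hxh]
  · -- w = x * y
    have h1 : (x * y) * (k * h * k⁻¹) * (x * y)⁻¹ = k * h * k⁻¹ := by rw [hwc]; group
    have h2 : (x * y) * (k * h * k⁻¹) * (x * y)⁻¹ = x * (y * (k * h * k⁻¹) * y⁻¹) * x⁻¹ := by
      group
    rw [h2, hyconj] at h1
    have h3 : x * (k⁻¹ * h * k) * x⁻¹ = k⁻¹ * h⁻¹ * k := by
      have : x * (k⁻¹ * h * k) * x⁻¹ = (x * k⁻¹ * x⁻¹) * (x * h * x⁻¹) * (x * k * x⁻¹) := by
        group
      rw [this, hxki, hxh, hxk']
    rw [h3] at h1
    -- k² inverts h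
    have h4 : (k * k) * h * ((k * k))⁻¹ = h⁻¹ := by
      have : (k * k) * h * ((k * k))⁻¹ = k * (k * h * k⁻¹) * k⁻¹ := by group
      rw [this, ← h1]; group
    have hk2odd : Odd (orderOf (k * k)) := by
      rw [← sq]; exact Odd.of_dvd_nat hkodd (orderOf_pow_dvd 2)
    exact hh1 (odd_inverts_odd (k * k) h hk2odd hhodd h4)

/-- Let G be a finite group and V a nontrivial elementary abelian 2-subgroup of G of order at most 4 such that, whenever an element of V inverts an element h of G of odd order, some nontrivial element of V commutes with h. Then V meets O₂(G) nontrivially. (The case of order at most 4 has a short argument from the Baer–Suzuki theorem.) -/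
theorem result {G : Type*} [Group G] [Finite G] (V : Subgroup G) (hV : Cfsg.IsElementaryAbelian 2 V) (hV1 : V ≠ ⊥) (hS : Cfsg.IsSidkiPair V) (h4 : Nat.card V ≤ 4) : V ⊓ Cfsg.pCore 2 G ≠ ⊥ := by
  intro hbot
  obtain ⟨hVc, hV2⟩ := hV
  have hsq : ∀ a ∈ V, a * a = 1 := fun a ha => by rw [← sq]; exact hV2 a ha
  have hnot : ∀ a ∈ V, a ≠ 1 → a ∉ Cfsg.pCore 2 G := by
    intro a ha ha1 haO
    have h1 : a ∈ V ⊓ Cfsg.pCore 2 G := ⟨ha, haO⟩
    rw [hbot] at h1
    exact ha1 (Subgroup.mem_bot.mp h1)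
  have hinvA : ∀ a ∈ V, a ≠ 1 → ∃ h : G, h ≠ 1 ∧ Odd (orderOf h) ∧ a * h * a⁻¹ = h⁻¹ :=
    fun a ha ha1 => exists_inverted a (hsq a ha) (hnot a ha ha1)
  obtain ⟨a, haV, ha1⟩ : ∃ a ∈ V, a ≠ 1 := by
    by_contra hcon
    apply hV1
    rw [eq_bot_iff]
    intro x hx
    by_contra hx1
    exact hcon ⟨x, hx, fun h => hx1 (Subgroup.mem_bot.mpr h)⟩
  obtain ⟨h, hh1, hhodd, hah⟩ := hinvA a haV ha1
  obtain ⟨b, hbV, hb1, hbh⟩ := hS h a haV hhodd hah
  have hba : b ≠ a := by
    rintro rfl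
    exact hh1 (odd_inv_comm b h hhodd hah hbh)
  obtain ⟨k, hk1, hkodd, hbk⟩ := hinvA b hbV hb1
  obtain ⟨c, hcV, hc1, hck⟩ := hS k b hbV hkodd hbk
  have hcb : c ≠ b := by
    rintro rfl
    exact hk1 (odd_inv_comm c k hkodd hbk hck)
  have haa := hsq a haV
  have hbb := hsq b hbV
  have hab1 : a * b ≠ 1 := by
    intro h0
    rw [← hbb] at h0
    exact hba (mul_right_cancel h0).symm
  have haba : a * b ≠ a := by
    intro h0
    apply hb1
    have : a * b = a * 1 := by rw [h0, mul_one]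
    exact mul_left_cancel this
  have habb : a * b ≠ b := by
    intro h0
    apply ha1
    have : a * b = 1 * b := by rw [h0, one_mul]
    exact mul_right_cancel this
  have hV4 : ∀ w ∈ V, w = 1 ∨ w = a ∨ w = b ∨ w = a * b := by
    classical
    intro w hw
    by_contra hcon
    rw [not_or, not_or, not_or] at hcon
    obtain ⟨hw1, hwa, hwb, hwab⟩ := hcon
    have h5 : ({1, a, b, a * b, w} : Finset G).card = 5 := by
      rw [Finset.card_insert_of_notMem, Finset.card_insert_of_notMem,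
        Finset.card_insert_of_notMem, Finset.card_insert_of_notMem, Finset.card_singleton]
      · simp only [Finset.mem_singleton]; exact fun h0 => hwab h0.symm
      · simp only [Finset.mem_insert, Finset.mem_singleton, not_or]
        exact ⟨fun h0 => habb h0.symm, fun h0 => hwb h0.symm⟩
      · simp only [Finset.mem_insert, Finset.mem_singleton, not_or]
        exact ⟨fun h0 => hba h0.symm, fun h0 => haba h0.symm, fun h0 => hwa h0.symm⟩
      · simp only [Finset.mem_insert, Finset.mem_singleton, not_or]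
        exact ⟨fun h0 => ha1 h0.symm, fun h0 => hb1 h0.symm, fun h0 => hab1 h0.symm,
          fun h0 => hw1 h0.symm⟩
    have hsub : (({1, a, b, a * b, w} : Finset G) : Set G) ⊆ (V : Set G) := by
      intro z hz
      simp only [Finset.coe_insert, Finset.coe_singleton, Set.mem_insert_iff,
        Set.mem_singleton_iff] at hz
      rcases hz with rfl | rfl | rfl | rfl | rfl
      · exact one_mem V
      · exact haV
      · exact hbV
      · exact mul_mem haV hbV
      · exact hw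
    have h6 := Set.ncard_le_ncard hsub (Set.toFinite _)
    rw [Set.ncard_coe_finset, h5] at h6
    have h7 : Nat.card V = (V : Set G).ncard := Nat.card_coe_set_eq _
    omega
  have hcomm : a * b = b * a := by
    have := hVc.is_comm.comm ⟨a, haV⟩ ⟨b, hbV⟩
    exact congrArg Subtype.val this
  rcases hV4 c hcV with h0 | h0 | h0 | h0
  · exact hc1 h0
  · subst h0
    exact lemmaL V hS c b h k hcV hbV haa hbb hV4 hh1 hk1 hhodd hkodd hah hbh hbk hck
  · exact hcb h0
  · subst h0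
    have hbh' : b * h * b⁻¹ = h := by rw [hbh]; group
    have hcinv : (a * b) * h * (a * b)⁻¹ = h⁻¹ := by
      have : (a * b) * h * (a * b)⁻¹ = a * (b * h * b⁻¹) * a⁻¹ := by group
      rw [this, hbh', hah]
    have hV4' : ∀ w ∈ V, w = 1 ∨ w = a * b ∨ w = b ∨ w = a * b * b := by
      intro w hw
      have e : a * b * b = a := by rw [mul_assoc, hbb, mul_one]
      rw [e]
      rcases hV4 w hw with h1 | h1 | h1 | h1
      · exact Or.inl h1
      · exact Or.inr (Or.inr (Or.inr h1))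
      · exact Or.inr (Or.inr (Or.inl h1))
      · exact Or.inr (Or.inl h1)
    exact lemmaL V hS (a * b) b h k hcV hbV (hsq _ hcV) hbb hV4' hh1 hk1 hhodd hkodd hcinv hbh
      hbk hck

end Cfsg.Agent.S3011
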