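import Cfsg.Statements.S3012
import Mathlib

set_option autoImplicit false
open Cfsg

namespace Cfsg.Agent.S3012

theorem commute_of_commute_pow {G : Type*} [Group G] (w h : G) (N : ℕ)
    (hcop : N.Coprime (orderOf h)) (hc : Commute w (h ^ N)) : Commute w h := by
  obtain ⟨m, hm⟩ := exists_pow_eq_self_of_coprime hcop
  rw [← hm]
  exact hc.pow_right _

/-- Let G be a finite group, V a nontrivial elementary abelian 2-subgroup of G satisfying the Sidki pair condition (every odd-order element inverted by an element of V commutes with a nontrivial element of V), and K a normal subgroup of G with V ∩ K = 1. Then the image of V in G/K satisfies the Sidki pair condition in G/K. -/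
theorem result {G : Type*} [Group G] [Finite G] (V K : Subgroup G) [K.Normal] (hV : Cfsg.IsElementaryAbelian 2 V) (hV1 : V ≠ ⊥) (hS : Cfsg.IsSidkiPair V) (hVK : V ⊓ K = ⊥) : Cfsg.IsSidkiPair (V.map (QuotientGroup.mk' K)) := by
  intro hbar vbar hvbar hodd hinvbar
  obtain ⟨v, hv, rfl⟩ := hvbar
  obtain ⟨h, rfl⟩ := QuotientGroup.mk_surjective hbar
  have hv2 : v ^ 2 = 1 := hV.2 v hv
  have hvinv : v⁻¹ = v := by
    rw [inv_eq_iff_mul_eq_one, ← pow_two]; exact hv2
  set c := v * h * v⁻¹ * h⁻¹ with hc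
  have hcinv : v * c * v⁻¹ = c⁻¹ := by
    rw [hc, hvinv]
    have e1 : v * (v * h * v * h⁻¹) * v = (v * v) * h * v * h⁻¹ * v := by group
    have e2 : (v * h * v * h⁻¹)⁻¹ = h * v⁻¹ * h⁻¹ * v⁻¹ := by group
    rw [e1, e2, hvinv, ← pow_two, hv2, one_mul]
  have hn0 : orderOf c ≠ 0 := (orderOf_pos c).ne'
  obtain ⟨a, m, hm, hnm⟩ := Nat.exists_eq_two_pow_mul_odd hn0
  have hord : orderOf (c ^ (2 ^ a)) = m := by
    rw [orderOf_pow_of_dvd (pow_ne_zero _ (by norm_num)) (by rw [hnm]; exact dvd_mul_right _ _),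
      hnm, Nat.mul_div_cancel_left _ (pow_pos (by norm_num) _)]
  have hinv' : v * c ^ (2 ^ a) * v⁻¹ = (c ^ (2 ^ a))⁻¹ := by
    rw [← conj_pow, hcinv, inv_pow]
  obtain ⟨w, hw, hw1, hwc⟩ := hS (c ^ (2 ^ a)) v hv (by rw [hord]; exact hm) hinv'
  refine ⟨QuotientGroup.mk' K w, ⟨w, hw, rfl⟩, ?_, ?_⟩
  · intro h1
    apply hw1
    have hwK : w ∈ K := by
      rw [← QuotientGroup.eq_one_iff]
      exact h1
    have : w ∈ V ⊓ K := Subgroup.mem_inf.mpr ⟨hw, hwK⟩
    rw [hVK] at this
    exact Subgroup.mem_bot.mp this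
  · set hb : G ⧸ K := QuotientGroup.mk' K h with hhb
    set vb : G ⧸ K := QuotientGroup.mk' K v with hvb
    set wb : G ⧸ K := QuotientGroup.mk' K w with hwb
    have hinvbar' : vb * hb * vb⁻¹ = hb⁻¹ := hinvbar
    have hodd' : Odd (orderOf hb) := hodd
    have hcb : QuotientGroup.mk' K c = (hb ^ 2)⁻¹ := by
      rw [hc]
      simp only [map_mul, map_inv]
      rw [← hhb, ← hvb, hinvbar', pow_two, mul_inv_rev]
    have h1 : Commute wb (QuotientGroup.mk' K (c ^ (2 ^ a))) := by
      show wb * _ = _ * wb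
      rw [hwb, ← map_mul, ← map_mul, hwc]
    rw [map_pow, hcb, inv_pow, ← pow_mul] at h1
    have h2 : Commute wb (hb ^ (2 * 2 ^ a)) := (Commute.inv_right_iff).mp h1
    have hcop : (2 * 2 ^ a).Coprime (orderOf hb) := by
      have : (2 ^ (a + 1)).Coprime (orderOf hb) :=
        Nat.Coprime.pow_left _ (Nat.coprime_two_left.mpr hodd')
      rw [pow_succ, mul_comm] at this
      exact this
    exact (commute_of_commute_pow wb hb _ hcop h2).eq

end Cfsg.Agent.S3012
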