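import Cfsg.Statements.S3013
import Mathlib

set_option autoImplicit false
open Cfsg

namespace Cfsg.Agent.S3013

theorem commute_of_commute_sq {G : Type*} [Group G] (w h : G) (hodd : Odd (orderOf h))
    (hc : Commute w (h ^ 2)) : Commute w h := by
  obtain ⟨j, hj⟩ := hodd
  have h1 : (h ^ 2) ^ (j + 1) = h := by
    rw [← pow_mul]
    have : 2 * (j + 1) = orderOf h + 1 := by omega
    rw [this, pow_succ, pow_orderOf_eq_one, one_mul]
  rw [← h1]
  exact hc.pow_right _

theorem comm_of_mem {G : Type*} [Group G] (V : Subgroup G) (hV : IsMulCommutative ↥V)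
    {a b : G} (ha : a ∈ V) (hb : b ∈ V) : Commute a b := by
  have := hV.is_comm.comm (⟨a, ha⟩ : ↥V) ⟨b, hb⟩
  show a * b = b * a
  exact congrArg Subtype.val this

theorem odd_orderOf_mul {G : Type*} [Group G] [Finite G] (x h : G) (hc : Commute x h)
    (hx : Odd (orderOf x)) (hh : Odd (orderOf h)) : Odd (orderOf (x * h)) := by
  have h1 : orderOf (x * h) ∣ Nat.lcm (orderOf x) (orderOf h) := hc.orderOf_mul_dvd_lcm
  have h2 : orderOf (x * h) ∣ orderOf x * orderOf h :=
    dvd_trans h1 (Nat.lcm_dvd_mul _ _)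
  exact (hx.mul hh).of_dvd_nat h2

/-- The core computation: a nontrivial element of `V` commuting with both `x` and `h`. -/
theorem sidki_core {G : Type*} [Group G] [Finite G] (V : Subgroup G)
    (hV : Cfsg.IsElementaryAbelian 2 V) (hS : Cfsg.IsSidkiPair V) (v x u h : G)
    (hv : v ∈ V) (hu : u ∈ V) (hx : Odd (orderOf x)) (hh : Odd (orderOf h))
    (hvx : v * x * v⁻¹ = x⁻¹) (hvh : Commute v h) (hux : Commute u x)
    (huh : u * h * u⁻¹ = h⁻¹) (hxh : Commute x h) :
    ∃ w ∈ V, w ≠ 1 ∧ Commute w x ∧ Commute w h := by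
  have hg : Odd (orderOf (x * h)) := odd_orderOf_mul x h hxh hx hh
  have hvh' : v * h * v⁻¹ = h := by
    rw [hvh.eq, mul_inv_cancel_right]
  have hux' : u * x * u⁻¹ = x := by
    rw [hux.eq, mul_inv_cancel_right]
  have hinv : (u * v) * (x * h) * (u * v)⁻¹ = (x * h)⁻¹ := by
    have e1 : (u * v) * (x * h) * (u * v)⁻¹ =
        u * ((v * x * v⁻¹) * (v * h * v⁻¹)) * u⁻¹ := by group
    rw [e1, hvx, hvh']
    have e2 : u * (x⁻¹ * h) * u⁻¹ = (u * x * u⁻¹)⁻¹ * (u * h * u⁻¹) := by group
    rw [e2, hux', huh, hxh.eq, mul_inv_rev]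
  obtain ⟨w, hw, hw1, hwg⟩ := hS (x * h) (u * v) (V.mul_mem hu hv) hg hinv
  have hwg' : Commute w (x * h) := hwg
  have hwu : Commute w u := comm_of_mem V hV.1 hw hu
  have hconj : u * (x * h) * u⁻¹ = x * h⁻¹ := by
    have e : u * (x * h) * u⁻¹ = (u * x * u⁻¹) * (u * h * u⁻¹) := by group
    rw [e, hux', huh]
  have hw2 : Commute w (x * h⁻¹) := by
    rw [← hconj]
    exact (hwu.mul_right hwg').mul_right hwu.inv_right
  have hsq : (x * h) * (x * h⁻¹)⁻¹ = h ^ 2 := by
    rw [mul_inv_rev, inv_inv, hxh.eq, mul_assoc, ← mul_assoc x h x⁻¹, hxh.eq, mul_assoc,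
      mul_inv_cancel, mul_one, pow_two]
  have hw3 : Commute w (h ^ 2) := by
    rw [← hsq]
    exact hwg'.mul_right hw2.inv_right
  have hwh : Commute w h := commute_of_commute_sq w h hh hw3
  have hwx : Commute w x := by
    have : x = (x * h) * h⁻¹ := by group
    rw [this]
    exact hwg'.mul_right hwh.inv_right
  exact ⟨w, hw, hw1, hwx, hwh⟩

/-- Let G be a finite group and V a nontrivial elementary abelian 2-subgroup of G satisfying the Sidki pair condition. Let v ∈ V and let x be an element of odd order inverted by v, and put C = C_G(v) ∩ C_G(x), the centralizer of the dihedral subgroup generated by v and x. Then C ∩ V is nontrivial and satisfies the Sidki pair condition inside C: every odd-order element of C inverted by an element of C ∩ V commutes with a nontrivial element of C ∩ V. -/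
theorem result {G : Type*} [Group G] [Finite G] (V : Subgroup G) (hV : Cfsg.IsElementaryAbelian 2 V) (hV1 : V ≠ ⊥) (hS : Cfsg.IsSidkiPair V) (v x : G) (hv : v ∈ V) (hx : Odd (orderOf x)) (hinv : v * x * v⁻¹ = x⁻¹) (C : Subgroup G) (hC : C = Subgroup.centralizer ({v} : Set G) ⊓ Subgroup.centralizer ({x} : Set G)) : C ⊓ V ≠ ⊥ ∧ Cfsg.IsSidkiPair ((C ⊓ V).subgroupOf C) := by
  subst hC
  constructor
  · obtain ⟨w, hw, hw1, hwx⟩ := hS x v hv hx hinv
    intro hbot
    apply hw1
    have hwC : w ∈ (Subgroup.centralizer ({v} : Set G) ⊓ Subgroup.centralizer ({x} : Set G)) ⊓ V := by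
      refine Subgroup.mem_inf.mpr ⟨Subgroup.mem_inf.mpr ⟨?_, ?_⟩, hw⟩
      · rw [Subgroup.mem_centralizer_singleton_iff]
        exact (comm_of_mem V hV.1 hw hv).eq
      · rw [Subgroup.mem_centralizer_singleton_iff]
        exact hwx
    rw [hbot] at hwC
    exact Subgroup.mem_bot.mp hwC
  · intro h u hu hh huh
    rw [Subgroup.mem_subgroupOf] at hu
    have huV : (u : G) ∈ V := (Subgroup.mem_inf.mp hu).2
    have hhC := h.2
    have huC := u.2
    obtain ⟨hhv, hhx⟩ := Subgroup.mem_inf.mp hhC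
    obtain ⟨huv, hux⟩ := Subgroup.mem_inf.mp huC
    rw [Subgroup.mem_centralizer_singleton_iff] at hhv hhx huv hux
    have hh' : Odd (orderOf (h : G)) := by
      rw [Subgroup.orderOf_coe]; exact hh
    have huh' : (u : G) * (h : G) * (u : G)⁻¹ = (h : G)⁻¹ := by
      have := congrArg Subtype.val huh
      simpa using this
    obtain ⟨w, hw, hw1, hwx, hwh⟩ := sidki_core V hV hS v x (u : G) (h : G) hv huV hx hh' hinv
      (show Commute v (h : G) from hhv.symm) (show Commute (u : G) x from hux) huh'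
      (show Commute x (h : G) from hhx.symm)
    have hwC : w ∈ Subgroup.centralizer ({v} : Set G) ⊓ Subgroup.centralizer ({x} : Set G) := by
      refine Subgroup.mem_inf.mpr ⟨?_, ?_⟩
      · rw [Subgroup.mem_centralizer_singleton_iff]
        exact (comm_of_mem V hV.1 hw hv).eq
      · rw [Subgroup.mem_centralizer_singleton_iff]
        exact hwx.eq
    refine ⟨⟨w, hwC⟩, ?_, ?_, ?_⟩
    · rw [Subgroup.mem_subgroupOf]
      exact Subgroup.mem_inf.mpr ⟨hwC, hw⟩
    · intro h1
      apply hw1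
      exact congrArg Subtype.val h1
    · apply Subtype.ext
      exact hwh.eq

end Cfsg.Agent.S3013
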