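import Cfsg.Statements.S3014
import Mathlib
import Cfsg.Agent.Lib.Helper50.Transfer

set_option autoImplicit false
open Cfsg

namespace Cfsg.Agent.S3014

/-- Let G be a finite group and H ≤ M ≤ G subgroups such that for every g ∈ G the subgroup generated by H and g H g⁻¹ meets M exactly in H. If H is a maximal subgroup of M and M is a maximal subgroup of G, then the normal closure of H in G meets M exactly in H. -/
theorem result {G : Type*} [Group G] [Finite G] (H M : Subgroup G) (hHM : H ≤ M) (hcl : ∀ g : G, (H ⊔ H.map (MulAut.conj g).toMonoidHom) ⊓ M = H) (hmaxH : IsCoatom (H.subgroupOf M)) (hmaxM : IsCoatom M) : Subgroup.normalClosure (H : Set G) ⊓ M = H := by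
  classical
  have hMN : M ≤ Subgroup.normalizer (H : Set G) := by
    intro g hg
    apply Lib.Helper50.Transfer.mem_normalizer_of_conj_mem
    intro x hx
    have h1 : H ⊔ H.map (MulAut.conj g).toMonoidHom ≤ M := by
      refine sup_le hHM ?_
      rintro _ ⟨y, hy, rfl⟩
      exact mul_mem (mul_mem hg (hHM hy)) (inv_mem hg)
    have h2 := hcl g
    rw [inf_eq_left.mpr h1] at h2
    have h3 : g * x * g⁻¹ ∈ H ⊔ H.map (MulAut.conj g).toMonoidHom :=
      (le_sup_right : H.map (MulAut.conj g).toMonoidHom ≤ _) ⟨x, hx, rfl⟩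
    rw [h2] at h3
    exact h3
  have hkey : ∀ g₀ h : G, h ∈ H → g₀⁻¹ * h * g₀ ∈ M → g₀⁻¹ * h * g₀ ∈ H := by
    intro g₀ h hh hmem
    have h1 : g₀⁻¹ * h * g₀ ∈ (H ⊔ H.map (MulAut.conj g₀⁻¹).toMonoidHom) ⊓ M := by
      refine ⟨(le_sup_right : H.map (MulAut.conj g₀⁻¹).toMonoidHom ≤ _) ⟨h, hh, ?_⟩, hmem⟩
      simp
    rw [hcl g₀⁻¹] at h1
    exact h1
  have hmaxH' : ∀ K : Subgroup G, H ≤ K → K ≤ M → K ≤ H ∨ M ≤ K := by
    intro K hHK hKM
    by_cases h : K.subgroupOf M = H.subgroupOf M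
    · left
      intro k hk
      have h1 : (⟨k, hKM hk⟩ : ↥M) ∈ K.subgroupOf M := Subgroup.mem_subgroupOf.mpr hk
      rw [h] at h1
      exact Subgroup.mem_subgroupOf.mp h1
    · right
      have hle : H.subgroupOf M ≤ K.subgroupOf M :=
        fun z hz => Subgroup.mem_subgroupOf.mpr (hHK (Subgroup.mem_subgroupOf.mp hz))
      have h1 := hmaxH.2 _ (lt_of_le_of_ne hle (Ne.symm h))
      exact Subgroup.subgroupOf_eq_top.mp h1
  have hHneM : ¬ M ≤ H := fun h => hmaxH.1 (Subgroup.subgroupOf_eq_top.mpr h)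
  have hgen : ∀ y : G, y ∈ M → y ∉ H → M ≤ H ⊔ Subgroup.zpowers y := by
    intro y hyM hyH
    rcases hmaxH' (H ⊔ Subgroup.zpowers y) le_sup_left
      (sup_le hHM (Subgroup.zpowers_le.mpr hyM)) with h | h
    · exfalso
      exact hyH (h ((le_sup_right : Subgroup.zpowers y ≤ _) (Subgroup.mem_zpowers y)))
    · exact h
  apply le_antisymm
  swap
  · exact le_inf Subgroup.le_normalClosure hHM
  by_cases hHnorm : Subgroup.normalizer (H : Set G) = ⊤
  · rw [Subgroup.normalizer_eq_top_iff] at hHnorm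
    rw [Subgroup.normalClosure_eq_self]
    exact inf_le_left
  have hNH : Subgroup.normalizer (H : Set G) = M := by
    rcases eq_or_lt_of_le hMN with h | h
    · exact h.symm
    · exact absurd (hmaxM.2 _ h) hHnorm
  have _hn : (H.subgroupOf M).Normal :=
    (Subgroup.normal_subgroupOf_iff_le_normalizer hHM).mpr hMN
  have hcomm : ∀ a b : ↥M ⧸ H.subgroupOf M, a * b = b * a := by
    obtain ⟨a, haM, haH⟩ : ∃ a, a ∈ M ∧ a ∉ H := by
      by_contra h
      apply hHneM
      intro m hm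
      by_contra hmH
      exact h ⟨m, hm, hmH⟩
    have haH' : (⟨a, haM⟩ : ↥M) ∉ H.subgroupOf M := fun h => haH (Subgroup.mem_subgroupOf.mp h)
    have htop : H.subgroupOf M ⊔ Subgroup.zpowers (⟨a, haM⟩ : ↥M) = ⊤ := by
      apply hmaxH.2
      refine lt_of_le_of_ne le_sup_left (fun h => haH' ?_)
      rw [h]
      exact (le_sup_right : Subgroup.zpowers (⟨a, haM⟩ : ↥M) ≤ _) (Subgroup.mem_zpowers _)
    have hsurj : ∀ q : ↥M ⧸ H.subgroupOf M, ∃ k : ℤ,
        q = (((⟨a, haM⟩ : ↥M) ^ k : ↥M) : ↥M ⧸ H.subgroupOf M) := by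
      intro q
      obtain ⟨m, rfl⟩ := QuotientGroup.mk_surjective q
      have hm : m ∈ (((H.subgroupOf M ⊔ Subgroup.zpowers (⟨a, haM⟩ : ↥M) : Subgroup ↥M)) : Set ↥M) := by
        rw [htop]; exact Subgroup.mem_top m
      rw [Subgroup.normal_mul] at hm
      obtain ⟨h, hh, z, hz, rfl⟩ := Set.mem_mul.mp hm
      obtain ⟨k, rfl⟩ := Subgroup.mem_zpowers_iff.mp hz
      refine ⟨k, ?_⟩
      rw [QuotientGroup.mk_mul, (QuotientGroup.eq_one_iff h).mpr hh, one_mul]
    intro q₁ q₂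
    obtain ⟨k₁, rfl⟩ := hsurj q₁
    obtain ⟨k₂, rfl⟩ := hsurj q₂
    rw [← QuotientGroup.mk_mul, ← QuotientGroup.mk_mul, ← zpow_add, ← zpow_add, add_comm]
  obtain ⟨ϕ, hϕ'⟩ := Lib.Helper50.Transfer.exists_comm_hom (H.subgroupOf M) hcomm
  have hϕ : ∀ z : ↥M, ϕ z = 1 ↔ (z : G) ∈ H := fun z => (hϕ' z).trans Subgroup.mem_subgroupOf
  by_cases hA : ∃ x g₀ : G, x ∈ M ∧ x ∉ H ∧ g₀ ∉ M ∧ g₀⁻¹ * x * g₀ ∈ M
  · obtain ⟨x, g₀, hxM, hxH, hg₀M, hmem⟩ := hA
    have hxH₁ : x ∈ Subgroup.normalizer (H : Set G) := hMN hxM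
    have hxH₂ : x ∈ Subgroup.normalizer
        ((H.map (MulAut.conj g₀).toMonoidHom : Subgroup G) : Set G) := by
      apply Lib.Helper50.Transfer.mem_normalizer_of_conj_mem
      rintro _ ⟨h, hh, rfl⟩
      refine ⟨(g₀⁻¹ * x * g₀) * h * (g₀⁻¹ * x * g₀)⁻¹,
        Lib.Helper50.Transfer.conj_mem_of_mem_normalizer H _ (hMN hmem) h hh, ?_⟩
      simp only [MulEquiv.coe_toMonoidHom, MulAut.conj_apply]
      group
    have hMD : M ≤ Subgroup.normalizer
        ((H ⊔ H.map (MulAut.conj g₀).toMonoidHom : Subgroup G) : Set G) := by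
      refine (hgen x hxM hxH).trans (sup_le ?_ ?_)
      · exact le_sup_left.trans Subgroup.le_normalizer
      · rw [Subgroup.zpowers_le]
        exact Lib.Helper50.Transfer.normalizer_inf_le_normalizer_sup H _ ⟨hxH₁, hxH₂⟩
    have hDM : ¬ (H ⊔ H.map (MulAut.conj g₀).toMonoidHom ≤ M) := by
      intro hD
      have h2 := hcl g₀
      rw [inf_eq_left.mpr hD] at h2
      apply hg₀M
      rw [← hNH]
      apply Lib.Helper50.Transfer.mem_normalizer_of_conj_mem
      intro z hz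
      have h3 : g₀ * z * g₀⁻¹ ∈ H ⊔ H.map (MulAut.conj g₀).toMonoidHom :=
        (le_sup_right : H.map (MulAut.conj g₀).toMonoidHom ≤ _) ⟨z, hz, rfl⟩
      rw [h2] at h3
      exact h3
    have h1 : M ⊔ (H ⊔ H.map (MulAut.conj g₀).toMonoidHom) = ⊤ :=
      hmaxM.2 _ (lt_of_le_of_ne le_sup_left (fun h => hDM (h ▸ le_sup_right)))
    have h2 : Subgroup.normalizer
        ((H ⊔ H.map (MulAut.conj g₀).toMonoidHom : Subgroup G) : Set G) = ⊤ := by
      rw [eq_top_iff, ← h1]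
      exact sup_le hMD Subgroup.le_normalizer
    rw [Subgroup.normalizer_eq_top_iff] at h2
    have h3 : Subgroup.normalClosure (H : Set G) ≤ H ⊔ H.map (MulAut.conj g₀).toMonoidHom :=
      Subgroup.normalClosure_le_normal (fun z hz => (le_sup_left : H ≤ _) hz)
    calc Subgroup.normalClosure (H : Set G) ⊓ M
        ≤ (H ⊔ H.map (MulAut.conj g₀).toMonoidHom) ⊓ M := inf_le_inf_right M h3
      _ = H := hcl g₀
  · have hB : ∀ x g₀ : G, x ∈ M → x ∉ H → g₀ ∉ M → g₀⁻¹ * x * g₀ ∉ M := by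
      intro x g₀ h1 h2 h3 h4
      exact hA ⟨x, g₀, h1, h2, h3, h4⟩
    have hV1 : ∀ h ∈ H, MonoidHom.transfer ϕ h = 1 := by
      intro h hh
      apply Lib.Helper50.Transfer.transfer_eq_one ϕ hϕ h
      intro c
      exact hkey c.out _ (pow_mem hh _) (QuotientGroup.out_conj_pow_minimalPeriod_mem M h c)
    have hV2 : ∀ x ∈ M, x ∉ H → MonoidHom.transfer ϕ x ≠ 1 := by
      intro x hxM hxH
      apply Lib.Helper50.Transfer.transfer_ne_one ϕ hϕ x hxM hxH
      intro c hc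
      have hg₀M : c.out ∉ M := by
        intro h
        apply hc
        rw [← QuotientGroup.out_eq' c, QuotientGroup.eq]
        simpa using h
      have hmem := QuotientGroup.out_conj_pow_minimalPeriod_mem M x c
      have hpow : x ^ Function.minimalPeriod (x • ·) c ∈ H := by
        by_contra hcon
        exact hB _ c.out (pow_mem hxM _) hcon hg₀M hmem
      exact hkey c.out _ hpow hmem
    have hle : Subgroup.normalClosure (H : Set G) ≤ (MonoidHom.transfer ϕ).ker :=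
      Subgroup.normalClosure_le_normal (fun z hz => MonoidHom.mem_ker.mpr (hV1 z hz))
    intro z hz
    by_contra hzH
    exact hV2 z hz.2 hzH (MonoidHom.mem_ker.mp (hle hz.1))

end Cfsg.Agent.S3014
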