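import Cfsg.Statements.S3015
import Mathlib
import Cfsg.Agent.Lib.Helper50.Transfer

set_option autoImplicit false
open Cfsg

namespace Cfsg.Agent.S3015

/-- Let G be a finite non-abelian simple group, M a maximal subgroup of G and H a normal subgroup of M of prime index in M. Then G is generated by H together with one of its conjugates. -/
theorem result {G : Type*} [Group G] [Finite G] [IsSimpleGroup G] (hG : ¬ IsMulCommutative G) (M H : Subgroup G) (hmaxM : IsCoatom M) (hHM : H ≤ M) (hHn : (H.subgroupOf M).Normal) (hidx : (H.relIndex M).Prime) : ∃ g : G, H ⊔ H.map (MulAut.conj g).toMonoidHom = ⊤ := by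
  classical
  by_contra hcon
  have hcon' : ∀ g : G, H ⊔ H.map (MulAut.conj g).toMonoidHom ≠ ⊤ := fun g hg => hcon ⟨g, hg⟩
  have hMN : M ≤ Subgroup.normalizer (H : Set G) :=
    (Subgroup.normal_subgroupOf_iff_le_normalizer hHM).mp hHn
  have hmaxH : ∀ K : Subgroup G, H ≤ K → K ≤ M → K ≤ H ∨ M ≤ K := by
    intro K hHK hKM
    have h1 := Subgroup.relIndex_mul_relIndex H K M hHK hKM
    rw [← h1] at hidx
    rcases (Nat.prime_mul_iff.mp hidx) with ⟨_, h2⟩ | ⟨_, h2⟩
    · right; exact Subgroup.relIndex_eq_one.mp h2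
    · left; exact Subgroup.relIndex_eq_one.mp h2
  have hHneM : ¬ M ≤ H := by
    intro h
    have : H.relIndex M = 1 := Subgroup.relIndex_eq_one.mpr h
    rw [this] at hidx
    exact Nat.not_prime_one hidx
  have hMtop : M ≠ ⊤ := hmaxM.1
  have hnormM : Subgroup.normalizer (M : Set G) = M := by
    rcases eq_or_lt_of_le (Subgroup.le_normalizer (H := M)) with h | h
    · exact h.symm
    · exfalso
      have h1 := hmaxM.2 _ h
      rw [Subgroup.normalizer_eq_top_iff] at h1
      rcases h1.eq_bot_or_eq_top with h2 | h2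
      · apply hHneM; rw [h2]; exact bot_le
      · exact hMtop h2
  have hgen : ∀ y : G, y ∈ M → y ∉ H → M ≤ H ⊔ Subgroup.zpowers y := by
    intro y hyM hyH
    rcases hmaxH (H ⊔ Subgroup.zpowers y) le_sup_left
      (sup_le hHM (Subgroup.zpowers_le.mpr hyM)) with h | h
    · exfalso
      exact hyH (h ((le_sup_right : Subgroup.zpowers y ≤ _) (Subgroup.mem_zpowers y)))
    · exact h
  have _hn : (H.subgroupOf M).Normal := hHn
  have hcard : Nat.card (↥M ⧸ H.subgroupOf M) = H.relIndex M := by
    rw [← Subgroup.index_eq_card]; rfl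
  have _hp : Fact (H.relIndex M).Prime := ⟨hidx⟩
  have hcyc : IsCyclic (↥M ⧸ H.subgroupOf M) := isCyclic_of_prime_card hcard
  have hcomm : ∀ a b : ↥M ⧸ H.subgroupOf M, a * b = b * a := by
    intro a b
    let _ := IsCyclic.commGroup (α := ↥M ⧸ H.subgroupOf M)
    exact mul_comm a b
  obtain ⟨ϕ, hϕ'⟩ := Lib.Helper50.Transfer.exists_comm_hom (H.subgroupOf M) hcomm
  have hϕ : ∀ z : ↥M, ϕ z = 1 ↔ (z : G) ∈ H := fun z => (hϕ' z).trans Subgroup.mem_subgroupOf
  have hne : ({x : G | x ∈ M ∧ x ∉ H} : Set G).Nonempty := by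
    by_contra h
    apply hHneM
    intro m hm
    by_contra hmH
    exact h ⟨m, hm, hmH⟩
  obtain ⟨x, ⟨hxM, hxH⟩, hxmin⟩ := Set.exists_min_image _ orderOf (Set.toFinite _) hne
  have hV : MonoidHom.transfer ϕ x ≠ 1 := by
    apply Lib.Helper50.Transfer.transfer_ne_one ϕ hϕ x hxM hxH
    intro c hc
    set g₀ := c.out with hg₀
    have hg₀M : g₀ ∉ M := by
      intro h
      apply hc
      rw [← QuotientGroup.out_eq' c, QuotientGroup.eq]
      simpa using h
    set n := Function.minimalPeriod (x • ·) c with hn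
    have hndvd : n ∣ orderOf x := by
      apply Function.IsPeriodicPt.minimalPeriod_dvd
      show (x • ·)^[orderOf x] c = c
      rw [smul_iterate, pow_orderOf_eq_one]
      exact one_smul G c
    have hn0 : n ≠ 0 := by
      intro h0
      rw [h0, zero_dvd_iff] at hndvd
      exact (orderOf_pos x).ne' hndvd
    have hmem : g₀⁻¹ * x ^ n * g₀ ∈ M := QuotientGroup.out_conj_pow_minimalPeriod_mem M x c
    by_contra hyH
    have hle := hxmin (g₀⁻¹ * x ^ n * g₀) ⟨hmem, hyH⟩
    have hord : orderOf (g₀⁻¹ * x ^ n * g₀) = orderOf x / n := by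
      have h1 : g₀⁻¹ * x ^ n * g₀ = MulAut.conj g₀⁻¹ (x ^ n) := by simp
      rw [h1, MulEquiv.orderOf_eq, orderOf_pow_of_dvd hn0 hndvd]
    have hn1 : n = 1 := by
      by_contra hne1
      have h2 : 1 < n := by omega
      have := Nat.div_lt_self (orderOf_pos x) h2
      omega
    rw [hn1, pow_one] at hmem hyH
    have hxy : x = g₀ * (g₀⁻¹ * x * g₀) * g₀⁻¹ := by group
    have hxH₁ : x ∈ Subgroup.normalizer (H : Set G) := hMN hxM
    have hxH₂ : x ∈ Subgroup.normalizer
        ((H.map (MulAut.conj g₀).toMonoidHom : Subgroup G) : Set G) := by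
      apply Lib.Helper50.Transfer.mem_normalizer_of_conj_mem
      rintro _ ⟨h, hh, rfl⟩
      refine ⟨(g₀⁻¹ * x * g₀) * h * (g₀⁻¹ * x * g₀)⁻¹,
        Lib.Helper50.Transfer.conj_mem_of_mem_normalizer H _ (hMN hmem) h hh, ?_⟩
      simp only [MulEquiv.coe_toMonoidHom, MulAut.conj_apply]
      group
    have hMD : M ≤ Subgroup.normalizer
        ((H ⊔ H.map (MulAut.conj g₀).toMonoidHom : Subgroup G) : Set G) := by
      refine (hgen x hxM hxH).trans (sup_le ?_ ?_)
      · exact le_sup_left.trans Subgroup.le_normalizer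
      · rw [Subgroup.zpowers_le]
        exact Lib.Helper50.Transfer.normalizer_inf_le_normalizer_sup H _ ⟨hxH₁, hxH₂⟩
    have hDM : H ⊔ H.map (MulAut.conj g₀).toMonoidHom ≤ M := by
      by_contra hD
      have h1 : M ⊔ (H ⊔ H.map (MulAut.conj g₀).toMonoidHom) = ⊤ :=
        hmaxM.2 _ (lt_of_le_of_ne le_sup_left (fun h => hD (h ▸ le_sup_right)))
      have h2 : Subgroup.normalizer
          ((H ⊔ H.map (MulAut.conj g₀).toMonoidHom : Subgroup G) : Set G) = ⊤ := by
        rw [eq_top_iff, ← h1]
        exact sup_le hMD Subgroup.le_normalizer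
      rw [Subgroup.normalizer_eq_top_iff] at h2
      rcases h2.eq_bot_or_eq_top with h3 | h3
      · apply hD; rw [h3]; exact bot_le
      · exact hcon' g₀ h3
    have hg₀N : g₀ ∈ Subgroup.normalizer (M : Set G) := by
      apply Lib.Helper50.Transfer.mem_normalizer_of_conj_mem
      have hle : M ≤ M.comap (MulAut.conj g₀).toMonoidHom := by
        refine (hgen _ hmem hyH).trans (sup_le ?_ ?_)
        · intro h hh
          rw [Subgroup.mem_comap]
          exact hDM ((le_sup_right : H.map (MulAut.conj g₀).toMonoidHom ≤ _)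
            (Subgroup.mem_map_of_mem _ hh))
        · rw [Subgroup.zpowers_le, Subgroup.mem_comap]
          have h5 : (MulAut.conj g₀).toMonoidHom (g₀⁻¹ * x * g₀) = x := by
            simp only [MulEquiv.coe_toMonoidHom, MulAut.conj_apply]
            group
          rw [h5]; exact hxM
      intro m hm
      exact hle hm
    rw [hnormM] at hg₀N
    exact hg₀M hg₀N
  have hker := (MonoidHom.transfer ϕ).normal_ker
  rcases hker.eq_bot_or_eq_top with h | h
  · apply hG
    have hinj : Function.Injective (MonoidHom.transfer ϕ) := (MonoidHom.ker_eq_bot_iff _).mp h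
    exact ⟨⟨fun a b => hinj (by rw [map_mul, map_mul, mul_comm])⟩⟩
  · apply hV
    rw [← MonoidHom.mem_ker, h]
    exact Subgroup.mem_top x

end Cfsg.Agent.S3015
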