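import Cfsg.Statements.S3021
import Mathlib

set_option autoImplicit false
open Cfsg

namespace Cfsg.Agent.S3021

theorem map_conj_le_of_le_normalizer {G : Type*} [Group G] (H : Subgroup G)
    (hcl : Cfsg.IsExtremelyClosed H) (g : G)
    (h : H.map (MulAut.conj g).toMonoidHom ≤ Subgroup.normalizer (H : Set G)) :
    H.map (MulAut.conj g).toMonoidHom ≤ H := by
  have h1 : H.map (MulAut.conj g).toMonoidHom ≤
      (H ⊔ H.map (MulAut.conj g).toMonoidHom) ⊓ Subgroup.normalizer (H : Set G) :=
    le_inf le_sup_right h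
  rw [hcl g] at h1
  exact h1

theorem mem_normalizer_of_map_conj_le {G : Type*} [Group G] [Finite G] (H : Subgroup G) (g : G)
    (h : H.map (MulAut.conj g).toMonoidHom ≤ H) : g ∈ Subgroup.normalizer (H : Set G) := by
  have hcard : Nat.card (H.map (MulAut.conj g).toMonoidHom) = Nat.card H :=
    Subgroup.card_map_of_injective (MulAut.conj g).injective
  have heq : H.map (MulAut.conj g).toMonoidHom = H :=
    Subgroup.eq_of_le_of_card_ge h (le_of_eq hcard.symm)
  rw [Subgroup.mem_normalizer_iff]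
  intro x
  constructor
  · intro hx
    have : g * x * g⁻¹ ∈ H.map (MulAut.conj g).toMonoidHom := ⟨x, hx, rfl⟩
    rw [heq] at this
    exact this
  · intro hx
    have hx' : g * x * g⁻¹ ∈ H.map (MulAut.conj g).toMonoidHom := by rw [heq]; exact hx
    obtain ⟨y, hy, hyx⟩ := hx'
    have : y = x := by
      have h2 : g * y * g⁻¹ = g * x * g⁻¹ := hyx
      simpa using h2
    rw [← this]; exact hy

theorem mem_normalizer_of_conj {G : Type*} [Group G] [Finite G] (H : Subgroup G)
    (hcl : Cfsg.IsExtremelyClosed H) (g : G)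
    (h : ∀ x ∈ H, g * x * g⁻¹ ∈ Subgroup.normalizer (H : Set G)) :
    g ∈ Subgroup.normalizer (H : Set G) := by
  apply mem_normalizer_of_map_conj_le
  apply map_conj_le_of_le_normalizer H hcl
  rintro _ ⟨x, hx, rfl⟩
  exact h x hx

theorem le_normalizer_of_pgroup {G : Type*} [Group G] [Finite G] {p : ℕ} [Fact p.Prime]
    (H : Subgroup G) (hcl : Cfsg.IsExtremelyClosed H) (Q : Subgroup G) (hQ : IsPGroup p Q)
    (hHQ : H ≤ Q) : Q ≤ Subgroup.normalizer (H : Set G) := by
  have hnil : Group.IsNilpotent ↥Q := hQ.isNilpotent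
  have hNC : NormalizerCondition ↥Q := Group.normalizerCondition_of_isNilpotent
  by_contra hcon
  set K : Subgroup ↥Q := (Subgroup.normalizer (H : Set G)).subgroupOf Q with hK
  have hKne : K ≠ ⊤ := by
    intro htop
    apply hcon
    exact Subgroup.subgroupOf_eq_top.mp htop
  have hlt : K < Subgroup.normalizer (K : Set ↥Q) := hNC K (lt_top_iff_ne_top.mpr hKne)
  obtain ⟨q, hqN, hqK⟩ := SetLike.exists_of_lt hlt
  apply hqK
  rw [hK, Subgroup.mem_subgroupOf]
  apply mem_normalizer_of_conj H hcl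
  intro x hx
  have hxK : (⟨x, hHQ hx⟩ : ↥Q) ∈ K := by
    rw [hK, Subgroup.mem_subgroupOf]
    exact Subgroup.le_normalizer hx
  have h2 := (Subgroup.mem_normalizer_iff.mp hqN ⟨x, hHQ hx⟩).mp hxK
  rw [hK, Subgroup.mem_subgroupOf] at h2
  simpa using h2

/-- Let G be a finite group, p a prime and H a p-subgroup of G that is extremely closed (for every g, the subgroup generated by H and g H g⁻¹ meets N_G(H) exactly in H). Then every p-subgroup Q of G containing H has N_G(Q) ≤ N_G(H); in particular every Sylow p-subgroup P of G containing H normalizes H, and H is strongly closed in P with respect to G. -/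
theorem result {G : Type*} [Group G] [Finite G] {p : ℕ} [Fact p.Prime] (H : Subgroup G) (hHp : IsPGroup p H) (hcl : Cfsg.IsExtremelyClosed H) : (∀ Q : Subgroup G, IsPGroup p Q → H ≤ Q → Subgroup.normalizer (Q : Set G) ≤ Subgroup.normalizer (H : Set G)) ∧ ∀ P : Sylow p G, H ≤ (P : Subgroup G) → (P : Subgroup G) ≤ Subgroup.normalizer (H : Set G) ∧ Cfsg.IsStronglyClosed H (P : Subgroup G) := by
  have hA : ∀ Q : Subgroup G, IsPGroup p Q → H ≤ Q →
      Subgroup.normalizer (Q : Set G) ≤ Subgroup.normalizer (H : Set G) := by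
    intro Q hQ hHQ g hg
    have hQN := le_normalizer_of_pgroup H hcl Q hQ hHQ
    apply mem_normalizer_of_conj H hcl
    intro x hx
    apply hQN
    exact (Subgroup.mem_normalizer_iff.mp hg x).mp (hHQ hx)
  refine ⟨hA, ?_⟩
  intro P hHP
  have hPN : (P : Subgroup G) ≤ Subgroup.normalizer (H : Set G) :=
    le_trans Subgroup.le_normalizer (hA P P.2 hHP)
  refine ⟨hPN, hHP, ?_⟩
  intro x hx g hg
  have h1 : g * x * g⁻¹ ∈ (H ⊔ H.map (MulAut.conj g).toMonoidHom) ⊓
      Subgroup.normalizer (H : Set G) := by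
    refine Subgroup.mem_inf.mpr ⟨?_, hPN hg⟩
    exact (le_sup_right : H.map (MulAut.conj g).toMonoidHom ≤ _) ⟨x, hx, rfl⟩
  rw [hcl g] at h1
  exact h1

end Cfsg.Agent.S3021
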