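import Cfsg.Statements.S3020
import Cfsg.Agent.Lib.Helper50.Cores
import Cfsg.Agent.S3021

set_option autoImplicit false
open Cfsg

namespace Cfsg.Agent.S3020

open Cfsg.Agent.Lib.Helper50.Cores in
theorem core_argument {T : Type*} [Group T] [Finite T] {p : ℕ} [Fact p.Prime]
    (H' : Subgroup T) (hp : IsPGroup p H') (hab : IsMulCommutative ↥H')
    (hnorm : Subgroup.normalizer (H' : Set T) = H')
    (hmax : ∀ S : Subgroup T, IsPGroup p S → H' ≤ S → S = H') :
    H' ⊔ Cfsg.pPrimeCore p T = ⊤ ∧ H' ⊓ Cfsg.pPrimeCore p T = ⊥ := by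
  obtain ⟨S, hS⟩ := hp.exists_le_sylow
  have hSH : (S : Subgroup T) = H' := hmax S S.2 hS
  have hP : Subgroup.normalizer ((S : Subgroup T) : Set T) ≤
      Subgroup.centralizer ((S : Subgroup T) : Set T) := by
    rw [hSH, hnorm]
    exact Subgroup.le_centralizer_iff_isMulCommutative.mpr hab
  have hcompl := MonoidHom.ker_transferSylow_isComplement' S hP
  have hnd := MonoidHom.not_dvd_card_ker_transferSylow S hP
  set K := (MonoidHom.transferSylow S hP).ker with hK
  have hKcop : (Nat.card K).Coprime p :=
    ((Nat.Prime.coprime_iff_not_dvd (Fact.out : p.Prime)).mpr hnd).symm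
  have hKle : K ≤ Cfsg.pPrimeCore p T := le_pPrimeCore p K inferInstance hKcop
  have hsup : K ⊔ (S : Subgroup T) = ⊤ := hcompl.sup_eq_top
  constructor
  · rw [eq_top_iff, ← hsup, hSH]
    exact sup_le (le_trans hKle le_sup_right) le_sup_left
  · apply Disjoint.eq_bot
    apply Subgroup.disjoint_of_coprime_natCard
    obtain ⟨k, hk⟩ := hp.exists_card_eq
    rw [hk]
    exact Nat.Coprime.pow_left _ (pPrimeCore_coprime p).symm

/-- Let G be a finite group, p a prime and H an abelian p-subgroup of G that is extremely closed (for every g, the subgroup generated by H and g H g⁻¹ meets N_G(H) exactly in H). Then for every g ∈ G, the subgroup T generated by H and g H g⁻¹ is the product of H with O_{p'}(T), and H meets O_{p'}(T) trivially; that is, O_{p'}(T) is a normal p-complement of H in T. -/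
theorem result {G : Type*} [Group G] [Finite G] {p : ℕ} [Fact p.Prime] (H : Subgroup G) (hHp : IsPGroup p H) (hHab : IsMulCommutative H) (hcl : Cfsg.IsExtremelyClosed H) (g : G) (T : Subgroup G) (hT : T = H ⊔ H.map (MulAut.conj g).toMonoidHom) : H ⊔ (Cfsg.pPrimeCore p ↥T).map T.subtype = T ∧ H ⊓ (Cfsg.pPrimeCore p ↥T).map T.subtype = ⊥ := by
  subst hT
  set T : Subgroup G := H ⊔ H.map (MulAut.conj g).toMonoidHom with hT
  have hHT : H ≤ T := le_sup_left
  set H' : Subgroup ↥T := H.subgroupOf T with hH'
  have hp' : IsPGroup p ↥H' := hHp.comap_subtype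
  have hab' : IsMulCommutative ↥H' := by
    rw [← Subgroup.le_centralizer_iff_isMulCommutative]
    intro a ha
    rw [Subgroup.mem_centralizer_iff]
    intro b hb
    apply Subtype.ext
    have hc := hHab.is_comm.comm (⟨(b : G), hb⟩ : ↥H) ⟨(a : G), ha⟩
    show (b : G) * (a : G) = (a : G) * (b : G)
    exact congrArg Subtype.val hc
  have hnorm : Subgroup.normalizer (H' : Set ↥T) = H' := by
    apply le_antisymm _ Subgroup.le_normalizer
    intro t ht
    rw [hH', Subgroup.mem_subgroupOf]
    have h1 : (t : G) ∈ Subgroup.normalizer (H : Set G) := by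
      rw [Subgroup.mem_normalizer_iff]
      intro x
      constructor
      · intro hx
        have := (Subgroup.mem_normalizer_iff.mp ht ⟨x, hHT hx⟩).mp
          (by rw [hH', Subgroup.mem_subgroupOf]; exact hx)
        rw [hH', Subgroup.mem_subgroupOf] at this
        simpa using this
      · intro hx
        have hxT : x ∈ T := by
          have : x = (t : G)⁻¹ * ((t : G) * x * (t : G)⁻¹) * (t : G) := by group
          rw [this]
          exact mul_mem (mul_mem (inv_mem t.2) (hHT hx)) t.2
        have := (Subgroup.mem_normalizer_iff.mp ht ⟨x, hxT⟩).mpr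
          (by rw [hH', Subgroup.mem_subgroupOf]; simpa using hx)
        rw [hH', Subgroup.mem_subgroupOf] at this
        exact this
    have h2 : (t : G) ∈ (H ⊔ H.map (MulAut.conj g).toMonoidHom) ⊓
        Subgroup.normalizer (H : Set G) := Subgroup.mem_inf.mpr ⟨t.2, h1⟩
    rw [hcl g] at h2
    exact h2
  have hmax : ∀ S : Subgroup ↥T, IsPGroup p S → H' ≤ S → S = H' := by
    intro S hS hle
    apply le_antisymm _ hle
    have hSp : IsPGroup p ↥(S.map T.subtype) := hS.map _
    have hHS : H ≤ S.map T.subtype := by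
      intro x hx
      exact ⟨⟨x, hHT hx⟩, hle (by rw [hH', Subgroup.mem_subgroupOf]; exact hx), rfl⟩
    have hN := Cfsg.Agent.S3021.le_normalizer_of_pgroup H hcl _ hSp hHS
    intro s hs
    rw [hH', Subgroup.mem_subgroupOf]
    have h2 : (s : G) ∈ (H ⊔ H.map (MulAut.conj g).toMonoidHom) ⊓
        Subgroup.normalizer (H : Set G) :=
      Subgroup.mem_inf.mpr ⟨s.2, hN ⟨s, hs, rfl⟩⟩
    rw [hcl g] at h2
    exact h2
  obtain ⟨h1, h2⟩ := core_argument H' hp' hab' hnorm hmax
  have hmapH : H'.map T.subtype = H := Subgroup.map_subgroupOf_eq_of_le hHT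
  constructor
  · have := congrArg (Subgroup.map T.subtype) h1
    rw [Subgroup.map_sup, hmapH, ← MonoidHom.range_eq_map, Subgroup.range_subtype] at this
    exact this
  · have := congrArg (Subgroup.map T.subtype) h2
    rw [Subgroup.map_inf _ _ _ T.subtype_injective, hmapH, Subgroup.map_bot] at this
    exact this

end Cfsg.Agent.S3020
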