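import Cfsg.Statements.S3023
import Cfsg.Agent.Lib.Helper48.CharP
import Cfsg.Agent.Lib.Helper48.CharPGfs
import Cfsg.Agent.Lib.Helper48.CharPSub
import Cfsg.Agent.Lib.Helper48.StrEmb
import Cfsg.Agent.Lib.Helper33.Conj

set_option autoImplicit false
open Cfsg

namespace Cfsg.Agent.S3023

open Subgroup Cfsg.Agent.Lib.Helper48.CharP Cfsg.Agent.Lib.Helper48.CharPGfs
  Cfsg.Agent.Lib.Helper48.CharPSub

/-- Let p be a prime, G a finite group of parabolic characteristic p (every p-local subgroup containing a Sylow p-subgroup of G has characteristic p), S a Sylow p-subgroup of G and G₁ a subnormal subgroup of G. If the centre of S ∩ G₁ is nontrivial and contained in the centre of S, then G₁ has parabolic characteristic p. -/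
theorem result {G : Type*} [Group G] [Finite G] {p : ℕ} [Fact p.Prime] (hG : Cfsg.IsOfParabolicCharacteristic p G) (S : Sylow p G) (G₁ : Subgroup G) (hsn : G₁.IsSubnormal) (hne : ((S : Subgroup G) ⊓ G₁) ⊓ Subgroup.centralizer (((S : Subgroup G) ⊓ G₁ : Subgroup G) : Set G) ≠ ⊥) (hle : ((S : Subgroup G) ⊓ G₁) ⊓ Subgroup.centralizer (((S : Subgroup G) ⊓ G₁ : Subgroup G) : Set G) ≤ (S : Subgroup G) ⊓ Subgroup.centralizer ((S : Subgroup G) : Set G)) : Cfsg.IsOfParabolicCharacteristic p ↥G₁ := by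
  intro R hR hR1 hpar
  obtain ⟨T, hT⟩ := hpar
  have hT' := isSylIn_map_subtype T
  have hS₁ := isSylIn_inf_of_subnormal S hsn
  obtain ⟨g, hg, hgT⟩ := hT'.exists_cj_eq hS₁
  -- R ≤ T
  have hRT : R ≤ (T : Subgroup ↥G₁) := by
    have h1 : IsPGroup p (R ⊔ (T : Subgroup ↥G₁) : Subgroup ↥G₁) :=
      IsPGroup.to_sup_of_normal_left' hR T.isPGroup' hT
    have h2 := T.is_maximal' h1 le_sup_right
    rw [← h2]
    exact le_sup_left
  have hR'G : R.map G₁.subtype ≤ G₁ := by
    rintro _ ⟨r, _, rfl⟩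
    exact r.2
  have hR'p : IsPGroup p (R.map G₁.subtype) := hR.map _
  have hR'1 : R.map G₁.subtype ≠ ⊥ := by
    rw [Ne, Subgroup.map_eq_bot_iff_of_injective _ G₁.subtype_injective]
    exact hR1
  have hR'T : R.map G₁.subtype ≤ (T : Subgroup ↥G₁).map G₁.subtype := map_mono hRT
  have hTn : (T : Subgroup ↥G₁).map G₁.subtype ≤
      normalizer ((R.map G₁.subtype : Subgroup G) : Set G) :=
    (map_mono hT).trans (le_normalizer_map G₁.subtype)
  have hne' : (T : Subgroup ↥G₁).map G₁.subtype ⊓ R.map G₁.subtype ≠ ⊥ := by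
    rw [inf_eq_right.mpr hR'T]
    exact hR'1
  obtain ⟨z, hzT, hzR, hzp, hzZ⟩ := exists_central_orderOf hT'.2.1 hTn hne'
  have hz1 : z ≠ 1 := by
    rintro rfl
    rw [orderOf_one] at hzp
    exact (Fact.out : p.Prime).ne_one hzp.symm
  -- y = g⁻¹ z g lies in Z(S ∩ G₁), hence in Z(S)
  have hyS₁ : g⁻¹ * z * g ∈ (S : Subgroup G) ⊓ G₁ := by
    rw [← hgT, Cfsg.Agent.Lib.Helper33.Conj.mem_cj] at hzT
    exact hzT
  have hy : g⁻¹ * z * g ∈ ((S : Subgroup G) ⊓ G₁) ⊓
      centralizer (((S : Subgroup G) ⊓ G₁ : Subgroup G) : Set G) := by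
    refine mem_inf.mpr ⟨hyS₁, ?_⟩
    rw [mem_centralizer_iff]
    intro s hs
    have hs' : g * s * g⁻¹ ∈ (T : Subgroup ↥G₁).map G₁.subtype := by
      rw [← hgT]
      exact Cfsg.Agent.Lib.Helper33.Conj.conj_mem_cj hs
    have := hzZ _ hs'
    calc s * (g⁻¹ * z * g) = g⁻¹ * (g * s * g⁻¹ * z) * g := by group
      _ = g⁻¹ * (z * (g * s * g⁻¹)) * g := by rw [this]
      _ = g⁻¹ * z * g * s := by group
  obtain ⟨hyS, hyC⟩ := mem_inf.mp (hle hy)
  have hy1 : g⁻¹ * z * g ≠ 1 := by
    intro h1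
    apply hz1
    have : z = g * (g⁻¹ * z * g) * g⁻¹ := by group
    rw [this, h1]
    group
  have hLy : ChP p (normalizer ((zpowers (g⁻¹ * z * g) : Subgroup G) : Set G)) := by
    rw [← Cfsg.Agent.Lib.Helper48.CharP.charP_iff]
    apply hG (zpowers (g⁻¹ * z * g))
    · exact S.isPGroup'.to_le (zpowers_le.mpr hyS)
    · rw [Ne, zpowers_eq_bot]
      exact hy1
    · refine ⟨S, ?_⟩
      intro s hs
      apply Cfsg.Agent.Lib.Helper48.StrEmb.centralizer_singleton_le_normalizer_zpowers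
      rw [mem_centralizer_iff]
      intro y hy'
      rw [Set.mem_singleton_iff] at hy'
      subst hy'
      exact (mem_centralizer_iff.mp hyC s hs).symm
  have hCy : ChP p (centralizer ({g⁻¹ * z * g} : Set G)) :=
    chP_centralizer_of_normalizer_zpowers hLy
  have hCz : ChP p (centralizer ({z} : Set G)) := by
    have h1 := (chP_centralizer_conj_iff p g⁻¹ z).mp
    rw [inv_inv] at h1
    exact h1 hCy
  have hL₁ : ChP p (G₁ ⊓ centralizer ({z} : Set G)) := chP_inf_of_subnormal hCz hsn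
  have hR'L₁ : R.map G₁.subtype ≤ G₁ ⊓ centralizer ({z} : Set G) := by
    intro r hr
    refine mem_inf.mpr ⟨hR'G hr, ?_⟩
    rw [mem_centralizer_iff]
    intro y hy'
    rw [Set.mem_singleton_iff] at hy'
    subst hy'
    exact (hzZ r (hR'T hr)).symm
  have hN₁ : ChP p (G₁ ⊓ centralizer ({z} : Set G) ⊓
      normalizer ((R.map G₁.subtype : Subgroup G) : Set G)) := hL₁.normalizer_inf hR'L₁ hR'p
  have hN : ChP p (G₁ ⊓ normalizer ((R.map G₁.subtype : Subgroup G) : Set G)) := by
    apply ChP.of_centralizer (z := z)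
    · exact le_O (le_inf hR'G le_normalizer) hR'p inf_le_right hzR
    · rw [inf_right_comm]
      exact hN₁
  -- transport to the subgroup type
  have hmap : (normalizer (R : Set ↥G₁)).map G₁.subtype =
      G₁ ⊓ normalizer ((R.map G₁.subtype : Subgroup G) : Set G) := by
    have h1 := subgroupOf_normalizer_eq hR'G
    have h2 : (R.map G₁.subtype).subgroupOf G₁ = R :=
      comap_map_eq_self_of_injective G₁.subtype_injective R
    rw [h2] at h1
    rw [← h1, subgroupOf_map_subtype, inf_comm]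
  rw [Cfsg.Agent.Lib.Helper48.CharP.charP_iff,
    ← charP_map_iff p _ G₁.subtype G₁.subtype_injective, hmap]
  exact hN

end Cfsg.Agent.S3023
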