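import Cfsg.Statements.S3025
import Mathlib
import Cfsg.Agent.Lib.Helper54.Quaternion
import Cfsg.Agent.Lib.Helper50.Transfer

set_option autoImplicit false
open Cfsg

namespace Cfsg.Agent.S3025

theorem exists_min_normal {F : Type*} [Group F] (H : Subgroup F) (hH : H ≠ ⊥)
    (hmin : ∀ R : Subgroup F, R ≠ ⊥ → H ≤ Subgroup.normalizer (R : Set F) → H ≤ R) :
    ∃ N : Subgroup F, N.Normal ∧ N ≠ ⊥ ∧ H ≤ N ∧
      (∀ M : Subgroup F, M.Normal → M ≠ ⊥ → N ≤ M) := by
  have hle : H ≤ sInf {M : Subgroup F | M.Normal ∧ M ≠ ⊥} := by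
    apply le_sInf
    intro M hM
    refine hmin M hM.2 ?_
    have : Subgroup.normalizer (M : Set F) = ⊤ := Subgroup.normalizer_eq_top_iff.mpr hM.1
    rw [this]; exact le_top
  refine ⟨sInf {M : Subgroup F | M.Normal ∧ M ≠ ⊥}, ?_, ?_, hle, ?_⟩
  · constructor
    intro n hn g
    rw [Subgroup.mem_sInf] at hn ⊢
    intro M hM
    exact hM.1.conj_mem n (hn M hM) g
  · intro h
    exact hH (le_bot_iff.mp (h ▸ hle))
  · intro M hM hM'
    exact sInf_le ⟨hM, hM'⟩

theorem simple_of_min {F : Type*} [Group F] [Finite F] (H : Subgroup F) (hH : H ≠ ⊥)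
    (hmin : ∀ R : Subgroup F, R ≠ ⊥ → H ≤ Subgroup.normalizer (R : Set F) → H ≤ R)
    (N : Subgroup F) (hN : N.Normal) (hN1 : N ≠ ⊥) (hHN : H ≤ N)
    (hNmin : ∀ M : Subgroup F, M.Normal → M ≠ ⊥ → N ≤ M) : IsSimpleGroup ↥N := by
  haveI : Nontrivial ↥N := (Subgroup.nontrivial_iff_ne_bot N).mpr hN1
  refine ⟨fun K hK => ?_⟩
  by_contra hcon
  push_neg at hcon
  obtain ⟨hKbot, hKtop⟩ := hcon
  have hK'1 : K.map N.subtype ≠ ⊥ := by
    intro h
    apply hKbot
    rwa [Subgroup.map_eq_bot_iff_of_injective _ N.subtype_injective] at h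
  have hnorm : ∀ n ∈ N, ∀ k ∈ K.map N.subtype, n * k * n⁻¹ ∈ K.map N.subtype := by
    intro n hn k hk
    obtain ⟨k0, hk0, rfl⟩ := hk
    exact ⟨⟨n, hn⟩ * k0 * ⟨n, hn⟩⁻¹, hK.conj_mem k0 hk0 ⟨n, hn⟩, by simp⟩
  have hconj : ∀ g : F, H ≤ (K.map N.subtype).map (MulAut.conj g).toMonoidHom := by
    intro g
    apply hmin
    · intro h
      apply hK'1
      rwa [Subgroup.map_eq_bot_iff_of_injective _ (MulAut.conj g).injective] at h
    · intro h hh
      apply Cfsg.Agent.Lib.Helper50.Transfer.mem_normalizer_of_conj_mem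
      rintro _ ⟨k, hk, rfl⟩
      refine ⟨(g⁻¹ * h * g) * k * (g⁻¹ * h * g)⁻¹, hnorm _ ?_ k hk, ?_⟩
      · have := hN.conj_mem h (hHN hh) g⁻¹
        simpa [mul_assoc] using this
      · simp only [MulEquiv.coe_toMonoidHom, MulAut.conj_apply]; group
  have hcore : H ≤ (K.map N.subtype).normalCore := by
    intro h hh b
    obtain ⟨k, hk, hk2⟩ := hconj b⁻¹ hh
    have : b * h * b⁻¹ = k := by
      rw [← hk2]; simp only [MulEquiv.coe_toMonoidHom, MulAut.conj_apply]; group
    rw [this]; exact hk
  have hNle : N ≤ (K.map N.subtype).normalCore := by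
    apply hNmin _ inferInstance
    intro h
    exact hH (le_bot_iff.mp (h ▸ hcore))
  apply hKtop
  rw [eq_top_iff]
  intro x _
  obtain ⟨k, hk, hk2⟩ := (Subgroup.normalCore_le _) (hNle x.2)
  have : k = x := Subtype.ext hk2
  rw [← this]; exact hk

/-- Let F be a finite group and H a nontrivial subgroup of F that is contained in every nontrivial subgroup of F which H normalizes. Then F has a nontrivial normal subgroup N contained in every nontrivial normal subgroup of F (a unique minimal normal subgroup), N is simple, and one of the following holds: C_F(N) = 1; or H = N has prime order p, C_F(N) is cyclic of order a power of p, and F/C_F(N) is cyclic of order dividing p − 1; or H = N has order 2, N is central in F, and F is a generalized quaternion group. -/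
theorem result {F : Type*} [Group F] [Finite F] (H : Subgroup F) (hH : H ≠ ⊥)
    (hmin : ∀ R : Subgroup F, R ≠ ⊥ → H ≤ Subgroup.normalizer (R : Set F) → H ≤ R) :
    ∃ N : Subgroup F, N.Normal ∧ N ≠ ⊥ ∧ (∀ M : Subgroup F, M.Normal → M ≠ ⊥ → N ≤ M) ∧ IsSimpleGroup ↥N ∧
      (Subgroup.centralizer (N : Set F) = ⊥ ∨
       (H = N ∧ (Nat.card N).Prime ∧ IsCyclic ↥(Subgroup.centralizer (N : Set F)) ∧
          (∃ k : ℕ, 1 ≤ k ∧ Nat.card ↥(Subgroup.centralizer (N : Set F)) = Nat.card N ^ k) ∧
          (∃ g : F, Subgroup.centralizer (N : Set F) ⊔ Subgroup.zpowers g = ⊤) ∧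
          (Subgroup.centralizer (N : Set F)).index ∣ Nat.card N - 1) ∨
       (H = N ∧ Nat.card N = 2 ∧ Subgroup.centralizer (N : Set F) = ⊤ ∧
          ∃ k : ℕ, 1 ≤ k ∧ Nonempty (F ≃* QuaternionGroup (2 ^ k)))) := by
  obtain ⟨N, hN, hN1, hHN, hNmin⟩ := exists_min_normal H hH hmin
  have hsimple := simple_of_min H hH hmin N hN hN1 hHN hNmin
  refine ⟨N, hN, hN1, hNmin, hsimple, ?_⟩
  by_cases hC : Subgroup.centralizer (N : Set F) = ⊥
  · exact Or.inl hC
  right
  have hNC : N ≤ Subgroup.centralizer (N : Set F) := hNmin _ inferInstance hC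
  -- N is commutative
  have hcomm : ∀ a b : ↥N, a * b = b * a := by
    intro a b
    have := (Subgroup.mem_centralizer_iff.mp (hNC b.2)) a.1 a.2
    exact Subtype.ext this
  let cg : CommGroup ↥N := { (inferInstance : Group ↥N) with mul_comm := hcomm }
  have hprime : (Nat.card ↥N).Prime := @IsSimpleGroup.prime_card ↥N cg hsimple
  haveI hpf : Fact (Nat.card ↥N).Prime := ⟨hprime⟩
  -- H = N
  have hHeq : H = N := by
    apply Subgroup.eq_of_le_of_card_ge hHN
    have hdvd : Nat.card H ∣ Nat.card N := Subgroup.card_dvd_of_le hHN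
    rcases (Nat.dvd_prime hprime).mp hdvd with h1 | h1
    · exact absurd (Subgroup.card_eq_one.mp h1) hH
    · exact h1.ge
  -- every nontrivial subgroup of C contains N
  have hcont : ∀ R : Subgroup F, R ≠ ⊥ → R ≤ Subgroup.centralizer (N : Set F) → N ≤ R := by
    intro R hR hRC
    rw [← hHeq]
    apply hmin R hR
    intro h hh
    apply Cfsg.Agent.Lib.Helper50.Transfer.mem_normalizer_of_conj_mem
    intro x hx
    have := (Subgroup.mem_centralizer_iff.mp (hRC hx)) h (hHN hh)
    rw [this]; simpa using hx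
  -- order of C
  have hCcard : ∃ k : ℕ, 1 ≤ k ∧
      Nat.card ↥(Subgroup.centralizer (N : Set F)) = Nat.card N ^ k := by
    have hpos : Nat.card ↥(Subgroup.centralizer (N : Set F)) ≠ 0 := Nat.card_pos.ne'
    have huniq : ∀ {d : ℕ}, Nat.Prime d → d ∣ Nat.card ↥(Subgroup.centralizer (N : Set F)) →
        d = Nat.card ↥N := by
      intro d hd hdvd
      haveI : Fact d.Prime := ⟨hd⟩
      obtain ⟨c, hc⟩ := exists_prime_orderOf_dvd_card' d hdvd
      have hc1 : c ≠ 1 := by
        intro h; rw [h, orderOf_one] at hc; exact hd.one_lt.ne hc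
      have hle := hcont (Subgroup.zpowers (c : F)) (by
        intro h; rw [Subgroup.zpowers_eq_bot] at h; exact hc1 (Subtype.ext h))
        (by rw [Subgroup.zpowers_le]; exact c.2)
      have hdvd2 : Nat.card ↥N ∣ Nat.card (Subgroup.zpowers (c : F)) :=
        Subgroup.card_dvd_of_le hle
      rw [Nat.card_zpowers, Subgroup.orderOf_coe, hc] at hdvd2
      exact ((Nat.prime_dvd_prime_iff_eq hprime hd).mp hdvd2).symm
    have h := Nat.eq_prime_pow_of_unique_prime_dvd hpos huniq
    refine ⟨_, ?_, h⟩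
    by_contra hk
    have hk0 : (Nat.card ↥(Subgroup.centralizer (N : Set F))).primeFactorsList.length = 0 := by
      omega
    rw [hk0, pow_zero] at h
    exact hC (Subgroup.card_eq_one.mp h)
  obtain ⟨k, hk1, hkC⟩ := hCcard
  have hCp : IsPGroup (Nat.card ↥N) ↥(Subgroup.centralizer (N : Set F)) := IsPGroup.of_card hkC
  have hUI : Cfsg.Agent.Lib.Helper54.UniqueSubgroup.UI (Nat.card ↥N)
      ↥(Subgroup.centralizer (N : Set F)) := by
    apply Cfsg.Agent.Lib.Helper54.UniqueSubgroup.ui_of_unique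
    have key : ∀ A : Subgroup ↥(Subgroup.centralizer (N : Set F)), Nat.card A = Nat.card ↥N →
        A.map (Subgroup.centralizer (N : Set F)).subtype = N := by
      intro A hA
      have hA1 : A.map (Subgroup.centralizer (N : Set F)).subtype ≠ ⊥ := by
        intro h
        rw [Subgroup.map_eq_bot_iff_of_injective _ (Subgroup.subtype_injective _)] at h
        rw [h, Subgroup.card_bot] at hA
        exact hprime.one_lt.ne hA
      have hle := hcont _ hA1 (Subgroup.map_subtype_le A)
      symm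
      apply Subgroup.eq_of_le_of_card_ge hle
      rw [Subgroup.card_map_of_injective (Subgroup.subtype_injective _), hA]
    intro A B hA hB
    apply Subgroup.map_injective (Subgroup.subtype_injective (Subgroup.centralizer (N : Set F)))
    rw [key A hA, key B hB]
  -- the action on N
  have hker : (MulAut.conjNormal : F →* MulAut ↥N).ker = Subgroup.centralizer (N : Set F) := by
    ext x
    rw [MonoidHom.mem_ker, Subgroup.mem_centralizer_iff]
    constructor
    · intro h n hn
      have := congrArg (fun f : MulAut ↥N => ((f ⟨n, hn⟩ : ↥N) : F)) h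
      simp only [MulAut.conjNormal_apply, MulAut.one_apply] at this
      calc n * x = (x * n * x⁻¹) * x := by rw [this]
        _ = x * n := by group
    · intro h
      ext n
      simp only [MulAut.conjNormal_apply, MulAut.one_apply]
      calc x * (n : F) * x⁻¹ = ((n : F) * x) * x⁻¹ := by rw [h n.1 n.2]
        _ = n := by group
  haveI hNcyc : IsCyclic ↥N := isCyclic_of_prime_card rfl
  have hindex : (Subgroup.centralizer (N : Set F)).index ∣ Nat.card N - 1 := by
    rw [← hker, Subgroup.index_ker]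
    have h1 := Subgroup.card_subgroup_dvd_card (MulAut.conjNormal : F →* MulAut ↥N).range
    rw [IsCyclic.card_mulAut, Nat.totient_prime hprime] at h1
    exact h1
  have hgen : ∃ g : F, Subgroup.centralizer (N : Set F) ⊔ Subgroup.zpowers g = ⊤ := by
    haveI : IsCyclic (MulAut ↥N) :=
      isCyclic_of_surjective (IsCyclic.mulAutMulEquiv ↥N).symm
        (IsCyclic.mulAutMulEquiv ↥N).symm.surjective
    haveI : IsCyclic (MulAut.conjNormal : F →* MulAut ↥N).range := Subgroup.isCyclic _
    obtain ⟨⟨γ, g, rfl⟩, hγ⟩ :=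
      IsCyclic.exists_generator (α := (MulAut.conjNormal : F →* MulAut ↥N).range)
    refine ⟨g, ?_⟩
    rw [eq_top_iff]
    intro f _
    obtain ⟨j, hj⟩ := Subgroup.mem_zpowers_iff.mp
      (hγ ⟨(MulAut.conjNormal : F →* MulAut ↥N) f, f, rfl⟩)
    have hj' : (MulAut.conjNormal : F →* MulAut ↥N) g ^ j =
        (MulAut.conjNormal : F →* MulAut ↥N) f := by
      have := congrArg Subtype.val hj
      simpa using this
    have hfk : f * (g ^ j)⁻¹ ∈ Subgroup.centralizer (N : Set F) := by
      rw [← hker, MonoidHom.mem_ker, map_mul, map_inv, map_zpow, hj', mul_inv_cancel]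
    have : f = (f * (g ^ j)⁻¹) * g ^ j := by group
    rw [this]
    exact Subgroup.mul_mem_sup hfk (Subgroup.zpow_mem_zpowers g j)
  by_cases hcyc : IsCyclic ↥(Subgroup.centralizer (N : Set F))
  · exact Or.inl ⟨hHeq, hprime, hcyc, ⟨k, hk1, hkC⟩, hgen, hindex⟩
  · right
    rcases Cfsg.Agent.Lib.Helper54.Quaternion.isCyclic_or_quaternion_of_ui hCp hUI with h | h
    · exact absurd h hcyc
    obtain ⟨h2, n, ⟨e⟩⟩ := h
    have hCtop : Subgroup.centralizer (N : Set F) = ⊤ := by
      rw [h2] at hindex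
      exact Subgroup.index_eq_one.mp (Nat.dvd_one.mp hindex)
    refine ⟨hHeq, h2, hCtop, n, ?_, ⟨?_⟩⟩
    · by_contra hn
      have hn0 : n = 0 := by omega
      subst hn0
      apply hcyc
      haveI : IsCyclic (QuaternionGroup (2 ^ 0)) := by
        rw [pow_zero]; exact QuaternionGroup.quaternionGroup_one_isCyclic
      exact isCyclic_of_surjective e.symm e.symm.surjective
    · exact (Subgroup.topEquiv.symm.trans (MulEquiv.subgroupCongr hCtop.symm)).trans e

end Cfsg.Agent.S3025
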