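import Cfsg.Statements.S3027
import Mathlib

set_option autoImplicit false
open Cfsg

namespace Cfsg.Agent.S3027

open scoped commutatorElement in
theorem commutator_le_sup {G : Type*} [Group G] (D : Subgroup G) [D.Normal]
    (A B A' B' : Subgroup G) (hA : A ≤ A' ⊔ D) (hB : B ≤ B' ⊔ D) :
    ⁅A, B⁆ ≤ ⁅A', B'⁆ ⊔ D := by
  rw [Subgroup.commutator_le]
  intro a ha b hb
  have ha' : a ∈ ((A' ⊔ D : Subgroup G) : Set G) := hA ha
  have hb' : b ∈ ((B' ⊔ D : Subgroup G) : Set G) := hB hb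
  rw [Subgroup.mul_normal] at ha' hb'
  obtain ⟨a', ha'm, d₁, hd₁, rfl⟩ := Set.mem_mul.mp ha'
  obtain ⟨b', hb'm, d₂, hd₂, rfl⟩ := Set.mem_mul.mp hb'
  have h1 : (QuotientGroup.mk' D) ⁅a' * d₁, b' * d₂⁆ = (QuotientGroup.mk' D) ⁅a', b'⁆ := by
    rw [map_commutatorElement, map_commutatorElement, map_mul, map_mul]
    have e1 : (QuotientGroup.mk' D) d₁ = 1 := (QuotientGroup.eq_one_iff d₁).mpr hd₁
    have e2 : (QuotientGroup.mk' D) d₂ = 1 := (QuotientGroup.eq_one_iff d₂).mpr hd₂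
    rw [e1, e2, mul_one, mul_one]
  have h2 : ⁅a', b'⁆⁻¹ * ⁅a' * d₁, b' * d₂⁆ ∈ D := QuotientGroup.eq.mp h1.symm
  have h3 : ⁅a' * d₁, b' * d₂⁆ = ⁅a', b'⁆ * (⁅a', b'⁆⁻¹ * ⁅a' * d₁, b' * d₂⁆) := by group
  rw [h3]
  exact mul_mem ((le_sup_left : ⁅A', B'⁆ ≤ _) (Subgroup.commutator_mem_commutator ha'm hb'm))
    ((le_sup_right : D ≤ _) h2)

open scoped commutatorElement in
theorem inf_sup_eq_top {G : Type*} [Group G] (D : Subgroup G) [D.Normal]
    (hperf : ⁅(⊤ : Subgroup G), (⊤ : Subgroup G)⁆ ⊔ D = ⊤)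
    (B₁ B₂ : Subgroup G) (h₁ : B₁ ⊔ D = ⊤) (h₂ : B₂ ⊔ D = ⊤)
    (h₁₂ : B₁ ≤ Subgroup.normalizer (B₂ : Set G)) (h₂₁ : B₂ ≤ Subgroup.normalizer (B₁ : Set G)) :
    (B₁ ⊓ B₂) ⊔ D = ⊤ := by
  rw [eq_top_iff, ← hperf]
  refine sup_le ?_ le_sup_right
  refine (commutator_le_sup D ⊤ ⊤ B₁ B₂ (by rw [h₁]) (by rw [h₂])).trans (sup_le ?_ le_sup_right)
  refine le_trans ?_ le_sup_left
  rw [Subgroup.commutator_le]
  intro a ha b hb
  refine Subgroup.mem_inf.mpr ⟨?_, ?_⟩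
  · have h4 : b * a⁻¹ * b⁻¹ ∈ B₁ := (Subgroup.mem_normalizer_iff.mp (h₂₁ hb) a⁻¹).mp (inv_mem ha)
    have h3 : ⁅a, b⁆ = a * (b * a⁻¹ * b⁻¹) := by rw [commutatorElement_def]; group
    rw [h3]; exact mul_mem ha h4
  · have h4 : a * b * a⁻¹ ∈ B₂ := (Subgroup.mem_normalizer_iff.mp (h₁₂ ha) b).mp hb
    have h3 : ⁅a, b⁆ = (a * b * a⁻¹) * b⁻¹ := by rw [commutatorElement_def]
    rw [h3]; exact mul_mem h4 (inv_mem hb)

theorem le_normalizer_inf {G : Type*} [Group G] (A H K : Subgroup G)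
    (h1 : A ≤ Subgroup.normalizer (H : Set G)) (h2 : A ≤ Subgroup.normalizer (K : Set G)) :
    A ≤ Subgroup.normalizer ((H ⊓ K : Subgroup G) : Set G) := by
  intro x hx
  rw [Subgroup.mem_normalizer_iff]
  intro h
  rw [Subgroup.mem_inf, Subgroup.mem_inf]
  exact and_congr (Subgroup.mem_normalizer_iff.mp (h1 hx) h)
    (Subgroup.mem_normalizer_iff.mp (h2 hx) h)

theorem mem_map_conj_iff {G : Type*} [Group G] (H : Subgroup G) (g x : G) :
    x ∈ H.map (MulAut.conj g).toMonoidHom ↔ g⁻¹ * x * g ∈ H := by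
  constructor
  · rintro ⟨y, hy, rfl⟩
    have : g⁻¹ * (MulAut.conj g).toMonoidHom y * g = y := by
      simp only [MulEquiv.coe_toMonoidHom, MulAut.conj_apply]; group
    rw [this]; exact hy
  · intro h
    refine ⟨g⁻¹ * x * g, h, ?_⟩
    simp only [MulEquiv.coe_toMonoidHom, MulAut.conj_apply]; group

/-- Let G be a finite group and D a normal subgroup of G such that G/D is perfect (that is, G = G′D). Then among the subnormal subgroups B of G with BD = G there is a least one, and it is normal in G. -/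
theorem result {G : Type*} [Group G] [Finite G] (D : Subgroup G) [D.Normal] (hperf : ⁅(⊤ : Subgroup G), (⊤ : Subgroup G)⁆ ⊔ D = ⊤) :
    ∃ B : Subgroup G, B.Normal ∧ B ⊔ D = ⊤ ∧ ∀ B' : Subgroup G, B'.IsSubnormal → B' ⊔ D = ⊤ → B ≤ B' := by
  classical
  have hSinf : InfClosed {B : Subgroup G | B.Normal ∧ B ⊔ D = ⊤} := by
    rintro a ⟨han, had⟩ b ⟨hbn, hbd⟩
    refine ⟨Subgroup.normal_inf_normal a b, inf_sup_eq_top D hperf a b had hbd ?_ ?_⟩
    · rw [Subgroup.normalizer_eq_top_iff.mpr hbn]; exact le_top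
    · rw [Subgroup.normalizer_eq_top_iff.mpr han]; exact le_top
  have hStop : (⊤ : Subgroup G) ∈ {B : Subgroup G | B.Normal ∧ B ⊔ D = ⊤} :=
    ⟨Subgroup.normal_top, top_sup_eq D⟩
  have hBS : sInf {B : Subgroup G | B.Normal ∧ B ⊔ D = ⊤} ∈
      {B : Subgroup G | B.Normal ∧ B ⊔ D = ⊤} :=
    hSinf.sInf_mem (Set.toFinite _) hStop (le_refl _)
  obtain ⟨hBn, hBD⟩ := hBS
  refine ⟨sInf {B : Subgroup G | B.Normal ∧ B ⊔ D = ⊤}, hBn, hBD, ?_⟩
  have hmin : ∀ Z : Subgroup G, Z.Normal → Z ⊔ D = ⊤ →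
      sInf {B : Subgroup G | B.Normal ∧ B ⊔ D = ⊤} ≤ Z := fun Z h1 h2 => sInf_le ⟨h1, h2⟩
  generalize sInf {B : Subgroup G | B.Normal ∧ B ⊔ D = ⊤} = Bs at hBn hBD hmin
  have hBsN : Subgroup.normalizer (Bs : Set G) = ⊤ := Subgroup.normalizer_eq_top_iff.mpr hBn
  intro B' hB'
  induction hB' with
  | top => intro _; exact le_top
  | step B' K hle hK hN ih =>
    intro hB'D
    have hKD : K ⊔ D = ⊤ := by
      rw [eq_top_iff, ← hB'D]; exact sup_le_sup_right hle D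
    have hBK : Bs ≤ K := ih hKD
    have hKN : K ≤ Subgroup.normalizer (B' : Set G) :=
      (Subgroup.normal_subgroupOf_iff_le_normalizer hle).mp hN
    have hXD : (Bs ⊓ B') ⊔ D = ⊤ :=
      inf_sup_eq_top D hperf Bs B' hBD hB'D (hBK.trans hKN) (by rw [hBsN]; exact le_top)
    have hXN : Bs ≤ Subgroup.normalizer ((Bs ⊓ B' : Subgroup G) : Set G) :=
      le_normalizer_inf Bs Bs B' (by rw [hBsN]; exact le_top) (hBK.trans hKN)
    have hPinf : InfClosed {Y : Subgroup G | Bs ≤ Subgroup.normalizer (Y : Set G) ∧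
        (Y ⊓ Bs) ⊔ D = ⊤} := by
      rintro a ⟨ha1, ha2⟩ b ⟨hb1, hb2⟩
      refine ⟨le_normalizer_inf Bs a b ha1 hb1, ?_⟩
      have h1 := inf_sup_eq_top D hperf (a ⊓ Bs) (b ⊓ Bs) ha2 hb2
        (inf_le_right.trans (le_normalizer_inf Bs b Bs hb1 (by rw [hBsN]; exact le_top)))
        (inf_le_right.trans (le_normalizer_inf Bs a Bs ha1 (by rw [hBsN]; exact le_top)))
      rw [← inf_inf_distrib_right] at h1
      exact h1
    have hPtop : (⊤ : Subgroup G) ∈ {Y : Subgroup G | Bs ≤ Subgroup.normalizer (Y : Set G) ∧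
        (Y ⊓ Bs) ⊔ D = ⊤} := by
      refine ⟨?_, ?_⟩
      · rw [Subgroup.normalizer_eq_top_iff.mpr Subgroup.normal_top]; exact le_top
      · rw [top_inf_eq]; exact hBD
    have hPconj : ∀ g : G, (Bs ⊓ B').map (MulAut.conj g).toMonoidHom ∈
        {Y : Subgroup G | Bs ≤ Subgroup.normalizer (Y : Set G) ∧ (Y ⊓ Bs) ⊔ D = ⊤} := by
      intro g
      have hle1 : (Bs ⊓ B').map (MulAut.conj g).toMonoidHom ≤ Bs := by
        rintro _ ⟨y, hy, rfl⟩
        exact hBn.conj_mem y hy.1 g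
      refine ⟨?_, ?_⟩
      · intro x hx
        rw [Subgroup.mem_normalizer_iff]
        intro y
        rw [mem_map_conj_iff, mem_map_conj_iff]
        have hx' : g⁻¹ * x * g ∈ Bs := by
          have := hBn.conj_mem x hx g⁻¹
          simpa using this
        have h2 := Subgroup.mem_normalizer_iff.mp (hXN hx') (g⁻¹ * y * g)
        have h3 : g⁻¹ * x * g * (g⁻¹ * y * g) * (g⁻¹ * x * g)⁻¹ = g⁻¹ * (x * y * x⁻¹) * g := by
          group
        rw [h3] at h2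
        exact h2
      · rw [inf_eq_left.mpr hle1, eq_top_iff]
        intro y _
        have hy : g⁻¹ * y * g ∈ (((Bs ⊓ B') ⊔ D : Subgroup G) : Set G) := by
          rw [hXD]; exact Subgroup.mem_top _
        rw [Subgroup.mul_normal] at hy
        obtain ⟨x, hx, d, hd, hxd⟩ := Set.mem_mul.mp hy
        have h3 : y = (g * x * g⁻¹) * (g * d * g⁻¹) := by
          have : g * x * g⁻¹ * (g * d * g⁻¹) = g * (x * d) * g⁻¹ := by group
          rw [this, hxd]; group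
        rw [h3]
        refine mul_mem ((le_sup_left : (Bs ⊓ B').map (MulAut.conj g).toMonoidHom ≤ _)
          ⟨x, hx, rfl⟩) ((le_sup_right : D ≤ _) ?_)
        exact Subgroup.Normal.conj_mem inferInstance d hd g
    have hZ := hPinf.iInf_mem hPtop hPconj
    have hcore : (Bs ⊓ B').normalCore = ⨅ g : G, (Bs ⊓ B').map (MulAut.conj g).toMonoidHom :=
      Subgroup.normalCore_eq_iInf_map_conj _
    rw [← hcore] at hZ
    have hZle : (Bs ⊓ B').normalCore ≤ Bs ⊓ B' := Subgroup.normalCore_le _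
    have h5 := hZ.2
    rw [inf_eq_left.mpr (hZle.trans inf_le_left)] at h5
    exact (hmin _ (Subgroup.normalCore_normal _) h5).trans (hZle.trans inf_le_right)

end Cfsg.Agent.S3027
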