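import Cfsg.Statements.S3035
import Cfsg.Agent.Lib.Helper14.D8Main

set_option autoImplicit false
open Cfsg

namespace Cfsg.Agent.S3035

/-- Let G be a finite group with an involution z whose centralizer is dihedral of order 8. Then G = C_G(z) O(G) with O(G) the largest normal subgroup of odd order, or G is isomorphic to the symmetric group of degree 4, the symmetric group of degree 5, the group SL₃(2), or the alternating group of degree 6. -/
theorem result {G : Type*} [Group G] [Finite G] (z : G) (hz : orderOf z = 2)
    (hC : Nonempty (↥(Subgroup.centralizer ({z} : Set G)) ≃* DihedralGroup 4)) :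
    Subgroup.centralizer ({z} : Set G) ⊔ Cfsg.oddCore G = ⊤ ∨ Nonempty (G ≃* Equiv.Perm (Fin 4)) ∨ Nonempty (G ≃* Equiv.Perm (Fin 5)) ∨
      Nonempty (G ≃* Matrix.SpecialLinearGroup (Fin 3) (ZMod 2)) ∨ Nonempty (G ≃* ↥(alternatingGroup (Fin 6))) := by
  obtain ⟨e⟩ := hC
  exact Cfsg.Agent.Lib.Helper14.D8Main.classify z hz e

end Cfsg.Agent.S3035
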