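import Cfsg.Statements.S3053
import Cfsg.Agent.Lib.Helper54.UniqueSubgroup
import Cfsg.Agent.Lib.Helper48.StrEmb
import Cfsg.Agent.Lib.Helper51.SylowGraph

set_option autoImplicit false
open Cfsg

namespace Cfsg.Agent.S3053

open scoped Pointwise

/-- If `a * b = c * b * a` with `c` commuting with `a`, then `a ^ n * b = c ^ n * b * a ^ n`. -/
theorem pow_mul_comm_central {G : Type*} [Group G] {a b c : G} (h : a * b = c * b * a)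
    (hc : Commute c a) (n : ℕ) : a ^ n * b = c ^ n * b * a ^ n := by
  induction n with
  | zero => simp
  | succ n ih =>
    calc a ^ (n + 1) * b = a ^ n * (a * b) := by rw [pow_succ]; group
      _ = a ^ n * (c * b * a) := by rw [h]
      _ = a ^ n * c * b * a := by group
      _ = c * (a ^ n * b) * a := by rw [← (hc.pow_right n).eq]; group
      _ = c * (c ^ n * b * a ^ n) * a := by rw [ih]
      _ = c ^ (n + 1) * b * a ^ (n + 1) := by rw [pow_succ', pow_succ]; group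

/-- Conjugating by a power when the correction term is fixed. -/
theorem conj_pow_central {G : Type*} [Group G] {b x y₁ : G} (h : b * x * b⁻¹ = y₁ * x)
    (hy : b * y₁ * b⁻¹ = y₁) (n : ℕ) : b ^ n * x * (b ^ n)⁻¹ = y₁ ^ n * x := by
  induction n with
  | zero => simp
  | succ n ih =>
    have hyn : b * y₁ ^ n * b⁻¹ = y₁ ^ n := by
      have := conj_pow (a := b) (b := y₁) (i := n)
      rw [← this, hy]
    calc b ^ (n + 1) * x * (b ^ (n + 1))⁻¹ = b * (b ^ n * x * (b ^ n)⁻¹) * b⁻¹ := by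
          rw [pow_succ']; group
      _ = b * (y₁ ^ n * x) * b⁻¹ := by rw [ih]
      _ = (b * y₁ ^ n * b⁻¹) * (b * x * b⁻¹) := by group
      _ = y₁ ^ n * (y₁ * x) := by rw [hyn, h]
      _ = y₁ ^ (n + 1) * x := by rw [pow_succ]; group

/-- A group whose order divides `p ^ 2` is commutative. -/
theorem comm_of_card_dvd_prime_sq {H : Type*} [Group H] {p : ℕ} [hp : Fact p.Prime]
    (h : Nat.card H ∣ p ^ 2) (a b : H) : a * b = b * a := by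
  obtain ⟨k, hk, hc⟩ := (Nat.dvd_prime_pow hp.out).1 h
  interval_cases k
  · rw [pow_zero] at hc
    have : Subsingleton H := (Nat.card_eq_one_iff_unique.1 hc).1
    exact Subsingleton.elim _ _
  · rw [pow_one] at hc
    have := isCyclic_of_prime_card hc
    have h2 := IsCyclic.isMulCommutative (α := H)
    exact h2.is_comm.comm a b
  · exact (IsPGroup.isMulCommutative_of_card_eq_prime_sq hc).is_comm.comm a b

section core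

variable {G : Type*} [Group G] [Finite G] {p : ℕ} [hp : Fact p.Prime]

/-- Basic facts: the `p`-th power map on `P` is multiplicative with values in `Z`. -/
theorem basic (hp2 : p ≠ 2) (P : Sylow p G) (Z : Subgroup G)
    (hZc : ∀ z ∈ Z, ∀ a ∈ (P : Subgroup G), a * z = z * a)
    (hZcen : ∀ x ∈ (P : Subgroup G), (∀ a ∈ (P : Subgroup G), a * x = x * a) → x ∈ Z)
    (hZcard : Nat.card Z = p)
    (hcomm : ∀ a ∈ (P : Subgroup G), ∀ b ∈ (P : Subgroup G), a * b * a⁻¹ * b⁻¹ ∈ Z) :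
    (∀ z ∈ Z, z ^ p = 1) ∧
    (∀ z₁ ∈ Z, z₁ ≠ 1 → ∀ x ∈ Z, ∃ k : ℕ, z₁ ^ k = x) ∧
    (∀ a ∈ (P : Subgroup G), ∀ b ∈ (P : Subgroup G), (a * b) ^ p = a ^ p * b ^ p) ∧
    (∀ a ∈ (P : Subgroup G), a ^ p ∈ Z) := by
  have hZpow : ∀ z ∈ Z, z ^ p = 1 := by
    intro z hz
    have h1 : (⟨z, hz⟩ : Z) ^ Nat.card Z = 1 := pow_card_eq_one'
    rw [hZcard] at h1
    exact congrArg Subtype.val h1
  have hZgen : ∀ z₁ ∈ Z, z₁ ≠ 1 → ∀ x ∈ Z, ∃ k : ℕ, z₁ ^ k = x := by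
    intro z₁ hz₁ hne x hx
    have hne' : (⟨z₁, hz₁⟩ : Z) ≠ 1 := fun h => hne (congrArg Subtype.val h)
    have h1 : (⟨x, hx⟩ : Z) ∈ Submonoid.powers (⟨z₁, hz₁⟩ : Z) :=
      mem_powers_of_prime_card hZcard hne'
    obtain ⟨k, hk⟩ := h1
    exact ⟨k, congrArg Subtype.val hk⟩
  have hmulpow : ∀ a ∈ (P : Subgroup G), ∀ b ∈ (P : Subgroup G),
      (a * b) ^ p = a ^ p * b ^ p := by
    intro a ha b hb
    have hd : a⁻¹ * b⁻¹ * a * b ∈ Z := by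
      have := hcomm a⁻¹ (inv_mem ha) b⁻¹ (inv_mem hb)
      simpa using this
    have h1 : a * b = b * a * (a⁻¹ * b⁻¹ * a * b) := by group
    have hda : Commute (a⁻¹ * b⁻¹ * a * b) a := (hZc _ hd a ha).symm
    have hdb : Commute (a⁻¹ * b⁻¹ * a * b) b := (hZc _ hd b hb).symm
    have h2 := Cfsg.Agent.Lib.Helper54.UniqueSubgroup.mul_pow_of_central h1 hda hdb p
    have h3 : p ∣ p.choose 2 := hp.out.dvd_choose_self (by norm_num)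
      (lt_of_le_of_ne hp.out.two_le (Ne.symm hp2))
    obtain ⟨m, hm⟩ := h3
    rw [hm, pow_mul, hZpow _ hd, one_pow, mul_one] at h2
    exact h2
  have hpowZ : ∀ a ∈ (P : Subgroup G), a ^ p ∈ Z := by
    intro a ha
    apply hZcen _ (pow_mem ha p)
    intro b hb
    have hc : a * b * a⁻¹ * b⁻¹ ∈ Z := hcomm a ha b hb
    have h1 : a * b = (a * b * a⁻¹ * b⁻¹) * b * a := by group
    have h2 := pow_mul_comm_central h1 (hZc _ hc a ha).symm p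
    rw [hZpow _ hc, one_mul] at h2
    exact h2.symm
  exact ⟨hZpow, hZgen, hmulpow, hpowZ⟩

/-- The elements of `P` of order dividing `p`, a subgroup when the power map is multiplicative. -/
def omegaSub (P : Sylow p G)
    (hmul : ∀ a ∈ (P : Subgroup G), ∀ b ∈ (P : Subgroup G), (a * b) ^ p = a ^ p * b ^ p) :
    Subgroup G where
  carrier := {x | x ∈ (P : Subgroup G) ∧ x ^ p = 1}
  mul_mem' := by
    rintro a b ⟨ha, ha1⟩ ⟨hb, hb1⟩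
    exact ⟨mul_mem ha hb, by rw [hmul a ha b hb, ha1, hb1, one_mul]⟩
  one_mem' := ⟨one_mem _, one_pow _⟩
  inv_mem' := by
    rintro a ⟨ha, ha1⟩
    exact ⟨inv_mem ha, by rw [inv_pow, ha1, inv_one]⟩

theorem mem_omegaSub (P : Sylow p G)
    (hmul : ∀ a ∈ (P : Subgroup G), ∀ b ∈ (P : Subgroup G), (a * b) ^ p = a ^ p * b ^ p)
    (x : G) : x ∈ omegaSub P hmul ↔ x ∈ (P : Subgroup G) ∧ x ^ p = 1 := Iff.rfl

/-- Facts about `E = Ω₁(P)`: it is abelian, and an element of `P` of order `p ^ 2` commutes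
with no element of `E` outside `Z`. -/
theorem omega_facts (P : Sylow p G) (Z : Subgroup G)
    (hZc : ∀ z ∈ Z, ∀ a ∈ (P : Subgroup G), a * z = z * a)
    (hZcen : ∀ x ∈ (P : Subgroup G), (∀ a ∈ (P : Subgroup G), a * x = x * a) → x ∈ Z)
    (hPcard : Nat.card (P : Subgroup G) = p ^ 3)
    (hZpow : ∀ z ∈ Z, z ^ p = 1)
    (hZgen : ∀ z₁ ∈ Z, z₁ ≠ 1 → ∀ x ∈ Z, ∃ k : ℕ, z₁ ^ k = x)
    (hmul : ∀ a ∈ (P : Subgroup G), ∀ b ∈ (P : Subgroup G), (a * b) ^ p = a ^ p * b ^ p)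
    (hpowZ : ∀ a ∈ (P : Subgroup G), a ^ p ∈ Z)
    (a₀ : G) (ha₀ : a₀ ∈ (P : Subgroup G)) (ha₀p : a₀ ^ p ≠ 1) :
    (∀ e₁ ∈ omegaSub P hmul, ∀ e₂ ∈ omegaSub P hmul, e₁ * e₂ = e₂ * e₁) ∧
    (∀ a ∈ (P : Subgroup G), a ^ p ≠ 1 → ∀ e ∈ omegaSub P hmul, e ∉ Z → a * e ≠ e * a) := by
  have hEP : omegaSub P hmul ≤ (P : Subgroup G) := fun x hx => hx.1
  have hEne : omegaSub P hmul ≠ (P : Subgroup G) := by
    intro h
    have : a₀ ∈ omegaSub P hmul := h ▸ ha₀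
    exact ha₀p this.2
  have hEcard : Nat.card (omegaSub P hmul) ∣ p ^ 2 := by
    have h1 : Nat.card (omegaSub P hmul) ∣ p ^ 3 := by
      rw [← hPcard]
      exact Subgroup.card_dvd_of_le hEP
    obtain ⟨k, hk, hc⟩ := (Nat.dvd_prime_pow hp.out).1 h1
    have hk3 : k ≠ 3 := by
      intro h3
      apply hEne
      apply Subgroup.eq_of_le_of_card_ge hEP
      rw [hc, hPcard, h3]
    rw [hc]
    exact pow_dvd_pow p (by omega)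
  have hEcomm : ∀ e₁ ∈ omegaSub P hmul, ∀ e₂ ∈ omegaSub P hmul, e₁ * e₂ = e₂ * e₁ := by
    intro e₁ h₁ e₂ h₂
    have := comm_of_card_dvd_prime_sq hEcard (⟨e₁, h₁⟩ : omegaSub P hmul) ⟨e₂, h₂⟩
    exact congrArg Subtype.val this
  refine ⟨hEcomm, ?_⟩
  intro a ha hap e he heZ hae
  apply heZ
  apply hZcen e (hEP he)
  intro b hb
  obtain ⟨k, hk⟩ := hZgen (a ^ p) (hpowZ a ha) hap (b ^ p) (hpowZ b hb)
  have hc : b * (a ^ k)⁻¹ ∈ omegaSub P hmul := by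
    refine ⟨mul_mem hb (inv_mem (pow_mem ha k)), ?_⟩
    rw [hmul b hb _ (inv_mem (pow_mem ha k)), inv_pow, ← pow_mul, mul_comm k p, pow_mul, hk,
      mul_inv_cancel]
  have h1 : (b * (a ^ k)⁻¹) * e = e * (b * (a ^ k)⁻¹) := hEcomm _ hc _ he
  have h2 : a ^ k * e = e * a ^ k := ((show Commute a e from hae).pow_left k).eq
  calc b * e = (b * (a ^ k)⁻¹) * (a ^ k * e) := by group
    _ = (b * (a ^ k)⁻¹) * (e * a ^ k) := by rw [h2]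
    _ = ((b * (a ^ k)⁻¹) * e) * a ^ k := by group
    _ = (e * (b * (a ^ k)⁻¹)) * a ^ k := by rw [h1]
    _ = e * b := by group

/-- Elements centralizing `Z` and moving `y` by an element of `Z`. -/
def uSub (Z : Subgroup G) (y : G) : Subgroup G where
  carrier := {x | x * y * x⁻¹ * y⁻¹ ∈ Z ∧ ∀ z' ∈ Z, x * z' * x⁻¹ = z'}
  mul_mem' := by
    rintro a b ⟨ha, ha'⟩ ⟨hb, hb'⟩
    refine ⟨?_, ?_⟩
    · have e : a * b * y * (a * b)⁻¹ * y⁻¹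
          = (a * (b * y * b⁻¹ * y⁻¹) * a⁻¹) * (a * y * a⁻¹ * y⁻¹) := by group
      change a * b * y * (a * b)⁻¹ * y⁻¹ ∈ Z
      rw [e, ha' _ hb]
      exact mul_mem hb ha
    · intro z' hz'
      have e : a * b * z' * (a * b)⁻¹ = a * (b * z' * b⁻¹) * a⁻¹ := by group
      rw [e, hb' z' hz', ha' z' hz']
  one_mem' := ⟨by simp, by simp⟩
  inv_mem' := by
    rintro a ⟨ha, ha'⟩
    have ha'' : ∀ z' ∈ Z, a⁻¹ * z' * a = z' := by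
      intro z' hz'
      calc a⁻¹ * z' * a = a⁻¹ * (a * z' * a⁻¹) * a := by rw [ha' z' hz']
        _ = z' := by group
    refine ⟨?_, ?_⟩
    · have e : a⁻¹ * y * a⁻¹⁻¹ * y⁻¹ = (a⁻¹ * (a * y * a⁻¹ * y⁻¹) * a)⁻¹ := by group
      change a⁻¹ * y * a⁻¹⁻¹ * y⁻¹ ∈ Z
      rw [e, ha'' _ ha]
      exact inv_mem ha
    · intro z' hz'
      rw [inv_inv]; exact ha'' z' hz'

theorem mem_uSub (Z : Subgroup G) (y x : G) :
    x ∈ uSub Z y ↔ x * y * x⁻¹ * y⁻¹ ∈ Z ∧ ∀ z' ∈ Z, x * z' * x⁻¹ = z' := Iff.rfl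

/-- Stage 1: from a fusion of a central element to a noncentral one (normalized so that the
conjugating element normalizes `E`), an element inverting `Z` and `y`. -/
theorem exists_inverting (P : Sylow p G) (Z : Subgroup G)
    (hZP : Z ≤ (P : Subgroup G))
    (hZc : ∀ z ∈ Z, ∀ a ∈ (P : Subgroup G), a * z = z * a)
    (hcomm : ∀ a ∈ (P : Subgroup G), ∀ b ∈ (P : Subgroup G), a * b * a⁻¹ * b⁻¹ ∈ Z)
    (hZpow : ∀ z ∈ Z, z ^ p = 1)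
    (hZgen : ∀ z₁ ∈ Z, z₁ ≠ 1 → ∀ x ∈ Z, ∃ k : ℕ, z₁ ^ k = x)
    (hmul : ∀ a ∈ (P : Subgroup G), ∀ b ∈ (P : Subgroup G), (a * b) ^ p = a ^ p * b ^ p)
    (hnc : ∀ a ∈ (P : Subgroup G), a ^ p ≠ 1 → ∀ e ∈ omegaSub P hmul, e ∉ Z → a * e ≠ e * a)
    (a₀ : G) (ha₀ : a₀ ∈ (P : Subgroup G)) (ha₀p : a₀ ^ p ≠ 1)
    (z : G) (hz : z ∈ Z) (g y : G) (hgz : g * z * g⁻¹ = y) (hyP : y ∈ (P : Subgroup G))
    (hyZ : y ∉ Z)
    (hgE : ∀ e ∈ omegaSub P hmul, g⁻¹ * e * g ∈ (P : Subgroup G)) :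
    ∃ t : G, t * y * t⁻¹ = y⁻¹ ∧ ∀ x ∈ Z, t * x * t⁻¹ = x⁻¹ := by
  have hZE : Z ≤ omegaSub P hmul := fun x hx => ⟨hZP hx, hZpow x hx⟩
  have hyE : y ∈ omegaSub P hmul := by
    refine ⟨hyP, ?_⟩
    rw [← hgz, conj_pow, hZpow z hz]; group
  have hgE' : ∀ e ∈ omegaSub P hmul, g⁻¹ * e * g ∈ omegaSub P hmul := by
    intro e he
    refine ⟨hgE e he, ?_⟩
    have h1 : (g⁻¹ * e * g) ^ p = g⁻¹ * e ^ p * g := by
      have := conj_pow (a := g⁻¹) (b := e) (i := p)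
      simpa using this
    rw [h1, he.2]; group
  obtain ⟨z₀, hz₀def⟩ : ∃ z₀, z₀ = a₀ * y * a₀⁻¹ * y⁻¹ := ⟨_, rfl⟩
  have hz₀ : z₀ ∈ Z := hz₀def ▸ hcomm a₀ ha₀ y hyP
  have ha₀y : a₀ * y * a₀⁻¹ = z₀ * y := by rw [hz₀def]; group
  have ha₀z₀ : a₀ * z₀ * a₀⁻¹ = z₀ := by rw [hZc z₀ hz₀ a₀ ha₀]; group
  have hyz₀ : y * z₀ = z₀ * y := hZc z₀ hz₀ y hyP
  have hz₀1 : z₀ ≠ 1 := by
    intro h
    apply hnc a₀ ha₀ ha₀p y hyE hyZ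
    calc a₀ * y = (a₀ * y * a₀⁻¹) * a₀ := by group
      _ = y * a₀ := by rw [ha₀y, h, one_mul]
  -- the element `e₂`
  obtain ⟨e₂, he₂def⟩ : ∃ e₂, e₂ = g⁻¹ * z₀ * g := ⟨_, rfl⟩
  have he₂E : e₂ ∈ omegaSub P hmul := he₂def ▸ hgE' z₀ (hZE hz₀)
  have hge₂ : g * e₂ * g⁻¹ = z₀ := by rw [he₂def]; group
  have he₂Z : e₂ ∉ Z := by
    intro he
    have he1 : e₂ ≠ 1 := by
      intro h1
      apply hz₀1
      rw [← hge₂, h1]; group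
    obtain ⟨k, hk⟩ := hZgen e₂ he he1 z hz
    apply hyZ
    have : y = z₀ ^ k := by
      rw [← hgz, ← hk, ← hge₂, conj_pow]
    rw [this]
    exact pow_mem hz₀ k
  obtain ⟨z₂, hz₂def⟩ : ∃ z₂, z₂ = a₀ * e₂ * a₀⁻¹ * e₂⁻¹ := ⟨_, rfl⟩
  have hz₂ : z₂ ∈ Z := hz₂def ▸ hcomm a₀ ha₀ e₂ he₂E.1
  have ha₀e₂ : a₀ * e₂ * a₀⁻¹ = z₂ * e₂ := by rw [hz₂def]; group
  have hz₂1 : z₂ ≠ 1 := by
    intro h
    apply hnc a₀ ha₀ ha₀p e₂ he₂E he₂Z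
    calc a₀ * e₂ = (a₀ * e₂ * a₀⁻¹) * a₀ := by group
      _ = e₂ * a₀ := by rw [ha₀e₂, h, one_mul]
  have ha₀z₂ : a₀ * z₂ * a₀⁻¹ = z₂ := by rw [hZc z₂ hz₂ a₀ ha₀]; group
  have ha₀z : a₀ * z * a₀⁻¹ = z := by rw [hZc z hz a₀ ha₀]; group
  obtain ⟨b, hbdef⟩ : ∃ b, b = g * a₀ * g⁻¹ := ⟨_, rfl⟩
  obtain ⟨y₁, hy₁def⟩ : ∃ y₁, y₁ = g * z₂ * g⁻¹ := ⟨_, rfl⟩
  have hb1 : b * z₀ * b⁻¹ = y₁ * z₀ := by
    calc b * z₀ * b⁻¹ = g * (a₀ * (g⁻¹ * z₀ * g) * a₀⁻¹) * g⁻¹ := by rw [hbdef]; group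
      _ = g * (a₀ * e₂ * a₀⁻¹) * g⁻¹ := by rw [he₂def]
      _ = g * (z₂ * e₂) * g⁻¹ := by rw [ha₀e₂]
      _ = (g * z₂ * g⁻¹) * (g * e₂ * g⁻¹) := by group
      _ = y₁ * z₀ := by rw [hge₂, hy₁def]
  have hb2 : b * y₁ * b⁻¹ = y₁ := by
    calc b * y₁ * b⁻¹ = g * (a₀ * z₂ * a₀⁻¹) * g⁻¹ := by rw [hbdef, hy₁def]; group
      _ = y₁ := by rw [ha₀z₂, hy₁def]
  have hb3 : b * y * b⁻¹ = y := by
    calc b * y * b⁻¹ = g * (a₀ * z * a₀⁻¹) * g⁻¹ := by rw [hbdef, ← hgz]; group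
      _ = y := by rw [ha₀z, hgz]
  obtain ⟨j, hj⟩ : ∃ j : ℕ, y₁ ^ j = y⁻¹ := by
    obtain ⟨k, hk⟩ := hZgen z₂ hz₂ hz₂1 z⁻¹ (inv_mem hz)
    refine ⟨k, ?_⟩
    rw [hy₁def, conj_pow, hk, ← hgz]; group
  obtain ⟨x₂, hx₂def⟩ : ∃ x₂, x₂ = b ^ j := ⟨_, rfl⟩
  have hx1 : x₂ * z₀ * x₂⁻¹ = y⁻¹ * z₀ := by
    rw [hx₂def, conj_pow_central hb1 hb2 j, hj]
  have hx2 : x₂ * y * x₂⁻¹ = y := by
    have hc : Commute b y := by
      show b * y = y * b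
      calc b * y = (b * y * b⁻¹) * b := by group
        _ = y * b := by rw [hb3]
    have hc2 : x₂ * y = y * x₂ := by rw [hx₂def]; exact (hc.pow_left j).eq
    rw [hc2]; group
  obtain ⟨w, hwdef⟩ : ∃ w, w = a₀ * x₂ * a₀ := ⟨_, rfl⟩
  have hw1 : w * z₀ * w⁻¹ = y⁻¹ := by
    calc w * z₀ * w⁻¹ = a₀ * (x₂ * (a₀ * z₀ * a₀⁻¹) * x₂⁻¹) * a₀⁻¹ := by rw [hwdef]; group
      _ = a₀ * (x₂ * z₀ * x₂⁻¹) * a₀⁻¹ := by rw [ha₀z₀]
      _ = a₀ * (y⁻¹ * z₀) * a₀⁻¹ := by rw [hx1]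
      _ = (a₀ * y * a₀⁻¹)⁻¹ * (a₀ * z₀ * a₀⁻¹) := by group
      _ = (z₀ * y)⁻¹ * z₀ := by rw [ha₀y, ha₀z₀]
      _ = y⁻¹ := by group
  have hw2 : w * y * w⁻¹ = z₀ := by
    calc w * y * w⁻¹ = a₀ * (x₂ * (a₀ * y * a₀⁻¹) * x₂⁻¹) * a₀⁻¹ := by rw [hwdef]; group
      _ = a₀ * (x₂ * (z₀ * y) * x₂⁻¹) * a₀⁻¹ := by rw [ha₀y]
      _ = a₀ * ((x₂ * z₀ * x₂⁻¹) * (x₂ * y * x₂⁻¹)) * a₀⁻¹ := by group
      _ = a₀ * ((y⁻¹ * z₀) * y) * a₀⁻¹ := by rw [hx1, hx2]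
      _ = a₀ * (y⁻¹ * (z₀ * y)) * a₀⁻¹ := by group
      _ = a₀ * (y⁻¹ * (y * z₀)) * a₀⁻¹ := by rw [hyz₀]
      _ = a₀ * z₀ * a₀⁻¹ := by group
      _ = z₀ := ha₀z₀
  have ht1 : (w * w) * z₀ * (w * w)⁻¹ = z₀⁻¹ := by
    calc (w * w) * z₀ * (w * w)⁻¹ = w * (w * z₀ * w⁻¹) * w⁻¹ := by group
      _ = w * y⁻¹ * w⁻¹ := by rw [hw1]
      _ = (w * y * w⁻¹)⁻¹ := by group
      _ = z₀⁻¹ := by rw [hw2]
  have ht2 : (w * w) * y * (w * w)⁻¹ = y⁻¹ := by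
    calc (w * w) * y * (w * w)⁻¹ = w * (w * y * w⁻¹) * w⁻¹ := by group
      _ = w * z₀ * w⁻¹ := by rw [hw2]
      _ = y⁻¹ := hw1
  refine ⟨w * w, ht2, ?_⟩
  intro x hx
  obtain ⟨k, hk⟩ := hZgen z₀ hz₀ hz₀1 x hx
  rw [← hk, ← conj_pow, ht1, inv_pow]

/-- Stage 2: an element inverting `Z` and `y` gives a contradiction. -/
theorem no_inverting (hp2 : p ≠ 2) (P : Sylow p G) (Z : Subgroup G)
    (hZc : ∀ z ∈ Z, ∀ a ∈ (P : Subgroup G), a * z = z * a)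
    (hcomm : ∀ a ∈ (P : Subgroup G), ∀ b ∈ (P : Subgroup G), a * b * a⁻¹ * b⁻¹ ∈ Z)
    (hZpow : ∀ z ∈ Z, z ^ p = 1)
    (hmul : ∀ a ∈ (P : Subgroup G), ∀ b ∈ (P : Subgroup G), (a * b) ^ p = a ^ p * b ^ p)
    (hpowZ : ∀ a ∈ (P : Subgroup G), a ^ p ∈ Z)
    (hEcomm : ∀ e₁ ∈ omegaSub P hmul, ∀ e₂ ∈ omegaSub P hmul, e₁ * e₂ = e₂ * e₁)
    (hnc : ∀ a ∈ (P : Subgroup G), a ^ p ≠ 1 → ∀ e ∈ omegaSub P hmul, e ∉ Z → a * e ≠ e * a)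
    (a₀ : G) (ha₀ : a₀ ∈ (P : Subgroup G)) (ha₀p : a₀ ^ p ≠ 1)
    (y : G) (hyE : y ∈ omegaSub P hmul) (hyZ : y ∉ Z)
    (t : G) (ht2 : t * y * t⁻¹ = y⁻¹) (ht3 : ∀ x ∈ Z, t * x * t⁻¹ = x⁻¹) : False := by
  have hyP := hyE.1
  have ht3' : ∀ x ∈ Z, t⁻¹ * x * t = x⁻¹ := by
    intro x hx
    calc t⁻¹ * x * t = t⁻¹ * (t * x⁻¹ * t⁻¹) * t := by rw [ht3 _ (inv_mem hx), inv_inv]
      _ = x⁻¹ := by group
  have hPU : (P : Subgroup G) ≤ uSub Z y := by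
    intro x hx
    rw [mem_uSub]
    refine ⟨hcomm x hx y hyP, ?_⟩
    intro z' hz'
    rw [hZc z' hz' x hx]; group
  have htPU : ((t • P : Sylow p G) : Subgroup G) ≤ uSub Z y := by
    intro x hx
    rw [Cfsg.Agent.Lib.Helper51.SylowGraph.mem_smul_sylow_iff] at hx
    have hz'' : (t⁻¹ * x * t) * y⁻¹ * (t⁻¹ * x * t)⁻¹ * y⁻¹⁻¹ ∈ Z :=
      hcomm _ hx _ (inv_mem hyP)
    rw [mem_uSub]
    refine ⟨?_, ?_⟩
    · have e1 : x * y * x⁻¹ * y⁻¹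
          = t * ((t⁻¹ * x * t) * y⁻¹ * (t⁻¹ * x * t)⁻¹ * y⁻¹⁻¹) * t⁻¹ := by
        have e2 : t * ((t⁻¹ * x * t) * y⁻¹ * (t⁻¹ * x * t)⁻¹ * y⁻¹⁻¹) * t⁻¹
            = x * (t * y * t⁻¹)⁻¹ * x⁻¹ * (t * y * t⁻¹) := by group
        rw [e2, ht2]; group
      rw [e1, ht3 _ hz'']
      exact inv_mem hz''
    · intro z' hz'
      calc x * z' * x⁻¹
          = t * ((t⁻¹ * x * t) * (t⁻¹ * z' * t) * (t⁻¹ * x * t)⁻¹) * t⁻¹ := by group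
        _ = t * ((t⁻¹ * x * t) * z'⁻¹ * (t⁻¹ * x * t)⁻¹) * t⁻¹ := by rw [ht3' z' hz']
        _ = t * z'⁻¹ * t⁻¹ := by rw [hZc z'⁻¹ (inv_mem hz') _ hx]; group
        _ = z' := by rw [ht3 _ (inv_mem hz'), inv_inv]
  obtain ⟨h, hhU, hh⟩ :=
    Cfsg.Agent.Lib.Helper48.StrEmb.exists_smul_eq_of_le P (t • P) hPU htPU
  have hn : ∀ x ∈ (P : Subgroup G), h * t * x * t⁻¹ * h⁻¹ ∈ (P : Subgroup G) := by
    intro x hx
    have h1 : h * t * x * t⁻¹ * h⁻¹ ∈ ((h • (t • P) : Sylow p G) : Subgroup G) := by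
      rw [Cfsg.Agent.Lib.Helper51.SylowGraph.mem_smul_sylow_iff,
        Cfsg.Agent.Lib.Helper51.SylowGraph.mem_smul_sylow_iff]
      have e : t⁻¹ * (h⁻¹ * (h * t * x * t⁻¹ * h⁻¹) * h) * t = x := by group
      rw [e]; exact hx
    rw [hh] at h1
    exact h1
  rw [mem_uSub] at hhU
  obtain ⟨hhy, hhZ⟩ := hhU
  have hnZ : ∀ x ∈ Z, h * t * x * t⁻¹ * h⁻¹ = x⁻¹ := by
    intro x hx
    calc h * t * x * t⁻¹ * h⁻¹ = h * (t * x * t⁻¹) * h⁻¹ := by group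
      _ = h * x⁻¹ * h⁻¹ := by rw [ht3 x hx]
      _ = x⁻¹ := hhZ _ (inv_mem hx)
  obtain ⟨z₃, hz₃def⟩ : ∃ z₃, z₃ = h * y * h⁻¹ * y⁻¹ := ⟨_, rfl⟩
  have hz₃ : z₃ ∈ Z := hz₃def ▸ hhy
  have hny : h * t * y * t⁻¹ * h⁻¹ = (z₃ * y)⁻¹ := by
    calc h * t * y * t⁻¹ * h⁻¹ = h * (t * y * t⁻¹) * h⁻¹ := by group
      _ = h * y⁻¹ * h⁻¹ := by rw [ht2]
      _ = (z₃ * y)⁻¹ := by rw [hz₃def]; group
  obtain ⟨a', ha'def⟩ : ∃ a', a' = h * t * a₀ * t⁻¹ * h⁻¹ := ⟨_, rfl⟩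
  have ha' : a' ∈ (P : Subgroup G) := ha'def ▸ hn a₀ ha₀
  have ha'p : a' ^ p = (a₀ ^ p)⁻¹ := by
    have e : a' = (h * t) * a₀ * (h * t)⁻¹ := by rw [ha'def]; group
    rw [e, conj_pow, ← hnZ _ (hpowZ a₀ ha₀)]; group
  have he₁ : a' * a₀ ∈ omegaSub P hmul := by
    refine ⟨mul_mem ha' ha₀, ?_⟩
    rw [hmul a' ha' a₀ ha₀, ha'p, inv_mul_cancel]
  obtain ⟨z₀, hz₀def⟩ : ∃ z₀, z₀ = a₀ * y * a₀⁻¹ * y⁻¹ := ⟨_, rfl⟩
  have hz₀ : z₀ ∈ Z := hz₀def ▸ hcomm a₀ ha₀ y hyP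
  have ha₀y : a₀ * y * a₀⁻¹ = z₀ * y := by rw [hz₀def]; group
  have hz₀1 : z₀ ≠ 1 := by
    intro h
    apply hnc a₀ ha₀ ha₀p y hyE hyZ
    calc a₀ * y = (a₀ * y * a₀⁻¹) * a₀ := by group
      _ = y * a₀ := by rw [ha₀y, h, one_mul]
  have hf : a₀⁻¹ * y⁻¹ * a₀ ∈ omegaSub P hmul := by
    refine ⟨mul_mem (mul_mem (inv_mem ha₀) (inv_mem hyP)) ha₀, ?_⟩
    have e : a₀⁻¹ * y⁻¹ * a₀ = a₀⁻¹ * y⁻¹ * a₀⁻¹⁻¹ := by group
    rw [e, conj_pow, inv_pow, hyE.2]; group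
  have hfy : a₀⁻¹ * y⁻¹ * a₀ * y = z₀ := by
    calc a₀⁻¹ * y⁻¹ * a₀ * y = a₀⁻¹ * y⁻¹ * ((a₀ * y * a₀⁻¹ * y⁻¹) * y) * a₀ := by group
      _ = a₀⁻¹ * y⁻¹ * (z₀ * y) * a₀ := by rw [← hz₀def]
      _ = a₀⁻¹ * y⁻¹ * (y * z₀) * a₀ := by rw [hZc z₀ hz₀ y hyP]
      _ = a₀⁻¹ * (z₀ * a₀) := by group
      _ = a₀⁻¹ * (a₀ * z₀) := by rw [hZc z₀ hz₀ a₀ ha₀]
      _ = z₀ := by group
  have key : h * t * z₀ * t⁻¹ * h⁻¹ = z₀ := by
    calc h * t * z₀ * t⁻¹ * h⁻¹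
        = a' * (h * t * y * t⁻¹ * h⁻¹) * a'⁻¹ * (h * t * y * t⁻¹ * h⁻¹)⁻¹ := by
          rw [hz₀def, ha'def]; group
      _ = a' * (z₃ * y)⁻¹ * a'⁻¹ * (z₃ * y)⁻¹⁻¹ := by rw [hny]
      _ = a' * y⁻¹ * (z₃⁻¹ * a'⁻¹) * z₃ * y := by group
      _ = a' * y⁻¹ * (a'⁻¹ * z₃⁻¹) * z₃ * y := by
          rw [hZc z₃⁻¹ (inv_mem hz₃) a'⁻¹ (inv_mem ha')]
      _ = ((a' * a₀) * (a₀⁻¹ * y⁻¹ * a₀)) * (a' * a₀)⁻¹ * y := by group
      _ = ((a₀⁻¹ * y⁻¹ * a₀) * (a' * a₀)) * (a' * a₀)⁻¹ * y := by rw [hEcomm _ he₁ _ hf]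
      _ = a₀⁻¹ * y⁻¹ * a₀ * y := by group
      _ = z₀ := hfy
  have hinv : z₀⁻¹ = z₀ := by rw [← hnZ z₀ hz₀]; exact key
  have hsq : z₀ ^ 2 = 1 := by
    calc z₀ ^ 2 = z₀ * z₀ := pow_two z₀
      _ = z₀⁻¹ * z₀ := by rw [hinv]
      _ = 1 := inv_mul_cancel z₀
  apply hz₀1
  obtain ⟨k, hk⟩ := hp.out.odd_of_ne_two hp2
  have h5 := hZpow z₀ hz₀
  rw [hk, pow_succ, pow_mul, hsq, one_pow, one_mul] at h5
  exact h5

/-- The fusion statement in terms of elements of `G`. -/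
theorem core (hp2 : p ≠ 2) (P : Sylow p G) (Z : Subgroup G)
    (hZP : Z ≤ (P : Subgroup G))
    (hZc : ∀ z ∈ Z, ∀ a ∈ (P : Subgroup G), a * z = z * a)
    (hZcen : ∀ x ∈ (P : Subgroup G), (∀ a ∈ (P : Subgroup G), a * x = x * a) → x ∈ Z)
    (hZcard : Nat.card Z = p)
    (hcomm : ∀ a ∈ (P : Subgroup G), ∀ b ∈ (P : Subgroup G), a * b * a⁻¹ * b⁻¹ ∈ Z)
    (hPcard : Nat.card (P : Subgroup G) = p ^ 3)
    (a₀ : G) (ha₀ : a₀ ∈ (P : Subgroup G)) (ha₀p : a₀ ^ p ≠ 1)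
    (z : G) (hz : z ∈ Z) (g : G) (hgP : g * z * g⁻¹ ∈ (P : Subgroup G)) :
    g * z * g⁻¹ ∈ Z := by
  obtain ⟨hZpow, hZgen, hmul, hpowZ⟩ := basic hp2 P Z hZc hZcen hZcard hcomm
  obtain ⟨hEcomm, hnc⟩ :=
    omega_facts P Z hZc hZcen hPcard hZpow hZgen hmul hpowZ a₀ ha₀ ha₀p
  by_contra hyZ
  obtain ⟨y, hy⟩ : ∃ y, y = g * z * g⁻¹ := ⟨_, rfl⟩
  rw [← hy] at hgP hyZ
  have hyE : y ∈ omegaSub P hmul := by
    refine ⟨hgP, ?_⟩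
    rw [hy, conj_pow, hZpow z hz]; group
  have hle : ((g • P : Sylow p G) : Subgroup G) ≤ Subgroup.centralizer ({y} : Set G) := by
    intro x hx
    rw [Cfsg.Agent.Lib.Helper51.SylowGraph.mem_smul_sylow_iff] at hx
    rw [Subgroup.mem_centralizer_iff]
    intro y' hy'
    rw [Set.mem_singleton_iff] at hy'
    rw [hy', hy]
    have h1 := hZc z hz _ hx
    calc g * z * g⁻¹ * x = g * (z * (g⁻¹ * x * g)) * g⁻¹ := by group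
      _ = g * ((g⁻¹ * x * g) * z) * g⁻¹ := by rw [h1]
      _ = x * (g * z * g⁻¹) := by group
  have hEC : omegaSub P hmul ≤ Subgroup.centralizer ({y} : Set G) := by
    intro e he
    rw [Subgroup.mem_centralizer_iff]
    intro y' hy'
    rw [Set.mem_singleton_iff] at hy'
    rw [hy']
    exact hEcomm y hyE e he
  have hEp : IsPGroup p (omegaSub P hmul) := P.2.to_le (fun x hx => hx.1)
  obtain ⟨c, hcC, hc⟩ :=
    Cfsg.Agent.Lib.Helper48.StrEmb.exists_conj_mem_sylow (g • P) hle hEp hEC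
  rw [Subgroup.mem_centralizer_iff] at hcC
  have hcy : y * c = c * y := hcC y rfl
  have hgz' : (c⁻¹ * g) * z * (c⁻¹ * g)⁻¹ = y := by
    calc (c⁻¹ * g) * z * (c⁻¹ * g)⁻¹ = c⁻¹ * ((g * z * g⁻¹) * c) := by group
      _ = c⁻¹ * (y * c) := by rw [← hy]
      _ = y := by rw [hcy]; group
  have hgE : ∀ e ∈ omegaSub P hmul, (c⁻¹ * g)⁻¹ * e * (c⁻¹ * g) ∈ (P : Subgroup G) := by
    intro e he
    have h1 := hc e he
    rw [Cfsg.Agent.Lib.Helper51.SylowGraph.mem_smul_sylow_iff] at h1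
    have e1 : (c⁻¹ * g)⁻¹ * e * (c⁻¹ * g) = g⁻¹ * (c * e * c⁻¹) * g := by group
    rw [e1]; exact h1
  obtain ⟨t, ht2, ht3⟩ := exists_inverting P Z hZP hZc hcomm hZpow hZgen hmul hnc a₀ ha₀ ha₀p
    z hz (c⁻¹ * g) y hgz' hgP hyZ hgE
  exact no_inverting hp2 P Z hZc hcomm hZpow hmul hpowZ hEcomm hnc a₀ ha₀ ha₀p y hyE hyZ t
    ht2 ht3

end core

theorem mem_map_center_iff {G : Type*} [Group G] (Q : Subgroup G) (x : G) :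
    x ∈ (Subgroup.center Q).map Q.subtype ↔ x ∈ Q ∧ ∀ a ∈ Q, a * x = x * a := by
  constructor
  · rintro ⟨x', hx', rfl⟩
    refine ⟨x'.2, ?_⟩
    intro a ha
    have := Subgroup.mem_center_iff.1 hx' ⟨a, ha⟩
    exact congrArg Subtype.val this
  · rintro ⟨hx, hxc⟩
    refine ⟨⟨x, hx⟩, ?_, rfl⟩
    exact Subgroup.mem_center_iff.2 (fun a => Subtype.ext (hxc a a.2))

open scoped commutatorElement in
theorem comm_mem_map_center {G : Type*} [Group G] (Q : Subgroup G)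
    (hcm : commutator Q = Subgroup.center Q) (a b : G) (ha : a ∈ Q) (hb : b ∈ Q) :
    a * b * a⁻¹ * b⁻¹ ∈ (Subgroup.center Q).map Q.subtype := by
  have h1 : ⁅(⟨a, ha⟩ : Q), (⟨b, hb⟩ : Q)⁆ ∈ commutator Q := by
    rw [commutator_def]
    exact Subgroup.commutator_mem_commutator (Subgroup.mem_top _) (Subgroup.mem_top _)
  rw [hcm] at h1
  exact ⟨_, h1, by simp [commutatorElement_def]⟩

theorem exists_pow_ne_one {G : Type*} [Group G] (Q : Subgroup G) {p : ℕ} [hp : Fact p.Prime]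
    (hexp : Monoid.exponent Q = p ^ 2) : ∃ a₀ ∈ Q, a₀ ^ p ≠ 1 := by
  by_contra hcon
  push Not at hcon
  have h1 : Monoid.exponent Q ∣ p := by
    apply Monoid.exponent_dvd_of_forall_pow_eq_one
    intro a
    exact Subtype.ext (hcon a a.2)
  rw [hexp] at h1
  have h2 := Nat.le_of_dvd hp.out.pos h1
  have h3 := hp.out.two_le
  nlinarith

/-- Let p be an odd prime and G a finite group with a Sylow p-subgroup P that is extraspecial of order p³ and exponent p². Then the centre of P is strongly closed in P with respect to G: a G-conjugate of an element of Z(P) that lies in P already lies in Z(P). In particular a nontrivial central element of P is conjugate in G to no noncentral element of P. -/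
theorem result {G : Type*} [Group G] [Finite G]
    {p : ℕ} [Fact p.Prime] (hp : p ≠ 2) (P : Sylow p G) (hE : Cfsg.IsExtraspecial p ↥P)
    (hcard : Nat.card P = p ^ 3) (hexp : Monoid.exponent ↥P = p ^ 2) :
    Cfsg.IsStronglyClosed ((Subgroup.center ↥P).map (P : Subgroup G).subtype) (P : Subgroup G) := by
  obtain ⟨⟨hPp, hfr, hcm⟩, hZcard⟩ := hE
  have hZmem := mem_map_center_iff (P : Subgroup G)
  have hZP : (Subgroup.center ↥(P : Subgroup G)).map (P : Subgroup G).subtype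
      ≤ (P : Subgroup G) := fun x hx => ((hZmem x).1 hx).1
  refine ⟨hZP, ?_⟩
  intro z hz g hg
  obtain ⟨a₀, ha₀, ha₀p⟩ := exists_pow_ne_one (P : Subgroup G) hexp
  have hZcard' : Nat.card ((Subgroup.center ↥(P : Subgroup G)).map (P : Subgroup G).subtype)
      = p := by
    rw [Subgroup.card_map_of_injective (Subgroup.subtype_injective _)]
    exact hZcard
  have hcomm := comm_mem_map_center (P : Subgroup G) hcm
  exact core hp P _ hZP (fun z hz a ha => ((hZmem z).1 hz).2 a ha)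
    (fun x hx hxc => (hZmem x).2 ⟨hx, hxc⟩) hZcard' (fun a ha b hb => hcomm a b ha hb)
    hcard a₀ ha₀ ha₀p z hz g hg

end Cfsg.Agent.S3053
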