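import Cfsg.Statements.S3054
-- import your own Cfsg.Agent.* helpers here
import Cfsg.Agent.Lib.Helper15.RV3
import Cfsg.Agent.Lib.Helper66.KleinComm

set_option autoImplicit false
open Cfsg

namespace Cfsg.Agent.S3054

/-- Let p be an odd prime and G a finite group with a Sylow p-subgroup P that is extraspecial of order p³ and exponent p. Suppose P contains three distinct subgroups A of order p² (each is elementary abelian of rank 2) such that every automorphism of A of order p is induced by conjugation by an element of G; equivalently the automorphism group induced on A by its normalizer contains the special linear group of A. Then p ≤ 13. -/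
theorem result {G : Type*} [Group G] [Finite G]
    {p : ℕ} [Fact p.Prime] (hp : p ≠ 2) (P : Sylow p G) (hE : Cfsg.IsExtraspecial p ↥P)
    (hcard : Nat.card P = p ^ 3) (hexp : Monoid.exponent ↥P = p)
    (A : Fin 3 → Subgroup G) (hA : Function.Injective A) (hAP : ∀ i, A i ≤ (P : Subgroup G))
    (hAcard : ∀ i, Nat.card ↥(A i) = p ^ 2)
    (hSL : ∀ i, ∀ φ : MulAut ↥(A i), orderOf φ = p → ∃ g : G, ∀ a : ↥(A i), (φ a : G) = g * (a : G) * g⁻¹) :
    p ≤ 13 := by
  have hpp : p.Prime := Fact.out
  have hZ : Nat.card (Subgroup.center ↥P) = p := hE.2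
  have hexp' : ∀ a : ↥P, a ^ p = 1 := by
    intro a
    have h := Monoid.pow_exponent_eq_one a
    rw [hexp] at h
    exact h
  have h17 : p < 17 :=
    Cfsg.Agent.Lib.Helper15.RV3.main_of_klein
      (fun _ _ _ m hm hCA hN2 S hSconj hSord s₁ s₂ h₁ h₂ =>
        Cfsg.Agent.Lib.Helper66.KleinComm.klein_comm m hm hCA hN2 S hSconj hSord s₁ s₂ h₁ h₂)
      P hZ hcard hexp' A hA hAP hAcard hSL
  by_contra hcon
  push Not at hcon
  have h14 : p ≠ 14 := by
    rintro rfl
    norm_num at hpp
  have h15 : p ≠ 15 := by
    rintro rfl
    norm_num at hpp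
  have h16 : p ≠ 16 := by
    rintro rfl
    norm_num at hpp
  omega

end Cfsg.Agent.S3054
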