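import Cfsg.Statements.S3057
import Cfsg.Agent.Lib.Helper51.SylowGraph
import Cfsg.Agent.S0058
import Cfsg.Agent.Lib.Helper54.Quaternion
import Cfsg.Agent.Lib.Helper54.FpfNorm
import Cfsg.Agent.Lib.Helper76.PSolv

set_option autoImplicit false
open Cfsg

namespace Cfsg.Agent.S3057

open Cfsg.Agent.Lib.Helper51.StronglyEmbedded Cfsg.Agent.Lib.Helper51.SylowGraph
open Cfsg.Agent.Lib.Helper54.UniqueSubgroup

/-- A cyclic group has at most one subgroup of order `p`. -/
theorem ui_of_isCyclic {p : ℕ} [Fact p.Prime] {S : Type*} [Group S] [Finite S] [IsCyclic S] :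
    UI p S := by
  classical
  intro g h hg hh hg1
  have hgo : orderOf g = p := orderOf_eq_prime hg hg1
  have := Fintype.ofFinite S
  have hle : (Finset.univ.filter fun a : S => a ^ p = 1).card ≤ p :=
    IsCyclic.card_pow_eq_one_le (Fact.out : p.Prime).pos
  have hsub : (Finset.image (fun i : ℕ => g ^ i) (Finset.range p)) ⊆
      (Finset.univ.filter fun a : S => a ^ p = 1) := by
    intro x hx
    obtain ⟨i, -, rfl⟩ := Finset.mem_image.1 hx
    simp only [Finset.mem_filter, Finset.mem_univ, true_and]
    rw [← pow_mul, mul_comm, pow_mul, hg, one_pow]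
  have hcard : (Finset.image (fun i : ℕ => g ^ i) (Finset.range p)).card = p := by
    rw [Finset.card_image_of_injOn, Finset.card_range]
    intro i hi j hj hij
    have hi' : i ∈ Set.Iio (orderOf g) := by
      rw [hgo]; exact Finset.mem_range.1 hi
    have hj' : j ∈ Set.Iio (orderOf g) := by
      rw [hgo]; exact Finset.mem_range.1 hj
    exact pow_injOn_Iio_orderOf hi' hj' hij
  have heq := Finset.eq_of_subset_of_card_le hsub (by rw [hcard]; exact hle)
  have hmem : h ∈ (Finset.univ.filter fun a : S => a ^ p = 1) := by simp [hh]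
  rw [← heq] at hmem
  obtain ⟨i, -, rfl⟩ := Finset.mem_image.1 hmem
  exact Subgroup.pow_mem _ (Subgroup.mem_zpowers g) i

/-- Uniqueness of the subgroup of order `p` transfers along isomorphisms. -/
theorem ui_of_mulEquiv {p : ℕ} {S T : Type*} [Group S] [Group T] (e : S ≃* T) (h : UI p T) :
    UI p S := by
  intro g k hg hk hg1
  have h1 := h (e g) (e k) (by rw [← map_pow, hg, map_one]) (by rw [← map_pow, hk, map_one])
    (fun h0 => hg1 (e.injective (by rw [h0, map_one])))
  obtain ⟨i, hi⟩ := Subgroup.mem_zpowers_iff.1 h1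
  rw [← map_zpow] at hi
  have h2 := e.injective hi
  rw [← h2]
  exact Subgroup.zpow_mem_zpowers g i

/-- A generalized quaternion group has a unique involution. -/
theorem ui_quaternion (N : ℕ) [NeZero N] : UI 2 (QuaternionGroup N) := by
  have hN0 : N ≠ 0 := NeZero.ne N
  have hNne : (N : ZMod (2 * N)) ≠ 0 := by
    intro h0
    rw [ZMod.natCast_eq_zero_iff] at h0
    have := Nat.le_of_dvd (Nat.pos_of_ne_zero hN0) h0
    omega
  have key : ∀ x : QuaternionGroup N, x ^ 2 = 1 →
      x = 1 ∨ x = QuaternionGroup.a (N : ZMod (2 * N)) := by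
    intro x hx
    cases x with
    | a i =>
      rw [pow_two, QuaternionGroup.a_mul_a, QuaternionGroup.one_def] at hx
      have h0 : i + i = 0 := QuaternionGroup.a.inj hx
      have : NeZero (2 * N) := ⟨by omega⟩
      have hv : i.val < 2 * N := ZMod.val_lt i
      have hi : ((i.val : ℕ) : ZMod (2 * N)) = i := ZMod.natCast_zmod_val i
      have h1 : ((i.val + i.val : ℕ) : ZMod (2 * N)) = 0 := by
        rw [Nat.cast_add, hi]; exact h0
      rw [ZMod.natCast_eq_zero_iff] at h1
      obtain ⟨c, hc⟩ := h1
      have hc' : c = 0 ∨ c = 1 := by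
        rcases Nat.lt_or_ge c 2 with h2 | h2
        · omega
        · exfalso
          have : 2 * N * 2 ≤ 2 * N * c := Nat.mul_le_mul_left _ h2
          omega
      rcases hc' with rfl | rfl
      · left
        have hv0 : i.val = 0 := by omega
        rw [QuaternionGroup.one_def]
        congr 1
        rw [← hi, hv0, Nat.cast_zero]
      · right
        have hvN : i.val = N := by omega
        congr 1
        rw [← hi, hvN]
    | xa i =>
      exfalso
      rw [pow_two, QuaternionGroup.xa_mul_xa, QuaternionGroup.one_def] at hx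
      have h0 : (N : ZMod (2 * N)) + i - i = 0 := QuaternionGroup.a.inj hx
      apply hNne
      rw [add_sub_cancel_right] at h0
      exact h0
  intro g h hg hh hg1
  rcases key g hg with rfl | rfl
  · exact absurd rfl hg1
  · rcases key h hh with rfl | rfl
    · exact Subgroup.one_mem _
    · exact Subgroup.mem_zpowers _

theorem forward {G : Type*} [Group G] [Finite G] (p : ℕ) [Fact p.Prime] (hdiv : p ∣ Nat.card G)
    (hsol : Cfsg.IsPSolvable p G) (P : Sylow p G) (hnc : ¬ Cfsg.IsSylowChainConnected p G) :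
    Cfsg.pCore p G = ⊥ ∧
      (IsCyclic ↥P ∨ (p = 2 ∧ ∃ n : ℕ, Nonempty (↥P ≃* QuaternionGroup (2 ^ n)))) := by
  classical
  have hpp : p.Prime := Fact.out
  constructor
  · by_contra hO
    apply hnc
    rw [isSylowChainConnected_iff]
    intro S T
    by_cases hST : S = T
    · rw [hST]
    · apply Relation.ReflTransGen.single
      refine ⟨hST, fun hbot => hO ?_⟩
      rw [eq_bot_iff, ← hbot]
      exact le_inf (Cfsg.Agent.Lib.Helper76.PSolv.pCore_le_sylow S)
        (Cfsg.Agent.Lib.Helper76.PSolv.pCore_le_sylow T)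
  · obtain ⟨H, hH, hpH, hse⟩ := exists_stronglyEmbedded_of_not_connected hnc
    obtain ⟨S, hSH⟩ := exists_sylow_le hpH hse
    have hcentH : ∀ a ∈ H, orderOf a = p →
        ∀ d, d ∈ Subgroup.centralizer ({a} : Set G) → d ∈ H := by
      intro a haH hao d hd
      apply mem_of_conj_mem hse haH hao
      have h1 : a * d = d * a := Subgroup.mem_centralizer_iff.1 hd a rfl
      rw [mul_assoc, h1, inv_mul_cancel_left]
      exact haH
    have hUI : UI p ↥(S : Subgroup G) := by
      by_contra hUI
      obtain ⟨u, v, huv, hup, hvp, hu1, hvu⟩ :=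
        Cfsg.Agent.Lib.Helper54.FpfNorm.exists_pair_of_not_ui S.isPGroup' hUI
      have hupG : (u : G) ^ p = 1 := by
        have := congrArg Subtype.val hup
        simpa using this
      have hvpG : (v : G) ^ p = 1 := by
        have := congrArg Subtype.val hvp
        simpa using this
      have huvG : (u : G) * (v : G) = (v : G) * (u : G) := by
        have := congrArg Subtype.val huv.eq
        simpa using this
      have huo : orderOf (u : G) = p := by
        rw [Subgroup.orderOf_coe]; exact orderOf_eq_prime hup hu1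
      have hAcomm : IsMulCommutative ↥(Subgroup.closure ({(u : G), (v : G)} : Set G)) := by
        apply Subgroup.isMulCommutative_closure
        intro s hs t ht
        rcases hs with hs | hs <;> rcases ht with ht | ht
        · rw [hs, ht]
        · rw [Set.mem_singleton_iff] at ht; rw [hs, ht]; exact huvG
        · rw [Set.mem_singleton_iff] at hs; rw [hs, ht]; exact huvG.symm
        · rw [Set.mem_singleton_iff] at hs ht; rw [hs, ht]
      have hAS : Subgroup.closure ({(u : G), (v : G)} : Set G) ≤ (S : Subgroup G) := by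
        rw [Subgroup.closure_le]
        intro s hs
        rcases hs with hs | hs
        · rw [hs]; exact u.2
        · rw [Set.mem_singleton_iff] at hs; rw [hs]; exact v.2
      have hDcop : (Nat.card ↥(Cfsg.pPrimeCore p G)).Coprime p :=
        Cfsg.Agent.Lib.Helper76.PSolv.pPrimeCore_coprime p
      have hAcop : (Nat.card ↥(Subgroup.closure ({(u : G), (v : G)} : Set G))).Coprime
          (Nat.card ↥(Cfsg.pPrimeCore p G)) := by
        obtain ⟨k, hk⟩ := IsPGroup.iff_card.1 (S.isPGroup'.to_le hAS)
        rw [hk]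
        exact Nat.Coprime.pow_left k hDcop.symm
      have hAnorm : Subgroup.closure ({(u : G), (v : G)} : Set G) ≤
          Subgroup.normalizer ((Cfsg.pPrimeCore p G : Subgroup G) : Set G) := by
        rw [Subgroup.normalizer_eq_top]
        exact le_top
      have huA : (u : G) ∈ Subgroup.closure ({(u : G), (v : G)} : Set G) :=
        Subgroup.subset_closure (Set.mem_insert _ _)
      have hvA : (v : G) ∈ Subgroup.closure ({(u : G), (v : G)} : Set G) :=
        Subgroup.subset_closure (Set.mem_insert_of_mem _ rfl)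
      have hDH : Cfsg.pPrimeCore p G ≤ H := by
        apply Cfsg.Agent.S0058.rank2_gen (Subgroup.closure ({(u : G), (v : G)} : Set G))
          (Cfsg.pPrimeCore p G) H hAnorm hAcop (v : G) (u : G) hvA huA p hvpG hupG
        · intro d hd
          exact hcentH (u : G) (hSH u.2) huo d (Subgroup.mem_inf.1 hd).2
        · intro j _ d hd
          have hne1 : v * u ^ j ≠ 1 := by
            intro h1
            apply hvu
            have hve : v = (u ^ j)⁻¹ := eq_inv_of_mul_eq_one_left h1
            rw [hve]
            exact Subgroup.inv_mem _ (Subgroup.pow_mem _ (Subgroup.mem_zpowers u) j)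
          have hpow : (v * u ^ j) ^ p = 1 := by
            have hc : Commute v (u ^ j) := (huv.symm).pow_right j
            rw [hc.mul_pow, hvp, ← pow_mul, mul_comm j p, pow_mul, hup, one_pow, one_mul]
          have ho : orderOf (v * u ^ j) = p := orderOf_eq_prime hpow hne1
          have ho' : orderOf ((v : G) * (u : G) ^ j) = p := by
            have := Subgroup.orderOf_coe (v * u ^ j)
            rw [ho] at this
            simpa using this
          exact hcentH _ (hSH (v * u ^ j).2) ho' d (Subgroup.mem_inf.1 hd).2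
      -- the quotient by the p'-core
      have hquot_sol := Cfsg.Agent.Lib.Helper76.PSolv.isPSolvable_quotient p (Cfsg.pPrimeCore p G) hsol
      have hquot_core := Cfsg.Agent.Lib.Helper76.PSolv.pPrimeCore_quotient (G := G) p
      have hcent := Cfsg.Agent.Lib.Helper76.PSolv.centralizer_pCore_le p hquot_sol hquot_core
      have hQne : Cfsg.pCore p (G ⧸ Cfsg.pPrimeCore p G) ≠ ⊥ := by
        intro hQ
        have htriv : ∀ x : G ⧸ Cfsg.pPrimeCore p G, x = 1 := by
          intro x
          have hx : x ∈ Subgroup.centralizer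
              ((Cfsg.pCore p (G ⧸ Cfsg.pPrimeCore p G) : Subgroup _) : Set _) := by
            rw [Subgroup.mem_centralizer_iff]
            intro y hy
            rw [SetLike.mem_coe, hQ, Subgroup.mem_bot] at hy
            rw [hy, one_mul, mul_one]
          have := hcent hx
          rw [hQ, Subgroup.mem_bot] at this
          exact this
        have htop : Cfsg.pPrimeCore p G = ⊤ := by
          rw [eq_top_iff]
          intro g _
          exact (QuotientGroup.eq_one_iff g).1 (htriv _)
        have h1 : (Nat.card G).Coprime p := by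
          rw [htop, Subgroup.card_top] at hDcop
          exact hDcop
        exact (Nat.Prime.coprime_iff_not_dvd hpp).1 h1.symm hdiv
      have hQp : IsPGroup p ↥(Cfsg.pCore p (G ⧸ Cfsg.pPrimeCore p G)) :=
        Cfsg.Agent.Lib.Helper76.PSolv.pCore_isPGroup p
      obtain ⟨K, hK⟩ : ∃ K : Subgroup G, K = (Cfsg.pCore p (G ⧸ Cfsg.pPrimeCore p G)).comap
          (QuotientGroup.mk' (Cfsg.pPrimeCore p G)) := ⟨_, rfl⟩
      have hKn : K.Normal := by
        rw [hK]
        exact Subgroup.Normal.comap inferInstance _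
      have hKmem : ∀ g : G, g ∈ K ↔
          (QuotientGroup.mk' (Cfsg.pPrimeCore p G)) g ∈ Cfsg.pCore p (G ⧸ Cfsg.pPrimeCore p G) := by
        intro g; rw [hK, Subgroup.mem_comap]
      have hpK : p ∣ Nat.card K := by
        have hnt : Nontrivial ↥(Cfsg.pCore p (G ⧸ Cfsg.pPrimeCore p G)) :=
          (Subgroup.nontrivial_iff_ne_bot _).2 hQne
        obtain ⟨k, hk0, hk⟩ := (IsPGroup.nontrivial_iff_card hQp).1 hnt
        have hpc : p ∣ Nat.card ↥(Cfsg.pCore p (G ⧸ Cfsg.pPrimeCore p G)) := by
          rw [hk]; exact dvd_pow_self p hk0.ne'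
        obtain ⟨q, hq⟩ := exists_prime_orderOf_dvd_card'
          (G := ↥(Cfsg.pCore p (G ⧸ Cfsg.pPrimeCore p G))) p hpc
        obtain ⟨g, hg⟩ := QuotientGroup.mk'_surjective (Cfsg.pPrimeCore p G) (q : G ⧸ Cfsg.pPrimeCore p G)
        have hgK : g ∈ K := by rw [hKmem, hg]; exact q.2
        have h1 : orderOf ((QuotientGroup.mk' (Cfsg.pPrimeCore p G)) g) ∣ orderOf g :=
          orderOf_map_dvd _ g
        rw [hg, Subgroup.orderOf_coe, hq] at h1
        have h2 := orderOf_dvd_natCard (⟨g, hgK⟩ : ↥K)
        rw [Subgroup.orderOf_mk] at h2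
        exact dvd_trans h1 h2
      have htop := sup_pPrimeClosure_eq_top hpH hse K hpK
      apply hH
      rw [← htop]
      apply le_antisymm le_sup_left
      apply sup_le le_rfl
      rw [Subgroup.closure_le]
      rintro g ⟨hgK, hgo⟩
      apply hDH
      rw [← QuotientGroup.eq_one_iff, ← orderOf_eq_one_iff]
      have hmem := (hKmem g).1 hgK
      obtain ⟨k, hk⟩ := hQp ⟨_, hmem⟩
      have hk' : ((QuotientGroup.mk' (Cfsg.pPrimeCore p G)) g) ^ p ^ k = 1 := by
        have := congrArg Subtype.val hk
        simpa using this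
      have h1 : orderOf ((QuotientGroup.mk' (Cfsg.pPrimeCore p G)) g) ∣ p ^ k :=
        orderOf_dvd_of_pow_eq_one hk'
      have h2 : orderOf ((QuotientGroup.mk' (Cfsg.pPrimeCore p G)) g) ∣ orderOf g :=
        orderOf_map_dvd _ g
      have hcop : (p ^ k).Coprime (orderOf g) := Nat.Coprime.pow_left k hgo.symm
      exact Nat.Coprime.eq_one_of_dvd (Nat.Coprime.coprime_dvd_left h1 hcop) h2
    rcases Cfsg.Agent.Lib.Helper54.Quaternion.isCyclic_or_quaternion_of_ui S.isPGroup' hUI with
      hc | ⟨hp2, n, ⟨e⟩⟩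
    · left
      exact isCyclic_of_surjective (Sylow.equiv S P).toMonoidHom (Sylow.equiv S P).surjective
    · right
      exact ⟨hp2, n, ⟨(Sylow.equiv S P).symm.trans e⟩⟩

theorem backward {G : Type*} [Group G] [Finite G] (p : ℕ) [Fact p.Prime] (hdiv : p ∣ Nat.card G)
    (P : Sylow p G) (hO : Cfsg.pCore p G = ⊥)
    (hP : IsCyclic ↥P ∨ (p = 2 ∧ ∃ n : ℕ, Nonempty (↥P ≃* QuaternionGroup (2 ^ n)))) :
    ¬ Cfsg.IsSylowChainConnected p G := by
  classical
  have hpp : p.Prime := Fact.out
  intro hconn
  rw [isSylowChainConnected_iff] at hconn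
  have hUIP : UI p ↥(P : Subgroup G) := by
    rcases hP with hc | ⟨hp2, n, ⟨e⟩⟩
    · exact ui_of_isCyclic
    · subst hp2
      have : NeZero (2 ^ n) := ⟨by positivity⟩
      exact ui_of_mulEquiv e (ui_quaternion (2 ^ n))
  have hUI : ∀ S : Sylow p G, UI p ↥(S : Subgroup G) :=
    fun S => ui_of_mulEquiv (Sylow.equiv S P) hUIP
  have hpP : p ∣ Nat.card (P : Subgroup G) := P.dvd_card_of_dvd_card hdiv
  obtain ⟨g₀, hg₀⟩ := exists_prime_orderOf_dvd_card' (G := ↥(P : Subgroup G)) p hpP
  have hg₀o : orderOf (g₀ : G) = p := by rw [Subgroup.orderOf_coe]; exact hg₀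
  have hg₀p : (g₀ : G) ^ p = 1 := by
    have h5 := pow_orderOf_eq_one (g₀ : G)
    rwa [hg₀o] at h5
  have hstep : ∀ S T : Sylow p G, SylowAdj S T → (g₀ : G) ∈ (S : Subgroup G) →
      (g₀ : G) ∈ (T : Subgroup G) := by
    intro S T hadj hgS
    have hpg : IsPGroup p ↥((S : Subgroup G) ⊓ (T : Subgroup G)) := S.isPGroup'.to_le inf_le_left
    have hnt : Nontrivial ↥((S : Subgroup G) ⊓ (T : Subgroup G)) :=
      (Subgroup.nontrivial_iff_ne_bot _).2 hadj.2
    obtain ⟨k, hk0, hk⟩ := (IsPGroup.nontrivial_iff_card hpg).1 hnt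
    have hpc : p ∣ Nat.card ↥((S : Subgroup G) ⊓ (T : Subgroup G)) := by
      rw [hk]; exact dvd_pow_self p hk0.ne'
    obtain ⟨x, hx⟩ := exists_prime_orderOf_dvd_card'
      (G := ↥((S : Subgroup G) ⊓ (T : Subgroup G))) p hpc
    have hxo : orderOf (x : G) = p := by rw [Subgroup.orderOf_coe]; exact hx
    have hxS : (x : G) ∈ (S : Subgroup G) := (Subgroup.mem_inf.1 x.2).1
    have hxT : (x : G) ∈ (T : Subgroup G) := (Subgroup.mem_inf.1 x.2).2
    have hxp : (x : G) ^ p = 1 := by
      have h5 := pow_orderOf_eq_one (x : G)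
      rwa [hxo] at h5
    have hx1 : (x : G) ≠ 1 := by
      intro h1
      rw [h1, orderOf_one] at hxo
      exact hpp.one_lt.ne hxo
    have hmem := hUI S ⟨(x : G), hxS⟩ ⟨(g₀ : G), hgS⟩ (Subtype.ext (by simpa using hxp))
      (Subtype.ext (by simpa using hg₀p)) (fun h0 => hx1 (congrArg Subtype.val h0))
    obtain ⟨i, hi⟩ := Subgroup.mem_zpowers_iff.1 hmem
    have hi' : (x : G) ^ i = (g₀ : G) := by
      have := congrArg Subtype.val hi
      simpa using this
    rw [← hi']
    exact Subgroup.zpow_mem _ hxT i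
  have hall : ∀ S : Sylow p G, (g₀ : G) ∈ (S : Subgroup G) := by
    intro S
    have h := hconn P S
    induction h with
    | refl => exact g₀.2
    | tail _ hbc ih => exact hstep _ _ hbc ih
  have hZn : (⨅ S : Sylow p G, (S : Subgroup G)).Normal := by
    constructor
    intro z hz x
    rw [Subgroup.mem_iInf] at hz ⊢
    intro S
    have h1 := hz (x⁻¹ • S)
    rw [mem_smul_sylow_iff] at h1
    simpa using h1
  have hZp : IsPGroup p ↥(⨅ S : Sylow p G, (S : Subgroup G)) := P.isPGroup'.to_le (iInf_le _ P)
  have hZle := Cfsg.Agent.Lib.Helper76.PSolv.le_pCore hZn hZp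
  have hg₀Z : (g₀ : G) ∈ ⨅ S : Sylow p G, (S : Subgroup G) := Subgroup.mem_iInf.2 hall
  have h1 := hZle hg₀Z
  rw [hO, Subgroup.mem_bot] at h1
  rw [h1, orderOf_one] at hg₀o
  exact hpp.one_lt.ne hg₀o

/-- Let p be a prime and G a finite p-solvable group of order divisible by p, with Sylow p-subgroup P. Then the Sylow p-subgroups of G fail to be chain-connected through nontrivial intersections (equivalently, G has a strongly p-embedded subgroup) if and only if O_p(G) = 1 and P is cyclic or, for p = 2, generalized quaternion. -/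
theorem result {G : Type*} [Group G] [Finite G]
    (p : ℕ) [Fact p.Prime] (hdiv : p ∣ Nat.card G) (hsol : Cfsg.IsPSolvable p G) (P : Sylow p G) :
    ¬ Cfsg.IsSylowChainConnected p G ↔
      Cfsg.pCore p G = ⊥ ∧ (IsCyclic ↥P ∨ (p = 2 ∧ ∃ n : ℕ, Nonempty (↥P ≃* QuaternionGroup (2 ^ n)))) :=
  ⟨forward p hdiv hsol P, fun ⟨hO, hP⟩ => backward p hdiv P hO hP⟩

end Cfsg.Agent.S3057
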