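import Cfsg.Statements.S3060
import Cfsg.Agent.Lib.Helper51.DStar
import Cfsg.Agent.Lib.Helper33.PCore

set_option autoImplicit false
open Cfsg

namespace Cfsg.Agent.S3060

open scoped commutatorElement
open Cfsg.Agent.Lib.Helper51

/-- The defining family of `D*` is invariant under automorphisms. -/
theorem family_map {S : Type*} [Group S] (φ : S ≃* S) (A : Subgroup S)
    (hA : A ∈ Cfsg.dStarFamily S) : A.map φ.toMonoidHom ∈ Cfsg.dStarFamily S := by
  obtain ⟨hc, hA2⟩ := hA
  refine ⟨isMulCommutative_iff_of_setLike.2 ?_, ?_⟩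
  · rintro _ ⟨a, ha, rfl⟩ _ ⟨b, hb, rfl⟩
    show φ a * φ b = φ b * φ a
    rw [← map_mul, ← map_mul, (isMulCommutative_iff_of_setLike.1 hc) a ha b hb]
  · intro x hx
    rintro _ ⟨a, ha, rfl⟩
    have h0 : ⁅⁅A ⊔ Subgroup.zpowers (φ.symm x), A ⊔ Subgroup.zpowers (φ.symm x)⁆,
        A ⊔ Subgroup.zpowers (φ.symm x)⁆ = ⊥ := by
      have e : (A ⊔ Subgroup.zpowers (φ.symm x)).map φ.toMonoidHom
          = A.map φ.toMonoidHom ⊔ Subgroup.zpowers x := by
        rw [Subgroup.map_sup, MonoidHom.map_zpowers]; simp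
      have h1 : (⁅⁅A ⊔ Subgroup.zpowers (φ.symm x), A ⊔ Subgroup.zpowers (φ.symm x)⁆,
          A ⊔ Subgroup.zpowers (φ.symm x)⁆).map φ.toMonoidHom = ⊥ := by
        rw [Subgroup.map_commutator, Subgroup.map_commutator, e]; exact hx
      exact (Subgroup.map_eq_bot_iff_of_injective _ φ.injective).1 h1
    have h2 := hA2 (φ.symm x) h0 a ha
    have h3 := congrArg φ h2
    simpa using h3

/-- `D*(S)` is invariant under conjugation. -/
theorem dStar_conj_mem {S : Type*} [Group S] [Finite S] [Group.IsNilpotent S] (s d : S)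
    (hd : d ∈ Cfsg.dStar S) : s * d * s⁻¹ ∈ Cfsg.dStar S := by
  have h1 := family_map (MulAut.conj s) (Cfsg.dStar S) DStar.dStar_mem_family
  have h2 : (Cfsg.dStar S).map (MulAut.conj s).toMonoidHom ≤ Cfsg.dStar S := le_sSup h1
  exact h2 ⟨d, hd, by simp [MulAut.conj_apply]⟩

section facts

variable {G : Type*} [Group G] (P : Subgroup G)

theorem dStarOf_le : Cfsg.dStarOf P ≤ P := Subgroup.map_subtype_le _

theorem dStarOf_comm [Finite P] [Group.IsNilpotent P] :
    ∀ a ∈ Cfsg.dStarOf P, ∀ b ∈ Cfsg.dStarOf P, a * b = b * a := by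
  rintro _ ⟨a, ha, rfl⟩ _ ⟨b, hb, rfl⟩
  exact congrArg Subtype.val (DStar.dStar_commute a ha b hb)

theorem dStarOf_conj_mem [Finite P] [Group.IsNilpotent P] (s : G) (hs : s ∈ P) :
    ∀ d ∈ Cfsg.dStarOf P, s * d * s⁻¹ ∈ Cfsg.dStarOf P := by
  rintro _ ⟨d, hd, rfl⟩
  exact ⟨_, dStar_conj_mem (⟨s, hs⟩ : P) d hd, rfl⟩

theorem dStarOf_prop [Finite P] [Group.IsNilpotent P] (x : G) (hx : x ∈ P)
    (hc1 : ∀ a ∈ Cfsg.dStarOf P, ∀ a' ∈ Cfsg.dStarOf P, a' * ⁅a, x⁆ = ⁅a, x⁆ * a')
    (hc2 : ∀ a ∈ Cfsg.dStarOf P, x * ⁅a, x⁆ = ⁅a, x⁆ * x) :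
    ∀ a ∈ Cfsg.dStarOf P, a * x = x * a := by
  have hfam := DStar.dStar_mem_family (S := P)
  have h3 := DStar.class_two_sup_zpowers (Cfsg.dStar P) (⟨x, hx⟩ : P) DStar.dStar_commute ?_ ?_
  · rintro _ ⟨a, ha, rfl⟩
    exact congrArg Subtype.val (hfam.2 ⟨x, hx⟩ h3 a ha)
  · intro a ha a' ha'
    apply Subtype.ext
    exact hc1 a ⟨a, ha, rfl⟩ a' ⟨a', ha', rfl⟩
  · intro a ha
    apply Subtype.ext
    exact hc2 a ⟨a, ha, rfl⟩

theorem le_dStarOf (W : Subgroup G) (hWP : W ≤ P) (hWab : ∀ a ∈ W, ∀ b ∈ W, a * b = b * a)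
    (hW : ∀ x ∈ P, (∀ w ∈ W, ∀ i j : ℤ, ⁅⁅w, x ^ i⁆, x ^ j⁆ = 1) → ∀ a ∈ W, a * x = x * a) :
    W ≤ Cfsg.dStarOf P := by
  have hmem : W.subgroupOf P ∈ Cfsg.dStarFamily P := by
    refine ⟨isMulCommutative_iff_of_setLike.2 ?_, ?_⟩
    · intro a ha b hb
      exact Subtype.ext (hWab a ha b hb)
    · intro x hx a ha
      apply Subtype.ext
      apply hW x x.2 ?_ a ha
      intro w hw i j
      have hw' : (⟨w, hWP hw⟩ : P) ∈ W.subgroupOf P ⊔ Subgroup.zpowers x :=
        Subgroup.mem_sup_left (Subgroup.mem_subgroupOf.2 hw)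
      have hxi : x ^ i ∈ W.subgroupOf P ⊔ Subgroup.zpowers x :=
        Subgroup.mem_sup_right (Subgroup.zpow_mem_zpowers x i)
      have hxj : x ^ j ∈ W.subgroupOf P ⊔ Subgroup.zpowers x :=
        Subgroup.mem_sup_right (Subgroup.zpow_mem_zpowers x j)
      have h1 : ⁅⁅(⟨w, hWP hw⟩ : P), x ^ i⁆, x ^ j⁆ ∈ (⊥ : Subgroup P) := by
        rw [← hx]
        exact Subgroup.commutator_mem_commutator (Subgroup.commutator_mem_commutator hw' hxi) hxj
      rw [Subgroup.mem_bot] at h1
      have h2 := congrArg Subtype.val h1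
      simpa [commutatorElement_def] using h2
  have h2 : W.subgroupOf P ≤ Cfsg.dStar P := le_sSup hmem
  intro w hw
  exact ⟨⟨w, hWP hw⟩, h2 (Subgroup.mem_subgroupOf.2 hw), rfl⟩

end facts

open Cfsg.Agent.Lib.Helper33.PCore in
/-- The abstract argument: a subgroup `D` of the Sylow subgroup `S` with the characteristic
properties of `D*(S)` is normal in a `p`-stable group with `C(O_p) ≤ O_p`. -/
theorem core {G : Type*} [Group G] [Finite G] {p : ℕ} [Fact p.Prime]
    (hc : Subgroup.centralizer (Cfsg.pCore p G : Set G) ≤ Cfsg.pCore p G)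
    (hst : ∀ (P : Subgroup G) [P.Normal], IsPGroup p P → Cfsg.IsPStableOn p P) (S : Sylow p G)
    (D : Subgroup G)
    (hDab : ∀ a ∈ D, ∀ b ∈ D, a * b = b * a)
    (hDn : ∀ s ∈ (S : Subgroup G), ∀ d ∈ D, s * d * s⁻¹ ∈ D)
    (hDprop : ∀ x ∈ (S : Subgroup G),
      (∀ a ∈ D, ∀ a' ∈ D, a' * ⁅a, x⁆ = ⁅a, x⁆ * a') →
      (∀ a ∈ D, x * ⁅a, x⁆ = ⁅a, x⁆ * x) → ∀ a ∈ D, a * x = x * a)
    (hDmax : ∀ W : Subgroup G, W ≤ (S : Subgroup G) → (∀ a ∈ W, ∀ b ∈ W, a * b = b * a) →
      (∀ x ∈ (S : Subgroup G), (∀ w ∈ W, ∀ i j : ℤ, ⁅⁅w, x ^ i⁆, x ^ j⁆ = 1) →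
        ∀ a ∈ W, a * x = x * a) → W ≤ D) :
    D.Normal := by
  have hQn : (Cfsg.pCore p G).Normal := inferInstance
  have hQp : IsPGroup p ↥(Cfsg.pCore p G) := pCore_isPGroup
  have hQS : Cfsg.pCore p G ≤ (S : Subgroup G) := pCore_le_sylow S
  -- (a) `D ≤ O_p(G)`
  have hDQ : D ≤ Cfsg.pCore p G := by
    intro a ha
    have hquad : ⁅⁅Cfsg.pCore p G, Subgroup.zpowers a⁆, Subgroup.zpowers a⁆ = ⊥ := by
      rw [Subgroup.commutator_eq_bot_iff_le_centralizer, Subgroup.commutator_le]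
      intro q hq z hz
      have hzD : z ∈ D := (Subgroup.zpowers_le.2 ha) hz
      have h1 : ⁅q, z⁆ ∈ D := by
        rw [commutatorElement_def]
        exact mul_mem (hDn q (hQS hq) z hzD) (inv_mem hzD)
      rw [Subgroup.mem_centralizer_iff]
      intro y hy
      exact hDab y ((Subgroup.zpowers_le.2 ha) hy) _ h1
    have h2 := hst (Cfsg.pCore p G) hQp a hquad
    have hR : (Cfsg.pCore p (G ⧸ Subgroup.centralizer (Cfsg.pCore p G : Set G))).comap
        (QuotientGroup.mk' _) ≤ Cfsg.pCore p G := by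
      apply le_pCore
      intro r
      obtain ⟨k, hk⟩ := (pCore_isPGroup
        (G := G ⧸ Subgroup.centralizer (Cfsg.pCore p G : Set G)) (p := p))
        ⟨QuotientGroup.mk' _ r.1, r.2⟩
      have hk' : (r.1) ^ p ^ k ∈ Subgroup.centralizer (Cfsg.pCore p G : Set G) := by
        have h3 := congrArg Subtype.val hk
        rw [← QuotientGroup.eq_one_iff]
        simpa using h3
      obtain ⟨j, hj⟩ := hQp ⟨_, hc hk'⟩
      refine ⟨k + j, ?_⟩
      apply Subtype.ext
      have h4 := congrArg Subtype.val hj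
      simp only [Subgroup.coe_pow, Subgroup.coe_one] at h4 ⊢
      rw [pow_add, pow_mul]; exact h4
    exact hR h2
  have hconjQ : ∀ g : G, ∀ q ∈ Cfsg.pCore p G, g * q * g⁻¹ ∈ Cfsg.pCore p G :=
    fun g q hq => hQn.conj_mem q hq g
  -- conjugates of `D` commute with `D`
  have hcomm3 : ∀ g : G, ∀ a ∈ D, ∀ d ∈ D, a * (g * d * g⁻¹) = (g * d * g⁻¹) * a := by
    intro g a ha d hd
    have hy : g * d * g⁻¹ ∈ (S : Subgroup G) := hQS (hconjQ g d (hDQ hd))
    have key := hDprop (g * d * g⁻¹) hy ?_ ?_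
    · exact key a ha
    · intro a ha a' ha'
      have h1 : ⁅a, g * d * g⁻¹⁆ ∈ D := by
        rw [commutatorElement_def]
        have h2 := hDn (g * d * g⁻¹) hy a⁻¹ (inv_mem ha)
        have e : a * (g * d * g⁻¹) * a⁻¹ * (g * d * g⁻¹)⁻¹
            = a * ((g * d * g⁻¹) * a⁻¹ * (g * d * g⁻¹)⁻¹) := by group
        rw [e]; exact mul_mem ha h2
      exact hDab a' ha' _ h1
    · intro a ha
      have ha' : g⁻¹ * a * g ∈ (S : Subgroup G) := by
        have h2 := hconjQ g⁻¹ a (hDQ ha)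
        rw [inv_inv] at h2
        exact hQS h2
      obtain ⟨X, hX⟩ : ∃ X, X = (g⁻¹ * a * g) * d * (g⁻¹ * a * g)⁻¹ * d⁻¹ := ⟨_, rfl⟩
      have hXD : X ∈ D := by
        rw [hX]; exact mul_mem (hDn _ ha' d hd) (inv_mem hd)
      have e : ⁅a, g * d * g⁻¹⁆ = g * X * g⁻¹ := by
        rw [commutatorElement_def, hX]; group
      rw [e]
      have h5 := hDab d hd X hXD
      calc g * d * g⁻¹ * (g * X * g⁻¹) = g * (d * X) * g⁻¹ := by group
        _ = g * (X * d) * g⁻¹ := by rw [h5]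
        _ = g * X * g⁻¹ * (g * d * g⁻¹) := by group
  -- the normal closure `W`
  have hWQ : Subgroup.normalClosure (D : Set G) ≤ Cfsg.pCore p G :=
    Subgroup.normalClosure_le_normal hDQ
  have hWgen : ∀ x : G, (∀ g : G, ∀ d ∈ D, x * (g * d * g⁻¹) = (g * d * g⁻¹) * x) →
      ∀ w ∈ Subgroup.normalClosure (D : Set G), w * x = x * w := by
    intro x hx w hw
    have h1 : Subgroup.normalClosure (D : Set G) ≤ Subgroup.centralizer ({x} : Set G) := by
      unfold Subgroup.normalClosure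
      rw [Subgroup.closure_le]
      intro y hy
      rw [Group.mem_conjugatesOfSet_iff] at hy
      obtain ⟨d, hd, hconj⟩ := hy
      obtain ⟨g, rfl⟩ := isConj_iff.1 hconj
      rw [SetLike.mem_coe, Subgroup.mem_centralizer_iff]
      intro z hz
      rw [Set.mem_singleton_iff] at hz
      subst hz
      exact hx g d hd
    have h2 := Subgroup.mem_centralizer_iff.1 (h1 hw) x rfl
    exact h2.symm
  have hWab : ∀ a ∈ Subgroup.normalClosure (D : Set G),
      ∀ b ∈ Subgroup.normalClosure (D : Set G), a * b = b * a := by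
    intro a ha b hb
    have h1 : ∀ h : G, ∀ d' ∈ D, ∀ w ∈ Subgroup.normalClosure (D : Set G),
        w * (h * d' * h⁻¹) = (h * d' * h⁻¹) * w := by
      intro h d' hd'
      apply hWgen
      intro g d hd
      have h2 := hcomm3 (h⁻¹ * g) d' hd' d hd
      calc h * d' * h⁻¹ * (g * d * g⁻¹)
          = h * (d' * ((h⁻¹ * g) * d * (h⁻¹ * g)⁻¹)) * h⁻¹ := by group
        _ = h * (((h⁻¹ * g) * d * (h⁻¹ * g)⁻¹) * d') * h⁻¹ := by rw [h2]
        _ = g * d * g⁻¹ * (h * d' * h⁻¹) := by group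
    exact hWgen b (fun g d hd => h1 g d hd b hb) a ha
  have hWn : (Subgroup.normalClosure (D : Set G)).Normal := Subgroup.normalClosure_normal
  -- `W` has the defining property
  have hWD : Subgroup.normalClosure (D : Set G) ≤ D := by
    apply hDmax _ (hWQ.trans hQS) hWab
    intro x hxS hquad
    have hq1 : ⁅⁅Subgroup.normalClosure (D : Set G), Subgroup.zpowers x⁆, Subgroup.zpowers x⁆
        = ⊥ := by
      rw [Subgroup.commutator_eq_bot_iff_le_centralizer, Subgroup.commutator_le]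
      intro w hw z hz
      obtain ⟨i, rfl⟩ := Subgroup.mem_zpowers_iff.1 hz
      rw [Subgroup.mem_centralizer_iff]
      intro y hy
      obtain ⟨j, rfl⟩ := Subgroup.mem_zpowers_iff.1 hy
      have h3 := hquad w hw i j
      rw [commutatorElement_eq_one_iff_commute] at h3
      exact h3.eq.symm
    have h2 := hst (Subgroup.normalClosure (D : Set G)) (hQp.to_le hWQ) x hq1
    have hdec : ∀ g : G, ∃ s ∈ (S : Subgroup G),
        ∃ c ∈ Subgroup.centralizer (Subgroup.normalClosure (D : Set G) : Set G),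
          g * x * g⁻¹ = s * c := by
      intro g
      have hn : (Cfsg.pCore p
          (G ⧸ Subgroup.centralizer (Subgroup.normalClosure (D : Set G) : Set G))).Normal :=
        inferInstance
      have h3 := hn.conj_mem _ h2 (QuotientGroup.mk g)
      have h4 := pCore_le_sylow (S.mapSurjective (QuotientGroup.mk'_surjective
        (Subgroup.centralizer (Subgroup.normalClosure (D : Set G) : Set G)))) h3
      rw [Sylow.coe_mapSurjective] at h4
      obtain ⟨s, hs, hsx⟩ := h4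
      refine ⟨s, hs, s⁻¹ * (g * x * g⁻¹), ?_, by group⟩
      exact QuotientGroup.eq.1 hsx
    have hxc : ∀ g : G, ∀ d ∈ D, x * (g * d * g⁻¹) = (g * d * g⁻¹) * x := by
      intro g d hd
      obtain ⟨s, hs, c, hcC, hsc⟩ := hdec g⁻¹
      rw [inv_inv] at hsc
      obtain ⟨x', hx'def⟩ : ∃ x', x' = g⁻¹ * x * g := ⟨_, rfl⟩
      rw [← hx'def] at hsc
      have hcW : ∀ w ∈ Subgroup.normalClosure (D : Set G), c * w = w * c :=
        fun w hw => ((Subgroup.mem_centralizer_iff.1 hcC) w hw).symm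
      have hsD := hDprop s hs ?_ ?_
      · have h5 := hsD d hd
        have h6 := hcW d (Subgroup.subset_normalClosure hd)
        have hx' : x = g * (s * c) * g⁻¹ := by rw [← hsc, hx'def]; group
        rw [hx']
        calc g * (s * c) * g⁻¹ * (g * d * g⁻¹) = g * (s * (c * d)) * g⁻¹ := by group
          _ = g * (s * (d * c)) * g⁻¹ := by rw [h6]
          _ = g * ((s * d) * c) * g⁻¹ := by group
          _ = g * ((d * s) * c) * g⁻¹ := by rw [h5]
          _ = g * d * g⁻¹ * (g * (s * c) * g⁻¹) := by group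
      · intro a ha a' ha'
        have h1 : ⁅a, s⁆ ∈ D := by
          rw [commutatorElement_def]
          have h3 := hDn s hs a⁻¹ (inv_mem ha)
          have e : a * s * a⁻¹ * s⁻¹ = a * (s * a⁻¹ * s⁻¹) := by group
          rw [e]; exact mul_mem ha h3
        exact hDab a' ha' _ h1
      · intro a ha
        have haW : a ∈ Subgroup.normalClosure (D : Set G) := Subgroup.subset_normalClosure ha
        -- `⁅a, s⁆ = ⁅a, x'⁆`
        have h7 := hcW a⁻¹ (inv_mem haW)
        have e1 : ⁅a, s⁆ = ⁅a, x'⁆ := by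
          rw [commutatorElement_def, commutatorElement_def, hsc]
          calc a * s * a⁻¹ * s⁻¹ = a * s * (a⁻¹ * c) * c⁻¹ * s⁻¹ := by group
            _ = a * s * (c * a⁻¹) * c⁻¹ * s⁻¹ := by rw [h7]
            _ = a * (s * c) * a⁻¹ * (s * c)⁻¹ := by group
        -- quadratic action of `x'`
        have h8 := hquad (g * a * g⁻¹) (hWn.conj_mem a haW g) 1 1
        rw [zpow_one, commutatorElement_eq_one_iff_commute] at h8
        have h9 : x' * ⁅a, x'⁆ = ⁅a, x'⁆ * x' := by
          have e2 : x' * ⁅a, x'⁆ = g⁻¹ * (x * ⁅g * a * g⁻¹, x⁆) * g := by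
            rw [hx'def, commutatorElement_def, commutatorElement_def]; group
          have e3 : ⁅a, x'⁆ * x' = g⁻¹ * (⁅g * a * g⁻¹, x⁆ * x) * g := by
            rw [hx'def, commutatorElement_def, commutatorElement_def]; group
          rw [e2, e3, h8.eq]
        have hw' : ⁅a, x'⁆ ∈ Subgroup.normalClosure (D : Set G) := by
          rw [commutatorElement_def]
          have h10 := hWn.conj_mem a⁻¹ (inv_mem haW) x'
          have e : a * x' * a⁻¹ * x'⁻¹ = a * (x' * a⁻¹ * x'⁻¹) := by group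
          rw [e]; exact mul_mem haW h10
        have h11 := hcW _ hw'
        rw [e1]
        have hs' : s = x' * c⁻¹ := by rw [hsc]; group
        rw [hs']
        obtain ⟨w, hwdef⟩ : ∃ w, w = ⁅a, x'⁆ := ⟨_, rfl⟩
        rw [← hwdef] at h9 h11 ⊢
        calc x' * c⁻¹ * w = x' * (c⁻¹ * (w * c) * c⁻¹) := by group
          _ = x' * (c⁻¹ * (c * w) * c⁻¹) := by rw [h11]
          _ = (x' * w) * c⁻¹ := by group
          _ = (w * x') * c⁻¹ := by rw [h9]
          _ = w * (x' * c⁻¹) := by group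
    intro a ha
    exact hWgen x hxc a ha
  have hEq : D = Subgroup.normalClosure (D : Set G) :=
    le_antisymm Subgroup.le_normalClosure hWD
  rw [hEq]
  exact hWn

/-- The D*-Theorem. For a finite p-group S let D*(S) be the subgroup generated by the abelian subgroups A of S such that every x ∈ S with ⟨A, x⟩ of nilpotency class at most two centralizes A. Let p be an odd prime and H a finite p-stable group with Sylow p-subgroup S. Here H is p-stable in the following sense: the largest normal p-subgroup O_p(H) contains its centralizer in H, and for every normal p-subgroup P of H, every element acting quadratically on P has image in O_p(H/C_H(P)). Then D*(S) is a normal subgroup of H. -/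
theorem result {G : Type*} [Group G] [Finite G] {p : ℕ} [Fact p.Prime] (hp : p ≠ 2)
    (hc : Subgroup.centralizer (Cfsg.pCore p G : Set G) ≤ Cfsg.pCore p G)
    (hst : ∀ (P : Subgroup G) [P.Normal], IsPGroup p P → Cfsg.IsPStableOn p P) (S : Sylow p G) :
    (Cfsg.dStarOf (S : Subgroup G)).Normal := by
  haveI : Group.IsNilpotent ↥(S : Subgroup G) := S.2.isNilpotent
  exact core hc hst S _ (dStarOf_comm (S : Subgroup G)) (dStarOf_conj_mem (S : Subgroup G))
    (dStarOf_prop (S : Subgroup G)) (le_dStarOf (S : Subgroup G))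

end Cfsg.Agent.S3060
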