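import Cfsg.Statements.S3062
import Cfsg.Agent.Lib.Helper51.DStar
import Cfsg.Agent.Lib.Helper51.Replacement

set_option autoImplicit false
open Cfsg

namespace Cfsg.Agent.S3062

open scoped commutatorElement
open Cfsg.Agent.Lib.Helper51.DStar Cfsg.Agent.Lib.Helper51.Replacement

/-- The defining family of `D*` is invariant under automorphisms. -/
theorem family_map {S : Type*} [Group S] (φ : S ≃* S) {A : Subgroup S}
    (hA : A ∈ Cfsg.dStarFamily S) : A.map φ.toMonoidHom ∈ Cfsg.dStarFamily S := by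
  have hAc := hA.1
  refine ⟨inferInstance, ?_⟩
  intro x hx a ha
  obtain ⟨a₀, ha₀, rfl⟩ := ha
  have hx' : ⁅⁅A ⊔ Subgroup.zpowers (φ.symm x), A ⊔ Subgroup.zpowers (φ.symm x)⁆,
      A ⊔ Subgroup.zpowers (φ.symm x)⁆ = ⊥ := by
    have e : (A ⊔ Subgroup.zpowers (φ.symm x)).map φ.toMonoidHom
        = A.map φ.toMonoidHom ⊔ Subgroup.zpowers x := by
      rw [Subgroup.map_sup, MonoidHom.map_zpowers]
      simp
    have h := hx
    rw [← e, ← Subgroup.map_commutator, ← Subgroup.map_commutator] at h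
    exact (Subgroup.map_eq_bot_iff_of_injective _ φ.injective).1 h
  have h1 := hA.2 (φ.symm x) hx' a₀ ha₀
  have h2 := congrArg φ h1
  simpa using h2

/-- `D*(S)` is a normal subgroup. -/
theorem dStar_normal {S : Type*} [Group S] : (Cfsg.dStar S).Normal := by
  constructor
  intro n hn g
  have hle : Cfsg.dStar S ≤ (Cfsg.dStar S).comap (MulAut.conj g).toMonoidHom := by
    apply sSup_le
    intro A hA
    rw [← Subgroup.map_le_iff_le_comap]
    exact le_sSup (family_map (MulAut.conj g) hA)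
  have := hle hn
  simpa [Subgroup.mem_comap] using this

/-- An abelian subgroup centralizing an abelian subgroup of maximal order lies in it. -/
theorem le_of_commute_maxAbelian {S : Type*} [Group S] [Finite S] (B : Subgroup S)
    (hB : B ∈ Cfsg.maxAbelianSubgroups S) (D : Subgroup S)
    (hDc : ∀ d ∈ D, ∀ d' ∈ D, d * d' = d' * d) (h : ∀ d ∈ D, ∀ b ∈ B, d * b = b * d) : D ≤ B := by
  have hBel := isMulCommutative_iff_of_setLike.1 hB.1
  have hcomm : IsMulCommutative ↥(B ⊔ D) := by
    have hcl : B ⊔ D = Subgroup.closure ((B : Set S) ∪ (D : Set S)) := by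
      rw [Subgroup.closure_union, Subgroup.closure_eq, Subgroup.closure_eq]
    rw [hcl]
    apply Subgroup.isMulCommutative_closure
    intro s hs t ht
    rcases hs with hs | hs <;> rcases ht with ht | ht
    · exact hBel s hs t ht
    · exact (h t ht s hs).symm
    · exact h s hs t ht
    · exact hDc s hs t ht
  have hcard := hB.2 (B ⊔ D) hcomm
  have h2 : B = B ⊔ D := Subgroup.eq_of_le_of_card_ge le_sup_left hcard
  exact le_sup_right.trans (le_of_eq h2.symm)

/-- `D*(S)` centralizes every abelian subgroup of maximal order. -/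
theorem dStar_commute_maxAbelian {S : Type*} [Group S] [Finite S] [Group.IsNilpotent S] :
    ∀ B ∈ Cfsg.maxAbelianSubgroups S, ∀ d ∈ Cfsg.dStar S, ∀ b ∈ B, d * b = b * d := by
  classical
  by_contra hcon
  have hne : Nonempty {B : Subgroup S // B ∈ Cfsg.maxAbelianSubgroups S ∧
      ¬ (∀ d ∈ Cfsg.dStar S, ∀ b ∈ B, d * b = b * d)} := by
    by_contra h
    apply hcon
    intro B hB
    by_contra h2
    exact h ⟨⟨B, hB, h2⟩⟩
  obtain ⟨B, hBmax⟩ := Finite.exists_max
    (fun B : {B : Subgroup S // B ∈ Cfsg.maxAbelianSubgroups S ∧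
      ¬ (∀ d ∈ Cfsg.dStar S, ∀ b ∈ B, d * b = b * d)} =>
        Nat.card (B.1 ⊓ Cfsg.dStar S : Subgroup S))
  obtain ⟨B, hB, hBbad⟩ := B
  have hDfam : Cfsg.dStar S ∈ Cfsg.dStarFamily S := dStar_mem_family
  have hDn : (Cfsg.dStar S).Normal := dStar_normal
  have hDc : IsMulCommutative ↥(Cfsg.dStar S) := hDfam.1
  have hDel : ∀ d ∈ Cfsg.dStar S, ∀ d' ∈ Cfsg.dStar S, d * d' = d' * d :=
    isMulCommutative_iff_of_setLike.1 hDc
  have hBel : ∀ b ∈ B, ∀ b' ∈ B, b * b' = b' * b := isMulCommutative_iff_of_setLike.1 hB.1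
  have hnot : ¬ Cfsg.dStar S ≤ Subgroup.normalizer (B : Set S) := by
    intro hDN
    apply hBbad
    intro d hd b hb
    refine hDfam.2 b ?_ d hd
    apply class_two_sup_zpowers (Cfsg.dStar S) b hDel
    · intro d hd d' hd'
      have hc : ⁅d, b⁆ ∈ Cfsg.dStar S := by
        have e : ⁅d, b⁆ = d * (b * d⁻¹ * b⁻¹) := by simp only [commutatorElement_def]; group
        rw [e]
        exact mul_mem hd (hDn.conj_mem _ (inv_mem hd) b)
      exact hDel d' hd' _ hc
    · intro d hd
      have hc : ⁅d, b⁆ ∈ B := by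
        rw [commutatorElement_def]
        exact mul_mem ((Subgroup.mem_normalizer_iff.1 (hDN hd) b).1 hb) (inv_mem hb)
      exact hBel b hb _ hc
  obtain ⟨Bs, hBs, hlt, hBsN, _⟩ := thompson_replacement (Cfsg.dStar S) hDn hDc B hB hnot
  have hgood : ∀ d ∈ Cfsg.dStar S, ∀ b ∈ Bs, d * b = b * d := by
    by_contra hbad
    have h1 := hBmax ⟨Bs, hBs, hbad⟩
    have h2 : B ⊓ Cfsg.dStar S = Bs ⊓ Cfsg.dStar S := Subgroup.eq_of_le_of_card_ge hlt.le h1
    exact hlt.ne h2
  have hle := le_of_commute_maxAbelian Bs hBs (Cfsg.dStar S) hDel hgood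
  exact hnot (hle.trans hBsN)

/-- Let S be a finite p-group, J(S) the subgroup generated by the abelian subgroups of S of largest order and Z(J(S)) its centre. Then Z(S) ≤ D*(S) ≤ Z(J(S)), and every maximal normal abelian subgroup of S contains D*(S). -/
theorem result {S : Type*} [Group S] [Finite S] {p : ℕ} [Fact p.Prime]
    (hS : IsPGroup p S) :
    Subgroup.center S ≤ Cfsg.dStar S ∧
    Cfsg.dStar S ≤ Cfsg.thompsonSubgroupA S ⊓ Subgroup.centralizer (Cfsg.thompsonSubgroupA S : Set S) ∧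
    ∀ A : Subgroup S, A.Normal → IsMulCommutative A →
      (∀ B : Subgroup S, B.Normal → IsMulCommutative B → A ≤ B → B = A) → Cfsg.dStar S ≤ A := by
  classical
  have hnil := hS.isNilpotent
  refine ⟨?_, ?_, ?_⟩
  · apply le_sSup
    refine ⟨inferInstance, ?_⟩
    intro x _ a ha
    exact ((Subgroup.mem_center_iff.1 ha) x).symm
  · have hK := dStar_commute_maxAbelian (S := S)
    have hDel : ∀ d ∈ Cfsg.dStar S, ∀ d' ∈ Cfsg.dStar S, d * d' = d' * d := dStar_commute
    have hne : Nonempty {B : Subgroup S // IsMulCommutative B} := ⟨⟨⊥, inferInstance⟩⟩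
    obtain ⟨B₀, hB₀⟩ := Finite.exists_max
      (fun B : {B : Subgroup S // IsMulCommutative B} => Nat.card B.1)
    have hB₀mem : B₀.1 ∈ Cfsg.maxAbelianSubgroups S := ⟨B₀.2, fun B hB => hB₀ ⟨B, hB⟩⟩
    refine le_inf ?_ ?_
    · exact (le_of_commute_maxAbelian B₀.1 hB₀mem _ hDel (hK _ hB₀mem)).trans (le_sSup hB₀mem)
    · rw [Subgroup.le_centralizer_iff]
      apply sSup_le
      intro B hB b hb
      rw [Subgroup.mem_centralizer_iff]
      intro d hd
      exact hK B hB d hd b hb
  · intro A hAn hAc hmax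
    exact dStar_le_of_maximal A hAn hAc hmax

end Cfsg.Agent.S3062
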