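import Cfsg.Statements.S3063
import Cfsg.Agent.Lib.Helper51.CardSup
import Cfsg.Agent.Lib.Helper51.Replacement

set_option autoImplicit false
open Cfsg

namespace Cfsg.Agent.S3063

open scoped commutatorElement
open Cfsg.Agent.Lib.Helper51.CardSup Cfsg.Agent.Lib.Helper51.Replacement

variable {S : Type*} [Group S]

/-- Symmetry `[[g,b],b'] = [[g,b'],b]` for commuting `b`, `b'` whose commutators with `g` lie in
an abelian normal subgroup. -/
theorem double_commutator_symm' (D : Subgroup S) (hDn : D.Normal)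
    (hDc : ∀ d ∈ D, ∀ d' ∈ D, d * d' = d' * d) (g b b' : S) (hbb : b * b' = b' * b)
    (hd : ⁅g, b⁆ ∈ D) (hd' : ⁅g, b'⁆ ∈ D) :
    ⁅⁅g, b⁆, b'⁆ = ⁅⁅g, b'⁆, b⁆ := by
  have hP : b * ⁅g, b'⁆ * b⁻¹ ∈ D := hDn.conj_mem _ hd' b
  have hQ : b' * ⁅g, b⁆ * b'⁻¹ ∈ D := hDn.conj_mem _ hd b'
  have e1 : ⁅g, b⁆ * (b * ⁅g, b'⁆ * b⁻¹) = ⁅g, b * b'⁆ := by
    simp only [commutatorElement_def]; group
  have e2 : ⁅g, b'⁆ * (b' * ⁅g, b⁆ * b'⁻¹) = ⁅g, b' * b⁆ := by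
    simp only [commutatorElement_def]; group
  have hkey : ⁅g, b⁆ * (b * ⁅g, b'⁆ * b⁻¹) = ⁅g, b'⁆ * (b' * ⁅g, b⁆ * b'⁻¹) := by
    rw [e1, e2, hbb]
  have hcomm : (b' * ⁅g, b⁆ * b'⁻¹) * (b * ⁅g, b'⁆ * b⁻¹)⁻¹
      = (b * ⁅g, b'⁆ * b⁻¹)⁻¹ * (b' * ⁅g, b⁆ * b'⁻¹) := hDc _ hQ _ (inv_mem hP)
  have l1 : ⁅⁅g, b⁆, b'⁆ = ⁅g, b⁆ * (b' * ⁅g, b⁆ * b'⁻¹)⁻¹ := by
    rw [commutatorElement_def ⁅g, b⁆ b']; group
  have l2 : ⁅⁅g, b'⁆, b⁆ = ⁅g, b'⁆ * (b * ⁅g, b'⁆ * b⁻¹)⁻¹ := by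
    rw [commutatorElement_def ⁅g, b'⁆ b]; group
  rw [l1, l2]
  calc ⁅g, b⁆ * (b' * ⁅g, b⁆ * b'⁻¹)⁻¹
      = (⁅g, b⁆ * (b * ⁅g, b'⁆ * b⁻¹)) * ((b * ⁅g, b'⁆ * b⁻¹)⁻¹ * (b' * ⁅g, b⁆ * b'⁻¹)⁻¹) := by
        group
    _ = (⁅g, b'⁆ * (b' * ⁅g, b⁆ * b'⁻¹)) * ((b * ⁅g, b'⁆ * b⁻¹)⁻¹ * (b' * ⁅g, b⁆ * b'⁻¹)⁻¹) := by
        rw [hkey]
    _ = ⁅g, b'⁆ * ((b' * ⁅g, b⁆ * b'⁻¹) * (b * ⁅g, b'⁆ * b⁻¹)⁻¹) * (b' * ⁅g, b⁆ * b'⁻¹)⁻¹ := by
        group
    _ = ⁅g, b'⁆ * ((b * ⁅g, b'⁆ * b⁻¹)⁻¹ * (b' * ⁅g, b⁆ * b'⁻¹)) * (b' * ⁅g, b⁆ * b'⁻¹)⁻¹ := by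
        rw [hcomm]
    _ = ⁅g, b'⁆ * (b * ⁅g, b'⁆ * b⁻¹)⁻¹ := by group

/-- A replacement lemma with an arbitrary element `g`: if `B` is abelian of maximal order, `D` is
an abelian normal subgroup and `[g, B] ⊆ D`, then `M C_B(M)` with `M = ⟨[g, b]⟩` is again abelian
of maximal order. -/
theorem replacement_general [Finite S] (D : Subgroup S) (hDn : D.Normal)
    (hDc : IsMulCommutative D) (B : Subgroup S) (hB : B ∈ Cfsg.maxAbelianSubgroups S)
    (g : S) (hg : ∀ b ∈ B, ⁅g, b⁆ ∈ D) :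
    ∃ Bs ∈ Cfsg.maxAbelianSubgroups S, (∀ b ∈ B, ⁅g, b⁆ ∈ Bs) ∧ B ⊓ D ≤ Bs ∧
      Bs ≤ Subgroup.normalClosure (B : Set S) := by
  classical
  have hDel : ∀ d ∈ D, ∀ d' ∈ D, d * d' = d' * d := isMulCommutative_iff_of_setLike.1 hDc
  have hBel : ∀ a ∈ B, ∀ a' ∈ B, a * a' = a' * a := isMulCommutative_iff_of_setLike.1 hB.1
  obtain ⟨gens, hgens⟩ : ∃ gens : Set S, gens = {m | ∃ a ∈ B, m = ⁅g, a⁆} := ⟨_, rfl⟩
  obtain ⟨M, hM⟩ : ∃ M : Subgroup S, M = Subgroup.closure gens := ⟨_, rfl⟩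
  have hgM : ∀ a ∈ B, ⁅g, a⁆ ∈ M := by
    intro a ha
    rw [hM]
    exact Subgroup.subset_closure (by rw [hgens]; exact ⟨a, ha, rfl⟩)
  have hMD : M ≤ D := by
    rw [hM, Subgroup.closure_le]
    intro m hm
    rw [hgens] at hm
    obtain ⟨a, ha, rfl⟩ := hm
    exact hg a ha
  obtain ⟨C, hC⟩ : ∃ C : Subgroup S, C = B ⊓ Subgroup.centralizer (M : Set S) := ⟨_, rfl⟩
  have hCB : C ≤ B := by rw [hC]; exact inf_le_left
  have hCM : ∀ c ∈ C, ∀ m ∈ M, m * c = c * m := by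
    intro c hc m hm
    rw [hC] at hc
    exact (Subgroup.mem_centralizer_iff.1 hc.2) m hm
  have hcomm : IsMulCommutative ↥(M ⊔ C) := by
    have hcl : M ⊔ C = Subgroup.closure ((M : Set S) ∪ (C : Set S)) := by
      rw [Subgroup.closure_union, Subgroup.closure_eq, Subgroup.closure_eq]
    rw [hcl]
    apply Subgroup.isMulCommutative_closure
    intro s hs t ht
    rcases hs with hs | hs <;> rcases ht with ht | ht
    · exact hDel s (hMD hs) t (hMD ht)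
    · exact hCM t ht s hs
    · exact (hCM s hs t ht).symm
    · exact hBel s (hCB hs) t (hCB ht)
  have hncl : M ⊔ C ≤ Subgroup.normalClosure (B : Set S) := by
    refine sup_le ?_ (hCB.trans Subgroup.le_normalClosure)
    rw [hM, Subgroup.closure_le]
    intro m hm
    rw [hgens] at hm
    obtain ⟨a, ha, rfl⟩ := hm
    have e : ⁅g, a⁆ = (g * a * g⁻¹) * a⁻¹ := by simp only [commutatorElement_def]
    rw [e]
    have haN : a ∈ Subgroup.normalClosure (B : Set S) := Subgroup.le_normalClosure ha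
    exact mul_mem (Subgroup.normalClosure_normal.conj_mem a haN g) (inv_mem haN)
  have hBDC : B ⊓ D ≤ C := by
    intro z hz
    rw [hC]
    refine Subgroup.mem_inf.2 ⟨hz.1, ?_⟩
    rw [Subgroup.mem_centralizer_iff]
    intro m hm
    exact hDel m (hMD hm) z hz.2
  let ψ : B → ↥M ⧸ (B.subgroupOf M) := fun a =>
    QuotientGroup.mk (⟨⁅g, (a : S)⁆, hgM a a.2⟩ : ↥M)
  have hψ : ∀ a a' : B, ψ a = ψ a' → (a : S)⁻¹ * (a' : S) ∈ C := by
    intro a a' hab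
    have h1 := QuotientGroup.eq.1 hab
    rw [Subgroup.mem_subgroupOf] at h1
    have h1' : (⁅g, (a : S)⁆)⁻¹ * ⁅g, (a' : S)⁆ ∈ B := by simpa using h1
    have hk : (a : S)⁻¹ * (a' : S) ∈ B := mul_mem (inv_mem a.2) a'.2
    have e : (⁅g, (a : S)⁆)⁻¹ * ⁅g, (a' : S)⁆
        = (a : S) * ⁅g, (a : S)⁻¹ * (a' : S)⁆ * (a : S)⁻¹ := by
      simp only [commutatorElement_def]; group
    rw [e] at h1'
    have hu : ⁅g, (a : S)⁻¹ * (a' : S)⁆ ∈ B := by
      have := mul_mem (mul_mem (inv_mem a.2) h1') a.2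
      have e2 : (a : S)⁻¹ * ((a : S) * ⁅g, (a : S)⁻¹ * (a' : S)⁆ * (a : S)⁻¹) * (a : S)
          = ⁅g, (a : S)⁻¹ * (a' : S)⁆ := by group
      rwa [e2] at this
    rw [hC]
    refine Subgroup.mem_inf.2 ⟨hk, ?_⟩
    rw [hM, Subgroup.centralizer_closure, Subgroup.mem_centralizer_iff]
    intro m hm
    rw [hgens] at hm
    obtain ⟨b, hb, rfl⟩ := hm
    have hbk : b * ((a : S)⁻¹ * (a' : S)) = ((a : S)⁻¹ * (a' : S)) * b := hBel b hb _ hk
    have h3 := double_commutator_symm' D hDn hDel g b _ hbk (hg b hb) (hg _ hk)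
    have h4 : ⁅⁅g, (a : S)⁻¹ * (a' : S)⁆, b⁆ = 1 := by
      rw [commutatorElement_eq_one_iff_commute]
      exact hBel _ hu b hb
    rw [h4, commutatorElement_eq_one_iff_commute] at h3
    exact h3
  have hcount := card_le_card_mul_of_fibers B C ψ hψ
  have hQ : Nat.card (↥M ⧸ (B.subgroupOf M)) = B.relIndex M := rfl
  rw [hQ] at hcount
  have hrel : Nat.card (B ⊓ M : Subgroup S) * B.relIndex M = Nat.card M := by
    have := card_mul_relIndex (inf_le_right : B ⊓ M ≤ M)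
    rwa [Subgroup.inf_relIndex_right] at this
  have hsup := card_mul_card_le M C
  have hinf : Nat.card (M ⊓ C : Subgroup S) ≤ Nat.card (B ⊓ M : Subgroup S) :=
    Subgroup.card_le_of_le (le_inf (inf_le_right.trans hCB) inf_le_left)
  have hpos : 0 < Nat.card (B ⊓ M : Subgroup S) := Nat.card_pos
  have hcard : Nat.card B ≤ Nat.card (M ⊔ C : Subgroup S) := by
    refine Nat.le_of_mul_le_mul_right ?_ hpos
    calc Nat.card B * Nat.card (B ⊓ M : Subgroup S)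
        ≤ (B.relIndex M * Nat.card C) * Nat.card (B ⊓ M : Subgroup S) :=
          Nat.mul_le_mul_right _ hcount
      _ = (Nat.card (B ⊓ M : Subgroup S) * B.relIndex M) * Nat.card C := by ring
      _ = Nat.card M * Nat.card C := by rw [hrel]
      _ ≤ Nat.card (M ⊔ C : Subgroup S) * Nat.card (M ⊓ C : Subgroup S) := hsup
      _ ≤ Nat.card (M ⊔ C : Subgroup S) * Nat.card (B ⊓ M : Subgroup S) :=
          Nat.mul_le_mul_left _ hinf
  exact ⟨M ⊔ C, ⟨hcomm, fun B' hB' => (hB.2 B' hB').trans hcard⟩,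
    fun b hb => (le_sup_left : M ≤ M ⊔ C) (hgM b hb), hBDC.trans le_sup_right, hncl⟩

/-- A weak replacement Theorem for metabelian p-groups: let S be a finite p-group whose derived subgroup is abelian and A an abelian subgroup of S of largest possible order. Then the normal closure of A in S contains an abelian subgroup B of the same order as A that is normal in S. -/
theorem result {S : Type*} [Group S] [Finite S] {p : ℕ} [Fact p.Prime]
    (hS : IsPGroup p S) (hmeta : IsMulCommutative ↥(commutator S))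
    (A : Subgroup S) (hA : A ∈ Cfsg.maxAbelianSubgroups S) :
    ∃ B ∈ Cfsg.maxAbelianSubgroups S, B.Normal ∧ B ≤ Subgroup.normalClosure (A : Set S) := by
  classical
  have hne : Nonempty {B : Subgroup S // B ∈ Cfsg.maxAbelianSubgroups S ∧
      B ≤ Subgroup.normalClosure (A : Set S)} := ⟨⟨A, hA, Subgroup.le_normalClosure⟩⟩
  obtain ⟨B, hBmax⟩ := Finite.exists_max
    (fun B : {B : Subgroup S // B ∈ Cfsg.maxAbelianSubgroups S ∧
      B ≤ Subgroup.normalClosure (A : Set S)} => Nat.card (B.1 ⊓ commutator S : Subgroup S))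
  obtain ⟨B, hB, hBN⟩ := B
  have hDn : (commutator S).Normal := inferInstance
  have hcm : ∀ g b : S, ⁅g, b⁆ ∈ commutator S := by
    intro g b
    rw [commutator_def]
    exact Subgroup.commutator_mem_commutator (Subgroup.mem_top g) (Subgroup.mem_top b)
  refine ⟨B, hB, ?_, hBN⟩
  constructor
  intro b hb g
  obtain ⟨Bs, hBs, hgBs, hle, hncl⟩ :=
    replacement_general (commutator S) hDn hmeta B hB g (fun b _ => hcm g b)
  have hBsN : Bs ≤ Subgroup.normalClosure (A : Set S) :=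
    hncl.trans (Subgroup.normalClosure_le_normal hBN)
  have h1 := hBmax ⟨Bs, hBs, hBsN⟩
  have hle' : B ⊓ commutator S ≤ Bs ⊓ commutator S := le_inf hle inf_le_right
  have heq : B ⊓ commutator S = Bs ⊓ commutator S := Subgroup.eq_of_le_of_card_ge hle' h1
  have hmem : ⁅g, b⁆ ∈ B := by
    have : ⁅g, b⁆ ∈ Bs ⊓ commutator S := ⟨hgBs b hb, hcm g b⟩
    rw [← heq] at this
    exact this.1
  have e : g * b * g⁻¹ = ⁅g, b⁆ * b := by simp only [commutatorElement_def]; group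
  rw [e]
  exact mul_mem hmem hb

end Cfsg.Agent.S3063
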