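import Cfsg.Statements.S3064
import Cfsg.Agent.S0035
import Cfsg.Agent.Lib.Helper51.SylowGraph

set_option autoImplicit false
open Cfsg

namespace Cfsg.Agent.S3064

open scoped Pointwise

universe u

section lemmas

variable {G : Type u} [Group G] [Finite G] {p : ℕ} [Fact p.Prime]

/-- The uniqueness hypothesis holds for every `p`-subgroup containing `x`. -/
theorem unique_in_pgroup (S : Sylow p G) (x : G)
    (hU : ∀ g : G, g⁻¹ * x * g ∈ S → g⁻¹ * x * g = x)
    (T : Subgroup G) (hT : IsPGroup p T) (hxT : x ∈ T) (g : G) (hg : g⁻¹ * x * g ∈ T) :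
    g⁻¹ * x * g = x := by
  obtain ⟨S', hS'⟩ := hT.exists_le_sylow
  obtain ⟨k, hk⟩ := MulAction.exists_smul_eq G S S'
  have h1 : x ∈ ((k • S : Sylow p G) : Subgroup G) := hk ▸ hS' hxT
  rw [Cfsg.Agent.Lib.Helper51.SylowGraph.mem_smul_sylow_iff] at h1
  have h2 := hU k h1
  have h3 : g⁻¹ * x * g ∈ ((k • S : Sylow p G) : Subgroup G) := hk ▸ hS' hg
  rw [Cfsg.Agent.Lib.Helper51.SylowGraph.mem_smul_sylow_iff] at h3
  have e : k⁻¹ * (g⁻¹ * x * g) * k = (g * k)⁻¹ * x * (g * k) := by group
  rw [e] at h3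
  have h4 := hU (g * k) h3
  calc g⁻¹ * x * g = k * ((g * k)⁻¹ * x * (g * k)) * k⁻¹ := by group
    _ = k * x * k⁻¹ := by rw [h4]
    _ = k * (k⁻¹ * x * k) * k⁻¹ := by rw [h2]
    _ = x := by group

/-- A conjugate of `x` commuting with `x` equals `x`. -/
theorem eq_of_commute (S : Sylow p G) (x : G) (hx : x ∈ S)
    (hU : ∀ g : G, g⁻¹ * x * g ∈ S → g⁻¹ * x * g = x)
    (g : G) (hc : x * (g⁻¹ * x * g) = (g⁻¹ * x * g) * x) : g⁻¹ * x * g = x := by
  have hpx : IsPGroup p (Subgroup.zpowers x) := S.2.to_le (Subgroup.zpowers_le.2 hx)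
  have hpy : IsPGroup p (Subgroup.zpowers (g⁻¹ * x * g)) := by
    have h1 := hpx.map (MulAut.conj g⁻¹).toMonoidHom
    have e : (MulAut.conj g⁻¹).toMonoidHom x = g⁻¹ * x * g := by simp [MulAut.conj_apply]
    rw [MonoidHom.map_zpowers, e] at h1
    exact h1
  have hn : Subgroup.zpowers x ≤ Subgroup.normalizer (Subgroup.zpowers (g⁻¹ * x * g) : Set G) := by
    rw [Subgroup.zpowers_le, Subgroup.mem_normalizer_iff]
    intro h
    have hcomm : ∀ h ∈ Subgroup.zpowers (g⁻¹ * x * g), x * h * x⁻¹ = h := by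
      intro h hh
      obtain ⟨i, rfl⟩ := Subgroup.mem_zpowers_iff.1 hh
      have : Commute x ((g⁻¹ * x * g) ^ i) := (show Commute x (g⁻¹ * x * g) from hc).zpow_right i
      rw [this.eq]; group
    constructor
    · intro hh
      rw [hcomm h hh]; exact hh
    · intro hh
      have h2 := hcomm _ hh
      have h3 : h = x⁻¹ * (x * h * x⁻¹) * x := by group
      rw [h3]
      have h4 : x⁻¹ * (x * h * x⁻¹) * x = x * h * x⁻¹ := by
        calc x⁻¹ * (x * h * x⁻¹) * x = x⁻¹ * (x * (x * h * x⁻¹) * x⁻¹) * x := by rw [h2]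
          _ = x * h * x⁻¹ := by group
      rw [h4]; exact hh
  have hT := IsPGroup.to_sup_of_normal_right' hpx hpy hn
  exact unique_in_pgroup S x hU _ hT (Subgroup.mem_sup_left (Subgroup.mem_zpowers x)) g
    (Subgroup.mem_sup_right (Subgroup.mem_zpowers _))

end lemmas

/-- The inductive step. -/
theorem step {G : Type u} [Group G] [Finite G] {p : ℕ} [Fact p.Prime]
    (ih : ∀ (H : Type u) [Group H] [Finite H], Nat.card H < Nat.card G →
      ∀ (T : Sylow p H) (y : H), y ∈ T → (∀ g : H, g⁻¹ * y * g ∈ T → g⁻¹ * y * g = y) →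
      (∀ L : Subgroup H, (Nat.card L).Coprime p → (∀ h ∈ L, y * h * y⁻¹ ∈ L) →
        ∀ h ∈ L, y * h = h * y) →
      ∀ g : H, y * g = g * y)
    (S : Sylow p G) (x : G) (hx : x ∈ S)
    (hU : ∀ g : G, g⁻¹ * x * g ∈ S → g⁻¹ * x * g = x)
    (hb : ∀ H : Subgroup G, (Nat.card H).Coprime p → (∀ h ∈ H, x * h * x⁻¹ ∈ H) →
      ∀ h ∈ H, x * h = h * x) :
    ∀ g : G, x * g = g * x := by
  by_contra hcon
  push Not at hcon
  -- `x` is central in every proper subgroup containing it
  have hC : ∀ H : Subgroup G, H ≠ ⊤ → x ∈ H → ∀ h ∈ H, x * h = h * x := by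
    intro H hH hxH
    have hlt : Nat.card H < Nat.card G :=
      lt_of_le_of_ne (Subgroup.card_le_card_group H) (fun h => hH (Subgroup.eq_top_of_card_eq H h))
    have hpx : IsPGroup p (Subgroup.zpowers (⟨x, hxH⟩ : H)) :=
      (S.2.comap_subtype (K := H)).to_le (Subgroup.zpowers_le.2 (Subgroup.mem_subgroupOf.2 hx))
    obtain ⟨T, hT⟩ := hpx.exists_le_sylow
    have hxT : (⟨x, hxH⟩ : H) ∈ T := hT (Subgroup.mem_zpowers _)
    have key := ih H hlt T ⟨x, hxH⟩ hxT ?_ ?_
    · intro h hh
      exact congrArg Subtype.val (key ⟨h, hh⟩)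
    · intro g hg
      apply Subtype.ext
      have h1 := unique_in_pgroup S x hU ((T : Subgroup H).map H.subtype) (T.2.map _)
        ⟨_, hxT, rfl⟩ (g : G) ⟨_, hg, by simp⟩
      simpa using h1
    · intro L hL hinv l hl
      apply Subtype.ext
      have h1 := hb (L.map H.subtype)
        (by rw [Subgroup.card_map_of_injective (Subgroup.subtype_injective _)]; exact hL) ?_
        (l : G) ⟨l, hl, rfl⟩
      · exact h1
      · rintro _ ⟨l', hl', rfl⟩
        exact ⟨_, hinv l' hl', by simp⟩
  -- two distinct conjugates generate `G`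
  have hD : ∀ g : G, g⁻¹ * x * g ≠ x → Subgroup.closure ({x, g⁻¹ * x * g} : Set G) = ⊤ := by
    intro g hg
    by_contra hne
    have h1 := hC _ hne (Subgroup.subset_closure (by simp)) (g⁻¹ * x * g)
      (Subgroup.subset_closure (by simp))
    exact hg (eq_of_commute S x hx hU g h1)
  have hmemC : ∀ g : G, g ∈ Subgroup.centralizer ({x} : Set G) ↔ x * g = g * x := by
    intro g
    rw [Subgroup.mem_centralizer_iff]
    simp
  have hSC : ∀ s ∈ S, x * s = s * x := by
    intro s hs
    have h1 : s⁻¹ * x * s ∈ S := mul_mem (mul_mem (inv_mem hs) hx) hs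
    have h2 := hU s h1
    calc x * s = s * (s⁻¹ * x * s) := by group
      _ = s * x := by rw [h2]
  have hE2 : ∀ g : G, x * g ≠ g * x → ∀ u : G, x * u = u * x →
      x * (g⁻¹ * u * g) = (g⁻¹ * u * g) * x → ∀ h : G, h * u = u * h := by
    intro g hg u hu hgu h
    have hy : g⁻¹⁻¹ * x * g⁻¹ ≠ x := by
      intro h1
      apply hg
      rw [inv_inv] at h1
      calc x * g = (g * x * g⁻¹) * g := by rw [h1]
        _ = g * x := by group
    have htop := hD g⁻¹ hy
    have hle : Subgroup.closure ({x, g⁻¹⁻¹ * x * g⁻¹} : Set G)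
        ≤ Subgroup.centralizer ({u} : Set G) := by
      rw [Subgroup.closure_le]
      intro y hy'
      rw [SetLike.mem_coe, Subgroup.mem_centralizer_iff]
      intro w hw
      rw [Set.mem_singleton_iff] at hw
      subst hw
      simp only [Set.mem_insert_iff, Set.mem_singleton_iff] at hy'
      rcases hy' with rfl | rfl
      · exact hu.symm
      · rw [inv_inv]
        calc w * (g * x * g⁻¹) = g * ((g⁻¹ * w * g) * x) * g⁻¹ := by group
          _ = g * (x * (g⁻¹ * w * g)) * g⁻¹ := by rw [hgu]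
          _ = g * x * g⁻¹ * w := by group
    rw [htop] at hle
    have h2 := Subgroup.mem_centralizer_iff.1 (hle (Subgroup.mem_top h)) u rfl
    exact h2.symm
  obtain ⟨g₀, hg₀⟩ := hcon
  -- the quotient by the centre
  have hK1 : ∀ g : G, (QuotientGroup.mk' (Subgroup.center G)) g ∈
      (Subgroup.centralizer ({x} : Set G)).map (QuotientGroup.mk' (Subgroup.center G))
      ↔ x * g = g * x := by
    intro g
    constructor
    · rintro ⟨c, hc, hcg⟩
      have hc' := (hmemC c).1 hc
      have h1 : c⁻¹ * g ∈ Subgroup.center G := QuotientGroup.eq.1 hcg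
      have h2 := Subgroup.mem_center_iff.1 h1 x
      calc x * g = (x * c) * (c⁻¹ * g) := by group
        _ = (c * x) * (c⁻¹ * g) := by rw [hc']
        _ = c * (x * (c⁻¹ * g)) := by group
        _ = c * ((c⁻¹ * g) * x) := by rw [h2]
        _ = g * x := by group
    · intro h
      exact ⟨g, (hmemC g).2 h, rfl⟩
  have hFrob : Cfsg.IsFrobeniusComplement
      ((Subgroup.centralizer ({x} : Set G)).map (QuotientGroup.mk' (Subgroup.center G))) := by
    refine ⟨?_, ?_, ?_⟩
    · intro hbot
      have h1 := (hK1 x).2 rfl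
      rw [hbot, Subgroup.mem_bot] at h1
      have h2 : x ∈ Subgroup.center G := (QuotientGroup.eq_one_iff x).1 h1
      exact hg₀ ((Subgroup.mem_center_iff.1 h2 g₀).symm)
    · intro htop
      have h1 : (QuotientGroup.mk' (Subgroup.center G)) g₀ ∈
          (Subgroup.centralizer ({x} : Set G)).map (QuotientGroup.mk' (Subgroup.center G)) := by
        rw [htop]; exact Subgroup.mem_top _
      exact hg₀ ((hK1 g₀).1 h1)
    · intro gbar hgbar
      obtain ⟨g, rfl⟩ := QuotientGroup.mk'_surjective (Subgroup.center G) gbar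
      have hg : x * g ≠ g * x := fun h => hgbar ((hK1 g).2 h)
      rw [eq_bot_iff]
      intro ubar hub
      obtain ⟨hu1, hu2⟩ := Subgroup.mem_inf.1 hub
      obtain ⟨u, rfl⟩ := QuotientGroup.mk'_surjective (Subgroup.center G) ubar
      have hu := (hK1 u).1 hu1
      rw [Subgroup.mem_pointwise_smul_iff_inv_smul_mem] at hu2
      have e : (MulAut.conj ((QuotientGroup.mk' (Subgroup.center G)) g))⁻¹ •
          (QuotientGroup.mk' (Subgroup.center G)) u
          = (QuotientGroup.mk' (Subgroup.center G)) (g⁻¹ * u * g) := by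
        simp [MulAut.smul_def]
      rw [e] at hu2
      have hgu := (hK1 _).1 hu2
      have hcen : u ∈ Subgroup.center G := Subgroup.mem_center_iff.2 (hE2 g hg u hu hgu)
      rw [Subgroup.mem_bot]
      exact (QuotientGroup.eq_one_iff u).2 hcen
  obtain ⟨N, -, hNn, hNC⟩ := Cfsg.Agent.S0035.result _ hFrob
  have hF1 : ∀ f : G, (QuotientGroup.mk' (Subgroup.center G)) f ∈ N → x * f = f * x →
      f ∈ Subgroup.center G := by
    intro f hfN hfC
    have h1 : (QuotientGroup.mk' (Subgroup.center G)) f ∈ N ⊓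
        (Subgroup.centralizer ({x} : Set G)).map (QuotientGroup.mk' (Subgroup.center G)) :=
      ⟨hfN, (hK1 f).2 hfC⟩
    rw [hNC.disjoint.eq_bot, Subgroup.mem_bot] at h1
    exact (QuotientGroup.eq_one_iff f).1 h1
  have hF2 : ∀ g : G, ∃ f : G, (QuotientGroup.mk' (Subgroup.center G)) f ∈ N ∧
      ∃ c : G, x * c = c * x ∧ g = f * c := by
    intro g
    obtain ⟨⟨⟨nbar, hn⟩, ⟨cbar, hc⟩⟩, h, -⟩ :=
      (Subgroup.isComplement_iff_existsUnique.1 hNC) ((QuotientGroup.mk' (Subgroup.center G)) g)
    obtain ⟨f, rfl⟩ := QuotientGroup.mk'_surjective (Subgroup.center G) nbar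
    obtain ⟨c, rfl⟩ := QuotientGroup.mk'_surjective (Subgroup.center G) cbar
    have hc' := (hK1 c).1 hc
    have h1 : (f * c)⁻¹ * g ∈ Subgroup.center G := by
      apply QuotientGroup.eq.1
      simpa using h
    have h2 := Subgroup.mem_center_iff.1 h1 x
    refine ⟨f, hn, c * ((f * c)⁻¹ * g), ?_, by group⟩
    calc x * (c * ((f * c)⁻¹ * g)) = (x * c) * ((f * c)⁻¹ * g) := by group
      _ = (c * x) * ((f * c)⁻¹ * g) := by rw [hc']
      _ = c * (x * ((f * c)⁻¹ * g)) := by group
      _ = c * (((f * c)⁻¹ * g) * x) := by rw [h2]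
      _ = c * ((f * c)⁻¹ * g) * x := by group
  by_cases hcase : (N.comap (QuotientGroup.mk' (Subgroup.center G))) ⊔ Subgroup.zpowers x = ⊤
  · -- the centralizer of `x` is abelian: Burnside's transfer theorem applies
    have hFn : (N.comap (QuotientGroup.mk' (Subgroup.center G))).Normal := hNn.comap _
    have hCab : ∀ c : G, x * c = c * x → ∃ z ∈ Subgroup.center G, ∃ i : ℤ, c = z * x ^ i := by
      intro c hc
      have h1 : c ∈ ((N.comap (QuotientGroup.mk' (Subgroup.center G)) ⊔ Subgroup.zpowers x :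
          Subgroup G) : Set G) := by
        rw [hcase]; trivial
      rw [Subgroup.normal_mul] at h1
      obtain ⟨f, hf, z, hz, rfl⟩ := Set.mem_mul.1 h1
      obtain ⟨i, rfl⟩ := Subgroup.mem_zpowers_iff.1 hz
      refine ⟨f, hF1 f hf ?_, i, rfl⟩
      calc x * f = (x * (f * x ^ i)) * (x ^ i)⁻¹ := by group
        _ = ((f * x ^ i) * x) * (x ^ i)⁻¹ := by rw [hc]
        _ = f * x := by group
    have hP : Subgroup.normalizer ((S : Subgroup G) : Set G)
        ≤ Subgroup.centralizer ((S : Subgroup G) : Set G) := by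
      intro n hn
      have hn' : n⁻¹ ∈ Subgroup.normalizer ((S : Subgroup G) : Set G) := inv_mem hn
      rw [Subgroup.mem_normalizer_iff] at hn'
      have h1 : n⁻¹ * x * n⁻¹⁻¹ ∈ (S : Subgroup G) := (hn' x).1 hx
      rw [inv_inv] at h1
      have h2 := hU n h1
      have h3 : x * n = n * x := by
        calc x * n = n * (n⁻¹ * x * n) := by group
          _ = n * x := by rw [h2]
      obtain ⟨z, hz, i, rfl⟩ := hCab n h3
      rw [Subgroup.mem_centralizer_iff]
      intro s hs
      have h4 := hSC s hs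
      have h5 : s * x ^ i = x ^ i * s := ((show Commute s x from h4.symm).zpow_right i).eq
      have h6 := Subgroup.mem_center_iff.1 hz s
      calc s * (z * x ^ i) = (s * z) * x ^ i := by group
        _ = (z * s) * x ^ i := by rw [h6]
        _ = z * (s * x ^ i) := by group
        _ = z * (x ^ i * s) := by rw [h5]
        _ = z * x ^ i * s := by group
    have hK := MonoidHom.ker_transferSylow_isComplement' S hP
    have hcardK : (Nat.card (MonoidHom.transferSylow S hP).ker).Coprime p := by
      have h1 := hK.card_mul_card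
      have h2 := Subgroup.card_mul_index (S : Subgroup G)
      have h3 : Nat.card (MonoidHom.transferSylow S hP).ker = (S : Subgroup G).index := by
        have hpos : 0 < Nat.card (S : Subgroup G) := Nat.card_pos
        apply Nat.eq_of_mul_eq_mul_right hpos
        rw [h1, mul_comm, h2]
      rw [h3]
      exact ((Nat.Prime.coprime_iff_not_dvd (Fact.out)).2 S.not_dvd_index).symm
    have hKc := hb _ hcardK (fun h hh => (MonoidHom.normal_ker _).conj_mem h hh x)
    apply hg₀
    obtain ⟨⟨⟨k, hk⟩, ⟨s, hs⟩⟩, h, -⟩ := (Subgroup.isComplement_iff_existsUnique.1 hK) g₀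
    have h' : k * s = g₀ := h
    rw [← h']
    have h1 := hKc k hk
    have h2 := hSC s hs
    calc x * (k * s) = (x * k) * s := by group
      _ = (k * x) * s := by rw [h1]
      _ = k * (x * s) := by group
      _ = k * (s * x) := by rw [h2]
      _ = k * s * x := by group
  · -- `F ⟨x⟩` is proper: induction
    have hFx := hC _ hcase (Subgroup.mem_sup_right (Subgroup.mem_zpowers x))
    apply hg₀
    obtain ⟨f, hf, c, hc, rfl⟩ := hF2 g₀
    have h1 := hFx f (Subgroup.mem_sup_left hf)
    calc x * (f * c) = (x * f) * c := by group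
      _ = (f * x) * c := by rw [h1]
      _ = f * (x * c) := by group
      _ = f * (c * x) := by rw [hc]
      _ = f * c * x := by group

/-- The statement by strong induction on the order. -/
theorem main : ∀ (n : ℕ) (G : Type u) [Group G] [Finite G], Nat.card G = n →
    ∀ (p : ℕ) [Fact p.Prime] (S : Sylow p G) (x : G), x ∈ S →
    (∀ g : G, g⁻¹ * x * g ∈ S → g⁻¹ * x * g = x) →
    (∀ H : Subgroup G, (Nat.card H).Coprime p → (∀ h ∈ H, x * h * x⁻¹ ∈ H) →
      ∀ h ∈ H, x * h = h * x) →
    ∀ g : G, x * g = g * x := by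
  intro n
  induction n using Nat.strong_induction_on with
  | _ n ih =>
    intro G _ _ hn p _ S x hx hU hb
    apply step _ S x hx hU hb
    intro H _ _ hlt T y hy hU' hb'
    exact ih (Nat.card H) (hn ▸ hlt) H rfl p T y hy hU' hb'

/-- Let S be a Sylow p-subgroup of the finite group G and x an element of S such that (i) x is the only G-conjugate of x lying in S, and (ii) x centralizes every subgroup of order prime to p that it normalizes. Then x lies in the centre of G. -/
theorem result {G : Type*} [Group G] [Finite G] {p : ℕ} [Fact p.Prime]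
    (S : Sylow p G) (x : G) (hx : x ∈ S)
    (hU : ∀ g : G, g⁻¹ * x * g ∈ S → g⁻¹ * x * g = x)
    (hb : ∀ H : Subgroup G, (Nat.card H).Coprime p → (∀ h ∈ H, x * h * x⁻¹ ∈ H) → ∀ h ∈ H, x * h = h * x) :
    x ∈ Subgroup.center G := by
  rw [Subgroup.mem_center_iff]
  intro g
  exact (main _ G rfl p S x hx hU hb g).symm

end Cfsg.Agent.S3064
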