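import Mathlib
import Cfsg.Statements.S3074
import Cfsg.Agent.H37.QdBasic
import Cfsg.Agent.Lib.Helper47.Frat
import Cfsg.Agent.Lib.Helper63.PFrattini

set_option autoImplicit false
open Cfsg

namespace Cfsg.Agent.S3074

open Cfsg.Agent.H37
open scoped commutatorElement

/-- A nonabelian group of order `p^3` all of whose elements satisfy `x^p = 1` is extraspecial of
exponent `p`. -/
theorem extraspecial_of_card_cube {p : ℕ} [Fact p.Prime] {K : Type*} [Group K]
    (hcard : Nat.card K = p ^ 3) (hnc : ¬ ∀ a b : K, a * b = b * a)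
    (hexp : ∀ x : K, x ^ p = 1) :
    Cfsg.IsExtraspecial p K ∧ Monoid.exponent K = p := by
  have hp : p.Prime := Fact.out
  have hfin : Finite K :=
    Nat.finite_of_card_ne_zero (by rw [hcard]; exact pow_ne_zero _ hp.ne_zero)
  have hPG : IsPGroup p K := IsPGroup.of_card hcard
  have hnt : Nontrivial K := by
    rw [← Finite.one_lt_card_iff_nontrivial, hcard]
    exact one_lt_pow₀ hp.one_lt (by norm_num)
  have hZnt : Nontrivial (Subgroup.center K) := hPG.center_nontrivial
  have hZdvd : Nat.card (Subgroup.center K) ∣ p ^ 3 := by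
    rw [← hcard]; exact Subgroup.card_subgroup_dvd_card _
  obtain ⟨k, hk3, hk⟩ := (Nat.dvd_prime_pow hp).mp hZdvd
  have hZcard : Nat.card (Subgroup.center K) = p := by
    have hk0 : k ≠ 0 := by
      rintro rfl
      rw [pow_zero] at hk
      have : Subsingleton (Subgroup.center K) := (Nat.card_eq_one_iff_unique.mp hk).1
      exact not_subsingleton _ this
    have hk3' : k ≠ 3 := by
      rintro rfl
      have htop : Subgroup.center K = ⊤ := Subgroup.eq_top_of_card_eq _ (hk.trans hcard.symm)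
      apply hnc
      intro a b
      have hb : b ∈ Subgroup.center K := by rw [htop]; trivial
      exact Subgroup.mem_center_iff.mp hb a
    have hk2 : k ≠ 2 := by
      rintro rfl
      have hq : Nat.card (K ⧸ Subgroup.center K) = p := by
        have h1 := Subgroup.card_eq_card_quotient_mul_card_subgroup (Subgroup.center K)
        rw [hcard, hk] at h1
        have h2 : p ^ 2 * p = p ^ 2 * Nat.card (K ⧸ Subgroup.center K) := by
          rw [mul_comm _ (Nat.card _), ← h1]; ring
        exact (Nat.eq_of_mul_eq_mul_left (pow_pos hp.pos 2) h2).symm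
      have hcyc : IsCyclic (K ⧸ Subgroup.center K) := isCyclic_of_prime_card hq
      apply hnc
      exact commutative_of_cyclic_center_quotient (QuotientGroup.mk' (Subgroup.center K))
        (by rw [QuotientGroup.ker_mk'])
    have hk1 : k = 1 := by omega
    rw [hk, hk1, pow_one]
  have hqcard : Nat.card (K ⧸ Subgroup.center K) = p ^ 2 := by
    have h1 := Subgroup.card_eq_card_quotient_mul_card_subgroup (Subgroup.center K)
    rw [hcard, hZcard] at h1
    have h2 : p * p ^ 2 = p * Nat.card (K ⧸ Subgroup.center K) := by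
      rw [mul_comm p (Nat.card _), ← h1]; ring
    exact (Nat.eq_of_mul_eq_mul_left hp.pos h2).symm
  have hqcomm : ∀ a b : K ⧸ Subgroup.center K, a * b = b * a :=
    IsPGroup.commutative_of_card_eq_prime_sq hqcard
  have hcomm_le : commutator K ≤ Subgroup.center K := by
    rw [commutator_def, Subgroup.commutator_le]
    intro a _ b _
    rw [← QuotientGroup.eq_one_iff, commutatorElement_def]
    simp only [QuotientGroup.mk_mul, QuotientGroup.mk_inv]
    rw [hqcomm (a : K ⧸ Subgroup.center K) b]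
    simp
  have hcomm_ne : commutator K ≠ ⊥ := by
    intro hbot
    apply hnc
    intro a b
    have hab : ⁅a, b⁆ ∈ commutator K := by
      rw [commutator_def]
      exact Subgroup.commutator_mem_commutator (Subgroup.mem_top a) (Subgroup.mem_top b)
    rw [hbot, Subgroup.mem_bot] at hab
    exact commutatorElement_eq_one_iff_mul_comm.mp hab
  have hcomm_eq : commutator K = Subgroup.center K := by
    apply Subgroup.eq_of_le_of_card_ge hcomm_le
    have hd : Nat.card (commutator K) ∣ p := by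
      rw [← hZcard]; exact Subgroup.card_dvd_of_le hcomm_le
    rcases (Nat.dvd_prime hp).mp hd with h1 | h1
    · exact absurd (Subgroup.card_eq_one.mp h1) hcomm_ne
    · rw [hZcard, h1]
  have hfrat : frattini K = Subgroup.center K := by
    apply le_antisymm
    · exact Cfsg.Agent.Lib.Helper47.Frat.frattini_le_of_pow_comm (Subgroup.center K)
        (fun x => by rw [hexp x]; exact Subgroup.one_mem _) hcomm_le
    · rw [← hcomm_eq]; exact Cfsg.Agent.Lib.Helper63.PFrattini.commutator_le_frattini hPG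
  refine ⟨⟨⟨hPG, hfrat, hcomm_eq⟩, hZcard⟩, ?_⟩
  have hd : Monoid.exponent K ∣ p := Monoid.exponent_dvd_of_forall_pow_eq_one hexp
  rcases (Nat.dvd_prime hp).mp hd with h1 | h1
  · exact absurd (Monoid.exp_eq_one_iff.mp h1) (not_subsingleton K)
  · exact h1

theorem card_heis_ge (p : ℕ) [Fact p.Prime] (hp : p ≠ 2) : p ^ 3 ≤ Nat.card (heis p hp) := by
  let f : ZMod p × ZMod p × ZMod p → heis p hp := fun t =>
    ⟨⟨!![1, t.1, t.2.1; 0, 1, t.2.2; 0, 0, 1], by simp [Matrix.det_fin_three]⟩, by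
      refine ⟨?_, ?_, ?_, ?_, ?_, ?_⟩ <;> simp⟩
  have hinj : Function.Injective f := by
    intro s t hst
    have h : (!![1, s.1, s.2.1; 0, 1, s.2.2; 0, 0, 1] : Matrix (Fin 3) (Fin 3) (ZMod p)) =
        !![1, t.1, t.2.1; 0, 1, t.2.2; 0, 0, 1] :=
      congrArg (fun g : heis p hp => (g.1 : Matrix (Fin 3) (Fin 3) (ZMod p))) hst
    have h01 := congrFun (congrFun h 0) 1
    have h02 := congrFun (congrFun h 0) 2
    have h12 := congrFun (congrFun h 1) 2
    simp at h01 h02 h12
    exact Prod.ext h01 (Prod.ext h02 h12)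
  have hc : Nat.card (ZMod p × ZMod p × ZMod p) = p ^ 3 := by
    rw [Nat.card_prod, Nat.card_prod, Nat.card_zmod]; ring
  rw [← hc]
  exact Nat.card_le_card_of_injective f hinj

theorem card_SL3_not_dvd (p : ℕ) [Fact p.Prime] :
    ¬ p ^ 4 ∣ Nat.card (Matrix.SpecialLinearGroup (Fin 3) (ZMod p)) := by
  have hp : p.Prime := Fact.out
  intro h
  have h1 : Nat.card (Matrix.SpecialLinearGroup (Fin 3) (ZMod p)) ∣
      Nat.card (GL (Fin 3) (ZMod p)) :=
    Subgroup.card_dvd_of_injective Matrix.SpecialLinearGroup.toGL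
      Matrix.SpecialLinearGroup.toGL_injective
  have h2 := h.trans h1
  rw [Matrix.card_GL_field, ZMod.card] at h2
  have hprod : ∏ i : Fin 3, (p ^ 3 - p ^ (i : ℕ)) =
      (p ^ 3 - 1) * (p ^ 3 - p) * (p ^ 3 - p ^ 2) := by
    rw [Fin.prod_univ_three]
    simp
  rw [hprod] at h2
  have e1 : p ^ 3 - p = p * (p ^ 2 - 1) := by
    rw [Nat.mul_sub]; congr 1 <;> ring
  have e2 : p ^ 3 - p ^ 2 = p ^ 2 * (p - 1) := by
    rw [Nat.mul_sub]; congr 1 <;> ring
  rw [e1, e2] at h2
  have e3 : (p ^ 3 - 1) * (p * (p ^ 2 - 1)) * (p ^ 2 * (p - 1)) =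
      p ^ 3 * ((p ^ 3 - 1) * (p ^ 2 - 1) * (p - 1)) := by ring
  have e4 : p ^ 4 = p ^ 3 * p := by ring
  rw [e3, e4] at h2
  have h3 : p ∣ (p ^ 3 - 1) * (p ^ 2 - 1) * (p - 1) :=
    Nat.dvd_of_mul_dvd_mul_left (pow_pos hp.pos 3) h2
  have hone : ∀ n : ℕ, n ≠ 0 → ¬ p ∣ p ^ n - 1 := by
    intro n hn hd
    have h6 : p ∣ (p ^ n - 1) + 1 := by
      rw [Nat.sub_add_cancel (Nat.one_le_pow _ _ hp.pos)]
      exact dvd_pow_self p hn
    have h7 : p ∣ 1 := (Nat.dvd_add_right hd).mp h6
    exact hp.one_lt.ne' (Nat.dvd_one.mp h7)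
  rcases (Nat.Prime.dvd_mul hp).mp h3 with h4 | h4
  · rcases (Nat.Prime.dvd_mul hp).mp h4 with h5 | h5
    · exact hone 3 (by norm_num) h5
    · exact hone 2 (by norm_num) h5
  · have h5 := hone 1 (by norm_num)
    rw [pow_one] at h5
    exact h5 h4

/-- Let p be an odd prime. A Sylow p-subgroup of Qd(p), the split extension of an elementary abelian group of order p² by SL₂(p) acting naturally, is extraspecial of order p³ and exponent p. -/
theorem result (p : ℕ) [Fact p.Prime] (hp : p ≠ 2) (P : Sylow p ↥(Cfsg.qd p)) :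
    Cfsg.IsExtraspecial p ↥P ∧ Nat.card P = p ^ 3 ∧ Monoid.exponent ↥P = p := by
  have hpp : p.Prime := Fact.out
  have hHp : IsPGroup p ((heis p hp).subgroupOf (Cfsg.qd p)) :=
    (heis_isPGroup p hp).comap_of_injective _ (Subgroup.subtype_injective _)
  have hHcard : Nat.card ((heis p hp).subgroupOf (Cfsg.qd p)) = Nat.card (heis p hp) :=
    Nat.card_congr (Subgroup.subgroupOfEquivOfLe (heis_le_qd p hp)).toEquiv
  obtain ⟨Q, hQ⟩ := hHp.exists_le_sylow
  obtain ⟨k, hk⟩ : ∃ k, Nat.card Q = p ^ k := IsPGroup.iff_card.mp Q.isPGroup'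
  have hk3 : k ≤ 3 := by
    by_contra hcon
    push Not at hcon
    apply card_SL3_not_dvd p
    have h1 : p ^ 4 ∣ Nat.card Q := by
      rw [hk]; exact pow_dvd_pow p hcon
    exact h1.trans ((Subgroup.card_subgroup_dvd_card (Q : Subgroup (Cfsg.qd p))).trans
      (Subgroup.card_subgroup_dvd_card (Cfsg.qd p)))
  have hge : p ^ 3 ≤ Nat.card Q := by
    calc p ^ 3 ≤ Nat.card (heis p hp) := card_heis_ge p hp
      _ = Nat.card ((heis p hp).subgroupOf (Cfsg.qd p)) := hHcard.symm
      _ ≤ Nat.card Q := Subgroup.card_le_of_le hQ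
  have hQcard : Nat.card Q = p ^ 3 := by
    apply le_antisymm
    · rw [hk]; exact Nat.pow_le_pow_right hpp.pos hk3
    · exact hge
  have hQH : (heis p hp).subgroupOf (Cfsg.qd p) = (Q : Subgroup (Cfsg.qd p)) := by
    apply Subgroup.eq_of_le_of_card_ge hQ
    calc Nat.card (Q : Subgroup (Cfsg.qd p)) = p ^ 3 := hQcard
      _ ≤ Nat.card (heis p hp) := card_heis_ge p hp
      _ = Nat.card ((heis p hp).subgroupOf (Cfsg.qd p)) := hHcard.symm
  let e : Q ≃* P := Sylow.equiv Q P
  have hPcard : Nat.card P = p ^ 3 := by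
    rw [← hQcard]; exact Nat.card_congr e.symm.toEquiv
  have hQexp : ∀ x : Q, x ^ p = 1 := by
    intro x
    have hx : (x : Cfsg.qd p) ∈ (heis p hp).subgroupOf (Cfsg.qd p) := by
      rw [hQH]; exact x.2
    have hx' : ((x : Cfsg.qd p) : Matrix.SpecialLinearGroup (Fin 3) (ZMod p)) ∈ heis p hp :=
      Subgroup.mem_subgroupOf.mp hx
    have h1 := heis_pow_p hp _ hx'
    apply Subtype.ext
    apply Subtype.ext
    simpa using h1
  have hPexp : ∀ x : P, x ^ p = 1 := by
    intro x
    have h1 := hQexp (e.symm x)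
    have h2 := congrArg e h1
    simpa using h2
  have hPnc : ¬ ∀ a b : P, a * b = b * a := by
    intro hc
    have hxq : heisX p ∈ Cfsg.qd p := heis_le_qd p hp (heisX_mem p hp)
    have hyq : heisY p ∈ Cfsg.qd p := heis_le_qd p hp (heisY_mem p hp)
    have hxQ : (⟨heisX p, hxq⟩ : Cfsg.qd p) ∈ Q := by
      show (⟨heisX p, hxq⟩ : Cfsg.qd p) ∈ (Q : Subgroup (Cfsg.qd p))
      rw [← hQH]; exact Subgroup.mem_subgroupOf.mpr (heisX_mem p hp)
    have hyQ : (⟨heisY p, hyq⟩ : Cfsg.qd p) ∈ Q := by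
      show (⟨heisY p, hyq⟩ : Cfsg.qd p) ∈ (Q : Subgroup (Cfsg.qd p))
      rw [← hQH]; exact Subgroup.mem_subgroupOf.mpr (heisY_mem p hp)
    have h1 := hc (e ⟨_, hxQ⟩) (e ⟨_, hyQ⟩)
    rw [← map_mul, ← map_mul] at h1
    have h2 := e.injective h1
    have h3 := congrArg
      (fun z : Q => ((z : Cfsg.qd p) : Matrix.SpecialLinearGroup (Fin 3) (ZMod p))) h2
    exact heis_not_comm p h3
  obtain ⟨h1, h2⟩ := extraspecial_of_card_cube hPcard hPnc hPexp
  exact ⟨h1, hPcard, h2⟩

end Cfsg.Agent.S3074
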