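import Cfsg.Statements.S3075
import Cfsg.Agent.Lib.Helper51.CardSup
import Mathlib

set_option autoImplicit false
open Cfsg

namespace Cfsg.Agent.S3075

section SL2

variable {F : Type*} [Field F]

/-- The matrix `-1` in `SL₂(F)`. -/
def negOne : Matrix.SpecialLinearGroup (Fin 2) F :=
  ⟨!![-1, 0; 0, -1], by simp [Matrix.det_fin_two]⟩

theorem negOne_coe : ((negOne : Matrix.SpecialLinearGroup (Fin 2) F) : Matrix (Fin 2) (Fin 2) F) = -1 := by
  ext i j
  fin_cases i <;> fin_cases j <;> simp [negOne]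

theorem negOne_central (M : Matrix.SpecialLinearGroup (Fin 2) F) : negOne * M = M * negOne := by
  apply Subtype.ext
  simp [negOne_coe]

theorem negOne_sq : (negOne : Matrix.SpecialLinearGroup (Fin 2) F) * negOne = 1 := by
  apply Subtype.ext
  simp [negOne_coe]

theorem negOne_ne_one (h2 : (2 : F) ≠ 0) : (negOne : Matrix.SpecialLinearGroup (Fin 2) F) ≠ 1 := by
  intro h
  have h1 := congrArg (fun M : Matrix.SpecialLinearGroup (Fin 2) F => (M : Matrix (Fin 2) (Fin 2) F) 0 0) h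
  simp [negOne] at h1
  apply h2
  have : (2 : F) = 1 + 1 := by norm_num
  rw [this]
  linear_combination -h1

/-- `SL₂(F)` is not commutative. -/
theorem sl2_not_comm : ∃ u v : Matrix.SpecialLinearGroup (Fin 2) F, u * v ≠ v * u := by
  refine ⟨⟨!![1, 1; 0, 1], by simp [Matrix.det_fin_two]⟩, ⟨!![1, 0; 1, 1], by simp [Matrix.det_fin_two]⟩, ?_⟩
  intro h
  have h1 := congrArg (fun M : Matrix.SpecialLinearGroup (Fin 2) F => (M : Matrix (Fin 2) (Fin 2) F) 0 0) h
  have h2 : (((!![1, 1; 0, 1] : Matrix (Fin 2) (Fin 2) F) * (!![1, 0; 1, 1] : Matrix (Fin 2) (Fin 2) F)) :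
      Matrix (Fin 2) (Fin 2) F) 0 0
      = (((!![1, 0; 1, 1] : Matrix (Fin 2) (Fin 2) F) * (!![1, 1; 0, 1] : Matrix (Fin 2) (Fin 2) F)) :
      Matrix (Fin 2) (Fin 2) F) 0 0 := h1
  simp [Matrix.mul_apply, Fin.sum_univ_two] at h2

end SL2

/-- Commutators centralize a cyclic normal subgroup. -/
theorem comm_centralizes_cyclic_normal {G : Type*} [Group G] (C : Subgroup G) [hCn : C.Normal]
    [hCc : IsCyclic C] (n m : G) :
    n⁻¹ * m⁻¹ * n * m ∈ Subgroup.centralizer (C : Set G) := by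
  obtain ⟨⟨c, hc⟩, hgen⟩ := IsCyclic.exists_generator (α := C)
  have hconj : ∀ g : G, ∃ i : ℤ, g * c * g⁻¹ = c ^ i := by
    intro g
    have hmem : g * c * g⁻¹ ∈ C := hCn.conj_mem c hc g
    obtain ⟨i, hi⟩ := Subgroup.mem_zpowers_iff.1 (hgen ⟨g * c * g⁻¹, hmem⟩)
    refine ⟨i, ?_⟩
    have := congrArg Subtype.val hi
    simpa using this.symm
  obtain ⟨i, hi⟩ := hconj n
  obtain ⟨j, hj⟩ := hconj m
  have key : n * m * c * m⁻¹ * n⁻¹ = m * n * c * n⁻¹ * m⁻¹ := by
    calc n * m * c * m⁻¹ * n⁻¹ = n * (m * c * m⁻¹) * n⁻¹ := by group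
      _ = n * c ^ j * n⁻¹ := by rw [hj]
      _ = (n * c * n⁻¹) ^ j := conj_zpow.symm
      _ = (c ^ i) ^ j := by rw [hi]
      _ = (c ^ j) ^ i := by rw [← zpow_mul, ← zpow_mul, mul_comm]
      _ = (m * c * m⁻¹) ^ i := by rw [hj]
      _ = m * c ^ i * m⁻¹ := conj_zpow
      _ = m * (n * c * n⁻¹) * m⁻¹ := by rw [hi]
      _ = _ := by group
  rw [Subgroup.mem_centralizer_iff]
  intro x hx
  obtain ⟨l, hl⟩ := Subgroup.mem_zpowers_iff.1 (hgen ⟨x, hx⟩)
  have hx' : x = c ^ l := by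
    have := congrArg Subtype.val hl
    simpa using this.symm
  have key2 : n * m * x * m⁻¹ * n⁻¹ = m * n * x * n⁻¹ * m⁻¹ := by
    calc n * m * x * m⁻¹ * n⁻¹ = (n * m) * c ^ l * (n * m)⁻¹ := by rw [hx']; group
      _ = ((n * m) * c * (n * m)⁻¹) ^ l := conj_zpow.symm
      _ = ((m * n) * c * (m * n)⁻¹) ^ l := by
          congr 1
          calc (n * m) * c * (n * m)⁻¹ = n * m * c * m⁻¹ * n⁻¹ := by group
            _ = m * n * c * n⁻¹ * m⁻¹ := key
            _ = _ := by group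
      _ = (m * n) * c ^ l * (m * n)⁻¹ := conj_zpow
      _ = _ := by rw [hx']; group
  calc x * (n⁻¹ * m⁻¹ * n * m) = n⁻¹ * m⁻¹ * (m * n * x * n⁻¹ * m⁻¹) * n * m := by group
    _ = n⁻¹ * m⁻¹ * (n * m * x * m⁻¹ * n⁻¹) * n * m := by rw [key2]
    _ = _ := by group

/-- The abstract splitting statement: a self-centralizing normal abelian subgroup of order `p²`
and exponent `p` (`p` odd), an involution `t` outside `A` that is central modulo `A`, and `N/A`
not abelian. Then the centralizer of `t` is a complement of `A`. -/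
theorem split_of_involution {N : Type*} [Group N] [Finite N] {p k : ℕ} [Fact p.Prime]
    (hk : p = 2 * k + 1)
    (A : Subgroup N) [hAn : A.Normal] (hAc : ∀ a ∈ A, ∀ b ∈ A, a * b = b * a)
    (hAcard : Nat.card A = p ^ 2) (hApow : ∀ a ∈ A, a ^ p = 1)
    (hAself : Subgroup.centralizer (A : Set N) = A)
    (t : N) (htt : t * t = 1) (htA : t ∉ A) (htc : ∀ n : N, n * t * n⁻¹ * t⁻¹ ∈ A)
    (hnc : ∃ n m : N, n⁻¹ * m⁻¹ * n * m ∉ A) :
    ∃ U : Subgroup N, A ⊓ U = ⊥ ∧ A ⊔ U = ⊤ := by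
  have hpp : p.Prime := Fact.out
  have htinv : t⁻¹ = t := inv_eq_of_mul_eq_one_left htt
  have htinv2 : t⁻¹ * t⁻¹ = 1 := by rw [htinv, htt]
  have hUmem : ∀ a, a ∈ Subgroup.centralizer ({t} : Set N) ↔ t * a * t⁻¹ = a := by
    intro a
    rw [Subgroup.mem_centralizer_iff, mul_inv_eq_iff_eq_mul]
    simp
  refine ⟨Subgroup.centralizer {t}, ?_, ?_⟩
  · by_contra hne
    have htconjA : ∀ a ∈ A, t * a * t⁻¹ ∈ A := fun a ha => hAn.conj_mem a ha t
    have htconj2 : ∀ a, t * (t * a * t⁻¹) * t⁻¹ = a := by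
      intro a
      calc t * (t * a * t⁻¹) * t⁻¹ = (t * t) * a * (t⁻¹ * t⁻¹) := by group
        _ = a := by rw [htt, htinv2, one_mul, mul_one]
    have hnconj : ∀ (n : N), ∀ a ∈ A, t * (n * a * n⁻¹) * t⁻¹ = n * (t * a * t⁻¹) * n⁻¹ := by
      intro n a ha
      obtain ⟨z, hz⟩ : ∃ z, z = n⁻¹ * t * n⁻¹⁻¹ * t⁻¹ := ⟨_, rfl⟩
      have hzA : z ∈ A := hz ▸ htc n⁻¹
      have h1 : t * n = n * z * t := by rw [hz]; group
      have h2 : n⁻¹ * t⁻¹ = t⁻¹ * z⁻¹ * n⁻¹ := by rw [hz]; group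
      calc t * (n * a * n⁻¹) * t⁻¹ = (t * n) * a * (n⁻¹ * t⁻¹) := by group
        _ = (n * z * t) * a * (t⁻¹ * z⁻¹ * n⁻¹) := by rw [h1, h2]
        _ = n * (z * (t * a * t⁻¹) * z⁻¹) * n⁻¹ := by group
        _ = n * (t * a * t⁻¹) * n⁻¹ := by
            rw [hAc z hzA _ (htconjA a ha)]; group
    obtain ⟨Ap, hAp⟩ : ∃ Ap : Subgroup N, Ap = A ⊓ Subgroup.centralizer {t} := ⟨_, rfl⟩
    have hApmem : ∀ a, a ∈ Ap ↔ a ∈ A ∧ t * a * t⁻¹ = a := by
      intro a; rw [hAp, Subgroup.mem_inf, hUmem]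
    obtain ⟨Am, hAmmem⟩ : ∃ Am : Subgroup N, ∀ a, a ∈ Am ↔ a ∈ A ∧ t * a * t⁻¹ = a⁻¹ :=
      ⟨{ carrier := {a | a ∈ A ∧ t * a * t⁻¹ = a⁻¹}
         one_mem' := ⟨A.one_mem, by simp⟩
         mul_mem' := by
           rintro a b ⟨ha, ha'⟩ ⟨hb, hb'⟩
           refine ⟨A.mul_mem ha hb, ?_⟩
           calc t * (a * b) * t⁻¹ = (t * a * t⁻¹) * (t * b * t⁻¹) := by group
             _ = a⁻¹ * b⁻¹ := by rw [ha', hb']
             _ = (a * b)⁻¹ := by rw [mul_inv_rev, hAc _ (A.inv_mem ha) _ (A.inv_mem hb)]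
         inv_mem' := by
           rintro a ⟨ha, ha'⟩
           refine ⟨A.inv_mem ha, ?_⟩
           calc t * a⁻¹ * t⁻¹ = (t * a * t⁻¹)⁻¹ := by group
             _ = a⁻¹⁻¹ := by rw [ha'] }, fun a => Iff.rfl⟩
    have hApA : Ap ≤ A := fun a ha => ((hApmem a).1 ha).1
    have hAmA : Am ≤ A := fun a ha => ((hAmmem a).1 ha).1
    have hAle : A ≤ Ap ⊔ Am := by
      intro a ha
      obtain ⟨c, hc⟩ : ∃ c, c = t * a * t⁻¹ := ⟨_, rfl⟩
      have hcA : c ∈ A := hc ▸ htconjA a ha
      have htc' : t * c * t⁻¹ = a := by rw [hc]; exact htconj2 a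
      have hap : a * c ∈ Ap := by
        rw [hApmem]
        refine ⟨A.mul_mem ha hcA, ?_⟩
        calc t * (a * c) * t⁻¹ = (t * a * t⁻¹) * (t * c * t⁻¹) := by group
          _ = c * a := by rw [← hc, htc']
          _ = a * c := hAc c hcA a ha
      have ham : a * c⁻¹ ∈ Am := by
        rw [hAmmem]
        refine ⟨A.mul_mem ha (A.inv_mem hcA), ?_⟩
        calc t * (a * c⁻¹) * t⁻¹ = (t * a * t⁻¹) * (t * c * t⁻¹)⁻¹ := by group
          _ = c * a⁻¹ := by rw [← hc, htc']
          _ = (a * c⁻¹)⁻¹ := by rw [mul_inv_rev, inv_inv]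
      have hprod : (a * c) * (a * c⁻¹) = a * a := by
        calc (a * c) * (a * c⁻¹) = a * (c * a) * c⁻¹ := by group
          _ = a * (a * c) * c⁻¹ := by rw [hAc c hcA a ha]
          _ = a * a := by group
      have ha_eq : a = ((a * c) * (a * c⁻¹)) ^ (k + 1) := by
        rw [hprod, ← pow_two, ← pow_mul]
        have : 2 * (k + 1) = p + 1 := by omega
        rw [this, pow_succ, hApow a ha, one_mul]
      rw [ha_eq]
      exact Subgroup.pow_mem _ (Subgroup.mul_mem_sup hap ham) _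
    have hinf : Ap ⊓ Am = ⊥ := by
      rw [eq_bot_iff]
      intro a ha
      rw [Subgroup.mem_bot]
      obtain ⟨h1, h2⟩ := Subgroup.mem_inf.1 ha
      have e1 := ((hApmem a).1 h1).2
      have e2 := ((hAmmem a).1 h2).2
      have haA := ((hApmem a).1 h1).1
      have h3 : a = a⁻¹ := e1.symm.trans e2
      have h4 : a * a = 1 := by
        nth_rewrite 2 [h3]
        exact mul_inv_cancel a
      have h5 : a ^ (2 * (k + 1)) = 1 := by rw [pow_mul, pow_two, h4, one_pow]
      have h6 : a ^ (p + 1) = a := by rw [pow_succ, hApow a haA, one_mul]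
      have : 2 * (k + 1) = p + 1 := by omega
      rw [this, h6] at h5
      exact h5
    have hAmne : Am ≠ ⊥ := by
      intro h
      have hAU : A ≤ Ap := by rw [h, sup_bot_eq] at hAle; exact hAle
      have htcent : t ∈ Subgroup.centralizer (A : Set N) := by
        rw [Subgroup.mem_centralizer_iff]
        intro a ha
        have := ((hApmem a).1 (hAU ha)).2
        rw [mul_inv_eq_iff_eq_mul] at this
        exact this.symm
      rw [hAself] at htcent
      exact htA htcent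
    have hApne : Ap ≠ ⊥ := by rw [hAp]; exact hne
    have hsup : Ap ⊔ Am = A := le_antisymm (sup_le hApA hAmA) hAle
    have hcardle : Nat.card Ap * Nat.card Am ≤ p ^ 2 := by
      have := Cfsg.Agent.Lib.Helper51.CardSup.card_mul_card_le Ap Am
      rw [hsup, hinf, hAcard] at this
      simpa using this
    have hdvd : ∀ B : Subgroup N, B ≤ A → B ≠ ⊥ → p ≤ Nat.card B := by
      intro B hBA hB
      have h1 : Nat.card B ∣ p ^ 2 := by
        rw [← hAcard]; exact Subgroup.card_dvd_of_le hBA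
      obtain ⟨i, hi, hi'⟩ := (Nat.dvd_prime_pow hpp).1 h1
      have hi0 : i ≠ 0 := by
        rintro rfl
        rw [pow_zero] at hi'
        exact hB (Subgroup.card_eq_one.1 hi')
      calc p = p ^ 1 := (pow_one p).symm
        _ ≤ p ^ i := Nat.pow_le_pow_right hpp.pos (Nat.one_le_iff_ne_zero.2 hi0)
        _ = Nat.card B := hi'.symm
    have hub : ∀ x y : ℕ, p ≤ x → p ≤ y → x * y ≤ p ^ 2 → x = p := by
      intro x y hx hy hxy
      apply le_antisymm _ hx
      by_contra hlt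
      have hlt' : p + 1 ≤ x := by omega
      have h1 : (p + 1) * p ≤ p ^ 2 := le_trans (Nat.mul_le_mul hlt' hy) hxy
      have hpos := hpp.pos
      have h2 : p ^ 2 + p ≤ p ^ 2 := by
        calc p ^ 2 + p = (p + 1) * p := by ring
          _ ≤ p ^ 2 := h1
      linarith
    have hcp : Nat.card Ap = p := hub _ _ (hdvd Ap hApA hApne) (hdvd Am hAmA hAmne) hcardle
    have hcm : Nat.card Am = p :=
      hub _ _ (hdvd Am hAmA hAmne) (hdvd Ap hApA hApne) (by rw [mul_comm]; exact hcardle)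
    have hApcyc : IsCyclic Ap := isCyclic_of_prime_card hcp
    have hAmcyc : IsCyclic Am := isCyclic_of_prime_card hcm
    have hApn : Ap.Normal := by
      constructor
      intro a ha n
      rw [hApmem] at ha ⊢
      refine ⟨hAn.conj_mem a ha.1 n, ?_⟩
      rw [hnconj n a ha.1, ha.2]
    have hAmn : Am.Normal := by
      constructor
      intro a ha n
      rw [hAmmem] at ha ⊢
      refine ⟨hAn.conj_mem a ha.1 n, ?_⟩
      rw [hnconj n a ha.1, ha.2]
      group
    obtain ⟨n, m, hnm⟩ := hnc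
    apply hnm
    have h1 := comm_centralizes_cyclic_normal Ap n m
    have h2 := comm_centralizes_cyclic_normal Am n m
    have h3 : n⁻¹ * m⁻¹ * n * m ∈ Subgroup.centralizer ((Ap ⊔ Am : Subgroup N) : Set N) :=
      Cfsg.Agent.Lib.Helper51.CardSup.centralizer_inf_le_centralizer_sup Ap Am
        (Subgroup.mem_inf.2 ⟨h1, h2⟩)
    rw [hsup, hAself] at h3
    exact h3
  · rw [eq_top_iff]
    intro n _
    obtain ⟨a', ha'⟩ : ∃ a', a' = n * t * n⁻¹ * t⁻¹ := ⟨_, rfl⟩
    have ha'A : a' ∈ A := ha' ▸ htc n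
    obtain ⟨b, hb⟩ : ∃ b, b = a' ^ (k + 1) := ⟨_, rfl⟩
    have hbA : b ∈ A := hb ▸ A.pow_mem ha'A _
    have hbb : b * b = a' := by
      rw [hb, ← pow_add]
      have : k + 1 + (k + 1) = p + 1 := by omega
      rw [this, pow_succ, hApow a' ha'A, one_mul]
    have hta' : t * a' * t⁻¹ = a'⁻¹ := by
      calc t * a' * t⁻¹ = t * n * t * n⁻¹ * (t⁻¹ * t⁻¹) := by rw [ha']; group
        _ = t * n * t⁻¹ * n⁻¹ := by rw [htinv2, mul_one, htinv]
        _ = a'⁻¹ := by rw [ha']; group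
    have htb : t * b * t⁻¹ = b⁻¹ := by
      rw [hb, ← conj_pow, hta', inv_pow]
    have hbt : b * t * b⁻¹ = n * t * n⁻¹ := by
      calc b * t * b⁻¹ = b * (t * b * t⁻¹)⁻¹ * t := by group
        _ = b * b * t := by rw [htb, inv_inv]
        _ = a' * t := by rw [hbb]
        _ = n * t * n⁻¹ := by rw [ha']; group
    have hU : b⁻¹ * n ∈ Subgroup.centralizer ({t} : Set N) := by
      rw [hUmem]
      calc t * (b⁻¹ * n) * t⁻¹ = b⁻¹ * (b * t * b⁻¹) * n * t⁻¹ := by group
        _ = b⁻¹ * (n * t * n⁻¹) * n * t⁻¹ := by rw [hbt]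
        _ = b⁻¹ * n := by group
    have hn : n = b * (b⁻¹ * n) := by group
    rw [hn]
    exact Subgroup.mul_mem_sup hbA hU

/-- Let p be an odd prime and N a finite group with a normal elementary abelian subgroup A of order p² that is its own centralizer in N, such that N/A is isomorphic to SL₂(p) (over any field F with p elements). Then N splits over A: some subgroup U of N satisfies A ∩ U = 1 and AU = N. -/
theorem result {N : Type*} [Group N] [Finite N] {p : ℕ} [Fact p.Prime] (hp : p ≠ 2)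
    (A : Subgroup N) [A.Normal] (hAcomm : IsMulCommutative A) (hAcard : Nat.card A = p ^ 2) (hAexp : Monoid.exponent ↥A = p)
    (hAself : Subgroup.centralizer (A : Set N) = A)
    {F : Type*} [Field F] [Fintype F] (hF : Fintype.card F = p) (e : N ⧸ A ≃* Matrix.SpecialLinearGroup (Fin 2) F) :
    ∃ U : Subgroup N, A ⊓ U = ⊥ ∧ A ⊔ U = ⊤ := by
  classical
  have hpp : p.Prime := Fact.out
  obtain ⟨k, hk⟩ : ∃ k, p = 2 * k + 1 := by
    rcases hpp.eq_two_or_odd' with h | h
    · exact absurd h hp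
    · exact h
  have h2F : (2 : F) ≠ 0 := by
    intro h2
    obtain ⟨q, hq⟩ := CharP.exists F
    obtain ⟨n, hqprime, hcard⟩ := FiniteField.card F q
    rw [hF] at hcard
    have hqp : q = p := by
      have : q ∣ p := by rw [hcard]; exact dvd_pow_self q n.ne_zero
      exact ((Nat.prime_dvd_prime_iff_eq hqprime hpp).1 this)
    have h2' : ((2 : ℕ) : F) = 0 := by exact_mod_cast h2
    rw [CharP.cast_eq_zero_iff F q 2, hqp] at h2'
    have := (Nat.prime_dvd_prime_iff_eq hpp Nat.prime_two).1 h2'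
    exact hp this
  have hAc := isMulCommutative_iff_of_setLike.1 hAcomm
  have hApow : ∀ a ∈ A, a ^ p = 1 := by
    intro a ha
    have h := Monoid.pow_exponent_eq_one (⟨a, ha⟩ : A)
    rw [hAexp] at h
    have := congrArg Subtype.val h
    simpa using this
  obtain ⟨tb, htb⟩ : ∃ tb : N ⧸ A, tb = e.symm negOne := ⟨_, rfl⟩
  have htbc : ∀ x : N ⧸ A, tb * x = x * tb := by
    intro x
    apply e.injective
    rw [map_mul, map_mul, htb, e.apply_symm_apply]
    exact negOne_central (e x)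
  have htb2 : tb * tb = 1 := by
    apply e.injective
    rw [map_mul, map_one, htb, e.apply_symm_apply]
    exact negOne_sq
  have htb1 : tb ≠ 1 := by
    intro h
    apply negOne_ne_one h2F
    have := congrArg e h
    rw [htb, e.apply_symm_apply, map_one] at this
    exact this
  obtain ⟨π, hπ⟩ : ∃ π : N →* N ⧸ A, π = QuotientGroup.mk' A := ⟨_, rfl⟩
  have hπsurj : Function.Surjective π := by rw [hπ]; exact QuotientGroup.mk'_surjective A
  have hπker : ∀ x, π x = 1 ↔ x ∈ A := by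
    intro x; rw [hπ]; exact QuotientGroup.eq_one_iff x
  obtain ⟨n₀, hn₀⟩ := hπsurj tb
  have hn₀2 : n₀ * n₀ ∈ A := by
    rw [← hπker, map_mul, hn₀, htb2]
  obtain ⟨t, ht⟩ : ∃ t, t = n₀ ^ p := ⟨_, rfl⟩
  have htt : t * t = 1 := by
    rw [ht, ← (Commute.refl n₀).mul_pow p]
    exact hApow _ hn₀2
  have hπt : π t = tb := by
    rw [ht, map_pow, hn₀, hk, pow_succ, pow_mul, pow_two, htb2, one_pow, one_mul]
  have htA : t ∉ A := by
    intro h
    rw [← hπker, hπt] at h
    exact htb1 h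
  have htc : ∀ n : N, n * t * n⁻¹ * t⁻¹ ∈ A := by
    intro n
    rw [← hπker]
    simp only [map_mul, map_inv, hπt]
    rw [← htbc (π n)]
    group
  have hnc : ∃ n m : N, n⁻¹ * m⁻¹ * n * m ∉ A := by
    obtain ⟨u, v, huv⟩ := sl2_not_comm (F := F)
    obtain ⟨n, hn⟩ := hπsurj (e.symm u)
    obtain ⟨m, hm⟩ := hπsurj (e.symm v)
    refine ⟨n, m, fun h => huv ?_⟩
    rw [← hπker] at h
    simp only [map_mul, map_inv, hn, hm] at h
    have h' : e.symm u * e.symm v = e.symm v * e.symm u := by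
      calc e.symm u * e.symm v
          = e.symm v * e.symm u * ((e.symm u)⁻¹ * (e.symm v)⁻¹ * e.symm u * e.symm v) := by group
        _ = e.symm v * e.symm u := by rw [h, mul_one]
    have := congrArg e h'
    simpa using this
  exact split_of_involution hk A hAc hAcard hApow hAself t htt htA htc hnc

end Cfsg.Agent.S3075
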