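import Cfsg.Statements.S3076
import Cfsg.Agent.Lib.Helper51.AGGood

set_option autoImplicit false
set_option linter.style.haveILetI false
set_option linter.unusedSectionVars false
open Cfsg

namespace Cfsg.Agent.S3076

open Cfsg.Agent.Lib.Helper51.AGLocal Cfsg.Agent.Lib.Helper51.AGMain Cfsg.Agent.Lib.Helper51.AGGood

section abstract

variable {Γ : Type*} [Group Γ] [Finite Γ] {p : ℕ} [Fact p.Prime]

theorem le_comap_pCore (K : Subgroup Γ) [K.Normal] (N : Subgroup Γ) [N.Normal]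
    (h : ∀ x ∈ N, ∃ k : ℕ, x ^ p ^ k ∈ K) :
    N ≤ (Cfsg.pCore p (Γ ⧸ K)).comap (QuotientGroup.mk' K) := by
  intro x hx
  rw [Subgroup.mem_comap]
  haveI : (N.map (QuotientGroup.mk' K)).Normal :=
    Subgroup.Normal.map inferInstance _ (QuotientGroup.mk'_surjective K)
  have hp : IsPGroup p (N.map (QuotientGroup.mk' K)) := by
    rintro ⟨_, ⟨y, hy, rfl⟩⟩
    obtain ⟨k, hk⟩ := h y hy
    refine ⟨k, ?_⟩
    apply Subtype.ext
    show (QuotientGroup.mk' K y) ^ p ^ k = 1
    rw [← map_pow]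
    exact (QuotientGroup.eq_one_iff _).2 hk
  exact Cfsg.Agent.Lib.Helper33.PCore.le_pCore hp (Subgroup.mem_map_of_mem _ hx)

theorem exists_pow_mem_of_mem_comap_pCore (K : Subgroup Γ) [K.Normal] {x : Γ}
    (hx : x ∈ (Cfsg.pCore p (Γ ⧸ K)).comap (QuotientGroup.mk' K)) : ∃ k : ℕ, x ^ p ^ k ∈ K := by
  rw [Subgroup.mem_comap] at hx
  obtain ⟨k, hk⟩ := (Cfsg.Agent.Lib.Helper33.PCore.pCore_isPGroup (G := Γ ⧸ K) (p := p)) ⟨_, hx⟩
  refine ⟨k, ?_⟩
  have h1 : (QuotientGroup.mk' K x) ^ p ^ k = 1 := congrArg Subtype.val hk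
  rw [← map_pow] at h1
  exact (QuotientGroup.eq_one_iff _).1 h1

theorem sylow_inf_pPrimeCore_le (Hs : Subgroup Γ) [Hs.Normal] (Ts : Sylow p Γ)
    (hHT : Hs ≤ (Ts : Subgroup Γ)) :
    (Ts : Subgroup Γ) ⊓ (Cfsg.pPrimeCore p Γ ⊔ Hs) ≤ Hs := by
  haveI := Cfsg.Agent.Lib.Helper33.PCore.pPrimeCore_normal (G := Γ) p
  intro t ht
  obtain ⟨ht1, ht2⟩ := ht
  rw [sup_comm] at ht2
  have ht3 : t ∈ ((Hs ⊔ Cfsg.pPrimeCore p Γ : Subgroup Γ) : Set Γ) := ht2
  rw [Subgroup.mul_normal] at ht3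
  obtain ⟨h, hh, l, hl, rfl⟩ := ht3
  have hl2 : l ∈ (Ts : Subgroup Γ) := by
    have : l = h⁻¹ * (h * l) := by group
    rw [this]
    exact Subgroup.mul_mem _ (Subgroup.inv_mem _ (hHT hh)) ht1
  have hdis : Disjoint (Cfsg.pPrimeCore p Γ) (Ts : Subgroup Γ) := by
    apply Subgroup.disjoint_of_coprime_natCard
    obtain ⟨n, hn⟩ := IsPGroup.iff_card.1 Ts.2
    rw [hn]
    exact Nat.Coprime.pow_right n (Cfsg.Agent.Lib.Helper33.PCore.pPrimeCore_card_coprime p)
  have hl1 : l = 1 := by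
    have : l ∈ Cfsg.pPrimeCore p Γ ⊓ (Ts : Subgroup Γ) := ⟨hl, hl2⟩
    rw [hdis.eq_bot, Subgroup.mem_bot] at this
    exact this
  subst hl1
  simpa using hh

/-- The abstract form of the statement. -/
theorem abstract_iff (Hs : Subgroup Γ) [Hs.Normal] (Ts : Sylow p Γ) (hHT : Hs ≤ (Ts : Subgroup Γ))
    (Cs : Subgroup Γ) [Cs.Normal] (hCs : Cs = Subgroup.centralizer (Hs : Set Γ)) :
    (Hs ≤ (Cfsg.pCore p (Γ ⧸ Cs)).comap (QuotientGroup.mk' Cs) ∧
      ¬ p ∣ Hs.relIndex ((Cfsg.pCore p (Γ ⧸ Cs)).comap (QuotientGroup.mk' Cs))) ↔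
    ((Ts : Subgroup Γ) ⊓ Cs ≤ Hs ∧ Cfsg.pPrimePCore p Γ = Hs ⊔ Cs) := by
  classical
  have hpp : p.Prime := Fact.out
  have hHp : IsPGroup p Hs := Ts.2.to_le hHT
  obtain ⟨R, hR⟩ : ∃ R : Subgroup Γ, R = (Cfsg.pCore p (Γ ⧸ Cs)).comap (QuotientGroup.mk' Cs) :=
    ⟨_, rfl⟩
  rw [← hR]
  haveI hRn : R.Normal := by
    rw [hR]
    exact (Cfsg.Agent.Lib.Helper33.PCore.pCore_normal p).comap _
  haveI hLn := Cfsg.Agent.Lib.Helper33.PCore.pPrimeCore_normal (G := Γ) p
  haveI hYn := Cfsg.Agent.Lib.Helper11.PConstr.pPrimePCore_normal p Γ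
  have hHR : Hs ≤ R := by
    rw [hR]
    apply le_comap_pCore
    intro x hx
    obtain ⟨k, hk⟩ := hHp ⟨x, hx⟩
    refine ⟨k, ?_⟩
    have : x ^ p ^ k = 1 := congrArg Subtype.val hk
    rw [this]; exact Subgroup.one_mem _
  have hSR := Cfsg.Agent.Lib.Helper68.Pronormal.isSyl_inf_normal R Ts
  have hHY : Hs ≤ Cfsg.pPrimePCore p Γ := le_pPrimePCore_of_normal Hs hHp
  have hLY := Cfsg.Agent.Lib.Helper11.PConstr.pPrimeCore_le_pPrimePCore p Γ
  have hLC : Cfsg.pPrimeCore p Γ ≤ Cs := by rw [hCs]; exact pPrimeCore_le_centralizer Hs hHp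
  constructor
  · rintro ⟨-, hidx⟩
    -- Ts ⊓ R = Hs
    have hTR : (Ts : Subgroup Γ) ⊓ R ≤ Hs := by
      by_contra hcon
      apply hidx
      have h1 : Hs ≤ (Ts : Subgroup Γ) ⊓ R := le_inf hHT hHR
      rw [← Subgroup.relIndex_mul_relIndex Hs ((Ts : Subgroup Γ) ⊓ R) R h1 inf_le_right]
      apply Dvd.dvd.mul_right
      have h2 : Hs.relIndex ((Ts : Subgroup Γ) ⊓ R) ≠ 1 := by
        intro h
        exact hcon (Subgroup.relIndex_eq_one.1 h)
      obtain ⟨k, hk⟩ := IsPGroup.iff_card.1 (Ts.2.to_le (inf_le_left : (Ts : Subgroup Γ) ⊓ R ≤ _))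
      have h3 : Hs.relIndex ((Ts : Subgroup Γ) ⊓ R) ∣ p ^ k := by
        rw [← hk]; exact Subgroup.relIndex_dvd_card _ _
      obtain ⟨j, -, hj⟩ := (Nat.dvd_prime_pow hpp).1 h3
      rw [hj] at h2 ⊢
      cases j with
      | zero => simp at h2
      | succ j => exact Dvd.intro_left _ (pow_succ p j).symm
    have hCR : Cs ≤ R := by
      rw [hR]
      intro x hx
      rw [Subgroup.mem_comap]
      have : QuotientGroup.mk' Cs x = 1 := (QuotientGroup.eq_one_iff x).2 hx
      rw [this]; exact Subgroup.one_mem _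
    have hcen : (Ts : Subgroup Γ) ⊓ Cs ≤ Hs := (inf_le_inf_left _ hCR).trans hTR
    have hcen' : (Ts : Subgroup Γ) ⊓ Subgroup.centralizer (Hs : Set Γ) ≤ Hs := by rw [← hCs]; exact hcen
    have hC := centralizer_le_sup Hs hHp Ts hcen'
    rw [← hCs] at hC
    refine ⟨hcen, ?_⟩
    apply le_antisymm
    · have hYR : Cfsg.pPrimePCore p Γ ≤ R := by
        rw [hR]
        apply le_comap_pCore
        intro x hx
        obtain ⟨k, hk⟩ := exists_pow_mem_of_mem_comap_pCore (Cfsg.pPrimeCore p Γ) hx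
        exact ⟨k, hLC hk⟩
      refine (pPrimePCore_le_sup (Γ := Γ) Ts).trans (sup_le ?_ (hLC.trans le_sup_right))
      exact ((inf_le_inf_left _ hYR).trans hTR).trans le_sup_left
    · exact sup_le hHY (hC.trans (sup_le hHY hLY))
  · rintro ⟨hcen, hY⟩
    refine ⟨hHR, ?_⟩
    have hcen' : (Ts : Subgroup Γ) ⊓ Subgroup.centralizer (Hs : Set Γ) ≤ Hs := by rw [← hCs]; exact hcen
    have hC := centralizer_le_sup Hs hHp Ts hcen'
    rw [← hCs] at hC
    have hY' : Cfsg.pPrimePCore p Γ ≤ Hs ⊔ Subgroup.centralizer (Hs : Set Γ) := by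
      rw [← hCs]; exact hY.le
    obtain ⟨-, c2, -, -⟩ := core_structure Hs Ts hHT hcen' hY'
    have hRY : R ≤ Cfsg.pPrimePCore p Γ := by
      show R ≤ (Cfsg.pCore p (Γ ⧸ Cfsg.pPrimeCore p Γ)).comap (QuotientGroup.mk' (Cfsg.pPrimeCore p Γ))
      apply le_comap_pCore
      intro x hx
      rw [hR] at hx
      obtain ⟨k, hk⟩ := exists_pow_mem_of_mem_comap_pCore Cs hx
      have h1 := hC hk
      have h2 : x ^ p ^ k ∈ ((Hs ⊔ Cfsg.pPrimeCore p Γ : Subgroup Γ) : Set Γ) := h1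
      rw [Subgroup.mul_normal] at h2
      obtain ⟨h, hh, l, hl, he⟩ := h2
      obtain ⟨j, hj⟩ := hHp ⟨h, hh⟩
      have hj' : h ^ p ^ j = 1 := congrArg Subtype.val hj
      refine ⟨k + j, ?_⟩
      rw [pow_add, pow_mul, ← he]
      -- (h * l)^(p^j) ∈ L since its image modulo L is h^(p^j) = 1
      rw [← QuotientGroup.eq_one_iff, QuotientGroup.mk_pow, QuotientGroup.mk_mul,
        (QuotientGroup.eq_one_iff l).2 hl, mul_one, ← QuotientGroup.mk_pow, hj']
      rfl
    have hTR : (Ts : Subgroup Γ) ⊓ R ≤ Hs := by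
      refine (inf_le_inf_left _ hRY).trans ?_
      rw [← c2]
      exact sylow_inf_pPrimeCore_le Hs Ts hHT
    have hEq : (Ts : Subgroup Γ) ⊓ R = Hs := le_antisymm hTR (le_inf hHT hHR)
    rw [← hEq]
    exact hSR.2.2

end abstract


/-- Let P be a Sylow p-subgroup of the finite group G and H ≤ P a subgroup with N_P(H) a Sylow p-subgroup of N_G(H). Let N be the preimage in N_G(H) of O_p(N_G(H)/C_G(H)). Then H is a Sylow p-subgroup of N if and only if C_P(H) ≤ H and O_{p',p}(N_G(H)) = H·C_G(H). -/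
theorem result {G : Type*} [Group G] [Finite G] {p : ℕ} [Fact p.Prime]
    (P : Sylow p G) (H : Subgroup G) (hHP : H ≤ (P : Subgroup G))
    (hSyl : ¬ p ∣ ((P : Subgroup G) ⊓ Subgroup.normalizer (H : Set G)).relIndex (Subgroup.normalizer (H : Set G)))
    [hC : ((Subgroup.centralizer (H : Set G)).subgroupOf (Subgroup.normalizer (H : Set G))).Normal] :
    (H ≤ ((Cfsg.pCore p (↥(Subgroup.normalizer (H : Set G)) ⧸
              (Subgroup.centralizer (H : Set G)).subgroupOf (Subgroup.normalizer (H : Set G)))).comap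
            (QuotientGroup.mk' _)).map (Subgroup.normalizer (H : Set G)).subtype ∧
      ¬ p ∣ H.relIndex (((Cfsg.pCore p (↥(Subgroup.normalizer (H : Set G)) ⧸
              (Subgroup.centralizer (H : Set G)).subgroupOf (Subgroup.normalizer (H : Set G)))).comap
            (QuotientGroup.mk' _)).map (Subgroup.normalizer (H : Set G)).subtype)) ↔
    ((P : Subgroup G) ⊓ Subgroup.centralizer (H : Set G) ≤ H ∧
      (Cfsg.pPrimePCore p ↥(Subgroup.normalizer (H : Set G))).map (Subgroup.normalizer (H : Set G)).subtype =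
        H ⊔ Subgroup.centralizer (H : Set G)) := by
  classical
  have hHN : H ≤ Subgroup.normalizer (H : Set G) := Subgroup.le_normalizer
  have hCN : Subgroup.centralizer (H : Set G) ≤ Subgroup.normalizer (H : Set G) :=
    Subgroup.centralizer_le_normalizer _
  have hT : Cfsg.Agent.Lib.Helper68.Pronormal.IsSyl p
      ((P : Subgroup G) ⊓ Subgroup.normalizer (H : Set G)) (Subgroup.normalizer (H : Set G)) :=
    ⟨inf_le_right, P.2.to_le inf_le_left, hSyl⟩
  obtain ⟨Ts, hTs'⟩ : ∃ Ts : Sylow p ↥(Subgroup.normalizer (H : Set G)), Ts = hT.toSylow := ⟨_, rfl⟩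
  have hTs : ∀ n : ↥(Subgroup.normalizer (H : Set G)), n ∈ Ts ↔ (n : G) ∈ (P : Subgroup G) := by
    intro n
    rw [hTs', hT.mem_toSylow]
    exact ⟨fun h => h.1, fun h => ⟨h, n.2⟩⟩
  have hHT : H.subgroupOf (Subgroup.normalizer (H : Set G)) ≤
      (Ts : Subgroup ↥(Subgroup.normalizer (H : Set G))) := by
    intro n hn
    exact (hTs n).2 (hHP (Subgroup.mem_subgroupOf.1 hn))
  have hCs : (Subgroup.centralizer (H : Set G)).subgroupOf (Subgroup.normalizer (H : Set G)) =
      Subgroup.centralizer ((H.subgroupOf (Subgroup.normalizer (H : Set G)) : Subgroup _) : Set _) := by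
    ext n
    rw [Subgroup.mem_subgroupOf]
    exact (mem_centralizer_subgroupOf hHN n).symm
  have key := abstract_iff (H.subgroupOf (Subgroup.normalizer (H : Set G))) Ts hHT
    ((Subgroup.centralizer (H : Set G)).subgroupOf (Subgroup.normalizer (H : Set G))) hCs
  obtain ⟨R, hR⟩ : ∃ R : Subgroup ↥(Subgroup.normalizer (H : Set G)),
      R = (Cfsg.pCore p (↥(Subgroup.normalizer (H : Set G)) ⧸
              (Subgroup.centralizer (H : Set G)).subgroupOf (Subgroup.normalizer (H : Set G)))).comap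
            (QuotientGroup.mk' _) := ⟨_, rfl⟩
  rw [← hR] at key ⊢
  have hRsub : (R.map (Subgroup.normalizer (H : Set G)).subtype).subgroupOf
      (Subgroup.normalizer (H : Set G)) = R :=
    Subgroup.comap_map_eq_self_of_injective (Subgroup.subtype_injective _) R
  have e1 : H ≤ R.map (Subgroup.normalizer (H : Set G)).subtype ↔
      H.subgroupOf (Subgroup.normalizer (H : Set G)) ≤ R := by
    constructor
    · intro h n hn
      obtain ⟨r, hr, hre⟩ := h (Subgroup.mem_subgroupOf.1 hn)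
      have : r = n := Subtype.ext hre
      rw [← this]; exact hr
    · intro h a ha
      exact ⟨⟨a, hHN ha⟩, h (Subgroup.mem_subgroupOf.2 ha), rfl⟩
  have e2 : H.relIndex (R.map (Subgroup.normalizer (H : Set G)).subtype) =
      (H.subgroupOf (Subgroup.normalizer (H : Set G))).relIndex R := by
    rw [← Subgroup.relIndex_subgroupOf (Subgroup.map_subtype_le _), hRsub]
  have e3 : (P : Subgroup G) ⊓ Subgroup.centralizer (H : Set G) ≤ H ↔
      (Ts : Subgroup ↥(Subgroup.normalizer (H : Set G))) ⊓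
        (Subgroup.centralizer (H : Set G)).subgroupOf (Subgroup.normalizer (H : Set G)) ≤
        H.subgroupOf (Subgroup.normalizer (H : Set G)) := by
    constructor
    · intro h n hn
      exact Subgroup.mem_subgroupOf.2 (h ⟨(hTs n).1 hn.1, Subgroup.mem_subgroupOf.1 hn.2⟩)
    · intro h a ha
      have : (⟨a, hCN ha.2⟩ : ↥(Subgroup.normalizer (H : Set G))) ∈
          H.subgroupOf (Subgroup.normalizer (H : Set G)) :=
        h ⟨(hTs _).2 ha.1, Subgroup.mem_subgroupOf.2 ha.2⟩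
      exact Subgroup.mem_subgroupOf.1 this
  have e4 : (Cfsg.pPrimePCore p ↥(Subgroup.normalizer (H : Set G))).map
        (Subgroup.normalizer (H : Set G)).subtype = H ⊔ Subgroup.centralizer (H : Set G) ↔
      Cfsg.pPrimePCore p ↥(Subgroup.normalizer (H : Set G)) =
        H.subgroupOf (Subgroup.normalizer (H : Set G)) ⊔
        (Subgroup.centralizer (H : Set G)).subgroupOf (Subgroup.normalizer (H : Set G)) := by
    have e5 : (H.subgroupOf (Subgroup.normalizer (H : Set G)) ⊔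
        (Subgroup.centralizer (H : Set G)).subgroupOf (Subgroup.normalizer (H : Set G))).map
          (Subgroup.normalizer (H : Set G)).subtype = H ⊔ Subgroup.centralizer (H : Set G) := by
      rw [Subgroup.map_sup, Subgroup.map_subgroupOf_eq_of_le hHN, Subgroup.map_subgroupOf_eq_of_le hCN]
    constructor
    · intro h
      rw [← e5] at h
      exact Subgroup.map_injective (Subgroup.subtype_injective _) h
    · intro h
      rw [h, e5]
  rw [e1, e2, e3, e4]
  exact key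

end Cfsg.Agent.S3076
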