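import Cfsg.Statements.S3087
import Mathlib

set_option autoImplicit false
open Cfsg

namespace Cfsg.Agent.S3087

theorem add_card_mul_card_le {V : Type*} [AddCommGroup V] [Finite V] (X Y : AddSubgroup V) :
    Nat.card X * Nat.card Y ≤ Nat.card (X ⊔ Y : AddSubgroup V) * Nat.card (X ⊓ Y : AddSubgroup V) := by
  have h1 : Nat.card (X ⊓ Y : AddSubgroup V) * (X ⊓ Y).relIndex Y = Nat.card Y := by
    have := AddSubgroup.relIndex_mul_relIndex (⊥ : AddSubgroup V) (X ⊓ Y) Y bot_le inf_le_right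
    simpa [AddSubgroup.relIndex_bot_left] using this
  have h2 : Nat.card X * X.relIndex (X ⊔ Y) = Nat.card (X ⊔ Y : AddSubgroup V) := by
    have := AddSubgroup.relIndex_mul_relIndex (⊥ : AddSubgroup V) X (X ⊔ Y) bot_le le_sup_left
    simpa [AddSubgroup.relIndex_bot_left] using this
  have h0 : X.relIndex (X ⊔ Y) ≠ 0 := by
    intro h
    rw [h, Nat.mul_zero] at h2
    exact (Nat.card_pos (α := (X ⊔ Y : AddSubgroup V))).ne' h2.symm
  have h3 : X.relIndex Y ≤ X.relIndex (X ⊔ Y) :=
    AddSubgroup.relIndex_le_of_le_right le_sup_right h0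
  rw [AddSubgroup.inf_relIndex_right] at h1
  calc Nat.card X * Nat.card Y
      = Nat.card X * (Nat.card (X ⊓ Y : AddSubgroup V) * X.relIndex Y) := by rw [h1]
    _ ≤ Nat.card X * (Nat.card (X ⊓ Y : AddSubgroup V) * X.relIndex (X ⊔ Y)) := by gcongr
    _ = _ := by rw [← h2]; ring

/-- Let p be a prime, G a finite group acting linearly on a finite vector space V over the field with p elements, W a G-invariant subspace, and A a subgroup of G with |A|·|C_V(A)| ≥ |B|·|C_V(B)| for every subgroup B of A. Then |A|·|C_W(A)| ≥ |B|·|C_W(B)| for every subgroup B of A that contains C_A(W); that is, the image of A in the group induced on W satisfies the same maximality condition. -/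
theorem result {G V : Type*} [Group G] [Finite G] [AddCommGroup V] [Finite V] (p : ℕ) [Fact p.Prime] [Module (ZMod p) V]
    (ρ : Representation (ZMod p) G V) (W : Submodule (ZMod p) V) (hW : ∀ g : G, ∀ w ∈ W, ρ g w ∈ W)
    (A : Subgroup G)
    (hP : ∀ B : Subgroup G, B ≤ A →
      Nat.card ↥B * Nat.card {v : V // ∀ b ∈ B, ρ b v = v} ≤ Nat.card ↥A * Nat.card {v : V // ∀ a ∈ A, ρ a v = v})
    (B : Subgroup G) (hBA : B ≤ A) (hCB : ∀ a ∈ A, (∀ w ∈ W, ρ a w = w) → a ∈ B) :
    Nat.card ↥B * Nat.card {w : W // ∀ b ∈ B, ρ b w = w} ≤ Nat.card ↥A * Nat.card {w : W // ∀ a ∈ A, ρ a w = w} := by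
  classical
  let CV : Subgroup G → AddSubgroup V := fun X =>
    { carrier := {v | ∀ x ∈ X, ρ x v = v}
      add_mem' := by
        intro a b ha hb x hx
        rw [map_add, ha x hx, hb x hx]
      zero_mem' := by
        intro x _
        exact map_zero _
      neg_mem' := by
        intro a ha x hx
        rw [map_neg, ha x hx] }
  let CW : Subgroup G → AddSubgroup V := fun X => CV X ⊓ W.toAddSubgroup
  have eV : ∀ X : Subgroup G, Nat.card {v : V // ∀ x ∈ X, ρ x v = v} = Nat.card (CV X) :=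
    fun X => Nat.card_congr (Equiv.subtypeEquivRight (fun v => Iff.rfl))
  have eW : ∀ X : Subgroup G, Nat.card {w : W // ∀ x ∈ X, ρ x w = w} = Nat.card (CW X) := by
    intro X
    refine Nat.card_congr ⟨fun w => ⟨w.1.1, ⟨w.2, w.1.2⟩⟩, fun v => ⟨⟨v.1, v.2.2⟩, v.2.1⟩, ?_, ?_⟩
    · intro w; rfl
    · intro v; rfl
  rw [eW, eW]
  have hPB := hP B hBA
  rw [eV, eV] at hPB
  have hkey := add_card_mul_card_le (CV A) (CW B)
  have hsup : (CV A ⊔ CW B : AddSubgroup V) ≤ CV B := by
    refine sup_le ?_ inf_le_left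
    intro v hv x hx
    exact hv x (hBA hx)
  have hinf : (CV A ⊓ CW B : AddSubgroup V) ≤ CW A := by
    intro v hv
    exact ⟨hv.1, hv.2.2⟩
  have h1 : Nat.card (CV A ⊔ CW B : AddSubgroup V) ≤ Nat.card (CV B) :=
    AddSubgroup.card_le_of_le hsup
  have h2 : Nat.card (CV A ⊓ CW B : AddSubgroup V) ≤ Nat.card (CW A) :=
    AddSubgroup.card_le_of_le hinf
  have h3 : Nat.card (CV A) * Nat.card (CW B) ≤ Nat.card (CV B) * Nat.card (CW A) :=
    hkey.trans (Nat.mul_le_mul h1 h2)
  have hpos : 0 < Nat.card (CV A) := Nat.card_pos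
  refine Nat.le_of_mul_le_mul_right ?_ hpos
  calc Nat.card B * Nat.card (CW B) * Nat.card (CV A)
      = Nat.card B * (Nat.card (CV A) * Nat.card (CW B)) := by ring
    _ ≤ Nat.card B * (Nat.card (CV B) * Nat.card (CW A)) := Nat.mul_le_mul_left _ h3
    _ = (Nat.card B * Nat.card (CV B)) * Nat.card (CW A) := by ring
    _ ≤ (Nat.card A * Nat.card (CV A)) * Nat.card (CW A) := Nat.mul_le_mul_right _ hPB
    _ = Nat.card A * Nat.card (CW A) * Nat.card (CV A) := by ring

end Cfsg.Agent.S3087
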