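import Mathlib
import Cfsg.Statements.S3155

set_option autoImplicit false
open Cfsg

namespace Cfsg.Agent.S3155

theorem no_sq (d : ZMod 4) : d * d ≠ (-1) ^ 3 := by
  revert d; decide

theorem finrank_M : Module.finrank (ZMod 4) (ZMod 4 × ZMod 4 × ZMod 4) = 3 := by
  have : Fact (1 < 4) := ⟨by norm_num⟩
  rw [Module.finrank_prod, Module.finrank_prod, Module.finrank_self]

/-- No additive endomorphism of `(ZMod 4)^3` squares to negation. -/
theorem no_add_hom (f : (ZMod 4 × ZMod 4 × ZMod 4) →+ (ZMod 4 × ZMod 4 × ZMod 4))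
    (hf : ∀ x, f (f x) = -x) : False := by
  let L : (ZMod 4 × ZMod 4 × ZMod 4) →ₗ[ZMod 4] (ZMod 4 × ZMod 4 × ZMod 4) := f.toZModLinearMap 4
  have hL : L.comp L = (-1 : ZMod 4) • LinearMap.id := by
    apply LinearMap.ext
    intro x
    simp only [LinearMap.comp_apply, LinearMap.smul_apply, LinearMap.id_apply, neg_smul, one_smul]
    exact hf x
  have hdet := congrArg LinearMap.det hL
  rw [LinearMap.det_comp, LinearMap.det_smul, LinearMap.det_id, finrank_M, mul_one] at hdet
  exact no_sq _ hdet

/-- Let B be the direct product of three cyclic groups of order 4. Then the automorphism of B inverting every element is not the square of any automorphism of B. -/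
theorem result {B : Type*} [CommGroup B] [Finite B] (hB : Nonempty (B ≃* Multiplicative (ZMod 4 × ZMod 4 × ZMod 4)))
    (τ : B ≃* B) : τ.trans τ ≠ MulEquiv.inv B := by
  obtain ⟨e⟩ := hB
  intro h
  have hτ : ∀ b : B, τ (τ b) = b⁻¹ := fun b => by
    have := DFunLike.congr_fun h b
    simpa using this
  let σ : Multiplicative (ZMod 4 × ZMod 4 × ZMod 4) →* Multiplicative (ZMod 4 × ZMod 4 × ZMod 4) :=
    ((e.symm.trans τ).trans e).toMonoidHom
  have hσ : ∀ y, σ (σ y) = y⁻¹ := by
    intro y
    simp only [σ, MulEquiv.toMonoidHom_eq_coe, MonoidHom.coe_coe, MulEquiv.trans_apply,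
      MulEquiv.symm_apply_apply]
    rw [hτ, map_inv, MulEquiv.apply_symm_apply]
  let f : (ZMod 4 × ZMod 4 × ZMod 4) →+ (ZMod 4 × ZMod 4 × ZMod 4) :=
    AddMonoidHom.toMultiplicative.symm σ
  apply no_add_hom f
  intro x
  have := hσ (Multiplicative.ofAdd x)
  exact congrArg Multiplicative.toAdd this

end Cfsg.Agent.S3155
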