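import Cfsg.Statements.S3156
import Cfsg.Agent.Lib.Helper46.SU3Syl
import Cfsg.Agent.Lib.Helper46.SU3Aut

set_option autoImplicit false
open Cfsg

namespace Cfsg.Agent.S3156

open Cfsg.Agent.Lib.Helper46.SU3Coord Cfsg.Agent.Lib.Helper46.SU3Syl Cfsg.Agent.Lib.Helper46.SU3Aut

section Helpers

theorem s3_facts : ∃ c t : Equiv.Perm (Fin 3), c ≠ 1 ∧ c * c * c = 1 ∧ t * t = 1 ∧
    t * c = c * c * t :=
  ⟨Equiv.swap 0 1 * Equiv.swap 1 2, Equiv.swap 0 1, by decide, by decide, by decide, by decide⟩

end Helpers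


/-- If a finite group T is isomorphic to a Sylow 2-subgroup of the projective special unitary group of dimension 3 with parameter 4 (realised over the field with 16 elements), then no subgroup of the automorphism group of T is isomorphic to the symmetric group of degree 3. -/
theorem result {T : Type*} [Group T] [Finite T] (hT : (∃ (F : Type) (_ : Field F) (_ : Fintype F), Fintype.card F = 16 ∧ ∃ S : Sylow 2 (Cfsg.PSU 3 F 4), Nonempty (T ≃* ↥(S : Subgroup (Cfsg.PSU 3 F 4))))) (H : Subgroup (MulAut T)) : ¬ Nonempty (↥H ≃* Equiv.Perm (Fin 3)) := by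
  obtain ⟨F, _, _, hF, S, ⟨e⟩⟩ := hT
  rintro ⟨f⟩
  have hF' : Fintype.card F = 4 ^ 2 := by rw [hF]; norm_num
  obtain ⟨φ, hφ, hinv, h2, -, hP⟩ := exists_coord (q := 4) (n := 2) (by norm_num) (by norm_num) hF'
  obtain ⟨C0⟩ := hP S
  let C : Coord T φ := C0.congr e
  have htr := htr_of hF' hφ hinv
  have hl := hl_of hF' hφ
  obtain ⟨c, t, hc1, hc3, ht2, htc⟩ := s3_facts
  obtain ⟨r, hrdef⟩ : ∃ r : MulAut T, r = (f.symm c : ↥H) := ⟨_, rfl⟩
  obtain ⟨s, hsdef⟩ : ∃ s : MulAut T, s = (f.symm t : ↥H) := ⟨_, rfl⟩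
  have hr1 : r ≠ 1 := by
    intro h
    apply hc1
    have : f.symm c = 1 := Subtype.ext (by rw [← hrdef, h]; rfl)
    rw [← f.symm.map_one] at this
    exact f.symm.injective this
  have hr3 : r * r * r = 1 := by
    have h := congrArg (fun h : ↥H => (h : MulAut T)) (show f.symm c * f.symm c * f.symm c = 1 by
      rw [← map_mul, ← map_mul, hc3, map_one])
    simpa [← hrdef] using h
  have hs2 : s * s = 1 := by
    have h := congrArg (fun h : ↥H => (h : MulAut T)) (show f.symm t * f.symm t = 1 by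
      rw [← map_mul, ht2, map_one])
    simpa [← hsdef] using h
  have hsr : s * r = r * r * s := by
    have h := congrArg (fun h : ↥H => (h : MulAut T))
      (show f.symm t * f.symm c = f.symm c * f.symm c * f.symm t by
        rw [← map_mul, ← map_mul, ← map_mul, htc])
    simpa [← hsdef, ← hrdef] using h
  obtain ⟨lr, ρr, hlr0, hαr, hβr⟩ := aut_structure C h2 hinv htr hl r
  obtain ⟨ls, ρs, hls0, hαs, hβs⟩ := aut_structure C h2 hinv htr hl s
  have hr3a : ∀ a, lr * ρr (lr * ρr (lr * ρr a)) = a := by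
    intro a
    obtain ⟨x, hx⟩ := exists_α C htr a hinv
    have h1 : r (r (r x)) = x := by
      have := congrArg (fun g : MulAut T => g x) hr3
      simpa [MulAut.mul_apply] using this
    have h3 := congrArg C.α h1
    rwa [hαr, hαr, hαr, hx] at h3
  have hρr3 : ∀ a, ρr (ρr (ρr a)) = a := by
    intro a
    have h1 := hr3a a
    have h0 := hr3a 1
    simp only [map_mul, map_one, mul_one] at h1 h0
    calc ρr (ρr (ρr a)) = (lr * (ρr lr * ρr (ρr lr))) * ρr (ρr (ρr a)) := by rw [h0, one_mul]
      _ = a := by linear_combination h1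
  obtain ⟨hfrob, hord⟩ := frob_facts (F := F) (q := 4) (n := 2) (by norm_num) hF'
  obtain ⟨j, hj⟩ := hfrob ρr
  have h4 : 2 * 2 ∣ j + (j + j) := hord (j + (j + j)) (fun x => by
    have := hρr3 x
    rwa [hj, hj, hj, ← pow_mul, ← pow_mul, ← pow_add, ← pow_add] at this)
  have h4j : 4 ∣ j := by omega
  have hρr : ∀ a, ρr a = a := by
    intro a
    obtain ⟨k, rfl⟩ := h4j
    rw [hj, pow_mul]
    have h16 : a ^ (2 ^ 4) = a := by
      have := FiniteField.pow_card a
      rw [hF] at this
      exact this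
    exact pow_pow_fix a (2 ^ 4) h16 k
  have hlr3 : lr * lr * lr = 1 := by
    have := hr3a 1
    simp only [hρr, mul_one] at this
    linear_combination this
  have hlr1 : lr ≠ 1 := by
    intro h
    apply hr1
    have hαr' : ∀ x, C.α (r x) = C.α x := by
      intro x
      rw [hαr, h, hρr, one_mul]
    have hcen : ∀ z, C.α z = 0 → r z = z := by
      intro z hz
      apply C.inj
      · rw [hαr']
      · rw [hβr z hz, h, map_one, one_mul, one_mul, hρr]
    have hrr : ∀ x, r (r x) = x := by
      intro x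
      have hw : C.α (x⁻¹ * r x) = 0 := by
        rw [C.mul_α, α_inv C h2, hαr']
        linear_combination C.α x * h2
      have h1 : r x = x * (x⁻¹ * r x) := by group
      have h3 : r (r x) = r x * (x⁻¹ * r x) := by
        conv_lhs => rw [h1, map_mul, hcen _ hw]
      rw [h3]
      have hww : (x⁻¹ * r x) * (x⁻¹ * r x) = 1 := (sq_eq_one_iff C h2 hinv _).mpr hw
      calc r x * (x⁻¹ * r x) = x * ((x⁻¹ * r x) * (x⁻¹ * r x)) := by group
        _ = x := by rw [hww, mul_one]
    have hr2 : r * r = 1 := by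
      ext x
      exact hrr x
    rwa [hr2, one_mul] at hr3
  have hs2a : ∀ a, ls * ρs (ls * ρs a) = a := by
    intro a
    obtain ⟨x, hx⟩ := exists_α C htr a hinv
    have h1 : s (s x) = x := by
      have := congrArg (fun g : MulAut T => g x) hs2
      simpa [MulAut.mul_apply] using this
    have h3 := congrArg C.α h1
    rwa [hαs, hαs, hx] at h3
  have hρs2 : ∀ a, ρs (ρs a) = a := by
    intro a
    have h1 := hs2a a
    have h0 := hs2a 1
    simp only [map_mul, map_one, mul_one] at h1 h0
    calc ρs (ρs a) = (ls * ρs ls) * ρs (ρs a) := by rw [h0, one_mul]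
      _ = a := by linear_combination h1
  obtain ⟨j', hj'⟩ := hfrob ρs
  have h4' : 2 * 2 ∣ j' + j' := hord (j' + j') (fun x => by
    have := hρs2 x
    rwa [hj', hj', ← pow_mul, ← pow_add] at this)
  have h2j : 2 ∣ j' := by omega
  have hlr4 : lr ^ (2 ^ 2) = lr := by
    calc lr ^ (2 ^ 2) = (lr * lr * lr) * lr := by ring
      _ = lr := by rw [hlr3, one_mul]
  have hρslr : ρs lr = lr := by
    obtain ⟨k, rfl⟩ := h2j
    rw [hj', pow_mul]
    exact pow_pow_fix lr (2 ^ 2) hlr4 k
  obtain ⟨x, hx⟩ := exists_α C htr 1 hinv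
  have h1 : s (r x) = r (r (s x)) := by
    have := congrArg (fun g : MulAut T => g x) hsr
    simpa [MulAut.mul_apply] using this
  have h3 := congrArg C.α h1
  rw [hαs, hαr, hαr, hαr, hαs, hx] at h3
  simp only [hρr, map_one, mul_one, hρslr] at h3
  have h5 : ls * lr * (lr - 1) = 0 := by linear_combination -h3
  rcases mul_eq_zero.mp h5 with h | h
  · rcases mul_eq_zero.mp h with h | h
    · exact hls0 h
    · exact hlr0 h
  · exact hlr1 (sub_eq_zero.mp h)

end Cfsg.Agent.S3156
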