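import Cfsg.Statements.S3162
import Cfsg.Agent.Lib.Helper46.SU3Syl
import Cfsg.Agent.Lib.Helper46.SU3Aut
import Cfsg.Agent.Lib.Helper47.Basic
import Cfsg.Agent.Lib.Helper76.PSolv

set_option autoImplicit false
open Cfsg

namespace Cfsg.Agent.S3162

open Cfsg.Agent.Lib.Helper46.SU3Coord Cfsg.Agent.Lib.Helper46.SU3Syl Cfsg.Agent.Lib.Helper46.SU3Aut

section Helpers

set_option linter.unusedSectionVars false
set_option linter.unusedVariables false

theorem card_ringHom {F : Type*} [Field F] [Fintype F] {q n : ℕ} (hq : q = 2 ^ n)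
    (hF : Fintype.card F = q ^ 2) : Nat.card (F →+* F) = 2 * n := by
  have h2 : (2 : F) = 0 := two_eq_zero_of_card hq hF
  haveI : CharP F 2 := CharTwo.of_one_ne_zero_of_two_eq_zero one_ne_zero h2
  letI : Algebra (ZMod 2) F := ZMod.algebra F 2
  have hcard2 : Fintype.card (ZMod 2) = 2 := ZMod.card 2
  have hfr : Module.finrank (ZMod 2) F = 2 * n := by
    have h := Module.card_eq_pow_finrank (K := ZMod 2) (V := F)
    rw [hF, hq, hcard2, ← pow_mul] at h
    have := Nat.pow_right_injective (le_refl 2) h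
    omega
  have hb := FiniteField.bijective_frobeniusAlgHom_pow (ZMod 2) F
  have h1 : Nat.card (F →ₐ[ZMod 2] F) = 2 * n := by
    rw [← Nat.card_eq_of_bijective _ hb, Nat.card_fin, hfr]
  rw [← h1]
  symm
  apply Nat.card_eq_of_bijective (fun f : F →ₐ[ZMod 2] F => (f : F →+* F))
  constructor
  · intro f g h
    exact AlgHom.coe_ringHom_injective h
  · intro ρ
    exact ⟨{ ρ with
      commutes' := fun r => RingHom.congr_fun
        (Subsingleton.elim (ρ.comp (algebraMap (ZMod 2) F)) (algebraMap (ZMod 2) F)) r }, rfl⟩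

variable {G : Type*} [Group G] {F : Type*} [Field F] [Fintype F] {φ : F →+* F} (C : Coord G φ)
  (h2 : (2 : F) = 0) (hinv : ∀ x, φ (φ x) = x)
  (htr : ∀ c, φ c = c → ∃ b, b + φ b = c) (hl : ∃ l, φ l ≠ l)

include h2 hl in
theorem Am_comp (τ σ : G ≃* G) (a : F) :
    Am C hinv htr (τ * σ) a = Am C hinv htr τ (Am C hinv htr σ a) :=
  α_map C h2 hinv htr hl τ (σ (xa C hinv htr a))

theorem Am_one (a : F) : Am C hinv htr 1 a = a := xa_spec C hinv htr a

/-- the action on the first coordinate, as a homomorphism to the permutations of the field -/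
noncomputable def Theta : MulAut G →* Equiv.Perm F where
  toFun τ :=
    { toFun := Am C hinv htr τ
      invFun := Am C hinv htr τ⁻¹
      left_inv := fun a => by rw [← Am_comp C h2 hinv htr hl, inv_mul_cancel, Am_one]
      right_inv := fun a => by rw [← Am_comp C h2 hinv htr hl, mul_inv_cancel, Am_one] }
  map_one' := by
    ext a
    exact Am_one C hinv htr a
  map_mul' := fun τ σ => by
    ext a
    exact Am_comp C h2 hinv htr hl τ σ a

theorem Theta_apply (τ : MulAut G) (x : G) :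
    Theta C h2 hinv htr hl τ (C.α x) = C.α (τ x) :=
  (α_map C h2 hinv htr hl τ x).symm

theorem mem_ker_iff (τ : MulAut G) :
    τ ∈ (Theta C h2 hinv htr hl).ker ↔ ∀ x, C.α (τ x) = C.α x := by
  rw [MonoidHom.mem_ker]
  constructor
  · intro h x
    rw [← Theta_apply C h2 hinv htr hl, h]
    rfl
  · intro h
    ext a
    obtain ⟨x, rfl⟩ := exists_α C htr a hinv
    rw [Theta_apply, h]
    rfl

theorem exists_aut_rho [Finite G] {q : ℕ} (hφ : ∀ x, φ x = x ^ q) (ρ : F →+* F) :
    ∃ τ : MulAut G, ∀ x, C.α (τ x) = ρ (C.α x) := by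
  have hcomm : ∀ x, ρ (φ x) = φ (ρ x) := fun x => by rw [hφ, hφ, map_pow]
  have hex : ∀ x : G, ∃ y, C.α y = ρ (C.α x) ∧ C.β y = ρ (C.β x) := fun x =>
    C.surj _ _ (by rw [← hcomm, ← hcomm, ← map_add, ← map_mul, C.rel])
  choose f hf using hex
  have hmul : ∀ x y, f (x * y) = f x * f y := by
    intro x y
    apply C.inj
    · rw [(hf _).1, C.mul_α, C.mul_α, (hf x).1, (hf y).1, map_add]
    · rw [(hf _).2, C.mul_β, C.mul_β, (hf x).2, (hf y).2, (hf x).1, (hf y).1, map_add, map_add,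
        map_mul, hcomm]
  have hinj : Function.Injective f := by
    intro x y hxy
    apply C.inj
    · apply ρ.injective
      rw [← (hf x).1, ← (hf y).1, hxy]
    · apply ρ.injective
      rw [← (hf x).2, ← (hf y).2, hxy]
  exact ⟨MulEquiv.ofBijective (MonoidHom.mk' f hmul) (Finite.injective_iff_bijective.mp hinj),
    fun x => (hf x).1⟩

theorem exists_aut [Finite G] {q : ℕ} (hφ : ∀ x, φ x = x ^ q) (u : Fˣ) (ρ : F →+* F) :
    ∃ τ : MulAut G, ∀ a, Theta C h2 hinv htr hl τ a = u * ρ a := by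
  obtain ⟨τ, hτ⟩ := exists_aut_rho C hφ ρ
  refine ⟨psiHom C hinv u * τ, fun a => ?_⟩
  obtain ⟨x, rfl⟩ := exists_α C htr a hinv
  rw [Theta_apply]
  show C.α (psi C hinv (u : F) (τ x)) = _
  rw [psi_α, hτ]

theorem card_range [Finite G] {q n : ℕ} (hq : q = 2 ^ n) (hF : Fintype.card F = q ^ 2)
    (hφ : ∀ x, φ x = x ^ q) :
    Nat.card (Theta C h2 hinv htr hl).range = (q ^ 2 - 1) * (2 * n) := by
  classical
  have hex := exists_aut C h2 hinv htr hl hφ
  choose T hT using hex
  let Ξ : Fˣ × (F →+* F) → (Theta C h2 hinv htr hl).range :=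
    fun p => ⟨Theta C h2 hinv htr hl (T p.1 p.2), ⟨_, rfl⟩⟩
  have hΞ : Function.Bijective Ξ := by
    constructor
    · rintro ⟨u, ρ⟩ ⟨u', ρ'⟩ h
      have h1 : ∀ a, (u : F) * ρ a = u' * ρ' a := by
        intro a
        rw [← hT u ρ a, ← hT u' ρ' a]
        exact congrArg (fun e : (Theta C h2 hinv htr hl).range => (e : Equiv.Perm F) a) h
      have hu : u = u' := by
        apply Units.ext
        have := h1 1
        rwa [map_one, map_one, mul_one, mul_one] at this
      subst hu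
      have hρ : ρ = ρ' := by
        ext a
        exact mul_left_cancel₀ u.ne_zero (h1 a)
      rw [hρ]
    · rintro ⟨_, τ, rfl⟩
      obtain ⟨l, ρ, hl0, hα, -⟩ := aut_structure C h2 hinv htr hl τ
      refine ⟨(Units.mk0 l hl0, ρ), ?_⟩
      apply Subtype.ext
      ext a
      show Theta C h2 hinv htr hl (T (Units.mk0 l hl0) ρ) a = Theta C h2 hinv htr hl τ a
      rw [hT]
      obtain ⟨x, rfl⟩ := exists_α C htr a hinv
      rw [Theta_apply, hα]
      rfl
  rw [← Nat.card_eq_of_bijective Ξ hΞ, Nat.card_prod, Nat.card_units, card_ringHom hq hF,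
    Nat.card_eq_fintype_card, hF]

include h2 hinv htr hl in
theorem ker_shear (τ : MulAut G) (hτ : ∀ x, C.α (τ x) = C.α x) :
    ∃ h : F →+ F, (∀ a, φ (h a) = h a) ∧ ∀ x, C.β (τ x) = C.β x + h (C.α x) := by
  have hcen : ∀ z, C.α z = 0 → C.β (τ z) = C.β z := by
    obtain ⟨l, ρ, hl0, hα, hβ⟩ := aut_structure C h2 hinv htr hl τ
    have hlρ : ∀ a, l * ρ a = a := by
      intro a
      obtain ⟨x, rfl⟩ := exists_α C htr a hinv
      rw [← hα, hτ]
    have hl1 : l = 1 := by
      have := hlρ 1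
      rwa [map_one, mul_one] at this
    intro z hz
    rw [hβ z hz, hl1, map_one, one_mul, one_mul]
    have := hlρ (C.β z)
    rwa [hl1, one_mul] at this
  let δ : G → F := fun x => C.β (τ x) + C.β x
  have hδmul : ∀ x y, δ (x * y) = δ x + δ y := by
    intro x y
    show C.β (τ (x * y)) + C.β (x * y) = (C.β (τ x) + C.β x) + (C.β (τ y) + C.β y)
    rw [map_mul, C.mul_β, C.mul_β, hτ, hτ]
    linear_combination (C.α x * φ (C.α y)) * h2
  have hδfix : ∀ x, φ (δ x) = δ x := by
    intro x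
    show φ (C.β (τ x) + C.β x) = C.β (τ x) + C.β x
    have h1 := C.rel (τ x)
    have h3 := C.rel x
    rw [hτ] at h1
    rw [map_add]
    linear_combination h1 - h3 + (φ (C.β x) - C.β (τ x)) * h2
  have hδcen : ∀ z, C.α z = 0 → δ z = 0 := by
    intro z hz
    show C.β (τ z) + C.β z = 0
    rw [hcen z hz]
    linear_combination C.β z * h2
  have hδα : ∀ x y, C.α x = C.α y → δ x = δ y := by
    intro x y hxy
    have h0 : C.α (x⁻¹ * y) = 0 := by
      rw [C.mul_α, α_inv C h2, hxy]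
      linear_combination C.α y * h2
    have h1 := hδcen _ h0
    have h3 := hδmul x (x⁻¹ * y)
    rw [mul_inv_cancel_left, h1, add_zero] at h3
    exact h3.symm
  refine ⟨AddMonoidHom.mk' (fun a => δ (xa C hinv htr a)) ?_, ?_, ?_⟩
  · intro a b
    show δ (xa C hinv htr (a + b)) = δ (xa C hinv htr a) + δ (xa C hinv htr b)
    rw [← hδmul]
    apply hδα
    rw [C.mul_α, xa_spec, xa_spec, xa_spec]
  · intro a
    exact hδfix _
  · intro x
    show C.β (τ x) = C.β x + δ (xa C hinv htr (C.α x))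
    rw [hδα (xa C hinv htr (C.α x)) x (xa_spec C hinv htr _)]
    show C.β (τ x) = C.β x + (C.β (τ x) + C.β x)
    linear_combination (-C.β x) * h2

include h2 in
theorem exists_shear [Finite G] (h : F →+ F) (hh : ∀ a, φ (h a) = h a) :
    ∃ τ : MulAut G, ∀ x, C.α (τ x) = C.α x ∧ C.β (τ x) = C.β x + h (C.α x) := by
  have hex : ∀ x : G, ∃ y, C.α y = C.α x ∧ C.β y = C.β x + h (C.α x) := fun x =>
    C.surj _ _ (by rw [map_add, hh]; linear_combination C.rel x + h (C.α x) * h2)
  choose f hf using hex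
  have hmul : ∀ x y, f (x * y) = f x * f y := by
    intro x y
    apply C.inj
    · rw [(hf _).1, C.mul_α, C.mul_α, (hf x).1, (hf y).1]
    · rw [(hf _).2, C.mul_β, C.mul_β, (hf x).2, (hf y).2, (hf x).1, (hf y).1, C.mul_α, map_add]
      ring
  have hinj : Function.Injective f := by
    intro x y hxy
    have hα : C.α x = C.α y := by rw [← (hf x).1, ← (hf y).1, hxy]
    apply C.inj _ _ hα
    have := (hf x).2
    rw [hxy, (hf y).2, hα] at this
    exact (add_right_cancel this).symm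
  exact ⟨MulEquiv.ofBijective (MonoidHom.mk' f hmul) (Finite.injective_iff_bijective.mp hinj), hf⟩

include h2 hinv htr hl in
theorem ker_comm (τ σ : MulAut G) (hτ : ∀ x, C.α (τ x) = C.α x) (hσ : ∀ x, C.α (σ x) = C.α x) :
    τ * σ = σ * τ := by
  obtain ⟨f, -, hf⟩ := ker_shear C h2 hinv htr hl τ hτ
  obtain ⟨g, -, hg⟩ := ker_shear C h2 hinv htr hl σ hσ
  apply MulEquiv.ext
  intro x
  show τ (σ x) = σ (τ x)
  apply C.inj
  · rw [hτ, hσ, hσ, hτ]
  · rw [hf, hg, hσ, hg, hf, hτ]
    ring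

include h2 hinv htr hl in
theorem ker_sq (τ : MulAut G) (hτ : ∀ x, C.α (τ x) = C.α x) : τ ^ 2 = 1 := by
  obtain ⟨f, -, hf⟩ := ker_shear C h2 hinv htr hl τ hτ
  apply MulEquiv.ext
  intro x
  rw [sq]
  show τ (τ x) = x
  apply C.inj
  · rw [hτ, hτ]
  · rw [hf, hf, hτ]
    linear_combination f (C.α x) * h2

theorem card_ker [Finite G] {q n : ℕ} (hq : q = 2 ^ n) (hF : Fintype.card F = q ^ 2)
    (hφ : ∀ x, φ x = x ^ q) :
    Nat.card (Theta C h2 hinv htr hl).ker = 2 ^ (2 * n ^ 2) := by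
  classical
  haveI : CharP F 2 := CharTwo.of_one_ne_zero_of_two_eq_zero one_ne_zero h2
  letI : Algebra (ZMod 2) F := ZMod.algebra F 2
  have hcard2 : Fintype.card (ZMod 2) = 2 := ZMod.card 2
  have hfr : Module.finrank (ZMod 2) F = 2 * n := by
    have h := Module.card_eq_pow_finrank (K := ZMod 2) (V := F)
    rw [hF, hq, hcard2, ← pow_mul] at h
    have := Nat.pow_right_injective (le_refl 2) h
    omega
  let K' : Submodule (ZMod 2) F :=
    { carrier := {c | φ c = c}
      add_mem' := fun {a b} ha hb => by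
        show φ (a + b) = a + b
        rw [map_add, (ha : φ a = a), (hb : φ b = b)]
      zero_mem' := map_zero φ
      smul_mem' := fun r a ha => by
        show φ (r • a) = r • a
        rw [ZMod.map_smul, (ha : φ a = a)] }
  have hq0 : q ≠ 0 := by
    rw [hq]
    positivity
  have hK' : Nat.card K' = q := by
    rw [← Cfsg.Agent.Lib.Helper14.HermLines.card_trace_fiber hF φ hφ hinv 0 (zero_pow hq0)]
    apply Nat.card_congr
    refine Equiv.subtypeEquivRight (fun c => ?_)
    show φ c = c ↔ c + c ^ q = 0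
    rw [hφ]
    constructor
    · intro h
      rw [h]
      linear_combination c * h2
    · intro h
      linear_combination h - c * h2
  let b := Module.finBasis (ZMod 2) F
  have hcount : Nat.card (F →ₗ[ZMod 2] K') = q ^ (2 * n) := by
    rw [← Nat.card_congr (b.constr (ZMod 2)).toEquiv, Nat.card_fun, hK', Nat.card_fin, hfr]
  have hex : ∀ h : F →ₗ[ZMod 2] K', ∃ τ : MulAut G,
      ∀ x, C.α (τ x) = C.α x ∧ C.β (τ x) = C.β x + (h (C.α x) : F) := fun h =>
    exists_shear C h2 (K'.subtype.toAddMonoidHom.comp h.toAddMonoidHom) (fun a => (h a).2)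
  choose T hT using hex
  let Ξ : (F →ₗ[ZMod 2] K') → (Theta C h2 hinv htr hl).ker := fun h =>
    ⟨T h, (mem_ker_iff C h2 hinv htr hl _).mpr (fun x => (hT h x).1)⟩
  have hΞ : Function.Bijective Ξ := by
    constructor
    · intro h h' hh
      have h1 : T h = T h' := congrArg Subtype.val hh
      apply LinearMap.ext
      intro a
      apply Subtype.ext
      obtain ⟨x, rfl⟩ := exists_α C htr a hinv
      have e1 := (hT h x).2
      rw [h1, (hT h' x).2] at e1
      exact (add_left_cancel e1).symm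
    · rintro ⟨τ, hτ⟩
      rw [mem_ker_iff] at hτ
      obtain ⟨g, hg1, hg2⟩ := ker_shear C h2 hinv htr hl τ hτ
      let g' : F →+ K' := AddMonoidHom.mk' (fun a => ⟨g a, hg1 a⟩)
        (fun a b => Subtype.ext (map_add g a b))
      refine ⟨g'.toZModLinearMap 2, Subtype.ext ?_⟩
      apply MulEquiv.ext
      intro x
      apply C.inj
      · rw [(hT _ x).1, hτ]
      · rw [(hT _ x).2, hg2]
        rfl
  rw [← Nat.card_eq_of_bijective Ξ hΞ, hcount, hq, ← pow_mul]
  congr 1
  ring

theorem Theta_psi (u : Fˣ) (a : F) : Theta C h2 hinv htr hl (psiHom C hinv u) a = u * a := by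
  obtain ⟨x, rfl⟩ := exists_α C htr a hinv
  rw [Theta_apply]
  show C.α (psi C hinv (u : F) x) = _
  rw [psi_α]

include h2 in
theorem pow_two_pow [Finite F] (w : F) (k : ℕ) (h : w ^ 2 ^ k = 1) : w = 1 := by
  induction k generalizing w with
  | zero => simpa using h
  | succ k ih =>
    rw [pow_succ, pow_mul'] at h
    have := ih (w ^ 2) h
    apply sq_inj h2
    rw [one_mul, ← sq]
    exact this

theorem pCore_le_ker [Finite G] : pCore 2 (MulAut G) ≤ (Theta C h2 hinv htr hl).ker := by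
  intro τ hτQ
  have hQn := Cfsg.Agent.Lib.Helper47.Basic.pCore_normal 2 (MulAut G)
  have hQp := Cfsg.Agent.Lib.Helper47.Basic.pCore_isPGroup 2 (MulAut G)
  obtain ⟨l, ρ, hl0, hα, -⟩ := aut_structure C h2 hinv htr hl τ
  have hΘτ : ∀ a, Theta C h2 hinv htr hl τ a = l * ρ a := by
    intro a
    obtain ⟨x, rfl⟩ := exists_α C htr a hinv
    rw [Theta_apply, hα]
  have key : ∀ c ∈ pCore 2 (MulAut G), ∀ w : F,
      (∀ a, Theta C h2 hinv htr hl c a = w * a) → w = 1 := by
    intro c hc w hw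
    obtain ⟨k, hk⟩ := hQp ⟨c, hc⟩
    have hk' : c ^ 2 ^ k = 1 := by
      have := congrArg Subtype.val hk
      simpa using this
    have hpow : ∀ m : ℕ, ∀ a, Theta C h2 hinv htr hl (c ^ m) a = w ^ m * a := by
      intro m
      induction m with
      | zero => intro a; simp
      | succ m ih =>
        intro a
        rw [pow_succ, map_mul, Equiv.Perm.mul_apply, hw, ih]
        ring
    have := hpow (2 ^ k) 1
    rw [hk', (Theta C h2 hinv htr hl).map_one] at this
    have h1 : (1 : F) = w ^ 2 ^ k * 1 := this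
    rw [mul_one] at h1
    exact pow_two_pow h2 w k h1.symm
  have hρ : ∀ u : Fˣ, ρ u = u := by
    intro u
    have hc : τ * (psiHom C hinv u * τ⁻¹ * (psiHom C hinv u)⁻¹) ∈ pCore 2 (MulAut G) :=
      mul_mem hτQ (hQn.conj_mem _ (inv_mem hτQ) _)
    have hw := key _ hc (ρ u * (u : F)⁻¹) (fun a => by
      rw [map_mul, map_mul, map_mul, Equiv.Perm.mul_apply, Equiv.Perm.mul_apply,
        Equiv.Perm.mul_apply, map_inv, map_inv]
      obtain ⟨d, hd⟩ : ∃ d, d = (Theta C h2 hinv htr hl (psiHom C hinv u))⁻¹ a := ⟨_, rfl⟩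
      obtain ⟨b, hb⟩ : ∃ b, b = (Theta C h2 hinv htr hl τ)⁻¹ d := ⟨_, rfl⟩
      rw [← hd, ← hb]
      have hb1 : Theta C h2 hinv htr hl τ b = d := by
        rw [hb]
        exact Equiv.apply_symm_apply _ _
      have hd1 : (u : F) * d = a := by
        rw [← Theta_psi C h2 hinv htr hl, hd]
        exact Equiv.apply_symm_apply _ _
      rw [hΘτ] at hb1
      rw [Theta_psi, hΘτ, map_mul, ← hd1, ← hb1]
      have hu0 : (u : F) ≠ 0 := u.ne_zero
      field_simp)
    have hu0 : (u : F) ≠ 0 := u.ne_zero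
    field_simp at hw
    exact hw
  have hρ' : ∀ a, ρ a = a := by
    intro a
    by_cases ha : a = 0
    · rw [ha, map_zero]
    · exact hρ (Units.mk0 a ha)
  have hl1 : l = 1 := key τ hτQ l (fun a => by rw [hΘτ, hρ'])
  rw [mem_ker_iff]
  intro x
  rw [hα, hl1, hρ', one_mul]

include C h2 hinv htr hl in
theorem main [Finite G] {q n : ℕ} (hq : q = 2 ^ n) (hF : Fintype.card F = q ^ 2)
    (hφ : ∀ x, φ x = x ^ q) :
    IsElementaryAbelian 2 (pCore 2 (MulAut G)) ∧
      Nat.card (pCore 2 (MulAut G)) = 2 ^ (2 * n ^ 2) ∧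
      Nat.card (MulAut G) = 2 ^ (2 * n ^ 2) * (2 * n * (q ^ 2 - 1)) := by
  have hker := card_ker C h2 hinv htr hl hq hF hφ
  have heq : pCore 2 (MulAut G) = (Theta C h2 hinv htr hl).ker :=
    le_antisymm (pCore_le_ker C h2 hinv htr hl)
      (Cfsg.Agent.Lib.Helper47.Basic.le_pCore (MonoidHom.normal_ker _) (IsPGroup.of_card hker))
  have hmem := mem_ker_iff C h2 hinv htr hl
  refine ⟨⟨?_, ?_⟩, ?_, ?_⟩
  · rw [heq]
    exact ⟨⟨fun a b => Subtype.ext
      (ker_comm C h2 hinv htr hl a.1 b.1 ((hmem _).mp a.2) ((hmem _).mp b.2))⟩⟩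
  · intro a ha
    rw [heq] at ha
    exact ker_sq C h2 hinv htr hl a ((hmem _).mp ha)
  · rw [heq, hker]
  · rw [← Subgroup.card_mul_index (Theta C h2 hinv htr hl).ker, Subgroup.index_ker, hker,
      card_range C h2 hinv htr hl hq hF hφ]
    ring

end Helpers


/-- Let S be a Sylow 2-subgroup of the special unitary group of dimension 3 with parameter q = 2^n (n ≥ 2; realised over the field with q² elements). Then the largest normal 2-subgroup of the automorphism group of S is elementary abelian of order 2^(2n²), and the automorphism group has order 2^(2n²) · 2n(q² − 1). -/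
theorem result {S : Type*} [Group S] [Finite S] (n : ℕ) (hn : 2 ≤ n) {F : Type*} [Field F] [Fintype F] (hF : Fintype.card F = 4 ^ n)
    (P : Sylow 2 ↥(Cfsg.SU 3 F (2 ^ n))) (hS : Nonempty (S ≃* ↥(P : Subgroup ↥(Cfsg.SU 3 F (2 ^ n))))) :
    Cfsg.IsElementaryAbelian 2 (Cfsg.pCore 2 (MulAut S)) ∧ Nat.card ↥(Cfsg.pCore 2 (MulAut S)) = 2 ^ (2 * n ^ 2) ∧
      Nat.card (MulAut S) = 2 ^ (2 * n ^ 2) * (2 * n * ((2 ^ n) ^ 2 - 1)) := by
  obtain ⟨e⟩ := hS
  have hF' : Fintype.card F = (2 ^ n) ^ 2 := by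
    rw [hF, ← pow_mul, show (4 : ℕ) = 2 ^ 2 from rfl, ← pow_mul, mul_comm]
  obtain ⟨φ, hφ, hinv, h2, hC, -⟩ := exists_coord (q := 2 ^ n) rfl (by omega) hF'
  obtain ⟨C0⟩ := hC P
  exact main (C0.congr e) h2 hinv (htr_of hF' hφ hinv) (hl_of hF' hφ) rfl hF' hφ

end Cfsg.Agent.S3162
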