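import Cfsg.Statements.S3171
import Cfsg.Agent.Lib.Helper93.Syl2Q
import Cfsg.Agent.Lib.Helper7.M24Main

set_option autoImplicit false
open Cfsg

namespace Cfsg.Agent.S3171

open Cfsg.Agent.Lib.Helper93.Syl2Q Cfsg.Agent.Lib.Helper86.TabGrp Cfsg.Agent.Lib.Helper86.SylM24

/-- the statement, for a group -/
def Phi (G : Type) [Group G] : Prop :=
  (∀ M : Subgroup (G ⧸ Subgroup.center G), IsCoatom M → Nat.card ↥(Subgroup.center ↥M) ≤ 8) ∧
    (∃ A : Subgroup (G ⧸ Subgroup.center G), Cfsg.IsElementaryAbelian 2 A ∧ Nat.card ↥A = 64) ∧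
    ∀ A B : Subgroup (G ⧸ Subgroup.center G), IsMulCommutative ↥A → Nat.card ↥A = 64 →
      IsMulCommutative ↥B → Nat.card ↥B = 64 → A = B

theorem map_center {G H : Type} [Group G] [Group H] (e : G ≃* H) :
    (Subgroup.center G).map (e : G →* H) = Subgroup.center H := by
  ext x
  constructor
  · rintro ⟨g, hg, rfl⟩
    have hg' : g ∈ Subgroup.center G := hg
    rw [Subgroup.mem_center_iff] at hg' ⊢
    intro h
    have h2 := congrArg e (hg' (e.symm h))
    rw [map_mul, map_mul, MulEquiv.apply_symm_apply] at h2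
    exact h2
  · intro hx
    refine ⟨e.symm x, ?_, MulEquiv.apply_symm_apply e x⟩
    show e.symm x ∈ Subgroup.center G
    rw [Subgroup.mem_center_iff] at hx ⊢
    intro g
    apply e.injective
    rw [map_mul, map_mul, MulEquiv.apply_symm_apply]
    exact hx (e g)

theorem card_center_congr {A B : Type} [Group A] [Group B] (e : A ≃* B) :
    Nat.card ↥(Subgroup.center A) = Nat.card ↥(Subgroup.center B) := by
  rw [← map_center e]
  exact (Subgroup.card_map_of_injective e.injective).symm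

theorem comm_map {A B : Type} [Group A] [Group B] (e : A ≃* B) (X : Subgroup A)
    (h : IsMulCommutative ↥X) : IsMulCommutative ↥(X.map (e : A →* B)) := by
  refine ⟨⟨fun x y => ?_⟩⟩
  obtain ⟨a, ha, hx⟩ := Subgroup.mem_map.mp x.2
  obtain ⟨b, hb, hy⟩ := Subgroup.mem_map.mp y.2
  apply Subtype.ext
  show (x : B) * y = y * x
  rw [← hx, ← hy]
  have h2 : a * b = b * a := congrArg Subtype.val (h.is_comm.comm (⟨a, ha⟩ : ↥X) ⟨b, hb⟩)
  show e a * e b = e b * e a
  rw [← map_mul, ← map_mul, h2]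

theorem phi_of_equiv {G H : Type} [Group G] [Group H] (e : G ≃* H) (h : Phi H) : Phi G := by
  obtain ⟨h1, ⟨A', hA', hcA'⟩, h3⟩ := h
  obtain ⟨φ⟩ : Nonempty (G ⧸ Subgroup.center G ≃* H ⧸ Subgroup.center H) :=
    ⟨QuotientGroup.congr (Subgroup.center G) (Subgroup.center H) e (map_center e)⟩
  refine ⟨?_, ?_, ?_⟩
  · intro M hM
    have hM' : IsCoatom (M.map (φ : G ⧸ Subgroup.center G →* H ⧸ Subgroup.center H)) :=
      (OrderIso.isCoatom_iff φ.mapSubgroup M).mpr hM
    have h2 := h1 _ hM'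
    rwa [← card_center_congr (φ.subgroupMap M)] at h2
  · refine ⟨A'.map (φ.symm : H ⧸ Subgroup.center H →* G ⧸ Subgroup.center G),
      ⟨comm_map φ.symm A' hA'.1, ?_⟩, ?_⟩
    · intro a ha
      obtain ⟨b, hb, rfl⟩ := Subgroup.mem_map.mp ha
      show (φ.symm b) ^ 2 = 1
      rw [← map_pow, hA'.2 b hb, map_one]
    · rw [Subgroup.card_map_of_injective φ.symm.injective, hcA']
  · intro A B hA hcA hB hcB
    have h2 := h3 (A.map (φ : G ⧸ Subgroup.center G →* H ⧸ Subgroup.center H))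
      (B.map (φ : G ⧸ Subgroup.center G →* H ⧸ Subgroup.center H)) (comm_map φ A hA)
      (by rw [Subgroup.card_map_of_injective φ.injective, hcA]) (comm_map φ B hB)
      (by rw [Subgroup.card_map_of_injective φ.injective, hcB])
    exact Subgroup.map_injective φ.injective h2

theorem fact2 : (244823040 : ℕ).factorization 2 = 10 := by
  have e : (244823040 : ℕ) = 2 ^ 10 * 239085 := by norm_num
  rw [e, Nat.factorization_mul (by norm_num) (by norm_num), Finsupp.add_apply,
    Nat.Prime.factorization_pow Nat.prime_two, Finsupp.single_eq_same,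
    Nat.factorization_eq_zero_of_not_dvd (by norm_num)]

/-- Let P be a Sylow 2-subgroup of the Mathieu group of degree 24 and S the quotient of P by its centre. Then the centre of every maximal subgroup of S has order at most 8; S has an elementary abelian subgroup of order 64; and S has only one abelian subgroup of order 64. -/
theorem result (P : Sylow 2 ↥Cfsg.M24) :
    (∀ M : Subgroup (↥(P : Subgroup ↥Cfsg.M24) ⧸ Subgroup.center ↥(P : Subgroup ↥Cfsg.M24)), IsCoatom M →
        Nat.card ↥(Subgroup.center ↥M) ≤ 8) ∧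
      (∃ A : Subgroup (↥(P : Subgroup ↥Cfsg.M24) ⧸ Subgroup.center ↥(P : Subgroup ↥Cfsg.M24)),
        Cfsg.IsElementaryAbelian 2 A ∧ Nat.card ↥A = 64) ∧
      ∀ A B : Subgroup (↥(P : Subgroup ↥Cfsg.M24) ⧸ Subgroup.center ↥(P : Subgroup ↥Cfsg.M24)),
        IsMulCommutative ↥A → Nat.card ↥A = 64 → IsMulCommutative ↥B → Nat.card ↥B = 64 → A = B := by
  have : Fact (Nat.Prime 2) := ⟨Nat.prime_two⟩
  have hc : Nat.card ↥((grp gT).subgroupOf Cfsg.M24) =
      2 ^ (Nat.card ↥Cfsg.M24).factorization 2 := by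
    rw [Nat.card_congr (Subgroup.subgroupOfEquivOfLe grpLe).toEquiv, card_grp,
      Cfsg.Agent.Lib.Helper7.M24Main.card_M24, fact2]
  let P0 : Sylow 2 ↥Cfsg.M24 := Sylow.ofCard _ hc
  have e1 : ↥(P : Subgroup ↥Cfsg.M24) ≃* ↥(P0 : Subgroup ↥Cfsg.M24) := Sylow.equiv P P0
  have e2 : ↥(P0 : Subgroup ↥Cfsg.M24) ≃* ↥(grp gT) := Subgroup.subgroupOfEquivOfLe grpLe
  exact phi_of_equiv (e1.trans e2) ⟨claim1, claim2, claim3⟩

end Cfsg.Agent.S3171
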