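import Mathlib
import Cfsg.Statements.S3178
import Cfsg.Agent.Lib.Helper54.OmegaTwo
import Cfsg.Agent.Lib.Helper2.Frob
import Cfsg.Agent.Lib.Helper53.SylowConj
import Cfsg.Agent.Lib.Helper53.SylowMore

set_option autoImplicit false
open Cfsg

namespace Cfsg.Agent.S3178

/-- an element of odd order commutes with whatever its square commutes with -/
theorem commute_of_sq_commute {G : Type*} [Group G] (g x : G) (ho : (orderOf g).Coprime 2)
    (h : (g * g) * x = x * (g * g)) : g * x = x * g := by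
  have hodd : Odd (orderOf g) := Nat.Coprime.odd_of_right ho
  obtain ⟨m, hm⟩ := hodd
  have h1 : g = (g * g) ^ (m + 1) := by
    have h2 : g ^ (2 * m + 1) = 1 := by rw [← hm, pow_orderOf_eq_one]
    calc g = g ^ (2 * m + 1) * g := by rw [h2, one_mul]
      _ = g ^ (2 * (m + 1)) := by
          have h5 : 2 * m + 1 + 1 = 2 * (m + 1) := by ring
          rw [← pow_succ, h5]
      _ = (g * g) ^ (m + 1) := by rw [pow_mul, pow_two]
  have h3 : Commute (g * g) x := h
  have h4 : Commute ((g * g) ^ (m + 1)) x := h3.pow_left (m + 1)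
  rw [← h1] at h4
  exact h4

theorem key {G : Type*} [Group G] [Finite G]
    (S : Sylow 2 G) (e : ℕ) (he : 0 < e) (hS : Nat.card ↥(S : Subgroup G) = 2 * (8 * e))
    (a b : G) (ha : a ∈ (S : Subgroup G)) (hb : b ∈ (S : Subgroup G))
    (hao : orderOf a = 8 * e) (hbo : orderOf b = 2) (hrel : b * a * b⁻¹ = a ^ (4 * e + 1)) :
    Cfsg.HasNormalPComplement 2 G := by
  have hF2 : Fact (Nat.Prime 2) := ⟨Nat.prime_two⟩
  have he' : (0 : ℤ) < e := by exact_mod_cast he
  have hbb : b * b = 1 := by rw [← pow_two, ← hbo, pow_orderOf_eq_one]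
  have hp4 : ∀ x : G, x ^ 4 = (x * x) * (x * x) := fun x => by
    rw [show (4 : ℕ) = 2 + 2 from rfl, pow_add, pow_two]
  have hconj : ∀ i : ℤ, b * a ^ i = a ^ ((4 * (e : ℤ) + 1) * i) * b := by
    intro i
    have h1 : b * a ^ i * b⁻¹ = (a ^ (4 * e + 1)) ^ i := by
      rw [← hrel]
      have h0 : b * a ^ i * b⁻¹ = MulAut.conj b (a ^ i) := by simp
      rw [h0, map_zpow]; simp
    have h2 : (a ^ (4 * e + 1)) ^ i = a ^ ((4 * (e : ℤ) + 1) * i) := by
      rw [← zpow_natCast, ← zpow_mul]; push_cast; rfl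
    calc b * a ^ i = (b * a ^ i * b⁻¹) * b := by group
      _ = a ^ ((4 * (e : ℤ) + 1) * i) * b := by rw [h1, h2]
  have hzp : ∀ i : ℤ, a ^ i = 1 ↔ (8 * (e : ℤ)) ∣ i := by
    intro i
    rw [← orderOf_dvd_iff_zpow_eq_one, hao]; push_cast; rfl
  have hpow_eq : ∀ i j : ℤ, (8 * (e : ℤ)) ∣ (i - j) → a ^ i = a ^ j := by
    intro i j hd
    have h1 : a ^ (i - j) = 1 := (hzp _).mpr hd
    rw [zpow_sub, mul_inv_eq_one] at h1
    exact h1
  have hbna : b ∉ Subgroup.zpowers a := by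
    intro hmem
    obtain ⟨k, hk⟩ := Subgroup.mem_zpowers_iff.mp hmem
    have hcomm : b * a = a * b := by rw [← hk, ← zpow_add_one, ← zpow_one_add, add_comm]
    have h1 := hconj 1
    rw [zpow_one, hcomm] at h1
    have h2 : a ^ ((4 * (e : ℤ) + 1) * 1 - 1) = 1 := by
      have h3 : a = a ^ ((4 * (e : ℤ) + 1) * 1) := mul_right_cancel h1
      rw [zpow_sub, zpow_one, ← h3, mul_inv_cancel]
    rw [hzp] at h2
    obtain ⟨t, ht⟩ := h2
    have h3 : (4 * (e : ℤ)) * 1 = (4 * (e : ℤ)) * (2 * t) := by linarith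
    have h4 := mul_left_cancel₀ (by omega : (4 * (e : ℤ)) ≠ 0) h3
    omega
  have hidx : ((Subgroup.zpowers a).subgroupOf (S : Subgroup G)).index = 2 := by
    have hle : Subgroup.zpowers a ≤ (S : Subgroup G) := Subgroup.zpowers_le.mpr ha
    have h1 : Nat.card (Subgroup.zpowers a) = 8 * e := by rw [Nat.card_zpowers, hao]
    have h2 := Subgroup.card_mul_index ((Subgroup.zpowers a).subgroupOf (S : Subgroup G))
    have h3 : Nat.card ((Subgroup.zpowers a).subgroupOf (S : Subgroup G)) = 8 * e := by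
      rw [← h1]; exact Nat.card_congr (Subgroup.subgroupOfEquivOfLe hle).toEquiv
    rw [h3, hS] at h2
    have h4 : 0 < 8 * e := by omega
    have h5 : (8 * e) * ((Subgroup.zpowers a).subgroupOf (S : Subgroup G)).index = (8 * e) * 2 := by
      rw [h2]; ring
    exact Nat.eq_of_mul_eq_mul_left h4 h5
  have hL1 : ∀ x ∈ (S : Subgroup G), ∃ i : ℤ, x = a ^ i ∨ x = a ^ i * b := by
    intro x hx
    by_cases hxa : x ∈ Subgroup.zpowers a
    · obtain ⟨i, hi⟩ := Subgroup.mem_zpowers_iff.mp hxa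
      exact ⟨i, Or.inl hi.symm⟩
    · have h1 := Subgroup.mul_mem_iff_of_index_two hidx
        (a := (⟨x, hx⟩ : (S : Subgroup G))) (b := ⟨b, hb⟩)
      have h2 : (⟨x, hx⟩ : (S : Subgroup G)) * ⟨b, hb⟩ ∈
          (Subgroup.zpowers a).subgroupOf (S : Subgroup G) := by
        rw [h1]
        simp only [Subgroup.mem_subgroupOf]
        exact ⟨fun h => absurd h hxa, fun h => absurd h hbna⟩
      rw [Subgroup.mem_subgroupOf] at h2
      obtain ⟨i, hi⟩ := Subgroup.mem_zpowers_iff.mp h2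
      refine ⟨i, Or.inr ?_⟩
      have h3 : (x * b) * b = a ^ i * b := by rw [hi]; rfl
      rw [mul_assoc, hbb, mul_one] at h3; exact h3
  have hsq : ∀ i : ℤ, (a ^ i * b) * (a ^ i * b) = a ^ ((4 * (e : ℤ) + 2) * i) := by
    intro i
    calc (a ^ i * b) * (a ^ i * b) = a ^ i * (b * a ^ i) * b := by simp only [mul_assoc]
      _ = a ^ i * (a ^ ((4 * (e : ℤ) + 1) * i) * b) * b := by rw [hconj]
      _ = a ^ i * a ^ ((4 * (e : ℤ) + 1) * i) * (b * b) := by simp only [mul_assoc]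
      _ = a ^ ((4 * (e : ℤ) + 2) * i) := by rw [hbb, mul_one, ← zpow_add]; congr 1; ring
  -- the elements c and z
  obtain ⟨c, hcdef⟩ : ∃ c : G, c = a ^ (2 * (e : ℤ)) := ⟨_, rfl⟩
  obtain ⟨z, hzdef⟩ : ∃ z : G, z = a ^ (4 * (e : ℤ)) := ⟨_, rfl⟩
  have hcS : c ∈ (S : Subgroup G) := by rw [hcdef]; exact Subgroup.zpow_mem _ ha _
  have hck : ∀ k : ℤ, c ^ k = a ^ (2 * (e : ℤ) * k) := by
    intro k; rw [hcdef, ← zpow_mul]
  have hcb : Commute c b := by
    show c * b = b * c
    rw [hcdef, hconj]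
    congr 1
    apply hpow_eq
    exact ⟨-e, by ring⟩
  have hcc : c * c = z := by rw [hcdef, hzdef, ← zpow_add]; congr 1; ring
  have hz1 : z ≠ 1 := by
    rw [hzdef]
    intro h
    rw [hzp] at h
    obtain ⟨t, ht⟩ := h
    have h3 : (4 * (e : ℤ)) * 1 = (4 * (e : ℤ)) * (2 * t) := by linarith
    have h4 := mul_left_cancel₀ (by omega : (4 * (e : ℤ)) ≠ 0) h3
    omega
  have hzz : z * z = 1 := by
    rw [hzdef, ← zpow_add, hzp]; exact ⟨1, by ring⟩
  have hzb : z * b = b * z := by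
    rw [hzdef, hconj]
    congr 1
    apply hpow_eq
    exact ⟨-(2 * e), by ring⟩
  have hbz : b ≠ z := by
    intro h; apply hbna; rw [h, hzdef]; exact Subgroup.zpow_mem_zpowers a _
  have hc4 : c ^ 4 = 1 := by
    rw [hp4, hcc, hzz]
  have hzS : ∀ s ∈ (S : Subgroup G), s * z = z * s := by
    intro s hs
    have haz : ∀ i : ℤ, a ^ i * z = z * a ^ i := by
      intro i; rw [hzdef, ← zpow_add, ← zpow_add, add_comm]
    obtain ⟨i, rfl | rfl⟩ := hL1 s hs
    · exact haz i
    · rw [mul_assoc, ← hzb, ← mul_assoc, haz, mul_assoc]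
  have hab : a⁻¹ * b * a = z * b := by
    have h1 := hconj 1
    rw [zpow_one] at h1
    have h2 : a ^ ((4 * (e : ℤ) + 1) * 1) = a * z := by
      rw [hzdef, ← zpow_one_add]; congr 1; ring
    rw [h2] at h1
    rw [mul_assoc, h1]; group
  -- 4-torsion elements
  have hL2 : ∀ x ∈ (S : Subgroup G), x ^ 4 = 1 → ∃ k : ℤ, ∃ j : ℕ, x = c ^ k * b ^ j := by
    intro x hx hx4
    have hdiv : ∀ i : ℤ, (8 * (e : ℤ)) ∣ 4 * i → ∃ k : ℤ, a ^ i = c ^ k := by
      intro i hd
      obtain ⟨t, ht⟩ := hd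
      refine ⟨t, ?_⟩
      rw [hck]
      congr 1
      linarith
    have hx4' : (x * x) * (x * x) = 1 := by rw [← hp4, hx4]
    obtain ⟨i, rfl | rfl⟩ := hL1 x hx
    · have h1 : a ^ (4 * i) = 1 := by
        rw [← hx4']; simp only [← zpow_add]; congr 1; ring
      obtain ⟨k, hk⟩ := hdiv i ((hzp _).mp h1)
      exact ⟨k, 0, by rw [pow_zero, mul_one, hk]⟩
    · rw [hsq, ← zpow_add] at hx4'
      have h1 : (8 * (e : ℤ)) ∣ 4 * i := by
        have h2 := (hzp _).mp hx4'
        have h3 : (4 * (e : ℤ) + 2) * i + (4 * (e : ℤ) + 2) * i = 8 * e * i + 4 * i := by ring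
        rw [h3] at h2
        exact (Int.dvd_add_right (Dvd.intro _ rfl)).mp h2
      obtain ⟨k, hk⟩ := hdiv i h1
      exact ⟨k, 1, by rw [pow_one, hk]⟩
  have hsqc : ∀ (k : ℤ) (j : ℕ), (c ^ k * b ^ j) * (c ^ k * b ^ j) = a ^ (4 * (e : ℤ) * k) := by
    intro k j
    have h1 : Commute (c ^ k) (b ^ j) := (hcb.zpow_left k).pow_right j
    have h2 : b ^ j * b ^ j = 1 := by rw [← pow_add, ← two_mul, pow_mul, pow_two, hbb, one_pow]
    calc (c ^ k * b ^ j) * (c ^ k * b ^ j) = c ^ k * (b ^ j * c ^ k) * b ^ j := by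
          simp only [mul_assoc]
      _ = c ^ k * (c ^ k * b ^ j) * b ^ j := by rw [h1.eq]
      _ = c ^ k * c ^ k * (b ^ j * b ^ j) := by simp only [mul_assoc]
      _ = a ^ (4 * (e : ℤ) * k) := by
          rw [h2, mul_one, hck, ← zpow_add]; congr 1; ring
  have hpar : ∀ k : ℤ, (Even k → a ^ (4 * (e : ℤ) * k) = 1) ∧ (Odd k → a ^ (4 * (e : ℤ) * k) = z) := by
    intro k
    constructor
    · rintro ⟨t, rfl⟩
      rw [hzp]; exact ⟨t, by ring⟩
    · rintro ⟨t, rfl⟩
      rw [hzdef]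
      apply hpow_eq
      exact ⟨t, by ring⟩
  have hF3 : ∀ y ∈ (S : Subgroup G), y ^ 4 = 1 → y * y = 1 ∨ y * y = z := by
    intro y hy hy4
    obtain ⟨k, j, rfl⟩ := hL2 y hy hy4
    rw [hsqc]
    rcases Int.even_or_odd k with hk | hk
    · exact Or.inl ((hpar k).1 hk)
    · exact Or.inr ((hpar k).2 hk)
  have hF2 : ∀ x ∈ (S : Subgroup G), ∀ y ∈ (S : Subgroup G), x ^ 4 = 1 → y ^ 4 = 1 →
      x * y = y * x := by
    intro x hx y hy hx4 hy4
    obtain ⟨k, j, rfl⟩ := hL2 x hx hx4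
    obtain ⟨l, j', rfl⟩ := hL2 y hy hy4
    have h1 : Commute (c ^ k) (c ^ l) := (Commute.refl c).zpow_zpow k l
    have h2 : Commute (c ^ k) (b ^ j') := (hcb.zpow_left k).pow_right j'
    have h3 : Commute (b ^ j) (c ^ l) := ((hcb.zpow_left l).pow_right j).symm
    have h4 : Commute (b ^ j) (b ^ j') := (Commute.refl b).pow_pow j j'
    exact ((h1.mul_right h2).mul_left (h3.mul_right h4)).eq
  have hF1 : ∀ x ∈ (S : Subgroup G), x * x = 1 → x = 1 ∨ x = z ∨ x = b ∨ x = z * b := by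
    intro x hx hxx
    have hx4 : x ^ 4 = 1 := by rw [hp4, hxx, mul_one]
    obtain ⟨k, j, rfl⟩ := hL2 x hx hx4
    rw [hsqc] at hxx
    have hkev : Even k := by
      rcases Int.even_or_odd k with hk | hk
      · exact hk
      · exact absurd (((hpar k).2 hk).symm.trans hxx) hz1
    obtain ⟨t, rfl⟩ := hkev
    have hct : c ^ (t + t) = 1 ∨ c ^ (t + t) = z := by
      rw [hck]
      have h1 : 2 * (e : ℤ) * (t + t) = 4 * e * t := by ring
      rw [h1]
      rcases Int.even_or_odd t with ht | ht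
      · exact Or.inl ((hpar t).1 ht)
      · exact Or.inr ((hpar t).2 ht)
    have hbj : b ^ j = 1 ∨ b ^ j = b := by
      rcases Nat.even_or_odd j with ⟨s, rfl⟩ | ⟨s, rfl⟩
      · left; rw [← two_mul, pow_mul, pow_two, hbb, one_pow]
      · right; rw [pow_succ, pow_mul, pow_two, hbb, one_pow, one_mul]
    rcases hct with h1 | h1 <;> rcases hbj with h2 | h2 <;> rw [h1, h2]
    · left; simp
    · right; right; left; simp
    · right; left; simp
    · right; right; right; rfl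
  -- no fusion of z with b
  have hNF1 : ∀ h : G, h * z * h⁻¹ ≠ b := by
    intro h hh
    have hP : ((h • S : Sylow 2 G) : Subgroup G) ≤ Subgroup.centralizer {b} := by
      intro y hy
      rw [Cfsg.Agent.Lib.Helper53.SylowMore.mem_smul_sylow_iff] at hy
      rw [Subgroup.mem_centralizer_iff]
      intro t ht
      rw [Set.mem_singleton_iff] at ht
      rw [ht, ← hh]
      have h1 := hzS _ hy
      calc h * z * h⁻¹ * y = h * (z * (h⁻¹ * y * h)) * h⁻¹ := by group
        _ = h * ((h⁻¹ * y * h) * z) * h⁻¹ := by rw [h1]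
        _ = y * (h * z * h⁻¹) := by group
    have hR : Subgroup.zpowers c ≤ Subgroup.centralizer {b} := by
      rw [Subgroup.zpowers_le, Subgroup.mem_centralizer_iff]
      intro t ht
      rw [Set.mem_singleton_iff] at ht
      rw [ht]; exact hcb.symm.eq
    have hRp : IsPGroup 2 (Subgroup.zpowers c) := S.2.to_le (Subgroup.zpowers_le.mpr hcS)
    obtain ⟨k, hk, hkr⟩ := Cfsg.Agent.Lib.Helper53.SylowConj.exists_conj_le_sylow
      (Subgroup.centralizer {b}) (Subgroup.zpowers c) hR hRp (h • S : Sylow 2 G) hP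
    have h1 := hkr c (Subgroup.mem_zpowers c)
    rw [Cfsg.Agent.Lib.Helper53.SylowMore.mem_smul_sylow_iff] at h1
    have hkb : b * k = k * b := by
      rw [Subgroup.mem_centralizer_iff] at hk
      exact hk b rfl
    have hy4 : (h⁻¹ * (k * c * k⁻¹) * h) ^ 4 = 1 := by
      have h2 : h⁻¹ * (k * c * k⁻¹) * h = MulAut.conj (h⁻¹ * k) c := by
        simp [mul_assoc]
      rw [h2, ← map_pow, hc4, map_one]
    have hyy : (h⁻¹ * (k * c * k⁻¹) * h) * (h⁻¹ * (k * c * k⁻¹) * h) = h⁻¹ * (k * z * k⁻¹) * h := by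
      rw [← hcc]; group
    rcases hF3 _ h1 hy4 with h2 | h2
    · rw [hyy] at h2
      apply hz1
      calc z = k⁻¹ * (h * (h⁻¹ * (k * z * k⁻¹) * h) * h⁻¹) * k := by group
        _ = 1 := by rw [h2]; group
    · rw [hyy] at h2
      apply hbz
      have h3 : k * z * k⁻¹ = b := by
        calc k * z * k⁻¹ = h * (h⁻¹ * (k * z * k⁻¹) * h) * h⁻¹ := by group
          _ = b := by rw [h2, hh]
      calc b = k⁻¹ * (b * k) := by rw [hkb]; group
        _ = k⁻¹ * (k * z * k⁻¹ * k) := by rw [h3]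
        _ = z := by group
  have hNF2 : ∀ h : G, h * z * h⁻¹ ≠ z * b := by
    intro h hh
    apply hNF1 (a * h)
    calc a * h * z * (a * h)⁻¹ = a * (h * z * h⁻¹) * a⁻¹ := by group
      _ = a * (a⁻¹ * b * a) * a⁻¹ := by rw [hh, hab]
      _ = b := by group
  have hNF1' : ∀ h : G, h * b * h⁻¹ ≠ z := by
    intro h hh
    apply hNF1 h⁻¹
    rw [← hh]; group
  have hNF2' : ∀ h : G, h * (z * b) * h⁻¹ ≠ z := by
    intro h hh
    apply hNF2 h⁻¹
    calc h⁻¹ * z * h⁻¹⁻¹ = h⁻¹ * (h * (z * b) * h⁻¹) * h⁻¹⁻¹ := by rw [hh]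
      _ = z * b := by group
  -- Frobenius' criterion
  obtain ⟨N, hN, hNc⟩ := Cfsg.Agent.Lib.Helper2.Frob.exists_normal_complement_of_cond S (by
    intro Q hQ g hg ho
    have hgQ : ∀ x ∈ Q, g * x * g⁻¹ ∈ Q := fun x hx =>
      (Subgroup.mem_normalizer_iff.mp hg x).mp hx
    have hsqg : ∀ x : G, (g * x * g⁻¹) * (g * x * g⁻¹) = g * (x * x) * g⁻¹ := by
      intro x; group
    have hne1 : ∀ x : G, x ≠ 1 → g * x * g⁻¹ ≠ 1 := by
      intro x hx h
      apply hx
      calc x = g⁻¹ * (g * x * g⁻¹) * g := by group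
        _ = 1 := by rw [h]; group
    have hinj : ∀ x y : G, g * x * g⁻¹ = g * y * g⁻¹ → x = y := by
      intro x y h
      calc x = g⁻¹ * (g * x * g⁻¹) * g := by group
        _ = g⁻¹ * (g * y * g⁻¹) * g := by rw [h]
        _ = y := by group
    have hfix2 : ∀ x : G, g * (g * x * g⁻¹) * g⁻¹ = x → g * x * g⁻¹ = x := by
      intro x h
      have h1 : g * x = x * g := by
        apply commute_of_sq_commute g x ho
        calc g * g * x = (g * (g * x * g⁻¹) * g⁻¹) * (g * g) := by group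
          _ = x * (g * g) := by rw [h]
      rw [h1]; group
    -- Step I: involutions are fixed
    have hI : ∀ t ∈ Q, t * t = 1 → g * t * g⁻¹ = t := by
      intro t ht htt
      by_contra hne
      have ht1 : t ≠ 1 := by
        intro h; apply hne; rw [h]; group
      have ht' : g * t * g⁻¹ ∈ Q := hgQ t ht
      have htt' : (g * t * g⁻¹) * (g * t * g⁻¹) = 1 := by rw [hsqg, htt]; group
      have ht'1 : g * t * g⁻¹ ≠ 1 := hne1 t ht1
      have ht'' : g * (g * t * g⁻¹) * g⁻¹ ∈ Q := hgQ _ ht'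
      have htt'' : (g * (g * t * g⁻¹) * g⁻¹) * (g * (g * t * g⁻¹) * g⁻¹) = 1 := by
        rw [hsqg, htt']; group
      have ht''1 : g * (g * t * g⁻¹) * g⁻¹ ≠ 1 := hne1 _ ht'1
      have ht''ne : g * (g * t * g⁻¹) * g⁻¹ ≠ g * t * g⁻¹ := fun h => hne (hinj _ _ h)
      have ht''ne' : g * (g * t * g⁻¹) * g⁻¹ ≠ t := fun h => hne (hfix2 t h)
      rcases hF1 t (hQ ht) htt with h | h | h | h
      · exact ht1 h
      · -- t = z
        rcases hF1 _ (hQ ht') htt' with h' | h' | h' | h'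
        · exact ht'1 h'
        · exact hne (h'.trans h.symm)
        · rw [h] at h'; exact hNF1 g h'
        · rw [h] at h'; exact hNF2 g h'
      · -- t = b
        rcases hF1 _ (hQ ht') htt' with h' | h' | h' | h'
        · exact ht'1 h'
        · rw [h] at h'; exact hNF1' g h'
        · exact hne (h'.trans h.symm)
        · rcases hF1 _ (hQ ht'') htt'' with h'' | h'' | h'' | h''
          · exact ht''1 h''
          · rw [h'] at h''; exact hNF2' g h''
          · exact ht''ne' (h''.trans h.symm)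
          · exact ht''ne (h''.trans h'.symm)
      · -- t = z * b
        rcases hF1 _ (hQ ht') htt' with h' | h' | h' | h'
        · exact ht'1 h'
        · rw [h] at h'; exact hNF2' g h'
        · rcases hF1 _ (hQ ht'') htt'' with h'' | h'' | h'' | h''
          · exact ht''1 h''
          · rw [h'] at h''; exact hNF1' g h''
          · exact ht''ne (h''.trans h'.symm)
          · exact ht''ne' (h''.trans h.symm)
        · exact hne (h'.trans h.symm)
    -- Step II: elements of order dividing 4 are fixed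
    have hII : ∀ x ∈ Q, x ^ 4 = 1 → x * g = g * x := by
      intro x hx hx4
      have hy : g * x * g⁻¹ ∈ Q := hgQ x hx
      have hy4 : (g * x * g⁻¹) ^ 4 = 1 := by
        have h2 : g * x * g⁻¹ = MulAut.conj g x := by simp
        rw [h2, ← map_pow, hx4, map_one]
      have hxy : x * (g * x * g⁻¹) = (g * x * g⁻¹) * x := hF2 x (hQ hx) _ (hQ hy) hx4 hy4
      have hxx4 : (x * x) * (x * x) = 1 := by rw [← hp4, hx4]
      have hxxfix : g * (x * x) * g⁻¹ = x * x := hI _ (Q.mul_mem hx hx) hxx4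
      have hw : x⁻¹ * (g * x * g⁻¹) ∈ Q := Q.mul_mem (Q.inv_mem hx) hy
      have hxy' : (g * x * g⁻¹) * x⁻¹ = x⁻¹ * (g * x * g⁻¹) := by
        calc (g * x * g⁻¹) * x⁻¹ = x⁻¹ * (x * (g * x * g⁻¹)) * x⁻¹ := by group
          _ = x⁻¹ * ((g * x * g⁻¹) * x) * x⁻¹ := by rw [hxy]
          _ = x⁻¹ * (g * x * g⁻¹) := by group
      have hww : (x⁻¹ * (g * x * g⁻¹)) * (x⁻¹ * (g * x * g⁻¹)) = 1 := by
        calc (x⁻¹ * (g * x * g⁻¹)) * (x⁻¹ * (g * x * g⁻¹))
            = x⁻¹ * ((g * x * g⁻¹) * x⁻¹) * (g * x * g⁻¹) := by simp only [mul_assoc]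
          _ = x⁻¹ * (x⁻¹ * (g * x * g⁻¹)) * (g * x * g⁻¹) := by rw [hxy']
          _ = (x * x)⁻¹ * ((g * x * g⁻¹) * (g * x * g⁻¹)) := by group
          _ = (x * x)⁻¹ * (x * x) := by rw [hsqg, hxxfix]
          _ = 1 := by group
      have hwfix := hI _ hw hww
      have h2 : g * (g * x * g⁻¹) * g⁻¹ = x := by
        calc g * (g * x * g⁻¹) * g⁻¹ = (g * x * g⁻¹) * (g * (x⁻¹ * (g * x * g⁻¹)) * g⁻¹) := by group
          _ = (g * x * g⁻¹) * (x⁻¹ * (g * x * g⁻¹)) := by rw [hwfix]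
          _ = x * ((x⁻¹ * (g * x * g⁻¹)) * (x⁻¹ * (g * x * g⁻¹))) := by group
          _ = x := by rw [hww, mul_one]
      have h3 := hfix2 x h2
      calc x * g = (g * x * g⁻¹) * g := by rw [h3]
        _ = g * x := by group
    have hIII := Cfsg.Agent.Lib.Helper54.OmegaTwo.centralizes_of_centralizes_omega_two g ho Q
      (S.2.to_le hQ) hg hII
    rw [Subgroup.mem_centralizer_iff]
    exact hIII)
  exact ⟨S, N, hN, hNc⟩

/-- Groups with a modular Sylow 2-subgroup have a normal 2-complement. Let S, of order 2^(n+1) with n ≥ 3, be a Sylow 2-subgroup of a finite group G, and suppose S contains an element a of order 2^n and an involution b with b a b⁻¹ = a^(2^(n-1) + 1); so S is the non-abelian 2-group with a cyclic subgroup of index 2 that is neither dihedral, semidihedral nor generalized quaternion. Then G has a normal 2-complement. -/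
theorem result {G : Type*} [Group G] [Finite G]
    (S : Sylow 2 G) (n : ℕ) (hn : 3 ≤ n) (hS : Nat.card ↥(S : Subgroup G) = 2 ^ (n + 1))
    (a b : G) (ha : a ∈ (S : Subgroup G)) (hb : b ∈ (S : Subgroup G))
    (hao : orderOf a = 2 ^ n) (hbo : orderOf b = 2) (hrel : b * a * b⁻¹ = a ^ (2 ^ (n - 1) + 1)) :
    Cfsg.HasNormalPComplement 2 G := by
  obtain ⟨m, rfl⟩ : ∃ m, n = m + 3 := ⟨n - 3, by omega⟩
  have h1 : 2 ^ (m + 3 + 1) = 2 * (8 * 2 ^ m) := by ring
  have h2 : 2 ^ (m + 3) = 8 * 2 ^ m := by ring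
  have h3 : 2 ^ (m + 3 - 1) + 1 = 4 * 2 ^ m + 1 := by
    have : m + 3 - 1 = m + 2 := by omega
    rw [this]; ring
  rw [h1] at hS
  rw [h2] at hao
  rw [h3] at hrel
  exact key S (2 ^ m) (by positivity) hS a b ha hb hao hbo hrel

end Cfsg.Agent.S3178
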