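import Mathlib
import Cfsg.Statements.S3180
import Cfsg.Agent.Lib.Helper53.SylowConj

set_option autoImplicit false
open Cfsg

namespace Cfsg.Agent.S3180

open Cfsg.Agent.Lib.Helper53.SylowConj

/-- Let P be a Sylow p-subgroup of a finite group J and P₁ a subgroup of P that is weakly closed in P with respect to J. If J acts on a set and two points, each fixed by every element of P₁, lie in one J-orbit, then they lie in one orbit of the normalizer of P₁ in J. -/
theorem result {J : Type*} [Group J] [Finite J]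
    {p : ℕ} [Fact p.Prime] (P : Sylow p J) (P₁ : Subgroup J) (hW : Cfsg.IsWeaklyClosed P₁ (P : Subgroup J))
    {Ω : Type*} [MulAction J Ω] (x y : Ω) (hx : ∀ g ∈ P₁, g • x = x) (hy : ∀ g ∈ P₁, g • y = y)
    (hc : ∃ g : J, g • x = y) :
    ∃ g ∈ Subgroup.normalizer (P₁ : Set J), g • x = y := by
  obtain ⟨g, rfl⟩ := hc
  obtain ⟨hle, hwc⟩ := hW
  have hP₁ : IsPGroup p P₁ := P.2.to_le hle
  have hA : P₁ ≤ MulAction.stabilizer J (g • x) := fun a ha => by
    simpa [MulAction.mem_stabilizer_iff] using hy a ha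
  have hB : P₁.map (MulAut.conj g).toMonoidHom ≤ MulAction.stabilizer J (g • x) := by
    rintro _ ⟨a, ha, rfl⟩
    simp [MulAction.mem_stabilizer_iff, mul_smul, hx a ha]
  have hBp : IsPGroup p (P₁.map (MulAut.conj g).toMonoidHom) := hP₁.map _
  obtain ⟨h, hh, R, hRH, hRp, hAR, hBR⟩ :=
    exists_common_pgroup (MulAction.stabilizer J (g • x)) P₁ _ hA hB hP₁ hBp
  obtain ⟨k, hk⟩ := exists_conj_le_sylow_top R hRp P
  have h1 : P₁.map (MulAut.conj k).toMonoidHom = P₁ :=
    hwc k ((map_conj_le_iff _ _ _).mpr fun w hw => hk w (hAR hw))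
  have h2 : P₁.map (MulAut.conj (k * h * g)).toMonoidHom = P₁ := by
    apply hwc
    rw [map_conj_le_iff]
    intro w hw
    have := hk _ (hBR _ ⟨w, hw, rfl⟩)
    simpa [mul_assoc] using this
  rw [map_conj_eq_iff_mem_normalizer] at h1 h2
  refine ⟨h * g, ?_, ?_⟩
  · have : h * g = k⁻¹ * (k * h * g) := by group
    rw [this]
    exact mul_mem (inv_mem h1) h2
  · rw [mul_smul]; exact hh

end Cfsg.Agent.S3180
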