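import Mathlib
import Cfsg.Statements.S3183
import Cfsg.Agent.Lib.Helper53.SylowConj
import Cfsg.Agent.Lib.Helper53.SylowMore

set_option autoImplicit false
open Cfsg

namespace Cfsg.Agent.S3183

open Cfsg.Agent.Lib.Helper53.SylowConj Cfsg.Agent.Lib.Helper53.SylowMore

/-- Key lemma: under the central-intersection hypothesis, `S ∩ T ≤ Z(S)` for distinct Sylow
2-subgroups. -/
theorem key {G : Type*} [Group G] [Finite G]
    (hCI : ∀ S T : Sylow 2 G, S ≠ T → ∃ U : Sylow 2 G,
      (S : Subgroup G) ⊓ (T : Subgroup G) ≤ (Subgroup.center ↥(U : Subgroup G)).map (U : Subgroup G).subtype) :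
    ∀ K : Subgroup G, ∀ S T : Sylow 2 G, S ≠ T → (S : Subgroup G) ⊓ (T : Subgroup G) = K →
      K ≤ (Subgroup.center ↥(S : Subgroup G)).map (S : Subgroup G).subtype := by
  have : Fact (Nat.Prime 2) := ⟨Nat.prime_two⟩
  intro K
  induction K using WellFoundedGT.induction with
  | ind D ih =>
    intro S T hST hD
    obtain ⟨U, hU⟩ := hCI S T hST
    rw [hD] at hU
    have hDS : D ≤ S := by rw [← hD]; exact inf_le_left
    have hDT : D ≤ T := by rw [← hD]; exact inf_le_right
    -- D commutes elementwise with U and lies in U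
    have hDU : ∀ d ∈ D, d ∈ (U : Subgroup G) ∧ ∀ u ∈ (U : Subgroup G), u * d = d * u :=
      fun d hd => (mem_center_map_iff _ d).mp (hU hd)
    have hDneS : D ≠ S := by
      intro h
      apply hST
      have h1 : (S : Subgroup G) ≤ T := by rw [← h]; exact hDT
      exact (Sylow.ext (S.3 T.2 h1)).symm
    obtain ⟨x, hxS, hxN, hxD⟩ := exists_normalizer_not_mem (S : Subgroup G) D S.2 hDS hDneS
    -- R = D ⊔ ⟨x⟩
    have hRS : D ⊔ Subgroup.zpowers x ≤ S := sup_le hDS (by rw [Subgroup.zpowers_le]; exact hxS)
    have hRN : D ⊔ Subgroup.zpowers x ≤ Subgroup.normalizer (D : Set G) :=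
      sup_le Subgroup.le_normalizer (by rw [Subgroup.zpowers_le]; exact hxN)
    have hRp : IsPGroup 2 (D ⊔ Subgroup.zpowers x : Subgroup G) := S.2.to_le hRS
    have hUN : (U : Subgroup G) ≤ Subgroup.normalizer (D : Set G) := by
      intro u hu
      rw [Subgroup.mem_normalizer_iff]
      have key : ∀ d ∈ D, u * d * u⁻¹ = d := by
        intro d hd
        rw [(hDU d hd).2 u hu]; group
      intro d
      constructor
      · intro hd; rw [key d hd]; exact hd
      · intro hd
        have h1 := key _ hd
        have h2 : d = u * d * u⁻¹ := by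
          have : u⁻¹ * (u * (u * d * u⁻¹) * u⁻¹) * u = u⁻¹ * (u * d * u⁻¹) * u := by rw [h1]
          have e1 : u⁻¹ * (u * (u * d * u⁻¹) * u⁻¹) * u = u * d * u⁻¹ := by group
          have e2 : u⁻¹ * (u * d * u⁻¹) * u = d := by group
          rw [e1, e2] at this
          exact this.symm
        rw [h2]; exact hd
    obtain ⟨h, hhN, hr⟩ := exists_conj_le_sylow (Subgroup.normalizer (D : Set G)) _ hRN hRp U hUN
    -- S1 = h⁻¹ • U
    have hR1 : D ⊔ Subgroup.zpowers x ≤ ((h⁻¹ • U : Sylow 2 G) : Subgroup G) := by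
      intro r hrR
      rw [mem_smul_sylow_iff, inv_inv]
      exact hr r hrR
    have hS1c : ∀ y ∈ ((h⁻¹ • U : Sylow 2 G) : Subgroup G), ∀ d ∈ D, y * d = d * y := by
      intro y hy d hd
      rw [mem_smul_sylow_iff, inv_inv] at hy
      have hd' : h * d * h⁻¹ ∈ D := (Subgroup.mem_normalizer_iff.mp hhN d).mp hd
      have h1 := (hDU _ hd').2 _ hy
      have h3 : h * (y * d) * h⁻¹ = h * (d * y) * h⁻¹ := by
        calc h * (y * d) * h⁻¹ = (h * y * h⁻¹) * (h * d * h⁻¹) := by group
          _ = (h * d * h⁻¹) * (h * y * h⁻¹) := h1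
          _ = h * (d * y) * h⁻¹ := by group
      exact mul_left_cancel (mul_right_cancel h3)
    by_cases hS1 : (h⁻¹ • U : Sylow 2 G) = S
    · intro d hd
      rw [mem_center_map_iff]
      refine ⟨hDS hd, fun s hs => ?_⟩
      rw [← hS1] at hs
      exact hS1c s hs d hd
    · have hlt : D < (S : Subgroup G) ⊓ ((h⁻¹ • U : Sylow 2 G) : Subgroup G) := by
        refine lt_of_le_of_ne (le_inf hDS (le_sup_left.trans hR1)) ?_
        intro heq
        apply hxD
        rw [heq]
        exact ⟨hxS, hR1 (le_sup_right (a := D) (Subgroup.mem_zpowers x))⟩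
      have := ih _ hlt S (h⁻¹ • U) (fun h' => hS1 h'.symm) rfl
      exact (le_of_lt hlt).trans this

/-- Let G be a finite group in which the intersection of any two distinct Sylow 2-subgroups is contained in the centre of some Sylow 2-subgroup, and let S be a Sylow 2-subgroup. Then for every x in S the centralizer of x in S is a Sylow 2-subgroup of the centralizer of x in G (no 2-subgroup centralizing x is larger), and for every other Sylow 2-subgroup T the intersection S ∩ T lies in both the centre of S and the centre of T. -/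
theorem result {G : Type*} [Group G] [Finite G]
    (hCI : ∀ S T : Sylow 2 G, S ≠ T → ∃ U : Sylow 2 G,
      (S : Subgroup G) ⊓ (T : Subgroup G) ≤ (Subgroup.center ↥(U : Subgroup G)).map (U : Subgroup G).subtype)
    (S : Sylow 2 G) :
    (∀ x ∈ (S : Subgroup G), ∀ P : Subgroup G, IsPGroup 2 ↥P → P ≤ Subgroup.centralizer ({x} : Set G) →
        Nat.card ↥P ≤ Nat.card ↥((S : Subgroup G) ⊓ Subgroup.centralizer ({x} : Set G))) ∧
    (∀ T : Sylow 2 G, T ≠ S →
        (S : Subgroup G) ⊓ (T : Subgroup G) ≤
          (Subgroup.center ↥(S : Subgroup G)).map (S : Subgroup G).subtype ⊓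
            (Subgroup.center ↥(T : Subgroup G)).map (T : Subgroup G).subtype) := by
  have : Fact (Nat.Prime 2) := ⟨Nat.prime_two⟩
  constructor
  · intro x hxS P hP hPC
    -- enlarge P by x
    have hxp : IsPGroup 2 (Subgroup.zpowers x) :=
      S.2.to_le (by rw [Subgroup.zpowers_le]; exact hxS)
    have hxN : Subgroup.zpowers x ≤ Subgroup.normalizer (P : Set G) := by
      rw [Subgroup.zpowers_le, Subgroup.mem_normalizer_iff]
      have key : ∀ y ∈ P, x * y * x⁻¹ = y := by
        intro y hy
        have := Subgroup.mem_centralizer_singleton_iff.mp (hPC hy)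
        rw [← this]; group
      intro y
      constructor
      · intro hy; rw [key y hy]; exact hy
      · intro hy
        have h1 := key _ hy
        have h2 : y = x * y * x⁻¹ := by
          have : x⁻¹ * (x * (x * y * x⁻¹) * x⁻¹) * x = x⁻¹ * (x * y * x⁻¹) * x := by rw [h1]
          have e1 : x⁻¹ * (x * (x * y * x⁻¹) * x⁻¹) * x = x * y * x⁻¹ := by group
          have e2 : x⁻¹ * (x * y * x⁻¹) * x = y := by group
          rw [e1, e2] at this
          exact this.symm
        rw [h2]; exact hy
    have hP' : IsPGroup 2 (Subgroup.zpowers x ⊔ P : Subgroup G) :=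
      hxp.to_sup_of_normal_right' hP hxN
    have hP'C : Subgroup.zpowers x ⊔ P ≤ Subgroup.centralizer ({x} : Set G) := by
      apply sup_le _ hPC
      rw [Subgroup.zpowers_le, Subgroup.mem_centralizer_singleton_iff]
    obtain ⟨T, hT⟩ := hP'.exists_le_sylow
    by_cases hTS : T = S
    · rw [hTS] at hT
      calc Nat.card P ≤ Nat.card (Subgroup.zpowers x ⊔ P : Subgroup G) :=
            Subgroup.card_le_of_le le_sup_right
        _ ≤ Nat.card ((S : Subgroup G) ⊓ Subgroup.centralizer ({x} : Set G) : Subgroup G) :=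
            Subgroup.card_le_of_le (le_inf hT hP'C)
    · have hxT : x ∈ (T : Subgroup G) := hT (le_sup_left (b := P) (Subgroup.mem_zpowers x))
      have hxZ := key hCI _ S T (fun h => hTS h.symm) rfl ⟨hxS, hxT⟩
      rw [mem_center_map_iff] at hxZ
      have hSC : (S : Subgroup G) ≤ Subgroup.centralizer ({x} : Set G) := by
        intro s hs
        rw [Subgroup.mem_centralizer_singleton_iff]
        exact hxZ.2 s hs
      rw [inf_eq_left.mpr hSC]
      exact card_le_sylow P hP S
  · intro T hTS
    refine le_inf ?_ ?_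
    · exact key hCI _ S T (fun h => hTS h.symm) rfl
    · have := key hCI _ T S hTS rfl
      rwa [inf_comm] at this

end Cfsg.Agent.S3183
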