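import Mathlib
import Cfsg.Statements.S3190
import Cfsg.Agent.Lib.Helper53.PGroupBasics

set_option autoImplicit false
open Cfsg

namespace Cfsg.Agent.S3190

open Cfsg.Agent.Lib.Helper53.PGroupBasics

theorem mem_center_map_iff {X : Type*} [Group X] (R : Subgroup X) (z : X) :
    z ∈ (Subgroup.center ↥R).map R.subtype ↔ z ∈ R ∧ ∀ r ∈ R, r * z = z * r := by
  constructor
  · rintro ⟨z', hz', rfl⟩
    refine ⟨z'.2, fun r hr => ?_⟩
    have hz'' : z' ∈ Subgroup.center ↥R := hz'
    rw [Subgroup.mem_center_iff] at hz''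
    have := hz'' ⟨r, hr⟩
    exact congrArg Subtype.val this
  · rintro ⟨hzR, hz⟩
    refine ⟨⟨z, hzR⟩, ?_, rfl⟩
    show (⟨z, hzR⟩ : R) ∈ Subgroup.center ↥R
    rw [Subgroup.mem_center_iff]
    intro r
    exact Subtype.ext (hz r r.2)

/-- Conjugation by an element normalizing `R` preserves the centre of `R`. -/
theorem conj_mem_center {X : Type*} [Group X] (R : Subgroup X) (g z : X)
    (hg : g ∈ Subgroup.normalizer (R : Set X))
    (hz : z ∈ (Subgroup.center ↥R).map R.subtype) :
    g * z * g⁻¹ ∈ (Subgroup.center ↥R).map R.subtype := by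
  rw [mem_center_map_iff] at hz ⊢
  obtain ⟨hzR, hzc⟩ := hz
  rw [Subgroup.mem_normalizer_iff] at hg
  refine ⟨(hg z).mp hzR, fun r hr => ?_⟩
  have hr' : g⁻¹ * r * g ∈ R := by
    rw [hg]
    have : g * (g⁻¹ * r * g) * g⁻¹ = r := by group
    rw [this]; exact hr
  have h1 := hzc _ hr'
  calc r * (g * z * g⁻¹) = g * ((g⁻¹ * r * g) * z) * g⁻¹ := by group
    _ = g * (z * (g⁻¹ * r * g)) * g⁻¹ := by rw [h1]
    _ = g * z * g⁻¹ * r := by group

/-- Let p be an odd prime and, inside a finite group, let P be a p-subgroup normalized by a Klein four-group T. Let R be a subgroup of P, normal in P and normalized by T, such that P is the product of R with the centralizer of T in P. If T centralizes the centre of P, then T centralizes the centre of R. -/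
theorem result {X : Type*} [Group X] [Finite X]
    {p : ℕ} (hp : p.Prime) (hodd : Odd p) (P T R : Subgroup X) (hP : IsPGroup p ↥P) (hT : IsKleinFour ↥T)
    (hTP : T ≤ Subgroup.normalizer (P : Set X)) (hRP : R ≤ P) (hRn : (R.subgroupOf P).Normal)
    (hTR : T ≤ Subgroup.normalizer (R : Set X)) (hfac : R ⊔ (P ⊓ Subgroup.centralizer (T : Set X)) = P)
    (hZ : T ≤ Subgroup.centralizer (((Subgroup.center ↥P).map P.subtype : Subgroup X) : Set X)) :
    T ≤ Subgroup.centralizer (((Subgroup.center ↥R).map R.subtype : Subgroup X) : Set X) := by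
  have : Fact p.Prime := ⟨hp⟩
  intro a haT
  have ha2 : a * a = 1 := by
    have := IsKleinFour.mul_self (⟨a, haT⟩ : T)
    exact congrArg Subtype.val this
  have hainv : a⁻¹ = a := inv_eq_of_mul_eq_one_left ha2
  have hPnR : P ≤ Subgroup.normalizer (R : Set X) :=
    (Subgroup.normal_subgroupOf_iff_le_normalizer hRP).mp hRn
  -- elements of Z(R) commute with each other
  have hcomm : ∀ z w : X, z ∈ (Subgroup.center ↥R).map R.subtype →
      w ∈ (Subgroup.center ↥R).map R.subtype → z * w = w * z := by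
    intro z w hz hw
    rw [mem_center_map_iff] at hz hw
    exact hw.2 z hz.1
  -- the subgroup of Z(R) inverted by a
  let Am : Subgroup X :=
    { carrier := {z | z ∈ (Subgroup.center ↥R).map R.subtype ∧ a * z * a⁻¹ = z⁻¹}
      mul_mem' := by
        rintro z w ⟨hz, hz'⟩ ⟨hw, hw'⟩
        refine ⟨mul_mem hz hw, ?_⟩
        have h1 : a * (z * w) * a⁻¹ = (a * z * a⁻¹) * (a * w * a⁻¹) := by group
        rw [h1, hz', hw', mul_inv_rev]
        have := hcomm _ _ (inv_mem hz) (inv_mem hw)
        exact this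
      one_mem' := ⟨one_mem _, by simp⟩
      inv_mem' := by
        rintro z ⟨hz, hz'⟩
        refine ⟨inv_mem hz, ?_⟩
        have h1 : a * z⁻¹ * a⁻¹ = (a * z * a⁻¹)⁻¹ := by group
        rw [h1, hz'] }
  have hAm : ∀ z, z ∈ Am ↔ z ∈ (Subgroup.center ↥R).map R.subtype ∧ a * z * a⁻¹ = z⁻¹ :=
    fun z => Iff.rfl
  have hAmR : Am ≤ R := by
    intro z hz
    exact ((mem_center_map_iff R z).mp hz.1).1
  -- Am is normalized by P
  have hnorm : P ≤ Subgroup.normalizer (Am : Set X) := by
    rw [← hfac]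
    apply sup_le
    · intro g hg
      apply Subgroup.mem_normalizer_fintype
      intro z hz
      have hz2 : z ∈ Am := hz
      have : g * z * g⁻¹ = z := by
        have h1 := ((mem_center_map_iff R z).mp hz2.1).2 g hg
        rw [h1]; group
      rw [this]; exact hz
    · rintro g ⟨hgP, hgC⟩
      apply Subgroup.mem_normalizer_fintype
      intro z hz
      have hz2 : z ∈ Am := hz
      show g * z * g⁻¹ ∈ Am
      rw [hAm]
      refine ⟨conj_mem_center R g z (hPnR hgP) hz2.1, ?_⟩
      have hgC' : g ∈ Subgroup.centralizer (T : Set X) := hgC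
      rw [Subgroup.mem_centralizer_iff] at hgC'
      have hag : a * g = g * a := hgC' a haT
      calc a * (g * z * g⁻¹) * a⁻¹ = (a * g) * z * (a * g)⁻¹ := by group
        _ = (g * a) * z * (g * a)⁻¹ := by rw [hag]
        _ = g * (a * z * a⁻¹) * g⁻¹ := by group
        _ = g * z⁻¹ * g⁻¹ := by rw [hz2.2]
        _ = (g * z * g⁻¹)⁻¹ := by group
  -- Am is trivial
  have hAmbot : Am = ⊥ := by
    by_contra hne
    have hAmP : Am ≤ P := hAmR.trans hRP
    have : (Am.subgroupOf P).Normal := (Subgroup.normal_subgroupOf_iff_le_normalizer hAmP).mpr hnorm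
    have hne' : Am.subgroupOf P ≠ ⊥ := by
      intro h
      apply hne
      rw [Subgroup.subgroupOf_eq_bot] at h
      rw [eq_bot_iff]
      intro z hz
      have : z ∈ Am ⊓ P := ⟨hz, hAmP hz⟩
      rw [h.eq_bot] at this
      exact this
    obtain ⟨z', hz'Am, hz'1, hz'c⟩ := exists_center_mem_normal hP (Am.subgroupOf P) hne'
    have hzAm : (z' : X) ∈ Am := Subgroup.mem_subgroupOf.mp hz'Am
    have hzZP : (z' : X) ∈ (Subgroup.center ↥P).map P.subtype := ⟨z', hz'c, rfl⟩
    have h1 := Subgroup.mem_centralizer_iff.mp (hZ haT) _ hzZP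
    -- h1 : z' * a = a * z'
    have h2 : a * (z' : X) * a⁻¹ = (z' : X) := by rw [← h1]; group
    have h3 : (z' : X)⁻¹ = (z' : X) := by rw [← hzAm.2, h2]
    have h4 : (z' : X) ^ 2 = 1 := by
      rw [pow_two]
      nth_rewrite 1 [← h3]
      exact inv_mul_cancel _
    have h5 : orderOf z' ∣ 2 := by
      rw [orderOf_dvd_iff_pow_eq_one]
      exact Subtype.ext h4
    obtain ⟨k, hk⟩ := (IsPGroup.iff_orderOf.mp hP) z'
    have h6 : orderOf z' = 1 := by
      rw [hk] at h5 ⊢
      have hodd' : Odd (p ^ k) := hodd.pow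
      have : p ^ k ≤ 2 := Nat.le_of_dvd (by norm_num) h5
      rcases hodd' with ⟨t, ht⟩
      omega
    exact hz'1 (orderOf_eq_one_iff.mp h6)
  -- conclusion
  rw [Subgroup.mem_centralizer_iff]
  intro z hz
  have haz : a * z * a⁻¹ ∈ (Subgroup.center ↥R).map R.subtype := conj_mem_center R a z (hTR haT) hz
  have hw : z⁻¹ * (a * z * a⁻¹) ∈ Am := by
    rw [hAm]
    refine ⟨mul_mem (inv_mem hz) haz, ?_⟩
    calc a * (z⁻¹ * (a * z * a⁻¹)) * a⁻¹
        = (a * z * a⁻¹)⁻¹ * ((a * a) * z * (a * a)⁻¹) := by group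
      _ = (a * z * a⁻¹)⁻¹ * z := by rw [ha2]; simp
      _ = (z⁻¹ * (a * z * a⁻¹))⁻¹ := by group
  rw [hAmbot, Subgroup.mem_bot] at hw
  have h1 : a * z * a⁻¹ = z := by
    have : z * (z⁻¹ * (a * z * a⁻¹)) = z * 1 := by rw [hw]
    simpa using this
  calc z * a = (a * z * a⁻¹) * a := by rw [h1]
    _ = a * z := by group

end Cfsg.Agent.S3190
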