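import Mathlib
import Cfsg.Statements.S3195
import Cfsg.Agent.Lib.Helper67.BaerSuzuki
import Cfsg.Agent.Lib.Helper67.RealOdd

set_option autoImplicit false
set_option linter.unusedSimpArgs false
open Cfsg

namespace Cfsg.Agent.S3195

open Subgroup

/-- An element of odd order with trivial fourth power is trivial. -/
theorem eq_one_of_odd_of_pow_four {G : Type*} [Group G] (w : G) (n : ℕ) (hn : Odd n)
    (hw : w ^ n = 1) (h4 : w ^ 4 = 1) : w = 1 := by
  have h : w ^ Nat.gcd n 4 = 1 := pow_gcd_eq_one.mpr ⟨hw, h4⟩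
  have hc : Nat.gcd n 4 = 1 := by
    have : Nat.Coprime n (2 ^ 2) := Nat.Coprime.pow_right 2 (Nat.coprime_two_right.mpr hn)
    exact this
  rw [hc, pow_one] at h
  exact h

theorem pow_four_eq {G : Type*} [Group G] (w : G) : w ^ 4 = (w * w) * (w * w) := by
  rw [show 4 = 2 + 2 from rfl, pow_add, pow_two]

/-- An odd-order element inverting `w` by conjugation forces `w * w = 1`. -/
theorem sq_eq_one_of_odd_inverts {G : Type*} [Group G] (g w : G) (m : ℕ) (hm : Odd m)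
    (hg : g ^ m = 1) (h : g * w * g⁻¹ = w⁻¹) : w * w = 1 := by
  obtain ⟨j, rfl⟩ := hm
  have h1 : g * w = w⁻¹ * g := by
    calc g * w = (g * w * g⁻¹) * g := by group
      _ = w⁻¹ * g := by rw [h]
  have h1' : g * w⁻¹ = w * g := by
    calc g * w⁻¹ = (g * w * g⁻¹)⁻¹ * g := by group
      _ = w * g := by rw [h, inv_inv]
  have h2 : Commute (g ^ 2) w := by
    show g ^ 2 * w = w * g ^ 2
    calc g ^ 2 * w = g * (g * w) := by rw [pow_two, mul_assoc]
      _ = g * (w⁻¹ * g) := by rw [h1]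
      _ = (g * w⁻¹) * g := by group
      _ = (w * g) * g := by rw [h1']
      _ = w * g ^ 2 := by rw [pow_two, mul_assoc]
  have h3 : Commute ((g ^ 2) ^ (j + 1)) w := h2.pow_left _
  have h4 : (g ^ 2) ^ (j + 1) = g := by
    rw [← pow_mul]
    have : 2 * (j + 1) = (2 * j + 1) + 1 := by ring
    rw [this, pow_succ, hg, one_mul]
  rw [h4] at h3
  have h5 : g * w * g⁻¹ = w := by
    rw [h3.eq]; group
  rw [h5] at h
  calc w * w = w * w⁻¹ := by rw [← h]
    _ = 1 := by group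

/-- The main computation in the four-group `{1, s, t, s t}` acting on `V`, `W`. -/
theorem key {G : Type*} [Group G] (s t V W : G) (hs : s * s = 1) (ht : t * t = 1)
    (hst : s * t = t * s)
    (hsV : s * V * s⁻¹ = V) (htV : t * V * t⁻¹ = V⁻¹) (htW : t * W * t⁻¹ = W)
    (hsW : s * W * s⁻¹ = W⁻¹)
    (m n : ℕ) (hm : Odd m) (hn : Odd n) (hVm : V ^ m = 1) (hWn : W ^ n = 1) (hV : V ≠ 1)
    (hW : W ≠ 1) (e : G) (he : e = s ∨ e = t ∨ e = s * t)
    (hcomm : e * ((V * W)⁻¹ * (s * t) * (V * W)) = ((V * W)⁻¹ * (s * t) * (V * W)) * e) :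
    V * V * (W * W) * (V * V) = W⁻¹ * W⁻¹ := by
  have hsi : s⁻¹ = s := inv_eq_of_mul_eq_one_right hs
  have hti : t⁻¹ = t := inv_eq_of_mul_eq_one_right ht
  rw [hsi] at hsV hsW
  rw [hti] at htV htW
  have sV : s * V = V * s := by
    calc s * V = (s * V * s) * s := by rw [mul_assoc (s * V), hs, mul_one]
      _ = V * s := by rw [hsV]
  have sW : s * W = W⁻¹ * s := by
    calc s * W = (s * W * s) * s := by rw [mul_assoc (s * W), hs, mul_one]
      _ = W⁻¹ * s := by rw [hsW]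
  have tV : t * V = V⁻¹ * t := by
    calc t * V = (t * V * t) * t := by rw [mul_assoc (t * V), ht, mul_one]
      _ = V⁻¹ * t := by rw [htV]
  have tW : t * W = W * t := by
    calc t * W = (t * W * t) * t := by rw [mul_assoc (t * W), ht, mul_one]
      _ = W * t := by rw [htW]
  have sVi : s * V⁻¹ = V⁻¹ * s := by
    calc s * V⁻¹ = V⁻¹ * (V * s) * V⁻¹ := by group
      _ = V⁻¹ * (s * V) * V⁻¹ := by rw [sV]
      _ = V⁻¹ * s := by group
  have sWi : s * W⁻¹ = W * s := by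
    calc s * W⁻¹ = W * (W⁻¹ * s) * W⁻¹ := by group
      _ = W * (s * W) * W⁻¹ := by rw [sW]
      _ = W * s := by group
  have tVi : t * V⁻¹ = V * t := by
    calc t * V⁻¹ = V * (V⁻¹ * t) * V⁻¹ := by group
      _ = V * (t * V) * V⁻¹ := by rw [tV]
      _ = V * t := by group
  have tWi : t * W⁻¹ = W⁻¹ * t := by
    calc t * W⁻¹ = W⁻¹ * (W * t) * W⁻¹ := by group
      _ = W⁻¹ * (t * W) * W⁻¹ := by rw [tW]
      _ = W⁻¹ * t := by group
  have ts : t * s = s * t := hst.symm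
  have sV' : ∀ x, s * (V * x) = V * (s * x) := fun x => by rw [← mul_assoc, sV, mul_assoc]
  have sW' : ∀ x, s * (W * x) = W⁻¹ * (s * x) := fun x => by rw [← mul_assoc, sW, mul_assoc]
  have tV' : ∀ x, t * (V * x) = V⁻¹ * (t * x) := fun x => by rw [← mul_assoc, tV, mul_assoc]
  have tW' : ∀ x, t * (W * x) = W * (t * x) := fun x => by rw [← mul_assoc, tW, mul_assoc]
  have sVi' : ∀ x, s * (V⁻¹ * x) = V⁻¹ * (s * x) := fun x => by
    rw [← mul_assoc, sVi, mul_assoc]
  have sWi' : ∀ x, s * (W⁻¹ * x) = W * (s * x) := fun x => by rw [← mul_assoc, sWi, mul_assoc]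
  have tVi' : ∀ x, t * (V⁻¹ * x) = V * (t * x) := fun x => by rw [← mul_assoc, tVi, mul_assoc]
  have tWi' : ∀ x, t * (W⁻¹ * x) = W⁻¹ * (t * x) := fun x => by
    rw [← mul_assoc, tWi, mul_assoc]
  have ts' : ∀ x, t * (s * x) = s * (t * x) := fun x => by rw [← mul_assoc, ts, mul_assoc]
  have ss' : ∀ x, s * (s * x) = x := fun x => by rw [← mul_assoc, hs, one_mul]
  have tt' : ∀ x, t * (t * x) = x := fun x => by rw [← mul_assoc, ht, one_mul]
  rcases he with he | he | he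
  · exfalso
    rw [he] at hcomm
    have hL : s * ((V * W)⁻¹ * (s * t) * (V * W)) = W * V⁻¹ * V⁻¹ * W * t := by
      simp only [mul_assoc, mul_inv_rev, inv_inv, sV, sV', sVi, sVi', sW, sW', sWi, sWi', tV, tV',
        tVi, tVi', tW, tW', tWi, tWi', ts, ts', hs, ss', ht, tt', mul_one, one_mul,
        mul_inv_cancel_left, inv_mul_cancel_left, mul_inv_cancel, inv_mul_cancel]
    have hR : ((V * W)⁻¹ * (s * t) * (V * W)) * s = W⁻¹ * V⁻¹ * V⁻¹ * W⁻¹ * t := by
      simp only [mul_assoc, mul_inv_rev, inv_inv, sV, sV', sVi, sVi', sW, sW', sWi, sWi', tV, tV',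
        tVi, tVi', tW, tW', tWi, tWi', ts, ts', hs, ss', ht, tt', mul_one, one_mul,
        mul_inv_cancel_left, inv_mul_cancel_left, mul_inv_cancel, inv_mul_cancel]
    have h1 : W * V⁻¹ * V⁻¹ * W * t = W⁻¹ * V⁻¹ * V⁻¹ * W⁻¹ * t := by
      rw [← hL, ← hR]; exact hcomm
    have h2 : (V * V) * (W * W) * (V * V)⁻¹ = (W * W)⁻¹ := by
      calc (V * V) * (W * W) * (V * V)⁻¹
          = V * V * W * (W * V⁻¹ * V⁻¹ * W * t) * t⁻¹ * W⁻¹ := by group
        _ = V * V * W * (W⁻¹ * V⁻¹ * V⁻¹ * W⁻¹ * t) * t⁻¹ * W⁻¹ := by rw [h1]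
        _ = (W * W)⁻¹ := by group
    have hVV : (V * V) ^ m = 1 := by
      rw [← pow_two, ← pow_mul, mul_comm, pow_mul, hVm, one_pow]
    have h3 := sq_eq_one_of_odd_inverts (V * V) (W * W) m hm hVV h2
    have h4 : W ^ 4 = 1 := by
      calc W ^ 4 = W * W * (W * W) := pow_four_eq W
        _ = 1 := h3
    exact hW (eq_one_of_odd_of_pow_four W n hn hWn h4)
  · exfalso
    rw [he] at hcomm
    have hL : t * ((V * W)⁻¹ * (s * t) * (V * W)) = W⁻¹ * V * V * W⁻¹ * s := by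
      simp only [mul_assoc, mul_inv_rev, inv_inv, sV, sV', sVi, sVi', sW, sW', sWi, sWi', tV, tV',
        tVi, tVi', tW, tW', tWi, tWi', ts, ts', hs, ss', ht, tt', mul_one, one_mul,
        mul_inv_cancel_left, inv_mul_cancel_left, mul_inv_cancel, inv_mul_cancel]
    have hR : ((V * W)⁻¹ * (s * t) * (V * W)) * t = W⁻¹ * V⁻¹ * V⁻¹ * W⁻¹ * s := by
      simp only [mul_assoc, mul_inv_rev, inv_inv, sV, sV', sVi, sVi', sW, sW', sWi, sWi', tV, tV',
        tVi, tVi', tW, tW', tWi, tWi', ts, ts', hs, ss', ht, tt', mul_one, one_mul,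
        mul_inv_cancel_left, inv_mul_cancel_left, mul_inv_cancel, inv_mul_cancel]
    have h1 : W⁻¹ * V * V * W⁻¹ * s = W⁻¹ * V⁻¹ * V⁻¹ * W⁻¹ * s := by
      rw [← hL, ← hR]; exact hcomm
    have h4 : V ^ 4 = 1 := by
      calc V ^ 4 = (V * V) * (V * V) := pow_four_eq V
        _ = V * V * (W * (W⁻¹ * V * V * W⁻¹ * s) * s⁻¹ * W) := by group
        _ = V * V * (W * (W⁻¹ * V⁻¹ * V⁻¹ * W⁻¹ * s) * s⁻¹ * W) := by rw [h1]
        _ = 1 := by group
    exact hV (eq_one_of_odd_of_pow_four V m hm hVm h4)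
  · rw [he] at hcomm
    have hL : (s * t) * ((V * W)⁻¹ * (s * t) * (V * W)) = W * V * V * W := by
      simp only [mul_assoc, mul_inv_rev, inv_inv, sV, sV', sVi, sVi', sW, sW', sWi, sWi', tV, tV',
        tVi, tVi', tW, tW', tWi, tWi', ts, ts', hs, ss', ht, tt', mul_one, one_mul,
        mul_inv_cancel_left, inv_mul_cancel_left, mul_inv_cancel, inv_mul_cancel]
    have hR : ((V * W)⁻¹ * (s * t) * (V * W)) * (s * t) = W⁻¹ * V⁻¹ * V⁻¹ * W⁻¹ := by
      simp only [mul_assoc, mul_inv_rev, inv_inv, sV, sV', sVi, sVi', sW, sW', sWi, sWi', tV, tV',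
        tVi, tVi', tW, tW', tWi, tWi', ts, ts', hs, ss', ht, tt', mul_one, one_mul,
        mul_inv_cancel_left, inv_mul_cancel_left, mul_inv_cancel, inv_mul_cancel]
    have h1 : W * V * V * W = W⁻¹ * V⁻¹ * V⁻¹ * W⁻¹ := by
      rw [← hL, ← hR]; exact hcomm
    have h2 : (W * V * V * W) * (W * V * V * W) = 1 := by
      nth_rewrite 1 [h1]; group
    calc V * V * (W * W) * (V * V) = W⁻¹ * ((W * V * V * W) * (W * V * V * W)) * W⁻¹ := by group
      _ = W⁻¹ * 1 * W⁻¹ := by rw [h2]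
      _ = W⁻¹ * W⁻¹ := by group

/-- An involution outside `O₂(G)` inverts a nontrivial element of odd order (Baer–Suzuki). -/
theorem exists_inverted_odd {G : Type*} [Group G] [Finite G] (t : G) (ht : orderOf t = 2)
    (hnot : t ∉ Cfsg.pCore 2 G) : ∃ v : G, v ≠ 1 ∧ Odd (orderOf v) ∧ t * v * t⁻¹ = v⁻¹ := by
  by_contra hne
  push Not at hne
  apply hnot
  obtain ⟨K, hKdef⟩ : ∃ K : Set G, K = {x | ∃ g : G, x = g * t * g⁻¹} := ⟨_, rfl⟩
  have hK : ∀ g x, x ∈ K → g * x * g⁻¹ ∈ K := by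
    intro g x hx
    rw [hKdef] at hx ⊢
    obtain ⟨g', rfl⟩ := hx
    exact ⟨g * g', by group⟩
  have hord : ∀ x ∈ K, orderOf x = 2 := by
    intro x hx
    rw [hKdef] at hx
    obtain ⟨g, rfl⟩ := hx
    have : g * t * g⁻¹ = MulAut.conj g t := by simp
    rw [this, MulEquiv.orderOf_eq]; exact ht
  have hpair : ∀ x ∈ K, ∀ y ∈ K, IsPGroup 2 (closure ({x, y} : Set G)) := by
    intro x hx y hy
    have hx2 := hord x hx
    have hy2 := hord y hy
    obtain ⟨k, m, hm, hkm⟩ := Nat.exists_eq_two_pow_mul_odd (orderOf_pos (x * y)).ne'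
    by_cases hm1 : m = 1
    · rw [hm1, mul_one] at hkm
      exact Cfsg.Agent.Lib.Helper67.RealOdd.isPGroup_two_closure_pair x y hx2 hy2 k hkm
    · exfalso
      rw [hKdef] at hy
      obtain ⟨g, hg⟩ := hy
      obtain ⟨u, hu⟩ : ∃ u : G, u = (x * y) ^ (2 ^ k) := ⟨_, rfl⟩
      have huo : orderOf u = m := by
        have h1 : orderOf (x * y) / m = 2 ^ k := by
          rw [hkm]; exact Nat.mul_div_cancel _ hm.pos
        have := orderOf_pow_orderOf_div (orderOf_pos (x * y)).ne' (Dvd.intro_left _ hkm.symm)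
        rw [h1] at this
        rw [hu]; exact this
      have hxi : x⁻¹ = x :=
        inv_eq_of_mul_eq_one_right (by rw [← pow_two, ← hx2]; exact pow_orderOf_eq_one x)
      have hyi' : y⁻¹ = y :=
        inv_eq_of_mul_eq_one_right (by rw [← pow_two, ← hy2]; exact pow_orderOf_eq_one y)
      have hyi : y * (x * y) * y⁻¹ = (x * y)⁻¹ := by
        calc y * (x * y) * y⁻¹ = y * x := by group
          _ = y⁻¹ * x⁻¹ := by rw [hxi, hyi']
          _ = (x * y)⁻¹ := by group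
      have hyu : y * u * y⁻¹ = u⁻¹ := by
        rw [hu, Cfsg.Agent.Lib.Helper67.RealOdd.conj_pow_eq, hyi, inv_pow]
      obtain ⟨v, hv⟩ : ∃ v : G, v = g⁻¹ * u * g := ⟨_, rfl⟩
      have hvo : orderOf v = m := by
        have : v = MulAut.conj g⁻¹ u := by simp [hv]
        rw [this, MulEquiv.orderOf_eq]; exact huo
      refine hne v ?_ (hvo ▸ hm) ?_
      · intro h1; rw [h1, orderOf_one] at hvo; exact hm1 hvo.symm
      · calc t * v * t⁻¹ = g⁻¹ * ((g * t * g⁻¹) * u * (g * t * g⁻¹)⁻¹) * g := by rw [hv]; group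
          _ = g⁻¹ * u⁻¹ * g := by rw [← hg, hyu]
          _ = v⁻¹ := by rw [hv]; group
  have hM2 : IsPGroup 2 (closure K) :=
    Cfsg.Agent.Lib.Helper67.BaerSuzuki.isPGroup_closure K hK hpair
  have hMn : (closure K).Normal :=
    Cfsg.Agent.Lib.Helper67.RealOdd.closure_normal_of_conj_invariant K hK
  have hle : closure K ≤ Cfsg.pCore 2 G := le_sSup ⟨hMn, hM2⟩
  refine hle (Subgroup.subset_closure ?_)
  rw [hKdef]
  exact ⟨1, by group⟩

/-- If the involution `t` inverts the odd-order element `v`, then `t * v` is conjugate to `t`. -/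
theorem exists_conj_eq_mul {G : Type*} [Group G] (t v : G) (ht : t * t = 1) (m : ℕ) (hm : Odd m)
    (hv : v ^ m = 1) (hinv : t * v * t⁻¹ = v⁻¹) : ∃ g : G, g * t * g⁻¹ = t * v := by
  obtain ⟨j, rfl⟩ := hm
  obtain ⟨s, hs⟩ : ∃ s : G, s = v ^ (j + 1) := ⟨_, rfl⟩
  have hss : s * s = v := by
    rw [hs, ← pow_add]
    have : j + 1 + (j + 1) = (2 * j + 1) + 1 := by ring
    rw [this, pow_succ, hv, one_mul]
  have hts : t * s * t⁻¹ = s⁻¹ := by
    rw [hs, Cfsg.Agent.Lib.Helper67.RealOdd.conj_pow_eq, hinv, inv_pow]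
  have h1 : t * s = s⁻¹ * t := by
    calc t * s = (t * s * t⁻¹) * t := by group
      _ = s⁻¹ * t := by rw [hts]
  refine ⟨s⁻¹, ?_⟩
  calc s⁻¹ * t * s⁻¹⁻¹ = (s⁻¹ * t) * s := by rw [inv_inv]
    _ = (t * s) * s := by rw [h1]
    _ = t * (s * s) := by group
    _ = t * v := by rw [hss]

/-- `e` centralizes some nontrivial odd-order `v` inverted by every other involution of `A`. -/
def Q {G : Type*} [Group G] (A : Subgroup G) (e : G) : Prop :=
  ∃ (v : G) (m : ℕ), v ≠ 1 ∧ Odd m ∧ v ^ m = 1 ∧ e * v * e⁻¹ = v ∧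
    ∀ t ∈ A, t ≠ 1 → t ≠ e → t * v * t⁻¹ = v⁻¹

/-- Let A be a Klein four-subgroup of a finite group G. If every G-conjugate of every involution of A commutes with some involution of A (its centralizer meets A nontrivially), then A meets the largest normal 2-subgroup O₂(G) nontrivially. -/
theorem result {G : Type*} [Group G] [Finite G]
    (A : Subgroup G) (hA : IsKleinFour ↥A)
    (h : ∀ a ∈ A, a ≠ 1 → ∀ g : G, A ⊓ Subgroup.centralizer ({g * a * g⁻¹} : Set G) ≠ ⊥) :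
    A ⊓ Cfsg.pCore 2 G ≠ ⊥ := by
  intro hbot
  have hsq : ∀ a ∈ A, a * a = 1 := by
    intro a ha
    have := @IsKleinFour.mul_self A _ hA ⟨a, ha⟩
    exact congrArg Subtype.val this
  have hcomm : ∀ a ∈ A, ∀ b ∈ A, a * b = b * a := by
    intro a ha b hb
    have := mul_comm_of_exponent_two hA.exponent_two (⟨a, ha⟩ : A) ⟨b, hb⟩
    exact congrArg Subtype.val this
  have hcases : ∀ s ∈ A, ∀ t ∈ A, ∀ x ∈ A, s ≠ 1 → t ≠ 1 → s ≠ t → x ≠ 1 → x ≠ s → x ≠ t →
      x = s * t := by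
    intro s hs t ht x hx hs1 ht1 hst hx1 hxs hxt
    have := @IsKleinFour.eq_mul_of_ne_all A _ hA ⟨s, hs⟩ ⟨t, ht⟩ ⟨x, hx⟩
      (by simpa [Subtype.ext_iff] using hs1) (by simpa [Subtype.ext_iff] using ht1)
      (by simpa [Subtype.ext_iff] using hst) (by simpa [Subtype.ext_iff] using hx1)
      (by simpa [Subtype.ext_iff] using hxs) (by simpa [Subtype.ext_iff] using hxt)
    exact congrArg Subtype.val this
  have hnotcore : ∀ a ∈ A, a ≠ 1 → a ∉ Cfsg.pCore 2 G := by
    intro a ha ha1 hc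
    have hmem : a ∈ A ⊓ Cfsg.pCore 2 G := ⟨ha, hc⟩
    rw [hbot] at hmem
    exact ha1 (Subgroup.mem_bot.mp hmem)
  have hcent : ∀ a ∈ A, a ≠ 1 → ∀ g : G,
      ∃ e ∈ A, e ≠ 1 ∧ e * (g * a * g⁻¹) = (g * a * g⁻¹) * e := by
    intro a ha ha1 g
    have h0 := h a ha ha1 g
    rw [Ne, Subgroup.eq_bot_iff_forall] at h0
    push Not at h0
    obtain ⟨e, he, he1⟩ := h0
    have heA : e ∈ A := he.1
    have heC : e ∈ Subgroup.centralizer ({g * a * g⁻¹} : Set G) := he.2
    rw [Subgroup.mem_centralizer_iff] at heC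
    exact ⟨e, heA, he1, (heC _ (Set.mem_singleton _)).symm⟩
  have step : ∀ t ∈ A, t ≠ 1 → ∃ e ∈ A, e ≠ 1 ∧ e ≠ t ∧ Q A e := by
    intro t ht ht1
    have hto : orderOf t = 2 := orderOf_eq_prime (by rw [pow_two]; exact hsq t ht) ht1
    obtain ⟨v, hv1, hvodd, hinv⟩ := exists_inverted_odd t hto (hnotcore t ht ht1)
    obtain ⟨g, hg⟩ :=
      exists_conj_eq_mul t v (hsq t ht) (orderOf v) hvodd (pow_orderOf_eq_one v) hinv
    obtain ⟨e, he, he1, hec⟩ := hcent t ht ht1 g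
    rw [hg] at hec
    have hti : t⁻¹ = t := inv_eq_of_mul_eq_one_right (hsq t ht)
    have het : e ≠ t := by
      intro heq
      rw [heq] at hec
      have h1 : t * v * t⁻¹ = v := by
        rw [hti]
        calc t * v * t = t * (t * v) := hec.symm
          _ = v := by rw [← mul_assoc, hsq t ht, one_mul]
      rw [h1] at hinv
      have h2 : v * v = 1 := by
        nth_rewrite 2 [hinv]; group
      have h4 : v ^ 4 = 1 := by
        calc v ^ 4 = (v * v) * (v * v) := pow_four_eq v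
          _ = 1 := by rw [h2, one_mul]
      exact hv1 (eq_one_of_odd_of_pow_four v _ hvodd (pow_orderOf_eq_one v) h4)
    have hev : e * v * e⁻¹ = v := by
      have hte : t * e = e * t := hcomm t ht e he
      have h1 : t * (e * v) = t * (v * e) := by
        calc t * (e * v) = e * (t * v) := by rw [← mul_assoc, hte, mul_assoc]
          _ = t * v * e := hec
          _ = t * (v * e) := by rw [mul_assoc]
      have h2 : e * v = v * e := mul_left_cancel h1
      rw [h2]; group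
    refine ⟨e, he, he1, het, v, orderOf v, hv1, hvodd, pow_orderOf_eq_one v, hev, ?_⟩
    intro t' ht' ht'1 ht'e
    by_cases htt : t' = t
    · rw [htt]; exact hinv
    · have h3 := hcases e he t ht t' ht' he1 ht1 het ht'1 ht'e htt
      rw [h3]
      calc e * t * v * (e * t)⁻¹ = e * (t * v * t⁻¹) * e⁻¹ := by group
        _ = e * v⁻¹ * e⁻¹ := by rw [hinv]
        _ = (e * v * e⁻¹)⁻¹ := by group
        _ = v⁻¹ := by rw [hev]
  have final : ∀ s ∈ A, ∀ t ∈ A, s ≠ 1 → t ≠ 1 → s ≠ t → Q A s → Q A t → False := by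
    intro s hs t ht hs1 ht1 hst hQs hQt
    obtain ⟨v, m, hv1, hm, hvm, hsv, hv_inv⟩ := hQs
    obtain ⟨w, n, hw1, hn, hwn, htw, hw_inv⟩ := hQt
    have htv : t * v * t⁻¹ = v⁻¹ := hv_inv t ht ht1 (Ne.symm hst)
    have hsw : s * w * s⁻¹ = w⁻¹ := hw_inv s hs hs1 hst
    have hst_comm : s * t = t * s := hcomm s hs t ht
    have hr : s * t ∈ A := mul_mem hs ht
    have hr1 : s * t ≠ 1 := by
      intro h1
      apply hst
      calc s = s * (t * t) := by rw [hsq t ht, mul_one]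
        _ = (s * t) * t := by rw [mul_assoc]
        _ = t := by rw [h1, one_mul]
    have star : ∀ V : G, V ≠ 1 → V ^ m = 1 → s * V * s⁻¹ = V → t * V * t⁻¹ = V⁻¹ →
        V * V * (w * w) * (V * V) = w⁻¹ * w⁻¹ := by
      intro V hV1 hVm hsV htV
      obtain ⟨e, he, he1, hec⟩ := hcent (s * t) hr hr1 (V * w)⁻¹
      rw [inv_inv] at hec
      have he3 : e = s ∨ e = t ∨ e = s * t := by
        by_cases h1 : e = s
        · exact Or.inl h1
        · by_cases h2 : e = t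
          · exact Or.inr (Or.inl h2)
          · exact Or.inr (Or.inr (hcases s hs t ht e he hs1 ht1 hst he1 h1 h2))
      exact key s t V w (hsq s hs) (hsq t ht) hst_comm hsV htV htw hsw m n hm hn hVm hwn hV1 hw1
        e he3 hec
    have h1 := star v hv1 hvm hsv htv
    have hvv1 : v * v ≠ 1 := by
      intro h0
      have h4 : v ^ 4 = 1 := by
        calc v ^ 4 = (v * v) * (v * v) := pow_four_eq v
          _ = 1 := by rw [h0, one_mul]
      exact hv1 (eq_one_of_odd_of_pow_four v m hm hvm h4)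
    have hvvm : (v * v) ^ m = 1 := by
      rw [← pow_two, ← pow_mul, mul_comm, pow_mul, hvm, one_pow]
    have hsvv : s * (v * v) * s⁻¹ = v * v := by
      calc s * (v * v) * s⁻¹ = (s * v * s⁻¹) * (s * v * s⁻¹) := by group
        _ = v * v := by rw [hsv]
    have htvv : t * (v * v) * t⁻¹ = (v * v)⁻¹ := by
      calc t * (v * v) * t⁻¹ = (t * v * t⁻¹) * (t * v * t⁻¹) := by group
        _ = v⁻¹ * v⁻¹ := by rw [htv]
        _ = (v * v)⁻¹ := by group
    have h2 := star (v * v) hvv1 hvvm hsvv htvv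
    have h3 : v * v * (w⁻¹ * w⁻¹) * (v * v) = w⁻¹ * w⁻¹ := by
      calc v * v * (w⁻¹ * w⁻¹) * (v * v)
          = v * v * (v * v * (w * w) * (v * v)) * (v * v) := by rw [h1]
        _ = (v * v) * (v * v) * (w * w) * ((v * v) * (v * v)) := by group
        _ = w⁻¹ * w⁻¹ := h2
    have h4 : w * w = w⁻¹ * w⁻¹ := by
      calc w * w = (v * v)⁻¹ * (v * v * (w * w) * (v * v)) * (v * v)⁻¹ := by group
        _ = (v * v)⁻¹ * (w⁻¹ * w⁻¹) * (v * v)⁻¹ := by rw [h1]
        _ = (v * v)⁻¹ * (v * v * (w⁻¹ * w⁻¹) * (v * v)) * (v * v)⁻¹ := by rw [h3]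
        _ = w⁻¹ * w⁻¹ := by group
    have h5 : w ^ 4 = 1 := by
      calc w ^ 4 = (w * w) * (w * w) := pow_four_eq w
        _ = (w * w) * (w⁻¹ * w⁻¹) := by rw [← h4]
        _ = 1 := by group
    exact hw1 (eq_one_of_odd_of_pow_four w n hn hwn h5)
  obtain ⟨a, ha, ha1⟩ : ∃ a ∈ A, a ≠ 1 := by
    by_contra hcon
    push Not at hcon
    have hAbot : A = ⊥ := (Subgroup.eq_bot_iff_forall A).mpr hcon
    have h4 : Nat.card (⊥ : Subgroup G) = 4 := hAbot ▸ hA.card_four
    rw [Subgroup.card_bot] at h4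
    omega
  obtain ⟨e1, he1, he1_1, _, hQ1⟩ := step a ha ha1
  obtain ⟨e2, he2, he2_1, he2e1, hQ2⟩ := step e1 he1 he1_1
  exact final e1 he1 e2 he2 he1_1 he2_1 (Ne.symm he2e1) hQ1 hQ2

end Cfsg.Agent.S3195
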