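import Mathlib
import Cfsg.Statements.S3196

set_option autoImplicit false
open Cfsg

namespace Cfsg.Agent.S3196

/-- elementwise commuting of two subgroups -/
def Perp {G : Type*} [Group G] (X Y : Subgroup G) : Prop := ∀ x ∈ X, ∀ y ∈ Y, x * y = y * x

theorem Perp.symm {G : Type*} [Group G] {X Y : Subgroup G} (h : Perp X Y) : Perp Y X :=
  fun y hy x hx => (h x hx y hy).symm

/-- elements of the join of two elementwise commuting subgroups are products -/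
theorem mem_sup_of_perp {G : Type*} [Group G] (L₁ L₂ : Subgroup G) (hc : Perp L₁ L₂) :
    ∀ y ∈ L₁ ⊔ L₂, ∃ a ∈ L₁, ∃ b ∈ L₂, y = a * b := by
  let M : Subgroup G :=
    { carrier := {y | ∃ a ∈ L₁, ∃ b ∈ L₂, y = a * b}
      mul_mem' := by
        rintro _ _ ⟨a, ha, b, hb, rfl⟩ ⟨a', ha', b', hb', rfl⟩
        refine ⟨a * a', mul_mem ha ha', b * b', mul_mem hb hb', ?_⟩
        have h := hc a' ha' b hb
        calc a * b * (a' * b') = a * (b * a') * b' := by group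
          _ = a * (a' * b) * b' := by rw [h]
          _ = a * a' * (b * b') := by group
      one_mem' := ⟨1, one_mem _, 1, one_mem _, by simp⟩
      inv_mem' := by
        rintro _ ⟨a, ha, b, hb, rfl⟩
        refine ⟨a⁻¹, inv_mem ha, b⁻¹, inv_mem hb, ?_⟩
        have h := hc a⁻¹ (inv_mem ha) b⁻¹ (inv_mem hb)
        rw [mul_inv_rev, h] }
  have hle : L₁ ⊔ L₂ ≤ M := by
    apply sup_le
    · intro a ha; exact ⟨a, ha, 1, one_mem _, by simp⟩
    · intro b hb; exact ⟨1, one_mem _, b, hb, by simp⟩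
  intro y hy
  exact hle hy

/-- every element of a subgroup of prime order is a power of any nontrivial element -/
theorem gen_pow {G : Type*} [Group G] [Finite G] {p : ℕ} (hp : p.Prime) (X : Subgroup G)
    (hX : Nat.card X = p) {a b : G} (ha : a ∈ X) (ha1 : a ≠ 1) (hb : b ∈ X) :
    ∃ n : ℕ, b = a ^ n := by
  have : Fact p.Prime := ⟨hp⟩
  have h1 : (⟨b, hb⟩ : X) ∈ Subgroup.zpowers (⟨a, ha⟩ : X) :=
    mem_zpowers_of_prime_card hX (by intro h; exact ha1 (congrArg Subtype.val h))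
  rw [← mem_powers_iff_mem_zpowers] at h1
  obtain ⟨n, hn⟩ := h1
  refine ⟨n, ?_⟩
  have := congrArg Subtype.val hn
  simpa using this.symm

theorem pow_p_eq_one {G : Type*} [Group G] {p : ℕ} (X : Subgroup G) (hX : Nat.card X = p)
    {a : G} (ha : a ∈ X) : a ^ p = 1 := by
  have h := pow_card_eq_one' (G := X) (x := ⟨a, ha⟩)
  rw [hX] at h
  simpa using congrArg Subtype.val h

/-- commuting with a nontrivial element of `X` (prime order) implies commuting with `X` -/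
theorem commute_all_of_gen {G : Type*} [Group G] [Finite G] {p : ℕ} (hp : p.Prime)
    (X : Subgroup G) (hX : Nat.card X = p) {a g : G} (ha : a ∈ X) (ha1 : a ≠ 1)
    (h : g * a = a * g) : ∀ b ∈ X, g * b = b * g := by
  intro b hb
  obtain ⟨n, rfl⟩ := gen_pow hp X hX ha ha1 hb
  exact ((show Commute g a from h).pow_right n).eq

theorem card_zpowers_of_pow {G : Type*} [Group G] {p : ℕ} (hp : p.Prime) {a : G}
    (hap : a ^ p = 1) (ha1 : a ≠ 1) : Nat.card (Subgroup.zpowers a) = p := by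
  have : Fact p.Prime := ⟨hp⟩
  rw [Nat.card_zpowers, orderOf_eq_prime hap ha1]

theorem perp_of_gen {G : Type*} [Group G] [Finite G] {p : ℕ} (hp : p.Prime) (X Y : Subgroup G)
    (hX : Nat.card X = p) (hY : Nat.card Y = p) {a b : G} (ha : a ∈ X) (ha1 : a ≠ 1)
    (hb : b ∈ Y) (hb1 : b ≠ 1) (h : a * b = b * a) : Perp X Y := by
  intro x hx y hy
  obtain ⟨n, rfl⟩ := gen_pow hp X hX ha ha1 hx
  obtain ⟨m, rfl⟩ := gen_pow hp Y hY hb hb1 hy
  exact ((show Commute a b from h).pow_pow n m).eq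

theorem perp_self {G : Type*} [Group G] [Finite G] {p : ℕ} (hp : p.Prime) (X : Subgroup G)
    (hX : Nat.card X = p) : Perp X X := by
  intro x hx y hy
  by_cases hx1 : x = 1
  · rw [hx1]; simp
  · obtain ⟨n, rfl⟩ := gen_pow hp X hX hx hx1 hy
    exact ((Commute.refl x).pow_right n).eq

/-- consequence of hypothesis (b): a nontrivial product commuting with `W` -/
theorem exists_comm_of_hb {G : Type*} [Group G] (X Y W : Subgroup G) (hXY : Perp X Y)
    (h : (X ⊔ Y) ⊓ Subgroup.centralizer (W : Set G) ≠ ⊥) :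
    ∃ a ∈ X, ∃ b ∈ Y, a * b ≠ 1 ∧ ∀ w ∈ W, (a * b) * w = w * (a * b) := by
  rw [Ne, Subgroup.eq_bot_iff_forall] at h
  push Not at h
  obtain ⟨e, he, he1⟩ := h
  have h1 : e ∈ X ⊔ Y := he.1
  have h2 : e ∈ Subgroup.centralizer (W : Set G) := he.2
  obtain ⟨a, ha, b, hb, rfl⟩ := mem_sup_of_perp X Y hXY e h1
  refine ⟨a, ha, b, hb, he1, ?_⟩
  intro w hw
  rw [Subgroup.mem_centralizer_iff] at h2
  exact (h2 w hw).symm

theorem point_of_mul {G : Type*} [Group G] {p : ℕ} (hp : p.Prime) (X Y : Subgroup G)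
    (hX : Nat.card X = p) (hY : Nat.card Y = p) (hXY : Perp X Y) {a b : G} (ha : a ∈ X)
    (hb : b ∈ Y) (hab : a * b ≠ 1) :
    Nat.card (Subgroup.zpowers (a * b)) = p ∧ Subgroup.zpowers (a * b) ≤ X ⊔ Y := by
  refine ⟨card_zpowers_of_pow hp ?_ hab, ?_⟩
  · rw [(show Commute a b from hXY a ha b hb).mul_pow, pow_p_eq_one X hX ha,
      pow_p_eq_one Y hY hb, one_mul]
  · rw [Subgroup.zpowers_le]
    exact mul_mem (Subgroup.mem_sup_left ha) (Subgroup.mem_sup_right hb)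

theorem conj_cancel {G : Type*} [Group G] (g C : G) (h : Commute C g) : C⁻¹ * g * C = g := by
  rw [mul_assoc, ← h.eq, inv_mul_cancel_left]

/-- commutators ignore commuting factors -/
theorem comm_central {G : Type*} [Group G] (A B C1 C2 : G) (hC1A : Commute C1 A)
    (hC1B : Commute C1 B) (hC2A : Commute C2 A) (hC2B : Commute C2 B) (hC2C1 : Commute C2 C1) :
    (A * C1)⁻¹ * (B * C2)⁻¹ * (A * C1) * (B * C2) = A⁻¹ * B⁻¹ * A * B := by
  have hcomm_a : Commute C2 (B⁻¹ * (A * C1) * B) :=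
    (hC2B.inv_right.mul_right (hC2A.mul_right hC2C1)).mul_right hC2B
  have hcomm_b : Commute C1 (A⁻¹ * B⁻¹ * A * B) :=
    ((hC1A.inv_right.mul_right hC1B.inv_right).mul_right hC1A).mul_right hC1B
  calc (A * C1)⁻¹ * (B * C2)⁻¹ * (A * C1) * (B * C2)
      = (A * C1)⁻¹ * (C2⁻¹ * (B⁻¹ * (A * C1) * B) * C2) := by group
    _ = (A * C1)⁻¹ * (B⁻¹ * (A * C1) * B) := by rw [conj_cancel _ C2 hcomm_a]
    _ = C1⁻¹ * (A⁻¹ * B⁻¹ * A * (C1 * B)) := by group
    _ = C1⁻¹ * (A⁻¹ * B⁻¹ * A * (B * C1)) := by rw [hC1B.eq]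
    _ = C1⁻¹ * (A⁻¹ * B⁻¹ * A * B) * C1 := by group
    _ = A⁻¹ * B⁻¹ * A * B := conj_cancel _ C1 hcomm_b

/-- class two conjugation formula -/
theorem conj_pow_formula {G : Type*} [Group G] (x w c : G) (hcx : Commute c x)
    (hcw : Commute c w) (hconj : w⁻¹ * x * w = x * c) (i j : ℕ) :
    (w ^ j)⁻¹ * x ^ i * w ^ j = x ^ i * c ^ (j * i) := by
  have step1 : ∀ j : ℕ, (w ^ j)⁻¹ * x * w ^ j = x * c ^ j := by
    intro j
    induction j with
    | zero => simp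
    | succ j ih =>
      have hcw' : Commute (c ^ j) w := hcw.pow_left j
      calc (w ^ (j + 1))⁻¹ * x * w ^ (j + 1) = w⁻¹ * ((w ^ j)⁻¹ * x * w ^ j) * w := by
            rw [pow_succ]; group
        _ = w⁻¹ * (x * c ^ j) * w := by rw [ih]
        _ = (w⁻¹ * x * w) * (w⁻¹ * (c ^ j * w)) := by group
        _ = (w⁻¹ * x * w) * (w⁻¹ * (w * c ^ j)) := by rw [hcw'.eq]
        _ = (x * c) * c ^ j := by rw [hconj, inv_mul_cancel_left]
        _ = x * c ^ (j + 1) := by rw [pow_succ', mul_assoc]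
  have conjpow : ∀ (g y : G) (i : ℕ), g⁻¹ * y ^ i * g = (g⁻¹ * y * g) ^ i := by
    intro g y i
    induction i with
    | zero => simp
    | succ i ih => rw [pow_succ, pow_succ, ← ih]; group
  have step2 : (w ^ j)⁻¹ * x ^ i * w ^ j = ((w ^ j)⁻¹ * x * w ^ j) ^ i := conjpow _ _ _
  rw [step2, step1, (show Commute x (c ^ j) from (hcx.pow_left j).symm).mul_pow, ← pow_mul]

theorem closure_normal_of_conj_invariant {G : Type*} [Group G] (K : Set G)
    (hK : ∀ g x, x ∈ K → g * x * g⁻¹ ∈ K) : (Subgroup.closure K).Normal := by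
  constructor
  intro n hn g
  induction hn using Subgroup.closure_induction with
  | mem w hw => exact Subgroup.subset_closure (hK g w hw)
  | one => simp
  | mul a b _ _ iha ihb =>
    have : g * (a * b) * g⁻¹ = (g * a * g⁻¹) * (g * b * g⁻¹) := by group
    rw [this]
    exact mul_mem iha ihb
  | inv a _ iha =>
    have : g * a⁻¹ * g⁻¹ = (g * a * g⁻¹)⁻¹ := by group
    rw [this]
    exact inv_mem iha

/-- Case I: a quadrangle with non-commuting diagonals produces a radical member. -/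
theorem radical_of_quadrangle {G : Type*} [Group G] [Finite G] {p : ℕ} (hp : p.Prime)
    (K : Set (Subgroup G)) (hK : ∀ X ∈ K, Nat.card ↥X = p)
    (hKc : ∀ X ∈ K, ∀ g : G, X.map (MulAut.conj g).toMonoidHom ∈ K)
    (ha : ∀ X ∈ K, ∀ Y ∈ K, X ≠ Y → Perp X Y →
      ∀ Z : Subgroup G, Z ≤ X ⊔ Y → Nat.card ↥Z = p → Z ∈ K)
    (hb : ∀ X ∈ K, ∀ Y ∈ K, X ≠ Y → Perp X Y →
      ∀ W ∈ K, (X ⊔ Y) ⊓ Subgroup.centralizer (W : Set G) ≠ ⊥)
    (X W Z Z' : Subgroup G) (hX : X ∈ K) (hW : W ∈ K) (hZ : Z ∈ K) (hZ' : Z' ∈ K)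
    (hXZ : Perp X Z) (hXZ' : Perp X Z') (hWZ : Perp W Z) (hWZ' : Perp W Z')
    (hXW : ¬ Perp X W) (hZZ' : ¬ Perp Z Z') :
    ∃ V ∈ K, ∀ W' ∈ K, Perp V W' := by
  unfold Perp at hXW hZZ'
  push Not at hXW hZZ'
  obtain ⟨x, hx, w, hw, hxw⟩ := hXW
  obtain ⟨z, hz, z', hz', hzz'⟩ := hZZ'
  have hw1 : w ≠ 1 := by
    intro h; rw [h] at hxw; simp at hxw
  have hWZ'ne : W ≠ Z' := by
    intro h; apply hxw; exact hXZ' x hx w (h ▸ hw)
  have hwz'1 : w * z' ≠ 1 := by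
    intro h
    apply hxw
    have h1 : w = z'⁻¹ := eq_inv_of_mul_eq_one_left h
    rw [h1]; exact hXZ' x hx _ (inv_mem hz')
  obtain ⟨hcard, hle⟩ := point_of_mul hp W Z' (hK W hW) (hK Z' hZ') hWZ' hw hz' hwz'1
  have hW'' : Subgroup.zpowers (w * z') ∈ K := ha W hW Z' hZ' hWZ'ne hWZ' _ hle hcard
  have hXZne : X ≠ Z := by
    intro h; apply hxw; exact (hWZ w hw x (h ▸ hx)).symm
  obtain ⟨x', hx', z₁, hz₁, he1, hecomm⟩ :=
    exists_comm_of_hb X Z _ hXZ (hb X hX Z hZ hXZne hXZ _ hW'')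
  have hec : (x' * z₁) * (w * z') = (w * z') * (x' * z₁) := hecomm _ (Subgroup.mem_zpowers _)
  have h_z1w : z₁ * w = w * z₁ := (hWZ w hw z₁ hz₁).symm
  have h_x'z' : x' * z' = z' * x' := hXZ' x' hx' z' hz'
  have h_x'z1 : x' * z₁ = z₁ * x' := hXZ x' hx' z₁ hz₁
  have h_wz' : w * z' = z' * w := hWZ' w hw z' hz'
  have hx'1 : x' ≠ 1 := by
    intro h
    rw [h, one_mul] at hec he1
    have h2 : z₁ * z' = z' * z₁ := by
      have h3 : w * (z₁ * z') = w * (z' * z₁) := by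
        calc w * (z₁ * z') = (z₁ * w) * z' := by rw [h_z1w, mul_assoc]
          _ = z₁ * (w * z') := by rw [mul_assoc]
          _ = (w * z') * z₁ := hec
          _ = w * (z' * z₁) := by rw [mul_assoc]
      exact mul_left_cancel h3
    apply hzz'
    exact (commute_all_of_gen hp Z (hK Z hZ) hz₁ he1 h2.symm z hz).symm
  obtain ⟨c, hc⟩ : ∃ c : G, c = x'⁻¹ * w⁻¹ * x' * w := ⟨_, rfl⟩
  have hc2 : c = z' * z₁ * z'⁻¹ * z₁⁻¹ := by
    have h3 : x' * w * (z₁ * z') = w * x' * (z' * z₁) := by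
      calc x' * w * (z₁ * z') = x' * (w * z₁) * z' := by group
        _ = x' * (z₁ * w) * z' := by rw [h_z1w]
        _ = (x' * z₁) * (w * z') := by group
        _ = (w * z') * (x' * z₁) := hec
        _ = w * (z' * x') * z₁ := by group
        _ = w * (x' * z') * z₁ := by rw [h_x'z']
        _ = w * x' * (z' * z₁) := by group
    rw [hc]
    calc x'⁻¹ * w⁻¹ * x' * w = (w * x')⁻¹ * (x' * w * (z₁ * z')) * (z₁ * z')⁻¹ := by group
      _ = (w * x')⁻¹ * (w * x' * (z' * z₁)) * (z₁ * z')⁻¹ := by rw [h3]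
      _ = z' * z₁ * z'⁻¹ * z₁⁻¹ := by group
  have hxc : Commute x' c := by
    rw [hc2]
    have k1 : Commute x' z' := h_x'z'
    have k2 : Commute x' z₁ := h_x'z1
    exact ((k1.mul_right k2).mul_right k1.inv_right).mul_right k2.inv_right
  have hwc : Commute w c := by
    rw [hc2]
    have k1 : Commute w z' := h_wz'
    have k2 : Commute w z₁ := h_z1w.symm
    exact ((k1.mul_right k2).mul_right k1.inv_right).mul_right k2.inv_right
  have hc1 : c ≠ 1 := by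
    intro h
    rw [h] at hc
    have h4 : x' * w = w * x' := by
      calc x' * w = w * x' * (x'⁻¹ * w⁻¹ * x' * w) := by group
        _ = w * x' := by rw [← hc, mul_one]
    apply hxw
    exact (commute_all_of_gen hp X (hK X hX) hx' hx'1 h4.symm x hx).symm
  have hconj : w⁻¹ * x' * w = x' * c := by rw [hc]; group
  have hcp : c ^ p = 1 := by
    have h5 : (x' * c) ^ p = 1 := by
      rw [← hconj]
      have h6 : w⁻¹ * x' * w = MulAut.conj w⁻¹ x' := by simp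
      rw [h6, ← map_pow, pow_p_eq_one X (hK X hX) hx', map_one]
    rw [hxc.mul_pow, pow_p_eq_one X (hK X hX) hx', one_mul] at h5
    exact h5
  have hC0card : Nat.card (Subgroup.zpowers c) = p := card_zpowers_of_pow hp hcp hc1
  have hcX : c ∉ X := by
    intro h
    apply hxw
    exact (commute_all_of_gen hp X (hK X hX) h hc1 hwc.eq x hx).symm
  have hX'K : X.map (MulAut.conj w⁻¹).toMonoidHom ∈ K := hKc X hX w⁻¹
  have hx'cX' : x' * c ∈ X.map (MulAut.conj w⁻¹).toMonoidHom := by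
    rw [← hconj]
    refine ⟨x', hx', ?_⟩
    simp
  have hX'ne : X ≠ X.map (MulAut.conj w⁻¹).toMonoidHom := by
    intro h
    rw [← h] at hx'cX'
    apply hcX
    have h7 : c = x'⁻¹ * (x' * c) := by group
    rw [h7]; exact mul_mem (inv_mem hx') hx'cX'
  have hx'c1 : x' * c ≠ 1 := by
    intro h
    apply hcX
    have h7 : c = x'⁻¹ := eq_inv_of_mul_eq_one_right h
    rw [h7]; exact inv_mem hx'
  have hXX' : Perp X (X.map (MulAut.conj w⁻¹).toMonoidHom) :=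
    perp_of_gen hp X _ (hK X hX) (hK _ hX'K) hx' hx'1 hx'cX' hx'c1
      (by rw [mul_assoc, hxc.eq])
  have hC0K : Subgroup.zpowers c ∈ K := by
    refine ha X hX _ hX'K hX'ne hXX' _ ?_ hC0card
    rw [Subgroup.zpowers_le]
    have h7 : c = x'⁻¹ * (x' * c) := by group
    rw [h7]
    exact mul_mem (Subgroup.mem_sup_left (inv_mem hx')) (Subgroup.mem_sup_right hx'cX')
  refine ⟨Subgroup.zpowers c, hC0K, ?_⟩
  intro W' hW'
  suffices hsuff : ∀ u ∈ W', c * u = u * c by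
    intro y hy u hu
    obtain ⟨k, rfl⟩ := Subgroup.mem_zpowers_iff.mp hy
    exact ((show Commute c u from hsuff u hu).zpow_left k).eq
  have hXC0ne : X ≠ Subgroup.zpowers c := by
    intro h; apply hcX; rw [h]; exact Subgroup.mem_zpowers c
  have hXC0 : Perp X (Subgroup.zpowers c) :=
    perp_of_gen hp X _ (hK X hX) hC0card hx' hx'1 (Subgroup.mem_zpowers c) hc1 hxc.eq
  have hXWn : ¬ Perp X W := fun h => hxw (h x hx w hw)
  have hWC0ne : W ≠ Subgroup.zpowers c := by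
    intro h
    apply hXWn
    rw [h]; exact hXC0
  have hWC0 : Perp W (Subgroup.zpowers c) :=
    perp_of_gen hp W _ (hK W hW) hC0card hw hw1 (Subgroup.mem_zpowers c) hc1 hwc.eq
  obtain ⟨a₁, ha₁, c₁, hc₁, he1', hcomm1⟩ :=
    exists_comm_of_hb X _ W' hXC0 (hb X hX _ hC0K hXC0ne hXC0 W' hW')
  obtain ⟨b₂, hb₂, c₂, hc₂, he2', hcomm2⟩ :=
    exists_comm_of_hb W _ W' hWC0 (hb W hW _ hC0K hWC0ne hWC0 W' hW')
  intro u hu
  by_cases ha₁1 : a₁ = 1
  · rw [ha₁1, one_mul] at he1' hcomm1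
    have h7 := hcomm1 u hu
    exact (commute_all_of_gen hp (Subgroup.zpowers c) hC0card hc₁ he1' (g := u) h7.symm c
      (Subgroup.mem_zpowers c)).symm
  by_cases hb₂1 : b₂ = 1
  · rw [hb₂1, one_mul] at he2' hcomm2
    have h7 := hcomm2 u hu
    exact (commute_all_of_gen hp (Subgroup.zpowers c) hC0card hc₂ he2' (g := u) h7.symm c
      (Subgroup.mem_zpowers c)).symm
  -- main case
  have hab : a₁ * b₂ ≠ b₂ * a₁ := by
    intro h
    exact hXWn (perp_of_gen hp X W (hK X hX) (hK W hW) ha₁ ha₁1 hb₂ hb₂1 h)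
  obtain ⟨i, hi⟩ := gen_pow hp X (hK X hX) hx' hx'1 ha₁
  obtain ⟨j, hj⟩ := gen_pow hp W (hK W hW) hw hw1 hb₂
  have hC1A : Commute c₁ a₁ := (hXC0 a₁ ha₁ c₁ hc₁).symm
  have hC1B : Commute c₁ b₂ := (hWC0 b₂ hb₂ c₁ hc₁).symm
  have hC2A : Commute c₂ a₁ := (hXC0 a₁ ha₁ c₂ hc₂).symm
  have hC2B : Commute c₂ b₂ := (hWC0 b₂ hb₂ c₂ hc₂).symm
  have hC2C1 : Commute c₂ c₁ := perp_self hp _ hC0card c₂ hc₂ c₁ hc₁
  have hk := comm_central a₁ b₂ c₁ c₂ hC1A hC1B hC2A hC2B hC2C1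
  have hu1 : Commute u (a₁ * c₁) := (hcomm1 u hu).symm
  have hu2 : Commute u (b₂ * c₂) := (hcomm2 u hu).symm
  have hu3 : Commute u ((a₁ * c₁)⁻¹ * (b₂ * c₂)⁻¹ * (a₁ * c₁) * (b₂ * c₂)) :=
    ((hu1.inv_right.mul_right hu2.inv_right).mul_right hu1).mul_right hu2
  rw [hk] at hu3
  have hkmem : a₁⁻¹ * b₂⁻¹ * a₁ * b₂ ∈ Subgroup.zpowers c := by
    have h8 : a₁⁻¹ * b₂⁻¹ * a₁ * b₂ = c ^ (j * i) := by
      rw [hi, hj]
      calc (x' ^ i)⁻¹ * (w ^ j)⁻¹ * x' ^ i * w ^ j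
          = (x' ^ i)⁻¹ * ((w ^ j)⁻¹ * x' ^ i * w ^ j) := by group
        _ = (x' ^ i)⁻¹ * (x' ^ i * c ^ (j * i)) := by
            rw [conj_pow_formula x' w c hxc.symm hwc.symm hconj i j]
        _ = c ^ (j * i) := by rw [inv_mul_cancel_left]
    rw [h8]
    exact pow_mem (Subgroup.mem_zpowers c) _
  have hk1 : a₁⁻¹ * b₂⁻¹ * a₁ * b₂ ≠ 1 := by
    intro h
    apply hab
    calc a₁ * b₂ = b₂ * a₁ * (a₁⁻¹ * b₂⁻¹ * a₁ * b₂) := by group
      _ = b₂ * a₁ := by rw [h, mul_one]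
  exact (commute_all_of_gen hp (Subgroup.zpowers c) hC0card hkmem hk1 (g := u) hu3.eq c
    (Subgroup.mem_zpowers c)).symm

/-- Case II: without quadrangles, commuting is transitive and there is a radical member. -/
theorem radical_of_no_quadrangle {G : Type*} [Group G] [Finite G] {p : ℕ} (hp : p.Prime)
    (K : Set (Subgroup G)) (hK : ∀ X ∈ K, Nat.card ↥X = p)
    (hex : ∃ X ∈ K, ∃ Y ∈ K, X ≠ Y ∧ Perp X Y)
    (ha : ∀ X ∈ K, ∀ Y ∈ K, X ≠ Y → Perp X Y →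
      ∀ Z : Subgroup G, Z ≤ X ⊔ Y → Nat.card ↥Z = p → Z ∈ K)
    (hb : ∀ X ∈ K, ∀ Y ∈ K, X ≠ Y → Perp X Y →
      ∀ W ∈ K, (X ⊔ Y) ⊓ Subgroup.centralizer (W : Set G) ≠ ⊥)
    (hnq : ∀ X ∈ K, ∀ W ∈ K, ∀ Z ∈ K, ∀ Z' ∈ K, Perp X Z → Perp X Z' → Perp W Z → Perp W Z' →
      ¬ Perp X W → Perp Z Z') :
    ∃ V ∈ K, ∀ W' ∈ K, Perp V W' := by
  by_contra hno
  push Not at hno
  have key : ∀ X ∈ K, ∀ W ∈ K, ¬ Perp X W → ∀ Y ∈ K, Y ≠ X → Perp X Y →
      ∃ Z ∈ K, Perp X Z ∧ Perp W Z ∧ ∃ x₀ ∈ X, ∃ y₀ ∈ Y, y₀ ≠ 1 ∧ x₀ * y₀ ∈ Z := by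
    intro X hX W hW hXW Y hY hYX hXY
    obtain ⟨x₀, hx₀, y₀, hy₀, he1, hecomm⟩ :=
      exists_comm_of_hb X Y W hXY (hb X hX Y hY (Ne.symm hYX) hXY W hW)
    obtain ⟨hcard, hle⟩ := point_of_mul hp X Y (hK X hX) (hK Y hY) hXY hx₀ hy₀ he1
    have hZK : Subgroup.zpowers (x₀ * y₀) ∈ K := ha X hX Y hY (Ne.symm hYX) hXY _ hle hcard
    refine ⟨_, hZK, ?_, ?_, x₀, hx₀, y₀, hy₀, ?_, Subgroup.mem_zpowers _⟩
    · intro x hx y hy
      obtain ⟨k, rfl⟩ := Subgroup.mem_zpowers_iff.mp hy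
      have h1 : Commute x (x₀ * y₀) :=
        (show Commute x x₀ from perp_self hp X (hK X hX) x hx x₀ hx₀).mul_right
          (hXY x hx y₀ hy₀)
      exact (h1.zpow_right k).eq
    · intro w hw y hy
      obtain ⟨k, rfl⟩ := Subgroup.mem_zpowers_iff.mp hy
      have h1 : Commute w (x₀ * y₀) := (hecomm w hw).symm
      exact (h1.zpow_right k).eq
    · intro h
      rw [h, mul_one] at he1 hecomm
      apply hXW
      intro x hx w hw
      exact (commute_all_of_gen hp X (hK X hX) hx₀ he1 (g := w) (hecomm w hw).symm x hx).symm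
  have claim1 : ∀ X ∈ K, ∀ Y ∈ K, ∀ Y' ∈ K, Perp X Y → Perp X Y' → Perp Y Y' := by
    intro X hX Y hY Y' hY' hXY hXY'
    by_cases hYX : Y = X
    · rw [hYX]; exact hXY'
    by_cases hY'X : Y' = X
    · rw [hY'X]; exact hXY.symm
    obtain ⟨W, hW, hXW⟩ := hno X hX
    obtain ⟨Z, hZ, hXZ, hWZ, x₀, hx₀, y₀, hy₀, hy₀1, hmem⟩ :=
      key X hX W hW hXW Y hY hYX hXY
    obtain ⟨Z', hZ', hXZ', hWZ', x₀', hx₀', y₀', hy₀', hy₀'1, hmem'⟩ :=
      key X hX W hW hXW Y' hY' hY'X hXY'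
    have hZZ' : Perp Z Z' := hnq X hX W hW Z hZ Z' hZ' hXZ hXZ' hWZ hWZ' hXW
    have h1 : Commute (x₀ * y₀) (x₀' * y₀') := hZZ' _ hmem _ hmem'
    have h2 : Commute x₀ (x₀' * y₀') := hXZ' x₀ hx₀ _ hmem'
    have h3 : Commute (x₀ * y₀) x₀' := (hXZ x₀' hx₀' _ hmem).symm
    have h4 : Commute x₀ x₀' := perp_self hp X (hK X hX) x₀ hx₀ x₀' hx₀'
    have h5 : Commute (x₀⁻¹ * (x₀ * y₀)) (x₀'⁻¹ * (x₀' * y₀')) :=
      Commute.mul_left (Commute.mul_right h4.inv_inv h2.inv_left)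
        (Commute.mul_right h3.inv_right h1)
    have h6 : y₀ * y₀' = y₀' * y₀ := by
      have h7 := h5.eq
      simpa using h7
    exact perp_of_gen hp Y Y' (hK Y hY) (hK Y' hY') hy₀ hy₀1 hy₀' hy₀'1 h6
  obtain ⟨X₀, hX₀, Y₀, hY₀, hne, hXY₀⟩ := hex
  obtain ⟨W, hW, hX₀W⟩ := hno X₀ hX₀
  apply hX₀W
  obtain ⟨x₀, hx₀, y₀, hy₀, he1, hecomm⟩ :=
    exists_comm_of_hb X₀ Y₀ W hXY₀ (hb X₀ hX₀ Y₀ hY₀ hne hXY₀ W hW)
  obtain ⟨hcard, hle⟩ := point_of_mul hp X₀ Y₀ (hK X₀ hX₀) (hK Y₀ hY₀) hXY₀ hx₀ hy₀ he1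
  have hTK : Subgroup.zpowers (x₀ * y₀) ∈ K := ha X₀ hX₀ Y₀ hY₀ hne hXY₀ _ hle hcard
  have hTX : Perp (Subgroup.zpowers (x₀ * y₀)) X₀ := by
    intro y hy x hx
    obtain ⟨k, rfl⟩ := Subgroup.mem_zpowers_iff.mp hy
    have h1 : Commute (x₀ * y₀) x :=
      (show Commute x₀ x from perp_self hp X₀ (hK X₀ hX₀) x₀ hx₀ x hx).mul_left
        (hXY₀ x hx y₀ hy₀).symm
    exact (h1.zpow_left k).eq
  have hTW : Perp (Subgroup.zpowers (x₀ * y₀)) W := by
    intro y hy w hw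
    obtain ⟨k, rfl⟩ := Subgroup.mem_zpowers_iff.mp hy
    have h1 : Commute (x₀ * y₀) w := hecomm w hw
    exact (h1.zpow_left k).eq
  exact claim1 _ hTK X₀ hX₀ W hW hTX hTW

/-- A radical member lies in `O_p(G)`, and `G` is not simple. -/
theorem finish {G : Type*} [Group G] [Finite G] {p : ℕ} (hp : p.Prime)
    (K : Set (Subgroup G)) (hK : ∀ X ∈ K, Nat.card ↥X = p)
    (hKc : ∀ X ∈ K, ∀ g : G, X.map (MulAut.conj g).toMonoidHom ∈ K)
    (hex : ∃ X ∈ K, ∃ Y ∈ K, X ≠ Y ∧ Perp X Y) (V : Subgroup G) (hV : V ∈ K)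
    (hrad : ∀ W ∈ K, Perp V W) :
    V ≤ Cfsg.pCore p G ∧ ¬ IsSimpleGroup G := by
  obtain ⟨S, hS⟩ : ∃ S : Set G, S = {x | ∃ g : G, ∃ v ∈ V, x = g * v * g⁻¹} := ⟨_, rfl⟩
  have hSconj : ∀ g x, x ∈ S → g * x * g⁻¹ ∈ S := by
    intro g x hx
    rw [hS] at hx ⊢
    obtain ⟨g', v, hv, rfl⟩ := hx
    exact ⟨g * g', v, hv, by group⟩
  have hScomm : ∀ x ∈ S, ∀ y ∈ S, x * y = y * x := by
    intro x hx y hy
    rw [hS] at hx hy
    obtain ⟨g, v, hv, rfl⟩ := hx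
    obtain ⟨h, v', hv', rfl⟩ := hy
    have hmem : (g⁻¹ * h) * v' * (g⁻¹ * h)⁻¹ ∈ V.map (MulAut.conj (g⁻¹ * h)).toMonoidHom :=
      ⟨v', hv', rfl⟩
    have h1 := hrad _ (hKc V hV (g⁻¹ * h)) v hv _ hmem
    calc g * v * g⁻¹ * (h * v' * h⁻¹)
        = g * (v * ((g⁻¹ * h) * v' * (g⁻¹ * h)⁻¹)) * g⁻¹ := by group
      _ = g * (((g⁻¹ * h) * v' * (g⁻¹ * h)⁻¹) * v) * g⁻¹ := by rw [h1]
      _ = h * v' * h⁻¹ * (g * v * g⁻¹) := by group
  have hSpow : ∀ x ∈ S, x ^ p = 1 := by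
    intro x hx
    rw [hS] at hx
    obtain ⟨g, v, hv, rfl⟩ := hx
    have h1 : g * v * g⁻¹ = MulAut.conj g v := by simp
    rw [h1, ← map_pow, pow_p_eq_one V (hK V hV) hv, map_one]
  have hNn : (Subgroup.closure S).Normal := closure_normal_of_conj_invariant S hSconj
  have hNcomm : ∀ x ∈ Subgroup.closure S, ∀ y ∈ Subgroup.closure S, x * y = y * x := by
    have h1 : Subgroup.closure S ≤ Subgroup.centralizer S := by
      rw [Subgroup.closure_le]
      intro s hs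
      rw [SetLike.mem_coe, Subgroup.mem_centralizer_iff]
      intro h hh; exact hScomm h hh s hs
    have h2 : Subgroup.closure S ≤ Subgroup.centralizer (Subgroup.closure S : Set G) := by
      rw [Subgroup.closure_le]
      intro s hs
      rw [SetLike.mem_coe, Subgroup.mem_centralizer_iff]
      intro h hh
      have h3 := h1 hh
      rw [Subgroup.mem_centralizer_iff] at h3
      exact (h3 s hs).symm
    intro x hx y hy
    have h3 := h2 hy
    rw [Subgroup.mem_centralizer_iff] at h3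
    exact h3 x hx
  have hNpow : ∀ x ∈ Subgroup.closure S, x ^ p = 1 := by
    intro x hx
    induction hx using Subgroup.closure_induction with
    | mem w hw => exact hSpow w hw
    | one => exact one_pow p
    | mul a b ha hb iha ihb =>
      rw [(show Commute a b from hNcomm a ha b hb).mul_pow, iha, ihb, one_mul]
    | inv a _ iha => rw [inv_pow, iha, inv_one]
  have hNp : IsPGroup p (Subgroup.closure S) := by
    intro g
    refine ⟨1, ?_⟩
    rw [pow_one]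
    apply Subtype.ext
    simpa using hNpow g.1 g.2
  have hVN : V ≤ Subgroup.closure S := by
    intro v hv
    apply Subgroup.subset_closure
    rw [hS]; exact ⟨1, v, hv, by simp⟩
  have hN_le : Subgroup.closure S ≤ Cfsg.pCore p G := le_sSup ⟨hNn, hNp⟩
  refine ⟨hVN.trans hN_le, ?_⟩
  intro hsimple
  rcases hsimple.eq_bot_or_eq_top_of_normal _ hNn with h | h
  · have hVbot : V = ⊥ := by rw [eq_bot_iff, ← h]; exact hVN
    have h1 := hK V hV
    rw [hVbot, Subgroup.card_bot] at h1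
    exact hp.one_lt.ne h1
  · obtain ⟨X, hX, Y, hY, hne, -⟩ := hex
    have hcommG : ∀ x y : G, x * y = y * x := fun x y =>
      hNcomm x (h ▸ Subgroup.mem_top x) y (h ▸ Subgroup.mem_top y)
    have hnormal : ∀ H : Subgroup G, H.Normal := fun H =>
      ⟨fun n hn g => by rw [hcommG g n, mul_assoc, mul_inv_cancel, mul_one]; exact hn⟩
    have htop : ∀ H ∈ K, H = ⊤ := by
      intro H hH
      rcases hsimple.eq_bot_or_eq_top_of_normal _ (hnormal H) with h' | h'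
      · exfalso
        have h1 := hK H hH
        rw [h', Subgroup.card_bot] at h1
        exact hp.one_lt.ne h1
      · exact h'
    exact hne ((htop X hX).trans (htop Y hY).symm)

/-- Let p be a prime and K a set of subgroups of order p of a finite group G, closed under conjugation, such that at least two distinct members of K commute elementwise, and whenever two distinct members X, Y of K commute: every subgroup of order p of the group XY they generate belongs to K, and every member W of K has centralizer meeting XY nontrivially. Then some member V of K commutes elementwise with every member of K and lies in O_p(G); in particular G is not simple. -/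
theorem result {G : Type*} [Group G] [Finite G]
    {p : ℕ} (hp : p.Prime) (K : Set (Subgroup G)) (hK : ∀ X ∈ K, Nat.card ↥X = p)
    (hKc : ∀ X ∈ K, ∀ g : G, X.map (MulAut.conj g).toMonoidHom ∈ K)
    (hex : ∃ X ∈ K, ∃ Y ∈ K, X ≠ Y ∧ ∀ x ∈ X, ∀ y ∈ Y, x * y = y * x)
    (ha : ∀ X ∈ K, ∀ Y ∈ K, X ≠ Y → (∀ x ∈ X, ∀ y ∈ Y, x * y = y * x) →
      ∀ Z : Subgroup G, Z ≤ X ⊔ Y → Nat.card ↥Z = p → Z ∈ K)
    (hb : ∀ X ∈ K, ∀ Y ∈ K, X ≠ Y → (∀ x ∈ X, ∀ y ∈ Y, x * y = y * x) →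
      ∀ W ∈ K, (X ⊔ Y) ⊓ Subgroup.centralizer (W : Set G) ≠ ⊥) :
    (∃ V ∈ K, (∀ W ∈ K, ∀ v ∈ V, ∀ w ∈ W, v * w = w * v) ∧ V ≤ Cfsg.pCore p G) ∧ ¬ IsSimpleGroup G := by
  have ha' : ∀ X ∈ K, ∀ Y ∈ K, X ≠ Y → Perp X Y →
      ∀ Z : Subgroup G, Z ≤ X ⊔ Y → Nat.card ↥Z = p → Z ∈ K := ha
  have hb' : ∀ X ∈ K, ∀ Y ∈ K, X ≠ Y → Perp X Y →
      ∀ W ∈ K, (X ⊔ Y) ⊓ Subgroup.centralizer (W : Set G) ≠ ⊥ := hb
  have hex' : ∃ X ∈ K, ∃ Y ∈ K, X ≠ Y ∧ Perp X Y := hex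
  have hrad : ∃ V ∈ K, ∀ W' ∈ K, Perp V W' := by
    by_cases hq : ∃ X ∈ K, ∃ W ∈ K, ∃ Z ∈ K, ∃ Z' ∈ K, Perp X Z ∧ Perp X Z' ∧ Perp W Z ∧
        Perp W Z' ∧ ¬ Perp X W ∧ ¬ Perp Z Z'
    · obtain ⟨X, hX, W, hW, Z, hZ, Z', hZ', h1, h2, h3, h4, h5, h6⟩ := hq
      exact radical_of_quadrangle hp K hK hKc ha' hb' X W Z Z' hX hW hZ hZ' h1 h2 h3 h4 h5 h6
    · apply radical_of_no_quadrangle hp K hK hex' ha' hb'
      intro X hX W hW Z hZ Z' hZ' h1 h2 h3 h4 h5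
      by_contra h6
      exact hq ⟨X, hX, W, hW, Z, hZ, Z', hZ', h1, h2, h3, h4, h5, h6⟩
  obtain ⟨V, hV, hVrad⟩ := hrad
  obtain ⟨h1, h2⟩ := finish hp K hK hKc hex' V hV hVrad
  exact ⟨⟨V, hV, fun W hW v hv w hw => hVrad W hW v hv w hw, h1⟩, h2⟩

end Cfsg.Agent.S3196
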