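import Mathlib
import Cfsg.Statements.S3200
import Cfsg.Agent.S0143
import Cfsg.Agent.Lib.Helper91.Hall
import Cfsg.Agent.Lib.Helper64.Index

set_option autoImplicit false
open Cfsg

namespace Cfsg.Agent.S3200

universe u

/-- `G` has an abelian Hall `2'`-subgroup. -/
def HallAb (G : Type*) [Group G] : Prop :=
  ∃ C : Subgroup G, (∀ a ∈ C, ∀ b ∈ C, a * b = b * a) ∧ Odd (Nat.card C) ∧ ∃ k : ℕ, C.index = 2 ^ k

theorem hallAb_of_compl {G : Type*} [Group G] [Finite G] (S : Sylow 2 G) (C : Subgroup G)
    (hC : IsMulCommutative ↥C) (hSC : Subgroup.IsComplement' (S : Subgroup G) C) : HallAb G := by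
  have hmul : Nat.card (S : Subgroup G) * Nat.card C = Nat.card G := hSC.card_mul_card
  obtain ⟨a, ha⟩ := IsPGroup.iff_card.mp S.isPGroup'
  have hSidx : Nat.card (S : Subgroup G) * (S : Subgroup G).index = Nat.card G :=
    Subgroup.card_mul_index _
  have hCidx : Nat.card C * C.index = Nat.card G := Subgroup.card_mul_index _
  have hSpos : 0 < Nat.card (S : Subgroup G) := Nat.card_pos
  have hCpos : 0 < Nat.card C := Nat.card_pos
  have h1 : (S : Subgroup G).index = Nat.card C :=
    Nat.eq_of_mul_eq_mul_left hSpos (by rw [hSidx, hmul])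
  have h2 : C.index = Nat.card (S : Subgroup G) :=
    Nat.eq_of_mul_eq_mul_left hCpos (by rw [hCidx, ← hmul, mul_comm])
  refine ⟨C, ?_, ?_, a, by rw [h2, ha]⟩
  · intro x hx y hy
    have := hC.is_comm.comm (⟨x, hx⟩ : C) ⟨y, hy⟩
    exact congrArg Subtype.val this
  · rw [← h1, ← Nat.not_even_iff_odd, even_iff_two_dvd]
    exact S.not_dvd_index

theorem ac_of_hallAb {G : Type*} [Group G] [Finite G] (h : HallAb G) :
    ∃ (P : Sylow 2 G) (D : Subgroup G), IsMulCommutative ↥D ∧
      Subgroup.IsComplement' (P : Subgroup G) D := by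
  obtain ⟨D, hc, hodd, k, hk⟩ := h
  obtain ⟨P⟩ : Nonempty (Sylow 2 G) := inferInstance
  refine ⟨P, D, ⟨⟨fun a b => Subtype.ext (hc a a.2 b b.2)⟩⟩, ?_⟩
  obtain ⟨a, ha⟩ := IsPGroup.iff_card.mp P.isPGroup'
  have hPidx : Nat.card (P : Subgroup G) * (P : Subgroup G).index = Nat.card G :=
    Subgroup.card_mul_index _
  have hDidx : Nat.card D * D.index = Nat.card G := Subgroup.card_mul_index _
  have hiodd : Odd (P : Subgroup G).index := by
    rw [← Nat.not_even_iff_odd, even_iff_two_dvd]
    exact P.not_dvd_index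
  have hcop1 : Nat.Coprime (2 ^ a) (Nat.card D) :=
    Nat.Coprime.pow_left a (Nat.coprime_two_left.mpr hodd)
  have hcop2 : Nat.Coprime (2 ^ k) (P : Subgroup G).index :=
    Nat.Coprime.pow_left k (Nat.coprime_two_left.mpr hiodd)
  have heq : 2 ^ a * (P : Subgroup G).index = Nat.card D * 2 ^ k := by
    rw [← ha, hPidx, ← hk, hDidx]
  have hak : 2 ^ a = 2 ^ k := by
    apply Nat.dvd_antisymm
    · have h1 : 2 ^ a ∣ Nat.card D * 2 ^ k := Dvd.intro _ heq
      exact hcop1.dvd_of_dvd_mul_left h1
    · have h1 : 2 ^ k ∣ 2 ^ a * (P : Subgroup G).index := Dvd.intro_left _ heq.symm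
      exact hcop2.dvd_of_dvd_mul_right h1
  apply Subgroup.isComplement'_of_coprime
  · rw [ha, hak, ← hk, mul_comm]; exact hDidx
  · rw [ha]; exact hcop1

theorem hallAb_quotient {G : Type*} [Group G] [Finite G] (h : HallAb G) (N : Subgroup G)
    [N.Normal] : HallAb (G ⧸ N) := by
  obtain ⟨C, hc, hodd, k, hk⟩ := h
  refine ⟨C.map (QuotientGroup.mk' N), ?_, ?_, ?_⟩
  · rintro _ ⟨a, ha, rfl⟩ _ ⟨b, hb, rfl⟩
    rw [← map_mul, ← map_mul, hc a ha b hb]
  · exact hodd.of_dvd_nat (Subgroup.card_map_dvd C (QuotientGroup.mk' N))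
  · have hdvd : (C.map (QuotientGroup.mk' N)).index ∣ C.index :=
      Subgroup.index_map_dvd C (QuotientGroup.mk'_surjective N)
    rw [hk] at hdvd
    obtain ⟨j, -, hj⟩ := (Nat.dvd_prime_pow Nat.prime_two).mp hdvd
    exact ⟨j, hj⟩

theorem hallAb_normal {G : Type*} [Group G] [Finite G] (h : HallAb G) (N : Subgroup G)
    [N.Normal] : HallAb N := by
  obtain ⟨C, hc, hodd, k, hk⟩ := h
  refine ⟨C.subgroupOf N, ?_, ?_, ?_⟩
  · intro a ha b hb
    apply Subtype.ext
    exact hc a.1 (Subgroup.mem_subgroupOf.mp ha) b.1 (Subgroup.mem_subgroupOf.mp hb)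
  · have hdvd : Nat.card (C.subgroupOf N) ∣ Nat.card C := by
      apply Subgroup.card_dvd_of_injective (N.subtype.subgroupComap C)
      intro x y hxy
      have h1 := congrArg Subtype.val hxy
      exact Subtype.ext (Subtype.ext h1)
    exact hodd.of_dvd_nat hdvd
  · have h1 : C.relIndex (N ⊔ C) = C.relIndex N :=
      Cfsg.Agent.Lib.Helper64.Index.relIndex_sup_of_normal C N
    have hdvd : C.relIndex N ∣ C.index := by
      rw [← h1]; exact Subgroup.relIndex_dvd_index_of_le le_sup_right
    rw [hk] at hdvd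
    obtain ⟨j, -, hj⟩ := (Nat.dvd_prime_pow Nat.prime_two).mp hdvd
    exact ⟨j, hj⟩

theorem solvable_of_hallAb : ∀ (n : ℕ) (G : Type u) [Group G] [Finite G], Nat.card G = n →
    HallAb G → Group.IsSolvable G := by
  intro n
  induction n using Nat.strong_induction_on with
  | _ n ih =>
    intro G _ _ hn hG
    by_cases hN : ∃ N : Subgroup G, N.Normal ∧ N ≠ ⊥ ∧ N ≠ ⊤
    · obtain ⟨N, hNn, hNbot, hNtop⟩ := hN
      have h1 : Nat.card N < n := by
        rw [← hn]
        apply lt_of_le_of_ne (Subgroup.card_le_card_group N)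
        intro heq
        exact hNtop (Subgroup.eq_top_of_card_eq N heq)
      have h2 : Nat.card (G ⧸ N) < n := by
        rw [← hn, ← Subgroup.index_eq_card, ← Subgroup.card_mul_index N]
        have h3 : 1 < Nat.card N := (Subgroup.one_lt_card_iff_ne_bot N).mpr hNbot
        have h4 : 0 < N.index := Nat.pos_of_ne_zero Subgroup.index_ne_zero_of_finite
        nlinarith
      have s1 : Group.IsSolvable N := ih _ h1 N rfl (hallAb_normal hG N)
      have s2 : Group.IsSolvable (G ⧸ N) := ih _ h2 (G ⧸ N) rfl (hallAb_quotient hG N)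
      exact Group.isSolvable_of_ker_le_range N.subtype (QuotientGroup.mk' N)
        (by rw [QuotientGroup.ker_mk', Subgroup.range_subtype])
    · push Not at hN
      by_cases hsub : Subsingleton G
      · exact Group.isSolvable_of_comm (fun a b => by rw [Subsingleton.elim a b])
      · have hnt : Nontrivial G := not_subsingleton_iff_nontrivial.mp hsub
        have hsimple : IsSimpleGroup G :=
          { exists_pair_ne := hnt.exists_pair_ne
            eq_bot_or_eq_top_of_normal := by
              intro N hNn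
              by_contra hcon
              push Not at hcon
              exact hcon.2 (hN N hNn hcon.1) }
        obtain ⟨C, hc, hodd, k, hk⟩ := hG
        by_cases hCbot : C = ⊥
        · have hcard : Nat.card G = 2 ^ k := by
            rw [← hk, hCbot, Subgroup.index_bot]
          have hp : IsPGroup 2 G := IsPGroup.of_card hcard
          have hnil : Group.IsNilpotent G := hp.isNilpotent
          infer_instance
        · obtain ⟨c, hcC, hc1⟩ : ∃ c ∈ C, c ≠ 1 := by
            by_contra hcon
            push Not at hcon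
            exact hCbot ((Subgroup.eq_bot_iff_forall C).mpr hcon)
          have hle : C ≤ Subgroup.centralizer ({c} : Set G) := by
            intro x hx
            rw [Subgroup.mem_centralizer_iff]
            intro y hy
            rw [Set.mem_singleton_iff] at hy
            rw [hy]; exact hc c hcC x hx
          have hdvd : (Subgroup.centralizer ({c} : Set G)).index ∣ 2 ^ k := by
            rw [← hk]; exact Subgroup.index_dvd_of_le hle
          obtain ⟨j, -, hj⟩ := (Nat.dvd_prime_pow Nat.prime_two).mp hdvd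
          have hprime := Cfsg.Agent.S0143.result 2 j Nat.prime_two c hc1 hj
          have hfact : Fact (Nat.card G).Prime := ⟨hprime⟩
          have hcyc : IsCyclic G := isCyclic_of_prime_card rfl
          obtain ⟨g, hg⟩ := hcyc.exists_generator
          apply Group.isSolvable_of_comm
          intro a b
          obtain ⟨i, rfl⟩ := Subgroup.mem_zpowers_iff.mp (hg a)
          obtain ⟨l, rfl⟩ := Subgroup.mem_zpowers_iff.mp (hg b)
          rw [← zpow_add, ← zpow_add, add_comm]

theorem hallAb_subgroup {G : Type u} [Group G] [Finite G] (h : HallAb G) (hsolv : Group.IsSolvable G)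
    (L : Subgroup G) : HallAb L := by
  obtain ⟨C, hc, hodd, k, hk⟩ := h
  obtain ⟨j, m, hm, hLcard⟩ := Nat.exists_eq_two_pow_mul_odd (Nat.card_pos (α := L)).ne'
  have hcopj : Nat.Coprime m (2 ^ j) := Nat.Coprime.pow_right j (Nat.coprime_two_right.mpr hm)
  have hcopk : Nat.Coprime m (2 ^ k) := Nat.Coprime.pow_right k (Nat.coprime_two_right.mpr hm)
  obtain ⟨D₀, hD₀⟩ := Cfsg.Agent.Lib.Helper91.Hall.hall_exists (G := L) m (2 ^ j)
    (by rw [hLcard, mul_comm]) hcopj
  have hD1card : Nat.card (D₀.map L.subtype) = m := by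
    rw [Subgroup.card_map_of_injective L.subtype_injective, hD₀]
  have hG : Nat.card G = Nat.card C * 2 ^ k := by
    rw [← hk]; exact (Subgroup.card_mul_index C).symm
  have hcopC : Nat.Coprime (Nat.card C) (2 ^ k) :=
    Nat.Coprime.pow_right k (Nat.coprime_two_right.mpr hodd)
  obtain ⟨H₀, hH₀, hle⟩ := Cfsg.Agent.Lib.Helper91.Hall.hall_contain (G := G) (Nat.card C) (2 ^ k)
    hG hcopC (D₀.map L.subtype) (by rw [hD1card]; exact hcopk)
  obtain ⟨g, hg⟩ := Cfsg.Agent.Lib.Helper91.Hall.hall_conj (G := G) (Nat.card C) (2 ^ k) hG hcopC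
    C H₀ rfl hH₀
  have key : ∀ a, a ∈ H₀ → g⁻¹ * a * g ∈ C := by
    intro a ha
    rw [← hg, Subgroup.mem_pointwise_smul_iff_inv_smul_mem] at ha
    simpa [MulAut.smul_def] using ha
  have hH₀c : ∀ a ∈ H₀, ∀ b ∈ H₀, a * b = b * a := by
    intro a ha b hb
    have h1 := hc _ (key a ha) _ (key b hb)
    calc a * b = g * ((g⁻¹ * a * g) * (g⁻¹ * b * g)) * g⁻¹ := by group
      _ = g * ((g⁻¹ * b * g) * (g⁻¹ * a * g)) * g⁻¹ := by rw [h1]
      _ = b * a := by group
  refine ⟨D₀, ?_, ?_, ?_⟩
  · intro a ha b hb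
    apply Subtype.ext
    exact hH₀c _ (hle ⟨a, ha, rfl⟩) _ (hle ⟨b, hb, rfl⟩)
  · rw [hD₀]; exact hm
  · refine ⟨j, ?_⟩
    have h1 := Subgroup.card_mul_index D₀
    rw [hD₀, hLcard] at h1
    exact Nat.eq_of_mul_eq_mul_left hm.pos (by rw [h1, mul_comm])

/-- Let H be a finite group in which a Sylow 2-subgroup has an abelian complement (an abelian subgroup meeting it trivially whose product with it is all of H). Then H is solvable, and every subgroup and every quotient group of H again has a Sylow 2-subgroup with an abelian complement. -/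
theorem result {H : Type*} [Group H] [Finite H]
    (S : Sylow 2 H) (C : Subgroup H) (hC : IsMulCommutative ↥C) (hSC : Subgroup.IsComplement' (S : Subgroup H) C) :
    Group.IsSolvable H ∧
    (∀ L : Subgroup H, ∃ (P : Sylow 2 ↥L) (D : Subgroup ↥L), IsMulCommutative ↥D ∧ Subgroup.IsComplement' (P : Subgroup ↥L) D) ∧
    (∀ (N : Subgroup H) [N.Normal], ∃ (P : Sylow 2 (H ⧸ N)) (D : Subgroup (H ⧸ N)),
      IsMulCommutative ↥D ∧ Subgroup.IsComplement' (P : Subgroup (H ⧸ N)) D) := by
  have hH : HallAb H := hallAb_of_compl S C hC hSC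
  have hsolv : Group.IsSolvable H := solvable_of_hallAb _ H rfl hH
  exact ⟨hsolv, fun L => ac_of_hallAb (hallAb_subgroup hH hsolv L),
    fun N _ => ac_of_hallAb (hallAb_quotient hH N)⟩

end Cfsg.Agent.S3200
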