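import Mathlib
import Cfsg.Statements.S3201
import Cfsg.Agent.Lib.Helper54.Quaternion
import Cfsg.Agent.Lib.Helper66.DihedralStem
import Cfsg.Agent.Lib.Helper90.Frattini2

set_option autoImplicit false
open Cfsg

namespace Cfsg.Agent.S3201

universe u

/-- the dicyclic-type subgroup `⟨a⟩ ∪ ⟨a⟩x` -/
theorem exists_dic_subgroup {G : Type*} [Group G] (a x : G) (M : ℤ) (hconj : x * a * x⁻¹ = a⁻¹)
    (hx2 : x * x = a ^ M) :
    ∃ Q : Subgroup G, a ∈ Q ∧ x ∈ Q ∧ ∀ g ∈ Q, ∃ i : ℤ, g = a ^ i ∨ g = a ^ i * x := by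
  have hc : ∀ i : ℤ, x * a ^ i * x⁻¹ = a ^ (-i) := by
    intro i
    have h1 : x * a ^ i * x⁻¹ = MulAut.conj x (a ^ i) := by simp
    rw [h1, map_zpow]
    have h2 : MulAut.conj x a = a⁻¹ := by simpa using hconj
    rw [h2, inv_zpow, zpow_neg]
  have hc' : ∀ i : ℤ, x * a ^ i = a ^ (-i) * x := by
    intro i
    calc x * a ^ i = (x * a ^ i * x⁻¹) * x := by group
      _ = a ^ (-i) * x := by rw [hc]
  have hxinv : x⁻¹ = a ^ (-M) * x := by
    calc x⁻¹ = (x * x)⁻¹ * x := by group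
      _ = a ^ (-M) * x := by rw [hx2, zpow_neg]
  refine ⟨{ carrier := {g | ∃ i : ℤ, g = a ^ i ∨ g = a ^ i * x}
            mul_mem' := ?_
            one_mem' := ⟨0, Or.inl (by simp)⟩
            inv_mem' := ?_ }, ⟨1, Or.inl (by simp)⟩, ⟨0, Or.inr (by simp)⟩, fun g hg => hg⟩
  · rintro g h ⟨i, rfl | rfl⟩ ⟨j, rfl | rfl⟩
    · exact ⟨i + j, Or.inl (by rw [zpow_add])⟩
    · exact ⟨i + j, Or.inr (by rw [zpow_add, mul_assoc])⟩
    · refine ⟨i - j, Or.inr ?_⟩
      calc a ^ i * x * a ^ j = a ^ i * (x * a ^ j) := by rw [mul_assoc]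
        _ = a ^ i * (a ^ (-j) * x) := by rw [hc']
        _ = a ^ (i - j) * x := by rw [← mul_assoc, ← zpow_add, sub_eq_add_neg]
    · refine ⟨i - j + M, Or.inl ?_⟩
      calc a ^ i * x * (a ^ j * x) = a ^ i * (x * a ^ j) * x := by group
        _ = a ^ i * (a ^ (-j) * x) * x := by rw [hc']
        _ = a ^ i * a ^ (-j) * (x * x) := by group
        _ = a ^ (i - j + M) := by rw [hx2, ← zpow_add, ← zpow_add, sub_eq_add_neg]
  · rintro g ⟨i, rfl | rfl⟩
    · exact ⟨-i, Or.inl (by rw [zpow_neg])⟩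
    · refine ⟨i - M, Or.inr ?_⟩
      calc (a ^ i * x)⁻¹ = x⁻¹ * (a ^ i)⁻¹ := by rw [mul_inv_rev]
        _ = a ^ (-M) * (x * a ^ (-i)) := by rw [hxinv, mul_assoc, ← zpow_neg]
        _ = a ^ (-M) * (a ^ (-(-i)) * x) := by rw [hc']
        _ = a ^ (i - M) * x := by
            rw [← mul_assoc, ← zpow_add, neg_neg]
            congr 2
            ring

/-- splitting off the central subgroup `N` -/
theorem core {S : Type u} [Group S] [Finite S] (hS : IsPGroup 2 S) (N : Subgroup S) [N.Normal]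
    (hna : ¬ IsMulCommutative (S ⧸ N))
    (hex : ∃! x : S ⧸ N, orderOf x = 2)
    (hsq : ∀ g h : S, g ∉ Subgroup.center S → h ∉ Subgroup.center S → g ^ 4 ∈ N → h ^ 4 ∈ N →
      g ^ 2 = h ^ 2)
    (hsqZ : ∀ g : S, g ^ 4 ∈ N → g ^ 2 ∈ Subgroup.center S)
    (hZsq : ∀ z ∈ Subgroup.center S, z ^ 2 = 1) :
    ∃ Q : Subgroup S, N ⊓ Q = ⊥ ∧ N ⊔ Q = ⊤ ∧ ¬ IsMulCommutative ↥Q ∧
      ∃! x : ↥Q, orderOf x = 2 := by
  have hfact : Fact (Nat.Prime 2) := ⟨Nat.prime_two⟩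
  have hP : IsPGroup 2 (S ⧸ N) := hS.to_quotient N
  have hUI : Cfsg.Agent.Lib.Helper54.UniqueSubgroup.UI 2 (S ⧸ N) := by
    obtain ⟨t, ht, htuniq⟩ := hex
    intro g h hg hh hg1
    by_cases hh1 : h = 1
    · rw [hh1]; exact one_mem _
    have hog : orderOf g = 2 := orderOf_eq_prime hg hg1
    have hoh : orderOf h = 2 := orderOf_eq_prime hh hh1
    rw [htuniq h hoh, ← htuniq g hog]; exact Subgroup.mem_zpowers g
  have hncyc : ¬ IsCyclic (S ⧸ N) := by
    intro hcyc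
    apply hna
    obtain ⟨g, hg⟩ := hcyc.exists_generator
    refine ⟨⟨fun a b => ?_⟩⟩
    obtain ⟨i, rfl⟩ := Subgroup.mem_zpowers_iff.mp (hg a)
    obtain ⟨j, rfl⟩ := Subgroup.mem_zpowers_iff.mp (hg b)
    rw [← zpow_add, ← zpow_add, add_comm]
  rcases Cfsg.Agent.Lib.Helper54.Quaternion.isCyclic_or_quaternion hP hUI with hcyc | ⟨m, ⟨e⟩⟩
  · exact absurd hcyc hncyc
  obtain ⟨m', rfl⟩ : ∃ m', m = m' + 1 := by
    rcases m with _ | m'
    · exfalso
      apply hncyc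
      have h1 : IsCyclic (QuaternionGroup (2 ^ 0)) :=
        QuaternionGroup.quaternionGroup_one_isCyclic
      exact isCyclic_of_surjective e.symm.toMonoidHom e.symm.surjective
    · exact ⟨m', rfl⟩
  obtain ⟨σ, hσ⟩ : ∃ σ : S →* QuaternionGroup (2 ^ (m' + 1)),
      σ = e.toMonoidHom.comp (QuotientGroup.mk' N) := ⟨_, rfl⟩
  have hσker : ∀ g : S, σ g = 1 ↔ g ∈ N := by
    intro g
    rw [hσ]
    constructor
    · intro h
      have h1 : (QuotientGroup.mk' N) g = 1 := by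
        apply e.injective; rw [map_one]; exact h
      exact (QuotientGroup.eq_one_iff g).mp h1
    · intro h
      have h1 : (QuotientGroup.mk' N) g = 1 := (QuotientGroup.eq_one_iff g).mpr h
      show e ((QuotientGroup.mk' N) g) = 1
      rw [h1, map_one]
  have hsurj : Function.Surjective σ := by
    rw [hσ]; exact e.surjective.comp (QuotientGroup.mk'_surjective _)
  have h2ne : (2 : ZMod (2 * 2 ^ (m' + 1))) ≠ 0 := by
    intro h
    have h1 : ((2 : ℕ) : ZMod (2 * 2 ^ (m' + 1))) = 0 := by exact_mod_cast h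
    rw [ZMod.natCast_eq_zero_iff] at h1
    have h2 : 2 * 2 ^ (m' + 1) ≤ 2 := Nat.le_of_dvd (by norm_num) h1
    have h3 : 2 ≤ 2 ^ (m' + 1) := by
      calc 2 = 2 ^ 1 := by norm_num
        _ ≤ 2 ^ (m' + 1) := Nat.pow_le_pow_right (by norm_num) (by omega)
    omega
  have hMne : ((2 ^ (m' + 1) : ℕ) : ZMod (2 * 2 ^ (m' + 1))) ≠ 0 := by
    intro h
    rw [ZMod.natCast_eq_zero_iff] at h
    have h2 : 2 * 2 ^ (m' + 1) ≤ 2 ^ (m' + 1) := Nat.le_of_dvd (by positivity) h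
    have h3 : 0 < 2 ^ (m' + 1) := by positivity
    omega
  have h2n : ((2 ^ (m' + 1) : ℕ) : ZMod (2 * 2 ^ (m' + 1))) +
      ((2 ^ (m' + 1) : ℕ) : ZMod (2 * 2 ^ (m' + 1))) = 0 := by
    rw [← Nat.cast_add, ZMod.natCast_eq_zero_iff]; exact ⟨1, by ring⟩
  obtain ⟨x, hx⟩ := hsurj (QuaternionGroup.xa 0)
  obtain ⟨y, hy⟩ := hsurj
    (QuaternionGroup.xa (((2 ^ (m' + 1) : ℕ) : ZMod (2 * 2 ^ (m' + 1))) + 1))
  obtain ⟨r, hr⟩ := hsurj (QuaternionGroup.a 1)
  have hxy : σ (x * y) = QuaternionGroup.a 1 := by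
    rw [map_mul, hx, hy, QuaternionGroup.xa_mul_xa]
    congr 1
    linear_combination h2n
  have hxZ : x ∉ Subgroup.center S := by
    intro h
    rw [Subgroup.mem_center_iff] at h
    have h1 := congrArg σ (h r)
    rw [map_mul, map_mul, hx, hr, QuaternionGroup.a_mul_xa, QuaternionGroup.xa_mul_a] at h1
    have h2 : (0 : ZMod (2 * 2 ^ (m' + 1))) - 1 = 0 + 1 := by injection h1
    apply h2ne
    linear_combination -h2
  have hyZ : y ∉ Subgroup.center S := by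
    intro h
    rw [Subgroup.mem_center_iff] at h
    have h1 := congrArg σ (h r)
    rw [map_mul, map_mul, hy, hr, QuaternionGroup.a_mul_xa, QuaternionGroup.xa_mul_a] at h1
    have h2 : (((2 ^ (m' + 1) : ℕ) : ZMod (2 * 2 ^ (m' + 1))) + 1) - 1
        = (((2 ^ (m' + 1) : ℕ) : ZMod (2 * 2 ^ (m' + 1))) + 1) + 1 := by injection h1
    apply h2ne
    linear_combination -h2
  have hx4 : x ^ 4 ∈ N := by
    rw [← hσker, map_pow, hx, QuaternionGroup.xa_pow_four]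
  have hy4 : y ^ 4 ∈ N := by
    rw [← hσker, map_pow, hy, QuaternionGroup.xa_pow_four]
  obtain ⟨z₀, hz₀⟩ : ∃ z₀ : S, z₀ = x ^ 2 := ⟨_, rfl⟩
  have hz₀Z : z₀ ∈ Subgroup.center S := by rw [hz₀]; exact hsqZ x hx4
  have hz₀sq : z₀ ^ 2 = 1 := hZsq z₀ hz₀Z
  have hy2 : y ^ 2 = z₀ := by rw [hz₀]; exact hsq y x hyZ hxZ hy4 hx4
  obtain ⟨a, ha⟩ : ∃ a : S, a = x * y := ⟨_, rfl⟩
  have hσa : σ a = QuaternionGroup.a 1 := by rw [ha]; exact hxy
  have hxx : x * x = z₀ := by rw [hz₀, pow_two]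
  have hyy : y * y = z₀ := by rw [← hy2, pow_two]
  have hR1 : x * a * x⁻¹ = a⁻¹ := by
    have h1 : x * a * x⁻¹ * a = 1 := by
      rw [ha]
      calc x * (x * y) * x⁻¹ * (x * y) = (x * x) * (y * y) := by group
        _ = z₀ * z₀ := by rw [hxx, hyy]
        _ = 1 := by rw [← pow_two]; exact hz₀sq
    exact eq_inv_of_mul_eq_one_left h1
  have hσapow : ∀ k : ℕ, σ (a ^ k) = QuaternionGroup.a (k : ZMod (2 * 2 ^ (m' + 1))) := by
    intro k; rw [map_pow, hσa, QuaternionGroup.a_one_pow]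
  have hg4 : (a ^ (2 ^ m')) ^ 4 ∈ N := by
    rw [← pow_mul, ← hσker, hσapow, QuaternionGroup.one_def]
    congr 1
    rw [ZMod.natCast_eq_zero_iff]
    exact ⟨1, by ring⟩
  have hgZ : a ^ (2 ^ m') ∉ Subgroup.center S := by
    intro h
    rw [Subgroup.mem_center_iff] at h
    have h1 := congrArg σ (h x)
    rw [map_mul, map_mul, hx, hσapow, QuaternionGroup.xa_mul_a, QuaternionGroup.a_mul_xa] at h1
    have h2 : (0 : ZMod (2 * 2 ^ (m' + 1))) + ((2 ^ m' : ℕ) : ZMod (2 * 2 ^ (m' + 1)))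
        = 0 - ((2 ^ m' : ℕ) : ZMod (2 * 2 ^ (m' + 1))) := by injection h1
    apply hMne
    have h3 : ((2 ^ (m' + 1) : ℕ) : ZMod (2 * 2 ^ (m' + 1)))
        = ((2 ^ m' : ℕ) : ZMod (2 * 2 ^ (m' + 1))) + ((2 ^ m' : ℕ) : ZMod (2 * 2 ^ (m' + 1))) := by
      rw [← Nat.cast_add]; congr 1; ring
    rw [h3]; linear_combination h2
  have haM : a ^ (2 ^ (m' + 1)) = z₀ := by
    have h1 := hsq (a ^ (2 ^ m')) x hgZ hxZ hg4 hx4
    rw [← hz₀, ← pow_mul] at h1
    rw [pow_succ]; exact h1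
  obtain ⟨Q, haQ, hxQ, hQform⟩ := exists_dic_subgroup a x ((2 ^ (m' + 1) : ℕ) : ℤ) hR1
    (by rw [hxx, zpow_natCast, haM])
  have ha2M : a ^ (2 * 2 ^ (m' + 1)) = 1 := by
    rw [mul_comm, pow_mul, haM]; exact hz₀sq
  have hNQ : N ⊓ Q = ⊥ := by
    rw [Subgroup.eq_bot_iff_forall]
    intro g hg
    have hgN : g ∈ N := hg.1
    have hgQ : g ∈ Q := hg.2
    obtain ⟨i, rfl | rfl⟩ := hQform g hgQ
    · have h1 : (QuaternionGroup.a 1 : QuaternionGroup (2 ^ (m' + 1))) ^ i = 1 := by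
        rw [← hσa, ← map_zpow]; exact (hσker _).mpr hgN
      have h2 : ((orderOf (QuaternionGroup.a 1 : QuaternionGroup (2 ^ (m' + 1))) : ℕ) : ℤ) ∣ i :=
        orderOf_dvd_iff_zpow_eq_one.mpr h1
      rw [QuaternionGroup.orderOf_a_one] at h2
      obtain ⟨k, rfl⟩ := h2
      rw [zpow_mul, zpow_natCast, ha2M, one_zpow]
    · exfalso
      have h1 : σ (a ^ i * x) = 1 := (hσker _).mpr hgN
      rw [map_mul, map_zpow, hσa, hx,
        Cfsg.Agent.Lib.Helper66.DihedralStem.quaternion_a_one_zpow, QuaternionGroup.a_mul_xa,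
        QuaternionGroup.one_def] at h1
      cases h1
  have hsup : N ⊔ Q = ⊤ := by
    rw [eq_top_iff]
    intro g _
    have hmap : Q.map σ = ⊤ := by
      rw [eq_top_iff, ← Cfsg.Agent.Lib.Helper66.DihedralStem.quaternion_closure,
        Subgroup.closure_le]
      rintro _ (rfl | rfl)
      · exact ⟨a, haQ, hσa⟩
      · exact ⟨x, hxQ, hx⟩
    have hg : σ g ∈ Q.map σ := hmap ▸ Subgroup.mem_top _
    obtain ⟨q, hq, hqg⟩ := hg
    have hk : g * q⁻¹ ∈ N := by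
      rw [← hσker, map_mul, map_inv, hqg, mul_inv_cancel]
    have h3 : g = (g * q⁻¹) * q := by group
    rw [h3]
    exact mul_mem (Subgroup.mem_sup_left hk) (Subgroup.mem_sup_right hq)
  have hQnc : ¬ IsMulCommutative ↥Q := by
    intro hc
    have h1 := hc.is_comm.comm (⟨a, haQ⟩ : Q) ⟨x, hxQ⟩
    have h2 : a * x = x * a := congrArg Subtype.val h1
    have h3 := congrArg σ h2
    rw [map_mul, map_mul, hσa, hx, QuaternionGroup.a_mul_xa, QuaternionGroup.xa_mul_a] at h3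
    have h4 : (0 : ZMod (2 * 2 ^ (m' + 1))) - 1 = 0 + 1 := by injection h3
    apply h2ne
    linear_combination -h4
  have hz₀Q : z₀ ∈ Q := by rw [← hxx]; exact mul_mem hxQ hxQ
  have hz₀1 : z₀ ≠ 1 := by
    intro h
    have h1 : σ z₀ = 1 := by rw [h, map_one]
    rw [← hxx, map_mul, hx, QuaternionGroup.xa_mul_xa, QuaternionGroup.one_def] at h1
    have h2 : ((2 ^ (m' + 1) : ℕ) : ZMod (2 * 2 ^ (m' + 1))) + 0 - 0 = 0 := by injection h1
    apply hMne
    linear_combination h2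
  obtain ⟨t, ht, htuniq⟩ := hex
  have hinv : ∀ q ∈ Q, orderOf q = 2 → (QuotientGroup.mk q : S ⧸ N) = t := by
    intro q hq hoq
    apply htuniq
    apply orderOf_eq_prime
    · rw [← QuotientGroup.mk_pow, ← hoq, pow_orderOf_eq_one]; rfl
    · intro h
      have h1 : q ∈ N := (QuotientGroup.eq_one_iff q).mp h
      have h2 : q ∈ N ⊓ Q := ⟨h1, hq⟩
      rw [hNQ, Subgroup.mem_bot] at h2
      rw [h2, orderOf_one] at hoq
      omega
  have hoz₀ : orderOf z₀ = 2 := orderOf_eq_prime hz₀sq hz₀1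
  refine ⟨Q, hNQ, hsup, hQnc, ⟨z₀, hz₀Q⟩, ?_, ?_⟩
  · show orderOf (⟨z₀, hz₀Q⟩ : Q) = 2
    rw [← Subgroup.orderOf_coe]; exact hoz₀
  · intro q hq
    have hoq : orderOf (q : S) = 2 := by rw [Subgroup.orderOf_coe]; exact hq
    have h1 := hinv q q.2 hoq
    have h2 := hinv z₀ hz₀Q hoz₀
    have h3 : (q : S)⁻¹ * z₀ ∈ N := QuotientGroup.eq.mp (h1.trans h2.symm)
    have h4 : (q : S)⁻¹ * z₀ ∈ N ⊓ Q := ⟨h3, Q.mul_mem (Q.inv_mem q.2) hz₀Q⟩
    rw [hNQ, Subgroup.mem_bot] at h4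
    apply Subtype.ext
    exact inv_mul_eq_one.mp h4

/-- Let S be a finite 2-group whose centre Z(S) has n ≥ 2 distinct maximal subgroups C₁, …, Cₙ with trivial intersection such that each quotient S/Cᵢ is a non-abelian group with exactly one involution (a generalized quaternion group). Then S is the internal direct product of an elementary abelian subgroup and a non-abelian subgroup with exactly one involution. -/
theorem result {S : Type*} [Group S] [Finite S]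
    (hS : IsPGroup 2 S) (n : ℕ) (hn : 2 ≤ n) (C : Fin n → Subgroup ↥(Subgroup.center S))
    (hCmax : ∀ i, IsCoatom (C i)) (hCinj : Function.Injective C) (hCint : ⨅ i, C i = ⊥)
    (hCq : ∀ i, ∃ (_ : ((C i).map (Subgroup.center S).subtype).Normal),
      ¬ IsMulCommutative (S ⧸ (C i).map (Subgroup.center S).subtype) ∧
      ∃! x : S ⧸ (C i).map (Subgroup.center S).subtype, orderOf x = 2) :
    ∃ E Q : Subgroup S, Cfsg.IsInternalDirectProduct E Q ⊤ ∧ Cfsg.IsElementaryAbelian 2 E ∧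
      ¬ IsMulCommutative ↥Q ∧ ∃! x : ↥Q, orderOf x = 2 := by
  have hZ2 : IsPGroup 2 ↥(Subgroup.center S) := hS.to_subgroup _
  have hF1 : ∀ i, ∀ z : ↥(Subgroup.center S), z ^ 2 ∈ C i := fun i z =>
    Cfsg.Agent.Lib.Helper90.Frattini2.sq_mem_coatom hZ2 (hCmax i) z
  have hF2 : ∀ z : ↥(Subgroup.center S), z ^ 2 = 1 := by
    intro z
    have h1 : z ^ 2 ∈ ⨅ i, C i := Subgroup.mem_iInf.mpr (fun i => hF1 i z)
    rw [hCint] at h1
    exact Subgroup.mem_bot.mp h1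
  have hF3 : ∀ z z' : ↥(Subgroup.center S), (∀ i, z ∉ C i) → (∀ i, z' ∉ C i) → z = z' := by
    intro z z' hz hz'
    have h1 : z' * z⁻¹ ∈ ⨅ i, C i := Subgroup.mem_iInf.mpr (fun i =>
      Cfsg.Agent.Lib.Helper90.Frattini2.mul_inv_mem_coatom hZ2 (hCmax i) (hz i) (hz' i))
    rw [hCint] at h1
    exact (mul_inv_eq_one.mp (Subgroup.mem_bot.mp h1)).symm
  have hmem : ∀ i (g : S), g ∈ (C i).map (Subgroup.center S).subtype ↔
      ∃ h : g ∈ Subgroup.center S, (⟨g, h⟩ : ↥(Subgroup.center S)) ∈ C i := by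
    intro i g
    constructor
    · rintro ⟨z, hz, rfl⟩; exact ⟨z.2, hz⟩
    · rintro ⟨h, hz⟩; exact ⟨⟨g, h⟩, hz, rfl⟩
  have hZsq : ∀ z ∈ Subgroup.center S, z ^ 2 = 1 := by
    intro z hz
    have h1 := hF2 ⟨z, hz⟩
    have h2 := congrArg Subtype.val h1
    simpa using h2
  have hLZ : ∀ i (g : S), g ^ 2 ∈ (C i).map (Subgroup.center S).subtype →
      g ∈ Subgroup.center S := by
    intro i g hg
    obtain ⟨hNi, -, t, ht, htuniq⟩ := hCq i
    obtain ⟨z, hz⟩ : ∃ z : ↥(Subgroup.center S), z ∉ C i := by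
      by_contra hcon
      push Not at hcon
      exact (hCmax i).1 (eq_top_iff.mpr (fun z _ => hcon z))
    by_cases hg1 : g ∈ (C i).map (Subgroup.center S).subtype
    · exact (Subgroup.map_subtype_le (C i)) hg1
    · have hog : orderOf (QuotientGroup.mk g : S ⧸ (C i).map (Subgroup.center S).subtype) = 2 := by
        apply orderOf_eq_prime
        · rw [← QuotientGroup.mk_pow]; exact (QuotientGroup.eq_one_iff _).mpr hg
        · intro h; exact hg1 ((QuotientGroup.eq_one_iff _).mp h)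
      have hoz : orderOf (QuotientGroup.mk (z : S) :
          S ⧸ (C i).map (Subgroup.center S).subtype) = 2 := by
        apply orderOf_eq_prime
        · rw [← QuotientGroup.mk_pow, hZsq (z : S) z.2]; rfl
        · intro h
          have h1 := (QuotientGroup.eq_one_iff _).mp h
          obtain ⟨hh, hz'⟩ := (hmem i _).mp h1
          exact hz hz'
      have heq : (QuotientGroup.mk g : S ⧸ (C i).map (Subgroup.center S).subtype)
          = QuotientGroup.mk (z : S) := by rw [htuniq _ hog, htuniq _ hoz]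
      have h2 : (z : S)⁻¹ * g ∈ (C i).map (Subgroup.center S).subtype :=
        QuotientGroup.eq.mp heq.symm
      have h3 : (z : S)⁻¹ * g ∈ Subgroup.center S := (Subgroup.map_subtype_le (C i)) h2
      have h4 : g = (z : S) * ((z : S)⁻¹ * g) := by group
      rw [h4]; exact mul_mem z.2 h3
  have hn0 : 0 < n := by omega
  obtain ⟨hNn, hna, hex⟩ := hCq ⟨0, hn0⟩
  have hNZ : (C ⟨0, hn0⟩).map (Subgroup.center S).subtype ≤ Subgroup.center S :=
    Subgroup.map_subtype_le _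
  have hsqZ : ∀ g : S, g ^ 4 ∈ (C ⟨0, hn0⟩).map (Subgroup.center S).subtype →
      g ^ 2 ∈ Subgroup.center S := by
    intro g hg
    apply hLZ ⟨0, hn0⟩
    rw [← pow_mul]; exact hg
  have hsq : ∀ g h : S, g ∉ Subgroup.center S → h ∉ Subgroup.center S →
      g ^ 4 ∈ (C ⟨0, hn0⟩).map (Subgroup.center S).subtype →
      h ^ 4 ∈ (C ⟨0, hn0⟩).map (Subgroup.center S).subtype → g ^ 2 = h ^ 2 := by
    intro g h hg hh hg4 hh4
    have hgZ := hsqZ g hg4
    have hhZ := hsqZ h hh4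
    have key : ∀ (u : S) (_ : u ∉ Subgroup.center S) (huZ : u ^ 2 ∈ Subgroup.center S),
        ∀ i, (⟨u ^ 2, huZ⟩ : ↥(Subgroup.center S)) ∉ C i := by
      intro u hu huZ i hmemi
      apply hu
      apply hLZ i
      exact (hmem i _).mpr ⟨huZ, hmemi⟩
    have h1 := hF3 ⟨g ^ 2, hgZ⟩ ⟨h ^ 2, hhZ⟩ (key g hg hgZ) (key h hh hhZ)
    exact congrArg Subtype.val h1
  obtain ⟨Q, hNQ, hsup, hQnc, hQuniq⟩ := core hS _ hna hex hsq hsqZ hZsq
  refine ⟨(C ⟨0, hn0⟩).map (Subgroup.center S).subtype, Q, ⟨le_top, le_top, ?_, hNQ, hsup⟩,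
    ⟨?_, ?_⟩, hQnc, hQuniq⟩
  · intro a ha b _
    exact (Subgroup.mem_center_iff.mp (hNZ ha) b).symm
  · exact ⟨⟨fun a b => Subtype.ext (Subgroup.mem_center_iff.mp (hNZ b.2) a.1)⟩⟩
  · intro a ha
    exact hZsq a (hNZ ha)

end Cfsg.Agent.S3201
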