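import Mathlib
import Cfsg.Statements.S3202
import Cfsg.Agent.Lib.Helper54.Quaternion
import Cfsg.Agent.Lib.Helper66.DihedralStem

set_option autoImplicit false
open Cfsg

namespace Cfsg.Agent.S3202

open scoped commutatorElement

/-- Let S be a finite 2-group of 2-rank exactly 2 and D a maximal subgroup of the centre of S such that S/D is a non-abelian group with exactly one involution (a generalized quaternion group). Then S has a nontrivial cyclic characteristic subgroup. -/
theorem result {S : Type*} [Group S]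
    [Finite S] (hS : IsPGroup 2 S) (hr2 : Cfsg.PRankLE 2 2 S) (hr1 : ¬ Cfsg.PRankLE 2 1 S)
    (D : Subgroup ↥(Subgroup.center S)) (hD : IsCoatom D)
    (hq : ∃ (_ : (D.map (Subgroup.center S).subtype).Normal),
      ¬ IsMulCommutative (S ⧸ D.map (Subgroup.center S).subtype) ∧
      ∃! x : S ⧸ D.map (Subgroup.center S).subtype, orderOf x = 2) :
    ∃ C : Subgroup S, C ≠ ⊥ ∧ IsCyclic ↥C ∧ C.Characteristic := by
  obtain ⟨hDn, hna, hex⟩ := hq
  have hfact : Fact (Nat.Prime 2) := ⟨Nat.prime_two⟩
  have hP : IsPGroup 2 (S ⧸ D.map (Subgroup.center S).subtype) := hS.to_quotient _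
  have hUI : Cfsg.Agent.Lib.Helper54.UniqueSubgroup.UI 2 (S ⧸ D.map (Subgroup.center S).subtype) := by
    obtain ⟨t, ht, htuniq⟩ := hex
    intro g h hg hh hg1
    by_cases hh1 : h = 1
    · rw [hh1]; exact one_mem _
    have hog : orderOf g = 2 := orderOf_eq_prime hg hg1
    have hoh : orderOf h = 2 := orderOf_eq_prime hh hh1
    rw [htuniq h hoh, ← htuniq g hog]; exact Subgroup.mem_zpowers g
  rcases Cfsg.Agent.Lib.Helper54.Quaternion.isCyclic_or_quaternion hP hUI with hcyc | ⟨m, ⟨e⟩⟩
  · exfalso
    apply hna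
    have hcomm : ∀ a b : S ⧸ D.map (Subgroup.center S).subtype, a * b = b * a := by
      obtain ⟨g, hg⟩ := hcyc.exists_generator
      intro a b
      obtain ⟨i, rfl⟩ := Subgroup.mem_zpowers_iff.mp (hg a)
      obtain ⟨j, rfl⟩ := Subgroup.mem_zpowers_iff.mp (hg b)
      rw [← zpow_add, ← zpow_add, add_comm]
    exact ⟨⟨hcomm⟩⟩
  · obtain ⟨σ, hσ⟩ : ∃ σ : S →* QuaternionGroup (2 ^ m),
        σ = e.toMonoidHom.comp (QuotientGroup.mk' (D.map (Subgroup.center S).subtype)) := ⟨_, rfl⟩
    have hker : σ.ker ≤ Subgroup.center S := by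
      intro x hx
      rw [MonoidHom.mem_ker, hσ] at hx
      have h1 : (QuotientGroup.mk' (D.map (Subgroup.center S).subtype)) x = 1 := by
        apply e.injective
        rw [map_one]
        exact hx
      have h2 : x ∈ D.map (Subgroup.center S).subtype := by
        rw [← QuotientGroup.eq_one_iff]; exact h1
      exact (Subgroup.map_subtype_le D) h2
    have hsurj : Function.Surjective σ := by
      rw [hσ]
      exact e.surjective.comp (QuotientGroup.mk'_surjective _)
    obtain ⟨R, hR⟩ := hsurj (QuaternionGroup.a 1)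
    obtain ⟨X, hX⟩ := hsurj (QuaternionGroup.xa 0)
    have hinvxa : (QuaternionGroup.xa (0 : ZMod (2 * 2 ^ m)) : QuaternionGroup (2 ^ m))⁻¹
        = QuaternionGroup.xa (((2 ^ m : ℕ) : ZMod (2 * 2 ^ m)) + 0) := rfl
    have h2n : (((2 ^ m : ℕ) : ℕ) : ZMod (2 * 2 ^ m)) + ((2 ^ m : ℕ) : ZMod (2 * 2 ^ m)) = 0 := by
      rw [← Nat.cast_add, ZMod.natCast_eq_zero_iff]
      exact ⟨1, by ring⟩
    have hc : X * R * X⁻¹ * R ∈ σ.ker := by
      rw [MonoidHom.mem_ker]
      simp only [map_mul, map_inv, hR, hX, hinvxa]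
      simp only [QuaternionGroup.xa_mul_a, QuaternionGroup.xa_mul_xa, QuaternionGroup.a_mul_a]
      rw [QuaternionGroup.one_def]
      congr 1
      linear_combination h2n
    have hgen : Subgroup.closure ({σ R, σ X} : Set (QuaternionGroup (2 ^ m))) = ⊤ := by
      rw [hR, hX]; exact Cfsg.Agent.Lib.Helper66.DihedralStem.quaternion_closure _
    have hle := Cfsg.Agent.Lib.Helper66.DihedralStem.core_commutator_le σ hker R X hgen hc
    refine ⟨commutator S, ?_, Subgroup.isCyclic_of_le hle, inferInstance⟩
    intro hbot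
    apply hna
    have hcommS : ∀ a b : S, a * b = b * a := by
      intro a b
      have h1 : ⁅a, b⁆ ∈ commutator S := by
        rw [commutator_def]
        exact Subgroup.commutator_mem_commutator (Subgroup.mem_top a) (Subgroup.mem_top b)
      rw [hbot, Subgroup.mem_bot] at h1
      exact (commutatorElement_eq_one_iff_mul_comm.mp h1)
    refine ⟨⟨fun a b => ?_⟩⟩
    induction a using QuotientGroup.induction_on with
    | H a =>
      induction b using QuotientGroup.induction_on with
      | H b =>
        rw [← QuotientGroup.mk_mul, ← QuotientGroup.mk_mul, hcommS a b]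

end Cfsg.Agent.S3202
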