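import Mathlib
import Cfsg.Statements.S3208
import Cfsg.Agent.Lib.Helper53.PGroupBasics
import Cfsg.Agent.Lib.Helper53.NormalizerChar

set_option autoImplicit false
open Cfsg

namespace Cfsg.Agent.S3208

open Cfsg.Agent.Lib.Helper53.PGroupBasics Cfsg.Agent.Lib.Helper53.NormalizerChar

/-- Let j be an involution of a finite group G, H a subgroup of G, and T a Sylow 2-subgroup of H ∩ C_G(j) containing j such that ⟨j⟩ is a characteristic subgroup of T. Then T is a Sylow 2-subgroup of H. -/
theorem result {G : Type*} [Group G] [Finite G]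
    (j : G) (hj : orderOf j = 2) (H T : Subgroup G) (hT : T ≤ H ⊓ Subgroup.centralizer ({j} : Set G)) (h2 : IsPGroup 2 ↥T)
    (hSyl : ¬ 2 ∣ T.relIndex (H ⊓ Subgroup.centralizer ({j} : Set G))) (hjT : j ∈ T)
    (hchar : ((Subgroup.zpowers j).subgroupOf T).Characteristic) :
    ¬ 2 ∣ T.relIndex H := by
  have : Fact (Nat.Prime 2) := ⟨Nat.prime_two⟩
  intro hdvd
  have hTH : T ≤ H := hT.trans inf_le_left
  have hTC : T ≤ Subgroup.centralizer ({j} : Set G) := hT.trans inf_le_right
  have hp' : IsPGroup 2 (T.subgroupOf H) := h2.comap_subtype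
  obtain ⟨Q, hQ⟩ := hp'.exists_le_sylow
  -- the Sylow subgroup of `H` seen in `G`
  have hP2 : IsPGroup 2 ((Q : Subgroup H).map H.subtype) := Q.2.map _
  have hPH : (Q : Subgroup H).map H.subtype ≤ H := by
    rintro _ ⟨x, _, rfl⟩; exact x.2
  have hTP : T ≤ (Q : Subgroup H).map H.subtype := by
    intro t ht
    exact ⟨⟨t, hTH ht⟩, hQ (Subgroup.mem_subgroupOf.mpr ht), rfl⟩
  have hne : T ≠ (Q : Subgroup H).map H.subtype := by
    intro h
    have h1 : T.subgroupOf H = (Q : Subgroup H) := by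
      ext y
      rw [Subgroup.mem_subgroupOf, h]
      constructor
      · rintro ⟨q, hq, hqy⟩
        have : q = y := Subtype.ext hqy
        rw [← this]; exact hq
      · intro hy; exact ⟨y, hy, rfl⟩
    have h3 : T.relIndex H = (Q : Subgroup H).index := by
      rw [Subgroup.relIndex, h1]
    rw [h3] at hdvd
    exact Q.not_dvd_index hdvd
  generalize (Q : Subgroup H).map H.subtype = P at hP2 hPH hTP hne
  -- normalizer growth inside `P`
  have hlt : T.subgroupOf P < ⊤ := by
    rw [lt_top_iff_ne_top, Ne, Subgroup.subgroupOf_eq_top]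
    intro h; exact hne (le_antisymm hTP h)
  have hgrow := lt_normalizer_of_lt_top hP2 (T.subgroupOf P) hlt
  obtain ⟨x', hx'N, hx'T⟩ := SetLike.exists_of_lt hgrow
  have hxP : (x' : G) ∈ P := x'.2
  have hxT : (x' : G) ∉ T := fun h => hx'T (Subgroup.mem_subgroupOf.mpr h)
  have hxN : (x' : G) ∈ Subgroup.normalizer (T : Set G) := by
    rw [Subgroup.mem_normalizer_iff] at hx'N ⊢
    intro t
    constructor
    · intro ht
      have := (hx'N ⟨t, hTP ht⟩).mp (Subgroup.mem_subgroupOf.mpr ht)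
      exact Subgroup.mem_subgroupOf.mp this
    · intro ht
      have htP : t ∈ P := by
        have h1 : t = (x' : G)⁻¹ * ((x' : G) * t * (x' : G)⁻¹) * (x' : G) := by group
        rw [h1]
        exact P.mul_mem (P.mul_mem (P.inv_mem hxP) (hTP ht)) hxP
      have := (hx'N ⟨t, htP⟩).mpr (Subgroup.mem_subgroupOf.mpr ht)
      exact Subgroup.mem_subgroupOf.mp this
  have hxC : (x' : G) ∈ Subgroup.centralizer ({j} : Set G) :=
    normalizer_le_centralizer_of_char_involution T j hj hjT hchar hxN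
  -- the bigger 2-subgroup
  have hKP : T ⊔ Subgroup.zpowers (x' : G) ≤ P :=
    sup_le hTP (by rw [Subgroup.zpowers_le]; exact hxP)
  have hK2 : IsPGroup 2 (T ⊔ Subgroup.zpowers (x' : G) : Subgroup G) := hP2.to_le hKP
  have hKM : T ⊔ Subgroup.zpowers (x' : G) ≤ H ⊓ Subgroup.centralizer ({j} : Set G) :=
    sup_le hT (by
      rw [Subgroup.zpowers_le]
      exact ⟨hPH hxP, hxC⟩)
  have hTK : T ≤ T ⊔ Subgroup.zpowers (x' : G) := le_sup_left
  have hmul := Subgroup.relIndex_mul_relIndex _ _ _ hTK hKM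
  obtain ⟨m, hm⟩ := hK2.index (T.subgroupOf (T ⊔ Subgroup.zpowers (x' : G)))
  have hm' : T.relIndex (T ⊔ Subgroup.zpowers (x' : G)) = 2 ^ m := hm
  have hm0 : m ≠ 0 := by
    rintro rfl
    rw [pow_zero, Subgroup.relIndex_eq_one] at hm'
    exact hxT (hm' (le_sup_right (a := T) (Subgroup.mem_zpowers (x' : G))))
  apply hSyl
  rw [← hmul, hm']
  exact Dvd.dvd.mul_right (dvd_pow_self 2 hm0) _

end Cfsg.Agent.S3208
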