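import Mathlib
import Cfsg.Statements.S3211
import Cfsg.Agent.Lib.Helper91.FW
import Cfsg.Agent.Lib.Helper14.ZStar
import Cfsg.Agent.S0201
import Cfsg.Agent.Lib.Helper50.Cores

set_option autoImplicit false
open Cfsg

namespace Cfsg.Agent.S3211

/-- Let G be a finite group with subgroups L₁ ≅ SL₂(q₁) and L₂ ≅ SL₂(q₂), q₁ and q₂ odd prime powers, which commute elementwise and meet in ⟨j⟩ for an involution j, and suppose L₁L₂ has index 2 in C_G(j). If some n ∈ C_G(j) with n² = j interchanges L₁ and L₂ under conjugation (so that C_G(j) = L₁L₂⟨n⟩), then G = C_G(j)O(G). -/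
theorem result {G : Type*} [Group G] [Finite G]
    {F₁ : Type*} [Field F₁] [Fintype F₁] {F₂ : Type*} [Field F₂] [Fintype F₂]
    (hF₁ : Odd (Fintype.card F₁)) (hF₂ : Odd (Fintype.card F₂)) (L₁ L₂ : Subgroup G)
    (e₁ : ↥L₁ ≃* Matrix.SpecialLinearGroup (Fin 2) F₁) (e₂ : ↥L₂ ≃* Matrix.SpecialLinearGroup (Fin 2) F₂)
    (hc : ∀ x ∈ L₁, ∀ y ∈ L₂, x * y = y * x) (j : G) (hj : orderOf j = 2) (hm : L₁ ⊓ L₂ = Subgroup.zpowers j)
    (hle : L₁ ⊔ L₂ ≤ Subgroup.centralizer ({j} : Set G)) (hi : (L₁ ⊔ L₂).relIndex (Subgroup.centralizer ({j} : Set G)) = 2) (n : G) (hn : n ∈ Subgroup.centralizer ({j} : Set G))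
    (hn2 : n ^ 2 = j) (hswap : L₁.map (MulAut.conj n).toMonoidHom = L₂) :
    Subgroup.centralizer ({j} : Set G) ⊔ Cfsg.oddCore G = ⊤ := by
  have hiso := Cfsg.Agent.Lib.Helper91.FW.isolated hF₁ hF₂ L₁ L₂ e₁ e₂ hc j hj hm hle hi n hn
    hn2 hswap
  have hZ : ∀ g : G, j * g * j⁻¹ * g⁻¹ ∈ Cfsg.pPrimeCore 2 G := fun g =>
    Cfsg.Agent.Lib.Helper14.ZStar.zstar'
      (fun G _ _ S n e hO => Cfsg.Agent.S0201.result S n e hO) j hiso g
  have hodd : Odd (Nat.card (Cfsg.pPrimeCore 2 G)) :=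
    Nat.coprime_two_right.mp (Cfsg.Agent.Lib.Helper50.Cores.pPrimeCore_coprime 2)
  have hjj : j * j = 1 := by rw [← pow_two, ← hj, pow_orderOf_eq_one]
  have hjinv : j⁻¹ = j := inv_eq_of_mul_eq_one_left hjj
  rw [eq_top_iff]
  intro g _
  obtain ⟨c, hc_def⟩ : ∃ c, c = j * g⁻¹ * j⁻¹ * g := ⟨_, rfl⟩
  have hcN : c ∈ Cfsg.pPrimeCore 2 G := by
    have h0 := hZ g⁻¹
    rw [inv_inv] at h0
    rw [hc_def]; exact h0
  have hjc : j * c * j⁻¹ = c⁻¹ := by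
    rw [hc_def]
    calc j * (j * g⁻¹ * j⁻¹ * g) * j⁻¹ = (j * j) * g⁻¹ * j⁻¹ * g * j⁻¹ := by group
      _ = g⁻¹ * j * g * j⁻¹ := by rw [hjj, one_mul, hjinv]
      _ = (j * g⁻¹ * j⁻¹ * g)⁻¹ := by group
  have hco : Odd (orderOf c) :=
    Odd.of_dvd_nat hodd (Subgroup.orderOf_dvd_natCard _ hcN)
  obtain ⟨r, hr⟩ := hco
  obtain ⟨d, hd_def⟩ : ∃ d, d = c ^ (r + 1) := ⟨_, rfl⟩
  have hdd : d * d = c := by
    rw [hd_def, ← pow_add]
    have h0 : r + 1 + (r + 1) = orderOf c + 1 := by omega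
    rw [h0, pow_succ, pow_orderOf_eq_one, one_mul]
  have hdN : d ∈ Cfsg.pPrimeCore 2 G := by rw [hd_def]; exact Subgroup.pow_mem _ hcN _
  have hjd : j * d * j⁻¹ = d⁻¹ := by
    rw [hd_def, ← conj_pow, hjc, inv_pow]
  have hgj : j * g * j⁻¹ = g * c⁻¹ := by
    rw [hc_def]; group
  have hfix : j * (g * d⁻¹) * j⁻¹ = g * d⁻¹ := by
    calc j * (g * d⁻¹) * j⁻¹ = (j * g * j⁻¹) * (j * d * j⁻¹)⁻¹ := by group
      _ = g * c⁻¹ * d⁻¹⁻¹ := by rw [hgj, hjd]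
      _ = g * (d * d)⁻¹ * d := by rw [hdd, inv_inv]
      _ = g * d⁻¹ := by group
  have hmem : g * d⁻¹ ∈ Subgroup.centralizer ({j} : Set G) := by
    rw [Subgroup.mem_centralizer_iff]
    intro x hx
    rw [Set.mem_singleton_iff] at hx
    rw [hx]
    calc j * (g * d⁻¹) = (j * (g * d⁻¹) * j⁻¹) * j := by group
      _ = g * d⁻¹ * j := by rw [hfix]
  have h0 : g = (g * d⁻¹) * d := by group
  rw [h0]
  exact Subgroup.mul_mem _ (Subgroup.mem_sup_left hmem) (Subgroup.mem_sup_right hdN)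

end Cfsg.Agent.S3211
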