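import Mathlib
import Cfsg.Statements.S3213
import Cfsg.Agent.Lib.Helper53.InvolLin
import Cfsg.Agent.Lib.Helper53.SL25

set_option autoImplicit false
open Cfsg

namespace Cfsg.Agent.S3213

open Matrix in
/-- Let F be the field with 3 elements and K the field with 5 elements. For every injective homomorphism φ from SL₂(K) into the symplectic group Sp₄(F) (4 × 4 matrices g with g J gᵀ = J for the standard alternating matrix J) and every element x of order 3 of SL₂(K), the vectors of F⁴ fixed by φ(x) form a 2-dimensional subspace that is totally isotropic for the alternating form defined by J. -/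
theorem result {F : Type*} [Field F] [Fintype F] (hF : Fintype.card F = 3)
    {K : Type*} [Field K] [Fintype K] (hK : Fintype.card K = 5)
    (φ : Matrix.SpecialLinearGroup (Fin 2) K →* ↥(Matrix.symplecticGroup (Fin 2) F)) (hφ : Function.Injective φ)
    (x : Matrix.SpecialLinearGroup (Fin 2) K) (hx : orderOf x = 3) :
    Module.finrank F ↥(LinearMap.ker (Matrix.toLin' ((φ x : Matrix (Fin 2 ⊕ Fin 2) (Fin 2 ⊕ Fin 2) F)) - LinearMap.id)) = 2 ∧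
      ∀ v w : Fin 2 ⊕ Fin 2 → F, (φ x : Matrix (Fin 2 ⊕ Fin 2) (Fin 2 ⊕ Fin 2) F).mulVec v = v →
        (φ x : Matrix (Fin 2 ⊕ Fin 2) (Fin 2 ⊕ Fin 2) F).mulVec w = w →
          dotProduct v ((Matrix.J (Fin 2) F).mulVec w) = 0 := by
  classical
  obtain ⟨z, u, y, hzz, hz1, hzu, hu5, hu1, hyy, hxyx⟩ :=
    Cfsg.Agent.Lib.Helper53.SL25.exists_elements hK x hx
  -- the representation
  obtain ⟨ρ, hρ⟩ : ∃ ρ : Matrix.SpecialLinearGroup (Fin 2) K →* Module.End F (Fin 2 ⊕ Fin 2 → F),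
      ∀ g, ρ g = Matrix.toLin' ((φ g : Matrix (Fin 2 ⊕ Fin 2) (Fin 2 ⊕ Fin 2) F)) := by
    refine ⟨{ toFun := fun g => Matrix.toLin' ((φ g : Matrix (Fin 2 ⊕ Fin 2) (Fin 2 ⊕ Fin 2) F))
              map_one' := ?_
              map_mul' := ?_ }, fun g => rfl⟩
    · rw [map_one]
      show Matrix.toLin' (1 : Matrix (Fin 2 ⊕ Fin 2) (Fin 2 ⊕ Fin 2) F) = 1
      exact Matrix.toLin'_one
    · intro g h
      rw [map_mul]
      show Matrix.toLin' ((φ g : Matrix (Fin 2 ⊕ Fin 2) (Fin 2 ⊕ Fin 2) F) *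
        (φ h : Matrix (Fin 2 ⊕ Fin 2) (Fin 2 ⊕ Fin 2) F)) = _
      rw [Matrix.toLin'_mul]
      rfl
  have hρinj : Function.Injective ρ := by
    intro g h hgh
    rw [hρ, hρ] at hgh
    apply hφ
    apply Subtype.ext
    exact Matrix.toLin'.injective hgh
  have hV : Module.finrank F (Fin 2 ⊕ Fin 2 → F) = 4 := by
    rw [Module.finrank_fintype_fun_eq_card]; rfl
  have hU5 : ρ u ^ 5 = 1 := by rw [← map_pow, hu5, map_one]
  have hU1 : ρ u ≠ 1 := fun h => hu1 (hρinj (h.trans (map_one ρ).symm))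
  have hZZ : ρ z * ρ z = 1 := by rw [← map_mul, hzz, map_one]
  have hZ1 : ρ z ≠ 1 := fun h => hz1 (hρinj (h.trans (map_one ρ).symm))
  have hZU : ρ z * ρ u = ρ u * ρ z := by rw [← map_mul, ← map_mul, hzu]
  have hZ : ρ z = -1 :=
    Cfsg.Agent.Lib.Helper53.InvolLin.eq_neg_one_of_commute hF hV (ρ u) (ρ z) hU5 hU1 hZZ hZ1 hZU
  have hY : ρ y * ρ y = -1 := by rw [← map_mul, hyy, hZ]
  have hx3 : x * x * x = 1 := by
    have h1 : x ^ 3 = 1 := by rw [← hx, pow_orderOf_eq_one]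
    rw [← h1, pow_succ, pow_succ, pow_one]
  have hx1 : x ≠ 1 := by
    intro h
    rw [h, orderOf_one] at hx
    omega
  have hM3 : ρ x * ρ x * ρ x = 1 := by rw [← map_mul, ← map_mul, hx3, map_one]
  have hM1 : ρ x ≠ 1 := fun h => hx1 (hρinj (h.trans (map_one ρ).symm))
  have hMY : ρ x * ρ y * ρ x = ρ y := by rw [← map_mul, ← map_mul, hxyx]
  obtain ⟨hk, hle⟩ := Cfsg.Agent.Lib.Helper53.InvolLin.core_linear hF hV (ρ x) (ρ y) hY hM3 hM1 hMY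
  rw [hρ] at hk hle
  refine ⟨hk, ?_⟩
  intro v w hv hw
  have hwk : w ∈ LinearMap.ker
      (Matrix.toLin' ((φ x : Matrix (Fin 2 ⊕ Fin 2) (Fin 2 ⊕ Fin 2) F)) - 1) := by
    rw [LinearMap.mem_ker, LinearMap.sub_apply, Matrix.toLin'_apply, hw]
    simp
  obtain ⟨t, ht⟩ := hle hwk
  have ht' : (φ x : Matrix (Fin 2 ⊕ Fin 2) (Fin 2 ⊕ Fin 2) F) *ᵥ t - t = w := by
    rw [← ht, LinearMap.sub_apply, Matrix.toLin'_apply]
    rfl
  have hsym : (φ x : Matrix (Fin 2 ⊕ Fin 2) (Fin 2 ⊕ Fin 2) F)ᵀ * Matrix.J (Fin 2) F *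
      (φ x : Matrix (Fin 2 ⊕ Fin 2) (Fin 2 ⊕ Fin 2) F) = Matrix.J (Fin 2) F :=
    SymplecticGroup.mem_iff'.mp (φ x).2
  obtain ⟨A, hA⟩ : ∃ A : Matrix (Fin 2 ⊕ Fin 2) (Fin 2 ⊕ Fin 2) F,
      A = (φ x : Matrix (Fin 2 ⊕ Fin 2) (Fin 2 ⊕ Fin 2) F) := ⟨_, rfl⟩
  rw [← hA] at hv ht' hsym
  have key : v ⬝ᵥ (Matrix.J (Fin 2) F *ᵥ (A *ᵥ t)) = v ⬝ᵥ (Matrix.J (Fin 2) F *ᵥ t) := by
    calc v ⬝ᵥ (Matrix.J (Fin 2) F *ᵥ (A *ᵥ t))
        = (A *ᵥ v) ⬝ᵥ (Matrix.J (Fin 2) F *ᵥ (A *ᵥ t)) := by rw [hv]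
      _ = (Matrix.J (Fin 2) F *ᵥ (A *ᵥ t)) ⬝ᵥ (A *ᵥ v) := dotProduct_comm _ _
      _ = ((Matrix.J (Fin 2) F *ᵥ (A *ᵥ t)) ᵥ* A) ⬝ᵥ v := Matrix.dotProduct_mulVec _ _ _
      _ = (Aᵀ *ᵥ (Matrix.J (Fin 2) F *ᵥ (A *ᵥ t))) ⬝ᵥ v := by rw [Matrix.mulVec_transpose]
      _ = ((Aᵀ * Matrix.J (Fin 2) F * A) *ᵥ t) ⬝ᵥ v := by
          rw [Matrix.mulVec_mulVec, Matrix.mulVec_mulVec, Matrix.mul_assoc]
      _ = (Matrix.J (Fin 2) F *ᵥ t) ⬝ᵥ v := by rw [hsym]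
      _ = v ⬝ᵥ (Matrix.J (Fin 2) F *ᵥ t) := dotProduct_comm _ _
  rw [← ht', Matrix.mulVec_sub, dotProduct_sub, key, sub_self]

end Cfsg.Agent.S3213
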