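import Cfsg.Statements.S3225
import Mathlib.GroupTheory.Transfer
import Mathlib.Tactic

set_option autoImplicit false
open Cfsg

namespace Cfsg.Agent.S3225

open MulAction Subgroup in
/-- Let G be a finite group of even order with no subgroup of index 2, S a Sylow 2-subgroup of G and M a subgroup of index 2 in S such that, for some n ≥ 1, every element of S outside M has order greater than 2^(n−1). Then every element of S of order 2ⁿ is conjugate in G to an element of M. -/
theorem result {G : Type*} [Group G] [Finite G] (hev : Even (Nat.card G))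
    (hG : ∀ H : Subgroup G, H.index ≠ 2) (S : Sylow 2 G) (M : Subgroup G) (hMS : M ≤ (S : Subgroup G)) (hM : M.relIndex (S : Subgroup G) = 2)
    (n : ℕ) (hn : 1 ≤ n) (hord : ∀ y ∈ (S : Subgroup G), y ∉ M → 2 ^ (n - 1) < orderOf y)
    (x : G) (hx : x ∈ (S : Subgroup G)) (hxn : orderOf x = 2 ^ n) :
    ∃ g : G, g * x * g⁻¹ ∈ M := by
  classical
  by_contra hcon
  push Not at hcon
  have hidx : (M.subgroupOf (S : Subgroup G)).index = 2 := hM
  let φ : ↥(S : Subgroup G) →* ℤˣ :=
    { toFun := fun s => if (s : G) ∈ M then 1 else -1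
      map_one' := by simp [M.one_mem]
      map_mul' := by
        intro a b
        have h := Subgroup.mul_mem_iff_of_index_two hidx (a := a) (b := b)
        simp only [Subgroup.mem_subgroupOf, Subgroup.coe_mul] at h
        by_cases ha : (a : G) ∈ M <;> by_cases hb : (b : G) ∈ M <;> simp [ha, hb, h] }
  have hφ : ∀ (g : G) (hg : g ∈ (S : Subgroup G)), φ ⟨g, hg⟩ = if g ∈ M then 1 else -1 := fun _ _ => rfl
  have : Fintype (Quotient (orbitRel (zpowers x) (G ⧸ (S : Subgroup G)))) := Fintype.ofFinite _
  have hV := MonoidHom.transfer_eq_prod_quotient_orbitRel_zpowers_quot φ x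
  -- every period is a power of two
  have hper : ∀ q : G ⧸ (S : Subgroup G), Function.minimalPeriod (x • ·) q ∣ 2 ^ n := by
    intro q
    apply Function.IsPeriodicPt.minimalPeriod_dvd
    rw [← hxn]
    show (fun y => x • y)^[orderOf x] q = q
    rw [smul_iterate, pow_orderOf_eq_one]
    exact one_smul _ q
  -- value of each factor
  have hfac : ∀ q : Quotient (orbitRel (zpowers x) (G ⧸ (S : Subgroup G))),
      φ ⟨q.out.out⁻¹ * x ^ Function.minimalPeriod (x • ·) q.out * q.out.out,
            QuotientGroup.out_conj_pow_minimalPeriod_mem (S : Subgroup G) x q.out⟩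
        = if Function.minimalPeriod (x • ·) q.out = 1 then -1 else 1 := by
    intro q
    rw [hφ]
    by_cases h1 : Function.minimalPeriod (x • ·) q.out = 1
    · have := hcon (q.out.out⁻¹)
      rw [inv_inv] at this
      simp only [h1, pow_one, if_true, if_neg this]
    · rw [if_neg h1]
      obtain ⟨j, hj, hjeq⟩ := (Nat.dvd_prime_pow Nat.prime_two).1 (hper q.out)
      have hj1 : 1 ≤ j := by
        rcases Nat.eq_zero_or_pos j with h0 | h0
        · subst h0; rw [pow_zero] at hjeq; exact absurd hjeq h1
        · exact h0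
      rw [if_pos]
      by_contra hnot
      have hlt := hord _ (QuotientGroup.out_conj_pow_minimalPeriod_mem (S : Subgroup G) x q.out) hnot
      have hconj : orderOf (q.out.out⁻¹ * x ^ Function.minimalPeriod (x • ·) q.out * q.out.out)
          = orderOf (x ^ Function.minimalPeriod (x • ·) q.out) := by
        have hsc : SemiconjBy (q.out.out⁻¹) (x ^ Function.minimalPeriod (x • ·) q.out)
            (q.out.out⁻¹ * x ^ Function.minimalPeriod (x • ·) q.out * q.out.out) := by
          unfold SemiconjBy; group
        exact (hsc.orderOf_eq).symm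
      rw [hconj, hjeq, orderOf_pow, hxn] at hlt
      have hg : Nat.gcd (2 ^ n) (2 ^ j) = 2 ^ j := Nat.gcd_eq_right (pow_dvd_pow 2 hj)
      rw [hg, Nat.pow_div hj (by norm_num)] at hlt
      have : 2 ^ (n - j) ≤ 2 ^ (n - 1) := Nat.pow_le_pow_right (by norm_num) (by omega)
      omega
  rw [Fintype.prod_congr _ _ hfac, Finset.prod_ite, Finset.prod_const, Finset.prod_const_one, mul_one] at hV
  -- parity count
  have hcard : Nat.card (G ⧸ (S : Subgroup G)) =
      ∑ q : Quotient (orbitRel (zpowers x) (G ⧸ (S : Subgroup G))), Function.minimalPeriod (x • ·) q.out := by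
    rw [Nat.card_congr (quotientEquivSigmaZMod (S : Subgroup G) x), Nat.card_sigma]
    simp
  have hoddidx : ¬ 2 ∣ Nat.card (G ⧸ (S : Subgroup G)) := by
    have := S.not_dvd_index
    rwa [Subgroup.index] at this
  have hcount : Odd ((Finset.univ.filter fun q : Quotient (orbitRel (zpowers x) (G ⧸ (S : Subgroup G))) =>
      Function.minimalPeriod (x • ·) q.out = 1).card) := by
    rw [← Nat.not_even_iff_odd, even_iff_two_dvd]
    intro h2
    apply hoddidx
    rw [hcard, ← Finset.sum_filter_add_sum_filter_not Finset.univ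
      (fun q : Quotient (orbitRel (zpowers x) (G ⧸ (S : Subgroup G))) =>
      Function.minimalPeriod (x • ·) q.out = 1)]
    apply Nat.dvd_add
    · rw [Finset.sum_congr rfl (g := fun _ => 1) (by intro q hq; exact (Finset.mem_filter.1 hq).2)]
      simpa using h2
    · apply Finset.dvd_sum
      intro q hq
      have h1 := (Finset.mem_filter.1 hq).2
      obtain ⟨j, hj, hjeq⟩ := (Nat.dvd_prime_pow Nat.prime_two).1 (hper q.out)
      rw [hjeq]
      rcases Nat.eq_zero_or_pos j with h0 | h0
      · subst h0; rw [pow_zero] at hjeq; exact absurd hjeq h1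
      · exact dvd_pow_self 2 (by omega)
  rw [Odd.neg_one_pow hcount] at hV
  -- the kernel has index two
  apply hG (MonoidHom.transfer φ).ker
  rw [Subgroup.index_ker]
  have hle : Nat.card (MonoidHom.transfer φ).range ≤ 2 := by
    calc Nat.card (MonoidHom.transfer φ).range ≤ Nat.card ℤˣ := Subgroup.card_le_card_group _
      _ = 2 := by simp [Nat.card_eq_fintype_card]
  have hne : Nat.card (MonoidHom.transfer φ).range ≠ 1 := by
    intro h1
    have hbot := (Subgroup.card_eq_one).1 h1
    have hmem : MonoidHom.transfer φ x ∈ (MonoidHom.transfer φ).range := ⟨x, rfl⟩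
    rw [hbot, Subgroup.mem_bot, hV] at hmem
    exact absurd hmem (by decide)
  have hpos : 0 < Nat.card (MonoidHom.transfer φ).range := Nat.card_pos
  omega

end Cfsg.Agent.S3225
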