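import Cfsg.Statements.S3265
import Mathlib

set_option autoImplicit false
open Cfsg

namespace Cfsg.Agent.S3265

open Equiv

def X8 : Perm (Fin 8) := swap 0 1 * swap 2 3 * swap 4 5 * swap 6 7
def Y8b : Perm (Fin 8) := swap 1 2 * swap 3 4 * swap 5 6 * swap 7 0
def Z8b : Perm (Fin 8) := swap 6 7 * swap 1 2 * swap 3 5 * swap 4 0
def C8b : Perm (Fin 8) := swap 0 1 * swap 1 2 * swap 2 3 * swap 3 5
def Y8a : Perm (Fin 8) := swap 1 2 * swap 3 0 * swap 5 6 * swap 7 4
def Z8a : Perm (Fin 8) := swap 1 2 * swap 3 4 * swap 5 0 * swap 6 7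
def C8a : Perm (Fin 8) := swap 0 1 * swap 1 2 * swap 2 3 * swap 3 4 * swap 4 5
def X5 : Perm (Fin 5) := swap 0 1 * swap 2 3
def Y5 : Perm (Fin 5) := swap 1 2 * swap 3 0
def Z5 : Perm (Fin 5) := swap 0 4 * swap 1 2
def C5 : Perm (Fin 5) := swap 1 4 * swap 4 3 * swap 3 2

theorem X8_tab : ∀ i : Fin 8, X8 i = ![1, 0, 3, 2, 5, 4, 7, 6] i := by decide
theorem Y8b_tab : ∀ i : Fin 8, Y8b i = ![7, 2, 1, 4, 3, 6, 5, 0] i := by decide
theorem Y8a_tab : ∀ i : Fin 8, Y8a i = ![3, 2, 1, 0, 7, 6, 5, 4] i := by decide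
theorem X5_tab : ∀ i : Fin 5, X5 i = ![1, 0, 3, 2, 4] i := by decide
theorem Y5_tab : ∀ i : Fin 5, Y5 i = ![3, 2, 1, 0, 4] i := by decide
theorem Z8b_sq : Z8b * Z8b = 1 := by decide
theorem Z8a_sq : Z8a * Z8a = 1 := by decide
theorem Z5_sq : Z5 * Z5 = 1 := by decide
theorem C8b_conj : C8b * X8 * C8b⁻¹ = Z8b := by decide
theorem C8a_conj : C8a * X8 * C8a⁻¹ = Z8a := by decide
theorem C5_conj : C5 * X5 * C5⁻¹ = Z5 := by decide
set_option maxRecDepth 8000 in
theorem XZ8b : (X8 * Z8b) ^ 3 = 1 := by decide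
set_option maxRecDepth 8000 in
theorem YZ8b : (Y8b * Z8b) ^ 3 = 1 := by decide
set_option maxRecDepth 8000 in
theorem XZ8a : (X8 * Z8a) ^ 3 = 1 := by decide
set_option maxRecDepth 8000 in
theorem YZ8a : (Y8a * Z8a) ^ 3 = 1 := by decide
set_option maxRecDepth 8000 in
theorem XZ5 : (X5 * Z5) ^ 5 = 1 := by decide
set_option maxRecDepth 8000 in
theorem YZ5 : (Y5 * Z5) ^ 3 = 1 := by decide

section
variable {α : Type*} [DecidableEq α] [Fintype α]

structure Cfg (s : Finset α) (x y : Perm α) : Prop where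
  x2 : x * x = 1
  y2 : y * y = 1
  xs : ∀ p, x p ≠ p → p ∈ s
  ys : ∀ p, y p ≠ p → p ∈ s
  card : x.support.card = y.support.card

def Q (s : Finset α) (x y : Perm α) : Prop :=
  ∃ z : Perm α, z * z = 1 ∧ (∀ p, z p ≠ p → p ∈ s) ∧ z.support.card = x.support.card ∧
    Odd (orderOf (x * z)) ∧ Odd (orderOf (y * z))

def Bad4 (s : Finset α) (x y : Perm α) : Prop :=
  ∃ a b c d : α, a ≠ b ∧ a ≠ c ∧ a ≠ d ∧ b ≠ c ∧ b ≠ d ∧ c ≠ d ∧ s = {a, b, c, d} ∧
    x a = b ∧ x c = d ∧ y b = c ∧ y d = a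

def FourCyc (x y : Perm α) (a : α) : Prop :=
  x a ≠ a ∧ y (x a) ≠ a ∧ y (x a) ≠ x a ∧ y (x (y (x a))) = a

theorem inv_apply {σ : Perm α} (h : σ * σ = 1) (p : α) : σ (σ p) = p := by
  have := congrArg (fun f : Perm α => f p) h
  simpa using this

theorem inv_eq {σ : Perm α} (h : σ * σ = 1) {p q : α} (hpq : σ p = q) : σ q = p := by
  rw [← hpq]; exact inv_apply h p

theorem ms_l (σ : Perm α) (p q : α) : (σ * swap p q) p = σ q := by simp

theorem ms_r (σ : Perm α) (p q : α) : (σ * swap p q) q = σ p := by simp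

theorem ms_o (σ : Perm α) {p q r : α} (h1 : r ≠ p) (h2 : r ≠ q) : (σ * swap p q) r = σ r := by
  simp [Equiv.swap_apply_of_ne_of_ne h1 h2]

theorem card_add (σ : Perm α) {p q : α} (hpq : p ≠ q) (hp : σ p = p) (hq : σ q = q) :
    (σ * swap p q).support.card = σ.support.card + 2 := by
  have hd : Equiv.Perm.Disjoint σ (swap p q) := by
    rw [Equiv.Perm.disjoint_iff_eq_or_eq]
    intro r
    by_cases h1 : r = p
    · left; rw [h1]; exact hp
    by_cases h2 : r = q
    · left; rw [h2]; exact hq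
    right; exact Equiv.swap_apply_of_ne_of_ne h1 h2
  rw [hd.card_support_mul, Equiv.Perm.card_support_swap hpq]

theorem sq_add {σ : Perm α} (h : σ * σ = 1) {p q : α} (hp : σ p = p) (hq : σ q = q) :
    (σ * swap p q) * (σ * swap p q) = 1 := by
  ext r
  rw [Equiv.Perm.mul_apply]
  by_cases h1 : r = p
  · rw [h1, ms_l, hq, ms_r, hp]; rfl
  by_cases h2 : r = q
  · rw [h2, ms_r, hp, ms_l, hq]; rfl
  rw [ms_o σ h1 h2]
  have h3 : σ r ≠ p := fun e => h1 (by rw [← inv_apply h r, e, hp])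
  have h4 : σ r ≠ q := fun e => h2 (by rw [← inv_apply h r, e, hq])
  rw [ms_o σ h3 h4, inv_apply h]; rfl

theorem sq_rem {σ : Perm α} (h : σ * σ = 1) {p q : α} (hpq : σ p = q) :
    (σ * swap p q) * (σ * swap p q) = 1 := by
  have hqp : σ q = p := inv_eq h hpq
  ext r
  rw [Equiv.Perm.mul_apply]
  by_cases h1 : r = p
  · rw [h1, ms_l, hqp, ms_l, hqp]; rfl
  by_cases h2 : r = q
  · rw [h2, ms_r, hpq, ms_r, hpq]; rfl
  rw [ms_o σ h1 h2]
  have h3 : σ r ≠ p := fun e => h2 (by rw [← inv_apply h r, e, hpq])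
  have h4 : σ r ≠ q := fun e => h1 (by rw [← inv_apply h r, e, hqp])
  rw [ms_o σ h3 h4, inv_apply h]; rfl

theorem comm_fix (σ : Perm α) {p q : α} (hp : σ p = p) (hq : σ q = q) :
    σ * swap p q = swap p q * σ := by
  ext r
  rw [Equiv.Perm.mul_apply, Equiv.Perm.mul_apply]
  by_cases h1 : r = p
  · rw [h1, Equiv.swap_apply_left, hq, hp, Equiv.swap_apply_left]
  by_cases h2 : r = q
  · rw [h2, Equiv.swap_apply_right, hp, hq, Equiv.swap_apply_right]
  have h3 : σ r ≠ p := fun e => h1 (σ.injective (e.trans hp.symm))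
  have h4 : σ r ≠ q := fun e => h2 (σ.injective (e.trans hq.symm))
  rw [Equiv.swap_apply_of_ne_of_ne h1 h2, Equiv.swap_apply_of_ne_of_ne h3 h4]

theorem mul_swap_cancel (σ : Perm α) (p q : α) : σ * swap p q * swap p q = σ := by
  rw [mul_assoc, Equiv.swap_mul_self, mul_one]

theorem odd_order_of_pow {σ : Perm α} {k : ℕ} (hk : Odd k) (h : σ ^ k = 1) : Odd (orderOf σ) :=
  Odd.of_dvd_nat hk (orderOf_dvd_of_pow_eq_one h)

theorem ins (τ τ' : Perm α) (a b c : α) (hab : a ≠ b) (hca : c ≠ a) (hcb : c ≠ b)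
    (hτa : τ a = a) (hτb : τ b = b)
    (h1 : τ' c = a) (h2 : τ' a = b) (h3 : τ' b = τ c)
    (h4 : ∀ p, p ≠ a → p ≠ b → p ≠ c → τ' p = τ p)
    (hodd : Odd (orderOf τ)) : Odd (orderOf τ') := by
  classical
  have hNpos : 0 < orderOf τ := orderOf_pos τ
  have hτN : τ ^ orderOf τ = 1 := pow_orderOf_eq_one τ
  have hper : Function.IsPeriodicPt τ (orderOf τ) c := by
    rw [Function.IsPeriodicPt, Function.IsFixedPt, Equiv.Perm.iterate_eq_pow, hτN]; rfl
  have hldvd : Function.minimalPeriod τ c ∣ orderOf τ := hper.minimalPeriod_dvd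
  have hlpos : 0 < Function.minimalPeriod τ c := hper.minimalPeriod_pos hNpos
  have hlper : (τ ^ Function.minimalPeriod τ c) c = c := by
    have := Function.isPeriodicPt_minimalPeriod τ c
    rw [Function.IsPeriodicPt, Function.IsFixedPt, Equiv.Perm.iterate_eq_pow] at this
    exact this
  have hlmin : ∀ i, 0 < i → i < Function.minimalPeriod τ c → (τ ^ i) c ≠ c := by
    intro i hi hil h
    refine Function.not_isPeriodicPt_of_pos_of_lt_minimalPeriod (Nat.pos_iff_ne_zero.1 hi) hil ?_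
    rw [Function.IsPeriodicPt, Function.IsFixedPt, Equiv.Perm.iterate_eq_pow]
    exact h
  generalize Function.minimalPeriod τ c = l at hldvd hlpos hlper hlmin
  have hA : ∀ i, 1 ≤ i → i ≤ l → (τ' ^ (i + 2)) c = (τ ^ i) c := by
    intro i hi
    induction i, hi using Nat.le_induction with
    | base =>
      intro _
      have : (τ' ^ (1 + 2)) c = τ' (τ' (τ' c)) := by
        simp [pow_succ']
      rw [this, h1, h2, h3]; simp
    | succ i hi ih =>
      intro hil
      have hi' := ih (by omega)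
      have e1 : (τ' ^ (i + 1 + 2)) c = τ' ((τ' ^ (i + 2)) c) := by
        rw [show i + 1 + 2 = (i + 2) + 1 by omega, pow_succ']; rfl
      have e2 : (τ ^ (i + 1)) c = τ ((τ ^ i) c) := by
        rw [pow_succ']; rfl
      rw [e1, hi', e2]
      apply h4
      · intro h
        have : (τ ^ i) a = a := Equiv.Perm.pow_apply_eq_self_of_apply_eq_self hτa i
        exact hca ((τ ^ i).injective (h.trans this.symm))
      · intro h
        have : (τ ^ i) b = b := Equiv.Perm.pow_apply_eq_self_of_apply_eq_self hτb i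
        exact hcb ((τ ^ i).injective (h.trans this.symm))
      · exact hlmin i (by omega) (by omega)
  have hc : (τ' ^ (l + 2)) c = c := by rw [hA l hlpos le_rfl, hlper]
  have hO1 : ∀ p, (∃ j : ℕ, (τ' ^ j) c = p) → (τ' ^ (l + 2)) p = p := by
    rintro p ⟨j, rfl⟩
    rw [← Equiv.Perm.mul_apply, ← pow_add, add_comm, pow_add, Equiv.Perm.mul_apply, hc]
  have hO2 : ∀ p, (¬ ∃ j : ℕ, (τ' ^ j) c = p) → τ' p = τ p ∧ ¬ ∃ j : ℕ, (τ' ^ j) c = τ' p := by
    intro p hp
    have hpa : p ≠ a := fun h => hp ⟨1, by simp [h1, h]⟩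
    have hpb : p ≠ b := fun h => hp ⟨2, by simp [pow_succ', h1, h2, h]⟩
    have hpc : p ≠ c := fun h => hp ⟨0, by simp [h]⟩
    refine ⟨h4 p hpa hpb hpc, ?_⟩
    rintro ⟨j, hj⟩
    rcases j with _ | j
    · apply hp
      refine ⟨l + 1, ?_⟩
      apply τ'.injective
      have : τ' ((τ' ^ (l + 1)) c) = (τ' ^ (l + 2)) c := by
        rw [show l + 2 = (l + 1) + 1 by omega, pow_succ' τ' (l + 1)]; rfl
      rw [this, hc]
      simpa using hj
    · apply hp
      refine ⟨j, ?_⟩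
      apply τ'.injective
      rw [← hj, pow_succ']; rfl
  have hO3 : ∀ p, (¬ ∃ j : ℕ, (τ' ^ j) c = p) → ∀ j : ℕ, (τ' ^ j) p = (τ ^ j) p ∧
      ¬ ∃ k : ℕ, (τ' ^ k) c = (τ' ^ j) p := by
    intro p hp j
    induction j with
    | zero => simpa using hp
    | succ j ih =>
      have e1 : (τ' ^ (j + 1)) p = τ' ((τ' ^ j) p) := by rw [pow_succ']; rfl
      have e2 : (τ ^ (j + 1)) p = τ ((τ ^ j) p) := by rw [pow_succ']; rfl
      have := hO2 _ ih.2
      rw [e1, e2]
      refine ⟨?_, this.2⟩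
      rw [this.1, ih.1]
  have hfin : τ' ^ (orderOf τ * (l + 2)) = 1 := by
    ext p
    by_cases hp : ∃ j : ℕ, (τ' ^ j) c = p
    · rw [mul_comm, pow_mul]
      simpa using Equiv.Perm.pow_apply_eq_self_of_apply_eq_self (hO1 p hp) (orderOf τ)
    · rw [pow_mul]
      have : (τ' ^ orderOf τ) p = p := by
        rw [(hO3 p hp (orderOf τ)).1, hτN]; rfl
      simpa using Equiv.Perm.pow_apply_eq_self_of_apply_eq_self this (l + 2)
  refine odd_order_of_pow ?_ hfin
  have hl : Odd l := Odd.of_dvd_nat hodd hldvd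
  exact hodd.mul (hl.add_even (by decide))

theorem ins2 (τ τ' : Perm α) (a b c a' b' d : α)
    (hab : a ≠ b) (hca : c ≠ a) (hcb : c ≠ b)
    (hab' : a' ≠ b') (hda' : d ≠ a') (hdb' : d ≠ b')
    (haa' : a ≠ a') (hab'' : a ≠ b') (hba' : b ≠ a') (hbb' : b ≠ b')
    (hcd : c ≠ d) (hca' : c ≠ a') (hcb' : c ≠ b') (hda : d ≠ a) (hdb : d ≠ b)
    (hτa : τ a = a) (hτb : τ b = b) (hτa' : τ a' = a') (hτb' : τ b' = b')
    (h1 : τ' c = a) (h2 : τ' a = b) (h3 : τ' b = τ c)
    (h1' : τ' d = a') (h2' : τ' a' = b') (h3' : τ' b' = τ d)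
    (h4 : ∀ p, p ≠ a → p ≠ b → p ≠ c → p ≠ a' → p ≠ b' → p ≠ d → τ' p = τ p)
    (hodd : Odd (orderOf τ)) : Odd (orderOf τ') := by
  have e : ∀ p, (τ * (swap c b * swap c a)) p =
      if p = c then τ a else if p = a then τ b else if p = b then τ c else τ p := by
    intro p
    by_cases hpc : p = c
    · rw [hpc]; simp [Equiv.swap_apply_def, hca.symm, hab]
    by_cases hpa : p = a
    · rw [hpa]; simp [Equiv.swap_apply_def, hca.symm, hab]
    by_cases hpb : p = b
    · rw [hpb]; simp [Equiv.swap_apply_def, hcb.symm, hab.symm]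
    simp [Equiv.swap_apply_def, hpc, hpa, hpb]
  have o1 : Odd (orderOf (τ * (swap c b * swap c a))) := by
    refine ins τ _ a b c hab hca hcb hτa hτb ?_ ?_ ?_ ?_ hodd
    · rw [e]; simp [hτa]
    · rw [e]; simp [hca.symm, hτb]
    · rw [e]; simp [hcb.symm, hab.symm]
    · intro p hpa hpb hpc; rw [e]; simp [hpa, hpb, hpc]
  refine ins _ τ' a' b' d hab' hda' hdb' ?_ ?_ h1' h2' ?_ ?_ o1
  · rw [e]; simp [hca'.symm, haa'.symm, hba'.symm, hτa']
  · rw [e]; simp [hcb'.symm, hab''.symm, hbb'.symm, hτb']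
  · rw [e, h3']; simp [hcd.symm, hda, hdb]
  · intro p hpa' hpb' hpd
    rw [e]
    by_cases hpc : p = c
    · subst hpc; simp [h1, hτa]
    by_cases hpa : p = a
    · subst hpa; simp [hpc, h2, hτb]
    by_cases hpb : p = b
    · subst hpb; simp [hpc, hpa, h3]
    simp [hpc, hpa, hpb]
    exact h4 p hpa hpb hpc hpa' hpb' hpd

theorem explicit {m : ℕ} (f : Fin m → α) (hf : Function.Injective f) (X Y Z C : Perm (Fin m))
    (x y : Perm α) (hx : ∀ i, x (f i) = f (X i)) (hxo : ∀ p, (∀ i, p ≠ f i) → x p = p)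
    (hy : ∀ i, y (f i) = f (Y i)) (hyo : ∀ p, (∀ i, p ≠ f i) → y p = p)
    (hZ2 : Z * Z = 1) (hC : C * X * C⁻¹ = Z)
    (k1 k2 : ℕ) (hk1 : Odd k1) (hk2 : Odd k2) (h1 : (X * Z) ^ k1 = 1) (h2 : (Y * Z) ^ k2 = 1)
    (s : Finset α) (hs : ∀ i, f i ∈ s) : Q s x y := by
  classical
  have ex : x = Equiv.Perm.viaEmbeddingHom ⟨f, hf⟩ X := by
    ext p
    by_cases hp : p ∈ Set.range (⟨f, hf⟩ : Fin m ↪ α)
    · obtain ⟨i, rfl⟩ := hp
      rw [Equiv.Perm.viaEmbeddingHom_apply, Equiv.Perm.viaEmbedding_apply]; exact hx i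
    · rw [Equiv.Perm.viaEmbeddingHom_apply, Equiv.Perm.viaEmbedding_apply_of_notMem _ _ _ hp]
      exact hxo p (fun i h => hp ⟨i, h.symm⟩)
  have ey : y = Equiv.Perm.viaEmbeddingHom ⟨f, hf⟩ Y := by
    ext p
    by_cases hp : p ∈ Set.range (⟨f, hf⟩ : Fin m ↪ α)
    · obtain ⟨i, rfl⟩ := hp
      rw [Equiv.Perm.viaEmbeddingHom_apply, Equiv.Perm.viaEmbedding_apply]; exact hy i
    · rw [Equiv.Perm.viaEmbeddingHom_apply, Equiv.Perm.viaEmbedding_apply_of_notMem _ _ _ hp]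
      exact hyo p (fun i h => hp ⟨i, h.symm⟩)
  refine ⟨Equiv.Perm.viaEmbeddingHom ⟨f, hf⟩ Z, ?_, ?_, ?_, ?_, ?_⟩
  · rw [← map_mul, hZ2, map_one]
  · intro p hp
    by_contra hps
    apply hp
    rw [Equiv.Perm.viaEmbeddingHom_apply]
    apply Equiv.Perm.viaEmbedding_apply_of_notMem
    rintro ⟨i, rfl⟩
    exact hps (hs i)
  · rw [ex, ← hC, map_mul, map_mul, map_inv, Equiv.Perm.card_support_conj]
  · rw [ex, ← map_mul]
    exact odd_order_of_pow hk1 (by rw [← map_pow, h1, map_one])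
  · rw [ey, ← map_mul]
    exact odd_order_of_pow hk2 (by rw [← map_pow, h2, map_one])

theorem bad4_fourcyc {s : Finset α} {x y : Perm α} (h : Bad4 s x y) :
    ∃ a ∈ s, FourCyc x y a := by
  obtain ⟨a, b, c, d, hab, hac, had, hbc, hbd, hcd, hs, hxa, hxc, hyb, hyd⟩ := h
  refine ⟨a, by rw [hs]; simp, ?_, ?_, ?_, ?_⟩
  · rw [hxa]; exact hab.symm
  · rw [hxa, hyb]; exact hac.symm
  · rw [hxa, hyb]; exact hbc.symm
  · rw [hxa, hyb, hxc, hyd]

theorem bad4_moves {s : Finset α} {x y : Perm α} (h : Bad4 s x y) (hx2 : x * x = 1) :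
    ∀ p ∈ s, x p ≠ p := by
  obtain ⟨a, b, c, d, hab, hac, had, hbc, hbd, hcd, hs, hxa, hxc, hyb, hyd⟩ := h
  intro p hp
  rw [hs] at hp
  simp only [Finset.mem_insert, Finset.mem_singleton] at hp
  rcases hp with h | h | h | h
  · rw [h, hxa]; exact hab.symm
  · rw [h, inv_eq hx2 hxa]; exact hab
  · rw [h, hxc]; exact hcd.symm
  · rw [h, inv_eq hx2 hxc]; exact hcd

theorem red_iso (s : Finset α) (x y : Perm α) (hc : Cfg s x y)
    (IH : ∀ (s' : Finset α) (x' y' : Perm α), s'.card < s.card → Cfg s' x' y' →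
      Q s' x' y' ∨ Bad4 s' x' y')
    (h4 : ∀ a, ¬ FourCyc x y a) (c : α) (hcs : c ∈ s) (hxc : x c = c) (hyc : y c = c) :
    Q s x y := by
  have hc' : Cfg (s.erase c) x y := by
    refine ⟨hc.x2, hc.y2, ?_, ?_, hc.card⟩
    · intro p hp
      exact Finset.mem_erase.2 ⟨fun h => hp (by rw [h]; exact hxc), hc.xs p hp⟩
    · intro p hp
      exact Finset.mem_erase.2 ⟨fun h => hp (by rw [h]; exact hyc), hc.ys p hp⟩
  rcases IH _ x y (Finset.card_erase_lt_of_mem hcs) hc' with ⟨z, hz2, hzs, hzc, ho1, ho2⟩ | hbad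
  · exact ⟨z, hz2, fun p hp => Finset.mem_of_mem_erase (hzs p hp), hzc, ho1, ho2⟩
  · obtain ⟨a, _, ha⟩ := bad4_fourcyc hbad
    exact absurd ha (h4 a)

theorem red_leaf (s : Finset α) (x y : Perm α) (hc : Cfg s x y)
    (IH : ∀ (s' : Finset α) (x' y' : Perm α), s'.card < s.card → Cfg s' x' y' →
      Q s' x' y' ∨ Bad4 s' x' y')
    (v w : α) (hxv : x v ≠ v) (hyv : y v = v) (hyw : y w ≠ w) (hxw : x w = w) :
    Q s x y := by
  have hx := inv_apply hc.x2
  have hy := inv_apply hc.y2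
  obtain ⟨u, hu⟩ : ∃ u, x v = u := ⟨_, rfl⟩
  obtain ⟨w', hw'⟩ : ∃ w', y w = w' := ⟨_, rfl⟩
  have hxu : x u = v := inv_eq hc.x2 hu
  have hyw'' : y w' = w := inv_eq hc.y2 hw'
  have huv : u ≠ v := by rw [← hu]; exact hxv
  have hw'w : w' ≠ w := by rw [← hw']; exact hyw
  have hvw : v ≠ w := fun h => hxv (by rw [h]; exact hxw)
  have huw : u ≠ w := fun h => hvw (by rw [← hxu, h, hxw])
  have hw'v : w' ≠ v := fun h => hvw (by rw [← hyw'', h, hyv])
  have hvs : v ∈ s := hc.xs v hxv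
  have hws : w ∈ s := hc.ys w hyw
  -- the reduced permutations
  obtain ⟨x', hx'⟩ : ∃ x' : Perm α, x' = x * swap u v := ⟨_, rfl⟩
  obtain ⟨y', hy'⟩ : ∃ y' : Perm α, y' = y * swap w w' := ⟨_, rfl⟩
  have hx'u : x' u = u := by rw [hx', ms_l, hu]
  have hx'v : x' v = v := by rw [hx', ms_r, hxu]
  have hx'o : ∀ r, r ≠ u → r ≠ v → x' r = x r := fun r h1 h2 => by rw [hx', ms_o x h1 h2]
  have hy'w : y' w = w := by rw [hy', ms_l, hyw'']
  have hy'w' : y' w' = w' := by rw [hy', ms_r, hw']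
  have hy'o : ∀ r, r ≠ w → r ≠ w' → y' r = y r := fun r h1 h2 => by rw [hy', ms_o y h1 h2]
  have hx'2 : x' * x' = 1 := by rw [hx']; exact sq_rem hc.x2 hxu
  have hy'2 : y' * y' = 1 := by rw [hy']; exact sq_rem hc.y2 hw'
  have hcx : x.support.card = x'.support.card + 2 := by
    have := card_add x' huv hx'u hx'v
    rwa [hx', mul_swap_cancel, ← hx'] at this
  have hcy : y.support.card = y'.support.card + 2 := by
    have := card_add y' hw'w.symm hy'w hy'w'
    rwa [hy', mul_swap_cancel, ← hy'] at this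
  have hc' : Cfg ((s.erase v).erase w) x' y' := by
    refine ⟨hx'2, hy'2, ?_, ?_, ?_⟩
    · intro p hp
      have hpu : p ≠ u := fun h => hp (by rw [h]; exact hx'u)
      have hpv : p ≠ v := fun h => hp (by rw [h]; exact hx'v)
      rw [hx'o p hpu hpv] at hp
      have hpw : p ≠ w := fun h => hp (by rw [h]; exact hxw)
      exact Finset.mem_erase.2 ⟨hpw, Finset.mem_erase.2 ⟨hpv, hc.xs p hp⟩⟩
    · intro p hp
      have hpw : p ≠ w := fun h => hp (by rw [h]; exact hy'w)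
      have hpw' : p ≠ w' := fun h => hp (by rw [h]; exact hy'w')
      rw [hy'o p hpw hpw'] at hp
      have hpv : p ≠ v := fun h => hp (by rw [h]; exact hyv)
      exact Finset.mem_erase.2 ⟨hpw, Finset.mem_erase.2 ⟨hpv, hc.ys p hp⟩⟩
    · have := hc.card; omega
  have hlt : ((s.erase v).erase w).card < s.card :=
    lt_trans (Finset.card_erase_lt_of_mem (Finset.mem_erase.2 ⟨hvw.symm, hws⟩))
      (Finset.card_erase_lt_of_mem hvs)
  have hus' : u ∈ (s.erase v).erase w :=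
    Finset.mem_erase.2 ⟨huw, Finset.mem_erase.2 ⟨huv, hc.xs u (by rw [hxu]; exact huv.symm)⟩⟩
  rcases IH _ _ _ hlt hc' with ⟨z', hz2, hzs, hzc, ho1, ho2⟩ | hbad
  · have hz := inv_apply hz2
    have hz'v : z' v = v := by
      by_contra h
      have := hzs v h
      simp at this
    have hz'w : z' w = w := by
      by_contra h
      have := hzs w h
      simp at this
    obtain ⟨z, hzdef⟩ : ∃ z : Perm α, z = z' * swap v w := ⟨_, rfl⟩
    have hzv : z v = w := by rw [hzdef, ms_l, hz'w]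
    have hzw : z w = v := by rw [hzdef, ms_r, hz'v]
    have hzo : ∀ r, r ≠ v → r ≠ w → z r = z' r := fun r h1 h2 => by rw [hzdef, ms_o z' h1 h2]
    refine ⟨z, by rw [hzdef]; exact sq_add hz2 hz'v hz'w, ?_, ?_, ?_, ?_⟩
    · intro p hp
      by_cases h1 : p = v
      · rw [h1]; exact hvs
      by_cases h2 : p = w
      · rw [h2]; exact hws
      rw [hzo p h1 h2] at hp
      exact Finset.mem_of_mem_erase (Finset.mem_of_mem_erase (hzs p hp))
    · rw [hzdef, card_add z' hvw hz'v hz'w, hzc, hcx]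
    · -- Odd (x * z)
      have hcu : z' u ≠ v := fun h => huv (by rw [← hz u, h, hz'v])
      have hcw : z' u ≠ w := fun h => huw (by rw [← hz u, h, hz'w])
      refine ins (x' * z') (x * z) v w (z' u) hvw hcu hcw ?_ ?_ ?_ ?_ ?_ ?_ ho1
      · rw [Equiv.Perm.mul_apply, hz'v, hx'v]
      · rw [Equiv.Perm.mul_apply, hz'w, hx'o w huw.symm hvw.symm, hxw]
      · rw [Equiv.Perm.mul_apply, hzo _ hcu hcw, hz, hxu]
      · rw [Equiv.Perm.mul_apply, hzv, hxw]
      · rw [Equiv.Perm.mul_apply, hzw, hu, Equiv.Perm.mul_apply, hz, hx'u]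
      · intro p hpv hpw hpc
        rw [Equiv.Perm.mul_apply, hzo p hpv hpw, Equiv.Perm.mul_apply]
        have h1 : z' p ≠ u := fun h => hpc (by rw [← h, hz])
        have h2 : z' p ≠ v := fun h => hpv (by rw [← hz p, h, hz'v])
        rw [hx'o _ h1 h2]
    · -- Odd (y * z)
      have hcw : z' w' ≠ w := fun h => hw'w (by rw [← hz w', h, hz'w])
      have hcv : z' w' ≠ v := fun h => hw'v (by rw [← hz w', h, hz'v])
      refine ins (y' * z') (y * z) w v (z' w') hvw.symm hcw hcv ?_ ?_ ?_ ?_ ?_ ?_ ho2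
      · rw [Equiv.Perm.mul_apply, hz'w, hy'w]
      · rw [Equiv.Perm.mul_apply, hz'v, hy'o v hvw hw'v.symm, hyv]
      · rw [Equiv.Perm.mul_apply, hzo _ hcv hcw, hz, hyw'']
      · rw [Equiv.Perm.mul_apply, hzw, hyv]
      · rw [Equiv.Perm.mul_apply, hzv, hw', Equiv.Perm.mul_apply, hz, hy'w']
      · intro p hpw hpv hpc
        rw [Equiv.Perm.mul_apply, hzo p hpv hpw, Equiv.Perm.mul_apply]
        have h1 : z' p ≠ w := fun h => hpw (by rw [← hz p, h, hz'w])
        have h2 : z' p ≠ w' := fun h => hpc (by rw [← h, hz])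
        rw [hy'o _ h1 h2]
  · exact absurd hx'u (bad4_moves hbad hx'2 u hus')

theorem red_dbl (s : Finset α) (x y : Perm α) (hc : Cfg s x y)
    (IH : ∀ (s' : Finset α) (x' y' : Perm α), s'.card < s.card → Cfg s' x' y' →
      Q s' x' y' ∨ Bad4 s' x' y')
    (h4 : ∀ a, ¬ FourCyc x y a) (a b : α) (hab : a ≠ b) (hxa : x a = b) (hyb : y b = a) :
    Q s x y := by
  have hxb : x b = a := inv_eq hc.x2 hxa
  have hya : y a = b := inv_eq hc.y2 hyb
  have has : a ∈ s := hc.xs a (by rw [hxa]; exact hab.symm)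
  have hbs : b ∈ s := hc.xs b (by rw [hxb]; exact hab)
  obtain ⟨x', hx'⟩ : ∃ x' : Perm α, x' = x * swap a b := ⟨_, rfl⟩
  obtain ⟨y', hy'⟩ : ∃ y' : Perm α, y' = y * swap a b := ⟨_, rfl⟩
  have hx'a : x' a = a := by rw [hx', ms_l, hxb]
  have hx'b : x' b = b := by rw [hx', ms_r, hxa]
  have hx'o : ∀ r, r ≠ a → r ≠ b → x' r = x r := fun r h1 h2 => by rw [hx', ms_o x h1 h2]
  have hy'a : y' a = a := by rw [hy', ms_l, hyb]
  have hy'b : y' b = b := by rw [hy', ms_r, hya]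
  have hy'o : ∀ r, r ≠ a → r ≠ b → y' r = y r := fun r h1 h2 => by rw [hy', ms_o y h1 h2]
  have hx'2 : x' * x' = 1 := by rw [hx']; exact sq_rem hc.x2 hxa
  have hy'2 : y' * y' = 1 := by rw [hy']; exact sq_rem hc.y2 hya
  have hcx : x.support.card = x'.support.card + 2 := by
    have := card_add x' hab hx'a hx'b
    rwa [hx', mul_swap_cancel, ← hx'] at this
  have hcy : y.support.card = y'.support.card + 2 := by
    have := card_add y' hab hy'a hy'b
    rwa [hy', mul_swap_cancel, ← hy'] at this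
  have hc' : Cfg ((s.erase a).erase b) x' y' := by
    refine ⟨hx'2, hy'2, ?_, ?_, ?_⟩
    · intro p hp
      have hpa : p ≠ a := fun h => hp (by rw [h]; exact hx'a)
      have hpb : p ≠ b := fun h => hp (by rw [h]; exact hx'b)
      rw [hx'o p hpa hpb] at hp
      exact Finset.mem_erase.2 ⟨hpb, Finset.mem_erase.2 ⟨hpa, hc.xs p hp⟩⟩
    · intro p hp
      have hpa : p ≠ a := fun h => hp (by rw [h]; exact hy'a)
      have hpb : p ≠ b := fun h => hp (by rw [h]; exact hy'b)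
      rw [hy'o p hpa hpb] at hp
      exact Finset.mem_erase.2 ⟨hpb, Finset.mem_erase.2 ⟨hpa, hc.ys p hp⟩⟩
    · have := hc.card; omega
  have hlt : ((s.erase a).erase b).card < s.card :=
    lt_trans (Finset.card_erase_lt_of_mem (Finset.mem_erase.2 ⟨hab.symm, hbs⟩))
      (Finset.card_erase_lt_of_mem has)
  rcases IH _ _ _ hlt hc' with ⟨z', hz2, hzs, hzc, ho1, ho2⟩ | hbad
  · have hz'a : z' a = a := by
      by_contra h
      have := hzs a h
      simp at this
    have hz'b : z' b = b := by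
      by_contra h
      have := hzs b h
      simp at this
    have hcomm := comm_fix z' hz'a hz'b
    refine ⟨z' * swap a b, sq_add hz2 hz'a hz'b, ?_, ?_, ?_, ?_⟩
    · intro p hp
      by_cases h1 : p = a
      · rw [h1]; exact has
      by_cases h2 : p = b
      · rw [h2]; exact hbs
      rw [ms_o z' h1 h2] at hp
      exact Finset.mem_of_mem_erase (Finset.mem_of_mem_erase (hzs p hp))
    · rw [card_add z' hab hz'a hz'b, hzc, hcx]
    · have : x * (z' * swap a b) = x' * z' := by rw [hcomm, hx', mul_assoc]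
      rw [this]; exact ho1
    · have : y * (z' * swap a b) = y' * z' := by rw [hcomm, hy', mul_assoc]
      rw [this]; exact ho2
  · obtain ⟨a0, ha0s, h1, h2, h3, h5⟩ := bad4_fourcyc hbad
    have hm := bad4_moves hbad hx'2
    -- all the points of the cycle avoid a and b
    have hne : ∀ p, x' p ≠ p → p ≠ a ∧ p ≠ b := fun p hp =>
      ⟨fun h => hp (by rw [h]; exact hx'a), fun h => hp (by rw [h]; exact hx'b)⟩
    have hney : ∀ p, y' p ≠ p → p ≠ a ∧ p ≠ b := fun p hp =>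
      ⟨fun h => hp (by rw [h]; exact hy'a), fun h => hp (by rw [h]; exact hy'b)⟩
    have e0 : x' a0 = x a0 := hx'o a0 (hne a0 h1).1 (hne a0 h1).2
    have n1 : x' (x' a0) ≠ x' a0 := by rw [inv_apply hx'2]; exact fun h => h1 h.symm
    have e1 : y' (x' a0) = y (x' a0) := by
      have : y' (x' a0) ≠ x' a0 := h3
      exact hy'o _ (hney _ this).1 (hney _ this).2
    have n2 : y' (y' (x' a0)) ≠ y' (x' a0) := by rw [inv_apply hy'2]; exact fun h => h3 h.symm
    have n3 : x' (y' (x' a0)) ≠ y' (x' a0) := by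
      intro h
      rw [h] at h5
      rw [inv_apply hy'2] at h5
      exact h1 h5
    have e2 : x' (y' (x' a0)) = x (y' (x' a0)) := hx'o _ (hne _ n3).1 (hne _ n3).2
    have n4 : y' (x' (y' (x' a0))) ≠ x' (y' (x' a0)) := by
      rw [h5]
      intro h
      have : x' a0 = x' (x' (y' (x' a0))) := congrArg x' h
      rw [inv_apply hx'2] at this
      exact h3 this.symm
    have e3 : y' (x' (y' (x' a0))) = y (x' (y' (x' a0))) := hy'o _ (hney _ n4).1 (hney _ n4).2
    refine absurd ?_ (h4 a0)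
    refine ⟨?_, ?_, ?_, ?_⟩
    · rw [← e0]; exact h1
    · rw [← e0, ← e1]; exact h2
    · rw [← e0, ← e1]; exact h3
    · rw [← e0, ← e1, ← e2, ← e3]; exact h5

theorem not_mem4 {a b c d r : α} :
    r ∉ ({a, b, c, d} : Finset α) ↔ r ≠ a ∧ r ≠ b ∧ r ≠ c ∧ r ≠ d := by
  simp only [Finset.mem_insert, Finset.mem_singleton, not_or, ne_eq]

theorem bad4_at {s : Finset α} {x y : Perm α} (h : Bad4 s x y) (hx2 : x * x = 1) (hy2 : y * y = 1)
    (p : α) (hp : p ∈ s) :
    p ≠ x p ∧ p ≠ y (x p) ∧ p ≠ x (y (x p)) ∧ x p ≠ y (x p) ∧ x p ≠ x (y (x p)) ∧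
      y (x p) ≠ x (y (x p)) ∧ s = {p, x p, y (x p), x (y (x p))} ∧ y (x (y (x p))) = p := by
  obtain ⟨a, b, c, d, hab, hac, had, hbc, hbd, hcd, hs, hxa, hxc, hyb, hyd⟩ := h
  have hxb := inv_eq hx2 hxa
  have hxd := inv_eq hx2 hxc
  have hyc := inv_eq hy2 hyb
  have hya := inv_eq hy2 hyd
  rw [hs] at hp
  simp only [Finset.mem_insert, Finset.mem_singleton] at hp
  rcases hp with h | h | h | h
  · rw [h, hxa, hyb, hxc, hyd]; exact ⟨hab, hac, had, hbc, hbd, hcd, hs, rfl⟩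
  · rw [h, hxb, hya, hxd, hyc]
    refine ⟨hab.symm, hbd, hbc, had, hac, hcd.symm, ?_, rfl⟩
    rw [hs]; ext r; simp only [Finset.mem_insert, Finset.mem_singleton]; tauto
  · rw [h, hxc, hyd, hxa, hyb]
    refine ⟨hcd, hac.symm, hbc.symm, had.symm, hbd.symm, hab, ?_, rfl⟩
    rw [hs]; ext r; simp only [Finset.mem_insert, Finset.mem_singleton]; tauto
  · rw [h, hxd, hyc, hxb, hya]
    refine ⟨hcd.symm, hbd.symm, had.symm, hbc.symm, hac.symm, hab.symm, ?_, rfl⟩
    rw [hs]; ext r; simp only [Finset.mem_insert, Finset.mem_singleton]; tauto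

theorem red_long (s : Finset α) (x y : Perm α) (hc : Cfg s x y)
    (IH : ∀ (s' : Finset α) (x' y' : Perm α), s'.card < s.card → Cfg s' x' y' →
      Q s' x' y' ∨ Bad4 s' x' y')
    (p0 p1 p2 p3 p4 p5 : α)
    (h01 : p0 ≠ p1) (h02 : p0 ≠ p2) (h03 : p0 ≠ p3) (h04 : p0 ≠ p4) (h05 : p0 ≠ p5)
    (h12 : p1 ≠ p2) (h13 : p1 ≠ p3) (h14 : p1 ≠ p4) (h15 : p1 ≠ p5)
    (h23 : p2 ≠ p3) (h24 : p2 ≠ p4) (h25 : p2 ≠ p5)
    (h34 : p3 ≠ p4) (h35 : p3 ≠ p5) (h45 : p4 ≠ p5)
    (hx0 : x p0 = p1) (hy1 : y p1 = p2) (hx2 : x p2 = p3) (hy3 : y p3 = p4) (hx4 : x p4 = p5) :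
    Q s x y := by
  have hx1 : x p1 = p0 := inv_eq hc.x2 hx0
  have hx3 : x p3 = p2 := inv_eq hc.x2 hx2
  have hx5 : x p5 = p4 := inv_eq hc.x2 hx4
  have hy2 : y p2 = p1 := inv_eq hc.y2 hy1
  have hy4 : y p4 = p3 := inv_eq hc.y2 hy3
  have m0 : p0 ∈ s := hc.xs p0 (by rw [hx0]; exact h01.symm)
  have m1 : p1 ∈ s := hc.xs p1 (by rw [hx1]; exact h01)
  have m2 : p2 ∈ s := hc.xs p2 (by rw [hx2]; exact h23.symm)
  have m3 : p3 ∈ s := hc.xs p3 (by rw [hx3]; exact h23)
  have m4 : p4 ∈ s := hc.xs p4 (by rw [hx4]; exact h45.symm)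
  have m5 : p5 ∈ s := hc.xs p5 (by rw [hx5]; exact h45)
  -- x chain
  obtain ⟨x1, hx1d⟩ : ∃ x1 : Perm α, x1 = x * swap p0 p1 := ⟨_, rfl⟩
  have x1_0 : x1 p0 = p0 := by rw [hx1d, ms_l, hx1]
  have x1_1 : x1 p1 = p1 := by rw [hx1d, ms_r, hx0]
  have x1_o : ∀ r, r ≠ p0 → r ≠ p1 → x1 r = x r := fun r a b => by rw [hx1d, ms_o x a b]
  have x1_sq : x1 * x1 = 1 := by rw [hx1d]; exact sq_rem hc.x2 hx0
  have x1_c : x.support.card = x1.support.card + 2 := by
    have := card_add x1 h01 x1_0 x1_1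
    rwa [hx1d, mul_swap_cancel, ← hx1d] at this
  obtain ⟨x2, hx2d⟩ : ∃ x2 : Perm α, x2 = x1 * swap p2 p3 := ⟨_, rfl⟩
  have x1_2 : x1 p2 = p3 := by rw [x1_o p2 h02.symm h12.symm, hx2]
  have x1_3 : x1 p3 = p2 := by rw [x1_o p3 h03.symm h13.symm, hx3]
  have x2_2 : x2 p2 = p2 := by rw [hx2d, ms_l, x1_3]
  have x2_3 : x2 p3 = p3 := by rw [hx2d, ms_r, x1_2]
  have x2_o : ∀ r, r ≠ p2 → r ≠ p3 → x2 r = x1 r := fun r a b => by rw [hx2d, ms_o x1 a b]
  have x2_sq : x2 * x2 = 1 := by rw [hx2d]; exact sq_rem x1_sq x1_2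
  have x2_c : x1.support.card = x2.support.card + 2 := by
    have := card_add x2 h23 x2_2 x2_3
    rwa [hx2d, mul_swap_cancel, ← hx2d] at this
  obtain ⟨x3, hx3d⟩ : ∃ x3 : Perm α, x3 = x2 * swap p4 p5 := ⟨_, rfl⟩
  have x2_4 : x2 p4 = p5 := by rw [x2_o p4 h24.symm h34.symm, x1_o p4 h04.symm h14.symm, hx4]
  have x2_5 : x2 p5 = p4 := by rw [x2_o p5 h25.symm h35.symm, x1_o p5 h05.symm h15.symm, hx5]
  have x3_4 : x3 p4 = p4 := by rw [hx3d, ms_l, x2_5]
  have x3_5 : x3 p5 = p5 := by rw [hx3d, ms_r, x2_4]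
  have x3_o : ∀ r, r ≠ p4 → r ≠ p5 → x3 r = x2 r := fun r a b => by rw [hx3d, ms_o x2 a b]
  have x3_sq : x3 * x3 = 1 := by rw [hx3d]; exact sq_rem x2_sq x2_4
  have x3_c : x2.support.card = x3.support.card + 2 := by
    have := card_add x3 h45 x3_4 x3_5
    rwa [hx3d, mul_swap_cancel, ← hx3d] at this
  have x3_0 : x3 p0 = p0 := by rw [x3_o p0 h04 h05, x2_o p0 h02 h03, x1_0]
  obtain ⟨x', hx'd⟩ : ∃ x' : Perm α, x' = x3 * swap p0 p5 := ⟨_, rfl⟩
  have x'_0 : x' p0 = p5 := by rw [hx'd, ms_l, x3_5]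
  have x'_5 : x' p5 = p0 := by rw [hx'd, ms_r, x3_0]
  have x'_o : ∀ r, r ≠ p0 → r ≠ p5 → x' r = x3 r := fun r a b => by rw [hx'd, ms_o x3 a b]
  have x'_sq : x' * x' = 1 := by rw [hx'd]; exact sq_add x3_sq x3_0 x3_5
  have x'_c : x'.support.card = x3.support.card + 2 := by
    rw [hx'd]; exact card_add x3 h05 x3_0 x3_5
  have x'_1 : x' p1 = p1 := by rw [x'_o p1 h01.symm h15, x3_o p1 h14 h15, x2_o p1 h12 h13, x1_1]
  have x'_2 : x' p2 = p2 := by rw [x'_o p2 h02.symm h25, x3_o p2 h24 h25, x2_2]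
  have x'_3 : x' p3 = p3 := by rw [x'_o p3 h03.symm h35, x3_o p3 h34 h35, x2_3]
  have x'_4 : x' p4 = p4 := by rw [x'_o p4 h04.symm h45, x3_4]
  have x'_g : ∀ r, r ≠ p0 → r ≠ p1 → r ≠ p2 → r ≠ p3 → r ≠ p4 → r ≠ p5 → x' r = x r :=
    fun r a0 a1 a2 a3 a4 a5 => by rw [x'_o r a0 a5, x3_o r a4 a5, x2_o r a2 a3, x1_o r a0 a1]
  -- y chain
  obtain ⟨y1, hy1d⟩ : ∃ y1 : Perm α, y1 = y * swap p1 p2 := ⟨_, rfl⟩
  have y1_1 : y1 p1 = p1 := by rw [hy1d, ms_l, hy2]
  have y1_2 : y1 p2 = p2 := by rw [hy1d, ms_r, hy1]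
  have y1_o : ∀ r, r ≠ p1 → r ≠ p2 → y1 r = y r := fun r a b => by rw [hy1d, ms_o y a b]
  have y1_sq : y1 * y1 = 1 := by rw [hy1d]; exact sq_rem hc.y2 hy1
  have y1_c : y.support.card = y1.support.card + 2 := by
    have := card_add y1 h12 y1_1 y1_2
    rwa [hy1d, mul_swap_cancel, ← hy1d] at this
  obtain ⟨y', hy'd⟩ : ∃ y' : Perm α, y' = y1 * swap p3 p4 := ⟨_, rfl⟩
  have y1_3 : y1 p3 = p4 := by rw [y1_o p3 h13.symm h23.symm, hy3]
  have y1_4 : y1 p4 = p3 := by rw [y1_o p4 h14.symm h24.symm, hy4]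
  have y'_3 : y' p3 = p3 := by rw [hy'd, ms_l, y1_4]
  have y'_4 : y' p4 = p4 := by rw [hy'd, ms_r, y1_3]
  have y'_o : ∀ r, r ≠ p3 → r ≠ p4 → y' r = y1 r := fun r a b => by rw [hy'd, ms_o y1 a b]
  have y'_sq : y' * y' = 1 := by rw [hy'd]; exact sq_rem y1_sq y1_3
  have y'_c : y1.support.card = y'.support.card + 2 := by
    have := card_add y' h34 y'_3 y'_4
    rwa [hy'd, mul_swap_cancel, ← hy'd] at this
  have y'_1 : y' p1 = p1 := by rw [y'_o p1 h13 h14, y1_1]
  have y'_2 : y' p2 = p2 := by rw [y'_o p2 h23 h24, y1_2]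
  have y'_g : ∀ r, r ≠ p1 → r ≠ p2 → r ≠ p3 → r ≠ p4 → y' r = y r :=
    fun r a1 a2 a3 a4 => by rw [y'_o r a3 a4, y1_o r a1 a2]
  -- the reduced configuration
  obtain ⟨T, hTd⟩ : ∃ T : Finset α, T = {p1, p2, p3, p4} := ⟨_, rfl⟩
  have hT : ∀ r, r ∉ T ↔ (r ≠ p1 ∧ r ≠ p2 ∧ r ≠ p3 ∧ r ≠ p4) := fun r => by
    rw [hTd]; exact not_mem4
  have hT1 : p1 ∈ T := by rw [hTd]; simp
  have hT2 : p2 ∈ T := by rw [hTd]; simp
  have hT3 : p3 ∈ T := by rw [hTd]; simp
  have hT4 : p4 ∈ T := by rw [hTd]; simp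
  have hc' : Cfg (s \ T) x' y' := by
    refine ⟨x'_sq, y'_sq, ?_, ?_, ?_⟩
    · intro p hp
      have a1 : p ≠ p1 := fun h => hp (by rw [h]; exact x'_1)
      have a2 : p ≠ p2 := fun h => hp (by rw [h]; exact x'_2)
      have a3 : p ≠ p3 := fun h => hp (by rw [h]; exact x'_3)
      have a4 : p ≠ p4 := fun h => hp (by rw [h]; exact x'_4)
      refine Finset.mem_sdiff.2 ⟨?_, (hT p).2 ⟨a1, a2, a3, a4⟩⟩
      by_cases a0 : p = p0
      · rw [a0]; exact m0
      by_cases a5 : p = p5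
      · rw [a5]; exact m5
      rw [x'_g p a0 a1 a2 a3 a4 a5] at hp
      exact hc.xs p hp
    · intro p hp
      have a1 : p ≠ p1 := fun h => hp (by rw [h]; exact y'_1)
      have a2 : p ≠ p2 := fun h => hp (by rw [h]; exact y'_2)
      have a3 : p ≠ p3 := fun h => hp (by rw [h]; exact y'_3)
      have a4 : p ≠ p4 := fun h => hp (by rw [h]; exact y'_4)
      rw [y'_g p a1 a2 a3 a4] at hp
      exact Finset.mem_sdiff.2 ⟨hc.ys p hp, (hT p).2 ⟨a1, a2, a3, a4⟩⟩
    · have := hc.card; omega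
  have hlt : (s \ T).card < s.card := by
    apply Finset.card_lt_card
    refine Finset.sdiff_ssubset ?_ ⟨p1, hT1⟩
    intro r hr
    rw [hTd] at hr
    simp only [Finset.mem_insert, Finset.mem_singleton] at hr
    rcases hr with h | h | h | h <;> rw [h] <;> assumption
  have m0' : p0 ∈ s \ T := Finset.mem_sdiff.2 ⟨m0, (hT p0).2 ⟨h01, h02, h03, h04⟩⟩
  rcases IH _ _ _ hlt hc' with ⟨z', hz2, hzs, hzc, ho1, ho2⟩ | hbad
  · -- lifting
    have hz := inv_apply hz2
    have hzT : ∀ r, r ∈ T → z' r = r := by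
      intro r hr
      by_contra h
      exact (Finset.mem_sdiff.1 (hzs r h)).2 hr
    have z'_1 : z' p1 = p1 := hzT p1 hT1
    have z'_2 : z' p2 = p2 := hzT p2 hT2
    have z'_3 : z' p3 = p3 := hzT p3 hT3
    have z'_4 : z' p4 = p4 := hzT p4 hT4
    obtain ⟨z1, hz1d⟩ : ∃ z1 : Perm α, z1 = z' * swap p1 p2 := ⟨_, rfl⟩
    have z1_1 : z1 p1 = p2 := by rw [hz1d, ms_l, z'_2]
    have z1_2 : z1 p2 = p1 := by rw [hz1d, ms_r, z'_1]
    have z1_o : ∀ r, r ≠ p1 → r ≠ p2 → z1 r = z' r := fun r a b => by rw [hz1d, ms_o z' a b]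
    have z1_sq : z1 * z1 = 1 := by rw [hz1d]; exact sq_add hz2 z'_1 z'_2
    have z1_c : z1.support.card = z'.support.card + 2 := by
      rw [hz1d]; exact card_add z' h12 z'_1 z'_2
    have z1_3 : z1 p3 = p3 := by rw [z1_o p3 h13.symm h23.symm, z'_3]
    have z1_4 : z1 p4 = p4 := by rw [z1_o p4 h14.symm h24.symm, z'_4]
    obtain ⟨z, hzd⟩ : ∃ z : Perm α, z = z1 * swap p3 p4 := ⟨_, rfl⟩
    have z_3 : z p3 = p4 := by rw [hzd, ms_l, z1_4]
    have z_4 : z p4 = p3 := by rw [hzd, ms_r, z1_3]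
    have z_o : ∀ r, r ≠ p3 → r ≠ p4 → z r = z1 r := fun r a b => by rw [hzd, ms_o z1 a b]
    have z_sq : z * z = 1 := by rw [hzd]; exact sq_add z1_sq z1_3 z1_4
    have z_c : z.support.card = z1.support.card + 2 := by
      rw [hzd]; exact card_add z1 h34 z1_3 z1_4
    have z_1 : z p1 = p2 := by rw [z_o p1 h13 h14, z1_1]
    have z_2 : z p2 = p1 := by rw [z_o p2 h23 h24, z1_2]
    have z_g : ∀ r, r ≠ p1 → r ≠ p2 → r ≠ p3 → r ≠ p4 → z r = z' r :=
      fun r a1 a2 a3 a4 => by rw [z_o r a3 a4, z1_o r a1 a2]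
    refine ⟨z, z_sq, ?_, ?_, ?_, ?_⟩
    · intro p hp
      by_cases a1 : p = p1
      · rw [a1]; exact m1
      by_cases a2 : p = p2
      · rw [a2]; exact m2
      by_cases a3 : p = p3
      · rw [a3]; exact m3
      by_cases a4 : p = p4
      · rw [a4]; exact m4
      rw [z_g p a1 a2 a3 a4] at hp
      exact (Finset.mem_sdiff.1 (hzs p hp)).1
    · omega
    · have q0_1 : z' p0 ≠ p1 := fun h => h01 (by rw [← hz p0, h, z'_1])
      have q0_2 : z' p0 ≠ p2 := fun h => h02 (by rw [← hz p0, h, z'_2])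
      have q0_3 : z' p0 ≠ p3 := fun h => h03 (by rw [← hz p0, h, z'_3])
      have q0_4 : z' p0 ≠ p4 := fun h => h04 (by rw [← hz p0, h, z'_4])
      have q5_1 : z' p5 ≠ p1 := fun h => h15 (by rw [← hz p5, h, z'_1])
      have q5_2 : z' p5 ≠ p2 := fun h => h25 (by rw [← hz p5, h, z'_2])
      have q5_3 : z' p5 ≠ p3 := fun h => h35 (by rw [← hz p5, h, z'_3])
      have q5_4 : z' p5 ≠ p4 := fun h => h45 (by rw [← hz p5, h, z'_4])
      have q05 : z' p0 ≠ z' p5 := fun h => h05 (z'.injective h)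
      refine ins2 (x' * z') (x * z) p1 p3 (z' p0) p4 p2 (z' p5)
        h13 q0_1 q0_3 h24.symm q5_4 q5_2 h14 h12 h34 h23.symm q05 q0_4 q0_2 q5_1 q5_3
        ?_ ?_ ?_ ?_ ?_ ?_ ?_ ?_ ?_ ?_ ?_ ho1
      · rw [Equiv.Perm.mul_apply, z'_1, x'_1]
      · rw [Equiv.Perm.mul_apply, z'_3, x'_3]
      · rw [Equiv.Perm.mul_apply, z'_4, x'_4]
      · rw [Equiv.Perm.mul_apply, z'_2, x'_2]
      · rw [Equiv.Perm.mul_apply, z_g _ q0_1 q0_2 q0_3 q0_4, hz, hx0]
      · rw [Equiv.Perm.mul_apply, z_1, hx2]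
      · rw [Equiv.Perm.mul_apply, z_3, hx4, Equiv.Perm.mul_apply, hz, x'_0]
      · rw [Equiv.Perm.mul_apply, z_g _ q5_1 q5_2 q5_3 q5_4, hz, hx5]
      · rw [Equiv.Perm.mul_apply, z_4, hx3]
      · rw [Equiv.Perm.mul_apply, z_2, hx1, Equiv.Perm.mul_apply, hz, x'_5]
      · intro p a1 a3 aq0 a4 a2 aq5
        rw [Equiv.Perm.mul_apply, z_g p a1 a2 a3 a4, Equiv.Perm.mul_apply]
        have b0 : z' p ≠ p0 := fun h => aq0 (by rw [← h, hz])
        have b5 : z' p ≠ p5 := fun h => aq5 (by rw [← h, hz])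
        have b1 : z' p ≠ p1 := fun h => a1 (by rw [← hz p, h, z'_1])
        have b2 : z' p ≠ p2 := fun h => a2 (by rw [← hz p, h, z'_2])
        have b3 : z' p ≠ p3 := fun h => a3 (by rw [← hz p, h, z'_3])
        have b4 : z' p ≠ p4 := fun h => a4 (by rw [← hz p, h, z'_4])
        rw [x'_g _ b0 b1 b2 b3 b4 b5]
    · have : y * z = y' * z' := by
        ext p
        rw [Equiv.Perm.mul_apply, Equiv.Perm.mul_apply]
        by_cases a1 : p = p1
        · rw [a1, z_1, hy2, z'_1, y'_1]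
        by_cases a2 : p = p2
        · rw [a2, z_2, hy1, z'_2, y'_2]
        by_cases a3 : p = p3
        · rw [a3, z_3, hy4, z'_3, y'_3]
        by_cases a4 : p = p4
        · rw [a4, z_4, hy3, z'_4, y'_4]
        have b1 : z' p ≠ p1 := fun h => a1 (by rw [← hz p, h, z'_1])
        have b2 : z' p ≠ p2 := fun h => a2 (by rw [← hz p, h, z'_2])
        have b3 : z' p ≠ p3 := fun h => a3 (by rw [← hz p, h, z'_3])
        have b4 : z' p ≠ p4 := fun h => a4 (by rw [← hz p, h, z'_4])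
        rw [z_g p a1 a2 a3 a4, y'_g _ b1 b2 b3 b4]
      rw [this]; exact ho2
  · -- the 8-cycle
    obtain ⟨n1, n2, n3, n4, n5, n6, hs', hyh⟩ := bad4_at hbad x'_sq y'_sq p0 m0'
    rw [x'_0] at n1 n2 n3 n4 n5 n6 hs' hyh
    obtain ⟨g, hg⟩ : ∃ g, y' p5 = g := ⟨_, rfl⟩
    rw [hg] at n2 n3 n4 n5 n6 hs' hyh
    obtain ⟨h, hh⟩ : ∃ h, x' g = h := ⟨_, rfl⟩
    rw [hh] at n3 n5 n6 hs' hyh
    have mg : g ∈ s \ T := by rw [hs']; simp
    have mh : h ∈ s \ T := by rw [hs']; simp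
    obtain ⟨g1, g2, g3, g4⟩ := (hT g).1 (Finset.mem_sdiff.1 mg).2
    obtain ⟨k1, k2, k3, k4⟩ := (hT h).1 (Finset.mem_sdiff.1 mh).2
    have hxg : x g = h := by rw [← x'_g g n2.symm g1 g2 g3 g4 n4.symm, hh]
    have hxh : x h = g := inv_eq hc.x2 hxg
    have hy5 : y p5 = g := by rw [← y'_g p5 h15.symm h25.symm h35.symm h45.symm, hg]
    have hyg : y g = p5 := inv_eq hc.y2 hy5
    have hyh' : y h = p0 := by rw [← y'_g h k1 k2 k3 k4, hyh]
    have hy0 : y p0 = h := inv_eq hc.y2 hyh'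
    have hso : ∀ p, p ≠ p0 → p ≠ p1 → p ≠ p2 → p ≠ p3 → p ≠ p4 → p ≠ p5 → p ≠ g → p ≠ h →
        x p = p ∧ y p = p := by
      intro p a0 a1 a2 a3 a4 a5 a6 a7
      have hps : p ∉ s \ T := by rw [hs']; exact not_mem4.2 ⟨a0, a5, a6, a7⟩
      constructor
      · by_contra hx; exact hps (hc'.xs p (by rw [x'_g p a0 a1 a2 a3 a4 a5]; exact hx))
      · by_contra hy; exact hps (hc'.ys p (by rw [y'_g p a1 a2 a3 a4]; exact hy))
    have mgs : g ∈ s := (Finset.mem_sdiff.1 mg).1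
    have mhs : h ∈ s := (Finset.mem_sdiff.1 mh).1
    have hf : Function.Injective ![p0, p1, p2, p3, p4, p5, g, h] := by
      intro i j hij
      fin_cases i <;> fin_cases j <;>
        first
        | rfl
        | (exfalso
           simp at hij
           first
           | exact absurd hij (by assumption)
           | exact absurd hij.symm (by assumption))
    refine explicit ![p0, p1, p2, p3, p4, p5, g, h] hf X8 Y8b Z8b C8b x y ?_ ?_ ?_ ?_
      Z8b_sq C8b_conj 3 3 (by decide) (by decide) XZ8b YZ8b s ?_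
    · intro i; rw [X8_tab]; fin_cases i <;> simp <;> assumption
    · intro p hp
      exact (hso p (hp 0) (hp 1) (hp 2) (hp 3) (hp 4) (hp 5) (hp 6) (hp 7)).1
    · intro i; rw [Y8b_tab]; fin_cases i <;> simp <;> assumption
    · intro p hp
      exact (hso p (hp 0) (hp 1) (hp 2) (hp 3) (hp 4) (hp 5) (hp 6) (hp 7)).2
    · intro i; fin_cases i <;> simp <;> assumption

theorem red_four (s : Finset α) (x y : Perm α) (hc : Cfg s x y)
    (IH : ∀ (s' : Finset α) (x' y' : Perm α), s'.card < s.card → Cfg s' x' y' →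
      Q s' x' y' ∨ Bad4 s' x' y')
    (a0 : α) (h4 : FourCyc x y a0) : Q s x y ∨ Bad4 s x y := by
  obtain ⟨f1, f2, f3, f5⟩ := h4
  obtain ⟨a1, ha1⟩ : ∃ a1, x a0 = a1 := ⟨_, rfl⟩
  rw [ha1] at f1 f2 f3 f5
  obtain ⟨a2, ha2⟩ : ∃ a2, y a1 = a2 := ⟨_, rfl⟩
  rw [ha2] at f2 f3 f5
  obtain ⟨a3, ha3⟩ : ∃ a3, x a2 = a3 := ⟨_, rfl⟩
  rw [ha3] at f5
  have hx0 : x a0 = a1 := ha1
  have hx1 : x a1 = a0 := inv_eq hc.x2 ha1
  have hx2 : x a2 = a3 := ha3
  have hx3 : x a3 = a2 := inv_eq hc.x2 ha3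
  have hy1 : y a1 = a2 := ha2
  have hy2 : y a2 = a1 := inv_eq hc.y2 ha2
  have hy3 : y a3 = a0 := f5
  have hy0 : y a0 = a3 := inv_eq hc.y2 f5
  have h01 : a0 ≠ a1 := f1.symm
  have h02 : a0 ≠ a2 := f2.symm
  have h12 : a1 ≠ a2 := f3.symm
  have h03 : a0 ≠ a3 := fun h => h12 (by rw [← hx0, h, hx3])
  have h13 : a1 ≠ a3 := fun h => h02 (by rw [← hx1, h, hx3])
  have h23 : a2 ≠ a3 := fun h => h01 (by rw [← hy3, ← h, hy2])
  have m0 : a0 ∈ s := hc.xs a0 (by rw [hx0]; exact h01.symm)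
  have m1 : a1 ∈ s := hc.xs a1 (by rw [hx1]; exact h01)
  have m2 : a2 ∈ s := hc.xs a2 (by rw [hx2]; exact h23.symm)
  have m3 : a3 ∈ s := hc.xs a3 (by rw [hx3]; exact h23)
  -- x chain
  obtain ⟨x1, hx1d⟩ : ∃ x1 : Perm α, x1 = x * swap a0 a1 := ⟨_, rfl⟩
  have x1_0 : x1 a0 = a0 := by rw [hx1d, ms_l, hx1]
  have x1_1 : x1 a1 = a1 := by rw [hx1d, ms_r, hx0]
  have x1_o : ∀ r, r ≠ a0 → r ≠ a1 → x1 r = x r := fun r a b => by rw [hx1d, ms_o x a b]
  have x1_sq : x1 * x1 = 1 := by rw [hx1d]; exact sq_rem hc.x2 hx0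
  have x1_c : x.support.card = x1.support.card + 2 := by
    have := card_add x1 h01 x1_0 x1_1
    rwa [hx1d, mul_swap_cancel, ← hx1d] at this
  obtain ⟨xr, hxrd⟩ : ∃ xr : Perm α, xr = x1 * swap a2 a3 := ⟨_, rfl⟩
  have x1_2 : x1 a2 = a3 := by rw [x1_o a2 h02.symm h12.symm, hx2]
  have x1_3 : x1 a3 = a2 := by rw [x1_o a3 h03.symm h13.symm, hx3]
  have xr_2 : xr a2 = a2 := by rw [hxrd, ms_l, x1_3]
  have xr_3 : xr a3 = a3 := by rw [hxrd, ms_r, x1_2]
  have xr_o : ∀ r, r ≠ a2 → r ≠ a3 → xr r = x1 r := fun r a b => by rw [hxrd, ms_o x1 a b]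
  have xr_sq : xr * xr = 1 := by rw [hxrd]; exact sq_rem x1_sq x1_2
  have xr_c : x1.support.card = xr.support.card + 2 := by
    have := card_add xr h23 xr_2 xr_3
    rwa [hxrd, mul_swap_cancel, ← hxrd] at this
  have xr_0 : xr a0 = a0 := by rw [xr_o a0 h02 h03, x1_0]
  have xr_1 : xr a1 = a1 := by rw [xr_o a1 h12 h13, x1_1]
  have xr_g : ∀ r, r ≠ a0 → r ≠ a1 → r ≠ a2 → r ≠ a3 → xr r = x r :=
    fun r b0 b1 b2 b3 => by rw [xr_o r b2 b3, x1_o r b0 b1]
  -- y chain
  obtain ⟨y1, hy1d⟩ : ∃ y1 : Perm α, y1 = y * swap a1 a2 := ⟨_, rfl⟩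
  have y1_1 : y1 a1 = a1 := by rw [hy1d, ms_l, hy2]
  have y1_2 : y1 a2 = a2 := by rw [hy1d, ms_r, hy1]
  have y1_o : ∀ r, r ≠ a1 → r ≠ a2 → y1 r = y r := fun r a b => by rw [hy1d, ms_o y a b]
  have y1_sq : y1 * y1 = 1 := by rw [hy1d]; exact sq_rem hc.y2 hy1
  have y1_c : y.support.card = y1.support.card + 2 := by
    have := card_add y1 h12 y1_1 y1_2
    rwa [hy1d, mul_swap_cancel, ← hy1d] at this
  obtain ⟨yr, hyrd⟩ : ∃ yr : Perm α, yr = y1 * swap a3 a0 := ⟨_, rfl⟩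
  have y1_3 : y1 a3 = a0 := by rw [y1_o a3 h13.symm h23.symm, hy3]
  have y1_0 : y1 a0 = a3 := by rw [y1_o a0 h01 h02, hy0]
  have yr_3 : yr a3 = a3 := by rw [hyrd, ms_l, y1_0]
  have yr_0 : yr a0 = a0 := by rw [hyrd, ms_r, y1_3]
  have yr_o : ∀ r, r ≠ a3 → r ≠ a0 → yr r = y1 r := fun r a b => by rw [hyrd, ms_o y1 a b]
  have yr_sq : yr * yr = 1 := by rw [hyrd]; exact sq_rem y1_sq y1_3
  have yr_c : y1.support.card = yr.support.card + 2 := by
    have := card_add yr h03.symm yr_3 yr_0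
    rwa [hyrd, mul_swap_cancel, ← hyrd] at this
  have yr_1 : yr a1 = a1 := by rw [yr_o a1 h13 h01.symm, y1_1]
  have yr_2 : yr a2 = a2 := by rw [yr_o a2 h23 h02.symm, y1_2]
  have yr_g : ∀ r, r ≠ a0 → r ≠ a1 → r ≠ a2 → r ≠ a3 → yr r = y r :=
    fun r b0 b1 b2 b3 => by rw [yr_o r b3 b0, y1_o r b1 b2]
  -- reduced configuration
  obtain ⟨T, hTd⟩ : ∃ T : Finset α, T = {a0, a1, a2, a3} := ⟨_, rfl⟩
  have hT : ∀ r, r ∉ T ↔ (r ≠ a0 ∧ r ≠ a1 ∧ r ≠ a2 ∧ r ≠ a3) := fun r => by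
    rw [hTd]; exact not_mem4
  have hT0 : a0 ∈ T := by rw [hTd]; simp
  have hT1 : a1 ∈ T := by rw [hTd]; simp
  have hT2 : a2 ∈ T := by rw [hTd]; simp
  have hT3 : a3 ∈ T := by rw [hTd]; simp
  have hTs : T ⊆ s := by
    intro r hr
    rw [hTd] at hr
    simp only [Finset.mem_insert, Finset.mem_singleton] at hr
    rcases hr with h | h | h | h <;> rw [h] <;> assumption
  have hc' : Cfg (s \ T) xr yr := by
    refine ⟨xr_sq, yr_sq, ?_, ?_, ?_⟩
    · intro p hp
      have b0 : p ≠ a0 := fun h => hp (by rw [h]; exact xr_0)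
      have b1 : p ≠ a1 := fun h => hp (by rw [h]; exact xr_1)
      have b2 : p ≠ a2 := fun h => hp (by rw [h]; exact xr_2)
      have b3 : p ≠ a3 := fun h => hp (by rw [h]; exact xr_3)
      rw [xr_g p b0 b1 b2 b3] at hp
      exact Finset.mem_sdiff.2 ⟨hc.xs p hp, (hT p).2 ⟨b0, b1, b2, b3⟩⟩
    · intro p hp
      have b0 : p ≠ a0 := fun h => hp (by rw [h]; exact yr_0)
      have b1 : p ≠ a1 := fun h => hp (by rw [h]; exact yr_1)
      have b2 : p ≠ a2 := fun h => hp (by rw [h]; exact yr_2)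
      have b3 : p ≠ a3 := fun h => hp (by rw [h]; exact yr_3)
      rw [yr_g p b0 b1 b2 b3] at hp
      exact Finset.mem_sdiff.2 ⟨hc.ys p hp, (hT p).2 ⟨b0, b1, b2, b3⟩⟩
    · have := hc.card; omega
  have hlt : (s \ T).card < s.card :=
    Finset.card_lt_card (Finset.sdiff_ssubset hTs ⟨a0, hT0⟩)
  by_cases hs2 : s \ T = ∅
  · right
    refine ⟨a0, a1, a2, a3, h01, h02, h03, h12, h13, h23, ?_, hx0, hx2, hy1, hy3⟩
    rw [← hTd]
    exact Finset.Subset.antisymm (Finset.sdiff_eq_empty_iff_subset.1 hs2) hTs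
  left
  rcases IH _ _ _ hlt hc' with ⟨z', hz2, hzs, hzc, ho1, ho2⟩ | hbad
  · have hz := inv_apply hz2
    have hzT : ∀ r, r ∈ T → z' r = r := by
      intro r hr
      by_contra h
      exact (Finset.mem_sdiff.1 (hzs r h)).2 hr
    have z'_0 : z' a0 = a0 := hzT a0 hT0
    have z'_1 : z' a1 = a1 := hzT a1 hT1
    have z'_2 : z' a2 = a2 := hzT a2 hT2
    have z'_3 : z' a3 = a3 := hzT a3 hT3
    by_cases hz1 : ∃ c, z' c ≠ c
    · -- attach the 4-cycle along the edge {c, d} of z'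
      obtain ⟨c, hcm⟩ := hz1
      obtain ⟨d, hd⟩ : ∃ d, z' c = d := ⟨_, rfl⟩
      have hdc : z' d = c := inv_eq hz2 hd
      have hcd : c ≠ d := by rw [← hd]; exact fun h => hcm h.symm
      have mc : c ∈ s \ T := hzs c hcm
      have md : d ∈ s \ T := hzs d (by rw [hdc]; exact hcd)
      obtain ⟨c0, c1, c2, c3⟩ := (hT c).1 (Finset.mem_sdiff.1 mc).2
      obtain ⟨d0, d1, d2, d3⟩ := (hT d).1 (Finset.mem_sdiff.1 md).2
      obtain ⟨z3, hz3d⟩ : ∃ z3 : Perm α, z3 = z' * swap c d := ⟨_, rfl⟩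
      have z3_c : z3 c = c := by rw [hz3d, ms_l, hdc]
      have z3_d : z3 d = d := by rw [hz3d, ms_r, hd]
      have z3_o : ∀ r, r ≠ c → r ≠ d → z3 r = z' r := fun r a b => by rw [hz3d, ms_o z' a b]
      have z3_sq : z3 * z3 = 1 := by rw [hz3d]; exact sq_rem hz2 hd
      have z3_cd : z'.support.card = z3.support.card + 2 := by
        have := card_add z3 hcd z3_c z3_d
        rwa [hz3d, mul_swap_cancel, ← hz3d] at this
      have z3_0 : z3 a0 = a0 := by rw [z3_o a0 c0.symm d0.symm, z'_0]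
      obtain ⟨z4, hz4d⟩ : ∃ z4 : Perm α, z4 = z3 * swap a0 c := ⟨_, rfl⟩
      have z4_0 : z4 a0 = c := by rw [hz4d, ms_l, z3_c]
      have z4_c : z4 c = a0 := by rw [hz4d, ms_r, z3_0]
      have z4_o : ∀ r, r ≠ a0 → r ≠ c → z4 r = z3 r := fun r a b => by rw [hz4d, ms_o z3 a b]
      have z4_sq : z4 * z4 = 1 := by rw [hz4d]; exact sq_add z3_sq z3_0 z3_c
      have z4_cd : z4.support.card = z3.support.card + 2 := by
        rw [hz4d]; exact card_add z3 c0.symm z3_0 z3_c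
      have z4_2 : z4 a2 = a2 := by rw [z4_o a2 h02.symm c2.symm, z3_o a2 c2.symm d2.symm, z'_2]
      have z4_d : z4 d = d := by rw [z4_o d d0 hcd.symm, z3_d]
      obtain ⟨z5, hz5d⟩ : ∃ z5 : Perm α, z5 = z4 * swap a2 d := ⟨_, rfl⟩
      have z5_2 : z5 a2 = d := by rw [hz5d, ms_l, z4_d]
      have z5_d : z5 d = a2 := by rw [hz5d, ms_r, z4_2]
      have z5_o : ∀ r, r ≠ a2 → r ≠ d → z5 r = z4 r := fun r a b => by rw [hz5d, ms_o z4 a b]
      have z5_sq : z5 * z5 = 1 := by rw [hz5d]; exact sq_add z4_sq z4_2 z4_d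
      have z5_cd : z5.support.card = z4.support.card + 2 := by
        rw [hz5d]; exact card_add z4 d2.symm z4_2 z4_d
      have z5_1 : z5 a1 = a1 := by
        rw [z5_o a1 h12 d1.symm, z4_o a1 h01.symm c1.symm, z3_o a1 c1.symm d1.symm, z'_1]
      have z5_3 : z5 a3 = a3 := by
        rw [z5_o a3 h23.symm d3.symm, z4_o a3 h03.symm c3.symm, z3_o a3 c3.symm d3.symm, z'_3]
      obtain ⟨z, hzd⟩ : ∃ z : Perm α, z = z5 * swap a1 a3 := ⟨_, rfl⟩
      have z_1 : z a1 = a3 := by rw [hzd, ms_l, z5_3]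
      have z_3 : z a3 = a1 := by rw [hzd, ms_r, z5_1]
      have z_o : ∀ r, r ≠ a1 → r ≠ a3 → z r = z5 r := fun r a b => by rw [hzd, ms_o z5 a b]
      have z_sq : z * z = 1 := by rw [hzd]; exact sq_add z5_sq z5_1 z5_3
      have z_cd : z.support.card = z5.support.card + 2 := by
        rw [hzd]; exact card_add z5 h13 z5_1 z5_3
      have z_0 : z a0 = c := by rw [z_o a0 h01 h03, z5_o a0 h02 d0.symm, z4_0]
      have z_c : z c = a0 := by rw [z_o c c1 c3, z5_o c c2 hcd, z4_c]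
      have z_2 : z a2 = d := by rw [z_o a2 h12.symm h23, z5_2]
      have z_d : z d = a2 := by rw [z_o d d1 d3, z5_d]
      have z_g : ∀ r, r ≠ a0 → r ≠ a1 → r ≠ a2 → r ≠ a3 → r ≠ c → r ≠ d → z r = z' r :=
        fun r b0 b1 b2 b3 bc bd => by
          rw [z_o r b1 b3, z5_o r b2 bd, z4_o r b0 bc, z3_o r bc bd]
      refine ⟨z, z_sq, ?_, ?_, ?_, ?_⟩
      · intro p hp
        by_cases b0 : p = a0
        · rw [b0]; exact m0
        by_cases b1 : p = a1
        · rw [b1]; exact m1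
        by_cases b2 : p = a2
        · rw [b2]; exact m2
        by_cases b3 : p = a3
        · rw [b3]; exact m3
        by_cases bc : p = c
        · rw [bc]; exact (Finset.mem_sdiff.1 mc).1
        by_cases bd : p = d
        · rw [bd]; exact (Finset.mem_sdiff.1 md).1
        rw [z_g p b0 b1 b2 b3 bc bd] at hp
        exact (Finset.mem_sdiff.1 (hzs p hp)).1
      · omega
      · refine ins2 (xr * z') (x * z) a1 a2 c a3 a0 d
          h12 c1 c2 h03.symm d3 d0 h13 h01.symm h23 h02.symm hcd c3 c0 d1 d2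
          ?_ ?_ ?_ ?_ ?_ ?_ ?_ ?_ ?_ ?_ ?_ ho1
        · rw [Equiv.Perm.mul_apply, z'_1, xr_1]
        · rw [Equiv.Perm.mul_apply, z'_2, xr_2]
        · rw [Equiv.Perm.mul_apply, z'_3, xr_3]
        · rw [Equiv.Perm.mul_apply, z'_0, xr_0]
        · rw [Equiv.Perm.mul_apply, z_c, hx0]
        · rw [Equiv.Perm.mul_apply, z_1, hx3]
        · rw [Equiv.Perm.mul_apply, z_2, Equiv.Perm.mul_apply, hd, xr_g d d0 d1 d2 d3]
        · rw [Equiv.Perm.mul_apply, z_d, hx2]
        · rw [Equiv.Perm.mul_apply, z_3, hx1]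
        · rw [Equiv.Perm.mul_apply, z_0, Equiv.Perm.mul_apply, hdc, xr_g c c0 c1 c2 c3]
        · intro p b1 b2 bc b3 b0 bd
          rw [Equiv.Perm.mul_apply, z_g p b0 b1 b2 b3 bc bd, Equiv.Perm.mul_apply]
          have e0 : z' p ≠ a0 := fun h => b0 (by rw [← hz p, h, z'_0])
          have e1 : z' p ≠ a1 := fun h => b1 (by rw [← hz p, h, z'_1])
          have e2 : z' p ≠ a2 := fun h => b2 (by rw [← hz p, h, z'_2])
          have e3 : z' p ≠ a3 := fun h => b3 (by rw [← hz p, h, z'_3])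
          rw [xr_g _ e0 e1 e2 e3]
      · refine ins2 (yr * z') (y * z) a3 a2 c a1 a0 d
          h23.symm c3 c2 h01.symm d1 d0 h13.symm h03.symm h12.symm h02.symm hcd c1 c0 d3 d2
          ?_ ?_ ?_ ?_ ?_ ?_ ?_ ?_ ?_ ?_ ?_ ho2
        · rw [Equiv.Perm.mul_apply, z'_3, yr_3]
        · rw [Equiv.Perm.mul_apply, z'_2, yr_2]
        · rw [Equiv.Perm.mul_apply, z'_1, yr_1]
        · rw [Equiv.Perm.mul_apply, z'_0, yr_0]
        · rw [Equiv.Perm.mul_apply, z_c, hy0]
        · rw [Equiv.Perm.mul_apply, z_3, hy1]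
        · rw [Equiv.Perm.mul_apply, z_2, Equiv.Perm.mul_apply, hd, yr_g d d0 d1 d2 d3]
        · rw [Equiv.Perm.mul_apply, z_d, hy2]
        · rw [Equiv.Perm.mul_apply, z_1, hy3]
        · rw [Equiv.Perm.mul_apply, z_0, Equiv.Perm.mul_apply, hdc, yr_g c c0 c1 c2 c3]
        · intro p b3 b2 bc b1 b0 bd
          rw [Equiv.Perm.mul_apply, z_g p b0 b1 b2 b3 bc bd, Equiv.Perm.mul_apply]
          have e0 : z' p ≠ a0 := fun h => b0 (by rw [← hz p, h, z'_0])
          have e1 : z' p ≠ a1 := fun h => b1 (by rw [← hz p, h, z'_1])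
          have e2 : z' p ≠ a2 := fun h => b2 (by rw [← hz p, h, z'_2])
          have e3 : z' p ≠ a3 := fun h => b3 (by rw [← hz p, h, z'_3])
          rw [yr_g _ e0 e1 e2 e3]
    · -- z' = 1: the rest consists of common fixed points
      push Not at hz1
      have hz0 : z'.support.card = 0 := by
        rw [Finset.card_eq_zero, Equiv.Perm.support_eq_empty_iff]
        ext p; simpa using hz1 p
      have hxr1 : xr = 1 := by
        rw [← Equiv.Perm.support_eq_empty_iff, ← Finset.card_eq_zero]; omega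
      have hyr1 : yr = 1 := by
        rw [← Equiv.Perm.support_eq_empty_iff, ← Finset.card_eq_zero]
        have := hc'.card; omega
      have hxo : ∀ r, r ≠ a0 → r ≠ a1 → r ≠ a2 → r ≠ a3 → x r = r := fun r b0 b1 b2 b3 => by
        rw [← xr_g r b0 b1 b2 b3, hxr1]; rfl
      have hyo : ∀ r, r ≠ a0 → r ≠ a1 → r ≠ a2 → r ≠ a3 → y r = r := fun r b0 b1 b2 b3 => by
        rw [← yr_g r b0 b1 b2 b3, hyr1]; rfl
      obtain ⟨w, hw⟩ := Finset.nonempty_iff_ne_empty.2 hs2
      obtain ⟨w0, w1, w2, w3⟩ := (hT w).1 (Finset.mem_sdiff.1 hw).2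
      have mws : w ∈ s := (Finset.mem_sdiff.1 hw).1
      have hxw : x w = w := hxo w w0 w1 w2 w3
      have hyw : y w = w := hyo w w0 w1 w2 w3
      have hf : Function.Injective ![a0, a1, a2, a3, w] := by
        intro i j hij
        fin_cases i <;> fin_cases j <;>
          first
          | rfl
          | (exfalso
             simp at hij
             first
             | exact absurd hij (by assumption)
             | exact absurd hij.symm (by assumption))
      refine explicit ![a0, a1, a2, a3, w] hf X5 Y5 Z5 C5 x y ?_ ?_ ?_ ?_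
        Z5_sq C5_conj 5 3 (by decide) (by decide) XZ5 YZ5 s ?_
      · intro i; rw [X5_tab]; fin_cases i <;> simp <;> assumption
      · intro p hp
        exact hxo p (hp 0) (hp 1) (hp 2) (hp 3)
      · intro i; rw [Y5_tab]; fin_cases i <;> simp <;> assumption
      · intro p hp
        exact hyo p (hp 0) (hp 1) (hp 2) (hp 3)
      · intro i; fin_cases i <;> simp <;> assumption
  · -- two 4-cycles
    obtain ⟨b0, b1, b2, b3, e01, e02, e03, e12, e13, e23, hs', hxb0, hxb2, hyb1, hyb3⟩ := hbad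
    have hxb1 := inv_eq xr_sq hxb0
    have hxb3 := inv_eq xr_sq hxb2
    have hyb2 := inv_eq yr_sq hyb1
    have hyb0 := inv_eq yr_sq hyb3
    have mb0 : b0 ∈ s \ T := by rw [hs']; simp
    have mb1 : b1 ∈ s \ T := by rw [hs']; simp
    have mb2 : b2 ∈ s \ T := by rw [hs']; simp
    have mb3 : b3 ∈ s \ T := by rw [hs']; simp
    obtain ⟨u00, u01, u02, u03⟩ := (hT b0).1 (Finset.mem_sdiff.1 mb0).2
    obtain ⟨u10, u11, u12, u13⟩ := (hT b1).1 (Finset.mem_sdiff.1 mb1).2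
    obtain ⟨u20, u21, u22, u23⟩ := (hT b2).1 (Finset.mem_sdiff.1 mb2).2
    obtain ⟨u30, u31, u32, u33⟩ := (hT b3).1 (Finset.mem_sdiff.1 mb3).2
    have mb0s : b0 ∈ s := (Finset.mem_sdiff.1 mb0).1
    have mb1s : b1 ∈ s := (Finset.mem_sdiff.1 mb1).1
    have mb2s : b2 ∈ s := (Finset.mem_sdiff.1 mb2).1
    have mb3s : b3 ∈ s := (Finset.mem_sdiff.1 mb3).1
    have kx0 : x b0 = b1 := by rw [← xr_g b0 u00 u01 u02 u03, hxb0]
    have kx1 : x b1 = b0 := by rw [← xr_g b1 u10 u11 u12 u13, hxb1]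
    have kx2 : x b2 = b3 := by rw [← xr_g b2 u20 u21 u22 u23, hxb2]
    have kx3 : x b3 = b2 := by rw [← xr_g b3 u30 u31 u32 u33, hxb3]
    have ky0 : y b0 = b3 := by rw [← yr_g b0 u00 u01 u02 u03, hyb0]
    have ky1 : y b1 = b2 := by rw [← yr_g b1 u10 u11 u12 u13, hyb1]
    have ky2 : y b2 = b1 := by rw [← yr_g b2 u20 u21 u22 u23, hyb2]
    have ky3 : y b3 = b0 := by rw [← yr_g b3 u30 u31 u32 u33, hyb3]
    have hso : ∀ p, p ≠ a0 → p ≠ a1 → p ≠ a2 → p ≠ a3 → p ≠ b0 → p ≠ b1 → p ≠ b2 → p ≠ b3 →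
        x p = p ∧ y p = p := by
      intro p q0 q1 q2 q3 q4 q5 q6 q7
      have hps : p ∉ s \ T := by rw [hs']; exact not_mem4.2 ⟨q4, q5, q6, q7⟩
      constructor
      · by_contra hx; exact hps (hc'.xs p (by rw [xr_g p q0 q1 q2 q3]; exact hx))
      · by_contra hy; exact hps (hc'.ys p (by rw [yr_g p q0 q1 q2 q3]; exact hy))
    have hf : Function.Injective ![a0, a1, a2, a3, b0, b1, b2, b3] := by
      intro i j hij
      fin_cases i <;> fin_cases j <;>
        first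
        | rfl
        | (exfalso
           simp at hij
           first
           | exact absurd hij (by assumption)
           | exact absurd hij.symm (by assumption))
    refine explicit ![a0, a1, a2, a3, b0, b1, b2, b3] hf X8 Y8a Z8a C8a x y ?_ ?_ ?_ ?_
      Z8a_sq C8a_conj 3 3 (by decide) (by decide) XZ8a YZ8a s ?_
    · intro i; rw [X8_tab]; fin_cases i <;> simp <;> assumption
    · intro p hp
      exact (hso p (hp 0) (hp 1) (hp 2) (hp 3) (hp 4) (hp 5) (hp 6) (hp 7)).1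
    · intro i; rw [Y8a_tab]; fin_cases i <;> simp <;> assumption
    · intro p hp
      exact (hso p (hp 0) (hp 1) (hp 2) (hp 3) (hp 4) (hp 5) (hp 6) (hp 7)).2
    · intro i; fin_cases i <;> simp <;> assumption

theorem main_ind : ∀ (n : ℕ) (s : Finset α) (x y : Perm α), s.card = n → Cfg s x y →
    Q s x y ∨ Bad4 s x y := by
  intro n
  induction n using Nat.strong_induction_on with
  | _ n ih =>
    intro s x y hn hc
    have IH : ∀ (s' : Finset α) (x' y' : Perm α), s'.card < s.card → Cfg s' x' y' →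
        Q s' x' y' ∨ Bad4 s' x' y' :=
      fun s' x' y' h hc' => ih s'.card (hn ▸ h) s' x' y' rfl hc'
    by_cases h4 : ∃ a, FourCyc x y a
    · obtain ⟨a, ha⟩ := h4
      exact red_four s x y hc IH a ha
    push Not at h4
    left
    by_cases h0 : ∃ c ∈ s, x c = c ∧ y c = c
    · obtain ⟨c, hcs, hxc, hyc⟩ := h0
      exact red_iso s x y hc IH h4 c hcs hxc hyc
    by_cases hsupp : x.support = y.support
    · by_cases hs : s = ∅
      · have hx1 : x = 1 := by
          ext p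
          by_contra h
          have := hc.xs p h
          rw [hs] at this
          simp at this
        have hy1 : y = 1 := by
          ext p
          by_contra h
          have := hc.ys p h
          rw [hs] at this
          simp at this
        refine ⟨1, by simp, fun p hp => absurd rfl hp, by rw [hx1], ?_, ?_⟩
        · rw [hx1]; simp
        · rw [hy1]; simp
      · obtain ⟨a, has⟩ := Finset.nonempty_iff_ne_empty.2 hs
        have hmx : ∀ p ∈ s, x p ≠ p := by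
          intro p hp hxp
          apply h0
          refine ⟨p, hp, hxp, ?_⟩
          by_contra hyp
          have : p ∈ y.support := Equiv.Perm.mem_support.2 hyp
          rw [← hsupp] at this
          exact Equiv.Perm.mem_support.1 this hxp
        have hmy : ∀ p ∈ s, y p ≠ p := by
          intro p hp hyp
          have : p ∈ x.support := Equiv.Perm.mem_support.2 (hmx p hp)
          rw [hsupp] at this
          exact Equiv.Perm.mem_support.1 this hyp
        obtain ⟨b, hb⟩ : ∃ b, x a = b := ⟨_, rfl⟩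
        have hab : a ≠ b := by rw [← hb]; exact (hmx a has).symm
        have hxb : x b = a := inv_eq hc.x2 hb
        have hbs : b ∈ s := hc.xs b (by rw [hxb]; exact hab)
        obtain ⟨c, hcd⟩ : ∃ c, y b = c := ⟨_, rfl⟩
        have hbc : b ≠ c := by rw [← hcd]; exact (hmy b hbs).symm
        have hyc : y c = b := inv_eq hc.y2 hcd
        have hcs : c ∈ s := hc.ys c (by rw [hyc]; exact hbc)
        by_cases hca : c = a
        · rw [hca] at hcd
          exact red_dbl s x y hc IH h4 a b hab hb hcd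
        obtain ⟨d, hd⟩ : ∃ d, x c = d := ⟨_, rfl⟩
        have hcd' : c ≠ d := by rw [← hd]; exact (hmx c hcs).symm
        have hxd : x d = c := inv_eq hc.x2 hd
        have hds : d ∈ s := hc.xs d (by rw [hxd]; exact hcd')
        have hda : d ≠ a := fun h => hbc (by rw [← hb, ← h, hxd])
        have hdb : d ≠ b := fun h => hca (by rw [← hxd, h, hxb])
        obtain ⟨e, he⟩ : ∃ e, y d = e := ⟨_, rfl⟩
        have hde : d ≠ e := by rw [← he]; exact (hmy d hds).symm
        have hye : y e = d := inv_eq hc.y2 he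
        have hes : e ∈ s := hc.ys e (by rw [hye]; exact hde)
        have heb : e ≠ b := fun h => hcd' (by rw [← hcd, ← h, hye])
        have hec : e ≠ c := fun h => hdb (by rw [← hye, h, hyc])
        have hea : e ≠ a := by
          intro h
          apply h4 a
          refine ⟨?_, ?_, ?_, ?_⟩
          · rw [hb]; exact hab.symm
          · rw [hb, hcd]; exact hca
          · rw [hb, hcd]; exact hbc.symm
          · rw [hb, hcd, hd, he]; exact h
        obtain ⟨f, hf⟩ : ∃ f, x e = f := ⟨_, rfl⟩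
        have hef : e ≠ f := by rw [← hf]; exact (hmx e hes).symm
        have hxf : x f = e := inv_eq hc.x2 hf
        have hfa : f ≠ a := fun h => heb (by rw [← hxf, h, hb])
        have hfb : f ≠ b := fun h => hea (by rw [← hxf, h, hxb])
        have hfc : f ≠ c := fun h => hde.symm (by rw [← hxf, h, hd])
        have hfd : f ≠ d := fun h => hec (by rw [← hxf, h, hxd])
        exact red_long s x y hc IH a b c d e f hab (Ne.symm hca) hda.symm hea.symm hfa.symm
          hbc hdb.symm heb.symm hfb.symm hcd' hec.symm hfc.symm hde hfd.symm hef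
          hb hcd hd he hf
    · have h1 : ¬ x.support ⊆ y.support := fun h =>
        hsupp (Finset.eq_of_subset_of_card_le h (le_of_eq hc.card.symm))
      have h2 : ¬ y.support ⊆ x.support := fun h =>
        hsupp (Finset.eq_of_subset_of_card_le h (le_of_eq hc.card)).symm
      obtain ⟨v, hv1, hv2⟩ := Finset.not_subset.1 h1
      obtain ⟨w, hw1, hw2⟩ := Finset.not_subset.1 h2
      exact red_leaf s x y hc IH v w (Equiv.Perm.mem_support.1 hv1)
        (Equiv.Perm.notMem_support.1 hv2) (Equiv.Perm.mem_support.1 hw1)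
        (Equiv.Perm.notMem_support.1 hw2)

theorem cycleType_of_sq {σ : Perm α} (h : σ * σ = 1) :
    σ.cycleType = Multiset.replicate (σ.cycleType.card) 2 := by
  rw [Multiset.eq_replicate]
  refine ⟨rfl, fun n hn => ?_⟩
  have h1 : n ∣ orderOf σ := Equiv.Perm.dvd_of_mem_cycleType hn
  have h2 : orderOf σ ∣ 2 := orderOf_dvd_of_pow_eq_one (by rw [pow_two]; exact h)
  have h3 : 2 ≤ n := Equiv.Perm.two_le_of_mem_cycleType hn
  have h4 : n ∣ 2 := h1.trans h2
  have := Nat.le_of_dvd (by norm_num) h4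
  omega

theorem conj_of_card {σ τ : Perm α} (hσ : σ * σ = 1) (hτ : τ * τ = 1)
    (hc : σ.support.card = τ.support.card) : IsConj σ τ := by
  rw [Equiv.Perm.isConj_iff_cycleType_eq, cycleType_of_sq hσ, cycleType_of_sq hτ]
  congr 1
  have h1 := Equiv.Perm.sum_cycleType σ
  have h2 := Equiv.Perm.sum_cycleType τ
  rw [cycleType_of_sq hσ, Multiset.sum_replicate] at h1
  rw [cycleType_of_sq hτ, Multiset.sum_replicate] at h2
  simp only [smul_eq_mul, Multiset.card_replicate] at h1 h2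
  omega

end

theorem exists_z (n : ℕ) (hn : 5 ≤ n) (x y : Perm (Fin n)) (hx : x * x = 1) (hy : y * y = 1)
    (hcard : x.support.card = y.support.card) :
    ∃ z : Perm (Fin n), z * z = 1 ∧ z.support.card = x.support.card ∧
      Odd (orderOf (x * z)) ∧ Odd (orderOf (y * z)) := by
  have hc : Cfg (Finset.univ : Finset (Fin n)) x y :=
    ⟨hx, hy, fun _ _ => Finset.mem_univ _, fun _ _ => Finset.mem_univ _, hcard⟩
  rcases main_ind _ _ x y rfl hc with ⟨z, h1, _, h3, h4, h5⟩ | hbad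
  · exact ⟨z, h1, h3, h4, h5⟩
  · exfalso
    obtain ⟨a, b, c, d, _, _, _, _, _, _, hs, _⟩ := hbad
    have h1 : (Finset.univ : Finset (Fin n)).card ≤ 4 := by
      rw [hs]; exact Finset.card_le_four
    simp at h1
    omega

/-- a commuting conjugate different from `t` -/
theorem exists_far (n : ℕ) (hn : 5 ≤ n) (t : Perm (Fin n)) (ht : t * t = 1) (ht1 : t ≠ 1) :
    ∃ t' : Perm (Fin n), IsConj t t' ∧ t' ≠ t ∧ t * t' = t' * t := by
  have hti := inv_apply ht
  obtain ⟨a, ha⟩ : ∃ a, t a ≠ a := by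
    by_contra h
    push Not at h
    exact ht1 (Equiv.ext h)
  obtain ⟨b, hb⟩ : ∃ b, t a = b := ⟨_, rfl⟩
  have hab : a ≠ b := by rw [← hb]; exact ha.symm
  have htb : t b = a := inv_eq ht hb
  by_cases hc : ∃ c, c ≠ a ∧ c ≠ b ∧ t c ≠ c
  · obtain ⟨c, hca, hcb, hcc⟩ := hc
    obtain ⟨d, hd⟩ : ∃ d, t c = d := ⟨_, rfl⟩
    have hdc : d ≠ c := by rw [← hd]; exact hcc
    have htd : t d = c := inv_eq ht hd
    have hdb : d ≠ b := fun h => hca (by rw [← htd, h, htb])
    have hda : d ≠ a := fun h => hcb (by rw [← htd, h, hb])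
    have key : t * swap b c * t = swap a d := by
      rw [Equiv.mul_swap_eq_swap_mul, htb, hd, mul_assoc, ht, mul_one]
    have hcomm : swap b c * swap a d = swap a d * swap b c := by
      apply comm_fix
      · exact Equiv.swap_apply_of_ne_of_ne hab hca.symm
      · exact Equiv.swap_apply_of_ne_of_ne hdb hdc
    refine ⟨swap b c * t * (swap b c)⁻¹, isConj_iff.2 ⟨swap b c, rfl⟩, ?_, ?_⟩
    · intro h
      have := congrArg (fun f : Perm (Fin n) => f a) h
      simp only [Equiv.swap_inv, Equiv.Perm.mul_apply] at this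
      rw [Equiv.swap_apply_of_ne_of_ne hab hca.symm, hb, Equiv.swap_apply_left] at this
      exact hcb this
    · rw [Equiv.swap_inv]
      calc t * (swap b c * t * swap b c) = (t * swap b c * t) * swap b c := by
            simp only [mul_assoc]
        _ = swap a d * swap b c := by rw [key]
        _ = swap b c * swap a d := hcomm.symm
        _ = swap b c * (t * swap b c * t) := by rw [key]
        _ = swap b c * t * swap b c * t := by simp only [mul_assoc]
  · push Not at hc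
    have htab : t = swap a b := by
      ext p
      by_cases h1 : p = a
      · rw [h1, hb, Equiv.swap_apply_left]
      by_cases h2 : p = b
      · rw [h2, htb, Equiv.swap_apply_right]
      rw [hc p h1 h2, Equiv.swap_apply_of_ne_of_ne h1 h2]
    have hcard : 1 < ((Finset.univ : Finset (Fin n)) \ {a, b}).card := by
      have h1 : ((Finset.univ : Finset (Fin n)) \ {a, b}).card
          = (Finset.univ : Finset (Fin n)).card - ({a, b} : Finset (Fin n)).card :=
        Finset.card_sdiff_of_subset (Finset.subset_univ _)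
      have h2 : ({a, b} : Finset (Fin n)).card ≤ 2 := Finset.card_le_two
      simp only [Finset.card_univ, Fintype.card_fin] at h1
      omega
    obtain ⟨c, hc1, e, he1, hce⟩ := Finset.one_lt_card.1 hcard
    simp only [Finset.mem_sdiff, Finset.mem_univ, Finset.mem_insert, Finset.mem_singleton,
      not_or, true_and] at hc1 he1
    refine ⟨swap c e, ?_, ?_, ?_⟩
    · apply conj_of_card ht (Equiv.swap_mul_self c e)
      rw [htab, Equiv.Perm.card_support_swap hab, Equiv.Perm.card_support_swap hce]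
    · intro h
      have := congrArg (fun f : Perm (Fin n) => f c) h
      simp only [Equiv.swap_apply_left] at this
      rw [hc c hc1.1 hc1.2] at this
      exact hce this.symm
    · rw [htab]
      apply comm_fix
      · exact Equiv.swap_apply_of_ne_of_ne hc1.1 hc1.2
      · exact Equiv.swap_apply_of_ne_of_ne he1.1 he1.2

theorem main (n : ℕ) (hn : 5 ≤ n) (t : Equiv.Perm (Fin n)) (ht : orderOf t = 2) :
    (SimpleGraph.fromRel fun x y : {x : Equiv.Perm (Fin n) // IsConj t x} =>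
        Odd (orderOf (x.1 * y.1))).Connected ∧
      (SimpleGraph.fromRel fun x y : {x : Equiv.Perm (Fin n) // IsConj t x} =>
        Odd (orderOf (x.1 * y.1))).diam = 2 := by
  have ht2 : t * t = 1 := by
    have := pow_orderOf_eq_one t
    rwa [ht, pow_two] at this
  have ht1 : t ≠ 1 := by
    intro h
    rw [h, orderOf_one] at ht
    omega
  have hconjsq : ∀ x : Perm (Fin n), IsConj t x → x * x = 1 ∧ x.support.card = t.support.card := by
    intro x hx
    obtain ⟨c, rfl⟩ := isConj_iff.1 hx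
    refine ⟨?_, Equiv.Perm.card_support_conj⟩
    calc c * t * c⁻¹ * (c * t * c⁻¹) = c * (t * t) * c⁻¹ := by group
      _ = 1 := by rw [ht2]; group
  have : Nonempty {x : Equiv.Perm (Fin n) // IsConj t x} := ⟨⟨t, IsConj.refl t⟩⟩
  generalize hG : (SimpleGraph.fromRel fun x y : {x : Equiv.Perm (Fin n) // IsConj t x} =>
        Odd (orderOf (x.1 * y.1))) = G
  have hadj : ∀ u v : {x : Equiv.Perm (Fin n) // IsConj t x},
      G.Adj u v ↔ u ≠ v ∧ (Odd (orderOf (u.1 * v.1)) ∨ Odd (orderOf (v.1 * u.1))) := by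
    intro u v
    rw [← hG, SimpleGraph.fromRel_adj]
  have hdist : ∀ u v : {x : Equiv.Perm (Fin n) // IsConj t x}, G.edist u v ≤ 2 := by
    intro u v
    obtain ⟨hx2, hxc⟩ := hconjsq u.1 u.2
    obtain ⟨hy2, hyc⟩ := hconjsq v.1 v.2
    obtain ⟨z, hz2, hzc, ho1, ho2⟩ := exists_z n hn u.1 v.1 hx2 hy2 (hxc.trans hyc.symm)
    have hzt : IsConj t z := conj_of_card ht2 hz2 (hxc.symm.trans hzc.symm)
    by_cases huw : u = ⟨z, hzt⟩
    · by_cases huv : u = v
      · rw [huv, SimpleGraph.edist_self]; exact zero_le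
      · have hz' : z = u.1 := by rw [huw]
        rw [hz'] at ho2
        have h1 : G.Adj u v := (hadj u v).2 ⟨huv, Or.inr ho2⟩
        refine (SimpleGraph.Walk.edist_le (SimpleGraph.Walk.cons h1 SimpleGraph.Walk.nil)).trans ?_
        simp only [SimpleGraph.Walk.length_cons, SimpleGraph.Walk.length_nil]
        norm_num
    · by_cases hvw : v = ⟨z, hzt⟩
      · have hz' : z = v.1 := by rw [hvw]
        rw [hz'] at ho1
        have huv : u ≠ v := fun h => huw (h.trans hvw)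
        have h1 : G.Adj u v := (hadj u v).2 ⟨huv, Or.inl ho1⟩
        refine (SimpleGraph.Walk.edist_le (SimpleGraph.Walk.cons h1 SimpleGraph.Walk.nil)).trans ?_
        simp only [SimpleGraph.Walk.length_cons, SimpleGraph.Walk.length_nil]
        norm_num
      · have h1 : G.Adj u ⟨z, hzt⟩ := (hadj _ _).2 ⟨huw, Or.inl ho1⟩
        have h2 : G.Adj ⟨z, hzt⟩ v := (hadj _ _).2 ⟨fun h => hvw h.symm, Or.inr ho2⟩
        refine (SimpleGraph.Walk.edist_le
          (SimpleGraph.Walk.cons h1 (SimpleGraph.Walk.cons h2 SimpleGraph.Walk.nil))).trans ?_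
        simp only [SimpleGraph.Walk.length_cons, SimpleGraph.Walk.length_nil]
        norm_num
  have hed : G.ediam ≤ 2 := SimpleGraph.ediam_le_of_edist_le hdist
  have hnt : G.ediam ≠ ⊤ := ne_top_of_le_ne_top (by simp) hed
  have hconn : G.Connected := SimpleGraph.connected_of_ediam_ne_top hnt
  refine ⟨hconn, le_antisymm ?_ ?_⟩
  · exact ENat.toNat_le_of_le_natCast hed
  · obtain ⟨t', hc, hne, hcomm⟩ := exists_far n hn t ht2 ht1
    obtain ⟨ht'2, _⟩ := hconjsq t' hc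
    have hord : orderOf (t * t') = 2 := by
      have : Fact (Nat.Prime 2) := ⟨Nat.prime_two⟩
      apply orderOf_eq_prime
      · rw [pow_two]
        calc t * t' * (t * t') = t * (t' * t) * t' := by group
          _ = t * (t * t') * t' := by rw [hcomm]
          _ = (t * t) * (t' * t') := by group
          _ = 1 := by rw [ht2, ht'2, mul_one]
      · intro h
        apply hne
        have : t' = t⁻¹ := (inv_eq_of_mul_eq_one_right h).symm
        rw [this]
        exact inv_eq_of_mul_eq_one_right ht2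
    have hnadj : ¬ G.Adj ⟨t, IsConj.refl t⟩ ⟨t', hc⟩ := by
      rw [hadj]
      rintro ⟨_, h | h⟩
      · rw [hord] at h; exact absurd h (by decide)
      · rw [← hcomm, hord] at h; exact absurd h (by decide)
    have hne' : (⟨t, IsConj.refl t⟩ : {x : Equiv.Perm (Fin n) // IsConj t x}) ≠ ⟨t', hc⟩ := by
      intro h
      exact hne (congrArg Subtype.val h).symm
    have h1 := (hconn.preconnected _ _).one_lt_dist_of_ne_of_not_adj hne' hnadj
    have h2 := SimpleGraph.dist_le_diam hnt (u := (⟨t, IsConj.refl t⟩ : {x : Equiv.Perm (Fin n) // IsConj t x})) (v := ⟨t', hc⟩)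
    omega

/-- Let n ≥ 5 and let X be a conjugacy class of involutions of the symmetric group of degree n. The graph on X joining two distinct involutions whose product has odd order is connected and has diameter exactly 2. -/
theorem result (n : ℕ) (hn : 5 ≤ n) (t : Equiv.Perm (Fin n)) (ht : orderOf t = 2) :
    (SimpleGraph.fromRel fun x y : {x : Equiv.Perm (Fin n) // IsConj t x} =>
        Odd (orderOf (x.1 * y.1))).Connected ∧
      (SimpleGraph.fromRel fun x y : {x : Equiv.Perm (Fin n) // IsConj t x} =>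
        Odd (orderOf (x.1 * y.1))).diam = 2 := by
  exact main n hn t ht

end Cfsg.Agent.S3265
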