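import Cfsg.Statements.S3269
import Cfsg.Agent.Lib.Helper14.ZStar
import Cfsg.Agent.S0201
import Cfsg.Agent.Lib.Helper50.Cores

set_option autoImplicit false
open Cfsg
open scoped IsMulCommutative

namespace Cfsg.Agent.S3269

universe u

/-- data extracted from a generalized quaternion group `Q_{4N}` with `N` even -/
theorem quat_data (N0 : ℕ) (hNpos : 0 < N0) (h0 : ℕ) (hh : h0 + h0 = N0) :
    ∃ z a c : QuaternionGroup N0, z ≠ 1 ∧ z * z = 1 ∧
      (∀ x : QuaternionGroup N0, x * x = 1 → x = 1 ∨ x = z) ∧ a * a = z ∧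
        c * a * c⁻¹ = a⁻¹ := by
  haveI : NeZero (2 * N0) := ⟨by omega⟩
  have hNN : ((N0 : ℕ) : ZMod (2 * N0)) + (N0 : ZMod (2 * N0)) = 0 := by
    rw [← Nat.cast_add, ← two_mul]; exact ZMod.natCast_self _
  have hN0ne : ((N0 : ℕ) : ZMod (2 * N0)) ≠ 0 := by
    rw [Ne, ZMod.natCast_eq_zero_iff]
    intro h; have := Nat.le_of_dvd hNpos h; omega
  have hhalf : ((h0 : ℕ) : ZMod (2 * N0)) + ((h0 : ℕ) : ZMod (2 * N0))
      = (N0 : ZMod (2 * N0)) := by
    rw [← Nat.cast_add, hh]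
  refine ⟨QuaternionGroup.a (N0 : ZMod (2 * N0)), QuaternionGroup.a ((h0 : ℕ) : ZMod (2 * N0)),
    QuaternionGroup.xa 0, ?_, ?_, ?_, ?_, ?_⟩
  · rw [QuaternionGroup.one_def]; intro h; exact hN0ne (QuaternionGroup.a.inj h)
  · rw [QuaternionGroup.a_mul_a, hNN, QuaternionGroup.one_def]
  · intro x hx
    rcases x with i | i
    · rw [QuaternionGroup.a_mul_a, QuaternionGroup.one_def] at hx
      have hi0 : i + i = 0 := QuaternionGroup.a.inj hx
      have hv : ((i.val + i.val : ℕ) : ZMod (2 * N0)) = 0 := by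
        push_cast; rw [ZMod.natCast_zmod_val]; exact hi0
      rw [ZMod.natCast_eq_zero_iff] at hv
      have hlt : i.val < 2 * N0 := ZMod.val_lt i
      obtain ⟨k, hk⟩ := hv
      have hk' : i.val = N0 * k := by
        have : 2 * i.val = 2 * (N0 * k) := by rw [← mul_assoc]; omega
        omega
      have hk2 : k = 0 ∨ k = 1 := by
        have : k < 2 := by
          by_contra hc
          have hc := Nat.le_of_not_lt hc
          have : 2 * N0 ≤ N0 * k := by nlinarith
          omega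
        omega
      rcases hk2 with rfl | rfl
      · left; rw [QuaternionGroup.one_def]; congr 1
        have : i.val = 0 := by simpa using hk'
        exact (ZMod.val_eq_zero i).mp this
      · right; congr 1
        have h5 : i.val = N0 := by simpa using hk'
        have h6 := congrArg (Nat.cast : ℕ → ZMod (2 * N0)) h5
        rw [ZMod.natCast_zmod_val] at h6
        exact h6
    · exfalso
      rw [QuaternionGroup.xa_mul_xa, QuaternionGroup.one_def] at hx
      have := QuaternionGroup.a.inj hx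
      apply hN0ne; simpa using this
  · rw [QuaternionGroup.a_mul_a, hhalf]
  · apply eq_inv_of_mul_eq_one_left
    have hcinv : (QuaternionGroup.xa (0 : ZMod (2 * N0)))⁻¹
        = QuaternionGroup.xa (N0 : ZMod (2 * N0)) := by
      apply inv_eq_of_mul_eq_one_right
      rw [QuaternionGroup.xa_mul_xa, QuaternionGroup.one_def]; congr 1; rw [sub_zero]; exact hNN
    rw [hcinv, QuaternionGroup.xa_mul_a, QuaternionGroup.xa_mul_xa, QuaternionGroup.a_mul_a,
      QuaternionGroup.one_def]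
    congr 1
    rw [zero_add, sub_add_cancel]; exact hNN

variable {G : Type u} [Group G]

/-- a "quaternion-like" subgroup `Q` of `S`, normalized by `S`, with unique involution `u` -/
def IsQW (S Q : Subgroup G) (u : G) : Prop :=
  Q ≤ S ∧ (∀ s ∈ S, ∀ x ∈ Q, s * x * s⁻¹ ∈ Q) ∧ u ∈ Q ∧ u ≠ 1 ∧ u * u = 1 ∧
    (∀ x ∈ Q, x * x = 1 → x = 1 ∨ x = u) ∧ ∃ a ∈ Q, ∃ c ∈ Q, a * a = u ∧ c * a * c⁻¹ = a⁻¹

theorem exists_pow_invol {x : G} (hx : x ≠ 1) (j : ℕ) (hj : x ^ (2 ^ j) = 1) :
    ∃ m : ℕ, x ^ m ≠ 1 ∧ x ^ m * x ^ m = 1 := by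
  induction j with
  | zero => exact absurd (by simpa using hj) hx
  | succ j ih =>
    by_cases h : x ^ (2 ^ j) = 1
    · exact ih h
    · exact ⟨2 ^ j, h, by rw [← pow_add, ← two_mul, ← pow_succ']; exact hj⟩

theorem qw_commute {S : Subgroup G} (hS : IsPGroup 2 S) {Q1 Q2 : Subgroup G} {u v : G}
    (h1 : IsQW S Q1 u) (h2 : IsQW S Q2 v) (huv : u ≠ v) {x y : G} (hx : x ∈ Q1) (hy : y ∈ Q2) :
    x * y = y * x := by
  obtain ⟨h1S, h1n, h1u, h1ne, h1sq, h1uniq, -⟩ := h1
  obtain ⟨h2S, h2n, h2u, h2ne, h2sq, h2uniq, -⟩ := h2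
  have hk1 : x * y * x⁻¹ * y⁻¹ ∈ Q1 := by
    have : y * x⁻¹ * y⁻¹ ∈ Q1 := h1n y (h2S hy) x⁻¹ (Q1.inv_mem hx)
    have h3 : x * y * x⁻¹ * y⁻¹ = x * (y * x⁻¹ * y⁻¹) := by group
    rw [h3]; exact Q1.mul_mem hx this
  have hk2 : x * y * x⁻¹ * y⁻¹ ∈ Q2 := by
    have : x * y * x⁻¹ ∈ Q2 := h2n x (h1S hx) y hy
    exact Q2.mul_mem this (Q2.inv_mem hy)
  by_cases hk0 : x * y * x⁻¹ * y⁻¹ = 1
  · have : x * y = (x * y * x⁻¹ * y⁻¹) * (y * x) := by group
    rw [this, hk0, one_mul]
  · exfalso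
    obtain ⟨j, hj⟩ := hS ⟨x * y * x⁻¹ * y⁻¹, h1S hk1⟩
    have hj' : (x * y * x⁻¹ * y⁻¹) ^ (2 ^ j) = 1 := by
      have := congrArg Subtype.val hj
      simpa using this
    obtain ⟨m, hm1, hm2⟩ := exists_pow_invol hk0 j hj'
    have e1 := (h1uniq _ (Q1.pow_mem hk1 m) hm2).resolve_left hm1
    have e2 := (h2uniq _ (Q2.pow_mem hk2 m) hm2).resolve_left hm1
    exact huv (e1.symm.trans e2)

theorem mem_sup_comm {Q R : Subgroup G} (hcomm : ∀ a ∈ Q, ∀ b ∈ R, a * b = b * a) {s : G}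
    (hs : s ∈ Q ⊔ R) : ∃ q ∈ Q, ∃ r ∈ R, s = q * r := by
  let T : Subgroup G :=
    { carrier := {x | ∃ q ∈ Q, ∃ r ∈ R, x = q * r}
      one_mem' := ⟨1, Q.one_mem, 1, R.one_mem, by simp⟩
      mul_mem' := by
        rintro x y ⟨q1, hq1, r1, hr1, rfl⟩ ⟨q2, hq2, r2, hr2, rfl⟩
        refine ⟨q1 * q2, Q.mul_mem hq1 hq2, r1 * r2, R.mul_mem hr1 hr2, ?_⟩
        have := hcomm q2 hq2 r1 hr1
        calc q1 * r1 * (q2 * r2) = q1 * (r1 * q2) * r2 := by group
          _ = q1 * (q2 * r1) * r2 := by rw [this]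
          _ = q1 * q2 * (r1 * r2) := by group
      inv_mem' := by
        rintro x ⟨q, hq, r, hr, rfl⟩
        refine ⟨q⁻¹, Q.inv_mem hq, r⁻¹, R.inv_mem hr, ?_⟩
        have := hcomm q⁻¹ (Q.inv_mem hq) r⁻¹ (R.inv_mem hr)
        rw [mul_inv_rev, this] }
  have hle : Q ⊔ R ≤ T :=
    sup_le (fun x hx => ⟨x, hx, 1, R.one_mem, by simp⟩) (fun x hx => ⟨1, Q.one_mem, x, hx, by simp⟩)
  exact hle hs

theorem mem_conjMap {Q : Subgroup G} {n y : G} :
    y ∈ Q.map (MulAut.conj n).toMonoidHom ↔ n⁻¹ * y * n ∈ Q := by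
  constructor
  · rintro ⟨x, hx, rfl⟩
    simp only [MulEquiv.coe_toMonoidHom, MulAut.conj_apply]
    have : n⁻¹ * (n * x * n⁻¹) * n = x := by group
    rw [this]; exact hx
  · intro h
    exact ⟨n⁻¹ * y * n, h, by simp only [MulEquiv.coe_toMonoidHom, MulAut.conj_apply]; group⟩

theorem qw_conj {S Q : Subgroup G} {u : G} (h : IsQW S Q u) {n : G} (hn : n ∈ Subgroup.normalizer (S : Set G)) :
    IsQW S (Q.map (MulAut.conj n).toMonoidHom) (n * u * n⁻¹) := by
  obtain ⟨hQS, hQn, huQ, hu1, huu, huniq, a, haQ, c, hcQ, haa, hca⟩ := h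
  refine ⟨?_, ?_, ?_, ?_, ?_, ?_, n * a * n⁻¹, ?_, n * c * n⁻¹, ?_, ?_, ?_⟩
  · intro y hy
    rw [mem_conjMap] at hy
    have h1 := (Subgroup.mem_normalizer_iff.mp hn _).mp (hQS hy)
    have h2 : n * (n⁻¹ * y * n) * n⁻¹ = y := by group
    rwa [h2] at h1
  · intro s hs y hy
    rw [mem_conjMap] at hy ⊢
    have hs' : n⁻¹ * s * n ∈ S := (Subgroup.mem_normalizer_iff''.mp hn s).mp hs
    have h1 := hQn _ hs' _ hy
    have h2 : n⁻¹ * (s * y * s⁻¹) * n = n⁻¹ * s * n * (n⁻¹ * y * n) * (n⁻¹ * s * n)⁻¹ := by group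
    rw [h2]; exact h1
  · rw [mem_conjMap]
    have : n⁻¹ * (n * u * n⁻¹) * n = u := by group
    rw [this]; exact huQ
  · intro h
    apply hu1
    have : u = n⁻¹ * (n * u * n⁻¹) * n := by group
    rw [this, h]; group
  · have : n * u * n⁻¹ * (n * u * n⁻¹) = n * (u * u) * n⁻¹ := by group
    rw [this, huu]; group
  · intro y hy hyy
    rw [mem_conjMap] at hy
    have h1 : n⁻¹ * y * n * (n⁻¹ * y * n) = 1 := by
      have : n⁻¹ * y * n * (n⁻¹ * y * n) = n⁻¹ * (y * y) * n := by group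
      rw [this, hyy]; group
    have h2 : y = n * (n⁻¹ * y * n) * n⁻¹ := by group
    rcases huniq _ hy h1 with h | h
    · left; rw [h2, h]; group
    · right; rw [h2, h]
  · rw [mem_conjMap]
    have : n⁻¹ * (n * a * n⁻¹) * n = a := by group
    rw [this]; exact haQ
  · rw [mem_conjMap]
    have : n⁻¹ * (n * c * n⁻¹) * n = c := by group
    rw [this]; exact hcQ
  · have : n * a * n⁻¹ * (n * a * n⁻¹) = n * (a * a) * n⁻¹ := by group
    rw [this, haa]
  · have : n * c * n⁻¹ * (n * a * n⁻¹) * (n * c * n⁻¹)⁻¹ = n * (c * a * c⁻¹) * n⁻¹ := by group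
    rw [this, hca]; group

theorem claim {S : Subgroup G} (hS : IsPGroup 2 S) (Z : Subgroup G) [IsMulCommutative ↥Z]
    (T : Finset ↥Z) :
    (∀ t ∈ T, ∃ Q', IsQW S Q' (t : G)) →
    ∃ w ∈ S, (∀ (v : G) (Q' : Subgroup G), IsQW S Q' v → (∀ t ∈ T, (t : G) ≠ v) →
        ∀ x ∈ Q', x * w = w * x) ∧
      w * w = ((∏ t ∈ T, t : ↥Z) : G) := by
  classical
  induction T using Finset.induction_on with
  | empty => intro _; exact ⟨1, S.one_mem, fun _ _ _ _ x _ => by simp, by simp⟩
  | insert u T huT ih =>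
    intro hall
    obtain ⟨w, hwS, hwc, hww⟩ := ih (fun t ht => hall t (Finset.mem_insert_of_mem ht))
    obtain ⟨Qu, hQu⟩ := hall u (Finset.mem_insert_self u T)
    obtain ⟨a, haQ, c, hcQ, haa, hca⟩ := hQu.2.2.2.2.2.2
    have haw : a * w = w * a :=
      hwc (u : G) Qu hQu (fun t ht h => huT (by rw [← Subtype.ext h]; exact ht)) a haQ
    refine ⟨a * w, S.mul_mem (hQu.1 haQ) hwS, ?_, ?_⟩
    · intro v Q' hQ' hne x hx
      have hvu : v ≠ (u : G) := fun h => hne u (Finset.mem_insert_self u T) h.symm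
      have h1 : x * a = a * x := qw_commute hS hQ' hQu hvu hx haQ
      have h2 : x * w = w * x :=
        hwc v Q' hQ' (fun t ht => hne t (Finset.mem_insert_of_mem ht)) x hx
      calc x * (a * w) = (x * a) * w := by group
        _ = a * (x * w) := by rw [h1]; group
        _ = a * w * x := by rw [h2]; group
    · rw [Finset.prod_insert huT, Subgroup.coe_mul]
      calc a * w * (a * w) = a * (w * a) * w := by group
        _ = a * (a * w) * w := by rw [haw]
        _ = (a * a) * (w * w) := by group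
        _ = (u : G) * _ := by rw [haa, hww]

theorem main [Finite G]
    (S : Sylow 2 G) (Q R : Subgroup G) (hQR : Cfsg.IsInternalDirectProduct Q R (S : Subgroup G))
    (n : ℕ) (hn : 1 ≤ n) (eQ : ↥Q ≃* QuaternionGroup (2 ^ n))
    (hR : ∀ r ∈ R, orderOf r = 2 → ∀ s ∈ R, r * s = s * r) :
    ¬ IsSimpleGroup G := by
  classical
  intro hsimple
  haveI : Fact (Nat.Prime 2) := ⟨Nat.prime_two⟩
  obtain ⟨hQS, hRS, hcomm, hinf, hsup⟩ := hQR
  have hS2 : IsPGroup 2 (S : Subgroup G) := S.2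
  obtain ⟨zq, aq, cq, hzq1, hzq2, hzqu, haq, hcq⟩ :=
    quat_data (2 ^ n) (by positivity) (2 ^ (n - 1)) (by
      obtain ⟨m, rfl⟩ : ∃ m, n = m + 1 := ⟨n - 1, by omega⟩
      simp [pow_succ]; ring)
  obtain ⟨z, hzdef⟩ : ∃ z : G, z = ((eQ.symm zq : Q) : G) := ⟨_, rfl⟩
  obtain ⟨a, hadef⟩ : ∃ a : G, a = ((eQ.symm aq : Q) : G) := ⟨_, rfl⟩
  obtain ⟨c, hcdef⟩ : ∃ c : G, c = ((eQ.symm cq : Q) : G) := ⟨_, rfl⟩
  have hzQ : z ∈ Q := hzdef ▸ (eQ.symm zq).2
  have haQ : a ∈ Q := hadef ▸ (eQ.symm aq).2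
  have hcQ : c ∈ Q := hcdef ▸ (eQ.symm cq).2
  have hz1 : z ≠ 1 := by
    intro h
    apply hzq1
    have : eQ.symm zq = 1 := Subtype.ext (by rw [← hzdef, h]; rfl)
    simpa using this
  have hzz : z * z = 1 := by
    have : eQ.symm zq * eQ.symm zq = 1 := by rw [← map_mul, hzq2, map_one]
    rw [hzdef]
    exact congrArg Subtype.val this
  have hzu : ∀ x ∈ Q, x * x = 1 → x = 1 ∨ x = z := by
    intro x hx hxx
    have h1 : eQ ⟨x, hx⟩ * eQ ⟨x, hx⟩ = 1 := by
      rw [← map_mul]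
      have : (⟨x, hx⟩ : Q) * ⟨x, hx⟩ = 1 := Subtype.ext hxx
      rw [this, map_one]
    rcases hzqu _ h1 with h | h
    · left
      have : (⟨x, hx⟩ : Q) = 1 := by simpa using h
      exact congrArg Subtype.val this
    · right
      have : (⟨x, hx⟩ : Q) = eQ.symm zq := by rw [← h, MulEquiv.symm_apply_apply]
      rw [hzdef]
      exact congrArg Subtype.val this
  have haa : a * a = z := by
    have : eQ.symm aq * eQ.symm aq = eQ.symm zq := by rw [← map_mul, haq]
    rw [hzdef, hadef]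
    exact congrArg Subtype.val this
  have hca : c * a * c⁻¹ = a⁻¹ := by
    have : eQ.symm cq * eQ.symm aq * (eQ.symm cq)⁻¹ = (eQ.symm aq)⁻¹ := by
      rw [← map_inv, ← map_mul, ← map_mul, hcq, map_inv]
    rw [hcdef, hadef]
    exact congrArg Subtype.val this
  -- `z` is central in `Q`
  have hzcent : ∀ y ∈ Q, y * z = z * y := by
    intro y hy
    have h1 : (y * z * y⁻¹) * (y * z * y⁻¹) = 1 := by
      have : (y * z * y⁻¹) * (y * z * y⁻¹) = y * (z * z) * y⁻¹ := by group
      rw [this, hzz]; group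
    rcases hzu _ (Q.mul_mem (Q.mul_mem hy hzQ) (Q.inv_mem hy)) h1 with h | h
    · exfalso; apply hz1
      have : z = y⁻¹ * (y * z * y⁻¹) * y := by group
      rw [this, h]; group
    · have : y * z = (y * z * y⁻¹) * y := by group
      rw [this, h]
  -- involutions of `S` are central in `S`
  have hinv : ∀ x ∈ (S : Subgroup G), x * x = 1 → ∀ s ∈ (S : Subgroup G), x * s = s * x := by
    intro x hx hxx s hs
    obtain ⟨q, hq, r, hr, rfl⟩ := mem_sup_comm hcomm (hsup ▸ hx)
    obtain ⟨q', hq', r', hr', rfl⟩ := mem_sup_comm hcomm (hsup ▸ hs)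
    have h1 : (q * q) * (r * r) = 1 := by
      have := hcomm q hq r hr
      calc q * q * (r * r) = q * (q * r) * r := by group
        _ = q * (r * q) * r := by rw [this]
        _ = q * r * (q * r) := by group
        _ = 1 := hxx
    have hqq : q * q = 1 := by
      have hmem : q * q ∈ Q ⊓ R := by
        refine ⟨Q.mul_mem hq hq, ?_⟩
        have : q * q = (r * r)⁻¹ := eq_inv_of_mul_eq_one_left h1
        rw [this]; exact R.inv_mem (R.mul_mem hr hr)
      rw [hinf] at hmem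
      exact (Subgroup.mem_bot).mp hmem
    have hrr : r * r = 1 := by rw [hqq, one_mul] at h1; exact h1
    have hqc : ∀ y ∈ Q, q * y = y * q := by
      intro y hy
      rcases hzu q hq hqq with h | h
      · rw [h]; simp
      · rw [h]; exact (hzcent y hy).symm
    have hrc : ∀ y ∈ R, r * y = y * r := by
      intro y hy
      by_cases hr1 : r = 1
      · rw [hr1]; simp
      · have : orderOf r = 2 := orderOf_eq_prime (by rw [pow_two]; exact hrr) hr1
        exact hR r hr this y hy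
    calc q * r * (q' * r') = q * (r * q') * r' := by group
      _ = q * (q' * r) * r' := by rw [hcomm q' hq' r hr]
      _ = (q * q') * (r * r') := by group
      _ = (q' * q) * (r' * r) := by rw [hqc q' hq', hrc r' hr']
      _ = q' * (q * r') * r := by group
      _ = q' * (r' * q) * r := by rw [hcomm q hq r' hr']
      _ = q' * r' * (q * r) := by group
  have hQW : IsQW (S : Subgroup G) Q z := by
    refine ⟨hQS, ?_, hzQ, hz1, hzz, hzu, a, haQ, c, hcQ, haa, hca⟩
    intro s hs x hx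
    obtain ⟨q, hq, r, hr, rfl⟩ := mem_sup_comm hcomm (hsup ▸ hs)
    have : q * r * x * (q * r)⁻¹ = q * x * q⁻¹ := by
      have h1 := hcomm x hx r hr
      calc q * r * x * (q * r)⁻¹ = q * (r * x) * r⁻¹ * q⁻¹ := by group
        _ = q * (x * r) * r⁻¹ * q⁻¹ := by rw [h1]
        _ = q * x * q⁻¹ := by group
    rw [this]; exact Q.mul_mem (Q.mul_mem hq hx) (Q.inv_mem hq)
  -- the abelian group `Z(S)`
  obtain ⟨Zs, hZs⟩ : ∃ Zs : Subgroup G,
      Zs = (S : Subgroup G) ⊓ Subgroup.centralizer ((S : Subgroup G) : Set G) := ⟨_, rfl⟩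
  have hZmem : ∀ x : G, x ∈ Zs ↔ x ∈ (S : Subgroup G) ∧ ∀ s ∈ (S : Subgroup G), s * x = x * s := by
    intro x
    rw [hZs, Subgroup.mem_inf, Subgroup.mem_centralizer_iff]
    rfl
  haveI hZc : IsMulCommutative ↥Zs :=
    ⟨⟨fun x y => Subtype.ext ((((hZmem x).mp x.2).2 y ((hZmem y).mp y.2).1).symm)⟩⟩
  haveI : Fintype ↥Zs := Fintype.ofFinite _
  have hinvZ : ∀ x ∈ (S : Subgroup G), x * x = 1 → x ∈ Zs := fun x hx hxx =>
    (hZmem x).mpr ⟨hx, fun s hs => (hinv x hx hxx s hs).symm⟩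
  obtain ⟨O, hO⟩ : ∃ O : Finset ↥Zs, ∀ t : ↥Zs, t ∈ O ↔ ∃ Q', IsQW (S : Subgroup G) Q' (t : G) :=
    ⟨Finset.univ.filter (fun t : ↥Zs => ∃ Q', IsQW (S : Subgroup G) Q' (t : G)), fun t => by simp⟩
  have hzZ : z ∈ Zs := hinvZ z (hQS hzQ) hzz
  have hz0O : (⟨z, hzZ⟩ : ↥Zs) ∈ O := (hO _).mpr ⟨Q, hQW⟩
  obtain ⟨π, hπ⟩ : ∃ π : ↥Zs, π = ∏ t ∈ O, t := ⟨_, rfl⟩
  have hπne : (π : G) ≠ 1 := by
    intro hπ1
    obtain ⟨w, hwS, hwc, hww⟩ := claim hS2 Zs (O.erase ⟨z, hzZ⟩) (fun t ht =>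
      (hO t).mp (Finset.mem_of_mem_erase ht))
    have hne : ∀ t ∈ O.erase ⟨z, hzZ⟩, (t : G) ≠ z := by
      intro t ht h
      exact (Finset.ne_of_mem_erase ht) (Subtype.ext h)
    have haw : a * w = w * a := hwc z Q hQW hne a haQ
    have hcw : c * w = w * c := hwc z Q hQW hne c hcQ
    have hW : (a * w) * (a * w) = 1 := by
      have h1 : (a * w) * (a * w) = (a * a) * (w * w) := by
        calc a * w * (a * w) = a * (w * a) * w := by group
          _ = a * (a * w) * w := by rw [haw]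
          _ = (a * a) * (w * w) := by group
      have h2 : (π : G) = z * ((∏ t ∈ O.erase ⟨z, hzZ⟩, t : ↥Zs) : G) := by
        rw [hπ, ← Finset.mul_prod_erase O (fun t => t) hz0O, Subgroup.coe_mul]
      rw [h1, haa, hww, ← h2, hπ1]
    have hcent := hinv (a * w) ((S : Subgroup G).mul_mem (hQS haQ) hwS) hW c (hQS hcQ)
    have hac : a * c = c * a := by
      have : a * c * w = c * a * w := by
        calc a * c * w = a * (c * w) := by group
          _ = a * (w * c) := by rw [hcw]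
          _ = (a * w) * c := by group
          _ = c * (a * w) := hcent
          _ = c * a * w := by group
      exact mul_right_cancel this
    have hai : a⁻¹ = a := by rw [← hca, ← hac]; group
    apply hz1
    rw [← haa]
    calc a * a = a⁻¹ * a := by rw [hai]
      _ = 1 := by group
  have hπsq : (π : G) * (π : G) = 1 := by
    have h1 : π * π = 1 := by
      rw [hπ, ← Finset.prod_mul_distrib]
      apply Finset.prod_eq_one
      intro t ht
      obtain ⟨Q', hQ'⟩ := (hO t).mp ht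
      exact Subtype.ext hQ'.2.2.2.2.1
    have := congrArg Subtype.val h1
    simpa using this
  have hπS : (π : G) ∈ (S : Subgroup G) := ((hZmem _).mp π.2).1
  have hπ2 : orderOf (π : G) = 2 := orderOf_eq_prime (by rw [pow_two]; exact hπsq) hπne
  -- invariance under the normalizer
  have hπN : ∀ m ∈ Subgroup.normalizer ((S : Subgroup G) : Set G), m * (π : G) * m⁻¹ = (π : G) := by
    intro m hm
    have hmem : ∀ x : G, x ∈ Zs → m * x * m⁻¹ ∈ Zs := by
      intro x hx
      rw [hZmem] at hx ⊢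
      refine ⟨(Subgroup.mem_normalizer_iff.mp hm x).mp hx.1, ?_⟩
      intro s hs
      have hs' : m⁻¹ * s * m ∈ (S : Subgroup G) := (Subgroup.mem_normalizer_iff''.mp hm s).mp hs
      have h1 := hx.2 _ hs'
      calc s * (m * x * m⁻¹) = m * ((m⁻¹ * s * m) * x) * m⁻¹ := by group
        _ = m * (x * (m⁻¹ * s * m)) * m⁻¹ := by rw [h1]
        _ = m * x * m⁻¹ * s := by group
    let f : ↥Zs →* ↥Zs :=
      { toFun := fun x => ⟨m * (x : G) * m⁻¹, hmem x x.2⟩
        map_one' := by ext; simp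
        map_mul' := by intro x y; ext; simp }
    have hfO : ∀ t ∈ O, f t ∈ O := by
      intro t ht
      obtain ⟨Q', hQ'⟩ := (hO t).mp ht
      exact (hO _).mpr ⟨_, qw_conj hQ' hm⟩
    have hfinj : Function.Injective f := by
      intro x y hxy
      have h3 : m * (x : G) * m⁻¹ = m * (y : G) * m⁻¹ := congrArg Subtype.val hxy
      exact Subtype.ext (mul_left_cancel (mul_right_cancel h3))
    have himg : O.image f = O := by
      apply Finset.eq_of_subset_of_card_le
      · intro y hy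
        obtain ⟨t, ht, rfl⟩ := Finset.mem_image.mp hy
        exact hfO t ht
      · rw [Finset.card_image_of_injective _ hfinj]
    have h1 : f π = π := by
      rw [hπ, map_prod]
      conv_rhs => rw [← himg]
      rw [Finset.prod_image (fun x _ y _ h => hfinj h)]
    exact congrArg Subtype.val h1
  -- `π` is isolated
  have hiso : ∀ g : G, g * (π : G) * g⁻¹ ∈ S → g * (π : G) * g⁻¹ = (π : G) := by
    intro g hg
    have hy2 : (g * (π : G) * g⁻¹) * (g * (π : G) * g⁻¹) = 1 := by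
      have : (g * (π : G) * g⁻¹) * (g * (π : G) * g⁻¹) = g * ((π : G) * (π : G)) * g⁻¹ := by group
      rw [this, hπsq]; group
    have hyZ := hinvZ _ hg hy2
    have hπc : (π : G) ∈ Subgroup.centralizer ((S : Subgroup G) : Set G) :=
      Subgroup.mem_centralizer_iff.mpr (fun s hs => ((hZmem _).mp π.2).2 s hs)
    have hyc : g⁻¹⁻¹ * (π : G) * g⁻¹ ∈ Subgroup.centralizer ((S : Subgroup G) : Set G) := by
      rw [inv_inv]
      exact Subgroup.mem_centralizer_iff.mpr (fun s hs => ((hZmem _).mp hyZ).2 s hs)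
    obtain ⟨m, hm, hmeq⟩ :=
      Sylow.conj_eq_normalizer_conj_of_mem_centralizer S (π : G) g⁻¹ hπc hyc
    have h2 := hπN m⁻¹ (Subgroup.inv_mem _ hm)
    simp only [inv_inv] at hmeq h2
    rw [hmeq, h2]
  have hisol := Cfsg.Agent.Lib.Helper14.ZStar.isolated_of_sylow S (π : G) hπ2 hiso
  have BS : Cfsg.Agent.Lib.Helper14.ZStar.BSHyp.{u} :=
    fun G _ _ S n e hO => Cfsg.Agent.S0201.result S n e hO
  have hstar := fun g => Cfsg.Agent.Lib.Helper14.ZStar.zstar BS (π : G) hisol g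
  have hcore : Cfsg.pPrimeCore 2 G = ⊥ := by
    rcases (Cfsg.Agent.Lib.Helper50.Cores.pPrimeCore_normal (G := G) 2).eq_bot_or_eq_top with h | h
    · exact h
    · exfalso
      have hcop := Cfsg.Agent.Lib.Helper50.Cores.pPrimeCore_coprime (G := G) 2
      rw [h, Subgroup.card_top] at hcop
      have hdvd : 2 ∣ Nat.card G := by rw [← hπ2]; exact orderOf_dvd_natCard _
      have := Nat.Coprime.eq_one_of_dvd hcop.symm hdvd
      omega
  have hcen : (π : G) ∈ Subgroup.center G := by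
    rw [Subgroup.mem_center_iff]
    intro g
    have := hstar g
    rw [hcore, Subgroup.mem_bot] at this
    have h2 : g * (π : G) = (g * (π : G) * g⁻¹ * (π : G)⁻¹) * ((π : G) * g) := by group
    rw [h2, this, one_mul]
  rcases (Subgroup.Normal.eq_bot_or_eq_top
    (inferInstance : (Subgroup.center G).Normal)) with h | h
  · rw [h, Subgroup.mem_bot] at hcen; exact hπne hcen
  · have hcc : c ∈ Subgroup.center G := by rw [h]; trivial
    have hac : a * c = c * a := Subgroup.mem_center_iff.mp hcc a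
    have hai : a⁻¹ = a := by rw [← hca, ← hac]; group
    apply hz1
    rw [← haa]
    calc a * a = a⁻¹ * a := by rw [hai]
      _ = 1 := by group

/-- Let G be a finite group whose Sylow 2-subgroup S is an internal direct product Q × R with Q generalized quaternion (of order at least 8) and R a subgroup all of whose involutions are central in R. Then G is not simple. In particular no finite simple group has a Sylow 2-subgroup that is a direct product of one or more generalized quaternion groups. -/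
theorem result {G : Type*} [Group G] [Finite G]
    (S : Sylow 2 G) (Q R : Subgroup G) (hQR : Cfsg.IsInternalDirectProduct Q R (S : Subgroup G))
    (n : ℕ) (hn : 1 ≤ n) (eQ : ↥Q ≃* QuaternionGroup (2 ^ n))
    (hR : ∀ r ∈ R, orderOf r = 2 → ∀ s ∈ R, r * s = s * r) :
    ¬ IsSimpleGroup G := by
  exact main S Q R hQR n hn eQ hR

end Cfsg.Agent.S3269
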