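import Cfsg.Statements.S3276

set_option autoImplicit false
open Cfsg

namespace Cfsg.Agent.S3276

/-- two involutions whose product has odd order are conjugate -/
theorem h55_conj_of_odd {G : Type*} [Group G] (a b : G) (ha : a * a = 1) (hb : b * b = 1)
    (k : ℕ) (hk : (a * b) ^ (2 * k + 1) = 1) : IsConj a b := by
  have hainv : a⁻¹ = a := inv_eq_of_mul_eq_one_right ha
  have hbinv : b⁻¹ = b := inv_eq_of_mul_eq_one_right hb
  have hconj : a * (a * b) * a⁻¹ = (a * b)⁻¹ := by
    rw [mul_inv_rev, hainv, hbinv, ← mul_assoc, ha, one_mul]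
  have hconjk : ∀ n : ℕ, a * (a * b) ^ n * a⁻¹ = ((a * b) ^ n)⁻¹ := by
    intro n
    rw [← conj_pow, hconj, inv_pow]
  rw [isConj_iff]
  refine ⟨(a * b) ^ k, ?_⟩
  have h1 : a * ((a * b) ^ k)⁻¹ = (a * b) ^ k * a := by
    have := hconjk k
    rw [hainv] at this
    rw [← this]
    calc a * (a * (a * b) ^ k * a) = (a * a) * (a * b) ^ k * a := by group
      _ = (a * b) ^ k * a := by rw [ha, one_mul]
  have h2 : (a * b) ^ k * (a * b) ^ k * (a * b) = 1 := by
    rw [← pow_add, ← pow_succ]; rw [← hk]; congr 1; omega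
  rw [mul_assoc, h1, ← mul_assoc]
  have h4 : (a * b) ^ k * (a * b) ^ k = (a * b)⁻¹ := eq_inv_of_mul_eq_one_left h2
  rw [h4, mul_inv_rev, hainv, hbinv, mul_assoc, ha, mul_one]


/-- two non-conjugate involutions are both centralized by a common involution -/
theorem h55_common {G : Type*} [Group G] [Finite G] (x y' : G) (hxx : x * x = 1) (hy'y' : y' * y' = 1)
    (hnc' : ¬ IsConj x y') : ∃ z : G, orderOf z = 2 ∧ Commute z x ∧ Commute y' z := by
  have hxinv : x⁻¹ = x := inv_eq_of_mul_eq_one_right hxx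
  have hy'inv : y'⁻¹ = y' := inv_eq_of_mul_eq_one_right hy'y'
  obtain ⟨d, hd⟩ : ∃ d, d = x * y' := ⟨_, rfl⟩
  have hdpos : 0 < orderOf d := orderOf_pos d
  -- the order of d is even
  have heven : Even (orderOf d) := by
    by_contra hodd
    rw [Nat.not_even_iff_odd] at hodd
    obtain ⟨k, hk⟩ := hodd
    exact hnc' (h55_conj_of_odd x y' hxx hy'y' k (by rw [← hk, ← hd]; exact pow_orderOf_eq_one d))
  obtain ⟨k, hk⟩ := heven
  have hkpos : 0 < k := by omega
  obtain ⟨z, hz⟩ : ∃ z, z = d ^ k := ⟨_, rfl⟩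
  have hzz : z * z = 1 := by
    rw [hz, ← pow_add, ← hk, pow_orderOf_eq_one]
  have hz1 : z ≠ 1 := by
    intro h
    rw [hz] at h
    have := orderOf_dvd_of_pow_eq_one h
    have := Nat.le_of_dvd hkpos this
    omega
  have hzord : orderOf z = 2 := by
    apply orderOf_eq_prime
    · rw [pow_two]; exact hzz
    · exact hz1
  have hzinv : z⁻¹ = z := inv_eq_of_mul_eq_one_right hzz
  have hxd : x * d * x⁻¹ = d⁻¹ := by
    rw [hd, mul_inv_rev, hxinv, hy'inv, ← mul_assoc, hxx, one_mul]
  have hyd : y' * d * y'⁻¹ = d⁻¹ := by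
    rw [hd, mul_inv_rev, hxinv, hy'inv, mul_assoc, mul_assoc, hy'y', mul_one]
  refine ⟨z, hzord, ?_, ?_⟩
  · have : x * z * x⁻¹ = z := by
      rw [hz, ← conj_pow, hxd, inv_pow, ← hz, hzinv]
    have h2 : x * z = z * x := by
      calc x * z = (x * z * x⁻¹) * x := by group
        _ = z * x := by rw [this]
    exact h2.symm
  · have : y' * z * y'⁻¹ = z := by
      rw [hz, ← conj_pow, hyd, inv_pow, ← hz, hzinv]
    have h2 : y' * z = z * y' := by
      calc y' * z = (y' * z * y'⁻¹) * y' := by group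
        _ = z * y' := by rw [this]
    exact h2

/-- main step: every conjugate of y commutes with y -/
theorem h55_comm {G : Type*} [Group G] [Finite G] (x y : G) (hx : orderOf x = 2) (hy : orderOf y = 2)
    (hnc : ¬ IsConj x y)
    (hstar : ∀ u : G, orderOf u = 2 → Commute u x → ∀ g : G, Commute (g * y * g⁻¹) u → Commute (g * y * g⁻¹) y)
    (g : G) : Commute (g * y * g⁻¹) y := by
  have hxx : x * x = 1 := by rw [← pow_two, ← hx, pow_orderOf_eq_one]
  have hyy : y * y = 1 := by rw [← pow_two, ← hy, pow_orderOf_eq_one]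
  have hy'y' : (g * y * g⁻¹) * (g * y * g⁻¹) = 1 := by
    calc g * y * g⁻¹ * (g * y * g⁻¹) = g * (y * y) * g⁻¹ := by group
      _ = 1 := by rw [hyy]; group
  have hnc' : ¬ IsConj x (g * y * g⁻¹) := by
    intro h
    apply hnc
    refine h.trans ?_
    rw [isConj_comm, isConj_iff]
    exact ⟨g, rfl⟩
  obtain ⟨z, hzord, hzx, hzy⟩ := h55_common x (g * y * g⁻¹) hxx hy'y' hnc'
  exact hstar z hzord hzx g hzy

theorem result {G : Type*} [Group G] [Finite G] (x y : G) (hx : orderOf x = 2) (hy : orderOf y = 2)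
    (hxy : Commute x y) (hnc : ¬ IsConj x y)
    (hstar : ∀ u : G, orderOf u = 2 → Commute u x → ∀ g : G, Commute (g * y * g⁻¹) u → Commute (g * y * g⁻¹) y) :
    Subgroup.normalClosure ({y} : Set G) ≠ ⊤ ∧ Cfsg.IsElementaryAbelian 2 (Subgroup.normalClosure ({y} : Set G)) ∧
      ((∀ u ∈ Subgroup.normalClosure ({y} : Set G), orderOf u = 2 → Commute u x → u = y) →
        Nat.card ↥(Subgroup.normalClosure ({y} : Set G)) ≤ 4) := by
  have hxx : x * x = 1 := by rw [← pow_two, ← hx, pow_orderOf_eq_one]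
  have hyy : y * y = 1 := by rw [← pow_two, ← hy, pow_orderOf_eq_one]
  have hxinv : x⁻¹ = x := inv_eq_of_mul_eq_one_right hxx
  have hcomm := h55_comm x y hx hy hnc hstar
  -- all conjugates commute pairwise
  have hpair : ∀ a ∈ Group.conjugatesOfSet ({y} : Set G), ∀ b ∈ Group.conjugatesOfSet ({y} : Set G), a * b = b * a := by
    intro a ha b hb
    rw [Group.mem_conjugatesOfSet_iff] at ha hb
    obtain ⟨a0, ha0, ha⟩ := ha
    obtain ⟨b0, hb0, hb⟩ := hb
    rw [Set.mem_singleton_iff] at ha0 hb0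
    rw [ha0] at ha
    rw [hb0] at hb
    rw [isConj_iff] at ha hb
    obtain ⟨g, rfl⟩ := ha
    obtain ⟨h, rfl⟩ := hb
    have := (hcomm (h⁻¹ * g)).eq
    have h2 : g * y * g⁻¹ * (h * y * h⁻¹) = h * ((h⁻¹ * g) * y * (h⁻¹ * g)⁻¹ * y) * h⁻¹ := by group
    rw [h2, this]; group
  have hsq : ∀ a ∈ Group.conjugatesOfSet ({y} : Set G), a ^ 2 = 1 := by
    intro a ha
    rw [Group.mem_conjugatesOfSet_iff] at ha
    obtain ⟨a0, ha0, ha⟩ := ha
    rw [Set.mem_singleton_iff] at ha0
    rw [ha0] at ha
    rw [isConj_iff] at ha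
    obtain ⟨g, rfl⟩ := ha
    rw [conj_pow, pow_two, hyy]; group
  have hN : Subgroup.normalClosure ({y} : Set G) = Subgroup.closure (Group.conjugatesOfSet ({y} : Set G)) := rfl
  have hNc : IsMulCommutative (Subgroup.normalClosure ({y} : Set G)) := by
    rw [hN]; exact Subgroup.isMulCommutative_closure hpair
  have hNcomm : ∀ a ∈ Subgroup.normalClosure ({y} : Set G), ∀ b ∈ Subgroup.normalClosure ({y} : Set G), a * b = b * a := by
    intro a ha b hb
    exact setLike_mul_comm ha hb
  have hNsq : ∀ a ∈ Subgroup.normalClosure ({y} : Set G), a ^ 2 = 1 := by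
    intro a ha
    rw [hN] at ha
    induction ha using Subgroup.closure_induction with
    | mem a ha => exact hsq a ha
    | one => simp
    | mul a b ha hb iha ihb =>
      have hab : a * b = b * a := hNcomm a (by rw [hN]; exact ha) b (by rw [hN]; exact hb)
      rw [Commute.mul_pow hab 2, iha, ihb, one_mul]
    | inv a ha iha => rw [inv_pow, iha, inv_one]
  have hyN : y ∈ Subgroup.normalClosure ({y} : Set G) :=
    Subgroup.subset_normalClosure (Set.mem_singleton y)
  refine ⟨?_, ⟨hNc, hNsq⟩, ?_⟩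
  · intro htop
    have hGc : ∀ a b : G, a * b = b * a := fun a b =>
      hNcomm a (by rw [htop]; trivial) b (by rw [htop]; trivial)
    apply hnc
    -- x ∈ closure of conjugates of y = zpowers y
    have hx_mem : x ∈ Subgroup.closure (Group.conjugatesOfSet ({y} : Set G)) := by rw [← hN, htop]; trivial
    have hsub : Subgroup.closure (Group.conjugatesOfSet ({y} : Set G)) ≤ Subgroup.zpowers y := by
      rw [Subgroup.closure_le]
      intro a ha
      rw [Group.mem_conjugatesOfSet_iff] at ha
      obtain ⟨a0, ha0, ha⟩ := ha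
      rw [Set.mem_singleton_iff] at ha0
      rw [ha0] at ha
      rw [isConj_iff] at ha
      obtain ⟨g, rfl⟩ := ha
      rw [hGc g y, mul_assoc, mul_inv_cancel, mul_one]
      exact Subgroup.mem_zpowers y
    have hxz := hsub hx_mem
    rw [Subgroup.mem_zpowers_iff] at hxz
    obtain ⟨n, hn⟩ := hxz
    rcases Int.even_or_odd' n with ⟨m, rfl | rfl⟩
    · rw [zpow_mul, zpow_ofNat, pow_two, hyy, one_zpow] at hn
      rw [← hn, orderOf_one] at hx; omega
    · rw [zpow_add, zpow_mul, zpow_ofNat, pow_two, hyy, one_zpow, one_mul, zpow_one] at hn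
      rw [hn]
  · intro huniq
    have hNn : (Subgroup.normalClosure ({y} : Set G)).Normal := Subgroup.normalClosure_normal
    -- elements of N commuting with x are 1 or y
    have hfix : ∀ u ∈ Subgroup.normalClosure ({y} : Set G), x * u * x⁻¹ = u → u = 1 ∨ u = y := by
      intro u hu hxu
      by_cases h1 : u = 1
      · exact Or.inl h1
      · right
        apply huniq u hu
        · apply orderOf_eq_prime (hNsq u hu) h1
        · have : x * u = u * x := by
            calc x * u = (x * u * x⁻¹) * x := by group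
              _ = u * x := by rw [hxu]
          exact this.symm
    let f : ↥(Subgroup.normalClosure ({y} : Set G)) →* ↥(Subgroup.normalClosure ({y} : Set G)) :=
      { toFun := fun n => ⟨(n : G) * (x * (n : G) * x⁻¹), Subgroup.mul_mem _ n.2 (hNn.conj_mem _ n.2 x)⟩
        map_one' := by
          apply Subtype.ext
          simp
        map_mul' := by
          intro a b
          apply Subtype.ext
          simp only [Subgroup.coe_mul]
          have hb' : x * (b : G) * x⁻¹ ∈ Subgroup.normalClosure ({y} : Set G) := hNn.conj_mem _ b.2 x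
          have ha' : x * (a : G) * x⁻¹ ∈ Subgroup.normalClosure ({y} : Set G) := hNn.conj_mem _ a.2 x
          have h1 : x * ((a : G) * (b : G)) * x⁻¹ = (x * (a : G) * x⁻¹) * (x * (b : G) * x⁻¹) := by group
          rw [h1]
          have h2 := hNcomm _ ha' _ b.2
          calc (a : G) * (b : G) * (x * (a : G) * x⁻¹ * (x * (b : G) * x⁻¹))
              = (a : G) * ((b : G) * (x * (a : G) * x⁻¹)) * (x * (b : G) * x⁻¹) := by group
            _ = (a : G) * ((x * (a : G) * x⁻¹) * (b : G)) * (x * (b : G) * x⁻¹) := by rw [h2]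
            _ = (a : G) * (x * (a : G) * x⁻¹) * ((b : G) * (x * (b : G) * x⁻¹)) := by group }
    have hfval : ∀ n : ↥(Subgroup.normalClosure ({y} : Set G)), ((f n : ↥(Subgroup.normalClosure ({y} : Set G))) : G) = (n : G) * (x * (n : G) * x⁻¹) := fun n => rfl
    -- the subgroup Y = {1, y} of N
    have hYcard : Nat.card (Subgroup.zpowers (⟨y, hyN⟩ : ↥(Subgroup.normalClosure ({y} : Set G)))) = 2 := by
      rw [Nat.card_zpowers, Subgroup.orderOf_mk, hy]
    have hrange : f.range ≤ Subgroup.zpowers (⟨y, hyN⟩ : ↥(Subgroup.normalClosure ({y} : Set G))) := by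
      rintro u ⟨n, rfl⟩
      have hmem : ((f n : ↥(Subgroup.normalClosure ({y} : Set G))) : G) ∈ Subgroup.normalClosure ({y} : Set G) := (f n).2
      have hconj : x * ((f n : ↥(Subgroup.normalClosure ({y} : Set G))) : G) * x⁻¹ = ((f n : ↥(Subgroup.normalClosure ({y} : Set G))) : G) := by
        rw [hfval]
        have hn' : x * (n : G) * x⁻¹ ∈ Subgroup.normalClosure ({y} : Set G) := hNn.conj_mem _ n.2 x
        have h1 : x * ((n : G) * (x * (n : G) * x⁻¹)) * x⁻¹ = (x * (n : G) * x⁻¹) * ((x * x) * (n : G) * (x * x)⁻¹) := by group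
        rw [h1, hxx, one_mul, inv_one, mul_one]
        exact hNcomm _ hn' _ n.2
      rcases hfix _ hmem hconj with h | h
      · have : f n = 1 := Subtype.ext h
        rw [this]; exact Subgroup.one_mem _
      · have : f n = ⟨y, hyN⟩ := Subtype.ext h
        rw [this]; exact Subgroup.mem_zpowers _
    have hker : f.ker ≤ Subgroup.zpowers (⟨y, hyN⟩ : ↥(Subgroup.normalClosure ({y} : Set G))) := by
      intro n hn
      rw [MonoidHom.mem_ker] at hn
      have hn1 : (n : G) * (x * (n : G) * x⁻¹) = 1 := by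
        rw [← hfval, hn]; rfl
      have hnsq : (n : G) * (n : G) = 1 := by rw [← pow_two]; exact hNsq _ n.2
      have hconj : x * (n : G) * x⁻¹ = (n : G) := by
        calc x * (n : G) * x⁻¹ = ((n : G) * (n : G)) * (x * (n : G) * x⁻¹) := by rw [hnsq, one_mul]
          _ = (n : G) * ((n : G) * (x * (n : G) * x⁻¹)) := by group
          _ = (n : G) := by rw [hn1, mul_one]
      rcases hfix _ n.2 hconj with h | h
      · have : n = 1 := Subtype.ext h
        rw [this]; exact Subgroup.one_mem _
      · have : n = ⟨y, hyN⟩ := Subtype.ext h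
        rw [this]; exact Subgroup.mem_zpowers _
    have h1 : Nat.card f.ker ≤ 2 := hYcard ▸ Subgroup.card_le_of_le hker
    have h2 : Nat.card f.range ≤ 2 := hYcard ▸ Subgroup.card_le_of_le hrange
    have h3 : Nat.card f.ker * f.ker.index = Nat.card ↥(Subgroup.normalClosure ({y} : Set G)) := Subgroup.card_mul_index _
    rw [Subgroup.index_ker] at h3
    rw [← h3]
    calc Nat.card f.ker * Nat.card f.range ≤ 2 * 2 := Nat.mul_le_mul h1 h2
      _ = 4 := rfl

end Cfsg.Agent.S3276
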