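import Cfsg.Statements.S3279
import Cfsg.Agent.Lib.Helper14.ZStar
import Cfsg.Agent.S0201

set_option autoImplicit false
open Cfsg

namespace Cfsg.Agent.S3279

open scoped Pointwise in
theorem central_case {G : Type*} [Group G] [Finite G] [IsSimpleGroup G] (x : G)
    (hx : orderOf x = 2) (hc : ∀ g : G, g * x = x * g) :
    (∃ S : Sylow 2 G, (S : Subgroup G) ≤ Subgroup.centralizer ({x} : Set G)) ∧
      ∀ u v : G, orderOf u = 2 → orderOf v = 2 → IsConj u v := by
  have hcent : Subgroup.centralizer ({x} : Set G) = ⊤ := by
    rw [eq_top_iff]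
    intro g _
    rw [Subgroup.mem_centralizer_iff]
    intro y hy
    rw [Set.mem_singleton_iff.mp hy]
    exact (hc g).symm
  have hz : Subgroup.zpowers x = ⊤ := by
    have hn : (Subgroup.zpowers x).Normal := by
      constructor
      intro n hn g
      obtain ⟨k, rfl⟩ := Subgroup.mem_zpowers_iff.mp hn
      have h1 : Commute g x := hc g
      have h2 : g * x ^ k * g⁻¹ = x ^ k := mul_inv_eq_of_eq_mul (h1.zpow_right k).eq
      rw [h2]
      exact Subgroup.zpow_mem_zpowers x k
    rcases hn.eq_bot_or_eq_top with h | h
    · exfalso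
      have h1 : x = 1 := Subgroup.zpowers_eq_bot.mp h
      rw [h1, orderOf_one] at hx
      omega
    · exact h
  have key : ∀ u : G, orderOf u = 2 → u = x := by
    intro u hu
    have hu' : u ∈ Subgroup.zpowers x := by rw [hz]; trivial
    obtain ⟨k, rfl⟩ := Subgroup.mem_zpowers_iff.mp hu'
    have h1 : x ^ (k % ((orderOf x : ℕ) : ℤ)) = x ^ k := zpow_mod_orderOf x k
    rw [hx] at h1
    rcases Int.emod_two_eq_zero_or_one k with h | h
    · exfalso
      have h2 : x ^ k = 1 := by
        rw [← h1]
        have : k % ((2 : ℕ) : ℤ) = 0 := by exact_mod_cast h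
        rw [this, zpow_zero]
      rw [h2, orderOf_one] at hu
      omega
    · rw [← h1]
      have : k % ((2 : ℕ) : ℤ) = 1 := by exact_mod_cast h
      rw [this, zpow_one]
  refine ⟨⟨default, by rw [hcent]; exact le_top⟩, ?_⟩
  intro u v hu hv
  rw [key u hu, key v hv]

theorem sq_one {G : Type*} [Group G] {a : G} (ha : orderOf a = 2) : a * a = 1 := by
  have := pow_orderOf_eq_one a
  rw [ha, pow_two] at this
  exact this

theorem ne_one {G : Type*} [Group G] {a : G} (ha : orderOf a = 2) : a ≠ 1 := by
  intro h
  rw [h, orderOf_one] at ha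
  omega

theorem order_two {G : Type*} [Group G] {a : G} (h1 : a * a = 1) (h2 : a ≠ 1) : orderOf a = 2 := by
  have : Fact (Nat.Prime 2) := ⟨Nat.prime_two⟩
  exact orderOf_eq_prime (by rw [pow_two]; exact h1) h2

theorem order_conj {G : Type*} [Group G] {a : G} (ha : orderOf a = 2) (g : G) :
    orderOf (g * a * g⁻¹) = 2 := by
  apply order_two
  · have h := sq_one ha
    calc g * a * g⁻¹ * (g * a * g⁻¹) = g * (a * a) * g⁻¹ := by group
      _ = 1 := by rw [h]; group
  · intro h
    apply ne_one ha
    calc a = g⁻¹ * (g * a * g⁻¹) * g := by group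
      _ = 1 := by rw [h]; group

/-- the central involution of a dihedral group `⟨a, b⟩` with `ab` of even order -/
theorem dihedral_central {G : Type*} [Group G] {a b : G} (ha : a * a = 1) (hb : b * b = 1)
    (k : ℕ) (hk : (a * b) ^ (k + k) = 1) :
    Commute ((a * b) ^ k) a ∧ Commute ((a * b) ^ k) b := by
  have hai : a⁻¹ = a := inv_eq_of_mul_eq_one_left ha
  have hbi : b⁻¹ = b := inv_eq_of_mul_eq_one_left hb
  have hinv : ((a * b) ^ k)⁻¹ = (a * b) ^ k := by
    apply inv_eq_of_mul_eq_one_left
    rw [← pow_add]; exact hk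
  have hba : b * a = (a * b)⁻¹ := by rw [mul_inv_rev, hai, hbi]
  constructor
  · -- a * u * a⁻¹ = (b*a)^k = u⁻¹ = u
    have h1 : a * (a * b) ^ k * a⁻¹ = (a * b) ^ k := by
      rw [← conj_pow]
      have : a * (a * b) * a⁻¹ = (a * b)⁻¹ := by
        rw [← hba, hai]
        calc a * (a * b) * a = (a * a) * b * a := by group
          _ = b * a := by rw [ha, one_mul]
      rw [this, inv_pow, hinv]
    have h2 : a * (a * b) ^ k = (a * b) ^ k * a := by
      calc a * (a * b) ^ k = a * (a * b) ^ k * a⁻¹ * a := by group
        _ = (a * b) ^ k * a := by rw [h1]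
    exact h2.symm
  · have h1 : b⁻¹ * (a * b) ^ k * b⁻¹⁻¹ = (a * b) ^ k := by
      rw [← conj_pow]
      have : b⁻¹ * (a * b) * b⁻¹⁻¹ = (a * b)⁻¹ := by
        rw [← hba, inv_inv, hbi]
        calc b * (a * b) * b = b * a * (b * b) := by group
          _ = b * a := by rw [hb, mul_one]
      rw [this, inv_pow, hinv]
    have h2 : (a * b) ^ k * b = b * (a * b) ^ k := by
      calc (a * b) ^ k * b = b * (b⁻¹ * (a * b) ^ k * b⁻¹⁻¹) := by group
        _ = b * (a * b) ^ k := by rw [h1]
    exact h2

/-- Let G be a finite simple group and x an involution of G whose centralizer contains at most three involutions. Then C_G(x) contains a Sylow 2-subgroup of G, and all involutions of G are conjugate. -/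
theorem result {G : Type*} [Group G] [Finite G] [IsSimpleGroup G] (x : G) (hx : orderOf x = 2)
    (h3 : Nat.card {u : ↥(Subgroup.centralizer ({x} : Set G)) // orderOf u = 2} ≤ 3) :
    (∃ S : Sylow 2 G, (S : Subgroup G) ≤ Subgroup.centralizer ({x} : Set G)) ∧
      ∀ u v : G, orderOf u = 2 → orderOf v = 2 → IsConj u v := by

  classical
  have memC : ∀ a : G, Commute a x → a ∈ Subgroup.centralizer ({x} : Set G) := by
    intro a h
    rw [Subgroup.mem_centralizer_iff]
    intro y hy
    rw [Set.mem_singleton_iff.mp hy]
    exact h.symm.eq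
  have ofC : ∀ a : G, a ∈ Subgroup.centralizer ({x} : Set G) → Commute a x := by
    intro a h
    rw [Subgroup.mem_centralizer_iff] at h
    exact (h x rfl).symm
  have four : ∀ a b c d : G, orderOf a = 2 → orderOf b = 2 → orderOf c = 2 → orderOf d = 2 →
      Commute a x → Commute b x → Commute c x → Commute d x →
      a ≠ b → a ≠ c → a ≠ d → b ≠ c → b ≠ d → c ≠ d → False := by
    intro a b c d ha hb hc hd ca cb cc cd hab hac had hbc hbd hcd
    have hfin : Fintype {u : ↥(Subgroup.centralizer ({x} : Set G)) // orderOf u = 2} :=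
      Fintype.ofFinite _
    have mkT : ∀ t : G, orderOf t = 2 → Commute t x →
        ∃ T : {u : ↥(Subgroup.centralizer ({x} : Set G)) // orderOf u = 2}, ((T.1 : ↥(Subgroup.centralizer ({x} : Set G))) : G) = t := by
      intro t ht ct
      exact ⟨⟨⟨t, memC t ct⟩, by rw [Subgroup.orderOf_mk]; exact ht⟩, rfl⟩
    obtain ⟨ta, hta⟩ := mkT a ha ca
    obtain ⟨tb, htb⟩ := mkT b hb cb
    obtain ⟨tc, htc⟩ := mkT c hc cc
    obtain ⟨td, htd⟩ := mkT d hd cd
    have nab : ta ≠ tb := by intro h; apply hab; rw [← hta, ← htb, h]
    have nac : ta ≠ tc := by intro h; apply hac; rw [← hta, ← htc, h]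
    have nad : ta ≠ td := by intro h; apply had; rw [← hta, ← htd, h]
    have nbc : tb ≠ tc := by intro h; apply hbc; rw [← htb, ← htc, h]
    have nbd : tb ≠ td := by intro h; apply hbd; rw [← htb, ← htd, h]
    have ncd : tc ≠ td := by intro h; apply hcd; rw [← htc, ← htd, h]
    have h4 : ({ta, tb, tc, td} : Finset _).card = 4 := by
      rw [Finset.card_insert_of_notMem, Finset.card_insert_of_notMem,
        Finset.card_insert_of_notMem, Finset.card_singleton]
      · simp [ncd]
      · simp [nbc, nbd]
      · simp [nab, nac, nad]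
    have h5 : ({ta, tb, tc, td} : Finset _).card ≤ Fintype.card _ := Finset.card_le_univ _
    rw [Nat.card_eq_fintype_card] at h3
    omega
  have hxx := sq_one hx
  by_cases hiso : IsIsolatedInvolution x
  · apply central_case x hx
    intro g
    have h1 := Cfsg.Agent.Lib.Helper14.ZStar.zstar
      (fun G _ _ S n e hO => Cfsg.Agent.S0201.result S n e hO) x hiso g
    rcases (Cfsg.pPrimeCore_normal 2 G).eq_bot_or_eq_top with h | h
    · rw [h, Subgroup.mem_bot] at h1
      calc g * x = g * x * g⁻¹ * x⁻¹ * x * g := by group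
        _ = x * g := by rw [h1, one_mul]
    · exfalso
      have hc := Cfsg.Agent.Lib.Helper50.Cores.pPrimeCore_coprime (G := G) 2
      rw [h, Subgroup.card_top] at hc
      have h2 : 2 ∣ Nat.card G := hx ▸ orderOf_dvd_natCard x
      have h3' : (2 : ℕ) ∣ Nat.gcd (Nat.card G) 2 := Nat.dvd_gcd h2 (dvd_refl 2)
      rw [Nat.Coprime] at hc
      rw [hc] at h3'
      omega
  · unfold IsIsolatedInvolution at hiso
    push Not at hiso
    obtain ⟨g₀, hcomm, hne⟩ := hiso hx
    obtain ⟨y, hy⟩ : ∃ y, y = g₀ * x * g₀⁻¹ := ⟨_, rfl⟩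
    rw [← hy] at hcomm hne
    have hy2 : orderOf y = 2 := by rw [hy]; exact order_conj hx g₀
    have hyy := sq_one hy2
    have hcy : Commute y x := hcomm.symm
    obtain ⟨w, hw⟩ : ∃ w, w = x * y := ⟨_, rfl⟩
    have hww : w * w = 1 := by
      rw [hw]
      calc x * y * (x * y) = x * (y * x) * y := by group
        _ = x * (x * y) * y := by rw [hcy.eq]
        _ = (x * x) * (y * y) := by group
        _ = 1 := by rw [hxx, hyy, one_mul]
    have hw1 : w ≠ 1 := by
      intro h
      rw [hw] at h
      apply hne
      calc y = x⁻¹ * (x * y) := by group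
        _ = x⁻¹ := by rw [h, mul_one]
        _ = x := inv_eq_of_mul_eq_one_left hxx
    have hw2 : orderOf w = 2 := order_two hww hw1
    have hcw : Commute w x := by
      rw [hw]
      exact (Commute.refl x).mul_left hcy
    have hwx : w ≠ x := by
      intro h
      rw [hw] at h
      apply ne_one hy2
      calc y = x⁻¹ * (x * y) := by group
        _ = x⁻¹ * x := by rw [h]
        _ = 1 := by group
    have hwy : w ≠ y := by
      intro h
      rw [hw] at h
      apply ne_one hx
      calc x = (x * y) * y⁻¹ := by group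
        _ = y * y⁻¹ := by rw [h]
        _ = 1 := by group
    have three : ∀ u : G, orderOf u = 2 → Commute u x → u = x ∨ u = y ∨ u = w := by
      intro u hu hc
      by_contra hcon
      push Not at hcon
      exact four x y w u hx hy2 hw2 hu (Commute.refl x) hcy hcw hc (Ne.symm hne)
        (Ne.symm hwx) (Ne.symm hcon.1) (Ne.symm hwy) (Ne.symm hcon.2.1) (Ne.symm hcon.2.2)
    by_cases hwc : ∃ h : G, h * x * h⁻¹ = w
    · obtain ⟨h₀, hh₀⟩ := hwc
      have conjx : ∀ u : G, orderOf u = 2 → Commute u x → ∃ a : G, a * x * a⁻¹ = u := by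
        intro u hu hc
        rcases three u hu hc with h | h | h
        · exact ⟨1, by rw [h]; group⟩
        · exact ⟨g₀, by rw [h, hy]⟩
        · exact ⟨h₀, by rw [h, hh₀]⟩
      -- a Sylow 2-subgroup containing x
      obtain ⟨S, hS⟩ := (Cfsg.Agent.Lib.Helper14.BSKer.isPGroup_zpowers hx).exists_le_sylow
      have hxS : x ∈ (S : Subgroup G) := hS (Subgroup.mem_zpowers x)
      have hnt : Nontrivial ↥(S : Subgroup G) := by
        refine ⟨⟨⟨x, hxS⟩, 1, ?_⟩⟩
        intro h
        apply ne_one hx
        exact congrArg Subtype.val h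
      have hcn : Nontrivial ↥(Subgroup.center ↥(S : Subgroup G)) := S.2.center_nontrivial
      have hpc : IsPGroup 2 ↥(Subgroup.center ↥(S : Subgroup G)) := S.2.to_subgroup _
      obtain ⟨n, hn⟩ := IsPGroup.iff_card.mp hpc
      have hn0 : n ≠ 0 := by
        intro h
        rw [h, pow_zero] at hn
        have := Finite.one_lt_card (α := ↥(Subgroup.center ↥(S : Subgroup G)))
        omega
      have h2dvd : 2 ∣ Nat.card ↥(Subgroup.center ↥(S : Subgroup G)) := by
        rw [hn]; exact dvd_pow_self 2 hn0
      obtain ⟨z', hz'⟩ := exists_prime_orderOf_dvd_card' 2 h2dvd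
      obtain ⟨z, hzdef⟩ : ∃ z : G, z = ((z' : ↥(S : Subgroup G)) : G) := ⟨_, rfl⟩
      have hz2 : orderOf z = 2 := by
        rw [hzdef, Subgroup.orderOf_coe, Subgroup.orderOf_coe]; exact hz'
      have hzS : ∀ s ∈ (S : Subgroup G), s * z = z * s := by
        intro s hs
        have h1 := Subgroup.mem_center_iff.mp z'.2 ⟨s, hs⟩
        have h2 := congrArg Subtype.val h1
        rw [hzdef]
        exact h2
      have hczx : Commute z x := (hzS x hxS).symm
      obtain ⟨a, ha⟩ := conjx z hz2 hczx
      have hSub : ((a⁻¹ • S : Sylow 2 G) : Subgroup G) ≤ Subgroup.centralizer ({x} : Set G) := by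
        intro t ht
        rw [Sylow.coe_subgroup_smul, Subgroup.mem_smul_pointwise_iff_exists] at ht
        obtain ⟨s, hs, rfl⟩ := ht
        apply memC
        rw [MulAut.smul_def, MulAut.conj_apply, inv_inv]
        have h1 := hzS s hs
        rw [← ha] at h1
        -- s * (a x a⁻¹) = (a x a⁻¹) * s
        have h2 : a⁻¹ * s * a * x = x * (a⁻¹ * s * a) := by
          calc a⁻¹ * s * a * x = a⁻¹ * (s * (a * x * a⁻¹)) * a := by group
            _ = a⁻¹ * ((a * x * a⁻¹) * s) * a := by rw [h1]
            _ = x * (a⁻¹ * s * a) := by group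
        exact h2
      have allconj : ∀ u : G, orderOf u = 2 → ∃ b : G, b * x * b⁻¹ = u := by
        intro u hu
        obtain ⟨c, hc⟩ := Cfsg.Agent.Lib.Helper14.BSKer.exists_conj_mem (a⁻¹ • S : Sylow 2 G) _
          (Cfsg.Agent.Lib.Helper14.BSKer.isPGroup_zpowers hu)
        have h1 := hSub (hc u (Subgroup.mem_zpowers u))
        obtain ⟨b, hb⟩ := conjx (c * u * c⁻¹) (order_conj hu c) (ofC _ h1)
        refine ⟨c⁻¹ * b, ?_⟩
        calc c⁻¹ * b * x * (c⁻¹ * b)⁻¹ = c⁻¹ * (b * x * b⁻¹) * c := by group
          _ = c⁻¹ * (c * u * c⁻¹) * c := by rw [hb]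
          _ = u := by group
      refine ⟨⟨a⁻¹ • S, hSub⟩, ?_⟩
      intro u v hu hv
      obtain ⟨b, hb⟩ := allconj u hu
      obtain ⟨c, hc⟩ := allconj v hv
      rw [isConj_iff]
      refine ⟨c * b⁻¹, ?_⟩
      rw [← hb, ← hc]
      group
    · -- w is not conjugate to x: all conjugates of w commute
      exfalso
      have notconj : ∀ t : G, orderOf t = 2 → Commute t x → (¬ ∃ h : G, h * x * h⁻¹ = t) → t = w := by
        intro t ht hc hn
        rcases three t ht hc with h | h | h
        · exfalso; exact hn ⟨1, by rw [h]; group⟩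
        · exfalso; exact hn ⟨g₀, by rw [h, hy]⟩
        · exact h
      have hcwy : Commute w y := by
        rw [hw]
        exact hcy.symm.mul_left (Commute.refl y)
      have claim : ∀ g : G, Commute w (g * w * g⁻¹) := by
        intro g
        obtain ⟨z', hz'⟩ : ∃ z', z' = g * w * g⁻¹ := ⟨_, rfl⟩
        rw [← hz']
        have hz'2 : orderOf z' = 2 := by rw [hz']; exact order_conj hw2 g
        have hz'z' := sq_one hz'2
        have hz'nc : ¬ ∃ h : G, h * x * h⁻¹ = z' := by
          rintro ⟨h, hh⟩
          apply hwc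
          refine ⟨g⁻¹ * h, ?_⟩
          calc g⁻¹ * h * x * (g⁻¹ * h)⁻¹ = g⁻¹ * (h * x * h⁻¹) * g := by group
            _ = g⁻¹ * (g * w * g⁻¹) * g := by rw [hh, hz']
            _ = w := by group
        rcases Nat.even_or_odd' (orderOf (z' * x)) with ⟨k, hk | hk⟩
        · -- even order
          have hpos : 0 < orderOf (z' * x) := orderOf_pos _
          have hk0 : k ≠ 0 := by omega
          have hpow : (z' * x) ^ (k + k) = 1 := by
            have : k + k = orderOf (z' * x) := by omega
            rw [this]; exact pow_orderOf_eq_one _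
          obtain ⟨hcux, hcuz⟩ := dihedral_central hz'z' hxx k hpow
          have hu1 : (z' * x) ^ k ≠ 1 := pow_ne_one_of_lt_orderOf hk0 (by omega)
          have huu : (z' * x) ^ k * (z' * x) ^ k = 1 := by rw [← pow_add]; exact hpow
          have hu2 : orderOf ((z' * x) ^ k) = 2 := order_two huu hu1
          obtain ⟨u, hu⟩ : ∃ u, u = (z' * x) ^ k := ⟨_, rfl⟩
          rw [← hu] at hcux hcuz hu2
          rcases three u hu2 hcuz with h | h | h
          · -- u = x : z' commutes with x
            rw [h] at hcux
            have := notconj z' hz'2 hcux.symm hz'nc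
            rw [this]
          · -- u = y
            rw [h] at hcux
            -- hcux : Commute y z'
            have e1 : g₀⁻¹ * z' * g₀ = w := by
              apply notconj
              · have := order_conj hz'2 g₀⁻¹
                rwa [inv_inv] at this
              · have h1 : y * z' = z' * y := hcux.eq
                rw [hy] at h1
                have h2 : g₀⁻¹ * z' * g₀ * x = x * (g₀⁻¹ * z' * g₀) := by
                  calc g₀⁻¹ * z' * g₀ * x = g₀⁻¹ * (z' * (g₀ * x * g₀⁻¹)) * g₀ := by group
                    _ = g₀⁻¹ * ((g₀ * x * g₀⁻¹) * z') * g₀ := by rw [h1]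
                    _ = x * (g₀⁻¹ * z' * g₀) := by group
                exact h2
              · rintro ⟨h', hh'⟩
                apply hz'nc
                refine ⟨g₀ * h', ?_⟩
                calc g₀ * h' * x * (g₀ * h')⁻¹ = g₀ * (h' * x * h'⁻¹) * g₀⁻¹ := by group
                  _ = g₀ * (g₀⁻¹ * z' * g₀) * g₀⁻¹ := by rw [hh']
                  _ = z' := by group
            have e2 : g₀⁻¹ * w * g₀ = w := by
              apply notconj
              · have := order_conj hw2 g₀⁻¹
                rwa [inv_inv] at this
              · have h1 : w * y = y * w := hcwy.eq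
                rw [hy] at h1
                have h2 : g₀⁻¹ * w * g₀ * x = x * (g₀⁻¹ * w * g₀) := by
                  calc g₀⁻¹ * w * g₀ * x = g₀⁻¹ * (w * (g₀ * x * g₀⁻¹)) * g₀ := by group
                    _ = g₀⁻¹ * ((g₀ * x * g₀⁻¹) * w) * g₀ := by rw [h1]
                    _ = x * (g₀⁻¹ * w * g₀) := by group
                exact h2
              · rintro ⟨h', hh'⟩
                apply hwc
                refine ⟨g₀ * h', ?_⟩
                calc g₀ * h' * x * (g₀ * h')⁻¹ = g₀ * (h' * x * h'⁻¹) * g₀⁻¹ := by group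
                  _ = g₀ * (g₀⁻¹ * w * g₀) * g₀⁻¹ := by rw [hh']
                  _ = w := by group
            have e3 : z' = w := by
              calc z' = g₀ * (g₀⁻¹ * z' * g₀) * g₀⁻¹ := by group
                _ = g₀ * (g₀⁻¹ * w * g₀) * g₀⁻¹ := by rw [e1, e2]
                _ = w := by group
            rw [e3]
          · rw [h] at hcux
            exact hcux
        · -- odd order: z' conjugate to x
          exfalso
          apply hz'nc
          have hpow : (z' * x) ^ (2 * k + 1) = 1 := by
            rw [← hk]; exact pow_orderOf_eq_one _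
          have h1 := Cfsg.Agent.Lib.Helper14.ZStar.dihedral_conj hz'z' hxx k
          rw [hpow, mul_one] at h1
          refine ⟨((z' * x) ^ k)⁻¹, ?_⟩
          rw [inv_inv]
          exact h1.symm
      -- normal closure of w is central-ish
      have hN : Subgroup.normalClosure ({w} : Set G) = ⊤ := by
        rcases (Subgroup.normalClosure_normal (s := ({w} : Set G))).eq_bot_or_eq_top with h | h
        · exfalso
          have : w ∈ Subgroup.normalClosure ({w} : Set G) :=
            Subgroup.subset_normalClosure (Set.mem_singleton w)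
          rw [h, Subgroup.mem_bot] at this
          exact hw1 this
        · exact h
      have hle : Subgroup.normalClosure ({w} : Set G) ≤ Subgroup.centralizer ({w} : Set G) := by
        unfold Subgroup.normalClosure
        rw [Subgroup.closure_le]
        intro t ht
        rw [Group.mem_conjugatesOfSet_iff] at ht
        obtain ⟨b, hb, hconj⟩ := ht
        rw [Set.mem_singleton_iff] at hb
        rw [hb, isConj_iff] at hconj
        obtain ⟨c, rfl⟩ := hconj
        rw [SetLike.mem_coe, Subgroup.mem_centralizer_iff]
        intro y' hy'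
        rw [Set.mem_singleton_iff.mp hy']
        exact (claim c).eq
      have hwcen : w ∈ Subgroup.center G := by
        rw [Subgroup.mem_center_iff]
        intro g
        have h1 : g ∈ Subgroup.centralizer ({w} : Set G) := hle (by rw [hN]; trivial)
        rw [Subgroup.mem_centralizer_iff] at h1
        exact (h1 w rfl).symm
      have hcen : Subgroup.center G = ⊤ := by
        rcases (inferInstance : (Subgroup.center G).Normal).eq_bot_or_eq_top with h | h
        · exfalso
          rw [h, Subgroup.mem_bot] at hwcen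
          exact hw1 hwcen
        · exact h
      have hxcen : x ∈ Subgroup.center G := by rw [hcen]; trivial
      -- then G is abelian simple with two distinct involutions: contradiction via central_case
      have hcc := central_case x hx (fun g => Subgroup.mem_center_iff.mp hxcen g)
      have h1 := hcc.2 x y hx hy2
      rw [isConj_iff] at h1
      obtain ⟨c, hc⟩ := h1
      apply hne
      rw [← hc]
      have h2 : c * x = x * c := Subgroup.mem_center_iff.mp hxcen c
      rw [h2]
      group

end Cfsg.Agent.S3279
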