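import Cfsg.Statements.S3305

set_option autoImplicit false
open Cfsg

namespace Cfsg.Agent.S3305

/-- A Sylow subgroup of a quotient lifts to a Sylow subgroup containing a prescribed `p`-subgroup
of its preimage. -/
theorem lift_sylow {G G' : Type*} [Group G] [Group G'] [Finite G] {p : ℕ} [Fact p.Prime]
    (f : G →* G') (hf : Function.Surjective f) (P : Sylow p G') (R : Subgroup G) (hR : IsPGroup p R)
    (hRP : R ≤ (P : Subgroup G').comap f) :
    ∃ Q : Sylow p G, R ≤ (Q : Subgroup G) ∧ (Q : Subgroup G).map f = (P : Subgroup G') := by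
  have : Finite G' := Finite.of_surjective f hf
  have hR₀ : IsPGroup p (R.subgroupOf ((P : Subgroup G').comap f)) :=
    hR.comap_of_injective _ (Subgroup.subtype_injective _)
  obtain ⟨Q₀, hQ₀⟩ := hR₀.exists_le_sylow
  let Q : Subgroup G := (Q₀ : Subgroup ((P : Subgroup G').comap f)).map ((P : Subgroup G').comap f).subtype
  have hPQ : Q.map f ≤ P := Subgroup.map_le_iff_le_comap.mpr (Subgroup.map_subtype_le Q₀.1)
  have hpQ : IsPGroup p Q := Q₀.2.map ((P : Subgroup G').comap f).subtype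
  have hQ : ¬ p ∣ Q.index := by
    rw [Subgroup.index_map_subtype Q₀.1, P.index_comap_of_surjective hf]
    exact Nat.Prime.not_dvd_mul Fact.out Q₀.not_dvd_index P.not_dvd_index
  refine ⟨hpQ.toSylow hQ, ?_, ?_⟩
  · intro r hr
    have h1 : (⟨r, hRP hr⟩ : ((P : Subgroup G').comap f)) ∈ R.subgroupOf ((P : Subgroup G').comap f) := by
      rw [Subgroup.mem_subgroupOf]; exact hr
    have h2 := hQ₀ h1
    show r ∈ Q
    exact ⟨⟨r, hRP hr⟩, h2, rfl⟩
  · exact (((hpQ.map f).toSylow (fun h ↦ hQ (h.trans (Q.index_map_dvd hf)))).3 P.2 hPQ).symm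

theorem result {G : Type*} [Group G] [Finite G]
    (hC : ∀ S T : Sylow 2 G, S ≠ T → IsCyclic ↥((S : Subgroup G) ⊓ (T : Subgroup G))) (H : Subgroup G) [H.Normal] :
    ∀ S T : Sylow 2 (G ⧸ H), S ≠ T → IsCyclic ↥((S : Subgroup (G ⧸ H)) ⊓ (T : Subgroup (G ⧸ H))) := by
  intro S T hST
  have : Fact (Nat.Prime 2) := ⟨Nat.prime_two⟩
  have hπ : Function.Surjective (QuotientGroup.mk' H) := QuotientGroup.mk'_surjective H
  -- the preimage of the intersection
  obtain ⟨Dbar, hDbar⟩ : ∃ Dbar : Subgroup (G ⧸ H), Dbar = (S : Subgroup (G ⧸ H)) ⊓ (T : Subgroup (G ⧸ H)) := ⟨_, rfl⟩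
  rw [← hDbar]
  have hDS : Dbar ≤ (S : Subgroup (G ⧸ H)) := hDbar ▸ inf_le_left
  have hDT : Dbar ≤ (T : Subgroup (G ⧸ H)) := hDbar ▸ inf_le_right
  have hφ : Function.Surjective ((QuotientGroup.mk' H).subgroupComap Dbar) :=
    (QuotientGroup.mk' H).subgroupComap_surjective_of_surjective Dbar hπ
  -- a Sylow 2-subgroup of the preimage
  obtain ⟨R₀⟩ : Nonempty (Sylow 2 (Dbar.comap (QuotientGroup.mk' H))) := Sylow.nonempty
  have hR : IsPGroup 2 ((R₀ : Subgroup (Dbar.comap (QuotientGroup.mk' H))).map (Dbar.comap (QuotientGroup.mk' H)).subtype) :=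
    R₀.2.map _
  have hRD : (R₀ : Subgroup (Dbar.comap (QuotientGroup.mk' H))).map (Dbar.comap (QuotientGroup.mk' H)).subtype
      ≤ Dbar.comap (QuotientGroup.mk' H) := Subgroup.map_subtype_le _
  obtain ⟨S₁, hRS, hS₁⟩ := lift_sylow (QuotientGroup.mk' H) hπ S _ hR
    (hRD.trans (Subgroup.comap_mono hDS))
  obtain ⟨T₁, hRT, hT₁⟩ := lift_sylow (QuotientGroup.mk' H) hπ T _ hR
    (hRD.trans (Subgroup.comap_mono hDT))
  have hne : S₁ ≠ T₁ := by
    intro h
    apply hST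
    apply Sylow.ext
    rw [← hS₁, ← hT₁, h]
  have := hC S₁ T₁ hne
  -- R₀ is cyclic
  have hcycR : IsCyclic ↥(R₀ : Subgroup (Dbar.comap (QuotientGroup.mk' H))) := by
    let ι : ↥(R₀ : Subgroup (Dbar.comap (QuotientGroup.mk' H))) →* ↥((S₁ : Subgroup G) ⊓ (T₁ : Subgroup G)) :=
      MonoidHom.codRestrict (((Dbar.comap (QuotientGroup.mk' H)).subtype).comp
        (R₀ : Subgroup (Dbar.comap (QuotientGroup.mk' H))).subtype) ((S₁ : Subgroup G) ⊓ (T₁ : Subgroup G))
        (by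
          intro x
          have hx : ((x : (Dbar.comap (QuotientGroup.mk' H))) : G) ∈
              (R₀ : Subgroup (Dbar.comap (QuotientGroup.mk' H))).map (Dbar.comap (QuotientGroup.mk' H)).subtype :=
            ⟨x, x.2, rfl⟩
          exact ⟨hRS hx, hRT hx⟩)
    apply isCyclic_of_injective ι
    intro a b hab
    have h1 : ((a : (Dbar.comap (QuotientGroup.mk' H))) : G) = ((b : (Dbar.comap (QuotientGroup.mk' H))) : G) :=
      congrArg (fun z : ↥((S₁ : Subgroup G) ⊓ (T₁ : Subgroup G)) => (z : G)) hab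
    exact Subtype.ext (Subtype.ext h1)
  -- the image of R₀ in Dbar is everything
  have hDp : IsPGroup 2 ↥Dbar := S.2.to_le hDS
  have htop : ((R₀.mapSurjective hφ : Sylow 2 ↥Dbar) : Subgroup ↥Dbar) = ⊤ :=
    ((R₀.mapSurjective hφ).is_maximal' (hDp.to_subgroup ⊤) le_top).symm
  rw [Sylow.coe_mapSurjective] at htop
  let ψ : ↥(R₀ : Subgroup (Dbar.comap (QuotientGroup.mk' H))) →* ↥Dbar :=
    ((QuotientGroup.mk' H).subgroupComap Dbar).comp (R₀ : Subgroup (Dbar.comap (QuotientGroup.mk' H))).subtype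
  apply isCyclic_of_surjective ψ
  intro d
  have hd : d ∈ (R₀ : Subgroup (Dbar.comap (QuotientGroup.mk' H))).map ((QuotientGroup.mk' H).subgroupComap Dbar) := by
    rw [htop]; trivial
  obtain ⟨r, hr, hrd⟩ := hd
  exact ⟨⟨r, hr⟩, hrd⟩

end Cfsg.Agent.S3305
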