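import Cfsg.Statements.S3303
import Cfsg.Agent.S3305
import Cfsg.Agent.Lib.Helper55.SolvCore

set_option autoImplicit false
open Cfsg

namespace Cfsg.Agent.S3303

open Cfsg.Agent.Lib.Helper55.SolvCore

/-- A finite solvable group with no nontrivial normal subgroup of odd order, in which distinct
Sylow 2-subgroups meet in cyclic groups, has a normal Sylow 2-subgroup. -/
theorem core_case {X : Type*} [Group X] [Finite X] (hs : Group.IsSolvable X)
    (hcore : ∀ K : Subgroup X, K.Normal → (Nat.card K).Coprime 2 → K = ⊥)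
    (hC : ∀ S T : Sylow 2 X, S ≠ T → IsCyclic ↥((S : Subgroup X) ⊓ (T : Subgroup X))) :
    ∃ P : Sylow 2 X, (P : Subgroup X).Normal := by
  have : Fact (Nat.Prime 2) := ⟨Nat.prime_two⟩
  obtain ⟨P⟩ : Nonempty (Sylow 2 X) := Sylow.nonempty
  by_cases hsub : Subsingleton (Sylow 2 X)
  · exact ⟨P, P.normal_of_subsingleton⟩
  · rw [not_subsingleton_iff_nontrivial] at hsub
    obtain ⟨S, T, hST⟩ := hsub
    exfalso
    obtain ⟨Q, hQdef⟩ : ∃ Q : Subgroup X, Q = (P : Subgroup X).normalCore := ⟨_, rfl⟩
    have hQn : Q.Normal := hQdef ▸ Subgroup.normalCore_normal _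
    have hQp : IsPGroup 2 Q := P.2.to_le (hQdef ▸ Subgroup.normalCore_le _)
    have hmax : ∀ M : Subgroup X, M.Normal → IsPGroup 2 M → M ≤ Q := by
      intro M hMn hMp
      rw [hQdef]
      exact Subgroup.normal_le_normalCore.mpr (hMp.le_sylow_of_normal P)
    have hQS : Q ≤ S := hQp.le_sylow_of_normal S
    have hQT : Q ≤ T := hQp.le_sylow_of_normal T
    have hcyc : IsCyclic ↥((S : Subgroup X) ⊓ (T : Subgroup X)) := hC S T hST
    have hQc : IsCyclic Q := Subgroup.isCyclic_of_le (le_inf hQS hQT)
    have hcent := centralizer_le_of_solvable 2 hs hcore Q hmax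
    have hp : IsPGroup 2 X := by
      apply isPGroup_two_of_no_odd
      intro g hg
      have h1 : g ∈ Subgroup.centralizer (Q : Set X) := by
        rw [Subgroup.mem_centralizer_iff]
        intro q hq
        have h := odd_centralizes_cyclic_two Q hQp g hg q hq
        calc q * g = (g * q * g⁻¹) * g := by rw [h]
          _ = g * q := by group
      have h2 : g ∈ Q := hcent h1
      obtain ⟨k, hk⟩ := hQp ⟨g, h2⟩
      have hk' : g ^ 2 ^ k = 1 := by
        have := congrArg Subtype.val hk
        simpa using this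
      have hdvd : orderOf g ∣ 2 ^ k := orderOf_dvd_of_pow_eq_one hk'
      have h3 : orderOf g = 1 :=
        Nat.Coprime.eq_one_of_dvd (Nat.Coprime.pow_right k (Nat.coprime_two_right.mpr hg)) hdvd
      exact orderOf_eq_one_iff.mp h3
    apply hST
    apply Sylow.ext
    rw [← S.is_maximal' (hp.to_subgroup ⊤) le_top, ← T.is_maximal' (hp.to_subgroup ⊤) le_top]

/-- Let G be a finite solvable group in which the intersection of any two distinct Sylow 2-subgroups is cyclic. Then G/O(G) has a normal Sylow 2-subgroup, where O(G) is the largest normal subgroup of odd order. -/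
theorem result {G : Type*} [Group G] [Finite G] (hs : Group.IsSolvable G)
    (hC : ∀ S T : Sylow 2 G, S ≠ T → IsCyclic ↥((S : Subgroup G) ⊓ (T : Subgroup G))) :
    ∃ P : Sylow 2 (G ⧸ Cfsg.oddCore G), (P : Subgroup (G ⧸ Cfsg.oddCore G)).Normal := by
  apply core_case
  · infer_instance
  · exact fun K hKn hKc => quotient_pPrimeCore_core_trivial 2 K hKn hKc
  · exact Cfsg.Agent.S3305.result hC (Cfsg.oddCore G)

end Cfsg.Agent.S3303
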