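import Cfsg.Statements.S3315
import Cfsg.Agent.Lib.Helper46.SU3Syl
import Cfsg.Agent.Lib.Helper46.SU3Aut

set_option autoImplicit false
open Cfsg

namespace Cfsg.Agent.S3315

open Cfsg.Agent.Lib.Helper46.SU3Coord Cfsg.Agent.Lib.Helper46.SU3Syl Cfsg.Agent.Lib.Helper46.SU3Aut


/-- Let S be a Sylow 2-subgroup of SU₃(2ⁿ), n ≥ 2 (realised over the field with 4ⁿ elements). If a finite 2-group R contains a subgroup S' of index 2 isomorphic to S, then the centre of S' is contained in the centre of R. -/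
theorem result {R : Type*} [Group R] [Finite R]
    (hR : IsPGroup 2 R) (n : ℕ) (hn : 2 ≤ n) {F : Type*} [Field F] [Fintype F] (hF : Fintype.card F = 4 ^ n)
    (P : Sylow 2 ↥(Cfsg.SU 3 F (2 ^ n))) (S' : Subgroup R) (hS : Nonempty (↥S' ≃* ↥(P : Subgroup ↥(Cfsg.SU 3 F (2 ^ n)))))
    (hidx : S'.index = 2) :
    (Subgroup.center ↥S').map S'.subtype ≤ Subgroup.center R := by
  have hF' : Fintype.card F = (2 ^ n) ^ 2 := by
    rw [hF, ← pow_mul, mul_comm, pow_mul]
    norm_num
  obtain ⟨φ, hφ, hinv, h2, hP, -⟩ := exists_coord (q := 2 ^ n) (n := n) rfl (by omega) hF'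
  obtain ⟨e⟩ := hS
  obtain ⟨C0⟩ := hP P
  let C : Coord ↥S' φ := C0.congr e
  have htr := htr_of hF' hφ hinv
  have hl := hl_of hF' hφ
  haveI hnorm : S'.Normal := Subgroup.normal_of_index_eq_two hidx
  rintro _ ⟨z, hz, rfl⟩
  rw [Subgroup.mem_center_iff]
  intro r
  by_cases hr : r ∈ S'
  · have := (Subgroup.mem_center_iff.mp hz) ⟨r, hr⟩
    exact congrArg Subtype.val this
  · let τ : ↥S' ≃* ↥S' := MulAut.conjNormal r
    have hτ : ∀ x : ↥S', ((τ x : ↥S') : R) = r * x * r⁻¹ := fun x => MulAut.conjNormal_apply r x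
    obtain ⟨l, ρ, hl0, hα, hβ⟩ := aut_structure C h2 hinv htr hl τ
    have hrr : r * r ∈ S' := Subgroup.mul_self_mem_of_index_two hidx r
    have hττ : ∀ x : ↥S', τ (τ x) = (⟨r * r, hrr⟩ : ↥S') * x * (⟨r * r, hrr⟩ : ↥S')⁻¹ := by
      intro x
      apply Subtype.ext
      rw [hτ, hτ]
      simp only [Subgroup.coe_mul, Subgroup.coe_inv]
      group
    have hA2 : ∀ a, l * ρ (l * ρ a) = a := by
      intro a
      obtain ⟨x, hx⟩ := exists_α C htr a hinv
      have h1 := congrArg C.α (hττ x)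
      rw [hα, hα, hx, C.mul_α, C.mul_α, α_inv C h2, hx] at h1
      linear_combination h1 + C.α (⟨r * r, hrr⟩ : ↥S') * h2
    have hlρ : l * ρ l = 1 := by
      have := hA2 1
      rwa [map_one, mul_one] at this
    have hρρ : ∀ a, ρ (ρ a) = a := by
      intro a
      have := hA2 a
      rwa [map_mul, ← mul_assoc, hlρ, one_mul] at this
    obtain ⟨hfrob, hord⟩ := frob_facts (F := F) (q := 2 ^ n) (n := n) rfl hF'
    obtain ⟨j, hj⟩ := hfrob ρ
    have hdvd : 2 * n ∣ j + j := by
      apply hord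
      intro x
      have := hρρ x
      rwa [hj, hj, ← pow_mul, ← pow_add] at this
    have hnj : n ∣ j := by
      obtain ⟨k, hk⟩ := hdvd
      refine ⟨k, ?_⟩
      have : 2 * j = 2 * (n * k) := by rw [← mul_assoc, ← hk]; ring
      exact Nat.eq_of_mul_eq_mul_left (by norm_num) this
    have hρK : ∀ c, φ c = c → ρ c = c := by
      intro c hc
      obtain ⟨k, rfl⟩ := hnj
      rw [hj, pow_mul]
      exact pow_pow_fix c (2 ^ n) (by rw [← hφ]; exact hc) k
    have hμK : φ (l * φ l) = l * φ l := by rw [map_mul, hinv, mul_comm]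
    obtain ⟨z0, hz0α, hz0β⟩ := C.surj 0 1 (by rw [map_one, zero_mul]; linear_combination h2)
    have hμ : l * φ l = 1 := by
      have h1 := congrArg C.β (hττ z0)
      have hz0c : z0 ∈ Subgroup.center ↥S' := (mem_center_iff C hinv htr hl z0).mpr hz0α
      have h3 : (⟨r * r, hrr⟩ : ↥S') * z0 * (⟨r * r, hrr⟩ : ↥S')⁻¹ = z0 := by
        rw [(Subgroup.mem_center_iff.mp hz0c) _, mul_inv_cancel_right]
      rw [h3, hβ (τ z0) (center_map C h2 hinv htr hl τ z0 hz0α), hβ z0 hz0α, hz0β, map_one,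
        mul_one, hρK _ hμK] at h1
      exact sq_inj h2 _ _ (by rw [h1, mul_one])
    have hzα := (mem_center_iff C hinv htr hl z).mp hz
    have hzK : φ (C.β z) = C.β z := by
      have h := C.rel z
      rw [hzα, zero_mul] at h
      linear_combination h - C.β z * h2
    have hτz : τ z = z := by
      apply C.inj
      · rw [center_map C h2 hinv htr hl τ z hzα, hzα]
      · rw [hβ z hzα, hμ, one_mul, hρK _ hzK]
    have h5 := congrArg Subtype.val hτz
    rw [hτ] at h5
    show r * (z : R) = (z : R) * r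
    calc r * (z : R) = r * (z : R) * r⁻¹ * r := by group
      _ = (z : R) * r := by rw [h5]

end Cfsg.Agent.S3315
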