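import Cfsg.Statements.S3335

set_option autoImplicit false
open Cfsg

namespace Cfsg.Agent.S3335

section abstractPart

variable {G : Type*} [Group G]

/-- descending words `σ M * σ (M-1) * ...` with `k` letters (the index is truncated at `0`). -/
def w (σ : ℕ → G) (M : ℕ) : ℕ → G
  | 0 => 1
  | k + 1 => w σ M k * σ (M - k)

theorem w_zero (σ : ℕ → G) (M : ℕ) : w σ M 0 = 1 := rfl

theorem w_succ (σ : ℕ → G) (M k : ℕ) : w σ M (k + 1) = w σ M k * σ (M - k) := rfl

variable (σ : ℕ → G) (M : ℕ)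

theorem sq_self (r2 : ∀ j, 1 ≤ j → j ≤ M → σ j ^ 2 = 1) (j : ℕ) (h1 : 1 ≤ j) (h2 : j ≤ M) :
    σ j * σ j = 1 := by
  rw [← pow_two]; exact r2 j h1 h2

theorem inv_self (r2 : ∀ j, 1 ≤ j → j ≤ M → σ j ^ 2 = 1) (j : ℕ) (h1 : 1 ≤ j) (h2 : j ≤ M) :
    (σ j)⁻¹ = σ j :=
  inv_eq_of_mul_eq_one_right (sq_self σ M r2 j h1 h2)

theorem g_inv_cube {a : G} (h : a ^ 3 = 1) : a⁻¹ = a * a := by
  apply inv_eq_of_mul_eq_one_right
  rw [pow_succ', pow_two] at h
  exact h

theorem g_comm {a b : G} (ha : a⁻¹ = a) (hb : b⁻¹ = b) (h : (a * b) ^ 2 = 1) :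
    a * b = b * a := by
  have h1 : (a * b) * (a * b) = 1 := by rw [← pow_two]; exact h
  have h2 : (a * b)⁻¹ = a * b := inv_eq_of_mul_eq_one_right h1
  calc a * b = (a * b)⁻¹ := h2.symm
    _ = b⁻¹ * a⁻¹ := mul_inv_rev _ _
    _ = b * a := by rw [ha, hb]

theorem g_invert {a b : G} (hb : b⁻¹ = b) (h : (a * b) ^ 2 = 1) : b * a = a⁻¹ * b := by
  have h1 : (a * b) * (a * b) = 1 := by rw [← pow_two]; exact h
  calc b * a = a⁻¹ * ((a * b) * (a * b)) * b⁻¹ := by group
    _ = a⁻¹ * b := by rw [h1, mul_one, hb]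

theorem g_invert' {a b : G} (hb : b⁻¹ = b) (h : (a * b) ^ 2 = 1) : b * a⁻¹ = a * b := by
  calc b * a⁻¹ = a * (a⁻¹ * b) * a⁻¹ := by group
    _ = a * (b * a) * a⁻¹ := by rw [g_invert hb h]
    _ = a * b := by group

theorem g_braid {a b : G} (ha : a⁻¹ = a) (hb : b⁻¹ = b) (h : (a * b) ^ 3 = 1) :
    a * b * a = b * a * b := by
  have h1 : (a * b) * (a * b) * (a * b) = 1 := by rw [← pow_two, ← pow_succ]; exact h
  calc a * b * a = ((a * b) * (a * b) * (a * b)) * (b⁻¹ * a⁻¹ * b⁻¹) := by group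
    _ = b * a * b := by rw [h1, one_mul, ha, hb]

theorem g_d4 {a b : G} (hb : b⁻¹ = b) (h : (a * b) ^ 3 = 1) :
    b * a * b = a⁻¹ * b * a⁻¹ := by
  have h1 : (a * b) * (a * b) * (a * b) = 1 := by rw [← pow_two, ← pow_succ]; exact h
  calc b * a * b = a⁻¹ * b⁻¹ * a⁻¹ * ((a * b) * (a * b) * (a * b)) := by group
    _ = a⁻¹ * b * a⁻¹ := by rw [h1, mul_one, hb]

theorem g_d4' {a b : G} (hb : b⁻¹ = b) (h : (a * b) ^ 3 = 1) :
    b * a⁻¹ * b = a * b * a := by
  have e1 : b * a⁻¹ * b = (b * a * b)⁻¹ := by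
    rw [mul_inv_rev, mul_inv_rev, hb, mul_assoc]
  rw [e1, g_d4 hb h, mul_inv_rev, mul_inv_rev, inv_inv, hb, mul_assoc]

theorem inv_zero (r1 : σ 0 ^ 3 = 1) : (σ 0)⁻¹ = σ 0 * σ 0 := g_inv_cube r1

theorem d1 (r2 : ∀ j, 1 ≤ j → j ≤ M → σ j ^ 2 = 1)
    (r4 : ∀ i j, i + 1 < j → j ≤ M → (σ i * σ j) ^ 2 = 1)
    (i j : ℕ) (hi : 1 ≤ i) (hij : i + 1 < j) (hj : j ≤ M) : σ i * σ j = σ j * σ i :=
  g_comm (inv_self σ M r2 i hi (by omega)) (inv_self σ M r2 j (by omega) hj) (r4 i j hij hj)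

theorem d2 (r2 : ∀ j, 1 ≤ j → j ≤ M → σ j ^ 2 = 1)
    (r4 : ∀ i j, i + 1 < j → j ≤ M → (σ i * σ j) ^ 2 = 1)
    (j : ℕ) (hj2 : 2 ≤ j) (hj : j ≤ M) : σ j * σ 0 = (σ 0)⁻¹ * σ j :=
  g_invert (inv_self σ M r2 j (by omega) hj) (r4 0 j (by omega) hj)

theorem d2' (r2 : ∀ j, 1 ≤ j → j ≤ M → σ j ^ 2 = 1)
    (r4 : ∀ i j, i + 1 < j → j ≤ M → (σ i * σ j) ^ 2 = 1)
    (j : ℕ) (hj2 : 2 ≤ j) (hj : j ≤ M) : σ j * (σ 0)⁻¹ = σ 0 * σ j :=
  g_invert' (inv_self σ M r2 j (by omega) hj) (r4 0 j (by omega) hj)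

theorem d3 (r2 : ∀ j, 1 ≤ j → j ≤ M → σ j ^ 2 = 1)
    (r3 : ∀ i, i + 1 ≤ M → (σ i * σ (i + 1)) ^ 3 = 1)
    (i j : ℕ) (hi : 1 ≤ i) (hij : j = i + 1) (hj : j ≤ M) :
    σ i * σ j * σ i = σ j * σ i * σ j := by
  subst hij
  exact g_braid (inv_self σ M r2 i hi (by omega)) (inv_self σ M r2 (i + 1) (by omega) hj)
    (r3 i hj)

theorem d4 (r2 : ∀ j, 1 ≤ j → j ≤ M → σ j ^ 2 = 1)
    (r3 : ∀ i, i + 1 ≤ M → (σ i * σ (i + 1)) ^ 3 = 1) (hM : 1 ≤ M) :
    σ 1 * σ 0 * σ 1 = (σ 0)⁻¹ * σ 1 * (σ 0)⁻¹ := by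
  have h := r3 0 (by omega)
  rw [zero_add] at h
  exact g_d4 (inv_self σ M r2 1 le_rfl hM) h

theorem d4' (r2 : ∀ j, 1 ≤ j → j ≤ M → σ j ^ 2 = 1)
    (r3 : ∀ i, i + 1 ≤ M → (σ i * σ (i + 1)) ^ 3 = 1) (hM : 1 ≤ M) :
    σ 1 * (σ 0)⁻¹ * σ 1 = σ 0 * σ 1 * σ 0 := by
  have h := r3 0 (by omega)
  rw [zero_add] at h
  exact g_d4' (inv_self σ M r2 1 le_rfl hM) h

theorem wA (r2 : ∀ j, 1 ≤ j → j ≤ M → σ j ^ 2 = 1)
    (r4 : ∀ i j, i + 1 < j → j ≤ M → (σ i * σ j) ^ 2 = 1)
    (k j : ℕ) (hj : 1 ≤ j) (h : j + k + 1 ≤ M) : w σ M k * σ j = σ j * w σ M k := by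
  induction k with
  | zero => rw [w_zero, one_mul, mul_one]
  | succ k ih =>
    have ih' := ih (by omega)
    have hc : σ j * σ (M - k) = σ (M - k) * σ j := d1 σ M r2 r4 j (M - k) hj (by omega) (by omega)
    rw [w_succ, mul_assoc, ← hc, ← mul_assoc, ih', mul_assoc]

theorem wA' (r2 : ∀ j, 1 ≤ j → j ≤ M → σ j ^ 2 = 1)
    (r4 : ∀ i j, i + 1 < j → j ≤ M → (σ i * σ j) ^ 2 = 1)
    (k : ℕ) (h : k + 1 ≤ M) (e : G) (he : e = σ 0 ∨ e = (σ 0)⁻¹) :
    ∃ e' : G, (e' = σ 0 ∨ e' = (σ 0)⁻¹) ∧ w σ M k * e = e' * w σ M k := by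
  induction k generalizing e with
  | zero => exact ⟨e, he, by rw [w_zero, one_mul, mul_one]⟩
  | succ k ih =>
    have h2 : σ (M - k) * σ 0 = (σ 0)⁻¹ * σ (M - k) := d2 σ M r2 r4 (M - k) (by omega) (by omega)
    have h2' : σ (M - k) * (σ 0)⁻¹ = σ 0 * σ (M - k) := d2' σ M r2 r4 (M - k) (by omega) (by omega)
    rcases he with rfl | rfl
    · obtain ⟨e', he', heq⟩ := ih (by omega) (σ 0)⁻¹ (Or.inr rfl)
      refine ⟨e', he', ?_⟩
      rw [w_succ, mul_assoc, h2, ← mul_assoc, heq, mul_assoc]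
    · obtain ⟨e', he', heq⟩ := ih (by omega) (σ 0) (Or.inl rfl)
      refine ⟨e', he', ?_⟩
      rw [w_succ, mul_assoc, h2', ← mul_assoc, heq, mul_assoc]

theorem wD (r2 : ∀ j, 1 ≤ j → j ≤ M → σ j ^ 2 = 1)
    (r3 : ∀ i, i + 1 ≤ M → (σ i * σ (i + 1)) ^ 3 = 1)
    (r4 : ∀ i j, i + 1 < j → j ≤ M → (σ i * σ j) ^ 2 = 1)
    (k : ℕ) (hk : k ≤ M) (j : ℕ) (hj2 : 2 ≤ j) (hjM : j ≤ M) (hjk : M + 2 ≤ j + k) :
    w σ M k * σ j = σ (j - 1) * w σ M k := by
  induction k generalizing j with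
  | zero => omega
  | succ k ih =>
    by_cases hc : j + k = M + 1
    · obtain ⟨k', rfl⟩ : ∃ k', k = k' + 1 := ⟨k - 1, by omega⟩
      have e1 : M - k' = j := by omega
      have e2 : M - (k' + 1) = j - 1 := by omega
      rw [w_succ, w_succ, e1, e2]
      have hb : σ j * σ (j - 1) * σ j = σ (j - 1) * σ j * σ (j - 1) :=
        (d3 σ M r2 r3 (j - 1) j (by omega) (by omega) hjM).symm
      have hA : w σ M k' * σ (j - 1) = σ (j - 1) * w σ M k' :=
        wA σ M r2 r4 k' (j - 1) (by omega) (by omega)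
      calc w σ M k' * σ j * σ (j - 1) * σ j
          = w σ M k' * (σ j * σ (j - 1) * σ j) := by simp only [mul_assoc]
        _ = w σ M k' * (σ (j - 1) * σ j * σ (j - 1)) := by rw [hb]
        _ = (w σ M k' * σ (j - 1)) * σ j * σ (j - 1) := by simp only [mul_assoc]
        _ = σ (j - 1) * w σ M k' * σ j * σ (j - 1) := by rw [hA]
        _ = σ (j - 1) * (w σ M k' * σ j * σ (j - 1)) := by simp only [mul_assoc]
    · have ih' := ih (by omega) j hj2 hjM (by omega)
      have hc1 : σ (M - k) * σ j = σ j * σ (M - k) :=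
        d1 σ M r2 r4 (M - k) j (by omega) (by omega) hjM
      rw [w_succ]
      calc w σ M k * σ (M - k) * σ j = w σ M k * (σ (M - k) * σ j) := mul_assoc _ _ _
        _ = w σ M k * σ j * σ (M - k) := by rw [hc1, mul_assoc]
        _ = σ (j - 1) * w σ M k * σ (M - k) := by rw [ih']
        _ = σ (j - 1) * (w σ M k * σ (M - k)) := mul_assoc _ _ _

theorem wM1 : w σ M (M + 1) = w σ M M * σ 0 := by
  rw [w_succ, Nat.sub_self]

theorem wM2 : w σ M (M + 2) = w σ M M * σ 0 * σ 0 := by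
  rw [w_succ, wM1, (by omega : M - (M + 1) = 0)]

theorem wM (hM : 1 ≤ M) : w σ M M = w σ M (M - 1) * σ 1 := by
  obtain ⟨M', rfl⟩ : ∃ M', M = M' + 1 := ⟨M - 1, by omega⟩
  rw [w_succ, Nat.add_sub_cancel, Nat.add_sub_cancel_left]

theorem coset_step (H : Subgroup G) (r1 : σ 0 ^ 3 = 1)
    (r2 : ∀ j, 1 ≤ j → j ≤ M → σ j ^ 2 = 1)
    (r3 : ∀ i, i + 1 ≤ M → (σ i * σ (i + 1)) ^ 3 = 1)
    (r4 : ∀ i j, i + 1 < j → j ≤ M → (σ i * σ j) ^ 2 = 1)
    (hH : ∀ j, j < M → σ j ∈ H) (k : ℕ) (hk : k ≤ M + 2) (j : ℕ) (hj : j ≤ M) :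
    ∃ h ∈ H, ∃ k', k' ≤ M + 2 ∧ w σ M k * σ j = h * w σ M k' := by
  have hinv0 : (σ 0)⁻¹ = σ 0 * σ 0 := inv_zero σ r1
  have hcube : σ 0 * σ 0 * σ 0 = 1 := by
    rw [← pow_two, ← pow_succ]; exact r1
  rcases Nat.eq_zero_or_pos j with rfl | hj1
  · -- j = 0
    by_cases h1 : k + 1 ≤ M
    · obtain ⟨e, he, heq⟩ := wA' σ M r2 r4 k h1 (σ 0) (Or.inl rfl)
      refine ⟨e, ?_, k, hk, heq⟩
      rcases he with rfl | rfl
      · exact hH 0 (by omega)
      · exact H.inv_mem (hH 0 (by omega))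
    · by_cases h2 : k = M
      · refine ⟨1, H.one_mem, k + 1, by omega, ?_⟩
        rw [one_mul, w_succ, h2, Nat.sub_self]
      · by_cases h3 : k = M + 1
        · refine ⟨1, H.one_mem, M + 2, le_rfl, ?_⟩
          rw [one_mul, h3, wM1, wM2]
        · have h4 : k = M + 2 := by omega
          refine ⟨1, H.one_mem, M, by omega, ?_⟩
          rw [one_mul, h4, wM2]
          calc w σ M M * σ 0 * σ 0 * σ 0 = w σ M M * (σ 0 * σ 0 * σ 0) := by
                simp only [mul_assoc]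
            _ = w σ M M := by rw [hcube, mul_one]
  · -- 1 ≤ j
    by_cases c1 : j + k + 1 ≤ M
    · exact ⟨σ j, hH j (by omega), k, hk, wA σ M r2 r4 k j hj1 c1⟩
    by_cases c2 : j + k = M
    · refine ⟨1, H.one_mem, k + 1, by omega, ?_⟩
      rw [one_mul, w_succ, (by omega : M - k = j)]
    by_cases c3 : j + k = M + 1
    · obtain ⟨k', rfl⟩ : ∃ k', k = k' + 1 := ⟨k - 1, by omega⟩
      refine ⟨1, H.one_mem, k', by omega, ?_⟩
      rw [one_mul, w_succ, (by omega : M - k' = j), mul_assoc, sq_self σ M r2 j hj1 hj, mul_one]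
    by_cases c4 : k ≤ M
    · exact ⟨σ (j - 1), hH (j - 1) (by omega), k, hk,
        wD σ M r2 r3 r4 k c4 j (by omega) hj (by omega)⟩
    by_cases c5 : 2 ≤ j
    · have hD : w σ M M * σ j = σ (j - 1) * w σ M M :=
        wD σ M r2 r3 r4 M le_rfl j c5 hj (by omega)
      have hx : σ j * (σ 0)⁻¹ = σ 0 * σ j := d2' σ M r2 r4 j c5 hj
      have hy : σ j * σ 0 = (σ 0)⁻¹ * σ j := d2 σ M r2 r4 j c5 hj
      rcases (by omega : k = M + 1 ∨ k = M + 2) with hk1 | hk2
      · refine ⟨σ (j - 1), hH _ (by omega), M + 2, le_rfl, ?_⟩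
        rw [hk1, wM1, wM2]
        calc w σ M M * σ 0 * σ j = w σ M M * (σ 0 * σ j) := mul_assoc _ _ _
          _ = w σ M M * σ j * (σ 0)⁻¹ := by rw [← hx, mul_assoc]
          _ = σ (j - 1) * w σ M M * (σ 0 * σ 0) := by rw [hD, hinv0]
          _ = σ (j - 1) * (w σ M M * σ 0 * σ 0) := by simp only [mul_assoc]
      · refine ⟨σ (j - 1), hH _ (by omega), M + 1, by omega, ?_⟩
        rw [hk2, wM1, wM2]
        calc w σ M M * σ 0 * σ 0 * σ j = w σ M M * ((σ 0 * σ 0) * σ j) := by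
              simp only [mul_assoc]
          _ = w σ M M * ((σ 0)⁻¹ * σ j) := by rw [hinv0]
          _ = w σ M M * σ j * σ 0 := by rw [← hy, mul_assoc]
          _ = σ (j - 1) * w σ M M * σ 0 := by rw [hD]
          _ = σ (j - 1) * (w σ M M * σ 0) := mul_assoc _ _ _
    · have hj' : j = 1 := by omega
      have hM1 : 1 ≤ M := by omega
      have hwM : w σ M M = w σ M (M - 1) * σ 1 := wM σ M hM1
      have h0H : σ 0 ∈ H := hH 0 (by omega)
      rcases (by omega : k = M + 1 ∨ k = M + 2) with hk1 | hk2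
      · obtain ⟨e, he, heq⟩ := wA' σ M r2 r4 (M - 1) (by omega) (σ 0)⁻¹ (Or.inr rfl)
        refine ⟨e, ?_, M + 2, le_rfl, ?_⟩
        · rcases he with rfl | rfl
          · exact h0H
          · exact H.inv_mem h0H
        · rw [hk1, hj', wM1, wM2, hwM]
          calc w σ M (M - 1) * σ 1 * σ 0 * σ 1
              = w σ M (M - 1) * (σ 1 * σ 0 * σ 1) := by simp only [mul_assoc]
            _ = w σ M (M - 1) * ((σ 0)⁻¹ * σ 1 * (σ 0)⁻¹) := by rw [d4 σ M r2 r3 hM1]
            _ = (w σ M (M - 1) * (σ 0)⁻¹) * σ 1 * (σ 0)⁻¹ := by simp only [mul_assoc]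
            _ = e * w σ M (M - 1) * σ 1 * (σ 0 * σ 0) := by rw [heq, hinv0]
            _ = e * (w σ M (M - 1) * σ 1 * σ 0 * σ 0) := by simp only [mul_assoc]
      · obtain ⟨e, he, heq⟩ := wA' σ M r2 r4 (M - 1) (by omega) (σ 0) (Or.inl rfl)
        refine ⟨e, ?_, M + 1, by omega, ?_⟩
        · rcases he with rfl | rfl
          · exact h0H
          · exact H.inv_mem h0H
        · rw [hk2, hj', wM1, wM2, hwM]
          calc w σ M (M - 1) * σ 1 * σ 0 * σ 0 * σ 1
              = w σ M (M - 1) * (σ 1 * (σ 0 * σ 0) * σ 1) := by simp only [mul_assoc]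
            _ = w σ M (M - 1) * (σ 1 * (σ 0)⁻¹ * σ 1) := by rw [hinv0]
            _ = w σ M (M - 1) * (σ 0 * σ 1 * σ 0) := by rw [d4' σ M r2 r3 hM1]
            _ = (w σ M (M - 1) * σ 0) * σ 1 * σ 0 := by simp only [mul_assoc]
            _ = e * w σ M (M - 1) * σ 1 * σ 0 := by rw [heq]
            _ = e * (w σ M (M - 1) * σ 1 * σ 0) := by simp only [mul_assoc]

/-- every element of the closure of the `σ j` (`j ≤ M`) lies in one of the cosets `H * w k`. -/
theorem coset_cover (H : Subgroup G) (r1 : σ 0 ^ 3 = 1)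
    (r2 : ∀ j, 1 ≤ j → j ≤ M → σ j ^ 2 = 1)
    (r3 : ∀ i, i + 1 ≤ M → (σ i * σ (i + 1)) ^ 3 = 1)
    (r4 : ∀ i j, i + 1 < j → j ≤ M → (σ i * σ j) ^ 2 = 1)
    (hH : ∀ j, j < M → σ j ∈ H) (S : Set G) (hS : ∀ s ∈ S, ∃ j, j ≤ M ∧ s = σ j)
    (g : G) (hg : g ∈ Subgroup.closure S) :
    ∃ h ∈ H, ∃ k, k ≤ M + 2 ∧ g = h * w σ M k := by
  have hinv0 : (σ 0)⁻¹ = σ 0 * σ 0 := inv_zero σ r1
  -- right multiplication by a generator preserves the union of cosets
  have key : ∀ j, j ≤ M → ∀ x : G, (∃ h ∈ H, ∃ k, k ≤ M + 2 ∧ x = h * w σ M k) →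
      ∃ h ∈ H, ∃ k, k ≤ M + 2 ∧ x * σ j = h * w σ M k := by
    intro j hj x hx
    obtain ⟨h, hh, k, hk, rfl⟩ := hx
    obtain ⟨h', hh', k', hk', heq⟩ := coset_step σ M H r1 r2 r3 r4 hH k hk j hj
    exact ⟨h * h', H.mul_mem hh hh', k', hk', by rw [mul_assoc, heq, mul_assoc]⟩
  have keyinv : ∀ j, j ≤ M → ∀ x : G, (∃ h ∈ H, ∃ k, k ≤ M + 2 ∧ x = h * w σ M k) →
      ∃ h ∈ H, ∃ k, k ≤ M + 2 ∧ x * (σ j)⁻¹ = h * w σ M k := by
    intro j hj x hx
    rcases Nat.eq_zero_or_pos j with rfl | hj1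
    · rw [hinv0, ← mul_assoc]
      exact key 0 hj _ (key 0 hj _ hx)
    · rw [inv_self σ M r2 j hj1 hj]
      exact key j hj _ hx
  have main : ∀ g : G, g ∈ Subgroup.closure S →
      (∀ x : G, (∃ h ∈ H, ∃ k, k ≤ M + 2 ∧ x = h * w σ M k) →
        ∃ h ∈ H, ∃ k, k ≤ M + 2 ∧ x * g = h * w σ M k) ∧
      (∀ x : G, (∃ h ∈ H, ∃ k, k ≤ M + 2 ∧ x = h * w σ M k) →
        ∃ h ∈ H, ∃ k, k ≤ M + 2 ∧ x * g⁻¹ = h * w σ M k) := by
    intro g hg
    induction hg using Subgroup.closure_induction with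
    | mem s hs =>
      obtain ⟨j, hj, rfl⟩ := hS s hs
      exact ⟨key j hj, keyinv j hj⟩
    | one =>
      refine ⟨fun x hx => ?_, fun x hx => ?_⟩
      · rw [mul_one]; exact hx
      · rw [inv_one, mul_one]; exact hx
    | mul a b _ _ iha ihb =>
      refine ⟨fun x hx => ?_, fun x hx => ?_⟩
      · rw [← mul_assoc]; exact ihb.1 _ (iha.1 _ hx)
      · rw [mul_inv_rev, ← mul_assoc]; exact iha.2 _ (ihb.2 _ hx)
    | inv a _ iha =>
      refine ⟨iha.2, fun x hx => ?_⟩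
      rw [inv_inv]; exact iha.1 _ hx
  have h1 := (main g hg).1 1 ⟨1, H.one_mem, 0, by omega, by rw [w_zero, mul_one]⟩
  rw [one_mul] at h1
  exact h1

end abstractPart

/-- the relations of the statement, for `k` generators. -/
def rels (k : ℕ) : Set (FreeGroup (Fin k)) :=
  {g : FreeGroup (Fin k) | ∃ i : Fin k, i.val = 0 ∧ g = FreeGroup.of i ^ 3} ∪
   {g | ∃ i : Fin k, 1 ≤ i.val ∧ g = FreeGroup.of i ^ 2} ∪
   {g | ∃ i j : Fin k, j.val = i.val + 1 ∧ g = (FreeGroup.of i * FreeGroup.of j) ^ 3} ∪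
   {g | ∃ i j : Fin k, i.val + 1 < j.val ∧ g = (FreeGroup.of i * FreeGroup.of j) ^ 2}

/-- the presented group on `k` generators. -/
abbrev P (k : ℕ) : Type := PresentedGroup (rels k)

theorem rel1 {k : ℕ} (i : Fin k) (hi : i.val = 0) : (PresentedGroup.of i : P k) ^ 3 = 1 := by
  have h : FreeGroup.of i ^ 3 ∈ rels k := Or.inl (Or.inl (Or.inl ⟨i, hi, rfl⟩))
  have h2 := PresentedGroup.one_of_mem h
  rw [map_pow] at h2
  exact h2

theorem rel2 {k : ℕ} (i : Fin k) (hi : 1 ≤ i.val) : (PresentedGroup.of i : P k) ^ 2 = 1 := by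
  have h : FreeGroup.of i ^ 2 ∈ rels k := Or.inl (Or.inl (Or.inr ⟨i, hi, rfl⟩))
  have h2 := PresentedGroup.one_of_mem h
  rw [map_pow] at h2
  exact h2

theorem rel3 {k : ℕ} (i j : Fin k) (hij : j.val = i.val + 1) :
    ((PresentedGroup.of i : P k) * PresentedGroup.of j) ^ 3 = 1 := by
  have h : (FreeGroup.of i * FreeGroup.of j) ^ 3 ∈ rels k := Or.inl (Or.inr ⟨i, j, hij, rfl⟩)
  have h2 := PresentedGroup.one_of_mem h
  rw [map_pow, map_mul] at h2
  exact h2

theorem rel4 {k : ℕ} (i j : Fin k) (hij : i.val + 1 < j.val) :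
    ((PresentedGroup.of i : P k) * PresentedGroup.of j) ^ 2 = 1 := by
  have h : (FreeGroup.of i * FreeGroup.of j) ^ 2 ∈ rels k := Or.inr ⟨i, j, hij, rfl⟩
  have h2 := PresentedGroup.one_of_mem h
  rw [map_pow, map_mul] at h2
  exact h2

theorem exists_psi (M : ℕ) : ∃ ψ : P M →* P (M + 1),
    ∀ i : Fin M, ψ (PresentedGroup.of i) = PresentedGroup.of i.castSucc := by
  refine ⟨PresentedGroup.toGroup
    (f := fun i : Fin M => (PresentedGroup.of i.castSucc : P (M + 1))) ?_,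
    fun i => PresentedGroup.toGroup.of _⟩
  intro r hr
  rcases hr with ((⟨i, hi, rfl⟩ | ⟨i, hi, rfl⟩) | ⟨i, j, hij, rfl⟩) | ⟨i, j, hij, rfl⟩
  · simp only [map_pow, FreeGroup.lift_apply_of]
    exact rel1 _ (by simpa using hi)
  · simp only [map_pow, FreeGroup.lift_apply_of]
    exact rel2 _ (by simpa using hi)
  · simp only [map_pow, map_mul, FreeGroup.lift_apply_of]
    exact rel3 _ _ (by simpa using hij)
  · simp only [map_pow, map_mul, FreeGroup.lift_apply_of]
    exact rel4 _ _ (by simpa using hij)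

/-- the generators of `P (M+1)` indexed by naturals (junk value `1` out of range). -/
def gen (M : ℕ) (j : ℕ) : P (M + 1) :=
  if h : j < M + 1 then PresentedGroup.of ⟨j, h⟩ else 1

theorem gen_of (M : ℕ) (i : Fin (M + 1)) : gen M i.val = PresentedGroup.of i := by
  unfold gen
  rw [dif_pos i.isLt]

theorem card_step (M : ℕ) (hfin : Finite (P M)) :
    Finite (P (M + 1)) ∧ Nat.card (P (M + 1)) ≤ (M + 3) * Nat.card (P M) := by
  obtain ⟨ψ, hψ⟩ := exists_psi M
  have r1 : gen M 0 ^ 3 = 1 := by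
    have := gen_of M ⟨0, by omega⟩
    simp only at this
    rw [this]; exact rel1 _ rfl
  have r2 : ∀ j, 1 ≤ j → j ≤ M → gen M j ^ 2 = 1 := by
    intro j h1 h2
    have := gen_of M ⟨j, by omega⟩
    simp only at this
    rw [this]; exact rel2 _ h1
  have r3 : ∀ i, i + 1 ≤ M → (gen M i * gen M (i + 1)) ^ 3 = 1 := by
    intro i hi
    have e1 := gen_of M ⟨i, by omega⟩
    have e2 := gen_of M ⟨i + 1, by omega⟩
    simp only at e1 e2
    rw [e1, e2]; exact rel3 _ _ rfl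
  have r4 : ∀ i j, i + 1 < j → j ≤ M → (gen M i * gen M j) ^ 2 = 1 := by
    intro i j hij hj
    have e1 := gen_of M ⟨i, by omega⟩
    have e2 := gen_of M ⟨j, by omega⟩
    simp only at e1 e2
    rw [e1, e2]; exact rel4 _ _ hij
  have hH : ∀ j, j < M → gen M j ∈ ψ.range := by
    intro j hj
    refine ⟨PresentedGroup.of ⟨j, hj⟩, ?_⟩
    rw [hψ]
    have e1 := gen_of M ⟨j, by omega⟩
    simp only at e1
    rw [e1]
    rfl
  have hS : ∀ s ∈ Set.range (PresentedGroup.of : Fin (M + 1) → P (M + 1)),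
      ∃ j, j ≤ M ∧ s = gen M j := by
    rintro _ ⟨i, rfl⟩
    exact ⟨i.val, by omega, (gen_of M i).symm⟩
  have hcov : ∀ g : P (M + 1), ∃ h ∈ ψ.range, ∃ k, k ≤ M + 2 ∧ g = h * w (gen M) M k := by
    intro g
    refine coset_cover (gen M) M ψ.range r1 r2 r3 r4 hH _ hS g ?_
    rw [PresentedGroup.closure_range_of]
    exact Subgroup.mem_top g
  let f : Fin (M + 3) × P M → P (M + 1) := fun q => ψ q.2 * w (gen M) M q.1.val
  have hf : Function.Surjective f := by
    intro g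
    obtain ⟨h, ⟨x, rfl⟩, k, hk, rfl⟩ := hcov g
    exact ⟨(⟨k, by omega⟩, x), rfl⟩
  haveI := hfin
  refine ⟨Finite.of_surjective f hf, ?_⟩
  have h1 := Nat.card_le_card_of_surjective f hf
  rw [Nat.card_prod, Nat.card_fin] at h1
  exact h1

theorem card_bound (k : ℕ) : Finite (P k) ∧ 2 * Nat.card (P k) ≤ (k + 2).factorial := by
  induction k with
  | zero =>
    have h : ∀ g : P 0, g = 1 := by
      intro g
      have hg : g ∈ Subgroup.closure (Set.range (PresentedGroup.of : Fin 0 → P 0)) := by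
        rw [PresentedGroup.closure_range_of]; exact Subgroup.mem_top g
      rw [Set.range_eq_empty, Subgroup.closure_empty] at hg
      exact Subgroup.mem_bot.mp hg
    haveI : Subsingleton (P 0) := ⟨fun a b => by rw [h a, h b]⟩
    refine ⟨inferInstance, ?_⟩
    rw [Nat.card_of_subsingleton (1 : P 0)]
    decide
  | succ k ih =>
    obtain ⟨hfin, hcard⟩ := ih
    obtain ⟨hfin', hcard'⟩ := card_step k hfin
    refine ⟨hfin', ?_⟩
    have e : (k + 1 + 2).factorial = (k + 3) * (k + 2).factorial := Nat.factorial_succ (k + 2)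
    rw [e]
    calc 2 * Nat.card (P (k + 1)) ≤ 2 * ((k + 3) * Nat.card (P k)) :=
          Nat.mul_le_mul_left 2 hcard'
      _ = (k + 3) * (2 * Nat.card (P k)) := by ring
      _ ≤ (k + 3) * (k + 2).factorial := Nat.mul_le_mul_left (k + 3) hcard

section permPart

theorem swap_cube {α : Type*} [DecidableEq α] [Fintype α] {a b c : α} (ab : a ≠ b) (ac : a ≠ c)
    (bc : b ≠ c) : (Equiv.swap a b * Equiv.swap b c) ^ 3 = 1 := by
  have h := Equiv.Perm.isThreeCycle_swap_mul_swap_same (a := b) (b := a) (c := c) ab.symm bc ac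
  have h2 := pow_orderOf_eq_one (Equiv.swap b a * Equiv.swap b c)
  rw [h.orderOf] at h2
  rw [Equiv.swap_comm a b]
  exact h2

theorem swap_comm_disj {α : Type*} [DecidableEq α] [Fintype α] {a b c d : α}
    (h : [a, b, c, d].Nodup) :
    Equiv.swap a b * Equiv.swap c d = Equiv.swap c d * Equiv.swap a b :=
  (Equiv.Perm.disjoint_swap_swap h).commute.eq

theorem swap_sq {α : Type*} [DecidableEq α] [Fintype α] {a b c d : α}
    (h : [a, b, c, d].Nodup) : (Equiv.swap a b * Equiv.swap c d) ^ 2 = 1 := by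
  have hc : Commute (Equiv.swap a b) (Equiv.swap c d) :=
    (Equiv.Perm.disjoint_swap_swap h).commute
  rw [hc.mul_pow, pow_two, pow_two, Equiv.swap_mul_self, Equiv.swap_mul_self, one_mul]

/-- the points of `Fin (N+3)` indexed by naturals. -/
def pt (N : ℕ) (i : ℕ) : Fin (N + 3) := if h : i < N + 3 then ⟨i, h⟩ else ⟨0, by omega⟩

theorem pt_inj (N : ℕ) {i j : ℕ} (hi : i < N + 3) (hj : j < N + 3) :
    pt N i = pt N j ↔ i = j := by
  unfold pt
  rw [dif_pos hi, dif_pos hj]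
  exact ⟨fun h => Fin.mk.inj h, fun h => by subst h; rfl⟩

theorem pt_ne (N : ℕ) {i j : ℕ} (hi : i < N + 3) (hj : j < N + 3) (hij : i ≠ j) :
    pt N i ≠ pt N j := fun h => hij ((pt_inj N hi hj).mp h)

theorem pt_nodup (N : ℕ) {a b c d : ℕ} (ha : a < N + 3) (hb : b < N + 3) (hc : c < N + 3)
    (hd : d < N + 3) (hab : a ≠ b) (hac : a ≠ c) (had : a ≠ d) (hbc : b ≠ c) (hbd : b ≠ d)
    (hcd : c ≠ d) : [pt N a, pt N b, pt N c, pt N d].Nodup := by
  simp only [List.nodup_cons, List.mem_cons, List.not_mem_nil, or_false, not_or,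
    List.nodup_nil, and_true, not_false_eq_true]
  exact ⟨⟨pt_ne N ha hb hab, pt_ne N ha hc hac, pt_ne N ha hd had⟩,
    ⟨pt_ne N hb hc hbc, pt_ne N hb hd hbd⟩, pt_ne N hc hd hcd⟩

/-- the images of the generators. -/
def τ (N : ℕ) (j : ℕ) : Equiv.Perm (Fin (N + 3)) :=
  Equiv.swap (pt N 0) (pt N 1) * Equiv.swap (pt N (j + 1)) (pt N (j + 2))

theorem s_comm (N : ℕ) (j : ℕ) (hj1 : 1 ≤ j) (hj : j ≤ N) :
    Equiv.swap (pt N 0) (pt N 1) * Equiv.swap (pt N (j + 1)) (pt N (j + 2)) =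
    Equiv.swap (pt N (j + 1)) (pt N (j + 2)) * Equiv.swap (pt N 0) (pt N 1) :=
  swap_comm_disj (pt_nodup N (by omega) (by omega) (by omega) (by omega) (by omega) (by omega)
    (by omega) (by omega) (by omega) (by omega))

/-- for `i ≥ 1`, `τ i * τ j` is the product of the two "far" transpositions. -/
theorem tau_mul (N : ℕ) (i j : ℕ) (hi1 : 1 ≤ i) (hi : i ≤ N) :
    τ N i * τ N j = Equiv.swap (pt N (i + 1)) (pt N (i + 2)) *
      Equiv.swap (pt N (j + 1)) (pt N (j + 2)) := by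
  unfold τ
  rw [s_comm N i hi1 hi]
  rw [mul_assoc, ← mul_assoc (Equiv.swap (pt N 0) (pt N 1)), Equiv.swap_mul_self, one_mul]

/-- `τ 0 * τ j` -/
theorem tau_zero_mul (N : ℕ) (j : ℕ) :
    τ N 0 * τ N j = Equiv.swap (pt N 0) (pt N 2) *
      Equiv.swap (pt N (j + 1)) (pt N (j + 2)) := by
  unfold τ
  have h : Equiv.swap (pt N 1) (pt N 0) * Equiv.swap (pt N 2) (pt N 1) *
      Equiv.swap (pt N 1) (pt N 0) = Equiv.swap (pt N 0) (pt N 2) :=
    Equiv.swap_mul_swap_mul_swap (pt_ne N (by omega) (by omega) (by omega))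
      (pt_ne N (by omega) (by omega) (by omega))
  rw [Equiv.swap_comm (pt N 1) (pt N 0), Equiv.swap_comm (pt N 2) (pt N 1)] at h
  rw [← h]
  simp only [mul_assoc, zero_add]

theorem tau_R1 (N : ℕ) : τ N 0 ^ 3 = 1 := by
  unfold τ
  exact swap_cube (pt_ne N (by omega) (by omega) (by omega))
    (pt_ne N (by omega) (by omega) (by omega)) (pt_ne N (by omega) (by omega) (by omega))

theorem tau_R2 (N : ℕ) (j : ℕ) (hj1 : 1 ≤ j) (hj : j ≤ N) : τ N j ^ 2 = 1 := by
  unfold τ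
  exact swap_sq (pt_nodup N (by omega) (by omega) (by omega) (by omega) (by omega) (by omega)
    (by omega) (by omega) (by omega) (by omega))

theorem tau_R3 (N : ℕ) (i : ℕ) (hi : i + 1 ≤ N) : (τ N i * τ N (i + 1)) ^ 3 = 1 := by
  rcases Nat.eq_zero_or_pos i with rfl | hi1
  · rw [tau_zero_mul]
    exact swap_cube (pt_ne N (by omega) (by omega) (by omega))
      (pt_ne N (by omega) (by omega) (by omega)) (pt_ne N (by omega) (by omega) (by omega))
  · rw [tau_mul N i (i + 1) hi1 (by omega)]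
    exact swap_cube (pt_ne N (by omega) (by omega) (by omega))
      (pt_ne N (by omega) (by omega) (by omega)) (pt_ne N (by omega) (by omega) (by omega))

theorem tau_R4 (N : ℕ) (i j : ℕ) (hij : i + 1 < j) (hj : j ≤ N) : (τ N i * τ N j) ^ 2 = 1 := by
  rcases Nat.eq_zero_or_pos i with rfl | hi1
  · rw [tau_zero_mul]
    exact swap_sq (pt_nodup N (by omega) (by omega) (by omega) (by omega) (by omega) (by omega)
      (by omega) (by omega) (by omega) (by omega))
  · rw [tau_mul N i j hi1 (by omega)]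
    exact swap_sq (pt_nodup N (by omega) (by omega) (by omega) (by omega) (by omega) (by omega)
      (by omega) (by omega) (by omega) (by omega))

theorem exists_phi (N : ℕ) : ∃ φ : P (N + 1) →* Equiv.Perm (Fin (N + 3)),
    ∀ i : Fin (N + 1), φ (PresentedGroup.of i) = τ N i.val := by
  refine ⟨PresentedGroup.toGroup (f := fun i : Fin (N + 1) => τ N i.val) ?_,
    fun i => PresentedGroup.toGroup.of _⟩
  intro r hr
  rcases hr with ((⟨i, hi, rfl⟩ | ⟨i, hi, rfl⟩) | ⟨i, j, hij, rfl⟩) | ⟨i, j, hij, rfl⟩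
  · simp only [map_pow, FreeGroup.lift_apply_of, hi]
    exact tau_R1 N
  · simp only [map_pow, FreeGroup.lift_apply_of]
    exact tau_R2 N i.val hi (by omega)
  · simp only [map_pow, map_mul, FreeGroup.lift_apply_of, hij]
    exact tau_R3 N i.val (by omega)
  · simp only [map_pow, map_mul, FreeGroup.lift_apply_of]
    exact tau_R4 N i.val j.val hij (by omega)

theorem sign_tau (N : ℕ) (j : ℕ) (hj : j ≤ N) : Equiv.Perm.sign (τ N j) = 1 := by
  unfold τ
  rw [map_mul, Equiv.Perm.sign_swap (pt_ne N (by omega) (by omega) (by omega)),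
    Equiv.Perm.sign_swap (pt_ne N (by omega) (by omega) (by omega))]
  decide

/-- conjugation by `s = (0 1)` preserves the subgroup generated by the `τ j`. -/
theorem conj_mem (N : ℕ) (g : Equiv.Perm (Fin (N + 3)))
    (hg : g ∈ Subgroup.closure (Set.range fun j : Fin (N + 1) => τ N j.val)) :
    Equiv.swap (pt N 0) (pt N 1) * g * Equiv.swap (pt N 0) (pt N 1) ∈
      Subgroup.closure (Set.range fun j : Fin (N + 1) => τ N j.val) := by
  induction hg using Subgroup.closure_induction with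
  | mem x hx =>
    obtain ⟨j, rfl⟩ := hx
    rcases Nat.eq_zero_or_pos j.val with h0 | h1
    · have e : Equiv.swap (pt N 0) (pt N 1) * τ N j.val * Equiv.swap (pt N 0) (pt N 1) =
          (τ N j.val)⁻¹ := by
        unfold τ
        rw [mul_inv_rev, Equiv.swap_inv, Equiv.swap_inv, ← mul_assoc, Equiv.swap_mul_self,
          one_mul]
      rw [e]
      exact Subgroup.inv_mem _ (Subgroup.subset_closure ⟨j, rfl⟩)
    · have e : Equiv.swap (pt N 0) (pt N 1) * τ N j.val * Equiv.swap (pt N 0) (pt N 1) =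
          τ N j.val := by
        unfold τ
        rw [← mul_assoc, Equiv.swap_mul_self, one_mul]
        exact (s_comm N j.val h1 (by omega)).symm
      rw [e]
      exact Subgroup.subset_closure ⟨j, rfl⟩
  | one =>
    rw [mul_one, Equiv.swap_mul_self]
    exact Subgroup.one_mem _
  | mul a b _ _ iha ihb =>
    have e : Equiv.swap (pt N 0) (pt N 1) * (a * b) * Equiv.swap (pt N 0) (pt N 1) =
        (Equiv.swap (pt N 0) (pt N 1) * a * Equiv.swap (pt N 0) (pt N 1)) *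
        (Equiv.swap (pt N 0) (pt N 1) * b * Equiv.swap (pt N 0) (pt N 1)) := by
      simp only [mul_assoc, Equiv.swap_mul_self_mul]
    rw [e]
    exact Subgroup.mul_mem _ iha ihb
  | inv a _ iha =>
    have e : Equiv.swap (pt N 0) (pt N 1) * a⁻¹ * Equiv.swap (pt N 0) (pt N 1) =
        (Equiv.swap (pt N 0) (pt N 1) * a * Equiv.swap (pt N 0) (pt N 1))⁻¹ := by
      simp only [mul_inv_rev, Equiv.swap_inv, mul_assoc]
    rw [e]
    exact Subgroup.inv_mem _ iha

theorem alt_le (N : ℕ) (g : Equiv.Perm (Fin (N + 3))) (hg : Equiv.Perm.sign g = 1) :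
    g ∈ Subgroup.closure (Set.range fun j : Fin (N + 1) => τ N j.val) := by
  obtain ⟨T, hT⟩ : ∃ T : Subgroup (Equiv.Perm (Fin (N + 3))),
      T = Subgroup.closure (Set.range fun j : Fin (N + 1) => τ N j.val) := ⟨_, rfl⟩
  rw [← hT]
  obtain ⟨s, hs⟩ : ∃ s : Equiv.Perm (Fin (N + 3)), s = Equiv.swap (pt N 0) (pt N 1) := ⟨_, rfl⟩
  have hss : s * s = 1 := by rw [hs]; exact Equiv.swap_mul_self _ _
  have hconj : ∀ x ∈ T, s * x * s ∈ T := by
    intro x hx
    rw [hT] at hx ⊢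
    rw [hs]
    exact conj_mem N x hx
  have htau : ∀ j, j ≤ N → τ N j ∈ T := by
    intro j hj
    rw [hT]
    exact Subgroup.subset_closure ⟨⟨j, by omega⟩, rfl⟩
  have hsign : ∀ x ∈ T, Equiv.Perm.sign x = 1 := by
    intro x hx
    rw [hT] at hx
    have hle : Subgroup.closure (Set.range fun j : Fin (N + 1) => τ N j.val) ≤
        (Equiv.Perm.sign : Equiv.Perm (Fin (N + 3)) →* ℤˣ).ker := by
      rw [Subgroup.closure_le]
      rintro _ ⟨j, rfl⟩
      exact MonoidHom.mem_ker.mpr (sign_tau N j.val (by omega))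
    exact MonoidHom.mem_ker.mp (hle hx)
  let K : Submonoid (Equiv.Perm (Fin (N + 3))) :=
    { carrier := {x | x ∈ T ∨ s * x ∈ T}
      one_mem' := Or.inl T.one_mem
      mul_mem' := by
        intro a b ha hb
        rcases ha with ha | ha
        · rcases hb with hb | hb
          · exact Or.inl (T.mul_mem ha hb)
          · refine Or.inr ?_
            have e : s * (a * b) = (s * a * s) * (s * b) := by
              calc s * (a * b) = s * a * (s * s) * b := by rw [hss, mul_one, mul_assoc]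
                _ = (s * a * s) * (s * b) := by simp only [mul_assoc]
            rw [e]
            exact T.mul_mem (hconj a ha) hb
        · rcases hb with hb | hb
          · refine Or.inr ?_
            rw [← mul_assoc]
            exact T.mul_mem ha hb
          · refine Or.inl ?_
            have e : a * b = (s * (s * a) * s) * (s * b) := by
              calc a * b = (s * s) * a * (s * s) * b := by rw [hss, one_mul, mul_one]
                _ = (s * (s * a) * s) * (s * b) := by simp only [mul_assoc]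
            rw [e]
            exact T.mul_mem (hconj _ ha) hb }
  have hK : Submonoid.closure
      (Set.range fun i : Fin (N + 2) => (Equiv.swap i.castSucc i.succ :
        Equiv.Perm (Fin (N + 3)))) ≤ K := by
    rw [Submonoid.closure_le]
    rintro _ ⟨i, rfl⟩
    have e1 : (i.castSucc : Fin (N + 3)) = pt N i.val := by
      unfold pt
      rw [dif_pos (by omega)]
      rfl
    have e2 : (i.succ : Fin (N + 3)) = pt N (i.val + 1) := by
      unfold pt
      rw [dif_pos (by omega)]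
      rfl
    show Equiv.swap i.castSucc i.succ ∈ T ∨ s * Equiv.swap i.castSucc i.succ ∈ T
    rw [e1, e2]
    right
    rcases Nat.eq_zero_or_pos i.val with h0 | h1
    · rw [h0, zero_add, ← hs, hss]
      exact T.one_mem
    · obtain ⟨j, hj⟩ : ∃ j, i.val = j + 1 := ⟨i.val - 1, by omega⟩
      rw [hj, hs]
      exact htau j (by omega)
  have htop : Submonoid.closure
      (Set.range fun i : Fin (N + 2) => (Equiv.swap i.castSucc i.succ :
        Equiv.Perm (Fin (N + 3)))) = ⊤ := Equiv.Perm.mclosure_swap_castSucc_succ (N + 2)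
  rw [htop] at hK
  have hgK : g ∈ K := hK (Submonoid.mem_top g)
  rcases hgK with h | h
  · exact h
  · exfalso
    have h1 := hsign _ h
    rw [map_mul, hg, mul_one, hs,
      Equiv.Perm.sign_swap (pt_ne N (by omega) (by omega) (by omega))] at h1
    exact absurd h1 (by decide)

end permPart

theorem main (N : ℕ) : Nonempty (P (N + 1) ≃* alternatingGroup (Fin (N + 3))) := by
  obtain ⟨φ', hφ'⟩ := exists_phi N
  have hmem : ∀ x : P (N + 1), φ' x ∈ alternatingGroup (Fin (N + 3)) := by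
    intro x
    rw [Equiv.Perm.mem_alternatingGroup]
    have hcomp : (Equiv.Perm.sign : Equiv.Perm (Fin (N + 3)) →* ℤˣ).comp φ' = 1 := by
      apply PresentedGroup.ext
      intro i
      rw [MonoidHom.comp_apply, hφ', MonoidHom.one_apply]
      exact sign_tau N i.val (by omega)
    have := congrArg (fun f : P (N + 1) →* ℤˣ => f x) hcomp
    simpa using this
  let φ : P (N + 1) →* alternatingGroup (Fin (N + 3)) :=
    φ'.codRestrict (alternatingGroup (Fin (N + 3))) hmem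
  have hsurj : Function.Surjective φ := by
    intro y
    have hy : Equiv.Perm.sign y.1 = 1 := Equiv.Perm.mem_alternatingGroup.mp y.2
    have hy2 := alt_le N y.1 hy
    have hle : Subgroup.closure (Set.range fun j : Fin (N + 1) => τ N j.val) ≤ φ'.range := by
      rw [Subgroup.closure_le]
      rintro _ ⟨j, rfl⟩
      exact ⟨PresentedGroup.of j, hφ' j⟩
    obtain ⟨x, hx⟩ := hle hy2
    exact ⟨x, Subtype.ext hx⟩
  obtain ⟨hfin, hcard⟩ := card_bound (N + 1)
  have hA : 2 * Nat.card (alternatingGroup (Fin (N + 3))) = (N + 3).factorial := by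
    rw [two_mul_nat_card_alternatingGroup, Nat.card_perm, Nat.card_fin]
  have hle : Nat.card (P (N + 1)) ≤ Nat.card (alternatingGroup (Fin (N + 3))) := by
    have : 2 * Nat.card (P (N + 1)) ≤ 2 * Nat.card (alternatingGroup (Fin (N + 3))) := by
      rw [hA]; exact hcard
    omega
  exact ⟨MulEquiv.ofBijective φ (hsurj.bijective_of_nat_card_le hle)⟩

theorem main' (n k N : ℕ) (hk : k = N + 1) (hn : n = N + 3) :
    Nonempty (P k ≃* alternatingGroup (Fin n)) := by
  subst hk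
  subst hn
  exact main N

/-- A presentation of the alternating group of degree n ≥ 3 on generators x_1, …, x_{n−2} (indexed here by 0, …, n−3): the first generator cubes to 1, every other generator squares to 1, the product of two consecutive generators has order dividing 3, and the product of two generators at distance at least 2 has order dividing 2. The group so presented is isomorphic to the alternating group of degree n. -/
theorem result (n : ℕ) (hn : 3 ≤ n) :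
    Nonempty (PresentedGroup
      ({g : FreeGroup (Fin (n - 2)) | ∃ i : Fin (n - 2), i.val = 0 ∧ g = FreeGroup.of i ^ 3} ∪
       {g | ∃ i : Fin (n - 2), 1 ≤ i.val ∧ g = FreeGroup.of i ^ 2} ∪
       {g | ∃ i j : Fin (n - 2), j.val = i.val + 1 ∧ g = (FreeGroup.of i * FreeGroup.of j) ^ 3} ∪
       {g | ∃ i j : Fin (n - 2), i.val + 1 < j.val ∧ g = (FreeGroup.of i * FreeGroup.of j) ^ 2})
      ≃* alternatingGroup (Fin n)) :=
  main' n (n - 2) (n - 3) (by omega) (by omega)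

end Cfsg.Agent.S3335
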