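import Cfsg.Statements.S3349

set_option autoImplicit false
open Cfsg

namespace Cfsg.Agent.S3349

open scoped commutatorElement

/-- Let Q be a finite extraspecial p-group and α an automorphism of Q fixing every element of some maximal abelian subgroup of Q. Then the order of α is a power of p. -/
theorem result {Q : Type*} [Group Q] [Finite Q]
    (p : ℕ) [Fact p.Prime] (hQ : Cfsg.IsExtraspecial p Q) (α : MulAut Q)
    (A : Subgroup Q) (hA : IsMulCommutative A) (hmax : ∀ B : Subgroup Q, A ≤ B → IsMulCommutative B → B = A)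
    (hfix : ∀ a ∈ A, α a = a) :
    ∃ k : ℕ, orderOf α = p ^ k := by
  have hp : p.Prime := Fact.out
  have hAcomm : ∀ a ∈ A, ∀ b ∈ A, a * b = b * a := fun a ha b hb =>
    setLike_mul_comm ha hb
  -- A is self-centralizing
  have hCA : ∀ c : Q, (∀ a ∈ A, c * a = a * c) → c ∈ A := by
    intro c hc
    have hk : ∀ x ∈ ((A : Set Q) ∪ {c}), ∀ y ∈ ((A : Set Q) ∪ {c}), x * y = y * x := by
      intro x hx y hy
      rcases hx with hx | hx <;> rcases hy with hy | hy
      · exact hAcomm x hx y hy
      · rw [Set.mem_singleton_iff] at hy; subst hy; exact (hc x hx).symm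
      · rw [Set.mem_singleton_iff] at hx; subst hx; exact hc y hy
      · rw [Set.mem_singleton_iff] at hx hy; subst hx; subst hy; rfl
    have hB : IsMulCommutative (Subgroup.closure ((A : Set Q) ∪ {c})) :=
      Subgroup.isMulCommutative_closure hk
    have hAB : A ≤ Subgroup.closure ((A : Set Q) ∪ {c}) := fun a ha =>
      Subgroup.subset_closure (Or.inl ha)
    have := hmax _ hAB hB
    rw [← this]
    exact Subgroup.subset_closure (Or.inr rfl)
  have hZA : Subgroup.center Q ≤ A := by
    intro z hz
    apply hCA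
    intro a _
    exact (Subgroup.mem_center_iff.mp hz a).symm
  -- A is normal
  have hAn : ∀ a ∈ A, ∀ q : Q, q * a * q⁻¹ ∈ A := by
    intro a ha q
    have h1 : ⁅q, a⁆ ∈ commutator Q := by
      rw [commutator_def]
      exact Subgroup.commutator_mem_commutator (Subgroup.mem_top q) (Subgroup.mem_top a)
    rw [hQ.1.2.2] at h1
    have h2 : q * a * q⁻¹ = ⁅q, a⁆ * a := by
      rw [commutatorElement_def]; group
    rw [h2]
    exact A.mul_mem (hZA h1) ha
  -- the commutator of α with q lies in A
  have hc : ∀ q : Q, q⁻¹ * α q ∈ A := by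
    intro q
    apply hCA
    intro a ha
    have h1 := hfix _ (hAn a ha q)
    rw [map_mul, map_mul, map_inv, hfix a ha] at h1
    -- h1 : α q * a * (α q)⁻¹ = q * a * q⁻¹
    have h2 : α q * a = q * a * q⁻¹ * α q := by
      rw [← h1]; group
    calc q⁻¹ * α q * a = q⁻¹ * (α q * a) := by group
      _ = q⁻¹ * (q * a * q⁻¹ * α q) := by rw [h2]
      _ = a * (q⁻¹ * α q) := by group
  have hpow : ∀ (n : ℕ) (q : Q), (α ^ n) q = q * (q⁻¹ * α q) ^ n := by
    intro n
    induction n with
    | zero => intro q; simp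
    | succ n ih =>
      intro q
      rw [pow_succ', MulAut.mul_apply, ih, map_mul, map_pow, hfix _ (hc q), pow_succ']
      simp only [mul_assoc, mul_inv_cancel_left]
  have hone : α ^ (Nat.card Q) = 1 := by
    ext q
    rw [hpow, pow_card_eq_one', mul_one]
    rfl
  obtain ⟨n, hn⟩ := (IsPGroup.iff_card.mp hQ.1.1)
  have hdvd : orderOf α ∣ p ^ n := by
    rw [← hn]; exact orderOf_dvd_of_pow_eq_one hone
  obtain ⟨k, -, hk⟩ := (Nat.dvd_prime_pow hp).mp hdvd
  exact ⟨k, hk⟩

end Cfsg.Agent.S3349
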