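import Cfsg.Statements.S3370
import Cfsg.Agent.Lib.Helper54.CyclicNormal
-- import your own Cfsg.Agent.* helpers here

set_option autoImplicit false
open Cfsg

namespace Cfsg.Agent.S3370

open Subgroup Cfsg.Agent.Lib.Helper54.UniqueSubgroup Cfsg.Agent.Lib.Helper54.Quaternion
  Cfsg.Agent.Lib.Helper54.CyclicNormal

/-! ### Number theory: `q ^ n - 1 = p ^ c` -/

theorem odd_factor (x y : ℤ) (hx : Odd x) (hy : Odd y) (k : ℕ) :
    ∃ T : ℤ, Odd T ∧ x ^ (2 * k + 1) - y ^ (2 * k + 1) = (x - y) * T := by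
  induction k with
  | zero => exact ⟨1, odd_one, by ring⟩
  | succ k ih =>
    obtain ⟨T, hT, h⟩ := ih
    refine ⟨x ^ 2 * T + y ^ (2 * k + 1) * (x + y), ?_, ?_⟩
    · exact ((hx.pow).mul hT).add_even ((hx.add_odd hy).mul_left _)
    · have : x ^ (2 * (k + 1) + 1) - y ^ (2 * (k + 1) + 1)
          = x ^ 2 * (x ^ (2 * k + 1) - y ^ (2 * k + 1)) + y ^ (2 * k + 1) * (x ^ 2 - y ^ 2) := by
        ring
      rw [this, h]; ring

theorem eq_one_of_odd_dvd_two_pow (T : ℤ) (hT : Odd T) (hpos : 0 < T) (c : ℕ)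
    (h : T ∣ 2 ^ c) : T = 1 := by
  have h1 : T.natAbs ∣ 2 ^ c := by
    have := Int.natAbs_dvd_natAbs.2 h
    simpa [Int.natAbs_pow] using this
  obtain ⟨i, -, hi⟩ := (Nat.dvd_prime_pow Nat.prime_two).1 h1
  have h2 : Odd T.natAbs := Int.natAbs_odd.2 hT
  rw [hi] at h2
  have hi0 : i = 0 := by
    by_contra h0
    exact (Nat.not_even_iff_odd.2 h2) (Nat.even_pow.2 ⟨even_two, h0⟩)
  subst hi0
  omega

theorem nt (q p n c : ℕ) (hq : q.Prime) (hp : p.Prime) (hn : 1 ≤ n) (hc : 1 ≤ c)
    (h : q ^ n = p ^ c + 1) :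
    (q = 2 ∧ c = 1) ∨ (p = 2 ∧ n = 1) ∨ (p = 2 ∧ q = 3 ∧ n = 2 ∧ c = 3) := by
  by_cases hq2 : q = 2
  · left
    subst hq2
    refine ⟨rfl, ?_⟩
    have hpodd : Odd p := by
      rcases hp.eq_two_or_odd' with rfl | ho
      · exfalso
        have h1 : Even (2 ^ n) := (Nat.even_pow.2 ⟨even_two, by omega⟩)
        have h2 : Even (2 ^ c) := (Nat.even_pow.2 ⟨even_two, by omega⟩)
        rw [h] at h1
        exact (Nat.not_even_iff_odd.2 (h2.add_one)) h1
      · exact ho
    by_contra hc1
    rcases Nat.even_or_odd c with ⟨k, hk⟩ | ⟨k, hk⟩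
    · have hk1 : 1 ≤ k := by omega
      have h1 : p ^ c % 4 = 1 := by
        rw [hk, ← two_mul, pow_mul]
        have : p ^ 2 % 4 = 1 := by
          obtain ⟨m, rfl⟩ := hpodd
          have : (2 * m + 1) ^ 2 = 4 * (m * m + m) + 1 := by ring
          rw [this]; omega
        rw [Nat.pow_mod, this]; simp
      have h2 : 2 ^ n % 4 = 2 := by rw [h]; omega
      have hn1 : n = 1 := by
        by_contra hn1
        obtain ⟨m, rfl⟩ : ∃ m, n = m + 2 := ⟨n - 2, by omega⟩
        rw [pow_add] at h2; omega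
      subst hn1
      have h3 : p ^ c = 1 := by omega
      have := Nat.one_lt_pow (by omega : c ≠ 0) hp.one_lt
      omega
    · have hk1 : 1 ≤ k := by omega
      obtain ⟨T, hT, hTeq⟩ := odd_factor (p : ℤ) (-1) (by exact_mod_cast hpodd)
        (by decide) k
      have h3 : ((p : ℤ) + 1) * T = 2 ^ n := by
        have h4 : (p : ℤ) ^ (2 * k + 1) - (-1) ^ (2 * k + 1) = (p : ℤ) ^ c + 1 := by
          rw [hk, Odd.neg_one_pow ⟨k, rfl⟩]; ring
        rw [h4] at hTeq
        have h' : ((2 ^ n : ℕ) : ℤ) = ((p ^ c + 1 : ℕ) : ℤ) := by rw [h]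
        push_cast at h'
        linarith
      have hTpos : 0 < T := by
        by_contra hneg
        push Not at hneg
        have h5 : ((p : ℤ) + 1) * T ≤ 0 := mul_nonpos_of_nonneg_of_nonpos (by positivity) hneg
        have h6 : (0 : ℤ) < 2 ^ n := by positivity
        omega
      have hT1 := eq_one_of_odd_dvd_two_pow T hT hTpos n (Dvd.intro_left _ h3)
      rw [hT1, mul_one] at h3
      have h4 : p ^ c = p ^ 1 := by
        have h' : ((2 ^ n : ℕ) : ℤ) = ((p ^ c + 1 : ℕ) : ℤ) := by rw [h]
        push_cast at h'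
        have : ((p ^ c : ℕ) : ℤ) = ((p ^ 1 : ℕ) : ℤ) := by push_cast; linarith
        exact_mod_cast this
      exact hc1 (Nat.pow_right_injective hp.two_le h4)
  · right
    have hqodd : Odd q := hq.eq_two_or_odd'.resolve_left hq2
    have hp2 : p = 2 := by
      have h1 : Odd (q ^ n) := hqodd.pow
      rw [h] at h1
      have h2 : Even (p ^ c) := by
        by_contra hne
        rw [Nat.not_even_iff_odd] at hne
        exact (Nat.not_even_iff_odd.2 h1) hne.add_one
      exact (hp.even_iff.1 (Nat.even_pow.1 h2).1)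
    subst hp2
    by_cases hn1 : n = 1
    · left; exact ⟨rfl, hn1⟩
    right
    refine ⟨rfl, ?_⟩
    rcases Nat.even_or_odd n with ⟨k, hk⟩ | ⟨k, hk⟩
    · have hk1 : 1 ≤ k := by omega
      have hqk : 3 ≤ q ^ k := by
        have h1 : q ^ 1 ≤ q ^ k := Nat.pow_le_pow_right hq.pos hk1
        rw [pow_one] at h1
        have h2 := hq.two_le
        omega
      have h1 : (q ^ k - 1) * (q ^ k + 1) = 2 ^ c := by
        have h2 : q ^ n = q ^ k * q ^ k := by rw [hk, pow_add]
        obtain ⟨a, ha⟩ : ∃ a, q ^ k = a + 1 := ⟨q ^ k - 1, by omega⟩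
        rw [h2, ha] at h
        rw [ha, Nat.add_sub_cancel]
        nlinarith
      obtain ⟨a, -, ha⟩ := (Nat.dvd_prime_pow Nat.prime_two).1 (Dvd.intro _ h1)
      obtain ⟨b, -, hb⟩ := (Nat.dvd_prime_pow Nat.prime_two).1 (Dvd.intro_left _ h1)
      have hab : 2 ^ b = 2 ^ a + 2 := by omega
      have ha1 : a = 1 := by
        rcases a with _ | _ | a
        · exfalso
          rw [pow_zero] at hab
          rcases b with _ | _ | b
          · omega
          · omega
          · have : 2 ^ (b + 2) = 4 * 2 ^ b := by ring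
            omega
        · rfl
        · exfalso
          have h2 : 2 ^ (a + 1 + 1) < 2 ^ b := by omega
          have hlt : a + 2 < b := (Nat.pow_lt_pow_iff_right (by norm_num)).1 h2
          obtain ⟨d, rfl⟩ : ∃ d, b = a + 2 + d + 1 := ⟨b - (a + 2) - 1, by omega⟩
          have e1 : 2 ^ (a + 2 + d + 1) = 4 * 2 ^ (a + d + 1) := by ring
          have e2 : 2 ^ (a + 1 + 1) = 4 * 2 ^ a := by ring
          omega
      subst ha1
      have hqk3 : q ^ k = 3 := by omega
      have hq3 : q = 3 := by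
        have h2 : q ∣ 3 := by rw [← hqk3]; exact dvd_pow_self q (by omega)
        exact (Nat.prime_dvd_prime_iff_eq hq Nat.prime_three).1 h2
      subst hq3
      have hk1' : k = 1 := by
        have h2 : 3 ^ k = 3 ^ 1 := by rw [hqk3, pow_one]
        exact Nat.pow_right_injective (by norm_num) h2
      subst hk1'
      refine ⟨rfl, by omega, ?_⟩
      have h2 : 2 ^ c = 2 ^ 3 := by
        rw [hk] at h; norm_num at h ⊢; omega
      exact Nat.pow_right_injective (le_refl 2) h2
    · exfalso
      have hk1 : 1 ≤ k := by omega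
      obtain ⟨T, hT, hTeq⟩ := odd_factor (q : ℤ) 1 (by exact_mod_cast hqodd) odd_one k
      have h3 : ((q : ℤ) - 1) * T = 2 ^ c := by
        rw [one_pow, ← hk] at hTeq
        have h' : ((q ^ n : ℕ) : ℤ) = ((2 ^ c + 1 : ℕ) : ℤ) := by rw [h]
        push_cast at h'
        linarith
      have hq1 : (0 : ℤ) < (q : ℤ) - 1 := by have := hq.two_le; omega
      have hTpos : 0 < T := by
        by_contra hneg
        push Not at hneg
        have h5 : ((q : ℤ) - 1) * T ≤ 0 := mul_nonpos_of_nonneg_of_nonpos hq1.le hneg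
        have h6 : (0 : ℤ) < 2 ^ c := by positivity
        omega
      have hT1 := eq_one_of_odd_dvd_two_pow T hT hTpos c (Dvd.intro_left _ h3)
      rw [hT1, mul_one] at h3
      have h4 : q ^ n = q ^ 1 := by
        have h' : ((q ^ n : ℕ) : ℤ) = ((2 ^ c + 1 : ℕ) : ℤ) := by rw [h]
        push_cast at h'
        have : ((q ^ n : ℕ) : ℤ) = ((q ^ 1 : ℕ) : ℤ) := by push_cast; linarith
        exact_mod_cast this
      exact hn1 (Nat.pow_right_injective hq.two_le h4)

/-! ### Generalities on the action -/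

section action

variable {q : ℕ} [Fact q.Prime] {V : Type*} [AddCommGroup V] [Module (ZMod q) V]
  {G : Type*} [Group G] (ρ : G →* (V ≃ₗ[ZMod q] V))

/-- The stabilizer of a vector. -/
def stab (v : V) : Subgroup G where
  carrier := {g | ρ g v = v}
  mul_mem' := by
    intro a b ha hb
    show ρ (a * b) v = v
    have ha' : ρ a v = v := ha
    have hb' : ρ b v = v := hb
    rw [map_mul, LinearEquiv.mul_apply, hb', ha']
  one_mem' := by
    show ρ 1 v = v
    rw [map_one]; rfl
  inv_mem' := by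
    intro a ha
    show ρ a⁻¹ v = v
    have ha' : ρ a v = v := ha
    have h1 : ρ a⁻¹ (ρ a v) = v := by
      rw [← LinearEquiv.mul_apply, ← map_mul, inv_mul_cancel, map_one]; rfl
    rwa [ha'] at h1

theorem mem_stab {g : G} {v : V} : g ∈ stab ρ v ↔ ρ g v = v := Iff.rfl

theorem mul_apply' (g h : G) (v : V) : ρ (g * h) v = ρ g (ρ h v) := by
  rw [map_mul, LinearEquiv.mul_apply]

theorem one_apply' (v : V) : ρ 1 v = v := by
  rw [map_one]; rfl

theorem inv_apply_eq {g : G} {v w : V} (h : ρ g v = w) : ρ g⁻¹ w = v := by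
  rw [← h, ← mul_apply', inv_mul_cancel, one_apply']

theorem index_stab [Finite V]
    (htrans : ∀ v w : V, v ≠ 0 → w ≠ 0 → ∃ g : G, ρ g v = w) {v : V} (hv : v ≠ 0) :
    (stab ρ v).index = Nat.card V - 1 := by
  let _ : MulAction G V := MulAction.compHom V ρ
  have h1 : MulAction.stabilizer G v = stab ρ v := by
    ext g; rfl
  have h2 : MulAction.orbit G v = ({0} : Set V)ᶜ := by
    ext w
    constructor
    · rintro ⟨g, rfl⟩
      intro h
      apply hv
      have h3 : ρ g v = 0 := h
      exact (ρ g).map_eq_zero_iff.1 h3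
    · intro hw
      obtain ⟨g, hg⟩ := htrans v w hv (by simpa using hw)
      exact ⟨g, hg⟩
  rw [← h1, MulAction.index_stabilizer, h2, Set.ncard_compl, Set.ncard_singleton]

theorem eq_one_of_fix_all (hρ : Function.Injective ρ) (g : G)
    (h : ∀ v : V, v ≠ 0 → ρ g v = v) : g = 1 := by
  apply hρ
  rw [map_one]
  ext v
  by_cases hv : v = 0
  · rw [hv]; simp
  · rw [h v hv]; rfl

/-- A fixed-point-free involution acts as `-1`. -/
theorem neg_of_invol_fpf {g : G} (hg : g * g = 1) (hfpf : ∀ v : V, v ≠ 0 → ρ g v ≠ v) (v : V) :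
    ρ g v = -v := by
  have h1 : ρ g (v + ρ g v) = v + ρ g v := by
    rw [map_add, ← mul_apply', hg, one_apply', add_comm]
  have h2 : v + ρ g v = 0 := by
    by_contra h
    exact hfpf _ h h1
  exact eq_neg_of_add_eq_zero_right h2

theorem card_V [Finite V] [Nontrivial V] : ∃ n : ℕ, 1 ≤ n ∧ Nat.card V = q ^ n := by
  have := Fintype.ofFinite V
  refine ⟨Module.finrank (ZMod q) V, ?_, ?_⟩
  · by_contra h
    have h0 : Module.finrank (ZMod q) V = 0 := by omega
    have h1 : Nat.card V = 1 := by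
      rw [Nat.card_eq_fintype_card, Module.card_eq_pow_finrank (K := ZMod q), h0, pow_zero]
    have h2 := Finite.one_lt_card (α := V)
    omega
  · rw [Nat.card_eq_fintype_card, Module.card_eq_pow_finrank (K := ZMod q), ZMod.card]

end action

/-! ### The case `q = 3`, `#V = 9` -/

section three

variable {V : Type*} [AddCommGroup V] [Module (ZMod 3) V] [Finite V]
  {G : Type*} [Group G] [Finite G] (ρ : G →* (V ≃ₗ[ZMod 3] V))

theorem zmod3_cases (c : ZMod 3) : c = 0 ∨ c = 1 ∨ c = 2 := by
  revert c; decide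

theorem coord (hV : Nat.card V = 9) {v w : V} (hv : v ≠ 0) (hw : ∀ c : ZMod 3, w ≠ c • v)
    (u : V) : ∃ a b : ZMod 3, u = a • v + b • w := by
  have hinj : Function.Injective (fun ab : ZMod 3 × ZMod 3 => ab.1 • v + ab.2 • w) := by
    rintro ⟨a, b⟩ ⟨a', b'⟩ h
    have h' : a • v + b • w = a' • v + b' • w := h
    have h1 : (b - b') • w = (a' - a) • v := by
      rw [sub_smul, sub_smul, sub_eq_sub_iff_add_eq_add, add_comm]
      exact h'
    have hb : b = b' := by
      by_contra hbb
      have hne : b - b' ≠ 0 := sub_ne_zero.2 hbb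
      apply hw ((b - b')⁻¹ * (a' - a))
      rw [mul_smul, ← h1, smul_smul, inv_mul_cancel₀ hne, one_smul]
    subst hb
    have h2 : (a' - a) • v = 0 := by rw [← h1, sub_self, zero_smul]
    rcases smul_eq_zero.1 h2 with h3 | h3
    · rw [sub_eq_zero.1 h3]
    · exact absurd h3 hv
  have hbij := hinj.bijective_of_nat_card_le (by rw [hV, Nat.card_prod, Nat.card_zmod])
  obtain ⟨⟨a, b⟩, hab⟩ := hbij.2 u
  exact ⟨a, b, hab.symm⟩

theorem eq_one_of_fix_two (hρ : Function.Injective ρ) (hV : Nat.card V = 9) {v w : V}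
    (hv : v ≠ 0) (hw : ∀ c : ZMod 3, w ≠ c • v) {g : G} (h1 : ρ g v = v) (h2 : ρ g w = w) :
    g = 1 := by
  apply eq_one_of_fix_all ρ hρ
  intro u _
  obtain ⟨a, b, rfl⟩ := coord hV hv hw u
  rw [map_add, map_smul, map_smul, h1, h2]

theorem exists_indep (hV : Nat.card V = 9) (v : V) : ∃ w : V, ∀ c : ZMod 3, w ≠ c • v := by
  by_contra h
  push Not at h
  have hsurj : Function.Surjective (fun c : ZMod 3 => c • v) := fun w => by
    obtain ⟨c, hc⟩ := h w; exact ⟨c, hc.symm⟩
  have h1 := Nat.card_le_card_of_surjective _ hsurj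
  rw [hV, Nat.card_zmod] at h1
  omega

theorem three_smul' (a : ZMod 3) (v : V) : a • v + (a • v + a • v) = 0 := by
  rw [← add_smul, ← add_smul]
  have h : a + (a + a) = 0 := by revert a; decide
  rw [h, zero_smul]

/-- "Unipotent" elements of a point stabilizer are trivial. -/
theorem eq_one_of_unip (hG : IsPGroup 2 G) (hρ : Function.Injective ρ) (hV : Nat.card V = 9)
    {v w : V} (hv : v ≠ 0) (hw : ∀ c : ZMod 3, w ≠ c • v) {g : G} (h1 : ρ g v = v)
    {a : ZMod 3} (h2 : ρ g w = a • v + w) : g = 1 := by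
  have e1 : ρ g (a • v + w) = a • v + (a • v + w) := by rw [map_add, map_smul, h1, h2]
  have e2 : ρ g (a • v + (a • v + w)) = a • v + (a • v + (a • v + w)) := by
    rw [map_add, map_smul, h1, e1]
  have h3 : g ^ 3 = 1 := by
    apply eq_one_of_fix_two ρ hρ hV hv hw
    · rw [pow_succ, pow_two, mul_apply', mul_apply', h1, h1, h1]
    · rw [pow_succ, pow_two, mul_apply', mul_apply', h2, e1, e2]
      have h4 : a • v + (a • v + (a • v + w)) = (a • v + (a • v + a • v)) + w := by abel
      rw [h4, three_smul', zero_add]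
  obtain ⟨k, hk⟩ := hG g
  have h4 : orderOf g ∣ 3 := orderOf_dvd_of_pow_eq_one h3
  have h5 : orderOf g ∣ 2 ^ k := orderOf_dvd_of_pow_eq_one hk
  have h6 : orderOf g ∣ Nat.gcd 3 (2 ^ k) := Nat.dvd_gcd h4 h5
  have h7 : Nat.gcd 3 (2 ^ k) = 1 := Nat.Coprime.pow_right k (by norm_num)
  rw [h7, Nat.dvd_one, orderOf_eq_one_iff] at h6
  exact h6

theorem fix_form (hG : IsPGroup 2 G) (hρ : Function.Injective ρ) (hV : Nat.card V = 9)
    {v w : V} (hv : v ≠ 0) (hw : ∀ c : ZMod 3, w ≠ c • v) {g : G} (hg1 : g ≠ 1)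
    (h1 : ρ g v = v) : ∃ a : ZMod 3, ρ g w = a • v + (2 : ZMod 3) • w := by
  obtain ⟨a, b, hab⟩ := coord hV hv hw (ρ g w)
  refine ⟨a, ?_⟩
  rcases zmod3_cases b with rfl | rfl | rfl
  · exfalso
    rw [zero_smul, add_zero] at hab
    have h3 : ρ g w = ρ g (a • v) := by rw [map_smul, h1, hab]
    exact hw a ((ρ g).injective h3)
  · exfalso
    rw [one_smul] at hab
    exact hg1 (eq_one_of_unip ρ hG hρ hV hv hw h1 hab)
  · exact hab

theorem stab_le_two (hG : IsPGroup 2 G) (hρ : Function.Injective ρ) (hV : Nat.card V = 9)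
    {v : V} (hv : v ≠ 0) {g h : G} (hg1 : g ≠ 1) (hh1 : h ≠ 1)
    (hg : ρ g v = v) (hh : ρ h v = v) : g * h = 1 := by
  obtain ⟨w, hw⟩ := exists_indep hV v
  obtain ⟨a, ha⟩ := fix_form ρ hG hρ hV hv hw hg1 hg
  obtain ⟨a', ha'⟩ := fix_form ρ hG hρ hV hv hw hh1 hh
  apply eq_one_of_unip ρ hG hρ hV hv hw (a := a' + 2 * a)
  · rw [mul_apply', hh, hg]
  · rw [mul_apply', ha', map_add, map_smul, map_smul, hg, ha, smul_add, smul_smul, smul_smul,
      ← add_assoc, ← add_smul]
    have h3 : (2 : ZMod 3) * 2 = 1 := by decide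
    rw [h3, one_smul]

theorem eq_of_fix (hG : IsPGroup 2 G) (hρ : Function.Injective ρ) (hV : Nat.card V = 9)
    {v : V} (hv : v ≠ 0) {g h : G} (hg1 : g ≠ 1) (hh1 : h ≠ 1)
    (hg : ρ g v = v) (hh : ρ h v = v) : g = h := by
  have h1 := stab_le_two ρ hG hρ hV hv hg1 hh1 hg hh
  have h2 := stab_le_two ρ hG hρ hV hv hg1 hg1 hg hg
  exact (mul_left_cancel (h1.trans h2.symm)).symm

theorem not_central_of_fix (hρ : Function.Injective ρ)
    (htrans : ∀ v w : V, v ≠ 0 → w ≠ 0 → ∃ g : G, ρ g v = w) {g : G} (hg1 : g ≠ 1) {v : V}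
    (hv : v ≠ 0) (hg : ρ g v = v) (hc : ∀ h : G, h * g = g * h) : False := by
  apply hg1
  apply eq_one_of_fix_all ρ hρ
  intro w hw
  obtain ⟨h, rfl⟩ := htrans v w hv hw
  rw [← mul_apply', ← hc h, mul_apply', hg]

theorem card_stab_mul (htrans : ∀ v w : V, v ≠ 0 → w ≠ 0 → ∃ g : G, ρ g v = w)
    (hV : Nat.card V = 9) {v : V} (hv : v ≠ 0) : Nat.card (stab ρ v) * 8 = Nat.card G := by
  have h1 := index_stab ρ htrans hv
  rw [hV] at h1
  rw [← Subgroup.card_mul_index (stab ρ v), h1]

theorem lines (v w : V) (α β : ZMod 3) : α • v + β • w = 0 ∨ ∃ γ : ZMod 3, γ ≠ 0 ∧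
    (α • v + β • w = γ • v ∨ α • v + β • w = γ • w ∨ α • v + β • w = γ • (v + w) ∨
      α • v + β • w = γ • (v + (2 : ZMod 3) • w)) := by
  have h1 : (1 : ZMod 3) ≠ 0 := by decide
  have h2 : (2 : ZMod 3) ≠ 0 := by decide
  have e : (2 : ZMod 3) * 2 = 1 := by decide
  rcases zmod3_cases α with rfl | rfl | rfl <;> rcases zmod3_cases β with rfl | rfl | rfl
  · left; rw [zero_smul, zero_smul, add_zero]
  · right; exact ⟨1, h1, Or.inr (Or.inl (by rw [zero_smul, zero_add]))⟩
  · right; exact ⟨2, h2, Or.inr (Or.inl (by rw [zero_smul, zero_add]))⟩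
  · right; exact ⟨1, h1, Or.inl (by rw [zero_smul, add_zero])⟩
  · right; exact ⟨1, h1, Or.inr (Or.inr (Or.inl (by rw [smul_add])))⟩
  · right; exact ⟨1, h1, Or.inr (Or.inr (Or.inr (by rw [smul_add, one_smul, one_smul])))⟩
  · right; exact ⟨2, h2, Or.inl (by rw [zero_smul, add_zero])⟩
  · right; exact ⟨2, h2, Or.inr (Or.inr (Or.inr (by rw [smul_add, smul_smul, e])))⟩
  · right; exact ⟨2, h2, Or.inr (Or.inr (Or.inl (by rw [smul_add])))⟩

end three

theorem case_three {V : Type*} [AddCommGroup V] [Module (ZMod 3) V] [Finite V]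
    {G : Type*} [Group G] [Finite G] (hG : IsPGroup 2 G)
    (ρ : G →* (V ≃ₗ[ZMod 3] V)) (hρ : Function.Injective ρ)
    (htrans : ∀ v w : V, v ≠ 0 → w ≠ 0 → ∃ g : G, ρ g v = w) (hV : Nat.card V = 9) :
    (IsCyclic G ∧ Nat.card G = 8) ∨ Nonempty (G ≃* QuaternionGroup 2) ∨
      (Cfsg.IsQuasiDihedral G ∧ Nat.card G = 16) := by
  classical
  have : Fact (Nat.Prime 2) := ⟨Nat.prime_two⟩
  obtain ⟨v₀, hv₀⟩ : ∃ v : V, v ≠ 0 := by
    have : Nontrivial V := by
      apply Finite.one_lt_card_iff_nontrivial.1; rw [hV]; norm_num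
    exact exists_ne 0
  by_cases hS : stab ρ v₀ = ⊥
  · -- `#G = 8`
    have hcard : Nat.card G = 8 := by
      rw [← card_stab_mul ρ htrans hV hv₀, hS, Subgroup.card_bot]
    have hsemi : ∀ g : G, g ≠ 1 → ∀ v : V, v ≠ 0 → ρ g v ≠ v := by
      intro g hg1 v hv hfix
      have h1 := card_stab_mul ρ htrans hV hv
      rw [hcard] at h1
      have h2 : Nat.card (stab ρ v) = 1 := by omega
      have h3 : stab ρ v = ⊥ := Subgroup.card_eq_one.1 h2
      have h4 : g ∈ stab ρ v := hfix
      rw [h3, mem_bot] at h4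
      exact hg1 h4
    have hUI : UI 2 G := by
      intro g h hg hh hg1
      by_cases hh1 : h = 1
      · rw [hh1]; exact one_mem _
      have e : g = h := by
        apply hρ
        ext v
        rw [neg_of_invol_fpf ρ (by rw [← pow_two]; exact hg) (hsemi g hg1),
          neg_of_invol_fpf ρ (by rw [← pow_two]; exact hh) (hsemi h hh1)]
      rw [← e]; exact mem_zpowers g
    rcases isCyclic_or_quaternion hG hUI with hcyc | ⟨n, ⟨e⟩⟩
    · left; exact ⟨hcyc, hcard⟩
    · right; left
      have hn : n = 1 := by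
        have h1 := Nat.card_congr e.toEquiv
        rw [hcard] at h1
        have : NeZero (2 ^ n) := ⟨by positivity⟩
        rw [Nat.card_eq_fintype_card, QuaternionGroup.card] at h1
        have h2 : 2 ^ n = 2 ^ 1 := by omega
        exact Nat.pow_right_injective (le_refl 2) h2
      subst hn
      exact ⟨e⟩
  · -- `#G = 16`
    obtain ⟨r₀, hr₀, hr₀1⟩ : ∃ r ∈ stab ρ v₀, r ≠ 1 := by
      by_contra h
      push Not at h
      exact hS (eq_bot_iff.2 fun g hg => by rw [mem_bot]; exact h g hg)
    have hr₀' : ρ r₀ v₀ = v₀ := hr₀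
    have hcard2 : Nat.card (stab ρ v₀) = 2 := by
      rw [Nat.card_eq_two_iff]
      refine ⟨⟨1, one_mem _⟩, ⟨r₀, hr₀⟩, ?_, ?_⟩
      · intro h; exact hr₀1 (congrArg Subtype.val h).symm
      · ext ⟨s, hs⟩
        simp only [Set.mem_insert_iff, Set.mem_singleton_iff, Set.mem_univ, iff_true,
          Subtype.mk.injEq]
        by_cases hs1 : s = 1
        · left; exact hs1
        · right; exact eq_of_fix ρ hG hρ hV hv₀ hs1 hr₀1 hs hr₀
    have hcard : Nat.card G = 16 := by
      rw [← card_stab_mul ρ htrans hV hv₀, hcard2]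
    have hrefl : ∀ v : V, v ≠ 0 → ∃ r : G, r ≠ 1 ∧ ρ r v = v := by
      intro v hv
      have h1 := card_stab_mul ρ htrans hV hv
      rw [hcard] at h1
      have h2 : Nat.card (stab ρ v) = 2 := by omega
      by_contra h
      push Not at h
      have h3 : stab ρ v = ⊥ := eq_bot_iff.2 fun g hg => by
        rw [mem_bot]; by_contra hg1; exact h g hg1 hg
      rw [h3, Subgroup.card_bot] at h2
      omega
    -- normal abelian subgroups are cyclic
    have hn : ∀ A : Subgroup G, A.Normal → IsMulCommutative A → IsCyclic A := by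
      intro A hAn hAc
      by_contra hnc
      have hcomm : ∀ x y : A, x * y = y * x := fun x y => hAc.is_comm.comm x y
      have hnUI : ¬ UI 2 A := fun hUI => hnc (isCyclic_of_comm (hG.to_subgroup A) hUI hcomm)
      unfold UI at hnUI
      push Not at hnUI
      obtain ⟨g, h, hg, hh, hg1, hhg⟩ := hnUI
      have hgG : (g : G) * g = 1 := by
        have h0 := congrArg Subtype.val hg
        simpa [pow_two] using h0
      have hhG : (h : G) * h = 1 := by
        have h0 := congrArg Subtype.val hh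
        simpa [pow_two] using h0
      have hgG1 : (g : G) ≠ 1 := fun h0 => hg1 (Subtype.ext h0)
      have hh1 : (h : G) ≠ 1 := by
        intro h0
        apply hhg
        have h1 : h = 1 := Subtype.ext h0
        rw [h1]; exact one_mem _
      have hgh : (g : G) ≠ h := by
        intro h0
        apply hhg
        have h1 : g = h := Subtype.ext h0
        rw [← h1]; exact mem_zpowers g
      obtain ⟨r, hrA, hr1, v, hv, hrv⟩ :
          ∃ r ∈ A, r ≠ 1 ∧ ∃ v : V, v ≠ 0 ∧ ρ r v = v := by
        by_cases h1 : ∃ v : V, v ≠ 0 ∧ ρ (g : G) v = v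
        · exact ⟨g, g.2, hgG1, h1⟩
        by_cases h2 : ∃ v : V, v ≠ 0 ∧ ρ (h : G) v = v
        · exact ⟨h, h.2, hh1, h2⟩
        exfalso
        push Not at h1 h2
        apply hgh
        apply hρ
        ext u
        rw [neg_of_invol_fpf ρ hgG h1, neg_of_invol_fpf ρ hhG h2]
      obtain ⟨w, hw⟩ := exists_indep hV v
      have hw0 : w ≠ 0 := fun h0 => hw 0 (by rw [h0, zero_smul])
      have ht0 : v + w ≠ 0 := by
        intro h0
        apply hw 2
        have h1 : w = -v := (neg_eq_of_add_eq_zero_right h0).symm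
        rw [h1, show (2 : ZMod 3) = -1 by decide, neg_one_smul]
      have hconj : ∀ u : V, u ≠ 0 → ∃ r' ∈ A, r' ≠ 1 ∧ ρ r' u = u := by
        intro u hu
        obtain ⟨k, hk⟩ := htrans v u hv hu
        refine ⟨k * r * k⁻¹, hAn.conj_mem r hrA k, ?_, ?_⟩
        · intro h0
          apply hr1
          have h1 : r = k⁻¹ * (k * r * k⁻¹) * k := by group
          rw [h1, h0]; group
        · rw [mul_apply', mul_apply', inv_apply_eq ρ hk, hrv, hk]
      obtain ⟨r₁, hr₁A, hr₁1, hr₁w⟩ := hconj w hw0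
      obtain ⟨r₂, hr₂A, hr₂1, hr₂t⟩ := hconj (v + w) ht0
      have hcommG : ∀ x ∈ A, ∀ y ∈ A, x * y = y * x := fun x hx y hy =>
        congrArg Subtype.val (hcomm ⟨x, hx⟩ ⟨y, hy⟩)
      have hfixr : ∀ u : V, ρ r u = u → ∃ c : ZMod 3, u = c • v := by
        intro u hu
        by_contra hne
        push Not at hne
        exact hr1 (eq_one_of_fix_two ρ hρ hV hv hne hrv hu)
      have hvw : ∀ c : ZMod 3, v ≠ c • w := by
        intro c hc
        have hc0 : c ≠ 0 := by rintro rfl; rw [zero_smul] at hc; exact hv hc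
        apply hw c⁻¹
        rw [hc, smul_smul, inv_mul_cancel₀ hc0, one_smul]
      have hfixr₁ : ∀ u : V, ρ r₁ u = u → ∃ c : ZMod 3, u = c • w := by
        intro u hu
        by_contra hne
        push Not at hne
        exact hr₁1 (eq_one_of_fix_two ρ hρ hV hw0 hne hr₁w hu)
      obtain ⟨c, hc⟩ := hfixr (ρ r₂ v) (by
        rw [← mul_apply', hcommG r hrA r₂ hr₂A, mul_apply', hrv])
      obtain ⟨d, hd⟩ := hfixr₁ (ρ r₂ w) (by
        rw [← mul_apply', hcommG r₁ hr₁A r₂ hr₂A, mul_apply', hr₁w])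
      have h3 : c • v + d • w = v + w := by rw [← hc, ← hd, ← map_add, hr₂t]
      have h4 : (d - 1) • w = (1 - c) • v := by
        rw [sub_smul, sub_smul, one_smul, one_smul, sub_eq_sub_iff_add_eq_add, add_comm]
        exact h3
      have hd1 : d = 1 := by
        by_contra hd1
        have hne : d - 1 ≠ 0 := sub_ne_zero.2 hd1
        apply hw ((d - 1)⁻¹ * (1 - c))
        rw [mul_smul, ← h4, smul_smul, inv_mul_cancel₀ hne, one_smul]
      rw [hd1, sub_self, zero_smul] at h4
      have hc1 : c = 1 := by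
        rcases smul_eq_zero.1 h4.symm with h5 | h5
        · exact (sub_eq_zero.1 h5).symm
        · exact absurd h5 hv
      rw [hc1, one_smul] at hc
      rw [hd1, one_smul] at hd
      exact hr₂1 (eq_one_of_fix_two ρ hρ hV hv hw hc hd)
    rcases cyclic_or_two hG hn with hcyc | ⟨-, a, x, n, hn1, ha, hN, hC, hcardn, hx, hcases⟩
    · exfalso
      obtain ⟨γ, hγ⟩ := hcyc.exists_generator
      exact not_central_of_fix ρ hρ htrans hr₀1 hv₀ hr₀'
        (fun h => (commute_of_mem_zpowers (hγ h) (hγ r₀)).eq)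
    · have hn2 : n = 2 := by
        rw [hcard] at hcardn
        have h1 : 2 ^ 4 = 2 ^ (n + 2) := by rw [← hcardn]; norm_num
        have h2 := Nat.pow_right_injective (le_refl 2) h1
        omega
      subst hn2
      have ha8 : orderOf a = 8 := by rw [ha]; norm_num
      obtain ⟨w, hw⟩ := exists_indep hV v₀
      have hw0 : w ≠ 0 := fun h0 => hw 0 (by rw [h0, zero_smul])
      obtain ⟨r₁, hr₁1, hr₁⟩ := hrefl w hw0
      have hr01 : r₀ ≠ r₁ := by
        intro h0
        apply hr₀1
        exact eq_one_of_fix_two ρ hρ hV hv₀ hw hr₀' (h0 ▸ hr₁)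
      have hr0sq : r₀ * r₀ = 1 := stab_le_two ρ hG hρ hV hv₀ hr₀1 hr₀1 hr₀' hr₀'
      have hr1sq : r₁ * r₁ = 1 := stab_le_two ρ hG hρ hV hw0 hr₁1 hr₁1 hr₁ hr₁
      have hidx2 : (zpowers a).index = 2 := by
        have h1 := Subgroup.card_mul_index (zpowers a)
        rw [Nat.card_zpowers, ha8, hcard] at h1
        omega
      have hcoset : ∀ g : G, g ∉ zpowers a → x⁻¹ * g ∈ zpowers a := by
        intro g hg
        rw [Subgroup.mul_mem_iff_of_index_two hidx2]
        constructor
        · intro h; exact absurd (inv_mem_iff.1 h) hx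
        · intro h; exact absurd h hg
      have ha4 : a ^ 4 ≠ 1 := by
        intro h0
        have h1 := orderOf_dvd_of_pow_eq_one h0
        rw [ha8] at h1
        have h2 := Nat.le_of_dvd (by norm_num) h1
        omega
      have ha4sq : a ^ 4 * a ^ 4 = 1 := by
        rw [← pow_add]
        have h1 : 4 + 4 = orderOf a := by rw [ha8]
        rw [h1, pow_orderOf_eq_one]
      rcases hcases with ⟨h1, h2 | h2⟩ | ⟨h2n, h1, h2⟩
      · -- dihedral: impossible
        exfalso
        have hinv : ∀ b ∈ zpowers a, x * b * x⁻¹ = b⁻¹ := by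
          intro b hb
          obtain ⟨k, rfl⟩ := mem_zpowers_iff.1 hb
          rw [← conj_zpow, h1, inv_zpow]
        have ha4c : ∀ g : G, g * a ^ 4 = a ^ 4 * g := by
          intro g
          by_cases hgA : g ∈ zpowers a
          · exact (commute_of_mem_zpowers hgA (pow_mem (mem_zpowers a) 4)).eq
          · have hb := hcoset g hgA
            set b := x⁻¹ * g with hbdef
            have hg : g = x * b := by rw [hbdef]; group
            have h5 : x * a ^ 4 * x⁻¹ = a ^ 4 := by
              rw [hinv _ (pow_mem (mem_zpowers a) 4), inv_eq_iff_mul_eq_one]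
              exact ha4sq
            have h6 := (commute_of_mem_zpowers hb (pow_mem (mem_zpowers a) 4)).eq
            rw [hg]
            calc x * b * a ^ 4 = x * (b * a ^ 4) := by group
              _ = x * (a ^ 4 * b) := by rw [h6]
              _ = (x * a ^ 4 * x⁻¹) * x * b := by group
              _ = a ^ 4 * (x * b) := by rw [h5]; group
        have ha4fpf : ∀ v : V, v ≠ 0 → ρ (a ^ 4) v ≠ v := by
          intro v hv hfix
          exact not_central_of_fix ρ hρ htrans ha4 hv hfix ha4c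
        have ht₃ : v₀ + w ≠ 0 := by
          intro h0
          apply hw 2
          have h3 : w = -v₀ := (neg_eq_of_add_eq_zero_right h0).symm
          rw [h3, show (2 : ZMod 3) = -1 by decide, neg_one_smul]
        have ht₄ : v₀ + (2 : ZMod 3) • w ≠ 0 := by
          intro h0
          apply hw 1
          have h3 : (2 : ZMod 3) • w = -v₀ := (neg_eq_of_add_eq_zero_right h0).symm
          rw [show (2 : ZMod 3) = -1 by decide, neg_one_smul, neg_inj] at h3
          rw [h3, one_smul]
        obtain ⟨r₃, hr₃1, hr₃⟩ := hrefl _ ht₃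
        obtain ⟨r₄, hr₄1, hr₄⟩ := hrefl _ ht₄
        have hfour : ∀ g : G, g ≠ 1 → (∃ u : V, u ≠ 0 ∧ ρ g u = u) →
            g ∈ ({r₀, r₁, r₃, r₄} : Finset G) := by
          rintro g hg1 ⟨u, hu, hgu⟩
          obtain ⟨α, β, rfl⟩ := coord hV hv₀ hw u
          have hfixt : ∀ (γ : ZMod 3) (t : V), γ ≠ 0 → α • v₀ + β • w = γ • t → ρ g t = t := by
            intro γ t hγ ht
            rw [ht, map_smul] at hgu
            have h3 : γ⁻¹ • (γ • ρ g t) = γ⁻¹ • (γ • t) := by rw [hgu]
            rwa [smul_smul, smul_smul, inv_mul_cancel₀ hγ, one_smul, one_smul] at h3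
          rcases lines v₀ w α β with h0 | ⟨γ, hγ, h3 | h3 | h3 | h3⟩
          · exact absurd h0 hu
          · have := eq_of_fix ρ hG hρ hV hv₀ hg1 hr₀1 (hfixt γ _ hγ h3) hr₀'
            rw [this]; simp
          · have := eq_of_fix ρ hG hρ hV hw0 hg1 hr₁1 (hfixt γ _ hγ h3) hr₁
            rw [this]; simp
          · have := eq_of_fix ρ hG hρ hV ht₃ hg1 hr₃1 (hfixt γ _ hγ h3) hr₃
            rw [this]; simp
          · have := eq_of_fix ρ hG hρ hV ht₄ hg1 hr₄1 (hfixt γ _ hγ h3) hr₄
            rw [this]; simp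
        let f : Fin 8 → G := fun i => x * a ^ (i : ℕ)
        have hfinj : Function.Injective f := by
          intro i j hij
          have h3 : a ^ (i : ℕ) = a ^ (j : ℕ) := mul_left_cancel hij
          have h4 := pow_inj_mod.1 h3
          rw [ha8] at h4
          have hi := i.2
          have hj := j.2
          ext; omega
        have hfmem : ∀ i : Fin 8, f i ∈ ({r₀, r₁, r₃, r₄} : Finset G) := by
          intro i
          have hfi1 : f i ≠ 1 := by
            intro h0
            apply hx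
            have h3 : x = (a ^ (i : ℕ))⁻¹ := eq_inv_of_mul_eq_one_left h0
            rw [h3]; exact inv_mem (pow_mem (mem_zpowers a) _)
          have hfisq : f i * f i = 1 := by
            have h3 := hinv _ (pow_mem (mem_zpowers a) (i : ℕ))
            calc f i * f i = (x * a ^ (i : ℕ) * x⁻¹) * (x * x) * a ^ (i : ℕ) := by
                  simp only [f]; group
              _ = 1 := by rw [h3, h2]; group
          apply hfour _ hfi1
          by_contra hno
          push Not at hno
          have h3 : f i = a ^ 4 := by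
            apply hρ
            ext u
            rw [neg_of_invol_fpf ρ hfisq hno, neg_of_invol_fpf ρ ha4sq ha4fpf]
          apply hx
          have h4 : x = a ^ 4 * (a ^ (i : ℕ))⁻¹ := by rw [← h3]; simp only [f]; group
          rw [h4]
          exact mul_mem (pow_mem (mem_zpowers a) _) (inv_mem (pow_mem (mem_zpowers a) _))
        have h8 : (Finset.univ : Finset (Fin 8)).card ≤ ({r₀, r₁, r₃, r₄} : Finset G).card :=
          Finset.card_le_card_of_injOn f (fun i _ => hfmem i) hfinj.injOn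
        have h4 : ({r₀, r₁, r₃, r₄} : Finset G).card ≤ 4 := Finset.card_le_four
        rw [Finset.card_univ, Fintype.card_fin] at h8
        omega
      · -- quaternion: impossible
        exfalso
        have hinv : ∀ b ∈ zpowers a, x * b * x⁻¹ = b⁻¹ := by
          intro b hb
          obtain ⟨k, rfl⟩ := mem_zpowers_iff.1 hb
          rw [← conj_zpow, h1, inv_zpow]
        have h2' : x * x = a ^ 4 := by rw [h2]; norm_num
        have hinvol : ∀ g : G, g ≠ 1 → g * g = 1 → g = a ^ 4 := by
          intro g hg1 hgg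
          by_cases hgA : g ∈ zpowers a
          · have h3 := mem_zpowers_pow_of_pow_eq_one (p := 2) (n := 2) ha hgA
              (by rw [pow_two]; exact hgg)
            have h4 : a ^ 2 ^ 2 = a ^ 4 := by norm_num
            rw [h4] at h3
            obtain ⟨k, hk⟩ := mem_zpowers_iff.1 h3
            rcases Int.emod_two_eq_zero_or_one k with h0 | h0
            · exfalso; apply hg1
              obtain ⟨m, rfl⟩ : ∃ m, k = 2 * m := ⟨k / 2, by omega⟩
              rw [← hk, zpow_mul, zpow_two, ha4sq, one_zpow]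
            · obtain ⟨m, rfl⟩ : ∃ m, k = 2 * m + 1 := ⟨k / 2, by omega⟩
              rw [← hk, zpow_add, zpow_mul, zpow_two, ha4sq, one_zpow, one_mul, zpow_one]
          · exfalso
            have hb := hcoset g hgA
            set b := x⁻¹ * g with hbdef
            have hg : g = x * b := by rw [hbdef]; group
            have h4 : g * g = (x * b * x⁻¹) * (x * x) * b := by rw [hg]; group
            rw [h4, hinv b hb, h2'] at hgg
            apply ha4
            have h5 : a ^ 4 = b * (b⁻¹ * a ^ 4 * b) * b⁻¹ := by group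
            rw [h5, hgg]; group
        exact hr01 ((hinvol r₀ hr₀1 hr0sq).trans (hinvol r₁ hr₁1 hr1sq).symm)
      · right; right
        refine ⟨⟨3, le_refl 3, hcard, a, x, ha8, ?_, ?_⟩, hcard⟩
        · exact orderOf_eq_prime (by rw [pow_two]; exact h2) (fun h => hx (h ▸ one_mem _))
        · rw [h1]
          have h3 : 2 ^ (3 - 1) - 1 = 3 := by norm_num
          have h4 : a ^ 2 ^ 2 = a ^ 4 := by norm_num
          rw [h3, h4]; group

/-- Let q be a prime, V a non-trivial finite vector space over the field with q elements, and G a non-trivial finite p-group (p prime) acting faithfully and linearly on V and transitively on the non-zero vectors. Then either q = 2 and G has prime order p = |V| − 1; or p = 2, V has q elements with q = 2^m + 1 and G is cyclic of order 2^m; or p = 2, q = 3, V has 9 elements and G is cyclic of order 8, quaternion of order 8, or semidihedral of order 16. -/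
theorem result (q : ℕ) [Fact q.Prime] {V : Type*} [AddCommGroup V] [Module (ZMod q) V] [Finite V] [Nontrivial V]
    {G : Type*} [Group G] [Finite G] [Nontrivial G] (p : ℕ) [Fact p.Prime] (hG : IsPGroup p G)
    (ρ : G →* (V ≃ₗ[ZMod q] V)) (hρ : Function.Injective ρ)
    (htrans : ∀ v w : V, v ≠ 0 → w ≠ 0 → ∃ g : G, ρ g v = w) :
    (q = 2 ∧ p = Nat.card V - 1 ∧ Nat.card G = p) ∨
    (p = 2 ∧ Nat.card V = q ∧ (∃ m : ℕ, q = 2 ^ m + 1 ∧ Nat.card G = 2 ^ m) ∧ IsCyclic G) ∨
    (p = 2 ∧ q = 3 ∧ Nat.card V = 9 ∧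
      ((IsCyclic G ∧ Nat.card G = 8) ∨ Nonempty (G ≃* QuaternionGroup 2) ∨ (Cfsg.IsQuasiDihedral G ∧ Nat.card G = 16))) := by
  classical
  obtain ⟨n, hn, hV⟩ := card_V (q := q) (V := V)
  obtain ⟨v₀, hv₀⟩ := exists_ne (0 : V)
  have hidx := index_stab ρ htrans hv₀
  obtain ⟨b, hb⟩ := (IsPGroup.iff_card).1 hG
  have hdvd : Nat.card V - 1 ∣ p ^ b := by
    rw [← hidx, ← hb]; exact Subgroup.index_dvd_card _
  obtain ⟨c, hcb, hc⟩ := (Nat.dvd_prime_pow (Fact.out (p := p.Prime))).1 hdvd
  have hVpos : 1 ≤ Nat.card V := Nat.card_pos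
  have hVc : q ^ n = p ^ c + 1 := by rw [← hV, ← hc, Nat.sub_add_cancel hVpos]
  have hc1 : 1 ≤ c := by
    by_contra h0
    have hc0 : c = 0 := by omega
    subst hc0
    rw [pow_zero] at hc
    have hV2 : Nat.card V = 2 := by omega
    obtain ⟨u, -, hu⟩ := (Nat.card_eq_two_iff' (0 : V)).1 hV2
    obtain ⟨g, hg⟩ := exists_ne (1 : G)
    apply hg
    apply eq_one_of_fix_all ρ hρ
    intro v hv
    rw [hu v hv]
    apply hu
    rw [← hu v hv]
    exact (ρ g).map_ne_zero_iff.2 hv
  rcases nt q p n c Fact.out Fact.out hn hc1 hVc with ⟨hq2, hc1'⟩ | ⟨hp2, hn1⟩ |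
    ⟨hp2, hq3, hn2, hc3⟩
  · -- `q = 2`
    left
    have hp : Nat.card V - 1 = p := by rw [hc, hc1', pow_one]
    refine ⟨hq2, hp.symm, ?_⟩
    have hS : stab ρ v₀ = ⊥ := by
      rw [eq_bot_iff]
      intro g hg
      rw [mem_bot]
      apply eq_one_of_fix_all ρ hρ
      let _ : MulAction (stab ρ v₀) V := MulAction.compHom V (ρ.comp (stab ρ v₀).subtype)
      have hSp : IsPGroup p (stab ρ v₀) := hG.to_subgroup _
      have hmod := hSp.card_modEq_card_fixedPoints V
      have h0 : (0 : V) ∈ MulAction.fixedPoints (stab ρ v₀) V := by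
        intro s
        show ρ (s : G) 0 = 0
        simp
      have h1 : v₀ ∈ MulAction.fixedPoints (stab ρ v₀) V := by
        intro s; exact s.2
      have h2 : 2 ≤ (MulAction.fixedPoints (stab ρ v₀) V).ncard := by
        rw [← Set.ncard_pair hv₀.symm]
        apply Set.ncard_le_ncard _ (Set.toFinite _)
        intro x hx
        rcases hx with rfl | rfl
        · exact h0
        · exact h1
      have h3 : (MulAction.fixedPoints (stab ρ v₀) V).ncard ≤ Nat.card V := Set.ncard_le_card _
      rw [Nat.card_coe_set_eq] at hmod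
      have h4 : (MulAction.fixedPoints (stab ρ v₀) V).ncard = Nat.card V := by
        have hp2 := (Fact.out (p := p.Prime)).two_le
        have hVp : Nat.card V = p + 1 := by omega
        rw [hVp] at hmod h3 ⊢
        unfold Nat.ModEq at hmod
        rw [Nat.add_mod_left, Nat.mod_eq_of_lt (by omega : 1 < p)] at hmod
        by_contra hne
        have hlt : (MulAction.fixedPoints (stab ρ v₀) V).ncard ≤ p := by omega
        rcases Nat.lt_or_eq_of_le hlt with h5 | h5
        · rw [Nat.mod_eq_of_lt h5] at hmod; omega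
        · rw [h5, Nat.mod_self] at hmod; omega
      have hall : MulAction.fixedPoints (stab ρ v₀) V = Set.univ := by
        apply Set.eq_of_subset_of_ncard_le (Set.subset_univ _)
        rw [Set.ncard_univ, h4]
      intro v _
      have hv : v ∈ MulAction.fixedPoints (stab ρ v₀) V := by rw [hall]; trivial
      exact hv ⟨g, hg⟩
    rw [← Subgroup.index_bot, ← hS, hidx, hp]
  · -- `n = 1`
    right; left
    subst hp2
    subst hn1
    rw [pow_one] at hV hVc
    have hinj : Function.Injective (fun a : ZMod q => a • v₀) := by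
      intro a a' h
      have h1 : (a - a') • v₀ = 0 := by rw [sub_smul]; exact sub_eq_zero.2 h
      rcases smul_eq_zero.1 h1 with h2 | h2
      · exact sub_eq_zero.1 h2
      · exact absurd h2 hv₀
    have hsurj : ∀ w : V, ∃ a : ZMod q, w = a • v₀ := by
      have hbij := hinj.bijective_of_nat_card_le (by rw [hV, Nat.card_zmod])
      intro w
      obtain ⟨a, ha⟩ := hbij.2 w
      exact ⟨a, ha.symm⟩
    have hS : stab ρ v₀ = ⊥ := by
      rw [eq_bot_iff]
      intro g hg
      rw [mem_bot]
      apply eq_one_of_fix_all ρ hρ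
      intro v _
      obtain ⟨a, rfl⟩ := hsurj v
      rw [map_smul, (mem_stab ρ).1 hg]
    have hcardG : Nat.card G = 2 ^ c := by
      rw [← Subgroup.index_bot, ← hS, hidx, hc]
    refine ⟨rfl, hV, ⟨c, hVc, hcardG⟩, ?_⟩
    choose f hf using fun g : G => hsurj (ρ g v₀)
    have hf1 : f 1 = 1 := by
      apply hinj
      show f 1 • v₀ = (1 : ZMod q) • v₀
      rw [← hf, one_smul, one_apply']
    have hfmul : ∀ g h : G, f (g * h) = f g * f h := by
      intro g h
      apply hinj
      show f (g * h) • v₀ = (f g * f h) • v₀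
      rw [← hf, mul_apply', hf h, map_smul, hf g, smul_smul, mul_comm]
    let F : G →* ZMod q := ⟨⟨f, hf1⟩, hfmul⟩
    have hFinj : Function.Injective F := by
      intro g h hgh
      have h1 : f g = f h := hgh
      have h2 : ρ g v₀ = ρ h v₀ := by rw [hf g, hf h, h1]
      have h3 : h⁻¹ * g ∈ stab ρ v₀ := by
        rw [mem_stab, mul_apply', h2]
        exact inv_apply_eq ρ rfl
      rw [hS, mem_bot] at h3
      exact (inv_mul_eq_one.1 h3).symm
    exact isCyclic_of_injective_ringHom F hFinj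
  · -- `q = 3`, `n = 2`
    right; right
    subst hp2
    subst hq3
    subst hn2
    have hV9 : Nat.card V = 9 := by rw [hV]; norm_num
    exact ⟨rfl, rfl, hV9, case_three hG ρ hρ htrans hV9⟩

end Cfsg.Agent.S3370
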