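import Cfsg.Statements.S3380
import Cfsg.Agent.Lib.Helper47.Imprim
import Cfsg.Agent.Lib.Helper54.CyclicNormal
import Cfsg.Agent.Lib.Helper54.UniqueSubgroup
import Cfsg.Agent.Lib.Helper24.PGroupBasic

set_option autoImplicit false
open Cfsg

namespace Cfsg.Agent.S3380

/-- Let a finite p-group G act faithfully and irreducibly on a non-trivial finite vector space V over the field with q elements (q prime), and suppose G is not cyclic, generalized quaternion, dihedral or semidihedral. Then G has a subgroup H of index p and V is the direct sum of p subspaces, each invariant under H, on none of which H acts faithfully, and which every element of G outside H permutes in a single p-cycle. -/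
theorem result
    (q : ℕ) [Fact q.Prime] {V : Type*} [AddCommGroup V] [Module (ZMod q) V] [Finite V] [Nontrivial V]
    {G : Type*} [Group G] [Finite G] (p : ℕ) [Fact p.Prime] (hG : IsPGroup p G)
    (ρ : G →* (V ≃ₗ[ZMod q] V)) (hρ : Function.Injective ρ)
    (hirr : ∀ W : Submodule (ZMod q) V, (∀ g : G, ∀ w ∈ W, ρ g w ∈ W) → W = ⊥ ∨ W = ⊤)
    (hnc : ¬ IsCyclic G) (hnq : ∀ n : ℕ, ¬ Nonempty (G ≃* QuaternionGroup n))
    (hnd : ∀ n : ℕ, ¬ Nonempty (G ≃* DihedralGroup n)) (hnsd : ¬ Cfsg.IsQuasiDihedral G) :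
    ∃ (H : Subgroup G) (W : Fin p → Submodule (ZMod q) V), H.index = p ∧
      iSup W = ⊤ ∧ iSupIndep W ∧
      (∀ h ∈ H, ∀ i, ∀ w ∈ W i, ρ h w ∈ W i) ∧
      (∀ i, ∃ h ∈ H, h ≠ 1 ∧ ∀ w ∈ W i, ρ h w = w) ∧
      ∀ g : G, g ∉ H → ∃ σ : Equiv.Perm (Fin p), orderOf σ = p ∧ ∀ i, (W i).map (ρ g : V →ₗ[ZMod q] V) = W (σ i) := by
  have hpr : p.Prime := Fact.out
  have hqr : q.Prime := Fact.out
  -- multiplication by `p` is injective on `V`
  have hp : ∀ v : V, p • v = 0 → v = 0 := by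
    intro v hv
    by_contra hv0
    have hqp : q = p := by
      have h1 : (p : ZMod q) • v = 0 := by rw [Nat.cast_smul_eq_nsmul]; exact hv
      rcases smul_eq_zero.1 h1 with h | h
      · rw [ZMod.natCast_eq_zero_iff] at h
        exact (Nat.prime_dvd_prime_iff_eq hqr hpr).1 h
      · exact absurd h hv0
    subst hqp
    apply hnc
    let _ : MulAction G V := MulAction.compHom V ρ
    have hsm : ∀ (g : G) (w : V), g • w = ρ g w := fun _ _ => rfl
    have hdvd : q ∣ Nat.card V := by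
      have h1 : addOrderOf v = q := addOrderOf_eq_prime hv hv0
      rw [← h1]; exact addOrderOf_dvd_natCard v
    have h0 : (0 : V) ∈ MulAction.fixedPoints G V := by
      intro g; rw [hsm, map_zero]
    obtain ⟨b, hb, hb0⟩ := hG.exists_fixed_point_of_prime_dvd_card_of_fixed_point V hdvd h0
    have hinv : ∀ g : G, ∀ w ∈ Cfsg.Agent.Lib.Helper47.Imprim.fix ρ (⊤ : Subgroup G),
        ρ g w ∈ Cfsg.Agent.Lib.Helper47.Imprim.fix ρ (⊤ : Subgroup G) := by
      intro g w hw c _
      rw [hw g (Subgroup.mem_top g)]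
      exact hw c (Subgroup.mem_top c)
    have htriv : ∀ g : G, g = 1 := by
      rcases hirr _ hinv with h | h
      · exfalso
        apply hb0
        have : b ∈ Cfsg.Agent.Lib.Helper47.Imprim.fix ρ (⊤ : Subgroup G) := fun c _ => hb c
        rw [h, Submodule.mem_bot] at this
        exact this.symm
      · intro g
        apply hρ
        rw [map_one]
        ext w
        have : w ∈ Cfsg.Agent.Lib.Helper47.Imprim.fix ρ (⊤ : Subgroup G) := h ▸ Submodule.mem_top
        exact this g (Subgroup.mem_top g)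
    have : Subsingleton G := ⟨fun a b => by rw [htriv a, htriv b]⟩
    exact isCyclic_of_subsingleton
  -- a normal abelian noncyclic subgroup
  obtain ⟨A, hAn, hAc, hAnc⟩ : ∃ A : Subgroup G, A.Normal ∧ IsMulCommutative A ∧ ¬ IsCyclic A := by
    by_contra hcon
    push Not at hcon
    rcases Cfsg.Agent.Lib.Helper54.CyclicNormal.cyclic_or_two hG hcon with
      h | ⟨rfl, a, x, n, hn1, ha, hN, hC, hcard, hx, hcases⟩
    · exact hnc h
    · rcases Cfsg.Agent.Lib.Helper54.CyclicNormal.iso_of_nonmodular ha hcard hx hcases with h | h | h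
      · exact hnd _ h
      · exact hnq _ h
      · exact hnsd h
  have hAcomm : ∀ a ∈ A, ∀ b ∈ A, a * b = b * a := by
    intro a ha b hb
    have := mul_comm' (⟨a, ha⟩ : A) ⟨b, hb⟩
    exact congrArg Subtype.val this
  let Ω : Subgroup G :=
    { carrier := {a | a ∈ A ∧ a ^ p = 1}
      mul_mem' := by
        rintro a b ⟨ha, ha'⟩ ⟨hb, hb'⟩
        refine ⟨A.mul_mem ha hb, ?_⟩
        rw [(show Commute a b from hAcomm a ha b hb).mul_pow, ha', hb', mul_one]
      one_mem' := ⟨A.one_mem, one_pow _⟩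
      inv_mem' := by
        rintro a ⟨ha, ha'⟩
        exact ⟨A.inv_mem ha, by rw [inv_pow, ha', inv_one]⟩ }
  have hΩmem : ∀ a : G, a ∈ Ω ↔ a ∈ A ∧ a ^ p = 1 := fun _ => Iff.rfl
  have hΩn : Ω.Normal := ⟨fun a ha g => ⟨hAn.conj_mem a ha.1 g, by rw [conj_pow, ha.2]; simp⟩⟩
  have hUI : ¬ Cfsg.Agent.Lib.Helper54.UniqueSubgroup.UI p A := fun h =>
    hAnc (Cfsg.Agent.Lib.Helper54.UniqueSubgroup.isCyclic_of_comm (hG.to_subgroup A) h
      (fun x y => mul_comm' x y))
  unfold Cfsg.Agent.Lib.Helper54.UniqueSubgroup.UI at hUI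
  push Not at hUI
  obtain ⟨g, h, hg, hh, hg1, hhg⟩ := hUI
  have hgΩ : (g : G) ∈ Ω := ⟨g.2, by exact_mod_cast congrArg Subtype.val hg⟩
  have hhΩ : (h : G) ∈ Ω := ⟨h.2, by exact_mod_cast congrArg Subtype.val hh⟩
  have hg1' : (g : G) ≠ 1 := fun h0 => hg1 (Subtype.ext h0)
  have hΩcard : p ^ 2 ≤ Nat.card Ω := by
    obtain ⟨n, hn⟩ := IsPGroup.iff_card.1 (hG.to_subgroup Ω)
    have hcz : Nat.card (Subgroup.zpowers (g : G)) = p := by
      rw [Nat.card_zpowers]; exact orderOf_eq_prime hgΩ.2 hg1'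
    have hzle : Subgroup.zpowers (g : G) ≤ Ω := (Subgroup.zpowers_le).2 hgΩ
    have hn2 : 2 ≤ n := by
      by_contra hcon
      have hn1 : n ≤ 1 := by omega
      have hle' : Nat.card Ω ≤ p := by
        rw [hn]; calc p ^ n ≤ p ^ 1 := Nat.pow_le_pow_right hpr.pos hn1
          _ = p := pow_one p
      have h1 : Subgroup.zpowers (g : G) = Ω := Subgroup.eq_of_le_of_card_ge hzle (by rw [hcz]; exact hle')
      have h2 : (h : G) ∈ Subgroup.zpowers (g : G) := h1 ▸ hhΩ
      obtain ⟨i, hi⟩ := Subgroup.mem_zpowers_iff.1 h2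
      exact hhg (Subgroup.mem_zpowers_iff.2 ⟨i, Subtype.ext (by simpa using hi)⟩)
    rw [hn]; exact Nat.pow_le_pow_right hpr.pos hn2
  obtain ⟨E, hEn, hEΩ, hE2⟩ := Cfsg.Agent.Lib.Helper24.PGroupBasic.exists_normal_le_card hG Ω
    (fun a ha => ha.2) 2 hΩcard
  exact Cfsg.Agent.Lib.Helper47.Imprim.main ρ hG hρ hirr hp E hE2 (fun e he => (hEΩ he).2)

end Cfsg.Agent.S3380
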