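import Cfsg.Statements.S3389

set_option autoImplicit false
open Cfsg

namespace Cfsg.Agent.S3389

open scoped Pointwise
open MulAction

/-- A `p`-subgroup fixes pointwise every invariant set with fewer than `p` points. -/
theorem fix_of_small {G : Type*} [Group G] {Ω : Type*} [Fintype Ω] [MulAction G Ω]
    (p : ℕ) [Fact p.Prime] (P : Subgroup G) (hP : IsPGroup p P) (F : Set Ω)
    (hinv : ∀ g ∈ P, ∀ ω ∈ F, g • ω ∈ F) (hcard : Nat.card F < p) :
    ∀ g ∈ P, ∀ ω ∈ F, g • ω = ω := by
  intro g hg ω hω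
  have horb : orbit (↥P) ω ⊆ F := by
    rintro _ ⟨u, rfl⟩
    exact hinv u u.2 ω hω
  obtain ⟨n, hn⟩ := hP.card_orbit ω
  have hle : Nat.card (orbit (↥P) ω) ≤ Nat.card F := Nat.card_mono (Set.toFinite F) horb
  have hn0 : n = 0 := by
    by_contra h
    have hp : p.Prime := Fact.out
    have : p ≤ p ^ n := Nat.le_self_pow h p
    omega
  rw [hn0, pow_zero] at hn
  have hsub := (Nat.card_eq_one_iff_unique.mp hn).1
  have h1 : (⟨(⟨g, hg⟩ : P) • ω, mem_orbit ω _⟩ : orbit (↥P) ω) = ⟨ω, mem_orbit_self ω⟩ :=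
    Subsingleton.elim _ _
  exact congrArg Subtype.val h1

/-- A Sylow `p`-subgroup containing a nonidentity element `u` fixes every fixed point of `u`,
when nonidentity elements have fewer than `p` fixed points. -/
theorem sylow_fix {G : Type*} [Group G] [Finite G] {Ω : Type*} [Fintype Ω] [MulAction G Ω]
    (p : ℕ) [Fact p.Prime] (hfix : ∀ g : G, g ≠ 1 → Nat.card (fixedBy Ω g) < p)
    (P : Sylow p G) (u : G) (hu : u ∈ P) (hu1 : u ≠ 1) :
    ∀ g ∈ P, ∀ ω ∈ fixedBy Ω u, g • ω = ω := by
  have hnt : Nontrivial (↥(P : Subgroup G)) :=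
    ⟨⟨⟨u, hu⟩, 1, fun h => hu1 (congrArg Subtype.val h)⟩⟩
  have hcn := IsPGroup.center_nontrivial P.2
  obtain ⟨z, hz⟩ := exists_ne (1 : Subgroup.center (↥(P : Subgroup G)))
  have hzP : (z : (↥(P : Subgroup G)) ) ∈ Subgroup.center (↥(P : Subgroup G)) := z.2
  set z' : G := ((z : ↥(P : Subgroup G)) : G) with hz'
  have hz'P : z' ∈ (P : Subgroup G) := (z : ↥(P : Subgroup G)).2
  have hz'1 : z' ≠ 1 := by
    intro h
    apply hz
    apply Subtype.ext
    apply Subtype.ext
    exact h
  have hzc : ∀ v ∈ (P : Subgroup G), v * z' = z' * v := by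
    intro v hv
    have := Subgroup.mem_center_iff.mp hzP ⟨v, hv⟩
    exact congrArg Subtype.val this
  -- step 1: z' fixes the fixed points of u
  have h1 : ∀ ω ∈ fixedBy Ω u, z' • ω = ω := by
    have hP' : IsPGroup p (↥(Subgroup.zpowers z')) := P.2.to_le (by
      rw [Subgroup.zpowers_le]; exact hz'P)
    refine fix_of_small p (Subgroup.zpowers z') hP' (fixedBy Ω u) ?_ (hfix u hu1) z'
      (Subgroup.mem_zpowers z')
    intro g hg ω hω
    obtain ⟨i, rfl⟩ := Subgroup.mem_zpowers_iff.mp hg
    rw [mem_fixedBy] at hω ⊢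
    have hc0 : Commute u z' := hzc u hu
    have hc : Commute u (z' ^ i) := hc0.zpow_right i
    rw [← mul_smul, hc.eq, mul_smul, hω]
  -- step 2: P fixes the fixed points of z'
  have h2 : ∀ g ∈ (P : Subgroup G), ∀ ω ∈ fixedBy Ω z', g • ω = ω := by
    refine fix_of_small p (P : Subgroup G) P.2 (fixedBy Ω z') ?_ (hfix z' hz'1)
    intro g hg ω hω
    rw [mem_fixedBy] at hω ⊢
    rw [← mul_smul, ← hzc g hg, mul_smul, hω]
  intro g hg ω hω
  exact h2 g hg ω (by rw [mem_fixedBy]; exact h1 ω hω)

theorem mem_conj_smul {L : Type*} [Group L] (H : Subgroup L) (g x : L) :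
    x ∈ MulAut.conj g • H ↔ g⁻¹ * x * g ∈ H := by
  rw [Subgroup.mem_pointwise_smul_iff_inv_smul_mem, MulAut.smul_def, MulAut.conj_inv_apply]

/-- Fixity two forces even order. -/
theorem even_card {G : Type*} [Group G] [Finite G] {Ω : Type*} [Fintype Ω] [MulAction G Ω]
    (htr : MulAction.IsPretransitive G Ω)
    (hfix : ∀ g : G, g ≠ 1 → Nat.card (MulAction.fixedBy Ω g) ≤ 2)
    (hex : ∃ g : G, g ≠ 1 ∧ Nat.card (MulAction.fixedBy Ω g) = 2) : 2 ∣ Nat.card G := by
  classical
  by_contra h2
  obtain ⟨g₀, hg₀, hg₀c⟩ := hex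
  have hord : orderOf g₀ ≠ 1 := by rwa [Ne, orderOf_eq_one_iff]
  set p := (orderOf g₀).minFac with hp_def
  have hp : p.Prime := Nat.minFac_prime hord
  have : Fact p.Prime := ⟨hp⟩
  have hpd : p ∣ orderOf g₀ := Nat.minFac_dvd _
  have hpG : p ∣ Nat.card G := hpd.trans (orderOf_dvd_natCard g₀)
  have hp2 : 2 < p := by
    have : p ≠ 2 := fun h => h2 (h ▸ hpG)
    have := hp.two_le
    omega
  set u := g₀ ^ (orderOf g₀ / p) with hu_def
  have hou : orderOf u = p := orderOf_pow_orderOf_div (orderOf_pos g₀).ne' hpd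
  have hu1 : u ≠ 1 := by
    intro h
    rw [h, orderOf_one] at hou
    exact hp.one_lt.ne hou
  have hsub : fixedBy Ω g₀ ⊆ fixedBy Ω u := by
    intro ω hω
    have := fixedBy_subset_fixedBy_zpow Ω g₀ ((orderOf g₀ / p : ℕ) : ℤ) hω
    rw [zpow_natCast] at this
    exact this
  -- two distinct fixed points
  obtain ⟨a, b, hab, hF⟩ := Nat.card_eq_two_iff.mp hg₀c
  have haF : (a : Ω) ∈ fixedBy Ω u := hsub a.2
  have hbF : (b : Ω) ∈ fixedBy Ω u := hsub b.2
  have hab' : (a : Ω) ≠ (b : Ω) := fun h => hab (Subtype.ext h)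
  -- any fixed point of u is a or b
  have hFu : ∀ ω ∈ fixedBy Ω u, ω = (a : Ω) ∨ ω = (b : Ω) := by
    intro ω hω
    by_contra hcon
    push Not at hcon
    have h3 : ({(a : Ω), (b : Ω), ω} : Finset Ω).card = 3 := by
      rw [Finset.card_insert_of_notMem, Finset.card_insert_of_notMem, Finset.card_singleton]
      · simp [hcon.2.symm]
      · simp [hab', hcon.1.symm]
    have h4 : ((({(a : Ω), (b : Ω), ω} : Finset Ω) : Set Ω)) ⊆ fixedBy Ω u := by
      intro t ht
      simp only [Finset.coe_insert, Finset.coe_singleton, Set.mem_insert_iff,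
        Set.mem_singleton_iff] at ht
      rcases ht with rfl | rfl | rfl
      · exact haF
      · exact hbF
      · exact hω
    have h5 := Nat.card_mono (Set.toFinite (fixedBy Ω u)) h4
    rw [Nat.card_coe_set_eq, Set.ncard_coe_finset, h3] at h5
    have := hfix u hu1
    omega
  have hfix' : ∀ g : G, g ≠ 1 → Nat.card (fixedBy Ω g) < p := fun g hg =>
    lt_of_le_of_lt (hfix g hg) hp2
  -- Sylow subgroup containing u
  have hPu : IsPGroup p (↥(Subgroup.zpowers u)) := by
    apply IsPGroup.of_card (n := 1)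
    rw [Nat.card_zpowers, hou, pow_one]
  obtain ⟨P, hP⟩ := hPu.exists_le_sylow
  have huP : u ∈ (P : Subgroup G) := hP (Subgroup.mem_zpowers u)
  have hPfix := sylow_fix p hfix' P u huP hu1
  obtain ⟨x, hx⟩ := MulAction.exists_smul_eq G (a : Ω) (b : Ω)
  -- P and x • P lie in the stabilizer of b
  have hPle : (P : Subgroup G) ≤ stabilizer G (b : Ω) := fun g hg => hPfix g hg _ hbF
  have hQle : ((x • P : Sylow p G) : Subgroup G) ≤ stabilizer G (b : Ω) := by
    intro g hg
    rw [Sylow.coe_subgroup_smul, mem_conj_smul] at hg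
    have := hPfix _ hg _ haF
    rw [mem_stabilizer_iff, ← hx]
    rw [mul_smul, mul_smul] at this
    have h6 : x • (x⁻¹ • g • x • (a : Ω)) = x • (a : Ω) := by rw [this]
    rwa [smul_inv_smul] at h6
  obtain ⟨y, hy⟩ := MulAction.exists_smul_eq (↥(stabilizer G (b : Ω)))
    ((x • P : Sylow p G).subtype hQle) (P.subtype hPle)
  rw [Sylow.smul_subtype] at hy
  have hy' : y • (x • P : Sylow p G) = P := Sylow.subtype_injective hy
  have hn : ((y : G) * x) • P = P := by
    rw [mul_smul]; exact hy'
  rw [Sylow.smul_eq_iff_mem_normalizer] at hn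
  set n : G := (y : G) * x with hn_def
  have hna : n • (a : Ω) = (b : Ω) := by
    rw [hn_def, mul_smul, hx]
    exact y.2
  have hnb : n • (b : Ω) = (a : Ω) := by
    have h7 : n • (b : Ω) ∈ fixedBy Ω u := by
      rw [mem_fixedBy]
      have h8 : n⁻¹ * u * n ∈ (P : Subgroup G) := by
        have := (Subgroup.mem_normalizer_iff.mp hn (n⁻¹ * u * n))
        rw [this]
        have : n * (n⁻¹ * u * n) * n⁻¹ = u := by group
        rw [this]; exact huP
      have h9 := hPfix _ h8 _ hbF
      rw [mul_smul, mul_smul] at h9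
      have h10 : n • (n⁻¹ • u • n • (b : Ω)) = n • (b : Ω) := by rw [h9]
      rwa [smul_inv_smul] at h10
    rcases hFu _ h7 with h | h
    · exact h
    · exfalso
      have : n • (b : Ω) = n • (a : Ω) := by rw [h, hna]
      exact hab' (MulAction.injective n this).symm
  -- parity
  have hpar : ∀ i : ℕ, n ^ (2 * i) • (a : Ω) = (a : Ω) ∧ n ^ (2 * i + 1) • (a : Ω) = (b : Ω) := by
    intro i
    induction i with
    | zero => simp [hna]
    | succ i ih =>
      have e1 : n ^ (2 * (i + 1)) • (a : Ω) = (a : Ω) := by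
        have : 2 * (i + 1) = (2 * i + 1) + 1 := by ring
        rw [this, pow_succ', mul_smul, ih.2, hnb]
      refine ⟨e1, ?_⟩
      rw [pow_succ', mul_smul, e1, hna]
  have hodd : Odd (orderOf n) := by
    rw [← Nat.not_even_iff_odd, even_iff_two_dvd]
    exact fun h => h2 (h.trans (orderOf_dvd_natCard n))
  obtain ⟨j, hj⟩ := hodd
  have := (hpar j).2
  rw [← hj, pow_orderOf_eq_one, one_smul] at this
  exact hab' this

/-- Let G be a finite group acting faithfully and transitively on a finite set Ω with fixity k ≥ 1: every non-identity element fixes at most k points and some non-identity element fixes exactly k points. Then |Z(G)| divides k; if k = 2 then |G| is even; and for every prime p > k dividing |G| and every point α, either p does not divide |G_α| or G_α contains a Sylow p-subgroup of G. -/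
theorem result {G : Type*} [Group G] [Finite G] {Ω : Type*} [Fintype Ω] [MulAction G Ω] [FaithfulSMul G Ω]
    (htr : MulAction.IsPretransitive G Ω) (k : ℕ) (hk : 1 ≤ k)
    (hfix : ∀ g : G, g ≠ 1 → Nat.card (MulAction.fixedBy Ω g) ≤ k) (hex : ∃ g : G, g ≠ 1 ∧ Nat.card (MulAction.fixedBy Ω g) = k) :
    Nat.card (Subgroup.center G) ∣ k ∧ (k = 2 → 2 ∣ Nat.card G) ∧
      ∀ (p : ℕ), p.Prime → k < p → p ∣ Nat.card G → ∀ α : Ω,
        ¬ p ∣ Nat.card (MulAction.stabilizer G α) ∨ ¬ p ∣ (MulAction.stabilizer G α).index := by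
  classical
  refine ⟨?_, ?_, ?_⟩
  · -- the centre acts freely on the fixed points of g₀
    obtain ⟨g₀, hg₀, hg₀c⟩ := hex
    let S : SubMulAction (Subgroup.center G) Ω :=
      { carrier := fixedBy Ω g₀
        smul_mem' := by
          intro z ω hω
          rw [mem_fixedBy] at hω ⊢
          have hz : g₀ * (z : G) = (z : G) * g₀ := (Subgroup.mem_center_iff.mp z.2 g₀)
          show g₀ • ((z : G) • ω) = (z : G) • ω
          rw [← mul_smul, hz, mul_smul, hω] }
    have hfree : ∀ s : S, stabilizer (Subgroup.center G) s = ⊥ := by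
      intro s
      rw [Subgroup.eq_bot_iff_forall]
      intro z hz
      rw [mem_stabilizer_iff] at hz
      have hz' : (z : G) • (s : Ω) = (s : Ω) := congrArg Subtype.val hz
      apply Subtype.ext
      show (z : G) = 1
      apply FaithfulSMul.eq_of_smul_eq_smul (α := Ω)
      intro ω
      obtain ⟨h, rfl⟩ := MulAction.exists_smul_eq G (s : Ω) ω
      have hc : (z : G) * h = h * (z : G) := (Subgroup.mem_center_iff.mp z.2 h).symm
      rw [one_smul, ← mul_smul, hc, mul_smul, hz']
    have e := selfEquivOrbitsQuotientProd hfree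
    have hcard : Nat.card S = Nat.card (fixedBy Ω g₀) := rfl
    rw [← hg₀c, ← hcard, Nat.card_congr e, Nat.card_prod]
    exact Dvd.intro_left _ rfl
  · intro hk2
    subst hk2
    exact even_card htr hfix hex
  · intro p hp hkp hpG α
    have : Fact p.Prime := ⟨hp⟩
    by_cases hpa : p ∣ Nat.card (MulAction.stabilizer G α)
    · right
      obtain ⟨u, hu⟩ := exists_prime_orderOf_dvd_card' (G := ↥(stabilizer G α)) p hpa
      have hou : orderOf (u : G) = p := by rw [Subgroup.orderOf_coe, hu]
      have hu1 : (u : G) ≠ 1 := by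
        intro h
        rw [h, orderOf_one] at hou
        exact hp.one_lt.ne hou
      have hfix' : ∀ g : G, g ≠ 1 → Nat.card (fixedBy Ω g) < p := fun g hg =>
        lt_of_le_of_lt (hfix g hg) hkp
      have hPu : IsPGroup p (↥(Subgroup.zpowers (u : G))) := by
        apply IsPGroup.of_card (n := 1)
        rw [Nat.card_zpowers, hou, pow_one]
      obtain ⟨P, hP⟩ := hPu.exists_le_sylow
      have huP : (u : G) ∈ (P : Subgroup G) := hP (Subgroup.mem_zpowers _)
      have hPfix := sylow_fix p hfix' P (u : G) huP hu1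
      have hPle : (P : Subgroup G) ≤ stabilizer G α := fun g hg =>
        hPfix g hg α (by rw [mem_fixedBy]; exact u.2)
      intro hdiv
      exact P.not_dvd_index (hdiv.trans (Subgroup.index_dvd_of_le hPle))
    · left; exact hpa

end Cfsg.Agent.S3389
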