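import Cfsg.Statements.S4423
-- import your own Cfsg.Agent.* helpers here
import Cfsg.Agent.S2904
import Mathlib

set_option autoImplicit false
set_option maxRecDepth 1000000 in
set_option maxRecDepth 1000000 in
set_option maxRecDepth 1000000 in
set_option maxRecDepth 1000000 in
set_option maxRecDepth 1000000 in
set_option maxRecDepth 1000000 in
set_option maxRecDepth 1000000 in
open Cfsg

namespace Cfsg.Agent.S4423
open Cfsg.Agent.S2904


/-- no prime divisor of e divides Phi e a twice -/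
lemma not_sq_dvd (a e s : ℕ) (ha : 1 < a) (he : 3 ≤ e) (hs : s.Prime) (hse : s ∣ e) :
    ¬ s ^ 2 ∣ Phi e a := by
  intro h2
  have hd : s ∣ Phi e a := (dvd_pow_self s (by norm_num)).trans h2
  obtain ⟨k, m, hm, hn⟩ := Nat.exists_eq_pow_mul_and_not_dvd (by omega : e ≠ 0) s hs.ne_one
  have hk : 0 < k := by
    rcases Nat.eq_zero_or_pos k with rfl | hk
    · rw [pow_zero, one_mul] at hn
      exact absurd (hn ▸ hse) hm
    · exact hk
  obtain ⟨hm1, hram⟩ := order_of_dvd e a s k m ha hs hd hn hm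
  rcases hs.eq_two_or_odd' with rfl | hodd
  · have hm' : m = 1 := by simpa using hm1
    subst hm'
    have hk2 : 2 ≤ k := by
      by_contra hlt
      have : k = 1 := by omega
      subst this
      omega
    have hodd : Odd a := by
      rw [pow_one] at hram
      rcases Nat.even_or_odd a with hev | ho
      · exfalso
        obtain ⟨t, ht⟩ := hev
        omega
      · exact ho
    exact val_two e a k ha hodd hk2 (by simpa using hn) h2
  · exact val_odd e a s k m ha hs hodd hk hn hm hram h2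

lemma prime_mod (a e s : ℕ) (ha : 1 < a) (he : 3 ≤ e) (hs : s.Prime) (hd : s ∣ a ^ e - 1)
    (hprim : ∀ k : ℕ, 0 < k → k < e → ¬ s ∣ a ^ k - 1) : s % e = 1 := by
  have hsa : ¬ s ∣ a := by
    intro h
    have h1 : s ∣ a ^ e := h.trans (dvd_pow_self a (by omega))
    have h2 : s ∣ a ^ e - (a ^ e - 1) := Nat.dvd_sub h1 hd
    have h3 : a ^ e - (a ^ e - 1) = 1 := by
      have := Nat.one_le_pow e a (by omega)
      omega
    rw [h3] at h2
    exact hs.one_lt.ne' (Nat.dvd_one.mp h2)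
  have hferm : s ∣ a ^ (s - 1) - 1 := by
    have hcop : Nat.Coprime a s := ((Nat.Prime.coprime_iff_not_dvd hs).mpr hsa).symm
    have h := Nat.ModEq.pow_totient hcop
    rw [Nat.totient_prime hs] at h
    exact (Nat.modEq_iff_dvd' (Nat.one_le_pow _ _ (by omega))).mp h.symm
  have hg : s ∣ a ^ (Nat.gcd e (s - 1)) - 1 := by
    rw [← Nat.pow_sub_one_gcd_pow_sub_one]
    exact Nat.dvd_gcd hd hferm
  have hgpos : 0 < Nat.gcd e (s - 1) := Nat.gcd_pos_of_pos_left _ (by omega)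
  have hge : Nat.gcd e (s - 1) = e := by
    by_contra hne
    have hlt : Nat.gcd e (s - 1) < e := lt_of_le_of_ne (Nat.gcd_le_left _ (by omega)) hne
    exact hprim _ hgpos hlt hg
  have hdvd : e ∣ s - 1 := by
    rw [← hge]
    exact Nat.gcd_dvd_right _ _
  obtain ⟨t, ht⟩ := hdvd
  have hs1 := hs.one_lt
  have hst : s = e * t + 1 := by omega
  rw [hst, Nat.mul_add_mod]
  exact Nat.mod_eq_of_lt (by omega)

lemma mod_one_of_primes (e : ℕ) (he : 3 ≤ e) :
    ∀ m : ℕ, 0 < m → (∀ s : ℕ, s.Prime → s ∣ m → s % e = 1) → m % e = 1 := by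
  intro m
  induction m using Nat.strong_induction_on with
  | _ m ih =>
    intro hm hp
    rcases Nat.lt_or_ge m 2 with h | h
    · have : m = 1 := by omega
      subst this
      exact Nat.mod_eq_of_lt (by omega)
    · have hmf := Nat.minFac_prime (by omega : m ≠ 1)
      obtain ⟨t, ht⟩ := Nat.minFac_dvd m
      have htpos : 0 < t := by
        rcases Nat.eq_zero_or_pos t with rfl | h'
        · rw [mul_zero] at ht
          omega
        · exact h'
      have htlt : t < m := by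
        have := hmf.two_le
        nlinarith
      have h1 := hp _ hmf (Nat.minFac_dvd m)
      have h2 := ih t htlt htpos (fun s hs hst => hp s hs (hst.trans ⟨m.minFac, by rw [mul_comm]; exact ht⟩))
      have h3 : m % e = (m.minFac * t) % e := by rw [← ht]
      rw [h3, Nat.mul_mod, h1, h2]
      exact Nat.mod_eq_of_lt (by omega)

lemma main_bound (a e : ℕ) (ha : 1 < a) (he : 3 ≤ e) (hb : (2 * e + 1) * e < Phi e a) :
    ∃ m : ℕ, m ∣ a ^ e - 1 ∧ (∀ i : ℕ, 1 ≤ i → i < e → Nat.Coprime m (a ^ i - 1)) ∧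
      3 * e + 1 ≤ m := by
  have hgdvd : Nat.gcd (Phi e a) e ∣ Phi e a := Nat.gcd_dvd_left _ _
  have hgpos : 0 < Nat.gcd (Phi e a) e := Nat.gcd_pos_of_pos_right _ (by omega)
  have hgle : Nat.gcd (Phi e a) e ≤ e := Nat.le_of_dvd (by omega) (Nat.gcd_dvd_right _ _)
  obtain ⟨m, hm⟩ := hgdvd
  have hmdvd : m ∣ Phi e a := ⟨Nat.gcd (Phi e a) e, by rw [mul_comm]; exact hm⟩
  have hprime : ∀ s : ℕ, s.Prime → s ∣ m → ¬ s ∣ e := by
    intro s hs hsm hse
    have hsg : s ∣ Nat.gcd (Phi e a) e := Nat.dvd_gcd (hsm.trans hmdvd) hse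
    have h2 : s ^ 2 ∣ Phi e a := by
      have := Nat.mul_dvd_mul hsg hsm
      rw [← hm] at this
      rwa [pow_two]
    exact not_sq_dvd a e s ha he hs hse h2
  have hprim : ∀ s : ℕ, s.Prime → s ∣ m → ∀ k : ℕ, 0 < k → k < e → ¬ s ∣ a ^ k - 1 := by
    intro s hs hsm
    exact primitive_of_not_dvd e a s (by omega) ha hs (hsm.trans hmdvd) (hprime s hs hsm)
  have hPd := Phi_dvd e a (by omega) ha
  have hmpos : 0 < m := by
    rcases Nat.eq_zero_or_pos m with rfl | h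
    · rw [mul_zero] at hm
      rw [hm] at hb
      omega
    · exact h
  have hmod : m % e = 1 := by
    apply mod_one_of_primes e he m hmpos
    intro s hs hsm
    exact prime_mod a e s ha he hs ((hsm.trans hmdvd).trans hPd) (hprim s hs hsm)
  refine ⟨m, hmdvd.trans hPd, ?_, ?_⟩
  · intro i hi hie
    apply Nat.coprime_of_dvd
    intro s hs hsm hsi
    exact hprim s hs hsm i (by omega) hie hsi
  · have h1 : (2 * e + 1) * e < Nat.gcd (Phi e a) e * m := by
      rw [← hm]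
      exact hb
    have h2 : Nat.gcd (Phi e a) e * m ≤ e * m := Nat.mul_le_mul_right m hgle
    have h3 : 2 * e + 1 < m := by
      by_contra hcon
      have hcon' : m ≤ 2 * e + 1 := Nat.le_of_not_lt hcon
      have : e * m ≤ e * (2 * e + 1) := Nat.mul_le_mul_left e hcon'
      nlinarith
    have h4 := Nat.div_add_mod m e
    rw [hmod] at h4
    have h5 : 3 ≤ m / e := by
      by_contra hcon
      have : e * (m / e) ≤ e * 2 := Nat.mul_le_mul_left e (by omega)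
      omega
    have : e * 3 ≤ e * (m / e) := Nat.mul_le_mul_left e h5
    omega

lemma two_pow_le_sq (r : ℕ) (hr : 2 ≤ r) : 2 ^ r ≤ (2 ^ r - 1) ^ 2 := by
  have h4 : 4 ≤ 2 ^ r := by
    calc 4 = 2 ^ 2 := by norm_num
      _ ≤ 2 ^ r := Nat.pow_le_pow_right (by norm_num) hr
  obtain ⟨x, hx⟩ : ∃ x, 2 ^ r = x + 1 := ⟨2 ^ r - 1, by omega⟩
  rw [hx, Nat.add_sub_cancel]
  nlinarith

lemma nine_mul_le_sq (r : ℕ) (hr : 3 ≤ r) : 9 * 2 ^ (r - 1) ≤ (2 ^ r - 1) ^ 2 := by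
  obtain ⟨j, rfl⟩ : ∃ j, r = j + 1 := ⟨r - 1, by omega⟩
  have h4 : 4 ≤ 2 ^ j := by
    calc 4 = 2 ^ 2 := by norm_num
      _ ≤ 2 ^ j := Nat.pow_le_pow_right (by norm_num) (by omega)
  rw [Nat.add_sub_cancel]
  have e2 : 2 ^ (j + 1) = 2 ^ j * 2 := pow_succ 2 j
  obtain ⟨x, hx⟩ : ∃ x, 2 ^ j * 2 = x + 1 := ⟨2 ^ j * 2 - 1, by omega⟩
  rw [e2, hx, Nat.add_sub_cancel]
  have hx7 : 7 ≤ x := by omega
  nlinarith [Nat.mul_le_mul_right x hx7]

lemma phi_two_case_dvd (n r : ℕ) (hr : r.Prime) (hd : r ∣ n) (hn : 0 < n) :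
    2 ^ (n * r).totient ≤ (Phi (n * r) 2) ^ 2 := by
  have hn1 : 1 < n := lt_of_lt_of_le hr.one_lt (Nat.le_of_dvd hn hd)
  have h1 := Phi_expand_dvd n 2 r (by norm_num) hr hd
  have h2 := Phi_gt n (2 ^ r) hn1 (Nat.one_lt_pow hr.ne_zero (by norm_num))
  have h3 : (n * r).totient = r * n.totient := by
    rw [mul_comm]
    exact Nat.totient_mul_of_prime_of_dvd hr hd
  rw [h1, h3, pow_mul]
  calc (2 ^ r) ^ n.totient ≤ ((2 ^ r - 1) ^ 2) ^ n.totient :=
        Nat.pow_le_pow_left (two_pow_le_sq r hr.two_le) _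
    _ = ((2 ^ r - 1) ^ n.totient) ^ 2 := by rw [← pow_mul, ← pow_mul, mul_comm]
    _ ≤ (Phi n (2 ^ r)) ^ 2 := Nat.pow_le_pow_left h2.le _

lemma phi_two_case_not_dvd (n r : ℕ) (hr : r.Prime) (hd : ¬ r ∣ n) (hn : 0 < n) (hr2 : r ≠ 2) :
    2 ^ (n * r).totient ≤ (Phi (n * r) 2) ^ 2 := by
  have hr3 : 3 ≤ r := by
    have := hr.two_le
    omega
  have h1 := Phi_expand_not_dvd n 2 r (by norm_num) hr hd
  have h3 : (n * r).totient = (r - 1) * n.totient := by
    rw [mul_comm]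
    exact Nat.totient_mul_of_prime_of_not_dvd hr hd
  rcases Nat.lt_or_ge n 2 with hlt | hge
  · have hn1 : n = 1 := by omega
    subst hn1
    rw [Phi_one _ (Nat.one_lt_pow hr.ne_zero (by norm_num)), Phi_one 2 (by norm_num)] at h1
    have h4 : Phi (1 * r) 2 = 2 ^ r - 1 := by simpa using h1.symm
    rw [h3, h4, Nat.totient_one, mul_one]
    calc 2 ^ (r - 1) ≤ 9 * 2 ^ (r - 1) := by omega
      _ ≤ _ := nine_mul_le_sq r hr3
  · have h2 := Phi_gt n (2 ^ r) (by omega) (Nat.one_lt_pow hr.ne_zero (by norm_num))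
    have h5 := Phi_le n 2 (by norm_num)
    rw [h1] at h2
    have h6 : (2 ^ r - 1) ^ n.totient < Phi (n * r) 2 * 3 ^ n.totient :=
      lt_of_lt_of_le h2 (Nat.mul_le_mul_left _ h5)
    have h7 : ((2 ^ r - 1) ^ n.totient) ^ 2 < (Phi (n * r) 2 * 3 ^ n.totient) ^ 2 :=
      Nat.pow_lt_pow_left h6 (by norm_num)
    have h8 : (9 * 2 ^ (r - 1)) ^ n.totient ≤ ((2 ^ r - 1) ^ 2) ^ n.totient :=
      Nat.pow_le_pow_left (nine_mul_le_sq r hr3) _
    have h9 : 9 ^ n.totient * 2 ^ ((r - 1) * n.totient) < 9 ^ n.totient * (Phi (n * r) 2) ^ 2 := by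
      calc 9 ^ n.totient * 2 ^ ((r - 1) * n.totient) = (9 * 2 ^ (r - 1)) ^ n.totient := by
            rw [mul_pow, ← pow_mul]
        _ ≤ ((2 ^ r - 1) ^ 2) ^ n.totient := h8
        _ = ((2 ^ r - 1) ^ n.totient) ^ 2 := by rw [← pow_mul, ← pow_mul, mul_comm]
        _ < (Phi (n * r) 2 * 3 ^ n.totient) ^ 2 := h7
        _ = 9 ^ n.totient * (Phi (n * r) 2) ^ 2 := by
            rw [mul_pow, ← pow_mul, mul_comm n.totient 2, pow_mul, mul_comm]
            norm_num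
    rw [h3]
    exact (Nat.lt_of_mul_lt_mul_left h9).le

lemma phi_bound_two (e : ℕ) (he : 3 ≤ e) : 2 ^ e.totient ≤ (Phi e 2) ^ 2 := by
  by_cases h : ∃ r : ℕ, r.Prime ∧ r ∣ e ∧ r ≠ 2
  · obtain ⟨r, hr, ⟨n, hn⟩, hr2⟩ := h
    have hnpos : 0 < n := by
      rcases Nat.eq_zero_or_pos n with rfl | h'
      · omega
      · exact h'
    have he' : e = n * r := by rw [hn, mul_comm]
    rw [he']
    by_cases hd : r ∣ n
    · exact phi_two_case_dvd n r hr hd hnpos
    · exact phi_two_case_not_dvd n r hr hd hnpos hr2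
  · have h2 : ∀ {d : ℕ}, d.Prime → d ∣ e → d = 2 := by
      intro d hd hde
      by_contra hne
      exact h ⟨d, hd, hde, hne⟩
    have hpow := Nat.eq_prime_pow_of_unique_prime_dvd (by omega : e ≠ 0) h2
    have hj2 : 2 ≤ e.primeFactorsList.length := by
      by_contra hlt
      have hc : e.primeFactorsList.length = 0 ∨ e.primeFactorsList.length = 1 := by omega
      rcases hc with h0 | h1
      · rw [h0] at hpow
        omega
      · rw [h1] at hpow
        omega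
    obtain ⟨i, hi⟩ : ∃ i, e.primeFactorsList.length = i + 2 := ⟨e.primeFactorsList.length - 2, by omega⟩
    have he' : e = 2 ^ (i + 1) * 2 := by
      rw [hi] at hpow
      rw [hpow]
      ring
    rw [he']
    exact phi_two_case_dvd (2 ^ (i + 1)) 2 Nat.prime_two (dvd_pow_self 2 (by omega)) (by positivity)

lemma phi_lower3 (q e : ℕ) (hq : 3 ≤ q) (he : 3 ≤ e) : 2 ^ e.totient < Phi e q := by
  have h := Phi_gt e q (by omega) (by omega)
  exact lt_of_le_of_lt (Nat.pow_le_pow_left (by omega) _) h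

lemma phi_lower (q e : ℕ) (hq : 2 ≤ q) (he : 3 ≤ e) : 2 ^ e.totient ≤ (Phi e q) ^ 2 := by
  rcases Nat.lt_or_ge q 3 with h | h
  · have : q = 2 := by omega
    subst this
    exact phi_bound_two e he
  · have h1 := phi_lower3 q e h he
    have h2 : Phi e q ≤ (Phi e q) ^ 2 := by
      have := Phi_pos e q (by omega)
      nlinarith
    omega

/-- Phi exceeds the bound as soon as `2 ^ φ(e)` exceeds its square -/
lemma phi_big_of_sq (q e X : ℕ) (hq : 2 ≤ q) (he : 3 ≤ e) (h : X ^ 2 < 2 ^ e.totient) :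
    X < Phi e q := by
  by_contra hcon
  have h1 : Phi e q ≤ X := Nat.le_of_not_lt hcon
  have h2 : (Phi e q) ^ 2 ≤ X ^ 2 := Nat.pow_le_pow_left h1 2
  have h3 := phi_lower q e hq he
  omega

lemma totient_cube_coprime6 : ∀ n : ℕ, Nat.Coprime n 6 → n ^ 2 ≤ n.totient ^ 3 := by
  intro n
  induction n using Nat.recOnPosPrimePosCoprime with
  | prime_pow p k hp hk =>
    intro hc
    have h2 : p ≠ 2 := by
      rintro rfl
      have h6 : (2 : ℕ) ∣ Nat.gcd (2 ^ k) 6 := Nat.dvd_gcd (dvd_pow_self 2 (by omega)) (by norm_num)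
      rw [Nat.Coprime] at hc
      rw [hc] at h6
      omega
    have h3 : p ≠ 3 := by
      rintro rfl
      have h6 : (3 : ℕ) ∣ Nat.gcd (3 ^ k) 6 := Nat.dvd_gcd (dvd_pow_self 3 (by omega)) (by norm_num)
      rw [Nat.Coprime] at hc
      rw [hc] at h6
      omega
    have h4 : p ≠ 4 := by
      rintro rfl
      exact absurd hp (by decide)
    have hp5 : 5 ≤ p := by
      have := hp.two_le
      omega
    rw [Nat.totient_prime_pow hp hk]
    obtain ⟨j, rfl⟩ : ∃ j, k = j + 1 := ⟨k - 1, by omega⟩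
    rw [Nat.add_sub_cancel]
    have h1 : p ^ 2 ≤ (p - 1) ^ 3 := by
      obtain ⟨x, rfl⟩ : ∃ x, p = x + 1 := ⟨p - 1, by omega⟩
      rw [Nat.add_sub_cancel]
      have hx : 4 ≤ x := by omega
      nlinarith [Nat.mul_le_mul_right x hx, Nat.mul_le_mul_right (x * x) hx]
    calc (p ^ (j + 1)) ^ 2 = p ^ (2 * j) * p ^ 2 := by ring
      _ ≤ p ^ (3 * j) * (p - 1) ^ 3 :=
          Nat.mul_le_mul (Nat.pow_le_pow_right hp.pos (by omega)) h1
      _ = (p ^ j * (p - 1)) ^ 3 := by ring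
  | zero =>
    intro hc
    simp at hc
  | one =>
    intro _
    simp
  | coprime a b ha hb hab iha ihb =>
    intro hc
    have hca : Nat.Coprime a 6 := Nat.Coprime.coprime_dvd_left (dvd_mul_right a b) hc
    have hcb : Nat.Coprime b 6 := Nat.Coprime.coprime_dvd_left (dvd_mul_left b a) hc
    rw [Nat.totient_mul hab, mul_pow, mul_pow]
    exact Nat.mul_le_mul (iha hca) (ihb hcb)

lemma totient_cube (n : ℕ) (hn : 0 < n) : 2 * n ^ 2 ≤ 9 * n.totient ^ 3 := by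
  obtain ⟨a, n1, h2n1, hn1⟩ := Nat.exists_eq_pow_mul_and_not_dvd hn.ne' 2 (by norm_num)
  have hn1pos : 0 < n1 := by
    rcases Nat.eq_zero_or_pos n1 with rfl | h
    · exact absurd (dvd_zero 2) h2n1
    · exact h
  obtain ⟨b, n2, h3n2, hn2⟩ := Nat.exists_eq_pow_mul_and_not_dvd hn1pos.ne' 3 (by norm_num)
  have h2n2 : ¬ 2 ∣ n2 := fun h => h2n1 (hn2 ▸ h.trans (dvd_mul_left _ _))
  have hc6 : Nat.Coprime n2 6 := by
    have c2 : Nat.Coprime n2 2 := ((Nat.Prime.coprime_iff_not_dvd Nat.prime_two).mpr h2n2).symm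
    have c3 : Nat.Coprime n2 3 := ((Nat.Prime.coprime_iff_not_dvd Nat.prime_three).mpr h3n2).symm
    exact Nat.Coprime.mul_right c2 c3
  have hmain := totient_cube_coprime6 n2 hc6
  have hcop1 : Nat.Coprime (2 ^ a) n1 :=
    Nat.Coprime.pow_left a ((Nat.Prime.coprime_iff_not_dvd Nat.prime_two).mpr h2n1)
  have hcop2 : Nat.Coprime (3 ^ b) n2 :=
    Nat.Coprime.pow_left b ((Nat.Prime.coprime_iff_not_dvd Nat.prime_three).mpr h3n2)
  have hA : (2 ^ a) ^ 2 ≤ 4 * (2 ^ a).totient ^ 3 := by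
    rcases Nat.eq_zero_or_pos a with rfl | ha
    · simp
    · rw [Nat.totient_prime_pow Nat.prime_two ha]
      obtain ⟨j, rfl⟩ : ∃ j, a = j + 1 := ⟨a - 1, by omega⟩
      simp only [Nat.add_sub_cancel]
      have : 2 ^ (2 * j) ≤ 2 ^ (3 * j) := Nat.pow_le_pow_right (by norm_num) (by omega)
      calc (2 ^ (j + 1)) ^ 2 = 4 * 2 ^ (2 * j) := by ring
        _ ≤ 4 * 2 ^ (3 * j) := by omega
        _ = 4 * (2 ^ j * (2 - 1)) ^ 3 := by ring
  have hB : 8 * (3 ^ b) ^ 2 ≤ 9 * (3 ^ b).totient ^ 3 := by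
    rcases Nat.eq_zero_or_pos b with rfl | hb
    · simp
    · rw [Nat.totient_prime_pow Nat.prime_three hb]
      obtain ⟨j, rfl⟩ : ∃ j, b = j + 1 := ⟨b - 1, by omega⟩
      simp only [Nat.add_sub_cancel]
      have : 3 ^ (2 * j) ≤ 3 ^ (3 * j) := Nat.pow_le_pow_right (by norm_num) (by omega)
      calc 8 * (3 ^ (j + 1)) ^ 2 = 72 * 3 ^ (2 * j) := by ring
        _ ≤ 72 * 3 ^ (3 * j) := by omega
        _ = 9 * (3 ^ j * (3 - 1)) ^ 3 := by
            norm_num
            ring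
  rw [hn1, Nat.totient_mul hcop1, hn2, Nat.totient_mul hcop2]
  have h1 := Nat.mul_le_mul (Nat.mul_le_mul hA hB) hmain
  have e1 : (2 ^ a) ^ 2 * (8 * (3 ^ b) ^ 2) * n2 ^ 2 = 4 * (2 * (2 ^ a * (3 ^ b * n2)) ^ 2) := by
    ring
  have e2 : 4 * (2 ^ a).totient ^ 3 * (9 * (3 ^ b).totient ^ 3) * n2.totient ^ 3 =
      4 * (9 * ((2 ^ a).totient * ((3 ^ b).totient * n2.totient)) ^ 3) := by ring
  rw [e1, e2] at h1
  exact Nat.le_of_mul_le_mul_left h1 (by norm_num)

lemma pow_two_ge (k : ℕ) (hk : 39 ≤ k) : 82 * k ^ 6 ≤ 2 ^ k := by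
  induction k, hk using Nat.le_induction with
  | base => norm_num
  | succ n hn ih =>
    have h5 : 5 * (n + 1) ^ 3 ≤ 7 * n ^ 3 := by
      nlinarith [Nat.mul_le_mul_right (n * n) hn, Nat.mul_le_mul_right n hn]
    have h6 : (5 * (n + 1) ^ 3) ^ 2 ≤ (7 * n ^ 3) ^ 2 := Nat.pow_le_pow_left h5 2
    have h : (n + 1) ^ 6 ≤ 2 * n ^ 6 := by
      have e1 : (5 * (n + 1) ^ 3) ^ 2 = 25 * (n + 1) ^ 6 := by ring
      have e2 : (7 * n ^ 3) ^ 2 = 49 * n ^ 6 := by ring
      rw [e1, e2] at h6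
      omega
    calc 82 * (n + 1) ^ 6 ≤ 82 * (2 * n ^ 6) := Nat.mul_le_mul_left 82 h
      _ = 2 * (82 * n ^ 6) := by ring
      _ ≤ 2 * 2 ^ n := by omega
      _ = 2 ^ (n + 1) := by ring

lemma big_e (e : ℕ) (he : 512 ≤ e) : ((2 * e + 1) * e) ^ 2 < 2 ^ e.totient := by
  have h1 := totient_cube e (by omega)
  have hk39 : 39 ≤ e.totient := by
    by_contra hlt
    have h2 : e.totient ^ 3 ≤ 38 ^ 3 := Nat.pow_le_pow_left (by omega) 3
    have h3 : 512 ^ 2 ≤ e ^ 2 := Nat.pow_le_pow_left he 2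
    omega
  have h2 := pow_two_ge e.totient hk39
  have h3 : ((2 * e + 1) * e) ^ 2 < 82 * e.totient ^ 6 := by
    have h4 : 512 * (2 * e + 1) ≤ 1025 * e := by omega
    have h5 : (512 * (2 * e + 1)) ^ 2 ≤ (1025 * e) ^ 2 := Nat.pow_le_pow_left h4 2
    have h6 : (2 * e ^ 2) ^ 2 ≤ (9 * e.totient ^ 3) ^ 2 := Nat.pow_le_pow_left h1 2
    have h7 : 4 * 512 ^ 2 * ((2 * e + 1) * e) ^ 2 ≤ 1025 ^ 2 * 81 * e.totient ^ 6 := by
      calc 4 * 512 ^ 2 * ((2 * e + 1) * e) ^ 2 = (512 * (2 * e + 1)) ^ 2 * (4 * e ^ 2) := by ring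
        _ ≤ (1025 * e) ^ 2 * (4 * e ^ 2) := Nat.mul_le_mul_right _ h5
        _ = 1025 ^ 2 * (2 * e ^ 2) ^ 2 := by ring
        _ ≤ 1025 ^ 2 * (9 * e.totient ^ 3) ^ 2 := Nat.mul_le_mul_left _ h6
        _ = 1025 ^ 2 * 81 * e.totient ^ 6 := by ring
    have hpos : 0 < e.totient ^ 6 := by positivity
    generalize e.totient ^ 6 = K at h7 hpos ⊢
    generalize ((2 * e + 1) * e) ^ 2 = A at h7 ⊢
    omega
  omega

def excL : List (ℕ × ℕ) := [(2, 6), (2, 4), (2, 10), (2, 12), (2, 18), (3, 4), (3, 6), (5, 6), (2, 3), (2, 8), (2, 20), (4, 3), (4, 6)]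

def L1 : List ℕ := [3, 4, 5, 6, 7, 8, 9, 10, 11, 12, 13, 14, 15, 16, 17, 18, 19, 20, 21, 22, 24, 25, 26, 27, 28, 30, 32, 33, 34, 36, 38, 40, 42, 44, 46, 48, 50, 52, 54, 56, 60, 66, 70, 72, 78, 84, 90]

def L2 : List ℕ := [3, 4, 5, 6, 7, 8, 9, 10, 12, 14, 15, 16, 18, 20, 24, 30]

def certs : List (ℕ × ℕ × ℕ) := [
  (3, 3, 13), (5, 3, 31), (6, 3, 43), (7, 3, 19), (8, 3, 73), (9, 3, 91),
  (4, 4, 17), (5, 4, 13), (6, 4, 37), (7, 4, 25), (8, 4, 65), (9, 4, 41),
  (2, 5, 31), (3, 5, 121), (4, 5, 341), (5, 5, 781), (6, 5, 311), (7, 5, 2801),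
  (8, 5, 4681), (9, 5, 7381), (6, 6, 31), (7, 6, 43), (8, 6, 19), (9, 6, 73),
  (2, 7, 127), (3, 7, 1093), (4, 7, 5461), (5, 7, 19531), (6, 7, 55987), (7, 7, 137257),
  (8, 7, 42799), (9, 7, 597871), (3, 8, 41), (4, 8, 257), (5, 8, 313), (6, 8, 1297),
  (7, 8, 1201), (8, 8, 4097), (9, 8, 3281), (2, 9, 73), (3, 9, 757), (4, 9, 1387),
  (5, 9, 15751), (6, 9, 46873), (7, 9, 39331), (8, 9, 262657), (9, 9, 532171), (3, 10, 61),
  (4, 10, 41), (5, 10, 521), (6, 10, 1111), (7, 10, 2101), (8, 10, 3641), (9, 10, 1181),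
  (2, 11, 2047), (3, 12, 73), (4, 12, 241), (5, 12, 601), (6, 12, 1261), (7, 12, 2353),
  (8, 12, 4033), (9, 12, 6481), (2, 13, 8191), (2, 14, 43), (3, 14, 547), (4, 14, 3277),
  (5, 14, 13021), (6, 14, 5713), (7, 14, 102943), (8, 14, 233017), (9, 14, 478297), (2, 15, 151),
  (3, 15, 4561), (4, 15, 49981), (5, 15, 315121), (6, 15, 1406371), (7, 15, 4956001), (8, 15, 14709241),
  (9, 15, 38316961), (2, 16, 257), (3, 16, 3281), (4, 16, 65537), (5, 16, 195313), (6, 16, 1679617),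
  (7, 16, 2882401), (8, 16, 16777217), (9, 16, 21523361), (2, 17, 131071), (3, 18, 703), (4, 18, 4033),
  (5, 18, 5167), (6, 18, 46441), (7, 18, 117307), (8, 18, 87211), (9, 18, 530713), (2, 19, 524287),
  (3, 20, 1181), (4, 20, 61681), (5, 20, 375601), (6, 20, 1634221), (7, 20, 1129901), (8, 20, 3303821),
  (9, 20, 42521761), (2, 21, 337), (2, 22, 683), (2, 24, 241), (3, 24, 6481), (4, 24, 65281),
  (5, 24, 390001), (6, 24, 1678321), (7, 24, 5762401), (8, 24, 16773121), (9, 24, 43040161), (2, 25, 1082401),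
  (2, 26, 2731), (2, 27, 262657), (2, 28, 3277), (2, 30, 331), (3, 30, 8401), (4, 30, 80581),
  (5, 30, 464881), (6, 30, 1950271), (7, 30, 6568801), (8, 30, 18837001), (9, 30, 47763361), (2, 32, 65537),
  (2, 33, 599479), (2, 34, 43691), (2, 36, 4033), (2, 38, 174763), (2, 40, 61681), (2, 42, 5419),
  (2, 44, 838861), (2, 46, 2796203), (2, 48, 65281), (2, 50, 1016801), (2, 52, 13421773), (2, 54, 87211),
  (2, 56, 15790321), (2, 60, 80581), (2, 66, 1397419), (2, 70, 24214051), (2, 72, 16773121), (2, 78, 22366891),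
  (2, 84, 20647621), (2, 90, 18837001)]

set_option maxRecDepth 1000000 in
lemma mid_range : ∀ e < 512, 3 ≤ e → e ∈ L1 ∨ ((2 * e + 1) * e) ^ 2 < 2 ^ e.totient := by
  decide +kernel

set_option maxRecDepth 1000000 in
lemma L1_not_L2 : ∀ e ∈ L1, e ∈ L2 ∨ (2 * e + 1) * e ≤ 2 ^ e.totient := by
  decide +kernel

set_option maxRecDepth 1000000 in
lemma L2_bound : ∀ e ∈ L2, (2 * e + 1) * e ≤ 9 ^ e.totient := by
  decide +kernel

set_option maxRecDepth 1000000 in
lemma certs_ok : ∀ c ∈ certs, c.2.2 ∣ c.1 ^ c.2.1 - 1 ∧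
    (∀ i < c.2.1, 1 ≤ i → Nat.Coprime c.2.2 (c.1 ^ i - 1)) ∧ 3 * c.2.1 + 1 ≤ c.2.2 := by
  decide +kernel

set_option maxRecDepth 1000000 in
lemma lookup_two : ∀ e ∈ L1, (2, e) ∈ excL ∨ ∃ c ∈ certs, c.1 = 2 ∧ c.2.1 = e := by
  decide +kernel

set_option maxRecDepth 1000000 in
lemma lookup_small : ∀ e ∈ L2, ∀ q < 10, 3 ≤ q → (q, e) ∈ excL ∨ ∃ c ∈ certs, c.1 = q ∧ c.2.1 = e := by
  decide +kernel

lemma cert_use (q e : ℕ) (h : ∃ c ∈ certs, c.1 = q ∧ c.2.1 = e) :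
    ∃ m : ℕ, m ∣ q ^ e - 1 ∧ (∀ i : ℕ, 1 ≤ i → i < e → Nat.Coprime m (q ^ i - 1)) ∧
      3 * e + 1 ≤ m := by
  obtain ⟨c, hc, rfl, rfl⟩ := h
  obtain ⟨h1, h2, h3⟩ := certs_ok c hc
  exact ⟨c.2.2, h1, fun i hi hie => h2 i hie hi, h3⟩

lemma exc_dvd (q e m : ℕ) (hm : m ∣ q ^ e - 1)
    (hc : ∀ i : ℕ, 1 ≤ i → i < e → Nat.Coprime m (q ^ i - 1)) :
    m ∣ (q ^ e - 1) / Nat.gcd (q ^ e - 1) (∏ i ∈ Finset.Ico 1 e, (q ^ i - 1)) := by
  have h1 : Nat.Coprime m (∏ i ∈ Finset.Ico 1 e, (q ^ i - 1)) := by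
    apply Nat.Coprime.prod_right
    intro i hi
    rw [Finset.mem_Ico] at hi
    exact hc i hi.1 hi.2
  have h2 : Nat.Coprime m (Nat.gcd (q ^ e - 1) (∏ i ∈ Finset.Ico 1 e, (q ^ i - 1))) :=
    Nat.Coprime.coprime_dvd_right (Nat.gcd_dvd_right _ _) h1
  have h3 : (q ^ e - 1) / Nat.gcd (q ^ e - 1) (∏ i ∈ Finset.Ico 1 e, (q ^ i - 1)) *
      Nat.gcd (q ^ e - 1) (∏ i ∈ Finset.Ico 1 e, (q ^ i - 1)) = q ^ e - 1 :=
    Nat.div_mul_cancel (Nat.gcd_dvd_left _ _)
  rw [← h3] at hm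
  exact h2.dvd_of_dvd_mul_right hm

set_option maxRecDepth 1000000 in
lemma exc_vals : ∀ p ∈ excL,
    0 < (p.1 ^ p.2 - 1) / Nat.gcd (p.1 ^ p.2 - 1) (∏ i ∈ Finset.Ico 1 p.2, (p.1 ^ i - 1)) ∧
    (p.1 ^ p.2 - 1) / Nat.gcd (p.1 ^ p.2 - 1) (∏ i ∈ Finset.Ico 1 p.2, (p.1 ^ i - 1)) ≤ 2 * p.2 + 1 := by
  decide +kernel


/-- Size of the primitive part of `q^e - 1`. For a prime power `q` and `e ≥ 3`, call a divisor of `q^e - 1` primitive when it is coprime to `q^i - 1` for every `1 ≤ i < e`; the primitive part is the largest primitive divisor. Apart from thirteen exceptional pairs, the primitive part is at least `3e + 1`: there is a primitive divisor `m ≥ 3e + 1` unless `(q, e)` is `(2, 6)` (where every primitive divisor is 1), one of `(2,4), (2,10), (2,12), (2,18), (3,4), (3,6), (5,6)` (where the primitive part is exactly `e + 1`), or one of `(2,3), (2,8), (2,20), (4,3), (4,6)` (where it is exactly `2e + 1`). The statement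 asserts the existence of a primitive divisor `m ≥ 3e + 1` outside the thirteen pairs, and that every primitive divisor is at most `2e + 1` for the thirteen pairs. -/
theorem result (q e : ℕ) (hq : IsPrimePow q) (he : 3 ≤ e) :
    ((q, e) ∉ [(2, 6), (2, 4), (2, 10), (2, 12), (2, 18), (3, 4), (3, 6), (5, 6), (2, 3), (2, 8), (2, 20), (4, 3), (4, 6)] →
      ∃ m : ℕ, m ∣ q ^ e - 1 ∧ (∀ i : ℕ, 1 ≤ i → i < e → Nat.Coprime m (q ^ i - 1)) ∧ 3 * e + 1 ≤ m) ∧
    ((q, e) ∈ [(2, 6), (2, 4), (2, 10), (2, 12), (2, 18), (3, 4), (3, 6), (5, 6), (2, 3), (2, 8), (2, 20), (4, 3), (4, 6)] →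
      ∀ m : ℕ, m ∣ q ^ e - 1 → (∀ i : ℕ, 1 ≤ i → i < e → Nat.Coprime m (q ^ i - 1)) → m ≤ 2 * e + 1) := by
  have hq2 : 2 ≤ q := hq.two_le
  constructor
  · intro hne
    have hne' : (q, e) ∉ excL := hne
    have hA : ((2 * e + 1) * e) ^ 2 < 2 ^ e.totient →
        ∃ m : ℕ, m ∣ q ^ e - 1 ∧ (∀ i : ℕ, 1 ≤ i → i < e → Nat.Coprime m (q ^ i - 1)) ∧
          3 * e + 1 ≤ m := by
      intro h
      exact main_bound q e (by omega) he (phi_big_of_sq q e _ hq2 he h)
    rcases Nat.lt_or_ge e 512 with hlt | hbig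
    · rcases mid_range e hlt he with hL1 | hgood
      · rcases Nat.lt_or_ge q 3 with hq3 | hq3
        · have hq' : q = 2 := by omega
          subst hq'
          rcases lookup_two e hL1 with hex | hcert
          · exact absurd hex hne'
          · exact cert_use 2 e hcert
        · rcases L1_not_L2 e hL1 with hL2 | hb
          · rcases Nat.lt_or_ge q 10 with hq10 | hq10
            · rcases lookup_small e hL2 q hq10 hq3 with hex | hcert
              · exact absurd hex hne'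
              · exact cert_use q e hcert
            · apply main_bound q e (by omega) he
              have h1 := L2_bound e hL2
              have h2 := Phi_gt e q (by omega) (by omega)
              have h3 : 9 ^ e.totient ≤ (q - 1) ^ e.totient := Nat.pow_le_pow_left (by omega) _
              omega
          · apply main_bound q e (by omega) he
            have h2 := phi_lower3 q e hq3 he
            omega
      · exact hA hgood
    · exact hA (big_e e hbig)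
  · intro hmem m hm hc
    have hmem' : (q, e) ∈ excL := hmem
    have h1 := exc_dvd q e m hm hc
    obtain ⟨h2, h3⟩ := exc_vals (q, e) hmem'
    exact (Nat.le_of_dvd h2 h1).trans h3

end Cfsg.Agent.S4423
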