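import Cfsg.Statements.S3430
-- import your own Cfsg.Agent.* helpers here
import Cfsg.Agent.S4423
import Mathlib

set_option autoImplicit false
set_option maxRecDepth 100000 in
open Cfsg

namespace Cfsg.Agent.S3430

open Cfsg.Agent.S2904 Cfsg.Agent.S4423

/-- the primitive part is at least `3e + 1`, for every base `q ≥ 2` outside the exceptional list -/
lemma prim_part (q e : ℕ) (hq2 : 2 ≤ q) (he : 3 ≤ e) (hne' : (q, e) ∉ excL) :
    ∃ m : ℕ, m ∣ q ^ e - 1 ∧ (∀ i : ℕ, 1 ≤ i → i < e → Nat.Coprime m (q ^ i - 1)) ∧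
      3 * e + 1 ≤ m := by
  have hA : ((2 * e + 1) * e) ^ 2 < 2 ^ e.totient →
      ∃ m : ℕ, m ∣ q ^ e - 1 ∧ (∀ i : ℕ, 1 ≤ i → i < e → Nat.Coprime m (q ^ i - 1)) ∧
        3 * e + 1 ≤ m := by
    intro h
    exact main_bound q e (by omega) he (phi_big_of_sq q e _ hq2 he h)
  rcases Nat.lt_or_ge e 512 with hlt | hbig
  · rcases mid_range e hlt he with hL1 | hgood
    · rcases Nat.lt_or_ge q 3 with hq3 | hq3
      · have hq' : q = 2 := by omega
        subst hq'
        rcases lookup_two e hL1 with hex | hcert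
        · exact absurd hex hne'
        · exact cert_use 2 e hcert
      · rcases L1_not_L2 e hL1 with hL2 | hb
        · rcases Nat.lt_or_ge q 10 with hq10 | hq10
          · rcases lookup_small e hL2 q hq10 hq3 with hex | hcert
            · exact absurd hex hne'
            · exact cert_use q e hcert
          · apply main_bound q e (by omega) he
            have h1 := L2_bound e hL2
            have h2 := Phi_gt e q (by omega) (by omega)
            have h3 : 9 ^ e.totient ≤ (q - 1) ^ e.totient := Nat.pow_le_pow_left (by omega) _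
            omega
        · apply main_bound q e (by omega) he
          have h2 := phi_lower3 q e hq3 he
          omega
    · exact hA hgood
  · exact hA (big_e e hbig)

/-- a number all of whose prime factors equal `p` is a power of `p` -/
lemma pow_of_primes (p : ℕ) (_hp : p.Prime) :
    ∀ m : ℕ, 0 < m → (∀ s : ℕ, s.Prime → s ∣ m → s = p) → ∃ k, m = p ^ k := by
  intro m hm h
  refine ⟨m.primeFactorsList.length, ?_⟩
  exact Nat.eq_prime_pow_of_unique_prime_dvd (by omega) (fun {d} hd hdm => h d hd hdm)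

set_option maxRecDepth 100000 in
lemma extra_cases : ∀ c ∈ [((2 : ℕ), (3 : ℕ), (7 : ℕ)), (2, 8, 17), (2, 20, 41), (4, 3, 7), (4, 6, 13)],
    c.2.2.Prime ∧ c.2.2 ∣ c.1 ^ c.2.1 - 1 ∧ (∀ i < c.2.1, 1 ≤ i → ¬ c.2.2 ∣ c.1 ^ i - 1) ∧
      c.2.1 + 1 < c.2.2 := by
  decide +kernel

lemma case_two (q : ℕ) (hq : 2 ≤ q)
    (h1 : ¬ ∃ s t : ℕ, t ≤ 1 ∧ q + 1 = 2 ^ s * 3 ^ t) :
    ∃ p : ℕ, p.Prime ∧ p ∣ q ^ 2 - 1 ∧ ¬ p ∣ q - 1 ∧ (3 < p ∨ p ^ 2 ∣ q ^ 2 - 1) := by
  have hfac : q ^ 2 - 1 = (q + 1) * (q - 1) := by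
    obtain ⟨k, rfl⟩ : ∃ k, q = k + 2 := ⟨q - 2, by omega⟩
    have : (k + 2) ^ 2 = (k + 2 + 1) * (k + 2 - 1) + 1 := by
      have e1 : k + 2 - 1 = k + 1 := by omega
      rw [e1]
      ring
    omega
  have hndvd : ∀ p : ℕ, p.Prime → p ≠ 2 → p ∣ q + 1 → ¬ p ∣ q - 1 := by
    intro p hp hp2 hd hd'
    have h2 : p ∣ (q + 1) - (q - 1) := Nat.dvd_sub hd hd'
    have e : (q + 1) - (q - 1) = 2 := by omega
    rw [e] at h2
    exact hp2 ((Nat.prime_dvd_prime_iff_eq hp Nat.prime_two).mp h2)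
  by_cases hbig : ∃ p : ℕ, p.Prime ∧ p ∣ q + 1 ∧ 3 < p
  · obtain ⟨p, hp, hd, h3⟩ := hbig
    exact ⟨p, hp, by rw [hfac]; exact Dvd.dvd.mul_right hd _, hndvd p hp (by omega) hd, Or.inl h3⟩
  · by_cases h9 : 9 ∣ q + 1
    · refine ⟨3, Nat.prime_three, ?_, hndvd 3 Nat.prime_three (by norm_num)
        ((by norm_num : 3 ∣ 9).trans h9), Or.inr ?_⟩
      · rw [hfac]
        exact Dvd.dvd.mul_right ((by norm_num : 3 ∣ 9).trans h9) _
      · rw [hfac]
        exact Dvd.dvd.mul_right (by norm_num; exact h9) _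
    · exfalso
      apply h1
      have hsmall : ∀ p : ℕ, p.Prime → p ∣ q + 1 → p = 2 ∨ p = 3 := by
        intro p hp hd
        by_contra hcon
        have hcon := not_or.mp hcon
        apply hbig
        refine ⟨p, hp, hd, ?_⟩
        have := hp.two_le
        omega
      obtain ⟨s, r, hr, hqr⟩ := Nat.exists_eq_two_pow_mul_odd (n := q + 1) (by omega)
      have hrdvd : r ∣ q + 1 := ⟨2 ^ s, by rw [hqr]; ring⟩
      have hr3 : ∀ p : ℕ, p.Prime → p ∣ r → p = 3 := by
        intro p hp hd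
        rcases hsmall p hp (hd.trans hrdvd) with h | h
        · exfalso
          rw [h] at hd
          have := hr
          rw [Nat.odd_iff] at this
          omega
        · exact h
      have hrpos : 0 < r := by
        rcases Nat.eq_zero_or_pos r with rfl | h
        · simp at hr
        · exact h
      obtain ⟨k, hk⟩ := pow_of_primes 3 Nat.prime_three r hrpos hr3
      have hk1 : k ≤ 1 := by
        by_contra hcon
        apply h9
        have h2 : 2 ≤ k := by omega
        have : (9 : ℕ) ∣ 3 ^ k := by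
          have : (3 : ℕ) ^ 2 ∣ 3 ^ k := pow_dvd_pow 3 h2
          simpa using this
        exact this.trans (hk ▸ hrdvd)
      exact ⟨s, k, hk1, by rw [hqr, hk]⟩


/-- Let q, n ≥ 2 be integers. Unless (n = 2 and q + 1 = 2^s·3^t for some s ≥ 0 and t ≤ 1), or (q = 2 and n ∈ {4, 6, 10, 12, 18}), or (q = 3 and n ∈ {4, 6}), or (q, n) = (5, 6), there is a prime p dividing q^n − 1 but no q^i − 1 with 1 ≤ i < n (a primitive prime divisor), such that p > n + 1 or p² divides q^n − 1. -/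
theorem result (q n : ℕ) (hq : 2 ≤ q) (hn : 2 ≤ n)
    (h1 : ¬ (n = 2 ∧ ∃ s t : ℕ, t ≤ 1 ∧ q + 1 = 2 ^ s * 3 ^ t))
    (h2 : ¬ (q = 2 ∧ (n = 4 ∨ n = 6 ∨ n = 10 ∨ n = 12 ∨ n = 18)))
    (h3 : ¬ (q = 3 ∧ (n = 4 ∨ n = 6))) (h4 : ¬ (q = 5 ∧ n = 6)) :
    ∃ p : ℕ, p.Prime ∧ p ∣ q ^ n - 1 ∧ (∀ i : ℕ, 1 ≤ i → i < n → ¬ p ∣ q ^ i - 1) ∧ (n + 1 < p ∨ p ^ 2 ∣ q ^ n - 1) := by
  rcases Nat.lt_or_ge n 3 with hn2 | hn3
  · have hn' : n = 2 := by omega
    subst hn'
    obtain ⟨p, hp, hd, hnd, hl⟩ := case_two q hq (fun h => h1 ⟨rfl, h⟩)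
    refine ⟨p, hp, hd, ?_, hl⟩
    intro i hi1 hi2
    have : i = 1 := by omega
    subst this
    rwa [pow_one]
  · by_cases hex : (q, n) ∈ excL
    · have hcases : (q, n) = (2, 3) ∨ (q, n) = (2, 8) ∨ (q, n) = (2, 20) ∨ (q, n) = (4, 3) ∨
          (q, n) = (4, 6) := by
        simp only [excL, List.mem_cons, Prod.mk.injEq, List.not_mem_nil, or_false] at hex
        simp only [Prod.mk.injEq]
        rcases hex with h | h | h | h | h | h | h | h | h | h | h | h | h
        · exact absurd ⟨h.1, Or.inr (Or.inl h.2)⟩ h2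
        · exact absurd ⟨h.1, Or.inl h.2⟩ h2
        · exact absurd ⟨h.1, Or.inr (Or.inr (Or.inl h.2))⟩ h2
        · exact absurd ⟨h.1, Or.inr (Or.inr (Or.inr (Or.inl h.2)))⟩ h2
        · exact absurd ⟨h.1, Or.inr (Or.inr (Or.inr (Or.inr h.2)))⟩ h2
        · exact absurd ⟨h.1, Or.inl h.2⟩ h3
        · exact absurd ⟨h.1, Or.inr h.2⟩ h3
        · exact absurd h h4
        · exact Or.inl h
        · exact Or.inr (Or.inl h)
        · exact Or.inr (Or.inr (Or.inl h))
        · exact Or.inr (Or.inr (Or.inr (Or.inl h)))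
        · exact Or.inr (Or.inr (Or.inr (Or.inr h)))
      have key : ∀ c ∈ [((2 : ℕ), (3 : ℕ), (7 : ℕ)), (2, 8, 17), (2, 20, 41), (4, 3, 7), (4, 6, 13)],
          c.1 = q → c.2.1 = n → ∃ p : ℕ, p.Prime ∧ p ∣ q ^ n - 1 ∧
            (∀ i : ℕ, 1 ≤ i → i < n → ¬ p ∣ q ^ i - 1) ∧ (n + 1 < p ∨ p ^ 2 ∣ q ^ n - 1) := by
        intro c hc hc1 hc2
        obtain ⟨e1, e2, e3, e4⟩ := extra_cases c hc
        rw [hc1] at e2 e3
        rw [hc2] at e2 e3 e4
        exact ⟨c.2.2, e1, e2, fun i hi1 hi2 => e3 i hi2 hi1, Or.inl e4⟩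
      rcases hcases with h | h | h | h | h
      · exact key (2, 3, 7) (by simp) (congrArg Prod.fst h).symm (congrArg Prod.snd h).symm
      · exact key (2, 8, 17) (by simp) (congrArg Prod.fst h).symm (congrArg Prod.snd h).symm
      · exact key (2, 20, 41) (by simp) (congrArg Prod.fst h).symm (congrArg Prod.snd h).symm
      · exact key (4, 3, 7) (by simp) (congrArg Prod.fst h).symm (congrArg Prod.snd h).symm
      · exact key (4, 6, 13) (by simp) (congrArg Prod.fst h).symm (congrArg Prod.snd h).symm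
    · obtain ⟨m, hmd, hmc, hmb⟩ := prim_part q n hq hn3 hex
      have hprim : ∀ s : ℕ, s.Prime → s ∣ m → ∀ i : ℕ, 0 < i → i < n → ¬ s ∣ q ^ i - 1 := by
        intro s hs hsm i hi1 hi2 hsd
        have hco : Nat.gcd m (q ^ i - 1) = 1 := hmc i hi1 hi2
        have hdg : s ∣ Nat.gcd m (q ^ i - 1) := Nat.dvd_gcd hsm hsd
        rw [hco] at hdg
        exact hs.one_lt.ne' (Nat.dvd_one.mp hdg)
      have hmod : ∀ s : ℕ, s.Prime → s ∣ m → s % n = 1 := fun s hs hsm =>
        prime_mod q n s (by omega) hn3 hs (hsm.trans hmd) (hprim s hs hsm)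
      by_cases hbig : ∃ s : ℕ, s.Prime ∧ s ∣ m ∧ n + 1 < s
      · obtain ⟨s, hs, hsm, hlt⟩ := hbig
        exact ⟨s, hs, hsm.trans hmd, fun i hi1 hi2 => hprim s hs hsm i hi1 hi2, Or.inl hlt⟩
      · have hall : ∀ s : ℕ, s.Prime → s ∣ m → s = n + 1 := by
          intro s hs hsm
          have h5 := hmod s hs hsm
          have h6 : s ≤ n + 1 := by
            by_contra hc
            exact hbig ⟨s, hs, hsm, by omega⟩
          have h7 := hs.two_le
          rcases Nat.lt_or_ge s n with h8 | h8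
          · rw [Nat.mod_eq_of_lt h8] at h5
            omega
          · rcases Nat.eq_or_lt_of_le h8 with h9 | h9
            · rw [← h9, Nat.mod_self] at h5
              omega
            · omega
        have hpr : (n + 1).Prime := by
          have hmf := Nat.minFac_prime (by omega : m ≠ 1)
          have e := hall _ hmf (Nat.minFac_dvd m)
          rwa [e] at hmf
        obtain ⟨k, hk⟩ := pow_of_primes (n + 1) hpr m (by omega) hall
        have hk2 : 2 ≤ k := by
          by_contra hc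
          have hk01 : k = 0 ∨ k = 1 := by omega
          rcases hk01 with rfl | rfl
          · rw [pow_zero] at hk
            omega
          · rw [pow_one] at hk
            omega
        have hd1 : n + 1 ∣ m := by
          rw [hk]
          exact dvd_pow_self (n + 1) (by omega)
        refine ⟨n + 1, hpr, hd1.trans hmd, fun i hi1 hi2 => hprim (n + 1) hpr hd1 i hi1 hi2,
          Or.inr ?_⟩
        have hd2 : (n + 1) ^ 2 ∣ m := by
          rw [hk]
          exact pow_dvd_pow (n + 1) hk2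
        exact hd2.trans hmd

end Cfsg.Agent.S3430
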