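import Cfsg.Statements.S3504
import Mathlib

set_option autoImplicit false
open Cfsg

namespace Cfsg.Agent.S3504

open Equiv Equiv.Perm

/-- A fixed-point-free permutation of prime order `q` has `n / q` cycles of length `q`. -/
theorem cycleType_of_fpf {n : ℕ} (g : Perm (Fin n)) (hg : (orderOf g).Prime)
    (hfix : ∀ i, g i ≠ i) :
    orderOf g ∣ n ∧ g.cycleType = Multiset.replicate (n / orderOf g) (orderOf g) := by
  obtain ⟨m, hm⟩ := cycleType_prime_order hg
  have hsum : g.cycleType.sum = n := by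
    rw [sum_cycleType]
    have : g.support = Finset.univ := by
      ext i
      simp [hfix i]
    rw [this, Finset.card_univ, Fintype.card_fin]
  rw [hm, Multiset.sum_replicate, smul_eq_mul] at hsum
  have hq := hg.pos
  refine ⟨⟨m + 1, by rw [mul_comm]; exact hsum.symm⟩, ?_⟩
  rw [hm]
  congr 1
  exact (Nat.div_eq_of_eq_mul_left hq hsum.symm).symm

theorem lcm_replicate_succ (k q : ℕ) : (Multiset.replicate (k + 1) q).lcm = q := by
  induction k with
  | zero => simp
  | succ k ih =>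
    rw [Multiset.replicate_succ, Multiset.lcm_cons, ih]
    simp

/-- For a prime `q` dividing `n` there is a fixed-point-free permutation of order `q`. -/
theorem exists_fpf {n : ℕ} (q : ℕ) (hq : q.Prime) (hqn : q ∣ n) (hn : 0 < n) :
    ∃ g : Perm (Fin n), orderOf g = q ∧ (∀ i, g i ≠ i) := by
  obtain ⟨g, hg⟩ := (exists_with_cycleType_iff (Fin n)
    (m := Multiset.replicate (n / q) q)).mpr
    ⟨by simp [Nat.div_mul_cancel hqn],
      fun a ha => by rw [Multiset.eq_of_mem_replicate ha]; exact hq.two_le⟩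
  have hk : 0 < n / q := Nat.div_pos (Nat.le_of_dvd hn hqn) hq.pos
  refine ⟨g, ?_, ?_⟩
  · rw [← lcm_cycleType, hg]
    obtain ⟨k, hk'⟩ := Nat.exists_eq_succ_of_ne_zero hk.ne'
    rw [hk']
    exact lcm_replicate_succ k q
  · intro i
    have hsupp : g.support = Finset.univ := by
      apply Finset.eq_univ_of_card
      rw [← sum_cycleType, hg, Multiset.sum_replicate, smul_eq_mul, Nat.div_mul_cancel hqn,
        Fintype.card_fin]
    have : i ∈ g.support := by rw [hsupp]; exact Finset.mem_univ i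
    exact mem_support.mp this

/-- For n ≥ 5, the fixed-point-free permutations of prime order in the symmetric group of degree n form a single conjugacy class if and only if n is a prime power. -/
theorem result (n : ℕ) (hn : 5 ≤ n) :
    Nat.card {c : ConjClasses (Equiv.Perm (Fin n)) // ∃ g : Equiv.Perm (Fin n), ConjClasses.mk g = c ∧ (orderOf g).Prime ∧ ∀ i : Fin n, g i ≠ i} = 1 ↔ IsPrimePow n := by
  rw [isPrimePow_iff_unique_prime_dvd, Nat.card_eq_one_iff_unique]
  constructor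
  · rintro ⟨hsub, ⟨⟨c, g, hgc, hgp, hgf⟩⟩⟩
    obtain ⟨hdvd, hct⟩ := cycleType_of_fpf g hgp hgf
    refine ⟨orderOf g, ⟨hgp, hdvd⟩, ?_⟩
    rintro q ⟨hq, hqn⟩
    obtain ⟨g', hg'o, hg'f⟩ := exists_fpf q hq hqn (by omega)
    have hg'p : (orderOf g').Prime := hg'o ▸ hq
    have heq := hsub.elim
      (⟨ConjClasses.mk g', g', rfl, hg'p, hg'f⟩ : {c : ConjClasses (Equiv.Perm (Fin n)) //
        ∃ g : Equiv.Perm (Fin n), ConjClasses.mk g = c ∧ (orderOf g).Prime ∧
          ∀ i : Fin n, g i ≠ i}) ⟨c, g, hgc, hgp, hgf⟩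
    have h1 : ConjClasses.mk g' = ConjClasses.mk g := by
      rw [hgc]; exact congrArg Subtype.val heq
    rw [ConjClasses.mk_eq_mk_iff_isConj, isConj_iff_cycleType_eq] at h1
    obtain ⟨_, hct'⟩ := cycleType_of_fpf g' hg'p hg'f
    rw [hct, hct', hg'o] at h1
    have hmem : q ∈ Multiset.replicate (n / q) q :=
      Multiset.mem_replicate.mpr
        ⟨(Nat.div_pos (Nat.le_of_dvd (by omega) hqn) hq.pos).ne', rfl⟩
    rw [h1] at hmem
    exact Multiset.eq_of_mem_replicate hmem
  · rintro ⟨p, ⟨hp, hpn⟩, huniq⟩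
    constructor
    · constructor
      rintro ⟨c1, g1, rfl, hg1p, hg1f⟩ ⟨c2, g2, rfl, hg2p, hg2f⟩
      apply Subtype.ext
      show ConjClasses.mk g1 = ConjClasses.mk g2
      rw [ConjClasses.mk_eq_mk_iff_isConj, isConj_iff_cycleType_eq]
      obtain ⟨hd1, hc1⟩ := cycleType_of_fpf g1 hg1p hg1f
      obtain ⟨hd2, hc2⟩ := cycleType_of_fpf g2 hg2p hg2f
      rw [hc1, hc2, huniq _ ⟨hg1p, hd1⟩, huniq _ ⟨hg2p, hd2⟩]
    · obtain ⟨g, hgo, hgf⟩ := exists_fpf p hp hpn (by omega)
      exact ⟨⟨ConjClasses.mk g, g, rfl, hgo ▸ hp, hgf⟩⟩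

end Cfsg.Agent.S3504
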