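import Cfsg.Statements.S3508

set_option autoImplicit false
open Cfsg

namespace Cfsg.Agent.S3508

open Polynomial in
theorem poly_sum (p k : ℕ) [Fact p.Prime] :
    (∑ i ∈ Finset.range (p ^ k), (X : (ZMod p)[X]) ^ i) = (X - 1) ^ (p ^ k - 1) := by
  have h1 : (∑ i ∈ Finset.range (p ^ k), (X : (ZMod p)[X]) ^ i) * (X - 1) = X ^ (p^k) - 1 :=
    geom_sum_mul X (p^k)
  have h2 : (X - 1 : (ZMod p)[X]) ^ (p ^ k) = X ^ (p ^ k) - 1 := by
    rw [sub_pow_char_pow, one_pow]
  have hpos : 0 < p ^ k := pow_pos (Fact.out : p.Prime).pos k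
  have h3 : (X - 1 : (ZMod p)[X]) ^ (p ^ k) = (X - 1) ^ (p ^ k - 1) * (X - 1) := by
    rw [← pow_succ, Nat.sub_add_cancel hpos]
  have hne : (X - 1 : (ZMod p)[X]) ≠ 0 := by
    have := X_sub_C_ne_zero (1 : ZMod p)
    simpa using this
  exact mul_right_cancel₀ hne (by rw [h1, ← h2, h3])

open Polynomial in
theorem lin_core (p k r : ℕ) [Fact p.Prime] {A : Type*} [AddCommGroup A] [Module (ZMod p) A]
    [Module.Finite (ZMod p) A]
    (c : Module.End (ZMod p) A) (hc : c ^ (p ^ r) = 1)
    (hk : Module.finrank (ZMod p) A < p ^ k) :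
    c ^ (p ^ k) = 1 ∧ ∑ i ∈ Finset.range (p ^ k), c ^ i = 0 := by
  have hX : ∀ n : ℕ, aeval c ((X - 1 : (ZMod p)[X]) ^ n) = (c - 1) ^ n := by
    intro n; simp
  have hnil : IsNilpotent (c - 1) := by
    refine ⟨p ^ r, ?_⟩
    rw [← hX, sub_pow_char_pow, one_pow]
    simp [hc]
  have hfin : (c - 1) ^ Module.finrank (ZMod p) A = 0 := by
    have h1 := LinearMap.aeval_self_charpoly (c - 1)
    rw [IsNilpotent.charpoly_eq_X_pow_finrank hnil] at h1
    simpa using h1
  have hz : ∀ n, Module.finrank (ZMod p) A ≤ n → (c - 1) ^ n = 0 := by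
    intro n hn
    exact pow_eq_zero_of_le hn hfin
  constructor
  · have h1 := hz (p ^ k) hk.le
    rw [← hX, sub_pow_char_pow, one_pow] at h1
    simpa [sub_eq_zero] using h1
  · have h1 := hz (p ^ k - 1) (by omega)
    rw [← hX, ← poly_sum] at h1
    simpa using h1


open scoped IsMulCommutative in
theorem key {G : Type*} [Group G] [Finite G] {Ω : Type*} [Fintype Ω] [MulAction G Ω]
    [FaithfulSMul G Ω] (p m : ℕ) (hp : p.Prime) (hcard : Fintype.card Ω = p ^ m)
    (N : Subgroup G) [N.Normal] (hNc : IsMulCommutative N) (hNp : ∀ n ∈ N, n ^ p = 1)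
    (hNtr : MulAction.IsPretransitive N Ω) (hNreg : ∀ ω : Ω, MulAction.stabilizer N ω = ⊥)
    (g : G) (r : ℕ) (hg : g ^ (p ^ r) = 1) (k : ℕ) (hk : m < p ^ k) : g ^ (p ^ k) = 1 := by
  have : Fact p.Prime := ⟨hp⟩
  have hNp' : ∀ x : Additive N, p • x = 0 := by
    intro x
    have h1 := hNp ((Additive.toMul x : N) : G) (Additive.toMul x : N).2
    apply Additive.toMul.injective
    rw [toMul_nsmul, toMul_zero]
    ext
    simpa using h1
  let _ : Module (ZMod p) (Additive N) := AddCommGroup.zmodModule (n := p) hNp'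
  have : Module.Finite (ZMod p) (Additive N) := Module.Finite.of_finite
  -- the conjugation map
  let c0 : Additive N →+ Additive N := (MulAut.conjNormal g : MulAut N).toMonoidHom.toAdditive
  let c : Module.End (ZMod p) (Additive N) := AddMonoidHom.toZModLinearMap p c0
  have hc1 : ∀ x : Additive N, ((Additive.toMul (c x) : N) : G) = g * (Additive.toMul x : N) * g⁻¹ := by
    intro x
    rfl
  have hcj : ∀ (j : ℕ) (x : Additive N),
      ((Additive.toMul ((c ^ j) x) : N) : G) = g ^ j * (Additive.toMul x : N) * (g ^ j)⁻¹ := by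
    intro j
    induction j with
    | zero => intro x; simp
    | succ j ih =>
      intro x
      rw [pow_succ', Module.End.mul_apply, hc1, ih, pow_succ']
      group
  have hcr : c ^ (p ^ r) = 1 := by
    ext x
    rw [hcj, hg]
    simp
  obtain ⟨α⟩ : Nonempty Ω := by
    rw [← Fintype.card_pos_iff, hcard]; exact pow_pos hp.pos m
  -- cardinality
  have hbij : Function.Bijective (fun n : N => n • α) := by
    constructor
    · intro a b hab
      have hab' : a • α = b • α := hab
      have : a⁻¹ * b ∈ MulAction.stabilizer N α := by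
        rw [MulAction.mem_stabilizer_iff, mul_smul, ← hab', inv_smul_smul]
      rw [hNreg α, Subgroup.mem_bot] at this
      exact (inv_mul_eq_one.mp this)
    · intro ω
      exact MulAction.exists_smul_eq N α ω
  have hcardN : Nat.card (Additive N) = p ^ m := by
    rw [← hcard, ← Nat.card_eq_fintype_card]
    exact Nat.card_congr (Additive.toMul.trans (Equiv.ofBijective _ hbij))
  have hfr : Module.finrank (ZMod p) (Additive N) = m := by
    have h1 := Module.natCard_eq_pow_finrank (K := ZMod p) (V := Additive N)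
    rw [hcardN, Nat.card_zmod] at h1
    exact (Nat.pow_right_injective hp.two_le h1).symm
  obtain ⟨hck, hsum⟩ := lin_core p k r c hcr (by rw [hfr]; exact hk)
  -- the translation part
  obtain ⟨a, ha⟩ := MulAction.exists_smul_eq N α (g • α)
  have hQ : ∀ j : ℕ, g ^ j • α =
      (Additive.toMul ((∑ i ∈ Finset.range j, c ^ i) (Additive.ofMul a)) : N) • α := by
    intro j
    induction j with
    | zero => simp
    | succ j ih =>
      rw [pow_succ', mul_smul, ih, Finset.sum_range_succ']
      set Q := (∑ i ∈ Finset.range j, c ^ i) (Additive.ofMul a) with hQdef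
      have h2 : (∑ i ∈ Finset.range j, c ^ (i + 1) + c ^ 0) (Additive.ofMul a)
          = c Q + Additive.ofMul a := by
        rw [LinearMap.add_apply, pow_zero, Module.End.one_apply]
        congr 1
        rw [hQdef, LinearMap.sum_apply, LinearMap.sum_apply, map_sum]
        refine Finset.sum_congr rfl (fun i _ => ?_)
        rw [pow_succ', Module.End.mul_apply]
      rw [h2, toMul_add, toMul_ofMul, mul_smul, ha]
      rw [Subgroup.smul_def, Subgroup.smul_def, hc1, mul_smul, mul_smul, inv_smul_smul]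
  have hfix : g ^ (p ^ k) • α = α := by
    rw [hQ, hsum]
    simp
  have hcomm : ∀ n : N, g ^ (p ^ k) * (n : G) = (n : G) * g ^ (p ^ k) := by
    intro n
    have h1 := hcj (p ^ k) (Additive.ofMul n)
    rw [hck] at h1
    simp only [Module.End.one_apply, toMul_ofMul] at h1
    calc g ^ (p ^ k) * (n : G) = (g ^ (p ^ k) * (n : G) * (g ^ (p ^ k))⁻¹) * g ^ (p ^ k) := by group
      _ = (n : G) * g ^ (p ^ k) := by rw [← h1]
  apply FaithfulSMul.eq_of_smul_eq_smul (α := Ω)
  intro ω
  obtain ⟨n, rfl⟩ := hbij.2 ω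
  show g ^ (p ^ k) • ((n : G) • α) = 1 • ((n : G) • α)
  rw [one_smul, ← mul_smul, hcomm, mul_smul, hfix]

theorem arith1 (j : ℕ) (hj : 2 ≤ j) : j + 1 < 2 ^ j := by
  induction j, hj using Nat.le_induction with
  | base => norm_num
  | succ j hj ih => rw [pow_succ]; omega

/-- Let a finite group G act faithfully on a set Ω with p ^ m points (p prime) and have an elementary abelian normal p-subgroup N acting regularly on Ω (so G is a group of affine transformations of an m-dimensional space over the field with p elements). If G contains an element of order p ^ r with r ≥ 1, then p ^ (r − 1) ≤ m. In particular an element of order p ^ m forces m ≤ 2, and m ≤ 1 when p is odd. -/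
theorem result {G : Type*} [Group G] [Finite G] {Ω : Type*} [Fintype Ω] [MulAction G Ω] [FaithfulSMul G Ω] (p m : ℕ) (hp : p.Prime) (hcard : Fintype.card Ω = p ^ m)
    (N : Subgroup G) [N.Normal] (hNc : IsMulCommutative N) (hNp : ∀ n ∈ N, n ^ p = 1)
    (hNtr : MulAction.IsPretransitive N Ω) (hNreg : ∀ ω : Ω, MulAction.stabilizer N ω = ⊥)
    (g : G) (r : ℕ) (hr : 1 ≤ r) (hg : orderOf g = p ^ r) :
    p ^ (r - 1) ≤ m ∧ (r = m → m ≤ 2 ∧ (2 < p → m ≤ 1)) := by
  have h1 : p ^ (r - 1) ≤ m := by
    by_contra hlt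
    push Not at hlt
    have h2 := key p m hp hcard N hNc hNp hNtr hNreg g r (by rw [← hg]; exact pow_orderOf_eq_one g)
      (r - 1) hlt
    have h3 : orderOf g ∣ p ^ (r - 1) := orderOf_dvd_of_pow_eq_one h2
    rw [hg] at h3
    have h4 := (Nat.pow_dvd_pow_iff_le_right hp.one_lt).mp h3
    omega
  refine ⟨h1, ?_⟩
  intro hrm
  subst hrm
  have h5 : 2 ^ (r - 1) ≤ p ^ (r - 1) := Nat.pow_le_pow_left hp.two_le _
  have h6 : r ≤ 2 := by
    by_contra h
    push Not at h
    have := arith1 (r - 1) (by omega)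
    omega
  refine ⟨h6, ?_⟩
  intro hp2
  by_contra h
  push Not at h
  have hr2 : r = 2 := by omega
  subst hr2
  simp at h1
  omega

end Cfsg.Agent.S3508
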