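import Cfsg.Statements.S3511
import Mathlib

set_option autoImplicit false
open Cfsg

namespace Cfsg.Agent.S3511

/-- Let a finite group G act faithfully on a set Ω. If every element of G of square-free order has a regular cycle (an orbit of the cyclic group it generates with trivial stabilizer), then every element of G has a regular cycle. -/
theorem result {G : Type*} [Group G] [Finite G] {Ω : Type*} [MulAction G Ω] [FaithfulSMul G Ω]
    (h : ∀ g : G, Squarefree (orderOf g) → ∃ ω : Ω, MulAction.stabilizer (Subgroup.zpowers g) ω = ⊥) (g : G) :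
    ∃ ω : Ω, MulAction.stabilizer (Subgroup.zpowers g) ω = ⊥ := by
  classical
  set n := orderOf g with hn
  have hn0 : n ≠ 0 := (orderOf_pos g).ne'
  set r := UniqueFactorizationMonoid.radical n with hr
  have hrn : r ∣ n := UniqueFactorizationMonoid.radical_dvd_self
  have hsq : Squarefree r := UniqueFactorizationMonoid.squarefree_radical
  have hord : orderOf (g ^ (n / r)) = r := orderOf_pow_orderOf_div hn0 hrn
  obtain ⟨ω, hω⟩ := h (g ^ (n / r)) (by rw [hord]; exact hsq)
  refine ⟨ω, ?_⟩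
  rw [Subgroup.eq_bot_iff_forall]
  rintro ⟨y, hy⟩ hfix
  by_contra hne
  have hy1 : y ≠ 1 := fun h1 => hne (by subst h1; rfl)
  have hfix' : y • ω = ω := hfix
  set d := orderOf y with hd
  have hd1 : d ≠ 1 := fun h1 => hy1 (orderOf_eq_one_iff.mp h1)
  obtain ⟨p, hp, hpd⟩ := Nat.exists_prime_and_dvd hd1
  have hd0 : d ≠ 0 := (orderOf_pos y).ne'
  have hdn : d ∣ n := orderOf_dvd_of_mem_zpowers hy
  have hpn : p ∣ n := hpd.trans hdn
  have hpr : p ∣ r := by
    rw [hr, Nat.radical_eq_prod_primeFactors]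
    exact Finset.dvd_prod_of_mem _ (Nat.mem_primeFactors.mpr ⟨hp, hpn, hn0⟩)
  -- the element z of order p
  set z := y ^ (d / p) with hz
  have hzord : orderOf z = p := orderOf_pow_orderOf_div hd0 hpd
  have hzfix : z • ω = ω := by
    have : ∀ k : ℕ, y ^ k • ω = ω := by
      intro k
      induction k with
      | zero => simp
      | succ k ih => rw [pow_succ, mul_smul, hfix', ih]
    exact this _
  have hzmem : z ∈ Subgroup.zpowers g := Subgroup.pow_mem _ hy _
  obtain ⟨k, hk⟩ := Subgroup.mem_zpowers_iff.mp hzmem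
  have hzp : z ^ p = 1 := by rw [← hzord]; exact pow_orderOf_eq_one z
  have hkp : (n : ℤ) ∣ k * p := by
    rw [hn, orderOf_dvd_iff_zpow_eq_one, zpow_mul, hk, zpow_natCast, hzp]
  -- n / r divides k
  obtain ⟨a, ha⟩ := hpr
  obtain ⟨b, hb⟩ := hrn
  have hp0 : p ≠ 0 := hp.ne_zero
  have hr0 : r ≠ 0 := by rintro h0; rw [h0, zero_mul] at hb; exact hn0 hb
  have hnr : n / r = b := by rw [hb]; exact Nat.mul_div_cancel_left b (Nat.pos_of_ne_zero hr0)
  have hbk : (b : ℤ) ∣ k := by
    have h1 : ((p * (a * b) : ℕ) : ℤ) ∣ k * p := by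
      have : p * (a * b) = n := by rw [hb, ha]; ring
      rw [this]; exact hkp
    have h2 : ((a * b : ℕ) : ℤ) ∣ k := by
      rw [mul_comm k, Nat.cast_mul] at h1
      exact (mul_dvd_mul_iff_left (by exact_mod_cast hp0)).mp h1
    exact Dvd.dvd.trans ⟨a, by push_cast; ring⟩ h2
  obtain ⟨j, hj⟩ := hbk
  have hzmem' : z ∈ Subgroup.zpowers (g ^ (n / r)) := by
    rw [Subgroup.mem_zpowers_iff]
    refine ⟨j, ?_⟩
    rw [hnr, ← zpow_natCast, ← zpow_mul, ← hj, hk]
  have hmem : (⟨z, hzmem'⟩ : Subgroup.zpowers (g ^ (n / r))) ∈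
      MulAction.stabilizer (Subgroup.zpowers (g ^ (n / r))) ω := hzfix
  rw [hω, Subgroup.mem_bot] at hmem
  have hz1 : z = 1 := congrArg Subtype.val hmem
  rw [hz1, orderOf_one] at hzord
  exact hp.one_lt.ne hzord

end Cfsg.Agent.S3511
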