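import Cfsg.Statements.S3515
import Cfsg.Agent.Lib.Helper58.Affine3

set_option autoImplicit false
open Cfsg

namespace Cfsg.Agent.S3515

open Cfsg.Agent.Lib.Helper58.Affine3

theorem four_points : ∀ x : Fin 2 → ZMod 2, x = 0 ∨ x = ![1, 0] ∨ x = ![0, 1] ∨ x = ![1, 1] := by
  decide

theorem eq_of_three (σ g : Equiv.Perm (Fin 2 → ZMod 2)) (h0 : σ 0 = g 0)
    (h1 : σ ![1, 0] = g ![1, 0]) (h2 : σ ![0, 1] = g ![0, 1]) : σ = g := by
  have hne0 : (![1, 1] : Fin 2 → ZMod 2) ≠ 0 := by decide
  have hne1 : (![1, 1] : Fin 2 → ZMod 2) ≠ ![1, 0] := by decide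
  have hne2 : (![1, 1] : Fin 2 → ZMod 2) ≠ ![0, 1] := by decide
  ext1 x
  rcases four_points x with rfl | rfl | rfl | rfl
  · exact h0
  · exact h1
  · exact h2
  · rcases four_points (g.symm (σ ![1, 1])) with h | h | h | h
    · exfalso
      rw [Equiv.symm_apply_eq, ← h0] at h
      exact hne0 (σ.injective h)
    · exfalso
      rw [Equiv.symm_apply_eq, ← h1] at h
      exact hne1 (σ.injective h)
    · exfalso
      rw [Equiv.symm_apply_eq, ← h2] at h
      exact hne2 (σ.injective h)
    · rw [Equiv.symm_apply_eq] at h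
      exact h

/-- Every primitive affine permutation group of degree p² is 3-closed. Let p be a prime and G a group of permutations of the plane V = F_p² consisting of affine maps x ↦ Ax + b, containing all translations, and acting primitively on V. Then any permutation σ of V that agrees on every triple of points with some element of G (σ preserves every G-orbit on ordered triples) already lies in G. -/
theorem result (p : ℕ) [Fact p.Prime] (G : Subgroup (Equiv.Perm (Fin 2 → ZMod p)))
    (haff : (G : Set (Equiv.Perm (Fin 2 → ZMod p))) ⊆ {τ : Equiv.Perm (Fin 2 → ZMod p) | ∃ (A : (Fin 2 → ZMod p) ≃ₗ[ZMod p] (Fin 2 → ZMod p)) (b : Fin 2 → ZMod p), ∀ x, τ x = A x + b})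
    (htrans : ∀ b : Fin 2 → ZMod p, ∃ g ∈ G, ∀ x, g x = x + b) (hprim : MulAction.IsPreprimitive G (Fin 2 → ZMod p))
    (σ : Equiv.Perm (Fin 2 → ZMod p)) (hσ : (∀ t : Fin 3 → (Fin 2 → ZMod p), ∃ g ∈ G, ∀ i, σ (t i) = g (t i))) : σ ∈ G := by
  obtain ⟨g, hg, hgt⟩ := hσ ![0, ![1, 0], ![0, 1]]
  have h0 : σ 0 = g 0 := hgt 0
  have h1 : σ ![1, 0] = g ![1, 0] := hgt 1
  have h2 : σ ![0, 1] = g ![0, 1] := hgt 2
  suffices hσg : σ = g by rw [hσg]; exact hg
  by_cases hp2 : p = 2
  · subst hp2
    exact eq_of_three σ g h0 h1 h2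
  · obtain ⟨A, b, hA⟩ := affine_of_triples hp2 σ (by
      intro t
      obtain ⟨g', hg', hgt'⟩ := hσ t
      obtain ⟨A', b', hA'⟩ := haff hg'
      exact ⟨A', b', fun i => by rw [hgt' i, hA']⟩)
    obtain ⟨A', b', hA'⟩ := haff hg
    have hb : b = b' := by
      have := h0
      rw [hA, hA', map_zero, map_zero, zero_add, zero_add] at this
      exact this
    subst hb
    have he1 : A ![1, 0] = A' ![1, 0] := by
      have := h1
      rw [hA, hA'] at this
      exact add_right_cancel this
    have he2 : A ![0, 1] = A' ![0, 1] := by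
      have := h2
      rw [hA, hA'] at this
      exact add_right_cancel this
    ext1 x
    have hx : x = x 0 • ![1, 0] + x 1 • ![0, 1] := by
      funext i
      fin_cases i <;> simp
    rw [hA, hA', hx, map_add, map_add, map_smul, map_smul, map_smul, map_smul, he1, he2]

end Cfsg.Agent.S3515
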