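import Cfsg.Statements.S3516
import Cfsg.Agent.Lib.Helper58.Affine3

set_option autoImplicit false
open Cfsg

namespace Cfsg.Agent.S3516

open Cfsg.Agent.Lib.Helper58.Affine3

/-- Let p be an odd prime, d ≥ 3, and G a group of affine permutations x ↦ Ax + b of V = F_p^d containing all translations and all maps x ↦ Ax with A of determinant 1. Then the 3-closure of G is the full affine group: a permutation σ of V agrees on every triple of points with some element of G if and only if σ is an affine map. -/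
theorem result (p : ℕ) [Fact p.Prime] (hp : p ≠ 2) (d : ℕ) (hd : 3 ≤ d) (G : Subgroup (Equiv.Perm (Fin d → ZMod p)))
    (haff : (G : Set (Equiv.Perm (Fin d → ZMod p))) ⊆ {τ : Equiv.Perm (Fin d → ZMod p) | ∃ (A : (Fin d → ZMod p) ≃ₗ[ZMod p] (Fin d → ZMod p)) (b : Fin d → ZMod p), ∀ x, τ x = A x + b})
    (htrans : ∀ b : Fin d → ZMod p, ∃ g ∈ G, ∀ x, g x = x + b)
    (hsl : ∀ A : (Fin d → ZMod p) ≃ₗ[ZMod p] (Fin d → ZMod p), LinearMap.det (A : (Fin d → ZMod p) →ₗ[ZMod p] (Fin d → ZMod p)) = 1 → ∃ g ∈ G, ∀ x, g x = A x)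
    (σ : Equiv.Perm (Fin d → ZMod p)) :
    (∀ t : Fin 3 → (Fin d → ZMod p), ∃ g ∈ G, ∀ i, σ (t i) = g (t i)) ↔ σ ∈ {τ : Equiv.Perm (Fin d → ZMod p) | ∃ (A : (Fin d → ZMod p) ≃ₗ[ZMod p] (Fin d → ZMod p)) (b : Fin d → ZMod p), ∀ x, τ x = A x + b} := by
  classical
  constructor
  · intro h
    apply affine_of_triples hp σ
    intro t
    obtain ⟨g, hg, hgt⟩ := h t
    obtain ⟨A, b, hA⟩ := haff hg
    exact ⟨A, b, fun i => by rw [hgt i, hA]⟩
  · rintro ⟨A, b, hA⟩ t
    set W : Submodule (ZMod p) (Fin d → ZMod p) :=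
      Submodule.span (ZMod p) (({t 1 - t 0, t 2 - t 0} : Finset (Fin d → ZMod p)) :
        Set (Fin d → ZMod p)) with hW
    have hWlt : W < ⊤ := by
      rw [lt_top_iff_ne_top]
      intro htop
      have h1 : Module.finrank (ZMod p) W ≤ 2 := by
        refine le_trans (finrank_span_finset_le_card _) ?_
        exact Finset.card_le_two
      rw [htop, finrank_top, Module.finrank_fin_fun] at h1
      omega
    obtain ⟨φ, hφ, hWφ⟩ := W.exists_le_ker_of_lt_top hWlt
    obtain ⟨e0, he0⟩ : ∃ e0, φ e0 ≠ 0 := by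
      by_contra hcon
      push Not at hcon
      exact hφ (LinearMap.ext hcon)
    have hdetA : LinearMap.det (A : (Fin d → ZMod p) →ₗ[ZMod p] (Fin d → ZMod p)) ≠ 0 :=
      (A.isUnit_det').ne_zero
    set lam : ZMod p :=
      (LinearMap.det (A : (Fin d → ZMod p) →ₗ[ZMod p] (Fin d → ZMod p)))⁻¹ with hlam
    let D : (Fin d → ZMod p) →ₗ[ZMod p] (Fin d → ZMod p) :=
      LinearMap.transvection ((lam - 1) • φ) ((φ e0)⁻¹ • e0)
    have hdetD : LinearMap.det D = lam := by
      rw [LinearMap.transvection.det]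
      simp only [LinearMap.smul_apply, map_smul, smul_eq_mul]
      field_simp
      ring
    have hDW : ∀ w ∈ W, D w = w := by
      intro w hw
      have hw0 : φ w = 0 := hWφ hw
      simp [D, LinearMap.transvection.apply, hw0]
    let Bl : (Fin d → ZMod p) →ₗ[ZMod p] (Fin d → ZMod p) :=
      (A : (Fin d → ZMod p) →ₗ[ZMod p] (Fin d → ZMod p)) ∘ₗ D
    have hdetB : LinearMap.det Bl = 1 := by
      rw [LinearMap.det_comp, hdetD]
      exact mul_inv_cancel₀ hdetA
    let B : (Fin d → ZMod p) ≃ₗ[ZMod p] (Fin d → ZMod p) :=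
      LinearMap.equivOfDetNeZero Bl (by rw [hdetB]; exact one_ne_zero)
    have hBcoe : (B : (Fin d → ZMod p) →ₗ[ZMod p] (Fin d → ZMod p)) = Bl :=
      LinearEquiv.coe_ofIsUnitDet _
    have hBapp : ∀ x, B x = A (D x) := by
      intro x
      have := congrArg (fun f : (Fin d → ZMod p) →ₗ[ZMod p] (Fin d → ZMod p) => f x) hBcoe
      simpa [Bl] using this
    obtain ⟨gB, hgB, hgBx⟩ := hsl B (by rw [hBcoe]; exact hdetB)
    obtain ⟨gT, hgT, hgTx⟩ := htrans (A (t 0) + b - B (t 0))
    refine ⟨gT * gB, G.mul_mem hgT hgB, fun i => ?_⟩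
    rw [hA, Equiv.Perm.mul_apply, hgTx, hgBx]
    have hmem : t i - t 0 ∈ W := by
      fin_cases i
      · simp
      · apply Submodule.subset_span
        simp
      · apply Submodule.subset_span
        simp
    have key : B (t i - t 0) = A (t i - t 0) := by
      rw [hBapp, hDW _ hmem]
    rw [map_sub, map_sub] at key
    have h3 : B (t i) = A (t i) - A (t 0) + B (t 0) := by rw [← key]; abel
    rw [h3]; abel

end Cfsg.Agent.S3516
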