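import Cfsg.Statements.S3517
import Mathlib

set_option autoImplicit false
open Cfsg

namespace Cfsg.Agent.S3517

/-- Two linearly independent families with the same index type are related by a linear
automorphism. -/
theorem exists_equiv_of_li {K V ι : Type*} [Field K] [AddCommGroup V] [Module K V]
    [FiniteDimensional K V] (u w : ι → V) (hu : LinearIndependent K u)
    (hw : LinearIndependent K w) : ∃ A : V ≃ₗ[K] V, ∀ i, A (u i) = w i := by
  obtain ⟨g, hg⟩ := Submodule.exists_linearEquiv_restrict_eq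
    ((Module.Basis.span hu).equiv (Module.Basis.span hw) (Equiv.refl ι))
  refine ⟨g, fun i => ?_⟩
  have h1 := hg (Module.Basis.span hu i)
  rw [Module.Basis.equiv_apply] at h1
  simp only [Equiv.refl_apply, Module.Basis.span_apply] at h1
  exact h1.symm

theorem exists_equiv_single {K V : Type*} [Field K] [AddCommGroup V] [Module K V]
    [FiniteDimensional K V] (u w : V) (hu : u ≠ 0) (hw : w ≠ 0) :
    ∃ A : V ≃ₗ[K] V, A u = w := by
  obtain ⟨A, hA⟩ := exists_equiv_of_li (K := K) (fun _ : Unit => u) (fun _ : Unit => w)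
    (LinearIndependent.of_subsingleton () hu) (LinearIndependent.of_subsingleton () hw)
  exact ⟨A, hA ()⟩

theorem pair_li {d : ℕ} (u1 u2 : Fin d → ZMod 2) (h1 : u1 ≠ 0) (h2 : u2 ≠ 0) (h12 : u1 ≠ u2) :
    LinearIndependent (ZMod 2) ![u1, u2] := by
  rw [LinearIndependent.pair_iff]
  intro s t hst
  have key : ∀ a b : ZMod 2, a + b = 0 → a = b := by decide
  have h01 : ∀ a : ZMod 2, a = 0 ∨ a = 1 := by decide
  rcases h01 s with rfl | rfl <;> rcases h01 t with rfl | rfl
  · exact ⟨rfl, rfl⟩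
  · exfalso; apply h2; simpa using hst
  · exfalso; apply h1; simpa using hst
  · exfalso; apply h12
    funext i
    have := congrFun hst i
    simp only [one_smul, Pi.add_apply, Pi.zero_apply] at this
    exact key _ _ this

theorem exists_pair {d : ℕ} (u1 u2 w1 w2 : Fin d → ZMod 2) (h1 : u1 = 0 ↔ w1 = 0)
    (h2 : u2 = 0 ↔ w2 = 0) (h12 : u1 = u2 ↔ w1 = w2) :
    ∃ A : (Fin d → ZMod 2) ≃ₗ[ZMod 2] (Fin d → ZMod 2), A u1 = w1 ∧ A u2 = w2 := by
  by_cases hu1 : u1 = 0
  · have hw1 := h1.mp hu1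
    by_cases hu2 : u2 = 0
    · have hw2 := h2.mp hu2
      exact ⟨LinearEquiv.refl _ _, by simp [hu1, hw1], by simp [hu2, hw2]⟩
    · have hw2 : w2 ≠ 0 := fun h => hu2 (h2.mpr h)
      obtain ⟨A, hA⟩ := exists_equiv_single (K := ZMod 2) u2 w2 hu2 hw2
      exact ⟨A, by simp [hu1, hw1], hA⟩
  · have hw1 : w1 ≠ 0 := fun h => hu1 (h1.mpr h)
    by_cases hu2 : u2 = 0
    · have hw2 := h2.mp hu2
      obtain ⟨A, hA⟩ := exists_equiv_single (K := ZMod 2) u1 w1 hu1 hw1
      exact ⟨A, hA, by simp [hu2, hw2]⟩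
    · have hw2 : w2 ≠ 0 := fun h => hu2 (h2.mpr h)
      by_cases hu12 : u1 = u2
      · have hw12 := h12.mp hu12
        obtain ⟨A, hA⟩ := exists_equiv_single (K := ZMod 2) u1 w1 hu1 hw1
        exact ⟨A, hA, by rw [← hu12, ← hw12]; exact hA⟩
      · have hw12 : w1 ≠ w2 := fun h => hu12 (h12.mpr h)
        obtain ⟨A, hA⟩ := exists_equiv_of_li (K := ZMod 2) ![u1, u2] ![w1, w2]
          (pair_li u1 u2 hu1 hu2 hu12) (pair_li w1 w2 hw1 hw2 hw12)
        exact ⟨A, by simpa using hA 0, by simpa using hA 1⟩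

/-- For d ≥ 3, the 3-closure of the affine group AGL_d(2) acting on F_2^d is the full symmetric group: every permutation of F_2^d agrees on every ordered triple of points with some affine map (AGL_d(2) is 3-transitive). -/
theorem result (d : ℕ) (hd : 3 ≤ d) (σ : Equiv.Perm (Fin d → ZMod 2)) (t : Fin 3 → (Fin d → ZMod 2)) :
    ∃ (A : (Fin d → ZMod 2) ≃ₗ[ZMod 2] (Fin d → ZMod 2)) (b : Fin d → ZMod 2), ∀ i, σ (t i) = A (t i) + b := by
  obtain ⟨A, hA1, hA2⟩ := exists_pair (t 1 - t 0) (t 2 - t 0) (σ (t 1) - σ (t 0))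
    (σ (t 2) - σ (t 0))
    (by rw [sub_eq_zero, sub_eq_zero, σ.injective.eq_iff])
    (by rw [sub_eq_zero, sub_eq_zero, σ.injective.eq_iff])
    (by rw [sub_left_inj, sub_left_inj, σ.injective.eq_iff])
  refine ⟨A, σ (t 0) - A (t 0), fun i => ?_⟩
  rw [map_sub] at hA1 hA2
  fin_cases i
  · simp
  · have h : σ (t 1) = A (t 1) - A (t 0) + σ (t 0) := by rw [hA1]; abel
    simp only [Fin.mk_one]
    rw [h]; abel
  · have h : σ (t 2) = A (t 2) - A (t 0) + σ (t 0) := by rw [hA2]; abel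
    show σ (t 2) = A (t 2) + (σ (t 0) - A (t 0))
    rw [h]; abel

end Cfsg.Agent.S3517
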