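import Cfsg.Statements.S3518
import Cfsg.Agent.S3524

set_option autoImplicit false
open Cfsg

namespace Cfsg.Agent.S3518

open Polynomial

variable (p : ℕ) [Fact p.Prime]

/-- Power sums over `ZMod p`. -/
theorem sum_pow_zmod (i : ℕ) :
    ∑ x : ZMod p, x ^ i = if i ≠ 0 ∧ (p - 1) ∣ i then -1 else 0 := by
  classical
  by_cases hi : i = 0
  · subst hi
    simp
  · have hcard : Fintype.card (ZMod p) = p := ZMod.card p
    let φ : (ZMod p)ˣ ↪ ZMod p := ⟨fun x ↦ x, Units.val_injective⟩
    have hmap : Finset.univ.map φ = Finset.univ \ {0} := by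
      ext x
      simpa only [Finset.mem_map, Finset.mem_univ, Function.Embedding.coeFn_mk, true_and,
        Finset.mem_sdiff, Finset.mem_singleton, φ] using! isUnit_iff_ne_zero
    have h1 : ∑ x : ZMod p, x ^ i = ∑ x ∈ Finset.univ \ {(0 : ZMod p)}, x ^ i := by
      rw [← Finset.sum_sdiff ({0} : Finset (ZMod p)).subset_univ, Finset.sum_singleton,
        zero_pow hi, add_zero]
    have h2 : ∑ x ∈ Finset.univ \ {(0 : ZMod p)}, x ^ i = ∑ x : (ZMod p)ˣ, ((x : ZMod p) ^ i) := by
      rw [← hmap, Finset.sum_map]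
      rfl
    rw [h1, h2]
    have h3 := FiniteField.sum_pow_units (ZMod p) i
    rw [hcard] at h3
    simp only [hi, ne_eq, not_false_eq_true, true_and]
    exact_mod_cast h3

/-- Sum of the values of a polynomial of degree `< 2 (p - 1)`. -/
theorem sum_eval (P : (ZMod p)[X]) (hP : P.natDegree < 2 * (p - 1)) :
    ∑ x : ZMod p, P.eval x = - P.coeff (p - 1) := by
  classical
  have hp2 : 2 ≤ p := (Fact.out : p.Prime).two_le
  have h1 : ∀ x : ZMod p, P.eval x = ∑ d ∈ Finset.range (P.natDegree + 1), P.coeff d * x ^ d :=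
    fun x => Polynomial.eval_eq_sum_range x
  simp_rw [h1]
  rw [Finset.sum_comm]
  simp_rw [← Finset.mul_sum, sum_pow_zmod]
  have h2 : ∀ d ∈ Finset.range (P.natDegree + 1),
      P.coeff d * (if d ≠ 0 ∧ (p - 1) ∣ d then (-1 : ZMod p) else 0) =
        if d = p - 1 then - P.coeff (p - 1) else 0 := by
    intro d hd
    rw [Finset.mem_range] at hd
    by_cases hdp : d = p - 1
    · subst hdp
      rw [if_pos ⟨by omega, dvd_rfl⟩, if_pos rfl]; ring
    · rw [if_neg hdp, if_neg, mul_zero]
      rintro ⟨hd0, k, hk⟩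
      have : k = 1 := by
        rcases k with _ | _ | k
        · simp at hk; exact absurd hk hd0
        · rfl
        · exfalso
          have : 2 * (p - 1) ≤ (p - 1) * (k + 1 + 1) := by nlinarith
          omega
      subst this
      omega
  rw [Finset.sum_congr rfl h2, Finset.sum_ite_eq']
  split_ifs with h
  · rfl
  · rw [Finset.mem_range] at h
    rw [Polynomial.coeff_eq_zero_of_natDegree_lt (by omega), neg_zero]

section Core

variable {p}
variable (f : ZMod p → ZMod p) (m : ℕ) (hm1 : 1 ≤ m) (hm : 2 * m ≤ p - 1)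
  (hf : ∀ x y, (f x - f y) ^ m = (x - y) ^ m)

include hm1 hf in
theorem f_injective : Function.Injective f := by
  intro x y hxy
  have h := hf x y
  rw [hxy, sub_self, zero_pow (by omega)] at h
  exact sub_eq_zero.mp ((pow_eq_zero_iff (by omega)).mp h.symm)

include hm1 hm hf in
theorem step1 (i : ℕ) (hi : i + m ≤ p - 1) (z : ZMod p) :
    ∑ x : ZMod p, x ^ i * (f x - z) ^ m = if i + m = p - 1 then -1 else 0 := by
  have hp2 : 2 ≤ p := (Fact.out : p.Prime).two_le
  have hinj := f_injective f m hm1 hf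
  have hsurj : Function.Surjective f := Finite.surjective_of_injective hinj
  obtain ⟨y, rfl⟩ := hsurj z
  simp_rw [hf]
  have h1 : ∀ x : ZMod p, x ^ i * (x - y) ^ m =
      (X ^ i * (X - C y) ^ m : (ZMod p)[X]).eval x := by
    intro x; simp
  simp_rw [h1]
  have hmonic : (X ^ i * (X - C y) ^ m : (ZMod p)[X]).Monic :=
    (monic_X_pow i).mul ((monic_X_sub_C y).pow m)
  have hdeg : (X ^ i * (X - C y) ^ m : (ZMod p)[X]).natDegree = i + m := by
    rw [Polynomial.Monic.natDegree_mul (monic_X_pow i) ((monic_X_sub_C y).pow m),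
      natDegree_X_pow, Polynomial.Monic.natDegree_pow (monic_X_sub_C y), natDegree_X_sub_C,
      mul_one]
  rw [sum_eval p _ (by rw [hdeg]; omega)]
  split_ifs with h
  · rw [← h, ← hdeg, Polynomial.coeff_natDegree, hmonic.leadingCoeff]
  · rw [Polynomial.coeff_eq_zero_of_natDegree_lt (by rw [hdeg]; omega), neg_zero]

include hm in
theorem step2 (a j : ℕ) (hj : j < m) (ha : a + m = p - 1 + j) (c : ZMod p) :
    ∑ z : ZMod p, z ^ a * (c - z) ^ m =
      -((-1) ^ m * ((-c) ^ j * (m.choose (m - j) : ZMod p))) := by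
  have hp2 : 2 ≤ p := (Fact.out : p.Prime).two_le
  have h1 : ∀ z : ZMod p, z ^ a * (c - z) ^ m =
      (C ((-1 : ZMod p) ^ m) * (X ^ a * (X + C (-c)) ^ m) : (ZMod p)[X]).eval z := by
    intro z
    have h2 : (c - z) ^ m = (-1) ^ m * (z + -c) ^ m := by
      rw [← mul_pow]; congr 1; ring
    rw [h2]; simp; ring
  simp_rw [h1]
  have hdeg : (X ^ a * (X + C (-c)) ^ m : (ZMod p)[X]).natDegree = a + m := by
    rw [Polynomial.Monic.natDegree_mul (monic_X_pow a) ((monic_X_add_C (-c)).pow m),
      natDegree_X_pow, Polynomial.Monic.natDegree_pow (monic_X_add_C (-c)), natDegree_X_add_C,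
      mul_one]
  have hdeg' : (C ((-1 : ZMod p) ^ m) * (X ^ a * (X + C (-c)) ^ m) : (ZMod p)[X]).natDegree
      < 2 * (p - 1) := by
    refine lt_of_le_of_lt (natDegree_C_mul_le _ _) ?_
    rw [hdeg]; omega
  rw [sum_eval p _ hdeg', coeff_C_mul, coeff_X_pow_mul', if_pos (by omega),
    coeff_X_add_C_pow]
  have e1 : p - 1 - a = m - j := by omega
  have e2 : m - (m - j) = j := by omega
  rw [e1, e2]

include hm1 hm hf in
theorem claimA (i j : ℕ) (hi : i + m ≤ p - 1) (hj : j < m) :
    ∑ x : ZMod p, x ^ i * f x ^ j = 0 := by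
  have hp2 : 2 ≤ p := (Fact.out : p.Prime).two_le
  set a := p - 1 - m + j with ha
  have ha' : a + m = p - 1 + j := by omega
  have haq : a < p - 1 := by omega
  have h1 : ∑ z : ZMod p, z ^ a * ∑ x : ZMod p, x ^ i * (f x - z) ^ m = 0 := by
    simp_rw [step1 f m hm1 hm hf i hi]
    rw [← Finset.sum_mul, sum_pow_zmod, if_neg, zero_mul]
    rintro ⟨h0, hd⟩
    exact absurd (Nat.le_of_dvd (Nat.pos_of_ne_zero h0) hd) (by omega)
  have h2 : ∑ z : ZMod p, z ^ a * ∑ x : ZMod p, x ^ i * (f x - z) ^ m =
      ∑ x : ZMod p, x ^ i * ∑ z : ZMod p, z ^ a * (f x - z) ^ m := by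
    simp_rw [Finset.mul_sum]
    rw [Finset.sum_comm]
    refine Finset.sum_congr rfl fun x _ => Finset.sum_congr rfl fun z _ => by ring
  rw [h2] at h1
  simp_rw [step2 m hm a j hj ha'] at h1
  have h3 : ∀ x : ZMod p, x ^ i * -((-1) ^ m * ((-(f x)) ^ j * (m.choose (m - j) : ZMod p))) =
      (-((-1) ^ m * (-1) ^ j * (m.choose (m - j) : ZMod p))) * (x ^ i * f x ^ j) := by
    intro x; rw [neg_pow (f x)]; ring
  simp_rw [h3, ← Finset.mul_sum] at h1
  rcases mul_eq_zero.mp h1 with h | h
  · exfalso
    have hc : (m.choose (m - j) : ZMod p) ≠ 0 := by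
      rw [Ne, ZMod.natCast_eq_zero_iff]
      intro hdvd
      have hle : m - j ≤ m := Nat.sub_le _ _
      have h5 : m.choose (m - j) ∣ m.factorial := by
        rw [← Nat.choose_mul_factorial_mul_factorial hle, mul_assoc]; exact dvd_mul_right _ _
      have := (Nat.Prime.dvd_factorial Fact.out).mp (dvd_trans hdvd h5)
      omega
    rw [neg_eq_zero] at h
    rcases mul_eq_zero.mp h with h | h
    · have h6 : ((-1 : ZMod p) ^ m * (-1) ^ j) ^ 2 = 1 := by
        rw [mul_pow, ← pow_mul, ← pow_mul, mul_comm m 2, mul_comm j 2, pow_mul, pow_mul]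
        simp
      rw [h] at h6
      simp at h6
    · exact hc h
  · exact h

include hm1 hm hf in
/-- McConnel's theorem over a prime field. -/
theorem affine : ∃ a b : ZMod p, ∀ x, f x = a * x + b := by
  have hp2 : 2 ≤ p := (Fact.out : p.Prime).two_le
  rcases Nat.lt_or_ge m 2 with hm2 | hm2
  · have hm' : m = 1 := by omega
    subst hm'
    refine ⟨1, f 0, fun x => ?_⟩
    have h := hf x 0
    simp only [pow_one, sub_zero] at h
    rw [one_mul]; linear_combination h
  · set F : (ZMod p)[X] := Lagrange.interpolate Finset.univ id f with hF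
    have hFeval : ∀ x, F.eval x = f x := fun x =>
      Lagrange.eval_interpolate_at_node f (Set.injOn_id _) (Finset.mem_univ x)
    have hFdeg : F.degree < p := by
      have := Lagrange.degree_interpolate_lt (s := Finset.univ) (v := id) f (Set.injOn_id _)
      rwa [Finset.card_univ, ZMod.card] at this
    have hFnat : F.natDegree ≤ p - 1 := by
      have : F.natDegree < p := by
        by_cases hF0 : F = 0
        · rw [hF0, natDegree_zero]; omega
        · exact (Polynomial.natDegree_lt_iff_degree_lt hF0).mpr hFdeg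
      omega
    have hcoeff : ∀ d, m ≤ d → F.coeff d = 0 := by
      intro d hd
      by_cases hdq : d ≤ p - 1
      · have hA := claimA f m hm1 hm hf (p - 1 - d) 1 (by omega) (by omega)
        have h1 : ∀ x : ZMod p, x ^ (p - 1 - d) * f x ^ 1 = (X ^ (p - 1 - d) * F).eval x := by
          intro x; simp [hFeval]
        simp_rw [h1] at hA
        rw [sum_eval p _ (lt_of_le_of_lt natDegree_mul_le (by rw [natDegree_X_pow]; omega))] at hA
        rw [neg_eq_zero, coeff_X_pow_mul', if_pos (by omega)] at hA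
        have : p - 1 - (p - 1 - d) = d := by omega
        rwa [this] at hA
      · exact coeff_eq_zero_of_natDegree_lt (by omega)
    have he : F.natDegree ≤ m - 1 := by
      rw [Polynomial.natDegree_le_iff_coeff_eq_zero]
      intro N hN; exact hcoeff N (by omega)
    have he1 : F.natDegree ≤ 1 := by
      by_contra hcon
      push Not at hcon
      have hF0 : F ≠ 0 := by intro h; rw [h, natDegree_zero] at hcon; omega
      obtain ⟨e, he'⟩ : ∃ e, e = F.natDegree := ⟨_, rfl⟩
      rw [← he'] at hcon he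
      obtain ⟨j, hj⟩ : ∃ j, j = (m + e - 1) / e := ⟨_, rfl⟩
      have hje1 : m ≤ e * j := by
        have h := Nat.lt_mul_div_succ (m + e - 1) (show 0 < e by omega)
        rw [← hj, Nat.mul_succ] at h
        omega
      have hje2 : e * j ≤ m + e - 1 := by rw [hj]; exact Nat.mul_div_le (m + e - 1) e
      have hjm : j < m := by
        by_contra h; push Not at h
        have h5 : e * m ≤ e * j := Nat.mul_le_mul_left e h
        have h7 : (e : ℤ) * m ≥ m + e := by
          nlinarith [show (2 : ℤ) ≤ e by exact_mod_cast hcon, show (2 : ℤ) ≤ m by exact_mod_cast hm2]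
        have h8 : e * m ≥ m + e := by exact_mod_cast h7
        omega
      have hA := claimA f m hm1 hm hf (p - 1 - e * j) j (by omega) hjm
      have h1 : ∀ x : ZMod p, x ^ (p - 1 - e * j) * f x ^ j =
          (X ^ (p - 1 - e * j) * F ^ j).eval x := by
        intro x; simp [hFeval]
      simp_rw [h1] at hA
      have hdeg : (X ^ (p - 1 - e * j) * F ^ j).natDegree = p - 1 := by
        rw [natDegree_mul (by simp) (pow_ne_zero _ hF0), natDegree_X_pow, natDegree_pow, ← he',
          mul_comm j e]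
        omega
      rw [sum_eval p _ (by rw [hdeg]; omega), neg_eq_zero] at hA
      have hlc : (X ^ (p - 1 - e * j) * F ^ j).coeff (p - 1) = F.leadingCoeff ^ j := by
        have h9 := coeff_natDegree (p := X ^ (p - 1 - e * j) * F ^ j)
        rw [hdeg] at h9
        rw [h9, leadingCoeff_mul, leadingCoeff_X_pow, one_mul, leadingCoeff_pow]
      rw [hlc] at hA
      exact hF0 (leadingCoeff_eq_zero.mp (eq_zero_of_pow_eq_zero hA))
    refine ⟨F.coeff 1, F.coeff 0, fun x => ?_⟩
    rw [← hFeval x]
    conv_lhs => rw [Polynomial.eq_X_add_C_of_natDegree_le_one he1]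
    simp

end Core

/-- The subgroup of multipliers of a group of permutations of `ZMod p`. -/
def mult (G : Subgroup (Equiv.Perm (ZMod p))) : Subgroup (ZMod p)ˣ where
  carrier := {a | ∃ g ∈ G, ∀ x, g x = (a : ZMod p) * x}
  one_mem' := ⟨1, G.one_mem, by simp⟩
  mul_mem' := by
    rintro a b ⟨g, hg, hga⟩ ⟨h, hh, hhb⟩
    refine ⟨g * h, G.mul_mem hg hh, fun x => ?_⟩
    rw [Equiv.Perm.mul_apply, hhb, hga, Units.val_mul, mul_assoc]
  inv_mem' := by
    rintro a ⟨g, hg, hga⟩
    refine ⟨g⁻¹, G.inv_mem hg, fun x => ?_⟩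
    apply g.injective
    have h1 : g (g⁻¹ x) = x := by simp
    rw [h1, hga, ← mul_assoc, Units.val_inv_eq_inv_val, Units.mul_inv', one_mul]

/-- Closures of subgroups of the one-dimensional affine group. Let p be a prime and G a group of permutations of F_p lying in the affine group AGL₁(p) = {x ↦ ax + b, a ≠ 0} and containing all translations. (1) If G is a proper subgroup of AGL₁(p), then G is 2-closed: a permutation of F_p agreeing on every ordered pair of points with some element of G lies in G. (2) Every permutation of F_p agrees on every ordered pair with some element of AGL₁(p) (the 2-closure of AGL₁(p) is the symmetric group). (3) AGL₁(p) is 3-closed: a permutation agreeing on every ordered triple with some affine map is affine. -/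
theorem result (p : ℕ) [Fact p.Prime] (G : Subgroup (Equiv.Perm (ZMod p))) (hG : G ≤ Cfsg.affineGroup (ZMod p))
    (htrans : ∀ b : ZMod p, ∃ g ∈ G, ∀ x, g x = x + b) :
    (G ≠ Cfsg.affineGroup (ZMod p) → ∀ σ : Equiv.Perm (ZMod p), (∀ t : Fin 2 → ZMod p, ∃ g ∈ G, ∀ i, σ (t i) = g (t i)) → σ ∈ G) ∧
    (∀ σ : Equiv.Perm (ZMod p), (∀ t : Fin 2 → ZMod p, ∃ g ∈ Cfsg.affineGroup (ZMod p), ∀ i, σ (t i) = g (t i))) ∧
    (∀ σ : Equiv.Perm (ZMod p), (∀ t : Fin 3 → ZMod p, ∃ g ∈ Cfsg.affineGroup (ZMod p), ∀ i, σ (t i) = g (t i)) → σ ∈ Cfsg.affineGroup (ZMod p)) := by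
  classical
  have hp2 : 2 ≤ p := (Fact.out : p.Prime).two_le
  refine ⟨?_, ?_, ?_⟩
  · intro hne σ hσ
    -- structure of G
    have hstruct : ∀ g ∈ G, ∃ a ∈ mult p G, ∃ b : ZMod p, ∀ x, g x = (a : ZMod p) * x + b := by
      intro g hg
      obtain ⟨a, b, hab⟩ := hG hg
      obtain ⟨τ, hτ, hτb⟩ := htrans (-b)
      refine ⟨a, ⟨τ * g, G.mul_mem hτ hg, fun x => ?_⟩, b, hab⟩
      rw [Equiv.Perm.mul_apply, hτb, hab]; ring
    have hHtop : mult p G ≠ ⊤ := by
      intro htop
      apply hne
      apply le_antisymm hG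
      rintro σ' ⟨a, b, hab⟩
      have ha : a ∈ mult p G := by rw [htop]; trivial
      obtain ⟨g₀, hg₀, hg₀a⟩ := ha
      obtain ⟨τ, hτ, hτb⟩ := htrans b
      have : σ' = τ * g₀ := by
        ext x
        rw [Equiv.Perm.mul_apply, hτb, hg₀a, hab]
      rw [this]; exact G.mul_mem hτ hg₀
    set m := Nat.card (mult p G) with hm
    have hm1 : 1 ≤ m := Nat.card_pos
    have hcardU : Nat.card (ZMod p)ˣ = p - 1 := by
      rw [Nat.card_eq_fintype_card, ZMod.card_units]
    have hmdvd : m ∣ p - 1 := by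
      rw [← hcardU]; exact Subgroup.card_subgroup_dvd_card _
    have hmne : m ≠ p - 1 := by
      intro h
      rw [← hcardU] at h
      exact hHtop (Subgroup.eq_top_of_card_eq _ h)
    have hm2 : 2 * m ≤ p - 1 := by
      obtain ⟨c, hc⟩ := hmdvd
      rcases c with _ | _ | c
      · omega
      · omega
      · rw [hc]; nlinarith
    have hpow : ∀ a ∈ mult p G, ((a : (ZMod p)ˣ) : ZMod p) ^ m = 1 := by
      intro a ha
      have h1 : (⟨a, ha⟩ : mult p G) ^ m = 1 := pow_card_eq_one'
      have h2 : a ^ m = 1 := by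
        have := congrArg Subtype.val h1
        simpa using this
      have h3 := congrArg Units.val h2
      simpa using h3
    have hf : ∀ x y : ZMod p, (σ x - σ y) ^ m = (x - y) ^ m := by
      intro x y
      obtain ⟨g, hg, hgt⟩ := hσ ![x, y]
      obtain ⟨a, ha, b, hab⟩ := hstruct g hg
      have h0 := hgt 0
      have h1 := hgt 1
      simp only [Matrix.cons_val_zero, Matrix.cons_val_one] at h0 h1
      rw [h0, h1, hab, hab]
      have : (a : ZMod p) * x + b - ((a : ZMod p) * y + b) = (a : ZMod p) * (x - y) := by ring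
      rw [this, mul_pow, hpow a ha, one_mul]
    obtain ⟨a, b, hab⟩ := affine (fun x => σ x) m hm1 hm2 hf
    obtain ⟨g, hg, hgt⟩ := hσ ![0, 1]
    obtain ⟨a', ha', b', hab'⟩ := hstruct g hg
    have h0 := hgt 0
    have h1 := hgt 1
    simp only [Matrix.cons_val_zero, Matrix.cons_val_one] at h0 h1
    rw [hab, hab'] at h0 h1
    have hb : b = b' := by simpa using h0
    have ha : a = (a' : ZMod p) := by
      rw [hb] at h1
      simpa using h1
    have : σ = g := by
      ext x
      rw [hab, hab', ha, hb]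
    rw [this]; exact hg
  · intro σ t
    by_cases h : t 0 = t 1
    · refine ⟨Equiv.addRight (σ (t 0) - t 0), ⟨1, σ (t 0) - t 0, fun x => by simp⟩, ?_⟩
      intro i
      fin_cases i
      · simp
      · simp [← h]
    · have hne : σ (t 0) - σ (t 1) ≠ 0 := sub_ne_zero.mpr (fun h' => h (σ.injective h'))
      have hne' : t 0 - t 1 ≠ 0 := sub_ne_zero.mpr h
      obtain ⟨a, ha⟩ : ∃ a : ZMod p, a = (σ (t 0) - σ (t 1)) / (t 0 - t 1) := ⟨_, rfl⟩
      have ha0 : a ≠ 0 := by rw [ha]; exact div_ne_zero hne hne'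
      have ha1 : a * (t 0 - t 1) = σ (t 0) - σ (t 1) := by
        rw [ha]; field_simp
      obtain ⟨b, hb⟩ : ∃ b : ZMod p, b = σ (t 0) - a * t 0 := ⟨_, rfl⟩
      refine ⟨(Units.mulLeft (Units.mk0 a ha0)).trans (Equiv.addRight b),
        ⟨Units.mk0 a ha0, b, fun x => by simp⟩, ?_⟩
      intro i
      fin_cases i
      · simp [hb]
      · simp only [Fin.mk_one, Equiv.trans_apply, Units.mulLeft_apply, Units.val_mk0,
          Equiv.coe_addRight, hb]
        linear_combination ha1
  · intro σ hσ
    refine Cfsg.Agent.S3524.result (Cfsg.affineGroup (ZMod p)) 2 ![0, 1] ?_ σ hσ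
    rintro g ⟨a, b, hg⟩ hfix
    have h0 := hfix 0
    have h1 := hfix 1
    simp only [Matrix.cons_val_zero, Matrix.cons_val_one] at h0 h1
    rw [hg] at h0 h1
    have hb : b = 0 := by simpa using h0
    have ha : (a : ZMod p) = 1 := by
      rw [hb] at h1
      simpa using h1
    ext x
    rw [hg, ha, hb]; simp

end Cfsg.Agent.S3518
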