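import Cfsg.Statements.S3532
import Cfsg.Agent.Lib.Helper59.PSL2Spec

set_option autoImplicit false
open Cfsg

namespace Cfsg.Agent.S3532

open Cfsg.Agent.Lib.Helper59.PSL2Spec

/-- Let q ≥ 4 be a prime power and L = PSL(2,q). There is a finite solvable group with the same set of element orders as L × L (so L × L is not determined by its spectrum). -/
theorem result {F : Type*} [Field F] [Fintype F] (hF : 4 ≤ Fintype.card F) :
    ∃ (H : Type) (_ : Group H) (_ : Finite H), Group.IsSolvable H ∧
      Set.range (orderOf : H → ℕ) = Set.range (orderOf : Matrix.ProjectiveSpecialLinearGroup (Fin 2) F × Matrix.ProjectiveSpecialLinearGroup (Fin 2) F → ℕ) := by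
  obtain ⟨p, hp⟩ := CharP.exists F
  have hprime : Fact p.Prime := ⟨CharP.char_is_prime F p⟩
  have hE : CharP (FiniteField.Extension F p 2) p :=
    charP_of_injective_algebraMap (algebraMap F (FiniteField.Extension F p 2)).injective p
  have hq : 1 < Fintype.card F := Fintype.one_lt_card
  have hcard : Nat.card (FiniteField.Extension F p 2) - 1
      = (Fintype.card F + 1) * (Fintype.card F - 1) := by
    rw [FiniteField.natCard_extension, Nat.card_eq_fintype_card]
    obtain ⟨k, hk⟩ : ∃ k, Fintype.card F = k + 1 := ⟨Fintype.card F - 1, by omega⟩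
    have h0 : (k + 1) ^ 2 = (k + 1 + 1) * k + 1 := by ring
    rw [hk, Nat.add_sub_cancel, h0, Nat.add_sub_cancel]
  obtain ⟨H₁, g₁, f₁, s₁, e₁⟩ := exists_solvable_spec (FiniteField.Extension F p 2) p
    ((Fintype.card F - 1) / Nat.gcd 2 (Fintype.card F - 1))
    (by rw [hcard]; exact (Nat.div_dvd_of_dvd (Nat.gcd_dvd_right _ _)).trans (dvd_mul_left _ _))
  obtain ⟨H₂, g₂, f₂, s₂, e₂⟩ := exists_solvable_spec (FiniteField.Extension F p 2) p
    ((Fintype.card F + 1) / Nat.gcd 2 (Fintype.card F + 1))
    (by rw [hcard]; exact (Nat.div_dvd_of_dvd (Nat.gcd_dvd_right _ _)).trans (dvd_mul_right _ _))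
  refine ⟨H₁ × H₂, inferInstance, inferInstance, inferInstance, ?_⟩
  rw [range_orderOf_prod, range_orderOf_prod, e₁, e₂, range_orderOf p]
  exact lcm_sets_eq _ _ _

end Cfsg.Agent.S3532
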