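import Cfsg.Statements.S3547
import Cfsg.Agent.Lib.Helper59.Derange

set_option autoImplicit false
open Cfsg

namespace Cfsg.Agent.S3547

open MulAction Cfsg.Agent.Lib.Helper59.Derange

/-- Let G act faithfully and transitively on a finite set Ω, let D be the subgroup generated by the derangements, and let r_G and r_D be the numbers of orbits of G and of D on ordered pairs of points (the permutation ranks). Then r_D − 1 = (r_G − 1)·[G : D]. -/
theorem result {G Ω : Type*} [Group G] [Finite G] [MulAction G Ω] [FaithfulSMul G Ω] [Finite Ω]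
    (htrans : MulAction.IsPretransitive G Ω) :
    Nat.card (MulAction.orbitRel.Quotient ↥(Subgroup.closure {g : G | ∀ ω : Ω, g • ω ≠ ω}) (Ω × Ω)) - 1 =
      (Nat.card (MulAction.orbitRel.Quotient G (Ω × Ω)) - 1) * (Subgroup.closure {g : G | ∀ ω : Ω, g • ω ≠ ω}).index := by
  classical
  rcases isEmpty_or_nonempty Ω with hΩ | hΩ
  · have h1 : IsEmpty (MulAction.orbitRel.Quotient ↥(Subgroup.closure {g : G | ∀ ω : Ω, g • ω ≠ ω}) (Ω × Ω)) :=
      ⟨fun x => Quotient.inductionOn' x fun p => hΩ.false p.1⟩
    have h2 : IsEmpty (MulAction.orbitRel.Quotient G (Ω × Ω)) :=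
      ⟨fun x => Quotient.inductionOn' x fun p => hΩ.false p.1⟩
    simp
  · set D := Subgroup.closure {g : G | ∀ ω : Ω, g • ω ≠ ω} with hD
    have := Fintype.ofFinite G
    obtain ⟨-, hfix⟩ := main (Ω := Ω) D (fun g hg => Subgroup.subset_closure hg)
    set f : G → ℕ := fun g => Nat.card (fixedBy (Ω × Ω) g) with hf
    have hsplit : ∀ F : G → ℕ, ∑ g : G, F g =
        ∑ g ∈ Finset.univ.filter (· ∈ D), F g + ∑ g ∈ Finset.univ.filter (· ∉ D), F g :=
      fun F => (Finset.sum_filter_add_sum_filter_not Finset.univ (· ∈ D) F).symm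
    have hG : ∑ g : G, f g = Nat.card (orbitRel.Quotient G (Ω × Ω)) * Nat.card G := burnside G (Ω × Ω)
    have hcardD : ∑ g ∈ Finset.univ.filter (· ∈ D), 1 = Nat.card D := by
      rw [sum_subgroup D (fun _ => 1)]
      simp
    have hDsum : ∑ g ∈ Finset.univ.filter (· ∈ D), f g =
        Nat.card (orbitRel.Quotient D (Ω × Ω)) * Nat.card D := by
      rw [sum_subgroup D f]
      exact burnside D (Ω × Ω)
    have hout : ∑ g ∈ Finset.univ.filter (· ∉ D), f g = ∑ g ∈ Finset.univ.filter (· ∉ D), 1 := by
      apply Finset.sum_congr rfl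
      intro g hg
      rw [Finset.mem_filter] at hg
      simp only [hf]
      rw [card_fixedBy_prod, hfix g hg.2, one_pow]
    have hcardG : Nat.card G = ∑ g ∈ Finset.univ.filter (· ∈ D), 1 + ∑ g ∈ Finset.univ.filter (· ∉ D), 1 := by
      rw [← hsplit (fun _ => 1)]; simp
    have e1 := hsplit f
    rw [hG, hDsum, hout] at e1
    rw [hcardD] at hcardG
    have hidx : Nat.card D * D.index = Nat.card G := Subgroup.card_mul_index D
    have hDpos : 0 < Nat.card D := Nat.card_pos
    have hrG : 1 ≤ Nat.card (orbitRel.Quotient G (Ω × Ω)) := by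
      have : Nonempty (orbitRel.Quotient G (Ω × Ω)) :=
        ⟨Quotient.mk'' (Classical.arbitrary Ω, Classical.arbitrary Ω)⟩
      exact Nat.card_pos
    have hrD : 1 ≤ Nat.card (orbitRel.Quotient D (Ω × Ω)) := by
      have : Nonempty (orbitRel.Quotient D (Ω × Ω)) :=
        ⟨Quotient.mk'' (Classical.arbitrary Ω, Classical.arbitrary Ω)⟩
      exact Nat.card_pos
    set rG := Nat.card (orbitRel.Quotient G (Ω × Ω)) with hrG'
    set rD := Nat.card (orbitRel.Quotient D (Ω × Ω)) with hrD'
    set a := Nat.card D with ha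
    set b := ∑ g ∈ Finset.univ.filter (· ∉ D), 1 with hb
    set i := D.index with hi
    -- e1 : rG * |G| = rD * a + b ; hcardG : |G| = a + b ; hidx : a * i = |G|
    have key : a * (rG * i + 1) = a * (rD + i) := by
      have h5 : rG * (a * i) = rD * a + b := by rw [hidx]; exact e1
      have h4 : a * i = a + b := by rw [hidx]; exact hcardG
      nlinarith
    have key' : rG * i + 1 = rD + i := Nat.eq_of_mul_eq_mul_left hDpos key
    rw [Nat.sub_mul, one_mul]
    omega

end Cfsg.Agent.S3547
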