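import Cfsg.Statements.S3548
import Cfsg.Agent.Lib.Helper59.Derange
import Cfsg.Agent.Lib.Helper59.Derange2

set_option autoImplicit false
open Cfsg

namespace Cfsg.Agent.S3548

open MulAction Cfsg.Agent.Lib.Helper59

/-- Let G act faithfully and transitively on a finite set with n ≥ 2 points and let D be the subgroup generated by the derangements. Then the index of D in G divides n − 1, and if it equals n − 1 then n is a prime power. -/
theorem result {G Ω : Type*} [Group G] [Finite G] [MulAction G Ω] [FaithfulSMul G Ω] [Finite Ω]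
    (htrans : MulAction.IsPretransitive G Ω) (hΩ : 2 ≤ Nat.card Ω) :
    (Subgroup.closure {g : G | ∀ ω : Ω, g • ω ≠ ω}).index ∣ Nat.card Ω - 1 ∧
    ((Subgroup.closure {g : G | ∀ ω : Ω, g • ω ≠ ω}).index = Nat.card Ω - 1 → IsPrimePow (Nat.card Ω)) := by
  have hne : Nonempty Ω := by
    by_contra h
    rw [not_nonempty_iff] at h
    rw [Nat.card_of_isEmpty] at hΩ
    omega
  obtain ⟨α⟩ := hne
  have : Nonempty Ω := ⟨α⟩
  have hN := Derange.closure_derangements_normal G Ω
  obtain ⟨hDt, hfix⟩ := Derange.main (Ω := Ω) (Subgroup.closure {g : G | ∀ ω : Ω, g • ω ≠ ω})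
    (fun g hg => Subgroup.subset_closure hg)
  exact ⟨Derange2.index_dvd_card_sub_one _ hDt hfix α,
    fun h => Derange2.isPrimePow_of_index_eq _ hDt hfix α hΩ h⟩

end Cfsg.Agent.S3548
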