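import Cfsg.Statements.S3549
import Cfsg.Agent.Lib.Helper59.Derange
import Cfsg.Agent.Lib.Helper59.Derange2

set_option autoImplicit false
open Cfsg

namespace Cfsg.Agent.S3549

open MulAction Cfsg.Agent.Lib.Helper59
open scoped Pointwise

theorem aux (k l : ℕ) (hk : 1 ≤ k) (hl : 1 ≤ l) : k * l - 1 = k * (l - 1) + (k - 1) := by
  obtain ⟨k', rfl⟩ : ∃ k', k = k' + 1 := ⟨k - 1, by omega⟩
  obtain ⟨l', rfl⟩ : ∃ l', l = l' + 1 := ⟨l - 1, by omega⟩
  simp only [Nat.add_sub_cancel]
  ring_nf
  omega

theorem aux2 (k : ℕ) (hk : 1 ≤ k) : Nat.Coprime (k - 1) k := by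
  obtain ⟨k', rfl⟩ : ∃ k', k = k' + 1 := ⟨k - 1, by omega⟩
  simp

/-- Let G act faithfully, transitively but imprimitively on a finite set with n points, and let D be the subgroup generated by the derangements. Then the index of D in G is at most √n − 1. -/
theorem result {G Ω : Type*} [Group G] [Finite G] [MulAction G Ω] [FaithfulSMul G Ω] [Finite Ω]
    (htrans : MulAction.IsPretransitive G Ω) (himp : ¬ MulAction.IsPreprimitive G Ω) :
    ((Subgroup.closure {g : G | ∀ ω : Ω, g • ω ≠ ω}).index : ℝ) ≤ Real.sqrt (Nat.card Ω) - 1 := by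
  classical
  -- a non-trivial block
  obtain ⟨B, hB, hBnt⟩ : ∃ B : Set Ω, IsBlock G B ∧ ¬ IsTrivialBlock B := by
    by_contra hcon
    push Not at hcon
    exact himp ⟨fun {B} hB => hcon B hB⟩
  rw [IsTrivialBlock, not_or] at hBnt
  obtain ⟨hBns, hBuniv⟩ := hBnt
  have hBne : B.Nonempty := by
    by_contra h
    rw [Set.not_nonempty_iff_eq_empty] at h
    exact hBns (h ▸ Set.subsingleton_empty)
  obtain ⟨α, hα⟩ := hBne
  have : Nonempty Ω := ⟨α⟩
  have hN := Derange.closure_derangements_normal G Ω
  obtain ⟨hDt, hfix⟩ := Derange.main (Ω := Ω) (Subgroup.closure {g : G | ∀ ω : Ω, g • ω ≠ ω})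
    (fun g hg => Subgroup.subset_closure hg)
  set D := Subgroup.closure {g : G | ∀ ω : Ω, g • ω ≠ ω} with hD
  set k := B.ncard with hk
  set l := (orbit G B).ncard with hl
  set n := Nat.card Ω with hn
  have hkl : k * l = n := hB.ncard_block_mul_ncard_orbit_eq ⟨α, hα⟩
  have hk2 : 2 ≤ k := by
    by_contra h
    have h1 : B.ncard ≤ 1 := by omega
    exact hBns (Set.ncard_le_one_iff_subsingleton.mp h1)
  have hkn : k ≠ n := by
    intro h
    exact hBuniv ((Set.eq_univ_iff_ncard B).mpr h)
  have hnpos : 0 < n := Nat.card_pos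
  have hl2 : 2 ≤ l := by
    rcases Nat.lt_or_ge l 2 with h | h
    · interval_cases l
      · rw [mul_zero] at hkl; omega
      · rw [mul_one] at hkl; exact absurd hkl hkn
    · exact h
  -- index divides k - 1
  have h1 : D.index ∣ k - 1 := by
    have h := Derange2.index_dvd_ncard D hDt hfix α (B \ {α}) (Set.toFinite _) (by simp) ?_
    · rwa [Set.ncard_sdiff_singleton_of_mem hα] at h
    · intro h x hx
      have hhB : (h : G) • B = B :=
        (isBlock_iff_smul_eq_of_mem.mp hB) hα (by
          have : (h : G) • α = α := h.2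
          rw [this]; exact hα)
      refine ⟨?_, ?_⟩
      · have : (h : G) • x ∈ (h : G) • B := Set.smul_mem_smul_set hx.1
        rw [hhB] at this
        exact this
      · intro hh
        apply hx.2
        have h5 : (h : G) • x = α := hh
        have h6 : (h : G) • α = α := h.2
        have h7 : (h : G) • x = (h : G) • α := by rw [h5, h6]
        exact smul_left_cancel _ h7
  -- index divides n - 1
  have h2 : D.index ∣ n - 1 := Derange2.index_dvd_card_sub_one D hDt hfix α
  -- index divides l - 1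
  have h3 : D.index ∣ l - 1 := by
    have h4 : n - 1 = k * (l - 1) + (k - 1) := by
      rw [← hkl]
      exact aux k l (by omega) (by omega)
    rw [h4] at h2
    have h5 : D.index ∣ k * (l - 1) := (Nat.dvd_add_iff_left h1).mpr h2
    have hcop : Nat.Coprime D.index k := by
      have h6 : Nat.Coprime (k - 1) k := aux2 k (by omega)
      exact Nat.Coprime.coprime_dvd_left h1 h6
    exact hcop.dvd_of_dvd_mul_left h5
  have h6 : D.index ≤ k - 1 := Nat.le_of_dvd (by omega) h1
  have h7 : D.index ≤ l - 1 := Nat.le_of_dvd (by omega) h3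
  have h8 : (D.index + 1) * (D.index + 1) ≤ n := by
    rw [← hkl]
    exact Nat.mul_le_mul (by omega) (by omega)
  have h9 : ((D.index : ℝ) + 1) ≤ Real.sqrt (n : ℝ) := by
    apply Real.le_sqrt_of_sq_le
    have : (((D.index + 1) * (D.index + 1) : ℕ) : ℝ) ≤ (n : ℝ) := by exact_mod_cast h8
    push_cast at this
    nlinarith
  linarith

end Cfsg.Agent.S3549
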