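import Cfsg.Statements.S3559
import Cfsg.Agent.Lib.Helper59.Schur

set_option autoImplicit false
open Cfsg

namespace Cfsg.Agent.S3559

/-- Let G act faithfully and transitively on a finite set whose number of points n ≥ 2 is not a prime power, and suppose G has a cyclic subgroup acting regularly (transitively with trivial point stabilizers). Then G is imprimitive or doubly transitive. -/
theorem result {G Ω : Type*} [Group G] [Finite G] [MulAction G Ω] [FaithfulSMul G Ω] [Finite Ω]
    (htrans : MulAction.IsPretransitive G Ω) (hn : 2 ≤ Nat.card Ω) (hnp : ¬ IsPrimePow (Nat.card Ω))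
    (C : Subgroup G) (hcyc : IsCyclic ↥C) (hC : MulAction.IsPretransitive ↥C Ω ∧ ∀ a : Ω, MulAction.stabilizer ↥C a = ⊥) :
    ¬ MulAction.IsPreprimitive G Ω ∨ MulAction.IsMultiplyPretransitive G Ω 2 := by
  classical
  by_cases hprim : MulAction.IsPreprimitive G Ω
  · right
    have : IsCyclic ↥C := hcyc
    obtain ⟨c, hc⟩ := IsCyclic.exists_monoid_generator (α := ↥C)
    have htC := hC.1
    apply Cfsg.Agent.Lib.Helper59.Schur.schur_cyclic hprim (c : G)
    · intro x y
      obtain ⟨d, hd⟩ := htC.exists_smul_eq x y
      obtain ⟨k, hk⟩ := (Submonoid.mem_powers_iff _ _).mp (hc d)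
      refine ⟨k, ?_⟩
      have h1 : ((c ^ k : ↥C) : G) • x = y := by rw [hk]; exact hd
      simpa using h1
    · intro hpr
      exact hnp hpr.isPrimePow
    · exact hn
  · left; exact hprim

end Cfsg.Agent.S3559
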