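import Cfsg.Statements.S3560

set_option autoImplicit false
open Cfsg

namespace Cfsg.Agent.S3560

open MulAction
open scoped Pointwise

section Hamming

set_option linter.unusedSectionVars false

variable {ι : Type*} [Fintype ι] [DecidableEq ι] {m : ℕ}

/-- The group of Hamming isometries of `ι → Fin m`. -/
def isom (ι : Type*) [Fintype ι] [DecidableEq ι] (m : ℕ) : Subgroup (Equiv.Perm (ι → Fin m)) where
  carrier := {σ | ∀ x y, hammingDist (σ x) (σ y) = hammingDist x y}
  one_mem' := fun x y => rfl
  mul_mem' := by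
    intro σ τ hσ hτ x y
    simp only [Equiv.Perm.mul_apply]
    rw [hσ, hτ]
  inv_mem' := by
    intro σ hσ x y
    have := hσ (σ⁻¹ x) (σ⁻¹ y)
    simpa using this.symm

/-- Coordinatewise permutations. -/
def cw (π : ι → Equiv.Perm (Fin m)) : Equiv.Perm (ι → Fin m) := Equiv.piCongrRight π

theorem cw_apply (π : ι → Equiv.Perm (Fin m)) (x : ι → Fin m) (i : ι) :
    cw π x i = π i (x i) := rfl

theorem cw_mem (π : ι → Equiv.Perm (Fin m)) : cw π ∈ isom ι m := by
  intro x y
  exact hammingDist_comp (fun i => π i) (fun i => (π i).injective)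

/-- Swapping two coordinates. -/
def sw (i j : ι) : Equiv.Perm (ι → Fin m) :=
  Equiv.arrowCongr (Equiv.swap i j) (Equiv.refl _)

theorem sw_apply (i j : ι) (x : ι → Fin m) (k : ι) : sw i j x k = x (Equiv.swap i j k) := by
  simp [sw, Equiv.arrowCongr]

theorem sw_mem (i j : ι) : sw (m := m) i j ∈ isom ι m := by
  intro x y
  unfold hammingDist
  apply Finset.card_equiv (Equiv.swap i j)
  intro k
  simp [sw_apply]

theorem cw_update (i : ι) (π : Equiv.Perm (Fin m)) (x : ι → Fin m) :
    cw (Function.update (fun _ => (1 : Equiv.Perm (Fin m))) i π) x =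
      Function.update x i (π (x i)) := by
  funext k
  by_cases hk : k = i
  · subst hk; simp [cw_apply]
  · simp [cw_apply, Function.update_of_ne hk]

theorem mem_of_block {B : Set (ι → Fin m)} (hB : IsBlock (isom ι m) B)
    (g : Equiv.Perm (ι → Fin m)) (hg : g ∈ isom ι m)
    (a : ι → Fin m) (ha : a ∈ B) (hga : g a ∈ B) (x : ι → Fin m) (hx : x ∈ B) : g x ∈ B := by
  have h1 : (⟨g, hg⟩ : isom ι m) • B = B := (isBlock_iff_smul_eq_of_mem.mp hB) ha hga
  have h2 : (⟨g, hg⟩ : isom ι m) • x ∈ (⟨g, hg⟩ : isom ι m) • B := Set.smul_mem_smul_set hx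
  rw [h1] at h2
  exact h2

theorem isom_pretransitive : IsPretransitive (isom ι m) (ι → Fin m) := by
  constructor
  intro x y
  refine ⟨⟨cw (fun i => Equiv.swap (x i) (y i)), cw_mem _⟩, ?_⟩
  funext i
  show Equiv.swap (x i) (y i) (x i) = y i
  exact Equiv.swap_apply_left _ _

theorem isom_preprimitive (hm : 3 ≤ m) : IsPreprimitive (isom ι m) (ι → Fin m) := by
  obtain ⟨a₀⟩ : Nonempty (Fin m) := ⟨⟨0, by omega⟩⟩
  have := isom_pretransitive (ι := ι) (m := m)
  apply IsPreprimitive.of_isTrivialBlock_base (fun _ => a₀)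
  intro B ho hB
  by_cases hsub : B.Subsingleton
  · exact Or.inl hsub
  · right
    obtain ⟨y, hy, hyo⟩ : ∃ y ∈ B, y ≠ (fun _ => a₀) := by
      by_contra hcon
      push Not at hcon
      apply hsub
      intro u hu v hv
      rw [hcon u hu, hcon v hv]
    obtain ⟨j, hj⟩ : ∃ j, y j ≠ a₀ := by
      by_contra hcon
      push Not at hcon
      exact hyo (funext hcon)
    obtain ⟨c, hc0, hcy⟩ : ∃ c : Fin m, c ≠ a₀ ∧ c ≠ y j := by
      have hcard : ({a₀, y j} : Finset (Fin m)).card < (Finset.univ : Finset (Fin m)).card := by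
        rw [Finset.card_univ, Fintype.card_fin]
        exact lt_of_le_of_lt (Finset.card_insert_le _ _) (by simp; omega)
      obtain ⟨c, -, hc⟩ := Finset.exists_mem_notMem_of_card_lt_card hcard
      simp only [Finset.mem_insert, Finset.mem_singleton, not_or] at hc
      exact ⟨c, hc.1, hc.2⟩
    -- Step 1
    have h1 : Function.update y j c ∈ B := by
      have h := mem_of_block hB
        (cw (Function.update (fun _ => (1 : Equiv.Perm (Fin m))) j (Equiv.swap (y j) c)))
        (cw_mem _) (fun _ => a₀) ho (by
          rw [cw_update, Equiv.swap_apply_of_ne_of_ne hj.symm hc0.symm, Function.update_eq_self]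
          exact ho) y hy
      rwa [cw_update, Equiv.swap_apply_left] at h
    -- Step 2
    have h2 : Function.update (fun _ => a₀) j c ∈ B := by
      have h := mem_of_block hB (cw (fun i => Equiv.swap (y i) a₀)) (cw_mem _) y hy (by
        have : cw (fun i => Equiv.swap (y i) a₀) y = fun _ => a₀ := by
          funext k; rw [cw_apply, Equiv.swap_apply_left]
        rw [this]; exact ho) _ h1
      have h3 : cw (fun i => Equiv.swap (y i) a₀) (Function.update y j c) =
          Function.update (fun _ => a₀) j c := by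
        funext k
        rw [cw_apply]
        by_cases hk : k = j
        · subst hk
          rw [Function.update_self, Function.update_self,
            Equiv.swap_apply_of_ne_of_ne hcy hc0]
        · rw [Function.update_of_ne hk, Function.update_of_ne hk, Equiv.swap_apply_left]
      rwa [h3] at h
    -- Step 3a
    have h3a : ∀ i : ι, Function.update (fun _ => a₀) i c ∈ B := by
      intro i
      have h := mem_of_block hB (sw i j) (sw_mem i j) (fun _ => a₀) ho (by
        have : sw i j (fun _ : ι => a₀) = fun _ => a₀ := by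
          funext k; rw [sw_apply]
        rw [this]; exact ho) _ h2
      have h3 : sw i j (Function.update (fun _ : ι => a₀) j c) =
          Function.update (fun _ => a₀) i c := by
        funext k
        rw [sw_apply]
        by_cases hk : k = i
        · subst hk
          rw [Equiv.swap_apply_left, Function.update_self, Function.update_self]
        · rw [Function.update_of_ne hk]
          by_cases hkj : k = j
          · subst hkj
            rw [Equiv.swap_apply_right, Function.update_of_ne (Ne.symm hk)]
          · rw [Equiv.swap_apply_of_ne_of_ne hk hkj, Function.update_of_ne hkj]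
      rwa [h3] at h
    -- Step 3b
    have h3b : ∀ (i : ι) (v : Fin m), Function.update (fun _ => a₀) i v ∈ B := by
      intro i v
      by_cases hv : v = a₀
      · rw [hv, Function.update_eq_self]; exact ho
      · have h := mem_of_block hB
          (cw (Function.update (fun _ => (1 : Equiv.Perm (Fin m))) i (Equiv.swap c v)))
          (cw_mem _) (fun _ => a₀) ho (by
            rw [cw_update, Equiv.swap_apply_of_ne_of_ne (Ne.symm hc0) (Ne.symm hv),
              Function.update_eq_self]
            exact ho) _ (h3a i)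
        rwa [cw_update, Function.update_self, Equiv.swap_apply_left, Function.update_idem] at h
    -- Step 4
    have h4 : ∀ (i : ι) (v : Fin m) (x : ι → Fin m), x ∈ B →
        Function.update x i (Equiv.swap a₀ v (x i)) ∈ B := by
      intro i v x hx
      have h := mem_of_block hB
        (cw (Function.update (fun _ => (1 : Equiv.Perm (Fin m))) i (Equiv.swap a₀ v)))
        (cw_mem _) (fun _ => a₀) ho (by
          rw [cw_update, Equiv.swap_apply_left]
          exact h3b i v) x hx
      rwa [cw_update] at h
    rw [Set.eq_univ_iff_forall]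
    intro x
    have h5 : ∀ J : Finset ι, (fun k => if k ∈ J then x k else a₀) ∈ B := by
      intro J
      induction J using Finset.induction_on with
      | empty => simpa using ho
      | insert i J hiJ ih =>
        have h := h4 i (x i) _ ih
        have h6 : Function.update (fun k => if k ∈ J then x k else a₀) i
            (Equiv.swap a₀ (x i) ((fun k => if k ∈ J then x k else a₀) i)) =
            (fun k => if k ∈ insert i J then x k else a₀) := by
          funext k
          by_cases hk : k = i
          · subst hk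
            simp [hiJ]
          · rw [Function.update_of_ne hk]
            simp [Finset.mem_insert, hk]
        rwa [h6] at h
    have h7 := h5 Finset.univ
    simpa using h7

end Hamming

section More

set_option linter.unusedSectionVars false

variable {ι : Type*} [Fintype ι] [DecidableEq ι] {m : ℕ}

theorem isom_not_two (hr : 2 ≤ Fintype.card ι) (hm : 3 ≤ m) :
    ¬ IsMultiplyPretransitive (isom ι m) (ι → Fin m) 2 := by
  intro h
  rw [is_two_pretransitive_iff] at h
  obtain ⟨i₀, i₁, hne⟩ := Fintype.exists_pair_of_one_lt_card (show 1 < Fintype.card ι by omega)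
  let a₀ : Fin m := ⟨0, by omega⟩
  let a₁ : Fin m := ⟨1, by omega⟩
  have ha : a₁ ≠ a₀ := by
    intro h; have := congrArg Fin.val h; simp [a₀, a₁] at this
  let o : ι → Fin m := fun _ => a₀
  let b : ι → Fin m := Function.update o i₀ a₁
  let d : ι → Fin m := Function.update b i₁ a₁
  have hob : o ≠ b := by
    intro h
    have := congrFun h i₀
    simp [o, b] at this
    exact ha this.symm
  have hod : o ≠ d := by
    intro h
    have := congrFun h i₁
    simp [o, d] at this
    exact ha this.symm
  obtain ⟨g, hg1, hg2⟩ := h hob hod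
  have hiso := g.2 o b
  have e1 : (g : Equiv.Perm (ι → Fin m)) o = o := hg1
  have e2 : (g : Equiv.Perm (ι → Fin m)) b = d := hg2
  rw [e1, e2] at hiso
  have hd1 : hammingDist o b = 1 := by
    unfold hammingDist
    rw [Finset.card_eq_one]
    refine ⟨i₀, ?_⟩
    ext k
    simp only [Finset.mem_filter, Finset.mem_univ, true_and, Finset.mem_singleton, o, b]
    by_cases hk : k = i₀
    · subst hk; simp [ha.symm]
    · simp [Function.update_of_ne hk, hk]
  have hd2 : hammingDist o d = 2 := by
    unfold hammingDist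
    rw [Finset.card_eq_two]
    refine ⟨i₀, i₁, hne, ?_⟩
    ext k
    simp only [Finset.mem_filter, Finset.mem_univ, true_and, Finset.mem_insert,
      Finset.mem_singleton, o, b, d]
    by_cases hk1 : k = i₁
    · subst hk1; simp [ha.symm]
    · by_cases hk0 : k = i₀
      · subst hk0; simp [Function.update_of_ne hk1, ha.symm]
      · simp [Function.update_of_ne hk1, Function.update_of_ne hk0, hk0, hk1]
  omega

variable (F : ι → Type*) [∀ i, Group (F i)] (ψ : ∀ i, F i ≃ Fin m)

/-- The regular representation of the product, transported to `ι → Fin m`. -/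
noncomputable def reg : (∀ i, F i) →* Equiv.Perm (ι → Fin m) :=
  ((Equiv.piCongrRight ψ).permCongrHom : Equiv.Perm (∀ i, F i) →* Equiv.Perm (ι → Fin m)).comp
    (MulAction.toPermHom (∀ i, F i) (∀ i, F i))

theorem reg_apply (g : ∀ i, F i) (x : ι → Fin m) (i : ι) :
    reg F ψ g x i = ψ i (g i * (ψ i).symm (x i)) := rfl

theorem reg_injective : Function.Injective (reg F ψ) := by
  intro g h hgh
  funext i
  have h1 := congrFun (congrArg (fun σ : Equiv.Perm (ι → Fin m) => σ (fun i => ψ i 1)) hgh) i
  simp only [reg_apply, Equiv.symm_apply_apply, mul_one] at h1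
  exact (ψ i).injective h1

theorem reg_mem (g : ∀ i, F i) : reg F ψ g ∈ isom ι m := by
  intro x y
  have h : ∀ z, reg F ψ g z = fun i => (fun (t : Fin m) => ψ i (g i * (ψ i).symm t)) (z i) :=
    fun z => funext fun i => reg_apply F ψ g z i
  rw [h x, h y]
  exact hammingDist_comp (fun i (t : Fin m) => ψ i (g i * (ψ i).symm t))
    (fun i s t hst => by simpa using hst)

theorem reg_transitive : IsPretransitive (reg F ψ).range (ι → Fin m) := by
  constructor
  intro x y
  refine ⟨⟨reg F ψ (fun i => (ψ i).symm (y i) * ((ψ i).symm (x i))⁻¹), ⟨_, rfl⟩⟩, ?_⟩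
  funext i
  show reg F ψ _ x i = y i
  rw [reg_apply]
  simp

theorem reg_stabilizer (a : ι → Fin m) : stabilizer (reg F ψ).range a = ⊥ := by
  rw [eq_bot_iff]
  rintro ⟨_, ⟨g, rfl⟩⟩ hmem
  rw [Subgroup.mem_bot]
  apply Subtype.ext
  have hfix : reg F ψ g a = a := hmem
  have hg : g = 1 := by
    funext i
    have h1 := congrFun hfix i
    rw [reg_apply] at h1
    have h2 := congrArg (ψ i).symm h1
    simp only [Equiv.symm_apply_apply] at h2
    simpa using h2
  simp [hg]

end More

theorem transport {K : Type*} [Group K] {X : Type*} [Finite X] (Γ R₀ : Subgroup (Equiv.Perm X))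
    (hle : R₀ ≤ Γ) (hiso : Nonempty (R₀ ≃* K)) (htr : IsPretransitive R₀ X)
    (hstab : ∀ a : X, stabilizer R₀ a = ⊥) (hprim : IsPreprimitive Γ X)
    (h2 : ¬ IsMultiplyPretransitive Γ X 2) :
    ∃ (n : ℕ) (G R : Subgroup (Equiv.Perm (Fin n))), R ≤ G ∧ Nonempty (↥R ≃* K) ∧
      MulAction.IsPretransitive ↥R (Fin n) ∧ (∀ a : Fin n, MulAction.stabilizer ↥R a = ⊥) ∧
      MulAction.IsPreprimitive ↥G (Fin n) ∧ ¬ MulAction.IsMultiplyPretransitive ↥G (Fin n) 2 := by
  let Φ : X ≃ Fin (Nat.card X) := Finite.equivFin X
  let ψ : Equiv.Perm X ≃* Equiv.Perm (Fin (Nat.card X)) := Φ.permCongrHom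
  have hψ : ∀ (σ : Equiv.Perm X) (x : X), ψ σ (Φ x) = Φ (σ x) := by
    intro σ x; simp [ψ, Equiv.permCongrHom]
  let φ : ∀ S : Subgroup (Equiv.Perm X), S → S.map (ψ : Equiv.Perm X →* _) :=
    fun S s => ⟨ψ s, Subgroup.mem_map_of_mem _ s.2⟩
  have hφsurj : ∀ S, Function.Surjective (φ S) := by
    rintro S ⟨_, ⟨s, hs, rfl⟩⟩; exact ⟨⟨s, hs⟩, rfl⟩
  let f : ∀ S : Subgroup (Equiv.Perm X), X →ₑ[φ S] Fin (Nat.card X) :=
    fun S => ⟨Φ, fun s x => (hψ s x).symm⟩
  have hfbij : ∀ S, Function.Bijective (f S) := fun S => Φ.bijective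
  refine ⟨Nat.card X, Γ.map (ψ : Equiv.Perm X →* _), R₀.map (ψ : Equiv.Perm X →* _),
    Subgroup.map_mono hle, ?_, ?_, ?_, ?_, ?_⟩
  · obtain ⟨e⟩ := hiso
    exact ⟨(ψ.subgroupMap R₀).symm.trans e⟩
  · exact IsPretransitive.of_surjective_map (f := f R₀) (hfbij R₀).surjective htr
  · intro a
    rw [eq_bot_iff]
    rintro ⟨_, ⟨s, hs, rfl⟩⟩ hmem
    rw [Subgroup.mem_bot]
    apply Subtype.ext
    have hfix : ψ s a = a := hmem
    have h3 : s (Φ.symm a) = Φ.symm a := by
      have h4 := hψ s (Φ.symm a)
      rw [Equiv.apply_symm_apply, hfix] at h4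
      apply Φ.injective
      rw [Equiv.apply_symm_apply]
      exact h4.symm
    have h5 : (⟨s, hs⟩ : R₀) ∈ stabilizer R₀ (Φ.symm a) := h3
    rw [hstab, Subgroup.mem_bot] at h5
    have h6 : s = 1 := congrArg Subtype.val h5
    simp [h6]
  · exact IsPreprimitive.of_surjective (f := f Γ) (hfbij Γ).surjective
  · intro h
    exact h2 ((IsPretransitive.of_embedding_congr (hφsurj Γ) (hfbij Γ)).mpr h)

/-- Let K be a finite group isomorphic to a direct product of r ≥ 2 groups all of the same order m ≥ 3. Then K is not a B-group: there is a primitive but not doubly transitive permutation group (on some finite set) containing a regular subgroup isomorphic to K. -/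
theorem result {K : Type*} [Group K] [Finite K] {ι : Type*} [Fintype ι] (F : ι → Type*) [∀ i, Group (F i)]
    (hr : 2 ≤ Fintype.card ι) (m : ℕ) (hm : 3 ≤ m) (hcard : ∀ i, Nat.card (F i) = m) (e : K ≃* (∀ i, F i)) :
    ∃ (n : ℕ) (G R : Subgroup (Equiv.Perm (Fin n))), R ≤ G ∧ Nonempty (↥R ≃* K) ∧
      MulAction.IsPretransitive ↥R (Fin n) ∧ (∀ a : Fin n, MulAction.stabilizer ↥R a = ⊥) ∧
      MulAction.IsPreprimitive ↥G (Fin n) ∧ ¬ MulAction.IsMultiplyPretransitive ↥G (Fin n) 2 := by
  classical
  have hfin : ∀ i, Finite (F i) := fun i => Nat.finite_of_card_ne_zero (by rw [hcard i]; omega)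
  let ψ : ∀ i, F i ≃ Fin m := fun i => Finite.equivFinOfCardEq (hcard i)
  refine transport (X := ι → Fin m) (isom ι m) (reg F ψ).range ?_ ?_ (reg_transitive F ψ)
    (reg_stabilizer F ψ) (isom_preprimitive hm) (isom_not_two hr hm)
  · rintro _ ⟨g, rfl⟩; exact reg_mem F ψ g
  · exact ⟨((MonoidHom.ofInjective (reg_injective F ψ)).symm).trans e.symm⟩

end Cfsg.Agent.S3560
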