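import Cfsg.Statements.S3573

set_option autoImplicit false
open Cfsg

namespace Cfsg.Agent.S3573

open Equiv Finset

section General

set_option linter.unusedSectionVars false

variable {α : Type*} [Fintype α] [DecidableEq α]

theorem image_eq_of_inv (σ : Perm α) (S : Finset α) (h : ∀ y, σ y ∈ S ↔ y ∈ S) :
    S.image σ = S := by
  ext z
  rw [Finset.mem_image]
  constructor
  · rintro ⟨y, hy, rfl⟩; exact (h y).mpr hy
  · intro hz
    refine ⟨σ⁻¹ z, ?_, by simp⟩
    rw [← h]; simpa using hz

theorem inv_of_image_eq (σ : Perm α) (S : Finset α) (h : S.image σ = S) :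
    ∀ y, σ y ∈ S ↔ y ∈ S := by
  intro y
  constructor
  · intro hy
    rw [← h, Finset.mem_image] at hy
    obtain ⟨z, hz, hzy⟩ := hy
    rw [← σ.injective hzy]; exact hz
  · intro hy
    rw [← h]; exact Finset.mem_image_of_mem σ hy

/-- In an invariant set of a permutation of prime order `r`, the number of points is congruent
to the number of fixed points modulo `r`. -/
theorem card_invariant_modEq (σ : Perm α) (r : ℕ) [Fact r.Prime] (hσ : σ ^ r = 1) (S : Finset α)
    (h : ∀ y, σ y ∈ S ↔ y ∈ S) :
    (S.filter (fun x => σ x = x)).card ≡ S.card [MOD r] := by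
  set τ : Perm {x // x ∈ S} := σ.subtypePerm h with hτ
  have hτr : τ ^ r ^ 1 = 1 := by
    rw [pow_one, hτ, Equiv.Perm.subtypePerm_pow]
    ext x
    simp [hσ]
  have h1 := Equiv.Perm.card_compl_support_modEq hτr
  rw [Fintype.card_coe] at h1
  have h2 : τ.supportᶜ.card = (S.filter (fun x => σ x = x)).card := by
    apply Finset.card_bij (fun x _ => x.1)
    · intro x hx
      rw [Finset.mem_compl, Equiv.Perm.mem_support, not_not] at hx
      rw [Finset.mem_filter]
      refine ⟨x.2, ?_⟩
      have := congrArg Subtype.val hx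
      simpa [hτ] using this
    · intro x _ y _ hxy
      exact Subtype.ext hxy
    · intro y hy
      rw [Finset.mem_filter] at hy
      refine ⟨⟨y, hy.1⟩, ?_, rfl⟩
      rw [Finset.mem_compl, Equiv.Perm.mem_support, not_not]
      apply Subtype.ext
      simp [hτ, hy.2]
  rw [h2] at h1
  exact h1

/-- Membership in an invariant set is constant on cycles. -/
theorem mem_iff_of_sameCycle (σ : Perm α) (S : Finset α) (h : ∀ y, σ y ∈ S ↔ y ∈ S) (x y : α)
    (hxy : σ.SameCycle x y) : y ∈ S ↔ x ∈ S := by
  obtain ⟨i, rfl⟩ := hxy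
  induction i using Int.induction_on with
  | zero => simp
  | succ i ih =>
    rw [add_comm, zpow_one_add, Equiv.Perm.mul_apply, h]; exact ih
  | pred i ih =>
    rw [← h, ← Equiv.Perm.mul_apply, ← zpow_one_add]
    have : (1 : ℤ) + (-(i : ℤ) - 1) = -(i : ℤ) := by ring
    rw [this]; exact ih

/-- Growing an invariant set by multiples of `r`. -/
theorem grow (σ : Perm α) (r : ℕ) (hr : r.Prime) (hσ : orderOf σ = r) (j : ℕ) :
    ∀ T : Finset α, (∀ y, σ y ∈ T ↔ y ∈ T) → T.card + r * j ≤ Fintype.card α →
      ∃ S : Finset α, (∀ y, σ y ∈ S ↔ y ∈ S) ∧ S.card = T.card + r * j := by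
  induction j with
  | zero => intro T hT _; exact ⟨T, hT, by simp⟩
  | succ j ih =>
    intro T hT hcard
    by_cases hex : ∃ x, x ∉ T ∧ σ x ≠ x
    · obtain ⟨x, hxT, hx⟩ := hex
      set O := (σ.cycleOf x).support with hO
      have hOcard : O.card = r := by
        have hcyc := Equiv.Perm.isCycle_cycleOf σ hx
        rw [hO, ← hcyc.orderOf]
        have hdvd := Equiv.Perm.orderOf_cycleOf_dvd_orderOf σ x
        rw [hσ] at hdvd
        rcases (Nat.dvd_prime hr).mp hdvd with h1 | h1
        · exfalso
          have h2 := hcyc.orderOf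
          rw [h1] at h2
          have h3 := hcyc.two_le_card_support
          omega
        · exact h1
      have hOinv : ∀ y, σ y ∈ O ↔ y ∈ O := by
        intro y
        rw [hO, Equiv.Perm.mem_support_cycleOf_iff' hx, Equiv.Perm.mem_support_cycleOf_iff' hx,
          Equiv.Perm.sameCycle_apply_right]
      have hdisj : Disjoint T O := by
        rw [Finset.disjoint_left]
        intro y hyT hyO
        rw [hO, Equiv.Perm.mem_support_cycleOf_iff' hx] at hyO
        exact hxT ((mem_iff_of_sameCycle σ T hT x y hyO).mp hyT)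
      have hT' : ∀ y, σ y ∈ T ∪ O ↔ y ∈ T ∪ O := by
        intro y
        rw [Finset.mem_union, Finset.mem_union, hT, hOinv]
      have hcard' : (T ∪ O).card = T.card + r := by
        rw [Finset.card_union_of_disjoint hdisj, hOcard]
      obtain ⟨S, hS, hSc⟩ := ih (T ∪ O) hT' (by rw [hcard']; rw [Nat.mul_succ] at hcard; omega)
      refine ⟨S, hS, ?_⟩
      rw [hSc, hcard', Nat.mul_succ]; omega
    · push Not at hex
      obtain ⟨S, hTS, -, hSc⟩ := Finset.exists_subsuperset_card_eq (Finset.subset_univ T)
        (show T.card ≤ T.card + r * (j + 1) by omega) (by rw [Finset.card_univ]; exact hcard)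
      refine ⟨S, fun y => ?_, hSc⟩
      by_cases hy : y ∈ T
      · have h1 : σ y ∈ T := (hT y).mpr hy
        exact ⟨fun _ => hTS hy, fun _ => hTS h1⟩
      · rw [hex y hy]

/-- Construction: a permutation of prime order `r` fixes a `k`-subset as soon as
`k % r ≤ card % r`. -/
theorem exists_invariant (σ : Perm α) (r : ℕ) (hr : r.Prime) (hσ : orderOf σ = r) (k : ℕ)
    (hk : k ≤ Fintype.card α) (hmod : k % r ≤ Fintype.card α % r) :
    ∃ S : Finset α, S.card = k ∧ S.image σ = S := by
  have := Fact.mk hr
  have hσr : σ ^ r = 1 := by rw [← hσ]; exact pow_orderOf_eq_one σ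
  have h1 := card_invariant_modEq σ r hσr Finset.univ (by simp)
  rw [Finset.card_univ] at h1
  have h2 : Fintype.card α % r ≤ (Finset.univ.filter (fun x => σ x = x)).card := by
    rw [← h1]; exact Nat.mod_le _ _
  obtain ⟨T₀, hT₀sub, hT₀card⟩ := Finset.exists_subset_card_eq (le_trans hmod h2)
  have hT₀ : ∀ y, σ y ∈ T₀ ↔ y ∈ T₀ := by
    intro y
    constructor
    · intro hy
      have h3 := (Finset.mem_filter.mp (hT₀sub hy)).2
      have h4 : σ y = y := σ.injective h3
      rw [← h4]; exact hy
    · intro hy
      have h3 := (Finset.mem_filter.mp (hT₀sub hy)).2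
      rw [h3]; exact hy
  have hk' : k % r + r * (k / r) = k := Nat.mod_add_div k r
  obtain ⟨S, hS, hSc⟩ := grow σ r hr hσ (k / r) T₀ hT₀ (by rw [hT₀card, hk']; exact hk)
  exact ⟨S, by rw [hSc, hT₀card, hk'], image_eq_of_inv σ S hS⟩

/-- Necessity: if the special permutation with `card / r` cycles of length `r` fixes a `k`-subset
then `k % r ≤ card % r`. -/
theorem mod_le_of_forall (r : ℕ) (hr : r.Prime) (hrn : r ≤ Fintype.card α) (k : ℕ)
    (h : ∀ σ : Perm α, orderOf σ = r → ∃ S : Finset α, S.card = k ∧ S.image σ = S) :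
    k % r ≤ Fintype.card α % r := by
  have := Fact.mk hr
  obtain ⟨σ, hσ⟩ := (Equiv.Perm.exists_with_cycleType_iff (α := α)
    (m := Multiset.replicate (Fintype.card α / r) r)).mpr ⟨by
      rw [Multiset.sum_replicate, smul_eq_mul]; exact Nat.div_mul_le_self _ _, by
      intro a ha
      rw [Multiset.eq_of_mem_replicate ha]; exact hr.two_le⟩
  have hq : 0 < Fintype.card α / r := Nat.div_pos hrn hr.pos
  have hord : orderOf σ = r := by
    rw [← Equiv.Perm.lcm_cycleType, hσ]
    obtain ⟨q, hq'⟩ : ∃ q, Fintype.card α / r = q + 1 := ⟨Fintype.card α / r - 1, by omega⟩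
    rw [hq']
    clear hσ hq hq'
    induction q with
    | zero => simp
    | succ q ih =>
      rw [Multiset.replicate_succ, Multiset.lcm_cons, ih]
      exact Nat.lcm_self r
  obtain ⟨S, hSc, hS⟩ := h σ hord
  have hσr : σ ^ r = 1 := by rw [← hord]; exact pow_orderOf_eq_one σ
  have h1 := card_invariant_modEq σ r hσr S (inv_of_image_eq σ S hS)
  have h2 : (S.filter (fun x => σ x = x)).card ≤ Fintype.card α % r := by
    calc (S.filter (fun x => σ x = x)).card ≤ (Finset.univ.filter (fun x => σ x = x)).card :=
          Finset.card_le_card (Finset.filter_subset_filter _ (Finset.subset_univ S))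
      _ = σ.supportᶜ.card := by
          congr 1
          ext x
          simp [Equiv.Perm.mem_support]
      _ = Fintype.card α - σ.support.card := by rw [Finset.card_compl]
      _ = Fintype.card α % r := by
          rw [← Equiv.Perm.sum_cycleType, hσ, Multiset.sum_replicate, smul_eq_mul]
          have := Nat.mod_add_div (Fintype.card α) r
          have h5 : Fintype.card α / r * r = r * (Fintype.card α / r) := mul_comm _ _
          omega
  have h3 : Fintype.card α % r < r := Nat.mod_lt _ hr.pos
  have h4 : (S.filter (fun x => σ x = x)).card % r = k % r := by rw [← hSc]; exact h1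
  rw [← h4, Nat.mod_eq_of_lt (by omega)]
  exact h2

end General

/-- Let 1 ≤ k with 2k < n and consider the symmetric group of degree n acting on the k-subsets of an n-set. Let r be a prime dividing the number C(n,k) of k-subsets. If r is odd, then every permutation of order r fixes some k-subset if and only if r ≤ k and the remainder of k modulo r is at most the remainder of n modulo r. If r = 2, then every involution fixes some k-subset if and only if k is even or n is odd. -/
theorem result (n k : ℕ) (hk : 1 ≤ k) (hkn : 2 * k < n) (r : ℕ) (hr : r.Prime) (hrd : r ∣ Nat.choose n k) :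
    (r ≠ 2 → ((∀ σ : Equiv.Perm (Fin n), orderOf σ = r → ∃ s : Finset (Fin n), s.card = k ∧ s.image σ = s) ↔
      (r ≤ k ∧ k % r ≤ n % r))) ∧
    (r = 2 → ((∀ σ : Equiv.Perm (Fin n), orderOf σ = 2 → ∃ s : Finset (Fin n), s.card = k ∧ s.image σ = s) ↔
      (Even k ∨ Odd n))) := by
  have hkn' : k ≤ n := by omega
  have hrn : r ≤ n := by
    have h1 : Nat.choose n k ∣ n.factorial := by
      rw [← Nat.choose_mul_factorial_mul_factorial hkn', mul_assoc]
      exact dvd_mul_right _ _
    exact (Nat.Prime.dvd_factorial hr).mp (dvd_trans hrd h1)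
  have key : (∀ σ : Equiv.Perm (Fin n), orderOf σ = r →
      ∃ s : Finset (Fin n), s.card = k ∧ s.image σ = s) ↔ k % r ≤ n % r := by
    constructor
    · intro h
      have := mod_le_of_forall (α := Fin n) r hr (by simpa using hrn) k h
      simpa using this
    · intro h σ hσ
      exact exists_invariant σ r hr hσ k (by simpa using hkn') (by simpa using h)
  constructor
  · intro _
    rw [key]
    constructor
    · intro h
      refine ⟨?_, h⟩
      by_contra hlt
      push Not at hlt
      have := Fact.mk hr
      have hL := Choose.choose_modEq_choose_mod_mul_choose_div_nat (n := n) (k := k) (p := r)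
      rw [Nat.mod_eq_of_lt hlt, Nat.div_eq_of_lt hlt, Nat.choose_zero_right, mul_one] at hL
      rw [Nat.mod_eq_of_lt hlt] at h
      have h2 : r ∣ Nat.choose (n % r) k := (Nat.modEq_zero_iff_dvd.mp
        (hL.symm.trans (Nat.modEq_zero_iff_dvd.mpr hrd)))
      have h3 : Nat.choose (n % r) k ∣ (n % r).factorial := by
        rw [← Nat.choose_mul_factorial_mul_factorial h, mul_assoc]
        exact dvd_mul_right _ _
      have h4 := (Nat.Prime.dvd_factorial hr).mp (dvd_trans h2 h3)
      have h5 := Nat.mod_lt n hr.pos
      omega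
    · intro h; exact h.2
  · intro h2
    subst h2
    rw [key, Nat.even_iff, Nat.odd_iff]
    omega

end Cfsg.Agent.S3573
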