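import Cfsg.Statements.S3575
import Cfsg.Agent.Lib.Helper93.PartElusive

set_option autoImplicit false
open Cfsg

namespace Cfsg.Agent.S3575

/-- Let a, b ≥ 2 and consider the symmetric group of degree a·b acting on the partitions of an (a·b)-set into b parts of size a (encoded as maps onto a b-element set all of whose fibres have a elements; a permutation fixes such a partition when it permutes the fibres). Let r be a prime dividing the number (ab)!/((a!)^b·b!) of such partitions, and let ℓ and k be the remainders of a and b modulo r. Then every permutation of order r fixes some such partition if and only if r ≤ a and one of the following holds: ℓ = 0; or k = 0 and ℓ = 1; or ℓ and k are non-zero, k·ℓ < r, and either b < r or (k + r)·ℓ ≤ k·a + r. -/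
theorem result (a b : ℕ) (ha : 2 ≤ a) (hb : 2 ≤ b) (r : ℕ) (hr : r.Prime)
    (hrd : r ∣ (a * b).factorial / (a.factorial ^ b * b.factorial)) :
    (∀ σ : Equiv.Perm (Fin (a * b)), orderOf σ = r →
        ∃ f : Fin (a * b) → Fin b, (∀ j : Fin b, Nat.card {x : Fin (a * b) // f x = j} = a) ∧
          ∃ π : Equiv.Perm (Fin b), ∀ x : Fin (a * b), f (σ x) = π (f x)) ↔
      (r ≤ a ∧ (a % r = 0 ∨ (b % r = 0 ∧ a % r = 1) ∨
        (a % r ≠ 0 ∧ b % r ≠ 0 ∧ (b % r) * (a % r) < r ∧ (b < r ∨ (b % r + r) * (a % r) ≤ (b % r) * a + r)))) := by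
  have hF : Fact r.Prime := ⟨hr⟩
  have hrab : r ≤ a * b := by
    have h1 := Nat.uniformBell_mul_eq b (n := a) (by omega)
    have h2 := Nat.uniformBell_eq_div b (n := a) (by omega)
    rw [mul_comm b a] at h1 h2
    rw [← h2] at hrd
    have h3 : r ∣ (a * b).factorial := by
      rw [← h1]; exact (hrd.mul_right _).mul_right _
    exact (Nat.Prime.dvd_factorial hr).mp h3
  constructor
  · intro H
    apply Cfsg.Agent.Lib.Helper93.PartElusive.conv a b r hr.two_le ha hb hrab
    intro j hj1 hj2
    obtain ⟨σ, hσ1, hσ2⟩ := Cfsg.Agent.Lib.Helper93.PartElusive.rotFin r (a * b) j hj2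
    have hσne : σ ≠ 1 := by
      rintro rfl
      have h4 : Cfsg.Agent.Lib.Helper93.PartElusive.fx (1 : Equiv.Perm (Fin (a * b))) = a * b := by
        unfold Cfsg.Agent.Lib.Helper93.PartElusive.fx; simp
      have h5 : 0 < r * j := Nat.mul_pos hr.pos hj1
      omega
    have hord : orderOf σ = r := orderOf_eq_prime hσ1 hσne
    obtain ⟨f, hf, π, hπ⟩ := H σ hord
    exact Cfsg.Agent.Lib.Helper93.PartElusive.analysis a b r hr (by omega) σ hσ1 f
      (fun c => by rw [← Nat.card_eq_fintype_card]; exact hf c) π hπ j hσ2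
  · rintro ⟨hra, hcond⟩ σ hσ
    have hσr : σ ^ r = 1 := by rw [← hσ]; exact pow_orderOf_eq_one σ
    obtain ⟨j, hj⟩ := Cfsg.Agent.Lib.Helper93.PartElusive.fx_exists hr σ hσr
    rw [Fintype.card_fin] at hj
    obtain ⟨u, hu1, hu2, hu3⟩ :=
      Cfsg.Agent.Lib.Helper93.PartElusive.cover a b r hr.two_le hcond j (by omega)
    obtain ⟨τ, hτ1, hτ2, f, hf, π, hπ⟩ :=
      Cfsg.Agent.Lib.Helper93.PartElusive.model r a b u j hu1 hu2 hu3
    have hc := Cfsg.Agent.Lib.Helper93.PartElusive.conj_of_fx hr σ τ hσr hτ1 (by omega)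
    obtain ⟨g, hg⟩ := isConj_iff.mp hc
    refine ⟨fun x => f (g x), fun c => ?_, π, fun x => ?_⟩
    · rw [Nat.card_eq_fintype_card]
      exact (Fintype.card_congr (g.subtypeEquiv fun x => Iff.rfl)).trans (hf c)
    · have h6 : g (σ x) = τ (g x) := by rw [← hg]; simp
      show f (g (σ x)) = π (f (g x))
      rw [h6, hπ]

end Cfsg.Agent.S3575
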