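import Cfsg.Statements.S3590
import Cfsg.Agent.Lib.Helper45.S9Asm
import Cfsg.Agent.Lib.Helper64.S9SEMI
import Cfsg.Agent.Lib.Helper29.S9TRANS
import Cfsg.Agent.Lib.Helper29.S9ANISO
import Cfsg.Agent.Lib.Helper2.S9NORM
import Cfsg.Agent.Lib.Helper2.S9CHAIN
import Cfsg.Agent.Lib.Helper2.S9ALG
import Cfsg.Agent.Lib.Helper87.S9ODDPART
import Cfsg.Agent.Lib.Helper78.S9GRAM
import Cfsg.Agent.Lib.Helper89.S9AFFGLUE
import Cfsg.Agent.Lib.Helper1.S9AP2
import Cfsg.Agent.Lib.Helper1.S9AP4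
import Cfsg.Agent.Lib.Helper1.S9AR1
import Cfsg.Agent.Lib.Helper29.S9AID
import Cfsg.Agent.Lib.Helper64.S9AGL
import Cfsg.Agent.Lib.Helper6.S9CONV

set_option autoImplicit false
open Cfsg

namespace Cfsg.Agent.S3590

/-- Let F be a finite field of characteristic 2. Then PSp(8,F) is not determined by its set of element orders, not even up to finitely many groups: for every bound there is a finite group of larger order with exactly the same set of element orders as PSp(8,F). -/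
theorem result {F : Type*} [Field F] [Fintype F]
    [CharP F 2] (M : ℕ) :
    ∃ (H : Type) (_ : Group H) (_ : Fintype H), M < Fintype.card H ∧ Set.range (orderOf : H → ℕ) = Set.range (orderOf : Cfsg.PSp 4 F → ℕ) := by
  exact Cfsg.Agent.Lib.Helper45.S9Asm.final_of
    Cfsg.Agent.Lib.Helper64.S9SEMI.main
    Cfsg.Agent.Lib.Helper29.S9TRANS.main
    Cfsg.Agent.Lib.Helper29.S9ANISO.main
    Cfsg.Agent.Lib.Helper2.S9NORM.main
    Cfsg.Agent.Lib.Helper2.S9CHAIN.main
    Cfsg.Agent.Lib.Helper2.S9ALG.main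
    Cfsg.Agent.Lib.Helper87.S9ODDPART.main
    Cfsg.Agent.Lib.Helper78.S9GRAM.main
    Cfsg.Agent.Lib.Helper89.S9AFFGLUE.main
    Cfsg.Agent.Lib.Helper1.S9AP2.main
    Cfsg.Agent.Lib.Helper1.S9AP4.main
    Cfsg.Agent.Lib.Helper1.S9AR1.main
    Cfsg.Agent.Lib.Helper29.S9AID.main
    Cfsg.Agent.Lib.Helper64.S9AGL.main
    Cfsg.Agent.Lib.Helper6.S9CONV.main
    M

end Cfsg.Agent.S3590
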