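-- Statement S3619: a quasiprimitive group with a primitive Jordan set is multiply transitive.
import Cfsg.Statements.S3619

set_option autoImplicit false
open Cfsg

namespace Cfsg.Agent.S3619

open scoped Pointwise

open MulAction in
/-- A quasiprimitive action with a primitive Jordan set is primitive. -/
theorem isPreprimitive_of_quasi {G Ω : Type*} [Group G] [MulAction G Ω] [Finite Ω]
    (hqp : ∀ N : Subgroup G, N.Normal → N ≠ ⊥ → MulAction.IsPretransitive ↥N Ω)
    (Γ : Set Ω) (hΓ1 : 1 < Γ.ncard)
    (hJp : MulAction.IsPreprimitive ↥(fixingSubgroup G Γᶜ) ↥(SubMulAction.ofFixingSubgroup G Γᶜ)) :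
    MulAction.IsPreprimitive G Ω := by
  classical
  have hJ : MulAction.IsPretransitive ↥(fixingSubgroup G Γᶜ) ↥(SubMulAction.ofFixingSubgroup G Γᶜ) :=
    hJp.toIsPretransitive
  -- two distinct points of Γ
  obtain ⟨a, ha, b, hb, hab⟩ := (Set.one_lt_ncard (Γ.toFinite)).mp hΓ1
  have hmemΓ : ∀ x : Ω, x ∈ SubMulAction.ofFixingSubgroup G Γᶜ ↔ x ∈ Γ := by
    intro x
    rw [SubMulAction.mem_ofFixingSubgroup_iff]
    simp
  -- the Jordan group is non-trivial
  have hHne : fixingSubgroup G Γᶜ ≠ ⊥ := by
    intro hbot
    obtain ⟨h, hh⟩ := hJ.exists_smul_eq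
      (⟨a, (hmemΓ a).mpr ha⟩ : SubMulAction.ofFixingSubgroup G Γᶜ) ⟨b, (hmemΓ b).mpr hb⟩
    have h1 : (h : G) = 1 := by
      have h3 : (h : G) ∈ (⊥ : Subgroup G) := hbot ▸ h.2
      exact Subgroup.mem_bot.mp h3
    have h2 : h = 1 := Subtype.ext h1
    rw [h2, one_smul] at hh
    exact hab (congrArg Subtype.val hh)
  -- the kernel of the action on translates of a block
  have key : ∀ B : Set Ω, IsBlock G B → ¬ B.Subsingleton → B = Set.univ := by
    intro B hB hBns
    let N : Subgroup G := ⨅ g : G, MulAction.stabilizer G (g • B)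
    have hNnormal : N.Normal := by
      constructor
      intro n hn g
      simp only [N, Subgroup.mem_iInf, MulAction.mem_stabilizer_iff] at hn ⊢
      intro k
      have := hn (g⁻¹ * k)
      rw [mul_smul, mul_smul, ← mul_smul g⁻¹ k B, this, ← mul_smul]
      simp
    have hHN : fixingSubgroup G Γᶜ ≤ N := by
      intro h hh
      simp only [N, Subgroup.mem_iInf, MulAction.mem_stabilizer_iff]
      intro g
      have hB' : IsBlock G (g • B) := hB.translate g
      have hB'ns : ¬ (g • B).Subsingleton := by
        intro hs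
        apply hBns
        intro x hx y hy
        have := hs (Set.smul_mem_smul_set hx) (Set.smul_mem_smul_set hy)
        exact smul_left_cancel g this
      rw [isBlock_iff_smul_eq_of_nonempty] at hB'
      apply hB'
      by_cases hex : ∃ x ∈ g • B, x ∉ Γ
      · obtain ⟨x, hx, hxΓ⟩ := hex
        refine ⟨x, ?_, hx⟩
        have hfix : h • x = x := by
          rw [mem_fixingSubgroup_iff] at hh
          exact hh x hxΓ
        rw [← hfix]
        exact Set.smul_mem_smul_set hx
      · push Not at hex
        -- the block is contained in Γ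
        have hblock : IsBlock ↥(fixingSubgroup G Γᶜ)
            (Subtype.val ⁻¹' (g • B) : Set (SubMulAction.ofFixingSubgroup G Γᶜ)) :=
          ((hB.translate g).subgroup (H := fixingSubgroup G Γᶜ)).subtype_val_preimage
        have htriv := hJp.isTrivialBlock_of_isBlock hblock
        rcases htriv with hsub | huniv
        · exfalso
          apply hB'ns
          intro x hx y hy
          have := @hsub ⟨x, (hmemΓ x).mpr (hex x hx)⟩ hx ⟨y, (hmemΓ y).mpr (hex y hy)⟩ hy
          exact congrArg Subtype.val this
        · obtain ⟨x, hx⟩ : (g • B).Nonempty := by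
            by_contra hne
            rw [Set.not_nonempty_iff_eq_empty] at hne
            apply hB'ns
            rw [hne]
            exact Set.subsingleton_empty
          refine ⟨h • x, Set.smul_mem_smul_set hx, ?_⟩
          have hxΓ : x ∈ SubMulAction.ofFixingSubgroup G Γᶜ := (hmemΓ x).mpr (hex x hx)
          have hmem : ((⟨h, hh⟩ : fixingSubgroup G Γᶜ) • (⟨x, hxΓ⟩ : SubMulAction.ofFixingSubgroup G Γᶜ))
              ∈ (Subtype.val ⁻¹' (g • B) : Set (SubMulAction.ofFixingSubgroup G Γᶜ)) := by
            rw [huniv]; trivial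
          exact hmem
    have hNne : N ≠ ⊥ := by
      intro hbot
      apply hHne
      rw [eq_bot_iff, ← hbot]
      exact hHN
    have hNtrans := hqp N hNnormal hNne
    obtain ⟨x, hx⟩ : B.Nonempty := by
      by_contra hne
      rw [Set.not_nonempty_iff_eq_empty] at hne
      apply hBns
      rw [hne]
      exact Set.subsingleton_empty
    apply Set.eq_univ_of_forall
    intro y
    obtain ⟨n, hn⟩ := hNtrans.exists_smul_eq x y
    have hnB : (n : G) • B = B := by
      have := n.2
      simp only [N, Subgroup.mem_iInf, MulAction.mem_stabilizer_iff] at this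
      simpa using this 1
    rw [← hnB, ← hn]
    exact Set.smul_mem_smul_set hx
  have htrans : MulAction.IsPretransitive G Ω := by
    have hT := hqp ⊤ inferInstance (by
      intro h
      apply hHne
      rw [eq_bot_iff, ← h]
      exact le_top)
    constructor
    intro x y
    obtain ⟨n, hn⟩ := hT.exists_smul_eq x y
    exact ⟨n, hn⟩
  refine { toIsPretransitive := htrans, isTrivialBlock_of_isBlock := ?_ }
  intro B hB
  by_cases hs : B.Subsingleton
  · exact Or.inl hs
  · exact Or.inr (key B hB hs)

/-- Let G act faithfully on a finite set in such a way that every non-trivial normal subgroup of G is transitive (G is quasiprimitive). Let Γ be a subset with more than one point and not the whole set, such that the pointwise stabilizer of the complement of Γ acts transitively on Γ (a Jordan set). If that pointwise stabilizer acts primitively on Γ, then G is k-fold transitive where k is one more than the number of points outside Γ (the Jordan set is a trivial one). -/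
theorem result {G Ω : Type*} [Group G] [Finite G] [MulAction G Ω] [FaithfulSMul G Ω] [Finite Ω]
    (hqp : ∀ N : Subgroup G, N.Normal → N ≠ ⊥ → MulAction.IsPretransitive ↥N Ω)
    (Γ : Set Ω) (hΓ1 : 1 < Γ.ncard) (hΓ2 : Γ.ncard < Nat.card Ω)
    (hJ : MulAction.IsPretransitive ↥(fixingSubgroup G Γᶜ) ↥(SubMulAction.ofFixingSubgroup G Γᶜ))
    (hJp : MulAction.IsPreprimitive ↥(fixingSubgroup G Γᶜ) ↥(SubMulAction.ofFixingSubgroup G Γᶜ)) :
    MulAction.IsMultiplyPretransitive G Ω (Nat.card Ω - Γ.ncard + 1) := by
  have hprim := isPreprimitive_of_quasi hqp Γ hΓ1 hJp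
  have hc : Γ.ncard + Γᶜ.ncard = Nat.card Ω := Set.ncard_add_ncard_compl Γ
  obtain ⟨n, hn⟩ : ∃ n, Γᶜ.ncard = n + 1 := ⟨Γᶜ.ncard - 1, by omega⟩
  have h2 : n + 2 < Nat.card Ω := by omega
  have := hprim.isMultiplyPreprimitive hn h2 hJp
  have e : Nat.card Ω - Γ.ncard + 1 = n + 2 := by omega
  rw [e]
  exact this.isMultiplyPretransitive

end Cfsg.Agent.S3619
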