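import Cfsg.Statements.S3660
import Cfsg.Agent.Lib.Helper61.PrimeGraph

set_option autoImplicit false
open Cfsg

namespace Cfsg.Agent.S3660

open Cfsg.Agent.Lib.Helper61.PrimeGraph
open scoped Matrix

/-- The inclusion of `SL(2,F)` in the matrices, as a monoid hom. -/
def slMat (F : Type*) [Field F] : Matrix.SpecialLinearGroup (Fin 2) F →* Matrix (Fin 2) (Fin 2) F where
  toFun g := (g : Matrix (Fin 2) (Fin 2) F)
  map_one' := rfl
  map_mul' _ _ := rfl

theorem center_eq_bot {F : Type*} [Field F] [CharP F 2] :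
    Subgroup.center (Matrix.SpecialLinearGroup (Fin 2) F) = ⊥ := by
  rw [eq_bot_iff]
  intro A hA
  rw [Matrix.SpecialLinearGroup.mem_center_iff] at hA
  obtain ⟨r, hr, hA⟩ := hA
  have h2 : (2 : F) = 0 := by
    have := CharP.cast_eq_zero F 2
    exact_mod_cast this
  have hr1 : r = 1 := by
    have h3 : (r - 1) ^ 2 = 0 := by
      simp only [Fintype.card_fin] at hr
      linear_combination hr + (1 - r) * h2
    have h4 : r - 1 = 0 := by simpa using h3
    linear_combination h4
  rw [Subgroup.mem_bot]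
  apply Matrix.SpecialLinearGroup.ext
  intro i j
  rw [← hA, hr1]
  simp

theorem sq_eq_one_of_fixed {F : Type*} [Field F] [CharP F 2]
    (g : Matrix.SpecialLinearGroup (Fin 2) F) (x : Fin 2 → F) (hx : x ≠ 0)
    (hgx : (g : Matrix (Fin 2) (Fin 2) F) *ᵥ x = x) : g ^ 2 = 1 := by
  have h2 : (2 : F) = 0 := by
    have := CharP.cast_eq_zero F 2
    exact_mod_cast this
  have hdet : (g : Matrix (Fin 2) (Fin 2) F) 0 0 * (g : Matrix (Fin 2) (Fin 2) F) 1 1
      - (g : Matrix (Fin 2) (Fin 2) F) 0 1 * (g : Matrix (Fin 2) (Fin 2) F) 1 0 = 1 := by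
    have := g.det_coe
    rwa [Matrix.det_fin_two] at this
  have e0 : (g : Matrix (Fin 2) (Fin 2) F) 0 0 * x 0 + (g : Matrix (Fin 2) (Fin 2) F) 0 1 * x 1 = x 0 := by
    have := congrFun hgx 0
    simpa [Matrix.mulVec, dotProduct, Fin.sum_univ_two] using this
  have e1 : (g : Matrix (Fin 2) (Fin 2) F) 1 0 * x 0 + (g : Matrix (Fin 2) (Fin 2) F) 1 1 * x 1 = x 1 := by
    have := congrFun hgx 1
    simpa [Matrix.mulVec, dotProduct, Fin.sum_univ_two] using this
  have htr : (g : Matrix (Fin 2) (Fin 2) F) 0 0 + (g : Matrix (Fin 2) (Fin 2) F) 1 1 = 0 := by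
    have hx' : x 0 ≠ 0 ∨ x 1 ≠ 0 := by
      by_contra hcon
      push Not at hcon
      apply hx
      funext i
      fin_cases i
      · exact hcon.1
      · exact hcon.2
    rcases hx' with h | h
    · have h3 : ((g : Matrix (Fin 2) (Fin 2) F) 0 0 + (g : Matrix (Fin 2) (Fin 2) F) 1 1) * x 0 = 0 := by
        linear_combination (1 - (g : Matrix (Fin 2) (Fin 2) F) 1 1) * e0
          + (g : Matrix (Fin 2) (Fin 2) F) 0 1 * e1 + x 0 * hdet + x 0 * h2
      rcases mul_eq_zero.1 h3 with h4 | h4
      · exact h4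
      · exact absurd h4 h
    · have h3 : ((g : Matrix (Fin 2) (Fin 2) F) 0 0 + (g : Matrix (Fin 2) (Fin 2) F) 1 1) * x 1 = 0 := by
        linear_combination (g : Matrix (Fin 2) (Fin 2) F) 1 0 * e0
          + (1 - (g : Matrix (Fin 2) (Fin 2) F) 0 0) * e1 + x 1 * hdet + x 1 * h2
      rcases mul_eq_zero.1 h3 with h4 | h4
      · exact h4
      · exact absurd h4 h
  apply Matrix.SpecialLinearGroup.ext
  intro i j
  rw [pow_two, Matrix.SpecialLinearGroup.coe_mul, Matrix.mul_apply, Fin.sum_univ_two]
  fin_cases i <;> fin_cases j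
  · simp only [Fin.zero_eta, Matrix.SpecialLinearGroup.coe_one, Matrix.one_apply_eq]
    linear_combination (g : Matrix (Fin 2) (Fin 2) F) 0 0 * htr - hdet - h2
  · simp only [Fin.zero_eta, Fin.mk_one, Matrix.SpecialLinearGroup.coe_one]
    rw [Matrix.one_apply_ne (by decide)]
    linear_combination (g : Matrix (Fin 2) (Fin 2) F) 0 1 * htr
  · simp only [Fin.zero_eta, Fin.mk_one, Matrix.SpecialLinearGroup.coe_one]
    rw [Matrix.one_apply_ne (by decide)]
    linear_combination (g : Matrix (Fin 2) (Fin 2) F) 1 0 * htr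
  · simp only [Fin.mk_one, Matrix.SpecialLinearGroup.coe_one, Matrix.one_apply_eq]
    linear_combination (g : Matrix (Fin 2) (Fin 2) F) 1 1 * htr - hdet - h2

theorem two_dvd_card {F : Type*} [Field F] [Finite F] [CharP F 2] :
    2 ∣ Nat.card (Matrix.SpecialLinearGroup (Fin 2) F) := by
  have h2 : (2 : F) = 0 := by
    have := CharP.cast_eq_zero F 2
    exact_mod_cast this
  let u : Matrix.SpecialLinearGroup (Fin 2) F := ⟨!![1, 1; 0, 1], by simp [Matrix.det_fin_two]⟩
  have hu2 : u ^ 2 = 1 := by
    apply Matrix.SpecialLinearGroup.ext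
    intro i j
    rw [pow_two, Matrix.SpecialLinearGroup.coe_mul, Matrix.mul_apply, Fin.sum_univ_two]
    fin_cases i <;> fin_cases j <;> simp [u]
    linear_combination h2
  have hu1 : u ≠ 1 := by
    intro h
    have := congrArg (fun m : Matrix.SpecialLinearGroup (Fin 2) F => (m : Matrix (Fin 2) (Fin 2) F) 0 1) h
    simp [u] at this
  have hord : orderOf u = 2 := orderOf_eq_prime hu2 hu1
  have h3 := orderOf_dvd_natCard u
  rwa [hord] at h3

/-- The prime graph of a finite group has the prime divisors of its order as vertices, two distinct primes p, q being joined when the group has an element of order pq; two groups have the same prime graph when they have the same prime divisors and the same joined pairs. Let F be a finite field of characteristic 2 with at least 4 elements. Then there are finite groups of arbitrarily large order with the same prime graph as PSL(2,F); in particular PSL(2,F) is not determined by its prime graph. -/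
theorem result {F : Type*} [Field F] [Fintype F] [CharP F 2] (hF : 4 ≤ Fintype.card F) (N : ℕ) :
    ∃ (H : Type) (_ : Group H) (_ : Finite H), N < Nat.card H ∧
      ((∀ p : ℕ, p.Prime → (p ∣ Nat.card (Matrix.ProjectiveSpecialLinearGroup (Fin 2) F) ↔ p ∣ Nat.card H)) ∧
      (∀ p q : ℕ, p.Prime → q.Prime → p ≠ q → ((∃ g : (Matrix.ProjectiveSpecialLinearGroup (Fin 2) F), orderOf g = p * q) ↔ (∃ g : H, orderOf g = p * q)))) := by
  have h2 : ((2 : ℕ) : F) = 0 := CharP.cast_eq_zero F 2
  have e : Matrix.ProjectiveSpecialLinearGroup (Fin 2) F ≃* Matrix.SpecialLinearGroup (Fin 2) F :=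
    (QuotientGroup.quotientMulEquivOfEq center_eq_bot).trans QuotientGroup.quotientBot
  obtain ⟨H, hG, hFin, hN, hS⟩ := exists_large_samePG_matrix' (slMat F) 2 Nat.prime_two h2
    (SamePG.of_mulEquiv e) two_dvd_card
    (by
      intro g x hx hgx r hr hr2 hord
      exfalso
      have hsq : g ^ 2 = 1 := sq_eq_one_of_fixed g x hx hgx
      have hdvd : r ∣ 2 := by
        rw [← hord]; exact orderOf_dvd_of_pow_eq_one hsq
      exact hr2 ((Nat.prime_dvd_prime_iff_eq hr Nat.prime_two).1 hdvd)) N
  exact ⟨H, hG, hFin, hN, hS⟩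

end Cfsg.Agent.S3660
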