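import Cfsg.Statements.S3662
import Cfsg.Agent.S1059
import Cfsg.Agent.H18.ChevMap
import Cfsg.Agent.Lib.Helper56.G24S
import Cfsg.Agent.Lib.Helper56.G24C

set_option autoImplicit false
open Cfsg

namespace Cfsg.Agent.S3662

open Matrix Cfsg.Agent.Lib.Helper86.Sp4F4 Cfsg.Agent.Lib.Helper56.G24A
  Cfsg.Agent.Lib.Helper56.G24B Cfsg.Agent.Lib.Helper56.G24C Cfsg.Agent.Lib.Helper56.G24T
  Cfsg.Agent.Lib.Helper56

/-! ### transport of the Chevalley group along a field isomorphism -/

section transport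

variable {F K : Type*} [Field F] [Field K]

noncomputable def glEquiv (e : F ≃+* K) :
    GL Cfsg.Lie.chevG2.Idx F ≃* GL Cfsg.Lie.chevG2.Idx K :=
  Units.mapEquiv (RingEquiv.mapMatrix e).toMulEquiv

theorem glEquiv_val (e : F ≃+* K) (g : GL Cfsg.Lie.chevG2.Idx F) :
    ((glEquiv e g : GL Cfsg.Lie.chevG2.Idx K) : Matrix Cfsg.Lie.chevG2.Idx Cfsg.Lie.chevG2.Idx K) =
      (g : Matrix Cfsg.Lie.chevG2.Idx Cfsg.Lie.chevG2.Idx F).map e := rfl

theorem glEquiv_symm_val (e : F ≃+* K) (g : GL Cfsg.Lie.chevG2.Idx K) :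
    (((glEquiv e).symm g : GL Cfsg.Lie.chevG2.Idx F) :
      Matrix Cfsg.Lie.chevG2.Idx Cfsg.Lie.chevG2.Idx F) =
      (g : Matrix Cfsg.Lie.chevG2.Idx Cfsg.Lie.chevG2.Idx K).map e.symm := rfl

theorem map_group (e : F ≃+* K) :
    (Cfsg.Lie.chevG2.group F).map ((glEquiv e : _ ≃* _) : _ →* _) = Cfsg.Lie.chevG2.group K := by
  unfold Cfsg.Lie.ChevalleyDatum.group
  rw [MonoidHom.map_closure]
  congr 1
  ext g'
  constructor
  · rintro ⟨g, ⟨r, t, hg⟩, rfl⟩
    refine ⟨r, e t, ?_⟩
    show ((glEquiv e g : GL Cfsg.Lie.chevG2.Idx K) :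
      Matrix Cfsg.Lie.chevG2.Idx Cfsg.Lie.chevG2.Idx K) = _
    rw [glEquiv_val, hg]
    exact Cfsg.Agent.H18.xMat_map _ (e : F →+* K) r t
  · rintro ⟨r, t, hg⟩
    refine ⟨(glEquiv e).symm g', ⟨r, e.symm t, ?_⟩, (glEquiv e).apply_symm_apply g'⟩
    rw [glEquiv_symm_val, hg]
    exact Cfsg.Agent.H18.xMat_map _ (e.symm : K →+* F) r t

/-- the Chevalley groups over isomorphic fields are isomorphic. -/
noncomputable def groupEquiv (e : F ≃+* K) :
    ↥(Cfsg.Lie.chevG2.group F) ≃* ↥(Cfsg.Lie.chevG2.group K) :=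
  ((glEquiv e).subgroupMap (Cfsg.Lie.chevG2.group F)).trans (MulEquiv.subgroupCongr (map_group e))

end transport

/-! ### the prime graph of `P ≅ G_2(4)` -/

instance finP : Finite P := inferInstance

theorem card_P : Nat.card P = 251596800 := by
  rw [Nat.card_congr equivG.toEquiv, Cfsg.Agent.S1059.result (F := F4) (q := 4) F4.card]
  norm_num

instance fact7 : Fact (Nat.Prime 7) := ⟨by norm_num⟩
instance fact13 : Fact (Nat.Prime 13) := ⟨by norm_num⟩

theorem fac7 : (Nat.card P).factorization 7 = 1 :=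
  G24S.fac_of_mul 7 35942400 (by rw [card_P]) (by norm_num)

theorem fac13 : (Nat.card P).factorization 13 = 1 :=
  G24S.fac_of_mul 13 19353600 (by rw [card_P]) (by norm_num)

theorem no7 (g : P) (hg : 7 ∣ orderOf g) : orderOf g ∣ 63 :=
  orderOf_dvd_of_pow_eq_one (G24S.pow_eq_one_of_cent 7 fac7 x7 order_x7 63 cent7 g hg)

theorem no13 (g : P) (hg : 13 ∣ orderOf g) : orderOf g ∣ 13 :=
  orderOf_dvd_of_pow_eq_one (G24S.pow_eq_one_of_cent 13 fac13 x13 order_x13 13
    (G24S.cent13 card_P x13 order_x13 cent13a) g hg)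

theorem prime_dvd_card (r : ℕ) (hr : r.Prime) (h : r ∣ 251596800) :
    r = 2 ∨ r = 3 ∨ r = 5 ∨ r = 7 ∨ r = 13 := by
  have h0 : (251596800 : ℕ) = 2 ^ 12 * 3 ^ 3 * 5 ^ 2 * 7 * 13 := by norm_num
  rw [h0] at h
  rcases (Nat.Prime.dvd_mul hr).mp h with h | h
  · rcases (Nat.Prime.dvd_mul hr).mp h with h | h
    · rcases (Nat.Prime.dvd_mul hr).mp h with h | h
      · rcases (Nat.Prime.dvd_mul hr).mp h with h | h
        · left
          exact (Nat.prime_dvd_prime_iff_eq hr (by norm_num)).mp (hr.dvd_of_dvd_pow h)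
        · right; left
          exact (Nat.prime_dvd_prime_iff_eq hr (by norm_num)).mp (hr.dvd_of_dvd_pow h)
      · right; right; left
        exact (Nat.prime_dvd_prime_iff_eq hr (by norm_num)).mp (hr.dvd_of_dvd_pow h)
    · right; right; right; left
      exact (Nat.prime_dvd_prime_iff_eq hr (by norm_num)).mp h
  · right; right; right; right
    exact (Nat.prime_dvd_prime_iff_eq hr (by norm_num)).mp h

/-- the edges of the prime graph of `G_2(4)`. -/
theorem edges_P (p q : ℕ) (hp : p.Prime) (hq : q.Prime) (hpq : p ≠ q) :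
    (∃ g : P, orderOf g = p * q) ↔ (p * q = 6 ∨ p * q = 10 ∨ p * q = 15 ∨ p * q = 21) := by
  constructor
  · rintro ⟨g, hg⟩
    have hdvd : p * q ∣ 251596800 := by
      rw [← card_P, ← hg]
      exact orderOf_dvd_natCard _
    have hp5 := prime_dvd_card p hp (Dvd.dvd.trans (Dvd.intro _ rfl) hdvd)
    have hq5 := prime_dvd_card q hq (Dvd.dvd.trans (Dvd.intro_left _ rfl) hdvd)
    have h7 : 7 ∣ p * q → p * q ∣ 63 := by
      intro h
      have := no7 g (hg ▸ h)
      rwa [hg] at this
    have h13 : 13 ∣ p * q → p * q ∣ 13 := by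
      intro h
      have := no13 g (hg ▸ h)
      rwa [hg] at this
    rcases hp5 with rfl | rfl | rfl | rfl | rfl <;> rcases hq5 with rfl | rfl | rfl | rfl | rfl
    all_goals omega
  · rintro (h | h | h | h)
    · rw [h]; exact exists_order6
    · rw [h]; exact exists_order10
    · rw [h]; exact exists_order15
    · rw [h]; exact exists_order21

/-- elements of order 7 have no non-zero fixed vector. -/
theorem fixed7 (g : P) (hg : orderOf g = 7) (u : Fin 6 → F4) (hu : pi2 g *ᵥ u = u) : u = 0 := by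
  obtain ⟨c, i, hci⟩ := G24S.sylow_conj 7 fac7 x7 g order_x7 hg
  have hpow : ∀ n : ℕ, (pi2 g) ^ n *ᵥ u = u := by
    intro n
    induction n with
    | zero => rw [pow_zero, Matrix.one_mulVec]
    | succ n ih => rw [pow_succ, ← Matrix.mulVec_mulVec, hu, ih]
  have h1 : Y7 *ᵥ (pi2 c *ᵥ u) = pi2 c *ᵥ u := by
    rw [← pi2_x7, hci, map_mul, map_mul, map_pow, Matrix.mulVec_mulVec]
    have h2 : pi2 c * pi2 g ^ i * pi2 c⁻¹ * pi2 c = pi2 c * pi2 g ^ i := by
      rw [mul_assoc, ← map_mul, inv_mul_cancel, map_one, mul_one]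
    rw [h2, ← Matrix.mulVec_mulVec, hpow]
  have h3 := fpf7 _ h1
  calc u = (pi2 c⁻¹ * pi2 c) *ᵥ u := by rw [← map_mul, inv_mul_cancel, map_one, Matrix.one_mulVec]
    _ = 0 := by rw [← Matrix.mulVec_mulVec, h3, Matrix.mulVec_zero]

/-- elements of order 13 have no non-zero fixed vector. -/
theorem fixed13 (g : P) (hg : orderOf g = 13) (u : Fin 6 → F4) (hu : pi2 g *ᵥ u = u) : u = 0 := by
  obtain ⟨c, i, hci⟩ := G24S.sylow_conj 13 fac13 x13 g order_x13 hg
  have hpow : ∀ n : ℕ, (pi2 g) ^ n *ᵥ u = u := by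
    intro n
    induction n with
    | zero => rw [pow_zero, Matrix.one_mulVec]
    | succ n ih => rw [pow_succ, ← Matrix.mulVec_mulVec, hu, ih]
  have h1 : Y13 *ᵥ (pi2 c *ᵥ u) = pi2 c *ᵥ u := by
    rw [← pi2_x13, hci, map_mul, map_mul, map_pow, Matrix.mulVec_mulVec]
    have h2 : pi2 c * pi2 g ^ i * pi2 c⁻¹ * pi2 c = pi2 c * pi2 g ^ i := by
      rw [mul_assoc, ← map_mul, inv_mul_cancel, map_one, mul_one]
    rw [h2, ← Matrix.mulVec_mulVec, hpow]
  have h3 := fpf13 _ h1
  calc u = (pi2 c⁻¹ * pi2 c) *ᵥ u := by rw [← map_mul, inv_mul_cancel, map_one, Matrix.one_mulVec]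
    _ = 0 := by rw [← Matrix.mulVec_mulVec, h3, Matrix.mulVec_zero]

/-! ### the semidirect products -/

/-- `k` copies of the natural module. -/
abbrev V (k : ℕ) : Type := Fin k → Fin 6 → F4

instance actV (k : ℕ) : DistribMulAction P (V k) where
  smul g v := fun i => pi2 g *ᵥ v i
  one_smul v := by
    funext i
    show pi2 1 *ᵥ v i = v i
    rw [map_one, Matrix.one_mulVec]
  mul_smul g h v := by
    funext i
    show pi2 (g * h) *ᵥ v i = pi2 g *ᵥ (pi2 h *ᵥ v i)
    rw [map_mul, Matrix.mulVec_mulVec]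
  smul_zero g := by
    funext i
    show pi2 g *ᵥ (0 : Fin 6 → F4) = 0
    exact Matrix.mulVec_zero _
  smul_add g v w := by
    funext i
    show pi2 g *ᵥ (v i + w i) = pi2 g *ᵥ v i + pi2 g *ᵥ w i
    exact Matrix.mulVec_add _ _ _

theorem smul_apply (k : ℕ) (g : P) (v : V k) (i : Fin k) : (g • v) i = pi2 g *ᵥ v i := rfl

/-- the action as a homomorphism. -/
def phi (k : ℕ) : P →* MulAut (Multiplicative (V k)) :=
  (MulAutMultiplicative (V k)).symm.toMonoidHom.comp (DistribMulAction.toAddAut P (V k))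

theorem phi_apply (k : ℕ) (g : P) (n : Multiplicative (V k)) :
    phi k g n = Multiplicative.ofAdd (g • Multiplicative.toAdd n) := rfl

/-- the split extension of `k` copies of the natural module by `G_2(4)`. -/
abbrev Hk (k : ℕ) : Type := Multiplicative (V k) ⋊[phi k] P

instance finHk (k : ℕ) : Finite (Hk k) := Finite.of_equiv _ SemidirectProduct.equivProd.symm

theorem card_V (k : ℕ) : Nat.card (Multiplicative (V k)) = 4096 ^ k := by
  have h1 : Nat.card (Multiplicative (V k)) = Nat.card (V k) := rfl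
  rw [h1, Nat.card_fun, Nat.card_fun, Nat.card_eq_fintype_card, Nat.card_eq_fintype_card,
    Nat.card_eq_fintype_card, F4.card, Fintype.card_fin, Fintype.card_fin]
  norm_num

theorem card_Hk (k : ℕ) : Nat.card (Hk k) = 4096 ^ k * 251596800 := by
  rw [SemidirectProduct.card, card_V, card_P]

theorem sq_V (k : ℕ) (n : Multiplicative (V k)) : n * n = 1 := by
  show Multiplicative.ofAdd (Multiplicative.toAdd n + Multiplicative.toAdd n) = 1
  have : Multiplicative.toAdd n + Multiplicative.toAdd n = 0 := by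
    funext i j
    exact add_self _
  rw [this]
  rfl

/-- an element whose image in `G_2(4)` has order 7 or 13 has the same order. -/
theorem pow_eq_one_of_fixed (k : ℕ) (h : Hk k) (m : ℕ) (hm : h.right ^ m = 1)
    (hfix : ∀ u : Fin 6 → F4, pi2 h.right *ᵥ u = u → u = 0) : h ^ m = 1 := by
  set n' := (h ^ m).left with hn'
  have hr : (h ^ m).right = 1 := by
    have : (h ^ m).right = SemidirectProduct.rightHom (h ^ m) := rfl
    rw [this, map_pow]
    exact hm
  have h1 : h ^ m = SemidirectProduct.inl n' := by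
    apply SemidirectProduct.ext
    · rfl
    · rw [hr]; rfl
  have hcomm : h * h ^ m = h ^ m * h := by rw [← pow_succ', ← pow_succ]
  rw [h1] at hcomm
  have h2 := congrArg SemidirectProduct.left hcomm
  rw [SemidirectProduct.mul_left, SemidirectProduct.mul_left, SemidirectProduct.left_inl,
    SemidirectProduct.right_inl, map_one, MulAut.one_apply, mul_comm n' h.left] at h2
  have h3 : phi k h.right n' = n' := mul_left_cancel h2
  rw [phi_apply] at h3
  have h4 : h.right • Multiplicative.toAdd n' = Multiplicative.toAdd n' :=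
    congrArg Multiplicative.toAdd h3
  have h5 : Multiplicative.toAdd n' = 0 := by
    funext i
    apply hfix
    have := congrFun h4 i
    rwa [smul_apply] at this
  have h6 : n' = 1 := by
    have : n' = Multiplicative.ofAdd (Multiplicative.toAdd n') := rfl
    rw [this, h5]
    rfl
  rw [h1, h6, map_one]

theorem edges_Hk (k : ℕ) (p q : ℕ) (hp : p.Prime) (hq : q.Prime) (hpq : p ≠ q) :
    (∃ h : Hk k, orderOf h = p * q) ↔ (∃ g : P, orderOf g = p * q) := by
  constructor
  · rintro ⟨h, hh⟩
    set g := h.right with hg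
    set m := orderOf g with hm
    have hm0 : 0 < m := orderOf_pos g
    have hgpq : g ^ (p * q) = 1 := by
      have : g ^ (p * q) = SemidirectProduct.rightHom (h ^ (p * q)) := by
        rw [map_pow]; rfl
      rw [this, ← hh, pow_orderOf_eq_one, map_one]
    have hmdvd : m ∣ p * q := orderOf_dvd_of_pow_eq_one hgpq
    have hgm : g ^ m = 1 := pow_orderOf_eq_one g
    have hr : (h ^ m).right = 1 := by
      have : (h ^ m).right = SemidirectProduct.rightHom (h ^ m) := rfl
      rw [this, map_pow]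
      exact hgm
    have h1 : h ^ m = SemidirectProduct.inl (h ^ m).left := by
      apply SemidirectProduct.ext
      · rfl
      · rw [hr]; rfl
    have h2m : h ^ (m * 2) = 1 := by
      rw [pow_mul, h1, pow_two, ← map_mul, sq_V, map_one]
    have hdvd2 : p * q ∣ m * 2 := by
      rw [← hh]
      exact orderOf_dvd_of_pow_eq_one h2m
    obtain ⟨a, ha⟩ := hmdvd
    have ha2 : a ∣ 2 := by
      rw [ha] at hdvd2
      exact Nat.dvd_of_mul_dvd_mul_left hm0 hdvd2
    have hale : a ≤ 2 := Nat.le_of_dvd (by norm_num) ha2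
    have ha0 : a ≠ 0 := by
      rintro rfl
      rw [mul_zero] at ha
      exact (Nat.mul_pos hp.pos hq.pos).ne' ha
    have hacases : a = 1 ∨ a = 2 := by omega
    rcases hacases with rfl | rfl
    · exact ⟨g, by rw [← hm, ha, mul_one]⟩
    · -- `p * q = m * 2`
      have hm_dvd_card : m ∣ 251596800 := by
        rw [← card_P]
        exact orderOf_dvd_natCard g
      have hmprime : m.Prime ∧ m ≠ 2 := by
        have h2 : (2 : ℕ) ∣ p * q := by rw [ha]; exact Dvd.intro_left m rfl
        rcases (Nat.Prime.dvd_mul Nat.prime_two).mp h2 with h | h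
        · have hp2 : p = 2 := ((Nat.prime_dvd_prime_iff_eq Nat.prime_two hp).mp h).symm
          have hqm : q = m := by
            rw [hp2, mul_comm] at ha
            exact Nat.eq_of_mul_eq_mul_right (by norm_num) ha
          rw [← hqm]
          exact ⟨hq, fun h' => hpq (by rw [hp2, h'])⟩
        · have hq2 : q = 2 := ((Nat.prime_dvd_prime_iff_eq Nat.prime_two hq).mp h).symm
          have hpm : p = m := by
            rw [hq2] at ha
            exact Nat.eq_of_mul_eq_mul_right (by norm_num) ha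
          rw [← hpm]
          exact ⟨hp, fun h' => hpq (by rw [hq2, h'])⟩
      have hm5 := prime_dvd_card m hmprime.1 hm_dvd_card
      rcases hm5 with e | e | e | e | e
      · exact absurd e hmprime.2
      · rw [ha, e]
        exact exists_order6
      · rw [ha, e]
        exact exists_order10
      · exfalso
        have h7 : h ^ m = 1 := pow_eq_one_of_fixed k h m hgm (fixed7 g (by rw [← hm, e]))
        have : orderOf h ∣ m := orderOf_dvd_of_pow_eq_one h7
        rw [hh, ha] at this
        have := Nat.le_of_dvd hm0 this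
        omega
      · exfalso
        have h13 : h ^ m = 1 := pow_eq_one_of_fixed k h m hgm (fixed13 g (by rw [← hm, e]))
        have : orderOf h ∣ m := orderOf_dvd_of_pow_eq_one h13
        rw [hh, ha] at this
        have := Nat.le_of_dvd hm0 this
        omega
  · rintro ⟨g, hg⟩
    refine ⟨SemidirectProduct.inr g, ?_⟩
    rw [← hg]
    exact orderOf_injective (SemidirectProduct.inr : P →* Hk k) SemidirectProduct.inr_injective g

theorem primes_Hk (k : ℕ) (p : ℕ) (hp : p.Prime) :
    p ∣ 251596800 ↔ p ∣ 4096 ^ k * 251596800 := by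
  constructor
  · intro h
    exact Dvd.dvd.mul_left h _
  · intro h
    rcases (Nat.Prime.dvd_mul hp).mp h with h | h
    · have h1 : p ∣ 4096 := hp.dvd_of_dvd_pow h
      have h2 : p ∣ 2 ^ 12 := by
        have : (4096 : ℕ) = 2 ^ 12 := by norm_num
        rwa [this] at h1
      have h3 : p = 2 := (Nat.prime_dvd_prime_iff_eq hp Nat.prime_two).mp (hp.dvd_of_dvd_pow h2)
      rw [h3]
      norm_num
    · exact h

/-- The prime graph of a finite group has the prime divisors of its order as vertices, two distinct primes p, q being joined when the group has an element of order pq; two groups have the same prime graph when they have the same prime divisors and the same joined pairs. Let F be the field with 4 elements and L the Chevalley group of type G₂ over F. There are finite groups of arbitrarily large order with the same prime graph as L. -/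
theorem result {F : Type*} [Field F] [Fintype F] (hF : Fintype.card F = 4) (N : ℕ) :
    ∃ (H : Type) (_ : Group H) (_ : Finite H), N < Nat.card H ∧
      ((∀ p : ℕ, p.Prime → (p ∣ Nat.card ↥(Cfsg.Lie.chevG2.group F) ↔ p ∣ Nat.card H)) ∧
      (∀ p q : ℕ, p.Prime → q.Prime → p ≠ q → ((∃ g : ↥(Cfsg.Lie.chevG2.group F), orderOf g = p * q) ↔ (∃ g : H, orderOf g = p * q)))) := by
  obtain ⟨ψ⟩ : Nonempty (↥(Cfsg.Lie.chevG2.group F) ≃* P) :=
    ⟨(groupEquiv (FiniteField.ringEquivOfCardEq (K := F) (K' := F4) (by rw [hF, F4.card]))).trans equivG.symm⟩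
  have hcard : Nat.card ↥(Cfsg.Lie.chevG2.group F) = 251596800 := by
    rw [Nat.card_congr ψ.toEquiv, card_P]
  refine ⟨Hk N, inferInstance, inferInstance, ?_, ?_, ?_⟩
  · rw [card_Hk]
    have h1 : N < 2 ^ N := Nat.lt_two_pow_self
    have h2 : 2 ^ N ≤ 4096 ^ N := Nat.pow_le_pow_left (by norm_num) N
    have h3 : 4096 ^ N ≤ 4096 ^ N * 251596800 := Nat.le_mul_of_pos_right _ (by norm_num)
    omega
  · intro p hp
    rw [hcard, card_Hk]
    exact primes_Hk N p hp
  · intro p q hp hq hpq
    rw [edges_Hk N p q hp hq hpq]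
    constructor
    · rintro ⟨g, hg⟩
      exact ⟨ψ g, by rw [ψ.orderOf_eq, hg]⟩
    · rintro ⟨g, hg⟩
      exact ⟨ψ.symm g, by rw [ψ.symm.orderOf_eq, hg]⟩

end Cfsg.Agent.S3662
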