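import Cfsg.Statements.S3663
import Cfsg.Agent.Lib.Helper61.PrimeGraph
import Cfsg.Agent.Lib.Helper61.SemiSpec
import Cfsg.Agent.Lib.Helper61.SU34
import Cfsg.Agent.Lib.Helper61.U34Main

set_option autoImplicit false
open Cfsg

namespace Cfsg.Agent.S3663

open Cfsg.Agent.Lib.Helper61.PrimeGraph Cfsg.Agent.Lib.Helper61.SemiSpec
open Cfsg.Agent.Lib.Helper61.F16 Cfsg.Agent.Lib.Helper61.U34Mod Cfsg.Agent.Lib.Helper61.U34Main
open Cfsg.Agent.Lib.Helper61

theorem prime_dvd_card_iff {X : Type*} [Group X] [Finite X] (r : ℕ) (hr : r.Prime) :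
    r ∣ Nat.card X ↔ ∃ x : X, orderOf x = r := by
  constructor
  · intro h
    have : Fact r.Prime := ⟨hr⟩
    exact exists_prime_orderOf_dvd_card' r h
  · rintro ⟨x, hx⟩
    rw [← hx]
    exact orderOf_dvd_natCard x

theorem prime_cases (r : ℕ) (hr : r.Prime) (h : r ∣ 2 ^ 2 * 3 * 5 * 13) :
    r = 2 ∨ r = 3 ∨ r = 5 ∨ r = 13 := by
  rcases (Nat.Prime.dvd_mul hr).1 h with h | h
  · rcases (Nat.Prime.dvd_mul hr).1 h with h | h
    · rcases (Nat.Prime.dvd_mul hr).1 h with h | h
      · exact Or.inl ((Nat.prime_dvd_prime_iff_eq hr Nat.prime_two).1 (hr.dvd_of_dvd_pow h))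
      · exact Or.inr (Or.inl ((Nat.prime_dvd_prime_iff_eq hr Nat.prime_three).1 h))
    · exact Or.inr (Or.inr (Or.inl ((Nat.prime_dvd_prime_iff_eq hr (by norm_num)).1 h)))
  · exact Or.inr (Or.inr (Or.inr ((Nat.prime_dvd_prime_iff_eq hr (by norm_num)).1 h)))

/-- The prime graph of a finite group all of whose elements have order dividing 20, 15 or 13 and
which has elements of orders 10, 15 and 13. -/
theorem pg_data {X : Type*} [Group X] [Finite X]
    (hpow : ∀ x : X, x ^ 20 = 1 ∨ x ^ 15 = 1 ∨ x ^ 13 = 1)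
    (h10 : ∃ x : X, orderOf x = 10) (h15 : ∃ x : X, orderOf x = 15)
    (h13 : ∃ x : X, orderOf x = 13) :
    (∀ p : ℕ, p.Prime → (p ∣ Nat.card X ↔ p = 2 ∨ p = 3 ∨ p = 5 ∨ p = 13)) ∧
    (∀ p q : ℕ, p.Prime → q.Prime → p ≠ q →
      ((∃ g : X, orderOf g = p * q) ↔ (p * q = 10 ∨ p * q = 15))) := by
  have hdvd : ∀ x : X, orderOf x ∣ 20 ∨ orderOf x ∣ 15 ∨ orderOf x ∣ 13 := by
    intro x
    rcases hpow x with h | h | h
    · exact Or.inl (orderOf_dvd_of_pow_eq_one h)
    · exact Or.inr (Or.inl (orderOf_dvd_of_pow_eq_one h))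
    · exact Or.inr (Or.inr (orderOf_dvd_of_pow_eq_one h))
  have hprime : ∀ (x : X) (r : ℕ), r.Prime → r ∣ orderOf x → r = 2 ∨ r = 3 ∨ r = 5 ∨ r = 13 := by
    intro x r hr h
    apply prime_cases r hr
    rcases hdvd x with h1 | h1 | h1
    · exact (h.trans h1).trans (by decide)
    · exact (h.trans h1).trans (by decide)
    · exact (h.trans h1).trans (by decide)
  obtain ⟨x10, hx10⟩ := h10
  obtain ⟨x15, hx15⟩ := h15
  obtain ⟨x13, hx13⟩ := h13
  constructor
  · intro p hp
    rw [prime_dvd_card_iff p hp]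
    constructor
    · rintro ⟨x, hx⟩
      exact hprime x p hp (by rw [hx])
    · rintro (rfl | rfl | rfl | rfl)
      · exact ⟨x10 ^ 5, by rw [orderOf_pow_of_dvd (by norm_num) (by rw [hx10]; norm_num), hx10]⟩
      · exact ⟨x15 ^ 5, by rw [orderOf_pow_of_dvd (by norm_num) (by rw [hx15]; norm_num), hx15]⟩
      · exact ⟨x10 ^ 2, by rw [orderOf_pow_of_dvd (by norm_num) (by rw [hx10]; norm_num), hx10]⟩
      · exact ⟨x13, hx13⟩
  · intro p q hp hq hpq
    constructor
    · rintro ⟨g, hg⟩
      have h1 := hprime g p hp (by rw [hg]; exact Dvd.intro _ rfl)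
      have h2 := hprime g q hq (by rw [hg]; exact Dvd.intro_left _ rfl)
      have h3 := hdvd g
      rw [hg] at h3
      rcases h1 with rfl | rfl | rfl | rfl <;> rcases h2 with rfl | rfl | rfl | rfl <;>
        first
          | exact absurd rfl hpq
          | (left; rfl)
          | (right; rfl)
          | (exfalso; revert h3; decide)
    · rintro (h | h)
      · exact ⟨x10, by rw [hx10, h]⟩
      · exact ⟨x15, by rw [hx15, h]⟩

theorem samePG_of_data {X : Type*} {Y : Type*} [Group X] [Finite X] [Group Y] [Finite Y]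
    (hpowX : ∀ x : X, x ^ 20 = 1 ∨ x ^ 15 = 1 ∨ x ^ 13 = 1)
    (h10X : ∃ x : X, orderOf x = 10) (h15X : ∃ x : X, orderOf x = 15)
    (h13X : ∃ x : X, orderOf x = 13)
    (hpowY : ∀ x : Y, x ^ 20 = 1 ∨ x ^ 15 = 1 ∨ x ^ 13 = 1)
    (h10Y : ∃ x : Y, orderOf x = 10) (h15Y : ∃ x : Y, orderOf x = 15)
    (h13Y : ∃ x : Y, orderOf x = 13) : SamePG X Y := by
  obtain ⟨a1, a2⟩ := pg_data hpowX h10X h15X h13X
  obtain ⟨b1, b2⟩ := pg_data hpowY h10Y h15Y h13Y
  exact ⟨fun r hr => (a1 r hr).trans (b1 r hr).symm,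
    fun r s hr hs hrs => (a2 r s hr hs hrs).trans (b2 r s hr hs hrs).symm⟩

/-- The prime graph of `PSU(3,4)` is that of `SU(3,4)` over the model field. -/
theorem samePG_model {F : Type*} [Field F] [Fintype F] (hF : Fintype.card F = 16) :
    SamePG (Cfsg.PSU 3 F 4) G :=
  samePG_of_data (SU34.psu_pow hF) (SU34.exists_orderOf_ten hF).2
    (SU34.exists_orderOf_fifteen hF).2 (SU34.exists_orderOf_thirteen hF).2
    (SU34.su_pow' GF16.card) (SU34.exists_orderOf_ten GF16.card).1
    (SU34.exists_orderOf_fifteen GF16.card).1 (SU34.exists_orderOf_thirteen GF16.card).1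

/-- The prime graph of a finite group has the prime divisors of its order as vertices, two distinct primes p, q being joined when the group has an element of order pq; two groups have the same prime graph when they have the same prime divisors and the same joined pairs. Let F be the field with 16 elements and L = PSU(3,4) realised over F. There are finite groups of arbitrarily large order with the same prime graph as L. -/
theorem result {F : Type*} [Field F] [Fintype F] (hF : Fintype.card F = 16) (N : ℕ) :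
    ∃ (H : Type) (_ : Group H) (_ : Finite H), N < Nat.card H ∧
      ((∀ p : ℕ, p.Prime → (p ∣ Nat.card (Cfsg.PSU 3 F 4) ↔ p ∣ Nat.card H)) ∧
      (∀ p q : ℕ, p.Prime → q.Prime → p ≠ q → ((∃ g : (Cfsg.PSU 3 F 4), orderOf g = p * q) ↔ (∃ g : H, orderOf g = p * q)))) := by
  have hG := pg_data (SU34.su_pow' GF16.card) (SU34.exists_orderOf_ten GF16.card).1
    (SU34.exists_orderOf_fifteen GF16.card).1 (SU34.exists_orderOf_thirteen GF16.card).1
  obtain ⟨H, hGr, hFt, hN, hS⟩ := exists_large_samePG (S := G) (N := Multiplicative V)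
    (act G V) 5 (by norm_num)
    (by
      intro n
      apply Multiplicative.toAdd.injective
      rw [toAdd_pow, toAdd_one]
      exact five_nsmul _)
    ((hG.1 5 (by norm_num)).2 (by norm_num))
    (by
      intro g n hn hgn r hr hr5 hord
      have hr' : r = 2 ∨ r = 3 ∨ r = 5 ∨ r = 13 :=
        (hG.1 r hr).1 (by rw [← hord]; exact orderOf_dvd_natCard g)
      rcases hr' with rfl | rfl | rfl | rfl
      · exact (hG.2 5 2 (by norm_num) (by norm_num) (by norm_num)).2 (Or.inl rfl)
      · exact (hG.2 5 3 (by norm_num) (by norm_num) (by norm_num)).2 (Or.inr rfl)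
      · exact absurd rfl hr5
      · exfalso
        apply hn
        have h1 : g • Multiplicative.toAdd n = Multiplicative.toAdd n := by
          have := congrArg Multiplicative.toAdd hgn
          rwa [act_apply, toAdd_ofAdd] at this
        have h2 := fpf g hord (Multiplicative.toAdd n) h1
        apply Multiplicative.toAdd.injective
        rw [h2, toAdd_one]) N
  refine ⟨H, hGr, Finite.of_fintype H, by rw [Nat.card_eq_fintype_card]; exact hN, ?_⟩
  exact (samePG_model hF).trans hS

end Cfsg.Agent.S3663
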