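import Cfsg.Statements.S3670
import Cfsg.Agent.Lib.Helper56.U3Chars
import Cfsg.Agent.Lib.Helper56.HSide
import Cfsg.Agent.Lib.Helper56.SU33
import Cfsg.Agent.Lib.Helper80.Integrality
import Cfsg.Agent.Lib.CT.Ops
-- import your own Cfsg.Agent.* helpers here

set_option autoImplicit false
open Cfsg

namespace Cfsg.Agent.S3670

open Cfsg.Agent.Lib.Helper56.P6048 Cfsg.Agent.Lib.Helper56.P6048S Cfsg.Agent.Lib.Helper56.U3Chars

/-- Isomorphic groups have the same character degrees. -/
theorem charDegrees_congr {A : Type*} {B : Type*} [Group A] [Group B] (e : A ≃* B) :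
    charDegrees A = charDegrees B := by
  ext d
  constructor
  · rintro ⟨⟨χ, hχ⟩, rfl⟩
    refine ⟨⟨fun x => χ (e.symm x),
      Cfsg.Agent.Lib.CT.Ops.isIrrCharacter_comp_mulEquiv e.symm hχ⟩, ?_⟩
    show ⌊(χ (e.symm 1)).re⌋₊ = ⌊(χ 1).re⌋₊
    rw [map_one]
  · rintro ⟨⟨χ, hχ⟩, rfl⟩
    refine ⟨⟨fun x => χ (e x), Cfsg.Agent.Lib.CT.Ops.isIrrCharacter_comp_mulEquiv e hχ⟩, ?_⟩
    show ⌊(χ (e 1)).re⌋₊ = ⌊(χ 1).re⌋₊
    rw [map_one]

theorem prime_dvd_6048 (p : ℕ) (hp : p.Prime) (h : p ∣ 6048) : p = 2 ∨ p = 3 ∨ p = 7 := by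
  have e : (6048 : ℕ) = 2 ^ 5 * 3 ^ 3 * 7 := by norm_num
  rw [e] at h
  rcases (Nat.Prime.dvd_mul hp).mp h with h | h
  · rcases (Nat.Prime.dvd_mul hp).mp h with h | h
    · left
      exact (Nat.prime_dvd_prime_iff_eq hp Nat.prime_two).mp (hp.dvd_of_dvd_pow h)
    · right; left
      exact (Nat.prime_dvd_prime_iff_eq hp Nat.prime_three).mp (hp.dvd_of_dvd_pow h)
  · right; right
    exact (Nat.prime_dvd_prime_iff_eq hp (by norm_num)).mp h

/-- The degree graph of a group of order 6048 with irreducible characters of degrees divisible by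
6, 14 and 21. -/
theorem graph_of_degrees (X : Type*) [Group X] [Finite X] (hc : Nat.card X = 6048)
    (h6 : ∃ d ∈ charDegrees X, 6 ∣ d) (h14 : ∃ d ∈ charDegrees X, 14 ∣ d)
    (h21 : ∃ d ∈ charDegrees X, 21 ∣ d) :
    degreePrimes X = {p | p = 2 ∨ p = 3 ∨ p = 7} ∧
      (degreeGraph X).Adj = fun p q => p ≠ q ∧ (p = 2 ∨ p = 3 ∨ p = 7) ∧ (q = 2 ∨ q = 3 ∨ q = 7) := by
  have key : ∀ d ∈ charDegrees X, d ∣ 6048 := by
    rintro d ⟨χ, rfl⟩
    rw [← hc]
    exact Cfsg.Agent.Lib.Helper80.Integrality.charDegree_dvd_card χ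
  obtain ⟨d6, hd6, h6⟩ := h6
  obtain ⟨d14, hd14, h14⟩ := h14
  obtain ⟨d21, hd21, h21⟩ := h21
  constructor
  · ext p
    constructor
    · rintro ⟨hp, d, hd, hpd⟩
      exact prime_dvd_6048 p hp (dvd_trans hpd (key d hd))
    · rintro (rfl | rfl | rfl)
      · exact ⟨Nat.prime_two, d6, hd6, dvd_trans (by norm_num) h6⟩
      · exact ⟨Nat.prime_three, d6, hd6, dvd_trans (by norm_num) h6⟩
      · exact ⟨by norm_num, d14, hd14, dvd_trans (by norm_num) h14⟩
  · funext p q
    apply propext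
    constructor
    · rintro ⟨hne, hp, hq, d, hd, hpq⟩
      exact ⟨hne, prime_dvd_6048 p hp (dvd_trans (dvd_trans (dvd_mul_right p q) hpq) (key d hd)),
        prime_dvd_6048 q hq (dvd_trans (dvd_trans (dvd_mul_left q p) hpq) (key d hd))⟩
    · rintro ⟨hne, (rfl | rfl | rfl), (rfl | rfl | rfl)⟩
      · exact absurd rfl hne
      · exact ⟨hne, Nat.prime_two, Nat.prime_three, d6, hd6, h6⟩
      · exact ⟨hne, Nat.prime_two, by norm_num, d14, hd14, h14⟩
      · exact ⟨hne, Nat.prime_three, Nat.prime_two, d6, hd6, h6⟩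
      · exact absurd rfl hne
      · exact ⟨hne, Nat.prime_three, by norm_num, d21, hd21, h21⟩
      · exact ⟨hne, by norm_num, Nat.prime_two, d14, hd14, h14⟩
      · exact ⟨hne, by norm_num, Nat.prime_three, d21, hd21, h21⟩
      · exact absurd rfl hne

/-- The character degree graph of a finite group has as vertices the primes dividing some irreducible complex character degree, two distinct primes being joined when their product divides some irreducible character degree; two groups have the same character degree graph when they have the same vertices and the same joined pairs. Let F be the field with 9 elements and L = PSU(3,3) realised over F (order 6048). There is a finite solvable group of order 6048 with the same character degree graph as L; so L is not determined by its order together with its character degree graph. -/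
theorem result {F : Type*} [Field F] [Fintype F] (hF : Fintype.card F = 9) :
    ∃ (H : Type) (_ : Group H) (_ : Fintype H), Group.IsSolvable H ∧ Nat.card H = 6048 ∧ Cfsg.degreePrimes H = Cfsg.degreePrimes (Cfsg.PSU 3 F 3) ∧ Cfsg.degreeGraph H = Cfsg.degreeGraph (Cfsg.PSU 3 F 3) := by
  obtain ⟨e⟩ := Cfsg.Agent.Lib.Helper56.SU33.iso_PSU hF
  haveI : Finite P := finite_P
  haveI : Finite (Cfsg.PSU 3 F 3) := Finite.of_equiv P e.toEquiv
  have hcard : Nat.card (Cfsg.PSU 3 F 3) = 6048 := by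
    rw [← Nat.card_congr e.toEquiv, card_P]
  have hdeg := charDegrees_congr e
  have hP := graph_of_degrees (Cfsg.PSU 3 F 3) hcard ⟨6, hdeg ▸ mem6, dvd_rfl⟩
    ⟨14, hdeg ▸ mem14, dvd_rfl⟩ ⟨21, hdeg ▸ mem21, dvd_rfl⟩
  have hH := graph_of_degrees Cfsg.Agent.Lib.Helper56.HSide.H Cfsg.Agent.Lib.Helper56.HSide.cardH
    ⟨42, Cfsg.Agent.Lib.Helper56.HSide.mem42, by norm_num⟩
    ⟨42, Cfsg.Agent.Lib.Helper56.HSide.mem42, by norm_num⟩
    ⟨42, Cfsg.Agent.Lib.Helper56.HSide.mem42, by norm_num⟩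
  refine ⟨Cfsg.Agent.Lib.Helper56.HSide.H, inferInstance, inferInstance,
    Cfsg.Agent.Lib.Helper56.HSide.solvH, Cfsg.Agent.Lib.Helper56.HSide.cardH, ?_, ?_⟩
  · rw [hH.1, hP.1]
  · apply SimpleGraph.ext
    rw [hH.2, hP.2]

end Cfsg.Agent.S3670
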