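import Cfsg.Statements.S3678
import Cfsg.Agent.Lib.Helper61.PrimeGraph
import Cfsg.Agent.S3660

set_option autoImplicit false
open Cfsg

namespace Cfsg.Agent.S3678

open Cfsg.Agent.Lib.Helper61.PrimeGraph
open scoped Matrix

universe u v

/-- Coefficients of the powers of a `2 × 2` matrix of determinant 1 and trace `t`:
`A ^ n = a_n A + b_n`. -/
def ab {R : Type*} [CommRing R] (t : R) : ℕ → R × R
  | 0 => (0, 1)
  | n + 1 => (t * (ab t n).1 + (ab t n).2, -(ab t n).1)

theorem sq_eq {R : Type*} [CommRing R] (A : Matrix (Fin 2) (Fin 2) R) (hdet : A.det = 1) :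
    A * A = A.trace • A - 1 := by
  rw [Matrix.det_fin_two] at hdet
  ext i j
  fin_cases i <;> fin_cases j <;>
    simp [Matrix.mul_apply, Fin.sum_univ_two, Matrix.trace] <;>
    first | ring1 | linear_combination -hdet

theorem pow_eq {R : Type*} [CommRing R] (A : Matrix (Fin 2) (Fin 2) R) (hdet : A.det = 1) (n : ℕ) :
    A ^ n = (ab A.trace n).1 • A + (ab A.trace n).2 • (1 : Matrix (Fin 2) (Fin 2) R) := by
  induction n with
  | zero => simp [ab]
  | succ n ih =>
    rw [pow_succ, ih, add_mul, Matrix.smul_mul, Matrix.smul_mul, Matrix.one_mul, sq_eq A hdet]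
    simp only [ab]
    module

/-- The prime graph of a group whose elements have order dividing 4, 9 or 7. -/
theorem pg_237 {X : Type u} [Group X] [Finite X]
    (h2 : ∃ x : X, orderOf x = 2) (h3 : ∃ x : X, orderOf x = 3) (h7 : ∃ x : X, orderOf x = 7)
    (hX : ∀ x : X, x ^ 4 = 1 ∨ x ^ 9 = 1 ∨ x ^ 7 = 1) :
    (∀ r : ℕ, r.Prime → (r ∣ Nat.card X ↔ (r = 2 ∨ r = 3 ∨ r = 7))) ∧
    (∀ r s : ℕ, r.Prime → s.Prime → r ≠ s → ¬ ∃ x : X, orderOf x = r * s) := by
  have key : ∀ x : X, orderOf x ∣ 2 ^ 2 ∨ orderOf x ∣ 3 ^ 2 ∨ orderOf x ∣ 7 ^ 1 := by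
    intro x
    rcases hX x with h | h | h
    · exact Or.inl (orderOf_dvd_of_pow_eq_one h)
    · exact Or.inr (Or.inl (orderOf_dvd_of_pow_eq_one h))
    · exact Or.inr (Or.inr (orderOf_dvd_of_pow_eq_one h))
  refine ⟨fun r hr => ⟨fun h => ?_, fun h => ?_⟩, fun r s hr hs hrs => ?_⟩
  · have : Fact r.Prime := ⟨hr⟩
    obtain ⟨x, hx⟩ := exists_prime_orderOf_dvd_card' r h
    rcases key x with h | h | h
    · rw [hx] at h
      exact Or.inl ((Nat.prime_dvd_prime_iff_eq hr Nat.prime_two).1 (hr.dvd_of_dvd_pow h))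
    · rw [hx] at h
      exact Or.inr (Or.inl ((Nat.prime_dvd_prime_iff_eq hr Nat.prime_three).1 (hr.dvd_of_dvd_pow h)))
    · rw [hx] at h
      exact Or.inr (Or.inr ((Nat.prime_dvd_prime_iff_eq hr (by norm_num)).1 (hr.dvd_of_dvd_pow h)))
  · rcases h with rfl | rfl | rfl
    · obtain ⟨x, hx⟩ := h2
      rw [← hx]; exact orderOf_dvd_natCard x
    · obtain ⟨x, hx⟩ := h3
      rw [← hx]; exact orderOf_dvd_natCard x
    · obtain ⟨x, hx⟩ := h7
      rw [← hx]; exact orderOf_dvd_natCard x
  · rintro ⟨x, hx⟩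
    have aux : ∀ p k : ℕ, p.Prime → r * s ∣ p ^ k → False := by
      intro p k hp hdvd
      have h1 : r = p := (Nat.prime_dvd_prime_iff_eq hr hp).1
        (hr.dvd_of_dvd_pow (Dvd.dvd.trans (Dvd.intro _ rfl) hdvd))
      have h2 : s = p := (Nat.prime_dvd_prime_iff_eq hs hp).1
        (hs.dvd_of_dvd_pow (Dvd.dvd.trans (Dvd.intro_left _ rfl) hdvd))
      exact hrs (h1.trans h2.symm)
    rcases key x with h | h | h
    · rw [hx] at h; exact aux 2 2 Nat.prime_two h
    · rw [hx] at h; exact aux 3 2 Nat.prime_three h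
    · rw [hx] at h; exact aux 7 1 (by norm_num) h

theorem samePG_237 {X : Type u} {Y : Type v} [Group X] [Finite X] [Group Y] [Finite Y]
    (h2 : ∃ x : X, orderOf x = 2) (h3 : ∃ x : X, orderOf x = 3) (h7 : ∃ x : X, orderOf x = 7)
    (hX : ∀ x : X, x ^ 4 = 1 ∨ x ^ 9 = 1 ∨ x ^ 7 = 1)
    (h2' : ∃ x : Y, orderOf x = 2) (h3' : ∃ x : Y, orderOf x = 3) (h7' : ∃ x : Y, orderOf x = 7)
    (hY : ∀ x : Y, x ^ 4 = 1 ∨ x ^ 9 = 1 ∨ x ^ 7 = 1) : SamePG X Y := by
  obtain ⟨a1, a2⟩ := pg_237 h2 h3 h7 hX
  obtain ⟨b1, b2⟩ := pg_237 h2' h3' h7' hY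
  refine ⟨fun r hr => (a1 r hr).trans (b1 r hr).symm, fun r s hr hs hrs => ⟨fun h => ?_, fun h => ?_⟩⟩
  · exact absurd h (a2 r s hr hs hrs)
  · exact absurd h (b2 r s hr hs hrs)

theorem sl_pow_eq_one {K : Type*} [Field K] (g : Matrix.SpecialLinearGroup (Fin 2) K) (n : ℕ)
    (hn : (g : Matrix (Fin 2) (Fin 2) K) ^ n = 1) : g ^ n = 1 := by
  apply Subtype.ext
  rw [Matrix.SpecialLinearGroup.coe_pow, hn]
  rfl

/-- Element orders in `SL(2,8)`. -/
theorem sl8_orders {K : Type*} [Field K] [Fintype K] [CharP K 2] (hK : Fintype.card K = 8)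
    (g : Matrix.SpecialLinearGroup (Fin 2) K) : g ^ 4 = 1 ∨ g ^ 9 = 1 ∨ g ^ 7 = 1 := by
  have h2 : (2 : K) = 0 := by
    have := CharP.cast_eq_zero K 2
    exact_mod_cast this
  have hdet : (g : Matrix (Fin 2) (Fin 2) K).det = 1 := g.det_coe
  have hpow := pow_eq (g : Matrix (Fin 2) (Fin 2) K) hdet
  generalize (g : Matrix (Fin 2) (Fin 2) K).trace = t at hpow
  have ht8 : t ^ 8 = t := by
    rw [← hK]; exact FiniteField.pow_card t
  have hfac : t * (t + 1) * (t ^ 3 + t + 1) * (t ^ 3 + t ^ 2 + 1) = 0 := by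
    linear_combination ht8 + (t + t ^ 2 + t ^ 3 + 2 * t ^ 4 + 2 * t ^ 5 + t ^ 6 + t ^ 7) * h2
  rcases mul_eq_zero.1 hfac with h | h
  · rcases mul_eq_zero.1 h with h | h
    · rcases mul_eq_zero.1 h with h | h
      · left
        have ha : (ab t 2).1 = 0 := by
          simp only [ab]; linear_combination h
        have hb : (ab t 2).2 = 1 := by
          simp only [ab]; linear_combination -h2
        have h1 : g ^ 2 = 1 := sl_pow_eq_one g 2 (by rw [hpow 2, ha, hb, zero_smul, one_smul, zero_add])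
        rw [show 4 = 2 * 2 from rfl, pow_mul, h1, one_pow]
      · right; left
        have ha : (ab t 3).1 = 0 := by
          simp only [ab]; linear_combination (t - 1) * h
        have hb : (ab t 3).2 = 1 := by
          simp only [ab]; linear_combination -h
        have h1 : g ^ 3 = 1 := sl_pow_eq_one g 3 (by rw [hpow 3, ha, hb, zero_smul, one_smul, zero_add])
        rw [show 9 = 3 * 3 from rfl, pow_mul, h1, one_pow]
    · right; left
      have ha : (ab t 9).1 = 0 := by
        simp only [ab]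
        linear_combination (9 + 23 * t - t ^ 2 - 8 * t ^ 3 + t ^ 5) * h + (-4 - 16 * t - 16 * t ^ 2) * h2
      have hb : (ab t 9).2 = 1 := by
        simp only [ab]
        linear_combination (-17 + t + 7 * t ^ 2 - t ^ 4) * h + (8 + 10 * t - 4 * t ^ 2) * h2
      exact sl_pow_eq_one g 9 (by rw [hpow 9, ha, hb, zero_smul, one_smul, zero_add])
  · right; right
    have ha : (ab t 7).1 = 0 := by
      simp only [ab]
      linear_combination (3 - 4 * t - t ^ 2 + t ^ 3) * h + (-2 + 2 * t + 2 * t ^ 2) * h2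
    have hb : (ab t 7).2 = 1 := by
      simp only [ab]
      linear_combination (3 + t - t ^ 2) * h + (-2 - 2 * t - t ^ 2) * h2
    exact sl_pow_eq_one g 7 (by rw [hpow 7, ha, hb, zero_smul, one_smul, zero_add])

/-- A power of `g` that is a scalar matrix of square one is central. -/
theorem mk_pow_eq_one {F : Type*} [Field F] (g : Matrix.SpecialLinearGroup (Fin 2) F) (n : ℕ)
    (s : F) (hs : s ^ 2 = 1) (hn : (g : Matrix (Fin 2) (Fin 2) F) ^ n = s • (1 : Matrix (Fin 2) (Fin 2) F)) :
    (QuotientGroup.mk g : Matrix.ProjectiveSpecialLinearGroup (Fin 2) F) ^ n = 1 := by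
  rw [← QuotientGroup.mk_pow, QuotientGroup.eq_one_iff, Matrix.SpecialLinearGroup.mem_center_iff]
  refine ⟨s, by simpa using hs, ?_⟩
  rw [Matrix.SpecialLinearGroup.coe_pow, hn]
  ext i j
  simp [Matrix.one_apply, Matrix.diagonal_apply]

theorem mk_ne_one {F : Type*} [Field F] (g : Matrix.SpecialLinearGroup (Fin 2) F)
    (h : (g : Matrix (Fin 2) (Fin 2) F) 0 1 ≠ 0) :
    (QuotientGroup.mk g : Matrix.ProjectiveSpecialLinearGroup (Fin 2) F) ≠ 1 := by
  intro h1
  rw [QuotientGroup.eq_one_iff, Matrix.SpecialLinearGroup.mem_center_iff] at h1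
  obtain ⟨r, _, hr⟩ := h1
  apply h
  rw [← hr]
  simp

/-- Element orders in `PSL(2,7)`. -/
theorem psl7_orders {F : Type*} [Field F] [Fintype F] (hF : Fintype.card F = 7) (h7 : (7 : F) = 0)
    (x : Matrix.ProjectiveSpecialLinearGroup (Fin 2) F) : x ^ 4 = 1 ∨ x ^ 9 = 1 ∨ x ^ 7 = 1 := by
  obtain ⟨g, rfl⟩ := QuotientGroup.mk_surjective x
  have hdet : (g : Matrix (Fin 2) (Fin 2) F).det = 1 := g.det_coe
  have hpow := pow_eq (g : Matrix (Fin 2) (Fin 2) F) hdet
  generalize (g : Matrix (Fin 2) (Fin 2) F).trace = t at hpow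
  have ht7 : t ^ 7 = t := by
    rw [← hF]; exact FiniteField.pow_card t
  have hfac : t * (t ^ 2 - 1) * (t ^ 2 - 2) * (t ^ 2 - 4) = 0 := by
    linear_combination ht7 + (-t + 2 * t ^ 3 - t ^ 5) * h7
  rcases mul_eq_zero.1 hfac with h | h
  · rcases mul_eq_zero.1 h with h | h
    · rcases mul_eq_zero.1 h with h | h
      · left
        have ha : (ab t 2).1 = 0 := by
          simp only [ab]; linear_combination h
        have hb : (ab t 2).2 = -1 := by
          simp only [ab]; ring
        have h1 := mk_pow_eq_one g 2 (-1) (by ring) (by rw [hpow 2, ha, hb, zero_smul, zero_add])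
        rw [show 4 = 2 * 2 from rfl, pow_mul, h1, one_pow]
      · right; left
        have ha : (ab t 3).1 = 0 := by
          simp only [ab]; linear_combination h
        have hb : (ab t 3).2 = -t := by
          simp only [ab]; ring
        have h1 := mk_pow_eq_one g 3 (-t) (by linear_combination h)
          (by rw [hpow 3, ha, hb, zero_smul, zero_add])
        rw [show 9 = 3 * 3 from rfl, pow_mul, h1, one_pow]
    · left
      have ha : (ab t 4).1 = 0 := by
        simp only [ab]; linear_combination t * h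
      have hb : (ab t 4).2 = -1 := by
        simp only [ab]; linear_combination -h
      exact mk_pow_eq_one g 4 (-1) (by ring) (by rw [hpow 4, ha, hb, zero_smul, zero_add])
  · right; right
    have ha : (ab t 7).1 = 0 := by
      simp only [ab]; linear_combination (2 - t ^ 2 + t ^ 4) * h + h7
    have hb : (ab t 7).2 = -3 * t := by
      simp only [ab]; linear_combination (-t ^ 3) * h
    exact mk_pow_eq_one g 7 (-3 * t) (by linear_combination 9 * h + 5 * h7)
      (by rw [hpow 7, ha, hb, zero_smul, zero_add])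

theorem psl7_elts {F : Type*} [Field F] (h7 : (7 : F) = 0) :
    (∃ x : Matrix.ProjectiveSpecialLinearGroup (Fin 2) F, orderOf x = 2) ∧
    (∃ x : Matrix.ProjectiveSpecialLinearGroup (Fin 2) F, orderOf x = 3) ∧
    (∃ x : Matrix.ProjectiveSpecialLinearGroup (Fin 2) F, orderOf x = 7) := by
  refine ⟨?_, ?_, ?_⟩
  · let g : Matrix.SpecialLinearGroup (Fin 2) F := ⟨!![0, -1; 1, 0], by simp [Matrix.det_fin_two]⟩
    refine ⟨QuotientGroup.mk g, orderOf_eq_prime ?_ ?_⟩
    · refine mk_pow_eq_one g 2 (-1) (by ring) ?_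
      rw [pow_eq _ g.det_coe 2]
      simp [ab, g, Matrix.trace]
    · exact mk_ne_one g (by simp [g])
  · let g : Matrix.SpecialLinearGroup (Fin 2) F := ⟨!![0, -1; 1, -1], by simp [Matrix.det_fin_two]⟩
    have : Fact (Nat.Prime 3) := ⟨Nat.prime_three⟩
    refine ⟨QuotientGroup.mk g, orderOf_eq_prime ?_ ?_⟩
    · refine mk_pow_eq_one g 3 1 (by ring) ?_
      rw [pow_eq _ g.det_coe 3]
      simp [ab, g, Matrix.trace]
    · exact mk_ne_one g (by simp [g])
  · let g : Matrix.SpecialLinearGroup (Fin 2) F := ⟨!![1, 1; 0, 1], by simp [Matrix.det_fin_two]⟩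
    have : Fact (Nat.Prime 7) := ⟨by norm_num⟩
    refine ⟨QuotientGroup.mk g, orderOf_eq_prime ?_ ?_⟩
    · refine mk_pow_eq_one g 7 1 (by ring) ?_
      rw [pow_eq _ g.det_coe 7]
      have ha : (ab (g : Matrix (Fin 2) (Fin 2) F).trace 7).1 = 0 := by
        simp only [ab]
        simp [g, Matrix.trace]
        linear_combination h7
      have hb : (ab (g : Matrix (Fin 2) (Fin 2) F).trace 7).2 = 1 := by
        simp only [ab]
        simp [g, Matrix.trace]
        linear_combination -h7
      rw [ha, hb, zero_smul, zero_add]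
    · exact mk_ne_one g (by simp [g])

theorem sl8_elts {K : Type*} [Field K] [Fintype K] [CharP K 2] (hK : Fintype.card K = 8) :
    (∃ x : Matrix.SpecialLinearGroup (Fin 2) K, orderOf x = 2) ∧
    (∃ x : Matrix.SpecialLinearGroup (Fin 2) K, orderOf x = 3) ∧
    (∃ x : Matrix.SpecialLinearGroup (Fin 2) K, orderOf x = 7) := by
  have h2 : (2 : K) = 0 := by
    have := CharP.cast_eq_zero K 2
    exact_mod_cast this
  refine ⟨?_, ?_, ?_⟩
  · let g : Matrix.SpecialLinearGroup (Fin 2) K := ⟨!![1, 1; 0, 1], by simp [Matrix.det_fin_two]⟩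
    refine ⟨g, orderOf_eq_prime ?_ ?_⟩
    · apply sl_pow_eq_one
      rw [pow_eq _ g.det_coe 2]
      have ha : (ab (g : Matrix (Fin 2) (Fin 2) K).trace 2).1 = 0 := by
        simp only [ab]
        simp [g, Matrix.trace]
        linear_combination h2
      have hb : (ab (g : Matrix (Fin 2) (Fin 2) K).trace 2).2 = 1 := by
        simp only [ab]
        simp [g, Matrix.trace]
        linear_combination -h2
      rw [ha, hb, zero_smul, zero_add, one_smul]
    · intro h
      have h3 := congrArg (fun m : Matrix.SpecialLinearGroup (Fin 2) K => (m : Matrix (Fin 2) (Fin 2) K) 0 1) h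
      simp [g] at h3
  · let g : Matrix.SpecialLinearGroup (Fin 2) K := ⟨!![0, 1; 1, 1], by
      simp [Matrix.det_fin_two]; linear_combination -h2⟩
    have : Fact (Nat.Prime 3) := ⟨Nat.prime_three⟩
    refine ⟨g, orderOf_eq_prime ?_ ?_⟩
    · apply sl_pow_eq_one
      rw [pow_eq _ g.det_coe 3]
      have ha : (ab (g : Matrix (Fin 2) (Fin 2) K).trace 3).1 = 0 := by
        simp only [ab]
        simp [g, Matrix.trace]
      have hb : (ab (g : Matrix (Fin 2) (Fin 2) K).trace 3).2 = 1 := by
        simp only [ab]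
        simp [g, Matrix.trace]
        linear_combination -h2
      rw [ha, hb, zero_smul, zero_add, one_smul]
    · intro h
      have h3 := congrArg (fun m : Matrix.SpecialLinearGroup (Fin 2) K => (m : Matrix (Fin 2) (Fin 2) K) 0 1) h
      simp [g] at h3
  · obtain ⟨a, ha0, ha1⟩ : ∃ a : K, a ≠ 0 ∧ a ≠ 1 := by
      classical
      by_contra hcon
      push Not at hcon
      have hsub : (Finset.univ : Finset K) ⊆ {0, 1} := by
        intro a _
        by_cases h0 : a = 0
        · simp [h0]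
        · simp [hcon a h0]
      have hle := Finset.card_le_card hsub
      rw [Finset.card_univ, hK] at hle
      have : ({0, 1} : Finset K).card ≤ 2 := Finset.card_le_two
      omega
    have ha7 : a ^ 7 = 1 := by
      have := FiniteField.pow_card_sub_one_eq_one a ha0
      rwa [hK] at this
    let g : Matrix.SpecialLinearGroup (Fin 2) K := ⟨Matrix.diagonal ![a, a⁻¹], by
      simp [Matrix.det_diagonal, Fin.prod_univ_two, ha0]⟩
    have : Fact (Nat.Prime 7) := ⟨by norm_num⟩
    refine ⟨g, orderOf_eq_prime ?_ ?_⟩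
    · apply sl_pow_eq_one
      show (Matrix.diagonal ![a, a⁻¹]) ^ 7 = 1
      rw [Matrix.diagonal_pow]
      ext i j
      fin_cases i <;> fin_cases j <;> simp [Matrix.diagonal, ha7]
    · intro h
      have h3 := congrArg (fun m : Matrix.SpecialLinearGroup (Fin 2) K => (m : Matrix (Fin 2) (Fin 2) K) 0 0) h
      simp [g] at h3
      exact ha1 h3


/-- The prime graph of a finite group has the prime divisors of its order as vertices, two distinct primes p, q being joined when the group has an element of order pq; two groups have the same prime graph when they have the same prime divisors and the same joined pairs. Let F be the field with 7 elements. There are finite groups of arbitrarily large order with the same prime graph as PSL(2,F) (the graph on {2, 3, 7} with no edges, which is also the prime graph of PSL(2,8)). -/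
theorem result {F : Type*} [Field F] [Fintype F] (hF : Fintype.card F = 7) (N : ℕ) :
    ∃ (H : Type) (_ : Group H) (_ : Finite H), N < Nat.card H ∧
      ((∀ p : ℕ, p.Prime → (p ∣ Nat.card (Matrix.ProjectiveSpecialLinearGroup (Fin 2) F) ↔ p ∣ Nat.card H)) ∧
      (∀ p q : ℕ, p.Prime → q.Prime → p ≠ q → ((∃ g : (Matrix.ProjectiveSpecialLinearGroup (Fin 2) F), orderOf g = p * q) ↔ (∃ g : H, orderOf g = p * q)))) := by
  have h7 : (7 : F) = 0 := by
    have := Nat.cast_card_eq_zero F
    rw [hF] at this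
    exact_mod_cast this
  letI : Fintype (GaloisField 2 3) := Fintype.ofFinite _
  have hK : Fintype.card (GaloisField 2 3) = 8 := by
    have := GaloisField.card 2 3 (by norm_num)
    rw [Nat.card_eq_fintype_card] at this
    simpa using this
  have h2' : ((2 : ℕ) : GaloisField 2 3) = 0 := CharP.cast_eq_zero (GaloisField 2 3) 2
  obtain ⟨a2, a3, a7⟩ := psl7_elts (F := F) h7
  obtain ⟨b2, b3, b7⟩ := sl8_elts (K := GaloisField 2 3) hK
  have hLS : SamePG (Matrix.ProjectiveSpecialLinearGroup (Fin 2) F)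
      (Matrix.SpecialLinearGroup (Fin 2) (GaloisField 2 3)) :=
    samePG_237 a2 a3 a7 (psl7_orders hF h7) b2 b3 b7 (sl8_orders hK)
  obtain ⟨H, hG, hFin, hN, hS⟩ := exists_large_samePG_matrix'
    (Cfsg.Agent.S3660.slMat (GaloisField 2 3)) 2 Nat.prime_two h2' hLS
    Cfsg.Agent.S3660.two_dvd_card
    (by
      intro g x hx hgx r hr hr2 hord
      exfalso
      have hsq : g ^ 2 = 1 := Cfsg.Agent.S3660.sq_eq_one_of_fixed g x hx hgx
      have hdvd : r ∣ 2 := by
        rw [← hord]; exact orderOf_dvd_of_pow_eq_one hsq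
      exact hr2 ((Nat.prime_dvd_prime_iff_eq hr Nat.prime_two).1 hdvd)) N
  exact ⟨H, hG, hFin, hN, hS⟩

end Cfsg.Agent.S3678
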