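import Cfsg.Statements.S3683
-- import your own Cfsg.Agent.* helpers here

set_option autoImplicit false
open Cfsg

namespace Cfsg.Agent.S3683

/-- Let a finite group G act faithfully and primitively on a set Ω, and suppose the stabilizer of a point a fixes a second point b ≠ a (a suborbit of length 1 other than {a}). Then the stabilizer of a is trivial and G is cyclic of prime order. -/
theorem result {G Ω : Type*} [Group G] [Finite G] [MulAction G Ω] [FaithfulSMul G Ω] [Finite Ω]
    (hprim : MulAction.IsPreprimitive G Ω) (a b : Ω) (hab : a ≠ b) (hfix : ∀ g : G, g • a = a → g • b = b) :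
    MulAction.stabilizer G a = ⊥ ∧ IsCyclic G ∧ (Nat.card G).Prime := by
  have : Nontrivial Ω := ⟨⟨a, b, hab⟩⟩
  have hca : IsCoatom (MulAction.stabilizer G a) :=
    MulAction.IsPreprimitive.isCoatom_stabilizer_of_isPreprimitive G a
  have hcb : IsCoatom (MulAction.stabilizer G b) :=
    MulAction.IsPreprimitive.isCoatom_stabilizer_of_isPreprimitive G b
  have hle : MulAction.stabilizer G a ≤ MulAction.stabilizer G b := fun g hg => hfix g hg
  have heq : MulAction.stabilizer G b = MulAction.stabilizer G a := (hca.le_iff_eq hcb.1).1 hle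
  obtain ⟨g, hg⟩ := MulAction.exists_smul_eq G a b
  -- g normalizes the stabilizer
  have hgN : g ∈ Subgroup.normalizer (MulAction.stabilizer G a : Set G) := by
    rw [Subgroup.mem_normalizer_iff]
    intro h
    have h1 : MulAction.stabilizer G (g • a) = (MulAction.stabilizer G a).map (MulAut.conj g).toMonoidHom :=
      MulAction.stabilizer_smul_eq_stabilizer_map_conj g a
    rw [hg, heq] at h1
    constructor
    · intro hh
      rw [h1]
      exact ⟨h, hh, rfl⟩
    · intro hh
      rw [h1] at hh
      obtain ⟨k, hk, hk'⟩ := hh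
      have : k = h := by
        simpa using hk'
      rwa [← this]
  have hgH : g ∉ MulAction.stabilizer G a := by
    intro h
    rw [MulAction.mem_stabilizer_iff] at h
    exact hab (h.symm.trans hg)
  have hNtop : Subgroup.normalizer (MulAction.stabilizer G a : Set G) = ⊤ := by
    apply hca.2
    exact lt_of_le_of_ne Subgroup.le_normalizer (fun h => hgH (h ▸ hgN))
  have hnormal : (MulAction.stabilizer G a).Normal := Subgroup.normalizer_eq_top_iff.1 hNtop
  have hbot : MulAction.stabilizer G a = ⊥ := by
    rw [eq_bot_iff]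
    intro h hh
    rw [Subgroup.mem_bot]
    apply FaithfulSMul.eq_of_smul_eq_smul (α := Ω)
    intro x
    obtain ⟨k, rfl⟩ := MulAction.exists_smul_eq G a x
    have h2 : k⁻¹ * h * k ∈ MulAction.stabilizer G a := by
      have := hnormal.conj_mem h hh k⁻¹
      simpa using this
    rw [MulAction.mem_stabilizer_iff] at h2
    rw [one_smul]
    calc h • k • a = k • ((k⁻¹ * h * k) • a) := by simp [mul_smul]
      _ = k • a := by rw [h2]
  refine ⟨hbot, ?_⟩
  rw [hbot] at hca
  have hsub : ∀ K : Subgroup G, K = ⊥ ∨ K = ⊤ := by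
    intro K
    by_cases hK : K = ⊥
    · exact Or.inl hK
    · exact Or.inr (hca.2 K (bot_lt_iff_ne_bot.2 hK))
  have hne : (⊥ : Subgroup G) ≠ ⊤ := hca.1
  obtain ⟨x, hx⟩ : ∃ x : G, x ≠ 1 := by
    by_contra hcon
    push Not at hcon
    apply hne
    ext y
    simp [hcon y]
  have hz : Subgroup.zpowers x = ⊤ := by
    rcases hsub (Subgroup.zpowers x) with h | h
    · exact absurd (Subgroup.zpowers_eq_bot.1 h) hx
    · exact h
  have hcyc : IsCyclic G := ⟨⟨x, fun y => by
    have hy : y ∈ Subgroup.zpowers x := by rw [hz]; exact Subgroup.mem_top y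
    exact Subgroup.mem_zpowers_iff.1 hy⟩⟩
  refine ⟨hcyc, ?_⟩
  have : IsMulCommutative G := ⟨⟨fun p q => by
    obtain ⟨g, hg⟩ := hcyc.exists_generator
    obtain ⟨m, rfl⟩ := hg p
    obtain ⟨n, rfl⟩ := hg q
    exact (Commute.zpow_zpow (Commute.refl g) m n).eq⟩⟩
  have : IsSimpleGroup G := by
    have : Nontrivial G := ⟨⟨x, 1, hx⟩⟩
    exact ⟨fun K _ => hsub K⟩
  exact Group.is_simple_iff_prime_card.1 inferInstance

end Cfsg.Agent.S3683
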