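import Cfsg.Statements.S3696

set_option autoImplicit false
open Cfsg

namespace Cfsg.Agent.S3696

open Equiv

/-- AM–GM in power form. -/
theorem amgm {ι : Type*} [Fintype ι] [Nonempty ι] (a : ι → ℝ) (ha : ∀ i, 0 ≤ a i) :
    (Fintype.card ι : ℝ) ^ Fintype.card ι * ∏ i, a i ≤ (∑ i, a i) ^ Fintype.card ι := by
  have hN : (0 : ℝ) < Fintype.card ι := by exact_mod_cast Fintype.card_pos
  have hN0 : Fintype.card ι ≠ 0 := Fintype.card_ne_zero
  have h1 := Real.geom_mean_le_arith_mean_weighted Finset.univ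
    (fun _ : ι => ((Fintype.card ι : ℝ))⁻¹) a
    (fun i _ => (inv_pos.mpr hN).le)
    (by rw [Finset.sum_const, Finset.card_univ, nsmul_eq_mul, mul_inv_cancel₀ hN.ne'])
    (fun i _ => ha i)
  beta_reduce at h1
  rw [Real.finsetProd_rpow _ _ (fun i _ => ha i), ← Finset.mul_sum] at h1
  have hP : 0 ≤ ∏ i, a i := Finset.prod_nonneg (fun i _ => ha i)
  have h2 := pow_le_pow_left₀ (Real.rpow_nonneg hP _) h1 (Fintype.card ι)
  rw [Real.rpow_inv_natCast_pow hP hN0, mul_pow, inv_pow] at h2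
  calc (Fintype.card ι : ℝ) ^ Fintype.card ι * ∏ i, a i
      ≤ (Fintype.card ι : ℝ) ^ Fintype.card ι
          * (((Fintype.card ι : ℝ) ^ Fintype.card ι)⁻¹ * (∑ i, a i) ^ Fintype.card ι) :=
        mul_le_mul_of_nonneg_left h2 (pow_nonneg hN.le _)
    _ = (∑ i, a i) ^ Fintype.card ι := by
        rw [← mul_assoc, mul_inv_cancel₀ (pow_ne_zero _ hN.ne'), one_mul]

theorem amgm_nat {ι : Type*} [Fintype ι] [Nonempty ι] (f : ι → ℕ) :
    Fintype.card ι ^ Fintype.card ι * ∏ i, f i ≤ (∑ i, f i) ^ Fintype.card ι := by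
  have h := amgm (fun i => (f i : ℝ)) (fun i => Nat.cast_nonneg _)
  exact_mod_cast h

theorem two_pow_ge (d : ℕ) : d ≤ 2 ^ (d - 1) := by
  have h := Nat.lt_two_pow_self (n := d - 1)
  omega

theorem dd_le (m d : ℕ) (hd : 1 ≤ d) (hm : 2 ^ d ≤ m) : m * d ^ d ≤ m ^ d := by
  obtain ⟨e, rfl⟩ : ∃ e, d = e + 1 := ⟨d - 1, by omega⟩
  have h1 : e + 1 ≤ 2 ^ e := two_pow_ge (e + 1)
  have h2 : (e + 1) ^ (e + 1) ≤ (2 ^ e) ^ (e + 1) := Nat.pow_le_pow_left h1 _
  have h3 : (2 ^ e) ^ (e + 1) = (2 ^ (e + 1)) ^ e := by rw [← pow_mul, ← pow_mul, mul_comm]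
  have h4 : (2 ^ (e + 1)) ^ e ≤ m ^ e := Nat.pow_le_pow_left hm _
  calc m * (e + 1) ^ (e + 1) ≤ m * m ^ e := Nat.mul_le_mul_left _ (h2.trans (h3.le.trans h4))
    _ = m ^ (e + 1) := by rw [pow_succ, mul_comm]

theorem ag (d k' m r : ℕ) (hd : 1 ≤ d) :
    (d + k') ^ (d + k') * m ^ d * r ^ k' ≤ (m + r) ^ (d + k') * d ^ d * k' ^ k' := by
  rcases Nat.eq_zero_or_pos k' with h0 | hk'
  · subst h0
    simp only [add_zero, pow_zero, mul_one]
    rw [← mul_pow, ← mul_pow]
    exact Nat.pow_le_pow_left (by nlinarith) _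
  · haveI : Nonempty (Fin d ⊕ Fin k') := ⟨Sum.inl ⟨0, by omega⟩⟩
    have h := amgm_nat (Sum.elim (fun _ : Fin d => m * k') (fun _ : Fin k' => r * d))
    simp only [Fintype.card_sum, Fintype.card_fin, Fintype.prod_sum_type, Fintype.sum_sum_type,
      Sum.elim_inl, Sum.elim_inr, Finset.prod_const, Finset.sum_const, Finset.card_univ,
      smul_eq_mul] at h
    have e : d * (m * k') + k' * (r * d) = (m + r) * (d * k') := by ring
    rw [e] at h
    have hpos : 0 < k' ^ d * d ^ k' := Nat.mul_pos (pow_pos hk' d) (pow_pos (by omega) k')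
    apply Nat.le_of_mul_le_mul_right _ hpos
    calc (d + k') ^ (d + k') * m ^ d * r ^ k' * (k' ^ d * d ^ k')
        = (d + k') ^ (d + k') * ((m * k') ^ d * (r * d) ^ k') := by ring
      _ ≤ ((m + r) * (d * k')) ^ (d + k') := h
      _ = (m + r) ^ (d + k') * d ^ d * k' ^ k' * (k' ^ d * d ^ k') := by
        have e1 : d ^ (d + k') = d ^ d * d ^ k' := pow_add _ _ _
        have e2 : k' ^ (d + k') = k' ^ d * k' ^ k' := pow_add _ _ _
        rw [mul_pow, mul_pow, e1, e2]; ring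

theorem nl (d k' m r : ℕ) (hd : 1 ≤ d) (hm : 2 ^ d ≤ m) :
    m * r ^ k' * (d + k') ^ (d + k') ≤ (m + r) ^ (d + k') * k' ^ k' := by
  have hpos : 0 < d ^ d := pow_pos (by omega) d
  apply Nat.le_of_mul_le_mul_right _ hpos
  calc m * r ^ k' * (d + k') ^ (d + k') * d ^ d
      = (m * d ^ d) * (r ^ k' * (d + k') ^ (d + k')) := by ring
    _ ≤ m ^ d * (r ^ k' * (d + k') ^ (d + k')) := Nat.mul_le_mul_right _ (dd_le m d hd hm)
    _ = (d + k') ^ (d + k') * m ^ d * r ^ k' := by ring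
    _ ≤ (m + r) ^ (d + k') * d ^ d * k' ^ k' := ag d k' m r hd
    _ = (m + r) ^ (d + k') * k' ^ k' * d ^ d := by ring

/-- elements of order dividing `p` in an abelian subgroup -/
def om {G : Type*} [Group G] (p : ℕ) (B : Subgroup G)
    (hc : ∀ x ∈ B, ∀ y ∈ B, x * y = y * x) : Subgroup G where
  carrier := {x | x ∈ B ∧ x ^ p = 1}
  mul_mem' := by
    rintro a b ⟨ha, ha'⟩ ⟨hb, hb'⟩
    refine ⟨B.mul_mem ha hb, ?_⟩
    have hcomm : Commute a b := hc a ha b hb
    rw [hcomm.mul_pow, ha', hb', one_mul]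
  one_mem' := ⟨B.one_mem, one_pow _⟩
  inv_mem' := by
    rintro a ⟨ha, ha'⟩
    exact ⟨B.inv_mem ha, by rw [inv_pow, ha', inv_one]⟩

theorem mem_om {G : Type*} [Group G] (p : ℕ) (B : Subgroup G)
    (hc : ∀ x ∈ B, ∀ y ∈ B, x * y = y * x) (x : G) : x ∈ om p B hc ↔ x ∈ B ∧ x ^ p = 1 :=
  Iff.rfl

theorem om_le {G : Type*} [Group G] (p : ℕ) (B : Subgroup G)
    (hc : ∀ x ∈ B, ∀ y ∈ B, x * y = y * x) : om p B hc ≤ B :=
  fun x hx => ((mem_om p B hc x).mp hx).1

theorem card_eq_mul_relIndex {G : Type*} [Group G] {H K : Subgroup G} (h : H ≤ K) :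
    Nat.card ↥K = Nat.card ↥H * H.relIndex K := by
  rw [← Subgroup.relIndex_bot_left, ← Subgroup.relIndex_mul_relIndex ⊥ H K bot_le h,
    Subgroup.relIndex_bot_left]

theorem relIndex_ne_zero' {G : Type*} [Group G] [Finite G] (H K : Subgroup G) :
    H.relIndex K ≠ 0 := by
  intro h0
  have h := Subgroup.relIndex_dvd_card H K
  rw [h0] at h
  exact Nat.card_pos.ne' (Nat.eq_zero_of_zero_dvd h)

theorem key {Ω : Type*} [Finite Ω] (p : ℕ) [Fact p.Prime] :
    ∀ (N : ℕ) (B : Subgroup (Perm Ω)), Nat.card B = N → IsPGroup p B →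
      ∀ (hc : ∀ x ∈ B, ∀ y ∈ B, x * y = y * x) (k : ℕ), Nat.card ↥(om p B hc) = p ^ k →
      Nat.card B * k ^ k ≤ {ω : Ω | ∃ x ∈ B, x ω ≠ ω}.ncard ^ k := by
  have hpr : p.Prime := Fact.out
  intro N
  induction N using Nat.strong_induction_on with
  | _ N ih =>
  intro B hN hB hc k hk
  subst hN
  rcases Nat.eq_zero_or_pos k with h0 | hkpos
  · subst h0
    rw [pow_zero] at hk
    have hB1 : Nat.card B = 1 := by
      by_contra hne
      have hdvd : p ∣ Nat.card B := by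
        rcases hB.card_eq_or_dvd with h | h
        · exact absurd h hne
        · exact h
      obtain ⟨x, hx⟩ := exists_prime_orderOf_dvd_card' p hdvd
      have hxmem : (x : Perm Ω) ∈ om p B hc := by
        refine (mem_om p B hc _).mpr ⟨x.2, ?_⟩
        have h1 := pow_orderOf_eq_one x
        rw [hx] at h1
        exact congrArg Subtype.val h1
      have hbot : om p B hc = ⊥ := Subgroup.card_eq_one.mp hk
      rw [hbot, Subgroup.mem_bot] at hxmem
      have hx1 : x = 1 := Subtype.ext hxmem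
      rw [hx1, orderOf_one] at hx
      exact hpr.one_lt.ne hx
    simp [hB1]
  · have hZne : om p B hc ≠ ⊥ := by
      intro h
      have h1 : Nat.card ↥(om p B hc) = 1 := Subgroup.card_eq_one.mpr h
      rw [hk] at h1
      exact (Nat.one_lt_pow hkpos.ne' hpr.one_lt).ne' h1
    obtain ⟨z, hzmem, hz1⟩ : ∃ z ∈ om p B hc, z ≠ 1 := by
      by_contra hcon
      apply hZne
      rw [eq_bot_iff]
      intro x hx
      rw [Subgroup.mem_bot]
      by_contra hx1
      exact hcon ⟨x, hx, hx1⟩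
    obtain ⟨hzB, hzp⟩ := (mem_om p B hc z).mp hzmem
    obtain ⟨ω, hω⟩ : ∃ ω, z ω ≠ ω := by
      by_contra hcon
      apply hz1
      ext ω
      rw [Equiv.Perm.one_apply]
      by_contra h
      exact hcon ⟨ω, h⟩
    obtain ⟨K, hK⟩ : ∃ K : Subgroup (Perm Ω), K = B ⊓ MulAction.stabilizer (Perm Ω) ω :=
      ⟨_, rfl⟩
    have hKmem : ∀ x, x ∈ K ↔ x ∈ B ∧ x ω = ω := by
      intro x
      rw [hK, Subgroup.mem_inf, MulAction.mem_stabilizer_iff, Equiv.Perm.smul_def]
    have hKB : K ≤ B := fun x hx => ((hKmem x).mp hx).1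
    have hKp : IsPGroup p K := hB.to_le hKB
    have hKc : ∀ x ∈ K, ∀ y ∈ K, x * y = y * x :=
      fun x hx y hy => hc x (hKB hx) y (hKB hy)
    have hzK : z ∉ K := fun h => hω ((hKmem z).mp h).2
    have hoK : om p K hKc ≤ om p B hc :=
      fun x hx => (mem_om p B hc x).mpr
        ⟨hKB ((mem_om p K hKc x).mp hx).1, ((mem_om p K hKc x).mp hx).2⟩
    obtain ⟨k', hk'⟩ := IsPGroup.iff_card.mp
      (hKp.to_le (om_le p K hKc) : IsPGroup p ↥(om p K hKc))
    have hlt : Nat.card ↥(om p K hKc) < Nat.card ↥(om p B hc) := by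
      apply lt_of_le_of_ne (Subgroup.card_le_of_le hoK)
      intro heq
      have h1 := Subgroup.eq_of_le_of_card_ge hoK heq.ge
      have hz' : z ∈ om p K hKc := by
        rw [h1]
        exact hzmem
      exact hzK ((mem_om p K hKc z).mp hz').1
    rw [hk', hk] at hlt
    have hk'k : k' < k := (Nat.pow_lt_pow_iff_right hpr.one_lt).mp hlt
    obtain ⟨d, hd⟩ : ∃ d, k = d + k' := ⟨k - k', by omega⟩
    subst hd
    have hd1 : 1 ≤ d := by omega
    obtain ⟨m, hm⟩ : ∃ m, m = K.relIndex B := ⟨_, rfl⟩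
    have hcardB : Nat.card B = Nat.card K * m := by
      rw [hm]
      exact card_eq_mul_relIndex hKB
    have hmge : p ^ d ≤ m := by
      have h1 : K.relIndex (om p B hc) ≤ K.relIndex B :=
        Subgroup.relIndex_le_of_le_right (om_le p B hc) (relIndex_ne_zero' K B)
      have h2 : K ⊓ om p B hc = om p K hKc := by
        ext x
        rw [Subgroup.mem_inf, mem_om, mem_om]
        exact ⟨fun h => ⟨h.1, h.2.2⟩, fun h => ⟨h.1, hKB h.1, h.2⟩⟩
      have h3 : Nat.card ↥(om p B hc) = Nat.card ↥(om p K hKc) * K.relIndex (om p B hc) := by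
        rw [← Subgroup.inf_relIndex_right, h2]
        exact card_eq_mul_relIndex hoK
      rw [hk, hk', pow_add, mul_comm] at h3
      have h4 : p ^ d = K.relIndex (om p B hc) :=
        Nat.eq_of_mul_eq_mul_left (pow_pos hpr.pos k') h3
      rw [hm, h4]
      exact h1
    have hdisj : Disjoint {ω' : Ω | ∃ x ∈ K, x ω' ≠ ω'} (MulAction.orbit ↥B ω) := by
      rw [Set.disjoint_left]
      rintro ω' ⟨x, hx, hxω⟩ ⟨b, rfl⟩
      apply hxω
      show x ((b : Perm Ω) ω) = (b : Perm Ω) ω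
      have h1 : x * (b : Perm Ω) = (b : Perm Ω) * x := hc x (hKB hx) b b.2
      have h2 := congrArg (fun f : Perm Ω => f ω) h1
      simp only [Equiv.Perm.mul_apply] at h2
      rw [h2, ((hKmem x).mp hx).2]
    have hsupp : {ω' : Ω | ∃ x ∈ K, x ω' ≠ ω'}.ncard + m
        ≤ {ω' : Ω | ∃ x ∈ B, x ω' ≠ ω'}.ncard := by
      have horb : m = (MulAction.orbit ↥B ω).ncard := by
        rw [hm, ← MulAction.index_stabilizer]
        show (K.subgroupOf B).index = _
        congr 1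
        ext x
        rw [Subgroup.mem_subgroupOf, hKmem, MulAction.mem_stabilizer_iff]
        exact ⟨fun h => h.2, fun h => ⟨x.2, h⟩⟩
      rw [horb, ← Set.ncard_union_eq hdisj (Set.toFinite _) (Set.toFinite _)]
      apply Set.ncard_le_ncard _ (Set.toFinite _)
      rintro ω' (⟨x, hx, hxω⟩ | ⟨b, rfl⟩)
      · exact ⟨x, hKB hx, hxω⟩
      · refine ⟨z, hzB, ?_⟩
        show z ((b : Perm Ω) ω) ≠ (b : Perm Ω) ω
        intro h
        apply hω
        have h1 : z * (b : Perm Ω) = (b : Perm Ω) * z := hc z hzB b b.2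
        have h2 := congrArg (fun f : Perm Ω => f ω) h1
        simp only [Equiv.Perm.mul_apply] at h2
        have h3 : (b : Perm Ω) (z ω) = (b : Perm Ω) ω := by
          rw [← h2]
          exact h
        exact (b : Perm Ω).injective h3
    have hm2 : 2 ^ d ≤ m := le_trans (Nat.pow_le_pow_left hpr.two_le d) hmge
    have hKlt : Nat.card K < Nat.card B := by
      rw [hcardB]
      have h2 : 2 ≤ m := le_trans (by
        calc 2 = 2 ^ 1 := rfl
          _ ≤ 2 ^ d := Nat.pow_le_pow_right (by norm_num) hd1) hm2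
      have hKpos : 0 < Nat.card K := Nat.card_pos
      nlinarith
    have hIH := ih _ hKlt K rfl hKp hKc k' hk'
    obtain ⟨t, ht⟩ : ∃ t, t = {ω' : Ω | ∃ x ∈ K, x ω' ≠ ω'}.ncard := ⟨_, rfl⟩
    obtain ⟨n, hn⟩ : ∃ n, n = {ω' : Ω | ∃ x ∈ B, x ω' ≠ ω'}.ncard := ⟨_, rfl⟩
    rw [← ht] at hIH hsupp
    rw [← hn] at hsupp ⊢
    have hnl := nl d k' m t hd1 hm2
    have hk'pos : 0 < k' ^ k' := by
      rcases Nat.eq_zero_or_pos k' with h | h
      · rw [h]
        norm_num
      · exact pow_pos h _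
    apply Nat.le_of_mul_le_mul_right _ hk'pos
    calc Nat.card B * (d + k') ^ (d + k') * k' ^ k'
        = m * (Nat.card K * k' ^ k') * (d + k') ^ (d + k') := by
          rw [hcardB]
          ring
      _ ≤ m * t ^ k' * (d + k') ^ (d + k') :=
          Nat.mul_le_mul_right _ (Nat.mul_le_mul_left _ hIH)
      _ ≤ (m + t) ^ (d + k') * k' ^ k' := hnl
      _ ≤ n ^ (d + k') * k' ^ k' :=
          Nat.mul_le_mul_right _ (Nat.pow_le_pow_left (by omega) _)

/-- Let p be a prime, Ω a finite set with n ≥ p elements, and A an abelian p-subgroup of the symmetric group on Ω whose elements of order dividing p number p^k (so k is the rank of A). Then |A| · k^k ≤ n^k, that is, |A| ≤ (n/k)^k. -/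
theorem result {Ω : Type*} [Fintype Ω] [DecidableEq Ω]
    (p : ℕ) (hp : p.Prime) (hn : p ≤ Fintype.card Ω) (A : Subgroup (Equiv.Perm Ω)) (hA : IsPGroup p A) (hab : IsMulCommutative A)
    (k : ℕ) (hk : Nat.card {x : A // x ^ p = 1} = p ^ k) :
    Nat.card A * k ^ k ≤ Fintype.card Ω ^ k := by
  haveI : Fact p.Prime := ⟨hp⟩
  haveI := hab
  have hc : ∀ x ∈ A, ∀ y ∈ A, x * y = y * x := by
    intro x hx y hy
    have h1 := mul_comm' (⟨x, hx⟩ : ↥A) ⟨y, hy⟩
    exact congrArg Subtype.val h1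
  have hk' : Nat.card ↥(om p A hc) = p ^ k := by
    rw [← hk]
    exact Nat.card_congr
      { toFun := fun x => ⟨⟨x.1, ((mem_om p A hc x.1).mp x.2).1⟩,
          Subtype.ext ((mem_om p A hc x.1).mp x.2).2⟩
        invFun := fun x => ⟨x.1.1, (mem_om p A hc x.1.1).mpr ⟨x.1.2, congrArg Subtype.val x.2⟩⟩
        left_inv := fun x => rfl
        right_inv := fun x => rfl }
  have h := key p (Nat.card A) A rfl hA hc k hk'
  calc Nat.card A * k ^ k ≤ {ω : Ω | ∃ x ∈ A, x ω ≠ ω}.ncard ^ k := h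
    _ ≤ Fintype.card Ω ^ k := Nat.pow_le_pow_left (by
        rw [← Nat.card_eq_fintype_card, ← Set.ncard_univ]
        exact Set.ncard_le_ncard (Set.subset_univ _) (Set.toFinite _)) k

end Cfsg.Agent.S3696
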