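import Cfsg.Statements.S4089
import Cfsg.Agent.Lib.Helper62.Wielandt
import Cfsg.Agent.Lib.Helper22.SubnFit
import Cfsg.Agent.Lib.Helper78.Fitting

set_option autoImplicit false
open Cfsg

namespace Cfsg.Agent.S4089

open Cfsg.Agent.Lib

variable {G : Type*} [Group G]

/-- `K` normalizes the image of its `p`-core. -/
theorem le_normalizer_pCoreOf (p : ℕ) (K : Subgroup G) :
    K ≤ Subgroup.normalizer (((Cfsg.pCore p ↥K).map K.subtype : Subgroup G) : Set G) := by
  haveI hN : (Cfsg.pCore p ↥K).Normal := Helper78.Fitting.pCore_normal p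
  have h1 := Subgroup.le_normalizer_map (H := Cfsg.pCore p ↥K) K.subtype
  rw [Subgroup.normalizer_eq_top, ← MonoidHom.range_eq_map, Subgroup.range_subtype] at h1
  exact h1

theorem subn_of_normalizer [Finite G] (p : ℕ) [Fact p.Prime] {A R : Subgroup G} {g : G}
    (hR : IsPGroup p R) (hAR : A ≤ R) (hg : g ∈ Subgroup.normalizer (R : Set G)) :
    (A.subgroupOf (A ⊔ Subgroup.zpowers g)).IsSubnormal := by
  set K := A ⊔ Subgroup.zpowers g with hK
  have hKN : K ≤ Subgroup.normalizer (R : Set G) :=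
    sup_le (hAR.trans Subgroup.le_normalizer) ((Subgroup.zpowers_le).mpr hg)
  have hnorm : (R.subgroupOf K).Normal := Subgroup.normal_subgroupOf_of_le_normalizer hKN
  have hle : A.subgroupOf K ≤ R.subgroupOf K :=
    fun x hx => Subgroup.mem_subgroupOf.mpr (hAR (Subgroup.mem_subgroupOf.mp hx))
  have hpg : IsPGroup p ↥(R.subgroupOf K) := hR.comap_subtype
  haveI : Group.IsNilpotent ↥(R.subgroupOf K) := hpg.isNilpotent
  have h2 : ((A.subgroupOf K).subgroupOf (R.subgroupOf K)).IsSubnormal :=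
    Helper62.Wielandt.isSubnormal_of_isNilpotent _
  exact Subgroup.IsSubnormal.trans hle h2 hnorm.isSubnormal

theorem exists_of_subn [Finite G] (p : ℕ) [Fact p.Prime] {A : Subgroup G} (hA : IsPGroup p A)
    {g : G} (hsn : (A.subgroupOf (A ⊔ Subgroup.zpowers g)).IsSubnormal) :
    ∃ R : Subgroup G, IsPGroup p R ∧ A ≤ R ∧ g ∈ Subgroup.normalizer (R : Set G) := by
  set K := A ⊔ Subgroup.zpowers g with hK
  have hpA : IsPGroup p ↥(A.subgroupOf K) := hA.comap_subtype
  have hle : A.subgroupOf K ≤ Cfsg.pCore p ↥K :=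
    Helper22.SubnFit.subnormal_pGroup_le_pCore p hsn hpA
  refine ⟨(Cfsg.pCore p ↥K).map K.subtype, (Helper78.Fitting.pCore_isPGroup p).map K.subtype,
    ?_, ?_⟩
  · intro a ha
    have haK : a ∈ K := (le_sup_left : A ≤ K) ha
    exact Subgroup.mem_map.mpr ⟨⟨a, haK⟩, hle (Subgroup.mem_subgroupOf.mpr ha), rfl⟩
  · exact le_normalizer_pCoreOf p K
      ((le_sup_right : Subgroup.zpowers g ≤ K) (Subgroup.mem_zpowers g))

theorem exists_radical [Finite G] (p : ℕ) [Fact p.Prime] {H : Subgroup G} (hH : IsPGroup p H)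
    {g : G} (hsn : (H.subgroupOf (H ⊔ Subgroup.zpowers g)).IsSubnormal) :
    ∃ R : Subgroup G, H ≤ R ∧
      (Cfsg.pCore p (Subgroup.normalizer (R : Set G))).map
        (Subgroup.normalizer (R : Set G)).subtype = R ∧
      g ∈ Subgroup.normalizer (R : Set G) := by
  obtain ⟨R0, hR0p, hHR0, hgR0⟩ := exists_of_subn p hH hsn
  let S : Set (Subgroup G) :=
    {R | IsPGroup p R ∧ H ≤ R ∧ g ∈ Subgroup.normalizer (R : Set G)}
  have hfin : S.Finite := Set.toFinite S
  obtain ⟨R, hR0R, hRmax⟩ := hfin.exists_le_maximal (show R0 ∈ S from ⟨hR0p, hHR0, hgR0⟩)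
  obtain ⟨hRp, hHR, hgR⟩ := hRmax.prop
  set N := Subgroup.normalizer (R : Set G) with hN
  have hRle : R ≤ (Cfsg.pCore p ↥N).map N.subtype := by
    intro x hx
    have hxN : x ∈ N := Subgroup.le_normalizer hx
    have hnorm : (R.subgroupOf N).Normal := Subgroup.normal_subgroupOf_of_le_normalizer le_rfl
    have h1 : R.subgroupOf N ≤ Cfsg.pCore p ↥N :=
      Helper78.Fitting.le_pCore hnorm hRp.comap_subtype
    exact Subgroup.mem_map.mpr ⟨⟨x, hxN⟩, h1 (Subgroup.mem_subgroupOf.mpr hx), rfl⟩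
  have hmem : (Cfsg.pCore p ↥N).map N.subtype ∈ S :=
    ⟨(Helper78.Fitting.pCore_isPGroup p).map N.subtype, hHR.trans hRle,
      le_normalizer_pCoreOf p N hgR⟩
  have heq : (Cfsg.pCore p ↥N).map N.subtype = R :=
    le_antisymm (hRmax.le_of_ge hmem hRle) hRle
  exact ⟨R, hHR, heq, hgR⟩

theorem le_pCore_of_le_all_sylow [Finite G] (p : ℕ) [Fact p.Prime] {X : Subgroup G}
    (h : ∀ T : Sylow p G, X ≤ (T : Subgroup G)) : X ≤ Cfsg.pCore p G := by
  obtain ⟨T0⟩ := (inferInstance : Nonempty (Sylow p G))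
  have h1 : X ≤ (T0 : Subgroup G).normalCore := by
    intro x hx
    show ∀ b : G, b * x * b⁻¹ ∈ (T0 : Subgroup G)
    intro b
    have h2 : x ∈ ((b⁻¹ • T0 : Sylow p G) : Subgroup G) := h _ hx
    rw [Sylow.coe_subgroup_smul, Subgroup.mem_pointwise_smul_iff_inv_smul_mem] at h2
    simpa [MulAut.smul_def, MulAut.conj_apply] using h2
  have h3 : IsPGroup p ↥((T0 : Subgroup G).normalCore) :=
    T0.isPGroup'.to_le (Subgroup.normalCore_le _)
  exact h1.trans (Helper78.Fitting.le_pCore (Subgroup.normalCore_normal _) h3)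

theorem isPGroup_of_radical [Finite G] (p : ℕ) [Fact p.Prime] {R : Subgroup G}
    (hR : (Cfsg.pCore p (Subgroup.normalizer (R : Set G))).map
      (Subgroup.normalizer (R : Set G)).subtype = R) : IsPGroup p R := by
  have h := (Helper78.Fitting.pCore_isPGroup (G := ↥(Subgroup.normalizer (R : Set G))) p).map
    (Subgroup.normalizer (R : Set G)).subtype
  rwa [hR] at h

theorem sInf_le_radical [Finite G] (p : ℕ) [Fact p.Prime] {H R : Subgroup G}
    (hHR : H ≤ R)
    (hR : (Cfsg.pCore p (Subgroup.normalizer (R : Set G))).map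
      (Subgroup.normalizer (R : Set G)).subtype = R) :
    sInf {K : Subgroup G | ∃ Q : Sylow p G, H ≤ (Q : Subgroup G) ∧ K = (Q : Subgroup G)} ≤ R := by
  have hRp : IsPGroup p R := isPGroup_of_radical p hR
  set I := sInf {K : Subgroup G | ∃ Q : Sylow p G, H ≤ (Q : Subgroup G) ∧ K = (Q : Subgroup G)}
    with hI
  set N := Subgroup.normalizer (R : Set G) with hN
  have hIle : ∀ Q : Sylow p G, R ≤ (Q : Subgroup G) → I ⊔ R ≤ (Q : Subgroup G) := fun Q hQ =>
    sup_le (sInf_le ⟨Q, hHR.trans hQ, rfl⟩) hQ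
  have hJN : ∀ x, x ∈ I ⊔ R → x ∈ N → x ∈ R := by
    intro x hxJ hxN
    have h1 : (I ⊔ R).subgroupOf N ≤ Cfsg.pCore p ↥N := by
      apply le_pCore_of_le_all_sylow p
      intro T
      obtain ⟨Q, hQ⟩ := (T.isPGroup'.map N.subtype).exists_le_sylow
      have hRQ : R ≤ (Q : Subgroup G) := by
        have h0 : (Cfsg.pCore p ↥N).map N.subtype ≤ (T : Subgroup ↥N).map N.subtype :=
          Subgroup.map_mono (Helper78.Fitting.pCore_le_sylow T)
        rw [hR] at h0
        exact h0.trans hQ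
      have hTQ : (T : Subgroup ↥N) ≤ (Q : Subgroup G).subgroupOf N := by
        intro t ht
        exact Subgroup.mem_subgroupOf.mpr (hQ (Subgroup.mem_map_of_mem N.subtype ht))
      have hQT : (Q : Subgroup G).subgroupOf N = (T : Subgroup ↥N) :=
        T.is_maximal' Q.isPGroup'.comap_subtype hTQ
      rw [← hQT]
      intro y hy
      exact Subgroup.mem_subgroupOf.mpr (hIle Q hRQ (Subgroup.mem_subgroupOf.mp hy))
    have h2 : (⟨x, hxN⟩ : ↥N) ∈ Cfsg.pCore p ↥N := h1 (Subgroup.mem_subgroupOf.mpr hxJ)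
    have h3 : x ∈ (Cfsg.pCore p ↥N).map N.subtype := Subgroup.mem_map.mpr ⟨⟨x, hxN⟩, h2, rfl⟩
    rwa [hR] at h3
  obtain ⟨Q0, hQ0⟩ := hRp.exists_le_sylow
  have hJp : IsPGroup p ↥(I ⊔ R) := Q0.isPGroup'.to_le (hIle Q0 hQ0)
  haveI : Group.IsNilpotent ↥(I ⊔ R) := hJp.isNilpotent
  have htop : R.subgroupOf (I ⊔ R) = ⊤ := by
    by_contra hne
    have hlt := Group.normalizerCondition_of_isNilpotent (R.subgroupOf (I ⊔ R))
      (lt_top_iff_ne_top.mpr hne)
    obtain ⟨y, hyN, hyR⟩ := SetLike.exists_of_lt hlt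
    apply hyR
    rw [← Subgroup.subgroupOf_normalizer_eq (le_sup_right : R ≤ I ⊔ R)] at hyN
    exact Subgroup.mem_subgroupOf.mpr (hJN y.1 y.2 (Subgroup.mem_subgroupOf.mp hyN))
  exact le_sup_left.trans (Subgroup.subgroupOf_eq_top.mp htop)

/-- Let G be a finite group, p a prime and H a p-subgroup of G. Then the set of elements g of G such that H is subnormal in the subgroup generated by H and g is the union of the normalizers N_G(R) over the subgroups R of G containing H with R = O_p(N_G(R)); and this set does not change when H is replaced by the intersection of all Sylow p-subgroups of G containing H. -/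
theorem result {G : Type*} [Group G] [Finite G] (p : ℕ) [Fact p.Prime]
    (H : Subgroup G) (hH : IsPGroup p H) :
    {g : G | ((H).subgroupOf (H ⊔ Subgroup.zpowers g)).IsSubnormal} =
      {g : G | ∃ R : Subgroup G, H ≤ R ∧ (Cfsg.pCore p (Subgroup.normalizer (R : Set G))).map (Subgroup.normalizer (R : Set G)).subtype = R ∧ g ∈ Subgroup.normalizer (R : Set G)} ∧
    ∀ g : G, (((H).subgroupOf (H ⊔ Subgroup.zpowers g)).IsSubnormal ↔
      (((sInf {K : Subgroup G | ∃ Q : Sylow p G, H ≤ (Q : Subgroup G) ∧ K = (Q : Subgroup G)})).subgroupOf ((sInf {K : Subgroup G | ∃ Q : Sylow p G, H ≤ (Q : Subgroup G) ∧ K = (Q : Subgroup G)}) ⊔ Subgroup.zpowers g)).IsSubnormal) := by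
  constructor
  · ext g
    simp only [Set.mem_ofPred_eq]
    constructor
    · intro hsn
      exact exists_radical p hH hsn
    · rintro ⟨R, hHR, hR, hg⟩
      exact subn_of_normalizer p (isPGroup_of_radical p hR) hHR hg
  · intro g
    have hHI : H ≤ sInf {K : Subgroup G | ∃ Q : Sylow p G, H ≤ (Q : Subgroup G) ∧ K = (Q : Subgroup G)} :=
      le_sInf (by rintro K ⟨Q, hQ, rfl⟩; exact hQ)
    obtain ⟨Q0, hQ0⟩ := hH.exists_le_sylow
    have hIp : IsPGroup p ↥(sInf {K : Subgroup G | ∃ Q : Sylow p G, H ≤ (Q : Subgroup G) ∧ K = (Q : Subgroup G)}) :=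
      Q0.isPGroup'.to_le (sInf_le ⟨Q0, hQ0, rfl⟩)
    constructor
    · intro hsn
      obtain ⟨R, hHR, hR, hg⟩ := exists_radical p hH hsn
      exact subn_of_normalizer p (isPGroup_of_radical p hR) (sInf_le_radical p hHR hR) hg
    · intro hsn
      obtain ⟨R, hRp, hIR, hg⟩ := exists_of_subn p hIp hsn
      exact subn_of_normalizer p hRp (hHI.trans hIR) hg

end Cfsg.Agent.S4089
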