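import Cfsg.Statements.S4090
import Cfsg.Agent.S4089
import Cfsg.Agent.Lib.Helper76.SylowTools

set_option autoImplicit false
open Cfsg

namespace Cfsg.Agent.S4090

open Cfsg.Agent.Lib
open Cfsg.Agent.Lib.Helper76.SylowTools (IsSylowIn)
open scoped Pointwise

set_option linter.style.haveILetI false

/-- counting by fibres of constant size -/
theorem fiber_count {α β : Type*} [Finite α] [Finite β] (f : α → β) (k : ℕ)
    (h : ∀ b, Nat.card {a // f a = b} = k) : Nat.card α = Nat.card β * k := by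
  haveI := Fintype.ofFinite β
  rw [← Nat.card_congr (Equiv.sigmaFiberEquiv f), Nat.card_sigma]
  simp only [h, Finset.sum_const, Finset.card_univ, smul_eq_mul, Nat.card_eq_fintype_card]

/-- size of a full preimage under a surjective homomorphism -/
theorem card_preimage {G G' : Type*} [Group G] [Group G'] [Finite G] (π : G →* G')
    (hπ : Function.Surjective π) (A : Set G') :
    Nat.card ↥(π ⁻¹' A) = Nat.card ↥A * Nat.card ↥π.ker := by
  haveI : Finite G' := Finite.of_surjective π hπ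
  refine fiber_count (fun x : ↥(π ⁻¹' A) => (⟨π x.1, x.2⟩ : ↥A)) _ ?_
  intro b
  obtain ⟨g₀, hg₀⟩ := hπ b.1
  refine Nat.card_congr
    { toFun := fun a => ⟨g₀⁻¹ * a.1.1, ?_⟩
      invFun := fun k => ⟨⟨g₀ * k.1, ?_⟩, ?_⟩
      left_inv := ?_
      right_inv := ?_ }
  · have h1 : π a.1.1 = b.1 := congrArg Subtype.val a.2
    rw [MonoidHom.mem_ker, map_mul, map_inv, hg₀, h1, inv_mul_cancel]
  · have hk : π k.1 = 1 := MonoidHom.mem_ker.mp k.2
    show π (g₀ * k.1) ∈ A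
    rw [map_mul, hk, mul_one, hg₀]
    exact b.2
  · have hk : π k.1 = 1 := MonoidHom.mem_ker.mp k.2
    apply Subtype.ext
    show π (g₀ * k.1) = b.1
    rw [map_mul, hk, mul_one, hg₀]
  · intro a
    apply Subtype.ext
    apply Subtype.ext
    show g₀ * (g₀⁻¹ * a.1.1) = a.1.1
    rw [mul_inv_cancel_left]
  · intro k
    apply Subtype.ext
    show g₀⁻¹ * (g₀ * k.1) = k.1
    rw [inv_mul_cancel_left]

variable {G : Type*} [Group G]

/-- the elements `g` such that `H N / N` is subnormal in `⟨H, g⟩ N / N`, described inside `G` -/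
def Tset (p : ℕ) (H N : Subgroup G) : Set G :=
  {g | ∃ R : Subgroup G, N ≤ R ∧ H ≤ R ∧ (∃ k : ℕ, N.relIndex R = p ^ k) ∧
    g ∈ Subgroup.normalizer (R : Set G)}

noncomputable def rfac (p : ℕ) (N N' : Subgroup G) : ℕ :=
  if (N.relIndex N').Coprime p then N.relIndex N' else 1

noncomputable def cfac (p : ℕ) (H N N' : Subgroup G) : ℕ :=
  if (N.relIndex N').Coprime p then
    Nat.card {u : G // u ∈ N' ∧ ∀ h ∈ H, h * u * h⁻¹ * u⁻¹ ∈ N} / Nat.card N else 1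

theorem subn_iff_mem_Tset [Finite G] (p : ℕ) [Fact p.Prime] {H : Subgroup G} (hH : IsPGroup p H)
    (g : G) : (H.subgroupOf (H ⊔ Subgroup.zpowers g)).IsSubnormal ↔ g ∈ Tset p H ⊥ := by
  constructor
  · intro h
    obtain ⟨R, hRp, hHR, hg⟩ := S4089.exists_of_subn p hH h
    obtain ⟨k, hk⟩ := IsPGroup.iff_card.mp hRp
    exact ⟨R, bot_le, hHR, ⟨k, by rw [Subgroup.relIndex_bot_left, hk]⟩, hg⟩
  · rintro ⟨R, -, hHR, ⟨k, hk⟩, hg⟩
    rw [Subgroup.relIndex_bot_left] at hk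
    exact S4089.subn_of_normalizer p (IsPGroup.of_card hk) hHR hg

theorem Tset_mono (p : ℕ) [Fact p.Prime] (H : Subgroup G) {N N' : Subgroup G} (hNN' : N ≤ N')
    [hN' : N'.Normal] : Tset p H N ⊆ Tset p H N' := by
  rintro g ⟨R, hNR, hHR, ⟨k, hk⟩, hg⟩
  refine ⟨R ⊔ N', le_sup_right, hHR.trans le_sup_left, ?_, ?_⟩
  · have h1 : N'.relIndex (R ⊔ N') = N'.relIndex R := Subgroup.relIndex_sup_right R N'
    have h2 : N'.relIndex R ∣ N.relIndex R := Subgroup.relIndex_dvd_of_le_left R hNN'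
    rw [hk] at h2
    obtain ⟨j, -, hj⟩ := (Nat.dvd_prime_pow (Fact.out : p.Prime)).mp h2
    exact ⟨j, by rw [h1, hj]⟩
  · rw [← Helper62.Wielandt.conj_smul_eq_iff] at hg ⊢
    rw [Subgroup.smul_sup, hg, Subgroup.Normal.conj_smul_eq_self g N']

theorem Tset_eq_of_pow (p : ℕ) [Fact p.Prime] (H : Subgroup G) {N N' : Subgroup G}
    (hNN' : N ≤ N') [N'.Normal] (hpow : ∃ m : ℕ, N.relIndex N' = p ^ m) :
    Tset p H N = Tset p H N' := by
  apply Set.Subset.antisymm (Tset_mono p H hNN')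
  rintro g ⟨R, hNR, hHR, ⟨k, hk⟩, hg⟩
  obtain ⟨m, hm⟩ := hpow
  refine ⟨R, hNN'.trans hNR, hHR, ⟨m + k, ?_⟩, hg⟩
  rw [← Subgroup.relIndex_mul_relIndex N N' R hNN' hNR, hm, hk, pow_add]

theorem Tset_eq_preimage {G' : Type*} [Group G'] (p : ℕ) (H N : Subgroup G) (π : G →* G')
    (hsurj : Function.Surjective π) (hker : π.ker = N) {N' : Subgroup G} (hNN' : N ≤ N') :
    Tset p H N' = π ⁻¹' (Tset p (H.map π) (N'.map π)) := by
  ext g
  constructor
  · rintro ⟨R, hNR, hHR, ⟨k, hk⟩, hg⟩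
    refine ⟨R.map π, Subgroup.map_mono hNR, Subgroup.map_mono hHR, ⟨k, ?_⟩, ?_⟩
    · rw [← Subgroup.relIndex_comap, Subgroup.comap_map_eq, hker, sup_of_le_left hNN', hk]
    · exact Subgroup.le_normalizer_map π (Subgroup.mem_map_of_mem π hg)
  · rintro ⟨R, hNR, hHR, ⟨k, hk⟩, hg⟩
    refine ⟨R.comap π, ?_, ?_, ⟨k, ?_⟩, ?_⟩
    · exact (Subgroup.map_le_iff_le_comap).mp hNR
    · exact (Subgroup.map_le_iff_le_comap).mp hHR
    · have h1 : (N'.map π).comap π = N' := by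
        rw [Subgroup.comap_map_eq, hker, sup_of_le_left hNN']
      rw [← h1, Subgroup.relIndex_comap, Subgroup.map_comap_eq_self_of_surjective hsurj, hk]
    · exact Subgroup.le_normalizer_comap π hg

theorem Kset_eq_preimage {G' : Type*} [Group G'] (H N N' : Subgroup G) (π : G →* G')
    (hker : π.ker = N) (hNN' : N ≤ N') :
    {u : G | u ∈ N' ∧ ∀ h ∈ H, h * u * h⁻¹ * u⁻¹ ∈ N} =
      π ⁻¹' {u | u ∈ N'.map π ∧ ∀ h ∈ H.map π, h * u * h⁻¹ * u⁻¹ ∈ (⊥ : Subgroup G')} := by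
  have key : ∀ h u : G, (π h * π u * (π h)⁻¹ * (π u)⁻¹ = 1) ↔ h * u * h⁻¹ * u⁻¹ ∈ N := by
    intro h u
    rw [← hker, MonoidHom.mem_ker]
    simp only [map_mul, map_inv]
  ext u
  constructor
  · rintro ⟨hu, hc⟩
    refine ⟨Subgroup.mem_map_of_mem π hu, ?_⟩
    rintro _ ⟨h, hh, rfl⟩
    rw [Subgroup.mem_bot]
    exact (key h u).mpr (hc h hh)
  · rintro ⟨hu, hc⟩
    refine ⟨?_, ?_⟩
    · have h1 : u ∈ (N'.map π).comap π := hu
      rwa [Subgroup.comap_map_eq, hker, sup_of_le_left hNN'] at h1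
    · intro h hh
      have h1 := hc (π h) (Subgroup.mem_map_of_mem π hh)
      rw [Subgroup.mem_bot] at h1
      exact (key h u).mp h1

/-! ### conjugation lemmas -/

theorem mem_conj_smul (u x : G) (R : Subgroup G) : x ∈ MulAut.conj u • R ↔ u⁻¹ * x * u ∈ R := by
  rw [Subgroup.mem_pointwise_smul_iff_inv_smul_mem, ← map_inv, MulAut.smul_def, MulAut.conj_apply,
    inv_inv]

theorem normalizer_conj_smul (u y : G) (R : Subgroup G) :
    u * y * u⁻¹ ∈ Subgroup.normalizer ((MulAut.conj u • R : Subgroup G) : Set G) ↔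
      y ∈ Subgroup.normalizer (R : Set G) := by
  rw [← Helper62.Wielandt.conj_smul_eq_iff, ← Helper62.Wielandt.conj_smul_eq_iff, ← mul_smul,
    ← map_mul]
  have e : u * y * u⁻¹ * u = u * y := by group
  rw [e, map_mul, mul_smul]
  exact smul_left_cancel_iff _

theorem conj_smul_eq_conj_smul_iff (a b : G) (R : Subgroup G) :
    MulAut.conj a • R = MulAut.conj b • R ↔ b⁻¹ * a ∈ Subgroup.normalizer (R : Set G) := by
  rw [← Helper62.Wielandt.conj_smul_eq_iff, map_mul, mul_smul, map_inv, inv_smul_eq_iff]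

theorem normalizer_coset_iff {M W : Subgroup G} (hMW : M ≤ W) {t x : G} (hxt : x⁻¹ * t ∈ M) :
    x ∈ Subgroup.normalizer (W : Set G) ↔ t ∈ Subgroup.normalizer (W : Set G) := by
  have hm : x⁻¹ * t ∈ Subgroup.normalizer (W : Set G) := Subgroup.le_normalizer (hMW hxt)
  constructor
  · intro hx
    have h := mul_mem hx hm
    rwa [mul_inv_cancel_left] at h
  · intro ht
    have h := mul_mem ht (inv_mem hm)
    rwa [mul_inv_rev, inv_inv, mul_inv_cancel_left] at h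

/-! ### Sylow lemmas -/

theorem exists_isSylowIn_ge [Finite G] {p : ℕ} [Fact p.Prime] {H V : Subgroup G}
    (hH : IsPGroup p H) (hHV : H ≤ V) : ∃ R : Subgroup G, IsSylowIn p R V ∧ H ≤ R := by
  obtain ⟨Q, hQ⟩ := (hH.comap_subtype (K := V)).exists_le_sylow
  refine ⟨(Q : Subgroup V).map V.subtype, ⟨Subgroup.map_subtype_le _, Q.isPGroup'.map V.subtype, ?_⟩, ?_⟩
  · have h1 : ((Q : Subgroup V).map V.subtype).subgroupOf V = Q :=
      Subgroup.comap_map_eq_self_of_injective V.subtype_injective _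
    change ¬ p ∣ (((Q : Subgroup V).map V.subtype).subgroupOf V).index
    rw [h1]
    exact Q.not_dvd_index
  · intro h hh
    exact Subgroup.mem_map.mpr ⟨⟨h, hHV hh⟩, hQ (Subgroup.mem_subgroupOf.mpr hh), rfl⟩

theorem isPGroup_conj_smul [Finite G] {p : ℕ} [Fact p.Prime] {R : Subgroup G} (hR : IsPGroup p R)
    (u : G) : IsPGroup p ↥(MulAut.conj u • R : Subgroup G) := by
  obtain ⟨n, hn⟩ := IsPGroup.iff_card.mp hR
  exact IsPGroup.of_card ((Helper62.Wielandt.card_smul _ _).trans hn)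

theorem isSylowIn_conj [Finite G] (p : ℕ) [Fact p.Prime] {V R₀ : Subgroup G} {t : G}
    (hR₀ : IsSylowIn p R₀ V) (htV : t ∈ Subgroup.normalizer (V : Set G)) :
    IsSylowIn p (MulAut.conj t • R₀) V := by
  have hV : MulAut.conj t • V = V := (Helper62.Wielandt.conj_smul_eq_iff t V).mpr htV
  refine ⟨?_, isPGroup_conj_smul hR₀.2.1 t, ?_⟩
  · have h1 : MulAut.conj t • R₀ ≤ MulAut.conj t • V :=
      Subgroup.pointwise_smul_le_pointwise_smul_iff.mpr hR₀.1
    rwa [hV] at h1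
  · have h1 : (MulAut.conj t • R₀).relIndex (MulAut.conj t • V) = R₀.relIndex V :=
      Subgroup.relIndex_pointwise_smul _ _ _
    rw [hV] at h1
    rw [h1]
    exact hR₀.2.2

theorem le_of_isSylowIn_le [Finite G] (p : ℕ) [Fact p.Prime] {A C V : Subgroup G}
    (hC : IsSylowIn p C V) (hA : IsSylowIn p A V) (hCA : C ≤ A) : A ≤ C := by
  rw [← Subgroup.relIndex_eq_one]
  have h1 := Subgroup.relIndex_mul_relIndex C A V hCA hA.1
  have h2 : C.relIndex A ∣ C.relIndex V := Dvd.intro _ h1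
  obtain ⟨n, hn⟩ := IsPGroup.iff_card.mp hA.2.1
  have h3 : C.relIndex A ∣ p ^ n := by
    rw [← hn]
    exact Subgroup.relIndex_dvd_card _ _
  obtain ⟨j, -, hj⟩ := (Nat.dvd_prime_pow (Fact.out : p.Prime)).mp h3
  rcases Nat.eq_zero_or_pos j with h0 | hpos
  · rw [hj, h0, pow_zero]
  · exfalso
    apply hC.2.2
    refine dvd_trans ?_ h2
    rw [hj]
    exact dvd_pow_self p hpos.ne'

theorem le_sup_of_isSylowIn (p : ℕ) [Fact p.Prime] {M V R₀ : Subgroup G} (hMV : M ≤ V)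
    (ha : ∃ a : ℕ, M.relIndex V = p ^ a) (hR₀ : IsSylowIn p R₀ V) : V ≤ M ⊔ R₀ := by
  obtain ⟨a, ha⟩ := ha
  rw [← Subgroup.relIndex_eq_one]
  have h1 : (M ⊔ R₀).relIndex V ∣ R₀.relIndex V := Subgroup.relIndex_dvd_of_le_left V le_sup_right
  have h2 : (M ⊔ R₀).relIndex V ∣ M.relIndex V := Subgroup.relIndex_dvd_of_le_left V le_sup_left
  rw [ha] at h2
  obtain ⟨j, -, hj⟩ := (Nat.dvd_prime_pow (Fact.out : p.Prime)).mp h2
  rcases Nat.eq_zero_or_pos j with h0 | hpos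
  · rw [hj, h0, pow_zero]
  · exfalso
    apply hR₀.2.2
    refine dvd_trans ?_ h1
    rw [hj]
    exact dvd_pow_self p hpos.ne'

theorem exists_conj_of_isSylowIn [Finite G] (p : ℕ) [Fact p.Prime] {M V R₀ R₁ : Subgroup G}
    [M.Normal] (hV : V ≤ M ⊔ R₀) (hR₀ : IsSylowIn p R₀ V) (hR₁ : IsSylowIn p R₁ V) :
    ∃ m ∈ M, R₁ = MulAut.conj m • R₀ := by
  obtain ⟨v, hv, hconj⟩ := hR₀.exists_conj hR₁
  have hv' : v ∈ ((M ⊔ R₀ : Subgroup G) : Set G) := hV hv
  rw [Subgroup.normal_mul] at hv'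
  obtain ⟨m, hm, r, hr, rfl⟩ := Set.mem_mul.mp hv'
  refine ⟨m, hm, ?_⟩
  rw [hconj]
  ext y
  rw [Helper76.SylowTools.mem_map_conj, mem_conj_smul]
  have e : (m * r)⁻¹ * y * (m * r) = r⁻¹ * (m⁻¹ * y * m) * r := by group
  rw [e]
  constructor
  · intro h
    have h' := R₀.mul_mem (R₀.mul_mem hr h) (R₀.inv_mem hr)
    simpa [mul_assoc] using h'
  · intro h
    exact R₀.mul_mem (R₀.mul_mem (R₀.inv_mem hr) h) hr

theorem inf_eq_bot_of_pgroup [Finite G] (p : ℕ) [Fact p.Prime] {R M : Subgroup G}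
    (hR : IsPGroup p R) (hM : (Nat.card M).Coprime p) : R ⊓ M = ⊥ := by
  obtain ⟨n, hn⟩ := IsPGroup.iff_card.mp hR
  apply Disjoint.eq_bot
  apply Subgroup.disjoint_of_coprime_natCard
  rw [hn]
  exact Nat.Coprime.pow_left n hM.symm

theorem centralizes_iff {M R₀ H : Subgroup G} [hMn : M.Normal] (hRM : R₀ ⊓ M = ⊥) (hHR₀ : H ≤ R₀)
    {u : G} (hu : u ∈ M) :
    (∀ h ∈ H, h * u * h⁻¹ * u⁻¹ ∈ (⊥ : Subgroup G)) ↔ H ≤ MulAut.conj u • R₀ := by
  constructor
  · intro hc h hh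
    rw [mem_conj_smul]
    have h1 := hc h hh
    rw [Subgroup.mem_bot] at h1
    have h3 : h * u = u * h := by
      have h' := congrArg (fun z => z * u * h) h1
      simpa [mul_assoc] using h'
    have h2 : u⁻¹ * h * u = h := by
      rw [mul_assoc, h3, inv_mul_cancel_left]
    rw [h2]
    exact hHR₀ hh
  · intro hle h hh
    have h1 : u⁻¹ * h * u ∈ R₀ := (mem_conj_smul u h R₀).mp (hle hh)
    have h2 : h⁻¹ * (u⁻¹ * h * u) ∈ R₀ ⊓ M := by
      refine Subgroup.mem_inf.mpr ⟨R₀.mul_mem (R₀.inv_mem (hHR₀ hh)) h1, ?_⟩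
      have e : h⁻¹ * (u⁻¹ * h * u) = (h⁻¹ * u⁻¹ * h⁻¹⁻¹) * u := by group
      rw [e]
      exact M.mul_mem (hMn.conj_mem _ (M.inv_mem hu) _) hu
    rw [hRM, Subgroup.mem_bot] at h2
    rw [Subgroup.mem_bot]
    have h3 : u⁻¹ * h * u = h := by
      have h' := congrArg (fun z => h * z) h2
      simpa [mul_assoc] using h'
    have h4 : h * u = u * h := by
      have h' := congrArg (fun z => u * z) h3
      simpa [mul_assoc] using h'
    rw [h4]
    group

/-! ### the minimal invariant subgroup -/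

theorem exists_min_invariant (p : ℕ) [Fact p.Prime] (H M : Subgroup G) (t : G)
    (ht : t ∈ Tset p H M) :
    ∃ V : Subgroup G, M ≤ V ∧ H ≤ V ∧ t ∈ Subgroup.normalizer (V : Set G) ∧
      (∀ W : Subgroup G, M ≤ W → H ≤ W → t ∈ Subgroup.normalizer (W : Set G) → V ≤ W) ∧
      ∃ a : ℕ, M.relIndex V = p ^ a := by
  obtain ⟨R, hMR, hHR, ⟨k, hk⟩, htR⟩ := ht
  have hmin : ∀ W : Subgroup G, M ≤ W → H ≤ W → t ∈ Subgroup.normalizer (W : Set G) →
      sInf {W : Subgroup G | M ≤ W ∧ H ≤ W ∧ t ∈ Subgroup.normalizer (W : Set G)} ≤ W :=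
    fun W h1 h2 h3 => sInf_le ⟨h1, h2, h3⟩
  have hMV : M ≤ sInf {W : Subgroup G | M ≤ W ∧ H ≤ W ∧ t ∈ Subgroup.normalizer (W : Set G)} :=
    le_sInf (fun W hW => hW.1)
  have hHV : H ≤ sInf {W : Subgroup G | M ≤ W ∧ H ≤ W ∧ t ∈ Subgroup.normalizer (W : Set G)} :=
    le_sInf (fun W hW => hW.2.1)
  refine ⟨_, hMV, hHV, ?_, hmin, ?_⟩
  · rw [Subgroup.mem_normalizer_iff]
    intro x
    rw [Subgroup.mem_sInf, Subgroup.mem_sInf]
    constructor
    · intro hx W hW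
      exact (Subgroup.mem_normalizer_iff.mp hW.2.2 x).mp (hx W hW)
    · intro hx W hW
      exact (Subgroup.mem_normalizer_iff.mp hW.2.2 x).mpr (hx W hW)
  · have hVR := hmin R hMR hHR htR
    have h1 := Subgroup.relIndex_mul_relIndex M _ R hMV hVR
    rw [hk] at h1
    obtain ⟨j, -, hj⟩ := (Nat.dvd_prime_pow (Fact.out : p.Prime)).mp (Dvd.intro _ h1)
    exact ⟨j, hj⟩

theorem isSylowIn_inf [Finite G] (p : ℕ) [Fact p.Prime] {H M V R : Subgroup G} [M.Normal]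
    (hM : (Nat.card M).Coprime p) (hMV : M ≤ V) (hHV : H ≤ V) {t x : G}
    (hVmin : ∀ W : Subgroup G, M ≤ W → H ≤ W → t ∈ Subgroup.normalizer (W : Set G) → V ≤ W)
    (htV : t ∈ Subgroup.normalizer (V : Set G))
    (hxt : x⁻¹ * t ∈ M) (hR : IsPGroup p R) (hHR : H ≤ R)
    (hxR : x ∈ Subgroup.normalizer (R : Set G)) : IsSylowIn p (R ⊓ V) V := by
  have hxV : x ∈ Subgroup.normalizer (V : Set G) := (normalizer_coset_iff hMV hxt).mpr htV
  have hW : V ≤ (R ⊓ V) ⊔ M := by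
    apply hVmin _ le_sup_right (le_trans (le_inf hHR hHV) le_sup_left)
    apply (normalizer_coset_iff (le_sup_right : M ≤ (R ⊓ V) ⊔ M) hxt).mp
    rw [← Helper62.Wielandt.conj_smul_eq_iff] at hxR hxV ⊢
    rw [Subgroup.smul_sup, Subgroup.smul_inf, hxR, hxV, Subgroup.Normal.conj_smul_eq_self x M]
  refine ⟨inf_le_right, hR.to_le inf_le_left, ?_⟩
  have h1 : (R ⊓ V) ⊔ M = V := le_antisymm (sup_le inf_le_right hMV) hW
  have h2 : (R ⊓ V).relIndex ((R ⊓ V) ⊔ M) = (R ⊓ V).relIndex M :=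
    Helper76.SylowTools.relIndex_sup_of_normal (R ⊓ V) M
  rw [h1] at h2
  rw [h2]
  intro hdvd
  have h3 : p ∣ Nat.card M := hdvd.trans (Subgroup.relIndex_dvd_card _ _)
  exact (Nat.Prime.coprime_iff_not_dvd (Fact.out : p.Prime)).mp hM.symm h3

theorem exists_frattini [Finite G] (p : ℕ) [Fact p.Prime] {M V R₀ : Subgroup G} [hMn : M.Normal]
    {t : G} (hV : V ≤ M ⊔ R₀) (htV : t ∈ Subgroup.normalizer (V : Set G))
    (hR₀ : IsSylowIn p R₀ V) :
    ∃ g₀ : G, g₀⁻¹ * t ∈ M ∧ g₀ ∈ Subgroup.normalizer (R₀ : Set G) := by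
  have hR₁ : IsSylowIn p (MulAut.conj t • R₀) V := isSylowIn_conj p hR₀ htV
  obtain ⟨m, hm, hconj⟩ := exists_conj_of_isSylowIn p hV hR₀ hR₁
  refine ⟨m⁻¹ * t, ?_, ?_⟩
  · have e : (m⁻¹ * t)⁻¹ * t = t⁻¹ * m * t⁻¹⁻¹ := by group
    rw [e]
    exact hMn.conj_mem m hm t⁻¹
  · exact (conj_smul_eq_conj_smul_iff t m R₀).mp hconj

theorem conj_mul_smul_of_mem_normalizer (m n : G) {R : Subgroup G}
    (hn : n ∈ Subgroup.normalizer (R : Set G)) :
    MulAut.conj (m * n) • R = MulAut.conj m • R := by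
  rw [map_mul, mul_smul, (Helper62.Wielandt.conj_smul_eq_iff n R).mpr hn]

/-! ### the core count -/

theorem core_claim [Finite G] (p : ℕ) [Fact p.Prime] {H : Subgroup G} (hH : IsPGroup p H)
    (M : Subgroup G) [hMn : M.Normal] (hM : (Nat.card M).Coprime p) (t : G)
    (ht : t ∈ Tset p H M) :
    Nat.card {x : G // x ∈ Tset p H ⊥ ∧ x⁻¹ * t ∈ M} =
      Nat.card {u : G // u ∈ M ∧ ∀ h ∈ H, h * u * h⁻¹ * u⁻¹ ∈ (⊥ : Subgroup G)} := by
  obtain ⟨V, hMV, hHV, htV, hVmin, ha⟩ := exists_min_invariant p H M t ht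
  obtain ⟨R₀, hR₀, hHR₀⟩ := exists_isSylowIn_ge hH hHV
  have hV : V ≤ M ⊔ R₀ := le_sup_of_isSylowIn p hMV ha hR₀
  have hRM : R₀ ⊓ M = ⊥ := inf_eq_bot_of_pgroup p hR₀.2.1 hM
  obtain ⟨g₀, hg₀t, hg₀N⟩ := exists_frattini p hV htV hR₀
  obtain ⟨Φ, hΦ⟩ : ∃ Φ : {u : G // u ∈ M ∧ ∀ h ∈ H, h * u * h⁻¹ * u⁻¹ ∈ (⊥ : Subgroup G)} ×
      ↥(M ⊓ Subgroup.normalizer (R₀ : Set G)) → {x : G // x ∈ Tset p H ⊥ ∧ x⁻¹ * t ∈ M},
      ∀ a, (Φ a : G) = a.1.1 * g₀ * a.2.1 * a.1.1⁻¹ := by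
    refine ⟨fun a => ⟨a.1.1 * g₀ * a.2.1 * a.1.1⁻¹, ?_, ?_⟩, fun a => rfl⟩
    · obtain ⟨n, hn⟩ := IsPGroup.iff_card.mp hR₀.2.1
      refine ⟨MulAut.conj a.1.1 • R₀, bot_le, (centralizes_iff hRM hHR₀ a.1.2.1).mp a.1.2.2,
        ⟨n, ?_⟩, ?_⟩
      · rw [Subgroup.relIndex_bot_left, Helper62.Wielandt.card_smul, hn]
      · have h1 : g₀ * a.2.1 ∈ Subgroup.normalizer (R₀ : Set G) :=
          mul_mem hg₀N (Subgroup.mem_inf.mp a.2.2).2
        have h2 := (normalizer_conj_smul a.1.1 (g₀ * a.2.1) R₀).mpr h1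
        rwa [← mul_assoc] at h2
    · have hu : a.1.1 ∈ M := a.1.2.1
      have hn : a.2.1 ∈ M := (Subgroup.mem_inf.mp a.2.2).1
      have e : (a.1.1 * g₀ * a.2.1 * a.1.1⁻¹)⁻¹ * t =
          a.1.1 * a.2.1⁻¹ * (g₀⁻¹ * a.1.1⁻¹ * g₀⁻¹⁻¹) * (g₀⁻¹ * t) := by group
      rw [e]
      exact M.mul_mem (M.mul_mem (M.mul_mem hu (M.inv_mem hn))
        (hMn.conj_mem _ (M.inv_mem hu) _)) hg₀t
  have hfib : ∀ x : {x : G // x ∈ Tset p H ⊥ ∧ x⁻¹ * t ∈ M},
      Nat.card {a // Φ a = x} = Nat.card ↥(M ⊓ Subgroup.normalizer (R₀ : Set G)) := by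
    rintro ⟨x, hxS, hxt⟩
    have hxS' := hxS
    obtain ⟨R, -, hHR, ⟨k, hk⟩, hxR⟩ := hxS'
    rw [Subgroup.relIndex_bot_left] at hk
    have hRp : IsPGroup p R := IsPGroup.of_card hk
    have hsyl := isSylowIn_inf p hM hMV hHV hVmin htV hxt hRp hHR hxR
    obtain ⟨m₁, hm₁, hconj⟩ := exists_conj_of_isSylowIn p hV hR₀ hsyl
    have hxV : x ∈ Subgroup.normalizer (V : Set G) := (normalizer_coset_iff hMV hxt).mpr htV
    have hxR₁ : x ∈ Subgroup.normalizer ((MulAut.conj m₁ • R₀ : Subgroup G) : Set G) := by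
      rw [← hconj]
      rw [← Helper62.Wielandt.conj_smul_eq_iff] at hxR hxV ⊢
      rw [Subgroup.smul_inf, hxR, hxV]
    have hHR₁ : H ≤ MulAut.conj m₁ • R₀ := by
      rw [← hconj]
      exact le_inf hHR hHV
    have hB : IsSylowIn p (MulAut.conj m₁ • R₀) V := by
      rw [← hconj]
      exact hsyl
    have huniq : ∀ u : G, u ∈ M → H ≤ MulAut.conj u • R₀ →
        x ∈ Subgroup.normalizer ((MulAut.conj u • R₀ : Subgroup G) : Set G) →
        MulAut.conj u • R₀ = MulAut.conj m₁ • R₀ := by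
      intro u hu hHu hxu
      have hAV : MulAut.conj u • R₀ ≤ V := by
        have huV : MulAut.conj u • V = V := Subgroup.conj_smul_eq_self_of_mem (hMV hu)
        have h1 : MulAut.conj u • R₀ ≤ MulAut.conj u • V :=
          Subgroup.pointwise_smul_le_pointwise_smul_iff.mpr hR₀.1
        rwa [huV] at h1
      have hAp : IsPGroup p ↥(MulAut.conj u • R₀ : Subgroup G) := isPGroup_conj_smul hR₀.2.1 u
      have hA : IsSylowIn p (MulAut.conj u • R₀) V := by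
        have h1 := isSylowIn_inf p hM hMV hHV hVmin htV hxt hAp hHu hxu
        rwa [inf_of_le_left hAV] at h1
      have hC : IsSylowIn p ((MulAut.conj u • R₀ ⊓ MulAut.conj m₁ • R₀) ⊓ V) V := by
        apply isSylowIn_inf p hM hMV hHV hVmin htV hxt (hAp.to_le inf_le_left) (le_inf hHu hHR₁)
        rw [← Helper62.Wielandt.conj_smul_eq_iff] at hxu hxR₁ ⊢
        rw [Subgroup.smul_inf, hxu, hxR₁]
      apply le_antisymm
      · exact (le_of_isSylowIn_le p hC hA (inf_le_left.trans inf_le_left)).trans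
          (inf_le_left.trans inf_le_right)
      · exact (le_of_isSylowIn_le p hC hB (inf_le_left.trans inf_le_right)).trans
          (inf_le_left.trans inf_le_left)
    refine Nat.card_congr
      { toFun := fun a => ⟨m₁⁻¹ * a.1.1.1, ?_⟩
        invFun := fun n' => ⟨(⟨m₁ * n'.1, ?_⟩,
          ⟨g₀⁻¹ * (m₁ * n'.1)⁻¹ * x * (m₁ * n'.1), ?_⟩), ?_⟩
        left_inv := ?_
        right_inv := ?_ }
    · -- m₁⁻¹ * u ∈ M ⊓ N(R₀)
      have hu : a.1.1.1 ∈ M := a.1.1.2.1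
      have hx' : a.1.1.1 * g₀ * a.1.2.1 * a.1.1.1⁻¹ = x := by
        have h1 := congrArg Subtype.val a.2
        rw [hΦ] at h1
        exact h1
      have hHu : H ≤ MulAut.conj a.1.1.1 • R₀ := (centralizes_iff hRM hHR₀ hu).mp a.1.1.2.2
      have hxu : x ∈ Subgroup.normalizer ((MulAut.conj a.1.1.1 • R₀ : Subgroup G) : Set G) := by
        have h1 : g₀ * a.1.2.1 ∈ Subgroup.normalizer (R₀ : Set G) :=
          mul_mem hg₀N (Subgroup.mem_inf.mp a.1.2.2).2
        have h2 := (normalizer_conj_smul a.1.1.1 (g₀ * a.1.2.1) R₀).mpr h1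
        rw [← mul_assoc, hx'] at h2
        exact h2
      exact Subgroup.mem_inf.mpr ⟨M.mul_mem (M.inv_mem hm₁) hu,
        (conj_smul_eq_conj_smul_iff a.1.1.1 m₁ R₀).mp (huniq _ hu hHu hxu)⟩
    · -- m₁ * n' ∈ K
      have hn'M : n'.1 ∈ M := (Subgroup.mem_inf.mp n'.2).1
      have hn'N : n'.1 ∈ Subgroup.normalizer (R₀ : Set G) := (Subgroup.mem_inf.mp n'.2).2
      have hw : m₁ * n'.1 ∈ M := M.mul_mem hm₁ hn'M
      refine ⟨hw, (centralizes_iff hRM hHR₀ hw).mpr ?_⟩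
      rw [conj_mul_smul_of_mem_normalizer m₁ n'.1 hn'N]
      exact hHR₁
    · -- g₀⁻¹ * w⁻¹ * x * w ∈ M ⊓ N(R₀)
      have hn'M : n'.1 ∈ M := (Subgroup.mem_inf.mp n'.2).1
      have hn'N : n'.1 ∈ Subgroup.normalizer (R₀ : Set G) := (Subgroup.mem_inf.mp n'.2).2
      have hw : m₁ * n'.1 ∈ M := M.mul_mem hm₁ hn'M
      refine Subgroup.mem_inf.mpr ⟨?_, ?_⟩
      · have e : g₀⁻¹ * (m₁ * n'.1)⁻¹ * x * (m₁ * n'.1) =
            (g₀⁻¹ * t) * (x⁻¹ * t)⁻¹ * (x⁻¹ * (m₁ * n'.1)⁻¹ * x⁻¹⁻¹) * (m₁ * n'.1) := by group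
        rw [e]
        exact M.mul_mem (M.mul_mem (M.mul_mem hg₀t (M.inv_mem hxt))
          (hMn.conj_mem _ (M.inv_mem hw) _)) hw
      · have hxw : x ∈ Subgroup.normalizer ((MulAut.conj (m₁ * n'.1) • R₀ : Subgroup G) : Set G) := by
          rw [conj_mul_smul_of_mem_normalizer m₁ n'.1 hn'N]
          exact hxR₁
        have e1 : (m₁ * n'.1) * ((m₁ * n'.1)⁻¹ * x * (m₁ * n'.1)) * (m₁ * n'.1)⁻¹ = x := by group
        have h1 : (m₁ * n'.1)⁻¹ * x * (m₁ * n'.1) ∈ Subgroup.normalizer (R₀ : Set G) := by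
          apply (normalizer_conj_smul (m₁ * n'.1) _ R₀).mp
          rw [e1]
          exact hxw
        have e2 : g₀⁻¹ * (m₁ * n'.1)⁻¹ * x * (m₁ * n'.1) =
            g₀⁻¹ * ((m₁ * n'.1)⁻¹ * x * (m₁ * n'.1)) := by group
        rw [e2]
        exact mul_mem (inv_mem hg₀N) h1
    · -- Φ (…) = x
      apply Subtype.ext
      rw [hΦ]
      show (m₁ * n'.1) * g₀ * (g₀⁻¹ * (m₁ * n'.1)⁻¹ * x * (m₁ * n'.1)) * (m₁ * n'.1)⁻¹ = x
      group
    · rintro ⟨⟨⟨u, hu⟩, ⟨n, hn⟩⟩, ha⟩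
      have hx' : u * g₀ * n * u⁻¹ = x := by
        have h1 := congrArg Subtype.val ha
        rw [hΦ] at h1
        exact h1
      apply Subtype.ext
      apply Prod.ext
      · apply Subtype.ext
        show m₁ * (m₁⁻¹ * u) = u
        rw [mul_inv_cancel_left]
      · apply Subtype.ext
        show g₀⁻¹ * (m₁ * (m₁⁻¹ * u))⁻¹ * x * (m₁ * (m₁⁻¹ * u)) = n
        rw [mul_inv_cancel_left, ← hx']
        group
    · rintro ⟨n', hn'⟩
      apply Subtype.ext
      show m₁⁻¹ * (m₁ * n') = n'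
      rw [inv_mul_cancel_left]
  have hcard := fiber_count Φ _ hfib
  rw [Nat.card_prod] at hcard
  have hpos : 0 < Nat.card ↥(M ⊓ Subgroup.normalizer (R₀ : Set G)) := Nat.card_pos
  exact (Nat.eq_of_mul_eq_mul_right hpos hcard).symm

theorem base_step [Finite G] (p : ℕ) [Fact p.Prime] {H : Subgroup G} (hH : IsPGroup p H)
    (M : Subgroup G) [hMn : M.Normal] (hM : (Nat.card M).Coprime p) :
    Nat.card ↥(Tset p H ⊥) * Nat.card ↥M =
      Nat.card {u : G // u ∈ M ∧ ∀ h ∈ H, h * u * h⁻¹ * u⁻¹ ∈ (⊥ : Subgroup G)} *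
        Nat.card ↥(Tset p H M) := by
  have hST : Tset p H ⊥ ⊆ Tset p H M := Tset_mono p H bot_le
  have hTM : ∀ t ∈ Tset p H M, ∀ m ∈ M, t * m ∈ Tset p H M := by
    rintro t ⟨R, hMR, hHR, hk, ht⟩ m hm
    exact ⟨R, hMR, hHR, hk, mul_mem ht (Subgroup.le_normalizer (hMR hm))⟩
  obtain ⟨f, hf⟩ : ∃ f : ↥(Tset p H ⊥) × ↥M → ↥(Tset p H M), ∀ a, (f a : G) = a.1.1 * a.2.1 :=
    ⟨fun a => ⟨a.1.1 * a.2.1, hTM _ (hST a.1.2) _ a.2.2⟩, fun a => rfl⟩
  have hfib : ∀ t : ↥(Tset p H M), Nat.card {a // f a = t} =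
      Nat.card {u : G // u ∈ M ∧ ∀ h ∈ H, h * u * h⁻¹ * u⁻¹ ∈ (⊥ : Subgroup G)} := by
    intro t
    rw [← core_claim p hH M hM t.1 t.2]
    refine Nat.card_congr
      { toFun := fun a => ⟨a.1.1.1, a.1.1.2, ?_⟩
        invFun := fun x => ⟨(⟨x.1, x.2.1⟩, ⟨x.1⁻¹ * t.1, x.2.2⟩), ?_⟩
        left_inv := ?_
        right_inv := ?_ }
    · have h1 : a.1.1.1 * a.1.2.1 = t.1 := by
        have h2 := congrArg Subtype.val a.2
        rw [hf] at h2
        exact h2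
      rw [← h1, inv_mul_cancel_left]
      exact a.1.2.2
    · apply Subtype.ext
      rw [hf]
      show x.1 * (x.1⁻¹ * t.1) = t.1
      rw [mul_inv_cancel_left]
    · rintro ⟨⟨⟨s, hs⟩, ⟨m, hm⟩⟩, ha⟩
      have h1 : s * m = t.1 := by
        have h2 := congrArg Subtype.val ha
        rw [hf] at h2
        exact h2
      apply Subtype.ext
      apply Prod.ext
      · rfl
      · apply Subtype.ext
        show s⁻¹ * t.1 = m
        rw [← h1, inv_mul_cancel_left]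
    · rintro ⟨x, hx⟩
      rfl
  have hcard := fiber_count f _ hfib
  rw [Nat.card_prod] at hcard
  rw [hcard, mul_comm]

theorem step_coprime [Finite G] (p : ℕ) [Fact p.Prime] {H : Subgroup G} (hH : IsPGroup p H)
    {N N' : Subgroup G} [hNn : N.Normal] [hN'n : N'.Normal] (hNN' : N ≤ N')
    (hcop : (N.relIndex N').Coprime p) :
    Nat.card ↥(Tset p H N) * N.relIndex N' =
      Nat.card {u : G // u ∈ N' ∧ ∀ h ∈ H, h * u * h⁻¹ * u⁻¹ ∈ N} / Nat.card ↥N *
        Nat.card ↥(Tset p H N') := by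
  obtain ⟨π, hsurj, hker⟩ : ∃ π : G →* G ⧸ N, Function.Surjective π ∧ π.ker = N :=
    ⟨QuotientGroup.mk' N, QuotientGroup.mk'_surjective N, QuotientGroup.ker_mk' N⟩
  haveI : (N'.map π).Normal := Subgroup.Normal.map hN'n π hsurj
  have hcardM : Nat.card ↥(N'.map π) = N.relIndex N' := by
    rw [← Subgroup.relIndex_bot_left, ← Subgroup.relIndex_comap, MonoidHom.comap_bot, hker]
  have hB := base_step p (hH.map π) (N'.map π) (by rw [hcardM]; exact hcop)
  have hNbot : N.map π = ⊥ := (Subgroup.map_eq_bot_iff N).mpr hker.ge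
  have e1 : Nat.card ↥(Tset p H N) = Nat.card ↥(Tset p (H.map π) ⊥) * Nat.card ↥N := by
    have h1 := Tset_eq_preimage p H N π hsurj hker (le_refl N)
    rw [hNbot] at h1
    rw [h1, card_preimage π hsurj, hker]
  have e2 : Nat.card ↥(Tset p H N') =
      Nat.card ↥(Tset p (H.map π) (N'.map π)) * Nat.card ↥N := by
    rw [Tset_eq_preimage p H N π hsurj hker hNN', card_preimage π hsurj, hker]
  have e3 : Nat.card {u : G // u ∈ N' ∧ ∀ h ∈ H, h * u * h⁻¹ * u⁻¹ ∈ N} =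
      Nat.card {u : G ⧸ N // u ∈ N'.map π ∧
        ∀ h ∈ H.map π, h * u * h⁻¹ * u⁻¹ ∈ (⊥ : Subgroup (G ⧸ N))} * Nat.card ↥N := by
    have h4 : Nat.card ↥{u : G | u ∈ N' ∧ ∀ h ∈ H, h * u * h⁻¹ * u⁻¹ ∈ N} =
        Nat.card ↥{u : G ⧸ N | u ∈ N'.map π ∧
          ∀ h ∈ H.map π, h * u * h⁻¹ * u⁻¹ ∈ (⊥ : Subgroup (G ⧸ N))} * Nat.card ↥π.ker := by
      rw [Kset_eq_preimage H N N' π hker hNN']
      exact card_preimage π hsurj _
    rw [hker] at h4
    exact h4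
  have hNpos : 0 < Nat.card ↥N := Nat.card_pos
  rw [e1, e2, e3, Nat.mul_div_cancel _ hNpos, ← hcardM]
  calc Nat.card ↥(Tset p (H.map π) ⊥) * Nat.card ↥N * Nat.card ↥(N'.map π)
      = (Nat.card ↥(Tset p (H.map π) ⊥) * Nat.card ↥(N'.map π)) * Nat.card ↥N := by ring
    _ = _ := by rw [hB]; ring

theorem step [Finite G] (p : ℕ) [Fact p.Prime] {H : Subgroup G} (hH : IsPGroup p H)
    {N N' : Subgroup G} [N.Normal] [N'.Normal] (hNN' : N ≤ N')
    (hfac : (∃ m : ℕ, N.relIndex N' = p ^ m) ∨ (N.relIndex N').Coprime p) :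
    Nat.card ↥(Tset p H N) * rfac p N N' = Nat.card ↥(Tset p H N') * cfac p H N N' ∧
      ∃ m : ℕ, Nat.card ↥N' = p ^ m * (Nat.card ↥N * rfac p N N') := by
  have hcard : Nat.card ↥N' = Nat.card ↥N * N.relIndex N' :=
    Helper76.SylowTools.card_eq_card_mul_relIndex' hNN'
  by_cases hc : (N.relIndex N').Coprime p
  · have h1 := step_coprime p hH hNN' hc
    refine ⟨?_, 0, ?_⟩
    · rw [rfac, cfac, if_pos hc, if_pos hc, h1, mul_comm]
    · rw [rfac, if_pos hc, pow_zero, one_mul, hcard]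
  · obtain ⟨m, hm⟩ := hfac.resolve_right hc
    refine ⟨?_, m, ?_⟩
    · rw [rfac, cfac, if_neg hc, if_neg hc, Tset_eq_of_pow p H hNN' ⟨m, hm⟩]
    · rw [rfac, if_neg hc, mul_one, hcard, hm, mul_comm]

theorem alg1 {a P r T C T' c : ℕ} (h1 : a * P = T * C) (h2 : T * r = T' * c) :
    a * (P * r) = T' * (C * c) := by
  calc a * (P * r) = (a * P) * r := by ring
    _ = T * C * r := by rw [h1]
    _ = C * (T * r) := by ring
    _ = C * (T' * c) := by rw [h2]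
    _ = T' * (C * c) := by ring

theorem alg2 {N' N P r p e m : ℕ} (h1 : N = p ^ e * P) (h2 : N' = p ^ m * (N * r)) :
    N' = p ^ (e + m) * (P * r) := by
  rw [h2, h1, pow_add]
  ring

theorem chain_count [Finite G] (p : ℕ) [Fact p.Prime] {H : Subgroup G} (hH : IsPGroup p H) :
    ∀ (n : ℕ) (M : Fin (n + 1) → Subgroup G), M 0 = ⊥ → Monotone M → (∀ i, (M i).Normal) →
      (∀ i : Fin n, (∃ m : ℕ, (M i.castSucc).relIndex (M i.succ) = p ^ m) ∨
        ((M i.castSucc).relIndex (M i.succ)).Coprime p) →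
      (Nat.card ↥(Tset p H ⊥) * ∏ i : Fin n, rfac p (M i.castSucc) (M i.succ) =
        Nat.card ↥(Tset p H (M (Fin.last n))) * ∏ i : Fin n, cfac p H (M i.castSucc) (M i.succ)) ∧
      ∃ e : ℕ, Nat.card ↥(M (Fin.last n)) = p ^ e * ∏ i : Fin n, rfac p (M i.castSucc) (M i.succ) := by
  intro n
  induction n with
  | zero =>
    intro M h0 _ _ _
    refine ⟨by simp [h0], 0, by simp [h0]⟩
  | succ n ih =>
    intro M h0 hmono hnorm hfac
    obtain ⟨ih1, e, ih2⟩ := ih (fun i => M i.castSucc) h0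
      (fun i j hij => hmono (Fin.strictMono_castSucc.monotone hij))
      (fun i => hnorm i.castSucc) (fun i => hfac i.castSucc)
    haveI hN : (M (Fin.last n).castSucc).Normal := hnorm _
    haveI hN' : (M (Fin.last n).succ).Normal := hnorm _
    have hle : M (Fin.last n).castSucc ≤ M (Fin.last n).succ :=
      hmono (le_of_lt Fin.castSucc_lt_succ)
    obtain ⟨s1, m, s2⟩ := step p hH hle (hfac (Fin.last n))
    rw [Fin.prod_univ_castSucc, Fin.prod_univ_castSucc]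
    exact ⟨alg1 ih1 s1, e + m, alg2 ih2 s2⟩

theorem pow_eq_of_mul_eq {p b e j q : ℕ} (hp : p.Prime) (hj : ¬ p ∣ j) (hq : q.Coprime p)
    (h : p ^ b * j = p ^ e * q) : p ^ b = p ^ e := by
  apply Nat.dvd_antisymm
  · have h1 : p ^ b ∣ p ^ e * q := Dvd.intro _ h
    exact Nat.Coprime.dvd_of_dvd_mul_right (Nat.Coprime.pow_left b hq.symm) h1
  · have h1 : p ^ e ∣ p ^ b * j := Dvd.intro _ h.symm
    exact Nat.Coprime.dvd_of_dvd_mul_right
      (Nat.Coprime.pow_left e ((Nat.Prime.coprime_iff_not_dvd hp).mpr hj)) h1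

/-- Let G be a finite p-solvable group, H a p-subgroup of G, and 1 = M_0 ≤ M_1 ≤ … ≤ M_n = G a chain of normal subgroups of G each of whose factors M_{i+1}/M_i is a p-group or a p'-group. Then the number of g in G with H subnormal in ⟨H, g⟩ equals the order of a Sylow p-subgroup of G times the product, over the p'-factors of the chain, of the number of fixed points of H acting by conjugation on the factor M_{i+1}/M_i. -/
theorem result {G : Type*} [Group G] [Finite G] (p : ℕ) [Fact p.Prime]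
    (hG : Cfsg.IsPSolvable p G) (H : Subgroup G) (hH : IsPGroup p H) (P : Sylow p G)
    (n : ℕ) (M : Fin (n + 1) → Subgroup G) (h0 : M 0 = ⊥) (hn : M (Fin.last n) = ⊤) (hmono : Monotone M)
    (hnormal : ∀ i, (M i).Normal)
    (hfac : ∀ i : Fin n, (∃ m : ℕ, (M i.castSucc).relIndex (M i.succ) = p ^ m) ∨ ((M i.castSucc).relIndex (M i.succ)).Coprime p) :
    Nat.card {g : G // ((H).subgroupOf (H ⊔ Subgroup.zpowers g)).IsSubnormal} =
      Nat.card (P : Subgroup G) *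
        ∏ i : Fin n, (if ((M i.castSucc).relIndex (M i.succ)).Coprime p then
          Nat.card {u : G // u ∈ M i.succ ∧ ∀ h ∈ H, h * u * h⁻¹ * u⁻¹ ∈ M i.castSucc} / Nat.card (M i.castSucc)
          else 1) := by
  obtain ⟨h1, e, h2⟩ := chain_count p hH n M h0 hmono hnormal hfac
  rw [hn] at h1 h2
  have hT : Tset p H ⊤ = Set.univ := by
    ext g
    simp only [Set.mem_univ, iff_true]
    exact ⟨⊤, le_refl _, le_top, ⟨0, by rw [Subgroup.relIndex_self, pow_zero]⟩,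
      Subgroup.le_normalizer (Subgroup.mem_top g)⟩
  rw [hT, Nat.card_congr (Equiv.Set.univ G)] at h1
  rw [Subgroup.card_top] at h2
  have hR : (∏ i : Fin n, rfac p (M i.castSucc) (M i.succ)).Coprime p := by
    apply Nat.Coprime.prod_left
    intro i _
    unfold rfac
    split_ifs with hc
    · exact hc
    · exact Nat.coprime_one_left p
  have hRpos : 0 < ∏ i : Fin n, rfac p (M i.castSucc) (M i.succ) := by
    apply Nat.pos_of_ne_zero
    intro h0'
    rw [h0', mul_zero] at h2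
    exact (Nat.card_pos (α := G)).ne' h2
  have hPc : Nat.card (P : Subgroup G) = p ^ e := by
    obtain ⟨b, hb⟩ := IsPGroup.iff_card.mp P.isPGroup'
    have h3 := Subgroup.card_mul_index (P : Subgroup G)
    rw [hb, h2] at h3
    rw [hb]
    exact pow_eq_of_mul_eq (Fact.out : p.Prime) P.not_dvd_index hR h3
  have key : Nat.card ↥(Tset p H ⊥) = p ^ e * ∏ i : Fin n, cfac p H (M i.castSucc) (M i.succ) := by
    apply Nat.eq_of_mul_eq_mul_right hRpos
    rw [h1, h2]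
    ring
  have ha : Nat.card {g : G // ((H).subgroupOf (H ⊔ Subgroup.zpowers g)).IsSubnormal} =
      Nat.card ↥(Tset p H ⊥) :=
    Nat.card_congr (Equiv.subtypeEquivRight (fun g => subn_iff_mem_Tset p hH g))
  rw [ha, hPc]
  exact key

end Cfsg.Agent.S4090
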