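import Cfsg.Statements.S3749
import Cfsg.Agent.S4090
import Cfsg.Agent.Lib.Helper78.Fitting

set_option autoImplicit false
open Cfsg

namespace Cfsg.Agent.S3749

open Cfsg.Agent.Lib
open Cfsg.Agent.Lib.Helper76.SylowTools (IsSylowIn)
open scoped Pointwise

set_option linter.style.haveILetI false

/-- a `p`-group acting by conjugation on a set of size prime to `p` has a fixed point -/
theorem exists_fixed {G : Type*} [Group G] [Finite G] {p : ℕ} [Fact p.Prime] {P : Subgroup G}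
    (hP : IsPGroup p P) (X : Set G) (hX : ∀ x ∈ P, ∀ n ∈ X, x * n * x⁻¹ ∈ X)
    (hcard : ¬ p ∣ Nat.card X) : ∃ n ∈ X, ∀ x ∈ P, x * n * x⁻¹ = n := by
  let _inst : MulAction P X :=
    { smul := fun x n => ⟨(x : G) * n.1 * (x : G)⁻¹, hX x x.2 n n.2⟩
      one_smul := fun n => Subtype.ext
        (show ((1 : P) : G) * n.1 * ((1 : P) : G)⁻¹ = n.1 by simp)
      mul_smul := fun x y n => Subtype.ext
        (show ((x * y : P) : G) * n.1 * ((x * y : P) : G)⁻¹ =
          (x : G) * ((y : G) * n.1 * (y : G)⁻¹) * (x : G)⁻¹ by simp [mul_assoc]) }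
  obtain ⟨n, hn⟩ := hP.nonempty_fixed_point_of_prime_not_dvd_card X hcard
  refine ⟨n.1, n.2, fun x hx => ?_⟩
  have h := hn ⟨x, hx⟩
  exact congrArg Subtype.val h

theorem isSylowIn_map {G : Type*} [Group G] [Finite G] {q : ℕ} [Fact q.Prime] {N : Subgroup G}
    (Q : Sylow q ↥N) : IsSylowIn q ((Q : Subgroup ↥N).map N.subtype) N := by
  refine ⟨Subgroup.map_subtype_le _, Q.isPGroup'.map N.subtype, ?_⟩
  have h1 : ((Q : Subgroup ↥N).map N.subtype).subgroupOf N = Q :=
    Subgroup.comap_map_eq_self_of_injective N.subtype_injective _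
  change ¬ q ∣ (((Q : Subgroup ↥N).map N.subtype).subgroupOf N).index
  rw [h1]
  exact Q.not_dvd_index

/-- coprime action without fixed points: at most one invariant Sylow subgroup -/
theorem unique_invariant {G : Type*} [Group G] [Finite G] {p q : ℕ} [Fact p.Prime] [Fact q.Prime]
    {P N : Subgroup G} [hN : N.Normal] (hP : IsPGroup p P) (hcop : ¬ p ∣ Nat.card N)
    (hfix : ∀ n ∈ N, (∀ x ∈ P, x * n * x⁻¹ = n) → n = 1)
    {R₁ R₂ : Subgroup G} (h₁ : IsSylowIn q R₁ N) (h₂ : IsSylowIn q R₂ N)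
    (hP₁ : P ≤ Subgroup.normalizer (R₁ : Set G)) (hP₂ : P ≤ Subgroup.normalizer (R₂ : Set G)) :
    R₁ = R₂ := by
  obtain ⟨n₀, hn₀N, hn₀⟩ : ∃ m ∈ N, R₂ = MulAut.conj m • R₁ := by
    obtain ⟨v, hv, hconj⟩ := h₁.exists_conj h₂
    refine ⟨v, hv, ?_⟩
    rw [hconj]
    ext y
    rw [Helper76.SylowTools.mem_map_conj, S4090.mem_conj_smul]
  let X : Set G := {n | n ∈ N ∧ MulAut.conj n • R₁ = R₂}
  have hX : ∀ x ∈ P, ∀ n ∈ X, x * n * x⁻¹ ∈ X := by
    rintro x hx n ⟨hnN, hn⟩
    refine ⟨hN.conj_mem n hnN x, ?_⟩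
    have hx1 : MulAut.conj x • R₁ = R₁ := (Helper62.Wielandt.conj_smul_eq_iff x R₁).mpr (hP₁ hx)
    have hx2 : MulAut.conj x • R₂ = R₂ := (Helper62.Wielandt.conj_smul_eq_iff x R₂).mpr (hP₂ hx)
    have hx1' : MulAut.conj x⁻¹ • R₁ = R₁ := by
      rw [map_inv, inv_smul_eq_iff, hx1]
    rw [map_mul, map_mul, mul_smul, mul_smul, hx1', hn, hx2]
  have hcard : ¬ p ∣ Nat.card X := by
    have hc : Nat.card X = Nat.card ↥(N ⊓ Subgroup.normalizer (R₁ : Set G)) := by
      refine Nat.card_congr ⟨fun n => ⟨n₀⁻¹ * n.1, ⟨N.mul_mem (N.inv_mem hn₀N) n.2.1, ?_⟩⟩,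
        fun c => ⟨n₀ * c.1, ⟨N.mul_mem hn₀N c.2.1, ?_⟩⟩, fun n => Subtype.ext ?_,
        fun c => Subtype.ext ?_⟩
      · have h := n.2.2
        rw [hn₀] at h
        exact (S4090.conj_smul_eq_conj_smul_iff _ _ _).mp h
      · show MulAut.conj (n₀ * c.1) • R₁ = R₂
        rw [hn₀]
        apply (S4090.conj_smul_eq_conj_smul_iff _ _ _).mpr
        rw [inv_mul_cancel_left]
        exact c.2.2
      · show n₀ * (n₀⁻¹ * n.1) = n.1
        rw [mul_inv_cancel_left]
      · show n₀⁻¹ * (n₀ * c.1) = c.1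
        rw [inv_mul_cancel_left]
    rw [hc]
    intro h
    exact hcop (h.trans (Subgroup.card_dvd_of_le inf_le_left))
  obtain ⟨n, ⟨hnN, hn⟩, hnfix⟩ := exists_fixed hP X hX hcard
  have hn1 : n = 1 := hfix n hnN hnfix
  rw [hn1, map_one, one_smul] at hn
  exact hn

/-- a complement-like coatom `M` normalizing a non-trivial subgroup `R` of `N` forces `N = R` -/
theorem le_of_coatom {G : Type*} [Group G] {M N R : Subgroup G} (hco : IsCoatom M)
    (hMN : M ⊓ N = ⊥) (hRN : R ≤ N) (hRne : R ≠ ⊥)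
    (hMR : M ≤ Subgroup.normalizer (R : Set G)) : N ≤ R := by
  have hRM : ¬ R ≤ M := by
    intro h
    apply hRne
    have h1 : R ≤ M ⊓ N := le_inf h hRN
    rw [hMN] at h1
    exact le_bot_iff.mp h1
  have hsup : M ⊔ R = ⊤ := by
    rcases eq_or_lt_of_le (le_sup_left : M ≤ M ⊔ R) with h | h
    · exfalso
      apply hRM
      rw [h]
      exact le_sup_right
    · exact hco.2 _ h
  intro n hn
  have h1 : n ∈ ((M ⊔ R : Subgroup G) : Set G) := by
    rw [hsup]; exact Subgroup.mem_top n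
  rw [Subgroup.coe_mul_of_left_le_normalizer_right M R hMR] at h1
  obtain ⟨m, hm, r', hr', rfl⟩ := Set.mem_mul.mp h1
  have hmN : m ∈ N := by
    have h2 := N.mul_mem hn (N.inv_mem (hRN hr'))
    rwa [mul_inv_cancel_right] at h2
  have hm1 : m = 1 := by
    have h3 : m ∈ M ⊓ N := ⟨hm, hmN⟩
    rw [hMN] at h3
    exact Subgroup.mem_bot.mp h3
  rw [hm1, one_mul]
  exact hr'

/-- Call a proper subgroup M of G primitive when M = N_G(N) for every non-trivial normal subgroup N of M. Let M be a primitive subgroup of the finite group G, p a prime with O_p(M) ≠ 1, and N a normal subgroup of G with M ∩ N = 1. Then p does not divide the order of N; for every prime q there is exactly one Sylow q-subgroup of N normalized by M; and if the order of N has at least two prime divisors then M is not a maximal subgroup of G. -/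
theorem result {G : Type*} [Group G] [Finite G] (M : Subgroup G) (hM : M ≠ ⊤) (hprim : ∀ N : Subgroup G, N ≤ M → M ≤ Subgroup.normalizer (N : Set G) → N ≠ ⊥ → Subgroup.normalizer (N : Set G) = M) {p : ℕ} [Fact p.Prime] (hOp : Cfsg.pCore p ↥M ≠ ⊥) (N : Subgroup G) [N.Normal] (hMN : M ⊓ N = ⊥) : ¬ p ∣ Nat.card N ∧ (∀ q : ℕ, [Fact q.Prime] → ∃! Q : Sylow q ↥N, M ≤ Subgroup.normalizer ((Q : Subgroup ↥N).map N.subtype : Set G)) ∧ ((∃ q r : ℕ, q.Prime ∧ r.Prime ∧ q ≠ r ∧ q ∣ Nat.card N ∧ r ∣ Nat.card N) → ¬ IsCoatom M) := by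
  have hNn : N.Normal := inferInstance
  have hpp : p.Prime := Fact.out
  have hnorm : (Cfsg.pCore p ↥M).Normal := Helper78.Fitting.pCore_normal p
  obtain ⟨P, hPdef⟩ : ∃ P : Subgroup G, P = (Cfsg.pCore p ↥M).map M.subtype := ⟨_, rfl⟩
  have hPM : P ≤ M := by rw [hPdef]; exact Subgroup.map_subtype_le _
  have hPp : IsPGroup p P := by
    rw [hPdef]; exact (Helper78.Fitting.pCore_isPGroup (G := ↥M) p).map M.subtype
  have hPne : P ≠ ⊥ := by
    rw [hPdef]
    intro h
    exact hOp ((Subgroup.map_eq_bot_iff_of_injective _ M.subtype_injective).mp h)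
  have hMP : M ≤ Subgroup.normalizer (P : Set G) := by
    apply Helper76.SylowTools.le_normalizer_of_conj_mem
    rw [hPdef]
    rintro x hx g ⟨k, hk, rfl⟩
    exact ⟨⟨x, hx⟩ * k * ⟨x, hx⟩⁻¹, hnorm.conj_mem k hk ⟨x, hx⟩, rfl⟩
  have hNP : Subgroup.normalizer (P : Set G) = M := hprim P hPM hMP hPne
  have hfix : ∀ n ∈ N, (∀ x ∈ P, x * n * x⁻¹ = n) → n = 1 := by
    intro n hnN hn
    have h1 : n ∈ Subgroup.centralizer (P : Set G) := by
      rw [Subgroup.mem_centralizer_iff]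
      intro x hx
      exact mul_inv_eq_iff_eq_mul.mp (hn x hx)
    have h2 : n ∈ M := by
      rw [← hNP]; exact Subgroup.centralizer_le_normalizer _ h1
    have h3 : n ∈ M ⊓ N := ⟨h2, hnN⟩
    rw [hMN] at h3
    exact Subgroup.mem_bot.mp h3
  have hcop : ¬ p ∣ Nat.card N := by
    intro hdvd
    have hX : ∀ x ∈ P, ∀ n ∈ ((N : Set G) \ {1}), x * n * x⁻¹ ∈ ((N : Set G) \ {1}) := by
      rintro x - n ⟨hnN, hn1⟩
      refine ⟨hNn.conj_mem n hnN x, ?_⟩
      intro h
      apply hn1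
      have h1 : x * n * x⁻¹ = 1 := h
      have h2 : n = x⁻¹ * (x * n * x⁻¹) * x := by group
      rw [h2, h1]
      simp
    have hcard : ¬ p ∣ Nat.card ↥((N : Set G) \ {1}) := by
      have h1 : Nat.card ↥((N : Set G) \ {1}) = Nat.card N - 1 := by
        have e1 : Nat.card ↥((N : Set G) \ {1}) = ((N : Set G) \ {1}).ncard :=
          Nat.card_coe_set_eq _
        have e2 : ((N : Set G) \ {1}).ncard = (N : Set G).ncard - 1 :=
          Set.ncard_sdiff_singleton_of_mem N.one_mem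
        have e3 : Nat.card N = (N : Set G).ncard := Nat.card_coe_set_eq (N : Set G)
        rw [e1, e2, e3]
      rw [h1]
      intro h2
      have h3 : 0 < Nat.card N := Nat.card_pos
      have h6 : p ∣ (Nat.card N - 1) + 1 := by
        have h7 : (Nat.card N - 1) + 1 = Nat.card N := by omega
        rw [h7]; exact hdvd
      exact hpp.one_lt.ne' (Nat.dvd_one.mp ((Nat.dvd_add_right h2).mp h6))
    obtain ⟨n, ⟨hnN, hn1⟩, hn⟩ := exists_fixed hPp _ hX hcard
    exact hn1 (hfix n hnN hn)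
  have hb : ∀ q : ℕ, [Fact q.Prime] → ∃! Q : Sylow q ↥N,
      M ≤ Subgroup.normalizer ((Q : Subgroup ↥N).map N.subtype : Set G) := by
    intro q _
    have hc : (Nat.card N).Coprime p := ((Nat.Prime.coprime_iff_not_dvd hpp).mpr hcop).symm
    obtain ⟨R, hR, hPR⟩ :=
      Helper76.SylowTools.exists_invariant_isSylowIn (p := q) (q := p) P hPp N hc
    have hMR : M ≤ Subgroup.normalizer (R : Set G) := by
      intro m hm
      have h1 : IsSylowIn q (MulAut.conj m • R) N :=
        S4090.isSylowIn_conj q hR (by rw [Subgroup.normalizer_eq_top]; exact Subgroup.mem_top m)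
      have h2 : P ≤ Subgroup.normalizer ((MulAut.conj m • R : Subgroup G) : Set G) := by
        intro x hx
        have hmP : m⁻¹ * x * m ∈ P := by
          have h4 : MulAut.conj m • P = P :=
            (Helper62.Wielandt.conj_smul_eq_iff m P).mpr (hMP hm)
          rw [← S4090.mem_conj_smul, h4]
          exact hx
        have h3 := (S4090.normalizer_conj_smul m (m⁻¹ * x * m) R).mpr (hPR hmP)
        have e : m * (m⁻¹ * x * m) * m⁻¹ = x := by group
        rwa [e] at h3
      have h3 : R = MulAut.conj m • R := unique_invariant hPp hcop hfix hR h1 hPR h2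
      exact (Helper62.Wielandt.conj_smul_eq_iff m R).mp h3.symm
    obtain ⟨Q, hQ⟩ : ∃ Q : Sylow q ↥N, (Q : Subgroup ↥N).map N.subtype = R :=
      ⟨(hR.2.1.comap_subtype (K := N)).toSylow hR.2.2, Subgroup.map_subgroupOf_eq_of_le hR.1⟩
    refine ⟨Q, ?_, ?_⟩
    · show M ≤ Subgroup.normalizer ((Q : Subgroup ↥N).map N.subtype : Set G)
      rw [hQ]; exact hMR
    · intro Q' hQ'
      have h1 : IsSylowIn q ((Q' : Subgroup ↥N).map N.subtype) N := isSylowIn_map Q'
      have h2 : (Q' : Subgroup ↥N).map N.subtype = R :=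
        unique_invariant hPp hcop hfix h1 hR (hPM.trans hQ') hPR
      apply Sylow.ext
      apply Subgroup.map_injective N.subtype_injective
      rw [h2, hQ]
  refine ⟨hcop, hb, ?_⟩
  rintro ⟨q, r, hq, hr, hqr, hqN, hrN⟩ hco
  haveI : Fact r.Prime := ⟨hr⟩
  obtain ⟨Q, hQM, -⟩ := hb r
  have hRne : (Q : Subgroup ↥N).map N.subtype ≠ ⊥ := by
    intro h
    have h1 : (Q : Subgroup ↥N) = ⊥ :=
      (Subgroup.map_eq_bot_iff_of_injective _ N.subtype_injective).mp h
    have h2 := Q.not_dvd_index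
    rw [h1, Subgroup.index_bot] at h2
    exact h2 hrN
  have hNR : N ≤ (Q : Subgroup ↥N).map N.subtype :=
    le_of_coatom hco hMN (Subgroup.map_subtype_le _) hRne hQM
  have hNr : IsPGroup r N := (Q.isPGroup'.map N.subtype).to_le hNR
  obtain ⟨k, hk⟩ := IsPGroup.iff_card.mp hNr
  rw [hk] at hqN
  exact hqr ((Nat.prime_dvd_prime_iff_eq hq hr).mp (hq.dvd_of_dvd_pow hqN))

end Cfsg.Agent.S3749
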