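import Mathlib
import Cfsg.Statements.S3754
import Cfsg.Agent.Lib.Helper31.HypGen
import Cfsg.Agent.Lib.Helper31.FStarAct
import Cfsg.Agent.Lib.Helper74.DualHH
import Cfsg.Agent.Lib.Helper63.PFrattini
import Cfsg.Agent.H85.ResAut
import Cfsg.Agent.Lib.Helper47.PRes
import Cfsg.Agent.Lib.Helper34.PResidual
import Cfsg.Agent.Lib.Helper76.PSolv
import Cfsg.Agent.Lib.Helper33.PCore
import Cfsg.Agent.Lib.Helper23.Cores

set_option autoImplicit false
open Cfsg

namespace Cfsg.Agent.S3754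

open Cfsg.Agent.Lib.Helper31.SigBasic Cfsg.Agent.Lib.Helper31.HypGen
open scoped commutatorElement

section gen

variable {M : Type*} [Group M] {p : ℕ}

theorem mem_res_of_coprime {L : Subgroup M} {g : M} (hg : g ∈ L) (hc : (orderOf g).Coprime p) :
    g ∈ (pResidual p ↥L).map L.subtype := by
  refine ⟨⟨g, hg⟩, Subgroup.subset_closure ?_, rfl⟩
  show Nat.Coprime (orderOf (⟨g, hg⟩ : ↥L)) p
  rw [Subgroup.orderOf_mk]; exact hc

theorem res_le_of {L T : Subgroup M} (h : ∀ g ∈ L, (orderOf g).Coprime p → g ∈ T) :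
    (pResidual p ↥L).map L.subtype ≤ T := by
  rw [Subgroup.map_le_iff_le_comap]
  unfold pResidual
  rw [Subgroup.closure_le]
  intro g hg
  have hg' : Nat.Coprime (orderOf g) p := hg
  rw [← Subgroup.orderOf_coe] at hg'
  exact h g g.2 hg'

theorem res_conj {L : Subgroup M} {l n : M} (hl : l ∈ L)
    (hn : n ∈ (pResidual p ↥L).map L.subtype) : l * n * l⁻¹ ∈ (pResidual p ↥L).map L.subtype := by
  obtain ⟨n', hn', rfl⟩ := hn
  have h := (Cfsg.Agent.Lib.Helper34.PResidual.pResidual_normal p ↥L).conj_mem n' hn' ⟨l, hl⟩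
  exact ⟨_, h, rfl⟩

theorem map_res [Finite M] [Fact p.Prime] {Mb : Type*} [Group Mb] (π : M →* Mb) {L : Subgroup M}
    {cb : Mb} (hcb : cb ∈ L.map π) (hc : (orderOf cb).Coprime p) :
    cb ∈ ((pResidual p ↥L).map L.subtype).map π := by
  have h := Cfsg.Agent.H85.pResidual_le_map_of_surjective p (π.subgroupMap L)
    (π.subgroupMap_surjective L)
  have h1 : (⟨cb, hcb⟩ : ↥(L.map π)) ∈ pResidual p ↥(L.map π) := by
    apply Subgroup.subset_closure
    show Nat.Coprime (orderOf (⟨cb, hcb⟩ : ↥(L.map π))) p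
    rw [Subgroup.orderOf_mk]; exact hc
  obtain ⟨n, hn, hn2⟩ := h h1
  exact ⟨(n : M), ⟨n, hn, rfl⟩, congrArg Subtype.val hn2⟩

theorem core_isPGroup {L : Subgroup M} : IsPGroup p ↥((pCore p ↥L).map L.subtype) :=
  (Cfsg.Agent.Lib.Helper23.Cores.pCore_isPGroup p).map _

theorem core_conj {L : Subgroup M} {l g : M} (hl : l ∈ L)
    (hg : g ∈ (pCore p ↥L).map L.subtype) : l * g * l⁻¹ ∈ (pCore p ↥L).map L.subtype := by
  obtain ⟨g', hg', rfl⟩ := hg
  have h := (Cfsg.Agent.Lib.Helper33.PCore.pCore_normal (G := ↥L) p).conj_mem g' hg' ⟨l, hl⟩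
  exact ⟨_, h, rfl⟩

theorem le_core {L P₁ : Subgroup M} (h1 : P₁ ≤ L) (h2 : IsPGroup p P₁)
    (h3 : ∀ l ∈ L, ∀ g ∈ P₁, l * g * l⁻¹ ∈ P₁) : P₁ ≤ (pCore p ↥L).map L.subtype := by
  have hn : (P₁.subgroupOf L).Normal := by
    constructor
    intro g hg l
    rw [Subgroup.mem_subgroupOf] at hg ⊢
    exact h3 l l.2 g hg
  have h := Cfsg.Agent.Lib.Helper23.Cores.le_pCore p (P₁.subgroupOf L) hn h2.comap_subtype
  intro g hg
  exact ⟨⟨g, h1 hg⟩, h (Subgroup.mem_subgroupOf.mpr hg), rfl⟩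

end gen

set_option maxHeartbeats 800000 in
theorem core {M Mb : Type*} [Group M] [Finite M] [Group Mb] [Finite Mb] {p : ℕ} [hp : Fact p.Prime]
    (π : M →* Mb) (hπ : Function.Surjective π) (hker : IsPGroup p π.ker)
    (Kb : Subgroup Mb) [hKn : Kb.Normal] (hKb : ¬ p ∣ Nat.card Kb)
    (hC : Subgroup.centralizer (Kb : Set Mb) ≤ Kb)
    (A : Subgroup M) (hA : IsPGroup p A)
    (hAc : ∀ a ∈ A, ∀ b ∈ A, π a * π b = π b * π a) (hAp : ∀ a ∈ A, π a ^ p = 1)
    (hnot : ¬ A ≤ π.ker) :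
    ∃ x : M, π x ∈ Kb ∧
      x ∈ (pResidual p ↥(A ⊔ A.map (MulAut.conj x).toMonoidHom)).map
        (A ⊔ A.map (MulAut.conj x).toMonoidHom).subtype ∧
      (pResidual p ↥(A ⊔ A.map (MulAut.conj x).toMonoidHom)).map
        (A ⊔ A.map (MulAut.conj x).toMonoidHom).subtype ≤ Kb.comap π ∧
      ⁅(pResidual p ↥(A ⊔ A.map (MulAut.conj x).toMonoidHom)).map
        (A ⊔ A.map (MulAut.conj x).toMonoidHom).subtype, A⁆ =
        (pResidual p ↥(A ⊔ A.map (MulAut.conj x).toMonoidHom)).map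
          (A ⊔ A.map (MulAut.conj x).toMonoidHom).subtype ∧
      (A ⊓ (pCore p ↥(A ⊔ A.map (MulAut.conj x).toMonoidHom)).map
        (A ⊔ A.map (MulAut.conj x).toMonoidHom).subtype).relIndex A = p ∧
      ⁅A ⊓ (pCore p ↥(A ⊔ A.map (MulAut.conj x).toMonoidHom)).map
        (A ⊔ A.map (MulAut.conj x).toMonoidHom).subtype,
        A ⊔ A.map (MulAut.conj x).toMonoidHom⁆ ≤ π.ker := by
  classical
  have hpp : p.Prime := hp.out
  set Ab := A.map π with hAb
  have hAbc : ∀ a ∈ Ab, ∀ b ∈ Ab, a * b = b * a := by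
    rintro _ ⟨a, ha, rfl⟩ _ ⟨b, hb, rfl⟩; exact hAc a ha b hb
  have hAbp : ∀ a ∈ Ab, a ^ p = 1 := by rintro _ ⟨a, ha, rfl⟩; exact hAp a ha
  have hKtriv : ∀ k ∈ Kb, k ^ p = 1 → k = 1 := by
    intro k hk hkp
    have h1 : orderOf k ∣ p := orderOf_dvd_of_pow_eq_one hkp
    have h2 : orderOf k ∣ Nat.card Kb := by
      have := orderOf_dvd_natCard (⟨k, hk⟩ : ↥Kb)
      rwa [Subgroup.orderOf_mk] at this
    rcases (Nat.dvd_prime hpp).mp h1 with h | h
    · exact orderOf_eq_one_iff.mp h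
    · exact absurd (h ▸ h2) hKb
  have hAbK : Ab ≤ Subgroup.normalizer (Kb : Set Mb) :=
    le_normalizer_of_conj_mem Ab Kb (fun b _ u hu => hKn.conj_mem u hu b)
  have hncK : ¬ (Kb ≤ Subgroup.centralizer (Ab : Set Mb)) := by
    intro h
    apply hnot
    intro a ha
    rw [MonoidHom.mem_ker]
    have h1 : π a ∈ Subgroup.centralizer (Kb : Set Mb) := by
      rw [Subgroup.mem_centralizer_iff]
      intro k hk
      have h2 := Subgroup.mem_centralizer_iff.mp (h hk) (π a) ⟨a, ha, rfl⟩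
      exact h2.symm
    exact hKtriv _ (hC h1) (hAp a ha)
  obtain ⟨Bb, hBA, hBidx, ab, hab, xb0, hxb0K, hxb0B, habx0⟩ :=
    exists_hyperplane Ab hAbc hAbp Kb hKb hAbK hncK
  have habB : ∀ b ∈ Bb, ab * b = b * ab := fun b hb => hAbc ab hab b (hBA hb)
  have habp : ab ^ p = 1 := hAbp ab hab
  set K₀ := Kb ⊓ Subgroup.centralizer (Bb : Set Mb) with hK₀
  have hK₀inv : ∀ k ∈ K₀, ab * k * ab⁻¹ ∈ K₀ := by
    intro k hk
    refine Subgroup.mem_inf.mpr ⟨hKn.conj_mem k hk.1 ab, ?_⟩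
    rw [Subgroup.mem_centralizer_iff]
    intro b hb
    have h1 : Commute b ab := (habB b hb).symm
    have h2 : Commute b k := Subgroup.mem_centralizer_iff.mp hk.2 b hb
    exact ((h1.mul_right h2).mul_right h1.inv_right).eq
  obtain ⟨W, hWK, hWinv, ⟨xb, hxbW, habx⟩, hWmin⟩ :=
    exists_minimal_invariant ab K₀ hK₀inv xb0 (Subgroup.mem_inf.mpr ⟨hxb0K, hxb0B⟩) habx0
  have hxbK : xb ∈ Kb := (hWK hxbW).1
  have hxbB : ∀ b ∈ Bb, b * xb = xb * b := fun b hb =>
    Subgroup.mem_centralizer_iff.mp (hWK hxbW).2 b hb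
  have hab' := hab
  obtain ⟨a₀, ha₀A, ha₀⟩ := hab'
  have key : ∀ x : M, π x = xb →
      ∃ x' ∈ (pResidual p ↥(A ⊔ A.map (MulAut.conj x).toMonoidHom)).map
        (A ⊔ A.map (MulAut.conj x).toMonoidHom).subtype, π x' = xb := by
    intro x hx
    set L := A ⊔ A.map (MulAut.conj x).toMonoidHom with hL
    set N := (pResidual p ↥L).map L.subtype with hN
    have ha₀L : a₀ ∈ L := Subgroup.mem_sup_left ha₀A
    have hxaL : x * a₀⁻¹ * x⁻¹ ∈ L :=
      Subgroup.mem_sup_right ⟨a₀⁻¹, A.inv_mem ha₀A, by simp [MulAut.conj_apply]⟩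
    set c := ab * xb * ab⁻¹ * xb⁻¹ with hc
    have hcW : c ∈ W := W.mul_mem (hWinv xb hxbW) (W.inv_mem hxbW)
    have hcL : c ∈ L.map π :=
      ⟨a₀ * (x * a₀⁻¹ * x⁻¹), L.mul_mem ha₀L hxaL, by simp [hc, ha₀, hx, mul_assoc]⟩
    have hccop : (orderOf c).Coprime p := by
      have h2 : orderOf c ∣ Nat.card Kb := by
        have := orderOf_dvd_natCard (⟨c, (hWK hcW).1⟩ : ↥Kb)
        rwa [Subgroup.orderOf_mk] at this
      exact Nat.Coprime.coprime_dvd_left h2 ((Nat.Prime.coprime_iff_not_dvd hpp).mpr hKb).symm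
    have hcN : c ∈ N.map π := map_res π hcL hccop
    set W₁ := W ⊓ N.map π with hW₁
    have hW₁inv : ∀ w ∈ W₁, ab * w * ab⁻¹ ∈ W₁ := by
      intro w hw
      refine Subgroup.mem_inf.mpr ⟨hWinv w hw.1, ?_⟩
      obtain ⟨n, hn, rfl⟩ := hw.2
      exact ⟨a₀ * n * a₀⁻¹, res_conj ha₀L hn, by simp [ha₀]⟩
    have hW₁nc : ∃ w ∈ W₁, ab * w ≠ w * ab := by
      refine ⟨c, Subgroup.mem_inf.mpr ⟨hcW, hcN⟩, ?_⟩
      intro hcomm
      have h1 : ab * xb * ab⁻¹ = c * xb := by rw [hc]; group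
      have h2 : ∀ n : ℕ, ab ^ n * xb * (ab ^ n)⁻¹ = c ^ n * xb := by
        intro n
        induction n with
        | zero => simp
        | succ n ih =>
          have h3 : Commute ab (c ^ n) := (show Commute ab c from hcomm).pow_right n
          have h3' : ab * c ^ n * ab⁻¹ = c ^ n := by rw [h3.eq]; group
          calc ab ^ (n+1) * xb * (ab ^ (n+1))⁻¹
              = ab * (ab ^ n * xb * (ab ^ n)⁻¹) * ab⁻¹ := by rw [pow_succ']; group
            _ = ab * (c ^ n * xb) * ab⁻¹ := by rw [ih]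
            _ = (ab * c ^ n * ab⁻¹) * (ab * xb * ab⁻¹) := by group
            _ = c ^ n * (c * xb) := by rw [h1, h3']
            _ = c ^ (n+1) * xb := by rw [pow_succ]; exact (mul_assoc _ _ _).symm
      have h4 := h2 p
      rw [habp] at h4
      simp only [one_mul, inv_one, mul_one] at h4
      have hcp : c ^ p = 1 := by
        have h5 : 1 * xb = c ^ p * xb := by rw [one_mul]; exact h4
        exact (mul_right_cancel h5).symm
      have hc1 : c = 1 := hKtriv c (hWK hcW).1 hcp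
      apply habx
      have h6 : ab * xb * ab⁻¹ * xb⁻¹ = 1 := hc ▸ hc1
      calc ab * xb = (ab * xb * ab⁻¹ * xb⁻¹) * (xb * ab) := by group
        _ = xb * ab := by rw [h6, one_mul]
    have hWeq : W₁ = W := hWmin W₁ inf_le_left hW₁inv hW₁nc
    have hxbN : xb ∈ N.map π := by
      have h7 : xb ∈ W₁ := hWeq ▸ hxbW
      exact h7.2
    obtain ⟨x', hx', hx'2⟩ := hxbN
    exact ⟨x', hx', hx'2⟩
  obtain ⟨x₀, hx₀⟩ := hπ xb
  obtain ⟨x₁, hx₁S, hx₁min⟩ := Set.exists_min_image {x : M | π x = xb}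
    (fun x => Nat.card ↥(A ⊔ A.map (MulAut.conj x).toMonoidHom)) (Set.toFinite _) ⟨x₀, hx₀⟩
  obtain ⟨x, hxN, hxπ⟩ := key x₁ hx₁S
  have hLle : A ⊔ A.map (MulAut.conj x).toMonoidHom ≤ A ⊔ A.map (MulAut.conj x₁).toMonoidHom := by
    have hxL : x ∈ A ⊔ A.map (MulAut.conj x₁).toMonoidHom := Subgroup.map_subtype_le _ hxN
    refine sup_le le_sup_left ?_
    rintro _ ⟨a, ha, rfl⟩
    show x * a * x⁻¹ ∈ _
    exact Subgroup.mul_mem _ (Subgroup.mul_mem _ hxL (Subgroup.mem_sup_left ha))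
      (Subgroup.inv_mem _ hxL)
  have hLeq : A ⊔ A.map (MulAut.conj x).toMonoidHom = A ⊔ A.map (MulAut.conj x₁).toMonoidHom :=
    Subgroup.eq_of_le_of_card_ge hLle (hx₁min x hxπ)
  have hxN' : x ∈ (pResidual p ↥(A ⊔ A.map (MulAut.conj x).toMonoidHom)).map
      (A ⊔ A.map (MulAut.conj x).toMonoidHom).subtype :=
    (congrArg (fun L : Subgroup M => x ∈ (pResidual p ↥L).map L.subtype) hLeq).mpr hxN
  refine ⟨x, hxπ ▸ hxbK, hxN', ?_⟩
  set L := A ⊔ A.map (MulAut.conj x).toMonoidHom with hL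
  set N := (pResidual p ↥L).map L.subtype with hN
  set P := (pCore p ↥L).map L.subtype with hP
  have hAL : A ≤ L := le_sup_left
  have hNL : N ≤ L := Subgroup.map_subtype_le _
  have hxL : x ∈ L := hNL hxN'
  have hLπ : L.map π ≤ Kb ⊔ Ab := by
    rw [Subgroup.map_sup]
    refine sup_le le_sup_right ?_
    rintro _ ⟨_, ⟨a, ha, rfl⟩, rfl⟩
    have h1 : π ((MulAut.conj x).toMonoidHom a) = (xb * π a * xb⁻¹ * (π a)⁻¹) * π a := by
      simp [MulAut.conj_apply, hxπ]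
    rw [h1]
    refine Subgroup.mul_mem _ (Subgroup.mem_sup_left ?_) (Subgroup.mem_sup_right ⟨a, ha, rfl⟩)
    have h2 := Kb.mul_mem hxbK (hKn.conj_mem xb⁻¹ (Kb.inv_mem hxbK) (π a))
    simpa [mul_assoc] using h2
  have h2 : N ≤ Kb.comap π := by
    apply res_le_of
    intro g hg hcop
    rw [Subgroup.mem_comap]
    have hgπ : π g ∈ Kb ⊔ Ab := hLπ ⟨g, hg, rfl⟩
    obtain ⟨k, hk, a', ha', hka⟩ := mem_sup_of_le_normalizer Kb Ab hAbK hgπ
    have ha'n : a' ∈ Subgroup.normalizer (Kb : Set Mb) := hAbK ha'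
    have h3 : (k * a') ^ orderOf g = 1 := by
      rw [← hka, ← map_pow, pow_orderOf_eq_one, map_one]
    have ha'K : a' ∈ Kb := mem_of_mul_pow_coprime Kb ha'n hk hcop h3 (hAbp a' ha')
    rw [hka]; exact Kb.mul_mem hk ha'K
  have h3 : ⁅N, A⁆ = N := by
    apply le_antisymm
    · rw [Subgroup.commutator_le]
      intro n hn a ha
      have h := N.mul_mem hn (res_conj (hAL ha) (N.inv_mem hn))
      rw [commutatorElement_def]; simpa [mul_assoc] using h
    · have hAR : A ≤ Subgroup.normalizer ((⁅N, A⁆ : Subgroup M) : Set M) :=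
        Cfsg.Agent.Lib.Helper31.FStarAct.le_normalizer_commutator_right N A
      have hLR : L ≤ ⁅N, A⁆ ⊔ A := by
        refine sup_le le_sup_right ?_
        rintro _ ⟨a, ha, rfl⟩
        have h1 : (MulAut.conj x).toMonoidHom a = ⁅x, a⁆ * a := by
          simp [MulAut.conj_apply, commutatorElement_def]
        rw [h1]
        exact Subgroup.mul_mem _
          (Subgroup.mem_sup_left (Subgroup.commutator_mem_commutator hxN' ha))
          (Subgroup.mem_sup_right ha)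
      apply res_le_of
      intro g hg hcop
      obtain ⟨r, hr, a', ha', hra⟩ := mem_sup_of_le_normalizer ⁅N, A⁆ A hAR (hLR hg)
      obtain ⟨k, hk⟩ := hA ⟨a', ha'⟩
      have hk' : a' ^ p ^ k = 1 := by simpa using congrArg Subtype.val hk
      have h4 : (r * a') ^ orderOf g = 1 := by rw [← hra, pow_orderOf_eq_one]
      have ha'R : a' ∈ ⁅N, A⁆ :=
        mem_of_mul_pow_coprime ⁅N, A⁆ (hAR ha') hr (Nat.Coprime.pow_right k hcop) h4 hk'
      rw [hra]; exact Subgroup.mul_mem _ hr ha'R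
  set Bt := Bb.comap π with hBt
  have hBtidx : (A ⊓ Bt).relIndex A = p := by
    rw [Subgroup.inf_relIndex_left, hBt, Subgroup.relIndex_comap]; exact hBidx
  have hBcent : ∀ b ∈ Bb, ∀ l ∈ L, π l * b = b * π l := by
    intro b hb
    have hle : L ≤ (Subgroup.centralizer ({b} : Set Mb)).comap π := by
      refine sup_le ?_ ?_
      · intro a ha
        rw [Subgroup.mem_comap, Subgroup.mem_centralizer_singleton_iff]
        exact hAbc (π a) ⟨a, ha, rfl⟩ b (hBA hb)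
      · rintro _ ⟨a, ha, rfl⟩
        rw [Subgroup.mem_comap, Subgroup.mem_centralizer_singleton_iff]
        have h1 : Commute (π a) b := hAbc (π a) ⟨a, ha, rfl⟩ b (hBA hb)
        have h2' : Commute xb b := (hxbB b hb).symm
        have h5 : π ((MulAut.conj x).toMonoidHom a) = xb * π a * xb⁻¹ := by
          simp [MulAut.conj_apply, hxπ]
        rw [h5]
        exact ((h2'.mul_left h1).mul_left h2'.inv_left).eq
    intro l hl
    have h := hle hl
    rw [Subgroup.mem_comap, Subgroup.mem_centralizer_singleton_iff] at h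
    exact h
  have hP₁ : L ⊓ Bt ≤ P := by
    apply le_core inf_le_left
    · have hBbp : IsPGroup p Bb := (hA.map π).to_le hBA
      exact (hBbp.comap_of_ker_isPGroup π hker).to_le inf_le_right
    · intro l hl g hg
      refine Subgroup.mem_inf.mpr ⟨L.mul_mem (L.mul_mem hl hg.1) (L.inv_mem hl), ?_⟩
      rw [hBt, Subgroup.mem_comap, map_mul, map_mul, map_inv]
      have hgB : π g ∈ Bb := hg.2
      rw [hBcent (π g) hgB l hl, mul_inv_cancel_right]
      exact hgB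
  have hB'le : A ⊓ Bt ≤ A ⊓ P :=
    le_inf inf_le_left (le_trans (inf_le_inf_right Bt hAL) hP₁)
  have hAP : ¬ A ≤ P := by
    intro hAPle
    have hLP : L ≤ P := by
      refine sup_le hAPle ?_
      rintro _ ⟨a, ha, rfl⟩
      show x * a * x⁻¹ ∈ P
      exact core_conj hxL (hAPle ha)
    have hLp : IsPGroup p L := (core_isPGroup (p := p) (L := L)).to_le hLP
    have hN1 : N ≤ ⊥ := by
      apply res_le_of
      intro g hg hcop
      obtain ⟨k, hk⟩ := hLp ⟨g, hg⟩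
      have hk' : g ^ p ^ k = 1 := by simpa using congrArg Subtype.val hk
      have h1 : orderOf g ∣ p ^ k := orderOf_dvd_of_pow_eq_one hk'
      have h2' : orderOf g = 1 := Nat.Coprime.eq_one_of_dvd (Nat.Coprime.pow_right k hcop) h1
      rw [Subgroup.mem_bot]; exact orderOf_eq_one_iff.mp h2'
    have hx1 : x = 1 := by simpa using hN1 hxN'
    apply habx
    rw [← hxπ, hx1, map_one, mul_one, one_mul]
  have h4 : (A ⊓ P).relIndex A = p := by
    have hdvd : (A ⊓ P).relIndex A ∣ (A ⊓ Bt).relIndex A :=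
      Subgroup.relIndex_dvd_of_le_left A hB'le
    rw [hBtidx] at hdvd
    rcases (Nat.dvd_prime hpp).mp hdvd with h | h
    · exfalso
      rw [Subgroup.relIndex_eq_one] at h
      exact hAP (h.trans inf_le_right)
    · exact h
  have hB'eq : A ⊓ Bt = A ⊓ P := by
    apply Subgroup.eq_of_le_of_card_ge hB'le
    have e1 := card_mul_relIndex (A ⊓ Bt) A inf_le_left
    have e2 := card_mul_relIndex (A ⊓ P) A inf_le_left
    rw [hBtidx] at e1
    rw [h4] at e2
    have h5 : Nat.card ↥(A ⊓ P) * p = Nat.card ↥(A ⊓ Bt) * p := by rw [e1, e2]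
    exact (Nat.eq_of_mul_eq_mul_right hpp.pos h5).le
  have h5 : ⁅A ⊓ P, L⁆ ≤ π.ker := by
    rw [← hB'eq, Subgroup.commutator_le]
    intro g hg l hl
    rw [MonoidHom.mem_ker, commutatorElement_def, map_mul, map_mul, map_mul, map_inv, map_inv]
    have hgB : π g ∈ Bb := hg.2
    have h6 := hBcent (π g) hgB l hl
    rw [← h6]; group
  exact ⟨h2, h3, h4, h5⟩

/-- Let M be a finite p-soluble group and A a p-subgroup of M with Φ(A) ≤ O_p(M) but A ≰ O_p(M). Then there is x ∈ O_{p,p'}(M) such that L = ⟨A, xAx⁻¹⟩ satisfies: x ∈ O^p(L) and O^p(L) ≤ O_{p,p'}(M); [O^p(L), A] = O^p(L); A ∩ O_p(L) has index p in A; and [A ∩ O_p(L), L] ≤ O_p(M). Here O^p(L) is the subgroup generated by the p'-elements of L and O_{p,p'}(M) the preimage of O_{p'}(M/O_p(M)). -/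
theorem result {M : Type*} [Group M] [Finite M] {p : ℕ} [Fact p.Prime] (hM : Cfsg.IsPSolvable p M) (A : Subgroup M) (hA : IsPGroup p A) (hΦ : (frattini ↥A).map A.subtype ≤ Cfsg.pCore p M) (hnot : ¬ A ≤ Cfsg.pCore p M) : ∃ x ∈ (Cfsg.pPrimeCore p (M ⧸ Cfsg.pCore p M)).comap (QuotientGroup.mk' (Cfsg.pCore p M)), x ∈ (Cfsg.pResidual p ↥(A ⊔ A.map (MulAut.conj x).toMonoidHom)).map (A ⊔ A.map (MulAut.conj x).toMonoidHom).subtype ∧ (Cfsg.pResidual p ↥(A ⊔ A.map (MulAut.conj x).toMonoidHom)).map (A ⊔ A.map (MulAut.conj x).toMonoidHom).subtype ≤ (Cfsg.pPrimeCore p (M ⧸ Cfsg.pCore p M)).comap (QuotientGroup.mk' (Cfsg.pCore p M)) ∧ ⁅(Cfsg.pResidual p ↥(A ⊔ A.map (MulAut.conj x).toMonoidHom)).map (A ⊔ A.map (MulAut.conj x).toMonoidHom).subtype, A⁆ = (Cfsg.pResidual p ↥(A ⊔ A.map (MulAut.conj x).toMonoidHom)).map (A ⊔ A.map (MulAut.conj x).toMonoidHom).subtype ∧ (A ⊓ (Cfsg.pCore p ↥(A ⊔ A.map (MulAut.conj x).toMonoidHom)).map (A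 ⊔ A.map (MulAut.conj x).toMonoidHom).subtype).relIndex A = p ∧ ⁅A ⊓ (Cfsg.pCore p ↥(A ⊔ A.map (MulAut.conj x).toMonoidHom)).map (A ⊔ A.map (MulAut.conj x).toMonoidHom).subtype, A ⊔ A.map (MulAut.conj x).toMonoidHom⁆ ≤ Cfsg.pCore p M := by
  classical
  have hpp : p.Prime := Fact.out
  haveI hQn : (pCore p M).Normal := Cfsg.Agent.Lib.Helper33.PCore.pCore_normal p
  have hQp : IsPGroup p (pCore p M) := Cfsg.Agent.Lib.Helper23.Cores.pCore_isPGroup p
  have hker : (QuotientGroup.mk' (pCore p M)).ker = pCore p M := QuotientGroup.ker_mk' _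
  have hMb : IsPSolvable p (M ⧸ pCore p M) :=
    Cfsg.Agent.Lib.Helper76.PSolv.isPSolvable_quotient p (pCore p M) hM
  have hcore : pCore p (M ⧸ pCore p M) = ⊥ := by
    rw [Cfsg.Agent.Lib.Helper47.PRes.pCore_quotient_eq_bot_iff]
    intro D hD hd
    apply Cfsg.Agent.Lib.Helper23.Cores.le_pCore p D hD
    intro d
    obtain ⟨k, hk⟩ := hd d d.2
    obtain ⟨j, hj⟩ := hQp ⟨_, hk⟩
    refine ⟨k + j, ?_⟩
    apply Subtype.ext
    have h1 : ((d : M) ^ p ^ k) ^ p ^ j = 1 := by simpa using congrArg Subtype.val hj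
    rw [Subgroup.coe_pow, pow_add, pow_mul]; exact h1
  have hC := Cfsg.Agent.Lib.Helper74.DualHH.centralizer_pPrimeCore_le p hMb hcore
  haveI hKn : (pPrimeCore p (M ⧸ pCore p M)).Normal :=
    Cfsg.Agent.Lib.Helper33.PCore.pPrimeCore_normal p
  have hKb : ¬ p ∣ Nat.card (pPrimeCore p (M ⧸ pCore p M)) := by
    have h1 := Cfsg.Agent.Lib.Helper76.PSolv.pPrimeCore_coprime (G := M ⧸ pCore p M) p
    intro h
    exact (Nat.Prime.coprime_iff_not_dvd hpp).mp h1.symm h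
  have hAc : ∀ a ∈ A, ∀ b ∈ A, (QuotientGroup.mk' (pCore p M)) a * (QuotientGroup.mk' (pCore p M)) b =
      (QuotientGroup.mk' (pCore p M)) b * (QuotientGroup.mk' (pCore p M)) a := by
    intro a ha b hb
    have h1 : (⁅(⟨a, ha⟩ : ↥A), ⟨b, hb⟩⁆ : ↥A) ∈ frattini ↥A :=
      Cfsg.Agent.Lib.Helper63.PFrattini.commutator_le_frattini hA
        (Subgroup.commutator_mem_commutator (Subgroup.mem_top _) (Subgroup.mem_top _))
    have h2 : a * b * a⁻¹ * b⁻¹ ∈ pCore p M := hΦ ⟨_, h1, rfl⟩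
    have h3 : (QuotientGroup.mk' (pCore p M)) (a * b * a⁻¹ * b⁻¹) = 1 :=
      (QuotientGroup.eq_one_iff _).mpr h2
    rw [map_mul, map_mul, map_mul, map_inv, map_inv] at h3
    calc (QuotientGroup.mk' (pCore p M)) a * (QuotientGroup.mk' (pCore p M)) b
        = ((QuotientGroup.mk' (pCore p M)) a * (QuotientGroup.mk' (pCore p M)) b *
            ((QuotientGroup.mk' (pCore p M)) a)⁻¹ * ((QuotientGroup.mk' (pCore p M)) b)⁻¹) *
            ((QuotientGroup.mk' (pCore p M)) b * (QuotientGroup.mk' (pCore p M)) a) := by group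
      _ = (QuotientGroup.mk' (pCore p M)) b * (QuotientGroup.mk' (pCore p M)) a := by
          rw [h3, one_mul]
  have hAp : ∀ a ∈ A, (QuotientGroup.mk' (pCore p M)) a ^ p = 1 := by
    intro a ha
    have h1 : (⟨a, ha⟩ : ↥A) ^ p ∈ frattini ↥A :=
      Cfsg.Agent.Lib.Helper63.PFrattini.pow_mem_frattini hA _
    have h2 : a ^ p ∈ pCore p M := hΦ ⟨_, h1, rfl⟩
    rw [← map_pow]; exact (QuotientGroup.eq_one_iff _).mpr h2
  have hnot' : ¬ A ≤ (QuotientGroup.mk' (pCore p M)).ker := by rw [hker]; exact hnot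
  have hkerp : IsPGroup p (QuotientGroup.mk' (pCore p M)).ker := by rw [hker]; exact hQp
  obtain ⟨x, hx1, hx2, hx3, hx4, hx5, hx6⟩ := core (QuotientGroup.mk' (pCore p M))
    (QuotientGroup.mk'_surjective _) hkerp (pPrimeCore p (M ⧸ pCore p M)) hKb hC A hA
    hAc hAp hnot'
  refine ⟨x, hx1, hx2, hx3, hx4, hx5, ?_⟩
  rw [← hker]; exact hx6

end Cfsg.Agent.S3754
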