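import Cfsg.Statements.S3798
import Cfsg.Agent.Lib.Helper2.GYCore
import Cfsg.Agent.Lib.Helper58.TransQuot
import Cfsg.Agent.Lib.Helper58.Gor5310
import Cfsg.Agent.Lib.Helper63.PLength
import Cfsg.Agent.Lib.Helper55.SolvCore

set_option autoImplicit false
open Cfsg

namespace Cfsg.Agent.S3798

/-- The Gaschütz–Yen Theorem: let G be a finite p-soluble group, p an odd prime dividing its order, such that the automorphism group of G permutes the subgroups of G of order p transitively. Then G has p-length at most 1. -/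
theorem result {G : Type*} [Group G] [Finite G] {p : ℕ} [Fact p.Prime] (hp : p ≠ 2) (hdvd : p ∣ Nat.card G) (hG : Cfsg.IsPSolvable p G) (htrans : ∀ U V : Subgroup G, Nat.card U = p → Nat.card V = p → ∃ a : MulAut G, U.map a.toMonoidHom = V) : Cfsg.PLengthLE p 1 G := by
  classical
  have hpp : p.Prime := Fact.out
  set O := Cfsg.pPrimeCore p G with hOdef
  haveI hOn : O.Normal := Cfsg.Agent.Lib.Helper50.Cores.pPrimeCore_normal p
  have hOcard : (Nat.card O).Coprime p := Cfsg.Agent.Lib.Helper23.Cores.pPrimeCore_card_coprime p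
  have hOchar : O.Characteristic := Cfsg.Agent.Lib.Helper50.ZStarMin.pPrimeCore_characteristic p
  have htq := Cfsg.Agent.Lib.Helper58.TransQuot.trans_quotient O hOchar hOcard htrans
  have hsq : Cfsg.IsPSolvable p (G ⧸ O) :=
    Cfsg.Agent.Lib.Helper11.PConstr.isPSolvable_of_surjective p (QuotientGroup.mk' O)
      (QuotientGroup.mk'_surjective O) hG
  have hOq : Cfsg.pPrimeCore p (G ⧸ O) = ⊥ :=
    Cfsg.Agent.Lib.Helper55.SolvCore.quotient_pPrimeCore_core_trivial p _
      (Cfsg.Agent.Lib.Helper50.Cores.pPrimeCore_normal p)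
      (Cfsg.Agent.Lib.Helper23.Cores.pPrimeCore_card_coprime p)
  have hall := Cfsg.Agent.Lib.Helper2.GYCore.core
    (fun P _ _ hP φ hφ h => Cfsg.Agent.Lib.Helper58.Gor5310.aut_trivial_of_fix_order_p hp hP φ hφ h)
    hsq hOq htq
  set Qb := Cfsg.pCore p (G ⧸ O) with hQbdef
  have hQbp : IsPGroup p Qb := Cfsg.Agent.Lib.Helper23.Cores.pCore_isPGroup p
  haveI hQbn : Qb.Normal := inferInstance
  have h1 : Cfsg.PLengthLE p 0 O :=
    Cfsg.Agent.Lib.Helper63.PLength.pLengthLE_zero_of_coprime hOcard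
  have ha : Cfsg.PLengthLE p 1 Qb := by
    obtain ⟨n, hn⟩ := (IsPGroup.iff_card).1 hQbp
    exact Cfsg.Agent.Lib.Helper63.PLength.pLengthLE_one_of_card hn
  have hb : Cfsg.PLengthLE p 0 ((G ⧸ O) ⧸ Qb) := by
    apply Cfsg.Agent.Lib.Helper63.PLength.pLengthLE_zero_of_coprime
    rw [Nat.coprime_comm, Nat.Prime.coprime_iff_not_dvd hpp]
    intro hdvd'
    obtain ⟨gb, hgb⟩ := exists_prime_orderOf_dvd_card' p hdvd'
    obtain ⟨g, rfl⟩ := QuotientGroup.mk'_surjective Qb gb
    have hg1 : g ∉ Qb := by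
      intro h
      have : (QuotientGroup.mk' Qb) g = 1 := (QuotientGroup.eq_one_iff _).2 h
      rw [this, orderOf_one] at hgb
      exact hpp.one_lt.ne hgb
    have hg2 : g ^ p ∈ Qb := by
      have := pow_orderOf_eq_one (QuotientGroup.mk' Qb g)
      rw [hgb, ← map_pow] at this
      exact (QuotientGroup.eq_one_iff _).1 this
    obtain ⟨k, hk⟩ := hQbp ⟨g ^ p, hg2⟩
    have hk' : (g ^ p) ^ p ^ k = 1 := by
      have := congrArg Subtype.val hk
      simpa using this
    apply hg1
    apply hall g (k + 1)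
    rw [pow_succ, mul_comm, pow_mul]; exact hk'
  have hq : Cfsg.PLengthLE p (1 + 0) (G ⧸ O) :=
    Cfsg.Agent.Lib.Helper63.PLength.pLengthLE_add Qb ha hb
  exact Cfsg.Agent.Lib.Helper63.PLength.pLengthLE_add O h1 hq

end Cfsg.Agent.S3798
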