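import Cfsg.Statements.S3802
import Cfsg.Agent.Lib.Helper62.Wielandt

set_option autoImplicit false
open Cfsg

namespace Cfsg.Agent.S3802

open Cfsg.Agent.Lib.Helper62 in
open scoped Pointwise in
/-- Let G be a finite group, M a maximal subgroup of G and N a subnormal subgroup of G contained in M. Then N is contained in every conjugate of M, that is, N lies in the core of M in G. -/
theorem result {G : Type*} [Group G] [Finite G] (M N : Subgroup G) (hM : IsCoatom M) (hN : N.IsSubnormal) (hNM : N ≤ M) :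
    N ≤ Subgroup.normalCore M := by
  classical
  have hNQ : N ≤ ⨆ g : G, MulAut.conj g • N := by
    have := le_iSup (fun g : G => MulAut.conj g • N) 1
    simpa using this
  have hQn : (⨆ g : G, MulAut.conj g • N).Normal := by
    apply Subgroup.Normal.of_conjugate_fixed
    intro g
    apply Wielandt.smul_eq_of_le
    rw [Subgroup.pointwise_smul_subset_iff]
    apply iSup_le
    intro g'
    rw [← Subgroup.pointwise_smul_subset_iff, smul_smul, ← map_mul]
    exact le_iSup (fun g : G => MulAut.conj g • N) (g * g')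
  suffices hQM : (⨆ g : G, MulAut.conj g • N) ≤ M from
    hNQ.trans ((Subgroup.normal_le_normalCore (hN := hQn)).mpr hQM)
  by_contra hQM
  have hsup : (⨆ g : G, MulAut.conj g • N) ⊔ M = ⊤ :=
    hM.2 _ (lt_of_le_of_ne le_sup_right (fun he => hQM (he ▸ le_sup_left)))
  have hJsn : (⨆ m : M, MulAut.conj (m : G) • N).IsSubnormal :=
    Wielandt.iSup_isSubnormal _ (fun m => hN.smul _)
  have hJM : (⨆ m : M, MulAut.conj (m : G) • N) ≤ M :=
    iSup_le (fun m => Subgroup.conj_smul_le_of_le hNM m)
  have hJQ : (⨆ m : M, MulAut.conj (m : G) • N) ≤ ⨆ g : G, MulAut.conj g • N :=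
    iSup_le (fun m => le_iSup (fun g : G => MulAut.conj g • N) (m : G))
  have hJQsn : ((⨆ m : M, MulAut.conj (m : G) • N).subgroupOf
      (⨆ g : G, MulAut.conj g • N)).IsSubnormal := hJsn.subgroupOf
  rcases hJQsn.lt_normal with htop | ⟨P, hPn, hJP, hPlt⟩
  · exact hQM ((Subgroup.subgroupOf_eq_top.mp htop).trans hJM)
  · have hQP : (⨆ g : G, MulAut.conj g • N) ≤ P.map (⨆ g : G, MulAut.conj g • N).subtype := by
      apply iSup_le
      intro g
      have hg : g ∈ (⨆ g : G, MulAut.conj g • N) ⊔ M := by rw [hsup]; exact Subgroup.mem_top g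
      obtain ⟨q, hq, m, hm, rfl⟩ := Subgroup.mem_sup_of_normal_left.mp hg
      rw [map_mul, mul_smul]
      have h1 : MulAut.conj m • N ≤ P.map (⨆ g : G, MulAut.conj g • N).subtype := by
        have h2 : MulAut.conj m • N ≤ ⨆ m : M, MulAut.conj (m : G) • N :=
          le_iSup (fun m : M => MulAut.conj (m : G) • N) ⟨m, hm⟩
        have h3 : (⨆ m : M, MulAut.conj (m : G) • N)
            ≤ P.map (⨆ g : G, MulAut.conj g • N).subtype := by
          rw [← Subgroup.map_subgroupOf_eq_of_le hJQ]
          exact Subgroup.map_mono hJP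
        exact h2.trans h3
      have h4 : MulAut.conj q • P.map (⨆ g : G, MulAut.conj g • N).subtype
          ≤ P.map (⨆ g : G, MulAut.conj g • N).subtype := by
        intro z hz
        obtain ⟨y, hy, rfl⟩ := (Subgroup.mem_smul_pointwise_iff_exists _ _ _).mp hz
        obtain ⟨p, hp, rfl⟩ := Subgroup.mem_map.mp hy
        exact Subgroup.mem_map.mpr ⟨⟨q, hq⟩ * p * ⟨q, hq⟩⁻¹, hPn.conj_mem p hp ⟨q, hq⟩, rfl⟩
      exact (Subgroup.pointwise_smul_le_pointwise_smul_iff.mpr h1).trans h4
    apply hPlt.ne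
    rw [eq_top_iff]
    intro y _
    obtain ⟨p, hp, hpy⟩ := Subgroup.mem_map.mp (hQP y.2)
    have : p = y := Subtype.ext hpy
    rw [← this]
    exact hp

end Cfsg.Agent.S3802
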