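import Cfsg.Statements.S3803
import Mathlib
import Cfsg.Agent.Lib.Helper50.PAct

set_option autoImplicit false
open Cfsg

namespace Cfsg.Agent.S3803

/-- Let P be a 2-subgroup and A a subgroup of odd order of a finite group, with A normalizing P. Let D ≤ P with 1 < |D| < |P|. If every subgroup of P of order |D|, and also every subgroup of P of order 4 in case |D| = 2, is normalized by A, then A centralizes P. -/
theorem result {X : Type*} [Group X] [Finite X] (P A D : Subgroup X) (hP : IsPGroup 2 P) (hA : Odd (Nat.card A))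
    (hAP : A ≤ Subgroup.normalizer (P : Set X)) (hDP : D ≤ P) (hD1 : 1 < Nat.card D) (hD2 : Nat.card D < Nat.card P)
    (hinv : ∀ E : Subgroup X, E ≤ P → (Nat.card E = Nat.card D ∨ (Nat.card D = 2 ∧ Nat.card E = 4)) → A ≤ Subgroup.normalizer (E : Set X)) :
    A ≤ Subgroup.centralizer (P : Set X) := by
  have hF2 : Fact (Nat.Prime 2) := ⟨Nat.prime_two⟩
  obtain ⟨d, hd⟩ := (hP.to_le hDP).exists_card_eq
  rw [hd] at hD1 hD2 hinv
  have hd1 : 1 ≤ d := by
    rcases Nat.eq_zero_or_pos d with h0 | hpos
    · subst h0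
      simp at hD1
    · exact hpos
  intro c hc
  apply Cfsg.Agent.Lib.Helper50.PAct.mem_of_primePow_parts
  intro q hq
  have hdvd : q ^ (orderOf c).factorization q ∣ orderOf c := Nat.ordProj_dvd _ _
  have hne : orderOf c / q ^ (orderOf c).factorization q ≠ 0 := by
    intro h0
    have h4 := Nat.div_mul_cancel hdvd
    rw [h0, zero_mul] at h4
    exact (orderOf_pos c).ne' h4.symm
  have hord : orderOf (c ^ (orderOf c / q ^ (orderOf c).factorization q)) =
      q ^ (orderOf c).factorization q := by
    rw [orderOf_pow_of_dvd hne (Nat.div_dvd_of_dvd hdvd),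
      Nat.div_div_self hdvd (orderOf_pos c).ne']
  have hcA : c ^ (orderOf c / q ^ (orderOf c).factorization q) ∈ A := pow_mem hc _
  have hodd : (orderOf (c ^ (orderOf c / q ^ (orderOf c).factorization q))).Coprime 2 := by
    have h1 : orderOf (c ^ (orderOf c / q ^ (orderOf c).factorization q)) ∣ Nat.card A :=
      Subgroup.orderOf_dvd_natCard A hcA
    have h2 : (Nat.card A).Coprime 2 := Nat.Coprime.symm (Nat.coprime_two_left.mpr hA)
    exact Nat.Coprime.coprime_dvd_left h1 h2
  have key := Cfsg.Agent.Lib.Helper50.PAct.centralizes_of_normalizes_fixed_order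
    (c ^ (orderOf c / q ^ (orderOf c).factorization q)) hodd (by simp) ⟨q, _, hq, hord⟩ d hd1 P hP
    (hAP hcA) hD2 (fun E hEP hcard => hinv E hEP hcard hcA)
  rw [Subgroup.mem_centralizer_iff]
  intro h hh
  exact key h hh

end Cfsg.Agent.S3803
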