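import Cfsg.Statements.S3815
import Mathlib

set_option autoImplicit false
open Cfsg

namespace Cfsg.Agent.S3815

theorem result {G : Type*} [Group G] [Finite G] {p : ℕ} [Fact p.Prime]
    (d : G) (hd : (orderOf d).Coprime p)
    (h : ∀ g : G, (orderOf g).Coprime p → (orderOf (d * g)).Coprime p) :
    d ∈ Cfsg.pPrimeCore p G := by
  classical
  -- the submonoid of all such elements
  let D : Submonoid G :=
    { carrier := {d | ∀ g : G, (orderOf g).Coprime p → (orderOf (d * g)).Coprime p}
      one_mem' := by intro g hg; simpa using hg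
      mul_mem' := by
        intro a b ha hb g hg
        rw [mul_assoc]
        exact ha _ (hb g hg) }
  have hpow : ∀ (a : G), a ∈ D → ∀ n : ℕ, a ^ n ∈ D := fun a ha n => D.pow_mem ha n
  let D' : Subgroup G :=
    { D with
      inv_mem' := by
        intro a ha
        have : a⁻¹ = a ^ (orderOf a - 1) := by
          have h1 : 0 < orderOf a := orderOf_pos a
          rw [eq_comm, ← mul_eq_one_iff_eq_inv, ← pow_succ]
          rw [Nat.sub_add_cancel h1, pow_orderOf_eq_one]
        rw [this]
        exact hpow a ha _ }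
  have hmem : ∀ a : G, a ∈ D' ↔ ∀ g : G, (orderOf g).Coprime p → (orderOf (a * g)).Coprime p :=
    fun a => Iff.rfl
  have hnormal : D'.Normal := by
    constructor
    intro a ha x
    rw [hmem] at ha ⊢
    intro g hg
    have h1 : x * a * x⁻¹ * g = x * (a * (x⁻¹ * g * x)) * x⁻¹ := by group
    have hc : ∀ (y z : G), orderOf (y * z * y⁻¹) = orderOf z := fun y z => by
      have := (MulAut.conj y).orderOf_eq z
      simpa [MulAut.conj_apply] using this
    have h2 : orderOf (x⁻¹ * g * x) = orderOf g := by
      have := hc x⁻¹ g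
      simpa using this
    rw [h1, hc]
    exact ha _ (by rw [h2]; exact hg)
  have hcop : (Nat.card D').Coprime p := by
    rw [Nat.coprime_comm, Nat.Prime.coprime_iff_not_dvd (Fact.out : p.Prime)]
    intro hdvd
    obtain ⟨x, hx⟩ := exists_prime_orderOf_dvd_card' (G := D') p hdvd
    have hx' : orderOf (x : G) = p := by rw [Subgroup.orderOf_coe]; exact hx
    have := (hmem x).mp x.2 1 (by simp)
    rw [mul_one, hx'] at this
    exact (Fact.out : p.Prime).one_lt.ne' ((Nat.coprime_self p).mp this)
  have hdD : d ∈ D' := (hmem d).mpr h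
  have hle : D' ≤ Cfsg.pPrimeCore p G := le_sSup ⟨hnormal, hcop⟩
  exact hle hdD

end Cfsg.Agent.S3815
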