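import Cfsg.Statements.S3820
import Mathlib

set_option autoImplicit false
open Cfsg

namespace Cfsg.Agent.S3820

theorem map_conj_mul {G : Type*} [Group G] (K : Subgroup G) (a b : G) :
    K.map (MulAut.conj (a * b)).toMonoidHom = (K.map (MulAut.conj b).toMonoidHom).map (MulAut.conj a).toMonoidHom := by
  rw [Subgroup.map_map]
  congr 1
  ext y
  simp [MulAut.conj_apply, mul_assoc]

theorem map_conj_le {G : Type*} [Group G] (K J : Subgroup G) (x : G) (hx : x ∈ J) (hK : K ≤ J) :
    K.map (MulAut.conj x).toMonoidHom ≤ J := by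
  rintro y ⟨k, hk, rfl⟩
  simp only [MulEquiv.coe_toMonoidHom, MulAut.conj_apply]
  exact J.mul_mem (J.mul_mem hx (hK hk)) (J.inv_mem hx)

theorem result {G : Type*} [Group G] [Finite G] (S H : Subgroup G) (hSH : S ≤ H)
    (hS : Cfsg.IsPronormal S) :
    Cfsg.IsPronormal H ↔
      ∀ g ∈ Subgroup.normalizer (S : Set G), ∃ w ∈ H ⊔ H.map (MulAut.conj g).toMonoidHom,
        H.map (MulAut.conj g).toMonoidHom = H.map (MulAut.conj w).toMonoidHom := by
  constructor
  · intro h g _
    exact h g
  · intro h g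
    obtain ⟨x, hx, hxS⟩ := hS g
    have hn : x⁻¹ * g ∈ Subgroup.normalizer (S : Set G) := by
      have key : S.map (MulAut.conj (x⁻¹ * g)).toMonoidHom = S := by
        rw [map_conj_mul, hxS, ← map_conj_mul]
        ext y
        simp
      exact Subgroup.mem_normalizer_iff_map_conj_eq.mpr key
    obtain ⟨w, hw, hwH⟩ := h _ hn
    have hSJ : S ⊔ S.map (MulAut.conj g).toMonoidHom ≤ H ⊔ H.map (MulAut.conj g).toMonoidHom :=
      sup_le_sup hSH (Subgroup.map_mono hSH)
    have hxJ : x ∈ H ⊔ H.map (MulAut.conj g).toMonoidHom := hSJ hx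
    refine ⟨x * w, ?_, ?_⟩
    · refine Subgroup.mul_mem _ hxJ ?_
      have : H ⊔ H.map (MulAut.conj (x⁻¹ * g)).toMonoidHom ≤ H ⊔ H.map (MulAut.conj g).toMonoidHom := by
        refine sup_le le_sup_left ?_
        rw [map_conj_mul]
        exact map_conj_le _ _ _ (Subgroup.inv_mem _ hxJ) le_sup_right
      exact this hw
    · have : g = x * (x⁻¹ * g) := by group
      conv_lhs => rw [this]
      rw [map_conj_mul, hwH, ← map_conj_mul]

end Cfsg.Agent.S3820
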