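import Cfsg.Statements.S3821
import Mathlib
import Cfsg.Agent.Lib.Helper64.Sylow

set_option autoImplicit false
open Cfsg

namespace Cfsg.Agent.S3821

open Cfsg.Agent.Lib.Helper64.Sylow

theorem mem_normalizer_iff_map_conj {G : Type*} [Group G] {H : Subgroup G} {g : G} :
    g ∈ Subgroup.normalizer (H : Set G) ↔ H.map (MulAut.conj g).toMonoidHom = H := by
  rw [Subgroup.mem_normalizer_iff]
  constructor
  · intro h
    ext x
    rw [mem_map_conj, h (g⁻¹ * x * g)]
    have : g * (g⁻¹ * x * g) * g⁻¹ = x := by group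
    rw [this]
  · intro h x
    conv_rhs => rw [← h]
    rw [mem_map_conj]
    have : g⁻¹ * (g * x * g⁻¹) * g = x := by group
    rw [this]

theorem map_conj_subgroupOf {G : Type*} [Group G] {A K : Subgroup G} (hKA : K ≤ A) (a : A) :
    ((K.subgroupOf A).map (MulAut.conj a).toMonoidHom).map A.subtype
      = K.map (MulAut.conj (a : G)).toMonoidHom := by
  ext x
  constructor
  · rintro ⟨y, hy, rfl⟩
    rw [SetLike.mem_coe, mem_map_conj] at hy
    rw [mem_map_conj]
    exact hy
  · intro hx
    rw [mem_map_conj] at hx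
    have hxA : x ∈ A := by
      have h1 := hKA hx
      have : x = (a : G) * ((a : G)⁻¹ * x * (a : G)) * (a : G)⁻¹ := by group
      rw [this]
      exact A.mul_mem (A.mul_mem a.2 h1) (A.inv_mem a.2)
    refine ⟨⟨x, hxA⟩, ?_, rfl⟩
    rw [SetLike.mem_coe, mem_map_conj]
    exact hx

/-- Let A be a normal subgroup of the finite group G and H a subgroup of A. Then H is pronormal in G (H and gHg⁻¹ conjugate inside ⟨H, gHg⁻¹⟩ for every g ∈ G) if and only if H is pronormal in A and G = A · N_G(H). -/
theorem result {G : Type*} [Group G] [Finite G] (A H : Subgroup G) [A.Normal] (hHA : H ≤ A) :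
    Cfsg.IsPronormal H ↔ (Cfsg.IsPronormal (H.subgroupOf A) ∧ A ⊔ Subgroup.normalizer (H : Set G) = ⊤) := by
  have hconjA : ∀ g : G, H.map (MulAut.conj g).toMonoidHom ≤ A := by
    intro g x hx
    rw [mem_map_conj] at hx
    have h1 := hHA hx
    have : x = g * (g⁻¹ * x * g) * g⁻¹ := by group
    rw [this]
    exact ‹A.Normal›.conj_mem _ h1 g
  have hsub : (H.subgroupOf A).map A.subtype = H := by
    rw [Subgroup.subgroupOf_map_subtype, inf_of_le_left hHA]
  have hsupmap : ∀ a : A, (H.subgroupOf A ⊔ (H.subgroupOf A).map (MulAut.conj a).toMonoidHom).map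
      A.subtype = H ⊔ H.map (MulAut.conj (a : G)).toMonoidHom := by
    intro a
    rw [Subgroup.map_sup, hsub, map_conj_subgroupOf hHA]
  constructor
  · intro hp
    constructor
    · intro a
      obtain ⟨x, hx, hxe⟩ := hp (a : G)
      have hxA : x ∈ A := (sup_le hHA (hconjA a)) hx
      refine ⟨⟨x, hxA⟩, ?_, ?_⟩
      · rw [← Subgroup.mem_map_iff_mem A.subtype_injective, hsupmap]
        exact hx
      · apply Subgroup.map_injective A.subtype_injective
        rw [map_conj_subgroupOf hHA, map_conj_subgroupOf hHA]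
        exact hxe
    · rw [eq_top_iff]
      intro g _
      obtain ⟨x, hx, hxe⟩ := hp g
      have hxA : x ∈ A := (sup_le hHA (hconjA g)) hx
      have hn : x⁻¹ * g ∈ Subgroup.normalizer (H : Set G) := by
        rw [mem_normalizer_iff_map_conj, ← map_conj_map_conj, hxe, map_conj_map_conj,
          inv_mul_cancel, map_conj_one]
      have : g = x * (x⁻¹ * g) := by group
      rw [this]
      exact Subgroup.mul_mem_sup hxA hn
  · rintro ⟨hp, htop⟩ g
    have hg : g ∈ A ⊔ Subgroup.normalizer (H : Set G) := by rw [htop]; exact Subgroup.mem_top g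
    obtain ⟨a, ha, n, hn, rfl⟩ := Subgroup.mem_sup_of_normal_left.1 hg
    have e1 : H.map (MulAut.conj (a * n)).toMonoidHom = H.map (MulAut.conj a).toMonoidHom := by
      rw [← map_conj_map_conj, mem_normalizer_iff_map_conj.1 hn]
    obtain ⟨x, hx, hxe⟩ := hp ⟨a, ha⟩
    refine ⟨(x : G), ?_, ?_⟩
    · rw [e1]
      have := (Subgroup.mem_map_iff_mem A.subtype_injective).2 hx
      rw [hsupmap] at this
      exact this
    · rw [e1]
      have := congrArg (Subgroup.map A.subtype) hxe
      rw [map_conj_subgroupOf hHA, map_conj_subgroupOf hHA] at this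
      exact this

end Cfsg.Agent.S3821
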