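import Cfsg.Statements.S3825
import Mathlib

set_option autoImplicit false
open Cfsg

namespace Cfsg.Agent.S3825

open scoped commutatorElement

/-- Let U be a subgroup of a finite group H and w an involution of H normalizing U and commuting with exactly two elements of U, the identity and y. If V is a non-cyclic elementary abelian 2-subgroup of U containing y which is normal in U and invariant under w, then V is a Sylow 2-subgroup of U, V has order 4, and U/V is abelian. -/
theorem result {H : Type*} [Group H] [Finite H] (U : Subgroup H) (w : H) (hw : orderOf w = 2)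
    (hwU : w ∈ Subgroup.normalizer (U : Set H)) (y : H) (hy : y ≠ 1) (hyU : y ∈ U)
    (hfix : ∀ u ∈ U, w * u * w⁻¹ = u ↔ (u = 1 ∨ u = y))
    (V : Subgroup H) (hVU : V ≤ U) (hVn : (V.subgroupOf U).Normal) (hVw : ∀ v ∈ V, w * v * w⁻¹ ∈ V)
    (hVe : Cfsg.IsElementaryAbelian 2 V) (hVc : ¬ IsCyclic ↥V) (hyV : y ∈ V) :
    ¬ 2 ∣ V.relIndex U ∧ Nat.card ↥V = 4 ∧ ⁅U, U⁆ ≤ V := by
  have hww : w * w = 1 := by
    have := pow_orderOf_eq_one w
    rw [hw, pow_two] at this
    exact this
  have hwinv : w⁻¹ = w := inv_eq_of_mul_eq_one_left hww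
  have hUw : ∀ u ∈ U, w * u * w⁻¹ ∈ U := fun u hu => (Subgroup.mem_normalizer_iff.1 hwU u).1 hu
  have hVcomm : ∀ a ∈ V, ∀ b ∈ V, a * b = b * a := by
    intro a ha b hb
    have := hVe.1
    exact congrArg Subtype.val (mul_comm' (⟨a, ha⟩ : V) ⟨b, hb⟩)
  have hVsq : ∀ a ∈ V, a * a = 1 := by
    intro a ha
    have := hVe.2 a ha
    rwa [pow_two] at this
  have hVinv : ∀ a ∈ V, a⁻¹ = a := fun a ha => inv_eq_of_mul_eq_one_left (hVsq a ha)
  -- double conjugation
  have hcc : ∀ u : H, w * (w * u * w⁻¹) * w⁻¹ = u := by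
    intro u
    rw [hwinv]
    calc w * (w * u * w) * w = (w * w) * u * (w * w) := by group
      _ = u := by rw [hww]; group
  -- the map τ
  have hτmem : ∀ v ∈ V, v * (w * v * w⁻¹) ∈ V := fun v hv => V.mul_mem hv (hVw v hv)
  have hτfix : ∀ v ∈ V, w * (v * (w * v * w⁻¹)) * w⁻¹ = v * (w * v * w⁻¹) := by
    intro v hv
    calc w * (v * (w * v * w⁻¹)) * w⁻¹ = (w * v * w⁻¹) * (w * (w * v * w⁻¹) * w⁻¹) := by group
      _ = (w * v * w⁻¹) * v := by rw [hcc]
      _ = v * (w * v * w⁻¹) := hVcomm _ (hVw v hv) _ hv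
  have hτval : ∀ v ∈ V, v * (w * v * w⁻¹) = 1 ∨ v * (w * v * w⁻¹) = y :=
    fun v hv => (hfix _ (hVU (hτmem v hv))).1 (hτfix v hv)
  have hτker : ∀ v ∈ V, v * (w * v * w⁻¹) = 1 ↔ (v = 1 ∨ v = y) := by
    intro v hv
    rw [← hfix v (hVU hv)]
    constructor
    · intro h
      have : w * v * w⁻¹ = v⁻¹ := by
        calc w * v * w⁻¹ = v⁻¹ * (v * (w * v * w⁻¹)) := by group
          _ = v⁻¹ := by rw [h, mul_one]
      rw [this, hVinv v hv]
    · intro h
      rw [h]; exact hVsq v hv
  have hτmul : ∀ a ∈ V, ∀ b ∈ V, (a * b) * (w * (a * b) * w⁻¹)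
      = (a * (w * a * w⁻¹)) * (b * (w * b * w⁻¹)) := by
    intro a ha b hb
    calc (a * b) * (w * (a * b) * w⁻¹) = a * (b * (w * a * w⁻¹)) * (w * b * w⁻¹) := by group
      _ = a * ((w * a * w⁻¹) * b) * (w * b * w⁻¹) := by rw [hVcomm b hb _ (hVw a ha)]
      _ = _ := by group
  -- existence of a with τ a = y
  have hex : ∃ a ∈ V, a * (w * a * w⁻¹) = y := by
    by_contra hno
    push Not at hno
    have hall : ∀ v ∈ V, v = 1 ∨ v = y :=
      fun v hv => (hτker v hv).1 ((hτval v hv).resolve_right (hno v hv))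
    apply hVc
    refine ⟨⟨⟨y, hyV⟩, ?_⟩⟩
    intro v
    rcases hall v v.2 with h | h
    · have : v = 1 := Subtype.ext h
      rw [this]; exact Subgroup.one_mem (Subgroup.zpowers (⟨y, hyV⟩ : V))
    · have : v = ⟨y, hyV⟩ := Subtype.ext h
      rw [this]; exact Subgroup.mem_zpowers _
  obtain ⟨a, haV, haτ⟩ := hex
  have hwa : w * a * w⁻¹ = a * y := by
    calc w * a * w⁻¹ = a⁻¹ * (a * (w * a * w⁻¹)) := by group
      _ = a * y := by rw [haτ, hVinv a haV]
  -- cardinality of V
  let τ : V →* V :=
    { toFun := fun v => ⟨v * (w * v * w⁻¹), hτmem v v.2⟩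
      map_one' := by ext; simp
      map_mul' := fun a b => by ext; exact hτmul a a.2 b b.2 }
  have hτapply : ∀ v : V, ((τ v : V) : H) = v * (w * v * w⁻¹) := fun v => rfl
  let y' : V := ⟨y, hyV⟩
  have hy' : (1 : V) ≠ y' := by
    intro h
    exact hy (congrArg Subtype.val h).symm
  have hkerset : (τ.ker : Set V) = {1, y'} := by
    ext v
    simp only [SetLike.mem_coe, MonoidHom.mem_ker, Set.mem_insert_iff, Set.mem_singleton_iff]
    rw [← Subtype.coe_inj, hτapply, Subgroup.coe_one, hτker v v.2]
    constructor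
    · rintro (h | h)
      · left; exact Subtype.ext h
      · right; exact Subtype.ext h
    · rintro (h | h)
      · left; rw [h]; rfl
      · right; rw [h]
  have hrangeset : (τ.range : Set V) = {1, y'} := by
    ext v
    simp only [SetLike.mem_coe, MonoidHom.mem_range, Set.mem_insert_iff, Set.mem_singleton_iff]
    constructor
    · rintro ⟨u, rfl⟩
      rcases hτval u u.2 with h | h
      · left; exact Subtype.ext h
      · right; exact Subtype.ext h
    · rintro (h | h)
      · exact ⟨1, by rw [h, map_one]⟩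
      · exact ⟨⟨a, haV⟩, by rw [h]; exact Subtype.ext haτ⟩
  have hcardker : Nat.card τ.ker = 2 := by
    have h1 : Nat.card τ.ker = (τ.ker : Set V).ncard := Nat.card_coe_set_eq _
    rw [h1, hkerset, Set.ncard_pair hy']
  have hcardrange : Nat.card τ.range = 2 := by
    have h1 : Nat.card τ.range = (τ.range : Set V).ncard := Nat.card_coe_set_eq _
    rw [h1, hrangeset, Set.ncard_pair hy']
  have hcardV : Nat.card ↥V = 4 := by
    have h1 := Subgroup.card_eq_card_quotient_mul_card_subgroup τ.ker
    have h2 := Nat.card_congr (QuotientGroup.quotientKerEquivRange τ).toEquiv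
    rw [h1, h2, hcardker, hcardrange]
  -- the action on the quotient
  let φ : U →* U :=
    { toFun := fun u => ⟨w * u * w⁻¹, hUw u u.2⟩
      map_one' := by ext; simp
      map_mul' := fun a b => by ext; simp only [Subgroup.coe_mul]; group }
  have hφapply : ∀ u : U, ((φ u : U) : H) = w * u * w⁻¹ := fun u => rfl
  have hle : V.subgroupOf U ≤ (V.subgroupOf U).comap φ := by
    intro u hu
    rw [Subgroup.mem_comap, Subgroup.mem_subgroupOf, hφapply]
    exact hVw _ (Subgroup.mem_subgroupOf.1 hu)
  let φbar : (U ⧸ V.subgroupOf U) →* (U ⧸ V.subgroupOf U) :=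
    QuotientGroup.map (V.subgroupOf U) (V.subgroupOf U) φ hle
  have hφbar : ∀ u : U, φbar (QuotientGroup.mk u) = QuotientGroup.mk (φ u) := fun u => rfl
  have hfpf : MonoidHom.FixedPointFree φbar := by
    intro q hq
    induction q using QuotientGroup.induction_on with
    | H u =>
      rw [hφbar] at hq
      have h1 := QuotientGroup.eq.1 hq
      rw [Subgroup.mem_subgroupOf] at h1
      simp only [Subgroup.coe_mul, Subgroup.coe_inv, hφapply] at h1
      -- h1 : (w u w⁻¹)⁻¹ * u ∈ V
      set v := (w * (u : H) * w⁻¹)⁻¹ * (u : H) with hv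
      have hvfix : w * v * w⁻¹ = v := by
        have e : w * v * w⁻¹ = (w * (w * (u : H) * w⁻¹) * w⁻¹)⁻¹ * (w * u * w⁻¹) := by
          rw [hv]; simp [mul_assoc]
        rw [e, hcc]
        have e2 : (u : H)⁻¹ * (w * u * w⁻¹) = v⁻¹ := by rw [hv]; group
        rw [e2, hVinv v h1]
      have hwu : w * (u : H) * w⁻¹ = u * v := by
        have : w * (u : H) * w⁻¹ = u * v⁻¹ := by rw [hv]; group
        rw [this, hVinv v h1]
      have huV : (u : H) ∈ V := by
        rcases (hfix v (hVU h1)).1 hvfix with h | h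
        · rw [h, mul_one] at hwu
          rcases (hfix u u.2).1 hwu with h' | h'
          · rw [h']; exact V.one_mem
          · rw [h']; exact hyV
        · rw [h] at hwu
          have hfixua : w * ((u : H) * a) * w⁻¹ = (u : H) * a := by
            calc w * ((u : H) * a) * w⁻¹ = (w * u * w⁻¹) * (w * a * w⁻¹) := by group
              _ = (u * y) * (a * y) := by rw [hwu, hwa]
              _ = u * (y * a) * y := by group
              _ = u * (a * y) * y := by rw [hVcomm y hyV a haV]
              _ = u * a * (y * y) := by group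
              _ = u * a := by rw [hVsq y hyV, mul_one]
          have huaV : (u : H) * a ∈ V := by
            rcases (hfix _ (U.mul_mem u.2 (hVU haV))).1 hfixua with h' | h'
            · rw [h']; exact V.one_mem
            · rw [h']; exact hyV
          have : (u : H) = (u * a) * a⁻¹ := by group
          rw [this]
          exact V.mul_mem huaV (V.inv_mem haV)
      exact (QuotientGroup.eq_one_iff u).2 (Subgroup.mem_subgroupOf.2 huV)
  have hinv : Function.Involutive φbar := by
    intro q
    induction q using QuotientGroup.induction_on with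
    | H u =>
      rw [hφbar, hφbar]
      congr 1
      apply Subtype.ext
      rw [hφapply, hφapply, hcc]
  refine ⟨?_, hcardV, ?_⟩
  · have hodd := hfpf.odd_card_of_involutive hinv
    intro h2
    have : V.relIndex U = Nat.card (U ⧸ V.subgroupOf U) := rfl
    rw [this] at h2
    exact (Nat.not_even_iff_odd.2 hodd) (even_iff_two_dvd.2 h2)
  · rw [Subgroup.commutator_le]
    intro g₁ hg₁ g₂ hg₂
    have hc := hfpf.commute_all_of_involutive hinv
      (QuotientGroup.mk (⟨g₁, hg₁⟩ : U)) (QuotientGroup.mk (⟨g₂, hg₂⟩ : U))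
    have h1 : (QuotientGroup.mk (⁅(⟨g₁, hg₁⟩ : U), ⟨g₂, hg₂⟩⁆) : U ⧸ V.subgroupOf U) = 1 := by
      rw [commutatorElement_def]
      simp only [QuotientGroup.mk_mul, QuotientGroup.mk_inv]
      rw [hc.eq]; group
    have h2 := (QuotientGroup.eq_one_iff _).1 h1
    rw [Subgroup.mem_subgroupOf] at h2
    exact h2

end Cfsg.Agent.S3825
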