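-- Statement S3835: A_n contains Qd(p) iff n ≥ p²; not involved if n < p².
import Cfsg.Statements.S3835
import Cfsg.Agent.H37.Involve
import Cfsg.Agent.H37.QdBasic
import Cfsg.Agent.Lib.Helper37.PermPComm
import Cfsg.Agent.Lib.Helper37.QdAlt

set_option autoImplicit false
open Cfsg

namespace Cfsg.Agent.S3835

open Cfsg.Agent.H37 Cfsg.Agent.Lib.Helper37.PermPComm Cfsg.Agent.Lib.Helper37.QdAlt

theorem not_involves {p : ℕ} [Fact p.Prime] (hp : p ≠ 2) (n : ℕ) (hn : n < p ^ 2) :
    ¬ Cfsg.Involves ↥(Cfsg.qd p) ↥(alternatingGroup (Fin n)) := by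
  intro h
  obtain ⟨K, f, hf⟩ := involves_exists_surj h
  have h0 : PSubComm p (Equiv.Perm (Fin n)) := perm_pSubComm (by simpa using hn)
  have h1 : PSubComm p K := (h0.subgroup (alternatingGroup (Fin n))).subgroup K
  exact qd_not_pSubComm p hp (h1.of_surjective f hf)

theorem exists_embedding {p : ℕ} [Fact p.Prime] (hp : p ≠ 2) (n : ℕ) (hn : p ^ 2 ≤ n) :
    ∃ H : Subgroup (alternatingGroup (Fin n)), Nonempty (↥H ≃* ↥(Cfsg.qd p)) := by
  classical
  have hcard : Fintype.card (ZMod p × ZMod p) ≤ Fintype.card (Fin n) := by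
    rw [Fintype.card_prod, ZMod.card, Fintype.card_fin, ← pow_two]
    exact hn
  obtain ⟨e⟩ := Function.Embedding.nonempty_of_card_le hcard
  let f : (ZMod p × ZMod p) ≃ {x : Fin n // x ∈ Set.range e} := Equiv.ofInjective e e.injective
  let ψ : Cfsg.qd p →* Equiv.Perm (Fin n) := (Equiv.Perm.extendDomainHom f).comp (affPerm p)
  have hψ : Function.Injective ψ :=
    (Equiv.Perm.extendDomainHom_injective f).comp (affPerm_injective p)
  have hsign : ∀ g : Cfsg.qd p, ψ g ∈ alternatingGroup (Fin n) := by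
    intro g
    rw [Equiv.Perm.mem_alternatingGroup]
    exact hom_trivial hp (Equiv.Perm.sign.comp ψ) g
  let ψ' : Cfsg.qd p →* alternatingGroup (Fin n) := ψ.codRestrict _ hsign
  have hψ' : Function.Injective ψ' := by
    intro a b hab
    apply hψ
    exact congrArg Subtype.val hab
  exact ⟨ψ'.range, ⟨(MonoidHom.ofInjective hψ').symm⟩⟩

/-- Let p be an odd prime and n a natural number. The alternating group of degree n has a subgroup isomorphic to Qd(p) (the natural semidirect product of an elementary abelian group of order p² by SL₂(p)) if and only if n ≥ p²; and if n < p² then Qd(p) is not even involved in it. -/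
theorem result {p : ℕ} [Fact p.Prime] (hp : p ≠ 2) (n : ℕ) : ((∃ H : Subgroup (alternatingGroup (Fin n)), Nonempty (↥H ≃* ↥(Cfsg.qd p))) ↔ p ^ 2 ≤ n) ∧ (n < p ^ 2 → ¬ Cfsg.Involves ↥(Cfsg.qd p) ↥(alternatingGroup (Fin n))) := by
  refine ⟨⟨?_, exists_embedding hp n⟩, not_involves hp n⟩
  rintro ⟨H, ⟨e⟩⟩
  by_contra hcon
  apply not_involves hp n (by omega)
  have hbot : (⊥ : Subgroup (alternatingGroup (Fin n))).subgroupOf H = ⊥ :=
    Subgroup.bot_subgroupOf H
  have hN : ((⊥ : Subgroup (alternatingGroup (Fin n))).subgroupOf H).Normal := by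
    rw [hbot]
    infer_instance
  exact ⟨H, ⊥, hN, ⟨((QuotientGroup.quotientMulEquivOfEq hbot).trans
    QuotientGroup.quotientBot).trans e⟩⟩

end Cfsg.Agent.S3835
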