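import Cfsg.Statements.S3838
import Mathlib
import Cfsg.Agent.Lib.Helper64.Sylow
import Cfsg.Agent.Lib.Helper64.Index
import Cfsg.Agent.Lib.Helper34.PComplement

set_option autoImplicit false
open Cfsg

namespace Cfsg.Agent.S3838

open scoped commutatorElement

open Cfsg.Agent.Lib.Helper64.Sylow Cfsg.Agent.Lib.Helper64.Index
open Cfsg.Agent.Lib.Helper34.PComplement

/-- Core: `Q` normal in `X`, contained in a Sylow `p`-subgroup `S` as a set of nongenerators,
`S/Q` abelian and `N_X(S) = C_X(S) S`.  Then `X` has a normal `p`-complement. -/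
theorem core {X : Type*} [Group X] [Finite X] {p : ℕ} [Fact p.Prime] (S : Sylow p X)
    (Q : Subgroup X) [hQn : Q.Normal] (hQS : Q ≤ S)
    (hnong : ∀ T : Subgroup X, T ≤ S → (S : Subgroup X) ≤ T ⊔ Q → (S : Subgroup X) ≤ T)
    (hcomm : ∀ a ∈ (S : Subgroup X), ∀ b ∈ (S : Subgroup X), a * b * a⁻¹ * b⁻¹ ∈ Q)
    (hH : ∀ x ∈ Subgroup.normalizer ((S : Subgroup X) : Set X), ∃ k u : X, x = k * u ∧
      u ∈ (S : Subgroup X) ∧ ∀ y ∈ (S : Subgroup X), k * y = y * k) :
    Cfsg.HasNormalPComplement p X := by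
  classical
  have hp : p.Prime := Fact.out
  let π := QuotientGroup.mk' Q
  have hπ : Function.Surjective π := QuotientGroup.mk'_surjective Q
  let Sb : Sylow p (X ⧸ Q) := S.mapSurjective hπ
  have hSb : (Sb : Subgroup (X ⧸ Q)) = (S : Subgroup X).map π := rfl
  -- Step 1: N(Sb) ≤ C(Sb)
  have hNC : Subgroup.normalizer ((Sb : Subgroup (X ⧸ Q)) : Set (X ⧸ Q)) ≤
      Subgroup.centralizer ((Sb : Subgroup (X ⧸ Q)) : Set (X ⧸ Q)) := by
    intro xb hxb
    obtain ⟨x, rfl⟩ := hπ xb
    have hx : x ∈ Subgroup.normalizer ((S : Subgroup X) : Set X) := by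
      have h1 : x ∈ (Subgroup.normalizer (((S : Subgroup X).map π : Subgroup _) : Set _)).comap π :=
        hxb
      rw [Subgroup.comap_normalizer_eq_of_surjective _ hπ, Subgroup.comap_map_eq,
        QuotientGroup.ker_mk', sup_of_le_left hQS] at h1
      exact h1
    obtain ⟨k, u, rfl, hu, hk⟩ := hH x hx
    rw [Subgroup.mem_centralizer_iff]
    rintro _ ⟨y, hy, rfl⟩
    rw [← map_mul, ← map_mul]
    apply (QuotientGroup.eq).2
    have hky : y⁻¹ * k = k * y⁻¹ := (hk y⁻¹ (inv_mem hy)).symm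
    have e : (y * (k * u))⁻¹ * (k * u * y) = u⁻¹ * y⁻¹ * (u⁻¹)⁻¹ * (y⁻¹)⁻¹ := by
      calc (y * (k * u))⁻¹ * (k * u * y) = u⁻¹ * (k⁻¹ * (y⁻¹ * k)) * u * y := by group
        _ = u⁻¹ * (k⁻¹ * (k * y⁻¹)) * u * y := by rw [hky]
        _ = _ := by group
    rw [e]
    exact hcomm _ (inv_mem hu) _ (inv_mem hy)
  let τ := MonoidHom.transferSylow Sb hNC
  have hMbcard : ¬ p ∣ Nat.card τ.ker := MonoidHom.not_dvd_card_ker_transferSylow Sb hNC
  let M : Subgroup X := τ.ker.comap π
  have hMn : M.Normal := inferInstance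
  have hQM : Q ≤ M := by
    intro q hq
    show π q ∈ τ.ker
    have : π q = 1 := (QuotientGroup.eq_one_iff q).2 hq
    rw [this]; exact one_mem _
  have hM_of_coprime : ∀ g : X, (orderOf g).Coprime p → g ∈ M := by
    intro g hg
    show π g ∈ τ.ker
    rw [MonoidHom.mem_ker]
    obtain ⟨k, hk⟩ := Sb.2 (τ (π g))
    have h2 : orderOf (τ (π g)) ∣ p ^ k := orderOf_dvd_of_pow_eq_one hk
    have h3 : orderOf (τ (π g)) ∣ orderOf g :=
      (orderOf_map_dvd τ (π g)).trans (orderOf_map_dvd π g)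
    have h4 : (orderOf g).Coprime (p ^ k) := Nat.Coprime.pow_right k hg
    exact orderOf_eq_one_iff.mp (Nat.eq_one_of_dvd_coprimes h4 h3 h2)
  have hQ_of_pelem : ∀ g ∈ M, (∃ k : ℕ, g ^ p ^ k = 1) → g ∈ Q := by
    rintro g hg ⟨k, hk⟩
    rw [← QuotientGroup.eq_one_iff]
    have h1 : orderOf (⟨π g, hg⟩ : τ.ker) ∣ p ^ k := by
      apply orderOf_dvd_of_pow_eq_one
      apply Subtype.ext
      simp only [Subgroup.coe_pow, Subgroup.coe_one]
      rw [← map_pow, hk, map_one]
    have h2 : orderOf (⟨π g, hg⟩ : τ.ker) ∣ Nat.card τ.ker := orderOf_dvd_natCard _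
    have h3 : (Nat.card τ.ker).Coprime (p ^ k) :=
      Nat.Coprime.pow_right k ((Nat.Prime.coprime_iff_not_dvd hp).2 hMbcard).symm
    have h4 := Nat.eq_one_of_dvd_coprimes h3 h2 h1
    have := orderOf_eq_one_iff.1 h4
    exact congrArg Subtype.val this
  have hrel : ¬ p ∣ Q.relIndex M := by
    have : Q.relIndex M = Nat.card τ.ker := by
      have h1 := Subgroup.relIndex_ker M π
      rw [QuotientGroup.ker_mk'] at h1
      rw [h1, Subgroup.map_comap_eq_self_of_surjective hπ]
    rw [this]; exact hMbcard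
  -- Step 6: Sylow r-subgroups centralize Q
  have hcent : ∀ (r : ℕ) [Fact r.Prime], r ≠ p → ∀ R : Sylow r X,
      (R : Subgroup X) ≤ Subgroup.centralizer (Q : Set X) := by
    intro r hrfact hrp R
    have hRM : (R : Subgroup X) ≤ M := by
      intro g hg
      apply hM_of_coprime
      obtain ⟨k, hk⟩ := R.2 ⟨g, hg⟩
      have h1 : orderOf g ∣ r ^ k :=
        orderOf_dvd_of_pow_eq_one (by simpa using congrArg Subtype.val hk)
      have : (r ^ k).Coprime p := Nat.Coprime.pow_left k ((Nat.coprime_primes hrfact.out hp).2 hrp)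
      exact Nat.Coprime.coprime_dvd_left h1 this
    set L := Subgroup.normalizer ((R : Subgroup X) : Set X) with hL
    have hF : L ⊔ M = ⊤ := Sylow.normalizer_sup_eq_top' R hRM
    have hidx : ¬ p ∣ (L ⊔ Q).index := by
      have h3 : M ⊔ (L ⊔ Q) = ⊤ := by
        rw [eq_top_iff, ← hF]; exact sup_le (le_sup_left.trans le_sup_right) le_sup_left
      rw [index_eq_relIndex_of_sup_eq_top (L ⊔ Q) M h3]
      intro hd
      exact hrel (hd.trans (Subgroup.relIndex_dvd_of_le_left M (le_sup_right : Q ≤ L ⊔ Q)))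
    obtain ⟨x, hx⟩ := exists_le_map_conj_of_not_dvd_index S (L ⊔ Q) hidx
    let R₁ : Sylow r X := x • R
    have hS_le : (S : Subgroup X) ≤ Subgroup.normalizer ((R₁ : Subgroup X) : Set X) ⊔ Q := by
      intro s hs
      have h1 := hx hs
      rw [mem_map_conj] at h1
      obtain ⟨l, hl, q, hq, hlq⟩ := Subgroup.mem_sup_of_normal_right.1 h1
      have hs_eq : s = (x * l * x⁻¹) * (x * q * x⁻¹) := by
        have : l * q = x⁻¹ * s * x := hlq
        calc s = x * (x⁻¹ * s * x) * x⁻¹ := by group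
          _ = x * (l * q) * x⁻¹ := by rw [this]
          _ = _ := by group
      rw [hs_eq]
      apply Subgroup.mul_mem_sup
      · refine Sylow.smul_eq_iff_mem_normalizer.1 ?_
        have hlR : l • R = R := Sylow.smul_eq_iff_mem_normalizer.2 hl
        show (x * l * x⁻¹) • (x • R) = x • R
        rw [← mul_smul, show x * l * x⁻¹ * x = x * l by group, mul_smul, hlR]
      · exact hQn.conj_mem q hq x
    have hS_norm : (S : Subgroup X) ≤ Subgroup.normalizer ((R₁ : Subgroup X) : Set X) := by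
      have h1 := hnong ((S : Subgroup X) ⊓ Subgroup.normalizer ((R₁ : Subgroup X) : Set X))
        inf_le_left (by
          intro s hs
          obtain ⟨l, hl, q, hq, hlq⟩ := Subgroup.mem_sup_of_normal_right.1 (hS_le hs)
          have hlS : l ∈ (S : Subgroup X) := by
            have : l = s * q⁻¹ := by rw [← hlq]; group
            rw [this]; exact mul_mem hs (inv_mem (hQS hq))
          rw [← hlq]
          exact Subgroup.mul_mem_sup ⟨hlS, hl⟩ hq)
      exact h1.trans inf_le_right
    have hR₁ : (R₁ : Subgroup X) ≤ Subgroup.centralizer (Q : Set X) := by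
      intro ρ hρ
      rw [Subgroup.mem_centralizer_iff]
      intro q hq
      have h1 : q * ρ * q⁻¹ * ρ⁻¹ ∈ (R₁ : Subgroup X) := by
        have hqn := hS_norm (hQS hq)
        have := (Subgroup.mem_normalizer_iff.1 hqn ρ).1 hρ
        exact mul_mem this (inv_mem hρ)
      have h2 : q * ρ * q⁻¹ * ρ⁻¹ ∈ Q := by
        have : q * ρ * q⁻¹ * ρ⁻¹ = q * (ρ * q⁻¹ * ρ⁻¹) := by group
        rw [this]; exact mul_mem hq (hQn.conj_mem _ (inv_mem hq) ρ)
      have hdisj : Disjoint Q (R₁ : Subgroup X) :=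
        IsPGroup.disjoint_of_ne p r hrp.symm Q R₁ (S.2.to_le hQS) R₁.2
      have h3 : q * ρ * q⁻¹ * ρ⁻¹ = 1 := by
        have := (Subgroup.disjoint_def.1 hdisj) h2 h1
        exact this
      calc q * ρ = (q * ρ * q⁻¹ * ρ⁻¹) * ρ * q := by group
        _ = ρ * q := by rw [h3, one_mul]
    intro g hg
    rw [Subgroup.mem_centralizer_iff]
    intro q hq
    have hg1 : x * g * x⁻¹ ∈ (R₁ : Subgroup X) := by
      show x * g * x⁻¹ ∈ ((x • R : Sylow r X) : Subgroup X)
      rw [sylow_smul_coe, mem_map_conj]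
      have : x⁻¹ * (x * g * x⁻¹) * x = g := by group
      rw [this]; exact hg
    have hq1 : x * q * x⁻¹ ∈ Q := hQn.conj_mem q hq x
    have h5 := (Subgroup.mem_centralizer_iff.1 (hR₁ hg1)) _ hq1
    have e1 : q * g = x⁻¹ * ((x * q * x⁻¹) * (x * g * x⁻¹)) * x := by group
    have e2 : g * q = x⁻¹ * ((x * g * x⁻¹) * (x * q * x⁻¹)) * x := by group
    rw [e1, e2, h5]
  -- Step 7: the centralizer of Q has p-power index
  let C := Subgroup.centralizer (Q : Set X)
  have hCn : C.Normal := inferInstance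
  have hCidx : ∀ r : ℕ, r.Prime → r ∣ C.index → r = p := by
    intro r hr hd
    by_contra hrp
    have : Fact r.Prime := ⟨hr⟩
    obtain ⟨R⟩ : Nonempty (Sylow r X) := inferInstance
    exact R.not_dvd_index (hd.trans (Subgroup.index_dvd_of_le (hcent r hrp R)))
  have hC_of_coprime : ∀ g : X, (orderOf g).Coprime p → g ∈ C := by
    intro g hg
    rw [← QuotientGroup.eq_one_iff (N := C), ← orderOf_eq_one_iff]
    have h1 : orderOf (g : X ⧸ C) ∣ orderOf g := orderOf_map_dvd (QuotientGroup.mk' C) g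
    have h2 : orderOf (g : X ⧸ C) ∣ C.index := orderOf_dvd_natCard _
    have h3 : C.index = p ^ C.index.primeFactorsList.length :=
      Nat.eq_prime_pow_of_unique_prime_dvd (Subgroup.index_ne_zero_of_finite)
        (fun {d} hd hdd => hCidx d hd hdd)
    rw [h3] at h2
    exact Nat.eq_one_of_dvd_coprimes (Nat.Coprime.pow_right _ hg) h1 h2
  -- Step 9
  let C₀ := M ⊓ C
  obtain ⟨Z⟩ : Nonempty (Sylow p C₀) := inferInstance
  refine exists_normal_complement_of_central_sylow C₀
    (fun g hg => ⟨hM_of_coprime g hg, hC_of_coprime g hg⟩) Z ?_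
  intro z hz c
  have hzQ : ((z : C₀) : X) ∈ Q := by
    apply hQ_of_pelem _ z.2.1
    obtain ⟨k, hk⟩ := Z.2 ⟨z, hz⟩
    refine ⟨k, ?_⟩
    have := congrArg (fun w : (Z : Subgroup C₀) => ((w : C₀) : X)) hk
    simpa using this
  have hc : ((c : C₀) : X) ∈ C := c.2.2
  apply Subtype.ext
  have := (Subgroup.mem_centralizer_iff.1 hc) _ hzQ
  simpa using this

/-- Let G be a finite group with Sylow p-subgroup P such that N_G(P) has a normal p-complement. Then N_G(Q) has a normal p-complement for every subgroup Q with [P, P] ≤ Q ≤ Φ(P). -/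
theorem result {G : Type*} [Group G] [Finite G] {p : ℕ} [Fact p.Prime] (P : Sylow p G) (hN : Cfsg.HasNormalPComplement p ↥(Subgroup.normalizer ((P : Subgroup G) : Set G))) (Q : Subgroup G) (h1 : (commutator ↥(P : Subgroup G)).map (P : Subgroup G).subtype ≤ Q) (h2 : Q ≤ (frattini ↥(P : Subgroup G)).map (P : Subgroup G).subtype) : Cfsg.HasNormalPComplement p ↥(Subgroup.normalizer (Q : Set G)) := by
  classical
  set N := Subgroup.normalizer (Q : Set G) with hNdef
  have hQP : Q ≤ (P : Subgroup G) := h2.trans (Subgroup.map_subtype_le _)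
  have hcommP : ∀ a ∈ (P : Subgroup G), ∀ b ∈ (P : Subgroup G), a * b * a⁻¹ * b⁻¹ ∈ Q := by
    intro a ha b hb
    apply h1
    refine ⟨⁅(⟨a, ha⟩ : (P : Subgroup G)), ⟨b, hb⟩⁆, ?_, rfl⟩
    exact Subgroup.commutator_mem_commutator (Subgroup.mem_top _) (Subgroup.mem_top _)
  have hPN : (P : Subgroup G) ≤ N := by
    rw [hNdef, Subgroup.le_normalizer_iff]
    intro u hu q hq
    have := hcommP u hu q (hQP hq)
    have e : u * q * u⁻¹ = (u * q * u⁻¹ * q⁻¹) * q := by group
    rw [e]; exact mul_mem this hq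
  let S : Sylow p N := P.subtype hPN
  let Q' : Subgroup N := Q.subgroupOf N
  have hQ'n : Q'.Normal := Subgroup.normal_in_normalizer
  apply core S Q'
  · intro x hx
    exact hQP hx
  · intro T hTS hST
    let TP : Subgroup (P : Subgroup G) := (T.map N.subtype).subgroupOf (P : Subgroup G)
    have htop : TP ⊔ frattini ↥(P : Subgroup G) = ⊤ := by
      rw [eq_top_iff]
      rintro ⟨u, hu⟩ -
      have huS : (⟨u, hPN hu⟩ : N) ∈ (S : Subgroup N) := hu
      obtain ⟨t, ht, q, hq, htq⟩ := Subgroup.mem_sup_of_normal_right.1 (hST huS)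
      obtain ⟨q', hq', hq'q⟩ := h2 (Subgroup.mem_subgroupOf.1 hq)
      have htP : (t : G) ∈ (P : Subgroup G) := hTS ht
      have : (⟨u, hu⟩ : (P : Subgroup G)) = ⟨(t : G), htP⟩ * q' := by
        apply Subtype.ext
        have h3 := congrArg Subtype.val htq
        simp only [Subgroup.coe_mul] at h3 ⊢
        rw [← h3]
        congr 1
        exact hq'q.symm
      rw [this]
      exact Subgroup.mul_mem_sup (Subgroup.mem_subgroupOf.2 ⟨t, ht, rfl⟩) hq'
    have h3 := frattini_nongenerating htop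
    rw [Subgroup.subgroupOf_eq_top] at h3
    intro s hs
    obtain ⟨t, ht, hts⟩ := h3 (Subgroup.mem_subgroupOf.1 hs)
    have : t = s := Subtype.ext hts
    rw [← this]; exact ht
  · intro a ha b hb
    exact hcommP _ ha _ hb
  · intro x hx
    have hxP : (x : G) ∈ Subgroup.normalizer ((P : Subgroup G) : Set G) := by
      rw [Subgroup.mem_normalizer_iff]
      intro y
      constructor
      · intro hy
        exact (Subgroup.mem_normalizer_iff.1 hx ⟨y, hPN hy⟩).1 hy
      · intro hy
        have hyN : y ∈ N := by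
          have : y = (x : G)⁻¹ * ((x : G) * y * (x : G)⁻¹) * (x : G) := by group
          rw [this]; exact N.mul_mem (N.mul_mem (N.inv_mem x.2) (hPN hy)) x.2
        exact (Subgroup.mem_normalizer_iff.1 hx ⟨y, hyN⟩).2 hy
    obtain ⟨S₀, K₀, hK₀n, hK₀c⟩ := hN
    let SP : Sylow p (Subgroup.normalizer ((P : Subgroup G) : Set G)) :=
      P.subtype Subgroup.le_normalizer
    have hSPn : (SP : Subgroup (Subgroup.normalizer ((P : Subgroup G) : Set G))).Normal :=
      Subgroup.normal_in_normalizer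
    have hS₀ : S₀ = SP := by
      have := Sylow.unique_of_normal SP hSPn
      exact Subsingleton.elim _ _
    subst hS₀
    have hdisj : Disjoint K₀ (SP : Subgroup (Subgroup.normalizer ((P : Subgroup G) : Set G))) :=
      hK₀c.disjoint
    obtain ⟨⟨k₀, s₀⟩, hks, -⟩ := hK₀c.existsUnique
      (⟨(x : G), hxP⟩ : Subgroup.normalizer ((P : Subgroup G) : Set G))
    have hks' : ((k₀ : Subgroup.normalizer ((P : Subgroup G) : Set G)) : G) *
        ((s₀ : Subgroup.normalizer ((P : Subgroup G) : Set G)) : G) = (x : G) := by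
      have := congrArg (fun w : Subgroup.normalizer ((P : Subgroup G) : Set G) => (w : G)) hks
      simpa using this
    have hs₀P : ((s₀ : Subgroup.normalizer ((P : Subgroup G) : Set G)) : G) ∈ (P : Subgroup G) :=
      s₀.2
    have hk₀N : ((k₀ : Subgroup.normalizer ((P : Subgroup G) : Set G)) : G) ∈ N := by
      have : ((k₀ : Subgroup.normalizer ((P : Subgroup G) : Set G)) : G) = (x : G) *
          ((s₀ : Subgroup.normalizer ((P : Subgroup G) : Set G)) : G)⁻¹ := by
        rw [← hks']; group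
      rw [this]; exact N.mul_mem x.2 (N.inv_mem (hPN hs₀P))
    refine ⟨⟨_, hk₀N⟩, ⟨_, hPN hs₀P⟩, ?_, hs₀P, ?_⟩
    · apply Subtype.ext
      exact hks'.symm
    · intro y hy
      have hyNP : (y : G) ∈ Subgroup.normalizer ((P : Subgroup G) : Set G) :=
        Subgroup.le_normalizer hy
      have hc := Subgroup.commute_of_normal_of_disjoint K₀ _ hK₀n hSPn hdisj k₀
        ⟨(y : G), hyNP⟩ k₀.2 hy
      apply Subtype.ext
      have := congrArg (fun w : Subgroup.normalizer ((P : Subgroup G) : Set G) => (w : G)) hc.eq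
      simpa using this

end Cfsg.Agent.S3838
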