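import Cfsg.Statements.S3839
import Cfsg.Agent.S0071
import Cfsg.Agent.Lib.Helper2.PComp2
import Cfsg.Agent.Lib.Helper33.FamControl
import Cfsg.Agent.Lib.Helper64.Frattini
-- import your own Cfsg.Agent.* helpers here

set_option autoImplicit false
open Cfsg

namespace Cfsg.Agent.S3839

open Cfsg.Agent.Lib.Helper33.Conj Cfsg.Agent.Lib.Helper33.FamControl Cfsg.Agent.Lib.Helper64.Frattini

/-- `Good p T`: every `p'`-element of `N_G(T)` centralizes `T`. -/
def Good {G : Type*} [Group G] (p : ℕ) (T : Subgroup G) : Prop :=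
  ∀ a ∈ Subgroup.normalizer (T : Set G), (orderOf a).Coprime p → ∀ t ∈ T, a * t * a⁻¹ = t

/-- In a `p`-nilpotent normalizer `N_G(U)`, a `p'`-element normalizing a `p`-subgroup `T ≤ N_G(U)`
centralizes it. -/
theorem conj_eq_of_pnilpotent {G : Type*} [Group G] [Finite G] {p : ℕ} [Fact p.Prime]
    (U T : Subgroup G)
    (hU : Cfsg.HasNormalPComplement p ↥(Subgroup.normalizer (U : Set G)))
    (hT : IsPGroup p T) (hTU : T ≤ Subgroup.normalizer (U : Set G)) (a : G)
    (haU : a ∈ Subgroup.normalizer (U : Set G)) (haT : a ∈ Subgroup.normalizer (T : Set G))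
    (ha : (orderOf a).Coprime p) : ∀ t ∈ T, a * t * a⁻¹ = t := by
  obtain ⟨P, K, hKn, hKc⟩ := hU
  intro t ht
  have ha' : (⟨a, haU⟩ : Subgroup.normalizer (U : Set G)) ∈ K := by
    apply Cfsg.Agent.Lib.Helper2.PComp.mem_of_coprime_orderOf P K hKc
    rw [← Subgroup.orderOf_coe]
    exact ha
  have hc' : (⟨a, haU⟩ : Subgroup.normalizer (U : Set G)) *
      (⟨t, hTU ht⟩ * (⟨a, haU⟩)⁻¹ * (⟨t, hTU ht⟩)⁻¹) ∈ K :=
    K.mul_mem ha' (hKn.conj_mem _ (K.inv_mem ha') _)
  have hcop := Cfsg.Agent.Lib.Helper2.PComp.coprime_orderOf_of_mem P K hKc hc'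
  rw [← Subgroup.orderOf_coe] at hcop
  have hcG : (((⟨a, haU⟩ : Subgroup.normalizer (U : Set G)) *
      (⟨t, hTU ht⟩ * (⟨a, haU⟩)⁻¹ * (⟨t, hTU ht⟩)⁻¹) : Subgroup.normalizer (U : Set G)) : G) =
      a * (t * a⁻¹ * t⁻¹) := rfl
  rw [hcG] at hcop
  have hcT : a * (t * a⁻¹ * t⁻¹) ∈ T := by
    have h1 : a * t * a⁻¹ ∈ T := (Subgroup.mem_normalizer_iff.1 haT t).1 ht
    have h2 : a * (t * a⁻¹ * t⁻¹) = (a * t * a⁻¹) * t⁻¹ := by group
    rw [h2]
    exact T.mul_mem h1 (T.inv_mem ht)
  obtain ⟨k, hk⟩ := hT ⟨_, hcT⟩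
  have hk' : (a * (t * a⁻¹ * t⁻¹)) ^ (p ^ k) = 1 := by
    have := congrArg Subtype.val hk
    simpa using this
  have h3 : orderOf (a * (t * a⁻¹ * t⁻¹)) ∣ p ^ k := orderOf_dvd_of_pow_eq_one hk'
  have h4 : orderOf (a * (t * a⁻¹ * t⁻¹)) = 1 :=
    Nat.Coprime.eq_one_of_dvd (Nat.Coprime.pow_right k hcop) h3
  have h5 := orderOf_eq_one_iff.1 h4
  calc a * t * a⁻¹ = (a * (t * a⁻¹ * t⁻¹)) * t := by group
    _ = t := by rw [h5, one_mul]

/-- `Good` is invariant under conjugation. -/
theorem good_of_good_cj {G : Type*} [Group G] {p : ℕ} (T : Subgroup G) (k : G)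
    (h : Good p (T.map (MulAut.conj k).toMonoidHom)) : Good p T := by
  intro a haT ha t ht
  have h1 : k * a * k⁻¹ ∈ Subgroup.normalizer
      ((T.map (MulAut.conj k).toMonoidHom : Subgroup G) : Set G) := by
    rw [normalizer_cj]
    exact conj_mem_cj haT
  have h2 : orderOf (k * a * k⁻¹) = orderOf a := by
    have := orderOf_injective (MulAut.conj k).toMonoidHom (MulAut.conj k).injective a
    simpa [MulAut.conj_apply] using this
  have h3 := h _ h1 (h2 ▸ ha) (k * t * k⁻¹) (conj_mem_cj ht)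
  have h4 : k * (a * t * a⁻¹) * k⁻¹ = k * t * k⁻¹ := by
    rw [← h3]; group
  exact mul_left_cancel (mul_right_cancel h4)

section Main

variable {G : Type*} [Group G] [Finite G] {p : ℕ} [Fact p.Prime]

/-- conjugates inside `S` of subgroups of a strongly closed `D` stay in `D` -/
theorem cj_le_of_stronglyClosed (S : Sylow p G) (D : Subgroup G)
    (hD : Cfsg.IsStronglyClosed D (S : Subgroup G)) (A : Subgroup G) (k : G) (hA : A ≤ D)
    (hk : A.map (MulAut.conj k).toMonoidHom ≤ (S : Subgroup G)) :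
    A.map (MulAut.conj k).toMonoidHom ≤ D := by
  rintro y ⟨x, hx, rfl⟩
  have hy : (MulAut.conj k).toMonoidHom x ∈ (S : Subgroup G) := hk ⟨x, hx, rfl⟩
  have h1 : (MulAut.conj k).toMonoidHom x = k * x * k⁻¹ := by simp [MulAut.conj_apply]
  rw [h1] at hy ⊢
  exact hD.2 x (hA hx) k hy

/-- `N_G(T) ≤ N_G(T ∩ D)` for `T ≤ S`, `D` strongly closed. -/
theorem normalizer_le_normalizer_inf (S : Sylow p G) (D : Subgroup G)
    (hD : Cfsg.IsStronglyClosed D (S : Subgroup G)) (T : Subgroup G) (hTS : T ≤ (S : Subgroup G)) :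
    Subgroup.normalizer (T : Set G) ≤ Subgroup.normalizer ((T ⊓ D : Subgroup G) : Set G) := by
  intro y hy
  apply mem_normalizer_of_conj_mem
  intro x hx
  have h1 : y * x * y⁻¹ ∈ T := (Subgroup.mem_normalizer_iff.1 hy x).1 hx.1
  exact ⟨h1, hD.2 x hx.2 y (hTS h1)⟩

/-- Step A for fully normalized `U ≤ D`. -/
theorem good_le_fn (S : Sylow p G) (D : Subgroup G)
    (hD : Cfsg.IsStronglyClosed D (S : Subgroup G))
    (H : ∀ U : Subgroup G, U ≤ D → D ⊓ Subgroup.centralizer (U : Set G) ≤ U →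
      Cfsg.HasNormalPComplement p ↥(Subgroup.normalizer (U : Set G)))
    (U : Subgroup G) (hUD : U ≤ D)
    (hfn : ¬ p ∣ ((S : Subgroup G) ⊓ Subgroup.normalizer (U : Set G)).relIndex
      (Subgroup.normalizer (U : Set G))) : Good p U := by
  have hDS : D ≤ (S : Subgroup G) := hD.1
  have hUp : IsPGroup p U := S.2.to_le (hUD.trans hDS)
  intro a haN ha
  by_cases hcen : D ⊓ Subgroup.centralizer (U : Set G) ≤ U
  · exact conj_eq_of_pnilpotent U U (H U hUD hcen) hUp Subgroup.le_normalizer a haN haN ha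
  · have hRY : IsSylIn p ((S : Subgroup G) ⊓ Subgroup.normalizer (U : Set G))
        (Subgroup.normalizer (U : Set G)) := ⟨inf_le_right, S.2.to_le inf_le_left, hfn⟩
    have hWY : Subgroup.centralizer (U : Set G) ≤ Subgroup.normalizer (U : Set G) :=
      Subgroup.centralizer_le_normalizer _
    have hYW : Subgroup.normalizer (U : Set G) ≤
        Subgroup.normalizer ((Subgroup.centralizer (U : Set G) : Subgroup G) : Set G) := by
      intro y hy
      apply mem_normalizer_of_conj_mem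
      intro w hw
      rw [Subgroup.mem_centralizer_iff] at hw ⊢
      intro u hu
      have hu' : y⁻¹ * u * y ∈ U := by
        have := (Subgroup.mem_normalizer_iff.1 ((Subgroup.normalizer (U : Set G)).inv_mem hy) u).1 hu
        simpa using this
      have h1 := hw _ hu'
      calc u * (y * w * y⁻¹) = y * ((y⁻¹ * u * y) * w) * y⁻¹ := by group
        _ = y * (w * (y⁻¹ * u * y)) * y⁻¹ := by rw [h1]
        _ = y * w * y⁻¹ * u := by group
    have hRW := isSylIn_inf_of_normal hRY hWY hYW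
    have key : a ∈ Subgroup.centralizer (U : Set G) := by
      refine mem_of_coprime_of_frattini hRW hWY hYW ?_ a haN ha
      intro n hnY hnR hn
      have hE : n ∈ Subgroup.normalizer
          ((D ⊓ Subgroup.centralizer (U : Set G) : Subgroup G) : Set G) := by
        apply mem_normalizer_of_conj_mem
        intro x hx
        have hxR : x ∈ ((S : Subgroup G) ⊓ Subgroup.normalizer (U : Set G)) ⊓
            Subgroup.centralizer (U : Set G) := ⟨⟨hDS hx.1, hWY hx.2⟩, hx.2⟩
        have h1 := (Subgroup.mem_normalizer_iff.1 hnR x).1 hxR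
        exact ⟨hD.2 x hx.1 n h1.1.1, h1.2⟩
      have hU' := mem_normalizer_sup hnY hE
      have hU'D : U ⊔ (D ⊓ Subgroup.centralizer (U : Set G)) ≤ D := sup_le hUD inf_le_left
      have hcen' : D ⊓ Subgroup.centralizer
          ((U ⊔ (D ⊓ Subgroup.centralizer (U : Set G)) : Subgroup G) : Set G) ≤
          U ⊔ (D ⊓ Subgroup.centralizer (U : Set G)) := by
        intro x hx
        apply (le_sup_right : D ⊓ Subgroup.centralizer (U : Set G) ≤ _)
        refine ⟨hx.1, ?_⟩
        have hsub : (U : Set G) ⊆ ((U ⊔ (D ⊓ Subgroup.centralizer (U : Set G)) : Subgroup G) : Set G) :=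
          fun u hu => (le_sup_left : U ≤ U ⊔ (D ⊓ Subgroup.centralizer (U : Set G))) hu
        exact Subgroup.centralizer_le hsub hx.2
      have h2 := conj_eq_of_pnilpotent _ U (H _ hU'D hcen') hUp
        ((le_sup_left : U ≤ U ⊔ (D ⊓ Subgroup.centralizer (U : Set G))).trans
          Subgroup.le_normalizer) n hU' hnY hn
      rw [Subgroup.mem_centralizer_iff]
      intro u hu
      have h3 := h2 u hu
      calc u * n = (n * u * n⁻¹) * n := by rw [h3]
        _ = n * u := by group
    rw [Subgroup.mem_centralizer_iff] at key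
    intro u hu
    have h3 := key u hu
    calc a * u * a⁻¹ = (u * a) * a⁻¹ := by rw [h3]
      _ = u := by group

/-- Step A: every `U ≤ D` is good. -/
theorem good_le (S : Sylow p G) (D : Subgroup G)
    (hD : Cfsg.IsStronglyClosed D (S : Subgroup G))
    (H : ∀ U : Subgroup G, U ≤ D → D ⊓ Subgroup.centralizer (U : Set G) ≤ U →
      Cfsg.HasNormalPComplement p ↥(Subgroup.normalizer (U : Set G)))
    (U : Subgroup G) (hUD : U ≤ D) : Good p U := by
  obtain ⟨k, hk1, hk2, -⟩ := exists_fully_normalized_conj S (hUD.trans hD.1)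
  apply good_of_good_cj U k
  exact good_le_fn S D hD H _ (cj_le_of_stronglyClosed S D hD U k hUD hk1) hk2

/-- Step B for fully normalized `T ≤ S`, given the claim for subgroups with larger intersection
with `D`. -/
theorem good_fn_step (S : Sylow p G) (D : Subgroup G)
    (hD : Cfsg.IsStronglyClosed D (S : Subgroup G))
    (H : ∀ U : Subgroup G, U ≤ D → D ⊓ Subgroup.centralizer (U : Set G) ≤ U →
      Cfsg.HasNormalPComplement p ↥(Subgroup.normalizer (U : Set G)))
    (T : Subgroup G) (hTS : T ≤ (S : Subgroup G))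
    (hfn : ¬ p ∣ ((S : Subgroup G) ⊓ Subgroup.normalizer (T : Set G)).relIndex
      (Subgroup.normalizer (T : Set G)))
    (IH : ∀ T' : Subgroup G, T' ≤ (S : Subgroup G) →
      Nat.card ↥(T ⊓ D) < Nat.card ↥(T' ⊓ D) → Good p T') : Good p T := by
  have hDS : D ≤ (S : Subgroup G) := hD.1
  have hTp : IsPGroup p T := S.2.to_le hTS
  have hNU := normalizer_le_normalizer_inf S D hD T hTS
  intro a haN ha
  by_cases hcen : D ⊓ Subgroup.centralizer ((T ⊓ D : Subgroup G) : Set G) ≤ T ⊓ D
  · exact conj_eq_of_pnilpotent (T ⊓ D) T (H _ inf_le_right hcen) hTp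
      (Subgroup.le_normalizer.trans hNU) a (hNU haN) haN ha
  · have hDT : ¬ D ≤ T := by
      intro hDT
      apply hcen
      have h1 : T ⊓ D = D := inf_eq_right.2 hDT
      rw [h1]
      exact inf_le_left
    -- the subgroup W of elements of N(T) acting trivially on T/(T ∩ D)
    let W : Subgroup G :=
      { carrier := {y | y ∈ Subgroup.normalizer (T : Set G) ∧ ∀ t ∈ T, y * t * y⁻¹ * t⁻¹ ∈ T ⊓ D}
        mul_mem' := by
          rintro y₁ y₂ ⟨h1, h1'⟩ ⟨h2, h2'⟩
          refine ⟨mul_mem h1 h2, fun t ht => ?_⟩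
          have h3 : y₁ * (y₂ * t * y₂⁻¹ * t⁻¹) * y₁⁻¹ ∈ T ⊓ D :=
            (Subgroup.mem_normalizer_iff.1 (hNU h1) _).1 (h2' t ht)
          have h4 : y₁ * y₂ * t * (y₁ * y₂)⁻¹ * t⁻¹ =
              (y₁ * (y₂ * t * y₂⁻¹ * t⁻¹) * y₁⁻¹) * (y₁ * t * y₁⁻¹ * t⁻¹) := by group
          rw [h4]
          exact mul_mem h3 (h1' t ht)
        one_mem' := by
          refine ⟨one_mem _, fun t _ => ?_⟩
          simp
        inv_mem' := by
          rintro y ⟨h1, h1'⟩
          refine ⟨inv_mem h1, fun t ht => ?_⟩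
          have ht' : y⁻¹ * t * y ∈ T := by
            have := (Subgroup.mem_normalizer_iff.1 (inv_mem h1) t).1 ht
            simpa using this
          have h3 := h1' _ ht'
          have h4 : y⁻¹ * t * y⁻¹⁻¹ * t⁻¹ = (y * (y⁻¹ * t * y) * y⁻¹ * (y⁻¹ * t * y)⁻¹)⁻¹ := by
            group
          rw [h4]
          exact inv_mem h3 }
    have hWmem : ∀ y, y ∈ W ↔ y ∈ Subgroup.normalizer (T : Set G) ∧
        ∀ t ∈ T, y * t * y⁻¹ * t⁻¹ ∈ T ⊓ D := fun y => Iff.rfl
    have hWY : W ≤ Subgroup.normalizer (T : Set G) := fun y hy => hy.1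
    have hYW : Subgroup.normalizer (T : Set G) ≤ Subgroup.normalizer (W : Set G) := by
      intro y hy
      apply mem_normalizer_of_conj_mem
      intro w hw
      rw [hWmem] at hw ⊢
      refine ⟨mul_mem (mul_mem hy hw.1) (inv_mem hy), fun t ht => ?_⟩
      have ht' : y⁻¹ * t * y ∈ T := by
        have := (Subgroup.mem_normalizer_iff.1 (inv_mem hy) t).1 ht
        simpa using this
      have h3 := hw.2 _ ht'
      have h4 : y * (w * (y⁻¹ * t * y) * w⁻¹ * (y⁻¹ * t * y)⁻¹) * y⁻¹ ∈ T ⊓ D :=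
        (Subgroup.mem_normalizer_iff.1 (hNU hy) _).1 h3
      have h5 : y * w * y⁻¹ * t * (y * w * y⁻¹)⁻¹ * t⁻¹ =
          y * (w * (y⁻¹ * t * y) * w⁻¹ * (y⁻¹ * t * y)⁻¹) * y⁻¹ := by group
      rw [h5]
      exact h4
    have hRY : IsSylIn p ((S : Subgroup G) ⊓ Subgroup.normalizer (T : Set G))
        (Subgroup.normalizer (T : Set G)) := ⟨inf_le_right, S.2.to_le inf_le_left, hfn⟩
    have hRW := isSylIn_inf_of_normal hRY hWY hYW
    -- normalizer growth
    obtain ⟨d, hdD, hdT, hdn⟩ := exists_normalizing_not_mem (S : Subgroup G) T D S.2 hTS hDS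
      (fun s hs d hd => hD.2 d hd s ((S : Subgroup G).mul_mem ((S : Subgroup G).mul_mem hs (hDS hd))
        ((S : Subgroup G).inv_mem hs))) hDT
    have hdN : d ∈ Subgroup.normalizer (T : Set G) := mem_normalizer_of_conj_mem hdn
    have hD₀W : D ⊓ Subgroup.normalizer (T : Set G) ≤ W := by
      intro x hx
      rw [hWmem]
      refine ⟨hx.2, fun t ht => ⟨?_, ?_⟩⟩
      · exact T.mul_mem ((Subgroup.mem_normalizer_iff.1 hx.2 t).1 ht) (T.inv_mem ht)
      · have h1 : t * x⁻¹ * t⁻¹ ∈ D := hD.2 x⁻¹ (D.inv_mem hx.1) t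
          ((S : Subgroup G).mul_mem ((S : Subgroup G).mul_mem (hTS ht)
            ((S : Subgroup G).inv_mem (hDS hx.1))) ((S : Subgroup G).inv_mem (hTS ht)))
        have h2 : x * t * x⁻¹ * t⁻¹ = x * (t * x⁻¹ * t⁻¹) := by group
        rw [h2]
        exact mul_mem hx.1 h1
    have hT'S : T ⊔ (D ⊓ Subgroup.normalizer (T : Set G)) ≤ (S : Subgroup G) :=
      sup_le hTS (inf_le_left.trans hDS)
    have hlt : Nat.card ↥(T ⊓ D) <
        Nat.card ↥((T ⊔ (D ⊓ Subgroup.normalizer (T : Set G))) ⊓ D) := by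
      have hle : T ⊓ D ≤ (T ⊔ (D ⊓ Subgroup.normalizer (T : Set G))) ⊓ D :=
        inf_le_inf_right D le_sup_left
      by_contra hnot
      push Not at hnot
      have heq := Subgroup.eq_of_le_of_card_ge hle hnot
      have hdmem : d ∈ (T ⊔ (D ⊓ Subgroup.normalizer (T : Set G))) ⊓ D :=
        ⟨(le_sup_right : D ⊓ Subgroup.normalizer (T : Set G) ≤ _) ⟨hdD, hdN⟩, hdD⟩
      rw [← heq] at hdmem
      exact hdT hdmem.1
    have hgood' := IH _ hT'S hlt
    have key : a ∈ W := by
      refine mem_of_coprime_of_frattini hRW hWY hYW ?_ a haN ha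
      intro n hnY hnR hn
      have hnD₀ : n ∈ Subgroup.normalizer
          ((D ⊓ Subgroup.normalizer (T : Set G) : Subgroup G) : Set G) := by
        apply mem_normalizer_of_conj_mem
        intro x hx
        have hxR : x ∈ ((S : Subgroup G) ⊓ Subgroup.normalizer (T : Set G)) ⊓ W :=
          ⟨⟨hDS hx.1, hx.2⟩, hD₀W hx⟩
        have h1 := (Subgroup.mem_normalizer_iff.1 hnR x).1 hxR
        exact ⟨hD.2 x hx.1 n h1.1.1, h1.1.2⟩
      have hnT' := mem_normalizer_sup hnY hnD₀
      have h2 := hgood' n hnT' hn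
      rw [hWmem]
      refine ⟨hnY, fun t ht => ?_⟩
      rw [h2 t ((le_sup_left : T ≤ _) ht), mul_inv_cancel]
      exact one_mem _
    have hU := good_le S D hD H (T ⊓ D) inf_le_right a (hNU haN) ha
    exact conj_eq_of_stable hTp inf_le_left a ha hU ((hWmem a).1 key).2

/-- Step B: every `T ≤ S` is good. -/
theorem good_all (S : Sylow p G) (D : Subgroup G)
    (hD : Cfsg.IsStronglyClosed D (S : Subgroup G))
    (H : ∀ U : Subgroup G, U ≤ D → D ⊓ Subgroup.centralizer (U : Set G) ≤ U →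
      Cfsg.HasNormalPComplement p ↥(Subgroup.normalizer (U : Set G))) :
    ∀ (m : ℕ) (T : Subgroup G), T ≤ (S : Subgroup G) →
      Nat.card D - Nat.card ↥(T ⊓ D) = m → Good p T := by
  intro m
  induction m using Nat.strong_induction_on with
  | _ m ih =>
    intro T hTS hm
    obtain ⟨k, hk1, hk2, -⟩ := exists_fully_normalized_conj S hTS
    apply good_of_good_cj T k
    have hcard : Nat.card ↥(T.map (MulAut.conj k).toMonoidHom ⊓ D) = Nat.card ↥(T ⊓ D) := by
      apply le_antisymm
      · have h1 : (T.map (MulAut.conj k).toMonoidHom ⊓ D).map (MulAut.conj k⁻¹).toMonoidHom ≤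
            T ⊓ D := by
          intro y hy
          rw [mem_cj, inv_inv] at hy
          have hyT : y ∈ T := by
            have := mem_cj.1 hy.1
            have h2 : k⁻¹ * (k * y * k⁻¹) * k = y := by group
            rwa [h2] at this
          refine ⟨hyT, ?_⟩
          have := hD.2 _ hy.2 k⁻¹ (by
            have h2 : k⁻¹ * (k * y * k⁻¹) * k⁻¹⁻¹ = y := by group
            rw [h2]; exact hTS hyT)
          have h2 : k⁻¹ * (k * y * k⁻¹) * k⁻¹⁻¹ = y := by group
          rwa [h2] at this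
        calc Nat.card ↥(T.map (MulAut.conj k).toMonoidHom ⊓ D)
            = Nat.card ↥((T.map (MulAut.conj k).toMonoidHom ⊓ D).map
                (MulAut.conj k⁻¹).toMonoidHom) := (card_cj _ _).symm
          _ ≤ Nat.card ↥(T ⊓ D) := Subgroup.card_le_of_le h1
      · have h1 : (T ⊓ D).map (MulAut.conj k).toMonoidHom ≤
            T.map (MulAut.conj k).toMonoidHom ⊓ D :=
          le_inf (cj_mono inf_le_left)
            (cj_le_of_stronglyClosed S D hD (T ⊓ D) k inf_le_right
              ((cj_mono inf_le_left).trans hk1))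
        calc Nat.card ↥(T ⊓ D) = Nat.card ↥((T ⊓ D).map (MulAut.conj k).toMonoidHom) :=
              (card_cj _ _).symm
          _ ≤ _ := Subgroup.card_le_of_le h1
    apply good_fn_step S D hD H _ hk1 hk2
    intro T' hT'S hlt
    have hle : Nat.card ↥(T' ⊓ D) ≤ Nat.card D := Subgroup.card_le_of_le inf_le_right
    exact ih (Nat.card D - Nat.card ↥(T' ⊓ D)) (by rw [hcard] at hlt; omega) T' hT'S rfl

end Main

/-- A Frobenius normal p-complement criterion relative to a strongly closed subgroup. Let G be a finite group, S a Sylow p-subgroup and D a subgroup of S strongly closed in S with respect to G. Then G has a normal p-complement if and only if N_G(U) has a normal p-complement for every subgroup U of D with C_D(U) ≤ U. -/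
theorem result {G : Type*} [Group G] [Finite G] {p : ℕ} [Fact p.Prime] (S : Sylow p G) (D : Subgroup G) (hD : Cfsg.IsStronglyClosed D (S : Subgroup G)) : Cfsg.HasNormalPComplement p G ↔ ∀ U : Subgroup G, U ≤ D → D ⊓ Subgroup.centralizer (U : Set G) ≤ U → Cfsg.HasNormalPComplement p ↥(Subgroup.normalizer (U : Set G)) := by
  constructor
  · intro h U _ _
    exact Cfsg.Agent.Lib.Helper2.PComp2.hasNormalPComplement_subgroup _ h
  · intro H
    obtain ⟨N, hN, hc⟩ := (Cfsg.Agent.S0071.result S).2 (by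
      intro Q hQ g hg hcop
      have key := good_all S D hD H _ Q hQ rfl g hg hcop
      rw [Subgroup.mem_centralizer_iff]
      intro u hu
      have h3 := key u hu
      calc u * g = (g * u * g⁻¹) * g := by rw [h3]
        _ = g * u := by group)
    exact ⟨S, N, hN, hc⟩

end Cfsg.Agent.S3839
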