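import Cfsg.Statements.S3858
import Mathlib
import Cfsg.Agent.Lib.Helper64.Sylow

set_option autoImplicit false
open Cfsg

namespace Cfsg.Agent.S3858

open Cfsg.Agent.Lib.Helper64.Sylow

/-- Let G be a finite group with a normal non-abelian simple subgroup T whose centralizer is trivial (G almost simple with socle T), r a prime and R a Sylow r-subgroup of G meeting T nontrivially. Then R lies in exactly one maximal subgroup of G if and only if G has exactly one conjugacy class of maximal subgroups whose index is prime to r. -/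
theorem result {G : Type*} [Group G] [Finite G] (T : Subgroup G) [T.Normal] (hT : IsSimpleGroup T) (hna : ¬ IsMulCommutative T)
    (hC : Subgroup.centralizer (T : Set G) = ⊥) {r : ℕ} [Fact r.Prime] (R : Sylow r G) (hR0 : (R : Subgroup G) ⊓ T ≠ ⊥) :
    (∃! M : Subgroup G, IsCoatom M ∧ (R : Subgroup G) ≤ M) ↔
      ((∃ M : Subgroup G, IsCoatom M ∧ ¬ r ∣ M.index) ∧
        ∀ M₁ M₂ : Subgroup G, IsCoatom M₁ → ¬ r ∣ M₁.index → IsCoatom M₂ → ¬ r ∣ M₂.index → ∃ g : G, M₂ = M₁.map (MulAut.conj g).toMonoidHom) := by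
  have F3 : ∀ M : Subgroup G, (R : Subgroup G) ≤ M → ¬ r ∣ M.index :=
    fun M h hd => R.not_dvd_index (hd.trans (Subgroup.index_dvd_of_le h))
  constructor
  · rintro ⟨M, ⟨hM, hRM⟩, hMu⟩
    refine ⟨⟨M, hM, F3 M hRM⟩, ?_⟩
    intro M₁ M₂ h1 h1' h2 h2'
    obtain ⟨g₁, hg₁⟩ := exists_le_map_conj_of_not_dvd_index R M₁ h1'
    obtain ⟨g₂, hg₂⟩ := exists_le_map_conj_of_not_dvd_index R M₂ h2'
    have e1 : M₁.map (MulAut.conj g₁).toMonoidHom = M :=
      hMu _ ⟨(isCoatom_map_conj g₁).2 h1, hg₁⟩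
    have e2 : M₂.map (MulAut.conj g₂).toMonoidHom = M :=
      hMu _ ⟨(isCoatom_map_conj g₂).2 h2, hg₂⟩
    refine ⟨g₂⁻¹ * g₁, ?_⟩
    rw [← map_conj_map_conj, e1, ← e2, map_conj_map_conj, inv_mul_cancel, map_conj_one]
  · rintro ⟨⟨M₀, hM₀, hM₀'⟩, hconj⟩
    obtain ⟨g, hg⟩ := exists_le_map_conj_of_not_dvd_index R M₀ hM₀'
    set M := M₀.map (MulAut.conj g).toMonoidHom with hMdef
    have hM : IsCoatom M := (isCoatom_map_conj g).2 hM₀
    have A : ∀ M' : Subgroup G, IsCoatom M' → (R : Subgroup G) ≤ M' →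
        ∃ n ∈ Subgroup.normalizer ((R : Subgroup G) : Set G),
          M' = M.map (MulAut.conj n).toMonoidHom := by
      intro M' hM' hRM'
      obtain ⟨h, hh⟩ := hconj M M' hM (F3 M hg) hM' (F3 M' hRM')
      have h1 : ((h • R : Sylow r G) : Subgroup G) ≤ M' := by
        rw [sylow_smul_coe, hh]; exact Subgroup.map_mono hg
      obtain ⟨m, hm, hmR⟩ := exists_mem_smul_eq_of_le (h • R) R M' h1 hRM'
      refine ⟨m * h, ?_, ?_⟩
      · refine Sylow.smul_eq_iff_mem_normalizer.1 ?_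
        rw [mul_smul]; exact hmR
      · rw [← map_conj_map_conj, ← hh, map_conj_eq_self_of_mem hm]
    have hRn : ¬ (R : Subgroup G).Normal :=
      not_normal_of_isPGroup_of_inf_simple_ne_bot T hT hna R R.2 hR0
    have hNne : Subgroup.normalizer ((R : Subgroup G) : Set G) ≠ ⊤ :=
      fun h => hRn (Subgroup.normalizer_eq_top_iff.1 h)
    obtain ⟨M'', hM'', hle''⟩ := exists_coatom_ge _ hNne
    obtain ⟨n'', hn'', e''⟩ := A M'' hM'' (Subgroup.le_normalizer.trans hle'')
    have hMM'' : M'' = M := by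
      have h1 : M''.map (MulAut.conj n''⁻¹).toMonoidHom = M := by
        rw [e'', map_conj_map_conj, inv_mul_cancel, map_conj_one]
      rw [← h1]
      exact (map_conj_eq_self_of_mem (M''.inv_mem (hle'' hn''))).symm
    refine ⟨M, ⟨hM, hg⟩, ?_⟩
    rintro M' ⟨hM', hRM'⟩
    obtain ⟨n, hn, e⟩ := A M' hM' hRM'
    rw [e]
    exact map_conj_eq_self_of_mem (hMM'' ▸ hle'' hn)

end Cfsg.Agent.S3858
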