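import Cfsg.Statements.S3859
import Mathlib
import Cfsg.Agent.Lib.Helper64.Sylow

set_option autoImplicit false
open Cfsg

namespace Cfsg.Agent.S3859

open Cfsg.Agent.Lib.Helper64.Sylow

/-- Let G be a finite group with a normal non-abelian simple subgroup T whose centralizer is trivial (G almost simple with socle T), r a prime and R a Sylow r-subgroup of G meeting T nontrivially. If R lies in exactly one maximal subgroup of G, then G/T is an r-group. -/
theorem result {G : Type*} [Group G] [Finite G] (T : Subgroup G) [T.Normal] (hT : IsSimpleGroup T) (hna : ¬ IsMulCommutative T)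
    (hC : Subgroup.centralizer (T : Set G) = ⊥) {r : ℕ} [Fact r.Prime] (R : Sylow r G) (hR0 : (R : Subgroup G) ⊓ T ≠ ⊥)
    (huniq : ∃! M : Subgroup G, IsCoatom M ∧ (R : Subgroup G) ≤ M) : IsPGroup r (G ⧸ T) := by
  obtain ⟨M, ⟨hM, hRM⟩, hMu⟩ := huniq
  have key : (R : Subgroup G) ⊔ T = ⊤ := by
    by_contra hne
    obtain ⟨M', hM', hle⟩ := exists_coatom_ge _ hne
    have hM'eq : M' = M := hMu M' ⟨hM', le_sup_left.trans hle⟩
    have hTM : T ≤ M := hM'eq ▸ (le_sup_right.trans hle)
    set Q : Subgroup G := (R : Subgroup G) ⊓ T with hQ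
    have hQp : IsPGroup r Q := R.2.to_le inf_le_left
    have hQn : ¬ Q.Normal :=
      not_normal_of_isPGroup_of_inf_simple_ne_bot T hT hna Q hQp
        (by rw [hQ, inf_assoc, inf_idem]; exact hR0)
    have hNne : Subgroup.normalizer (Q : Set G) ≠ ⊤ :=
      fun h => hQn (Subgroup.normalizer_eq_top_iff.1 h)
    obtain ⟨M'', hM'', hle''⟩ := exists_coatom_ge _ hNne
    have hRN : (R : Subgroup G) ≤ Subgroup.normalizer (Q : Set G) := by
      rw [Subgroup.le_normalizer_iff]
      intro h hh k hk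
      exact ⟨(R : Subgroup G).mul_mem ((R : Subgroup G).mul_mem hh hk.1)
        ((R : Subgroup G).inv_mem hh), ‹T.Normal›.conj_mem k hk.2 h⟩
    have hM''eq : M'' = M := hMu M'' ⟨hM'', hRN.trans hle''⟩
    obtain ⟨Q', hQ'⟩ := exists_sylow_subgroupOf_normal R T
    have hF := Sylow.normalizer_sup_eq_top Q'
    have hmap : (Q' : Subgroup T).map T.subtype = Q := by
      rw [hQ', Subgroup.subgroupOf_map_subtype]
    rw [hmap] at hF
    have : (⊤ : Subgroup G) ≤ M := by
      rw [← hF]
      exact sup_le (hM''eq ▸ hle'') hTM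
    exact hM.1 (top_le_iff.1 this)
  intro x
  induction x using QuotientGroup.induction_on with
  | H g =>
    have hg : g ∈ (R : Subgroup G) ⊔ T := by rw [key]; exact Subgroup.mem_top g
    obtain ⟨ρ, hρ, τ, hτ, rfl⟩ := Subgroup.mem_sup_of_normal_right.1 hg
    obtain ⟨k, hk⟩ := R.2 ⟨ρ, hρ⟩
    refine ⟨k, ?_⟩
    have h1 : ((ρ * τ : G) : G ⧸ T) = (ρ : G ⧸ T) := by
      rw [QuotientGroup.eq]
      have : (ρ * τ)⁻¹ * ρ = τ⁻¹ := by group
      rw [this]; exact T.inv_mem hτ
    rw [h1, ← QuotientGroup.mk_pow]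
    have : ρ ^ r ^ k = 1 := by simpa using congrArg Subtype.val hk
    rw [this]; rfl

end Cfsg.Agent.S3859
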