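import Cfsg.Statements.S3863
import Mathlib

set_option autoImplicit false
open Cfsg

namespace Cfsg.Agent.S3863

/-- a fixed-point-free involution on a finite type forces even cardinality -/
theorem even_card_of_fpf_involution {α : Type*} [Finite α] (f : α → α)
    (hf : ∀ a, f (f a) = a) (hfix : ∀ a, f a ≠ a) : Even (Nat.card α) := by
  classical
  have := Fintype.ofFinite α
  have : Fact (Nat.Prime 2) := ⟨Nat.prime_two⟩
  let F : Function.End α := f
  have hF : F ^ 2 ^ 1 = 1 := by
    rw [pow_one, pow_two]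
    exact funext hf
  have h := Equiv.Perm.card_fixedPoints_modEq (α := α) (f := F) (p := 2) (n := 1) hF
  have h0 : Fintype.card (Function.fixedPoints F) = 0 := by
    rw [Fintype.card_eq_zero_iff]
    exact ⟨fun a => hfix a.1 a.2⟩
  rw [h0] at h
  rw [Nat.card_eq_fintype_card]
  exact (Nat.even_iff).2 h

/-- Let x be an element of the finite group G that is conjugate to its inverse. Then some 2-element conjugates x to its inverse; if the conjugacy class of x has odd size then x ^ 2 = 1; and x lies in, and is conjugate to its inverse inside, every normal subgroup of odd index. -/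
theorem result {G : Type*} [Group G] [Finite G] (x : G) (hx : IsConj x x⁻¹) : (∃ t : G, (∃ j : ℕ, orderOf t = 2 ^ j) ∧ t * x * t⁻¹ = x⁻¹) ∧ (Odd (Subgroup.centralizer ({x} : Set G)).index → x ^ 2 = 1) ∧ ∀ (N : Subgroup G) [N.Normal], Odd N.index → ∃ hxN : x ∈ N, IsConj (⟨x, hxN⟩ : N) (⟨x, hxN⟩ : N)⁻¹ := by
  -- Step 1: a 2-element inverting x
  have h1 : ∃ t : G, (∃ j : ℕ, orderOf t = 2 ^ j) ∧ t * x * t⁻¹ = x⁻¹ := by
    obtain ⟨g, hg⟩ := isConj_iff.1 hx
    have hn : orderOf g ≠ 0 := (orderOf_pos g).ne'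
    obtain ⟨k, m, hm, hkm⟩ := Nat.exists_eq_two_pow_mul_odd hn
    refine ⟨g ^ m, ⟨k, ?_⟩, ?_⟩
    · have hdvd : 2 ^ k ∣ orderOf g := ⟨m, hkm⟩
      have := orderOf_pow_orderOf_div hn hdvd
      have hdiv : orderOf g / 2 ^ k = m := by
        rw [hkm]; exact Nat.mul_div_cancel_left m (by positivity)
      rw [hdiv] at this
      exact this
    · have hc : Commute (g ^ 2) x := by
        have : g ^ 2 * x * (g ^ 2)⁻¹ = x := by
          have e : g ^ 2 * x * (g ^ 2)⁻¹ = g * (g * x * g⁻¹) * g⁻¹ := by
            rw [pow_two]; group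
          rw [e, hg]
          have e2 : g * x⁻¹ * g⁻¹ = (g * x * g⁻¹)⁻¹ := by group
          rw [e2, hg, inv_inv]
        exact mul_inv_eq_iff_eq_mul.1 this
      obtain ⟨i, rfl⟩ := hm
      have hc' : Commute ((g ^ 2) ^ i) x := hc.pow_left i
      have e : g ^ (2 * i + 1) * x * (g ^ (2 * i + 1))⁻¹
          = (g ^ 2) ^ i * (g * x * g⁻¹) * ((g ^ 2) ^ i)⁻¹ := by
        rw [pow_succ, pow_mul]; group
      rw [e, hg]
      have hc'' : Commute ((g ^ 2) ^ i) x⁻¹ := hc'.inv_right
      rw [hc''.eq]; group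
  obtain ⟨t, ⟨j, hj⟩, ht⟩ := h1
  refine ⟨⟨t, ⟨j, hj⟩, ht⟩, ?_, ?_⟩
  · -- Step 2
    intro hodd
    set C := Subgroup.centralizer ({x} : Set G) with hC
    have memC : ∀ g : G, g ∈ C ↔ g * x = x * g := by
      intro g
      rw [hC, Subgroup.mem_centralizer_iff]
      constructor
      · intro h; exact (h x rfl).symm
      · intro h y hy
        rw [Set.mem_singleton_iff] at hy; subst hy; exact h.symm
    by_contra hx2
    have htC : t ∉ C := by
      intro h
      rw [memC] at h
      apply hx2
      have : x = x⁻¹ := by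
        rw [← ht, h]; group
      calc x ^ 2 = x * x := pow_two x
        _ = x * x⁻¹ := by rw [← this]
        _ = 1 := mul_inv_cancel x
    have ht2C : t ^ 2 ∈ C := by
      rw [memC]
      have : t ^ 2 * x * (t ^ 2)⁻¹ = x := by
        have e : t ^ 2 * x * (t ^ 2)⁻¹ = t * (t * x * t⁻¹) * t⁻¹ := by
          rw [pow_two]; group
        rw [e, ht]
        have e2 : t * x⁻¹ * t⁻¹ = (t * x * t⁻¹)⁻¹ := by group
        rw [e2, ht, inv_inv]
      exact mul_inv_eq_iff_eq_mul.1 this
    have hnorm : ∀ c ∈ C, t⁻¹ * c * t ∈ C := by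
      intro c hc
      rw [memC] at hc ⊢
      have hxi : t⁻¹ * x⁻¹ * t = x := by
        rw [← ht]; group
      have hxi' : t⁻¹ * x * t = x⁻¹ := by
        have : t⁻¹ * x * t = (t⁻¹ * x⁻¹ * t)⁻¹ := by group
        rw [this, hxi]
      -- t⁻¹ c t commutes with x iff c commutes with t x t⁻¹ = x⁻¹
      have hc' : c * x⁻¹ = x⁻¹ * c := by
        calc c * x⁻¹ = x⁻¹ * (x * c) * x⁻¹ := by group
          _ = x⁻¹ * (c * x) * x⁻¹ := by rw [hc]
          _ = x⁻¹ * c := by group
      calc t⁻¹ * c * t * x = t⁻¹ * (c * (t * x * t⁻¹)) * t := by group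
        _ = t⁻¹ * (c * x⁻¹) * t := by rw [ht]
        _ = t⁻¹ * (x⁻¹ * c) * t := by rw [hc']
        _ = t⁻¹ * ((t * x * t⁻¹) * c) * t := by rw [ht]
        _ = x * (t⁻¹ * c * t) := by group
    let f : G ⧸ C → G ⧸ C := Quotient.map' (fun g => g * t) (by
      intro a b hab
      rw [QuotientGroup.leftRel_apply] at hab ⊢
      have e : (a * t)⁻¹ * (b * t) = t⁻¹ * (a⁻¹ * b) * t := by group
      rw [e]
      exact hnorm _ hab)
    have hfmk : ∀ g : G, f (QuotientGroup.mk g) = QuotientGroup.mk (g * t) := fun g => rfl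
    have hev : Even (Nat.card (G ⧸ C)) := by
      apply even_card_of_fpf_involution f
      · intro a
        induction a using QuotientGroup.induction_on with
        | H g =>
          rw [hfmk, hfmk]
          apply QuotientGroup.eq.2
          have e : (g * t * t)⁻¹ * g = (t ^ 2)⁻¹ := by group
          rw [e]
          exact C.inv_mem ht2C
      · intro a
        induction a using QuotientGroup.induction_on with
        | H g =>
          rw [hfmk]
          intro h
          have h' := QuotientGroup.eq.1 h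
          have e : (g * t)⁻¹ * g = t⁻¹ := by group
          rw [e] at h'
          exact htC (by simpa using C.inv_mem h')
    have : C.index = Nat.card (G ⧸ C) := rfl
    rw [this] at hodd
    exact (Nat.not_even_iff_odd.2 hodd) hev
  · -- Step 3
    intro N hN hodd
    have hcop : Nat.Coprime 2 N.index := Nat.coprime_two_left.2 hodd
    have key : ∀ (y : G) (k : ℕ), y ^ (2 ^ k) ∈ N → y ∈ N := by
      intro y k hy
      have h1 : orderOf (QuotientGroup.mk' N y) ∣ 2 ^ k := by
        apply orderOf_dvd_of_pow_eq_one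
        rw [← map_pow]
        exact (QuotientGroup.eq_one_iff _).2 hy
      have h2 : orderOf (QuotientGroup.mk' N y) ∣ N.index := by
        have := orderOf_dvd_natCard (QuotientGroup.mk' N y)
        exact this
      have h3 : orderOf (QuotientGroup.mk' N y) ∣ Nat.gcd (2 ^ k) N.index := Nat.dvd_gcd h1 h2
      have h4 : Nat.gcd (2 ^ k) N.index = 1 := Nat.Coprime.pow_left k hcop
      rw [h4, Nat.dvd_one, orderOf_eq_one_iff] at h3
      exact (QuotientGroup.eq_one_iff _).1 h3
    have htN : t ∈ N := by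
      apply key t j
      rw [← hj, pow_orderOf_eq_one]; exact N.one_mem
    have hxN : x ∈ N := by
      apply key x 1
      have e : x ^ 2 ^ 1 = ((t * x * t⁻¹) * x⁻¹)⁻¹ := by
        rw [ht]; group
      rw [e]
      apply N.inv_mem
      have e2 : t * x * t⁻¹ * x⁻¹ = t * (x * t⁻¹ * x⁻¹) := by group
      rw [e2]
      exact N.mul_mem htN (hN.conj_mem _ (N.inv_mem htN) x)
    refine ⟨hxN, ?_⟩
    rw [isConj_iff]
    refine ⟨⟨t, htN⟩, ?_⟩
    apply Subtype.ext
    simp only [Subgroup.coe_mul, Subgroup.coe_inv]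
    exact ht

end Cfsg.Agent.S3863
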