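import Cfsg.Statements.S3861
import Mathlib
import Cfsg.Agent.Lib.Helper67.RealOdd
import Cfsg.Agent.S3863

set_option autoImplicit false
open Cfsg

namespace Cfsg.Agent.S3861

/-- A finite group G has no non-identity element of odd order that is conjugate to its inverse if and only if the Sylow 2-subgroups of G are normal. -/
theorem result {G : Type*} [Group G] [Finite G] (P : Sylow 2 G) : (∀ x : G, x ≠ 1 → Odd (orderOf x) → ¬ IsConj x x⁻¹) ↔ (P : Subgroup G).Normal := by
  constructor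
  · intro h
    apply Cfsg.Agent.Lib.Helper67.RealOdd.sylow_two_normal
    intro y g hodd hg
    by_contra hy
    exact h y hy hodd (isConj_iff.2 ⟨g, hg⟩)
  · intro hPn x hx hodd hconj
    obtain ⟨⟨t, ⟨j, hj⟩, ht⟩, -, -⟩ := Cfsg.Agent.S3863.result x hconj
    -- t ∈ P
    have htP : t ∈ (P : Subgroup G) := by
      have h1 : IsPGroup 2 (Subgroup.zpowers t) := by
        rw [IsPGroup.iff_card, Nat.card_zpowers]
        exact ⟨j, hj⟩
      obtain ⟨P', hP'⟩ := h1.exists_le_sylow
      have := Sylow.unique_of_normal P hPn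
      have hPP' : P' = P := Subsingleton.elim _ _
      rw [← hPP']
      exact hP' (Subgroup.mem_zpowers t)
    have hx2P : x ^ 2 ∈ (P : Subgroup G) := by
      have e : x ^ 2 = ((t * x * t⁻¹) * x⁻¹)⁻¹ := by
        rw [ht, pow_two]; simp
      rw [e]
      apply Subgroup.inv_mem
      have e2 : t * x * t⁻¹ * x⁻¹ = t * (x * t⁻¹ * x⁻¹) := by group
      rw [e2]
      exact Subgroup.mul_mem _ htP (hPn.conj_mem _ (Subgroup.inv_mem _ htP) x)
    obtain ⟨k, hk⟩ := P.2 ⟨x ^ 2, hx2P⟩
    have hk' : (x ^ 2) ^ 2 ^ k = 1 := by simpa using congrArg Subtype.val hk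
    have h1 : orderOf (x ^ 2) ∣ 2 ^ k := orderOf_dvd_of_pow_eq_one hk'
    have h2 : orderOf (x ^ 2) ∣ orderOf x := orderOf_pow_dvd 2
    have hcop : Nat.Coprime (2 ^ k) (orderOf x) :=
      Nat.Coprime.pow_left k (Nat.coprime_two_left.2 hodd)
    have h3 : orderOf (x ^ 2) = 1 := Nat.eq_one_of_dvd_coprimes hcop h1 h2
    rw [orderOf_eq_one_iff] at h3
    have h4 : orderOf x ∣ 2 := orderOf_dvd_of_pow_eq_one h3
    have h5 : orderOf x = 1 :=
      Nat.eq_one_of_dvd_coprimes (Nat.coprime_two_left.2 hodd) h4 dvd_rfl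
    exact hx (orderOf_eq_one_iff.1 h5)

end Cfsg.Agent.S3861
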