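import Cfsg.Statements.S3862
import Cfsg.Agent.S0071
-- import your own Cfsg.Agent.* helpers here

set_option autoImplicit false
open Cfsg

namespace Cfsg.Agent.S3862

/-- A nontrivial finite 2-group has a subgroup of index 2. -/
theorem exists_index_two {U : Type*} [Group U] [Finite U] (hU : IsPGroup 2 U) [Nontrivial U] :
    ∃ K : Subgroup U, K.index = 2 := by
  obtain ⟨n, hn, hcard⟩ := hU.nontrivial_iff_card.1 inferInstance
  obtain ⟨k, rfl⟩ : ∃ k, n = k + 1 := ⟨n - 1, by omega⟩
  obtain ⟨K, hK⟩ := Sylow.exists_subgroup_card_pow_prime 2 (G := U) (n := k)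
    (by rw [hcard]; exact pow_dvd_pow 2 (Nat.le_succ k))
  refine ⟨K, ?_⟩
  have := Subgroup.card_mul_index K
  rw [hK, hcard, pow_succ] at this
  exact Nat.eq_of_mul_eq_mul_left (pow_pos two_pos k) this

/-- Under the hypothesis (real 2-elements are central), an element of odd order stabilising a
2-subgroup centralizes it. -/
theorem centralizes {G : Type*} [Group G] [Finite G]
    (h : ∀ x : G, (∃ j : ℕ, orderOf x = 2 ^ j) → IsConj x x⁻¹ → x ∈ Subgroup.center G) :
    ∀ (n : ℕ) (U : Subgroup G), Nat.card U = n → IsPGroup 2 U → ∀ y : G,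
      (∀ v ∈ U, y * v * y⁻¹ ∈ U) → Odd (orderOf y) → ∀ u ∈ U, y * u * y⁻¹ = u := by
  intro n
  induction n using Nat.strong_induction_on with
  | _ n ih =>
    intro U hcard hU y hy hodd u hu
    by_cases hbot : U = ⊥
    · rw [hbot, Subgroup.mem_bot] at hu
      subst hu
      simp
    have hnt : Nontrivial U := (Subgroup.nontrivial_iff_ne_bot U).2 hbot
    -- S = subgroup generated by squares
    let S : Subgroup G := Subgroup.closure {x | ∃ v ∈ U, x = v ^ 2}
    have hSU : S ≤ U := (Subgroup.closure_le U).2 (by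
      rintro x ⟨v, hv, rfl⟩
      exact pow_mem hv 2)
    have hyS : ∀ s ∈ S, y * s * y⁻¹ ∈ S := by
      intro s hs
      induction hs using Subgroup.closure_induction with
      | mem x hx =>
        obtain ⟨v, hv, rfl⟩ := hx
        apply Subgroup.subset_closure
        exact ⟨y * v * y⁻¹, hy v hv, by rw [conj_pow]⟩
      | one => simp
      | mul a b _ _ ha hb =>
        have : y * (a * b) * y⁻¹ = (y * a * y⁻¹) * (y * b * y⁻¹) := by group
        rw [this]
        exact mul_mem ha hb
      | inv a _ ha =>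
        have : y * a⁻¹ * y⁻¹ = (y * a * y⁻¹)⁻¹ := by group
        rw [this]
        exact inv_mem ha
    have hlt : Nat.card S < n := by
      obtain ⟨K, hK⟩ := exists_index_two hU
      have h1 : S ≤ K.map U.subtype := by
        apply (Subgroup.closure_le _).2
        rintro x ⟨v, hv, rfl⟩
        exact ⟨(⟨v, hv⟩ : U) ^ 2, Subgroup.sq_mem_of_index_two hK _, by simp⟩
      have h2 : Nat.card S ≤ Nat.card (K.map U.subtype) := Subgroup.card_le_of_le h1
      have h3 : Nat.card (K.map U.subtype) = Nat.card K :=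
        Subgroup.card_map_of_injective U.subtype_injective
      have h4 := Subgroup.card_mul_index K
      rw [hK, hcard] at h4
      have h5 : 0 < Nat.card K := Nat.card_pos
      omega
    have hS := ih (Nat.card S) hlt S rfl (hU.to_le hSU) y hyS hodd
    have hu2 : y * u ^ 2 * y⁻¹ = u ^ 2 :=
      hS _ (Subgroup.subset_closure ⟨u, hu, rfl⟩)
    -- v = y u y⁻¹ has the same square as u
    obtain ⟨v, hv⟩ : ∃ v, v = y * u * y⁻¹ := ⟨_, rfl⟩
    have hvU : v ∈ U := by rw [hv]; exact hy u hu
    have hv2 : v * v = u * u := by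
      rw [← pow_two, ← pow_two, hv, conj_pow, hu2]
    -- t = u⁻¹ v is inverted by u
    have htU : u⁻¹ * v ∈ U := mul_mem (inv_mem hu) hvU
    have hinv : u * (u⁻¹ * v) * u⁻¹ = (u⁻¹ * v)⁻¹ := by
      have h1 : u * (u⁻¹ * v) * u⁻¹ = v⁻¹ * (v * v) * u⁻¹ := by group
      rw [h1, hv2]; group
    have ht2 : ∃ j : ℕ, orderOf (u⁻¹ * v) = 2 ^ j := by
      obtain ⟨k, hk⟩ := hU ⟨u⁻¹ * v, htU⟩
      have hk' : (u⁻¹ * v) ^ (2 ^ k) = 1 := by
        have := congrArg Subtype.val hk
        simpa using this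
      obtain ⟨j, -, hj⟩ := (Nat.dvd_prime_pow Nat.prime_two).1 (orderOf_dvd_of_pow_eq_one hk')
      exact ⟨j, hj⟩
    have htc : u⁻¹ * v ∈ Subgroup.center G := h _ ht2 (isConj_iff.2 ⟨u, hinv⟩)
    rw [Subgroup.mem_center_iff] at htc
    -- y^n u y^-n = u t^n
    have hpow : ∀ m : ℕ, y ^ m * u * (y ^ m)⁻¹ = u * (u⁻¹ * v) ^ m := by
      intro m
      induction m with
      | zero => simp
      | succ m ihm =>
        have h1 : y ^ (m + 1) * u * (y ^ (m + 1))⁻¹ = y * (y ^ m * u * (y ^ m)⁻¹) * y⁻¹ := by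
          rw [pow_succ']; group
        have h2 : y * (u * (u⁻¹ * v) ^ m) * y⁻¹ = (y * u * y⁻¹) * (y * (u⁻¹ * v) ^ m * y⁻¹) := by
          group
        have h3 : y * (u⁻¹ * v) ^ m * y⁻¹ = (u⁻¹ * v) ^ m := by
          have hc : Commute y ((u⁻¹ * v) ^ m) := Commute.pow_right (htc y) m
          rw [hc.eq]; group
        rw [h1, ihm, h2, h3, ← hv, pow_succ', ← mul_assoc, mul_inv_cancel_left]
    have h1 := hpow (orderOf y)
    rw [pow_orderOf_eq_one] at h1
    have h2 : (u⁻¹ * v) ^ orderOf y = 1 := by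
      have : u = u * (u⁻¹ * v) ^ orderOf y := by simpa using h1
      exact (mul_eq_left.1 this.symm)
    have h3 : orderOf (u⁻¹ * v) ∣ orderOf y := orderOf_dvd_of_pow_eq_one h2
    obtain ⟨j, hj⟩ := ht2
    have h4 : orderOf (u⁻¹ * v) = 1 := by
      rw [hj] at h3 ⊢
      rcases Nat.eq_zero_or_pos j with rfl | hjpos
      · simp
      · exfalso
        have h5 : 2 ∣ orderOf y := (dvd_pow_self 2 hjpos.ne').trans h3
        exact (Nat.not_even_iff_odd.2 hodd) (even_iff_two_dvd.2 h5)
    have h5 : u⁻¹ * v = 1 := orderOf_eq_one_iff.1 h4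
    rw [← hv]
    exact (inv_mul_eq_one.1 h5).symm

/-- If every 2-element of the finite group G that is conjugate to its inverse lies in the centre of G, then G has a normal 2-complement. -/
theorem result {G : Type*} [Group G] [Finite G] (h : ∀ x : G, (∃ j : ℕ, orderOf x = 2 ^ j) → IsConj x x⁻¹ → x ∈ Subgroup.center G) : Cfsg.HasNormalPComplement 2 G := by
  let P : Sylow 2 G := default
  obtain ⟨N, hN, hc⟩ := (Cfsg.Agent.S0071.result P).2 (by
    intro Q hQ g hg hcop
    have hodd : Odd (orderOf g) := Nat.Coprime.odd_of_right hcop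
    have hQ2 : IsPGroup 2 Q := P.2.to_le hQ
    have key := centralizes h (Nat.card Q) Q rfl hQ2 g
      (fun v hv => (Subgroup.mem_normalizer_iff.1 hg v).1 hv) hodd
    rw [Subgroup.mem_centralizer_iff]
    intro u hu
    have := key u hu
    calc u * g = (g * u * g⁻¹) * g := by rw [this]
      _ = g * u := by group)
  exact ⟨P, N, hN, hc⟩

end Cfsg.Agent.S3862
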