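import Cfsg.Statements.S3867
import Mathlib
import Cfsg.Agent.Lib.Helper64.Sylow

set_option autoImplicit false
open Cfsg

namespace Cfsg.Agent.S3867

open Cfsg.Agent.Lib.Helper64.Sylow

variable {G : Type*} [Group G]

theorem card_inf_mul_relIndex (X Y : Subgroup G) :
    Nat.card ↥(X ⊓ Y) * X.relIndex Y = Nat.card Y := by
  have h1 := Subgroup.card_mul_index ((X ⊓ Y).subgroupOf Y)
  have h2 : Nat.card ((X ⊓ Y).subgroupOf Y) = Nat.card ↥(X ⊓ Y) :=
    Nat.card_congr (Subgroup.subgroupOfEquivOfLe inf_le_right).toEquiv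
  rw [h2] at h1
  have h3 : ((X ⊓ Y).subgroupOf Y).index = X.relIndex Y := by
    rw [← Subgroup.inf_relIndex_right]; rfl
  rw [h3] at h1
  exact h1

/-- For `K` normal, `|KH : H| = |K : K ∩ H|`. -/
theorem relIndex_sup_of_normal [Finite G] (H K : Subgroup G) [K.Normal] :
    H.relIndex (K ⊔ H) = H.relIndex K := by
  have e1 := card_inf_mul_relIndex K (K ⊔ H)
  rw [inf_of_le_left le_sup_left, Subgroup.relIndex_sup_left] at e1
  have e2 := card_inf_mul_relIndex K H
  have e3 := card_inf_mul_relIndex H (K ⊔ H)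
  rw [inf_of_le_left le_sup_right] at e3
  have e4 := card_inf_mul_relIndex H K
  rw [inf_comm] at e4
  have hpos : 0 < Nat.card H := Nat.card_pos
  have : Nat.card H * H.relIndex (K ⊔ H) = Nat.card H * H.relIndex K := by
    rw [e3, ← e1, ← e4, ← e2]; ring
  exact Nat.eq_of_mul_eq_mul_left hpos this

theorem exists_pow_mem_of_mem_sup_sylow {p : ℕ} (P : Sylow p G) (K : Subgroup G) [K.Normal]
    {x : G} (hx : x ∈ (P : Subgroup G) ⊔ K) : ∃ k : ℕ, x ^ p ^ k ∈ K := by
  obtain ⟨u, hu, c, hc, rfl⟩ := Subgroup.mem_sup_of_normal_right.1 hx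
  obtain ⟨k, hk⟩ := P.2 ⟨u, hu⟩
  refine ⟨k, ?_⟩
  have h1 : ((u * c : G) : G ⧸ K) = (u : G ⧸ K) := by
    rw [QuotientGroup.eq]
    have : (u * c)⁻¹ * u = c⁻¹ := by group
    rw [this]; exact K.inv_mem hc
  have h2 : u ^ p ^ k = 1 := by simpa using congrArg Subtype.val hk
  rw [← QuotientGroup.eq_one_iff, QuotientGroup.mk_pow, h1, ← QuotientGroup.mk_pow, h2]
  rfl

theorem normalizer_sup_sylow [Finite G] {p : ℕ} [Fact p.Prime] (P : Sylow p G) (K : Subgroup G)
    [K.Normal] :
    Subgroup.normalizer ((K ⊔ (P : Subgroup G) : Subgroup G) : Set G)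
      = K ⊔ Subgroup.normalizer ((P : Subgroup G) : Set G) := by
  apply le_antisymm
  · intro g hg
    have h1 : ((g • P : Sylow p G) : Subgroup G) ≤ K ⊔ (P : Subgroup G) := by
      intro x hx
      rw [sylow_smul_coe, mem_map_conj] at hx
      have h2 : g * (g⁻¹ * x * g) * g⁻¹ ∈ K ⊔ (P : Subgroup G) :=
        (Subgroup.mem_normalizer_iff.1 hg _).1 (Subgroup.mem_sup_right hx)
      have : g * (g⁻¹ * x * g) * g⁻¹ = x := by group
      rwa [this] at h2
    obtain ⟨l, hl, hlP⟩ := exists_mem_smul_eq_of_le (g • P) P (K ⊔ (P : Subgroup G)) h1 le_sup_right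
    have hlg : l * g ∈ Subgroup.normalizer ((P : Subgroup G) : Set G) := by
      refine Sylow.smul_eq_iff_mem_normalizer.1 ?_
      rw [mul_smul]; exact hlP
    have : g = l⁻¹ * (l * g) := by group
    rw [this]
    have hl' : l⁻¹ ∈ K ⊔ Subgroup.normalizer ((P : Subgroup G) : Set G) :=
      (sup_le_sup_left Subgroup.le_normalizer K) (Subgroup.inv_mem _ hl)
    exact Subgroup.mul_mem _ hl' (Subgroup.mem_sup_right hlg)
  · apply sup_le
    · exact le_sup_left.trans Subgroup.le_normalizer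
    · intro a ha
      rw [Subgroup.mem_normalizer_iff_map_conj_eq] at ha ⊢
      rw [Subgroup.map_sup, ha]
      congr 1
      exact (Subgroup.mem_normalizer_iff_map_conj_eq.1 (Subgroup.normalizer_eq_top (H := K) ▸ Subgroup.mem_top a))

theorem card_sylow_quotient [Finite G] {p : ℕ} [Fact p.Prime] (P : Sylow p G) (K : Subgroup G)
    [K.Normal] :
    Nat.card (Sylow p (G ⧸ K))
      = (K ⊔ Subgroup.normalizer ((P : Subgroup G) : Set G)).index := by
  have hsurj := QuotientGroup.mk'_surjective K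
  have h := (P.mapSurjective hsurj).card_eq_index_normalizer
  rw [h]
  show (Subgroup.normalizer (((P : Subgroup G).map (QuotientGroup.mk' K) : Subgroup (G ⧸ K)) :
    Set (G ⧸ K))).index = _
  rw [← Subgroup.index_comap_of_surjective _ hsurj, Subgroup.comap_normalizer_eq_of_surjective _ hsurj,
    Subgroup.comap_map_eq, QuotientGroup.ker_mk', sup_comm, normalizer_sup_sylow]

/-- Let M and N be nontrivial normal subgroups of the finite group G with M ⊓ N trivial, and let p be a prime. Writing n(X) for the number of Sylow p-subgroups of a group X, one has n(G) · n(G/MN) = n(G/M) · n(G/N). -/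
theorem result {G : Type*} [Group G] [Finite G] (p : ℕ) [Fact p.Prime] (M N : Subgroup G) [M.Normal] [N.Normal] (hM : M ≠ ⊥) (hN : N ≠ ⊥) (hMN : M ⊓ N = ⊥) : Nat.card (Sylow p G) * Nat.card (Sylow p (G ⧸ (M ⊔ N))) = Nat.card (Sylow p (G ⧸ M)) * Nat.card (Sylow p (G ⧸ N)) := by
  obtain ⟨P⟩ : Nonempty (Sylow p G) := inferInstance
  set A := Subgroup.normalizer ((P : Subgroup G) : Set G) with hA
  have c0 : Nat.card (Sylow p G) = A.index := P.card_eq_index_normalizer
  have c1 : Nat.card (Sylow p (G ⧸ (M ⊔ N))) = (M ⊔ N ⊔ A).index := card_sylow_quotient P (M ⊔ N)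
  have c2 : Nat.card (Sylow p (G ⧸ M)) = (M ⊔ A).index := card_sylow_quotient P M
  have c3 : Nat.card (Sylow p (G ⧸ N)) = (N ⊔ A).index := card_sylow_quotient P N
  rw [c0, c1, c2, c3]
  -- the intersection (P ⊔ M) ⊓ (P ⊔ N) is P
  have hX : ((P : Subgroup G) ⊔ M) ⊓ ((P : Subgroup G) ⊔ N) = (P : Subgroup G) := by
    apply P.3
    · intro x
      obtain ⟨k, hk⟩ := exists_pow_mem_of_mem_sup_sylow P M x.2.1
      have hxk : (x : G) ^ p ^ k ∈ (P : Subgroup G) ⊔ N := Subgroup.pow_mem _ x.2.2 _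
      obtain ⟨j, hj⟩ := exists_pow_mem_of_mem_sup_sylow P N hxk
      have hj' : ((x : G) ^ p ^ k) ^ p ^ j ∈ M := Subgroup.pow_mem _ hk _
      have h1 : ((x : G) ^ p ^ k) ^ p ^ j ∈ M ⊓ N := ⟨hj', hj⟩
      rw [hMN, Subgroup.mem_bot, ← pow_mul, ← pow_add] at h1
      refine ⟨k + j, ?_⟩
      apply Subtype.ext
      simpa using h1
    · exact le_inf le_sup_left le_sup_left
  -- key claim
  have key : M ⊓ (N ⊔ A) ≤ A := by
    rintro m ⟨hmM, hmNA⟩
    obtain ⟨n, hn, a, ha, rfl⟩ := Subgroup.mem_sup_of_normal_left.1 hmNA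
    have h1 : (((n * a) • P : Sylow p G) : Subgroup G) ≤ (P : Subgroup G) ⊔ M := by
      intro x hx
      rw [sylow_smul_coe, mem_map_conj] at hx
      have : x = (n * a) * ((n * a)⁻¹ * x * (n * a)) * (n * a)⁻¹ := by group
      rw [this]
      exact Subgroup.mul_mem _ (Subgroup.mul_mem _ (Subgroup.mem_sup_right hmM)
        (Subgroup.mem_sup_left hx)) (Subgroup.inv_mem _ (Subgroup.mem_sup_right hmM))
    have h2 : (((n * a) • P : Sylow p G) : Subgroup G) ≤ (P : Subgroup G) ⊔ N := by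
      have ha' : a • P = P := Sylow.smul_eq_iff_mem_normalizer.2 ha
      rw [mul_smul, ha']
      intro x hx
      rw [sylow_smul_coe, mem_map_conj] at hx
      have : x = n * (n⁻¹ * x * n) * n⁻¹ := by group
      rw [this]
      exact Subgroup.mul_mem _ (Subgroup.mul_mem _ (Subgroup.mem_sup_right hn)
        (Subgroup.mem_sup_left hx)) (Subgroup.inv_mem _ (Subgroup.mem_sup_right hn))
    have h3 : (((n * a) • P : Sylow p G) : Subgroup G) ≤ (P : Subgroup G) := by
      rw [← hX]; exact le_inf h1 h2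
    have h4 : (P : Subgroup G) = (((n * a) • P : Sylow p G) : Subgroup G) :=
      ((n * a) • P).3 P.2 h3
    exact Sylow.smul_eq_iff_mem_normalizer.1 (Sylow.ext h4.symm)
  have hAC : A ⊓ M = (N ⊔ A) ⊓ M := by
    apply le_antisymm
    · exact inf_le_inf_right M le_sup_right
    · refine le_inf ?_ inf_le_right
      intro x hx
      exact key ⟨hx.2, hx.1⟩
  have r1 : A.relIndex (M ⊔ A) = A.relIndex M := relIndex_sup_of_normal A M
  have r2 : (N ⊔ A).relIndex (M ⊔ (N ⊔ A)) = (N ⊔ A).relIndex M := relIndex_sup_of_normal (N ⊔ A) M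
  have r3 : A.relIndex M = (N ⊔ A).relIndex M := by
    rw [← Subgroup.inf_relIndex_right A M, ← Subgroup.inf_relIndex_right (N ⊔ A) M, hAC]
  have i1 := Subgroup.relIndex_mul_index (le_sup_right : A ≤ M ⊔ A)
  have i2 := Subgroup.relIndex_mul_index (le_sup_right : N ⊔ A ≤ M ⊔ (N ⊔ A))
  rw [sup_assoc, ← i1, ← i2, r1, r2, r3]
  ring

end Cfsg.Agent.S3867
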