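import Mathlib
import Cfsg.Statements.S3878
-- import your own Cfsg.Agent.* helpers here

set_option autoImplicit false
open Cfsg

namespace Cfsg.Agent.S3878

/-- a subgroup of prime order `s` has a conjugate inside any subgroup of index prime to `s` -/
theorem conj_mem_of_not_dvd_index {G : Type*} [Group G] [Finite G] (H : Subgroup G) (s : ℕ)
    [Fact s.Prime] (hs : ¬ s ∣ H.index) (x : G) (hx : orderOf x = s) :
    ∃ g : G, g * x * g⁻¹ ∈ H := by
  have hK : IsPGroup s (Subgroup.zpowers x) := by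
    apply IsPGroup.of_card (n := 1)
    rw [Nat.card_zpowers, hx, pow_one]
  have hcard : ¬ s ∣ Nat.card (G ⧸ H) := by rwa [← Subgroup.index_eq_card]
  obtain ⟨y, hy⟩ := hK.nonempty_fixed_point_of_prime_not_dvd_card (G ⧸ H) hcard
  obtain ⟨g, rfl⟩ := QuotientGroup.mk_surjective y
  have h1 := hy ⟨x, Subgroup.mem_zpowers x⟩
  have h2 : ((x * g : G) : G ⧸ H) = (g : G ⧸ H) := h1
  have h3 := QuotientGroup.eq.1 h2
  refine ⟨g⁻¹, ?_⟩
  have h4 := H.inv_mem h3
  have : ((x * g)⁻¹ * g)⁻¹ = g⁻¹ * x * g⁻¹⁻¹ := by group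
  rwa [this] at h4

/-- the easy direction for existence -/
theorem epi_of_small (π : Set ℕ)
    (h : (∀ p q : ℕ, p.Prime → q.Prime → p ∈ π → q ∈ π → p = q) ∨ ∀ p : ℕ, p.Prime → p ∈ π)
    (G : Type) [Group G] [Finite G] : IsEPiGroup π G := by
  rcases h with h | h
  · by_cases hex : ∃ p : ℕ, p.Prime ∧ p ∈ π
    · obtain ⟨p, hp, hpπ⟩ := hex
      haveI : Fact p.Prime := ⟨hp⟩
      obtain ⟨P⟩ : Nonempty (Sylow p G) := inferInstance
      refine ⟨(P : Subgroup G), ?_, ?_⟩
      · intro q hq hqd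
        obtain ⟨k, hk⟩ := P.isPGroup'.exists_card_eq
        rw [hk] at hqd
        have := (Nat.prime_dvd_prime_iff_eq hq hp).1 (hq.dvd_of_dvd_pow hqd)
        rw [this]; exact hpπ
      · intro q hq hqπ
        rw [h q p hq hp hqπ hpπ]
        exact P.not_dvd_index
    · refine ⟨⊥, ?_, ?_⟩
      · intro q hq hqd
        rw [Subgroup.card_bot] at hqd
        exact absurd (Nat.dvd_one.1 hqd) hq.ne_one
      · intro q hq hqπ
        exact absurd ⟨q, hq, hqπ⟩ hex
  · refine ⟨⊤, fun q hq _ => h q hq, ?_⟩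
    intro q hq _
    rw [Subgroup.index_top]
    exact fun hd => hq.ne_one (Nat.dvd_one.1 hd)

/-- the easy direction for the full Sylow property -/
theorem dpi_of_small (π : Set ℕ)
    (h : (∀ p q : ℕ, p.Prime → q.Prime → p ∈ π → q ∈ π → p = q) ∨ ∀ p : ℕ, p.Prime → p ∈ π)
    (G : Type) [Group G] [Finite G] : IsDPiGroup π G := by
  intro H K hH hK
  rcases h with h | h
  · by_cases hex : ∃ p : ℕ, p.Prime ∧ p ∈ π
    · obtain ⟨p, hp, hpπ⟩ := hex
      haveI : Fact p.Prime := ⟨hp⟩
      have key : ∀ L : Subgroup G, Maximal (IsPiSubgroup π) L → ∃ P : Sylow p G, (P : Subgroup G) = L := by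
        intro L hL
        have hLp : IsPGroup p L := by
          by_cases hL1 : Nat.card L = 1
          · exact IsPGroup.of_card (n := 0) (by rw [hL1, pow_zero])
          · have hne : Nat.card L ≠ 0 := Nat.card_pos.ne'
            have := Nat.eq_prime_pow_of_unique_prime_dvd (p := p) hne (fun {d} hd hdd =>
              h d p hd hp (hL.1 d hd hdd) hpπ)
            exact IsPGroup.of_card this
        obtain ⟨P, hP⟩ := hLp.exists_le_sylow
        refine ⟨P, le_antisymm ?_ hP⟩
        apply hL.2 _ hP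
        intro q hq hqd
        obtain ⟨k, hk⟩ := P.isPGroup'.exists_card_eq
        rw [hk] at hqd
        have := (Nat.prime_dvd_prime_iff_eq hq hp).1 (hq.dvd_of_dvd_pow hqd)
        rw [this]; exact hpπ
      obtain ⟨P, rfl⟩ := key H hH
      obtain ⟨Q, rfl⟩ := key K hK
      obtain ⟨g, hg⟩ := MulAction.exists_smul_eq G P Q
      refine ⟨g, ?_⟩
      rw [← hg]
      rfl
    · have key : ∀ L : Subgroup G, Maximal (IsPiSubgroup π) L → L = ⊥ := by
        intro L hL
        rw [← Subgroup.card_eq_one]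
        by_contra hne
        obtain ⟨q, hq, hqd⟩ := Nat.exists_prime_and_dvd hne
        exact hex ⟨q, hq, hL.1 q hq hqd⟩
      rw [key H hH, key K hK]
      exact ⟨1, by rw [Subgroup.map_bot]⟩
  · have key : ∀ L : Subgroup G, Maximal (IsPiSubgroup π) L → L = ⊤ := by
      intro L hL
      rw [eq_top_iff]
      exact hL.2 (fun q hq _ => h q hq) le_top
    rw [key H hH, key K hK]
    refine ⟨1, ?_⟩
    rw [Subgroup.map_top_of_surjective]
    exact (MulAut.conj (1 : G)).surjective

/-- the full Sylow property gives existence of Hall subgroups -/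
theorem epi_of_dpi (π : Set ℕ) (G : Type) [Group G] [Finite G] (h : IsDPiGroup π G) :
    IsEPiGroup π G := by
  have hfin : {K : Subgroup G | IsPiSubgroup π K}.Finite := Set.toFinite _
  have hbot : IsPiSubgroup π (⊥ : Subgroup G) := by
    intro q hq hqd
    rw [Subgroup.card_bot] at hqd
    exact absurd (Nat.dvd_one.1 hqd) hq.ne_one
  obtain ⟨M, -, hM⟩ := hfin.exists_le_maximal hbot
  refine ⟨M, hM.1, ?_⟩
  intro p hp hpπ hpd
  haveI : Fact p.Prime := ⟨hp⟩
  obtain ⟨P⟩ : Nonempty (Sylow p G) := inferInstance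
  have hP : IsPiSubgroup π (P : Subgroup G) := by
    intro q hq hqd
    obtain ⟨k, hk⟩ := P.isPGroup'.exists_card_eq
    rw [hk] at hqd
    have := (Nat.prime_dvd_prime_iff_eq hq hp).1 (hq.dvd_of_dvd_pow hqd)
    rw [this]; exact hpπ
  obtain ⟨M', hPM', hM'⟩ := hfin.exists_le_maximal hP
  obtain ⟨g, hg⟩ := h M M' hM hM'
  have hcard : Nat.card M' = Nat.card M := by
    rw [hg]
    exact Subgroup.card_map_of_injective (MulAut.conj g).injective
  have h1 : Nat.card P ∣ Nat.card M := by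
    rw [← hcard]; exact Subgroup.card_dvd_of_le hPM'
  have h2 : Nat.card M * M.index = Nat.card P * (P : Subgroup G).index := by
    rw [Subgroup.card_mul_index, Subgroup.card_mul_index]
  obtain ⟨c, hc⟩ := h1
  rw [hc, mul_assoc] at h2
  have h3 : c * M.index = (P : Subgroup G).index :=
    Nat.eq_of_mul_eq_mul_left Nat.card_pos h2
  apply P.not_dvd_index
  rw [← h3]
  exact Dvd.dvd.mul_left hpd c

/-- elements of order `p` in the symmetric group of degree `p` are full cycles; a subgroup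
containing one is transitive -/
theorem exists_full_cycle (π : Set ℕ) (p : ℕ) (hp : p.Prime) (hpπ : p ∈ π)
    (H : Subgroup (Equiv.Perm (Fin p))) (hH2 : ∀ q : ℕ, q.Prime → q ∈ π → ¬ q ∣ H.index) :
    ∃ σ : Equiv.Perm (Fin p), σ ∈ H ∧ σ.IsCycle ∧ σ.support = Finset.univ := by
  haveI : Fact p.Prime := ⟨hp⟩
  have hcardG : Nat.card (Equiv.Perm (Fin p)) = p.factorial := by
    rw [Nat.card_perm, Nat.card_fin]
  have hpH : p ∣ Nat.card H := by
    have h1 : p ∣ Nat.card H * H.index := by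
      rw [Subgroup.card_mul_index, hcardG]; exact Nat.dvd_factorial hp.pos le_rfl
    exact (hp.dvd_mul.1 h1).resolve_right (hH2 p hp hpπ)
  obtain ⟨σ', hσ'⟩ := exists_prime_orderOf_dvd_card' p hpH
  have hσ : orderOf (σ' : Equiv.Perm (Fin p)) = p := by rw [Subgroup.orderOf_coe]; exact hσ'
  have hcyc : (σ' : Equiv.Perm (Fin p)).IsCycle :=
    Equiv.Perm.isCycle_of_prime_order'' (by rw [Fintype.card_fin]; exact hp)
      (by rw [hσ, Fintype.card_fin])
  refine ⟨σ', σ'.2, hcyc, ?_⟩
  apply Finset.eq_univ_of_card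
  rw [← hcyc.orderOf, hσ, Fintype.card_fin]

theorem pretransitive_of_full_cycle (p : ℕ) (H : Subgroup (Equiv.Perm (Fin p)))
    (σ : Equiv.Perm (Fin p)) (hσH : σ ∈ H) (hcyc : σ.IsCycle) (hsupp : σ.support = Finset.univ) :
    MulAction.IsPretransitive H (Fin p) := by
  constructor
  intro x y
  have hx : σ x ≠ x := by
    rw [← Equiv.Perm.mem_support, hsupp]; exact Finset.mem_univ _
  have hy : σ y ≠ y := by
    rw [← Equiv.Perm.mem_support, hsupp]; exact Finset.mem_univ _
  obtain ⟨i, hi⟩ := hcyc.exists_zpow_eq hx hy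
  exact ⟨⟨σ, hσH⟩ ^ i, hi⟩

/-- case `2 ∉ π`: no Hall `π`-subgroup in the symmetric group of degree `p` -/
theorem no_hall_two (π : Set ℕ) (h2 : 2 ∉ π) (p q : ℕ) (hp : p.Prime) (hq : q.Prime)
    (hpπ : p ∈ π) (hqπ : q ∈ π) (hqp : q < p) : ¬ IsEPiGroup π (Equiv.Perm (Fin p)) := by
  rintro ⟨H, hH1, hH2⟩
  haveI : Fact p.Prime := ⟨hp⟩
  haveI : Fact q.Prime := ⟨hq⟩
  haveI : NeZero p := ⟨hp.ne_zero⟩
  obtain ⟨σ, hσH, hcyc, hsupp⟩ := exists_full_cycle π p hp hpπ H hH2
  haveI : MulAction.IsPretransitive H (Fin p) := pretransitive_of_full_cycle p H σ hσH hcyc hsupp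
  have hprim : MulAction.IsPreprimitive H (Fin p) :=
    MulAction.IsPreprimitive.of_prime_card (by rw [Nat.card_fin]; exact hp)
  have hq2 := hq.two_le
  have hq1 : q - 1 < p := by omega
  obtain ⟨c0, hc0⟩ : ∃ c0 : Equiv.Perm (Fin p), c0 = Fin.cycleRange ⟨q - 1, hq1⟩ := ⟨_, rfl⟩
  have hi0 : (⟨q - 1, hq1⟩ : Fin p) ≠ 0 := by
    intro h
    have := congrArg Fin.val h
    simp at this
    omega
  have hc0cyc : c0.IsCycle := by rw [hc0]; exact Fin.isCycle_cycleRange hi0
  have hc0type : c0.cycleType = {q} := by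
    rw [hc0, Fin.cycleType_cycleRange hi0]
    congr 1
    simp
    omega
  have hc0supp : c0.support.card = q := by
    rw [← Equiv.Perm.sum_cycleType, hc0type]; simp
  have hc0ord : orderOf c0 = q := by rw [hc0cyc.orderOf, hc0supp]
  obtain ⟨g, hg⟩ := conj_mem_of_not_dvd_index H q (hH2 q hq hqπ) c0 hc0ord
  have hccyc : (g * c0 * g⁻¹).IsCycle := hc0cyc.conj
  have hcsupp : (g * c0 * g⁻¹).support.card = q := by
    rw [Equiv.Perm.card_support_conj, hc0supp]
  have htrans := Equiv.Perm.isPretransitive_of_isCycle_mem hccyc hg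
  have h2t : MulAction.IsMultiplyPretransitive H (Fin p) 2 := by
    apply hprim.is_two_pretransitive (s := ((g * c0 * g⁻¹).support : Set (Fin p))ᶜ)
      (n := p - q - 1) _ _ htrans
    · rw [Set.ncard_compl, Set.ncard_coe_finset, hcsupp, Nat.card_fin]; omega
    · rw [Nat.card_fin]; omega
  rw [MulAction.is_two_pretransitive_iff] at h2t
  have h01 : (⟨0, by omega⟩ : Fin p) ≠ ⟨1, by omega⟩ := by
    intro h
    have := congrArg Fin.val h
    simp at this
  obtain ⟨h, hh0, hh1⟩ := h2t h01 h01.symm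
  have hodd : ¬ 2 ∣ Nat.card H := fun hd => h2 (hH1 2 Nat.prime_two hd)
  have hord : ¬ 2 ∣ orderOf h := fun hd => hodd (hd.trans (orderOf_dvd_natCard h))
  obtain ⟨m, hm⟩ : ∃ m, orderOf h = 2 * m + 1 := ⟨orderOf h / 2, by omega⟩
  have hone : h ^ (2 * m + 1) = 1 := by rw [← hm]; exact pow_orderOf_eq_one h
  have hsq : (h ^ 2) • (⟨0, by omega⟩ : Fin p) = ⟨0, by omega⟩ := by
    rw [pow_two, mul_smul, hh0, hh1]
  have hpow : ∀ k : ℕ, (h ^ (2 * k)) • (⟨0, by omega⟩ : Fin p) = ⟨0, by omega⟩ := by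
    intro k
    induction k with
    | zero => simp
    | succ k ih => rw [Nat.mul_succ, pow_add, mul_smul, hsq, ih]
  have h5 : h ^ (2 * m + 1) • (⟨0, by omega⟩ : Fin p) = ⟨1, by omega⟩ := by
    rw [pow_succ', mul_smul, hpow m, hh0]
  rw [hone, one_smul] at h5
  exact h01 h5

/-- case `2 ∈ π`, `3 ∉ π`: no Hall `π`-subgroup in the symmetric group of degree `q ≥ 5` -/
theorem no_hall_three (π : Set ℕ) (h2 : 2 ∈ π) (h3 : 3 ∉ π) (q : ℕ) (hq : q.Prime)
    (hqπ : q ∈ π) (hq5 : 5 ≤ q) : ¬ IsEPiGroup π (Equiv.Perm (Fin q)) := by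
  rintro ⟨H, hH1, hH2⟩
  haveI : Fact q.Prime := ⟨hq⟩
  haveI : Fact (2 : ℕ).Prime := ⟨Nat.prime_two⟩
  obtain ⟨σ, hσH, hcyc, hsupp⟩ := exists_full_cycle π q hq hqπ H hH2
  have h01 : (⟨0, by omega⟩ : Fin q) ≠ ⟨1, by omega⟩ := by
    intro h
    have := congrArg Fin.val h
    simp at this
  obtain ⟨τ0, hτ0⟩ : ∃ τ0 : Equiv.Perm (Fin q),
      τ0 = Equiv.swap (⟨0, by omega⟩ : Fin q) ⟨1, by omega⟩ := ⟨_, rfl⟩
  have hτ0swap : τ0.IsSwap := ⟨_, _, h01, hτ0⟩
  have hτ0ord : orderOf τ0 = 2 := hτ0swap.orderOf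
  obtain ⟨g, hg⟩ := conj_mem_of_not_dvd_index H 2 (hH2 2 Nat.prime_two h2) τ0 hτ0ord
  have hswap : (g * τ0 * g⁻¹).IsSwap := by
    rw [← Equiv.Perm.card_support_eq_two, Equiv.Perm.card_support_conj, hτ0,
      Equiv.Perm.card_support_swap h01]
  have htop := Equiv.Perm.closure_prime_cycle_swap (by rw [Fintype.card_fin]; exact hq) hcyc
    hsupp hswap
  have hHtop : H = ⊤ := by
    rw [eq_top_iff, ← htop, Subgroup.closure_le]
    intro x hx
    rcases hx with rfl | hx
    · exact hσH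
    · rw [Set.mem_singleton_iff] at hx
      rw [hx]; exact hg
  have h3d : 3 ∣ Nat.card H := by
    rw [hHtop, Subgroup.card_top, Nat.card_perm, Nat.card_fin]
    exact Nat.dvd_factorial (by norm_num) (by omega)
  exact h3 (hH1 3 Nat.prime_three h3d)

/-- case where the least prime `r` outside `π` is at least `5`: no Hall `π`-subgroup in the
symmetric group of degree `r + 1` (it would have index `r`) -/
theorem no_hall_large (π : Set ℕ) (r : ℕ) (hr : r.Prime) (hr5 : 5 ≤ r) (hrπ : r ∉ π)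
    (hmin : ∀ s : ℕ, s.Prime → s < r → s ∈ π) : ¬ IsEPiGroup π (Equiv.Perm (Fin (r + 1))) := by
  rintro ⟨H, hH1, hH2⟩
  have hcardG : Nat.card (Equiv.Perm (Fin (r + 1))) = (r + 1).factorial := by
    rw [Nat.card_perm, Nat.card_fin]
  have hrH : ¬ r ∣ Nat.card H := fun hd => hrπ (hH1 r hr hd)
  have hmul : Nat.card H * H.index = (r + 1).factorial := by
    rw [Subgroup.card_mul_index, hcardG]
  have hidx_ne : H.index ≠ 0 := Subgroup.index_ne_zero_of_finite
  have hrodd : r % 2 = 1 := by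
    rcases hr.eq_two_or_odd with h | h <;> omega
  have hprime_idx : ∀ {d : ℕ}, d.Prime → d ∣ H.index → d = r := by
    intro d hd hdd
    have hdπ : d ∉ π := fun h => hH2 d hd h hdd
    have hdr : r ≤ d := by
      by_contra hlt
      push Not at hlt
      exact hdπ (hmin d hd hlt)
    have hdle : d ≤ r + 1 := by
      have : d ∣ (r + 1).factorial := by rw [← hmul]; exact Dvd.dvd.mul_left hdd _
      exact (hd.dvd_factorial).1 this
    rcases Nat.lt_or_ge d (r + 1) with h | h
    · omega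
    · have hd' : d = r + 1 := by omega
      exfalso
      have h2d : 2 ∣ d := by omega
      have := (Nat.prime_dvd_prime_iff_eq Nat.prime_two hd).1 h2d
      omega
  have hidx_pow := Nat.eq_prime_pow_of_unique_prime_dvd hidx_ne hprime_idx
  have hidx_le : H.index ≤ r := by
    obtain ⟨a, ha⟩ : ∃ a, a = H.index.primeFactorsList.length := ⟨_, rfl⟩
    rw [← ha] at hidx_pow
    rcases Nat.lt_or_ge a 2 with ha2 | ha2
    · interval_cases a
      · rw [hidx_pow]; simp; omega
      · rw [hidx_pow]; simp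
    · exfalso
      have hr2 : r ^ 2 ∣ (r + 1).factorial := by
        rw [← hmul, hidx_pow]
        exact Dvd.dvd.mul_left (pow_dvd_pow r ha2) _
      obtain ⟨k, rfl⟩ : ∃ k, r = k + 1 := ⟨r - 1, by omega⟩
      rw [Nat.factorial_succ, Nat.factorial_succ, pow_two] at hr2
      have h1 : (k + 1) * (k + 1) ∣ (k + 1) * ((k + 1 + 1) * k.factorial) := by
        convert hr2 using 1; ring
      have h2 := Nat.dvd_of_mul_dvd_mul_left (by omega) h1
      rcases (hr.dvd_mul).1 h2 with h | h
      · have h3 : k + 1 ∣ 1 := (Nat.dvd_add_right (dvd_refl (k + 1))).1 h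
        have := Nat.le_of_dvd (by norm_num) h3
        omega
      · have := (hr.dvd_factorial).1 h; omega
  by_cases hN : Nontrivial H.normalCore
  · have hA := Equiv.Perm.alternatingGroup_le_of_normal (by rw [Nat.card_fin]; omega) hN
    have hAH : alternatingGroup (Fin (r + 1)) ≤ H := hA.trans H.normalCore_le
    haveI : Nontrivial (Fin (r + 1)) := Fin.nontrivial_iff_two_le.2 (by omega)
    have hAc : 2 * Nat.card (alternatingGroup (Fin (r + 1))) = (r + 1).factorial := by
      rw [← hcardG]; exact two_mul_nat_card_alternatingGroup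
    have hrA : r ∣ Nat.card (alternatingGroup (Fin (r + 1))) := by
      have h1 : r ∣ 2 * Nat.card (alternatingGroup (Fin (r + 1))) := by
        rw [hAc]; exact Nat.dvd_factorial hr.pos (by omega)
      rcases (hr.dvd_mul).1 h1 with h | h
      · have := Nat.le_of_dvd (by norm_num) h; omega
      · exact h
    exact hrH (hrA.trans (Subgroup.card_dvd_of_le hAH))
  · have hbot : H.normalCore = ⊥ := by
      rwa [Subgroup.nontrivial_iff_ne_bot, not_not] at hN
    have hinj : Function.Injective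
        (MulAction.toPermHom (Equiv.Perm (Fin (r + 1))) (Equiv.Perm (Fin (r + 1)) ⧸ H)) := by
      rw [← MonoidHom.ker_eq_bot_iff, ← Subgroup.normalCore_eq_ker, hbot]
    have hle : Nat.card (Equiv.Perm (Fin (r + 1))) ≤
        Nat.card (Equiv.Perm (Equiv.Perm (Fin (r + 1)) ⧸ H)) :=
      Nat.card_le_card_of_injective _ hinj
    rw [hcardG, Nat.card_perm, ← Subgroup.index_eq_card] at hle
    have h1 : H.index.factorial ≤ r.factorial := Nat.factorial_le hidx_le
    have h2 : r.factorial < (r + 1).factorial := (Nat.factorial_lt (by omega)).2 (by omega)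
    omega

/-- the counterexamples -/
theorem exists_no_hall (π : Set ℕ)
    (h1 : ¬ (∀ p q : ℕ, p.Prime → q.Prime → p ∈ π → q ∈ π → p = q))
    (h2 : ¬ ∀ p : ℕ, p.Prime → p ∈ π) :
    ∃ n : ℕ, ¬ IsEPiGroup π (Equiv.Perm (Fin n)) := by
  push Not at h1 h2
  obtain ⟨p, q, hp, hq, hpπ, hqπ, hpq⟩ := h1
  have hex : ∃ r : ℕ, r.Prime ∧ r ∉ π := h2
  classical
  obtain ⟨r, hr⟩ : ∃ r, r = Nat.find hex := ⟨_, rfl⟩
  have hrspec : r.Prime ∧ r ∉ π := by rw [hr]; exact Nat.find_spec hex
  have hrmin : ∀ s : ℕ, s.Prime → s < r → s ∈ π := by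
    intro s hs hsr
    by_contra hsπ
    rw [hr] at hsr
    exact Nat.find_min hex hsr ⟨hs, hsπ⟩
  rcases Nat.lt_or_ge r 5 with hr5 | hr5
  · have hr2 := hrspec.1.two_le
    have hr23 : r = 2 ∨ r = 3 := by
      rcases Nat.lt_or_ge r 4 with h4 | h4
      · omega
      · exfalso
        have h4' : r = 4 := by omega
        rw [h4'] at hrspec
        exact absurd hrspec.1 (by decide)
    rcases hr23 with h | h
    · rw [h] at hrspec
      rcases Nat.lt_or_gt_of_ne hpq with hlt | hlt
      · exact ⟨q, no_hall_two π hrspec.2 q p hq hp hqπ hpπ hlt⟩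
      · exact ⟨p, no_hall_two π hrspec.2 p q hp hq hpπ hqπ hlt⟩
    · rw [h] at hrspec hrmin
      have h2π : 2 ∈ π := hrmin 2 Nat.prime_two (by norm_num)
      -- one of `p`, `q` is at least `5`
      have key : ∀ s : ℕ, s.Prime → s ∈ π → s ≠ 2 → 5 ≤ s := by
        intro s hs hsπ hs2
        have := hs.two_le
        by_contra hlt
        push Not at hlt
        have hs34 : s = 3 ∨ s = 4 := by omega
        rcases hs34 with h' | h'
        · rw [h'] at hsπ; exact hrspec.2 hsπ
        · rw [h'] at hs; exact absurd hs (by decide)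
      by_cases hp2 : p = 2
      · have hq2 : q ≠ 2 := fun h' => hpq (by rw [hp2, h'])
        exact ⟨q, no_hall_three π h2π hrspec.2 q hq hqπ (key q hq hqπ hq2)⟩
      · exact ⟨p, no_hall_three π h2π hrspec.2 p hp hpπ (key p hp hpπ hp2)⟩
  · exact ⟨r + 1, no_hall_large π r hrspec.1 hr5 hrspec.2 hrmin⟩

/-- For a set of primes π the following are equivalent: every finite group has a Hall π-subgroup; in every finite group the maximal π-subgroups are pairwise conjugate; π contains at most one prime or contains every prime. -/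
theorem result (π : Set ℕ) :
    ((∀ (G : Type) [Group G] [Finite G], Cfsg.IsEPiGroup π G) ↔
      ((∀ p q : ℕ, p.Prime → q.Prime → p ∈ π → q ∈ π → p = q) ∨ ∀ p : ℕ, p.Prime → p ∈ π)) ∧
    ((∀ (G : Type) [Group G] [Finite G], Cfsg.IsDPiGroup π G) ↔
      ((∀ p q : ℕ, p.Prime → q.Prime → p ∈ π → q ∈ π → p = q) ∨ ∀ p : ℕ, p.Prime → p ∈ π)) := by
  constructor
  · constructor
    · intro h
      by_contra hcon
      rw [not_or] at hcon
      obtain ⟨n, hn⟩ := exists_no_hall π hcon.1 hcon.2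
      exact hn (h _)
    · intro h G _ _
      exact epi_of_small π h G
  · constructor
    · intro h
      by_contra hcon
      rw [not_or] at hcon
      obtain ⟨n, hn⟩ := exists_no_hall π hcon.1 hcon.2
      exact hn (epi_of_dpi π _ (h _))
    · intro h G _ _
      exact dpi_of_small π h G

end Cfsg.Agent.S3878
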