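import Cfsg.Statements.S3880
import Cfsg.Agent.Lib.Helper64.MetaB

set_option autoImplicit false
open Cfsg

namespace Cfsg.Agent.S3880

open Cfsg.Agent.Lib.Helper64.MetaB

/-- numerical data of a subgroup of a finite `p`-group -/
theorem exists_data {G : Type*} [Group G] [Finite G] {p : ℕ} [Fact p.Prime] (hG : IsPGroup p G)
    (L : Subgroup G) : ∃ m n k : ℕ, Nat.card G = p ^ m ∧ Nat.card ↥(commutator G) = p ^ n ∧
      L.index = p ^ k ∧ n ≤ m ∧ k ≤ m ∧ Nat.card ↥L = p ^ (m - k) ∧
      (commutator G).index = p ^ (m - n) := by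
  have hpp : p.Prime := Fact.out
  obtain ⟨m, hm⟩ := IsPGroup.iff_card.1 hG
  obtain ⟨n, hn⟩ := IsPGroup.iff_card.1 (hG.to_subgroup (commutator G))
  obtain ⟨e, he⟩ := IsPGroup.iff_card.1 (hG.to_subgroup L)
  have h1 := Subgroup.card_mul_index L
  have h2 := Subgroup.card_mul_index (commutator G)
  have hem : e ≤ m := by
    have : p ^ e ∣ p ^ m := by rw [← he, ← hm]; exact Subgroup.card_subgroup_dvd_card L
    exact (Nat.pow_dvd_pow_iff_le_right hpp.one_lt).1 this
  have hnm : n ≤ m := by
    have : p ^ n ∣ p ^ m := by rw [← hn, ← hm]; exact Subgroup.card_subgroup_dvd_card _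
    exact (Nat.pow_dvd_pow_iff_le_right hpp.one_lt).1 this
  have hLi : L.index = p ^ (m - e) := by
    rw [he, hm] at h1
    have : p ^ e * L.index = p ^ e * p ^ (m - e) := by
      rw [h1, ← pow_add]; congr 1; omega
    exact Nat.eq_of_mul_eq_mul_left (pow_pos hpp.pos e) this
  have hCi : (commutator G).index = p ^ (m - n) := by
    rw [hn, hm] at h2
    have : p ^ n * (commutator G).index = p ^ n * p ^ (m - n) := by
      rw [h2, ← pow_add]; congr 1; omega
    exact Nat.eq_of_mul_eq_mul_left (pow_pos hpp.pos n) this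
  refine ⟨m, n, m - e, hm, hn, hLi, hnm, by omega, ?_, hCi⟩
  rw [he]; congr 1; omega

theorem abelian_iff {G : Type*} [Group G] [Finite G] {p : ℕ} [Fact p.Prime] (hp : p ≠ 2)
    (hG : IsPGroup p G) (hmc : Cfsg.IsMetacyclic G) (L : Subgroup G) :
    IsMulCommutative ↥L ↔ Nat.card ↥L ≤ (commutator G).index := by
  have hpp : p.Prime := Fact.out
  obtain ⟨m, n, k, hm, hn, hk, hnm, hkm, hL, hC⟩ := exists_data hG L
  have hcard := card_commutator_of_index hp hG hmc n hn k L hk
  rw [← Subgroup.le_centralizer_iff_isMulCommutative,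
    ← Subgroup.commutator_eq_bot_iff_le_centralizer, ← Subgroup.card_eq_one, hcard, hL, hC,
    Nat.pow_le_pow_iff_right hpp.one_lt, Nat.pow_eq_one]
  constructor
  · rintro (h | h)
    · exact absurd h hpp.ne_one
    · omega
  · intro h
    right; omega

/-- Let p be an odd prime and G a finite metacyclic p-group (G has a cyclic normal subgroup with cyclic quotient). Then a subgroup L of G is abelian if and only if |L| ≤ |G : G'|, and L is a maximal abelian subgroup of G if and only if |L| = |G : G'|. -/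
theorem result {G : Type*} [Group G] [Finite G] {p : ℕ} [Fact p.Prime] (hp : p ≠ 2) (hG : IsPGroup p G) (hmc : Cfsg.IsMetacyclic G) (L : Subgroup G) :
    (IsMulCommutative ↥L ↔ Nat.card ↥L ≤ (commutator G).index) ∧
      (Maximal (fun K : Subgroup G => IsMulCommutative ↥K) L ↔ Nat.card ↥L = (commutator G).index) := by
  have hpp : p.Prime := Fact.out
  refine ⟨abelian_iff hp hG hmc L, ?_⟩
  obtain ⟨m, n, k, hm, hn, hk, hnm, hkm, hL, hC⟩ := exists_data hG L
  constructor
  · intro hmax
    have h1 := (abelian_iff hp hG hmc L).1 hmax.1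
    by_contra hne
    have hlt : Nat.card ↥L < (commutator G).index := lt_of_le_of_ne h1 hne
    rw [hL, hC, Nat.pow_lt_pow_iff_right hpp.one_lt] at hlt
    obtain ⟨L₁, hL₁c, hLL₁⟩ := Sylow.exists_subgroup_card_pow_succ (p := p) (n := m - k)
      (by rw [hm]; exact pow_dvd_pow p (by omega)) hL
    have hab : IsMulCommutative ↥L₁ := by
      rw [abelian_iff hp hG hmc L₁, hL₁c, hC]
      exact Nat.pow_le_pow_right hpp.pos (by omega)
    have h2 := hmax.2 hab hLL₁
    have h3 := Subgroup.card_le_of_le h2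
    rw [hL₁c, hL, Nat.pow_le_pow_iff_right hpp.one_lt] at h3
    omega
  · intro hcard
    refine ⟨(abelian_iff hp hG hmc L).2 hcard.le, ?_⟩
    intro K hK hLK
    have h1 := (abelian_iff hp hG hmc K).1 hK
    rw [← hcard] at h1
    exact (Subgroup.eq_of_le_of_card_ge hLK h1).ge

end Cfsg.Agent.S3880
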