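import Cfsg.Statements.S3884
import Cfsg.Agent.Lib.Helper64.MetaB

set_option autoImplicit false
open Cfsg

namespace Cfsg.Agent.S3884

open Cfsg.Agent.Lib.Helper64.MetaA Cfsg.Agent.Lib.Helper64.MetaB

/-- `(v c) ^ k = v ^ (1 + r + ⋯ + r ^ (k-1)) c ^ k` when `c` acts on `N ∋ v` as the `r`-th power. -/
theorem mul_pow_of_power {G : Type*} [Group G] (N : Subgroup G) (v c : G) (r : ℕ) (hv : v ∈ N)
    (hr : ∀ u ∈ N, c * u * c⁻¹ = u ^ r) (k : ℕ) :
    (v * c) ^ k = v ^ (∑ l ∈ Finset.range k, r ^ l) * c ^ k := by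
  induction k with
  | zero => simp
  | succ k ih =>
    have h1 := conj_pow_of_power N c r hr k v hv
    have h2 : (v * c) ^ (k + 1) =
        v ^ (∑ l ∈ Finset.range k, r ^ l) * (c ^ k * v * (c ^ k)⁻¹) * c ^ (k + 1) := by
      rw [pow_succ, ih, pow_succ]; group
    rw [h2, h1, Finset.sum_range_succ, pow_add v]

/-- Root extraction: a `p ^ j`-th power `u ^ p ^ j` is of the form `v ^ (1 + r + ⋯)` with `v` a
power of `u`. -/
theorem exists_root {G : Type*} [Group G] [Finite G] {p : ℕ} [Fact p.Prime] (hp2 : p ≠ 2)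
    (hG : IsPGroup p G) (r : ℕ) (hr1 : r % p = 1) (j : ℕ) (u : G) :
    ∃ m : ℕ, (u ^ m) ^ (∑ l ∈ Finset.range (p ^ j), r ^ l) = u ^ p ^ j := by
  have hpp : p.Prime := Fact.out
  obtain ⟨w, hw⟩ : p ^ j ∣ ∑ l ∈ Finset.range (p ^ j), r ^ l :=
    (geom_sum_dvd_iff hpp hp2 r hr1 j (p ^ j)).2 dvd_rfl
  have hpw : ¬ p ∣ w := by
    rintro ⟨w', rfl⟩
    have h1 : p ^ (j + 1) ∣ ∑ l ∈ Finset.range (p ^ j), r ^ l := by
      rw [hw, pow_succ]; exact ⟨w', by ring⟩
    have h2 := (geom_sum_dvd_iff hpp hp2 r hr1 (j + 1) (p ^ j)).1 h1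
    have h3 := Nat.le_of_dvd (pow_pos hpp.pos j) h2
    have h4 : p ^ j < p ^ (j + 1) := Nat.pow_lt_pow_right hpp.one_lt (by omega)
    omega
  obtain ⟨x, hx⟩ := orderOf_eq_prime_pow hG u
  have hcop : Nat.Coprime w (orderOf u) := by
    rw [hx]
    exact Nat.Coprime.pow_right _ ((Nat.Prime.coprime_iff_not_dvd hpp).2 hpw).symm
  obtain ⟨m, hm⟩ := exists_pow_eq_self_of_coprime hcop
  refine ⟨m, ?_⟩
  rw [hw]
  calc (u ^ m) ^ (p ^ j * w) = ((u ^ w) ^ m) ^ p ^ j := by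
        rw [← pow_mul, ← pow_mul, ← pow_mul]; congr 1; ring
    _ = u ^ p ^ j := by rw [hm]

/-- Let p be an odd prime and G a finite metacyclic p-group (G has a cyclic normal subgroup with cyclic quotient). Then G is the product of two cyclic subgroups with trivial intersection: there are cyclic subgroups A and B with A ∩ B = 1 and |A| · |B| = |G|. -/
theorem result {G : Type*} [Group G] [Finite G] {p : ℕ} [Fact p.Prime] (hp : p ≠ 2) (hG : IsPGroup p G) (hmc : Cfsg.IsMetacyclic G) : ∃ A B : Subgroup G, IsCyclic ↥A ∧ IsCyclic ↥B ∧ A ⊓ B = ⊥ ∧ Nat.card ↥A * Nat.card ↥B = Nat.card G := by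
  have hpp : p.Prime := Fact.out
  obtain ⟨N, a, b, hNn, hNc, haN, hNa, hgen, hcomm⟩ := exists_gens hmc
  have hact : PowAct p N := exists_power_action hG N hNc
  -- N = ⟨a⟩
  have hNeq : N = Subgroup.zpowers a := by
    apply le_antisymm
    · intro x hx
      obtain ⟨i, rfl⟩ := hNa x hx
      exact Subgroup.pow_mem _ (Subgroup.mem_zpowers a) i
    · rw [Subgroup.zpowers_le]; exact haN
  obtain ⟨μ, hμ⟩ := orderOf_eq_prime_pow hG a
  have hcardN : Nat.card ↥N = p ^ μ := by rw [hNeq, Nat.card_zpowers, hμ]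
  -- G / N = ⟨b N⟩
  obtain ⟨ν, hν⟩ := orderOf_eq_prime_pow (hG.to_quotient N) ((b : G) : G ⧸ N)
  have hidx : N.index = p ^ ν := by
    rw [Subgroup.index_eq_card, ← hν, ← Nat.card_zpowers]
    have htop : Subgroup.zpowers ((b : G) : G ⧸ N) = ⊤ := by
      rw [eq_top_iff]
      intro x _
      obtain ⟨g, rfl⟩ := QuotientGroup.mk_surjective x
      obtain ⟨i, j, rfl⟩ := hgen g
      rw [QuotientGroup.mk_mul, (QuotientGroup.eq_one_iff _).2 (N.pow_mem haN i), one_mul,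
        QuotientGroup.mk_pow]
      exact Subgroup.pow_mem _ (Subgroup.mem_zpowers _) j
    rw [htop, Subgroup.card_top]
  have hcardG : Nat.card G = p ^ μ * p ^ ν := by
    rw [← Subgroup.card_mul_index N, hcardN, hidx]
  -- powers of elements of the coset bN in N
  have hmemN : ∀ (c : G), ((c : G) : G ⧸ N) = ((b : G) : G ⧸ N) → ∀ l : ℕ,
      c ^ l ∈ N → p ^ ν ∣ l := by
    intro c hc l hl
    rw [← QuotientGroup.eq_one_iff, QuotientGroup.mk_pow, hc] at hl
    rw [← hν]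
    exact orderOf_dvd_of_pow_eq_one hl
  have hzN : b ^ p ^ ν ∈ N := by
    rw [← QuotientGroup.eq_one_iff, QuotientGroup.mk_pow, ← hν, pow_orderOf_eq_one]
  by_cases hcase : ∃ u ∈ N, (b ^ p ^ ν)⁻¹ = u ^ p ^ ν
  · -- split case
    obtain ⟨u, huN, hu⟩ := hcase
    obtain ⟨s, hs1, hs⟩ := hact b
    obtain ⟨m, hm⟩ := exists_root hp hG s hs1 ν u
    have hvN : u ^ m ∈ N := N.pow_mem huN m
    have hb' : (u ^ m * b) ^ p ^ ν = 1 := by
      rw [mul_pow_of_power N (u ^ m) b s hvN hs, hm, ← hu, inv_mul_cancel]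
    have hcoset : (((u ^ m * b : G)) : G ⧸ N) = ((b : G) : G ⧸ N) := by
      rw [QuotientGroup.mk_mul, (QuotientGroup.eq_one_iff _).2 hvN, one_mul]
    have hord : orderOf (u ^ m * b) = p ^ ν := by
      apply Nat.dvd_antisymm (orderOf_dvd_of_pow_eq_one hb')
      apply hmemN _ hcoset
      rw [pow_orderOf_eq_one]; exact N.one_mem
    refine ⟨N, Subgroup.zpowers (u ^ m * b), hNc, inferInstance, ?_, ?_⟩
    · rw [eq_bot_iff]
      rintro x ⟨hxN, hxB⟩
      obtain ⟨i, rfl⟩ : ∃ i : ℕ, (u ^ m * b) ^ i = x := mem_powers_iff_mem_zpowers.2 hxB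
      obtain ⟨i', rfl⟩ := hmemN _ hcoset i hxN
      rw [Subgroup.mem_bot, pow_mul, hb', one_pow]
    · rw [hcardN, Nat.card_zpowers, hord, hcardG]
  · -- non-split case
    set z := b ^ p ^ ν with hz
    obtain ⟨ε, hε⟩ := orderOf_eq_prime_pow hG z
    obtain ⟨k₀, hk₀⟩ := hNa z hzN
    -- the order of z and divisibility of k₀
    have hεμ : ε ≤ μ := by
      have h1 : orderOf z ∣ orderOf a := by
        rw [hk₀]; exact orderOf_pow_dvd k₀
      rw [hε, hμ] at h1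
      exact (Nat.pow_dvd_pow_iff_le_right hpp.one_lt).1 h1
    have hdvdk : p ^ (μ - ε) ∣ k₀ := by
      have h1 : (a ^ k₀) ^ p ^ ε = 1 := by rw [← hk₀, ← hε, pow_orderOf_eq_one]
      rw [← pow_mul, ← orderOf_dvd_iff_pow_eq_one, hμ] at h1
      have h2 : p ^ (μ - ε) * p ^ ε ∣ k₀ * p ^ ε := by
        rw [← pow_add]
        have : μ - ε + ε = μ := by omega
        rw [this]; exact h1
      exact Nat.dvd_of_mul_dvd_mul_right (pow_pos hpp.pos ε) h2
    have hltν : μ - ε < ν := by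
      by_contra hge
      push Not at hge
      apply hcase
      obtain ⟨k₁, hk₁⟩ : p ^ ν ∣ k₀ := (pow_dvd_pow p hge).trans hdvdk
      refine ⟨(a ^ k₁)⁻¹, N.inv_mem (N.pow_mem haN k₁), ?_⟩
      rw [hk₀, hk₁, inv_pow, ← pow_mul, mul_comm]
    -- d = b ^ p ^ (ν - λ), q = p ^ λ
    set q := p ^ (μ - ε) with hq
    set d := b ^ p ^ (ν - (μ - ε)) with hd
    have hdq : d ^ q = z := by
      rw [hd, hq, hz, ← pow_mul, ← pow_add]
      congr 2; omega
    obtain ⟨r₁, hr1, hr⟩ := hact d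
    -- z⁻¹ is a q-th power in N
    obtain ⟨k₁, hk₁⟩ := hdvdk
    obtain ⟨m, hm⟩ := exists_root hp hG r₁ hr1 (μ - ε) ((a ^ k₁)⁻¹)
    have hv₀N : ((a ^ k₁)⁻¹) ^ m ∈ N := N.pow_mem (N.inv_mem (N.pow_mem haN k₁)) m
    set v₀ := ((a ^ k₁)⁻¹) ^ m with hv₀
    have hv₀z : v₀ ^ (∑ l ∈ Finset.range q, r₁ ^ l) = z⁻¹ := by
      rw [hm, hk₀, hk₁, inv_pow, ← pow_mul, mul_comm]
    have hyq : (v₀ * d) ^ q = 1 := by
      rw [mul_pow_of_power N v₀ d r₁ hv₀N hr, hv₀z, hdq, inv_mul_cancel]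
    -- zpowers b ∩ N = zpowers z
    have hbN : ∀ x ∈ Subgroup.zpowers b, x ∈ N → x ^ p ^ ε = 1 := by
      intro x hxb hxN
      obtain ⟨l, rfl⟩ : ∃ l : ℕ, b ^ l = x := mem_powers_iff_mem_zpowers.2 hxb
      obtain ⟨l', rfl⟩ := hmemN b rfl l hxN
      rw [pow_mul, ← hz, ← pow_mul, mul_comm, pow_mul, ← hε, pow_orderOf_eq_one, one_pow]
    -- v₀ generates N
    have hzne : ε ≠ 0 := by
      rintro rfl
      rw [pow_zero, orderOf_eq_one_iff] at hε
      apply hcase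
      exact ⟨1, N.one_mem, by rw [hε]; simp⟩
    have hv₀ord : orderOf v₀ = p ^ μ := by
      obtain ⟨x, hx⟩ := orderOf_eq_prime_pow hG v₀
      have hxμ : x ≤ μ := by
        have h1 : orderOf v₀ ∣ Nat.card ↥N := by
          have := orderOf_dvd_natCard (⟨v₀, hv₀N⟩ : ↥N)
          rwa [Subgroup.orderOf_mk] at this
        rw [hx, hcardN] at h1
        exact (Nat.pow_dvd_pow_iff_le_right hpp.one_lt).1 h1
      -- z⁻¹ = v₀ ^ σ has order p ^ ε, and q ∣ σ
      obtain ⟨w, hw⟩ : q ∣ ∑ l ∈ Finset.range q, r₁ ^ l :=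
        (geom_sum_dvd_iff hpp hp r₁ hr1 (μ - ε) q).2 dvd_rfl
      have h2 : (z⁻¹) ^ p ^ (x - (μ - ε)) = 1 → ε ≤ x - (μ - ε) := by
        intro h
        rw [inv_pow, inv_eq_one, ← orderOf_dvd_iff_pow_eq_one, hε] at h
        exact (Nat.pow_dvd_pow_iff_le_right hpp.one_lt).1 h
      have h3 : (z⁻¹) ^ p ^ (x - (μ - ε)) = 1 := by
        rw [← hv₀z, hw, ← pow_mul, mul_comm q w, mul_assoc, hq, ← pow_add, mul_comm, pow_mul]
        have h4 : v₀ ^ p ^ (μ - ε + (x - (μ - ε))) = 1 := by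
          rw [← orderOf_dvd_iff_pow_eq_one, hx]
          exact pow_dvd_pow p (by omega)
        rw [h4, one_pow]
      have h5 := h2 h3
      rw [hx]; congr 1; omega
    -- key claim
    have hkey : ∀ i : ℕ, (v₀ * d) ^ i ∈ Subgroup.zpowers b → q ∣ i := by
      intro i hi
      rw [mul_pow_of_power N v₀ d r₁ hv₀N hr] at hi
      have hdi : d ^ i ∈ Subgroup.zpowers b := by
        rw [hd, ← pow_mul]; exact Subgroup.pow_mem _ (Subgroup.mem_zpowers b) _
      have h1 : v₀ ^ (∑ l ∈ Finset.range i, r₁ ^ l) ∈ Subgroup.zpowers b := by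
        have := Subgroup.mul_mem _ hi (Subgroup.inv_mem _ hdi)
        rwa [mul_inv_cancel_right] at this
      have h2 := hbN _ h1 (N.pow_mem hv₀N _)
      rw [← pow_mul, ← orderOf_dvd_iff_pow_eq_one, hv₀ord] at h2
      have h3 : p ^ (μ - ε) * p ^ ε ∣ (∑ l ∈ Finset.range i, r₁ ^ l) * p ^ ε := by
        rw [← pow_add]
        have : μ - ε + ε = μ := by omega
        rw [this]; exact h2
      have h4 := Nat.dvd_of_mul_dvd_mul_right (pow_pos hpp.pos ε) h3
      exact (geom_sum_dvd_iff hpp hp r₁ hr1 (μ - ε) i).1 h4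
    have hyord : orderOf (v₀ * d) = q := by
      apply Nat.dvd_antisymm (orderOf_dvd_of_pow_eq_one hyq)
      apply hkey
      rw [pow_orderOf_eq_one]; exact Subgroup.one_mem _
    have hbord : orderOf b = p ^ ν * p ^ ε := by
      apply Nat.dvd_antisymm
      · apply orderOf_dvd_of_pow_eq_one
        rw [pow_mul, ← hz, ← hε, pow_orderOf_eq_one]
      · obtain ⟨l', hl'⟩ := hmemN b rfl (orderOf b) (by rw [pow_orderOf_eq_one]; exact N.one_mem)
        have h1 : z ^ l' = 1 := by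
          rw [hz, ← pow_mul, ← hl', pow_orderOf_eq_one]
        rw [← orderOf_dvd_iff_pow_eq_one, hε] at h1
        rw [hl']
        exact Nat.mul_dvd_mul_left _ h1
    refine ⟨Subgroup.zpowers b, Subgroup.zpowers (v₀ * d), inferInstance, inferInstance, ?_, ?_⟩
    · rw [eq_bot_iff]
      rintro x ⟨hxA, hxB⟩
      obtain ⟨i, rfl⟩ : ∃ i : ℕ, (v₀ * d) ^ i = x := mem_powers_iff_mem_zpowers.2 hxB
      obtain ⟨i', rfl⟩ := hkey i hxA
      rw [Subgroup.mem_bot, pow_mul, hyq, one_pow]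
    · rw [Nat.card_zpowers, Nat.card_zpowers, hbord, hyord, hcardG, hq, mul_assoc, ← pow_add,
        mul_comm]
      congr 2; omega

end Cfsg.Agent.S3884
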