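import Cfsg.Statements.S3895
import Mathlib
import Cfsg.Agent.S0071
import Cfsg.Agent.S3897

set_option autoImplicit false
open Cfsg
open scoped Pointwise

namespace Cfsg.Agent.S3895

section Aux

variable {G : Type*} [Group G]

/-- the classes of 2-elements -/
abbrev K2 (G : Type*) [Group G] : Type _ :=
  {c : ConjClasses G // ∀ x ∈ c.carrier, ∃ k : ℕ, orderOf x = 2 ^ k}

/-- the class of an element of a Sylow 2-subgroup, as a class of 2-elements of `G` -/
def toK2 (P : Sylow 2 G) : ConjClasses ↥(P : Subgroup G) → K2 G :=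
  Quotient.lift (fun x : ↥(P : Subgroup G) =>
      (⟨ConjClasses.mk (x : G), S3897.cls_mem P x⟩ : K2 G))
    (fun a b hab => by
      apply Subtype.ext
      show ConjClasses.mk (a : G) = ConjClasses.mk (b : G)
      rw [ConjClasses.mk_eq_mk_iff_isConj]
      have h : IsConj a b := hab
      rw [isConj_iff] at h ⊢
      obtain ⟨c, hc⟩ := h
      exact ⟨(c : G), by rw [← hc]; rfl⟩)

theorem card_K2_le [Finite G] (P : Sylow 2 G) :
    Nat.card (K2 G) ≤ Nat.card (ConjClasses ↥(P : Subgroup G)) := by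
  refine Nat.card_le_card_of_surjective (toK2 P) ?_
  intro c
  obtain ⟨x, hx⟩ := S3897.rep P c
  exact ⟨ConjClasses.mk x, Subtype.ext hx⟩

theorem card_conj_le [Finite G] (P : Sylow 2 G) (hnc : Cfsg.HasNormalPComplement 2 G) :
    Nat.card (ConjClasses ↥(P : Subgroup G)) ≤ Nat.card (K2 G) := by
  obtain ⟨P', K, hKn, hKc⟩ := hnc
  have hKP : K.IsComplement' (P : Subgroup G) := by
    apply Subgroup.isComplement'_of_coprime
    · rw [Sylow.card_eq_multiplicity P, ← Sylow.card_eq_multiplicity P']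
      exact hKc.card_mul_card
    · have h1 := Sylow.card_coprime_index P'
      rw [hKc.index_eq_card] at h1
      rw [Sylow.card_eq_multiplicity P, ← Sylow.card_eq_multiplicity P']
      exact h1.symm
  have hdisj : Disjoint K (P : Subgroup G) := hKP.disjoint
  refine Nat.card_le_card_of_injective (toK2 P) ?_
  intro c c' hcc
  obtain ⟨x, rfl⟩ := ConjClasses.exists_rep c
  obtain ⟨y, rfl⟩ := ConjClasses.exists_rep c'
  have h1 : ConjClasses.mk (x : G) = ConjClasses.mk (y : G) := congrArg Subtype.val hcc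
  rw [ConjClasses.mk_eq_mk_iff_isConj, isConj_iff] at h1
  obtain ⟨g, hg⟩ := h1
  obtain ⟨⟨⟨k, hk⟩, ⟨u, hu⟩⟩, hku⟩ := (Subgroup.isComplement'_def.mp hKP).2 g
  have hku' : k * u = g := hku
  obtain ⟨x', hx'⟩ : ∃ x' : G, x' = u * (x : G) * u⁻¹ := ⟨_, rfl⟩
  have hx'P : x' ∈ (P : Subgroup G) := by
    rw [hx']
    exact (P : Subgroup G).mul_mem ((P : Subgroup G).mul_mem hu x.2) ((P : Subgroup G).inv_mem hu)
  have hy : (y : G) = k * x' * k⁻¹ := by
    rw [← hg, ← hku', hx']; group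
  have hmemK : x'⁻¹ * y ∈ K := by
    rw [hy]
    have h3 : x'⁻¹ * k * (x'⁻¹)⁻¹ ∈ K := hKn.conj_mem k hk _
    have h4 : x'⁻¹ * (k * x' * k⁻¹) = (x'⁻¹ * k * (x'⁻¹)⁻¹) * k⁻¹ := by group
    rw [h4]; exact K.mul_mem h3 (K.inv_mem hk)
  have hmemP : x'⁻¹ * y ∈ (P : Subgroup G) :=
    (P : Subgroup G).mul_mem ((P : Subgroup G).inv_mem hx'P) y.2
  have h5 : x'⁻¹ * y = 1 := by
    have h6 : x'⁻¹ * y ∈ K ⊓ (P : Subgroup G) := ⟨hmemK, hmemP⟩
    rw [hdisj.eq_bot] at h6
    exact Subgroup.mem_bot.mp h6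
  rw [ConjClasses.mk_eq_mk_iff_isConj, isConj_iff]
  refine ⟨⟨u, hu⟩, Subtype.ext ?_⟩
  show u * (x : G) * u⁻¹ = y
  rw [← hx']
  exact inv_mul_eq_one.mp h5

/-- powers of an element conjugating `H` into itself do so too -/
theorem conj_pow_mem (H : Subgroup G) (x : G) (hx : ∀ h ∈ H, x * h * x⁻¹ ∈ H) (n : ℕ) :
    ∀ h ∈ H, x ^ n * h * (x ^ n)⁻¹ ∈ H := by
  induction n with
  | zero => intro h hh; simpa using hh
  | succ n ih =>
    intro h hh
    have h1 := hx _ (ih h hh)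
    have h2 : x ^ (n + 1) * h * (x ^ (n + 1))⁻¹ = x * (x ^ n * h * (x ^ n)⁻¹) * x⁻¹ := by
      rw [pow_succ']; group
    rw [h2]; exact h1

/-- elements acting on `Q` as an inner automorphism of `Q` -/
def innSub (Q : Subgroup G) : Subgroup G where
  carrier := {n | ∃ q ∈ Q, ∀ y ∈ Q, n * y * n⁻¹ = q * y * q⁻¹}
  one_mem' := ⟨1, Q.one_mem, fun y _ => by simp⟩
  mul_mem' := by
    rintro a b ⟨q1, hq1, h1⟩ ⟨q2, hq2, h2⟩
    refine ⟨q1 * q2, Q.mul_mem hq1 hq2, fun y hy => ?_⟩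
    have hy2 : q2 * y * q2⁻¹ ∈ Q := Q.mul_mem (Q.mul_mem hq2 hy) (Q.inv_mem hq2)
    calc a * b * y * (a * b)⁻¹ = a * (b * y * b⁻¹) * a⁻¹ := by group
      _ = a * (q2 * y * q2⁻¹) * a⁻¹ := by rw [h2 y hy]
      _ = q1 * (q2 * y * q2⁻¹) * q1⁻¹ := h1 _ hy2
      _ = q1 * q2 * y * (q1 * q2)⁻¹ := by group
  inv_mem' := by
    rintro a ⟨q, hq, h⟩
    refine ⟨q⁻¹, Q.inv_mem hq, fun y hy => ?_⟩
    have hy2 : q⁻¹ * y * q ∈ Q := Q.mul_mem (Q.mul_mem (Q.inv_mem hq) hy) hq
    have h3 := h _ hy2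
    have h4 : q * (q⁻¹ * y * q) * q⁻¹ = y := by group
    rw [h4] at h3
    calc a⁻¹ * y * a⁻¹⁻¹ = a⁻¹ * (a * (q⁻¹ * y * q) * a⁻¹) * a⁻¹⁻¹ := by rw [h3]
      _ = q⁻¹ * y * q⁻¹⁻¹ := by group

theorem le_innSub (Q : Subgroup G) : Q ⊔ Subgroup.centralizer (Q : Set G) ≤ innSub Q := by
  refine sup_le (fun q hq => ⟨q, hq, fun y _ => rfl⟩) (fun z hz => ⟨1, Q.one_mem, fun y hy => ?_⟩)
  rw [Subgroup.mem_centralizer_iff] at hz
  have h := hz y hy
  simp only [one_mul, inv_one, mul_one]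
  rw [← h, mul_inv_cancel_right]

theorem innSub_conj_mem (Q : Subgroup G) (n : G) (hn : n ∈ innSub Q) :
    ∀ y ∈ Q, n * y * n⁻¹ ∈ Q := by
  obtain ⟨q, hq, h⟩ := hn
  intro y hy
  rw [h y hy]
  exact Q.mul_mem (Q.mul_mem hq hy) (Q.inv_mem hq)

theorem innSub_odd [Finite G] (Q : Subgroup G) (hQ : IsPGroup 2 Q) (n : G) (hn : n ∈ innSub Q)
    (hodd : Nat.Coprime (orderOf n) 2) : n ∈ Subgroup.centralizer (Q : Set G) := by
  obtain ⟨q, hq, h⟩ := hn
  have hpow : ∀ j : ℕ, ∀ y ∈ Q, n ^ j * y * (n ^ j)⁻¹ = q ^ j * y * (q ^ j)⁻¹ := by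
    intro j
    induction j with
    | zero => intro y _; simp
    | succ j ih =>
      intro y hy
      have hy2 : q ^ j * y * (q ^ j)⁻¹ ∈ Q :=
        Q.mul_mem (Q.mul_mem (Q.pow_mem hq j) hy) (Q.inv_mem (Q.pow_mem hq j))
      calc n ^ (j + 1) * y * (n ^ (j + 1))⁻¹ = n * (n ^ j * y * (n ^ j)⁻¹) * n⁻¹ := by
            rw [pow_succ']; group
        _ = n * (q ^ j * y * (q ^ j)⁻¹) * n⁻¹ := by rw [ih y hy]
        _ = q * (q ^ j * y * (q ^ j)⁻¹) * q⁻¹ := h _ hy2
        _ = q ^ (j + 1) * y * (q ^ (j + 1))⁻¹ := by rw [pow_succ']; group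
  have hqo : ∀ y ∈ Q, Commute (q ^ orderOf n) y := by
    intro y hy
    have h1 := hpow (orderOf n) y hy
    rw [pow_orderOf_eq_one] at h1
    simp only [one_mul, inv_one, mul_one] at h1
    exact mul_inv_eq_iff_eq_mul.mp h1.symm
  obtain ⟨k, hk⟩ := (IsPGroup.iff_orderOf.mp hQ) ⟨q, hq⟩
  have hk' : orderOf q = 2 ^ k := by rw [← hk, Subgroup.orderOf_mk]
  have hcop : Nat.Coprime (orderOf n) (orderOf q) := by
    rw [hk']; exact Nat.Coprime.pow_right k hodd
  obtain ⟨m, hm⟩ := exists_pow_eq_self_of_coprime hcop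
  have hq' : ∀ y ∈ Q, Commute q y := by
    intro y hy
    rw [← hm]; exact (hqo y hy).pow_left m
  rw [Subgroup.mem_centralizer_iff]
  intro y hy
  have h2 := h y hy
  have h3 : q * y * q⁻¹ = y := by rw [(hq' y hy).eq, mul_inv_cancel_right]
  rw [h3] at h2
  exact (mul_inv_eq_iff_eq_mul.mp h2).symm

theorem conj_mem_C (Q : Subgroup G) (n : G) (hn : n ∈ Subgroup.normalizer (Q : Set G)) :
    ∀ c ∈ Q ⊔ Subgroup.centralizer (Q : Set G),
      n * c * n⁻¹ ∈ Q ⊔ Subgroup.centralizer (Q : Set G) := by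
  have key : Q ⊔ Subgroup.centralizer (Q : Set G) ≤
      (Q ⊔ Subgroup.centralizer (Q : Set G)).comap (MulAut.conj n).toMonoidHom := by
    refine sup_le (fun y hy => ?_) (fun z hz => ?_)
    · rw [Subgroup.mem_comap]
      show n * y * n⁻¹ ∈ _
      exact Subgroup.mem_sup_left ((Subgroup.mem_normalizer_iff.mp hn y).mp hy)
    · rw [Subgroup.mem_comap]
      show n * z * n⁻¹ ∈ _
      apply Subgroup.mem_sup_right
      rw [Subgroup.mem_centralizer_iff] at hz ⊢
      intro y hy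
      have hy' : n⁻¹ * y * n ∈ Q := (Subgroup.mem_normalizer_iff''.mp hn y).mp hy
      have h1 := hz _ hy'
      calc y * (n * z * n⁻¹) = n * (n⁻¹ * y * n * z) * n⁻¹ := by group
        _ = n * (z * (n⁻¹ * y * n)) * n⁻¹ := by rw [h1]
        _ = n * z * n⁻¹ * y := by group
  intro c hc
  exact key hc

theorem sylow_adjust [Finite G] (C : Subgroup G) (S : Sylow 2 ↥C) (g : G)
    (hg : ∀ c ∈ C, g * c * g⁻¹ ∈ C) :
    ∃ c ∈ C, ∀ h ∈ (S : Subgroup ↥C).map C.subtype,
      (c * g) * h * (c * g)⁻¹ ∈ (S : Subgroup ↥C).map C.subtype := by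
  have hgn : g ∈ Subgroup.normalizer (C : Set G) := Subgroup.mem_normalizer_fintype hg
  let φ : MulAut ↥C :=
    { toFun := fun c => ⟨g * c * g⁻¹, hg c c.2⟩
      invFun := fun c => ⟨g⁻¹ * c * g, (Subgroup.mem_normalizer_iff''.mp hgn c).mp c.2⟩
      left_inv := fun c => Subtype.ext (by simp [mul_assoc])
      right_inv := fun c => Subtype.ext (by simp [mul_assoc])
      map_mul' := fun a b => Subtype.ext (by simp [mul_assoc]) }
  obtain ⟨c, hc⟩ := MulAction.exists_smul_eq ↥C (φ • S) S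
  refine ⟨c, c.2, ?_⟩
  rintro h ⟨s, hs, rfl⟩
  have h1 : φ • s ∈ φ • (S : Subgroup ↥C) :=
    Subgroup.smul_mem_pointwise_smul s φ (S : Subgroup ↥C) hs
  have h2 : φ • s ∈ ((φ • S : Sylow 2 ↥C) : Subgroup ↥C) := by
    rw [Sylow.pointwise_smul_def]; exact h1
  have h3 : MulAut.conj c • (φ • s) ∈ MulAut.conj c • ((φ • S : Sylow 2 ↥C) : Subgroup ↥C) :=
    Subgroup.smul_mem_pointwise_smul _ _ _ h2
  rw [← Sylow.coe_subgroup_smul, hc] at h3
  refine ⟨MulAut.conj c • (φ • s), h3, ?_⟩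
  show (c : G) * (g * s * g⁻¹) * (c : G)⁻¹ = c * g * s * (c * g)⁻¹
  group

theorem mem_of_max [Finite G] (Q : Subgroup G) (hQ : IsPGroup 2 Q) (g : G)
    (hg : g ∈ Subgroup.normalizer (Q : Set G)) (hodd : Nat.Coprime (orderOf g) 2)
    (hgc : g ∉ Subgroup.centralizer (Q : Set G))
    (hmax : ∀ Q' : Subgroup G, IsPGroup 2 Q' →
      (∃ g' ∈ Subgroup.normalizer (Q' : Set G), Nat.Coprime (orderOf g') 2 ∧
        g' ∉ Subgroup.centralizer (Q' : Set G)) → Nat.card Q' ≤ Nat.card Q) :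
    ∀ x ∈ Subgroup.centralizer (Q : Set G), (∃ k : ℕ, orderOf x = 2 ^ k) → x ∈ Q := by
  obtain ⟨C, hC⟩ : ∃ C : Subgroup G, C = Q ⊔ Subgroup.centralizer (Q : Set G) := ⟨_, rfl⟩
  have hQC : Q ≤ C := by rw [hC]; exact le_sup_left
  have hCD : C ≤ innSub Q := by rw [hC]; exact le_innSub Q
  have hgC : g ∉ C := fun h => hgc (innSub_odd Q hQ g (hCD h) hodd)
  have hgconj : ∀ c ∈ C, g * c * g⁻¹ ∈ C := by rw [hC]; exact conj_mem_C Q g hg
  have hQ' : IsPGroup 2 (Q.subgroupOf C) :=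
    hQ.comap_of_injective C.subtype Subtype.coe_injective
  obtain ⟨S, hS⟩ := hQ'.exists_le_sylow
  obtain ⟨S', hS'⟩ : ∃ S' : Subgroup G, S' = (S : Subgroup ↥C).map C.subtype := ⟨_, rfl⟩
  have hS'2 : IsPGroup 2 S' := by rw [hS']; exact S.isPGroup'.map C.subtype
  have hQS' : Q ≤ S' := by
    intro y hy
    rw [hS']
    exact ⟨⟨y, hQC hy⟩, hS (Subgroup.mem_subgroupOf.mpr hy), rfl⟩
  obtain ⟨c, hcC, hcg⟩ := sylow_adjust C S g hgconj
  rw [← hS'] at hcg
  obtain ⟨g1, hg1⟩ : ∃ g1 : G, g1 = c * g := ⟨_, rfl⟩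
  rw [← hg1] at hcg
  obtain ⟨a, b, hb, hab⟩ := Nat.exists_eq_two_pow_mul_odd (orderOf_pos g1).ne'
  obtain ⟨g2, hg2⟩ : ∃ g2 : G, g2 = g1 ^ (2 ^ a) := ⟨_, rfl⟩
  have ho2 : orderOf g2 = b := by
    rw [hg2, orderOf_pow_of_dvd (pow_ne_zero _ two_ne_zero)
      (by rw [hab]; exact dvd_mul_right _ _), hab]
    exact Nat.mul_div_cancel_left _ (pow_pos two_pos _)
  have hodd2 : Nat.Coprime (orderOf g2) 2 := by
    rw [ho2]; exact Nat.coprime_two_right.mpr hb
  have hg1Q : ∀ y ∈ Q, g1 * y * g1⁻¹ ∈ Q := by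
    intro y hy
    have h1 : g * y * g⁻¹ ∈ Q := (Subgroup.mem_normalizer_iff.mp hg y).mp hy
    have h2 := innSub_conj_mem Q c (hCD hcC) _ h1
    have h3 : g1 * y * g1⁻¹ = c * (g * y * g⁻¹) * c⁻¹ := by rw [hg1]; group
    rw [h3]; exact h2
  have hg2S : ∀ h ∈ S', g2 * h * g2⁻¹ ∈ S' := by
    rw [hg2]; exact conj_pow_mem S' g1 hcg (2 ^ a)
  have hg2c : g2 ∉ Subgroup.centralizer (Q : Set G) := by
    intro h
    have h1 : g2 ∈ C := by rw [hC]; exact Subgroup.mem_sup_right h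
    have hpm : ∀ j : ℕ, (c * g) ^ j * (g ^ j)⁻¹ ∈ C := by
      intro j
      induction j with
      | zero => simp
      | succ j ih =>
        have h2 : g ^ j * c * (g ^ j)⁻¹ ∈ C := conj_pow_mem C g hgconj j c hcC
        have h3 : (c * g) ^ (j + 1) * (g ^ (j + 1))⁻¹ =
            ((c * g) ^ j * (g ^ j)⁻¹) * (g ^ j * c * (g ^ j)⁻¹) := by
          rw [pow_succ, pow_succ]; group
        rw [h3]; exact C.mul_mem ih h2
    have h4 : g ^ (2 ^ a) ∈ C := by
      have h5 := C.mul_mem (C.inv_mem (hpm (2 ^ a))) h1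
      have h6 : ((c * g) ^ (2 ^ a) * (g ^ (2 ^ a))⁻¹)⁻¹ * g2 = g ^ (2 ^ a) := by
        rw [hg2, hg1]; group
      rwa [h6] at h5
    obtain ⟨m, hm⟩ := exists_pow_eq_self_of_coprime (x := g) (n := 2 ^ a)
      (Nat.Coprime.pow_left a hodd.symm)
    exact hgC (by rw [← hm]; exact C.pow_mem h4 m)
  have hg2cS : g2 ∉ Subgroup.centralizer (S' : Set G) :=
    fun h => hg2c (Subgroup.centralizer_le (SetLike.coe_subset_coe.mpr hQS') h)
  have hcard := hmax S' hS'2 ⟨g2, Subgroup.mem_normalizer_fintype hg2S, hodd2, hg2cS⟩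
  have hSQ : Q = S' := Subgroup.eq_of_le_of_card_ge hQS' hcard
  intro x hx ⟨k, hk⟩
  have hxC : x ∈ C := by rw [hC]; exact Subgroup.mem_sup_right hx
  have hzp : IsPGroup 2 (Subgroup.zpowers (⟨x, hxC⟩ : ↥C)) :=
    IsPGroup.of_card (by rw [Nat.card_zpowers, Subgroup.orderOf_mk]; exact hk)
  obtain ⟨S2, hS2⟩ := hzp.exists_le_sylow
  obtain ⟨d, hd⟩ := MulAction.exists_smul_eq ↥C S S2
  have hxS2 : (⟨x, hxC⟩ : ↥C) ∈ (S2 : Subgroup ↥C) := hS2 (Subgroup.mem_zpowers _)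
  rw [← hd, Sylow.coe_subgroup_smul, Subgroup.mem_pointwise_smul_iff_inv_smul_mem] at hxS2
  have h7 : (d : G)⁻¹ * x * d ∈ S' := by
    rw [hS']
    refine ⟨_, hxS2, ?_⟩
    simp [MulAut.smul_def]
  rw [← hSQ] at h7
  have h8 := innSub_conj_mem Q d (hCD d.2) _ h7
  have h9 : (d : G) * ((d : G)⁻¹ * x * d) * (d : G)⁻¹ = x := by group
  rwa [h9] at h8

theorem fix_card [Finite G] (Q : Subgroup G) (hQ : IsPGroup 2 Q) (g : G)
    (hg : g ∈ Subgroup.normalizer (Q : Set G)) (hodd : Nat.Coprime (orderOf g) 2)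
    (hgc : g ∉ Subgroup.centralizer (Q : Set G)) :
    4 * Nat.card ↥(Q ⊓ Subgroup.centralizer ({g} : Set G)) ≤ Nat.card Q := by
  obtain ⟨D0, hD0⟩ : ∃ D0 : Subgroup G, D0 = Q ⊓ Subgroup.centralizer ({g} : Set G) := ⟨_, rfl⟩
  rw [← hD0]
  have hD0Q : D0 ≤ Q := by rw [hD0]; exact inf_le_left
  have hcomm : ∀ d ∈ D0, g * d = d * g := by
    intro d hd
    rw [hD0, Subgroup.mem_inf] at hd
    have h1 := hd.2
    rw [Subgroup.mem_centralizer_iff] at h1
    exact h1 g (Set.mem_singleton g)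
  have hmemD : ∀ y ∈ Q, g * y = y * g → y ∈ D0 := by
    intro y hy h
    rw [hD0, Subgroup.mem_inf]
    refine ⟨hy, ?_⟩
    rw [Subgroup.mem_centralizer_iff]
    intro h' hh
    rw [Set.mem_singleton_iff] at hh
    rw [hh]; exact h
  obtain ⟨H, hH⟩ : ∃ H : Subgroup ↥Q, H = D0.subgroupOf Q := ⟨_, rfl⟩
  have hcard : Nat.card H = Nat.card D0 := by
    rw [hH]; exact Nat.card_congr (Subgroup.subgroupOfEquivOfLe hD0Q).toEquiv
  have hidx := Subgroup.card_mul_index H
  obtain ⟨j, hj⟩ := hQ.index H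
  have hj0 : j ≠ 0 := by
    rintro rfl
    rw [pow_zero] at hj
    have htop : H = ⊤ := Subgroup.index_eq_one.mp hj
    apply hgc
    rw [Subgroup.mem_centralizer_iff]
    intro y hy
    have h1 : (⟨y, hy⟩ : ↥Q) ∈ H := by rw [htop]; exact Subgroup.mem_top _
    rw [hH] at h1
    have hyD : y ∈ D0 := Subgroup.mem_subgroupOf.mp h1
    exact (hcomm y hyD).symm
  have hj1 : j ≠ 1 := by
    rintro rfl
    rw [pow_one] at hj
    have hne : H ≠ ⊤ := by
      intro h; rw [h, Subgroup.index_top] at hj; omega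
    obtain ⟨y, hy⟩ : ∃ y : ↥Q, y ∉ H := by
      by_contra hcon
      push Not at hcon
      exact hne ((Subgroup.eq_top_iff' H).mpr hcon)
    have hy1Q : g * (y : G) * g⁻¹ ∈ Q := (Subgroup.mem_normalizer_iff.mp hg y).mp y.2
    have hy1 : (⟨g * (y : G) * g⁻¹, hy1Q⟩ : ↥Q) ∉ H := by
      intro h
      apply hy
      rw [hH] at h ⊢
      have hD : g * (y : G) * g⁻¹ ∈ D0 := Subgroup.mem_subgroupOf.mp h
      have h1 := hcomm _ hD
      have h2 : g * (y : G) * g⁻¹ = y := by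
        have h3 : g * (g * (y : G) * g⁻¹) = g * y := by rw [h1]; group
        exact mul_left_cancel h3
      rw [Subgroup.mem_subgroupOf, ← h2]; exact hD
    have hyinv : y⁻¹ ∉ H := fun h => hy (by simpa using H.inv_mem h)
    have hprod : y⁻¹ * (⟨g * (y : G) * g⁻¹, hy1Q⟩ : ↥Q) ∈ H :=
      (Subgroup.mul_mem_iff_of_index_two hj).mpr
        ⟨fun h => absurd h hyinv, fun h => absurd h hy1⟩
    rw [hH] at hprod
    have hdD : (y : G)⁻¹ * (g * y * g⁻¹) ∈ D0 := Subgroup.mem_subgroupOf.mp hprod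
    obtain ⟨d, hd⟩ : ∃ d : G, d = (y : G)⁻¹ * (g * y * g⁻¹) := ⟨_, rfl⟩
    rw [← hd] at hdD
    have hgy : g * (y : G) * g⁻¹ = y * d := by rw [hd]; group
    have hpow : ∀ i : ℕ, g ^ i * (y : G) * (g ^ i)⁻¹ = y * d ^ i := by
      intro i
      induction i with
      | zero => simp
      | succ i ih =>
        have hgdi : g * d ^ i = d ^ i * g :=
          ((show Commute g d from hcomm d hdD).pow_right i).eq
        calc g ^ (i + 1) * (y : G) * (g ^ (i + 1))⁻¹
            = g * (g ^ i * (y : G) * (g ^ i)⁻¹) * g⁻¹ := by rw [pow_succ']; group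
          _ = g * (y * d ^ i) * g⁻¹ := by rw [ih]
          _ = (g * y * g⁻¹) * (g * d ^ i * g⁻¹) := by group
          _ = (y * d) * d ^ i := by rw [hgy, hgdi, mul_inv_cancel_right]
          _ = y * d ^ (i + 1) := by rw [pow_succ', mul_assoc]
    have h1 := hpow (orderOf g)
    rw [pow_orderOf_eq_one] at h1
    simp only [one_mul, inv_one, mul_one] at h1
    have hdo : d ^ orderOf g = 1 := by
      have h2 : (y : G) * 1 = y * d ^ orderOf g := by rw [mul_one]; exact h1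
      exact (mul_left_cancel h2).symm
    obtain ⟨k, hk⟩ := (IsPGroup.iff_orderOf.mp hQ) ⟨d, hD0Q hdD⟩
    have hk' : orderOf d = 2 ^ k := by rw [← hk, Subgroup.orderOf_mk]
    have hdvd : orderOf d ∣ orderOf g := orderOf_dvd_of_pow_eq_one hdo
    have hd1 : orderOf d = 1 :=
      Nat.eq_one_of_dvd_coprimes (Nat.Coprime.pow_right k hodd) hdvd (by rw [hk'])
    have hd1' : d = 1 := orderOf_eq_one_iff.mp hd1
    apply hy
    rw [hH, Subgroup.mem_subgroupOf]
    apply hmemD _ y.2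
    rw [hd1', mul_one] at hgy
    exact mul_inv_eq_iff_eq_mul.mp hgy
  have h4 : 4 ∣ H.index := by
    rw [hj]
    obtain ⟨j', rfl⟩ : ∃ j', j = j' + 2 := ⟨j - 2, by omega⟩
    exact ⟨2 ^ j', by ring⟩
  obtain ⟨t, ht⟩ := h4
  rw [ht, hcard] at hidx
  have hpos : 0 < Nat.card Q := Nat.card_pos
  have ht0 : 0 < t := by
    rcases Nat.eq_zero_or_pos t with h | h
    · rw [h] at hidx; simp at hidx; omega
    · exact h
  nlinarith

theorem count_le [Finite G] (P : Sylow 2 G) (Q : Subgroup G) (hQ : IsPGroup 2 Q) (g : G)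
    (hg : g ∈ Subgroup.normalizer (Q : Set G)) (hodd : Nat.Coprime (orderOf g) 2)
    (hgc : g ∉ Subgroup.centralizer (Q : Set G))
    (hcen : ∀ x ∈ Subgroup.centralizer (Q : Set G), (∃ k : ℕ, orderOf x = 2 ^ k) → x ∈ Q) :
    2 * Nat.card (K2 G) ≤ Nat.card (P : Subgroup G) := by
  classical
  obtain ⟨P1, hQP1⟩ := hQ.exists_le_sylow
  have hcardP : Nat.card (P1 : Subgroup G) = Nat.card (P : Subgroup G) := by
    rw [Sylow.card_eq_multiplicity, Sylow.card_eq_multiplicity]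
  letI : Fintype G := Fintype.ofFinite G
  obtain ⟨cls, hcls⟩ : ∃ cls : G → ConjClasses G, cls = ConjClasses.mk := ⟨_, rfl⟩
  have hclsconj : ∀ u z : G, cls (u * z * u⁻¹) = cls z := by
    intro u z
    rw [hcls]
    exact ConjClasses.mk_eq_mk_iff_isConj.mpr (isConj_iff.mpr ⟨u, rfl⟩).symm
  obtain ⟨sP, hsP⟩ : ∃ sP : Finset G, sP = Finset.univ.filter (fun x => x ∈ (P1 : Subgroup G)) :=
    ⟨_, rfl⟩
  obtain ⟨sQ, hsQ⟩ : ∃ sQ : Finset G, sQ = Finset.univ.filter (fun x => x ∈ Q) := ⟨_, rfl⟩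
  have hmemP : ∀ x, x ∈ sP ↔ x ∈ (P1 : Subgroup G) := by intro x; rw [hsP]; simp
  have hmemQ : ∀ x, x ∈ sQ ↔ x ∈ Q := by intro x; rw [hsQ]; simp
  have hcsP : sP.card = Nat.card (P1 : Subgroup G) := (Nat.subtype_card sP hmemP).symm
  have hcsQ : sQ.card = Nat.card Q := (Nat.subtype_card sQ hmemQ).symm
  have h1 : Nat.card (K2 G) ≤ (sP.image cls).card := by
    have h : Nat.card (K2 G) ≤ Nat.card {c : ConjClasses G // c ∈ sP.image cls} :=
      Nat.card_le_card_of_injective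
        (fun c : K2 G => (⟨c.1, by
          obtain ⟨x, hx⟩ := S3897.rep P1 c
          exact Finset.mem_image.mpr ⟨(x : G), (hmemP _).mpr x.2, by rw [hcls]; exact hx⟩⟩ :
            {c : ConjClasses G // c ∈ sP.image cls}))
        (fun a b hab => Subtype.ext (show a.1 = b.1 from congrArg (fun t => t.1) hab))
    rwa [Nat.subtype_card (sP.image cls) (fun x => Iff.rfl)] at h
  obtain ⟨sB, hsB⟩ : ∃ sB : Finset G, sB = sP.filter (fun x => cls x ∉ sQ.image cls) := ⟨_, rfl⟩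
  have h2 : sP.image cls ⊆ sQ.image cls ∪ sB.image cls := by
    intro a ha
    obtain ⟨x, hx, rfl⟩ := Finset.mem_image.mp ha
    by_cases h : cls x ∈ sQ.image cls
    · exact Finset.mem_union_left _ h
    · refine Finset.mem_union_right _ (Finset.mem_image_of_mem _ ?_)
      rw [hsB]; exact Finset.mem_filter.mpr ⟨hx, h⟩
  have h3 : (sP.image cls).card ≤ (sQ.image cls).card + (sB.image cls).card :=
    (Finset.card_le_card h2).trans (Finset.card_union_le _ _)
  have hsQP : sQ ⊆ sP := fun x hx => (hmemP x).mpr (hQP1 ((hmemQ x).mp hx))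
  have h4 : sB.card + sQ.card ≤ sP.card := by
    have hdisj : Disjoint sB sQ := by
      rw [Finset.disjoint_left]
      intro x hxB hxQ
      rw [hsB] at hxB
      exact (Finset.mem_filter.mp hxB).2 (Finset.mem_image_of_mem _ hxQ)
    rw [← Finset.card_union_of_disjoint hdisj]
    refine Finset.card_le_card (Finset.union_subset ?_ hsQP)
    rw [hsB]; exact Finset.filter_subset _ _
  have h5 : 2 * (sB.image cls).card ≤ sB.card := by
    apply Finset.mul_card_image_le_card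
    intro a ha
    obtain ⟨x, hx, rfl⟩ := Finset.mem_image.mp ha
    have hx0 := hx
    rw [hsB] at hx0
    obtain ⟨hxP, hxn⟩ := Finset.mem_filter.mp hx0
    have hxP' : x ∈ (P1 : Subgroup G) := (hmemP x).mp hxP
    have hxQ : x ∉ Q := fun h => hxn (Finset.mem_image_of_mem _ ((hmemQ x).mpr h))
    have hx2 : ∃ k : ℕ, orderOf x = 2 ^ k := by
      obtain ⟨k, hk⟩ := (IsPGroup.iff_orderOf.mp P1.isPGroup') ⟨x, hxP'⟩
      exact ⟨k, by rw [← hk, Subgroup.orderOf_mk]⟩
    have hxc : x ∉ Subgroup.centralizer (Q : Set G) := fun h => hxQ (hcen x h hx2)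
    rw [Subgroup.mem_centralizer_iff] at hxc
    push Not at hxc
    obtain ⟨u, hu, hux⟩ := hxc
    have hu' : u ∈ Q := hu
    have hx' : u * x * u⁻¹ ∈ sB := by
      rw [hsB]
      refine Finset.mem_filter.mpr ⟨(hmemP _).mpr ((P1 : Subgroup G).mul_mem
        ((P1 : Subgroup G).mul_mem (hQP1 hu') hxP') ((P1 : Subgroup G).inv_mem (hQP1 hu'))), ?_⟩
      rw [hclsconj]; exact hxn
    have hne : u * x * u⁻¹ ≠ x := fun h => hux (mul_inv_eq_iff_eq_mul.mp h)
    have hsub : ({x, u * x * u⁻¹} : Finset G) ⊆ sB.filter (fun y => cls y = cls x) := by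
      intro y hy
      rcases Finset.mem_insert.mp hy with rfl | hy
      · exact Finset.mem_filter.mpr ⟨hx, rfl⟩
      · rw [Finset.mem_singleton] at hy
        rw [hy]
        exact Finset.mem_filter.mpr ⟨hx', hclsconj u x⟩
    calc 2 = ({x, u * x * u⁻¹} : Finset G).card := (Finset.card_pair (Ne.symm hne)).symm
      _ ≤ _ := Finset.card_le_card hsub
  have h6 : 2 * (sQ.image cls).card ≤ sQ.card := by
    obtain ⟨F, hF⟩ : ∃ F : Finset G, F = sQ.filter (fun y => g * y * g⁻¹ = y) := ⟨_, rfl⟩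
    obtain ⟨M, hM⟩ : ∃ M : Finset G, M = sQ.filter (fun y => ¬ g * y * g⁻¹ = y) := ⟨_, rfl⟩
    have hFM : F.card + M.card = sQ.card := by
      rw [hF, hM]; exact Finset.card_filter_add_card_filter_not _
    have hsub : sQ.image cls ⊆ F.image cls ∪ M.image cls := by
      intro a ha
      obtain ⟨y, hy, rfl⟩ := Finset.mem_image.mp ha
      by_cases h : g * y * g⁻¹ = y
      · refine Finset.mem_union_left _ (Finset.mem_image_of_mem _ ?_)
        rw [hF]; exact Finset.mem_filter.mpr ⟨hy, h⟩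
      · refine Finset.mem_union_right _ (Finset.mem_image_of_mem _ ?_)
        rw [hM]; exact Finset.mem_filter.mpr ⟨hy, h⟩
    have hF1 : (F.image cls).card ≤ F.card := Finset.card_image_le
    have hc1 : ∀ z ∈ Q, g * z * g⁻¹ ∈ Q := fun z hz => (Subgroup.mem_normalizer_iff.mp hg z).mp hz
    have hmem : ∀ z, z ∈ M → g * z * g⁻¹ ∈ M := by
      intro z hz
      rw [hM] at hz ⊢
      obtain ⟨hzQ, hzn⟩ := Finset.mem_filter.mp hz
      refine Finset.mem_filter.mpr ⟨(hmemQ _).mpr (hc1 z ((hmemQ z).mp hzQ)), ?_⟩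
      intro h
      apply hzn
      have h' : g * (g * z * g⁻¹) = g * z := by
        have h2 := congrArg (fun t => t * g) h
        simpa [mul_assoc] using h2
      exact mul_left_cancel h'
    have hM3 : 3 * (M.image cls).card ≤ M.card := by
      apply Finset.mul_card_image_le_card
      intro a ha
      obtain ⟨y, hy, rfl⟩ := Finset.mem_image.mp ha
      have hyn : ¬ g * y * g⁻¹ = y := by
        have hy0 := hy
        rw [hM] at hy0
        exact (Finset.mem_filter.mp hy0).2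
      obtain ⟨y1, hy1⟩ : ∃ y1 : G, y1 = g * y * g⁻¹ := ⟨_, rfl⟩
      obtain ⟨y2, hy2⟩ : ∃ y2 : G, y2 = g * y1 * g⁻¹ := ⟨_, rfl⟩
      have hy1M : y1 ∈ M := by rw [hy1]; exact hmem y hy
      have hy2M : y2 ∈ M := by rw [hy2]; exact hmem y1 hy1M
      have h12 : y ≠ y1 := fun h => hyn (by rw [← hy1]; exact h.symm)
      have h23 : y1 ≠ y2 := by
        intro h
        have hy1n : ¬ g * y1 * g⁻¹ = y1 := by
          have hy0 := hy1M
          rw [hM] at hy0
          exact (Finset.mem_filter.mp hy0).2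
        exact hy1n (by rw [← hy2]; exact h.symm)
      have h13 : y ≠ y2 := by
        intro h
        have hc2 : Commute (g ^ 2) y := by
          have h' : g ^ 2 * y * (g ^ 2)⁻¹ = y :=
            calc g ^ 2 * y * (g ^ 2)⁻¹ = g * (g * y * g⁻¹) * g⁻¹ := by rw [pow_two]; group
              _ = y2 := by rw [hy2, hy1]
              _ = y := h.symm
          exact mul_inv_eq_iff_eq_mul.mp h'
        obtain ⟨m, hm⟩ := exists_pow_eq_self_of_coprime (x := g) (n := 2) hodd.symm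
        have hc : Commute g y := by rw [← hm]; exact hc2.pow_left m
        exact hyn (by rw [hc.eq, mul_inv_cancel_right])
      have hsub3 : ({y, y1, y2} : Finset G) ⊆ M.filter (fun z => cls z = cls y) := by
        intro z hz
        simp only [Finset.mem_insert, Finset.mem_singleton] at hz
        rcases hz with rfl | rfl | rfl
        · exact Finset.mem_filter.mpr ⟨hy, rfl⟩
        · exact Finset.mem_filter.mpr ⟨hy1M, by rw [hy1]; exact hclsconj g y⟩
        · exact Finset.mem_filter.mpr ⟨hy2M, by rw [hy2, hclsconj g, hy1]; exact hclsconj g y⟩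
      calc 3 = ({y, y1, y2} : Finset G).card :=
            (Finset.card_eq_three.mpr ⟨y, y1, y2, h12, h13, h23, rfl⟩).symm
        _ ≤ _ := Finset.card_le_card hsub3
    have hF4 : 4 * F.card ≤ sQ.card := by
      have h := fix_card Q hQ g hg hodd hgc
      have hFc : F.card = Nat.card ↥(Q ⊓ Subgroup.centralizer ({g} : Set G)) := by
        refine (Nat.subtype_card F (fun x => ?_)).symm
        rw [hF, Finset.mem_filter, hmemQ, Subgroup.mem_inf, Subgroup.mem_centralizer_iff]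
        constructor
        · rintro ⟨hxQ, hx⟩
          refine ⟨hxQ, fun h' hh => ?_⟩
          rw [Set.mem_singleton_iff] at hh
          rw [hh]; exact mul_inv_eq_iff_eq_mul.mp hx
        · rintro ⟨hxQ, hx⟩
          exact ⟨hxQ, mul_inv_eq_iff_eq_mul.mpr (hx g (Set.mem_singleton g))⟩
      rw [hFc, hcsQ]; exact h
    have h7 := Finset.card_le_card hsub
    have h8 := Finset.card_union_le (F.image cls) (M.image cls)
    omega
  omega

end Aux

/-- The number k_2(G) of conjugacy classes of 2-elements of a finite group G exceeds |P|/2, P a Sylow 2-subgroup, if and only if G has a normal 2-complement and k(P) > |P|/2. -/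
theorem result {G : Type*} [Group G] [Finite G] (P : Sylow 2 G) :
    Nat.card ↥(P : Subgroup G) < 2 * Nat.card {c : ConjClasses G // ∀ x ∈ c.carrier, ∃ k : ℕ, orderOf x = 2 ^ k} ↔
      Cfsg.HasNormalPComplement 2 G ∧ Nat.card ↥(P : Subgroup G) < 2 * Nat.card (ConjClasses ↥(P : Subgroup G)) := by
  constructor
  · intro h
    have hnc : Cfsg.HasNormalPComplement 2 G := by
      by_contra hnc
      have h0 : ¬ ∃ N : Subgroup G, N.Normal ∧ N.IsComplement' (P : Subgroup G) :=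
        fun ⟨N, hN, hNc⟩ => hnc ⟨P, N, hN, hNc⟩
      rw [Cfsg.Agent.S0071.result P] at h0
      push Not at h0
      obtain ⟨Q0, hQ0P, g0, hg0, hodd0, hgc0⟩ := h0
      have hQ02 : IsPGroup 2 Q0 := P.isPGroup'.to_le hQ0P
      have hfin : ({Q : Subgroup G | IsPGroup 2 Q ∧ ∃ g ∈ Subgroup.normalizer (Q : Set G),
          Nat.Coprime (orderOf g) 2 ∧ g ∉ Subgroup.centralizer (Q : Set G)}).Finite :=
        Set.toFinite _
      obtain ⟨Q, ⟨hQ2, g, hg, hodd, hgc⟩, hmax⟩ :=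
        Set.exists_max_image _ (fun Q : Subgroup G => Nat.card Q) hfin
          ⟨Q0, hQ02, g0, hg0, hodd0, hgc0⟩
      have hcen := mem_of_max Q hQ2 g hg hodd hgc (fun Q' h1 h2 => hmax Q' ⟨h1, h2⟩)
      have h9 : 2 * Nat.card {c : ConjClasses G // ∀ x ∈ c.carrier, ∃ k : ℕ, orderOf x = 2 ^ k} ≤
          Nat.card ↥(P : Subgroup G) := count_le P Q hQ2 g hg hodd hgc hcen
      omega
    exact ⟨hnc, lt_of_lt_of_le h (Nat.mul_le_mul_left 2 (card_K2_le P))⟩
  · rintro ⟨hnc, h⟩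
    exact lt_of_lt_of_le h (Nat.mul_le_mul_left 2 (card_conj_le P hnc))

end Cfsg.Agent.S3895
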