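import Cfsg.Statements.S3899
import Cfsg.Agent.S3897
import Cfsg.Agent.Lib.Helper1.PiClasses

set_option autoImplicit false
open Cfsg

namespace Cfsg.Agent.S3899

open Cfsg.Agent.Lib.Helper1.PiClasses
open scoped commutatorElement

universe u

/-- translation of the count used in S3897 -/
theorem kpi_singleton_eq {G : Type u} [Group G] [Finite G] {r : ℕ} (hr : r.Prime) :
    kpi {r} G = Nat.card {c : ConjClasses G // ∀ x ∈ c.carrier, ∃ k : ℕ, orderOf x = r ^ k} := by
  unfold kpi PiCls
  refine Nat.card_congr (Equiv.subtypeEquivRight (fun c => ?_))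
  constructor
  · intro h x hx; exact (isPiElt_singleton_iff hr).mp (h x hx)
  · intro h x hx; exact (isPiElt_singleton_iff hr).mpr (h x hx)

/-- a normal complement to an abelian Sylow subgroup contains the commutator subgroup -/
theorem commutator_le_of_compl {G : Type u} [Group G] {r : ℕ} [Fact r.Prime] (P : Sylow r G)
    (N : Subgroup G) [N.Normal] (hc : N.IsComplement' (P : Subgroup G))
    (hab : IsMulCommutative (P : Subgroup G)) : commutator G ≤ N := by
  rw [commutator_def, Subgroup.commutator_le]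
  intro a _ b _
  obtain ⟨⟨n₁, x₁⟩, h1, -⟩ := Subgroup.IsComplement.existsUnique hc a
  obtain ⟨⟨n₂, x₂⟩, h2, -⟩ := Subgroup.IsComplement.existsUnique hc b
  simp only at h1 h2
  have hφ : ∀ g : G, g ∈ N ↔ (QuotientGroup.mk' N) g = 1 := by
    intro g
    rw [QuotientGroup.mk'_apply, QuotientGroup.eq_one_iff]
  rw [hφ, map_commutatorElement, ← h1, ← h2, map_mul, map_mul,
    (hφ _).mp n₁.2, (hφ _).mp n₂.2, one_mul, one_mul, ← map_commutatorElement]
  have hx : ⁅(x₁ : G), (x₂ : G)⁆ = 1 := by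
    rw [commutatorElement_eq_one_iff_mul_comm]
    have := hab.is_comm.comm (⟨x₁.1, x₁.2⟩ : (P : Subgroup G)) ⟨x₂.1, x₂.2⟩
    exact congrArg Subtype.val this
  rw [hx, map_one]

/-- the statement for one prime `r ∈ π` -/
theorem prime_step {G : Type u} [Group G] [Finite G] (π : Finset ℕ) (hπ : ∀ r ∈ π, r.Prime)
    (h2 : 2 ∉ π) (p : ℕ) (hp : p ∈ π) (hmin : ∀ r ∈ π, p ≤ r)
    (hk : (p + 1) * piPart π (Nat.card G) < 2 * p * kpi (↑π) G) (r : ℕ) (hr : r ∈ π) :
    ∃ N : Subgroup G, N.Normal ∧ commutator G ≤ N ∧ (∃ k : ℕ, N.index = r ^ k) ∧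
      ¬ r ∣ Nat.card N := by
  have hrp := hπ r hr
  have : Fact r.Prime := ⟨hrp⟩
  have h1 := kpi_le_mul_erase (G := G) π hπ hr
  have h3 := piPart_eq_mul_erase π hr (Nat.card G)
  have hpos := piPart_pos (π.erase r) (fun q hq => hπ q (Finset.mem_of_mem_erase hq)) (Nat.card G)
  have h4 : (p + 1) * r ^ (Nat.card G).factorization r < 2 * p * kpi {r} G := by
    have h5 : (p + 1) * (r ^ (Nat.card G).factorization r * piPart (π.erase r) (Nat.card G))
        < 2 * p * (kpi {r} G * piPart (π.erase r) (Nat.card G)) := by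
      rw [← h3]; exact lt_of_lt_of_le hk (Nat.mul_le_mul_left _ h1)
    by_contra hcon
    push Not at hcon
    have h6 := Nat.mul_le_mul_right (piPart (π.erase r) (Nat.card G)) hcon
    have h7 : 2 * p * (kpi {r} G * piPart (π.erase r) (Nat.card G))
        = 2 * p * kpi {r} G * piPart (π.erase r) (Nat.card G) := by ring
    have h8 : (p + 1) * (r ^ (Nat.card G).factorization r * piPart (π.erase r) (Nat.card G))
        = (p + 1) * r ^ (Nat.card G).factorization r * piPart (π.erase r) (Nat.card G) := by ring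
    rw [h7, h8] at h5
    exact absurd h5 (not_lt.mpr h6)
  have h5 : ∀ P : Sylow r G, (r + 1) * Nat.card (P : Subgroup G) < 2 * r *
      Nat.card {c : ConjClasses G // ∀ x ∈ c.carrier, ∃ k : ℕ, orderOf x = r ^ k} := by
    intro P
    rw [← kpi_singleton_eq hrp, Sylow.card_eq_multiplicity P]
    have hpr := hmin r hr
    have hp0 : 0 < p := (hπ p hp).pos
    set R := r ^ (Nat.card G).factorization r with hR
    set k := kpi ({r} : Set ℕ) G with hkdef
    -- p * (2 r k) = r * (2 p k) > r (p+1) R ≥ p (r+1) R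
    have h6 : r * ((p + 1) * R) < r * (2 * p * k) := Nat.mul_lt_mul_of_pos_left h4 hrp.pos
    have h7 : p * ((r + 1) * R) ≤ r * ((p + 1) * R) := by
      have : p * (r + 1) ≤ r * (p + 1) := by nlinarith
      calc p * ((r + 1) * R) = p * (r + 1) * R := by ring
        _ ≤ r * (p + 1) * R := Nat.mul_le_mul_right _ this
        _ = r * ((p + 1) * R) := by ring
    have h8 : p * ((r + 1) * R) < p * (2 * r * k) := by
      calc p * ((r + 1) * R) ≤ r * ((p + 1) * R) := h7
        _ < r * (2 * p * k) := h6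
        _ = p * (2 * r * k) := by ring
    exact lt_of_mul_lt_mul_left h8 (Nat.zero_le _)
  have hr2 : r ≠ 2 := fun h => h2 (h ▸ hr)
  obtain ⟨P⟩ : Nonempty (Sylow r G) := inferInstance
  obtain ⟨⟨P', N, hN, hcompl⟩, -⟩ := (Cfsg.Agent.S3897.result hr2 P).mp (h5 P)
  obtain ⟨-, hab⟩ := (Cfsg.Agent.S3897.result hr2 P').mp (h5 P')
  refine ⟨N, hN, ?_, ?_, ?_⟩
  · have := hN
    exact commutator_le_of_compl P' N hcompl hab
  · refine ⟨(Nat.card G).factorization r, ?_⟩
    rw [hcompl.symm.index_eq_card, Sylow.card_eq_multiplicity P']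
  · rw [← hcompl.index_eq_card]
    exact P'.not_dvd_index

/-- Let π be a finite non-empty set of odd primes with smallest member p and G a finite group. Write k_π(G) for the number of conjugacy classes of G consisting of π-elements (elements all of whose order's prime divisors lie in π) and |G|_π for the π-part of the order of G. If k_π(G) > (p + 1)|G|_π/(2p), then G has a normal π-complement (a normal subgroup of order prime to π whose index is a π-number) and an abelian Hall π-subgroup. -/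
theorem result {G : Type*} [Group G] [Finite G] (π : Finset ℕ) (hπ : ∀ r ∈ π, r.Prime) (h2 : 2 ∉ π) (p : ℕ) (hp : p ∈ π)
    (hmin : ∀ r ∈ π, p ≤ r) (hk : (p + 1) * π.prod (fun r => r ^ (Nat.card G).factorization r) < 2 * p * Nat.card {c : ConjClasses G // ∀ x ∈ c.carrier, ∀ r : ℕ, r.Prime → r ∣ orderOf x → r ∈ π}) :
    (∃ N : Subgroup G, N.Normal ∧ (∀ r : ℕ, r.Prime → r ∣ Nat.card ↥N → r ∉ π) ∧ ∀ r : ℕ, r.Prime → r ∣ N.index → r ∈ π) ∧ ∃ H : Subgroup G, Cfsg.IsPiHall (↑π : Set ℕ) H ∧ IsMulCommutative ↥H := by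
  have hk' : (p + 1) * piPart π (Nat.card G) < 2 * p * kpi (↑π) G := hk
  obtain ⟨N, hN, hcN, hN1, hN2⟩ := assemble (G := G) π hπ
    (fun r hr => prime_step π hπ h2 p hp hmin hk' r hr)
  have := hN
  have hcop : (Nat.card N).Coprime N.index :=
    Nat.coprime_of_dvd (fun q hq hq1 hq2 => hN1 q hq hq1 (hN2 q hq hq2))
  obtain ⟨H, hHc, hH1, hH2⟩ := exists_abelian_compl N hcN hcop
  refine ⟨⟨N, hN, hN1, hN2⟩, H, ⟨?_, ?_⟩, hHc⟩
  · intro q hq hqd
    rw [hH1] at hqd
    exact Finset.mem_coe.mpr (hN2 q hq hqd)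
  · intro q hq hqπ hqd
    rw [hH2] at hqd
    exact hN1 q hq hqd (Finset.mem_coe.mp hqπ)

end Cfsg.Agent.S3899
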