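import Cfsg.Statements.S3898
import Cfsg.Agent.S3895
import Cfsg.Agent.S3899

set_option autoImplicit false
open Cfsg

namespace Cfsg.Agent.S3898

open Cfsg.Agent.Lib.Helper1.PiClasses
open Cfsg.Agent.S3897 (Nz nAct card_fixedBy fixSub fix_lt card_cls_le)

section Aux

variable {G : Type*} [Group G]

theorem mem_of_pow_mem (H : Subgroup G) (x : G) (a : ℕ)
    (hcop : Nat.Coprime a (orderOf x)) (hx : x ^ a ∈ H) : x ∈ H := by
  obtain ⟨m, hm⟩ := exists_pow_eq_self_of_coprime hcop
  rw [← hm]
  exact H.pow_mem hx m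

/-- the raw Burnside count for the action of the normalizer of a Sylow subgroup on it -/
theorem count_raw [Finite G] {p : ℕ} [Fact p.Prime] (P : Sylow p G) :
    p * (Nat.card (Quotient (MulAction.orbitRel (Nz (P : Subgroup G)) (P : Subgroup G))) *
        Nat.card (Nz (P : Subgroup G))) ≤
      Nat.card (P : Subgroup G) * ((p - 1) * Nat.card
        ((Subgroup.centralizer ((P : Subgroup G) : Set G)).subgroupOf (Nz (P : Subgroup G))) +
          Nat.card (Nz (P : Subgroup G))) := by
  classical
  have : Fintype (Nz (P : Subgroup G)) := Fintype.ofFinite _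
  have : Fintype (Quotient (MulAction.orbitRel (Nz (P : Subgroup G)) (P : Subgroup G))) :=
    Fintype.ofFinite _
  have : ∀ n : Nz (P : Subgroup G), Fintype (MulAction.fixedBy (P : Subgroup G) n) :=
    fun n => Fintype.ofFinite _
  have hB := MulAction.sum_card_fixedBy_eq_card_orbits_mul_card_group
    (Nz (P : Subgroup G)) (P : Subgroup G)
  simp only [Fintype.card_eq_nat_card] at hB
  set C : Subgroup (Nz (P : Subgroup G)) :=
    (Subgroup.centralizer ((P : Subgroup G) : Set G)).subgroupOf (Nz (P : Subgroup G)) with hCdef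
  have hf1 : ∀ n : Nz (P : Subgroup G),
      Nat.card (MulAction.fixedBy (P : Subgroup G) n) ≤ Nat.card (P : Subgroup G) := by
    intro n
    rw [card_fixedBy]
    exact Nat.card_le_card_of_injective
      (fun x : fixSub (P : Subgroup G) (n : G) => (x : (P : Subgroup G))) Subtype.coe_injective
  have hf2 : ∀ n : Nz (P : Subgroup G), n ∉ C →
      p * Nat.card (MulAction.fixedBy (P : Subgroup G) n) ≤ Nat.card (P : Subgroup G) := by
    intro n hn
    rw [card_fixedBy]
    exact fix_lt P (n : G) (fun h => hn (Subgroup.mem_subgroupOf.mpr h))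
  have hsum : p * ∑ n : Nz (P : Subgroup G), Nat.card (MulAction.fixedBy (P : Subgroup G) n) ≤
      (Finset.univ.filter (fun n : Nz (P : Subgroup G) => n ∈ C)).card *
          (p * Nat.card (P : Subgroup G)) +
        (Finset.univ.filter (fun n : Nz (P : Subgroup G) => ¬ n ∈ C)).card *
          Nat.card (P : Subgroup G) := by
    rw [Finset.mul_sum,
      ← Finset.sum_filter_add_sum_filter_not Finset.univ (fun n : Nz (P : Subgroup G) => n ∈ C)]
    apply add_le_add
    · have h := Finset.sum_le_card_nsmul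
        (Finset.univ.filter (fun n : Nz (P : Subgroup G) => n ∈ C))
        (fun n => p * Nat.card (MulAction.fixedBy (P : Subgroup G) n))
        (p * Nat.card (P : Subgroup G)) (fun n _ => Nat.mul_le_mul_left p (hf1 n))
      rwa [smul_eq_mul] at h
    · have h := Finset.sum_le_card_nsmul
        (Finset.univ.filter (fun n : Nz (P : Subgroup G) => ¬ n ∈ C))
        (fun n => p * Nat.card (MulAction.fixedBy (P : Subgroup G) n))
        (Nat.card (P : Subgroup G)) (fun n hn => hf2 n (Finset.mem_filter.mp hn).2)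
      rwa [smul_eq_mul] at h
  have hc12 : (Finset.univ.filter (fun n : Nz (P : Subgroup G) => n ∈ C)).card +
      (Finset.univ.filter (fun n : Nz (P : Subgroup G) => ¬ n ∈ C)).card =
        Nat.card (Nz (P : Subgroup G)) := by
    rw [Finset.card_filter_add_card_filter_not, Finset.card_univ, Fintype.card_eq_nat_card]
  have hc1 : (Finset.univ.filter (fun n : Nz (P : Subgroup G) => n ∈ C)).card = Nat.card C :=
    (Nat.subtype_card _ (fun x => by simp)).symm
  rw [hB] at hsum
  have hp1 : 1 ≤ p := (Fact.out : p.Prime).one_lt.le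
  generalize (Finset.univ.filter (fun n : Nz (P : Subgroup G) => n ∈ C)).card = c₁
    at hc12 hc1 hsum
  generalize (Finset.univ.filter (fun n : Nz (P : Subgroup G) => ¬ n ∈ C)).card = c₂
    at hc12 hsum
  generalize Nat.card (P : Subgroup G) = Pc at hsum ⊢
  generalize Nat.card (Quotient (MulAction.orbitRel (Nz (P : Subgroup G)) (P : Subgroup G))) = Q
    at hsum ⊢
  generalize Nat.card (Nz (P : Subgroup G)) = Nn at hc12 hsum ⊢
  generalize Nat.card C = cC at hc1 ⊢
  obtain ⟨q, hq⟩ : ∃ q, p = q + 1 := ⟨p - 1, by omega⟩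
  subst hq
  subst hc1
  subst hc12
  have : q + 1 - 1 = q := by omega
  rw [this]
  calc (q + 1) * (Q * (c₁ + c₂)) ≤ c₁ * ((q + 1) * Pc) + c₂ * Pc := hsum
    _ = Pc * (q * c₁ + (c₁ + c₂)) := by ring

theorem odd_key [Finite G] {r : ℕ} [Fact r.Prime] (hr2 : r ≠ 2) (R : Sylow r G)
    (h : Nat.card (R : Subgroup G) <
      2 * Nat.card {c : ConjClasses G // ∀ x ∈ c.carrier, ∃ k : ℕ, orderOf x = r ^ k}) :
    IsMulCommutative (R : Subgroup G) ∧
      ∀ n ∈ Subgroup.normalizer ((R : Subgroup G) : Set G), Odd (orderOf n) →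
        n ∈ Subgroup.centralizer ((R : Subgroup G) : Set G) := by
  classical
  have hrp : r.Prime := Fact.out
  have hr3 : 3 ≤ r := by
    have := hrp.two_le; omega
  set N : Subgroup G := Nz (R : Subgroup G) with hN
  set C : Subgroup N := (Subgroup.centralizer ((R : Subgroup G) : Set G)).subgroupOf N with hC
  have hCn : C.Normal := by
    refine ⟨fun c hc n => ?_⟩
    rw [hC, Subgroup.mem_subgroupOf] at hc ⊢
    rw [Subgroup.mem_centralizer_iff] at hc ⊢
    intro x hx
    have hx' : (n : G)⁻¹ * x * (n : G) ∈ (R : Subgroup G) := by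
      have := (Subgroup.mem_normalizer_iff.mp (N.inv_mem n.2) x).mp hx
      simpa using this
    have h1 := hc _ hx'
    show x * ((n : G) * (c : G) * (n : G)⁻¹) = (n : G) * (c : G) * (n : G)⁻¹ * x
    calc x * ((n : G) * (c : G) * (n : G)⁻¹)
        = (n : G) * (((n : G)⁻¹ * x * (n : G)) * (c : G)) * (n : G)⁻¹ := by group
      _ = (n : G) * ((c : G) * ((n : G)⁻¹ * x * (n : G))) * (n : G)⁻¹ := by rw [h1]
      _ = (n : G) * (c : G) * (n : G)⁻¹ * x := by group
  obtain ⟨m, hm⟩ : ∃ m, C.index = m := ⟨_, rfl⟩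
  have hcard : Nat.card C * m = Nat.card N := by rw [← hm]; exact Subgroup.card_mul_index C
  have hCpos : 0 < Nat.card C := Nat.card_pos
  have hmpos : 0 < m := by
    rw [← hm]; exact Nat.pos_of_ne_zero Subgroup.index_ne_zero_of_finite
  have hraw := count_raw R
  have hcls := card_cls_le R
  have hRpos : 0 < Nat.card (R : Subgroup G) := Nat.card_pos
  have hineq : r * m < 2 * (r - 1 + m) := by
    rw [← hcard] at hraw
    generalize Nat.card (Quotient (MulAction.orbitRel (Nz (R : Subgroup G)) (R : Subgroup G))) = Q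
      at hraw hcls
    have h1 : r * (Q * m) ≤ Nat.card (R : Subgroup G) * ((r - 1) + m) := by
      have : Nat.card C * (r * (Q * m)) ≤
          Nat.card C * (Nat.card (R : Subgroup G) * ((r - 1) + m)) := by
        calc Nat.card C * (r * (Q * m)) = r * (Q * (Nat.card C * m)) := by ring
          _ ≤ Nat.card (R : Subgroup G) * ((r - 1) * Nat.card C + Nat.card C * m) := hraw
          _ = Nat.card C * (Nat.card (R : Subgroup G) * ((r - 1) + m)) := by ring
      exact Nat.le_of_mul_le_mul_left this hCpos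
    have h2 : Nat.card (R : Subgroup G) < 2 * Q := lt_of_lt_of_le h (Nat.mul_le_mul_left 2 hcls)
    have h3 : Nat.card (R : Subgroup G) * (r * m) <
        Nat.card (R : Subgroup G) * (2 * (r - 1 + m)) := by
      calc Nat.card (R : Subgroup G) * (r * m) < 2 * Q * (r * m) :=
            Nat.mul_lt_mul_of_pos_right h2 (Nat.mul_pos hrp.pos hmpos)
        _ = 2 * (r * (Q * m)) := by ring
        _ ≤ 2 * (Nat.card (R : Subgroup G) * ((r - 1) + m)) := Nat.mul_le_mul_left 2 h1
        _ = Nat.card (R : Subgroup G) * (2 * (r - 1 + m)) := by ring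
    exact lt_of_mul_lt_mul_left h3 (Nat.zero_le _)
  have hm3 : m ≤ 3 := by
    by_contra hcon
    rw [not_le] at hcon
    obtain ⟨q, rfl⟩ : ∃ q, r = q + 3 := ⟨r - 3, by omega⟩
    obtain ⟨t, rfl⟩ : ∃ t, m = t + 4 := ⟨m - 4, by omega⟩
    have : q + 3 - 1 = q + 2 := by omega
    rw [this] at hineq
    nlinarith
  have hm3r : m = 3 → r = 3 := by
    intro h3
    rw [h3] at hineq
    omega
  have hRN : (R : Subgroup G) ≤ N := Subgroup.le_normalizer
  have hRcomm : ∀ a ∈ (R : Subgroup G), ∀ b ∈ (R : Subgroup G), a * b = b * a := by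
    rcases Nat.lt_or_ge m 2 with hlt | hge
    · have hm1 : C.index = 1 := by omega
      have hCtop : C = ⊤ := Subgroup.index_eq_one.mp hm1
      intro a ha b hb
      have hmem : (⟨a, hRN ha⟩ : N) ∈ C := by rw [hCtop]; exact Subgroup.mem_top _
      rw [hC, Subgroup.mem_subgroupOf, Subgroup.mem_centralizer_iff] at hmem
      exact (hmem b hb).symm
    · have hmprime : m.Prime := by
        have : m = 2 ∨ m = 3 := by omega
        rcases this with rfl | rfl
        · exact Nat.prime_two
        · exact Nat.prime_three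
      have : Fact m.Prime := ⟨hmprime⟩
      have hcyc : IsCyclic (N ⧸ C) := isCyclic_of_prime_card (p := m) hm
      let f : (R : Subgroup G) →* N ⧸ C := (QuotientGroup.mk' C).comp (Subgroup.inclusion hRN)
      have hker : f.ker ≤ Subgroup.center (R : Subgroup G) := by
        intro x hx
        rw [MonoidHom.mem_ker] at hx
        have hx' : Subgroup.inclusion hRN x ∈ C := by
          rw [← QuotientGroup.eq_one_iff]; exact hx
        rw [hC, Subgroup.mem_subgroupOf, Subgroup.mem_centralizer_iff] at hx'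
        rw [Subgroup.mem_center_iff]
        intro g
        apply Subtype.ext
        exact hx' g g.2
      intro a ha b hb
      have := (MonoidHom.isMulCommutative_of_isCyclic_of_ker_le_center f hker).is_comm.comm
        ⟨a, ha⟩ ⟨b, hb⟩
      exact congrArg Subtype.val this
  have hRC : (R : Subgroup G).subgroupOf N ≤ C := by
    intro x hx
    rw [Subgroup.mem_subgroupOf] at hx
    rw [hC, Subgroup.mem_subgroupOf, Subgroup.mem_centralizer_iff]
    intro y hy
    exact hRcomm y hy x hx
  have hrm : ¬ r ∣ m := by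
    intro hd
    have h1 : m ∣ ((R : Subgroup G).subgroupOf N).index := by
      rw [← hm]; exact Subgroup.index_dvd_of_le hRC
    have h2 : ((R : Subgroup G).subgroupOf N).index ∣ (R : Subgroup G).index :=
      Dvd.intro _ (Subgroup.relIndex_mul_index hRN)
    exact R.not_dvd_index (hd.trans (h1.trans h2))
  have hm2 : m ≤ 2 := by
    by_contra hcon
    have h3 : m = 3 := by omega
    apply hrm
    rw [h3, hm3r h3]
  refine ⟨⟨⟨fun a b => Subtype.ext (hRcomm a a.2 b b.2)⟩⟩, ?_⟩
  intro n hn hodd
  have hsq : (⟨n, hn⟩ : N) ^ 2 ∈ C := by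
    rcases Nat.lt_or_ge m 2 with hlt | hge
    · have hm1 : C.index = 1 := by omega
      rw [Subgroup.index_eq_one.mp hm1]; exact Subgroup.mem_top _
    · have hm2' : C.index = 2 := by omega
      exact Subgroup.sq_mem_of_index_two hm2' _
  have hmem : (⟨n, hn⟩ : N) ∈ C := by
    apply mem_of_pow_mem C _ 2 _ hsq
    rw [Subgroup.orderOf_mk]
    exact hodd.coprime_two_left
  rw [hC, Subgroup.mem_subgroupOf] at hmem
  exact hmem

end Aux

/-- Let π be a finite set of primes containing 2 and G a finite group. Write k_π(G) for the number of conjugacy classes of G consisting of π-elements (elements all of whose order's prime divisors lie in π) and |G|_π for the π-part of the order of G. If k_π(G) > |G|_π/2, then G has a normal π-complement (a normal subgroup of order prime to π whose index is a π-number) and an abelian Hall subgroup for the set of odd primes in π. -/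
theorem result {G : Type*} [Group G] [Finite G] (π : Finset ℕ) (hπ : ∀ r ∈ π, r.Prime) (h2 : 2 ∈ π)
    (hk : π.prod (fun r => r ^ (Nat.card G).factorization r) < 2 * Nat.card {c : ConjClasses G // ∀ x ∈ c.carrier, ∀ r : ℕ, r.Prime → r ∣ orderOf x → r ∈ π}) :
    (∃ N : Subgroup G, N.Normal ∧ (∀ r : ℕ, r.Prime → r ∣ Nat.card ↥N → r ∉ π) ∧ ∀ r : ℕ, r.Prime → r ∣ N.index → r ∈ π) ∧ ∃ H : Subgroup G, Cfsg.IsPiHall ((↑π : Set ℕ) \ {2}) H ∧ IsMulCommutative ↥H := by
  classical
  have hk' : piPart π (Nat.card G) < 2 * kpi (↑π) G := hk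
  -- every prime of π has many classes
  have step1 : ∀ r ∈ π, r ^ (Nat.card G).factorization r < 2 * kpi {r} G := by
    intro r hr
    have h1 := kpi_le_mul_erase (G := G) π hπ hr
    have h3 := piPart_eq_mul_erase π hr (Nat.card G)
    have hpos := piPart_pos (π.erase r) (fun q hq => hπ q (Finset.mem_of_mem_erase hq))
      (Nat.card G)
    by_contra hcon
    rw [not_lt] at hcon
    have h6 := Nat.mul_le_mul_right (piPart (π.erase r) (Nat.card G)) hcon
    have h5 : r ^ (Nat.card G).factorization r * piPart (π.erase r) (Nat.card G) <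
        2 * (kpi {r} G * piPart (π.erase r) (Nat.card G)) := by
      rw [← h3]; exact lt_of_lt_of_le hk' (Nat.mul_le_mul_left _ h1)
    have h7 : 2 * (kpi {r} G * piPart (π.erase r) (Nat.card G)) =
        2 * kpi {r} G * piPart (π.erase r) (Nat.card G) := by ring
    rw [h7] at h5
    exact absurd h5 (not_lt.mpr h6)
  -- the normal 2-complement
  obtain ⟨P⟩ : Nonempty (Sylow 2 G) := inferInstance
  have hP2 : Nat.card (P : Subgroup G) <
      2 * Nat.card {c : ConjClasses G // ∀ x ∈ c.carrier, ∃ k : ℕ, orderOf x = 2 ^ k} := by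
    rw [← Cfsg.Agent.S3899.kpi_singleton_eq Nat.prime_two, Sylow.card_eq_multiplicity P]
    exact step1 2 h2
  obtain ⟨⟨P₂, K, hKn, hKc⟩, -⟩ := (Cfsg.Agent.S3895.result P).mp hP2
  have hKodd : ¬ 2 ∣ Nat.card K := by
    rw [← hKc.index_eq_card]; exact P₂.not_dvd_index
  obtain ⟨a, ha⟩ : ∃ a : ℕ, K.index = 2 ^ a :=
    ⟨_, by rw [hKc.symm.index_eq_card, Sylow.card_eq_multiplicity P₂]⟩
  have hτ : ∀ r ∈ π.erase 2, r.Prime := fun r hr => hπ r (Finset.mem_of_mem_erase hr)
  have hstep : ∀ r ∈ π.erase 2, ∃ N : Subgroup K, N.Normal ∧ commutator K ≤ N ∧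
      (∃ k : ℕ, N.index = r ^ k) ∧ ¬ r ∣ Nat.card N := by
    intro r hr
    have hrπ : r ∈ π := Finset.mem_of_mem_erase hr
    have hr2 : r ≠ 2 := Finset.ne_of_mem_erase hr
    have hrp := hπ r hrπ
    have : Fact r.Prime := ⟨hrp⟩
    obtain ⟨R⟩ : Nonempty (Sylow r G) := inferInstance
    have hR : Nat.card (R : Subgroup G) <
        2 * Nat.card {c : ConjClasses G // ∀ x ∈ c.carrier, ∃ k : ℕ, orderOf x = r ^ k} := by
      rw [← Cfsg.Agent.S3899.kpi_singleton_eq hrp, Sylow.card_eq_multiplicity R]
      exact step1 r hrπ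
    obtain ⟨hRab, hRnc⟩ := odd_key hr2 R hR
    have hRK : (R : Subgroup G) ≤ K := by
      intro x hx
      apply mem_of_pow_mem K x K.index _ (K.pow_index_mem x)
      obtain ⟨j, hj⟩ := (IsPGroup.iff_orderOf.mp R.isPGroup') ⟨x, hx⟩
      rw [Subgroup.orderOf_mk] at hj
      rw [ha, hj]
      exact Nat.Coprime.pow _ _ ((Nat.coprime_primes Nat.prime_two hrp).mpr (Ne.symm hr2))
    let S : Sylow r K := R.subtype hRK
    have hScoe : (S : Subgroup K) = (R : Subgroup G).subgroupOf K := Sylow.coe_subtype R hRK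
    have hSmem : ∀ z : K, z ∈ (S : Subgroup K) ↔ (z : G) ∈ (R : Subgroup G) := by
      intro z; rw [hScoe, Subgroup.mem_subgroupOf]
    have hSab : IsMulCommutative (S : Subgroup K) := by
      refine ⟨⟨fun x y => ?_⟩⟩
      have hx : ((x : K) : G) ∈ (R : Subgroup G) := (hSmem x).mp x.2
      have hy : ((y : K) : G) ∈ (R : Subgroup G) := (hSmem y).mp y.2
      have := hRab.is_comm.comm (⟨_, hx⟩ : (R : Subgroup G)) ⟨_, hy⟩
      apply Subtype.ext; apply Subtype.ext
      show ((x : K) : G) * ((y : K) : G) = ((y : K) : G) * ((x : K) : G)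
      exact congrArg Subtype.val this
    have hSnc : Subgroup.normalizer ((S : Subgroup K) : Set K) ≤
        Subgroup.centralizer ((S : Subgroup K) : Set K) := by
      intro n hn
      have hnN : (n : G) ∈ Subgroup.normalizer ((R : Subgroup G) : Set G) := by
        rw [Subgroup.mem_normalizer_iff]
        intro x
        rw [Subgroup.mem_normalizer_iff] at hn
        constructor
        · intro hx
          exact (hSmem _).mp ((hn ⟨x, hRK hx⟩).mp ((hSmem _).mpr hx))
        · intro hx
          have hxK : x ∈ K := by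
            have h1 : (n : G)⁻¹ * ((n : G) * x * (n : G)⁻¹) * (n : G) ∈ K :=
              K.mul_mem (K.mul_mem (K.inv_mem n.2) (hRK hx)) n.2
            have h2' : (n : G)⁻¹ * ((n : G) * x * (n : G)⁻¹) * (n : G) = x := by group
            rwa [h2'] at h1
          exact (hSmem _).mp ((hn ⟨x, hxK⟩).mpr ((hSmem _).mpr hx))
      have hodd : Odd (orderOf (n : G)) := by
        have h1 : orderOf (n : G) ∣ Nat.card K := by
          rw [Subgroup.orderOf_coe]; exact orderOf_dvd_natCard n
        rw [← Nat.not_even_iff_odd, even_iff_two_dvd]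
        exact fun h => hKodd (h.trans h1)
      have hc := hRnc _ hnN hodd
      rw [Subgroup.mem_centralizer_iff] at hc ⊢
      intro s hs
      apply Subtype.ext
      exact hc _ ((hSmem s).mp hs)
    have hcompl := MonoidHom.ker_transferSylow_isComplement' S hSnc
    refine ⟨(MonoidHom.transferSylow S hSnc).ker, inferInstance, ?_, ?_, ?_⟩
    · exact Cfsg.Agent.S3899.commutator_le_of_compl S _ hcompl hSab
    · refine ⟨(Nat.card K).factorization r, ?_⟩
      rw [hcompl.symm.index_eq_card, Sylow.card_eq_multiplicity S]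
    · rw [← hcompl.index_eq_card]
      exact S.not_dvd_index
  obtain ⟨N, hN, hcN, hN1, hN2⟩ := assemble (G := K) (π.erase 2) hτ hstep
  have hcop : (Nat.card N).Coprime N.index :=
    Nat.coprime_of_dvd (fun q hq hq1 hq2 => hN1 q hq hq1 (hN2 q hq hq2))
  obtain ⟨H, hHc, hH1, hH2⟩ := exists_abelian_compl N hcN hcop
  have hNG : (N.map K.subtype).Normal := by
    refine ⟨fun n hn g => ?_⟩
    obtain ⟨x, hx, rfl⟩ := Subgroup.mem_map.mp hn
    have hyK : g * (x : G) * g⁻¹ ∈ K := hKn.conj_mem _ x.2 g
    refine Subgroup.mem_map.mpr ⟨⟨g * (x : G) * g⁻¹, hyK⟩, ?_, rfl⟩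
    apply mem_of_pow_mem N _ N.index _ (N.pow_index_mem _)
    have hxo : orderOf x ∣ Nat.card N := by
      have := orderOf_dvd_natCard (⟨x, hx⟩ : N)
      rwa [Subgroup.orderOf_mk] at this
    have hyo : orderOf (⟨g * (x : G) * g⁻¹, hyK⟩ : K) = orderOf x := by
      rw [← Subgroup.orderOf_coe, ← Subgroup.orderOf_coe x]
      exact orderOf_conj' g (x : G)
    rw [hyo]
    exact (Nat.Coprime.coprime_dvd_left hxo hcop).symm
  refine ⟨⟨N.map K.subtype, hNG, ?_, ?_⟩, H.map K.subtype, ⟨?_, ?_⟩, ?_⟩
  · intro q hq hqd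
    rw [Subgroup.card_map_of_injective K.subtype_injective] at hqd
    intro hqπ
    have hq2 : q ≠ 2 := by
      rintro rfl
      exact hKodd (hqd.trans (Subgroup.card_subgroup_dvd_card N))
    exact hN1 q hq hqd (Finset.mem_erase.mpr ⟨hq2, hqπ⟩)
  · intro q hq hqd
    rw [Subgroup.index_map_subtype, ha] at hqd
    rcases (Nat.Prime.dvd_mul hq).mp hqd with h | h
    · exact Finset.mem_of_mem_erase (hN2 q hq h)
    · have := (Nat.prime_dvd_prime_iff_eq hq Nat.prime_two).mp (hq.dvd_of_dvd_pow h)
      rw [this]; exact h2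
  · intro q hq hqd
    rw [Subgroup.card_map_of_injective K.subtype_injective, hH1] at hqd
    have := hN2 q hq hqd
    exact ⟨Finset.mem_coe.mpr (Finset.mem_of_mem_erase this), Finset.ne_of_mem_erase this⟩
  · intro q hq hqm hqd
    rw [Subgroup.index_map_subtype, hH2, ha] at hqd
    obtain ⟨hq1, hq2⟩ := hqm
    rcases (Nat.Prime.dvd_mul hq).mp hqd with h | h
    · exact hN1 q hq h (Finset.mem_erase.mpr ⟨hq2, Finset.mem_coe.mp hq1⟩)
    · exact hq2 ((Nat.prime_dvd_prime_iff_eq hq Nat.prime_two).mp (hq.dvd_of_dvd_pow h))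
  · refine ⟨⟨fun x y => ?_⟩⟩
    obtain ⟨x', hx', hxe⟩ := Subgroup.mem_map.mp x.2
    obtain ⟨y', hy', hye⟩ := Subgroup.mem_map.mp y.2
    have := hHc.is_comm.comm (⟨x', hx'⟩ : H) ⟨y', hy'⟩
    apply Subtype.ext
    show (x : G) * (y : G) = (y : G) * (x : G)
    rw [← hxe, ← hye]
    exact congrArg (fun z : H => ((z : K) : G)) this

end Cfsg.Agent.S3898
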