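import Cfsg.Statements.S3904
import Cfsg.Agent.Lib.Helper71.MaxCent

set_option autoImplicit false
open Cfsg

namespace Cfsg.Agent.S3904

open Cfsg.Agent.Lib.Helper71.MaxCent

universe u

variable {G : Type u} [Group G]

/-- modulo a normal maximal subgroup every element is a power of a fixed element outside -/
theorem exists_zpow_of_normal_coatom {M : Subgroup G} [M.Normal] (hM : IsCoatom M) {a : G}
    (ha : a ∉ M) (b : G) : ∃ i : ℤ, ∃ m ∈ M, b = m * a ^ i := by
  have htop : M ⊔ Subgroup.zpowers a = ⊤ := by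
    apply hM.2
    refine lt_of_le_of_ne le_sup_left ?_
    intro he
    apply ha
    rw [he]
    exact (le_sup_right : Subgroup.zpowers a ≤ M ⊔ Subgroup.zpowers a) (Subgroup.mem_zpowers a)
  obtain ⟨m, hm, z, hz, rfl⟩ := Subgroup.mem_sup_of_normal_left.1
    (show b ∈ M ⊔ Subgroup.zpowers a from htop ▸ Subgroup.mem_top b)
  obtain ⟨i, rfl⟩ := Subgroup.mem_zpowers_iff.1 hz
  exact ⟨i, m, hm, rfl⟩

theorem mk_eq_zpow {M : Subgroup G} [M.Normal] (hM : IsCoatom M) {a : G}
    (ha : a ∉ M) (b : G) : ∃ i : ℤ, (QuotientGroup.mk b : G ⧸ M) = (QuotientGroup.mk a) ^ i := by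
  obtain ⟨i, m, hm, rfl⟩ := exists_zpow_of_normal_coatom hM ha b
  refine ⟨i, ?_⟩
  rw [QuotientGroup.mk_mul, (QuotientGroup.eq_one_iff m).2 hm, one_mul, QuotientGroup.mk_zpow]

theorem commutator_mem_of_normal_coatom {M : Subgroup G} [M.Normal] (hM : IsCoatom M) (b c : G) :
    b * c * b⁻¹ * c⁻¹ ∈ M := by
  obtain ⟨a, ha⟩ : ∃ a, a ∉ M := by
    by_contra hc
    apply hM.1
    rw [eq_top_iff]
    intro g _
    by_contra hg
    exact hc ⟨g, hg⟩
  obtain ⟨i, hi⟩ := mk_eq_zpow hM ha b
  obtain ⟨j, hj⟩ := mk_eq_zpow hM ha c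
  rw [← QuotientGroup.eq_one_iff, QuotientGroup.mk_mul, QuotientGroup.mk_mul, QuotientGroup.mk_mul,
    QuotientGroup.mk_inv, QuotientGroup.mk_inv, hi, hj]
  have hcomm : Commute ((QuotientGroup.mk a : G ⧸ M) ^ i) ((QuotientGroup.mk a : G ⧸ M) ^ j) :=
    Commute.zpow_zpow_self _ i j
  rw [hcomm.eq, mul_inv_cancel_right, mul_inv_cancel]

theorem index_prime_of_normal_coatom [Finite G] {M : Subgroup G} [M.Normal] (hM : IsCoatom M) :
    M.index.Prime := by
  have h1 : M.index ≠ 1 := fun h1 => hM.1 (Subgroup.index_eq_one.1 h1)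
  have hp : (M.index.minFac).Prime := Nat.minFac_prime h1
  have : Fact (M.index.minFac).Prime := ⟨hp⟩
  have hdvd : M.index.minFac ∣ Nat.card (G ⧸ M) := by
    rw [← Subgroup.index_eq_card]; exact Nat.minFac_dvd _
  obtain ⟨abar, habar⟩ := exists_prime_orderOf_dvd_card' (G := G ⧸ M) _ hdvd
  obtain ⟨a, rfl⟩ := QuotientGroup.mk_surjective abar
  have ha : a ∉ M := by
    intro haM
    rw [(QuotientGroup.eq_one_iff a).2 haM, orderOf_one] at habar
    exact hp.one_lt.ne' habar.symm
  have htop : Subgroup.zpowers (QuotientGroup.mk a : G ⧸ M) = ⊤ := by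
    rw [eq_top_iff]
    intro b _
    obtain ⟨b', rfl⟩ := QuotientGroup.mk_surjective b
    obtain ⟨i, hi⟩ := mk_eq_zpow hM ha b'
    rw [hi]
    exact Subgroup.zpow_mem _ (Subgroup.mem_zpowers _) i
  have hcard : Nat.card (Subgroup.zpowers (QuotientGroup.mk a : G ⧸ M)) = Nat.card (G ⧸ M) :=
    (Subgroup.card_eq_iff_eq_top _).2 htop
  rw [Nat.card_zpowers, habar, ← Subgroup.index_eq_card] at hcard
  rw [← hcard]; exact hp

/-- Structure in the trivial-centre case. -/
theorem structure_TC [Finite G] (h : TC G) (hnt : Nontrivial G) :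
    ¬ IsMulCommutative G ∧ (∀ H : Subgroup G, H ≠ ⊤ → IsMulCommutative ↥H) ∧
      ∃ p q a : ℕ, p.Prime ∧ q.Prime ∧ p ≠ q ∧ Nat.card G = p ^ a * q ∧
        ∀ P : Subgroup G, Nat.card ↥P = p ^ a → P.Normal := by
  obtain ⟨x, hx, hn⟩ := exists_normal_centralizer h hnt
  have hab := abelian_centralizer h hx
  have hM := h x hx
  -- elements outside M
  have hdisj : ∀ g : G, g ∉ C x → ∀ u ∈ C x, u ∈ C g → u = 1 := by
    intro g hg u hu hug
    by_contra hu1
    have h1 : C x = C u := C_eq_of_le h hx hu1 (fun m hm => mem_C.2 (hab m hm u hu))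
    apply hg
    rw [h1]; exact mem_C_comm.1 hug
  have hKL : ∀ g : G, g ∉ C x → ∀ M₀ : Subgroup G, M₀.Normal → M₀ ≤ C x → M₀ ≠ ⊥ → C x ≤ M₀ := by
    intro g hg M₀ hM₀n hM₀le hM₀ne
    have hg1 : g ≠ 1 := fun h0 => hg (h0 ▸ one_mem _)
    have htop : M₀ ⊔ C g = ⊤ := by
      apply (h g hg1).2
      refine lt_of_le_of_ne le_sup_right ?_
      intro he
      obtain ⟨m, hm1⟩ := Subgroup.ne_bot_iff_exists_ne_one.1 hM₀ne
      apply hm1
      have hmg : (m : G) ∈ C g := by
        rw [he]; exact (le_sup_left : M₀ ≤ M₀ ⊔ C g) m.2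
      exact Subtype.ext (hdisj g hg m (hM₀le m.2) hmg)
    intro m hm
    obtain ⟨k, hk, c, hc, rfl⟩ := Subgroup.mem_sup_of_normal_left.1
      (show m ∈ M₀ ⊔ C g from htop ▸ Subgroup.mem_top m)
    have hcM : c ∈ C x := by
      have e : c = k⁻¹ * (k * c) := by group
      rw [e]; exact (C x).mul_mem ((C x).inv_mem (hM₀le hk)) hm
    rw [hdisj g hg c hcM hc, mul_one]; exact hk
  obtain ⟨g, hg⟩ : ∃ g, g ∉ C x := by
    by_contra hc
    apply hM.1
    rw [eq_top_iff]
    intro g _
    by_contra hg
    exact hc ⟨g, hg⟩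
  -- the prime p
  have hMne : C x ≠ ⊥ := by
    intro hb
    have h1 := self_mem_C x
    rw [hb, Subgroup.mem_bot] at h1
    exact hx h1
  have hcard1 : Nat.card (C x) ≠ 1 := by
    have := (Subgroup.one_lt_card_iff_ne_bot (C x)).2 hMne
    omega
  have hp : ((Nat.card (C x)).minFac).Prime := Nat.minFac_prime hcard1
  obtain ⟨p, hpeq⟩ : ∃ p, p = (Nat.card (C x)).minFac := ⟨_, rfl⟩
  rw [← hpeq] at hp
  have hpdvd : p ∣ Nat.card (C x) := hpeq ▸ Nat.minFac_dvd _
  have hfact : Fact p.Prime := ⟨hp⟩
  obtain ⟨m₀, hm₀⟩ := exists_prime_orderOf_dvd_card' (G := C x) p hpdvd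
  let M₀ : Subgroup G :=
    { carrier := {m | m ∈ C x ∧ m ^ p = 1}
      mul_mem' := by
        intro a b ha hb
        refine ⟨(C x).mul_mem ha.1 hb.1, ?_⟩
        rw [(show Commute a b from hab a ha.1 b hb.1).mul_pow, ha.2, hb.2, one_mul]
      one_mem' := ⟨one_mem _, one_pow _⟩
      inv_mem' := by
        intro a ha
        exact ⟨(C x).inv_mem ha.1, by rw [inv_pow, ha.2, inv_one]⟩ }
  have hM₀n : M₀.Normal := by
    constructor
    intro m hm k
    refine ⟨hn.conj_mem m hm.1 k, ?_⟩
    rw [conj_pow, hm.2, mul_one, mul_inv_cancel]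
  have hM₀le : M₀ ≤ C x := fun m hm => hm.1
  have hM₀ne : M₀ ≠ ⊥ := by
    intro hb
    have hmem : (m₀ : G) ∈ M₀ := by
      refine ⟨m₀.2, ?_⟩
      have := pow_orderOf_eq_one m₀
      rw [hm₀] at this
      exact congrArg Subtype.val this
    rw [hb, Subgroup.mem_bot] at hmem
    have : m₀ = 1 := Subtype.ext hmem
    rw [this, orderOf_one] at hm₀
    exact hp.one_lt.ne' hm₀.symm
  have hexp : ∀ m ∈ C x, m ^ p = 1 := fun m hm => (hKL g hg M₀ hM₀n hM₀le hM₀ne hm).2
  have hPM : IsPGroup p (C x) := by
    intro w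
    exact ⟨1, by rw [pow_one]; exact Subtype.ext (by simpa using hexp w w.2)⟩
  obtain ⟨a, ha⟩ := (IsPGroup.iff_card).1 hPM
  have hq : (C x).index.Prime := index_prime_of_normal_coatom hM
  have hcardG : Nat.card G = p ^ a * (C x).index := by
    rw [← ha]; exact (Subgroup.card_mul_index (C x)).symm
  have hpq : p ≠ (C x).index := by
    intro he
    apply not_isPGroup h hnt p hp
    apply IsPGroup.of_card (n := a + 1)
    rw [hcardG, ← he, pow_succ]
  refine ⟨?_, ?_, p, (C x).index, a, hp, hq, hpq, hcardG, ?_⟩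
  · intro hc
    apply hM.1
    rw [eq_top_iff]
    intro k _
    rw [mem_C]
    exact hc.is_comm.comm k x
  · intro H hH
    by_cases hHM : H ≤ C x
    · exact ⟨⟨fun a b => Subtype.ext (hab a (hHM a.2) b (hHM b.2))⟩⟩
    · obtain ⟨g', hg'H, hg'M⟩ := SetLike.not_le_iff_exists.1 hHM
      have hbot : H ⊓ C x = ⊥ := by
        by_contra hne
        have hnorm : (H ⊓ C x).Normal := by
          rw [← Subgroup.normalizer_eq_top_iff, eq_top_iff]
          intro k _
          obtain ⟨i, m, hm, rfl⟩ := exists_zpow_of_normal_coatom hM hg'M k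
          have hmN : m ∈ Subgroup.normalizer ((H ⊓ C x : Subgroup G) : Set G) := by
            rw [Subgroup.mem_normalizer_iff]
            intro d
            constructor
            · intro hd
              have e : m * d * m⁻¹ = d := by
                rw [hab m hm d hd.2, mul_inv_cancel_right]
              rw [e]; exact hd
            · intro hd
              have hdM : d ∈ C x := by
                have e : d = m⁻¹ * (m * d * m⁻¹) * m := by group
                rw [e]; exact (C x).mul_mem ((C x).mul_mem ((C x).inv_mem hm) hd.2) hm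
              have e : m * d * m⁻¹ = d := by
                rw [hab m hm d hdM, mul_inv_cancel_right]
              rw [e] at hd; exact hd
          have hgN : g' ∈ Subgroup.normalizer ((H ⊓ C x : Subgroup G) : Set G) := by
            have hle : H ≤ Subgroup.normalizer ((H ⊓ C x : Subgroup G) : Set G) := by
              rw [Subgroup.le_normalizer_iff]
              intro k hk d hd
              exact ⟨H.mul_mem (H.mul_mem hk hd.1) (H.inv_mem hk), hn.conj_mem d hd.2 k⟩
            exact hle hg'H
          exact Subgroup.mul_mem _ hmN (Subgroup.zpow_mem _ hgN i)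
        have hle : C x ≤ H ⊓ C x := hKL g' hg'M (H ⊓ C x) hnorm inf_le_right hne
        apply hH
        rw [eq_top_iff]
        intro k _
        obtain ⟨i, m, hm, rfl⟩ := exists_zpow_of_normal_coatom hM hg'M k
        exact H.mul_mem (hle hm).1 (H.zpow_mem hg'H i)
      refine ⟨⟨fun a b => Subtype.ext ?_⟩⟩
      have hcm : (a : G) * b * (a : G)⁻¹ * (b : G)⁻¹ ∈ H ⊓ C x :=
        ⟨H.mul_mem (H.mul_mem (H.mul_mem a.2 b.2) (H.inv_mem a.2)) (H.inv_mem b.2),
          commutator_mem_of_normal_coatom hM _ _⟩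
      rw [hbot, Subgroup.mem_bot] at hcm
      have e : (a : G) * b = ((a : G) * b * (a : G)⁻¹ * (b : G)⁻¹) * (b * a) := by group
      rw [Subgroup.coe_mul, Subgroup.coe_mul, e, hcm, one_mul]
  · intro P hP
    have hPle : P ≤ C x := by
      intro u hu
      have h1 : orderOf u ∣ p ^ a := hP ▸ Subgroup.orderOf_dvd_natCard P hu
      have h2 : orderOf (QuotientGroup.mk u : G ⧸ C x) ∣ orderOf u := by
        apply orderOf_dvd_of_pow_eq_one
        rw [← QuotientGroup.mk_pow, pow_orderOf_eq_one, QuotientGroup.mk_one]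
      have h3 : orderOf (QuotientGroup.mk u : G ⧸ C x) ∣ (C x).index := by
        rw [Subgroup.index_eq_card]; exact orderOf_dvd_natCard _
      have hcop : (p ^ a).Coprime (C x).index :=
        Nat.Coprime.pow_left a ((Nat.coprime_primes hp hq).2 hpq)
      have h4 : orderOf (QuotientGroup.mk u : G ⧸ C x) = 1 :=
        Nat.Coprime.eq_one_of_dvd (Nat.Coprime.coprime_dvd_left (h2.trans h1) hcop) h3
      exact (QuotientGroup.eq_one_iff u).1 (orderOf_eq_one_iff.1 h4)
    have hPeq : P = C x := Subgroup.eq_of_le_of_card_ge hPle (by rw [hP, ha])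
    rw [hPeq]; exact hn


/-- the preimage of the centralizer of `mk g` in the central quotient is the centralizer of `g` -/
theorem comap_C_mk (h : Hyp G) (g : G)
    (hg : (QuotientGroup.mk g : G ⧸ Subgroup.center G) ∉ Subgroup.center (G ⧸ Subgroup.center G)) :
    (C (QuotientGroup.mk g : G ⧸ Subgroup.center G)).comap
      (QuotientGroup.mk' (Subgroup.center G)) = C g := by
  have hgc : g ∉ Subgroup.center G := by
    intro hgc
    apply hg
    rw [(QuotientGroup.eq_one_iff g).2 hgc]; exact one_mem _
  have hM := h g hgc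
  refine (hM.le_iff_eq ?_).1 ?_
  · intro ht
    apply hg
    rw [Subgroup.mem_center_iff]
    intro b
    obtain ⟨b', rfl⟩ := QuotientGroup.mk_surjective b
    have hb : b' ∈ (C (QuotientGroup.mk g : G ⧸ Subgroup.center G)).comap
        (QuotientGroup.mk' (Subgroup.center G)) := ht ▸ Subgroup.mem_top b'
    exact mem_C.1 hb
  · intro m hm
    rw [Subgroup.mem_comap, mem_C]
    rw [mem_C] at hm
    show (QuotientGroup.mk m : G ⧸ Subgroup.center G) * QuotientGroup.mk g
      = QuotientGroup.mk g * QuotientGroup.mk m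
    rw [← QuotientGroup.mk_mul, ← QuotientGroup.mk_mul, hm]

/-- If the central quotient has a nontrivial centre then it is abelian. -/
theorem comm_of_center_ne_bot (h : Hyp G)
    (hZ : Subgroup.center (G ⧸ Subgroup.center G) ≠ ⊥) :
    ∀ a b : G ⧸ Subgroup.center G, a * b = b * a := by
  obtain ⟨zbar, hz1⟩ := Subgroup.ne_bot_iff_exists_ne_one.1 hZ
  obtain ⟨z, hz⟩ := QuotientGroup.mk_surjective (zbar : G ⧸ Subgroup.center G)
  have hzc : z ∉ Subgroup.center G := by
    intro hzc
    apply hz1
    apply Subtype.ext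
    rw [← hz, (QuotientGroup.eq_one_iff z).2 hzc]; rfl
  have key : ∀ g : G, (QuotientGroup.mk g : G ⧸ Subgroup.center G) ∉
      Subgroup.center (G ⧸ Subgroup.center G) → z * g = g * z := by
    intro g hg
    have h1 := comap_C_mk h g hg
    have h2 : z ∈ (C (QuotientGroup.mk g : G ⧸ Subgroup.center G)).comap
        (QuotientGroup.mk' (Subgroup.center G)) := by
      rw [Subgroup.mem_comap, mem_C]
      show (QuotientGroup.mk z : G ⧸ Subgroup.center G) * QuotientGroup.mk g
        = QuotientGroup.mk g * QuotientGroup.mk z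
      rw [hz]
      exact (Subgroup.mem_center_iff.1 zbar.2 _).symm
    rw [h1] at h2
    exact mem_C.1 h2
  intro a b
  by_contra hab
  have ha : a ∉ Subgroup.center (G ⧸ Subgroup.center G) := by
    intro hac
    exact hab (Subgroup.mem_center_iff.1 hac b).symm
  obtain ⟨a', rfl⟩ := QuotientGroup.mk_surjective a
  apply hzc
  rw [Subgroup.mem_center_iff]
  intro g
  by_cases hg : (QuotientGroup.mk g : G ⧸ Subgroup.center G) ∈
      Subgroup.center (G ⧸ Subgroup.center G)
  · have hga : (QuotientGroup.mk (g * a') : G ⧸ Subgroup.center G) ∉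
        Subgroup.center (G ⧸ Subgroup.center G) := by
      intro hc
      apply ha
      have e : (QuotientGroup.mk a' : G ⧸ Subgroup.center G)
          = (QuotientGroup.mk g)⁻¹ * QuotientGroup.mk (g * a') := by
        rw [QuotientGroup.mk_mul, inv_mul_cancel_left]
      rw [e]
      exact Subgroup.mul_mem _ (Subgroup.inv_mem _ hg) hc
    have h1 := key (g * a') hga
    have h2 := key a' ha
    have h3 : g * z * a' = z * g * a' := by
      calc g * z * a' = g * (z * a') := by group
        _ = g * (a' * z) := by rw [h2]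
        _ = g * a' * z := by group
        _ = z * (g * a') := h1.symm
        _ = z * g * a' := by group
    exact mul_right_cancel h3
  · exact (key g hg).symm

/-- class two case: the central quotient has prime exponent -/
theorem exists_prime_exponent [Finite G] (h : Hyp G)
    (hcomm : ∀ a b : G ⧸ Subgroup.center G, a * b = b * a) (hna : ∃ a b : G, a * b ≠ b * a) :
    ∃ p : ℕ, p.Prime ∧ ∀ a : G ⧸ Subgroup.center G, a ^ p = 1 := by
  have hnc : ∀ g x : G, g * x ≠ x * g → g ∉ Subgroup.center G := by
    intro g x hgx hgc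
    exact hgx (Subgroup.mem_center_iff.1 hgc x).symm
  have hnc' : ∀ g x : G, g * x ≠ x * g → x ∉ Subgroup.center G := by
    intro g x hgx hxc
    exact hgx (Subgroup.mem_center_iff.1 hxc g)
  have hnormal : ∀ x : G, (C x).Normal := by
    intro x
    constructor
    intro c hc g
    have h1 : (QuotientGroup.mk (g * c * g⁻¹) : G ⧸ Subgroup.center G) = QuotientGroup.mk c := by
      rw [QuotientGroup.mk_mul, QuotientGroup.mk_mul, hcomm, ← mul_assoc, QuotientGroup.mk_inv,
        inv_mul_cancel, one_mul]
    have h2 : c⁻¹ * (g * c * g⁻¹) ∈ Subgroup.center G := QuotientGroup.eq.1 h1.symm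
    have h3 : c⁻¹ * (g * c * g⁻¹) ∈ C x := by
      rw [mem_C]; exact (Subgroup.mem_center_iff.1 h2 x).symm
    have e : g * c * g⁻¹ = c * (c⁻¹ * (g * c * g⁻¹)) := by group
    rw [e]; exact (C x).mul_mem hc h3
  -- L1
  have L1 : ∀ g x : G, g * x ≠ x * g →
      orderOf (QuotientGroup.mk g : G ⧸ Subgroup.center G) = (C x).index ∧ (C x).index.Prime := by
    intro g x hgx
    have hx := hnc' g x hgx
    have hg := hnc g x hgx
    have := hnormal x
    have hq : (C x).index.Prime := index_prime_of_normal_coatom (h x hx)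
    refine ⟨?_, hq⟩
    have hpow : g ^ (C x).index ∈ C x := Subgroup.pow_index_mem (C x) g
    have hcen : g ^ (C x).index ∈ Subgroup.center G := by
      by_contra hnot
      have h1 : C (g ^ (C x).index) = C g :=
        ((h g hg).le_iff_eq (h _ hnot).1).1 (C_le_C_pow g _)
      have h2 : x ∈ C (g ^ (C x).index) := mem_C_comm.1 hpow
      rw [h1, mem_C] at h2
      exact hgx h2.symm
    have h3 : (QuotientGroup.mk g : G ⧸ Subgroup.center G) ^ (C x).index = 1 := by
      rw [← QuotientGroup.mk_pow]; exact (QuotientGroup.eq_one_iff _).2 hcen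
    rcases (Nat.dvd_prime hq).1 (orderOf_dvd_of_pow_eq_one h3) with h4 | h4
    · exfalso
      exact hg ((QuotientGroup.eq_one_iff g).1 (orderOf_eq_one_iff.1 h4))
    · exact h4
  have L2 : ∀ g x : G, g * x ≠ x * g →
      orderOf (QuotientGroup.mk g : G ⧸ Subgroup.center G)
        = orderOf (QuotientGroup.mk x : G ⧸ Subgroup.center G) := by
    intro g x hgx
    have hxg : x * g ≠ g * x := fun e => hgx e.symm
    have h1 : g * x * g ≠ g * (g * x) := by
      intro e
      apply hgx
      have e' : g * (x * g) = g * (g * x) := by rw [← mul_assoc]; exact e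
      exact (mul_left_cancel e').symm
    have h2 : g * x * x ≠ x * (g * x) := by
      intro e
      apply hgx
      have e' : g * x * x = x * g * x := by rw [e, mul_assoc]
      exact mul_right_cancel e'
    rw [(L1 g x hgx).1, (L1 x g hxg).1, ← (L1 (g * x) g h1).1, (L1 (g * x) x h2).1]
  obtain ⟨g0, x0, h0⟩ := hna
  refine ⟨orderOf (QuotientGroup.mk g0 : G ⧸ Subgroup.center G), ?_, ?_⟩
  · rw [(L1 g0 x0 h0).1]; exact (L1 g0 x0 h0).2
  · intro a
    obtain ⟨y, rfl⟩ := QuotientGroup.mk_surjective a
    by_cases hy : y ∈ Subgroup.center G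
    · rw [(QuotientGroup.eq_one_iff y).2 hy, one_pow]
    · have hord : orderOf (QuotientGroup.mk y : G ⧸ Subgroup.center G)
          = orderOf (QuotientGroup.mk g0 : G ⧸ Subgroup.center G) := by
        by_cases c1 : y * g0 = g0 * y
        · by_cases c2 : y * x0 = x0 * y
          · -- y commutes with both
            obtain ⟨w, hw⟩ : ∃ w, y * w ≠ w * y := by
              by_contra hc
              apply hy
              rw [Subgroup.mem_center_iff]
              intro w
              by_contra hw
              exact hc ⟨w, fun e => hw e.symm⟩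
            by_cases c3 : w * g0 = g0 * w
            · have hz1 : y * (w * x0) ≠ w * x0 * y := by
                intro e
                apply hw
                have e' : y * w * x0 = w * y * x0 := by
                  calc y * w * x0 = y * (w * x0) := by group
                    _ = w * x0 * y := e
                    _ = w * (x0 * y) := by group
                    _ = w * (y * x0) := by rw [c2]
                    _ = w * y * x0 := by group
                exact mul_right_cancel e'
              have hz2 : w * x0 * g0 ≠ g0 * (w * x0) := by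
                intro e
                apply h0
                have e' : w * (g0 * x0) = w * (x0 * g0) := by
                  calc w * (g0 * x0) = w * g0 * x0 := by group
                    _ = g0 * w * x0 := by rw [c3]
                    _ = g0 * (w * x0) := by group
                    _ = w * x0 * g0 := e.symm
                    _ = w * (x0 * g0) := by group
                exact mul_left_cancel e'
              rw [L2 y (w * x0) hz1, L2 (w * x0) g0 hz2]
            · rw [L2 y w hw, L2 w g0 c3]
          · rw [L2 y x0 c2, ← L2 g0 x0 h0]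
        · exact L2 y g0 c1
      rw [← hord]; exact pow_orderOf_eq_one _

theorem main {G : Type u} [Group G] [Finite G] (hna : ¬ IsMulCommutative G)
    (h : ∀ x : G, x ∉ Subgroup.center G → IsCoatom (Subgroup.centralizer ({x} : Set G))) :
    (∃ p : ℕ, p.Prime ∧ Cfsg.IsElementaryAbelian p (⊤ : Subgroup (G ⧸ Subgroup.center G))) ∨
    (¬ IsMulCommutative (G ⧸ Subgroup.center G) ∧ (∀ H : Subgroup (G ⧸ Subgroup.center G), H ≠ ⊤ → IsMulCommutative ↥H) ∧
      ∃ p q a : ℕ, p.Prime ∧ q.Prime ∧ p ≠ q ∧ Nat.card (G ⧸ Subgroup.center G) = p ^ a * q ∧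
        ∀ P : Subgroup (G ⧸ Subgroup.center G), Nat.card ↥P = p ^ a → P.Normal) := by
  have hH : Hyp G := h
  have hna' : ∃ a b : G, a * b ≠ b * a := by
    by_contra hc
    apply hna
    refine ⟨⟨fun a b => ?_⟩⟩
    by_contra hab
    exact hc ⟨a, b, hab⟩
  by_cases hZ : Subgroup.center (G ⧸ Subgroup.center G) = ⊥
  · right
    have hTC : TC (G ⧸ Subgroup.center G) := TC_of_hyp (hyp_quotient hH) hZ
    have hnt : Nontrivial (G ⧸ Subgroup.center G) := by
      obtain ⟨a, b, hab⟩ := hna'
      refine ⟨⟨QuotientGroup.mk a, 1, ?_⟩⟩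
      intro h1
      have hac : a ∈ Subgroup.center G := (QuotientGroup.eq_one_iff a).1 h1
      exact hab (Subgroup.mem_center_iff.1 hac b).symm
    exact structure_TC hTC hnt
  · left
    have hcomm := comm_of_center_ne_bot hH hZ
    obtain ⟨p, hp, hexp⟩ := exists_prime_exponent hH hcomm hna'
    refine ⟨p, hp, ⟨⟨fun a b => Subtype.ext (hcomm a b)⟩⟩, fun a _ => hexp a⟩

/-- Let G be a non-abelian finite group in which the centralizer of every non-central element is a maximal subgroup. Then G/Z(G) is either an elementary abelian p-group for some prime p, or a minimal non-abelian group (non-abelian with all proper subgroups abelian) of order p^a · q for distinct primes p, q with a normal Sylow p-subgroup. -/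
theorem result {G : Type*} [Group G] [Finite G] (hna : ¬ IsMulCommutative G)
    (h : ∀ x : G, x ∉ Subgroup.center G → IsCoatom (Subgroup.centralizer ({x} : Set G))) :
    (∃ p : ℕ, p.Prime ∧ Cfsg.IsElementaryAbelian p (⊤ : Subgroup (G ⧸ Subgroup.center G))) ∨
    (¬ IsMulCommutative (G ⧸ Subgroup.center G) ∧ (∀ H : Subgroup (G ⧸ Subgroup.center G), H ≠ ⊤ → IsMulCommutative ↥H) ∧
      ∃ p q a : ℕ, p.Prime ∧ q.Prime ∧ p ≠ q ∧ Nat.card (G ⧸ Subgroup.center G) = p ^ a * q ∧
        ∀ P : Subgroup (G ⧸ Subgroup.center G), Nat.card ↥P = p ^ a → P.Normal) := by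
  exact main hna h

end Cfsg.Agent.S3904
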