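import Cfsg.Statements.S3903
import Cfsg.Agent.Lib.Helper71.MaxCent
import Cfsg.Agent.S3904

set_option autoImplicit false
open Cfsg

namespace Cfsg.Agent.S3903

open Cfsg.Agent.Lib.Helper71.MaxCent

universe u

variable {G : Type u} [Group G]

theorem prime_unique_of_isPrimePow {n p q : ℕ} (hn : IsPrimePow n) (hp : p.Prime) (hq : q.Prime)
    (hpn : p ∣ n) (hqn : q ∣ n) : p = q := by
  rw [isPrimePow_nat_iff] at hn
  obtain ⟨r, m, hr, hm, rfl⟩ := hn
  have h1 := (Nat.prime_dvd_prime_iff_eq hp hr).1 (hp.dvd_of_dvd_pow hpn)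
  have h2 := (Nat.prime_dvd_prime_iff_eq hq hr).1 (hq.dvd_of_dvd_pow hqn)
  rw [h1, h2]

/-- a power of `g` of prime order `q` for a prime divisor `q` of the order -/
theorem exists_pow_orderOf_eq [Finite G] (g : G) {q : ℕ} (hqn : q ∣ orderOf g) :
    ∃ m : ℕ, orderOf (g ^ m) = q := by
  have hn0 : orderOf g ≠ 0 := (orderOf_pos g).ne'
  obtain ⟨m, hm⟩ := hqn
  have hm0 : m ≠ 0 := by
    rintro rfl; rw [mul_zero] at hm; exact hn0 hm
  refine ⟨m, ?_⟩
  rw [orderOf_pow_of_dvd hm0 ⟨q, by rw [hm, mul_comm]⟩, hm]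
  exact Nat.mul_div_cancel _ (Nat.pos_of_ne_zero hm0)

/-- if `p` is the only prime dividing the order of `g` then `g` is a `p`-element -/
theorem exists_pow_eq_one_of_unique_prime [Finite G] (g : G) {p : ℕ}
    (h : ∀ d : ℕ, d.Prime → d ∣ orderOf g → d = p) : ∃ j : ℕ, g ^ p ^ j = 1 := by
  have hn0 : orderOf g ≠ 0 := (orderOf_pos g).ne'
  have h1 := Nat.eq_prime_pow_of_unique_prime_dvd hn0 (fun {d} hd hdn => h d hd hdn)
  refine ⟨(orderOf g).primeFactorsList.length, ?_⟩
  rw [← h1]; exact pow_orderOf_eq_one g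

/-- Step 1: if an outside element centralizes `N` then `N` is a `p`-group. -/
theorem isPGroup_of_le_C [Finite G] (N : Subgroup G) {x : G} (hx : x ∉ N)
    (hall : ∀ y : G, y ∉ N → IsPrimePow (orderOf y)) (hle : N ≤ C x) :
    ∃ p : ℕ, p.Prime ∧ IsPGroup p N := by
  obtain ⟨p, k, hp, hk, hpk⟩ := (isPrimePow_nat_iff _).1 (hall x hx)
  refine ⟨p, hp, ?_⟩
  intro n
  have key : ∀ d : ℕ, d.Prime → d ∣ orderOf (n : G) → d = p := by
    intro q hq hqn
    by_contra hqp
    obtain ⟨m, hord⟩ := exists_pow_orderOf_eq (n : G) hqn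
    have huN : (n : G) ^ m ∈ N := N.pow_mem n.2 m
    have hcomm : Commute x ((n : G) ^ m) := (mem_C.1 (hle huN)).symm
    have hcop : (orderOf x).Coprime (orderOf ((n : G) ^ m)) := by
      rw [hord, ← hpk]
      exact Nat.Coprime.pow_left k ((Nat.coprime_primes hp hq).2 (Ne.symm hqp))
    have hmul := hcomm.orderOf_mul_eq_mul_orderOf_of_coprime hcop
    have hxu : x * (n : G) ^ m ∉ N := by
      intro hc
      apply hx
      have e : x = x * (n : G) ^ m * ((n : G) ^ m)⁻¹ := by group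
      rw [e]; exact N.mul_mem hc (N.inv_mem huN)
    have hpp2 := hall _ hxu
    rw [hmul, hord] at hpp2
    have hpd : p ∣ orderOf x * q := Dvd.dvd.mul_right (hpk ▸ dvd_pow_self p hk.ne') q
    have hqd : q ∣ orderOf x * q := dvd_mul_left q _
    exact hqp (prime_unique_of_isPrimePow hpp2 hq hp hqd hpd)
  obtain ⟨j, hj⟩ := exists_pow_eq_one_of_unique_prime (n : G) key
  exact ⟨j, Subtype.ext (by rw [Subgroup.coe_pow, hj]; rfl)⟩

/-- every element is a product of an element of `N` and an element centralizing `x` -/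
theorem exists_mul_of_not_le {N : Subgroup G} [N.Normal] {x : G} (hco : IsCoatom (C x))
    (hnle : ¬ N ≤ C x) (g : G) : ∃ n ∈ N, ∃ c ∈ C x, n * c = g := by
  have htop : N ⊔ C x = ⊤ := by
    apply hco.2
    refine lt_of_le_of_ne le_sup_right ?_
    intro he
    apply hnle
    rw [he]; exact le_sup_left
  exact Subgroup.mem_sup_of_normal_left.1 (show g ∈ N ⊔ C x from htop ▸ Subgroup.mem_top g)

/-- Step 2a: the quotient is abelian. -/
theorem comm_quot {N : Subgroup G} [N.Normal]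
    (hco : ∀ x : G, x ∉ N → IsCoatom (C x)) (hnle : ∀ x : G, x ∉ N → ¬ N ≤ C x)
    (a b : G ⧸ N) : a * b = b * a := by
  obtain ⟨a', rfl⟩ := QuotientGroup.mk_surjective a
  obtain ⟨b', rfl⟩ := QuotientGroup.mk_surjective b
  by_cases ha : a' ∈ N
  · rw [(QuotientGroup.eq_one_iff a').2 ha, one_mul, mul_one]
  · obtain ⟨n, hn, c, hc, rfl⟩ := exists_mul_of_not_le (hco a' ha) (hnle a' ha) b'
    rw [QuotientGroup.mk_mul, (QuotientGroup.eq_one_iff n).2 hn, one_mul, ← QuotientGroup.mk_mul,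
      ← QuotientGroup.mk_mul, mem_C.1 hc]

/-- Step 2b: a uniform prime. -/
theorem exists_uniform_prime [Finite G] {N : Subgroup G} [N.Normal] (hN : N ≠ ⊤)
    (hpp : ∀ x : G, x ∉ N → IsPrimePow (orderOf x))
    (hcomm : ∀ a b : G ⧸ N, a * b = b * a) :
    ∃ p : ℕ, p.Prime ∧ ∀ g : G, g ∉ N → ∃ j : ℕ, g ^ p ^ j = 1 := by
  obtain ⟨x₀, hx₀⟩ : ∃ x, x ∉ N := by
    by_contra hc
    apply hN
    rw [eq_top_iff]
    intro g _
    by_contra hg
    exact hc ⟨g, hg⟩
  obtain ⟨p, k, hp, hk, hpk⟩ := (isPrimePow_nat_iff _).1 (hpp x₀ hx₀)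
  -- order of the image
  have himg : ∀ g : G, g ∉ N → ∀ r m : ℕ, r.Prime → r ^ m = orderOf g →
      ∃ a : ℕ, 0 < a ∧ orderOf (QuotientGroup.mk g : G ⧸ N) = r ^ a := by
    intro g hg r m hr hrm
    have h1 : orderOf (QuotientGroup.mk g : G ⧸ N) ∣ r ^ m := by
      rw [hrm]
      apply orderOf_dvd_of_pow_eq_one
      rw [← QuotientGroup.mk_pow, pow_orderOf_eq_one, QuotientGroup.mk_one]
    obtain ⟨a, -, ha⟩ := (Nat.dvd_prime_pow hr).1 h1
    refine ⟨a, ?_, ha⟩
    rcases Nat.eq_zero_or_pos a with h0 | h0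
    · exfalso
      rw [h0, pow_zero, orderOf_eq_one_iff] at ha
      exact hg ((QuotientGroup.eq_one_iff g).1 ha)
    · exact h0
  refine ⟨p, hp, ?_⟩
  intro g hg
  obtain ⟨r, m, hr, hm, hrm⟩ := (isPrimePow_nat_iff _).1 (hpp g hg)
  have hrp : r = p := by
    by_contra hne
    obtain ⟨a, ha0, ha⟩ := himg g hg r m hr hrm
    obtain ⟨b, hb0, hb⟩ := himg x₀ hx₀ p k hp hpk
    have hcop : (orderOf (QuotientGroup.mk g : G ⧸ N)).Coprime
        (orderOf (QuotientGroup.mk x₀ : G ⧸ N)) := by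
      rw [ha, hb]
      exact Nat.Coprime.pow _ _ ((Nat.coprime_primes hr hp).2 hne)
    have hmul := (show Commute (QuotientGroup.mk g : G ⧸ N) (QuotientGroup.mk x₀) from
      hcomm _ _).orderOf_mul_eq_mul_orderOf_of_coprime hcop
    rw [← QuotientGroup.mk_mul, ha, hb] at hmul
    have hgx : g * x₀ ∉ N := by
      intro hc
      rw [(QuotientGroup.eq_one_iff _).2 hc, orderOf_one] at hmul
      have h2 : r ∣ 1 := by
        rw [hmul]; exact Dvd.dvd.mul_right (dvd_pow_self r ha0.ne') _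
      exact hr.one_lt.ne' (Nat.dvd_one.1 h2)
    have hdvd : orderOf (QuotientGroup.mk (g * x₀) : G ⧸ N) ∣ orderOf (g * x₀) := by
      apply orderOf_dvd_of_pow_eq_one
      rw [← QuotientGroup.mk_pow, pow_orderOf_eq_one, QuotientGroup.mk_one]
    rw [hmul] at hdvd
    have h3 : r ∣ orderOf (g * x₀) :=
      (Dvd.dvd.mul_right (dvd_pow_self r ha0.ne') _).trans hdvd
    have h4 : p ∣ orderOf (g * x₀) :=
      (Dvd.dvd.mul_left (dvd_pow_self p hb0.ne') _).trans hdvd
    exact hne (prime_unique_of_isPrimePow (hpp _ hgx) hr hp h3 h4)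
  refine ⟨m, ?_⟩
  rw [← hrp, hrm]; exact pow_orderOf_eq_one g

/-- Step 2c: centralizers of outside elements are `p`-groups. -/
theorem isPGroup_C {N : Subgroup G} {p : ℕ}
    (hp : ∀ g : G, g ∉ N → ∃ j : ℕ, g ^ p ^ j = 1) {g : G} (hg : g ∉ N) :
    ∀ c ∈ C g, ∃ j : ℕ, c ^ p ^ j = 1 := by
  intro c hc
  by_cases hcN : c ∈ N
  · have hgc : g * c ∉ N := by
      intro h1
      apply hg
      have e : g = g * c * c⁻¹ := by group
      rw [e]; exact N.mul_mem h1 (N.inv_mem hcN)
    obtain ⟨i, hi⟩ := hp _ hgc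
    obtain ⟨j, hj⟩ := hp g hg
    refine ⟨i + j, ?_⟩
    have hcomm : Commute g⁻¹ (g * c) := by
      have h1 : Commute g c := (mem_C.1 hc).symm
      exact (Commute.refl g).inv_left.mul_right h1.inv_left
    have e : c = g⁻¹ * (g * c) := by group
    rw [e, hcomm.mul_pow, inv_pow, pow_add, pow_mul, pow_mul, hi, one_pow, mul_one]
    rw [← pow_mul, mul_comm (p ^ i) (p ^ j), pow_mul, hj, one_pow, inv_one]
  · exact hp c hcN


/-- fixed point argument: a normal `p`-subgroup `D` containing an element outside `N` forces `N`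
to be a `p`-group. -/
theorem isPGroup_of_normal_pgroup [Finite G] {N D : Subgroup G} [hNn : N.Normal] [hDn : D.Normal]
    {p : ℕ} (hp : p.Prime) (hD : IsPGroup p D) {x : G} (hxD : x ∈ D) (hxN : x ∉ N)
    (hC : ∀ d : G, d ∉ N → ∀ c ∈ C d, ∃ j : ℕ, c ^ p ^ j = 1) : IsPGroup p N := by
  intro n
  have key : ∀ q : ℕ, q.Prime → q ∣ orderOf (n : G) → q = p := by
    intro q hq hqn
    by_contra hqp
    obtain ⟨m, hord⟩ := exists_pow_orderOf_eq (n : G) hqn
    obtain ⟨u, hu⟩ : ∃ u : G, u = (n : G) ^ m := ⟨_, rfl⟩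
    rw [← hu] at hord
    have huN : u ∈ N := hu ▸ N.pow_mem n.2 m
    let X : Type u := {d : G // d ∈ D ∧ x⁻¹ * d ∈ N}
    let _ : MulAction (Subgroup.zpowers u) X :=
      { smul := fun z d => ⟨(z : G) * d.1 * (z : G)⁻¹, hDn.conj_mem d.1 d.2.1 z, by
            have hz : (z : G) ∈ N := (Subgroup.zpowers_le.2 huN) z.2
            have e : x⁻¹ * ((z : G) * d.1 * (z : G)⁻¹)
                = (x⁻¹ * (z : G) * x⁻¹⁻¹) * (x⁻¹ * d.1) * (z : G)⁻¹ := by group
            rw [e]
            exact N.mul_mem (N.mul_mem (hNn.conj_mem _ hz _) d.2.2) (N.inv_mem hz)⟩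
        one_smul := fun d => Subtype.ext (by
          show (1 : G) * d.1 * (1 : G)⁻¹ = d.1
          group)
        mul_smul := fun a b d => Subtype.ext (by
          show ((a : G) * (b : G)) * d.1 * ((a : G) * (b : G))⁻¹
            = (a : G) * ((b : G) * d.1 * (b : G)⁻¹) * (a : G)⁻¹
          group) }
    have hZ : IsPGroup q (Subgroup.zpowers u) := by
      apply IsPGroup.of_card (n := 1)
      rw [Nat.card_zpowers, hord, pow_one]
    have hcardX : ∃ b : ℕ, Nat.card X = p ^ b := by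
      have : Fact p.Prime := ⟨hp⟩
      have hDN : IsPGroup p (D ⊓ N : Subgroup G) := hD.to_le inf_le_left
      obtain ⟨b, hb⟩ := IsPGroup.iff_card.1 hDN
      refine ⟨b, ?_⟩
      rw [← hb]
      apply Nat.card_congr
      exact
        { toFun := fun d => ⟨x⁻¹ * d.1, D.mul_mem (D.inv_mem hxD) d.2.1, d.2.2⟩
          invFun := fun e => ⟨x * e.1, D.mul_mem hxD e.2.1, by
            rw [inv_mul_cancel_left]; exact e.2.2⟩
          left_inv := fun d => Subtype.ext (by simp)
          right_inv := fun e => Subtype.ext (by simp) }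
    obtain ⟨b, hb⟩ := hcardX
    have hnd : ¬ q ∣ Nat.card X := by
      rw [hb]
      intro hdvd
      exact hqp ((Nat.prime_dvd_prime_iff_eq hq hp).1 (hq.dvd_of_dvd_pow hdvd))
    have : Fact q.Prime := ⟨hq⟩
    obtain ⟨d₀, hd₀⟩ := hZ.nonempty_fixed_point_of_prime_not_dvd_card X hnd
    have hfix := hd₀ ⟨u, Subgroup.mem_zpowers u⟩
    have hfix' : u * d₀.1 * u⁻¹ = d₀.1 := congrArg Subtype.val hfix
    have hud : u ∈ C d₀.1 := by
      rw [mem_C]
      calc u * d₀.1 = u * d₀.1 * u⁻¹ * u := by group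
        _ = d₀.1 * u := by rw [hfix']
    have hd₀N : d₀.1 ∉ N := by
      intro hc
      apply hxN
      have e : x = d₀.1 * (x⁻¹ * d₀.1)⁻¹ := by group
      rw [e]; exact N.mul_mem hc (N.inv_mem d₀.2.2)
    obtain ⟨j, hj⟩ := hC d₀.1 hd₀N u hud
    have h1 : q ∣ p ^ j := hord ▸ orderOf_dvd_of_pow_eq_one hj
    exact hqp ((Nat.prime_dvd_prime_iff_eq hq hp).1 (hq.dvd_of_dvd_pow h1))
  obtain ⟨j, hj⟩ := exists_pow_eq_one_of_unique_prime (n : G) key
  exact ⟨j, Subtype.ext (by rw [Subgroup.coe_pow, hj]; rfl)⟩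

theorem le_normalizer_inf_C {P : Subgroup G} {y : G}
    (hy : ∀ g ∈ P, ∀ w ∈ P, w * (y⁻¹ * g⁻¹ * y * g) = (y⁻¹ * g⁻¹ * y * g) * w) :
    P ≤ Subgroup.normalizer ((P ⊓ C y : Subgroup G) : Set G) := by
  rw [Subgroup.le_normalizer_iff]
  intro g hg d hd
  refine Subgroup.mem_inf.2 ⟨P.mul_mem (P.mul_mem hg hd.1) (P.inv_mem hg), ?_⟩
  rw [mem_C]
  have hdy : d * y = y * d := mem_C.1 hd.2
  have hda := hy g hg d hd.1
  obtain ⟨a, haeq⟩ : ∃ a, a = y⁻¹ * g⁻¹ * y * g := ⟨_, rfl⟩
  rw [← haeq] at hda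
  have e1 : g⁻¹ * y = y * a * g⁻¹ := by rw [haeq]; group
  have e2 : y * g = g * y * a := by rw [haeq]; group
  calc g * d * g⁻¹ * y = g * d * (g⁻¹ * y) := by group
    _ = g * d * (y * a * g⁻¹) := by rw [e1]
    _ = g * (d * y) * a * g⁻¹ := by group
    _ = g * (y * d) * a * g⁻¹ := by rw [hdy]
    _ = g * y * (d * a) * g⁻¹ := by group
    _ = g * y * (a * d) * g⁻¹ := by rw [hda]
    _ = (g * y * a) * d * g⁻¹ := by group
    _ = y * g * d * g⁻¹ := by rw [← e2]
    _ = y * (g * d * g⁻¹) := by group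

theorem exists_second_center_outside [Finite G] {N : Subgroup G} {x : G} (hxN : x ∉ N) {p : ℕ}
    (hp : p.Prime) (hP : IsPGroup p (C x)) (hna : ∃ u ∈ C x, ∃ v ∈ C x, u * v ≠ v * u) :
    ∃ g ∈ C x, g ∉ N ∧ (∃ v ∈ C x, g * v ≠ v * g) ∧
      ∀ k ∈ C x, ∀ w ∈ C x, w * (g⁻¹ * k⁻¹ * g * k) = (g⁻¹ * k⁻¹ * g * k) * w := by
  obtain ⟨y, hyP, ⟨v, hvP, hyv⟩, hyc⟩ := exists_second_center hp hP hna
  by_cases hyN : y ∈ N
  · refine ⟨x * y, (C x).mul_mem (self_mem_C x) hyP, ?_, ⟨v, hvP, ?_⟩, ?_⟩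
    · intro hc
      apply hxN
      have e : x = x * y * y⁻¹ := by group
      rw [e]; exact N.mul_mem hc (N.inv_mem hyN)
    · intro e
      apply hyv
      have hvx : v * x = x * v := mem_C.1 hvP
      have e' : x * (y * v) = x * (v * y) := by
        calc x * (y * v) = x * y * v := by group
          _ = v * (x * y) := e
          _ = v * x * y := by group
          _ = x * v * y := by rw [hvx]
          _ = x * (v * y) := by group
      exact mul_left_cancel e'
    · intro k hk w hw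
      have hkx : k * x = x * k := mem_C.1 hk
      have h1 : x⁻¹ * k⁻¹ * x = k⁻¹ := by
        have h2 : k⁻¹ * x = x * k⁻¹ := by
          calc k⁻¹ * x = k⁻¹ * (x * k) * k⁻¹ := by group
            _ = k⁻¹ * (k * x) * k⁻¹ := by rw [hkx]
            _ = x * k⁻¹ := by group
        rw [mul_assoc, h2, inv_mul_cancel_left]
      have e : (x * y)⁻¹ * k⁻¹ * (x * y) * k = y⁻¹ * k⁻¹ * y * k := by
        calc (x * y)⁻¹ * k⁻¹ * (x * y) * k = y⁻¹ * (x⁻¹ * k⁻¹ * x) * y * k := by group
          _ = y⁻¹ * k⁻¹ * y * k := by rw [h1]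
      rw [e]; exact hyc k hk w hw
  · exact ⟨y, hyP, hyN, ⟨v, hvP, hyv⟩, hyc⟩

/-- case (i): a normal centralizer -/
theorem solvable_of_normal_C [Finite G] {x : G} {p : ℕ} (hp : p.Prime) (hco : IsCoatom (C x))
    (hn : (C x).Normal) (hP : ∀ c ∈ C x, ∃ j : ℕ, c ^ p ^ j = 1) : Group.IsSolvable G := by
  have : Fact p.Prime := ⟨hp⟩
  have hq : Group.IsSolvable (G ⧸ C x) := by
    apply Group.isSolvable_of_comm
    intro a b
    obtain ⟨a', rfl⟩ := QuotientGroup.mk_surjective a
    obtain ⟨b', rfl⟩ := QuotientGroup.mk_surjective b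
    rw [← QuotientGroup.mk_mul, ← QuotientGroup.mk_mul, QuotientGroup.eq]
    have h1 := Cfsg.Agent.S3904.commutator_mem_of_normal_coatom hco b'⁻¹ a'⁻¹
    have e : (a' * b')⁻¹ * (b' * a') = b'⁻¹ * a'⁻¹ * b'⁻¹⁻¹ * a'⁻¹⁻¹ := by group
    rw [e]; exact h1
  have hPp : IsPGroup p (C x) := fun c => by
    obtain ⟨j, hj⟩ := hP c c.2
    exact ⟨j, Subtype.ext (by simpa using hj)⟩
  have hnil := hPp.isNilpotent
  have hk : Group.IsSolvable (C x) := inferInstance
  exact (Group.isSolvable_iff_subgroup_quotient (C x)).2 ⟨hk, hq⟩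


open scoped Pointwise in
/-- case (ii): an abelian, non-normal centralizer (Burnside transfer) -/
theorem solvable_of_abelian_C [Finite G] {x : G} {p : ℕ} (hp : p.Prime) (hco : IsCoatom (C x))
    (hn : ¬ (C x).Normal) (hP : ∀ c ∈ C x, ∃ j : ℕ, c ^ p ^ j = 1)
    (hab : ∀ u ∈ C x, ∀ v ∈ C x, u * v = v * u) : Group.IsSolvable G := by
  have : Fact p.Prime := ⟨hp⟩
  have hPp : IsPGroup p (C x) := fun c => by
    obtain ⟨j, hj⟩ := hP c c.2
    exact ⟨j, Subtype.ext (by simpa using hj)⟩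
  have hnorm : Subgroup.normalizer ((C x : Subgroup G) : Set G) = C x :=
    (hco.le_iff_eq (fun ht => hn (Subgroup.normalizer_eq_top_iff.1 ht))).1 Subgroup.le_normalizer
  obtain ⟨S, hS⟩ := hPp.exists_le_sylow
  have hSeq : (S : Subgroup G) = C x := by
    by_contra hne
    have hlt : C x < (S : Subgroup G) := lt_of_le_of_ne hS (Ne.symm hne)
    have hSnil : Group.IsNilpotent (S : Subgroup G) := S.isPGroup'.isNilpotent
    obtain ⟨g, hgS, hgP, hgN⟩ := exists_mem_normalizer_of_lt hSnil hlt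
    rw [hnorm] at hgN
    exact hgP hgN
  have hNC : Subgroup.normalizer ((S : Subgroup G) : Set G)
      ≤ Subgroup.centralizer ((S : Subgroup G) : Set G) := by
    rw [hSeq, hnorm]
    intro u hu
    rw [Subgroup.mem_centralizer_iff]
    intro v hv
    exact hab v hv u hu
  have hcompl := MonoidHom.ker_transferSylow_isComplement' S hNC
  have hndK := MonoidHom.not_dvd_card_ker_transferSylow S hNC
  obtain ⟨K, hK⟩ : ∃ K : Subgroup G, K = (MonoidHom.transferSylow S hNC).ker := ⟨_, rfl⟩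
  rw [← hK] at hcompl hndK
  have hKn : K.Normal := hK ▸ MonoidHom.normal_ker _
  have hdisj : ∀ g : G, g ∈ K → g ∈ C x → g = 1 := by
    intro g hgK hgP
    have h1 := hcompl.disjoint
    rw [Subgroup.disjoint_def] at h1
    exact h1 hgK (hSeq ▸ hgP)
  have hsup : K ⊔ C x = ⊤ := hSeq ▸ hcompl.sup_eq_top
  have hKsolv : Group.IsSolvable K := by
    by_cases hKb : K = ⊥
    · apply Group.isSolvable_of_comm
      intro a b
      have hle : K ≤ ⊥ := le_of_eq hKb
      have ha : (a : G) = 1 := Subgroup.mem_bot.1 (hle a.2)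
      have hb : (b : G) = 1 := Subgroup.mem_bot.1 (hle b.2)
      apply Subtype.ext
      rw [Subgroup.coe_mul, Subgroup.coe_mul, ha, hb]
    · have hcard1 : Nat.card K ≠ 1 := by
        have h1 := (Subgroup.one_lt_card_iff_ne_bot K).2 hKb
        omega
      obtain ⟨q, hqeq⟩ : ∃ q, q = (Nat.card K).minFac := ⟨_, rfl⟩
      have hq : q.Prime := hqeq ▸ Nat.minFac_prime hcard1
      have hqdvd : q ∣ Nat.card K := hqeq ▸ Nat.minFac_dvd _
      have : Fact q.Prime := ⟨hq⟩
      let _ : MulDistribMulAction (C x) K :=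
        MulDistribMulAction.compHom K ((MulAut.conjNormal (H := K)).comp (C x).subtype)
      have hnd : ¬ p ∣ Nat.card (Sylow q K) := by
        intro hdvd
        have h1 : Nat.card (Sylow q K) ∣ Nat.card K :=
          ((default : Sylow q K).card_dvd_index).trans (Subgroup.index_dvd_card _)
        exact hndK (hdvd.trans h1)
      obtain ⟨Q₁, hQ₁⟩ := hPp.nonempty_fixed_point_of_prime_not_dvd_card (Sylow q K) hnd
      let Q' : Subgroup G := (Q₁ : Subgroup K).map K.subtype
      have hQ'K : Q' ≤ K := by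
        rintro _ ⟨k, -, rfl⟩; exact k.2
      have hPQ' : C x ≤ Subgroup.normalizer (Q' : Set G) := by
        rw [Subgroup.le_normalizer_iff]
        intro u hu k hk
        obtain ⟨k₁, hk₁, rfl⟩ := hk
        have h1 : (⟨u, hu⟩ : C x) • Q₁ = Q₁ := hQ₁ ⟨u, hu⟩
        have h2 : (⟨u, hu⟩ : C x) • k₁ ∈ ((⟨u, hu⟩ : C x) • (Q₁ : Subgroup K)) :=
          Subgroup.smul_mem_pointwise_smul k₁ _ _ hk₁
        have h3 : ((⟨u, hu⟩ : C x) • (Q₁ : Subgroup K)) = (Q₁ : Subgroup K) :=
          congrArg (fun T : Sylow q K => (T : Subgroup K)) h1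
        rw [h3] at h2
        exact ⟨_, h2, rfl⟩
      have hQ'ne : Q' ≠ ⊥ := by
        intro hb
        have h1 : (Q₁ : Subgroup K) ≠ ⊥ := Q₁.ne_bot_of_dvd_card hqdvd
        apply h1
        rw [eq_bot_iff]
        intro k hk
        have h2 : (k : G) ∈ Q' := ⟨k, hk, rfl⟩
        rw [hb, Subgroup.mem_bot] at h2
        exact Subgroup.mem_bot.2 (Subtype.ext h2)
      have hQ'P : ¬ Q' ≤ C x := by
        intro h2
        apply hQ'ne
        rw [eq_bot_iff]
        intro k hk
        exact Subgroup.mem_bot.2 (hdisj k (hQ'K hk) (h2 hk))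
      have hQ'n : Q'.Normal := by
        rw [← Subgroup.normalizer_eq_top_iff]
        by_contra hne
        have h1 : Subgroup.normalizer (Q' : Set G) = C x := (hco.le_iff_eq hne).1 hPQ'
        exact hQ'P (h1 ▸ Subgroup.le_normalizer)
      have htop : Q' ⊔ C x = ⊤ := by
        apply hco.2
        refine lt_of_le_of_ne le_sup_right ?_
        intro he
        exact hQ'P (he ▸ le_sup_left)
      have hKQ' : K ≤ Q' := by
        intro k hk
        obtain ⟨a, ha, c, hc, rfl⟩ := Subgroup.mem_sup_of_normal_left.1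
          (show k ∈ Q' ⊔ C x from htop ▸ Subgroup.mem_top k)
        have hcK : c ∈ K := by
          have e : c = a⁻¹ * (a * c) := by group
          rw [e]; exact K.mul_mem (K.inv_mem (hQ'K ha)) hk
        rw [hdisj c hcK hc, mul_one]; exact ha
      have hKq : IsPGroup q K := by
        intro k
        obtain ⟨k₁, hk₁, hk₁e⟩ := hKQ' k.2
        have hk₁' : k₁ = k := Subtype.ext hk₁e
        obtain ⟨j, hj⟩ := Q₁.isPGroup' ⟨k₁, hk₁⟩
        refine ⟨j, ?_⟩
        rw [← hk₁']
        exact congrArg Subtype.val hj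
      have hnil := hKq.isNilpotent
      infer_instance
  have hq : Group.IsSolvable (G ⧸ K) := by
    apply Group.isSolvable_of_comm
    intro a b
    obtain ⟨a', rfl⟩ := QuotientGroup.mk_surjective a
    obtain ⟨b', rfl⟩ := QuotientGroup.mk_surjective b
    obtain ⟨k1, hk1, c1, hc1, rfl⟩ := Subgroup.mem_sup_of_normal_left.1
      (show a' ∈ K ⊔ C x from hsup ▸ Subgroup.mem_top a')
    obtain ⟨k2, hk2, c2, hc2, rfl⟩ := Subgroup.mem_sup_of_normal_left.1
      (show b' ∈ K ⊔ C x from hsup ▸ Subgroup.mem_top b')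
    rw [QuotientGroup.mk_mul, QuotientGroup.mk_mul, (QuotientGroup.eq_one_iff k1).2 hk1,
      (QuotientGroup.eq_one_iff k2).2 hk2, one_mul, one_mul, ← QuotientGroup.mk_mul,
      ← QuotientGroup.mk_mul, hab c1 hc1 c2 hc2]
  exact (Group.isSolvable_iff_subgroup_quotient K).2 ⟨hKsolv, hq⟩

theorem main {G : Type u} [Group G] [Finite G] (N : Subgroup G) [N.Normal] (hN : N ≠ ⊤)
    (h : ∀ x : G, x ∉ N → IsPrimePow (orderOf x) ∧ IsCoatom (Subgroup.centralizer ({x} : Set G))) :
    Group.IsSolvable ↥N := by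
  have hpp : ∀ x : G, x ∉ N → IsPrimePow (orderOf x) := fun x hx => (h x hx).1
  have hco : ∀ x : G, x ∉ N → IsCoatom (C x) := fun x hx => (h x hx).2
  have solv_of_pgroup : ∀ p : ℕ, p.Prime → IsPGroup p N → Group.IsSolvable N := by
    intro p hp hNp
    have : Fact p.Prime := ⟨hp⟩
    have hnil := hNp.isNilpotent
    infer_instance
  by_cases hcen : ∃ x : G, x ∉ N ∧ N ≤ C x
  · obtain ⟨x, hx, hle⟩ := hcen
    obtain ⟨p, hp, hNp⟩ := isPGroup_of_le_C N hx hpp hle
    exact solv_of_pgroup p hp hNp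
  · have hnle : ∀ x : G, x ∉ N → ¬ N ≤ C x := fun x hx hle => hcen ⟨x, hx, hle⟩
    have hcomm := comm_quot hco hnle
    obtain ⟨p, hp, hpel⟩ := exists_uniform_prime hN hpp hcomm
    obtain ⟨x₀, hx₀⟩ : ∃ x, x ∉ N := by
      by_contra hc
      apply hN
      rw [eq_top_iff]
      intro g _
      by_contra hg
      exact hc ⟨g, hg⟩
    have hP := isPGroup_C hpel hx₀
    by_cases hn : (C x₀).Normal
    · have hG : Group.IsSolvable G := solvable_of_normal_C hp (hco x₀ hx₀) hn hP
      infer_instance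
    · by_cases hab : ∀ u ∈ C x₀, ∀ v ∈ C x₀, u * v = v * u
      · have hG : Group.IsSolvable G := solvable_of_abelian_C hp (hco x₀ hx₀) hn hP hab
        infer_instance
      · have hna : ∃ u ∈ C x₀, ∃ v ∈ C x₀, u * v ≠ v * u := by
          by_contra hc
          apply hab
          intro u hu v hv
          by_contra huv
          exact hc ⟨u, hu, v, hv, huv⟩
        have hPp : IsPGroup p (C x₀) := fun c => by
          obtain ⟨j, hj⟩ := hP c c.2
          exact ⟨j, Subtype.ext (by simpa using hj)⟩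
        obtain ⟨g, hgP, hgN, ⟨v, hvP, hgv⟩, hgc⟩ := exists_second_center_outside hx₀ hp hPp hna
        have hQco := hco g hgN
        have hQ := isPGroup_C hpel hgN
        have hQp : IsPGroup p (C g) := fun c => by
          obtain ⟨j, hj⟩ := hQ c c.2
          exact ⟨j, Subtype.ext (by simpa using hj)⟩
        have hQnil : Group.IsNilpotent (C g) := by
          have : Fact p.Prime := ⟨hp⟩
          exact hQp.isNilpotent
        have hQne : C g ≠ C x₀ := by
          intro he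
          rw [← he, mem_C] at hvP
          exact hgv hvP.symm
        have hDQ : C x₀ ⊓ C g < C g := by
          refine lt_of_le_of_ne inf_le_right ?_
          intro he
          have hle : C g ≤ C x₀ := he ▸ inf_le_left
          exact hQne ((hQco.le_iff_eq (hco x₀ hx₀).1).1 hle).symm
        have hPD := le_normalizer_inf_C hgc
        obtain ⟨g', hg'Q, hg'D, hg'N⟩ := exists_mem_normalizer_of_lt hQnil hDQ
        have hDn : (C x₀ ⊓ C g).Normal := by
          rw [← Subgroup.normalizer_eq_top_iff]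
          by_contra hne
          have h1 := ((hco x₀ hx₀).le_iff_eq hne).1 hPD
          rw [h1] at hg'N
          exact hg'D ⟨hg'N, hg'Q⟩
        have hxD : x₀ ∈ C x₀ ⊓ C g := ⟨self_mem_C x₀, mem_C_comm.1 hgP⟩
        have hDp : IsPGroup p (C x₀ ⊓ C g : Subgroup G) := hPp.to_le inf_le_left
        have hNp := isPGroup_of_normal_pgroup hp hDp hxD hx₀ (fun d hd => isPGroup_C hpel hd)
        exact solv_of_pgroup p hp hNp

/-- Let N be a proper normal subgroup of the finite group G such that every element x of G outside N has prime power order and has centralizer C_G(x) a maximal subgroup of G. Then N is solvable. -/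
theorem result {G : Type*} [Group G] [Finite G] (N : Subgroup G) [N.Normal] (hN : N ≠ ⊤)
    (h : ∀ x : G, x ∉ N → IsPrimePow (orderOf x) ∧ IsCoatom (Subgroup.centralizer ({x} : Set G))) : Group.IsSolvable ↥N := by
  exact main N hN h

end Cfsg.Agent.S3903
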