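import Cfsg.Statements.S3908
import Cfsg.Agent.Lib.Helper54.Quaternion

set_option autoImplicit false
set_option linter.style.haveILetI false
open Cfsg

namespace Cfsg.Agent.S3908

open Subgroup Cfsg.Agent.Lib.Helper54.UniqueSubgroup

lemma exists_central_order_p {G : Type*} [Group G] [Finite G] {p : ℕ} [Fact p.Prime]
    (P : Subgroup G) (hP : IsPGroup p P) (hnt : P ≠ ⊥) :
    ∃ z ∈ P, orderOf z = p ∧ ∀ y ∈ P, z * y = y * z := by
  haveI : Nontrivial P := (Subgroup.nontrivial_iff_ne_bot P).mpr hnt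
  haveI := hP.center_nontrivial
  have hc : IsPGroup p (Subgroup.center P) := hP.to_subgroup _
  obtain ⟨k, hk⟩ := IsPGroup.iff_card.mp hc
  have hk0 : k ≠ 0 := by
    rintro rfl
    have h1 : 1 < Nat.card (Subgroup.center P) := Finite.one_lt_card
    rw [hk] at h1
    simp at h1
  have hdvd : p ∣ Nat.card (Subgroup.center P) := by
    rw [hk]; exact dvd_pow_self p hk0
  obtain ⟨c, hc⟩ := exists_prime_orderOf_dvd_card' p hdvd
  refine ⟨((c : P) : G), (c : P).2, ?_, ?_⟩
  · rw [Subgroup.orderOf_coe, Subgroup.orderOf_coe, hc]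
  · intro y hy
    have := Subgroup.mem_center_iff.mp c.2 ⟨y, hy⟩
    have h2 := congrArg Subtype.val this
    exact h2.symm

lemma noniso {G : Type*} [Group G] [Finite G] {p : ℕ} [Fact p.Prime] (z y x : G)
    (hz : orderOf z = p) (hy : orderOf y = p) (hzy : z * y = y * z) (hyz : y ∉ zpowers z)
    (hx : orderOf x = p ^ 2)
    (hB : ∀ A B : Subgroup G, IsMulCommutative ↥A → IsMulCommutative ↥B → Nat.card ↥A = Nat.card ↥B →
      ∃ g : G, B = A.map (MulAut.conj g).toMonoidHom) : False := by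
  have hp : p.Prime := Fact.out
  have hcomm : ∀ (a : zpowers z) (b : zpowers y), Commute (a : G) (b : G) := by
    rintro ⟨a, ha⟩ ⟨b, hb⟩
    obtain ⟨i, rfl⟩ := mem_zpowers_iff.mp ha
    obtain ⟨j, rfl⟩ := mem_zpowers_iff.mp hb
    exact Commute.zpow_zpow hzy i j
  let f : (zpowers z) × (zpowers y) →* G :=
    MonoidHom.noncommCoprod (zpowers z).subtype (zpowers y).subtype hcomm
  have hf : ∀ a b, f (a, b) = (a : G) * (b : G) := fun a b => rfl
  have hpow_z : ∀ a : zpowers z, (a : G) ^ p = 1 := by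
    rintro ⟨a, ha⟩
    obtain ⟨i, rfl⟩ := mem_zpowers_iff.mp ha
    show (z ^ i) ^ p = 1
    rw [← zpow_natCast, ← zpow_mul, mul_comm, zpow_mul, zpow_natCast, ← hz, pow_orderOf_eq_one,
      one_zpow]
  have hpow_y : ∀ b : zpowers y, (b : G) ^ p = 1 := by
    rintro ⟨b, hb⟩
    obtain ⟨i, rfl⟩ := mem_zpowers_iff.mp hb
    show (y ^ i) ^ p = 1
    rw [← zpow_natCast, ← zpow_mul, mul_comm, zpow_mul, zpow_natCast, ← hy, pow_orderOf_eq_one,
      one_zpow]
  have hinj : Function.Injective f := by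
    rw [injective_iff_map_eq_one]
    rintro ⟨a, b⟩ hab
    rw [hf] at hab
    have hbz : (b : G) ∈ zpowers z := by
      have : (b : G) = (a : G)⁻¹ := by
        rw [eq_inv_iff_mul_eq_one, ← hab]
        exact (hcomm a b).eq.symm
      rw [this]
      exact inv_mem a.2
    have hb1 : (b : G) = 1 := by
      by_contra hb1
      have hbo : orderOf (b : G) = p := orderOf_eq_prime (hpow_y b) hb1
      have h1 : zpowers (b : G) = zpowers y :=
        Subgroup.eq_of_le_of_card_ge (zpowers_le.mpr b.2)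
          (by rw [Nat.card_zpowers, Nat.card_zpowers, hbo, hy])
      have h2 : y ∈ zpowers (b : G) := by rw [h1]; exact mem_zpowers y
      exact hyz ((zpowers_le.mpr hbz) h2)
    have ha1 : (a : G) = 1 := by rwa [hb1, mul_one] at hab
    exact Prod.ext (Subtype.ext ha1) (Subtype.ext hb1)
  have hBcomm : IsMulCommutative ↥f.range := by
    refine ⟨⟨?_⟩⟩
    rintro ⟨_, ⟨a1, b1⟩, rfl⟩ ⟨_, ⟨a2, b2⟩, rfl⟩
    apply Subtype.ext
    show f (a1, b1) * f (a2, b2) = f (a2, b2) * f (a1, b1)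
    rw [← map_mul, ← map_mul]
    congr 1
    refine Prod.ext (Subtype.ext ?_) (Subtype.ext ?_)
    · obtain ⟨a1, ha1⟩ := a1
      obtain ⟨a2, ha2⟩ := a2
      obtain ⟨i, rfl⟩ := mem_zpowers_iff.mp ha1
      obtain ⟨j, rfl⟩ := mem_zpowers_iff.mp ha2
      exact (Commute.zpow_zpow (Commute.refl z) i j).eq
    · obtain ⟨b1, hb1⟩ := b1
      obtain ⟨b2, hb2⟩ := b2
      obtain ⟨i, rfl⟩ := mem_zpowers_iff.mp hb1
      obtain ⟨j, rfl⟩ := mem_zpowers_iff.mp hb2
      exact (Commute.zpow_zpow (Commute.refl y) i j).eq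
  have hcardB : Nat.card ↥f.range = p ^ 2 := by
    rw [Nat.card_congr (MonoidHom.ofInjective hinj).symm.toEquiv, Nat.card_prod, Nat.card_zpowers,
      Nat.card_zpowers, hz, hy, pow_two]
  have hAcomm : IsMulCommutative ↥(zpowers x) := inferInstance
  have hcardA : Nat.card ↥(zpowers x) = p ^ 2 := by rw [Nat.card_zpowers, hx]
  obtain ⟨g, hg⟩ := hB f.range (zpowers x) hBcomm hAcomm (hcardB.trans hcardA.symm)
  have hxmem : x ∈ f.range.map (MulAut.conj g).toMonoidHom := by
    rw [← hg]; exact mem_zpowers x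
  obtain ⟨_, ⟨⟨a, b⟩, rfl⟩, hgb⟩ := hxmem
  have hxp : x ^ p = 1 := by
    rw [← hgb, ← map_pow, hf, (hcomm a b).mul_pow, hpow_z, hpow_y, one_mul, map_one]
  have h3 := orderOf_dvd_of_pow_eq_one hxp
  rw [hx] at h3
  have h4 := Nat.le_of_dvd hp.pos h3
  have h5 : p < p ^ 2 := by
    have := hp.two_le
    nlinarith
  omega

lemma key {G : Type*} [Group G] [Finite G]
    (hB : ∀ A B : Subgroup G, IsMulCommutative ↥A → IsMulCommutative ↥B → Nat.card ↥A = Nat.card ↥B →
      ∃ g : G, B = A.map (MulAut.conj g).toMonoidHom)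
    (p : ℕ) [Fact p.Prime] (P : Sylow p G) :
    UI p (P : Subgroup G) ∨ ∀ x ∈ (P : Subgroup G), x ^ p = 1 := by
  have hp : p.Prime := Fact.out
  by_contra hcon
  rw [not_or] at hcon
  obtain ⟨hUI, hexp⟩ := hcon
  simp only [UI] at hUI
  push Not at hUI hexp
  obtain ⟨g, h, hg, hh, hg1, hhg⟩ := hUI
  obtain ⟨x, hxP, hxp⟩ := hexp
  have hgG : (g : G) ^ p = 1 := by exact_mod_cast congrArg Subtype.val hg
  have hhG : (h : G) ^ p = 1 := by exact_mod_cast congrArg Subtype.val hh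
  have hg1G : (g : G) ≠ 1 := fun h0 => hg1 (Subtype.ext h0)
  have hgo : orderOf (g : G) = p := orderOf_eq_prime hgG hg1G
  have hhgG : (h : G) ∉ zpowers (g : G) := by
    intro hmem
    obtain ⟨i, hi⟩ := mem_zpowers_iff.mp hmem
    apply hhg
    rw [mem_zpowers_iff]
    exact ⟨i, Subtype.ext (by simpa using hi)⟩
  have hh1G : (h : G) ≠ 1 := by
    intro h0
    apply hhgG
    rw [h0]
    exact one_mem _
  have hho : orderOf (h : G) = p := orderOf_eq_prime hhG hh1G
  have hPne : (P : Subgroup G) ≠ ⊥ := by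
    intro hbot
    have : (g : G) ∈ (⊥ : Subgroup G) := hbot ▸ g.2
    exact hg1G (Subgroup.mem_bot.mp this)
  obtain ⟨z, hzP, hzo, hzc⟩ := exists_central_order_p (P : Subgroup G) P.isPGroup' hPne
  have hy : ∃ y ∈ (P : Subgroup G), orderOf y = p ∧ y ∉ zpowers z := by
    by_cases hhz : (h : G) ∈ zpowers z
    · refine ⟨g, g.2, hgo, ?_⟩
      intro hgz
      have h1 : zpowers (g : G) = zpowers z :=
        Subgroup.eq_of_le_of_card_ge (zpowers_le.mpr hgz)
          (by rw [Nat.card_zpowers, Nat.card_zpowers, hgo, hzo])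
      apply hhgG
      rw [h1]
      exact hhz
    · exact ⟨h, h.2, hho, hhz⟩
  obtain ⟨y, hyP, hyo, hyz⟩ := hy
  -- an element of order p^2
  obtain ⟨k, hk⟩ := P.isPGroup' ⟨x, hxP⟩
  have hk' : x ^ p ^ k = 1 := by
    have h0 := congrArg Subtype.val hk
    simpa using h0
  obtain ⟨j, hjk, hj⟩ := (Nat.dvd_prime_pow hp).mp (orderOf_dvd_of_pow_eq_one hk')
  have hj2 : 2 ≤ j := by
    by_contra hj2
    apply hxp
    have hj1 : j ≤ 1 := by omega
    have h1 : orderOf x ∣ p := by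
      rw [hj]
      exact (pow_dvd_pow p hj1).trans (by rw [pow_one])
    exact orderOf_dvd_iff_pow_eq_one.mp h1
  have hx' : orderOf (x ^ p ^ (j - 2)) = p ^ 2 := by
    rw [orderOf_pow_of_dvd (pow_ne_zero _ hp.ne_zero) (by rw [hj]; exact pow_dvd_pow p (by omega)), hj]
    rw [Nat.pow_div (by omega) hp.pos]
    congr 1
    omega
  exact noniso z y (x ^ p ^ (j - 2)) hzo hyo (hzc y hyP) hyz hx' hB


/-- Let G be a finite group in which any two abelian subgroups of the same order are conjugate. Then a Sylow 2-subgroup of G is cyclic, elementary abelian or generalized quaternion, and for an odd prime p a Sylow p-subgroup of G is cyclic or has exponent dividing p. -/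
theorem result {G : Type*} [Group G] [Finite G] (hB : ∀ A B : Subgroup G, IsMulCommutative ↥A → IsMulCommutative ↥B → Nat.card ↥A = Nat.card ↥B → ∃ g : G, B = A.map (MulAut.conj g).toMonoidHom) :
    (∀ P : Sylow 2 G, IsCyclic ↥(P : Subgroup G) ∨ Cfsg.IsElementaryAbelian 2 (P : Subgroup G) ∨ ∃ k : ℕ, Nonempty (↥(P : Subgroup G) ≃* QuaternionGroup (2 ^ k))) ∧
    ∀ (p : ℕ) [Fact p.Prime], p ≠ 2 → ∀ P : Sylow p G, IsCyclic ↥(P : Subgroup G) ∨ ∀ x ∈ (P : Subgroup G), x ^ p = 1 := by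
  refine ⟨?_, ?_⟩
  · intro P
    haveI : Fact (Nat.Prime 2) := ⟨Nat.prime_two⟩
    rcases key hB 2 P with hUI | hexp
    · rcases Cfsg.Agent.Lib.Helper54.Quaternion.isCyclic_or_quaternion P.isPGroup' hUI with h | ⟨n, hn⟩
      · exact Or.inl h
      · exact Or.inr (Or.inr ⟨n, hn⟩)
    · refine Or.inr (Or.inl ⟨⟨⟨?_⟩⟩, hexp⟩)
      rintro ⟨a, ha⟩ ⟨b, hb⟩
      apply Subtype.ext
      show a * b = b * a
      have h1 := hexp a ha
      have h2 := hexp b hb
      have h3 := hexp (a * b) (mul_mem ha hb)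
      have ha' : a⁻¹ = a := by rw [inv_eq_iff_mul_eq_one, ← pow_two, h1]
      have hb' : b⁻¹ = b := by rw [inv_eq_iff_mul_eq_one, ← pow_two, h2]
      have hab' : (a * b)⁻¹ = a * b := by rw [inv_eq_iff_mul_eq_one, ← pow_two, h3]
      rw [← hab', mul_inv_rev, ha', hb']
  · intro p _ hp2 P
    rcases key hB p P with hUI | hexp
    · rcases Cfsg.Agent.Lib.Helper54.Quaternion.isCyclic_or_quaternion_of_ui P.isPGroup' hUI with h | ⟨h, -⟩
      · exact Or.inl h
      · exact absurd h hp2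
    · exact Or.inr hexp

end Cfsg.Agent.S3908
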