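import Cfsg.Statements.S3909
import Mathlib

set_option autoImplicit false
open Cfsg

namespace Cfsg.Agent.S3909

/-- Let G be a finite group in which any two abelian subgroups of the same order are conjugate. Let M be a normal subgroup of G. If M contains an element of the same order as a ∈ G, then a ∈ M; and if M is elementary abelian of order p^t with p prime and t ≥ 2, then M is the unique Sylow p-subgroup of G. -/
theorem result {G : Type*} [Group G] [Finite G] (hB : ∀ A B : Subgroup G, IsMulCommutative ↥A → IsMulCommutative ↥B → Nat.card ↥A = Nat.card ↥B → ∃ g : G, B = A.map (MulAut.conj g).toMonoidHom) (M : Subgroup G) [M.Normal] :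
    (∀ a : G, (∃ m ∈ M, orderOf m = orderOf a) → a ∈ M) ∧
    ∀ (p t : ℕ) [Fact p.Prime], 2 ≤ t → Nat.card ↥M = p ^ t → Cfsg.IsElementaryAbelian p M → ∀ P : Sylow p G, (P : Subgroup G) = M := by
  have part1 : ∀ a : G, (∃ m ∈ M, orderOf m = orderOf a) → a ∈ M := by
    rintro a ⟨m, hm, hord⟩
    obtain ⟨g, hg⟩ := hB (Subgroup.zpowers m) (Subgroup.zpowers a) inferInstance inferInstance
      (by rw [Nat.card_zpowers, Nat.card_zpowers, hord])
    have ha : a ∈ (Subgroup.zpowers m).map (MulAut.conj g).toMonoidHom := by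
      rw [← hg]; exact Subgroup.mem_zpowers a
    obtain ⟨b, hb, rfl⟩ := ha
    have hbM : b ∈ M := (Subgroup.zpowers_le.mpr hm) hb
    simpa using ‹M.Normal›.conj_mem b hbM g
  refine ⟨part1, ?_⟩
  intro p t hp ht hcard hel P
  obtain ⟨hcomm, hexp⟩ := hel
  have hpp : p.Prime := hp.out
  -- no element of order p^2 in G
  have noP2 : ∀ y : G, orderOf y ≠ p ^ 2 := by
    intro y hy
    have hdvd : p ^ 2 ∣ Nat.card M := by
      rw [hcard]; exact pow_dvd_pow p ht
    obtain ⟨K, hK⟩ := Sylow.exists_subgroup_card_pow_prime p hdvd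
    have hKB : Nat.card (K.map M.subtype) = p ^ 2 := by
      rw [Subgroup.card_map_of_injective M.subtype_injective]; exact hK
    have hcommB : IsMulCommutative (K.map M.subtype) := by
      rw [isMulCommutative_iff]
      rintro ⟨a, ha⟩ ⟨b, hb⟩
      obtain ⟨a', -, rfl⟩ := ha
      obtain ⟨b', -, rfl⟩ := hb
      have := (isMulCommutative_iff.mp hcomm) a' b'
      apply Subtype.ext
      simpa using congrArg Subtype.val this
    obtain ⟨g, hg⟩ := hB (K.map M.subtype) (Subgroup.zpowers y) hcommB inferInstance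
      (by rw [Nat.card_zpowers, hKB, hy])
    have hy' : y ∈ (K.map M.subtype).map (MulAut.conj g).toMonoidHom := by
      rw [← hg]; exact Subgroup.mem_zpowers y
    obtain ⟨b, hb, rfl⟩ := hy'
    obtain ⟨b', -, rfl⟩ := hb
    have hb1 : (M.subtype b') ^ p = 1 := hexp _ b'.2
    have : ((MulAut.conj g).toMonoidHom (M.subtype b')) ^ p = 1 := by
      rw [← map_pow, hb1, map_one]
    have hdvd2 := orderOf_dvd_of_pow_eq_one this
    rw [hy] at hdvd2
    have : p ^ 2 ≤ p := Nat.le_of_dvd hpp.pos hdvd2
    have : p * p ≤ p * 1 := by simpa [sq] using this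
    have := Nat.le_of_mul_le_mul_left this hpp.pos
    exact absurd hpp.one_lt (not_lt.mpr this)
  -- M has an element of order p
  have hpM : p ∣ Nat.card M := by
    rw [hcard]; exact dvd_pow_self p (by omega)
  obtain ⟨m0, hm0⟩ := exists_prime_orderOf_dvd_card' (G := M) p hpM
  have hm0' : orderOf (m0 : G) = p := by rw [Subgroup.orderOf_coe]; exact hm0
  -- P ≤ M
  have hPM : (P : Subgroup G) ≤ M := by
    intro x hx
    obtain ⟨k, hk⟩ := (IsPGroup.iff_orderOf.mp P.isPGroup') ⟨x, hx⟩
    have hk' : orderOf x = p ^ k := by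
      have := Subgroup.orderOf_coe (⟨x, hx⟩ : (P : Subgroup G))
      rw [← hk, ← this]
    rcases Nat.lt_or_ge k 2 with hk2 | hk2
    · interval_cases k
      · have : x = 1 := by
          rw [← orderOf_eq_one_iff, hk', pow_zero]
        rw [this]; exact M.one_mem
      · exact part1 x ⟨m0, m0.2, by rw [hm0', hk', pow_one]⟩
    · exfalso
      apply noP2 (x ^ (p ^ (k - 2)))
      rw [orderOf_pow' x (pow_ne_zero _ hpp.ne_zero), hk',
        Nat.gcd_eq_right (pow_dvd_pow p (by omega))]
      rw [Nat.pow_div (by omega) hpp.pos]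
      congr 1; omega
  apply Subgroup.eq_of_le_of_card_ge hPM
  rw [hcard, Sylow.card_eq_multiplicity]
  apply Nat.pow_le_pow_right hpp.pos
  have hdvd : p ^ t ∣ Nat.card G := by
    rw [← hcard]; exact Subgroup.card_subgroup_dvd_card M
  exact (hpp.pow_dvd_iff_le_factorization Nat.card_pos.ne').mp hdvd

end Cfsg.Agent.S3909
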