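import Cfsg.Statements.S3910
import Cfsg.Agent.S3909
import Cfsg.Agent.Lib.Helper65.NilCoprime
import Mathlib

set_option autoImplicit false
open Cfsg

namespace Cfsg.Agent.S3910

/-- A finite nilpotent group in which any two abelian subgroups of the same order are conjugate is cyclic. -/
theorem result {G : Type*} [Group G] [Finite G] (hB : ∀ A B : Subgroup G, IsMulCommutative ↥A → IsMulCommutative ↥B → Nat.card ↥A = Nat.card ↥B → ∃ g : G, B = A.map (MulAut.conj g).toMonoidHom) (hnil : Group.IsNilpotent G) : IsCyclic G := by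
  obtain ⟨x, hx⟩ := Finite.exists_max (fun a : G => orderOf a)
  by_contra hcyc
  have hxtop : Subgroup.zpowers x ≠ ⊤ := by
    intro h
    exact hcyc (isCyclic_iff_exists_zpowers_eq_top.mpr ⟨x, h⟩)
  obtain ⟨M, hM, hxM⟩ := (eq_top_or_exists_le_coatom (Subgroup.zpowers x)).resolve_left hxtop
  have hMn : M.Normal :=
    Subgroup.NormalizerCondition.normal_of_coatom M Group.normalizerCondition_of_isNilpotent hM
  obtain ⟨y, hy⟩ : ∃ y : G, y ∉ M := by
    by_contra hcon
    push Not at hcon
    exact hM.1 (eq_top_iff.mpr (fun g _ => hcon g))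
  have hox : orderOf x ≠ 0 := (orderOf_pos x).ne'
  have hoy : orderOf y ≠ 0 := (orderOf_pos y).ne'
  have hnd : ¬ orderOf y ∣ orderOf x := by
    intro hd
    apply hy
    apply (Cfsg.Agent.S3909.result hB M).1 y
    refine ⟨x ^ (orderOf x / orderOf y), ?_, orderOf_pow_orderOf_div hox hd⟩
    exact M.pow_mem (hxM (Subgroup.mem_zpowers x)) _
  rw [← Nat.factorization_le_iff_dvd hoy hox, Finsupp.le_def] at hnd
  push Not at hnd
  obtain ⟨p, hp⟩ := hnd
  have hpp : p.Prime := by
    by_contra hnp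
    rw [Nat.factorization_eq_zero_of_not_prime _ hnp, Nat.factorization_eq_zero_of_not_prime _ hnp] at hp
    exact lt_irrefl _ hp
  set a := (orderOf x).factorization p with ha
  set b := (orderOf y).factorization p with hb
  have hyp : orderOf (y ^ (orderOf y / p ^ b)) = p ^ b :=
    orderOf_pow_orderOf_div hoy (Nat.ordProj_dvd _ p)
  have hxp : orderOf (x ^ (p ^ a)) = orderOf x / p ^ a :=
    orderOf_pow_of_dvd (pow_ne_zero _ hpp.ne_zero) (Nat.ordProj_dvd _ p)
  have hcop : (orderOf (x ^ (p ^ a))).Coprime (orderOf (y ^ (orderOf y / p ^ b))) := by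
    rw [hyp, hxp]
    exact Nat.Coprime.pow_right _ (Nat.coprime_ordCompl hpp hox).symm
  have hcomm := Cfsg.Agent.Lib.Helper65.NilCoprime.commute_of_coprime G (x ^ (p ^ a))
    (y ^ (orderOf y / p ^ b)) (isOfFinOrder_of_finite _) (isOfFinOrder_of_finite _) hcop
  have hord := Commute.orderOf_mul_eq_mul_orderOf_of_coprime (show Commute _ _ from hcomm) hcop
  have hle := hx (x ^ (p ^ a) * y ^ (orderOf y / p ^ b))
  rw [hord, hyp, hxp] at hle
  have h1 : orderOf x = orderOf x / p ^ a * p ^ a := (Nat.div_mul_cancel (Nat.ordProj_dvd _ p)).symm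
  have h2 : p ^ a < p ^ b := Nat.pow_lt_pow_right hpp.one_lt hp
  have h3 : 0 < orderOf x / p ^ a := Nat.div_pos (Nat.le_of_dvd (orderOf_pos x) (Nat.ordProj_dvd _ p)) (pow_pos hpp.pos _)
  have h4 : orderOf x / p ^ a * p ^ a < orderOf x / p ^ a * p ^ b := Nat.mul_lt_mul_of_pos_left h2 h3
  omega

end Cfsg.Agent.S3910
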