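import Cfsg.Statements.S3920
import Mathlib

set_option autoImplicit false
open Cfsg

namespace Cfsg.Agent.S3920

open DihedralGroup

theorem two_mul_eq_zero_iff (n : ℕ) [NeZero n] (x : ZMod n) : 2 * x = 0 ↔ n ∣ 2 * x.val := by
  rw [← ZMod.natCast_eq_zero_iff]
  push_cast
  rw [ZMod.natCast_zmod_val]

theorem key_odd (n : ℕ) [NeZero n] (hn : Odd n) (x : ZMod n) (hx : 2 * x = 0) : x = 0 := by
  rw [two_mul_eq_zero_iff] at hx
  have h1 : n ∣ x.val :=
    Nat.Coprime.dvd_of_dvd_mul_left (Nat.coprime_two_right.mpr hn) hx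
  have h2 : x.val < n := ZMod.val_lt x
  have h3 : x.val = 0 := Nat.eq_zero_of_dvd_of_lt h1 h2
  exact (ZMod.val_eq_zero x).mp h3

theorem key_pow (k : ℕ) (hk : 1 ≤ k) (j x : ZMod (2 ^ k)) (hj : j ≠ 0) (hx : 2 * x = 0) :
    ∃ t : ℕ, (t : ZMod (2 ^ k)) * j = x := by
  have : NeZero (2 ^ k) := ⟨by positivity⟩
  rw [two_mul_eq_zero_iff] at hx
  have hxlt : x.val < 2 ^ k := ZMod.val_lt x
  have hk2 : 2 ^ k = 2 * 2 ^ (k - 1) := by
    rw [← pow_succ']
    congr 1
    omega
  obtain ⟨c, hd⟩ := hx
  have hc : x.val = 2 ^ (k - 1) * c := by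
    have h1 : 2 * x.val = 2 * (2 ^ (k - 1) * c) := by
      rw [hd, hk2]
      ring
    omega
  have hpos : 0 < 2 ^ (k - 1) := by positivity
  have hc2 : c < 2 := by
    by_contra hcon
    have : 2 ^ (k - 1) * 2 ≤ 2 ^ (k - 1) * c := Nat.mul_le_mul_left _ (by omega)
    omega
  rcases Nat.lt_succ_iff.mp hc2 with hc1
  rcases Nat.eq_zero_or_pos c with h0 | h0
  · refine ⟨0, ?_⟩
    rw [h0, mul_zero] at hc
    rw [(ZMod.val_eq_zero x).mp hc]
    simp
  · have hc1' : c = 1 := by omega
    rw [hc1', mul_one] at hc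
    have hjv : j.val ≠ 0 := fun h => hj ((ZMod.val_eq_zero j).mp h)
    obtain ⟨e, u, hu, hju⟩ := Nat.exists_eq_two_pow_mul_odd hjv
    obtain ⟨w, hw⟩ := hu
    have hjlt : j.val < 2 ^ k := ZMod.val_lt j
    have he : e < k := by
      by_contra hcon
      have h1 : 2 ^ k ≤ 2 ^ e := Nat.pow_le_pow_right (by norm_num) (by omega)
      have h2 : 2 ^ e ≤ 2 ^ e * u := Nat.le_mul_of_pos_right _ (by omega)
      omega
    refine ⟨2 ^ (k - 1 - e), ?_⟩
    rw [← ZMod.natCast_zmod_val j, ← ZMod.natCast_zmod_val x, ← Nat.cast_mul,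
      ZMod.natCast_eq_natCast_iff', hc, hju, hw]
    have h3 : 2 ^ (k - 1 - e) * (2 ^ e * (2 * w + 1)) = 2 ^ (k - 1) + 2 ^ k * w := by
      have h4 : 2 ^ (k - 1 - e) * 2 ^ e = 2 ^ (k - 1) := by
        rw [← pow_add]
        congr 1
        omega
      calc 2 ^ (k - 1 - e) * (2 ^ e * (2 * w + 1))
          = (2 ^ (k - 1 - e) * 2 ^ e) * (2 * w + 1) := by ring
        _ = 2 ^ (k - 1) * (2 * w + 1) := by rw [h4]
        _ = 2 ^ (k - 1) + (2 * 2 ^ (k - 1)) * w := by ring
        _ = 2 ^ (k - 1) + 2 ^ k * w := by rw [← hk2]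
    rw [h3, Nat.add_mul_mod_self_left]

theorem key (n : ℕ) (hn : 3 ≤ n) (h : Odd n ∨ ∃ k : ℕ, n = 2 ^ k) (j x : ZMod n) (hj : j ≠ 0)
    (hx : 2 * x = 0) : ∃ t : ℕ, (t : ZMod n) * j = x := by
  rcases h with h | ⟨k, rfl⟩
  · have : NeZero n := ⟨by omega⟩
    exact ⟨0, by rw [key_odd n h x hx]; simp⟩
  · have hk : 1 ≤ k := by
      by_contra hcon
      have : k = 0 := by omega
      rw [this] at hn
      norm_num at hn
    exact key_pow k hk j x hj hx

/-- the subgroup of elements whose index is killed by a ring hom -/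
def ker {n : ℕ} {R : Type*} [Ring R] (φ : ZMod n →+* R) : Subgroup (DihedralGroup n) where
  carrier := {g | match g with
    | r i => φ i = 0
    | sr i => φ i = 0}
  mul_mem' := by
    rintro (a | a) (b | b) ha hb
    · show φ (a + b) = 0
      have ha' : φ a = 0 := ha
      have hb' : φ b = 0 := hb
      rw [map_add, ha', hb', add_zero]
    · show φ (b - a) = 0
      have ha' : φ a = 0 := ha
      have hb' : φ b = 0 := hb
      rw [map_sub, ha', hb', sub_zero]
    · show φ (a + b) = 0
      have ha' : φ a = 0 := ha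
      have hb' : φ b = 0 := hb
      rw [map_add, ha', hb', add_zero]
    · show φ (b - a) = 0
      have ha' : φ a = 0 := ha
      have hb' : φ b = 0 := hb
      rw [map_sub, ha', hb', sub_zero]
  one_mem' := by
    show φ 0 = 0
    exact map_zero φ
  inv_mem' := by
    rintro (a | a) ha
    · show φ (-a) = 0
      have ha' : φ a = 0 := ha
      rw [map_neg, ha', neg_zero]
    · exact ha

theorem r_mem_ker {n : ℕ} {R : Type*} [Ring R] (φ : ZMod n →+* R) (i : ZMod n) :
    r i ∈ ker φ ↔ φ i = 0 := Iff.rfl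

theorem sr_mem_ker {n : ℕ} {R : Type*} [Ring R] (φ : ZMod n →+* R) (i : ZMod n) :
    sr i ∈ ker φ ↔ φ i = 0 := Iff.rfl

/-- Say that a group has self-centralizing non-cyclic subgroups when every non-cyclic subgroup H satisfies C_G(H) ≤ H. For n ≥ 3, the dihedral group of order 2n has self-centralizing non-cyclic subgroups if and only if n is odd or a power of 2. -/
theorem result (n : ℕ) (hn : 3 ≤ n) : (∀ H : Subgroup (DihedralGroup n), ¬ IsCyclic ↥H → Subgroup.centralizer (H : Set (DihedralGroup n)) ≤ H) ↔ (Odd n ∨ ∃ k : ℕ, n = 2 ^ k) := by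
  have hn0 : NeZero n := ⟨by omega⟩
  constructor
  · intro h
    by_contra hcon
    push Not at hcon
    obtain ⟨hodd, hpow⟩ := hcon
    obtain ⟨a, m, hm, hnam⟩ := Nat.exists_eq_two_pow_mul_odd (show n ≠ 0 by omega)
    have ha : 1 ≤ a := by
      by_contra hcon
      have : a = 0 := by omega
      rw [this, pow_zero, one_mul] at hnam
      exact hodd (hnam ▸ hm)
    have hm3 : 3 ≤ m := by
      obtain ⟨w, hw⟩ := hm
      by_contra hcon
      have : m = 1 := by omega
      rw [this, mul_one] at hnam
      exact hpow a hnam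
    have hdvd : 2 ^ a ∣ n := ⟨m, hnam⟩
    let φ : ZMod n →+* ZMod (2 ^ a) := ZMod.castHom hdvd (ZMod (2 ^ a))
    have h2a : φ ((2 ^ a : ℕ) : ZMod n) = 0 := by
      rw [map_natCast]
      exact ZMod.natCast_self _
    -- the subgroup is not cyclic
    have hnc : ¬ IsCyclic (ker φ) := by
      intro hc
      have hcomm : IsMulCommutative (ker φ) := IsCyclic.isMulCommutative
      have h1 := mul_comm' (⟨sr 0, (sr_mem_ker φ 0).mpr (map_zero φ)⟩ : ker φ)
        ⟨r ((2 ^ a : ℕ) : ZMod n), (r_mem_ker φ _).mpr h2a⟩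
      have h2 := congrArg Subtype.val h1
      simp only [Subgroup.coe_mul, sr_mul_r, r_mul_sr, zero_add, zero_sub] at h2
      have h3 : ((2 ^ a : ℕ) : ZMod n) = -((2 ^ a : ℕ) : ZMod n) := by
        injection h2
      have h4 : ((2 ^ a + 2 ^ a : ℕ) : ZMod n) = 0 := by
        push_cast
        push_cast at h3
        linear_combination h3
      rw [ZMod.natCast_eq_zero_iff, hnam] at h4
      have h5 : m ∣ 2 := by
        have h6 : 2 ^ a * m ∣ 2 ^ a * 2 := by
          have : 2 ^ a + 2 ^ a = 2 ^ a * 2 := by ring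
          rwa [this] at h4
        exact Nat.dvd_of_mul_dvd_mul_left (by positivity) h6
      have := Nat.le_of_dvd (by norm_num) h5
      omega
    have hcen := h (ker φ) hnc
    -- the central rotation
    have hcmem : r (((n / 2 : ℕ) : ZMod n)) ∈ Subgroup.centralizer ((ker φ : Subgroup (DihedralGroup n)) : Set (DihedralGroup n)) := by
      have h2c : (2 : ZMod n) * ((n / 2 : ℕ) : ZMod n) = 0 := by
        have h1 : 2 * (n / 2) = n := by
          apply Nat.mul_div_cancel'
          rw [hnam]
          exact Dvd.dvd.mul_right (dvd_pow_self 2 (by omega)) m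
        have h2 : ((2 * (n / 2) : ℕ) : ZMod n) = 0 := by
          rw [h1]
          exact ZMod.natCast_self n
        push_cast at h2
        exact h2
      rw [Subgroup.mem_centralizer_iff]
      rintro (b | b) _
      · simp only [r_mul_r]
        rw [add_comm]
      · simp only [sr_mul_r, r_mul_sr]
        congr 1
        linear_combination h2c
    have h7 := hcen hcmem
    rw [r_mem_ker, map_natCast, ZMod.natCast_eq_zero_iff] at h7
    -- 2^a ∣ n / 2 is impossible
    have h8 : n / 2 = 2 ^ (a - 1) * m := by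
      have : 2 ^ a = 2 * 2 ^ (a - 1) := by
        rw [← pow_succ']
        congr 1
        omega
      rw [hnam, this, mul_assoc, Nat.mul_div_cancel_left _ (by norm_num)]
    rw [h8] at h7
    have h9 : 2 ^ a = 2 ^ (a - 1) * 2 := by
      rw [← pow_succ]
      congr 1
      omega
    rw [h9] at h7
    have h10 : 2 ∣ m := Nat.dvd_of_mul_dvd_mul_left (by positivity) h7
    obtain ⟨w, hw⟩ := hm
    omega
  · intro hcase H hH g hg
    rw [Subgroup.mem_centralizer_iff] at hg
    -- H contains a reflection
    have hrefl : ∃ i, sr i ∈ H := by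
      by_contra hcon
      push Not at hcon
      apply hH
      have hle : H ≤ Subgroup.zpowers (r 1 : DihedralGroup n) := by
        rintro (b | b) hb
        · rw [Subgroup.mem_zpowers_iff]
          refine ⟨(b.val : ℤ), ?_⟩
          rw [r_one_zpow]
          congr 1
          simp
        · exact absurd hb (hcon b)
      exact Subgroup.isCyclic_of_le hle
    obtain ⟨i, hi⟩ := hrefl
    -- H contains a nontrivial rotation
    have hrot : ∃ j, j ≠ 0 ∧ r j ∈ H := by
      by_contra hcon
      push Not at hcon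
      apply hH
      have hle : H ≤ Subgroup.zpowers (sr i : DihedralGroup n) := by
        rintro (b | b) hb
        · have hb0 : b = 0 := by
            by_contra hb0
            exact hcon b hb0 hb
          rw [hb0]
          exact Subgroup.one_mem _
        · have h1 : sr i * sr b ∈ H := H.mul_mem hi hb
          rw [sr_mul_sr] at h1
          have hb0 : b - i = 0 := by
            by_contra hb0
            exact hcon _ hb0 h1
          rw [sub_eq_zero.mp hb0]
          exact Subgroup.mem_zpowers _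
      exact Subgroup.isCyclic_of_le hle
    obtain ⟨j, hj0, hj⟩ := hrot
    have hpowmem : ∀ x : ZMod n, 2 * x = 0 → r x ∈ H := by
      intro x hx
      obtain ⟨t, ht⟩ := key n hn hcase j x hj0 hx
      have h1 : (r j) ^ t ∈ H := H.pow_mem hj t
      rw [r_pow, mul_comm, ht] at h1
      exact h1
    rcases g with a | a
    · apply hpowmem
      have h1 := hg (sr i) hi
      simp only [sr_mul_r, r_mul_sr] at h1
      have h2 : i + a = i - a := by injection h1
      linear_combination h2
    · have h1 := hg (sr i) hi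
      simp only [sr_mul_sr] at h1
      have h2 : a - i = i - a := by injection h1
      have h3 : r (a - i) ∈ H := hpowmem _ (by linear_combination h2)
      have h4 : sr i * r (a - i) ∈ H := H.mul_mem hi h3
      rw [sr_mul_r] at h4
      have h5 : i + (a - i) = a := by ring
      rwa [h5] at h4

end Cfsg.Agent.S3920
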