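import Mathlib
import Cfsg.Statements.S3927
import Cfsg.Agent.Lib.Helper24.GenZipper

set_option autoImplicit false

open Cfsg

namespace Cfsg.Agent.S3927

open Subgroup
open scoped Pointwise
open Cfsg.Agent.Lib.Helper24 Cfsg.Agent.Lib.Helper62

universe u

variable {G : Type u} [Group G]

/-- the commutator map `c ↦ c * (α c)⁻¹` -/
abbrev F (α : MulAut G) : G → G := fun c => c * (α c)⁻¹

theorem F_comm (α β : MulAut G) (h : Commute β α) (k : ℕ) (c : G) :
    β ((F α)^[k] c) = (F α)^[k] (β c) := by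
  have hs : Function.Semiconj β (F α) (F α) := by
    intro x
    show β (x * (α x)⁻¹) = β x * (α (β x))⁻¹
    have e : β (α x) = α (β x) := by
      have h1 := congrArg (fun f : MulAut G => f x) h.eq
      simpa using h1
    rw [map_mul, map_inv, e]
  exact (hs.iterate_right k) c

theorem commute_of_mem {α β : MulAut G} (hβ : β ∈ zpowers α) : Commute β α := by
  obtain ⟨i, rfl⟩ := Subgroup.mem_zpowers_iff.mp hβ
  exact (Commute.refl α).zpow_left i

theorem closure_inv {α : MulAut G} {S : Set G} (hS : ∀ β ∈ zpowers α, ∀ s ∈ S, β s ∈ S) :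
    ∀ β ∈ zpowers α, ∀ x ∈ closure S, β x ∈ closure S := by
  intro β hβ x hx
  have hle : closure S ≤ (closure S).comap β.toMonoidHom := by
    rw [Subgroup.closure_le]
    intro s hs
    exact Subgroup.subset_closure (hS β hβ s hs)
  exact hle hx

/-- the semidirect product of `G` with the cyclic group generated by `α` -/
abbrev Gam (α : MulAut G) : Type u := G ⋊[(zpowers α).subtype] (zpowers α)

instance instFiniteGam [Finite G] (α : MulAut G) : Finite (Gam α) :=
  Finite.of_equiv _ SemidirectProduct.equivProd.symm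

/-- the element of `Gam α` inducing `α` -/
def elt (α : MulAut G) : Gam α := SemidirectProduct.inr ⟨α, mem_zpowers α⟩

theorem inr_mem (α : MulAut G) (b : zpowers α) :
    (SemidirectProduct.inr b : Gam α) ∈ zpowers (elt α) := by
  obtain ⟨i, hi⟩ := Subgroup.mem_zpowers_iff.mp b.2
  have e : b = (⟨α, mem_zpowers α⟩ : zpowers α) ^ i :=
    Subtype.ext (by rw [Subgroup.coe_zpow]; exact hi.symm)
  rw [e, map_zpow]
  exact Subgroup.zpow_mem_zpowers _ i

theorem conj_inl (α : MulAut G) (b : zpowers α) (g : G) :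
    (SemidirectProduct.inr b : Gam α) * SemidirectProduct.inl g * (SemidirectProduct.inr b)⁻¹
      = SemidirectProduct.inl ((b : MulAut G) g) := by
  rw [← map_inv]
  exact (SemidirectProduct.inl_aut (φ := (zpowers α).subtype) b g).symm

theorem inl_F (α : MulAut G) (g : G) :
    (SemidirectProduct.inl (F α g) : Gam α)
      = SemidirectProduct.inl g * elt α * (SemidirectProduct.inl g)⁻¹ * (elt α)⁻¹ := by
  have h : elt α * SemidirectProduct.inl g * (elt α)⁻¹ = SemidirectProduct.inl (α g) :=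
    conj_inl α ⟨α, mem_zpowers α⟩ g
  show SemidirectProduct.inl (g * (α g)⁻¹) = _
  rw [map_mul, map_inv, ← h]
  group

theorem conj_elt (α : MulAut G) (x : Gam α) :
    x * elt α * x⁻¹ = SemidirectProduct.inl (F α x.left) * elt α := by
  have hx := SemidirectProduct.inl_left_mul_inr_right x
  have hcomm : (SemidirectProduct.inr x.right : Gam α) * elt α
      = elt α * SemidirectProduct.inr x.right := by
    unfold elt
    rw [← map_mul, ← map_mul]
    congr 1
    exact Subtype.ext (commute_of_mem x.right.2).eq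
  rw [inl_F, inv_mul_cancel_right]
  calc x * elt α * x⁻¹
      = (SemidirectProduct.inl x.left * SemidirectProduct.inr x.right) * elt α *
          (SemidirectProduct.inl x.left * SemidirectProduct.inr x.right)⁻¹ := by rw [hx]
    _ = SemidirectProduct.inl x.left * (SemidirectProduct.inr x.right * elt α) *
          (SemidirectProduct.inr x.right)⁻¹ * (SemidirectProduct.inl x.left)⁻¹ := by group
    _ = SemidirectProduct.inl x.left * (elt α * SemidirectProduct.inr x.right) *
          (SemidirectProduct.inr x.right)⁻¹ * (SemidirectProduct.inl x.left)⁻¹ := by rw [hcomm]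
    _ = SemidirectProduct.inl x.left * elt α * (SemidirectProduct.inl x.left)⁻¹ := by group

/-- the subgroup of `Gam α` of elements whose `G`-component lies in an invariant subgroup -/
def leftSub (α : MulAut G) (D : Subgroup G) (hD : ∀ β ∈ zpowers α, ∀ x ∈ D, β x ∈ D) :
    Subgroup (Gam α) where
  carrier := {γ | γ.left ∈ D}
  mul_mem' := by
    intro x y hx hy
    show (x * y).left ∈ D
    rw [SemidirectProduct.mul_left]
    exact D.mul_mem hx (hD _ x.right.2 _ hy)
  one_mem' := by
    show (1 : Gam α).left ∈ D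
    rw [SemidirectProduct.one_left]; exact D.one_mem
  inv_mem' := by
    intro x hx
    show (x⁻¹).left ∈ D
    rw [SemidirectProduct.inv_left]
    exact hD _ (x.right⁻¹).2 _ (D.inv_mem hx)

theorem inl_left_mem (α : MulAut G) (X : Subgroup (Gam α)) (hAX : zpowers (elt α) ≤ X)
    {γ : Gam α} (hγ : γ ∈ X) : (SemidirectProduct.inl γ.left : Gam α) ∈ X := by
  have h2 : (SemidirectProduct.inl γ.left : Gam α) = γ * (SemidirectProduct.inr γ.right)⁻¹ := by
    rw [eq_mul_inv_iff_mul_eq]; exact SemidirectProduct.inl_left_mul_inr_right _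
  rw [h2]
  exact X.mul_mem hγ (X.inv_mem (hAX (inr_mem α _)))

theorem elt_mem_leftSub (α : MulAut G) (D : Subgroup G)
    (hD : ∀ β ∈ zpowers α, ∀ x ∈ D, β x ∈ D) : elt α ∈ leftSub α D hD := by
  show (elt α).left ∈ D
  unfold elt; rw [SemidirectProduct.left_inr]; exact Subgroup.one_mem _

theorem top_of_le (α : MulAut G) (M : Subgroup (Gam α)) (hA : zpowers (elt α) ≤ M)
    (hG : ∀ g : G, (SemidirectProduct.inl g : Gam α) ∈ M) : M = ⊤ := by
  rw [eq_top_iff]
  intro γ _
  rw [← SemidirectProduct.inl_left_mul_inr_right γ]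
  exact M.mul_mem (hG _) (hA (inr_mem α _))

theorem nc_top (α : MulAut G) (hG : closure (Set.range (F α)) = ⊤) :
    normalClosure ((zpowers (elt α) : Subgroup (Gam α)) : Set (Gam α)) = ⊤ := by
  apply top_of_le α _ Subgroup.le_normalClosure
  intro g
  have hle : closure (Set.range (F α)) ≤
      (normalClosure ((zpowers (elt α) : Subgroup (Gam α)) : Set (Gam α))).comap
        SemidirectProduct.inl := by
    rw [Subgroup.closure_le]
    rintro _ ⟨c, rfl⟩
    show SemidirectProduct.inl (F α c) ∈ normalClosure _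
    rw [inl_F]
    have ha : elt α ∈ normalClosure ((zpowers (elt α) : Subgroup (Gam α)) : Set (Gam α)) :=
      Subgroup.le_normalClosure (mem_zpowers _)
    exact Subgroup.mul_mem _ (Subgroup.normalClosure_normal.conj_mem _ ha _)
      (Subgroup.inv_mem _ ha)
  rw [hG] at hle
  exact hle (Subgroup.mem_top g)

theorem step_mem (α : MulAut G) (M : Subgroup (Gam α)) (hM : IsCoatom M)
    (hnc : normalClosure ((zpowers (elt α) : Subgroup (Gam α)) : Set (Gam α)) = ⊤)
    (hAM : zpowers (elt α) ≤ M)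
    (huniq : ∀ K : Subgroup (Gam α), IsCoatom K → zpowers (elt α) ≤ K → K = M)
    (g : G) (h : (SemidirectProduct.inl (F α g) : Gam α) ∈ M) :
    (SemidirectProduct.inl g : Gam α) ∈ M := by
  have h1 : SemidirectProduct.inl g * elt α * (SemidirectProduct.inl g)⁻¹ ∈ M := by
    have h2 := M.mul_mem h (hAM (mem_zpowers (elt α)))
    rw [inl_F, inv_mul_cancel_right] at h2
    exact h2
  have h3 : zpowers (elt α) ≤ MulAut.conj (SemidirectProduct.inl g : Gam α)⁻¹ • M := by
    rw [Subgroup.zpowers_le]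
    have h4 := Subgroup.smul_mem_pointwise_smul _
      (MulAut.conj (SemidirectProduct.inl g : Gam α)⁻¹) M h1
    have e : MulAut.conj (SemidirectProduct.inl g : Gam α)⁻¹ •
        (SemidirectProduct.inl g * elt α * (SemidirectProduct.inl g)⁻¹) = elt α := by
      rw [MulAut.smul_def, MulAut.conj_apply]; group
    rwa [e] at h4
  have h5 := huniq _ (GenZipper.isCoatom_smul _ hM) h3
  have h6 := GenZipper.mem_of_smul_eq hnc hM hAM h5
  exact (Subgroup.inv_mem_iff M).mp h6

theorem iter_mem (α : MulAut G) (M : Subgroup (Gam α)) (hM : IsCoatom M)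
    (hnc : normalClosure ((zpowers (elt α) : Subgroup (Gam α)) : Set (Gam α)) = ⊤)
    (hAM : zpowers (elt α) ≤ M)
    (huniq : ∀ K : Subgroup (Gam α), IsCoatom K → zpowers (elt α) ≤ K → K = M) (j : ℕ) :
    ∀ g : G, (SemidirectProduct.inl ((F α)^[j] g) : Gam α) ∈ M →
      (SemidirectProduct.inl g : Gam α) ∈ M := by
  induction j with
  | zero => intro g h; exact h
  | succ j ih =>
    intro g h
    rw [Function.iterate_succ_apply] at h
    exact step_mem α M hM hnc hAM huniq g (ih _ h)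

theorem family_le (α : MulAut G) (k : ℕ)
    (IH : ∀ (G₁ : Subgroup G), G₁ ≠ ⊤ → ∀ (α₁ : MulAut G₁),
      closure (Set.range (F α₁)) = ⊤ → closure (Set.range ((F α₁)^[k])) = ⊤)
    (X : Subgroup (Gam α)) (hAX : zpowers (elt α) ≤ X) (hX : X ≠ ⊤)
    (hp : normalClosure (((zpowers (elt α)).subgroupOf X : Subgroup ↥X) : Set ↥X) = ⊤)
    (g : G) (hg : (SemidirectProduct.inl g : Gam α) ∈ X) :
    g ∈ closure (Set.range ((F α)^[k])) := by
  obtain ⟨G₁, hG₁⟩ : ∃ G₁ : Subgroup G,
      G₁ = X.comap (SemidirectProduct.inl : G →* Gam α) := ⟨_, rfl⟩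
  have hmem : ∀ c : G, c ∈ G₁ ↔ (SemidirectProduct.inl c : Gam α) ∈ X := by
    intro c; rw [hG₁]; exact Subgroup.mem_comap
  have hG₁inv : ∀ β ∈ zpowers α, ∀ c ∈ G₁, β c ∈ G₁ := by
    intro β hβ c hc
    rw [hmem] at hc ⊢
    have h1 := conj_inl α ⟨β, hβ⟩ c
    rw [← h1]
    have hb : (SemidirectProduct.inr ⟨β, hβ⟩ : Gam α) ∈ X := hAX (inr_mem α _)
    exact X.mul_mem (X.mul_mem hb hc) (X.inv_mem hb)
  have hG₁top : G₁ ≠ ⊤ := by
    intro e
    apply hX
    apply top_of_le α X hAX
    intro c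
    rw [← hmem, e]; exact Subgroup.mem_top c
  have hDinv : ∀ β ∈ zpowers α, ∀ x ∈ closure (F α '' (G₁ : Set G)),
      β x ∈ closure (F α '' (G₁ : Set G)) := by
    apply closure_inv
    rintro β hβ _ ⟨c, hc, rfl⟩
    exact ⟨β c, hG₁inv β hβ c hc, (F_comm α β (commute_of_mem hβ) 1 c).symm⟩
  have hXW : X ≤ leftSub α (closure (F α '' (G₁ : Set G))) hDinv := by
    have h1 : normalClosure (((zpowers (elt α)).subgroupOf X : Subgroup ↥X) : Set ↥X) ≤
        (leftSub α (closure (F α '' (G₁ : Set G))) hDinv).subgroupOf X := by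
      unfold normalClosure
      rw [Subgroup.closure_le]
      intro w hw
      obtain ⟨y, hy, hyw⟩ := Group.mem_conjugatesOfSet_iff.mp hw
      obtain ⟨c, hc⟩ := isConj_iff.mp hyw
      rw [SetLike.mem_coe, Subgroup.mem_subgroupOf, ← hc]
      rw [Subgroup.coe_mul, Subgroup.coe_mul, Subgroup.coe_inv]
      have hyA : (y : Gam α) ∈ zpowers (elt α) := Subgroup.mem_subgroupOf.mp hy
      obtain ⟨i, hi⟩ := Subgroup.mem_zpowers_iff.mp hyA
      rw [← hi, ← conj_zpow]
      apply Subgroup.zpow_mem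
      rw [conj_elt]
      apply Subgroup.mul_mem _ _ (elt_mem_leftSub α _ hDinv)
      show (SemidirectProduct.inl (F α (c : Gam α).left) : Gam α).left ∈
        closure (F α '' (G₁ : Set G))
      rw [SemidirectProduct.left_inl]
      apply Subgroup.subset_closure
      refine ⟨_, ?_, rfl⟩
      rw [SetLike.mem_coe, hmem]
      exact inl_left_mem α X hAX c.2
    rw [hp] at h1
    intro γ hγ
    exact Subgroup.mem_subgroupOf.mp (h1 (Subgroup.mem_top (⟨γ, hγ⟩ : ↥X)))
  have hG₁D : G₁ ≤ closure (F α '' (G₁ : Set G)) := by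
    intro c hc
    exact hXW ((hmem c).mp hc)
  have hmap : G₁.map (α : G →* G) = G₁ := by
    apply le_antisymm
    · rintro _ ⟨c, hc, rfl⟩
      exact hG₁inv α (mem_zpowers α) c hc
    · intro c hc
      refine ⟨α⁻¹ c, hG₁inv α⁻¹ (Subgroup.inv_mem _ (mem_zpowers α)) c hc, ?_⟩
      show α (α⁻¹ c) = c
      simp
  obtain ⟨α₁, hα₁⟩ : ∃ α₁ : MulAut G₁, ∀ x : G₁, ((α₁ x : G₁) : G) = α (x : G) :=
    ⟨(α.subgroupMap G₁).trans (MulEquiv.subgroupCongr hmap), fun x => rfl⟩
  have hF₁ : ∀ x : G₁, ((F α₁ x : G₁) : G) = F α (x : G) := by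
    intro x
    show ((x * (α₁ x)⁻¹ : G₁) : G) = (x : G) * (α (x : G))⁻¹
    rw [Subgroup.coe_mul, Subgroup.coe_inv, hα₁]
  have hF₁k : ∀ (j : ℕ) (x : G₁), (((F α₁)^[j] x : G₁) : G) = (F α)^[j] (x : G) := by
    intro j
    induction j with
    | zero => intro x; rfl
    | succ j ih =>
      intro x
      rw [Function.iterate_succ_apply, Function.iterate_succ_apply, ih, hF₁]
  have h1 : closure (Set.range (F α₁)) = ⊤ := by
    rw [eq_top_iff]
    intro x _
    have h2 : closure (F α '' (G₁ : Set G)) ≤ (closure (Set.range (F α₁))).map G₁.subtype := by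
      rw [Subgroup.closure_le]
      rintro _ ⟨c, hc, rfl⟩
      exact ⟨F α₁ ⟨c, hc⟩, Subgroup.subset_closure ⟨_, rfl⟩, hF₁ ⟨c, hc⟩⟩
    obtain ⟨z, hz, hzx⟩ := h2 (hG₁D x.2)
    have h5 : z = x := Subtype.ext hzx
    exact h5 ▸ hz
  have h3 := IH G₁ hG₁top α₁ h1
  have h4 : closure (Set.range ((F α₁)^[k])) ≤
      (closure (Set.range ((F α)^[k]))).comap G₁.subtype := by
    rw [Subgroup.closure_le]
    rintro _ ⟨x, rfl⟩
    show (((F α₁)^[k] x : G₁) : G) ∈ closure (Set.range ((F α)^[k]))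
    rw [hF₁k]
    exact Subgroup.subset_closure ⟨_, rfl⟩
  rw [h3] at h4
  exact h4 (Subgroup.mem_top (⟨g, (hmem g).mpr hg⟩ : G₁))

theorem step [Finite G] (α : MulAut G) (k : ℕ)
    (IH : ∀ (G₁ : Subgroup G), G₁ ≠ ⊤ → ∀ (α₁ : MulAut G₁),
      closure (Set.range (F α₁)) = ⊤ → closure (Set.range ((F α₁)^[k])) = ⊤)
    (hG : closure (Set.range (F α)) = ⊤) : closure (Set.range ((F α)^[k])) = ⊤ := by
  by_contra hH
  have hHinv : ∀ β ∈ zpowers α, ∀ x ∈ closure (Set.range ((F α)^[k])),
      β x ∈ closure (Set.range ((F α)^[k])) := by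
    apply closure_inv
    rintro β hβ _ ⟨c, rfl⟩
    exact ⟨β c, (F_comm α β (commute_of_mem hβ) k c).symm⟩
  have hnc := nc_top α hG
  have hK₀ : leftSub α _ hHinv ≠ ⊤ := by
    intro e
    apply hH
    rw [eq_top_iff]
    intro g _
    have h1 : (SemidirectProduct.inl g : Gam α) ∈ leftSub α _ hHinv := by
      rw [e]; exact Subgroup.mem_top _
    exact h1
  have hAK₀ : zpowers (elt α) ≤ leftSub α _ hHinv := by
    rw [Subgroup.zpowers_le]
    exact elt_mem_leftSub α _ hHinv
  have hAtop : zpowers (elt α) ≠ ⊤ := fun e => hK₀ (top_le_iff.mp (e ▸ hAK₀))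
  have hY : sSup {X : Subgroup (Gam α) | zpowers (elt α) ≤ X ∧ X ≠ ⊤ ∧
      normalClosure (((zpowers (elt α)).subgroupOf X : Subgroup ↥X) : Set ↥X) = ⊤} ≠ ⊤ := by
    intro e
    apply hK₀
    have hle : sSup {X : Subgroup (Gam α) | zpowers (elt α) ≤ X ∧ X ≠ ⊤ ∧
        normalClosure (((zpowers (elt α)).subgroupOf X : Subgroup ↥X) : Set ↥X) = ⊤} ≤
        leftSub α _ hHinv := by
      apply sSup_le
      rintro X ⟨hAX, hX, hp⟩ γ hγ
      show γ.left ∈ closure (Set.range ((F α)^[k]))
      exact family_le α k IH X hAX hX hp _ (inl_left_mem α X hAX hγ)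
    rw [e] at hle
    exact top_le_iff.mp hle
  obtain ⟨M, hM, hAM, huniq⟩ := GenZipper.gen_zipper (zpowers (elt α)) hnc hAtop hY
  obtain ⟨K', hK', hK₀K'⟩ := (eq_top_or_exists_le_coatom _).resolve_left hK₀
  have hK₀M : leftSub α _ hHinv ≤ M := (huniq K' hK' (hAK₀.trans hK₀K')) ▸ hK₀K'
  apply hM.1
  apply top_of_le α M hAM
  intro g
  apply iter_mem α M hM hnc hAM huniq k g
  apply hK₀M
  show (SemidirectProduct.inl ((F α)^[k] g) : Gam α).left ∈ closure (Set.range ((F α)^[k]))
  exact Subgroup.subset_closure ⟨g, rfl⟩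

theorem main (n : ℕ) : ∀ (G : Type u) [Group G] [Finite G], Nat.card G = n →
    ∀ (α : MulAut G) (k : ℕ),
    closure (Set.range (F α)) = ⊤ → closure (Set.range ((F α)^[k])) = ⊤ := by
  induction n using Nat.strong_induction_on with
  | _ n ih =>
    intro G _ _ hn α k hG
    apply step α k _ hG
    intro G₁ hG₁ α₁ h1
    exact ih (Nat.card G₁) (by rw [← hn]; exact Wielandt.card_lt_of_ne_top hG₁) G₁ rfl α₁ k h1

/-- Let G be a finite group and α an automorphism of G with [G, α] = G, that is, the elements g·α(g)⁻¹ generate G. Then for every k ≥ 1 the iterated commutators [g, α, …, α] with k entries α — the values of the k-th iterate of the map c ↦ c·α(c)⁻¹ — also generate G. -/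
theorem result {G : Type*} [Group G] [Finite G] (α : MulAut G) (hG : Subgroup.closure (Set.range (fun c : G => c * (α c)⁻¹)) = ⊤) (k : ℕ) (hk : 1 ≤ k) :
    Subgroup.closure (Set.range ((fun c : G => c * (α c)⁻¹)^[k])) = ⊤ := by
  exact main (Nat.card G) G rfl α k hG

end Cfsg.Agent.S3927
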