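import Cfsg.Statements.S3937
import Cfsg.Agent.S0067
import Cfsg.Agent.S0540
import Cfsg.Agent.Lib.Helper62.Wielandt
import Cfsg.Agent.Lib.Helper78.Fitting
-- import your own Cfsg.Agent.* helpers here

set_option autoImplicit false
open Cfsg

namespace Cfsg.Agent.S3937

universe u

open scoped Pointwise

/-- the iterated commutator `[x, g, …, g]` with `n` entries `g` -/
def eng {G : Type*} [Group G] (g : G) (n : ℕ) (x : G) : G :=
  (List.replicate n g).foldl (fun a b => a * b * a⁻¹ * b⁻¹) x

theorem eng_zero {G : Type*} [Group G] (g x : G) : eng g 0 x = x := rfl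

theorem eng_succ {G : Type*} [Group G] (g : G) (n : ℕ) (x : G) :
    eng g (n + 1) x = eng g n (x * g * x⁻¹ * g⁻¹) := by
  unfold eng
  rw [List.replicate_succ, List.foldl_cons]

theorem eng_succ' {G : Type*} [Group G] (g : G) (n : ℕ) (x : G) :
    eng g (n + 1) x = eng g n x * g * (eng g n x)⁻¹ * g⁻¹ := by
  induction n generalizing x with
  | zero => rw [eng_succ, eng_zero, eng_zero]
  | succ n ih => rw [eng_succ, ih, eng_succ]

theorem eng_coe {G : Type*} [Group G] (H : Subgroup G) (g : H) (n : ℕ) (x : H) :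
    ((eng g n x : H) : G) = eng (g : G) n (x : G) := by
  induction n generalizing x with
  | zero => rfl
  | succ n ih =>
    rw [eng_succ, eng_succ, ih]
    simp

theorem eng_conj {G : Type*} [Group G] (h g : G) (n : ℕ) (x : G) :
    eng (h * g * h⁻¹) n (h * x * h⁻¹) = h * eng g n x * h⁻¹ := by
  induction n generalizing x with
  | zero => rfl
  | succ n ih =>
    rw [eng_succ, eng_succ, ← ih]
    congr 1
    group

/-- Elements of the Fitting subgroup are left Engel elements. -/
theorem fitting_engel {G : Type*} [Group G] [Finite G] (g : G)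
    (hg : g ∈ Cfsg.fittingSubgroup G) (x : G) : ∃ n : ℕ, eng g n x = 1 := by
  obtain ⟨F, hF⟩ : ∃ F : Subgroup G, F = Cfsg.fittingSubgroup G := ⟨_, rfl⟩
  have hFn : F.Normal := by
    rw [hF]
    exact Cfsg.Agent.Lib.Helper78.Fitting.fitting_normal
  have hFnil : Group.IsNilpotent F := by
    rw [hF]
    exact Cfsg.Agent.Lib.Helper78.Fitting.fitting_isNilpotent
  obtain ⟨c, hc⟩ := (Subgroup.isNilpotent_iff_lowerCentralSeries F).1 hFnil
  rw [← hF] at hg
  have key : ∀ n k : ℕ, ∀ y : G, y ∈ F.lowerCentralSeries k →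
      eng g n y ∈ F.lowerCentralSeries (k + n) := by
    intro n
    induction n with
    | zero => intro k y hy; exact hy
    | succ n ih =>
      intro k y hy
      rw [eng_succ]
      have h1 : y * g * y⁻¹ * g⁻¹ ∈ F.lowerCentralSeries (k + 1) := by
        rw [Subgroup.lowerCentralSeries_succ]
        exact Subgroup.commutator_mem_commutator hy hg
      have := ih (k + 1) _ h1
      rwa [show k + 1 + n = k + (n + 1) by ring] at this
  refine ⟨c + 1, ?_⟩
  rw [eng_succ]
  have h0 : x * g * x⁻¹ * g⁻¹ ∈ F.lowerCentralSeries 0 := by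
    rw [Subgroup.lowerCentralSeries_zero]
    exact F.mul_mem (hFn.conj_mem g hg x) (F.inv_mem hg)
  have := key c 0 _ h0
  rw [zero_add, hc] at this
  exact (Subgroup.mem_bot).1 this

/-- Left Engel elements lie in the Fitting subgroup (induction on the group order). -/
theorem engel_mem_fitting : ∀ (n : ℕ) (G : Type u) [Group G] [Finite G], Nat.card G = n →
    ∀ g : G, (∀ x : G, ∃ k : ℕ, eng g k x = 1) → g ∈ Cfsg.fittingSubgroup G := by
  intro n
  induction n using Nat.strong_induction_on with
  | _ n ih =>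
  intro G _ _ hn g hg
  have hsub : ∀ (V : Subgroup G), V ≠ ⊤ → ∀ y : G, ∀ hy : y ∈ V,
      (∀ x : G, ∃ k, eng y k x = 1) → (⟨y, hy⟩ : ↥V) ∈ Cfsg.fittingSubgroup ↥V := by
    intro V hV y hy hyE
    have hlt : Nat.card ↥V < n := by
      rw [← hn]
      exact lt_of_le_of_ne (Subgroup.card_le_card_group V)
        (fun h => hV (Subgroup.eq_top_of_card_eq V h))
    apply ih _ hlt ↥V rfl
    intro x
    obtain ⟨k, hk⟩ := hyE (x : G)
    refine ⟨k, ?_⟩
    apply Subtype.ext
    rw [eng_coe]
    exact hk
  have hconjE : ∀ h : G, ∀ x : G, ∃ k, eng (h * g * h⁻¹) k x = 1 := by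
    intro h x
    obtain ⟨k, hk⟩ := hg (h⁻¹ * x * h)
    refine ⟨k, ?_⟩
    have := eng_conj h g k (h⁻¹ * x * h)
    rw [hk] at this
    have e : h * (h⁻¹ * x * h) * h⁻¹ = x := by group
    rw [e] at this
    rw [this]
    group
  have hsn : ∀ (V : Subgroup G), V ≠ ⊤ → ∀ h : G, Subgroup.zpowers (h * g * h⁻¹) ≤ V →
      ((Subgroup.zpowers (h * g * h⁻¹)).subgroupOf V).IsSubnormal := by
    intro V hV h hle
    have hy : h * g * h⁻¹ ∈ V := hle (Subgroup.mem_zpowers _)
    have hF := hsub V hV _ hy (hconjE h)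
    have hle2 : (Subgroup.zpowers (h * g * h⁻¹)).subgroupOf V ≤ Cfsg.fittingSubgroup ↥V := by
      intro b hb
      rw [Subgroup.mem_subgroupOf] at hb
      obtain ⟨k, hk⟩ := Subgroup.mem_zpowers_iff.1 hb
      have hbk : b = (⟨h * g * h⁻¹, hy⟩ : ↥V) ^ k := by
        apply Subtype.ext
        rw [Subgroup.coe_zpow]
        exact hk.symm
      rw [hbk]
      exact zpow_mem hF k
    have hnil : Group.IsNilpotent (Cfsg.fittingSubgroup ↥V) :=
      Cfsg.Agent.Lib.Helper78.Fitting.fitting_isNilpotent
    have h1 : (((Subgroup.zpowers (h * g * h⁻¹)).subgroupOf V).subgroupOf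
        (Cfsg.fittingSubgroup ↥V)).IsSubnormal :=
      Cfsg.Agent.Lib.Helper62.Wielandt.isSubnormal_of_isNilpotent _
    exact Subgroup.IsSubnormal.trans hle2 h1
      (Cfsg.Agent.Lib.Helper78.Fitting.fitting_normal).isSubnormal
  obtain ⟨A, hA⟩ : ∃ A : Subgroup G, A = Subgroup.zpowers g := ⟨_, rfl⟩
  have hgA : g ∈ A := by rw [hA]; exact Subgroup.mem_zpowers g
  have hconjA : ∀ h : G, MulAut.conj h • A = Subgroup.zpowers (h * g * h⁻¹) := by
    intro h
    rw [hA, Subgroup.pointwise_smul_def]
    exact MonoidHom.map_zpowers (MulDistribMulAction.toMonoidEnd (MulAut G) G (MulAut.conj h)) g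
  suffices hnil : ∀ h : G, Group.IsNilpotent (A ⊔ MulAut.conj h • A : Subgroup G) by
    exact (Cfsg.Agent.S0067.result A hnil).2 hgA
  intro h
  by_cases hH : A ⊔ MulAut.conj h • A = ⊤
  · by_cases hAtop : A = ⊤
    · have e : A ⊔ MulAut.conj h • A = Subgroup.zpowers g := by
        rw [← hA, hAtop]
        exact top_sup_eq _
      rw [e]
      exact Subgroup.nilpotent_iff_lowerCentralSeries.2
        ⟨1, Subgroup.lowerCentralSeries_one_eq_bot_iff.2 inferInstance⟩
    · exfalso
      obtain ⟨U, hU⟩ : ∃ U : Set (Subgroup G), U = {V : Subgroup G | A ≤ V ∧ V ≠ ⊤} :=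
        ⟨_, rfl⟩
      obtain ⟨S, hSdef⟩ : ∃ S : Subgroup G → Set (Subgroup G), S = fun V =>
          {B : Subgroup G | (∃ x : G, B = MulAut.conj x • A) ∧ B ≤ V ∧
            (B.subgroupOf V).IsSubnormal} := ⟨_, rfl⟩
      have hS : ∀ V B : Subgroup G, B ∈ S V ↔ (∃ x : G, B = MulAut.conj x • A) ∧ B ≤ V ∧
          (B.subgroupOf V).IsSubnormal := by
        intro V B
        rw [hSdef]
        rfl
      have hmemS : ∀ V : Subgroup G, V ≠ ⊤ → ∀ B : Subgroup G,
          (∃ x : G, B = MulAut.conj x • A) → B ≤ V → B ∈ S V := by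
        intro V hV B hB hBV
        rw [hS]
        refine ⟨hB, hBV, ?_⟩
        obtain ⟨x, rfl⟩ := hB
        rw [hconjA x] at hBV ⊢
        exact hsn V hV x hBV
      have hAself : ∃ x : G, A = MulAut.conj x • A := ⟨1, by simp⟩
      have h1 : ∀ V ∈ U, A ∈ S V := by
        intro V hV
        rw [hU] at hV
        exact hmemS V hV.2 A hAself hV.1
      have h2 : ∀ V ∈ U, ∀ W ∈ U, ∀ B ∈ S W, B ≤ V → B ∈ S V := by
        intro V hV W _ B hB hBV
        rw [hU] at hV
        exact hmemS V hV.2 B ((hS W B).1 hB).1 hBV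
      have h3 : ∀ V ∈ U, ∀ W ∈ U, ∃ X ∈ U,
          Subgroup.normalizer ((sSup (S V ∩ S W) : Subgroup G) : Set G) ≤ X := by
        intro V hV W hW
        refine ⟨Subgroup.normalizer ((sSup (S V ∩ S W) : Subgroup G) : Set G), ?_, le_refl _⟩
        have hAJ : A ≤ sSup (S V ∩ S W) := le_sSup ⟨h1 V hV, h1 W hW⟩
        have hJV : sSup (S V ∩ S W) ≤ V := sSup_le (fun B hB => ((hS V B).1 hB.1).2.1)
        rw [hU]
        refine ⟨hAJ.trans Subgroup.le_normalizer, ?_⟩
        intro htop
        have hJn : (sSup (S V ∩ S W) : Subgroup G).Normal :=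
          Subgroup.normalizer_eq_top_iff.1 htop
        have hcJ : MulAut.conj h • A ≤ sSup (S V ∩ S W) := by
          rw [hconjA h, Subgroup.zpowers_le]
          exact hJn.conj_mem g (hAJ hgA) h
        have hle : (⊤ : Subgroup G) ≤ V := by
          rw [← hH]
          exact (sup_le hAJ hcJ).trans hJV
        rw [hU] at hV
        exact hV.2 (top_le_iff.1 hle)
      have hUne : U.Nonempty := ⟨A, by rw [hU]; exact ⟨le_refl _, hAtop⟩⟩
      obtain ⟨M, hMU, hMmax⟩ := Cfsg.Agent.S0540.result A U hUne S hS h1 h2 h3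
      have hMU' := hMU
      rw [hU] at hMU'
      obtain ⟨hAM, hMtop⟩ := hMU'
      have hgM : g ∈ M := hAM hgA
      have hy0 : h * g * h⁻¹ ∉ M := by
        intro hy
        apply hMtop
        apply top_le_iff.1
        rw [← hH]
        refine sup_le hAM ?_
        rw [hconjA h, Subgroup.zpowers_le]
        exact hy
      obtain ⟨k, hk⟩ := hg (h * g * h⁻¹)
      have hstep : ∀ k : ℕ, eng g k (h * g * h⁻¹) ∈ M →
          ∃ i, eng g i (h * g * h⁻¹) ∉ M ∧ eng g (i + 1) (h * g * h⁻¹) ∈ M := by
        intro k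
        induction k with
        | zero => intro h0; exact absurd h0 hy0
        | succ k ihk =>
          intro hk1
          by_cases hkM : eng g k (h * g * h⁻¹) ∈ M
          · exact ihk hkM
          · exact ⟨k, hkM, hk1⟩
      obtain ⟨i, hi1, hi2⟩ := hstep k (by rw [hk]; exact one_mem M)
      obtain ⟨y, hy⟩ : ∃ y, y = eng g i (h * g * h⁻¹) := ⟨_, rfl⟩
      rw [eng_succ', ← hy] at hi2
      rw [← hy] at hi1
      have hygy : y * g * y⁻¹ ∈ M := by
        have := mul_mem hi2 hgM
        simpa using this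
      have hMcomap : ∀ z : G, y * z * y⁻¹ ∈ M → z ∈ M := by
        intro z hz
        have hM' : M.comap (MulAut.conj y).toMonoidHom ∈ U := by
          rw [hU]
          refine ⟨?_, ?_⟩
          · rw [hA, Subgroup.zpowers_le]
            exact hygy
          · intro htop
            apply hMtop
            apply top_le_iff.1
            intro w _
            have h4 : y⁻¹ * w * y ∈ M.comap (MulAut.conj y).toMonoidHom := by
              rw [htop]
              trivial
            have h5 : y * (y⁻¹ * w * y) * y⁻¹ ∈ M := h4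
            have e : y * (y⁻¹ * w * y) * y⁻¹ = w := by group
            rwa [e] at h5
        exact hMmax _ hM' hz
      have hpow : ∀ j : ℕ, ∀ z : G, y ^ j * z * (y ^ j)⁻¹ ∈ M → z ∈ M := by
        intro j
        induction j with
        | zero => intro z hz; simpa using hz
        | succ j ihj =>
          intro z hz
          apply hMcomap
          apply ihj
          have e : y ^ j * (y * z * y⁻¹) * (y ^ j)⁻¹ = y ^ (j + 1) * z * (y ^ (j + 1))⁻¹ := by
            rw [pow_succ]
            group
          rw [e]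
          exact hz
      have hynorm : ∀ w : G, w ∈ M → y * w * y⁻¹ ∈ M := by
        intro w hw
        have hpos : 0 < orderOf y := orderOf_pos y
        apply hpow (orderOf y - 1)
        have e : y ^ (orderOf y - 1) * (y * w * y⁻¹) * (y ^ (orderOf y - 1))⁻¹ = w := by
          have h1 : y ^ (orderOf y - 1) * y = 1 := by
            rw [← pow_succ, Nat.sub_add_cancel hpos, pow_orderOf_eq_one]
          have h2 : y⁻¹ * (y ^ (orderOf y - 1))⁻¹ = 1 := by
            rw [← mul_inv_rev, h1, inv_one]
          calc y ^ (orderOf y - 1) * (y * w * y⁻¹) * (y ^ (orderOf y - 1))⁻¹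
              = (y ^ (orderOf y - 1) * y) * w * (y⁻¹ * (y ^ (orderOf y - 1))⁻¹) := by group
            _ = w := by rw [h1, h2]; group
        rw [e]
        exact hw
      have hyN : y ∈ Subgroup.normalizer (M : Set G) := by
        rw [Subgroup.mem_normalizer_iff]
        intro w
        exact ⟨hynorm w, hMcomap w⟩
      by_cases hN : Subgroup.normalizer (M : Set G) = ⊤
      · have hMn : M.Normal := Subgroup.normalizer_eq_top_iff.1 hN
        exact hy0 (hMn.conj_mem g hgM h)
      · have hNU : Subgroup.normalizer (M : Set G) ∈ U := by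
          rw [hU]
          exact ⟨hAM.trans Subgroup.le_normalizer, hN⟩
        exact hi1 (hMmax _ hNU hyN)
  · obtain ⟨H, hHdef⟩ : ∃ H : Subgroup G, H = A ⊔ MulAut.conj h • A := ⟨_, rfl⟩
    rw [← hHdef] at hH ⊢
    have hgH : g ∈ H := by
      rw [hHdef]
      exact (le_sup_left : A ≤ _) hgA
    have hcH : h * g * h⁻¹ ∈ H := by
      rw [hHdef]
      apply (le_sup_right : MulAut.conj h • A ≤ _)
      rw [hconjA]
      exact Subgroup.mem_zpowers _
    have hF1 := hsub H hH g hgH hg
    have hF2 := hsub H hH _ hcH (hconjE h)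
    have hle : A ⊔ MulAut.conj h • A ≤ (Cfsg.fittingSubgroup ↥H).map H.subtype := by
      refine sup_le ?_ ?_
      · rw [hA, Subgroup.zpowers_le]
        exact ⟨⟨g, hgH⟩, hF1, rfl⟩
      · rw [hconjA h, Subgroup.zpowers_le]
        exact ⟨⟨_, hcH⟩, hF2, rfl⟩
    have hFtop : Cfsg.fittingSubgroup ↥H = ⊤ := by
      apply top_le_iff.1
      intro y _
      have hy : (y : G) ∈ A ⊔ MulAut.conj h • A := by
        rw [← hHdef]
        exact y.2
      obtain ⟨y', hy', hyy'⟩ := hle hy
      have : y' = y := Subtype.ext hyy'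
      rw [← this]
      exact hy'
    have hnilF : Group.IsNilpotent (Cfsg.fittingSubgroup ↥H) :=
      Cfsg.Agent.Lib.Helper78.Fitting.fitting_isNilpotent
    rw [hFtop] at hnilF
    exact Group.isNilpotent_top.1 hnilF

/-- Baer's characterization of the Fitting subgroup: in a finite group G, an element g lies in the Fitting subgroup if and only if g is a left Engel element, that is, for every x there is n with [x, g, g, …, g] = 1 (n entries g, [a, b] = aba⁻¹b⁻¹). -/
theorem result {G : Type*} [Group G] [Finite G] (g : G) :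
    g ∈ Cfsg.fittingSubgroup G ↔ ∀ x : G, ∃ n : ℕ, (List.replicate n g).foldl (fun a b => a * b * a⁻¹ * b⁻¹) x = 1 := by
  constructor
  · intro hg x
    exact fitting_engel g hg x
  · intro h
    exact engel_mem_fitting _ G rfl g h

end Cfsg.Agent.S3937
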