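import Cfsg.Statements.S3939
import Cfsg.Agent.Lib.Helper65.NilCoprime
import Mathlib

set_option autoImplicit false
open Cfsg

namespace Cfsg.Agent.S3939

universe u

open scoped commutatorElement

/-- an element of a term of the upper central series generates a nilpotent subgroup with any
other element -/
theorem nil_of_mem_ucs (n : ℕ) : ∀ {G : Type u} [Group G] (g x : G),
    g ∈ Subgroup.upperCentralSeries G n →
    Group.IsNilpotent ↥(Subgroup.closure ({x, g} : Set G)) := by
  induction n with
  | zero =>
    intro G _ g x hg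
    rw [Subgroup.upperCentralSeries_zero, Subgroup.mem_bot] at hg
    subst hg
    have hcomm : ∀ a ∈ ({x, 1} : Set G), ∀ b ∈ ({x, 1} : Set G), a * b = b * a := by
      intro a ha b hb
      rcases ha with rfl | rfl <;> rcases hb with rfl | rfl <;> simp
    exact ⟨1, Subgroup.upperCentralSeries_one_eq_top_iff.mpr (Subgroup.isMulCommutative_closure hcomm)⟩
  | succ n ih =>
    intro G _ g x hg
    rw [← Subgroup.comap_upperCentralSeries_quotient_center, Subgroup.mem_comap] at hg
    have hnil := ih (QuotientGroup.mk' (Subgroup.center G) g) (QuotientGroup.mk' (Subgroup.center G) x) hg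
    have e : Subgroup.closure ({QuotientGroup.mk' (Subgroup.center G) x,
        QuotientGroup.mk' (Subgroup.center G) g} : Set (G ⧸ Subgroup.center G)) =
        (Subgroup.closure {x, g}).map (QuotientGroup.mk' (Subgroup.center G)) := by
      rw [MonoidHom.map_closure, Set.image_pair]
    rw [e] at hnil
    refine Subgroup.isNilpotent_of_ker_le_center
      ((QuotientGroup.mk' (Subgroup.center G)).subgroupMap (Subgroup.closure {x, g})) ?_
    intro h hh
    rw [MonoidHom.mem_ker] at hh
    have h1 : QuotientGroup.mk' (Subgroup.center G) (h : G) = 1 := by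
      have := congrArg Subtype.val hh
      simpa using this
    have h2 : (h : G) ∈ Subgroup.center G := by
      rwa [QuotientGroup.mk'_apply, QuotientGroup.eq_one_iff] at h1
    rw [Subgroup.mem_center_iff]
    intro k
    apply Subtype.ext
    simpa using Subgroup.mem_center_iff.mp h2 (k : G)

/-- a nontrivial intersection of a normal subgroup with a nilpotent subgroup contains a
nontrivial element central in the nilpotent subgroup -/
theorem exists_central_in_normal {G : Type*} [Group G] (N Q : Subgroup G) [hN : N.Normal]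
    (hQ : Group.IsNilpotent Q) (y : G) (hyN : y ∈ N) (hyQ : y ∈ Q) (hy1 : y ≠ 1) :
    ∃ z ∈ N, z ∈ Q ∧ z ≠ 1 ∧ ∀ q ∈ Q, q * z = z * q := by
  classical
  obtain ⟨c, hc⟩ := hQ.nilpotent
  have hP : ∃ i, ∃ z : Q, z ∈ Subgroup.upperCentralSeries Q i ∧ (z : G) ∈ N ∧ z ≠ 1 :=
    ⟨c, ⟨y, hyQ⟩, by rw [hc]; trivial, hyN, fun h => hy1 (by simpa using congrArg Subtype.val h)⟩
  obtain ⟨z, hzi, hzN, hz1⟩ := Nat.find_spec hP
  rcases hi : Nat.find hP with _ | j
  · rw [hi, Subgroup.upperCentralSeries_zero, Subgroup.mem_bot] at hzi
    exact absurd hzi hz1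
  · rw [hi] at hzi
    refine ⟨z, hzN, z.2, fun h => hz1 (Subtype.ext h), ?_⟩
    intro q hq
    have h1 := Subgroup.mem_upperCentralSeries_succ_iff.mp hzi ⟨q, hq⟩
    have h2 : ((⁅z, ⟨q, hq⟩⁆ : Q) : G) ∈ N := by
      have h3 : ((⁅z, ⟨q, hq⟩⁆ : Q) : G) = (z : G) * (q * (z : G)⁻¹ * q⁻¹) := by
        rw [commutatorElement_def]
        simp [mul_assoc]
      rw [h3]
      exact N.mul_mem hzN (hN.conj_mem _ (N.inv_mem hzN) q)
    have h4 : ⁅z, (⟨q, hq⟩ : Q)⁆ = 1 := by
      by_contra h5
      exact Nat.find_min hP (by rw [hi]; exact Nat.lt_succ_self j) ⟨_, h1, h2, h5⟩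
    have h6 := congrArg Subtype.val h4
    rw [commutatorElement_def] at h6
    simp only [Subgroup.coe_mul, Subgroup.coe_inv, Subgroup.coe_one] at h6
    rw [mul_inv_eq_one, mul_inv_eq_iff_eq_mul] at h6
    exact h6.symm


/-- with trivial center, an element generating a nilpotent subgroup with every element is 1 -/
theorem eq_one_of_center_bot {G : Type*} [Group G] [Finite G] (hZ : Subgroup.center G = ⊥) (g : G)
    (h : ∀ x : G, Group.IsNilpotent ↥(Subgroup.closure ({x, g} : Set G))) : g = 1 := by
  by_contra hg
  have ho : orderOf g ≠ 1 := by rwa [Ne, orderOf_eq_one_iff]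
  obtain ⟨p, hp, hpd⟩ := Nat.exists_prime_and_dvd ho
  have : Fact p.Prime := ⟨hp⟩
  set y := g ^ (orderOf g / p) with hy
  have hyo : orderOf y = p := orderOf_pow_orderOf_div (orderOf_pos g).ne' hpd
  have hy1 : y ≠ 1 := by
    intro h1
    rw [h1, orderOf_one] at hyo
    exact hp.ne_one hyo.symm
  have hcomm : ∀ x : G, (orderOf x).Coprime p → x * y = y * x := by
    intro x hx
    have hA := h x
    have hxA : x ∈ Subgroup.closure ({x, g} : Set G) := Subgroup.subset_closure (by simp)
    have hgA : g ∈ Subgroup.closure ({x, g} : Set G) := Subgroup.subset_closure (by simp)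
    have hyA : y ∈ Subgroup.closure ({x, g} : Set G) := Subgroup.pow_mem _ hgA _
    have h3 := Cfsg.Agent.Lib.Helper65.NilCoprime.commute_of_coprime
      (Subgroup.closure ({x, g} : Set G)) ⟨x, hxA⟩ ⟨y, hyA⟩ (isOfFinOrder_of_finite _)
      (isOfFinOrder_of_finite _) (by rw [Subgroup.orderOf_mk, Subgroup.orderOf_mk, hyo]; exact hx)
    exact congrArg Subtype.val h3
  let S : Set G := {x | (orderOf x).Coprime p}
  have hSconj : ∀ a x : G, x ∈ S → a * x * a⁻¹ ∈ S := by
    intro a x hx
    show (orderOf (a * x * a⁻¹)).Coprime p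
    have h1 : orderOf (a * x * a⁻¹) = orderOf x := by
      have := orderOf_injective (MulAut.conj a).toMonoidHom (MulAut.conj a).injective x
      simpa using this
    rw [h1]
    exact hx
  have hNn : (Subgroup.centralizer S).Normal := by
    constructor
    intro d hd a
    rw [Subgroup.mem_centralizer_iff] at hd ⊢
    intro x hx
    have h1 := hd (a⁻¹ * x * a) (by simpa using hSconj a⁻¹ x hx)
    calc x * (a * d * a⁻¹) = a * ((a⁻¹ * x * a) * d) * a⁻¹ := by group
      _ = a * (d * (a⁻¹ * x * a)) * a⁻¹ := by rw [h1]
      _ = a * d * a⁻¹ * x := by group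
  obtain ⟨Q, hQ⟩ := (IsPGroup.of_card (n := 1) (by rw [Nat.card_zpowers, hyo, pow_one]) :
    IsPGroup p (Subgroup.zpowers y)).exists_le_sylow
  have hyQ : y ∈ (Q : Subgroup G) := hQ (Subgroup.mem_zpowers y)
  have hQnil : Group.IsNilpotent (Q : Subgroup G) := Q.2.isNilpotent
  have hyN : y ∈ Subgroup.centralizer S := by
    rw [Subgroup.mem_centralizer_iff]
    intro x hx
    exact hcomm x hx
  obtain ⟨z, hzN, hzQ, hz1, hzc⟩ :=
    exists_central_in_normal (Subgroup.centralizer S) Q hQnil y hyN hyQ hy1
  have hC : Subgroup.centralizer ({z} : Set G) = ⊤ := by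
    rw [← Subgroup.index_eq_one]
    by_contra hne
    obtain ⟨r, hr, hrd⟩ := Nat.exists_prime_and_dvd hne
    have : Fact r.Prime := ⟨hr⟩
    by_cases hrp : r = p
    · subst hrp
      have hle : (Q : Subgroup G) ≤ Subgroup.centralizer ({z} : Set G) := by
        intro q hq
        rw [Subgroup.mem_centralizer_iff]
        intro w hw
        rw [Set.mem_singleton_iff] at hw
        subst hw
        exact (hzc q hq).symm
      exact Q.not_dvd_index (dvd_trans hrd (Subgroup.index_dvd_of_le hle))
    · obtain ⟨R⟩ : Nonempty (Sylow r G) := inferInstance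
      have hle : (R : Subgroup G) ≤ Subgroup.centralizer ({z} : Set G) := by
        intro q hq
        have hqS : q ∈ S := by
          obtain ⟨k, hk⟩ := R.2 ⟨q, hq⟩
          have h1 : orderOf q ∣ r ^ k :=
            orderOf_dvd_of_pow_eq_one (by simpa using congrArg Subtype.val hk)
          exact Nat.Coprime.coprime_dvd_left h1
            (Nat.Coprime.pow_left k ((Nat.coprime_primes hr hp).mpr hrp))
        rw [Subgroup.mem_centralizer_iff]
        intro w hw
        rw [Set.mem_singleton_iff] at hw
        subst hw
        exact ((Subgroup.mem_centralizer_iff.mp hzN) q hqS).symm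
      exact R.not_dvd_index (dvd_trans hrd (Subgroup.index_dvd_of_le hle))
  have hzZ : z ∈ Subgroup.center G := by
    rw [Subgroup.mem_center_iff]
    intro w
    have h1 : w ∈ Subgroup.centralizer ({z} : Set G) := hC ▸ Subgroup.mem_top w
    exact (Subgroup.mem_centralizer_iff.mp h1 z rfl).symm
  rw [hZ] at hzZ
  exact hz1 (Subgroup.mem_bot.mp hzZ)

theorem mem_hypercenter (n : ℕ) : ∀ {G : Type u} [Group G] [Finite G], Nat.card G = n →
    ∀ g : G, (∀ x : G, Group.IsNilpotent ↥(Subgroup.closure ({x, g} : Set G))) →
    g ∈ ⨆ n : ℕ, Subgroup.upperCentralSeries G n := by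
  induction n using Nat.strong_induction_on with
  | _ n ih =>
    intro G _ _ hn g h
    by_cases hZ : Subgroup.center G = ⊥
    · rw [eq_one_of_center_bot hZ g h]
      exact one_mem _
    · have hlt : Nat.card (G ⧸ Subgroup.center G) < n := by
        have h1 := Subgroup.card_eq_card_quotient_mul_card_subgroup (Subgroup.center G)
        have h2 : 1 < Nat.card (Subgroup.center G) := (Subgroup.center G).one_lt_card_iff_ne_bot.mpr hZ
        have h3 : 0 < Nat.card (G ⧸ Subgroup.center G) := Nat.card_pos
        rw [hn] at h1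
        nlinarith
      have h1 := ih _ hlt rfl (QuotientGroup.mk' (Subgroup.center G) g) (by
        intro x'
        obtain ⟨x, rfl⟩ := QuotientGroup.mk'_surjective (Subgroup.center G) x'
        have e : Subgroup.closure ({QuotientGroup.mk' (Subgroup.center G) x,
            QuotientGroup.mk' (Subgroup.center G) g} : Set (G ⧸ Subgroup.center G)) =
            (Subgroup.closure {x, g}).map (QuotientGroup.mk' (Subgroup.center G)) := by
          rw [MonoidHom.map_closure, Set.image_pair]
        rw [e]
        have := h x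
        exact Group.nilpotent_of_surjective
          ((QuotientGroup.mk' (Subgroup.center G)).subgroupMap _)
          (MonoidHom.subgroupMap_surjective _ _))
      obtain ⟨k, hk⟩ := (Subgroup.mem_iSup_of_directed
        (Monotone.directed_le (Subgroup.upperCentralSeries_mono _))).mp h1
      have h2 : g ∈ Subgroup.upperCentralSeries G (k + 1) := by
        rw [← Subgroup.comap_upperCentralSeries_quotient_center]
        exact hk
      exact Subgroup.mem_iSup_of_mem (k + 1) h2

/-- In a finite group G the set of elements g such that the subgroup generated by g and x is nilpotent for every x ∈ G is exactly the hypercenter of G (the last term of the upper central series). -/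
theorem result {G : Type*} [Group G] [Finite G] (g : G) :
    (∀ x : G, Group.IsNilpotent ↥(Subgroup.closure ({x, g} : Set G))) ↔ g ∈ ⨆ n : ℕ, Subgroup.upperCentralSeries G n := by
  constructor
  · intro h
    exact mem_hypercenter _ rfl g h
  · intro h x
    obtain ⟨k, hk⟩ := (Subgroup.mem_iSup_of_directed
      (Monotone.directed_le (Subgroup.upperCentralSeries_mono _))).mp h
    exact nil_of_mem_ucs k g x hk

end Cfsg.Agent.S3939
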