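import Cfsg.Statements.S3949
import Mathlib

set_option autoImplicit false
open Cfsg

namespace Cfsg.Agent.S3949

theorem result {G : Type*} [Group G] [Finite G] (α : MulAut G) (hα : orderOf α = 2) (hG : Subgroup.closure (Set.range (fun c : G => c * (α c)⁻¹)) = ⊤)
    (j : ℕ) (hj : ∀ g : G, α g = g⁻¹ → ¬ 2 ^ j ∣ orderOf g) :
    Set.range ((fun c : G => c * (α c)⁻¹)^[j]) = {g : G | Odd (orderOf g) ∧ α g = g⁻¹} := by
  have hj0 : j ≠ 0 := by
    rintro rfl
    exact hj 1 (by simp) (by simp)
  have hαα : ∀ c : G, α (α c) = c := by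
    intro c
    have h2 : α ^ 2 = 1 := by rw [← hα]; exact pow_orderOf_eq_one α
    have : (α ^ 2) c = c := by rw [h2]; rfl
    simpa [pow_two] using this
  set f : G → G := fun c : G => c * (α c)⁻¹ with hf
  have hA : ∀ c : G, α (f c) = (f c)⁻¹ := by
    intro c
    simp only [hf, map_mul, map_inv, hαα, mul_inv_rev, inv_inv]
  have hB : ∀ g : G, α g = g⁻¹ → f g = g ^ 2 := by
    intro g hg
    simp only [hf, hg, inv_inv, pow_two]
  have hC : ∀ (g : G) (k : ℕ), α g = g⁻¹ → α (g ^ k) = (g ^ k)⁻¹ := by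
    intro g k hg
    rw [map_pow, hg, inv_pow]
  have hiter : ∀ (k : ℕ) (c : G), f^[k+1] c = (f c) ^ (2 ^ k) := by
    intro k
    induction k with
    | zero => intro c; simp
    | succ k ih =>
      intro c
      rw [Function.iterate_succ_apply', ih, hB _ (hC _ _ (hA c)), ← pow_mul, pow_succ]
  ext x
  simp only [Set.mem_range, Set.mem_setOf_eq]
  constructor
  · rintro ⟨c, rfl⟩
    obtain ⟨k, rfl⟩ := Nat.exists_eq_succ_of_ne_zero hj0
    rw [hiter]
    refine ⟨?_, hC _ _ (hA c)⟩
    have hnd := hj (f c) (hA c)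
    have hpos : 0 < orderOf (f c) := orderOf_pos (f c)
    obtain ⟨i, m, hm, hn⟩ := Nat.exists_eq_two_pow_mul_odd (n := orderOf (f c)) hpos.ne'
    have hi : i ≤ k := by
      by_contra hlt
      have hlt := not_le.mp hlt
      apply hnd
      rw [hn]
      exact Dvd.dvd.mul_right (pow_dvd_pow 2 hlt) m
    rw [orderOf_pow, hn]
    have hgcd : Nat.gcd (2 ^ i * m) (2 ^ k) = 2 ^ i := by
      obtain ⟨d, rfl⟩ := Nat.exists_eq_add_of_le hi
      rw [pow_add, Nat.gcd_mul_left]
      have : Nat.gcd m (2 ^ d) = 1 := by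
        exact Nat.Coprime.pow_right d hm.coprime_two_right
      rw [this, mul_one]
    rw [hgcd, Nat.mul_div_cancel_left _ (by positivity)]
    exact hm
  · rintro ⟨hodd, hinv⟩
    have key : ∀ (k : ℕ) (g : G), Odd (orderOf g) → α g = g⁻¹ → ∃ c, f^[k] c = g := by
      intro k
      induction k with
      | zero => intro g _ _; exact ⟨g, rfl⟩
      | succ k ih =>
        intro g hgo hgi
        obtain ⟨t, ht⟩ := hgo
        -- h = g ^ (t+1), h^2 = g
        have hh2 : (g ^ (t + 1)) ^ 2 = g := by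
          rw [← pow_mul]
          have : (t + 1) * 2 = orderOf g + 1 := by rw [ht]; ring
          rw [this, pow_succ, pow_orderOf_eq_one, one_mul]
        have hho : Odd (orderOf (g ^ (t + 1))) := by
          have hdvd : orderOf (g ^ (t + 1)) ∣ orderOf g := orderOf_pow_dvd (t + 1)
          have : Odd (orderOf g) := ⟨t, ht⟩
          exact Odd.of_dvd_nat this hdvd
        obtain ⟨c, hc⟩ := ih (g ^ (t + 1)) hho (hC g (t + 1) hgi)
        refine ⟨c, ?_⟩
        rw [Function.iterate_succ_apply', hc, hB _ (hC g (t + 1) hgi), hh2]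
    exact key j x hodd hinv

end Cfsg.Agent.S3949
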