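import Cfsg.Statements.S3977
import Cfsg.Agent.S0016

set_option autoImplicit false
open Cfsg

namespace Cfsg.Agent.S3977

open Cfsg.Agent.Lib.Helper54.UniqueSubgroup (UI)

/-- In a finite cyclic group, any two elements killed by `p` lie in a common subgroup of order `p`. -/
theorem ui_of_isCyclic {p : ℕ} [hp : Fact p.Prime] {H : Type*} [Group H] [Finite H] [IsCyclic H] :
    UI p H := by
  classical
  intro g h hg hh hg1
  haveI := Fintype.ofFinite H
  have hle := IsCyclic.card_pow_eq_one_le (α := H) (n := p) hp.out.pos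
  have hord : orderOf g = p := orderOf_eq_prime hg hg1
  let T : Finset H := Finset.univ.filter (fun a => a ^ p = 1)
  let U : Finset H := (Finset.range p).image (fun k => g ^ k)
  have hUT : U ⊆ T := by
    intro x hx
    obtain ⟨k, -, rfl⟩ := Finset.mem_image.1 hx
    simp only [T, Finset.mem_filter, Finset.mem_univ, true_and]
    rw [← pow_mul, mul_comm, pow_mul, hg, one_pow]
  have hUcard : U.card = p := by
    rw [Finset.card_image_of_injOn, Finset.card_range]
    intro a ha b hb hab
    have ha' : a ∈ Set.Iio (orderOf g) := by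
      rw [hord]; simpa using ha
    have hb' : b ∈ Set.Iio (orderOf g) := by
      rw [hord]; simpa using hb
    exact pow_injOn_Iio_orderOf ha' hb' hab
  have hEq : U = T := Finset.eq_of_subset_of_card_le hUT (by rw [hUcard]; exact hle)
  have hhT : h ∈ T := by simp [T, hh]
  rw [← hEq] at hhT
  obtain ⟨k, -, rfl⟩ := Finset.mem_image.1 hhT
  exact Subgroup.pow_mem _ (Subgroup.mem_zpowers g) k

/-- Let `p` be a prime and `G` a group of order `p ^ m` which has exactly one subgroup of order `p ^ s`, where `1 ≤ s < m`, and where `s ≥ 2` if `p = 2`. Then `G` is cyclic. (For `p = 2` and `s = 1` the generalized quaternion groups also occur; that case is the classical criterion for a unique involution.) -/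
theorem result {G : Type*} [Group G] [Finite G] (p m s : ℕ) (hp : p.Prime) (hG : Nat.card G = p ^ m) (hs : 1 ≤ s) (hsm : s < m) (h2 : p ≠ 2 ∨ 2 ≤ s) (huniq : ∀ H K : Subgroup G, Nat.card H = p ^ s → Nat.card K = p ^ s → H = K) : IsCyclic G := by
  haveI : Fact p.Prime := ⟨hp⟩
  have hPG : IsPGroup p G := IsPGroup.of_card hG
  obtain ⟨H, hH⟩ := Sylow.exists_subgroup_card_pow_prime p (n := s)
    (by rw [hG]; exact pow_dvd_pow p hsm.le)
  have hB : ∀ L : Subgroup G, ∀ j, j ≤ s → Nat.card L = p ^ j → L ≤ H := by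
    intro L j hj hL
    obtain ⟨K, hK, hLK⟩ := Sylow.exists_subgroup_card_pow_prime_le p
      (by rw [hG]; exact pow_dvd_pow p hsm.le) L hL hj
    rw [huniq H K hH hK]
    exact hLK
  have hB' : ∀ g : G, orderOf g ∣ p ^ s → g ∈ H := by
    intro g hg
    obtain ⟨j, hj, hj'⟩ := (Nat.dvd_prime_pow hp).1 hg
    have := hB (Subgroup.zpowers g) j hj (by rw [Nat.card_zpowers, hj'])
    exact this (Subgroup.mem_zpowers g)
  obtain ⟨K, hK, hHK⟩ := Sylow.exists_subgroup_card_pow_prime_le p (m := s + 1)
    (by rw [hG]; exact pow_dvd_pow p hsm) H hH (Nat.le_succ s)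
  have hKcyc : IsCyclic K := by
    have hne : ∃ g ∈ K, g ∉ H := by
      by_contra hcon
      push Not at hcon
      have hle : K ≤ H := hcon
      have h1 := Subgroup.card_le_of_le hle
      rw [hK, hH] at h1
      have h3 : p ^ s < p ^ (s + 1) := Nat.pow_lt_pow_right hp.one_lt (Nat.lt_succ_self s)
      omega
    obtain ⟨g, hgK, hgH⟩ := hne
    have hord : orderOf g = p ^ (s + 1) := by
      have hdvd : orderOf g ∣ p ^ (s + 1) := by
        have h1 := orderOf_dvd_natCard (⟨g, hgK⟩ : K)
        rw [hK] at h1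
        rwa [Subgroup.orderOf_mk] at h1
      obtain ⟨j, hj, hj'⟩ := (Nat.dvd_prime_pow hp).1 hdvd
      rcases Nat.lt_or_ge j (s + 1) with h | h
      · exfalso
        apply hgH
        apply hB'
        rw [hj']
        exact pow_dvd_pow p (by omega)
      · have : j = s + 1 := by omega
        rw [hj', this]
    apply isCyclic_of_orderOf_eq_card (⟨g, hgK⟩ : K)
    rw [hK, Subgroup.orderOf_mk, hord]
  haveI := hKcyc
  haveI hHcyc : IsCyclic H := Subgroup.isCyclic_of_le hHK
  have hUI : UI p G := by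
    intro g h hg hh hg1
    have hps : p ∣ p ^ s := dvd_pow_self p (by omega)
    have hgH : g ∈ H := hB' g ((orderOf_dvd_of_pow_eq_one hg).trans hps)
    have hhH : h ∈ H := hB' h ((orderOf_dvd_of_pow_eq_one hh).trans hps)
    have h1 := ui_of_isCyclic (p := p) (H := ↥H) ⟨g, hgH⟩ ⟨h, hhH⟩
      (Subtype.ext (by simpa using hg)) (Subtype.ext (by simpa using hh))
      (fun h0 => hg1 (by simpa using congrArg Subtype.val h0))
    obtain ⟨k, hk⟩ := Subgroup.mem_zpowers_iff.1 h1
    rw [Subgroup.mem_zpowers_iff]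
    refine ⟨k, ?_⟩
    have := congrArg Subtype.val hk
    simpa using this
  rcases Cfsg.Agent.Lib.Helper54.Quaternion.isCyclic_or_quaternion_of_ui hPG hUI with h | ⟨hp2, n, ⟨e⟩⟩
  · exact h
  · exfalso
    subst hp2
    have hs2 : 2 ≤ s := by
      rcases h2 with h | h
      · exact absurd rfl h
      · exact h
    haveI : NeZero (2 ^ n) := ⟨by positivity⟩
    have h4 : (4 : ℕ) ∣ 2 ^ s := by
      have : (4 : ℕ) = 2 ^ 2 := by norm_num
      rw [this]
      exact pow_dvd_pow 2 hs2
    have hmem : ∀ i : ZMod (2 * 2 ^ n), e.symm (QuaternionGroup.xa i) ∈ H := by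
      intro i
      apply hB'
      rw [MulEquiv.orderOf_eq, QuaternionGroup.orderOf_xa]
      exact h4
    have hc := isMulCommutative_iff.1 (IsCyclic.isMulCommutative (α := ↥H))
    have h5 := hc ⟨_, hmem 0⟩ ⟨_, hmem 1⟩
    have h6 : e.symm (QuaternionGroup.xa 0) * e.symm (QuaternionGroup.xa 1) =
        e.symm (QuaternionGroup.xa 1) * e.symm (QuaternionGroup.xa 0) := congrArg Subtype.val h5
    rw [← map_mul, ← map_mul] at h6
    have h7 := e.symm.injective h6
    rw [QuaternionGroup.xa_mul_xa, QuaternionGroup.xa_mul_xa] at h7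
    have h8 : ((2 ^ n : ℕ) : ZMod (2 * 2 ^ n)) + 1 - 0 = ((2 ^ n : ℕ) : ZMod (2 * 2 ^ n)) + 0 - 1 := by
      injection h7
    have h9 : ((2 : ℕ) : ZMod (2 * 2 ^ n)) = 0 := by
      have : (2 : ZMod (2 * 2 ^ n)) = 0 := by linear_combination h8
      exact_mod_cast this
    rw [ZMod.natCast_eq_zero_iff] at h9
    have h10 : 2 ^ n ∣ 1 := by
      obtain ⟨c, hc'⟩ := h9
      refine ⟨c, ?_⟩
      have : 2 * 1 = 2 * (2 ^ n * c) := by rw [← mul_assoc, ← hc']
      exact Nat.eq_of_mul_eq_mul_left (by norm_num) this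
    have h11 : 2 ^ n = 1 := Nat.dvd_one.1 h10
    have hcard : Nat.card G = 4 * 2 ^ n := by
      rw [Nat.card_congr e.toEquiv, Nat.card_eq_fintype_card, QuaternionGroup.card]
    rw [hG, h11] at hcard
    have hm : m = 2 := by
      have : (2 : ℕ) ^ m = 2 ^ 2 := by rw [hcard]; norm_num
      exact Nat.pow_right_injective (le_refl 2) this
    omega

end Cfsg.Agent.S3977
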