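import Mathlib
import Cfsg.Statements.S3984
import Cfsg.Agent.S3983
import Cfsg.Agent.S3997

set_option autoImplicit false
open Cfsg

namespace Cfsg.Agent.S3984

open scoped Pointwise

/-- Elementwise form of the trivial intersection property. -/
def TIel {G : Type*} [Group G] (S : Subgroup G) : Prop :=
  ∀ g c : G, c ∈ S → g⁻¹ * c * g ∈ S → c ≠ 1 → g ∈ Subgroup.normalizer (S : Set G)

theorem tiel_of_ti {G : Type*} [Group G] (S : Subgroup G)
    (h : ∀ g : G, g ∉ Subgroup.normalizer (S : Set G) → S ⊓ (MulAut.conj g • S) = ⊥) :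
    TIel S := by
  intro g c hc hgc hne
  by_contra hg
  have := h g hg
  have hmem : c ∈ S ⊓ (MulAut.conj g • S) :=
    Subgroup.mem_inf.mpr ⟨hc, (S3983.mem_conj_smul _ _ _).mpr hgc⟩
  rw [this, Subgroup.mem_bot] at hmem
  exact hne hmem

theorem ti_of_tiel {G : Type*} [Group G] (S : Subgroup G) (h : TIel S) :
    ∀ g : G, g ∉ Subgroup.normalizer (S : Set G) → S ⊓ (MulAut.conj g • S) = ⊥ := by
  intro g hg
  rw [eq_bot_iff]
  intro c hc
  rw [Subgroup.mem_bot]
  by_contra hne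
  rw [Subgroup.mem_inf] at hc
  exact hg (h g c hc.1 ((S3983.mem_conj_smul _ _ _).mp hc.2) hne)

theorem tiel_smul {G : Type*} [Group G] (S : Subgroup G) (h : TIel S) (k : G) :
    TIel (MulAut.conj k • S) := by
  intro g c hc hgc hne
  rw [S3983.mem_conj_smul] at hc hgc
  have ht : k⁻¹ * g * k ∈ Subgroup.normalizer (S : Set G) := by
    apply h (k⁻¹ * g * k) (k⁻¹ * c * k) hc
    · have : (k⁻¹ * g * k)⁻¹ * (k⁻¹ * c * k) * (k⁻¹ * g * k) = k⁻¹ * (g⁻¹ * c * g) * k := by
        group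
      rw [this]; exact hgc
    · intro h1
      apply hne
      have : c = k * (k⁻¹ * c * k) * k⁻¹ := by group
      rw [this, h1]; group
  rw [Subgroup.mem_normalizer_iff] at ht ⊢
  intro y
  rw [S3983.mem_conj_smul, S3983.mem_conj_smul]
  have := ht (k⁻¹ * y * k)
  rw [this]
  have e : k⁻¹ * g * k * (k⁻¹ * y * k) * (k⁻¹ * g * k)⁻¹ = k⁻¹ * (g * y * g⁻¹) * k := by group
  rw [e]

/-- Sylow's theorem inside a subgroup `M` containing the Sylow subgroup `S` of `G`. -/
theorem exists_conj_mem_sylow {G : Type*} [Group G] [Finite G] (p : ℕ) [Fact p.Prime]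
    (S : Sylow p G) (M : Subgroup G) (hle : (S : Subgroup G) ≤ M) (c : G) (hcM : c ∈ M)
    (hc : ∃ k, orderOf c = p ^ k) : ∃ m ∈ M, m⁻¹ * c * m ∈ (S : Subgroup G) := by
  have hpg : IsPGroup p (Subgroup.zpowers (⟨c, hcM⟩ : M)) := by
    rw [IsPGroup.iff_card]
    obtain ⟨k, hk⟩ := hc
    exact ⟨k, by rw [Nat.card_zpowers, Subgroup.orderOf_mk, hk]⟩
  obtain ⟨R, hR⟩ := hpg.exists_le_sylow
  obtain ⟨m, rfl⟩ := MulAction.exists_smul_eq M (S.subtype hle) R
  refine ⟨m, m.2, ?_⟩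
  have h1 : (⟨c, hcM⟩ : M) ∈ ((m • (S.subtype hle) : Sylow p M) : Subgroup M) :=
    hR (Subgroup.mem_zpowers _)
  rw [Sylow.coe_subgroup_smul, S3983.mem_conj_smul, Sylow.coe_subtype,
    Subgroup.mem_subgroupOf] at h1
  simpa using h1

theorem main {G : Type*} [Group G] [Finite G] (p : ℕ) [Fact p.Prime] (P' : Sylow p G)
    (hTI : TIel (P' : Subgroup G)) (N : Subgroup G) [hNn : N.Normal] :
    TIel ((P' : Subgroup G).map (QuotientGroup.mk' N)) := by
  intro x a ha hxa hne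
  obtain ⟨g, rfl⟩ := QuotientGroup.mk'_surjective N x
  obtain ⟨c, hc, rfl⟩ := ha
  obtain ⟨d, hd, hde⟩ := hxa
  have hcne : c ≠ 1 := by rintro rfl; exact hne (map_one _)
  have hn : (g⁻¹ * c * g)⁻¹ * d ∈ N := by
    rw [← QuotientGroup.eq]
    simpa using hde.symm
  have hP'' : ∀ y, y ∈ ((g • P' : Sylow p G) : Subgroup G) ↔
      g⁻¹ * y * g ∈ (P' : Subgroup G) := fun y => by
    rw [Sylow.coe_subgroup_smul, S3983.mem_conj_smul]
  have hcM : c ∈ N ⊔ ((g • P' : Sylow p G) : Subgroup G) := by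
    have : c = (g * d * g⁻¹) * (g * ((g⁻¹ * c * g)⁻¹ * d)⁻¹ * g⁻¹) := by group
    rw [this]
    refine Subgroup.mul_mem _ (Subgroup.mem_sup_right ((hP'' _).mpr ?_))
      (Subgroup.mem_sup_left (hNn.conj_mem _ (N.inv_mem hn) g))
    have : g⁻¹ * (g * d * g⁻¹) * g = d := by group
    rw [this]; exact hd
  obtain ⟨m, hmM, hm⟩ := exists_conj_mem_sylow p (g • P') (N ⊔ ((g • P' : Sylow p G) : Subgroup G))
    le_sup_right c hcM (S3997.orderOf_of_mem_sylow p P' c hc)
  rw [← SetLike.mem_coe, Subgroup.normal_mul, Set.mem_mul] at hmM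
  obtain ⟨n', hn', e, he, rfl⟩ := hmM
  have h2 : n'⁻¹ * c * n' ∈ ((g • P' : Sylow p G) : Subgroup G) := by
    have : n'⁻¹ * c * n' = e * ((n' * e)⁻¹ * c * (n' * e)) * e⁻¹ := by group
    rw [this]; exact Subgroup.mul_mem _ (Subgroup.mul_mem _ he hm) (Subgroup.inv_mem _ he)
  rw [hP''] at h2
  have h3 : n' * g ∈ Subgroup.normalizer ((P' : Subgroup G) : Set G) := by
    apply hTI (n' * g) c hc _ hcne
    have : (n' * g)⁻¹ * c * (n' * g) = g⁻¹ * (n'⁻¹ * c * n') * g := by group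
    rw [this]; exact h2
  have h4 : QuotientGroup.mk' N (n' * g) = QuotientGroup.mk' N g := by
    rw [map_mul]
    have : QuotientGroup.mk' N n' = 1 := (QuotientGroup.eq_one_iff n').mpr hn'
    rw [this, one_mul]
  rw [← h4]
  exact Subgroup.le_normalizer_map _ (Subgroup.mem_map_of_mem _ h3)

/-- Let P be a Sylow p-subgroup of the finite group G that meets each conjugate g P g⁻¹ with g outside N_G(P) trivially, and let N be a normal subgroup of G of order prime to p. Then every Sylow p-subgroup Q of G ⧸ N meets each conjugate x Q x⁻¹ with x outside its normalizer trivially. -/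
theorem result {G : Type*} [Group G] [Finite G] (p : ℕ) [Fact p.Prime] (P : Sylow p G) (hTI : ∀ g : G, g ∉ Subgroup.normalizer ((P : Subgroup G) : Set G) → (P : Subgroup G) ⊓ (MulAut.conj g • (P : Subgroup G)) = ⊥) (N : Subgroup G) [N.Normal] (hN : (Nat.card ↥N).Coprime p) (Q : Sylow p (G ⧸ N)) : ∀ x : G ⧸ N, x ∉ Subgroup.normalizer ((Q : Subgroup (G ⧸ N)) : Set (G ⧸ N)) → (Q : Subgroup (G ⧸ N)) ⊓ (MulAut.conj x • (Q : Subgroup (G ⧸ N))) = ⊥ := by
  obtain ⟨P', rfl⟩ := Sylow.mapSurjective_surjective (QuotientGroup.mk'_surjective N) p Q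
  obtain ⟨k, rfl⟩ := MulAction.exists_smul_eq G P P'
  have h1 : TIel ((k • P : Sylow p G) : Subgroup G) := by
    rw [Sylow.coe_subgroup_smul]; exact tiel_smul _ (tiel_of_ti _ hTI) k
  have h2 := main p (k • P) h1 N
  exact ti_of_tiel _ (by rw [Sylow.coe_mapSurjective]; exact h2)

end Cfsg.Agent.S3984
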