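import Mathlib
import Cfsg.Statements.S3985
import Cfsg.Agent.S3984

set_option autoImplicit false
open Cfsg

namespace Cfsg.Agent.S3985

open scoped Pointwise

/-- A `p`-element normalizing a Sylow `p`-subgroup lies in it. -/
theorem mem_sylow_of_mem_normalizer {G : Type*} [Group G] (p : ℕ) [Fact p.Prime]
    (P : Sylow p G) (z : G) (hz : ∃ k : ℕ, z ^ (p ^ k) = 1)
    (hn : z ∈ Subgroup.normalizer ((P : Subgroup G) : Set G)) : z ∈ (P : Subgroup G) := by
  have hpg : IsPGroup p (Subgroup.zpowers z) := by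
    obtain ⟨k, hk⟩ := hz
    rintro ⟨y, hy⟩
    obtain ⟨i, rfl⟩ := Subgroup.mem_zpowers_iff.mp hy
    refine ⟨k, Subtype.ext ?_⟩
    simp only [Subgroup.coe_pow, Subgroup.coe_one]
    rw [← zpow_natCast, ← zpow_mul, mul_comm, zpow_mul, zpow_natCast, hk, one_zpow]
  have := hpg.inf_normalizer_sylow P
  have h1 : z ∈ Subgroup.zpowers z ⊓ Subgroup.normalizer ((P : Subgroup G) : Set G) :=
    Subgroup.mem_inf.mpr ⟨Subgroup.mem_zpowers z, hn⟩
  have h2 : z ∈ Subgroup.zpowers z ⊓ (P : Subgroup G) := by rw [← this]; exact h1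
  exact (Subgroup.mem_inf.mp h2).2

theorem conj_gen_eq {G : Type*} [Group G] [Finite G] (p : ℕ) [Fact p.Prime] (P : Sylow p G)
    (c : G) (hc : c ∈ (P : Subgroup G))
    (hgen : ∀ y ∈ (P : Subgroup G), y ∈ Subgroup.zpowers c) (h : G)
    (hh : h ∈ Subgroup.normalizer ((P : Subgroup G) : Set G)) (x : G)
    (hx : x ∈ (P : Subgroup G)) (hx1 : x ≠ 1) (hhx : h * x * h⁻¹ = x) : h * c * h⁻¹ = c := by
  have h1 : h * c * h⁻¹ ∈ (P : Subgroup G) := (Subgroup.mem_normalizer_iff.mp hh c).mp hc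
  obtain ⟨r, hr⟩ := Subgroup.mem_zpowers_iff.mp (hgen _ h1)
  obtain ⟨j, hj⟩ := Subgroup.mem_zpowers_iff.mp (hgen _ hx)
  obtain ⟨n, hn⟩ : ∃ n, orderOf c = p ^ n := S3997.orderOf_of_mem_sylow p P c hc
  have hpow : ∀ k : ℕ, h ^ k * c * (h ^ k)⁻¹ = c ^ (r ^ k) := by
    intro k
    induction k with
    | zero => simp
    | succ k ih =>
      have : h ^ (k + 1) * c * (h ^ (k + 1))⁻¹ = h * (h ^ k * c * (h ^ k)⁻¹) * h⁻¹ := by
        rw [pow_succ']; group
      rw [this, ih, ← conj_zpow, ← hr, ← zpow_mul, pow_succ, mul_comm]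
  have hdiv : (p : ℤ) ∣ r - 1 := by
    by_contra hnd
    have e1 : c ^ (r * j) = c ^ j := by
      rw [zpow_mul, hr, conj_zpow, hj, hhx]
    rw [zpow_eq_zpow_iff_modEq, hn] at e1
    have e2 : ((p : ℤ) ^ n) ∣ j * (r - 1) := by
      have := e1.symm.dvd
      push_cast at this
      convert this using 1; ring
    have hcop : IsCoprime ((p : ℤ) ^ n) (r - 1) :=
      IsCoprime.pow_left
        ((Nat.prime_iff_prime_int.mp Fact.out).irreducible.coprime_iff_not_dvd.mpr hnd)
    have e3 : ((p : ℤ) ^ n) ∣ j := hcop.dvd_of_dvd_mul_right e2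
    apply hx1
    rw [← hj]
    apply orderOf_dvd_iff_zpow_eq_one.mp
    rw [hn]
    exact_mod_cast e3
  set o := orderOf h with ho
  have ho_pos : o ≠ 0 := (orderOf_pos h).ne'
  set m' := o / p ^ (o.factorization p) with hm'
  have hcop' : p.Coprime m' := Nat.coprime_ordCompl Fact.out ho_pos
  have hy : (h ^ m') ^ (p ^ (o.factorization p)) = 1 := by
    rw [← pow_mul, mul_comm, Nat.ordProj_mul_ordCompl_eq_self, pow_orderOf_eq_one]
  have hyP : h ^ m' ∈ (P : Subgroup G) :=
    mem_sylow_of_mem_normalizer p P _ ⟨_, hy⟩ (Subgroup.pow_mem _ hh _)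
  have hcomm : h ^ m' * c * (h ^ m')⁻¹ = c := by
    obtain ⟨i, hi⟩ := Subgroup.mem_zpowers_iff.mp (hgen _ hyP)
    rw [← hi]
    exact mul_inv_eq_iff_eq_mul.mpr (Commute.zpow_left (Commute.refl c) i).eq
  have e4 : c ^ (r ^ m') = c ^ (1 : ℤ) := by rw [← hpow, hcomm, zpow_one]
  rw [zpow_eq_zpow_iff_modEq, hn] at e4
  have e5 : r ≡ 1 [ZMOD ((p ^ n : ℕ) : ℤ)] := by
    rcases Nat.eq_zero_or_pos n with hn0 | hnpos
    · subst hn0; simp [Int.modEq_one]
    · obtain ⟨k, rfl⟩ : ∃ k, n = k + 1 := ⟨n - 1, by omega⟩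
      have e6 := dvd_sub_pow_of_dvd_sub hdiv k
      have z1 : ((r : ZMod (p ^ (k + 1)))) ^ m' = 1 := by
        have := (ZMod.intCast_eq_intCast_iff _ _ _).mpr e4
        push_cast at this; exact this
      have z2 : ((r : ZMod (p ^ (k + 1)))) ^ (p ^ k) = 1 := by
        have : ((r ^ (p ^ k) - 1 ^ (p ^ k) : ℤ) : ZMod (p ^ (k + 1))) = 0 :=
          (ZMod.intCast_zmod_eq_zero_iff_dvd _ _).mpr (by exact_mod_cast e6)
        push_cast at this; rw [one_pow, sub_eq_zero] at this; exact this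
      have z3 := pow_gcd_eq_one.mpr ⟨z1, z2⟩
      have : Nat.gcd m' (p ^ k) = 1 := Nat.Coprime.pow_right k hcop'.symm
      rw [this, pow_one] at z3
      have : ((r : ℤ) : ZMod (p ^ (k + 1))) = ((1 : ℤ) : ZMod (p ^ (k + 1))) := by
        push_cast; exact z3
      exact (ZMod.intCast_eq_intCast_iff _ _ _).mp this
  rw [← hr]
  have := (zpow_eq_zpow_iff_modEq (x := c)).mpr (hn ▸ e5)
  rw [this, zpow_one]

theorem forward {G : Type*} [Group G] [Finite G] (p : ℕ) [Fact p.Prime] (P : Sylow p G)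
    (hcyc : IsCyclic ↥(P : Subgroup G)) (hTI : S3984.TIel (P : Subgroup G))
    (x : G) (hx : x ∈ (P : Subgroup G)) (hx1 : x ≠ 1) :
    Subgroup.centralizer ({x} : Set G) = Subgroup.centralizer ((P : Subgroup G) : Set G) := by
  obtain ⟨⟨c, hc⟩, hgen'⟩ := hcyc.exists_generator
  have hgen : ∀ y ∈ (P : Subgroup G), y ∈ Subgroup.zpowers c := by
    intro y hy
    obtain ⟨i, hi⟩ := Subgroup.mem_zpowers_iff.mp (hgen' ⟨y, hy⟩)
    exact Subgroup.mem_zpowers_iff.mpr ⟨i, by simpa using congrArg Subtype.val hi⟩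
  apply le_antisymm
  · intro h hh
    have hhx : x * h = h * x := Subgroup.mem_centralizer_iff.mp hh x rfl
    have hhx' : h * x * h⁻¹ = x := by rw [← hhx, mul_inv_cancel_right]
    have hn : h ∈ Subgroup.normalizer ((P : Subgroup G) : Set G) := by
      apply hTI h x hx _ hx1
      rw [mul_assoc, hhx, inv_mul_cancel_left]; exact hx
    have hcc := conj_gen_eq p P c hc hgen h hn x hx hx1 hhx'
    have hcc' : c * h = h * c := by
      calc c * h = (h * c * h⁻¹) * h := by rw [hcc]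
        _ = h * c := by group
    have hz : Subgroup.zpowers c ≤ Subgroup.centralizer ({h} : Set G) := by
      rw [Subgroup.zpowers_le, Subgroup.mem_centralizer_iff]
      intro k hk
      rw [Set.mem_singleton_iff] at hk
      subst hk
      exact hcc'.symm
    rw [Subgroup.mem_centralizer_iff]
    intro y hy
    exact ((Subgroup.mem_centralizer_iff.mp (hz (hgen y hy))) h rfl).symm
  · intro h hh
    rw [Subgroup.mem_centralizer_iff] at hh ⊢
    intro k hk
    rw [Set.mem_singleton_iff] at hk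
    subst hk
    exact hh k hx

theorem backward_aux {G : Type*} [Group G] [Finite G] (p : ℕ) [Fact p.Prime] (P : Sylow p G)
    (hcyc : IsCyclic ↥(P : Subgroup G))
    (hC : ∀ x : G, x ∈ (P : Subgroup G) → x ≠ 1 →
      Subgroup.centralizer ({x} : Set G) = Subgroup.centralizer ((P : Subgroup G) : Set G))
    (g c₁ : G) (hc₁ : c₁ ∈ (P : Subgroup G)) (hgc : g⁻¹ * c₁ * g ∈ (P : Subgroup G))
    (hne : c₁ ≠ 1) (y : G) (hy : y ∈ (P : Subgroup G)) : g⁻¹ * y * g ∈ (P : Subgroup G) := by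
  have hab : ∀ a b : G, a ∈ (P : Subgroup G) → b ∈ (P : Subgroup G) → a * b = b * a := by
    intro a b ha hb
    have := IsCyclic.isMulCommutative (α := ↥(P : Subgroup G))
    have h2 := mul_comm' (⟨a, ha⟩ : ↥(P : Subgroup G)) ⟨b, hb⟩
    simpa using congrArg Subtype.val h2
  have hne' : g⁻¹ * c₁ * g ≠ 1 := by
    intro h1
    apply hne
    have : c₁ = g * (g⁻¹ * c₁ * g) * g⁻¹ := by group
    rw [this, h1]; group
  have hz : g⁻¹ * y * g ∈ Subgroup.centralizer ({g⁻¹ * c₁ * g} : Set G) := by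
    rw [Subgroup.mem_centralizer_iff]
    intro k hk
    rw [Set.mem_singleton_iff] at hk
    subst hk
    have := hab c₁ y hc₁ hy
    calc g⁻¹ * c₁ * g * (g⁻¹ * y * g) = g⁻¹ * (c₁ * y) * g := by group
      _ = g⁻¹ * (y * c₁) * g := by rw [this]
      _ = g⁻¹ * y * g * (g⁻¹ * c₁ * g) := by group
  rw [hC _ hgc hne'] at hz
  apply mem_sylow_of_mem_normalizer p P
  · obtain ⟨k, hk⟩ := S3997.orderOf_of_mem_sylow p P y hy
    refine ⟨k, ?_⟩
    have : (g⁻¹ * y * g) ^ (p ^ k) = g⁻¹ * y ^ (p ^ k) * g := by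
      have := conj_pow (a := g⁻¹) (b := y) (i := p ^ k)
      rw [inv_inv] at this
      exact this
    rw [this, ← hk, pow_orderOf_eq_one]; group
  · rw [Subgroup.mem_normalizer_iff]
    intro k
    rw [Subgroup.mem_centralizer_iff] at hz
    constructor
    · intro hk
      have := hz k hk
      rw [← this, mul_inv_cancel_right]; exact hk
    · intro hk
      have := hz _ hk
      have h2 : k = g⁻¹ * y * g * k * (g⁻¹ * y * g)⁻¹ := by
        have h3 : g⁻¹ * y * g * k = g⁻¹ * y * g * (g⁻¹ * y * g * k * (g⁻¹ * y * g)⁻¹) := by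
          rw [← this, inv_mul_cancel_right]
        exact mul_left_cancel h3
      rw [h2]; exact hk

/-- Let P be a cyclic Sylow p-subgroup of the finite group G. Then P meets each conjugate g P g⁻¹ with g outside N_G(P) trivially if and only if P is weakly self-centralizing: C_G(x) = C_G(P) for every non-identity x ∈ P. -/
theorem result {G : Type*} [Group G] [Finite G] (p : ℕ) [Fact p.Prime] (P : Sylow p G) (hcyc : IsCyclic ↥(P : Subgroup G)) : (∀ g : G, g ∉ Subgroup.normalizer ((P : Subgroup G) : Set G) → (P : Subgroup G) ⊓ (MulAut.conj g • (P : Subgroup G)) = ⊥) ↔ ∀ x : G, x ∈ (P : Subgroup G) → x ≠ 1 → Subgroup.centralizer ({x} : Set G) = Subgroup.centralizer ((P : Subgroup G) : Set G) := by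
  constructor
  · intro hTI x hx hx1
    exact forward p P hcyc (S3984.tiel_of_ti _ hTI) x hx hx1
  · intro hC
    apply S3984.ti_of_tiel
    intro g c₁ hc₁ hgc hne
    have hne' : g⁻¹ * c₁ * g ≠ 1 := by
      intro h1
      apply hne
      have : c₁ = g * (g⁻¹ * c₁ * g) * g⁻¹ := by group
      rw [this, h1]; group
    have h1 := backward_aux p P hcyc hC g c₁ hc₁ hgc hne
    have h2 := backward_aux p P hcyc hC g⁻¹ (g⁻¹ * c₁ * g) hgc
      (by have : g⁻¹⁻¹ * (g⁻¹ * c₁ * g) * g⁻¹ = c₁ := by group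
          rw [this]; exact hc₁) hne'
    rw [Subgroup.mem_normalizer_iff]
    intro y
    constructor
    · intro hy
      have := h2 y hy
      rwa [inv_inv] at this
    · intro hy
      have := h1 _ hy
      have e : g⁻¹ * (g * y * g⁻¹) * g = y := by group
      rwa [e] at this

end Cfsg.Agent.S3985
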