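import Mathlib
import Cfsg.Statements.S3986
import Cfsg.Agent.S3997

set_option autoImplicit false
open Cfsg

namespace Cfsg.Agent.S3986

/-- A subgroup of a finite group containing a Sylow `q`-subgroup for every prime `q` is everything. -/
theorem eq_top_of_sylow_le {G : Type*} [Group G] [Finite G] (H : Subgroup G)
    (h : ∀ q : ℕ, ∀ _ : Fact q.Prime, ∃ R : Sylow q G, (R : Subgroup G) ≤ H) : H = ⊤ := by
  rw [← Subgroup.index_eq_one]
  by_contra hne
  obtain ⟨q, hq, hdvd⟩ := Nat.exists_prime_and_dvd hne
  have : Fact q.Prime := ⟨hq⟩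
  obtain ⟨R, hR⟩ := h q ⟨hq⟩
  exact R.not_dvd_index (hdvd.trans (Subgroup.index_dvd_of_le hR))

/-- The index of a normal complement of a normal subgroup is the order of that subgroup. -/
theorem index_compl {G : Type*} [Group G] (P K : Subgroup G) (hK : K.Normal)
    (hinf : P ⊓ K = ⊥) (hsup : P ⊔ K = ⊤) : K.index = Nat.card P := by
  rw [← Subgroup.relIndex_top_right, ← hsup, sup_comm, Subgroup.relIndex_sup_left,
    ← Subgroup.inf_relIndex_right, inf_comm, hinf, Subgroup.relIndex_bot_left]

/-- The forward direction: a normal Sylow `p`-subgroup with a normal complement commutes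
elementwise with elements of `q`-power order, `q ≠ p`. -/
theorem forward {G : Type*} [Group G] [Finite G] (p : ℕ) [Fact p.Prime]
    (P : Sylow p G) (K : Subgroup G) (hP : (P : Subgroup G).Normal) (hK : K.Normal)
    (hinf : (P : Subgroup G) ⊓ K = ⊥) (hsup : (P : Subgroup G) ⊔ K = ⊤)
    (x y : G) (hx : ∃ a : ℕ, orderOf x = p ^ a)
    (hy : ∃ q b : ℕ, q.Prime ∧ q ≠ p ∧ orderOf y = q ^ b) : x * y = y * x := by
  obtain ⟨q, b, hq, hqp, hy⟩ := hy
  have hxP : x ∈ (P : Subgroup G) := S3997.mem_normal_sylow p P hP x hx
  have hidx : K.index = Nat.card (P : Subgroup G) := index_compl _ K hK hinf hsup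
  have h1 : y ^ Nat.card (P : Subgroup G) ∈ K := hidx ▸ Subgroup.pow_index_mem K y
  have hcop : (Nat.card (P : Subgroup G)).Coprime (orderOf y) := by
    rw [Sylow.card_eq_multiplicity, hy]
    apply Nat.Coprime.pow
    exact (Nat.coprime_primes (Fact.out) hq).mpr (Ne.symm hqp)
  obtain ⟨m, hm⟩ := exists_pow_eq_self_of_coprime hcop
  have hyK : y ∈ K := hm ▸ K.pow_mem h1 m
  exact Subgroup.commute_of_normal_of_disjoint _ _ hP hK (disjoint_iff.mpr hinf) x y hxP hyK

/-- The backward direction. -/
theorem backward {G : Type*} [Group G] [Finite G] (p : ℕ) [Fact p.Prime]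
    (hc : ∀ x y : G, (∃ a : ℕ, orderOf x = p ^ a) →
      (∃ q b : ℕ, q.Prime ∧ q ≠ p ∧ orderOf y = q ^ b) → x * y = y * x) :
    ∃ (P : Sylow p G) (K : Subgroup G), (P : Subgroup G).Normal ∧ K.Normal ∧
      (P : Subgroup G) ⊓ K = ⊥ ∧ (P : Subgroup G) ⊔ K = ⊤ := by
  classical
  have P : Sylow p G := default
  have hPo : ∀ x ∈ (P : Subgroup G), ∃ a, orderOf x = p ^ a :=
    fun x hx => S3997.orderOf_of_mem_sylow p P x hx
  have hPn : (P : Subgroup G).Normal := by
    rw [← Subgroup.normalizer_eq_top_iff]
    apply eq_top_of_sylow_le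
    intro q hq
    by_cases hqp : q = p
    · subst hqp
      exact ⟨P, Subgroup.le_normalizer⟩
    · refine ⟨default, ?_⟩
      intro y hy
      obtain ⟨b, hb⟩ := S3997.orderOf_of_mem_sylow q _ y hy
      have hcomm : ∀ x ∈ (P : Subgroup G), x * y = y * x :=
        fun x hx => hc x y (hPo x hx) ⟨q, b, hq.out, hqp, hb⟩
      rw [Subgroup.mem_normalizer_iff]
      intro x
      constructor
      · intro hx
        have := hcomm x hx
        rw [← this, mul_inv_cancel_right]; exact hx
      · intro hx
        have := hcomm _ hx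
        have h2 : x = y * x * y⁻¹ := by
          have h3 : y * x = y * (y * x * y⁻¹) := by
            rw [← this, inv_mul_cancel_right]
          exact mul_left_cancel h3
        rw [h2]; exact hx
  obtain ⟨K, hK⟩ := Subgroup.exists_left_complement'_of_coprime (N := (P : Subgroup G))
    (P.card_coprime_index)
  have hKcard : (P : Subgroup G).index = Nat.card K := hK.index_eq_card
  have hKC : K ≤ Subgroup.centralizer ((P : Subgroup G) : Set G) := by
    have : (Subgroup.centralizer ((P : Subgroup G) : Set G)).subgroupOf K = ⊤ := by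
      apply eq_top_of_sylow_le
      intro q hq
      refine ⟨default, ?_⟩
      intro y hy
      obtain ⟨b, hb⟩ := S3997.orderOf_of_mem_sylow q _ y hy
      rw [Subgroup.mem_subgroupOf, Subgroup.mem_centralizer_iff]
      intro x hx
      by_cases hqp : q = p
      · have h1 : orderOf y ∣ Nat.card K := orderOf_dvd_natCard y
        have h2 : (p ^ b).Coprime (Nat.card K) := by
          rw [← hKcard]
          apply Nat.Coprime.pow_left
          exact (Nat.Prime.coprime_iff_not_dvd Fact.out).mpr P.not_dvd_index
        rw [hb, hqp] at h1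
        have h5 : p ^ b = 1 := Nat.Coprime.eq_one_of_dvd h2 h1
        have h6 : y = 1 := by
          rw [← orderOf_eq_one_iff, hb, hqp, h5]
        rw [h6]; simp
      · have := hc x (y : G) (hPo x hx) ⟨q, b, hq.out, hqp, by rw [Subgroup.orderOf_coe]; exact hb⟩
        exact this
    rwa [Subgroup.subgroupOf_eq_top] at this
  have hKn : K.Normal := by
    rw [← Subgroup.normalizer_eq_top_iff, eq_top_iff, ← hK.sup_eq_top]
    apply sup_le Subgroup.le_normalizer
    intro x hx
    rw [Subgroup.mem_normalizer_iff]
    intro k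
    constructor
    · intro hk
      have := (Subgroup.mem_centralizer_iff.mp (hKC hk)) x hx
      rw [this, mul_inv_cancel_right]; exact hk
    · intro hk
      have := (Subgroup.mem_centralizer_iff.mp (hKC hk)) x hx
      have h2 : k = x * k * x⁻¹ := by
        have h3 : x * k = x * (x * k * x⁻¹) := by
          rw [this, inv_mul_cancel_right]
        exact mul_left_cancel h3
      rw [h2]; exact hk
  refine ⟨P, K, hPn, hKn, ?_, ?_⟩
  · rw [inf_comm]; exact disjoint_iff.mp hK.disjoint
  · rw [sup_comm]; exact hK.sup_eq_top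

/-- Let p be a prime and G a finite group. Then some Sylow p-subgroup of G is a direct factor of G (it is normal and has a normal complement) if and only if every element of p-power order commutes with every element whose order is a power of a prime other than p. -/
theorem result {G : Type*} [Group G] [Finite G] (p : ℕ) [Fact p.Prime] : (∃ (P : Sylow p G) (K : Subgroup G), (P : Subgroup G).Normal ∧ K.Normal ∧ (P : Subgroup G) ⊓ K = ⊥ ∧ (P : Subgroup G) ⊔ K = ⊤) ↔ ∀ x y : G, (∃ a : ℕ, orderOf x = p ^ a) → (∃ q b : ℕ, q.Prime ∧ q ≠ p ∧ orderOf y = q ^ b) → x * y = y * x := by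
  constructor
  · rintro ⟨P, K, hP, hK, hinf, hsup⟩ x y hx hy
    exact forward p P K hP hK hinf hsup x y hx hy
  · exact backward p

end Cfsg.Agent.S3986
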