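import Mathlib
import Cfsg.Statements.S3987
import Cfsg.Agent.S3986

set_option autoImplicit false
open Cfsg

namespace Cfsg.Agent.S3987

theorem index_inf_of_coprime {G : Type*} [Group G] [Finite G] (A B : Subgroup G)
    (h : A.index.Coprime B.index) : (A ⊓ B).index = A.index * B.index := by
  apply Nat.le_antisymm Subgroup.index_inf_le
  apply Nat.le_of_dvd (Nat.pos_of_ne_zero Subgroup.index_ne_zero_of_finite)
  exact Nat.Coprime.mul_dvd_of_dvd_of_dvd h (Subgroup.index_dvd_of_le inf_le_left)
    (Subgroup.index_dvd_of_le inf_le_right)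

theorem inf_centralizer_le {G : Type*} [Group G] (x y : G) :
    Subgroup.centralizer ({x} : Set G) ⊓ Subgroup.centralizer ({y} : Set G) ≤
      Subgroup.centralizer ({x * y} : Set G) := by
  intro g hg
  rw [Subgroup.mem_inf] at hg
  obtain ⟨hgx, hgy⟩ := hg
  rw [Subgroup.mem_centralizer_iff] at hgx hgy
  rw [Subgroup.mem_centralizer_iff]
  intro h hh
  rw [Set.mem_singleton_iff] at hh
  subst hh
  have h1 := hgx x rfl
  have h2 := hgy y rfl
  rw [mul_assoc, h2, ← mul_assoc, h1, mul_assoc]

theorem centralizer_le_of_mem_zpowers {G : Type*} [Group G] (w x : G)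
    (hx : x ∈ Subgroup.zpowers w) :
    Subgroup.centralizer ({w} : Set G) ≤ Subgroup.centralizer ({x} : Set G) := by
  intro g hg
  have h1 : Subgroup.zpowers w ≤ Subgroup.centralizer ({g} : Set G) := by
    rw [Subgroup.zpowers_le]
    rw [Subgroup.mem_centralizer_iff] at hg ⊢
    intro h hh
    rw [Set.mem_singleton_iff] at hh
    subst hh
    exact (hg w rfl).symm
  have h2 := Subgroup.mem_centralizer_iff.mp (h1 hx) g rfl
  rw [Subgroup.mem_centralizer_iff]
  intro h hh
  rw [Set.mem_singleton_iff] at hh
  subst hh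
  exact h2.symm

theorem mem_zpowers_mul_of_coprime {G : Type*} [Group G] (x y : G) (hc : x * y = y * x)
    (hcop : (orderOf x).Coprime (orderOf y)) : x ∈ Subgroup.zpowers (x * y) := by
  obtain ⟨m, hm⟩ := exists_pow_eq_self_of_coprime (x := x) (n := orderOf y) hcop.symm
  have : (x * y) ^ (orderOf y) = x ^ (orderOf y) := by
    rw [(show Commute x y from hc).mul_pow, pow_orderOf_eq_one, mul_one]
  have hxe : ((x * y) ^ (orderOf y)) ^ m = x := by rw [this, hm]
  have hmem : ((x * y) ^ (orderOf y)) ^ m ∈ Subgroup.zpowers (x * y) :=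
    Subgroup.pow_mem _ (Subgroup.pow_mem _ (Subgroup.mem_zpowers _) _) _
  rwa [hxe] at hmem

theorem forward {G : Type*} [Group G] [Finite G] (p : ℕ) [Fact p.Prime]
    (P : Sylow p G) (K : Subgroup G) (hP : (P : Subgroup G).Normal) (hK : K.Normal)
    (hinf : (P : Subgroup G) ⊓ K = ⊥) (hsup : (P : Subgroup G) ⊔ K = ⊤)
    (x y : G) (hx : ∃ a : ℕ, orderOf x = p ^ a)
    (hy : ∃ q b : ℕ, q.Prime ∧ q ≠ p ∧ orderOf y = q ^ b) :
    (Subgroup.centralizer ({x * y} : Set G)).index =
      (Subgroup.centralizer ({x} : Set G)).index * (Subgroup.centralizer ({y} : Set G)).index := by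
  have hcomm : x * y = y * x := S3986.forward p P K hP hK hinf hsup x y hx hy
  have hxP : x ∈ (P : Subgroup G) := S3997.mem_normal_sylow p P hP x hx
  have hcop : (orderOf x).Coprime (orderOf y) := by
    obtain ⟨a, ha⟩ := hx
    obtain ⟨q, b, hq, hqp, hb⟩ := hy
    rw [ha, hb]
    exact Nat.Coprime.pow _ _ ((Nat.coprime_primes Fact.out hq).mpr (Ne.symm hqp))
  have hx' : x ∈ Subgroup.zpowers (x * y) := mem_zpowers_mul_of_coprime x y hcomm hcop
  have hy' : y ∈ Subgroup.zpowers (x * y) := by
    rw [hcomm]
    exact mem_zpowers_mul_of_coprime y x hcomm.symm hcop.symm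
  have hC : Subgroup.centralizer ({x * y} : Set G) =
      Subgroup.centralizer ({x} : Set G) ⊓ Subgroup.centralizer ({y} : Set G) :=
    le_antisymm (le_inf (centralizer_le_of_mem_zpowers _ _ hx')
      (centralizer_le_of_mem_zpowers _ _ hy')) (inf_centralizer_le x y)
  rw [hC]
  apply index_inf_of_coprime
  have h1 : K ≤ Subgroup.centralizer ({x} : Set G) := by
    intro k hk
    rw [Subgroup.mem_centralizer_iff]
    intro h hh
    rw [Set.mem_singleton_iff] at hh
    subst hh
    exact Subgroup.commute_of_normal_of_disjoint _ _ hP hK (disjoint_iff.mpr hinf) h k hxP hk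
  have h2 : (P : Subgroup G) ≤ Subgroup.centralizer ({y} : Set G) := by
    intro u hu
    rw [Subgroup.mem_centralizer_iff]
    intro h hh
    rw [Set.mem_singleton_iff] at hh
    subst hh
    exact (S3986.forward p P K hP hK hinf hsup u h
      (S3997.orderOf_of_mem_sylow p P u hu) hy).symm
  have h3 := Subgroup.index_dvd_of_le h1
  have h4 := Subgroup.index_dvd_of_le h2
  rw [S3986.index_compl _ K hK hinf hsup] at h3
  exact Nat.Coprime.coprime_dvd_left h3 (Nat.Coprime.coprime_dvd_right h4 P.card_coprime_index)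

theorem backward {G : Type*} [Group G] [Finite G] (p : ℕ) [Fact p.Prime]
    (h : ∀ x y : G, (∃ a : ℕ, orderOf x = p ^ a) →
      (∃ q b : ℕ, q.Prime ∧ q ≠ p ∧ orderOf y = q ^ b) →
      (Subgroup.centralizer ({x * y} : Set G)).index =
      (Subgroup.centralizer ({x} : Set G)).index * (Subgroup.centralizer ({y} : Set G)).index) :
    ∃ (P : Sylow p G) (K : Subgroup G), (P : Subgroup G).Normal ∧ K.Normal ∧
      (P : Subgroup G) ⊓ K = ⊥ ∧ (P : Subgroup G) ⊔ K = ⊤ := by
  apply S3986.backward p
  intro x y hx hy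
  have h1 := h x y hx hy
  have hle := inf_centralizer_le x y
  have h2 : (Subgroup.centralizer ({x} : Set G) ⊓ Subgroup.centralizer ({y} : Set G)).index ≤
      (Subgroup.centralizer ({x * y} : Set G)).index := h1 ▸ Subgroup.index_inf_le
  have h3 := Subgroup.index_dvd_of_le hle
  have hpos : 0 < (Subgroup.centralizer ({x * y} : Set G)).index :=
    Nat.pos_of_ne_zero Subgroup.index_ne_zero_of_finite
  have hpos' : 0 < (Subgroup.centralizer ({x} : Set G) ⊓
      Subgroup.centralizer ({y} : Set G)).index :=
    Nat.pos_of_ne_zero Subgroup.index_ne_zero_of_finite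
  have h4 : (Subgroup.centralizer ({x} : Set G) ⊓ Subgroup.centralizer ({y} : Set G)).index =
      (Subgroup.centralizer ({x * y} : Set G)).index :=
    le_antisymm h2 (Nat.le_of_dvd hpos' h3)
  have h5 : Subgroup.centralizer ({x * y} : Set G) ≤
      Subgroup.centralizer ({x} : Set G) ⊓ Subgroup.centralizer ({y} : Set G) := by
    rw [← Subgroup.relIndex_eq_one]
    have := Subgroup.relIndex_mul_index hle
    rw [h4] at this
    exact Nat.eq_of_mul_eq_mul_right hpos (by rw [this, one_mul])
  have h6 : x * y ∈ Subgroup.centralizer ({x} : Set G) := by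
    refine (h5 ?_).1
    rw [Subgroup.mem_centralizer_iff]
    intro h hh
    rw [Set.mem_singleton_iff] at hh
    subst hh
    rfl
  have h7 := Subgroup.mem_centralizer_iff.mp h6 x rfl
  exact mul_left_cancel (by rw [h7, mul_assoc])

/-- Let p be a prime and G a finite group. Then some Sylow p-subgroup of G is a direct factor of G (normal with a normal complement) if and only if for every element x of p-power order and every element y whose order is a power of a prime other than p, the conjugacy class of x y has as many elements as the product of the sizes of the classes of x and of y. -/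
theorem result {G : Type*} [Group G] [Finite G] (p : ℕ) [Fact p.Prime] : (∃ (P : Sylow p G) (K : Subgroup G), (P : Subgroup G).Normal ∧ K.Normal ∧ (P : Subgroup G) ⊓ K = ⊥ ∧ (P : Subgroup G) ⊔ K = ⊤) ↔ ∀ x y : G, (∃ a : ℕ, orderOf x = p ^ a) → (∃ q b : ℕ, q.Prime ∧ q ≠ p ∧ orderOf y = q ^ b) → (Subgroup.centralizer ({x * y} : Set G)).index = (Subgroup.centralizer ({x} : Set G)).index * (Subgroup.centralizer ({y} : Set G)).index := by
  constructor
  · rintro ⟨P, K, hP, hK, hinf, hsup⟩ x y hx hy
    exact forward p P K hP hK hinf hsup x y hx hy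
  · exact backward p

end Cfsg.Agent.S3987
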