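import Cfsg.Statements.S3994
import Mathlib
import Cfsg.Agent.S3993

set_option autoImplicit false
open Cfsg

namespace Cfsg.Agent.S3994

/-- inclusion-exclusion by induction: the number of solutions of `g ^ d = 1` avoiding finitely
many sets `g ^ c i = 1` is divisible by `b`, as soon as `b ∣ d ∣ N` and `b ∣ c i ∣ N`. -/
theorem sieve {G : Type*} [Group G] [Fintype G] [DecidableEq G] (b : ℕ) (c : ℕ → ℕ)
    (J : Finset ℕ) (hc : ∀ i ∈ J, b ∣ c i) :
    ∀ d : ℕ, b ∣ d → d ∣ Nat.card G →
      b ∣ (Finset.univ.filter (fun g : G => g ^ d = 1 ∧ ∀ i ∈ J, g ^ c i ≠ 1)).card := by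
  classical
  induction J using Finset.induction_on with
  | empty =>
    intro d hbd hdN
    have h1 := Cfsg.Agent.S3993.result (G := G) d hdN
    have h2 : Nat.card {g : G // g ^ d = 1}
        = (Finset.univ.filter (fun g : G => g ^ d = 1 ∧ ∀ i ∈ (∅ : Finset ℕ), g ^ c i ≠ 1)).card := by
      rw [Nat.card_eq_fintype_card, Fintype.card_subtype]
      congr 1
      ext g
      simp
    rw [← h2]
    exact hbd.trans h1
  | insert i J hi ih =>
    intro d hbd hdN
    have hcJ : ∀ j ∈ J, b ∣ c j := fun j hj => hc j (Finset.mem_insert_of_mem hj)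
    have hci : b ∣ c i := hc i (Finset.mem_insert_self i J)
    have hA := ih hcJ d hbd hdN
    have hB := ih hcJ (Nat.gcd d (c i)) (Nat.dvd_gcd hbd hci)
      ((Nat.gcd_dvd_left d (c i)).trans hdN)
    have hsplit := Finset.card_filter_add_card_filter_not
      (s := Finset.univ.filter (fun g : G => g ^ d = 1 ∧ ∀ j ∈ J, g ^ c j ≠ 1))
      (fun g : G => g ^ c i = 1)
    have e1 : (Finset.univ.filter (fun g : G => g ^ d = 1 ∧ ∀ j ∈ J, g ^ c j ≠ 1)).filter
        (fun g : G => g ^ c i = 1)
        = Finset.univ.filter (fun g : G => g ^ (Nat.gcd d (c i)) = 1 ∧ ∀ j ∈ J, g ^ c j ≠ 1) := by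
      ext g
      simp only [Finset.mem_filter, Finset.mem_univ, true_and]
      rw [← orderOf_dvd_iff_pow_eq_one (n := Nat.gcd d (c i)), Nat.dvd_gcd_iff,
        orderOf_dvd_iff_pow_eq_one, orderOf_dvd_iff_pow_eq_one]
      tauto
    have e2 : (Finset.univ.filter (fun g : G => g ^ d = 1 ∧ ∀ j ∈ J, g ^ c j ≠ 1)).filter
        (fun g : G => ¬ g ^ c i = 1)
        = Finset.univ.filter (fun g : G => g ^ d = 1 ∧ ∀ j ∈ insert i J, g ^ c j ≠ 1) := by
      ext g
      simp only [Finset.mem_filter, Finset.mem_univ, true_and, Finset.mem_insert,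
        forall_eq_or_imp]
      tauto
    rw [e1, e2] at hsplit
    rw [← hsplit] at hA
    exact (Nat.dvd_add_right hB).mp hA

/-- the `n'`-part of `N` divides the `p'`-part of `N` for each prime `p ∣ n` -/
theorem b_dvd_ordCompl (N n p : ℕ) (hN : N ≠ 0) (hp : p.Prime) (hpn : p ∣ n) :
    N / Nat.gcd N (n ^ N) ∣ N / p ^ N.factorization p := by
  have h1 : p ^ N.factorization p ∣ Nat.gcd N (n ^ N) := by
    apply Nat.dvd_gcd (Nat.ordProj_dvd N p)
    exact (pow_dvd_pow p (Nat.factorization_lt p hN).le).trans (pow_dvd_pow_of_dvd hpn N)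
  obtain ⟨t, ht⟩ := h1
  have hg : Nat.gcd N (n ^ N) ∣ N := Nat.gcd_dvd_left _ _
  obtain ⟨b, hb⟩ := hg
  have hgpos : 0 < Nat.gcd N (n ^ N) := Nat.gcd_pos_of_pos_left _ (Nat.pos_of_ne_zero hN)
  have hppos : 0 < p ^ N.factorization p := pow_pos hp.pos _
  have e1 : N / Nat.gcd N (n ^ N) = b := Nat.div_eq_of_eq_mul_right hgpos hb
  have e2 : N / p ^ N.factorization p = t * b := by
    apply Nat.div_eq_of_eq_mul_right hppos
    calc N = Nat.gcd N (n ^ N) * b := hb
      _ = p ^ N.factorization p * t * b := by rw [← ht]
      _ = p ^ N.factorization p * (t * b) := by ring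
  rw [e1, e2]
  exact dvd_mul_left b t

/-- Let G be a finite group and n a positive integer. The number of elements of G whose order is divisible by n is either 0 or divisible by the largest divisor of the order of G that is coprime to n. -/
theorem result {G : Type*} [Group G] [Finite G] (n : ℕ) (hn : 0 < n) :
    Nat.card {g : G // n ∣ orderOf g} = 0 ∨
      (Nat.card G / Nat.gcd (Nat.card G) (n ^ Nat.card G)) ∣ Nat.card {g : G // n ∣ orderOf g} := by
  classical
  have := Fintype.ofFinite G
  have hN : Nat.card G ≠ 0 := Nat.card_pos.ne'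
  by_cases hnN : n ∣ Nat.card G
  · right
    set N := Nat.card G with hNdef
    set b := N / Nat.gcd N (n ^ N) with hbdef
    let c : ℕ → ℕ := fun p => (N / p ^ N.factorization p) * p ^ (n.factorization p - 1)
    have hbN : b ∣ N := Nat.div_dvd_of_dvd (Nat.gcd_dvd_left _ _)
    have hc : ∀ p ∈ n.primeFactors, b ∣ c p := by
      intro p hp
      exact (b_dvd_ordCompl N n p hN (Nat.prime_of_mem_primeFactors hp)
        (Nat.dvd_of_mem_primeFactors hp)).trans (dvd_mul_right _ _)
    have key := sieve (G := G) b c n.primeFactors hc N hbN dvd_rfl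
    have hcard : Nat.card {g : G // n ∣ orderOf g}
        = (Finset.univ.filter
            (fun g : G => g ^ N = 1 ∧ ∀ p ∈ n.primeFactors, g ^ c p ≠ 1)).card := by
      rw [Nat.card_eq_fintype_card, Fintype.card_subtype]
      congr 1
      ext g
      simp only [Finset.mem_filter, Finset.mem_univ, true_and]
      have hgN : g ^ N = 1 := pow_card_eq_one'
      have hoN : orderOf g ∣ N := orderOf_dvd_natCard g
      have ho0 : orderOf g ≠ 0 := (orderOf_pos g).ne'
      constructor
      · intro hng
        refine ⟨hgN, ?_⟩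
        intro p hp hgc
        have hpp := Nat.prime_of_mem_primeFactors hp
        have hpn := Nat.dvd_of_mem_primeFactors hp
        have h1 : orderOf g ∣ c p := orderOf_dvd_of_pow_eq_one hgc
        have h2 : n ∣ c p := hng.trans h1
        have hv : 0 < n.factorization p := hpp.factorization_pos_of_dvd hn.ne' hpn
        have h3 : p ^ n.factorization p ∣ c p := (Nat.ordProj_dvd n p).trans h2
        have h4 : p * p ^ (n.factorization p - 1) ∣ (N / p ^ N.factorization p) * p ^ (n.factorization p - 1) := by
          rw [← pow_succ']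
          have : n.factorization p - 1 + 1 = n.factorization p := by omega
          rw [this]
          exact h3
        have h5 := Nat.dvd_of_mul_dvd_mul_right (pow_pos hpp.pos _) h4
        exact Nat.not_dvd_ordCompl hpp hN h5
      · rintro ⟨-, hall⟩
        by_contra hng
        have h1 : ¬ n.factorization ≤ (orderOf g).factorization := by
          intro h
          exact hng ((Nat.factorization_le_iff_dvd hn.ne' ho0).1 h)
        rw [Finsupp.le_def] at h1
        simp only [not_forall, not_le] at h1
        obtain ⟨p, hp⟩ := h1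
        have hpmem : p ∈ n.primeFactors := by
          rw [← Nat.support_factorization, Finsupp.mem_support_iff]
          omega
        apply hall p hpmem
        apply orderOf_dvd_iff_pow_eq_one.1
        have h2 : orderOf g = p ^ (orderOf g).factorization p
            * (orderOf g / p ^ (orderOf g).factorization p) :=
          (Nat.ordProj_mul_ordCompl_eq_self (orderOf g) p).symm
        rw [h2]
        show _ ∣ (N / p ^ N.factorization p) * p ^ (n.factorization p - 1)
        rw [mul_comm]
        exact mul_dvd_mul (Nat.ordCompl_dvd_ordCompl_of_dvd hoN p)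
          (pow_dvd_pow p (by omega))
    rw [hcard]
    exact key
  · left
    have : IsEmpty {g : G // n ∣ orderOf g} := by
      constructor
      rintro ⟨g, hg⟩
      exact hnN (hg.trans (orderOf_dvd_natCard g))
    exact Nat.card_of_isEmpty

end Cfsg.Agent.S3994
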