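import Mathlib
import Cfsg.Statements.S3995
import Cfsg.Agent.Lib.Helper54.Quaternion

set_option autoImplicit false
open Cfsg

namespace Cfsg.Agent.S3995

open Subgroup

/-- number of elements of order `m`. -/
noncomputable def cnt (G : Type*) [Group G] (m : ℕ) : ℕ := Nat.card {g : G // orderOf g = m}

section general
variable {G : Type*} [Group G]

open scoped Classical in
/-- piecewise action of `zpowers z` on `G`: multiplication on the centralizer of `z`,
conjugation elsewhere. -/
noncomputable def act (z : G) (h : zpowers z) (g : G) : G :=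
  if Commute g z then g * h else h * g * (h : G)⁻¹

lemma commute_zp (z : G) (h : zpowers z) : Commute (h : G) z := by
  obtain ⟨k, hk⟩ := mem_zpowers_iff.1 h.2
  rw [← hk]
  exact (Commute.refl z).zpow_left k

lemma act_pos (z : G) (h : zpowers z) {g : G} (hc : Commute g z) : act z h g = g * h := by
  classical
  unfold act
  rw [if_pos hc]

lemma act_neg (z : G) (h : zpowers z) {g : G} (hc : ¬ Commute g z) :
    act z h g = h * g * (h : G)⁻¹ := by
  classical
  unfold act
  rw [if_neg hc]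

lemma act_commute_iff (z : G) (h : zpowers z) (g : G) :
    Commute (act z h g) z ↔ Commute g z := by
  by_cases hc : Commute g z
  · rw [act_pos z h hc]
    exact ⟨fun _ => hc, fun _ => hc.mul_left (commute_zp z h)⟩
  · rw [act_neg z h hc]
    constructor
    · intro h1
      exfalso; apply hc
      have h2 : Commute ((h : G)⁻¹ * ((h : G) * g * (h : G)⁻¹) * (h : G)) z :=
        (((commute_zp z h).inv_left).mul_left h1).mul_left (commute_zp z h)
      simpa [mul_assoc] using h2
    · intro h1; exact absurd h1 hc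

lemma act_one (z : G) (g : G) : act z 1 g = g := by
  by_cases hc : Commute g z
  · rw [act_pos z 1 hc]; simp
  · rw [act_neg z 1 hc]; simp

lemma act_mul (z : G) (h1 h2 : zpowers z) (g : G) :
    act z (h1 * h2) g = act z h1 (act z h2 g) := by
  by_cases hc : Commute g z
  · have hc2 : Commute (act z h2 g) z := (act_commute_iff z h2 g).2 hc
    rw [act_pos z h1 hc2, act_pos z h2 hc, act_pos z (h1 * h2) hc]
    have hcomm : Commute (h1 : G) (h2 : G) := by
      obtain ⟨k, hk⟩ := mem_zpowers_iff.1 h2.2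
      rw [← hk]
      exact (commute_zp z h1).zpow_right k
    rw [Subgroup.coe_mul, hcomm.eq, mul_assoc]
  · have hc2 : ¬ Commute (act z h2 g) z := fun h => hc ((act_commute_iff z h2 g).1 h)
    rw [act_neg z h1 hc2, act_neg z h2 hc, act_neg z (h1 * h2) hc]
    rw [Subgroup.coe_mul, mul_inv_rev]
    simp only [mul_assoc]

/-- the action on the `d`-th roots of unity. -/
noncomputable def actT (z : G) (d : ℕ) (hz : z ^ d = 1) :
    MulAction (zpowers z) {g : G // g ^ d = 1} where
  smul h g := ⟨act z h g.1, by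
    have hh : (h : G) ^ d = 1 := by
      obtain ⟨k, hk⟩ := mem_zpowers_iff.1 h.2
      rw [← hk, ← zpow_natCast, ← zpow_mul, mul_comm, zpow_mul, zpow_natCast, hz, one_zpow]
    by_cases hc : Commute g.1 z
    · rw [act_pos z h hc]
      have hgh : Commute g.1 (h : G) := by
        obtain ⟨k, hk⟩ := mem_zpowers_iff.1 h.2
        rw [← hk]; exact hc.zpow_right k
      rw [hgh.mul_pow, g.2, hh, one_mul]
    · rw [act_neg z h hc, conj_pow, g.2, mul_one, mul_inv_cancel]⟩
  one_smul g := Subtype.ext (act_one z g.1)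
  mul_smul h1 h2 g := Subtype.ext (act_mul z h1 h2 g.1)

/-- mod-`p` Frobenius: if `p ∣ |G|` and `p ∣ d` then `p` divides the number of solutions of
`x ^ d = 1`. -/
lemma prime_dvd_card_root [Finite G] (p d : ℕ) [hp : Fact p.Prime] (hpG : p ∣ Nat.card G)
    (hpd : p ∣ d) : p ∣ Nat.card {g : G // g ^ d = 1} := by
  obtain ⟨z, hz⟩ := exists_prime_orderOf_dvd_card' p hpG
  have hzd : z ^ d = 1 := by
    obtain ⟨k, rfl⟩ := hpd
    rw [pow_mul, ← hz, pow_orderOf_eq_one, one_pow]
  letI := actT z d hzd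
  have hPG : IsPGroup p (zpowers z) :=
    IsPGroup.of_card (n := 1) (by rw [Nat.card_zpowers, hz, pow_one])
  have hmod := hPG.card_modEq_card_fixedPoints {g : G // g ^ d = 1}
  have hfix : MulAction.fixedPoints (zpowers z) {g : G // g ^ d = 1} = ∅ := by
    ext g
    simp only [MulAction.mem_fixedPoints, Set.mem_empty_iff_false, iff_false]
    intro hfix
    have h1 := hfix ⟨z, mem_zpowers z⟩
    have h2 : act z ⟨z, mem_zpowers z⟩ g.1 = g.1 := congrArg Subtype.val h1
    have hz1 : z ≠ 1 := by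
      intro h; rw [h, orderOf_one] at hz; exact hp.out.one_lt.ne hz
    by_cases hc : Commute g.1 z
    · rw [act_pos z _ hc] at h2
      exact hz1 (by simpa using h2)
    · rw [act_neg z _ hc] at h2
      apply hc
      show g.1 * z = z * g.1
      have h3 := congrArg (· * z) h2
      simp at h3
      exact h3.symm
  rw [hfix] at hmod
  have h0 : Nat.card (∅ : Set {g : G // g ^ d = 1}) = 0 := by simp
  rw [h0] at hmod
  exact (Nat.modEq_zero_iff_dvd).1 hmod

lemma natCard_subtype [Fintype G] (P : G → Prop) [DecidablePred P] :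
    Nat.card {g : G // P g} = (Finset.univ.filter P).card := by
  rw [Nat.card_eq_fintype_card, Fintype.card_subtype]

/-- the number of solutions of `x ^ d = 1` as a sum over the divisors of `d`. -/
lemma card_root_eq_sum [Finite G] (d : ℕ) (l : List ℕ) (hnd : l.Nodup) (hS1 : ∀ m ∈ l, m ∣ d)
    (hS2 : ∀ m, m ∣ d → m ∈ l) :
    Nat.card {g : G // g ^ d = 1} = (l.map (cnt G)).sum := by
  classical
  haveI := Fintype.ofFinite G
  rw [natCard_subtype, ← List.sum_toFinset _ hnd,
    Finset.card_eq_sum_card_fiberwise (f := orderOf) (t := l.toFinset)]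
  · apply Finset.sum_congr rfl
    intro m hm
    have hm' : m ∣ d := hS1 m (List.mem_toFinset.1 hm)
    unfold cnt
    rw [natCard_subtype]
    congr 1
    ext g
    simp only [Finset.mem_filter, Finset.mem_univ, true_and]
    constructor
    · exact fun h => h.2
    · intro h; exact ⟨orderOf_dvd_iff_pow_eq_one.1 (h ▸ hm'), h⟩
  · intro g hg
    have hg' : g ^ d = 1 := by simpa using hg
    exact Finset.mem_coe.2 (List.mem_toFinset.2 (hS2 _ (orderOf_dvd_iff_pow_eq_one.2 hg')))

/-- a lifted version: modulo a central subgroup of order `p`. -/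
lemma sq_dvd_card_root [Finite G] (p d : ℕ) [hp : Fact p.Prime] (z : G) (hz : orderOf z = p)
    (hzc : ∀ g : G, g * z = z * g) (hp2 : p ^ 2 ∣ Nat.card G) (hpd : p ∣ d) :
    p ^ 2 ∣ Nat.card {g : G // g ^ d ∈ zpowers z} := by
  haveI hN : (zpowers z).Normal := by
    constructor
    intro n hn g
    have : g * n * g⁻¹ = n := by
      obtain ⟨k, rfl⟩ := mem_zpowers_iff.1 hn
      have hc : Commute g (z ^ k) := (show Commute g z from hzc g).zpow_right k
      rw [hc.eq, mul_inv_cancel_right]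
    rw [this]; exact hn
  have hcardN : Nat.card (zpowers z) = p := by rw [Nat.card_zpowers, hz]
  have hQ : p ∣ Nat.card (G ⧸ zpowers z) := by
    have h1 := Subgroup.card_eq_card_quotient_mul_card_subgroup (zpowers z)
    rw [hcardN] at h1
    rw [h1, pow_two] at hp2
    exact (Nat.mul_dvd_mul_iff_right hp.out.pos).1 hp2
  have h2 := prime_dvd_card_root (G := G ⧸ zpowers z) p d hQ hpd
  have h3 := QuotientGroup.card_preimage_mk (zpowers z) {y : G ⧸ zpowers z | y ^ d = 1}
  have h4 : Nat.card {g : G // g ^ d ∈ zpowers z} =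
      Nat.card ((QuotientGroup.mk : G → G ⧸ zpowers z) ⁻¹' {y : G ⧸ zpowers z | y ^ d = 1}) := by
    apply Nat.card_congr
    apply Equiv.subtypeEquivRight
    intro g
    simp only [Set.mem_preimage, Set.mem_setOf_eq]
    rw [← QuotientGroup.mk_pow, QuotientGroup.eq_one_iff]
  rw [h4, h3, hcardN, pow_two]
  exact Nat.mul_dvd_mul_left p h2

lemma cnt_one [Finite G] : cnt G 1 = 1 := by
  unfold cnt
  rw [Nat.card_eq_one_iff_unique]
  refine ⟨⟨fun a b => Subtype.ext ?_⟩, ⟨⟨1, orderOf_one⟩⟩⟩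
  rw [orderOf_eq_one_iff.1 a.2, orderOf_eq_one_iff.1 b.2]

lemma cnt_pos [Finite G] {m : ℕ} (g : G) (hg : orderOf g = m) : 0 < cnt G m := by
  unfold cnt
  haveI : Nonempty {g : G // orderOf g = m} := ⟨⟨g, hg⟩⟩
  exact Nat.card_pos

lemma cnt_eq_zero [Finite G] {m : ℕ} (h : ∀ g : G, orderOf g ≠ m) : cnt G m = 0 := by
  unfold cnt
  haveI : IsEmpty {g : G // orderOf g = m} := ⟨fun g => h g.1 g.2⟩
  exact Nat.card_of_isEmpty

lemma cnt_ne_one [Finite G] {m : ℕ} (hm : 3 ≤ m) (g : G) (hg : orderOf g = m) :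
    cnt G m ≠ 1 := by
  intro h1
  unfold cnt at h1
  rw [Nat.card_eq_one_iff_unique] at h1
  have h2 : (⟨g, hg⟩ : {g : G // orderOf g = m}) = ⟨g⁻¹, by rw [orderOf_inv, hg]⟩ :=
    h1.1.elim _ _
  have h3 : g = g⁻¹ := congrArg Subtype.val h2
  have h4 : g ^ 2 = 1 := by
    rw [pow_two]; nth_rewrite 2 [h3]; exact mul_inv_cancel g
  have h5 := orderOf_dvd_of_pow_eq_one h4
  have h6 := Nat.le_of_dvd (by norm_num) h5
  omega

end general

section main
variable {G : Type*} [Group G] [Finite G] {n : ℕ}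

lemma nodup3 {a b c : ℕ} (h1 : a ≠ b) (h2 : a ≠ c) (h3 : b ≠ c) : [a, b, c].Nodup := by
  simp [h1, h2, h3]

lemma nodup4 {a b c d : ℕ} (h1 : a ≠ b) (h2 : a ≠ c) (h3 : a ≠ d) (h4 : b ≠ c) (h5 : b ≠ d)
    (h6 : c ≠ d) : [a, b, c, d].Nodup := by
  simp [h1, h2, h3, h4, h5, h6]

lemma dvd_mul_primes {p q m : ℕ} (hp : p.Prime) (hq : q.Prime) (h : m ∣ p * q) :
    m ∈ [1, p, q, p * q] := by
  obtain ⟨a, b, ha, hb, rfl⟩ := Nat.dvd_mul.1 h
  rcases (Nat.dvd_prime hp).1 ha with rfl | rfl <;>
    rcases (Nat.dvd_prime hq).1 hb with rfl | rfl <;> simp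

lemma dvd_four_mul {p m : ℕ} (hp : p.Prime) (h : m ∣ 4 * p) :
    m ∈ [1, 2, 4, p, 2 * p, 4 * p] := by
  obtain ⟨a, b, ha, hb, rfl⟩ := Nat.dvd_mul.1 h
  have ha4 : a ≤ 4 := Nat.le_of_dvd (by norm_num) ha
  rcases (Nat.dvd_prime hp).1 hb with rfl | rfl
  · interval_cases a <;> first | (exfalso; omega) | simp
  · interval_cases a <;> first | (exfalso; omega) | simp

lemma cnt_of_exists (hA : ∀ g : G, cnt G (orderOf g) = 1 ∨ cnt G (orderOf g) = n) {m : ℕ}
    (hm : 3 ≤ m) (g : G) (hg : orderOf g = m) : cnt G m = n := by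
  rcases hA g with h1 | h1
  · rw [hg] at h1; exact absurd h1 (cnt_ne_one hm g hg)
  · rw [hg] at h1; exact h1

lemma cnt_cases (hA : ∀ g : G, cnt G (orderOf g) = 1 ∨ cnt G (orderOf g) = n) {m : ℕ}
    (hm : 3 ≤ m) : cnt G m = 0 ∨ cnt G m = n := by
  by_cases h : ∃ g : G, orderOf g = m
  · obtain ⟨g, hg⟩ := h
    exact Or.inr (cnt_of_exists hA hm g hg)
  · push Not at h; exact Or.inl (cnt_eq_zero h)

lemma dvd_one_add_cnt (p : ℕ) [hp : Fact p.Prime] (hpG : p ∣ Nat.card G) :
    p ∣ 1 + cnt G p := by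
  have h1 := prime_dvd_card_root (G := G) p p hpG dvd_rfl
  have h2 := card_root_eq_sum (G := G) p [1, p]
    (by simpa using hp.out.one_lt.ne)
    (by
      intro m hm
      simp at hm
      rcases hm with rfl | rfl
      · exact one_dvd _
      · exact dvd_rfl)
    (by
      intro m hm
      rcases (Nat.dvd_prime hp.out).1 hm with h | h <;> simp [h])
  rw [h2] at h1
  simpa [cnt_one] using h1

lemma cnt_sq_eq_zero (hA : ∀ g : G, cnt G (orderOf g) = 1 ∨ cnt G (orderOf g) = n) (p : ℕ)
    [hp : Fact p.Prime] (hpG : p ∣ Nat.card G) (hpn : cnt G p = n) : cnt G (p ^ 2) = 0 := by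
  have hp2 := hp.out.two_le
  have hlt : p < p ^ 2 := by nlinarith
  have h1 := prime_dvd_card_root (G := G) p (p ^ 2) hpG (dvd_pow_self p two_ne_zero)
  have h2 := card_root_eq_sum (G := G) (p ^ 2) [1, p, p ^ 2]
    (nodup3 (by omega) (by omega) (by omega))
    (by
      intro m hm
      simp at hm
      rcases hm with rfl | rfl | rfl
      · exact one_dvd _
      · exact dvd_pow_self m two_ne_zero
      · exact dvd_rfl)
    (by
      intro m hm
      obtain ⟨k, hk, rfl⟩ := (Nat.dvd_prime_pow hp.out).1 hm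
      interval_cases k <;> simp)
  rw [h2] at h1
  simp only [List.map_cons, List.map_nil, List.sum_cons, List.sum_nil, add_zero, cnt_one] at h1
  have h3 := dvd_one_add_cnt (G := G) p hpG
  have h4 : p ∣ cnt G (p ^ 2) := by
    rw [← add_assoc] at h1
    exact (Nat.dvd_add_right h3).1 h1
  rcases cnt_cases hA (m := p ^ 2) (by omega) with h5 | h5
  · exact h5
  · exfalso
    rw [h5] at h4; rw [hpn] at h3
    have h6 : p ∣ (1 + n) - n := Nat.dvd_sub h3 h4
    rw [Nat.add_sub_cancel] at h6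
    have := Nat.dvd_one.1 h6
    omega

lemma two_primes_false (hA : ∀ g : G, cnt G (orderOf g) = 1 ∨ cnt G (orderOf g) = n) (p q : ℕ)
    [hp : Fact p.Prime] [hq : Fact q.Prime] (hpq : p ≠ q) (hqG : q ∣ Nat.card G)
    (hpn : cnt G p = n) (hqn : cnt G q = n) (hq2 : q ≠ 2) : False := by
  have hp2 := hp.out.two_le
  have hq2' := hq.out.two_le
  have hlt1 : p < p * q := by nlinarith
  have hlt2 : q < p * q := by nlinarith
  have h1 := prime_dvd_card_root (G := G) q (p * q) hqG (dvd_mul_left q p)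
  have h2 := card_root_eq_sum (G := G) (p * q) [1, p, q, p * q]
    (nodup4 (by omega) (by omega) (by omega) (by omega) (by omega) (by omega))
    (by
      intro m hm
      simp at hm
      rcases hm with rfl | rfl | rfl | rfl
      · exact one_dvd _
      · exact dvd_mul_right _ _
      · exact dvd_mul_left _ _
      · exact dvd_rfl)
    (fun m hm => dvd_mul_primes hp.out hq.out hm)
  rw [h2] at h1
  simp only [List.map_cons, List.map_nil, List.sum_cons, List.sum_nil, add_zero, cnt_one, hpn,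
    hqn] at h1
  have h3 := dvd_one_add_cnt (G := G) q hqG
  rw [hqn] at h3
  rcases cnt_cases hA (m := p * q) (by nlinarith) with h5 | h5
  · rw [h5] at h1
    have h6 : q ∣ 2 * (1 + n) - (1 + (n + (n + 0))) := Nat.dvd_sub (Dvd.dvd.mul_left h3 2) h1
    have h7 : 2 * (1 + n) - (1 + (n + (n + 0))) = 1 := by omega
    rw [h7] at h6
    have := Nat.dvd_one.1 h6
    omega
  · rw [h5] at h1
    have h6 : q ∣ 3 * (1 + n) - (1 + (n + (n + n))) := Nat.dvd_sub (Dvd.dvd.mul_left h3 3) h1
    have h7 : 3 * (1 + n) - (1 + (n + (n + n))) = 2 := by omega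
    rw [h7] at h6
    exact hq2 ((Nat.prime_dvd_prime_iff_eq hq.out Nat.prime_two).1 h6)

lemma order_eq_prime {p : ℕ} (hp : p.Prime) (hno : cnt G (p ^ 2) = 0) (g : G) (j : ℕ)
    (hj : orderOf g = p ^ j) (hg1 : g ≠ 1) : orderOf g = p := by
  rcases Nat.lt_or_ge j 2 with hj2 | hj2
  · interval_cases j
    · rw [pow_zero, orderOf_eq_one_iff] at hj; exact absurd hj hg1
    · rw [hj, pow_one]
  · exfalso
    have h1 : orderOf (g ^ (p ^ (j - 2))) = p ^ 2 := by
      rw [orderOf_pow_of_dvd (pow_ne_zero _ hp.ne_zero)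
        (by rw [hj]; exact pow_dvd_pow p (by omega)), hj, Nat.pow_div (by omega) hp.pos]
      congr 1; omega
    have := cnt_pos _ h1
    omega

lemma unique_of_cnt_one {m : ℕ} (h : cnt G m = 1) {z : G} (hz : orderOf z = m) (x : G)
    (hx : orderOf x = m) : x = z := by
  unfold cnt at h
  rw [Nat.card_eq_one_iff_unique] at h
  exact congrArg Subtype.val (h.1.elim ⟨x, hx⟩ ⟨z, hz⟩)

lemma central_of_unique {z : G} (hz : orderOf z = 2) (huniq : ∀ x : G, orderOf x = 2 → x = z)
    (g : G) : g * z = z * g := by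
  have h1 : orderOf (g * z * g⁻¹) = 2 := by
    apply orderOf_eq_prime
    · rw [conj_pow, ← hz, pow_orderOf_eq_one, mul_one, mul_inv_cancel]
    · intro h
      have h' : z = 1 := by
        have := congrArg (fun t => g⁻¹ * t * g) h
        simpa [mul_assoc] using this
      rw [h', orderOf_one] at hz; norm_num at hz
  have h2 := huniq _ h1
  calc g * z = g * z * g⁻¹ * g := by group
    _ = z * g := by rw [h2]

/-- Case I: `G` is a `p`-group of exponent `p`. -/
lemma caseI (hA : ∀ g : G, cnt G (orderOf g) = 1 ∨ cnt G (orderOf g) = n) (p : ℕ)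
    [hp : Fact p.Prime] (hpG : p ∣ Nat.card G) (hpn : cnt G p = n) (hn : n ≠ 1)
    (hall : ∀ q : ℕ, q.Prime → q ∣ Nat.card G → q = p) :
    IsPGroup p G ∧ 3 ≤ Nat.card G ∧ Monoid.exponent G = p := by
  have hcard : Nat.card G = p ^ (Nat.card G).primeFactorsList.length :=
    Nat.eq_prime_pow_of_unique_prime_dvd Nat.card_pos.ne' (fun {d} hd hdvd => hall d hd hdvd)
  have hPG : IsPGroup p G := IsPGroup.of_card hcard
  have hno := cnt_sq_eq_zero hA p hpG hpn
  obtain ⟨x, hx⟩ := exists_prime_orderOf_dvd_card' p hpG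
  refine ⟨hPG, ?_, ?_⟩
  · have h1 : cnt G p < Nat.card G :=
      Finite.card_subtype_lt (x := (1 : G)) (by rw [orderOf_one]; exact hp.out.one_lt.ne)
    have h2 : 0 < cnt G p := cnt_pos x hx
    rw [hpn] at h1 h2; omega
  · haveI : Nontrivial G :=
      ⟨⟨x, 1, fun h => by rw [h, orderOf_one] at hx; exact hp.out.one_lt.ne hx⟩⟩
    refine (Monoid.exponent_eq_prime_iff hp.out).2 (fun g hg => ?_)
    obtain ⟨k, hk⟩ := hPG g
    obtain ⟨j, -, hj⟩ := (Nat.dvd_prime_pow hp.out).1 (orderOf_dvd_of_pow_eq_one hk)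
    exact order_eq_prime hp.out hno g j hj hg

/-- Case III, first step: the order is not divisible by `4`. -/
lemma caseIII_no4 (hA : ∀ g : G, cnt G (orderOf g) = 1 ∨ cnt G (orderOf g) = n) (p : ℕ)
    [hp : Fact p.Prime] (hp2 : p ≠ 2) (hpG : p ∣ Nat.card G) (hpn : cnt G p = n)
    (hc2 : cnt G 2 = 1) (z : G) (hz : orderOf z = 2)
    (huniq : ∀ x : G, orderOf x = 2 → x = z) (hzc : ∀ g : G, g * z = z * g) :
    ¬ 4 ∣ Nat.card G := by
  intro h4
  have hp3 : 3 ≤ p := by have := hp.out.two_le; omega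
  have hp4 : p ≠ 4 := by
    rintro rfl
    exact absurd hp.out (by norm_num)
  have hex4 : ∃ g : G, orderOf g = 4 := by
    by_contra hno
    push Not at hno
    obtain ⟨K, hK⟩ := Sylow.exists_subgroup_card_pow_prime 2 (n := 2) (G := G)
      (by norm_num; exact h4)
    have hsub : (K : Set G) ⊆ {1, z} := by
      intro k hk
      have h1 : orderOf k ∣ 4 := by
        have h0 := orderOf_dvd_natCard (⟨k, hk⟩ : K)
        rw [hK, ← Subgroup.orderOf_coe] at h0
        exact h0
      have h2 : orderOf k ≤ 4 := Nat.le_of_dvd (by norm_num) h1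
      have h3 : orderOf k ≠ 4 := hno k
      have h5 : orderOf k = 1 ∨ orderOf k = 2 := by
        obtain ⟨o, ho⟩ : ∃ o, o = orderOf k := ⟨_, rfl⟩
        rw [← ho] at h1 h2 h3 ⊢
        interval_cases o <;> omega
      rcases h5 with h5 | h5
      · left; exact orderOf_eq_one_iff.1 h5
      · right; exact huniq k h5
    have hle : Nat.card K ≤ 2 := by
      have e1 : Nat.card K = (K : Set G).ncard := (Nat.card_coe_set_eq (K : Set G)).symm
      rw [e1]
      refine (Set.ncard_le_ncard hsub (Set.toFinite _)).trans ?_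
      refine (Set.ncard_insert_le _ _).trans ?_
      rw [Set.ncard_singleton]
    rw [hK] at hle
    norm_num at hle
  obtain ⟨g4, hg4⟩ := hex4
  have hc4 : cnt G 4 = n := cnt_of_exists hA (by norm_num) g4 hg4
  obtain ⟨y, hy⟩ := exists_prime_orderOf_dvd_card' p hpG
  have hzy : orderOf (z * y) = 2 * p := by
    have hc : Commute z y := (hzc y).symm
    rw [hc.orderOf_mul_eq_mul_orderOf_of_coprime
      (by rw [hz, hy]; exact (Nat.coprime_primes Nat.prime_two hp.out).2 (Ne.symm hp2)), hz, hy]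
  have hc2p : cnt G (2 * p) = n := cnt_of_exists hA (by omega) (z * y) hzy
  have h1 := prime_dvd_card_root (G := G) p (4 * p) hpG (dvd_mul_left p 4)
  have h2 := card_root_eq_sum (G := G) (4 * p) [1, 2, 4, p, 2 * p, 4 * p]
    (by simp; omega)
    (by
      intro m hm
      simp at hm
      rcases hm with rfl | rfl | rfl | rfl | rfl | rfl
      · exact one_dvd _
      · exact Dvd.dvd.mul_right (by norm_num) p
      · exact dvd_mul_right 4 p
      · exact dvd_mul_left _ 4
      · exact Nat.mul_dvd_mul_right (by norm_num) p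
      · exact dvd_rfl)
    (fun m hm => dvd_four_mul hp.out hm)
  rw [h2] at h1
  simp only [List.map_cons, List.map_nil, List.sum_cons, List.sum_nil, add_zero, cnt_one, hpn,
    hc2, hc4, hc2p] at h1
  have h3 := dvd_one_add_cnt (G := G) p hpG
  rw [hpn] at h3
  rcases cnt_cases hA (m := 4 * p) (by omega) with h5 | h5
  · rw [h5] at h1
    have h6 : p ∣ 3 * (1 + n) - (1 + (1 + (n + (n + (n + 0))))) :=
      Nat.dvd_sub (Dvd.dvd.mul_left h3 3) h1
    have h7 : 3 * (1 + n) - (1 + (1 + (n + (n + (n + 0))))) = 1 := by omega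
    rw [h7] at h6
    have := Nat.dvd_one.1 h6
    omega
  · rw [h5] at h1
    have h6 : p ∣ 4 * (1 + n) - (1 + (1 + (n + (n + (n + n))))) :=
      Nat.dvd_sub (Dvd.dvd.mul_left h3 4) h1
    have h7 : 4 * (1 + n) - (1 + (1 + (n + (n + (n + n))))) = 2 := by omega
    rw [h7] at h6
    have := Nat.le_of_dvd (by norm_num) h6
    omega

/-- Case III: `G ≅ Z₂ × P`. -/
lemma caseIII (hA : ∀ g : G, cnt G (orderOf g) = 1 ∨ cnt G (orderOf g) = n) (p : ℕ)
    [hp : Fact p.Prime] (hp2 : p ≠ 2) (hpG : p ∣ Nat.card G) (hpn : cnt G p = n)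
    (h2G : 2 ∣ Nat.card G) (hc2 : cnt G 2 = 1)
    (hall : ∀ q : ℕ, q.Prime → q ∣ Nat.card G → q = 2 ∨ q = p) :
    ∃ (P : Type) (_ : Group P) (_ : Finite P), IsPGroup p P ∧ Monoid.exponent P = p ∧
      Nonempty (G ≃* Multiplicative (ZMod 2) × P) := by
  obtain ⟨z, hz⟩ := exists_prime_orderOf_dvd_card' 2 h2G
  have huniq : ∀ x : G, orderOf x = 2 → x = z := fun x hx => unique_of_cnt_one hc2 hz x hx
  have hzc : ∀ g : G, g * z = z * g := central_of_unique hz huniq
  have hno4 := caseIII_no4 hA p hp2 hpG hpn hc2 z hz huniq hzc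
  have hno := cnt_sq_eq_zero hA p hpG hpn
  obtain ⟨P⟩ : Nonempty (Sylow p G) := inferInstance
  have hidx_ndvd : ¬ p ∣ (P : Subgroup G).index := P.not_dvd_index
  have hidx_dvd : (P : Subgroup G).index ∣ Nat.card G := Subgroup.index_dvd_card _
  have hidx_ne : (P : Subgroup G).index ≠ 0 := Subgroup.index_ne_zero_of_finite
  have hpr : ∀ {d : ℕ}, d.Prime → d ∣ (P : Subgroup G).index → d = 2 := by
    intro d hd hdd
    rcases hall d hd (hdd.trans hidx_dvd) with h | h
    · exact h
    · exfalso; exact hidx_ndvd (h ▸ hdd)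
  obtain ⟨k, hk⟩ : ∃ k, (P : Subgroup G).index = 2 ^ k :=
    ⟨_, Nat.eq_prime_pow_of_unique_prime_dvd hidx_ne hpr⟩
  obtain ⟨m, hm⟩ := IsPGroup.iff_card.1 P.isPGroup'
  have hidx : (P : Subgroup G).index = 2 := by
    rcases Nat.lt_or_ge k 2 with hlt | hge
    · interval_cases k
      · exfalso
        have hcardP : Nat.card (P : Subgroup G) = Nat.card G := by
          have h0 := Subgroup.card_mul_index (P : Subgroup G)
          rw [hk, pow_zero, mul_one] at h0; exact h0
        rw [← hcardP, hm] at h2G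
        exact hp2 ((Nat.prime_dvd_prime_iff_eq Nat.prime_two hp.out).1
          (Nat.Prime.dvd_of_dvd_pow Nat.prime_two h2G)).symm
      · rw [hk, pow_one]
    · exfalso
      apply hno4
      have h0 : 2 ^ 2 ∣ 2 ^ k := pow_dvd_pow 2 hge
      rw [← hk] at h0
      exact h0.trans hidx_dvd
  have hcardZ : Nat.card (zpowers z) = 2 := by rw [Nat.card_zpowers, hz]
  have hcop : Nat.Coprime (Nat.card (zpowers z)) (Nat.card (P : Subgroup G)) := by
    rw [hcardZ, hm]
    exact Nat.Coprime.pow_right m ((Nat.coprime_primes Nat.prime_two hp.out).2 (Ne.symm hp2))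
  have hdisj : zpowers z ⊓ (P : Subgroup G) = ⊥ :=
    disjoint_iff.1 (Subgroup.disjoint_of_coprime_natCard hcop)
  let φ : zpowers z × (P : Subgroup G) →* G :=
    MonoidHom.noncommCoprod (zpowers z).subtype (P : Subgroup G).subtype (by
      intro a b
      obtain ⟨k, hk⟩ := mem_zpowers_iff.1 a.2
      show Commute (a : G) (b : G)
      rw [← hk]
      exact (show Commute z (b : G) from (hzc b).symm).zpow_left k)
  have hφ : ∀ a b, φ (a, b) = (a : G) * (b : G) := fun a b => rfl
  have hinj : Function.Injective φ := by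
    rw [injective_iff_map_eq_one]
    rintro ⟨a, b⟩ hab
    rw [hφ] at hab
    have ha : (a : G) ∈ zpowers z ⊓ (P : Subgroup G) := by
      refine Subgroup.mem_inf.2 ⟨a.2, ?_⟩
      have h0 : (a : G) = (b : G)⁻¹ := eq_inv_of_mul_eq_one_left hab
      rw [h0]; exact inv_mem b.2
    rw [hdisj, Subgroup.mem_bot] at ha
    have hb : (b : G) = 1 := by rw [ha, one_mul] at hab; exact hab
    exact Prod.ext (Subtype.ext ha) (Subtype.ext hb)
  have hcard : Nat.card (zpowers z × (P : Subgroup G)) = Nat.card G := by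
    rw [Nat.card_prod, hcardZ, ← Subgroup.card_mul_index (P : Subgroup G), hidx, mul_comm]
  have hbij : Function.Bijective φ := (Nat.bijective_iff_injective_and_card φ).2 ⟨hinj, hcard⟩
  let e1 : zpowers z × (P : Subgroup G) ≃* G := MulEquiv.ofBijective φ hbij
  obtain ⟨P', instG, instF, ⟨eP⟩⟩ :=
    Finite.exists_type_univ_nonempty_mulEquiv.{_, 0} (P : Subgroup G)
  have hcardP' : Nat.card P' = p ^ m := by rw [← hm]; exact (Nat.card_congr eP.toEquiv).symm
  have hm0 : m ≠ 0 := by
    rintro rfl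
    rw [pow_zero] at hm
    have h0 := Subgroup.card_mul_index (P : Subgroup G)
    rw [hm, hidx, one_mul] at h0
    rw [← h0] at hpG
    have := Nat.le_of_dvd (by norm_num) hpG
    have := hp.out.two_le
    omega
  refine ⟨P', instG, Finite.of_fintype P', ?_, ?_, ⟨?_⟩⟩
  · exact IsPGroup.of_card hcardP'
  · haveI : Nontrivial P' := by
      rw [← Finite.one_lt_card_iff_nontrivial, hcardP']
      exact Nat.one_lt_pow hm0 hp.out.one_lt
    refine (Monoid.exponent_eq_prime_iff hp.out).2 (fun g hg => ?_)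
    have h1 : orderOf g = orderOf ((eP.symm g : (P : Subgroup G)) : G) := by
      rw [Subgroup.orderOf_coe, MulEquiv.orderOf_eq]
    rw [h1]
    have hne : ((eP.symm g : (P : Subgroup G)) : G) ≠ 1 := by
      intro h; apply hg
      have h0 : eP.symm g = 1 := Subtype.ext h
      exact eP.symm.injective (by rw [h0, map_one])
    obtain ⟨k, hk⟩ := P.isPGroup' (eP.symm g)
    have hk' : ((eP.symm g : (P : Subgroup G)) : G) ^ p ^ k = 1 := by
      have h0 := congrArg Subtype.val hk
      simpa using h0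
    obtain ⟨j, -, hj⟩ := (Nat.dvd_prime_pow hp.out).1 (orderOf_dvd_of_pow_eq_one hk')
    exact order_eq_prime hp.out hno _ j hj hne
  · have eZ : zpowers z ≃* Multiplicative (ZMod 2) :=
      mulEquivOfPrimeCardEq (p := 2) hcardZ
        ((Nat.card_congr (Multiplicative.toAdd (α := ZMod 2))).trans (Nat.card_zmod 2))
    exact e1.symm.trans (MulEquiv.prodCongr eZ eP)

lemma card_mem_zpowers_eq {z : G} (hz : orderOf z = 2)
    (huniq : ∀ x : G, orderOf x = 2 → x = z) (d : ℕ) :
    Nat.card {g : G // g ^ d ∈ zpowers z} = Nat.card {g : G // g ^ (d * 2) = 1} := by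
  apply Nat.card_congr
  apply Equiv.subtypeEquivRight
  intro g
  constructor
  · intro h
    obtain ⟨k, hk⟩ := mem_zpowers_iff.1 h
    rw [pow_mul, ← hk, ← zpow_natCast, ← zpow_mul, mul_comm, zpow_mul, zpow_natCast, ← hz,
      pow_orderOf_eq_one, one_zpow]
  · intro h
    by_cases h1 : g ^ d = 1
    · rw [h1]; exact one_mem _
    · have h2 : g ^ d = z := huniq _ (orderOf_eq_prime (by rw [← pow_mul]; exact h) h1)
      rw [h2]; exact mem_zpowers z

/-- Case II: `G` is a `2`-group with a unique involution. -/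
lemma caseII (hA : ∀ g : G, cnt G (orderOf g) = 1 ∨ cnt G (orderOf g) = n)
    (hB : ∃ g : G, cnt G (orderOf g) = n) (hn : n ≠ 1)
    (hall2 : ∀ q : ℕ, q.Prime → q ∣ Nat.card G → q = 2 ∧ cnt G 2 = 1) :
    Nonempty (G ≃* QuaternionGroup 2) ∨ (IsCyclic G ∧ Nat.card G = 4) := by
  obtain ⟨a, ha⟩ : ∃ a, Nat.card G = 2 ^ a :=
    ⟨_, Nat.eq_prime_pow_of_unique_prime_dvd Nat.card_pos.ne'
      (fun {d} hd hdd => (hall2 d hd hdd).1)⟩
  obtain ⟨g0, hg0⟩ := hB
  obtain ⟨j, -, hj⟩ := (Nat.dvd_prime_pow Nat.prime_two).1 (ha ▸ orderOf_dvd_natCard g0)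
  have hj2 : 2 ≤ j := by
    by_contra hlt
    push Not at hlt
    interval_cases j
    · rw [hj, pow_zero, cnt_one] at hg0; exact hn hg0.symm
    · rw [pow_one] at hj
      have h2G : 2 ∣ Nat.card G := hj ▸ orderOf_dvd_natCard g0
      rw [hj, (hall2 2 Nat.prime_two h2G).2] at hg0; exact hn hg0.symm
  have h4G : 2 ^ 2 ∣ Nat.card G := by
    have h0 : 2 ^ 2 ∣ 2 ^ j := pow_dvd_pow 2 hj2
    rw [← hj] at h0
    exact h0.trans (orderOf_dvd_natCard g0)
  have h2G : 2 ∣ Nat.card G := (dvd_pow_self 2 two_ne_zero).trans h4G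
  have hc2 : cnt G 2 = 1 := (hall2 2 Nat.prime_two h2G).2
  obtain ⟨z, hz⟩ := exists_prime_orderOf_dvd_card' 2 h2G
  have huniq : ∀ x : G, orderOf x = 2 → x = z := fun x hx => unique_of_cnt_one hc2 hz x hx
  have hzc : ∀ g : G, g * z = z * g := central_of_unique hz huniq
  have hz1 : z ≠ 1 := by
    intro h; rw [h, orderOf_one] at hz; norm_num at hz
  -- an element of order 4
  have hex4 : ∃ g : G, orderOf g = 4 := by
    refine ⟨g0 ^ 2 ^ (j - 2), ?_⟩
    rw [orderOf_pow_of_dvd (pow_ne_zero _ two_ne_zero)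
      (by rw [hj]; exact pow_dvd_pow 2 (by omega)), hj, Nat.pow_div (by omega) (by norm_num)]
    have h0 : j - (j - 2) = 2 := by omega
    rw [h0]
  obtain ⟨a4, ha4⟩ := hex4
  have hc4 : cnt G 4 = n := cnt_of_exists hA (by norm_num) a4 ha4
  -- the two counting congruences
  have key2 := sq_dvd_card_root (G := G) 2 2 z hz hzc h4G dvd_rfl
  have key4 := sq_dvd_card_root (G := G) 2 4 z hz hzc h4G (by norm_num)
  rw [card_mem_zpowers_eq hz huniq 2, card_root_eq_sum (2 * 2) [1, 2, 4] (by decide) (by decide)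
    (fun m hm => (by decide : ∀ m ≤ 4, m ∣ 2 * 2 → m ∈ [1, 2, 4]) m
      (Nat.le_of_dvd (by norm_num) hm) hm)] at key2
  rw [card_mem_zpowers_eq hz huniq 4, card_root_eq_sum (4 * 2) [1, 2, 4, 8] (by decide)
    (by decide)
    (fun m hm => (by decide : ∀ m ≤ 8, m ∣ 4 * 2 → m ∈ [1, 2, 4, 8]) m
      (Nat.le_of_dvd (by norm_num) hm) hm)] at key4
  simp only [List.map_cons, List.map_nil, List.sum_cons, List.sum_nil, add_zero, cnt_one, hc2,
    hc4] at key2 key4
  have hno8 : ∀ g : G, orderOf g ≠ 8 := by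
    intro g hg
    have h8 : cnt G 8 = n := cnt_of_exists hA (by norm_num) g hg
    rw [h8] at key4
    omega
  have hpow4 : ∀ g : G, g ^ 4 = 1 := by
    intro g
    obtain ⟨i, -, hi⟩ := (Nat.dvd_prime_pow Nat.prime_two).1 (ha ▸ orderOf_dvd_natCard g)
    rcases Nat.lt_or_ge i 3 with hi3 | hi3
    · apply orderOf_dvd_iff_pow_eq_one.1
      rw [hi]
      exact (pow_dvd_pow 2 (show i ≤ 2 by omega))
    · exfalso
      apply hno8 (g ^ 2 ^ (i - 3))
      rw [orderOf_pow_of_dvd (pow_ne_zero _ two_ne_zero)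
        (by rw [hi]; exact pow_dvd_pow 2 (by omega)), hi, Nat.pow_div (by omega) (by norm_num)]
      have h0 : i - (i - 3) = 3 := by omega
      rw [h0]
  have hQ : ∀ y : G, y ≠ 1 → y ≠ z → y * y = z := by
    intro y hy1 hyz
    have h1 : y ^ 2 ≠ 1 := fun h => hyz (huniq y (orderOf_eq_prime h hy1))
    have h2 : orderOf (y ^ 2) = 2 := orderOf_eq_prime (by rw [← pow_mul]; exact hpow4 y) h1
    rw [← pow_two]; exact huniq _ h2
  have ha1 : a4 ≠ 1 := by
    intro h; rw [h, orderOf_one] at ha4; norm_num at ha4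
  have haz : a4 ≠ z := by
    intro h; rw [h, hz] at ha4; norm_num at ha4
  have haa : a4 * a4 = z := hQ a4 ha1 haz
  by_cases htop : zpowers a4 = ⊤
  · right
    refine ⟨isCyclic_iff_exists_zpowers_eq_top.2 ⟨a4, htop⟩, ?_⟩
    rw [← Subgroup.card_top (G := G), ← htop, Nat.card_zpowers, ha4]
  · left
    obtain ⟨x, hx⟩ : ∃ x, x ∉ zpowers a4 := by
      by_contra hh
      push Not at hh
      exact htop (eq_top_iff.2 fun x _ => hh x)
    have hzmem : z ∈ zpowers a4 := by
      rw [← haa, ← pow_two]; exact Subgroup.pow_mem _ (mem_zpowers a4) 2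
    have hINV : ∀ g : G, g ∉ zpowers a4 → g * a4 * g⁻¹ = a4⁻¹ := by
      intro g hg
      have hg1 : g ≠ 1 := fun h => hg (h ▸ one_mem _)
      have hgz : g ≠ z := fun h => hg (h ▸ hzmem)
      have hga1 : g * a4 ≠ 1 := by
        intro h
        apply hg
        have h0 : g = a4⁻¹ := eq_inv_of_mul_eq_one_left h
        rw [h0]; exact inv_mem (mem_zpowers a4)
      have hgaz : g * a4 ≠ z := by
        intro h
        apply hg
        rw [← haa] at h
        have h0 : g = a4 := mul_right_cancel h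
        rw [h0]; exact mem_zpowers a4
      have h1 : g * a4 * (g * a4) = g * g := by rw [hQ (g * a4) hga1 hgaz, hQ g hg1 hgz]
      have h2 : a4 * (g * a4) = g := by
        apply mul_left_cancel (a := g)
        rw [← mul_assoc]; exact h1
      calc g * a4 * g⁻¹ = a4⁻¹ * (a4 * (g * a4)) * g⁻¹ := by group
        _ = a4⁻¹ * g * g⁻¹ := by rw [h2]
        _ = a4⁻¹ := by group
    have hCEN : ∀ g : G, g * a4 = a4 * g → g ∈ zpowers a4 := by
      intro g hcomm
      by_contra hg
      have h1 := hINV g hg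
      rw [hcomm, mul_inv_cancel_right] at h1
      have h2 : a4 * a4 = 1 := by
        nth_rewrite 2 [h1]; exact mul_inv_cancel a4
      rw [haa] at h2
      exact hz1 h2
    have hidx : (zpowers a4).index = 2 := by
      refine Subgroup.index_eq_two_iff.2 ⟨x, fun b => ?_⟩
      by_cases hb : b ∈ zpowers a4
      · right
        exact ⟨hb, fun hbx => hx ((Subgroup.mul_mem_cancel_left _ hb).1 hbx)⟩
      · left
        refine ⟨hCEN _ ?_, hb⟩
        have h1 := hINV x hx
        have h2 := hINV b hb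
        have h3 : b * x * a4 * (b * x)⁻¹ = a4 := by
          calc b * x * a4 * (b * x)⁻¹ = b * (x * a4 * x⁻¹) * b⁻¹ := by group
            _ = b * a4⁻¹ * b⁻¹ := by rw [h1]
            _ = (b * a4 * b⁻¹)⁻¹ := by group
            _ = a4 := by rw [h2, inv_inv]
        calc b * x * a4 = b * x * a4 * (b * x)⁻¹ * (b * x) := by group
          _ = a4 * (b * x) := by rw [h3]
    have hcard8 : Nat.card G = 4 * 2 := by
      rw [← Subgroup.card_mul_index (zpowers a4), hidx, Nat.card_zpowers, ha4]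
    have hx1 : x ≠ 1 := fun h => hx (h ▸ one_mem _)
    have hxz : x ≠ z := fun h => hx (h ▸ hzmem)
    exact Cfsg.Agent.Lib.Helper54.Quaternion.quaternion_iso a4 x 2 (by rw [ha4]) two_ne_zero
      hcard8 (by rw [hQ x hx1 hxz, pow_two, haa]) hx (hINV x hx)

end main

/-- Let G be a finite group such that the numbers of elements of each order that occurs in G (the numbers #{g : o(g) = m}, m ranging over the element orders of G) take exactly two values, 1 and some n ≠ 1. Then either G is a p-group of exponent p and order at least 3 for some prime p, or G is the quaternion group of order 8, or G is cyclic of order 4, or G ≅ Z₂ × P for a p-group P of exponent p with p an odd prime. -/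
theorem result {G : Type*} [Group G] [Finite G] (n : ℕ) (hn : n ≠ 1) (h : ((fun m : ℕ => Nat.card {g : G // orderOf g = m}) '' Set.range (orderOf : G → ℕ)) = {1, n}) :
    (∃ p : ℕ, p.Prime ∧ IsPGroup p G ∧ 3 ≤ Nat.card G ∧ Monoid.exponent G = p) ∨
      Nonempty (G ≃* QuaternionGroup 2) ∨ (IsCyclic G ∧ Nat.card G = 4) ∨
      (∃ (p : ℕ) (P : Type) (_ : Group P) (_ : Finite P), p.Prime ∧ p ≠ 2 ∧ IsPGroup p P ∧ Monoid.exponent P = p ∧
        Nonempty (G ≃* Multiplicative (ZMod 2) × P)) := by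
  have hA : ∀ g : G, cnt G (orderOf g) = 1 ∨ cnt G (orderOf g) = n := by
    intro g
    have h0 : cnt G (orderOf g) ∈ ((fun m : ℕ => Nat.card {g : G // orderOf g = m}) ''
        Set.range (orderOf : G → ℕ)) := ⟨orderOf g, ⟨g, rfl⟩, rfl⟩
    rw [h] at h0
    simpa using h0
  have hB : ∃ g : G, cnt G (orderOf g) = n := by
    have h0 : n ∈ ((fun m : ℕ => Nat.card {g : G // orderOf g = m}) ''
        Set.range (orderOf : G → ℕ)) := by rw [h]; simp
    obtain ⟨m, ⟨g, rfl⟩, hm⟩ := h0
    exact ⟨g, hm⟩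
  by_cases hI : ∃ p : ℕ, p.Prime ∧ p ∣ Nat.card G ∧ cnt G p = n
  · obtain ⟨p, hp, hpG, hpn⟩ := hI
    haveI : Fact p.Prime := ⟨hp⟩
    have hother : ∀ q : ℕ, q.Prime → q ∣ Nat.card G → q ≠ p →
        q = 2 ∧ cnt G 2 = 1 ∧ p ≠ 2 := by
      intro q hq hqG hqp
      haveI : Fact q.Prime := ⟨hq⟩
      obtain ⟨y, hy⟩ := exists_prime_orderOf_dvd_card' q hqG
      have hcq : cnt G q = 1 := by
        rcases hA y with h1 | h1
        · rw [hy] at h1; exact h1
        · rw [hy] at h1
          exfalso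
          by_cases hq2 : q = 2
          · have hp2 : p ≠ 2 := fun h => hqp (hq2.trans h.symm)
            exact two_primes_false hA q p hqp hpG h1 hpn hp2
          · exact two_primes_false hA p q (Ne.symm hqp) hqG hpn h1 hq2
      have hq2 : q = 2 := by
        by_contra hne
        have h3 : 3 ≤ q := by have := hq.two_le; omega
        exact cnt_ne_one h3 y hy hcq
      refine ⟨hq2, hq2 ▸ hcq, ?_⟩
      intro hp2; exact hqp (hq2.trans hp2.symm)
    by_cases h2 : 2 ∣ Nat.card G ∧ p ≠ 2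
    · right; right; right
      have hc2 : cnt G 2 = 1 := (hother 2 Nat.prime_two h2.1 (Ne.symm h2.2)).2.1
      have hall : ∀ q : ℕ, q.Prime → q ∣ Nat.card G → q = 2 ∨ q = p := by
        intro q hq hqG
        by_cases hqp : q = p
        · exact Or.inr hqp
        · exact Or.inl (hother q hq hqG hqp).1
      obtain ⟨P, i1, i2, h1, h2', h3⟩ := caseIII hA p h2.2 hpG hpn h2.1 hc2 hall
      exact ⟨p, P, i1, i2, hp, h2.2, h1, h2', h3⟩
    · left
      have hall : ∀ q : ℕ, q.Prime → q ∣ Nat.card G → q = p := by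
        intro q hq hqG
        by_contra hqp
        obtain ⟨hq2, -, hp2⟩ := hother q hq hqG hqp
        exact h2 ⟨hq2 ▸ hqG, hp2⟩
      obtain ⟨h1, h2', h3⟩ := caseI hA p hpG hpn hn hall
      exact ⟨p, hp, h1, h2', h3⟩
  · right
    have hall2 : ∀ q : ℕ, q.Prime → q ∣ Nat.card G → q = 2 ∧ cnt G 2 = 1 := by
      intro q hq hqG
      haveI : Fact q.Prime := ⟨hq⟩
      obtain ⟨y, hy⟩ := exists_prime_orderOf_dvd_card' q hqG
      have hcq : cnt G q = 1 := by
        rcases hA y with h1 | h1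
        · rw [hy] at h1; exact h1
        · rw [hy] at h1; exact absurd ⟨q, hq, hqG, h1⟩ hI
      have hq2 : q = 2 := by
        by_contra hne
        have h3 : 3 ≤ q := by have := hq.two_le; omega
        exact cnt_ne_one h3 y hy hcq
      exact ⟨hq2, hq2 ▸ hcq⟩
    rcases caseII hA hB hn hall2 with h | h
    · exact Or.inl h
    · exact Or.inr (Or.inl h)

end Cfsg.Agent.S3995
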