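import Cfsg.Statements.S4010
import Mathlib
import Cfsg.Agent.Lib.Helper42.DerLenB

set_option autoImplicit false
open Cfsg

namespace Cfsg.Agent.S4010

/-- Let F be a field, n ≥ 1, and P a finite p-group (p a prime) admitting an injective homomorphism into the general linear group of degree n over F. Then the derived length of P is at most ⌊log₂ n⌋ + 1: that term of the derived series of P is trivial. -/
theorem result {P : Type*} [Group P] [Finite P] (p : ℕ) [Fact p.Prime] (hP : IsPGroup p P) (F : Type*) [Field F] (n : ℕ) (hn : 1 ≤ n) (ρ : P →* Matrix.GeneralLinearGroup (Fin n) F) (hρ : Function.Injective ρ) : derivedSeries P (Nat.log 2 n + 1) = ⊥ := by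
  classical
  obtain ⟨σ, hσ⟩ : ∃ σ : P →* Module.End (AlgebraicClosure F) (Fin n → AlgebraicClosure F),
      ∀ g, σ g = Matrix.toLin' ((ρ g : Matrix (Fin n) (Fin n) F).map
        (algebraMap F (AlgebraicClosure F))) := by
    refine ⟨{ toFun := fun g => Matrix.toLin' ((ρ g : Matrix (Fin n) (Fin n) F).map
                (algebraMap F (AlgebraicClosure F)))
              map_one' := ?_
              map_mul' := ?_ }, fun g => rfl⟩
    · rw [map_one, Units.val_one, Matrix.map_one _ (map_zero _) (map_one _), Matrix.toLin'_one]
      rfl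
    · intro g h
      rw [map_mul, Units.val_mul, Matrix.map_mul, Matrix.toLin'_mul]
      rfl
  have hker : σ.ker = ⊥ := by
    rw [eq_bot_iff]
    intro g hg
    rw [MonoidHom.mem_ker, hσ] at hg
    rw [Subgroup.mem_bot]
    apply hρ
    rw [map_one]
    apply Units.ext
    rw [Units.val_one]
    have h1 : (ρ g : Matrix (Fin n) (Fin n) F).map (algebraMap F (AlgebraicClosure F)) = 1 := by
      apply Matrix.toLin'.injective
      rw [hg, Matrix.toLin'_one]
      rfl
    have h2 : (1 : Matrix (Fin n) (Fin n) (AlgebraicClosure F)) =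
        (1 : Matrix (Fin n) (Fin n) F).map (algebraMap F (AlgebraicClosure F)) := by
      rw [Matrix.map_one _ (map_zero _) (map_one _)]
    rw [h2] at h1
    exact Matrix.map_injective (algebraMap F (AlgebraicClosure F)).injective h1
  have hfr : Module.finrank (AlgebraicClosure F) (Fin n → AlgebraicClosure F) = n :=
    Module.finrank_fin_fun _
  rw [eq_bot_iff, ← hker]
  by_cases hpK : (p : AlgebraicClosure F) = 0
  · apply Cfsg.Agent.Lib.Helper42.DerLenA.charp_bound hpK hP σ
    rw [hfr]
    exact (Nat.lt_pow_succ_log_self (by norm_num) n).le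
  · exact Cfsg.Agent.Lib.Helper42.DerLenB.main_bound hpK n P hP _ hfr σ

end Cfsg.Agent.S4010
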