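import Cfsg.Statements.S4013
import Mathlib

set_option autoImplicit false
open Cfsg

namespace Cfsg.Agent.S4013

theorem class_ncard_dvd {G : Type*} [Group G] [Finite G] (g : G) :
    Set.ncard {h : G | IsConj g h} ∣ Nat.card G := by
  have h1 : {h : G | IsConj g h} = MulAction.orbit (ConjAct G) g := by
    ext h
    rw [ConjAct.mem_orbit_conjAct, isConj_comm]
    rfl
  rw [h1, ← MulAction.index_stabilizer]
  exact Subgroup.index_dvd_card _

/-- Let G be a finite p-group (p prime) and N < M normal subgroups of G such that for some g ∈ M ∖ N the conjugacy class of g is exactly M ∖ N. Then p = 2 and N has index 2 in M. -/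
theorem result {G : Type*} [Group G] [Finite G] (p : ℕ) [Fact p.Prime] (hG : IsPGroup p G) (N M : Subgroup G) [N.Normal] [M.Normal] (hNM : N < M) (g : G) (hgM : g ∈ M) (hgN : g ∉ N) (hcl : {h : G | IsConj g h} = (M : Set G) \ (N : Set G)) : p = 2 ∧ N.relIndex M = 2 := by
  have hp : p.Prime := Fact.out
  obtain ⟨n, hn⟩ := IsPGroup.iff_card.mp hG
  obtain ⟨a, ha⟩ := IsPGroup.iff_card.mp (hG.to_subgroup N)
  obtain ⟨b, hb⟩ := IsPGroup.iff_card.mp (hG.to_subgroup M)
  have hdvd := class_ncard_dvd g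
  rw [hcl, hn] at hdvd
  obtain ⟨j, -, hj⟩ := (Nat.dvd_prime_pow hp).mp hdvd
  have hsub : (N : Set G) ⊆ (M : Set G) := hNM.le
  have hdiff : Set.ncard ((M : Set G) \ (N : Set G)) = Nat.card M - Nat.card N := by
    rw [Set.ncard_sdiff hsub]
    rfl
  rw [hdiff, ha, hb] at hj
  have hlt : Nat.card N < Nat.card M := by
    have : Set.ncard (N : Set G) < Set.ncard (M : Set G) :=
      Set.ncard_lt_ncard (by exact_mod_cast hNM) (Set.toFinite _)
    exact this
  rw [ha, hb] at hlt
  have hab : a < b := (Nat.pow_lt_pow_iff_right hp.one_lt).mp hlt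
  obtain ⟨k, rfl⟩ : ∃ k, b = a + (k + 1) := ⟨b - a - 1, by omega⟩
  have h2 : p ^ a * (p ^ (k + 1) - 1) = p ^ j := by
    rw [Nat.mul_sub, mul_one, ← pow_add]; exact hj
  have h3 : p ^ (k + 1) - 1 ∣ p ^ j := Dvd.intro_left _ h2
  obtain ⟨i, -, hi⟩ := (Nat.dvd_prime_pow hp).mp h3
  have hpos : 1 ≤ p ^ (k + 1) := Nat.one_le_pow _ _ hp.pos
  have hi0 : i = 0 := by
    by_contra hi0
    have h4 : p ∣ p ^ i := dvd_pow_self p hi0
    have h5 : p ∣ p ^ (k + 1) := dvd_pow_self p (by omega)
    rw [← hi] at h4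
    have h6 : p ∣ 1 := by
      have := (Nat.dvd_sub h5 h4)
      rwa [Nat.sub_sub_self hpos] at this
    exact hp.one_lt.ne' (Nat.dvd_one.mp h6)
  subst hi0
  have h7 : p ^ (k + 1) = 2 := by simp at hi; omega
  have hk : k = 0 := by
    by_contra hk
    have : p ^ 2 ≤ p ^ (k + 1) := Nat.pow_le_pow_right hp.pos (by omega)
    have : 2 * 2 ≤ p ^ 2 := by
      have := hp.two_le
      nlinarith
    omega
  subst hk
  have hp2 : p = 2 := by simpa using h7
  refine ⟨hp2, ?_⟩
  have h8 : N.relIndex M * Nat.card N = Nat.card M := by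
    have := Subgroup.relIndex_mul_index hNM.le
    have h9 := Subgroup.card_mul_index N
    have h10 := Subgroup.card_mul_index M
    have hMpos : 0 < M.index := Nat.pos_of_ne_zero (Subgroup.index_ne_zero_of_finite)
    have : N.relIndex M * Nat.card N * M.index = Nat.card M * M.index := by
      rw [h10, ← h9, ← this]; ring
    exact Nat.eq_of_mul_eq_mul_right hMpos this
  rw [ha, hb, pow_add] at h8
  have hapos : 0 < p ^ a := Nat.pos_of_ne_zero (pow_ne_zero _ hp.ne_zero)
  have : N.relIndex M = p ^ (0 + 1) := by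
    apply Nat.eq_of_mul_eq_mul_right hapos
    rw [h8]; ring
  rw [this]; simpa using h7

end Cfsg.Agent.S4013
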