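import Cfsg.Statements.S4014
-- import your own Cfsg.Agent.* helpers here
import Mathlib

set_option autoImplicit false
open Cfsg

namespace Cfsg.Agent.S4014

section helpers

open scoped commutatorElement

universe u

theorem derived_le_of_commutator_le {Q : Type u} [Group Q] (M : Subgroup Q)
    (hM : commutator Q ≤ M) :
    ∀ k, derivedSeries Q (k + 1) ≤ (derivedSeries ↥M k).map M.subtype := by
  intro k
  induction k with
  | zero =>
    rw [derivedSeries_one, derivedSeries_zero, ← MonoidHom.range_eq_map, Subgroup.range_subtype]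
    exact hM
  | succ k ih =>
    rw [derivedSeries_succ, derivedSeries_succ (G := ↥M), Subgroup.map_commutator]
    exact Subgroup.commutator_mono ih ih

theorem upper (p : ℕ) [Fact p.Prime] : ∀ (k : ℕ) (Q : Type u) [Group Q] [Finite Q], IsPGroup p Q →
    ∀ H : Subgroup Q, H.index ≤ p ^ k → derivedSeries Q k ≤ H := by
  intro k
  induction k with
  | zero =>
    intro Q _ _ hQ H hH
    have h1 : H.index = 1 := by
      have := H.index_ne_zero_of_finite
      rw [pow_zero] at hH
      omega
    rw [Subgroup.index_eq_one] at h1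
    rw [h1]; exact le_top
  | succ k ih =>
    intro Q _ _ hQ H hH
    have hp : p.Prime := Fact.out
    by_cases hHt : H = ⊤
    · rw [hHt]; exact le_top
    obtain ⟨M, hMco, hHM⟩ := (eq_top_or_exists_le_coatom H).resolve_left hHt
    have hnil : Group.IsNilpotent Q := hQ.isNilpotent
    have hMn : M.Normal := Subgroup.NormalizerCondition.normal_of_coatom M Group.normalizerCondition_of_isNilpotent hMco
    have hMne : M ≠ ⊤ := hMco.1
    -- commutator ≤ M
    have hcomm : commutator Q ≤ M := by
      have hnt : Nontrivial (Q ⧸ M) := by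
        rw [QuotientGroup.nontrivial_iff]; exact hMne
      have hlt : commutator (Q ⧸ M) < ⊤ := Group.IsSolvable.commutator_lt_top_of_nontrivial (Q ⧸ M)
      set K := (commutator (Q ⧸ M)).comap (QuotientGroup.mk' M) with hK
      have hMK : M ≤ K := by
        intro x hx
        rw [hK, Subgroup.mem_comap]
        have : (QuotientGroup.mk' M) x = 1 := by
          rw [QuotientGroup.mk'_apply, QuotientGroup.eq_one_iff]; exact hx
        rw [this]; exact Subgroup.one_mem _
      have hKne : K ≠ ⊤ := by
        intro hKt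
        apply hlt.ne
        rw [eq_top_iff]
        intro y _
        obtain ⟨x, rfl⟩ := QuotientGroup.mk'_surjective M y
        have : x ∈ K := by rw [hKt]; exact Subgroup.mem_top x
        exact this
      have hKM : K = M := by
        by_contra hne
        exact hKne (hMco.2 K (lt_of_le_of_ne hMK (Ne.symm hne)))
      rw [commutator_def, Subgroup.commutator_le]
      intro x _ y _
      have h1 : (QuotientGroup.mk' M) ⁅x, y⁆ ∈ commutator (Q ⧸ M) := by
        rw [map_commutatorElement, commutator_def]
        exact Subgroup.commutator_mem_commutator (Subgroup.mem_top _) (Subgroup.mem_top _)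
      have h2 : ⁅x, y⁆ ∈ K := h1
      rw [hKM] at h2
      exact h2
    have hMidx : p ≤ M.index := by
      obtain ⟨e, he⟩ := hQ.index M
      have hne1 : M.index ≠ 1 := fun h => hMne (Subgroup.index_eq_one.mp h)
      rcases Nat.eq_zero_or_pos e with rfl | hepos
      · rw [pow_zero] at he; exact absurd he hne1
      · rw [he]
        calc p = p ^ 1 := (pow_one p).symm
          _ ≤ p ^ e := Nat.pow_le_pow_right hp.pos hepos
    have hrel : (H.subgroupOf M).index ≤ p ^ k := by
      have h1 : H.relIndex M * M.index = H.index := Subgroup.relIndex_mul_index hHM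
      have h2 : H.relIndex M * p ≤ p ^ k * p := by
        calc H.relIndex M * p ≤ H.relIndex M * M.index := Nat.mul_le_mul_left _ hMidx
          _ = H.index := h1
          _ ≤ p ^ (k + 1) := hH
          _ = p ^ k * p := pow_succ p k
      exact Nat.le_of_mul_le_mul_right h2 hp.pos
    have h3 := ih ↥M (hQ.to_subgroup M) (H.subgroupOf M) hrel
    calc derivedSeries Q (k + 1) ≤ (derivedSeries ↥M k).map M.subtype :=
          derived_le_of_commutator_le M hcomm k
      _ ≤ (H.subgroupOf M).map M.subtype := Subgroup.map_mono h3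
      _ ≤ H := by rw [Subgroup.subgroupOf_map_subtype]; exact inf_le_left

theorem part1 (p : ℕ) [Fact p.Prime] (n : ℕ) (P : Sylow p (Equiv.Perm (Fin n))) :
    derivedSeries ↥(P : Subgroup (Equiv.Perm (Fin n))) (Nat.log p n) = ⊥ := by
  have hp : p.Prime := Fact.out
  rw [eq_bot_iff]
  intro g hg
  rw [Subgroup.mem_bot]
  have hPp : IsPGroup p ↥(P : Subgroup (Equiv.Perm (Fin n))) := P.isPGroup'
  have key : ∀ x : Fin n, g • x = x := by
    intro x
    have hidx : (MulAction.stabilizer ↥(P : Subgroup (Equiv.Perm (Fin n))) x).index ≤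
        p ^ (Nat.log p n) := by
      obtain ⟨j, hj⟩ := hPp.index (MulAction.stabilizer ↥(P : Subgroup (Equiv.Perm (Fin n))) x)
      have h1 : (MulAction.stabilizer ↥(P : Subgroup (Equiv.Perm (Fin n))) x).index ≤ n := by
        rw [MulAction.index_stabilizer]
        calc (MulAction.orbit ↥(P : Subgroup (Equiv.Perm (Fin n))) x).ncard
            ≤ Nat.card (Fin n) := Set.ncard_le_card _
          _ = n := Nat.card_fin n
      rw [hj] at h1 ⊢
      have h2 : p ^ j < p ^ (Nat.log p n).succ :=
        lt_of_le_of_lt h1 (Nat.lt_pow_succ_log_self hp.one_lt n)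
      have h3 : j < (Nat.log p n).succ := (Nat.pow_lt_pow_iff_right hp.one_lt).mp h2
      exact Nat.pow_le_pow_right hp.pos (Nat.lt_succ_iff.mp h3)
    have := upper p (Nat.log p n) _ hPp _ hidx hg
    exact MulAction.mem_stabilizer_iff.mp this
  apply Subtype.ext
  ext x
  exact congrArg Fin.val (key x)

theorem DS1 {G : Type u} [Group G] (n : ℕ) :
    (derivedSeries ↥(commutator G) n).map (commutator G).subtype = derivedSeries G (n + 1) := by
  induction n with
  | zero =>
    rw [derivedSeries_zero, derivedSeries_one, ← MonoidHom.range_eq_map, Subgroup.range_subtype]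
  | succ n ih =>
    rw [derivedSeries_succ, Subgroup.map_commutator, ih, derivedSeries_succ G (n + 1)]

theorem wreath_step {D Q : Type u} [Group D] [CommGroup Q] (q₁ : Q) (hq : q₁ ≠ 1) (j : ℕ)
    (h : derivedSeries D j ≠ ⊥) : derivedSeries (D ≀ᵣ Q) (j + 1) ≠ ⊥ := by
  classical
  have hCker : ∀ c ∈ commutator (D ≀ᵣ Q), c.right = 1 := by
    intro c hc
    have := Abelianization.commutator_subset_ker
      (RegularWreathProduct.rightHom (D := D) (Q := Q)) hc
    rw [MonoidHom.mem_ker] at this
    exact this
  let φ : ↥(commutator (D ≀ᵣ Q)) →* D :=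
    { toFun := fun c => c.1.left 1
      map_one' := rfl
      map_mul' := fun a b => by
        show (a.1 * b.1).left 1 = a.1.left 1 * b.1.left 1
        rw [RegularWreathProduct.mul_left]
        simp [hCker a.1 a.2] }
  have hφ : Function.Surjective φ := by
    intro d
    refine ⟨⟨⁅(⟨Pi.mulSingle 1 d, 1⟩ : D ≀ᵣ Q), (⟨1, q₁⟩ : D ≀ᵣ Q)⁆, ?_⟩, ?_⟩
    · rw [commutator_def]
      exact Subgroup.commutator_mem_commutator (Subgroup.mem_top _) (Subgroup.mem_top _)
    · show (⁅(⟨Pi.mulSingle 1 d, 1⟩ : D ≀ᵣ Q), (⟨1, q₁⟩ : D ≀ᵣ Q)⁆).left 1 = d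
      rw [commutatorElement_def]
      have hq' : q₁⁻¹ ≠ 1 := by simpa using hq
      simp [Pi.mulSingle_apply, hq']
  have h1 : (derivedSeries ↥(commutator (D ≀ᵣ Q)) j).map φ = derivedSeries D j :=
    map_derivedSeries_eq hφ j
  intro hbot
  rw [← DS1, Subgroup.map_eq_bot_iff_of_injective _ (Subgroup.subtype_injective _)] at hbot
  rw [hbot, Subgroup.map_bot] at h1
  exact h h1.symm

theorem iter_ne_bot (p : ℕ) [Fact p.Prime] : ∀ m : ℕ,
    derivedSeries (IteratedWreathProduct (Multiplicative (ZMod p)) (m + 1)) m ≠ ⊥ := by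
  have hp : p.Prime := Fact.out
  have hcard : Nat.card (Multiplicative (ZMod p)) = p := by
    rw [Nat.card_eq_fintype_card, Fintype.card_multiplicative, ZMod.card]
  intro m
  induction m with
  | zero =>
    rw [derivedSeries_zero]
    have : Nontrivial (IteratedWreathProduct (Multiplicative (ZMod p)) (0 + 1)) := by
      rw [← Finite.one_lt_card_iff_nontrivial, IteratedWreathProduct.card, hcard]
      simpa using hp.one_lt
    exact top_ne_bot
  | succ m ih =>
    have hq : (Multiplicative.ofAdd (1 : ZMod p)) ≠ 1 := by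
      intro h
      have h2 : (1 : ZMod p) = 0 := h
      exact one_ne_zero h2
    exact wreath_step (D := IteratedWreathProduct (Multiplicative (ZMod p)) (m + 1))
      (Q := Multiplicative (ZMod p)) _ hq m ih

theorem part2 (p : ℕ) [Fact p.Prime] (n m : ℕ) (hm : Nat.log p n = m + 1)
    (P : Sylow p (Equiv.Perm (Fin n))) :
    derivedSeries ↥(P : Subgroup (Equiv.Perm (Fin n))) m ≠ ⊥ := by
  classical
  have hp : p.Prime := Fact.out
  have hcard : Nat.card (Multiplicative (ZMod p)) = p := by
    rw [Nat.card_eq_fintype_card, Fintype.card_multiplicative, ZMod.card]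
  have hn0 : n ≠ 0 := by
    rintro rfl
    simp at hm
  have hle : p ^ (m + 1) ≤ n := by
    rw [← hm]; exact Nat.pow_log_le_self p hn0
  obtain ⟨ι⟩ : Nonempty ((Fin (m + 1) → Multiplicative (ZMod p)) ↪ Fin n) := by
    apply Function.Embedding.nonempty_of_card_le
    rw [Fintype.card_fin, Fintype.card_fun, Fintype.card_fin, Fintype.card_multiplicative,
      ZMod.card]
    exact hle
  let f1 := iteratedWreathToPermHom (Multiplicative (ZMod p)) (m + 1)
  let f2 : Equiv.Perm (Fin (m + 1) → Multiplicative (ZMod p)) →* Equiv.Perm (Fin n) :=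
    Equiv.Perm.extendDomainHom (Equiv.ofInjective ι ι.injective)
  let f := f2.comp f1
  have hf : Function.Injective f :=
    (Equiv.Perm.extendDomainHom_injective _).comp
      (iteratedWreathToPermHomInj (Multiplicative (ZMod p)) (m + 1))
  have hWp : IsPGroup p (IteratedWreathProduct (Multiplicative (ZMod p)) (m + 1)) :=
    IsPGroup.of_card (n := ∑ i ∈ Finset.range (m + 1), p ^ i) (by
      rw [IteratedWreathProduct.card, hcard])
  have hrange : IsPGroup p ↥f.range := by
    rw [MonoidHom.range_eq_map]
    exact (IsPGroup.of_equiv hWp (Subgroup.topEquiv).symm).map f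
  obtain ⟨Q', hQ'⟩ := hrange.exists_le_sylow
  let e : ↥(Q' : Subgroup (Equiv.Perm (Fin n))) ≃* ↥(P : Subgroup (Equiv.Perm (Fin n))) :=
    Sylow.equiv Q' P
  let g : IteratedWreathProduct (Multiplicative (ZMod p)) (m + 1) →*
      ↥(Q' : Subgroup (Equiv.Perm (Fin n))) :=
    f.codRestrict (Q' : Subgroup (Equiv.Perm (Fin n))) (fun w => hQ' ⟨w, rfl⟩)
  have hg : Function.Injective g := by
    intro a b hab
    apply hf
    have := congrArg Subtype.val hab
    exact this
  let hh : IteratedWreathProduct (Multiplicative (ZMod p)) (m + 1) →*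
      ↥(P : Subgroup (Equiv.Perm (Fin n))) := e.toMonoidHom.comp g
  have hhinj : Function.Injective hh := e.injective.comp hg
  intro hbot
  apply iter_ne_bot p m
  have := map_derivedSeries_le_derivedSeries hh m
  rw [hbot, le_bot_iff] at this
  exact (Subgroup.map_eq_bot_iff_of_injective _ hhinj).mp this

end helpers


/-- Let p be a prime, n ≥ 1, and P a Sylow p-subgroup of the symmetric group on n letters. Then the derived length of P is exactly k = ⌊log_p n⌋ (the largest k with p^k ≤ n): the k-th derived subgroup of P is trivial and, when k ≥ 1, the (k−1)-st is not. -/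
theorem result (p : ℕ) [Fact p.Prime] (n : ℕ) (hn : 1 ≤ n) (P : Sylow p (Equiv.Perm (Fin n))) : derivedSeries ↥(P : Subgroup (Equiv.Perm (Fin n))) (Nat.log p n) = ⊥ ∧ (1 ≤ Nat.log p n → derivedSeries ↥(P : Subgroup (Equiv.Perm (Fin n))) (Nat.log p n - 1) ≠ ⊥) := by
  refine ⟨part1 p n P, ?_⟩
  intro h1
  obtain ⟨m, hm⟩ : ∃ m, Nat.log p n = m + 1 := ⟨Nat.log p n - 1, by omega⟩
  rw [hm, Nat.add_sub_cancel]
  exact part2 p n m hm P

end Cfsg.Agent.S4014
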