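import Cfsg.Statements.S4015
-- import your own Cfsg.Agent.* helpers here
import Mathlib
import Cfsg.Agent.Lib.Helper42.DerLenC
import Cfsg.Agent.Lib.Helper42.DerLenP
import Cfsg.Agent.Lib.Helper42.GLWr

set_option autoImplicit false
open Cfsg

namespace Cfsg.Agent.S4015

/-- Let p be an odd prime, F a finite field with q elements where p does not divide q, and e the multiplicative order of q modulo p. Let n ≥ e and write w = ⌊n/e⌋ and k = ⌊log_p w⌋. Then a Sylow p-subgroup of GL(n, F) has derived length exactly k + 1: its (k+1)-st derived subgroup is trivial and its k-th is not. -/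
theorem result (p : ℕ) [Fact p.Prime] (hp : p ≠ 2) (F : Type*) [Field F] [Fintype F] (q : ℕ) (hq : Fintype.card F = q) (hpq : ¬ p ∣ q) (n : ℕ) (hn : orderOf (q : ZMod p) ≤ n) (P : Sylow p (Matrix.GeneralLinearGroup (Fin n) F)) : derivedSeries ↥(P : Subgroup (Matrix.GeneralLinearGroup (Fin n) F)) (Nat.log p (n / orderOf (q : ZMod p)) + 1) = ⊥ ∧ derivedSeries ↥(P : Subgroup (Matrix.GeneralLinearGroup (Fin n) F)) (Nat.log p (n / orderOf (q : ZMod p))) ≠ ⊥ := by
  classical
  subst hq
  have hp' := (Fact.out : p.Prime)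
  obtain ⟨e, he⟩ : ∃ e : ℕ, e = orderOf ((Fintype.card F : ℕ) : ZMod p) := ⟨_, rfl⟩
  rw [← he] at hn ⊢
  have hpF : (p : F) ≠ 0 := by
    intro h
    have hq0 : ((Fintype.card F : ℕ) : F) = 0 := Nat.cast_card_eq_zero F
    have hcop : Nat.Coprime p (Fintype.card F) := (Nat.Prime.coprime_iff_not_dvd hp').mpr hpq
    obtain ⟨a, b, hab⟩ := Nat.isCoprime_iff_coprime.mpr hcop
    have h1 := congrArg (Int.cast : ℤ → F) hab
    push_cast at h1
    rw [h, hq0] at h1
    simp at h1
  have hpK : (p : AlgebraicClosure F) ≠ 0 := by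
    intro h
    apply hpF
    have h2 : algebraMap F (AlgebraicClosure F) (p : F) = 0 := by
      rw [map_natCast]
      exact h
    exact (map_eq_zero _).mp h2
  have he1 : 1 ≤ e := by
    rw [he]
    have hq0 : ((Fintype.card F : ℕ) : ZMod p) ≠ 0 := by
      rw [Ne, ZMod.natCast_eq_zero_iff]
      exact hpq
    apply orderOf_pos_iff.mpr
    rw [isOfFinOrder_iff_pow_eq_one]
    exact ⟨p - 1, Nat.sub_pos_of_lt hp'.one_lt, ZMod.pow_card_sub_one_eq_one hq0⟩
  constructor
  · rw [eq_bot_iff]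
    intro g hg
    rw [Subgroup.mem_bot]
    apply Cfsg.Agent.Lib.Helper42.DerLenC.sig_eq_one (P : Subgroup (GL (Fin n) F)) g
    apply LinearMap.ext
    intro v
    exact Cfsg.Agent.Lib.Helper42.DerLenP.frob_bound_p (P : Subgroup (GL (Fin n) F))
      P.isPGroup' hpK e he he1 _ ⊤ rfl
      (fun _ _ _ => Submodule.mem_top) (fun _ _ => Submodule.mem_top) g hg v Submodule.mem_top
  · have hdvd : p ∣ Nat.card (Matrix.GeneralLinearGroup (Fin e) F) := by
      rw [Matrix.card_GL_field]
      have h0 : (⟨0, he1⟩ : Fin e) ∈ Finset.univ := Finset.mem_univ _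
      refine Dvd.dvd.trans ?_ (Finset.dvd_prod_of_mem _ h0)
      show p ∣ Fintype.card F ^ e - Fintype.card F ^ 0
      rw [pow_zero, ← ZMod.natCast_eq_zero_iff,
        Nat.cast_sub (Nat.one_le_pow _ _ Fintype.card_pos), Nat.cast_pow, Nat.cast_one, he,
        pow_orderOf_eq_one, sub_self]
    exact Cfsg.Agent.Lib.Helper42.GLWr.lowerGL F p n e he1 hn hdvd P

end Cfsg.Agent.S4015
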