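import Cfsg.Statements.S4020
import Cfsg.Agent.Lib.Helper1.PDFin
import Cfsg.Agent.Lib.Helper1.PDUNIQ
import Cfsg.Agent.Lib.Helper1.PDQUOT
import Cfsg.Agent.Lib.Helper8.PDNOEXTRA
import Cfsg.Agent.Lib.Helper58.PDEVENCORE
import Cfsg.Agent.Lib.Helper26.PDSYLB
import Cfsg.Agent.Lib.Helper96.PDCOMMZ
import Cfsg.Agent.Lib.Helper86.PDNONCENT
import Cfsg.Agent.Lib.Helper59.PDWORD
import Cfsg.Agent.Lib.Helper14.PDISO
import Cfsg.Agent.Lib.Helper86.PDQSTEP
import Cfsg.Agent.Lib.Helper19.PDODDCASE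

set_option autoImplicit false
open Cfsg

namespace Cfsg.Agent.S4020

/-- Let G be a finite group in which, for every prime p, any two p-subgroups of the same order are conjugate. Then every Sylow subgroup of G is cyclic, elementary abelian, or a quaternion group of order 8. -/
theorem result {G : Type*} [Group G] [Finite G]
    (hD : ∀ p : ℕ, p.Prime → ∀ H K : Subgroup G, IsPGroup p H → IsPGroup p K → Nat.card H = Nat.card K →
      ∃ g : G, K = H.map (MulAut.conj g).toMonoidHom) {p : ℕ} [Fact p.Prime] (P : Sylow p G) :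
    IsCyclic P ∨ Cfsg.IsElementaryAbelian p (P : Subgroup G) ∨ Nonempty ((P : Subgroup G) ≃* QuaternionGroup 2) := by
  exact Cfsg.Agent.Lib.Helper1.PDFin.final
    (Cfsg.Agent.Lib.Helper8.PDNOEXTRA.main Cfsg.Agent.Lib.Helper1.PDQUOT.main
      (Cfsg.Agent.Lib.Helper58.PDEVENCORE.main Cfsg.Agent.Lib.Helper26.PDSYLB.main
        Cfsg.Agent.Lib.Helper96.PDCOMMZ.main Cfsg.Agent.Lib.Helper86.PDNONCENT.main
        Cfsg.Agent.Lib.Helper59.PDWORD.main)
      (Cfsg.Agent.Lib.Helper14.PDISO.main Cfsg.Agent.Lib.Helper1.PDUNIQ.main)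
      Cfsg.Agent.Lib.Helper86.PDQSTEP.main
      (Cfsg.Agent.Lib.Helper19.PDODDCASE.main
        (Cfsg.Agent.Lib.Helper58.PDEVENCORE.main Cfsg.Agent.Lib.Helper26.PDSYLB.main
          Cfsg.Agent.Lib.Helper96.PDCOMMZ.main Cfsg.Agent.Lib.Helper86.PDNONCENT.main
          Cfsg.Agent.Lib.Helper59.PDWORD.main)))
    hD P

end Cfsg.Agent.S4020
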