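import Cfsg.Statements.S4027
import Cfsg.Agent.Lib.Helper67.RealOdd

set_option autoImplicit false
open Cfsg

namespace Cfsg.Agent.S4027

open Subgroup

/-- Let G be a finite group in which every element x of odd order satisfies N_G(⟨x⟩) = C_G(x). Then the Sylow 2-subgroups of G are normal. -/
theorem result {G : Type*} [Group G] [Finite G]
    (hirr : ∀ x : G, (∀ r : ℕ, r.Prime → r ∣ orderOf x → r ≠ 2) →
      Subgroup.normalizer ((Subgroup.zpowers x : Subgroup G) : Set G) ≤ Subgroup.centralizer {x}) (P : Sylow 2 G) :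
    (P : Subgroup G).Normal := by
  apply Cfsg.Agent.Lib.Helper67.RealOdd.sylow_two_normal
  intro y g hodd hg
  have h1 : ∀ r : ℕ, r.Prime → r ∣ orderOf y → r ≠ 2 := by
    rintro r - hr rfl
    exact (Nat.not_even_iff_odd.mpr hodd) (even_iff_two_dvd.mpr hr)
  have h2 : g ∈ normalizer ((zpowers y : Subgroup G) : Set G) := by
    apply mem_normalizer_fintype
    intro n hn
    obtain ⟨i, rfl⟩ := mem_zpowers_iff.mp hn
    have e1 : g * y ^ i * g⁻¹ = MulAut.conj g (y ^ i) := by simp
    have e2 : MulAut.conj g y = y⁻¹ := by simpa using hg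
    rw [e1, map_zpow, e2]
    exact zpow_mem (inv_mem (mem_zpowers _)) i
  have h3 := hirr y h1 h2
  rw [mem_centralizer_iff] at h3
  have h4 : y * g = g * y := h3 y rfl
  have h5 : y⁻¹ = y := by
    rw [← hg, ← h4]; group
  have h6 : y ^ 2 = 1 := by
    rw [sq]
    nth_rewrite 1 [← h5]
    exact inv_mul_cancel y
  have h7 : orderOf y ∣ 2 := orderOf_dvd_of_pow_eq_one h6
  have h8 : orderOf y = 1 := by
    rcases (Nat.dvd_prime Nat.prime_two).mp h7 with h | h
    · exact h
    · rw [h] at hodd
      exact absurd hodd (by decide)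
  exact orderOf_eq_one_iff.mp h8

end Cfsg.Agent.S4027
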