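import Cfsg.Statements.S4029
import Cfsg.Agent.Lib.Helper63.PFrattini
import Cfsg.Agent.Lib.Helper3.ClassCount

set_option autoImplicit false
open Cfsg

namespace Cfsg.Agent.S4029

/-- Under the hypothesis, an element conjugate to its inverse has trivial square. -/
theorem sq_eq_one_of_real {P : Type*} [Group P]
    (hirr : ∀ y : P, Subgroup.normalizer ((Subgroup.zpowers y : Subgroup P) : Set P) ≤
      Subgroup.centralizer {y})
    (x t : P) (h : x * t * x⁻¹ = t⁻¹) : t ^ 2 = 1 := by
  have h' : x⁻¹ * t * x = t⁻¹ := by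
    have : t = x * t⁻¹ * x⁻¹ := by
      calc t = (t⁻¹)⁻¹ := (inv_inv t).symm
        _ = (x * t * x⁻¹)⁻¹ := by rw [h]
        _ = x * t⁻¹ * x⁻¹ := by group
    calc x⁻¹ * t * x = x⁻¹ * (x * t⁻¹ * x⁻¹) * x := by rw [← this]
      _ = t⁻¹ := by group
  have hx : x ∈ Subgroup.normalizer ((Subgroup.zpowers t : Subgroup P) : Set P) := by
    rw [Subgroup.mem_normalizer_iff]
    intro g
    constructor
    · rintro ⟨k, rfl⟩
      refine ⟨-k, ?_⟩
      show t ^ (-k) = x * t ^ k * x⁻¹
      rw [← conj_zpow, h, inv_zpow, zpow_neg]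
    · rintro ⟨k, hk⟩
      refine ⟨-k, ?_⟩
      have hk' : t ^ k = x * g * x⁻¹ := hk
      show t ^ (-k) = g
      have : g = x⁻¹ * t ^ k * x := by rw [hk']; group
      rw [this]
      have h2 : x⁻¹ * t ^ k * x = (x⁻¹ * t * x) ^ k := by
        have := conj_zpow (a := x⁻¹) (b := t) (i := k)
        rw [inv_inv] at this
        exact this.symm
      rw [h2, h', inv_zpow, zpow_neg]
  have hc := hirr t hx
  rw [Subgroup.mem_centralizer_iff] at hc
  have h3 : t * x = x * t := hc t (Set.mem_singleton t)
  have h4 : t = t⁻¹ := by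
    rw [← h, ← h3]; group
  calc t ^ 2 = t * t := pow_two t
    _ = t * t⁻¹ := by rw [← h4]
    _ = 1 := mul_inv_cancel t

theorem key_count {P : Type*} [Group P] [Fintype P] [DecidableEq P]
    (hirr : ∀ y : P, Subgroup.normalizer ((Subgroup.zpowers y : Subgroup P) : Set P) ≤
      Subgroup.centralizer {y}) :
    (Finset.univ.filter (fun q : P × P => q.1 ^ 2 = q.2 ^ 2)).card ≤
      ∑ t : P, if t ^ 2 = 1 then Nat.card (Subgroup.centralizer ({t} : Set P)) else 0 := by
  classical
  -- reparametrise q = (x, x * t)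
  have h1 : (Finset.univ.filter (fun q : P × P => q.1 ^ 2 = q.2 ^ 2)).card
      = (Finset.univ.filter (fun q : P × P => q.2 * q.1 * q.2⁻¹ = q.1⁻¹)).card := by
    refine Finset.card_bij' (fun q _ => (q.1⁻¹ * q.2, q.1)) (fun q _ => (q.2, q.2 * q.1))
      ?_ ?_ ?_ ?_
    · intro q hq
      simp only [Finset.mem_filter, Finset.mem_univ, true_and] at hq ⊢
      have : q.1 * q.1 = q.2 * q.2 := by rw [← pow_two, ← pow_two]; exact hq
      calc q.1 * (q.1⁻¹ * q.2) * q.1⁻¹ = q.2⁻¹ * (q.2 * q.2) * q.1⁻¹ := by group
        _ = q.2⁻¹ * (q.1 * q.1) * q.1⁻¹ := by rw [this]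
        _ = (q.1⁻¹ * q.2)⁻¹ := by group
    · intro q hq
      simp only [Finset.mem_filter, Finset.mem_univ, true_and] at hq ⊢
      have h2 : q.2 * q.1 = q.1⁻¹ * q.2 := by
        calc q.2 * q.1 = (q.2 * q.1 * q.2⁻¹) * q.2 := by group
          _ = q.1⁻¹ * q.2 := by rw [hq]
      rw [pow_two, pow_two]
      calc q.2 * q.2 = q.2 * (q.1 * q.1⁻¹) * q.2 := by group
        _ = (q.2 * q.1) * (q.1⁻¹ * q.2) := by group
        _ = (q.2 * q.1) * (q.2 * q.1) := by rw [← h2]
    · intro q _
      ext <;> simp
    · intro q _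
      ext <;> simp
  rw [h1]
  have h2 : (Finset.univ.filter (fun q : P × P => q.2 * q.1 * q.2⁻¹ = q.1⁻¹)).card
      = ∑ t : P, (Finset.univ.filter (fun x : P => x * t * x⁻¹ = t⁻¹)).card := by
    rw [Finset.card_filter, Fintype.sum_prod_type]
    refine Finset.sum_congr rfl (fun t _ => ?_)
    rw [Finset.card_filter]
  rw [h2]
  refine Finset.sum_le_sum (fun t _ => ?_)
  by_cases ht : t ^ 2 = 1
  · rw [if_pos ht]
    have hinv : t⁻¹ = t := by
      rw [inv_eq_iff_mul_eq_one, ← pow_two, ht]
    rw [Nat.card_eq_fintype_card, Fintype.card_subtype]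
    refine Finset.card_le_card ?_
    intro x hx
    simp only [Finset.mem_filter, Finset.mem_univ, true_and] at hx ⊢
    rw [Subgroup.mem_centralizer_iff]
    intro h hh
    rw [Set.mem_singleton_iff] at hh
    subst hh
    rw [hinv] at hx
    calc h * x = (x * h * x⁻¹) * x := by rw [hx]
      _ = x * h := by group
  · rw [if_neg ht]
    rw [Nat.le_zero, Finset.card_eq_zero, Finset.filter_eq_empty_iff]
    intro x _ hx
    exact ht (sq_eq_one_of_real hirr x t hx)

theorem sum_centralizers {P : Type*} [Group P] [Fintype P] [DecidableEq P] :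
    (∑ t : P, if t ^ 2 = 1 then Nat.card (Subgroup.centralizer ({t} : Set P)) else 0)
      = Nat.card P *
        (Nat.card {c : ConjClasses P // ∃ y : P, ConjClasses.mk y = c ∧ orderOf y = 2} + 1) := by
  classical
  have hcard : (Nat.card P : ℂ) ≠ 0 := by exact_mod_cast Nat.card_pos.ne'
  have hp : ∀ g : P, (∃ y : P, ConjClasses.mk y = ConjClasses.mk g ∧ orderOf y = 2) ↔
      orderOf g = 2 := by
    intro g
    constructor
    · rintro ⟨y, hy, h2⟩
      rw [ConjClasses.mk_eq_mk_iff_isConj, isConj_iff] at hy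
      obtain ⟨c, rfl⟩ := hy
      rw [← h2]
      exact orderOf_injective (MulAut.conj c).toMonoidHom (MulAut.conj c).injective y
    · intro h
      exact ⟨g, rfl, h⟩
  have h1 := Cfsg.Agent.Lib.Helper3.ClassCount.card_classes_eq (G := P)
    (fun c => ∃ y : P, ConjClasses.mk y = c ∧ orderOf y = 2)
  have h2 : (∑ g : P, (if (∃ y : P, ConjClasses.mk y = ConjClasses.mk g ∧ orderOf y = 2) then
      (Nat.card (Subgroup.centralizer ({g} : Set P)) : ℂ) else 0))
      = (Nat.card P : ℂ) *
        (Nat.card {c : ConjClasses P // ∃ y : P, ConjClasses.mk y = c ∧ orderOf y = 2} : ℂ) := by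
    rw [h1, ← mul_assoc, mul_inv_cancel₀ hcard, one_mul]
  have h3 : ∀ t : P, ((if t ^ 2 = 1 then Nat.card (Subgroup.centralizer ({t} : Set P)) else 0 : ℕ) : ℂ)
      = (if (∃ y : P, ConjClasses.mk y = ConjClasses.mk t ∧ orderOf y = 2) then
          (Nat.card (Subgroup.centralizer ({t} : Set P)) : ℂ) else 0)
        + (if t = 1 then (Nat.card P : ℂ) else 0) := by
    intro t
    by_cases ht1 : t = 1
    · subst ht1
      have : ¬ (∃ y : P, ConjClasses.mk y = ConjClasses.mk (1 : P) ∧ orderOf y = 2) := by
        rw [hp]; simp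
      rw [if_neg this, if_pos rfl, if_pos (one_pow 2), zero_add]
      congr 1
      have : Subgroup.centralizer ({1} : Set P) = ⊤ := by
        ext x
        simp [Subgroup.mem_centralizer_iff]
      rw [this, Nat.card_congr Subgroup.topEquiv.toEquiv]
    · rw [if_neg ht1, add_zero]
      by_cases ht : t ^ 2 = 1
      · have : orderOf t = 2 := by
          have hd : orderOf t ∣ 2 := orderOf_dvd_of_pow_eq_one ht
          rcases (Nat.dvd_prime Nat.prime_two).1 hd with h | h
          · exact absurd (orderOf_eq_one_iff.1 h) ht1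
          · exact h
        rw [if_pos ht, if_pos ((hp t).2 this)]
      · have : ¬ orderOf t = 2 := by
          intro h
          exact ht (by rw [← h]; exact pow_orderOf_eq_one t)
        rw [if_neg ht, if_neg (fun h => this ((hp t).1 h))]
        simp
  have h4 : ((∑ t : P, if t ^ 2 = 1 then Nat.card (Subgroup.centralizer ({t} : Set P)) else 0 : ℕ) : ℂ)
      = ((Nat.card P *
        (Nat.card {c : ConjClasses P // ∃ y : P, ConjClasses.mk y = c ∧ orderOf y = 2} + 1) : ℕ) : ℂ) := by
    rw [Nat.cast_sum]
    simp only [h3]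
    rw [Finset.sum_add_distrib, h2]
    simp only [Finset.sum_ite_eq', Finset.mem_univ, if_true]
    push_cast
    ring
  exact_mod_cast h4

theorem result {P : Type*} [Group P] [Finite P] (hP : IsPGroup 2 P)
    (hirr : ∀ y : P, Subgroup.normalizer ((Subgroup.zpowers y : Subgroup P) : Set P) ≤ Subgroup.centralizer {y}) :
    Nat.card (P ⧸ frattini P) ≤ Nat.card {c : ConjClasses P // ∃ y : P, ConjClasses.mk y = c ∧ orderOf y = 2} + 1 ∧
    Nat.card (P ⧸ frattini P) ≤ Nat.card (Subgroup.closure {y : P | orderOf y = 2}) := by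
  classical
  have : Fintype P := Fintype.ofFinite P
  have : Fact (Nat.Prime 2) := ⟨Nat.prime_two⟩
  set s := Nat.card {c : ConjClasses P // ∃ y : P, ConjClasses.mk y = c ∧ orderOf y = 2} with hs
  have hfirst : Nat.card (P ⧸ frattini P) ≤ s + 1 := by
    -- squares
    set Sq : Finset P := Finset.univ.image (fun x : P => x ^ 2) with hSq
    have hSqle : Sq.card ≤ Nat.card (frattini P) := by
      rw [Nat.card_eq_fintype_card, Fintype.card_subtype]
      refine Finset.card_le_card ?_
      intro g hg
      rw [hSq, Finset.mem_image] at hg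
      obtain ⟨x, _, rfl⟩ := hg
      simp only [Finset.mem_filter, Finset.mem_univ, true_and]
      exact Cfsg.Agent.Lib.Helper63.PFrattini.pow_mem_frattini hP x
    have hsum : Fintype.card P = ∑ g ∈ Sq, (Finset.univ.filter (fun x : P => x ^ 2 = g)).card := by
      rw [← Finset.card_univ]
      exact Finset.card_eq_sum_card_fiberwise (fun x _ => Finset.mem_image_of_mem _ (Finset.mem_univ x))
    have hCS : (∑ g ∈ Sq, (Finset.univ.filter (fun x : P => x ^ 2 = g)).card) ^ 2
        ≤ Sq.card * ∑ g ∈ Sq, (Finset.univ.filter (fun x : P => x ^ 2 = g)).card ^ 2 :=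
      sq_sum_le_card_mul_sum_sq
    have hpairs : ∑ g ∈ Sq, (Finset.univ.filter (fun x : P => x ^ 2 = g)).card ^ 2
        ≤ (Finset.univ.filter (fun q : P × P => q.1 ^ 2 = q.2 ^ 2)).card := by
      have h1 : (Finset.univ.filter (fun q : P × P => q.1 ^ 2 = q.2 ^ 2)).card
          = ∑ g : P, (Finset.univ.filter (fun x : P => x ^ 2 = g)).card ^ 2 := by
        have hfib : ∀ g : P, (Finset.univ.filter (fun x : P => x ^ 2 = g)).card ^ 2
            = ((Finset.univ.filter (fun q : P × P => q.1 ^ 2 = q.2 ^ 2)).filter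
                (fun q => q.1 ^ 2 = g)).card := by
          intro g
          rw [pow_two, ← Finset.card_product]
          congr 1
          ext q
          simp only [Finset.mem_product, Finset.mem_filter, Finset.mem_univ, true_and]
          constructor
          · rintro ⟨h1, h2⟩
            exact ⟨h1.trans h2.symm, h1⟩
          · rintro ⟨h1, h2⟩
            exact ⟨h2, h1 ▸ h2⟩
        simp only [hfib]
        exact Finset.card_eq_sum_card_fiberwise (f := fun q : P × P => q.1 ^ 2)
          (t := Finset.univ) (fun _ _ => Finset.mem_univ _)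
      rw [h1]
      exact Finset.sum_le_sum_of_subset (Finset.subset_univ _)
    have hkey := key_count hirr
    rw [sum_centralizers] at hkey
    have hmain : Fintype.card P ^ 2 ≤ Nat.card (frattini P) * (Nat.card P * (s + 1)) := by
      calc Fintype.card P ^ 2
          = (∑ g ∈ Sq, (Finset.univ.filter (fun x : P => x ^ 2 = g)).card) ^ 2 := by rw [← hsum]
        _ ≤ Sq.card * ∑ g ∈ Sq, (Finset.univ.filter (fun x : P => x ^ 2 = g)).card ^ 2 := hCS
        _ ≤ Nat.card (frattini P) * (Nat.card P * (s + 1)) :=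
            Nat.mul_le_mul hSqle (hpairs.trans hkey)
    have hlag : Nat.card P = Nat.card (P ⧸ frattini P) * Nat.card (frattini P) :=
      Subgroup.card_eq_card_quotient_mul_card_subgroup (frattini P)
    have hPpos : 0 < Nat.card P := Nat.card_pos
    have hFpos : 0 < Nat.card (frattini P) := Nat.card_pos
    rw [← Nat.card_eq_fintype_card] at hmain
    have h5 : Nat.card P * (Nat.card (P ⧸ frattini P) * Nat.card (frattini P))
        ≤ Nat.card P * ((s + 1) * Nat.card (frattini P)) := by
      calc Nat.card P * (Nat.card (P ⧸ frattini P) * Nat.card (frattini P))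
          = Nat.card P ^ 2 := by rw [← hlag, pow_two]
        _ ≤ Nat.card (frattini P) * (Nat.card P * (s + 1)) := hmain
        _ = Nat.card P * ((s + 1) * Nat.card (frattini P)) := by ring
    have h6 := Nat.le_of_mul_le_mul_left h5 hPpos
    exact Nat.le_of_mul_le_mul_right h6 hFpos
  refine ⟨hfirst, hfirst.trans ?_⟩
  -- s + 1 ≤ card of closure of involutions
  have hchoose : ∀ c : {c : ConjClasses P // ∃ y : P, ConjClasses.mk y = c ∧ orderOf y = 2},
      ∃ y : P, ConjClasses.mk y = c.1 ∧ orderOf y = 2 := fun c => c.2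
  choose f hf1 hf2 using hchoose
  let F : Option {c : ConjClasses P // ∃ y : P, ConjClasses.mk y = c ∧ orderOf y = 2} →
      Subgroup.closure {y : P | orderOf y = 2} := fun o =>
    match o with
    | none => 1
    | some c => ⟨f c, Subgroup.subset_closure (hf2 c)⟩
  have hF : Function.Injective F := by
    intro a b hab
    rcases a with _ | a <;> rcases b with _ | b
    · rfl
    · exfalso
      have h1 : (1 : P) = f b := congrArg Subtype.val hab
      have := hf2 b
      rw [← h1] at this
      simp at this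
    · exfalso
      have h1 : f a = (1 : P) := congrArg Subtype.val hab
      have := hf2 a
      rw [h1] at this
      simp at this
    · have h1 : f a = f b := congrArg Subtype.val hab
      congr 1
      apply Subtype.ext
      rw [← hf1 a, ← hf1 b, h1]
  have := Nat.card_le_card_of_injective F hF
  rwa [Finite.card_option] at this
end Cfsg.Agent.S4029
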