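import Cfsg.Statements.S4032
import Cfsg.Agent.Lib.Helper67.SylowLift

set_option autoImplicit false
open Cfsg

namespace Cfsg.Agent.S4032

open Subgroup
open Cfsg.Agent.Lib.Helper67

theorem conj_pow_eq' {G : Type*} [Group G] (t x : G) (n : ℕ) :
    t * x ^ n * t⁻¹ = (t * x * t⁻¹) ^ n := by
  have h1 : t * x ^ n * t⁻¹ = MulAut.conj t (x ^ n) := by simp
  have h2 : t * x * t⁻¹ = MulAut.conj t x := by simp
  rw [h1, h2, map_pow]

/-- Let π be a set of primes and G a finite group in which N_G(⟨x⟩) = C_G(x) for every π-element x. If N is a normal subgroup of G whose order is divisible by no prime of π, then G/N has the same property: N_{G/N}(⟨y⟩) = C_{G/N}(y) for every π-element y of G/N. -/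
theorem result {G : Type*} [Group G] [Finite G] (π : Set ℕ)
    (hirr : ∀ x : G, (∀ r : ℕ, r.Prime → r ∣ orderOf x → r ∈ π) →
      Subgroup.normalizer ((Subgroup.zpowers x : Subgroup G) : Set G) ≤ Subgroup.centralizer {x})
    (N : Subgroup G) [N.Normal] (hN : ∀ r : ℕ, r.Prime → r ∣ Nat.card N → r ∉ π) :
    ∀ y : G ⧸ N, (∀ r : ℕ, r.Prime → r ∣ orderOf y → r ∈ π) →
      Subgroup.normalizer ((Subgroup.zpowers y : Subgroup (G ⧸ N)) : Set (G ⧸ N)) ≤ Subgroup.centralizer {y} := by
  intro y hy gb hgb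
  have hnpos : 0 < orderOf y := orderOf_pos y
  -- gb y gb⁻¹ = y ^ k with k ≥ 1
  have h1 : gb * y * gb⁻¹ ∈ zpowers y := (mem_normalizer_iff.mp hgb y).mp (mem_zpowers y)
  rw [← mem_powers_iff_mem_zpowers] at h1
  obtain ⟨k0, hk0⟩ := h1
  obtain ⟨k, hk1, hk⟩ : ∃ k : ℕ, 1 ≤ k ∧ y ^ k = gb * y * gb⁻¹ := by
    refine ⟨k0 + orderOf y, by omega, ?_⟩
    rw [pow_add, pow_orderOf_eq_one, mul_one]
    exact hk0
  -- key: y ^ k = y
  have hkey : y ^ k = y := by
    have hmod : k ≡ 1 [MOD orderOf y] := by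
      apply Nat.ModEq.symm
      rw [Nat.modEq_iff_dvd' hk1, Nat.dvd_iff_prime_pow_dvd_dvd]
      intro q e hq hqe
      rcases Nat.eq_zero_or_pos e with rfl | he
      · simp
      have hqn : q ∣ orderOf y := (dvd_pow_self q he.ne').trans hqe
      have hqπ : q ∈ π := hy q hq hqn
      set u := y ^ (orderOf y / q ^ e) with hudef
      have hu : orderOf u = q ^ e := orderOf_pow_orderOf_div hnpos.ne' hqe
      have hgu : gb * u * gb⁻¹ = u ^ k := by
        rw [hudef, conj_pow_eq', ← hk, ← pow_mul, ← pow_mul, mul_comm]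
      obtain ⟨w, a, m, hw, hwm, hqm⟩ := SylowLift.exists_pElement_lift N hq u
      obtain ⟨g, rfl⟩ := QuotientGroup.mk_surjective gb
      have : Fact q.Prime := ⟨hq⟩
      have hqN : ¬ q ∣ Nat.card N := fun h => hN q hq h hqπ
      have hz : w ^ k ∈ zpowers w := pow_mem (mem_zpowers w) k
      have hg : ((g * w * g⁻¹ : G) : G ⧸ N) = ((w ^ k : G) : G ⧸ N) := by
        calc ((g * w * g⁻¹ : G) : G ⧸ N) = (g : G ⧸ N) * (w : G ⧸ N) * (g : G ⧸ N)⁻¹ := by
              rw [QuotientGroup.mk_mul, QuotientGroup.mk_mul, QuotientGroup.mk_inv]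
          _ = (g : G ⧸ N) * u ^ m * (g : G ⧸ N)⁻¹ := by rw [hwm]
          _ = ((g : G ⧸ N) * u * (g : G ⧸ N)⁻¹) ^ m := conj_pow_eq' _ _ _
          _ = (u ^ k) ^ m := by rw [hgu]
          _ = (u ^ m) ^ k := pow_right_comm u k m
          _ = (w : G ⧸ N) ^ k := by rw [hwm]
          _ = ((w ^ k : G) : G ⧸ N) := by rw [QuotientGroup.mk_pow]
      obtain ⟨g', hg'⟩ := SylowLift.exists_conj_eq_of_quotient N hqN w a hw g (w ^ k) hz hg
      have hwπ : ∀ r : ℕ, r.Prime → r ∣ orderOf w → r ∈ π := by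
        intro r hr hrw
        rw [hw] at hrw
        have := (Nat.prime_dvd_prime_iff_eq hr hq).mp (hr.dvd_of_dvd_pow hrw)
        rw [this]
        exact hqπ
      have hg'N : g' ∈ normalizer ((zpowers w : Subgroup G) : Set G) := by
        apply mem_normalizer_fintype
        intro n hn
        obtain ⟨i, rfl⟩ := mem_zpowers_iff.mp hn
        have e1 : g' * w ^ i * g'⁻¹ = MulAut.conj g' (w ^ i) := by simp
        have e2 : MulAut.conj g' w = w ^ k := by simpa using hg'
        rw [e1, map_zpow, e2]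
        exact zpow_mem (pow_mem (mem_zpowers _) k) i
      have hg'C := hirr w hwπ hg'N
      rw [mem_centralizer_iff] at hg'C
      have h4 : w * g' = g' * w := hg'C w rfl
      have h5 : w ^ k = w := by
        rw [← hg', ← h4]; group
      have h6 : (u ^ m) ^ k = (u ^ m) ^ 1 := by
        rw [pow_one, ← hwm, ← QuotientGroup.mk_pow, h5]
      have h7 : orderOf (u ^ m) = q ^ e := by
        rw [← hu]
        apply Nat.Coprime.orderOf_pow
        rw [hu]
        exact Nat.Coprime.pow_left _ ((Nat.Prime.coprime_iff_not_dvd hq).mpr hqm)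
      have h8 : k ≡ 1 [MOD q ^ e] := by
        rw [← h7]
        exact pow_eq_pow_iff_modEq.mp h6
      exact (Nat.modEq_iff_dvd' hk1).mp h8.symm
    have := pow_eq_pow_iff_modEq.mpr hmod
    rwa [pow_one] at this
  rw [mem_centralizer_iff]
  intro h hh
  rw [Set.mem_singleton_iff] at hh
  subst hh
  rw [hkey] at hk
  nth_rewrite 1 [hk]
  group

end Cfsg.Agent.S4032
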