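import Cfsg.Statements.S4034
import Cfsg.Agent.S0143
import Cfsg.Agent.Lib.Helper67.ClassSize
import Cfsg.Agent.Lib.Helper67.RealOdd

set_option autoImplicit false
open Cfsg

namespace Cfsg.Agent.S4034

open Subgroup
open Cfsg.Agent.Lib.Helper67

universe u

/-- All elements of order prime to `p` have centralizers of `p`-power index. -/
def PProp (p : ℕ) (G : Type*) [Group G] : Prop :=
  ∀ x : G, (orderOf x).Coprime p → ∃ k : ℕ, (centralizer ({x} : Set G)).index = p ^ k

/-- No nontrivial normal `p`-subgroup. -/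
def NoNormalP (p : ℕ) (G : Type*) [Group G] : Prop :=
  ∀ N : Subgroup G, N.Normal → IsPGroup p N → N = ⊥

theorem normal_le_centralizer {G : Type*} [Group G] [Finite G] {p : ℕ} (hp : p.Prime)
    (N : Subgroup G) [N.Normal] (hN : ¬ p ∣ Nat.card N) (y : G) (k : ℕ)
    (hy : (centralizer ({y} : Set G)).index = p ^ k) : N ≤ centralizer ({y} : Set G) := by
  have h1 := ClassSize.relIndex_dvd_index_of_normal_right N (centralizer ({y} : Set G))
  rw [hy] at h1
  have h2 : (centralizer ({y} : Set G)).relIndex N ∣ Nat.card N := relIndex_dvd_card _ _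
  obtain ⟨j, -, hj⟩ := (Nat.dvd_prime_pow hp).mp h1
  have hj0 : j = 0 := by
    by_contra hj0
    exact hN ((dvd_pow_self p hj0).trans (hj ▸ h2))
  rw [hj0, pow_zero] at hj
  exact relIndex_eq_one.mp hj

theorem PProp.subgroup {G : Type*} [Group G] [Finite G] {p : ℕ} (hp : p.Prime) (h : PProp p G)
    (N : Subgroup G) [N.Normal] : PProp p N := by
  intro x hx
  have hx' : (orderOf (x : G)).Coprime p := by rwa [Subgroup.orderOf_coe]
  obtain ⟨k, hk⟩ := h (x : G) hx'
  have := ClassSize.index_centralizer_subgroup_dvd N x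
  rw [hk] at this
  obtain ⟨j, -, hj⟩ := (Nat.dvd_prime_pow hp).mp this
  exact ⟨j, hj⟩

theorem PProp.quotient {G : Type*} [Group G] [Finite G] {p : ℕ} (hp : p.Prime) (h : PProp p G)
    (N : Subgroup G) [N.Normal] : PProp p (G ⧸ N) := by
  intro u hu
  obtain ⟨x, hx, rfl⟩ := ClassSize.exists_coprime_lift N hp u hu
  obtain ⟨k, hk⟩ := h x hx
  have := ClassSize.index_centralizer_quotient_dvd N x
  rw [hk] at this
  obtain ⟨j, -, hj⟩ := (Nat.dvd_prime_pow hp).mp this
  exact ⟨j, hj⟩

theorem NoNormalP.subgroup {G : Type*} [Group G] [Finite G] {p : ℕ} [Fact p.Prime]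
    (h : NoNormalP p G) (C : Subgroup G) [C.Normal] : NoNormalP p C := by
  intro M hMn hMp
  obtain ⟨Q⟩ : Nonempty (Sylow p C) := inferInstance
  set M0 : Subgroup G := M.map C.subtype with hM0
  have key : normalClosure (M0 : Set G) ≤ (Q : Subgroup C).map C.subtype := by
    rw [normalClosure, closure_le]
    intro z hz
    rw [Group.mem_conjugatesOfSet_iff] at hz
    obtain ⟨m, hm, hconj⟩ := hz
    obtain ⟨g, rfl⟩ := isConj_iff.mp hconj
    obtain ⟨m', hm', rfl⟩ := hm
    let Mg : Subgroup C := M.map (MulAut.conjNormal g : C ≃* C).toMonoidHom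
    have hMgn : Mg.Normal := hMn.map _ (MulAut.conjNormal g : C ≃* C).surjective
    have hMgp : IsPGroup p Mg := hMp.map _
    have hle : Mg ≤ Q := hMgp.le_sylow_of_normal Q
    refine ⟨MulAut.conjNormal g m', hle ⟨m', hm', rfl⟩, ?_⟩
    simp
  have hp' : IsPGroup p (normalClosure (M0 : Set G)) := (Q.isPGroup'.map C.subtype).to_le key
  have hbot := h _ normalClosure_normal hp'
  have hM0bot : M0 = ⊥ := le_bot_iff.mp (hbot ▸ le_normalClosure)
  rw [eq_bot_iff]
  intro x hx
  have hx0 : (x : G) ∈ M0 := ⟨x, hx, rfl⟩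
  rw [hM0bot, mem_bot] at hx0
  rw [mem_bot]
  exact Subtype.ext hx0

/-- The elements of order prime to `p` of a normal subgroup, when they form a subgroup `A`,
give a normal subgroup of the whole group. -/
theorem normal_map_of_coprime {G : Type*} [Group G] [Finite G] {p : ℕ} (N : Subgroup G) [N.Normal]
    (A : Subgroup N) (hA : ¬ p ∣ Nat.card A) (hp : p.Prime)
    (hall : ∀ y : N, (orderOf y).Coprime p → y ∈ A) : (A.map N.subtype).Normal := by
  constructor
  rintro _ ⟨a, ha, rfl⟩ g
  refine ⟨MulAut.conjNormal g a, hall _ ?_, by simp⟩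
  rw [MulEquiv.orderOf_eq]
  have h1 : orderOf a ∣ Nat.card A := by
    have := orderOf_dvd_natCard (⟨a, ha⟩ : A)
    rwa [Subgroup.orderOf_mk] at this
  have h2 : Nat.Coprime (Nat.card A) p :=
    Nat.coprime_comm.mp ((Nat.Prime.coprime_iff_not_dvd hp).mpr hA)
  exact Nat.Coprime.coprime_dvd_left h1 h2

theorem normal_sub_structure {G : Type u} [Group G] [Finite G] {p : ℕ} [Fact p.Prime]
    (hG : NoNormalP p G) (N : Subgroup G) [N.Normal]
    (hN : ∃ D L : Subgroup N, D.Normal ∧ L.Normal ∧ D ≤ L ∧ IsPGroup p D ∧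
      (∀ y : N, (orderOf y).Coprime p → y ∈ L) ∧
      (∀ x ∈ L, ∀ y ∈ L, x * y * x⁻¹ * y⁻¹ ∈ D) ∧ ¬ p ∣ D.relIndex L) :
    ∃ L : Subgroup G, L.Normal ∧ ¬ p ∣ Nat.card L ∧
      (∀ y ∈ N, (orderOf y).Coprime p → y ∈ L) ∧ (∀ x ∈ L, ∀ y ∈ L, x * y * x⁻¹ * y⁻¹ = 1) := by
  obtain ⟨D, L, hDn, hLn, hDL, hDp, hall, hcomm, hrel⟩ := hN
  have hD : D = ⊥ := (hG.subgroup N) D hDn hDp
  subst hD
  rw [relIndex_bot_left] at hrel
  have hp : p.Prime := Fact.out
  refine ⟨L.map N.subtype, normal_map_of_coprime N L hrel hp hall, ?_, ?_, ?_⟩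
  · rwa [Nat.card_congr (L.equivMapOfInjective N.subtype N.subtype_injective).symm.toEquiv]
  · intro y hy hcop
    exact ⟨⟨y, hy⟩, hall ⟨y, hy⟩ (by rwa [Subgroup.orderOf_mk]), rfl⟩
  · rintro _ ⟨x, hx, rfl⟩ _ ⟨y, hy, rfl⟩
    have h1 := hcomm x hx y hy
    rw [mem_bot] at h1
    have h2 := congrArg Subtype.val h1
    simpa using h2

theorem exists_normal_p_of_central {G : Type*} [Group G] [Finite G] {p : ℕ} [Fact p.Prime]
    (N : Subgroup G) [N.Normal] (hNc : N ≤ center G) (hN : ¬ p ∣ Nat.card N)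
    (Db : Subgroup (G ⧸ N)) [Db.Normal] (hDb : IsPGroup p Db) :
    ∃ Q : Subgroup G, Q.Normal ∧ IsPGroup p Q ∧ Nat.card Q = Nat.card Db := by
  have hp : p.Prime := Fact.out
  set M : Subgroup G := Db.comap (QuotientGroup.mk' N) with hM
  have hNM : N ≤ M := by
    intro n hn
    rw [hM, mem_comap]
    have h1 : (QuotientGroup.mk' N) n = 1 := (QuotientGroup.eq_one_iff n).mpr hn
    rw [h1]
    exact one_mem _
  have hMn : M.Normal := Normal.comap inferInstance _
  set N' : Subgroup M := N.subgroupOf M with hN'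
  have hN'n : N'.Normal := Normal.subgroupOf inferInstance M
  have hcardN' : Nat.card N' = Nat.card N := Nat.card_congr (subgroupOfEquivOfLe hNM).toEquiv
  have hidx : N'.index = Nat.card Db := by
    show N.relIndex M = _
    have h1 : (QuotientGroup.mk' N).ker.relIndex M = Nat.card (M.map (QuotientGroup.mk' N)) :=
      relIndex_ker M (QuotientGroup.mk' N)
    rw [QuotientGroup.ker_mk'] at h1
    rw [h1, hM, map_comap_eq_self_of_surjective (QuotientGroup.mk'_surjective N)]
  obtain ⟨a, ha⟩ := IsPGroup.iff_card.mp hDb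
  have hcopN : Nat.Coprime (Nat.card N) (p ^ a) :=
    Nat.Coprime.pow_right _ (Nat.coprime_comm.mp ((Nat.Prime.coprime_iff_not_dvd hp).mpr hN))
  have hcop : (Nat.card N').Coprime N'.index := by
    rw [hcardN', hidx, ha]
    exact hcopN
  obtain ⟨Q', hQ'⟩ := exists_right_complement'_of_coprime hcop
  have hcardQ' : Nat.card Q' = p ^ a := by
    have h1 := hQ'.card_mul_card
    have h2 := card_mul_index N'
    rw [← h2, hidx, ha] at h1
    exact Nat.eq_of_mul_eq_mul_left Nat.card_pos h1
  set Q : Subgroup G := Q'.map M.subtype with hQ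
  have hcardQ : Nat.card Q = p ^ a := by
    rw [← hcardQ']
    exact Nat.card_congr (Q'.equivMapOfInjective M.subtype M.subtype_injective).symm.toEquiv
  have hQp : IsPGroup p Q := IsPGroup.of_card hcardQ
  have hchar : ∀ z ∈ M, (∃ k : ℕ, z ^ p ^ k = 1) → z ∈ Q := by
    intro z hz ⟨k, hk⟩
    obtain ⟨⟨⟨n', hn'⟩, ⟨q', hq'⟩⟩, hnq, -⟩ := hQ'.existsUnique (⟨z, hz⟩ : M)
    have hz' : z = (n' : G) * (q' : G) := by
      have h1 := congrArg Subtype.val hnq
      simpa using h1.symm
    have hnN : (n' : G) ∈ N := hn'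
    have hqQ : (q' : G) ∈ Q := ⟨q', hq', rfl⟩
    have hcomm : Commute (n' : G) (q' : G) := (mem_center_iff.mp (hNc hnN) (q' : G)).symm
    have hpow : (n' : G) ^ p ^ k * (q' : G) ^ p ^ k = 1 := by rw [← hcomm.mul_pow, ← hz', hk]
    have h1 : ((n' : G) ^ p ^ k) ∈ Q := by
      have h0 : (n' : G) ^ p ^ k = ((q' : G) ^ p ^ k)⁻¹ := eq_inv_of_mul_eq_one_left hpow
      rw [h0]
      exact inv_mem (pow_mem hqQ _)
    have h2 : ((n' : G) ^ p ^ k) ∈ N := pow_mem hnN _
    have h3 : orderOf ((n' : G) ^ p ^ k) ∣ Nat.card N := by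
      have h0 := orderOf_dvd_natCard (⟨_, h2⟩ : N)
      rwa [Subgroup.orderOf_mk] at h0
    have h4 : orderOf ((n' : G) ^ p ^ k) ∣ p ^ a := by
      have h0 := orderOf_dvd_natCard (⟨_, h1⟩ : Q)
      rwa [Subgroup.orderOf_mk, hcardQ] at h0
    have h5 : (n' : G) ^ p ^ k = 1 :=
      orderOf_eq_one_iff.mp (Nat.eq_one_of_dvd_coprimes hcopN h3 h4)
    have h6 : orderOf (n' : G) ∣ p ^ k := orderOf_dvd_of_pow_eq_one h5
    have h7 : orderOf (n' : G) ∣ Nat.card N := by
      have h0 := orderOf_dvd_natCard (⟨_, hnN⟩ : N)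
      rwa [Subgroup.orderOf_mk] at h0
    have hcopk : Nat.Coprime (Nat.card N) (p ^ k) :=
      Nat.Coprime.pow_right _ (Nat.coprime_comm.mp ((Nat.Prime.coprime_iff_not_dvd hp).mpr hN))
    have h8 : (n' : G) = 1 := orderOf_eq_one_iff.mp (Nat.eq_one_of_dvd_coprimes hcopk h7 h6)
    rw [hz', h8, one_mul]
    exact hqQ
  refine ⟨Q, ⟨?_⟩, hQp, by rw [hcardQ, ha]⟩
  intro q hq g
  apply hchar
  · have hqM : q ∈ M := by
      obtain ⟨q', -, rfl⟩ := hq
      exact q'.2
    exact hMn.conj_mem q hqM g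
  · obtain ⟨k, hk⟩ := hQp ⟨q, hq⟩
    refine ⟨k, ?_⟩
    have hk' : q ^ p ^ k = 1 := by simpa using congrArg Subtype.val hk
    rw [conj_pow, hk']
    simp

theorem card_quotient_lt {G : Type*} [Group G] [Finite G] (N : Subgroup G) [N.Normal]
    (hN : N ≠ ⊥) : Nat.card (G ⧸ N) < Nat.card G := by
  rw [card_eq_card_quotient_mul_card_subgroup N]
  have h1 : 1 < Nat.card N := (one_lt_card_iff_ne_bot N).mpr hN
  have h2 : 0 < Nat.card (G ⧸ N) := Nat.card_pos
  nlinarith

theorem card_subgroup_lt {G : Type*} [Group G] [Finite G] (K : Subgroup G) (hK : K ≠ ⊤) :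
    Nat.card K < Nat.card G := by
  have h1 := card_mul_index K
  have h2 : K.index ≠ 1 := fun h => hK (index_eq_one.mp h)
  have h3 : 0 < K.index := Nat.pos_of_ne_zero index_ne_zero_of_finite
  have h4 : 0 < Nat.card K := Nat.card_pos
  have h5 : 2 ≤ K.index := by omega
  nlinarith

theorem structure_aux (p : ℕ) [Fact p.Prime] : ∀ n : ℕ, ∀ (G : Type u) [Group G] [Finite G],
    Nat.card G = n → PProp p G →
    ∃ D L : Subgroup G, D.Normal ∧ L.Normal ∧ D ≤ L ∧ IsPGroup p D ∧
      (∀ y : G, (orderOf y).Coprime p → y ∈ L) ∧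
      (∀ x ∈ L, ∀ y ∈ L, x * y * x⁻¹ * y⁻¹ ∈ D) ∧ ¬ p ∣ D.relIndex L := by
  intro n
  induction n using Nat.strong_induction_on with
  | _ n ih =>
  intro G _ _ hn hP
  have hp : p.Prime := Fact.out
  by_cases ha : ∃ N : Subgroup G, N.Normal ∧ N ≠ ⊥ ∧ IsPGroup p N
  · obtain ⟨N, hNn, hNne, hNp⟩ := ha
    have hlt : Nat.card (G ⧸ N) < n := hn ▸ card_quotient_lt N hNne
    obtain ⟨Db, Lb, hDbn, hLbn, hDL, hDbp, hall, hcomm, hrel⟩ :=
      ih _ hlt (G ⧸ N) rfl (hP.quotient hp N)
    refine ⟨Db.comap (QuotientGroup.mk' N), Lb.comap (QuotientGroup.mk' N), hDbn.comap _,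
      hLbn.comap _, comap_mono hDL, ?_, ?_, ?_, ?_⟩
    · exact hDbp.comap_of_ker_isPGroup _ (by rw [QuotientGroup.ker_mk']; exact hNp)
    · intro y hy
      rw [mem_comap]
      apply hall
      exact Nat.Coprime.coprime_dvd_left (orderOf_map_dvd (QuotientGroup.mk' N) y) hy
    · intro x hx y hy
      rw [mem_comap] at hx hy ⊢
      have h1 := hcomm _ hx _ hy
      simpa using h1
    · rw [relIndex_comap, map_comap_eq_self_of_surjective (QuotientGroup.mk'_surjective N)]
      exact hrel
  · have hNP : NoNormalP p G := by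
      intro N hNn hNp
      by_contra hne
      exact ha ⟨N, hNn, hne, hNp⟩
    set S : Set G := {y : G | (orderOf y).Coprime p} with hS
    have hSconj : ∀ g x, x ∈ S → g * x * g⁻¹ ∈ S := by
      intro g x hx
      show (orderOf (g * x * g⁻¹)).Coprime p
      have h1 : g * x * g⁻¹ = MulAut.conj g x := by simp
      rw [h1, MulEquiv.orderOf_eq]
      exact hx
    set K : Subgroup G := closure S with hK
    have hKn : K.Normal := RealOdd.closure_normal_of_conj_invariant S hSconj
    by_cases hKtop : K = ⊤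
    swap
    · have hlt : Nat.card K < n := hn ▸ card_subgroup_lt K hKtop
      obtain ⟨L, hLn, hLcard, hLall, hLcomm⟩ :=
        normal_sub_structure hNP K (ih _ hlt K rfl (hP.subgroup hp K))
      refine ⟨⊥, L, inferInstance, hLn, bot_le, IsPGroup.of_bot, ?_, ?_, ?_⟩
      · intro y hy
        exact hLall y (Subgroup.subset_closure hy) hy
      · intro x hx y hy
        rw [mem_bot]
        exact hLcomm x hx y hy
      · rwa [relIndex_bot_left]
    · by_cases hc : ∃ N : Subgroup G, N.Normal ∧ N ≠ ⊥ ∧ ¬ p ∣ Nat.card N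
      · obtain ⟨N, hNn, hNne, hNcard⟩ := hc
        have hNc : N ≤ center G := by
          intro z hz
          rw [mem_center_iff]
          have h1 : K ≤ centralizer ({z} : Set G) := by
            rw [hK, closure_le]
            intro y hy
            obtain ⟨k, hk⟩ := hP y hy
            have h2 := normal_le_centralizer hp N hNcard y k hk hz
            rw [SetLike.mem_coe, mem_centralizer_iff]
            intro h hh
            rw [Set.mem_singleton_iff] at hh
            subst hh
            exact ((mem_centralizer_iff.mp h2) y rfl).symm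
          intro g
          have hg : g ∈ centralizer ({z} : Set G) := h1 (hKtop ▸ mem_top g)
          exact ((mem_centralizer_iff.mp hg) z rfl).symm
        have hlt : Nat.card (G ⧸ N) < n := hn ▸ card_quotient_lt N hNne
        obtain ⟨Db, Lb, hDbn, hLbn, hDL, hDbp, hall, hcomm, hrel⟩ :=
          ih _ hlt (G ⧸ N) rfl (hP.quotient hp N)
        have hLtop : Lb = ⊤ := by
          rw [eq_top_iff]
          have h1 : K.map (QuotientGroup.mk' N) = ⊤ := by
            rw [hKtop, ← MonoidHom.range_eq_map, MonoidHom.range_eq_top]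
            exact QuotientGroup.mk'_surjective N
          rw [← h1, hK, MonoidHom.map_closure, closure_le]
          rintro _ ⟨y, hy, rfl⟩
          exact hall _ (Nat.Coprime.coprime_dvd_left (orderOf_map_dvd (QuotientGroup.mk' N) y) hy)
        subst hLtop
        obtain ⟨Q, hQn, hQp, hQcard⟩ := exists_normal_p_of_central N hNc hNcard Db hDbp
        have hQbot := hNP Q hQn hQp
        have hDbbot : Db = ⊥ := by
          rw [hQbot, card_bot] at hQcard
          exact (card_eq_one).mp hQcard.symm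
        subst hDbbot
        rw [relIndex_bot_left, Subgroup.card_top] at hrel
        have hGcard : ¬ p ∣ Nat.card G := by
          rw [card_eq_card_quotient_mul_card_subgroup N]
          exact fun h => (hp.dvd_mul.mp h).elim hrel hNcard
        refine ⟨⊥, ⊤, inferInstance, inferInstance, bot_le, IsPGroup.of_bot,
          fun y _ => mem_top y, ?_, ?_⟩
        · intro x _ y _
          rw [mem_bot]
          have hy : (orderOf y).Coprime p :=
            Nat.Coprime.coprime_dvd_left (orderOf_dvd_natCard y)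
              (Nat.coprime_comm.mp ((Nat.Prime.coprime_iff_not_dvd hp).mpr hGcard))
          obtain ⟨k, hk⟩ := hP y hy
          have htop : ¬ p ∣ Nat.card (⊤ : Subgroup G) := by rwa [Subgroup.card_top]
          have h2 := normal_le_centralizer hp ⊤ htop y k hk (mem_top x)
          have hxy : y * x = x * y := (mem_centralizer_iff.mp h2) y rfl
          rw [← hxy]
          group
        · rw [relIndex_bot_left, Subgroup.card_top]
          exact hGcard
      · have hNoP' : ∀ N : Subgroup G, N.Normal → ¬ p ∣ Nat.card N → N = ⊥ := by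
          intro N hNn hNcard
          by_contra hne
          exact hc ⟨N, hNn, hne, hNcard⟩
        by_cases htriv : Subsingleton G
        · refine ⟨⊥, ⊤, inferInstance, inferInstance, bot_le, IsPGroup.of_bot,
            fun y _ => mem_top y, ?_, ?_⟩
          · intro x _ y _
            rw [mem_bot]
            exact Subsingleton.elim _ _
          · rw [relIndex_bot_left, Subgroup.card_top, Nat.card_of_subsingleton (1 : G)]
            exact fun h => hp.one_lt.ne' (Nat.dvd_one.mp h)
        · exfalso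
          rw [not_subsingleton_iff_nontrivial] at htriv
          by_cases hs : IsSimpleGroup G
          · have hex : ∃ y : G, (orderOf y).Coprime p ∧ y ≠ 1 := by
              by_contra hne
              push Not at hne
              have h1 : K ≤ ⊥ := by
                rw [hK, closure_le]
                intro y hy
                rw [SetLike.mem_coe, mem_bot]
                exact hne y hy
              rw [hKtop] at h1
              exact top_ne_bot (le_bot_iff.mp h1)
            obtain ⟨y, hy, hy1⟩ := hex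
            obtain ⟨k, hk⟩ := hP y hy
            have hprime := Cfsg.Agent.S0143.result p k hp y hy1 hk
            by_cases hpd : p ∣ Nat.card G
            · have hcard : Nat.card G = p := ((Nat.prime_dvd_prime_iff_eq hp hprime).mp hpd).symm
              have hc1 : Nat.card (⊤ : Subgroup G) = p ^ 1 := by
                rw [Subgroup.card_top, hcard, pow_one]
              have hpg : IsPGroup p (⊤ : Subgroup G) := IsPGroup.of_card hc1
              exact top_ne_bot (hNP ⊤ inferInstance hpg)
            · exact top_ne_bot (hNoP' ⊤ inferInstance (by rwa [Subgroup.card_top]))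
          · have hex : ∃ N : Subgroup G, N.Normal ∧ N ≠ ⊥ ∧ N ≠ ⊤ := by
              by_contra hne
              push Not at hne
              apply hs
              exact ⟨fun H hH => by
                by_cases h : H = ⊥
                · exact Or.inl h
                · exact Or.inr (hne H hH h)⟩
            obtain ⟨N, hNn, hNbot, hNtop⟩ := hex
            have hlt : Nat.card N < n := hn ▸ card_subgroup_lt N hNtop
            obtain ⟨L, hLn, hLcard, hLall, hLcomm⟩ :=
              normal_sub_structure hNP N (ih _ hlt N rfl (hP.subgroup hp N))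
            have hLbot : L = ⊥ := hNoP' L hLn hLcard
            have hNp : IsPGroup p N := by
              intro x
              have hx : orderOf (x : G) ≠ 0 := (orderOf_pos (x : G)).ne'
              obtain ⟨a, m, hm, ham⟩ := Nat.exists_eq_pow_mul_and_not_dvd hx p hp.ne_one
              refine ⟨a, ?_⟩
              have h1 : (orderOf ((x : G) ^ p ^ a)).Coprime p := by
                have h0 : orderOf ((x : G) ^ p ^ a) ∣ m := by
                  apply orderOf_dvd_of_pow_eq_one
                  rw [← pow_mul, ← ham, pow_orderOf_eq_one]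
                exact Nat.Coprime.coprime_dvd_left h0
                  (Nat.coprime_comm.mp ((Nat.Prime.coprime_iff_not_dvd hp).mpr hm))
              have h2 := hLall _ (pow_mem x.2 _) h1
              rw [hLbot, mem_bot] at h2
              exact Subtype.ext (by simpa using h2)
            exact hNbot (hNP N hNn hNp)

theorem exists_conj_mem_of_index {C : Type*} [Group C] [Finite C] {p q : ℕ} [Fact q.Prime]
    (hp : p.Prime) (hpq : q ≠ p) (K : Subgroup C) (j : ℕ) (hK : K.index = p ^ j) (y : C) (a : ℕ)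
    (hy : orderOf y = q ^ a) : ∃ c : C, c * y * c⁻¹ ∈ K := by
  have hq : q.Prime := Fact.out
  set Z : Subgroup C := zpowers y with hZdef
  have hZcard : Nat.card Z = q ^ a := by rw [hZdef, Nat.card_zpowers, hy]
  have hZ : IsPGroup q Z := IsPGroup.of_card hZcard
  have hmod := hZ.card_modEq_card_fixedPoints (C ⧸ K)
  have hcard : Nat.card (C ⧸ K) = p ^ j := hK
  have hne : (MulAction.fixedPoints Z (C ⧸ K)).Nonempty := by
    by_contra hempty
    rw [Set.not_nonempty_iff_eq_empty] at hempty
    rw [hempty, hcard] at hmod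
    have h0 : Nat.card (∅ : Set (C ⧸ K)) = 0 := by simp
    rw [h0] at hmod
    have h1 : q ∣ p ^ j := (Nat.modEq_zero_iff_dvd).mp hmod
    exact hpq ((Nat.prime_dvd_prime_iff_eq hq hp).mp (hq.dvd_of_dvd_pow h1))
  obtain ⟨x, hx⟩ := hne
  obtain ⟨c, rfl⟩ := QuotientGroup.mk_surjective x
  refine ⟨c⁻¹, ?_⟩
  have h1 := hx ⟨y, mem_zpowers y⟩
  have h2 : ((y * c : C) : C ⧸ K) = (c : C ⧸ K) := h1
  rw [QuotientGroup.eq] at h2
  have h3 : c⁻¹ * y * c⁻¹⁻¹ = ((y * c)⁻¹ * c)⁻¹ := by group
  rw [h3]
  exact inv_mem h2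

theorem exists_zpow_decomp {G : Type*} [Group G] (y : G) (s t : ℕ) (hst : Nat.Coprime s t) :
    ∃ u v : ℤ, y = (y ^ s) ^ u * (y ^ t) ^ v := by
  refine ⟨Nat.gcdA s t, Nat.gcdB s t, ?_⟩
  have h1 := Nat.gcd_eq_gcd_ab s t
  rw [hst.gcd_eq_one] at h1
  have h2 : y = y ^ ((s : ℤ) * Nat.gcdA s t + (t : ℤ) * Nat.gcdB s t) := by
    rw [← h1]
    simp
  rw [zpow_add, zpow_mul, zpow_mul, zpow_natCast, zpow_natCast] at h2
  exact h2

theorem exists_conj_mem {G : Type*} [Group G] [Finite G] {p : ℕ} (hp : p.Prime) (H : Subgroup G)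
    (hHc : IsMulCommutative H) (k : ℕ) (hHi : H.index = p ^ k) :
    ∀ n : ℕ, ∀ x : G, orderOf x = n → n.Coprime p → ∃ g : G, g * x * g⁻¹ ∈ H := by
  intro n
  induction n using Nat.strong_induction_on with
  | _ n ih =>
  intro x hx hcop
  by_cases hx1 : x = 1
  · exact ⟨1, by simp [hx1, one_mem]⟩
  have hn1 : n ≠ 1 := by
    rw [← hx]
    exact fun h => hx1 (orderOf_eq_one_iff.mp h)
  obtain ⟨q, hq, hqn⟩ := Nat.exists_prime_and_dvd hn1
  have hqp : q ≠ p := by
    rintro rfl
    exact (Nat.Prime.coprime_iff_not_dvd hq).mp (Nat.coprime_comm.mp hcop) hqn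
  have hn0 : n ≠ 0 := by
    rw [← hx]
    exact (orderOf_pos x).ne'
  obtain ⟨a, m, hm, ham⟩ := Nat.exists_eq_pow_mul_and_not_dvd hn0 q hq.ne_one
  have hm0 : m ≠ 0 := by
    rintro rfl
    exact hm (dvd_zero q)
  have hmpos : 0 < m := Nat.pos_of_ne_zero hm0
  have ha : a ≠ 0 := by
    rintro rfl
    rw [pow_zero, one_mul] at ham
    exact hm (ham ▸ hqn)
  have hqa : 2 ≤ q ^ a := by
    calc 2 ≤ q := hq.two_le
      _ = q ^ 1 := (pow_one q).symm
      _ ≤ q ^ a := Nat.pow_le_pow_right hq.pos (Nat.one_le_iff_ne_zero.mpr ha)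
  have hmlt : m < n := by
    rw [ham]
    nlinarith
  have hqam : (q ^ a).Coprime m :=
    Nat.Coprime.pow_left _ ((Nat.Prime.coprime_iff_not_dvd hq).mpr hm)
  have hx' : orderOf (x ^ q ^ a) = m := by
    rw [orderOf_pow_of_dvd (pow_ne_zero _ hq.ne_zero) (hx ▸ ham ▸ dvd_mul_right _ _), hx, ham]
    exact Nat.mul_div_cancel_left _ (pow_pos hq.pos _)
  have hmcop : m.Coprime p := Nat.Coprime.coprime_dvd_left (ham ▸ dvd_mul_left _ _) hcop
  obtain ⟨g, hg⟩ := ih m hmlt (x ^ q ^ a) hx' hmcop
  set y : G := MulAut.conj g x with hy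
  have hyo : orderOf y = n := by rw [hy, MulEquiv.orderOf_eq, hx]
  have hy' : y ^ q ^ a ∈ H := by
    rw [hy, ← map_pow]
    simpa using hg
  set C : Subgroup G := centralizer ({y ^ q ^ a} : Set G) with hC
  have hHC : H ≤ C := by
    intro h hh
    rw [hC, mem_centralizer_iff]
    intro z hz
    rw [Set.mem_singleton_iff] at hz
    subst hz
    have h1 := hHc.is_comm.comm ⟨y ^ q ^ a, hy'⟩ ⟨h, hh⟩
    exact congrArg Subtype.val h1
  have hymC : y ^ m ∈ C := by
    rw [hC, mem_centralizer_iff]
    intro z hz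
    rw [Set.mem_singleton_iff] at hz
    subst hz
    rw [← pow_add, ← pow_add, add_comm]
  obtain ⟨j, hj⟩ : ∃ j, (H.subgroupOf C).index = p ^ j := by
    have h1 : H.relIndex C ∣ H.index := relIndex_dvd_index_of_le hHC
    rw [hHi] at h1
    obtain ⟨j, -, hj⟩ := (Nat.dvd_prime_pow hp).mp h1
    exact ⟨j, hj⟩
  have hym_ord : orderOf (⟨y ^ m, hymC⟩ : C) = q ^ a := by
    rw [Subgroup.orderOf_mk, orderOf_pow_of_dvd hm0 (hyo ▸ ham ▸ dvd_mul_left _ _), hyo, ham]
    exact Nat.mul_div_cancel _ hmpos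
  have hqf : Fact q.Prime := ⟨hq⟩
  obtain ⟨c, hc⟩ := exists_conj_mem_of_index hp hqp (H.subgroupOf C) j hj ⟨y ^ m, hymC⟩ a hym_ord
  have hc1 : MulAut.conj (c : G) (y ^ m) ∈ H := by
    have h1 : ((c * ⟨y ^ m, hymC⟩ * c⁻¹ : C) : G) ∈ H := hc
    simpa using h1
  have hc2 : MulAut.conj (c : G) (y ^ q ^ a) = y ^ q ^ a := by
    have h1 := (mem_centralizer_iff.mp c.2) (y ^ q ^ a) rfl
    rw [MulAut.conj_apply, ← h1, mul_inv_cancel_right]
  obtain ⟨u, v, huv⟩ := exists_zpow_decomp y m (q ^ a) (Nat.coprime_comm.mp hqam)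
  refine ⟨(c : G) * g, ?_⟩
  have h4 : (c : G) * g * x * ((c : G) * g)⁻¹ = MulAut.conj (c : G) y := by
    rw [hy]
    simp [mul_assoc]
  rw [h4]
  have h5 : MulAut.conj (c : G) y =
      (MulAut.conj (c : G) (y ^ m)) ^ u * (MulAut.conj (c : G) (y ^ q ^ a)) ^ v := by
    rw [← map_zpow, ← map_zpow, ← map_mul, ← huv]
  rw [h5, hc2]
  exact mul_mem (zpow_mem hc1 u) (zpow_mem hy' v)

/-- Let G be a finite group and p a prime. Every conjugacy class of p-regular elements of G (elements of order prime to p) has p-power size if and only if G has an abelian p-complement, i.e. an abelian subgroup of order prime to p and p-power index. -/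
theorem result {G : Type*} [Group G] [Finite G] {p : ℕ} (hp : p.Prime) :
    (∀ x : G, (orderOf x).Coprime p → ∃ k : ℕ, (ConjClasses.mk x).carrier.ncard = p ^ k) ↔
    (∃ H : Subgroup G, IsMulCommutative H ∧ ¬ p ∣ Nat.card H ∧ ∃ k : ℕ, H.index = p ^ k) := by
  constructor
  · intro h
    have hP : PProp p G := fun x hx => by
      obtain ⟨k, hk⟩ := h x hx
      exact ⟨k, by rw [← ClassSize.ncard_carrier_eq_index]; exact hk⟩
    have hpf : Fact p.Prime := ⟨hp⟩
    obtain ⟨D, L, hDn, hLn, hDL, hDp, hall, hcomm, hrel⟩ := structure_aux p (Nat.card G) G rfl hP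
    set D' : Subgroup L := D.subgroupOf L with hD'
    have hD'n : D'.Normal := hDn.subgroupOf L
    obtain ⟨a, ha⟩ := IsPGroup.iff_card.mp hDp
    have hcardD' : Nat.card D' = p ^ a := by
      rw [← ha]
      exact Nat.card_congr (subgroupOfEquivOfLe hDL).toEquiv
    have hidx : D'.index = D.relIndex L := rfl
    have hcop : (Nat.card D').Coprime D'.index := by
      rw [hcardD', hidx]
      exact Nat.Coprime.pow_left _ ((Nat.Prime.coprime_iff_not_dvd hp).mpr hrel)
    obtain ⟨H', hH'⟩ := exists_right_complement'_of_coprime hcop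
    have hcardH' : Nat.card H' = D.relIndex L := by
      have h1 := hH'.card_mul_card
      have h2 := card_mul_index D'
      rw [← h2] at h1
      exact Nat.eq_of_mul_eq_mul_left Nat.card_pos h1
    set H : Subgroup G := H'.map L.subtype with hH
    have hcardH : Nat.card H = D.relIndex L := by
      rw [← hcardH']
      exact Nat.card_congr (H'.equivMapOfInjective _ L.subtype_injective).symm.toEquiv
    refine ⟨H, ?_, ?_, ?_⟩
    · refine ⟨⟨?_⟩⟩
      rintro ⟨_, x, hx, rfl⟩ ⟨_, y, hy, rfl⟩
      apply Subtype.ext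
      show (x : G) * (y : G) = (y : G) * (x : G)
      have h1 : (x : G) * y * (x : G)⁻¹ * (y : G)⁻¹ ∈ D := hcomm x x.2 y y.2
      have hx' : x ∈ H' := hx
      have hy' : y ∈ H' := hy
      have hmem : x * y * x⁻¹ * y⁻¹ ∈ H' :=
        mul_mem (mul_mem (mul_mem hx' hy') (inv_mem hx')) (inv_mem hy')
      have hmemD : x * y * x⁻¹ * y⁻¹ ∈ D' := h1
      have h2 : x * y * x⁻¹ * y⁻¹ ∈ D' ⊓ H' := Subgroup.mem_inf.mpr ⟨hmemD, hmem⟩
      rw [hH'.disjoint.eq_bot, mem_bot] at h2
      have h3 : (x : G) * y * (x : G)⁻¹ * (y : G)⁻¹ = 1 := by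
        have := congrArg Subtype.val h2
        simpa using this
      have h4 : (x : G) * y = (x : G) * y * (x : G)⁻¹ * (y : G)⁻¹ * (y * x) := by group
      rw [h4, h3, one_mul]
    · rw [hcardH]
      exact hrel
    · obtain ⟨b, hb⟩ : ∃ b, L.index = p ^ b := by
        refine ⟨_, Nat.eq_prime_pow_of_unique_prime_dvd index_ne_zero_of_finite ?_⟩
        intro q hq hqd
        by_contra hqp
        have hqf : Fact q.Prime := ⟨hq⟩
        obtain ⟨u, hu⟩ := exists_prime_orderOf_dvd_card' (G := G ⧸ L) q hqd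
        have hucop : (orderOf u).Coprime p := by
          rw [hu]
          exact (Nat.coprime_primes hq hp).mpr hqp
        obtain ⟨x, hx, rfl⟩ := ClassSize.exists_coprime_lift L hp u hucop
        have h1 : (x : G ⧸ L) = 1 := (QuotientGroup.eq_one_iff x).mpr (hall x hx)
        rw [h1, orderOf_one] at hu
        exact hq.one_lt.ne' hu.symm
      refine ⟨a + b, ?_⟩
      have e1 := card_mul_index H
      have e2 := card_mul_index L
      have e3 := hH'.card_mul_card
      rw [hcardD', hcardH'] at e3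
      rw [hcardH] at e1
      rw [← e3, hb] at e2
      have e4 : D.relIndex L * H.index = D.relIndex L * (p ^ a * p ^ b) := by
        rw [e1, ← e2]
        ring
      have hpos : 0 < D.relIndex L := by
        rw [← hcardH']
        exact Nat.card_pos
      rw [pow_add]
      exact Nat.eq_of_mul_eq_mul_left hpos e4
  · rintro ⟨H, hHc, hHcard, k, hHi⟩ x hx
    obtain ⟨g, hg⟩ := exists_conj_mem hp H hHc k hHi (orderOf x) x rfl hx
    have h1 : ConjClasses.mk x = ConjClasses.mk (g * x * g⁻¹) := by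
      rw [ConjClasses.mk_eq_mk_iff_isConj, isConj_iff]
      exact ⟨g, rfl⟩
    rw [h1, ClassSize.ncard_carrier_eq_index]
    have h2 : H ≤ centralizer ({g * x * g⁻¹} : Set G) := by
      intro h hh
      rw [mem_centralizer_iff]
      intro z hz
      rw [Set.mem_singleton_iff] at hz
      subst hz
      have h3 := hHc.is_comm.comm ⟨g * x * g⁻¹, hg⟩ ⟨h, hh⟩
      exact congrArg Subtype.val h3
    have h4 := index_dvd_of_le h2
    rw [hHi] at h4
    obtain ⟨j, -, hj⟩ := (Nat.dvd_prime_pow hp).mp h4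
    exact ⟨j, hj⟩

end Cfsg.Agent.S4034
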