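import Cfsg.Statements.S4036
import Mathlib

set_option autoImplicit false
open Cfsg

namespace Cfsg.Agent.S4036

/-- Let P be a finite abelian p-group and K a group of automorphisms of P (a subgroup of Aut P) whose order is divisible by p. If all non-identity elements of K have the same fixed-point subgroup on P, then K has no non-trivial normal subgroup of order prime to p. -/
theorem result {P : Type*} [CommGroup P] [Finite P] {p : ℕ}
    [Fact p.Prime] (hP : IsPGroup p P) (K : Subgroup (MulAut P)) (hK : p ∣ Nat.card K)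
    (hfix : ∀ x y : MulAut P, x ∈ K → y ∈ K → x ≠ 1 → y ≠ 1 → ∀ v : P, x v = v ↔ y v = v) :
    ∀ N : Subgroup ↥K, N.Normal → ¬ p ∣ Nat.card N → N = ⊥ := by
  classical
  intro N hNn hNp
  by_contra hNne
  have : Fintype N := Fintype.ofFinite N
  -- a nontrivial element of N
  obtain ⟨a₀, ha₀N, ha₀1⟩ : ∃ a₀ : K, a₀ ∈ N ∧ a₀ ≠ 1 := by
    by_contra hcon
    push Not at hcon
    exact hNne ((Subgroup.eq_bot_iff_forall N).mpr hcon)
  have ha₀1' : (a₀ : MulAut P) ≠ 1 := fun h => ha₀1 (Subtype.ext h)
  -- an element of order p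
  obtain ⟨x, hx⟩ := exists_prime_orderOf_dvd_card' p hK
  have hx1 : (x : MulAut P) ≠ 1 := by
    intro h
    have hx' : x = 1 := Subtype.ext h
    rw [hx', orderOf_one] at hx
    exact (Fact.out : p.Prime).one_lt.ne hx
  -- the norm map
  let θ : P →* P := MonoidHom.mk' (fun v => ∏ a : N, ((a : K) : MulAut P) v)
    (fun v w => by simp [Finset.prod_mul_distrib])
  have hθ : ∀ v, θ v = ∏ a : N, ((a : K) : MulAut P) v := fun v => rfl
  -- fixed points of all of N
  have hfixN : ∀ v : P, (a₀ : MulAut P) v = v → ∀ b : N, ((b : K) : MulAut P) v = v := by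
    intro v hv b
    by_cases hb : ((b : K) : MulAut P) = 1
    · rw [hb]; rfl
    · exact (hfix (a₀ : MulAut P) ((b : K) : MulAut P) a₀.2 (b : K).2 ha₀1' hb v).mp hv
  -- θ on fixed points is the power map
  have hθfix : ∀ v : P, (a₀ : MulAut P) v = v → θ v = v ^ Nat.card N := by
    intro v hv
    rw [hθ, Finset.prod_congr rfl (fun b _ => hfixN v hv b), Finset.prod_const, Finset.card_univ,
      Nat.card_eq_fintype_card]
  -- values of θ are fixed by N
  have hθinv : ∀ (b : N) (v : P), ((b : K) : MulAut P) (θ v) = θ v := by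
    intro b v
    rw [hθ, map_prod]
    exact Fintype.prod_equiv (Equiv.mulLeft b) _ _ (fun a => rfl)
  -- equivariance under K
  have hθK : ∀ (k : K) (v : P), θ ((k : MulAut P) v) = (k : MulAut P) (θ v) := by
    intro k v
    rw [hθ, hθ, map_prod]
    symm
    let e : N ≃ N :=
      { toFun := fun a => ⟨k * a * k⁻¹, hNn.conj_mem a a.2 k⟩
        invFun := fun a => ⟨k⁻¹ * a * k, by
          have := hNn.conj_mem a a.2 k⁻¹
          simpa using this⟩
        left_inv := fun a => Subtype.ext (by simp [mul_assoc])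
        right_inv := fun a => Subtype.ext (by simp [mul_assoc]) }
    refine Fintype.prod_equiv e _ _ (fun a => ?_)
    show (k : MulAut P) (((a : K) : MulAut P) v) = ((k * (a : K) * k⁻¹ : K) : MulAut P) ((k : MulAut P) v)
    simp
  -- the kernel is nontrivial
  have hker : θ.ker ≠ ⊥ := by
    intro hbot
    have hinj : Function.Injective θ := (MonoidHom.ker_eq_bot_iff θ).mp hbot
    have hsurj : Function.Surjective θ := Finite.surjective_of_injective hinj
    apply ha₀1'
    ext v
    obtain ⟨w, rfl⟩ := hsurj v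
    exact hθinv ⟨a₀, ha₀N⟩ w
  -- the action of ⟨x⟩ on the kernel
  have hinvW : ∀ (k : K) (w : P), w ∈ θ.ker → (k : MulAut P) w ∈ θ.ker := by
    intro k w hw
    rw [MonoidHom.mem_ker] at hw ⊢
    rw [hθK, hw, map_one]
  let _ : MulAction (Subgroup.zpowers x) θ.ker :=
    { smul := fun g w => ⟨((g : K) : MulAut P) w, hinvW (g : K) w w.2⟩
      one_smul := fun w => Subtype.ext (by
        show (((1 : Subgroup.zpowers x) : K) : MulAut P) (w : P) = w
        simp)
      mul_smul := fun g h w => Subtype.ext (by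
        show (((g * h : Subgroup.zpowers x) : K) : MulAut P) (w : P)
          = ((g : K) : MulAut P) (((h : K) : MulAut P) (w : P))
        simp) }
  have hsmul : ∀ (g : Subgroup.zpowers x) (w : θ.ker),
      ((g • w : θ.ker) : P) = ((g : K) : MulAut P) (w : P) := fun _ _ => rfl
  have hxp : IsPGroup p (Subgroup.zpowers x) :=
    IsPGroup.of_card (n := 1) (by rw [Nat.card_zpowers, hx, pow_one])
  have hWp : IsPGroup p θ.ker := hP.to_subgroup θ.ker
  have hcard : p ∣ Nat.card θ.ker := by
    obtain ⟨k, hk⟩ := hWp.exists_card_eq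
    have hk0 : k ≠ 0 := by
      rintro rfl
      apply hker
      rw [pow_zero] at hk
      exact Subgroup.card_eq_one.mp hk
    rw [hk]
    exact dvd_pow_self p hk0
  have h1 : (1 : θ.ker) ∈ MulAction.fixedPoints (Subgroup.zpowers x) θ.ker := by
    intro g
    apply Subtype.ext
    rw [hsmul]
    simp
  obtain ⟨w, hw, hw1⟩ := hxp.exists_fixed_point_of_prime_dvd_card_of_fixed_point θ.ker hcard h1
  have hxw : (x : MulAut P) (w : P) = w := by
    have h2 := hw ⟨x, Subgroup.mem_zpowers x⟩
    have h3 := congrArg Subtype.val h2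
    rw [hsmul] at h3
    exact h3
  have ha₀w : (a₀ : MulAut P) (w : P) = w :=
    (hfix (x : MulAut P) (a₀ : MulAut P) x.2 a₀.2 hx1 ha₀1' w).mp hxw
  have hpow : (w : P) ^ Nat.card N = 1 := by
    rw [← hθfix w ha₀w]
    exact w.2
  have hw' : (w : P) = 1 := by
    obtain ⟨k, hk⟩ := hP (w : P)
    have hcop : Nat.Coprime (Nat.card N) (p ^ k) :=
      Nat.Coprime.pow_right k ((Nat.Prime.coprime_iff_not_dvd Fact.out).mpr hNp).symm
    have := pow_gcd_eq_one.mpr ⟨hpow, hk⟩
    rwa [hcop, pow_one] at this
  exact hw1 (Subtype.ext hw'.symm)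

end Cfsg.Agent.S4036
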