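import Cfsg.Statements.S4039
import Cfsg.Agent.Lib.Helper50.MaxNil

set_option autoImplicit false
open Cfsg

namespace Cfsg.Agent.S4039

/-- A finite group possessing a maximal subgroup that is nilpotent of class at most 2 is solvable. -/
theorem result {G : Type*} [Group G] [Finite G]
    (M : Subgroup G) (hmax : IsCoatom M) (hnil : Group.IsNilpotent M) (hcl : Group.nilpotencyClass ↥M ≤ 2) :
    Group.IsSolvable G := by
  apply Lib.Helper50.MaxNil.solvable_of_maximal_class_two M hmax hnil
  have hbot : M.lowerCentralSeries 2 = ⊥ :=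
    Subgroup.lowerCentralSeries_eq_bot_of_nilpotencyClass_le hcl
  intro x hx y hy z hz
  have h2 : x * y * x⁻¹ * y⁻¹ * z * (x * y * x⁻¹ * y⁻¹)⁻¹ * z⁻¹ ∈ M.lowerCentralSeries 2 := by
    rw [Subgroup.lowerCentralSeries_succ, Subgroup.lowerCentralSeries_succ,
      Subgroup.lowerCentralSeries_zero]
    exact Subgroup.commutator_mem_commutator (Subgroup.commutator_mem_commutator hx hy) hz
  rw [hbot, Subgroup.mem_bot] at h2
  exact h2

end Cfsg.Agent.S4039
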