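import Cfsg.Statements.S4049
import Cfsg.Agent.Lib.Helper67.RealOdd

set_option autoImplicit false
open Cfsg

namespace Cfsg.Agent.S4049

open Subgroup

/-- Let G be a finite group such that N_G(H)/C_G(H) has odd order for every nontrivial subgroup H of odd order. Then the Sylow 2-subgroups of G are normal. -/
theorem result {G : Type*} [Group G] [Finite G]
    (hhom : ∀ H : Subgroup G, H ≠ ⊥ → ¬ 2 ∣ Nat.card ↥H →
        ¬ 2 ∣ (Subgroup.centralizer (H : Set G)).relIndex (Subgroup.normalizer (H : Set G))) (P : Sylow 2 G) :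
    (P : Subgroup G).Normal := by
  apply Cfsg.Agent.Lib.Helper67.RealOdd.sylow_two_normal
  intro y g hodd hg
  by_contra hy1
  set H : Subgroup G := zpowers y with hH
  have hHne : H ≠ ⊥ := by
    rw [hH, Ne, zpowers_eq_bot]
    exact hy1
  have hHcard : ¬ 2 ∣ Nat.card ↥H := by
    rw [hH, Nat.card_zpowers]
    exact fun h => (Nat.not_even_iff_odd.mpr hodd) (even_iff_two_dvd.mpr h)
  apply hhom H hHne hHcard
  have hgN : g ∈ normalizer (H : Set G) := by
    apply mem_normalizer_fintype
    intro n hn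
    obtain ⟨i, rfl⟩ := mem_zpowers_iff.mp hn
    have e1 : g * y ^ i * g⁻¹ = MulAut.conj g (y ^ i) := by simp
    have e2 : MulAut.conj g y = y⁻¹ := by simpa using hg
    rw [e1, map_zpow, e2]
    exact zpow_mem (inv_mem (mem_zpowers _)) i
  -- y ≠ y⁻¹
  have hyy : y⁻¹ ≠ y := by
    intro h5
    have h6 : y ^ 2 = 1 := by
      rw [sq]
      nth_rewrite 1 [← h5]
      exact inv_mul_cancel y
    have h7 : orderOf y ∣ 2 := orderOf_dvd_of_pow_eq_one h6
    have h8 : orderOf y = 1 := by
      rcases (Nat.dvd_prime Nat.prime_two).mp h7 with h | h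
      · exact h
      · rw [h] at hodd
        exact absurd hodd (by decide)
    exact hy1 (orderOf_eq_one_iff.mp h8)
  have hgC : g ∉ centralizer (H : Set G) := by
    intro hc
    rw [mem_centralizer_iff] at hc
    have h4 : y * g = g * y := hc y (mem_zpowers y)
    apply hyy
    rw [← hg, ← h4]; group
  have hg2C : g ^ 2 ∈ centralizer (H : Set G) := by
    rw [mem_centralizer_iff]
    intro h hh
    obtain ⟨i, rfl⟩ := mem_zpowers_iff.mp hh
    have e3 : g ^ 2 * y * (g ^ 2)⁻¹ = y := by
      have : g ^ 2 * y * (g ^ 2)⁻¹ = g * (g * y * g⁻¹) * g⁻¹ := by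
        rw [sq, mul_inv_rev]; simp only [mul_assoc]
      rw [this, hg]
      have : g * y⁻¹ * g⁻¹ = (g * y * g⁻¹)⁻¹ := by group
      rw [this, hg, inv_inv]
    have e4 : g ^ 2 * y = y * g ^ 2 := by
      nth_rewrite 2 [← e3]
      simp only [inv_mul_cancel_right]
    have e5 : Commute (g ^ 2) y := e4
    exact (e5.zpow_right i).eq.symm
  -- the quotient N/C has an element of order 2
  set C' := (centralizer (H : Set G)).subgroupOf (normalizer (H : Set G)) with hC'
  let gq : (normalizer (H : Set G)) ⧸ C' := QuotientGroup.mk (⟨g, hgN⟩ : normalizer (H : Set G))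
  have hgq1 : gq ≠ 1 := by
    intro h
    rw [QuotientGroup.eq_one_iff] at h
    exact hgC h
  have hgq2 : gq ^ 2 = 1 := by
    show (QuotientGroup.mk (⟨g, hgN⟩ : normalizer (H : Set G)) : (normalizer (H : Set G)) ⧸ C') ^ 2 = 1
    rw [← QuotientGroup.mk_pow, QuotientGroup.eq_one_iff]
    exact hg2C
  have hord : orderOf gq = 2 := orderOf_eq_prime hgq2 hgq1
  have hdvd : orderOf gq ∣ Nat.card ((normalizer (H : Set G)) ⧸ C') := orderOf_dvd_natCard gq
  rw [hord] at hdvd
  exact hdvd

end Cfsg.Agent.S4049
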