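import Cfsg.Statements.S4058
import Mathlib
import Cfsg.Agent.Lib.Helper74.FSCount
import Cfsg.Agent.Lib.Helper80.Integrality
import Cfsg.Agent.Lib.Helper63.PFrattini
import Cfsg.Agent.Lib.CT.LinChar
import Cfsg.Agent.Lib.Helper81.Basic
import Cfsg.Agent.Lib.Helper3.Irr
import Cfsg.Agent.S0154

set_option autoImplicit false
open Cfsg

namespace Cfsg.Agent.S4058

open Cfsg.Agent.Lib.CT.Wedderburn Cfsg.Agent.Lib.CT.FSInd Cfsg.Agent.Lib.Helper74.FSCount
open scoped ComplexConjugate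

universe u

/-- weighted orbit counting: an invariant integer weight whose orbit sums are all divisible by `m`
has total sum divisible by `m`. -/
theorem dvd_sum_of_orbit {Λ X : Type*} [Group Λ] [MulAction Λ X] [Fintype X] (f : X → ℤ) (m : ℤ)
    (hinv : ∀ (a : Λ) (x : X), f (a • x) = f x)
    (hdvd : ∀ x : X, m ∣ (Nat.card (MulAction.orbit Λ x) : ℤ) * f x) :
    m ∣ ∑ x, f x := by
  classical
  have : Fintype (MulAction.orbitRel.Quotient Λ X) := Fintype.ofFinite _
  rw [← Fintype.sum_fiberwise (Quotient.mk'' : X → MulAction.orbitRel.Quotient Λ X) f]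
  apply Finset.dvd_sum
  intro q _
  induction q using Quotient.inductionOn' with
  | h x₀ =>
    have hmem : ∀ i : X, (Quotient.mk'' i : MulAction.orbitRel.Quotient Λ X) = Quotient.mk'' x₀ ↔
        i ∈ MulAction.orbit Λ x₀ := fun i => Quotient.eq''
    have hconst : ∀ i : {i : X // (Quotient.mk'' i : MulAction.orbitRel.Quotient Λ X)
        = Quotient.mk'' x₀}, f i = f x₀ := by
      rintro ⟨i, hi⟩
      obtain ⟨a, rfl⟩ := (hmem i).mp hi
      exact hinv a x₀
    rw [Finset.sum_congr rfl (fun i _ => hconst i), Finset.sum_const, Finset.card_univ,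
      nsmul_eq_mul]
    have hcard : Fintype.card {i : X // (Quotient.mk'' i : MulAction.orbitRel.Quotient Λ X)
        = Quotient.mk'' x₀} = Nat.card (MulAction.orbit Λ x₀) := by
      rw [← Nat.card_eq_fintype_card]
      exact Nat.card_congr (Equiv.subtypeEquivRight hmem)
    rw [hcard]
    exact hdvd x₀

variable {G : Type u} [Group G]

/-- twisting an irreducible character by a linear character of a quotient. -/
noncomputable def tw (N : Subgroup G) [N.Normal] (l : (G ⧸ N) →* ℂˣ) (χ : IrrCharacter G) :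
    IrrCharacter G :=
  ⟨fun g => ((l (QuotientGroup.mk g) : ℂˣ) : ℂ) * χ.1 g,
    Cfsg.Agent.Lib.CT.LinChar.isIrrCharacter_linear_mul
      (Cfsg.Agent.Lib.CT.LinChar.isCharacter_of_hom (l.comp (QuotientGroup.mk' N)))
      (by simp) χ.2⟩

theorem tw_apply (N : Subgroup G) [N.Normal] (l : (G ⧸ N) →* ℂˣ) (χ : IrrCharacter G) (g : G) :
    (tw N l χ).1 g = ((l (QuotientGroup.mk g) : ℂˣ) : ℂ) * χ.1 g := rfl

/-- the twisting action. -/
@[reducible] noncomputable def twistAct (N : Subgroup G) [N.Normal] :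
    MulAction ((G ⧸ N) →* ℂˣ) (IrrCharacter G) where
  smul := tw N
  one_smul χ := Subtype.ext (funext fun g => by
    show (tw N 1 χ).1 g = χ.1 g
    simp [tw_apply])
  mul_smul a b χ := Subtype.ext (funext fun g => by
    show (tw N (a * b) χ).1 g = (tw N a (tw N b χ)).1 g
    simp [tw_apply, mul_assoc])

theorem tw_fsInd [Fintype G] (N : Subgroup G) [N.Normal] (hN : ∀ x : G, x * x ∈ N)
    (l : (G ⧸ N) →* ℂˣ) (χ : IrrCharacter G) : fsInd (tw N l χ).1 = fsInd χ.1 := by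
  rw [fsInd_def, fsInd_def]
  congr 1
  refine Finset.sum_congr rfl fun s _ => ?_
  rw [tw_apply]
  have h : (QuotientGroup.mk (s * s) : G ⧸ N) = 1 := (QuotientGroup.eq_one_iff _).mpr (hN s)
  rw [h, map_one]
  simp

theorem tw_fsInt [Fintype G] (N : Subgroup G) [N.Normal] (hN : ∀ x : G, x * x ∈ N)
    (l : (G ⧸ N) →* ℂˣ) (χ : IrrCharacter G) : fsInt (tw N l χ).1 = fsInt χ.1 := by
  have h1 := fsInt_cast (tw N l χ).2
  have h2 := fsInt_cast χ.2
  rw [tw_fsInd N hN] at h1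
  exact_mod_cast h1.trans h2.symm

theorem tw_charDegree (N : Subgroup G) [N.Normal]
    (l : (G ⧸ N) →* ℂˣ) (χ : IrrCharacter G) : charDegree (tw N l χ).1 = charDegree χ.1 := by
  unfold charDegree
  rw [tw_apply]
  simp

/-- the stabilizer of `χ` among the linear characters of `G / N` has order at most `χ(1)^2`. -/
theorem card_stabilizer_le [Finite G] (N : Subgroup G) [N.Normal] (χ : IrrCharacter G)
    (S : Subgroup ((G ⧸ N) →* ℂˣ)) [Finite S] (hS : ∀ l ∈ S, tw N l χ = χ) :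
    Nat.card S ≤ (charDegree χ.1) ^ 2 := by
  classical
  have : Fintype G := Fintype.ofFinite G
  have : Fintype S := Fintype.ofFinite S
  obtain ⟨K, hK⟩ : ∃ K : Finset G,
      K = Finset.univ.filter (fun g => ∀ l ∈ S, l (QuotientGroup.mk g) = 1) := ⟨_, rfl⟩
  have hmemK : ∀ g, g ∈ K ↔ ∀ l ∈ S, l (QuotientGroup.mk g) = 1 := by
    intro g; rw [hK]; simp
  have hzero : ∀ (z w : ℂ), z ≠ 1 → z * w = w → w = 0 := by
    intro z w hz h
    have : (z - 1) * w = 0 := by rw [sub_mul, h, one_mul, sub_self]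
    rcases mul_eq_zero.mp this with h0 | h0
    · exact absurd (sub_eq_zero.mp h0) hz
    · exact h0
  have h1 : ∀ g, g ∉ K → χ.1 g = 0 := by
    intro g hg
    rw [hmemK] at hg
    push Not at hg
    obtain ⟨l, hl, hne⟩ := hg
    have h := congrArg (fun ψ : IrrCharacter G => ψ.1 g) (hS l hl)
    simp only [tw_apply] at h
    exact hzero _ _ (fun h' => hne (Units.ext h')) h
  have h2 : ∀ l : (G ⧸ N) →* ℂˣ, l ≠ 1 →
      ∑ g : G, ((l (QuotientGroup.mk g) : ℂˣ) : ℂ) = 0 := by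
    intro l hl
    have : ∃ v : G ⧸ N, l v ≠ 1 := by
      by_contra hcon
      push Not at hcon
      exact hl (MonoidHom.ext hcon)
    obtain ⟨v, hv⟩ := this
    obtain ⟨g₀, rfl⟩ := QuotientGroup.mk_surjective v
    have hre : ∑ g : G, ((l (QuotientGroup.mk g) : ℂˣ) : ℂ)
        = ∑ g : G, ((l (QuotientGroup.mk (g₀ * g)) : ℂˣ) : ℂ) :=
      (Fintype.sum_equiv (Equiv.mulLeft g₀) _ _ (fun g => rfl)).symm
    have hmul : ∑ g : G, ((l (QuotientGroup.mk (g₀ * g)) : ℂˣ) : ℂ)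
        = ((l (QuotientGroup.mk g₀) : ℂˣ) : ℂ) * ∑ g : G, ((l (QuotientGroup.mk g) : ℂˣ) : ℂ) := by
      rw [Finset.mul_sum]
      refine Finset.sum_congr rfl fun g _ => ?_
      rw [QuotientGroup.mk_mul, map_mul, Units.val_mul]
    exact hzero _ _ (fun h' => hv (Units.ext h')) (by rw [← hmul, ← hre])
  have h3 : ∀ g, g ∉ K →
      ∑ l : S, (((l : (G ⧸ N) →* ℂˣ) (QuotientGroup.mk g) : ℂˣ) : ℂ) = 0 := by
    intro g hg
    rw [hmemK] at hg
    push Not at hg
    obtain ⟨μ, hμ, hne⟩ := hg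
    have hre : ∑ l : S, (((l : (G ⧸ N) →* ℂˣ) (QuotientGroup.mk g) : ℂˣ) : ℂ)
        = ∑ l : S, ((((⟨μ, hμ⟩ * l : S) : (G ⧸ N) →* ℂˣ) (QuotientGroup.mk g) : ℂˣ) : ℂ) :=
      (Fintype.sum_equiv (Equiv.mulLeft (⟨μ, hμ⟩ : S)) _ _ (fun l => rfl)).symm
    have hmul : ∑ l : S, ((((⟨μ, hμ⟩ * l : S) : (G ⧸ N) →* ℂˣ) (QuotientGroup.mk g) : ℂˣ) : ℂ)
        = ((μ (QuotientGroup.mk g) : ℂˣ) : ℂ)
          * ∑ l : S, (((l : (G ⧸ N) →* ℂˣ) (QuotientGroup.mk g) : ℂˣ) : ℂ) := by
      rw [Finset.mul_sum]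
      refine Finset.sum_congr rfl fun l _ => ?_
      rw [Subgroup.coe_mul, MonoidHom.mul_apply, Units.val_mul]
    exact hzero _ _ (fun h' => hne (Units.ext h')) (by rw [← hmul, ← hre])
  have h4 : (K.card : ℂ) * (Nat.card S : ℂ) = (Nat.card G : ℂ) := by
    have e1 : ∑ g : G, ∑ l : S, (((l : (G ⧸ N) →* ℂˣ) (QuotientGroup.mk g) : ℂˣ) : ℂ)
        = (K.card : ℂ) * (Nat.card S : ℂ) := by
      have : ∀ g : G, ∑ l : S, (((l : (G ⧸ N) →* ℂˣ) (QuotientGroup.mk g) : ℂˣ) : ℂ)
          = if g ∈ K then (Nat.card S : ℂ) else 0 := by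
        intro g
        split_ifs with hg
        · rw [hmemK] at hg
          have hone : ∀ l : S, (((l : (G ⧸ N) →* ℂˣ) (QuotientGroup.mk g) : ℂˣ) : ℂ) = 1 := by
            intro l
            rw [hg l l.2]; rfl
          rw [Finset.sum_congr rfl (fun (l : S) _ => hone l)]
          simp [Nat.card_eq_fintype_card]
        · exact h3 g hg
      rw [Finset.sum_congr rfl (fun g _ => this g), Finset.sum_ite_mem, Finset.univ_inter,
        Finset.sum_const, nsmul_eq_mul]
    have e2 : ∑ l : S, ∑ g : G, (((l : (G ⧸ N) →* ℂˣ) (QuotientGroup.mk g) : ℂˣ) : ℂ)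
        = (Nat.card G : ℂ) := by
      have : ∀ l : S, ∑ g : G, (((l : (G ⧸ N) →* ℂˣ) (QuotientGroup.mk g) : ℂˣ) : ℂ)
          = if l = 1 then (Nat.card G : ℂ) else 0 := by
        intro l
        split_ifs with hl
        · subst hl; simp [Nat.card_eq_fintype_card]
        · exact h2 l (fun h => hl (Subtype.ext h))
      rw [Finset.sum_congr rfl (fun l _ => this l)]
      simp
    rw [← e1, Finset.sum_comm, e2]
  have hchar := isCharacter_of_irr χ.2
  have h5 : ∑ g : G, ‖χ.1 g‖ ^ 2 = (Nat.card G : ℝ) := by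
    have h := Cfsg.Agent.Lib.Helper81.Basic.irr_orth χ χ
    rw [if_pos rfl] at h
    have h' : ∑ g : G, ((‖χ.1 g‖ ^ 2 : ℝ) : ℂ) = (Nat.card G : ℂ) := by
      rw [← h]
      refine Finset.sum_congr rfl fun g _ => ?_
      rw [char_apply_inv hchar g, Complex.mul_conj, Complex.normSq_eq_norm_sq]
    exact_mod_cast h'
  have h6 : ∑ g : G, ‖χ.1 g‖ ^ 2 ≤ (K.card : ℝ) * (charDegree χ.1 : ℝ) ^ 2 := by
    have e : ∑ g : G, ‖χ.1 g‖ ^ 2 = ∑ g ∈ K, ‖χ.1 g‖ ^ 2 := by
      symm
      apply Finset.sum_subset (Finset.subset_univ K)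
      intro g _ hg
      rw [h1 g hg]; simp
    rw [e]
    calc ∑ g ∈ K, ‖χ.1 g‖ ^ 2 ≤ ∑ g ∈ K, (charDegree χ.1 : ℝ) ^ 2 := by
          apply Finset.sum_le_sum
          intro g _
          have hb := Cfsg.Agent.Lib.Helper3.Irr.IsCharacter.norm_le hchar g
          have hd : (χ.1 1).re = (charDegree χ.1 : ℝ) := by
            rw [Cfsg.Agent.Lib.Helper80.Integrality.apply_one_eq_charDegree hchar]; simp
          rw [hd] at hb
          exact pow_le_pow_left₀ (norm_nonneg _) hb 2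
      _ = (K.card : ℝ) * (charDegree χ.1 : ℝ) ^ 2 := by rw [Finset.sum_const, nsmul_eq_mul]
  have h7 : K.card * Nat.card S = Nat.card G := by exact_mod_cast h4
  have hKpos : 0 < K.card := by
    apply Finset.card_pos.mpr
    exact ⟨1, (hmemK 1).mpr (fun l _ => by simp)⟩
  have h8 : (K.card : ℝ) * (Nat.card S : ℝ) ≤ (K.card : ℝ) * (charDegree χ.1 : ℝ) ^ 2 := by
    calc (K.card : ℝ) * (Nat.card S : ℝ) = (Nat.card G : ℝ) := by exact_mod_cast h7
      _ = ∑ g : G, ‖χ.1 g‖ ^ 2 := h5.symm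
      _ ≤ _ := h6
  have h9 : (Nat.card S : ℝ) ≤ (charDegree χ.1 : ℝ) ^ 2 :=
    le_of_mul_le_mul_left h8 (by exact_mod_cast hKpos)
  exact_mod_cast h9

/-- Let G be a finite 2-group with #(G/Φ(G)) ≥ 2^(2k+1). Then the number of elements x of G with x² = 1 is divisible by 2^(k+1). -/
theorem result {G : Type*} [Group G] [Finite G] (hG : IsPGroup 2 G) (k : ℕ)
    (hgen : 2 ^ (2 * k + 1) ≤ Nat.card (G ⧸ frattini G)) :
    2 ^ (k + 1) ∣ Nat.card {x : G // x ^ 2 = 1} := by
  classical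
  have : Fintype G := Fintype.ofFinite G
  have : Finite (IrrCharacter G) := finite_irrCharacter G
  have : Fintype (IrrCharacter G) := Fintype.ofFinite _
  have : Fact (Nat.Prime 2) := ⟨Nat.prime_two⟩
  have hN : ∀ x : G, x * x ∈ frattini G := by
    intro x
    have := Cfsg.Agent.Lib.Helper63.PFrattini.pow_mem_frattini hG x
    rwa [pow_two] at this
  have hcomm : commutator (G ⧸ frattini G) = ⊥ := by
    rw [commutator_def, ← Subgroup.map_top_of_surjective (QuotientGroup.mk' (frattini G))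
      (QuotientGroup.mk'_surjective _), ← Subgroup.map_commutator, ← commutator_def,
      (Subgroup.map_eq_bot_iff _), QuotientGroup.ker_mk']
    exact Cfsg.Agent.Lib.Helper63.PFrattini.commutator_le_frattini hG
  have hΛcard : Nat.card ((G ⧸ frattini G) →* ℂˣ) = Nat.card (G ⧸ frattini G) := by
    rw [Cfsg.Agent.S0154.card_hom_eq_index, hcomm, Subgroup.index_bot]
  let _ := twistAct (frattini G)
  have hfin : Finite ((G ⧸ frattini G) →* ℂˣ) :=
    Nat.finite_of_card_ne_zero (by rw [hΛcard]; exact Nat.card_pos.ne')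
  obtain ⟨n, hn⟩ := hG.exists_card_eq
  have hVdvd : Nat.card (G ⧸ frattini G) ∣ Nat.card G := Subgroup.card_quotient_dvd_card _
  obtain ⟨d, hd, hVd⟩ := (Nat.dvd_prime_pow Nat.prime_two).mp (hn ▸ hVdvd)
  have hdk : 2 * k + 1 ≤ d := by
    rw [hVd] at hgen
    exact (Nat.pow_le_pow_iff_right (by norm_num)).mp hgen
  have key : (2 : ℤ) ^ (k + 1) ∣ ∑ χ : IrrCharacter G, fsInt χ.1 * (charDegree χ.1 : ℤ) := by
    apply dvd_sum_of_orbit (Λ := (G ⧸ frattini G) →* ℂˣ)
    · intro a χ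
      show fsInt (tw (frattini G) a χ).1 * (charDegree (tw (frattini G) a χ).1 : ℤ) = _
      rw [tw_fsInt _ hN, tw_charDegree]
    · intro χ
      have hos : Nat.card (MulAction.orbit ((G ⧸ frattini G) →* ℂˣ) χ)
          * Nat.card (MulAction.stabilizer ((G ⧸ frattini G) →* ℂˣ) χ) = 2 ^ d := by
        have : Fintype ((G ⧸ frattini G) →* ℂˣ) := Fintype.ofFinite _
        have h := MulAction.card_orbit_mul_card_stabilizer_eq_card_group
          ((G ⧸ frattini G) →* ℂˣ) χ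
        rw [← Nat.card_eq_fintype_card, ← Nat.card_eq_fintype_card, ← Nat.card_eq_fintype_card,
          hΛcard, hVd] at h
        exact h
      have hstab := card_stabilizer_le (frattini G) χ
        (MulAction.stabilizer ((G ⧸ frattini G) →* ℂˣ) χ) (fun l hl => hl)
      obtain ⟨a, ha⟩ : ∃ a, charDegree χ.1 = 2 ^ a := by
        have h := Cfsg.Agent.Lib.Helper80.Integrality.charDegree_dvd_card χ
        rw [hn] at h
        obtain ⟨a, _, ha⟩ := (Nat.dvd_prime_pow Nat.prime_two).mp h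
        exact ⟨a, ha⟩
      obtain ⟨i, hi, hio⟩ := (Nat.dvd_prime_pow Nat.prime_two).mp (Dvd.intro _ hos)
      obtain ⟨j, hj, hjs⟩ := (Nat.dvd_prime_pow Nat.prime_two).mp (Dvd.intro_left _ hos)
      rw [hio, hjs, ← pow_add] at hos
      have hij : i + j = d := Nat.pow_right_injective (le_refl 2) hos
      rw [hjs, ha, ← pow_mul] at hstab
      have hj2a : j ≤ a * 2 := (Nat.pow_le_pow_iff_right (by norm_num)).mp hstab
      rw [hio, ha]
      have hle : k + 1 ≤ i + a := by omega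
      have h2 : (2 : ℤ) ^ (k + 1) ∣ (2 : ℤ) ^ (i + a) := pow_dvd_pow 2 hle
      have e : ((2 ^ i : ℕ) : ℤ) * (fsInt χ.1 * ((2 ^ a : ℕ) : ℤ))
          = (2 : ℤ) ^ (i + a) * fsInt χ.1 := by push_cast; ring
      rw [e]
      exact Dvd.dvd.mul_right h2 _
  have hcount := card_sq_eq_one (G := G)
  rw [← hcount] at key
  have h3 : Nat.card {x : G // x ^ 2 = 1} = Nat.card {u : G // u * u = 1} := by
    apply Nat.card_congr
    exact Equiv.subtypeEquivRight (fun x => by rw [pow_two])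
  rw [h3]
  exact_mod_cast key

end Cfsg.Agent.S4058
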