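import Mathlib
import Cfsg.Statements.S4065

set_option autoImplicit false
open Cfsg

namespace Cfsg.Agent.S4065

/-- In a group where commuting is transitive on non-identity elements, element centralizers
are TI-subsets. -/
theorem ti_of_commTrans {P : Type*} [Group P]
    (hCT : ∀ a b c : P, b ≠ 1 → a * b = b * a → b * c = c * b → a * c = c * a) (x : P) :
    Cfsg.IsTISubset (Subgroup.centralizer ({x} : Set P) : Set P) := by
  intro g hg w hw hgw
  by_contra hw1
  apply hg
  have hmem : ∀ h : P, h ∈ Subgroup.centralizer ({x} : Set P) ↔ x * h = h * x := by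
    intro h
    rw [Subgroup.mem_centralizer_iff]
    constructor
    · intro hh
      exact hh x (Set.mem_singleton x)
    · intro hh y hy
      rw [Set.mem_singleton_iff] at hy
      rw [hy]; exact hh
  rw [SetLike.mem_coe, hmem] at hw hgw
  rw [Subgroup.mem_normalizer_iff]
  by_cases hx : x = 1
  · intro h
    rw [hmem, hmem, hx]
    simp
  · have hgw1 : g * w * g⁻¹ ≠ 1 := by
      intro h
      apply hw1
      have : w = g⁻¹ * (g * w * g⁻¹) * g := by group
      rw [this, h]; group
    intro h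
    rw [hmem, hmem]
    constructor
    · intro hh
      -- h commutes with x, x commutes with w, so h commutes with w
      have h1 : h * w = w * h := hCT h x w hx hh.symm hw
      have h2 : (g * h * g⁻¹) * (g * w * g⁻¹) = (g * w * g⁻¹) * (g * h * g⁻¹) := by
        have e1 : (g * h * g⁻¹) * (g * w * g⁻¹) = g * (h * w) * g⁻¹ := by group
        have e2 : (g * w * g⁻¹) * (g * h * g⁻¹) = g * (w * h) * g⁻¹ := by group
        rw [e1, e2, h1]
      exact (hCT (g * h * g⁻¹) (g * w * g⁻¹) x hgw1 h2 hgw.symm).symm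
    · intro hh
      have h2 : (g * h * g⁻¹) * (g * w * g⁻¹) = (g * w * g⁻¹) * (g * h * g⁻¹) :=
        hCT (g * h * g⁻¹) x (g * w * g⁻¹) hx hh.symm hgw
      have h1 : h * w = w * h := by
        have e1 : h * w = g⁻¹ * ((g * h * g⁻¹) * (g * w * g⁻¹)) * g := by group
        have e2 : w * h = g⁻¹ * ((g * w * g⁻¹) * (g * h * g⁻¹)) * g := by group
        rw [e1, e2, h2]
      exact (hCT h w x hw1 h1 hw.symm).symm

theorem mat_comm_trans {F : Type*} [Field F] (A B C : Matrix (Fin 2) (Fin 2) F)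
    (hB : ¬ (B 0 1 = 0 ∧ B 1 0 = 0 ∧ B 0 0 = B 1 1)) (hAB : A * B = B * A) (hBC : B * C = C * B) :
    A * C = C * A := by
  have e1 := congrFun (congrFun hAB 0) 0
  have e2 := congrFun (congrFun hAB 0) 1
  have e3 := congrFun (congrFun hAB 1) 0
  have f1 := congrFun (congrFun hBC 0) 0
  have f2 := congrFun (congrFun hBC 0) 1
  have f3 := congrFun (congrFun hBC 1) 0
  simp only [Matrix.mul_apply, Fin.sum_univ_two] at e1 e2 e3 f1 f2 f3
  have E1 : A 0 1 * C 1 0 = C 0 1 * A 1 0 := by grind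
  have E2 : (A 0 0 - A 1 1) * C 0 1 = (C 0 0 - C 1 1) * A 0 1 := by grind
  have E3 : (A 0 0 - A 1 1) * C 1 0 = (C 0 0 - C 1 1) * A 1 0 := by grind
  ext i j
  fin_cases i <;> fin_cases j <;> simp [Matrix.mul_apply, Fin.sum_univ_two]
  · linear_combination E1
  · linear_combination E2
  · linear_combination -E3
  · linear_combination -E1

theorem sq_eq_one_char_two {F : Type*} [Field F] [CharP F 2] (r : F) (h : r ^ 2 = 1) : r = 1 := by
  have h2 : (2 : F) = 0 := CharTwo.two_eq_zero
  have h3 : (r - 1) ^ 2 = 0 := by linear_combination h - (r - 1) * h2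
  have h4 : r - 1 = 0 := by simpa using h3
  exact sub_eq_zero.1 h4

theorem sl2_eq_one_of_scalar {F : Type*} [Field F] [CharP F 2]
    (B : Matrix.SpecialLinearGroup (Fin 2) F)
    (h : (B : Matrix (Fin 2) (Fin 2) F) 0 1 = 0 ∧ (B : Matrix (Fin 2) (Fin 2) F) 1 0 = 0 ∧
      (B : Matrix (Fin 2) (Fin 2) F) 0 0 = (B : Matrix (Fin 2) (Fin 2) F) 1 1) : B = 1 := by
  obtain ⟨h1, h2, h3⟩ := h
  have hdet := B.det_coe
  rw [Matrix.det_fin_two, h1, h2, h3] at hdet
  have h4 : (B : Matrix (Fin 2) (Fin 2) F) 1 1 = 1 := by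
    apply sq_eq_one_char_two
    linear_combination hdet
  ext i j
  fin_cases i <;> fin_cases j <;> simp [h1, h2, h3, h4]

theorem center_sl2_eq_bot {F : Type*} [Field F] [CharP F 2] :
    Subgroup.center (Matrix.SpecialLinearGroup (Fin 2) F) = ⊥ := by
  rw [eq_bot_iff]
  intro A hA
  rw [Matrix.SpecialLinearGroup.mem_center_iff] at hA
  obtain ⟨r, hr, hrA⟩ := hA
  rw [Fintype.card_fin] at hr
  have hr1 : r = 1 := sq_eq_one_char_two r hr
  rw [Subgroup.mem_bot]
  apply Matrix.SpecialLinearGroup.ext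
  intro i j
  rw [← hrA, hr1]
  simp

theorem psl2_commTrans {F : Type*} [Field F] [CharP F 2]
    (a b c : Matrix.ProjectiveSpecialLinearGroup (Fin 2) F) (hb : b ≠ 1)
    (hab : a * b = b * a) (hbc : b * c = c * b) : a * c = c * a := by
  obtain ⟨A, rfl⟩ := QuotientGroup.mk_surjective a
  obtain ⟨B, rfl⟩ := QuotientGroup.mk_surjective b
  obtain ⟨C, rfl⟩ := QuotientGroup.mk_surjective c
  have hinj : ∀ X Y : Matrix.SpecialLinearGroup (Fin 2) F,
      (QuotientGroup.mk X : Matrix.ProjectiveSpecialLinearGroup (Fin 2) F) = QuotientGroup.mk Y → X = Y := by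
    intro X Y h
    rw [QuotientGroup.eq, center_sl2_eq_bot, Subgroup.mem_bot] at h
    exact (inv_mul_eq_one.1 h)
  have hAB : A * B = B * A := by
    apply hinj
    rw [QuotientGroup.mk_mul, QuotientGroup.mk_mul]
    exact hab
  have hBC : B * C = C * B := by
    apply hinj
    rw [QuotientGroup.mk_mul, QuotientGroup.mk_mul]
    exact hbc
  have hB1 : B ≠ 1 := by
    rintro rfl
    exact hb rfl
  have hBns : ¬ ((B : Matrix (Fin 2) (Fin 2) F) 0 1 = 0 ∧ (B : Matrix (Fin 2) (Fin 2) F) 1 0 = 0 ∧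
      (B : Matrix (Fin 2) (Fin 2) F) 0 0 = (B : Matrix (Fin 2) (Fin 2) F) 1 1) :=
    fun h => hB1 (sl2_eq_one_of_scalar B h)
  have hAB' : (A : Matrix (Fin 2) (Fin 2) F) * (B : Matrix (Fin 2) (Fin 2) F) = B * A := by
    rw [← Matrix.SpecialLinearGroup.coe_mul, ← Matrix.SpecialLinearGroup.coe_mul, hAB]
  have hBC' : (B : Matrix (Fin 2) (Fin 2) F) * (C : Matrix (Fin 2) (Fin 2) F) = C * B := by
    rw [← Matrix.SpecialLinearGroup.coe_mul, ← Matrix.SpecialLinearGroup.coe_mul, hBC]
  have hAC' := mat_comm_trans _ _ _ hBns hAB' hBC'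
  have hAC : A * C = C * A := by
    apply Subtype.ext
    rw [Matrix.SpecialLinearGroup.coe_mul, Matrix.SpecialLinearGroup.coe_mul]
    exact hAC'
  rw [← QuotientGroup.mk_mul, ← QuotientGroup.mk_mul, hAC]

/-- Let F be a finite field with 2ⁿ elements, n ≥ 2. In PSL₂(F) the centralizer of every element meets each of its conjugates by elements outside its normalizer trivially. -/
theorem result (n : ℕ) (hn : 2 ≤ n)
    (x : Matrix.ProjectiveSpecialLinearGroup (Fin 2) (GaloisField 2 n)) :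
    Cfsg.IsTISubset (Subgroup.centralizer ({x} : Set (Matrix.ProjectiveSpecialLinearGroup (Fin 2) (GaloisField 2 n))) :
      Set (Matrix.ProjectiveSpecialLinearGroup (Fin 2) (GaloisField 2 n))) := by
  apply ti_of_commTrans
  intro a b c hb hab hbc
  exact psl2_commTrans a b c hb hab hbc

end Cfsg.Agent.S4065
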