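import Mathlib
import Cfsg.Statements.S4066

set_option autoImplicit false
open Cfsg

namespace Cfsg.Agent.S4066

theorem closure_isPGroup {G : Type*} [Group G] (p : ℕ) (S : Set G)
    (hcomm : ∀ x ∈ S, ∀ y ∈ S, x * y = y * x) (hp : ∀ x ∈ S, ∃ k : ℕ, x ^ (p ^ k) = 1) :
    IsPGroup p (Subgroup.closure S) := by
  have hc := Subgroup.isMulCommutative_closure hcomm
  have key : ∀ a ∈ Subgroup.closure S, ∃ k : ℕ, a ^ (p ^ k) = 1 := by
    intro a ha
    induction ha using Subgroup.closure_induction with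
    | mem x hx => exact hp x hx
    | one => exact ⟨0, by simp⟩
    | mul a b ha hb iha ihb =>
      obtain ⟨k, hk⟩ := iha
      obtain ⟨l, hl⟩ := ihb
      have hab : Commute a b := setLike_mul_comm (s := Subgroup.closure S) ha hb
      refine ⟨k + l, ?_⟩
      rw [hab.mul_pow, pow_add, pow_mul, hk, one_pow, one_mul, mul_comm (p ^ k) (p ^ l), pow_mul, hl, one_pow]
    | inv a ha iha =>
      obtain ⟨k, hk⟩ := iha
      exact ⟨k, by rw [inv_pow, hk, inv_one]⟩
  intro g
  obtain ⟨k, hk⟩ := key g.1 g.2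
  exact ⟨k, Subtype.ext (by rw [Subgroup.coe_pow, hk]; rfl)⟩

/-- A `p`-element normalizing a subgroup that contains a Sylow `p`-subgroup lies in it. -/
theorem mem_of_mem_normalizer {G : Type*} [Group G] [Finite G] {p : ℕ} [Fact p.Prime] (P : Sylow p G)
    (C : Subgroup G) (hPC : (P : Subgroup G) ≤ C) (r : G) (hr : r ∈ Subgroup.normalizer (C : Set G))
    (hrp : ∃ k : ℕ, r ^ (p ^ k) = 1) : r ∈ C := by
  have hn : (C.subgroupOf (Subgroup.normalizer (C : Set G))).Normal := Subgroup.normal_in_normalizer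
  set N := Subgroup.normalizer (C : Set G) with hN
  set r' : N := ⟨r, hr⟩ with hr'
  set o := orderOf (QuotientGroup.mk' (C.subgroupOf N) r') with ho
  obtain ⟨k, hk⟩ := hrp
  have ho1 : o ∣ p ^ k := by
    have h1 : o ∣ orderOf r' := orderOf_map_dvd _ r'
    have h2 : orderOf r' = orderOf r := by
      rw [← Subgroup.orderOf_coe]
    rw [h2] at h1
    exact h1.trans (orderOf_dvd_of_pow_eq_one hk)
  have ho2 : o ∣ (P : Subgroup G).index := by
    have h1 : o ∣ Nat.card (N ⧸ C.subgroupOf N) := orderOf_dvd_natCard _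
    rw [← Subgroup.index_eq_card] at h1
    exact (h1.trans (Subgroup.relIndex_dvd_index_of_le Subgroup.le_normalizer)).trans
      (Subgroup.index_dvd_of_le hPC)
  have ho3 : o = 1 := by
    obtain ⟨j, -, hj⟩ := (Nat.dvd_prime_pow (Fact.out : p.Prime)).1 ho1
    rcases Nat.eq_zero_or_pos j with h0 | h0
    · rw [hj, h0, pow_zero]
    · exfalso
      apply P.not_dvd_index
      rw [hj] at ho2
      exact (dvd_pow_self p h0.ne').trans ho2
  rw [ho, orderOf_eq_one_iff] at ho3
  have h4 : r' ∈ C.subgroupOf N := by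
    rw [← QuotientGroup.eq_one_iff]
    exact ho3
  rw [Subgroup.mem_subgroupOf] at h4
  exact h4

/-- Let G be a finite group in which the centralizer of every element meets each of its conjugates by elements outside its normalizer trivially. Then any two distinct Sylow p-subgroups of G, for any prime p, intersect trivially. -/
theorem result {G : Type*} [Group G] [Finite G] (hTI : ∀ x : G, Cfsg.IsTISubset (Subgroup.centralizer ({x} : Set G) : Set G))
    {p : ℕ} [Fact p.Prime] (P Q : Sylow p G) (hPQ : P ≠ Q) : (P : Subgroup G) ⊓ (Q : Subgroup G) = ⊥ := by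
  classical
  have hmem : ∀ x h : G, h ∈ Subgroup.centralizer ({x} : Set G) ↔ x * h = h * x := by
    intro x h
    rw [Subgroup.mem_centralizer_iff]
    constructor
    · intro hh
      exact hh x (Set.mem_singleton x)
    · intro hh y hy
      rw [Set.mem_singleton_iff] at hy
      rw [hy]; exact hh
  -- Step 1
  have step1 : ∀ x y : G, y ≠ 1 → x * y = y * x →
      Subgroup.centralizer ({y} : Set G) ≤ Subgroup.normalizer (Subgroup.centralizer ({x} : Set G) : Set G) := by
    intro x y hy hxy g hg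
    by_contra hgn
    rw [hmem] at hg
    have h1 := hTI x g hgn y ((hmem x y).2 hxy)
    have h2 : g * y * g⁻¹ = y := by rw [← hg]; group
    rw [h2] at h1
    exact hy (h1 ((hmem x y).2 hxy))
  by_contra hne
  obtain ⟨x, hx1⟩ := (Subgroup.ne_bot_iff_exists_ne_one).1 hne
  obtain ⟨hxP, hxQ⟩ := Subgroup.mem_inf.1 x.2
  have hx1' : (x : G) ≠ 1 := fun h => hx1 (Subtype.ext h)
  -- pelements
  have hpel : ∀ (R : Sylow p G) (r : G), r ∈ (R : Subgroup G) → ∃ k : ℕ, r ^ (p ^ k) = 1 := by
    intro R r hr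
    obtain ⟨k, hk⟩ := R.isPGroup' ⟨r, hr⟩
    exact ⟨k, by simpa using congrArg Subtype.val hk⟩
  -- central elements
  have hcen : ∀ R : Sylow p G, (x : G) ∈ (R : Subgroup G) →
      ∃ z : G, z ∈ (R : Subgroup G) ∧ z ≠ 1 ∧ ∀ y ∈ (R : Subgroup G), z * y = y * z := by
    intro R hxR
    have : Nontrivial (R : Subgroup G) := ⟨⟨⟨x, hxR⟩, 1, fun h => hx1' (congrArg Subtype.val h)⟩⟩
    have hnt := IsPGroup.center_nontrivial R.isPGroup'
    obtain ⟨z, hz⟩ := exists_ne (1 : Subgroup.center (R : Subgroup G))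
    refine ⟨((z : (R : Subgroup G)) : G), (z : (R : Subgroup G)).2, ?_, ?_⟩
    · intro h
      apply hz
      apply Subtype.ext
      apply Subtype.ext
      exact h
    · intro y hy
      have := Subgroup.mem_center_iff.1 z.2 ⟨y, hy⟩
      have h2 := congrArg Subtype.val this
      simp only [Subgroup.coe_mul] at h2
      exact h2.symm
  obtain ⟨z, hzP, hz1, hzc⟩ := hcen P hxP
  obtain ⟨z', hzQ, hz'1, hz'c⟩ := hcen Q hxQ
  set C := Subgroup.centralizer ({z} : Set G) with hC
  have hPC : (P : Subgroup G) ≤ C := fun y hy => (hmem z y).2 (hzc y hy)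
  -- z' ∈ C
  have hz'N : z' ∈ Subgroup.normalizer (C : Set G) := by
    apply step1 z (x : G) hx1' (hzc x hxP)
    rw [hmem]
    exact (hz'c x hxQ).symm
  have hz'C : z' ∈ C := mem_of_mem_normalizer P C hPC z' hz'N (hpel Q z' hzQ)
  have hQC : (Q : Subgroup G) ≤ C := by
    intro y hy
    apply mem_of_mem_normalizer P C hPC y _ (hpel Q y hy)
    apply step1 z z' hz'1 ((hmem z z').1 hz'C)
    rw [hmem]
    exact hz'c y hy
  -- Step 3: every element of C commutes with its C-conjugates
  have step3 : ∀ w c : G, w ∈ C → c ∈ C → w * (c * w * c⁻¹) = (c * w * c⁻¹) * w := by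
    intro w c hw hc
    rw [hC, hmem] at hw hc
    have hcN : c ∈ Subgroup.normalizer (Subgroup.centralizer ({w} : Set G) : Set G) := by
      by_contra hcn
      have h1 := hTI w c hcn z ((hmem w z).2 hw.symm)
      have h2 : c * z * c⁻¹ = z := by rw [← hc]; group
      rw [h2] at h1
      exact hz1 (h1 ((hmem w z).2 hw.symm))
    rw [Subgroup.mem_normalizer_iff] at hcN
    have h3 := (hcN w).1 ((hmem w w).2 rfl)
    exact (hmem w _).1 h3
  -- Step 4
  have step4 : ∀ w : G, w ∈ (P : Subgroup G) → w ∈ (Q : Subgroup G) := by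
    intro w hw
    set S : Set G := {y | ∃ c ∈ C, y = c * w * c⁻¹} with hS
    have hwC : w ∈ C := hPC hw
    have hcomm : ∀ a ∈ S, ∀ b ∈ S, a * b = b * a := by
      rintro a ⟨c, hc, rfl⟩ b ⟨d, hd, rfl⟩
      have h1 := step3 w (c⁻¹ * d) hwC (C.mul_mem (C.inv_mem hc) hd)
      have e1 : c * w * c⁻¹ * (d * w * d⁻¹) = c * (w * (c⁻¹ * d * w * (c⁻¹ * d)⁻¹)) * c⁻¹ := by group
      have e2 : d * w * d⁻¹ * (c * w * c⁻¹) = c * ((c⁻¹ * d * w * (c⁻¹ * d)⁻¹) * w) * c⁻¹ := by group
      rw [e1, e2, h1]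
    have hpS : ∀ a ∈ S, ∃ k : ℕ, a ^ (p ^ k) = 1 := by
      rintro a ⟨c, hc, rfl⟩
      obtain ⟨k, hk⟩ := hpel P w hw
      refine ⟨k, ?_⟩
      rw [conj_pow, hk]; group
    have hA : IsPGroup p (Subgroup.closure S) := closure_isPGroup p S hcomm hpS
    have hconj : ∀ c ∈ C, ∀ h ∈ Subgroup.closure S, c * h * c⁻¹ ∈ Subgroup.closure S := by
      intro c hc h hh
      induction hh using Subgroup.closure_induction with
      | mem y hy =>
        obtain ⟨d, hd, rfl⟩ := hy
        apply Subgroup.subset_closure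
        exact ⟨c * d, C.mul_mem hc hd, by group⟩
      | one => simp
      | mul a b ha hb iha ihb =>
        have : c * (a * b) * c⁻¹ = (c * a * c⁻¹) * (c * b * c⁻¹) := by group
        rw [this]
        exact Subgroup.mul_mem _ iha ihb
      | inv a ha iha =>
        have : c * a⁻¹ * c⁻¹ = (c * a * c⁻¹)⁻¹ := by group
        rw [this]
        exact Subgroup.inv_mem _ iha
    have hQN : (Q : Subgroup G) ≤ Subgroup.normalizer (Subgroup.closure S : Set G) := by
      intro q hq
      rw [Subgroup.mem_normalizer_iff]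
      intro h
      constructor
      · exact hconj q (hQC hq) h
      · intro hh
        have := hconj q⁻¹ (C.inv_mem (hQC hq)) _ hh
        have e : q⁻¹ * (q * h * q⁻¹) * q⁻¹⁻¹ = h := by group
        rwa [e] at this
    have hsup : IsPGroup p ((Q : Subgroup G) ⊔ Subgroup.closure S : Subgroup G) :=
      IsPGroup.to_sup_of_normal_right' Q.isPGroup' hA hQN
    have heq := Q.is_maximal' hsup le_sup_left
    have hle : Subgroup.closure S ≤ (Q : Subgroup G) := by
      rw [← heq]; exact le_sup_right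
    apply hle
    apply Subgroup.subset_closure
    exact ⟨1, C.one_mem, by group⟩
  have hPQ' : (P : Subgroup G) ≤ (Q : Subgroup G) := step4
  have := P.is_maximal' Q.isPGroup' hPQ'
  exact hPQ (Sylow.ext this.symm)

end Cfsg.Agent.S4066
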