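-- Statement S4067 (the theorem Cfsg.fg5_automorphism_orbits_bound_nonabelian): a finite non-abelian
-- group has at most #G/p orbits under its automorphism group, p the least prime divisor of #G.
import Cfsg.Statements.S4067
import Cfsg.Agent.Lib.Helper57.Transv

set_option autoImplicit false
open Cfsg

namespace Cfsg.Agent.S4067

open Cfsg.Agent.Helper57

/-- Let G be a finite non-abelian group and p the least prime dividing its order. Then the automorphism group of G has at most #G/p orbits on G. -/
theorem result {G : Type*} [Group G] [Finite G] (hna : ¬ IsMulCommutative G) :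
    Nat.card (MulAction.orbitRel.Quotient (MulAut G) G) ≤ Nat.card G / (Nat.card G).minFac := by
  by_cases hgood : (Nat.card G).minFac * Nat.card { p : G × G // Commute p.1 p.2 } ≤
      Nat.card G ^ 2
  · exact AOB.orbits_le_of_comm hgood
  · rw [not_le] at hgood
    obtain ⟨c, hcZ, hc, hcz⟩ := C2S.class2_struct hna hgood
    obtain ⟨S, hS1, hS2⟩ := Transv.exists_good_autos hna hcZ hc hcz
    exact AOB.orbits_le_of_autos S hS1 hS2

end Cfsg.Agent.S4067
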