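import Mathlib
import Cfsg.Statements.S4080

set_option autoImplicit false

namespace Cfsg.Agent.S4080

theorem sq_eq_zero_of_pow_eq_zero {F : Type*} [Field F] (N : Matrix (Fin 2) (Fin 2) F) (k : ℕ)
    (h : N ^ k = 0) : N ^ 2 = 0 := by
  have hCH : N ^ 2 = N.trace • N - N.det • (1 : Matrix (Fin 2) (Fin 2) F) := by
    ext i j
    fin_cases i <;> fin_cases j <;>
      simp [pow_two, Matrix.mul_apply, Fin.sum_univ_two, Matrix.det_fin_two, Matrix.trace_fin_two] <;> ring
  have hdet : N.det = 0 := by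
    have h1 : N.det ^ k = 0 := by rw [← Matrix.det_pow, h, Matrix.det_zero]
    exact eq_zero_of_pow_eq_zero h1
  rw [hdet, zero_smul, sub_zero] at hCH
  have hpow : ∀ j : ℕ, N ^ (j + 1) = N.trace ^ j • N := by
    intro j
    induction j with
    | zero => simp
    | succ j ih => rw [pow_succ, ih, Matrix.smul_mul, ← pow_two, hCH, smul_smul, pow_succ]
  by_cases ht : N.trace = 0
  · rw [hCH, ht, zero_smul]
  · cases k with
    | zero => simp at h
    | succ k =>
      rw [hpow] at h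
      rcases smul_eq_zero.1 h with h' | h'
      · exact absurd (eq_zero_of_pow_eq_zero h') ht
      · rw [h']; simp

theorem ker_cast {p : ℕ} [Fact p.Prime] (r : ZMod (p ^ 2))
    (h : (ZMod.castHom (dvd_pow_self p two_ne_zero) (ZMod p)) r = 0) :
    ∃ s : ZMod (p ^ 2), r = (p : ZMod (p ^ 2)) * s := by
  have hp : p.Prime := Fact.out
  have : NeZero (p ^ 2) := ⟨pow_ne_zero 2 hp.ne_zero⟩
  rw [ZMod.castHom_apply, ← ZMod.natCast_val, ZMod.natCast_eq_zero_iff] at h
  obtain ⟨c, hc⟩ := h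
  refine ⟨(c : ZMod (p ^ 2)), ?_⟩
  rw [← Nat.cast_mul, ← hc, ZMod.natCast_zmod_val]

theorem key {p : ℕ} [Fact p.Prime] (hp : 3 < p) (A : Matrix (Fin 2) (Fin 2) (ZMod (p ^ 2)))
    (hA : A ^ p = 1) : (p : ZMod (p ^ 2)) • (A - 1) = 0 := by
  have hpp : p.Prime := Fact.out
  set N := A - 1 with hN
  have hA' : A = N + 1 := by rw [hN]; abel
  let φ : ZMod (p ^ 2) →+* ZMod p := ZMod.castHom (dvd_pow_self p two_ne_zero) (ZMod p)
  have hNbar : (φ.mapMatrix N) ^ p = 0 := by
    have h1 : (φ.mapMatrix A) ^ p = 1 := by rw [← map_pow, hA, map_one]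
    have h2 : φ.mapMatrix A = φ.mapMatrix N + 1 := by rw [hA', map_add, map_one]
    rw [h2, add_pow_char_of_commute p (Commute.one_right _), one_pow] at h1
    simpa using h1
  have hsq : (φ.mapMatrix N) ^ 2 = 0 := sq_eq_zero_of_pow_eq_zero _ p hNbar
  have hK : ∃ K : Matrix (Fin 2) (Fin 2) (ZMod (p ^ 2)), N ^ 2 = (p : ZMod (p ^ 2)) • K := by
    have hent : ∀ i j, ∃ s, (N ^ 2) i j = (p : ZMod (p ^ 2)) * s := by
      intro i j
      have h3 : φ ((N ^ 2) i j) = 0 := by
        have := congrFun (congrFun hsq i) j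
        rw [← map_pow] at this
        simpa using this
      exact ker_cast _ h3
    choose K hK using hent
    exact ⟨Matrix.of K, by ext i j; simp [hK]⟩
  obtain ⟨K, hK⟩ := hK
  have hp2 : (p : ZMod (p ^ 2)) * (p : ZMod (p ^ 2)) = 0 := by
    rw [← Nat.cast_mul, ← pow_two]; exact ZMod.natCast_self _
  have hterm : ∀ m ∈ Finset.range (p + 1), m ≠ 0 ∧ m ≠ 1 →
      N ^ m * 1 ^ (p - m) * ((p.choose m : ℕ) : Matrix (Fin 2) (Fin 2) (ZMod (p ^ 2))) = 0 := by
    intro m hm hne
    have hm2 : 2 ≤ m := by omega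
    have hmp : m ≤ p := by have := Finset.mem_range.1 hm; omega
    rw [one_pow, mul_one, ← nsmul_eq_mul', ← Nat.cast_smul_eq_nsmul (ZMod (p ^ 2))]
    rcases hmp.lt_or_eq with hlt | heq
    · obtain ⟨c, hc⟩ := hpp.dvd_choose_self (by omega : m ≠ 0) hlt
      have e1 : N ^ m = N ^ (m - 2) * N ^ 2 := by rw [← pow_add]; congr 1; omega
      rw [e1, hK, hc, Nat.cast_mul, Matrix.mul_smul, smul_smul]
      have : (p : ZMod (p ^ 2)) * (c : ZMod (p ^ 2)) * (p : ZMod (p ^ 2)) = 0 := by
        rw [mul_right_comm, hp2, zero_mul]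
      rw [this, zero_smul]
    · have e1 : N ^ m = N ^ (m - 4) * N ^ 2 * N ^ 2 := by
        rw [← pow_add, ← pow_add]; congr 1; omega
      rw [e1, hK]
      have : N ^ (m - 4) * (p : ZMod (p ^ 2)) • K * (p : ZMod (p ^ 2)) • K =
          ((p : ZMod (p ^ 2)) * (p : ZMod (p ^ 2))) • (N ^ (m - 4) * K * K) := by
        simp only [Matrix.mul_smul, Matrix.smul_mul, smul_smul]
      rw [this, hp2, zero_smul, smul_zero]
  have hsum := (Commute.one_right N).add_pow p
  rw [Finset.sum_eq_add 0 1 (by norm_num) hterm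
    (fun h => absurd (Finset.mem_range.2 (by omega)) h)
    (fun h => absurd (Finset.mem_range.2 (by omega)) h), ← hA', hA] at hsum
  simp only [pow_zero, one_pow, mul_one, Nat.choose_zero_right, Nat.cast_one, pow_one,
    Nat.choose_one_right] at hsum
  have h5 : N * (p : Matrix (Fin 2) (Fin 2) (ZMod (p ^ 2))) = 0 := by
    have : (1 : Matrix (Fin 2) (Fin 2) (ZMod (p ^ 2))) + 0 = 1 + N * (p : Matrix (Fin 2) (Fin 2) (ZMod (p ^ 2))) := by
      rw [add_zero]; exact hsum
    exact (add_left_cancel this).symm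
  rw [← nsmul_eq_mul', ← Nat.cast_smul_eq_nsmul (ZMod (p ^ 2))] at h5
  exact h5

theorem exists_mul_of_nsmul_eq_zero {p : ℕ} [Fact p.Prime] (u : ZMod (p ^ 2)) (h : p • u = 0) :
    ∃ u' : ZMod (p ^ 2), u = (p : ZMod (p ^ 2)) * u' := by
  have hp : p.Prime := Fact.out
  have : NeZero (p ^ 2) := ⟨pow_ne_zero 2 hp.ne_zero⟩
  rw [nsmul_eq_mul, ← ZMod.natCast_zmod_val u, ← Nat.cast_mul, ZMod.natCast_eq_zero_iff] at h
  have h2 : p ∣ u.val :=
    Nat.dvd_of_mul_dvd_mul_left hp.pos (by rw [← pow_two]; exact h)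
  obtain ⟨c, hc⟩ := h2
  exact ⟨c, by rw [← Nat.cast_mul, ← hc, ZMod.natCast_zmod_val]⟩

theorem result {p : ℕ} [Fact p.Prime] (hp : 3 < p)
    (a : MulAut (Multiplicative (ZMod (p ^ 2) × ZMod (p ^ 2)))) (ha : orderOf a = p)
    (x : Multiplicative (ZMod (p ^ 2) × ZMod (p ^ 2))) (hx : orderOf x = p) : a x = x := by
  have hpp : p.Prime := Fact.out
  have : NeZero (p ^ 2) := ⟨pow_ne_zero 2 hpp.ne_zero⟩
  let f : (ZMod (p ^ 2) × ZMod (p ^ 2)) →+ (ZMod (p ^ 2) × ZMod (p ^ 2)) :=
    { toFun := fun v => Multiplicative.toAdd (a (Multiplicative.ofAdd v))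
      map_zero' := by simp
      map_add' := by intro u v; simp [ofAdd_add] }
  let F : Module.End (ZMod (p ^ 2)) (ZMod (p ^ 2) × ZMod (p ^ 2)) :=
    AddMonoidHom.toZModLinearMap (p ^ 2) f
  have hF : ∀ v, F v = Multiplicative.toAdd (a (Multiplicative.ofAdd v)) := fun v => rfl
  have hFpow : ∀ k : ℕ, ∀ v, (F ^ k) v = Multiplicative.toAdd ((a ^ k) (Multiplicative.ofAdd v)) := by
    intro k
    induction k with
    | zero => intro v; simp
    | succ k ih =>
      intro v
      rw [pow_succ F k, Module.End.mul_apply, ih, hF, pow_succ a k, MulAut.mul_apply]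
      simp
  have hFp : F ^ p = 1 := by
    apply LinearMap.ext
    intro v
    have hap : a ^ p = 1 := by
      have := pow_orderOf_eq_one a
      rwa [ha] at this
    rw [hFpow, hap]
    simp
  let A := LinearMap.toMatrixAlgEquiv (Module.Basis.finTwoProd (ZMod (p ^ 2))) F
  have hAp : A ^ p = 1 := by
    show (LinearMap.toMatrixAlgEquiv (Module.Basis.finTwoProd (ZMod (p ^ 2))) F) ^ p = 1
    rw [← map_pow, hFp, map_one]
  have hkey := key hp A hAp
  have hF2 : (p : ZMod (p ^ 2)) • (F - 1) = 0 := by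
    apply (LinearMap.toMatrixAlgEquiv (Module.Basis.finTwoProd (ZMod (p ^ 2)))).injective
    rw [map_smul, map_sub, map_one, map_zero]
    exact hkey
  have hxp : x ^ p = 1 := by
    have := pow_orderOf_eq_one x
    rwa [hx] at this
  set v := Multiplicative.toAdd x with hv
  have hv0 : p • v = 0 := by
    have := congrArg Multiplicative.toAdd hxp
    simpa using this
  obtain ⟨u', hu'⟩ := exists_mul_of_nsmul_eq_zero v.1 (by
    have := congrArg Prod.fst hv0
    simpa using this)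
  obtain ⟨w', hw'⟩ := exists_mul_of_nsmul_eq_zero v.2 (by
    have := congrArg Prod.snd hv0
    simpa using this)
  have hv' : v = (p : ZMod (p ^ 2)) • ((u', w') : ZMod (p ^ 2) × ZMod (p ^ 2)) := by
    apply Prod.ext
    · simp [hu']
    · simp [hw']
  have h6 : F v = v := by
    rw [hv', map_smul]
    have := LinearMap.congr_fun hF2 (u', w')
    simp only [LinearMap.smul_apply, LinearMap.sub_apply, Module.End.one_apply, LinearMap.zero_apply,
      smul_sub, sub_eq_zero] at this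
    exact this
  have h7 : a x = Multiplicative.ofAdd (F v) := by rw [hF]; simp [hv]
  rw [h7, h6]
  simp [hv]

end Cfsg.Agent.S4080
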