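import Cfsg.Statements.S4081
import Mathlib
import Cfsg.Agent.S0144
import Cfsg.Agent.Lib.Helper57.AutOrbMain

set_option autoImplicit false
open Cfsg

namespace Cfsg.Agent.S4081

open scoped IsMulCommutative
open Cfsg.Agent.Lib.Helper57.AutOrbGrp Cfsg.Agent.Lib.Helper57.AutOrbMain

/-- Equality of automorphism orbits. -/
theorem mk_eq_iff {G : Type*} [Group G] (a b : G) :
    (Quotient.mk'' a : MulAction.orbitRel.Quotient (MulAut G) G) = Quotient.mk'' b ↔
      ∃ φ : MulAut G, φ b = a := by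
  rw [Quotient.eq'', MulAction.orbitRel_apply, MulAction.mem_orbit_iff]
  rfl

/-- Three pairwise inequivalent elements representing all orbits give exactly three orbits. -/
theorem card_orbits_eq_three {G : Type*} [Group G] [Finite G] (a b c : G)
    (hab : ¬ ∃ φ : MulAut G, φ b = a) (hac : ¬ ∃ φ : MulAut G, φ c = a)
    (hbc : ¬ ∃ φ : MulAut G, φ c = b)
    (hall : ∀ g : G, (∃ φ : MulAut G, φ a = g) ∨ (∃ φ : MulAut G, φ b = g) ∨
      (∃ φ : MulAut G, φ c = g)) :
    Nat.card (MulAction.orbitRel.Quotient (MulAut G) G) = 3 := by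
  classical
  have : Fintype (MulAction.orbitRel.Quotient (MulAut G) G) := Fintype.ofFinite _
  rw [Nat.card_eq_fintype_card, ← Finset.card_univ]
  have huniv : (Finset.univ : Finset (MulAction.orbitRel.Quotient (MulAut G) G)) =
      {Quotient.mk'' a, Quotient.mk'' b, Quotient.mk'' c} := by
    ext x
    simp only [Finset.mem_univ, true_iff, Finset.mem_insert, Finset.mem_singleton]
    induction x using Quotient.inductionOn' with
    | h g =>
      simp only [mk_eq_iff]
      exact hall g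
  rw [huniv, Finset.card_insert_of_notMem, Finset.card_insert_of_notMem, Finset.card_singleton]
  · simp only [Finset.mem_singleton, mk_eq_iff]
    exact hbc
  · simp only [Finset.mem_insert, Finset.mem_singleton, mk_eq_iff]
    rintro (h | h)
    · exact hab h
    · exact hac h

/-- The backward direction. -/
theorem backward {G : Type*} [Group G] [Finite G] (p q n : ℕ) [hp : Fact p.Prime]
    [hq : Fact q.Prime] (hpq : p ≠ q) (hn : 1 ≤ n) (hcard : Nat.card G = p ^ n * q)
    (hSyl : ∀ P : Sylow p G, (P : Subgroup G).Normal ∧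
      Cfsg.IsElementaryAbelian p (P : Subgroup G))
    (hord : orderOf (p : ZMod q) = q - 1)
    (hfpf : ∀ x y : G, orderOf x = q → orderOf y = p → x * y * x⁻¹ ≠ y) :
    Nat.card (MulAction.orbitRel.Quotient (MulAut G) G) = 3 := by
  obtain ⟨P⟩ : Nonempty (Sylow p G) := inferInstance
  obtain ⟨hPn, hPc, hPe⟩ := hSyl P
  have hcop : Nat.Coprime p q := (Nat.coprime_primes hp.out hq.out).2 hpq
  have hNcard : Nat.card (P : Subgroup G) = p ^ n := by
    rw [Sylow.card_eq_multiplicity, hcard]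
    congr 1
    rw [Nat.factorization_mul (pow_ne_zero _ hp.out.ne_zero) hq.out.ne_zero,
      Nat.factorization_pow]
    simp [hp.out.factorization_self,
      Nat.factorization_eq_zero_of_not_dvd (fun h => hpq ((Nat.prime_dvd_prime_iff_eq hp.out hq.out).1 h))]
  have hindex : (P : Subgroup G).index = q := by
    have h0 := (P : Subgroup G).card_mul_index
    rw [hNcard, hcard] at h0
    exact Nat.eq_of_mul_eq_mul_left (pow_pos hp.out.pos n) h0
  have hqmem : ∀ g : G, g ^ q ∈ (P : Subgroup G) := by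
    intro g
    have h0 := (P : Subgroup G).pow_index_mem g
    rwa [hindex] at h0
  have hNord : ∀ x ∈ (P : Subgroup G), x ≠ 1 → orderOf x = p :=
    fun x hx hx1 => orderOf_eq_prime (hPe x hx) hx1
  have hout : ∀ g : G, g ∉ (P : Subgroup G) → orderOf g = q := by
    intro g hg
    have hg1 : g ≠ 1 := fun h => hg (h ▸ (P : Subgroup G).one_mem)
    have hgp : g ^ p ≠ 1 := by
      intro hgp
      have h1 : (g : G ⧸ (P : Subgroup G)) ^ p.gcd q = 1 := by
        rw [pow_gcd_eq_one]
        refine ⟨?_, ?_⟩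
        · rw [← QuotientGroup.mk_pow, hgp]
          rfl
        · rw [← QuotientGroup.mk_pow]
          exact (QuotientGroup.eq_one_iff _).2 (hqmem g)
      rw [hcop.gcd_eq_one, pow_one, QuotientGroup.eq_one_iff] at h1
      exact hg h1
    have hgq : g ^ q = 1 := by
      by_contra hne
      have hz : orderOf (g ^ q) = p := hNord _ (hqmem g) hne
      have hx : orderOf (g ^ p) = q := by
        apply orderOf_eq_prime _ hgp
        rw [← pow_mul, mul_comm, pow_mul]
        exact hPe _ (hqmem g)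
      apply hfpf (g ^ p) (g ^ q) hx hz
      group
    exact orderOf_eq_prime hgq hg1
  have hS : Sit p q (P : Subgroup G) := by
    refine ⟨hPn, ?_, hPe, ?_, hindex, ?_⟩
    · intro x hx x' hx'
      exact congrArg Subtype.val (mul_comm' (⟨x, hx⟩ : (P : Subgroup G)) ⟨x', hx'⟩)
    · intro hbot
      rw [hbot, Subgroup.card_bot] at hNcard
      have h1 : 1 < p ^ n := Nat.one_lt_pow (by omega) hp.out.one_lt
      omega
    · intro g hg x hx hgx
      by_contra hx1
      exact hfpf g x (hout g hg) (hNord x hx hx1) hgx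
  obtain ⟨htp, htq⟩ := trans_of_prim_root hpq (P : Subgroup G) hS hord
  obtain ⟨x₀, hx₀⟩ := Subgroup.ne_bot_iff_exists_ne_one.1 hS.ne_bot
  have hx₀1 : (x₀ : G) ≠ 1 := fun h => hx₀ (Subtype.ext h)
  obtain ⟨y₀, hy₀⟩ := hS.exists_not_mem
  have hy₀1 : y₀ ≠ 1 := fun h => hy₀ (h ▸ (P : Subgroup G).one_mem)
  apply card_orbits_eq_three 1 (x₀ : G) y₀
  · rintro ⟨φ, hφ⟩
    exact hx₀1 ((map_eq_one_iff φ φ.injective).1 hφ)
  · rintro ⟨φ, hφ⟩
    exact hy₀1 ((map_eq_one_iff φ φ.injective).1 hφ)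
  · rintro ⟨φ, hφ⟩
    have h1 := φ.orderOf_eq y₀
    rw [hφ, hNord _ x₀.2 hx₀1, hout y₀ hy₀] at h1
    exact hpq h1
  · intro g
    by_cases hg1 : g = 1
    · exact Or.inl ⟨1, by rw [hg1]; rfl⟩
    · by_cases hgN : g ∈ (P : Subgroup G)
      · exact Or.inr (Or.inl (htp _ x₀.2 g hgN hx₀1 hg1))
      · exact Or.inr (Or.inr (htq y₀ g hy₀ hgN))

/-- The forward direction with the roles of the two primes fixed. -/
theorem core {G : Type*} [Group G] [Finite G] (p q : ℕ) [hp : Fact p.Prime] [hq : Fact q.Prime]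
    (hpq : p ≠ q)
    (hord : ∀ g : G, g ≠ 1 → orderOf g = p ∨ orderOf g = q)
    (htp : ∀ g g' : G, orderOf g = p → orderOf g' = p → ∃ φ : MulAut G, φ g = g')
    (htq : ∀ g g' : G, orderOf g = q → orderOf g' = q → ∃ φ : MulAut G, φ g = g')
    (b : G) (hb : orderOf b = q)
    (N : Subgroup G) (hNchar : ∀ φ : MulAut G, ∀ x ∈ N, φ x ∈ N) (hNn : N.Normal)
    (hNab : ∀ x ∈ N, ∀ x' ∈ N, x * x' = x' * x) (g₀ : G) (hg₀ : g₀ ∈ N)
    (hg₀p : orderOf g₀ = p) :
    ∃ n : ℕ, 1 ≤ n ∧ Nat.card G = p ^ n * q ∧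
      (∀ P : Sylow p G, (P : Subgroup G).Normal ∧
        Cfsg.IsElementaryAbelian p (P : Subgroup G)) ∧
      orderOf (p : ZMod q) = q - 1 ∧
      ∀ x y : G, orderOf x = q → orderOf y = p → x * y * x⁻¹ ≠ y := by
  classical
  have hcop : Nat.Coprime p q := (Nat.coprime_primes hp.out hq.out).2 hpq
  have hqp : ¬ q ∣ p := fun h => hpq ((Nat.prime_dvd_prime_iff_eq hq.out hp.out).1 h).symm
  have hpq' : ¬ p ∣ q := fun h => hpq ((Nat.prime_dvd_prime_iff_eq hp.out hq.out).1 h)
  have hg₀1 : g₀ ≠ 1 := by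
    intro h
    rw [h, orderOf_one] at hg₀p
    exact hp.out.ne_one hg₀p.symm
  have hnopq : ∀ x y : G, orderOf x = q → orderOf y = p → Commute x y → False := by
    intro x y hx hy hxy
    have h1 : orderOf (x * y) = q * p := by
      rw [hxy.orderOf_mul_eq_mul_orderOf_of_coprime (by rw [hx, hy]; exact hcop.symm), hx, hy]
    have h4 : 4 ≤ q * p := Nat.mul_le_mul hq.out.two_le hp.out.two_le
    have h2 : x * y ≠ 1 := by
      intro h
      rw [h, orderOf_one] at h1
      omega
    rcases hord _ h2 with h | h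
    · rw [h1] at h
      have h5 : q = 1 := Nat.eq_of_mul_eq_mul_right hp.out.pos (by rw [one_mul]; exact h)
      exact hq.out.ne_one h5
    · rw [h1] at h
      have h5 : p = 1 := Nat.eq_of_mul_eq_mul_left hq.out.pos (by rw [mul_one]; exact h)
      exact hp.out.ne_one h5
  have hfpf : ∀ x y : G, orderOf x = q → orderOf y = p → x * y * x⁻¹ ≠ y := by
    intro x y hx hy h
    exact hnopq x y hx hy (mul_inv_eq_iff_eq_mul.1 h)
  have hNp : ∀ g : G, orderOf g = p → g ∈ N := by
    intro g hg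
    obtain ⟨φ, hφ⟩ := htp g₀ g hg₀p hg
    rw [← hφ]
    exact hNchar φ g₀ hg₀
  have hNexp : ∀ g ∈ N, g ^ p = 1 := by
    intro g hg
    by_cases hg1 : g = 1
    · rw [hg1, one_pow]
    · rcases hord g hg1 with h | h
      · rw [← h]
        exact pow_orderOf_eq_one g
      · exact absurd (show Commute g g₀ from hNab g hg g₀ hg₀) (fun hc => hnopq g g₀ h hg₀p hc)
  have hNout : ∀ g : G, g ∉ N → orderOf g = q := by
    intro g hg
    have hg1 : g ≠ 1 := fun h => hg (h ▸ N.one_mem)
    rcases hord g hg1 with h | h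
    · exact absurd (hNp g h) hg
    · exact h
  have hNpg : IsPGroup p N := by
    intro g
    exact ⟨1, Subtype.ext (by simpa using hNexp g g.2)⟩
  have hSylN : ∀ P : Sylow p G, (P : Subgroup G) = N := by
    intro P
    refine (P.is_maximal' hNpg ?_).symm
    intro x hx
    by_cases hx1 : x = 1
    · rw [hx1]
      exact N.one_mem
    · rcases hord x hx1 with h | h
      · exact hNp x h
      · exfalso
        obtain ⟨k, hk⟩ := P.isPGroup' ⟨x, hx⟩
        have hk' : x ^ p ^ k = 1 := by simpa using congrArg Subtype.val hk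
        have h2 := orderOf_dvd_of_pow_eq_one hk'
        rw [h] at h2
        exact hqp (hq.out.dvd_of_dvd_pow h2)
  obtain ⟨P₀⟩ : Nonempty (Sylow p G) := inferInstance
  have hP₀ := hSylN P₀
  obtain ⟨n, hn⟩ := IsPGroup.iff_card.1 hNpg
  have hn1 : 1 ≤ n := by
    by_contra h0
    have hn0 : n = 0 := by omega
    rw [hn0, pow_zero] at hn
    have h1 : N = ⊥ := Subgroup.eq_bot_of_card_eq N hn
    rw [h1, Subgroup.mem_bot] at hg₀
    exact hg₀1 hg₀
  have hpind : ¬ p ∣ N.index := by
    rw [← hP₀]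
    exact P₀.not_dvd_index
  have hprimes : ∀ r : ℕ, r.Prime → r ∣ Nat.card G → r = p ∨ r = q := by
    intro r hr hrd
    have : Fact r.Prime := ⟨hr⟩
    obtain ⟨x, hx⟩ := exists_prime_orderOf_dvd_card' r hrd
    have hx1 : x ≠ 1 := by
      intro h
      rw [h, orderOf_one] at hx
      exact hr.ne_one hx.symm
    rcases hord x hx1 with h | h
    · left
      rw [← hx, h]
    · right
      rw [← hx, h]
  have hidx : ∃ k, N.index = q ^ k := by
    refine ⟨_, Nat.eq_prime_pow_of_unique_prime_dvd Subgroup.index_ne_zero_of_finite ?_⟩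
    intro d hd hdd
    rcases hprimes d hd (hdd.trans N.index_dvd_card) with h | h
    · exact absurd (h ▸ hdd) hpind
    · exact h
  obtain ⟨k, hk⟩ := hidx
  have hcardG : Nat.card G = p ^ n * q ^ k := by rw [← N.card_mul_index, hn, hk]
  obtain ⟨Q⟩ : Nonempty (Sylow q G) := inferInstance
  have hQcard : Nat.card (Q : Subgroup G) = q ^ k := by
    rw [Sylow.card_eq_multiplicity, hcardG]
    congr 1
    rw [Nat.factorization_mul (pow_ne_zero _ hp.out.ne_zero) (pow_ne_zero _ hq.out.ne_zero),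
      Nat.factorization_pow, Nat.factorization_pow]
    simp [hq.out.factorization_self, Nat.factorization_eq_zero_of_not_dvd hqp]
  have hQord : ∀ x ∈ (Q : Subgroup G), x ≠ 1 → orderOf x = q := by
    intro x hx hx1
    rcases hord x hx1 with h | h
    · exfalso
      obtain ⟨j, hj⟩ := Q.isPGroup' ⟨x, hx⟩
      have hj' : x ^ q ^ j = 1 := by simpa using congrArg Subtype.val hj
      have h2 := orderOf_dvd_of_pow_eq_one hj'
      rw [h] at h2
      exact hpq' (hp.out.dvd_of_dvd_pow h2)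
    · exact h
  have hk1 : k = 1 := by
    by_contra hk1
    have hk0 : k ≠ 0 := by
      intro h0
      have h1 : q ∣ Nat.card G := hb ▸ orderOf_dvd_natCard b
      rw [hcardG, h0, pow_zero, mul_one] at h1
      exact hqp (hq.out.dvd_of_dvd_pow h1)
    have hk2 : 2 ≤ k := by omega
    have : Nontrivial (Q : Subgroup G) := by
      rw [← Finite.one_lt_card_iff_nontrivial, hQcard]
      exact Nat.one_lt_pow hk0 hq.out.one_lt
    have := (Q.isPGroup').center_nontrivial
    obtain ⟨v', hv'⟩ := exists_ne (1 : Subgroup.center (Q : Subgroup G))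
    set v : G := ((v' : (Q : Subgroup G)) : G) with hv
    have hvQ : v ∈ (Q : Subgroup G) := (v' : (Q : Subgroup G)).2
    have hv1 : v ≠ 1 := by
      intro h
      apply hv'
      apply Subtype.ext
      apply Subtype.ext
      simpa [hv] using h
    have hvo : orderOf v = q := hQord v hvQ hv1
    obtain ⟨u, huQ, huv⟩ : ∃ u ∈ (Q : Subgroup G), u ∉ Subgroup.zpowers v := by
      by_contra hcon
      push Not at hcon
      have hle : (Q : Subgroup G) ≤ Subgroup.zpowers v := hcon
      have h1 := Subgroup.card_le_of_le hle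
      rw [hQcard, Nat.card_zpowers, hvo] at h1
      have h2 : q ^ 2 ≤ q ^ k := Nat.pow_le_pow_right hq.out.pos hk2
      nlinarith [hq.out.two_le]
    have hcomm : Commute u v := by
      have h1 := Subgroup.mem_center_iff.1 v'.2 ⟨u, huQ⟩
      exact congrArg Subtype.val h1
    have := hNn
    have : IsMulCommutative ↥N := ⟨⟨fun a b => Subtype.ext (hNab a a.2 b b.2)⟩⟩
    have hnorm : ∀ w : G, orderOf w = q → ∀ x : ↥N,
        ∏ i ∈ Finset.range q, MulAut.conjNormal (w ^ i) x = 1 := by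
      intro w hw
      apply norm_eq_one N w q (by rw [← hw]; exact pow_orderOf_eq_one w)
      intro x hx
      by_contra hx1
      have hx1' : (x : G) ≠ 1 := fun h => hx1 (Subtype.ext h)
      have hxo : orderOf (x : G) = p := orderOf_eq_prime (hNexp x x.2) hx1'
      apply hfpf w x hw hxo
      have h0 := congrArg Subtype.val hx
      simpa using h0
    have hA1 : ∀ j, 0 < j → j < q → ∀ x : ↥N,
        ∏ i ∈ Finset.range q, MulAut.conjNormal ((v ^ j) ^ i) x = 1 := by
      intro j hj0 hjq x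
      apply hnorm
      apply hQord _ (Subgroup.pow_mem _ hvQ j)
      intro h
      have h3 := orderOf_dvd_of_pow_eq_one h
      rw [hvo] at h3
      exact Nat.not_dvd_of_pos_of_lt hj0 hjq h3
    have hA2 : ∀ i : ℕ, ∀ x : ↥N,
        ∏ j ∈ Finset.range q, MulAut.conjNormal ((u * v ^ i) ^ j) x = 1 := by
      intro i x
      apply hnorm
      apply hQord _ (Subgroup.mul_mem _ huQ (Subgroup.pow_mem _ hvQ i))
      intro h
      apply huv
      have h3 : u = (v ^ i)⁻¹ := eq_inv_of_mul_eq_one_left h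
      rw [h3]
      exact Subgroup.inv_mem _ (Subgroup.npow_mem_zpowers v i)
    have hx := pow_eq_one_of_norms (MulAut.conjNormal (H := N)) q hq.out.pos u v hcomm hA1 hA2
      (⟨g₀, hg₀⟩ : ↥N)
    have hx' : g₀ ^ q = 1 := by simpa using congrArg Subtype.val hx
    have h3 := orderOf_dvd_of_pow_eq_one hx'
    rw [hg₀p] at h3
    exact hpq' h3
  rw [hk1, pow_one] at hcardG hk
  have hS : Sit p q N := by
    refine ⟨hNn, hNab, hNexp, ?_, hk, ?_⟩
    · intro hbot
      rw [hbot, Subgroup.mem_bot] at hg₀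
      exact hg₀1 hg₀
    · intro g hg x hx hgx
      by_contra hx1
      have hxo : orderOf x = p := orderOf_eq_prime (hNexp x hx) hx1
      exact hfpf g x (hNout g hg) hxo hgx
  have hT1 : ∀ x ∈ N, ∀ x' ∈ N, x ≠ 1 → x' ≠ 1 → ∃ φ : MulAut G, φ x = x' := by
    intro x hx x' hx' hx1 hx'1
    exact htp x x' (orderOf_eq_prime (hNexp x hx) hx1) (orderOf_eq_prime (hNexp x' hx') hx'1)
  have hT2 : ∀ g g' : G, g ∉ N → g' ∉ N → ∃ φ : MulAut G, φ g = g' := by
    intro g g' hg hg'
    exact htq g g' (hNout g hg) (hNout g' hg')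
  have hprim := prim_root hpq N hS hNchar hT1 hT2
  refine ⟨n, hn1, hcardG, ?_, hprim, hfpf⟩
  intro P
  rw [hSylN P]
  exact ⟨hNn, ⟨⟨fun a b => Subtype.ext (hNab a a.2 b b.2)⟩⟩, hNexp⟩

open scoped commutatorElement in
/-- The forward direction. -/
theorem forward {G : Type*} [Group G] [Finite G] (hnpp : ¬ IsPrimePow (Nat.card G))
    (hnt : Nat.card G ≠ 1)
    (h3 : Nat.card (MulAction.orbitRel.Quotient (MulAut G) G) = 3) :
    ∃ (p q n : ℕ) (_ : Fact p.Prime) (_ : Fact q.Prime), p ≠ q ∧ 1 ≤ n ∧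
      Nat.card G = p ^ n * q ∧
      (∀ P : Sylow p G, (P : Subgroup G).Normal ∧
        Cfsg.IsElementaryAbelian p (P : Subgroup G)) ∧
      orderOf (p : ZMod q) = q - 1 ∧
      ∀ x y : G, orderOf x = q → orderOf y = p → x * y * x⁻¹ ≠ y := by
  classical
  obtain ⟨p₁, hp₁, hd₁⟩ := Nat.exists_prime_and_dvd hnt
  obtain ⟨p₂, hp₂, hd₂, hne⟩ : ∃ p₂ : ℕ, p₂.Prime ∧ p₂ ∣ Nat.card G ∧ p₂ ≠ p₁ := by
    by_contra hcon
    push Not at hcon
    have h1 := Nat.eq_prime_pow_of_unique_prime_dvd (Nat.card_pos.ne')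
      (fun {d} hd hdd => hcon d hd hdd)
    apply hnpp
    rw [h1]
    apply hp₁.isPrimePow.pow
    intro h0
    rw [h0, pow_zero] at h1
    exact hnt h1
  have : Fact p₁.Prime := ⟨hp₁⟩
  have : Fact p₂.Prime := ⟨hp₂⟩
  obtain ⟨a, ha⟩ := exists_prime_orderOf_dvd_card' p₁ hd₁
  obtain ⟨b, hb⟩ := exists_prime_orderOf_dvd_card' p₂ hd₂
  have ha1 : a ≠ 1 := by
    intro h
    rw [h, orderOf_one] at ha
    exact hp₁.ne_one ha.symm
  have hb1 : b ≠ 1 := by
    intro h
    rw [h, orderOf_one] at hb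
    exact hp₂.ne_one hb.symm
  have horb : ∀ g : G, g = 1 ∨ (∃ φ : MulAut G, φ a = g) ∨ (∃ φ : MulAut G, φ b = g) := by
    have : Fintype (MulAction.orbitRel.Quotient (MulAut G) G) := Fintype.ofFinite _
    have hcard3 : Fintype.card (MulAction.orbitRel.Quotient (MulAut G) G) = 3 := by
      rw [← Nat.card_eq_fintype_card]
      exact h3
    have hS3 : ({Quotient.mk'' 1, Quotient.mk'' a, Quotient.mk'' b} :
        Finset (MulAction.orbitRel.Quotient (MulAut G) G)).card = 3 := by
      rw [Finset.card_insert_of_notMem, Finset.card_insert_of_notMem, Finset.card_singleton]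
      · simp only [Finset.mem_singleton, mk_eq_iff]
        rintro ⟨φ, hφ⟩
        have h1 := φ.orderOf_eq b
        rw [hφ, ha, hb] at h1
        exact hne h1.symm
      · simp only [Finset.mem_insert, Finset.mem_singleton, mk_eq_iff]
        rintro (⟨φ, hφ⟩ | ⟨φ, hφ⟩)
        · exact ha1 ((map_eq_one_iff φ φ.injective).1 hφ)
        · exact hb1 ((map_eq_one_iff φ φ.injective).1 hφ)
    have huniv := Finset.eq_univ_of_card _ (hS3.trans hcard3.symm)
    intro g
    have hg : (Quotient.mk'' g : MulAction.orbitRel.Quotient (MulAut G) G) ∈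
        ({Quotient.mk'' 1, Quotient.mk'' a, Quotient.mk'' b} : Finset _) := by
      rw [huniv]
      exact Finset.mem_univ _
    simp only [Finset.mem_insert, Finset.mem_singleton, mk_eq_iff] at hg
    rcases hg with ⟨φ, hφ⟩ | ⟨φ, hφ⟩ | ⟨φ, hφ⟩
    · left
      rw [← hφ, map_one]
    · right
      left
      exact ⟨φ, hφ⟩
    · right
      right
      exact ⟨φ, hφ⟩
  have hord : ∀ g : G, g ≠ 1 → orderOf g = p₁ ∨ orderOf g = p₂ := by
    intro g hg
    rcases horb g with h | ⟨φ, hφ⟩ | ⟨φ, hφ⟩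
    · exact absurd h hg
    · left
      rw [← hφ, φ.orderOf_eq, ha]
    · right
      rw [← hφ, φ.orderOf_eq, hb]
  have hta : ∀ g : G, orderOf g = p₁ → ∃ φ : MulAut G, φ a = g := by
    intro g hg
    rcases horb g with h | h | ⟨φ, hφ⟩
    · rw [h, orderOf_one] at hg
      exact absurd hg.symm hp₁.ne_one
    · exact h
    · exfalso
      rw [← hφ, φ.orderOf_eq, hb] at hg
      exact hne hg
  have htb : ∀ g : G, orderOf g = p₂ → ∃ φ : MulAut G, φ b = g := by
    intro g hg
    rcases horb g with h | ⟨φ, hφ⟩ | h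
    · rw [h, orderOf_one] at hg
      exact absurd hg.symm hp₂.ne_one
    · exfalso
      rw [← hφ, φ.orderOf_eq, ha] at hg
      exact hne hg.symm
    · exact h
  have htp₁ : ∀ g g' : G, orderOf g = p₁ → orderOf g' = p₁ → ∃ φ : MulAut G, φ g = g' := by
    intro g g' hg hg'
    obtain ⟨φ, hφ⟩ := hta g hg
    obtain ⟨φ', hφ'⟩ := hta g' hg'
    exact ⟨φ' * φ⁻¹, by rw [MulAut.mul_apply, ← hφ, MulAut.inv_apply_self, hφ']⟩
  have htp₂ : ∀ g g' : G, orderOf g = p₂ → orderOf g' = p₂ → ∃ φ : MulAut G, φ g = g' := by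
    intro g g' hg hg'
    obtain ⟨φ, hφ⟩ := htb g hg
    obtain ⟨φ', hφ'⟩ := htb g' hg'
    exact ⟨φ' * φ⁻¹, by rw [MulAut.mul_apply, ← hφ, MulAut.inv_apply_self, hφ']⟩
  have hsolv : Group.IsSolvable G :=
    Cfsg.Agent.S0144.main p₁ p₂ hp₁ hp₂ (Nat.card G) G rfl (by
      intro r hr hrd
      have : Fact r.Prime := ⟨hr⟩
      obtain ⟨x, hx⟩ := exists_prime_orderOf_dvd_card' r hrd
      have hx1 : x ≠ 1 := by
        intro h
        rw [h, orderOf_one] at hx
        exact hr.ne_one hx.symm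
      rcases hord x hx1 with h | h
      · left
        rw [← hx, h]
      · right
        rw [← hx, h])
  have hex : ∃ n, derivedSeries G n = ⊥ := hsolv.solvable
  have hk₀ : derivedSeries G (Nat.find hex) = ⊥ := Nat.find_spec hex
  have hk₀pos : Nat.find hex ≠ 0 := by
    intro h0
    rw [h0, derivedSeries_zero] at hk₀
    have h1 : a ∈ (⊤ : Subgroup G) := Subgroup.mem_top a
    rw [hk₀, Subgroup.mem_bot] at h1
    exact ha1 h1
  obtain ⟨m, hm⟩ := Nat.exists_eq_succ_of_ne_zero hk₀pos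
  have hNne : derivedSeries G m ≠ ⊥ := Nat.find_min hex (by omega : m < Nat.find hex)
  have hNab : ∀ x ∈ derivedSeries G m, ∀ x' ∈ derivedSeries G m, x * x' = x' * x := by
    intro x hx x' hx'
    have h1 : ⁅x, x'⁆ ∈ derivedSeries G (m + 1) := by
      rw [derivedSeries_succ]
      exact Subgroup.commutator_mem_commutator hx hx'
    rw [← Nat.succ_eq_add_one, ← hm, hk₀, Subgroup.mem_bot] at h1
    exact commutatorElement_eq_one_iff_mul_comm.1 h1
  have hNchar : ∀ φ : MulAut G, ∀ x ∈ derivedSeries G m, φ x ∈ derivedSeries G m := by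
    intro φ x hx
    have h1 := (Subgroup.characteristic_iff_map_eq.1 (inferInstance :
      (derivedSeries G m).Characteristic)) φ
    have h2 : φ x ∈ (derivedSeries G m).map φ.toMonoidHom := Subgroup.mem_map_of_mem _ hx
    rw [h1] at h2
    exact h2
  have hNn : (derivedSeries G m).Normal := inferInstance
  obtain ⟨g₀', hg₀'⟩ := Subgroup.ne_bot_iff_exists_ne_one.1 hNne
  have hg₀1 : (g₀' : G) ≠ 1 := fun h => hg₀' (Subtype.ext h)
  rcases hord _ hg₀1 with h | h
  · obtain ⟨n, hn1, hc, hS, ho, hf⟩ := core p₁ p₂ hne.symm hord htp₁ htp₂ b hb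
      (derivedSeries G m) hNchar hNn hNab g₀' g₀'.2 h
    exact ⟨p₁, p₂, n, ⟨hp₁⟩, ⟨hp₂⟩, hne.symm, hn1, hc, hS, ho, hf⟩
  · obtain ⟨n, hn1, hc, hS, ho, hf⟩ := core p₂ p₁ hne (fun g hg => (hord g hg).symm) htp₂ htp₁
      a ha (derivedSeries G m) hNchar hNn hNab g₀' g₀'.2 h
    exact ⟨p₂, p₁, n, ⟨hp₂⟩, ⟨hp₁⟩, hne, hn1, hc, hS, ho, hf⟩

/-- Let G be a finite group whose order is not a prime power. Then the automorphism group of G has exactly three orbits on G if and only if there are distinct primes p, q with #G = pⁿ·q (n ≥ 1) such that G has a normal elementary abelian Sylow p-subgroup P, p is a primitive root modulo q (the multiplicative order of p mod q is q − 1), and every element of order q of G acts on P without non-identity fixed points. -/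
theorem result {G : Type*} [Group G] [Finite G] (hnpp : ¬ IsPrimePow (Nat.card G)) (hnt : Nat.card G ≠ 1) :
    Nat.card (MulAction.orbitRel.Quotient (MulAut G) G) = 3 ↔
    ∃ (p q n : ℕ) (_ : Fact p.Prime) (_ : Fact q.Prime), p ≠ q ∧ 1 ≤ n ∧ Nat.card G = p ^ n * q ∧
      (∀ P : Sylow p G, (P : Subgroup G).Normal ∧ Cfsg.IsElementaryAbelian p (P : Subgroup G)) ∧
      orderOf (p : ZMod q) = q - 1 ∧
      ∀ x y : G, orderOf x = q → orderOf y = p → x * y * x⁻¹ ≠ y := by
  constructor
  · exact forward hnpp hnt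
  · rintro ⟨p, q, n, hp, hq, hpq, hn, hcard, hSyl, hord, hfpf⟩
    exact backward p q n hpq hn hcard hSyl hord hfpf

end Cfsg.Agent.S4081
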