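import Mathlib
import Cfsg.Statements.S4082

set_option autoImplicit false

namespace Cfsg.Agent.S4082

theorem mem_normalizer_of_conj_mem {G : Type*} [Group G] [Finite G] (H : Subgroup G) (g : G)
    (h : ∀ x ∈ H, g * x * g⁻¹ ∈ H) : g ∈ Subgroup.normalizer (H : Set G) := by
  rw [Subgroup.mem_normalizer_iff]
  intro x
  refine ⟨h x, fun hx => ?_⟩
  let f : H → H := fun y => ⟨g * y * g⁻¹, h y y.2⟩
  have hinj : Function.Injective f := by
    intro a b hab
    have h1 : g * (a : G) * g⁻¹ = g * (b : G) * g⁻¹ := congrArg Subtype.val hab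
    exact Subtype.ext (by simpa using h1)
  obtain ⟨y, hy⟩ := (Finite.injective_iff_surjective.1 hinj) ⟨_, hx⟩
  have h1 : g * (y : G) * g⁻¹ = g * x * g⁻¹ := congrArg Subtype.val hy
  have hxy : (y : G) = x := by simpa using h1
  rw [← hxy]; exact y.2

/-- In a group isomorphic to a dihedral group, an element either commutes with all `p`-elements
(`p` odd) or is an involution inverting all of them. -/
theorem dih_dichotomy {H : Type*} [Group H] {m : ℕ} (e : H ≃* DihedralGroup m) {p : ℕ}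
    (hp : p.Prime) (hp2 : p ≠ 2) (x : H) :
    (∀ y : H, (∃ k : ℕ, y ^ (p ^ k) = 1) → x * y = y * x) ∨
    (orderOf x = 2 ∧ ∀ y : H, (∃ k : ℕ, y ^ (p ^ k) = 1) → x * y * x⁻¹ = y⁻¹) := by
  have hrot : ∀ y : H, (∃ k : ℕ, y ^ (p ^ k) = 1) → ∃ j, e y = DihedralGroup.r j := by
    rintro y ⟨k, hk⟩
    rcases hey : e y with j | j
    · exact ⟨j, rfl⟩
    · exfalso
      have h1 : (e y) ^ (p ^ k) = 1 := by rw [← map_pow, hk, map_one]
      rw [hey] at h1
      have h2 : orderOf (DihedralGroup.sr j) ∣ p ^ k := orderOf_dvd_of_pow_eq_one h1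
      rw [DihedralGroup.orderOf_sr] at h2
      have h3 : 2 ∣ p := Nat.Prime.dvd_of_dvd_pow Nat.prime_two h2
      exact hp2 ((Nat.prime_dvd_prime_iff_eq Nat.prime_two hp).1 h3).symm
  rcases hex : e x with i | i
  · left
    intro y hy
    obtain ⟨j, hj⟩ := hrot y hy
    apply e.injective
    rw [map_mul, map_mul, hex, hj, DihedralGroup.r_mul_r, DihedralGroup.r_mul_r, add_comm]
  · right
    constructor
    · rw [← MulEquiv.orderOf_eq e x, hex, DihedralGroup.orderOf_sr]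
    · intro y hy
      obtain ⟨j, hj⟩ := hrot y hy
      apply e.injective
      rw [map_mul, map_mul, map_inv, map_inv, hex, hj, DihedralGroup.sr_mul_r, DihedralGroup.inv_sr,
        DihedralGroup.sr_mul_sr, DihedralGroup.inv_r]
      congr 1
      ring

theorem sylow_normal_of_cyclic_quotient {K : Type*} [Group K] [Finite K] {p : ℕ} [Fact p.Prime]
    (Q : Subgroup K) [Q.Normal] (hQ : IsPGroup p Q) (hcyc : IsCyclic (K ⧸ Q)) (S : Sylow p K) :
    (S : Subgroup K).Normal ∧ ∀ [(S : Subgroup K).Normal], IsCyclic (K ⧸ (S : Subgroup K)) := by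
  have hQS : Q ≤ (S : Subgroup K) := by
    have h1 : IsPGroup p ((S : Subgroup K) ⊔ Q : Subgroup K) := S.isPGroup'.to_sup_of_normal_right hQ
    have h2 := S.is_maximal' h1 le_sup_left
    rw [← h2]; exact le_sup_right
  have hcomm : IsMulCommutative (K ⧸ Q) := IsCyclic.isMulCommutative
  have hn : (S : Subgroup K).Normal := by
    refine ⟨fun s hs g => ?_⟩
    have h1 : (QuotientGroup.mk' Q) (g * s * g⁻¹ * s⁻¹) = 1 := by
      rw [map_mul, map_mul, map_mul, map_inv, map_inv]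
      have := isMulCommutative_iff.1 hcomm (QuotientGroup.mk' Q g) (QuotientGroup.mk' Q s)
      rw [this]; group
    have h2 : g * s * g⁻¹ * s⁻¹ ∈ (S : Subgroup K) := hQS ((QuotientGroup.eq_one_iff _).1 h1)
    have h3 : g * s * g⁻¹ = (g * s * g⁻¹ * s⁻¹) * s := by group
    rw [h3]
    exact Subgroup.mul_mem _ h2 hs
  refine ⟨hn, ?_⟩
  intro _
  apply isCyclic_of_surjective (QuotientGroup.map Q (S : Subgroup K) (MonoidHom.id K) hQS)
  intro z
  obtain ⟨k, rfl⟩ := QuotientGroup.mk_surjective z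
  exact ⟨(k : K ⧸ Q), rfl⟩

theorem phi_of_sup_zpowers' {G : Type*} [Group G] [Finite G] {p : ℕ} [Fact p.Prime]
    (Q₀ : Subgroup G) (hQ : IsPGroup p Q₀) (x : G) (H : Subgroup G) (hQH : Q₀ ≤ H) (hxH : x ∈ H)
    (hH : H ≤ Q₀ ⊔ Subgroup.zpowers x)
    (hle : H ≤ Subgroup.normalizer (Q₀ : Set G)) :
    (∀ S : Sylow p ↥H, (S : Subgroup ↥H).Normal) ∧
    (∀ (S : Sylow p ↥H) [(S : Subgroup ↥H).Normal], IsCyclic (↥H ⧸ (S : Subgroup ↥H))) := by
  have hn : (Q₀.subgroupOf H).Normal := Subgroup.normal_subgroupOf_of_le_normalizer hle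
  have hQ' : IsPGroup p (Q₀.subgroupOf H) := hQ.comap_subtype
  have hcyc : IsCyclic (↥H ⧸ Q₀.subgroupOf H) := by
    rw [isCyclic_iff_exists_zpowers_eq_top]
    refine ⟨QuotientGroup.mk' (Q₀.subgroupOf H) ⟨x, hxH⟩, ?_⟩
    rw [eq_top_iff]
    intro z _
    obtain ⟨k, rfl⟩ := QuotientGroup.mk'_surjective (Q₀.subgroupOf H) z
    have h1 : Q₀ ⊔ Subgroup.zpowers x ≤
        ((Subgroup.zpowers (QuotientGroup.mk' (Q₀.subgroupOf H) ⟨x, hxH⟩)).comap
          (QuotientGroup.mk' (Q₀.subgroupOf H))).map H.subtype := by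
      refine sup_le ?_ ?_
      · intro q hq
        refine ⟨⟨q, hQH hq⟩, ?_, rfl⟩
        have : QuotientGroup.mk' (Q₀.subgroupOf H) ⟨q, hQH hq⟩ = 1 :=
          (QuotientGroup.eq_one_iff _).2 (Subgroup.mem_subgroupOf.2 hq)
        rw [SetLike.mem_coe, Subgroup.mem_comap, this]; exact Subgroup.one_mem _
      · rw [Subgroup.zpowers_le]
        exact ⟨⟨x, hxH⟩, Subgroup.mem_zpowers _, rfl⟩
    obtain ⟨k', hk', hkk⟩ := h1 (hH k.2)
    have : k' = k := Subtype.ext hkk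
    rw [← this]; exact hk'
  exact ⟨fun S => (sylow_normal_of_cyclic_quotient _ hQ' hcyc S).1,
    fun S _ => (sylow_normal_of_cyclic_quotient _ hQ' hcyc S).2⟩

/-- The dichotomy given by the restricted `p`-by-cyclic hypothesis. -/
theorem key_dichotomy {G : Type*} [Group G] [Finite G] {p : ℕ} [Fact p.Prime] (hp : p ≠ 2)
    (hL : ∀ H : Subgroup G, (∀ S : Sylow p ↥H, (S : Subgroup ↥H).Normal) →
        (∀ (S : Sylow p ↥H) [(S : Subgroup ↥H).Normal], IsCyclic (↥H ⧸ (S : Subgroup ↥H))) →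
        IsCyclic H ∨ (∃ n : ℕ, Nonempty (H ≃* DihedralGroup (p ^ n))))
    (Q₀ : Subgroup G) (hQ : IsPGroup p Q₀) (x : G) (hx : x ∈ Subgroup.normalizer (Q₀ : Set G)) :
    (∀ q ∈ Q₀, x * q = q * x) ∨ (orderOf x = 2 ∧ ∀ q ∈ Q₀, x * q * x⁻¹ = q⁻¹) := by
  have hpp : p.Prime := Fact.out
  have hle : Q₀ ⊔ Subgroup.zpowers x ≤ Subgroup.normalizer (Q₀ : Set G) :=
    sup_le Subgroup.le_normalizer (Subgroup.zpowers_le.2 hx)
  have hxH : x ∈ Q₀ ⊔ Subgroup.zpowers x := Subgroup.mem_sup_right (Subgroup.mem_zpowers x)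
  obtain ⟨h1, h2⟩ := phi_of_sup_zpowers' Q₀ hQ x (Q₀ ⊔ Subgroup.zpowers x) le_sup_left hxH le_rfl hle
  have hpel : ∀ q (hq : q ∈ Q₀), ∃ k : ℕ,
      (⟨q, Subgroup.mem_sup_left hq⟩ : ↥(Q₀ ⊔ Subgroup.zpowers x)) ^ (p ^ k) = 1 := by
    intro q hq
    obtain ⟨k, hk⟩ := hQ ⟨q, hq⟩
    refine ⟨k, ?_⟩
    apply Subtype.ext
    have := congrArg Subtype.val hk
    simpa using this
  rcases hL _ h1 h2 with hc | ⟨n, ⟨e⟩⟩
  · left
    intro q hq
    have hcomm : IsMulCommutative ↥(Q₀ ⊔ Subgroup.zpowers x) := IsCyclic.isMulCommutative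
    exact isMulCommutative_iff_of_setLike.1 hcomm x hxH q (Subgroup.mem_sup_left hq)
  · rcases dih_dichotomy e hpp hp (⟨x, hxH⟩ : ↥(Q₀ ⊔ Subgroup.zpowers x)) with h | ⟨ho, h⟩
    · left
      intro q hq
      have := h ⟨q, Subgroup.mem_sup_left hq⟩ (hpel q hq)
      exact congrArg Subtype.val this
    · right
      constructor
      · rw [← ho]; exact (Subgroup.orderOf_mk x hxH).symm
      · intro q hq
        have := h ⟨q, Subgroup.mem_sup_left hq⟩ (hpel q hq)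
        exact congrArg Subtype.val this

theorem forward {G : Type*} [Group G] [Finite G] {p : ℕ} [Fact p.Prime] (hp : p ≠ 2) (P : Sylow p G)
    (hL : ∀ H : Subgroup G, (∀ S : Sylow p ↥H, (S : Subgroup ↥H).Normal) →
        (∀ (S : Sylow p ↥H) [(S : Subgroup ↥H).Normal], IsCyclic (↥H ⧸ (S : Subgroup ↥H))) →
        IsCyclic H ∨ (∃ n : ℕ, Nonempty (H ≃* DihedralGroup (p ^ n)))) :
    (IsCyclic P ∧
      (Subgroup.normalizer ((P : Subgroup G) : Set G) = Subgroup.centralizer ((P : Subgroup G) : Set G) ∨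
       ((Subgroup.centralizer ((P : Subgroup G) : Set G)).relIndex (Subgroup.normalizer ((P : Subgroup G) : Set G)) = 2 ∧
        ∀ Q : Subgroup G, Q ≤ P → Nat.card Q = p →
          IsMulCommutative ↥(Subgroup.centralizer (Q : Set G)) ∧
          ∀ x : G, x ∈ Subgroup.normalizer (Q : Set G) → x ∉ Subgroup.centralizer (Q : Set G) →
            orderOf x = 2 ∧ ∀ c : G, c ∈ Subgroup.centralizer (Q : Set G) → x * c * x⁻¹ = c⁻¹))) := by
  have hpp : p.Prime := Fact.out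
  have hodd : ∀ k : ℕ, p ^ k ≠ 2 := by
    intro k hk
    rcases Nat.eq_zero_or_pos k with h0 | h0
    · rw [h0] at hk; norm_num at hk
    · have h1 : p ∣ 2 := by rw [← hk]; exact dvd_pow_self p h0.ne'
      exact hp ((Nat.prime_dvd_prime_iff_eq hpp Nat.prime_two).1 h1)
  -- P is cyclic
  have hPcyc : IsCyclic (P : Subgroup G) := by
    have hPhi := phi_of_sup_zpowers' (P : Subgroup G) P.isPGroup' 1 (P : Subgroup G) le_rfl
      (Subgroup.one_mem _) le_sup_left Subgroup.le_normalizer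
    rcases hL _ hPhi.1 hPhi.2 with hc | ⟨n, ⟨e⟩⟩
    · exact hc
    · exfalso
      have h1 : orderOf (e.symm (DihedralGroup.sr 0)) = 2 := by
        rw [MulEquiv.orderOf_eq, DihedralGroup.orderOf_sr]
      obtain ⟨k, hk⟩ := (IsPGroup.iff_orderOf.1 P.isPGroup') (e.symm (DihedralGroup.sr 0))
      rw [h1] at hk
      exact hodd k hk.symm
  refine ⟨hPcyc, ?_⟩
  have hKD := key_dichotomy hp hL
  by_cases hNC : Subgroup.normalizer ((P : Subgroup G) : Set G) ≤
      Subgroup.centralizer ((P : Subgroup G) : Set G)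
  · left
    exact le_antisymm hNC (Subgroup.centralizer_le_normalizer _)
  · right
    obtain ⟨x₀, hx₀N, hx₀C⟩ := SetLike.not_le_iff_exists.1 hNC
    have hcent_of : ∀ x : G, (∀ q ∈ (P : Subgroup G), x * q = q * x) →
        x ∈ Subgroup.centralizer ((P : Subgroup G) : Set G) := by
      intro x hx
      rw [Subgroup.mem_centralizer_iff]
      intro q hq
      exact (hx q hq).symm
    have hinv : ∀ x ∈ Subgroup.normalizer ((P : Subgroup G) : Set G),
        x ∉ Subgroup.centralizer ((P : Subgroup G) : Set G) →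
        ∀ q ∈ (P : Subgroup G), x * q * x⁻¹ = q⁻¹ := by
      intro x hxN hxC
      rcases hKD (P : Subgroup G) P.isPGroup' x hxN with h | ⟨_, h⟩
      · exact absurd (hcent_of x h) hxC
      · exact h
    have hx₀inv := hinv x₀ hx₀N hx₀C
    refine ⟨?_, ?_⟩
    · show ((Subgroup.centralizer ((P : Subgroup G) : Set G)).subgroupOf
        (Subgroup.normalizer ((P : Subgroup G) : Set G))).index = 2
      rw [Subgroup.index_eq_two_iff]
      refine ⟨⟨x₀, hx₀N⟩, ?_⟩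
      intro b
      by_cases hb : (b : G) ∈ Subgroup.centralizer ((P : Subgroup G) : Set G)
      · right
        refine ⟨Subgroup.mem_subgroupOf.2 hb, ?_⟩
        intro h
        have h1 : (b : G) * x₀ ∈ Subgroup.centralizer ((P : Subgroup G) : Set G) :=
          Subgroup.mem_subgroupOf.1 h
        apply hx₀C
        have h2 := Subgroup.mul_mem _ (Subgroup.inv_mem _ hb) h1
        simpa using h2
      · left
        refine ⟨?_, fun h => hb (Subgroup.mem_subgroupOf.1 h)⟩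
        rw [Subgroup.mem_subgroupOf]
        apply hcent_of
        intro q hq
        have hb' := hinv (b : G) b.2 hb
        have h1 : x₀ * q * x₀⁻¹ = q⁻¹ := hx₀inv q hq
        have h2 : (b : G) * q⁻¹ * (b : G)⁻¹ = q⁻¹⁻¹ := hb' q⁻¹ (Subgroup.inv_mem _ hq)
        show (b : G) * x₀ * q = q * ((b : G) * x₀)
        calc (b : G) * x₀ * q = (b : G) * (x₀ * q * x₀⁻¹) * (b : G)⁻¹ * ((b : G) * x₀) := by group
          _ = (b : G) * q⁻¹ * (b : G)⁻¹ * ((b : G) * x₀) := by rw [h1]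
          _ = q * ((b : G) * x₀) := by rw [h2, inv_inv]
    · intro Q hQP hQcard
      have hQp : IsPGroup p Q := P.isPGroup'.to_le hQP
      have hb : ∀ x : G, x ∈ Subgroup.normalizer (Q : Set G) → x ∉ Subgroup.centralizer (Q : Set G) →
          orderOf x = 2 ∧ ∀ c : G, c ∈ Subgroup.centralizer (Q : Set G) → x * c * x⁻¹ = c⁻¹ := by
        intro x hxN hxC
        have ho : ∀ y : G, y ∈ Subgroup.normalizer (Q : Set G) → y ∉ Subgroup.centralizer (Q : Set G) →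
            orderOf y = 2 := by
          intro y hyN hyC
          rcases hKD Q hQp y hyN with h | ⟨h, _⟩
          · exfalso
            apply hyC
            rw [Subgroup.mem_centralizer_iff]
            intro q hq
            exact (h q hq).symm
          · exact h
        have hx2 : orderOf x = 2 := ho x hxN hxC
        refine ⟨hx2, ?_⟩
        intro c hc
        have hxcN : x * c ∈ Subgroup.normalizer (Q : Set G) :=
          Subgroup.mul_mem _ hxN (Subgroup.centralizer_le_normalizer _ hc)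
        have hxcC : x * c ∉ Subgroup.centralizer (Q : Set G) := by
          intro h
          apply hxC
          have := Subgroup.mul_mem _ h (Subgroup.inv_mem _ hc)
          simpa using this
        have h1 : (x * c) ^ 2 = 1 := by rw [← ho _ hxcN hxcC]; exact pow_orderOf_eq_one _
        have h2 : x ^ 2 = 1 := by rw [← hx2]; exact pow_orderOf_eq_one _
        have h3 : x⁻¹ = x := by
          rw [inv_eq_iff_eq_inv, eq_inv_iff_mul_eq_one, ← pow_two]; exact h2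
        rw [h3]
        rw [pow_two] at h1
        calc x * c * x = (x * c * (x * c)) * c⁻¹ := by group
          _ = c⁻¹ := by rw [h1, one_mul]
      refine ⟨?_, hb⟩
      -- commutativity of the centralizer
      have hx₀NQ : x₀ ∈ Subgroup.normalizer (Q : Set G) := by
        apply mem_normalizer_of_conj_mem
        intro q hq
        rw [hx₀inv q (hQP hq)]
        exact Subgroup.inv_mem _ hq
      have hx₀CQ : x₀ ∉ Subgroup.centralizer (Q : Set G) := by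
        intro h
        have hQne : Q ≠ ⊥ := by
          intro hbot
          rw [hbot, Subgroup.card_bot] at hQcard
          exact hpp.one_lt.ne hQcard
        obtain ⟨q, hq, hq1⟩ := (Subgroup.ne_bot_iff_exists_ne_one.1 hQne) |> fun ⟨q, hq1⟩ =>
          (⟨(q : G), q.2, fun h => hq1 (Subtype.ext h)⟩ : ∃ q : G, q ∈ Q ∧ q ≠ 1)
        have h1 : x₀ * q * x₀⁻¹ = q⁻¹ := hx₀inv q (hQP hq)
        have h2 : q * x₀ = x₀ * q := (Subgroup.mem_centralizer_iff.1 h) q hq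
        have h3 : q = q⁻¹ := by
          rw [← h1, ← h2]; group
        have h4 : q ^ 2 = 1 := by
          rw [pow_two]
          nth_rewrite 1 [h3]
          exact inv_mul_cancel q
        have h5 : orderOf q ∣ 2 := orderOf_dvd_of_pow_eq_one h4
        have h6 : orderOf q ∣ p := by
          rw [← hQcard]
          have := orderOf_dvd_natCard (⟨q, hq⟩ : Q)
          rwa [Subgroup.orderOf_mk] at this
        have h7 : orderOf q ∣ Nat.gcd 2 p := Nat.dvd_gcd h5 h6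
        have h8 : Nat.gcd 2 p = 1 := by
          rw [← Nat.coprime_iff_gcd_eq_one, Nat.coprime_primes Nat.prime_two hpp]
          exact fun h => hp h.symm
        rw [h8, Nat.dvd_one] at h7
        exact hq1 (orderOf_eq_one_iff.1 h7)
      have hinvC := (hb x₀ hx₀NQ hx₀CQ).2
      apply isMulCommutative_iff_of_setLike.2
      intro c₁ hc₁ c₂ hc₂
      have e1 := hinvC (c₁ * c₂) (Subgroup.mul_mem _ hc₁ hc₂)
      have e2 := hinvC c₁ hc₁
      have e3 := hinvC c₂ hc₂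
      have e4 : x₀ * (c₁ * c₂) * x₀⁻¹ = (x₀ * c₁ * x₀⁻¹) * (x₀ * c₂ * x₀⁻¹) := by group
      rw [e1, e2, e3] at e4
      have e5 : (c₁ * c₂)⁻¹⁻¹ = (c₁⁻¹ * c₂⁻¹)⁻¹ := by rw [e4]
      rw [inv_inv, mul_inv_rev, inv_inv, inv_inv] at e5
      exact e5

theorem inv2_aux {G : Type*} [Group G] (S : Subgroup G) (h₀ : G) (g i' j' : ℤ)
    (hg : h₀ ^ (2 * g) ∈ S) (hi : h₀ ^ (g * i') ∉ S) (hj : h₀ ^ (g * j') ∉ S) :
    h₀ ^ (g * i' - g * j') ∈ S := by
  rcases Int.even_or_odd i' with ⟨k, hk⟩ | ⟨k, hk⟩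
  · exfalso
    apply hi
    have : g * i' = 2 * g * k := by rw [hk]; ring
    rw [this, zpow_mul]
    exact S.zpow_mem hg k
  · rcases Int.even_or_odd j' with ⟨l, hl⟩ | ⟨l, hl⟩
    · exfalso
      apply hj
      have : g * j' = 2 * g * l := by rw [hl]; ring
      rw [this, zpow_mul]
      exact S.zpow_mem hg l
    · have : g * i' - g * j' = 2 * g * (k - l) := by rw [hk, hl]; ring
      rw [this, zpow_mul]
      exact S.zpow_mem hg _

theorem inv2 {G : Type*} [Group G] (S : Subgroup G) (h₀ : G) (i j : ℤ)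
    (hi2 : h₀ ^ (2 * i) ∈ S) (hj2 : h₀ ^ (2 * j) ∈ S) (hi : h₀ ^ i ∉ S) (hj : h₀ ^ j ∉ S) :
    h₀ ^ (i - j) ∈ S := by
  have hg : h₀ ^ (2 * (Int.gcd i j : ℤ)) ∈ S := by
    have e : 2 * (Int.gcd i j : ℤ) = 2 * i * Int.gcdA i j + 2 * j * Int.gcdB i j := by
      rw [Int.gcd_eq_gcd_ab]; ring
    rw [e, zpow_add]
    have h1 : h₀ ^ (2 * i * Int.gcdA i j) = (h₀ ^ (2 * i)) ^ Int.gcdA i j := zpow_mul _ _ _
    have h2 : h₀ ^ (2 * j * Int.gcdB i j) = (h₀ ^ (2 * j)) ^ Int.gcdB i j := zpow_mul _ _ _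
    rw [h1, h2]
    exact S.mul_mem (S.zpow_mem hi2 _) (S.zpow_mem hj2 _)
  obtain ⟨i', hi'⟩ := Int.gcd_dvd_left i j
  obtain ⟨j', hj'⟩ := Int.gcd_dvd_right i j
  have h1 : h₀ ^ ((Int.gcd i j : ℤ) * i') ∉ S := by rw [← hi']; exact hi
  have h2 : h₀ ^ ((Int.gcd i j : ℤ) * j') ∉ S := by rw [← hj']; exact hj
  have h3 := inv2_aux S h₀ (Int.gcd i j : ℤ) i' j' hg h1 h2
  rw [← hi', ← hj'] at h3
  exact h3

theorem cyclic_of_centralizes {G : Type*} [Group G] [Finite G] {p : ℕ} [Fact p.Prime]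
    (H : Subgroup G) (s₀ h₀ : G) (hs₀H : s₀ ∈ H) (hh₀ : h₀ ∈ H)
    (hs₀p : ∃ m : ℕ, orderOf s₀ = p ^ m)
    (hSp : ∀ y ∈ H, (∃ k : ℕ, y ^ (p ^ k) = 1) → y ∈ Subgroup.zpowers s₀)
    (hgen : ∀ h ∈ H, ∃ s ∈ Subgroup.zpowers s₀, ∃ i : ℤ, h = s * h₀ ^ i)
    (hcomm : h₀ * s₀ = s₀ * h₀) : IsCyclic H := by
  have hp : p.Prime := Fact.out
  obtain ⟨m, hm⟩ := hs₀p
  obtain ⟨a, b, hpb, hab⟩ := Nat.exists_eq_pow_mul_and_not_dvd (orderOf_pos h₀).ne' p hp.ne_one
  have hu : h₀ ^ b ∈ Subgroup.zpowers s₀ := by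
    apply hSp _ (H.pow_mem hh₀ b)
    refine ⟨a, ?_⟩
    rw [← pow_mul, mul_comm, ← hab, pow_orderOf_eq_one]
  have htb : (h₀ ^ (p ^ a)) ^ b = 1 := by rw [← pow_mul, ← hab, pow_orderOf_eq_one]
  have hcop : IsCoprime ((p ^ a : ℕ) : ℤ) (b : ℤ) :=
    Nat.isCoprime_iff_coprime.2 (Nat.Coprime.pow_left a ((Nat.Prime.coprime_iff_not_dvd hp).2 hpb))
  obtain ⟨α, β, hαβ⟩ := hcop
  have hh₀eq : h₀ = (h₀ ^ (p ^ a)) ^ α * (h₀ ^ b) ^ β := by
    rw [← zpow_natCast, ← zpow_natCast, ← zpow_mul, ← zpow_mul, ← zpow_add]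
    have : ((p ^ a : ℕ) : ℤ) * α + (b : ℤ) * β = 1 := by linarith
    rw [this, zpow_one]
  have hct : Commute s₀ (h₀ ^ (p ^ a)) := (show Commute h₀ s₀ from hcomm).symm.pow_right _
  have hot : orderOf (h₀ ^ (p ^ a)) ∣ b := orderOf_dvd_of_pow_eq_one htb
  have hcop2 : Nat.Coprime (orderOf (h₀ ^ (p ^ a))) (orderOf s₀) := by
    rw [hm]
    exact Nat.Coprime.coprime_dvd_left hot
      (Nat.Coprime.pow_right m (Nat.Coprime.symm ((Nat.Prime.coprime_iff_not_dvd hp).2 hpb)))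
  have hs₀g : s₀ ∈ Subgroup.zpowers (s₀ * h₀ ^ (p ^ a)) := by
    have h1 : (s₀ * h₀ ^ (p ^ a)) ^ orderOf (h₀ ^ (p ^ a)) = s₀ ^ orderOf (h₀ ^ (p ^ a)) := by
      rw [hct.mul_pow, pow_orderOf_eq_one, mul_one]
    have h2 : s₀ ∈ Subgroup.zpowers (s₀ ^ orderOf (h₀ ^ (p ^ a))) := mem_zpowers_pow_iff.2 hcop2
    have h3 : s₀ ^ orderOf (h₀ ^ (p ^ a)) ∈ Subgroup.zpowers (s₀ * h₀ ^ (p ^ a)) := by
      rw [← h1]; exact Subgroup.pow_mem _ (Subgroup.mem_zpowers _) _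
    exact (Subgroup.zpowers_le.2 h3) h2
  have htg : h₀ ^ (p ^ a) ∈ Subgroup.zpowers (s₀ * h₀ ^ (p ^ a)) := by
    have h1 : (s₀ * h₀ ^ (p ^ a)) ^ orderOf s₀ = (h₀ ^ (p ^ a)) ^ orderOf s₀ := by
      rw [hct.mul_pow, pow_orderOf_eq_one, one_mul]
    have h2 : h₀ ^ (p ^ a) ∈ Subgroup.zpowers ((h₀ ^ (p ^ a)) ^ orderOf s₀) :=
      mem_zpowers_pow_iff.2 hcop2.symm
    have h3 : (h₀ ^ (p ^ a)) ^ orderOf s₀ ∈ Subgroup.zpowers (s₀ * h₀ ^ (p ^ a)) := by
      rw [← h1]; exact Subgroup.pow_mem _ (Subgroup.mem_zpowers _) _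
    exact (Subgroup.zpowers_le.2 h3) h2
  have hSg : Subgroup.zpowers s₀ ≤ Subgroup.zpowers (s₀ * h₀ ^ (p ^ a)) := Subgroup.zpowers_le.2 hs₀g
  have hh₀g : h₀ ∈ Subgroup.zpowers (s₀ * h₀ ^ (p ^ a)) := by
    have h := Subgroup.mul_mem _ (Subgroup.zpow_mem _ htg α) (Subgroup.zpow_mem _ (hSg hu) β)
    rwa [← hh₀eq] at h
  have hgH : s₀ * h₀ ^ (p ^ a) ∈ H := H.mul_mem hs₀H (H.pow_mem hh₀ _)
  rw [isCyclic_iff_exists_zpowers_eq_top]
  refine ⟨⟨s₀ * h₀ ^ (p ^ a), hgH⟩, ?_⟩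
  rw [eq_top_iff]
  intro h _
  obtain ⟨s, hs, i, hi⟩ := hgen h h.2
  have h1 : (h : G) ∈ Subgroup.zpowers (s₀ * h₀ ^ (p ^ a)) := by
    rw [hi]
    exact Subgroup.mul_mem _ (hSg hs) (Subgroup.zpow_mem _ hh₀g _)
  obtain ⟨k, hk⟩ := Subgroup.mem_zpowers_iff.1 h1
  exact Subgroup.mem_zpowers_iff.2 ⟨k, Subtype.ext (by simpa using hk)⟩

theorem dihedral_iso {G : Type*} [Group G] (H : Subgroup G) (s₀ x : G) (hs : s₀ ∈ H) (hx : x ∈ H)
    (hn : orderOf s₀ ≠ 0) (hxx : x * x = 1) (hinv : x * s₀ * x⁻¹ = s₀⁻¹)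
    (hxS : x ∉ Subgroup.zpowers s₀)
    (hH : ∀ h ∈ H, (∃ k : ℕ, h = s₀ ^ k) ∨ ∃ k : ℕ, h = x * s₀ ^ k) :
    Nonempty (H ≃* DihedralGroup (orderOf s₀)) := by
  have : NeZero (orderOf s₀) := ⟨hn⟩
  have hE_add : ∀ i j : ZMod (orderOf s₀), s₀ ^ (i + j).val = s₀ ^ i.val * s₀ ^ j.val := by
    intro i j
    rw [ZMod.val_add, pow_mod_orderOf, pow_add]
  have hE0 : s₀ ^ (0 : ZMod (orderOf s₀)).val = 1 := by rw [ZMod.val_zero, pow_zero]
  have hE_neg : ∀ i : ZMod (orderOf s₀), s₀ ^ (-i).val = (s₀ ^ i.val)⁻¹ := by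
    intro i
    apply eq_inv_of_mul_eq_one_left
    rw [← hE_add, neg_add_cancel, hE0]
  have hE_sub : ∀ i j : ZMod (orderOf s₀), s₀ ^ (j - i).val = (s₀ ^ i.val)⁻¹ * s₀ ^ j.val := by
    intro i j
    rw [sub_eq_neg_add, hE_add, hE_neg]
  have hx_inv : x⁻¹ = x := by
    rw [inv_eq_iff_eq_inv, eq_inv_iff_mul_eq_one]; exact hxx
  have hE_conj : ∀ k : ℕ, s₀ ^ k * x = x * (s₀ ^ k)⁻¹ := by
    intro k
    have h1 : x * s₀ ^ k * x⁻¹ = (s₀ ^ k)⁻¹ := by
      rw [← conj_pow, hinv, inv_pow]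
    rw [← h1, hx_inv]
    calc s₀ ^ k * x = (x * x) * s₀ ^ k * x := by rw [hxx, one_mul]
      _ = x * (x * s₀ ^ k * x) := by group
  let f : DihedralGroup (orderOf s₀) → H := fun d =>
    match d with
    | DihedralGroup.r i => ⟨s₀ ^ i.val, H.pow_mem hs _⟩
    | DihedralGroup.sr i => ⟨x * s₀ ^ i.val, H.mul_mem hx (H.pow_mem hs _)⟩
  have hmul : ∀ a b, f (a * b) = f a * f b := by
    intro a b
    rcases a with i | i <;> rcases b with j | j
    · apply Subtype.ext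
      show s₀ ^ (i + j).val = s₀ ^ i.val * s₀ ^ j.val
      exact hE_add i j
    · apply Subtype.ext
      show x * s₀ ^ (j - i).val = s₀ ^ i.val * (x * s₀ ^ j.val)
      rw [hE_sub, ← mul_assoc (s₀ ^ i.val), hE_conj]; group
    · apply Subtype.ext
      show x * s₀ ^ (i + j).val = x * s₀ ^ i.val * s₀ ^ j.val
      rw [hE_add]; group
    · apply Subtype.ext
      show s₀ ^ (j - i).val = x * s₀ ^ i.val * (x * s₀ ^ j.val)
      rw [hE_sub]
      calc (s₀ ^ i.val)⁻¹ * s₀ ^ j.val = (x * x) * (s₀ ^ i.val)⁻¹ * s₀ ^ j.val := by rw [hxx, one_mul]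
        _ = x * (x * (s₀ ^ i.val)⁻¹) * s₀ ^ j.val := by group
        _ = x * (s₀ ^ i.val * x) * s₀ ^ j.val := by rw [hE_conj]
        _ = x * s₀ ^ i.val * (x * s₀ ^ j.val) := by group
  have hEinj : ∀ i j : ZMod (orderOf s₀), s₀ ^ i.val = s₀ ^ j.val → i = j := by
    intro i j hij
    apply ZMod.val_injective
    exact pow_injOn_Iio_orderOf (ZMod.val_lt i) (ZMod.val_lt j) hij
  have hinj : Function.Injective f := by
    intro a b hab
    rcases a with i | i <;> rcases b with j | j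
    · have h1 : s₀ ^ i.val = s₀ ^ j.val := congrArg Subtype.val hab
      rw [hEinj i j h1]
    · exfalso
      have h1 : s₀ ^ i.val = x * s₀ ^ j.val := congrArg Subtype.val hab
      apply hxS
      have h2 : x = s₀ ^ i.val * (s₀ ^ j.val)⁻¹ := by rw [h1]; group
      rw [h2]
      exact Subgroup.mul_mem _ (Subgroup.pow_mem _ (Subgroup.mem_zpowers _) _)
        (Subgroup.inv_mem _ (Subgroup.pow_mem _ (Subgroup.mem_zpowers _) _))
    · exfalso
      have h1 : x * s₀ ^ i.val = s₀ ^ j.val := congrArg Subtype.val hab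
      apply hxS
      have h2 : x = s₀ ^ j.val * (s₀ ^ i.val)⁻¹ := by rw [← h1]; group
      rw [h2]
      exact Subgroup.mul_mem _ (Subgroup.pow_mem _ (Subgroup.mem_zpowers _) _)
        (Subgroup.inv_mem _ (Subgroup.pow_mem _ (Subgroup.mem_zpowers _) _))
    · have h1 : x * s₀ ^ i.val = x * s₀ ^ j.val := congrArg Subtype.val hab
      rw [hEinj i j (mul_left_cancel h1)]
  have hsurj : Function.Surjective f := by
    intro h
    rcases hH h h.2 with ⟨k, hk⟩ | ⟨k, hk⟩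
    · refine ⟨DihedralGroup.r (k : ZMod (orderOf s₀)), ?_⟩
      apply Subtype.ext
      show s₀ ^ ((k : ZMod (orderOf s₀))).val = (h : G)
      rw [ZMod.val_natCast, pow_mod_orderOf, hk]
    · refine ⟨DihedralGroup.sr (k : ZMod (orderOf s₀)), ?_⟩
      apply Subtype.ext
      show x * s₀ ^ ((k : ZMod (orderOf s₀))).val = (h : G)
      rw [ZMod.val_natCast, pow_mod_orderOf, hk]
  exact ⟨(MulEquiv.ofBijective (MonoidHom.mk' f hmul) ⟨hinj, hsurj⟩).symm⟩

theorem core {G : Type*} [Group G] [Finite G] {p : ℕ} [Fact p.Prime] (P : Sylow p G)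
    (hPc : IsCyclic P)
    (hR : Subgroup.normalizer ((P : Subgroup G) : Set G) =
        Subgroup.centralizer ((P : Subgroup G) : Set G) ∨
       ∀ Q : Subgroup G, Q ≤ P → Nat.card Q = p →
          IsMulCommutative ↥(Subgroup.centralizer (Q : Set G)) ∧
          ∀ x : G, x ∈ Subgroup.normalizer (Q : Set G) → x ∉ Subgroup.centralizer (Q : Set G) →
            orderOf x = 2 ∧ ∀ c : G, c ∈ Subgroup.centralizer (Q : Set G) → x * c * x⁻¹ = c⁻¹)
    (H S : Subgroup G) (hSH : S ≤ H) (hSP : S ≤ P)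
    (hSn : ∀ h ∈ H, ∀ s ∈ S, h * s * h⁻¹ ∈ S)
    (hSp : ∀ y ∈ H, (∃ k : ℕ, y ^ (p ^ k) = 1) → y ∈ S)
    (h₀ : G) (hh₀ : h₀ ∈ H)
    (hgen : ∀ h ∈ H, ∃ s ∈ S, ∃ i : ℤ, h = s * h₀ ^ i) :
    IsCyclic H ∨ ∃ n : ℕ, Nonempty (H ≃* DihedralGroup (p ^ n)) := by
  have hpp : p.Prime := Fact.out
  have hScyc : IsCyclic S := Subgroup.isCyclic_of_le hSP
  obtain ⟨g, hg⟩ := hScyc.exists_generator
  obtain ⟨s₀, hs₀S⟩ := g
  have hSz : ∀ y ∈ S, y ∈ Subgroup.zpowers s₀ := by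
    intro y hy
    obtain ⟨k, hk⟩ := Subgroup.mem_zpowers_iff.1 (hg ⟨y, hy⟩)
    exact Subgroup.mem_zpowers_iff.2 ⟨k, by simpa using congrArg Subtype.val hk⟩
  have hzS : Subgroup.zpowers s₀ ≤ S := Subgroup.zpowers_le.2 hs₀S
  obtain ⟨m, hm⟩ : ∃ m, orderOf s₀ = p ^ m := by
    have := (IsPGroup.iff_orderOf.1 P.isPGroup') ⟨s₀, hSP hs₀S⟩
    simpa [Subgroup.orderOf_mk] using this
  have hSp' : ∀ y ∈ H, (∃ k : ℕ, y ^ (p ^ k) = 1) → y ∈ Subgroup.zpowers s₀ :=
    fun y hy hk => hSz y (hSp y hy hk)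
  have hgen' : ∀ h ∈ H, ∃ s ∈ Subgroup.zpowers s₀, ∃ i : ℤ, h = s * h₀ ^ i := by
    intro h hh
    obtain ⟨s, hs, i, hi⟩ := hgen h hh
    exact ⟨s, hSz s hs, i, hi⟩
  by_cases hcomm : h₀ * s₀ = s₀ * h₀
  · left
    exact cyclic_of_centralizes H s₀ h₀ (hSH hs₀S) hh₀ ⟨m, hm⟩ hSp' hgen' hcomm
  · rcases hR with hNC | hQ
    · exfalso
      apply hcomm
      have hle : Subgroup.normalizer ((P : Subgroup G) : Set G) ≤
          Subgroup.centralizer ((P : Subgroup G) : Set G) := hNC.le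
      have hcompl := MonoidHom.ker_transferSylow_isComplement' P hle
      have hPcomm : IsMulCommutative P := IsCyclic.isMulCommutative
      have h1 : h₀ * s₀ * h₀⁻¹ * s₀⁻¹ ∈ (MonoidHom.transferSylow P hle).ker := by
        rw [MonoidHom.mem_ker, map_mul, map_mul, map_mul, map_inv, map_inv]
        rw [mul_comm' ((MonoidHom.transferSylow P hle) h₀) ((MonoidHom.transferSylow P hle) s₀)]
        group
      have h2 : h₀ * s₀ * h₀⁻¹ * s₀⁻¹ ∈ (P : Subgroup G) :=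
        Subgroup.mul_mem _ (hSP (hSn h₀ hh₀ s₀ hs₀S)) (Subgroup.inv_mem _ (hSP hs₀S))
      have h3 : h₀ * s₀ * h₀⁻¹ * s₀⁻¹ = 1 := Subgroup.disjoint_def.1 hcompl.disjoint h1 h2
      calc h₀ * s₀ = (h₀ * s₀ * h₀⁻¹ * s₀⁻¹) * s₀ * h₀ := by group
        _ = s₀ * h₀ := by rw [h3, one_mul]
    · right
      have hm0 : m ≠ 0 := by
        rintro rfl
        rw [pow_zero, orderOf_eq_one_iff] at hm
        exact hcomm (by rw [hm, mul_one, one_mul])
      have hn : orderOf s₀ ≠ 0 := (orderOf_pos s₀).ne'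
      have hq₀ord : orderOf (s₀ ^ (orderOf s₀ / p)) = p := by
        apply orderOf_pow_orderOf_div hn
        rw [hm]
        exact dvd_pow_self p hm0
      have hQS : Subgroup.zpowers (s₀ ^ (orderOf s₀ / p)) ≤ S :=
        Subgroup.zpowers_le.2 (S.pow_mem hs₀S _)
      have hQcard : Nat.card (Subgroup.zpowers (s₀ ^ (orderOf s₀ / p))) = p := by
        rw [Nat.card_zpowers, hq₀ord]
      obtain ⟨hCcomm, hinv⟩ := hQ _ (hQS.trans hSP) hQcard
      have hs₀C : s₀ ∈ Subgroup.centralizer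
          ((Subgroup.zpowers (s₀ ^ (orderOf s₀ / p)) : Subgroup G) : Set G) := by
        rw [Subgroup.mem_centralizer_iff]
        intro q hq
        obtain ⟨k, rfl⟩ := Subgroup.mem_zpowers_iff.1 hq
        exact (((Commute.refl s₀).pow_left (orderOf s₀ / p)).zpow_left k).eq
      have hh₀N : h₀ ∈ Subgroup.normalizer
          ((Subgroup.zpowers (s₀ ^ (orderOf s₀ / p)) : Subgroup G) : Set G) := by
        apply mem_normalizer_of_conj_mem
        intro q hq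
        obtain ⟨k, rfl⟩ := Subgroup.mem_zpowers_iff.1 hq
        obtain ⟨j, hj⟩ := Subgroup.mem_zpowers_iff.1 (hSz _ (hSn h₀ hh₀ s₀ hs₀S))
        have : h₀ * (s₀ ^ (orderOf s₀ / p)) ^ k * h₀⁻¹ = ((s₀ ^ (orderOf s₀ / p)) ^ j) ^ k := by
          rw [← conj_zpow, ← conj_pow, ← hj]
          congr 1
          rw [← zpow_natCast, ← zpow_natCast, ← zpow_mul, ← zpow_mul, mul_comm]
        rw [this]
        exact Subgroup.zpow_mem _ (Subgroup.zpow_mem _ (Subgroup.mem_zpowers _) _) _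
      have hh₀C : h₀ ∉ Subgroup.centralizer
          ((Subgroup.zpowers (s₀ ^ (orderOf s₀ / p)) : Subgroup G) : Set G) := by
        intro h
        apply hcomm
        exact isMulCommutative_iff_of_setLike.1 hCcomm h₀ h s₀ hs₀C
      obtain ⟨ho2, hinvC⟩ := hinv h₀ hh₀N hh₀C
      have hxx : h₀ * h₀ = 1 := by rw [← pow_two, ← ho2, pow_orderOf_eq_one]
      have hx_inv : h₀⁻¹ = h₀ := by
        rw [inv_eq_iff_eq_inv, eq_inv_iff_mul_eq_one]; exact hxx
      have hinv0 : h₀ * s₀ * h₀⁻¹ = s₀⁻¹ := hinvC s₀ hs₀C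
      have hxS : h₀ ∉ Subgroup.zpowers s₀ := by
        intro h
        obtain ⟨k, hk⟩ := Subgroup.mem_zpowers_iff.1 h
        apply hcomm
        rw [← hk]
        exact ((Commute.refl s₀).zpow_left k).eq
      have hH : ∀ h ∈ H, (∃ k : ℕ, h = s₀ ^ k) ∨ ∃ k : ℕ, h = h₀ * s₀ ^ k := by
        intro h hh
        obtain ⟨s, hs, i, hi⟩ := hgen' h hh
        have hi' : h₀ ^ i = h₀ ^ (i % 2) := by
          have := zpow_mod_orderOf h₀ i
          rw [ho2] at this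
          exact this.symm
        rcases Int.emod_two_eq_zero_or_one i with h0 | h1
        · left
          rw [hi', h0, zpow_zero, mul_one] at hi
          obtain ⟨k, hk⟩ := (mem_powers_iff_mem_zpowers).2 hs
          exact ⟨k, by rw [hi]; exact hk.symm⟩
        · right
          rw [hi', h1, zpow_one] at hi
          have hs' : h₀⁻¹ * s * h₀ ∈ Subgroup.zpowers s₀ := by
            have := hSn h₀⁻¹ (H.inv_mem hh₀) s (hzS hs)
            rw [inv_inv] at this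
            exact hSz _ this
          obtain ⟨k, hk⟩ := (mem_powers_iff_mem_zpowers).2 hs'
          refine ⟨k, ?_⟩
          have hk' : s₀ ^ k = h₀⁻¹ * s * h₀ := hk
          rw [hi, hk']
          group
      obtain ⟨e⟩ := dihedral_iso H s₀ h₀ (hSH hs₀S) hh₀ hn hxx hinv0 hxS hH
      refine ⟨m, ?_⟩
      rw [← hm]
      exact ⟨e⟩

theorem core_conj {G : Type*} [Group G] [Finite G] {p : ℕ} [Fact p.Prime] (P : Sylow p G)
    (hPc : IsCyclic P)
    (hR : Subgroup.normalizer ((P : Subgroup G) : Set G) =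
        Subgroup.centralizer ((P : Subgroup G) : Set G) ∨
       ∀ Q : Subgroup G, Q ≤ P → Nat.card Q = p →
          IsMulCommutative ↥(Subgroup.centralizer (Q : Set G)) ∧
          ∀ x : G, x ∈ Subgroup.normalizer (Q : Set G) → x ∉ Subgroup.centralizer (Q : Set G) →
            orderOf x = 2 ∧ ∀ c : G, c ∈ Subgroup.centralizer (Q : Set G) → x * c * x⁻¹ = c⁻¹)
    (H S : Subgroup G) (hSH : S ≤ H) (g : G) (hSP : ∀ s ∈ S, g⁻¹ * s * g ∈ (P : Subgroup G))
    (hSn : ∀ h ∈ H, ∀ s ∈ S, h * s * h⁻¹ ∈ S)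
    (hSp : ∀ y ∈ H, (∃ k : ℕ, y ^ (p ^ k) = 1) → y ∈ S)
    (h₀ : G) (hh₀ : h₀ ∈ H)
    (hgen : ∀ h ∈ H, ∃ s ∈ S, ∃ i : ℤ, h = s * h₀ ^ i) :
    IsCyclic H ∨ ∃ n : ℕ, Nonempty (H ≃* DihedralGroup (p ^ n)) := by
  have hφa : ∀ y, (MulAut.conj g⁻¹ : G ≃* G) y = g⁻¹ * y * g := by
    intro y; simp
  have key := core P hPc hR (H.map ((MulAut.conj g⁻¹ : G ≃* G) : G →* G))
    (S.map ((MulAut.conj g⁻¹ : G ≃* G) : G →* G)) (Subgroup.map_mono hSH)
    (by
      rintro _ ⟨s, hs, rfl⟩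
      show (MulAut.conj g⁻¹ : G ≃* G) s ∈ _
      rw [hφa]; exact hSP s hs)
    (by
      rintro _ ⟨h, hh, rfl⟩ _ ⟨s, hs, rfl⟩
      refine ⟨h * s * h⁻¹, hSn h hh s hs, ?_⟩
      rw [map_mul, map_mul]
      congr 1
      exact map_inv ((MulAut.conj g⁻¹ : G ≃* G) : G →* G) h)
    (by
      rintro _ ⟨y, hy, rfl⟩ ⟨k, hk⟩
      refine ⟨y, hSp y hy ⟨k, ?_⟩, rfl⟩
      apply (MulAut.conj g⁻¹ : G ≃* G).injective
      rw [map_pow, map_one]; exact hk)
    ((MulAut.conj g⁻¹ : G ≃* G) h₀) ⟨h₀, hh₀, rfl⟩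
    (by
      rintro _ ⟨h, hh, rfl⟩
      obtain ⟨s, hs, i, hi⟩ := hgen h hh
      refine ⟨(MulAut.conj g⁻¹ : G ≃* G) s, ⟨s, hs, rfl⟩, i, ?_⟩
      rw [hi, map_mul, map_zpow]; rfl)
  rcases key with hc | ⟨n, ⟨e⟩⟩
  · left
    exact (MulEquiv.subgroupMap (MulAut.conj g⁻¹ : G ≃* G) H).isCyclic.2 hc
  · right
    exact ⟨n, ⟨(MulEquiv.subgroupMap (MulAut.conj g⁻¹ : G ≃* G) H).trans e⟩⟩

theorem backward {G : Type*} [Group G] [Finite G] {p : ℕ} [Fact p.Prime] (P : Sylow p G)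
    (hPc : IsCyclic P)
    (hR : Subgroup.normalizer ((P : Subgroup G) : Set G) =
        Subgroup.centralizer ((P : Subgroup G) : Set G) ∨
       ∀ Q : Subgroup G, Q ≤ P → Nat.card Q = p →
          IsMulCommutative ↥(Subgroup.centralizer (Q : Set G)) ∧
          ∀ x : G, x ∈ Subgroup.normalizer (Q : Set G) → x ∉ Subgroup.centralizer (Q : Set G) →
            orderOf x = 2 ∧ ∀ c : G, c ∈ Subgroup.centralizer (Q : Set G) → x * c * x⁻¹ = c⁻¹)
    (H : Subgroup G) (hS : ∀ S : Sylow p ↥H, (S : Subgroup ↥H).Normal)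
    (hC : ∀ (S : Sylow p ↥H) [(S : Subgroup ↥H).Normal], IsCyclic (↥H ⧸ (S : Subgroup ↥H))) :
    IsCyclic H ∨ ∃ n : ℕ, Nonempty (H ≃* DihedralGroup (p ^ n)) := by
  obtain ⟨S₀⟩ : Nonempty (Sylow p ↥H) := inferInstance
  have hS₀n : (S₀ : Subgroup ↥H).Normal := hS S₀
  have hcyc : IsCyclic (↥H ⧸ (S₀ : Subgroup ↥H)) := hC S₀
  obtain ⟨c, hc⟩ := hcyc.exists_generator
  obtain ⟨h₀, rfl⟩ := QuotientGroup.mk_surjective c
  have hS'p : IsPGroup p ((S₀ : Subgroup ↥H).map H.subtype) := S₀.isPGroup'.map _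
  obtain ⟨P₁, hP₁⟩ := hS'p.exists_le_sylow
  obtain ⟨g, hg⟩ := MulAction.exists_smul_eq G P P₁
  apply core_conj P hPc hR H ((S₀ : Subgroup ↥H).map H.subtype) (Subgroup.map_subtype_le _) g
    ?_ ?_ ?_ (h₀ : G) h₀.2 ?_
  · intro s hs
    have h1 : s ∈ (P₁ : Subgroup G) := hP₁ hs
    rw [← hg, Sylow.coe_subgroup_smul, Subgroup.mem_pointwise_smul_iff_inv_smul_mem] at h1
    simpa [MulAut.smul_def] using h1
  · rintro h hh _ ⟨s, hs, rfl⟩
    refine ⟨⟨h, hh⟩ * s * ⟨h, hh⟩⁻¹, hS₀n.conj_mem s hs ⟨h, hh⟩, ?_⟩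
    simp
  · rintro y hy ⟨k, hk⟩
    refine ⟨⟨y, hy⟩, ?_, rfl⟩
    have hy'k : (⟨y, hy⟩ : ↥H) ^ (p ^ k) = 1 := Subtype.ext (by simpa using hk)
    have hz : IsPGroup p (Subgroup.zpowers (⟨y, hy⟩ : ↥H)) := by
      rintro ⟨z, hz⟩
      obtain ⟨j, rfl⟩ := Subgroup.mem_zpowers_iff.1 hz
      refine ⟨k, ?_⟩
      apply Subtype.ext
      show ((⟨y, hy⟩ : ↥H) ^ j) ^ (p ^ k) = 1
      rw [← zpow_natCast, ← zpow_mul, mul_comm, zpow_mul, zpow_natCast, hy'k, one_zpow]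
    have h1 : IsPGroup p ((S₀ : Subgroup ↥H) ⊔ Subgroup.zpowers (⟨y, hy⟩ : ↥H) : Subgroup ↥H) :=
      S₀.isPGroup'.to_sup_of_normal_left hz
    have h2 := S₀.is_maximal' h1 le_sup_left
    rw [SetLike.mem_coe, ← h2]
    exact Subgroup.mem_sup_right (Subgroup.mem_zpowers _)
  · intro h hh
    obtain ⟨i, hi⟩ := Subgroup.mem_zpowers_iff.1 (hc (QuotientGroup.mk ⟨h, hh⟩))
    have h1 : (⟨h, hh⟩ : ↥H) * (h₀ ^ i)⁻¹ ∈ (S₀ : Subgroup ↥H) := by
      have h2 : ((h₀ ^ i : ↥H) : ↥H ⧸ (S₀ : Subgroup ↥H)) =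
          ((⟨h, hh⟩ : ↥H) : ↥H ⧸ (S₀ : Subgroup ↥H)) := by
        rw [QuotientGroup.mk_zpow]; exact hi
      have h3 := QuotientGroup.eq.1 h2
      have h4 := hS₀n.conj_mem _ h3 (h₀ ^ i)
      simpa [mul_assoc] using h4
    refine ⟨_, ⟨_, h1, rfl⟩, i, ?_⟩
    simp

/-- Let p be an odd prime and G a finite group with Sylow p-subgroup P. Say that G has restricted p-by-cyclic subgroups when every subgroup H of G whose Sylow p-subgroup is normal in H with cyclic quotient is itself cyclic or dihedral of order 2pⁿ for some n. Then G has restricted p-by-cyclic subgroups if and only if P is cyclic and one of the following holds: (1) N_G(P) = C_G(P); or (2) N_G(P)/C_G(P) has order 2 and, for the subgroup Q of order p of P, the centralizer C_G(Q) is abelian and every element of N_G(Q) outside C_G(Q) is an involution inverting every element of C_G(Q). -/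
theorem result {G : Type*} [Group G] [Finite G] {p : ℕ}
    [Fact p.Prime] (hp : p ≠ 2) (P : Sylow p G) :
    (∀ H : Subgroup G, (∀ S : Sylow p ↥H, (S : Subgroup ↥H).Normal) →
        (∀ (S : Sylow p ↥H) [(S : Subgroup ↥H).Normal], IsCyclic (↥H ⧸ (S : Subgroup ↥H))) →
        IsCyclic H ∨ (∃ n : ℕ, Nonempty (H ≃* DihedralGroup (p ^ n)))) ↔
    (IsCyclic P ∧
      (Subgroup.normalizer ((P : Subgroup G) : Set G) = Subgroup.centralizer ((P : Subgroup G) : Set G) ∨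
       ((Subgroup.centralizer ((P : Subgroup G) : Set G)).relIndex (Subgroup.normalizer ((P : Subgroup G) : Set G)) = 2 ∧
        ∀ Q : Subgroup G, Q ≤ P → Nat.card Q = p →
          IsMulCommutative ↥(Subgroup.centralizer (Q : Set G)) ∧
          ∀ x : G, x ∈ Subgroup.normalizer (Q : Set G) → x ∉ Subgroup.centralizer (Q : Set G) →
            orderOf x = 2 ∧ ∀ c : G, c ∈ Subgroup.centralizer (Q : Set G) → x * c * x⁻¹ = c⁻¹))) := by
  refine ⟨forward hp P, ?_⟩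
  rintro ⟨hPc, hR⟩ H hS hC
  refine backward P hPc ?_ H hS hC
  rcases hR with h | ⟨_, h⟩
  · exact Or.inl h
  · exact Or.inr h

end Cfsg.Agent.S4082
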