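import Mathlib
import Cfsg.Statements.S4083
import Cfsg.Agent.S4082

set_option autoImplicit false
open Cfsg

namespace Cfsg.Agent.S4083

open Cfsg.Agent.S4082 (mem_normalizer_of_conj_mem dihedral_iso cyclic_of_centralizes
  phi_of_sup_zpowers' sylow_normal_of_cyclic_quotient)

/-- An automorphism of odd order of a cyclic `2`-group is trivial (inner form). -/
theorem odd_auto_cyclic {G : Type*} [Group G] [Finite G] (a h : G) (m b : ℕ)
    (ha : orderOf a = 2 ^ m) (hb : Odd b) (hhb : h ^ b = 1)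
    (hmem : h * a * h⁻¹ ∈ Subgroup.zpowers a) : h * a * h⁻¹ = a := by
  have hN : h ∈ Subgroup.normalizer ((Subgroup.zpowers a : Subgroup G) : Set G) := by
    apply mem_normalizer_of_conj_mem
    intro y hy
    obtain ⟨k, rfl⟩ := Subgroup.mem_zpowers_iff.1 hy
    rw [← conj_zpow]
    exact Subgroup.zpow_mem _ hmem k
  have hcb : ((Subgroup.zpowers a).normalizerMonoidHom ⟨h, hN⟩) ^ b = 1 := by
    rw [← map_pow]
    have : (⟨h, hN⟩ : Subgroup.normalizer ((Subgroup.zpowers a : Subgroup G) : Set G)) ^ b = 1 :=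
      Subtype.ext (by simpa using hhb)
    rw [this, map_one]
  have h1 : orderOf ((Subgroup.zpowers a).normalizerMonoidHom ⟨h, hN⟩) ∣ b :=
    orderOf_dvd_of_pow_eq_one hcb
  have h2 : orderOf ((Subgroup.zpowers a).normalizerMonoidHom ⟨h, hN⟩) ∣
      Nat.card (MulAut (Subgroup.zpowers a)) := orderOf_dvd_natCard _
  have h3 : Nat.card (MulAut (Subgroup.zpowers a)) = Nat.totient (2 ^ m) := by
    rw [IsCyclic.card_mulAut, Nat.card_zpowers, ha]
  have h4 : orderOf ((Subgroup.zpowers a).normalizerMonoidHom ⟨h, hN⟩) = 1 := by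
    rw [h3] at h2
    rcases Nat.eq_zero_or_pos m with h0 | h0
    · rw [h0, pow_zero, Nat.totient_one] at h2
      exact Nat.dvd_one.1 h2
    · rw [Nat.totient_prime_pow Nat.prime_two h0] at h2
      have h5 : orderOf ((Subgroup.zpowers a).normalizerMonoidHom ⟨h, hN⟩) ∣ 2 ^ (m - 1) := by
        simpa using h2
      have h6 : Nat.Coprime b (2 ^ (m - 1)) :=
        Nat.Coprime.pow_right _ (Nat.Coprime.symm (Nat.coprime_two_left.2 hb))
      exact Nat.eq_one_of_dvd_coprimes h6 h1 h5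
  have h5 : (Subgroup.zpowers a).normalizerMonoidHom ⟨h, hN⟩ = 1 := orderOf_eq_one_iff.1 h4
  have h6 : (⟨h, hN⟩ : Subgroup.normalizer ((Subgroup.zpowers a : Subgroup G) : Set G)) ∈
      (Subgroup.zpowers a).normalizerMonoidHom.ker := h5
  rw [Subgroup.normalizerMonoidHom_ker, Subgroup.mem_subgroupOf] at h6
  have h7 : a * h = h * a := (Subgroup.mem_centralizer_iff.1 h6) a (Subgroup.mem_zpowers a)
  rw [← h7]; group

/-- Non-cyclic subgroups of a dihedral `2`-group have the dihedral shape. -/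
theorem dih_sub_struct {G : Type*} [Group G] [Finite G] (P : Subgroup G) (n : ℕ)
    (e : P ≃* DihedralGroup (2 ^ n)) (S : Subgroup G) (hSP : S ≤ P) (hS : ¬ IsCyclic S) :
    ∃ a x : G, a ∈ S ∧ x ∈ S ∧ x * x = 1 ∧ x * a * x⁻¹ = a⁻¹ ∧ x ∉ Subgroup.zpowers a ∧
      ∀ y ∈ S, (∃ k : ℕ, y = a ^ k) ∨ ∃ k : ℕ, y = x * a ^ k := by
  have : NeZero (2 ^ n) := ⟨by positivity⟩
  have hrot : ∀ (y : P) (i : ZMod (2 ^ n)), e y = DihedralGroup.r i →
      (y : G) ∈ Subgroup.zpowers ((e.symm (DihedralGroup.r 1) : P) : G) := by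
    intro y i hy
    have h1 : y = (e.symm (DihedralGroup.r 1)) ^ i.val := by
      apply e.injective
      rw [map_pow, MulEquiv.apply_symm_apply, hy, DihedralGroup.r_one_pow, ZMod.natCast_zmod_val]
    rw [h1, Subgroup.coe_pow]
    exact Subgroup.pow_mem _ (Subgroup.mem_zpowers _) _
  have hrot' : ∀ y : P, (y : G) ∈ Subgroup.zpowers ((e.symm (DihedralGroup.r 1) : P) : G) →
      ∃ i, e y = DihedralGroup.r i := by
    intro y hy
    obtain ⟨k, hk⟩ := Subgroup.mem_zpowers_iff.1 hy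
    have h1 : y = (e.symm (DihedralGroup.r 1)) ^ k := Subtype.ext (by rw [← hk]; simp)
    exact ⟨(k : ZMod (2 ^ n)),
      by rw [h1, map_zpow, MulEquiv.apply_symm_apply, DihedralGroup.r_one_zpow]⟩
  have hcyc : IsCyclic (S ⊓ Subgroup.zpowers ((e.symm (DihedralGroup.r 1) : P) : G) : Subgroup G) :=
    Subgroup.isCyclic_of_le inf_le_right
  obtain ⟨⟨a, haS, haρ⟩, hgen⟩ := hcyc.exists_generator
  have hagen : ∀ y ∈ S, y ∈ Subgroup.zpowers ((e.symm (DihedralGroup.r 1) : P) : G) →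
      y ∈ Subgroup.zpowers a := by
    intro y hyS hyρ
    obtain ⟨k, hk⟩ := Subgroup.mem_zpowers_iff.1 (hgen ⟨y, hyS, hyρ⟩)
    exact Subgroup.mem_zpowers_iff.2 ⟨k, by simpa using congrArg Subtype.val hk⟩
  obtain ⟨x, hxS, hxρ⟩ : ∃ x ∈ S, x ∉ Subgroup.zpowers ((e.symm (DihedralGroup.r 1) : P) : G) := by
    by_contra hcon
    push Not at hcon
    apply hS
    exact Subgroup.isCyclic_of_le
      (fun y hy => hcon y hy : S ≤ Subgroup.zpowers ((e.symm (DihedralGroup.r 1) : P) : G))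
  obtain ⟨j, hj⟩ : ∃ j, e ⟨x, hSP hxS⟩ = DihedralGroup.sr j := by
    rcases hex : e ⟨x, hSP hxS⟩ with i | j
    · exact absurd (hrot ⟨x, hSP hxS⟩ i hex) hxρ
    · exact ⟨j, rfl⟩
  obtain ⟨i, hi⟩ := hrot' ⟨a, hSP haS⟩ haρ
  have hxx : x * x = 1 := by
    have h1 : (⟨x, hSP hxS⟩ : P) * ⟨x, hSP hxS⟩ = 1 := by
      apply e.injective
      rw [map_mul, hj, DihedralGroup.sr_mul_self, map_one]
    exact congrArg Subtype.val h1
  have hinv : x * a * x⁻¹ = a⁻¹ := by
    have h1 : (⟨x, hSP hxS⟩ : P) * ⟨a, hSP haS⟩ * (⟨x, hSP hxS⟩ : P)⁻¹ =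
        (⟨a, hSP haS⟩ : P)⁻¹ := by
      apply e.injective
      rw [map_mul, map_mul, map_inv, map_inv, hj, hi, DihedralGroup.sr_mul_r,
        DihedralGroup.inv_sr, DihedralGroup.sr_mul_sr, DihedralGroup.inv_r]
      congr 1
      ring
    exact congrArg Subtype.val h1
  refine ⟨a, x, haS, hxS, hxx, hinv, ?_, ?_⟩
  · intro h
    exact hxρ ((Subgroup.zpowers_le.2 haρ) h)
  · intro y hyS
    by_cases hyρ : y ∈ Subgroup.zpowers ((e.symm (DihedralGroup.r 1) : P) : G)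
    · left
      obtain ⟨k, hk⟩ := (mem_powers_iff_mem_zpowers).2 (hagen y hyS hyρ)
      exact ⟨k, hk.symm⟩
    · right
      obtain ⟨j', hj'⟩ : ∃ j', e ⟨y, hSP hyS⟩ = DihedralGroup.sr j' := by
        rcases hey : e ⟨y, hSP hyS⟩ with i' | j'
        · exact absurd (hrot ⟨y, hSP hyS⟩ i' hey) hyρ
        · exact ⟨j', rfl⟩
      have h1 : x * y ∈ Subgroup.zpowers ((e.symm (DihedralGroup.r 1) : P) : G) := by
        have := hrot (⟨x, hSP hxS⟩ * ⟨y, hSP hyS⟩) (j' - j)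
          (by rw [map_mul, hj, hj', DihedralGroup.sr_mul_sr])
        simpa using this
      obtain ⟨k, hk⟩ := (mem_powers_iff_mem_zpowers).2 (hagen (x * y) (S.mul_mem hxS hyS) h1)
      refine ⟨k, ?_⟩
      have hk' : a ^ k = x * y := hk
      rw [hk', ← mul_assoc, hxx, one_mul]

/-- The Klein four group generated by two commuting involutions. -/
theorem klein_four {G : Type*} [Group G] (z x : G) (hz : orderOf z = 2) (hxx : x * x = 1)
    (hc : x * z = z * x) (hxz : x ∉ Subgroup.zpowers z) :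
    Nat.card (Subgroup.closure ({z, x} : Set G)) = 4 ∧
    (∀ k ∈ Subgroup.closure ({z, x} : Set G), k ^ 2 = 1) ∧
    ∀ h ∈ Subgroup.closure ({z, x} : Set G), h = 1 ∨ h = z ∨ h = x ∨ h = x * z := by
  have hzz : z * z = 1 := by rw [← pow_two, ← hz, pow_orderOf_eq_one]
  have hcz : ∀ k : ℕ, x * z ^ k = z ^ k * x :=
    fun k => ((show Commute x z from hc).pow_right k).eq
  have hz2 : ∀ k : ℕ, z ^ k * z ^ k = 1 := by
    intro k
    rw [← pow_add, ← two_mul, pow_mul, pow_two, hzz, one_pow]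
  have hmem : ∀ h ∈ Subgroup.closure ({z, x} : Set G),
      (∃ k : ℕ, h = z ^ k) ∨ ∃ k : ℕ, h = x * z ^ k := by
    intro h hh
    induction hh using Subgroup.closure_induction with
    | mem y hy =>
      rcases hy with rfl | rfl
      · exact Or.inl ⟨1, (pow_one _).symm⟩
      · exact Or.inr ⟨0, by simp⟩
    | one => exact Or.inl ⟨0, (pow_zero _).symm⟩
    | mul y₁ y₂ _ _ ih₁ ih₂ =>
      rcases ih₁ with ⟨k, rfl⟩ | ⟨k, rfl⟩ <;> rcases ih₂ with ⟨l, rfl⟩ | ⟨l, rfl⟩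
      · exact Or.inl ⟨k + l, (pow_add _ _ _).symm⟩
      · refine Or.inr ⟨k + l, ?_⟩
        rw [← mul_assoc, ← hcz, mul_assoc, ← pow_add]
      · exact Or.inr ⟨k + l, by rw [mul_assoc, ← pow_add]⟩
      · refine Or.inl ⟨k + l, ?_⟩
        calc x * z ^ k * (x * z ^ l) = x * (z ^ k * x) * z ^ l := by group
          _ = x * (x * z ^ k) * z ^ l := by rw [hcz]
          _ = (x * x) * (z ^ k * z ^ l) := by group
          _ = z ^ (k + l) := by rw [hxx, one_mul, pow_add]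
    | inv y _ ih =>
      have hzinv : ∀ k : ℕ, (z ^ k)⁻¹ = z ^ k := by
        intro k
        rw [inv_eq_iff_eq_inv, eq_inv_iff_mul_eq_one]; exact hz2 k
      have hxinv : x⁻¹ = x := by rw [inv_eq_iff_eq_inv, eq_inv_iff_mul_eq_one]; exact hxx
      rcases ih with ⟨k, rfl⟩ | ⟨k, rfl⟩
      · exact Or.inl ⟨k, hzinv k⟩
      · refine Or.inr ⟨k, ?_⟩
        rw [mul_inv_rev, hzinv, hxinv, hcz]
  have hzK : z ∈ Subgroup.closure ({z, x} : Set G) := Subgroup.subset_closure (by simp)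
  have hxK : x ∈ Subgroup.closure ({z, x} : Set G) := Subgroup.subset_closure (by simp)
  have hn : orderOf z ≠ 0 := by rw [hz]; norm_num
  have hinv : x * z * x⁻¹ = z⁻¹ := by
    rw [hc, mul_inv_cancel_right, eq_inv_iff_mul_eq_one]; exact hzz
  obtain ⟨e⟩ := dihedral_iso (Subgroup.closure ({z, x} : Set G)) z x hzK hxK hn hxx hinv hxz hmem
  have hzk : ∀ k : ℕ, z ^ k = 1 ∨ z ^ k = z := by
    intro k
    rcases Nat.even_or_odd k with ⟨l, hl⟩ | ⟨l, hl⟩
    · left; rw [hl, pow_add]; exact hz2 l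
    · right; rw [hl, pow_succ, two_mul, pow_add, hz2 l, one_mul]
  refine ⟨?_, ?_, ?_⟩
  · rw [Nat.card_congr e.toEquiv, DihedralGroup.nat_card, hz]
  · intro k hk
    rcases hmem k hk with ⟨l, rfl⟩ | ⟨l, rfl⟩
    · rw [pow_two]; exact hz2 l
    · rw [pow_two]
      calc x * z ^ l * (x * z ^ l) = x * (z ^ l * x) * z ^ l := by group
        _ = x * (x * z ^ l) * z ^ l := by rw [hcz]
        _ = (x * x) * (z ^ l * z ^ l) := by group
        _ = 1 := by rw [hxx, one_mul, hz2 l]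
  · intro h hh
    rcases hmem h hh with ⟨l, rfl⟩ | ⟨l, rfl⟩
    · rcases hzk l with h1 | h1
      · left; exact h1
      · right; left; exact h1
    · rcases hzk l with h1 | h1
      · right; right; left; rw [h1, mul_one]
      · right; right; right; rw [h1]

theorem a4_not_comm : ¬ ∀ u v : alternatingGroup (Fin 4), u * v = v * u := by
  intro h
  have hσ : (Equiv.swap (0 : Fin 4) 1 * Equiv.swap 1 2) ∈ alternatingGroup (Fin 4) := by
    rw [Equiv.Perm.mem_alternatingGroup]; decide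
  have hτ : (Equiv.swap (0 : Fin 4) 1 * Equiv.swap 1 3) ∈ alternatingGroup (Fin 4) := by
    rw [Equiv.Perm.mem_alternatingGroup]; decide
  have h1 := h ⟨_, hσ⟩ ⟨_, hτ⟩
  have h2 : ((Equiv.swap (0 : Fin 4) 1 * Equiv.swap 1 2 * (Equiv.swap 0 1 * Equiv.swap 1 3) :
        Equiv.Perm (Fin 4))) 0 =
      ((Equiv.swap (0 : Fin 4) 1 * Equiv.swap 1 3 * (Equiv.swap 0 1 * Equiv.swap 1 2) :
        Equiv.Perm (Fin 4))) 0 :=
    congrArg (fun u : alternatingGroup (Fin 4) => (u : Equiv.Perm (Fin 4)) 0) h1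
  exact absurd h2 (by decide)

theorem a4_card : Nat.card (alternatingGroup (Fin 4)) = 12 := by
  rw [nat_card_alternatingGroup, Nat.card_eq_fintype_card, Fintype.card_fin]; rfl

/-- Recognition of `A₄` as `V₄ ⋊ C₃`. -/
theorem a4_iso {G : Type*} [Group G] [Finite G] (H : Subgroup G) (a x h₀ : G)
    (haH : a ∈ H) (hxH : x ∈ H) (hh₀ : h₀ ∈ H)
    (ha2 : orderOf a = 2) (hxx : x * x = 1) (hc : x * a = a * x)
    (hxa : x ∉ Subgroup.zpowers a)
    (h1 : h₀ * a * h₀⁻¹ = x) (h2 : h₀ * x * h₀⁻¹ = x * a) (h3 : h₀ ^ 3 = 1)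
    (hgen : ∀ h ∈ H, ∃ s : G, (s = 1 ∨ s = a ∨ s = x ∨ s = x * a) ∧ ∃ i : ℤ, h = s * h₀ ^ i) :
    Nonempty (H ≃* alternatingGroup (Fin 4)) := by
  have ha'2 : orderOf (⟨a, haH⟩ : H) = 2 := by rw [← ha2]; exact Subgroup.orderOf_mk a haH
  have hx'x' : (⟨x, hxH⟩ : H) * ⟨x, hxH⟩ = 1 := Subtype.ext hxx
  have hc' : (⟨x, hxH⟩ : H) * ⟨a, haH⟩ = ⟨a, haH⟩ * ⟨x, hxH⟩ := Subtype.ext hc
  have hx'a' : (⟨x, hxH⟩ : H) ∉ Subgroup.zpowers (⟨a, haH⟩ : H) := by
    intro h
    obtain ⟨k, hk⟩ := Subgroup.mem_zpowers_iff.1 h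
    apply hxa
    exact Subgroup.mem_zpowers_iff.2 ⟨k, by simpa using congrArg Subtype.val hk⟩
  obtain ⟨hKcard, hKexp, hKmem⟩ := klein_four (⟨a, haH⟩ : H) ⟨x, hxH⟩ ha'2 hx'x' hc' hx'a'
  have ha'K : (⟨a, haH⟩ : H) ∈ Subgroup.closure ({⟨a, haH⟩, ⟨x, hxH⟩} : Set H) :=
    Subgroup.subset_closure (by simp)
  have hx'K : (⟨x, hxH⟩ : H) ∈ Subgroup.closure ({⟨a, haH⟩, ⟨x, hxH⟩} : Set H) :=
    Subgroup.subset_closure (by simp)
  have h'3 : (⟨h₀, hh₀⟩ : H) ^ 3 = 1 := Subtype.ext (by simpa using h3)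
  have hxa' : x ≠ a := fun h => hxa (h ▸ Subgroup.mem_zpowers a)
  have hh₀1 : h₀ ≠ 1 := by
    intro h
    rw [h] at h1
    apply hxa'
    rw [← h1]; group
  have hh'1 : (⟨h₀, hh₀⟩ : H) ≠ 1 := fun h => hh₀1 (congrArg Subtype.val h)
  have hp3 : Fact (Nat.Prime 3) := ⟨by norm_num⟩
  have hh'ord : orderOf (⟨h₀, hh₀⟩ : H) = 3 := orderOf_eq_prime h'3 hh'1
  have hdisj : Disjoint (Subgroup.closure ({⟨a, haH⟩, ⟨x, hxH⟩} : Set H))
      (Subgroup.zpowers (⟨h₀, hh₀⟩ : H)) := by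
    rw [Subgroup.disjoint_def]
    intro y hyK hyC
    have hy2 : y ^ 2 = 1 := hKexp y hyK
    have hy3 : y ^ 3 = 1 := by
      obtain ⟨k, rfl⟩ := Subgroup.mem_zpowers_iff.1 hyC
      rw [← zpow_natCast, ← zpow_mul, mul_comm, zpow_mul, zpow_natCast, h'3, one_zpow]
    calc y = y ^ 3 * (y ^ 2)⁻¹ := by group
      _ = 1 := by rw [hy2, hy3]; group
  have hcompl : (Subgroup.closure ({⟨a, haH⟩, ⟨x, hxH⟩} : Set H)).IsComplement'
      (Subgroup.zpowers (⟨h₀, hh₀⟩ : H)) := by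
    apply Subgroup.isComplement'_of_disjoint_and_mul_eq_univ hdisj
    rw [Set.eq_univ_iff_forall]
    intro y
    obtain ⟨s, hs, i, hi⟩ := hgen (y : G) y.2
    have hsH : s ∈ H := by
      rcases hs with rfl | rfl | rfl | rfl
      · exact H.one_mem
      · exact haH
      · exact hxH
      · exact H.mul_mem hxH haH
    have hsK : (⟨s, hsH⟩ : H) ∈ Subgroup.closure ({⟨a, haH⟩, ⟨x, hxH⟩} : Set H) := by
      rcases hs with rfl | rfl | rfl | rfl
      · exact Subgroup.one_mem _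
      · exact ha'K
      · exact hx'K
      · exact Subgroup.mul_mem _ hx'K ha'K
    refine Set.mem_mul.2 ⟨⟨s, hsH⟩, hsK, (⟨h₀, hh₀⟩ : H) ^ i,
      Subgroup.zpow_mem _ (Subgroup.mem_zpowers _) _, ?_⟩
    exact Subtype.ext (by simpa using hi.symm)
  have hCcard : Nat.card (Subgroup.zpowers (⟨h₀, hh₀⟩ : H)) = 3 := by
    rw [Nat.card_zpowers, hh'ord]
  have hcardH : Nat.card H = 12 := by
    rw [← hcompl.card_mul_card, hKcard, hCcard]
  have hidx : (Subgroup.zpowers (⟨h₀, hh₀⟩ : H)).index = 4 := by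
    rw [hcompl.index_eq_card, hKcard]
  have hcore : (Subgroup.zpowers (⟨h₀, hh₀⟩ : H)).normalCore = ⊥ := by
    rw [eq_bot_iff]
    intro y hy
    rw [Subgroup.mem_bot]
    by_contra hy1
    have hyC : y ∈ Subgroup.zpowers (⟨h₀, hh₀⟩ : H) := Subgroup.normalCore_le _ hy
    have hy3 : y ^ 3 = 1 := by
      obtain ⟨k, rfl⟩ := Subgroup.mem_zpowers_iff.1 hyC
      rw [← zpow_natCast, ← zpow_mul, mul_comm, zpow_mul, zpow_natCast, h'3, one_zpow]
    have hyord : orderOf y = 3 := orderOf_eq_prime hy3 hy1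
    have heq : Subgroup.zpowers y = Subgroup.zpowers (⟨h₀, hh₀⟩ : H) := by
      apply Subgroup.eq_of_le_of_card_ge (Subgroup.zpowers_le.2 hyC)
      rw [Nat.card_zpowers, Nat.card_zpowers, hyord, hh'ord]
    have hh'N : (⟨h₀, hh₀⟩ : H) ∈ (Subgroup.zpowers (⟨h₀, hh₀⟩ : H)).normalCore := by
      have : (⟨h₀, hh₀⟩ : H) ∈ Subgroup.zpowers y := by rw [heq]; exact Subgroup.mem_zpowers _
      exact (Subgroup.zpowers_le.2 hy) this
    have hconj : (⟨a, haH⟩ : H) * ⟨h₀, hh₀⟩ * (⟨a, haH⟩ : H)⁻¹ ∈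
        Subgroup.zpowers (⟨h₀, hh₀⟩ : H) :=
      Subgroup.normalCore_le _ ((Subgroup.normalCore_normal _).conj_mem _ hh'N ⟨a, haH⟩)
    have hw : (⟨a, haH⟩ : H) * ⟨h₀, hh₀⟩ * (⟨a, haH⟩ : H)⁻¹ * (⟨h₀, hh₀⟩ : H)⁻¹ ∈
        Subgroup.zpowers (⟨h₀, hh₀⟩ : H) :=
      Subgroup.mul_mem _ hconj (Subgroup.inv_mem _ (Subgroup.mem_zpowers _))
    have hw' : (⟨a, haH⟩ : H) * ⟨h₀, hh₀⟩ * (⟨a, haH⟩ : H)⁻¹ * (⟨h₀, hh₀⟩ : H)⁻¹ =
        (⟨a, haH⟩ : H) * ⟨x, hxH⟩ := by
      apply Subtype.ext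
      show a * h₀ * a⁻¹ * h₀⁻¹ = a * x
      have hxinv : x⁻¹ = x := by rw [inv_eq_iff_eq_inv, eq_inv_iff_mul_eq_one]; exact hxx
      have : h₀ * a⁻¹ * h₀⁻¹ = x := by
        calc h₀ * a⁻¹ * h₀⁻¹ = (h₀ * a * h₀⁻¹)⁻¹ := by group
          _ = x := by rw [h1, hxinv]
      calc a * h₀ * a⁻¹ * h₀⁻¹ = a * (h₀ * a⁻¹ * h₀⁻¹) := by group
        _ = a * x := by rw [this]
    rw [hw'] at hw
    have h4 := Subgroup.disjoint_def.1 hdisj (Subgroup.mul_mem _ ha'K hx'K) hw
    have h5 : a * x = 1 := congrArg Subtype.val h4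
    apply hxa'
    have haa : a * a = 1 := by rw [← pow_two, ← ha2, pow_orderOf_eq_one]
    calc x = (a * a) * x := by rw [haa, one_mul]
      _ = a * (a * x) := by group
      _ = a := by rw [h5, mul_one]
  have hinj : Function.Injective
      (MulAction.toPermHom H (H ⧸ Subgroup.zpowers (⟨h₀, hh₀⟩ : H))) := by
    rw [← MonoidHom.ker_eq_bot_iff, ← Subgroup.normalCore_eq_ker, hcore]
  have hcard4 : Nat.card (H ⧸ Subgroup.zpowers (⟨h₀, hh₀⟩ : H)) = 4 := hidx
  have hφinj : Function.Injective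
      (((Finite.equivFinOfCardEq hcard4).permCongrHom.toMonoidHom).comp
        (MulAction.toPermHom H (H ⧸ Subgroup.zpowers (⟨h₀, hh₀⟩ : H)))) :=
    (Finite.equivFinOfCardEq hcard4).permCongrHom.injective.comp hinj
  have hsign_h : Equiv.Perm.sign
      ((((Finite.equivFinOfCardEq hcard4).permCongrHom.toMonoidHom).comp
        (MulAction.toPermHom H (H ⧸ Subgroup.zpowers (⟨h₀, hh₀⟩ : H)))) ⟨h₀, hh₀⟩) = 1 := by
    have h5 : (Equiv.Perm.sign
      ((((Finite.equivFinOfCardEq hcard4).permCongrHom.toMonoidHom).comp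
        (MulAction.toPermHom H (H ⧸ Subgroup.zpowers (⟨h₀, hh₀⟩ : H)))) ⟨h₀, hh₀⟩)) ^ 3 = 1 := by
      rw [← map_pow, ← map_pow, h'3, map_one, map_one]
    rcases Int.units_eq_one_or (Equiv.Perm.sign
      ((((Finite.equivFinOfCardEq hcard4).permCongrHom.toMonoidHom).comp
        (MulAction.toPermHom H (H ⧸ Subgroup.zpowers (⟨h₀, hh₀⟩ : H)))) ⟨h₀, hh₀⟩)) with h6 | h6
    · exact h6
    · rw [h6] at h5; exact absurd h5 (by decide)
  have e1 : (⟨x, hxH⟩ : H) = ⟨h₀, hh₀⟩ * ⟨a, haH⟩ * (⟨h₀, hh₀⟩ : H)⁻¹ := Subtype.ext h1.symm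
  have e2 : (⟨x, hxH⟩ : H) * ⟨a, haH⟩ = ⟨h₀, hh₀⟩ * ⟨x, hxH⟩ * (⟨h₀, hh₀⟩ : H)⁻¹ :=
    Subtype.ext h2.symm
  have hconjsign : ∀ u v : H, Equiv.Perm.sign
      ((((Finite.equivFinOfCardEq hcard4).permCongrHom.toMonoidHom).comp
        (MulAction.toPermHom H (H ⧸ Subgroup.zpowers (⟨h₀, hh₀⟩ : H)))) (u * v * u⁻¹)) =
      Equiv.Perm.sign
      ((((Finite.equivFinOfCardEq hcard4).permCongrHom.toMonoidHom).comp
        (MulAction.toPermHom H (H ⧸ Subgroup.zpowers (⟨h₀, hh₀⟩ : H)))) v) := by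
    intro u v
    rw [map_mul, map_mul, map_inv, map_mul, map_mul, map_inv, mul_comm, ← mul_assoc,
      inv_mul_cancel, one_mul]
  have hsign_xa : Equiv.Perm.sign
      ((((Finite.equivFinOfCardEq hcard4).permCongrHom.toMonoidHom).comp
        (MulAction.toPermHom H (H ⧸ Subgroup.zpowers (⟨h₀, hh₀⟩ : H)))) ⟨x, hxH⟩) =
      Equiv.Perm.sign
      ((((Finite.equivFinOfCardEq hcard4).permCongrHom.toMonoidHom).comp
        (MulAction.toPermHom H (H ⧸ Subgroup.zpowers (⟨h₀, hh₀⟩ : H)))) ⟨a, haH⟩) := by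
    rw [e1]; exact hconjsign _ _
  have hsign_a : Equiv.Perm.sign
      ((((Finite.equivFinOfCardEq hcard4).permCongrHom.toMonoidHom).comp
        (MulAction.toPermHom H (H ⧸ Subgroup.zpowers (⟨h₀, hh₀⟩ : H)))) ⟨a, haH⟩) = 1 := by
    have s2 : Equiv.Perm.sign
      ((((Finite.equivFinOfCardEq hcard4).permCongrHom.toMonoidHom).comp
        (MulAction.toPermHom H (H ⧸ Subgroup.zpowers (⟨h₀, hh₀⟩ : H)))) (⟨x, hxH⟩ * ⟨a, haH⟩)) =
      Equiv.Perm.sign
      ((((Finite.equivFinOfCardEq hcard4).permCongrHom.toMonoidHom).comp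
        (MulAction.toPermHom H (H ⧸ Subgroup.zpowers (⟨h₀, hh₀⟩ : H)))) ⟨x, hxH⟩) := by
      rw [e2]; exact hconjsign _ _
    rw [map_mul, map_mul] at s2
    exact mul_left_cancel (s2.trans (mul_one _).symm)
  have hsign_x : Equiv.Perm.sign
      ((((Finite.equivFinOfCardEq hcard4).permCongrHom.toMonoidHom).comp
        (MulAction.toPermHom H (H ⧸ Subgroup.zpowers (⟨h₀, hh₀⟩ : H)))) ⟨x, hxH⟩) = 1 :=
    hsign_xa.trans hsign_a
  have hsign : ∀ y : H, Equiv.Perm.sign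
      ((((Finite.equivFinOfCardEq hcard4).permCongrHom.toMonoidHom).comp
        (MulAction.toPermHom H (H ⧸ Subgroup.zpowers (⟨h₀, hh₀⟩ : H)))) y) = 1 := by
    intro y
    obtain ⟨⟨k, c⟩, hkc⟩ := hcompl.2 y
    have hy : y = (k : H) * (c : H) := hkc.symm
    have hk : Equiv.Perm.sign
      ((((Finite.equivFinOfCardEq hcard4).permCongrHom.toMonoidHom).comp
        (MulAction.toPermHom H (H ⧸ Subgroup.zpowers (⟨h₀, hh₀⟩ : H)))) (k : H)) = 1 := by
      rcases hKmem (k : H) k.2 with h | h | h | h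
      · rw [h, map_one, map_one]
      · rw [h]; exact hsign_a
      · rw [h]; exact hsign_x
      · rw [h, map_mul, map_mul, hsign_x, hsign_a, one_mul]
    have hc : Equiv.Perm.sign
      ((((Finite.equivFinOfCardEq hcard4).permCongrHom.toMonoidHom).comp
        (MulAction.toPermHom H (H ⧸ Subgroup.zpowers (⟨h₀, hh₀⟩ : H)))) (c : H)) = 1 := by
      obtain ⟨i, hi⟩ := Subgroup.mem_zpowers_iff.1 c.2
      rw [← hi, map_zpow, map_zpow, hsign_h, one_zpow]
    rw [hy, map_mul, map_mul, hk, hc, one_mul]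
  have hψinj : Function.Injective
      ((((Finite.equivFinOfCardEq hcard4).permCongrHom.toMonoidHom).comp
        (MulAction.toPermHom H (H ⧸ Subgroup.zpowers (⟨h₀, hh₀⟩ : H)))).codRestrict
        (alternatingGroup (Fin 4)) (fun y => Equiv.Perm.mem_alternatingGroup.2 (hsign y))) := by
    intro y₁ y₂ h
    exact hφinj (congrArg Subtype.val h)
  have hbij := (Nat.bijective_iff_injective_and_card _).2 ⟨hψinj, by rw [hcardH, a4_card]⟩
  exact ⟨MulEquiv.ofBijective _ hbij⟩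


/-- Replace the generator of the cyclic quotient by one of odd order. -/
theorem odd_gen {G : Type*} [Group G] [Finite G] (H S : Subgroup G)
    (hSp : ∀ y ∈ H, (∃ k : ℕ, y ^ (2 ^ k) = 1) → y ∈ S)
    (h₀ : G) (hh₀ : h₀ ∈ H)
    (hgen : ∀ h ∈ H, ∃ s ∈ S, ∃ i : ℤ, h = s * h₀ ^ i) :
    ∃ h₁ ∈ H, ∃ b : ℕ, Odd b ∧ h₁ ^ b = 1 ∧ ∀ h ∈ H, ∃ s ∈ S, ∃ i : ℤ, h = s * h₁ ^ i := by
  obtain ⟨a, b, h2b, hab⟩ := Nat.exists_eq_pow_mul_and_not_dvd (orderOf_pos h₀).ne' 2 (by norm_num)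
  have hu : h₀ ^ b ∈ S := by
    apply hSp _ (H.pow_mem hh₀ b)
    refine ⟨a, ?_⟩
    rw [← pow_mul, mul_comm, ← hab, pow_orderOf_eq_one]
  have htb : (h₀ ^ (2 ^ a)) ^ b = 1 := by rw [← pow_mul, ← hab, pow_orderOf_eq_one]
  have hbodd : Odd b := Nat.odd_iff.2 (Nat.two_dvd_ne_zero.1 h2b)
  have hcop : IsCoprime ((2 ^ a : ℕ) : ℤ) (b : ℤ) :=
    Nat.isCoprime_iff_coprime.2 (Nat.Coprime.pow_left a (Nat.coprime_two_left.2 hbodd))
  obtain ⟨α, β, hαβ⟩ := hcop
  refine ⟨h₀ ^ (2 ^ a), H.pow_mem hh₀ _, b, hbodd, htb, ?_⟩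
  intro h hh
  obtain ⟨s, hs, i, hi⟩ := hgen h hh
  refine ⟨s * (h₀ ^ b) ^ (β * i), S.mul_mem hs (S.zpow_mem hu _), α * i, ?_⟩
  rw [hi, mul_assoc]
  congr 1
  rw [← zpow_natCast, ← zpow_natCast, ← zpow_mul, ← zpow_mul, ← zpow_add]
  congr 1
  linear_combination (-i) * hαβ

theorem core2 {G : Type*} [Group G] [Finite G] (P : Sylow 2 G)
    (hR : IsCyclic P ∨
      ((∃ n : ℕ, 1 ≤ n ∧ Nonempty ((P : Subgroup G) ≃* DihedralGroup (2 ^ n))) ∧
        ∀ K : Subgroup G, K ≤ P → Nat.card K = 4 → (∀ k ∈ K, k ^ 2 = 1) →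
          Subgroup.centralizer (K : Set G) = K))
    (H S : Subgroup G) (hSH : S ≤ H) (hSP : S ≤ P)
    (hSn : ∀ h ∈ H, ∀ s ∈ S, h * s * h⁻¹ ∈ S)
    (hSp : ∀ y ∈ H, (∃ k : ℕ, y ^ (2 ^ k) = 1) → y ∈ S)
    (h₀ : G) (hh₀ : h₀ ∈ H)
    (hgen : ∀ h ∈ H, ∃ s ∈ S, ∃ i : ℤ, h = s * h₀ ^ i) :
    IsCyclic H ∨ (∃ n : ℕ, Nonempty (H ≃* DihedralGroup (2 ^ n))) ∨
      Nonempty (H ≃* alternatingGroup (Fin 4)) := by
  obtain ⟨h₁, hh₁, b, hb, hh₁b, hgen₁⟩ := odd_gen H S hSp h₀ hh₀ hgen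
  have hP2 : ∀ y ∈ (P : Subgroup G), ∃ k : ℕ, y ^ (2 ^ k) = 1 := by
    intro y hy
    obtain ⟨k, hk⟩ := P.isPGroup' ⟨y, hy⟩
    exact ⟨k, by simpa using congrArg Subtype.val hk⟩
  have hodd1 : ∀ y : G, y ∈ (P : Subgroup G) → y ^ b = 1 → y = 1 := by
    intro y hy hyb
    obtain ⟨k, hk⟩ := hP2 y hy
    have h1 : orderOf y ∣ 2 ^ k := orderOf_dvd_of_pow_eq_one hk
    have h2 : orderOf y ∣ b := orderOf_dvd_of_pow_eq_one hyb
    have h3 : Nat.Coprime (2 ^ k) b := Nat.Coprime.pow_left k (Nat.coprime_two_left.2 hb)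
    exact orderOf_eq_one_iff.1 (Nat.eq_one_of_dvd_coprimes h3 h1 h2)
  by_cases hScyc : IsCyclic S
  · left
    obtain ⟨g, hg⟩ := hScyc.exists_generator
    obtain ⟨s₀, hs₀S⟩ := g
    have hSz : ∀ y ∈ S, y ∈ Subgroup.zpowers s₀ := by
      intro y hy
      obtain ⟨k, hk⟩ := Subgroup.mem_zpowers_iff.1 (hg ⟨y, hy⟩)
      exact Subgroup.mem_zpowers_iff.2 ⟨k, by simpa using congrArg Subtype.val hk⟩
    obtain ⟨m, hm⟩ : ∃ m, orderOf s₀ = 2 ^ m := by
      have := (IsPGroup.iff_orderOf.1 P.isPGroup') ⟨s₀, hSP hs₀S⟩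
      simpa [Subgroup.orderOf_mk] using this
    have hcomm : h₁ * s₀ = s₀ * h₁ := by
      have h1 := odd_auto_cyclic s₀ h₁ m b hm hb hh₁b (hSz _ (hSn h₁ hh₁ s₀ hs₀S))
      calc h₁ * s₀ = (h₁ * s₀ * h₁⁻¹) * h₁ := by group
        _ = s₀ * h₁ := by rw [h1]
    exact cyclic_of_centralizes H s₀ h₁ (hSH hs₀S) hh₁ ⟨m, hm⟩
      (fun y hy hk => hSz y (hSp y hy hk))
      (fun h hh => by
        obtain ⟨s, hs, i, hi⟩ := hgen₁ h hh
        exact ⟨s, hSz s hs, i, hi⟩) hcomm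
  · right
    rcases hR with hPc | ⟨⟨n, hn1, ⟨e⟩⟩, hK⟩
    · exact absurd (Subgroup.isCyclic_of_le hSP) hScyc
    obtain ⟨a, x, haS, hxS, hxx, hinv, hxa, hSmem⟩ :=
      dih_sub_struct (P : Subgroup G) n e S hSP hScyc
    obtain ⟨m, hm⟩ : ∃ m, orderOf a = 2 ^ m := by
      have := (IsPGroup.iff_orderOf.1 P.isPGroup') ⟨a, hSP haS⟩
      simpa [Subgroup.orderOf_mk] using this
    have hxinv : x⁻¹ = x := by rw [inv_eq_iff_eq_inv, eq_inv_iff_mul_eq_one]; exact hxx
    have hm1 : 1 ≤ m := by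
      by_contra hm0
      have hm0' : m = 0 := by omega
      rw [hm0', pow_zero, orderOf_eq_one_iff] at hm
      apply hScyc
      rw [isCyclic_iff_exists_zpowers_eq_top]
      refine ⟨⟨x, hxS⟩, ?_⟩
      rw [eq_top_iff]
      intro y _
      rcases hSmem y y.2 with ⟨k, hk⟩ | ⟨k, hk⟩
      · rw [hm, one_pow] at hk
        have : y = 1 := Subtype.ext hk
        rw [this]; exact Subgroup.one_mem _
      · rw [hm, one_pow, mul_one] at hk
        have : y = ⟨x, hxS⟩ := Subtype.ext hk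
        rw [this]; exact Subgroup.mem_zpowers _
    have hn0 : orderOf a ≠ 0 := (orderOf_pos a).ne'
    have hxak : ∀ k : ℕ, x * a ^ k * x⁻¹ = (a ^ k)⁻¹ := by
      intro k
      rw [← conj_pow, hinv, inv_pow]
    obtain ⟨z, hzdef⟩ : ∃ z, a ^ (orderOf a / 2) = z := ⟨_, rfl⟩
    have hz : orderOf z = 2 := by
      rw [← hzdef]
      apply orderOf_pow_orderOf_div hn0
      rw [hm]; exact dvd_pow_self 2 (by omega)
    have hzz : z * z = 1 := by rw [← pow_two, ← hz, pow_orderOf_eq_one]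
    have hzinv : z⁻¹ = z := by rw [inv_eq_iff_eq_inv, eq_inv_iff_mul_eq_one]; exact hzz
    have hxz : x * z = z * x := by
      have h1 := hxak (orderOf a / 2)
      rw [hzdef, hzinv] at h1
      calc x * z = (x * z * x⁻¹) * x := by group
        _ = z * x := by rw [h1]
    have hza : z ∈ Subgroup.zpowers a := by
      rw [← hzdef]; exact Subgroup.pow_mem _ (Subgroup.mem_zpowers a) _
    have hzS : z ∈ S := by rw [← hzdef]; exact S.pow_mem haS _
    have hxnz : x ∉ Subgroup.zpowers z := fun h => hxa ((Subgroup.zpowers_le.2 hza) h)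
    obtain ⟨hKcard, hKexp, hKmem⟩ := klein_four z x hz hxx hxz hxnz
    have hKS : Subgroup.closure ({z, x} : Set G) ≤ S := by
      rw [Subgroup.closure_le]
      rintro y (h | h)
      · rw [h]; exact hzS
      · rw [Set.mem_singleton_iff.1 h]; exact hxS
    have hKc := hK _ (hKS.trans hSP) hKcard hKexp
    have hstep : h₁ * a = a * h₁ → h₁ * x = x * h₁ := by
      intro hca
      have hcak : ∀ k : ℕ, h₁ * a ^ k * h₁⁻¹ = a ^ k := by
        intro k
        rw [← conj_pow]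
        congr 1
        calc h₁ * a * h₁⁻¹ = a * h₁ * h₁⁻¹ := by rw [hca]
          _ = a := by group
      rcases hSmem _ (hSn h₁ hh₁ x hxS) with ⟨k, hk⟩ | ⟨k, hk⟩
      · exfalso
        apply hxa
        have : x = a ^ k := by
          calc x = h₁⁻¹ * (h₁ * x * h₁⁻¹) * h₁ := by group
            _ = h₁⁻¹ * (h₁ * a ^ k * h₁⁻¹) * h₁ := by rw [hk, hcak]
            _ = a ^ k := by group
        rw [this]; exact Subgroup.pow_mem _ (Subgroup.mem_zpowers a) _
      · have hiter : ∀ j : ℕ, h₁ ^ j * x * (h₁ ^ j)⁻¹ = x * (a ^ k) ^ j := by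
          intro j
          induction j with
          | zero => simp
          | succ j ih =>
            calc h₁ ^ (j + 1) * x * (h₁ ^ (j + 1))⁻¹
                = h₁ * (h₁ ^ j * x * (h₁ ^ j)⁻¹) * h₁⁻¹ := by group
              _ = h₁ * (x * (a ^ k) ^ j) * h₁⁻¹ := by rw [ih]
              _ = (h₁ * x * h₁⁻¹) * (h₁ * a ^ (k * j) * h₁⁻¹) := by rw [← pow_mul]; group
              _ = x * a ^ k * a ^ (k * j) := by rw [hk, hcak]
              _ = x * (a ^ k) ^ (j + 1) := by rw [pow_succ', ← pow_mul, mul_assoc]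
        have h1 := hiter b
        rw [hh₁b, inv_one, one_mul, mul_one] at h1
        have h2 : (a ^ k) ^ b = 1 := mul_eq_left.1 h1.symm
        have h3 : a ^ k = 1 := hodd1 _ (hSP (S.pow_mem haS k)) h2
        rw [h3, mul_one] at hk
        calc h₁ * x = (h₁ * x * h₁⁻¹) * h₁ := by group
          _ = x * h₁ := by rw [hk]
    have hdih : h₁ * a = a * h₁ → ∃ n : ℕ, Nonempty (H ≃* DihedralGroup (2 ^ n)) := by
      intro hca
      have hcx := hstep hca
      have hh₁C : h₁ ∈ Subgroup.centralizer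
          ((Subgroup.closure ({z, x} : Set G) : Subgroup G) : Set G) := by
        rw [Subgroup.mem_centralizer_iff]
        intro y hy
        have hzc : z * h₁ = h₁ * z := by
          rw [← hzdef]
          exact ((show Commute a h₁ from hca.symm).pow_left _).eq
        rcases hKmem y hy with h | h | h | h
        · rw [h, one_mul, mul_one]
        · rw [h]; exact hzc
        · rw [h]; exact hcx.symm
        · rw [h]
          calc x * z * h₁ = x * (z * h₁) := by group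
            _ = x * (h₁ * z) := by rw [hzc]
            _ = (x * h₁) * z := by group
            _ = (h₁ * x) * z := by rw [hcx]
            _ = h₁ * (x * z) := by group
      rw [hKc] at hh₁C
      have hh₁1 : h₁ = 1 := hodd1 h₁ (hSP (hKS hh₁C)) hh₁b
      have hH : ∀ h ∈ H, (∃ k : ℕ, h = a ^ k) ∨ ∃ k : ℕ, h = x * a ^ k := by
        intro h hh
        obtain ⟨s, hs, i, hi⟩ := hgen₁ h hh
        rw [hh₁1, one_zpow, mul_one] at hi
        rw [hi]; exact hSmem s hs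
      obtain ⟨e'⟩ := dihedral_iso H a x (hSH haS) (hSH hxS) hn0 hxx hinv hxa hH
      refine ⟨m, ?_⟩
      rw [← hm]; exact ⟨e'⟩
    by_cases hca : h₁ * a = a * h₁
    · left; exact hdih hca
    · right
      have hconj_ne : h₁ * a * h₁⁻¹ ≠ a := by
        intro h; apply hca
        calc h₁ * a = (h₁ * a * h₁⁻¹) * h₁ := by group
          _ = a * h₁ := by rw [h]
      have hxk2 : ∀ k : ℕ, (x * a ^ k) * (x * a ^ k) = 1 := by
        intro k
        calc (x * a ^ k) * (x * a ^ k) = (x * a ^ k * x⁻¹) * (x * x) * a ^ k := by group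
          _ = 1 := by rw [hxak, hxx, mul_one, inv_mul_cancel]
      have hm_eq : m = 1 := by
        by_contra hne
        rcases hSmem _ (hSn h₁ hh₁ a haS) with ⟨k, hk⟩ | ⟨k, hk⟩
        · apply hconj_ne
          apply odd_auto_cyclic a h₁ m b hm hb hh₁b
          rw [hk]; exact Subgroup.pow_mem _ (Subgroup.mem_zpowers a) _
        · have h1 : (h₁ * a * h₁⁻¹) * (h₁ * a * h₁⁻¹) = 1 := by rw [hk]; exact hxk2 k
          have h2 : a * a = 1 := by
            calc a * a = h₁⁻¹ * ((h₁ * a * h₁⁻¹) * (h₁ * a * h₁⁻¹)) * h₁ := by group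
              _ = 1 := by rw [h1]; group
          have h3 : orderOf a ∣ 2 := orderOf_dvd_of_pow_eq_one (by rw [pow_two]; exact h2)
          rw [hm] at h3
          have h4 : 2 ^ m ≤ 2 := Nat.le_of_dvd (by norm_num) h3
          have h5 : 2 ^ 2 ≤ 2 ^ m := Nat.pow_le_pow_right (by norm_num) (by omega)
          omega
      rw [hm_eq, pow_one] at hm
      have haa : a * a = 1 := by rw [← pow_two, ← hm, pow_orderOf_eq_one]
      have hainv : a⁻¹ = a := by rw [inv_eq_iff_eq_inv, eq_inv_iff_mul_eq_one]; exact haa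
      have ha1 : a ≠ 1 := by
        intro h; rw [h, orderOf_one] at hm; omega
      have hxac : x * a = a * x := by
        calc x * a = (x * a * x⁻¹) * x := by group
          _ = a * x := by rw [hinv, hainv]
      have hak : ∀ k : ℕ, a ^ k = 1 ∨ a ^ k = a := by
        intro k
        rcases Nat.even_or_odd' k with ⟨l, rfl | rfl⟩
        · left; rw [pow_mul, pow_two, haa, one_pow]
        · right; rw [pow_succ, pow_mul, pow_two, haa, one_pow, one_mul]
      have hS4 : ∀ y ∈ S, y = 1 ∨ y = a ∨ y = x ∨ y = x * a := by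
        intro y hy
        rcases hSmem y hy with ⟨k, rfl⟩ | ⟨k, rfl⟩
        · rcases hak k with h | h
          · left; exact h
          · right; left; exact h
        · rcases hak k with h | h
          · right; right; left; rw [h, mul_one]
          · right; right; right; rw [h]
      have hu_props : ∀ u ∈ S, u ≠ 1 → u ≠ a → u * u = 1 ∧ u * a = a * u ∧
          u ∉ Subgroup.zpowers a ∧ ∀ y ∈ S, y = 1 ∨ y = a ∨ y = u ∨ y = u * a := by
        intro u hu hu1 hua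
        have hnz : u ∉ Subgroup.zpowers a := by
          intro h
          obtain ⟨k, hk⟩ := (mem_powers_iff_mem_zpowers).2 h
          have hk' : a ^ k = u := hk
          rcases hak k with h' | h'
          · exact hu1 (by rw [← hk']; exact h')
          · exact hua (by rw [← hk']; exact h')
        rcases hS4 u hu with h | h | h | h
        · exact absurd h hu1
        · exact absurd h hua
        · rw [h] at hnz ⊢
          exact ⟨hxx, hxac, hnz, hS4⟩
        · rw [h] at hnz ⊢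
          refine ⟨?_, ?_, hnz, ?_⟩
          · calc x * a * (x * a) = x * (a * x) * a := by group
              _ = x * (x * a) * a := by rw [hxac]
              _ = (x * x) * (a * a) := by group
              _ = 1 := by rw [hxx, haa, one_mul]
          · rw [← mul_assoc, ← hxac]
          · intro y hy
            rcases hS4 y hy with h | h | h | h
            · left; exact h
            · right; left; exact h
            · right; right; right; rw [h, mul_assoc, haa, mul_one]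
            · right; right; left; exact h
      obtain ⟨u, hu⟩ : ∃ u, h₁ * a * h₁⁻¹ = u := ⟨_, rfl⟩
      have huS : u ∈ S := hu ▸ hSn h₁ hh₁ a haS
      have hu1 : u ≠ 1 := by
        intro h; apply ha1
        calc a = h₁⁻¹ * (h₁ * a * h₁⁻¹) * h₁ := by group
          _ = 1 := by rw [hu, h]; group
      have hua : u ≠ a := fun h => hconj_ne (hu.trans h)
      obtain ⟨huu, huac, hunz, hSu⟩ := hu_props u huS hu1 hua
      have hwS : h₁ * u * h₁⁻¹ ∈ S := hSn h₁ hh₁ u huS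
      have hw : h₁ * u * h₁⁻¹ = u * a := by
        rcases hSu _ hwS with h | h | h | h
        · exfalso; apply hu1
          calc u = h₁⁻¹ * (h₁ * u * h₁⁻¹) * h₁ := by group
            _ = 1 := by rw [h]; group
        · exfalso; apply hca
          have h2 : Commute (h₁ * h₁) a := by
            show h₁ * h₁ * a = a * (h₁ * h₁)
            calc h₁ * h₁ * a = (h₁ * (h₁ * a * h₁⁻¹) * h₁⁻¹) * (h₁ * h₁) := by group
              _ = a * (h₁ * h₁) := by rw [hu, h]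
          obtain ⟨c, hc⟩ := hb
          have h3 : h₁ = (h₁ * h₁) ^ (c + 1) := by
            rw [← pow_two, ← pow_mul]
            have : 2 * (c + 1) = b + 1 := by omega
            rw [this, pow_succ, hh₁b, one_mul]
          have h4 := (h2.pow_left (c + 1)).eq
          rw [← h3] at h4
          exact h4
        · exfalso; apply hua
          calc u = h₁⁻¹ * (h₁ * u * h₁⁻¹) * h₁ := by group
            _ = h₁⁻¹ * u * h₁ := by rw [h]
            _ = h₁⁻¹ * (h₁ * a * h₁⁻¹) * h₁ := by rw [hu]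
            _ = a := by group
        · exact h
      have hw2 : h₁ * (u * a) * h₁⁻¹ = a := by
        calc h₁ * (u * a) * h₁⁻¹ = (h₁ * u * h₁⁻¹) * (h₁ * a * h₁⁻¹) := by group
          _ = u * a * u := by rw [hw, hu]
          _ = a * u * u := by rw [huac]
          _ = a := by rw [mul_assoc, huu, mul_one]
      have hcube : h₁ ^ 3 = h₁ * h₁ * h₁ := by rw [pow_succ, pow_two]
      have hcube_a : h₁ ^ 3 * a = a * h₁ ^ 3 := by
        rw [hcube]
        calc h₁ * h₁ * h₁ * a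
            = h₁ * (h₁ * (h₁ * a * h₁⁻¹) * h₁⁻¹) * h₁⁻¹ * (h₁ * h₁ * h₁) := by group
          _ = a * (h₁ * h₁ * h₁) := by rw [hu, hw, hw2]
      have hcube_u : h₁ ^ 3 * u = u * h₁ ^ 3 := by
        rw [hcube]
        calc h₁ * h₁ * h₁ * u
            = h₁ * (h₁ * (h₁ * u * h₁⁻¹) * h₁⁻¹) * h₁⁻¹ * (h₁ * h₁ * h₁) := by group
          _ = u * (h₁ * h₁ * h₁) := by rw [hw, hw2, hu]
      obtain ⟨hK'card, hK'exp, hK'mem⟩ := klein_four a u hm huu huac hunz
      have hK'S : Subgroup.closure ({a, u} : Set G) ≤ S := by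
        rw [Subgroup.closure_le]
        rintro y (rfl | rfl)
        · exact haS
        · exact huS
      have hK'c := hK _ (hK'S.trans hSP) hK'card hK'exp
      have hcubeC : h₁ ^ 3 ∈ Subgroup.centralizer
          ((Subgroup.closure ({a, u} : Set G) : Subgroup G) : Set G) := by
        rw [Subgroup.mem_centralizer_iff]
        intro y hy
        rcases hK'mem y hy with h | h | h | h
        · rw [h, one_mul, mul_one]
        · rw [h]; exact hcube_a.symm
        · rw [h]; exact hcube_u.symm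
        · rw [h]
          calc u * a * h₁ ^ 3 = u * (a * h₁ ^ 3) := by group
            _ = u * (h₁ ^ 3 * a) := by rw [← hcube_a]
            _ = (u * h₁ ^ 3) * a := by group
            _ = (h₁ ^ 3 * u) * a := by rw [← hcube_u]
            _ = h₁ ^ 3 * (u * a) := by group
      rw [hK'c] at hcubeC
      have hcube1 : h₁ ^ 3 = 1 := by
        apply hodd1 _ (hSP (hK'S hcubeC))
        rw [← pow_mul, mul_comm, pow_mul, hh₁b, one_pow]
      have hgen' : ∀ h ∈ H, ∃ s : G, (s = 1 ∨ s = a ∨ s = u ∨ s = u * a) ∧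
          ∃ i : ℤ, h = s * h₁ ^ i := by
        intro h hh
        obtain ⟨s, hs, i, hi⟩ := hgen₁ h hh
        exact ⟨s, hSu s hs, i, hi⟩
      exact a4_iso H a u h₁ (hSH haS) (hSH huS) hh₁ hm huu huac hunz hu hw hcube1 hgen'

theorem core2_conj {G : Type*} [Group G] [Finite G] (P : Sylow 2 G)
    (hR : IsCyclic P ∨
      ((∃ n : ℕ, 1 ≤ n ∧ Nonempty ((P : Subgroup G) ≃* DihedralGroup (2 ^ n))) ∧
        ∀ K : Subgroup G, K ≤ P → Nat.card K = 4 → (∀ k ∈ K, k ^ 2 = 1) →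
          Subgroup.centralizer (K : Set G) = K))
    (H S : Subgroup G) (hSH : S ≤ H) (g : G) (hSP : ∀ s ∈ S, g⁻¹ * s * g ∈ (P : Subgroup G))
    (hSn : ∀ h ∈ H, ∀ s ∈ S, h * s * h⁻¹ ∈ S)
    (hSp : ∀ y ∈ H, (∃ k : ℕ, y ^ (2 ^ k) = 1) → y ∈ S)
    (h₀ : G) (hh₀ : h₀ ∈ H)
    (hgen : ∀ h ∈ H, ∃ s ∈ S, ∃ i : ℤ, h = s * h₀ ^ i) :
    IsCyclic H ∨ (∃ n : ℕ, Nonempty (H ≃* DihedralGroup (2 ^ n))) ∨
      Nonempty (H ≃* alternatingGroup (Fin 4)) := by
  have hφa : ∀ y, (MulAut.conj g⁻¹ : G ≃* G) y = g⁻¹ * y * g := by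
    intro y; simp
  have key := core2 P hR (H.map ((MulAut.conj g⁻¹ : G ≃* G) : G →* G))
    (S.map ((MulAut.conj g⁻¹ : G ≃* G) : G →* G)) (Subgroup.map_mono hSH)
    (by
      rintro _ ⟨s, hs, rfl⟩
      show (MulAut.conj g⁻¹ : G ≃* G) s ∈ _
      rw [hφa]; exact hSP s hs)
    (by
      rintro _ ⟨h, hh, rfl⟩ _ ⟨s, hs, rfl⟩
      refine ⟨h * s * h⁻¹, hSn h hh s hs, ?_⟩
      rw [map_mul, map_mul]
      congr 1
      exact map_inv ((MulAut.conj g⁻¹ : G ≃* G) : G →* G) h)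
    (by
      rintro _ ⟨y, hy, rfl⟩ ⟨k, hk⟩
      refine ⟨y, hSp y hy ⟨k, ?_⟩, rfl⟩
      apply (MulAut.conj g⁻¹ : G ≃* G).injective
      rw [map_pow, map_one]; exact hk)
    ((MulAut.conj g⁻¹ : G ≃* G) h₀) ⟨h₀, hh₀, rfl⟩
    (by
      rintro _ ⟨h, hh, rfl⟩
      obtain ⟨s, hs, i, hi⟩ := hgen h hh
      refine ⟨(MulAut.conj g⁻¹ : G ≃* G) s, ⟨s, hs, rfl⟩, i, ?_⟩
      rw [hi, map_mul, map_zpow]; rfl)
  rcases key with hc | ⟨n, ⟨e⟩⟩ | ⟨⟨e⟩⟩
  · left
    exact (MulEquiv.subgroupMap (MulAut.conj g⁻¹ : G ≃* G) H).isCyclic.2 hc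
  · right; left
    exact ⟨n, ⟨(MulEquiv.subgroupMap (MulAut.conj g⁻¹ : G ≃* G) H).trans e⟩⟩
  · right; right
    exact ⟨(MulEquiv.subgroupMap (MulAut.conj g⁻¹ : G ≃* G) H).trans e⟩

theorem backward {G : Type*} [Group G] [Finite G] (P : Sylow 2 G)
    (hR : IsCyclic P ∨
      ((∃ n : ℕ, 1 ≤ n ∧ Nonempty ((P : Subgroup G) ≃* DihedralGroup (2 ^ n))) ∧
        ∀ K : Subgroup G, K ≤ P → Nat.card K = 4 → (∀ k ∈ K, k ^ 2 = 1) →
          Subgroup.centralizer (K : Set G) = K))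
    (H : Subgroup G) (hS : ∀ S : Sylow 2 ↥H, (S : Subgroup ↥H).Normal)
    (hC : ∀ (S : Sylow 2 ↥H) [(S : Subgroup ↥H).Normal], IsCyclic (↥H ⧸ (S : Subgroup ↥H))) :
    IsCyclic H ∨ (∃ n : ℕ, Nonempty (H ≃* DihedralGroup (2 ^ n))) ∨
      Nonempty (H ≃* alternatingGroup (Fin 4)) := by
  obtain ⟨S₀⟩ : Nonempty (Sylow 2 ↥H) := inferInstance
  have hS₀n : (S₀ : Subgroup ↥H).Normal := hS S₀
  have hcyc : IsCyclic (↥H ⧸ (S₀ : Subgroup ↥H)) := hC S₀
  obtain ⟨c, hc⟩ := hcyc.exists_generator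
  obtain ⟨h₀, rfl⟩ := QuotientGroup.mk_surjective c
  have hS'p : IsPGroup 2 ((S₀ : Subgroup ↥H).map H.subtype) := S₀.isPGroup'.map _
  obtain ⟨P₁, hP₁⟩ := hS'p.exists_le_sylow
  obtain ⟨g, hg⟩ := MulAction.exists_smul_eq G P P₁
  apply core2_conj P hR H ((S₀ : Subgroup ↥H).map H.subtype) (Subgroup.map_subtype_le _) g
    ?_ ?_ ?_ (h₀ : G) h₀.2 ?_
  · intro s hs
    have h1 : s ∈ (P₁ : Subgroup G) := hP₁ hs
    rw [← hg, Sylow.coe_subgroup_smul, Subgroup.mem_pointwise_smul_iff_inv_smul_mem] at h1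
    simpa [MulAut.smul_def] using h1
  · rintro h hh _ ⟨s, hs, rfl⟩
    refine ⟨⟨h, hh⟩ * s * ⟨h, hh⟩⁻¹, hS₀n.conj_mem s hs ⟨h, hh⟩, ?_⟩
    simp
  · rintro y hy ⟨k, hk⟩
    refine ⟨⟨y, hy⟩, ?_, rfl⟩
    have hy'k : (⟨y, hy⟩ : ↥H) ^ (2 ^ k) = 1 := Subtype.ext (by simpa using hk)
    have hz : IsPGroup 2 (Subgroup.zpowers (⟨y, hy⟩ : ↥H)) := by
      rintro ⟨z, hz⟩
      obtain ⟨j, rfl⟩ := Subgroup.mem_zpowers_iff.1 hz
      refine ⟨k, ?_⟩
      apply Subtype.ext
      show ((⟨y, hy⟩ : ↥H) ^ j) ^ (2 ^ k) = 1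
      rw [← zpow_natCast, ← zpow_mul, mul_comm, zpow_mul, zpow_natCast, hy'k, one_zpow]
    have h1 : IsPGroup 2 ((S₀ : Subgroup ↥H) ⊔ Subgroup.zpowers (⟨y, hy⟩ : ↥H) : Subgroup ↥H) :=
      S₀.isPGroup'.to_sup_of_normal_left hz
    have h2 := S₀.is_maximal' h1 le_sup_left
    rw [SetLike.mem_coe, ← h2]
    exact Subgroup.mem_sup_right (Subgroup.mem_zpowers _)
  · intro h hh
    obtain ⟨i, hi⟩ := Subgroup.mem_zpowers_iff.1 (hc (QuotientGroup.mk ⟨h, hh⟩))
    have h1 : (⟨h, hh⟩ : ↥H) * (h₀ ^ i)⁻¹ ∈ (S₀ : Subgroup ↥H) := by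
      have h2 : ((h₀ ^ i : ↥H) : ↥H ⧸ (S₀ : Subgroup ↥H)) =
          ((⟨h, hh⟩ : ↥H) : ↥H ⧸ (S₀ : Subgroup ↥H)) := by
        rw [QuotientGroup.mk_zpow]; exact hi
      have h3 := QuotientGroup.eq.1 h2
      have h4 := hS₀n.conj_mem _ h3 (h₀ ^ i)
      simpa [mul_assoc] using h4
    refine ⟨_, ⟨_, h1, rfl⟩, i, ?_⟩
    simp

theorem forward {G : Type*} [Group G] [Finite G] (P : Sylow 2 G)
    (hL : ∀ H : Subgroup G, (∀ S : Sylow 2 ↥H, (S : Subgroup ↥H).Normal) →
        (∀ (S : Sylow 2 ↥H) [(S : Subgroup ↥H).Normal], IsCyclic (↥H ⧸ (S : Subgroup ↥H))) →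
        IsCyclic H ∨ (∃ n : ℕ, Nonempty (H ≃* DihedralGroup (2 ^ n))) ∨
          Nonempty (H ≃* alternatingGroup (Fin 4))) :
    IsCyclic P ∨
      ((∃ n : ℕ, 1 ≤ n ∧ Nonempty ((P : Subgroup G) ≃* DihedralGroup (2 ^ n))) ∧
        ∀ K : Subgroup G, K ≤ P → Nat.card K = 4 → (∀ k ∈ K, k ^ 2 = 1) →
          Subgroup.centralizer (K : Set G) = K) := by
  have hPhi := phi_of_sup_zpowers' (P : Subgroup G) P.isPGroup' 1 (P : Subgroup G) le_rfl
      (Subgroup.one_mem _) le_sup_left Subgroup.le_normalizer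
  by_cases hPc : IsCyclic P
  · left; exact hPc
  · right
    constructor
    · rcases hL _ hPhi.1 hPhi.2 with hc | ⟨n, ⟨e⟩⟩ | ⟨⟨e⟩⟩
      · exact absurd hc hPc
      · refine ⟨n, ?_, ⟨e⟩⟩
        by_contra hn
        have hn0 : n = 0 := by omega
        apply hPc
        subst hn0
        have h1 : IsCyclic (DihedralGroup (2 ^ 0)) := by
          rw [DihedralGroup.isCyclic_iff, pow_zero]
        exact e.isCyclic.2 h1
      · exfalso
        have h1 : Nat.card (P : Subgroup G) = 12 := by rw [Nat.card_congr e.toEquiv, a4_card]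
        obtain ⟨k, hk⟩ := (IsPGroup.iff_card.1 P.isPGroup')
        have hk' : (12 : ℕ) = 2 ^ k := h1.symm.trans hk
        have h3 : 3 ∣ 2 ^ k := by rw [← hk']; norm_num
        have h4 := Nat.Prime.dvd_of_dvd_pow Nat.prime_three h3
        omega
    · intro K hKP hK4 hKexp
      have hKp : IsPGroup 2 K := P.isPGroup'.to_le hKP
      have hinvK : ∀ k ∈ K, k⁻¹ = k := by
        intro k hk
        rw [inv_eq_iff_eq_inv, eq_inv_iff_mul_eq_one, ← pow_two]; exact hKexp k hk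
      have hKcomm : ∀ k₁ ∈ K, ∀ k₂ ∈ K, k₁ * k₂ = k₂ * k₁ := by
        intro k₁ h₁ k₂ h₂
        have h3 := hinvK _ (K.mul_mem h₁ h₂)
        rw [mul_inv_rev, hinvK k₁ h₁, hinvK k₂ h₂] at h3
        exact h3.symm
      have hKle : K ≤ Subgroup.centralizer (K : Set G) := by
        intro k hk
        rw [Subgroup.mem_centralizer_iff]
        intro k' hk'
        exact hKcomm k' hk' k hk
      apply le_antisymm _ hKle
      intro x hx
      have hxK : ∀ k ∈ K, k * x = x * k := Subgroup.mem_centralizer_iff.1 hx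
      have hle : K ⊔ Subgroup.zpowers x ≤ Subgroup.normalizer (K : Set G) :=
        sup_le Subgroup.le_normalizer
          (Subgroup.zpowers_le.2 (Subgroup.centralizer_le_normalizer _ hx))
      have hxH : x ∈ K ⊔ Subgroup.zpowers x := Subgroup.mem_sup_right (Subgroup.mem_zpowers x)
      obtain ⟨h1, h2⟩ :=
        phi_of_sup_zpowers' K hKp x (K ⊔ Subgroup.zpowers x) le_sup_left hxH le_rfl hle
      have hHK : K ⊔ Subgroup.zpowers x ≤ Subgroup.centralizer (K : Set G) :=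
        sup_le hKle (Subgroup.zpowers_le.2 hx)
      have hHx : K ⊔ Subgroup.zpowers x ≤
          Subgroup.centralizer ((Subgroup.zpowers x : Subgroup G) : Set G) := by
        refine sup_le ?_ ?_
        · intro k hk
          rw [Subgroup.mem_centralizer_iff]
          intro y hy
          obtain ⟨j, rfl⟩ := Subgroup.mem_zpowers_iff.1 hy
          exact ((show Commute x k from (hxK k hk).symm).zpow_left j).eq
        · rw [Subgroup.zpowers_le, Subgroup.mem_centralizer_iff]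
          intro y hy
          obtain ⟨j, rfl⟩ := Subgroup.mem_zpowers_iff.1 hy
          exact ((Commute.refl x).zpow_left j).eq
      have hHcomm : ∀ u ∈ K ⊔ Subgroup.zpowers x, ∀ v ∈ K ⊔ Subgroup.zpowers x,
          u * v = v * u := by
        intro u hu v hv
        have h3 : K ⊔ Subgroup.zpowers x ≤
            Subgroup.centralizer ((K ⊔ Subgroup.zpowers x : Subgroup G) : Set G) := by
          refine sup_le ?_ ?_
          · exact Subgroup.le_centralizer_iff.1 hHK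
          · exact Subgroup.le_centralizer_iff.1 hHx
        exact (Subgroup.mem_centralizer_iff.1 (h3 hv) u hu)
      rcases hL _ h1 h2 with hc | ⟨n, ⟨e⟩⟩ | ⟨⟨e⟩⟩
      · exfalso
        have hKc : IsCyclic K :=
          Subgroup.isCyclic_of_le (le_sup_left : K ≤ K ⊔ Subgroup.zpowers x)
        obtain ⟨g, hg⟩ := hKc.exists_generator
        have h3 : orderOf g = 4 := by rw [orderOf_eq_card_of_forall_mem_zpowers hg, hK4]
        have h4 : g ^ 2 = 1 := Subtype.ext (by simpa using hKexp g g.2)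
        have h5 := orderOf_dvd_of_pow_eq_one h4
        rw [h3] at h5
        omega
      · have hcommD : ∀ u v : DihedralGroup (2 ^ n), u * v = v * u := by
          intro u v
          have h3 := hHcomm (e.symm u) (e.symm u).2 (e.symm v) (e.symm v).2
          have h' : e.symm u * e.symm v = e.symm v * e.symm u := Subtype.ext h3
          have h4 := congrArg e h'
          simpa using h4
        have hn2 : 2 ^ n = 1 ∨ 2 ^ n = 2 :=
          DihedralGroup.commutative_iff.1 (isMulCommutative_iff.2 hcommD)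
        have hcardH : Nat.card (K ⊔ Subgroup.zpowers x : Subgroup G) ≤ 4 := by
          rw [Nat.card_congr e.toEquiv, DihedralGroup.nat_card]
          rcases hn2 with h | h <;> rw [h] <;> norm_num
        have hEq : K = K ⊔ Subgroup.zpowers x :=
          Subgroup.eq_of_le_of_card_ge le_sup_left (by rw [hK4]; exact hcardH)
        rw [hEq]; exact hxH
      · exfalso
        apply a4_not_comm
        intro u v
        have h3 := hHcomm (e.symm u) (e.symm u).2 (e.symm v) (e.symm v).2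
        have h' : e.symm u * e.symm v = e.symm v * e.symm u := Subtype.ext h3
        have h4 := congrArg e h'
        simpa using h4

/-- Let G be a finite group with Sylow 2-subgroup P. Every subgroup H of G whose Sylow 2-subgroup is normal in H with cyclic quotient is cyclic, dihedral of 2-power order, or isomorphic to the alternating group of degree 4, if and only if either P is cyclic, or P is dihedral (of order at least 4) and every elementary abelian subgroup K of order 4 of P satisfies C_G(K) = K. -/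
theorem result {G : Type*} [Group G] [Finite G] (P : Sylow 2 G) :
    (∀ H : Subgroup G, (∀ S : Sylow 2 ↥H, (S : Subgroup ↥H).Normal) →
        (∀ (S : Sylow 2 ↥H) [(S : Subgroup ↥H).Normal], IsCyclic (↥H ⧸ (S : Subgroup ↥H))) →
        IsCyclic H ∨ (∃ n : ℕ, Nonempty (H ≃* DihedralGroup (2 ^ n))) ∨ Nonempty (H ≃* alternatingGroup (Fin 4))) ↔
    (IsCyclic P ∨
      ((∃ n : ℕ, 1 ≤ n ∧ Nonempty ((P : Subgroup G) ≃* DihedralGroup (2 ^ n))) ∧
        ∀ K : Subgroup G, K ≤ P → Nat.card K = 4 → (∀ k ∈ K, k ^ 2 = 1) → Subgroup.centralizer (K : Set G) = K)) :=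
  ⟨forward P, fun hR H hS hC => backward P hR H hS hC⟩

end Cfsg.Agent.S4083
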