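import Mathlib
import Cfsg.Statements.S4084

set_option autoImplicit false
open Cfsg

namespace Cfsg.Agent.S4084

/-- The double centralizer of an element. -/
def cc {K : Type*} [Group K] (g : K) : Subgroup K :=
  Subgroup.centralizer (Subgroup.centralizer ({g} : Set K) : Set K)

theorem mem_cc_iff {K : Type*} [Group K] (g y : K) :
    y ∈ cc g ↔ ∀ w : K, Commute w g → Commute w y := by
  unfold cc
  rw [Subgroup.mem_centralizer_iff]
  constructor
  · intro h w hw
    apply h
    rw [SetLike.mem_coe, Subgroup.mem_centralizer_iff]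
    intro z hz
    rw [Set.mem_singleton_iff] at hz
    rw [hz]
    exact hw.symm.eq
  · intro h w hw
    rw [SetLike.mem_coe, Subgroup.mem_centralizer_iff] at hw
    have : Commute w g := (hw g (Set.mem_singleton g)).symm
    exact (h w this).eq

theorem self_mem_cc {K : Type*} [Group K] (g : K) : g ∈ cc g := by
  rw [mem_cc_iff]
  intro w hw
  exact hw

theorem commute_of_mem_cc {K : Type*} [Group K] (g : K) {y z : K} (hy : y ∈ cc g) (hz : z ∈ cc g) :
    Commute y z := by
  rw [mem_cc_iff] at hy hz
  have h1 : Commute y g := (hy g (Commute.refl g)).symm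
  exact hz y h1

theorem one_dir {G H : Type*} [Group G] [Finite G] [Group H] [Finite H] (e : G ≃ H)
    (he : ∀ x y : G, Commute x y ↔ Commute (e x) (e y))
    {p q : ℕ} (hp : p.Prime) (hq : q.Prime) (hpq : p ≠ q) :
    (∃ g : G, orderOf g = p * q) → (∃ h : H, orderOf h = p * q) := by
  rintro ⟨g, hg⟩
  have hcard : Nat.card (cc g) = Nat.card (cc (e g)) := by
    apply Nat.card_congr
    refine Equiv.subtypeEquiv e ?_
    intro y
    change y ∈ cc g ↔ e y ∈ cc (e g)
    rw [mem_cc_iff, mem_cc_iff]
    constructor
    · intro h w hw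
      obtain ⟨w', rfl⟩ := e.surjective w
      rw [← he] at hw ⊢
      exact h w' hw
    · intro h w hw
      rw [he] at hw ⊢
      exact h (e w) hw
  have hdvd : p * q ∣ Nat.card (cc (e g)) := by
    rw [← hcard, ← hg]
    have := Subgroup.orderOf_dvd_natCard (cc g) (self_mem_cc g)
    exact this
  have : Fact p.Prime := ⟨hp⟩
  have : Fact q.Prime := ⟨hq⟩
  obtain ⟨x, hx⟩ := exists_prime_orderOf_dvd_card' (G := cc (e g)) p ((Dvd.intro _ rfl).trans hdvd)
  obtain ⟨y, hy⟩ := exists_prime_orderOf_dvd_card' (G := cc (e g)) q ((Dvd.intro_left _ rfl).trans hdvd)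
  refine ⟨(x : H) * (y : H), ?_⟩
  have hc : Commute (x : H) (y : H) := commute_of_mem_cc (e g) x.2 y.2
  have hx' : orderOf (x : H) = p := by rw [Subgroup.orderOf_coe]; exact hx
  have hy' : orderOf (y : H) = q := by rw [Subgroup.orderOf_coe]; exact hy
  rw [hc.orderOf_mul_eq_mul_orderOf_of_coprime, hx', hy']
  rw [hx', hy']
  exact (Nat.coprime_primes hp hq).2 hpq

/-- Let G and H be finite groups whose commuting graphs are isomorphic: there is a bijection e : G → H with x, y commuting exactly when e(x), e(y) commute. Then G and H have the same prime graph: for distinct primes p, q, G has an element of order pq if and only if H does (and #G = #H, so the prime divisors agree). -/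
theorem result {G H : Type*} [Group G] [Finite G] [Group H] [Finite H] (e : G ≃ H)
    (he : ∀ x y : G, Commute x y ↔ Commute (e x) (e y))
    {p q : ℕ} (hp : p.Prime) (hq : q.Prime) (hpq : p ≠ q) :
    (∃ g : G, orderOf g = p * q) ↔ (∃ h : H, orderOf h = p * q) := by
  constructor
  · exact one_dir e he hp hq hpq
  · apply one_dir e.symm _ hp hq hpq
    intro x y
    rw [he]
    simp

end Cfsg.Agent.S4084
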