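import Cfsg.Statements.S4086

set_option autoImplicit false
open Cfsg

namespace Cfsg.Agent.S4086

/-- In a finite group, if `x = g^a`, `y = g^b` and `orderOf x ∣ orderOf y` then `x ∈ zpowers y`. -/
theorem mem_zpowers_of_orderOf_dvd {G : Type*} [Group G] [Finite G] (g : G) (a b : ℕ)
    (h : orderOf (g ^ a) ∣ orderOf (g ^ b)) : g ^ a ∈ Subgroup.zpowers (g ^ b) := by
  rw [orderOf_pow, orderOf_pow] at h
  set n := orderOf g with hn
  have hn0 : 0 < n := orderOf_pos g
  have hda : Nat.gcd n a ∣ n := Nat.gcd_dvd_left n a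
  have hdb : Nat.gcd n b ∣ n := Nat.gcd_dvd_left n b
  have hdvd : Nat.gcd n b ∣ Nat.gcd n a := by
    obtain ⟨A, hA⟩ := hda
    obtain ⟨B, hB⟩ := hdb
    have hApos : 0 < A := by
      rcases Nat.eq_zero_or_pos A with h0 | h0
      · rw [h0, Nat.mul_zero] at hA; omega
      · exact h0
    have hga : 0 < Nat.gcd n a := Nat.gcd_pos_of_pos_left a hn0
    have hgb : 0 < Nat.gcd n b := Nat.gcd_pos_of_pos_left b hn0
    have h1 : n / Nat.gcd n a = A :=
      Nat.div_eq_of_eq_mul_right hga hA
    have h2 : n / Nat.gcd n b = B :=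
      Nat.div_eq_of_eq_mul_right hgb hB
    rw [h1, h2] at h
    obtain ⟨t, ht⟩ := h
    refine ⟨t, ?_⟩
    have : Nat.gcd n a * A = Nat.gcd n b * t * A := by
      calc Nat.gcd n a * A = n := hA.symm
        _ = Nat.gcd n b * B := hB
        _ = Nat.gcd n b * (A * t) := by rw [ht]
        _ = Nat.gcd n b * t * A := by ring
    exact Nat.eq_of_mul_eq_mul_right hApos this
  have hdvd' : Nat.gcd n b ∣ a := hdvd.trans (Nat.gcd_dvd_right n a)
  obtain ⟨t, ht⟩ := hdvd'
  have key : g ^ (Nat.gcd n b) ∈ Subgroup.zpowers (g ^ b) := by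
    have hbez := Nat.gcd_eq_gcd_ab n b
    refine ⟨Nat.gcdB n b, ?_⟩
    have : (g ^ b) ^ (Nat.gcdB n b) = g ^ ((Nat.gcd n b : ℕ) : ℤ) := by
      rw [hbez, zpow_add, zpow_mul, zpow_natCast, hn, pow_orderOf_eq_one, one_zpow, one_mul,
        ← zpow_natCast g b, ← zpow_mul]
    simpa using this
  rw [ht, pow_mul]
  exact Subgroup.pow_mem _ key t

theorem comparable_of_mem_zpowers_of_primePow {G : Type*} [Group G] [Finite G] (g x y : G)
    (hx : x ∈ Subgroup.zpowers g) (hy : y ∈ Subgroup.zpowers g)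
    (hg : IsPrimePow (orderOf g)) :
    x ∈ Subgroup.zpowers y ∨ y ∈ Subgroup.zpowers x := by
  obtain ⟨p, k, hp, hk, hpk⟩ := hg
  have hp' : Nat.Prime p := hp.nat_prime
  have hox : orderOf x ∣ p ^ k := hpk ▸ orderOf_dvd_of_mem_zpowers hx
  have hoy : orderOf y ∣ p ^ k := hpk ▸ orderOf_dvd_of_mem_zpowers hy
  obtain ⟨i, hi, hxi⟩ := (Nat.dvd_prime_pow hp').1 hox
  obtain ⟨j, hj, hyj⟩ := (Nat.dvd_prime_pow hp').1 hoy
  rw [← (isOfFinOrder_of_finite g).mem_powers_iff_mem_zpowers] at hx hy
  obtain ⟨a, rfl⟩ := hx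
  obtain ⟨b, rfl⟩ := hy
  rcases le_total i j with hij | hij
  · left
    apply mem_zpowers_of_orderOf_dvd
    rw [hxi, hyj]
    exact pow_dvd_pow p hij
  · right
    apply mem_zpowers_of_orderOf_dvd
    rw [hxi, hyj]
    exact pow_dvd_pow p hij

/-- For a finite group G the following are equivalent: every non-identity element has prime-power order; whenever two elements generate a cyclic subgroup, one of them is a power of the other (the enhanced power graph of G coincides with its power graph). -/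
theorem result {G : Type*} [Group G] [Finite G] :
    (∀ g : G, g ≠ 1 → IsPrimePow (orderOf g)) ↔
    (∀ x y : G, IsCyclic ↥(Subgroup.closure ({x, y} : Set G)) → (x ∈ Subgroup.zpowers y ∨ y ∈ Subgroup.zpowers x)) := by
  constructor
  · intro h x y hcyc
    obtain ⟨c, hc⟩ := hcyc.exists_generator
    have hxmem : x ∈ Subgroup.closure ({x, y} : Set G) := Subgroup.subset_closure (by simp)
    have hymem : y ∈ Subgroup.closure ({x, y} : Set G) := Subgroup.subset_closure (by simp)
    have hx : x ∈ Subgroup.zpowers (c : G) := by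
      obtain ⟨n, hn⟩ := hc ⟨x, hxmem⟩
      exact ⟨n, by simpa using congrArg Subtype.val hn⟩
    have hy : y ∈ Subgroup.zpowers (c : G) := by
      obtain ⟨n, hn⟩ := hc ⟨y, hymem⟩
      exact ⟨n, by simpa using congrArg Subtype.val hn⟩
    by_cases hc1 : (c : G) = 1
    · left
      rw [hc1] at hx
      have : x = 1 := by simpa using hx
      rw [this]
      exact Subgroup.one_mem _
    · exact comparable_of_mem_zpowers_of_primePow (c : G) x y hx hy (h _ hc1)
  · intro h g hg
    by_contra hnpp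
    set n := orderOf g with hn
    have hn0 : 0 < n := orderOf_pos g
    have hn1 : n ≠ 1 := by
      intro h1
      exact hg (orderOf_eq_one_iff.1 h1)
    -- pick a prime p dividing n, write n = p^k * m with m coprime to p
    obtain ⟨p, hp, hpn⟩ := Nat.exists_prime_and_dvd hn1
    obtain ⟨k, m, hpm, hnkm⟩ := Nat.exists_eq_pow_mul_and_not_dvd hn0.ne' p hp.ne_one
    have hk : 0 < k := by
      rcases Nat.eq_zero_or_pos k with h0 | h0
      · rw [h0, pow_zero, one_mul] at hnkm
        rw [hnkm] at hpn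
        exact absurd hpn hpm
      · exact h0
    have hm1 : m ≠ 1 := by
      intro h1
      apply hnpp
      rw [hnkm, h1, mul_one]
      exact ⟨p, k, hp.prime, hk, rfl⟩
    have hcop : Nat.Coprime (p ^ k) m := Nat.Coprime.pow_left k ((Nat.Prime.coprime_iff_not_dvd hp).2 hpm)
    have hm0 : 0 < m := by
      rcases Nat.eq_zero_or_pos m with h0 | h0
      · rw [h0, mul_zero] at hnkm; omega
      · exact h0
    have hpk1 : p ^ k ≠ 1 := by
      intro h1
      have := Nat.pow_eq_one.1 h1
      rcases this with h2 | h2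
      · exact hp.ne_one h2
      · omega
    -- x = g ^ (p^k) has order m, y = g ^ m has order p^k
    have hox : orderOf (g ^ (p ^ k)) = m := by
      rw [orderOf_pow, ← hn, hnkm, Nat.gcd_eq_right (Dvd.intro _ rfl)]
      exact Nat.mul_div_cancel_left m (pow_pos hp.pos k)
    have hoy : orderOf (g ^ m) = p ^ k := by
      rw [orderOf_pow, ← hn, hnkm, Nat.gcd_eq_right (Dvd.intro_left _ rfl)]
      exact Nat.mul_div_cancel (p ^ k) hm0
    have hcyc : IsCyclic ↥(Subgroup.closure ({g ^ (p ^ k), g ^ m} : Set G)) := by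
      apply Subgroup.isCyclic_of_le (H' := Subgroup.zpowers g)
      rw [Subgroup.closure_le]
      intro z hz
      rcases hz with rfl | rfl
      · exact Subgroup.pow_mem _ (Subgroup.mem_zpowers g) _
      · exact Subgroup.pow_mem _ (Subgroup.mem_zpowers g) _
    rcases h _ _ hcyc with h1 | h1
    · have := orderOf_dvd_of_mem_zpowers h1
      rw [hox, hoy] at this
      have h2 : m ∣ Nat.gcd (p ^ k) m := Nat.dvd_gcd this dvd_rfl
      rw [hcop] at h2
      exact hm1 (Nat.dvd_one.1 h2)
    · have := orderOf_dvd_of_mem_zpowers h1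
      rw [hox, hoy] at this
      have h2 : p ^ k ∣ Nat.gcd (p ^ k) m := Nat.dvd_gcd dvd_rfl this
      rw [hcop] at h2
      exact hpk1 (Nat.dvd_one.1 h2)

end Cfsg.Agent.S4086
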