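import Cfsg.Statements.S4088
import Cfsg.Agent.S4089
import Cfsg.Agent.Lib.Helper53.SylowMore

set_option autoImplicit false
open Cfsg

namespace Cfsg.Agent.S4088

open Classical

set_option linter.unusedSectionVars false

section toggle
variable {α : Type*}

/-- toggle membership of `a` in `σ` -/
noncomputable def tog (σ : Finset α) (a : α) : Finset α :=
  if a ∈ σ then σ.erase a else insert a σ

theorem tog_tog (σ : Finset α) (a : α) : tog (tog σ a) a = σ := by
  unfold tog
  by_cases h : a ∈ σ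
  · simp [h]
  · simp [h]

theorem tog_ne (σ : Finset α) (a : α) : tog σ a ≠ σ := by
  unfold tog
  by_cases h : a ∈ σ
  · simp only [h, if_true]
    intro h2
    have := Finset.notMem_erase a σ
    rw [h2] at this
    exact this h
  · simp only [h, if_false]
    intro h2
    exact h (h2 ▸ Finset.mem_insert_self a σ)

theorem sign_tog (σ : Finset α) (a : α) : (-1 : ℤ) ^ (tog σ a).card = - (-1) ^ σ.card := by
  unfold tog
  by_cases h : a ∈ σ
  · simp only [h, if_true]
    have := Finset.card_erase_add_one h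
    rw [← this, pow_succ]
    ring
  · simp only [h, if_false]
    rw [Finset.card_insert_of_notMem h, pow_succ]
    ring

end toggle

variable {G : Type*} [Group G]

theorem mem_normalizer_sInf {F : Set (Subgroup G)} {x : G}
    (h : ∀ Q ∈ F, x ∈ Subgroup.normalizer (Q : Set G)) :
    x ∈ Subgroup.normalizer ((sInf F : Subgroup G) : Set G) := by
  rw [Subgroup.mem_normalizer_iff]
  intro y
  constructor
  · intro hy
    rw [Subgroup.mem_sInf] at hy ⊢
    intro Q hQ
    exact (Subgroup.mem_normalizer_iff.mp (h Q hQ) y).mp (hy Q hQ)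
  · intro hy
    rw [Subgroup.mem_sInf] at hy ⊢
    intro Q hQ
    exact (Subgroup.mem_normalizer_iff.mp (h Q hQ) y).mpr (hy Q hQ)

/-- the family whose infimum is the cone point -/
def Fam (H : Subgroup G) (g : G) (σ : Finset (Subgroup G)) : Set (Subgroup G) :=
  {Q | H ≤ Q ∧ g ∈ Subgroup.normalizer (Q : Set G) ∧
    ∀ T ∈ σ, T ≤ Subgroup.normalizer (Q : Set G)}

/-- the cone point -/
noncomputable def rho (H : Subgroup G) (g : G) (σ : Finset (Subgroup G)) : Subgroup G :=
  sInf (Fam H g σ)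

/-- normal chains of `p`-subgroups containing `H` -/
def Good (p : ℕ) (H : Subgroup G) (σ : Finset (Subgroup G)) : Prop :=
  (∀ Q ∈ σ, IsPGroup p Q ∧ H ≤ Q) ∧
  (∀ Q ∈ σ, ∀ T ∈ σ, (Q ≤ T ∨ T ≤ Q) ∧ T ≤ Subgroup.normalizer (Q : Set G))

/-- the normalizer of a chain -/
def Nrm (σ : Finset (Subgroup G)) : Subgroup G := ⨅ Q ∈ σ, Subgroup.normalizer (Q : Set G)

theorem mem_Nrm {σ : Finset (Subgroup G)} {g : G} :
    g ∈ Nrm σ ↔ ∀ Q ∈ σ, g ∈ Subgroup.normalizer (Q : Set G) := by
  simp [Nrm, Subgroup.mem_iInf]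

theorem le_rho (H : Subgroup G) (g : G) (σ : Finset (Subgroup G)) : H ≤ rho H g σ :=
  le_sInf (fun _ hQ => hQ.1)

theorem mem_normalizer_rho (H : Subgroup G) (g : G) (σ : Finset (Subgroup G)) :
    g ∈ Subgroup.normalizer (rho H g σ : Set G) :=
  mem_normalizer_sInf (fun _ hQ => hQ.2.1)

theorem le_normalizer_rho (H : Subgroup G) (g : G) {σ : Finset (Subgroup G)} {T : Subgroup G}
    (hT : T ∈ σ) : T ≤ Subgroup.normalizer (rho H g σ : Set G) :=
  fun _ hx => mem_normalizer_sInf (fun _ hQ => hQ.2.2 T hT hx)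

theorem rho_le_of_mem {p : ℕ} {H : Subgroup G} {g : G} {σ : Finset (Subgroup G)}
    (hσ : Good p H σ) (hg : g ∈ Nrm σ) {Q : Subgroup G} (hQ : Q ∈ σ) : rho H g σ ≤ Q :=
  sInf_le ⟨(hσ.1 Q hQ).2, mem_Nrm.mp hg Q hQ, fun T hT => (hσ.2 Q hQ T hT).2⟩

theorem tower [Finite G] {p : ℕ} [Fact p.Prime] {X : Subgroup G} (hX : IsPGroup p X) {g : G}
    (hgX : g ∈ Subgroup.normalizer (X : Set G)) :
    ∀ (n : ℕ) (Y : Subgroup G), Nat.card X - Nat.card Y ≤ n → Y ≤ X → Y ≠ X →
      g ∈ Subgroup.normalizer (Y : Set G) →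
      ∃ M : Subgroup G, Y ≤ M ∧ M ≤ X ∧ M ≠ X ∧ g ∈ Subgroup.normalizer (M : Set G) ∧
        X ≤ Subgroup.normalizer (M : Set G) := by
  intro n
  induction n with
  | zero =>
    intro Y hn hYX hne hgY
    exfalso
    apply hne
    exact Subgroup.eq_of_le_of_card_ge hYX (by omega)
  | succ n ih =>
    intro Y hn hYX hne hgY
    by_cases hN : X ≤ Subgroup.normalizer (Y : Set G)
    · exact ⟨Y, le_rfl, hYX, hne, hgY, hN⟩
    · obtain ⟨x, hxX, hxN, hxY⟩ :=
        Cfsg.Agent.Lib.Helper53.SylowMore.exists_normalizer_not_mem X Y hX hYX hne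
      have hYY₁ : Y ≤ X ⊓ Subgroup.normalizer (Y : Set G) := le_inf hYX Subgroup.le_normalizer
      have hY₁X : X ⊓ Subgroup.normalizer (Y : Set G) ≤ X := inf_le_left
      have hY₁ne : X ⊓ Subgroup.normalizer (Y : Set G) ≠ X := by
        intro h
        apply hN
        rw [← h]
        exact inf_le_right
      have hlt : Nat.card Y < Nat.card ↥(X ⊓ Subgroup.normalizer (Y : Set G)) := by
        by_contra hcon
        have := Subgroup.eq_of_le_of_card_ge hYY₁ (by omega)
        apply hxY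
        rw [this]
        exact ⟨hxX, hxN⟩
      have hle := Subgroup.card_le_of_le hY₁X
      have hgY₁ : g ∈ Subgroup.normalizer ((X ⊓ Subgroup.normalizer (Y : Set G) : Subgroup G) : Set G) := by
        rw [Subgroup.mem_normalizer_iff]
        intro y
        constructor
        · rintro ⟨h1, h2⟩
          exact ⟨(Subgroup.mem_normalizer_iff.mp hgX y).mp h1,
            Subgroup.mul_mem _ (Subgroup.mul_mem _ hgY h2) (Subgroup.inv_mem _ hgY)⟩
        · rintro ⟨h1, h2⟩
          refine ⟨(Subgroup.mem_normalizer_iff.mp hgX y).mpr h1, ?_⟩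
          have : y = g⁻¹ * (g * y * g⁻¹) * g := by group
          rw [SetLike.mem_coe, this]
          exact Subgroup.mul_mem _ (Subgroup.mul_mem _ (Subgroup.inv_mem _ hgY) h2) hgY
      obtain ⟨M, hM1, hM2, hM3, hM4, hM5⟩ := ih _ (by omega) hY₁X hY₁ne hgY₁
      exact ⟨M, hYY₁.trans hM1, hM2, hM3, hM4, hM5⟩

section stepA

variable [Finite G] {p : ℕ} [Fact p.Prime] {H : Subgroup G} {g : G} {σ : Finset (Subgroup G)}

theorem rho_isPGroup (hσ : Good p H σ) (hg : g ∈ Nrm σ)
    (hS : ∃ Q₀ : Subgroup G, IsPGroup p Q₀ ∧ H ≤ Q₀ ∧ g ∈ Subgroup.normalizer (Q₀ : Set G)) :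
    IsPGroup p (rho H g σ) := by
  by_cases hne : σ.Nonempty
  · obtain ⟨Q, hQ⟩ := hne
    exact (hσ.1 Q hQ).1.to_le (rho_le_of_mem hσ hg hQ)
  · rw [Finset.not_nonempty_iff_eq_empty] at hne
    obtain ⟨Q₀, h1, h2, h3⟩ := hS
    exact h1.to_le (sInf_le ⟨h2, h3, by simp [hne]⟩)

theorem good_insert (hσ : Good p H σ) (hg : g ∈ Nrm σ)
    (hS : ∃ Q₀ : Subgroup G, IsPGroup p Q₀ ∧ H ≤ Q₀ ∧ g ∈ Subgroup.normalizer (Q₀ : Set G)) :
    Good p H (insert (rho H g σ) σ) ∧ g ∈ Nrm (insert (rho H g σ) σ) ∧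
      rho H g (insert (rho H g σ) σ) = rho H g σ := by
  refine ⟨⟨?_, ?_⟩, ?_, ?_⟩
  · intro Q hQ
    rcases Finset.mem_insert.mp hQ with rfl | hQ
    · exact ⟨rho_isPGroup hσ hg hS, le_rho H g σ⟩
    · exact hσ.1 Q hQ
  · intro Q hQ T hT
    rcases Finset.mem_insert.mp hQ with rfl | hQ
    · rcases Finset.mem_insert.mp hT with rfl | hT
      · exact ⟨Or.inl le_rfl, Subgroup.le_normalizer⟩
      · exact ⟨Or.inl (rho_le_of_mem hσ hg hT), le_normalizer_rho H g hT⟩
    · rcases Finset.mem_insert.mp hT with rfl | hT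
      · exact ⟨Or.inr (rho_le_of_mem hσ hg hQ),
          (rho_le_of_mem hσ hg hQ).trans Subgroup.le_normalizer⟩
      · exact hσ.2 Q hQ T hT
  · rw [mem_Nrm]
    intro Q hQ
    rcases Finset.mem_insert.mp hQ with rfl | hQ
    · exact mem_normalizer_rho H g σ
    · exact mem_Nrm.mp hg Q hQ
  · apply le_antisymm
    · refine sInf_le ⟨le_rho H g σ, mem_normalizer_rho H g σ, ?_⟩
      intro T hT
      rcases Finset.mem_insert.mp hT with rfl | hT
      · exact Subgroup.le_normalizer
      · exact le_normalizer_rho H g hT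
    · apply sInf_le_sInf
      intro Q hQ
      exact ⟨hQ.1, hQ.2.1, fun T hT => hQ.2.2 T (Finset.mem_insert_of_mem hT)⟩

theorem good_erase (hσ : Good p H σ) (hg : g ∈ Nrm σ) (hmem : rho H g σ ∈ σ) :
    Good p H (σ.erase (rho H g σ)) ∧ g ∈ Nrm (σ.erase (rho H g σ)) ∧
      rho H g (σ.erase (rho H g σ)) = rho H g σ := by
  have hsub : ∀ Q ∈ σ.erase (rho H g σ), Q ∈ σ := fun Q hQ => Finset.mem_of_mem_erase hQ
  have hgood : Good p H (σ.erase (rho H g σ)) :=
    ⟨fun Q hQ => hσ.1 Q (hsub Q hQ), fun Q hQ T hT => hσ.2 Q (hsub Q hQ) T (hsub T hT)⟩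
  have hg' : g ∈ Nrm (σ.erase (rho H g σ)) :=
    mem_Nrm.mpr (fun Q hQ => mem_Nrm.mp hg Q (hsub Q hQ))
  refine ⟨hgood, hg', ?_⟩
  have hle : rho H g (σ.erase (rho H g σ)) ≤ rho H g σ := by
    apply sInf_le_sInf
    intro Q hQ
    exact ⟨hQ.1, hQ.2.1, fun T hT => hQ.2.2 T (hsub T hT)⟩
  by_cases hne : (σ.erase (rho H g σ)).Nonempty
  · obtain ⟨T₁, hT₁⟩ := hne
    apply le_antisymm hle
    refine sInf_le ⟨le_rho H g _, mem_normalizer_rho H g _, ?_⟩
    intro T hT
    by_cases hTe : T = rho H g σ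
    · rw [hTe]
      exact (rho_le_of_mem hσ hg (hsub T₁ hT₁)).trans (le_normalizer_rho H g hT₁)
    · exact le_normalizer_rho H g (Finset.mem_erase.mpr ⟨hTe, hT⟩)
  · rw [Finset.not_nonempty_iff_eq_empty] at hne
    by_contra hcon
    have hall : ∀ T ∈ σ, T = rho H g σ := by
      intro T hT
      by_contra hTe
      have : T ∈ σ.erase (rho H g σ) := Finset.mem_erase.mpr ⟨hTe, hT⟩
      rw [hne] at this
      simp at this
    obtain ⟨M, hM1, hM2, hM3, hM4, hM5⟩ := tower (hσ.1 _ hmem).1 (mem_normalizer_rho H g σ) _ _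
      le_rfl hle hcon (mem_normalizer_rho H g _)
    apply hM3
    apply le_antisymm hM2
    refine sInf_le ⟨(le_rho H g _).trans hM1, hM4, ?_⟩
    intro T hT
    rw [hall T hT]
    exact hM5

theorem E1 [Fintype (Subgroup G)] (p : ℕ) [Fact p.Prime] (H : Subgroup G) (g : G) :
    ∑ σ ∈ (Finset.univ.filter (fun σ : Finset (Subgroup G) => Good p H σ ∧ g ∈ Nrm σ)),
        (-1 : ℤ) ^ σ.card =
      if (∃ Q : Subgroup G, IsPGroup p Q ∧ H ≤ Q ∧ g ∈ Subgroup.normalizer (Q : Set G))
        then 0 else 1 := by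
  split_ifs with hS
  · have key : ∀ σ ∈ (Finset.univ.filter (fun σ : Finset (Subgroup G) => Good p H σ ∧ g ∈ Nrm σ)),
        (Good p H (tog σ (rho H g σ)) ∧ g ∈ Nrm (tog σ (rho H g σ))) ∧
          rho H g (tog σ (rho H g σ)) = rho H g σ := by
      intro σ hσ
      rw [Finset.mem_filter] at hσ
      unfold tog
      split_ifs with hm
      · have := good_erase hσ.2.1 hσ.2.2 hm
        exact ⟨⟨this.1, this.2.1⟩, this.2.2⟩
      · have := good_insert hσ.2.1 hσ.2.2 hS
        exact ⟨⟨this.1, this.2.1⟩, this.2.2⟩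
    apply Finset.sum_involution (fun σ _ => tog σ (rho H g σ))
    · intro σ _
      rw [sign_tog]
      ring
    · intro σ _ _
      exact tog_ne _ _
    · intro σ hσ
      rw [Finset.mem_filter]
      exact ⟨Finset.mem_univ _, (key σ hσ).1⟩
    · intro σ hσ
      show tog (tog σ (rho H g σ)) (rho H g (tog σ (rho H g σ))) = σ
      rw [(key σ hσ).2, tog_tog]
  · have : (Finset.univ.filter (fun σ : Finset (Subgroup G) => Good p H σ ∧ g ∈ Nrm σ)) = {∅} := by
      ext σ
      simp only [Finset.mem_filter, Finset.mem_univ, true_and, Finset.mem_singleton]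
      constructor
      · rintro ⟨h1, h2⟩
        by_contra hne
        obtain ⟨Q, hQ⟩ := Finset.nonempty_iff_ne_empty.mpr hne
        exact hS ⟨Q, (h1.1 Q hQ).1, (h1.1 Q hQ).2, mem_Nrm.mp h2 Q hQ⟩
      · rintro rfl
        exact ⟨⟨by simp, by simp⟩, by simp [mem_Nrm]⟩
    rw [this]
    simp

end stepA

section stepC

theorem card_subgroupOf_eq (K M : Subgroup G) :
    Nat.card (K.subgroupOf M) = Nat.card ↥(K ⊓ M) := by
  rw [← Subgroup.inf_subgroupOf_right]
  exact Nat.card_congr (Subgroup.subgroupOfEquivOfLe inf_le_right).toEquiv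

theorem sum_sylow_normalizer {G₀ : Type*} [Group G₀] [Finite G₀] (p : ℕ) [Fact p.Prime]
    [Fintype (Sylow p G₀)] :
    ∑ P : Sylow p G₀, Nat.card (Subgroup.normalizer ((P : Subgroup G₀) : Set G₀)) =
      Nat.card G₀ := by
  have h : ∀ P : Sylow p G₀,
      Nat.card (Subgroup.normalizer ((P : Subgroup G₀) : Set G₀)) * Nat.card (Sylow p G₀) =
        Nat.card G₀ := by
    intro P
    rw [P.card_eq_index_normalizer]
    exact Subgroup.card_mul_index _
  have hpos : 0 < Nat.card (Sylow p G₀) := Nat.card_pos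
  apply Nat.eq_of_mul_eq_mul_right hpos
  rw [Finset.sum_mul, Finset.sum_congr rfl (fun P _ => h P), Finset.sum_const, Finset.card_univ,
    smul_eq_mul, ← Nat.card_eq_fintype_card, mul_comm]

variable [Finite G] [Fintype (Subgroup G)]

/-- the Sylow `p`-subgroups of `M`, as subgroups of `G` -/
noncomputable def SylIn (p : ℕ) (M : Subgroup G) : Finset (Subgroup G) :=
  Finset.univ.filter (fun P' : Subgroup G => P' ≤ M ∧ IsPGroup p P' ∧
    ∀ Q' : Subgroup G, IsPGroup p Q' → P' ≤ Q' → Q' ≤ M → Q' = P')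

theorem mem_SylIn {p : ℕ} {M P' : Subgroup G} : P' ∈ SylIn p M ↔ P' ≤ M ∧ IsPGroup p P' ∧
    ∀ Q' : Subgroup G, IsPGroup p Q' → P' ≤ Q' → Q' ≤ M → Q' = P' := by
  simp [SylIn]

/-- a member of `SylIn p M` as a Sylow subgroup of `M` -/
noncomputable def toSyl {p : ℕ} {M : Subgroup G} (P' : Subgroup G) (h : P' ∈ SylIn p M) :
    Sylow p M where
  toSubgroup := P'.subgroupOf M
  isPGroup' := (mem_SylIn.mp h).2.1.comap_subtype
  is_maximal' := by
    intro Q hQ hle
    have h' := mem_SylIn.mp h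
    have h1 : Q.map M.subtype = P' := h'.2.2 _ (hQ.map _) (by
      intro x hx
      exact ⟨⟨x, h'.1 hx⟩, hle (Subgroup.mem_subgroupOf.mpr hx), rfl⟩) (Subgroup.map_subtype_le _)
    rw [← h1]
    exact (Subgroup.comap_map_eq_self_of_injective M.subtype_injective Q).symm

theorem sum_SylIn (p : ℕ) [Fact p.Prime] (M : Subgroup G) :
    ∑ P' ∈ SylIn p M, Nat.card ↥(Subgroup.normalizer (P' : Set G) ⊓ M) = Nat.card M := by
  have := Fintype.ofFinite (Sylow p M)
  rw [← sum_sylow_normalizer (G₀ := M) p]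
  refine Finset.sum_bij (fun P' hP' => toSyl P' hP') (fun _ _ => Finset.mem_univ _) ?_ ?_ ?_
  · intro P₁ h₁ P₂ h₂ heq
    have h3 : P₁.subgroupOf M = P₂.subgroupOf M := congrArg Sylow.toSubgroup heq
    have e1 := Subgroup.map_subgroupOf_eq_of_le (mem_SylIn.mp h₁).1
    have e2 := Subgroup.map_subgroupOf_eq_of_le (mem_SylIn.mp h₂).1
    rw [← e1, ← e2, h3]
  · intro P _
    have hmem : (P : Subgroup M).map M.subtype ∈ SylIn p M := by
      rw [mem_SylIn]
      refine ⟨Subgroup.map_subtype_le _, P.isPGroup'.map _, ?_⟩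
      intro Q' hQ' hle hQM
      have h1 : Q'.subgroupOf M = (P : Subgroup M) := by
        apply P.is_maximal' hQ'.comap_subtype
        intro x hx
        exact Subgroup.mem_subgroupOf.mpr (hle ⟨x, hx, rfl⟩)
      rw [← h1]
      exact (Subgroup.map_subgroupOf_eq_of_le hQM).symm
    refine ⟨_, hmem, ?_⟩
    apply Sylow.ext
    show ((P : Subgroup M).map M.subtype).subgroupOf M = (P : Subgroup M)
    exact Subgroup.comap_map_eq_self_of_injective M.subtype_injective _
  · intro P' hP'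
    show _ = Nat.card (Subgroup.normalizer ((P'.subgroupOf M : Subgroup M) : Set M))
    rw [← Subgroup.subgroupOf_normalizer_eq (mem_SylIn.mp hP').1, card_subgroupOf_eq]

theorem sylIn_ge {p : ℕ} [Fact p.Prime] {M P' T : Subgroup G} (hP' : P' ∈ SylIn p M)
    (hT : IsPGroup p T) (hTM : T ≤ M) (hMT : M ≤ Subgroup.normalizer (T : Set G)) : T ≤ P' := by
  have h' := mem_SylIn.mp hP'
  have h1 : IsPGroup p (T ⊔ P' : Subgroup G) :=
    IsPGroup.to_sup_of_normal_left' hT h'.2.1 (h'.1.trans hMT)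
  have h2 := h'.2.2 _ h1 le_sup_right (sup_le hTM h'.1)
  rw [← h2]
  exact le_sup_left

/-- the top of the chain is a Sylow subgroup of the chain normalizer -/
def TypeII (p : ℕ) (σ : Finset (Subgroup G)) : Prop :=
  ∀ Q' : Subgroup G, IsPGroup p Q' → σ.sup id ≤ Q' → Q' ≤ Nrm σ → Q' = σ.sup id

/-- the weight of a chain -/
noncomputable def wt (σ : Finset (Subgroup G)) : ℤ := (-1) ^ σ.card * (Nat.card (Nrm σ) : ℤ)

omit [Finite G] [Fintype (Subgroup G)] in
theorem top_mem {p : ℕ} {H : Subgroup G} {σ : Finset (Subgroup G)} (hσ : Good p H σ)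
    (hne : σ.Nonempty) : σ.sup id ∈ σ := by
  obtain ⟨T, hT⟩ := σ.exists_maximal hne
  have hall : ∀ Q ∈ σ, Q ≤ T := by
    intro Q hQ
    rcases (hσ.2 Q hQ T hT.1).1 with h | h
    · exact h
    · exact hT.2 hQ h
  have : σ.sup id = T :=
    le_antisymm (Finset.sup_le (fun Q hQ => hall Q hQ)) (Finset.le_sup (f := id) hT.1)
  rw [this]
  exact hT.1

omit [Finite G] [Fintype (Subgroup G)] in
theorem top_le_Nrm {p : ℕ} {H : Subgroup G} {σ : Finset (Subgroup G)} (hσ : Good p H σ)
    (hne : σ.Nonempty) : σ.sup id ≤ Nrm σ :=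
  fun _ hx => mem_Nrm.mpr (fun Q hQ => (hσ.2 Q hQ _ (top_mem hσ hne)).2 hx)

omit [Finite G] [Fintype (Subgroup G)] in
theorem Nrm_le_normalizer_top {p : ℕ} {H : Subgroup G} {σ : Finset (Subgroup G)}
    (hσ : Good p H σ) (hne : σ.Nonempty) :
    Nrm σ ≤ Subgroup.normalizer ((σ.sup id : Subgroup G) : Set G) :=
  fun _ hx => mem_Nrm.mp hx _ (top_mem hσ hne)

omit [Finite G] [Fintype (Subgroup G)] in
theorem Nrm_insert (a : Subgroup G) (σ : Finset (Subgroup G)) :
    Nrm (insert a σ) = Subgroup.normalizer (a : Set G) ⊓ Nrm σ := by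
  unfold Nrm
  rw [Finset.iInf_insert]

theorem typeI_insert {p : ℕ} [Fact p.Prime] {H : Subgroup G} {σ : Finset (Subgroup G)}
    (hσ : Good p H σ) (hne : σ.Nonempty) (hI : ¬ TypeII p σ)
    {P' : Subgroup G} (hP' : P' ∈ SylIn p (Nrm σ)) :
    σ.sup id ≤ P' ∧ P' ∉ σ ∧ Good p H (insert P' σ) ∧ (insert P' σ).sup id = P' ∧
      TypeII p (insert P' σ) := by
  have hT := top_mem hσ hne
  have hTP : σ.sup id ≤ P' :=
    sylIn_ge hP' (hσ.1 _ hT).1 (top_le_Nrm hσ hne) (Nrm_le_normalizer_top hσ hne)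
  have h' := mem_SylIn.mp hP'
  have hnot : P' ∉ σ := by
    intro hmem
    have : P' = σ.sup id := le_antisymm (Finset.le_sup (f := id) hmem) hTP
    apply hI
    intro Q' hQ' hle hQN
    rw [← this] at hle ⊢
    exact h'.2.2 Q' hQ' hle hQN
  have hsup : (insert P' σ).sup id = P' := by
    rw [Finset.sup_insert, id, sup_eq_left]
    exact hTP
  refine ⟨hTP, hnot, ⟨?_, ?_⟩, hsup, ?_⟩
  · intro Q hQ
    rcases Finset.mem_insert.mp hQ with rfl | hQ
    · exact ⟨h'.2.1, (hσ.1 _ hT).2.trans hTP⟩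
    · exact hσ.1 Q hQ
  · intro Q hQ T hT'
    rcases Finset.mem_insert.mp hQ with hQe | hQm
    · rcases Finset.mem_insert.mp hT' with hTe | hTm
      · rw [hQe, hTe]
        exact ⟨Or.inl le_rfl, Subgroup.le_normalizer⟩
      · have : T ≤ Q := by
          rw [hQe]
          exact (Finset.le_sup (f := id) hTm).trans hTP
        exact ⟨Or.inr this, this.trans Subgroup.le_normalizer⟩
    · rcases Finset.mem_insert.mp hT' with hTe | hTm
      · rw [hTe]
        exact ⟨Or.inl ((Finset.le_sup (f := id) hQm).trans hTP),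
          fun x hx => mem_Nrm.mp (h'.1 hx) Q hQm⟩
      · exact hσ.2 Q hQm T hTm
  · intro Q' hQ' hle hQN
    rw [hsup] at hle ⊢
    rw [Nrm_insert] at hQN
    exact h'.2.2 Q' hQ' hle (hQN.trans inf_le_right)

theorem typeII_erase {p : ℕ} [Fact p.Prime] {H : Subgroup G} {τ : Finset (Subgroup G)}
    (hτ : Good p H τ) (hne : τ.Nonempty) (hII : TypeII p τ) (hcard : ¬ τ.card = 1) :
    Good p H (τ.erase (τ.sup id)) ∧ (τ.erase (τ.sup id)).Nonempty ∧
      ¬ TypeII p (τ.erase (τ.sup id)) ∧ τ.sup id ∈ SylIn p (Nrm (τ.erase (τ.sup id))) := by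
  have hT := top_mem hτ hne
  have hsub : ∀ Q ∈ τ.erase (τ.sup id), Q ∈ τ := fun Q hQ => Finset.mem_of_mem_erase hQ
  have hgood : Good p H (τ.erase (τ.sup id)) :=
    ⟨fun Q hQ => hτ.1 Q (hsub Q hQ), fun Q hQ T hT => hτ.2 Q (hsub Q hQ) T (hsub T hT)⟩
  have hne' : (τ.erase (τ.sup id)).Nonempty := by
    rw [← Finset.card_pos, Finset.card_erase_of_mem hT]
    have := Finset.card_pos.mpr hne
    omega
  have hPN : τ.sup id ≤ Nrm (τ.erase (τ.sup id)) :=
    fun x hx => mem_Nrm.mpr (fun Q hQ => (hτ.2 Q (hsub Q hQ) _ hT).2 hx)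
  have hNτ : Nrm τ = Subgroup.normalizer ((τ.sup id : Subgroup G) : Set G) ⊓
      Nrm (τ.erase (τ.sup id)) := by
    rw [← Nrm_insert, Finset.insert_erase hT]
  have hsyl : τ.sup id ∈ SylIn p (Nrm (τ.erase (τ.sup id))) := by
    rw [mem_SylIn]
    refine ⟨hPN, (hτ.1 _ hT).1, ?_⟩
    intro Q' hQ' hle hQN
    by_contra hneq
    obtain ⟨x, hxQ, hxN, hxP⟩ :=
      Cfsg.Agent.Lib.Helper53.SylowMore.exists_normalizer_not_mem Q' (τ.sup id) hQ' hle
        (Ne.symm hneq)
    have h1 : Q' ⊓ Subgroup.normalizer ((τ.sup id : Subgroup G) : Set G) = τ.sup id := by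
      apply hII _ (hQ'.to_le inf_le_left) (le_inf hle Subgroup.le_normalizer)
      rw [hNτ]
      exact le_inf inf_le_right (inf_le_left.trans hQN)
    apply hxP
    rw [← h1]
    exact ⟨hxQ, hxN⟩
  refine ⟨hgood, hne', ?_, hsyl⟩
  intro hIIσ
  have hT1 := top_mem hgood hne'
  have h1 : (τ.erase (τ.sup id)).sup id ≤ τ.sup id := Finset.le_sup (f := id) (hsub _ hT1)
  have h2 := hIIσ (τ.sup id) (hτ.1 _ hT).1 h1 hPN
  have h3 : (τ.erase (τ.sup id)).sup id ∈ τ.erase (τ.sup id) := hT1
  rw [← h2] at h3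
  exact Finset.notMem_erase _ τ h3

theorem E2 (p : ℕ) [Fact p.Prime] (H : Subgroup G) :
    ∑ σ ∈ Finset.univ.filter (fun σ : Finset (Subgroup G) => Good p H σ ∧ σ.Nonempty), wt σ =
    - ∑ Q ∈ Finset.univ.filter (fun Q : Subgroup G => IsPGroup p Q ∧ H ≤ Q ∧
          ∀ Q' : Subgroup G, IsPGroup p Q' → Q ≤ Q' → Q' = Q),
        (Nat.card (Subgroup.normalizer (Q : Set G)) : ℤ) := by
  rw [← Finset.sum_filter_add_sum_filter_not _ (TypeII p) wt]
  rw [← Finset.sum_filter_add_sum_filter_not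
    ((Finset.univ.filter (fun σ : Finset (Subgroup G) => Good p H σ ∧ σ.Nonempty)).filter
      (TypeII p)) (fun τ => τ.card = 1) wt]
  have ha : ∑ τ ∈ ((Finset.univ.filter (fun σ : Finset (Subgroup G) => Good p H σ ∧
      σ.Nonempty)).filter (TypeII p)).filter (fun τ => ¬ τ.card = 1), wt τ =
      - ∑ σ ∈ (Finset.univ.filter (fun σ : Finset (Subgroup G) => Good p H σ ∧
      σ.Nonempty)).filter (fun σ => ¬ TypeII p σ), wt σ := by
    rw [← Finset.sum_neg_distrib]
    rw [← Finset.sum_fiberwise_of_maps_to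
      (g := fun τ : Finset (Subgroup G) => τ.erase (τ.sup id))
      (t := (Finset.univ.filter (fun σ : Finset (Subgroup G) => Good p H σ ∧
      σ.Nonempty)).filter (fun σ => ¬ TypeII p σ))]
    · apply Finset.sum_congr rfl
      intro σ hσ
      simp only [Finset.mem_filter, Finset.mem_univ, true_and] at hσ
      obtain ⟨⟨hσg, hσne⟩, hσI⟩ := hσ
      have hfib : (((Finset.univ.filter (fun σ : Finset (Subgroup G) => Good p H σ ∧
          σ.Nonempty)).filter (TypeII p)).filter (fun τ => ¬ τ.card = 1)).filter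
          (fun τ => τ.erase (τ.sup id) = σ) =
          (SylIn p (Nrm σ)).image (fun P' => insert P' σ) := by
        ext τ
        simp only [Finset.mem_filter, Finset.mem_univ, true_and, Finset.mem_image]
        constructor
        · rintro ⟨⟨⟨⟨hτg, hτne⟩, hτII⟩, hτc⟩, rfl⟩
          have := typeII_erase hτg hτne hτII hτc
          exact ⟨τ.sup id, this.2.2.2, Finset.insert_erase (top_mem hτg hτne)⟩
        · rintro ⟨P', hP', rfl⟩
          have := typeI_insert hσg hσne hσI hP'
          refine ⟨⟨⟨⟨this.2.2.1, Finset.insert_nonempty _ _⟩, this.2.2.2.2⟩, ?_⟩, ?_⟩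
          · rw [Finset.card_insert_of_notMem this.2.1]
            have := Finset.card_pos.mpr hσne
            omega
          · rw [this.2.2.2.1, Finset.erase_insert this.2.1]
      rw [hfib, Finset.sum_image]
      · have hw : ∀ P' ∈ SylIn p (Nrm σ), wt (insert P' σ) =
            - (-1) ^ σ.card * (Nat.card ↥(Subgroup.normalizer (P' : Set G) ⊓ Nrm σ) : ℤ) := by
          intro P' hP'
          have := typeI_insert hσg hσne hσI hP'
          unfold wt
          rw [Finset.card_insert_of_notMem this.2.1, Nrm_insert, pow_succ]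
          ring
        rw [Finset.sum_congr rfl hw, ← Finset.mul_sum, ← Nat.cast_sum, sum_SylIn]
        unfold wt
        ring
      · intro P₁ h₁ P₂ h₂ heq
        have t1 := typeI_insert hσg hσne hσI (Finset.mem_coe.mp h₁)
        have t2 := typeI_insert hσg hσne hσI (Finset.mem_coe.mp h₂)
        have := congrArg (fun τ : Finset (Subgroup G) => τ.sup id) heq
        simp only at this
        rw [t1.2.2.2.1, t2.2.2.2.1] at this
        exact this
    · intro τ hτ
      simp only [Finset.mem_filter, Finset.mem_univ, true_and] at hτ ⊢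
      obtain ⟨⟨⟨hτg, hτne⟩, hτII⟩, hτc⟩ := hτ
      have := typeII_erase hτg hτne hτII hτc
      exact ⟨⟨this.1, this.2.1⟩, this.2.2.1⟩
  have hb : ∑ τ ∈ ((Finset.univ.filter (fun σ : Finset (Subgroup G) => Good p H σ ∧
      σ.Nonempty)).filter (TypeII p)).filter (fun τ => τ.card = 1), wt τ =
      - ∑ Q ∈ Finset.univ.filter (fun Q : Subgroup G => IsPGroup p Q ∧ H ≤ Q ∧
          ∀ Q' : Subgroup G, IsPGroup p Q' → Q ≤ Q' → Q' = Q),
        (Nat.card (Subgroup.normalizer (Q : Set G)) : ℤ) := by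
    have hII₁ : ((Finset.univ.filter (fun σ : Finset (Subgroup G) => Good p H σ ∧
        σ.Nonempty)).filter (TypeII p)).filter (fun τ => τ.card = 1) =
        (Finset.univ.filter (fun Q : Subgroup G => IsPGroup p Q ∧ H ≤ Q ∧
          ∀ Q' : Subgroup G, IsPGroup p Q' → Q ≤ Q' → Q' = Q)).image
          (fun Q => ({Q} : Finset (Subgroup G))) := by
      ext τ
      simp only [Finset.mem_filter, Finset.mem_univ, true_and, Finset.mem_image]
      constructor
      · rintro ⟨⟨⟨hτg, hτne⟩, hτII⟩, hτc⟩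
        obtain ⟨Q, rfl⟩ := Finset.card_eq_one.mp hτc
        have hQ := hτg.1 Q (Finset.mem_singleton_self Q)
        refine ⟨Q, ⟨hQ.1, hQ.2, ?_⟩, rfl⟩
        intro Q' hQ' hle
        by_contra hneq
        obtain ⟨x, hxQ, hxN, hxP⟩ :=
          Cfsg.Agent.Lib.Helper53.SylowMore.exists_normalizer_not_mem Q' Q hQ' hle (Ne.symm hneq)
        have h1 : Q' ⊓ Subgroup.normalizer (Q : Set G) = Q := by
          have := hτII (Q' ⊓ Subgroup.normalizer (Q : Set G)) (hQ'.to_le inf_le_left)
            (by rw [Finset.sup_singleton]; exact le_inf hle Subgroup.le_normalizer)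
            (by
              intro y hy
              rw [mem_Nrm]
              intro Q₁ hQ₁
              rw [Finset.mem_singleton.mp hQ₁]
              exact hy.2)
          rw [Finset.sup_singleton] at this
          exact this
        apply hxP
        rw [← h1]
        exact ⟨hxQ, hxN⟩
      · rintro ⟨Q, ⟨hQp, hHQ, hmax⟩, rfl⟩
        refine ⟨⟨⟨⟨?_, ?_⟩, Finset.singleton_nonempty Q⟩, ?_⟩, Finset.card_singleton Q⟩
        · intro Q₁ h₁
          rw [Finset.mem_singleton.mp h₁]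
          exact ⟨hQp, hHQ⟩
        · intro Q₁ h₁ T h₂
          rw [Finset.mem_singleton.mp h₁, Finset.mem_singleton.mp h₂]
          exact ⟨Or.inl le_rfl, Subgroup.le_normalizer⟩
        · intro Q' hQ' hle _
          rw [Finset.sup_singleton] at hle ⊢
          exact hmax Q' hQ' hle
    rw [hII₁, Finset.sum_image (by
      intro a _ b _ h
      exact Finset.singleton_injective h), ← Finset.sum_neg_distrib]
    apply Finset.sum_congr rfl
    intro Q _
    unfold wt
    have : Nrm ({Q} : Finset (Subgroup G)) = Subgroup.normalizer (Q : Set G) := by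
      unfold Nrm
      simp
    rw [this, Finset.card_singleton]
    ring
  rw [ha, hb]
  ring

end stepC

section final

variable [Finite G]

theorem main_count [Fintype (Subgroup G)] (p : ℕ) [Fact p.Prime] (H : Subgroup G) :
    (Nat.card {g : G // ∃ Q : Subgroup G, IsPGroup p Q ∧ H ≤ Q ∧
        g ∈ Subgroup.normalizer (Q : Set G)} : ℤ) =
      ∑ Q ∈ Finset.univ.filter (fun Q : Subgroup G => IsPGroup p Q ∧ H ≤ Q ∧
          ∀ Q' : Subgroup G, IsPGroup p Q' → Q ≤ Q' → Q' = Q),
        (Nat.card (Subgroup.normalizer (Q : Set G)) : ℤ) := by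
  have := Fintype.ofFinite G
  have h1 : ∑ g : G, ∑ σ ∈ (Finset.univ.filter
      (fun σ : Finset (Subgroup G) => Good p H σ ∧ g ∈ Nrm σ)), (-1 : ℤ) ^ σ.card
      = (Nat.card G : ℤ) - Nat.card {g : G // ∃ Q : Subgroup G, IsPGroup p Q ∧ H ≤ Q ∧
        g ∈ Subgroup.normalizer (Q : Set G)} := by
    rw [Finset.sum_congr rfl (fun g _ => E1 p H g)]
    rw [Finset.sum_ite, Finset.sum_const_zero, zero_add, Finset.sum_const, nsmul_eq_mul, mul_one]
    rw [Nat.card_eq_fintype_card, Nat.card_eq_fintype_card, Fintype.card_subtype]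
    have := Finset.card_filter_add_card_filter_not (s := (Finset.univ : Finset G))
      (fun g => ∃ Q : Subgroup G, IsPGroup p Q ∧ H ≤ Q ∧ g ∈ Subgroup.normalizer (Q : Set G))
    rw [Finset.card_univ] at this
    rw [← this]
    push_cast
    ring
  have h2 : ∑ g : G, ∑ σ ∈ (Finset.univ.filter
      (fun σ : Finset (Subgroup G) => Good p H σ ∧ g ∈ Nrm σ)), (-1 : ℤ) ^ σ.card
      = ∑ σ ∈ Finset.univ.filter (fun σ : Finset (Subgroup G) => Good p H σ), wt σ := by
    simp_rw [Finset.sum_filter]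
    rw [Finset.sum_comm]
    apply Finset.sum_congr rfl
    intro σ _
    by_cases hσ : Good p H σ
    · simp only [hσ, true_and, if_true]
      rw [← Finset.sum_filter, Finset.sum_const, nsmul_eq_mul]
      unfold wt
      rw [mul_comm]
      congr 2
      rw [Nat.card_eq_fintype_card, ← Fintype.card_subtype]
    · simp [hσ]
  have h3 : ∑ σ ∈ Finset.univ.filter (fun σ : Finset (Subgroup G) => Good p H σ), wt σ =
      (Nat.card G : ℤ) + ∑ σ ∈ Finset.univ.filter
        (fun σ : Finset (Subgroup G) => Good p H σ ∧ σ.Nonempty), wt σ := by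
    have hset : Finset.univ.filter (fun σ : Finset (Subgroup G) => Good p H σ) =
        insert ∅ (Finset.univ.filter (fun σ : Finset (Subgroup G) => Good p H σ ∧ σ.Nonempty)) := by
      ext σ
      simp only [Finset.mem_filter, Finset.mem_univ, true_and, Finset.mem_insert]
      constructor
      · intro h
        by_cases he : σ = ∅
        · exact Or.inl he
        · exact Or.inr ⟨h, Finset.nonempty_iff_ne_empty.mpr he⟩
      · rintro (rfl | h)
        · exact ⟨by simp, by simp⟩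
        · exact h.1
    rw [hset, Finset.sum_insert (by simp)]
    congr 1
    unfold wt
    have : Nrm (∅ : Finset (Subgroup G)) = ⊤ := by
      unfold Nrm
      simp
    rw [this, Subgroup.card_top]
    simp
  rw [h2, h3, E2] at h1
  linarith

theorem card_normalizer_sylow (p : ℕ) [Fact p.Prime] (P Q : Sylow p G) :
    Nat.card (Subgroup.normalizer ((Q : Subgroup G) : Set G)) =
      Nat.card (Subgroup.normalizer ((P : Subgroup G) : Set G)) := by
  have h1 : Nat.card (Subgroup.normalizer ((P : Subgroup G) : Set G)) * Nat.card (Sylow p G) =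
      Nat.card G := by
    rw [P.card_eq_index_normalizer]
    exact Subgroup.card_mul_index _
  have h2 : Nat.card (Subgroup.normalizer ((Q : Subgroup G) : Set G)) * Nat.card (Sylow p G) =
      Nat.card G := by
    rw [Q.card_eq_index_normalizer]
    exact Subgroup.card_mul_index _
  have hpos : 0 < Nat.card (Sylow p G) := Nat.card_pos
  exact Nat.eq_of_mul_eq_mul_right hpos (h2.trans h1.symm)

theorem sum_max [Fintype (Subgroup G)] (p : ℕ) [Fact p.Prime] (H : Subgroup G) (P : Sylow p G) :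
    ∑ Q ∈ Finset.univ.filter (fun Q : Subgroup G => IsPGroup p Q ∧ H ≤ Q ∧
          ∀ Q' : Subgroup G, IsPGroup p Q' → Q ≤ Q' → Q' = Q),
        Nat.card (Subgroup.normalizer (Q : Set G)) =
      Nat.card {Q : Sylow p G // H ≤ (Q : Subgroup G)} *
        Nat.card (Subgroup.normalizer ((P : Subgroup G) : Set G)) := by
  have hterm : ∀ Q ∈ Finset.univ.filter (fun Q : Subgroup G => IsPGroup p Q ∧ H ≤ Q ∧
          ∀ Q' : Subgroup G, IsPGroup p Q' → Q ≤ Q' → Q' = Q),
        Nat.card (Subgroup.normalizer (Q : Set G)) =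
          Nat.card (Subgroup.normalizer ((P : Subgroup G) : Set G)) := by
    intro Q hQ
    rw [Finset.mem_filter] at hQ
    exact card_normalizer_sylow p P ⟨Q, hQ.2.1, fun hQ' hle => hQ.2.2.2 _ hQ' hle⟩
  rw [Finset.sum_congr rfl hterm, Finset.sum_const, smul_eq_mul]
  congr 1
  rw [← Fintype.card_coe, ← Nat.card_eq_fintype_card]
  refine Nat.card_congr
    { toFun := fun Q => ⟨⟨Q.1, (Finset.mem_filter.mp Q.2).2.1,
        fun hQ' hle => (Finset.mem_filter.mp Q.2).2.2.2 _ hQ' hle⟩, (Finset.mem_filter.mp Q.2).2.2.1⟩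
      invFun := fun Q => ⟨Q.1.1, Finset.mem_filter.mpr ⟨Finset.mem_univ _, Q.1.isPGroup', Q.2,
        fun Q' hQ' hle => Q.1.is_maximal' hQ' hle⟩⟩
      left_inv := fun Q => rfl
      right_inv := fun Q => rfl }

theorem fiber_count {α β : Type*} [Finite α] [Finite β] (f : α → β) (k : ℕ)
    (h : ∀ b, Nat.card {a // f a = b} = k) : Nat.card α = Nat.card β * k := by
  have := Fintype.ofFinite β
  rw [← Nat.card_congr (Equiv.sigmaFiberEquiv f), Nat.card_sigma]
  simp only [h, Finset.sum_const, Finset.card_univ, smul_eq_mul, Nat.card_eq_fintype_card]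

open Cfsg.Agent.Lib.Helper53.SylowConj Cfsg.Agent.Lib.Helper53.SylowMore in
theorem count1 (H P : Subgroup G) :
    Nat.card {g : G // H.map (MulAut.conj g).toMonoidHom ≤ P} =
      Nat.card {K : Subgroup G // K ≤ P ∧ ∃ g : G, K = H.map (MulAut.conj g).toMonoidHom} *
        Nat.card (Subgroup.normalizer (H : Set G)) := by
  refine fiber_count (fun a : {g : G // H.map (MulAut.conj g).toMonoidHom ≤ P} =>
    (⟨H.map (MulAut.conj a.1).toMonoidHom, a.2, a.1, rfl⟩ :
      {K : Subgroup G // K ≤ P ∧ ∃ g : G, K = H.map (MulAut.conj g).toMonoidHom})) _ ?_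
  rintro ⟨K, hKP, g₀, rfl⟩
  have hone : H.map (MulAut.conj (1 : G)).toMonoidHom = H := by
    ext x
    rw [mem_map_conj_iff]
    simp
  refine Nat.card_congr
    { toFun := fun a => ⟨g₀⁻¹ * a.1.1, ?_⟩
      invFun := fun n => ⟨⟨g₀ * n.1, ?_⟩, ?_⟩
      left_inv := ?_
      right_inv := ?_ }
  · have h1 : H.map (MulAut.conj a.1.1).toMonoidHom = H.map (MulAut.conj g₀).toMonoidHom :=
      congrArg Subtype.val a.2
    rw [← map_conj_eq_iff_mem_normalizer, map_conj_mul, h1, ← map_conj_mul, inv_mul_cancel, hone]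
  · have hn := (map_conj_eq_iff_mem_normalizer H n.1).mpr n.2
    rw [map_conj_mul, hn]
    exact hKP
  · have hn := (map_conj_eq_iff_mem_normalizer H n.1).mpr n.2
    apply Subtype.ext
    show H.map (MulAut.conj (g₀ * n.1)).toMonoidHom = H.map (MulAut.conj g₀).toMonoidHom
    rw [map_conj_mul, hn]
  · intro a
    apply Subtype.ext
    apply Subtype.ext
    show g₀ * (g₀⁻¹ * a.1.1) = a.1.1
    rw [mul_inv_cancel_left]
  · intro n
    apply Subtype.ext
    show g₀⁻¹ * (g₀ * n.1) = n.1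
    rw [inv_mul_cancel_left]

open Cfsg.Agent.Lib.Helper53.SylowConj Cfsg.Agent.Lib.Helper53.SylowMore in
theorem le_inv_smul_iff {p : ℕ} (H : Subgroup G) (P : Sylow p G) (g : G) :
    H ≤ ((g⁻¹ • P : Sylow p G) : Subgroup G) ↔
      H.map (MulAut.conj g).toMonoidHom ≤ (P : Subgroup G) := by
  rw [map_conj_le_iff]
  constructor
  · intro h w hw
    have := (mem_smul_sylow_iff P g⁻¹ w).mp (h hw)
    simpa using this
  · intro h w hw
    rw [mem_smul_sylow_iff]
    simpa using h w hw

theorem count2 (p : ℕ) [Fact p.Prime] (H : Subgroup G) (P : Sylow p G) :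
    Nat.card {g : G // H.map (MulAut.conj g).toMonoidHom ≤ (P : Subgroup G)} =
      Nat.card {Q : Sylow p G // H ≤ (Q : Subgroup G)} *
        Nat.card (Subgroup.normalizer ((P : Subgroup G) : Set G)) := by
  refine fiber_count (fun a : {g : G // H.map (MulAut.conj g).toMonoidHom ≤ (P : Subgroup G)} =>
    (⟨a.1⁻¹ • P, (le_inv_smul_iff H P a.1).mpr a.2⟩ :
      {Q : Sylow p G // H ≤ (Q : Subgroup G)})) _ ?_
  rintro ⟨Q, hHQ⟩
  obtain ⟨g₀, hg₀⟩ := MulAction.exists_smul_eq G P Q
  refine Nat.card_congr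
    { toFun := fun a => ⟨a.1.1 * g₀, ?_⟩
      invFun := fun n => ⟨⟨n.1 * g₀⁻¹, ?_⟩, ?_⟩
      left_inv := ?_
      right_inv := ?_ }
  · have h1 : a.1.1⁻¹ • P = Q := congrArg Subtype.val a.2
    apply Sylow.smul_eq_iff_mem_normalizer.mp
    rw [mul_smul, hg₀]
    have h2 := congrArg (fun X : Sylow p G => a.1.1 • X) h1
    simp only [smul_inv_smul] at h2
    exact h2.symm
  · rw [← le_inv_smul_iff]
    have hn : n.1⁻¹ • P = P := Sylow.smul_eq_iff_mem_normalizer.mpr (Subgroup.inv_mem _ n.2)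
    rw [mul_inv_rev, inv_inv, mul_smul, hn, hg₀]
    exact hHQ
  · apply Subtype.ext
    show (n.1 * g₀⁻¹)⁻¹ • P = Q
    have hn : n.1⁻¹ • P = P := Sylow.smul_eq_iff_mem_normalizer.mpr (Subgroup.inv_mem _ n.2)
    rw [mul_inv_rev, inv_inv, mul_smul, hn, hg₀]
  · intro a
    apply Subtype.ext
    apply Subtype.ext
    show a.1.1 * g₀ * g₀⁻¹ = a.1.1
    rw [mul_inv_cancel_right]
  · intro n
    apply Subtype.ext
    show n.1 * g₀⁻¹ * g₀ = n.1
    rw [inv_mul_cancel_right]

end final

/-- Let G be a finite group, p a prime dividing the order of G, H a p-subgroup of G and P a Sylow p-subgroup of G. Call the subnormalizer of H the set of elements g of G such that H is subnormal in the subgroup generated by H and g. Then the number of elements of the subnormalizer of H equals the number of Sylow p-subgroups of G containing H times the order of N_G(P), and also equals the number of conjugates of H contained in P times the order of N_G(H). -/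
theorem result {G : Type*} [Group G] [Finite G] (p : ℕ) [Fact p.Prime]
    (hp : p ∣ Nat.card G) (H : Subgroup G) (hH : IsPGroup p H) (P : Sylow p G) :
    Nat.card {g : G // ((H).subgroupOf (H ⊔ Subgroup.zpowers g)).IsSubnormal} =
        Nat.card {Q : Sylow p G // H ≤ (Q : Subgroup G)} * Nat.card (Subgroup.normalizer ((P : Subgroup G) : Set G)) ∧
    Nat.card {g : G // ((H).subgroupOf (H ⊔ Subgroup.zpowers g)).IsSubnormal} =
        Nat.card {K : Subgroup G // K ≤ (P : Subgroup G) ∧ ∃ g : G, K = H.map (MulAut.conj g).toMonoidHom} *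
          Nat.card (Subgroup.normalizer (H : Set G)) := by
  have _ := hp
  have hS : Nat.card {g : G // ((H).subgroupOf (H ⊔ Subgroup.zpowers g)).IsSubnormal} =
      Nat.card {Q : Sylow p G // H ≤ (Q : Subgroup G)} *
        Nat.card (Subgroup.normalizer ((P : Subgroup G) : Set G)) := by
    have := Fintype.ofFinite (Subgroup G)
    have e : Nat.card {g : G // ((H).subgroupOf (H ⊔ Subgroup.zpowers g)).IsSubnormal} =
        Nat.card {g : G // ∃ Q : Subgroup G, IsPGroup p Q ∧ H ≤ Q ∧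
          g ∈ Subgroup.normalizer (Q : Set G)} :=
      Nat.card_congr (Equiv.subtypeEquivRight (fun g =>
        ⟨fun h => Cfsg.Agent.S4089.exists_of_subn p hH h,
          fun ⟨_, hR, hHR, hg⟩ => Cfsg.Agent.S4089.subn_of_normalizer p hR hHR hg⟩))
    rw [e]
    have hm := main_count p H
    rw [← Nat.cast_sum, Nat.cast_inj] at hm
    rw [hm, sum_max p H P]
  refine ⟨hS, ?_⟩
  rw [hS, ← count2 p H P, count1]

end Cfsg.Agent.S4088
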