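import Cfsg.Statements.S4091
import Cfsg.Agent.S4088
import Cfsg.Agent.S4090
import Cfsg.Agent.Lib.Helper62.CoprimeProd

set_option autoImplicit false
set_option linter.style.haveILetI false
open Cfsg

namespace Cfsg.Agent.S4091

open Cfsg.Agent.Lib.Helper22.BrauerWielandt (conj_eq_iff_mem_centralizer)

/-- the number of Sylow `p`-subgroups containing `g` -/
noncomputable def lam {G : Type*} [Group G] (p : ℕ) [Fact p.Prime] (g : G) : ℕ :=
  Nat.card {Q' : Sylow p G // Subgroup.zpowers g ≤ (Q' : Subgroup G)}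

/-- AM–GM in power form. -/
theorem amgm {ι : Type*} [Fintype ι] [Nonempty ι] (a : ι → ℝ) (ha : ∀ i, 0 ≤ a i) :
    (Fintype.card ι : ℝ) ^ Fintype.card ι * ∏ i, a i ≤ (∑ i, a i) ^ Fintype.card ι := by
  have hN : (0 : ℝ) < Fintype.card ι := by exact_mod_cast Fintype.card_pos
  have hN0 : Fintype.card ι ≠ 0 := Fintype.card_ne_zero
  have h1 := Real.geom_mean_le_arith_mean_weighted Finset.univ
    (fun _ : ι => ((Fintype.card ι : ℝ))⁻¹) a
    (fun i _ => (inv_pos.mpr hN).le)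
    (by rw [Finset.sum_const, Finset.card_univ, nsmul_eq_mul, mul_inv_cancel₀ hN.ne'])
    (fun i _ => ha i)
  beta_reduce at h1
  rw [Real.finsetProd_rpow _ _ (fun i _ => ha i), ← Finset.mul_sum] at h1
  have hP : 0 ≤ ∏ i, a i := Finset.prod_nonneg (fun i _ => ha i)
  have h2 := pow_le_pow_left₀ (Real.rpow_nonneg hP _) h1 (Fintype.card ι)
  rw [Real.rpow_inv_natCast_pow hP hN0, mul_pow, inv_pow] at h2
  calc (Fintype.card ι : ℝ) ^ Fintype.card ι * ∏ i, a i
      ≤ (Fintype.card ι : ℝ) ^ Fintype.card ι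
          * (((Fintype.card ι : ℝ) ^ Fintype.card ι)⁻¹ * (∑ i, a i) ^ Fintype.card ι) :=
        mul_le_mul_of_nonneg_left h2 (pow_nonneg hN.le _)
    _ = (∑ i, a i) ^ Fintype.card ι := by
        rw [← mul_assoc, mul_inv_cancel₀ (pow_ne_zero _ hN.ne'), one_mul]

/-- the final real-number manipulation -/
theorem real_aux (N p nS Λ : ℕ) (T : ℝ) (hN : N ≠ 0) (hT : 0 ≤ T) (hΛpos : 0 < Λ)
    (hamgm : (N : ℝ) ^ N * ((Λ : ℝ))⁻¹ ≤ T ^ N) (hΛ : Λ ^ p ≤ nS ^ N) :
    (N : ℝ) ^ p ≤ (nS : ℝ) * T ^ p := by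
  have hΛR : (0 : ℝ) < (Λ : ℝ) := Nat.cast_pos.mpr hΛpos
  have h1 : (N : ℝ) ^ N ≤ T ^ N * (Λ : ℝ) := by
    have h := mul_le_mul_of_nonneg_right hamgm hΛR.le
    rwa [mul_assoc, inv_mul_cancel₀ hΛR.ne', mul_one] at h
  have h3 : ((N : ℝ) ^ N) ^ p ≤ (T ^ N * (Λ : ℝ)) ^ p :=
    pow_le_pow_left₀ (pow_nonneg (Nat.cast_nonneg _) _) h1 p
  have h4 : ((Λ : ℝ)) ^ p ≤ (nS : ℝ) ^ N := by exact_mod_cast hΛ
  have h2 : ((N : ℝ) ^ p) ^ N ≤ ((nS : ℝ) * T ^ p) ^ N := by
    calc ((N : ℝ) ^ p) ^ N = ((N : ℝ) ^ N) ^ p := by rw [← pow_mul, ← pow_mul, mul_comm]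
      _ ≤ (T ^ N * (Λ : ℝ)) ^ p := h3
      _ = (T ^ p) ^ N * (Λ : ℝ) ^ p := by
          rw [mul_pow, ← pow_mul, ← pow_mul, mul_comm N p]
      _ ≤ (T ^ p) ^ N * (nS : ℝ) ^ N :=
          mul_le_mul_of_nonneg_left h4 (pow_nonneg (pow_nonneg hT _) _)
      _ = ((nS : ℝ) * T ^ p) ^ N := by rw [mul_pow, mul_comm]
  exact (pow_le_pow_iff_left₀ (pow_nonneg (Nat.cast_nonneg _) _)
    (mul_nonneg (Nat.cast_nonneg _) (pow_nonneg hT _)) hN).mp h2

/-- double counting: the number of `p`-elements as a weighted sum over the Sylow subgroups -/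
theorem count_identity {G : Type*} [Group G] [Fintype G] (p : ℕ) [Fact p.Prime]
    [Fintype (Sylow p G)] [∀ Q : Sylow p G, Fintype ↥(Q : Subgroup G)] :
    (Nat.card {g : G // ∃ k : ℕ, orderOf g = p ^ k} : ℝ) =
      ∑ Q : Sylow p G, ∑ x : ↥(Q : Subgroup G), ((lam p (x : G) : ℝ))⁻¹ := by
  classical
  have hpr : p.Prime := Fact.out
  have hlam : ∀ g : G, lam p g =
      (Finset.univ.filter (fun Q' : Sylow p G => g ∈ (Q' : Subgroup G))).card := by
    intro g
    unfold lam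
    rw [← Fintype.card_subtype, ← Nat.card_eq_fintype_card]
    exact Nat.card_congr (Equiv.subtypeEquivRight (fun Q' => Subgroup.zpowers_le))
  have hiff : ∀ g : G, (∃ k : ℕ, orderOf g = p ^ k) ↔
      ∃ Q' : Sylow p G, g ∈ (Q' : Subgroup G) := by
    intro g
    constructor
    · rintro ⟨k, hk⟩
      have h1 : IsPGroup p (Subgroup.zpowers g) :=
        IsPGroup.of_card (by rw [Nat.card_zpowers, hk])
      obtain ⟨Q', hQ'⟩ := h1.exists_le_sylow
      exact ⟨Q', hQ' (Subgroup.mem_zpowers g)⟩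
    · rintro ⟨Q', hg⟩
      obtain ⟨k, hk⟩ := Q'.isPGroup' ⟨g, hg⟩
      have h1 : g ^ p ^ k = 1 := by
        have h := congrArg Subtype.val hk
        simpa using h
      obtain ⟨j, -, hj⟩ := (Nat.dvd_prime_pow hpr).mp (orderOf_dvd_of_pow_eq_one h1)
      exact ⟨j, hj⟩
  have s1 : ∀ Q : Sylow p G, ∑ x : ↥(Q : Subgroup G), ((lam p (x : G) : ℝ))⁻¹
      = ∑ g : G, if g ∈ (Q : Subgroup G) then ((lam p g : ℝ))⁻¹ else 0 := by
    intro Q
    rw [← Finset.sum_filter]
    exact (Finset.sum_subtype (Finset.univ.filter (fun g => g ∈ (Q : Subgroup G)))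
      (by simp) (fun g => ((lam p g : ℝ))⁻¹)).symm
  have s3 : ∀ g : G, ∑ Q : Sylow p G, (if g ∈ (Q : Subgroup G) then ((lam p g : ℝ))⁻¹ else 0) =
      if (∃ k : ℕ, orderOf g = p ^ k) then (1 : ℝ) else 0 := by
    intro g
    rw [← Finset.sum_filter, Finset.sum_const, nsmul_eq_mul, hlam g]
    by_cases hg : ∃ k : ℕ, orderOf g = p ^ k
    · rw [if_pos hg]
      have hne : (Finset.univ.filter (fun Q' : Sylow p G => g ∈ (Q' : Subgroup G))).card ≠ 0 := by
        obtain ⟨Q', hQ'⟩ := (hiff g).mp hg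
        exact Finset.card_ne_zero_of_mem (Finset.mem_filter.mpr ⟨Finset.mem_univ _, hQ'⟩)
      exact mul_inv_cancel₀ (Nat.cast_ne_zero.mpr hne)
    · rw [if_neg hg]
      have h0 : (Finset.univ.filter (fun Q' : Sylow p G => g ∈ (Q' : Subgroup G))).card = 0 := by
        rw [Finset.card_eq_zero, Finset.filter_eq_empty_iff]
        intro Q' _ hQ'
        exact hg ((hiff g).mpr ⟨Q', hQ'⟩)
      rw [h0, Nat.cast_zero, zero_mul]
  have s4 : (Nat.card {g : G // ∃ k : ℕ, orderOf g = p ^ k} : ℝ)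
      = ∑ g : G, if (∃ k : ℕ, orderOf g = p ^ k) then (1 : ℝ) else 0 := by
    rw [Finset.sum_boole, Nat.card_eq_fintype_card, Fintype.card_subtype]
  calc (Nat.card {g : G // ∃ k : ℕ, orderOf g = p ^ k} : ℝ)
      = ∑ g : G, if (∃ k : ℕ, orderOf g = p ^ k) then (1 : ℝ) else 0 := s4
    _ = ∑ g : G, ∑ Q : Sylow p G, (if g ∈ (Q : Subgroup G) then ((lam p g : ℝ))⁻¹ else 0) :=
        Finset.sum_congr rfl (fun g _ => (s3 g).symm)
    _ = ∑ Q : Sylow p G, ∑ g : G, (if g ∈ (Q : Subgroup G) then ((lam p g : ℝ))⁻¹ else 0) :=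
        Finset.sum_comm
    _ = ∑ Q : Sylow p G, ∑ x : ↥(Q : Subgroup G), ((lam p (x : G) : ℝ))⁻¹ :=
        Finset.sum_congr rfl (fun Q _ => (s1 Q).symm)

/-- the centralizer factor, as an honest centralizer in the quotient -/
theorem cfac_eq {G : Type*} [Group G] [Finite G] (p : ℕ) {G' : Type*} [Group G']
    (H N N' : Subgroup G) (π : G →* G') (hπ : Function.Surjective π) (hker : π.ker = N)
    (hNN' : N ≤ N') (hcop : (N.relIndex N').Coprime p) (T : Set G')
    (hT : ∀ u : G', (∀ h ∈ H.map π, h * u * h⁻¹ * u⁻¹ ∈ (⊥ : Subgroup G')) ↔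
      u ∈ Subgroup.centralizer T) :
    S4090.cfac p H N N' = Nat.card ↥(N'.map π ⊓ Subgroup.centralizer T) := by
  have h4 : Nat.card ↥{u : G | u ∈ N' ∧ ∀ h ∈ H, h * u * h⁻¹ * u⁻¹ ∈ N} =
      Nat.card ↥{u : G' | u ∈ N'.map π ∧
        ∀ h ∈ H.map π, h * u * h⁻¹ * u⁻¹ ∈ (⊥ : Subgroup G')} * Nat.card ↥π.ker := by
    rw [S4090.Kset_eq_preimage H N N' π hker hNN']
    exact S4090.card_preimage π hπ _
  rw [hker] at h4
  have h5 : Nat.card ↥{u : G' | u ∈ N'.map π ∧
        ∀ h ∈ H.map π, h * u * h⁻¹ * u⁻¹ ∈ (⊥ : Subgroup G')}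
      = Nat.card ↥(N'.map π ⊓ Subgroup.centralizer T) :=
    Nat.card_congr (Equiv.subtypeEquivRight (fun u => by
      show (u ∈ N'.map π ∧ ∀ h ∈ H.map π, h * u * h⁻¹ * u⁻¹ ∈ (⊥ : Subgroup G')) ↔
        u ∈ N'.map π ⊓ Subgroup.centralizer T
      rw [Subgroup.mem_inf, hT u]))
  have hNpos : 0 < Nat.card ↥N := Nat.card_pos
  unfold S4090.cfac
  rw [if_pos hcop]
  show Nat.card ↥{u : G | u ∈ N' ∧ ∀ h ∈ H, h * u * h⁻¹ * u⁻¹ ∈ N} / Nat.card ↥N = _
  rw [h4, Nat.mul_div_cancel _ hNpos, h5]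

theorem hT_zpowers {G G' : Type*} [Group G] [Group G'] (π : G →* G') (x : G) (u : G') :
    (∀ h ∈ (Subgroup.zpowers x).map π, h * u * h⁻¹ * u⁻¹ ∈ (⊥ : Subgroup G')) ↔
      u ∈ Subgroup.centralizer ({π x} : Set G') := by
  constructor
  · intro h
    have h1 := h (π x) (Subgroup.mem_map_of_mem π (Subgroup.mem_zpowers x))
    rw [Subgroup.mem_bot, mul_inv_eq_one] at h1
    rw [Subgroup.mem_centralizer_singleton_iff]
    exact (mul_inv_eq_iff_eq_mul.mp h1).symm
  · intro hu h hh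
    rw [MonoidHom.map_zpowers] at hh
    have h1 : π x ∈ Subgroup.centralizer ({u} : Set G') := by
      rw [Subgroup.mem_centralizer_singleton_iff]
      exact (Subgroup.mem_centralizer_singleton_iff.mp hu).symm
    have h2 := (Subgroup.zpowers_le.mpr h1) hh
    rw [Subgroup.mem_centralizer_singleton_iff] at h2
    rw [Subgroup.mem_bot, h2, mul_inv_cancel_right, mul_inv_cancel]

theorem hT_range {G G' : Type*} [Group G] [Group G'] (π : G →* G') (H : Subgroup G) (u : G') :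
    (∀ h ∈ H.map π, h * u * h⁻¹ * u⁻¹ ∈ (⊥ : Subgroup G')) ↔
      u ∈ Subgroup.centralizer (Set.range (π.comp H.subtype)) := by
  constructor
  · intro h
    rw [Subgroup.mem_centralizer_iff]
    rintro _ ⟨y, rfl⟩
    have h1 := h (π (y : G)) (Subgroup.mem_map_of_mem π y.2)
    rw [Subgroup.mem_bot, mul_inv_eq_one] at h1
    exact mul_inv_eq_iff_eq_mul.mp h1
  · rintro hu _ ⟨y, hy, rfl⟩
    have h1 : π y * u = u * π y :=
      (Subgroup.mem_centralizer_iff.mp hu) (π y) ⟨⟨y, hy⟩, rfl⟩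
    rw [Subgroup.mem_bot, h1, mul_inv_cancel_right, mul_inv_cancel]

/-- the inequality for one factor of the chain -/
theorem factor_ineq {G : Type*} [Group G] [Finite G] (p : ℕ) [Fact p.Prime] (Q : Sylow p G)
    [Fintype ↥(Q : Subgroup G)] (N N' : Subgroup G) (hNn : N.Normal) (hN'n : N'.Normal)
    (hNN' : N ≤ N') :
    ∏ x : ↥(Q : Subgroup G), S4090.cfac p (Subgroup.zpowers (x : G)) N N' ^ p ≤
      S4090.rfac p N N' ^ Fintype.card ↥(Q : Subgroup G) *
        S4090.cfac p (Q : Subgroup G) N N' ^ ((p - 1) * Fintype.card ↥(Q : Subgroup G)) := by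
  by_cases hc : (N.relIndex N').Coprime p
  · obtain ⟨π, hsurj, hker⟩ : ∃ π : G →* G ⧸ N, Function.Surjective π ∧ π.ker = N :=
      ⟨QuotientGroup.mk' N, QuotientGroup.mk'_surjective N, QuotientGroup.ker_mk' N⟩
    have hVn : (N'.map π).Normal := Subgroup.Normal.map hN'n π hsurj
    have hcardV : Nat.card ↥(N'.map π) = N.relIndex N' := by
      rw [← Subgroup.relIndex_bot_left, ← Subgroup.relIndex_comap, MonoidHom.comap_bot, hker]
    have hVp : ¬ p ∣ Nat.card ↥(N'.map π) := by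
      rw [hcardV]
      exact (Nat.Prime.coprime_iff_not_dvd Fact.out).mp hc.symm
    have key := Cfsg.Agent.Lib.Helper62.CoprimeProd.key_ineq (p := p) Q.isPGroup'
      (π.comp (Q : Subgroup G).subtype) _ (N'.map π) rfl hVp
      (fun x v hv => hVn.conj_mem v hv _)
    have e1 : ∀ x : ↥(Q : Subgroup G), S4090.cfac p (Subgroup.zpowers (x : G)) N N'
        = Nat.card ↥(N'.map π ⊓ Subgroup.centralizer {(π.comp (Q : Subgroup G).subtype) x}) :=
      fun x => cfac_eq p _ N N' π hsurj hker hNN' hc _ (hT_zpowers π (x : G))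
    have e2 : S4090.cfac p (Q : Subgroup G) N N'
        = Nat.card ↥(N'.map π ⊓
            Subgroup.centralizer (Set.range (π.comp (Q : Subgroup G).subtype))) :=
      cfac_eq p _ N N' π hsurj hker hNN' hc _ (hT_range π (Q : Subgroup G))
    have e3 : S4090.rfac p N N' = Nat.card ↥(N'.map π) := by
      unfold S4090.rfac
      rw [if_pos hc, hcardV]
    rw [e2, e3, Finset.prod_congr rfl (fun x _ => congrArg (· ^ p) (e1 x))]
    exact key
  · have e1 : ∀ H : Subgroup G, S4090.cfac p H N N' = 1 := fun H => by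
      unfold S4090.cfac
      rw [if_neg hc]
    have e3 : S4090.rfac p N N' = 1 := by
      unfold S4090.rfac
      rw [if_neg hc]
    simp only [e1, e3, one_pow, Finset.prod_const_one, mul_one, le_refl]

/-- the key inequality: the product of the numbers of Sylow subgroups containing the elements
of a Sylow subgroup `Q` -/
theorem lam_prod_le {G : Type*} [Group G] [Finite G] (p : ℕ) [Fact p.Prime]
    (hG : Cfsg.IsPSolvable p G) (hp : p ∣ Nat.card G) (Q : Sylow p G)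
    [Fintype ↥(Q : Subgroup G)] :
    (∏ x : ↥(Q : Subgroup G), lam p (x : G)) ^ p ≤
      Nat.card (Sylow p G) ^ Fintype.card ↥(Q : Subgroup G) := by
  have hpr : p.Prime := Fact.out
  have hG' := hG
  obtain ⟨n, M, h0, hn, hmono, hnormal, hfac⟩ := hG'
  have hN'pos : 0 < Nat.card ↥(Q : Subgroup G) := Nat.card_pos
  have hA : ∀ H : Subgroup G, IsPGroup p H →
      Nat.card {Q' : Sylow p G // H ≤ (Q' : Subgroup G)}
          * Nat.card ↥(Subgroup.normalizer ((Q : Subgroup G) : Set G)) =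
        Nat.card ↥(Q : Subgroup G) * ∏ i : Fin n, S4090.cfac p H (M i.castSucc) (M i.succ) :=
    fun H hH => (S4088.result p hp H hH Q).1.symm.trans
      (S4090.result p hG H hH Q n M h0 hn hmono hnormal hfac)
  have hone : Nat.card {Q' : Sylow p G // (Q : Subgroup G) ≤ (Q' : Subgroup G)} = 1 := by
    haveI : Unique {Q' : Sylow p G // (Q : Subgroup G) ≤ (Q' : Subgroup G)} :=
      { default := ⟨Q, le_rfl⟩
        uniq := fun Q' => Subtype.ext (Sylow.ext (Q.is_maximal' Q'.1.isPGroup' Q'.2)) }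
    exact Nat.card_unique
  obtain ⟨cfQ, hcfQ⟩ : ∃ cfQ : ℕ,
      cfQ = ∏ i : Fin n, S4090.cfac p (Q : Subgroup G) (M i.castSucc) (M i.succ) := ⟨_, rfl⟩
  obtain ⟨m, hm⟩ : ∃ m : ℕ, m = ∏ i : Fin n, S4090.rfac p (M i.castSucc) (M i.succ) :=
    ⟨_, rfl⟩
  have hF2 : Nat.card ↥(Subgroup.normalizer ((Q : Subgroup G) : Set G))
      = Nat.card ↥(Q : Subgroup G) * cfQ := by
    have h := hA (Q : Subgroup G) Q.isPGroup'
    rw [hone, one_mul, ← hcfQ] at h
    exact h
  have hF3 : Nat.card (Sylow p G) * Nat.card ↥(Subgroup.normalizer ((Q : Subgroup G) : Set G))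
      = Nat.card G := by
    rw [Sylow.card_eq_index_normalizer Q]
    exact Subgroup.index_mul_card _
  obtain ⟨-, e, h2⟩ := S4090.chain_count p (IsPGroup.of_bot : IsPGroup p (⊥ : Subgroup G)) n M
    h0 hmono hnormal hfac
  rw [hn, Subgroup.card_top, ← hm] at h2
  have hR : m.Coprime p := by
    rw [hm]
    apply Nat.Coprime.prod_left
    intro i _
    unfold S4090.rfac
    split_ifs with hc
    · exact hc
    · exact Nat.coprime_one_left p
  have hPc : Nat.card ↥(Q : Subgroup G) = p ^ e := by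
    obtain ⟨b, hb⟩ := IsPGroup.iff_card.mp Q.isPGroup'
    have h3 := Subgroup.card_mul_index (Q : Subgroup G)
    rw [hb, h2] at h3
    rw [hb]
    exact S4090.pow_eq_of_mul_eq hpr Q.not_dvd_index hR h3
  have hF4 : Nat.card G = Nat.card ↥(Q : Subgroup G) * m := by rw [h2, hPc]
  have hmeq : Nat.card (Sylow p G) * cfQ = m := by
    apply Nat.eq_of_mul_eq_mul_left hN'pos
    calc Nat.card ↥(Q : Subgroup G) * (Nat.card (Sylow p G) * cfQ)
        = Nat.card (Sylow p G) * (Nat.card ↥(Q : Subgroup G) * cfQ) := by ring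
      _ = Nat.card (Sylow p G)
            * Nat.card ↥(Subgroup.normalizer ((Q : Subgroup G) : Set G)) := by rw [← hF2]
      _ = Nat.card G := hF3
      _ = Nat.card ↥(Q : Subgroup G) * m := hF4
  have hcfQpos : 0 < cfQ := by
    rcases Nat.eq_zero_or_pos cfQ with h | h
    · rw [h, mul_zero] at hF2
      exact absurd hF2 Nat.card_pos.ne'
    · exact h
  have hx : ∀ x : ↥(Q : Subgroup G),
      ∏ i : Fin n, S4090.cfac p (Subgroup.zpowers (x : G)) (M i.castSucc) (M i.succ)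
        = lam p (x : G) * cfQ := by
    intro x
    have h : lam p (x : G) * Nat.card ↥(Subgroup.normalizer ((Q : Subgroup G) : Set G)) =
        Nat.card ↥(Q : Subgroup G)
          * ∏ i : Fin n, S4090.cfac p (Subgroup.zpowers (x : G)) (M i.castSucc) (M i.succ) :=
      hA (Subgroup.zpowers (x : G)) (Q.isPGroup'.to_le (Subgroup.zpowers_le.mpr x.2))
    rw [hF2] at h
    apply Nat.eq_of_mul_eq_mul_left hN'pos
    rw [← h]
    ring
  -- the product inequality over the chain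
  have hL : ∏ x : ↥(Q : Subgroup G),
      (∏ i : Fin n, S4090.cfac p (Subgroup.zpowers (x : G)) (M i.castSucc) (M i.succ)) ^ p
        ≤ m ^ Fintype.card ↥(Q : Subgroup G)
          * cfQ ^ ((p - 1) * Fintype.card ↥(Q : Subgroup G)) := by
    have s1 : ∏ x : ↥(Q : Subgroup G),
        (∏ i : Fin n, S4090.cfac p (Subgroup.zpowers (x : G)) (M i.castSucc) (M i.succ)) ^ p
        = ∏ i : Fin n, ∏ x : ↥(Q : Subgroup G),
          S4090.cfac p (Subgroup.zpowers (x : G)) (M i.castSucc) (M i.succ) ^ p := by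
      rw [Finset.prod_comm]
      exact Finset.prod_congr rfl (fun x _ => (Finset.prod_pow _ _ _).symm)
    rw [s1, hm, hcfQ, ← Finset.prod_pow, ← Finset.prod_pow, ← Finset.prod_mul_distrib]
    exact Finset.prod_le_prod (fun _ _ => Nat.zero_le _)
      (fun i _ => factor_ineq p Q (M i.castSucc) (M i.succ) (hnormal _) (hnormal _)
        (hmono (le_of_lt Fin.castSucc_lt_succ)))
  have e9a : ∀ x : ↥(Q : Subgroup G),
      (∏ i : Fin n, S4090.cfac p (Subgroup.zpowers (x : G)) (M i.castSucc) (M i.succ)) ^ p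
        = lam p (x : G) ^ p * cfQ ^ p := fun x => by rw [hx x, mul_pow]
  have e9 : ∏ x : ↥(Q : Subgroup G),
      (∏ i : Fin n, S4090.cfac p (Subgroup.zpowers (x : G)) (M i.castSucc) (M i.succ)) ^ p
        = (∏ x : ↥(Q : Subgroup G), lam p (x : G)) ^ p
          * cfQ ^ (p * Fintype.card ↥(Q : Subgroup G)) := by
    rw [Finset.prod_congr rfl (fun x _ => e9a x), Finset.prod_mul_distrib, Finset.prod_pow,
      Finset.prod_const, Finset.card_univ, ← pow_mul]
  have hexp : Fintype.card ↥(Q : Subgroup G) + (p - 1) * Fintype.card ↥(Q : Subgroup G)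
      = p * Fintype.card ↥(Q : Subgroup G) := by
    have h1 : p - 1 + 1 = p := Nat.sub_add_cancel hpr.one_lt.le
    calc Fintype.card ↥(Q : Subgroup G) + (p - 1) * Fintype.card ↥(Q : Subgroup G)
        = (p - 1 + 1) * Fintype.card ↥(Q : Subgroup G) := by ring
      _ = p * Fintype.card ↥(Q : Subgroup G) := by rw [h1]
  have e10 : m ^ Fintype.card ↥(Q : Subgroup G)
        * cfQ ^ ((p - 1) * Fintype.card ↥(Q : Subgroup G))
      = Nat.card (Sylow p G) ^ Fintype.card ↥(Q : Subgroup G)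
        * cfQ ^ (p * Fintype.card ↥(Q : Subgroup G)) := by
    rw [← hmeq, mul_pow, mul_assoc, ← pow_add, hexp]
  rw [e9, e10] at hL
  exact Nat.le_of_mul_le_mul_right hL (pow_pos hcfQpos _)

/-- the inequality for one Sylow subgroup -/
theorem sylow_ineq {G : Type*} [Group G] [Finite G] (p : ℕ) [Fact p.Prime]
    (hG : Cfsg.IsPSolvable p G) (hp : p ∣ Nat.card G) (Q : Sylow p G)
    [Fintype ↥(Q : Subgroup G)] :
    (Nat.card ↥(Q : Subgroup G) : ℝ) ^ p ≤
      (Nat.card (Sylow p G) : ℝ) * (∑ x : ↥(Q : Subgroup G), ((lam p (x : G) : ℝ))⁻¹) ^ p := by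
  have hΛ := lam_prod_le p hG hp Q
  have hlampos : ∀ x : ↥(Q : Subgroup G), 0 < lam p (x : G) := by
    intro x
    unfold lam
    haveI : Nonempty {Q' : Sylow p G // Subgroup.zpowers (x : G) ≤ (Q' : Subgroup G)} :=
      ⟨⟨Q, Subgroup.zpowers_le.mpr x.2⟩⟩
    exact Nat.card_pos
  have hamgm := amgm (fun x : ↥(Q : Subgroup G) => ((lam p (x : G) : ℝ))⁻¹)
    (fun x => inv_nonneg.mpr (Nat.cast_nonneg _))
  have hcast : (∏ x : ↥(Q : Subgroup G), ((lam p (x : G) : ℝ))⁻¹)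
      = (((∏ x : ↥(Q : Subgroup G), lam p (x : G) : ℕ) : ℝ))⁻¹ := by
    rw [Finset.prod_inv_distrib, Nat.cast_prod]
  rw [hcast] at hamgm
  have hNc : (Nat.card ↥(Q : Subgroup G) : ℝ) = (Fintype.card ↥(Q : Subgroup G) : ℝ) := by
    rw [Nat.card_eq_fintype_card]
  rw [hNc]
  exact real_aux _ p _ _ _ Fintype.card_ne_zero
    (Finset.sum_nonneg (fun x _ => inv_nonneg.mpr (Nat.cast_nonneg _)))
    (Finset.prod_pos (fun x _ => hlampos x)) hamgm hΛ

/-- Let G be a finite p-solvable group, P a Sylow p-subgroup of G, u the number of p-elements of G (elements of p-power order, the identity included) and n the number of Sylow p-subgroups of G. Then u/#P ≥ n^((p−1)/p), stated as u^p ≥ #P^p · n^(p−1). -/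
theorem result {G : Type*} [Group G] [Finite G] (p : ℕ) [Fact p.Prime]
    (hG : Cfsg.IsPSolvable p G) (P : Sylow p G) :
    Nat.card (P : Subgroup G) ^ p * Nat.card (Sylow p G) ^ (p - 1) ≤ Nat.card {g : G // ∃ k : ℕ, orderOf g = p ^ k} ^ p := by
  classical
  have hpr : p.Prime := Fact.out
  by_cases hp : p ∣ Nat.card G
  swap
  · have hcardP : ∀ Q : Sylow p G, Nat.card ↥(Q : Subgroup G) = 1 := by
      intro Q
      obtain ⟨k, hk⟩ := IsPGroup.iff_card.mp Q.isPGroup'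
      rcases Nat.eq_zero_or_pos k with h0 | hpos
      · rw [hk, h0, pow_zero]
      · exfalso
        apply hp
        have h1 : p ∣ p ^ k := dvd_pow_self p hpos.ne'
        rw [← hk] at h1
        exact h1.trans (Subgroup.card_subgroup_dvd_card _)
    haveI hsub : Subsingleton (Sylow p G) := by
      constructor
      intro Q₁ Q₂
      apply Sylow.ext
      rw [Subgroup.eq_bot_of_card_eq _ (hcardP Q₁), Subgroup.eq_bot_of_card_eq _ (hcardP Q₂)]
    have hn1 : Nat.card (Sylow p G) = 1 := Nat.card_unique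
    haveI : Nonempty {g : G // ∃ k : ℕ, orderOf g = p ^ k} :=
      ⟨⟨1, 0, by rw [orderOf_one, pow_zero]⟩⟩
    rw [hcardP P, hn1, one_pow, one_pow, one_mul]
    exact Nat.one_le_pow _ _ Nat.card_pos
  haveI : Fintype G := Fintype.ofFinite G
  haveI : Fintype (Sylow p G) := Fintype.ofFinite _
  obtain ⟨W, hW⟩ : ∃ W : Sylow p G → ℝ,
      ∀ Q, W Q = ∑ x : ↥(Q : Subgroup G), ((lam p (x : G) : ℝ))⁻¹ := ⟨_, fun _ => rfl⟩
  have hcount : (Nat.card {g : G // ∃ k : ℕ, orderOf g = p ^ k} : ℝ)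
      = ∑ Q : Sylow p G, W Q := by
    rw [count_identity (G := G) p]
    exact Finset.sum_congr rfl (fun Q _ => (hW Q).symm)
  have hmain : ∀ Q : Sylow p G,
      (Nat.card ↥(Q : Subgroup G) : ℝ) ^ p ≤ (Nat.card (Sylow p G) : ℝ) * W Q ^ p := by
    intro Q
    rw [hW]
    exact sylow_ineq p hG hp Q
  obtain ⟨Q₀, -, hQ₀⟩ := Finset.exists_min_image Finset.univ W ⟨P, Finset.mem_univ P⟩
  have hWnn : 0 ≤ W Q₀ := by
    rw [hW]
    exact Finset.sum_nonneg (fun x _ => inv_nonneg.mpr (Nat.cast_nonneg _))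
  have h1 : (Nat.card (Sylow p G) : ℝ) * W Q₀
      ≤ (Nat.card {g : G // ∃ k : ℕ, orderOf g = p ^ k} : ℝ) := by
    rw [hcount]
    calc (Nat.card (Sylow p G) : ℝ) * W Q₀ = ∑ Q : Sylow p G, W Q₀ := by
          rw [Finset.sum_const, Finset.card_univ, nsmul_eq_mul, Nat.card_eq_fintype_card]
      _ ≤ ∑ Q : Sylow p G, W Q := Finset.sum_le_sum (fun Q _ => hQ₀ Q (Finset.mem_univ Q))
  have hcardeq : Nat.card ↥(Q₀ : Subgroup G) = Nat.card ↥(P : Subgroup G) := by
    rw [Sylow.card_eq_multiplicity, Sylow.card_eq_multiplicity]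
  have h2 : ((Nat.card ↥(P : Subgroup G) : ℝ)) ^ p * (Nat.card (Sylow p G) : ℝ) ^ (p - 1)
      ≤ (Nat.card {g : G // ∃ k : ℕ, orderOf g = p ^ k} : ℝ) ^ p := by
    have h3 := hmain Q₀
    rw [hcardeq] at h3
    have hnn : (0 : ℝ) ≤ (Nat.card (Sylow p G) : ℝ) := Nat.cast_nonneg _
    have hp1 : p - 1 + 1 = p := Nat.sub_add_cancel hpr.one_lt.le
    have e : (Nat.card (Sylow p G) : ℝ) ^ p
        = (Nat.card (Sylow p G) : ℝ) ^ (p - 1) * (Nat.card (Sylow p G) : ℝ) := by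
      rw [← pow_succ, hp1]
    calc ((Nat.card ↥(P : Subgroup G) : ℝ)) ^ p * (Nat.card (Sylow p G) : ℝ) ^ (p - 1)
        ≤ ((Nat.card (Sylow p G) : ℝ) * W Q₀ ^ p) * (Nat.card (Sylow p G) : ℝ) ^ (p - 1) :=
          mul_le_mul_of_nonneg_right h3 (pow_nonneg hnn _)
      _ = ((Nat.card (Sylow p G) : ℝ) * W Q₀) ^ p := by
          rw [mul_pow, e]
          ring
      _ ≤ (Nat.card {g : G // ∃ k : ℕ, orderOf g = p ^ k} : ℝ) ^ p :=
          pow_le_pow_left₀ (mul_nonneg hnn hWnn) h1 p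
  exact_mod_cast h2

end Cfsg.Agent.S4091
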