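import Mathlib
import Cfsg.Statements.S4092

set_option autoImplicit false
open Cfsg

namespace Cfsg.Agent.S4092

theorem mem_smul_sylow {G : Type*} [Group G] {p : ℕ} (y g : G) (Q : Sylow p G) :
    g ∈ ((y • Q : Sylow p G) : Subgroup G) ↔ y⁻¹ * g * y ∈ (Q : Subgroup G) := by
  rw [Sylow.coe_subgroup_smul, Subgroup.mem_pointwise_smul_iff_inv_smul_mem]
  simp [MulAut.smul_def]

theorem count_lemma {G : Type*} [Group G] [Finite G] {ι : Type*} [Fintype ι] [Nonempty ι]
    (Fam : ι → Subgroup G) (D : Subgroup G) (T : Set G) (c : ℕ)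
    (hD : ∀ i, D ≤ Fam i) (hc : ∀ i, Nat.card (Fam i) = c)
    (hinter : ∀ i j, i ≠ j → ∀ g, g ∈ Fam i → g ∈ Fam j → g ∈ D)
    (hT : ∀ i, ∀ g ∈ Fam i, g ∈ T) :
    Fintype.card ι * (c - Nat.card D) + Nat.card D ≤ T.ncard := by
  classical
  have hfin : ∀ s : Set G, s.Finite := fun s => Set.toFinite s
  have h4 : (D : Set G).ncard = Nat.card D := by rw [← Nat.card_coe_set_eq]; rfl
  have h1 : ∀ i, ((Fam i : Set G) \ (D : Set G)).ncard = c - Nat.card D := by
    intro i
    rw [Set.ncard_sdiff (show (D : Set G) ⊆ (Fam i : Set G) from hD i) (hfin _), h4]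
    have : (Fam i : Set G).ncard = Nat.card (Fam i) := by rw [← Nat.card_coe_set_eq]; rfl
    rw [this, hc]
  have hdisj : Pairwise (Function.onFun Disjoint (fun i => (Fam i : Set G) \ (D : Set G))) := by
    intro i j hij
    rw [Function.onFun, Set.disjoint_left]
    rintro g ⟨hgi, hgD⟩ ⟨hgj, -⟩
    exact hgD (hinter i j hij g hgi hgj)
  have h2 : (⋃ i, (Fam i : Set G) \ (D : Set G)).ncard = Fintype.card ι * (c - Nat.card D) := by
    rw [Set.ncard_iUnion_of_finite (fun i => hfin _) hdisj, finsum_eq_sum_of_fintype]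
    simp [h1]
  have hdisj2 : Disjoint (⋃ i, (Fam i : Set G) \ (D : Set G)) (D : Set G) := by
    rw [Set.disjoint_left]
    rintro g hg hgD
    obtain ⟨i, hgi, hgnD⟩ := Set.mem_iUnion.1 hg
    exact hgnD hgD
  have hsub : (⋃ i, (Fam i : Set G) \ (D : Set G)) ∪ (D : Set G) ⊆ T := by
    rintro g (hg | hg)
    · obtain ⟨i, hgi, -⟩ := Set.mem_iUnion.1 hg
      exact hT i g hgi
    · obtain ⟨i⟩ := (inferInstance : Nonempty ι)
      exact hT i g (hD i hg)
  have h3 := Set.ncard_le_ncard hsub (hfin _)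
  rw [Set.ncard_union_eq hdisj2 (hfin _) (hfin _), h2, h4] at h3
  exact h3

/-- Let G be a finite group, p a prime and P a Sylow p-subgroup of G that is not normal in G. Then G has at least p·#P elements of p-power order (the identity included). -/
theorem result {G : Type*} [Group G] [Finite G] (p : ℕ) [Fact p.Prime]
    (P : Sylow p G) (hP : ¬ (P : Subgroup G).Normal) :
    p * Nat.card (P : Subgroup G) ≤ Nat.card {g : G // ∃ k : ℕ, orderOf g = p ^ k} := by
  classical
  have hpp : p.Prime := Fact.out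
  have hns : ¬ Subsingleton (Sylow p G) := by
    intro hs
    exact hP (Sylow.normal_of_subsingleton P)
  rw [not_subsingleton_iff_nontrivial] at hns
  obtain ⟨A, B, hAB⟩ := exists_pair_ne (Sylow p G)
  have hne : Nonempty {pq : Sylow p G × Sylow p G // pq.1 ≠ pq.2} := ⟨⟨(A, B), hAB⟩⟩
  obtain ⟨⟨⟨P1, P2⟩, h12⟩, hmax⟩ := Finite.exists_max
    (fun pq : {pq : Sylow p G × Sylow p G // pq.1 ≠ pq.2} =>
      Nat.card ((pq.1.1 : Subgroup G) ⊓ (pq.1.2 : Subgroup G) : Subgroup G))
  simp only at h12 hmax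
  set D : Subgroup G := (P1 : Subgroup G) ⊓ (P2 : Subgroup G) with hD
  have hmax' : ∀ S1 S2 : Sylow p G, S1 ≠ S2 →
      Nat.card ((S1 : Subgroup G) ⊓ (S2 : Subgroup G) : Subgroup G) ≤ Nat.card D :=
    fun S1 S2 h => hmax ⟨(S1, S2), h⟩
  have hinterD : ∀ S1 S2 : Sylow p G, S1 ≠ S2 → D ≤ S1 → D ≤ S2 →
      ∀ g, g ∈ (S1 : Subgroup G) → g ∈ (S2 : Subgroup G) → g ∈ D := by
    intro S1 S2 hne h1 h2 g hg1 hg2
    have heq : D = (S1 : Subgroup G) ⊓ (S2 : Subgroup G) :=
      Subgroup.eq_of_le_of_card_ge (le_inf h1 h2) (hmax' S1 S2 hne)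
    rw [heq]; exact ⟨hg1, hg2⟩
  have hcardS : ∀ S : Sylow p G, Nat.card (S : Subgroup G) = Nat.card (P : Subgroup G) := fun S => by
    rw [S.card_eq_multiplicity, P.card_eq_multiplicity]
  have hDP1 : D ≤ (P1 : Subgroup G) := inf_le_left
  have hDP2 : D ≤ (P2 : Subgroup G) := inf_le_right
  have hDne : D.subgroupOf (P1 : Subgroup G) ≠ ⊤ := by
    intro h
    rw [Subgroup.subgroupOf_eq_top] at h
    have h1 : (P1 : Subgroup G) ≤ P2 := h.trans hDP2
    exact h12 (Sylow.ext (P1.is_maximal' P2.isPGroup' h1)).symm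
  have hnil : Group.IsNilpotent (P1 : Subgroup G) := P1.isPGroup'.isNilpotent
  have hlt := Group.normalizerCondition_of_isNilpotent (G := (P1 : Subgroup G)) _ (lt_top_iff_ne_top.2 hDne)
  obtain ⟨x', hx'N, hx'D⟩ := SetLike.exists_of_lt hlt
  set x : G := (x' : G) with hx
  have hxP1 : x ∈ (P1 : Subgroup G) := x'.2
  have hxD : x ∉ D := fun h => hx'D (Subgroup.mem_subgroupOf.2 h)
  rw [Subgroup.mem_normalizer_iff] at hx'N
  have hxN : x ∈ Subgroup.normalizer (D : Set G) := by
    rw [Subgroup.mem_normalizer_iff]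
    intro h
    constructor
    · intro hh
      have := (hx'N ⟨h, hDP1 hh⟩).1 (Subgroup.mem_subgroupOf.2 hh)
      exact Subgroup.mem_subgroupOf.1 this
    · intro hh
      have hhP1 : h ∈ (P1 : Subgroup G) := by
        have : h = x⁻¹ * (x * h * x⁻¹) * x := by group
        rw [this]
        exact Subgroup.mul_mem _ (Subgroup.mul_mem _ (Subgroup.inv_mem _ hxP1) (hDP1 hh)) hxP1
      have := (hx'N ⟨h, hhP1⟩).2 (Subgroup.mem_subgroupOf.2 hh)
      exact Subgroup.mem_subgroupOf.1 this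
  have hpowN : ∀ m : ℕ, x ^ m ∈ Subgroup.normalizer (D : Set G) := fun m => Subgroup.pow_mem _ hxN m
  have hmove : ∀ m : ℕ, 0 < m → m < p → (x ^ m) • P2 ≠ P2 := by
    intro m hm0 hmp heq
    rw [Sylow.smul_eq_iff_mem_normalizer] at heq
    have h1 : x ^ m ∈ (P1 : Subgroup G) ⊓ Subgroup.normalizer (P2 : Set G) :=
      ⟨Subgroup.pow_mem _ hxP1 m, heq⟩
    rw [P1.isPGroup'.inf_normalizer_sylow P2] at h1
    have h2 : x ∈ Subgroup.zpowers (x ^ m) := by
      rw [mem_zpowers_pow_iff]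
      obtain ⟨k, hk⟩ := P1.isPGroup' ⟨x, hxP1⟩
      have hk' : x ^ (p ^ k) = 1 := by simpa using congrArg Subtype.val hk
      obtain ⟨j, -, hj⟩ := (Nat.dvd_prime_pow hpp).1 (orderOf_dvd_of_pow_eq_one hk')
      rw [hj]
      apply Nat.Coprime.pow_right
      rw [Nat.coprime_comm, Nat.Prime.coprime_iff_not_dvd hpp]
      intro hdvd
      exact absurd (Nat.le_of_dvd hm0 hdvd) (not_le.2 hmp)
    have h3 : Subgroup.zpowers (x ^ m) ≤ D := by
      rw [Subgroup.zpowers_le]; exact h1
    exact hxD (h3 h2)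
  let Fam : Option (Fin p) → Sylow p G := fun o => match o with
    | none => P1
    | some i => (x ^ (i : ℕ)) • P2
  have hFamD : ∀ o, D ≤ (Fam o : Subgroup G) := by
    intro o
    cases o with
    | none => exact hDP1
    | some i =>
      intro d hd
      change d ∈ ((x ^ (i : ℕ) • P2 : Sylow p G) : Subgroup G)
      rw [mem_smul_sylow]
      have hN := hpowN (i : ℕ)
      rw [Subgroup.mem_normalizer_iff] at hN
      apply hDP2
      rw [hN]
      have : x ^ (i : ℕ) * ((x ^ (i : ℕ))⁻¹ * d * x ^ (i : ℕ)) * (x ^ (i : ℕ))⁻¹ = d := by group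
      rw [this]; exact hd
  have hP1ne : ∀ i : ℕ, P1 ≠ x ^ i • P2 := by
    intro i h
    have h1 : x ^ i • P1 = P1 := by
      rw [Sylow.smul_eq_iff_mem_normalizer]
      exact Subgroup.le_normalizer (Subgroup.pow_mem _ hxP1 i)
    rw [← h1] at h
    exact h12 (smul_left_cancel _ h)
  have hlt_ne : ∀ i j : ℕ, i < j → j < p → x ^ i • P2 ≠ x ^ j • P2 := by
    intro i j hij hjp h
    have h1 : x ^ j = x ^ i * x ^ (j - i) := by
      rw [← pow_add]; congr 1; omega
    rw [h1, mul_smul] at h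
    have h2 := smul_left_cancel _ h
    exact hmove (j - i) (by omega) (by omega) h2.symm
  have hFaminj : ∀ o o', o ≠ o' → Fam o ≠ Fam o' := by
    intro o o' hne
    cases o with
    | none =>
      cases o' with
      | none => exact absurd rfl hne
      | some i => exact hP1ne i
    | some i =>
      cases o' with
      | none => exact fun h => hP1ne i h.symm
      | some j =>
        change x ^ (i : ℕ) • P2 ≠ x ^ (j : ℕ) • P2
        have hij : (i : ℕ) ≠ (j : ℕ) := by
          intro h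
          apply hne
          rw [Fin.ext h]
        rcases Nat.lt_or_gt_of_ne hij with h | h
        · exact hlt_ne _ _ h j.2
        · exact fun h' => hlt_ne _ _ h i.2 h'.symm
  have hcount := count_lemma (fun o => (Fam o : Subgroup G)) D {g : G | ∃ k : ℕ, orderOf g = p ^ k}
    (Nat.card (P : Subgroup G)) hFamD (fun o => hcardS (Fam o))
    (fun o o' hne g hg hg' => hinterD (Fam o) (Fam o') (hFaminj o o' hne) (hFamD o) (hFamD o') g hg hg')
    (by
      intro o g hg
      obtain ⟨k, hk⟩ := (Fam o).isPGroup' ⟨g, hg⟩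
      have hk' : g ^ (p ^ k) = 1 := by simpa using congrArg Subtype.val hk
      obtain ⟨j, -, hj⟩ := (Nat.dvd_prime_pow hpp).1 (orderOf_dvd_of_pow_eq_one hk')
      exact ⟨j, hj⟩)
  rw [Fintype.card_option, Fintype.card_fin] at hcount
  -- p * |D| ≤ |P|
  have hpD : p * Nat.card D ≤ Nat.card (P : Subgroup G) := by
    rw [← hcardS P1]
    obtain ⟨a, ha⟩ := IsPGroup.iff_card.1 (P1.isPGroup'.to_le hDP1)
    obtain ⟨b, hb⟩ := IsPGroup.iff_card.1 P1.isPGroup'
    have hdvd : Nat.card D ∣ Nat.card (P1 : Subgroup G) := Subgroup.card_dvd_of_le hDP1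
    rw [ha, hb] at hdvd ⊢
    have hab : a ≤ b := (Nat.pow_dvd_pow_iff_le_right hpp.one_lt).1 hdvd
    have hab' : a ≠ b := by
      rintro rfl
      apply hDne
      rw [Subgroup.subgroupOf_eq_top]
      have : D = (P1 : Subgroup G) := Subgroup.eq_of_le_of_card_ge hDP1 (by rw [ha, hb])
      rw [this]
    have : a + 1 ≤ b := by omega
    calc p * p ^ a = p ^ (a + 1) := by ring
      _ ≤ p ^ b := Nat.pow_le_pow_right hpp.pos this
  have hfinal : p * Nat.card (P : Subgroup G) ≤ (p + 1) * (Nat.card (P : Subgroup G) - Nat.card D) + Nat.card D := by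
    have hdc : Nat.card D ≤ Nat.card (P : Subgroup G) := by
      have := hpp.one_lt
      nlinarith
    obtain ⟨e, he⟩ := Nat.exists_eq_add_of_le hdc
    rw [he] at hpD ⊢
    have : Nat.card D + e - Nat.card D = e := by omega
    rw [this]
    nlinarith
  have hT : Set.ncard {g : G | ∃ k : ℕ, orderOf g = p ^ k} = Nat.card {g : G // ∃ k : ℕ, orderOf g = p ^ k} := by
    rw [← Nat.card_coe_set_eq]; rfl
  rw [← hT]
  exact le_trans hfinal hcount

end Cfsg.Agent.S4092
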