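import Mathlib
import Cfsg.Statements.S4093

set_option autoImplicit false
open Cfsg

namespace Cfsg.Agent.S4093

theorem mem_smul_sylow {G : Type*} [Group G] {p : ℕ} (y g : G) (Q : Sylow p G) :
    g ∈ ((y • Q : Sylow p G) : Subgroup G) ↔ y⁻¹ * g * y ∈ (Q : Subgroup G) := by
  rw [Sylow.coe_subgroup_smul, Subgroup.mem_pointwise_smul_iff_inv_smul_mem]
  simp [MulAut.smul_def]

/-- Let G be a finite group with a normal subgroup N complementing a Sylow p-subgroup P (a normal p-complement). Then the number of elements of G of p-power order equals the sum over x ∈ P of the index of C_N(x) in N. -/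
theorem result {G : Type*} [Group G] [Finite G] (p : ℕ) [Fact p.Prime]
    (P : Sylow p G) (N : Subgroup G) [N.Normal] (hNP : N.IsComplement' (P : Subgroup G)) :
    Nat.card {g : G // ∃ k : ℕ, orderOf g = p ^ k} =
      ∑ᶠ x : (P : Subgroup G), Nat.card N / Nat.card ↥(N ⊓ Subgroup.centralizer ({(x : G)} : Set G)) := by
  classical
  have hpp : p.Prime := Fact.out
  set T : Set G := {g : G | ∃ k : ℕ, orderOf g = p ^ k} with hT
  let O : ↥(P : Subgroup G) → Set G := fun x => {g | ∃ n ∈ N, g = n * (x : G) * n⁻¹}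
  have hfin : ∀ s : Set G, s.Finite := fun s => Set.toFinite s
  have hdecomp : ∀ y : G, ∃ n ∈ N, ∃ u ∈ (P : Subgroup G), y = n * u := by
    intro y
    have hy : y ∈ N ⊔ (P : Subgroup G) := by rw [hNP.sup_eq_top]; exact Subgroup.mem_top y
    rw [← SetLike.mem_coe, Subgroup.normal_mul] at hy
    obtain ⟨n, hn, u, hu, rfl⟩ := Set.mem_mul.1 hy
    exact ⟨n, hn, u, hu, rfl⟩
  have hint : ∀ y, y ∈ N → y ∈ (P : Subgroup G) → y = 1 := by
    intro y h1 h2
    have := hNP.disjoint
    rw [Subgroup.disjoint_def] at this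
    exact this h1 h2
  have hTeq : T = ⋃ x, O x := by
    ext g
    simp only [Set.mem_iUnion]
    constructor
    · rintro ⟨k, hk⟩
      have hZ : IsPGroup p (Subgroup.zpowers g) := by
        apply IsPGroup.of_card (n := k)
        rw [Nat.card_zpowers, hk]
      obtain ⟨Q, hQ⟩ := hZ.exists_le_sylow
      obtain ⟨y, hy⟩ := MulAction.exists_smul_eq G P Q
      obtain ⟨n, hn, u, hu, rfl⟩ := hdecomp y
      have hu' : u • P = P := by
        rw [Sylow.smul_eq_iff_mem_normalizer]; exact Subgroup.le_normalizer hu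
      rw [mul_smul, hu'] at hy
      have hg : g ∈ ((n • P : Sylow p G) : Subgroup G) := by
        rw [hy]; exact hQ (Subgroup.mem_zpowers g)
      rw [mem_smul_sylow] at hg
      refine ⟨⟨n⁻¹ * g * n, hg⟩, n, hn, ?_⟩
      change g = n * (n⁻¹ * g * n) * n⁻¹
      group
    · rintro ⟨x, n, hn, rfl⟩
      obtain ⟨k, hk⟩ := P.isPGroup' x
      have hk' : (x : G) ^ (p ^ k) = 1 := by simpa using congrArg Subtype.val hk
      obtain ⟨j, -, hj⟩ := (Nat.dvd_prime_pow hpp).1 (orderOf_dvd_of_pow_eq_one hk')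
      refine ⟨j, ?_⟩
      rw [← hj]
      exact MulEquiv.orderOf_eq (MulAut.conj n) (x : G)
  have hdisj : Pairwise (Function.onFun Disjoint O) := by
    intro x x' hxx'
    rw [Function.onFun, Set.disjoint_left]
    rintro g ⟨n, hn, rfl⟩ ⟨m, hm, hg⟩
    apply hxx'
    have h1 : (x' : G) = (m⁻¹ * n) * (x : G) * (m⁻¹ * n)⁻¹ := by
      have h0 : (x' : G) = m⁻¹ * (m * (x' : G) * m⁻¹) * m := by group
      rw [h0, ← hg]; group
    have hk : m⁻¹ * n ∈ N := N.mul_mem (N.inv_mem hm) hn
    have h2 : (x' : G) * (x : G)⁻¹ ∈ N := by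
      rw [h1]
      have : (m⁻¹ * n) * (x : G) * (m⁻¹ * n)⁻¹ * (x : G)⁻¹ =
          (m⁻¹ * n) * ((x : G) * (m⁻¹ * n)⁻¹ * (x : G)⁻¹) := by group
      rw [this]
      exact N.mul_mem hk ((inferInstance : N.Normal).conj_mem _ (N.inv_mem hk) _)
    have h3 := hint _ h2 (Subgroup.mul_mem _ x'.2 (Subgroup.inv_mem _ x.2))
    have h4 : (x' : G) = (x : G) := by
      rwa [mul_inv_eq_one] at h3
    exact Subtype.ext h4.symm
  have hcardO : ∀ x : (P : Subgroup G), (O x).ncard =
      Nat.card N / Nat.card ↥(N ⊓ Subgroup.centralizer ({(x : G)} : Set G)) := by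
    intro x
    set K : Subgroup N := (N ⊓ Subgroup.centralizer ({(x : G)} : Set G)).subgroupOf N with hK
    let ψ : N ⧸ K → G := Quotient.lift (fun n : N => (n : G) * (x : G) * (n : G)⁻¹) (by
      intro a b hab
      have hab' : a⁻¹ * b ∈ K := QuotientGroup.leftRel_apply.1 hab
      rw [hK, Subgroup.mem_subgroupOf] at hab'
      have hc := (Subgroup.mem_inf.1 hab').2
      rw [Subgroup.mem_centralizer_iff] at hc
      have hc' := hc (x : G) (Set.mem_singleton _)
      simp only [Subgroup.coe_mul, Subgroup.coe_inv] at hc'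
      change (a : G) * (x : G) * (a : G)⁻¹ = (b : G) * (x : G) * (b : G)⁻¹
      have : (b : G) * (x : G) * (b : G)⁻¹ =
          (a : G) * ((a : G)⁻¹ * b * x) * ((a : G)⁻¹ * b)⁻¹ * (a : G)⁻¹ := by group
      rw [this, ← hc']; group)
    have hψinj : Function.Injective ψ := by
      intro c d hcd
      induction c using QuotientGroup.induction_on with
      | H a =>
        induction d using QuotientGroup.induction_on with
        | H b =>
          have h1 : (a : G) * (x : G) * (a : G)⁻¹ = (b : G) * (x : G) * (b : G)⁻¹ := hcd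
          apply QuotientGroup.eq.2
          rw [hK, Subgroup.mem_subgroupOf]
          refine Subgroup.mem_inf.2 ⟨(a⁻¹ * b).2, ?_⟩
          rw [Subgroup.mem_centralizer_iff]
          intro z hz
          rw [Set.mem_singleton_iff] at hz
          rw [hz]
          simp only [Subgroup.coe_mul, Subgroup.coe_inv]
          calc (x : G) * ((a : G)⁻¹ * b) = (a : G)⁻¹ * ((a : G) * x * (a : G)⁻¹) * b := by group
            _ = (a : G)⁻¹ * ((b : G) * x * (b : G)⁻¹) * b := by rw [h1]
            _ = (a : G)⁻¹ * b * x := by group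
    have hrange : O x = Set.range ψ := by
      ext g
      constructor
      · rintro ⟨n, hn, rfl⟩
        exact ⟨QuotientGroup.mk ⟨n, hn⟩, rfl⟩
      · rintro ⟨c, rfl⟩
        induction c using QuotientGroup.induction_on with
        | H a => exact ⟨a, a.2, rfl⟩
    rw [hrange, Set.ncard_range_of_injective hψinj, ← Subgroup.index_eq_card]
    have h1 := Subgroup.card_mul_index K
    have h2 : Nat.card K = Nat.card ↥(N ⊓ Subgroup.centralizer ({(x : G)} : Set G)) :=
      Nat.card_congr (Subgroup.subgroupOfEquivOfLe inf_le_left).toEquiv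
    rw [← h2, ← h1]
    exact (Nat.mul_div_cancel_left _ Nat.card_pos).symm
  have h0 : Nat.card {g : G // ∃ k : ℕ, orderOf g = p ^ k} = T.ncard := by
    rw [← Nat.card_coe_set_eq]; rfl
  rw [h0, hTeq, Set.ncard_iUnion_of_finite (fun x => hfin _) hdisj]
  exact finsum_congr hcardO

end Cfsg.Agent.S4093
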