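import Mathlib
import Cfsg.Statements.S4106

set_option autoImplicit false
open Cfsg

namespace Cfsg.Agent.S4106

universe u

theorem orderOf_conj_eq {G : Type*} [Group G] (c x : G) : orderOf (c * x * c⁻¹) = orderOf x :=
  MulEquiv.orderOf_eq (MulAut.conj c) x

/-- Splitting an element into its `p`-part and `p'`-part. -/
theorem exists_p_decomp {G : Type*} [Group G] [Finite G] (p : ℕ) (hp : p.Prime) (g : G) :
    ∃ (g1 g2 : G) (a b : ℕ), g1 * g2 = g ∧ g2 * g1 = g ∧ g1 ^ (p ^ a) = 1 ∧ orderOf g2 ∣ b ∧ ¬ p ∣ b ∧
      b ∣ orderOf g := by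
  have hn0 : orderOf g ≠ 0 := (orderOf_pos g).ne'
  obtain ⟨a, b, hpb, hn⟩ := Nat.exists_eq_pow_mul_and_not_dvd hn0 p hp.ne_one
  have hcop : Nat.Coprime (p ^ a) b := Nat.Coprime.pow_left a ((Nat.Prime.coprime_iff_not_dvd hp).2 hpb)
  have hbez := Nat.gcd_eq_gcd_ab (p ^ a) b
  rw [hcop.gcd_eq_one] at hbez
  refine ⟨g ^ ((b : ℤ) * Nat.gcdB (p ^ a) b), g ^ (((p ^ a : ℕ) : ℤ) * Nat.gcdA (p ^ a) b), a, b, ?_, ?_, ?_, ?_,
    hpb, ?_⟩
  · rw [← zpow_add, add_comm, ← hbez]; simp
  · rw [← zpow_add, ← hbez]; simp
  · rw [← zpow_natCast, ← zpow_mul]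
    have : (b : ℤ) * Nat.gcdB (p ^ a) b * ((p ^ a : ℕ) : ℤ) = ((orderOf g : ℕ) : ℤ) * Nat.gcdB (p ^ a) b := by
      rw [hn]; push_cast; ring
    rw [this, zpow_mul, zpow_natCast, pow_orderOf_eq_one, one_zpow]
  · rw [orderOf_dvd_iff_pow_eq_one, ← zpow_natCast, ← zpow_mul]
    have : ((p ^ a : ℕ) : ℤ) * Nat.gcdA (p ^ a) b * (b : ℤ) = ((orderOf g : ℕ) : ℤ) * Nat.gcdA (p ^ a) b := by
      rw [hn]; push_cast; ring
    rw [this, zpow_mul, zpow_natCast, pow_orderOf_eq_one, one_zpow]
  · rw [hn]; exact Dvd.intro_left _ rfl

/-- A chosen representative of a conjugacy class. -/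
noncomputable def rep {G : Type*} [Group G] (C : ConjClasses G) : G :=
  Classical.choose (ConjClasses.exists_rep C)

theorem mk_rep {G : Type*} [Group G] (C : ConjClasses G) : ConjClasses.mk (rep C) = C :=
  Classical.choose_spec (ConjClasses.exists_rep C)

/-- The property defining the classes of `π`-elements. -/
def IsPiClass {G : Type*} [Group G] (π : Set ℕ) (C : ConjClasses G) : Prop :=
  ∀ q : ℕ, q.Prime → (∃ g : G, ConjClasses.mk g = C ∧ q ∣ orderOf g) → q ∈ π

theorem aux (n : ℕ) : ∀ (G : Type u) [Group G] [Finite G] (π : Set ℕ) (T : Finset ℕ) (m : ℕ),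
    T.card ≤ n → (∀ q ∈ π, q.Prime) → (∀ q ∈ π, q ∣ Nat.card G → q ∈ T) → m ∣ Nat.card G →
    (∀ q ∈ π, ¬ q ∣ Nat.card G / m) →
    Nat.card {C : ConjClasses G // IsPiClass π C} ≤ m := by
  induction n with
  | zero =>
    intro G _ _ π T m hT hπ hπT hm hm'
    have hmpos : 0 < m := Nat.pos_of_dvd_of_pos hm Nat.card_pos
    have hnone : ∀ q ∈ π, ¬ q ∣ Nat.card G := by
      intro q hq hdvd
      have := hπT q hq hdvd
      have hT0 : T = ∅ := Finset.card_eq_zero.1 (Nat.le_zero.1 hT)
      rw [hT0] at this
      simp at this
    have hsub : Subsingleton {C : ConjClasses G // IsPiClass π C} := by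
      have hone : ∀ C : {C : ConjClasses G // IsPiClass π C}, C.1 = ConjClasses.mk 1 := by
        rintro ⟨C, hC⟩
        obtain ⟨g, rfl⟩ := ConjClasses.exists_rep C
        have hg1 : orderOf g = 1 := by
          by_contra hne
          obtain ⟨q, hq, hqg⟩ := Nat.exists_prime_and_dvd hne
          have hqπ := hC q hq ⟨g, rfl, hqg⟩
          exact hnone q hqπ (hqg.trans (orderOf_dvd_natCard g))
        rw [orderOf_eq_one_iff] at hg1
        exact congrArg ConjClasses.mk hg1
      constructor
      intro C D
      apply Subtype.ext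
      rw [hone C, hone D]
    have := Finite.card_le_one_iff_subsingleton.2 hsub
    omega
  | succ n ih =>
    intro G _ _ π T m hT hπ hπT hm hm'
    classical
    have hmpos : 0 < m := Nat.pos_of_dvd_of_pos hm Nat.card_pos
    by_cases hnone : ∀ q ∈ π, ¬ q ∣ Nat.card G
    · have hsub : Subsingleton {C : ConjClasses G // IsPiClass π C} := by
        have hone : ∀ C : {C : ConjClasses G // IsPiClass π C}, C.1 = ConjClasses.mk 1 := by
          rintro ⟨C, hC⟩
          obtain ⟨g, rfl⟩ := ConjClasses.exists_rep C
          have hg1 : orderOf g = 1 := by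
            by_contra hne
            obtain ⟨q, hq, hqg⟩ := Nat.exists_prime_and_dvd hne
            have hqπ := hC q hq ⟨g, rfl, hqg⟩
            exact hnone q hqπ (hqg.trans (orderOf_dvd_natCard g))
          rw [orderOf_eq_one_iff] at hg1
          exact congrArg ConjClasses.mk hg1
        constructor
        intro C D
        apply Subtype.ext
        rw [hone C, hone D]
      have := Finite.card_le_one_iff_subsingleton.2 hsub
      omega
    · push Not at hnone
      obtain ⟨p, hpπ, hpG⟩ := hnone
      have hp : p.Prime := hπ p hpπ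
      have : Fact p.Prime := ⟨hp⟩
      obtain ⟨P⟩ : Nonempty (Sylow p G) := inferInstance
      -- |P| divides m
      obtain ⟨a, hPa⟩ := IsPGroup.iff_card.1 P.isPGroup'
      have hPm : Nat.card (P : Subgroup G) ∣ m := by
        have h1 : Nat.card (P : Subgroup G) ∣ m * (Nat.card G / m) := by
          rw [Nat.mul_div_cancel' hm]
          exact Subgroup.card_subgroup_dvd_card _
        have hcop : Nat.Coprime (Nat.card (P : Subgroup G)) (Nat.card G / m) := by
          rw [hPa]
          exact Nat.Coprime.pow_left a ((Nat.Prime.coprime_iff_not_dvd hp).2 (hm' p hpπ))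
        exact hcop.dvd_of_dvd_mul_right h1
      set M := m / Nat.card (P : Subgroup G) with hM
      have hmM : m = Nat.card (P : Subgroup G) * M := (Nat.mul_div_cancel' hPm).symm
      have hMpos : 0 < M := by
        rcases Nat.eq_zero_or_pos M with h0 | h0
        · rw [h0, mul_zero] at hmM; omega
        · exact h0
      set π' : Set ℕ := π \ {p} with hπ'
      -- the bound for each centralizer
      have hbound : ∀ u : (P : Subgroup G),
          Nat.card {C : ConjClasses (Subgroup.centralizer ({(u : G)} : Set G)) // IsPiClass π' C} ≤ M := by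
        intro u
        set Cu := Subgroup.centralizer ({(u : G)} : Set G) with hCu
        set c := Nat.card Cu with hc
        have hcG : c ∣ Nat.card G := Subgroup.card_subgroup_dvd_card _
        have hcpos : 0 < c := Nat.card_pos
        set d := Nat.gcd c M with hd
        have hdpos : 0 < d := Nat.gcd_pos_of_pos_left _ hcpos
        have hle : d ≤ M := Nat.gcd_le_right _ hMpos
        refine le_trans (ih Cu π' (T.erase p) d ?_ ?_ ?_ ?_ ?_) hle
        · have hpT : p ∈ T := hπT p hpπ hpG
          rw [Finset.card_erase_of_mem hpT]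
          omega
        · intro q hq
          exact hπ q hq.1
        · intro q hq hqc
          rw [Finset.mem_erase]
          refine ⟨?_, hπT q hq.1 (hqc.trans hcG)⟩
          intro hqp
          exact hq.2 (by simp [hqp])
        · exact Nat.gcd_dvd_left _ _
        · intro q hq hqd
          have hqprime : q.Prime := hπ q hq.1
          have hqp : q ≠ p := by
            intro hqp
            exact hq.2 (by simp [hqp])
          -- c / d divides |P| * (|G| / m)
          obtain ⟨c', hc'⟩ : d ∣ c := Nat.gcd_dvd_left _ _
          obtain ⟨M', hM'⟩ : d ∣ M := Nat.gcd_dvd_right _ _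
          have hcd : c / d = c' := by rw [hc']; exact Nat.mul_div_cancel_left c' hdpos
          have hMd : M / d = M' := by rw [hM']; exact Nat.mul_div_cancel_left M' hdpos
          have hcop : Nat.Coprime c' M' := by
            have := Nat.coprime_div_gcd_div_gcd (m := c) (n := M) hdpos
            rw [← hd, hcd, hMd] at this
            exact this
          have hG : Nat.card G = Nat.card (P : Subgroup G) * M * (Nat.card G / m) := by
            rw [← hmM, Nat.mul_div_cancel' hm]
          have h1 : d * c' ∣ d * (M' * (Nat.card (P : Subgroup G) * (Nat.card G / m))) := by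
            rw [← hc']
            have : d * (M' * (Nat.card (P : Subgroup G) * (Nat.card G / m))) = Nat.card G := by
              calc d * (M' * (Nat.card (P : Subgroup G) * (Nat.card G / m)))
                  = Nat.card (P : Subgroup G) * (d * M') * (Nat.card G / m) := by ring
                _ = Nat.card (P : Subgroup G) * M * (Nat.card G / m) := by rw [← hM']
                _ = Nat.card G := hG.symm
            rw [this]
            exact hcG
          have h2 : c' ∣ M' * (Nat.card (P : Subgroup G) * (Nat.card G / m)) :=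
            Nat.dvd_of_mul_dvd_mul_left hdpos h1
          have h3 : c' ∣ Nat.card (P : Subgroup G) * (Nat.card G / m) := hcop.dvd_of_dvd_mul_left h2
          rw [hcd] at hqd
          have h4 : q ∣ Nat.card (P : Subgroup G) * (Nat.card G / m) := hqd.trans h3
          rcases (Nat.Prime.dvd_mul hqprime).1 h4 with h5 | h5
          · rw [hPa] at h5
            have := hqprime.dvd_of_dvd_pow h5
            exact hqp ((Nat.prime_dvd_prime_iff_eq hqprime hp).1 this)
          · exact hm' q hq.1 h5
      -- the surjection
      let S := Σ u : (P : Subgroup G),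
        {C : ConjClasses (Subgroup.centralizer ({(u : G)} : Set G)) // IsPiClass π' C}
      have hmem : ∀ (u : (P : Subgroup G))
          (C : {C : ConjClasses (Subgroup.centralizer ({(u : G)} : Set G)) // IsPiClass π' C}),
          IsPiClass π (ConjClasses.mk ((u : G) * ((rep C.1 : Subgroup.centralizer ({(u : G)} : Set G)) : G))) := by
        intro u C q hq hex
        obtain ⟨g, hg, hqg⟩ := hex
        rw [ConjClasses.mk_eq_mk_iff_isConj, isConj_iff] at hg
        obtain ⟨x, hx⟩ := hg
        set v := (rep C.1 : Subgroup.centralizer ({(u : G)} : Set G)) with hv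
        have hord : orderOf g = orderOf ((u : G) * (v : G)) := by
          rw [← hx, orderOf_conj_eq]
        have hcomm : Commute (u : G) (v : G) := by
          have := v.2
          rw [Subgroup.mem_centralizer_iff] at this
          exact this (u : G) (Set.mem_singleton _)
        have h1 : q ∣ orderOf (u : G) * orderOf (v : G) := by
          rw [hord] at hqg
          exact hqg.trans (hcomm.orderOf_mul_dvd_lcm.trans (Nat.lcm_dvd_mul _ _))
        rcases (Nat.Prime.dvd_mul hq).1 h1 with h2 | h2
        · have h3 : orderOf (u : G) ∣ p ^ a := by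
            rw [← hPa]
            exact Subgroup.orderOf_dvd_natCard _ u.2
          have := hq.dvd_of_dvd_pow (h2.trans h3)
          rw [(Nat.prime_dvd_prime_iff_eq hq hp).1 this]
          exact hpπ
        · have h3 : q ∈ π' := by
            apply C.2 q hq
            refine ⟨v, ?_, ?_⟩
            · rw [hv]; exact mk_rep _
            · rw [← Subgroup.orderOf_coe]; exact h2
          exact h3.1
      let f : S → {C : ConjClasses G // IsPiClass π C} := fun s =>
        ⟨ConjClasses.mk ((s.1 : G) * ((rep s.2.1 : Subgroup.centralizer ({(s.1 : G)} : Set G)) : G)),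
          hmem s.1 s.2⟩
      have hf : Function.Surjective f := by
        rintro ⟨C, hC⟩
        obtain ⟨g, rfl⟩ := ConjClasses.exists_rep C
        obtain ⟨g1, g2, a', b, h12, h21, hg1, hg2, hpb, hbg⟩ := exists_p_decomp p hp g
        -- conjugate g1 into P
        have hZ : IsPGroup p (Subgroup.zpowers g1) := by
          have h1 : orderOf g1 ∣ p ^ a' := orderOf_dvd_of_pow_eq_one hg1
          obtain ⟨j, -, hj⟩ := (Nat.dvd_prime_pow hp).1 h1
          apply IsPGroup.of_card (n := j)
          rw [Nat.card_zpowers, hj]
        obtain ⟨Q, hQ⟩ := hZ.exists_le_sylow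
        obtain ⟨x, hx⟩ := MulAction.exists_smul_eq G Q P
        have hu : x * g1 * x⁻¹ ∈ (P : Subgroup G) := by
          have h1 : g1 ∈ (Q : Subgroup G) := hQ (Subgroup.mem_zpowers g1)
          have h2 := Subgroup.smul_mem_pointwise_smul g1 (MulAut.conj x) (Q : Subgroup G) h1
          rw [← Sylow.coe_subgroup_smul, hx] at h2
          simpa [MulAut.smul_def] using h2
        set u : (P : Subgroup G) := ⟨x * g1 * x⁻¹, hu⟩ with hu'
        have hv : x * g2 * x⁻¹ ∈ Subgroup.centralizer ({(u : G)} : Set G) := by
          rw [Subgroup.mem_centralizer_iff]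
          intro z hz
          rw [Set.mem_singleton_iff] at hz
          rw [hz]
          change x * g1 * x⁻¹ * (x * g2 * x⁻¹) = x * g2 * x⁻¹ * (x * g1 * x⁻¹)
          have e1 : x * g1 * x⁻¹ * (x * g2 * x⁻¹) = x * (g1 * g2) * x⁻¹ := by group
          have e2 : x * g2 * x⁻¹ * (x * g1 * x⁻¹) = x * (g2 * g1) * x⁻¹ := by group
          rw [e1, e2, h12, h21]
        set v : Subgroup.centralizer ({(u : G)} : Set G) := ⟨x * g2 * x⁻¹, hv⟩ with hv'
        have hC' : IsPiClass π' (ConjClasses.mk v) := by
          intro q hq hex
          obtain ⟨w, hw, hqw⟩ := hex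
          rw [ConjClasses.mk_eq_mk_iff_isConj, isConj_iff] at hw
          obtain ⟨y, hy⟩ := hw
          have h1 : orderOf w = orderOf g2 := by
            rw [← orderOf_conj_eq y w, hy, ← Subgroup.orderOf_coe]
            exact orderOf_conj_eq x g2
          have h2 : q ∣ b := by
            rw [h1] at hqw
            exact hqw.trans hg2
          refine ⟨hC q hq ⟨g, rfl, h2.trans hbg⟩, ?_⟩
          intro hqp
          rw [Set.mem_singleton_iff] at hqp
          rw [hqp] at h2
          exact hpb h2
        refine ⟨⟨u, ⟨ConjClasses.mk v, hC'⟩⟩, ?_⟩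
        apply Subtype.ext
        change ConjClasses.mk ((u : G) * ((rep (ConjClasses.mk v) : Subgroup.centralizer ({(u : G)} : Set G)) : G)) = ConjClasses.mk g
        set v' := (rep (ConjClasses.mk v) : Subgroup.centralizer ({(u : G)} : Set G)) with hv''
        have hv'v : ConjClasses.mk v' = ConjClasses.mk v := by
          rw [hv'']; exact mk_rep _
        rw [ConjClasses.mk_eq_mk_iff_isConj, isConj_iff] at hv'v
        obtain ⟨y, hy⟩ := hv'v
        -- y * v' * y⁻¹ = v, so v' = y⁻¹ * v * y
        have hy' : (v' : G) = (y : G)⁻¹ * (x * g2 * x⁻¹) * (y : G) := by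
          have := congrArg Subtype.val hy
          simp only [Subgroup.coe_mul, Subgroup.coe_inv] at this
          have hvcoe : (v : G) = x * g2 * x⁻¹ := rfl
          rw [hvcoe] at this
          rw [← this]; group
        have hyu : (y : G)⁻¹ * (u : G) * (y : G) = (u : G) := by
          have := y.2
          rw [Subgroup.mem_centralizer_iff] at this
          have h1 := this (u : G) (Set.mem_singleton _)
          rw [mul_assoc, h1]; group
        rw [ConjClasses.mk_eq_mk_iff_isConj, isConj_comm, isConj_iff]
        refine ⟨(y : G)⁻¹ * x, ?_⟩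
        have e4 : (u : G) * (v' : G) = ((y : G)⁻¹ * (u : G) * y) * ((y : G)⁻¹ * (x * g2 * x⁻¹) * y) := by
          rw [hyu, hy']
        rw [e4, ← h12]
        change _ = ((y : G)⁻¹ * (x * g1 * x⁻¹) * y) * ((y : G)⁻¹ * (x * g2 * x⁻¹) * y)
        group
      have hcard := Nat.card_le_card_of_surjective f hf
      have hS : Nat.card S ≤ Nat.card (P : Subgroup G) * M := by
        let _ : Fintype (P : Subgroup G) := Fintype.ofFinite _
        rw [Nat.card_sigma]
        have := Finset.sum_le_card_nsmul (Finset.univ : Finset (P : Subgroup G))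
          (fun u => Nat.card {C : ConjClasses (Subgroup.centralizer ({(u : G)} : Set G)) // IsPiClass π' C}) M
          (fun u _ => hbound u)
        rw [Finset.card_univ, smul_eq_mul, ← Nat.card_eq_fintype_card] at this
        exact this
      rw [hmM]
      exact le_trans hcard hS

/-- Let G be a finite group, π a set of primes and m the π-part of the order of G. Then the number of conjugacy classes of G consisting of π-elements (elements whose order is divisible only by primes in π) is at most m. -/
theorem result {G : Type*} [Group G] [Finite G]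
    (π : Set ℕ) (hπ : ∀ q ∈ π, q.Prime)
    (m : ℕ) (hm : m ∣ Nat.card G) (hmπ : ∀ q : ℕ, q.Prime → q ∣ m → q ∈ π)
    (hm' : ∀ q ∈ π, ¬ q ∣ Nat.card G / m) :
    Nat.card {C : ConjClasses G // ∀ q : ℕ, q.Prime → (∃ g : G, ConjClasses.mk g = C ∧ q ∣ orderOf g) → q ∈ π} ≤ m := by
  exact aux ((Nat.card G).primeFactors.card) G π (Nat.card G).primeFactors m le_rfl hπ
    (fun q hq hqG => Nat.mem_primeFactors.2 ⟨hπ q hq, hqG, Nat.card_pos.ne'⟩) hm hm'

end Cfsg.Agent.S4106
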