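import Mathlib
import Cfsg.Statements.S4107

set_option autoImplicit false
open Cfsg

namespace Cfsg.Agent.S4107

theorem isPGroup_of_normal_pGroup_not_le {G : Type*} [Group G] [Finite G] (N : Subgroup G)
    (heq : ∀ x : G, x ∉ N → ∀ n ∈ N, orderOf (x * n) = orderOf x)
    (p : ℕ) (R : Subgroup G) [R.Normal] (hR : IsPGroup p R) (hRN : ¬ R ≤ N) :
    IsPGroup p N := by
  obtain ⟨x, hxR, hxN⟩ := SetLike.not_le_iff_exists.1 hRN
  obtain ⟨k, hk⟩ := hR ⟨x, hxR⟩
  have hxk : x ^ (p ^ k) = 1 := by simpa using congrArg Subtype.val hk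
  intro n
  have h1 : orderOf (x * (n : G)) = orderOf x := heq x hxN n n.2
  have h2 : (x * (n : G)) ^ (p ^ k) = 1 := by
    rw [← orderOf_dvd_iff_pow_eq_one, h1, orderOf_dvd_iff_pow_eq_one]; exact hxk
  have h3 : ((n : G)) ^ (p ^ k) ∈ R := by
    rw [← QuotientGroup.eq_one_iff]
    have hmk : (QuotientGroup.mk (x * (n : G)) : G ⧸ R) = QuotientGroup.mk (n : G) := by
      rw [QuotientGroup.mk_mul, (QuotientGroup.eq_one_iff x).2 hxR, one_mul]
    rw [QuotientGroup.mk_pow, ← hmk, ← QuotientGroup.mk_pow, h2]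
    rfl
  obtain ⟨j, hj⟩ := hR ⟨_, h3⟩
  have hj' : ((n : G) ^ (p ^ k)) ^ (p ^ j) = 1 := by simpa using congrArg Subtype.val hj
  refine ⟨k + j, ?_⟩
  apply Subtype.ext
  rw [Subgroup.coe_pow, Subgroup.coe_one, pow_add, pow_mul]
  exact hj'

theorem sylow_normal_of_nilpotent {K : Type*} [Group K] [Finite K] (hK : Group.IsNilpotent K)
    (p : ℕ) [Fact p.Prime] (P : Sylow p K) : (P : Subgroup K).Normal := by
  have h := ((Group.isNilpotent_of_finite_tfae (G := K)).out 0 3).1 hK
  exact h p inferInstance P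

theorem exists_normal_pGroup_not_le {G : Type*} [Group G] [Finite G] (N K : Subgroup G) [K.Normal]
    (hK : Group.IsNilpotent K) (hKN : ¬ K ≤ N) :
    ∃ (p : ℕ) (_ : Fact p.Prime) (R : Subgroup G), R.Normal ∧ IsPGroup p R ∧ ¬ R ≤ N := by
  by_contra hcon
  push Not at hcon
  apply hKN
  have hle : ∀ (p : ℕ) [Fact p.Prime] (P : Sylow p K), (P : Subgroup K) ≤ N.subgroupOf K := by
    intro p _ P
    have hPn : (P : Subgroup K).Normal := sylow_normal_of_nilpotent hK p P
    have : (P : Subgroup K).Characteristic := Sylow.characteristic_of_normal P hPn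
    have hn : ((P : Subgroup K).map K.subtype).Normal := ConjAct.normal_of_characteristic_of_normal
    have hp : IsPGroup p ((P : Subgroup K).map K.subtype) := P.isPGroup'.map K.subtype
    have h := hcon p inferInstance _ hn hp
    intro x hx
    rw [Subgroup.mem_subgroupOf]
    exact h (Subgroup.mem_map_of_mem _ hx)
  have hcard : Nat.card K ∣ Nat.card (N.subgroupOf K) := by
    rw [← Nat.factorization_prime_le_iff_dvd (Nat.card_pos.ne') (Nat.card_pos.ne')]
    intro p hp
    have : Fact p.Prime := ⟨hp⟩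
    obtain ⟨P⟩ : Nonempty (Sylow p K) := inferInstance
    have h1 := P.card_eq_multiplicity
    have h2 : Nat.card (P : Subgroup K) ∣ Nat.card (N.subgroupOf K) := Subgroup.card_dvd_of_le (hle p P)
    rw [h1] at h2
    exact (hp.pow_dvd_iff_le_factorization (Nat.card_pos.ne')).1 h2
  have htop : N.subgroupOf K = ⊤ := by
    apply Subgroup.eq_top_of_card_eq
    exact Nat.dvd_antisymm (Subgroup.card_subgroup_dvd_card _) hcard
  rwa [Subgroup.subgroupOf_eq_top] at htop

/-- Let G be a finite group and N a proper non-trivial normal subgroup such that for every x outside N all elements of the coset xN have the same order as x. Then N ≤ F(G) or F(G) ≤ N, where F(G) is the Fitting subgroup; and if N is properly contained in F(G) then F(G) has prime-power order. -/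
theorem result {G : Type*} [Group G] [Finite G] (N : Subgroup G) [N.Normal] (hN1 : N ≠ ⊥) (hN2 : N ≠ ⊤)
    (heq : ∀ x : G, x ∉ N → ∀ n ∈ N, orderOf (x * n) = orderOf x) :
    (N ≤ Cfsg.fittingSubgroup G ∨ Cfsg.fittingSubgroup G ≤ N) ∧
    (N < Cfsg.fittingSubgroup G → IsPrimePow (Nat.card (Cfsg.fittingSubgroup G))) := by
  classical
  have hC : ∀ (p : ℕ) [Fact p.Prime] (R : Subgroup G), R.Normal → IsPGroup p R →
      R ≤ Cfsg.fittingSubgroup G := by
    intro p _ R hRn hRp
    apply le_sSup
    exact ⟨hRn, hRp.isNilpotent⟩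
  have key : ¬ Cfsg.fittingSubgroup G ≤ N → ∃ (p : ℕ) (_ : Fact p.Prime), IsPGroup p N := by
    intro hF
    unfold Cfsg.fittingSubgroup at hF
    rw [sSup_le_iff] at hF
    push Not at hF
    obtain ⟨K, ⟨hKn, hKnil⟩, hKN⟩ := hF
    obtain ⟨p, hp, R, hRn, hRp, hRN⟩ := exists_normal_pGroup_not_le N K hKnil hKN
    exact ⟨p, hp, isPGroup_of_normal_pGroup_not_le N heq p R hRp hRN⟩
  constructor
  · by_cases hF : Cfsg.fittingSubgroup G ≤ N
    · right; exact hF
    · left
      obtain ⟨p, hp, hNp⟩ := key hF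
      exact hC p N inferInstance hNp
  · intro hlt
    have hF : ¬ Cfsg.fittingSubgroup G ≤ N := fun h => (lt_irrefl _ (lt_of_lt_of_le hlt h))
    obtain ⟨p, hp, hNp⟩ := key hF
    have hall : ∀ K ∈ {K : Subgroup G | K.Normal ∧ Group.IsNilpotent K}, IsPGroup p K := by
      rintro K ⟨hKn, hKnil⟩
      apply IsPGroup.of_card (n := (Nat.card K).primeFactorsList.length)
      apply Nat.eq_prime_pow_of_unique_prime_dvd (Nat.card_pos.ne')
      intro q hq hqK
      by_contra hqp
      have : Fact q.Prime := ⟨hq⟩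
      obtain ⟨Q⟩ : Nonempty (Sylow q K) := inferInstance
      have hQn : (Q : Subgroup K).Normal := sylow_normal_of_nilpotent hKnil q Q
      have : (Q : Subgroup K).Characteristic := Sylow.characteristic_of_normal Q hQn
      have hn : ((Q : Subgroup K).map K.subtype).Normal := ConjAct.normal_of_characteristic_of_normal
      have hq' : IsPGroup q ((Q : Subgroup K).map K.subtype) := Q.isPGroup'.map K.subtype
      by_cases hQN : (Q : Subgroup K).map K.subtype ≤ N
      · have hQp : IsPGroup p ((Q : Subgroup K).map K.subtype) := hNp.to_le hQN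
        have hQbot : (Q : Subgroup K) ≠ ⊥ := Q.ne_bot_of_dvd_card hqK
        have hdis := IsPGroup.disjoint_of_ne p q (fun h => hqp h.symm) _ _ hQp hq'
        rw [disjoint_self] at hdis
        apply hQbot
        rw [eq_bot_iff]
        intro x hx
        have : (x : G) ∈ (Q : Subgroup K).map K.subtype := Subgroup.mem_map_of_mem _ hx
        rw [hdis, Subgroup.mem_bot] at this
        rw [Subgroup.mem_bot]
        exact Subtype.ext this
      · have hNq := isPGroup_of_normal_pGroup_not_le N heq q _ hq' hQN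
        have hdis := IsPGroup.disjoint_of_ne p q (fun h => hqp h.symm) _ _ hNp hNq
        rw [disjoint_self] at hdis
        exact hN1 hdis
    have hFp : IsPGroup p (Cfsg.fittingSubgroup G) := Sylow.sSup_of_normal _ hall (fun K hK => hK.1)
    obtain ⟨n, hn⟩ := IsPGroup.iff_card.1 hFp
    rw [hn]
    have hn0 : n ≠ 0 := by
      rintro rfl
      rw [pow_zero] at hn
      have hbot : Cfsg.fittingSubgroup G = ⊥ := Subgroup.eq_bot_of_card_eq _ hn
      rw [hbot] at hlt
      exact not_lt_bot hlt
    exact ⟨p, n, hp.out.prime, Nat.pos_of_ne_zero hn0, rfl⟩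

end Cfsg.Agent.S4107
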