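import Mathlib
import Cfsg.Statements.S4112
import Cfsg.Agent.Lib.Helper71.Fitting

set_option autoImplicit false

namespace Cfsg.Agent.S4112

/-- If a prime `q` divides the order of a finite group `H` but not the index of a normal subgroup
`K`, then some proper subgroup `L` satisfies `L ⊔ K = ⊤`. -/
theorem exists_proper_supplement {H : Type*} [Group H] [Finite H] (K : Subgroup H) [K.Normal]
    (q : ℕ) (hq : q.Prime) (hqH : q ∣ Nat.card H) (hqK : ¬ q ∣ K.index) :
    ∃ L : Subgroup H, L ≠ ⊤ ∧ L ⊔ K = ⊤ := by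
  have : Fact q.Prime := ⟨hq⟩
  obtain ⟨Q⟩ : Nonempty (Sylow q H) := inferInstance
  have hQK : (Q : Subgroup H) ≤ K := by
    intro y hy
    have hyq : ∃ k, orderOf y = q ^ k := by
      have := Q.2 ⟨y, hy⟩
      obtain ⟨k, hk⟩ := this
      have h1 : y ^ (q ^ k) = 1 := by
        have := congrArg Subtype.val hk
        simpa using this
      obtain ⟨j, _, hj⟩ := (Nat.dvd_prime_pow hq).1 (orderOf_dvd_of_pow_eq_one h1)
      exact ⟨j, hj⟩
    obtain ⟨k, hk⟩ := hyq
    have h1 : orderOf (y : H ⧸ K) ∣ q ^ k := by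
      apply orderOf_dvd_of_pow_eq_one
      rw [← QuotientGroup.mk_pow, ← hk, pow_orderOf_eq_one]; rfl
    have h2 : orderOf (y : H ⧸ K) ∣ K.index := by
      rw [Subgroup.index_eq_card]; exact orderOf_dvd_natCard _
    have hcop : Nat.Coprime (q ^ k) K.index :=
      Nat.Coprime.pow_left k ((Nat.Prime.coprime_iff_not_dvd hq).2 hqK)
    have h3 : orderOf (y : H ⧸ K) = 1 := Nat.eq_one_of_dvd_coprimes hcop h1 h2
    exact (QuotientGroup.eq_one_iff y).1 (orderOf_eq_one_iff.1 h3)
  have hQbot : (Q : Subgroup H) ≠ ⊥ := by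
    intro hbot
    have hc := Q.card_eq_multiplicity
    rw [hbot, Subgroup.card_bot] at hc
    have hfac : (Nat.card H).factorization q = 0 := by
      by_contra hne
      have : 1 < q ^ (Nat.card H).factorization q := Nat.one_lt_pow hne hq.one_lt
      omega
    have hpos : Nat.card H ≠ 0 := Nat.card_pos.ne'
    rcases (Nat.factorization_eq_zero_iff _ _).1 hfac with h | h | h
    · exact h hq
    · exact h hqH
    · exact hpos h
  by_cases hnorm : Subgroup.normalizer (Q : Set H) = ⊤
  · have : (Q : Subgroup H).Normal := Subgroup.normalizer_eq_top_iff.1 hnorm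
    obtain ⟨L, hL⟩ := Subgroup.exists_right_complement'_of_coprime Q.card_coprime_index
    refine ⟨L, ?_, ?_⟩
    · intro hLtop
      have hcard := hL.card_mul_card
      rw [hLtop, Subgroup.card_top] at hcard
      have hpos : 0 < Nat.card H := Nat.card_pos
      have h1 : Nat.card (Q : Subgroup H) = 1 := by
        have : Nat.card (Q : Subgroup H) * Nat.card H = 1 * Nat.card H := by rw [hcard, one_mul]
        exact Nat.eq_of_mul_eq_mul_right hpos this
      exact hQbot ((Subgroup.card_eq_one).1 h1)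
    · have h1 := hL.sup_eq_top
      rw [eq_top_iff, ← h1, sup_comm]
      exact sup_le_sup_left hQK L
  · exact ⟨Subgroup.normalizer (Q : Set H), hnorm, Sylow.normalizer_sup_eq_top' Q hQK⟩

theorem result {G : Type*} [Group G] [Finite G] (N M : Subgroup G) [N.Normal] [M.Normal] (hMN : M ≤ N) (hM1 : M ≠ ⊥) (hN2 : N ≠ ⊤)
    (hcam : ∀ g : G, g ∉ N → ∀ m ∈ M, ∃ x : G, x * g * x⁻¹ = g * m) :
    ((∀ x ∈ M, x ≠ 1 → Subgroup.centralizer ({x} : Set G) ≤ N) ↔ N.index.Coprime (Nat.card M)) ∧
    ((∀ x ∈ M, x ≠ 1 → Subgroup.centralizer ({x} : Set G) ≤ N) → ∃ H : Subgroup G, H ⊔ N = ⊤ ∧ H ⊓ M = ⊥) := by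
  have h12 : (∀ x ∈ M, x ≠ 1 → Subgroup.centralizer ({x} : Set G) ≤ N) → N.index.Coprime (Nat.card M) := by
    intro h1
    by_contra hnc
    obtain ⟨q, hq, hqN, hqM⟩ := Nat.Prime.not_coprime_iff_dvd.1 hnc
    have : Fact q.Prime := ⟨hq⟩
    obtain ⟨x, hx⟩ := exists_prime_orderOf_dvd_card' q hqM
    have hxo : orderOf (x : G) = q := by rw [← hx]; exact (Subgroup.orderOf_coe x)
    have hx1 : (x : G) ≠ 1 := by
      intro h
      rw [h, orderOf_one] at hxo
      exact hq.one_lt.ne hxo
    have hzp : IsPGroup q (Subgroup.zpowers (x : G)) := by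
      apply IsPGroup.of_card (n := 1)
      rw [Nat.card_zpowers, hxo, pow_one]
    obtain ⟨S, hS⟩ := hzp.exists_le_sylow
    have hxS : (x : G) ∈ (S : Subgroup G) := hS (Subgroup.mem_zpowers _)
    have hC : (S : Subgroup G) ⊓ M ≠ ⊥ := by
      intro hbot
      have : (x : G) ∈ (S : Subgroup G) ⊓ M := ⟨hxS, x.2⟩
      rw [hbot, Subgroup.mem_bot] at this
      exact hx1 this
    have hnil : Group.IsNilpotent (S : Subgroup G) := S.2.isNilpotent
    have hnorm : (S : Subgroup G) ≤ Subgroup.normalizer (((S : Subgroup G) ⊓ M : Subgroup G) : Set G) := by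
      intro s (hs : s ∈ (S : Subgroup G))
      rw [Subgroup.mem_normalizer_iff]
      intro h
      constructor
      · rintro ⟨(h1' : h ∈ (S : Subgroup G)), h2'⟩
        exact ⟨(S : Subgroup G).mul_mem ((S : Subgroup G).mul_mem hs h1') ((S : Subgroup G).inv_mem hs),
          ‹M.Normal›.conj_mem h h2' s⟩
      · rintro ⟨(h1' : s * h * s⁻¹ ∈ (S : Subgroup G)), h2'⟩
        refine ⟨?_, ?_⟩
        · have := (S : Subgroup G).mul_mem ((S : Subgroup G).mul_mem ((S : Subgroup G).inv_mem hs) h1') hs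
          have h3 : s⁻¹ * (s * h * s⁻¹) * s = h := by group
          rw [h3] at this
          exact this
        · have := ‹M.Normal›.conj_mem _ h2' s⁻¹
          have h3 : s⁻¹ * (s * h * s⁻¹) * s⁻¹⁻¹ = h := by group
          rw [h3] at this
          exact this
    have hne := Cfsg.Agent.Lib.Helper71.Fitting.inf_centralizer_ne_bot (S : Subgroup G)
      ((S : Subgroup G) ⊓ M) hnil inf_le_left hC hnorm
    obtain ⟨z, hz1⟩ := (Subgroup.ne_bot_iff_exists_ne_one).1 hne
    have hz1' : (z : G) ≠ 1 := fun h => hz1 (Subtype.ext h)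
    have hzM : (z : G) ∈ M := z.2.1.2
    have hzC : (z : G) ∈ Subgroup.centralizer ((S : Subgroup G) : Set G) := z.2.2
    have hSN : (S : Subgroup G) ≤ N := by
      intro s hs
      apply h1 z hzM hz1'
      rw [Subgroup.mem_centralizer_singleton_iff]
      exact (hzC s hs)
    exact S.not_dvd_index (dvd_trans hqN (Subgroup.index_dvd_of_le hSN))
  have h21 : N.index.Coprime (Nat.card M) → (∀ x ∈ M, x ≠ 1 → Subgroup.centralizer ({x} : Set G) ≤ N) := by
    intro hcop x hxM hx1 g hg
    by_contra hgN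
    have hox : orderOf x ≠ 1 := fun h => hx1 (orderOf_eq_one_iff.1 h)
    set q := (orderOf x).minFac with hqdef
    have hq : q.Prime := Nat.minFac_prime hox
    have hqx : q ∣ orderOf x := Nat.minFac_dvd _
    set x' := x ^ (orderOf x / q) with hx'def
    have hx'o : orderOf x' = q := orderOf_pow_orderOf_div (orderOf_pos x).ne' hqx
    have hx'M : x' ∈ M := M.pow_mem hxM _
    have hqM : q ∣ Nat.card M := by
      have := orderOf_dvd_natCard (⟨x', hx'M⟩ : M)
      rw [← hx'o]
      rwa [Subgroup.orderOf_mk] at this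
    have hqN : ¬ q ∣ N.index := by
      intro h
      have := Nat.eq_one_of_dvd_coprimes hcop h hqM
      exact hq.one_lt.ne' this
    have hgx : g * x = x * g := Subgroup.mem_centralizer_singleton_iff.1 hg
    have hn0 : orderOf g ≠ 0 := (orderOf_pos g).ne'
    obtain ⟨a, b, hqb, hn⟩ := Nat.exists_eq_pow_mul_and_not_dvd hn0 q hq.ne_one
    set h := g ^ (q ^ a) with hhdef
    have hcomm : Commute h x' := by
      have : Commute g x := hgx
      exact (this.pow_left _).pow_right _
    have hhb : orderOf h ∣ b := by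
      apply orderOf_dvd_of_pow_eq_one
      rw [hhdef, ← pow_mul, ← hn, pow_orderOf_eq_one]
    have hhN : h ∉ N := by
      intro hh
      apply hgN
      have e1 : orderOf (g : G ⧸ N) ∣ q ^ a := by
        apply orderOf_dvd_of_pow_eq_one
        rw [← QuotientGroup.mk_pow]
        exact (QuotientGroup.eq_one_iff _).2 hh
      have e2 : orderOf (g : G ⧸ N) ∣ N.index := by
        rw [Subgroup.index_eq_card]; exact orderOf_dvd_natCard _
      have hc : Nat.Coprime (q ^ a) N.index :=
        Nat.Coprime.pow_left a ((Nat.Prime.coprime_iff_not_dvd hq).2 hqN)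
      have e3 : orderOf (g : G ⧸ N) = 1 := Nat.eq_one_of_dvd_coprimes hc e1 e2
      exact (QuotientGroup.eq_one_iff g).1 (orderOf_eq_one_iff.1 e3)
    obtain ⟨y, hy⟩ := hcam h hhN x' hx'M
    have ho1 : orderOf (h * x') = orderOf h := by
      rw [← hy]
      have := MulEquiv.orderOf_eq (MulAut.conj y) h
      simpa using this
    have hcop' : Nat.Coprime (orderOf h) (orderOf x') := by
      rw [hx'o]
      exact Nat.Coprime.coprime_dvd_left hhb (Nat.Coprime.symm ((Nat.Prime.coprime_iff_not_dvd hq).2 hqb))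
    have ho2 := hcomm.orderOf_mul_eq_mul_orderOf_of_coprime hcop'
    rw [ho1, hx'o] at ho2
    have hpos : 0 < orderOf h := orderOf_pos h
    have : orderOf h * 1 = orderOf h * q := by rw [mul_one]; exact ho2
    have := Nat.eq_of_mul_eq_mul_left hpos this
    exact hq.one_lt.ne this
  refine ⟨⟨h12, h21⟩, ?_⟩
  intro h1
  have hcop := h12 h1
  obtain ⟨H, hHtop, hHmin⟩ : ∃ H : Subgroup G, H ⊔ N = ⊤ ∧
      ∀ L : Subgroup G, L ⊔ N = ⊤ → Nat.card H ≤ Nat.card L := by
    have : Nonempty {H : Subgroup G // H ⊔ N = ⊤} := ⟨⟨⊤, top_sup_eq _⟩⟩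
    obtain ⟨H, hH⟩ := Finite.exists_min (fun H : {H : Subgroup G // H ⊔ N = ⊤} => Nat.card (H : Subgroup G))
    exact ⟨H.1, H.2, fun L hL => hH ⟨L, hL⟩⟩
  refine ⟨H, hHtop, ?_⟩
  by_contra hbot
  have hcard : Nat.card (H ⊓ M : Subgroup G) ≠ 1 := fun h => hbot (Subgroup.card_eq_one.1 h)
  obtain ⟨q, hq, hqd⟩ := Nat.exists_prime_and_dvd hcard
  have hqH : q ∣ Nat.card H := dvd_trans hqd (Subgroup.card_dvd_of_le inf_le_left)
  have hqM : q ∣ Nat.card M := dvd_trans hqd (Subgroup.card_dvd_of_le inf_le_right)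
  have hqN : ¬ q ∣ N.index := by
    intro h
    have := Nat.eq_one_of_dvd_coprimes hcop h hqM
    exact hq.one_lt.ne' this
  have hidx : (N.subgroupOf H).index = N.index := by
    have h1 : N.relIndex (H ⊔ N) = N.relIndex H := Subgroup.relIndex_sup_right H N
    rw [hHtop, Subgroup.relIndex_top_right] at h1
    exact h1.symm
  obtain ⟨L, hLtop, hLsup⟩ := exists_proper_supplement (N.subgroupOf H) q hq hqH (by rw [hidx]; exact hqN)
  have hL' : L.map H.subtype ⊔ N = ⊤ := by
    have e1 : (L ⊔ N.subgroupOf H).map H.subtype = H := by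
      rw [hLsup, ← MonoidHom.range_eq_map, Subgroup.range_subtype]
    rw [Subgroup.map_sup] at e1
    rw [eq_top_iff, ← hHtop]
    apply sup_le _ le_sup_right
    calc H = L.map H.subtype ⊔ (N.subgroupOf H).map H.subtype := e1.symm
      _ ≤ L.map H.subtype ⊔ N := by
        apply sup_le_sup_left
        rw [Subgroup.subgroupOf_map_subtype]
        exact inf_le_left
  have hlt : Nat.card (L.map H.subtype) < Nat.card H := by
    rw [Subgroup.card_map_of_injective H.subtype_injective]
    have hle : Nat.card L ≤ Nat.card H := Subgroup.card_le_card_group L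
    rcases hle.lt_or_eq with h | h
    · exact h
    · exact absurd (Subgroup.eq_top_of_card_eq L h) hLtop
  exact absurd (hHmin _ hL') (not_le.2 hlt)

end Cfsg.Agent.S4112
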