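import Mathlib
import Cfsg.Statements.S4116

set_option autoImplicit false
open Cfsg

namespace Cfsg.Agent.S4116

/-- Counting the non-identity elements covered by the conjugates of a malnormal subgroup. -/
theorem card_conj_cover {K : Type*} [Group K] [Finite K] (X : Subgroup K)
    (hmal : ∀ k x : K, x ∈ X → x ≠ 1 → k * x * k⁻¹ ∈ X → k ∈ X) :
    X.index * (Nat.card X - 1) ≤ Set.ncard {y : K | y ≠ 1 ∧ ∃ k : K, k⁻¹ * y * k ∈ X} := by
  classical
  have h1 : Nat.card ((K ⧸ X) × {x : X // x ≠ 1}) = X.index * (Nat.card X - 1) := by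
    rw [Nat.card_prod, ← Subgroup.index_eq_card]
    congr 1
    have : Nat.card {x : X // x ≠ 1} = Set.ncard ((Set.univ : Set X) \ {1}) := by
      rw [← Nat.card_coe_set_eq]
      apply Nat.card_congr
      exact Equiv.subtypeEquivRight (fun x => by simp)
    rw [this, Set.ncard_sdiff_singleton_of_mem (Set.mem_univ _), Set.ncard_univ]
  rw [← h1, ← Nat.card_coe_set_eq]
  let φ : (K ⧸ X) × {x : X // x ≠ 1} → {y : K | y ≠ 1 ∧ ∃ k : K, k⁻¹ * y * k ∈ X} := fun cx =>
    ⟨Quotient.out cx.1 * (cx.2.1 : K) * (Quotient.out cx.1)⁻¹, by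
      constructor
      · intro h
        apply cx.2.2
        have h2 : ((cx.2.1 : X) : K) = 1 := by
          have := congrArg (fun z => (Quotient.out cx.1)⁻¹ * z * Quotient.out cx.1) h
          simpa [mul_assoc] using this
        exact Subtype.ext h2
      · refine ⟨Quotient.out cx.1, ?_⟩
        have : (Quotient.out cx.1)⁻¹ * (Quotient.out cx.1 * (cx.2.1 : K) * (Quotient.out cx.1)⁻¹) *
            Quotient.out cx.1 = (cx.2.1 : K) := by group
        rw [this]
        exact cx.2.1.2⟩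
  apply Nat.card_le_card_of_injective φ
  rintro ⟨c, ⟨x, hx⟩⟩ ⟨d, ⟨y, hy⟩⟩ h
  have h' : Quotient.out c * (x : K) * (Quotient.out c)⁻¹ = Quotient.out d * (y : K) * (Quotient.out d)⁻¹ :=
    congrArg Subtype.val h
  have hx1 : (x : K) ≠ 1 := fun h0 => hx (Subtype.ext h0)
  have hmem : ((Quotient.out d)⁻¹ * Quotient.out c) * (x : K) * ((Quotient.out d)⁻¹ * Quotient.out c)⁻¹ ∈ X := by
    have : ((Quotient.out d)⁻¹ * Quotient.out c) * (x : K) * ((Quotient.out d)⁻¹ * Quotient.out c)⁻¹ = (y : K) := by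
      calc ((Quotient.out d)⁻¹ * Quotient.out c) * (x : K) * ((Quotient.out d)⁻¹ * Quotient.out c)⁻¹
          = (Quotient.out d)⁻¹ * (Quotient.out c * (x : K) * (Quotient.out c)⁻¹) * Quotient.out d := by group
        _ = (Quotient.out d)⁻¹ * (Quotient.out d * (y : K) * (Quotient.out d)⁻¹) * Quotient.out d := by rw [h']
        _ = (y : K) := by group
    rw [this]
    exact y.2
  have hdc := hmal _ _ x.2 hx1 hmem
  have hcd : c = d := by
    rw [← QuotientGroup.out_eq' c, ← QuotientGroup.out_eq' d]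
    exact (QuotientGroup.eq.2 hdc).symm
  subst hcd
  have hxy : (x : K) = (y : K) := by
    have := congrArg (fun z => (Quotient.out c)⁻¹ * z * Quotient.out c) h'
    simpa [mul_assoc] using this
  have hxy' : x = y := Subtype.ext hxy
  subst hxy'
  rfl

/-- Let G be a finite group with a subgroup H whose order is coprime to its index (a Hall subgroup) and which meets each of its conjugates by elements outside N_G(H) trivially. Then every subgroup of G whose order is divisible only by primes dividing the order of H lies in a conjugate of H. -/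
theorem result {G : Type*} [Group G] [Finite G] (H : Subgroup G)
    (hHall : (Nat.card H).Coprime H.index) (hTI : Cfsg.IsTISubset (H : Set G))
    (K : Subgroup G) (hK : ∀ q : ℕ, q.Prime → q ∣ Nat.card K → q ∣ Nat.card H) :
    ∃ g : G, K ≤ H.map (MulAut.conj g).toMonoidHom := by
  classical
  by_cases hKbot : K = ⊥
  · exact ⟨1, by rw [hKbot]; exact bot_le⟩
  have mem_conj : ∀ (c y : G), y ∈ H.map (MulAut.conj c).toMonoidHom ↔ c⁻¹ * y * c ∈ H := by
    intro c y
    rw [Subgroup.mem_map_equiv, MulAut.conj_symm_apply]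
  -- F1: conjugates of H sharing a non-identity element coincide
  have F1 : ∀ c d y : G, y ≠ 1 → c⁻¹ * y * c ∈ H → d⁻¹ * y * d ∈ H →
      ∀ z : G, (c⁻¹ * z * c ∈ H ↔ d⁻¹ * z * d ∈ H) := by
    intro c d y hy hc hd
    have hg : d⁻¹ * c ∈ Subgroup.normalizer (H : Set G) := by
      by_contra hg
      have h1 := hTI (d⁻¹ * c) hg (c⁻¹ * y * c) hc
      have h2 : d⁻¹ * c * (c⁻¹ * y * c) * (d⁻¹ * c)⁻¹ = d⁻¹ * y * d := by group
      rw [h2] at h1
      have h3 := h1 hd
      apply hy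
      have : y = c * (c⁻¹ * y * c) * c⁻¹ := by group
      rw [this, h3]; group
    rw [Subgroup.mem_normalizer_iff] at hg
    intro z
    rw [hg (c⁻¹ * z * c)]
    have : d⁻¹ * c * (c⁻¹ * z * c) * (d⁻¹ * c)⁻¹ = d⁻¹ * z * d := by group
    rw [this]
  -- F3: elements of the normalizer whose order involves only primes of |H| lie in H
  have F3 : ∀ k : G, k ∈ Subgroup.normalizer (H : Set G) →
      (∀ q : ℕ, q.Prime → q ∣ orderOf k → q ∣ Nat.card H) → k ∈ H := by
    intro k hk hord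
    have hn : (H.subgroupOf (Subgroup.normalizer (H : Set G))).Normal := Subgroup.normal_in_normalizer
    set N := Subgroup.normalizer (H : Set G) with hN
    set k' : N := ⟨k, hk⟩ with hk'
    set o := orderOf (QuotientGroup.mk' (H.subgroupOf N) k') with ho
    have ho1 : o ∣ orderOf k := by
      have h1 : o ∣ orderOf k' := orderOf_map_dvd _ k'
      have h2 : orderOf k' = orderOf k := by
        rw [← Subgroup.orderOf_coe]
      rw [h2] at h1
      exact h1
    have ho2 : o ∣ H.index := by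
      have h1 : o ∣ Nat.card (N ⧸ H.subgroupOf N) := orderOf_dvd_natCard _
      rw [← Subgroup.index_eq_card] at h1
      exact h1.trans (Subgroup.relIndex_dvd_index_of_le Subgroup.le_normalizer)
    have ho3 : o = 1 := by
      by_contra hne
      obtain ⟨q, hq, hqo⟩ := Nat.exists_prime_and_dvd hne
      have h1 : q ∣ Nat.card H := hord q hq (hqo.trans ho1)
      have h2 : q ∣ H.index := hqo.trans ho2
      have h3 : q ∣ Nat.gcd (Nat.card H) H.index := Nat.dvd_gcd h1 h2
      rw [hHall] at h3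
      exact hq.one_lt.ne' (Nat.dvd_one.1 h3)
    rw [ho, orderOf_eq_one_iff] at ho3
    have h4 : k' ∈ H.subgroupOf N := by
      rw [← QuotientGroup.eq_one_iff]
      exact ho3
    rw [Subgroup.mem_subgroupOf] at h4
    exact h4
  have hKord : ∀ k ∈ K, ∀ q : ℕ, q.Prime → q ∣ orderOf k → q ∣ Nat.card H :=
    fun k hk q hq hqk => hK q hq (hqk.trans (Subgroup.orderOf_dvd_natCard K hk))
  -- malnormality
  have Mal : ∀ a k x : G, k ∈ K → x ≠ 1 → a⁻¹ * x * a ∈ H → a⁻¹ * (k * x * k⁻¹) * a ∈ H →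
      a⁻¹ * k * a ∈ H := by
    intro a k x hk hx h1 h2
    have hy : k * x * k⁻¹ ≠ 1 := by
      intro h
      apply hx
      have : x = k⁻¹ * (k * x * k⁻¹) * k := by group
      rw [this, h]; group
    have h3 : (k * a)⁻¹ * (k * x * k⁻¹) * (k * a) ∈ H := by
      have : (k * a)⁻¹ * (k * x * k⁻¹) * (k * a) = a⁻¹ * x * a := by group
      rw [this]; exact h1
    have h4 := F1 a (k * a) (k * x * k⁻¹) hy h2 h3
    apply F3
    · rw [Subgroup.mem_normalizer_iff]
      intro w
      have h5 := h4 (k * (a * w * a⁻¹) * k⁻¹)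
      have e1 : a⁻¹ * (k * (a * w * a⁻¹) * k⁻¹) * a = a⁻¹ * k * a * w * (a⁻¹ * k * a)⁻¹ := by group
      have e2 : (k * a)⁻¹ * (k * (a * w * a⁻¹) * k⁻¹) * (k * a) = w := by group
      rw [e1, e2] at h5
      exact h5.symm
    · intro q hq hqk
      apply hKord k hk q hq
      have : orderOf (a⁻¹ * k * a) = orderOf k := by
        have := MulEquiv.orderOf_eq (MulAut.conj a⁻¹) k
        simpa using this
      rw [this] at hqk
      exact hqk
  -- F2: Sylow subgroups of K lie in conjugates of H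
  have F2 : ∀ (p : ℕ) [Fact p.Prime], p ∣ Nat.card K → ∀ (R : Sylow p K),
      ∃ a : G, ∀ x : K, x ∈ R → a⁻¹ * (x : G) * a ∈ H := by
    intro p hp hpK R
    have hpH : p ∣ Nat.card H := hK p hp.out hpK
    obtain ⟨PH⟩ : Nonempty (Sylow p H) := inferInstance
    have hcard : Nat.card ((PH : Subgroup H).map H.subtype) = p ^ (Nat.card G).factorization p := by
      rw [Subgroup.card_map_of_injective H.subtype_injective, PH.card_eq_multiplicity]
      congr 1
      rw [← Subgroup.card_mul_index H, Nat.factorization_mul Nat.card_pos.ne' Subgroup.index_ne_zero_of_finite]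
      have hnd : ¬ p ∣ H.index := by
        intro h
        have h3 : p ∣ Nat.gcd (Nat.card H) H.index := Nat.dvd_gcd hpH h
        rw [hHall] at h3
        exact hp.out.one_lt.ne' (Nat.dvd_one.1 h3)
      simp [Nat.factorization_eq_zero_of_not_dvd hnd]
    set P : Sylow p G := Sylow.ofCard _ hcard with hP
    have hPH : (P : Subgroup G) ≤ H := by
      rw [hP, Sylow.coe_ofCard]
      rintro x ⟨y, -, rfl⟩
      exact y.2
    have hRp : IsPGroup p ((R : Subgroup K).map K.subtype) := R.isPGroup'.map K.subtype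
    obtain ⟨P'', hP''⟩ := hRp.exists_le_sylow
    obtain ⟨g, hg⟩ := MulAction.exists_smul_eq G P P''
    refine ⟨g, ?_⟩
    intro x hx
    have h1 : (x : G) ∈ (P'' : Subgroup G) := hP'' (Subgroup.mem_map_of_mem K.subtype hx)
    rw [← hg, Sylow.coe_subgroup_smul, Subgroup.mem_pointwise_smul_iff_inv_smul_mem] at h1
    apply hPH
    simpa [MulAut.smul_def] using h1
  -- main argument
  have hcardK : Nat.card K ≠ 1 := by
    intro h
    exact hKbot (Subgroup.eq_bot_of_card_eq K h)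
  obtain ⟨p, hp, hpK⟩ := Nat.exists_prime_and_dvd hcardK
  have : Fact p.Prime := ⟨hp⟩
  obtain ⟨R⟩ : Nonempty (Sylow p K) := inferInstance
  obtain ⟨a, ha⟩ := F2 p hpK R
  by_contra hcon
  set X₁ : Subgroup K := (H.map (MulAut.conj a).toMonoidHom).subgroupOf K with hX₁
  have hX₁top : X₁ ≠ ⊤ := by
    intro h
    rw [hX₁, Subgroup.subgroupOf_eq_top] at h
    exact hcon ⟨a, h⟩
  have hmemX : ∀ (c : G) (x : K), x ∈ (H.map (MulAut.conj c).toMonoidHom).subgroupOf K ↔
      c⁻¹ * (x : G) * c ∈ H := by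
    intro c x
    rw [Subgroup.mem_subgroupOf, mem_conj]
  have hidx : X₁.index ≠ 1 := by
    intro h
    exact hX₁top (Subgroup.index_eq_one.1 h)
  obtain ⟨q, hq, hqidx⟩ := Nat.exists_prime_and_dvd hidx
  have : Fact q.Prime := ⟨hq⟩
  have hqK : q ∣ Nat.card K := hqidx.trans (Subgroup.index_dvd_card X₁)
  obtain ⟨Q⟩ : Nonempty (Sylow q K) := inferInstance
  obtain ⟨b, hb⟩ := F2 q hqK Q
  set X₂ : Subgroup K := (H.map (MulAut.conj b).toMonoidHom).subgroupOf K with hX₂
  have hRX : (R : Subgroup K) ≤ X₁ := by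
    intro x hx
    rw [hX₁, hmemX]
    exact ha x hx
  have hQX : (Q : Subgroup K) ≤ X₂ := by
    intro x hx
    rw [hX₂, hmemX]
    exact hb x hx
  have hX₁card : 2 ≤ Nat.card X₁ := by
    have h1 : (R : Subgroup K) ≠ ⊥ := R.ne_bot_of_dvd_card hpK
    have h2 : X₁ ≠ ⊥ := fun h => h1 (le_bot_iff.1 (h ▸ hRX))
    exact (Subgroup.one_lt_card_iff_ne_bot X₁).2 h2
  have hX₂card : 2 ≤ Nat.card X₂ := by
    have h1 : (Q : Subgroup K) ≠ ⊥ := Q.ne_bot_of_dvd_card hqK
    have h2 : X₂ ≠ ⊥ := fun h => h1 (le_bot_iff.1 (h ▸ hQX))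
    exact (Subgroup.one_lt_card_iff_ne_bot X₂).2 h2
  have hmalX : ∀ (c : G) (k x : K), x ∈ (H.map (MulAut.conj c).toMonoidHom).subgroupOf K → x ≠ 1 →
      k * x * k⁻¹ ∈ (H.map (MulAut.conj c).toMonoidHom).subgroupOf K →
      k ∈ (H.map (MulAut.conj c).toMonoidHom).subgroupOf K := by
    intro c k x hx hx1 hkx
    rw [hmemX] at hx hkx ⊢
    have hx1' : (x : G) ≠ 1 := fun h => hx1 (Subtype.ext h)
    exact Mal c (k : G) (x : G) k.2 hx1' hx (by simpa using hkx)
  have c1 := card_conj_cover X₁ (hmalX a)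
  have c2 := card_conj_cover X₂ (hmalX b)
  have hdisj : Disjoint {y : K | y ≠ 1 ∧ ∃ k : K, k⁻¹ * y * k ∈ X₁}
      {y : K | y ≠ 1 ∧ ∃ k : K, k⁻¹ * y * k ∈ X₂} := by
    rw [Set.disjoint_left]
    rintro y ⟨hy1, k₁, hk₁⟩ ⟨-, k₂, hk₂⟩
    rw [hX₁, hmemX] at hk₁
    rw [hX₂, hmemX] at hk₂
    have hy1' : (y : G) ≠ 1 := fun h => hy1 (Subtype.ext h)
    have h1 : ((k₁ : G) * a)⁻¹ * (y : G) * ((k₁ : G) * a) ∈ H := by
      have : ((k₁ : G) * a)⁻¹ * (y : G) * ((k₁ : G) * a) = a⁻¹ * ((k₁⁻¹ * y * k₁ : K) : G) * a := by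
        simp only [Subgroup.coe_mul, Subgroup.coe_inv]; group
      rw [this]; exact hk₁
    have h2 : ((k₂ : G) * b)⁻¹ * (y : G) * ((k₂ : G) * b) ∈ H := by
      have : ((k₂ : G) * b)⁻¹ * (y : G) * ((k₂ : G) * b) = b⁻¹ * ((k₂⁻¹ * y * k₂ : K) : G) * b := by
        simp only [Subgroup.coe_mul, Subgroup.coe_inv]; group
      rw [this]; exact hk₂
    have h3 := F1 ((k₁ : G) * a) ((k₂ : G) * b) (y : G) hy1' h1 h2
    -- a conjugate of Q lies in X₁
    have hle : (Q : Subgroup K).map (MulAut.conj (k₁⁻¹ * k₂)).toMonoidHom ≤ X₁ := by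
      rintro z ⟨x, hx, rfl⟩
      rw [hX₁, hmemX]
      have h4 := (h3 ((k₂ : G) * (x : G) * (k₂ : G)⁻¹)).2 (by
        have : ((k₂ : G) * b)⁻¹ * ((k₂ : G) * (x : G) * (k₂ : G)⁻¹) * ((k₂ : G) * b) = b⁻¹ * (x : G) * b := by
          group
        rw [this]
        exact hb x hx)
      have : a⁻¹ * (((MulAut.conj (k₁⁻¹ * k₂)).toMonoidHom x : K) : G) * a =
          ((k₁ : G) * a)⁻¹ * ((k₂ : G) * (x : G) * (k₂ : G)⁻¹) * ((k₁ : G) * a) := by
        simp only [MulEquiv.toMonoidHom_eq_coe, MonoidHom.coe_coe, MulAut.conj_apply, Subgroup.coe_mul,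
          Subgroup.coe_inv]
        group
      rw [this]
      exact h4
    have hdvd : Nat.card (Q : Subgroup K) ∣ Nat.card X₁ := by
      have := Subgroup.card_dvd_of_le hle
      rwa [Subgroup.card_map_of_injective (MulAut.conj (k₁⁻¹ * k₂)).injective] at this
    rw [Q.card_eq_multiplicity] at hdvd
    have hbad : q ^ ((Nat.card K).factorization q + 1) ∣ Nat.card K := by
      have h5 : q ^ ((Nat.card K).factorization q + 1) ∣ Nat.card X₁ * X₁.index := by
        rw [pow_succ]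
        exact Nat.mul_dvd_mul hdvd hqidx
      rwa [Subgroup.card_mul_index X₁] at h5
    exact Nat.pow_succ_factorization_not_dvd Nat.card_pos.ne' hq hbad
  have hfin : ∀ s : Set K, s.Finite := fun s => Set.toFinite s
  have hunion : Set.ncard ({y : K | y ≠ 1 ∧ ∃ k : K, k⁻¹ * y * k ∈ X₁} ∪
      {y : K | y ≠ 1 ∧ ∃ k : K, k⁻¹ * y * k ∈ X₂}) ≤ Nat.card K - 1 := by
    have hsub : ({y : K | y ≠ 1 ∧ ∃ k : K, k⁻¹ * y * k ∈ X₁} ∪
        {y : K | y ≠ 1 ∧ ∃ k : K, k⁻¹ * y * k ∈ X₂}) ⊆ (Set.univ : Set K) \ {1} := by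
      rintro y (hy | hy)
      · exact ⟨Set.mem_univ _, by simpa using hy.1⟩
      · exact ⟨Set.mem_univ _, by simpa using hy.1⟩
    have := Set.ncard_le_ncard hsub (hfin _)
    rwa [Set.ncard_sdiff_singleton_of_mem (Set.mem_univ _), Set.ncard_univ] at this
  rw [Set.ncard_union_eq hdisj (hfin _) (hfin _)] at hunion
  have e1 := Subgroup.index_mul_card X₁
  have e2 := Subgroup.index_mul_card X₂
  have hKpos : 0 < Nat.card K := Nat.card_pos
  have g1 : Nat.card K ≤ 2 * (X₁.index * (Nat.card X₁ - 1)) := by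
    have : Nat.card X₁ ≤ 2 * (Nat.card X₁ - 1) := by omega
    calc Nat.card K = X₁.index * Nat.card X₁ := e1.symm
      _ ≤ X₁.index * (2 * (Nat.card X₁ - 1)) := Nat.mul_le_mul_left _ this
      _ = 2 * (X₁.index * (Nat.card X₁ - 1)) := by ring
  have g2 : Nat.card K ≤ 2 * (X₂.index * (Nat.card X₂ - 1)) := by
    have : Nat.card X₂ ≤ 2 * (Nat.card X₂ - 1) := by omega
    calc Nat.card K = X₂.index * Nat.card X₂ := e2.symm
      _ ≤ X₂.index * (2 * (Nat.card X₂ - 1)) := Nat.mul_le_mul_left _ this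
      _ = 2 * (X₂.index * (Nat.card X₂ - 1)) := by ring
  omega

end Cfsg.Agent.S4116
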