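import Cfsg.Statements.S4117
-- import your own Cfsg.Agent.* helpers here
import Mathlib

set_option autoImplicit false
open Cfsg

namespace Cfsg.Agent.S4117

section helpers

variable {G A : Type*} [Group G] [Group A] [MulDistribMulAction A G]

/-- The generating set of `[G, A]`. -/
def gens (G A : Type*) [Group G] [Group A] [MulDistribMulAction A G] : Set G :=
  {y : G | ∃ (a : A) (g : G), y = g⁻¹ * a • g}

/-- `[G, A]` is normal in `G`. -/
theorem W_normal : (Subgroup.closure (gens G A)).Normal := by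
  constructor
  intro w hw x
  induction hw using Subgroup.closure_induction with
  | mem y hy =>
    obtain ⟨a, g, rfl⟩ := hy
    -- x (g⁻¹ a•g) x⁻¹ = [g x⁻¹, a] * [x⁻¹, a]⁻¹
    have e : x * (g⁻¹ * a • g) * x⁻¹
        = ((g * x⁻¹)⁻¹ * a • (g * x⁻¹)) * ((x⁻¹)⁻¹ * a • x⁻¹)⁻¹ := by
      simp only [smul_mul', smul_inv', mul_inv_rev, inv_inv]
      group
    rw [e]
    exact mul_mem (Subgroup.subset_closure ⟨a, g * x⁻¹, rfl⟩)
      (inv_mem (Subgroup.subset_closure ⟨a, x⁻¹, rfl⟩))
  | one => simp
  | mul y z _ _ hy hz =>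
    have : x * (y * z) * x⁻¹ = (x * y * x⁻¹) * (x * z * x⁻¹) := by group
    rw [this]; exact mul_mem hy hz
  | inv y _ hy =>
    have : x * y⁻¹ * x⁻¹ = (x * y * x⁻¹)⁻¹ := by group
    rw [this]; exact inv_mem hy

/-- `[G, A]` is `A`-invariant. -/
theorem W_smul (a : A) {w : G} (hw : w ∈ Subgroup.closure (gens G A)) :
    a • w ∈ Subgroup.closure (gens G A) := by
  induction hw using Subgroup.closure_induction with
  | mem y hy =>
    obtain ⟨b, g, rfl⟩ := hy
    have e : a • (g⁻¹ * b • g) = (g⁻¹ * a • g)⁻¹ * (g⁻¹ * (a * b) • g) := by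
      simp only [smul_mul', smul_inv', mul_inv_rev, inv_inv, mul_smul]
      group
    rw [e]
    exact mul_mem (inv_mem (Subgroup.subset_closure ⟨a, g, rfl⟩))
      (Subgroup.subset_closure ⟨a * b, g, rfl⟩)
  | one => simp
  | mul y z _ _ hy hz => rw [smul_mul']; exact mul_mem hy hz
  | inv y _ hy => rw [smul_inv']; exact inv_mem hy

/-- Cocycle averaging: if `[G, A]` is abelian and the action is coprime, then `G = C_G(A) [G, A]`
and `[G, A] ∩ C_G(A) = 1`. -/
theorem avg [Finite A] [Finite G] (hcop : (Nat.card A).Coprime (Nat.card G))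
    (hWc : ∀ x ∈ Subgroup.closure (gens G A), ∀ y ∈ Subgroup.closure (gens G A), x * y = y * x) :
    (∀ g : G, ∃ u ∈ Subgroup.closure (gens G A), ∀ a : A, a • (g * u) = g * u) ∧
    (∀ x ∈ Subgroup.closure (gens G A), (∀ a : A, a • x = x) → x = 1) := by
  classical
  have := Fintype.ofFinite A
  set W := Subgroup.closure (gens G A) with hW
  let _ : CommGroup ↥W :=
    { (inferInstance : Group ↥W) with mul_comm := fun x y => Subtype.ext (hWc x x.2 y y.2) }
  let φ : A → (↥W →* ↥W) := fun a =>
    { toFun := fun w => ⟨a • (w : G), W_smul a w.2⟩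
      map_one' := Subtype.ext (smul_one a)
      map_mul' := fun x y => Subtype.ext (smul_mul' a (x : G) (y : G)) }
  have hφ : ∀ a (w : ↥W), ((φ a w : ↥W) : G) = a • (w : G) := fun a w => rfl
  let f : G → A → ↥W := fun g b => ⟨g⁻¹ * b • g, Subgroup.subset_closure ⟨b, g, rfl⟩⟩
  have hf : ∀ g b, ((f g b : ↥W) : G) = g⁻¹ * b • g := fun g b => rfl
  have hcoc : ∀ g a b, f g (a * b) = f g a * φ a (f g b) := by
    intro g a b
    apply Subtype.ext
    show g⁻¹ * (a * b) • g = (g⁻¹ * a • g) * a • (g⁻¹ * b • g)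
    simp only [smul_mul', smul_inv', mul_smul]
    group
  have hsum : ∀ g a, ∏ b, f g b = (f g a) ^ (Fintype.card A) * φ a (∏ b, f g b) := by
    intro g a
    calc ∏ b, f g b = ∏ b, f g (a * b) := (Equiv.prod_comp (Equiv.mulLeft a) (f g)).symm
      _ = ∏ b, (f g a * φ a (f g b)) := by simp only [hcoc]
      _ = (f g a) ^ (Fintype.card A) * φ a (∏ b, f g b) := by
          rw [Finset.prod_mul_distrib, Finset.prod_const, Finset.card_univ, map_prod]
  have hcopW : (Nat.card ↥W).Coprime (Fintype.card A) := by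
    rw [← Nat.card_eq_fintype_card]
    exact (hcop.coprime_dvd_right (Subgroup.card_subgroup_dvd_card W)).symm
  have hinj : ∀ x y : ↥W, x ^ (Fintype.card A) = y ^ (Fintype.card A) → x = y := by
    intro x y h
    exact (powCoprime hcopW).injective h
  constructor
  · intro g
    obtain ⟨u, hu⟩ := (powCoprime hcopW).surjective (∏ b, f g b)
    have hu' : u ^ (Fintype.card A) = ∏ b, f g b := hu
    refine ⟨(u : G), u.2, ?_⟩
    intro a
    have h1 := hsum g a
    rw [← hu', map_pow] at h1
    have h2 : f g a = u * (φ a u)⁻¹ := by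
      apply hinj
      rw [mul_pow, inv_pow, h1, mul_inv_cancel_right]
    have h3 : g⁻¹ * a • g = (u : G) * (a • (u : G))⁻¹ := by
      have := congrArg (Subtype.val) h2
      rw [hf] at this
      rw [this]
      rfl
    have h4 : a • g = g * ((u : G) * (a • (u : G))⁻¹) := by rw [← h3]; group
    rw [smul_mul', h4]
    group
  · intro x hx hfix
    have hN : ∀ w : ↥W, ∏ b, φ b w = 1 := by
      intro w
      obtain ⟨w, hw⟩ := w
      induction hw using Subgroup.closure_induction with
      | mem y hy =>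
        obtain ⟨a, g, rfl⟩ := hy
        have e : ∀ b, φ b (f g a) = (f g b)⁻¹ * f g (b * a) := by
          intro b; rw [hcoc, inv_mul_cancel_left]
        show ∏ b, φ b (f g a) = 1
        simp only [e]
        have e2 : ∏ x, f g (x * a) = ∏ x, f g x := Equiv.prod_comp (Equiv.mulRight a) (f g)
        rw [Finset.prod_mul_distrib, Finset.prod_inv_distrib, e2, inv_mul_cancel]
      | one =>
        have : (⟨1, one_mem W⟩ : ↥W) = 1 := rfl
        rw [this]; simp
      | mul y z hy hz ihy ihz =>
        have : (⟨y * z, mul_mem hy hz⟩ : ↥W) = ⟨y, hy⟩ * ⟨z, hz⟩ := rfl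
        rw [this]
        simp only [map_mul]
        rw [Finset.prod_mul_distrib, ihy, ihz, one_mul]
      | inv y hy ihy =>
        have : (⟨y⁻¹, inv_mem hy⟩ : ↥W) = (⟨y, hy⟩ : ↥W)⁻¹ := rfl
        rw [this]
        simp only [map_inv]
        rw [Finset.prod_inv_distrib, ihy, inv_one]
    have h1 := hN ⟨x, hx⟩
    have h2 : ∀ b, φ b ⟨x, hx⟩ = ⟨x, hx⟩ := fun b => Subtype.ext (hfix b)
    simp only [h2, Finset.prod_const, Finset.card_univ] at h1
    have h3 : (⟨x, hx⟩ : ↥W) = 1 := by
      apply hinj; rw [h1, one_pow]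
    exact congrArg Subtype.val h3

/-- In a finite cyclic group an element killed by `r` lies in the subgroup generated by any
element of order `r`. -/
theorem mem_zpowers_of_cyclic {P : Type*} [Group P] [Finite P] [IsCyclic P] {r : ℕ} (hr : 0 < r)
    (c w : P) (hc : orderOf c = r) (hw : w ^ r = 1) : w ∈ Subgroup.zpowers c := by
  classical
  have := Fintype.ofFinite P
  have h1 := IsCyclic.card_pow_eq_one_le (α := P) hr
  have h2 : (Finset.univ.filter (fun y : P => y ∈ Subgroup.zpowers c)).card = r := by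
    rw [← Fintype.card_subtype, ← Nat.card_eq_fintype_card, Nat.card_zpowers, hc]
  have hsub : Finset.univ.filter (fun y : P => y ∈ Subgroup.zpowers c)
      ⊆ Finset.univ.filter (fun y : P => y ^ r = 1) := by
    intro y hy
    rw [Finset.mem_filter] at hy ⊢
    refine ⟨Finset.mem_univ _, ?_⟩
    obtain ⟨k, rfl⟩ := Subgroup.mem_zpowers_iff.mp hy.2
    rw [← zpow_natCast, ← zpow_mul, mul_comm, zpow_mul, zpow_natCast, ← hc, pow_orderOf_eq_one,
      one_zpow]
  have heq := Finset.eq_of_subset_of_card_le hsub (by rw [h2]; exact h1)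
  have : w ∈ Finset.univ.filter (fun y : P => y ^ r = 1) := by
    rw [Finset.mem_filter]; exact ⟨Finset.mem_univ _, hw⟩
  rw [← heq, Finset.mem_filter] at this
  exact this.2

/-- In a finite Z-group, the centralizer of the commutator subgroup is cyclic and
self-centralizing. -/
theorem zgroup_F (G : Type*) [Group G] [Finite G] [IsZGroup G] :
    IsCyclic (Subgroup.centralizer (commutator G : Set G)) ∧
    Subgroup.centralizer ((Subgroup.centralizer (commutator G : Set G) : Subgroup G) : Set G)
      ≤ Subgroup.centralizer (commutator G : Set G) := by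
  have hNc : IsCyclic (commutator G) := IsZGroup.isCyclic_commutator G
  have hNF : commutator G ≤ Subgroup.centralizer (commutator G : Set G) := by
    intro x hx
    rw [Subgroup.mem_centralizer_iff]
    intro y hy
    have := (IsCyclic.commGroup (α := commutator G)).mul_comm ⟨y, hy⟩ ⟨x, hx⟩
    exact congrArg Subtype.val this
  constructor
  · have hcomm : ∀ a b : ↥(Subgroup.centralizer (commutator G : Set G)), a * b = b * a := by
      let f : ↥(Subgroup.centralizer (commutator G : Set G)) →* Abelianization G :=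
        Abelianization.of.comp (Subgroup.centralizer (commutator G : Set G)).subtype
      have hmc := f.isMulCommutative_of_isCyclic_of_ker_le_center (by
        intro x hx
        rw [MonoidHom.mem_ker] at hx
        have hxN : (x : G) ∈ commutator G := by
          have : (x : G) ∈ (Abelianization.of : G →* Abelianization G).ker := hx
          rwa [Abelianization.ker_of] at this
        rw [Subgroup.mem_center_iff]
        intro y
        apply Subtype.ext
        exact (Subgroup.mem_centralizer_iff.mp y.2) x hxN |>.symm)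
      exact fun a b => hmc.is_comm.comm a b
    let _ : CommGroup ↥(Subgroup.centralizer (commutator G : Set G)) :=
      { (inferInstance : Group ↥(Subgroup.centralizer (commutator G : Set G))) with
        mul_comm := hcomm }
    infer_instance
  · exact Subgroup.centralizer_le hNF

/-- If `F` is a cyclic normal `A`-invariant self-centralizing subgroup then `[G, A] ≤ F`. -/
theorem gens_le (F : Subgroup G) [hFn : F.Normal] (hFc : IsCyclic F)
    (hFinv : ∀ (a : A) (x : G), x ∈ F → a • x ∈ F)
    (hCF : Subgroup.centralizer (F : Set G) ≤ F) : Subgroup.closure (gens G A) ≤ F := by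
  rw [Subgroup.closure_le]
  rintro y ⟨a, g, rfl⟩
  apply hCF
  rw [Subgroup.mem_centralizer_iff]
  intro f hf
  let σ : ↥F →* ↥F :=
    { toFun := fun x => ⟨a • (x : G), hFinv a x x.2⟩
      map_one' := Subtype.ext (smul_one a)
      map_mul' := fun x y => Subtype.ext (smul_mul' a (x : G) (y : G)) }
  obtain ⟨k, hk⟩ := σ.map_cyclic
  have hk' : ∀ x ∈ F, a • x = x ^ k := by
    intro x hx
    have := congrArg Subtype.val (hk ⟨x, hx⟩)
    simpa [σ] using this
  have hf'F : a⁻¹ • f ∈ F := hFinv a⁻¹ f hf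
  have e1 : a • (a⁻¹ • f) = f := smul_inv_smul a f
  have e2 : (a⁻¹ • f) ^ k = f := by rw [← hk' _ hf'F, e1]
  have hc : g * (a⁻¹ • f) * g⁻¹ ∈ F := hFn.conj_mem _ hf'F g
  have e3 : a • (g * (a⁻¹ • f) * g⁻¹) = (g * (a⁻¹ • f) * g⁻¹) ^ k := hk' _ hc
  have e4 : a • (g * (a⁻¹ • f) * g⁻¹) = (a • g) * f * (a • g)⁻¹ := by
    rw [smul_mul', smul_mul', smul_inv', e1]
  have e5 : (g * (a⁻¹ • f) * g⁻¹) ^ k = g * f * g⁻¹ := by rw [conj_zpow, e2]
  have e6 : (a • g) * f * (a • g)⁻¹ = g * f * g⁻¹ := by rw [← e4, e3, e5]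
  calc f * (g⁻¹ * a • g) = g⁻¹ * (g * f * g⁻¹) * (a • g) := by group
    _ = g⁻¹ * ((a • g) * f * (a • g)⁻¹) * (a • g) := by rw [e6]
    _ = (g⁻¹ * a • g) * f := by group

open scoped Pointwise in
/-- Any element of a Sylow subgroup is conjugate into any other Sylow subgroup. -/
theorem sylow_conj_mem {H : Type*} [Group H] [Finite H] {r : ℕ} [Fact r.Prime] (P P' : Sylow r H)
    (w : H) (hw : w ∈ (P' : Subgroup H)) : ∃ x : H, x * w * x⁻¹ ∈ (P : Subgroup H) := by
  obtain ⟨x, hx⟩ := MulAction.exists_smul_eq H P' P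
  refine ⟨x, ?_⟩
  have h1 : MulAut.conj x • w ∈ MulAut.conj x • (P' : Subgroup H) :=
    Subgroup.smul_mem_pointwise_smul _ _ _ hw
  rw [← Sylow.pointwise_smul_def, ← Sylow.smul_def, hx] at h1
  simpa [MulAut.smul_def] using h1

end helpers


/-- Let A be a finite group acting on the finite group G by automorphisms with the orders of A and G coprime, and suppose every Sylow subgroup of G is cyclic. Then the fixed-point subgroup C_G(A) is a Hall subgroup of G (its order is coprime to its index), the subgroup [G, A] generated by the elements g⁻¹·a(g) is cyclic and normal with [G, A] ∩ C_G(A) = 1 and [G, A]·C_G(A) = G. -/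
theorem result {G A : Type*} [Group G] [Finite G] [Group A] [Finite A]
    [MulDistribMulAction A G] (hcop : (Nat.card A).Coprime (Nat.card G))
    (hcyc : ∀ (p : ℕ) [Fact p.Prime] (P : Sylow p G), IsCyclic (P : Subgroup G)) :
    (Nat.card (MulAction.fixedPoints A G : Set G)).Coprime (Nat.card G / Nat.card (MulAction.fixedPoints A G : Set G)) ∧
    IsCyclic (Subgroup.closure {y : G | ∃ (a : A) (g : G), y = g⁻¹ * a • g}) ∧
    (Subgroup.closure {y : G | ∃ (a : A) (g : G), y = g⁻¹ * a • g}).Normal ∧
    (Subgroup.closure {y : G | ∃ (a : A) (g : G), y = g⁻¹ * a • g} : Set G) ∩ MulAction.fixedPoints A G = {1} ∧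
    Subgroup.closure {y : G | ∃ (a : A) (g : G), y = g⁻¹ * a • g} ⊔ Subgroup.closure (MulAction.fixedPoints A G) = ⊤ := by
  have hZ : IsZGroup G := ⟨fun p hp P => by have := Fact.mk hp; exact hcyc p P⟩
  change (Nat.card (MulAction.fixedPoints A G : Set G)).Coprime
      (Nat.card G / Nat.card (MulAction.fixedPoints A G : Set G)) ∧
    IsCyclic (Subgroup.closure (gens G A)) ∧ (Subgroup.closure (gens G A)).Normal ∧
    (Subgroup.closure (gens G A) : Set G) ∩ MulAction.fixedPoints A G = {1} ∧
    Subgroup.closure (gens G A) ⊔ Subgroup.closure (MulAction.fixedPoints A G) = ⊤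
  set W := Subgroup.closure (gens G A) with hW
  obtain ⟨hFc, hCF⟩ := zgroup_F G
  set F := Subgroup.centralizer (commutator G : Set G) with hF
  have hFchar : F.Characteristic := inferInstance
  have hFinv : ∀ (a : A) (x : G), x ∈ F → a • x ∈ F := by
    intro a x hx
    have := Subgroup.characteristic_iff_map_eq.mp hFchar (MulDistribMulAction.toMulAut A G a)
    rw [← this]
    exact ⟨x, hx, rfl⟩
  have hWF : W ≤ F := gens_le F hFc hFinv hCF
  have hWcyc : IsCyclic ↥W := Subgroup.isCyclic_of_le hWF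
  have hWc : ∀ x ∈ W, ∀ y ∈ W, x * y = y * x := by
    intro x hx y hy
    have := (IsCyclic.commGroup (α := ↥W)).mul_comm ⟨x, hx⟩ ⟨y, hy⟩
    exact congrArg Subtype.val this
  obtain ⟨hsup, hint⟩ := avg hcop hWc
  have hWn : W.Normal := W_normal
  -- the fixed point subgroup
  set C : Subgroup G := FixedPoints.subgroup A G with hC
  have hCmem : ∀ x : G, x ∈ C ↔ ∀ a : A, a • x = x := fun x => Iff.rfl
  have hCset : (C : Set G) = MulAction.fixedPoints A G := rfl
  have hcardC : Nat.card (MulAction.fixedPoints A G : Set G) = Nat.card ↥C := rfl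
  -- |G| = |C| |W|
  have hcardG : Nat.card G = Nat.card ↥C * Nat.card ↥W := by
    rw [← Nat.card_prod]
    symm
    apply Nat.card_congr
    refine Equiv.ofBijective (fun cw : ↥C × ↥W => (cw.1 : G) * (cw.2 : G)) ⟨?_, ?_⟩
    · rintro ⟨c, w⟩ ⟨c', w'⟩ h
      simp only at h
      have h1 : (c' : G)⁻¹ * c = w' * (w : G)⁻¹ := by
        rw [inv_mul_eq_iff_eq_mul, ← mul_assoc, ← h]; group
      have h2 : (c' : G)⁻¹ * c = 1 := by
        apply hint
        · rw [h1]; exact mul_mem w'.2 (inv_mem w.2)
        · exact (hCmem _).mp (mul_mem (inv_mem c'.2) c.2)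
      have h3 : (c : G) = c' := by
        rw [inv_mul_eq_one] at h2; exact h2.symm
      have h4 : (w : G) = w' := by
        rw [h3] at h; exact mul_left_cancel h
      exact Prod.ext (Subtype.ext h3) (Subtype.ext h4)
    · intro g
      obtain ⟨u, hu, hfix⟩ := hsup g
      exact ⟨(⟨g * u, (hCmem _).mpr hfix⟩, ⟨u⁻¹, inv_mem hu⟩), by simp⟩
  have hCpos : 0 < Nat.card ↥C := Nat.card_pos
  refine ⟨?_, hWcyc, hWn, ?_, ?_⟩
  · rw [hcardC, hcardG, Nat.mul_div_cancel_left _ hCpos]
    by_contra hnc
    obtain ⟨r, hr, hrC, hrW⟩ := Nat.Prime.not_coprime_iff_dvd.mp hnc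
    have := Fact.mk hr
    obtain ⟨c, hc⟩ := exists_prime_orderOf_dvd_card' r hrC
    obtain ⟨w, hw⟩ := exists_prime_orderOf_dvd_card' r hrW
    have hc' : orderOf (c : G) = r := by rw [Subgroup.orderOf_coe]; exact hc
    have hw' : orderOf (w : G) = r := by rw [Subgroup.orderOf_coe]; exact hw
    have hpc : IsPGroup r (Subgroup.zpowers (c : G)) :=
      IsPGroup.of_card (n := 1) (by rw [Nat.card_zpowers, hc', pow_one])
    have hpw : IsPGroup r (Subgroup.zpowers (w : G)) :=
      IsPGroup.of_card (n := 1) (by rw [Nat.card_zpowers, hw', pow_one])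
    obtain ⟨P, hP⟩ := hpc.exists_le_sylow
    obtain ⟨P', hP'⟩ := hpw.exists_le_sylow
    obtain ⟨x, hw1⟩ := sylow_conj_mem P P' (w : G) (hP' (Subgroup.mem_zpowers _))
    have hPc : IsCyclic ↥(P : Subgroup G) := hcyc r P
    have hcP : (c : G) ∈ (P : Subgroup G) := hP (Subgroup.mem_zpowers _)
    have hmem := mem_zpowers_of_cyclic (P := ↥(P : Subgroup G)) hr.pos ⟨(c : G), hcP⟩
      ⟨x * (w : G) * x⁻¹, hw1⟩ ((Subgroup.orderOf_mk _ _).trans hc') (by
        apply Subtype.ext
        show (x * (w : G) * x⁻¹) ^ r = 1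
        rw [conj_pow, ← hw', pow_orderOf_eq_one]; group)
    obtain ⟨k, hk⟩ := Subgroup.mem_zpowers_iff.mp hmem
    have hk' : (c : G) ^ k = x * (w : G) * x⁻¹ := by
      have := congrArg Subtype.val hk
      simpa using this
    have h1 : x * (w : G) * x⁻¹ = 1 := by
      apply hint
      · exact hWn.conj_mem _ w.2 x
      · rw [← hk']; exact (hCmem _).mp (zpow_mem c.2 k)
    have h2 : (w : G) = 1 := by
      have : (w : G) = x⁻¹ * (x * (w : G) * x⁻¹) * x := by group
      rw [this, h1]; group
    rw [h2, orderOf_one] at hw'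
    exact hr.one_lt.ne hw'
  · ext x
    simp only [Set.mem_inter_iff, SetLike.mem_coe, Set.mem_singleton_iff]
    constructor
    · rintro ⟨h1, h2⟩
      exact hint x h1 (fun a => h2 a)
    · rintro rfl
      exact ⟨one_mem _, fun a => smul_one a⟩
  · rw [eq_top_iff]
    intro g _
    obtain ⟨u, hu, hfix⟩ := hsup g
    have h1 : g * u ∈ Subgroup.closure (MulAction.fixedPoints A G) :=
      Subgroup.subset_closure (fun a => hfix a)
    have h2 : g = (g * u) * u⁻¹ := by group
    rw [h2]
    exact mul_mem (Subgroup.mem_sup_right h1) (Subgroup.mem_sup_left (inv_mem hu))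

end Cfsg.Agent.S4117
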