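import Cfsg.Statements.S4127
import Cfsg.Agent.Lib.Helper69.PNil
import Cfsg.Agent.Lib.Helper69.PElem
import Cfsg.Agent.Lib.Helper34.PComplement
-- import your own Cfsg.Agent.* helpers here

set_option autoImplicit false
open Cfsg

namespace Cfsg.Agent.S4127

open Cfsg.Agent.Lib.Helper69

/-- commuting `p`-element and `p'`-element: the first is a power of the product -/
theorem exists_pow_eq_left {G : Type*} [Group G] [Finite G] (p : ℕ) [Fact p.Prime]
    (x y : G) (hxy : x * y = y * x) (hx : ∃ k : ℕ, orderOf x = p ^ k)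
    (hy : (orderOf y).Coprime p) : ∃ m : ℕ, (x * y) ^ m = x := by
  obtain ⟨k, hk⟩ := hx
  have hcop : Nat.Coprime (orderOf x) (orderOf y) := by
    rw [hk]; exact Nat.Coprime.pow_left _ hy.symm
  obtain ⟨m, hm1, hm2⟩ := Nat.chineseRemainder hcop 1 0
  refine ⟨m, ?_⟩
  have hc : Commute x y := hxy
  rw [hc.mul_pow]
  have h1 : x ^ m = x := by
    conv_rhs => rw [← pow_one x]
    rw [pow_eq_pow_iff_modEq]; exact hm1
  have h2 : y ^ m = 1 := by
    rw [← pow_zero y, pow_eq_pow_iff_modEq]; exact hm2
  rw [h1, h2, mul_one]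

/-- Step (i): inside `C = C_G(x)`, `p`-elements commute with `p'`-elements. -/
theorem step_i {G : Type*} [Group G] [Finite G] (p : ℕ) [hp : Fact p.Prime]
    (a : ℕ) (hmax : ∀ y : G, ¬ p ^ (a + 1) ∣ (Subgroup.centralizer ({y} : Set G)).index)
    (x : G) (hxp : ∃ k : ℕ, orderOf x = p ^ k)
    (hxi : (Subgroup.centralizer ({x} : Set G)).index = p ^ a)
    (u y : G) (huC : u ∈ Subgroup.centralizer ({x} : Set G))
    (hyC : y ∈ Subgroup.centralizer ({x} : Set G))
    (hu : ∃ k : ℕ, orderOf u = p ^ k) (hy : (orderOf y).Coprime p) : u * y = y * u := by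
  have key : ∀ y : Subgroup.centralizer ({x} : Set G), (orderOf y).Coprime p →
      ¬ p ∣ (Subgroup.centralizer ({y} : Set (Subgroup.centralizer ({x} : Set G)))).index := by
    intro y hy hdvd
    have hxy : x * y.1 = y.1 * x := Subgroup.mem_centralizer_iff.1 y.2 x rfl
    have hy' : (orderOf (y.1 : G)).Coprime p := by rw [Subgroup.orderOf_coe]; exact hy
    obtain ⟨m, hm⟩ := exists_pow_eq_left p x y.1 hxy hxp hy'
    have hcent : Subgroup.centralizer ({x * y.1} : Set G) =
        Subgroup.centralizer ({x} : Set G) ⊓ Subgroup.centralizer ({y.1} : Set G) := by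
      ext w
      rw [Subgroup.mem_inf, Subgroup.mem_centralizer_iff, Subgroup.mem_centralizer_iff,
        Subgroup.mem_centralizer_iff]
      constructor
      · intro h
        have h1 := h _ rfl
        have hx1 : x * w = w * x := by
          have : Commute (x * y.1) w := h1
          have := this.pow_left m
          rw [hm] at this
          exact this
        refine ⟨fun z hz => by rw [Set.mem_singleton_iff] at hz; rw [hz]; exact hx1, ?_⟩
        intro z hz
        rw [Set.mem_singleton_iff] at hz
        rw [hz]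
        have e1 : y.1 = x⁻¹ * (x * y.1) := by group
        have hxinv : x⁻¹ * w = w * x⁻¹ := by
          have : Commute x w := hx1
          exact this.inv_left
        calc y.1 * w = x⁻¹ * ((x * y.1) * w) := by group
          _ = x⁻¹ * (w * (x * y.1)) := by rw [h1]
          _ = (x⁻¹ * w) * (x * y.1) := by group
          _ = (w * x⁻¹) * (x * y.1) := by rw [hxinv]
          _ = w * y.1 := by group
      · rintro ⟨h1, h2⟩ z hz
        rw [Set.mem_singleton_iff] at hz
        rw [hz]
        have e1 := h1 x rfl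
        have e2 := h2 y.1 rfl
        calc x * y.1 * w = x * (y.1 * w) := by group
          _ = x * (w * y.1) := by rw [e2]
          _ = (x * w) * y.1 := by group
          _ = (w * x) * y.1 := by rw [e1]
          _ = w * (x * y.1) := by group
    have hrel : (Subgroup.centralizer ({y.1} : Set G)).relIndex (Subgroup.centralizer ({x} : Set G))
        = (Subgroup.centralizer ({y} : Set (Subgroup.centralizer ({x} : Set G)))).index := by
      have : (Subgroup.centralizer ({y.1} : Set G)).subgroupOf (Subgroup.centralizer ({x} : Set G))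
          = Subgroup.centralizer ({y} : Set (Subgroup.centralizer ({x} : Set G))) := by
        ext w
        rw [Subgroup.mem_subgroupOf, Subgroup.mem_centralizer_iff, Subgroup.mem_centralizer_iff]
        constructor
        · intro h z hz
          rw [Set.mem_singleton_iff] at hz
          rw [hz]
          exact Subtype.ext (h _ rfl)
        · intro h z hz
          rw [Set.mem_singleton_iff] at hz
          rw [hz]
          exact congrArg Subtype.val (h _ rfl)
      rw [← this]; rfl
    have hidx := Subgroup.relIndex_mul_index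
      (inf_le_left : Subgroup.centralizer ({x} : Set G) ⊓ Subgroup.centralizer ({y.1} : Set G) ≤
        Subgroup.centralizer ({x} : Set G))
    rw [Subgroup.inf_relIndex_left, hrel, ← hcent, hxi] at hidx
    apply hmax (x * y.1)
    rw [← hidx, pow_succ, mul_comm]
    exact Nat.mul_dvd_mul hdvd (dvd_refl _)
  have := PNil.commute_of_not_dvd_index p key ⟨u, huC⟩ ⟨y, hyC⟩
    (by rw [← Subgroup.orderOf_coe]; exact hu) (by rw [← Subgroup.orderOf_coe]; exact hy)
  exact congrArg Subtype.val this

/-- Let G be a finite group, p a prime and p^a the largest power of p dividing the size of any conjugacy class of G. If some element of p-power order has a conjugacy class of size exactly p^a, then G has a normal p-complement. -/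
theorem result {G : Type*} [Group G] [Finite G] (p : ℕ) [Fact p.Prime]
    (a : ℕ) (hmax : ∀ y : G, ¬ p ^ (a + 1) ∣ (Subgroup.centralizer ({y} : Set G)).index)
    (hx : ∃ x : G, (∃ k : ℕ, orderOf x = p ^ k) ∧ (Subgroup.centralizer ({x} : Set G)).index = p ^ a) :
    Cfsg.HasNormalPComplement p G := by
  have hp : p.Prime := Fact.out
  obtain ⟨x, hxp, hxi⟩ := hx
  have hi := step_i p a hmax x hxp hxi
  -- (ii) the normal closure of x is a p-group
  obtain ⟨P, hP⟩ := (PNil.isPGroup_zpowers x hxp).exists_le_sylow
  have hxP : x ∈ (P : Subgroup G) := hP (Subgroup.mem_zpowers x)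
  have hconj : ∀ g : G, g * x * g⁻¹ ∈ (P : Subgroup G) := by
    intro g
    have hcop : (Subgroup.centralizer ({x} : Set G)).index.Coprime (P : Subgroup G).index := by
      rw [hxi]
      exact Nat.Coprime.pow_left _ ((Nat.Prime.coprime_iff_not_dvd hp).2 P.not_dvd_index)
    obtain ⟨b, hb, c, hc, rfl⟩ := PNil.exists_mul_of_coprime_index _ _ hcop g
    have h1 : c * x * c⁻¹ = x := by
      have := Subgroup.mem_centralizer_iff.1 hc x rfl
      rw [← this]; group
    have h2 : b * c * x * (b * c)⁻¹ = b * (c * x * c⁻¹) * b⁻¹ := by group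
    rw [h2, h1]
    exact (P : Subgroup G).mul_mem ((P : Subgroup G).mul_mem hb hxP) ((P : Subgroup G).inv_mem hb)
  have hTP : Subgroup.normalClosure ({x} : Set G) ≤ (P : Subgroup G) := by
    rw [Subgroup.normalClosure, Subgroup.closure_le]
    intro z hz
    rw [Group.mem_conjugatesOfSet_iff] at hz
    obtain ⟨b, hb, hconjb⟩ := hz
    rw [Set.mem_singleton_iff] at hb
    rw [hb, isConj_iff] at hconjb
    obtain ⟨c, rfl⟩ := hconjb
    exact hconj c
  have hTp : IsPGroup p (Subgroup.normalClosure ({x} : Set G)) := P.isPGroup'.to_le hTP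
  have hTn : (Subgroup.normalClosure ({x} : Set G)).Normal := Subgroup.normalClosure_normal
  have hxT : x ∈ Subgroup.normalClosure ({x} : Set G) :=
    Subgroup.subset_normalClosure (Set.mem_singleton x)
  -- (iii) p'-elements of C centralize T
  have hiii : ∀ y : G, y ∈ Subgroup.centralizer ({x} : Set G) → (orderOf y).Coprime p →
      ∀ t ∈ Subgroup.normalClosure ({x} : Set G), t * y = y * t := by
    by_contra hcon
    have hne : Subgroup.normalClosure ({x} : Set G) ⊓
        Subgroup.centralizer {y : G | y ∈ Subgroup.centralizer ({x} : Set G) ∧ (orderOf y).Coprime p}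
        ≠ Subgroup.normalClosure ({x} : Set G) := by
      intro heq
      apply hcon
      intro y hy hyp t ht
      rw [← heq] at ht
      exact (Subgroup.mem_centralizer_iff.1 ht.2 y ⟨hy, hyp⟩).symm
    obtain ⟨u, huT, huN, hu1⟩ := Cfsg.Agent.Lib.Helper53.SylowMore.exists_normalizer_not_mem
      _ _ hTp inf_le_left hne
    apply hu1
    refine Subgroup.mem_inf.2 ⟨huT, ?_⟩
    rw [Subgroup.mem_centralizer_iff]
    rintro y ⟨hyC, hyp⟩
    -- x'' = u⁻¹ x u ∈ T₁
    have hx1 : x ∈ Subgroup.normalClosure ({x} : Set G) ⊓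
        Subgroup.centralizer {y : G | y ∈ Subgroup.centralizer ({x} : Set G) ∧ (orderOf y).Coprime p} := by
      refine Subgroup.mem_inf.2 ⟨hxT, ?_⟩
      rw [Subgroup.mem_centralizer_iff]
      rintro z ⟨hzC, -⟩
      exact (Subgroup.mem_centralizer_iff.1 hzC x rfl).symm
    have hx2 := (Subgroup.mem_normalizer_iff.1 (Subgroup.inv_mem _ huN) x).1 hx1
    have hx3 := Subgroup.mem_centralizer_iff.1 hx2.2 y ⟨hyC, hyp⟩
    -- y' = u y u⁻¹ ∈ C
    have hy'C : u * y * u⁻¹ ∈ Subgroup.centralizer ({x} : Set G) := by
      rw [Subgroup.mem_centralizer_iff]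
      intro z hz
      rw [Set.mem_singleton_iff] at hz
      rw [hz]
      calc x * (u * y * u⁻¹) = u * ((u⁻¹ * x * u⁻¹⁻¹) * y) * u⁻¹ := by group
        _ = u * (y * (u⁻¹ * x * u⁻¹⁻¹)) * u⁻¹ := by rw [hx3]
        _ = u * y * u⁻¹ * x := by group
    have htT : u * y * u⁻¹ * y⁻¹ ∈ Subgroup.normalClosure ({x} : Set G) := by
      have h1 := hTn.conj_mem u⁻¹ (Subgroup.inv_mem _ huT) y
      have h2 := Subgroup.mul_mem _ huT h1
      have : u * (y * u⁻¹ * y⁻¹) = u * y * u⁻¹ * y⁻¹ := by group
      rw [this] at h2; exact h2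
    have htC : u * y * u⁻¹ * y⁻¹ ∈ Subgroup.centralizer ({x} : Set G) :=
      Subgroup.mul_mem _ hy'C (Subgroup.inv_mem _ hyC)
    have htp := PNil.pElem_of_mem_isPGroup _ hTp _ htT
    have hcomm : Commute (u * y * u⁻¹ * y⁻¹) y := hi _ y htC hyC htp hyp
    have hy' : u * y * u⁻¹ = (u * y * u⁻¹ * y⁻¹) * y := by group
    have hord : orderOf (u * y * u⁻¹) = orderOf y := by
      have := MulEquiv.orderOf_eq (MulAut.conj u) y
      rwa [MulAut.conj_apply] at this
    have hpow : (u * y * u⁻¹ * y⁻¹) ^ orderOf y = 1 := by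
      have h1 : (u * y * u⁻¹) ^ orderOf y = 1 := by rw [← hord]; exact pow_orderOf_eq_one _
      rw [hy', hcomm.mul_pow, pow_orderOf_eq_one, mul_one] at h1
      exact h1
    have ht1 := PNil.eq_one_of_pElem_of_coprime _ htp _ hyp hpow
    calc y * u = (u * y * u⁻¹ * y⁻¹)⁻¹ * (u * y) := by group
      _ = u * y := by rw [ht1]; group
  -- (iv) D = C_G(T)
  have hDC : Subgroup.centralizer ((Subgroup.normalClosure ({x} : Set G) : Subgroup G) : Set G) ≤
      Subgroup.centralizer ({x} : Set G) := by
    intro d hd
    rw [Subgroup.mem_centralizer_iff] at hd ⊢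
    intro z hz
    rw [Set.mem_singleton_iff] at hz
    rw [hz]
    exact hd x hxT
  have hDn : (Subgroup.centralizer ((Subgroup.normalClosure ({x} : Set G) : Subgroup G) : Set G)).Normal :=
    Subgroup.normal_centralizer
  -- (a) q-elements, q ≠ p, lie in D
  have ha : ∀ (q : ℕ), q.Prime → q ≠ p → ∀ u : G, (∃ k : ℕ, orderOf u = q ^ k) →
      u ∈ Subgroup.centralizer ((Subgroup.normalClosure ({x} : Set G) : Subgroup G) : Set G) := by
    intro q hq hqp u hu
    have : Fact q.Prime := ⟨hq⟩
    have hqi : ¬ q ∣ (Subgroup.centralizer ({x} : Set G)).index := by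
      rw [hxi]
      intro h
      exact hqp ((Nat.prime_dvd_prime_iff_eq hq hp).1 (hq.dvd_of_dvd_pow h))
    obtain ⟨g, hg⟩ := PNil.exists_conj_mem_of_not_dvd_index q _ hqi u hu
    have hord : (orderOf (g⁻¹ * u * g)).Coprime p := by
      have h1 : orderOf (g⁻¹ * u * g) = orderOf u := by
        have := MulEquiv.orderOf_eq (MulAut.conj g⁻¹) u
        rwa [MulAut.conj_apply, inv_inv] at this
      obtain ⟨k, hk⟩ := hu
      rw [h1, hk]
      exact Nat.Coprime.pow_left _ ((Nat.coprime_primes hq hp).2 hqp)
    have hD : g⁻¹ * u * g ∈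
        Subgroup.centralizer ((Subgroup.normalClosure ({x} : Set G) : Subgroup G) : Set G) := by
      rw [Subgroup.mem_centralizer_iff]
      intro t ht
      exact hiii _ hg hord t ht
    have := hDn.conj_mem _ hD g
    have e : g * (g⁻¹ * u * g) * g⁻¹ = u := by group
    rw [e] at this
    exact this
  -- (c) all p'-elements lie in D
  have hc : ∀ g : G, (orderOf g).Coprime p →
      g ∈ Subgroup.centralizer ((Subgroup.normalClosure ({x} : Set G) : Subgroup G) : Set G) := by
    intro g hg
    by_contra hgD
    have hne : ((g : G) : G ⧸ Subgroup.centralizer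
        ((Subgroup.normalClosure ({x} : Set G) : Subgroup G) : Set G)) ≠ 1 := by
      intro h
      exact hgD ((QuotientGroup.eq_one_iff g).1 h)
    have hord1 : orderOf ((g : G) : G ⧸ Subgroup.centralizer
        ((Subgroup.normalClosure ({x} : Set G) : Subgroup G) : Set G)) ≠ 1 := by
      intro h; exact hne (orderOf_eq_one_iff.1 h)
    obtain ⟨q, hq, hqd⟩ := Nat.exists_prime_and_dvd hord1
    have : Fact q.Prime := ⟨hq⟩
    have hdvd : orderOf ((g : G) : G ⧸ Subgroup.centralizer
        ((Subgroup.normalClosure ({x} : Set G) : Subgroup G) : Set G)) ∣ orderOf g :=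
      orderOf_map_dvd (QuotientGroup.mk' _) g
    have hqp : q ≠ p := by
      rintro rfl
      have : q ∣ orderOf g := hqd.trans hdvd
      have h1 := Nat.Coprime.coprime_dvd_left this hg
      rw [Nat.coprime_self] at h1
      exact hq.one_lt.ne' h1
    have hpos : orderOf ((g : G) : G ⧸ Subgroup.centralizer
        ((Subgroup.normalClosure ({x} : Set G) : Subgroup G) : Set G)) ≠ 0 := (orderOf_pos _).ne'
    have hordq := orderOf_pow_orderOf_div hpos hqd
    obtain ⟨u, hu, huq⟩ := PElem.exists_pElement_lift _ _ ⟨1, by rw [hordq, pow_one]⟩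
    have huD := ha q hq hqp u huq
    rw [← QuotientGroup.eq_one_iff] at huD
    rw [hu] at huD
    rw [huD, orderOf_one] at hordq
    exact hq.one_lt.ne' hordq.symm
  -- (vi) apply Burnside via the subgroup generated by the p'-elements
  have hKD : Subgroup.closure {g : G | (orderOf g).Coprime p} ≤
      Subgroup.centralizer ((Subgroup.normalClosure ({x} : Set G) : Subgroup G) : Set G) := by
    rw [Subgroup.closure_le]
    intro g hg
    exact hc g hg
  obtain ⟨Z⟩ : Nonempty (Sylow p (Subgroup.closure {g : G | (orderOf g).Coprime p})) := inferInstance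
  apply Cfsg.Agent.Lib.Helper34.PComplement.exists_normal_complement_of_central_sylow
    (Subgroup.closure {g : G | (orderOf g).Coprime p}) (fun g hg => Subgroup.subset_closure hg) Z
  intro z hz c
  have hzp : ∃ k : ℕ, orderOf (z.1 : G) = p ^ k := by
    rw [Subgroup.orderOf_coe]
    obtain ⟨k, hk⟩ := Z.isPGroup' ⟨z, hz⟩
    have h1 : z ^ p ^ k = 1 := by
      have := congrArg Subtype.val hk
      simpa using this
    exact ((Nat.dvd_prime_pow hp).1 (orderOf_dvd_of_pow_eq_one h1)).imp fun _ h => h.2
  have hzC : (z.1 : G) ∈ Subgroup.centralizer ({x} : Set G) := hDC (hKD z.2)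
  have hle : Subgroup.closure {g : G | (orderOf g).Coprime p} ≤
      Subgroup.centralizer ({(z.1 : G)} : Set G) := by
    rw [Subgroup.closure_le]
    intro g hg
    rw [SetLike.mem_coe, Subgroup.mem_centralizer_iff]
    intro w hw
    rw [Set.mem_singleton_iff] at hw
    rw [hw]
    exact hi _ g hzC (hDC (hc g hg)) hzp hg
  have := Subgroup.mem_centralizer_iff.1 (hle c.2) _ rfl
  exact Subtype.ext this

end Cfsg.Agent.S4127
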