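import Cfsg.Statements.S4130
import Cfsg.Agent.Lib.Helper63.SFDerived
import Cfsg.Agent.Lib.Helper78.Fitting
import Cfsg.Agent.Lib.Helper9.SS2

set_option autoImplicit false
open Cfsg

namespace Cfsg.Agent.S4130

open Cfsg.Agent.Lib.Helper63.SFSolv Cfsg.Agent.Lib.Helper63.SFDerived

/-- In a nilpotent group, an element normalizing a cyclic subgroup of squarefree order
centralizes it. -/
theorem commute_of_nilpotent {N : Type*} [Group N] [hN : Group.IsNilpotent N] (a x : N) (k : ℤ)
    (hk : x * a * x⁻¹ = a ^ k) (hsq : Squarefree (orderOf a)) : x * a = a * x := by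
  obtain ⟨n, hn⟩ := Subgroup.nilpotent_iff_lowerCentralSeries.1 hN
  have key : ∀ i : ℕ, a ^ ((1 - k) ^ i) ∈ (⊤ : Subgroup N).lowerCentralSeries i := by
    intro i
    induction i with
    | zero => simp
    | succ i ih =>
      have h1 : a ^ ((1 - k) ^ i) * x * (a ^ ((1 - k) ^ i))⁻¹ * x⁻¹ ∈
          (⊤ : Subgroup N).lowerCentralSeries (i + 1) := by
        rw [Subgroup.lowerCentralSeries_succ]
        exact Subgroup.commutator_mem_commutator ih (Subgroup.mem_top x)
      have h2 : a ^ ((1 - k) ^ i) * x * (a ^ ((1 - k) ^ i))⁻¹ * x⁻¹ =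
          a ^ ((1 - k) ^ (i + 1)) := by
        have h3 : x * (a ^ ((1 - k) ^ i))⁻¹ * x⁻¹ = (a ^ k) ^ (-((1 - k) ^ i)) := by
          rw [← hk, conj_zpow, zpow_neg]
        calc a ^ ((1 - k) ^ i) * x * (a ^ ((1 - k) ^ i))⁻¹ * x⁻¹
            = a ^ ((1 - k) ^ i) * (x * (a ^ ((1 - k) ^ i))⁻¹ * x⁻¹) := by group
          _ = a ^ ((1 - k) ^ i) * (a ^ k) ^ (-((1 - k) ^ i)) := by rw [h3]
          _ = a ^ ((1 - k) ^ (i + 1)) := by
              rw [← zpow_mul, ← zpow_add]; congr 1; ring
      rw [← h2]; exact h1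
  have h1 : a ^ ((1 - k) ^ n) = 1 := by
    have := key n
    rw [hn, Subgroup.mem_bot] at this; exact this
  have h2 : (orderOf a : ℤ) ∣ (1 - k) ^ n := orderOf_dvd_iff_zpow_eq_one.2 h1
  have h3 : (orderOf a : ℤ) ∣ 1 - k := by
    by_cases hn0 : n = 0
    · subst hn0
      rw [pow_zero] at h2
      exact h2.trans (one_dvd _)
    · exact (Squarefree.dvd_pow_iff_dvd (Int.squarefree_natCast.2 hsq) hn0).1 h2
  have h4 : a ^ (1 - k) = 1 := orderOf_dvd_iff_zpow_eq_one.1 h3
  have h5 : a ^ k = a := by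
    have h6 : a ^ (1 - k) * a ^ k = a := by rw [← zpow_add]; simp
    rw [h4, one_mul] at h6; exact h6
  rw [h5] at hk
  calc x * a = x * a * x⁻¹ * x := by group
    _ = a * x := by rw [hk]

/-- If all commutators of `G` are powers of `a₀` and `H` centralizes `a₀`, then `H` has class at
most two. -/
theorem ucs_two_eq_top {G : Type*} [Group G] (H : Subgroup G) (a₀ : G)
    (hcomm : ∀ x y : G, x * y * x⁻¹ * y⁻¹ ∈ Subgroup.zpowers a₀)
    (hH : ∀ h ∈ H, h * a₀ = a₀ * h) : Subgroup.upperCentralSeries H 2 = ⊤ := by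
  rw [eq_top_iff]
  intro x _
  rw [show (2 : ℕ) = 1 + 1 from rfl, Subgroup.mem_upperCentralSeries_succ_iff]
  intro y
  rw [Subgroup.upperCentralSeries_one, Subgroup.mem_center_iff]
  intro z
  obtain ⟨j, hj⟩ := Subgroup.mem_zpowers_iff.1 (hcomm (x : G) (y : G))
  apply Subtype.ext
  have hz : Commute (z : G) a₀ := hH z z.2
  have h1 := (hz.zpow_right j).eq
  rw [hj] at h1
  simpa [commutatorElement_def] using h1

/-- Let G be a finite group all of whose conjugacy class sizes are square-free. Then G is supersolvable, G/F(G) and the derived subgroup G′ are cyclic of square-free order (F(G) the Fitting subgroup, which is normal), F(G) has nilpotency class at most 2, and G is metabelian. -/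
theorem result {G : Type*} [Group G] [Finite G]
    (h : ∀ x : G, Squarefree (Subgroup.centralizer ({x} : Set G)).index) :
    Cfsg.IsSupersolvable G ∧ (Cfsg.fittingSubgroup G).Normal ∧
    (∀ _h : (Cfsg.fittingSubgroup G).Normal, IsCyclic (G ⧸ Cfsg.fittingSubgroup G) ∧ Squarefree (Cfsg.fittingSubgroup G).index) ∧
    IsCyclic (commutator G) ∧ Squarefree (Nat.card (commutator G)) ∧
    Subgroup.upperCentralSeries ↥(Cfsg.fittingSubgroup G) 2 = ⊤ ∧ commutator ↥(commutator G) = ⊥ := by
  have hsf : SF G := h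
  have hss : Cfsg.IsSupersolvable G := SF.supersolvable hsf
  have hFn : (Cfsg.fittingSubgroup G).Normal := Cfsg.Agent.Lib.Helper78.Fitting.fitting_normal
  have hsq : Squarefree (Nat.card (commutator G)) := SF.squarefree_card_commutator hsf
  have hnil : Group.IsNilpotent (commutator G) :=
    Cfsg.Agent.Lib.Helper9.SS2.isNilpotent_commutator hss
  have hZ : IsZGroup (commutator G) := IsZGroup.of_squarefree hsq
  have hcyc : IsCyclic (commutator G) := inferInstance
  obtain ⟨a, ha⟩ := hcyc.exists_generator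
  have hG'le : ∀ g ∈ commutator G, g ∈ Subgroup.zpowers (a : G) := by
    intro g hg
    obtain ⟨j, hj⟩ := Subgroup.mem_zpowers_iff.1 (ha ⟨g, hg⟩)
    refine Subgroup.mem_zpowers_iff.2 ⟨j, ?_⟩
    have := congrArg Subtype.val hj
    simpa using this
  have hcomm : ∀ x y : G, x * y * x⁻¹ * y⁻¹ ∈ Subgroup.zpowers (a : G) := by
    intro x y
    apply hG'le
    rw [commutator_def]
    exact Subgroup.commutator_mem_commutator (Subgroup.mem_top x) (Subgroup.mem_top y)
  have hconj : ∀ g : G, g * (a : G) * g⁻¹ ∈ Subgroup.zpowers (a : G) := by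
    intro g
    have h3 := Subgroup.mul_mem _ (hcomm g (a : G)) (Subgroup.mem_zpowers (a : G))
    have h4 : g * (a : G) * g⁻¹ * (a : G)⁻¹ * (a : G) = g * (a : G) * g⁻¹ := by group
    rwa [h4] at h3
  have hCn : (Subgroup.centralizer ({(a : G)} : Set G)).Normal := by
    constructor
    intro c hc g
    rw [Subgroup.mem_centralizer_iff] at hc ⊢
    intro z hz
    rw [Set.mem_singleton_iff] at hz; subst hz
    obtain ⟨j, hj⟩ := Subgroup.mem_zpowers_iff.1 (hconj g⁻¹)
    have hca : Commute c (a : G) := (hc (a : G) rfl).symm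
    have h5 := (hca.zpow_right j).eq
    rw [hj] at h5
    calc (a : G) * (g * c * g⁻¹) = g * ((g⁻¹ * (a : G) * g⁻¹⁻¹) * c) * g⁻¹ := by group
      _ = g * (c * (g⁻¹ * (a : G) * g⁻¹⁻¹)) * g⁻¹ := by rw [h5]
      _ = g * c * g⁻¹ * (a : G) := by group
  have hCnil : Group.IsNilpotent (Subgroup.centralizer ({(a : G)} : Set G)) := by
    have h1 := ucs_two_eq_top (Subgroup.centralizer ({(a : G)} : Set G)) (a : G) hcomm
      (fun c hc => by
        rw [Subgroup.mem_centralizer_iff] at hc
        exact (hc _ rfl).symm)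
    exact ⟨⟨2, h1⟩⟩
  have hCF : Subgroup.centralizer ({(a : G)} : Set G) ≤ Cfsg.fittingSubgroup G :=
    Cfsg.Agent.Lib.Helper78.Fitting.le_fitting hCn hCnil
  have hG'n : (commutator G).Normal := by
    rw [commutator_def]; infer_instance
  have hG'F : commutator G ≤ Cfsg.fittingSubgroup G :=
    Cfsg.Agent.Lib.Helper78.Fitting.le_fitting hG'n hnil
  have hFnil : Group.IsNilpotent (Cfsg.fittingSubgroup G) :=
    Cfsg.Agent.Lib.Helper78.Fitting.fitting_isNilpotent
  have hFC : Cfsg.fittingSubgroup G ≤ Subgroup.centralizer ({(a : G)} : Set G) := by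
    intro x hx
    rw [Subgroup.mem_centralizer_iff]
    intro z hz
    rw [Set.mem_singleton_iff] at hz; subst hz
    have haF : (a : G) ∈ Cfsg.fittingSubgroup G := hG'F a.2
    obtain ⟨k, hk⟩ := Subgroup.mem_zpowers_iff.1 (hconj x)
    have hord : Squarefree (orderOf (⟨(a : G), haF⟩ : Cfsg.fittingSubgroup G)) := by
      rw [Subgroup.orderOf_mk, Subgroup.orderOf_coe]
      exact Squarefree.squarefree_of_dvd (orderOf_dvd_natCard a) hsq
    have h1 := commute_of_nilpotent (⟨(a : G), haF⟩ : Cfsg.fittingSubgroup G) ⟨x, hx⟩ k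
      (Subtype.ext (by simpa using hk.symm)) hord
    have h2 := congrArg Subtype.val h1
    simpa using h2.symm
  have hFC' : Cfsg.fittingSubgroup G = Subgroup.centralizer ({(a : G)} : Set G) :=
    le_antisymm hFC hCF
  refine ⟨hss, hFn, ?_, hcyc, hsq, ?_, ?_⟩
  · intro hFn'
    have hidx : Squarefree (Cfsg.fittingSubgroup G).index := by
      rw [hFC']; exact h (a : G)
    refine ⟨?_, hidx⟩
    have hcommQ : IsMulCommutative (G ⧸ Cfsg.fittingSubgroup G) :=
      Subgroup.Normal.quotient_commutative_iff_commutator_le.2 hG'F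
    have hZQ : IsZGroup (G ⧸ Cfsg.fittingSubgroup G) :=
      IsZGroup.of_squarefree (by rw [← Subgroup.index_eq_card]; exact hidx)
    have hnilQ : Group.IsNilpotent (G ⧸ Cfsg.fittingSubgroup G) := by
      refine ⟨⟨1, ?_⟩⟩
      rw [Subgroup.upperCentralSeries_one, eq_top_iff]
      intro x _
      rw [Subgroup.mem_center_iff]
      intro g
      exact hcommQ.is_comm.comm g x
    infer_instance
  · exact ucs_two_eq_top (Cfsg.fittingSubgroup G) (a : G) hcomm (fun x hx => by
      have h1 := hFC hx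
      rw [Subgroup.mem_centralizer_iff] at h1
      exact (h1 _ rfl).symm)
  · rw [commutator_def ↥(commutator G), Subgroup.commutator_eq_bot_iff_le_centralizer]
    intro x _
    rw [Subgroup.mem_centralizer_iff]
    intro y _
    exact (IsCyclic.isMulCommutative (α := commutator G)).is_comm.comm y x

end Cfsg.Agent.S4130
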