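import Cfsg.Statements.S4134
import Cfsg.Agent.Lib.Helper69.ItoB
import Cfsg.Agent.Lib.Helper69.MaxAb
-- import your own Cfsg.Agent.* helpers here

set_option autoImplicit false
open Cfsg

namespace Cfsg.Agent.S4134

open Cfsg.Agent.Lib.Helper69

theorem index_center_pow {G : Type*} [Group G] [Finite G] (p : ℕ) (_hp : p.Prime)
    (hcent : ∀ q : ℕ, q.Prime → q ≠ p → ∀ y : G, (∃ k : ℕ, orderOf y = q ^ k) →
      y ∈ Subgroup.center G) :
    ∃ e : ℕ, (Subgroup.center G).index = p ^ e := by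
  refine ⟨_, Nat.eq_prime_pow_of_unique_prime_dvd Subgroup.index_ne_zero_of_finite ?_⟩
  intro r hr hrd
  by_contra hrp
  have : Fact r.Prime := ⟨hr⟩
  obtain ⟨R⟩ : Nonempty (Sylow r G) := inferInstance
  have hRZ : (R : Subgroup G) ≤ Subgroup.center G := fun g hg =>
    hcent r hr hrp g (PNil.pElem_of_mem_isPGroup _ R.isPGroup' g hg)
  exact R.not_dvd_index (hrd.trans (Subgroup.index_dvd_of_le hRZ))

theorem coprime_mem_center {G : Type*} [Group G] [Finite G] (p e : ℕ)
    (he : (Subgroup.center G).index = p ^ e) (g : G) (hg : (orderOf g).Coprime p) :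
    g ∈ Subgroup.center G := by
  have h1 := Subgroup.pow_index_mem (Subgroup.center G) g
  rw [he] at h1
  obtain ⟨m, hm⟩ := exists_pow_eq_self_of_coprime (x := g) (n := p ^ e)
    (Nat.Coprime.pow_left _ hg.symm)
  rw [← hm]
  exact Subgroup.pow_mem _ h1 m

section twist

variable {G : Type*} [Group G]

theorem phi_mul {g₁ g₂ b : G} (h2 : g₂ * b * g₂⁻¹ * b⁻¹ ∈ Subgroup.center G) :
    (g₁ * g₂) * b * (g₁ * g₂)⁻¹ * b⁻¹ = (g₁ * b * g₁⁻¹ * b⁻¹) * (g₂ * b * g₂⁻¹ * b⁻¹) := by
  have hc := Subgroup.mem_center_iff.1 h2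
  calc (g₁ * g₂) * b * (g₁ * g₂)⁻¹ * b⁻¹ = g₁ * (g₂ * b * g₂⁻¹ * b⁻¹) * b * g₁⁻¹ * b⁻¹ := by group
    _ = (g₂ * b * g₂⁻¹ * b⁻¹) * g₁ * b * g₁⁻¹ * b⁻¹ := by rw [hc g₁]
    _ = (g₂ * b * g₂⁻¹ * b⁻¹) * (g₁ * b * g₁⁻¹ * b⁻¹) := by group
    _ = (g₁ * b * g₁⁻¹ * b⁻¹) * (g₂ * b * g₂⁻¹ * b⁻¹) := (hc _).symm

theorem phi_pow {g b : G} (h : ∀ g : G, g * b * g⁻¹ * b⁻¹ ∈ Subgroup.center G) (k : ℕ) :
    g ^ k * b * (g ^ k)⁻¹ * b⁻¹ = (g * b * g⁻¹ * b⁻¹) ^ k := by
  induction k with
  | zero => simp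
  | succ k ih =>
    rw [pow_succ, phi_mul (h g), ih, pow_succ]

theorem phi_pow_right {g b : G} (h : g * b * g⁻¹ * b⁻¹ ∈ Subgroup.center G) (k : ℕ) :
    g * b ^ k * g⁻¹ * (b ^ k)⁻¹ = (g * b * g⁻¹ * b⁻¹) ^ k := by
  have hc := Subgroup.mem_center_iff.1 h
  have e1 : g * b ^ k * g⁻¹ = (g * b * g⁻¹) ^ k := conj_pow.symm
  have e2 : g * b * g⁻¹ = (g * b * g⁻¹ * b⁻¹) * b := by group
  have hcomm : Commute (g * b * g⁻¹ * b⁻¹) b := (hc b).symm
  rw [e1, e2, hcomm.mul_pow]
  group

theorem phi_eq_one_iff {g b : G} :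
    g * b * g⁻¹ * b⁻¹ = 1 ↔ g ∈ Subgroup.centralizer ({b} : Set G) := by
  rw [Small.mem_centralizer_singleton_iff]
  constructor
  · intro h
    calc b * g = (g * b * g⁻¹ * b⁻¹)⁻¹ * (g * b) := by group
      _ = g * b := by rw [h]; group
  · intro h
    calc g * b * g⁻¹ * b⁻¹ = (g * b) * g⁻¹ * b⁻¹ := by group
      _ = (b * g) * g⁻¹ * b⁻¹ := by rw [h]
      _ = 1 := by group

end twist

/-- In a group of conjugate type `(n, 1)` with `n = p ^ a`, `p`-th powers centralize every normal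
abelian subgroup. -/
theorem pow_mem_centralizer {G : Type*} [Group G] [Finite G] (n p a : ℕ) (hp : p.Prime)
    (hna : n = p ^ a)
    (h : ∀ x : G, (Subgroup.centralizer ({x} : Set G)).index = 1 ∨
      (Subgroup.centralizer ({x} : Set G)).index = n)
    (A : Subgroup G) [A.Normal] (hA : ∀ a ∈ A, ∀ b ∈ A, a * b = b * a) (y : G) :
    y ^ p ∈ Subgroup.centralizer (A : Set G) := by
  have hmin : ∀ x y' : G, 1 < (Subgroup.centralizer ({y'} : Set G)).index →
      (Subgroup.centralizer ({x} : Set G)).index ≤ (Subgroup.centralizer ({y'} : Set G)).index := by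
    intro x y' hy'
    rcases h y' with h1 | h1
    · omega
    · rw [h1]
      rcases h x with h2 | h2
      · rw [h2]; rw [h1] at hy'; exact hy'.le
      · rw [h2]
  have hcomm : ∀ b ∈ A, ∀ g : G, g * b * g⁻¹ * b⁻¹ ∈ Subgroup.center G := by
    intro b hb g
    have := Small.small_comm_central A hA g⁻¹ (hmin g⁻¹) b hb
    have e : g⁻¹⁻¹ * (b * g⁻¹ * b⁻¹) = g * b * g⁻¹ * b⁻¹ := by group
    rw [e] at this
    exact this
  -- the claim: p-th powers of elements of A are central
  have hclaim : ∀ b ∈ A, b ^ p ∈ Subgroup.center G := by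
    intro b hb
    by_contra hbp
    have hbZ : b ∉ Subgroup.center G := fun hmem => hbp (Subgroup.pow_mem _ hmem p)
    have hle : Subgroup.centralizer ({b} : Set G) ≤ Subgroup.centralizer ({b ^ p} : Set G) := by
      intro g hg
      rw [Small.mem_centralizer_singleton_iff] at hg ⊢
      have : Commute b g := hg
      exact this.pow_left p
    have heq := ItoB.eq_of_le h hbZ hbp hle
    -- C(b) is normal
    have hnorm : (Subgroup.centralizer ({b} : Set G)).Normal := by
      constructor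
      intro g hg c
      rw [← phi_eq_one_iff] at hg ⊢
      rw [phi_mul (hcomm b hb c⁻¹), phi_mul (hcomm b hb g), hg, mul_one, ← phi_mul (hcomm b hb c⁻¹)]
      simp
    -- an element outside C(b)
    obtain ⟨g, hg⟩ : ∃ g, g ∉ Subgroup.centralizer ({b} : Set G) := by
      by_contra hcon
      push Not at hcon
      apply hbZ
      rw [Subgroup.mem_center_iff]
      intro c
      exact (Small.mem_centralizer_singleton_iff.1 (hcon c)).symm
    have hgn := Subgroup.pow_index_mem (Subgroup.centralizer ({b} : Set G)) g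
    rw [ItoB.index_eq h hbZ, ← phi_eq_one_iff, phi_pow (hcomm b hb), hna] at hgn
    have hζ1 : g * b * g⁻¹ * b⁻¹ ≠ 1 := fun h1 => hg (phi_eq_one_iff.1 h1)
    obtain ⟨k, hka, hk⟩ := (Nat.dvd_prime_pow hp).1 (orderOf_dvd_of_pow_eq_one hgn)
    have hk0 : k ≠ 0 := by
      rintro rfl
      rw [pow_zero, orderOf_eq_one_iff] at hk
      exact hζ1 hk
    -- g' = g ^ p ^ (k - 1)
    have h1 : g ^ p ^ (k - 1) ∉ Subgroup.centralizer ({b} : Set G) := by
      rw [← phi_eq_one_iff, phi_pow (hcomm b hb)]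
      intro h1
      have := orderOf_dvd_of_pow_eq_one h1
      rw [hk, Nat.pow_dvd_pow_iff_le_right hp.one_lt] at this
      omega
    have h2 : g ^ p ^ (k - 1) ∈ Subgroup.centralizer ({b ^ p} : Set G) := by
      rw [← phi_eq_one_iff, phi_pow_right (hcomm b hb _), phi_pow (hcomm b hb), ← pow_mul,
        ← pow_succ]
      have : k - 1 + 1 = k := by omega
      rw [this, ← hk]
      exact pow_orderOf_eq_one _
    rw [← heq] at h2
    exact h1 h2
  rw [Subgroup.mem_centralizer_iff]
  intro b hb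
  have h1 : y ^ p * b * (y ^ p)⁻¹ * b⁻¹ = 1 := by
    rw [phi_pow (hcomm b hb), ← phi_pow_right (hcomm b hb y)]
    have hc := Subgroup.mem_center_iff.1 (hclaim b hb)
    rw [hc y]
    group
  have h2 := phi_eq_one_iff.1 h1
  exact Small.mem_centralizer_singleton_iff.1 h2

/-- Let G be a finite group whose conjugacy classes have exactly two sizes, 1 and n > 1. Then n is a power of a prime p and G is the direct product of a p-group and an abelian group of order prime to p: its Sylow p-subgroup P is normal with an abelian normal complement centralizing it; moreover P has an abelian normal subgroup A with P/A of exponent dividing p. -/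
theorem result {G : Type*} [Group G] [Finite G] (n : ℕ) (hn : 1 < n)
    (h : ∀ x : G, (Subgroup.centralizer ({x} : Set G)).index = 1 ∨ (Subgroup.centralizer ({x} : Set G)).index = n) (hex : ∃ x : G, (Subgroup.centralizer ({x} : Set G)).index = n) :
    ∃ (p : ℕ) (_ : Fact p.Prime) (a : ℕ), n = p ^ a ∧ ∀ P : Sylow p G, (P : Subgroup G).Normal ∧
      (∃ N : Subgroup G, N.Normal ∧ N.IsComplement' (P : Subgroup G) ∧ IsMulCommutative N ∧
        ∀ x ∈ N, ∀ y ∈ (P : Subgroup G), x * y = y * x) ∧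
      ∃ A : Subgroup (P : Subgroup G), A.Normal ∧ IsMulCommutative A ∧ ∀ y : (P : Subgroup G), y ^ p ∈ A := by
  obtain ⟨p, hp, hcent⟩ := ItoB.main_prime h hn hex
  obtain ⟨e, he⟩ := index_center_pow p hp hcent
  obtain ⟨x₀, hx₀⟩ := hex
  have hnd : n ∣ p ^ e := by
    rw [← he, ← hx₀]
    exact Subgroup.index_dvd_of_le (Subgroup.center_le_centralizer _)
  obtain ⟨a, -, ha⟩ := (Nat.dvd_prime_pow hp).1 hnd
  have hpf : Fact p.Prime := ⟨hp⟩
  refine ⟨p, hpf, a, ha, ?_⟩
  intro P
  have hPn : (P : Subgroup G).Normal := by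
    rw [← Subgroup.normalizer_eq_top_iff]
    have hsup : (P : Subgroup G) ⊔ Subgroup.center G = ⊤ := by
      rw [← Subgroup.index_eq_one]
      by_contra hne
      obtain ⟨r, hr, hrd⟩ := Nat.exists_prime_and_dvd hne
      have h1 : r ∣ p ^ e := by
        rw [← he]; exact hrd.trans (Subgroup.index_dvd_of_le le_sup_right)
      have h2 : r = p := (Nat.prime_dvd_prime_iff_eq hr hp).1 (hr.dvd_of_dvd_pow h1)
      rw [h2] at hrd
      exact P.not_dvd_index (hrd.trans (Subgroup.index_dvd_of_le le_sup_left))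
    rw [eq_top_iff, ← hsup]
    exact sup_le Subgroup.le_normalizer (Subgroup.center_le_normalizer _)
  refine ⟨hPn, ?_, ?_⟩
  · have hcop : Nat.Coprime (Nat.card (P : Subgroup G)) (P : Subgroup G).index := by
      obtain ⟨k, hk⟩ := IsPGroup.iff_card.1 P.isPGroup'
      rw [hk]
      exact Nat.Coprime.pow_left _ ((Nat.Prime.coprime_iff_not_dvd hp).2 P.not_dvd_index)
    obtain ⟨H, hH⟩ := Subgroup.exists_left_complement'_of_coprime hcop
    have hHcard : (Nat.card H).Coprime p := by
      have h1 := hH.card_mul_card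
      have h2 := (P : Subgroup G).index_mul_card
      have h3 : Nat.card H = (P : Subgroup G).index :=
        Nat.eq_of_mul_eq_mul_right Nat.card_pos (h1.trans h2.symm)
      rw [h3]
      exact ((Nat.Prime.coprime_iff_not_dvd hp).2 P.not_dvd_index).symm
    have hHZ : H ≤ Subgroup.center G := by
      intro g hg
      apply coprime_mem_center p e he
      have h1 : orderOf g ∣ Nat.card H := by
        have := orderOf_dvd_natCard (⟨g, hg⟩ : H)
        rwa [Subgroup.orderOf_mk] at this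
      exact Nat.Coprime.coprime_dvd_left h1 hHcard
    refine ⟨H, ?_, hH, ?_, ?_⟩
    · constructor
      intro a ha b
      have := Subgroup.mem_center_iff.1 (hHZ ha) b
      rw [this]
      simpa using ha
    · exact ⟨⟨fun a b => Subtype.ext (Subgroup.mem_center_iff.1 (hHZ b.2) a.1)⟩⟩
    · intro x hx y _
      exact (Subgroup.mem_center_iff.1 (hHZ hx) y).symm
  · have hpq : IsPGroup p (G ⧸ Subgroup.center G) :=
      IsPGroup.of_card (by rw [← Subgroup.index_eq_card, he])
    have hnil : Group.IsNilpotent G := Group.of_quotient_center_nilpotent hpq.isNilpotent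
    obtain ⟨A, hAn, hAc, hAmax⟩ := MaxAb.exists_maximal_normal_abelian (S := G)
    have hCA := MaxAb.centralizer_le_of_maximal A hAn hAc hAmax
    have hAcomm : ∀ a ∈ A, ∀ b ∈ A, a * b = b * a := by
      intro a ha b hb
      have := hAc.is_comm.comm ⟨a, ha⟩ ⟨b, hb⟩
      exact congrArg Subtype.val this
    refine ⟨A.subgroupOf (P : Subgroup G), hAn.subgroupOf _, ?_, ?_⟩
    · exact ⟨⟨fun a b => Subtype.ext (Subtype.ext (hAcomm _ a.2 _ b.2))⟩⟩
    · intro y
      rw [Subgroup.mem_subgroupOf]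
      apply hCA
      exact pow_mem_centralizer n p a hp ha h A hAcomm y.1

end Cfsg.Agent.S4134
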