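import Cfsg.Statements.S4139
import Mathlib
import Cfsg.Agent.Lib.Helper67.ClassSize
import Cfsg.Agent.Lib.Helper76.SylowTools
import Cfsg.Agent.Lib.Helper2.Nilp

set_option autoImplicit false
open Cfsg

namespace Cfsg.Agent.S4139

open Subgroup

/-- class size of an element, as the index of its centralizer -/
noncomputable def cs {G : Type*} [Group G] (x : G) : ℕ := (centralizer ({x} : Set G)).index

theorem card_carrier {G : Type*} [Group G] (x : G) :
    Nat.card (ConjClasses.mk x).carrier = cs x := by
  rw [Nat.card_coe_set_eq]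
  exact Cfsg.Agent.Lib.Helper67.ClassSize.ncard_carrier_eq_index x

theorem cs_conj {G : Type*} [Group G] (g x : G) : cs (g * x * g⁻¹) = cs x := by
  rw [← card_carrier, ← card_carrier]
  have : ConjClasses.mk (g * x * g⁻¹) = ConjClasses.mk x := by
    rw [ConjClasses.mk_eq_mk_iff_isConj]
    exact (isConj_iff.mpr ⟨g, rfl⟩).symm
  rw [this]

theorem centralizer_mul_center {G : Type*} [Group G] (x z : G) (hz : z ∈ center G) :
    centralizer ({x * z} : Set G) = centralizer ({x} : Set G) := by
  ext g
  simp only [mem_centralizer_iff, Set.mem_singleton_iff, forall_eq]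
  have h1 : z * g = g * z := (Subgroup.mem_center_iff.mp hz g).symm
  constructor
  · intro h
    have : x * g * z = g * x * z := by
      calc x * g * z = x * (g * z) := by group
        _ = x * (z * g) := by rw [h1]
        _ = x * z * g := by group
        _ = g * (x * z) := h
        _ = g * x * z := by group
    exact mul_right_cancel this
  · intro h
    calc x * z * g = x * (z * g) := by group
      _ = x * (g * z) := by rw [h1]
      _ = (x * g) * z := by group
      _ = (g * x) * z := by rw [h]
      _ = g * (x * z) := by group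

theorem cs_mul_center {G : Type*} [Group G] (x z : G) (hz : z ∈ center G) :
    cs (x * z) = cs x := by
  unfold cs
  rw [centralizer_mul_center x z hz]

theorem cs_eq_one_iff {G : Type*} [Group G] (x : G) : cs x = 1 ↔ x ∈ center G := by
  unfold cs
  rw [Subgroup.index_eq_one, Subgroup.centralizer_eq_top_iff_subset]
  simp

/-- a bijection preserving a numerical invariant, from equality of fibre cardinalities -/
theorem exists_equiv_of_fiber_card {α β : Type*} [Finite α] [Finite β] (f : α → ℕ) (g : β → ℕ)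
    (h : ∀ k, Nat.card {a // f a = k} = Nat.card {b // g b = k}) :
    ∃ e : α ≃ β, ∀ a, g (e a) = f a := by
  classical
  have E : ∀ k, {a // f a = k} ≃ {b // g b = k} := fun k => (Finite.card_eq.mp (h k)).some
  refine ⟨(Equiv.sigmaFiberEquiv f).symm.trans
    ((Equiv.sigmaCongrRight E).trans (Equiv.sigmaFiberEquiv g)), ?_⟩
  intro a
  have : ((Equiv.sigmaFiberEquiv f).symm.trans
    ((Equiv.sigmaCongrRight E).trans (Equiv.sigmaFiberEquiv g))) a = ((E (f a)) ⟨a, rfl⟩).1 := rfl
  rw [this]
  exact ((E (f a)) ⟨a, rfl⟩).2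

theorem card_fiber_mk {K : Type*} [Group K] (C : ConjClasses K) :
    Nat.card {x : K // ConjClasses.mk x = C} = Nat.card C.carrier :=
  Nat.card_congr (Equiv.subtypeEquivRight fun x => ConjClasses.mem_carrier_iff_mk_eq.symm)

/-- from the hypothesis: a bijection `G ≃ H` preserving class sizes -/
theorem exists_equiv {G H : Type*} [Group G] [Finite G] [Group H] [Finite H]
    (h : ∀ k : ℕ, Nat.card {C : ConjClasses G // Nat.card C.carrier = k} =
      Nat.card {C : ConjClasses H // Nat.card C.carrier = k}) :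
    ∃ φ : G ≃ H, ∀ x, cs (φ x) = cs x := by
  classical
  obtain ⟨e₁, he₁⟩ := exists_equiv_of_fiber_card
    (fun C : ConjClasses G => Nat.card C.carrier) (fun C : ConjClasses H => Nat.card C.carrier) h
  have e₂ : ∀ C : ConjClasses G,
      {x : G // ConjClasses.mk x = C} ≃ {y : H // ConjClasses.mk y = e₁ C} := fun C =>
    (Finite.card_eq.mp (by rw [card_fiber_mk, card_fiber_mk, he₁ C])).some
  refine ⟨(Equiv.sigmaFiberEquiv (ConjClasses.mk (α := G))).symm.trans
    ((Equiv.sigmaCongr e₁ e₂).trans (Equiv.sigmaFiberEquiv (ConjClasses.mk (α := H)))), ?_⟩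
  intro x
  have hx : ((Equiv.sigmaFiberEquiv (ConjClasses.mk (α := G))).symm.trans
    ((Equiv.sigmaCongr e₁ e₂).trans (Equiv.sigmaFiberEquiv (ConjClasses.mk (α := H))))) x =
      ((e₂ (ConjClasses.mk x)) ⟨x, rfl⟩).1 := rfl
  rw [hx, ← card_carrier, ← card_carrier, ((e₂ (ConjClasses.mk x)) ⟨x, rfl⟩).2, he₁]


theorem not_dvd_cs_of_mem_centralizer {H : Type*} [Group H] [Finite H] {p : ℕ} [Fact p.Prime]
    (P : Sylow p H) (y : H) (hy : y ∈ centralizer ((P : Subgroup H) : Set H)) : ¬ p ∣ cs y := by
  intro hdvd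
  have hle : (P : Subgroup H) ≤ centralizer ({y} : Set H) := by
    intro g hg
    rw [mem_centralizer_iff]
    intro x hx
    rw [Set.mem_singleton_iff] at hx
    subst hx
    exact ((mem_centralizer_iff.mp hy) g hg).symm
  exact P.not_dvd_index (hdvd.trans (Subgroup.index_dvd_of_le hle))

theorem mem_centralizer_of_not_dvd_cs {H : Type*} [Group H] [Finite H] {p : ℕ} [Fact p.Prime]
    (P : Sylow p H) [hPn : (P : Subgroup H).Normal] (y : H) (hy : ¬ p ∣ cs y) :
    y ∈ centralizer ((P : Subgroup H) : Set H) := by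
  have h1 : (centralizer ({y} : Set H)).relIndex (P : Subgroup H) ∣
      (centralizer ({y} : Set H)).index :=
    Cfsg.Agent.Lib.Helper67.ClassSize.relIndex_dvd_index_of_normal_right _ _
  have h2 : (centralizer ({y} : Set H)).relIndex (P : Subgroup H) ∣ Nat.card (P : Subgroup H) :=
    Subgroup.relIndex_dvd_card _ _
  obtain ⟨k, hk⟩ := (IsPGroup.iff_card.mp P.2)
  rw [hk] at h2
  obtain ⟨j, -, hj2⟩ := (Nat.dvd_prime_pow (Fact.out)).mp h2
  have hj0 : j = 0 := by
    by_contra hne
    apply hy
    have : p ∣ (centralizer ({y} : Set H)).relIndex (P : Subgroup H) := by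
      rw [hj2]; exact dvd_pow_self p hne
    exact this.trans h1
  rw [hj0, pow_zero] at hj2
  have hle : (P : Subgroup H) ≤ centralizer ({y} : Set H) := Subgroup.relIndex_eq_one.mp hj2
  rw [mem_centralizer_iff]
  intro g hg
  have := hle hg
  rw [mem_centralizer_iff] at this
  exact (this y rfl).symm

/-- the count of elements of `p'`-index in a nilpotent group -/
theorem nilp_count {H : Type*} [Group H] [Finite H] (hH : Group.IsNilpotent H) (p : ℕ)
    [Fact p.Prime] (P : Sylow p H) :
    ∃ ζ r : ℕ, Nat.card (center H) = ζ * r ∧ ¬ p ∣ r ∧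
      Nat.card {y : H // ¬ p ∣ cs y} * Nat.card (P : Subgroup H) = Nat.card H * ζ := by
  have hall : ∀ (p : ℕ), Fact (Nat.Prime p) → ∀ (P : Sylow p H), (P : Subgroup H).Normal :=
    (Group.isNilpotent_of_finite_tfae.out 0 3).mp hH
  have hPn : (P : Subgroup H).Normal := hall p inferInstance P
  set C := centralizer ((P : Subgroup H) : Set H) with hC
  have hT : Nat.card {y : H // ¬ p ∣ cs y} = Nat.card C :=
    Nat.card_congr (Equiv.subtypeEquivRight fun y =>
      ⟨mem_centralizer_of_not_dvd_cs P y, not_dvd_cs_of_mem_centralizer P y⟩)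
  obtain ⟨Q, hQ⟩ := Subgroup.exists_right_complement'_of_coprime P.card_coprime_index
  have hsup : (P : Subgroup H) ⊔ Q = ⊤ := hQ.sup_eq_top
  have hQcard : Nat.card (P : Subgroup H) * Nat.card Q = Nat.card H := hQ.card_mul_card
  have hQcop : ¬ p ∣ Nat.card Q := by
    intro hd
    have : Nat.card Q = (P : Subgroup H).index := by
      have h1 := (P : Subgroup H).card_mul_index
      have hpos : 0 < Nat.card (P : Subgroup H) := Nat.card_pos
      exact Nat.eq_of_mul_eq_mul_left hpos (by rw [hQcard, h1])
    rw [this] at hd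
    exact P.not_dvd_index hd
  have hQC : Q ≤ C := by
    intro q hq
    rw [hC, mem_centralizer_iff]
    intro g hg
    have hcop : (orderOf g).Coprime (orderOf q) := by
      obtain ⟨k, hk⟩ := P.2 ⟨g, hg⟩
      have h1 : orderOf g ∣ p ^ k := by
        apply orderOf_dvd_of_pow_eq_one
        have := congrArg Subtype.val hk
        simpa using this
      have h2 : orderOf q ∣ Nat.card Q := by
        have := orderOf_dvd_natCard (⟨q, hq⟩ : Q)
        rwa [Subgroup.orderOf_mk] at this
      have h3 : (p ^ k).Coprime (Nat.card Q) :=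
        Nat.Coprime.pow_left k ((Nat.Prime.coprime_iff_not_dvd Fact.out).mpr hQcop)
      exact Nat.Coprime.coprime_dvd_left h1 (Nat.Coprime.coprime_dvd_right h2 h3)
    exact Cfsg.Agent.Lib.Helper2.Nilp.commute_of_coprime H inferInstance g q hcop
  have htop : (P : Subgroup H) ⊔ C = ⊤ := by
    apply top_unique; rw [← hsup]; exact sup_le_sup_left hQC _
  have hcard := Cfsg.Agent.Lib.Helper67.ClassSize.card_sup_mul_card_inf (P : Subgroup H) C
  rw [htop, Subgroup.card_top] at hcard
  have hPC : (P : Subgroup H) ⊓ C = (P : Subgroup H) ⊓ center H := by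
    apply le_antisymm
    · intro x hx
      refine ⟨hx.1, ?_⟩
      have hcent : centralizer ({x} : Set H) = ⊤ := by
        apply top_unique; rw [← hsup]
        apply sup_le
        · intro g hg
          rw [mem_centralizer_iff]; intro y hy; rw [Set.mem_singleton_iff] at hy; subst hy
          exact ((mem_centralizer_iff.mp hx.2) g hg).symm
        · intro q hq
          rw [mem_centralizer_iff]; intro y hy; rw [Set.mem_singleton_iff] at hy; subst hy
          exact ((mem_centralizer_iff.mp (hQC hq)) y hx.1)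
      rw [Subgroup.centralizer_eq_top_iff_subset] at hcent
      exact hcent rfl
    · exact inf_le_inf_left _ (Subgroup.center_le_centralizer _)
  refine ⟨Nat.card ↥((P : Subgroup H) ⊓ center H), (P : Subgroup H).relIndex (center H), ?_, ?_, ?_⟩
  · have := Cfsg.Agent.Lib.Helper67.ClassSize.card_eq_card_mul_relIndex
      (inf_le_right : (P : Subgroup H) ⊓ center H ≤ center H)
    rw [Subgroup.inf_relIndex_right] at this
    exact this.symm
  · intro hd
    exact P.not_dvd_index (hd.trans (Subgroup.relIndex_dvd_index_of_normal _ _))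
  · rw [hT, ← hPC, hcard]; ring

/-- a `p`-subgroup normalizing a subgroup of index prime to `p` lies in it -/
theorem le_of_le_normalizer {G : Type*} [Group G] [Finite G] {p : ℕ} [Fact p.Prime]
    (A K : Subgroup G) (hA : IsPGroup p A) (hAK : A ≤ normalizer (K : Set G))
    (hK : ¬ p ∣ K.index) : A ≤ K := by
  intro g hg
  have hKN : K ≤ normalizer (K : Set G) := le_normalizer
  have hnorm : (K.subgroupOf (normalizer (K : Set G))).Normal := Subgroup.normal_in_normalizer
  obtain ⟨k, hk⟩ := hA ⟨g, hg⟩
  have hgk : g ^ p ^ k = 1 := by simpa using congrArg Subtype.val hk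
  let gN : ↥(normalizer (K : Set G)) := ⟨g, hAK hg⟩
  have h1 : (QuotientGroup.mk gN :
      ↥(normalizer (K : Set G)) ⧸ K.subgroupOf (normalizer (K : Set G))) ^
        (K.subgroupOf (normalizer (K : Set G))).index = 1 := by
    have : Nat.card (↥(normalizer (K : Set G)) ⧸ K.subgroupOf (normalizer (K : Set G))) =
        (K.subgroupOf (normalizer (K : Set G))).index := rfl
    rw [← this]; exact pow_card_eq_one'
  have h2 : (QuotientGroup.mk gN :
      ↥(normalizer (K : Set G)) ⧸ K.subgroupOf (normalizer (K : Set G))) ^ (p ^ k) = 1 := by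
    rw [← QuotientGroup.mk_pow]
    have : gN ^ p ^ k = 1 := Subtype.ext (by simpa using hgk)
    rw [this]; rfl
  have hcop : Nat.Coprime (p ^ k) (K.subgroupOf (normalizer (K : Set G))).index := by
    apply Nat.Coprime.pow_left
    rw [Nat.Prime.coprime_iff_not_dvd Fact.out]
    intro hd
    apply hK
    have : (K.subgroupOf (normalizer (K : Set G))).index = K.relIndex (normalizer (K : Set G)) :=
      rfl
    rw [this] at hd
    exact hd.trans (Dvd.intro _ (Subgroup.relIndex_mul_index hKN))
  have h3 : (QuotientGroup.mk gN :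
      ↥(normalizer (K : Set G)) ⧸ K.subgroupOf (normalizer (K : Set G))) = 1 := by
    have := pow_gcd_eq_one.mpr ⟨h2, h1⟩
    rwa [hcop.gcd_eq_one, pow_one] at this
  rw [QuotientGroup.eq_one_iff] at h3
  exact Subgroup.mem_subgroupOf.mp h3


theorem sylow_centralizer_le {G : Type*} [Group G] [Finite G] (p : ℕ) [Fact p.Prime]
    (ζ r : ℕ) (hz : Nat.card (center G) = ζ * r) (hr : ¬ p ∣ r) (P : Sylow p G)
    (ht : Nat.card {x : G // ¬ p ∣ cs x} * Nat.card (P : Subgroup G) = Nat.card G * ζ) :
    Nat.card (Sylow p G) * Nat.card (centralizer ((P : Subgroup G) : Set G)) ≤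
      Nat.card {x : G // ¬ p ∣ cs x} := by
  classical
  have hp : p.Prime := Fact.out
  set Z := center G with hZ
  set C := centralizer ((P : Subgroup G) : Set G) with hC
  let T : Set G := {x | ¬ p ∣ cs x}
  let Tb : Set (G ⧸ Z) := (QuotientGroup.mk : G → G ⧸ Z) '' T
  let Cb : Set (G ⧸ Z) := (QuotientGroup.mk : G → G ⧸ Z) '' (C : Set G)
  have hZC : Z ≤ C := Subgroup.center_le_centralizer _
  have hCT : (C : Set G) ⊆ T := fun x hx => not_dvd_cs_of_mem_centralizer P x hx
  have hpreT : (QuotientGroup.mk : G → G ⧸ Z) ⁻¹' Tb = T := by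
    ext x
    constructor
    · rintro ⟨x', hx', hxx'⟩
      have hmem : x'⁻¹ * x ∈ Z := QuotientGroup.eq.mp hxx'
      have : x = x' * (x'⁻¹ * x) := by group
      show ¬ p ∣ cs x
      rw [this, cs_mul_center _ _ hmem]
      exact hx'
    · intro hx
      exact ⟨x, hx, rfl⟩
  have hpreC : (QuotientGroup.mk : G → G ⧸ Z) ⁻¹' Cb = (C : Set G) := by
    ext x
    constructor
    · rintro ⟨x', hx', hxx'⟩
      have hmem : x'⁻¹ * x ∈ Z := QuotientGroup.eq.mp hxx'
      have : x = x' * (x'⁻¹ * x) := by group
      rw [this]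
      exact C.mul_mem hx' (hZC hmem)
    · intro hx
      exact ⟨x, hx, rfl⟩
  have hTcard : Nat.card {x : G // ¬ p ∣ cs x} = Nat.card Z * Nat.card Tb := by
    have h1 : Nat.card {x : G // ¬ p ∣ cs x} =
        Nat.card ↥((QuotientGroup.mk : G → G ⧸ Z) ⁻¹' Tb) := by
      rw [hpreT]; rfl
    rw [h1, Nat.card_congr (QuotientGroup.preimageMkEquivSubgroupProdSet Z Tb), Nat.card_prod]
  have hCcard : Nat.card C = Nat.card Z * Nat.card Cb := by
    have h1 : Nat.card C = Nat.card ↥((QuotientGroup.mk : G → G ⧸ Z) ⁻¹' Cb) := by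
      rw [hpreC]; rfl
    rw [h1, Nat.card_congr (QuotientGroup.preimageMkEquivSubgroupProdSet Z Cb), Nat.card_prod]
  -- the action of `P` on `Tb`
  have hstab : ∀ (g : G) (q : G ⧸ Z), q ∈ Tb → (g : G ⧸ Z) * q * (g : G ⧸ Z)⁻¹ ∈ Tb := by
    rintro g q ⟨x, hx, rfl⟩
    refine ⟨g * x * g⁻¹, ?_, by simp⟩
    show ¬ p ∣ cs (g * x * g⁻¹)
    rw [cs_conj]; exact hx
  let act : MulAction ↥(P : Subgroup G) ↥Tb :=
    { smul := fun g q => ⟨((g : G) : G ⧸ Z) * q.1 * ((g : G) : G ⧸ Z)⁻¹, hstab g.1 q.1 q.2⟩
      one_smul := fun q => Subtype.ext (by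
        show (((1 : ↥(P : Subgroup G)) : G) : G ⧸ Z) * q.1 *
          (((1 : ↥(P : Subgroup G)) : G) : G ⧸ Z)⁻¹ = q.1
        simp)
      mul_smul := fun g h q => Subtype.ext (by
        show (((g * h : ↥(P : Subgroup G)) : G) : G ⧸ Z) * q.1 *
            (((g * h : ↥(P : Subgroup G)) : G) : G ⧸ Z)⁻¹ =
          ((g : G) : G ⧸ Z) * (((h : G) : G ⧸ Z) * q.1 * ((h : G) : G ⧸ Z)⁻¹) *
            ((g : G) : G ⧸ Z)⁻¹
        simp [mul_assoc]) }
  have hmod := IsPGroup.card_modEq_card_fixedPoints P.2 (↥Tb)
  have hfix : Subtype.val '' (MulAction.fixedPoints ↥(P : Subgroup G) ↥Tb) = Cb := by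
    ext q
    constructor
    · rintro ⟨⟨q', hq'⟩, hfixed, rfl⟩
      obtain ⟨x, hx, rfl⟩ := hq'
      refine ⟨x, ?_, rfl⟩
      have key : ∀ g ∈ (P : Subgroup G), ∃ z ∈ Z, g * x * g⁻¹ = x * z := by
        intro g hg
        have h1 := hfixed ⟨g, hg⟩
        have h2 : ((g : G ⧸ Z)) * (x : G ⧸ Z) * (g : G ⧸ Z)⁻¹ = (x : G ⧸ Z) :=
          congrArg Subtype.val h1
        have h3 : ((g * x * g⁻¹ : G) : G ⧸ Z) = (x : G ⧸ Z) := by simpa using h2
        have h4 : x⁻¹ * (g * x * g⁻¹) ∈ Z := QuotientGroup.eq.mp h3.symm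
        exact ⟨x⁻¹ * (g * x * g⁻¹), h4, by group⟩
      have hPN : (P : Subgroup G) ≤
          normalizer ((centralizer ({x} : Set G) : Subgroup G) : Set G) := by
        intro g hg
        rw [Subgroup.mem_normalizer_iff]
        intro k
        obtain ⟨z, hz, hgz⟩ := key g⁻¹ (inv_mem hg)
        simp only [mem_centralizer_iff, Set.mem_singleton_iff, forall_eq]
        rw [inv_inv] at hgz
        have hzc : ∀ y : G, z * y = y * z := fun y => (Subgroup.mem_center_iff.mp hz y).symm
        constructor
        · intro hk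
          have e1 : (x * z) * k = k * (x * z) := by
            calc (x * z) * k = x * (z * k) := by group
              _ = x * (k * z) := by rw [hzc k]
              _ = (x * k) * z := by group
              _ = (k * x) * z := by rw [hk]
              _ = k * (x * z) := by group
          rw [← hgz] at e1
          calc x * (g * k * g⁻¹) = g * ((g⁻¹ * x * g) * k) * g⁻¹ := by group
            _ = g * (k * (g⁻¹ * x * g)) * g⁻¹ := by rw [e1]
            _ = g * k * g⁻¹ * x := by group
        · intro hk
          have e1 : (g⁻¹ * x * g) * k = k * (g⁻¹ * x * g) := by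
            calc (g⁻¹ * x * g) * k = g⁻¹ * (x * (g * k * g⁻¹)) * g := by group
              _ = g⁻¹ * ((g * k * g⁻¹) * x) * g := by rw [hk]
              _ = k * (g⁻¹ * x * g) := by group
          rw [hgz] at e1
          have e2 : x * k * z = k * x * z := by
            calc x * k * z = x * (k * z) := by group
              _ = x * (z * k) := by rw [hzc k]
              _ = x * z * k := by group
              _ = k * (x * z) := e1
              _ = k * x * z := by group
          exact mul_right_cancel e2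
      have hPle : (P : Subgroup G) ≤ centralizer ({x} : Set G) :=
        le_of_le_normalizer _ _ P.2 hPN hx
      show x ∈ C
      rw [hC, mem_centralizer_iff]
      intro g hg
      have := hPle hg
      rw [mem_centralizer_iff] at this
      exact (this x rfl).symm
    · rintro ⟨x, hx, rfl⟩
      refine ⟨⟨(x : G ⧸ Z), ⟨x, hCT hx, rfl⟩⟩, ?_, rfl⟩
      rw [MulAction.mem_fixedPoints]
      intro g
      apply Subtype.ext
      show ((g : G) : G ⧸ Z) * (x : G ⧸ Z) * ((g : G) : G ⧸ Z)⁻¹ = (x : G ⧸ Z)
      have : (g : G) * x = x * (g : G) := (mem_centralizer_iff.mp hx) g g.2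
      rw [← QuotientGroup.mk_mul, this, QuotientGroup.mk_mul]; simp
  have hfixcard : Nat.card (MulAction.fixedPoints ↥(P : Subgroup G) ↥Tb) = Nat.card Cb := by
    rw [← hfix, Nat.card_coe_set_eq, Nat.card_coe_set_eq,
      Set.ncard_image_of_injective _ Subtype.val_injective]
  rw [hfixcard] at hmod
  have hζpos : 0 < ζ := by
    rcases Nat.eq_zero_or_pos ζ with h0 | h0
    · rw [h0, zero_mul] at hz
      exact absurd hz (Nat.card_pos.ne')
    · exact h0
  have hidx : Nat.card (P : Subgroup G) * (P : Subgroup G).index = Nat.card G :=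
    (P : Subgroup G).card_mul_index
  have hpapos : 0 < Nat.card (P : Subgroup G) := Nat.card_pos
  have h5 : r * Nat.card Tb = (P : Subgroup G).index := by
    have : ζ * Nat.card (P : Subgroup G) * (r * Nat.card Tb) =
        ζ * Nat.card (P : Subgroup G) * (P : Subgroup G).index := by
      calc ζ * Nat.card (P : Subgroup G) * (r * Nat.card Tb)
          = (ζ * r * Nat.card Tb) * Nat.card (P : Subgroup G) := by ring
        _ = Nat.card {x : G // ¬ p ∣ cs x} * Nat.card (P : Subgroup G) := by rw [hTcard, hz]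
        _ = Nat.card G * ζ := ht
        _ = ζ * Nat.card (P : Subgroup G) * (P : Subgroup G).index := by rw [← hidx]; ring
    exact Nat.eq_of_mul_eq_mul_left (Nat.mul_pos hζpos hpapos) this
  have htb : ¬ p ∣ Nat.card Tb := fun hd => P.not_dvd_index (h5 ▸ Dvd.dvd.mul_left hd r)
  have hcb : ¬ p ∣ Nat.card Cb := fun hd => htb ((hmod.dvd_iff (dvd_refl p)).mpr hd)
  have hPCZ : (P : Subgroup G) ⊓ C ≤ Z := by
    intro x hx
    rw [← QuotientGroup.eq_one_iff]
    obtain ⟨k, hk⟩ := P.2 ⟨x, hx.1⟩
    have hxk : x ^ p ^ k = 1 := by simpa using congrArg Subtype.val hk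
    have h1 : ((x : G ⧸ Z)) ^ (p ^ k) = 1 := by rw [← QuotientGroup.mk_pow, hxk]; rfl
    have hmemb : (x : G ⧸ Z) ∈ C.map (QuotientGroup.mk' Z) := ⟨x, hx.2, rfl⟩
    have hcardmap : Nat.card (C.map (QuotientGroup.mk' Z)) = Nat.card Cb :=
      Nat.card_congr (Equiv.subtypeEquivRight fun q => Iff.rfl)
    have h2 : ((x : G ⧸ Z)) ^ Nat.card Cb = 1 := by
      have := pow_card_eq_one' (G := ↥(C.map (QuotientGroup.mk' Z))) (x := ⟨(x : G ⧸ Z), hmemb⟩)
      rw [hcardmap] at this
      exact congrArg Subtype.val this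
    have hcop : Nat.Coprime (p ^ k) (Nat.card Cb) :=
      Nat.Coprime.pow_left k ((Nat.Prime.coprime_iff_not_dvd hp).mpr hcb)
    have := pow_gcd_eq_one.mpr ⟨h1, h2⟩
    rwa [hcop.gcd_eq_one, pow_one] at this
  have hle : Nat.card ↥((P : Subgroup G) ⊓ C) ≤ ζ := by
    have h1 : Nat.card ↥((P : Subgroup G) ⊓ C) ∣ ζ * r := by
      rw [← hz]; exact Subgroup.card_dvd_of_le hPCZ
    obtain ⟨j, hj⟩ := IsPGroup.iff_card.mp (P.2.to_le (inf_le_left : (P : Subgroup G) ⊓ C ≤ P))
    rw [hj] at h1 ⊢
    have hcop : Nat.Coprime (p ^ j) r :=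
      Nat.Coprime.pow_left j ((Nat.Prime.coprime_iff_not_dvd hp).mpr hr)
    exact Nat.le_of_dvd hζpos (hcop.dvd_of_dvd_mul_right h1)
  have hs : Nat.card (Sylow p G) = (normalizer ((P : Subgroup G) : Set G)).index :=
    P.card_eq_index_normalizer
  have hCN : C ≤ normalizer ((P : Subgroup G) : Set G) := Subgroup.centralizer_le_normalizer _
  have hPN : (P : Subgroup G) ≤ normalizer ((P : Subgroup G) : Set G) := le_normalizer
  have e1 : Nat.card C * C.relIndex (normalizer ((P : Subgroup G) : Set G)) =
      Nat.card (normalizer ((P : Subgroup G) : Set G)) :=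
    Cfsg.Agent.Lib.Helper67.ClassSize.card_eq_card_mul_relIndex hCN
  have e2 : Nat.card ↥((P : Subgroup G) ⊓ C) * C.relIndex (P : Subgroup G) =
      Nat.card (P : Subgroup G) := by
    have := Cfsg.Agent.Lib.Helper67.ClassSize.card_eq_card_mul_relIndex
      (inf_le_left : (P : Subgroup G) ⊓ C ≤ P)
    rwa [Subgroup.inf_relIndex_left] at this
  have e3 : C.relIndex (P : Subgroup G) ≤ C.relIndex (normalizer ((P : Subgroup G) : Set G)) := by
    apply Subgroup.relIndex_le_of_le_right hPN
    intro h0
    rw [h0, mul_zero] at e1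
    exact absurd e1.symm (Nat.card_pos.ne')
  have e4 : (normalizer ((P : Subgroup G) : Set G)).index *
      Nat.card (normalizer ((P : Subgroup G) : Set G)) = Nat.card G := Subgroup.index_mul_card _
  rw [hs]
  apply Nat.le_of_mul_le_mul_right _ hpapos
  calc (normalizer ((P : Subgroup G) : Set G)).index * Nat.card C * Nat.card (P : Subgroup G)
      = (normalizer ((P : Subgroup G) : Set G)).index * Nat.card C *
          (Nat.card ↥((P : Subgroup G) ⊓ C) * C.relIndex (P : Subgroup G)) := by rw [e2]
    _ ≤ (normalizer ((P : Subgroup G) : Set G)).index * Nat.card C *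
          (ζ * C.relIndex (normalizer ((P : Subgroup G) : Set G))) := by gcongr
    _ = (normalizer ((P : Subgroup G) : Set G)).index *
          (Nat.card C * C.relIndex (normalizer ((P : Subgroup G) : Set G))) * ζ := by ring
    _ = Nat.card G * ζ := by rw [e1, e4]
    _ = Nat.card {x : G // ¬ p ∣ cs x} * Nat.card (P : Subgroup G) := ht.symm


theorem sylow_normal {G : Type*} [Group G] [Finite G] (p : ℕ) [Fact p.Prime]
    (ζ r : ℕ) (hz : Nat.card (center G) = ζ * r) (hr : ¬ p ∣ r)
    (ht : ∀ P : Sylow p G,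
      Nat.card {x : G // ¬ p ∣ cs x} * Nat.card (P : Subgroup G) = Nat.card G * ζ)
    (P : Sylow p G) : (P : Subgroup G).Normal := by
  classical
  have key := fun P' : Sylow p G => sylow_centralizer_le p ζ r hz hr P' (ht P')
  let T : Set G := {x | ¬ p ∣ cs x}
  have hZT : ((center G : Subgroup G) : Set G) ⊆ T := fun x hx => by
    show ¬ p ∣ cs x
    rw [(cs_eq_one_iff x).mpr hx]
    exact (Fact.out : p.Prime).not_dvd_one
  have hfin : Fintype (Sylow p G) := Fintype.ofFinite _
  have hex : ∀ x : ↥(T \ ((center G : Subgroup G) : Set G)), ∃ P' : Sylow p G,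
      (x : G) ∈ centralizer ((P' : Subgroup G) : Set G) := by
    intro x
    obtain ⟨P', hP'⟩ := Cfsg.Agent.Lib.Helper76.SylowTools.exists_sylow_le_of_not_dvd_index
      (p := p) (centralizer ({(x : G)} : Set G)) x.2.1
    refine ⟨P', ?_⟩
    rw [mem_centralizer_iff]
    intro g hg
    have := hP' hg
    rw [mem_centralizer_iff] at this
    exact (this _ rfl).symm
  choose f hf using hex
  let ι : ↥(T \ ((center G : Subgroup G) : Set G)) →
      Σ P' : Sylow p G, ↥(((centralizer ((P' : Subgroup G) : Set G) : Subgroup G) : Set G) \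
        ((center G : Subgroup G) : Set G)) :=
    fun x => ⟨f x, ⟨x.1, hf x, x.2.2⟩⟩
  have hι : Function.Injective ι := by
    intro x y hxy
    have : (ι x).2.1 = (ι y).2.1 := congrArg (fun s => (s.2.1 : G)) hxy
    exact Subtype.ext this
  have hcard1 := Nat.card_le_card_of_injective ι hι
  rw [Nat.card_sigma] at hcard1
  have hu1 : Nat.card ↥(T \ ((center G : Subgroup G) : Set G)) + Nat.card (center G) =
      Nat.card {x : G // ¬ p ∣ cs x} := by
    have h1 := Set.ncard_sdiff_add_ncard_of_subset hZT
    rw [← Nat.card_coe_set_eq, ← Nat.card_coe_set_eq, ← Nat.card_coe_set_eq] at h1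
    exact h1
  have hu2 : ∀ P' : Sylow p G,
      Nat.card ↥(((centralizer ((P' : Subgroup G) : Set G) : Subgroup G) : Set G) \
        ((center G : Subgroup G) : Set G)) + Nat.card (center G) =
      Nat.card (centralizer ((P' : Subgroup G) : Set G)) := by
    intro P'
    have hsub : ((center G : Subgroup G) : Set G) ⊆
        ((centralizer ((P' : Subgroup G) : Set G) : Subgroup G) : Set G) :=
      Subgroup.center_le_centralizer _
    have h1 := Set.ncard_sdiff_add_ncard_of_subset hsub
    rw [← Nat.card_coe_set_eq, ← Nat.card_coe_set_eq, ← Nat.card_coe_set_eq] at h1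
    exact h1
  set t := Nat.card {x : G // ¬ p ∣ cs x} with ht_def
  set z := Nat.card (center G) with hz_def
  set s := Nat.card (Sylow p G) with hs_def
  set a : Sylow p G → ℕ := fun P' =>
    Nat.card ↥(((centralizer ((P' : Subgroup G) : Set G) : Subgroup G) : Set G) \
        ((center G : Subgroup G) : Set G)) with ha_def
  have hs_univ : (Finset.univ : Finset (Sylow p G)).card = s := by
    rw [Finset.card_univ, hs_def, Nat.card_eq_fintype_card]
  have h1 : ∑ P' : Sylow p G, s * (a P' + z) ≤ s * t := by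
    calc ∑ P' : Sylow p G, s * (a P' + z) ≤ ∑ _P' : Sylow p G, t := by
          apply Finset.sum_le_sum
          intro P' _
          rw [hu2 P']
          exact key P'
      _ = s * t := by rw [Finset.sum_const, hs_univ, smul_eq_mul]
  have h2 : ∑ P' : Sylow p G, s * (a P' + z) = s * ∑ P' : Sylow p G, a P' + s * s * z := by
    rw [← Finset.mul_sum, Finset.sum_add_distrib, Finset.sum_const, hs_univ, smul_eq_mul]
    ring
  have h3 : t ≤ ∑ P' : Sylow p G, a P' + z := by
    rw [← hu1]
    exact Nat.add_le_add_right hcard1 z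
  have hzpos : 0 < z := Nat.card_pos
  have hspos : 0 < s := Nat.card_pos
  have hs1 : s ≤ 1 := by
    have h4 : s * ∑ P' : Sylow p G, a P' + s * s * z ≤ s * (∑ P' : Sylow p G, a P' + z) := by
      rw [← h2]
      exact h1.trans (Nat.mul_le_mul_left s h3)
    have h5 : s * (s * z) ≤ 1 * (s * z) := by nlinarith
    exact Nat.le_of_mul_le_mul_right h5 (Nat.mul_pos hspos hzpos)
  have hs_eq : s = 1 := le_antisymm hs1 hspos
  have hidx : (normalizer ((P : Subgroup G) : Set G)).index = 1 :=
    (P.card_eq_index_normalizer).symm.trans hs_eq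
  exact Subgroup.normalizer_eq_top_iff.mp (Subgroup.index_eq_one.mp hidx)

theorem main {G H : Type*} [Group G] [Finite G] [Group H] [Finite H]
    (hH : Group.IsNilpotent H)
    (h : ∀ k : ℕ, Nat.card {C : ConjClasses G // Nat.card C.carrier = k} =
      Nat.card {C : ConjClasses H // Nat.card C.carrier = k}) :
    Group.IsNilpotent G := by
  obtain ⟨φ, hφ⟩ := exists_equiv h
  have hn : Nat.card G = Nat.card H := Nat.card_congr φ
  have hzc : Nat.card (center G) = Nat.card (center H) := by
    have e1 : Nat.card (center G) = Nat.card {x : G // cs x = 1} :=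
      Nat.card_congr (Equiv.subtypeEquivRight fun x => (cs_eq_one_iff x).symm)
    have e2 : Nat.card (center H) = Nat.card {x : H // cs x = 1} :=
      Nat.card_congr (Equiv.subtypeEquivRight fun x => (cs_eq_one_iff x).symm)
    rw [e1, e2]
    exact Nat.card_congr (φ.subtypeEquiv fun x => by rw [hφ x])
  apply (Group.isNilpotent_of_finite_tfae.out 0 3).mpr
  intro p hp P
  obtain ⟨PH⟩ := (inferInstance : Nonempty (Sylow p H))
  obtain ⟨ζ, r, hz, hr, ht⟩ := nilp_count hH p PH
  have htc : Nat.card {x : G // ¬ p ∣ cs x} = Nat.card {y : H // ¬ p ∣ cs y} :=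
    Nat.card_congr (φ.subtypeEquiv fun x => by rw [hφ x])
  exact sylow_normal p ζ r (hzc.trans hz) hr (fun P' => by
    rw [htc, hn, P'.card_eq_multiplicity, hn, ← PH.card_eq_multiplicity]; exact ht) P

/-- Let G and H be finite groups such that for every natural number k, G and H have the same number of conjugacy classes of size k. If H is nilpotent then G is nilpotent. -/
theorem result {G H : Type*} [Group G] [Finite G] [Group H] [Finite H]
    (hH : Group.IsNilpotent H)
    (h : ∀ k : ℕ, Nat.card {C : ConjClasses G // Nat.card C.carrier = k} = Nat.card {C : ConjClasses H // Nat.card C.carrier = k}) :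
    Group.IsNilpotent G := by
  exact main hH h

end Cfsg.Agent.S4139
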