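import Cfsg.Statements.S4145
-- import your own Cfsg.Agent.* helpers here

set_option autoImplicit false
open Cfsg

namespace Cfsg.Agent.S4145

section helpers

theorem nt_aux (p : ℕ) (hp : p.Prime) (k j : ℕ) (s : ℤ) (h1 : (p : ℤ) ∣ s - 1) (hj : ¬ p ∣ j)
    (h2 : ((p : ℤ) ^ k) ∣ s ^ j - 1) : ((p : ℤ) ^ k) ∣ s - 1 := by
  have hgeom : (∑ i ∈ Finset.range j, s ^ i) * (s - 1) = s ^ j - 1 := geom_sum_mul s j
  have hsum : (∑ i ∈ Finset.range j, s ^ i) ≡ (j : ℤ) [ZMOD (p : ℤ)] := by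
    have h1' : s ≡ 1 [ZMOD (p : ℤ)] := (Int.modEq_iff_dvd.mpr h1 : 1 ≡ s [ZMOD (p : ℤ)]).symm
    have : ∀ i ∈ Finset.range j, s ^ i ≡ 1 [ZMOD (p : ℤ)] := fun i _ => by
      simpa using h1'.pow i
    calc (∑ i ∈ Finset.range j, s ^ i) ≡ ∑ i ∈ Finset.range j, (1 : ℤ) [ZMOD (p : ℤ)] :=
          Int.ModEq.sum this
      _ = (j : ℤ) := by simp
  have hcop : IsCoprime (∑ i ∈ Finset.range j, s ^ i) ((p : ℤ) ^ k) := by
    apply IsCoprime.pow_right
    rw [Int.isCoprime_iff_gcd_eq_one]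
    have hpz : Prime (p : ℤ) := Nat.prime_iff_prime_int.mp hp
    by_contra hne
    have hdvd : (p : ℤ) ∣ ∑ i ∈ Finset.range j, s ^ i := by
      have h3 : ¬ IsCoprime (∑ i ∈ Finset.range j, s ^ i) (p : ℤ) := by
        rwa [Int.isCoprime_iff_gcd_eq_one]
      by_contra hnd
      exact h3 ((hpz.coprime_iff_not_dvd.mpr hnd).symm)
    have : (p : ℤ) ∣ (j : ℤ) := (Int.ModEq.dvd_iff hsum).mp hdvd
    exact hj (Int.natCast_dvd_natCast.mp this)
  rw [← hgeom] at h2
  exact hcop.symm.dvd_of_dvd_mul_left h2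

theorem L1 {G : Type*} [Group G] [Finite G] {p : ℕ} [hp : Fact p.Prime] (P : Sylow p G)
    (hc : IsCyclic (P : Subgroup G)) (n : G)
    (hn : n ∈ Subgroup.normalizer ((P : Subgroup G) : Set G))
    (q : G) (hqP : q ∈ (P : Subgroup G)) (hq1 : q ≠ 1) (hq : n * q * n⁻¹ = q) :
    ∀ u ∈ (P : Subgroup G), n * u * n⁻¹ = u := by
  obtain ⟨⟨x, hxP⟩, hx⟩ := hc.exists_generator
  have hgen : ∀ u ∈ (P : Subgroup G), ∃ t : ℤ, x ^ t = u := by
    intro u hu
    obtain ⟨t, ht⟩ := Subgroup.mem_zpowers_iff.mp (hx ⟨u, hu⟩)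
    exact ⟨t, by simpa using congrArg Subtype.val ht⟩
  have hnx : n * x * n⁻¹ ∈ (P : Subgroup G) := (Subgroup.mem_normalizer_iff.mp hn x).mp hxP
  obtain ⟨s, hs⟩ := hgen _ hnx
  have hconj : ∀ t : ℤ, n * x ^ t * n⁻¹ = x ^ (s * t) := by
    intro t
    have h := map_zpow (MulAut.conj n) x t
    simp only [MulAut.conj_apply] at h
    rw [h, ← hs, ← zpow_mul]
  have hpow : ∀ i : ℕ, n ^ i * x * (n ^ i)⁻¹ = x ^ (s ^ i) := by
    intro i
    induction i with
    | zero => simp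
    | succ i ih =>
      have h : n ^ (i + 1) * x * (n ^ (i + 1))⁻¹ = n * (n ^ i * x * (n ^ i)⁻¹) * n⁻¹ := by
        rw [pow_succ']; group
      rw [h, ih, hconj, pow_succ, mul_comm]
  obtain ⟨t, ht⟩ := hgen q hqP
  have h1 : (p : ℤ) ∣ s - 1 := by
    have hq' : q ^ (s - 1) = 1 := by
      have h := hconj t
      rw [ht, hq] at h
      rw [zpow_sub, zpow_one, ← ht, ← zpow_mul, mul_comm, ← h, ht, mul_inv_cancel]
    have hdvd : (orderOf q : ℤ) ∣ s - 1 := orderOf_dvd_iff_zpow_eq_one.mpr hq'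
    obtain ⟨i, hi⟩ := (IsPGroup.iff_orderOf.mp P.isPGroup') ⟨q, hqP⟩
    have hi' : orderOf q = p ^ i := by rw [← hi]; exact (Subgroup.orderOf_mk _ _).symm
    have hi0 : i ≠ 0 := by
      rintro rfl
      rw [pow_zero, orderOf_eq_one_iff] at hi'
      exact hq1 hi'
    have h3 : (p : ℤ) ∣ (orderOf q : ℤ) := by
      rw [hi']; push_cast; exact dvd_pow_self _ hi0
    exact h3.trans hdvd
  obtain ⟨a, j, hj, hnj⟩ := Nat.exists_eq_pow_mul_and_not_dvd (orderOf_pos n).ne' p hp.out.ne_one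
  have hnjP : n ^ j ∈ (P : Subgroup G) := by
    have hpg : IsPGroup p (Subgroup.zpowers (n ^ j)) := by
      rintro ⟨g, hg⟩
      obtain ⟨i, rfl⟩ := Subgroup.mem_zpowers_iff.mp hg
      refine ⟨a, ?_⟩
      apply Subtype.ext
      simp only [Subgroup.coe_pow, Subgroup.coe_one]
      rw [← zpow_natCast, ← zpow_mul, mul_comm, zpow_mul, zpow_natCast, ← pow_mul, mul_comm, ← hnj,
        pow_orderOf_eq_one, one_zpow]
    have h := hpg.inf_normalizer_sylow P
    have hmem : n ^ j ∈ Subgroup.zpowers (n ^ j) ⊓ Subgroup.normalizer ((P : Subgroup G) : Set G) :=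
      ⟨Subgroup.mem_zpowers _, Subgroup.pow_mem _ hn j⟩
    exact (h.le hmem).2
  obtain ⟨k, hk⟩ := (IsPGroup.iff_orderOf.mp P.isPGroup') ⟨x, hxP⟩
  have hk' : orderOf x = p ^ k := by rw [← hk]; exact (Subgroup.orderOf_mk _ _).symm
  have h2 : ((p : ℤ) ^ k) ∣ s ^ j - 1 := by
    obtain ⟨t', ht'⟩ := hgen _ hnjP
    have h := hpow j
    rw [← ht'] at h
    have h' : x ^ (s ^ j) = x := by
      rw [← h, ← zpow_add_one, ← zpow_neg, ← zpow_add]; simp
    have h'' : x ^ (s ^ j - 1) = 1 := by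
      rw [zpow_sub, zpow_one, h', mul_inv_cancel]
    have := orderOf_dvd_iff_zpow_eq_one.mpr h''
    rw [hk'] at this
    exact_mod_cast this
  have h3 := nt_aux p hp.out k j s h1 hj h2
  have hxs : x ^ (s - 1) = 1 := by
    apply orderOf_dvd_iff_zpow_eq_one.mp
    rw [hk']; exact_mod_cast h3
  have hxs' : x ^ s = x := by
    have : x ^ s = x ^ (s - 1) * x := by rw [← zpow_add_one]; simp
    rw [this, hxs, one_mul]
  intro u hu
  obtain ⟨t, rfl⟩ := hgen u hu
  rw [hconj, zpow_mul, hxs']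

theorem BT {G : Type*} [Group G] [Finite G] {p : ℕ} [hp : Fact p.Prime] (P : Sylow p G)
    (hc : IsCyclic (P : Subgroup G)) (Y : Subgroup G) (hPY : (P : Subgroup G) ≤ Y)
    (hY : ∀ n ∈ Y, n ∈ Subgroup.normalizer ((P : Subgroup G) : Set G) →
      ∃ q ∈ (P : Subgroup G), q ≠ 1 ∧ n * q * n⁻¹ = q) :
    ∃ R : Subgroup G, R ≤ Y ∧ (∀ y ∈ Y, ∀ r ∈ R, y * r * y⁻¹ ∈ R) ∧ (Nat.card R).Coprime p ∧
      (∀ y ∈ Y, ∃ r ∈ R, ∃ v ∈ (P : Subgroup G), y = r * v) ∧
      Nat.card R * Nat.card (P : Subgroup G) = Nat.card Y := by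
  set PY : Sylow p ↥Y := P.subtype hPY with hPYdef
  have hmemPY : ∀ y : ↥Y, y ∈ PY ↔ (y : G) ∈ (P : Subgroup G) := by
    intro y
    exact Iff.rfl
  have hNC : Subgroup.normalizer ((PY : Subgroup ↥Y) : Set ↥Y) ≤
      Subgroup.centralizer ((PY : Subgroup ↥Y) : Set ↥Y) := by
    intro n hn
    have hnG : (n : G) ∈ Subgroup.normalizer ((P : Subgroup G) : Set G) := by
      rw [Subgroup.mem_normalizer_iff]
      intro g
      constructor
      · intro hg
        have h := (Subgroup.mem_normalizer_iff.mp hn ⟨g, hPY hg⟩).mp ((hmemPY _).mpr hg)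
        simpa using (hmemPY _).mp h
      · intro hg
        have hgY : g ∈ Y := by
          have h : g = (n : G)⁻¹ * ((n : G) * g * (n : G)⁻¹) * (n : G) := by group
          rw [h]
          exact Y.mul_mem (Y.mul_mem (Y.inv_mem n.2) (hPY hg)) n.2
        have h := (Subgroup.mem_normalizer_iff.mp hn ⟨g, hgY⟩).mpr
          ((hmemPY _).mpr (by simpa using hg))
        exact (hmemPY _).mp h
    obtain ⟨q, hqP, hq1, hq⟩ := hY n n.2 hnG
    have hcent := L1 P hc n hnG q hqP hq1 hq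
    rw [Subgroup.mem_centralizer_iff]
    intro y hy
    have h := hcent y ((hmemPY y).mp hy)
    apply Subtype.ext
    simp only [Subgroup.coe_mul]
    nth_rewrite 1 [← h]
    group
  obtain ⟨R₀, hR₀n, hcompl, hnd⟩ : ∃ R₀ : Subgroup ↥Y, R₀.Normal ∧
      R₀.IsComplement' (PY : Subgroup ↥Y) ∧ ¬ p ∣ Nat.card R₀ :=
    ⟨_, MonoidHom.normal_ker _, MonoidHom.ker_transferSylow_isComplement' PY hNC,
      MonoidHom.not_dvd_card_ker_transferSylow PY hNC⟩
  refine ⟨R₀.map Y.subtype, Subgroup.map_subtype_le _, ?_, ?_, ?_, ?_⟩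
  · rintro y hy _ ⟨r, hr, rfl⟩
    exact ⟨⟨y, hy⟩ * r * ⟨y, hy⟩⁻¹, hR₀n.conj_mem r hr ⟨y, hy⟩, by simp⟩
  · rw [Subgroup.card_map_of_injective Y.subtype_injective]
    exact (Nat.Prime.coprime_iff_not_dvd hp.out).mpr hnd |>.symm
  · intro y hy
    obtain ⟨⟨r, v⟩, hrv⟩ := hcompl.2 ⟨y, hy⟩
    refine ⟨r, ⟨r, r.2, rfl⟩, v, (hmemPY _).mp v.2, ?_⟩
    have := congrArg Subtype.val hrv
    simpa using this.symm
  · have h := hcompl.card_mul_card
    rw [Subgroup.card_map_of_injective Y.subtype_injective]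
    have h2 : Nat.card (PY : Subgroup ↥Y) = Nat.card (P : Subgroup G) := by
      rw [hPYdef, Sylow.coe_subtype]
      exact Nat.card_congr (Subgroup.subgroupOfEquivOfLe hPY).toEquiv
    rw [← h2]
    exact h

theorem hallUnique {G : Type*} [Group G] [Finite G] {p : ℕ} [hp : Fact p.Prime] (P : Sylow p G)
    (Y R : Subgroup G) (hPY : (P : Subgroup G) ≤ Y)
    (hRn : ∀ y ∈ Y, ∀ r ∈ R, y * r * y⁻¹ ∈ R)
    (hdec : ∀ y ∈ Y, ∃ r ∈ R, ∃ v ∈ (P : Subgroup G), y = r * v)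
    (y : G) (hy : y ∈ Y) (hcop : (orderOf y).Coprime p) : y ∈ R := by
  obtain ⟨r, hr, v, hv, rfl⟩ := hdec y hy
  have hpow : ∀ m : ℕ, ∃ r' ∈ R, (r * v) ^ m = r' * v ^ m := by
    intro m
    induction m with
    | zero => exact ⟨1, R.one_mem, by simp⟩
    | succ m ih =>
      obtain ⟨r', hr', h⟩ := ih
      refine ⟨r' * (v ^ m * r * (v ^ m)⁻¹),
        R.mul_mem hr' (hRn _ (hPY (Subgroup.pow_mem _ hv m)) r hr), ?_⟩
      rw [pow_succ, h]; group
  obtain ⟨k, hk⟩ := (IsPGroup.iff_orderOf.mp P.isPGroup') ⟨v, hv⟩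
  have hvk : v ^ (p ^ k) = 1 := by
    have h : orderOf v = p ^ k := by rw [← hk]; exact (Subgroup.orderOf_mk _ _).symm
    rw [← h]; exact pow_orderOf_eq_one v
  obtain ⟨r', hr', h⟩ := hpow (p ^ k)
  rw [hvk, mul_one] at h
  have hcop' : (p ^ k).Coprime (orderOf (r * v)) := Nat.Coprime.pow_left k hcop.symm
  obtain ⟨m, hm⟩ := exists_pow_eq_self_of_coprime hcop'
  rw [← hm, h]
  exact R.pow_mem hr' m

theorem card_aux (p a i b c : ℕ) (hp : p.Prime) (ha : a.Coprime p) (hi : i.Coprime p)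
    (h : p ^ c * i = a * p ^ b) : p ^ c = p ^ b := by
  apply Nat.dvd_antisymm
  · have h1 : p ^ c ∣ a * p ^ b := Dvd.intro _ h
    exact (Nat.Coprime.pow_left c ha.symm).dvd_of_dvd_mul_left h1
  · have h1 : p ^ b ∣ p ^ c * i := Dvd.intro_left _ h.symm
    exact (Nat.Coprime.pow_left b hi.symm).dvd_of_dvd_mul_right h1

theorem part1 {G : Type*} [Group G] [Finite G] (p : ℕ) [hpf : Fact p.Prime]
    (P : Sylow p G) (hP : IsCyclic (P : Subgroup G)) (H : Subgroup G) [hHn : H.Normal]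
    (h2 : p ∣ H.index) :
    ∃ K : Subgroup G, K ≤ H ∧ (∀ g : G, ∀ r ∈ K, g * r * g⁻¹ ∈ K) ∧ (Nat.card K).Coprime p ∧
      (∀ h ∈ H, ∃ r ∈ K, ∃ v ∈ (P : Subgroup G), h = r * v) ∧
      ∃ b : ℕ, Nat.card H = Nat.card K * p ^ b := by
  have hp : p.Prime := hpf.out
  have hPH : ¬ (P : Subgroup G) ≤ H := by
    intro hle
    have h : H.index ∣ (P : Subgroup G).index := Subgroup.index_dvd_of_le hle
    exact P.not_dvd_index (h2.trans h)
  set Y := (P : Subgroup G) ⊔ H with hYdef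
  have hPY : (P : Subgroup G) ≤ Y := le_sup_left
  have hHY : H ≤ Y := le_sup_right
  have hYdec : ∀ y ∈ Y, ∃ u ∈ (P : Subgroup G), ∃ h ∈ H, y = u * h := by
    intro y hy
    rw [hYdef, ← SetLike.mem_coe, Subgroup.mul_normal] at hy
    obtain ⟨u, hu, h, hh, rfl⟩ := Set.mem_mul.mp hy
    exact ⟨u, hu, h, hh, rfl⟩
  have hPcomm : ∀ u ∈ (P : Subgroup G), ∀ v ∈ (P : Subgroup G), u * v = v * u := by
    intro u hu v hv
    have h := @IsCyclic.isMulCommutative _ _ hP
    have h' := h.is_comm.comm (⟨u, hu⟩ : (P : Subgroup G)) ⟨v, hv⟩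
    exact congrArg Subtype.val h'
  have hY1 : ∀ n ∈ Y, n ∈ Subgroup.normalizer ((P : Subgroup G) : Set G) →
      ∃ q ∈ (P : Subgroup G), q ≠ 1 ∧ n * q * n⁻¹ = q := by
    intro n hnY hnN
    obtain ⟨u, hu, h, hh, rfl⟩ := hYdec n hnY
    have hhN : h ∈ Subgroup.normalizer ((P : Subgroup G) : Set G) := by
      have e : h = u⁻¹ * (u * h) := by group
      rw [e]
      exact Subgroup.mul_mem _ (Subgroup.inv_mem _ (Subgroup.le_normalizer hu)) hnN
    obtain ⟨v₁, hv₁, v₂, hv₂, hne, heq⟩ : ∃ v₁ ∈ (P : Subgroup G), ∃ v₂ ∈ (P : Subgroup G),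
        v₁ ≠ v₂ ∧ h * v₁ * h⁻¹ * v₁⁻¹ = h * v₂ * h⁻¹ * v₂⁻¹ := by
      by_contra hcon
      push Not at hcon
      have hmem : ∀ v : (P : Subgroup G), h * (v : G) * h⁻¹ * (v : G)⁻¹ ∈ (P : Subgroup G) ⊓ H := by
        intro v
        refine ⟨Subgroup.mul_mem _ ((Subgroup.mem_normalizer_iff.mp hhN v).mp v.2)
          (Subgroup.inv_mem _ v.2), ?_⟩
        have e : h * (v : G) * h⁻¹ * (v : G)⁻¹ = h * ((v : G) * h⁻¹ * (v : G)⁻¹) := by group
        rw [e]
        exact H.mul_mem hh (hHn.conj_mem _ (H.inv_mem hh) _)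
      have hinj : Function.Injective
          (fun v : (P : Subgroup G) => (⟨_, hmem v⟩ : ((P : Subgroup G) ⊓ H : Subgroup G))) := by
        intro v₁ v₂ h12
        by_contra hne
        have hne' : (v₁ : G) ≠ (v₂ : G) := fun h => hne (Subtype.ext h)
        exact hcon v₁ v₁.2 v₂ v₂.2 hne' (congrArg Subtype.val h12)
      have hcard := Nat.card_le_card_of_injective _ hinj
      have heq : (P : Subgroup G) ⊓ H = (P : Subgroup G) :=
        Subgroup.eq_of_le_of_card_ge inf_le_left hcard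
      exact hPH (heq ▸ inf_le_right)
    refine ⟨v₂⁻¹ * v₁, Subgroup.mul_mem _ (Subgroup.inv_mem _ hv₂) hv₁, ?_, ?_⟩
    · intro h0
      rw [inv_mul_eq_one] at h0
      exact hne h0.symm
    · have e1 : h * (v₂⁻¹ * v₁) * h⁻¹ = (h * v₂ * h⁻¹)⁻¹ * (h * v₁ * h⁻¹ * v₁⁻¹) * v₁ := by group
      have e2 : h * (v₂⁻¹ * v₁) * h⁻¹ = v₂⁻¹ * v₁ := by
        rw [e1, heq]; group
      have e3 : u * h * (v₂⁻¹ * v₁) * (u * h)⁻¹ = u * (h * (v₂⁻¹ * v₁) * h⁻¹) * u⁻¹ := by group
      rw [e3, e2, hPcomm u hu _ (Subgroup.mul_mem _ (Subgroup.inv_mem _ hv₂) hv₁)]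
      group
  obtain ⟨K, hKY, hKn, hKcop, hKdec, hKcard⟩ := BT P hP Y hPY hY1
  obtain ⟨k, hk⟩ := P.isPGroup'.exists_card_eq
  have hKord : ∀ r ∈ K, (orderOf r).Coprime p := fun r hr =>
    Nat.Coprime.coprime_dvd_left (Subgroup.orderOf_dvd_natCard K hr) hKcop
  have hKH : K ≤ H := by
    intro r hr
    obtain ⟨u, hu, h, hh, rfl⟩ := hYdec r (hKY hr)
    have hpow : (u * h) ^ (p ^ k) ∈ H := by
      rw [← QuotientGroup.eq_one_iff, QuotientGroup.mk_pow, QuotientGroup.mk_mul,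
        (QuotientGroup.eq_one_iff h).mpr hh, mul_one, ← QuotientGroup.mk_pow]
      have e : u ^ (p ^ k) = 1 := by
        have e' : (⟨u, hu⟩ : (P : Subgroup G)) ^ (p ^ k) = 1 := by
          rw [← hk]; exact pow_card_eq_one'
        exact congrArg Subtype.val e'
      rw [e]
      rfl
    obtain ⟨m, hm⟩ := exists_pow_eq_self_of_coprime
      (Nat.Coprime.pow_left k (hKord _ hr).symm : (p ^ k).Coprime (orderOf (u * h)))
    rw [← hm]
    exact H.pow_mem hpow m
  have hKnG : ∀ g : G, ∀ r ∈ K, g * r * g⁻¹ ∈ K := by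
    intro g r hr
    apply hallUnique P Y K hPY hKn hKdec _ (hHY (hHn.conj_mem r (hKH hr) g))
    have e : orderOf (g * r * g⁻¹) = orderOf r := by
      have := MulEquiv.orderOf_eq (MulAut.conj g) r
      simpa using this
    rw [e]
    exact hKord r hr
  refine ⟨K, hKH, hKnG, hKcop, fun h hh => hKdec h (hHY hh), ?_⟩
  obtain ⟨t, ht⟩ := Subgroup.card_dvd_of_le hKH
  have ht' : t ∣ p ^ k := by
    have h1 : Nat.card H ∣ Nat.card Y := Subgroup.card_dvd_of_le hHY
    rw [ht, ← hKcard, hk] at h1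
    exact (Nat.mul_dvd_mul_iff_left Nat.card_pos).mp h1
  obtain ⟨b, -, rfl⟩ := (Nat.dvd_prime_pow hp).mp ht'
  exact ⟨b, ht⟩

end helpers


/-- Let G be a finite group with a cyclic Sylow p-subgroup and H a normal subgroup such that p divides both the order of H and the index of H. Then H has a normal p-complement and G is p-solvable. -/
theorem result {G : Type*} [Group G] [Finite G] (p : ℕ) [Fact p.Prime]
    (P : Sylow p G) (hP : IsCyclic (P : Subgroup G)) (H : Subgroup G) [H.Normal] (h1 : p ∣ Nat.card H) (h2 : p ∣ H.index) :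
    Cfsg.HasNormalPComplement p H ∧ Cfsg.IsPSolvable p G := by
  have hp : p.Prime := Fact.out
  have hHn : H.Normal := inferInstance
  obtain ⟨K, hKH, hKnG, hKcop, hKdec, b, hb⟩ := part1 p P hP H h2
  have hKnormal : K.Normal := ⟨fun r hr g => hKnG g r hr⟩
  obtain ⟨k, hk⟩ := P.isPGroup'.exists_card_eq
  have hPcomm : ∀ u ∈ (P : Subgroup G), ∀ v ∈ (P : Subgroup G), u * v = v * u := by
    intro u hu v hv
    have h := @IsCyclic.isMulCommutative _ _ hP
    have h' := h.is_comm.comm (⟨u, hu⟩ : (P : Subgroup G)) ⟨v, hv⟩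
    exact congrArg Subtype.val h'
  have hKord : ∀ r ∈ K, (orderOf r).Coprime p := fun r hr =>
    Nat.Coprime.coprime_dvd_left (Subgroup.orderOf_dvd_natCard K hr) hKcop
  have hKP : ∀ z ∈ K, z ∈ (P : Subgroup G) → z = 1 := by
    intro z hzK hzP
    have h3 : orderOf z ∣ p ^ k := hk ▸ Subgroup.orderOf_dvd_natCard _ hzP
    have h4 : orderOf z = 1 :=
      Nat.eq_one_of_dvd_coprimes (Nat.Coprime.pow_right k (hKord z hzK)) dvd_rfl h3
    exact orderOf_eq_one_iff.mp h4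
  constructor
  · obtain ⟨S⟩ := (inferInstance : Nonempty (Sylow p ↥H))
    refine ⟨S, K.subgroupOf H, inferInstance, ?_⟩
    have hcardN : Nat.card (K.subgroupOf H) = Nat.card K :=
      Nat.card_congr (Subgroup.subgroupOfEquivOfLe hKH).toEquiv
    obtain ⟨c, hc⟩ := S.isPGroup'.exists_card_eq
    have hSidx : (S : Subgroup ↥H).index.Coprime p :=
      ((Nat.Prime.coprime_iff_not_dvd hp).mpr S.not_dvd_index).symm
    have hmul : Nat.card (S : Subgroup ↥H) * (S : Subgroup ↥H).index = Nat.card H :=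
      Subgroup.card_mul_index _
    have hpc : p ^ c = p ^ b := by
      apply card_aux p (Nat.card K) (S : Subgroup ↥H).index b c hp hKcop hSidx
      rw [← hc, hmul, hb]
    apply Subgroup.isComplement'_of_coprime
    · rw [hcardN, hc, hpc, hb]
    · rw [hcardN, hc]
      exact Nat.Coprime.pow_right c hKcop
  · obtain ⟨q₀, hq₀P, hq₀H, hq₀1⟩ : ∃ q₀, q₀ ∈ (P : Subgroup G) ∧ q₀ ∈ H ∧ q₀ ≠ 1 := by
      obtain ⟨h, hh⟩ := exists_prime_orderOf_dvd_card' p h1
      have hpg : IsPGroup p (Subgroup.zpowers (h : G)) := by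
        rintro ⟨g, hg⟩
        obtain ⟨i, rfl⟩ := Subgroup.mem_zpowers_iff.mp hg
        refine ⟨1, ?_⟩
        apply Subtype.ext
        simp only [Subgroup.coe_pow, Subgroup.coe_one, pow_one]
        rw [← zpow_natCast, ← zpow_mul, mul_comm, zpow_mul, zpow_natCast]
        have e : (h : G) ^ p = 1 := by
          have e' : h ^ p = 1 := by rw [← hh]; exact pow_orderOf_eq_one h
          exact congrArg Subtype.val e'
        rw [e, one_zpow]
      obtain ⟨Q, hQ⟩ := hpg.exists_le_sylow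
      obtain ⟨g, hg⟩ := MulAction.exists_smul_eq G Q P
      refine ⟨g * h * g⁻¹, ?_, hHn.conj_mem _ h.2 g, ?_⟩
      · have hmem : g * (h : G) * g⁻¹ ∈ ((g • Q : Sylow p G) : Subgroup G) := by
          rw [Sylow.smul_def, Sylow.pointwise_smul_def]
          exact Subgroup.smul_mem_pointwise_smul _ (MulAut.conj g) _ (hQ (Subgroup.mem_zpowers _))
        rw [hg] at hmem
        exact hmem
      · intro h0
        have e : (h : G) = 1 := by
          have : (h : G) = g⁻¹ * (g * h * g⁻¹) * g := by group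
          rw [this, h0]; group
        have e' : h = 1 := Subtype.ext e
        rw [e', orderOf_one] at hh
        exact hp.one_lt.ne' hh.symm
    let C : Subgroup G :=
      { carrier := {g | ∀ h ∈ H, g * h * g⁻¹ * h⁻¹ ∈ K}
        one_mem' := by
          intro h _
          simp [K.one_mem]
        mul_mem' := by
          intro g₁ g₂ hg₁ hg₂ h hh
          have e : g₁ * g₂ * h * (g₁ * g₂)⁻¹ * h⁻¹ =
              (g₁ * (g₂ * h * g₂⁻¹ * h⁻¹) * g₁⁻¹) * (g₁ * h * g₁⁻¹ * h⁻¹) := by group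
          rw [e]
          exact K.mul_mem (hKnG _ _ (hg₂ h hh)) (hg₁ h hh)
        inv_mem' := by
          intro g hg h hh
          have h3 := hg (g⁻¹ * h * g) (by simpa using hHn.conj_mem h hh g⁻¹)
          have e : g⁻¹ * h * g⁻¹⁻¹ * h⁻¹ = (g * (g⁻¹ * h * g) * g⁻¹ * (g⁻¹ * h * g)⁻¹)⁻¹ := by group
          rw [e]
          exact K.inv_mem h3 }
    have hCmem : ∀ g, g ∈ C ↔ ∀ h ∈ H, g * h * g⁻¹ * h⁻¹ ∈ K := fun g => Iff.rfl
    have hCn : ∀ a : G, ∀ g ∈ C, a * g * a⁻¹ ∈ C := by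
      intro a g hg
      rw [hCmem] at hg ⊢
      intro h hh
      have h3 := hg (a⁻¹ * h * a) (by simpa using hHn.conj_mem h hh a⁻¹)
      have e : a * g * a⁻¹ * h * (a * g * a⁻¹)⁻¹ * h⁻¹ =
          a * (g * (a⁻¹ * h * a) * g⁻¹ * (a⁻¹ * h * a)⁻¹) * a⁻¹ := by group
      rw [e]
      exact hKnG _ _ h3
    have hPC : (P : Subgroup G) ≤ C := by
      intro u hu
      rw [hCmem]
      intro h hh
      obtain ⟨r, hr, v, hv, rfl⟩ := hKdec h hh
      have e : u * (r * v) * u⁻¹ * (r * v)⁻¹ = (u * r * u⁻¹) * (u * v * u⁻¹ * v⁻¹) * r⁻¹ := by group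
      rw [e, hPcomm u hu v hv]
      have e2 : v * u * u⁻¹ * v⁻¹ = 1 := by group
      rw [e2, mul_one]
      exact K.mul_mem (hKnG _ _ hr) (K.inv_mem hr)
    have hY2 : ∀ n ∈ C, n ∈ Subgroup.normalizer ((P : Subgroup G) : Set G) →
        ∃ q ∈ (P : Subgroup G), q ≠ 1 ∧ n * q * n⁻¹ = q := by
      intro n hnC hnN
      refine ⟨q₀, hq₀P, hq₀1, ?_⟩
      have h3 : n * q₀ * n⁻¹ * q₀⁻¹ ∈ K := hnC q₀ hq₀H
      have h4 : n * q₀ * n⁻¹ * q₀⁻¹ ∈ (P : Subgroup G) :=
        Subgroup.mul_mem _ ((Subgroup.mem_normalizer_iff.mp hnN q₀).mp hq₀P)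
          (Subgroup.inv_mem _ hq₀P)
      have h5 := hKP _ h3 h4
      exact mul_inv_eq_one.mp h5
    obtain ⟨R, hRC, hRn, hRcop, hRdec, hRcard⟩ := BT P hP C hPC hY2
    have hRord : ∀ r ∈ R, (orderOf r).Coprime p := fun r hr =>
      Nat.Coprime.coprime_dvd_left (Subgroup.orderOf_dvd_natCard R hr) hRcop
    have hRnG : ∀ g : G, ∀ r ∈ R, g * r * g⁻¹ ∈ R := by
      intro g r hr
      apply hallUnique P C R hPC hRn hRdec _ (hCn g r (hRC hr))
      have e : orderOf (g * r * g⁻¹) = orderOf r := by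
        have := MulEquiv.orderOf_eq (MulAut.conj g) r
        simpa using this
      rw [e]
      exact hRord r hr
    have hRnormal : R.Normal := ⟨fun r hr g => hRnG g r hr⟩
    have hCnormal : C.Normal := ⟨fun r hr g => hCn g r hr⟩
    refine ⟨3, ![⊥, R, C, ⊤], rfl, rfl, ?_, ?_, ?_⟩
    · apply Fin.monotone_iff_le_succ.mpr
      intro i
      fin_cases i
      · exact bot_le
      · exact hRC
      · exact le_top
    · intro i
      fin_cases i
      · exact Subgroup.normal_bot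
      · exact hRnormal
      · exact hCnormal
      · exact Subgroup.normal_top
    · intro i
      fin_cases i
      · right
        show ((⊥ : Subgroup G).relIndex R).Coprime p
        rw [Subgroup.relIndex_bot_left]
        exact hRcop
      · left
        refine ⟨k, ?_⟩
        show R.relIndex C = p ^ k
        have h3 : Nat.card (R.subgroupOf C) * (R.subgroupOf C).index = Nat.card C :=
          Subgroup.card_mul_index _
        have h4 : Nat.card (R.subgroupOf C) = Nat.card R :=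
          Nat.card_congr (Subgroup.subgroupOfEquivOfLe hRC).toEquiv
        rw [h4, ← hRcard, hk] at h3
        exact Nat.eq_of_mul_eq_mul_left Nat.card_pos h3
      · right
        show (C.relIndex ⊤).Coprime p
        rw [Subgroup.relIndex_top_right]
        have h3 : C.index ∣ (P : Subgroup G).index := Subgroup.index_dvd_of_le hPC
        exact Nat.Coprime.coprime_dvd_left h3
          ((Nat.Prime.coprime_iff_not_dvd hp).mpr P.not_dvd_index).symm

end Cfsg.Agent.S4145
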