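import Cfsg.Statements.S4152
import Cfsg.Agent.Lib.Helper69.PNil

set_option autoImplicit false
open Cfsg

namespace Cfsg.Agent.S4152

open Cfsg.Agent.Lib.Helper69

variable {H : Type*} [Group H]

/-- `π`-element. -/
def IsPi (π : Set ℕ) (a : H) : Prop := ∀ q : ℕ, q.Prime → q ∣ orderOf a → q ∈ π

/-- `π'`-element. -/
def IsPi' (π : Set ℕ) (a : H) : Prop := ∀ q : ℕ, q.Prime → q ∣ orderOf a → q ∉ π

theorem isPi_iff_compl (π : Set ℕ) (a : H) : IsPi' π a ↔ IsPi πᶜ a := Iff.rfl

theorem isPi_one (π : Set ℕ) : IsPi π (1 : H) := by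
  intro q hq h
  rw [orderOf_one] at h
  exact absurd (Nat.dvd_one.1 h) hq.ne_one

theorem isPi_of_orderOf_dvd {π : Set ℕ} {a : H} {K : Type*} [Group K] {b : K}
    (h : orderOf b ∣ orderOf a) (ha : IsPi π a) : IsPi π b :=
  fun q hq hqb => ha q hq (hqb.trans h)

theorem isPi_mul {π : Set ℕ} {a b : H} (hab : Commute a b) (ha : IsPi π a) (hb : IsPi π b) :
    IsPi π (a * b) := by
  intro q hq h
  have h2 : q ∣ orderOf a * orderOf b :=
    (h.trans hab.orderOf_mul_dvd_lcm).trans (Nat.lcm_dvd_mul _ _)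
  rcases (Nat.Prime.dvd_mul hq).1 h2 with h3 | h3
  · exact ha q hq h3
  · exact hb q hq h3

theorem isPi_inv {π : Set ℕ} {a : H} (ha : IsPi π a) : IsPi π a⁻¹ := by
  intro q hq h
  rw [orderOf_inv] at h
  exact ha q hq h

theorem isPi_of_mem_zpowers {π : Set ℕ} {a x : H} (h : a ∈ Subgroup.zpowers x) (hx : IsPi π x) :
    IsPi π a :=
  isPi_of_orderOf_dvd (orderOf_dvd_of_mem_zpowers h) hx

theorem eq_one_of_isPi {π : Set ℕ} {a : H} (h1 : IsPi π a) (h2 : IsPi' π a) : a = 1 := by
  by_contra hne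
  have h3 : orderOf a ≠ 1 := fun h => hne (orderOf_eq_one_iff.1 h)
  obtain ⟨q, hq, hqa⟩ := Nat.exists_prime_and_dvd h3
  exact h2 q hq hqa (h1 q hq hqa)

theorem commute_of_mem_zpowers {x a b : H} (ha : a ∈ Subgroup.zpowers x)
    (hb : b ∈ Subgroup.zpowers x) : Commute a b := by
  obtain ⟨i, rfl⟩ := Subgroup.mem_zpowers_iff.1 ha
  obtain ⟨j, rfl⟩ := Subgroup.mem_zpowers_iff.1 hb
  exact ((Commute.refl x).zpow_left i).zpow_right j

/-- Existence of the `π`-decomposition. -/
theorem exists_decomp [Finite H] (π : Set ℕ) (x : H) :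
    ∃ a u : H, a ∈ Subgroup.zpowers x ∧ u ∈ Subgroup.zpowers x ∧ IsPi π a ∧ IsPi' π u ∧
      a * u = x := by
  classical
  suffices hs : ∀ n : ℕ, ∀ x : H, orderOf x = n →
      ∃ a u : H, a ∈ Subgroup.zpowers x ∧ u ∈ Subgroup.zpowers x ∧ IsPi π a ∧ IsPi' π u ∧
        a * u = x from hs _ x rfl
  intro n
  induction n using Nat.strong_induction_on with
  | _ n ih =>
    intro x hx
    by_cases h1 : orderOf x = 1
    · have hx1 : x = 1 := orderOf_eq_one_iff.1 h1
      refine ⟨1, 1, Subgroup.one_mem _, Subgroup.one_mem _, isPi_one π, isPi_one πᶜ, ?_⟩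
      rw [hx1, one_mul]
    · obtain ⟨p, hp, hpx⟩ := Nat.exists_prime_and_dvd h1
      have : Fact p.Prime := ⟨hp⟩
      obtain ⟨m, k, ⟨e, he⟩, hcop, hmk⟩ := PNil.exists_pow_decomp p x
      have hy_dvd : orderOf (x ^ k) ∣ orderOf x := orderOf_pow_dvd k
      have hy_ne : orderOf (x ^ k) ≠ orderOf x := by
        intro h
        rw [h] at hcop
        exact hp.ne_one (hcop.symm.eq_one_of_dvd hpx)
      have hy_lt : orderOf (x ^ k) < n := by
        rw [← hx]
        exact lt_of_le_of_ne (Nat.le_of_dvd (orderOf_pos x) hy_dvd) hy_ne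
      obtain ⟨a', u', ha', hu', hpa, hpu, hau⟩ := ih _ hy_lt (x ^ k) rfl
      have hzle : Subgroup.zpowers (x ^ k) ≤ Subgroup.zpowers x :=
        Subgroup.zpowers_le.2 (Subgroup.pow_mem _ (Subgroup.mem_zpowers x) k)
      have hxm : x ^ m ∈ Subgroup.zpowers x := Subgroup.pow_mem _ (Subgroup.mem_zpowers x) m
      have hpm : ∀ q : ℕ, q.Prime → q ∣ orderOf (x ^ m) → q = p := by
        intro q hq hqd
        rw [he] at hqd
        exact (Nat.prime_dvd_prime_iff_eq hq hp).1 (hq.dvd_of_dvd_pow hqd)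
      by_cases hpπ : p ∈ π
      · refine ⟨x ^ m * a', u', Subgroup.mul_mem _ hxm (hzle ha'), hzle hu', ?_, hpu, ?_⟩
        · apply isPi_mul (commute_of_mem_zpowers hxm (hzle ha')) _ hpa
          intro q hq hqd
          rw [hpm q hq hqd]
          exact hpπ
        · rw [mul_assoc, hau, hmk]
      · refine ⟨a', x ^ m * u', hzle ha', Subgroup.mul_mem _ hxm (hzle hu'), hpa, ?_, ?_⟩
        · apply isPi_mul (π := πᶜ) (commute_of_mem_zpowers hxm (hzle hu')) _ hpu
          intro q hq hqd
          rw [hpm q hq hqd]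
          exact hpπ
        · rw [← mul_assoc, (commute_of_mem_zpowers (hzle ha') hxm).eq, mul_assoc, hau, hmk]

theorem coprime_of_isPi {π : Set ℕ} {a u : H} (ha : IsPi π a) (hu : IsPi' π u) :
    (orderOf a).Coprime (orderOf u) :=
  Nat.coprime_of_dvd fun q hq h1 h2 => hu q hq h2 (ha q hq h1)

/-- For commuting elements of coprime orders, the first is a power of the product. -/
theorem exists_pow_mul_eq {a u : H} (hau : Commute a u)
    (hcop : (orderOf a).Coprime (orderOf u)) : ∃ k : ℕ, (a * u) ^ k = a := by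
  obtain ⟨k, hk1, hk2⟩ := Nat.chineseRemainder hcop 1 0
  refine ⟨k, ?_⟩
  rw [hau.mul_pow]
  have h1 : a ^ k = a := by
    conv_rhs => rw [← pow_one a]
    exact pow_eq_pow_iff_modEq.2 hk1
  have h2 : u ^ k = 1 := orderOf_dvd_iff_pow_eq_one.1 ((Nat.modEq_zero_iff_dvd).1 hk2)
  rw [h1, h2, mul_one]

/-- Uniqueness of the `π`-decomposition. -/
theorem decomp_unique {π : Set ℕ} {a u a' u' : H} (ha : IsPi π a) (hu : IsPi' π u)
    (ha' : IsPi π a') (hu' : IsPi' π u') (hau : Commute a u) (hau' : Commute a' u')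
    (h : a * u = a' * u') : a = a' ∧ u = u' := by
  obtain ⟨k, hk⟩ := exists_pow_mul_eq hau (coprime_of_isPi ha hu)
  obtain ⟨l, hl⟩ := exists_pow_mul_eq hau.symm (coprime_of_isPi ha hu).symm
  rw [← hau.eq] at hl
  -- a' and u' commute with a * u
  have c1 : Commute a' (a * u) := by rw [h]; exact (Commute.refl a').mul_right hau'
  have c2 : Commute u' (a * u) := by rw [h]; exact hau'.symm.mul_right (Commute.refl u')
  have c1a : Commute a' a := by rw [← hk]; exact c1.pow_right k
  have c2u : Commute u' u := by rw [← hl]; exact c2.pow_right l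
  have e : a'⁻¹ * a = u' * u⁻¹ := by
    have : a'⁻¹ * (a * u) * u⁻¹ = a'⁻¹ * (a' * u') * u⁻¹ := by rw [h]
    simpa [mul_assoc] using this
  have p1 : IsPi π (a'⁻¹ * a) := isPi_mul c1a.inv_left (isPi_inv ha') ha
  have p2 : IsPi' π (a'⁻¹ * a) := by
    rw [e]
    exact isPi_mul (π := πᶜ) c2u.inv_right hu' (isPi_inv (π := πᶜ) hu)
  have e1 : a'⁻¹ * a = 1 := eq_one_of_isPi p1 p2
  have e2 : a = a' := by
    have := inv_mul_eq_one.1 e1
    exact this.symm
  refine ⟨e2, ?_⟩
  subst e2
  exact mul_left_cancel h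

theorem card_centralizer_mul [Fintype H] [DecidableEq (ConjClasses H)] (a : H) :
    Nat.card (Subgroup.centralizer ({a} : Set H)) *
      (Finset.univ.filter (fun a' : H => ConjClasses.mk a' = ConjClasses.mk a)).card =
        Nat.card H := by
  classical
  have h := MulAction.card_orbit_mul_card_stabilizer_eq_card_group (ConjAct H) a
  rw [Subgroup.nat_card_centralizer_nat_card_stabilizer, Nat.card_eq_fintype_card, mul_comm]
  have h2 : Fintype.card (MulAction.orbit (ConjAct H) a) =
      (Finset.univ.filter (fun a' : H => ConjClasses.mk a' = ConjClasses.mk a)).card := by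
    rw [← Set.toFinset_card]
    congr 1
    ext x
    simp [ConjAct.orbit_eq_carrier_conjClasses, ConjClasses.mem_carrier_iff_mk_eq]
  rw [← h2, h, Nat.card_eq_fintype_card]
  rfl

theorem burnside [Finite H] (Q : ConjClasses H → Prop) :
    Nat.card {C : ConjClasses H // Q C} * Nat.card H =
      Nat.card {p : H × H // Q (ConjClasses.mk p.1) ∧ Commute p.1 p.2} := by
  classical
  have := Fintype.ofFinite H
  have e1 : Nat.card {p : H × H // Q (ConjClasses.mk p.1) ∧ Commute p.1 p.2} =
      ∑ a : H, if Q (ConjClasses.mk a) then Nat.card (Subgroup.centralizer ({a} : Set H))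
        else 0 := by
    rw [Nat.card_congr (Equiv.subtypeProdEquivSigmaSubtype
      (fun a b : H => Q (ConjClasses.mk a) ∧ Commute a b)), Nat.card_sigma]
    apply Finset.sum_congr rfl
    intro a _
    split_ifs with hQ
    · apply Nat.card_congr
      exact
        { toFun := fun b => ⟨b.1, Subgroup.mem_centralizer_iff.2 (fun h hh => by
            rw [Set.mem_singleton_iff.1 hh]; exact b.2.2.eq)⟩
          invFun := fun c => ⟨c.1, hQ, Subgroup.mem_centralizer_iff.1 c.2 a rfl⟩
          left_inv := fun b => rfl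
          right_inv := fun c => rfl }
    · rw [Nat.card_eq_zero]
      left
      exact ⟨fun b => hQ b.2.1⟩
  have e2 : ∀ C : ConjClasses H,
      (∑ a ∈ Finset.univ.filter (fun a : H => ConjClasses.mk a = C),
        if Q (ConjClasses.mk a) then Nat.card (Subgroup.centralizer ({a} : Set H)) else 0) =
        if Q C then Nat.card H else 0 := by
    intro C
    obtain ⟨a₀, rfl⟩ := ConjClasses.exists_rep C
    have e3 : (∑ a ∈ Finset.univ.filter (fun a : H => ConjClasses.mk a = ConjClasses.mk a₀),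
        if Q (ConjClasses.mk a) then Nat.card (Subgroup.centralizer ({a} : Set H)) else 0) =
        ∑ a ∈ Finset.univ.filter (fun a : H => ConjClasses.mk a = ConjClasses.mk a₀),
        if Q (ConjClasses.mk a₀) then Nat.card (Subgroup.centralizer ({a} : Set H)) else 0 := by
      apply Finset.sum_congr rfl
      intro a ha
      rw [(Finset.mem_filter.1 ha).2]
    rw [e3]
    split_ifs with hQ
    · set F := Finset.univ.filter (fun a : H => ConjClasses.mk a = ConjClasses.mk a₀) with hF
      have hFpos : 0 < F.card :=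
        Finset.card_pos.2 ⟨a₀, Finset.mem_filter.2 ⟨Finset.mem_univ _, rfl⟩⟩
      have e4 : (∑ a ∈ F, Nat.card (Subgroup.centralizer ({a} : Set H))) * F.card =
          Nat.card H * F.card := by
        rw [Finset.sum_mul]
        have : ∀ a ∈ F, Nat.card (Subgroup.centralizer ({a} : Set H)) * F.card = Nat.card H := by
          intro a ha
          have h5 := card_centralizer_mul a
          have h6 : (Finset.univ.filter (fun a' : H => ConjClasses.mk a' = ConjClasses.mk a)) = F := by
            rw [hF, (Finset.mem_filter.1 ha).2]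
          rw [h6] at h5
          exact h5
        rw [Finset.sum_congr rfl this, Finset.sum_const, smul_eq_mul, mul_comm]
      exact Nat.eq_of_mul_eq_mul_right hFpos e4
    · simp
  rw [e1, ← Finset.sum_fiberwise (Finset.univ) (fun a : H => ConjClasses.mk a)]
  rw [Finset.sum_congr rfl (fun C _ => e2 C)]
  rw [Finset.sum_ite, Finset.sum_const, Finset.sum_const_zero, add_zero, smul_eq_mul]
  congr 1
  rw [Nat.card_eq_fintype_card, Fintype.card_subtype]

theorem commute_of_mem_zpowers_right {a n m : H} (h : Commute a n) (hm : m ∈ Subgroup.zpowers n) :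
    Commute a m := by
  obtain ⟨i, rfl⟩ := Subgroup.mem_zpowers_iff.1 hm
  exact h.zpow_right i

section Main

variable {G : Type*} [Group G] [Finite G] (N : Subgroup G) [N.Normal] (π : Set ℕ)

/-- chosen `π`-part -/
noncomputable def piPart (x : G) : G := (exists_decomp π x).choose

/-- chosen `π'`-part -/
noncomputable def piPart' (x : G) : G := (exists_decomp π x).choose_spec.choose

theorem piPart_spec (x : G) : piPart π x ∈ Subgroup.zpowers x ∧ piPart' π x ∈ Subgroup.zpowers x ∧
    IsPi π (piPart π x) ∧ IsPi' π (piPart' π x) ∧ piPart π x * piPart' π x = x :=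
  (exists_decomp π x).choose_spec.choose_spec

open Classical in
/-- a chosen element of the coset `c` commuting with `a` -/
noncomputable def sel1 (a : G) (c : G ⧸ N) : G :=
  if h : ∃ b : G, (b : G ⧸ N) = c ∧ Commute a b then h.choose else 1

theorem sel1_spec {a b : G} (hab : Commute a b) :
    ((sel1 N a (b : G ⧸ N) : G) : G ⧸ N) = (b : G ⧸ N) ∧ Commute a (sel1 N a (b : G ⧸ N)) := by
  have h : ∃ b' : G, (b' : G ⧸ N) = (b : G ⧸ N) ∧ Commute a b' := ⟨b, rfl, hab⟩
  unfold sel1
  rw [dif_pos h]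
  exact h.choose_spec

/-- the raw components of the injection -/
noncomputable def nn (a b : G) : G := (sel1 N a (b : G ⧸ N))⁻¹ * b

noncomputable def mm (a b : G) : G := piPart π (nn N a b)

noncomputable def xx (a b : G) : G := a * piPart' π (nn N a b)

noncomputable def yy (a b : G) : G := (sel1 N (mm N π a b) ((xx N π a b : G) : G ⧸ N))⁻¹ * xx N π a b

theorem nn_mem {a b : G} (hab : Commute a b) : nn N a b ∈ N :=
  (QuotientGroup.eq).1 (sel1_spec N hab).1

theorem nn_comm {a b : G} (hab : Commute a b) : Commute a (nn N a b) :=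
  (sel1_spec N hab).2.inv_right.mul_right hab

theorem mm_mem {a b : G} (hab : Commute a b) : mm N π a b ∈ N :=
  (Subgroup.zpowers_le.2 (nn_mem N hab)) (piPart_spec π _).1

theorem pp_mem {a b : G} (hab : Commute a b) : piPart' π (nn N a b) ∈ N :=
  (Subgroup.zpowers_le.2 (nn_mem N hab)) (piPart_spec π _).2.1

theorem mm_xx_comm {a b : G} (hab : Commute a b) : Commute (mm N π a b) (xx N π a b) := by
  have h1 : Commute a (mm N π a b) :=
    commute_of_mem_zpowers_right (nn_comm N hab) (piPart_spec π _).1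
  have h2 : Commute (mm N π a b) (piPart' π (nn N a b)) :=
    commute_of_mem_zpowers (piPart_spec π _).1 (piPart_spec π _).2.1
  exact h1.symm.mul_right h2

theorem xx_coe {a b : G} (hab : Commute a b) : ((xx N π a b : G) : G ⧸ N) = (a : G ⧸ N) := by
  unfold xx
  rw [QuotientGroup.mk_mul, (QuotientGroup.eq_one_iff _).2 (pp_mem N π hab), mul_one]

theorem yy_mem {a b : G} (hab : Commute a b) : yy N π a b ∈ N :=
  (QuotientGroup.eq).1 (sel1_spec N (mm_xx_comm N π hab)).1

theorem mm_yy_comm {a b : G} (hab : Commute a b) : Commute (mm N π a b) (yy N π a b) :=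
  (sel1_spec N (mm_xx_comm N π hab)).2.inv_right.mul_right (mm_xx_comm N π hab)

theorem mm_isPi (a b : G) : IsPi π (mm N π a b) := (piPart_spec π _).2.2.1

theorem raw_inj {a b a' b' : G} (ha : IsPi π a) (hab : Commute a b) (ha' : IsPi π a')
    (hab' : Commute a' b') (h1 : (a : G ⧸ N) = (a' : G ⧸ N)) (h2 : (b : G ⧸ N) = (b' : G ⧸ N))
    (h3 : mm N π a b = mm N π a' b') (h4 : yy N π a b = yy N π a' b') : a = a' ∧ b = b' := by
  have e1 : xx N π a b = xx N π a' b' := by
    unfold yy at h4
    rw [xx_coe N π hab, xx_coe N π hab', h3, h1] at h4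
    exact mul_left_cancel h4
  have c1 : Commute a (piPart' π (nn N a b)) :=
    commute_of_mem_zpowers_right (nn_comm N hab) (piPart_spec π _).2.1
  have c2 : Commute a' (piPart' π (nn N a' b')) :=
    commute_of_mem_zpowers_right (nn_comm N hab') (piPart_spec π _).2.1
  obtain ⟨e2, e3⟩ := decomp_unique ha (piPart_spec π _).2.2.2.1 ha' (piPart_spec π _).2.2.2.1
    c1 c2 e1
  refine ⟨e2, ?_⟩
  have e4 : nn N a b = nn N a' b' := by
    rw [← (piPart_spec π (nn N a b)).2.2.2.2, ← (piPart_spec π (nn N a' b')).2.2.2.2, e3]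
    change mm N π a b * _ = mm N π a' b' * _
    rw [h3]
  unfold nn at e4
  rw [e2, h2] at e4
  exact mul_left_cancel e4

/-- commuting pairs with `π`-element first coordinate -/
abbrev DD (π : Set ℕ) (K : Type*) [Group K] : Type _ := {p : K × K // IsPi π p.1 ∧ Commute p.1 p.2}

noncomputable def Phi (p : DD π G) : DD π (G ⧸ N) × DD π N :=
  (⟨((p.1.1 : G ⧸ N), (p.1.2 : G ⧸ N)),
      isPi_of_orderOf_dvd (orderOf_map_dvd (QuotientGroup.mk' N) p.1.1) p.2.1,
      p.2.2.map (QuotientGroup.mk' N)⟩,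
   ⟨(⟨mm N π p.1.1 p.1.2, mm_mem N π p.2.2⟩, ⟨yy N π p.1.1 p.1.2, yy_mem N π p.2.2⟩),
      isPi_of_orderOf_dvd (Subgroup.orderOf_mk _ _).dvd (mm_isPi N π p.1.1 p.1.2),
      Subtype.ext (mm_yy_comm N π p.2.2).eq⟩)

theorem Phi_injective : Function.Injective (Phi N π) := by
  rintro ⟨⟨a, b⟩, ha, hab⟩ ⟨⟨a', b'⟩, ha', hab'⟩ h
  simp only [Phi, Prod.mk.injEq, Subtype.mk.injEq] at h
  obtain ⟨⟨h1, h2⟩, h3, h4⟩ := h
  obtain ⟨e1, e2⟩ := raw_inj N π ha hab ha' hab' h1 h2 h3 h4
  subst e1 e2
  rfl

theorem card_DD_le : Nat.card (DD π G) ≤ Nat.card (DD π (G ⧸ N)) * Nat.card (DD π N) := by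
  rw [← Nat.card_prod]
  exact Nat.card_le_card_of_injective _ (Phi_injective N π)

end Main


theorem pred_iff {K : Type*} [Group K] (π : Set ℕ) (a : K) :
    (∀ q : ℕ, q.Prime → (∃ g : K, ConjClasses.mk g = ConjClasses.mk a ∧ q ∣ orderOf g) → q ∈ π) ↔
      IsPi π a := by
  constructor
  · intro h q hq hqa
    exact h q hq ⟨a, rfl, hqa⟩
  · rintro h q hq ⟨g, hg, hqg⟩
    have h1 : IsConj g a := ConjClasses.mk_eq_mk_iff_isConj.1 hg
    obtain ⟨c, hc⟩ := isConj_iff.1 h1
    have h2 : orderOf a = orderOf g := by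
      rw [← hc]
      exact MulEquiv.orderOf_eq (MulAut.conj c) g
    rw [← h2] at hqg
    exact h q hq hqg

theorem card_eq (π : Set ℕ) (K : Type*) [Group K] [Finite K] :
    Nat.card {C : ConjClasses K // ∀ q : ℕ, q.Prime →
      (∃ g : K, ConjClasses.mk g = C ∧ q ∣ orderOf g) → q ∈ π} * Nat.card K =
      Nat.card (DD π K) := by
  rw [burnside]
  exact Nat.card_congr (Equiv.subtypeEquivRight (fun p => by rw [pred_iff]))

/-- Let G be a finite group, N a normal subgroup and π a set of primes. Then the number of conjugacy classes of π-elements of G (elements whose order is divisible only by primes in π) is at most the number of conjugacy classes of π-elements of N (under conjugation by N) times the number of conjugacy classes of π-elements of G/N. -/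
theorem result {G : Type*} [Group G] [Finite G] (N : Subgroup G) [N.Normal] (π : Set ℕ) :
    Nat.card {C : ConjClasses G // ∀ q : ℕ, q.Prime → (∃ g : G, ConjClasses.mk g = C ∧ q ∣ orderOf g) → q ∈ π} ≤ Nat.card {C : ConjClasses N // ∀ q : ℕ, q.Prime → (∃ g : N, ConjClasses.mk g = C ∧ q ∣ orderOf g) → q ∈ π} * Nat.card {C : ConjClasses (G ⧸ N) // ∀ q : ℕ, q.Prime → (∃ g : (G ⧸ N), ConjClasses.mk g = C ∧ q ∣ orderOf g) → q ∈ π} := by
  have hG := card_eq π G
  have hN := card_eq π N
  have hQ := card_eq π (G ⧸ N)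
  have hle := card_DD_le N π
  have hcard : Nat.card G = Nat.card (G ⧸ N) * Nat.card N :=
    Subgroup.card_eq_card_quotient_mul_card_subgroup N
  have hpos : 0 < Nat.card G := Nat.card_pos
  refine Nat.le_of_mul_le_mul_right ?_ hpos
  rw [hG]
  refine hle.trans (le_of_eq ?_)
  rw [← hQ, ← hN, hcard]
  ring

end Cfsg.Agent.S4152
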