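import Cfsg.Statements.S4153
import Cfsg.Agent.Lib.Helper69.PElem
-- import your own Cfsg.Agent.* helpers here

set_option autoImplicit false
open Cfsg

namespace Cfsg.Agent.S4153

open Cfsg.Agent.Lib.Helper69.PElem

theorem lift_data {G : Type*} [Group G] [Finite G] (p : ℕ) [hp : Fact p.Prime] (N : Subgroup G)
    [N.Normal] (u : G ⧸ N) (hu : ∃ k : ℕ, orderOf u = p ^ k) :
    ∃ (x : G) (P : Sylow p G), (x : G ⧸ N) = u ∧ x ∈ (P : Subgroup G) := by
  obtain ⟨x, hx, k, hk⟩ := exists_pElement_lift N u hu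
  have hpg : IsPGroup p (Subgroup.zpowers x) := by
    rw [IsPGroup.iff_card, Nat.card_zpowers]
    exact ⟨k, hk⟩
  obtain ⟨P, hP⟩ := hpg.exists_le_sylow
  exact ⟨x, P, hx, hP (Subgroup.mem_zpowers x)⟩

theorem pElem_of_mem_sylow {G : Type*} [Group G] [Finite G] (p : ℕ) [hp : Fact p.Prime]
    (P : Sylow p G) (x : G) (hx : x ∈ (P : Subgroup G)) : ∃ k : ℕ, orderOf x = p ^ k := by
  obtain ⟨k, hk⟩ := P.isPGroup' ⟨x, hx⟩
  have h1 : x ^ p ^ k = 1 := by
    have := congrArg Subtype.val hk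
    simpa using this
  exact ((Nat.dvd_prime_pow hp.out).1 (orderOf_dvd_of_pow_eq_one h1)).imp fun _ h => h.2

theorem ineq {G : Type*} [Group G] [Finite G] (p : ℕ) [hp : Fact p.Prime] (N : Subgroup G)
    [N.Normal] :
    Nat.card {g : (G ⧸ N) // ∃ k : ℕ, orderOf g = p ^ k} * p ^ (Nat.card N).factorization p ≤
      Nat.card {g : G // ∃ k : ℕ, orderOf g = p ^ k} := by
  classical
  have hw := fun u : {g : (G ⧸ N) // ∃ k : ℕ, orderOf g = p ^ k} => lift_data p N u.1 u.2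
  choose x P hx hxP using hw
  have hcard := fun u => card_sylow_inf_normal (P u) N
  let e := fun u => Finite.equivFinOfCardEq (hcard u)
  rw [← Nat.card_fin (p ^ (Nat.card N).factorization p), ← Nat.card_prod]
  refine Nat.card_le_card_of_injective
    (fun ui : {g : (G ⧸ N) // ∃ k : ℕ, orderOf g = p ^ k} ×
        Fin (p ^ (Nat.card N).factorization p) =>
      (⟨x ui.1 * ((e ui.1).symm ui.2 : G), ?_⟩ : {g : G // ∃ k : ℕ, orderOf g = p ^ k})) ?_
  · apply pElem_of_mem_sylow p (P ui.1)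
    exact mul_mem (hxP ui.1) ((e ui.1).symm ui.2).2.1
  · rintro ⟨u1, i1⟩ ⟨u2, i2⟩ h
    simp only [Subtype.mk.injEq] at h
    have h1 : ((x u1 * ((e u1).symm i1 : G) : G) : G ⧸ N) = u1.1 := by
      rw [QuotientGroup.mk_mul, hx u1, (QuotientGroup.eq_one_iff _).2 ((e u1).symm i1).2.2, mul_one]
    have h2 : ((x u2 * ((e u2).symm i2 : G) : G) : G ⧸ N) = u2.1 := by
      rw [QuotientGroup.mk_mul, hx u2, (QuotientGroup.eq_one_iff _).2 ((e u2).symm i2).2.2, mul_one]
    have hu : u1 = u2 := by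
      apply Subtype.ext
      rw [← h1, ← h2, h]
    subst hu
    have h3 : (e u1).symm i1 = (e u1).symm i2 := Subtype.ext (mul_left_cancel h)
    rw [(e u1).symm.injective h3]

theorem ineq2 {G : Type*} [Group G] [Finite G] (p : ℕ) [hp : Fact p.Prime] (N : Subgroup G)
    [N.Normal] (hN : N ≤ Subgroup.center G) :
    Nat.card {g : G // ∃ k : ℕ, orderOf g = p ^ k} ≤
      Nat.card {g : (G ⧸ N) // ∃ k : ℕ, orderOf g = p ^ k} * p ^ (Nat.card N).factorization p := by
  classical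
  have hw := fun u : {g : (G ⧸ N) // ∃ k : ℕ, orderOf g = p ^ k} => lift_data p N u.1 u.2
  choose x P hx hxP using hw
  obtain ⟨P₀⟩ : Nonempty (Sylow p G) := inferInstance
  rw [← card_sylow_inf_normal P₀ N, ← Nat.card_prod]
  have hq : ∀ g : {g : G // ∃ k : ℕ, orderOf g = p ^ k}, ∃ k : ℕ, orderOf (g.1 : G ⧸ N) = p ^ k := by
    rintro ⟨g, k, hk⟩
    have h1 : (g : G ⧸ N) ^ p ^ k = 1 := by
      rw [← QuotientGroup.mk_pow, ← hk, pow_orderOf_eq_one]; rfl
    exact ((Nat.dvd_prime_pow hp.out).1 (orderOf_dvd_of_pow_eq_one h1)).imp fun _ h => h.2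
  refine Nat.card_le_card_of_injective
    (fun g : {g : G // ∃ k : ℕ, orderOf g = p ^ k} =>
      ((⟨(g.1 : G ⧸ N), hq g⟩, ⟨(x ⟨(g.1 : G ⧸ N), hq g⟩)⁻¹ * g.1, ?_⟩) :
        {g : (G ⧸ N) // ∃ k : ℕ, orderOf g = p ^ k} × ((P₀ : Subgroup G) ⊓ N : Subgroup G))) ?_
  · have hmemN : (x ⟨(g.1 : G ⧸ N), hq g⟩)⁻¹ * g.1 ∈ N := by
      rw [← QuotientGroup.eq]
      exact hx ⟨(g.1 : G ⧸ N), hq g⟩
    refine ⟨?_, hmemN⟩
    -- a central p-element lies in every Sylow p-subgroup
    have hcen := hN hmemN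
    set n := (x ⟨(g.1 : G ⧸ N), hq g⟩)⁻¹ * g.1 with hn
    obtain ⟨k1, hk1⟩ := pElem_of_mem_sylow p _ _ (hxP ⟨(g.1 : G ⧸ N), hq g⟩)
    obtain ⟨k2, hk2⟩ := g.2
    have hcomm : Commute ((x ⟨(g.1 : G ⧸ N), hq g⟩)⁻¹) g.1 := by
      have h1 : g.1 = x ⟨(g.1 : G ⧸ N), hq g⟩ * n := by rw [hn]; group
      have h2 : Commute (x ⟨(g.1 : G ⧸ N), hq g⟩) g.1 := by
        have h3 : Commute (x ⟨(g.1 : G ⧸ N), hq g⟩) n := Subgroup.mem_center_iff.1 hcen _
        have h4 : Commute (x ⟨(g.1 : G ⧸ N), hq g⟩) (x ⟨(g.1 : G ⧸ N), hq g⟩ * n) :=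
          (Commute.refl _).mul_right h3
        rw [← h1] at h4
        exact h4
      exact h2.inv_left
    have hpow : n ^ (p ^ (k1 + k2)) = 1 := by
      rw [hn, hcomm.mul_pow, inv_pow, pow_add, pow_mul, ← hk1, pow_orderOf_eq_one, one_pow,
        inv_one, one_mul, mul_comm, pow_mul, ← hk2, pow_orderOf_eq_one, one_pow]
    have hz : IsPGroup p (Subgroup.zpowers n) := by
      rw [IsPGroup.iff_card, Nat.card_zpowers]
      exact ((Nat.dvd_prime_pow hp.out).1 (orderOf_dvd_of_pow_eq_one hpow)).imp fun _ h => h.2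
    have hnorm : (Subgroup.zpowers n).Normal := by
      constructor
      intro a ha b
      have ha' : a ∈ Subgroup.center G := by
        have : Subgroup.zpowers n ≤ Subgroup.center G := by
          rw [Subgroup.zpowers_le]; exact hcen
        exact this ha
      have : b * a * b⁻¹ = a := by
        rw [Subgroup.mem_center_iff.1 ha' b]; group
      rw [this]; exact ha
    exact hz.le_sylow_of_normal P₀ (Subgroup.mem_zpowers n)
  · rintro ⟨g1, hg1⟩ ⟨g2, hg2⟩ h
    simp only [Prod.mk.injEq, Subtype.mk.injEq] at h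
    obtain ⟨h1, h2⟩ := h
    apply Subtype.ext
    simp only
    have h3 : (⟨(g1 : G ⧸ N), hq ⟨g1, hg1⟩⟩ : {g : (G ⧸ N) // ∃ k : ℕ, orderOf g = p ^ k}) =
        ⟨(g2 : G ⧸ N), hq ⟨g2, hg2⟩⟩ := Subtype.ext h1
    have h2' := congrArg Subtype.val h2
    simp only at h2'
    have hx12 := congrArg x h3
    rw [hx12] at h2'
    exact mul_left_cancel h2'

/-- Let G be a finite group, p a prime, N a normal subgroup, P a Sylow p-subgroup of G and P̄ a Sylow p-subgroup of G/N. Count the elements of p-power order, the identity included. Then (number of such elements of G/N)/#P̄ ≤ (number of such elements of G)/#P, stated as a cross-multiplied inequality, with equality when N is central. -/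
theorem result {G : Type*} [Group G] [Finite G] (p : ℕ) [Fact p.Prime] (N : Subgroup G) [N.Normal]
    (P : Sylow p G) (Pbar : Sylow p (G ⧸ N)) :
    Nat.card {g : (G ⧸ N) // ∃ k : ℕ, orderOf g = p ^ k} * Nat.card (P : Subgroup G) ≤ Nat.card {g : G // ∃ k : ℕ, orderOf g = p ^ k} * Nat.card (Pbar : Subgroup (G ⧸ N)) ∧
    (N ≤ Subgroup.center G → Nat.card {g : (G ⧸ N) // ∃ k : ℕ, orderOf g = p ^ k} * Nat.card (P : Subgroup G) = Nat.card {g : G // ∃ k : ℕ, orderOf g = p ^ k} * Nat.card (Pbar : Subgroup (G ⧸ N))) := by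
  have hc := card_sylow_eq_card_sylow_quotient_mul N P Pbar
  have h1 := ineq p N
  constructor
  · rw [hc]
    calc Nat.card {g : (G ⧸ N) // ∃ k : ℕ, orderOf g = p ^ k} *
          (Nat.card (Pbar : Subgroup (G ⧸ N)) * p ^ (Nat.card N).factorization p)
        = (Nat.card {g : (G ⧸ N) // ∃ k : ℕ, orderOf g = p ^ k} *
            p ^ (Nat.card N).factorization p) * Nat.card (Pbar : Subgroup (G ⧸ N)) := by ring
      _ ≤ _ := Nat.mul_le_mul_right _ h1
  · intro hN
    have h2 := ineq2 p N hN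
    rw [hc, le_antisymm h2 h1]
    ring

end Cfsg.Agent.S4153
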