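import Cfsg.Statements.S4154
-- import your own Cfsg.Agent.* helpers here

set_option autoImplicit false
open Cfsg

namespace Cfsg.Agent.S4154

/-- If every element is a fixed point times a "commutator" `g⁻¹ β g`, then the decomposition
is unique; in particular a fixed commutator is trivial. -/
theorem fix_comm_trivial {H : Type*} [Group H] [Finite H] (β : H →* H)
    (h : ∀ x : H, ∃ c g : H, β c = c ∧ x = c * (g⁻¹ * β g))
    (t : H) (ht : ∃ g, t = g⁻¹ * β g) (hfix : β t = t) : t = 1 := by
  classical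
  let C : Subgroup H := β.eqLocus (MonoidHom.id H)
  let T : Set H := Set.range (fun g => g⁻¹ * β g)
  have hCmem : ∀ x : H, x ∈ C ↔ β x = x := fun x => Iff.rfl
  let f : H ⧸ C → T := fun q => Quotient.liftOn' q
    (fun g => (⟨g * (β g)⁻¹, ⟨g⁻¹, by simp⟩⟩ : T)) (by
      intro a b hab
      rw [QuotientGroup.leftRel_apply, hCmem, map_mul, map_inv] at hab
      apply Subtype.ext
      show a * (β a)⁻¹ = b * (β b)⁻¹
      calc a * (β a)⁻¹ = a * ((β a)⁻¹ * β b) * (β b)⁻¹ := by group
        _ = a * (a⁻¹ * b) * (β b)⁻¹ := by rw [hab]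
        _ = b * (β b)⁻¹ := by group)
  have hfinj : Function.Injective f := by
    intro q1 q2
    induction q1 using QuotientGroup.induction_on with
    | H a =>
      induction q2 using QuotientGroup.induction_on with
      | H b =>
        intro hab
        have hab' : a * (β a)⁻¹ = b * (β b)⁻¹ := congrArg Subtype.val hab
        apply QuotientGroup.eq.2
        rw [hCmem, map_mul, map_inv]
        calc (β a)⁻¹ * β b = a⁻¹ * (a * (β a)⁻¹) * β b := by group
          _ = a⁻¹ * (b * (β b)⁻¹) * β b := by rw [hab']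
          _ = a⁻¹ * b := by group
  have hfsurj : Function.Surjective f := by
    rintro ⟨_, g, rfl⟩
    refine ⟨QuotientGroup.mk g⁻¹, ?_⟩
    apply Subtype.ext
    show g⁻¹ * (β g⁻¹)⁻¹ = g⁻¹ * β g
    simp
  have hT : Nat.card T = Nat.card (H ⧸ C) :=
    (Nat.card_congr (Equiv.ofBijective f ⟨hfinj, hfsurj⟩)).symm
  let φ : C × T → H := fun q => (q.1 : H) * (q.2 : H)
  have hsurj : Function.Surjective φ := by
    intro x
    obtain ⟨c, g, hc, hx⟩ := h x
    exact ⟨(⟨c, hc⟩, ⟨g⁻¹ * β g, ⟨g, rfl⟩⟩), hx.symm⟩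
  have hcard : Nat.card (C × T) ≤ Nat.card H := by
    rw [Nat.card_prod, hT, mul_comm, ← Subgroup.card_eq_card_quotient_mul_card_subgroup]
  have hbij := hsurj.bijective_of_nat_card_le hcard
  obtain ⟨g, hg⟩ := ht
  have h1 : φ (⟨t, hfix⟩, ⟨1, ⟨1, by simp⟩⟩) = φ (1, ⟨t, ⟨g, hg.symm⟩⟩) := by
    simp [φ]
  have h2 := hbij.1 h1
  have h3 := congrArg (fun q : C × T => (q.1 : H)) h2
  simpa using h3

/-- Let G be a finite group and α an automorphism of G such that every element of G is the product of an element fixed by α and an element of the form g⁻¹α(g). If N is a normal α-invariant subgroup, then the automorphism ᾱ induced on G/N has the same property, and every coset fixed by ᾱ contains an element fixed by α (so the fixed points of ᾱ are the images of the fixed points of α). -/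
theorem result {G : Type*} [Group G] [Finite G] (α : MulAut G)
    (hccp : ∀ x : G, ∃ c g : G, α c = c ∧ x = c * (g⁻¹ * α g))
    (N : Subgroup G) [N.Normal] (hN : ∀ n ∈ N, α n ∈ N) :
    (∀ x : G, ∃ c g : G, c⁻¹ * α c ∈ N ∧ x⁻¹ * (c * (g⁻¹ * α g)) ∈ N) ∧
    (∀ x : G, x⁻¹ * α x ∈ N → ∃ c : G, α c = c ∧ c⁻¹ * x ∈ N) := by
  constructor
  · intro x
    obtain ⟨c, g, hc, hx⟩ := hccp x
    refine ⟨c, g, ?_, ?_⟩
    · rw [hc, inv_mul_cancel]; exact N.one_mem
    · rw [← hx, inv_mul_cancel]; exact N.one_mem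
  · intro x hx
    have hle : N ≤ N.comap (α.toMonoidHom) := fun n hn => hN n hn
    let β : G ⧸ N →* G ⧸ N := QuotientGroup.map N N α.toMonoidHom hle
    have hβ : ∀ y : G, β (QuotientGroup.mk y) = QuotientGroup.mk (α y) := fun y => rfl
    have hH : ∀ q : G ⧸ N, ∃ c g : G ⧸ N, β c = c ∧ q = c * (g⁻¹ * β g) := by
      intro q
      induction q using QuotientGroup.induction_on with
      | H y =>
        obtain ⟨c, g, hc, hy⟩ := hccp y
        refine ⟨QuotientGroup.mk c, QuotientGroup.mk g, ?_, ?_⟩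
        · rw [hβ, hc]
        · rw [hβ, hy]; rfl
    obtain ⟨c, g, hc, hxc⟩ := hccp x
    refine ⟨c, hc, ?_⟩
    have ht : c⁻¹ * x = g⁻¹ * α g := by rw [hxc]; group
    rw [ht]
    have h1 := fix_comm_trivial β hH (QuotientGroup.mk (g⁻¹ * α g))
      ⟨QuotientGroup.mk g, by rw [hβ]; rfl⟩ (by
        rw [hβ]
        symm
        apply QuotientGroup.eq.2
        have : x⁻¹ * α x = (g⁻¹ * α g)⁻¹ * α (g⁻¹ * α g) := by
          rw [hxc, map_mul, hc]; group
        rw [← this]; exact hx)
    exact (QuotientGroup.eq_one_iff _).1 h1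

end Cfsg.Agent.S4154
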