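import Cfsg.Statements.S4155
import Cfsg.Agent.Lib.Helper69.PNil
import Cfsg.Agent.Lib.Helper69.ItoA
import Cfsg.Agent.Lib.Helper54.FpfNorm
import Cfsg.Agent.Lib.Helper54.Quaternion
import Cfsg.Agent.S0065

set_option autoImplicit false
open Cfsg

namespace Cfsg.Agent.S4155

open Cfsg.Agent.Lib.Helper69

variable {G : Type*} [Group G] [Finite G] (N : Subgroup G) [N.Normal]

/-- An element outside `N` whose image in `G ⧸ N` is a `q`-element is a `q`-element. -/
theorem pElem_of_notMem (heq : ∀ x : G, x ∉ N → ∀ n ∈ N, orderOf (x * n) = orderOf x) {x : G}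
    (hx : x ∉ N) {q : ℕ} [hq : Fact q.Prime] (k : ℕ) (hxk : x ^ q ^ k ∈ N) :
    ∃ e : ℕ, orderOf x = q ^ e := by
  obtain ⟨m, n, ⟨e, he⟩, hcop, hmn⟩ := PNil.exists_pow_decomp q x
  have hn : x ^ n ∈ N := by
    rw [← QuotientGroup.eq_one_iff, ← orderOf_eq_one_iff]
    have h1 : orderOf ((x ^ n : G) : G ⧸ N) ∣ orderOf (x ^ n) :=
      orderOf_map_dvd (QuotientGroup.mk' N) _
    have h2 : orderOf ((x ^ n : G) : G ⧸ N) ∣ q ^ k := by
      apply orderOf_dvd_of_pow_eq_one
      rw [← QuotientGroup.mk_pow, ← pow_mul, mul_comm, pow_mul, QuotientGroup.mk_pow,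
        (QuotientGroup.eq_one_iff _).2 hxk, one_pow]
    exact Nat.Coprime.eq_one_of_dvd (Nat.Coprime.coprime_dvd_left h1 (hcop.pow_right k)) h2
  have h3 : x ^ m = x * (x ^ n)⁻¹ := by rw [eq_mul_inv_iff_mul_eq]; exact hmn
  have h4 := heq x hx (x ^ n)⁻¹ (N.inv_mem hn)
  exact ⟨e, by rw [← h4, ← h3, he]⟩

omit [N.Normal] in
theorem eq_one_of_commute (heq : ∀ x : G, x ∉ N → ∀ n ∈ N, orderOf (x * n) = orderOf x) {x : G}
    (hx : x ∉ N) {q : ℕ} {e : ℕ} (hxq : orderOf x = q ^ e) {z : G} (hz : z ∈ N)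
    (hc : Commute x z) (hcop : (orderOf z).Coprime q) : z = 1 := by
  have h1 := heq x hx z hz
  have h2 : orderOf (x * z) = orderOf x * orderOf z :=
    hc.orderOf_mul_eq_mul_orderOf_of_coprime (by rw [hxq]; exact (hcop.pow_right e).symm)
  rw [h2] at h1
  have h3 : orderOf z = 1 := by
    have hpos := orderOf_pos x
    exact Nat.eq_of_mul_eq_mul_left hpos (by rw [h1, mul_one])
  exact orderOf_eq_one_iff.1 h3

/-- A nontrivial normal subgroup of `G` inside `N` consisting of `q'`-elements. -/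
theorem exists_K (hnil : Group.IsNilpotent N) (hN1 : N ≠ ⊥) (hnpp : ¬ IsPrimePow (Nat.card N))
    (q : ℕ) (hq : q.Prime) :
    ∃ K : Subgroup G, K.Normal ∧ K ≤ N ∧ K ≠ ⊥ ∧ ∀ z ∈ K, (orderOf z).Coprime q := by
  have hcard : Nat.card N ≠ 1 := fun h => hN1 (Subgroup.eq_bot_of_card_eq _ h)
  have hex : ∃ r : ℕ, r.Prime ∧ r ∣ Nat.card N ∧ r ≠ q := by
    by_contra hcon
    push Not at hcon
    apply hnpp
    have h1 := Nat.eq_prime_pow_of_unique_prime_dvd (p := q) (Nat.card_pos (α := N)).ne'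
      (fun {d} hd hdn => hcon d hd hdn)
    rw [h1]
    exact hq.isPrimePow.pow (by
      intro h0
      rw [h0, pow_zero] at h1
      exact hcard h1)
  obtain ⟨r, hr, hrN, hrq⟩ := hex
  have : Fact r.Prime := ⟨hr⟩
  have P : Sylow r N := default
  have hPn : (P : Subgroup N).Normal := inferInstance
  have hPc : (P : Subgroup N).Characteristic := Sylow.characteristic_of_normal P hPn
  refine ⟨(P : Subgroup N).map N.subtype, ConjAct.normal_of_characteristic_of_normal,
    Subgroup.map_subtype_le _, ?_, ?_⟩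
  · rw [Ne, Subgroup.map_eq_bot_iff_of_injective _ N.subtype_injective]
    exact Sylow.ne_bot_of_dvd_card P hrN
  · rintro z ⟨z', hz', rfl⟩
    obtain ⟨k, hk⟩ := (IsPGroup.iff_orderOf.1 P.isPGroup') ⟨z', hz'⟩
    have h2 : orderOf (N.subtype z') = r ^ k := by
      rw [← hk]
      simp
    rw [h2]
    exact Nat.Coprime.pow_left k ((Nat.coprime_primes hr hq).2 hrq)

theorem le_of_nilpotent (heq : ∀ x : G, x ∉ N → ∀ n ∈ N, orderOf (x * n) = orderOf x)
    (hnil : Group.IsNilpotent N) (hN1 : N ≠ ⊥) (hnpp : ¬ IsPrimePow (Nat.card N))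
    (M : Subgroup G) (hMn : M.Normal) (hMnil : Group.IsNilpotent M) : M ≤ N := by
  by_contra hle
  obtain ⟨x, hxM, hxN⟩ := SetLike.not_le_iff_exists.1 hle
  obtain ⟨q, hq, j, ⟨k, hk⟩, hj⟩ := ItoA.exists_pow_prime_not_mem N x hxN
  have hyM : x ^ j ∈ M := M.pow_mem hxM j
  obtain ⟨K, hKn, hKN, hKne, hKq⟩ := exists_K N hnil hN1 hnpp q hq
  by_cases hL : K ⊓ M = ⊥
  · obtain ⟨⟨z, hzK⟩, hz⟩ := (Subgroup.ne_bot_iff_exists_ne_one).1 hKne
    have hz1 : z ≠ 1 := fun h => hz (Subtype.ext h)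
    apply hz1
    refine eq_one_of_commute N heq hj hk (hKN hzK) ?_ (hKq z hzK)
    have hc : x ^ j * z * (x ^ j)⁻¹ * z⁻¹ ∈ K ⊓ M := by
      constructor
      · exact K.mul_mem (hKn.conj_mem z hzK _) (K.inv_mem hzK)
      · have : x ^ j * z * (x ^ j)⁻¹ * z⁻¹ = x ^ j * (z * (x ^ j)⁻¹ * z⁻¹) := by group
        rw [this]
        exact M.mul_mem hyM (hMn.conj_mem _ (M.inv_mem hyM) _)
    rw [hL, Subgroup.mem_bot] at hc
    have : x ^ j * z = z * x ^ j := by
      calc x ^ j * z = (x ^ j * z * (x ^ j)⁻¹ * z⁻¹) * (z * x ^ j) := by group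
        _ = z * x ^ j := by rw [hc, one_mul]
    exact this
  · have : Finite ↥M := inferInstance
    have hnorm : (K ⊓ M).Normal := Subgroup.normal_inf_normal K M
    have hne : (K ⊓ M).subgroupOf M ≠ ⊥ := by
      rw [Ne, Subgroup.subgroupOf_eq_bot, disjoint_iff, inf_assoc, inf_idem]
      exact hL
    have h65 := Cfsg.Agent.S0065.result (G := ↥M) ((K ⊓ M).subgroupOf M) hne
    obtain ⟨⟨z, hzmem⟩, hz1⟩ := (Subgroup.ne_bot_iff_exists_ne_one).1 h65
    obtain ⟨hzK, hzC⟩ := hzmem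
    have hzK' : ((z : ↥M) : G) ∈ K := (Subgroup.mem_subgroupOf.1 hzK).1
    have hcomm := Subgroup.mem_center_iff.1 hzC ⟨x ^ j, hyM⟩
    have hcomm' : x ^ j * ((z : ↥M) : G) = ((z : ↥M) : G) * x ^ j := congrArg Subtype.val hcomm
    have := eq_one_of_commute N heq hj hk (hKN hzK') hcomm' (hKq _ hzK')
    apply hz1
    exact Subtype.ext (Subtype.ext this)

section Act

variable (V : Subgroup G) [hVn : V.Normal]

/-- conjugation action of `G` on the normal subgroup `V`, as endomorphisms -/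
def conjEnd : G →* Monoid.End ↥V where
  toFun := fun g =>
    { toFun := fun x => ⟨g * (x : G) * g⁻¹, hVn.conj_mem _ x.2 g⟩
      map_one' := Subtype.ext (by simp)
      map_mul' := fun x y => Subtype.ext (by simp) }
  map_one' := MonoidHom.ext (fun x => Subtype.ext (by
    show (1 : G) * (x : G) * (1 : G)⁻¹ = (x : G)
    simp))
  map_mul' := fun g h => MonoidHom.ext (fun x => Subtype.ext (by
    show (g * h) * (x : G) * (g * h)⁻¹ = g * (h * (x : G) * h⁻¹) * g⁻¹
    simp [mul_assoc]))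

omit [Finite G] in
theorem conjEnd_apply (g : G) (x : ↥V) : ((conjEnd V g x : ↥V) : G) = g * (x : G) * g⁻¹ := rfl

omit [Finite G] [N.Normal] in
theorem conjEnd_eq_one (hVC : V ≤ Subgroup.centralizer (N : Set G)) (g : G) (hg : g ∈ N) :
    conjEnd V g = 1 := by
  refine MonoidHom.ext (fun x => Subtype.ext ?_)
  have h1 : g * (x : G) = (x : G) * g := Subgroup.mem_centralizer_iff.1 (hVC x.2) g hg
  show g * (x : G) * g⁻¹ = (x : G)
  rw [h1, mul_inv_cancel_right]

/-- the induced action of `G ⧸ N` -/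
def conjEndQ (hVC : V ≤ Subgroup.centralizer (N : Set G)) : G ⧸ N →* Monoid.End ↥V :=
  QuotientGroup.lift N (conjEnd V) (fun g hg => conjEnd_eq_one N V hVC g hg)

theorem fpf (heq : ∀ x : G, x ∉ N → ∀ n ∈ N, orderOf (x * n) = orderOf x)
    (hVC : V ≤ Subgroup.centralizer (N : Set G)) (hVN : V ≤ N) {q : ℕ} [hq : Fact q.Prime]
    (hVq : ∀ z ∈ V, (orderOf z).Coprime q) (w : G ⧸ N) (hw1 : w ≠ 1) (e : ℕ)
    (hwe : w ^ q ^ e = 1) (x : ↥V) (hx : conjEndQ N V hVC w x = x) : x = 1 := by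
  obtain ⟨g, rfl⟩ := QuotientGroup.mk_surjective w
  have hgN : g ∉ N := fun h => hw1 ((QuotientGroup.eq_one_iff g).2 h)
  have hge : g ^ q ^ e ∈ N := by
    rw [← QuotientGroup.eq_one_iff, QuotientGroup.mk_pow]
    exact hwe
  obtain ⟨e', he'⟩ := pElem_of_notMem N heq hgN e hge
  have h1 : g * (x : G) * g⁻¹ = (x : G) := by
    have := congrArg Subtype.val hx
    exact this
  have h2 : g * (x : G) = (x : G) * g := by
    calc g * (x : G) = g * (x : G) * g⁻¹ * g := by group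
      _ = (x : G) * g := by rw [h1]
  exact Subtype.ext (eq_one_of_commute N heq hgN he' (hVN x.2) h2 (hVq _ x.2))

end Act

open Cfsg.Agent.Lib.Helper54.UniqueSubgroup Cfsg.Agent.Lib.Helper54.FpfNorm in
theorem ui_sylow (heq : ∀ x : G, x ∉ N → ∀ n ∈ N, orderOf (x * n) = orderOf x)
    (hnil : Group.IsNilpotent N) (hN1 : N ≠ ⊥) (hnpp : ¬ IsPrimePow (Nat.card N))
    (q : ℕ) [hq : Fact q.Prime] (Q : Sylow q (G ⧸ N)) : UI q ↥(Q : Subgroup (G ⧸ N)) := by
  by_contra hUI
  obtain ⟨u, v, huv, hup, hvp, hu1, hvu⟩ := exists_pair_of_not_ui Q.isPGroup' hUI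
  have hv1 : v ≠ 1 := fun h => hvu (h ▸ one_mem _)
  have hov : orderOf v = q := orderOf_eq_prime hvp hv1
  obtain ⟨K, hKn, hKN, hKne, hKq⟩ := exists_K N hnil hN1 hnpp q hq.out
  -- V = K ∩ Z(N)
  have hne : K.subgroupOf N ≠ ⊥ := by
    rw [Ne, Subgroup.subgroupOf_eq_bot, disjoint_iff, inf_eq_left.2 hKN]
    exact hKne
  have h65 := Cfsg.Agent.S0065.result (G := ↥N) (K.subgroupOf N) hne
  obtain ⟨⟨z, hzmem⟩, hz1⟩ := (Subgroup.ne_bot_iff_exists_ne_one).1 h65
  obtain ⟨hzK, hzC⟩ := hzmem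
  let V : Subgroup G := K ⊓ Subgroup.centralizer (N : Set G)
  have hVn : V.Normal := Subgroup.normal_inf_normal K _
  have hVC : V ≤ Subgroup.centralizer (N : Set G) := inf_le_right
  have hVN : V ≤ N := inf_le_left.trans hKN
  have hVq : ∀ y ∈ V, (orderOf y).Coprime q := fun y hy => hKq y hy.1
  have hzV : ((z : ↥N) : G) ∈ V := by
    refine ⟨(Subgroup.mem_subgroupOf.1 hzK), ?_⟩
    refine Subgroup.mem_centralizer_iff.2 (fun n hn => ?_)
    have := Subgroup.mem_center_iff.1 hzC ⟨n, hn⟩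
    exact congrArg Subtype.val this
  have hzne : ((z : ↥N) : G) ≠ 1 := fun h => hz1 (Subtype.ext (Subtype.ext h))
  have hMcomm : ∀ x y : ↥V, x * y = y * x := by
    intro x y
    apply Subtype.ext
    exact (Subgroup.mem_centralizer_iff.1 (hVC y.2) x (hVN x.2))
  have key := pow_eq_one_of_fpf_end hMcomm (conjEndQ N V hVC (u : G ⧸ N))
    (conjEndQ N V hVC (v : G ⧸ N))
    (by
      have : Commute (u : G ⧸ N) (v : G ⧸ N) := congrArg Subtype.val huv.eq
      exact this.map _) q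
    (by
      rw [← map_pow]
      have : (u : G ⧸ N) ^ q = 1 := by exact_mod_cast congrArg Subtype.val hup
      rw [this, map_one])
    (by
      rw [← map_pow]
      have : (v : G ⧸ N) ^ q = 1 := by exact_mod_cast congrArg Subtype.val hvp
      rw [this, map_one])
    (by
      intro k hk x hx
      rw [← map_pow, ← map_mul] at hx
      obtain ⟨e, he⟩ := Q.isPGroup' (u * v ^ k)
      refine fpf N V heq hVC hVN hVq ((u : G ⧸ N) * (v : G ⧸ N) ^ k) ?_ e ?_ x hx
      · intro h1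
        apply hvu
        apply mem_zpowers_symm hup hu1 hvp
        have h1' : u * v ^ k = 1 := Subtype.ext (by exact_mod_cast h1)
        have h2 : u = (v ^ k)⁻¹ := eq_inv_of_mul_eq_one_left h1'
        rw [h2]
        exact inv_mem (pow_mem (Subgroup.mem_zpowers v) k)
      · exact_mod_cast congrArg Subtype.val he)
    (by
      intro i hi0 hip x hx
      rw [← map_pow] at hx
      obtain ⟨e, he⟩ := Q.isPGroup' (v ^ i)
      refine fpf N V heq hVC hVN hVq ((v : G ⧸ N) ^ i) ?_ e ?_ x hx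
      · intro h1
        have h1' : v ^ i = 1 := Subtype.ext (by exact_mod_cast h1)
        exact pow_ne_one_of_lt_orderOf hi0.ne' (by rw [hov]; exact hip) h1'
      · exact_mod_cast congrArg Subtype.val he)
    ⟨_, hzV⟩
  have h3 : ((z : ↥N) : G) ^ q = 1 := by
    have := congrArg Subtype.val key
    simpa using this
  have h4 : orderOf ((z : ↥N) : G) ∣ q := orderOf_dvd_of_pow_eq_one h3
  have h5 := Nat.Coprime.eq_one_of_dvd (hVq _ hzV) h4
  exact hzne (orderOf_eq_one_iff.1 h5)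

/-- Let G be a finite group and N a proper non-trivial normal nilpotent subgroup whose order is not a prime power, such that for every x outside N all elements of the coset xN have the same order as x. Then N is the Fitting subgroup of G, and for every prime q every Sylow q-subgroup of G/N is cyclic or generalized quaternion. -/
theorem result {G : Type*} [Group G] [Finite G] (N : Subgroup G) [N.Normal] (hN1 : N ≠ ⊥) (hN2 : N ≠ ⊤)
    (heq : ∀ x : G, x ∉ N → ∀ n ∈ N, orderOf (x * n) = orderOf x)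
    (hnil : Group.IsNilpotent N) (hnpp : ¬ IsPrimePow (Nat.card N)) :
    N = Cfsg.fittingSubgroup G ∧
    ∀ (q : ℕ) [Fact q.Prime] (Q : Sylow q (G ⧸ N)), IsCyclic (Q : Subgroup (G ⧸ N)) ∨ ∃ n : ℕ, Nonempty ((Q : Subgroup (G ⧸ N)) ≃* QuaternionGroup (2 ^ n)) := by
  refine ⟨?_, ?_⟩
  · apply le_antisymm
    · exact le_sSup ⟨inferInstance, hnil⟩
    · apply sSup_le
      rintro M ⟨hMn, hMnil⟩
      exact le_of_nilpotent N heq hnil hN1 hnpp M hMn hMnil
  · intro q hq Q
    have hUI := ui_sylow N heq hnil hN1 hnpp q Q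
    rcases Cfsg.Agent.Lib.Helper54.Quaternion.isCyclic_or_quaternion_of_ui Q.isPGroup' hUI with h | h
    · left; exact h
    · right; exact h.2

end Cfsg.Agent.S4155
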