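import Cfsg.Statements.S4156
-- import your own Cfsg.Agent.* helpers here

set_option autoImplicit false
open Cfsg

namespace Cfsg.Agent.S4156

section
variable (n : ℕ) (F : Type*) [Field F]

/-- the sum functional -/
noncomputable def sumF : (Fin (n + 1) → F) →ₗ[F] F where
  toFun x := ∑ i, x i
  map_add' x y := by simp [Finset.sum_add_distrib]
  map_smul' c x := by simp [Finset.mul_sum]

theorem finrank_ker : Module.finrank F (LinearMap.ker (sumF n F)) = n := by
  have h := LinearMap.finrank_range_add_finrank_ker (sumF n F)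
  have hs : LinearMap.range (sumF n F) = ⊤ := by
    rw [LinearMap.range_eq_top]
    intro c
    refine ⟨Pi.single 0 c, ?_⟩
    simp [sumF]
  rw [hs, finrank_top, Module.finrank_self, Module.finrank_fin_fun] at h
  omega

/-- permutation action -/
noncomputable def act (σ : Equiv.Perm (Fin (n + 1))) :
    (Fin (n + 1) → F) →ₗ[F] (Fin (n + 1) → F) :=
  LinearMap.funLeft F F (σ⁻¹ : Equiv.Perm (Fin (n + 1)))

theorem act_apply (σ : Equiv.Perm (Fin (n + 1))) (x : Fin (n + 1) → F) (i : Fin (n + 1)) :
    act n F σ x i = x (σ⁻¹ i) := rfl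

theorem act_mem (σ : Equiv.Perm (Fin (n + 1))) (x : Fin (n + 1) → F)
    (hx : x ∈ LinearMap.ker (sumF n F)) : act n F σ x ∈ LinearMap.ker (sumF n F) := by
  rw [LinearMap.mem_ker] at hx ⊢
  rw [← hx]
  change ∑ i, x (σ⁻¹ i) = ∑ i, x i
  exact Equiv.sum_comp _ _

noncomputable def phi : Equiv.Perm (Fin (n + 1)) →* Module.End F (LinearMap.ker (sumF n F)) where
  toFun σ := (act n F σ).restrict (act_mem n F σ)
  map_one' := by
    apply LinearMap.ext; intro x; apply Subtype.ext; funext i
    simp [act_apply]
  map_mul' σ τ := by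
    apply LinearMap.ext; intro x; apply Subtype.ext; funext i
    simp [act_apply]

theorem phi_apply (σ : Equiv.Perm (Fin (n + 1))) (x : LinearMap.ker (sumF n F)) (i : Fin (n + 1)) :
    (phi n F σ x : Fin (n + 1) → F) i = (x : Fin (n + 1) → F) (σ⁻¹ i) := rfl

/-- faithfulness: a permutation acting trivially is trivial (n + 1 ≥ 3) -/
theorem phi_injective (hn : 2 ≤ n) (σ : Equiv.Perm (Fin (n + 1))) (h : phi n F σ = 1) : σ = 1 := by
  classical
  by_contra hσ
  obtain ⟨i, hi⟩ : ∃ i, σ i ≠ i := by
    by_contra hcon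
    push Not at hcon
    exact hσ (Equiv.ext hcon)
  -- choose j different from i and σ i
  obtain ⟨j, hji, hjs⟩ : ∃ j : Fin (n + 1), j ≠ i ∧ j ≠ σ i := by
    have hcard : ({i, σ i} : Finset (Fin (n + 1))).card < (Finset.univ : Finset (Fin (n + 1))).card := by
      rw [Finset.card_univ, Fintype.card_fin]
      exact lt_of_le_of_lt (Finset.card_insert_le _ _) (by simp; omega)
    obtain ⟨j, -, hj⟩ := Finset.exists_mem_notMem_of_card_lt_card hcard
    simp only [Finset.mem_insert, Finset.mem_singleton, not_or] at hj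
    exact ⟨j, hj.1, hj.2⟩
  -- the vector e_i - e_j
  have hx : (Pi.single i 1 - Pi.single j 1 : Fin (n + 1) → F) ∈ LinearMap.ker (sumF n F) := by
    rw [LinearMap.mem_ker]
    simp [sumF, Finset.sum_sub_distrib]
  have h1 := phi_apply n F σ ⟨_, hx⟩ (σ i)
  rw [h] at h1
  simp only [Module.End.one_apply, Pi.sub_apply, Equiv.Perm.coe_inv, Equiv.symm_apply_apply] at h1
  rw [Pi.single_eq_of_ne hi, Pi.single_eq_of_ne (Ne.symm hjs), Pi.single_eq_same,
    Pi.single_eq_of_ne (Ne.symm hji)] at h1
  simp at h1

end

/-- Let n ≥ 5 and F a finite field. Then the projective special linear group PSL_n(F) contains a subgroup isomorphic to the alternating group of degree n + 1. -/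
theorem result (n : ℕ) (hn : 5 ≤ n) (F : Type*) [Field F] [Finite F] :
    ∃ f : alternatingGroup (Fin (n + 1)) →* Matrix.ProjectiveSpecialLinearGroup (Fin n) F, Function.Injective f := by
  classical
  have hcard : 5 ≤ Nat.card (Fin (n + 1)) := by simp; omega
  have hsimple : IsSimpleGroup (alternatingGroup (Fin (n + 1))) :=
    alternatingGroup.isSimpleGroup hcard
  have hcenter : Subgroup.center (alternatingGroup (Fin (n + 1))) = ⊥ :=
    alternatingGroup.center_eq_bot (by omega)
  have hnt : Nontrivial (alternatingGroup (Fin (n + 1))) := hsimple.toNontrivial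
  -- A is not commutative
  have hnc : ¬ (∀ a b : alternatingGroup (Fin (n + 1)), a * b = b * a) := by
    intro hc
    obtain ⟨a, ha⟩ := exists_ne (1 : alternatingGroup (Fin (n + 1)))
    have : a ∈ Subgroup.center (alternatingGroup (Fin (n + 1))) := by
      rw [Subgroup.mem_center_iff]
      intro g
      exact hc g a
    rw [hcenter, Subgroup.mem_bot] at this
    exact ha this
  have : Module.Finite F (LinearMap.ker (sumF n F)) := inferInstance
  let b : Module.Basis (Fin n) F (LinearMap.ker (sumF n F)) :=
    Module.finBasisOfFinrankEq F _ (finrank_ker n F)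
  -- the matrix representation
  let g₀ : alternatingGroup (Fin (n + 1)) →* Matrix (Fin n) (Fin n) F :=
    (MonoidHomClass.toMonoidHom (LinearMap.toMatrixAlgEquiv b)).comp
      ((phi n F).comp (alternatingGroup (Fin (n + 1))).subtype)
  have hg₀inj : ∀ σ : alternatingGroup (Fin (n + 1)), g₀ σ = 1 → σ = 1 := by
    intro σ h
    have h1 : LinearMap.toMatrixAlgEquiv b (phi n F σ.1) = 1 := h
    have h2 : phi n F σ.1 = 1 := by
      rw [← map_one (LinearMap.toMatrixAlgEquiv b)] at h1
      exact (LinearMap.toMatrixAlgEquiv b).injective h1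
    exact Subtype.ext (phi_injective n F (by omega) σ.1 h2)
  -- determinant is trivial
  let d : alternatingGroup (Fin (n + 1)) →* Fˣ :=
    (Matrix.detMonoidHom.comp g₀).toHomUnits
  have hd : d.ker = ⊤ := by
    rcases d.normal_ker.eq_bot_or_eq_top with h | h
    · exfalso
      apply hnc
      intro a b
      have hinj : Function.Injective d := (MonoidHom.ker_eq_bot_iff d).1 h
      apply hinj
      rw [map_mul, map_mul, mul_comm]
    · exact h
  have hdet : ∀ σ : alternatingGroup (Fin (n + 1)), (g₀ σ).det = 1 := by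
    intro σ
    have h1 : σ ∈ d.ker := by rw [hd]; trivial
    rw [MonoidHom.mem_ker] at h1
    have h2 := congrArg Units.val h1
    exact h2
  -- hom to SL
  let g₁ : alternatingGroup (Fin (n + 1)) →* Matrix.SpecialLinearGroup (Fin n) F :=
    { toFun := fun σ => ⟨g₀ σ, hdet σ⟩
      map_one' := by apply Subtype.ext; exact map_one g₀
      map_mul' := fun a b => by apply Subtype.ext; exact map_mul g₀ a b }
  have hg₁inj : Function.Injective g₁ := by
    rw [injective_iff_map_eq_one]
    intro σ h
    apply hg₀inj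
    exact congrArg Subtype.val h
  let f : alternatingGroup (Fin (n + 1)) →* Matrix.ProjectiveSpecialLinearGroup (Fin n) F :=
    (QuotientGroup.mk' (Subgroup.center (Matrix.SpecialLinearGroup (Fin n) F))).comp g₁
  refine ⟨f, ?_⟩
  rw [← MonoidHom.ker_eq_bot_iff]
  rcases f.normal_ker.eq_bot_or_eq_top with h | h
  · exact h
  · exfalso
    apply hnc
    intro a b
    have ha : a ∈ f.ker := by rw [h]; trivial
    rw [MonoidHom.mem_ker] at ha
    have ha' : g₁ a ∈ Subgroup.center (Matrix.SpecialLinearGroup (Fin n) F) := by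
      have : (QuotientGroup.mk' (Subgroup.center (Matrix.SpecialLinearGroup (Fin n) F))) (g₁ a) = 1 := ha
      rwa [QuotientGroup.mk'_apply, QuotientGroup.eq_one_iff] at this
    apply hg₁inj
    rw [map_mul, map_mul]
    exact (Subgroup.mem_center_iff.1 ha' (g₁ b)).symm

end Cfsg.Agent.S4156
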