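import Cfsg.Statements.S4160
import Cfsg.Agent.Lib.Helper69.Conj

set_option autoImplicit false
open Cfsg

namespace Cfsg.Agent.S4160

open Cfsg.Agent.Lib.Helper69.Conj

theorem result {G : Type*} [Group G] [Finite G] (p q : ℕ) (hp : p.Prime) (hq : q.Prime) (hpq : p ≠ q)
    (hp' : ∃ x : G, p ∣ (Subgroup.centralizer ({x} : Set G)).index) (hq' : ∃ x : G, q ∣ (Subgroup.centralizer ({x} : Set G)).index) (h : ∀ x : G, ¬ p * q ∣ (Subgroup.centralizer ({x} : Set G)).index) :
    Cfsg.HasNormalPComplement p G ∨ Cfsg.HasNormalPComplement q G := by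
  classical
  have := Fact.mk hp
  have := Fact.mk hq
  obtain ⟨P⟩ : Nonempty (Sylow p G) := inferInstance
  obtain ⟨Q⟩ : Nonempty (Sylow q G) := inferInstance
  by_cases hP : Subgroup.normalizer ((P : Subgroup G) : Set G) ≤ Subgroup.centralizer ((P : Subgroup G) : Set G)
  · left
    exact ⟨P, (MonoidHom.transferSylow P hP).ker, inferInstance,
      MonoidHom.ker_transferSylow_isComplement' P hP⟩
  by_cases hQ : Subgroup.normalizer ((Q : Subgroup G) : Set G) ≤ Subgroup.centralizer ((Q : Subgroup G) : Set G)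
  · right
    exact ⟨Q, (MonoidHom.transferSylow Q hQ).ker, inferInstance,
      MonoidHom.ker_transferSylow_isComplement' Q hQ⟩
  exfalso
  have h1 := two_mul_card_conj_add_two_le (Subgroup.centralizer ((P : Subgroup G) : Set G))
    (Subgroup.normalizer ((P : Subgroup G) : Set G)) (Subgroup.centralizer_le_normalizer _) hP
    (fun n hn c hc => normalizer_conj_mem_centralizer _ n hn c hc)
  have h2 := two_mul_card_conj_add_two_le (Subgroup.centralizer ((Q : Subgroup G) : Set G))
    (Subgroup.normalizer ((Q : Subgroup G) : Set G)) (Subgroup.centralizer_le_normalizer _) hQ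
    (fun n hn c hc => normalizer_conj_mem_centralizer _ n hn c hc)
  set CP := Subgroup.centralizer ((P : Subgroup G) : Set G)
  set CQ := Subgroup.centralizer ((Q : Subgroup G) : Set G)
  have hcover : ∀ x : G, (∃ g : G, g * x * g⁻¹ ∈ CP) ∨ (∃ g : G, g * x * g⁻¹ ∈ CQ) := by
    intro x
    by_cases hx : p ∣ (Subgroup.centralizer ({x} : Set G)).index
    · right
      apply exists_conj_mem_centralizer_sylow Q x
      intro hxq
      exact h x ((Nat.coprime_primes hp hq).mpr hpq |>.mul_dvd_of_dvd_of_dvd hx hxq)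
    · left
      exact exists_conj_mem_centralizer_sylow P x hx
  let f : {x : G // x ≠ 1} → {x : G // (∃ g : G, g * x * g⁻¹ ∈ CP) ∧ x ≠ 1} ⊕
      {x : G // (∃ g : G, g * x * g⁻¹ ∈ CQ) ∧ x ≠ 1} := fun x =>
    if hx : ∃ g : G, g * (x : G) * g⁻¹ ∈ CP then Sum.inl ⟨x, hx, x.2⟩
    else Sum.inr ⟨x, (hcover x).resolve_left hx, x.2⟩
  have hf : Function.Injective f := by
    intro x y hxy
    simp only [f] at hxy
    split_ifs at hxy with h1 h2 h2
    all_goals exact Subtype.ext (by simpa using hxy)
  have h3 := Nat.card_le_card_of_injective f hf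
  rw [Nat.card_sum] at h3
  have h4 : Nat.card {x : G // x ≠ 1} = Nat.card G - 1 := by
    have := Fintype.ofFinite G
    rw [Nat.card_eq_fintype_card, Nat.card_eq_fintype_card]
    exact Set.card_ne_eq (1 : G)
  have hGpos : 0 < Nat.card G := Nat.card_pos
  omega

end Cfsg.Agent.S4160
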