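import Cfsg.Statements.S4168

set_option autoImplicit false
open Cfsg

namespace Cfsg.Agent.S4168

/-- Let L be a finite quasisimple group (perfect with L/Z(L) simple). Then every prime dividing the order of the centre Z(L) also divides the order of L/Z(L). -/
theorem result {L : Type*} [Group L] [Finite L] (hL : Cfsg.IsQuasisimple L)
    (p : ℕ) (hp : p.Prime) (hdiv : p ∣ Nat.card (Subgroup.center L)) : p ∣ (Subgroup.center L).index := by
  have := Fact.mk hp
  obtain ⟨hperf, -⟩ := hL
  obtain ⟨z, hz⟩ := exists_prime_orderOf_dvd_card' p hdiv
  have hker : (MonoidHom.transferCenterPow L).ker = ⊤ := by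
    have h1 : commutator L ≤ (MonoidHom.transferCenterPow L).ker := by
      rw [commutator_def, Subgroup.commutator_le]
      intro a _ b _
      rw [MonoidHom.mem_ker, map_commutatorElement]
      rw [commutatorElement_eq_one_iff_commute]
      apply Subtype.ext
      exact ((MonoidHom.transferCenterPow L b).2.comm _).symm
    rw [hperf.commutator_eq_top] at h1
    exact top_le_iff.mp h1
  have h2 : MonoidHom.transferCenterPow L (z : L) = 1 := by
    have : (z : L) ∈ (MonoidHom.transferCenterPow L).ker := by rw [hker]; trivial
    exact this
  have h3 : (z : L) ^ (Subgroup.center L).index = 1 := by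
    have := congrArg (Subtype.val) h2
    simpa using this
  have h4 : orderOf (z : L) = p := by
    rw [Subgroup.orderOf_coe]; exact hz
  rw [← h4]
  exact orderOf_dvd_of_pow_eq_one h3

end Cfsg.Agent.S4168
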