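import Cfsg.Statements.S4169
import Cfsg.Agent.Lib.Helper69.Small
import Cfsg.Agent.Lib.Helper69.MaxAb

set_option autoImplicit false
open Cfsg

namespace Cfsg.Agent.S4169

open Cfsg.Agent.Lib.Helper69.Small Cfsg.Agent.Lib.Helper69.MaxAb

/-- Let P be a finite p-group whose conjugacy classes have exactly two sizes (1 and one other value). Then P has nilpotency class at most 3. -/
theorem result {P : Type*} [Group P] [Finite P] {p : ℕ} [Fact p.Prime] (hP : IsPGroup p P)
    (m : ℕ) (hm : 1 < m) (h : ∀ x : P, (Subgroup.centralizer ({x} : Set P)).index = 1 ∨ (Subgroup.centralizer ({x} : Set P)).index = m) :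
    upperCentralSeries P 3 = ⊤ := by
  have hnil : Group.IsNilpotent P := hP.isNilpotent
  obtain ⟨A, hAn, hAc, hmax⟩ := exists_maximal_normal_abelian (S := P)
  have hCA := centralizer_le_of_maximal A hAn hAc hmax
  have hA' : ∀ a ∈ A, ∀ b ∈ A, a * b = b * a := by
    intro a ha b hb
    exact congrArg Subtype.val (hAc.is_comm.comm ⟨a, ha⟩ ⟨b, hb⟩)
  apply upperCentralSeries_three_eq_top (MonoidHom.id P) Function.injective_id A
  · intro g hg
    apply hCA
    rw [Subgroup.mem_centralizer_iff]
    intro a ha
    exact (hg a ha).symm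
  · intro k
    show Twist A k
    rcases h k with h1 | hmx
    · exact twist_of_mem_center A (mem_center_of_index_eq_one h1)
    · apply twist_of_small A hA' k
      intro y hy
      rcases h y with h2 | h2
      · omega
      · rw [hmx, h2]

end Cfsg.Agent.S4169
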