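import Cfsg.Statements.S4172
import Cfsg.Agent.Lib.Helper38.TwoGen

set_option autoImplicit false
open Cfsg

namespace Cfsg.Agent.S4172

open Subgroup
open scoped commutatorElement
open Cfsg.Agent.Lib.Helper38.TwoGen

section ambient

variable {G : Type*} [Group G] [Finite G] {p : ℕ} [Fact p.Prime]

omit [Finite G] in
theorem isMulCommutative_of_comm (P : Subgroup G)
    (h : ∀ a ∈ P, ∀ b ∈ P, a * b * a⁻¹ * b⁻¹ = 1) : IsMulCommutative P := by
  rw [isMulCommutative_iff]
  intro a b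
  apply Subtype.ext
  have h1 := h a.1 a.2 b.1 b.2
  rw [Subgroup.coe_mul, Subgroup.coe_mul]
  calc (a : G) * b = (a * b * (a : G)⁻¹ * (b : G)⁻¹) * (b * a) := by group
    _ = b * a := by rw [h1, one_mul]

/-- Commutators of `P` lie in every nontrivial normal subgroup. -/
theorem comm_mem_normal (P : Sylow p G) (hgen : (frattini (P : Subgroup G)).index = p ^ 2)
    (hcore : Cfsg.pPrimeCore p G = ⊥)
    (hfrat : ((frattini P).map (P : Subgroup G).subtype).normalCore = ⊥)
    (K : Subgroup G) [hKn : K.Normal] (hK : K ≠ ⊥) (a b : G) (ha : a ∈ (P : Subgroup G))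
    (hb : b ∈ (P : Subgroup G)) : a * b * a⁻¹ * b⁻¹ ∈ K := by
  have hPK : (P : Subgroup G) ≤ normalizer (K : Set G) := by
    rw [Subgroup.normalizer_eq_top]; exact le_top
  obtain ⟨w, hw, hwg⟩ := exists_gen_sub P hgen K hPK (not_le_frattini P hcore hfrat K hK)
  exact comm_mem_of_gen_sub (P : Subgroup G) K hPK w hwg a b ha hb

theorem inf_ne_bot (P : Sylow p G) (hna : ¬ IsMulCommutative (P : Subgroup G))
    (hgen : (frattini (P : Subgroup G)).index = p ^ 2)
    (hcore : Cfsg.pPrimeCore p G = ⊥)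
    (hfrat : ((frattini P).map (P : Subgroup G).subtype).normalCore = ⊥)
    (K₁ K₂ : Subgroup G) [K₁.Normal] [K₂.Normal] (h₁ : K₁ ≠ ⊥) (h₂ : K₂ ≠ ⊥) :
    K₁ ⊓ K₂ ≠ ⊥ := by
  intro hbot
  apply hna
  apply isMulCommutative_of_comm
  intro a ha b hb
  have h1 := comm_mem_normal P hgen hcore hfrat K₁ h₁ a b ha hb
  have h2 := comm_mem_normal P hgen hcore hfrat K₂ h₂ a b ha hb
  have h3 : a * b * a⁻¹ * b⁻¹ ∈ K₁ ⊓ K₂ := ⟨h1, h2⟩
  rw [hbot] at h3
  exact h3

theorem top_ne_bot_of (P : Sylow p G) (hna : ¬ IsMulCommutative (P : Subgroup G)) :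
    (⊤ : Subgroup G) ≠ ⊥ := by
  intro h
  apply hna
  apply isMulCommutative_of_comm
  intro a _ b _
  have h1 : a * b * a⁻¹ * b⁻¹ ∈ (⊤ : Subgroup G) := trivial
  rw [h] at h1
  exact h1

theorem exists_min_normal (P : Sylow p G) (hna : ¬ IsMulCommutative (P : Subgroup G))
    (hgen : (frattini (P : Subgroup G)).index = p ^ 2)
    (hcore : Cfsg.pPrimeCore p G = ⊥)
    (hfrat : ((frattini P).map (P : Subgroup G).subtype).normalCore = ⊥) :
    ∃ N : Subgroup G, N.Normal ∧ N ≠ ⊥ ∧ ∀ K : Subgroup G, K.Normal → K ≠ ⊥ → N ≤ K := by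
  obtain ⟨N, ⟨hNn, hN⟩, hmin⟩ := Set.exists_min_image {K : Subgroup G | K.Normal ∧ K ≠ ⊥}
    (fun K => Nat.card K) (Set.toFinite _) ⟨⊤, inferInstance, top_ne_bot_of P hna⟩
  refine ⟨N, hNn, hN, fun K hKn hK => ?_⟩
  have hne := inf_ne_bot P hna hgen hcore hfrat N K hN hK
  have hle : Nat.card N ≤ Nat.card (N ⊓ K : Subgroup G) := hmin (N ⊓ K) ⟨inferInstance, hne⟩
  have heq : N ⊓ K = N := Subgroup.eq_of_le_of_card_ge inf_le_left hle
  exact inf_eq_left.mp heq

/-! ### The case `F(G) = 1` -/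

theorem layer_inf_centralizer_eq_bot (hF : Cfsg.fittingSubgroup G = ⊥) :
    Cfsg.layer G ⊓ centralizer (Cfsg.layer G : Set G) = ⊥ := by
  have hEn := Cfsg.Agent.Lib.Helper21.Layer.layer_normal G
  have hZn : (Cfsg.layer G ⊓ centralizer (Cfsg.layer G : Set G)).Normal := inferInstance
  have hnil : Group.IsNilpotent ↥(Cfsg.layer G ⊓ centralizer (Cfsg.layer G : Set G)) := by
    apply Cfsg.Agent.Lib.Helper21.FStar.isNilpotent_of_commutator_eq_bot
    rw [commutator_eq_bot_iff_le_centralizer]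
    intro a ha
    rw [mem_centralizer_iff]
    intro b hb
    exact (mem_centralizer_iff.1 ha.2 b hb.1)
  have := Cfsg.Agent.Lib.Helper78.Fitting.le_fitting hZn hnil
  rwa [hF, le_bot_iff] at this

omit [Finite G] in
theorem orb_perfect (P : Subgroup G) {K : Subgroup G} (hK : Cfsg.IsComponent K) :
    ⁅Cfsg.Agent.Lib.Helper21.NormComp.orb P K, Cfsg.Agent.Lib.Helper21.NormComp.orb P K⁆
      = Cfsg.Agent.Lib.Helper21.NormComp.orb P K := by
  apply le_antisymm (Cfsg.Agent.Lib.Helper22.Layer.commutator_self_le _)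
  apply Cfsg.Agent.Lib.Helper21.NormComp.orb_le
  intro g hg
  have hc := Cfsg.Agent.Lib.Helper21.Comp.commutator_self
    (Cfsg.Agent.Lib.Helper21.LBal.isComponent_cj g hK).2
  calc K.map (MulAut.conj g).toMonoidHom
      = ⁅K.map (MulAut.conj g).toMonoidHom, K.map (MulAut.conj g).toMonoidHom⁆ := hc.symm
    _ ≤ _ := Subgroup.commutator_mono
        (Cfsg.Agent.Lib.Helper21.NormComp.cj_le_orb P K hg)
        (Cfsg.Agent.Lib.Helper21.NormComp.cj_le_orb P K hg)

theorem orb_not_le_frattini (P : Sylow p G) (hcore : Cfsg.pPrimeCore p G = ⊥) {K : Subgroup G}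
    (hK : Cfsg.IsComponent K) :
    ¬ Cfsg.Agent.Lib.Helper21.NormComp.orb (P : Subgroup G) K ⊓ (P : Subgroup G)
      ≤ (frattini P).map (P : Subgroup G).subtype := by
  intro h
  have hcop := coprime_of_perfect_sub P (Cfsg.Agent.Lib.Helper21.NormComp.orb (P : Subgroup G) K)
    (Cfsg.Agent.Lib.Helper21.NormComp.le_normalizer_orb (P : Subgroup G) K) h
    (orb_perfect (P : Subgroup G) hK)
  have hKcop : (Nat.card K).Coprime p :=
    Nat.Coprime.coprime_dvd_left
      (Subgroup.card_dvd_of_le (Cfsg.Agent.Lib.Helper21.NormComp.le_orb (P : Subgroup G) K)) hcop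
  have hcoreK : Cfsg.pPrimeCore p K = ⊥ := by
    rw [Cfsg.Agent.Lib.Helper22.PComp.pPrimeCore_eq_subgroupOf p hK.1, hcore,
      Subgroup.bot_subgroupOf]
  have htop : (⊤ : Subgroup K) ≤ Cfsg.pPrimeCore p K :=
    Cfsg.Agent.Lib.Helper50.Cores.le_pPrimeCore p ⊤ inferInstance (by rwa [Subgroup.card_top])
  rw [hcoreK, le_bot_iff] at htop
  apply Cfsg.Agent.Lib.Helper21.Comp.ne_bot_of_quasisimple hK.2
  rw [eq_bot_iff]
  intro x hx
  have h1 : (⟨x, hx⟩ : K) ∈ (⊤ : Subgroup K) := trivial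
  rw [htop] at h1
  simpa using congrArg Subtype.val (Subgroup.mem_bot.mp h1)

theorem components_conj (P : Sylow p G) (hna : ¬ IsMulCommutative (P : Subgroup G))
    (hgen : (frattini (P : Subgroup G)).index = p ^ 2)
    (hcore : Cfsg.pPrimeCore p G = ⊥) (hF : Cfsg.fittingSubgroup G = ⊥)
    (K L : Subgroup G) (hK : Cfsg.IsComponent K) (hL : Cfsg.IsComponent L) :
    ∃ x ∈ (P : Subgroup G), L = K.map (MulAut.conj x).toMonoidHom := by
  by_contra hne
  push Not at hne
  have h1 := Cfsg.Agent.Lib.Helper21.NormComp.orb_le_centralizer_orb (P : Subgroup G) hK hL hne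
  apply hna
  apply isMulCommutative_of_comm
  intro a ha b hb
  obtain ⟨w, hw, hwg⟩ := exists_gen_sub P hgen
    (Cfsg.Agent.Lib.Helper21.NormComp.orb (P : Subgroup G) K)
    (Cfsg.Agent.Lib.Helper21.NormComp.le_normalizer_orb (P : Subgroup G) K)
    (orb_not_le_frattini P hcore hK)
  obtain ⟨w', hw', hwg'⟩ := exists_gen_sub P hgen
    (Cfsg.Agent.Lib.Helper21.NormComp.orb (P : Subgroup G) L)
    (Cfsg.Agent.Lib.Helper21.NormComp.le_normalizer_orb (P : Subgroup G) L)
    (orb_not_le_frattini P hcore hL)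
  have hc1 := comm_mem_of_gen_sub (P : Subgroup G) _
    (Cfsg.Agent.Lib.Helper21.NormComp.le_normalizer_orb (P : Subgroup G) K) w hwg a b ha hb
  have hc2 := comm_mem_of_gen_sub (P : Subgroup G) _
    (Cfsg.Agent.Lib.Helper21.NormComp.le_normalizer_orb (P : Subgroup G) L) w' hwg' a b ha hb
  have hc3 : a * b * a⁻¹ * b⁻¹ ∈ Cfsg.layer G ⊓ centralizer (Cfsg.layer G : Set G) :=
    ⟨Cfsg.Agent.Lib.Helper21.NormComp.orb_le_layer (P : Subgroup G) hK hc1,
      Cfsg.Agent.Lib.Helper21.NormComp.orb_inf_centralizer_le (P : Subgroup G) hK ⟨hc1, h1 hc2⟩⟩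
  rw [layer_inf_centralizer_eq_bot hF] at hc3
  exact hc3

theorem layer_le_of_fitting_eq_bot (hF : Cfsg.fittingSubgroup G = ⊥) (N : Subgroup G)
    (hNn : N.Normal) (hN : N ≠ ⊥)
    (hmin : ∀ K : Subgroup G, K.Normal → K ≠ ⊥ → N ≤ K) : Cfsg.layer G ≤ N := by
  rw [← Cfsg.Agent.Lib.Helper21.MinNormal.sSup_minimal_eq_layer hF]
  apply sSup_le
  rintro N' ⟨hN'1, hN'n, hN'min⟩
  rcases hN'min N hNn (hmin N' hN'n hN'1) with h | h
  · exact absurd h hN
  · exact h.ge

/-! ### The case `F(G) ≠ 1` -/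

theorem fitting_le_sylow (P : Sylow p G) (hcore : Cfsg.pPrimeCore p G = ⊥) :
    Cfsg.fittingSubgroup G ≤ (P : Subgroup G) :=
  (Cfsg.Agent.Lib.Helper21.NormComp.fitting_le_pCore p hcore).trans
    (Cfsg.Agent.Lib.Helper78.Fitting.pCore_le_sylow P)

theorem fitting_pow (P : Sylow p G) (hcore : Cfsg.pPrimeCore p G = ⊥)
    (hfrat : ((frattini P).map (P : Subgroup G).subtype).normalCore = ⊥)
    (f : G) (hf : f ∈ Cfsg.fittingSubgroup G) : f ^ p = 1 := by
  have hFn := Cfsg.Agent.Lib.Helper78.Fitting.fitting_normal (G := G)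
  have hFP := fitting_le_sylow P hcore
  have hmem : f ^ p ∈ ((frattini P).map (P : Subgroup G).subtype).normalCore := by
    intro b
    rw [← conj_pow]
    have hq : b * f * b⁻¹ ∈ (P : Subgroup G) := hFP (hFn.conj_mem f hf b)
    refine ⟨(⟨b * f * b⁻¹, hq⟩ : (P : Subgroup G)) ^ p,
      Cfsg.Agent.Lib.Helper63.PFrattini.pow_mem_frattini P.isPGroup' _, ?_⟩
    simp
  rw [hfrat] at hmem
  exact hmem

theorem fitting_comm (P : Sylow p G) (hcore : Cfsg.pPrimeCore p G = ⊥)
    (hfrat : ((frattini P).map (P : Subgroup G).subtype).normalCore = ⊥)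
    (f₁ f₂ : G) (h₁ : f₁ ∈ Cfsg.fittingSubgroup G) (h₂ : f₂ ∈ Cfsg.fittingSubgroup G) :
    f₁ * f₂ * f₁⁻¹ * f₂⁻¹ = 1 := by
  have hFn := Cfsg.Agent.Lib.Helper78.Fitting.fitting_normal (G := G)
  have hFP := fitting_le_sylow P hcore
  have hmem : f₁ * f₂ * f₁⁻¹ * f₂⁻¹ ∈ ((frattini P).map (P : Subgroup G).subtype).normalCore := by
    intro b
    have hq₁ : b * f₁ * b⁻¹ ∈ (P : Subgroup G) := hFP (hFn.conj_mem f₁ h₁ b)
    have hq₂ : b * f₂ * b⁻¹ ∈ (P : Subgroup G) := hFP (hFn.conj_mem f₂ h₂ b)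
    refine ⟨(⟨b * f₁ * b⁻¹, hq₁⟩ : (P : Subgroup G)) * ⟨b * f₂ * b⁻¹, hq₂⟩ *
      (⟨b * f₁ * b⁻¹, hq₁⟩ : (P : Subgroup G))⁻¹ * (⟨b * f₂ * b⁻¹, hq₂⟩ : (P : Subgroup G))⁻¹,
      Cfsg.Agent.Lib.Helper63.PFrattini.comm_mem_frattini P.isPGroup' _ _, ?_⟩
    simp only [Subgroup.subtype_apply, Subgroup.coe_mul, Subgroup.coe_inv]
    group
  rw [hfrat] at hmem
  exact hmem

theorem layer_eq_bot_of_fitting (P : Sylow p G) (hcore : Cfsg.pPrimeCore p G = ⊥)
    (hfrat : ((frattini P).map (P : Subgroup G).subtype).normalCore = ⊥)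
    (N : Subgroup G) (hNn : N.Normal) (hN : N ≠ ⊥) (hNF : N ≤ Cfsg.fittingSubgroup G)
    (hmin : ∀ K : Subgroup G, K.Normal → K ≠ ⊥ → N ≤ K) : Cfsg.layer G = ⊥ := by
  by_contra hE
  have hEn := Cfsg.Agent.Lib.Helper21.Layer.layer_normal G
  have hNE : N ≤ Cfsg.layer G := hmin _ hEn hE
  have hNP : N ≤ (P : Subgroup G) := hNF.trans (fitting_le_sylow P hcore)
  obtain ⟨Q, hQ⟩ := Cfsg.Agent.S0542.result p (Cfsg.layer G) hEn.isSubnormal P
  have hperf : _root_.commutator ↥(Cfsg.layer G) = ⊤ :=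
    commutator_eq_top_of_self _ Cfsg.Agent.Lib.Helper22.Layer.layer_commutator_self
  have hNn' : (N.subgroupOf (Cfsg.layer G)).Normal := hNn.subgroupOf _
  have hker : (QuotientGroup.mk' (N.subgroupOf (Cfsg.layer G))).ker ≤ center ↥(Cfsg.layer G) := by
    rw [QuotientGroup.ker_mk']
    intro x hx
    rw [Subgroup.mem_center_iff]
    intro y
    apply Subtype.ext
    have h1 := Cfsg.Agent.Lib.Helper22.Layer.layer_le_centralizer_fitting (G := G)
    have h2 := (mem_centralizer_iff.1 (h1 y.2)) x (hNF (mem_subgroupOf.mp hx))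
    rw [Subgroup.coe_mul, Subgroup.coe_mul]
    exact h2.symm
  have h := Cfsg.Agent.S0101.result (QuotientGroup.mk' (N.subgroupOf (Cfsg.layer G)))
    (QuotientGroup.mk'_surjective _) hker hperf Q
  rw [QuotientGroup.ker_mk'] at h
  have hNΦ : N ≤ (frattini P).map (P : Subgroup G).subtype := by
    intro n hn
    have hn1 : (⟨n, hNE hn⟩ : Cfsg.layer G) ∈ N.subgroupOf (Cfsg.layer G) ⊓ (Q : Subgroup _) := by
      refine ⟨mem_subgroupOf.mpr hn, ?_⟩
      rw [hQ]
      exact mem_subgroupOf.mpr (hNP hn)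
    obtain ⟨y, hyF, hyn⟩ := h hn1
    have hφ := frattini_map_le (p := p) P.isPGroup'
      ((((Cfsg.layer G).subtype).comp (Q : Subgroup (Cfsg.layer G)).subtype).codRestrict
        (P : Subgroup G) (fun z => by
          exact mem_subgroupOf.mp (hQ.le z.2)))
    refine ⟨_, hφ (Subgroup.mem_map_of_mem _ hyF), ?_⟩
    exact congrArg Subtype.val hyn
  have := (Subgroup.normal_le_normalCore (hN := hNn)).mpr hNΦ
  rw [hfrat, le_bot_iff] at this
  exact hN this

theorem fitting_le_of (P : Sylow p G) (hna : ¬ IsMulCommutative (P : Subgroup G))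
    (hgen : (frattini (P : Subgroup G)).index = p ^ 2)
    (hcore : Cfsg.pPrimeCore p G = ⊥)
    (hfrat : ((frattini P).map (P : Subgroup G).subtype).normalCore = ⊥)
    (N : Subgroup G) (hNn : N.Normal) (hN : N ≠ ⊥) (hNF : N ≤ Cfsg.fittingSubgroup G) :
    Cfsg.fittingSubgroup G ≤ N := by
  have hp : p.Prime := Fact.out
  by_contra hFN
  obtain ⟨f, hfF, hfN⟩ := SetLike.not_le_iff_exists.mp hFN
  have hFP := fitting_le_sylow P hcore
  have hNP : N ≤ (P : Subgroup G) := hNF.trans hFP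
  have hPN : (P : Subgroup G) ≤ normalizer (N : Set G) := by
    rw [Subgroup.normalizer_eq_top]; exact le_top
  obtain ⟨w, hw, hwg⟩ := exists_gen_sub P hgen N hPN (not_le_frattini P hcore hfrat N hN)
  obtain ⟨k, d, hd, hfk⟩ := hwg f (hFP hfF)
  have hgF : w ^ k ∈ Cfsg.fittingSubgroup G := by
    have h1 : w ^ k = f * d⁻¹ := by rw [hfk]; group
    rw [h1]
    exact mul_mem hfF (inv_mem (hNF hd))
  have hgN : w ^ k ∉ N := by
    intro h
    apply hfN
    rw [hfk]
    exact mul_mem h hd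
  have hgp : (w ^ k) ^ p = 1 := fitting_pow P hcore hfrat _ hgF
  obtain ⟨e, he⟩ : ∃ e : ℕ, w ^ p ^ e = 1 := by
    obtain ⟨e, he⟩ := P.isPGroup' ⟨w, hw⟩
    exact ⟨e, by simpa using congrArg Subtype.val he⟩
  have hAN : zpowers w ⊓ N = ⊥ :=
    zpowers_inf_eq_bot w (w ^ k) N e he (zpow_mem_zpowers w k) hgp hgN
  have hKA : N ⊔ zpowers w = (P : Subgroup G) := by
    apply le_antisymm
    · exact sup_le hNP (by rw [zpowers_le]; exact hw)
    · intro q hq
      obtain ⟨k', d', hd', rfl⟩ := hwg q hq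
      exact mul_mem (mem_sup_right (zpow_mem_zpowers w k')) (mem_sup_left hd')
  have hNcomm : IsMulCommutative N := isMulCommutative_of_comm N
    (fun a ha b hb => fitting_comm P hcore hfrat a b (hNF ha) (hNF hb))
  have hcop : (Nat.card N).Coprime (P : Subgroup G).index := by
    obtain ⟨n, hn⟩ := (P.isPGroup'.to_le hNP).exists_card_eq
    rw [hn]
    exact Nat.Coprime.pow_left n ((Nat.Prime.coprime_iff_not_dvd hp).mpr P.not_dvd_index)
  obtain ⟨H, hH⟩ := Cfsg.Agent.S0051.result N (P : Subgroup G) hNP hcop (zpowers w)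
    (by rw [zpowers_le]; exact hw) hAN hKA
  have hCn : (centralizer (N : Set G)).Normal := inferInstance
  have hMn : (H ⊓ centralizer (N : Set G)).Normal := by
    constructor
    intro m hm g
    have hg : g ∈ ((N ⊔ H : Subgroup G) : Set G) := by rw [hH.sup_eq_top]; trivial
    rw [Subgroup.normal_mul] at hg
    obtain ⟨n, hn, h, hh, rfl⟩ := Set.mem_mul.mp hg
    have h1 : h * m * h⁻¹ ∈ H ⊓ centralizer (N : Set G) :=
      ⟨H.mul_mem (H.mul_mem hh hm.1) (H.inv_mem hh), hCn.conj_mem m hm.2 h⟩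
    have h2 : n * (h * m * h⁻¹) = (h * m * h⁻¹) * n := (mem_centralizer_iff.1 h1.2) n hn
    have h3 : n * h * m * (n * h)⁻¹ = h * m * h⁻¹ := by
      calc n * h * m * (n * h)⁻¹ = n * (h * m * h⁻¹) * n⁻¹ := by group
        _ = (h * m * h⁻¹) * n * n⁻¹ := by rw [h2]
        _ = _ := by group
    rw [h3]
    exact h1
  have hMbot : H ⊓ centralizer (N : Set G) = ⊥ := by
    by_contra hM
    apply inf_ne_bot P hna hgen hcore hfrat (H ⊓ centralizer (N : Set G)) N hM hN
    rw [eq_bot_iff]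
    intro x hx
    have h1 : x ∈ N ⊓ H := ⟨hx.2, hx.1.1⟩
    rw [hH.disjoint.eq_bot] at h1
    exact h1
  apply hfN
  have hf : f ∈ ((N ⊔ H : Subgroup G) : Set G) := by rw [hH.sup_eq_top]; trivial
  rw [Subgroup.normal_mul] at hf
  obtain ⟨n, hn, h, hh, rfl⟩ := Set.mem_mul.mp hf
  have hhF : h ∈ Cfsg.fittingSubgroup G := by
    have h1 : h = n⁻¹ * (n * h) := by group
    rw [h1]
    exact mul_mem (inv_mem (hNF hn)) hfF
  have hhC : h ∈ centralizer (N : Set G) := by
    rw [mem_centralizer_iff]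
    intro x hx
    have h1 := fitting_comm P hcore hfrat x h (hNF hx) hhF
    calc x * h = (x * h * x⁻¹ * h⁻¹) * (h * x) := by group
      _ = h * x := by rw [h1, one_mul]
  have hh1 : h ∈ H ⊓ centralizer (N : Set G) := ⟨hh, hhC⟩
  rw [hMbot, mem_bot] at hh1
  rw [hh1, mul_one]
  exact hn

end ambient

/-- Let p be a prime and G a finite group with a non-commutative Sylow p-subgroup P whose Frattini subgroup has index p² in P (P is generated by two elements). Suppose G has no nontrivial normal subgroup of order prime to p and the Frattini subgroup of P contains no nontrivial normal subgroup of G. Then the generalized Fitting subgroup F*(G) is the unique minimal normal subgroup of G, the image of P in G/F*(G) is cyclic, and if F*(G) is not commutative then P permutes the components of G transitively by conjugation. -/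
theorem result {G : Type*} [Group G] [Finite G] (p : ℕ) [Fact p.Prime] (P : Sylow p G) (hna : ¬ IsMulCommutative (P : Subgroup G)) (hgen : (frattini ↥(P : Subgroup G)).index = p ^ 2) (hcore : Cfsg.pPrimeCore p G = ⊥) (hfrat : ((frattini ↥(P : Subgroup G)).map (P : Subgroup G).subtype).normalCore = ⊥) [hFn : (Cfsg.generalizedFittingSubgroup G).Normal] :
    (Cfsg.generalizedFittingSubgroup G ≠ ⊥ ∧ ∀ K : Subgroup G, K.Normal → K ≠ ⊥ → Cfsg.generalizedFittingSubgroup G ≤ K) ∧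
      IsCyclic ↥((P : Subgroup G).map (QuotientGroup.mk' (Cfsg.generalizedFittingSubgroup G))) ∧
      (¬ IsMulCommutative (Cfsg.generalizedFittingSubgroup G) → ∀ K L : Subgroup G, Cfsg.IsComponent K → Cfsg.IsComponent L → ∃ x ∈ (P : Subgroup G), L = K.map (MulAut.conj x).toMonoidHom) := by
  have hp : p.Prime := Fact.out
  obtain ⟨N, hNn, hN, hmin⟩ := exists_min_normal P hna hgen hcore hfrat
  have hFsN : Cfsg.generalizedFittingSubgroup G ≤ N ∧
      (Cfsg.fittingSubgroup G ≠ ⊥ → Cfsg.layer G = ⊥) := by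
    by_cases hF : Cfsg.fittingSubgroup G = ⊥
    · refine ⟨?_, fun h => absurd hF h⟩
      unfold Cfsg.generalizedFittingSubgroup
      rw [hF, sup_bot_eq]
      exact layer_le_of_fitting_eq_bot hF N hNn hN hmin
    · have hFn' := Cfsg.Agent.Lib.Helper78.Fitting.fitting_normal (G := G)
      have hNF : N ≤ Cfsg.fittingSubgroup G := hmin _ hFn' hF
      have hE := layer_eq_bot_of_fitting P hcore hfrat N hNn hN hNF hmin
      refine ⟨?_, fun _ => hE⟩
      unfold Cfsg.generalizedFittingSubgroup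
      rw [hE, bot_sup_eq]
      exact fitting_le_of P hna hgen hcore hfrat N hNn hN hNF
  have hFs_ne : Cfsg.generalizedFittingSubgroup G ≠ ⊥ := by
    intro h
    have h1 := Cfsg.Agent.Lib.Helper21.FStar.centralizer_gfs_le (G := G)
    rw [h] at h1
    apply top_ne_bot_of P hna
    rw [eq_bot_iff]
    intro x _
    apply h1
    rw [mem_centralizer_iff]
    intro y hy
    have hy1 : y = 1 := Subgroup.mem_bot.mp hy
    rw [hy1, one_mul, mul_one]
  refine ⟨⟨hFs_ne, fun K hKn hK => hFsN.1.trans (hmin K hKn hK)⟩, ?_, ?_⟩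
  · have hPK : (P : Subgroup G) ≤ normalizer (Cfsg.generalizedFittingSubgroup G : Set G) := by
      rw [Subgroup.normalizer_eq_top]; exact le_top
    obtain ⟨w, hw, hwg⟩ := exists_gen_sub P hgen _ hPK
      (not_le_frattini P hcore hfrat (Cfsg.generalizedFittingSubgroup G) hFs_ne)
    rw [isCyclic_iff_exists_zpowers_eq_top]
    refine ⟨⟨QuotientGroup.mk' (Cfsg.generalizedFittingSubgroup G) w,
      Subgroup.mem_map_of_mem _ hw⟩, ?_⟩
    rw [eq_top_iff]
    rintro ⟨x, hx⟩ _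
    obtain ⟨q, hq, rfl⟩ := Subgroup.mem_map.mp hx
    obtain ⟨k, d, hd, rfl⟩ := hwg q hq
    rw [Subgroup.mem_zpowers_iff]
    refine ⟨k, ?_⟩
    apply Subtype.ext
    have hd1 : (QuotientGroup.mk' (Cfsg.generalizedFittingSubgroup G)) d = 1 :=
      (QuotientGroup.eq_one_iff d).mpr hd
    rw [Subgroup.coe_zpow]
    show (QuotientGroup.mk' (Cfsg.generalizedFittingSubgroup G)) w ^ k
      = (QuotientGroup.mk' (Cfsg.generalizedFittingSubgroup G)) (w ^ k * d)
    rw [map_mul, hd1, mul_one, map_zpow]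
  · intro _ K L hK hL
    by_cases hF : Cfsg.fittingSubgroup G = ⊥
    · exact components_conj P hna hgen hcore hF K L hK hL
    · exfalso
      have hE := hFsN.2 hF
      apply Cfsg.Agent.Lib.Helper21.Comp.ne_bot_of_quasisimple hK.2
      have h1 := Cfsg.Agent.Lib.Helper22.Layer.le_layer hK
      rwa [hE, le_bot_iff] at h1

end Cfsg.Agent.S4172
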