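import Cfsg.Statements.S4176
import Cfsg.Agent.Lib.Helper69.RepAvg
import Cfsg.Agent.Lib.Helper76.PSolv
-- import your own Cfsg.Agent.* helpers here

set_option autoImplicit false
open Cfsg

namespace Cfsg.Agent.S4176

open Cfsg.Agent.Lib.Helper69 Cfsg.Agent.Lib.Helper69.RepAvg

universe u v w

section

variable {k : Type w} {H : Type u} {V : Type v} [Field k] [AddCommGroup V] [Module k V] [Group H]

/-- the inductive statement -/
def Q (ρ : Representation k H V) (a : V) : Prop :=
  (∃ σ : V, ∀ v : V, (∀ h : H, ρ h v = v) → v ∈ Submodule.span k {σ}) ∧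
  ∀ b : V, (stab ρ a).index.Coprime (stab ρ b).index → ∀ h : H, ρ h b = b

theorem mem_inv_iff (ρ : Representation k H V) (N : Subgroup H) (v : V) :
    v ∈ (Representation.invariants (ρ.comp N.subtype)) ↔ ∀ x ∈ N, ρ x v = v := by
  rw [Representation.mem_invariants]
  constructor
  · intro h x hx; exact h ⟨x, hx⟩
  · intro h x; exact h x.1 x.2

theorem reduce [Finite H] (ρ : Representation k H V) (N : Subgroup H) [N.Normal] (a : V)
    (a' : (Representation.invariants (ρ.comp N.subtype)))
    (hA2 : stab ρ a ≤ stab ρ a'.1)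
    (hA4 : ∀ b : V, (stab ρ a).index.Coprime (stab ρ b).index → ∀ x ∈ N, ρ x b = b)
    (IH : Q (ρ.quotientToInvariants N) a') : Q ρ a := by
  obtain ⟨⟨σ, hσ⟩, hb⟩ := IH
  have hcomap : ∀ v : (Representation.invariants (ρ.comp N.subtype)),
      (stab (ρ.quotientToInvariants N) v).comap (QuotientGroup.mk' N) = stab ρ v.1 := by
    intro v
    ext h
    rw [Subgroup.mem_comap, mem_stab, mem_stab]
    constructor
    · intro e; exact congrArg Subtype.val e
    · intro e; exact Subtype.ext e
  have hidx : ∀ v : (Representation.invariants (ρ.comp N.subtype)),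
      (stab (ρ.quotientToInvariants N) v).index = (stab ρ v.1).index := by
    intro v
    rw [← hcomap v, Subgroup.index_comap_of_surjective _ (QuotientGroup.mk'_surjective N)]
  constructor
  · refine ⟨σ.1, ?_⟩
    intro v hv
    have hvW : v ∈ (Representation.invariants (ρ.comp N.subtype)) := (mem_inv_iff ρ N v).2 (fun x _ => hv x)
    have := hσ ⟨v, hvW⟩ (by
      intro q
      induction q using QuotientGroup.induction_on with
      | H h => exact Subtype.ext (hv h))
    obtain ⟨c, hc⟩ := Submodule.mem_span_singleton.1 this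
    rw [Submodule.mem_span_singleton]
    exact ⟨c, congrArg Subtype.val hc⟩
  · intro b hcop h
    have hbW : b ∈ (Representation.invariants (ρ.comp N.subtype)) := (mem_inv_iff ρ N b).2 (hA4 b hcop)
    have hcop' : (stab (ρ.quotientToInvariants N) a').index.Coprime
        (stab (ρ.quotientToInvariants N) ⟨b, hbW⟩).index := by
      rw [hidx, hidx]
      exact Nat.Coprime.coprime_dvd_left (Subgroup.index_dvd_of_le hA2) hcop
    have := hb ⟨b, hbW⟩ hcop' (h : H ⧸ N)
    exact congrArg Subtype.val this

theorem fix_quot [Finite H] (p : ℕ) [Fact p.Prime] (ρ : Representation k H V) (N : Subgroup H)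
    [N.Normal] (a' : (Representation.invariants (ρ.comp N.subtype))) (P : Sylow p H)
    (hP : ∀ x ∈ (P : Subgroup H), ρ x a'.1 = a'.1) :
    ∃ P' : Sylow p (H ⧸ N), ∀ x : H ⧸ N, x ∈ (P' : Subgroup (H ⧸ N)) →
      ρ.quotientToInvariants N x a' = a' := by
  refine ⟨P.mapSurjective (QuotientGroup.mk'_surjective N), ?_⟩
  intro x hx
  rw [Sylow.coe_mapSurjective] at hx
  obtain ⟨y, hy, rfl⟩ := hx
  exact Subtype.ext (hP y hy)

theorem span_quot (ρ : Representation k H V) (N : Subgroup H) [N.Normal]
    (a' : (Representation.invariants (ρ.comp N.subtype)))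
    (hA3 : ∀ v : V, (∀ x ∈ N, ρ x v = v) →
      v ∈ Submodule.span k {u : V | ∃ h : H, ρ h a'.1 = u}) :
    Submodule.span k {u : (Representation.invariants (ρ.comp N.subtype)) |
      ∃ q : H ⧸ N, ρ.quotientToInvariants N q a' = u} = ⊤ := by
  rw [eq_top_iff]
  rintro ⟨v, hv⟩ -
  have h1 := hA3 v ((mem_inv_iff ρ N v).1 hv)
  have h2 : {u : V | ∃ h : H, ρ h a'.1 = u} =
      (Submodule.subtype (Representation.invariants (ρ.comp N.subtype))) ''
        {u : (Representation.invariants (ρ.comp N.subtype)) | ∃ q : H ⧸ N, ρ.quotientToInvariants N q a' = u} := by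
    ext u
    constructor
    · rintro ⟨h, rfl⟩
      exact ⟨ρ.quotientToInvariants N (h : H ⧸ N) a', ⟨_, rfl⟩, rfl⟩
    · rintro ⟨_, ⟨q, rfl⟩, rfl⟩
      induction q using QuotientGroup.induction_on with
      | H h => exact ⟨h, rfl⟩
  rw [h2, Submodule.span_image] at h1
  obtain ⟨w, hw, e⟩ := h1
  have : w = ⟨v, hv⟩ := Subtype.ext e
  rw [← this]
  exact hw

theorem fixed_of_normal (ρ : Representation k H V) (N : Subgroup H) [hN : N.Normal] (a : V)
    (hspan : Submodule.span k {u : V | ∃ h : H, ρ h a = u} = ⊤)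
    (hNa : ∀ x ∈ N, ρ x a = a) : ∀ v : V, ∀ x ∈ N, ρ x v = v := by
  intro v x hx
  have hv : v ∈ Submodule.span k {u : V | ∃ h : H, ρ h a = u} := by rw [hspan]; trivial
  induction hv using Submodule.span_induction with
  | mem u hu =>
    obtain ⟨h, rfl⟩ := hu
    have e : x * h = h * (h⁻¹ * x * h) := by group
    have hmem : h⁻¹ * x * h ∈ N := by
      have := hN.conj_mem x hx h⁻¹
      simpa using this
    rw [← Module.End.mul_apply, ← map_mul, e, map_mul, Module.End.mul_apply, hNa _ hmem]
  | zero => simp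
  | add u w _ _ hu hw => rw [map_add, hu, hw]
  | smul c u _ hu => rw [map_smul, hu]

theorem pprime_step [Finite H] (p : ℕ) [hp : Fact p.Prime] [CharP k p] (ρ : Representation k H V)
    (N : Subgroup H) [N.Normal] (hN : (Nat.card N).Coprime p) (a : V)
    (hspan : Submodule.span k {u : V | ∃ h : H, ρ h a = u} = ⊤) :
    ∃ a₁ : V, (∀ x ∈ N, ρ x a₁ = a₁) ∧ stab ρ a ≤ stab ρ a₁ ∧
      (∀ v : V, (∀ x ∈ N, ρ x v = v) → v ∈ Submodule.span k {u : V | ∃ h : H, ρ h a₁ = u}) ∧
      (∀ b : V, (stab ρ a).index.Coprime (stab ρ b).index → ∀ x ∈ N, ρ x b = b) := by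
  classical
  have := Fintype.ofFinite N
  have hc0 : ((Fintype.card N : ℕ) : k) ≠ 0 := by
    rw [Ne, CharP.cast_eq_zero_iff k p, ← Nat.card_eq_fintype_card]
    exact fun hd => (Nat.Prime.coprime_iff_not_dvd hp.out).1 hN.symm hd
  refine ⟨((Fintype.card N : ℕ) : k)⁻¹ • ∑ x : N, ρ (x : H) a, ?_, ?_, ?_, ?_⟩
  · intro x hx
    rw [map_smul, sum_fixed ρ N a x hx]
  · intro h hh
    rw [mem_stab] at hh ⊢
    rw [map_smul, sum_normal_comm ρ N h a, hh]
  · intro v hv
    have hv' : v = ((Fintype.card N : ℕ) : k)⁻¹ • ∑ x : N, ρ (x : H) v := by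
      rw [sum_of_fixed ρ N v hv, smul_smul, inv_mul_cancel₀ hc0, one_smul]
    have hvs : v ∈ Submodule.span k {u : V | ∃ h : H, ρ h a = u} := by rw [hspan]; trivial
    rw [hv']
    have key : ∀ w ∈ Submodule.span k {u : V | ∃ h : H, ρ h a = u},
        ((Fintype.card N : ℕ) : k)⁻¹ • ∑ x : N, ρ (x : H) w ∈
          Submodule.span k {u : V | ∃ h : H,
            ρ h (((Fintype.card N : ℕ) : k)⁻¹ • ∑ x : N, ρ (x : H) a) = u} := by
      intro w hw
      induction hw using Submodule.span_induction with
      | mem u hu =>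
        obtain ⟨h, rfl⟩ := hu
        apply Submodule.subset_span
        exact ⟨h, by rw [map_smul, sum_normal_comm ρ N h a]⟩
      | zero => simp
      | add u w _ _ hu hw =>
        have e : ∑ x : N, ρ (x : H) (u + w) = ∑ x : N, ρ (x : H) u + ∑ x : N, ρ (x : H) w := by
          simp only [map_add, Finset.sum_add_distrib]
        rw [e, smul_add]
        exact Submodule.add_mem _ hu hw
      | smul d u _ hu =>
        have e : ∑ x : N, ρ (x : H) (d • u) = d • ∑ x : N, ρ (x : H) u := by
          simp only [map_smul, Finset.smul_sum]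
        rw [e, smul_comm]
        exact Submodule.smul_mem _ _ hu
    exact key v hvs
  · intro b hcop
    have hLfin := Fintype.ofFinite ((stab ρ b).subgroupOf N)
    have hL0 : ((Fintype.card ((stab ρ b).subgroupOf N) : ℕ) : k) ≠ 0 := by
      rw [Ne, CharP.cast_eq_zero_iff k p, ← Nat.card_eq_fintype_card]
      intro hd
      exact (Nat.Prime.coprime_iff_not_dvd hp.out).1 hN.symm
        (hd.trans (Subgroup.card_subgroup_dvd_card _))
    have htrans : ∀ h : H, ∀ g : N, ∃ l ∈ (stab ρ b).subgroupOf N,
        (ρ.comp N.subtype) l (ρ h a) = (ρ.comp N.subtype) g (ρ h a) := by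
      intro h
      let _ : MulAction N V := MulAction.compHom V ((ρ.comp N.subtype) : N →* Module.End k V)
      have hcop' : (Nat.card (MulAction.orbit N (ρ h a))).Coprime
          ((stab ρ b).subgroupOf N).index := by
        have h1 : (MulAction.stabilizer N (ρ h a)).index = Nat.card (MulAction.orbit N (ρ h a)) := by
          rw [MulAction.index_stabilizer, Nat.card_coe_set_eq]
        have h2 : MulAction.stabilizer N (ρ h a) = (stab ρ (ρ h a)).subgroupOf N := by
          ext g; rfl
        rw [← h1, h2]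
        have d1 : ((stab ρ (ρ h a)).subgroupOf N).index ∣ (stab ρ a).index := by
          rw [← index_stab_apply ρ a h]
          exact relIndex_dvd_index_of_normal_right _ N
        have d2 : ((stab ρ b).subgroupOf N).index ∣ (stab ρ b).index :=
          relIndex_dvd_index_of_normal_right _ N
        exact Nat.Coprime.coprime_dvd_left d1 (Nat.Coprime.coprime_dvd_right d2 hcop)
      intro g
      obtain ⟨l, hl, e⟩ := PNil.exists_mem_smul_eq_of_coprime (ρ h a) _ hcop' g
      exact ⟨l, hl, e⟩
    have hlin : ((Fintype.card N : ℕ) : k) •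
        (∑ l : (stab ρ b).subgroupOf N, (ρ.comp N.subtype) (l : N)) =
        ((Fintype.card ((stab ρ b).subgroupOf N) : ℕ) : k) • (∑ g : N, (ρ.comp N.subtype) g) := by
      apply LinearMap.ext_on hspan
      rintro _ ⟨h, rfl⟩
      simp only [LinearMap.smul_apply, LinearMap.sum_apply]
      exact sum_smul_eq (ρ.comp N.subtype) ((stab ρ b).subgroupOf N) (ρ h a) (htrans h)
    have hbL : ∑ l : (stab ρ b).subgroupOf N, (ρ.comp N.subtype) (l : N) b =
        ((Fintype.card ((stab ρ b).subgroupOf N) : ℕ) : k) • b := by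
      rw [Finset.sum_congr rfl (fun (l : (stab ρ b).subgroupOf N) _ =>
          (show (ρ.comp N.subtype) (l : N) b = b from l.2)),
        Finset.sum_const, Finset.card_univ, Nat.cast_smul_eq_nsmul]
    have h3 := congrArg (fun f : V →ₗ[k] V => f b) hlin
    simp only [LinearMap.smul_apply, LinearMap.sum_apply] at h3
    rw [hbL] at h3
    have h4 : ((Fintype.card N : ℕ) : k) • b = ∑ g : N, (ρ.comp N.subtype) g b := by
      have h5 : ((Fintype.card ((stab ρ b).subgroupOf N) : ℕ) : k) • (((Fintype.card N : ℕ) : k) • b) =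
          ((Fintype.card ((stab ρ b).subgroupOf N) : ℕ) : k) • ∑ g : N, (ρ.comp N.subtype) g b := by
        rw [← h3, smul_comm]
      exact smul_right_injective V hL0 h5
    intro x hx
    have h5 : b = ((Fintype.card N : ℕ) : k)⁻¹ • ∑ g : N, ρ (g : H) b := by
      have : ∑ g : N, (ρ.comp N.subtype) g b = ∑ g : N, ρ (g : H) b := rfl
      rw [← this, ← h4, smul_smul, inv_mul_cancel₀ hc0, one_smul]
    rw [h5, map_smul, sum_fixed ρ N b x hx]

end

theorem main (p : ℕ) [Fact p.Prime] {k : Type w} [Field k] [CharP k p] :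
    ∀ (n : ℕ) (H : Type u) [Group H] [Finite H], Nat.card H = n → Cfsg.IsPSolvable p H →
    ∀ (V : Type v) [AddCommGroup V] [Module k V] (ρ : Representation k H V) (a : V),
      (∃ P : Sylow p H, ∀ x : H, x ∈ (P : Subgroup H) → ρ x a = a) →
      Submodule.span k {u : V | ∃ h : H, ρ h a = u} = ⊤ → Q ρ a := by
  intro n
  induction n using Nat.strong_induction_on with
  | _ n ih =>
    intro H _ _ hcard hsol V _ _ ρ a hfix hspan
    by_cases htriv : Subsingleton H
    · constructor
      · refine ⟨a, ?_⟩
        intro v _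
        have hv : v ∈ Submodule.span k {u : V | ∃ h : H, ρ h a = u} := by rw [hspan]; trivial
        have hset : {u : V | ∃ h : H, ρ h a = u} = {a} := by
          ext u
          constructor
          · rintro ⟨h, rfl⟩
            rw [Subsingleton.elim h 1, map_one]; rfl
          · rintro rfl
            exact ⟨1, by rw [map_one]; rfl⟩
        rwa [hset] at hv
      · intro b _ h
        rw [Subsingleton.elim h 1, map_one]; rfl
    · have hnt : Nontrivial H := not_subsingleton_iff_nontrivial.1 htriv
      obtain ⟨N, hNn, hNne, hN⟩ := exists_normal_of_isPSolvable p hsol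
      have hlt : Nat.card (H ⧸ N) < n := by
        rw [← hcard, Subgroup.card_eq_card_quotient_mul_card_subgroup N]
        have h1 : 1 < Nat.card N := (Subgroup.one_lt_card_iff_ne_bot N).2 hNne
        have h2 : 0 < Nat.card (H ⧸ N) := Nat.card_pos
        nlinarith
      have hsol' := Cfsg.Agent.Lib.Helper76.PSolv.isPSolvable_quotient p N hsol
      obtain ⟨P, hP⟩ := hfix
      obtain ⟨a₁, hA1, hA2, hA3, hA4⟩ : ∃ a₁ : V, (∀ x ∈ N, ρ x a₁ = a₁) ∧ stab ρ a ≤ stab ρ a₁ ∧
          (∀ v : V, (∀ x ∈ N, ρ x v = v) →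
            v ∈ Submodule.span k {u : V | ∃ h : H, ρ h a₁ = u}) ∧
          (∀ b : V, (stab ρ a).index.Coprime (stab ρ b).index → ∀ x ∈ N, ρ x b = b) := by
        rcases hN with hNp | hNc
        · have hNP : N ≤ (P : Subgroup H) := hNp.le_sylow_of_normal P
          have hfixN := fixed_of_normal ρ N a hspan (fun x hx => hP x (hNP hx))
          exact ⟨a, fun x hx => hfixN a x hx, le_refl _, fun v _ => by rw [hspan]; trivial,
            fun b _ x hx => hfixN b x hx⟩
        · exact pprime_step p ρ N hNc a hspan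
      have ha₁W : a₁ ∈ (Representation.invariants (ρ.comp N.subtype)) := (mem_inv_iff ρ N a₁).2 hA1
      have hfix' := fix_quot p ρ N ⟨a₁, ha₁W⟩ P (fun x hx => hA2 (hP x hx))
      have hspan' := span_quot ρ N ⟨a₁, ha₁W⟩ hA3
      have IH := ih _ hlt (H ⧸ N) rfl hsol' _ (ρ.quotientToInvariants N) ⟨a₁, ha₁W⟩ hfix' hspan'
      exact reduce ρ N a ⟨a₁, ha₁W⟩ hA2 hA4 IH

/-- Let k be a field of prime characteristic p, H a finite p-soluble group and ρ a k-linear representation of H on V. Let a be a vector that is fixed by some Sylow p-subgroup of H and whose H-orbit spans V. Then the space of H-fixed vectors has dimension at most 1, and every vector b whose H-orbit has size coprime to the size of the orbit of a is fixed by H. -/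
theorem result {k V H : Type*} [Field k] (p : ℕ) [Fact p.Prime] [CharP k p] [AddCommGroup V] [Module k V]
    [Group H] [Finite H] (hsol : Cfsg.IsPSolvable p H) (ρ : Representation k H V) (a : V)
    (hfix : ∃ P : Sylow p H, ∀ x : H, x ∈ (P : Subgroup H) → ρ x a = a)
    (hspan : Submodule.span k {u : V | ∃ h : H, ρ h a = u} = ⊤) :
    Module.finrank k ρ.invariants ≤ 1 ∧
    ∀ b : V, (Nat.card {u : V | ∃ h : H, ρ h a = u}).Coprime (Nat.card {u : V | ∃ h : H, ρ h b = u}) → ∀ h : H, ρ h b = b := by
  obtain ⟨⟨σ, hσ⟩, hb⟩ := main p (Nat.card H) H rfl hsol V ρ a hfix hspan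
  constructor
  · have hle : ρ.invariants ≤ Submodule.span k {σ} := fun v hv =>
      hσ v ((Representation.mem_invariants ρ v).1 hv)
    refine (Submodule.finrank_mono hle).trans ?_
    by_cases h0 : σ = 0
    · rw [h0, Submodule.span_zero_singleton k, finrank_bot]
      exact Nat.zero_le 1
    · rw [finrank_span_singleton h0]
  · intro b hcop
    apply hb
    rw [← card_orbit_eq_index, ← card_orbit_eq_index]
    exact hcop

end Cfsg.Agent.S4176
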