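import Cfsg.Statements.S4177
-- import your own Cfsg.Agent.* helpers here

set_option autoImplicit false
open Cfsg

namespace Cfsg.Agent.S4177

/-- Coprime orbit sizes: the stabilizer of `b` is transitive on the orbit of `a`. -/
theorem trans_of_coprime {H V : Type*} [Group H] [Finite H] [MulAction H V] (a b : V)
    (hcop : (Nat.card (MulAction.orbit H a)).Coprime (Nat.card (MulAction.orbit H b))) :
    ∀ g : H, ∃ h ∈ MulAction.stabilizer H b, h • a = g • a := by
  have hA : (MulAction.stabilizer H a).index = Nat.card (MulAction.orbit H a) := by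
    rw [MulAction.index_stabilizer, Nat.card_coe_set_eq]
  have hB : (MulAction.stabilizer H b).index = Nat.card (MulAction.orbit H b) := by
    rw [MulAction.index_stabilizer, Nat.card_coe_set_eq]
  rw [← hA, ← hB] at hcop
  have h1 : (MulAction.stabilizer (MulAction.stabilizer H b) a).index =
      (MulAction.orbit (MulAction.stabilizer H b) a).ncard :=
    MulAction.index_stabilizer (MulAction.stabilizer H b) a
  have h2 : MulAction.stabilizer (MulAction.stabilizer H b) a =
      (MulAction.stabilizer H a).subgroupOf (MulAction.stabilizer H b) := by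
    ext x
    rw [Subgroup.mem_subgroupOf, MulAction.mem_stabilizer_iff, MulAction.mem_stabilizer_iff]
    rfl
  have h3 : (MulAction.stabilizer H a).relIndex (MulAction.stabilizer H b) =
      (MulAction.orbit (MulAction.stabilizer H b) a).ncard := by
    rw [← h1, h2]; rfl
  have e1 := Subgroup.relIndex_mul_index
    (inf_le_right : MulAction.stabilizer H a ⊓ MulAction.stabilizer H b ≤ MulAction.stabilizer H b)
  have e2 := Subgroup.relIndex_mul_index
    (inf_le_left : MulAction.stabilizer H a ⊓ MulAction.stabilizer H b ≤ MulAction.stabilizer H a)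
  rw [Subgroup.inf_relIndex_right] at e1
  have h4 : (MulAction.stabilizer H a).index ∣
      (MulAction.stabilizer H a).relIndex (MulAction.stabilizer H b) := by
    apply hcop.dvd_of_dvd_mul_right
    rw [e1, ← e2]
    exact dvd_mul_left _ _
  have hpos : 0 < (MulAction.stabilizer H a).relIndex (MulAction.stabilizer H b) :=
    Nat.pos_of_ne_zero (Subgroup.index_ne_zero_of_finite
      (H := (MulAction.stabilizer H a).subgroupOf (MulAction.stabilizer H b)))
  have hle := Nat.le_of_dvd hpos h4
  have hsub : MulAction.orbit (MulAction.stabilizer H b) a ⊆ MulAction.orbit H a := by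
    rintro _ ⟨x, rfl⟩
    exact ⟨x.1, rfl⟩
  have heq : MulAction.orbit (MulAction.stabilizer H b) a = MulAction.orbit H a := by
    apply Set.eq_of_subset_of_ncard_le hsub _ (Set.finite_range _)
    rw [← h3, ← Nat.card_coe_set_eq, ← hA]
    exact hle
  intro g
  have : g • a ∈ MulAction.orbit (MulAction.stabilizer H b) a := by
    rw [heq]; exact ⟨g, rfl⟩
  obtain ⟨x, hx⟩ := this
  exact ⟨x.1, x.2, hx⟩

/-- The orbit-average lemma. -/
theorem mem_span_of_fixed {k V H : Type*} [Field k] [AddCommGroup V] [Module k V] [Group H]
    [Fintype H] (hchar : ¬ ringChar k ∣ Nat.card H) (ρ : Representation k H V) (a : V)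
    (hspan : Submodule.span k {u : V | ∃ h : H, ρ h a = u} = ⊤)
    (K : Subgroup H) (hK : ∀ g : H, ∃ h ∈ K, ρ h a = ρ g a)
    (v : V) (hv : ∀ h ∈ K, ρ h v = v) :
    v ∈ Submodule.span k {∑ h : H, ρ h a} := by
  classical
  have : Fintype K := Fintype.ofFinite K
  have hH0 : ((Fintype.card H : ℕ) : k) ≠ 0 := by
    rw [Ne, ringChar.spec, ← Nat.card_eq_fintype_card]
    exact hchar
  have hK0 : ((Fintype.card K : ℕ) : k) ≠ 0 := by
    rw [Ne, ringChar.spec, ← Nat.card_eq_fintype_card]
    intro h
    exact hchar (h.trans (Subgroup.card_subgroup_dvd_card K))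
  set S : V →ₗ[k] V := ∑ h : K, ρ (h : H) with hS
  have hSapp : ∀ w : V, S w = ∑ h : K, ρ (h : H) w := by
    intro w; rw [hS, LinearMap.sum_apply]
  -- Step 1
  have step1 : ∀ g : H, S (ρ g a) = S a := by
    intro g
    obtain ⟨h₀, hh₀, e⟩ := hK g
    rw [← e, hSapp, hSapp]
    refine Fintype.sum_equiv (Equiv.mulRight (⟨h₀, hh₀⟩ : K)) _ _ ?_
    intro x
    simp only [Equiv.coe_mulRight, Subgroup.coe_mul, map_mul, Module.End.mul_apply]
  -- Step 2
  have step2 : (Fintype.card H : k) • S a = (Fintype.card K : k) • ∑ h : H, ρ h a := by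
    have e1 : ∑ g : H, S (ρ g a) = Fintype.card H • S a := by
      rw [Finset.sum_congr rfl (fun g _ => step1 g), Finset.sum_const, Finset.card_univ]
    have e2 : ∑ g : H, S (ρ g a) = Fintype.card K • ∑ h : H, ρ h a := by
      simp only [hSapp]
      rw [Finset.sum_comm]
      have : ∀ x : K, ∑ g : H, ρ (x : H) (ρ g a) = ∑ h : H, ρ h a := by
        intro x
        refine Fintype.sum_equiv (Equiv.mulLeft (x : H)) _ _ ?_
        intro g
        simp only [Equiv.coe_mulLeft, map_mul, Module.End.mul_apply]
      rw [Finset.sum_congr rfl (fun x _ => this x), Finset.sum_const, Finset.card_univ]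
    rw [Nat.cast_smul_eq_nsmul, Nat.cast_smul_eq_nsmul, ← e1, e2]
  -- Step 3
  have step3 : S v = (Fintype.card K : k) • v := by
    rw [hSapp, Finset.sum_congr rfl (fun x _ => hv x.1 x.2), Finset.sum_const, Finset.card_univ,
      Nat.cast_smul_eq_nsmul]
  -- Step 4
  have step4 : ∀ w : V, S w ∈ Submodule.span k {∑ h : H, ρ h a} := by
    intro w
    have hw : w ∈ Submodule.span k {u : V | ∃ h : H, ρ h a = u} := by rw [hspan]; trivial
    induction hw using Submodule.span_induction with
    | mem x hx =>
      obtain ⟨g, rfl⟩ := hx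
      rw [step1 g]
      have : S a = ((Fintype.card H : k))⁻¹ • ((Fintype.card K : k) • ∑ h : H, ρ h a) := by
        rw [← step2, smul_smul, inv_mul_cancel₀ hH0, one_smul]
      rw [this]
      exact Submodule.smul_mem _ _ (Submodule.smul_mem _ _ (Submodule.mem_span_singleton_self _))
    | zero => rw [map_zero]; exact Submodule.zero_mem _
    | add x y _ _ hx hy => rw [map_add]; exact Submodule.add_mem _ hx hy
    | smul c x _ hx => rw [map_smul]; exact Submodule.smul_mem _ _ hx
  have : v = ((Fintype.card K : k))⁻¹ • S v := by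
    rw [step3, smul_smul, inv_mul_cancel₀ hK0, one_smul]
  rw [this]
  exact Submodule.smul_mem _ _ (step4 v)

/-- Let k be a field whose characteristic does not divide the order of the finite group H (for instance a field of characteristic zero), and ρ a k-linear representation of H on V. Let a be a vector whose H-orbit spans V. Then the space of H-fixed vectors has dimension at most 1, and every vector b whose H-orbit has size coprime to the size of the orbit of a is fixed by H. -/
theorem result {k V H : Type*} [Field k] [AddCommGroup V] [Module k V] [Group H] [Finite H]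
    (hchar : ¬ ringChar k ∣ Nat.card H) (ρ : Representation k H V) (a : V)
    (hspan : Submodule.span k {u : V | ∃ h : H, ρ h a = u} = ⊤) :
    Module.finrank k ρ.invariants ≤ 1 ∧
    ∀ b : V, (Nat.card {u : V | ∃ h : H, ρ h a = u}).Coprime (Nat.card {u : V | ∃ h : H, ρ h b = u}) → ∀ h : H, ρ h b = b := by
  classical
  have : Fintype H := Fintype.ofFinite H
  have hinv : ∀ g : H, ρ g (∑ h : H, ρ h a) = ∑ h : H, ρ h a := by
    intro g
    rw [map_sum]
    refine Fintype.sum_equiv (Equiv.mulLeft g) _ _ ?_
    intro x
    simp only [Equiv.coe_mulLeft, map_mul, Module.End.mul_apply]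
  constructor
  · have hle : ρ.invariants ≤ Submodule.span k {∑ h : H, ρ h a} := by
      intro v hv
      rw [Representation.mem_invariants] at hv
      exact mem_span_of_fixed hchar ρ a hspan ⊤ (fun g => ⟨g, Subgroup.mem_top g, rfl⟩) v
        (fun h _ => hv h)
    refine (Submodule.finrank_mono hle).trans ?_
    by_cases h0 : (∑ h : H, ρ h a) = 0
    · rw [h0, Submodule.span_zero_singleton k, finrank_bot]
      exact Nat.zero_le 1
    · rw [finrank_span_singleton h0]
  · intro b hcop h
    let _ : MulAction H V := MulAction.compHom V (ρ : H →* Module.End k V)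
    have hcop' : (Nat.card (MulAction.orbit H a)).Coprime (Nat.card (MulAction.orbit H b)) := hcop
    have htr := trans_of_coprime a b hcop'
    have hb : b ∈ Submodule.span k {∑ h : H, ρ h a} := by
      refine mem_span_of_fixed hchar ρ a hspan (MulAction.stabilizer H b) ?_ b ?_
      · intro g
        obtain ⟨x, hx, e⟩ := htr g
        exact ⟨x, hx, e⟩
      · intro x hx
        exact hx
    obtain ⟨c, rfl⟩ := Submodule.mem_span_singleton.1 hb
    rw [map_smul, hinv]

end Cfsg.Agent.S4177
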