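import Cfsg.Statements.S4178

set_option autoImplicit false
open Cfsg

namespace Cfsg.Agent.S4178

lemma index_le_card_of_map {G : Type*} [Group G] [Finite G] (S : Subgroup G) {T : Type*} [Finite T]
    (φ : G → T) (h : ∀ g₁ g₂, φ g₁ = φ g₂ → g₁⁻¹ * g₂ ∈ S) : S.index ≤ Nat.card T := by
  rw [Subgroup.index]
  apply Nat.card_le_card_of_injective (fun q : G ⧸ S => φ q.out)
  intro q₁ q₂ hq
  have := h _ _ hq
  rw [← QuotientGroup.eq] at this
  simpa using this

lemma card_ne_zero_sub {T : Type*} [Finite T] [Zero T] : Nat.card {x : T // x ≠ 0} = Nat.card T - 1 := by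
  classical
  have := Fintype.ofFinite T
  rw [Nat.card_eq_fintype_card, Nat.card_eq_fintype_card]
  exact Set.card_ne_eq (0 : T)

/-- if `h v - v ∈ W` for some `v ∉ W` with `W` invariant, then `h` fixes a nonzero vector -/
lemma exists_fixed_of_quot {F V : Type*} [Field F] [AddCommGroup V] [Module F V] [FiniteDimensional F V]
    (h : V ≃ₗ[F] V) (W : Submodule F V) (hW : ∀ w ∈ W, h w ∈ W) (v : V) (hv : v ∉ W)
    (hvW : h v - v ∈ W) : ∃ u : V, u ≠ 0 ∧ h u = u := by
  by_contra hcon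
  push Not at hcon
  let f : V →ₗ[F] V := (h : V →ₗ[F] V) - LinearMap.id
  have hfW : ∀ w ∈ W, f w ∈ W := by
    intro w hw
    simp only [f, LinearMap.sub_apply, LinearMap.id_apply, LinearEquiv.coe_coe]
    exact W.sub_mem (hW w hw) hw
  let g : W →ₗ[F] W := f.restrict hfW
  have hinj : Function.Injective g := by
    rw [← LinearMap.ker_eq_bot, LinearMap.ker_eq_bot']
    intro w hw
    have h1 : f (w : V) = 0 := by
      have := congrArg Subtype.val hw
      simpa [g] using this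
    have h2 : h (w : V) = w := by
      simp only [f, LinearMap.sub_apply, LinearMap.id_apply, LinearEquiv.coe_coe] at h1
      exact sub_eq_zero.mp h1
    by_contra hne
    exact hcon (w : V) (fun h0 => hne (Subtype.ext h0)) h2
  have hsurj : Function.Surjective g := LinearMap.surjective_of_injective hinj
  obtain ⟨w, hw⟩ := hsurj ⟨h v - v, hvW⟩
  have h1 : h (w : V) - w = h v - v := by
    have := congrArg Subtype.val hw
    simpa [g, f] using this
  have h2 : h (v - w) = v - w := by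
    rw [map_sub]
    have : h v - h w = v - w := by
      have e : h v - h (w:V) - (v - w) = (h v - v) - (h (w:V) - w) := by abel
      rw [← sub_eq_zero, e, h1, sub_self]
    exact this
  have h3 : v - w = 0 := by
    by_contra hne
    exact hcon _ hne h2
  apply hv
  have : v = w := sub_eq_zero.mp h3
  rw [this]
  exact w.2

theorem result {F V : Type*} [Field F] [Fintype F] [AddCommGroup V] [Module F V] [FiniteDimensional F V] [Nontrivial V]
    (H : Subgroup (V ≃ₗ[F] V)) :
    (Subgroup.closure {h : ↥H | ∃ v : V, v ≠ 0 ∧ (h : V ≃ₗ[F] V) v = v}).index ≤ Fintype.card F ^ Module.finrank F V - 1 ∧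
    ((∃ W : Submodule F V, W ≠ ⊥ ∧ W ≠ ⊤ ∧ ∀ h ∈ H, ∀ w ∈ W, h w ∈ W) →
      ((Subgroup.closure {h : ↥H | ∃ v : V, v ≠ 0 ∧ (h : V ≃ₗ[F] V) v = v}).index : ℝ) ≤ Real.sqrt ((Fintype.card F : ℝ) ^ Module.finrank F V) - 1) := by
  classical
  have hfinV : Finite V := Module.finite_of_finite F
  have hfinE : Finite (V ≃ₗ[F] V) := Finite.of_injective (fun e : V ≃ₗ[F] V => (e : V → V)) DFunLike.coe_injective
  set R := Subgroup.closure {h : ↥H | ∃ v : V, v ≠ 0 ∧ (h : V ≃ₗ[F] V) v = v} with hR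
  have hcardF : Nat.card F = Fintype.card F := Nat.card_eq_fintype_card
  -- invariant nonzero subspace
  have key : ∀ (W : Submodule F V), (∀ h ∈ H, ∀ w ∈ W, h w ∈ W) → W ≠ ⊥ →
      R.index ≤ Fintype.card F ^ Module.finrank F W - 1 := by
    intro W hW hne
    obtain ⟨w, hwW, hw0⟩ := Submodule.exists_mem_ne_zero_of_ne_bot hne
    have hinjh : ∀ h : ↥H, (h : V ≃ₗ[F] V) w ≠ 0 := by
      intro h h0
      exact hw0 ((LinearEquiv.map_eq_zero_iff _).mp h0)
    let φ : ↥H → {x : W // x ≠ 0} := fun h =>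
      ⟨⟨(h : V ≃ₗ[F] V) w, hW h h.2 w hwW⟩, fun h0 => hinjh h (congrArg Subtype.val h0)⟩
    have := index_le_card_of_map R φ (by
      intro g₁ g₂ hg
      apply Subgroup.subset_closure
      refine ⟨w, hw0, ?_⟩
      have h1 : (g₁ : V ≃ₗ[F] V) w = (g₂ : V ≃ₗ[F] V) w := by
        have := congrArg (fun x : {x : W // x ≠ 0} => ((x : W) : V)) hg
        simpa [φ] using this
      have h2 : ((g₁⁻¹ * g₂ : ↥H) : V ≃ₗ[F] V) w = (g₁ : V ≃ₗ[F] V).symm ((g₂ : V ≃ₗ[F] V) w) := rfl
      rw [h2, ← h1]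
      simp)
    rw [card_ne_zero_sub, Module.natCard_eq_pow_finrank (K := F), hcardF] at this
    exact this
  -- invariant proper subspace
  have key2 : ∀ (W : Submodule F V), (∀ h ∈ H, ∀ w ∈ W, h w ∈ W) → W ≠ ⊤ →
      R.index ≤ Fintype.card F ^ Module.finrank F (V ⧸ W) - 1 := by
    intro W hW hne
    obtain ⟨v, hv⟩ : ∃ v : V, v ∉ W := by
      by_contra hcon
      push Not at hcon
      exact hne (eq_top_iff.mpr fun x _ => hcon x)
    have hinv : ∀ h : ↥H, ∀ x : V, (h : V ≃ₗ[F] V) x ∈ W → x ∈ W := by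
      intro h x hx
      have := hW (h⁻¹ : ↥H) (h⁻¹).2 _ hx
      have e : ((h⁻¹ : ↥H) : V ≃ₗ[F] V) ((h : V ≃ₗ[F] V) x) = x := by
        show (h : V ≃ₗ[F] V).symm ((h : V ≃ₗ[F] V) x) = x
        simp
      rwa [e] at this
    have hfinQ : Finite (V ⧸ W) := Module.finite_of_finite F
    let φ : ↥H → {x : V ⧸ W // x ≠ 0} := fun h =>
      ⟨Submodule.Quotient.mk ((h : V ≃ₗ[F] V) v), fun h0 =>
        hv (hinv h v ((Submodule.Quotient.mk_eq_zero W).mp h0))⟩
    have := index_le_card_of_map R φ (by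
      intro g₁ g₂ hg
      apply Subgroup.subset_closure
      have h1 : (g₁ : V ≃ₗ[F] V) v - (g₂ : V ≃ₗ[F] V) v ∈ W := by
        have := congrArg (fun x : {x : V ⧸ W // x ≠ 0} => (x : V ⧸ W)) hg
        simp only [φ] at this
        exact (Submodule.Quotient.eq W).mp this
      have h2 : ((g₁⁻¹ * g₂ : ↥H) : V ≃ₗ[F] V) v - v ∈ W := by
        apply hinv g₁
        have e : (g₁ : V ≃ₗ[F] V) (((g₁⁻¹ * g₂ : ↥H) : V ≃ₗ[F] V) v - v)
            = - ((g₁ : V ≃ₗ[F] V) v - (g₂ : V ≃ₗ[F] V) v) := by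
          have e2 : ((g₁⁻¹ * g₂ : ↥H) : V ≃ₗ[F] V) v = (g₁ : V ≃ₗ[F] V).symm ((g₂ : V ≃ₗ[F] V) v) := rfl
          rw [e2, map_sub]
          simp
        rw [e]
        exact W.neg_mem h1
      exact exists_fixed_of_quot _ W (fun w hw => hW _ (g₁⁻¹ * g₂ : ↥H).2 w hw) v hv h2)
    rw [card_ne_zero_sub, Module.natCard_eq_pow_finrank (K := F), hcardF] at this
    exact this
  constructor
  · have h1 := key ⊤ (fun _ _ _ _ => Submodule.mem_top) (by simp)
    rwa [finrank_top] at h1
  · rintro ⟨W, hW0, hW1, hW⟩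
    have h1 := key W hW hW0
    have h2 := key2 W hW hW1
    have hq : 1 ≤ Fintype.card F := Fintype.card_pos
    have hd : Module.finrank F (V ⧸ W) + Module.finrank F W = Module.finrank F V :=
      Submodule.finrank_quotient_add_finrank W
    set a := Module.finrank F W
    set b := Module.finrank F (V ⧸ W)
    set q := Fintype.card F
    have ha : 1 ≤ q ^ a := Nat.one_le_pow _ _ hq
    have hb : 1 ≤ q ^ b := Nat.one_le_pow _ _ hq
    have h1' : R.index + 1 ≤ q ^ a := by omega
    have h2' : R.index + 1 ≤ q ^ b := by omega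
    have h3 : (R.index + 1) * (R.index + 1) ≤ q ^ (Module.finrank F V) := by
      rw [← hd, pow_add]
      exact Nat.mul_le_mul h2' h1'
    have h4 : ((R.index : ℝ) + 1) ≤ Real.sqrt ((q : ℝ) ^ Module.finrank F V) := by
      apply Real.le_sqrt_of_sq_le
      have : (((R.index + 1) * (R.index + 1) : ℕ) : ℝ) ≤ ((q ^ (Module.finrank F V) : ℕ) : ℝ) := by
        exact_mod_cast h3
      push_cast at this
      nlinarith [this]
    linarith

end Cfsg.Agent.S4178
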