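import Cfsg.Statements.S4182
import Cfsg.Agent.Lib.Helper69.PNil
import Cfsg.Agent.Lib.Helper69.PElem

set_option autoImplicit false
open Cfsg

namespace Cfsg.Agent.S4182

open Cfsg.Agent.Lib.Helper69
open scoped Pointwise

universe u v

variable {G : Type u} [Group G]

/-- `H` is generated by its `p`-elements. -/
def PGen (p : ℕ) (H : Subgroup G) : Prop :=
  Subgroup.closure {g : G | g ∈ H ∧ ∃ k : ℕ, orderOf g = p ^ k} = H

theorem closure_le_self (p : ℕ) (H : Subgroup G) :
    Subgroup.closure {g : G | g ∈ H ∧ ∃ k : ℕ, orderOf g = p ^ k} ≤ H :=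
  (Subgroup.closure_le _).2 (fun _ hy => hy.1)

theorem PGen.sup {p : ℕ} {H H' : Subgroup G} (h : PGen p H) (h' : PGen p H') :
    PGen p (H ⊔ H') := by
  apply le_antisymm (closure_le_self p _)
  apply sup_le
  · exact h.ge.trans (Subgroup.closure_mono (fun y hy => ⟨(le_sup_left : H ≤ H ⊔ H') hy.1, hy.2⟩))
  · exact h'.ge.trans
      (Subgroup.closure_mono (fun y hy => ⟨(le_sup_right : H' ≤ H ⊔ H') hy.1, hy.2⟩))

theorem pgen_zpowers {p : ℕ} {x : G} (hx : ∃ k : ℕ, orderOf x = p ^ k) :
    PGen p (Subgroup.zpowers x) := by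
  apply le_antisymm (closure_le_self p _)
  rw [Subgroup.zpowers_le]
  exact Subgroup.subset_closure ⟨Subgroup.mem_zpowers x, hx⟩

theorem pgen_sylow {p : ℕ} [Fact p.Prime] (P : Sylow p G) : PGen p (P : Subgroup G) := by
  apply le_antisymm (closure_le_self p _)
  intro y hy
  apply Subgroup.subset_closure
  refine ⟨hy, ?_⟩
  obtain ⟨k, hk⟩ := (IsPGroup.iff_orderOf.1 P.isPGroup') ⟨y, hy⟩
  exact ⟨k, by rw [← hk]; simp⟩

theorem pgen_smul {p : ℕ} {H : Subgroup G} (h : PGen p H) (g : G) :
    PGen p (MulAut.conj g • H) := by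
  apply le_antisymm (closure_le_self p _)
  have h1 : MulAut.conj g • H = Subgroup.closure (MulAut.conj g •
      {y : G | y ∈ H ∧ ∃ k : ℕ, orderOf y = p ^ k}) := by
    rw [← Subgroup.smul_closure, h]
  refine h1.le.trans (Subgroup.closure_mono ?_)
  rintro _ ⟨y, ⟨hyH, k, hk⟩, rfl⟩
  refine ⟨Subgroup.smul_mem_pointwise_smul y _ H hyH, k, ?_⟩
  rw [← hk]
  exact MulEquiv.orderOf_eq (MulAut.conj g) y

theorem closure_subtype {p : ℕ} {H : Subgroup G} (h : PGen p H) :
    Subgroup.closure {g : ↥H | ∃ k : ℕ, orderOf g = p ^ k} = ⊤ := by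
  apply Subgroup.map_injective H.subtype_injective
  rw [MonoidHom.map_closure, ← MonoidHom.range_eq_map, Subgroup.range_subtype]
  have : (H.subtype '' {g : ↥H | ∃ k : ℕ, orderOf g = p ^ k}) =
      {g : G | g ∈ H ∧ ∃ k : ℕ, orderOf g = p ^ k} := by
    ext y
    constructor
    · rintro ⟨g, ⟨k, hk⟩, rfl⟩
      exact ⟨g.2, k, by rw [← hk]; simp⟩
    · rintro ⟨hy, k, hk⟩
      exact ⟨⟨y, hy⟩, ⟨k, by rw [← hk]; simp⟩, rfl⟩
  rw [this]
  exact h

/-- A finite `p`-group is not the union of at most `p` proper subgroups. -/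
theorem pgroup_cover {p : ℕ} [hp : Fact p.Prime] [Finite G] (hG : IsPGroup p G) {ι : Type v}
    [Fintype ι] (K : ι → Subgroup G) (hK : ∀ i, K i ≠ ⊤) (hcov : ∀ g : G, ∃ i, g ∈ K i) :
    p + 1 ≤ Fintype.card ι := by
  classical
  have := Fintype.ofFinite G
  obtain ⟨k, hk⟩ := IsPGroup.iff_card.1 hG
  obtain ⟨i₀, -⟩ := hcov 1
  have hk1 : k ≠ 0 := by
    rintro rfl
    rw [pow_zero] at hk
    apply hK i₀
    have : Subsingleton G := (Nat.card_eq_one_iff_unique.1 hk).1
    exact Subsingleton.elim _ _
  have hbound : ∀ i, Nat.card (K i) ≤ p ^ (k - 1) := by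
    intro i
    have hdvd : Nat.card (K i) ∣ p ^ k := hk ▸ Subgroup.card_subgroup_dvd_card (K i)
    obtain ⟨j, hj, hcard⟩ := (Nat.dvd_prime_pow hp.out).1 hdvd
    have hjk : j ≠ k := by
      rintro rfl
      apply hK i
      exact (Subgroup.card_eq_iff_eq_top _).1 (hcard.trans hk.symm)
    rw [hcard]
    exact Nat.pow_le_pow_right hp.out.pos (by omega)
  -- counting non-identity elements
  have hsub : (Finset.univ.filter (fun g : G => g ≠ 1)) ⊆
      Finset.univ.biUnion (fun i : ι => Finset.univ.filter (fun g : G => g ∈ K i ∧ g ≠ 1)) := by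
    intro g hg
    obtain ⟨i, hi⟩ := hcov g
    simp only [Finset.mem_biUnion, Finset.mem_univ, true_and, Finset.mem_filter] at hg ⊢
    exact ⟨i, hi, hg⟩
  have h1 : (Finset.univ.filter (fun g : G => g ≠ 1)).card = p ^ k - 1 := by
    rw [Finset.filter_ne' Finset.univ (1 : G), Finset.card_erase_of_mem (Finset.mem_univ _),
      Finset.card_univ, ← Nat.card_eq_fintype_card, hk]
  have h2 : ∀ i : ι, (Finset.univ.filter (fun g : G => g ∈ K i ∧ g ≠ 1)).card ≤
      p ^ (k - 1) - 1 := by
    intro i
    have e : (Finset.univ.filter (fun g : G => g ∈ K i ∧ g ≠ 1)) =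
        (Finset.univ.filter (fun g : G => g ∈ K i)).erase 1 := by
      ext g
      simp only [Finset.mem_filter, Finset.mem_univ, true_and, Finset.mem_erase]
      tauto
    rw [e, Finset.card_erase_of_mem (by simp)]
    have e2 : (Finset.univ.filter (fun g : G => g ∈ K i)).card = Nat.card (K i) := by
      rw [Nat.card_eq_fintype_card, Fintype.card_subtype]
    rw [e2]
    exact Nat.sub_le_sub_right (hbound i) 1
  have h3 := Finset.card_le_card hsub
  have h4 := (Finset.card_biUnion_le (s := Finset.univ)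
    (t := fun i : ι => Finset.univ.filter (fun g : G => g ∈ K i ∧ g ≠ 1)))
  have h5 : ∑ i : ι, (Finset.univ.filter (fun g : G => g ∈ K i ∧ g ≠ 1)).card ≤
      Fintype.card ι * (p ^ (k - 1) - 1) := by
    calc ∑ i : ι, (Finset.univ.filter (fun g : G => g ∈ K i ∧ g ≠ 1)).card
        ≤ ∑ _i : ι, (p ^ (k - 1) - 1) := Finset.sum_le_sum (fun i _ => h2 i)
      _ = Fintype.card ι * (p ^ (k - 1) - 1) := by
        rw [Finset.sum_const, Finset.card_univ, smul_eq_mul]
  by_contra hlt
  have hle : Fintype.card ι ≤ p := by omega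
  have h6 : p ^ k - 1 ≤ p * (p ^ (k - 1) - 1) := by
    rw [← h1]
    exact h3.trans (h4.trans (h5.trans (Nat.mul_le_mul_right _ hle)))
  have h7 : p ^ k = p * p ^ (k - 1) := by
    rw [← pow_succ']
    congr 1
    omega
  have h8 : 1 ≤ p ^ (k - 1) := Nat.one_le_pow _ _ hp.out.pos
  have h9 : p * (p ^ (k - 1) - 1) = p ^ k - p := by
    rw [Nat.mul_sub, mul_one, ← h7]
  have h10 : 2 ≤ p := hp.out.two_le
  have h11 : p ≤ p ^ k := by
    rw [h7]
    exact Nat.le_mul_of_pos_right _ (by omega)
  omega

/-- proper subgroups generated by `p`-elements -/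
def PP (p : ℕ) (G : Type u) [Group G] : Set (Subgroup G) := {H | H ≠ ⊤ ∧ PGen p H}

theorem pp_smul {p : ℕ} {H : Subgroup G} (h : H ∈ PP p G) (g : G) :
    MulAut.conj g • H ∈ PP p G := by
  refine ⟨fun htop => h.1 ?_, pgen_smul h.2 g⟩
  rw [eq_top_iff]
  intro y _
  have : MulAut.conj g • y ∈ MulAut.conj g • H := by rw [htop]; trivial
  exact Subgroup.smul_mem_pointwise_smul_iff.1 this

theorem maximal_smul {p : ℕ} {M : Subgroup G} (h : Maximal (· ∈ PP p G) M) (g : G) :
    Maximal (· ∈ PP p G) (MulAut.conj g • M) := by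
  refine ⟨pp_smul h.prop g, fun H hH hle => ?_⟩
  have h1 : M ≤ (MulAut.conj g)⁻¹ • H := Subgroup.pointwise_smul_subset_iff.1 hle
  have h2 : (MulAut.conj g)⁻¹ • H ∈ PP p G := by
    rw [← map_inv]
    exact pp_smul hH g⁻¹
  have h3 := h.le_of_ge h2 h1
  exact Subgroup.subset_pointwise_smul_iff.2 h3

theorem main (p : ℕ) [hp : Fact p.Prime] {ι : Type v} [Fintype ι] :
    ∀ n : ℕ, ∀ (G : Type u) [Group G] [Finite G], Nat.card G = n →
      Subgroup.closure {g : G | ∃ k : ℕ, orderOf g = p ^ k} = ⊤ →
      ∀ (K : ι → Subgroup G), (∀ i, K i ≠ ⊤) →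
      (∀ g : G, (∃ k : ℕ, orderOf g = p ^ k) → ∃ i, g ∈ K i) → p + 1 ≤ Fintype.card ι := by
  intro n
  induction n using Nat.strong_induction_on with
  | _ n ih =>
    intro G _ _ hn hgen K hK hcov
    by_contra hlt
    have hle : Fintype.card ι ≤ p := by omega
    -- Claim 1: proper `p`-generated subgroups lie in a member of the cover
    have claim1 : ∀ H : Subgroup G, H ∈ PP p G → ∃ i, H ≤ K i := by
      rintro H ⟨hH, hHg⟩
      by_contra hcon
      push Not at hcon
      have hlt' : Nat.card H < n := by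
        rw [← hn]
        exact lt_of_le_of_ne (Subgroup.card_le_card_group H)
          (fun h => hH ((Subgroup.card_eq_iff_eq_top H).1 h))
      have := ih _ hlt' (↥H) rfl (closure_subtype hHg) (fun i => (K i).subgroupOf H)
        (fun i h => hcon i (Subgroup.subgroupOf_eq_top.1 h))
        (fun g hg => by
          obtain ⟨k, hk⟩ := hg
          obtain ⟨i, hi⟩ := hcov (g : G) ⟨k, by rw [← hk]; simp⟩
          exact ⟨i, Subgroup.mem_subgroupOf.2 hi⟩)
      exact hlt this
    have hmax : ∀ H : Subgroup G, H ∈ PP p G → ∃ M, H ≤ M ∧ Maximal (· ∈ PP p G) M :=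
      fun H hH => Finite.exists_le_maximal hH
    -- Claim 2: at most `p` maximal ones
    have claim2 : Nat.card {M : Subgroup G // Maximal (· ∈ PP p G) M} ≤ p := by
      refine le_trans ?_ hle
      rw [← Nat.card_eq_fintype_card]
      let F : {M : Subgroup G // Maximal (· ∈ PP p G) M} → ι :=
        fun M => (claim1 M.1 M.2.prop).choose
      have hF : ∀ M, M.1 ≤ K (F M) := fun M => (claim1 M.1 M.2.prop).choose_spec
      refine Nat.card_le_card_of_injective F ?_
      intro M M' hMM'
      have h1 : M.1 ⊔ M'.1 ∈ PP p G := by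
        refine ⟨fun htop => hK (F M) ?_, M.2.prop.2.sup M'.2.prop.2⟩
        rw [eq_top_iff, ← htop]
        exact sup_le (hF M) (hMM' ▸ hF M')
      have h2 : M.1 ⊔ M'.1 ≤ M.1 := M.2.le_of_ge h1 le_sup_left
      have h3 : M.1 ⊔ M'.1 ≤ M'.1 := M'.2.le_of_ge h1 le_sup_right
      exact Subtype.ext (le_antisymm (le_sup_left.trans h3) (le_sup_right.trans h2))
    have P : Sylow p G := default
    by_cases hPtop : (P : Subgroup G) = ⊤
    · have hG : IsPGroup p G := by
        have h1 := P.isPGroup'
        rw [hPtop] at h1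
        exact h1.of_equiv Subgroup.topEquiv
      exact hlt (pgroup_cover hG K hK (fun g => hcov g (IsPGroup.iff_orderOf.1 hG g)))
    · obtain ⟨M, hPM, hM⟩ := hmax P ⟨hPtop, pgen_sylow P⟩
      -- every `p`-element normalizes `M`
      have hnorm : ∀ x : G, (∃ k : ℕ, orderOf x = p ^ k) → MulAut.conj x • M = M := by
        intro x hx
        obtain ⟨i, hi⟩ := hcov x hx
        have hz : Subgroup.zpowers x ∈ PP p G :=
          ⟨fun h => hK i (top_le_iff.1 (h ▸ Subgroup.zpowers_le.2 hi)), pgen_zpowers hx⟩
        obtain ⟨M₀, hxM₀, hM₀⟩ := hmax _ hz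
        have hxM₀' : x ∈ M₀ := hxM₀ (Subgroup.mem_zpowers x)
        by_cases hMM₀ : M = M₀
        · rw [hMM₀]
          exact Subgroup.conj_smul_eq_self_of_mem hxM₀'
        · let _ : MulAction (Subgroup.zpowers x) (Subgroup G) :=
            MulAction.compHom (Subgroup G) ((MulAut.conj).comp (Subgroup.zpowers x).subtype)
          have hsmul : ∀ (g : Subgroup.zpowers x) (H : Subgroup G),
              g • H = MulAut.conj (g : G) • H := fun g H => rfl
          have hZ : IsPGroup p (Subgroup.zpowers x) := PNil.isPGroup_zpowers x hx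
          obtain ⟨m, hm⟩ := hZ.card_orbit M
          have horb : MulAction.orbit (Subgroup.zpowers x) M ⊆
              {M : Subgroup G | Maximal (· ∈ PP p G) M} := by
            rintro _ ⟨g, rfl⟩
            show Maximal (· ∈ PP p G) (g • M)
            rw [hsmul]
            exact maximal_smul hM _
          have hM₀orb : M₀ ∉ MulAction.orbit (Subgroup.zpowers x) M := by
            rintro ⟨g, hg⟩
            apply hMM₀
            have hg' : MulAut.conj (g : G) • M = M₀ := hg
            have h1 : MulAut.conj (g : G) • M₀ = M₀ :=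
              Subgroup.conj_smul_eq_self_of_mem (hxM₀ g.2)
            rw [← h1] at hg'
            exact smul_left_cancel _ hg'
          by_cases hm0 : m = 0
          · rw [hm0, pow_zero] at hm
            have hsub : Subsingleton (MulAction.orbit (Subgroup.zpowers x) M) :=
              (Nat.card_eq_one_iff_unique.1 hm).1
            have h1 : (⟨(⟨x, Subgroup.mem_zpowers x⟩ : Subgroup.zpowers x) • M,
                MulAction.mem_orbit _ _⟩ : MulAction.orbit (Subgroup.zpowers x) M) =
                ⟨M, MulAction.mem_orbit_self M⟩ := Subsingleton.elim _ _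
            have h2 := congrArg Subtype.val h1
            exact h2
          · exfalso
            have hp_le : p ≤ p ^ m := by
              calc p = p ^ 1 := (pow_one p).symm
                _ ≤ p ^ m := Nat.pow_le_pow_right hp.out.pos (by omega)
            have hfin : {M : Subgroup G | Maximal (· ∈ PP p G) M}.Finite := Set.toFinite _
            have h1 : (insert M₀ (MulAction.orbit (Subgroup.zpowers x) M)).ncard =
                (MulAction.orbit (Subgroup.zpowers x) M).ncard + 1 :=
              Set.ncard_insert_of_notMem hM₀orb (Set.toFinite _)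
            have h2 : (insert M₀ (MulAction.orbit (Subgroup.zpowers x) M)).ncard ≤
                {M : Subgroup G | Maximal (· ∈ PP p G) M}.ncard :=
              Set.ncard_le_ncard (Set.insert_subset hM₀ horb) hfin
            have h3 : {M : Subgroup G | Maximal (· ∈ PP p G) M}.ncard ≤ p := by
              rw [← Nat.card_coe_set_eq]
              exact claim2
            have h4 : (MulAction.orbit (Subgroup.zpowers x) M).ncard = p ^ m := by
              rw [← Nat.card_coe_set_eq]
              exact hm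
            omega
      -- hence `M` is normal
      have hall : ∀ g : G, MulAut.conj g • M = M := by
        intro g
        have hg : g ∈ Subgroup.closure {g : G | ∃ k : ℕ, orderOf g = p ^ k} := by
          rw [hgen]; trivial
        induction hg using Subgroup.closure_induction with
        | mem x hx => exact hnorm x hx
        | one => rw [map_one, one_smul]
        | mul x y _ _ hx hy => rw [map_mul, mul_smul, hy, hx]
        | inv x _ hx => rw [map_inv, inv_smul_eq_iff, hx]
      have hMn : M.Normal := Subgroup.Normal.of_conjugate_fixed hall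
      -- all `p`-elements lie in `M`
      apply hM.prop.1
      rw [eq_top_iff, ← hgen, Subgroup.closure_le]
      rintro y ⟨k, hk⟩
      have hy : IsPGroup p (Subgroup.zpowers y) := PNil.isPGroup_zpowers y ⟨k, hk⟩
      obtain ⟨Q, hQ⟩ := hy.exists_le_sylow
      obtain ⟨g, hg⟩ := MulAction.exists_smul_eq G P Q
      have h1 : y ∈ ((g • P : Sylow p G) : Subgroup G) := by
        rw [hg]
        exact hQ (Subgroup.mem_zpowers y)
      rw [PElem.mem_smul_sylow] at h1
      have h2 : g⁻¹ * y * g ∈ M := hPM h1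
      have h3 := hMn.conj_mem _ h2 g
      simpa [mul_assoc] using h3

/-- Let p be a prime and G a finite group generated by its p-elements. If a finite family of proper subgroups of G covers the set of p-elements of G (every element of p-power order lies in one of them), then the family has at least p + 1 members. -/
theorem result {G : Type*} [Group G] [Finite G] (p : ℕ) [Fact p.Prime] (hgen : Subgroup.closure {g : G | ∃ k : ℕ, orderOf g = p ^ k} = ⊤)
    {ι : Type*} [Fintype ι] (K : ι → Subgroup G) (hK : ∀ i, K i ≠ ⊤)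
    (hcov : ∀ g : G, (∃ k : ℕ, orderOf g = p ^ k) → ∃ i, g ∈ K i) :
    p + 1 ≤ Fintype.card ι := by
  exact main p (Nat.card G) G rfl hgen K hK hcov

end Cfsg.Agent.S4182
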