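import Cfsg.Statements.S4184
import Cfsg.Agent.Lib.Helper55.ClassOrder

set_option autoImplicit false
open Cfsg

namespace Cfsg.Agent.S4184

open Subgroup Cfsg.Agent.Lib.Helper55.ClassSize Cfsg.Agent.Lib.Helper55.ClassOrder

/-- Let G and M be finite groups with trivial centres and the same set of conjugacy class sizes, and suppose the prime graph of M is disconnected: the prime divisors of #M split into two non-empty parts such that M has no element of order pq with p in one part and q in the other. Then #G = #M. -/
theorem result {G M : Type*}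
    [Group G] [Finite G] [Group M] [Finite M] (hZG : Subgroup.center G = ⊥) (hZM : Subgroup.center M = ⊥)
    (h : Set.range (fun g : G => (Subgroup.centralizer ({g} : Set G)).index) = Set.range (fun g : M => (Subgroup.centralizer ({g} : Set M)).index))
    (hdisc : ∃ A : Set ℕ, (∃ a ∈ A, a.Prime ∧ a ∣ Nat.card M) ∧ (∃ b ∉ A, b.Prime ∧ b ∣ Nat.card M) ∧
      ∀ a ∈ A, ∀ b ∉ A, a.Prime → b.Prime → a ∣ Nat.card M → b ∣ Nat.card M → ¬ ∃ x : M, orderOf x = a * b) :
    Nat.card G = Nat.card M := by
  obtain ⟨A, ⟨a, haA, ha, haM⟩, ⟨b, hbA, hb, hbM⟩, hno⟩ := hdisc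
  -- in `M`, the centralizer of a nontrivial element is an `A`-group or an `A'`-group
  have keyM : ∀ x : M, x ≠ 1 → (IsPi A (Nat.card (centralizer ({x} : Set M))) ∨
      IsPi Aᶜ (Nat.card (centralizer ({x} : Set M)))) := by
    intro x hx
    have hox : orderOf x ≠ 1 := fun h => hx (orderOf_eq_one_iff.1 h)
    obtain ⟨r, hr, hrd⟩ := Nat.exists_prime_and_dvd hox
    have hox0 : orderOf x ≠ 0 := (orderOf_pos x).ne'
    have hxr : orderOf (x ^ (orderOf x / r)) = r := orderOf_pow_orderOf_div hox0 hrd
    have hrM : r ∣ Nat.card M := hrd.trans (orderOf_dvd_natCard x)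
    have comm : ∀ t : ℕ, t.Prime → t ∣ Nat.card (centralizer ({x} : Set M)) → t ≠ r →
        ∃ z : M, orderOf z = t * r := by
      intro t ht htd htr
      have : Fact t.Prime := ⟨ht⟩
      obtain ⟨u, hu⟩ := exists_prime_orderOf_dvd_card' t htd
      have hu' : orderOf (u : M) = t := by
        rw [Subgroup.orderOf_coe]
        exact hu
      have hcomm0 : Commute (u : M) x := mem_cent.1 u.2
      have hcomm : Commute (u : M) (x ^ (orderOf x / r)) := hcomm0.pow_right _
      refine ⟨(u : M) * x ^ (orderOf x / r), ?_⟩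
      rw [hcomm.orderOf_mul_eq_mul_orderOf_of_coprime
        (by rw [hu', hxr]; exact (Nat.coprime_primes ht hr).2 htr), hu', hxr]
    by_cases hrA : r ∈ A
    · left
      intro t ht htd
      by_contra htA
      have htr : t ≠ r := fun h => htA (h ▸ hrA)
      obtain ⟨z, hz⟩ := comm t ht htd htr
      have htM : t ∣ Nat.card M := htd.trans (card_subgroup_dvd_card _)
      exact hno r hrA t htA hr ht hrM htM ⟨z, by rw [hz, mul_comm]⟩
    · right
      intro t ht htd htA
      have htr : t ≠ r := fun h => hrA (h ▸ htA)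
      obtain ⟨z, hz⟩ := comm t ht htd htr
      have htM : t ∣ Nat.card M := htd.trans (card_subgroup_dvd_card _)
      exact hno t htA r hrA ht hr htM hrM ⟨z, hz⟩
  have hcsM : ∀ x : M, cs x * Nat.card (centralizer ({x} : Set M)) = Nat.card M := fun x => by
    rw [mul_comm]
    exact card_mul_index _
  have htyped : Typed G (Nat.card M) A := by
    intro g hg
    have hgc : cs g ≠ 1 := by
      intro h1
      have h2 := (cs_eq_one_iff g).1 h1
      rw [hZG, mem_bot] at h2
      exact hg h2
    have hmem : cs g ∈ Set.range (fun g : M => (Subgroup.centralizer ({g} : Set M)).index) := by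
      rw [← h]
      exact ⟨g, rfl⟩
    obtain ⟨x, hx⟩ := hmem
    have hx' : cs x = cs g := hx
    have hx1 : x ≠ 1 := by
      rintro rfl
      rw [cs_one] at hx'
      exact hgc hx'.symm
    have hdiv : Nat.card M / cs g = Nat.card (centralizer ({x} : Set M)) := by
      rw [← hx', ← hcsM x]
      exact Nat.mul_div_cancel_left _ (cs_pos x)
    refine ⟨?_, ?_, ?_⟩
    · rw [← hx', ← hcsM x]
      exact dvd_mul_right _ _
    · rw [hdiv]
      exact keyM x hx1
    · rw [hdiv]
      intro h1
      have h2 : centralizer ({x} : Set M) = ⊥ := card_eq_one.1 h1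
      have hxmem : x ∈ centralizer ({x} : Set M) := mem_cent.2 rfl
      rw [h2, mem_bot] at hxmem
      exact hx1 hxmem
  have hdvd : Nat.card M ∣ Nat.card G := by
    have : Fact a.Prime := ⟨ha⟩
    have : Fact b.Prime := ⟨hb⟩
    obtain ⟨xa, hxa⟩ := exists_prime_orderOf_dvd_card' a haM
    obtain ⟨xb, hxb⟩ := exists_prime_orderOf_dvd_card' b hbM
    have hxa1 : xa ≠ 1 := by
      rintro rfl
      rw [orderOf_one] at hxa
      exact ha.one_lt.ne hxa
    have hxb1 : xb ≠ 1 := by
      rintro rfl
      rw [orderOf_one] at hxb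
      exact hb.one_lt.ne hxb
    have hda : a ∣ Nat.card (centralizer ({xa} : Set M)) := by
      have hle : zpowers xa ≤ centralizer ({xa} : Set M) :=
        zpowers_le.2 (mem_cent.2 rfl)
      have := card_dvd_of_le hle
      rwa [Nat.card_zpowers, hxa] at this
    have hdb : b ∣ Nat.card (centralizer ({xb} : Set M)) := by
      have hle : zpowers xb ≤ centralizer ({xb} : Set M) :=
        zpowers_le.2 (mem_cent.2 rfl)
      have := card_dvd_of_le hle
      rwa [Nat.card_zpowers, hxb] at this
    have hA : IsPi A (Nat.card (centralizer ({xa} : Set M))) := by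
      rcases keyM xa hxa1 with h1 | h1
      · exact h1
      · exact absurd haA (h1 a ha hda)
    have hB : IsPi Aᶜ (Nat.card (centralizer ({xb} : Set M))) := by
      rcases keyM xb hxb1 with h1 | h1
      · exact absurd (h1 b hb hdb) hbA
      · exact h1
    have hcsG : ∀ x : M, cs x ∣ Nat.card G := by
      intro x
      have hmem : cs x ∈ Set.range (fun g : G => (Subgroup.centralizer ({g} : Set G)).index) := by
        rw [h]
        exact ⟨x, rfl⟩
      obtain ⟨g, hg⟩ := hmem
      have hg' : cs g = cs x := hg
      rw [← hg']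
      exact index_dvd_card _
    have h1 : Nat.card M ∣ Nat.card G * Nat.card (centralizer ({xa} : Set M)) := by
      rw [← hcsM xa]
      exact mul_dvd_mul_right (hcsG xa) _
    have h2 : Nat.card M ∣ Nat.card G * Nat.card (centralizer ({xb} : Set M)) := by
      rw [← hcsM xb]
      exact mul_dvd_mul_right (hcsG xb) _
    have h3 := Nat.dvd_gcd h1 h2
    rw [Nat.gcd_mul_left, (hA.coprime hB).gcd_eq_one, mul_one] at h3
    exact h3
  exact card_eq_of_typed hZG htyped hdvd ha haA haM hb hbA hbM

end Cfsg.Agent.S4184
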