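import Cfsg.Statements.S4186
import Mathlib

set_option autoImplicit false
open Cfsg

namespace Cfsg.Agent.S4186

/-- Let T and X be subgroups of a group with T a finite 2-group normalizing X but not centralizing it. Then some element of T inverts some non-identity element of X under conjugation. -/
theorem result {G : Type*} [Group G] (T X : Subgroup G) [Finite ↥T] (hT : IsPGroup 2 ↥T) (hTN : T ≤ Subgroup.normalizer (X : Set G)) (hTC : ¬ T ≤ Subgroup.centralizer (X : Set G)) : ∃ t ∈ T, ∃ x ∈ X, x ≠ 1 ∧ t * x * t⁻¹ = x⁻¹ := by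
  classical
  obtain ⟨t, htT, htC⟩ := SetLike.not_le_iff_exists.mp hTC
  -- some power t^(2^n) is trivial
  obtain ⟨n, hn⟩ := hT ⟨t, htT⟩
  have hn' : t ^ 2 ^ n = 1 := by
    have := congrArg Subtype.val hn
    simpa using this
  have hex : ∃ k, t ^ 2 ^ k ∈ Subgroup.centralizer (X : Set G) := ⟨n, by rw [hn']; exact one_mem _⟩
  set k := Nat.find hex with hk
  have hkC : t ^ 2 ^ k ∈ Subgroup.centralizer (X : Set G) := Nat.find_spec hex
  have hk0 : k ≠ 0 := by
    intro h0
    rw [h0] at hkC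
    simp at hkC
    exact htC hkC
  obtain ⟨j, hj⟩ := Nat.exists_eq_succ_of_ne_zero hk0
  have hjC : t ^ 2 ^ j ∉ Subgroup.centralizer (X : Set G) := by
    apply Nat.find_min hex
    omega
  set s := t ^ 2 ^ j with hs
  have hsT : s ∈ T := pow_mem htT _
  have hs2 : s * s ∈ Subgroup.centralizer (X : Set G) := by
    have : s * s = t ^ 2 ^ k := by
      rw [hs, hj, ← pow_add, Nat.succ_eq_add_one, pow_succ]
      ring_nf
    rw [this]; exact hkC
  rw [Subgroup.mem_centralizer_iff] at hjC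
  push Not at hjC
  obtain ⟨x, hxX, hxs⟩ := hjC
  have hxX' : x ∈ X := hxX
  have hsN := hTN hsT
  rw [Subgroup.mem_normalizer_iff] at hsN
  have hconj : s * x * s⁻¹ ∈ X := (hsN x).mp hxX'
  refine ⟨s, hsT, x⁻¹ * (s * x * s⁻¹), X.mul_mem (X.inv_mem hxX') hconj, ?_, ?_⟩
  · intro h
    apply hxs
    have : s * x * s⁻¹ = x := by
      have := congrArg (fun z => x * z) h
      simpa using this
    calc x * s = (s * x * s⁻¹) * s := by rw [this]
      _ = s * x := by group
  · have h2 := (Subgroup.mem_centralizer_iff.mp hs2) x hxX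
    -- h2 : x * (s * s) = s * s * x
    have h3 : s * s * x * s⁻¹ * s⁻¹ = x := by
      rw [← h2]; group
    calc s * (x⁻¹ * (s * x * s⁻¹)) * s⁻¹ = (s * x * s⁻¹)⁻¹ * (s * s * x * s⁻¹ * s⁻¹) := by group
      _ = (s * x * s⁻¹)⁻¹ * x := by rw [h3]
      _ = (x⁻¹ * (s * x * s⁻¹))⁻¹ := by group

end Cfsg.Agent.S4186
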