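import Cfsg.Statements.S4195

set_option autoImplicit false
open Cfsg

namespace Cfsg.Agent.S4195

theorem mem_centralizer_iff_conj {G : Type*} [Group G] (x k : G) :
    k ∈ Subgroup.centralizer ({x} : Set G) ↔ k * x * k⁻¹ = x := by
  rw [Subgroup.mem_centralizer_singleton_iff]
  constructor
  · intro h; rw [h]; group
  · intro h
    calc k * x = (k * x * k⁻¹) * k := by group
      _ = x * k := by rw [h]

/-- A real element centralized by a Sylow 2-subgroup equals its inverse. -/
theorem inv_eq_self_of_real {G : Type*} [Group G] [Finite G] (x : G) (P : Sylow 2 G)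
    (hP : (P : Subgroup G) ≤ Subgroup.centralizer ({x} : Set G)) (hreal : IsConj x x⁻¹) :
    x⁻¹ = x := by
  by_contra hne
  obtain ⟨g, hg⟩ := isConj_iff.mp hreal
  let N : Subgroup G :=
    { carrier := {h | h * x * h⁻¹ = x ∨ h * x * h⁻¹ = x⁻¹}
      mul_mem' := by
        intro a b ha hb
        have e : (a * b) * x * (a * b)⁻¹ = a * (b * x * b⁻¹) * a⁻¹ := by group
        show (a * b) * x * (a * b)⁻¹ = x ∨ (a * b) * x * (a * b)⁻¹ = x⁻¹
        rw [e]
        rcases hb with hb | hb
        · rw [hb]; exact ha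
        · rw [hb]
          have e2 : a * x⁻¹ * a⁻¹ = (a * x * a⁻¹)⁻¹ := by group
          rw [e2]
          rcases ha with ha | ha
          · right; rw [ha]
          · left; rw [ha, inv_inv]
      one_mem' := by left; simp
      inv_mem' := by
        intro a ha
        show a⁻¹ * x * a⁻¹⁻¹ = x ∨ a⁻¹ * x * a⁻¹⁻¹ = x⁻¹
        rcases ha with ha | ha
        · left
          calc a⁻¹ * x * a⁻¹⁻¹ = a⁻¹ * (a * x * a⁻¹) * a := by rw [ha, inv_inv]
            _ = x := by group
        · right
          calc a⁻¹ * x * a⁻¹⁻¹ = (a⁻¹ * x⁻¹ * a)⁻¹ := by group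
            _ = (a⁻¹ * (a * x * a⁻¹) * a)⁻¹ := by rw [ha]
            _ = x⁻¹ := by group }
  have hN : ∀ h, h ∈ N ↔ (h * x * h⁻¹ = x ∨ h * x * h⁻¹ = x⁻¹) := fun h => Iff.rfl
  have hCN : Subgroup.centralizer ({x} : Set G) ≤ N := by
    intro k hk
    rw [hN]; left
    exact (mem_centralizer_iff_conj x k).mp hk
  have h2 : (Subgroup.centralizer ({x} : Set G)).relIndex N = 2 := by
    rw [Subgroup.relIndex_eq_two_iff]
    refine ⟨g, (hN g).mpr (Or.inr hg), ?_⟩
    intro b hb
    have e : (b * g) * x * (b * g)⁻¹ = b * (g * x * g⁻¹) * b⁻¹ := by group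
    have e2 : b * x⁻¹ * b⁻¹ = (b * x * b⁻¹)⁻¹ := by group
    rw [mem_centralizer_iff_conj, mem_centralizer_iff_conj, e, hg, e2]
    rcases (hN b).mp hb with hb | hb
    · right
      refine ⟨hb, ?_⟩
      rw [hb]; exact hne
    · left
      refine ⟨by rw [hb, inv_inv], ?_⟩
      rw [hb]; exact hne
  have hdvd : 2 ∣ (P : Subgroup G).index := by
    have h3 : (Subgroup.centralizer ({x} : Set G)).relIndex N ∣
        (Subgroup.centralizer ({x} : Set G)).index := Subgroup.relIndex_dvd_index_of_le hCN
    rw [h2] at h3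
    exact h3.trans (Subgroup.index_dvd_of_le hP)
  exact P.not_dvd_index hdvd

/-- Let x be a non-identity element of a finite group G whose centralizer contains a Sylow 2-subgroup of G. If x is conjugate to its inverse, then x has order 2. -/
theorem result {G : Type*} [Group G] [Finite G] (x : G) (hx : x ≠ 1) (P : Sylow 2 G) (hP : (P : Subgroup G) ≤ Subgroup.centralizer ({x} : Set G)) (hreal : IsConj x x⁻¹) : orderOf x = 2 := by
  have h := inv_eq_self_of_real x P hP hreal
  rw [orderOf_eq_prime_iff]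
  refine ⟨?_, hx⟩
  rw [pow_two]
  calc x * x = x * x⁻¹ := by rw [h]
    _ = 1 := mul_inv_cancel x

end Cfsg.Agent.S4195
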