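import Cfsg.Statements.S4196
import Cfsg.Agent.S4195

set_option autoImplicit false
open Cfsg

namespace Cfsg.Agent.S4196

/-- A finite group G has elementary abelian Sylow 2-subgroups (commutative with every element squaring to the identity) if and only if every 2-element of G has a Sylow 2-subgroup in its centralizer and is conjugate to its inverse. -/
theorem result {G : Type*} [Group G] [Finite G] (P : Sylow 2 G) :
    (IsMulCommutative (P : Subgroup G) ∧ ∀ x ∈ (P : Subgroup G), x ^ 2 = 1) ↔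
      ∀ x : G, (∃ k : ℕ, orderOf x = 2 ^ k) → (∃ Q : Sylow 2 G, (Q : Subgroup G) ≤ Subgroup.centralizer ({x} : Set G)) ∧ IsConj x x⁻¹ := by
  constructor
  · rintro ⟨hcomm, hsq⟩ x ⟨k, hk⟩
    have hx2 : IsPGroup 2 (Subgroup.zpowers x) := by
      apply IsPGroup.of_card (n := k)
      rw [Nat.card_zpowers, hk]
    obtain ⟨Q, hQ⟩ := hx2.exists_le_sylow
    obtain ⟨g, hg⟩ := MulAction.exists_smul_eq G P Q
    have hmem : ∀ y ∈ (Q : Subgroup G), ∃ s ∈ (P : Subgroup G), g * s * g⁻¹ = y := by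
      intro y hy
      rw [← hg, Sylow.coe_subgroup_smul, Subgroup.mem_smul_pointwise_iff_exists] at hy
      obtain ⟨s, hs, rfl⟩ := hy
      exact ⟨s, hs, by simp [MulAut.smul_def]⟩
    have hcomm' : ∀ s ∈ (P : Subgroup G), ∀ t ∈ (P : Subgroup G), s * t = t * s := by
      intro s hs t ht
      have := (isMulCommutative_iff.mp hcomm) ⟨s, hs⟩ ⟨t, ht⟩
      exact congrArg Subtype.val this
    have hxQ : x ∈ (Q : Subgroup G) := hQ (Subgroup.mem_zpowers x)
    refine ⟨⟨Q, ?_⟩, ?_⟩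
    · intro y hy
      rw [Subgroup.mem_centralizer_singleton_iff]
      obtain ⟨s, hs, rfl⟩ := hmem y hy
      obtain ⟨t, ht, rfl⟩ := hmem x hxQ
      have := hcomm' s hs t ht
      calc g * s * g⁻¹ * (g * t * g⁻¹) = g * (s * t) * g⁻¹ := by group
        _ = g * (t * s) * g⁻¹ := by rw [this]
        _ = g * t * g⁻¹ * (g * s * g⁻¹) := by group
    · obtain ⟨t, ht, rfl⟩ := hmem x hxQ
      have h1 : t ^ 2 = 1 := hsq t ht
      have h2 : (g * t * g⁻¹) ^ 2 = 1 := by
        rw [conj_pow, h1]; group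
      have h3 : (g * t * g⁻¹)⁻¹ = g * t * g⁻¹ := by
        rw [inv_eq_iff_mul_eq_one, ← pow_two, h2]
      rw [h3]
  · intro h
    have hinv : ∀ x ∈ (P : Subgroup G), x⁻¹ = x := by
      intro x hx
      obtain ⟨k, hk⟩ := (IsPGroup.iff_orderOf.mp P.isPGroup') ⟨x, hx⟩
      have hk' : orderOf x = 2 ^ k := by
        rw [← hk]; exact (Subgroup.orderOf_coe (⟨x, hx⟩ : (P : Subgroup G)))
      obtain ⟨⟨Q, hQ⟩, hreal⟩ := h x ⟨k, hk'⟩
      exact Cfsg.Agent.S4195.inv_eq_self_of_real x Q hQ hreal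
    refine ⟨?_, ?_⟩
    · rw [isMulCommutative_iff]
      rintro ⟨a, ha⟩ ⟨b, hb⟩
      apply Subtype.ext
      show a * b = b * a
      have h1 := hinv (a * b) (mul_mem ha hb)
      rw [mul_inv_rev, hinv a ha, hinv b hb] at h1
      exact h1.symm
    · intro x hx
      rw [pow_two]
      calc x * x = x * x⁻¹ := by rw [hinv x hx]
        _ = 1 := mul_inv_cancel x

end Cfsg.Agent.S4196
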