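import Cfsg.Statements.S4211
import Mathlib
import Cfsg.Agent.S4189
import Cfsg.Agent.Lib.Helper70.PNilp

set_option autoImplicit false
open Cfsg

namespace Cfsg.Agent.S4211

open Subgroup

variable {G : Type*} [Group G]

/-- Power formula when the "commutator" `e` is central. -/
theorem pow_comm_central {z y e : G} (h : z * y = y * z * e)
    (hey : Commute e y) (N : ℕ) : z * y ^ N = y ^ N * z * e ^ N := by
  induction N with
  | zero => simp
  | succ N ih =>
    calc z * y ^ (N + 1) = (z * y ^ N) * y := by rw [pow_succ, mul_assoc]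
      _ = y ^ N * z * e ^ N * y := by rw [ih]
      _ = y ^ N * (z * y) * e ^ N := by
        have := (hey.pow_left N).eq
        rw [mul_assoc (y ^ N * z), this]; group
      _ = y ^ N * (y * z * e) * e ^ N := by rw [h]
      _ = y ^ (N + 1) * z * e ^ (N + 1) := by rw [pow_succ, pow_succ']; group

theorem mul_pow_central {z y e : G} (h : z * y = y * z * e) (hez : Commute e z)
    (hey : Commute e y) (N : ℕ) : (z * y) ^ N * e ^ (N.choose 2) = z ^ N * y ^ N := by
  induction N with
  | zero => simp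
  | succ N ih =>
    have h1 : (N + 1).choose 2 = N.choose 2 + N := by
      rw [Nat.choose_succ_succ', Nat.choose_one_right, add_comm]
    have h2 : Commute (e ^ (N.choose 2)) (z * y) := (hez.mul_right hey).pow_left _
    have h3 := pow_comm_central h hey N
    calc (z * y) ^ (N + 1) * e ^ ((N + 1).choose 2)
        = (z * y) ^ N * (z * y) * (e ^ (N.choose 2) * e ^ N) := by rw [pow_succ, h1, pow_add]
      _ = ((z * y) ^ N * e ^ (N.choose 2)) * (z * y) * e ^ N := by
        rw [mul_assoc ((z * y) ^ N), ← mul_assoc (z * y), ← h2.eq]; group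
      _ = z ^ N * y ^ N * (z * y) * e ^ N := by rw [ih]
      _ = z ^ N * (y ^ N * z * e ^ N) * y := by
        have h4 := (hey.pow_left N).eq
        have h5 : z ^ N * (y ^ N * z * e ^ N) * y = z ^ N * y ^ N * z * (e ^ N * y) := by group
        rw [h5, h4]; group
      _ = z ^ N * (z * y ^ N) * y := by rw [h3]
      _ = z ^ (N + 1) * y ^ (N + 1) := by rw [pow_succ, pow_succ]; group

theorem exists_min_pair [Finite G] (hna : ¬ IsMulCommutative G) :
    ∃ x y : G, ¬ Commute x y ∧ orderOf y ≤ orderOf x ∧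
      ∀ x' y' : G, ¬ Commute x' y' → orderOf x + orderOf y ≤ orderOf x' + orderOf y' := by
  classical
  have hex : ∃ N : ℕ, ∃ x y : G, ¬ Commute x y ∧ orderOf x + orderOf y = N := by
    by_contra hcon
    push Not at hcon
    apply hna
    exact ⟨⟨fun a b => by
      by_contra h
      exact hcon _ a b (fun hc => h hc.eq) rfl⟩⟩
  obtain ⟨x, y, hxy, hN⟩ := Nat.find_spec hex
  have hmin : ∀ x' y' : G, ¬ Commute x' y' → orderOf x + orderOf y ≤ orderOf x' + orderOf y' := by
    intro x' y' h'
    rw [hN]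
    exact Nat.find_min' hex ⟨x', y', h', rfl⟩
  by_cases hle : orderOf y ≤ orderOf x
  · exact ⟨x, y, hxy, hle, hmin⟩
  · refine ⟨y, x, fun h => hxy h.symm, by omega, ?_⟩
    intro x' y' h'
    have := hmin x' y' h'
    omega

/-- A minimal non-commuting pair in a Dedekind group is a quaternion pair. -/
theorem quat_pair [Finite G] (hn : ∀ H : Subgroup G, H.Normal) (x y : G) (hxy : ¬ Commute x y)
    (hle : orderOf y ≤ orderOf x)
    (hmin : ∀ x' y' : G, ¬ Commute x' y' → orderOf x + orderOf y ≤ orderOf x' + orderOf y') :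
    orderOf x = 4 ∧ orderOf y = 4 ∧ x * x = y * y ∧ x * y * x⁻¹ = y⁻¹ := by
  set c := x * y * x⁻¹ * y⁻¹ with hc
  have hc1 : c ≠ 1 := by
    intro h
    apply hxy
    have : x * y = c * (y * x) := by rw [hc]; group
    rw [h, one_mul] at this
    exact this
  have hcx : c ∈ zpowers x := by
    have h1 : y * x⁻¹ * y⁻¹ ∈ zpowers x :=
      (hn (zpowers x)).conj_mem x⁻¹ (inv_mem (mem_zpowers x)) y
    have : c = x * (y * x⁻¹ * y⁻¹) := by rw [hc]; group
    rw [this]; exact mul_mem (mem_zpowers x) h1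
  have hcy : c ∈ zpowers y := by
    have h1 : x * y * x⁻¹ ∈ zpowers y := (hn (zpowers y)).conj_mem y (mem_zpowers y) x
    exact mul_mem h1 (inv_mem (mem_zpowers y))
  have hccx : Commute c x := by
    obtain ⟨i, hi⟩ := mem_zpowers_iff.mp hcx
    rw [← hi]; exact (Commute.refl x).zpow_left i
  have hccy : Commute c y := by
    obtain ⟨i, hi⟩ := mem_zpowers_iff.mp hcy
    rw [← hi]; exact (Commute.refl y).zpow_left i
  have hbase : x * y = y * x * c := by
    have : x * y = c * (y * x) := by rw [hc]; group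
    rw [this]
    exact (hccy.mul_right hccx).eq
  have hpy : ∀ k : ℕ, x * y ^ k = y ^ k * x * c ^ k := fun k => pow_comm_central hbase hccy k
  have hpx : ∀ k : ℕ, x ^ k * y = y * x ^ k * c ^ k := by
    intro k
    have h1 : y * x = x * y * c⁻¹ := by rw [hbase]; group
    have h2 := pow_comm_central h1 hccx.inv_left k
    rw [h2, mul_assoc, inv_pow, inv_mul_cancel, mul_one]
  have hmx : ∀ x' : G, orderOf x' < orderOf x → Commute x' y := by
    intro x' h
    by_contra hcon
    have := hmin x' y hcon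
    omega
  have hmy : ∀ y' : G, orderOf y' < orderOf y → Commute x y' := by
    intro y' h
    by_contra hcon
    have := hmin x y' hcon
    omega
  have hx1 : orderOf x ≠ 1 := by
    intro h; rw [orderOf_eq_one_iff] at h; rw [h] at hxy; exact hxy (Commute.one_left y)
  have hy1 : orderOf y ≠ 1 := by
    intro h; rw [orderOf_eq_one_iff] at h; rw [h] at hxy; exact hxy (Commute.one_right x)
  have hxpos : 0 < orderOf x := orderOf_pos x
  have hypos : 0 < orderOf y := orderOf_pos y
  have hrx : ∀ r : ℕ, r.Prime → r ∣ orderOf x → orderOf c = r := by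
    intro r hr hd
    have h1 : orderOf (x ^ r) < orderOf x := by
      rw [orderOf_pow_of_dvd hr.ne_zero hd]
      exact Nat.div_lt_self hxpos hr.one_lt
    have h2 := (hmx _ h1).eq
    have h3 := hpx r
    have h4 : c ^ r = 1 := by
      rw [h2] at h3
      exact mul_eq_left.mp h3.symm
    have h5 : orderOf c ∣ r := orderOf_dvd_of_pow_eq_one h4
    rcases (Nat.dvd_prime hr).mp h5 with h6 | h6
    · exact absurd (orderOf_eq_one_iff.mp h6) hc1
    · exact h6
  have hry : ∀ r : ℕ, r.Prime → r ∣ orderOf y → orderOf c = r := by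
    intro r hr hd
    have h1 : orderOf (y ^ r) < orderOf y := by
      rw [orderOf_pow_of_dvd hr.ne_zero hd]
      exact Nat.div_lt_self hypos hr.one_lt
    have h2 := (hmy _ h1).eq
    have h3 := hpy r
    have h4 : c ^ r = 1 := by
      rw [h2] at h3
      exact mul_eq_left.mp h3.symm
    have h5 : orderOf c ∣ r := orderOf_dvd_of_pow_eq_one h4
    rcases (Nat.dvd_prime hr).mp h5 with h6 | h6
    · exact absurd (orderOf_eq_one_iff.mp h6) hc1
    · exact h6
  obtain ⟨p, hp, hpd⟩ := Nat.exists_prime_and_dvd hx1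
  have hcp : orderOf c = p := hrx p hp hpd
  obtain ⟨m, hm⟩ : ∃ m, orderOf x = p ^ m :=
    ⟨_, Nat.eq_prime_pow_of_unique_prime_dvd hxpos.ne'
      (fun {d} hd hdd => by rw [← hcp]; exact (hrx d hd hdd).symm)⟩
  obtain ⟨n, hn'⟩ : ∃ n, orderOf y = p ^ n :=
    ⟨_, Nat.eq_prime_pow_of_unique_prime_dvd hypos.ne'
      (fun {d} hd hdd => by rw [← hcp]; exact (hry d hd hdd).symm)⟩
  have hm1 : m ≠ 0 := by rintro rfl; exact hx1 (by simpa using hm)
  have hn1 : n ≠ 0 := by rintro rfl; exact hy1 (by simpa using hn')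
  have hnm : n ≤ m := by
    rw [hm, hn'] at hle
    exact (Nat.pow_le_pow_iff_right hp.one_lt).mp hle
  have hcpow : c ^ p = 1 := by rw [← hcp]; exact pow_orderOf_eq_one c
  have key : ∀ (w : G) (k : ℕ), orderOf w = p ^ k → k ≠ 0 → c ∈ zpowers w →
      orderOf (w ^ p ^ (k - 1)) = p ∧ zpowers c = zpowers (w ^ p ^ (k - 1)) := by
    intro w k hw hk hcw
    have hpk : p ^ k = p ^ (k - 1) * p := by
      rw [← pow_succ, Nat.sub_add_cancel (Nat.one_le_iff_ne_zero.mpr hk)]
    have h6 : orderOf (w ^ p ^ (k - 1)) = p := by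
      rw [orderOf_pow_of_dvd (pow_ne_zero _ hp.ne_zero) (by rw [hw, hpk]; exact Dvd.intro _ rfl),
        hw, hpk, Nat.mul_div_cancel_left _ (pow_pos hp.pos _)]
    refine ⟨h6, ?_⟩
    obtain ⟨i, hi⟩ := (mem_powers_iff_mem_zpowers).mpr hcw
    have hi' : w ^ i = c := hi
    have h1 : w ^ (i * p) = 1 := by rw [pow_mul, hi', hcpow]
    have h2 : p ^ k ∣ i * p := by rw [← hw]; exact orderOf_dvd_of_pow_eq_one h1
    rw [hpk] at h2
    have h3 : p ^ (k - 1) ∣ i := Nat.dvd_of_mul_dvd_mul_right hp.pos h2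
    obtain ⟨i', rfl⟩ := h3
    have h4 : c ∈ zpowers (w ^ p ^ (k - 1)) := by
      rw [← hi', pow_mul]; exact pow_mem (mem_zpowers _) i'
    have h5 : zpowers c ≤ zpowers (w ^ p ^ (k - 1)) := zpowers_le.mpr h4
    apply Subgroup.eq_of_le_of_card_ge h5
    rw [Nat.card_zpowers, Nat.card_zpowers, h6, hcp]
  obtain ⟨huo, hzu⟩ := key x m hm hm1 hcx
  obtain ⟨hvo, hzv⟩ := key y n hn' hn1 hcy
  set u := x ^ p ^ (m - 1) with hu
  set v := y ^ p ^ (n - 1) with hv
  have hpn : p ^ n = p ^ (n - 1) * p := by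
    rw [← pow_succ, Nat.sub_add_cancel (Nat.one_le_iff_ne_zero.mpr hn1)]
  obtain ⟨t, ht⟩ : ∃ t : ℕ, u ^ t = v⁻¹ := by
    have : v⁻¹ ∈ zpowers u := by rw [← hzu, hzv]; exact inv_mem (mem_zpowers _)
    exact (mem_powers_iff_mem_zpowers).mpr this
  set k := p ^ (m - n) * t with hk
  set z := x ^ k with hz
  have hzN : z ^ p ^ (n - 1) = v⁻¹ := by
    rw [hz, ← pow_mul, hk, ← ht, hu, ← pow_mul]
    congr 1
    have : p ^ (m - 1) = p ^ (m - n) * p ^ (n - 1) := by rw [← pow_add]; congr 1; omega
    rw [this]; ring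
  have hzy : z * y = y * z * c ^ k := hpx k
  have hez : Commute (c ^ k) z := (hccx.pow_right k).pow_left k
  have hey : Commute (c ^ k) y := hccy.pow_left k
  have hmain := mul_pow_central hzy hez hey (p ^ (n - 1))
  rw [hzN, ← hv, inv_mul_cancel] at hmain
  have hnc : ¬ Commute x (z * y) := by
    intro h
    apply hxy
    have h1 : Commute x z := (Commute.refl x).pow_right k
    have h2 : z * (x * y) = z * (y * x) := by
      calc z * (x * y) = (x * z) * y := by rw [h1.eq, mul_assoc]
        _ = x * (z * y) := mul_assoc _ _ _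
        _ = (z * y) * x := h.eq
        _ = z * (y * x) := mul_assoc _ _ _
    exact mul_left_cancel h2
  have hcontra : (c ^ k) ^ ((p ^ (n - 1)).choose 2) = 1 → False := by
    intro h1
    rw [h1, mul_one] at hmain
    have h2 : orderOf (z * y) ∣ p ^ (n - 1) := orderOf_dvd_of_pow_eq_one hmain
    have h3 : orderOf (z * y) ≤ p ^ (n - 1) := Nat.le_of_dvd (pow_pos hp.pos _) h2
    have h4 := hmin x (z * y) hnc
    have h5 : p ^ (n - 1) < p ^ n := by
      rw [hpn]; exact lt_mul_of_one_lt_right (pow_pos hp.pos _) hp.one_lt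
    rw [hn'] at h4
    omega
  have hpow_one : ∀ j : ℕ, p ∣ j → c ^ j = 1 := by
    rintro j ⟨j', rfl⟩; rw [pow_mul, hcpow, one_pow]
  by_cases h2 : p ^ (n - 1) = 2
  · have hp2 : p = 2 := by
      have : p ∣ 2 := by
        rw [← h2]; exact dvd_pow_self p (by intro h0; rw [h0, pow_zero] at h2; omega)
      exact (Nat.prime_dvd_prime_iff_eq hp Nat.prime_two).mp this
    subst hp2
    have hn2 : n = 2 := by
      have h3 : 2 ^ (n - 1) = 2 ^ 1 := by rw [h2, pow_one]
      have := Nat.pow_right_injective (le_refl 2) h3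
      omega
    by_cases hmn : m = n
    · subst hmn
      subst hn2
      have hcc : c * c = 1 := by rw [← pow_two]; exact hcpow
      have hux : u = c := by
        have hmem : u ∈ zpowers c := by rw [hzu]; exact mem_zpowers _
        rcases Cfsg.Agent.S4189.mem_zpowers_of_mul_self hcc hmem with h | h
        · rw [h, orderOf_one] at huo; omega
        · exact h
      have hvy : v = c := by
        have hmem : v ∈ zpowers c := by rw [hzv]; exact mem_zpowers _
        rcases Cfsg.Agent.S4189.mem_zpowers_of_mul_self hcc hmem with h | h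
        · rw [h, orderOf_one] at hvo; omega
        · exact h
      have hx2 : x * x = c := by rw [← hux, hu]; norm_num [pow_two]
      have hy2 : y * y = c := by rw [← hvy, hv]; norm_num [pow_two]
      have hy4 : y ^ 4 = 1 := by
        have := pow_orderOf_eq_one y
        rw [hn'] at this
        exact this
      refine ⟨hm, hn', by rw [hx2, hy2], ?_⟩
      have h3 : x * y * x⁻¹ = c * y := by rw [hc]; group
      rw [h3, ← hy2]
      have : y * y * y * y = 1 := by
        rw [← hy4, pow_succ, pow_succ, pow_succ, pow_one]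
      calc y * y * y = y * y * y * y * y⁻¹ := by group
        _ = y⁻¹ := by rw [this, one_mul]
    · exfalso
      apply hcontra
      rw [← pow_mul]
      apply hpow_one
      have : 2 ∣ 2 ^ (m - n) := dvd_pow_self 2 (by omega)
      rw [hk]
      exact Dvd.dvd.mul_right (Dvd.dvd.mul_right this t) _
  · exfalso
    apply hcontra
    rw [← pow_mul]
    apply hpow_one
    exact Dvd.dvd.mul_left (hp.dvd_choose_pow (by norm_num) (Ne.symm h2)) _

/-- The elements of a cyclic group of order dividing 4. -/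
theorem zpowers_four {a : G} (h4 : a ^ 4 = 1) {w : G} (hw : w ∈ zpowers a) :
    w = 1 ∨ w = a ∨ w = a * a ∨ w = a⁻¹ := by
  obtain ⟨i, rfl⟩ := mem_zpowers_iff.mp hw
  have h4' : a ^ (4 : ℤ) = 1 := by exact_mod_cast h4
  have hi : a ^ i = a ^ (i % 4) := by
    conv_lhs => rw [← Int.emod_add_mul_ediv i 4, zpow_add, zpow_mul, h4', one_zpow, mul_one]
  have h0 : 0 ≤ i % 4 := Int.emod_nonneg _ (by norm_num)
  have h1 : i % 4 < 4 := Int.emod_lt_of_pos _ (by norm_num)
  rw [hi]
  obtain ⟨j, hj⟩ : ∃ j : ℕ, i % 4 = j := ⟨(i % 4).toNat, (Int.toNat_of_nonneg h0).symm⟩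
  rw [hj, zpow_natCast]
  have hj4 : j < 4 := by omega
  interval_cases j
  · left; simp
  · right; left; simp
  · right; right; left; rw [pow_two]
  · right; right; right
    rw [eq_inv_iff_mul_eq_one, ← pow_succ]; exact h4

section Quat

variable [Finite G] (hn : ∀ H : Subgroup G, H.Normal) (a b : G)
  (ha4 : orderOf a = 4) (hb2 : b * b = a * a) (hba : b * a * b⁻¹ = a⁻¹)

include ha4 in
theorem a_pow_four : a ^ 4 = 1 := by rw [← ha4]; exact pow_orderOf_eq_one a

include ha4 in
theorem aa_ne_one : a * a ≠ 1 := by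
  intro h
  have : orderOf a ∣ 2 := orderOf_dvd_of_pow_eq_one (by rw [pow_two]; exact h)
  rw [ha4] at this
  omega

include ha4 in
theorem aa_mul_aa : a * a * (a * a) = 1 := by
  have := a_pow_four a ha4
  rw [← this]; simp [pow_succ, mul_assoc]

include ha4 hba in
theorem not_comm : a * b ≠ b * a := by
  intro h
  have h1 : b * a * b⁻¹ = a := by rw [← h]; group
  rw [hba] at h1
  apply aa_ne_one a ha4
  calc a * a = a⁻¹ * a := by rw [h1]
    _ = 1 := inv_mul_cancel a

include ha4 hb2 hba in
theorem aba : a * b * a⁻¹ = b⁻¹ := by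
  have h1 : b * a = a⁻¹ * b := by rw [← hba]; group
  have h2 : a * b * a = b := by
    calc a * b * a = a * (b * a) := mul_assoc _ _ _
      _ = a * (a⁻¹ * b) := by rw [h1]
      _ = b := by group
  have h3 : a * b * a⁻¹ = a * b * a * (a * a)⁻¹ := by group
  rw [h3, h2, ← hb2]; group

include ha4 hb2 in
theorem orderOf_b : orderOf b = 4 := by
  have h4 : b ^ 4 = 1 := by
    have : b ^ 4 = b * b * (b * b) := by simp [pow_succ, mul_assoc]
    rw [this, hb2]; exact aa_mul_aa a ha4
  have hd : orderOf b ∣ 4 := orderOf_dvd_of_pow_eq_one h4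
  have hle : orderOf b ≤ 4 := Nat.le_of_dvd (by norm_num) hd
  have hpos := orderOf_pos b
  have h2 : ¬ orderOf b ∣ 2 := by
    intro h
    have := orderOf_dvd_iff_pow_eq_one.mp h
    rw [pow_two, hb2] at this
    exact aa_ne_one a ha4 this
  interval_cases h : orderOf b
  · exact absurd (one_dvd 2) h2
  · exact absurd (dvd_refl 2) h2
  · omega
  · rfl

include ha4 in
/-- Elements of order 4 in `⟨a⟩`. -/
theorem order4_cases {w : G} (hw : w ∈ zpowers a) (hwo : orderOf w = 4) : w = a ∨ w = a⁻¹ := by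
  rcases zpowers_four (a_pow_four a ha4) hw with h | h | h | h
  · rw [h, orderOf_one] at hwo; omega
  · left; exact h
  · exfalso
    have : orderOf w ∣ 2 := orderOf_dvd_of_pow_eq_one (by rw [h, pow_two]; exact aa_mul_aa a ha4)
    rw [hwo] at this; omega
  · right; exact h

include hn hb2 in
theorem closure_cases (g : G) (hg : g ∈ closure ({a, b} : Set G)) :
    g ∈ zpowers a ∨ g * b ∈ zpowers a := by
  have hA : ∀ g : G, ∀ w ∈ zpowers a, g * w * g⁻¹ ∈ zpowers a :=
    fun g w hw => (hn (zpowers a)).conj_mem w hw g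
  have hbb : b * b ∈ zpowers a := by rw [hb2]; exact mul_mem (mem_zpowers a) (mem_zpowers a)
  induction hg using Subgroup.closure_induction with
  | mem s hs =>
    rcases hs with rfl | rfl
    · left; exact mem_zpowers _
    · right; exact hbb
  | one => left; exact one_mem _
  | mul y z _ _ hy hz =>
    rcases hy with hy | hy <;> rcases hz with hz | hz
    · left; exact mul_mem hy hz
    · right; rw [mul_assoc]; exact mul_mem hy hz
    · right
      have h1 := hA b⁻¹ z hz
      have : y * z * b = (y * b) * (b⁻¹ * z * b⁻¹⁻¹) := by group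
      rw [this]; exact mul_mem hy h1
    · left
      have h1 := hA b⁻¹ (z * b) hz
      have : y * z = (y * b) * (b⁻¹ * (z * b) * b⁻¹⁻¹) * (b * b)⁻¹ := by group
      rw [this]; exact mul_mem (mul_mem hy h1) (inv_mem hbb)
  | inv y _ hy =>
    rcases hy with hy | hy
    · left; exact inv_mem hy
    · right
      have h1 := hA b (y * b)⁻¹ (inv_mem hy)
      have : y⁻¹ * b = (b * (y * b)⁻¹ * b⁻¹) * (b * b) := by group
      rw [this]; exact mul_mem h1 hbb

include ha4 hba in
theorem b_not_mem : b ∉ zpowers a := by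
  intro h
  obtain ⟨i, hi⟩ := mem_zpowers_iff.mp h
  apply not_comm a b ha4 hba
  rw [← hi]
  exact ((Commute.refl a).zpow_right i).eq

include hn ha4 hb2 hba in
theorem card_Q : Nat.card (closure ({a, b} : Set G)) = 8 := by
  set Q := closure ({a, b} : Set G) with hQ
  have haQ : a ∈ Q := subset_closure (by simp)
  have hbQ : b ∈ Q := subset_closure (by simp)
  have hAQ : zpowers a ≤ Q := zpowers_le.mpr haQ
  have hidx : ((zpowers a).subgroupOf Q).index = 2 := by
    rw [Subgroup.index_eq_two_iff]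
    refine ⟨⟨b, hbQ⟩, fun g => ?_⟩
    have hcases := closure_cases hn a b hb2 g g.2
    have hnot : ¬ ((g : G) * b ∈ zpowers a ∧ (g : G) ∈ zpowers a) := by
      rintro ⟨h1, h2⟩
      apply b_not_mem a b ha4 hba
      have : b = (g : G)⁻¹ * ((g : G) * b) := by group
      rw [this]; exact mul_mem (inv_mem h2) h1
    rcases hcases with h | h
    · right
      exact ⟨h, fun h' => hnot ⟨h', h⟩⟩
    · left
      exact ⟨h, fun h' => hnot ⟨h, h'⟩⟩
  have hcardA : Nat.card ((zpowers a).subgroupOf Q) = 4 := by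
    rw [Nat.card_congr (Subgroup.subgroupOfEquivOfLe hAQ).toEquiv, Nat.card_zpowers, ha4]
  have := Subgroup.card_mul_index ((zpowers a).subgroupOf Q)
  rw [hidx, hcardA] at this
  omega

include hn ha4 hb2 hba in
theorem Q_iso : Nonempty (closure ({a, b} : Set G) ≃* QuaternionGroup 2) := by
  have haQ : a ∈ closure ({a, b} : Set G) := subset_closure (by simp)
  have hbQ : b ∈ closure ({a, b} : Set G) := subset_closure (by simp)
  refine Cfsg.Agent.S4189.quaternion_iso (P := closure ({a, b} : Set G)) ⟨a, haQ⟩ ⟨b, hbQ⟩ ?_ ?_ ?_ ?_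
    (card_Q hn a b ha4 hb2 hba)
  · apply Subtype.ext; simpa using a_pow_four a ha4
  · apply Subtype.ext; simpa using hb2
  · apply Subtype.ext; simpa using hba
  · have h := Subgroup.closure_closure_coe_preimage (k := ({a, b} : Set G))
    have hset : (((↑) : closure ({a, b} : Set G) → G) ⁻¹' ({a, b} : Set G)) =
        {⟨a, haQ⟩, ⟨b, hbQ⟩} := by
      ext ⟨w, hw⟩
      simp [Subtype.ext_iff]
    rw [hset] at h
    exact h

include ha4 hb2 hba in
/-- Every element is a product of an element of `Q` and an element centralizing `a` and `b`. -/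
theorem exists_mul_comm (hn : ∀ H : Subgroup G, H.Normal) (g : G) :
    ∃ q ∈ closure ({a, b} : Set G), (g * q) * a = a * (g * q) ∧ (g * q) * b = b * (g * q) := by
  have haQ : a ∈ closure ({a, b} : Set G) := subset_closure (by simp)
  have hbQ : b ∈ closure ({a, b} : Set G) := subset_closure (by simp)
  have hb4 := orderOf_b a b ha4 hb2
  have hab := aba a b ha4 hb2 hba
  have h1 : g * a * g⁻¹ = a ∨ g * a * g⁻¹ = a⁻¹ := by
    apply order4_cases a ha4 ((hn (zpowers a)).conj_mem a (mem_zpowers a) g)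
    rw [← ha4]
    exact (MulAut.conj g).orderOf_eq a
  have h2 : g * b * g⁻¹ = b ∨ g * b * g⁻¹ = b⁻¹ := by
    apply order4_cases b hb4 ((hn (zpowers b)).conj_mem b (mem_zpowers b) g)
    rw [← hb4]
    exact (MulAut.conj g).orderOf_eq b
  have key : ∀ q : G, g * (q * a * q⁻¹) * g⁻¹ = a → g * (q * b * q⁻¹) * g⁻¹ = b →
      (g * q) * a = a * (g * q) ∧ (g * q) * b = b * (g * q) := by
    intro q e1 e2
    constructor
    · calc g * q * a = (g * (q * a * q⁻¹) * g⁻¹) * (g * q) := by group
        _ = a * (g * q) := by rw [e1]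
    · calc g * q * b = (g * (q * b * q⁻¹) * g⁻¹) * (g * q) := by group
        _ = b * (g * q) := by rw [e2]
  have inv_conj : ∀ w : G, g * w⁻¹ * g⁻¹ = (g * w * g⁻¹)⁻¹ := by intro w; group
  rcases h1 with h1 | h1 <;> rcases h2 with h2 | h2
  · exact ⟨1, one_mem _, key 1 (by simpa using h1) (by simpa using h2)⟩
  · refine ⟨a, haQ, key a (by simpa using h1) ?_⟩
    rw [hab, inv_conj, h2, inv_inv]
  · refine ⟨b, hbQ, key b ?_ (by simpa using h2)⟩
    rw [hba, inv_conj, h1, inv_inv]
  · refine ⟨a * b, mul_mem haQ hbQ, key (a * b) ?_ ?_⟩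
    · have : a * b * a * (a * b)⁻¹ = a * (b * a * b⁻¹) * a⁻¹ := by group
      rw [this, hba]
      have : a * a⁻¹ * a⁻¹ = a⁻¹ := by group
      rw [this, inv_conj, h1, inv_inv]
    · have : a * b * b * (a * b)⁻¹ = a * b * a⁻¹ := by group
      rw [this, hab, inv_conj, h2, inv_inv]

include ha4 hba in
/-- Elements of order dividing 4 commuting with `a` and `b` have order at most 2. -/
theorem sq_of_comm (hn : ∀ H : Subgroup G, H.Normal) (t : G) (hta : t * a = a * t)
    (htb : t * b = b * t) (ht4 : t ^ 4 = 1) : t * t = 1 := by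
  have ha4' := a_pow_four a ha4
  have hne := aa_ne_one a ha4
  have hw4 : (a * t) ^ 4 = 1 := by
    have hc : Commute a t := hta.symm
    rw [hc.mul_pow, ha4', ht4, one_mul]
  have hmem : b * (a * t) * b⁻¹ ∈ zpowers (a * t) :=
    (hn (zpowers (a * t))).conj_mem (a * t) (mem_zpowers _) b
  have heq : b * (a * t) * b⁻¹ = a⁻¹ * t := by
    calc b * (a * t) * b⁻¹ = (b * a * b⁻¹) * (b * t * b⁻¹) := by group
      _ = a⁻¹ * t := by
        rw [hba, ← htb]; group
  rw [heq] at hmem
  have hcontra : t = a → False := by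
    intro h
    rw [h] at htb
    exact not_comm a b ha4 hba htb
  rcases zpowers_four hw4 hmem with h | h | h | h
  · exfalso
    apply hcontra
    calc t = a * (a⁻¹ * t) := by group
      _ = a := by rw [h, mul_one]
  · exfalso
    apply hne
    have : a⁻¹ = a := mul_right_cancel h
    calc a * a = a⁻¹ * a := by rw [this]
      _ = 1 := inv_mul_cancel a
  · exfalso
    apply hcontra
    have h1 : a * t * (a * t) = a * a * t * t := by
      calc a * t * (a * t) = a * (t * a) * t := by group
        _ = a * (a * t) * t := by rw [hta]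
        _ = a * a * t * t := by group
    rw [h1] at h
    -- a⁻¹ * t = a * a * t * t
    have h2 : a⁻¹ = a * a * t := by
      have : a⁻¹ * t = (a * a * t) * t := by rw [h]
      exact mul_right_cancel this
    have h3 : a * a * a * a = 1 := by rw [← ha4']; simp [pow_succ, mul_assoc]
    calc t = (a * a)⁻¹ * (a * a * t) := by group
      _ = (a * a)⁻¹ * a⁻¹ := by rw [← h2]
      _ = (a * a * a * a) * ((a * a)⁻¹ * a⁻¹) := by rw [h3, one_mul]
      _ = a := by group
  · -- a⁻¹ * t = (a * t)⁻¹ = t⁻¹ * a⁻¹ = a⁻¹ * t⁻¹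
    have h1 : (a * t)⁻¹ = a⁻¹ * t⁻¹ := by
      rw [mul_inv_rev]
      have : Commute a t := hta.symm
      exact (this.inv_inv).eq.symm
    rw [h1] at h
    have h2 : t = t⁻¹ := mul_left_cancel h
    calc t * t = t * t⁻¹ := by rw [← h2]
      _ = 1 := mul_inv_cancel t

include ha4 hba in
theorem sq_of_comm' (hn : ∀ H : Subgroup G, H.Normal) (t : G) (hta : t * a = a * t)
    (htb : t * b = b * t) (j : ℕ) (hj : orderOf t = 2 ^ j) : t * t = 1 := by
  rcases Nat.lt_or_ge j 2 with hj2 | hj2
  · have : orderOf t ∣ 2 := by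
      rw [hj]
      interval_cases j <;> norm_num
    have := orderOf_dvd_iff_pow_eq_one.mp this
    rwa [pow_two] at this
  · exfalso
    set s := t ^ 2 ^ (j - 2) with hs
    have hs4 : s ^ 4 = 1 := by
      rw [hs, ← pow_mul]
      have : 2 ^ (j - 2) * 4 = 2 ^ j := by
        have : j = (j - 2) + 2 := by omega
        conv_rhs => rw [this, pow_add]
        norm_num
      rw [this, ← hj]; exact pow_orderOf_eq_one t
    have hsa : s * a = a * s := ((Commute.pow_left (show Commute t a from hta) _)).eq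
    have hsb : s * b = b * s := ((Commute.pow_left (show Commute t b from htb) _)).eq
    have hss := sq_of_comm a b ha4 hba hn s hsa hsb hs4
    have h1 : t ^ 2 ^ (j - 1) = 1 := by
      have : 2 ^ (j - 1) = 2 ^ (j - 2) * 2 := by
        rw [← pow_succ]; congr 1; omega
      rw [this, pow_mul, ← hs, pow_two]; exact hss
    have h2 : orderOf t ∣ 2 ^ (j - 1) := orderOf_dvd_of_pow_eq_one h1
    rw [hj] at h2
    have h3 := Nat.le_of_dvd (pow_pos (by norm_num) _) h2
    have h4 : 2 ^ (j - 1) < 2 ^ j := Nat.pow_lt_pow_right (by norm_num) (by omega)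
    omega

end Quat

/-- A finite non-abelian group in which every subgroup is normal is the internal direct product of a subgroup isomorphic to the quaternion group of order `8`, an elementary abelian `2`-subgroup and an abelian subgroup of odd order. -/
theorem result {G : Type*} [Group G] [Finite G] (hna : ¬ IsMulCommutative G) (hn : ∀ H : Subgroup G, H.Normal) : ∃ Q E A : Subgroup G, Nonempty (Q ≃* QuaternionGroup 2) ∧ Cfsg.IsElementaryAbelian 2 E ∧ IsMulCommutative A ∧ Odd (Nat.card A) ∧ E ⊓ A = ⊥ ∧ Q ⊓ (E ⊔ A) = ⊥ ∧ Q ⊔ (E ⊔ A) = ⊤ := by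
  classical
  obtain ⟨x, y, hxy, hle, hmin⟩ := exists_min_pair hna
  obtain ⟨hx4, ha4, hb2, hba⟩ := quat_pair hn x y hxy hle hmin
  set Q := closure ({y, x} : Set G) with hQ
  have haQ : y ∈ Q := subset_closure (by simp)
  have hbQ : x ∈ Q := subset_closure (by simp)
  have : Fact (Nat.Prime 2) := ⟨Nat.prime_two⟩
  obtain ⟨P⟩ : Nonempty (Sylow 2 G) := inferInstance
  set T : Subgroup G := (P : Subgroup G) with hT
  have hTn : T.Normal := hn T
  have hTidx : ¬ 2 ∣ T.index := P.not_dvd_index
  have hc2 : Nat.Coprime 2 T.index := (Nat.Prime.coprime_iff_not_dvd Nat.prime_two).mpr hTidx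
  obtain ⟨kT, hkT⟩ := IsPGroup.iff_card.mp P.2
  have hcop : Nat.Coprime (Nat.card T) T.index := by
    rw [hT, hkT]
    exact Nat.Coprime.pow_left _ hc2
  obtain ⟨K, hK⟩ := Subgroup.exists_right_complement'_of_coprime hcop
  have hKn : K.Normal := hn K
  have hKcard : T.index = Nat.card K := hK.symm.index_eq_card
  have hKodd : Odd (Nat.card K) := by
    rw [← hKcard, ← Nat.not_even_iff_odd, even_iff_two_dvd]
    exact hTidx
  have hTK : T ⊓ K = ⊥ := disjoint_iff.mp hK.disjoint
  have hTKsup : T ⊔ K = ⊤ := hK.sup_eq_top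
  have hT2 : ∀ g : G, ∀ j : ℕ, orderOf g = 2 ^ j → g ∈ T := by
    intro g j hj
    apply Cfsg.Agent.Lib.Helper70.PNilp.mem_of_coprime_index
    rw [hj]
    exact Nat.Coprime.pow_left _ hc2
  have hT2' : ∀ t ∈ T, ∃ j : ℕ, orderOf t = 2 ^ j := by
    intro t ht
    obtain ⟨j, hj⟩ := (IsPGroup.iff_orderOf.mp P.2) ⟨t, ht⟩
    exact ⟨j, by rw [← hj, Subgroup.orderOf_mk]⟩
  have hQT : Q ≤ T := by
    rw [hQ, closure_le]
    intro s hs
    rcases hs with rfl | rfl
    · exact hT2 _ 2 (by rw [ha4]; norm_num)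
    · exact hT2 _ 2 (by rw [hx4]; norm_num)
  have hKcomm : IsMulCommutative K := by
    by_contra hKna
    have hnK : ∀ H : Subgroup K, H.Normal := by
      intro H
      constructor
      intro h hh g
      have h1 := (hn (H.map K.subtype)).conj_mem (h : G) ⟨h, hh, rfl⟩ (g : G)
      obtain ⟨h', hh', he⟩ := h1
      have : g * h * g⁻¹ = h' := Subtype.ext (by simpa using he.symm)
      rw [this]; exact hh'
    obtain ⟨x', y', hxy', hle', hmin'⟩ := exists_min_pair hKna
    obtain ⟨hx4', -, -, -⟩ := quat_pair hnK x' y' hxy' hle' hmin'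
    have hd : orderOf x' ∣ Nat.card K := orderOf_dvd_natCard x'
    rw [hx4'] at hd
    obtain ⟨r, hr⟩ := hKodd
    obtain ⟨s, hs⟩ := hd
    omega
  set C : Subgroup G := T ⊓ centralizer (Q : Set G) with hC
  have hCsq : ∀ t ∈ C, t * t = 1 := by
    intro t ht
    obtain ⟨j, hj⟩ := hT2' t ht.1
    have h1 := mem_centralizer_iff.mp ht.2
    exact sq_of_comm' y x ha4 hba hn t (h1 y haQ).symm (h1 x hbQ).symm j hj
  have hmemC : ∀ t : G, t * y = y * t → t * x = x * t → t ∈ centralizer (Q : Set G) := by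
    intro t h1 h2
    have hle' : Q ≤ centralizer ({t} : Set G) := by
      rw [hQ, closure_le]
      intro s hs
      rcases hs with rfl | rfl
      · exact mem_centralizer_singleton_iff.mpr h1.symm
      · exact mem_centralizer_singleton_iff.mpr h2.symm
    rw [mem_centralizer_iff]
    intro g hg
    exact (mem_centralizer_singleton_iff.mp (hle' hg))
  set e := y * y with he
  have hee : e * e = 1 := aa_mul_aa y ha4
  have he1 : e ≠ 1 := aa_ne_one y ha4
  have heC : e ∈ C := by
    refine ⟨hQT (mul_mem haQ haQ), hmemC e ?_ ?_⟩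
    · rw [he]; group
    · rw [← hb2]; group
  let 𝓔 : Set (Subgroup G) := {E | E ≤ C ∧ e ∉ E}
  have h𝓔 : 𝓔.Nonempty := ⟨⊥, bot_le, fun h => he1 (mem_bot.mp h)⟩
  obtain ⟨E, ⟨hEC, heE⟩, hEmax⟩ := (wellFounded_gt (α := Subgroup G)).has_min 𝓔 h𝓔
  have hCE : C ≤ E ⊔ zpowers e := by
    intro t ht
    by_contra htE
    have hE' : E ⊔ zpowers t ∈ 𝓔 := by
      refine ⟨sup_le hEC (zpowers_le.mpr ht), fun hmem => ?_⟩
      obtain ⟨s, hs, z, hz, hsz⟩ := Cfsg.Agent.Lib.Helper70.PNilp.mem_sup_of_conj E (zpowers t)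
        (fun z _ s hs => (hn E).conj_mem s hs z) e hmem
      rcases Cfsg.Agent.S4189.mem_zpowers_of_mul_self (hCsq t ht) hz with h | h
      · rw [h, mul_one] at hsz; exact heE (hsz ▸ hs)
      · apply htE
        have : t = s⁻¹ * e := by rw [hsz, h]; group
        rw [this]
        exact mul_mem (mem_sup_left (inv_mem hs)) (mem_sup_right (mem_zpowers e))
    apply hEmax _ hE'
    refine lt_of_le_of_ne le_sup_left ?_
    intro h
    apply htE
    have : t ∈ E := by rw [h]; exact mem_sup_right (mem_zpowers t)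
    exact mem_sup_left this
  refine ⟨Q, E, K, Q_iso hn y x ha4 hb2 hba, ⟨?_, ?_⟩, hKcomm, hKodd, ?_, ?_, ?_⟩
  · refine ⟨⟨fun s₁ s₂ => ?_⟩⟩
    apply Subtype.ext
    have h1 := hCsq _ (hEC s₁.2)
    have h2 := hCsq _ (hEC s₂.2)
    have h3 := hCsq _ (hEC (mul_mem s₁.2 s₂.2))
    have hi1 : (s₁ : G)⁻¹ = s₁ := inv_eq_of_mul_eq_one_left h1
    have hi2 : (s₂ : G)⁻¹ = s₂ := inv_eq_of_mul_eq_one_left h2
    show (s₁ : G) * s₂ = s₂ * s₁
    calc (s₁ : G) * s₂ = ((s₁ : G) * s₂)⁻¹ := (inv_eq_of_mul_eq_one_left h3).symm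
      _ = (s₂ : G)⁻¹ * (s₁ : G)⁻¹ := mul_inv_rev _ _
      _ = s₂ * s₁ := by rw [hi1, hi2]
  · intro s hs; rw [pow_two]; exact hCsq s (hEC hs)
  · rw [eq_bot_iff, ← hTK]
    exact inf_le_inf_right K (hEC.trans inf_le_left)
  · rw [eq_bot_iff]
    rintro g ⟨hgQ, hgEK⟩
    obtain ⟨s, hs, k, hk, hgsk⟩ := Cfsg.Agent.Lib.Helper70.PNilp.mem_sup_of_conj E K
      (fun z _ s hs => (hn E).conj_mem s hs z) g hgEK
    have hkT : k ∈ T := by
      have : k = s⁻¹ * g := by rw [hgsk]; group
      rw [this]; exact mul_mem (inv_mem (hEC hs).1) (hQT hgQ)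
    have hk1 : k = 1 := by
      have : k ∈ T ⊓ K := ⟨hkT, hk⟩
      rw [hTK] at this; exact mem_bot.mp this
    rw [hk1, mul_one] at hgsk
    rw [hgsk] at hgQ ⊢
    have hgC := (hEC hs).2
    have hcomm := mem_centralizer_iff.mp hgC
    rw [mem_bot]
    rcases closure_cases hn y x hb2 s hgQ with h | h
    · rcases zpowers_four (a_pow_four y ha4) h with h | h | h | h
      · exact h
      · exfalso
        apply not_comm y x ha4 hba
        rw [← h]; exact (hcomm x hbQ).symm
      · exfalso; exact heE (by rw [he, ← h]; exact hs)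
      · exfalso
        apply not_comm y x ha4 hba
        have h1 : x * y⁻¹ = y⁻¹ * x := by rw [← h]; exact hcomm x hbQ
        calc y * x = y * (x * y⁻¹) * y := by group
          _ = y * (y⁻¹ * x) * y := by rw [h1]
          _ = x * y := by group
    · exfalso
      obtain ⟨i, hi⟩ := mem_zpowers_iff.mp h
      apply not_comm y x ha4 hba
      have h1 : y * s = s * y := hcomm y haQ
      have h2 : Commute y (s * x) := by rw [← hi]; exact (Commute.refl y).zpow_right i
      have h3 : s * (y * x) = s * (x * y) := by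
        calc s * (y * x) = (s * y) * x := (mul_assoc _ _ _).symm
          _ = (y * s) * x := by rw [h1]
          _ = y * (s * x) := mul_assoc _ _ _
          _ = (s * x) * y := h2.eq
          _ = s * (x * y) := mul_assoc _ _ _
      exact mul_left_cancel h3
  · rw [eq_top_iff, ← hTKsup]
    refine sup_le ?_ (le_sup_of_le_right le_sup_right)
    intro t ht
    obtain ⟨q, hq, hq1, hq2⟩ := exists_mul_comm y x ha4 hb2 hba hn t
    have htqC : t * q ∈ C := ⟨mul_mem ht (hQT hq), hmemC _ hq1 hq2⟩
    have h1 : t * q ∈ E ⊔ zpowers e := hCE htqC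
    have h2 : E ⊔ zpowers e ≤ Q ⊔ (E ⊔ K) :=
      sup_le (le_sup_of_le_right le_sup_left)
        (le_sup_of_le_left (zpowers_le.mpr (mul_mem haQ haQ)))
    have : t = (t * q) * q⁻¹ := by group
    rw [this]
    exact mul_mem (h2 h1) (mem_sup_left (inv_mem hq))

end Cfsg.Agent.S4211
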