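import Cfsg.Statements.S4212
import Cfsg.Agent.S3993

set_option autoImplicit false

open Cfsg

namespace Cfsg.Agent.S4212

/-- gcd form of Frobenius' theorem -/
lemma frob_gcd {H : Type*} [Group H] [Finite H] (m : ℕ) :
    Nat.gcd m (Nat.card H) ∣ Nat.card {h : H // h ^ m = 1} := by
  have h1 := Cfsg.Agent.S3993.result (G := H) (Nat.gcd m (Nat.card H)) (Nat.gcd_dvd_right _ _)
  have h2 : Nat.card {h : H // h ^ (Nat.gcd m (Nat.card H)) = 1} =
      Nat.card {h : H // h ^ m = 1} := by
    apply Nat.card_congr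
    apply Equiv.subtypeEquivRight
    intro h
    constructor
    · intro hh
      obtain ⟨d, hd⟩ := Nat.gcd_dvd_left m (Nat.card H)
      rw [hd, pow_mul, hh, one_pow]
    · intro hh
      have : orderOf h ∣ Nat.gcd m (Nat.card H) :=
        Nat.dvd_gcd (orderOf_dvd_of_pow_eq_one hh) (orderOf_dvd_natCard h)
      exact orderOf_dvd_iff_pow_eq_one.mp this
  rw [h2] at h1
  exact h1

lemma order_eq {G : Type*} [Group G] [Finite G] (p a : ℕ) (hp : p.Prime) (x y : G)
    (hxy : x ^ (p ^ a) = y) (hpy : p ∣ orderOf y) : orderOf x = p ^ a * orderOf y := by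
  have hm : 0 < orderOf y := orderOf_pos y
  apply orderOf_eq_of_pow_and_pow_div_prime (Nat.mul_pos (pow_pos hp.pos a) hm)
  · rw [pow_mul, hxy, pow_orderOf_eq_one]
  · intro q hq hqd
    have hqm : q ∣ orderOf y := by
      rcases (Nat.Prime.dvd_mul hq).mp hqd with h | h
      · have := (Nat.prime_dvd_prime_iff_eq hq hp).mp (hq.dvd_of_dvd_pow h)
        rw [this]; exact hpy
      · exact h
    rw [Nat.mul_div_assoc _ hqm, pow_mul, hxy]
    apply pow_ne_one_of_lt_orderOf
    · exact (Nat.div_pos (Nat.le_of_dvd hm hqm) hq.pos).ne'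
    · exact Nat.div_lt_self hm hq.one_lt

lemma dvd_card_of_dvd_order {G : Type*} [Group G] [Finite G] (p a : ℕ) (hp : p.Prime) (y : G)
    (hpy : p ∣ orderOf y) : p ^ a ∣ Nat.card {x : G // x ^ (p ^ a) = y} := by
  classical
  haveI := Fintype.ofFinite G
  set m := orderOf y with hm
  have hmpos : 0 < m := orderOf_pos y
  have hord : ∀ x : G, x ^ (p ^ a) = y → orderOf x = p ^ a * m :=
    fun x hx => order_eq p a hp x y hx hpy
  rw [Nat.card_eq_fintype_card, Fintype.card_subtype]
  rw [Finset.card_eq_sum_card_fiberwise (f := Subgroup.zpowers)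
      (t := (Finset.univ.filter (fun x : G => x ^ (p ^ a) = y)).image Subgroup.zpowers)
      (fun x hx => Finset.mem_coe.mpr (Finset.mem_image_of_mem _ (Finset.mem_coe.mp hx)))]
  apply Finset.dvd_sum
  intro H hH
  obtain ⟨x₀, hx₀, rfl⟩ := Finset.mem_image.mp hH
  rw [Finset.mem_filter] at hx₀
  have hx₀y := hx₀.2
  have ho := hord x₀ hx₀y
  have hcard : ((Finset.univ.filter (fun x : G => x ^ (p ^ a) = y)).filter
      (fun x => Subgroup.zpowers x = Subgroup.zpowers x₀)).card = p ^ a := by
    refine Eq.trans (Eq.symm ?_) (Finset.card_range (p ^ a))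
    apply Finset.card_bij (fun j _ => x₀ ^ (1 + j * m))
    · intro j hj
      have h1 : (x₀ ^ (1 + j * m)) ^ (p ^ a) = y := by
        rw [← pow_mul, mul_comm, pow_mul, hx₀y, pow_add, pow_one, mul_comm j m, pow_mul, hm,
          pow_orderOf_eq_one, one_pow, mul_one]
      rw [Finset.mem_filter, Finset.mem_filter]
      refine ⟨⟨Finset.mem_univ _, h1⟩, ?_⟩
      apply Subgroup.eq_of_le_of_card_ge
      · exact Subgroup.zpowers_le.mpr (Subgroup.pow_mem _ (Subgroup.mem_zpowers x₀) _)
      · rw [Nat.card_zpowers, Nat.card_zpowers, ho, hord _ h1]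
    · intro j hj j' hj' h
      rw [Finset.mem_range] at hj hj'
      rw [pow_eq_pow_iff_modEq, ho] at h
      have h2 : j * m ≡ j' * m [MOD p ^ a * m] := Nat.ModEq.add_left_cancel' 1 h
      have h3 : j ≡ j' [MOD p ^ a] := Nat.ModEq.mul_right_cancel' hmpos.ne' h2
      exact Nat.ModEq.eq_of_lt_of_lt h3 hj hj'
    · intro x hx
      rw [Finset.mem_filter, Finset.mem_filter] at hx
      obtain ⟨⟨_, hxy⟩, hxz⟩ := hx
      have hxmem : x ∈ Subgroup.zpowers x₀ := hxz ▸ Subgroup.mem_zpowers x
      obtain ⟨i, hi⟩ := (mem_powers_iff_mem_zpowers).mpr hxmem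
      have hi' : x₀ ^ i = x := hi
      have h1 : x₀ ^ (i * p ^ a) = x₀ ^ (1 * p ^ a) := by
        rw [pow_mul, hi', hxy, one_mul, hx₀y]
      rw [pow_eq_pow_iff_modEq, ho, mul_comm (p ^ a) m] at h1
      have h2 : i ≡ 1 [MOD m] := Nat.ModEq.mul_right_cancel' (pow_pos hp.pos a).ne' h1
      have hi1 : 1 ≤ i := by
        by_contra hcon
        have hi0 : i = 0 := by omega
        rw [hi0] at h2
        have h3 : m ∣ 1 := (Nat.modEq_zero_iff_dvd.mp h2.symm)
        have h4 : p ∣ 1 := hpy.trans h3
        exact hp.one_lt.ne' (Nat.dvd_one.mp h4)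
      obtain ⟨q, hq⟩ := (Nat.modEq_iff_dvd' hi1).mp h2.symm
      refine ⟨q % p ^ a, Finset.mem_range.mpr (Nat.mod_lt _ (pow_pos hp.pos a)), ?_⟩
      rw [← hi']
      have hiq : i = 1 + q * m := by rw [mul_comm]; omega
      rw [hiq, pow_eq_pow_iff_modEq, ho]
      exact Nat.ModEq.add_left 1 (Nat.ModEq.mul_right' m (Nat.mod_modEq q (p ^ a)))
  rw [hcard]

lemma card_eq_of_coprime {G : Type*} [Group G] [Finite G] (n : ℕ) (y : G)
    (hcop : Nat.Coprime n (orderOf y)) :
    Nat.card {x : G // x ^ n = y} =
      Nat.card {u : Subgroup.centralizer ({y} : Set G) // u ^ n = 1} := by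
  obtain ⟨k, hk⟩ := exists_pow_eq_self_of_coprime hcop
  have hy₁ : (y ^ k) ^ n = y := by rw [← pow_mul, mul_comm, pow_mul]; exact hk
  have hcy : ∀ u : G, Commute u y → Commute u (y ^ k) := fun u hu => hu.pow_right k
  apply Nat.card_congr
  refine
    { toFun := fun x => ⟨⟨x.1 * (y ^ k)⁻¹, ?_⟩, ?_⟩
      invFun := fun u => ⟨u.1.1 * y ^ k, ?_⟩
      left_inv := ?_
      right_inv := ?_ }
  · have hxy : Commute x.1 y := by
      have := (Commute.refl x.1).pow_right n
      rwa [x.2] at this
    rw [Subgroup.mem_centralizer_singleton_iff]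
    exact (hxy.mul_left ((Commute.refl y).pow_left k).inv_left).eq
  · have hxy : Commute x.1 y := by
      have := (Commute.refl x.1).pow_right n
      rwa [x.2] at this
    apply Subtype.ext
    show (x.1 * (y ^ k)⁻¹) ^ n = 1
    rw [((hcy _ hxy).inv_right).mul_pow, x.2, inv_pow, hy₁, mul_inv_cancel]
  · have huy : Commute u.1.1 y := (Subgroup.mem_centralizer_singleton_iff.mp u.1.2)
    have hu : u.1.1 ^ n = 1 := by
      have := congrArg Subtype.val u.2
      simpa using this
    rw [(hcy _ huy).mul_pow, hu, hy₁, one_mul]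
  · intro x
    apply Subtype.ext
    simp
  · intro u
    apply Subtype.ext
    apply Subtype.ext
    simp

lemma key_pp {G : Type*} [Group G] [Finite G] (p a : ℕ) (hp : p.Prime) (y : G) :
    Nat.gcd (p ^ a) (Nat.card (Subgroup.centralizer ({y} : Set G))) ∣
      Nat.card {x : G // x ^ (p ^ a) = y} := by
  by_cases hpy : p ∣ orderOf y
  · exact (Nat.gcd_dvd_left _ _).trans (dvd_card_of_dvd_order p a hp y hpy)
  · have hcop : Nat.Coprime (p ^ a) (orderOf y) :=
      Nat.Coprime.pow_left a ((Nat.Prime.coprime_iff_not_dvd hp).mpr hpy)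
    rw [card_eq_of_coprime _ y hcop]
    exact frob_gcd _

lemma key_central {H : Type*} [Group H] [Finite H] (c : H) (hc : c ∈ Subgroup.center H)
    (n : ℕ) : Nat.gcd n (Nat.card H) ∣ Nat.card {x : H // x ^ n = c} := by
  classical
  haveI := Fintype.ofFinite H
  rw [Nat.dvd_iff_prime_pow_dvd_dvd]
  intro p k hp hpk
  have hpkn : p ^ k ∣ n := hpk.trans (Nat.gcd_dvd_left _ _)
  have hpkH : p ^ k ∣ Nat.card H := hpk.trans (Nat.gcd_dvd_right _ _)
  obtain ⟨n', rfl⟩ := hpkn
  set f : H → ℕ := fun y => if y ^ n' = c then Nat.card {x : H // x ^ (p ^ k) = y} else 0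
    with hf
  have hsum : Nat.card {x : H // x ^ (p ^ k * n') = c} = ∑ y, f y := by
    rw [Nat.card_eq_fintype_card, Fintype.card_subtype,
      Finset.card_eq_sum_card_fiberwise (f := fun x : H => x ^ (p ^ k)) (t := Finset.univ)
        (fun _ _ => Finset.mem_coe.mpr (Finset.mem_univ _))]
    apply Finset.sum_congr rfl
    intro y _
    show ((Finset.univ.filter fun x : H => x ^ (p ^ k * n') = c).filter
      fun x => x ^ p ^ k = y).card = f y
    simp only [hf]
    split_ifs with hy
    · rw [Nat.card_eq_fintype_card, Fintype.card_subtype]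
      congr 1
      ext x
      simp only [Finset.mem_filter, Finset.mem_univ, true_and]
      constructor
      · exact fun h => h.2
      · intro h
        exact ⟨by rw [pow_mul, h, hy], h⟩
    · rw [Finset.card_eq_zero, Finset.filter_eq_empty_iff]
      intro x hx hxy
      rw [Finset.mem_filter] at hx
      apply hy
      rw [← hxy, ← pow_mul]
      exact hx.2
  have hinv : ∀ (g : ConjAct H) (y : H), f (g • y) = f y := by
    intro g y
    have hcg : ∀ u : H, u * c * u⁻¹ = c := by
      intro u
      rw [Subgroup.mem_center_iff.mp hc u, mul_inv_cancel_right]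
    have h1 : (g • y) ^ n' = c ↔ y ^ n' = c := by
      rw [ConjAct.smul_def, conj_pow]
      constructor
      · intro h
        have h2 := hcg (ConjAct.ofConjAct g)
        rw [← h2] at h
        exact mul_left_cancel (mul_right_cancel h)
      · intro h
        rw [h]; exact hcg _
    have h2 : Nat.card {x : H // x ^ (p ^ k) = g • y} = Nat.card {x : H // x ^ (p ^ k) = y} := by
      symm
      apply Nat.card_congr
      apply Equiv.subtypeEquiv (MulAut.conj (ConjAct.ofConjAct g)).toEquiv
      intro x
      show x ^ (p ^ k) = y ↔ (ConjAct.ofConjAct g * x * (ConjAct.ofConjAct g)⁻¹) ^ (p ^ k) = g • y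
      rw [ConjAct.smul_def, conj_pow]
      constructor
      · intro h; rw [h]
      · intro h; exact mul_left_cancel (mul_right_cancel h)
    simp only [hf]
    by_cases hy : y ^ n' = c
    · rw [if_pos hy, if_pos (h1.mpr hy), h2]
    · rw [if_neg hy, if_neg (fun h => hy (h1.mp h))]
  have hdiv : ∀ y : H, p ^ k ∣ (MulAction.stabilizer (ConjAct H) y).index * f y := by
    intro y
    simp only [hf]
    by_cases hy : y ^ n' = c
    · rw [if_pos hy]
      have h1 := key_pp p k hp y
      rw [Subgroup.nat_card_centralizer_nat_card_stabilizer] at h1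
      have h2 : (MulAction.stabilizer (ConjAct H) y).index *
          Nat.card (MulAction.stabilizer (ConjAct H) y) = Nat.card H :=
        Subgroup.index_mul_card _
      have h3 : p ^ k ∣ (MulAction.stabilizer (ConjAct H) y).index *
          Nat.gcd (p ^ k) (Nat.card (MulAction.stabilizer (ConjAct H) y)) := by
        rw [← Nat.gcd_mul_left]
        exact Nat.dvd_gcd (dvd_mul_left _ _) (h2 ▸ hpkH)
      exact h3.trans (mul_dvd_mul_left _ h1)
    · rw [if_neg hy, mul_zero]; exact dvd_zero _
  rw [hsum]
  exact Cfsg.Agent.S3993.dvd_sum_of_invariant (G := ConjAct H) f (p ^ k) hinv hdiv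

lemma key {G : Type*} [Group G] [Finite G] (c : G) (n : ℕ) :
    Nat.gcd n (Nat.card (Subgroup.centralizer ({c} : Set G))) ∣
      Nat.card {x : G // x ^ n = c} := by
  have hcc : c ∈ Subgroup.centralizer ({c} : Set G) :=
    Subgroup.mem_centralizer_singleton_iff.mpr rfl
  have hcen : (⟨c, hcc⟩ : Subgroup.centralizer ({c} : Set G)) ∈
      Subgroup.center (Subgroup.centralizer ({c} : Set G)) := by
    rw [Subgroup.mem_center_iff]
    intro g
    apply Subtype.ext
    exact Subgroup.mem_centralizer_singleton_iff.mp g.2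
  have h1 := key_central (⟨c, hcc⟩ : Subgroup.centralizer ({c} : Set G)) hcen n
  have h2 : Nat.card {x : G // x ^ n = c} =
      Nat.card {x : Subgroup.centralizer ({c} : Set G) // x ^ n = ⟨c, hcc⟩} := by
    apply Nat.card_congr
    refine
      { toFun := fun x => ⟨⟨x.1, ?_⟩, ?_⟩
        invFun := fun x => ⟨x.1.1, ?_⟩
        left_inv := fun x => rfl
        right_inv := fun x => rfl }
    · rw [Subgroup.mem_centralizer_singleton_iff]
      have := (Commute.refl x.1).pow_right n
      rw [x.2] at this
      exact this.eq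
    · apply Subtype.ext
      exact x.2
    · have := congrArg Subtype.val x.2
      simpa using this
  rw [h2]
  exact h1

/-- Let `G` be a finite group of order `g`, `c` an element whose conjugacy class has `h` elements, and `n` a natural number. Then the number of elements `x` of `G` with `x^n` conjugate to `c` is a multiple of `gcd(hn, g)`. -/
theorem result {G : Type*} [Group G] [Finite G] (c : G) (n : ℕ) : Nat.gcd (Nat.card {y : G // IsConj c y} * n) (Nat.card G) ∣ Nat.card {x : G // IsConj c (x ^ n)} := by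
  classical
  haveI := Fintype.ofFinite G
  haveI : Fintype {y : G // IsConj c y} := Fintype.ofFinite _
  have hmul : Nat.card {y : G // IsConj c y} * Nat.card (Subgroup.centralizer ({c} : Set G)) =
      Nat.card G := by
    have h1 : Nat.card {y : G // IsConj c y} = (MulAction.orbit (ConjAct G) c).ncard := by
      rw [← Nat.card_coe_set_eq]
      apply Nat.card_congr
      apply Equiv.subtypeEquivRight
      intro y
      rw [ConjAct.mem_orbit_conjAct, isConj_comm]
    rw [h1, ← MulAction.index_stabilizer, Subgroup.nat_card_centralizer_nat_card_stabilizer]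
    exact Subgroup.index_mul_card _
  have hconj : ∀ y : {y : G // IsConj c y},
      Nat.card {x : G // x ^ n = y.1} = Nat.card {x : G // x ^ n = c} := by
    intro y
    obtain ⟨u, hu⟩ := isConj_iff.mp y.2
    symm
    apply Nat.card_congr
    apply Equiv.subtypeEquiv (MulAut.conj u).toEquiv
    intro x
    show x ^ n = c ↔ (u * x * u⁻¹) ^ n = y.1
    rw [conj_pow, ← hu]
    constructor
    · intro h; rw [h]
    · intro h; exact mul_left_cancel (mul_right_cancel h)
  have hcount : Nat.card {x : G // IsConj c (x ^ n)} =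
      Nat.card {y : G // IsConj c y} * Nat.card {x : G // x ^ n = c} := by
    have e : {x : G // IsConj c (x ^ n)} ≃ Σ y : {y : G // IsConj c y}, {x : G // x ^ n = y.1} :=
      { toFun := fun x => ⟨⟨x.1 ^ n, x.2⟩, ⟨x.1, rfl⟩⟩
        invFun := fun s => ⟨s.2.1, by rw [s.2.2]; exact s.1.2⟩
        left_inv := fun x => rfl
        right_inv := by
          rintro ⟨⟨y, hy⟩, ⟨x, hx⟩⟩
          change x ^ n = y at hx
          subst hx
          rfl }
    rw [Nat.card_congr e, Nat.card_sigma, Finset.sum_congr rfl (fun y _ => hconj y),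
      Finset.sum_const, Finset.card_univ, smul_eq_mul, ← Nat.card_eq_fintype_card]
  rw [hcount, ← hmul, Nat.gcd_mul_left]
  exact mul_dvd_mul_left _ (key c n)

end Cfsg.Agent.S4212
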