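import Cfsg.Statements.S4213
import Mathlib
import Cfsg.Agent.S3993
import Cfsg.Agent.Lib.Helper91.Hall

set_option autoImplicit false
open Cfsg

namespace Cfsg.Agent.S4213

universe u

/-- A nontrivial finite solvable group has a nontrivial normal `p`-subgroup of exponent `p`. -/
theorem exists_normal_exp_p (G : Type*) [Group G] [Finite G] [Group.IsSolvable G] [Nontrivial G] :
    ∃ (p : ℕ) (K : Subgroup G), p.Prime ∧ K.Normal ∧ IsPGroup p K ∧ K ≠ ⊥ ∧
      ∀ k ∈ K, k ^ p = 1 := by
  obtain ⟨p, N, hp, hNn, hNc, hNp, hN1⟩ :=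
    Cfsg.Agent.Lib.Helper91.Hall.exists_normal_abelian_pgroup G
  have hcomm : ∀ a ∈ N, ∀ b ∈ N, Commute a b := by
    intro a ha b hb
    have h1 : (⟨a, ha⟩ : N) * ⟨b, hb⟩ = ⟨b, hb⟩ * ⟨a, ha⟩ := mul_comm' _ _
    exact congrArg Subtype.val h1
  let K : Subgroup G :=
    { carrier := {k | k ∈ N ∧ k ^ p = 1}
      mul_mem' := by
        rintro a b ⟨ha, ha'⟩ ⟨hb, hb'⟩
        exact ⟨N.mul_mem ha hb, by rw [(hcomm a ha b hb).mul_pow, ha', hb', mul_one]⟩
      one_mem' := ⟨N.one_mem, one_pow p⟩
      inv_mem' := by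
        rintro a ⟨ha, ha'⟩
        exact ⟨N.inv_mem ha, by rw [inv_pow, ha', inv_one]⟩ }
  have hKN : K ≤ N := fun k hk => hk.1
  refine ⟨p, K, hp, ?_, hNp.to_le hKN, ?_, fun k hk => hk.2⟩
  · constructor
    intro k hk g
    exact ⟨hNn.conj_mem k hk.1 g, by rw [conj_pow, hk.2, mul_one, mul_inv_cancel]⟩
  · obtain ⟨x, hxN⟩ := (Subgroup.ne_bot_iff_exists_ne_one).1 hN1
    have hxN' : (x : G) ∈ N := x.2
    obtain ⟨j, hj⟩ := hNp x
    have hxj : (x : G) ^ p ^ j = 1 := congrArg Subtype.val hj
    have hdvd : orderOf (x : G) ∣ p ^ j := orderOf_dvd_of_pow_eq_one hxj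
    obtain ⟨i, hij, hi⟩ := (Nat.dvd_prime_pow hp).1 hdvd
    have hx1' : (x : G) ≠ 1 := fun h => hxN (Subtype.ext h)
    have hi0 : i ≠ 0 := by
      intro h0
      rw [h0, pow_zero, orderOf_eq_one_iff] at hi
      exact hx1' hi
    intro hKbot
    have hmem : (x : G) ^ p ^ (i - 1) ∈ K := by
      refine ⟨N.pow_mem hxN' _, ?_⟩
      rw [← pow_mul, ← pow_succ]
      have : i - 1 + 1 = i := by omega
      rw [this, ← hi]
      exact pow_orderOf_eq_one _
    rw [hKbot, Subgroup.mem_bot] at hmem
    have h2 : orderOf (x : G) ∣ p ^ (i - 1) := orderOf_dvd_of_pow_eq_one hmem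
    rw [hi] at h2
    have h3 := (Nat.pow_dvd_pow_iff_le_right hp.one_lt).1 h2
    omega

theorem normal_of_coe_eq {G : Type*} [Group G] (n : ℕ) (H : Subgroup G)
    (h : (H : Set G) = {x : G | x ^ n = 1}) : H.Normal := by
  constructor
  intro x hx g
  have hx' : x ∈ (H : Set G) := hx
  rw [h] at hx'
  have h2 : g * x * g⁻¹ ∈ (H : Set G) := by
    rw [h]
    show (g * x * g⁻¹) ^ n = 1
    rw [conj_pow, show x ^ n = 1 from hx', mul_one, mul_inv_cancel]
  exact h2

theorem aux : ∀ (N : ℕ) (G : Type u) [Group G] [Finite G] [Group.IsSolvable G], Nat.card G = N →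
    ∀ n : ℕ, n ∣ N → Nat.card {x : G // x ^ n = 1} = n →
    ∃ H : Subgroup G, (H : Set G) = {x : G | x ^ n = 1} := by
  intro N
  induction N using Nat.strong_induction_on with
  | _ N ih =>
    intro G _ _ _ hGN n hn hcount
    by_cases htriv : Subsingleton G
    · refine ⟨⊥, ?_⟩
      ext x
      simp [Subsingleton.elim x 1]
    · have hnt : Nontrivial G := not_subsingleton_iff_nontrivial.1 htriv
      obtain ⟨p, K, hp, hKn, hKp, hK1, hKexp⟩ := exists_normal_exp_p G
      have := Fact.mk hp
      have hcardmul : Nat.card G = Nat.card (G ⧸ K) * Nat.card K :=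
        Subgroup.card_eq_card_quotient_mul_card_subgroup K
      have hKcard1 : 1 < Nat.card K := (Subgroup.one_lt_card_iff_ne_bot K).2 hK1
      have hQpos : 0 < Nat.card (G ⧸ K) := Nat.card_pos
      have hcardlt : Nat.card (G ⧸ K) < N := by
        rw [← hGN, hcardmul]
        nlinarith
      obtain ⟨i, hi⟩ := hKp.exists_card_eq
      have hi0 : i ≠ 0 := by
        intro h0
        rw [h0, pow_zero] at hi
        omega
      have hpK : p ∣ Nat.card K := by
        rw [hi]; exact dvd_pow_self p hi0
      have hnpos : 0 < n := by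
        rw [← hcount]; exact Nat.card_pos_iff.2 ⟨⟨⟨1, one_pow n⟩⟩, inferInstance⟩
      have hnG : n ∣ Nat.card G := hGN ▸ hn
      have hfrob : ∀ m : ℕ, m ∣ Nat.card (G ⧸ K) → m ≤ Nat.card {y : G ⧸ K // y ^ m = 1} := by
        intro m hm
        have h1 := Cfsg.Agent.S3993.result (G := G ⧸ K) m hm
        have h2 : 0 < Nat.card {y : G ⧸ K // y ^ m = 1} :=
          Nat.card_pos_iff.2 ⟨⟨⟨1, one_pow m⟩⟩, inferInstance⟩
        exact Nat.le_of_dvd h2 h1
      have hLfin : ({x : G | x ^ n = 1} : Set G).Finite := Set.toFinite _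
      have hLcard : ({x : G | x ^ n = 1} : Set G).ncard = n := by
        rw [← Nat.card_coe_set_eq]; exact hcount
      by_cases hpn : p ∣ n
      · -- the case `p ∣ n`
        set n₁ := Nat.gcd (n / p) (Nat.card (G ⧸ K)) with hn₁
        have hn₁Q : n₁ ∣ Nat.card (G ⧸ K) := Nat.gcd_dvd_right _ _
        have hn₁p : n₁ * p ∣ n := by
          obtain ⟨t, ht⟩ := hpn
          have h1 : n / p = t := by rw [ht]; exact Nat.mul_div_cancel_left t hp.pos
          have h2 : n₁ ∣ t := h1 ▸ Nat.gcd_dvd_left _ _
          rw [ht, mul_comm]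
          exact mul_dvd_mul_left p h2
        -- `n ≤ |K| * n₁`
        have hle1 : n ≤ Nat.card K * n₁ := by
          have h1 : Nat.card K * n₁ = Nat.gcd (Nat.card K * (n / p)) (Nat.card K * Nat.card (G ⧸ K)) :=
            (Nat.gcd_mul_left _ _ _).symm
          have h2 : n ∣ Nat.card K * (n / p) := by
            obtain ⟨s, hs⟩ := hpK
            rw [hs, mul_assoc, mul_comm s, ← mul_assoc, Nat.mul_div_cancel' hpn]
            exact dvd_mul_right n s
          have h3 : n ∣ Nat.card K * Nat.card (G ⧸ K) := by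
            rw [mul_comm, ← hcardmul]; exact hnG
          have h4 : n ∣ Nat.card K * n₁ := by
            rw [h1]; exact Nat.dvd_gcd h2 h3
          have hn₁pos : 0 < n₁ := Nat.gcd_pos_of_pos_right _ hQpos
          exact Nat.le_of_dvd (by positivity) h4
        -- the preimage of the solutions of `y ^ n₁ = 1`
        have hTsub : {x : G | (x : G ⧸ K) ^ n₁ = 1} ⊆ {x : G | x ^ n = 1} := by
          intro x hx
          have hx' : (x : G ⧸ K) ^ n₁ = 1 := hx
          have h1 : x ^ n₁ ∈ K := by
            rw [← QuotientGroup.eq_one_iff, QuotientGroup.mk_pow]; exact hx'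
          have h2 : x ^ (n₁ * p) = 1 := by rw [pow_mul]; exact hKexp _ h1
          exact Cfsg.Agent.S3993.pow_one_of_dvd h2 hn₁p
        let j : {y : G ⧸ K // y ^ n₁ = 1} × K → {x : G // (x : G ⧸ K) ^ n₁ = 1} :=
          fun q => ⟨(Quotient.out q.1.1 : G) * (q.2 : G), by
            have h1 : ((Quotient.out q.1.1 * (q.2 : G) : G) : G ⧸ K) = q.1.1 := by
              rw [QuotientGroup.mk_mul, (QuotientGroup.eq_one_iff (q.2 : G)).2 q.2.2, mul_one]
              exact QuotientGroup.out_eq' _
            rw [h1]; exact q.1.2⟩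
        have hjinj : Function.Injective j := by
          rintro ⟨⟨y, hy⟩, k⟩ ⟨⟨y', hy'⟩, k'⟩ h
          have h0 : (Quotient.out y : G) * (k : G) = (Quotient.out y' : G) * (k' : G) :=
            congrArg Subtype.val h
          have h1 : ∀ (z : G ⧸ K) (c : K), ((Quotient.out z * (c : G) : G) : G ⧸ K) = z := by
            intro z c
            rw [QuotientGroup.mk_mul, (QuotientGroup.eq_one_iff (c : G)).2 c.2, mul_one]
            exact QuotientGroup.out_eq' _
          have h2 : y = y' := by
            rw [← h1 y k, ← h1 y' k', h0]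
          subst h2
          have h3 : (k : G) = (k' : G) := mul_left_cancel h0
          have h4 : k = k' := Subtype.ext h3
          rw [h4]
        have hTcard : Nat.card {y : G ⧸ K // y ^ n₁ = 1} * Nat.card K
            ≤ ({x : G | (x : G ⧸ K) ^ n₁ = 1} : Set G).ncard := by
          rw [← Nat.card_prod, ← Nat.card_coe_set_eq]
          exact Nat.card_le_card_of_injective j hjinj
        have hTle : ({x : G | (x : G ⧸ K) ^ n₁ = 1} : Set G).ncard ≤ n := by
          rw [← hLcard]; exact Set.ncard_le_ncard hTsub hLfin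
        have hS1 := hfrob n₁ hn₁Q
        have hKpos : 0 < Nat.card K := by omega
        have hSeq : Nat.card {y : G ⧸ K // y ^ n₁ = 1} = n₁ := by
          apply le_antisymm _ hS1
          have h1 : Nat.card {y : G ⧸ K // y ^ n₁ = 1} * Nat.card K ≤ n₁ * Nat.card K := by
            calc Nat.card {y : G ⧸ K // y ^ n₁ = 1} * Nat.card K
                ≤ n := hTcard.trans hTle
              _ ≤ Nat.card K * n₁ := hle1
              _ = n₁ * Nat.card K := mul_comm _ _
          exact Nat.le_of_mul_le_mul_right h1 hKpos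
        have hTeq : {x : G | (x : G ⧸ K) ^ n₁ = 1} = {x : G | x ^ n = 1} := by
          apply Set.eq_of_subset_of_ncard_le hTsub _ hLfin
          rw [hLcard]
          calc n ≤ Nat.card K * n₁ := hle1
            _ = Nat.card {y : G ⧸ K // y ^ n₁ = 1} * Nat.card K := by rw [hSeq, mul_comm]
            _ ≤ _ := hTcard
        obtain ⟨Hbar, hHbar⟩ := ih (Nat.card (G ⧸ K)) hcardlt (G ⧸ K) rfl n₁ hn₁Q hSeq
        refine ⟨Hbar.comap (QuotientGroup.mk' K), ?_⟩
        rw [← hTeq]
        ext x
        have h1 : (x : G ⧸ K) ∈ (Hbar : Set (G ⧸ K)) ↔ (x : G ⧸ K) ^ n₁ = 1 := by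
          rw [hHbar]; rfl
        exact h1
      · -- the case `p ∤ n`
        have hcop : Nat.Coprime n p := (Nat.Coprime.symm ((Nat.Prime.coprime_iff_not_dvd hp).2 hpn))
        have hcopK : Nat.Coprime n (Nat.card K) := by
          rw [hi]; exact Nat.Coprime.pow_right i hcop
        have hnQ : n ∣ Nat.card (G ⧸ K) := by
          have h1 : n ∣ Nat.card (G ⧸ K) * Nat.card K := hcardmul ▸ hnG
          exact hcopK.dvd_of_dvd_mul_right h1
        let φ : {x : G // x ^ n = 1} → {y : G ⧸ K // y ^ n = 1} :=
          fun x => ⟨(x.1 : G ⧸ K), by rw [← QuotientGroup.mk_pow, x.2]; rfl⟩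
        have hφsurj : Function.Surjective φ := by
          rintro ⟨y, hy⟩
          obtain ⟨x, rfl⟩ := QuotientGroup.mk_surjective y
          have hxK : x ^ n ∈ K := by
            rw [← QuotientGroup.eq_one_iff, QuotientGroup.mk_pow]; exact hy
          obtain ⟨e, he1, he0⟩ := Nat.chineseRemainder hcop 1 0
          have hpe : p ∣ e := (Nat.modEq_zero_iff_dvd).mp he0
          refine ⟨⟨x ^ e, ?_⟩, ?_⟩
          · rw [← pow_mul, mul_comm, pow_mul]
            exact Cfsg.Agent.S3993.pow_one_of_dvd (hKexp _ hxK) hpe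
          · apply Subtype.ext
            show ((x ^ e : G) : G ⧸ K) = (x : G ⧸ K)
            rw [QuotientGroup.mk_pow]
            exact Cfsg.Agent.S3993.pow_self_of_modEq hy he1
        have hS1 := hfrob n hnQ
        have hS2 : Nat.card {y : G ⧸ K // y ^ n = 1} ≤ n := by
          have h1 := Nat.card_le_card_of_surjective φ hφsurj
          rw [hcount] at h1
          exact h1
        have hSeq : Nat.card {y : G ⧸ K // y ^ n = 1} = n := le_antisymm hS2 hS1
        obtain ⟨Hbar, hHbar⟩ := ih (Nat.card (G ⧸ K)) hcardlt (G ⧸ K) rfl n hnQ hSeq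
        have hHbarcard : Nat.card Hbar = n := by
          rw [← hSeq]
          have : Nat.card Hbar = Nat.card ((Hbar : Set (G ⧸ K))) := rfl
          rw [this, hHbar]
          rfl
        set M : Subgroup G := Hbar.comap (QuotientGroup.mk' K) with hM
        have hKM : K ≤ M := by
          intro k hk
          show ((k : G) : G ⧸ K) ∈ Hbar
          rw [(QuotientGroup.eq_one_iff k).2 hk]
          exact Hbar.one_mem
        have hMcard : Nat.card M = n * Nat.card K := by
          have h1 : M.index = Hbar.index :=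
            Subgroup.index_comap_of_surjective Hbar (QuotientGroup.mk'_surjective K)
          have h2 := Subgroup.card_mul_index M
          have h3 := Subgroup.card_mul_index Hbar
          rw [h1] at h2
          rw [hcardmul, ← h3, hHbarcard] at h2
          have hidx : 0 < Hbar.index := Nat.pos_of_ne_zero Subgroup.index_ne_zero_of_finite
          have h4 : Nat.card M * Hbar.index = n * Nat.card K * Hbar.index := by
            rw [h2]; ring
          exact Nat.eq_of_mul_eq_mul_right hidx h4
        have hK'card : Nat.card (K.subgroupOf M) = Nat.card K :=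
          Nat.card_congr (Subgroup.subgroupOfEquivOfLe hKM).toEquiv
        have hK'idx : (K.subgroupOf M).index = n := by
          have h1 := Subgroup.card_mul_index (K.subgroupOf M)
          rw [hK'card, hMcard, mul_comm] at h1
          have hKpos : 0 < Nat.card K := by omega
          exact Nat.eq_of_mul_eq_mul_right hKpos h1
        have hK'normal : (K.subgroupOf M).Normal := inferInstance
        obtain ⟨H₀, hH₀⟩ := Subgroup.exists_right_complement'_of_coprime
          (N := K.subgroupOf M) (by rw [hK'card, hK'idx]; exact hcopK.symm)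
        have hH₀card : Nat.card H₀ = n := by
          rw [← hH₀.symm.index_eq_card, hK'idx]
        refine ⟨H₀.map M.subtype, ?_⟩
        have hsub : ((H₀.map M.subtype : Subgroup G) : Set G) ⊆ {x : G | x ^ n = 1} := by
          rintro x ⟨h, hh, rfl⟩
          have h1 : (⟨h, hh⟩ : H₀) ^ Nat.card H₀ = 1 := pow_card_eq_one'
          rw [hH₀card] at h1
          have h2 : (h : M) ^ n = 1 := congrArg Subtype.val h1
          show (M.subtype h) ^ n = 1
          rw [← map_pow, h2, map_one]
        apply Set.eq_of_subset_of_ncard_le hsub _ hLfin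
        rw [hLcard, ← Nat.card_coe_set_eq]
        have h1 : Nat.card (H₀.map M.subtype) = Nat.card H₀ :=
          Subgroup.card_map_of_injective M.subtype_injective
        have h2 : Nat.card (((H₀.map M.subtype : Subgroup G) : Set G)) = Nat.card (H₀.map M.subtype) := rfl
        rw [h2, h1, hH₀card]

/-- If `G` is a finite solvable group and `n` divides the order of `G` and exactly `n` elements `x` of `G` satisfy `x^n = 1`, then these elements form a normal subgroup. -/
theorem result {G : Type*} [Group G] [Finite G] [Group.IsSolvable G] (n : ℕ) (hn : n ∣ Nat.card G) (hcount : Nat.card {x : G // x ^ n = 1} = n) : ∃ H : Subgroup G, H.Normal ∧ (H : Set G) = {x : G | x ^ n = 1} := by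
  obtain ⟨H, hH⟩ := aux (Nat.card G) G rfl n hn hcount
  exact ⟨H, normal_of_coe_eq n H hH, hH⟩

end Cfsg.Agent.S4213
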