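import Cfsg.Statements.S4218
import Cfsg.Agent.Lib.Helper70.HallHigman

set_option autoImplicit false
open Cfsg

namespace Cfsg.Agent.S4218

open Cfsg.Agent.Lib.Helper70.HallHigman

theorem map_mem_frattini_iff {A B : Type*} [Group A] [Group B] (φ : A →* B)
    (hφ : Function.Surjective φ) (x : A) :
    φ x ∈ frattini B ↔ ∀ M : Subgroup A, IsCoatom M → φ.ker ≤ M → x ∈ M := by
  constructor
  · intro hx M hM hker
    have hcm : (M.map φ).comap φ = M := by
      rw [Subgroup.comap_map_eq, sup_eq_left.2 hker]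
    have hco : IsCoatom (M.map φ) := by
      constructor
      · intro h
        apply hM.1
        rw [← hcm, h, Subgroup.comap_top]
      · intro K' hK'
        have h1 : M < K'.comap φ := by
          rw [← hcm]
          exact (Subgroup.comap_lt_comap_of_surjective hφ).2 hK'
        have h2 := hM.2 _ h1
        rw [← Subgroup.comap_top φ] at h2
        exact Subgroup.comap_injective hφ h2
    have h3 : φ x ∈ M.map φ := by
      have : frattini B ≤ M.map φ := by
        unfold frattini Order.radical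
        exact iInf₂_le _ hco
      exact this hx
    rw [← hcm]
    exact h3
  · intro h
    unfold frattini Order.radical
    simp only [Subgroup.mem_iInf]
    intro M' hM'
    have hco := Subgroup.isCoatom_comap_of_surjective hφ hM'
    exact h _ hco (Subgroup.ker_le_comap φ M')

/-- Let `G` be a finite `p`-solvable group, `N₀ = O_{p'}(G)`, `P₁ = O_{p',p}(G)`, and let `F ≤ P₁` be the preimage of the Frattini subgroup of `P₁/N₀`. Then an element `g` of `G` induces the identity on `P₁/F` by conjugation (that is, `g x g⁻¹ x⁻¹ ∈ F` for all `x ∈ P₁`) if and only if `g ∈ P₁`: the group `G/P₁` acts faithfully on `P₁/F`. -/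
theorem result {G : Type*} [Group G] [Finite G] {p : ℕ} [Fact p.Prime] (hG : Cfsg.IsPSolvable p G) (g : G) : (∀ x ∈ Cfsg.pPrimePCore p G, g * x * g⁻¹ * x⁻¹ ∈ ((frattini (↥(Cfsg.pPrimePCore p G) ⧸ (Cfsg.pPrimeCore p G).subgroupOf (Cfsg.pPrimePCore p G))).comap (QuotientGroup.mk' ((Cfsg.pPrimeCore p G).subgroupOf (Cfsg.pPrimePCore p G)))).map (Cfsg.pPrimePCore p G).subtype) ↔ g ∈ Cfsg.pPrimePCore p G := by
  have hπ : Function.Surjective (QuotientGroup.mk' (pPrimeCore p G)) :=
    QuotientGroup.mk'_surjective _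
  have hch : PChain p (G ⧸ pPrimeCore p G) := (pChain_of_isPSolvable hG).of_surjective _ hπ
  have hcore : ∀ K : Subgroup (G ⧸ pPrimeCore p G), K.Normal → (Nat.card K).Coprime p → K = ⊥ :=
    fun K hKn hKc => Lib.Helper55.SolvCore.quotient_pPrimeCore_core_trivial p K hKn hKc
  have key := mem_pCore_iff p hch hcore (QuotientGroup.mk' (pPrimeCore p G) g)
  let ψ : ↥(pPrimePCore p G) →* ↥(pCore p (G ⧸ pPrimeCore p G)) :=
    (QuotientGroup.mk' (pPrimeCore p G)).subgroupComap (pCore p (G ⧸ pPrimeCore p G))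
  have hψ : Function.Surjective ψ :=
    MonoidHom.subgroupComap_surjective_of_surjective _ _ hπ
  have hψ_coe : ∀ x : ↥(pPrimePCore p G),
      ((ψ x : ↥(pCore p (G ⧸ pPrimeCore p G))) : G ⧸ pPrimeCore p G)
        = QuotientGroup.mk' (pPrimeCore p G) (x : G) := fun x => rfl
  have hker : ψ.ker
      = (QuotientGroup.mk' ((pPrimeCore p G).subgroupOf (pPrimePCore p G))).ker := by
    rw [QuotientGroup.ker_mk']
    ext x
    rw [MonoidHom.mem_ker, Subgroup.mem_subgroupOf]
    constructor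
    · intro h
      have := congrArg Subtype.val h
      rw [hψ_coe] at this
      exact (QuotientGroup.eq_one_iff _).1 this
    · intro h
      apply Subtype.ext
      rw [hψ_coe]
      exact (QuotientGroup.eq_one_iff _).2 h
  have hstar : ∀ x : ↥(pPrimePCore p G),
      QuotientGroup.mk' ((pPrimeCore p G).subgroupOf (pPrimePCore p G)) x ∈ frattini _
        ↔ ψ x ∈ frattini _ := by
    intro x
    rw [map_mem_frattini_iff _ (QuotientGroup.mk'_surjective _), map_mem_frattini_iff ψ hψ, hker]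
  have hmemF : ∀ f : G, f ∈ ((frattini (↥(pPrimePCore p G) ⧸
      (pPrimeCore p G).subgroupOf (pPrimePCore p G))).comap
      (QuotientGroup.mk' ((pPrimeCore p G).subgroupOf (pPrimePCore p G)))).map
      (pPrimePCore p G).subtype ↔ ∃ hf : f ∈ pPrimePCore p G, ψ ⟨f, hf⟩ ∈ frattini _ := by
    intro f
    constructor
    · rintro ⟨f', hf', rfl⟩
      exact ⟨f'.2, (hstar f').1 hf'⟩
    · rintro ⟨hf, h⟩
      exact ⟨⟨f, hf⟩, (hstar _).2 h, rfl⟩
  have hP1n : (pPrimePCore p G).Normal := by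
    unfold pPrimePCore
    infer_instance
  have hmemP : g ∈ pPrimePCore p G
      ↔ QuotientGroup.mk' (pPrimeCore p G) g ∈ pCore p (G ⧸ pPrimeCore p G) := Iff.rfl
  rw [hmemP, ← key]
  constructor
  · intro h
    show ∀ y : ↥(pCore p (G ⧸ pPrimeCore p G)),
      (MulAut.conjNormal (QuotientGroup.mk' (pPrimeCore p G) g) :
        MulAut ↥(pCore p (G ⧸ pPrimeCore p G))) y * y⁻¹ ∈ frattini _
    intro y
    obtain ⟨x, rfl⟩ := hψ y
    obtain ⟨hf, hfr⟩ := (hmemF _).1 (h x x.2)
    have e : (MulAut.conjNormal (QuotientGroup.mk' (pPrimeCore p G) g) :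
        MulAut ↥(pCore p (G ⧸ pPrimeCore p G))) (ψ x) * (ψ x)⁻¹
          = ψ ⟨g * x * g⁻¹ * (x : G)⁻¹, hf⟩ := by
      apply Subtype.ext
      simp [MulAut.conjNormal_apply, hψ_coe]
    rw [e]
    exact hfr
  · intro h x hx
    rw [hmemF]
    have hf : g * x * g⁻¹ * x⁻¹ ∈ pPrimePCore p G :=
      (pPrimePCore p G).mul_mem (hP1n.conj_mem x hx g) ((pPrimePCore p G).inv_mem hx)
    refine ⟨hf, ?_⟩
    have h' := h (ψ ⟨x, hx⟩)
    have e : (MulAut.conjNormal (QuotientGroup.mk' (pPrimeCore p G) g) :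
        MulAut ↥(pCore p (G ⧸ pPrimeCore p G))) (ψ ⟨x, hx⟩) * (ψ ⟨x, hx⟩)⁻¹
          = ψ ⟨g * x * g⁻¹ * x⁻¹, hf⟩ := by
      apply Subtype.ext
      simp [MulAut.conjNormal_apply, hψ_coe]
    rw [e] at h'
    exact h'

end Cfsg.Agent.S4218
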