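import Cfsg.Statements.S4227
import Cfsg.Agent.S4203
import Cfsg.Agent.Lib.Helper70.HallHigman2
import Cfsg.Agent.Lib.Helper63.PLength

set_option autoImplicit false
open Cfsg

namespace Cfsg.Agent.S4227

open Cfsg.Agent.Lib
open scoped commutatorElement

theorem solvable_of_exp6 {H : Type*} [Group H] [Finite H] (hexp : ∀ x : H, x ^ 6 = 1) :
    Group.IsSolvable H := by
  obtain ⟨a, b, hab⟩ := Cfsg.Agent.S4203.two_three_aux (Nat.card_pos (α := H)).ne' (by
    intro r hr hrd
    have : Fact r.Prime := ⟨hr⟩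
    obtain ⟨x, hx⟩ := exists_prime_orderOf_dvd_card' r hrd
    have h6 : r ∣ 6 := hx ▸ orderOf_dvd_of_pow_eq_one (hexp x)
    have := Nat.le_of_dvd (by norm_num) h6
    have h2 := hr.two_le
    interval_cases r
    all_goals first | omega | exact absurd hr (by norm_num))
  exact Cfsg.Agent.S0144.result 2 3 a b Nat.prime_two Nat.prime_three hab

theorem dvd_prime_aux (p : ℕ) (hp : p = 2 ∨ p = 3) (d k : ℕ) (h1 : d ∣ p ^ k) (h2 : d ∣ 6) :
    d ∣ p := by
  have hpp : p.Prime := by
    rcases hp with rfl | rfl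
    · exact Nat.prime_two
    · exact Nat.prime_three
  obtain ⟨j, -, rfl⟩ := (Nat.dvd_prime_pow hpp).1 h1
  rcases Nat.lt_or_ge j 2 with hj | hj
  · interval_cases j
    · simp
    · simp
  · exfalso
    have h3 : p ^ 2 ∣ 6 := (pow_dvd_pow p hj).trans h2
    rcases hp with rfl | rfl
    · omega
    · omega

theorem sq_eq_one_of_pgroup {H : Type*} [Group H] (hexp : ∀ x : H, x ^ 6 = 1)
    (S : Subgroup H) (hS : IsPGroup 2 S) (s : H) (hs : s ∈ S) : s * s = 1 := by
  obtain ⟨k, hk⟩ := hS ⟨s, hs⟩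
  have h1 : s ^ 2 ^ k = 1 := by simpa using congrArg Subtype.val hk
  have h2 : orderOf s ∣ 2 ^ k := orderOf_dvd_of_pow_eq_one h1
  have h3 : orderOf s ∣ 6 := orderOf_dvd_of_pow_eq_one (hexp s)
  have h4 : orderOf s ∣ 2 := dvd_prime_aux 2 (Or.inl rfl) _ k h2 h3
  rw [← pow_two]
  exact orderOf_dvd_iff_pow_eq_one.1 h4

theorem comm_of_sq {H : Type*} [Group H] (S : Subgroup H) (h : ∀ s ∈ S, s * s = 1)
    (s t : H) (hs : s ∈ S) (ht : t ∈ S) : s * t = t * s := by
  have h1 := h (s * t) (S.mul_mem hs ht)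
  symm
  calc t * s = (s * s) * (t * s) * (t * t) := by rw [h s hs, h t ht, one_mul, mul_one]
    _ = s * ((s * t) * (s * t)) * t := by group
    _ = s * t := by rw [h1, mul_one]

theorem pLength_of_index {G : Type*} [Group G] [Finite G] (p : ℕ) [Fact p.Prime]
    (h : ((pCore p (G ⧸ pPrimeCore p G)).index).Coprime p) : PLengthLE p 1 G := by
  rw [Helper63.PLength.pLengthLE_iff]
  have hN : (pPrimeCore p G).Normal := inferInstance
  have hP : (pPrimePCore p G).Normal := by
    unfold pPrimePCore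
    infer_instance
  have hNP : pPrimeCore p G ≤ pPrimePCore p G := by
    intro x hx
    show QuotientGroup.mk' (pPrimeCore p G) x ∈ pCore p (G ⧸ pPrimeCore p G)
    have h1 : QuotientGroup.mk' (pPrimeCore p G) x = 1 := (QuotientGroup.eq_one_iff x).2 hx
    rw [h1]
    exact one_mem _
  refine ⟨fun i => if i = 0 then ⊥ else if i = 1 then pPrimeCore p G
    else if i = 2 then pPrimePCore p G else ⊤, ⟨by simp, ?_, ?_, ?_⟩, by simp⟩
  · intro i
    by_cases h0 : i = 0
    · simp only [h0, if_true]; infer_instance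
    by_cases h1 : i = 1
    · simp only [h1]; exact hN
    by_cases h2 : i = 2
    · simp only [h2]; exact hP
    · simp only [h0, h1, h2, if_false]; infer_instance
  · intro i
    by_cases h0 : i = 0
    · subst h0; simp
    by_cases h1 : i = 1
    · subst h1; simpa using hNP
    by_cases h2 : i = 2
    · subst h2; simp
    · have e1 : ¬ (i + 1 = 0) := by omega
      have e2 : ¬ (i + 1 = 1) := by omega
      have e3 : ¬ (i + 1 = 2) := by omega
      simp only [h0, h1, h2, e1, e2, e3, if_false]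
      exact le_refl _
  · intro i
    by_cases h0 : i = 0
    · subst h0
      simp only [if_true, zero_add, one_ne_zero, if_false]
      rw [Helper63.PLength.stepCard_even (by decide), Subgroup.relIndex_bot_left]
      exact Helper55.SolvCore.card_pPrimeCore_coprime p
    by_cases h1 : i = 1
    · subst h1
      simp only [one_ne_zero, if_false, if_true, show (1 + 1 = 0) = False from by simp,
        show (1 + 1 = 1) = False from by simp]
      rw [Helper63.PLength.stepCard_odd (by decide), Helper63.PLength.relIndex_eq_card_map]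
      have : (pPrimePCore p G).map (QuotientGroup.mk' (pPrimeCore p G))
          = pCore p (G ⧸ pPrimeCore p G) :=
        Subgroup.map_comap_eq_self_of_surjective (QuotientGroup.mk'_surjective _) _
      rw [this]
      obtain ⟨k, hk⟩ := IsPGroup.iff_card.1 (Helper78.Fitting.pCore_isPGroup (G := G ⧸ pPrimeCore p G) p)
      exact ⟨k, hk⟩
    by_cases h2 : i = 2
    · subst h2
      simp only [show (2 = 0) = False from by simp, show (2 = 1) = False from by simp,
        show (2 + 1 = 0) = False from by simp, show (2 + 1 = 1) = False from by simp,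
        show (2 + 1 = 2) = False from by simp, if_false, if_true]
      rw [Helper63.PLength.stepCard_even (by decide), Subgroup.relIndex_top_right]
      have : (pPrimePCore p G).index = (pCore p (G ⧸ pPrimeCore p G)).index :=
        Subgroup.index_comap_of_surjective _ (QuotientGroup.mk'_surjective _)
      rw [this]
      exact h
    · have e1 : ¬ (i + 1 = 0) := by omega
      have e2 : ¬ (i + 1 = 1) := by omega
      have e3 : ¬ (i + 1 = 2) := by omega
      simp only [h0, h1, h2, e1, e2, e3, if_false]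
      rw [Subgroup.relIndex_top_right, Subgroup.index_top]
      exact Helper63.PLength.stepCard_one p i

theorem claim2 {H : Type*} [Group H] [Finite H] (hexp : ∀ x : H, x ^ 6 = 1)
    (hcore : ∀ K : Subgroup H, K.Normal → (Nat.card K).Coprime 2 → K = ⊥) :
    ((pCore 2 H).index).Coprime 2 := by
  have : Fact (Nat.Prime 2) := ⟨Nat.prime_two⟩
  have hsol : Group.IsSolvable H := solvable_of_exp6 hexp
  have hcent := Helper55.SolvCore.centralizer_le_of_solvable 2 hsol hcore (pCore 2 H)
    (fun M hM hMp => Helper78.Fitting.le_pCore hM hMp)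
  obtain S : Sylow 2 H := default
  have hPS : pCore 2 H ≤ S := Helper78.Fitting.pCore_le_sylow S
  have hS2 : ∀ s ∈ (S : Subgroup H), s * s = 1 :=
    fun s hs => sq_eq_one_of_pgroup hexp S S.isPGroup' s hs
  have hSP : (S : Subgroup H) ≤ pCore 2 H := by
    intro s hs
    apply hcent
    rw [Subgroup.mem_centralizer_iff]
    intro y hy
    exact comm_of_sq S hS2 y s (hPS hy) hs
  have heq : pCore 2 H = S := le_antisymm hPS hSP
  rw [heq, Nat.coprime_comm, Nat.Prime.coprime_iff_not_dvd Nat.prime_two]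
  exact S.not_dvd_index

theorem claim3 {H : Type*} [Group H] [Finite H] (hexp : ∀ x : H, x ^ 6 = 1)
    (hcore : ∀ K : Subgroup H, K.Normal → (Nat.card K).Coprime 3 → K = ⊥) :
    ((pCore 3 H).index).Coprime 3 := by
  have hf3 : Fact (Nat.Prime 3) := ⟨Nat.prime_three⟩
  have hf2 : Fact (Nat.Prime 2) := ⟨Nat.prime_two⟩
  have hsol : Group.IsSolvable H := solvable_of_exp6 hexp
  have hcentP := Helper55.SolvCore.centralizer_le_of_solvable 3 hsol hcore (pCore 3 H)
    (fun M hM hMp => Helper78.Fitting.le_pCore hM hMp)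
  have hPp : IsPGroup 3 (pCore 3 H) := Helper78.Fitting.pCore_isPGroup 3
  have hPn : (pCore 3 H).Normal := inferInstance
  have hπs : Function.Surjective (QuotientGroup.mk' (pCore 3 H)) := QuotientGroup.mk'_surjective _
  have hexpq : ∀ y : H ⧸ pCore 3 H, y ^ 6 = 1 := by
    intro y
    obtain ⟨x, rfl⟩ := hπs y
    rw [← map_pow, hexp, map_one]
  have hπ1 : ∀ x : H, QuotientGroup.mk' (pCore 3 H) x = 1 ↔ x ∈ pCore 3 H :=
    fun x => QuotientGroup.eq_one_iff x
  have hcoreq : ∀ K : Subgroup (H ⧸ pCore 3 H), K.Normal → (Nat.card K).Coprime 2 → K = ⊥ := by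
    intro K hKn hKc
    have hK3 : ∀ k ∈ K, k ^ 3 = 1 := by
      intro k hk
      have h1 : orderOf k ∣ Nat.card K := by
        have := orderOf_dvd_natCard (⟨k, hk⟩ : K)
        rwa [Subgroup.orderOf_mk] at this
      have h2 : orderOf k ∣ 2 * 3 := orderOf_dvd_of_pow_eq_one (hexpq k)
      have h3 : (orderOf k).Coprime 2 := Nat.Coprime.coprime_dvd_left h1 hKc
      have h4 : orderOf k ∣ 3 := Nat.Coprime.dvd_of_dvd_mul_left h3 h2
      exact orderOf_dvd_iff_pow_eq_one.1 h4
    have hcomap_le : K.comap (QuotientGroup.mk' (pCore 3 H)) ≤ pCore 3 H := by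
      apply Helper78.Fitting.le_pCore (hKn.comap _)
      rintro ⟨x, hx⟩
      have hx3 : x ^ 3 ∈ pCore 3 H := by
        rw [← hπ1, map_pow]
        exact hK3 _ hx
      obtain ⟨j, hj⟩ := hPp ⟨x ^ 3, hx3⟩
      refine ⟨j + 1, ?_⟩
      apply Subtype.ext
      have := congrArg Subtype.val hj
      simp only [Subgroup.coe_pow, Subgroup.coe_one] at this ⊢
      rw [pow_succ', pow_mul]
      exact this
    rw [eq_bot_iff]
    intro k hk
    obtain ⟨x, rfl⟩ := hπs k
    exact (hπ1 x).2 (hcomap_le hk)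
  have hsolq : Group.IsSolvable (H ⧸ pCore 3 H) := inferInstance
  have hcentQ := Helper55.SolvCore.centralizer_le_of_solvable 2 hsolq hcoreq
    (pCore 2 (H ⧸ pCore 3 H)) (fun M hM hMp => Helper78.Fitting.le_pCore hM hMp)
  have hQp : IsPGroup 2 (pCore 2 (H ⧸ pCore 3 H)) := Helper78.Fitting.pCore_isPGroup 2
  have hQn : (pCore 2 (H ⧸ pCore 3 H)).Normal := inferInstance
  have hQ2 : ∀ q ∈ pCore 2 (H ⧸ pCore 3 H), q * q = 1 :=
    fun q hq => sq_eq_one_of_pgroup hexpq _ hQp q hq
  have hQc : ∀ q ∈ pCore 2 (H ⧸ pCore 3 H), ∀ q' ∈ pCore 2 (H ⧸ pCore 3 H), q * q' = q' * q :=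
    fun q hq q' hq' => comm_of_sq _ hQ2 q q' hq hq'
  rw [Nat.coprime_comm, Nat.Prime.coprime_iff_not_dvd Nat.prime_three]
  intro hdvd
  rw [Subgroup.index_eq_card] at hdvd
  obtain ⟨xbar, hxbar⟩ := exists_prime_orderOf_dvd_card' 3 hdvd
  have hxbar3 : xbar ^ 3 = 1 := by
    have := pow_orderOf_eq_one xbar
    rw [hxbar] at this
    exact this
  have hxbar3' : xbar * xbar * xbar = 1 := by
    rw [← hxbar3, pow_succ, pow_succ, pow_one]
  have hxQ : xbar ∉ pCore 2 (H ⧸ pCore 3 H) := by
    intro hmem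
    obtain ⟨k, hk⟩ := hQp ⟨xbar, hmem⟩
    have h1 : xbar ^ 2 ^ k = 1 := by simpa using congrArg Subtype.val hk
    have h2 := orderOf_dvd_of_pow_eq_one h1
    rw [hxbar] at h2
    have := Nat.Prime.dvd_of_dvd_pow Nat.prime_three h2
    omega
  have hxC : xbar ∉ Subgroup.centralizer
      ((pCore 2 (H ⧸ pCore 3 H) : Subgroup (H ⧸ pCore 3 H)) : Set (H ⧸ pCore 3 H)) :=
    fun h => hxQ (hcentQ h)
  rw [Subgroup.mem_centralizer_iff] at hxC
  push Not at hxC
  obtain ⟨abar, habar, hne⟩ := hxC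
  -- lifts
  obtain ⟨x₀, hx₀⟩ := hπs xbar
  obtain ⟨a, ha⟩ := hπs abar
  obtain ⟨x, hx_def⟩ : ∃ x : H, x = x₀ ^ 4 := ⟨_, rfl⟩
  have hx3 : x ^ 3 = 1 := by
    rw [hx_def, ← pow_mul, show 4 * 3 = 6 * 2 from rfl, pow_mul, hexp, one_pow]
  have hπx : QuotientGroup.mk' (pCore 3 H) x = xbar := by
    rw [hx_def, map_pow, hx₀, show 4 = 3 + 1 from rfl, pow_add, hxbar3, one_mul, pow_one]
  have hx3' : x * x * x = 1 := by
    rw [← hx3, pow_succ, pow_succ, pow_one]
  -- conjugates of abar
  obtain ⟨a1, ha1⟩ : ∃ a1, a1 = xbar * abar * xbar⁻¹ := ⟨_, rfl⟩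
  obtain ⟨a2, ha2⟩ : ∃ a2, a2 = xbar * a1 * xbar⁻¹ := ⟨_, rfl⟩
  have ha1Q : a1 ∈ pCore 2 (H ⧸ pCore 3 H) := ha1 ▸ hQn.conj_mem _ habar _
  have ha2Q : a2 ∈ pCore 2 (H ⧸ pCore 3 H) := ha2 ▸ hQn.conj_mem _ ha1Q _
  have ha3 : xbar * a2 * xbar⁻¹ = abar := by
    rw [ha2, ha1]
    have : xbar * (xbar * (xbar * abar * xbar⁻¹) * xbar⁻¹) * xbar⁻¹
        = (xbar * xbar * xbar) * abar * (xbar * xbar * xbar)⁻¹ := by group
    rw [this, hxbar3', one_mul, inv_one, mul_one]
  -- the elements b, b', b''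
  obtain ⟨b, hb_def⟩ : ∃ b : H, b = a * (x * a * x⁻¹) := ⟨_, rfl⟩
  obtain ⟨b', hb'_def⟩ : ∃ b' : H, b' = x * b * x⁻¹ := ⟨_, rfl⟩
  obtain ⟨b'', hb''_def⟩ : ∃ b'' : H, b'' = x * b' * x⁻¹ := ⟨_, rfl⟩
  have hπb : QuotientGroup.mk' (pCore 3 H) b = abar * a1 := by
    rw [hb_def, map_mul, map_mul, map_mul, map_inv, ha, hπx, ha1]
  have hπb' : QuotientGroup.mk' (pCore 3 H) b' = a1 * a2 := by
    rw [hb'_def, map_mul, map_mul, map_inv, hπb, hπx, ha2, ha1]
    group
  have hπb'' : QuotientGroup.mk' (pCore 3 H) b'' = a2 * abar := by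
    rw [hb''_def, map_mul, map_mul, map_inv, hπb', hπx]
    calc xbar * (a1 * a2) * xbar⁻¹ = (xbar * a1 * xbar⁻¹) * (xbar * a2 * xbar⁻¹) := by group
      _ = a2 * abar := by rw [← ha2, ha3]
  have hbQ : QuotientGroup.mk' (pCore 3 H) b ∈ pCore 2 (H ⧸ pCore 3 H) :=
    hπb ▸ Subgroup.mul_mem _ habar ha1Q
  have hb'Q : QuotientGroup.mk' (pCore 3 H) b' ∈ pCore 2 (H ⧸ pCore 3 H) :=
    hπb' ▸ Subgroup.mul_mem _ ha1Q ha2Q
  -- membership facts in P
  have hbb : b * b ∈ pCore 3 H := by
    rw [← hπ1, map_mul]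
    exact hQ2 _ hbQ
  have hb'b' : b' * b' ∈ pCore 3 H := by
    rw [← hπ1, map_mul]
    exact hQ2 _ hb'Q
  have hcommP : b * b' * b⁻¹ * b'⁻¹ ∈ pCore 3 H := by
    rw [← hπ1, map_mul, map_mul, map_mul, map_inv, map_inv, hQc _ hbQ _ hb'Q]
    group
  have hb''P : (b * b')⁻¹ * b'' ∈ pCore 3 H := by
    rw [← hπ1, map_mul, map_inv, map_mul, hπb, hπb', hπb'']
    have e : abar * a1 * (a1 * a2) = a2 * abar := by
      calc abar * a1 * (a1 * a2) = abar * (a1 * a1) * a2 := by group
        _ = abar * a2 := by rw [hQ2 a1 ha1Q, mul_one]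
        _ = a2 * abar := hQc _ habar _ ha2Q
    rw [e, inv_mul_cancel]
  have hbP : b ∉ pCore 3 H := by
    intro hb
    have h1 : abar * a1 = 1 := by rw [← hπb]; exact (hπ1 b).2 hb
    have h2 : a1 = abar := by
      have : abar * a1 = abar * abar := by rw [h1, hQ2 abar habar]
      exact mul_left_cancel this
    apply hne
    rw [ha1] at h2
    calc abar * xbar = (xbar * abar * xbar⁻¹) * xbar := by rw [h2]
      _ = xbar * abar := by group
  -- (x u)^3 = 1 for u ∈ P
  have hxu : ∀ u ∈ pCore 3 H, (x * u) ^ 3 = 1 := by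
    intro u hu
    have h1 : (x * u) ^ 3 ∈ pCore 3 H := by
      rw [← hπ1, map_pow, map_mul, (hπ1 u).2 hu, mul_one, hπx]
      exact hxbar3
    obtain ⟨j, hj⟩ := hPp ⟨(x * u) ^ 3, h1⟩
    have h2 : ((x * u) ^ 3) ^ 3 ^ j = 1 := by simpa using congrArg Subtype.val hj
    have h3 : ((x * u) ^ 3) ^ 2 = 1 := by rw [← pow_mul]; exact hexp _
    have h4 : orderOf ((x * u) ^ 3) ∣ 3 ^ j := orderOf_dvd_of_pow_eq_one h2
    have h5 : orderOf ((x * u) ^ 3) ∣ 2 := orderOf_dvd_of_pow_eq_one h3
    have h6 : orderOf ((x * u) ^ 3) = 1 := by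
      have hc : Nat.Coprime (3 ^ j) 2 := Nat.Coprime.pow_left j (by decide)
      exact Nat.eq_one_of_dvd_coprimes hc h4 h5
    exact orderOf_eq_one_iff.1 h6
  -- the action on the Frattini quotient
  have htriv : ∀ k ∈ pCore 3 H, ∀ v, Helper70.HallHigman2.act (pCore 3 H) k v = v := by
    intro k hk
    rw [Helper70.HallHigman2.act_eq_self_iff]
    exact (Helper70.HallHigman2.mem_pCore_iff_of_centralizer_le 3 hcentP k).2 hk
  have hVc : ∀ v w : (↥(pCore 3 H) ⧸ frattini ↥(pCore 3 H)), v * w = w * v := by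
    intro v w
    obtain ⟨u, rfl⟩ := QuotientGroup.mk_surjective v
    obtain ⟨u', rfl⟩ := QuotientGroup.mk_surjective w
    rw [← QuotientGroup.mk_mul, ← QuotientGroup.mk_mul]
    apply QuotientGroup.eq.2
    have h1 : (u * u')⁻¹ * (u' * u) = ⁅u'⁻¹, u⁻¹⁆ := by
      rw [commutatorElement_def]; group
    rw [h1]
    exact Helper70.FrattiniQuot.commutator_le_frattini hPp
      (Subgroup.commutator_mem_commutator (Subgroup.mem_top _) (Subgroup.mem_top _))
  have hV3 : ∀ v : (↥(pCore 3 H) ⧸ frattini ↥(pCore 3 H)), v ^ 3 = 1 := by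
    intro v
    obtain ⟨u, rfl⟩ := QuotientGroup.mk_surjective v
    rw [← QuotientGroup.mk_pow]
    exact (QuotientGroup.eq_one_iff _).2 (Helper70.FrattiniQuot.pow_mem_frattini hPp u)
  let _ : CommGroup (↥(pCore 3 H) ⧸ frattini ↥(pCore 3 H)) :=
    { (inferInstance : Group (↥(pCore 3 H) ⧸ frattini ↥(pCore 3 H))) with mul_comm := hVc }
  have key := Helper70.HallHigman2.a4_lemma hV3 (Helper70.HallHigman2.act (pCore 3 H) b)
    (Helper70.HallHigman2.act (pCore 3 H) b') (Helper70.HallHigman2.act (pCore 3 H) b'')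
    (Helper70.HallHigman2.act (pCore 3 H) x)
    (by
      intro v
      rw [← Helper70.HallHigman2.act_mul]
      exact htriv _ hbb v)
    (by
      intro v
      rw [← Helper70.HallHigman2.act_mul]
      exact htriv _ hb'b' v)
    (by
      intro v
      rw [← Helper70.HallHigman2.act_mul, ← Helper70.HallHigman2.act_mul]
      have : b * b' = (b * b' * b⁻¹ * b'⁻¹) * (b' * b) := by group
      rw [this, Helper70.HallHigman2.act_mul, htriv _ hcommP])
    (by
      intro v
      rw [← Helper70.HallHigman2.act_mul]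
      have : b'' = (b * b') * ((b * b')⁻¹ * b'') := by group
      conv_lhs => rw [this]
      rw [Helper70.HallHigman2.act_mul, htriv _ hb''P])
    (by
      intro v
      rw [← Helper70.HallHigman2.act_mul, ← Helper70.HallHigman2.act_mul]
      have : b' * x = x * b := by rw [hb'_def]; group
      rw [this])
    (by
      intro v
      rw [← Helper70.HallHigman2.act_mul, ← Helper70.HallHigman2.act_mul, ← Helper70.HallHigman2.act_mul,
        ← Helper70.HallHigman2.act_mul]
      have : b' * x * x = x * x * b'' := by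
        rw [hb''_def]
        have e : x * x * (x * b' * x⁻¹) = (x * x * x) * b' * (x * x * x)⁻¹ * (x * x) := by
          group
        rw [e, hx3', one_mul, inv_one, mul_one, mul_assoc]
      rw [this])
    (by
      intro v
      rw [← Helper70.HallHigman2.act_mul, ← Helper70.HallHigman2.act_mul]
      have : b'' * x = x * b' := by rw [hb''_def]; group
      rw [this])
    (by
      intro v
      rw [← Helper70.HallHigman2.act_mul, ← Helper70.HallHigman2.act_mul, ← Helper70.HallHigman2.act_mul,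
        ← Helper70.HallHigman2.act_mul]
      have : b'' * x * x = x * x * b := by
        rw [hb''_def, hb'_def]; group
      rw [this])
    (by
      intro v
      obtain ⟨u, rfl⟩ := QuotientGroup.mk_surjective v
      rw [Helper70.HallHigman2.act_mk, Helper70.HallHigman2.act_mk, ← QuotientGroup.mk_mul, ← QuotientGroup.mk_mul]
      have : (MulAut.conjNormal x : MulAut ↥(pCore 3 H)) u
          * (MulAut.conjNormal x : MulAut ↥(pCore 3 H)) ((MulAut.conjNormal x : MulAut ↥(pCore 3 H)) u)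
          * u = 1 := by
        apply Subtype.ext
        simp only [Subgroup.coe_mul, MulAut.conjNormal_apply, Subgroup.coe_one]
        have h1 := hxu u u.2
        rw [pow_succ, pow_succ, pow_one] at h1
        have e : x * (u : H) * x⁻¹ * (x * (x * (u : H) * x⁻¹) * x⁻¹) * (u : H)
            = (x * (u : H)) * (x * (u : H)) * (x * (u : H))
              * ((u : H)⁻¹ * (x * x * x)⁻¹ * (u : H)) := by group
        rw [e, h1, hx3', inv_one, mul_one, inv_mul_cancel, one_mul]
      rw [this]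
      rfl)
  have hb_in : b ∈ pCore 3 H := by
    rw [← Helper70.HallHigman2.mem_pCore_iff_of_centralizer_le 3 hcentP b, ← Helper70.HallHigman2.act_eq_self_iff]
    exact key
  exact hbP hb_in

/-- A finite group in which every element has order dividing `6` has `2`-length at most `1` and `3`-length at most `1`. -/
theorem result {G : Type*} [Group G] [Finite G] (h : ∀ x : G, x ^ 6 = 1) : Cfsg.PLengthLE 2 1 G ∧ Cfsg.PLengthLE 3 1 G := by
  have hf3 : Fact (Nat.Prime 3) := ⟨Nat.prime_three⟩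
  have hf2 : Fact (Nat.Prime 2) := ⟨Nat.prime_two⟩
  have hq : ∀ p : ℕ, ∀ y : G ⧸ pPrimeCore p G, y ^ 6 = 1 := by
    intro p y
    obtain ⟨x, rfl⟩ := QuotientGroup.mk'_surjective _ y
    rw [← map_pow, h, map_one]
  refine ⟨pLength_of_index 2 (claim2 (hq 2) ?_), pLength_of_index 3 (claim3 (hq 3) ?_)⟩
  · exact fun K hKn hKc => Helper55.SolvCore.quotient_pPrimeCore_core_trivial 2 K hKn hKc
  · exact fun K hKn hKc => Helper55.SolvCore.quotient_pPrimeCore_core_trivial 3 K hKn hKc

end Cfsg.Agent.S4227
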