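import Cfsg.Statements.S4230

set_option autoImplicit false
open Cfsg

namespace Cfsg.Agent.S4230

/-- Let p be an odd prime, q a natural number not divisible by p, and e the multiplicative order of q modulo p. For a natural number f, p divides the value at q of the f-th cyclotomic polynomial if and only if f = e·p^j for some j ≥ 0. -/
theorem result (p q f : ℕ) (hp : p.Prime) (hp2 : p ≠ 2) (hpq : ¬ p ∣ q) :
    ((p : ℤ) ∣ (Polynomial.cyclotomic f ℤ).eval (q : ℤ)) ↔ ∃ j : ℕ, f = orderOf (q : ZMod p) * p ^ j := by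
  have : Fact p.Prime := ⟨hp⟩
  have hq0 : (q : ZMod p) ≠ 0 := by
    rw [Ne, ZMod.natCast_eq_zero_iff]
    exact hpq
  have hkey : (p : ℤ) ∣ (Polynomial.cyclotomic f ℤ).eval (q : ℤ) ↔
      (Polynomial.cyclotomic f (ZMod p)).IsRoot (q : ZMod p) := by
    rw [← ZMod.intCast_zmod_eq_zero_iff_dvd, Polynomial.IsRoot.def,
      ← Polynomial.map_cyclotomic_int f (ZMod p)]
    have h1 := Polynomial.eval_intCast_map (Int.castRingHom (ZMod p)) (Polynomial.cyclotomic f ℤ) (q : ℤ)
    simp only [Int.cast_natCast, eq_intCast] at h1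
    rw [h1]
  have hpow : (q : ZMod p) ^ (p - 1) = 1 := ZMod.pow_card_sub_one_eq_one hq0
  have hdvd : orderOf (q : ZMod p) ∣ p - 1 := orderOf_dvd_of_pow_eq_one hpow
  have hp1 : 0 < p - 1 := by have := hp.two_le; omega
  have he_pos : 0 < orderOf (q : ZMod p) := Nat.pos_of_dvd_of_pos hdvd hp1
  have he_ndvd : ¬ p ∣ orderOf (q : ZMod p) := by
    intro h
    have := Nat.le_of_dvd hp1 (h.trans hdvd)
    omega
  rw [hkey]
  constructor
  · intro hroot
    have hf0 : f ≠ 0 := by
      rintro rfl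
      simp [Polynomial.cyclotomic_zero] at hroot
    obtain ⟨k, m, hm, rfl⟩ := Nat.exists_eq_pow_mul_and_not_dvd hf0 p hp.ne_one
    have : NeZero (m : ZMod p) := ⟨by rwa [Ne, ZMod.natCast_eq_zero_iff]⟩
    rw [Polynomial.isRoot_cyclotomic_prime_pow_mul_iff_of_charP] at hroot
    refine ⟨k, ?_⟩
    rw [← hroot.eq_orderOf, mul_comm]
  · rintro ⟨j, rfl⟩
    have : NeZero ((orderOf (q : ZMod p) : ℕ) : ZMod p) :=
      ⟨by rwa [Ne, ZMod.natCast_eq_zero_iff]⟩
    rw [mul_comm, Polynomial.isRoot_cyclotomic_prime_pow_mul_iff_of_charP]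
    exact IsPrimitiveRoot.orderOf _

end Cfsg.Agent.S4230
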