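import Cfsg.Statements.S4244

set_option autoImplicit false
open Cfsg

namespace Cfsg.Agent.S4244

theorem relIndex_normal_dvd_index {G : Type*} [Group G] [Finite G] (N L : Subgroup G) [N.Normal] :
    L.relIndex N ∣ L.index := by
  have h1 : (N ⊓ L).relIndex N * N.relIndex (N ⊔ L) = (N ⊓ L).relIndex (N ⊔ L) :=
    Subgroup.relIndex_mul_relIndex _ _ _ inf_le_left le_sup_left
  have h2 : (N ⊓ L).relIndex L * L.relIndex (N ⊔ L) = (N ⊓ L).relIndex (N ⊔ L) :=
    Subgroup.relIndex_mul_relIndex _ _ _ inf_le_right le_sup_right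
  have h3 : N.relIndex (N ⊔ L) = (N ⊓ L).relIndex L := by
    rw [Subgroup.inf_relIndex_right, sup_comm, Subgroup.relIndex_sup_right]
  have h4 : (N ⊓ L).relIndex L ≠ 0 := Subgroup.index_ne_zero_of_finite
  have h5 : (N ⊓ L).relIndex N = L.relIndex (N ⊔ L) := by
    rw [h3, ← h2, mul_comm] at h1
    exact Nat.eq_of_mul_eq_mul_left (Nat.pos_of_ne_zero h4) h1
  rw [Subgroup.inf_relIndex_left] at h5
  rw [h5]
  exact ⟨_, (Subgroup.relIndex_mul_index (le_sup_right : L ≤ N ⊔ L)).symm⟩

/-- Let H be a subnormal subgroup of a finite group G. Then for every subgroup K of G the index of H ∩ K in H divides the index of K in G. -/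
theorem result {G : Type*} [Group G] [Finite G] (H : Subgroup G) (hH : H.IsSubnormal) (K : Subgroup G) :
    (H ⊓ K).relIndex H ∣ K.index := by
  induction hH with
  | top => simp
  | step H M h_le hSubn hN ih =>
    have e1 : (H ⊓ K).relIndex H = (M ⊓ K).relIndex H := by
      rw [Subgroup.inf_relIndex_left, ← Subgroup.inf_relIndex_left (H := H) (K := M ⊓ K),
        ← inf_assoc, inf_eq_left.mpr h_le, Subgroup.inf_relIndex_left]
    have e2 : (M ⊓ K).relIndex H = ((M ⊓ K).subgroupOf M).relIndex (H.subgroupOf M) :=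
      (Subgroup.relIndex_subgroupOf h_le).symm
    rw [e1, e2]
    exact (relIndex_normal_dvd_index (H.subgroupOf M) ((M ⊓ K).subgroupOf M)).trans ih

end Cfsg.Agent.S4244
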