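import Cfsg.Statements.S4250
import Cfsg.Agent.Lib.Helper72.AlperinChain

set_option autoImplicit false
open Cfsg

namespace Cfsg.Agent.S4250

open Cfsg.Agent.Lib.Helper72.AlperinChain
open scoped commutatorElement

theorem commutator_mem_of_mem_normalizer {G : Type*} [Group G] {H : Subgroup G} {u y : G}
    (hu : u ∈ H) (hy : y ∈ Subgroup.normalizer (H : Set G)) : ⁅u, y⁆ ∈ H := by
  have h1 : y * u⁻¹ * y⁻¹ ∈ H := (Subgroup.mem_normalizer_iff.1 hy u⁻¹).1 (H.inv_mem hu)
  have h2 : ⁅u, y⁆ = u * (y * u⁻¹ * y⁻¹) := by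
    rw [commutatorElement_def]; group
  rw [h2]
  exact H.mul_mem hu h1

/-- Let P be a Sylow p-subgroup of a finite group G. Call an intersection H = P ∩ Q with a Sylow p-subgroup Q tame when N_P(H) and N_Q(H) are Sylow p-subgroups of N_G(H). Then P ∩ G′ is generated by [P, N_G(P)] together with the commutator subgroups [P ∩ Q, ⟨x⟩] for all tame intersections P ∩ Q and all p-elements x of N_G(P ∩ Q). -/
theorem result {G : Type*} [Group G] [Finite G] (p : ℕ) [Fact p.Prime] (P : Sylow p G) :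
    (P : Subgroup G) ⊓ commutator G =
      ⁅(P : Subgroup G), Subgroup.normalizer ((P : Subgroup G) : Set G)⁆ ⊔
        ⨆ (Q : Sylow p G) (_ : (¬ p ∣ ((P : Subgroup G) ⊓ Subgroup.normalizer (((P : Subgroup G) ⊓ (Q : Subgroup G) : Subgroup G) : Set G)).relIndex (Subgroup.normalizer (((P : Subgroup G) ⊓ (Q : Subgroup G) : Subgroup G) : Set G)) ∧ ¬ p ∣ ((Q : Subgroup G) ⊓ Subgroup.normalizer (((P : Subgroup G) ⊓ (Q : Subgroup G) : Subgroup G) : Set G)).relIndex (Subgroup.normalizer (((P : Subgroup G) ⊓ (Q : Subgroup G) : Subgroup G) : Set G))))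
          (x : G) (_ : x ∈ Subgroup.normalizer (((P : Subgroup G) ⊓ (Q : Subgroup G) : Subgroup G) : Set G) ∧ ∃ k : ℕ, orderOf x = p ^ k),
          ⁅(P : Subgroup G) ⊓ (Q : Subgroup G), Subgroup.zpowers x⁆ := by
  apply le_antisymm
  · rw [inf_comm, Subgroup.commutator_inf_eq_focalSubgroup, Subgroup.focalSubgroup_def,
      Subgroup.closure_le]
    rintro g ⟨hgP, x, hxP, u, rfl⟩
    -- `a = x⁻¹`, and `u a u⁻¹ = x⁻¹ ⁅x,u⁆ ∈ P`
    have ha : x⁻¹ ∈ (P : Subgroup G) := Subgroup.inv_mem _ hxP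
    have hua : (u⁻¹)⁻¹ * x⁻¹ * u⁻¹ ∈ (P : Subgroup G) := by
      have h1 := Subgroup.mul_mem _ ha hgP
      have h2 : x⁻¹ * ⁅x, u⁆ = (u⁻¹)⁻¹ * x⁻¹ * u⁻¹ := by
        rw [commutatorElement_def]; group
      rwa [h2] at h1
    have key := alperin_induction P (fun a b => a⁻¹ * b ∈
      ⁅(P : Subgroup G), Subgroup.normalizer ((P : Subgroup G) : Set G)⁆ ⊔
        ⨆ (Q : Sylow p G) (_ : (¬ p ∣ ((P : Subgroup G) ⊓ Subgroup.normalizer (((P : Subgroup G) ⊓ (Q : Subgroup G) : Subgroup G) : Set G)).relIndex (Subgroup.normalizer (((P : Subgroup G) ⊓ (Q : Subgroup G) : Subgroup G) : Set G)) ∧ ¬ p ∣ ((Q : Subgroup G) ⊓ Subgroup.normalizer (((P : Subgroup G) ⊓ (Q : Subgroup G) : Subgroup G) : Set G)).relIndex (Subgroup.normalizer (((P : Subgroup G) ⊓ (Q : Subgroup G) : Subgroup G) : Set G))))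
          (x : G) (_ : x ∈ Subgroup.normalizer (((P : Subgroup G) ⊓ (Q : Subgroup G) : Subgroup G) : Set G) ∧ ∃ k : ℕ, orderOf x = p ^ k),
          ⁅(P : Subgroup G) ⊓ (Q : Subgroup G), Subgroup.zpowers x⁆)
      (fun a => by simp)
      (fun a b c h₁ h₂ => by
        have h3 := Subgroup.mul_mem _ h₁ h₂
        have h4 : a⁻¹ * b * (b⁻¹ * c) = a⁻¹ * c := by group
        rwa [h4] at h3)
      ?_ x⁻¹ u⁻¹ ha hua
    · have h5 : (x⁻¹)⁻¹ * ((u⁻¹)⁻¹ * x⁻¹ * u⁻¹) = ⁅x, u⁆ := by
        rw [commutatorElement_def]; group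
      rw [h5] at key
      exact key
    intro Q w y hT hw hy hyp
    have h6 : w⁻¹ * (y⁻¹ * w * y) = ⁅w⁻¹, y⁻¹⁆ := by
      rw [commutatorElement_def]; group
    rw [h6]
    rcases hyp with hQP | hyp
    · apply Subgroup.mem_sup_left
      rw [hQP, inf_idem] at hw hy
      exact Subgroup.commutator_mem_commutator (Subgroup.inv_mem _ hw) (Subgroup.inv_mem _ hy)
    · apply Subgroup.mem_sup_right
      have h7 : ⁅w⁻¹, y⁻¹⁆ ∈ ⁅(P : Subgroup G) ⊓ (Q : Subgroup G), Subgroup.zpowers y⁆ :=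
        Subgroup.commutator_mem_commutator (Subgroup.inv_mem _ hw)
          (Subgroup.inv_mem _ (Subgroup.mem_zpowers y))
      refine Subgroup.mem_iSup_of_mem Q ?_
      refine Subgroup.mem_iSup_of_mem hT ?_
      refine Subgroup.mem_iSup_of_mem y ?_
      exact Subgroup.mem_iSup_of_mem ⟨hy, hyp⟩ h7
  · apply le_inf
    · apply sup_le
      · rw [Subgroup.commutator_le]
        intro u hu y hy
        exact commutator_mem_of_mem_normalizer hu hy
      · refine iSup_le fun Q => iSup_le fun _ => iSup_le fun x => iSup_le fun hx => ?_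
        rw [Subgroup.commutator_le]
        intro u hu y hy
        exact inf_le_left (a := (P : Subgroup G)) (b := (Q : Subgroup G))
          (commutator_mem_of_mem_normalizer hu ((Subgroup.zpowers_le.2 hx.1) hy))
    · apply sup_le
      · rw [commutator_def]
        exact Subgroup.commutator_mono le_top le_top
      · refine iSup_le fun Q => iSup_le fun _ => iSup_le fun x => iSup_le fun hx => ?_
        rw [commutator_def]
        exact Subgroup.commutator_mono le_top le_top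

end Cfsg.Agent.S4250
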