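import Cfsg.Statements.S4251
import Cfsg.Agent.Lib.Helper72.AlperinChain
import Cfsg.Agent.Lib.Helper2.FusCtl

set_option autoImplicit false
open Cfsg

namespace Cfsg.Agent.S4251

open Cfsg.Agent.Lib.Helper72.AlperinChain

/-- If `N/C_N` is a `p`-group and `S` has `p'`-index in `N`, then `N = S·C_N`. -/
theorem exists_mul_of_pgroup_quotient {G : Type*} [Group G] [Finite G] {p : ℕ} [Fact p.Prime]
    (N S C : Subgroup G) [hn : (C.subgroupOf N).Normal]
    (hS : ¬ p ∣ S.relIndex N) (hp : IsPGroup p (↥N ⧸ C.subgroupOf N)) (y : G) (hy : y ∈ N) :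
    ∃ s ∈ S, ∃ c ∈ C, y = s * c := by
  have hidx1 : ¬ p ∣ (S.subgroupOf N ⊔ C.subgroupOf N).index := by
    intro hd
    exact hS (hd.trans (Subgroup.index_dvd_of_le le_sup_left))
  have hidx2 : ∃ k : ℕ, (S.subgroupOf N ⊔ C.subgroupOf N).index = p ^ k := by
    obtain ⟨k, hk⟩ := hp.index ((S.subgroupOf N ⊔ C.subgroupOf N).map
      (QuotientGroup.mk' (C.subgroupOf N)))
    refine ⟨k, ?_⟩
    rw [← hk, Subgroup.index_map_eq _ (QuotientGroup.mk'_surjective _)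
      (by rw [QuotientGroup.ker_mk']; exact le_sup_right)]
  obtain ⟨k, hk⟩ := hidx2
  have hk0 : k = 0 := by
    by_contra hne
    apply hidx1
    rw [hk]
    exact dvd_pow_self p hne
  rw [hk0, pow_zero, Subgroup.index_eq_one] at hk
  have hmem : (⟨y, hy⟩ : ↥N) ∈ S.subgroupOf N ⊔ C.subgroupOf N := by
    rw [hk]; exact Subgroup.mem_top _
  obtain ⟨s, hs, c, hc, hsc⟩ := Subgroup.mem_sup_of_normal_right.1 hmem
  refine ⟨s, hs, c, hc, ?_⟩
  have := congrArg Subtype.val hsc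
  simpa using this.symm

/-- Let P be a Sylow p-subgroup of a finite group G. Call an intersection H = P ∩ Q with a Sylow p-subgroup Q tame when N_P(H) and N_Q(H) are Sylow p-subgroups of N_G(H). If N_G(H)/C_G(H) is a p-group for every nontrivial tame intersection H = P ∩ Q, then G has a normal p-complement. -/
theorem result {G : Type*} [Group G] [Finite G] (p : ℕ) [Fact p.Prime] (P : Sylow p G)
    (h : ∀ Q : Sylow p G, (P : Subgroup G) ⊓ (Q : Subgroup G) ≠ ⊥ → (¬ p ∣ ((P : Subgroup G) ⊓ Subgroup.normalizer (((P : Subgroup G) ⊓ (Q : Subgroup G) : Subgroup G) : Set G)).relIndex (Subgroup.normalizer (((P : Subgroup G) ⊓ (Q : Subgroup G) : Subgroup G) : Set G)) ∧ ¬ p ∣ ((Q : Subgroup G) ⊓ Subgroup.normalizer (((P : Subgroup G) ⊓ (Q : Subgroup G) : Subgroup G) : Set G)).relIndex (Subgroup.normalizer (((P : Subgroup G) ⊓ (Q : Subgroup G) : Subgroup G) : Set G))) →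
      IsPGroup p (Subgroup.normalizer (((P : Subgroup G) ⊓ (Q : Subgroup G) : Subgroup G) : Set G) ⧸
        (Subgroup.centralizer (((P : Subgroup G) ⊓ (Q : Subgroup G) : Subgroup G) : Set G)).subgroupOf
          (Subgroup.normalizer (((P : Subgroup G) ⊓ (Q : Subgroup G) : Subgroup G) : Set G)))) :
    Cfsg.HasNormalPComplement p G := by
  suffices hctl : ∀ x ∈ P, ∀ y ∈ P, (∃ g : G, g * x * g⁻¹ = y) → ∃ z ∈ P, z * x * z⁻¹ = y by
    obtain ⟨K, hKn, hKc⟩ := Cfsg.Agent.Lib.Helper2.FusCtl.exists_normal_complement P hctl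
    exact ⟨P, K, hKn, hKc⟩
  intro a ha b hb ⟨g, hg⟩
  have key := alperin_induction P (fun a b => ∃ z ∈ (P : Subgroup G), z * a * z⁻¹ = b)
    (fun a => ⟨1, Subgroup.one_mem _, by simp⟩)
    (fun a b c ⟨z₁, hz₁, h₁⟩ ⟨z₂, hz₂, h₂⟩ => ⟨z₂ * z₁, Subgroup.mul_mem _ hz₂ hz₁, by
      rw [← h₂, ← h₁]; group⟩)
    ?_ a g⁻¹ ha (by rw [inv_inv, hg]; exact hb)
  · obtain ⟨z, hz, hzz⟩ := key
    exact ⟨z, hz, by rw [hzz, inv_inv, hg]⟩
  intro Q w x hT hw hx hxp
  by_cases hw1 : w = 1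
  · exact ⟨1, Subgroup.one_mem _, by simp [hw1]⟩
  have hne : (P : Subgroup G) ⊓ (Q : Subgroup G) ≠ ⊥ := by
    intro hbot
    rw [hbot] at hw
    exact hw1 (Subgroup.mem_bot.1 hw)
  have hp := h Q hne hT
  obtain ⟨s, hs, c, hc, hsc⟩ := exists_mul_of_pgroup_quotient _ _ _ hT.1 hp x⁻¹
    (Subgroup.inv_mem _ hx)
  refine ⟨s, hs.1, ?_⟩
  have hcw : w * c = c * w := (Subgroup.mem_centralizer_iff.1 hc) w hw
  have hx' : x = c⁻¹ * s⁻¹ := by
    have : x⁻¹⁻¹ = (s * c)⁻¹ := by rw [hsc]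
    rw [inv_inv, mul_inv_rev] at this
    exact this
  rw [hsc, hx']
  have : s * c * w * (c⁻¹ * s⁻¹) = s * (c * w) * c⁻¹ * s⁻¹ := by group
  rw [this, ← hcw]
  group

end Cfsg.Agent.S4251
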