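import Cfsg.Statements.S4253
-- import your own Cfsg.Agent.* helpers here

set_option autoImplicit false
open Cfsg

namespace Cfsg.Agent.S4253

open scoped Pointwise in
theorem aux {G : Type*} [Group G] (H : Subgroup G) (hH : Cfsg.IsFrobeniusComplement H)
    (g : G) (hg : g ≠ 1) (a b : G ⧸ H) (ha : g • a = a) (hb : g • b = b) : a = b := by
  induction a using QuotientGroup.induction_on with
  | H x =>
  induction b using QuotientGroup.induction_on with
  | H y =>
  rw [MulAction.Quotient.smul_mk, QuotientGroup.eq, smul_eq_mul] at ha hb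
  rw [QuotientGroup.eq]
  by_contra ht
  have h3 := hH.2.2 (x⁻¹ * y) ht
  have hu : x⁻¹ * g * x ∈ H ⊓ (MulAut.conj (x⁻¹ * y) • H) := by
    refine Subgroup.mem_inf.2 ⟨?_, ?_⟩
    · have : (g * x)⁻¹ * x = (x⁻¹ * g * x)⁻¹ := by group
      rw [this] at ha
      exact (H.inv_mem_iff).1 ha
    · rw [Subgroup.mem_pointwise_smul_iff_inv_smul_mem, MulAut.smul_def, MulAut.conj_inv_apply]
      have : (g * y)⁻¹ * y = ((x⁻¹ * y)⁻¹ * (x⁻¹ * g * x) * (x⁻¹ * y))⁻¹ := by group
      rw [this] at hb
      exact (H.inv_mem_iff).1 hb
  rw [h3, Subgroup.mem_bot] at hu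
  apply hg
  have : g = x * (x⁻¹ * g * x) * x⁻¹ := by group
  rw [this, hu]; group

/-- Let H be a Frobenius complement in a finite group G (a nontrivial proper subgroup meeting each conjugate gHg⁻¹ with g outside H trivially). Then in the action of G on the left cosets of H by left multiplication, no non-identity element of G fixes two distinct cosets. -/
theorem result {G : Type*} [Group G] [Finite G] (H : Subgroup G) (hH : Cfsg.IsFrobeniusComplement H)
    (g : G) (hg : g ≠ 1) (a b : G ⧸ H) (ha : g • a = a) (hb : g • b = b) : a = b := by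
  exact aux H hH g hg a b ha hb

end Cfsg.Agent.S4253
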