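import Cfsg.Statements.S4260
-- import your own Cfsg.Agent.* helpers here

set_option autoImplicit false
open Cfsg

namespace Cfsg.Agent.S4260

/-- Let H be a Hall subgroup of a finite group G (the order of H is coprime to its index) such that x^[G : H] lies in H for every x in G. Then H is normal in G. -/
theorem result {G : Type*} [Group G] [Finite G] (H : Subgroup G) (hHall : (Nat.card H).Coprime H.index)
    (hexp : ∀ x : G, x ^ H.index ∈ H) : H.Normal := by
  have key : ∀ x : G, x ∈ H ↔ x ^ Nat.card H = 1 := by
    intro x
    constructor
    · intro hx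
      have := pow_card_eq_one' (G := H) (x := ⟨x, hx⟩)
      have h2 := congrArg Subtype.val this
      rwa [Subgroup.coe_pow] at h2
    · intro hx
      have hb := Nat.gcd_eq_gcd_ab (Nat.card H) H.index
      have h1 : Nat.gcd (Nat.card H) H.index = 1 := hHall
      rw [h1] at hb
      have : x = (x ^ H.index) ^ (Nat.gcdB (Nat.card H) H.index) := by
        have h2 : x ^ (1 : ℤ) = x := zpow_one x
        rw [← zpow_natCast, ← zpow_mul]
        conv_lhs => rw [← h2]
        have h3 : ((1 : ℕ) : ℤ) = 1 := by norm_num
        rw [← h3, hb, zpow_add, zpow_mul, zpow_natCast, hx, one_zpow, one_mul]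
      rw [this]
      exact H.zpow_mem (hexp x) _
  constructor
  intro x hx g
  rw [key] at hx ⊢
  rw [conj_pow, hx, mul_one, mul_inv_cancel]

end Cfsg.Agent.S4260
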