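import Cfsg.Statements.S4261
-- import your own Cfsg.Agent.* helpers here

set_option autoImplicit false
open Cfsg

namespace Cfsg.Agent.S4261

open scoped commutatorElement

theorem le_normalizer_inf_normal {G : Type*} [Group G] (M K : Subgroup G) [hK : K.Normal] :
    M ≤ Subgroup.normalizer ((M ⊓ K : Subgroup G) : Set G) := by
  intro m hm
  rw [Subgroup.mem_normalizer_iff]
  intro x
  simp only [Subgroup.mem_inf]
  constructor
  · rintro ⟨h1, h2⟩
    exact ⟨M.mul_mem (M.mul_mem hm h1) (M.inv_mem hm), hK.conj_mem x h2 m⟩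
  · rintro ⟨h1, h2⟩
    refine ⟨?_, ?_⟩
    · have := M.mul_mem (M.mul_mem (M.inv_mem hm) h1) hm
      have e : m⁻¹ * (m * x * m⁻¹) * m = x := by group
      rwa [e] at this
    · have := hK.conj_mem _ h2 m⁻¹
      have e : m⁻¹ * (m * x * m⁻¹) * m⁻¹⁻¹ = x := by group
      rwa [e] at this

theorem corefree_case {G : Type*} [Group G] [Finite G] (hG : Group.IsSolvable G) (M : Subgroup G)
    (hM : IsCoatom M) (hexp : ∀ x : G, x ^ M.index ∈ M) (hcore : M.normalCore = ⊥) :
    M.Normal := by
  classical
  have hfin : ({N : Subgroup G | N.Normal ∧ N ≠ ⊥} : Set (Subgroup G)).Finite := Set.toFinite _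
  have hne : ({N : Subgroup G | N.Normal ∧ N ≠ ⊥} : Set (Subgroup G)).Nonempty := by
    refine ⟨⊤, inferInstance, fun h => hM.1 ?_⟩
    rw [eq_top_iff, h]; exact bot_le
  obtain ⟨N, hN⟩ := hfin.exists_minimal hne
  have hNn : N.Normal := hN.prop.1
  have hN0 : N ≠ ⊥ := hN.prop.2
  have hmin : ∀ K : Subgroup G, K.Normal → K ≤ N → K = ⊥ ∨ K = N := by
    intro K hK hKN
    by_cases hK0 : K = ⊥
    · exact Or.inl hK0
    · exact Or.inr (le_antisymm hKN (hN.le_of_le ⟨hK, hK0⟩ hKN))
  -- N is abelian
  have hab : ∀ a ∈ N, ∀ b ∈ N, a * b = b * a := by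
    have h1 : ⁅N, N⁆ < N := Group.IsSolvable.commutator_lt_of_ne_bot hN0
    have h2 : ⁅N, N⁆ = ⊥ := by
      rcases hmin ⁅N, N⁆ inferInstance h1.le with h | h
      · exact h
      · exact absurd h h1.ne
    intro a ha b hb
    have := Subgroup.commutator_mem_commutator ha hb
    rw [h2, Subgroup.mem_bot, commutatorElement_eq_one_iff_mul_comm] at this
    exact this
  have hNM : ¬ N ≤ M := by
    intro h
    have : N ≤ M.normalCore := Subgroup.normal_le_normalCore.2 h
    rw [hcore] at this
    exact hN0 (le_bot_iff.1 this)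
  have hsup : M ⊔ N = ⊤ :=
    hM.2 _ (lt_of_le_of_ne le_sup_left (fun h => hNM (h ▸ le_sup_right)))
  have hnormal_of : ∀ K : Subgroup G, M ≤ Subgroup.normalizer (K : Set G) →
      (∀ k ∈ K, ∀ n ∈ N, n * k = k * n) → K.Normal := by
    intro K hKM hKN
    rw [← Subgroup.normalizer_eq_top_iff, eq_top_iff, ← hsup]
    refine sup_le hKM ?_
    intro n hn
    rw [Subgroup.mem_normalizer_iff]
    intro k
    constructor
    · intro hk
      rw [hKN k hk n hn, mul_inv_cancel_right]
      exact hk
    · intro hk
      have h1 := hKN _ hk n hn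
      have h2 : n * k * n⁻¹ = k := by
        have : n * (n * k * n⁻¹) = n * k := by rw [h1]; group
        exact mul_left_cancel this
      rwa [h2] at hk
  have hinf : M ⊓ N = ⊥ := by
    have hn : (M ⊓ N).Normal :=
      hnormal_of _ (le_normalizer_inf_normal M N) (fun k hk n hn => hab n hn k hk.2)
    rcases hmin _ hn inf_le_right with h | h
    · exact h
    · exact absurd (h ▸ inf_le_left) hNM
  have hidx : M.index = Nat.card N := by
    have hc : Subgroup.IsComplement' N M := by
      apply Subgroup.isComplement'_of_disjoint_and_mul_eq_univ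
      · rw [disjoint_iff, inf_comm]; exact hinf
      · rw [← Subgroup.normal_mul, sup_comm, hsup]; rfl
    exact hc.index_eq_card
  -- N is a q-group
  have hN1 : Nat.card N ≠ 1 := by
    intro h
    exact hN0 ((Subgroup.card_eq_one).1 h)
  obtain ⟨q, hq, hqd⟩ := Nat.exists_prime_and_dvd hN1
  have hqf : Fact q.Prime := ⟨hq⟩
  have hNq : ∀ x ∈ N, x ^ q = 1 := by
    let Nq : Subgroup G :=
      { carrier := {x | x ∈ N ∧ x ^ q = 1}
        mul_mem' := by
          rintro a b ⟨ha, ha'⟩ ⟨hb, hb'⟩
          refine ⟨N.mul_mem ha hb, ?_⟩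
          have hc : Commute a b := hab a ha b hb
          rw [hc.mul_pow, ha', hb', one_mul]
        one_mem' := ⟨N.one_mem, one_pow q⟩
        inv_mem' := by
          rintro a ⟨ha, ha'⟩
          exact ⟨N.inv_mem ha, by rw [inv_pow, ha', inv_one]⟩ }
    have hNqn : Nq.Normal :=
      ⟨fun x hx g => ⟨hNn.conj_mem x hx.1 g, by rw [conj_pow, hx.2, mul_one, mul_inv_cancel]⟩⟩
    have hNq0 : Nq ≠ ⊥ := by
      obtain ⟨x, hx⟩ := exists_prime_orderOf_dvd_card' (G := N) q hqd
      intro h
      have hmem : (x : G) ∈ Nq := by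
        refine ⟨x.2, ?_⟩
        rw [← Subgroup.coe_pow, ← hx, pow_orderOf_eq_one]; rfl
      rw [h, Subgroup.mem_bot] at hmem
      have hx1 : x = 1 := Subtype.ext hmem
      rw [hx1, orderOf_one] at hx
      exact hq.one_lt.ne hx
    rcases hmin Nq hNqn (fun x hx => hx.1) with h | h
    · exact absurd h hNq0
    · intro x hx
      have : x ∈ Nq := h ▸ hx
      exact this.2
  have hNp : IsPGroup q N := fun x => ⟨1, by rw [pow_one]; exact Subtype.ext (hNq x x.2)⟩
  obtain ⟨k, hk⟩ := (IsPGroup.iff_card).1 hNp
  -- M is a q-group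
  have hMq : IsPGroup q M := by
    by_contra hcon
    obtain ⟨r, hr, hrd, hrq⟩ : ∃ r, r.Prime ∧ r ∣ Nat.card M ∧ r ≠ q := by
      by_contra hno
      apply hcon
      have hall : ∀ {r : ℕ}, r.Prime → r ∣ Nat.card M → r = q := by
        intro r hr hrd
        by_contra hne
        exact hno ⟨r, hr, hrd, hne⟩
      exact IsPGroup.of_card (Nat.eq_prime_pow_of_unique_prime_dvd Nat.card_pos.ne' hall)
    have hrf : Fact r.Prime := ⟨hr⟩
    obtain ⟨m, hm⟩ := exists_prime_orderOf_dvd_card' (G := M) r hrd
    have hmr : (m : G) ^ r = 1 := by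
      rw [← Subgroup.coe_pow, ← hm, pow_orderOf_eq_one]; rfl
    have hm1 : (m : G) ≠ 1 := by
      intro h
      have : m = 1 := Subtype.ext h
      rw [this, orderOf_one] at hm
      exact hr.one_lt.ne hm
    have hcent : ∀ u ∈ N, u * (m : G) = (m : G) * u := by
      intro u hu
      have hu1 : ((u : G) : G ⧸ N) = 1 := (QuotientGroup.eq_one_iff u).2 hu
      have hz : (u * (m : G)) ^ r ∈ N := by
        rw [← QuotientGroup.eq_one_iff, QuotientGroup.mk_pow, QuotientGroup.mk_mul, hu1, one_mul,
          ← QuotientGroup.mk_pow, hmr]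
        rfl
      have hn : (u * (m : G)) ^ M.index = (m : G) ^ M.index := by
        have h1 : (u * (m : G)) ^ M.index * ((m : G) ^ M.index)⁻¹ ∈ M ⊓ N := by
          refine ⟨M.mul_mem (hexp _) (M.inv_mem (M.pow_mem m.2 _)), ?_⟩
          show (u * (m : G)) ^ M.index * ((m : G) ^ M.index)⁻¹ ∈ N
          rw [← QuotientGroup.eq_one_iff, QuotientGroup.mk_mul, QuotientGroup.mk_pow,
            QuotientGroup.mk_mul, hu1, one_mul, QuotientGroup.mk_inv, QuotientGroup.mk_pow,
            mul_inv_cancel]
        rw [hinf, Subgroup.mem_bot, mul_inv_eq_one] at h1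
        exact h1
      have hcop : Nat.Coprime M.index r := by
        rw [hidx, hk]
        exact Nat.Coprime.pow_left _ ((Nat.coprime_primes hq hr).2 (Ne.symm hrq))
      have hzm : Commute ((u * (m : G)) ^ r) (m : G) := by
        have c1 : Commute ((u * (m : G)) ^ r) (u * (m : G)) := (Commute.refl _).pow_left r
        have c2 : Commute ((u * (m : G)) ^ r) u := hab _ hz _ hu
        have h := c2.inv_right.mul_right c1
        rwa [inv_mul_cancel_left] at h
      have hb := Nat.gcd_eq_gcd_ab M.index r
      rw [hcop.gcd_eq_one] at hb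
      have e1 : u * (m : G) = (m : G) * ((u * (m : G)) ^ r) ^ (Nat.gcdB M.index r) := by
        have h1 : (u * (m : G)) = (u * (m : G)) ^ (((1 : ℕ) : ℤ)) := by simp
        have h2 : (m : G) = (m : G) ^ (((1 : ℕ) : ℤ)) := by simp
        have h3 : (u * (m : G)) ^ (((1 : ℕ) : ℤ)) =
            ((m : G) ^ M.index) ^ (Nat.gcdA M.index r) *
              ((u * (m : G)) ^ r) ^ (Nat.gcdB M.index r) := by
          rw [hb, zpow_add, zpow_mul, zpow_mul, zpow_natCast, zpow_natCast, hn]
        have h4 : (m : G) ^ (((1 : ℕ) : ℤ)) = ((m : G) ^ M.index) ^ (Nat.gcdA M.index r) := by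
          rw [hb, zpow_add, zpow_mul, zpow_mul, zpow_natCast, zpow_natCast, hmr, one_zpow, mul_one]
        calc u * (m : G) = (u * (m : G)) ^ (((1 : ℕ) : ℤ)) := h1
          _ = ((m : G) ^ M.index) ^ (Nat.gcdA M.index r) *
              ((u * (m : G)) ^ r) ^ (Nat.gcdB M.index r) := h3
          _ = (m : G) ^ (((1 : ℕ) : ℤ)) * ((u * (m : G)) ^ r) ^ (Nat.gcdB M.index r) := by rw [h4]
          _ = (m : G) * ((u * (m : G)) ^ r) ^ (Nat.gcdB M.index r) := by rw [← h2]
      have hzb : Commute (((u * (m : G)) ^ r) ^ (Nat.gcdB M.index r)) (m : G) := hzm.zpow_left _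
      have e2 : u = ((u * (m : G)) ^ r) ^ (Nat.gcdB M.index r) := by
        have : u * (m : G) = ((u * (m : G)) ^ r) ^ (Nat.gcdB M.index r) * (m : G) := by
          rw [hzb.eq]; exact e1
        exact mul_right_cancel this
      rw [e2]
      exact hzb.eq
    have hC : (M ⊓ Subgroup.centralizer (N : Set G)).Normal :=
      hnormal_of _ (le_normalizer_inf_normal M _) (fun k hk n hn => hk.2 n hn)
    have hmem : (m : G) ∈ M.normalCore :=
      (Subgroup.normal_le_normalCore (N := M ⊓ Subgroup.centralizer (N : Set G))).2 inf_le_left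
        ⟨m.2, fun n hn => hcent n hn⟩
    rw [hcore, Subgroup.mem_bot] at hmem
    exact hm1 hmem
  have hGq : IsPGroup q G := by
    obtain ⟨j, hj⟩ := (IsPGroup.iff_card).1 hMq
    apply IsPGroup.of_card (n := j + k)
    rw [← Subgroup.card_mul_index M, hj, hidx, hk, pow_add]
  have hnil := hGq.isNilpotent
  exact Subgroup.NormalizerCondition.normal_of_coatom M Group.normalizerCondition_of_isNilpotent hM

theorem main {G : Type*} [Group G] [Finite G] (hG : Group.IsSolvable G) (M : Subgroup G)
    (hM : IsCoatom M) (hexp : ∀ x : G, x ^ M.index ∈ M) : M.Normal := by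
  induction hc : Nat.card G using Nat.strong_induction_on generalizing G with
  | _ n ih =>
  by_cases hcore : M.normalCore = ⊥
  · exact corefree_case hG M hM hexp hcore
  · have hKM : M.normalCore ≤ M := Subgroup.normalCore_le M
    have hf : Function.Surjective (QuotientGroup.mk' M.normalCore) :=
      QuotientGroup.mk'_surjective _
    have hker : (QuotientGroup.mk' M.normalCore).ker ≤ M := by
      rw [QuotientGroup.ker_mk']; exact hKM
    have hcard : Nat.card (G ⧸ M.normalCore) < n := by
      rw [← hc, Subgroup.card_eq_card_quotient_mul_card_subgroup M.normalCore]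
      exact lt_mul_of_one_lt_right Nat.card_pos ((Subgroup.one_lt_card_iff_ne_bot _).2 hcore)
    have hidx : (M.map (QuotientGroup.mk' M.normalCore)).index = M.index :=
      Subgroup.index_map_eq M hf hker
    have hM' : IsCoatom (M.map (QuotientGroup.mk' M.normalCore)) := by
      constructor
      · intro h
        have := congrArg (Subgroup.comap (QuotientGroup.mk' M.normalCore)) h
        rw [Subgroup.comap_map_eq_self hker, Subgroup.comap_top] at this
        exact hM.1 this
      · intro L hL
        have h1 : M < L.comap (QuotientGroup.mk' M.normalCore) :=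
          lt_of_eq_of_lt (Subgroup.comap_map_eq_self hker).symm
            ((Subgroup.comap_lt_comap_of_surjective hf).2 hL)
        have h2 := hM.2 _ h1
        rw [← Subgroup.map_comap_eq_self_of_surjective hf L, h2,
          Subgroup.map_top_of_surjective _ hf]
    have hexp' : ∀ x : G ⧸ M.normalCore,
        x ^ (M.map (QuotientGroup.mk' M.normalCore)).index ∈
          M.map (QuotientGroup.mk' M.normalCore) := by
      intro x
      obtain ⟨y, rfl⟩ := hf x
      rw [hidx, ← map_pow]
      exact Subgroup.mem_map_of_mem _ (hexp y)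
    have hsol : Group.IsSolvable (G ⧸ M.normalCore) := inferInstance
    have := ih _ hcard hsol (M.map (QuotientGroup.mk' M.normalCore)) hM' hexp' rfl
    have h3 := this.comap (QuotientGroup.mk' M.normalCore)
    rwa [Subgroup.comap_map_eq_self hker] at h3

/-- Let M be a maximal subgroup of a finite solvable group G such that x^[G : M] lies in M for every x in G. Then M is normal in G. -/
theorem result {G : Type*} [Group G] [Finite G] (hG : Group.IsSolvable G) (M : Subgroup G) (hM : IsCoatom M)
    (hexp : ∀ x : G, x ^ M.index ∈ M) : M.Normal := by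
  exact main hG M hM hexp

end Cfsg.Agent.S4261
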