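import Cfsg.Statements.S4262
import Cfsg.Agent.Lib.Helper71.MaxCent

set_option autoImplicit false
open Cfsg

namespace Cfsg.Agent.S4262

/-- Let G be a finite group in which the centralizer of every non-central element is a maximal subgroup of G. Then G is solvable. -/
theorem result {G : Type*} [Group G] [Finite G]
    (h : ∀ g : G, g ∉ Subgroup.center G → IsCoatom (Subgroup.centralizer ({g} : Set G))) :
    Group.IsSolvable G := by
  exact Cfsg.Agent.Lib.Helper71.MaxCent.isSolvable_of_hyp h

end Cfsg.Agent.S4262
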