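import Cfsg.Statements.S4263
import Cfsg.Agent.Lib.Helper71.Fitting

set_option autoImplicit false
open Cfsg

namespace Cfsg.Agent.S4263

open Cfsg.Agent.Lib.Helper71.Fitting in
theorem mem_fitting_of_pow_index_mem {G : Type*} [Group G] [Finite G] (x : G)
    (h : ∀ H : Subgroup G, x ^ H.index ∈ H) : x ∈ Cfsg.fittingSubgroup G := by
  have hn := fitting_normal G
  rw [← QuotientGroup.eq_one_iff (N := Cfsg.fittingSubgroup G)]
  by_contra hne
  have h1 : orderOf (x : G ⧸ Cfsg.fittingSubgroup G) ≠ 1 := by
    rwa [Ne, orderOf_eq_one_iff]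
  obtain ⟨p, hp, hpd⟩ := Nat.exists_prime_and_dvd h1
  have := Fact.mk hp
  obtain ⟨P⟩ : Nonempty (Sylow p G) := inferInstance
  have hNp : IsPGroup p (P : Subgroup G).normalCore :=
    P.isPGroup'.to_le (Subgroup.normalCore_le _)
  have hNnil : Group.IsNilpotent (P : Subgroup G).normalCore := hNp.isNilpotent
  have hNle : (P : Subgroup G).normalCore ≤ Cfsg.fittingSubgroup G :=
    le_fitting _ inferInstance hNnil
  have hxN : x ^ (P : Subgroup G).index ∈ (P : Subgroup G).normalCore := by
    intro b
    have hQ := h ((b⁻¹ • P : Sylow p G) : Subgroup G)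
    have hidx : ((b⁻¹ • P : Sylow p G) : Subgroup G).index = (P : Subgroup G).index := by
      have e1 := Subgroup.card_mul_index ((b⁻¹ • P : Sylow p G) : Subgroup G)
      have e2 := Subgroup.card_mul_index (P : Subgroup G)
      have e3 : Nat.card ((b⁻¹ • P : Sylow p G) : Subgroup G) = Nat.card (P : Subgroup G) := by
        rw [Sylow.card_eq_multiplicity, Sylow.card_eq_multiplicity]
      rw [e3, ← e2] at e1
      exact Nat.eq_of_mul_eq_mul_left Nat.card_pos e1
    rw [hidx, Sylow.coe_subgroup_smul, Subgroup.mem_pointwise_smul_iff_inv_smul_mem, ← map_inv,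
      inv_inv, MulAut.smul_def, MulAut.conj_apply] at hQ
    exact hQ
  have hpow : (x : G ⧸ Cfsg.fittingSubgroup G) ^ (P : Subgroup G).index = 1 := by
    rw [← QuotientGroup.mk_pow, QuotientGroup.eq_one_iff]
    exact hNle hxN
  exact P.not_dvd_index (hpd.trans (orderOf_dvd_of_pow_eq_one hpow))

/-- Let G be a finite group. An element x lies in the Fitting subgroup F(G) if and only if, for every subgroup H of G, the power x^[G : H] lies in H. -/
theorem result {G : Type*} [Group G] [Finite G] (x : G) :
    x ∈ Cfsg.fittingSubgroup G ↔ ∀ H : Subgroup G, x ^ H.index ∈ H := by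
  exact ⟨fun hx H => Cfsg.Agent.Lib.Helper71.Fitting.pow_index_mem_of_mem_fitting hx H,
    mem_fitting_of_pow_index_mem x⟩

end Cfsg.Agent.S4263
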