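import Cfsg.Statements.S4269
-- import your own Cfsg.Agent.* helpers here

set_option autoImplicit false
open Cfsg

namespace Cfsg.Agent.S4269

variable {G : Type*} [Group G]

open scoped commutatorElement

theorem mem_cj {g y : G} {H : Subgroup G} :
    y ∈ H.map (MulAut.conj g).toMonoidHom ↔ g⁻¹ * y * g ∈ H := by
  constructor
  · rintro ⟨x, hx, rfl⟩
    have : g⁻¹ * (MulAut.conj g).toMonoidHom x * g = x := by
      simp [MulAut.conj_apply, mul_assoc]
    rw [this]; exact hx
  · intro h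
    exact ⟨g⁻¹ * y * g, h, by simp [MulAut.conj_apply, mul_assoc]⟩

theorem cj_mul (a b : G) (H : Subgroup G) :
    H.map (MulAut.conj (a * b)).toMonoidHom =
      (H.map (MulAut.conj b).toMonoidHom).map (MulAut.conj a).toMonoidHom := by
  ext y
  simp only [mem_cj]
  have : (a * b)⁻¹ * y * (a * b) = b⁻¹ * (a⁻¹ * y * a) * b := by group
  rw [this]

theorem cj_of_mem {h : G} {H : Subgroup G} (hh : h ∈ H) :
    H.map (MulAut.conj h).toMonoidHom = H := by
  ext y
  rw [mem_cj]
  constructor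
  · intro h1
    have := H.mul_mem (H.mul_mem hh h1) (H.inv_mem hh)
    have e : h * (h⁻¹ * y * h) * h⁻¹ = y := by group
    rwa [e] at this
  · intro h1
    exact H.mul_mem (H.mul_mem (H.inv_mem hh) h1) hh

theorem cj_eq_self_iff {n : G} {H : Subgroup G} :
    H.map (MulAut.conj n).toMonoidHom = H ↔ n ∈ Subgroup.normalizer (H : Set G) := by
  rw [Subgroup.mem_normalizer_iff]
  constructor
  · intro h x
    have := SetLike.ext_iff.1 h (n * x * n⁻¹)
    rw [mem_cj] at this
    have e : n⁻¹ * (n * x * n⁻¹) * n = x := by group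
    rw [e] at this
    exact this
  · intro h
    ext y
    rw [mem_cj]
    have := h (n⁻¹ * y * n)
    have e : n * (n⁻¹ * y * n) * n⁻¹ = y := by group
    rw [e] at this
    exact this

theorem comm_of {V : Subgroup G} (hV : IsMulCommutative ↥V) {a b : G} (ha : a ∈ V) (hb : b ∈ V) :
    a * b = b * a := by
  have := hV.is_comm.comm ⟨a, ha⟩ ⟨b, hb⟩
  exact congrArg Subtype.val this

theorem normal_of_le (V : Subgroup G) [V.Normal] (hV : IsMulCommutative ↥V) (H : Subgroup G)
    (hHV : H ⊔ V = ⊤) (U : Subgroup G) (hUV : U ≤ V)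
    (hH : H ≤ Subgroup.normalizer (U : Set G)) : U.Normal := by
  rw [← Subgroup.normalizer_eq_top_iff, eq_top_iff, ← hHV]
  refine sup_le hH ?_
  intro v hv
  rw [Subgroup.mem_normalizer_iff]
  intro u
  constructor
  · intro hu
    have : v * u * v⁻¹ = u := by
      rw [comm_of hV hv (hUV hu)]; group
    rw [this]; exact hu
  · intro hu
    have huV : u ∈ V := by
      have := Subgroup.Normal.conj_mem inferInstance _ (hUV hu) v⁻¹
      have e : v⁻¹ * (v * u * v⁻¹) * v⁻¹⁻¹ = u := by group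
      rwa [e] at this
    have : v * u * v⁻¹ = u := by
      rw [comm_of hV hv huV]; group
    rwa [this] at hu

theorem key (V : Subgroup G) [V.Normal] (hV : IsMulCommutative ↥V) (H : Subgroup G)
    (v : G) (hv : v ∈ V) :
    ⁅H, Subgroup.closure {y : G | ∃ h' ∈ H, h' * v * h'⁻¹ = y}⁆ ≤
      H ⊔ H.map (MulAut.conj v).toMonoidHom := by
  rw [Subgroup.commutator_le]
  intro h hh u hu
  have P : u ∈ V ∧ ∀ h ∈ H, ⁅h, u⁆ ∈ H ⊔ H.map (MulAut.conj v).toMonoidHom := by
    induction hu using Subgroup.closure_induction with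
    | mem y hy =>
      obtain ⟨h', hh', rfl⟩ := hy
      refine ⟨Subgroup.Normal.conj_mem inferInstance _ hv h', ?_⟩
      intro k hk
      have e : ⁅k, h' * v * h'⁻¹⁆ =
          h' * ((h'⁻¹ * k * h') * (v * (h'⁻¹ * k * h')⁻¹ * v⁻¹)) * h'⁻¹ := by
        rw [commutatorElement_def]; group
      rw [e]
      have hk' : h'⁻¹ * k * h' ∈ H := H.mul_mem (H.mul_mem (H.inv_mem hh') hk) hh'
      refine mul_mem (mul_mem (Subgroup.mem_sup_left hh') (mul_mem (Subgroup.mem_sup_left hk') ?_))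
        (inv_mem (Subgroup.mem_sup_left hh'))
      apply Subgroup.mem_sup_right
      rw [mem_cj]
      have e2 : v⁻¹ * (v * (h'⁻¹ * k * h')⁻¹ * v⁻¹) * v = (h'⁻¹ * k * h')⁻¹ := by group
      rw [e2]; exact H.inv_mem hk'
    | one =>
      refine ⟨V.one_mem, fun k _ => ?_⟩
      rw [commutatorElement_one_right]; exact one_mem _
    | mul x y _ _ hx hy =>
      refine ⟨V.mul_mem hx.1 hy.1, fun k hk => ?_⟩
      have hy' : k * y * k⁻¹ * y⁻¹ ∈ V :=
        V.mul_mem (Subgroup.Normal.conj_mem inferInstance _ hy.1 k) (V.inv_mem hy.1)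
      have e : ⁅k, x * y⁆ = ⁅k, x⁆ * ⁅k, y⁆ := by
        rw [commutatorElement_def, commutatorElement_def, commutatorElement_def]
        have c := comm_of hV (V.inv_mem hx.1) hy'
        calc k * (x * y) * k⁻¹ * (x * y)⁻¹ = k * x * k⁻¹ * ((k * y * k⁻¹ * y⁻¹) * x⁻¹) := by group
          _ = k * x * k⁻¹ * (x⁻¹ * (k * y * k⁻¹ * y⁻¹)) := by rw [c]
          _ = k * x * k⁻¹ * x⁻¹ * (k * y * k⁻¹ * y⁻¹) := by group
      rw [e]
      exact mul_mem (hx.2 k hk) (hy.2 k hk)
    | inv x _ hx =>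
      refine ⟨V.inv_mem hx.1, fun k hk => ?_⟩
      have hx' : (k * x * k⁻¹)⁻¹ ∈ V :=
        V.inv_mem (Subgroup.Normal.conj_mem inferInstance _ hx.1 k)
      have e : ⁅k, x⁻¹⁆ = (⁅k, x⁆)⁻¹ := by
        rw [commutatorElement_def, commutatorElement_def]
        have c := comm_of hV hx.1 hx'
        calc k * x⁻¹ * k⁻¹ * x⁻¹⁻¹ = (k * x * k⁻¹)⁻¹ * x := by group
          _ = x * (k * x * k⁻¹)⁻¹ := by rw [c]
          _ = (k * x * k⁻¹ * x⁻¹)⁻¹ := by group
      rw [e]
      exact inv_mem (hx.2 k hk)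
  exact P.2 h hh

theorem main {G : Type*} [Group G]
    (V : Subgroup G) [V.Normal] (hV : IsMulCommutative ↥V) (H : Subgroup G) (hHV : H ⊔ V = ⊤) :
    Cfsg.IsPronormal H ↔
      ∀ U : Subgroup G, U ≤ V → (∀ h ∈ H, U.map (MulAut.conj h).toMonoidHom = U) →
        U = (U ⊓ Subgroup.normalizer (H : Set G)) ⊔ ⁅H, U⁆ := by
  constructor
  · intro hpro U hUV hinv
    have hHU : H ≤ Subgroup.normalizer (U : Set G) := fun h hh => cj_eq_self_iff.1 (hinv h hh)
    have hUn : U.Normal := normal_of_le V hV H hHV U hUV hHU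
    have hWU : ⁅H, U⁆ ≤ U := Subgroup.commutator_le_right H U
    have hWn : (⁅H, U⁆ : Subgroup G).Normal :=
      normal_of_le V hV H hHV _ (hWU.trans hUV) (Subgroup.normalizer_commutator_ge_left _ _)
    apply le_antisymm
    · intro u hu
      obtain ⟨x, hx, hxe⟩ := hpro u
      have hle : H ⊔ H.map (MulAut.conj u).toMonoidHom ≤ ⁅H, U⁆ ⊔ H := by
        refine sup_le le_sup_right ?_
        intro y hy
        rw [mem_cj] at hy
        have e : y = ⁅u, (u⁻¹ * y * u)⁆ * (u⁻¹ * y * u) := by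
          rw [commutatorElement_def]; group
        rw [e]
        refine mul_mem (Subgroup.mem_sup_left ?_) (Subgroup.mem_sup_right hy)
        rw [← commutatorElement_inv]
        exact inv_mem (Subgroup.commutator_mem_commutator hy hu)
      have hx' := hle hx
      rw [← SetLike.mem_coe, Subgroup.normal_mul, Set.mem_mul] at hx'
      obtain ⟨w, hw, h, hh, rfl⟩ := hx'
      rw [cj_mul w h, cj_of_mem hh] at hxe
      have hn : w⁻¹ * u ∈ Subgroup.normalizer (H : Set G) := by
        rw [← cj_eq_self_iff, cj_mul, hxe, ← cj_mul, inv_mul_cancel]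
        exact cj_of_mem H.one_mem
      have hnU : w⁻¹ * u ∈ U := U.mul_mem (U.inv_mem (hWU hw)) hu
      have e : u = (w⁻¹ * u) * ((w⁻¹ * u)⁻¹ * w * (w⁻¹ * u)) := by group
      rw [e]
      refine mul_mem (Subgroup.mem_sup_left ⟨hnU, hn⟩) (Subgroup.mem_sup_right ?_)
      have := hWn.conj_mem w hw (w⁻¹ * u)⁻¹
      rwa [inv_inv] at this
    · exact sup_le inf_le_left hWU
  · intro hcond g
    have hg : g ∈ V ⊔ H := by rw [sup_comm, hHV]; trivial
    rw [← SetLike.mem_coe, Subgroup.normal_mul, Set.mem_mul] at hg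
    obtain ⟨v, hv, h, hh, rfl⟩ := hg
    have e1 : H.map (MulAut.conj (v * h)).toMonoidHom = H.map (MulAut.conj v).toMonoidHom := by
      rw [cj_mul, cj_of_mem hh]
    rw [e1]
    have hkey := key V hV H v hv
    have hUV : Subgroup.closure {y : G | ∃ h' ∈ H, h' * v * h'⁻¹ = y} ≤ V := by
      rw [Subgroup.closure_le]
      rintro y ⟨h', hh', rfl⟩
      exact Subgroup.Normal.conj_mem inferInstance _ hv h'
    have hinv : ∀ h' ∈ H, (Subgroup.closure {y : G | ∃ h' ∈ H, h' * v * h'⁻¹ = y}).map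
        (MulAut.conj h').toMonoidHom = Subgroup.closure {y : G | ∃ h' ∈ H, h' * v * h'⁻¹ = y} := by
      intro h' hh'
      rw [MonoidHom.map_closure]
      congr 1
      ext y
      constructor
      · rintro ⟨z, ⟨k, hk, rfl⟩, rfl⟩
        refine ⟨h' * k, H.mul_mem hh' hk, ?_⟩
        simp [MulAut.conj_apply, mul_assoc]
      · rintro ⟨k, hk, rfl⟩
        refine ⟨h'⁻¹ * k * v * (h'⁻¹ * k)⁻¹, ⟨h'⁻¹ * k, H.mul_mem (H.inv_mem hh') hk, rfl⟩, ?_⟩
        simp [MulAut.conj_apply, mul_assoc]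
    have hvU : v ∈ Subgroup.closure {y : G | ∃ h' ∈ H, h' * v * h'⁻¹ = y} :=
      Subgroup.subset_closure ⟨1, H.one_mem, by simp⟩
    have hU := hcond _ hUV hinv
    have hHU : H ≤ Subgroup.normalizer
        ((Subgroup.closure {y : G | ∃ h' ∈ H, h' * v * h'⁻¹ = y} : Subgroup G) : Set G) :=
      fun h hh => cj_eq_self_iff.1 (hinv h hh)
    have hUn := normal_of_le V hV H hHV _ hUV hHU
    have hWU : ⁅H, Subgroup.closure {y : G | ∃ h' ∈ H, h' * v * h'⁻¹ = y}⁆ ≤
        Subgroup.closure {y : G | ∃ h' ∈ H, h' * v * h'⁻¹ = y} := Subgroup.commutator_le_right _ _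
    have hWn : (⁅H, Subgroup.closure {y : G | ∃ h' ∈ H, h' * v * h'⁻¹ = y}⁆ : Subgroup G).Normal :=
      normal_of_le V hV H hHV _ (hWU.trans hUV) (Subgroup.normalizer_commutator_ge_left _ _)
    rw [hU, ← SetLike.mem_coe, Subgroup.mul_normal, Set.mem_mul] at hvU
    obtain ⟨n, hn, w, hw, hnw⟩ := hvU
    have hcomm : n * w = w * n := comm_of hV (hUV hn.1) (hUV (hWU hw))
    refine ⟨w, hkey hw, ?_⟩
    rw [← hnw, hcomm, cj_mul, cj_eq_self_iff.2 hn.2]

/-- Let G be a finite group, V an abelian normal subgroup and H a subgroup with HV = G. Then H is pronormal in G (H and gHg⁻¹ are conjugate inside the subgroup they generate, for every g) if and only if every H-invariant subgroup U of V satisfies U = N_U(H)·[H, U], that is, U is the join of U ∩ N_G(H) and the commutator subgroup [H, U]. -/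
theorem result {G : Type*} [Group G] [Finite G]
    (V : Subgroup G) [V.Normal] (hV : IsMulCommutative ↥V) (H : Subgroup G) (hHV : H ⊔ V = ⊤) :
    Cfsg.IsPronormal H ↔
      ∀ U : Subgroup G, U ≤ V → (∀ h ∈ H, U.map (MulAut.conj h).toMonoidHom = U) →
        U = (U ⊓ Subgroup.normalizer (H : Set G)) ⊔ ⁅H, U⁆ := by
  exact main V hV H hHV

end Cfsg.Agent.S4269
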