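import Mathlib
import Cfsg.Statements.S4270
import Cfsg.Agent.Lib.Helper68.Pronormal

set_option autoImplicit false
open Cfsg

namespace Cfsg.Agent.S4270

open Cfsg.Agent.Lib.Helper68.Pronormal

/-- For a pronormal subgroup, the image of the normalizer is the normalizer of the image. -/
theorem normalizer_map_of_pronormal {G : Type*} [Group G] (A : Subgroup G) [A.Normal]
    (K : Subgroup G) (hK : Cfsg.IsPronormal K) :
    (Subgroup.normalizer (K : Set G)).map (QuotientGroup.mk' A) =
      Subgroup.normalizer ((K.map (QuotientGroup.mk' A) : Subgroup (G ⧸ A)) : Set (G ⧸ A)) := by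
  apply le_antisymm (Subgroup.le_normalizer_map _)
  intro y hy
  obtain ⟨g, rfl⟩ := QuotientGroup.mk'_surjective A y
  rw [mem_normalizer_iff_cj, ← map_cj] at hy
  have h1 : cj g K ⊔ A = K ⊔ A := by
    have := Subgroup.map_eq_map_iff.1 hy
    rwa [QuotientGroup.ker_mk'] at this
  obtain ⟨x, hx, hxe⟩ := (isPronormal_iff.1 hK) g
  have hxKA : x ∈ K ⊔ A := (sup_le le_sup_left (le_sup_left.trans h1.le)) hx
  have h2 : x⁻¹ * g ∈ Subgroup.normalizer (K : Set G) := by
    rw [mem_normalizer_iff_cj, cj_mul, hxe, cj_inv_cj]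
  have h3 : QuotientGroup.mk' A x ∈ K.map (QuotientGroup.mk' A) := by
    have h4 : (K ⊔ A).map (QuotientGroup.mk' A) = K.map (QuotientGroup.mk' A) := by
      apply Subgroup.map_eq_map_iff.2
      rw [QuotientGroup.ker_mk', sup_assoc, sup_idem]
    rw [← h4]
    exact Subgroup.mem_map_of_mem _ hxKA
  obtain ⟨k, hk, hke⟩ := h3
  refine ⟨k * (x⁻¹ * g), Subgroup.mul_mem _ (Subgroup.le_normalizer hk) h2, ?_⟩
  rw [map_mul, hke, ← map_mul]
  congr 1
  group

/-- Let p be a prime and G a finite group with a normal subgroup A such that, both in A and in G/A, every subgroup containing a Sylow p-subgroup of that group is pronormal in that group. Let T be a Sylow p-subgroup of A. Then every subgroup of G containing a Sylow p-subgroup of G is pronormal in G if and only if (i) every subgroup of N_G(T)/T containing a Sylow p-subgroup of N_G(T)/T is pronormal there, and (ii) for every subgroup H of G containing a Sylow p-subgroup of G, the image of N_G(H) in G/A is the full normalizer of the image of H. (Pronormal: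 H and gHg⁻¹ are conjugate inside the subgroup they generate, for every g.) -/
theorem result {G : Type*} [Group G] [Finite G] {p : ℕ} [Fact p.Prime]
    (A : Subgroup G) [A.Normal] (hA : (∀ K : Subgroup ↥A, (∃ P : Sylow p ↥A, (P : Subgroup ↥A) ≤ K) → Cfsg.IsPronormal K)) (hQ : (∀ K : Subgroup (G ⧸ A), (∃ P : Sylow p (G ⧸ A), (P : Subgroup (G ⧸ A)) ≤ K) → Cfsg.IsPronormal K))
    (T : Subgroup G) (hT : ∃ P : Sylow p ↥A, (P : Subgroup ↥A).map A.subtype = T) [(T.subgroupOf (Subgroup.normalizer (T : Set G))).Normal] :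
    (∀ K : Subgroup G, (∃ P : Sylow p G, (P : Subgroup G) ≤ K) → Cfsg.IsPronormal K) ↔
      ((∀ K : Subgroup (↥(Subgroup.normalizer (T : Set G)) ⧸ T.subgroupOf (Subgroup.normalizer (T : Set G))), (∃ P : Sylow p (↥(Subgroup.normalizer (T : Set G)) ⧸ T.subgroupOf (Subgroup.normalizer (T : Set G))), (P : Subgroup (↥(Subgroup.normalizer (T : Set G)) ⧸ T.subgroupOf (Subgroup.normalizer (T : Set G)))) ≤ K) → Cfsg.IsPronormal K) ∧
        ∀ K : Subgroup G, (∃ P : Sylow p G, (P : Subgroup G) ≤ K) →
          (Subgroup.normalizer (K : Set G)).map (QuotientGroup.mk' A) = Subgroup.normalizer ((K.map (QuotientGroup.mk' A) : Subgroup (G ⧸ A)) : Set (G ⧸ A))) := by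
  obtain ⟨PA, hPA⟩ := hT
  constructor
  · intro hall
    refine ⟨?_, fun K hK => normalizer_map_of_pronormal A K (hall K hK)⟩
    rintro Kbar ⟨Pbar, hPbar⟩
    obtain ⟨PN, rfl⟩ := Sylow.mapSurjective_surjective
      (QuotientGroup.mk'_surjective (T.subgroupOf (Subgroup.normalizer (T : Set G)))) p Pbar
    rw [Sylow.coe_mapSurjective] at hPbar
    have hPNle : (PN : Subgroup ↥(Subgroup.normalizer (T : Set G))) ≤
        Kbar.comap (QuotientGroup.mk' (T.subgroupOf (Subgroup.normalizer (T : Set G)))) :=
      Subgroup.map_le_iff_le_comap.1 hPbar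
    -- a Sylow subgroup of `G` inside the normalizer
    obtain ⟨S⟩ : Nonempty (Sylow p G) := inferInstance
    obtain ⟨g, hg⟩ := exists_cj_inf_eq A PA S
    rw [hPA] at hg
    have hS₀ : ((g • S : Sylow p G) : Subgroup G) = cj g S := coe_smul_sylow g S
    have hS₀N : ((g • S : Sylow p G) : Subgroup G) ≤ Subgroup.normalizer (T : Set G) := by
      have h1 := sylow_le_normalizer_inf A (g • S)
      rwa [hS₀, ← hg] at h1
    obtain ⟨S', hS'⟩ := exists_sylow_eq_of_isSyl (g • S) hS₀N
      (isSyl_of_sylow (Subgroup.normalizer (T : Set G)) PN)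
    have hpr : Cfsg.IsPronormal
        ((Kbar.comap (QuotientGroup.mk' (T.subgroupOf (Subgroup.normalizer (T : Set G))))).map
          (Subgroup.normalizer (T : Set G)).subtype) :=
      hall _ ⟨S', by rw [hS']; exact Subgroup.map_mono hPNle⟩
    have hpr' := isPronormal_of_map_subtype _ _ hpr
    have hpr'' := isPronormal_map
      (QuotientGroup.mk' (T.subgroupOf (Subgroup.normalizer (T : Set G))))
      (QuotientGroup.mk'_surjective _) hpr'
    rwa [Subgroup.map_comap_eq_self_of_surjective (QuotientGroup.mk'_surjective _)] at hpr''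
  · rintro ⟨hi, hii⟩ K ⟨S, hSK⟩
    obtain ⟨g₀, hg₀⟩ := exists_cj_inf_eq A PA S
    rw [hPA] at hg₀
    apply isPronormal_of_cj g₀
    have hS₁ : ((g₀ • S : Sylow p G) : Subgroup G) = cj g₀ S := coe_smul_sylow g₀ S
    have hS₁K : ((g₀ • S : Sylow p G) : Subgroup G) ≤ cj g₀ K := by
      rw [hS₁]; exact cj_mono hSK
    have hTS₁ : T ≤ ((g₀ • S : Sylow p G) : Subgroup G) := by
      rw [hS₁, hg₀]; exact inf_le_left
    apply core_backward A T (cj g₀ K) (g₀ • S) hS₁K (by rw [hS₁]; exact hg₀.symm)
    · -- HA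
      intro L hLA hTL a ha
      have hle : (PA : Subgroup ↥A) ≤ L.subgroupOf A := by
        intro x hx
        rw [Subgroup.mem_subgroupOf]
        apply hTL
        rw [← hPA]
        exact Subgroup.mem_map_of_mem A.subtype hx
      have h1 : Cfsg.IsPronormal (L.subgroupOf A) := hA _ ⟨PA, hle⟩
      have h2 := exists_of_isPronormal_sub A (L.subgroupOf A) h1 a ha
      rwa [Subgroup.map_subgroupOf_eq_of_le hLA] at h2
    · -- Hi
      intro K₀ hSK₀ hK₀N a ha
      have hTK₀ : T ≤ K₀ := hTS₁.trans hSK₀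
      have hsylN : ∃ P : Sylow p (↥(Subgroup.normalizer (T : Set G)) ⧸
          T.subgroupOf (Subgroup.normalizer (T : Set G))),
          (P : Subgroup _) ≤ (K₀.subgroupOf (Subgroup.normalizer (T : Set G))).map
            (QuotientGroup.mk' (T.subgroupOf (Subgroup.normalizer (T : Set G)))) := by
        refine ⟨((g₀ • S).subtype (hSK₀.trans hK₀N)).mapSurjective
          (QuotientGroup.mk'_surjective _), ?_⟩
        rw [Sylow.coe_mapSurjective, Sylow.coe_subtype]
        apply Subgroup.map_mono
        intro x hx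
        rw [Subgroup.mem_subgroupOf] at hx ⊢
        exact hSK₀ hx
      have hpr := hi _ hsylN
      obtain ⟨u, hu, hue⟩ := exists_lift
        (QuotientGroup.mk' (T.subgroupOf (Subgroup.normalizer (T : Set G)))) hpr ⟨a, ha⟩
      rw [QuotientGroup.ker_mk'] at hue
      have hTN : T.subgroupOf (Subgroup.normalizer (T : Set G)) ≤
          K₀.subgroupOf (Subgroup.normalizer (T : Set G)) := by
        intro x hx
        rw [Subgroup.mem_subgroupOf] at hx ⊢
        exact hTK₀ hx
      have h1 : ∀ v : ↥(Subgroup.normalizer (T : Set G)),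
          T.subgroupOf (Subgroup.normalizer (T : Set G)) ≤
            cj v (K₀.subgroupOf (Subgroup.normalizer (T : Set G))) := by
        intro v
        have h0 := cj_mono (g := v) hTN
        rwa [cj_normal] at h0
      rw [sup_eq_left.2 (h1 _), sup_eq_left.2 (h1 _)] at hue
      have h2 := congrArg (Subgroup.map (Subgroup.normalizer (T : Set G)).subtype) hue
      rw [map_cj, map_cj, Subgroup.map_subgroupOf_eq_of_le hK₀N] at h2
      refine ⟨(u : G), ?_, h2⟩
      have h3 := Subgroup.mem_map_of_mem (Subgroup.normalizer (T : Set G)).subtype hu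
      rw [Subgroup.map_sup, map_cj, Subgroup.map_subgroupOf_eq_of_le hK₀N] at h3
      exact h3
    · -- HQ
      intro g
      have h1 : Cfsg.IsPronormal ((cj g₀ K).map (QuotientGroup.mk' A)) :=
        hQ _ ⟨(g₀ • S).mapSurjective (QuotientGroup.mk'_surjective A), by
          rw [Sylow.coe_mapSurjective]; exact Subgroup.map_mono hS₁K⟩
      have h2 := exists_lift (QuotientGroup.mk' A) h1 g
      rwa [QuotientGroup.ker_mk'] at h2
    · -- Hii
      intro g hg
      have h1 : QuotientGroup.mk' A g ∈ Subgroup.normalizer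
          (((cj g₀ K).map (QuotientGroup.mk' A) : Subgroup (G ⧸ A)) : Set (G ⧸ A)) := by
        rw [mem_normalizer_iff_cj, ← map_cj]
        apply Subgroup.map_eq_map_iff.2
        rw [QuotientGroup.ker_mk']; exact hg
      rw [← hii (cj g₀ K) ⟨g₀ • S, hS₁K⟩] at h1
      obtain ⟨n, hn, hne⟩ := h1
      exact ⟨n, hn, QuotientGroup.eq.1 hne⟩

end Cfsg.Agent.S4270
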