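import Mathlib
import Cfsg.Statements.S4271
import Cfsg.Agent.Lib.Helper68.Pronormal
import Cfsg.Agent.S4270

set_option autoImplicit false
open Cfsg

namespace Cfsg.Agent.S4271

open Cfsg.Agent.Lib.Helper68.Pronormal

/-- Overgroups of a self-normalizing Sylow subgroup are pronormal. -/
theorem pronormal_of_selfNormalizing {H : Type*} [Group H] [Finite H] {p : ℕ} [Fact p.Prime]
    (P : Sylow p H) (hP : Subgroup.normalizer ((P : Subgroup H) : Set H) = P)
    (K : Subgroup H) (hPK : (P : Subgroup H) ≤ K) : Cfsg.IsPronormal K := by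
  rw [isPronormal_iff]
  intro g
  have h1 : IsSyl p (P : Subgroup H) (K ⊔ cj g K) := isSyl_of_sylow_le P _ (hPK.trans le_sup_left)
  have h2 : IsSyl p (cj g (P : Subgroup H)) (K ⊔ cj g K) := by
    have h3 := isSyl_of_sylow_le (g • P) (K ⊔ cj g K)
      (by rw [coe_smul_sylow]; exact (cj_mono hPK).trans le_sup_right)
    rwa [coe_smul_sylow] at h3
  obtain ⟨c, hc, hce⟩ := h1.exists_cj h2
  have h4 : c⁻¹ * g ∈ Subgroup.normalizer ((P : Subgroup H) : Set H) := by
    rw [mem_normalizer_iff_cj, cj_mul, hce, cj_inv_cj]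
  rw [hP] at h4
  refine ⟨c, hc, ?_⟩
  have h5 : g = c * (c⁻¹ * g) := by group
  conv_lhs => rw [h5]
  rw [cj_mul, cj_of_mem (hPK h4)]

/-- Overgroups of a self-normalizing Sylow subgroup are self-normalizing. -/
theorem normalizer_eq_of_selfNormalizing {H : Type*} [Group H] [Finite H] {p : ℕ} [Fact p.Prime]
    (P : Sylow p H) (hP : Subgroup.normalizer ((P : Subgroup H) : Set H) = P)
    (K : Subgroup H) (hPK : (P : Subgroup H) ≤ K) : Subgroup.normalizer (K : Set H) = K := by
  apply le_antisymm _ Subgroup.le_normalizer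
  intro g hg
  have hgK : cj g K = K := mem_normalizer_iff_cj.1 hg
  have h1 : IsSyl p (P : Subgroup H) K := isSyl_of_sylow_le P _ hPK
  have h2 : IsSyl p (cj g (P : Subgroup H)) K := by
    have h3 := isSyl_of_sylow_le (g • P) K
      (by rw [coe_smul_sylow, ← hgK]; exact cj_mono hPK)
    rwa [coe_smul_sylow] at h3
  obtain ⟨c, hc, hce⟩ := h1.exists_cj h2
  have h4 : c⁻¹ * g ∈ Subgroup.normalizer ((P : Subgroup H) : Set H) := by
    rw [mem_normalizer_iff_cj, cj_mul, hce, cj_inv_cj]
  rw [hP] at h4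
  have h5 : g = c * (c⁻¹ * g) := by group
  rw [h5]
  exact K.mul_mem hc (hPK h4)

/-- Let p be a prime and G a finite group with a normal subgroup A such that every subgroup of A containing a Sylow p-subgroup of A is pronormal in A, and the Sylow p-subgroups of G/A are self-normalizing. Let T be a Sylow p-subgroup of A. Then every subgroup of G containing a Sylow p-subgroup of G is pronormal in G if and only if every subgroup of N_G(T)/T containing a Sylow p-subgroup of N_G(T)/T is pronormal in N_G(T)/T. (Pronormal: H and gHg⁻¹ are conjugate inside the subgroup they generate, for every g.) -/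
theorem result {G : Type*} [Group G] [Finite G] {p : ℕ} [Fact p.Prime]
    (A : Subgroup G) [A.Normal] (hA : (∀ K : Subgroup ↥A, (∃ P : Sylow p ↥A, (P : Subgroup ↥A) ≤ K) → Cfsg.IsPronormal K))
    (hQ : ∀ P : Sylow p (G ⧸ A), Subgroup.normalizer ((P : Subgroup (G ⧸ A)) : Set (G ⧸ A)) = P)
    (T : Subgroup G) (hT : ∃ P : Sylow p ↥A, (P : Subgroup ↥A).map A.subtype = T) [(T.subgroupOf (Subgroup.normalizer (T : Set G))).Normal] :
    (∀ K : Subgroup G, (∃ P : Sylow p G, (P : Subgroup G) ≤ K) → Cfsg.IsPronormal K) ↔ (∀ K : Subgroup (↥(Subgroup.normalizer (T : Set G)) ⧸ T.subgroupOf (Subgroup.normalizer (T : Set G))), (∃ P : Sylow p (↥(Subgroup.normalizer (T : Set G)) ⧸ T.subgroupOf (Subgroup.normalizer (T : Set G))), (P : Subgroup (↥(Subgroup.normalizer (T : Set G)) ⧸ T.subgroupOf (Subgroup.normalizer (T : Set G)))) ≤ K) → Cfsg.IsPronormal K) := by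
  have hQ' : ∀ K : Subgroup (G ⧸ A), (∃ P : Sylow p (G ⧸ A), (P : Subgroup (G ⧸ A)) ≤ K) →
      Cfsg.IsPronormal K := by
    rintro K ⟨P, hPK⟩
    exact pronormal_of_selfNormalizing P (hQ P) K hPK
  have key := Cfsg.Agent.S4270.result A hA hQ' T hT
  rw [key]
  constructor
  · intro h; exact h.1
  · intro h
    refine ⟨h, ?_⟩
    rintro K ⟨S, hSK⟩
    apply le_antisymm (Subgroup.le_normalizer_map _)
    have h1 := normalizer_eq_of_selfNormalizing
      (S.mapSurjective (QuotientGroup.mk'_surjective A))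
      (hQ _) (K.map (QuotientGroup.mk' A))
      (by rw [Sylow.coe_mapSurjective]; exact Subgroup.map_mono hSK)
    rw [h1]
    exact Subgroup.map_mono Subgroup.le_normalizer

end Cfsg.Agent.S4271
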