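import Cfsg.Statements.S4331
import Cfsg.Agent.Lib.Helper62.Wielandt
import Cfsg.Agent.Lib.Helper90.Basic

set_option autoImplicit false
open Cfsg

namespace Cfsg.Agent.S4331

open Equiv

abbrev F : Type := GaloisField 3 2

noncomputable instance instFintypeF : Fintype F := Fintype.ofFinite F

noncomputable instance instDecEqF : DecidableEq F := Classical.decEq F

theorem card_F : Fintype.card F = 9 := by
  have h := GaloisField.card 3 2 (by norm_num)
  rw [Nat.card_eq_fintype_card] at h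
  simpa using h

theorem pow9 (a : F) : a ^ 9 = a := by
  have h := FiniteField.pow_card a
  rwa [card_F] at h

theorem cube_add (a b : F) : (a + b) ^ 3 = a ^ 3 + b ^ 3 := add_pow_char a b 3

theorem cube_sub (a b : F) : (a - b) ^ 3 = a ^ 3 - b ^ 3 := sub_pow_char a b

theorem cube_cube (a : F) : (a ^ 3) ^ 3 = a := by rw [← pow_mul]; exact pow9 a

theorem three_eq_zero : (3 : F) = 0 := by exact_mod_cast CharP.cast_eq_zero F 3

theorem pow8 {c : F} (hc : c ≠ 0) : c ^ 8 = 1 := by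
  have h := pow9 c
  have h2 : c * c ^ 8 = c * 1 := by rw [mul_one, ← pow_succ']; exact h
  exact mul_left_cancel₀ hc h2

theorem exists_cube_ne : ∃ x : F, x ^ 3 ≠ x := by
  by_contra h
  push Not at h
  have hne : (Polynomial.X ^ 3 - Polynomial.X : Polynomial F) ≠ 0 :=
    FiniteField.X_pow_card_sub_X_ne_zero F (by norm_num)
  have hdeg : (Polynomial.X ^ 3 - Polynomial.X : Polynomial F).natDegree = 3 :=
    FiniteField.X_pow_card_sub_X_natDegree_eq F (by norm_num)
  have h1 : (Finset.univ : Finset F)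
      ⊆ (Polynomial.X ^ 3 - Polynomial.X : Polynomial F).roots.toFinset := by
    intro x _
    rw [Multiset.mem_toFinset, Polynomial.mem_roots hne]
    simp [h x]
  have h2 := Finset.card_le_card h1
  have h3 := Multiset.toFinset_card_le (Polynomial.X ^ 3 - Polynomial.X : Polynomial F).roots
  have h4 := Polynomial.card_roots' (Polynomial.X ^ 3 - Polynomial.X : Polynomial F)
  rw [Finset.card_univ, card_F] at h2
  omega

theorem two_eq : (2 : F) = -1 := by
  have h := three_eq_zero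
  linear_combination h

/-- semilinear affine maps `x ↦ c x + v` and `x ↦ c x³ + v` -/
def G₀ : Subgroup (Perm F) where
  carrier := {f | ∃ c v : F, c ≠ 0 ∧ ((∀ x, f x = c * x + v) ∨ (∀ x, f x = c * x ^ 3 + v))}
  mul_mem' := by
    rintro f g ⟨c, v, hc, hf⟩ ⟨d, w, hd, hg⟩
    rcases hf with hf | hf <;> rcases hg with hg | hg
    · exact ⟨c * d, c * w + v, mul_ne_zero hc hd, Or.inl fun x => by
        rw [Perm.mul_apply, hg, hf]; ring⟩
    · exact ⟨c * d, c * w + v, mul_ne_zero hc hd, Or.inr fun x => by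
        rw [Perm.mul_apply, hg, hf]; ring⟩
    · exact ⟨c * d ^ 3, c * w ^ 3 + v, mul_ne_zero hc (pow_ne_zero _ hd), Or.inr fun x => by
        rw [Perm.mul_apply, hg, hf, cube_add, mul_pow]; ring⟩
    · exact ⟨c * d ^ 3, c * w ^ 3 + v, mul_ne_zero hc (pow_ne_zero _ hd), Or.inl fun x => by
        rw [Perm.mul_apply, hg, hf, cube_add, mul_pow, cube_cube]; ring⟩
  one_mem' := ⟨1, 0, one_ne_zero, Or.inl fun x => by simp⟩
  inv_mem' := by
    rintro f ⟨c, v, hc, hf⟩
    rcases hf with hf | hf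
    · refine ⟨c⁻¹, -(c⁻¹ * v), inv_ne_zero hc, Or.inl fun x => ?_⟩
      rw [Perm.inv_eq_iff_eq, hf]
      field_simp
      ring
    · refine ⟨(c⁻¹) ^ 3, -((c⁻¹) ^ 3 * v ^ 3), pow_ne_zero _ (inv_ne_zero hc), Or.inr fun x => ?_⟩
      rw [Perm.inv_eq_iff_eq, hf]
      have h1 : (c⁻¹) ^ 3 * x ^ 3 + -((c⁻¹) ^ 3 * v ^ 3) = (c⁻¹ * (x - v)) ^ 3 := by
        rw [mul_pow, cube_sub]; ring
      rw [h1, cube_cube]
      field_simp
      ring

theorem mem_G₀ {f : Perm F} : f ∈ G₀ ↔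
    ∃ c v : F, c ≠ 0 ∧ ((∀ x, f x = c * x + v) ∨ (∀ x, f x = c * x ^ 3 + v)) := Iff.rfl

noncomputable def tr (v : F) : Perm F := Equiv.addRight v

theorem tr_apply (v x : F) : tr v x = x + v := rfl

theorem tr_mem (v : F) : tr v ∈ G₀ :=
  ⟨1, v, one_ne_zero, Or.inl fun x => by rw [tr_apply]; ring⟩

theorem tr_inv_apply (v x : F) : (tr v)⁻¹ x = x - v := by
  rw [Perm.inv_eq_iff_eq, tr_apply]; ring

noncomputable def ml (c : F) (hc : c ≠ 0) : Perm F := Equiv.mulLeft₀ c hc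

theorem ml_apply (c : F) (hc : c ≠ 0) (x : F) : ml c hc x = c * x := rfl

theorem ml_mem (c : F) (hc : c ≠ 0) : ml c hc ∈ G₀ :=
  ⟨c, 0, hc, Or.inl fun x => by rw [ml_apply]; ring⟩

theorem ml_inv_apply (c : F) (hc : c ≠ 0) (x : F) : (ml c hc)⁻¹ x = c⁻¹ * x := by
  rw [Perm.inv_eq_iff_eq, ml_apply]; field_simp

noncomputable def fr : Perm F := ⟨fun x => x ^ 3, fun x => x ^ 3, fun x => cube_cube x, fun x => cube_cube x⟩

theorem fr_apply (x : F) : fr x = x ^ 3 := rfl

theorem fr_mem : fr ∈ G₀ :=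
  ⟨1, 0, one_ne_zero, Or.inr fun x => by rw [fr_apply]; ring⟩

theorem fr_inv_apply (x : F) : fr⁻¹ x = x ^ 3 := by
  rw [Perm.inv_eq_iff_eq, fr_apply, cube_cube]

theorem comm_fr_of_add (g : Perm F) (w : F) (hw : w ^ 3 = w) (hg : ∀ x, g x = x + w) :
    g * fr = fr * g := by
  ext x
  rw [Perm.mul_apply, Perm.mul_apply, hg, hg, fr_apply, fr_apply, cube_add, hw]

theorem comm_fr_of_cube (g : Perm F) (w : F) (hw : w ^ 3 = w) (hg : ∀ x, g x = x ^ 3 + w) :
    g * fr = fr * g := by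
  ext x
  rw [Perm.mul_apply, Perm.mul_apply, hg, hg, fr_apply, fr_apply, cube_add, hw]

/-- every element is conjugate to one fixing `0` or to one commuting with `fr` -/
theorem exists_conj (f : Perm F) (hf : f ∈ G₀) :
    ∃ k ∈ G₀, (k * f * k⁻¹) 0 = 0 ∨ (k * f * k⁻¹) * fr = fr * (k * f * k⁻¹) := by
  obtain ⟨c, v, hc, hf | hf⟩ := hf
  · by_cases hc1 : c = 1
    · by_cases hv : v = 0
      · refine ⟨1, G₀.one_mem, Or.inl ?_⟩
        simp only [one_mul, inv_one, mul_one]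
        rw [hf, hv]; ring
      · refine ⟨ml v⁻¹ (inv_ne_zero hv), ml_mem _ _, Or.inr ?_⟩
        have hg : ∀ x, (ml v⁻¹ (inv_ne_zero hv) * f * (ml v⁻¹ (inv_ne_zero hv))⁻¹) x = x + 1 := by
          intro x
          rw [Perm.mul_apply, Perm.mul_apply, ml_inv_apply, ml_apply, hf, hc1]
          field_simp
        exact comm_fr_of_add _ 1 (one_pow 3) hg
    · refine ⟨tr (-(v / (1 - c))), tr_mem _, Or.inl ?_⟩
      have h1 : (1 : F) - c ≠ 0 := sub_ne_zero.2 (Ne.symm hc1)
      rw [Perm.mul_apply, Perm.mul_apply, tr_inv_apply, tr_apply, hf]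
      field_simp
      ring
  · by_cases hsq : ∃ d : F, c = d ^ 2
    · obtain ⟨d, rfl⟩ := hsq
      have hd : d ≠ 0 := by
        rintro rfl
        exact hc (by ring)
      refine ⟨tr (d * v) * ml d hd, G₀.mul_mem (tr_mem _) (ml_mem _ _), Or.inr ?_⟩
      have hg : ∀ x, (tr (d * v) * ml d hd * f * (tr (d * v) * ml d hd)⁻¹) x
          = x ^ 3 + (-((d * v) ^ 3 + d * v)) := by
        intro x
        rw [mul_inv_rev, Perm.mul_apply, Perm.mul_apply, Perm.mul_apply, Perm.mul_apply,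
          tr_inv_apply, ml_inv_apply, tr_apply, ml_apply, hf, mul_pow, cube_sub, mul_pow]
        have h2 := two_eq
        field_simp
        linear_combination (d * v) * three_eq_zero
      have hw : (-((d * v) ^ 3 + d * v)) ^ 3 = -((d * v) ^ 3 + d * v) := by
        rw [neg_pow, cube_add, cube_cube]; ring
      exact comm_fr_of_cube _ _ hw hg
    · have hinj : Function.Injective (fun x : F => x - c * x ^ 3) := by
        intro x y hxy
        simp only at hxy
        by_contra hne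
        have hz : x - y ≠ 0 := sub_ne_zero.2 hne
        have h1 : x - y = c * (x - y) ^ 3 := by
          rw [cube_sub]; linear_combination hxy
        apply hsq
        refine ⟨(x - y)⁻¹, ?_⟩
        field_simp
        have h2 : (x - y) * 1 = (x - y) * (c * (x - y) ^ 2) := by
          rw [mul_one]; linear_combination h1
        exact (mul_left_cancel₀ hz h2).symm
      obtain ⟨x₀, hx₀⟩ := Finite.surjective_of_injective hinj v
      simp only at hx₀
      refine ⟨tr (-x₀), tr_mem _, Or.inl ?_⟩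
      rw [Perm.mul_apply, Perm.mul_apply, tr_inv_apply, tr_apply, hf]
      linear_combination (-1 : F) * hx₀

theorem pow_kind1 (f : Perm F) (c v : F) (hf : ∀ x, f x = c * x + v) (n : ℕ) :
    ∃ w, ∀ x, (f ^ n) x = c ^ n * x + w := by
  induction n with
  | zero => exact ⟨0, fun x => by simp⟩
  | succ n ih =>
    obtain ⟨w, hw⟩ := ih
    refine ⟨c ^ n * v + w, fun x => ?_⟩
    rw [pow_succ, Perm.mul_apply, hw, hf]; ring

/-- the eighth power of every element is a translation -/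
theorem pow_eight (f : Perm F) (hf : f ∈ G₀) : ∃ w, ∀ x, (f ^ 8) x = x + w := by
  obtain ⟨c, v, hc, hf | hf⟩ := hf
  · obtain ⟨w, hw⟩ := pow_kind1 f c v hf 8
    refine ⟨w, fun x => ?_⟩
    rw [hw, pow8 hc, one_mul]
  · have h2 : ∀ x, (f ^ 2) x = c ^ 4 * x + (c * v ^ 3 + v) := by
      intro x
      rw [pow_two, Perm.mul_apply, hf, hf, cube_add, mul_pow, cube_cube]; ring
    obtain ⟨w, hw⟩ := pow_kind1 (f ^ 2) (c ^ 4) _ h2 4
    refine ⟨w, fun x => ?_⟩
    have h16 : (c ^ 4) ^ 4 = 1 := by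
      rw [← pow_mul]
      have h8 := pow8 hc
      calc c ^ (4 * 4) = c ^ 8 * c ^ 8 := by ring
        _ = 1 := by rw [h8, one_mul]
    rw [← pow_mul] at hw
    rw [hw, h16, one_mul]

theorem pow_add_const (f : Perm F) (w : F) (hf : ∀ x, f x = x + w) (n : ℕ) :
    ∀ x, (f ^ n) x = x + n * w := by
  induction n with
  | zero => intro x; simp
  | succ n ih =>
    intro x
    rw [pow_succ, Perm.mul_apply, ih, hf]; push_cast; ring

/-- the point stabilizer of `0` -/
noncomputable def H : Subgroup ↥G₀ := (MulAction.stabilizer (Perm F) (0 : F)).subgroupOf G₀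

theorem mem_H {g : ↥G₀} : g ∈ H ↔ (g : Perm F) 0 = 0 := by
  rw [H, Subgroup.mem_subgroupOf, MulAction.mem_stabilizer_iff]
  rfl

theorem isPGroup_H : IsPGroup 2 ↥H := by
  intro h
  refine ⟨3, ?_⟩
  obtain ⟨w, hw⟩ := pow_eight (h : ↥G₀) (h : ↥G₀).2
  have h0 : (((h : ↥G₀) : Perm F) ^ 8) 0 = 0 := by
    have hm : ((h : ↥G₀) ^ 8 : ↥G₀) ∈ H := H.pow_mem h.2 8
    rw [mem_H] at hm
    simpa using hm
  have hw0 : w = 0 := by
    have := hw 0
    rw [h0, zero_add] at this
    exact this.symm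
  apply Subtype.ext
  apply Subtype.ext
  ext x
  have := hw x
  rw [hw0, add_zero] at this
  simpa using this

/-- the translation subgroup -/
def V : Subgroup ↥G₀ where
  carrier := {g | ∃ w : F, ∀ x, (g : Perm F) x = x + w}
  mul_mem' := by
    rintro f g ⟨v, hf⟩ ⟨w, hg⟩
    exact ⟨w + v, fun x => by
      rw [Subgroup.coe_mul, Perm.mul_apply, hg, hf]; ring⟩
  one_mem' := ⟨0, fun x => by simp⟩
  inv_mem' := by
    rintro f ⟨v, hf⟩
    refine ⟨-v, fun x => ?_⟩
    rw [Subgroup.coe_inv, Perm.inv_eq_iff_eq, hf]; ring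

theorem V_normal : V.Normal := by
  constructor
  rintro n ⟨w, hn⟩ g
  obtain ⟨c, v, hc, hg | hg⟩ := g.2
  · refine ⟨c * w, fun x => ?_⟩
    rw [Subgroup.coe_mul, Subgroup.coe_mul, Subgroup.coe_inv, Perm.mul_apply, Perm.mul_apply,
      hn, hg]
    have h1 : (g : Perm F) ((g : Perm F)⁻¹ x) = x := by simp
    rw [hg] at h1
    linear_combination h1
  · refine ⟨c * w ^ 3, fun x => ?_⟩
    rw [Subgroup.coe_mul, Subgroup.coe_mul, Subgroup.coe_inv, Perm.mul_apply, Perm.mul_apply,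
      hn, hg, cube_add]
    have h1 : (g : Perm F) ((g : Perm F)⁻¹ x) = x := by simp
    rw [hg] at h1
    linear_combination h1

theorem solvable_G₀ : Group.IsSolvable ↥G₀ := by
  have := V_normal
  have h1 : Group.IsSolvable ↥V := by
    apply Group.isSolvable_of_comm
    rintro ⟨f, v, hf⟩ ⟨g, w, hg⟩
    apply Subtype.ext
    apply Subtype.ext
    ext x
    simp only [Subgroup.coe_mul, Perm.mul_apply]
    rw [hg, hf, hf, hg]; ring
  have h2 : IsPGroup 2 (↥G₀ ⧸ V) := by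
    intro q
    induction q using QuotientGroup.induction_on with
    | H g =>
      refine ⟨3, ?_⟩
      rw [← QuotientGroup.mk_pow, QuotientGroup.eq_one_iff]
      obtain ⟨w, hw⟩ := pow_eight (g : Perm F) g.2
      exact ⟨w, fun x => by simpa using hw x⟩
  have : Group.IsNilpotent (↥G₀ ⧸ V) := h2.isNilpotent
  exact (Group.isSolvable_iff_subgroup_quotient V).2 ⟨h1, inferInstance⟩

noncomputable def a : ↥G₀ := ⟨fr, fr_mem⟩

theorem a_sq : a ^ 2 = 1 := by
  apply Subtype.ext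
  ext x
  show (fr ^ 2) x = x
  rw [pow_two, Perm.mul_apply, fr_apply, fr_apply, cube_cube]

theorem a_ne_one : a ≠ 1 := by
  intro h
  obtain ⟨x, hx⟩ := exists_cube_ne
  apply hx
  have h2 := congrArg (fun g : ↥G₀ => (g : Perm F) x) h
  simpa [a, fr_apply] using h2

theorem card_A : Nat.card (Subgroup.zpowers a) = 2 := by
  rw [Nat.card_zpowers, orderOf_eq_prime a_sq a_ne_one]

theorem subnormal_of_commute {G : Type*} [Group G] (a g : G) (h : g * a = a * g) :
    ((Subgroup.zpowers a).subgroupOf (Subgroup.zpowers a ⊔ Subgroup.zpowers g)).IsSubnormal := by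
  apply Subgroup.Normal.isSubnormal
  rw [Subgroup.normal_subgroupOf_iff_le_normalizer le_sup_left]
  refine sup_le Subgroup.le_normalizer ((Subgroup.zpowers_le).2 ?_)
  apply Subgroup.centralizer_le_normalizer
  rw [Subgroup.mem_centralizer_iff]
  intro z hz
  obtain ⟨k, rfl⟩ := Subgroup.mem_zpowers_iff.1 hz
  have hc : Commute g a := h
  exact (hc.zpow_right k).eq.symm

theorem classes (c : ↥G₀) : ∃ g : ↥G₀, IsConj c g ∧
    ((Subgroup.zpowers a).subgroupOf (Subgroup.zpowers a ⊔ Subgroup.zpowers g)).IsSubnormal := by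
  obtain ⟨k, hk, h⟩ := exists_conj (c : Perm F) c.2
  refine ⟨⟨k, hk⟩ * c * ⟨k, hk⟩⁻¹, isConj_iff.2 ⟨⟨k, hk⟩, rfl⟩, ?_⟩
  rcases h with h | h
  · have hg : (⟨k, hk⟩ * c * ⟨k, hk⟩⁻¹ : ↥G₀) ∈ H := by rw [mem_H]; exact h
    have ha : a ∈ H := by
      rw [mem_H]
      show fr 0 = 0
      rw [fr_apply]; ring
    have hle : Subgroup.zpowers a ⊔ Subgroup.zpowers (⟨k, hk⟩ * c * ⟨k, hk⟩⁻¹ : ↥G₀) ≤ H :=
      sup_le ((Subgroup.zpowers_le).2 ha) ((Subgroup.zpowers_le).2 hg)
    have hp : IsPGroup 2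
        ↥(Subgroup.zpowers a ⊔ Subgroup.zpowers (⟨k, hk⟩ * c * ⟨k, hk⟩⁻¹ : ↥G₀)) :=
      isPGroup_H.to_le hle
    have : Group.IsNilpotent
        ↥(Subgroup.zpowers a ⊔ Subgroup.zpowers (⟨k, hk⟩ * c * ⟨k, hk⟩⁻¹ : ↥G₀)) :=
      hp.isNilpotent
    exact Cfsg.Agent.Lib.Helper62.Wielandt.isSubnormal_of_isNilpotent _
  · apply subnormal_of_commute
    apply Subtype.ext
    exact h

theorem not_le_pCore : ¬ Subgroup.zpowers a ≤ Cfsg.pCore 2 ↥G₀ := by
  intro hle
  have haO : a ∈ Cfsg.pCore 2 ↥G₀ := hle (Subgroup.mem_zpowers a)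
  have hN := Cfsg.Agent.Lib.Helper90.Basic.pCore_normal (G := ↥G₀) 2
  have hP := Cfsg.Agent.Lib.Helper90.Basic.pCore_isPGroup (G := ↥G₀) 2
  obtain ⟨x, hx⟩ := exists_cube_ne
  have hu : a * ((⟨tr x, tr_mem x⟩ : ↥G₀) * a⁻¹ * (⟨tr x, tr_mem x⟩ : ↥G₀)⁻¹)
      ∈ Cfsg.pCore 2 ↥G₀ :=
    Subgroup.mul_mem _ haO (hN.conj_mem _ (Subgroup.inv_mem _ haO) _)
  have hform : ∀ y, ((a * ((⟨tr x, tr_mem x⟩ : ↥G₀) * a⁻¹ * (⟨tr x, tr_mem x⟩ : ↥G₀)⁻¹) : ↥G₀)
      : Perm F) y = y + (x ^ 3 - x) := by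
    intro y
    show fr (tr x (fr⁻¹ ((tr x)⁻¹ y))) = _
    rw [tr_inv_apply, fr_inv_apply, tr_apply, fr_apply, cube_add, cube_cube]; ring
  obtain ⟨k, hk⟩ := hP ⟨_, hu⟩
  have hk' : ((a * ((⟨tr x, tr_mem x⟩ : ↥G₀) * a⁻¹ * (⟨tr x, tr_mem x⟩ : ↥G₀)⁻¹) : ↥G₀)
      : Perm F) ^ (2 ^ k) = 1 := by
    have h2 := congrArg (fun g : ↥(Cfsg.pCore 2 ↥G₀) => ((g : ↥G₀) : Perm F)) hk
    simpa using h2
  have h0 := pow_add_const _ _ hform (2 ^ k) 0
  rw [hk', Perm.one_apply, zero_add] at h0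
  have h2 : ((2 ^ k : ℕ) : F) ≠ 0 := by
    push_cast
    apply pow_ne_zero
    rw [two_eq]; exact neg_ne_zero.2 one_ne_zero
  have h3 : x ^ 3 - x = 0 := by
    rcases mul_eq_zero.1 h0.symm with h | h
    · exact absurd h h2
    · exact h
  exact hx (sub_eq_zero.1 h3)

/-- There is a finite solvable group G with a subgroup A of order 2 such that every conjugacy class of G contains an element g for which A is subnormal in the subgroup generated by A and g, and yet A is not contained in O_2(G). (So the corresponding criteria for odd primes fail at the prime 2, even for solvable groups.) -/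
theorem result :
    ∃ (G : Type) (_ : Group G) (_ : Finite G) (A : Subgroup G), Group.IsSolvable G ∧ Nat.card A = 2 ∧
      (∀ c : G, ∃ g : G, IsConj c g ∧ (A.subgroupOf (A ⊔ Subgroup.zpowers g)).IsSubnormal) ∧
      ¬ A ≤ Cfsg.pCore 2 G :=
  ⟨↥G₀, inferInstance, inferInstance, Subgroup.zpowers a, solvable_G₀, card_A, classes,
    not_le_pCore⟩

end Cfsg.Agent.S4331
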