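import Cfsg.Statements.S4332
import Mathlib

set_option autoImplicit false
open Pointwise
open Cfsg

namespace Cfsg.Agent.S4332

open Equiv

/-- Every permutation of 8 points has a 3-set that is invariant or moved off itself. -/
theorem exists_three_set (c : Perm (Fin 8)) :
    ∃ T : Finset (Fin 8), T.card = 3 ∧ ((∀ x ∈ T, c x ∈ T) ∨ (∀ x ∈ T, c x ∉ T)) := by
  by_cases hF : 3 ≤ (c.supportᶜ).card
  · obtain ⟨T, hT, hcard⟩ := Finset.exists_subset_card_eq hF
    refine ⟨T, hcard, Or.inl ?_⟩
    intro x hx
    have h1 : x ∉ c.support := Finset.mem_compl.1 (hT hx)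
    rw [Perm.notMem_support] at h1
    rwa [h1]
  · have hsupp : 6 ≤ c.support.card := by
      have h1 := Finset.card_compl c.support
      simp only [Fintype.card_fin] at h1
      have h2 := c.support.card_le_univ
      simp only [Fintype.card_fin] at h2
      omega
    obtain ⟨a, ha⟩ : c.support.Nonempty := Finset.card_pos.1 (by omega)
    have ha' : c a ≠ a := Perm.mem_support.1 ha
    by_cases h3 : c (c (c a)) = a
    · refine ⟨{a, c a, c (c a)}, ?_, Or.inl ?_⟩
      · rw [Finset.card_eq_three]
        refine ⟨a, c a, c (c a), ha'.symm, ?_, ?_, rfl⟩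
        · intro h
          apply ha'
          have : c a = c (c (c a)) := congrArg c h
          rw [this, h3]
        · intro h
          exact ha' (c.injective h).symm
      · intro x hx
        simp only [Finset.mem_insert, Finset.mem_singleton] at hx ⊢
        rcases hx with rfl | rfl | rfl
        · right; left; rfl
        · right; right; rfl
        · left; exact h3
    · by_cases h2 : c (c a) = a
      · have hU1 : ({a, c a} : Finset (Fin 8)).card < c.support.card :=
          lt_of_le_of_lt Finset.card_le_two (by omega)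
        obtain ⟨b, hb, hbU⟩ := Finset.exists_mem_notMem_of_card_lt_card hU1
        have hU2 : ({a, c a, b, c b, c⁻¹ b} : Finset (Fin 8)).card < c.support.card :=
          lt_of_le_of_lt Finset.card_le_five (by omega)
        obtain ⟨d, hd, hdU⟩ := Finset.exists_mem_notMem_of_card_lt_card hU2
        simp only [Finset.mem_insert, Finset.mem_singleton, not_or] at hbU hdU
        have hb' : c b ≠ b := Perm.mem_support.1 hb
        have hd' : c d ≠ d := Perm.mem_support.1 hd
        refine ⟨{a, b, d}, ?_, Or.inr ?_⟩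
        · rw [Finset.card_eq_three]
          exact ⟨a, b, d, Ne.symm hbU.1, Ne.symm hdU.1, Ne.symm hdU.2.2.1, rfl⟩
        · intro x hx
          simp only [Finset.mem_insert, Finset.mem_singleton, not_or] at hx ⊢
          rcases hx with rfl | rfl | rfl
          · exact ⟨ha', Ne.symm hbU.2, Ne.symm hdU.2.1⟩
          · refine ⟨?_, hb', Ne.symm hdU.2.2.2.1⟩
            intro h
            apply hbU.2
            apply c.injective
            rw [h, h2]
          · refine ⟨?_, ?_, hd'⟩
            · intro h
              apply hdU.2.1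
              apply c.injective
              rw [h, h2]
            · intro h
              apply hdU.2.2.2.2
              rw [← h]; simp
      · have hU : ({c⁻¹ a, a, c a, c (c a), c (c (c a))} : Finset (Fin 8)).card < c.support.card :=
          lt_of_le_of_lt Finset.card_le_five (by omega)
        obtain ⟨d, hd, hdU⟩ := Finset.exists_mem_notMem_of_card_lt_card hU
        simp only [Finset.mem_insert, Finset.mem_singleton, not_or] at hdU
        have hd' : c d ≠ d := Perm.mem_support.1 hd
        refine ⟨{a, c (c a), d}, ?_, Or.inr ?_⟩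
        · rw [Finset.card_eq_three]
          exact ⟨a, c (c a), d, Ne.symm h2, Ne.symm hdU.2.1, Ne.symm hdU.2.2.2.1, rfl⟩
        · intro x hx
          simp only [Finset.mem_insert, Finset.mem_singleton, not_or] at hx ⊢
          rcases hx with rfl | rfl | rfl
          · refine ⟨ha', ?_, Ne.symm hdU.2.2.1⟩
            intro h
            exact ha' (c.injective h).symm
          · refine ⟨h3, ?_, Ne.symm hdU.2.2.2.2⟩
            intro h
            exact ha' (c.injective (c.injective h))
          · refine ⟨?_, ?_, hd'⟩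
            · intro h
              apply hdU.1
              rw [← h]; simp
            · intro h
              exact hdU.2.2.1 (c.injective h)

theorem exists_perm_map (T S : Finset (Fin 8)) (h : T.card = S.card) :
    ∃ π : Perm (Fin 8), ∀ x, π x ∈ S ↔ x ∈ T := by
  classical
  let e : {x // x ∈ T} ≃ {x // x ∈ S} := Finset.equivOfCardEq h
  refine ⟨e.extendSubtype, fun x => ?_⟩
  by_cases hx : x ∈ T
  · simp only [hx, iff_true]
    exact Equiv.extendSubtype_mem e x hx
  · simp only [hx, iff_false]
    exact Equiv.extendSubtype_not_mem e x hx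

section threeCycles

variable {α : Type*} [Fintype α] [DecidableEq α]

theorem threeCycle_apply3 {σ : Perm α} (hσ : σ.IsThreeCycle) (x : α) : σ (σ (σ x)) = x := by
  have h : σ ^ 3 = 1 := by rw [← hσ.orderOf]; exact pow_orderOf_eq_one σ
  have h2 := congrArg (fun f : Perm α => f x) h
  simpa [pow_succ] using h2

theorem mem_support_threeCycle {σ : Perm α} (hσ : σ.IsThreeCycle) {x y : α}
    (hx : x ∈ σ.support) (hy : y ∈ σ.support) : y = x ∨ y = σ x ∨ y = σ (σ x) := by
  have h := hσ.support_eq_iff_mem_support.2 hx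
  rw [h] at hy
  simpa using hy

theorem threeCycle_eq_of_apply_eq {σ τ : Perm α} (hσ : σ.IsThreeCycle) (hτ : τ.IsThreeCycle)
    (hs : τ.support = σ.support) (x : α) (hx : x ∈ σ.support) (hxx : τ x = σ x) : τ = σ := by
  have hxτ : x ∈ τ.support := hs ▸ hx
  have hτx : τ x ≠ x := Perm.mem_support.1 hxτ
  have h2 : τ (τ x) = σ (σ x) := by
    have hmem : τ (τ x) ∈ σ.support := by
      rw [← hs, Perm.apply_mem_support, Perm.apply_mem_support]; exact hxτ
    rcases mem_support_threeCycle hσ hx hmem with h | h | h
    · exfalso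
      apply hτx
      have h3 := threeCycle_apply3 hτ x
      rw [h] at h3
      exact h3
    · exfalso
      rw [← hxx] at h
      exact hτx (τ.injective h)
    · exact h
  apply hτ.isCycle.support_congr hσ.isCycle hs.le
  intro y hy
  rw [hs] at hy
  rcases mem_support_threeCycle hσ hx hy with rfl | rfl | rfl
  · exact hxx
  · rw [← hxx, h2, hxx]
  · rw [← h2, threeCycle_apply3 hτ, h2, threeCycle_apply3 hσ]

theorem threeCycle_eq_or_eq_inv {σ τ : Perm α} (hσ : σ.IsThreeCycle) (hτ : τ.IsThreeCycle)
    (hs : τ.support = σ.support) : τ = σ ∨ τ = σ⁻¹ := by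
  obtain ⟨x, hx⟩ : σ.support.Nonempty := Finset.card_pos.1 (by rw [hσ.card_support]; norm_num)
  have hxτ : x ∈ τ.support := hs ▸ hx
  have hτx : τ x ≠ x := Perm.mem_support.1 hxτ
  have hmem : τ x ∈ σ.support := by
    rw [← hs, Perm.apply_mem_support]; exact hxτ
  rcases mem_support_threeCycle hσ hx hmem with h | h | h
  · exact absurd h hτx
  · exact Or.inl (threeCycle_eq_of_apply_eq hσ hτ hs x hx h)
  · right
    refine threeCycle_eq_of_apply_eq hσ.inv hτ (by rw [hs, Perm.support_inv]) x
      (by rw [Perm.support_inv]; exact hx) ?_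
    rw [h, Perm.eq_inv_iff_eq, threeCycle_apply3 hσ]

end threeCycles

theorem subnormal_of_mem_normalizer {G : Type*} [Group G] {σ g : G}
    (h : g * σ * g⁻¹ ∈ Subgroup.normalizer ((Subgroup.zpowers σ : Subgroup G) : Set G)) :
    ((Subgroup.zpowers σ).subgroupOf
      (Subgroup.zpowers σ ⊔ MulAut.conj g • Subgroup.zpowers σ)).IsSubnormal := by
  have e : MulAut.conj g • Subgroup.zpowers σ = Subgroup.zpowers (g * σ * g⁻¹) := by
    show (Subgroup.zpowers σ).map (MulAut.conj g).toMonoidHom = _
    rw [MonoidHom.map_zpowers]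
    rfl
  rw [e]
  apply Subgroup.Normal.isSubnormal
  rw [Subgroup.normal_subgroupOf_iff_le_normalizer le_sup_left]
  exact sup_le Subgroup.le_normalizer ((Subgroup.zpowers_le).2 h)

theorem eq_one_of_mul_self {G : Type*} [Group G] {N : Subgroup G} (hp : IsPGroup 3 N) {u : G}
    (hu : u ∈ N) (h2 : u * u = 1) : u = 1 := by
  obtain ⟨k, hk⟩ := hp ⟨u, hu⟩
  have hk' : u ^ (3 ^ k) = 1 := by simpa using congrArg Subtype.val hk
  have h1 : orderOf u ∣ 2 := orderOf_dvd_of_pow_eq_one (by rw [pow_two]; exact h2)
  have h3 : orderOf u ∣ 3 ^ k := orderOf_dvd_of_pow_eq_one hk'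
  have hc : Nat.Coprime 2 (3 ^ k) := Nat.Coprime.pow_right k (by norm_num)
  have : orderOf u ∣ 1 := by
    have := Nat.dvd_gcd h1 h3
    rwa [hc] at this
  exact orderOf_eq_one_iff.1 (Nat.dvd_one.1 this)

theorem normal_three_group_eq_bot (N : Subgroup (Perm (Fin 8))) (hN : N.Normal)
    (hp : IsPGroup 3 N) : N = ⊥ := by
  by_contra hne
  obtain ⟨n, hnN, hn1⟩ : ∃ n ∈ N, n ≠ 1 := by
    by_contra h
    push Not at h
    exact hne ((Subgroup.eq_bot_iff_forall N).2 h)
  obtain ⟨x, hx⟩ : ∃ x, n x ≠ x := by
    by_contra h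
    push Not at h
    exact hn1 (Perm.ext h)
  have hny : n (n x) ≠ n x := fun h => hx (n.injective h)
  have hnyx : n (n x) ≠ x := by
    intro h
    obtain ⟨k, hk⟩ := hp ⟨n, hnN⟩
    have hk' : n ^ (3 ^ k) = 1 := by simpa using congrArg Subtype.val hk
    have hodd : Odd (3 ^ k) := Odd.pow (by decide)
    obtain ⟨m, hm⟩ := hodd
    have h2 : ∀ j : ℕ, (n ^ (2 * j)) x = x := by
      intro j
      induction j with
      | zero => simp
      | succ j ih =>
        rw [Nat.mul_succ, pow_add, Perm.mul_apply, pow_two, Perm.mul_apply, h, ih]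
    have h3 : (n ^ (3 ^ k)) x = n x := by
      rw [hm, pow_succ', Perm.mul_apply, h2]
    rw [hk'] at h3
    exact hx h3.symm
  have h3c : (swap (n x) (n (n x)) * swap (n x) x).IsThreeCycle :=
    Perm.isThreeCycle_swap_mul_swap_same hny.symm hx hnyx
  have hmem : swap (n x) (n (n x)) * swap (n x) x ∈ N := by
    have h1 : swap x (n x) * n⁻¹ * (swap x (n x))⁻¹ ∈ N := hN.conj_mem _ (N.inv_mem hnN) _
    have h2 := N.mul_mem hnN h1
    have h4 : n * (swap x (n x) * n⁻¹ * (swap x (n x))⁻¹)
        = swap (n x) (n (n x)) * swap (n x) x := by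
      rw [Equiv.swap_apply_apply, Equiv.swap_inv, Equiv.swap_comm (n x) x]
      group
    rwa [h4] at h2
  have hall : ∀ τ : Perm (Fin 8), τ.IsThreeCycle → τ ∈ N := by
    intro τ hτ
    have hconj : IsConj (swap (n x) (n (n x)) * swap (n x) x) τ :=
      Perm.isConj_iff_cycleType_eq.2 (h3c.cycleType.trans hτ.cycleType.symm)
    obtain ⟨c, hc⟩ := isConj_iff.1 hconj
    rw [← hc]
    exact hN.conj_mem _ hmem c
  have ht1 : (swap (0 : Fin 8) 1 * swap 0 2).IsThreeCycle :=
    Perm.isThreeCycle_swap_mul_swap_same (by decide) (by decide) (by decide)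
  have ht2 : (swap (0 : Fin 8) 1 * swap 0 3).IsThreeCycle :=
    Perm.isThreeCycle_swap_mul_swap_same (by decide) (by decide) (by decide)
  have hu := N.mul_mem (hall _ ht1) (hall _ ht2)
  have hu1 := eq_one_of_mul_self hp hu (by decide)
  revert hu1
  decide

/-- In the symmetric group of degree 8, let A be the subgroup generated by a 3-cycle. Then every conjugacy class contains an element g for which A is subnormal in the subgroup generated by A and its conjugate by g, although O_3 of the symmetric group of degree 8 is trivial. -/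
theorem result
    (σ : Equiv.Perm (Fin 8)) (hσ : σ.IsThreeCycle) :
    (∀ c : Equiv.Perm (Fin 8), ∃ g : Equiv.Perm (Fin 8), IsConj c g ∧
      ((Subgroup.zpowers σ).subgroupOf (Subgroup.zpowers σ ⊔ MulAut.conj g • Subgroup.zpowers σ)).IsSubnormal) ∧
    Cfsg.pCore 3 (Equiv.Perm (Fin 8)) = ⊥ := by
  refine ⟨fun c => ?_, ?_⟩
  · obtain ⟨T, hT, hc⟩ := exists_three_set c
    obtain ⟨π, hπ⟩ := exists_perm_map T σ.support (by rw [hT, hσ.card_support])
    refine ⟨π * c * π⁻¹, isConj_iff.2 ⟨π, rfl⟩, ?_⟩
    apply subnormal_of_mem_normalizer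
    have hgS : ∀ s, (π * c * π⁻¹) s ∈ σ.support ↔ c (π⁻¹ s) ∈ T := by
      intro s
      simp only [Perm.mul_apply]
      exact hπ _
    have hπS : ∀ s, s ∈ σ.support ↔ π⁻¹ s ∈ T := by
      intro s
      rw [← hπ]
      simp
    rcases hc with hc | hc
    · have hinv : ∀ s ∈ σ.support, (π * c * π⁻¹) s ∈ σ.support :=
        fun s hs => (hgS s).2 (hc _ ((hπS s).1 hs))
      have hsupp : ((π * c * π⁻¹) * σ * (π * c * π⁻¹)⁻¹).support = σ.support := by
        rw [Perm.support_conj]
        apply Finset.eq_of_subset_of_card_le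
        · intro y hy
          rw [Finset.mem_map] at hy
          obtain ⟨s, hs, rfl⟩ := hy
          exact hinv s hs
        · rw [Finset.card_map]
      have h3 : ((π * c * π⁻¹) * σ * (π * c * π⁻¹)⁻¹).IsThreeCycle := by
        rw [← card_support_eq_three_iff, hsupp, hσ.card_support]
      rcases threeCycle_eq_or_eq_inv hσ h3 hsupp with h | h
      · rw [h]; exact Subgroup.le_normalizer (Subgroup.mem_zpowers σ)
      · rw [h]; exact Subgroup.le_normalizer (Subgroup.inv_mem _ (Subgroup.mem_zpowers σ))
    · have hdis : ∀ s ∈ σ.support, (π * c * π⁻¹) s ∉ σ.support :=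
        fun s hs h => hc _ ((hπS s).1 hs) ((hgS s).1 h)
      have hD : Perm.Disjoint ((π * c * π⁻¹) * σ * (π * c * π⁻¹)⁻¹) σ := by
        intro y
        by_cases hy : σ y = y
        · exact Or.inr hy
        · left
          have hyS : y ∈ σ.support := Perm.mem_support.2 hy
          have h1 : (π * c * π⁻¹)⁻¹ y ∉ σ.support := by
            intro h
            have h2 := hdis _ h
            rw [← Perm.mul_apply, mul_inv_cancel, Perm.one_apply] at h2
            exact h2 hyS
          rw [Perm.notMem_support] at h1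
          rw [Perm.mul_apply, Perm.mul_apply, h1, ← Perm.mul_apply, mul_inv_cancel,
            Perm.one_apply]
      have hcomm : Commute ((π * c * π⁻¹) * σ * (π * c * π⁻¹)⁻¹) σ := hD.commute
      apply Subgroup.centralizer_le_normalizer
      rw [Subgroup.mem_centralizer_iff]
      intro z hz
      obtain ⟨k, rfl⟩ := Subgroup.mem_zpowers_iff.1 hz
      exact (hcomm.zpow_right k).eq.symm
  · rw [Cfsg.pCore, sSup_eq_bot]
    rintro N ⟨hN, hp⟩
    exact normal_three_group_eq_bot N hN hp

end Cfsg.Agent.S4332
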