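import Cfsg.Statements.S4333
import Cfsg.Agent.Lib.Helper62.Wielandt

set_option autoImplicit false
open Pointwise
open Cfsg

namespace Cfsg.Agent.S4333

open Subgroup Cfsg.Agent.Lib.Helper62.Wielandt

universe u

theorem aux (n : ℕ) : ∀ (G : Type u) [Group G] [Finite G], Nat.card G ≤ n →
    ∀ A : Subgroup G,
    (∀ a ∈ A, ∀ g : G, (A.subgroupOf (A ⊔ MulAut.conj (g⁻¹ * a * g) • A)).IsSubnormal) →
    A.IsSubnormal := by
  induction n with
  | zero =>
    intro G _ _ h
    have := Nat.card_pos (α := G)
    omega
  | succ n ih =>
    intro G _ _ hcard A h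
    by_contra hA
    have hz : ∀ K : Subgroup G, A ≤ K → K ≠ ⊤ → (A.subgroupOf K).IsSubnormal := by
      intro K hAK hK
      apply ih ↥K (by have := card_lt_of_ne_top hK; omega)
      intro a ha k
      have hk := h (a : G) (Subgroup.mem_subgroupOf.mp ha) (k : G)
      have hx : ((k⁻¹ * a * k : ↥K) : G) = (k : G)⁻¹ * (a : G) * (k : G) := by simp
      rw [← hx] at hk
      generalize k⁻¹ * a * k = x at hk ⊢
      have hXK : A ⊔ MulAut.conj (x : G) • A ≤ K :=
        sup_le hAK (Subgroup.conj_smul_le_of_le hAK x)
      have e1 : A.subgroupOf K ⊔ MulAut.conj x • A.subgroupOf K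
          = (A ⊔ MulAut.conj (x : G) • A).subgroupOf K := by
        rw [Subgroup.conj_smul_subgroupOf hAK x,
          ← Subgroup.subgroupOf_sup hAK (Subgroup.conj_smul_le_of_le hAK x)]
      rw [e1]
      exact subgroupOf_subgroupOf_isSubnormal hXK hk
    obtain ⟨M, hM, hAM, huniq⟩ := zipper A hz hA
    have hconj : ∀ a ∈ A, ∀ g : G, MulAut.conj (g⁻¹ * a * g) • A ≤ M := by
      intro a ha g
      have hne : A ⊔ MulAut.conj (g⁻¹ * a * g) • A ≠ ⊤ := by
        intro he
        apply hA
        have := h a ha g
        rw [he] at this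
        exact IsSubnormal.trans le_top this IsSubnormal.top
      obtain ⟨K, hK, hle⟩ := (eq_top_or_exists_le_coatom _).resolve_left hne
      rw [← huniq K hK (le_sup_left.trans hle)]
      exact le_sup_right.trans hle
    have hnorm : ∀ a ∈ A, ∀ g : G, g⁻¹ * a * g ∈ Subgroup.normalizer (M : Set G) := by
      intro a ha g
      have h0 := hconj a⁻¹ (inv_mem ha) g
      have hx : g⁻¹ * a⁻¹ * g = (g⁻¹ * a * g)⁻¹ := by group
      rw [hx] at h0
      generalize g⁻¹ * a * g = x at h0 ⊢
      -- A ≤ conj x • M
      have h1 : A ≤ MulAut.conj x • M := by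
        intro y hy
        have h2 : MulAut.conj x⁻¹ • y ∈ M :=
          h0 (Subgroup.smul_mem_pointwise_smul y (MulAut.conj x⁻¹) A hy)
        have h3 := Subgroup.smul_mem_pointwise_smul _ (MulAut.conj x) M h2
        rw [smul_smul, ← map_mul, mul_inv_cancel, map_one, one_smul] at h3
        exact h3
      have h4 : MulAut.conj x • M ≤ M := by
        rcases eq_top_or_exists_le_coatom (MulAut.conj x • M) with he | ⟨K, hK, hle⟩
        · exfalso
          apply hM.1
          rw [eq_top_iff]
          intro y _
          have : MulAut.conj x • y ∈ MulAut.conj x • M := by rw [he]; trivial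
          exact (Subgroup.smul_mem_pointwise_smul_iff).mp this
        · have hKM := huniq K hK (h1.trans hle)
          rw [hKM] at hle
          exact hle
      exact (conj_smul_eq_iff x M).mp (smul_eq_of_le h4)
    by_cases hN : Subgroup.normalClosure (A : Set G) = ⊤
    · have hle : Subgroup.normalClosure (A : Set G) ≤ Subgroup.normalizer (M : Set G) := by
        rw [Subgroup.normalClosure, Subgroup.closure_le]
        intro y hy
        rw [Group.mem_conjugatesOfSet_iff] at hy
        obtain ⟨a, ha, hconj'⟩ := hy
        obtain ⟨c, rfl⟩ := isConj_iff.mp hconj'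
        have := hnorm a ha c⁻¹
        rwa [inv_inv] at this
      rw [hN, top_le_iff] at hle
      have hMn : M.Normal := Subgroup.normalizer_eq_top_iff.mp hle
      exact hA (IsSubnormal.trans hAM (hz M hAM hM.1) hMn.isSubnormal)
    · have h1 := hz _ Subgroup.le_normalClosure hN
      exact hA (IsSubnormal.trans Subgroup.le_normalClosure h1
        Subgroup.normalClosure_normal.isSubnormal)

/-- Let A be a subgroup of a finite group G. If A is subnormal in the subgroup generated by A and its conjugate by g⁻¹ a g, for every a ∈ A and every g ∈ G, then A is subnormal in G. (A sharpening of Wielandt's subnormality criterion: only conjugates of A by conjugates of elements of A are needed.) -/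
theorem result {G : Type*} [Group G] [Finite G]
    (A : Subgroup G)
    (h : ∀ a ∈ A, ∀ g : G, (A.subgroupOf (A ⊔ MulAut.conj (g⁻¹ * a * g) • A)).IsSubnormal) :
    A.IsSubnormal := by
  exact aux (Nat.card G) G le_rfl A h

end Cfsg.Agent.S4333
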