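import Cfsg.Statements.S4337
import Cfsg.Agent.Lib.Helper72.Swaps

set_option autoImplicit false
open Cfsg

namespace Cfsg.Agent.S4337

open Cfsg.Agent.Lib.Helper72.Swaps

theorem solvable_of_card_six {G : Type*} [Group G] [Finite G] (h : Nat.card G = 6) :
    Group.IsSolvable G := by
  have h3 : Fact (Nat.Prime 3) := ⟨by norm_num⟩
  have h2 : Fact (Nat.Prime 2) := ⟨by norm_num⟩
  obtain ⟨K, hK⟩ := Sylow.exists_subgroup_card_pow_prime 3 (n := 1) (G := G) (by rw [h]; norm_num)
  rw [pow_one] at hK
  have hidx : K.index = 2 := by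
    have := K.card_mul_index
    rw [hK, h] at this; omega
  have hKn : K.Normal := Subgroup.normal_of_index_eq_two hidx
  have hKc : IsCyclic K := isCyclic_of_prime_card (p := 3) hK
  have hQc : IsCyclic (G ⧸ K) :=
    isCyclic_of_prime_card (p := 2) (by rw [← Subgroup.index_eq_card]; exact hidx)
  have hKs : Group.IsSolvable K := Group.isSolvable_of_comm (isMulCommutative_iff.mp inferInstance)
  have hQs : Group.IsSolvable (G ⧸ K) :=
    Group.isSolvable_of_comm (isMulCommutative_iff.mp inferInstance)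
  exact Group.isSolvable_of_ker_le_range K.subtype (QuotientGroup.mk' K) (by simp)

theorem solvable_of_card_24 {G : Type*} [Group G] [Finite G] (h : Nat.card G = 24) :
    Group.IsSolvable G := by
  have h2 : Fact (Nat.Prime 2) := ⟨by norm_num⟩
  obtain ⟨K, hK⟩ := Sylow.exists_subgroup_card_pow_prime 2 (n := 3) (G := G) (by rw [h]; norm_num)
  have hidx : K.index = 3 := by
    have := K.card_mul_index
    rw [hK, h] at this; omega
  let φ := MulAction.toPermHom G (G ⧸ K)
  have hker : φ.ker ≤ K := by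
    rw [← Subgroup.normalCore_eq_ker]; exact Subgroup.normalCore_le K
  have hKp : IsPGroup 2 K := IsPGroup.of_card hK
  have hkerp : IsPGroup 2 φ.ker := hKp.to_le hker
  have hkn : Group.IsNilpotent φ.ker := hkerp.isNilpotent
  have hkers : Group.IsSolvable φ.ker := inferInstance
  have hcard : Nat.card (Equiv.Perm (G ⧸ K)) = 6 := by
    rw [Nat.card_perm, ← Subgroup.index_eq_card, hidx]; rfl
  have hps : Group.IsSolvable (Equiv.Perm (G ⧸ K)) := solvable_of_card_six hcard
  exact Group.isSolvable_of_ker_le_range φ.ker.subtype φ (by simp)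

theorem isSolvable_perm_fin_four : Group.IsSolvable (Equiv.Perm (Fin 4)) :=
  solvable_of_card_24 (by rw [Nat.card_perm, Nat.card_eq_fintype_card, Fintype.card_fin]; rfl)

/-- In a finite symmetric group, any three transpositions generate a solvable subgroup. -/
theorem result (n : ℕ) (a b c : Equiv.Perm (Fin n))
    (ha : a.IsSwap) (hb : b.IsSwap) (hc : c.IsSwap) :
    Group.IsSolvable (Subgroup.closure ({a, b, c} : Set (Equiv.Perm (Fin n)))) := by
  classical
  set H := Subgroup.closure ({a, b, c} : Set (Equiv.Perm (Fin n))) with hH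
  obtain ⟨N, hN⟩ := (Group.isSolvable_def (Equiv.Perm (Fin 4))).mp isSolvable_perm_fin_four
  rw [Group.isSolvable_def]
  refine ⟨N, ?_⟩
  rw [eq_bot_iff]
  intro h hh
  rw [Subgroup.mem_bot]
  apply Subtype.ext
  apply Equiv.ext
  intro x
  set T : Finset (Equiv.Perm (Fin n)) := {a, b, c} with hT
  have hTcard : T.card ≤ 3 := Finset.card_le_three
  have hTswap : ∀ u ∈ T, u.IsSwap := by
    intro u hu
    simp only [hT, Finset.mem_insert, Finset.mem_singleton] at hu
    rcases hu with rfl | rfl | rfl <;> assumption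
  have hTset : (T : Set (Equiv.Perm (Fin n))) = {a, b, c} := by simp [hT]
  obtain ⟨s, hxs, hscard, hstab⟩ := exists_stab_finset 3 T hTcard hTswap x
  rw [hTset] at hstab
  let ρ : H →* Equiv.Perm {y // y ∈ s} := MonoidHom.mk'
    (fun f => Equiv.Perm.subtypePerm (f : Equiv.Perm (Fin n)) (mem_stab.mp (hstab f.2)))
    (by intro f g; ext y; rfl)
  have hcard : Fintype.card {y // y ∈ s} ≤ Fintype.card (Fin 4) := by
    rw [Fintype.card_coe, Fintype.card_fin]; omega
  obtain ⟨ι⟩ := Function.Embedding.nonempty_of_card_le hcard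
  let θ : H →* Equiv.Perm (Fin 4) := (Equiv.Perm.viaEmbeddingHom ι).comp ρ
  have h1 : θ h ∈ derivedSeries (Equiv.Perm (Fin 4)) N :=
    map_derivedSeries_le_derivedSeries θ N (Subgroup.mem_map_of_mem θ hh)
  rw [hN, Subgroup.mem_bot] at h1
  have h2 : ρ h = 1 := Equiv.Perm.viaEmbeddingHom_injective ι (by rw [map_one]; exact h1)
  have h3 := congrArg (fun f : Equiv.Perm {y // y ∈ s} => (f ⟨x, hxs⟩ : Fin n)) h2
  simpa [ρ] using h3

end Cfsg.Agent.S4337
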