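import Cfsg.Statements.S4342

set_option autoImplicit false
open Cfsg

namespace Cfsg.Agent.S4342

/-- Sylow subgroups of `G` lie in a normal subgroup of index prime to `p`. -/
theorem sylow_le_of_normal {G : Type*} [Group G] [Finite G] (p : ℕ) [Fact p.Prime]
    (H : Subgroup G) [H.Normal] (hp : ¬ p ∣ H.index) (P : Sylow p G) : (P : Subgroup G) ≤ H := by
  rw [← Subgroup.relIndex_eq_one]
  obtain ⟨k, hk⟩ := P.isPGroup'.index (H.subgroupOf P)
  have hk' : H.relIndex P = p ^ k := hk
  have hdvd : H.relIndex P ∣ H.index := Subgroup.relIndex_dvd_index_of_normal H P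
  rw [hk'] at hdvd ⊢
  cases k with
  | zero => rfl
  | succ k => exact absurd ((dvd_pow_self p (Nat.succ_ne_zero k)).trans hdvd) hp

theorem card_sylow_subgroup {G : Type*} [Group G] [Finite G] (p : ℕ) [Fact p.Prime]
    (H : Subgroup G) [H.Normal] (hp : ¬ p ∣ H.index) :
    Nat.card (Sylow p H) = Nat.card (Sylow p G) := by
  symm
  apply Nat.card_congr
  refine Equiv.ofBijective (fun P : Sylow p G => P.subtype (sylow_le_of_normal p H hp P)) ⟨?_, ?_⟩
  · intro P Q h
    exact Sylow.subtype_injective h
  · intro Q
    have hQ : IsPGroup p ((Q : Subgroup H).map H.subtype) := Q.isPGroup'.map _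
    obtain ⟨P, hP⟩ := hQ.exists_le_sylow
    refine ⟨P, ?_⟩
    apply Sylow.ext
    show ((P.subtype (sylow_le_of_normal p H hp P) : Sylow p H) : Subgroup H) = Q
    apply Q.is_maximal' (P.subtype _).isPGroup'
    intro x hx
    rw [Sylow.coe_subtype, Subgroup.mem_subgroupOf]
    exact hP ⟨x, hx, rfl⟩

theorem card_sylow_quotient_center (p : ℕ) [Fact p.Prime] (K : Type*) [Group K] [Finite K] :
    Nat.card (Sylow p (K ⧸ Subgroup.center K)) = Nat.card (Sylow p K) := by
  symm
  apply Nat.card_congr
  have hf : Function.Surjective (QuotientGroup.mk' (Subgroup.center K)) :=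
    QuotientGroup.mk'_surjective _
  refine Equiv.ofBijective (Sylow.mapSurjective hf) ⟨?_, Sylow.mapSurjective_surjective hf p⟩
  intro P Q h
  have h1 : (P : Subgroup K).map (QuotientGroup.mk' (Subgroup.center K)) =
      (Q : Subgroup K).map (QuotientGroup.mk' (Subgroup.center K)) := by
    have := congrArg (fun R : Sylow p (K ⧸ Subgroup.center K) =>
      (R : Subgroup (K ⧸ Subgroup.center K))) h
    simpa using this
  have h2 : (P : Subgroup K) ⊔ Subgroup.center K = (Q : Subgroup K) ⊔ Subgroup.center K := by
    have := congrArg (Subgroup.comap (QuotientGroup.mk' (Subgroup.center K))) h1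
    rw [Subgroup.comap_map_eq, Subgroup.comap_map_eq, QuotientGroup.ker_mk'] at this
    exact this
  have h3 : (Q : Subgroup K) ≤ Subgroup.normalizer ((P : Subgroup K) : Set K) := by
    have h4 : (P : Subgroup K) ⊔ Subgroup.center K ≤
        Subgroup.normalizer ((P : Subgroup K) : Set K) :=
      sup_le Subgroup.le_normalizer (Subgroup.center_le_normalizer _)
    exact (le_sup_left.trans h2.symm.le).trans h4
  have h5 : (Q : Subgroup K) ⊓ Subgroup.normalizer ((P : Subgroup K) : Set K) =
      (Q : Subgroup K) ⊓ P := Q.isPGroup'.inf_normalizer_sylow P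
  have h6 : (Q : Subgroup K) ≤ P := by
    have h7 : (Q : Subgroup K) ⊓ Subgroup.normalizer ((P : Subgroup K) : Set K) = Q :=
      inf_eq_left.mpr h3
    rw [h5] at h7
    exact inf_eq_left.mp h7
  exact Sylow.ext (Q.is_maximal' P.isPGroup' h6)

/-- Let H be a normal subgroup of a finite group G and p a prime not dividing the index of H. Then the number of Sylow p-subgroups of H/Z(H) equals the number of Sylow p-subgroups of G. -/
theorem result {G : Type*} [Group G] [Finite G]
    (p : ℕ) [Fact p.Prime] (H : Subgroup G) [H.Normal] (hp : ¬ p ∣ H.index) :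
    Nat.card (Sylow p (H ⧸ Subgroup.center H)) = Nat.card (Sylow p G) := by
  rw [card_sylow_quotient_center p H, card_sylow_subgroup p H hp]

end Cfsg.Agent.S4342
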