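import Cfsg.Statements.S4343
import Mathlib

set_option autoImplicit false
open Cfsg

namespace Cfsg.Agent.S4343

set_option linter.unusedSectionVars false

variable {S : Type*} [Group S] [Finite S] {p : ℕ} [Fact p.Prime]

theorem mem_smul_iff (g x : S) (Q : Sylow p S) :
    x ∈ ((g • Q : Sylow p S) : Subgroup S) ↔ g⁻¹ * x * g ∈ (Q : Subgroup S) := by
  rw [Sylow.coe_subgroup_smul, Subgroup.mem_pointwise_smul_iff_inv_smul_mem]
  simp [MulAut.smul_def]

theorem sylow_eq_of_le (P Q : Sylow p S) (h : (P : Subgroup S) ≤ Q) : P = Q := by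
  apply Sylow.ext
  apply Subgroup.eq_of_le_of_card_ge h
  rw [Sylow.card_eq_multiplicity, Sylow.card_eq_multiplicity]

theorem stab_eq (P Q : Sylow p S) :
    MulAction.stabilizer (↥(P : Subgroup S)) Q = (Q : Subgroup S).subgroupOf (P : Subgroup S) := by
  ext x
  rw [MulAction.mem_stabilizer_iff, Subgroup.mem_subgroupOf]
  have h1 : x • Q = Q ↔ (x : S) ∈ Subgroup.normalizer (Q : Set S) := by
    rw [← Sylow.smul_eq_iff_mem_normalizer]; rfl
  rw [h1]
  have h2 := IsPGroup.inf_normalizer_sylow P.2 Q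
  constructor
  · intro hx
    have : (x : S) ∈ (P : Subgroup S) ⊓ Subgroup.normalizer (Q : Set S) := ⟨x.2, hx⟩
    rw [h2] at this
    exact this.2
  · intro hx
    have : (x : S) ∈ (P : Subgroup S) ⊓ (Q : Subgroup S) := ⟨x.2, hx⟩
    rw [← h2] at this
    exact this.2

theorem card_orbit (P Q : Sylow p S) :
    Nat.card (MulAction.orbit (↥(P : Subgroup S)) Q) =
      (Q : Subgroup S).relIndex (P : Subgroup S) := by
  rw [Nat.card_congr (MulAction.orbitEquivQuotientStabilizer (↥(P : Subgroup S)) Q), stab_eq]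
  rfl

theorem relIndex_eq_p (hn : Nat.card (Sylow p S) < p ^ 2) (P Q : Sylow p S) (hne : P ≠ Q) :
    (Q : Subgroup S).relIndex (P : Subgroup S) = p := by
  obtain ⟨k, hk⟩ := IsPGroup.index P.2 ((Q : Subgroup S).subgroupOf (P : Subgroup S))
  have hk' : (Q : Subgroup S).relIndex (P : Subgroup S) = p ^ k := hk
  have hle : (Q : Subgroup S).relIndex (P : Subgroup S) ≤ Nat.card (Sylow p S) := by
    rw [← card_orbit]
    exact Finite.card_subtype_le _
  have hp := (Fact.out : p.Prime)
  rcases k with _ | _ | k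
  · exfalso; apply hne; apply sylow_eq_of_le
    exact Subgroup.relIndex_eq_one.1 (by simpa using hk')
  · simpa using hk'
  · exfalso
    have : p ^ 2 ≤ p ^ (k + 1 + 1) := Nat.pow_le_pow_right hp.pos (by omega)
    omega

theorem relIndex_mul_card_inf (H K : Subgroup S) :
    K.relIndex H * Nat.card (H ⊓ K : Subgroup S) = Nat.card H := by
  have h1 := Subgroup.index_mul_card (K.subgroupOf H)
  have h2 : Nat.card (K.subgroupOf H) = Nat.card (H ⊓ K : Subgroup S) := by
    rw [← Subgroup.inf_subgroupOf_left K H]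
    exact Nat.card_congr (Subgroup.subgroupOfEquivOfLe inf_le_left).toEquiv
  rw [h2] at h1
  exact h1

theorem conj_mem_inf (hn : Nat.card (Sylow p S) < p ^ 2) (P Q : Sylow p S) (hne : P ≠ Q)
    (a x : S) (ha : a ∈ (P : Subgroup S)) (hx : x ∈ (P : Subgroup S))
    (hxQ : x ∈ (Q : Subgroup S)) : a * x * a⁻¹ ∈ (Q : Subgroup S) := by
  have hp := (Fact.out : p.Prime)
  have hidx : ((Q : Subgroup S).subgroupOf (P : Subgroup S)).index = p := relIndex_eq_p hn P Q hne
  have hnorm : ((Q : Subgroup S).subgroupOf (P : Subgroup S)).Normal := by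
    apply Subgroup.normal_of_index_eq_minFac_card
    rw [hidx]
    obtain ⟨m, hm⟩ := IsPGroup.iff_card.1 P.2
    rw [hm]
    have hm0 : m ≠ 0 := by
      rintro rfl
      have h1 : ((Q : Subgroup S).subgroupOf (P : Subgroup S)).index ∣ Nat.card (P : Subgroup S) :=
        Subgroup.index_dvd_card _
      rw [hidx, hm, pow_zero] at h1
      exact hp.one_lt.ne' (Nat.dvd_one.1 h1)
    rw [Nat.pow_minFac hm0, hp.minFac_eq]
  have := hnorm.conj_mem ⟨x, hx⟩ (Subgroup.mem_subgroupOf.2 hxQ) ⟨a, ha⟩
  exact Subgroup.mem_subgroupOf.1 this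

theorem not_isPGroup [IsSimpleGroup S] (hS : ¬ IsMulCommutative S) : ¬ IsPGroup p S := by
  intro h
  have hnt : Nontrivial (Subgroup.center S) := h.center_nontrivial
  have hne : Subgroup.center S ≠ ⊥ := by
    intro hb
    rw [Subgroup.nontrivial_iff_ne_bot] at hnt
    exact hnt hb
  rcases (inferInstance : (Subgroup.center S).Normal).eq_bot_or_eq_top with h' | h'
  · exact hne h'
  · apply hS
    refine ⟨⟨fun a b => ?_⟩⟩
    have ha : a ∈ Subgroup.center S := by rw [h']; trivial
    exact (Subgroup.mem_center_iff.1 ha b).symm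

theorem sylow_ne_top [IsSimpleGroup S] (hS : ¬ IsMulCommutative S) (P : Sylow p S) :
    (P : Subgroup S) ≠ ⊤ := by
  intro h
  apply not_isPGroup (p := p) hS
  have := P.2
  rw [h] at this
  exact this.of_equiv Subgroup.topEquiv

theorem exists_not_le [IsSimpleGroup S] (hS : ¬ IsMulCommutative S) (D : Subgroup S)
    (hD : D ≠ ⊥) : ∃ R : Sylow p S, ¬ D ≤ R := by
  by_contra hcon
  push Not at hcon
  have hN : (⨅ R : Sylow p S, (R : Subgroup S)).Normal := by
    constructor
    intro x hx g
    rw [Subgroup.mem_iInf] at hx ⊢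
    intro R
    have := hx (g⁻¹ • R)
    rw [mem_smul_iff] at this
    simpa using this
  obtain ⟨P⟩ := (Sylow.nonempty : Nonempty (Sylow p S))
  rcases hN.eq_bot_or_eq_top with h | h
  · apply hD
    rw [eq_bot_iff, ← h]
    exact le_iInf hcon
  · apply sylow_ne_top hS P
    rw [eq_top_iff, ← h]
    exact iInf_le _ P

/-- Let S be a finite non-abelian simple group and p a prime dividing its order. If S has fewer than p² Sylow p-subgroups, then its Sylow p-subgroups have order p. -/
theorem result {S : Type*} [Group S] [Finite S]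
    [IsSimpleGroup S] (hS : ¬ IsMulCommutative S) (p : ℕ) [Fact p.Prime] (hp : p ∣ Nat.card S)
    (hn : Nat.card (Sylow p S) < p ^ 2) (P : Sylow p S) : Nat.card P = p := by
  classical
  have hpp := (Fact.out : p.Prime)
  by_contra hcard
  obtain ⟨m, hm⟩ := IsPGroup.iff_card.1 P.2
  have hm2 : 2 ≤ m := by
    rcases m with _ | _ | m
    · exfalso
      exact P.ne_bot_of_dvd_card hp (Subgroup.eq_bot_of_card_eq _ (by simpa using hm))
    · exfalso; exact hcard (by simpa using hm)
    · omega
  -- another Sylow subgroup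
  obtain ⟨Q, hQ⟩ : ∃ Q : Sylow p S, P ≠ Q := by
    by_contra hall
    push Not at hall
    have : Subsingleton (Sylow p S) := ⟨fun a b => (hall a).symm.trans (hall b)⟩
    have hnorm : (P : Subgroup S).Normal := P.normal_of_subsingleton
    rcases hnorm.eq_bot_or_eq_top with h | h
    · exact P.ne_bot_of_dvd_card hp h
    · exact sylow_ne_top hS P h
  have hcardSyl : ∀ X : Sylow p S, Nat.card (X : Subgroup S) = p ^ m := by
    intro X
    rw [Sylow.card_eq_multiplicity, ← hm, Sylow.card_eq_multiplicity]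
  have hcardInf : ∀ X Y : Sylow p S, X ≠ Y →
      Nat.card ((X : Subgroup S) ⊓ (Y : Subgroup S) : Subgroup S) = p ^ (m - 1) := by
    intro X Y hXY
    have h1 := relIndex_mul_card_inf (X : Subgroup S) (Y : Subgroup S)
    rw [relIndex_eq_p hn X Y hXY, hcardSyl X] at h1
    have h2 : p ^ m = p * p ^ (m - 1) := by
      rw [← pow_succ']; congr 1; omega
    rw [h2] at h1
    exact Nat.eq_of_mul_eq_mul_left hpp.pos h1
  set D : Subgroup S := (P : Subgroup S) ⊓ (Q : Subgroup S) with hD
  have hDcard : Nat.card D = p ^ (m - 1) := hcardInf P Q hQ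
  have hDne : D ≠ ⊥ := by
    intro h
    rw [h, Subgroup.card_bot] at hDcard
    have : 1 < p ^ (m - 1) := Nat.one_lt_pow (by omega) hpp.one_lt
    omega
  obtain ⟨R, hR⟩ := exists_not_le (p := p) hS D hDne
  -- members of the orbit of Q under P contain D
  have hT1 : ∀ X ∈ MulAction.orbit (↥(P : Subgroup S)) Q, D ≤ (X : Subgroup S) := by
    rintro X ⟨a, rfl⟩ x hx
    show x ∈ (((a : S) • Q : Sylow p S) : Subgroup S)
    rw [mem_smul_iff]
    have := conj_mem_inf hn P Q hQ (a : S)⁻¹ x (inv_mem a.2) hx.1 hx.2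
    simpa using this
  have hT2 : ∀ X ∈ MulAction.orbit (↥(P : Subgroup S)) Q, R ≠ X := by
    intro X hX h
    exact hR (h ▸ hT1 X hX)
  have hT3 : ∀ X ∈ MulAction.orbit (↥(P : Subgroup S)) Q,
      ∀ Y ∈ MulAction.orbit (↥(P : Subgroup S)) Q, X ≠ Y →
        (X : Subgroup S) ⊓ (Y : Subgroup S) = D := by
    intro X hX Y hY hXY
    symm
    apply Subgroup.eq_of_le_of_card_ge (le_inf (hT1 X hX) (hT1 Y hY))
    rw [hcardInf X Y hXY, hDcard]
  -- the orbits under R of distinct members are disjoint
  have hdisj : ∀ X ∈ MulAction.orbit (↥(P : Subgroup S)) Q,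
      ∀ Y ∈ MulAction.orbit (↥(P : Subgroup S)) Q, X ≠ Y →
        Disjoint (MulAction.orbit (↥(R : Subgroup S)) X) (MulAction.orbit (↥(R : Subgroup S)) Y) := by
    intro X hX Y hY hXY
    rw [Set.disjoint_left]
    intro Z hZX hZY
    have horb : MulAction.orbit (↥(R : Subgroup S)) X = MulAction.orbit (↥(R : Subgroup S)) Y := by
      rw [← MulAction.orbit_eq_iff.2 hZX, ← MulAction.orbit_eq_iff.2 hZY]
    have hY' : Y ∈ MulAction.orbit (↥(R : Subgroup S)) X := by
      rw [horb]; exact MulAction.mem_orbit_self Y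
    obtain ⟨r, rfl⟩ := hY'
    apply hR
    have hF : (R : Subgroup S) ⊓ (X : Subgroup S) ≤ D := by
      rw [← hT3 X hX _ hY hXY]
      intro f hf
      refine ⟨hf.2, ?_⟩
      show f ∈ (((r : S) • X : Sylow p S) : Subgroup S)
      rw [mem_smul_iff]
      have := conj_mem_inf hn R X (hT2 X hX) (r : S)⁻¹ f (inv_mem r.2) hf.1 hf.2
      simpa using this
    have hFD : (R : Subgroup S) ⊓ (X : Subgroup S) = D := by
      apply Subgroup.eq_of_le_of_card_ge hF
      rw [hcardInf R X (hT2 X hX), hDcard]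
    rw [← hFD]
    exact inf_le_left
  -- counting
  have hTcard : Nat.card (MulAction.orbit (↥(P : Subgroup S)) Q) = p := by
    rw [card_orbit, relIndex_eq_p hn P Q hQ]
  have hOcard : ∀ X ∈ MulAction.orbit (↥(P : Subgroup S)) Q,
      Nat.card (MulAction.orbit (↥(R : Subgroup S)) X) = p := by
    intro X hX
    rw [card_orbit, relIndex_eq_p hn R X (hT2 X hX)]
  let _ : Fintype (Sylow p S) := Fintype.ofFinite _
  let T : Finset (Sylow p S) := (Set.toFinite (MulAction.orbit (↥(P : Subgroup S)) Q)).toFinset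
  let O : Sylow p S → Finset (Sylow p S) := fun X =>
    (Set.toFinite (MulAction.orbit (↥(R : Subgroup S)) X)).toFinset
  have hTc : T.card = p := by
    have h : Nat.card (MulAction.orbit (↥(P : Subgroup S)) Q) = T.card := by
      rw [Nat.card_coe_set_eq, Set.ncard_eq_toFinset_card _ (Set.toFinite _)]
    rw [← h, hTcard]
  have hOc : ∀ X ∈ T, (O X).card = p := by
    intro X hX
    have hX' : X ∈ MulAction.orbit (↥(P : Subgroup S)) Q := by simpa [T] using hX
    have h : Nat.card (MulAction.orbit (↥(R : Subgroup S)) X) = (O X).card := by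
      rw [Nat.card_coe_set_eq, Set.ncard_eq_toFinset_card _ (Set.toFinite _)]
    rw [← h, hOcard X hX']
  have hpd : (T : Set (Sylow p S)).PairwiseDisjoint O := by
    intro X hX Y hY hXY
    have hX' : X ∈ MulAction.orbit (↥(P : Subgroup S)) Q := by simpa [T] using hX
    have hY' : Y ∈ MulAction.orbit (↥(P : Subgroup S)) Q := by simpa [T] using hY
    have := hdisj X hX' Y hY' hXY
    simp only [Function.onFun, O]
    rw [Finset.disjoint_left]
    intro Z hZ1 hZ2
    rw [Set.Finite.mem_toFinset] at hZ1 hZ2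
    exact (Set.disjoint_left.1 this) hZ1 hZ2
  have hcount : (T.biUnion O).card = p * p := by
    rw [Finset.card_biUnion hpd, Finset.sum_const_nat hOc, hTc]
  have hle : (T.biUnion O).card ≤ Nat.card (Sylow p S) := by
    rw [Nat.card_eq_fintype_card]
    exact Finset.card_le_univ _
  rw [hcount] at hle
  nlinarith

end Cfsg.Agent.S4343
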