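import Cfsg.Statements.S4344

set_option autoImplicit false
open Cfsg

namespace Cfsg.Agent.S4344

/-- Let S be a finite non-abelian simple group, M a maximal subgroup of S and C a cyclic normal subgroup of M. If a Sylow p-subgroup P of S (for a prime p dividing the order of S) is contained in C, then the number of Sylow p-subgroups of S equals the index of M. -/
theorem result {S : Type*} [Group S] [Finite S]
    [IsSimpleGroup S] (hS : ¬ IsMulCommutative S) (p : ℕ) [Fact p.Prime] (hp : p ∣ Nat.card S)
    (M : Subgroup S) (hM : IsCoatom M) (C : Subgroup S) (hCM : C ≤ M) (hCn : (C.subgroupOf M).Normal)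
    (hC : IsCyclic C) (P : Sylow p S) (hP : (P : Subgroup S) ≤ C) :
    Nat.card (Sylow p S) = M.index := by
  rw [Sylow.card_eq_index_normalizer P]
  have hCcomm : ∀ a ∈ C, ∀ b ∈ C, a * b = b * a := by
    intro a ha b hb
    obtain ⟨⟨g, hg⟩, hgen⟩ := hC.exists_generator
    have h1 := hgen ⟨a, ha⟩
    have h2 := hgen ⟨b, hb⟩
    rw [Subgroup.mem_zpowers_iff] at h1 h2
    obtain ⟨i, hi⟩ := h1
    obtain ⟨j, hj⟩ := h2
    have hi' : g ^ i = a := by simpa using congrArg Subtype.val hi
    have hj' : g ^ j = b := by simpa using congrArg Subtype.val hj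
    rw [← hi', ← hj', ← zpow_add, ← zpow_add, add_comm]
  have hMC : M ≤ Subgroup.normalizer (C : Set S) :=
    (Subgroup.normal_subgroupOf_iff_le_normalizer hCM).mp hCn
  have hCP : C ≤ Subgroup.normalizer ((P : Subgroup S) : Set S) := by
    rw [Subgroup.le_normalizer_iff]
    intro c hc k hk
    have : c * k * c⁻¹ = k := by
      rw [hCcomm c hc k (hP hk)]; group
    rw [this]; exact hk
  have hMP : M ≤ Subgroup.normalizer ((P : Subgroup S) : Set S) := by
    rw [Subgroup.le_normalizer_iff]
    intro m hm k hk
    set R : Subgroup S := (P : Subgroup S).map (MulAut.conj m).toMonoidHom with hR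
    have hRp : IsPGroup p R := P.isPGroup'.map _
    have hRC : R ≤ C := by
      rintro _ ⟨y, hy, rfl⟩
      have := (Subgroup.le_normalizer_iff.mp hMC) m hm y (hP hy)
      simpa using this
    have hRN : R ≤ Subgroup.normalizer ((P : Subgroup S) : Set S) := hRC.trans hCP
    have hRP : R ≤ P := by
      have h1 := hRp.inf_normalizer_sylow P
      have h2 : R ⊓ Subgroup.normalizer ((P : Subgroup S) : Set S) = R := inf_eq_left.mpr hRN
      have h3 : R ⊓ (P : Subgroup S) = R := by rw [← h1]; exact h2
      exact inf_eq_left.mp h3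
    apply hRP
    exact ⟨k, hk, by simp⟩
  have hne : Subgroup.normalizer ((P : Subgroup S) : Set S) ≠ ⊤ := by
    intro htop
    have hPn : (P : Subgroup S).Normal := Subgroup.normalizer_eq_top_iff.mp htop
    rcases hPn.eq_bot_or_eq_top with h | h
    · exact P.ne_bot_of_dvd_card hp h
    · apply hS
      rw [isMulCommutative_iff]
      intro a b
      have ha : a ∈ C := hP (h ▸ Subgroup.mem_top a)
      have hb : b ∈ C := hP (h ▸ Subgroup.mem_top b)
      exact hCcomm a ha b hb
  rcases hM.le_iff.mp hMP with h | h
  · exact absurd h hne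
  · have : Subgroup.normalizer ((P : Subgroup S) : Set S) = M := h
    exact congrArg Subgroup.index this

end Cfsg.Agent.S4344
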