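import Cfsg.Statements.S4345
import Cfsg.Agent.Lib.Helper64.Index
import Cfsg.Agent.Lib.Helper9.CS2

set_option autoImplicit false
open Cfsg

namespace Cfsg.Agent.S4345

open Cfsg.Agent.Lib.Helper64.Index

/-- `n_p(G) = m * n_p(G/K)` with `m ≡ 1 [MOD p]` and `m ∣ |K|`. -/
theorem card_sylow_eq_mul {G : Type*} [Group G] [Finite G] (p : ℕ) [Fact p.Prime]
    (K : Subgroup G) [K.Normal] :
    ∃ m, m ∣ Nat.card K ∧ m ≡ 1 [MOD p] ∧
      Nat.card (Sylow p G) = m * Nat.card (Sylow p (G ⧸ K)) := by
  obtain ⟨P⟩ : Nonempty (Sylow p G) := inferInstance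
  refine ⟨(Subgroup.normalizer ((P : Subgroup G) : Set G)).relIndex
      (K ⊔ Subgroup.normalizer ((P : Subgroup G) : Set G)), ?_, ?_, ?_⟩
  · rw [relIndex_sup_of_normal (Subgroup.normalizer ((P : Subgroup G) : Set G)) K]
    exact Subgroup.relIndex_dvd_card _ _
  · have hPL : (P : Subgroup G) ≤ K ⊔ Subgroup.normalizer ((P : Subgroup G) : Set G) :=
      Subgroup.le_normalizer.trans le_sup_right
    have h1 := (P.subtype hPL).card_eq_index_normalizer
    have h3 : Nat.card (Sylow p ↥(K ⊔ Subgroup.normalizer ((P : Subgroup G) : Set G)))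
        = (Subgroup.normalizer ((P : Subgroup G) : Set G)).relIndex
          (K ⊔ Subgroup.normalizer ((P : Subgroup G) : Set G)) := by
      rw [h1]
      have h2 := Subgroup.subgroupOf_normalizer_eq hPL
      show _ = ((Subgroup.normalizer ((P : Subgroup G) : Set G)).subgroupOf _).index
      rw [h2]
      rfl
    rw [← h3]
    exact card_sylow_modEq_one p _
  · rw [card_sylow_quotient P K, P.card_eq_index_normalizer]
    exact (Subgroup.relIndex_mul_index le_sup_right).symm

theorem aux (p ℓ : ℕ) [Fact p.Prime] (hℓ : ℓ.Prime) :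
    ∀ (n : ℕ) (G : Type*) [Group G] [Finite G], Group.IsSolvable G → Nat.card G ≤ n →
      ℓ ^ (Nat.card (Sylow p G)).factorization ℓ ≡ 1 [MOD p] := by
  intro n
  induction n with
  | zero =>
    intro G _ _ _ hn
    have : 0 < Nat.card G := Nat.card_pos
    omega
  | succ n ih =>
    intro G _ _ hG hn
    by_cases hnt : Nontrivial G
    · have htop : (⊤ : Subgroup G) ≠ ⊥ := by
        have := Subgroup.nontrivial_iff.2 hnt
        exact top_ne_bot
      obtain ⟨r, K, hr, -, hKn, hKne, hKp, -⟩ :=
        Cfsg.Agent.Lib.Helper9.CS2.exists_abelian_normal_pgroup_le (⊤ : Subgroup G) htop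
      have := hKn
      have : Fact r.Prime := ⟨hr⟩
      obtain ⟨m, hm1, hm2, hm3⟩ := card_sylow_eq_mul p K
      obtain ⟨a, ha⟩ := (IsPGroup.iff_card).1 hKp
      rw [ha] at hm1
      obtain ⟨c, -, rfl⟩ := (Nat.dvd_prime_pow hr).1 hm1
      have hcard : Nat.card G = Nat.card K * Nat.card (G ⧸ K) := by
        rw [← Subgroup.index_eq_card, Subgroup.card_mul_index]
      have hK1 : 1 < Nat.card K := by
        rw [Subgroup.one_lt_card_iff_ne_bot]; exact hKne
      have hQpos : 0 < Nat.card (G ⧸ K) := Nat.card_pos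
      have hlt : Nat.card (G ⧸ K) ≤ n := by
        have : Nat.card (G ⧸ K) < Nat.card G := by
          rw [hcard]; nlinarith
        omega
      have hIH := ih (G ⧸ K) inferInstance hlt
      have hne1 : r ^ c ≠ 0 := pow_ne_zero _ hr.ne_zero
      have hne2 : Nat.card (Sylow p (G ⧸ K)) ≠ 0 := Nat.card_pos.ne'
      rw [hm3, Nat.factorization_mul hne1 hne2, Finsupp.add_apply, pow_add,
        Nat.Prime.factorization_pow hr, Finsupp.single_apply]
      have h1 : ℓ ^ (if r = ℓ then c else 0) ≡ 1 [MOD p] := by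
        split_ifs with h
        · subst h; exact hm2
        · simp [Nat.ModEq]
      simpa using h1.mul hIH
    · rw [not_nontrivial_iff_subsingleton] at hnt
      have h1 : Nat.card (Sylow p G) = 1 := by
        obtain ⟨P⟩ : Nonempty (Sylow p G) := inferInstance
        rw [P.card_eq_index_normalizer]
        have := Subgroup.index_dvd_card (Subgroup.normalizer ((P : Subgroup G) : Set G))
        rw [Nat.card_unique] at this
        exact Nat.dvd_one.1 this
      rw [h1]
      simp [Nat.ModEq]

/-- Let G be a finite solvable group and p, ℓ primes. Then the largest power of ℓ dividing the number of Sylow p-subgroups of G is congruent to 1 modulo p. -/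
theorem result {G : Type*} [Group G] [Finite G]
    (hG : Group.IsSolvable G) (p ℓ : ℕ) [Fact p.Prime] (hℓ : ℓ.Prime) :
    ℓ ^ (Nat.card (Sylow p G)).factorization ℓ ≡ 1 [MOD p] :=
  aux p ℓ hℓ (Nat.card G) G hG le_rfl

end Cfsg.Agent.S4345
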