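import Cfsg.Statements.S4346
import Cfsg.Agent.S4303
import Cfsg.Agent.Lib.Helper72.N3f

set_option autoImplicit false
open Cfsg

namespace Cfsg.Agent.S4346

/-- No finite group has exactly 22 Sylow 3-subgroups. -/
theorem result {G : Type*} [Group G] [Finite G] : Nat.card (Sylow 3 G) ≠ 22 := by
  intro h22
  obtain ⟨l, hl, hl'⟩ := Cfsg.Agent.S4303.result (G := G) 3
  rw [h22] at hl
  have hall : ∀ m ∈ l, m = 1 := by
    intro m hm
    have hdvd : m ∣ 22 := hl ▸ List.dvd_prod hm
    have hle : m ≤ 22 := Nat.le_of_dvd (by norm_num) hdvd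
    rcases hl' m hm with ⟨hpp, hmod⟩ | ⟨S, hS1, hS2, hS3, hmS⟩
    · have h122 : m = 1 ∨ m = 22 := by
        interval_cases m <;> omega
      rcases h122 with h | h
      · exact h
      · exfalso
        rw [h, isPrimePow_iff_unique_prime_dvd] at hpp
        obtain ⟨p, _, hp⟩ := hpp
        have h2 := hp 2 ⟨Nat.prime_two, by norm_num⟩
        have h11 := hp 11 ⟨by norm_num, by norm_num⟩
        omega
    · have hmod : m % 3 = 1 := by
        rw [hmS]
        exact card_sylow_modEq_one 3 S
      have h122 : m = 1 ∨ m = 22 := by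
        interval_cases m <;> omega
      rcases h122 with h | h
      · exact h
      · exfalso
        rw [h] at hmS
        exact Cfsg.Agent.Lib.Helper72.N3.simple_card_sylow_three_ne (G := S) hmS.symm
  rw [List.prod_eq_one hall] at hl
  omega

end Cfsg.Agent.S4346
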