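import Cfsg.Statements.S4365

set_option autoImplicit false
open Cfsg

namespace Cfsg.Agent.S4365

/-- Let P be a finite p-group whose conjugacy class sizes are exactly 1 and pᵃ for some a ≥ 1. Then every element of P has its p-th power in the center of P (P/Z(P) has exponent p). -/
theorem result {P : Type*} [Group P] [Finite P] (p : ℕ) [Fact p.Prime]
    (hP : IsPGroup p P) (a : ℕ) (ha : 1 ≤ a)
    (hcs : {k : ℕ | ∃ x : P, (Subgroup.centralizer ({x} : Set P)).index = k} = {1, p ^ a}) (x : P) :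
    x ^ p ∈ Subgroup.center P := by
  classical
  have hp : p.Prime := Fact.out
  set Z := Subgroup.center P with hZ
  have hZc : ∀ z ∈ Z, ∀ g : P, g * z = z * g := fun z hz g => Subgroup.mem_center_iff.mp hz g
  have hidx : ∀ y : P, (Subgroup.centralizer ({y} : Set P)).index = 1 ∨
      (Subgroup.centralizer ({y} : Set P)).index = p ^ a := by
    intro y
    have : (Subgroup.centralizer ({y} : Set P)).index ∈ ({1, p ^ a} : Set ℕ) := by
      rw [← hcs]; exact ⟨y, rfl⟩
    simpa using this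
  have hcomm : ∀ {y h : P}, h ∈ Subgroup.centralizer ({y} : Set P) ↔ y * h = h * y := by
    intro y h; simp [Subgroup.mem_centralizer_iff]
  have hidx1 : ∀ y : P, (Subgroup.centralizer ({y} : Set P)).index = 1 ↔ y ∈ Z := by
    intro y
    rw [Subgroup.index_eq_one, Subgroup.eq_top_iff', hZ, Subgroup.mem_center_iff]
    constructor
    · intro h g; exact (hcomm.mp (h g)).symm
    · intro h g; exact hcomm.mpr (h g).symm
  have hpa : 1 < p ^ a := Nat.one_lt_pow (by omega) hp.one_lt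
  have hidxn : ∀ y : P, y ∉ Z → (Subgroup.centralizer ({y} : Set P)).index = p ^ a := by
    intro y hy
    rcases hidx y with h | h
    · exact absurd ((hidx1 y).mp h) hy
    · exact h
  have hF3 : ∀ y y' : P, y ∉ Z → y' ∉ Z →
      Subgroup.centralizer ({y} : Set P) ≤ Subgroup.centralizer ({y'} : Set P) →
      Subgroup.centralizer ({y} : Set P) = Subgroup.centralizer ({y'} : Set P) := by
    intro y y' hy hy' hle
    apply Subgroup.eq_of_le_of_card_ge hle
    have h1 := Subgroup.card_mul_index (Subgroup.centralizer ({y} : Set P))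
    have h2 := Subgroup.card_mul_index (Subgroup.centralizer ({y'} : Set P))
    rw [hidxn y hy] at h1
    rw [hidxn y' hy'] at h2
    have h3 : Nat.card (Subgroup.centralizer ({y'} : Set P)) * p ^ a =
        Nat.card (Subgroup.centralizer ({y} : Set P)) * p ^ a := by rw [h1, h2]
    exact (Nat.eq_of_mul_eq_mul_right (by omega) h3).le
  have hpow : ∀ (y : P) (k : ℕ), Subgroup.centralizer ({y} : Set P) ≤
      Subgroup.centralizer ({y ^ k} : Set P) := by
    intro y k h hh
    rw [hcomm] at hh ⊢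
    exact (Commute.pow_left hh k)
  by_contra hx
  have hxZ : x ∉ Z := fun h => hx (Subgroup.pow_mem _ h p)
  have hZtop : Z ≠ ⊤ := by
    intro h; exact hxZ (h ▸ Subgroup.mem_top x)
  -- Step 1: an element t of the second centre
  have : Nontrivial (P ⧸ Z) := by
    rw [← Finite.one_lt_card_iff_nontrivial, ← Subgroup.index_eq_card]
    have h1 : Z.index ≠ 1 := fun h => hZtop (Subgroup.index_eq_one.mp h)
    have h0 : Z.index ≠ 0 := Subgroup.index_ne_zero_of_finite
    omega
  have hPQ : IsPGroup p (P ⧸ Z) := hP.to_quotient Z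
  obtain ⟨tb, htb1, htb2⟩ : ∃ tb : P ⧸ Z, tb ∈ Subgroup.center (P ⧸ Z) ∧ tb ≠ 1 := by
    have := hPQ.center_nontrivial
    obtain ⟨⟨tb, htb⟩, hne⟩ := exists_ne (1 : Subgroup.center (P ⧸ Z))
    exact ⟨tb, htb, fun h => hne (Subtype.ext h)⟩
  obtain ⟨t, rfl⟩ := QuotientGroup.mk_surjective tb
  have htZ : t ∉ Z := fun h => htb2 ((QuotientGroup.eq_one_iff t).mpr h)
  have hφZ : ∀ h : P, t⁻¹ * h⁻¹ * t * h ∈ Z := by
    intro h
    rw [Subgroup.mem_center_iff] at htb1
    have h1 := htb1 (QuotientGroup.mk h)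
    rw [← QuotientGroup.mk_mul, ← QuotientGroup.mk_mul, QuotientGroup.eq] at h1
    have h2 : t⁻¹ * h⁻¹ * t * h = (h * t)⁻¹ * (t * h) := by group
    rw [h2]; exact h1
  -- the homomorphism φ
  let φ : P →* Z := MonoidHom.mk' (fun h => ⟨t⁻¹ * h⁻¹ * t * h, hφZ h⟩) (by
    intro h1 h2
    apply Subtype.ext
    simp only [Subgroup.coe_mul]
    have hc := hZc _ (hφZ h1) h2
    calc t⁻¹ * (h1 * h2)⁻¹ * t * (h1 * h2)
        = t⁻¹ * h2⁻¹ * t * (t⁻¹ * h1⁻¹ * t * h1) * h2 := by group
      _ = t⁻¹ * h2⁻¹ * t * (h2 * (t⁻¹ * h1⁻¹ * t * h1)) := by rw [mul_assoc _ _ h2, ← hc]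
      _ = (t⁻¹ * h2⁻¹ * t * h2) * (t⁻¹ * h1⁻¹ * t * h1) := by group
      _ = (t⁻¹ * h1⁻¹ * t * h1) * (t⁻¹ * h2⁻¹ * t * h2) := hZc _ (hφZ h1) _)
  have hφ : ∀ h : P, ((φ h : Z) : P) = t⁻¹ * h⁻¹ * t * h := fun h => rfl
  have hφ1 : ∀ h : P, φ h = 1 ↔ t * h = h * t := by
    intro h
    rw [Subtype.ext_iff, hφ]
    constructor
    · intro h1
      have : t * h = h * t * (t⁻¹ * h⁻¹ * t * h) := by group
      rw [this, h1]; simp
    · intro h1
      have : t⁻¹ * h⁻¹ * t * h = t⁻¹ * h⁻¹ * (t * h) := by group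
      rw [this, h1]; simp
  -- conjugating powers of t
  have hconj : ∀ (h : P) (k : ℕ), h⁻¹ * t ^ k * h = t ^ k * ((φ h : Z) : P) ^ k := by
    intro h k
    have h1 : h⁻¹ * t ^ k * h = (h⁻¹ * t * h) ^ k := by
      have := conj_pow (a := h⁻¹) (b := t) (i := k)
      rw [inv_inv] at this
      exact this.symm
    have h2 : h⁻¹ * t * h = t * ((φ h : Z) : P) := by rw [hφ]; group
    have h3 : Commute t ((φ h : Z) : P) := (hZc _ (φ h).2 t)
    rw [h1, h2, h3.mul_pow]
  -- Step 1: t ^ p is central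
  have htp : t ^ p ∈ Z := by
    by_contra htp
    have hCt := hF3 t (t ^ p) htZ htp (hpow t p)
    obtain ⟨h0, hh0⟩ : ∃ h0 : P, φ h0 ≠ 1 := by
      by_contra hcon
      push Not at hcon
      apply htZ
      rw [hZ, Subgroup.mem_center_iff]
      intro g
      exact ((hφ1 g).mp (hcon g)).symm
    obtain ⟨k, hk⟩ := (IsPGroup.iff_orderOf.mp hP) ((φ h0 : Z) : P)
    have hk0 : k ≠ 0 := by
      rintro rfl
      rw [pow_zero, orderOf_eq_one_iff] at hk
      exact hh0 (Subtype.ext hk)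
    obtain ⟨k', rfl⟩ := Nat.exists_eq_succ_of_ne_zero hk0
    set h := h0 ^ (p ^ k') with hh
    have hφh : ((φ h : Z) : P) = ((φ h0 : Z) : P) ^ (p ^ k') := by
      rw [hh, map_pow]; rfl
    have hφhp : ((φ h : Z) : P) ^ p = 1 := by
      rw [hφh, ← pow_mul, ← pow_succ, ← hk, pow_orderOf_eq_one]
    have hφhne : φ h ≠ 1 := by
      intro h1
      have h2 : ((φ h0 : Z) : P) ^ (p ^ k') = 1 := by rw [← hφh, h1]; rfl
      have h3 := orderOf_dvd_of_pow_eq_one h2
      rw [hk] at h3
      have h4 := Nat.le_of_dvd (pow_pos hp.pos _) h3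
      have h5 : p ^ k' < p ^ (k'.succ) := Nat.pow_lt_pow_right hp.one_lt (Nat.lt_succ_self _)
      omega
    have h6 : h ∈ Subgroup.centralizer ({t ^ p} : Set P) := by
      rw [hcomm]
      have := hconj h p
      rw [hφhp, mul_one] at this
      calc t ^ p * h = h * (h⁻¹ * t ^ p * h) := by group
        _ = h * t ^ p := by rw [this]
    rw [← hCt, hcomm] at h6
    exact hφhne ((hφ1 h).mpr h6)
  -- Step 2: elements outside C(t) have central p-th power
  have hA : ∀ h : P, t * h ≠ h * t → h ^ p ∈ Z := by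
    intro h hne
    by_contra hhp
    have hhZ : h ∉ Z := fun hh => hhp (Subgroup.pow_mem _ hh p)
    have h1 := hconj h p
    have h2 : h⁻¹ * t ^ p * h = t ^ p := by
      rw [mul_assoc, ← hZc _ htp h]; group
    rw [h2] at h1
    have h3 : ((φ h : Z) : P) ^ p = 1 := by
      have : t ^ p * 1 = t ^ p * ((φ h : Z) : P) ^ p := by rw [mul_one]; exact h1
      exact (mul_left_cancel this).symm
    have h4 : φ (h ^ p) = 1 := by
      rw [map_pow]; exact Subtype.ext h3
    have h5 := (hφ1 (h ^ p)).mp h4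
    have h6 : t ∈ Subgroup.centralizer ({h ^ p} : Set P) := hcomm.mpr h5.symm
    rw [← hF3 h (h ^ p) hhZ hhp (hpow h p), hcomm] at h6
    exact hne h6.symm
  -- Step 3: C(g) = C(t) whenever g ^ p is not central
  have hB : ∀ g : P, g ^ p ∉ Z →
      Subgroup.centralizer ({g} : Set P) = Subgroup.centralizer ({t} : Set P) := by
    intro g hg
    have hgZ : g ∉ Z := fun hh => hg (Subgroup.pow_mem _ hh p)
    have hgt : t * g = g * t := by
      by_contra hne
      exact hg (hA g hne)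
    have hgt' : Commute g t := hgt.symm
    have h1 : (g * t) ^ p = g ^ p * t ^ p := hgt'.mul_pow p
    have h2 : (g * t) ^ p ∉ Z := by
      intro hh
      apply hg
      have : g ^ p = (g * t) ^ p * (t ^ p)⁻¹ := by rw [h1]; group
      rw [this]
      exact Z.mul_mem hh (Z.inv_mem htp)
    have h3 : g * t ∉ Z := fun hh => h2 (Subgroup.pow_mem _ hh p)
    have h4 := hF3 (g * t) ((g * t) ^ p) h3 h2 (hpow _ p)
    have h5 := hF3 g (g ^ p) hgZ hg (hpow g p)
    apply hF3 g t hgZ htZ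
    intro h hh
    have hgh : g * h = h * g := hcomm.mp hh
    rw [h5, hcomm] at hh
    have h6 : h ∈ Subgroup.centralizer ({(g * t) ^ p} : Set P) := by
      rw [hcomm, h1]
      calc g ^ p * t ^ p * h = g ^ p * (h * t ^ p) := by rw [mul_assoc, hZc _ htp h]
        _ = (g ^ p * h) * t ^ p := by group
        _ = h * g ^ p * t ^ p := by rw [hh]
        _ = h * (g ^ p * t ^ p) := by group
    rw [← h4, hcomm] at h6
    rw [hcomm]
    calc t * h = g⁻¹ * (g * t * h) := by group
      _ = g⁻¹ * (h * (g * t)) := by rw [h6]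
      _ = g⁻¹ * (h * g) * t := by group
      _ = g⁻¹ * (g * h) * t := by rw [hgh]
      _ = h * t := by group
  have hCx := hB x hx
  have hxt : t * x = x * t := by
    have : x ∈ Subgroup.centralizer ({x} : Set P) := hcomm.mpr rfl
    rw [hCx, hcomm] at this
    exact this
  -- members of D = C(t) commute with x
  have hDx : ∀ d : P, t * d = d * t → x * d = d * x := by
    intro d hd
    have : d ∈ Subgroup.centralizer ({x} : Set P) := by rw [hCx]; exact hcomm.mpr hd
    exact hcomm.mp this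
  -- Step 4: D is abelian
  have hDab : ∀ d d' : P, t * d = d * t → t * d' = d' * t → d * d' = d' * d := by
    intro d d' hd hd'
    by_cases hdp : d ^ p ∈ Z
    · have hxd : Commute x d := hDx d hd
      have h1 : (x * d) ^ p = x ^ p * d ^ p := hxd.mul_pow p
      have h2 : (x * d) ^ p ∉ Z := by
        intro hh
        apply hx
        have : x ^ p = (x * d) ^ p * (d ^ p)⁻¹ := by rw [h1]; group
        rw [this]
        exact Z.mul_mem hh (Z.inv_mem hdp)
      have h3 := hB (x * d) h2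
      have h4 : d' ∈ Subgroup.centralizer ({x * d} : Set P) := by rw [h3]; exact hcomm.mpr hd'
      rw [hcomm] at h4
      have h5 := hDx d' hd'
      calc d * d' = x⁻¹ * (x * d * d') := by group
        _ = x⁻¹ * (d' * (x * d)) := by rw [h4]
        _ = x⁻¹ * (d' * x) * d := by group
        _ = x⁻¹ * (x * d') * d := by rw [h5]
        _ = d' * d := by group
    · have h3 := hB d hdp
      have h4 : d' ∈ Subgroup.centralizer ({d} : Set P) := by rw [h3]; exact hcomm.mpr hd'
      exact hcomm.mp h4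
  -- Step 5: centralizers of noncentral elements of D
  have hCd : ∀ d : P, t * d = d * t → d ∉ Z →
      Subgroup.centralizer ({d} : Set P) = Subgroup.centralizer ({t} : Set P) := by
    intro d hd hdZ
    refine (hF3 t d htZ hdZ ?_).symm
    intro h hh
    rw [hcomm] at hh ⊢
    exact hDab d h hd hh
  -- D is normal
  have hDn : ∀ d e : P, t * d = d * t → t * (e * d * e⁻¹) = (e * d * e⁻¹) * t := by
    intro d e hd
    rw [← hφ1] at hd ⊢
    rw [map_mul, map_mul, map_inv, hd]
    simp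
  -- Step 6
  have hC : ∀ e z : P, z ∈ Z → e⁻¹ * x * e = x * z → t * e = e * t := by
    intro e z hz hez
    by_contra hne
    have hep := hA e hne
    have hk : ∀ k : ℕ, (e ^ k)⁻¹ * x * e ^ k = x * z ^ k := by
      intro k
      induction k with
      | zero => simp
      | succ k ih =>
        calc (e ^ (k + 1))⁻¹ * x * e ^ (k + 1) = e⁻¹ * ((e ^ k)⁻¹ * x * e ^ k) * e := by
              rw [pow_succ]; group
          _ = e⁻¹ * (x * z ^ k) * e := by rw [ih]
          _ = (e⁻¹ * x * e) * z ^ k := by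
              rw [mul_assoc e⁻¹ (x * z ^ k) e, mul_assoc x (z ^ k) e,
                ← hZc _ (Z.pow_mem hz k) e]; group
          _ = x * z ^ (k + 1) := by rw [hez, pow_succ']; group
    have h1 := hk p
    have h2 : (e ^ p)⁻¹ * x * e ^ p = x := by
      rw [mul_assoc, hZc _ hep x]; group
    rw [h2] at h1
    have hzp : z ^ p = 1 := by
      have : x * 1 = x * z ^ p := by rw [mul_one]; exact h1
      exact (mul_left_cancel this).symm
    have h3 : e⁻¹ * x ^ p * e = x ^ p := by
      have h4 : e⁻¹ * x ^ p * e = (e⁻¹ * x * e) ^ p := by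
        have := conj_pow (a := e⁻¹) (b := x) (i := p)
        rw [inv_inv] at this
        exact this.symm
      have h5 : Commute x z := (hZc z hz x)
      rw [h4, hez, h5.mul_pow, hzp, mul_one]
    have h6 : e ∈ Subgroup.centralizer ({x ^ p} : Set P) := by
      rw [hcomm]
      calc x ^ p * e = e * (e⁻¹ * x ^ p * e) := by group
        _ = e * x ^ p := by rw [h3]
    rw [← hF3 x (x ^ p) hxZ hx (hpow x p), hCx, hcomm] at h6
    exact hne h6
  -- the subgroup D
  set D : Subgroup P := Subgroup.centralizer ({t} : Set P) with hD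
  have hDmem : ∀ d : P, d ∈ D ↔ t * d = d * t := fun d => hcomm
  have hZD : Z ≤ D := by
    intro z hz
    rw [hDmem]
    exact hZc z hz t
  have hDidx : D.index = p ^ a := hidxn t htZ
  -- the map
  have hFmem : ∀ e : P, x⁻¹ * (e * x * e⁻¹) ∈ D := by
    intro e
    apply D.mul_mem
    · exact D.inv_mem ((hDmem x).mpr hxt)
    · exact (hDmem _).mpr (hDn x e hxt)
  let F : P → D := fun e => ⟨x⁻¹ * (e * x * e⁻¹), hFmem e⟩
  have hFwd : ∀ e e' : P, e⁻¹ * e' ∈ D → F e = F e' := by
    intro e e' hee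
    apply Subtype.ext
    show x⁻¹ * (e * x * e⁻¹) = x⁻¹ * (e' * x * e'⁻¹)
    have h1 := hDx _ ((hDmem _).mp hee)
    have h2 : e' * x * e'⁻¹ = e * ((e⁻¹ * e') * x) * e'⁻¹ := by group
    rw [h2, ← h1]; group
  let f : P ⧸ D → D ⧸ Z.subgroupOf D :=
    Quotient.lift (s := QuotientGroup.leftRel D)
      (fun e => (QuotientGroup.mk (F e) : D ⧸ Z.subgroupOf D)) (by
      intro e e' hee
      have hee' : e⁻¹ * e' ∈ D := QuotientGroup.leftRel_apply.mp hee
      show (QuotientGroup.mk (F e) : D ⧸ Z.subgroupOf D) = QuotientGroup.mk (F e')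
      rw [hFwd e e' hee'])
  have hf : ∀ e : P, f (QuotientGroup.mk e) = QuotientGroup.mk (F e) := fun e => rfl
  have hfinj : Function.Injective f := by
    intro q q' hqq
    obtain ⟨e, rfl⟩ := QuotientGroup.mk_surjective q
    obtain ⟨e', rfl⟩ := QuotientGroup.mk_surjective q'
    rw [hf, hf, QuotientGroup.eq, Subgroup.mem_subgroupOf] at hqq
    have h1 : (((F e)⁻¹ * F e' : D) : P) = e * x⁻¹ * (e⁻¹ * e') * x * e'⁻¹ := by
      show (x⁻¹ * (e * x * e⁻¹))⁻¹ * (x⁻¹ * (e' * x * e'⁻¹)) = _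
      group
    rw [h1] at hqq
    set z := e * x⁻¹ * (e⁻¹ * e') * x * e'⁻¹ with hz
    have h2 : ((e⁻¹ * e')⁻¹)⁻¹ * x * (e⁻¹ * e')⁻¹ = x * z := by
      have ha : e⁻¹ * z * e' = x⁻¹ * (e⁻¹ * e') * x := by rw [hz]; group
      have hb : e⁻¹ * z = z * e⁻¹ := hZc z hqq e⁻¹
      have hc : z * (e⁻¹ * e') = x⁻¹ * (e⁻¹ * e') * x := by
        rw [← ha, hb]; group
      calc ((e⁻¹ * e')⁻¹)⁻¹ * x * (e⁻¹ * e')⁻¹
          = x * (x⁻¹ * (e⁻¹ * e') * x) * (e⁻¹ * e')⁻¹ := by group
        _ = x * (z * (e⁻¹ * e')) * (e⁻¹ * e')⁻¹ := by rw [hc]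
        _ = x * z := by group
    have h4 := hC _ z hqq h2
    rw [QuotientGroup.eq]
    have h5 : (e⁻¹ * e')⁻¹ ∈ D := (hDmem _).mpr h4
    have h6 := D.inv_mem h5
    rw [inv_inv] at h6
    exact h6
  -- cardinalities
  obtain ⟨e0, he0⟩ : ∃ e0 : P, e0 ∉ D := by
    by_contra hcon
    push Not at hcon
    have : D = ⊤ := (Subgroup.eq_top_iff' D).mpr hcon
    rw [← Subgroup.index_eq_one, hDidx] at this
    omega
  have he0Z : e0 ∉ Z := fun h => he0 (hZD h)
  have hinf : Subgroup.centralizer ({e0} : Set P) ⊓ D ≤ Z := by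
    intro d hd
    by_contra hdZ
    have h1 := hCd d ((hDmem d).mp hd.2) hdZ
    have h2 : e0 ∈ Subgroup.centralizer ({d} : Set P) := hcomm.mpr (hcomm.mp hd.1).symm
    rw [h1] at h2
    exact he0 h2
  have hcard1 : Nat.card (D ⧸ Z.subgroupOf D) ≤ p ^ a := by
    have h1 : Nat.card (D ⧸ Z.subgroupOf D) = Z.relIndex D := rfl
    rw [h1]
    have h2 : Z.relIndex D ≤ (Subgroup.centralizer ({e0} : Set P) ⊓ D).relIndex D :=
      Subgroup.relIndex_le_of_le_left hinf Subgroup.index_ne_zero_of_finite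
    rw [Subgroup.inf_relIndex_right] at h2
    have h3 : (Subgroup.centralizer ({e0} : Set P)).relIndex D ≤
        (Subgroup.centralizer ({e0} : Set P)).relIndex ⊤ :=
      Subgroup.relIndex_le_of_le_right le_top Subgroup.index_ne_zero_of_finite
    rw [Subgroup.relIndex_top_right, hidxn e0 he0Z] at h3
    omega
  have hcard2 : Nat.card (P ⧸ D) = p ^ a := by
    rw [← Subgroup.index_eq_card, hDidx]
  have hbij := hfinj.bijective_of_nat_card_le (by rw [hcard2]; exact hcard1)
  -- Step 8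
  have hxD : x ∈ D := (hDmem x).mpr hxt
  obtain ⟨q, hq⟩ := hbij.2 (QuotientGroup.mk (⟨x, hxD⟩ : D))
  obtain ⟨e, rfl⟩ := QuotientGroup.mk_surjective q
  rw [hf, QuotientGroup.eq, Subgroup.mem_subgroupOf] at hq
  have h1 : (((F e)⁻¹ * (⟨x, hxD⟩ : D) : D) : P) = e * x⁻¹ * e⁻¹ * x * x := by
    show (x⁻¹ * (e * x * e⁻¹))⁻¹ * x = _
    group
  rw [h1] at hq
  set z := e * x⁻¹ * e⁻¹ * x * x with hz
  have hzi : z⁻¹ ∈ Z := Z.inv_mem hq
  set w := x * z⁻¹ with hw
  have hew : e * w * e⁻¹ = w ^ 2 := by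
    have h2 : e * x * e⁻¹ = x * x * z⁻¹ := by rw [hz]; group
    have h3 : e * w * e⁻¹ = (e * x * e⁻¹) * (e * z⁻¹ * e⁻¹) := by rw [hw]; group
    have h4 : e * z⁻¹ * e⁻¹ = z⁻¹ := by rw [hZc _ hzi e]; group
    rw [h3, h2, h4, hw, pow_two]
    have h5 := hZc _ hzi x
    calc x * x * z⁻¹ * z⁻¹ = x * (x * z⁻¹) * z⁻¹ := by group
      _ = x * (z⁻¹ * x) * z⁻¹ := by rw [h5]
      _ = x * z⁻¹ * (x * z⁻¹) := by group
  have hwZ : w ∉ Z := by
    intro hh
    apply hxZ
    have : x = w * z := by rw [hw]; group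
    rw [this]
    exact Z.mul_mem hh hq
  have het : t * e ≠ e * t := by
    intro hh
    have h2 := hDx e hh
    have h3 : e * x * e⁻¹ = x := by rw [← h2]; group
    have h4 : e * x * e⁻¹ = x * x * z⁻¹ := by rw [hz]; group
    rw [h3] at h4
    have h5 : x = z := by
      have : x * 1 = x * (x * z⁻¹) := by rw [mul_one, ← mul_assoc]; exact h4
      have h6 := mul_left_cancel this
      calc x = x * z⁻¹ * z := by group
        _ = z := by rw [← h6, one_mul]
    exact hxZ (h5 ▸ hq)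
  have hep := hA e het
  have hkw : ∀ k : ℕ, e ^ k * w * (e ^ k)⁻¹ = w ^ (2 ^ k) := by
    intro k
    induction k with
    | zero => simp
    | succ k ih =>
      calc e ^ (k + 1) * w * (e ^ (k + 1))⁻¹ = e * (e ^ k * w * (e ^ k)⁻¹) * e⁻¹ := by
            rw [pow_succ']; group
        _ = e * w ^ (2 ^ k) * e⁻¹ := by rw [ih]
        _ = (e * w * e⁻¹) ^ (2 ^ k) := (conj_pow).symm
        _ = w ^ (2 ^ (k + 1)) := by rw [hew, ← pow_mul, ← pow_succ']
  have h2 := hkw p
  have h3 : e ^ p * w * (e ^ p)⁻¹ = w := by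
    rw [← hZc _ hep w]; group
  rw [h3] at h2
  obtain ⟨j, hj⟩ := (IsPGroup.iff_orderOf.mp hP) w
  have h4 : w ^ 1 = w ^ (2 ^ p) := by rw [pow_one]; exact h2
  rw [pow_eq_pow_iff_modEq, hj] at h4
  have hj0 : j = 0 := by
    by_contra hj0
    have h5 : 1 ≡ 2 ^ p [MOD p] := h4.of_dvd (dvd_pow_self p hj0)
    have h6 := (ZMod.natCast_eq_natCast_iff 1 (2 ^ p) p).mpr h5
    push_cast at h6
    rw [ZMod.pow_card] at h6
    have h7 : ((1 : ℕ) : ZMod p) = ((2 : ℕ) : ZMod p) := by push_cast; exact h6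
    rw [ZMod.natCast_eq_natCast_iff] at h7
    have h8 := (Nat.modEq_iff_dvd' (by norm_num)).mp h7
    have h9 : p ∣ 1 := by simpa using h8
    exact hp.one_lt.ne' (Nat.dvd_one.mp h9)
  rw [hj0, pow_zero, orderOf_eq_one_iff] at hj
  exact hwZ (hj ▸ Z.one_mem)

end Cfsg.Agent.S4365
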