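import Cfsg.Statements.S4370
import Cfsg.Agent.S0016
import Cfsg.Agent.S3977
import Cfsg.Agent.Lib.Helper65.NilCoprime

set_option autoImplicit false
open Cfsg

namespace Cfsg.Agent.S4370

open Cfsg.Agent.Lib.Helper54.UniqueSubgroup (UI)

theorem zmod_double {N : ℕ} [NeZero N] (j : ZMod (2 * N)) (h : j + j = 0) :
    j = 0 ∨ j = (N : ZMod (2 * N)) := by
  haveI : NeZero (2 * N) := ⟨by have := NeZero.ne N; omega⟩
  have h1 : ((j.val + j.val : ℕ) : ZMod (2 * N)) = 0 := by
    push_cast
    rw [ZMod.natCast_zmod_val]
    exact h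
  rw [ZMod.natCast_eq_zero_iff] at h1
  obtain ⟨c, hc⟩ := h1
  have hlt : j.val < 2 * N := ZMod.val_lt j
  have hj : (j.val : ZMod (2 * N)) = j := ZMod.natCast_zmod_val j
  have hc01 : c = 0 ∨ c = 1 := by
    rcases c with _ | _ | c
    · left; rfl
    · right; rfl
    · exfalso; nlinarith
  rcases hc01 with rfl | rfl
  · left
    have : j.val = 0 := by omega
    rw [← hj, this]; simp
  · right
    have : j.val = N := by omega
    rw [← hj, this]

/-- An element of a generalized quaternion group is central, or its centralizer lies in a cyclic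
subgroup. -/
theorem quat_centralizer {N : ℕ} [NeZero N] (q : QuaternionGroup N) :
    (∀ q', q' * q = q * q') ∨
      ∃ g : QuaternionGroup N, ∀ q', q' * q = q * q' → q' ∈ Subgroup.zpowers g := by
  haveI : NeZero (2 * N) := ⟨by have := NeZero.ne N; omega⟩
  rcases q with i | i
  · by_cases hi : i + i = 0
    · left
      intro q'
      rcases q' with j | j
      · rw [QuaternionGroup.a_mul_a, QuaternionGroup.a_mul_a, add_comm]
      · rw [QuaternionGroup.xa_mul_a, QuaternionGroup.a_mul_xa]
        congr 1
        linear_combination hi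
    · right
      refine ⟨QuaternionGroup.a 1, ?_⟩
      intro q' hq'
      rcases q' with j | j
      · rw [Subgroup.mem_zpowers_iff]
        refine ⟨(j.val : ℤ), ?_⟩
        rw [zpow_natCast, QuaternionGroup.a_one_pow, ZMod.natCast_zmod_val]
      · exfalso
        rw [QuaternionGroup.xa_mul_a, QuaternionGroup.a_mul_xa] at hq'
        apply hi
        have : j + i = j - i := by injection hq'
        linear_combination this
  · right
    refine ⟨QuaternionGroup.xa i, ?_⟩
    intro q' hq'
    rcases q' with j | j
    · rw [QuaternionGroup.a_mul_xa, QuaternionGroup.xa_mul_a] at hq'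
      have h1 : i - j = i + j := by injection hq'
      have h2 : j + j = 0 := by linear_combination -h1
      rcases zmod_double j h2 with rfl | rfl
      · rw [QuaternionGroup.a_zero]; exact Subgroup.one_mem _
      · have : (QuaternionGroup.a (N : ZMod (2 * N)) : QuaternionGroup N) =
            QuaternionGroup.xa i ^ 2 := (QuaternionGroup.xa_sq i).symm
        rw [this]; exact Subgroup.pow_mem _ (Subgroup.mem_zpowers _) 2
    · rw [QuaternionGroup.xa_mul_xa, QuaternionGroup.xa_mul_xa] at hq'
      have h1 : (N : ZMod (2 * N)) + i - j = N + j - i := by injection hq'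
      have h2 : (j - i) + (j - i) = 0 := by linear_combination -h1
      rcases zmod_double (j - i) h2 with h | h
      · have : j = i := by linear_combination h
        rw [this]; exact Subgroup.mem_zpowers _
      · have hj : j = i + N := by linear_combination h
        have h3 : (QuaternionGroup.xa i : QuaternionGroup N) ^ 3 = QuaternionGroup.xa j := by
          rw [pow_succ, QuaternionGroup.xa_sq, QuaternionGroup.a_mul_xa, hj]
          congr 1
          have h2N : ((N : ZMod (2 * N)) + N) = 0 := by
            have : ((2 * N : ℕ) : ZMod (2 * N)) = 0 := ZMod.natCast_self _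
            push_cast at this
            linear_combination this
          linear_combination -h2N
        rw [← h3]; exact Subgroup.pow_mem _ (Subgroup.mem_zpowers _) 3

theorem backward {G : Type*} [Group G] [Finite G] (k m : ℕ) (hm : Odd m)
    (e : G ≃* QuaternionGroup (2 ^ k) × Multiplicative (ZMod m)) (x : G)
    (hx : x ∉ Subgroup.center G) :
    IsCyclic (Subgroup.centralizer ({x} : Set G)) := by
  haveI : NeZero (2 ^ k) := ⟨by positivity⟩
  haveI : NeZero m := ⟨by rintro rfl; simp at hm⟩
  rcases quat_centralizer (e x).1 with hcen | ⟨g, hg⟩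
  · exfalso
    apply hx
    rw [Subgroup.mem_center_iff]
    intro y
    apply e.injective
    rw [map_mul, map_mul]
    refine Prod.ext ?_ ?_
    · exact hcen (e y).1
    · exact mul_comm (e y).2 (e x).2
  · set D : Subgroup (QuaternionGroup (2 ^ k)) := Subgroup.zpowers g with hD
    have hT : Subgroup.centralizer
        ({e x} : Set (QuaternionGroup (2 ^ k) × Multiplicative (ZMod m))) ≤ D.prod ⊤ := by
      intro t ht
      rw [Subgroup.mem_centralizer_singleton_iff] at ht
      rw [Subgroup.mem_prod]
      refine ⟨hg t.1 ?_, Subgroup.mem_top _⟩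
      have := congrArg Prod.fst ht
      simpa using this
    haveI hcycprod : IsCyclic ↥(D.prod (⊤ : Subgroup (Multiplicative (ZMod m)))) := by
      have h1 : IsCyclic (↥D × ↥(⊤ : Subgroup (Multiplicative (ZMod m)))) := by
        rw [Group.isCyclic_prod_iff]
        refine ⟨inferInstance, ?_, ?_⟩
        · exact isCyclic_of_surjective (Subgroup.topEquiv (G := Multiplicative (ZMod m))).symm
            (MulEquiv.surjective _)
        · have hDc : Nat.card D ∣ 4 * 2 ^ k := by
            have := Subgroup.card_subgroup_dvd_card D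
            rwa [Nat.card_eq_fintype_card (α := QuaternionGroup (2 ^ k)),
              QuaternionGroup.card] at this
          have hC : Nat.card (⊤ : Subgroup (Multiplicative (ZMod m))) = m := by
            rw [Subgroup.card_top, Nat.card_eq_fintype_card]
            simp [ZMod.card]
          rw [hC]
          have h2 : Nat.Coprime (4 * 2 ^ k) m := by
            have : (4 * 2 ^ k) = 2 ^ (k + 2) := by ring
            rw [this]
            exact Nat.Coprime.pow_left _ (Nat.coprime_two_left.2 hm)
          exact Nat.Coprime.coprime_dvd_left hDc h2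
      exact isCyclic_of_surjective (Subgroup.prodEquiv D ⊤).symm (MulEquiv.surjective _)
    haveI hTcyc : IsCyclic ↥(Subgroup.centralizer
        ({e x} : Set (QuaternionGroup (2 ^ k) × Multiplicative (ZMod m)))) :=
      Subgroup.isCyclic_of_le hT
    let f : ↥(Subgroup.centralizer
        ({e x} : Set (QuaternionGroup (2 ^ k) × Multiplicative (ZMod m)))) →*
        ↥(Subgroup.centralizer ({x} : Set G)) :=
      { toFun := fun t => ⟨e.symm t.1, by
          rw [Subgroup.mem_centralizer_singleton_iff]
          have := Subgroup.mem_centralizer_singleton_iff.1 t.2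
          apply e.injective
          simp only [map_mul, MulEquiv.apply_symm_apply]
          exact this⟩
        map_one' := by ext; simp
        map_mul' := by intro a b; ext; simp }
    apply isCyclic_of_surjective f
    rintro ⟨y, hy⟩
    refine ⟨⟨e y, ?_⟩, ?_⟩
    · rw [Subgroup.mem_centralizer_singleton_iff] at hy ⊢
      rw [← map_mul, ← map_mul, hy]
    · ext; simp [f]

theorem forward {G : Type*} [Group G] [Finite G] (hG : Group.IsNilpotent G)
    (hna : ¬ IsMulCommutative G)
    (hcyc : ∀ x : G, x ∉ Subgroup.center G → IsCyclic (Subgroup.centralizer ({x} : Set G))) :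
    ∃ (k m : ℕ), 1 ≤ k ∧ Odd m ∧
      Nonempty (G ≃* QuaternionGroup (2 ^ k) × Multiplicative (ZMod m)) := by
  have h1 : ∃ (p : ℕ) (_ : Fact p.Prime) (P : Sylow p G),
      ¬ ∀ a b : (P : Subgroup G), a * b = b * a := by
    by_contra hcon
    push Not at hcon
    apply hna
    obtain ⟨e⟩ := ((Group.isNilpotent_of_finite_tfae (G := G)).out 0 4).mp hG
    rw [isMulCommutative_iff]
    intro a b
    apply e.symm.injective
    rw [map_mul, map_mul]
    funext p P
    haveI : Fact (p : ℕ).Prime := ⟨Nat.prime_of_mem_primeFactors p.2⟩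
    exact hcon (p : ℕ) this P _ _
  obtain ⟨p, hp, P, hP⟩ := h1
  push Not at hP
  obtain ⟨x₀, y₀, hx₀y₀⟩ := hP
  haveI := hp
  have hPp : IsPGroup p (P : Subgroup G) := P.isPGroup'
  have hx₀Z : (x₀ : G) ∉ Subgroup.center G := by
    intro h
    apply hx₀y₀
    have := Subgroup.mem_center_iff.1 h (y₀ : G)
    exact Subtype.ext this.symm
  haveI : Nontrivial (P : Subgroup G) := ⟨⟨x₀, y₀, by rintro rfl; exact hx₀y₀ rfl⟩⟩
  haveI : Nontrivial (Subgroup.center (P : Subgroup G)) := hPp.center_nontrivial
  have hZp : IsPGroup p (Subgroup.center (P : Subgroup G)) := hPp.to_subgroup _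
  have hdvd : p ∣ Nat.card (Subgroup.center (P : Subgroup G)) := by
    obtain ⟨n, hn⟩ := IsPGroup.iff_card.1 hZp
    rw [hn]
    have : n ≠ 0 := by
      rintro rfl
      rw [pow_zero] at hn
      have := Finite.one_lt_card (α := Subgroup.center (P : Subgroup G))
      omega
    exact dvd_pow_self p this
  obtain ⟨z, hz⟩ := exists_prime_orderOf_dvd_card' p hdvd
  obtain ⟨zG, hzG⟩ : ∃ zG : G, zG = ((z : (P : Subgroup G)) : G) := ⟨_, rfl⟩
  have hzGord : orderOf zG = p := by
    rw [hzG, Subgroup.orderOf_coe, Subgroup.orderOf_coe, hz]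
  have hzG1 : zG ≠ 1 := by
    intro h
    rw [h, orderOf_one] at hzGord
    exact hp.out.one_lt.ne hzGord
  have hzGp : zG ^ p = 1 := by
    rw [← hzGord]; exact pow_orderOf_eq_one zG
  have hzcomm : ∀ y : (P : Subgroup G), (y : G) * zG = zG * (y : G) := by
    intro y
    have := Subgroup.mem_center_iff.1 z.2 y
    rw [hzG]
    exact congrArg Subtype.val this
  have hstar : ∀ y : (P : Subgroup G), (y : G) ^ p = 1 → (y : G) ∈ Subgroup.zpowers zG := by
    intro y hy
    have key : ∀ w : G, w ∉ Subgroup.center G → w * (y : G) = (y : G) * w → w * zG = zG * w →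
        (y : G) ∈ Subgroup.zpowers zG := by
      intro w hw hwy hwz
      haveI := hcyc w hw
      have hyC : (y : G) ∈ Subgroup.centralizer ({w} : Set G) :=
        Subgroup.mem_centralizer_singleton_iff.2 hwy.symm
      have hzC : zG ∈ Subgroup.centralizer ({w} : Set G) :=
        Subgroup.mem_centralizer_singleton_iff.2 hwz.symm
      have hui := Cfsg.Agent.S3977.ui_of_isCyclic (p := p)
        (H := ↥(Subgroup.centralizer ({w} : Set G)))
        ⟨zG, hzC⟩ ⟨(y : G), hyC⟩ (Subtype.ext (by simpa using hzGp))
        (Subtype.ext (by simpa using hy)) (fun h0 => hzG1 (by simpa using congrArg Subtype.val h0))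
      obtain ⟨n, hn⟩ := Subgroup.mem_zpowers_iff.1 hui
      rw [Subgroup.mem_zpowers_iff]
      exact ⟨n, by simpa using congrArg Subtype.val hn⟩
    by_cases hyc : (y : G) ∈ Subgroup.center G
    · exact key x₀ hx₀Z (Subgroup.mem_center_iff.1 hyc x₀) (hzcomm x₀)
    · exact key y hyc rfl (hzcomm y)
  have hUI : UI p (P : Subgroup G) := by
    intro g h hg hh hg1
    have hgG : (g : G) ^ p = 1 := by simpa using congrArg Subtype.val hg
    have hhG : (h : G) ^ p = 1 := by simpa using congrArg Subtype.val hh
    have hgz := hstar g hgG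
    have hhz := hstar h hhG
    have hle : Subgroup.zpowers (g : G) ≤ Subgroup.zpowers zG := Subgroup.zpowers_le.2 hgz
    have hgord : orderOf (g : G) = p := orderOf_eq_prime hgG (fun h0 => hg1 (Subtype.ext h0))
    have heq : Subgroup.zpowers (g : G) = Subgroup.zpowers zG := by
      apply Subgroup.eq_of_le_of_card_ge hle
      rw [Nat.card_zpowers, Nat.card_zpowers, hgord, hzGord]
    rw [← heq] at hhz
    obtain ⟨n, hn⟩ := Subgroup.mem_zpowers_iff.1 hhz
    rw [Subgroup.mem_zpowers_iff]
    exact ⟨n, Subtype.ext (by simpa using hn)⟩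
  rcases Cfsg.Agent.Lib.Helper54.Quaternion.isCyclic_or_quaternion_of_ui hPp hUI with
    hc | ⟨hp2, n, ⟨eQ⟩⟩
  · exfalso
    haveI := hc
    have := isMulCommutative_iff.1 (IsCyclic.isMulCommutative (α := ↥(P : Subgroup G)))
    exact hx₀y₀ (this x₀ y₀)
  · subst hp2
    have hn1 : 1 ≤ n := by
      by_contra h0
      have hn0 : n = 0 := by omega
      subst hn0
      haveI : IsCyclic (QuaternionGroup (2 ^ 0)) := by
        rw [pow_zero]; exact QuaternionGroup.quaternionGroup_one_isCyclic
      have hcQ := isMulCommutative_iff.1 (IsCyclic.isMulCommutative (α := QuaternionGroup (2 ^ 0)))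
      apply hx₀y₀
      apply eQ.injective
      rw [map_mul, map_mul]
      exact hcQ _ _
    haveI : NeZero (2 ^ n) := ⟨by positivity⟩
    have hPcard : Nat.card (P : Subgroup G) = 4 * 2 ^ n := by
      rw [Nat.card_congr eQ.toEquiv, Nat.card_eq_fintype_card, QuaternionGroup.card]
    haveI : (P : Subgroup G).Normal := inferInstance
    obtain ⟨H, hH⟩ := Subgroup.exists_right_complement'_of_coprime (N := (P : Subgroup G))
      P.card_coprime_index
    have hHcard : (P : Subgroup G).index = Nat.card H := hH.symm.index_eq_card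
    have hcop : Nat.Coprime (Nat.card (P : Subgroup G)) (Nat.card H) := by
      rw [← hHcard]; exact P.card_coprime_index
    have hodd : Odd (Nat.card H) := by
      rw [← Nat.coprime_two_left]
      apply Nat.Coprime.coprime_dvd_left _ hcop
      rw [hPcard]
      exact ⟨2 * 2 ^ n, by ring⟩
    have hcomm' : ∀ a ∈ (P : Subgroup G), ∀ h ∈ H, a * h = h * a := by
      intro a ha h hh
      apply Cfsg.Agent.Lib.Helper65.NilCoprime.commute_of_coprime G a h
        (isOfFinOrder_of_finite a) (isOfFinOrder_of_finite h)
      have hda : orderOf a ∣ Nat.card (P : Subgroup G) := by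
        have := orderOf_dvd_natCard (⟨a, ha⟩ : (P : Subgroup G))
        rwa [Subgroup.orderOf_mk] at this
      have hdh : orderOf h ∣ Nat.card H := by
        have := orderOf_dvd_natCard (⟨h, hh⟩ : H)
        rwa [Subgroup.orderOf_mk] at this
      exact Nat.Coprime.coprime_dvd_left hda (Nat.Coprime.coprime_dvd_right hdh hcop)
    haveI := hcyc x₀ hx₀Z
    have hHle : H ≤ Subgroup.centralizer ({(x₀ : G)} : Set G) := by
      intro h hh
      rw [Subgroup.mem_centralizer_singleton_iff]
      exact (hcomm' x₀ x₀.2 h hh).symm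
    have hHcyc : IsCyclic H := Subgroup.isCyclic_of_le hHle
    let φ : ↥(P : Subgroup G) × ↥H →* G :=
      MonoidHom.noncommCoprod (P : Subgroup G).subtype H.subtype
        (fun a h => hcomm' a.1 a.2 h.1 h.2)
    have hbij : Function.Bijective φ := hH
    let e₁ : ↥(P : Subgroup G) × ↥H ≃* G := MulEquiv.ofBijective φ hbij
    exact ⟨n, Nat.card H, hn1, hodd,
      ⟨e₁.symm.trans (MulEquiv.prodCongr eQ (zmodCyclicMulEquiv hHcyc).symm)⟩⟩

/-- Let G be a finite non-abelian nilpotent group. Then the centralizer of every non-central element of G is cyclic if and only if G is isomorphic to the direct product of a generalized quaternion group and a cyclic group of odd order. -/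
theorem result {G : Type*} [Group G] [Finite G] (hG : Group.IsNilpotent G)
    (hna : ¬ IsMulCommutative G) :
    (∀ x : G, x ∉ Subgroup.center G → IsCyclic (Subgroup.centralizer ({x} : Set G))) ↔
      ∃ (k m : ℕ), 1 ≤ k ∧ Odd m ∧ Nonempty (G ≃* QuaternionGroup (2 ^ k) × Multiplicative (ZMod m)) := by
  constructor
  · exact forward hG hna
  · rintro ⟨k, m, -, hm, ⟨e⟩⟩ x hx
    exact backward k m hm e x hx

end Cfsg.Agent.S4370
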