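import Cfsg.Statements.S4376
import Cfsg.Agent.Lib.Helper60.OTData

set_option autoImplicit false
open Cfsg

namespace Cfsg.Agent.S4376

open Cfsg.Agent.Lib.Helper60.OT

/-- the solvable group: a product of powers of solvable blocks -/
abbrev GG : Type :=
    (Fin 14 → ↥(blkK 1 b00g)) ×
    (Fin 1 → ↥(blkK 1 b02g)) ×
    (Fin 6 → ↥(blkK 1 b06g)) ×
    (Fin 3 → ↥(blkK 1 b07g)) ×
    (Fin 3 → ↥(blkK 1 b08g)) ×
    (Fin 2 → ↥(blkK 2 b10g)) ×
    (Fin 3 → ↥(blkK 1 b11g)) ×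
    (Fin 6 → ↥(blkK 3 b13g)) ×
    (Fin 6 → ↥(blkK 2 b14g)) ×
    (Fin 3 → ↥(blkK 2 b17g))

/-- the non-solvable group: a product of powers of `PSL(2,7)` and of solvable blocks -/
abbrev HH : Type :=
    (Fin 3 → ↥(blkK 1 pslg)) ×
    (Fin 9 → ↥(blkK 1 b01g)) ×
    (Fin 6 → ↥(blkK 1 b03g)) ×
    (Fin 1 → ↥(blkK 1 b04g)) ×
    (Fin 3 → ↥(blkK 1 b05g)) ×
    (Fin 6 → ↥(blkK 2 b09g)) ×
    (Fin 6 → ↥(blkK 2 b12g)) ×
    (Fin 2 → ↥(blkK 3 b15g)) ×
    (Fin 3 → ↥(blkK 2 b16g)) ×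
    (Fin 3 → ↥(blkK 2 b18g))

/-- the number of solutions of `x ^ e = 1` in `GG` -/
def FG (e : ℕ) : ℕ := b00T.cnt e ^ 14 * (b02T.cnt e ^ 1 * (b06T.cnt e ^ 6 * (b07T.cnt e ^ 3 * (b08T.cnt e ^ 3 * (b10T.cnt e ^ 2 * (b11T.cnt e ^ 3 * (b13T.cnt e ^ 6 * (b14T.cnt e ^ 6 * (b17T.cnt e ^ 3)))))))))

/-- the number of solutions of `x ^ e = 1` in `HH` -/
def FH (e : ℕ) : ℕ := pslT.cnt e ^ 3 * (b01T.cnt e ^ 9 * (b03T.cnt e ^ 6 * (b04T.cnt e ^ 1 * (b05T.cnt e ^ 3 * (b09T.cnt e ^ 6 * (b12T.cnt e ^ 6 * (b15T.cnt e ^ 2 * (b16T.cnt e ^ 3 * (b18T.cnt e ^ 3)))))))))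

theorem torsG (d : ℕ) : tors d GG = FG (Nat.gcd d 84) := by
  unfold FG
  simp only [tors_prod, tors_pi, tors_blkK _ _ _ b00_ok, tors_blkK _ _ _ b02_ok, tors_blkK _ _ _ b06_ok, tors_blkK _ _ _ b07_ok, tors_blkK _ _ _ b08_ok, tors_blkK _ _ _ b10_ok, tors_blkK _ _ _ b11_ok, tors_blkK _ _ _ b13_ok, tors_blkK _ _ _ b14_ok, tors_blkK _ _ _ b17_ok]

theorem torsH (d : ℕ) : tors d HH = FH (Nat.gcd d 84) := by
  unfold FH
  simp only [tors_prod, tors_pi, tors_blkK _ _ _ psl_ok, tors_blkK _ _ _ b01_ok, tors_blkK _ _ _ b03_ok, tors_blkK _ _ _ b04_ok, tors_blkK _ _ _ b05_ok, tors_blkK _ _ _ b09_ok, tors_blkK _ _ _ b12_ok, tors_blkK _ _ _ b15_ok, tors_blkK _ _ _ b16_ok, tors_blkK _ _ _ b18_ok]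

theorem numcheck : ([1, 2, 3, 4, 6, 7, 12, 14, 21, 28, 42, 84] : List ℕ).all
    (fun e => Nat.beq (FG e) (FH e)) = true := by decide +kernel

theorem gcd_mem (d : ℕ) : Nat.gcd d 84 ∈ ([1, 2, 3, 4, 6, 7, 12, 14, 21, 28, 42, 84] : List ℕ) := by
  have h1 : Nat.gcd d 84 ∣ 84 := Nat.gcd_dvd_right d 84
  have h2 : Nat.gcd d 84 ≤ 84 := Nat.le_of_dvd (by norm_num) h1
  generalize Nat.gcd d 84 = e at h1 h2
  interval_cases e <;> first | decide | (exfalso; revert h1; decide)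

theorem torsEq (d : ℕ) : tors d GG = tors d HH := by
  rw [torsG, torsH]
  exact Nat.eq_of_beq_eq_true (List.all_eq_true.1 numcheck _ (gcd_mem d))

theorem solvG : Group.IsSolvable GG := by
  have : Group.IsSolvable ↥(blkK 1 b00g) := isSolvable_blkK _ _ _ _ b00_solv
  have : Group.IsSolvable ↥(blkK 1 b02g) := isSolvable_blkK _ _ _ _ b02_solv
  have : Group.IsSolvable ↥(blkK 1 b06g) := isSolvable_blkK _ _ _ _ b06_solv
  have : Group.IsSolvable ↥(blkK 1 b07g) := isSolvable_blkK _ _ _ _ b07_solv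
  have : Group.IsSolvable ↥(blkK 1 b08g) := isSolvable_blkK _ _ _ _ b08_solv
  have : Group.IsSolvable ↥(blkK 2 b10g) := isSolvable_blkK _ _ _ _ b10_solv
  have : Group.IsSolvable ↥(blkK 1 b11g) := isSolvable_blkK _ _ _ _ b11_solv
  have : Group.IsSolvable ↥(blkK 3 b13g) := isSolvable_blkK _ _ _ _ b13_solv
  have : Group.IsSolvable ↥(blkK 2 b14g) := isSolvable_blkK _ _ _ _ b14_solv
  have : Group.IsSolvable ↥(blkK 2 b17g) := isSolvable_blkK _ _ _ _ b17_solv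
  have : ∀ (k : ℕ) (B : Type) [Group B] [Group.IsSolvable B], Group.IsSolvable (Fin k → B) :=
    fun k B _ _ => isSolvable_pi (Fin k) B
  infer_instance

theorem nsolvH : ¬ Group.IsSolvable HH := by
  intro h
  let f : HH →* (Fin 3 → ↥(blkK 1 pslg)) := MonoidHom.fst _ _
  have hf : Function.Surjective f := fun x => ⟨(x, 1), rfl⟩
  have hp : Group.IsSolvable (Fin 3 → ↥(blkK 1 pslg)) := Group.isSolvable_of_surjective hf
  let g : (Fin 3 → ↥(blkK 1 pslg)) →* ↥(blkK 1 pslg) :=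
    Pi.evalMonoidHom (fun _ : Fin 3 => ↥(blkK 1 pslg)) 0
  have hg : Function.Surjective g := fun x => ⟨fun _ => x, rfl⟩
  have hq : Group.IsSolvable ↥(blkK 1 pslg) := Group.isSolvable_of_surjective hg
  exact not_isSolvable_blkK 1 _ _ _ _ psl_trick hq

instance finG : Finite GG := by
  unfold GG
  repeat' refine @Finite.instProd _ _ ?_ ?_
  all_goals infer_instance

instance finH : Finite HH := by
  unfold HH
  repeat' refine @Finite.instProd _ _ ?_ ?_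
  all_goals infer_instance

/-- There are finite groups G and H having the same number of elements of each order (the same order type) with G solvable and H not solvable. -/
theorem result :
    ∃ (G : Type) (_ : Group G) (_ : Finite G) (H : Type) (_ : Group H) (_ : Finite H),
      Group.IsSolvable G ∧ ¬ Group.IsSolvable H ∧ ∀ n : ℕ, Nat.card {g : G // orderOf g = n} = Nat.card {h : H // orderOf h = n} := by
  refine ⟨GG, inferInstance, inferInstance, HH, inferInstance, inferInstance, solvG, nsolvH, ?_⟩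
  intro n
  exact ordc_eq_of_tors GG HH torsEq n

end Cfsg.Agent.S4376
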