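import Cfsg.Statements.S4377

set_option autoImplicit false
open Cfsg

namespace Cfsg.Agent.S4377

theorem pow_count_eq_sum {G : Type*} [Group G] [Finite G] (n : ℕ) (hn : n ≠ 0) :
    Nat.card {g : G // g ^ n = 1} = ∑ d ∈ n.divisors, Nat.card {g : G // orderOf g = d} := by
  classical
  have := Fintype.ofFinite G
  have h := sum_card_orderOf_eq_card_pow_eq_one (G := G) hn
  rw [Nat.card_eq_fintype_card, Fintype.card_subtype, ← h]
  apply Finset.sum_congr rfl
  intro d _
  rw [Nat.card_eq_fintype_card, Fintype.card_subtype]

theorem pow_count_eq_sum' {G : Type*} [Group G] [Finite G] (n : ℕ) (hn : n ≠ 0) :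
    Nat.card {g : G // g ^ n = 1} =
      Nat.card {g : G // orderOf g = n} + ∑ d ∈ n.properDivisors, Nat.card {g : G // orderOf g = d} := by
  rw [pow_count_eq_sum n hn, ← Nat.cons_self_properDivisors hn, Finset.sum_cons]

theorem pow_count_zero {G : Type*} [Group G] [Finite G] :
    Nat.card {g : G // g ^ 0 = 1} = Nat.card G := by
  simp

theorem pow_count_card {G : Type*} [Group G] [Finite G] (k : ℕ) :
    Nat.card {g : G // g ^ (Nat.card G * k) = 1} = Nat.card G := by
  have : ∀ g : G, g ^ (Nat.card G * k) = 1 := by
    intro g
    rw [pow_mul, pow_card_eq_one', one_pow]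
  simp [this]

theorem order_count_zero {G : Type*} [Group G] [Finite G] :
    Nat.card {g : G // orderOf g = 0} = 0 := by
  have : IsEmpty {g : G // orderOf g = 0} := by
    constructor
    rintro ⟨g, hg⟩
    exact (orderOf_pos g).ne' hg
  exact Nat.card_of_isEmpty

/-- Same order type iff same number of solutions of `g ^ n = 1` for each `n`. -/
theorem result {G H : Type*} [Group G] [Finite G] [Group H] [Finite H] :
    (∀ n : ℕ, Nat.card {g : G // orderOf g = n} = Nat.card {h : H // orderOf h = n}) ↔
      ∀ n : ℕ, Nat.card {g : G // g ^ n = 1} = Nat.card {h : H // h ^ n = 1} := by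
  constructor
  · intro h
    have key : ∀ n : ℕ, n ≠ 0 →
        Nat.card {g : G // g ^ n = 1} = Nat.card {h : H // h ^ n = 1} := by
      intro n hn
      rw [pow_count_eq_sum n hn, pow_count_eq_sum n hn]
      exact Finset.sum_congr rfl (fun d _ => h d)
    intro n
    rcases Nat.eq_zero_or_pos n with h0 | h0
    · subst h0
      rw [pow_count_zero, pow_count_zero]
      have hG : Nat.card G ≠ 0 := Nat.card_pos.ne'
      have hH : Nat.card H ≠ 0 := Nat.card_pos.ne'
      have := key (Nat.card G * Nat.card H) (Nat.mul_ne_zero hG hH)
      rw [pow_count_card] at this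
      rw [Nat.mul_comm, pow_count_card] at this
      exact this
    · exact key n (by omega)
  · intro h n
    induction n using Nat.strong_induction_on with
    | _ n ih =>
      rcases Nat.eq_zero_or_pos n with h0 | h0
      · subst h0
        rw [order_count_zero, order_count_zero]
      · have hn : n ≠ 0 := by omega
        have hG := pow_count_eq_sum' (G := G) n hn
        have hH := pow_count_eq_sum' (G := H) n hn
        have hs : ∑ d ∈ n.properDivisors, Nat.card {g : G // orderOf g = d} =
            ∑ d ∈ n.properDivisors, Nat.card {g : H // orderOf g = d} :=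
          Finset.sum_congr rfl (fun d hd => ih d (Nat.mem_properDivisors.1 hd).2)
        have := h n
        omega

end Cfsg.Agent.S4377
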