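import Cfsg.Statements.S4381
import Cfsg.Agent.Lib.Helper73.CoprimeAct
import Cfsg.Agent.S0660
import Cfsg.Agent.Lib.Helper70.FrattiniQuot

set_option autoImplicit false
open Pointwise
open Cfsg

namespace Cfsg.Agent.S4381

open Cfsg.Agent.Lib.Helper73.CoprimeAct
open scoped commutatorElement

section

variable {A G : Type*} [Group A] [Finite A] [Group G] [Finite G] [MulDistribMulAction A G]

/-- Maximal invariant subgroups. -/
def MaxInv (A : Type*) {G : Type*} [Group A] [Group G] [MulDistribMulAction A G]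
    (M : Subgroup G) : Prop :=
  M ≠ ⊤ ∧ (∀ a : A, ∀ x ∈ M, a • x ∈ M) ∧
    ∀ L : Subgroup G, M < L → (∀ a : A, ∀ x ∈ L, a • x ∈ L) → L = ⊤

theorem frattini_invariant (a : A) (x : G) (hx : x ∈ frattini G) : a • x ∈ frattini G := by
  have hchar : (frattini G).Characteristic := inferInstance
  have := Subgroup.characteristic_iff_map_eq.1 hchar (MulDistribMulAction.toMulAut A G a)
  rw [← this]
  exact ⟨x, hx, rfl⟩

theorem frattini_le_of_maxInv {M : Subgroup G} (hM : MaxInv A M) : frattini G ≤ M := by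
  by_contra hle
  have hlt : M < M ⊔ frattini G :=
    lt_of_le_of_ne le_sup_left (fun h => hle (h ▸ le_sup_right))
  have hinv : ∀ a : A, ∀ x ∈ M ⊔ frattini G, a • x ∈ M ⊔ frattini G := by
    intro a x hx
    obtain ⟨m, hm, f, hf, rfl⟩ := Subgroup.mem_sup_of_normal_right.1 hx
    rw [smul_mul']
    exact Subgroup.mul_mem _ (Subgroup.mem_sup_left (hM.2.1 a m hm))
      (Subgroup.mem_sup_right (frattini_invariant a f hf))
  have htop := hM.2.2 _ hlt hinv
  exact hM.1 (frattini_nongenerating htop)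

theorem maxInv_iff_of_irred
    (hirr : ∀ L : Subgroup G, frattini G < L → (∀ a : A, ∀ x ∈ L, a • x ∈ L) → L = ⊤)
    (M : Subgroup G) : MaxInv A M ↔ (M = frattini G ∧ M ≠ ⊤) := by
  constructor
  · intro hM
    have hle := frattini_le_of_maxInv hM
    refine ⟨?_, hM.1⟩
    by_contra hne
    exact hM.1 (hirr M (lt_of_le_of_ne hle (Ne.symm hne)) hM.2.1)
  · rintro ⟨rfl, hne⟩
    exact ⟨hne, fun a x hx => frattini_invariant a x hx, hirr⟩

theorem quot_comm {p : ℕ} [Fact p.Prime] (hG : IsPGroup p G) :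
    ∀ a b : G ⧸ frattini G, a * b = b * a := by
  intro a b
  refine QuotientGroup.induction_on a (fun g => ?_)
  refine QuotientGroup.induction_on b (fun h => ?_)
  rw [← QuotientGroup.mk_mul, ← QuotientGroup.mk_mul, QuotientGroup.eq]
  apply Cfsg.Agent.Lib.Helper70.FrattiniQuot.commutator_le_frattini hG
  have : (g * h)⁻¹ * (h * g) = ⁅h⁻¹, g⁻¹⁆ := by
    rw [commutatorElement_def]; group
  rw [this, commutator_def]
  exact Subgroup.commutator_mem_commutator (Subgroup.mem_top _) (Subgroup.mem_top _)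

theorem quot_exp {p : ℕ} [Fact p.Prime] (hG : IsPGroup p G) :
    ∀ v : G ⧸ frattini G, v ^ p = 1 := by
  intro v
  refine QuotientGroup.induction_on v (fun g => ?_)
  rw [← QuotientGroup.mk_pow, QuotientGroup.eq_one_iff]
  exact Cfsg.Agent.Lib.Helper70.FrattiniQuot.pow_mem_frattini hG g

theorem forward (hcop : (Nat.card A).Coprime (Nat.card G))
    (hsol : Group.IsSolvable A ∨ Group.IsSolvable G)
    (hconj : ∀ M N : Subgroup G, MaxInv A M → MaxInv A N →
      ∃ c : G, (∀ a : A, a • c = c) ∧ N = MulAut.conj c • M) :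
    (∃ p : ℕ, p.Prime ∧ IsPGroup p G) ∧
      ∀ L : Subgroup G, frattini G < L → (∀ a : A, ∀ x ∈ L, a • x ∈ L) → L = ⊤ := by
  have hcard : ∀ M N : Subgroup G, MaxInv A M → MaxInv A N → Nat.card N = Nat.card M := by
    intro M N hM hN
    obtain ⟨c, -, rfl⟩ := hconj M N hM hN
    exact Nat.card_congr (Subgroup.equivSMul (MulAut.conj c) M).toEquiv.symm
  have hGpos : Nat.card G ≠ 0 := Nat.card_pos.ne'
  have hpg : ∃ p : ℕ, p.Prime ∧ IsPGroup p G := by
    by_contra hnp
    have hnt : (⊥ : Subgroup G) ≠ ⊤ := by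
      intro h
      apply hnp
      refine ⟨2, Nat.prime_two, ?_⟩
      haveI : Fact (Nat.Prime 2) := ⟨Nat.prime_two⟩
      refine IsPGroup.of_card (n := 0) ?_
      rw [pow_zero, ← Subgroup.card_top (G := G), ← h, Subgroup.card_bot]
    obtain ⟨M₀, -, hM₀⟩ := exists_le_maxInv (A := A) ⊥ hnt (fun a x hx => by
      rw [Subgroup.mem_bot] at hx ⊢
      rw [hx, smul_one])
    have hM₀pos : Nat.card M₀ ≠ 0 := Nat.card_pos.ne'
    have hdiv : Nat.card G ∣ Nat.card M₀ := by
      rw [← Nat.factorization_le_iff_dvd hGpos hM₀pos]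
      intro q
      by_cases hq : q.Prime
      · haveI : Fact q.Prime := ⟨hq⟩
        obtain ⟨P, hPc, hPA⟩ := exists_invariant_sylow hcop hsol q
        have hPne : P ≠ ⊤ := by
          intro h
          apply hnp
          refine ⟨q, hq, IsPGroup.of_card (n := (Nat.card G).factorization q) ?_⟩
          rw [← hPc, h, Subgroup.card_top]
        obtain ⟨Mq, hPM, hMq⟩ := exists_le_maxInv (A := A) P hPne hPA
        have h1 : Nat.card Mq = Nat.card M₀ := hcard M₀ Mq hM₀ hMq
        have h2 : q ^ (Nat.card G).factorization q ∣ Nat.card M₀ := by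
          rw [← h1, ← hPc]
          exact Subgroup.card_dvd_of_le hPM
        exact (hq.pow_dvd_iff_le_factorization hM₀pos).1 h2
      · rw [Nat.factorization_eq_zero_of_not_prime _ hq]
        exact Nat.zero_le _
    have := Nat.dvd_antisymm (Subgroup.card_subgroup_dvd_card M₀) hdiv
    exact hM₀.1 (Subgroup.eq_top_of_card_eq _ this)
  refine ⟨hpg, ?_⟩
  obtain ⟨p, hp, hG⟩ := hpg
  haveI : Fact p.Prime := ⟨hp⟩
  intro L hL hLA
  by_contra hLne
  obtain ⟨M, hLM, hM⟩ := exists_le_maxInv (A := A) L hLne hLA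
  have hΦM := frattini_le_of_maxInv hM
  have hMn : M.Normal := by
    have hcomm := (Cfsg.Agent.Lib.Helper70.FrattiniQuot.commutator_le_frattini hG).trans hΦM
    exact ⟨fun n hn g => by
      have : g * n * g⁻¹ = ⁅g, n⁆ * n := by rw [commutatorElement_def]; group
      rw [this]
      refine M.mul_mem (hcomm ?_) hn
      rw [commutator_def]
      exact Subgroup.commutator_mem_commutator (Subgroup.mem_top g) (Subgroup.mem_top n)⟩
  have huniq : ∀ N : Subgroup G, MaxInv A N → N = M := by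
    intro N hN
    obtain ⟨c, -, rfl⟩ := hconj M N hM hN
    exact Subgroup.Normal.conj_smul_eq_self c M
  have hall : ∀ L' : Subgroup G, L' ≠ ⊤ → (∀ a : A, ∀ x ∈ L', a • x ∈ L') → L' ≤ M := by
    intro L' hL' hL'A
    obtain ⟨N, hLN, hN⟩ := exists_le_maxInv (A := A) L' hL' hL'A
    rw [← huniq N hN]
    exact hLN
  -- the quotient by the Frattini subgroup
  letI := quotAction (A := A) (frattini G) (fun a x hx => frattini_invariant a x hx)
  haveI : IsMulCommutative (G ⧸ frattini G) := ⟨⟨quot_comm hG⟩⟩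
  obtain ⟨U', hU'⟩ : ∃ U', U' = M.map (QuotientGroup.mk' (frattini G)) := ⟨_, rfl⟩
  have hU'A : ∀ a : A, ∀ u ∈ U', a • u ∈ U' := by
    intro a u hu
    rw [hU'] at hu ⊢
    obtain ⟨m, hm, rfl⟩ := hu
    exact ⟨a • m, hM.2.1 a m hm, rfl⟩
  obtain ⟨W₀, h1, h2⟩ := exists_compl_of_exponent p (quot_comm hG) (quot_exp hG) U'
  have hcopV : (Nat.card A).Coprime (Nat.card (G ⧸ frattini G)) :=
    Nat.Coprime.coprime_dvd_right (Subgroup.card_quotient_dvd_card _) hcop
  obtain ⟨W', hW'A, hW'1, hW'2⟩ := Cfsg.Agent.S0660.maschke hcopV U' W₀ hU'A h1 h2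
  obtain ⟨L', hL'⟩ : ∃ L', L' = W'.comap (QuotientGroup.mk' (frattini G)) := ⟨_, rfl⟩
  have hL'A : ∀ a : A, ∀ x ∈ L', a • x ∈ L' := by
    intro a x hx
    rw [hL', Subgroup.mem_comap] at hx ⊢
    exact hW'A a _ hx
  by_cases hL'top : L' = ⊤
  · have hW'top : W' = ⊤ := by
      rw [eq_top_iff]
      intro v _
      obtain ⟨g, rfl⟩ := QuotientGroup.mk_surjective v
      have : g ∈ L' := by rw [hL'top]; trivial
      rw [hL', Subgroup.mem_comap] at this
      exact this
    rw [hW'top, inf_top_eq] at hW'1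
    have hMΦ : M ≤ frattini G := by
      intro m hm
      have : (QuotientGroup.mk' (frattini G)) m ∈ U' := by rw [hU']; exact ⟨m, hm, rfl⟩
      rw [hW'1, Subgroup.mem_bot] at this
      exact (QuotientGroup.eq_one_iff m).1 this
    exact (not_le_of_gt hL) (hLM.trans hMΦ)
  · have hL'M := hall L' hL'top hL'A
    have hW'U' : W' ≤ U' := by
      intro v hv
      obtain ⟨g, rfl⟩ := QuotientGroup.mk_surjective v
      have : g ∈ L' := by rw [hL', Subgroup.mem_comap]; exact hv
      rw [hU']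
      exact ⟨g, hL'M this, rfl⟩
    have hW'bot : W' = ⊥ := by
      rw [← hW'1]
      exact (inf_eq_right.2 hW'U').symm
    rw [hW'bot, sup_bot_eq] at hW'2
    apply hM.1
    rw [eq_top_iff]
    intro g _
    have : (QuotientGroup.mk' (frattini G)) g ∈ U' := by rw [hW'2]; trivial
    rw [hU'] at this
    obtain ⟨m, hm, hmg⟩ := this
    have h3 : m⁻¹ * g ∈ frattini G := QuotientGroup.eq.1 hmg
    have h4 : g = m * (m⁻¹ * g) := by group
    rw [h4]
    exact M.mul_mem hm (hΦM h3)

end

/-- Let the finite group A act by automorphisms on the finite group G with the orders of A and G coprime, and assume that A or G is solvable. Call a proper A-invariant subgroup of G maximal A-invariant when no A-invariant subgroup lies strictly between it and G. Then all maximal A-invariant subgroups of G are conjugate under elements of the fixed-point subgroup C_G(A) if and only if G is a p-group for some prime p and A leaves invariant no subgroup strictly between the Frattini subgroup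 of G and G. In that case, if G is nontrivial, the Frattini subgroup is the only maximal A-invariant subgroup (a trivial G has none). -/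
theorem result {A G : Type*} [Group A] [Finite A]
    [Group G] [Finite G] [MulDistribMulAction A G] (hcop : (Nat.card A).Coprime (Nat.card G)) (hsol : Group.IsSolvable A ∨ Group.IsSolvable G) :
    ((∀ M N : Subgroup G, (M ≠ ⊤ ∧ (∀ a : A, ∀ x ∈ M, a • x ∈ M) ∧ ∀ L : Subgroup G, M < L → (∀ a : A, ∀ x ∈ L, a • x ∈ L) → L = ⊤) → (N ≠ ⊤ ∧ (∀ a : A, ∀ x ∈ N, a • x ∈ N) ∧ ∀ L : Subgroup G, N < L → (∀ a : A, ∀ x ∈ L, a • x ∈ L) → L = ⊤) →
        ∃ c : G, (∀ a : A, a • c = c) ∧ N = MulAut.conj c • M) ↔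
      ((∃ p : ℕ, p.Prime ∧ IsPGroup p G) ∧ ∀ L : Subgroup G, frattini G < L → (∀ a : A, ∀ x ∈ L, a • x ∈ L) → L = ⊤)) ∧
    (((∃ p : ℕ, p.Prime ∧ IsPGroup p G) ∧ ∀ L : Subgroup G, frattini G < L → (∀ a : A, ∀ x ∈ L, a • x ∈ L) → L = ⊤) →
      ∀ M : Subgroup G, (M ≠ ⊤ ∧ (∀ a : A, ∀ x ∈ M, a • x ∈ M) ∧ ∀ L : Subgroup G, M < L → (∀ a : A, ∀ x ∈ L, a • x ∈ L) → L = ⊤) ↔ (M = frattini G ∧ M ≠ ⊤)) := by
  refine ⟨⟨fun h => forward hcop hsol h, fun h M N hM hN => ?_⟩,
    fun h M => maxInv_iff_of_irred h.2 M⟩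
  have h1 := ((maxInv_iff_of_irred (A := A) h.2 M).1 hM).1
  have h2 := ((maxInv_iff_of_irred (A := A) h.2 N).1 hN).1
  refine ⟨1, fun a => smul_one a, ?_⟩
  rw [map_one, one_smul, h1, h2]

end Cfsg.Agent.S4381
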