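import Cfsg.Statements.S4387

set_option autoImplicit false
open Cfsg

namespace Cfsg.Agent.S4387

open scoped Pointwise

theorem mem_conj_smul_iff {G : Type*} [Group G] (M : Subgroup G) (x g : G) :
    g ∈ MulAut.conj x • M ↔ x⁻¹ * g * x ∈ M := by
  rw [Subgroup.mem_pointwise_smul_iff_inv_smul_mem, MulAut.smul_def, MulAut.conj_inv_apply]

/-- A finite group is not the union of the conjugates of a proper subgroup. -/
theorem exists_not_mem_conj {G : Type*} [Group G] [Finite G] (M : Subgroup G) (hM : M ≠ ⊤) :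
    ∃ g : G, ∀ x : G, g ∉ MulAut.conj x • M := by
  classical
  by_contra hcon
  push Not at hcon
  have := Fintype.ofFinite G
  have hB := MulAction.sum_card_fixedBy_eq_card_orbits_mul_card_group G (G ⧸ M)
  have horb : Fintype.card (Quotient (MulAction.orbitRel G (G ⧸ M))) = 1 := by
    rw [Fintype.card_eq_one_iff]
    refine ⟨Quotient.mk'' ((1 : G) : G ⧸ M), ?_⟩
    intro q
    induction q using Quotient.inductionOn' with
    | h a =>
      apply Quotient.sound'
      exact MulAction.exists_smul_eq G _ _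
  rw [horb, one_mul] at hB
  have h1 : ∀ g : G, 1 ≤ Fintype.card (MulAction.fixedBy (G ⧸ M) g) := by
    intro g
    obtain ⟨x, hx⟩ := hcon g
    rw [mem_conj_smul_iff] at hx
    apply Fintype.card_pos_iff.2
    refine ⟨⟨(x : G ⧸ M), ?_⟩⟩
    rw [MulAction.mem_fixedBy]
    change ((g * x : G) : G ⧸ M) = x
    rw [QuotientGroup.eq]
    have : (g * x)⁻¹ * x = (x⁻¹ * g * x)⁻¹ := by group
    rw [this]
    exact M.inv_mem hx
  have h2 : 2 ≤ Fintype.card (MulAction.fixedBy (G ⧸ M) (1 : G)) := by
    have hidx : M.index ≠ 1 := fun h => hM (Subgroup.index_eq_one.1 h)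
    have hidx0 : M.index ≠ 0 := Subgroup.index_ne_zero_of_finite
    have : Fintype.card (MulAction.fixedBy (G ⧸ M) (1 : G)) = M.index := by
      rw [Subgroup.index, Nat.card_eq_fintype_card]
      apply Fintype.card_congr
      exact ⟨fun a => a.1, fun a => ⟨a, by simp [MulAction.mem_fixedBy]⟩, fun a => rfl, fun a => rfl⟩
    omega
  have hsum : Fintype.card G < ∑ a : G, Fintype.card (MulAction.fixedBy (G ⧸ M) a) := by
    calc Fintype.card G = ∑ a : G, 1 := by simp
      _ < ∑ a : G, Fintype.card (MulAction.fixedBy (G ⧸ M) a) := by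
        apply Finset.sum_lt_sum (fun a _ => h1 a)
        exact ⟨1, Finset.mem_univ _, by omega⟩
  omega

/-- Let G be a non-trivial finite group in which any two maximal subgroups are conjugate. Then G is cyclic of prime-power order. -/
theorem result {G : Type*} [Group G] [Finite G] [Nontrivial G]
    (h : ∀ M N : Subgroup G, IsCoatom M → IsCoatom N → ∃ g : G, N = MulAut.conj g • M) :
    IsCyclic G ∧ IsPrimePow (Nat.card G) := by
  obtain ⟨M, hM, -⟩ : ∃ M : Subgroup G, IsCoatom M ∧ ⊥ ≤ M := by
    rcases eq_top_or_exists_le_coatom (⊥ : Subgroup G) with h0 | h0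
    · exact absurd h0 bot_ne_top
    · exact h0
  obtain ⟨g, hg⟩ := exists_not_mem_conj M hM.1
  have hgtop : Subgroup.zpowers g = ⊤ := by
    rcases eq_top_or_exists_le_coatom (Subgroup.zpowers g) with h0 | ⟨N, hN, hle⟩
    · exact h0
    · obtain ⟨x, hx⟩ := h M N hM hN
      exact absurd (hx ▸ hle (Subgroup.mem_zpowers g)) (hg x)
  have hcyc : IsCyclic G := ⟨g, fun y => by
    have : y ∈ Subgroup.zpowers g := hgtop ▸ Subgroup.mem_top y
    exact this⟩
  refine ⟨hcyc, ?_⟩
  have hcomm : ∀ a b : G, a * b = b * a := by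
    letI := IsCyclic.commGroup (α := G)
    exact fun a b => mul_comm a b
  have huniq : ∀ N : Subgroup G, IsCoatom N → N = M := by
    intro N hN
    obtain ⟨x, hx⟩ := h M N hM hN
    rw [hx]
    ext y
    rw [mem_conj_smul_iff]
    have : x⁻¹ * y * x = y := by rw [hcomm x⁻¹ y, mul_assoc, inv_mul_cancel, mul_one]
    rw [this]
  by_cases hex : ∃ p : ℕ, p.Prime ∧ ∃ P : Sylow p G, (P : Subgroup G) = ⊤
  · obtain ⟨p, hp, P, hP⟩ := hex
    haveI : Fact p.Prime := ⟨hp⟩
    have hPG : IsPGroup p G := by
      have := P.isPGroup'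
      intro y
      obtain ⟨k, hk⟩ := this ⟨y, hP ▸ Subgroup.mem_top y⟩
      exact ⟨k, by simpa [Subtype.ext_iff] using hk⟩
    obtain ⟨n, hn⟩ := IsPGroup.iff_card.1 hPG
    rw [hn]
    have hcard : 1 < Nat.card G := Finite.one_lt_card
    have hn0 : n ≠ 0 := by
      rintro rfl
      simp at hn
      omega
    exact (Nat.Prime.isPrimePow hp).pow hn0
  · exfalso
    push Not at hex
    have hidx : M.index = 1 := by
      rw [Nat.eq_one_iff_not_exists_prime_dvd]
      intro p hp hpd
      haveI : Fact p.Prime := ⟨hp⟩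
      obtain ⟨P⟩ : Nonempty (Sylow p G) := inferInstance
      have hPtop := hex p hp P
      rcases eq_top_or_exists_le_coatom (P : Subgroup G) with h0 | ⟨N, hN, hle⟩
      · exact hPtop h0
      · rw [huniq N hN] at hle
        have h1 : M.index ∣ (P : Subgroup G).index := Subgroup.index_dvd_of_le hle
        exact P.not_dvd_index (hpd.trans h1)
    exact hM.1 (Subgroup.index_eq_one.1 hidx)

end Cfsg.Agent.S4387
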