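import Cfsg.Statements.S4397
import Cfsg.Agent.Lib.Helper70.FrattiniQuot
import Cfsg.Agent.Lib.Helper73.MaxClass

set_option autoImplicit false
open Cfsg

namespace Cfsg.Agent.S4397

universe u

/-- sections, seen as homomorphic images of subgroups, have `2`-rank at most `2` -/
def SecR (S : Type u) [Group S] : Prop :=
  ∀ (T : Type u) [Group T] (H : Subgroup S) (f : ↥H →* T), Function.Surjective f →
    Cfsg.PRankLE 2 2 T

theorem secR_of {S : Type u} [Group S] (hr : Cfsg.SectionalPRankLE 2 2 S) : SecR S := by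
  intro T _ H f hf A hA hexp
  let e : ↥H ⧸ f.ker ≃* T := QuotientGroup.quotientKerEquivOfSurjective f hf
  have h1 := hr H f.ker (A.map e.symm.toMonoidHom) (by
    constructor; constructor
    rintro ⟨x, hx⟩ ⟨y, hy⟩
    obtain ⟨x', hx', rfl⟩ := hx
    obtain ⟨y', hy', rfl⟩ := hy
    apply Subtype.ext
    show e.symm.toMonoidHom x' * e.symm.toMonoidHom y'
      = e.symm.toMonoidHom y' * e.symm.toMonoidHom x'
    rw [← map_mul, ← map_mul]
    congr 1
    exact congrArg Subtype.val (hA.is_comm.comm ⟨x', hx'⟩ ⟨y', hy'⟩)) (by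
    rintro a ⟨a', ha', rfl⟩
    rw [← map_pow, hexp a' ha', map_one])
  rwa [Subgroup.card_map_of_injective (f := e.symm.toMonoidHom) e.symm.injective] at h1

theorem secR_quot {S : Type u} [Group S] (h : SecR S) (N : Subgroup S) [N.Normal] :
    SecR (S ⧸ N) := by
  intro T _ H f hf
  have hg : Function.Surjective ((QuotientGroup.mk' N).subgroupComap H) :=
    (QuotientGroup.mk' N).subgroupComap_surjective_of_surjective H (QuotientGroup.mk'_surjective N)
  exact h T (H.comap (QuotientGroup.mk' N)) (f.comp ((QuotientGroup.mk' N).subgroupComap H))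
    (hf.comp hg)

theorem prank_self {S : Type u} [Group S] (h : SecR S) : Cfsg.PRankLE 2 2 S :=
  h S ⊤ (Subgroup.subtype ⊤) (fun s => ⟨⟨s, Subgroup.mem_top s⟩, rfl⟩)

/-- three "independent" commuting involutions, two of them central, are impossible -/
theorem rank_contra {S : Type u} [Group S] [Finite S] (h : Cfsg.PRankLE 2 2 S) (u v w : S)
    (hu : ∀ s : S, u * s = s * u) (hv : ∀ s : S, v * s = s * v)
    (hu2 : u * u = 1) (hv2 : v * v = 1) (hw2 : w * w = 1)
    (hu1 : u ≠ 1) (hv1 : v ≠ 1) (huv : u ≠ v) (hw1 : w ≠ 1) (hwu : w ≠ u) (hwv : w ≠ v)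
    (hwuv : w ≠ u * v) : False := by
  classical
  let E : Subgroup S :=
    { carrier := {g | g * g = 1 ∧ g * w = w * g ∧ ∀ s : S, s * w = w * s → g * s = s * g}
      one_mem' := ⟨by simp, by simp, fun s _ => by simp⟩
      mul_mem' := by
        rintro g₁ g₂ ⟨h1, h1w, h1c⟩ ⟨h2, h2w, h2c⟩
        have h12 : g₁ * g₂ = g₂ * g₁ := h1c g₂ h2w
        refine ⟨?_, ?_, ?_⟩
        · calc g₁ * g₂ * (g₁ * g₂) = g₁ * (g₂ * g₁) * g₂ := by group
            _ = g₁ * (g₁ * g₂) * g₂ := by rw [h12]
            _ = (g₁ * g₁) * (g₂ * g₂) := by group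
            _ = 1 := by rw [h1, h2, mul_one]
        · calc g₁ * g₂ * w = g₁ * (g₂ * w) := by group
            _ = g₁ * (w * g₂) := by rw [h2w]
            _ = (g₁ * w) * g₂ := by group
            _ = w * g₁ * g₂ := by rw [h1w]
            _ = w * (g₁ * g₂) := by group
        · intro s hs
          calc g₁ * g₂ * s = g₁ * (g₂ * s) := by group
            _ = g₁ * (s * g₂) := by rw [h2c s hs]
            _ = (g₁ * s) * g₂ := by group
            _ = s * g₁ * g₂ := by rw [h1c s hs]
            _ = s * (g₁ * g₂) := by group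
      inv_mem' := by
        rintro g ⟨h1, h1w, h1c⟩
        have hg : g⁻¹ = g := inv_eq_of_mul_eq_one_right h1
        rw [Set.mem_setOf_eq, hg]
        exact ⟨h1, h1w, h1c⟩ }
  have hEmem : ∀ g : S, g ∈ E ↔ (g * g = 1 ∧ g * w = w * g ∧ ∀ s : S, s * w = w * s → g * s = s * g) :=
    fun g => Iff.rfl
  have huE : u ∈ E := (hEmem u).mpr ⟨hu2, hu w, fun s _ => hu s⟩
  have hvE : v ∈ E := (hEmem v).mpr ⟨hv2, hv w, fun s _ => hv s⟩
  have hwE : w ∈ E := (hEmem w).mpr ⟨hw2, rfl, fun s hs => hs.symm⟩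
  have hcard := h E ⟨⟨fun a b => Subtype.ext (((hEmem a).mp a.2).2.2 b ((hEmem b).mp b.2).2.1)⟩⟩
    (fun a ha => by rw [pow_two]; exact ((hEmem a).mp ha).1)
  have huv1 : u * v ≠ 1 := by
    intro h1
    apply huv
    calc u = u * (v * v) := by rw [hv2, mul_one]
      _ = (u * v) * v := by group
      _ = v := by rw [h1, one_mul]
  have hcard5 : ({1, u, v, u * v, w} : Finset S).card = 5 := by
    rw [Finset.card_insert_of_notMem, Finset.card_insert_of_notMem,
      Finset.card_insert_of_notMem, Finset.card_pair (Ne.symm hwuv)]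
    · simp only [Finset.mem_insert, Finset.mem_singleton, not_or]
      refine ⟨?_, Ne.symm hwv⟩
      intro h1
      apply hu1
      calc u = u * v * v := by rw [mul_assoc, hv2, mul_one]
        _ = v * v := by rw [← h1]
        _ = 1 := hv2
    · simp only [Finset.mem_insert, Finset.mem_singleton, not_or]
      refine ⟨huv, ?_, Ne.symm hwu⟩
      intro h1
      apply hv1
      calc v = u * (u * v) := by rw [← mul_assoc, hu2, one_mul]
        _ = u * u := by rw [← h1]
        _ = 1 := hu2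
    · simp only [Finset.mem_insert, Finset.mem_singleton, not_or]
      exact ⟨Ne.symm hu1, Ne.symm hv1, Ne.symm huv1, Ne.symm hw1⟩
  have hsub : ∀ x ∈ ({1, u, v, u * v, w} : Finset S), x ∈ E := by
    intro x hx
    simp only [Finset.mem_insert, Finset.mem_singleton] at hx
    rcases hx with rfl | rfl | rfl | rfl | rfl
    · exact E.one_mem
    · exact huE
    · exact hvE
    · exact E.mul_mem huE hvE
    · exact hwE
  have h5 : 5 ≤ Nat.card E := by
    have h' := Set.ncard_le_ncard (s := (↑({1, u, v, u * v, w} : Finset S) : Set S))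
      (t := (E : Set S)) (fun x hx => hsub x (Finset.mem_coe.mp hx)) (Set.toFinite _)
    rw [Set.ncard_coe_finset, hcard5] at h'
    rwa [← Nat.card_coe_set_eq] at h'
  norm_num at hcard
  omega

theorem comm_of_gens {Q : Type*} [Group Q] (T : Set Q) (hT : Subgroup.closure T = ⊤)
    (hc : ∀ x ∈ T, ∀ y ∈ T, x * y = y * x) : ∀ x y : Q, x * y = y * x := by
  have h1 : ∀ x ∈ T, ∀ y : Q, x * y = y * x := by
    intro x hx y
    have hle : Subgroup.closure T ≤ Subgroup.centralizer {x} := by
      rw [Subgroup.closure_le]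
      intro t ht
      rw [SetLike.mem_coe, Subgroup.mem_centralizer_iff]
      intro h hh
      rw [Set.mem_singleton_iff] at hh
      subst hh
      exact hc _ hx t ht
    have hy : y ∈ Subgroup.centralizer {x} := hle (hT ▸ Subgroup.mem_top y)
    rw [Subgroup.mem_centralizer_iff] at hy
    exact hy x rfl
  intro x y
  have hle : Subgroup.closure T ≤ Subgroup.center Q := by
    rw [Subgroup.closure_le]
    intro t ht
    rw [SetLike.mem_coe, Subgroup.mem_center_iff]
    intro g
    exact (h1 t ht g).symm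
  have hx : x ∈ Subgroup.center Q := hle (hT ▸ Subgroup.mem_top x)
  exact ((Subgroup.mem_center_iff.mp hx) y).symm

theorem exists_two_gens {S : Type u} [Group S] [Finite S] (h2 : IsPGroup 2 S) (h : SecR S) :
    ∃ x y : S, Subgroup.closure {x, y} = ⊤ := by
  haveI : Fact (Nat.Prime 2) := ⟨Nat.prime_two⟩
  have hexp : ∀ q : S ⧸ frattini S, q ^ 2 = 1 := by
    intro q
    refine QuotientGroup.induction_on q (fun s => ?_)
    rw [← QuotientGroup.mk_pow, QuotientGroup.eq_one_iff]
    exact Cfsg.Agent.Lib.Helper70.FrattiniQuot.pow_mem_frattini h2 s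
  have hcomm := Cfsg.Agent.Lib.Helper73.MaxClass.comm_of_sq hexp
  have hQ : Cfsg.PRankLE 2 2 (S ⧸ frattini S) :=
    h (S ⧸ frattini S) ⊤ ((QuotientGroup.mk' (frattini S)).comp (Subgroup.subtype ⊤))
      (fun q => by
        obtain ⟨s, rfl⟩ := QuotientGroup.mk'_surjective (frattini S) q
        exact ⟨⟨s, Subgroup.mem_top s⟩, rfl⟩)
  have hcard : Nat.card (S ⧸ frattini S) ≤ 4 := by
    have h' := hQ ⊤ ⟨⟨fun a b => Subtype.ext (hcomm a b)⟩⟩ (fun a _ => hexp a)
    rw [Subgroup.card_top] at h'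
    norm_num at h'
    exact h'
  obtain ⟨q₁, q₂, hq⟩ : ∃ q₁ q₂ : S ⧸ frattini S, Subgroup.closure {q₁, q₂} = ⊤ := by
    by_cases h1 : ∃ q₁ : S ⧸ frattini S, q₁ ≠ 1
    · obtain ⟨q₁, hq₁⟩ := h1
      by_cases h2' : ∃ q₂ : S ⧸ frattini S, q₂ ∉ Subgroup.zpowers q₁
      · obtain ⟨q₂, hq₂⟩ := h2'
        refine ⟨q₁, q₂, ?_⟩
        obtain ⟨K, hK⟩ : ∃ K, K = Subgroup.closure ({q₁, q₂} : Set (S ⧸ frattini S)) := ⟨_, rfl⟩
        rw [← hK]
        have hle : Subgroup.zpowers q₁ ≤ K := by
          rw [Subgroup.zpowers_le, hK]; exact Subgroup.subset_closure (Set.mem_insert _ _)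
        have hq₂K : q₂ ∈ K := by
          rw [hK]; exact Subgroup.subset_closure (Set.mem_insert_of_mem _ rfl)
        have hd : Nat.card (Subgroup.zpowers q₁) ∣ Nat.card K := Subgroup.card_dvd_of_le hle
        have ho : Nat.card (Subgroup.zpowers q₁) = 2 := by
          rw [Nat.card_zpowers]; exact orderOf_eq_prime (hexp q₁) hq₁
        have hne : Nat.card (Subgroup.zpowers q₁) ≠ Nat.card K := by
          intro heq
          have := Subgroup.eq_of_le_of_card_ge hle heq.ge
          exact hq₂ (this ▸ hq₂K)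
        have hKle : Nat.card K ≤ Nat.card (S ⧸ frattini S) := Subgroup.card_le_card_group K
        have hKpos : 0 < Nat.card K := Nat.card_pos
        apply Subgroup.eq_top_of_card_eq
        rw [ho] at hd hne
        obtain ⟨m, hm⟩ := hd
        omega
      · push Not at h2'
        refine ⟨q₁, q₁, ?_⟩
        rw [Set.pair_eq_singleton, ← Subgroup.zpowers_eq_closure]
        exact (Subgroup.eq_top_iff' _).mpr h2'
    · push Not at h1
      refine ⟨1, 1, ?_⟩
      rw [eq_top_iff]
      intro q _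
      rw [h1 q]
      exact Subgroup.one_mem _
  obtain ⟨x, rfl⟩ := QuotientGroup.mk'_surjective (frattini S) q₁
  obtain ⟨y, rfl⟩ := QuotientGroup.mk'_surjective (frattini S) q₂
  refine ⟨x, y, ?_⟩
  apply frattini_nongenerating
  rw [eq_top_iff]
  intro s _
  have hs : QuotientGroup.mk' (frattini S) s ∈ Subgroup.closure
      {QuotientGroup.mk' (frattini S) x, QuotientGroup.mk' (frattini S) y} := by
    rw [hq]; trivial
  have himg : Subgroup.closure
      {QuotientGroup.mk' (frattini S) x, QuotientGroup.mk' (frattini S) y}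
      = (Subgroup.closure {x, y}).map (QuotientGroup.mk' (frattini S)) := by
    rw [MonoidHom.map_closure, Set.image_pair]
  rw [himg] at hs
  obtain ⟨k, hk, hks⟩ := hs
  have hmem : k⁻¹ * s ∈ frattini S := by
    rw [← QuotientGroup.eq]
    exact hks
  have hsk : s = k * (k⁻¹ * s) := by group
  rw [hsk]
  exact Subgroup.mul_mem_sup hk hmem

theorem metacyclic_of_gens {S : Type u} [Group S] (x y : S)
    (hxy : Subgroup.closure {x, y} = ⊤)
    (hn : ∀ s : S, s * x * s⁻¹ ∈ Subgroup.zpowers x) : Cfsg.IsMetacyclic S := by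
  have hN : (Subgroup.zpowers x).Normal := by
    constructor
    intro n hn' g
    obtain ⟨k, rfl⟩ := Subgroup.mem_zpowers_iff.mp hn'
    have h1 : g * x ^ k * g⁻¹ = (g * x * g⁻¹) ^ k := by rw [conj_zpow]
    rw [h1]
    exact Subgroup.zpow_mem _ (hn g) k
  refine ⟨Subgroup.zpowers x, hN, inferInstance, ?_⟩
  rw [isCyclic_iff_exists_zpowers_eq_top]
  refine ⟨QuotientGroup.mk' (Subgroup.zpowers x) y, ?_⟩
  have h1 : (Subgroup.closure {x, y}).map (QuotientGroup.mk' (Subgroup.zpowers x)) = ⊤ := by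
    rw [hxy]
    exact Subgroup.map_top_of_surjective _ (QuotientGroup.mk'_surjective _)
  rw [MonoidHom.map_closure, Set.image_pair] at h1
  have hx1 : QuotientGroup.mk' (Subgroup.zpowers x) x = 1 := by
    rw [QuotientGroup.mk'_apply, QuotientGroup.eq_one_iff]
    exact Subgroup.mem_zpowers x
  rw [hx1, Subgroup.closure_insert_one] at h1
  exact (Subgroup.zpowers_eq_closure _).trans h1

theorem zpow_invol {S : Type u} [Group S] (z : S) (hz : z * z = 1) (e : ℤ) :
    z ^ e = 1 ∨ z ^ e = z := by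
  have h2 : z ^ (2 : ℤ) = 1 := by rw [zpow_ofNat, pow_two, hz]
  rcases Int.even_or_odd' e with ⟨m, rfl | rfl⟩
  · left
    rw [zpow_mul, h2, one_zpow]
  · right
    rw [zpow_add, zpow_mul, h2, one_zpow, one_mul, zpow_one]

theorem invol_aux {S : Type u} [Group S] (w : S) (hw : w * w = 1) (k : ℤ) :
    w ^ (1 - k) * w = w ^ k := by
  have h2 : w ^ (2 : ℤ) = 1 := by rw [zpow_ofNat, pow_two, hw]
  have h3 : (1 - k) + 1 = k + 2 * (1 - k) := by ring
  calc w ^ (1 - k) * w = w ^ ((1 - k) + 1) := by rw [zpow_add, zpow_one]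
    _ = w ^ (k + 2 * (1 - k)) := by rw [h3]
    _ = w ^ k := by rw [zpow_add, zpow_mul, h2, one_zpow, mul_one]

theorem lift_data {S : Type u} [Group S] (z : S) (hz2 : z * z = 1)
    [hN : (Subgroup.zpowers z).Normal]
    (hm : Cfsg.IsMetacyclic (S ⧸ Subgroup.zpowers z)) :
    ∃ a b : S, Subgroup.closure {a, b, z} = ⊤ ∧
      ∀ s : S, ∃ k : ℤ, s * a * s⁻¹ = a ^ k ∨ s * a * s⁻¹ = a ^ k * z := by
  obtain ⟨M, hMn, hMc, hQc⟩ := hm
  obtain ⟨⟨m, hmM⟩, hmgen⟩ := hMc.exists_zpow_surjective
  obtain ⟨q, hqgen⟩ := hQc.exists_zpow_surjective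
  obtain ⟨a, rfl⟩ := QuotientGroup.mk'_surjective _ m
  obtain ⟨q', rfl⟩ := QuotientGroup.mk'_surjective M q
  obtain ⟨b, rfl⟩ := QuotientGroup.mk'_surjective (Subgroup.zpowers z) q'
  have key : ∀ t : S, QuotientGroup.mk' (Subgroup.zpowers z) t ∈ M →
      ∃ k : ℤ, ∃ e : ℤ, t = a ^ k * z ^ e := by
    intro t ht
    obtain ⟨k, hk⟩ := hmgen ⟨_, ht⟩
    have hk' : (QuotientGroup.mk' (Subgroup.zpowers z) a) ^ k
        = QuotientGroup.mk' (Subgroup.zpowers z) t := by
      have := congrArg Subtype.val hk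
      simpa using this
    rw [← map_zpow] at hk'
    have hmem : (a ^ k)⁻¹ * t ∈ Subgroup.zpowers z := by
      rw [← QuotientGroup.eq]
      exact hk'
    obtain ⟨e, he⟩ := Subgroup.mem_zpowers_iff.mp hmem
    refine ⟨k, e, ?_⟩
    rw [he]; group
  refine ⟨a, b, ?_, ?_⟩
  · rw [eq_top_iff]
    intro s _
    obtain ⟨n, hn⟩ := hqgen (QuotientGroup.mk' M (QuotientGroup.mk' (Subgroup.zpowers z) s))
    have h1 : QuotientGroup.mk' (Subgroup.zpowers z) ((b ^ n)⁻¹ * s) ∈ M := by
      have hn' : QuotientGroup.mk' M ((QuotientGroup.mk' (Subgroup.zpowers z) b) ^ n)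
          = QuotientGroup.mk' M (QuotientGroup.mk' (Subgroup.zpowers z) s) := by
        rw [map_zpow]; exact hn
      rw [map_mul, map_inv, map_zpow, ← QuotientGroup.eq]
      exact hn'
    obtain ⟨k, e, hke⟩ := key _ h1
    have hs : s = b ^ n * (a ^ k * z ^ e) := by rw [← hke]; group
    rw [hs]
    have ha : a ∈ Subgroup.closure ({a, b, z} : Set S) := Subgroup.subset_closure (by simp)
    have hb : b ∈ Subgroup.closure ({a, b, z} : Set S) := Subgroup.subset_closure (by simp)
    have hz : z ∈ Subgroup.closure ({a, b, z} : Set S) := Subgroup.subset_closure (by simp)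
    exact Subgroup.mul_mem _ (Subgroup.zpow_mem _ hb n)
      (Subgroup.mul_mem _ (Subgroup.zpow_mem _ ha k) (Subgroup.zpow_mem _ hz e))
  · intro s
    have h1 : QuotientGroup.mk' (Subgroup.zpowers z) (s * a * s⁻¹) ∈ M := by
      rw [map_mul, map_mul, map_inv]
      exact hMn.conj_mem _ hmM _
    obtain ⟨k, e, hke⟩ := key _ h1
    rcases zpow_invol z hz2 e with h | h
    · exact ⟨k, Or.inl (by rw [hke, h, mul_one])⟩
    · exact ⟨k, Or.inr (by rw [hke, h])⟩

theorem comm_le {S : Type u} [Group S] [Finite S] (z : S) (hzc : ∀ s : S, z * s = s * z)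
    (hz2 : z * z = 1) (a b : S) (hgen : Subgroup.closure {a, b, z} = ⊤)
    (hconj : ∀ s : S, ∃ k : ℤ, s * a * s⁻¹ = a ^ k ∨ s * a * s⁻¹ = a ^ k * z) :
    commutator S ≤ Subgroup.zpowers (a * b * a⁻¹ * b⁻¹) ∧
      (a * b * a⁻¹ * b⁻¹) * (a * b * a⁻¹ * b⁻¹) ∈ Subgroup.zpowers a := by
  obtain ⟨k, w, hwc, hw2, hX⟩ : ∃ k : ℤ, ∃ w : S, (∀ s : S, w * s = s * w) ∧ w * w = 1 ∧
      b * a * b⁻¹ = a ^ k * w := by
    obtain ⟨k, hk | hk⟩ := hconj b
    · exact ⟨k, 1, fun s => by simp, by simp, by rw [hk, mul_one]⟩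
    · exact ⟨k, z, hzc, hz2, hk⟩
  obtain ⟨c, hcdef⟩ : ∃ c : S, c = a * b * a⁻¹ * b⁻¹ := ⟨_, rfl⟩
  rw [← hcdef]
  have hw_inv : w⁻¹ = w := inv_eq_of_mul_eq_one_right hw2
  have hc : c = a ^ (1 - k) * w := by
    calc c = a * (b * a * b⁻¹)⁻¹ := by rw [hcdef]; group
      _ = a * (a ^ k * w)⁻¹ := by rw [hX]
      _ = a * (w * (a ^ k)⁻¹) := by rw [mul_inv_rev, hw_inv]
      _ = a * ((a ^ k)⁻¹ * w) := by rw [hwc]
      _ = a ^ (1 - k) * w := by rw [← mul_assoc, sub_eq_add_neg, zpow_add, zpow_one, zpow_neg]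
  have hac : a * c * a⁻¹ = c := by
    rw [hc]
    calc a * (a ^ (1 - k) * w) * a⁻¹ = a * a ^ (1 - k) * (w * a⁻¹) := by simp only [mul_assoc]
      _ = a * a ^ (1 - k) * (a⁻¹ * w) := by rw [hwc]
      _ = a ^ (1 - k) * a * (a⁻¹ * w) := by rw [(Commute.self_zpow a (1 - k)).eq]
      _ = a ^ (1 - k) * w := by simp only [mul_assoc, mul_inv_cancel_left]
  have hbc : b * c * b⁻¹ = c ^ k := by
    have h1 : b * c * b⁻¹ = (b * a * b⁻¹) ^ (1 - k) * w := by
      rw [hc, conj_zpow]
      calc b * (a ^ (1 - k) * w) * b⁻¹ = b * a ^ (1 - k) * (w * b⁻¹) := by simp only [mul_assoc]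
        _ = b * a ^ (1 - k) * (b⁻¹ * w) := by rw [hwc]
        _ = b * a ^ (1 - k) * b⁻¹ * w := by simp only [mul_assoc]
    have hcw : ∀ x : S, Commute x w := fun x => (hwc x).symm
    rw [h1, hX, (hcw _).mul_zpow, hc, (hcw _).mul_zpow, mul_assoc, invol_aux w hw2 k,
      ← zpow_mul, ← zpow_mul, mul_comm k (1 - k)]
  have hzcc : z * c * z⁻¹ = c := by rw [hzc c, mul_assoc, mul_inv_cancel, mul_one]
  -- the set of elements conjugating `c` into `⟨c⟩`
  have hmulP : ∀ s t : S, s * c * s⁻¹ ∈ Subgroup.zpowers c → t * c * t⁻¹ ∈ Subgroup.zpowers c →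
      (s * t) * c * (s * t)⁻¹ ∈ Subgroup.zpowers c := by
    intro s t hs ht
    obtain ⟨m, hm⟩ := Subgroup.mem_zpowers_iff.mp ht
    have h1 : (s * t) * c * (s * t)⁻¹ = (s * c * s⁻¹) ^ m := by
      rw [conj_zpow, hm]; group
    rw [h1]
    exact Subgroup.zpow_mem _ hs m
  have hpowP : ∀ (s : S) (n : ℕ), s * c * s⁻¹ ∈ Subgroup.zpowers c →
      (s ^ n) * c * (s ^ n)⁻¹ ∈ Subgroup.zpowers c := by
    intro s n hs
    induction n with
    | zero => simp
    | succ n ih => rw [pow_succ]; exact hmulP _ _ ih hs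
  let K : Subgroup S :=
    { carrier := {s | s * c * s⁻¹ ∈ Subgroup.zpowers c}
      one_mem' := by simp
      mul_mem' := fun {s t} hs ht => hmulP s t hs ht
      inv_mem' := by
        intro s hs
        have h1 : s⁻¹ = s ^ (orderOf s - 1) := by
          apply inv_eq_of_mul_eq_one_right
          rw [← pow_succ', Nat.sub_add_cancel (orderOf_pos s), pow_orderOf_eq_one]
        rw [Set.mem_setOf_eq, h1]
        exact hpowP s _ hs }
  have hKtop : ∀ s : S, s * c * s⁻¹ ∈ Subgroup.zpowers c := by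
    intro s
    have hle : Subgroup.closure ({a, b, z} : Set S) ≤ K := by
      rw [Subgroup.closure_le]
      intro t ht
      simp only [Set.mem_insert_iff, Set.mem_singleton_iff] at ht
      show t * c * t⁻¹ ∈ Subgroup.zpowers c
      rcases ht with rfl | rfl | rfl
      · rw [hac]; exact Subgroup.mem_zpowers c
      · rw [hbc]; exact Subgroup.zpow_mem _ (Subgroup.mem_zpowers c) k
      · rw [hzcc]; exact Subgroup.mem_zpowers c
    exact hle (hgen ▸ Subgroup.mem_top s)
  haveI hNc : (Subgroup.zpowers c).Normal := by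
    constructor
    intro n hn g
    obtain ⟨m, rfl⟩ := Subgroup.mem_zpowers_iff.mp hn
    have h1 : g * c ^ m * g⁻¹ = (g * c * g⁻¹) ^ m := by rw [conj_zpow]
    rw [h1]
    exact Subgroup.zpow_mem _ (hKtop g) m
  constructor
  · have hgenQ : Subgroup.closure ((QuotientGroup.mk' (Subgroup.zpowers c)) '' ({a, b, z} : Set S))
        = ⊤ := by
      rw [← MonoidHom.map_closure, hgen]
      exact Subgroup.map_top_of_surjective _ (QuotientGroup.mk'_surjective _)
    have hab : QuotientGroup.mk' (Subgroup.zpowers c) a * QuotientGroup.mk' (Subgroup.zpowers c) b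
        = QuotientGroup.mk' (Subgroup.zpowers c) b * QuotientGroup.mk' (Subgroup.zpowers c) a := by
      rw [← map_mul, ← map_mul]
      apply (QuotientGroup.eq_iff_div_mem).mpr
      have h1 : a * b / (b * a) = c := by rw [hcdef, div_eq_mul_inv]; group
      rw [h1]
      exact Subgroup.mem_zpowers c
    have hz : ∀ q : S ⧸ Subgroup.zpowers c, QuotientGroup.mk' (Subgroup.zpowers c) z * q
        = q * QuotientGroup.mk' (Subgroup.zpowers c) z := by
      intro q
      obtain ⟨s, rfl⟩ := QuotientGroup.mk'_surjective _ q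
      rw [← map_mul, ← map_mul, hzc s]
    have hQ := comm_of_gens _ hgenQ (by
      rintro _ ⟨x, hx, rfl⟩ _ ⟨y, hy, rfl⟩
      simp only [Set.mem_insert_iff, Set.mem_singleton_iff] at hx hy
      rcases hx with rfl | rfl | rfl <;> rcases hy with rfl | rfl | rfl
      · rfl
      · exact hab
      · exact (hz _).symm
      · exact hab.symm
      · rfl
      · exact (hz _).symm
      · exact hz _
      · exact hz _
      · rfl)
    rw [commutator_def, Subgroup.commutator_le]
    intro g₁ _ g₂ _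
    have h1 := hQ (QuotientGroup.mk' (Subgroup.zpowers c) g₁)
      (QuotientGroup.mk' (Subgroup.zpowers c) g₂)
    rw [← map_mul, ← map_mul] at h1
    have h2 := (QuotientGroup.eq_iff_div_mem).mp h1
    have h3 : g₁ * g₂ / (g₂ * g₁) = g₁ * g₂ * g₁⁻¹ * g₂⁻¹ := by rw [div_eq_mul_inv]; group
    rw [h3] at h2
    exact h2
  · have h1 : c * c = a ^ (1 - k) * a ^ (1 - k) := by
      rw [hc]
      calc a ^ (1 - k) * w * (a ^ (1 - k) * w) = a ^ (1 - k) * (w * a ^ (1 - k)) * w := by
            simp only [mul_assoc]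
        _ = a ^ (1 - k) * (a ^ (1 - k) * w) * w := by rw [hwc]
        _ = a ^ (1 - k) * a ^ (1 - k) * (w * w) := by simp only [mul_assoc]
        _ = a ^ (1 - k) * a ^ (1 - k) := by rw [hw2, mul_one]
    rw [h1]
    exact Subgroup.mul_mem _ (Subgroup.zpow_mem _ (Subgroup.mem_zpowers a) _)
      (Subgroup.zpow_mem _ (Subgroup.mem_zpowers a) _)


/-- class two with commutator subgroup `{1, c}` -/
structure C2 {S : Type u} [Group S] (c : S) : Prop where
  cent : ∀ s : S, c * s = s * c
  sq : c * c = 1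
  ne : c ≠ 1
  comm : ∀ g h : S, g * h = h * g ∨ g * h = h * g * c

theorem C2.sq_cent {S : Type u} [Group S] {c : S} (hc : C2 c) (g h : S) :
    g * g * h = h * (g * g) := by
  rcases hc.comm g h with e | e
  · calc g * g * h = g * (g * h) := by rw [mul_assoc]
      _ = g * (h * g) := by rw [e]
      _ = (g * h) * g := by rw [mul_assoc]
      _ = h * g * g := by rw [e]
      _ = h * (g * g) := by rw [mul_assoc]
  · calc g * g * h = g * (g * h) := by rw [mul_assoc]
      _ = g * (h * g * c) := by rw [e]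
      _ = (g * h) * (g * c) := by simp only [mul_assoc]
      _ = (h * g * c) * (g * c) := by rw [e]
      _ = h * g * (c * g) * c := by simp only [mul_assoc]
      _ = h * g * (g * c) * c := by rw [hc.cent g]
      _ = h * (g * g) * (c * c) := by simp only [mul_assoc]
      _ = h * (g * g) := by rw [hc.sq, mul_one]

theorem C2.mul_sq {S : Type u} [Group S] {c : S} (hc : C2 c) (g h : S) (hgh : g * h ≠ h * g) :
    (g * h) * (g * h) = g * g * (h * h) * c := by
  have e : g * h = h * g * c := (hc.comm g h).resolve_left hgh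
  have e' : h * g = g * h * c := by
    rw [e, mul_assoc (h * g), hc.sq, mul_one]
  calc (g * h) * (g * h) = g * (h * g) * h := by simp only [mul_assoc]
    _ = g * (g * h * c) * h := by rw [← e']
    _ = g * g * h * (c * h) := by simp only [mul_assoc]
    _ = g * g * h * (h * c) := by rw [hc.cent h]
    _ = g * g * (h * h) * c := by simp only [mul_assoc]

theorem C2.pow_cent {S : Type u} [Group S] {c : S} (hc : C2 c) (g : S) (m : ℕ) (s : S) :
    g ^ (2 ^ (m + 1)) * s = s * g ^ (2 ^ (m + 1)) := by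
  have h1 : g ^ (2 ^ (m + 1)) = g ^ (2 ^ m) * g ^ (2 ^ m) := by
    rw [← pow_add, pow_succ, mul_two]
  rw [h1]
  exact hc.sq_cent _ s

theorem C2.two_pow_mul {S : Type u} [Group S] {c : S} (hc : C2 c) (g h : S) (hgh : g * h ≠ h * g)
    (k : ℕ) :
    (g * h) ^ (2 ^ (k + 1)) = g ^ (2 ^ (k + 1)) * h ^ (2 ^ (k + 1)) * c ^ (2 ^ k) := by
  have h1 : (g * h) ^ 2 = g ^ 2 * h ^ 2 * c := by
    rw [pow_two, pow_two, pow_two]; exact hc.mul_sq g h hgh
  have hc1 : Commute (g ^ 2 * h ^ 2) c := (hc.cent _).symm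
  have hc2 : Commute (g ^ 2) (h ^ 2) := by
    rw [pow_two, pow_two]; exact hc.sq_cent g (h * h)
  rw [pow_succ' 2 k, pow_mul, pow_mul, pow_mul, h1, hc1.mul_pow, hc2.mul_pow]

theorem top_invol {S : Type u} [Group S] (a : S) (i : ℕ) (ho : orderOf a = 2 ^ (i + 1)) :
    a ^ (2 ^ i) * a ^ (2 ^ i) = 1 ∧ a ^ (2 ^ i) ≠ 1 := by
  constructor
  · rw [← pow_add, ← mul_two, ← pow_succ, ← ho, pow_orderOf_eq_one]
  · intro h
    have h1 := orderOf_dvd_of_pow_eq_one h
    rw [ho] at h1
    have h2 := Nat.le_of_dvd (by positivity) h1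
    have h3 : 2 ^ i < 2 ^ (i + 1) := Nat.pow_lt_pow_right (by norm_num) (Nat.lt_succ_self i)
    omega

theorem gen_of {S : Type u} [Group S] {a b x y : S} (h : Subgroup.closure {a, b} = ⊤)
    (ha : a ∈ Subgroup.closure {x, y}) (hb : b ∈ Subgroup.closure {x, y}) :
    Subgroup.closure {x, y} = ⊤ := by
  rw [eq_top_iff, ← h, Subgroup.closure_le]
  intro t ht
  simp only [Set.mem_insert_iff, Set.mem_singleton_iff] at ht
  rcases ht with rfl | rfl
  · exact ha
  · exact hb

theorem mem_l {S : Type u} [Group S] (x y : S) : x ∈ Subgroup.closure ({x, y} : Set S) :=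
  Subgroup.subset_closure (Set.mem_insert _ _)

theorem mem_r {S : Type u} [Group S] (x y : S) : y ∈ Subgroup.closure ({x, y} : Set S) :=
  Subgroup.subset_closure (Set.mem_insert_of_mem _ rfl)

theorem gen_ab {S : Type u} [Group S] {a b : S} (h : Subgroup.closure {a, b} = ⊤) :
    Subgroup.closure {a * b, b} = ⊤ := by
  refine gen_of h ?_ (mem_r _ _)
  have h1 : (a * b) * b⁻¹ ∈ Subgroup.closure ({a * b, b} : Set S) :=
    Subgroup.mul_mem _ (mem_l _ _) (Subgroup.inv_mem _ (mem_r _ _))
  rwa [mul_inv_cancel_right] at h1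

theorem gen_a_ab {S : Type u} [Group S] {a b : S} (h : Subgroup.closure {a, b} = ⊤) :
    Subgroup.closure {a, a * b} = ⊤ := by
  refine gen_of h (mem_l _ _) ?_
  have h1 : a⁻¹ * (a * b) ∈ Subgroup.closure ({a, a * b} : Set S) :=
    Subgroup.mul_mem _ (Subgroup.inv_mem _ (mem_l _ _)) (mem_r _ _)
  rwa [inv_mul_cancel_left] at h1

theorem C2.step {S : Type u} [Group S] [Finite S] (h2 : IsPGroup 2 S)
    (hr : Cfsg.PRankLE 2 2 S) {c : S} (hc : C2 c)
    (hna : ∀ x y : S, Subgroup.closure {x, y} = ⊤ → x * y ≠ y * x)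
    (a b : S) (hgen : Subgroup.closure {a, b} = ⊤) (hle : orderOf b ≤ orderOf a)
    (IH : ∀ a' b' : S, Subgroup.closure {a', b'} = ⊤ →
      orderOf a' + orderOf b' < orderOf a + orderOf b →
      ∃ x y : S, Subgroup.closure {x, y} = ⊤ ∧ c ∈ Subgroup.zpowers x) :
    ∃ x y : S, Subgroup.closure {x, y} = ⊤ ∧ c ∈ Subgroup.zpowers x := by
  haveI : Fact (Nat.Prime 2) := ⟨Nat.prime_two⟩
  have hab : a * b ≠ b * a := hna a b hgen
  have ha1 : a ≠ 1 := by rintro rfl; exact hab (by simp)
  have hb1 : b ≠ 1 := by rintro rfl; exact hab (by simp)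
  have hbnc : ¬ ∀ s : S, b * s = s * b := fun h => hab (h a).symm
  have habnc : ¬ ∀ s : S, (a * b) * s = s * (a * b) := by
    intro h
    apply hab
    have h1 := h a
    rw [mul_assoc] at h1
    exact (mul_left_cancel h1).symm
  obtain ⟨i', hi'⟩ := (IsPGroup.iff_orderOf.mp h2) a
  obtain ⟨j', hj'⟩ := (IsPGroup.iff_orderOf.mp h2) b
  have hi0 : i' ≠ 0 := by
    rintro rfl
    rw [pow_zero, orderOf_eq_one_iff] at hi'
    exact ha1 hi'
  have hj0 : j' ≠ 0 := by
    rintro rfl
    rw [pow_zero, orderOf_eq_one_iff] at hj'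
    exact hb1 hj'
  obtain ⟨i, rfl⟩ := Nat.exists_eq_succ_of_ne_zero hi0
  obtain ⟨j, rfl⟩ := Nat.exists_eq_succ_of_ne_zero hj0
  have hji : j ≤ i := by
    rw [hi', hj'] at hle
    have := (Nat.pow_le_pow_iff_right (by norm_num : 1 < 2)).mp hle
    omega
  obtain ⟨ha2, ha0⟩ := top_invol a i hi'
  obtain ⟨hb2, hb0⟩ := top_invol b j hj'
  rcases Nat.eq_zero_or_pos j with hj | hjpos
  · -- `b` is an involution
    rw [hj] at hb2
    have hb2' : b * b = 1 := by simpa using hb2
    rcases Nat.eq_zero_or_pos i with hi | hipos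
    · rw [hi] at ha2
      have ha2' : a * a = 1 := by simpa using ha2
      refine ⟨a * b, b, gen_ab hgen, ?_⟩
      have h1 := hc.mul_sq a b hab
      rw [ha2', hb2', one_mul, one_mul] at h1
      rw [← h1, ← pow_two]
      exact Subgroup.pow_mem _ (Subgroup.mem_zpowers _) 2
    · obtain ⟨i₀, hi₀⟩ := Nat.exists_eq_succ_of_ne_zero hipos.ne'
      rw [hi₀] at ha2 ha0
      have hac : ∀ s : S, a ^ (2 ^ (i₀ + 1)) * s = s * a ^ (2 ^ (i₀ + 1)) := hc.pow_cent a i₀
      by_cases h1 : a ^ (2 ^ (i₀ + 1)) = c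
      · exact ⟨a, b, hgen, h1 ▸ Subgroup.pow_mem _ (Subgroup.mem_zpowers a) _⟩
      · exfalso
        refine rank_contra hr (a ^ (2 ^ (i₀ + 1))) c b hac hc.cent ha2 hc.sq hb2' ha0 hc.ne h1
          hb1 ?_ ?_ ?_
        · intro h; exact hbnc (fun s => by rw [h]; exact hac s)
        · intro h; exact hbnc (fun s => by rw [h]; exact hc.cent s)
        · intro h
          exact hbnc (fun s => by rw [h, mul_assoc, hc.cent s, ← mul_assoc, hac s, mul_assoc])
  · obtain ⟨j₀, hj₀⟩ := Nat.exists_eq_succ_of_ne_zero hjpos.ne'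
    obtain ⟨i₀, hi₀⟩ : ∃ i₀, i = i₀ + 1 := ⟨i - 1, by omega⟩
    have hji' : j₀ ≤ i₀ := by omega
    rw [hj₀] at hb2 hb0 hj'
    rw [hi₀] at ha2 ha0 hi'
    obtain ⟨a₀, ha₀⟩ : ∃ a₀ : S, a₀ = a ^ (2 ^ (i₀ + 1)) := ⟨_, rfl⟩
    obtain ⟨b₀, hb₀⟩ : ∃ b₀ : S, b₀ = b ^ (2 ^ (j₀ + 1)) := ⟨_, rfl⟩
    rw [← ha₀] at ha2 ha0
    rw [← hb₀] at hb2 hb0
    have hac : ∀ s : S, a₀ * s = s * a₀ := by rw [ha₀]; exact hc.pow_cent a i₀
    have hbc : ∀ s : S, b₀ * s = s * b₀ := by rw [hb₀]; exact hc.pow_cent b j₀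
    have hcp : ∀ m : ℕ, c ^ (2 ^ (m + 1)) = 1 := by
      intro m
      rw [pow_succ', pow_mul, pow_two, hc.sq, one_pow]
    by_cases h1 : c = a₀
    · exact ⟨a, b, hgen, by rw [h1, ha₀]; exact Subgroup.pow_mem _ (Subgroup.mem_zpowers a) _⟩
    by_cases h2' : c = b₀
    · exact ⟨b, a, by rw [Set.pair_comm]; exact hgen,
        by rw [h2', hb₀]; exact Subgroup.pow_mem _ (Subgroup.mem_zpowers b) _⟩
    have hlt_case : j₀ < i₀ → ∃ u : S, u ∈ Subgroup.zpowers a ∧
        (b * u) ^ (2 ^ (j₀ + 1)) = b₀ * a₀ := by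
      intro hlt
      obtain ⟨d, hd⟩ : ∃ d, i₀ - j₀ = d + 1 := ⟨i₀ - j₀ - 1, by omega⟩
      refine ⟨a ^ (2 ^ (i₀ - j₀)), Subgroup.pow_mem _ (Subgroup.mem_zpowers a) _, ?_⟩
      have hcu : Commute b (a ^ (2 ^ (i₀ - j₀))) := by
        rw [hd]; exact (hc.pow_cent a d b).symm
      rw [hcu.mul_pow, ← pow_mul, ← pow_add, hb₀, ha₀]
      have h3 : i₀ - j₀ + (j₀ + 1) = i₀ + 1 := by omega
      rw [h3]
    have hpow_lt : ∀ m : ℕ, (2 : ℕ) ^ m < 2 ^ (m + 1) := fun m =>
      Nat.pow_lt_pow_right (by norm_num) (Nat.lt_succ_self m)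
    by_cases h3 : a₀ = b₀
    · rcases Nat.lt_or_ge j₀ i₀ with hlt | hge
      · obtain ⟨u, hu, hup⟩ := hlt_case hlt
        have hone : (b * u) ^ (2 ^ (j₀ + 1)) = 1 := by rw [hup, ← h3]; exact ha2
        have hord : orderOf (b * u) ≤ 2 ^ (j₀ + 1) :=
          Nat.le_of_dvd (by positivity) (orderOf_dvd_of_pow_eq_one hone)
        have hgen' : Subgroup.closure {a, b * u} = ⊤ := gen_of hgen (mem_l _ _) (by
          have h4 : (b * u) * u⁻¹ ∈ Subgroup.closure ({a, b * u} : Set S) :=
            Subgroup.mul_mem _ (mem_r _ _)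
              (Subgroup.inv_mem _ ((Subgroup.zpowers_le.mpr (mem_l a (b * u))) hu))
          rwa [mul_inv_cancel_right] at h4)
        have := hpow_lt (j₀ + 1)
        exact IH a (b * u) hgen' (by rw [hj']; omega)
      · have hij : j₀ = i₀ := by omega
        rw [← hij] at ha₀ hi'
        rcases Nat.eq_zero_or_pos j₀ with hz | hpos
        · rw [hz] at ha₀ hb₀
          have h4 := hc.two_pow_mul a b hab 0
          refine ⟨a * b, b, gen_ab hgen, ?_⟩
          have h5 : c = (a * b) ^ (2 ^ (0 + 1)) := by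
            rw [h4, ← ha₀, ← hb₀, h3, hb2, one_mul, pow_zero, pow_one]
          rw [h5]; exact Subgroup.pow_mem _ (Subgroup.mem_zpowers _) _
        · obtain ⟨m, hm⟩ := Nat.exists_eq_succ_of_ne_zero hpos.ne'
          rw [hm] at ha₀ hb₀ hj'
          have h4 := hc.two_pow_mul a b hab (m + 1)
          have hone : (a * b) ^ (2 ^ (m + 1 + 1)) = 1 := by
            rw [h4, hcp m, mul_one, ← ha₀, ← hb₀, h3]; exact hb2
          have hord : orderOf (a * b) ≤ 2 ^ (m + 1 + 1) :=
            Nat.le_of_dvd (by positivity) (orderOf_dvd_of_pow_eq_one hone)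
          have := hpow_lt (m + 1 + 1)
          exact IH a (a * b) (gen_a_ab hgen) (by rw [hj']; omega)
    · have h4 : c = a₀ * b₀ := by
        by_contra h4
        exact rank_contra hr a₀ b₀ c hac hbc ha2 hb2 hc.sq ha0 hb0 h3 hc.ne h1 h2' h4
      rcases Nat.lt_or_ge j₀ i₀ with hlt | hge
      · obtain ⟨u, hu, hup⟩ := hlt_case hlt
        refine ⟨b * u, a, gen_of hgen (mem_r _ _) ?_, ?_⟩
        · have h5 : (b * u) * u⁻¹ ∈ Subgroup.closure ({b * u, a} : Set S) :=
            Subgroup.mul_mem _ (mem_l _ _)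
              (Subgroup.inv_mem _ ((Subgroup.zpowers_le.mpr (mem_r (b * u) a)) hu))
          rwa [mul_inv_cancel_right] at h5
        · have h5 : c = (b * u) ^ (2 ^ (j₀ + 1)) := by rw [hup, h4, hac b₀]
          rw [h5]; exact Subgroup.pow_mem _ (Subgroup.mem_zpowers _) _
      · have hij : j₀ = i₀ := by omega
        rw [← hij] at ha₀ hi'
        rcases Nat.eq_zero_or_pos j₀ with hz | hpos
        · rw [hz] at ha₀ hb₀
          have h5 := hc.two_pow_mul a b hab 0
          have hone : (a * b) * (a * b) = 1 := by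
            have h6 : (a * b) * (a * b) = (a * b) ^ (2 ^ (0 + 1)) := by
              rw [zero_add, pow_one, pow_two]
            rw [h6, h5, ← ha₀, ← hb₀, ← h4, pow_zero, pow_one, hc.sq]
          exfalso
          refine rank_contra hr a₀ b₀ (a * b) hac hbc ha2 hb2 hone ha0 hb0 h3 ?_ ?_ ?_ ?_
          · intro h; exact habnc (fun s => by rw [h, one_mul, mul_one])
          · intro h; exact habnc (fun s => by rw [h]; exact hac s)
          · intro h; exact habnc (fun s => by rw [h]; exact hbc s)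
          · intro h
            exact habnc (fun s => by rw [h, mul_assoc, hbc s, ← mul_assoc, hac s, mul_assoc])
        · obtain ⟨m, hm⟩ := Nat.exists_eq_succ_of_ne_zero hpos.ne'
          rw [hm] at ha₀ hb₀
          have h5 := hc.two_pow_mul a b hab (m + 1)
          refine ⟨a * b, b, gen_ab hgen, ?_⟩
          have h6 : c = (a * b) ^ (2 ^ (m + 1 + 1)) := by
            rw [h5, hcp m, mul_one, ← ha₀, ← hb₀, ← h4]
          rw [h6]; exact Subgroup.pow_mem _ (Subgroup.mem_zpowers _) _

theorem C2.main {S : Type u} [Group S] [Finite S] (h2 : IsPGroup 2 S)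
    (hr : Cfsg.PRankLE 2 2 S) {c : S} (hc : C2 c)
    (hna : ∀ x y : S, Subgroup.closure {x, y} = ⊤ → x * y ≠ y * x) :
    ∀ n : ℕ, ∀ a b : S, Subgroup.closure {a, b} = ⊤ → orderOf a + orderOf b = n →
      ∃ x y : S, Subgroup.closure {x, y} = ⊤ ∧ c ∈ Subgroup.zpowers x := by
  intro n
  induction n using Nat.strong_induction_on with
  | _ n IH =>
    intro a b hgen hn
    rcases le_total (orderOf b) (orderOf a) with hle | hle
    · exact hc.step h2 hr hna a b hgen hle
        (fun a' b' hg' hlt => IH _ (hn ▸ hlt) a' b' hg' rfl)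
    · have hgen' : Subgroup.closure {b, a} = ⊤ := by rw [Set.pair_comm]; exact hgen
      exact hc.step h2 hr hna b a hgen' hle
        (fun a' b' hg' hlt => IH _ (by omega) a' b' hg' rfl)

theorem exists_central_invol {S : Type u} [Group S] [Finite S] (h2 : IsPGroup 2 S)
    (N : Subgroup S) [N.Normal] (hN : N ≠ ⊥) :
    ∃ z ∈ N, (∀ s : S, z * s = s * z) ∧ z * z = 1 ∧ z ≠ 1 := by
  haveI : Fact (Nat.Prime 2) := ⟨Nat.prime_two⟩
  obtain ⟨x, hxN, hx1, hxZ⟩ :=
    Cfsg.Agent.Lib.Helper73.MaxClass.exists_mem_center_of_normal h2 N hN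
  obtain ⟨k, hk⟩ := (IsPGroup.iff_orderOf.mp h2) x
  have hk0 : k ≠ 0 := by
    rintro rfl
    rw [pow_zero, orderOf_eq_one_iff] at hk
    exact hx1 hk
  obtain ⟨k, rfl⟩ := Nat.exists_eq_succ_of_ne_zero hk0
  obtain ⟨h1, h2'⟩ := top_invol x k hk
  refine ⟨x ^ (2 ^ k), N.pow_mem hxN _, ?_, h1, h2'⟩
  intro s
  have := Subgroup.mem_center_iff.mp ((Subgroup.center S).pow_mem hxZ (2 ^ k)) s
  exact this.symm

theorem main : ∀ (n : ℕ) (S : Type u) [Group S] [Finite S], Nat.card S = n → IsPGroup 2 S →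
    SecR S → Cfsg.IsMetacyclic S := by
  intro n
  induction n using Nat.strong_induction_on with
  | _ n IH =>
    intro S _ _ hcard h2 hsec
    obtain ⟨x, y, hxy⟩ := exists_two_gens h2 hsec
    have hpair : ∀ x' y' : S, Subgroup.closure {x', y'} = ⊤ → x' * y' = y' * x' →
        ∀ g h : S, g * h = h * g := by
      intro x' y' hg hcm
      exact comm_of_gens {x', y'} hg (by
        intro g hg' h hh
        simp only [Set.mem_insert_iff, Set.mem_singleton_iff] at hg' hh
        rcases hg' with rfl | rfl <;> rcases hh with rfl | rfl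
        · rfl
        · exact hcm
        · exact hcm.symm
        · rfl)
    by_cases hcomm : x * y = y * x
    · have hab := hpair x y hxy hcomm
      exact metacyclic_of_gens x y hxy (fun s => by
        have h1 : s * x * s⁻¹ = x := by rw [hab s x, mul_assoc, mul_inv_cancel, mul_one]
        rw [h1]; exact Subgroup.mem_zpowers x)
    · have hna : ∀ x' y' : S, Subgroup.closure {x', y'} = ⊤ → x' * y' ≠ y' * x' :=
        fun x' y' hg hcm => hcomm (hpair x' y' hg hcm x y)
      have key : ∀ z : S, (∀ s : S, z * s = s * z) → z * z = 1 → z ≠ 1 →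
          ∃ a b : S, Subgroup.closure {a, b, z} = ⊤ ∧
            ∀ s : S, ∃ k : ℤ, s * a * s⁻¹ = a ^ k ∨ s * a * s⁻¹ = a ^ k * z := by
        intro z hzc hz2 hz1
        haveI hN : (Subgroup.zpowers z).Normal := by
          constructor
          intro m hm g
          have h1 : g * m * g⁻¹ = m := by
            obtain ⟨k, rfl⟩ := Subgroup.mem_zpowers_iff.mp hm
            have hc : Commute g (z ^ k) := Commute.zpow_right (hzc g).symm k
            rw [hc.eq, mul_assoc, mul_inv_cancel, mul_one]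
          rw [h1]; exact hm
        have hlt : Nat.card (S ⧸ Subgroup.zpowers z) < n := by
          rw [← hcard, Subgroup.card_eq_card_quotient_mul_card_subgroup (Subgroup.zpowers z)]
          have h2' : 2 ≤ Nat.card (Subgroup.zpowers z) := by
            rw [Nat.card_zpowers]
            have h3 : orderOf z = 2 := orderOf_eq_prime (by rw [pow_two]; exact hz2) hz1
            omega
          have hpos : 0 < Nat.card (S ⧸ Subgroup.zpowers z) := Nat.card_pos
          nlinarith
        have hm := IH _ hlt (S ⧸ Subgroup.zpowers z) rfl (h2.to_quotient _) (secR_quot hsec _)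
        exact lift_data z hz2 hm
      have hcm : ∀ g h : S, g * h * g⁻¹ * h⁻¹ ∈ commutator S := by
        intro g h
        rw [commutator_def]
        exact Subgroup.commutator_mem_commutator (Subgroup.mem_top g) (Subgroup.mem_top h)
      have hcomm_ne : commutator S ≠ ⊥ := by
        intro h
        apply hcomm
        have h1 := hcm x y
        rw [h, Subgroup.mem_bot] at h1
        calc x * y = (x * y * x⁻¹ * y⁻¹) * (y * x) := by group
          _ = y * x := by rw [h1, one_mul]
      haveI hSn : (commutator S).Normal := inferInstance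
      by_cases hsq : ∀ e ∈ commutator S, e * e = 1
      · obtain ⟨z, -, hzc, hz2, hz1⟩ := exists_central_invol h2 (⊤ : Subgroup S) (by
          intro h; apply hcomm_ne; rw [eq_bot_iff, ← h]; exact le_top)
        obtain ⟨a, b, hgen, hconj⟩ := key z hzc hz2 hz1
        obtain ⟨hle, -⟩ := comm_le z hzc hz2 a b hgen hconj
        obtain ⟨c, hcdef⟩ : ∃ c : S, c = a * b * a⁻¹ * b⁻¹ := ⟨_, rfl⟩
        rw [← hcdef] at hle
        have hcmem : c ∈ commutator S := by rw [hcdef]; exact hcm a b
        have hc2 : c * c = 1 := hsq c hcmem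
        have hmem : ∀ e ∈ commutator S, e = 1 ∨ e = c := by
          intro e he
          obtain ⟨m, rfl⟩ := Subgroup.mem_zpowers_iff.mp (hle he)
          exact zpow_invol c hc2 m
        have hc1 : c ≠ 1 := by
          intro h
          apply hcomm_ne
          rw [eq_bot_iff]
          intro e he
          rcases hmem e he with h' | h'
          · rw [h']; exact Subgroup.one_mem _
          · rw [h', h]; exact Subgroup.one_mem _
        have hcc : ∀ s : S, c * s = s * c := by
          intro s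
          have h1 : s⁻¹ * c * s ∈ commutator S := by
            have h3 := hSn.conj_mem c hcmem s⁻¹
            rwa [inv_inv] at h3
          rcases hmem _ h1 with h | h
          · exfalso; apply hc1
            calc c = s * (s⁻¹ * c * s) * s⁻¹ := by group
              _ = 1 := by rw [h]; group
          · calc c * s = s * (s⁻¹ * c * s) := by group
              _ = s * c := by rw [h]
        have hC2 : C2 c := by
          refine ⟨hcc, hc2, hc1, ?_⟩
          intro g h
          rcases hmem _ (hcm g h) with h' | h'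
          · left
            calc g * h = (g * h * g⁻¹ * h⁻¹) * (h * g) := by group
              _ = h * g := by rw [h', one_mul]
          · right
            calc g * h = (g * h * g⁻¹ * h⁻¹) * (h * g) := by group
              _ = c * (h * g) := by rw [h']
              _ = h * g * c := hcc (h * g)
        obtain ⟨x', y', hg', hcx⟩ := hC2.main h2 (prank_self hsec) hna _ x y hxy rfl
        exact metacyclic_of_gens x' y' hg' (fun s => by
          rcases hC2.comm s x' with h | h
          · have h1 : s * x' * s⁻¹ = x' := by rw [h, mul_assoc, mul_inv_cancel, mul_one]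
            rw [h1]; exact Subgroup.mem_zpowers x'
          · have h1 : s * x' * s⁻¹ = x' * c := by
              rw [h]
              calc x' * s * c * s⁻¹ = x' * s * (c * s⁻¹) := by simp only [mul_assoc]
                _ = x' * s * (s⁻¹ * c) := by rw [hcc]
                _ = x' * c := by simp only [mul_assoc, mul_inv_cancel_left]
            rw [h1]
            exact Subgroup.mul_mem _ (Subgroup.mem_zpowers x') hcx)
      · push Not at hsq
        obtain ⟨e₀, he₀, he₀2⟩ := hsq
        obtain ⟨Qs, hQs⟩ : ∃ Q : Subgroup S,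
            Q = Subgroup.normalClosure {g : S | ∃ e ∈ commutator S, g = e * e} := ⟨_, rfl⟩
        haveI hQn : Qs.Normal := by rw [hQs]; exact Subgroup.normalClosure_normal
        have hQle : ∀ H : Subgroup S, (∀ e ∈ commutator S, e * e ∈ H) → Qs ≤ H := by
          intro H hH
          rw [hQs]
          show Subgroup.closure (Group.conjugatesOfSet {g : S | ∃ e ∈ commutator S, g = e * e}) ≤ H
          rw [Subgroup.closure_le]
          intro t ht
          rw [Group.mem_conjugatesOfSet_iff] at ht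
          obtain ⟨t', ⟨e, he, rfl⟩, hconj⟩ := ht
          obtain ⟨g, rfl⟩ := isConj_iff.mp hconj
          have h1 : g * (e * e) * g⁻¹ = (g * e * g⁻¹) * (g * e * g⁻¹) := by group
          rw [SetLike.mem_coe, h1]
          exact hH _ (hSn.conj_mem e he g)
        have hQne : Qs ≠ ⊥ := by
          intro h
          have h1 : e₀ * e₀ ∈ Qs := by
            rw [hQs]; exact Subgroup.subset_normalClosure ⟨e₀, he₀, rfl⟩
          rw [h, Subgroup.mem_bot] at h1
          exact he₀2 h1
        obtain ⟨z, hzQ, hzc, hz2, hz1⟩ := exists_central_invol h2 Qs hQne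
        obtain ⟨a, b, hgen, hconj⟩ := key z hzc hz2 hz1
        obtain ⟨hle, hcc⟩ := comm_le z hzc hz2 a b hgen hconj
        have hza : z ∈ Subgroup.zpowers a := by
          apply hQle _ _ hzQ
          intro e he
          obtain ⟨m, rfl⟩ := Subgroup.mem_zpowers_iff.mp (hle he)
          have h1 : ∀ t : S, t ^ m * t ^ m = (t * t) ^ m := by
            intro t
            rw [← zpow_add, ← two_mul, zpow_mul, zpow_ofNat, pow_two]
          rw [h1]
          exact Subgroup.zpow_mem _ hcc m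
        have hgen' : Subgroup.closure {a, b} = ⊤ := by
          rw [eq_top_iff, ← hgen, Subgroup.closure_le]
          intro t ht
          simp only [Set.mem_insert_iff, Set.mem_singleton_iff] at ht
          rcases ht with rfl | rfl | rfl
          · exact mem_l _ _
          · exact mem_r _ _
          · exact (Subgroup.zpowers_le.mpr (mem_l a b)) hza
        exact metacyclic_of_gens a b hgen' (fun s => by
          obtain ⟨k, h | h⟩ := hconj s
          · rw [h]; exact Subgroup.zpow_mem _ (Subgroup.mem_zpowers a) k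
          · rw [h]
            exact Subgroup.mul_mem _ (Subgroup.zpow_mem _ (Subgroup.mem_zpowers a) k) hza)

theorem result {S : Type*} [Group S] [Finite S] (h2 : IsPGroup 2 S) (hr : Cfsg.SectionalPRankLE 2 2 S) : Cfsg.IsMetacyclic S :=
  main (Nat.card S) S rfl h2 (secR_of hr)

end Cfsg.Agent.S4397
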