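import Cfsg.Statements.S4400

set_option autoImplicit false
open Cfsg

namespace Cfsg.Agent.S4400

/-- A nontrivial normal subgroup of a finite `p`-group meets the centre nontrivially. -/
theorem exists_mem_center_of_normal {G : Type*} [Group G] [Finite G] {p : ℕ} [Fact p.Prime]
    (hG : IsPGroup p G) (N : Subgroup G) [N.Normal] (hN : N ≠ ⊥) :
    ∃ x ∈ N, x ≠ 1 ∧ x ∈ Subgroup.center G := by
  classical
  have hG' : IsPGroup p (ConjAct G) := hG
  have hNp : IsPGroup p N := hG.to_subgroup N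
  have hcard : p ∣ Nat.card N := by
    rcases hNp.card_eq_or_dvd with h | h
    · exfalso
      apply hN
      exact Subgroup.card_eq_one.mp h
    · exact h
  have h1 : (1 : N) ∈ MulAction.fixedPoints (ConjAct G) N := by
    intro g
    exact smul_one g
  obtain ⟨b, hb, hb1⟩ := hG'.exists_fixed_point_of_prime_dvd_card_of_fixed_point N hcard h1
  refine ⟨b, b.2, ?_, ?_⟩
  · intro h
    apply hb1
    exact Subtype.ext h.symm
  · rw [Subgroup.mem_center_iff]
    intro g
    have := hb (ConjAct.toConjAct g)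
    have h2 := congrArg Subtype.val this
    rw [ConjAct.Subgroup.val_conj_smul, ConjAct.toConjAct_smul] at h2
    rw [mul_inv_eq_iff_eq_mul] at h2
    exact h2

theorem comm_of_sq {H : Type*} [Group H] (h : ∀ x : H, x ^ 2 = 1) (a b : H) : a * b = b * a := by
  have ha := h a
  have hb := h b
  have hab := h (a * b)
  have ha' : a⁻¹ = a := by
    rw [inv_eq_iff_mul_eq_one, ← sq, ha]
  have hb' : b⁻¹ = b := by
    rw [inv_eq_iff_mul_eq_one, ← sq, hb]
  have : (a * b)⁻¹ = a * b := by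
    rw [inv_eq_iff_mul_eq_one, ← sq, hab]
  rw [mul_inv_rev, ha', hb'] at this
  exact this.symm

theorem conj_mem_closure {G : Type*} [Group G] (T : Set G) (g : G)
    (hT : ∀ t ∈ T, g * t * g⁻¹ ∈ Subgroup.closure T) :
    ∀ n ∈ Subgroup.closure T, g * n * g⁻¹ ∈ Subgroup.closure T := by
  intro n hn
  induction hn using Subgroup.closure_induction with
  | mem x hx => exact hT x hx
  | one => simp
  | mul x y _ _ hx hy =>
    have : g * (x * y) * g⁻¹ = (g * x * g⁻¹) * (g * y * g⁻¹) := by group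
    rw [this]
    exact Subgroup.mul_mem _ hx hy
  | inv x _ hx =>
    have : g * x⁻¹ * g⁻¹ = (g * x * g⁻¹)⁻¹ := by group
    rw [this]
    exact Subgroup.inv_mem _ hx

/-- The subgroup generated by the squares. -/
def sqs (G : Type*) [Group G] : Subgroup G := Subgroup.closure (Set.range fun x : G => x ^ 2)

theorem sqs_mem {G : Type*} [Group G] (x : G) : x ^ 2 ∈ sqs G :=
  Subgroup.subset_closure ⟨x, rfl⟩

instance sqs_normal (G : Type*) [Group G] : (sqs G).Normal := by
  constructor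
  intro n hn g
  apply conj_mem_closure _ g _ n hn
  rintro t ⟨x, rfl⟩
  have : g * x ^ 2 * g⁻¹ = (g * x * g⁻¹) ^ 2 := by
    simp [pow_succ, mul_assoc]
  rw [this]
  exact sqs_mem _

theorem sqs_ne_bot {G : Type*} [Group G] (h : ¬ IsMulCommutative G) : sqs G ≠ ⊥ := by
  intro hbot
  apply h
  rw [isMulCommutative_iff]
  apply comm_of_sq
  intro x
  have := sqs_mem x
  rw [hbot, Subgroup.mem_bot] at this
  exact this

/-- In a non-commutative finite 2-group with centre of order 2, the centre lies in the squares. -/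
theorem center_le_sq {G : Type*} [Group G] [Finite G] (hG : IsPGroup 2 G)
    (h : ¬ IsMulCommutative G) (hZ : Nat.card (Subgroup.center G) = 2) :
    Subgroup.center G ≤ sqs G := by
  haveI : Fact (Nat.Prime 2) := ⟨Nat.prime_two⟩
  obtain ⟨x, hx, hx1, hxZ⟩ := exists_mem_center_of_normal hG (sqs G) (sqs_ne_bot h)
  obtain ⟨y, hy, hyu⟩ := (Nat.card_eq_two_iff' (1 : Subgroup.center G)).1 hZ
  intro z hz
  by_cases hz1 : z = 1
  · rw [hz1]; exact Subgroup.one_mem _
  · have h1 : (⟨z, hz⟩ : Subgroup.center G) = y := hyu _ (fun h => hz1 (congrArg Subtype.val h))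
    have h2 : (⟨x, hxZ⟩ : Subgroup.center G) = y := hyu _ (fun h => hx1 (congrArg Subtype.val h))
    have h3 : z = x := by
      have := h1.trans h2.symm
      exact congrArg Subtype.val this
    rw [h3]; exact hx

/-- Coatoms of a finite 2-group have index 2. -/
theorem index_coatom {G : Type*} [Group G] [Finite G] (hG : IsPGroup 2 G) (M : Subgroup G)
    (hM : IsCoatom M) : M.index = 2 := by
  haveI : Fact (Nat.Prime 2) := ⟨Nat.prime_two⟩
  obtain ⟨m, hm⟩ := IsPGroup.iff_card.1 hG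
  obtain ⟨n, hn⟩ := IsPGroup.iff_card.1 (hG.to_subgroup M)
  have hdvd : Nat.card M ∣ Nat.card G := Subgroup.card_subgroup_dvd_card M
  have hnm : n ≤ m := by
    rw [hm, hn] at hdvd
    exact (Nat.pow_dvd_pow_iff_le_right (by norm_num)).1 hdvd
  have hne : n ≠ m := by
    rintro rfl
    apply hM.1
    apply Subgroup.eq_top_of_card_eq
    rw [hm, hn]
  have hlt : n + 1 ≤ m := by omega
  obtain ⟨K, hK, hMK⟩ := Sylow.exists_subgroup_card_pow_succ (p := 2) (n := n)
    (by rw [hm]; exact pow_dvd_pow 2 hlt) hn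
  have hKM : K ≠ M := by
    intro h
    rw [h, hn] at hK
    have : n = n + 1 := Nat.pow_right_injective (le_refl 2) hK
    omega
  have hKtop : K = ⊤ := hM.2 K (lt_of_le_of_ne hMK (Ne.symm hKM))
  have hcardG : Nat.card G = 2 ^ (n + 1) := by
    rw [← hK, hKtop, Subgroup.card_top]
  have := M.card_mul_index
  rw [hn, hcardG, pow_succ] at this
  exact Nat.eq_of_mul_eq_mul_left (pow_pos (by norm_num) n) this

theorem sqs_le_frattini {G : Type*} [Group G] [Finite G] (hG : IsPGroup 2 G) :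
    sqs G ≤ frattini G := by
  unfold frattini Order.radical
  apply le_iInf₂
  intro M hM
  unfold sqs
  rw [Subgroup.closure_le]
  rintro t ⟨x, rfl⟩
  exact Subgroup.sq_mem_of_index_two (index_coatom hG M hM) x

/-- In a non-commutative finite 2-group the squares generate a subgroup of index at least 4. -/
theorem four_mul_card_sq_le {G : Type*} [Group G] [Finite G] (hG : IsPGroup 2 G)
    (h : ¬ IsMulCommutative G) : 4 * Nat.card (sqs G) ≤ Nat.card G := by
  haveI : Fact (Nat.Prime 2) := ⟨Nat.prime_two⟩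
  obtain ⟨k, hk⟩ := hG.index (sqs G)
  have hci := (sqs G).card_mul_index
  -- if the index is at most 2 the group is cyclic
  have hcyc : ∀ g : G, Subgroup.zpowers g ⊔ sqs G = ⊤ → False := by
    intro g hg
    have h1 : Subgroup.zpowers g ⊔ frattini G = ⊤ := by
      rw [eq_top_iff, ← hg]
      exact sup_le_sup_left (sqs_le_frattini hG) _
    have h2 := frattini_nongenerating h1
    apply h
    rw [isMulCommutative_iff]
    intro a b
    have ha : a ∈ Subgroup.zpowers g := h2 ▸ Subgroup.mem_top a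
    have hb : b ∈ Subgroup.zpowers g := h2 ▸ Subgroup.mem_top b
    obtain ⟨i, rfl⟩ := Subgroup.mem_zpowers_iff.1 ha
    obtain ⟨j, rfl⟩ := Subgroup.mem_zpowers_iff.1 hb
    rw [← zpow_add, ← zpow_add, add_comm]
  have hk2 : 2 ≤ k := by
    by_contra hlt
    have hk01 : k = 0 ∨ k = 1 := by omega
    rcases hk01 with rfl | rfl
    · have htop : sqs G = ⊤ := Subgroup.index_eq_one.1 (by simpa using hk)
      apply hcyc 1
      rw [htop]; simp
    · have hidx : (sqs G).index = 2 := by simpa using hk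
      have hne : sqs G ≠ ⊤ := by
        intro htop
        rw [htop, Subgroup.index_top] at hidx
        omega
      obtain ⟨g, hg⟩ : ∃ g : G, g ∉ sqs G := by
        by_contra hcon
        push Not at hcon
        exact hne ((Subgroup.eq_top_iff' _).2 hcon)
      apply hcyc g
      rw [Subgroup.eq_top_iff']
      intro x
      by_cases hx : x ∈ sqs G
      · exact Subgroup.mem_sup_right hx
      · have hginv : g⁻¹ ∉ sqs G := fun h' => hg (by simpa using (sqs G).inv_mem h')
        have h3 : x * g⁻¹ ∈ sqs G :=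
          (Subgroup.mul_mem_iff_of_index_two hidx).2 ⟨fun h' => absurd h' hx, fun h' => absurd h' hginv⟩
        have h4 : x = (x * g⁻¹) * g := by group
        rw [h4]
        exact Subgroup.mul_mem _ (Subgroup.mem_sup_right h3)
          (Subgroup.mem_sup_left (Subgroup.mem_zpowers g))
  rw [hk] at hci
  have h4 : 4 ∣ 2 ^ k := by
    have : (4 : ℕ) = 2 ^ 2 := by norm_num
    rw [this]
    exact pow_dvd_pow 2 hk2
  obtain ⟨t, ht⟩ := h4
  rw [ht] at hci
  have ht0 : 0 < t := by
    rcases Nat.eq_zero_or_pos t with h0 | h0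
    · subst h0
      have : Nat.card G = 0 := by rw [← hci]; ring
      have := Nat.card_pos (α := G)
      omega
    · exact h0
  nlinarith [Nat.card_pos (α := sqs G)]

/-- The subgroup generated by the squares of the elements of a subgroup, in the ambient group. -/
def sqOf {S : Type*} [Group S] (P : Subgroup S) : Subgroup S := (sqs ↥P).map P.subtype

theorem sqOf_le {S : Type*} [Group S] (P : Subgroup S) : sqOf P ≤ P :=
  Subgroup.map_subtype_le _

theorem sq_mem_sqOf {S : Type*} [Group S] (P : Subgroup S) {x : S} (hx : x ∈ P) :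
    x ^ 2 ∈ sqOf P :=
  ⟨(⟨x, hx⟩ : ↥P) ^ 2, sqs_mem _, rfl⟩

theorem card_sqOf {S : Type*} [Group S] (P : Subgroup S) :
    Nat.card (sqOf P) = Nat.card (sqs ↥P) :=
  Subgroup.card_map_of_injective P.subtype_injective

theorem sqOf_eq_closure {S : Type*} [Group S] (P : Subgroup S) :
    sqOf P = Subgroup.closure ((fun x : S => x ^ 2) '' (P : Set S)) := by
  unfold sqOf sqs
  rw [MonoidHom.map_closure]
  congr 1
  ext y
  constructor
  · rintro ⟨_, ⟨x, rfl⟩, rfl⟩
    exact ⟨x, x.2, rfl⟩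
  · rintro ⟨x, hx, rfl⟩
    exact ⟨(⟨x, hx⟩ : ↥P) ^ 2, ⟨⟨x, hx⟩, rfl⟩, rfl⟩

theorem sqOf_conj {S : Type*} [Group S] (P : Subgroup S) (g : S)
    (hg : ∀ x ∈ P, g * x * g⁻¹ ∈ P) : ∀ n ∈ sqOf P, g * n * g⁻¹ ∈ sqOf P := by
  rw [sqOf_eq_closure]
  apply conj_mem_closure
  rintro t ⟨x, hx, rfl⟩
  apply Subgroup.subset_closure
  refine ⟨g * x * g⁻¹, hg x hx, ?_⟩
  simp [pow_succ, mul_assoc]

theorem four_mul_card_sqOf_le {S : Type*} [Group S] [Finite S] (h2 : IsPGroup 2 S)
    (P : Subgroup S) (hP : ¬ IsMulCommutative ↥P) : 4 * Nat.card (sqOf P) ≤ Nat.card P := by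
  rw [card_sqOf]
  exact four_mul_card_sq_le (h2.to_subgroup P) hP

/-- Elements of the join of two elementwise commuting subgroups are products. -/
theorem mem_sup_of_commute {S : Type*} [Group S] {A B : Subgroup S}
    (hAB : ∀ a ∈ A, ∀ b ∈ B, a * b = b * a) {h : S} (hh : h ∈ A ⊔ B) :
    ∃ a ∈ A, ∃ b ∈ B, h = a * b := by
  let X : Subgroup S :=
    { carrier := {h | ∃ a ∈ A, ∃ b ∈ B, h = a * b}
      one_mem' := ⟨1, A.one_mem, 1, B.one_mem, by simp⟩
      mul_mem' := by
        rintro _ _ ⟨a, ha, b, hb, rfl⟩ ⟨a', ha', b', hb', rfl⟩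
        refine ⟨a * a', A.mul_mem ha ha', b * b', B.mul_mem hb hb', ?_⟩
        calc a * b * (a' * b') = a * (b * a') * b' := by simp only [mul_assoc]
          _ = a * (a' * b) * b' := by rw [hAB a' ha' b hb]
          _ = a * a' * (b * b') := by simp only [mul_assoc]
      inv_mem' := by
        rintro _ ⟨a, ha, b, hb, rfl⟩
        refine ⟨a⁻¹, A.inv_mem ha, b⁻¹, B.inv_mem hb, ?_⟩
        rw [mul_inv_rev, hAB a⁻¹ (A.inv_mem ha) b⁻¹ (B.inv_mem hb)] }
  have hA : A ≤ X := fun a ha => ⟨a, ha, 1, B.one_mem, by simp⟩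
  have hB : B ≤ X := fun b hb => ⟨1, A.one_mem, b, hb, by simp⟩
  exact (sup_le hA hB) hh

theorem exists_pow_two {S : Type*} [Group S] (h2 : IsPGroup 2 S) (R : Subgroup S) (c : S)
    (hc : c ∉ R) : ∃ k : ℕ, c ^ (2 ^ k) ∉ R ∧ (c ^ (2 ^ k)) ^ 2 ∈ R := by
  classical
  obtain ⟨m, hm⟩ := h2 c
  have hex : ∃ j : ℕ, c ^ (2 ^ j) ∈ R := ⟨m, by rw [hm]; exact R.one_mem⟩
  have hj0 : Nat.find hex ≠ 0 := by
    intro h0
    have := Nat.find_spec hex
    rw [h0] at this
    exact hc (by simpa using this)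
  obtain ⟨k, hk⟩ := Nat.exists_eq_succ_of_ne_zero hj0
  refine ⟨k, ?_, ?_⟩
  · exact Nat.find_min hex (by omega)
  · have := Nat.find_spec hex
    rw [hk, pow_succ, pow_mul] at this
    exact this

theorem center_map_le_sqOf {S : Type*} [Group S] [Finite S] (h2 : IsPGroup 2 S)
    (P : Subgroup S) (hP : ¬ IsMulCommutative ↥P) (hZP : Nat.card ↥(Subgroup.center ↥P) = 2)
    (x : S) (hx : x ∈ P) (hxc : ∀ p ∈ P, p * x = x * p) : x ∈ sqOf P := by
  have h1 : (⟨x, hx⟩ : ↥P) ∈ Subgroup.center ↥P := by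
    rw [Subgroup.mem_center_iff]
    intro g
    exact Subtype.ext (hxc g g.2)
  exact ⟨⟨x, hx⟩, center_le_sq (h2.to_subgroup P) hP hZP h1, rfl⟩

/-- Two commuting, disjoint non-commutative subgroups with centres of order 2 in a 2-group
of sectional rank at most 4: their product contains its centralizer. -/
theorem core {S : Type*} [Group S] [Finite S] (h2 : IsPGroup 2 S)
    (hr : Cfsg.SectionalPRankLE 2 4 S)
    (P Q : Subgroup S) (hP : ¬ IsMulCommutative ↥P) (hQ : ¬ IsMulCommutative ↥Q)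
    (hZP : Nat.card ↥(Subgroup.center ↥P) = 2) (hZQ : Nat.card ↥(Subgroup.center ↥Q) = 2)
    (hcomm : ∀ x ∈ P, ∀ y ∈ Q, x * y = y * x) (hdisj : P ⊓ Q = ⊥) :
    Subgroup.centralizer ((P ⊔ Q : Subgroup S) : Set S) ≤ P ⊔ Q := by
  intro c₀ hc₀
  by_contra hc₀R
  obtain ⟨k, hk1, hk2⟩ := exists_pow_two h2 (P ⊔ Q) c₀ hc₀R
  set c := c₀ ^ (2 ^ k) with hcdef
  have hcC : c ∈ Subgroup.centralizer ((P ⊔ Q : Subgroup S) : Set S) :=
    Subgroup.pow_mem _ hc₀ _
  -- commutation facts
  have hcR : ∀ r ∈ P ⊔ Q, r * c = c * r := fun r hr' => Subgroup.mem_centralizer_iff.1 hcC r hr'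
  have hzR : ∀ a ∈ Subgroup.zpowers c, ∀ r ∈ P ⊔ Q, a * r = r * a := by
    intro a ha r hr'
    have : a ∈ Subgroup.centralizer ((P ⊔ Q : Subgroup S) : Set S) :=
      (Subgroup.zpowers_le.2 hcC) ha
    exact (Subgroup.mem_centralizer_iff.1 this r hr').symm
  have hsq_comm : ∀ a ∈ sqOf P, ∀ b ∈ sqOf Q, a * b = b * a :=
    fun a ha b hb => hcomm a (sqOf_le P ha) b (sqOf_le Q hb)
  -- c ^ 2 lies in N'
  have hc2N : c ^ 2 ∈ sqOf P ⊔ sqOf Q := by
    obtain ⟨x₀, hx₀, y₀, hy₀, hxy⟩ := mem_sup_of_commute hcomm hk2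
    have hc2 : ∀ r ∈ P ⊔ Q, r * c ^ 2 = c ^ 2 * r := by
      intro r hr'
      have : c ^ 2 ∈ Subgroup.centralizer ((P ⊔ Q : Subgroup S) : Set S) :=
        Subgroup.pow_mem _ hcC _
      exact Subgroup.mem_centralizer_iff.1 this r hr'
    have hx₀c : ∀ p ∈ P, p * x₀ = x₀ * p := by
      intro p hp
      have h1 := hc2 p (Subgroup.mem_sup_left hp)
      rw [hxy] at h1
      have h3 : p * y₀ = y₀ * p := hcomm p hp y₀ hy₀
      have h4 : p * x₀ * y₀ = x₀ * p * y₀ := by
        calc p * x₀ * y₀ = p * (x₀ * y₀) := by rw [mul_assoc]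
          _ = x₀ * y₀ * p := h1
          _ = x₀ * (y₀ * p) := by rw [mul_assoc]
          _ = x₀ * (p * y₀) := by rw [h3]
          _ = x₀ * p * y₀ := by rw [mul_assoc]
      exact mul_right_cancel h4
    have hy₀c : ∀ q ∈ Q, q * y₀ = y₀ * q := by
      intro q hq
      have h1 := hc2 q (Subgroup.mem_sup_right hq)
      rw [hxy] at h1
      have h3 : x₀ * q = q * x₀ := hcomm x₀ hx₀ q hq
      have h4 : x₀ * (q * y₀) = x₀ * (y₀ * q) := by
        calc x₀ * (q * y₀) = (x₀ * q) * y₀ := by rw [mul_assoc]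
          _ = q * x₀ * y₀ := by rw [h3]
          _ = q * (x₀ * y₀) := by rw [mul_assoc]
          _ = x₀ * y₀ * q := h1
          _ = x₀ * (y₀ * q) := by rw [mul_assoc]
      exact mul_left_cancel h4
    rw [hxy]
    exact Subgroup.mul_mem _
      (Subgroup.mem_sup_left (center_map_le_sqOf h2 P hP hZP x₀ hx₀ hx₀c))
      (Subgroup.mem_sup_right (center_map_le_sqOf h2 Q hQ hZQ y₀ hy₀ hy₀c))
  -- the section
  set H : Subgroup S := Subgroup.zpowers c ⊔ (P ⊔ Q) with hHdef
  set N' : Subgroup S := sqOf P ⊔ sqOf Q with hN'def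
  have hN'R : N' ≤ P ⊔ Q := sup_le_sup (sqOf_le P) (sqOf_le Q)
  have hRH : P ⊔ Q ≤ H := le_sup_right
  have hN'H : N' ≤ H := hN'R.trans hRH
  have hcH : c ∈ H := Subgroup.mem_sup_left (Subgroup.mem_zpowers c)
  -- squares of H lie in N'
  have hsqH : ∀ h ∈ H, h ^ 2 ∈ N' := by
    intro h hh
    obtain ⟨a, ha, r, hr', rfl⟩ := mem_sup_of_commute hzR hh
    obtain ⟨x, hx, y, hy, rfl⟩ := mem_sup_of_commute hcomm hr'
    obtain ⟨i, rfl⟩ := Subgroup.mem_zpowers_iff.1 ha
    have h1 : (c ^ i * (x * y)) ^ 2 = (c ^ 2) ^ i * (x ^ 2 * y ^ 2) := by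
      have e1 : c ^ i * (x * y) = (x * y) * c ^ i :=
        hzR _ (Subgroup.zpow_mem _ (Subgroup.mem_zpowers c) i) _ (Subgroup.mul_mem _ (Subgroup.mem_sup_left hx) (Subgroup.mem_sup_right hy))
      have e2 : x * y = y * x := hcomm x hx y hy
      have e3 : (c ^ 2) ^ i = c ^ i * c ^ i := by
        rw [pow_two, (Commute.refl c).mul_zpow]
      rw [e3, pow_two, pow_two, pow_two]
      calc c ^ i * (x * y) * (c ^ i * (x * y)) = c ^ i * ((x * y) * c ^ i) * (x * y) := by
            simp only [mul_assoc]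
        _ = c ^ i * (c ^ i * (x * y)) * (x * y) := by rw [← e1]
        _ = c ^ i * c ^ i * (x * (y * x) * y) := by simp only [mul_assoc]
        _ = c ^ i * c ^ i * (x * (x * y) * y) := by rw [← e2]
        _ = c ^ i * c ^ i * (x * x * (y * y)) := by simp only [mul_assoc]
    rw [h1]
    exact Subgroup.mul_mem _ (Subgroup.zpow_mem _ hc2N i)
      (Subgroup.mul_mem _ (Subgroup.mem_sup_left (sq_mem_sqOf P hx))
        (Subgroup.mem_sup_right (sq_mem_sqOf Q hy)))
  -- H normalizes N'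
  have hnorm : H ≤ Subgroup.normalizer (N' : Set S) := by
    apply sup_le
    · rw [Subgroup.le_normalizer_iff]
      intro a ha n hn
      have : a * n = n * a := hzR a ha n (hN'R hn)
      rw [this, mul_assoc, mul_inv_cancel, mul_one]
      exact hn
    · apply sup_le
      · rw [Subgroup.le_normalizer_iff]
        intro g hg n hn
        obtain ⟨a, ha, b, hb, rfl⟩ := mem_sup_of_commute hsq_comm hn
        have e : g * (a * b) * g⁻¹ = (g * a * g⁻¹) * b := by
          have : g⁻¹ * b = b * g⁻¹ := hcomm g⁻¹ (P.inv_mem hg) b (sqOf_le Q hb)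
          calc g * (a * b) * g⁻¹ = g * a * (b * g⁻¹) := by simp only [mul_assoc]
            _ = g * a * (g⁻¹ * b) := by rw [this]
            _ = g * a * g⁻¹ * b := by simp only [mul_assoc]
        rw [e]
        exact Subgroup.mul_mem _
          (Subgroup.mem_sup_left (sqOf_conj P g
            (fun x hx => P.mul_mem (P.mul_mem hg hx) (P.inv_mem hg)) a ha))
          (Subgroup.mem_sup_right hb)
      · rw [Subgroup.le_normalizer_iff]
        intro g hg n hn
        obtain ⟨a, ha, b, hb, rfl⟩ := mem_sup_of_commute hsq_comm hn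
        have e : g * (a * b) * g⁻¹ = a * (g * b * g⁻¹) := by
          have : a * g = g * a := hcomm a (sqOf_le P ha) g hg
          calc g * (a * b) * g⁻¹ = (g * a) * b * g⁻¹ := by simp only [mul_assoc]
            _ = (a * g) * b * g⁻¹ := by rw [this]
            _ = a * (g * b * g⁻¹) := by simp only [mul_assoc]
        rw [e]
        exact Subgroup.mul_mem _ (Subgroup.mem_sup_left ha)
          (Subgroup.mem_sup_right (sqOf_conj Q g
            (fun x hx => Q.mul_mem (Q.mul_mem hg hx) (Q.inv_mem hg)) b hb))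
  haveI hNn : (N'.subgroupOf H).Normal := (Subgroup.normal_subgroupOf_iff_le_normalizer hN'H).2 hnorm
  -- the quotient has exponent 2
  have hexp : ∀ q : ↥H ⧸ N'.subgroupOf H, q ^ 2 = 1 := by
    intro q
    induction q using QuotientGroup.induction_on with
    | H h =>
      rw [← QuotientGroup.mk_pow, QuotientGroup.eq_one_iff, Subgroup.mem_subgroupOf]
      exact hsqH h h.2
  have hrank := hr H (N'.subgroupOf H) ⊤
    (by
      rw [isMulCommutative_iff]
      rintro ⟨a, _⟩ ⟨b, _⟩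
      exact Subtype.ext (comm_of_sq hexp a b))
    (fun a _ => hexp a)
  rw [Subgroup.card_top] at hrank
  -- counting
  have hc5 := Subgroup.card_eq_card_quotient_mul_card_subgroup (N'.subgroupOf H)
  have hcN : Nat.card (N'.subgroupOf H) = Nat.card N' :=
    Nat.card_congr (Subgroup.subgroupOfEquivOfLe hN'H).toEquiv
  rw [hcN] at hc5
  have hc3 : Nat.card N' ≤ Nat.card (sqOf P) * Nat.card (sqOf Q) := by
    rw [← Nat.card_prod]
    let f : ↥(sqOf P) × ↥(sqOf Q) → ↥N' := fun ab =>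
      ⟨ab.1 * ab.2, Subgroup.mul_mem _ (Subgroup.mem_sup_left ab.1.2) (Subgroup.mem_sup_right ab.2.2)⟩
    apply Nat.card_le_card_of_surjective f
    rintro ⟨n, hn⟩
    obtain ⟨a, ha, b, hb, rfl⟩ := mem_sup_of_commute hsq_comm hn
    exact ⟨(⟨a, ha⟩, ⟨b, hb⟩), rfl⟩
  have hc4P := four_mul_card_sqOf_le h2 P hP
  have hc4Q := four_mul_card_sqOf_le h2 Q hQ
  have hc2 : Nat.card P * Nat.card Q ≤ Nat.card ↥(P ⊔ Q) := by
    rw [← Nat.card_prod]
    let f : ↥P × ↥Q → ↥(P ⊔ Q) := fun ab =>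
      ⟨ab.1 * ab.2, Subgroup.mul_mem _ (Subgroup.mem_sup_left ab.1.2) (Subgroup.mem_sup_right ab.2.2)⟩
    apply Nat.card_le_card_of_injective f
    rintro ⟨⟨x, hx⟩, ⟨y, hy⟩⟩ ⟨⟨x', hx'⟩, ⟨y', hy'⟩⟩ hxy
    have h1 : x * y = x' * y' := congrArg Subtype.val hxy
    have h2' : x'⁻¹ * x = y' * y⁻¹ := by
      rw [inv_mul_eq_iff_eq_mul, ← mul_assoc, ← h1]; group
    have h3 : x'⁻¹ * x ∈ P ⊓ Q :=
      ⟨P.mul_mem (P.inv_mem hx') hx, h2' ▸ Q.mul_mem hy' (Q.inv_mem hy)⟩
    rw [hdisj, Subgroup.mem_bot] at h3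
    have h4 : x = x' := by
      rw [inv_mul_eq_one] at h3; exact h3.symm
    subst h4
    have h5 : y = y' := mul_left_cancel h1
    subst h5
    rfl
  have hc1 : 2 * Nat.card ↥(P ⊔ Q) ≤ Nat.card H := by
    obtain ⟨t, ht⟩ := Subgroup.card_dvd_of_le hRH
    have ht0 : t ≠ 0 := by
      rintro rfl
      have := Nat.card_pos (α := H)
      omega
    have ht1 : t ≠ 1 := by
      rintro rfl
      have : H ≤ P ⊔ Q := by
        have := Subgroup.eq_of_le_of_card_ge hRH (by rw [ht]; simp)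
        rw [this]
      exact hk1 (this hcH)
    rw [ht]
    have : 2 ≤ t := by omega
    nlinarith [Nat.card_pos (α := ↥(P ⊔ Q))]
  have hN'pos := Nat.card_pos (α := N')
  have hsPpos := Nat.card_pos (α := sqOf P)
  have hsQpos := Nat.card_pos (α := sqOf Q)
  have hfin : 32 * Nat.card N' ≤ 16 * Nat.card N' := by
    calc 32 * Nat.card N' ≤ 32 * (Nat.card (sqOf P) * Nat.card (sqOf Q)) := by
          exact Nat.mul_le_mul_left _ hc3
      _ = 2 * ((4 * Nat.card (sqOf P)) * (4 * Nat.card (sqOf Q))) := by ring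
      _ ≤ 2 * (Nat.card P * Nat.card Q) := by
          exact Nat.mul_le_mul_left _ (Nat.mul_le_mul hc4P hc4Q)
      _ ≤ 2 * Nat.card ↥(P ⊔ Q) := Nat.mul_le_mul_left _ hc2
      _ ≤ Nat.card H := hc1
      _ = Nat.card (↥H ⧸ N'.subgroupOf H) * Nat.card N' := hc5
      _ ≤ 2 ^ 4 * Nat.card N' := Nat.mul_le_mul_right _ hrank
      _ = 16 * Nat.card N' := by norm_num
  omega

/-- The centre of a normal subgroup, if of order 2, is central in the whole group. -/
theorem center_map_le_center {S : Type*} [Group S] (P : Subgroup S) [P.Normal]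
    (hZP : Nat.card ↥(Subgroup.center ↥P) = 2) :
    (Subgroup.center ↥P).map P.subtype ≤ Subgroup.center S := by
  haveI hn : ((Subgroup.center ↥P).map P.subtype).Normal :=
    ConjAct.normal_of_characteristic_of_normal
  have hcard : Nat.card ↥((Subgroup.center ↥P).map P.subtype) = 2 := by
    rw [Subgroup.card_map_of_injective P.subtype_injective, hZP]
  obtain ⟨y, hy, hyu⟩ := (Nat.card_eq_two_iff' (1 : ↥((Subgroup.center ↥P).map P.subtype))).1 hcard
  intro z hz
  rw [Subgroup.mem_center_iff]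
  intro g
  by_cases hz1 : z = 1
  · rw [hz1]; simp
  · have hconj : g * z * g⁻¹ ∈ (Subgroup.center ↥P).map P.subtype := hn.conj_mem z hz g
    have hc1 : g * z * g⁻¹ ≠ 1 := by
      intro h
      apply hz1
      have : z = g⁻¹ * (g * z * g⁻¹) * g := by group
      rw [this, h]; group
    have e1 : (⟨z, hz⟩ : ↥((Subgroup.center ↥P).map P.subtype)) = y :=
      hyu _ (fun h => hz1 (congrArg Subtype.val h))
    have e2 : (⟨g * z * g⁻¹, hconj⟩ : ↥((Subgroup.center ↥P).map P.subtype)) = y :=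
      hyu _ (fun h => hc1 (congrArg Subtype.val h))
    have e3 : g * z * g⁻¹ = z := congrArg Subtype.val (e2.trans e1.symm)
    rw [mul_inv_eq_iff_eq_mul] at e3
    exact e3

/-- A nontrivial normal subgroup inside `P` contains the centre of `P` when that has order 2. -/
theorem center_map_le_of_normal {S : Type*} [Group S] [Finite S] (h2 : IsPGroup 2 S)
    (P : Subgroup S) (hZP : Nat.card ↥(Subgroup.center ↥P) = 2)
    (N : Subgroup S) [N.Normal] (hNP : N ≤ P) (hN : N ≠ ⊥) :
    (Subgroup.center ↥P).map P.subtype ≤ N := by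
  haveI : Fact (Nat.Prime 2) := ⟨Nat.prime_two⟩
  have hN' : N.subgroupOf P ≠ ⊥ := by
    intro h
    rw [Subgroup.subgroupOf_eq_bot] at h
    apply hN
    have := h.eq_bot
    rwa [inf_eq_left.2 hNP] at this
  obtain ⟨x, hx, hx1, hxZ⟩ := exists_mem_center_of_normal (h2.to_subgroup P) (N.subgroupOf P) hN'
  obtain ⟨y, hy, hyu⟩ := (Nat.card_eq_two_iff' (1 : Subgroup.center ↥P)).1 hZP
  rintro _ ⟨z, hz, rfl⟩
  by_cases hz1 : z = 1
  · rw [hz1]; simp
  · have e1 : (⟨z, hz⟩ : Subgroup.center ↥P) = y := hyu _ (fun h => hz1 (congrArg Subtype.val h))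
    have e2 : (⟨x, hxZ⟩ : Subgroup.center ↥P) = y := hyu _ (fun h => hx1 (congrArg Subtype.val h))
    have e3 : z = x := congrArg Subtype.val (e1.trans e2.symm)
    rw [e3]
    exact Subgroup.mem_subgroupOf.1 hx

/-- Let S be a finite 2-group of sectional 2-rank at most 4, and let P and Q be normal non-abelian subgroups of S whose centres have order 2 and are different. Then P and Q commute elementwise and intersect trivially, and PQ contains its own centralizer in S. -/
theorem result {S : Type*} [Group S] [Finite S] (h2 : IsPGroup 2 S) (hr : Cfsg.SectionalPRankLE 2 4 S)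
    (P Q : Subgroup S) [P.Normal] [Q.Normal] (hP : ¬ IsMulCommutative ↥P) (hQ : ¬ IsMulCommutative ↥Q)
    (hZP : Nat.card ↥(Subgroup.center ↥P) = 2) (hZQ : Nat.card ↥(Subgroup.center ↥Q) = 2)
    (hne : (Subgroup.center ↥P).map P.subtype ≠ (Subgroup.center ↥Q).map Q.subtype) :
    ⁅P, Q⁆ = ⊥ ∧ P ⊓ Q = ⊥ ∧ Subgroup.centralizer ((P ⊔ Q : Subgroup S) : Set S) ≤ P ⊔ Q := by
  have hdisj : P ⊓ Q = ⊥ := by
    by_contra hN
    have h1 := center_map_le_of_normal h2 P hZP (P ⊓ Q) inf_le_left hN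
    have h2' := center_map_le_of_normal h2 Q hZQ (P ⊓ Q) inf_le_right hN
    have hle : (Subgroup.center ↥Q).map Q.subtype ≤ (Subgroup.center ↥P).map P.subtype := by
      intro z hz
      have hzP : z ∈ P := (h2' hz).1
      have hzc : z ∈ Subgroup.center S := center_map_le_center Q hZQ hz
      have hzc' : (⟨z, hzP⟩ : ↥P) ∈ Subgroup.center ↥P := by
        rw [Subgroup.mem_center_iff]
        intro g
        exact Subtype.ext (Subgroup.mem_center_iff.1 hzc g)
      exact ⟨⟨z, hzP⟩, hzc', rfl⟩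
    have hcard : Nat.card ↥((Subgroup.center ↥P).map P.subtype) ≤
        Nat.card ↥((Subgroup.center ↥Q).map Q.subtype) := by
      rw [Subgroup.card_map_of_injective P.subtype_injective,
        Subgroup.card_map_of_injective Q.subtype_injective, hZP, hZQ]
    exact hne (Subgroup.eq_of_le_of_card_ge hle hcard).symm
  have hcomm0 : ⁅P, Q⁆ = ⊥ := by
    have := Subgroup.commutator_le_inf P Q
    rw [hdisj] at this
    exact le_bot_iff.1 this
  have hcomm : ∀ x ∈ P, ∀ y ∈ Q, x * y = y * x := by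
    intro x hx y hy
    have h1 := (Subgroup.commutator_eq_bot_iff_le_centralizer).1 hcomm0
    exact (Subgroup.mem_centralizer_iff.1 (h1 hx) y hy).symm
  exact ⟨hcomm0, hdisj, core h2 hr P Q hP hQ hZP hZQ hcomm hdisj⟩

end Cfsg.Agent.S4400
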