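import Cfsg.Statements.S4401
import Cfsg.Agent.S4400

set_option autoImplicit false
open Cfsg

namespace Cfsg.Agent.S4401

open Cfsg.Agent.S4400 (core mem_sup_of_commute exists_mem_center_of_normal comm_of_sq)

/-- The conjugate `g P g⁻¹`. -/
def cj {S : Type*} [Group S] (g : S) (P : Subgroup S) : Subgroup S :=
  P.map (MulAut.conj g).toMonoidHom

theorem mem_cj {S : Type*} [Group S] (g : S) (P : Subgroup S) (x : S) :
    x ∈ cj g P ↔ g⁻¹ * x * g ∈ P := by
  unfold cj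
  rw [Subgroup.mem_map]
  constructor
  · rintro ⟨p, hp, rfl⟩
    simp only [MulEquiv.coe_toMonoidHom, MulAut.conj_apply]
    have : g⁻¹ * (g * p * g⁻¹) * g = p := by group
    rw [this]; exact hp
  · intro h
    refine ⟨g⁻¹ * x * g, h, ?_⟩
    simp only [MulEquiv.coe_toMonoidHom, MulAut.conj_apply]
    group

theorem conj_mem_cj {S : Type*} [Group S] (g : S) (P : Subgroup S) {x : S} (hx : x ∈ P) :
    g * x * g⁻¹ ∈ cj g P := by
  rw [mem_cj]
  have : g⁻¹ * (g * x * g⁻¹) * g = x := by group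
  rw [this]; exact hx

theorem card_cj {S : Type*} [Group S] (g : S) (P : Subgroup S) :
    Nat.card ↥(cj g P) = Nat.card ↥P :=
  Subgroup.card_map_of_injective (MulAut.conj g).injective

theorem cj_mono {S : Type*} [Group S] (g : S) {P Q : Subgroup S} (h : P ≤ Q) : cj g P ≤ cj g Q :=
  Subgroup.map_mono h

/-- The conjugate is isomorphic to the original. -/
noncomputable def cjEquiv {S : Type*} [Group S] (g : S) (P : Subgroup S) : ↥P ≃* ↥(cj g P) :=
  P.equivMapOfInjective _ (MulAut.conj g).injective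

theorem cj_not_comm {S : Type*} [Group S] (g : S) (P : Subgroup S)
    (hP : ¬ IsMulCommutative ↥P) : ¬ IsMulCommutative ↥(cj g P) := by
  intro h
  apply hP
  rw [isMulCommutative_iff] at h ⊢
  intro a b
  apply (cjEquiv g P).injective
  rw [map_mul, map_mul]
  exact h _ _

theorem cj_center_card {S : Type*} [Group S] (g : S) (P : Subgroup S) :
    Nat.card ↥(Subgroup.center ↥(cj g P)) = Nat.card ↥(Subgroup.center ↥P) :=
  (Nat.card_congr (Subgroup.centerCongr (cjEquiv g P)).toEquiv).symm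

/-- Element-level description of a centre of order 2. -/
theorem center_elt {S : Type*} [Group S] (P : Subgroup S)
    (hZP : Nat.card ↥(Subgroup.center ↥P) = 2) :
    ∃ z ∈ P, z ≠ 1 ∧ (∀ p ∈ P, p * z = z * p) ∧
      ∀ c ∈ P, (∀ p ∈ P, p * c = c * p) → c = 1 ∨ c = z := by
  obtain ⟨y, hy, hyu⟩ := (Nat.card_eq_two_iff' (1 : Subgroup.center ↥P)).1 hZP
  refine ⟨y.1.1, y.1.2, ?_, ?_, ?_⟩
  · intro h
    apply hy
    exact Subtype.ext (Subtype.ext h)
  · intro p hp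
    have := Subgroup.mem_center_iff.1 y.2 ⟨p, hp⟩
    exact congrArg Subtype.val this
  · intro c hc hcc
    by_cases h1 : c = 1
    · exact Or.inl h1
    · right
      have hcZ : (⟨c, hc⟩ : ↥P) ∈ Subgroup.center ↥P := by
        rw [Subgroup.mem_center_iff]
        intro g
        exact Subtype.ext (hcc g g.2)
      have := hyu ⟨⟨c, hc⟩, hcZ⟩ (fun h => h1 (congrArg (fun x => x.1.1) h))
      exact congrArg (fun x => x.1.1) this

/-- Two subgroups normalizing each other, the first with centre `{1, z}` and `z` outside the second,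
meet trivially and commute. -/
theorem disj_comm {S : Type*} [Group S] [Finite S] (h2 : IsPGroup 2 S) (P Q : Subgroup S)
    (z : S) (hzc : ∀ c ∈ P, (∀ p ∈ P, p * c = c * p) → c = 1 ∨ c = z)
    (hzQ : z ∉ Q)
    (hQP : ∀ q ∈ Q, ∀ x ∈ P, q * x * q⁻¹ ∈ P) (hPQ : ∀ p ∈ P, ∀ y ∈ Q, p * y * p⁻¹ ∈ Q) :
    P ⊓ Q = ⊥ ∧ ∀ x ∈ P, ∀ y ∈ Q, x * y = y * x := by
  haveI : Fact (Nat.Prime 2) := ⟨Nat.prime_two⟩
  have hdisj : P ⊓ Q = ⊥ := by
    by_contra hN
    haveI hnorm : ((P ⊓ Q).subgroupOf P).Normal := by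
      constructor
      intro n hn g
      rw [Subgroup.mem_subgroupOf] at hn ⊢
      exact ⟨P.mul_mem (P.mul_mem g.2 hn.1) (P.inv_mem g.2), hPQ g.1 g.2 n.1 hn.2⟩
    have hN' : (P ⊓ Q).subgroupOf P ≠ ⊥ := by
      intro h
      rw [Subgroup.subgroupOf_eq_bot] at h
      apply hN
      have := h.eq_bot
      rwa [inf_eq_left.2 (inf_le_left : P ⊓ Q ≤ P)] at this
    obtain ⟨x, hx, hx1, hxZ⟩ :=
      exists_mem_center_of_normal (h2.to_subgroup P) ((P ⊓ Q).subgroupOf P) hN'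
    have hxc : ∀ p ∈ P, p * x.1 = x.1 * p := by
      intro p hp
      have := Subgroup.mem_center_iff.1 hxZ ⟨p, hp⟩
      exact congrArg Subtype.val this
    rcases hzc x.1 x.2 hxc with h | h
    · exact hx1 (Subtype.ext h)
    · apply hzQ
      rw [← h]
      exact (Subgroup.mem_subgroupOf.1 hx).2
  refine ⟨hdisj, ?_⟩
  intro x hx y hy
  have h1 : x * y * x⁻¹ * y⁻¹ ∈ P ⊓ Q := by
    constructor
    · have := hQP y hy x⁻¹ (P.inv_mem hx)
      have e : x * y * x⁻¹ * y⁻¹ = x * (y * x⁻¹ * y⁻¹) := by group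
      rw [e]
      exact P.mul_mem hx this
    · exact Q.mul_mem (hPQ x hx y hy) (Q.inv_mem hy)
  rw [hdisj, Subgroup.mem_bot] at h1
  have : x * y = (x * y * x⁻¹ * y⁻¹) * (y * x) := by group
  rw [this, h1, one_mul]

/-- Exponent-2 sections of two commuting disjoint subgroups multiply. -/
theorem section_bound {S : Type*} [Group S] [Finite S] (hr : Cfsg.SectionalPRankLE 2 4 S)
    (P Q : Subgroup S) (hcomm : ∀ x ∈ P, ∀ y ∈ Q, x * y = y * x) (hdisj : P ⊓ Q = ⊥)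
    (H₁ K₁ H₂ K₂ : Subgroup S) (hH₁ : H₁ ≤ P) (hH₂ : H₂ ≤ Q) (hK₁ : K₁ ≤ H₁) (hK₂ : K₂ ≤ H₂)
    (hn₁ : ∀ h ∈ H₁, ∀ k ∈ K₁, h * k * h⁻¹ ∈ K₁) (hn₂ : ∀ h ∈ H₂, ∀ k ∈ K₂, h * k * h⁻¹ ∈ K₂)
    (hs₁ : ∀ h ∈ H₁, h ^ 2 ∈ K₁) (hs₂ : ∀ h ∈ H₂, h ^ 2 ∈ K₂) :
    Nat.card H₁ * Nat.card H₂ ≤ 16 * (Nat.card K₁ * Nat.card K₂) := by
  have hcH : ∀ x ∈ H₁, ∀ y ∈ H₂, x * y = y * x := fun x hx y hy => hcomm x (hH₁ hx) y (hH₂ hy)
  have hcK : ∀ x ∈ K₁, ∀ y ∈ K₂, x * y = y * x := fun x hx y hy => hcH x (hK₁ hx) y (hK₂ hy)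
  set H : Subgroup S := H₁ ⊔ H₂ with hHdef
  set N' : Subgroup S := K₁ ⊔ K₂ with hN'def
  have hN'H : N' ≤ H := sup_le_sup hK₁ hK₂
  have hsqH : ∀ h ∈ H, h ^ 2 ∈ N' := by
    intro h hh
    obtain ⟨x, hx, y, hy, rfl⟩ := mem_sup_of_commute hcH hh
    have e2 : x * y = y * x := hcH x hx y hy
    have h1 : (x * y) ^ 2 = x ^ 2 * y ^ 2 := by
      rw [pow_two, pow_two, pow_two]
      calc x * y * (x * y) = x * (y * x) * y := by simp only [mul_assoc]
        _ = x * (x * y) * y := by rw [← e2]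
        _ = x * x * (y * y) := by simp only [mul_assoc]
    rw [h1]
    exact Subgroup.mul_mem _ (Subgroup.mem_sup_left (hs₁ x hx)) (Subgroup.mem_sup_right (hs₂ y hy))
  have hnorm : H ≤ Subgroup.normalizer (N' : Set S) := by
    apply sup_le
    · rw [Subgroup.le_normalizer_iff]
      intro g hg n hn
      obtain ⟨a, ha, b, hb, rfl⟩ := mem_sup_of_commute hcK hn
      have e : g * (a * b) * g⁻¹ = (g * a * g⁻¹) * b := by
        have : g⁻¹ * b = b * g⁻¹ := hcH g⁻¹ (H₁.inv_mem hg) b (hK₂ hb)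
        calc g * (a * b) * g⁻¹ = g * a * (b * g⁻¹) := by simp only [mul_assoc]
          _ = g * a * (g⁻¹ * b) := by rw [this]
          _ = g * a * g⁻¹ * b := by simp only [mul_assoc]
      rw [e]
      exact Subgroup.mul_mem _ (Subgroup.mem_sup_left (hn₁ g hg a ha)) (Subgroup.mem_sup_right hb)
    · rw [Subgroup.le_normalizer_iff]
      intro g hg n hn
      obtain ⟨a, ha, b, hb, rfl⟩ := mem_sup_of_commute hcK hn
      have e : g * (a * b) * g⁻¹ = a * (g * b * g⁻¹) := by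
        have : a * g = g * a := hcH a (hK₁ ha) g hg
        calc g * (a * b) * g⁻¹ = (g * a) * b * g⁻¹ := by simp only [mul_assoc]
          _ = (a * g) * b * g⁻¹ := by rw [this]
          _ = a * (g * b * g⁻¹) := by simp only [mul_assoc]
      rw [e]
      exact Subgroup.mul_mem _ (Subgroup.mem_sup_left ha) (Subgroup.mem_sup_right (hn₂ g hg b hb))
  haveI hNn : (N'.subgroupOf H).Normal := (Subgroup.normal_subgroupOf_iff_le_normalizer hN'H).2 hnorm
  have hexp : ∀ q : ↥H ⧸ N'.subgroupOf H, q ^ 2 = 1 := by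
    intro q
    induction q using QuotientGroup.induction_on with
    | H h =>
      rw [← QuotientGroup.mk_pow, QuotientGroup.eq_one_iff, Subgroup.mem_subgroupOf]
      exact hsqH h h.2
  have hrank := hr H (N'.subgroupOf H) ⊤
    (by
      rw [isMulCommutative_iff]
      rintro ⟨a, _⟩ ⟨b, _⟩
      exact Subtype.ext (comm_of_sq hexp a b))
    (fun a _ => hexp a)
  rw [Subgroup.card_top] at hrank
  have hc5 := Subgroup.card_eq_card_quotient_mul_card_subgroup (N'.subgroupOf H)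
  have hcN : Nat.card (N'.subgroupOf H) = Nat.card N' :=
    Nat.card_congr (Subgroup.subgroupOfEquivOfLe hN'H).toEquiv
  rw [hcN] at hc5
  have hc3 : Nat.card N' ≤ Nat.card K₁ * Nat.card K₂ := by
    rw [← Nat.card_prod]
    let f : ↥K₁ × ↥K₂ → ↥N' := fun ab =>
      ⟨ab.1 * ab.2, Subgroup.mul_mem _ (Subgroup.mem_sup_left ab.1.2) (Subgroup.mem_sup_right ab.2.2)⟩
    apply Nat.card_le_card_of_surjective f
    rintro ⟨n, hn⟩
    obtain ⟨a, ha, b, hb, rfl⟩ := mem_sup_of_commute hcK hn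
    exact ⟨(⟨a, ha⟩, ⟨b, hb⟩), rfl⟩
  have hc2 : Nat.card H₁ * Nat.card H₂ ≤ Nat.card ↥H := by
    rw [← Nat.card_prod]
    let f : ↥H₁ × ↥H₂ → ↥H := fun ab =>
      ⟨ab.1 * ab.2, Subgroup.mul_mem _ (Subgroup.mem_sup_left ab.1.2) (Subgroup.mem_sup_right ab.2.2)⟩
    apply Nat.card_le_card_of_injective f
    rintro ⟨⟨x, hx⟩, ⟨y, hy⟩⟩ ⟨⟨x', hx'⟩, ⟨y', hy'⟩⟩ hxy
    have h1 : x * y = x' * y' := congrArg Subtype.val hxy
    have h2' : x'⁻¹ * x = y' * y⁻¹ := by
      rw [inv_mul_eq_iff_eq_mul, ← mul_assoc, ← h1]; group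
    have h3 : x'⁻¹ * x ∈ P ⊓ Q :=
      ⟨P.mul_mem (P.inv_mem (hH₁ hx')) (hH₁ hx), h2' ▸ Q.mul_mem (hH₂ hy') (Q.inv_mem (hH₂ hy))⟩
    rw [hdisj, Subgroup.mem_bot] at h3
    have h4 : x = x' := by
      rw [inv_mul_eq_one] at h3; exact h3.symm
    subst h4
    have h5 : y = y' := mul_left_cancel h1
    subst h5
    rfl
  calc Nat.card H₁ * Nat.card H₂ ≤ Nat.card ↥H := hc2
    _ = Nat.card (↥H ⧸ N'.subgroupOf H) * Nat.card N' := hc5
    _ ≤ 2 ^ 4 * Nat.card N' := Nat.mul_le_mul_right _ hrank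
    _ ≤ 2 ^ 4 * (Nat.card K₁ * Nat.card K₂) := Nat.mul_le_mul_left _ hc3
    _ = 16 * (Nat.card K₁ * Nat.card K₂) := by norm_num

/-- If `P` and a conjugate of `P` commute and are disjoint, `P` has sectional rank at most 2. -/
theorem rank_P {S : Type*} [Group S] [Finite S] (hr : Cfsg.SectionalPRankLE 2 4 S)
    (P : Subgroup S) (t : S) (hcomm : ∀ x ∈ P, ∀ y ∈ cj t P, x * y = y * x)
    (hdisj : P ⊓ cj t P = ⊥) : Cfsg.SectionalPRankLE 2 2 ↥P := by
  intro H K _ A _ hexp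
  set π : ↥H →* ↥H ⧸ K := QuotientGroup.mk' K with hπ
  have hπs : Function.Surjective π := QuotientGroup.mk'_surjective K
  set H₁ : Subgroup ↥H := A.comap π with hH₁
  set H' : Subgroup S := (H₁.map H.subtype).map P.subtype with hH'
  set K' : Subgroup S := (K.map H.subtype).map P.subtype with hK'
  have hKH₁ : K ≤ H₁ := by
    intro k hk
    rw [hH₁, Subgroup.mem_comap]
    have : π k = 1 := by
      rw [hπ, QuotientGroup.mk'_apply, QuotientGroup.eq_one_iff]; exact hk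
    rw [this]; exact A.one_mem
  have cardH' : Nat.card H' = Nat.card H₁ := by
    rw [hH', Subgroup.card_map_of_injective P.subtype_injective,
      Subgroup.card_map_of_injective H.subtype_injective]
  have cardK' : Nat.card K' = Nat.card K := by
    rw [hK', Subgroup.card_map_of_injective P.subtype_injective,
      Subgroup.card_map_of_injective H.subtype_injective]
  have cardH₁ : Nat.card H₁ = Nat.card A * Nat.card K := by
    have e1 : H₁.index = A.index := Subgroup.index_comap_of_surjective A hπs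
    have e2 := Subgroup.card_mul_index H₁
    have e3 := Subgroup.card_mul_index A
    have e4 := Subgroup.card_eq_card_quotient_mul_card_subgroup K
    have hA0 : A.index ≠ 0 := Subgroup.index_ne_zero_of_finite
    have e5 : Nat.card H₁ * A.index = (Nat.card A * Nat.card K) * A.index := by
      rw [← e1, e2, e4, ← e3, e1]; ring
    exact Nat.eq_of_mul_eq_mul_right (Nat.pos_of_ne_zero hA0) e5
  have hK'H' : K' ≤ H' := Subgroup.map_mono (Subgroup.map_mono hKH₁)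
  have hH'P : H' ≤ P := by
    rw [hH']
    exact Subgroup.map_subtype_le _
  have hs : ∀ h ∈ H', h ^ 2 ∈ K' := by
    rintro _ ⟨_, ⟨h₁, hh₁, rfl⟩, rfl⟩
    refine ⟨_, ⟨h₁ ^ 2, ?_, rfl⟩, ?_⟩
    · have h1 : π h₁ ∈ A := hh₁
      have h2 := hexp _ h1
      rw [← map_pow, hπ, QuotientGroup.mk'_apply, QuotientGroup.eq_one_iff] at h2
      exact h2
    · simp
  have hn : ∀ h ∈ H', ∀ k ∈ K', h * k * h⁻¹ ∈ K' := by
    rintro _ ⟨_, ⟨h₁, hh₁, rfl⟩, rfl⟩ _ ⟨_, ⟨k₁, hk₁, rfl⟩, rfl⟩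
    refine ⟨_, ⟨h₁ * k₁ * h₁⁻¹, ?_, rfl⟩, ?_⟩
    · exact Subgroup.Normal.conj_mem inferInstance k₁ hk₁ h₁
    · simp
  have hs₂ : ∀ h ∈ cj t H', h ^ 2 ∈ cj t K' := by
    intro h hh
    rw [mem_cj] at hh ⊢
    have := hs _ hh
    have e : t⁻¹ * h ^ 2 * t = (t⁻¹ * h * t) ^ 2 := by
      rw [pow_two, pow_two]; group
    rw [e]; exact this
  have hn₂ : ∀ h ∈ cj t H', ∀ k ∈ cj t K', h * k * h⁻¹ ∈ cj t K' := by
    intro h hh k hk
    rw [mem_cj] at hh hk ⊢
    have := hn _ hh _ hk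
    have e : t⁻¹ * (h * k * h⁻¹) * t = (t⁻¹ * h * t) * (t⁻¹ * k * t) * (t⁻¹ * h * t)⁻¹ := by
      group
    rw [e]; exact this
  have hb := section_bound hr P (cj t P) hcomm hdisj H' K' (cj t H') (cj t K') hH'P
    (cj_mono t hH'P) hK'H' (cj_mono t hK'H') hn hn₂ hs hs₂
  rw [card_cj, card_cj, cardH', cardK', cardH₁] at hb
  have hKpos := Nat.card_pos (α := K)
  have hfin : Nat.card A ≤ 4 := by
    by_contra hlt
    push Not at hlt
    have h5 : 5 ≤ Nat.card A := hlt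
    have h6 : 5 * Nat.card K ≤ Nat.card A * Nat.card K := Nat.mul_le_mul_right _ h5
    have h7 : (5 * Nat.card K) * (5 * Nat.card K) ≤
        (Nat.card A * Nat.card K) * (Nat.card A * Nat.card K) := Nat.mul_le_mul h6 h6
    nlinarith
  norm_num
  exact hfin

theorem nz_inv {S : Type*} [Group S] {S₀ : Subgroup S} {g : S}
    (hg : ∀ s, s ∈ S₀ ↔ g * s * g⁻¹ ∈ S₀) {s : S} (hs : s ∈ S₀) : g⁻¹ * s * g ∈ S₀ := by
  rw [hg]
  have e : g * (g⁻¹ * s * g) * g⁻¹ = s := by group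
  rw [e]; exact hs

theorem comm_mul {S : Type*} [Group S] {n a b : S} (h1 : n * a = a * n) (h2 : n * b = b * n) :
    n * (a * b) = (a * b) * n := by
  calc n * (a * b) = (n * a) * b := by rw [mul_assoc]
    _ = a * (n * b) := by rw [h1, mul_assoc]
    _ = a * b * n := by rw [h2, mul_assoc]

/-- The group-theoretic heart, in terms of elements. -/
theorem main {S : Type*} [Group S] [Finite S] (h2 : IsPGroup 2 S)
    (hr : Cfsg.SectionalPRankLE 2 4 S)
    (P : Subgroup S) (hP : ¬ IsMulCommutative ↥P) (hZP : Nat.card ↥(Subgroup.center ↥P) = 2)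
    (z : S) (hzP : z ∈ P) (hz1 : z ≠ 1) (hzcent : ∀ p ∈ P, p * z = z * p)
    (hzc : ∀ c ∈ P, (∀ p ∈ P, p * c = c * p) → c = 1 ∨ c = z)
    (S₀ : Subgroup S) (hS₀ : ∀ s, s ∈ S₀ ↔ s * z = z * s)
    (hPn : ∀ s ∈ S₀, ∀ x ∈ P, s * x * s⁻¹ ∈ P) (hne : S₀ ≠ ⊤) :
    ∃ t, t ∉ S₀ ∧ (∀ n, n ∈ S₀ ∨ t⁻¹ * n ∈ S₀) ∧ P ⊓ cj t P = ⊥ ∧
      ∀ x ∈ P, ∀ y ∈ cj t P, x * y = y * x := by
  haveI : Fact (Nat.Prime 2) := ⟨Nat.prime_two⟩
  haveI : Group.IsNilpotent S := h2.isNilpotent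
  have hNC : NormalizerCondition S := Group.normalizerCondition_of_isNilpotent
  have hPS₀ : P ≤ S₀ := fun p hp => (hS₀ p).2 (hzcent p hp)
  have hzS₀ : z ∈ S₀ := hPS₀ hzP
  have hz2 : z * z = 1 := by
    have h1 : ∀ p ∈ P, p * (z * z) = (z * z) * p := fun p hp =>
      comm_mul (hzcent p hp) (hzcent p hp)
    rcases hzc (z * z) (P.mul_mem hzP hzP) h1 with h | h
    · exact h
    · exfalso
      apply hz1
      have : z * z = z * 1 := by rw [mul_one]; exact h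
      exact mul_left_cancel this
  have hzinv : z⁻¹ = z := inv_eq_of_mul_eq_one_left hz2
  have hxy : ∃ x ∈ P, ∃ y ∈ P, x * y ≠ y * x := by
    by_contra hcon
    push Not at hcon
    apply hP
    rw [isMulCommutative_iff]
    intro a b
    exact Subtype.ext (hcon a.1 a.2 b.1 b.2)
  obtain ⟨x₀, hx₀, y₀, hy₀, hx₀y₀⟩ := hxy
  obtain ⟨t, htN, htS₀⟩ := SetLike.exists_of_lt (hNC S₀ (lt_top_iff_ne_top.2 hne))
  have hNt : ∀ s, s ∈ S₀ ↔ t * s * t⁻¹ ∈ S₀ := Subgroup.mem_normalizer_iff.1 htN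
  have hzZ : ∀ s ∈ S₀, s * z = z * s := fun s hs => (hS₀ s).1 hs
  have hconjZ : ∀ g, (∀ s, s ∈ S₀ ↔ g * s * g⁻¹ ∈ S₀) → ∀ c, c ∈ S₀ →
      (∀ s ∈ S₀, s * c = c * s) →
      (g * c * g⁻¹ ∈ S₀ ∧ ∀ s ∈ S₀, s * (g * c * g⁻¹) = (g * c * g⁻¹) * s) := by
    intro g hg c hc hcc
    refine ⟨(hg c).1 hc, ?_⟩
    intro s hs
    have h1 := hcc (g⁻¹ * s * g) (nz_inv hg hs)
    calc s * (g * c * g⁻¹) = g * (g⁻¹ * s * g * c) * g⁻¹ := by group
      _ = g * (c * (g⁻¹ * s * g)) * g⁻¹ := by rw [h1]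
      _ = g * c * g⁻¹ * s := by group
  obtain ⟨z₂, hz₂def⟩ : ∃ z₂, z₂ = t * z * t⁻¹ := ⟨_, rfl⟩
  have hz₂ne : z₂ ≠ z := by
    intro h
    apply htS₀
    rw [hS₀]
    rw [hz₂def] at h
    exact mul_inv_eq_iff_eq_mul.1 h
  have hz₂1 : z₂ ≠ 1 := by
    intro h
    apply hz1
    have : z = t⁻¹ * z₂ * t := by rw [hz₂def]; group
    rw [this, h]; group
  have hz₂2 : z₂ * z₂ = 1 := by
    calc z₂ * z₂ = t * (z * z) * t⁻¹ := by rw [hz₂def]; group
      _ = 1 := by rw [hz2]; group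
  have hz₂Z := hconjZ t hNt z hzS₀ hzZ
  rw [← hz₂def] at hz₂Z
  have hzz₂ : z * z₂ = z₂ * z := hz₂Z.2 z hzS₀
  obtain ⟨P₂, hP₂def⟩ : ∃ P₂, P₂ = cj t P := ⟨_, rfl⟩
  have hP₂S₀ : P₂ ≤ S₀ := by
    intro x hx
    rw [hP₂def, mem_cj] at hx
    have h1 := hPS₀ hx
    have h2' := (hNt _).1 h1
    have e : t * (t⁻¹ * x * t) * t⁻¹ = x := by group
    rwa [e] at h2'
  have hP₂n : ∀ s ∈ S₀, ∀ x ∈ P₂, s * x * s⁻¹ ∈ P₂ := by
    intro s hs x hx
    rw [hP₂def, mem_cj] at hx ⊢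
    have h1 := hPn (t⁻¹ * s * t) (nz_inv hNt hs) _ hx
    have e : t⁻¹ * (s * x * s⁻¹) * t = (t⁻¹ * s * t) * (t⁻¹ * x * t) * (t⁻¹ * s * t)⁻¹ := by
      group
    rw [e]; exact h1
  have hz₂P₂ : z₂ ∈ P₂ := by
    rw [hz₂def, hP₂def]
    exact conj_mem_cj t P hzP
  have hz₂c : ∀ c ∈ P₂, (∀ p ∈ P₂, p * c = c * p) → c = 1 ∨ c = z₂ := by
    intro c hc hcc
    rw [hP₂def, mem_cj] at hc
    have h1 : ∀ p ∈ P, p * (t⁻¹ * c * t) = (t⁻¹ * c * t) * p := by
      intro p hp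
      have := hcc (t * p * t⁻¹) (by rw [hP₂def]; exact conj_mem_cj t P hp)
      calc p * (t⁻¹ * c * t) = t⁻¹ * ((t * p * t⁻¹) * c) * t := by group
        _ = t⁻¹ * (c * (t * p * t⁻¹)) * t := by rw [this]
        _ = (t⁻¹ * c * t) * p := by group
    rcases hzc _ hc h1 with h | h
    · left
      have : c = t * (t⁻¹ * c * t) * t⁻¹ := by group
      rw [this, h]; group
    · right
      have : c = t * (t⁻¹ * c * t) * t⁻¹ := by group
      rw [this, h, hz₂def]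
  have hzP₂ : z ∉ P₂ := by
    intro h
    rcases hz₂c z h (fun p hp => hzZ p (hP₂S₀ hp)) with h' | h'
    · exact hz1 h'
    · exact hz₂ne h'.symm
  obtain ⟨hdisj, hcomm⟩ := disj_comm h2 P P₂ z hzc hzP₂
    (fun q hq x hx => hPn q (hP₂S₀ hq) x hx) (fun p hp y hy => hP₂n p (hPS₀ hp) y hy)
  have hcore := core h2 hr P P₂ hP (by rw [hP₂def]; exact cj_not_comm t P hP) hZP
    (by rw [hP₂def, cj_center_card]; exact hZP) hcomm hdisj
  have hZS₀ : ∀ c ∈ S₀, (∀ s ∈ S₀, s * c = c * s) →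
      c = 1 ∨ c = z ∨ c = z₂ ∨ c = z * z₂ := by
    intro c hc hcc
    have hsup : P ⊔ P₂ ≤ S₀ := sup_le hPS₀ hP₂S₀
    have h1 : c ∈ Subgroup.centralizer ((P ⊔ P₂ : Subgroup S) : Set S) := by
      rw [Subgroup.mem_centralizer_iff]
      intro h hh
      exact hcc h (hsup hh)
    obtain ⟨a, ha, b, hb, hab⟩ := mem_sup_of_commute hcomm (hcore h1)
    rw [hab] at hcc
    have hac : ∀ p ∈ P, p * a = a * p := by
      intro p hp
      have h3 := hcc p (hPS₀ hp)
      have h4 : p * b = b * p := hcomm p hp b hb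
      have : p * a * b = a * p * b := by
        calc p * a * b = p * (a * b) := by rw [mul_assoc]
          _ = a * b * p := h3
          _ = a * (b * p) := by rw [mul_assoc]
          _ = a * (p * b) := by rw [h4]
          _ = a * p * b := by rw [mul_assoc]
      exact mul_right_cancel this
    have hbc : ∀ q ∈ P₂, q * b = b * q := by
      intro q hq
      have h3 := hcc q (hP₂S₀ hq)
      have h4 : a * q = q * a := hcomm a ha q hq
      have : a * (q * b) = a * (b * q) := by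
        calc a * (q * b) = (a * q) * b := by rw [mul_assoc]
          _ = q * a * b := by rw [h4]
          _ = q * (a * b) := by rw [mul_assoc]
          _ = a * b * q := h3
          _ = a * (b * q) := by rw [mul_assoc]
      exact mul_left_cancel this
    rw [hab]
    rcases hzc a ha hac with h | h <;> rcases hz₂c b hb hbc with h' | h'
    · left; rw [h, h', mul_one]
    · right; right; left; rw [h, h', one_mul]
    · right; left; rw [h, h', mul_one]
    · right; right; right; rw [h, h']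
  have htz₂ : t * z₂ * t⁻¹ = z := by
    have h := hconjZ t hNt z₂ hz₂Z.1 hz₂Z.2
    rcases hZS₀ _ h.1 h.2 with h' | h' | h' | h'
    · exfalso
      apply hz₂1
      have : z₂ = t⁻¹ * (t * z₂ * t⁻¹) * t := by group
      rw [this, h']; group
    · exact h'
    · exfalso
      apply htS₀
      rw [hS₀]
      have e1 : t * z₂ = z₂ * t := mul_inv_eq_iff_eq_mul.1 h'
      rw [hz₂def] at e1
      have e2 : t * (t * z * t⁻¹) = t * z := by
        rw [e1]; group
      have e3 : t * z * t⁻¹ = z := mul_left_cancel e2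
      exact mul_inv_eq_iff_eq_mul.1 e3
    · exfalso
      have e1 : t * (z * z₂) * t⁻¹ = z := by
        calc t * (z * z₂) * t⁻¹ = (t * z * t⁻¹) * (t * z₂ * t⁻¹) := by group
          _ = z₂ * (z * z₂) := by rw [h', ← hz₂def]
          _ = z₂ * (z₂ * z) := by rw [hzz₂]
          _ = (z₂ * z₂) * z := (mul_assoc z₂ z₂ z).symm
          _ = z := by rw [hz₂2, one_mul]
      have e2 : t ^ 3 * z = z * t ^ 3 := by
        have e0 : t * (t * (t * z * t⁻¹) * t⁻¹) * t⁻¹ = z := by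
          rw [← hz₂def, h']; exact e1
        have ht3 : t ^ 3 = t * t * t := by rw [pow_succ, pow_two]
        rw [ht3]
        calc t * t * t * z = (t * (t * (t * z * t⁻¹) * t⁻¹) * t⁻¹) * (t * t * t) := by group
          _ = z * (t * t * t) := by rw [e0]
      have e3 : t ^ 3 ∈ S₀ := (hS₀ _).2 e2
      obtain ⟨k, hk⟩ := h2 t
      have hcop : Nat.Coprime 3 (orderOf t) := by
        have hd : orderOf t ∣ 2 ^ k := orderOf_dvd_of_pow_eq_one hk
        exact Nat.Coprime.coprime_dvd_right hd (by apply Nat.Coprime.pow_right; norm_num)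
      obtain ⟨m, hm⟩ := exists_pow_eq_self_of_coprime hcop
      apply htS₀
      rw [← hm]
      exact S₀.pow_mem e3 m
  have htzz₂ : t * (z * z₂) = (z * z₂) * t := by
    have : t * (z * z₂) * t⁻¹ = z * z₂ := by
      calc t * (z * z₂) * t⁻¹ = (t * z * t⁻¹) * (t * z₂ * t⁻¹) := by group
        _ = z₂ * z := by rw [htz₂, ← hz₂def]
        _ = z * z₂ := hzz₂.symm
    exact mul_inv_eq_iff_eq_mul.1 this
  have hNall : ∀ n, (∀ s, s ∈ S₀ ↔ n * s * n⁻¹ ∈ S₀) → n ∈ S₀ ∨ t⁻¹ * n ∈ S₀ := by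
    intro n hn
    have h := hconjZ n hn z hzS₀ hzZ
    rcases hZS₀ _ h.1 h.2 with h' | h' | h' | h'
    · exfalso
      apply hz1
      have : z = n⁻¹ * (n * z * n⁻¹) * n := by group
      rw [this, h']; group
    · left
      rw [hS₀]
      exact mul_inv_eq_iff_eq_mul.1 h'
    · right
      rw [hS₀]
      rw [hz₂def] at h'
      have e : n * z = t * z * t⁻¹ * n := mul_inv_eq_iff_eq_mul.1 h'
      calc t⁻¹ * n * z = t⁻¹ * (n * z) := by rw [mul_assoc]
        _ = t⁻¹ * (t * z * t⁻¹ * n) := by rw [e]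
        _ = z * (t⁻¹ * n) := by group
    · exfalso
      apply htS₀
      have e1 : t * (n * z * n⁻¹) = (n * z * n⁻¹) * t := by rw [h']; exact htzz₂
      have e2 : (n⁻¹ * t * n) * z = z * (n⁻¹ * t * n) := by
        calc (n⁻¹ * t * n) * z = n⁻¹ * (t * (n * z * n⁻¹)) * n := by group
          _ = n⁻¹ * ((n * z * n⁻¹) * t) * n := by rw [e1]
          _ = z * (n⁻¹ * t * n) := by group
      have e3 : n⁻¹ * t * n ∈ S₀ := (hS₀ _).2 e2
      have e4 := (hn _).1 e3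
      have e5 : n * (n⁻¹ * t * n) * n⁻¹ = t := by group
      rwa [e5] at e4
  set N : Subgroup S := Subgroup.normalizer (S₀ : Set S) with hNdef
  have hS₀N : S₀ ≤ N := Subgroup.le_normalizer
  have hNmem : ∀ n, n ∈ N ↔ (n ∈ S₀ ∨ t⁻¹ * n ∈ S₀) := by
    intro n
    constructor
    · intro hn
      exact hNall n (Subgroup.mem_normalizer_iff.1 hn)
    · rintro (h | h)
      · exact hS₀N h
      · have : n = t * (t⁻¹ * n) := by group
        rw [this]
        exact N.mul_mem htN (hS₀N h)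
  have hzz₂N : ∀ n ∈ N, n * (z * z₂) = (z * z₂) * n := by
    intro n hn
    rcases (hNmem n).1 hn with h | h
    · exact comm_mul (hzZ n h) (hz₂Z.2 n h)
    · have h1 : (t⁻¹ * n) * (z * z₂) = (z * z₂) * (t⁻¹ * n) :=
        comm_mul (hzZ _ h) (hz₂Z.2 _ h)
      calc n * (z * z₂) = t * ((t⁻¹ * n) * (z * z₂)) := by group
        _ = t * ((z * z₂) * (t⁻¹ * n)) := by rw [h1]
        _ = (t * (z * z₂)) * (t⁻¹ * n) := (mul_assoc t (z * z₂) (t⁻¹ * n)).symm
        _ = (z * z₂) * t * (t⁻¹ * n) := by rw [htzz₂]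
        _ = (z * z₂) * n := by group
  have key : ∀ u, (∀ n, n ∈ N ↔ u * n * u⁻¹ ∈ N) → u ∉ N →
      (u * z * u⁻¹ ∈ S₀ ∧ (∀ x ∈ P, x * (u * z * u⁻¹) = (u * z * u⁻¹) * x) ∧
        (∀ x ∈ P₂, x * (u * z * u⁻¹) = (u * z * u⁻¹) * x)) := by
    intro u hu huN
    obtain ⟨w, hwdef⟩ : ∃ w, w = u * z * u⁻¹ := ⟨_, rfl⟩
    rw [← hwdef]
    have hinvN : ∀ n ∈ N, u⁻¹ * n * u ∈ N := fun n hn => nz_inv hu hn
    have hα : u * (z * z₂) * u⁻¹ = z * z₂ := by
      obtain ⟨c, hcdef⟩ : ∃ c, c = u * (z * z₂) * u⁻¹ := ⟨_, rfl⟩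
      rw [← hcdef]
      have hcN : ∀ n ∈ N, n * c = c * n := by
        intro n hn
        have h1 := hzz₂N _ (hinvN n hn)
        calc n * c = u * ((u⁻¹ * n * u) * (z * z₂)) * u⁻¹ := by rw [hcdef]; group
          _ = u * ((z * z₂) * (u⁻¹ * n * u)) * u⁻¹ := by rw [h1]
          _ = c * n := by rw [hcdef]; group
      have hcS₀ : c ∈ S₀ := by
        rw [hS₀]
        exact (hcN z (hS₀N hzS₀)).symm
      have hct : t * c = c * t := hcN t htN
      rcases hZS₀ c hcS₀ (fun s hs => hcN s (hS₀N hs)) with h | h | h | h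
      · exfalso
        have h1 : z * z₂ = 1 := by
          have : z * z₂ = u⁻¹ * c * u := by rw [hcdef]; group
          rw [this, h]; group
        apply hz₂ne
        have : z₂ = z⁻¹ := (inv_eq_of_mul_eq_one_right h1).symm
        rw [this, hzinv]
      · exfalso
        apply htS₀
        rw [hS₀]
        rw [h] at hct
        exact hct
      · exfalso
        apply hz₂ne
        rw [h] at hct
        have : t * z₂ * t⁻¹ = z₂ := by rw [hct]; group
        rw [htz₂] at this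
        exact this.symm
      · exact h
    have hwN : w ∈ N := by
      rw [hwdef]
      exact (hu z).1 (hS₀N hzS₀)
    have hwS₀ : w ∈ S₀ := by
      by_contra hw
      have htw : t⁻¹ * w ∈ S₀ := ((hNmem w).1 hwN).resolve_left hw
      have h1 : ∀ a ∈ P, w * a * w⁻¹ ∈ P₂ := by
        intro a ha
        rw [hP₂def, mem_cj]
        have := hPn _ htw a ha
        have e : t⁻¹ * (w * a * w⁻¹) * t = (t⁻¹ * w) * a * (t⁻¹ * w)⁻¹ := by group
        rw [e]; exact this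
      have h2' : ∀ a ∈ P, a * w = w * a → a = 1 := by
        intro a ha haw
        have h3 := h1 a ha
        have e : w * a * w⁻¹ = a := by rw [← haw]; group
        rw [e] at h3
        have : a ∈ P ⊓ P₂ := ⟨ha, h3⟩
        rw [hdisj, Subgroup.mem_bot] at this
        exact this
      have h3 : ∀ a ∈ P, a ≠ 1 → t⁻¹ * (u⁻¹ * a * u) ∈ S₀ := by
        intro a ha ha1
        have h4 : u⁻¹ * a * u ∈ N := hinvN a (hS₀N (hPS₀ ha))
        refine ((hNmem _).1 h4).resolve_left ?_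
        intro h5
        apply ha1
        apply h2' a ha
        have h6 := (hS₀ _).1 h5
        calc a * w = u * ((u⁻¹ * a * u) * z) * u⁻¹ := by rw [hwdef]; group
          _ = u * (z * (u⁻¹ * a * u)) * u⁻¹ := by rw [h6]
          _ = w * a := by rw [hwdef]; group
      have hx1 : x₀ ≠ 1 := by
        rintro rfl
        exact hx₀y₀ (by simp)
      have hy1 : y₀ ≠ 1 := by
        rintro rfl
        exact hx₀y₀ (by simp)
      have hxy1 : x₀⁻¹ * y₀ ≠ 1 := by
        intro h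
        have : y₀ = x₀ := by
          rw [inv_mul_eq_one] at h
          exact h.symm
        rw [this] at hx₀y₀
        exact hx₀y₀ rfl
      have a1 := h3 x₀ hx₀ hx1
      have a2 := h3 y₀ hy₀ hy1
      have a3 := h3 (x₀⁻¹ * y₀) (P.mul_mem (P.inv_mem hx₀) hy₀) hxy1
      have a4 : u⁻¹ * (x₀⁻¹ * y₀) * u ∈ S₀ := by
        have := S₀.mul_mem (S₀.inv_mem a1) a2
        have e : (t⁻¹ * (u⁻¹ * x₀ * u))⁻¹ * (t⁻¹ * (u⁻¹ * y₀ * u)) = u⁻¹ * (x₀⁻¹ * y₀) * u := by
          group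
        rwa [e] at this
      have a5 : t⁻¹ ∈ S₀ := by
        have := S₀.mul_mem a3 (S₀.inv_mem a4)
        have e : t⁻¹ * (u⁻¹ * (x₀⁻¹ * y₀) * u) * (u⁻¹ * (x₀⁻¹ * y₀) * u)⁻¹ = t⁻¹ := by group
        rwa [e] at this
      exact htS₀ (by simpa using S₀.inv_mem a5)
    have hwz : w * z = z * w := (hS₀ w).1 hwS₀
    have hwz₂ : w * z₂ = z₂ * w := hz₂Z.2 w hwS₀
    have hδ : ∀ x ∈ S₀, x * w ≠ w * x → x * w * x⁻¹ * w⁻¹ = z * z₂ := by
      intro x hx hxw
      have h4 : u⁻¹ * x * u ∈ N := hinvN x (hS₀N hx)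
      have h5 : t⁻¹ * (u⁻¹ * x * u) ∈ S₀ := by
        refine ((hNmem _).1 h4).resolve_left ?_
        intro h5
        apply hxw
        have h6 := (hS₀ _).1 h5
        calc x * w = u * ((u⁻¹ * x * u) * z) * u⁻¹ := by rw [hwdef]; group
          _ = u * (z * (u⁻¹ * x * u)) * u⁻¹ := by rw [h6]
          _ = w * x := by rw [hwdef]; group
      have h6 : (u⁻¹ * x * u) * z * (u⁻¹ * x * u)⁻¹ = z₂ := by
        have h7 := hzZ _ h5
        calc (u⁻¹ * x * u) * z * (u⁻¹ * x * u)⁻¹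
            = t * ((t⁻¹ * (u⁻¹ * x * u)) * z) * (u⁻¹ * x * u)⁻¹ := by group
          _ = t * (z * (t⁻¹ * (u⁻¹ * x * u))) * (u⁻¹ * x * u)⁻¹ := by rw [h7]
          _ = t * z * t⁻¹ := by group
          _ = z₂ := hz₂def.symm
      have h8 : x * w * x⁻¹ = u * z₂ * u⁻¹ := by
        rw [← h6, hwdef]; group
      have h9 : u * z₂ * u⁻¹ = w * (z * z₂) := by
        have : z₂ = z * (z * z₂) := by rw [← mul_assoc, hz2, one_mul]
        calc u * z₂ * u⁻¹ = u * (z * (z * z₂)) * u⁻¹ := by rw [← this]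
          _ = (u * z * u⁻¹) * (u * (z * z₂) * u⁻¹) := by group
          _ = w * (z * z₂) := by rw [hα, hwdef]
      have hwzz₂ : w * (z * z₂) = (z * z₂) * w := comm_mul hwz hwz₂
      calc x * w * x⁻¹ * w⁻¹ = (u * z₂ * u⁻¹) * w⁻¹ := by rw [h8]
        _ = w * (z * z₂) * w⁻¹ := by rw [h9]
        _ = (z * z₂) * w * w⁻¹ := by rw [hwzz₂]
        _ = z * z₂ := by group
    refine ⟨hwS₀, ?_, ?_⟩
    · intro x hx
      by_contra hxw
      have h1 := hδ x (hPS₀ hx) hxw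
      have h2' : x * w * x⁻¹ * w⁻¹ ∈ P := by
        have := hPn w hwS₀ x⁻¹ (P.inv_mem hx)
        have e : x * w * x⁻¹ * w⁻¹ = x * (w * x⁻¹ * w⁻¹) := by group
        rw [e]
        exact P.mul_mem hx this
      rw [h1] at h2'
      have h3 : z₂ ∈ P := by
        have := P.mul_mem (P.inv_mem hzP) h2'
        have e : z⁻¹ * (z * z₂) = z₂ := by group
        rwa [e] at this
      have : z₂ ∈ P ⊓ P₂ := ⟨h3, hz₂P₂⟩
      rw [hdisj, Subgroup.mem_bot] at this
      exact hz₂1 this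
    · intro x hx
      by_contra hxw
      have h1 := hδ x (hP₂S₀ hx) hxw
      have h2' : x * w * x⁻¹ * w⁻¹ ∈ P₂ := by
        have := hP₂n w hwS₀ x⁻¹ (P₂.inv_mem hx)
        have e : x * w * x⁻¹ * w⁻¹ = x * (w * x⁻¹ * w⁻¹) := by group
        rw [e]
        exact P₂.mul_mem hx this
      rw [h1] at h2'
      have h3 : z ∈ P₂ := by
        have := P₂.mul_mem h2' (P₂.inv_mem hz₂P₂)
        have e : z * z₂ * z₂⁻¹ = z := by group
        rwa [e] at this
      exact hzP₂ h3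
  have hNtop : N = ⊤ := by
    by_contra hNne
    obtain ⟨u, huN, huN'⟩ := SetLike.exists_of_lt (hNC N (lt_top_iff_ne_top.2 hNne))
    have hu : ∀ n, n ∈ N ↔ u * n * u⁻¹ ∈ N := Subgroup.mem_normalizer_iff.1 huN
    have hu' : ∀ n, n ∈ N ↔ u⁻¹ * n * u⁻¹⁻¹ ∈ N :=
      Subgroup.mem_normalizer_iff.1 (Subgroup.inv_mem _ huN)
    have huN'' : u⁻¹ ∉ N := fun h => huN' (by simpa using N.inv_mem h)
    obtain ⟨hwS₀, hwP, hwP₂⟩ := key u hu huN'
    obtain ⟨hw'S₀, hw'P, hw'P₂⟩ := key u⁻¹ hu' huN''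
    rw [inv_inv] at hw'S₀ hw'P hw'P₂
    obtain ⟨w, hwdef⟩ : ∃ w, w = u * z * u⁻¹ := ⟨_, rfl⟩
    rw [← hwdef] at hwS₀ hwP hwP₂
    have hwz : w ≠ z := by
      intro h
      apply huN'
      apply hS₀N
      rw [hS₀]
      rw [hwdef] at h
      exact mul_inv_eq_iff_eq_mul.1 h
    have hwz₂ : w ≠ z₂ := by
      intro h
      apply huN'
      rw [hNmem]
      right
      rw [hS₀]
      rw [hwdef, hz₂def] at h
      have e : u * z = t * z * t⁻¹ * u := mul_inv_eq_iff_eq_mul.1 h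
      calc t⁻¹ * u * z = t⁻¹ * (u * z) := by rw [mul_assoc]
        _ = t⁻¹ * (t * z * t⁻¹ * u) := by rw [e]
        _ = z * (t⁻¹ * u) := by group
    obtain ⟨P₃, hP₃def⟩ : ∃ P₃, P₃ = cj u P := ⟨_, rfl⟩
    have hP₃S₀ : P₃ ≤ S₀ := by
      intro x hx
      rw [hP₃def, mem_cj] at hx
      rw [hS₀]
      have h1 := hw'P _ hx
      calc x * z = u * ((u⁻¹ * x * u) * (u⁻¹ * z * u)) * u⁻¹ := by group
        _ = u * ((u⁻¹ * z * u) * (u⁻¹ * x * u)) * u⁻¹ := by rw [h1]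
        _ = z * x := by group
    have hP₃n : ∀ s, s * w = w * s → ∀ x ∈ P₃, s * x * s⁻¹ ∈ P₃ := by
      intro s hs x hx
      rw [hP₃def, mem_cj] at hx ⊢
      have h1 : u⁻¹ * s * u ∈ S₀ := by
        rw [hS₀]
        calc u⁻¹ * s * u * z = u⁻¹ * (s * w) * u := by rw [hwdef]; group
          _ = u⁻¹ * (w * s) * u := by rw [hs]
          _ = z * (u⁻¹ * s * u) := by rw [hwdef]; group
      have := hPn _ h1 _ hx
      have e : u⁻¹ * (s * x * s⁻¹) * u = (u⁻¹ * s * u) * (u⁻¹ * x * u) * (u⁻¹ * s * u)⁻¹ := by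
        group
      rw [e]; exact this
    have hwc : ∀ c ∈ P₃, (∀ p ∈ P₃, p * c = c * p) → c = 1 ∨ c = w := by
      intro c hc hcc
      rw [hP₃def, mem_cj] at hc
      have h1 : ∀ p ∈ P, p * (u⁻¹ * c * u) = (u⁻¹ * c * u) * p := by
        intro p hp
        have := hcc (u * p * u⁻¹) (by rw [hP₃def]; exact conj_mem_cj u P hp)
        calc p * (u⁻¹ * c * u) = u⁻¹ * ((u * p * u⁻¹) * c) * u := by group
          _ = u⁻¹ * (c * (u * p * u⁻¹)) * u := by rw [this]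
          _ = (u⁻¹ * c * u) * p := by group
      rcases hzc _ hc h1 with h | h
      · left
        have : c = u * (u⁻¹ * c * u) * u⁻¹ := by group
        rw [this, h]; group
      · right
        have : c = u * (u⁻¹ * c * u) * u⁻¹ := by group
        rw [this, h, hwdef]
    have hzP₃ : z ∉ P₃ := by
      intro h
      rcases hwc z h (fun p hp => hzZ p (hP₃S₀ hp)) with h' | h'
      · exact hz1 h'
      · exact hwz h'.symm
    have hz₂P₃ : z₂ ∉ P₃ := by
      intro h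
      rcases hwc z₂ h (fun p hp => hz₂Z.2 p (hP₃S₀ hp)) with h' | h'
      · exact hz₂1 h'
      · exact hwz₂ h'.symm
    obtain ⟨-, hc1⟩ := disj_comm h2 P P₃ z hzc hzP₃
      (fun q hq x hx => hPn q (hP₃S₀ hq) x hx) (fun p hp y hy => hP₃n p (hwP p hp) y hy)
    obtain ⟨-, hc2⟩ := disj_comm h2 P₂ P₃ z₂ hz₂c hz₂P₃
      (fun q hq x hx => hP₂n q (hP₃S₀ hq) x hx) (fun p hp y hy => hP₃n p (hwP₂ p hp) y hy)
    have hP₃cent : ∀ x ∈ P₃, x ∈ Subgroup.centralizer ((P ⊔ P₂ : Subgroup S) : Set S) := by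
      intro x hx
      rw [Subgroup.mem_centralizer_iff]
      intro h hh
      obtain ⟨a, ha, b, hb, rfl⟩ := mem_sup_of_commute hcomm hh
      exact (comm_mul (hc1 a ha x hx).symm (hc2 b hb x hx).symm).symm
    have hfin : (u * x₀ * u⁻¹) * (u * y₀ * u⁻¹) = (u * y₀ * u⁻¹) * (u * x₀ * u⁻¹) := by
      have hx : u * x₀ * u⁻¹ ∈ P₃ := by rw [hP₃def]; exact conj_mem_cj u P hx₀
      have hy : u * y₀ * u⁻¹ ∈ P₃ := by rw [hP₃def]; exact conj_mem_cj u P hy₀
      have h1 := hcore (hP₃cent _ hy)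
      have h2' := Subgroup.mem_centralizer_iff.1 (hP₃cent _ hx) _ h1
      exact h2'.symm
    apply hx₀y₀
    have e : x₀ * y₀ = u⁻¹ * ((u * x₀ * u⁻¹) * (u * y₀ * u⁻¹)) * u := by group
    rw [e, hfin]; group
  have hall : ∀ n, n ∈ S₀ ∨ t⁻¹ * n ∈ S₀ := by
    intro n
    have : n ∈ N := by rw [hNtop]; exact Subgroup.mem_top n
    exact (hNmem n).1 this
  rw [hP₂def] at hdisj hcomm
  exact ⟨t, htS₀, hall, hdisj, hcomm⟩

/-- Let S be a finite 2-group of sectional 2-rank at most 4 and P a proper non-abelian subgroup whose centre has order 2. Let S₀ be the centralizer in S of Z(P) and suppose P is normal in S₀. Then either S₀ = S, or P has sectional 2-rank at most 2 and S₀ has index 2 in S. -/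
theorem result {S : Type*} [Group S] [Finite S] (h2 : IsPGroup 2 S) (hr : Cfsg.SectionalPRankLE 2 4 S)
    (P : Subgroup S) (hPlt : P ≠ ⊤) (hP : ¬ IsMulCommutative ↥P) (hZP : Nat.card ↥(Subgroup.center ↥P) = 2)
    (S₀ : Subgroup S) (hS₀ : S₀ = Subgroup.centralizer (((Subgroup.center ↥P).map P.subtype : Subgroup S) : Set S))
    (hPn : ∀ s ∈ S₀, ∀ x ∈ P, s * x * s⁻¹ ∈ P) :
    S₀ = ⊤ ∨ (Cfsg.SectionalPRankLE 2 2 ↥P ∧ S₀.index = 2) := by
  by_cases hne : S₀ = ⊤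
  · exact Or.inl hne
  right
  obtain ⟨z, hzP, hz1, hzcent, hzc⟩ := center_elt P hZP
  have hS₀' : ∀ s, s ∈ S₀ ↔ s * z = z * s := by
    intro s
    rw [hS₀, Subgroup.mem_centralizer_iff]
    constructor
    · intro h
      have hzZ : (⟨z, hzP⟩ : ↥P) ∈ Subgroup.center ↥P := by
        rw [Subgroup.mem_center_iff]
        intro g
        exact Subtype.ext (hzcent g g.2)
      have := h z ⟨⟨z, hzP⟩, hzZ, rfl⟩
      exact this.symm
    · intro h c hc
      obtain ⟨c', hc', rfl⟩ := hc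
      have hcc : ∀ p ∈ P, p * c'.1 = c'.1 * p := by
        intro p hp
        have := Subgroup.mem_center_iff.1 hc' ⟨p, hp⟩
        exact congrArg Subtype.val this
      rcases hzc c'.1 c'.2 hcc with h' | h'
      · show c'.1 * s = s * c'.1
        rw [h']; simp
      · show c'.1 * s = s * c'.1
        rw [h']; exact h.symm
  obtain ⟨t, htS₀, hall, hdisj, hcomm⟩ :=
    main h2 hr P hP hZP z hzP hz1 hzcent hzc S₀ hS₀' hPn hne
  refine ⟨rank_P hr P t hcomm hdisj, ?_⟩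
  rw [Subgroup.index_eq_two_iff]
  refine ⟨t, fun b => ?_⟩
  have h1 := hall b⁻¹
  have e : (t⁻¹ * b⁻¹)⁻¹ = b * t := by group
  by_cases hb : b ∈ S₀
  · right
    refine ⟨hb, fun hbt => htS₀ ?_⟩
    have := S₀.mul_mem (S₀.inv_mem hb) hbt
    simpa using this
  · left
    refine ⟨?_, hb⟩
    rcases h1 with h | h
    · exact absurd (by simpa using S₀.inv_mem h) hb
    · have := S₀.inv_mem h
      rwa [e] at this

end Cfsg.Agent.S4401
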