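import Cfsg.Statements.S4405
import Cfsg.Agent.Lib.Helper78.Fitting
import Cfsg.Agent.Lib.Helper2.NC
import Cfsg.Agent.Lib.Helper70.FrattiniQuot
import Cfsg.Agent.Lib.Helper73.MaxClass

set_option autoImplicit false
open Cfsg

namespace Cfsg.Agent.S4405

open scoped commutatorElement

/-- Product formula as an inequality. -/
theorem card_mul_card_le {G : Type*} [Group G] [Finite G] {A B H : Subgroup G} (hA : A ≤ H)
    (hB : B ≤ H) :
    Nat.card A * Nat.card B ≤ Nat.card (A ⊓ B : Subgroup G) * Nat.card H := by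
  have h1 : Nat.card (A ⊓ B : Subgroup G) * (A ⊓ B).relIndex A = Nat.card A := by
    have := Subgroup.relIndex_mul_relIndex (⊥ : Subgroup G) (A ⊓ B) A bot_le inf_le_left
    rwa [Subgroup.relIndex_bot_left, Subgroup.relIndex_bot_left] at this
  have h2 : Nat.card B * B.relIndex H = Nat.card H := by
    have := Subgroup.relIndex_mul_relIndex (⊥ : Subgroup G) B H bot_le hB
    rwa [Subgroup.relIndex_bot_left, Subgroup.relIndex_bot_left] at this
  have hne : B.relIndex H ≠ 0 := by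
    intro h
    rw [h, mul_zero] at h2
    exact (Nat.card_pos (α := H)).ne' h2.symm
  have h3 : (A ⊓ B).relIndex A ≤ B.relIndex H := by
    rw [Subgroup.inf_relIndex_left]
    exact Subgroup.relIndex_le_of_le_right hA hne
  calc Nat.card A * Nat.card B
      = Nat.card (A ⊓ B : Subgroup G) * (A ⊓ B).relIndex A * Nat.card B := by rw [h1]
    _ ≤ Nat.card (A ⊓ B : Subgroup G) * B.relIndex H * Nat.card B :=
        Nat.mul_le_mul (Nat.mul_le_mul le_rfl h3) le_rfl
    _ = Nat.card (A ⊓ B : Subgroup G) * Nat.card H := by rw [← h2]; ring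

theorem mem_normalizer_of_map_le {G : Type*} [Group G] [Finite G] (S : Subgroup G) (x : G)
    (h : S.map (MulAut.conj x).toMonoidHom ≤ S) : x ∈ Subgroup.normalizer (S : Set G) := by
  have heq : S.map (MulAut.conj x).toMonoidHom = S := by
    apply Subgroup.eq_of_le_of_card_ge h
    rw [Subgroup.card_map_of_injective (MulAut.conj x).injective]
  rw [Subgroup.mem_normalizer_iff]
  intro s
  constructor
  · intro hs
    have : x * s * x⁻¹ ∈ S.map (MulAut.conj x).toMonoidHom := ⟨s, hs, by simp [MulAut.conj_apply]⟩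
    exact h this
  · intro hs
    rw [← heq] at hs
    obtain ⟨s', hs', he⟩ := hs
    have he' : x * s' * x⁻¹ = x * s * x⁻¹ := by simpa [MulAut.conj_apply] using he
    have : s' = s := mul_left_cancel (mul_right_cancel he')
    rwa [← this]

/-- Conjugating by a power when the commutator is central. -/
theorem conj_pow_central {X : Type*} [Group X] {u v z : X} (hz : z ∈ Subgroup.center X)
    (h : u * v * u⁻¹ = z * v) (k : ℕ) : u ^ k * v * (u ^ k)⁻¹ = z ^ k * v := by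
  induction k with
  | zero => simp
  | succ k ih =>
    have hzc : u * z ^ k = z ^ k * u :=
      Subgroup.mem_center_iff.1 (Subgroup.pow_mem _ hz k) u
    calc u ^ (k + 1) * v * (u ^ (k + 1))⁻¹ = u * (u ^ k * v * (u ^ k)⁻¹) * u⁻¹ := by
          rw [pow_succ']; group
      _ = u * (z ^ k * v) * u⁻¹ := by rw [ih]
      _ = (u * z ^ k) * v * u⁻¹ := by group
      _ = z ^ k * (u * v * u⁻¹) := by rw [hzc]; group
      _ = z ^ (k + 1) * v := by rw [h, ← mul_assoc, ← pow_succ]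

theorem relIndex_sup_zpowers {G : Type*} [Group G] [Finite G] (H : Subgroup G) [H.Normal]
    {q : ℕ} (hq : q.Prime) (y : G) (hy : orderOf y = q) (hyH : y ∉ H) :
    H.relIndex (H ⊔ Subgroup.zpowers y) = q := by
  rw [Subgroup.relIndex_sup_left]
  have hd : H.relIndex (Subgroup.zpowers y) ∣ q := by
    have := Subgroup.relIndex_dvd_card H (Subgroup.zpowers y)
    rwa [Nat.card_zpowers, hy] at this
  rcases (Nat.dvd_prime hq).1 hd with h | h
  · exfalso
    rw [Subgroup.relIndex_eq_one] at h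
    exact hyH (h (Subgroup.mem_zpowers y))
  · exact h

/-- Elements of `H` that `g` centralizes modulo the central subgroup `Z`. -/
def D {G : Type*} [Group G] (H Z : Subgroup G) (hZ : Z ≤ Subgroup.center G) (g : G) :
    Subgroup G where
  carrier := {h | h ∈ H ∧ g * h * g⁻¹ * h⁻¹ ∈ Z}
  one_mem' := ⟨H.one_mem, by simp⟩
  mul_mem' := by
    rintro a b ⟨ha, ha'⟩ ⟨hb, hb'⟩
    refine ⟨H.mul_mem ha hb, ?_⟩
    have hc := Subgroup.mem_center_iff.1 (hZ hb')
    have e : (g * b * g⁻¹ * b⁻¹) * a⁻¹ = a⁻¹ * (g * b * g⁻¹ * b⁻¹) := (hc a⁻¹).symm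
    have : g * (a * b) * g⁻¹ * (a * b)⁻¹ = (g * a * g⁻¹ * a⁻¹) * (g * b * g⁻¹ * b⁻¹) := by
      calc g * (a * b) * g⁻¹ * (a * b)⁻¹ = (g * a * g⁻¹) * ((g * b * g⁻¹ * b⁻¹) * a⁻¹) := by group
        _ = (g * a * g⁻¹) * (a⁻¹ * (g * b * g⁻¹ * b⁻¹)) := by rw [e]
        _ = _ := by group
    rw [this]
    exact Z.mul_mem ha' hb'
  inv_mem' := by
    rintro a ⟨ha, ha'⟩
    refine ⟨H.inv_mem ha, ?_⟩
    have hc' := Subgroup.mem_center_iff.1 (hZ (Z.inv_mem ha'))
    have e : (g * a * g⁻¹ * a⁻¹)⁻¹ * a = a * (g * a * g⁻¹ * a⁻¹)⁻¹ := (hc' a).symm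
    have : g * a⁻¹ * g⁻¹ * a⁻¹⁻¹ = (g * a * g⁻¹ * a⁻¹)⁻¹ := by
      calc g * a⁻¹ * g⁻¹ * a⁻¹⁻¹ = a⁻¹ * ((g * a * g⁻¹ * a⁻¹)⁻¹ * a) := by group
        _ = a⁻¹ * (a * (g * a * g⁻¹ * a⁻¹)⁻¹) := by rw [e]
        _ = _ := by group
    rw [this]
    exact Z.inv_mem ha'

section Dlemmas

variable {G : Type*} [Group G] {H Z : Subgroup G} {hZ : Z ≤ Subgroup.center G}

theorem D_le {g : G} : D H Z hZ g ≤ H := fun _ hh => hh.1

theorem Z_le_D (hZH : Z ≤ H) (g : G) : Z ≤ D H Z hZ g := by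
  intro c hc
  refine ⟨hZH hc, ?_⟩
  have := Subgroup.mem_center_iff.1 (hZ hc) g
  have e : g * c * g⁻¹ * c⁻¹ = 1 := by rw [this]; group
  rw [e]
  exact Z.one_mem

theorem D_inf_le (g g' : G) : D H Z hZ g ⊓ D H Z hZ g' ≤ D H Z hZ (g * g') := by
  rintro h ⟨⟨hH, h1⟩, ⟨_, h2⟩⟩
  refine ⟨hH, ?_⟩
  have hc := Subgroup.mem_center_iff.1 (hZ h2)
  have : g * g' * h * (g * g')⁻¹ * h⁻¹ = (g' * h * g'⁻¹ * h⁻¹) * (g * h * g⁻¹ * h⁻¹) := by
    calc g * g' * h * (g * g')⁻¹ * h⁻¹ = g * (g' * h * g'⁻¹ * h⁻¹) * (h * g⁻¹ * h⁻¹) := by group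
      _ = (g' * h * g'⁻¹ * h⁻¹) * g * (h * g⁻¹ * h⁻¹) := by rw [hc g]
      _ = _ := by group
  rw [this]
  exact Z.mul_mem h2 h1

theorem D_mul_left_le [hHn : H.Normal] (hE1 : ∀ a ∈ H, ∀ b ∈ H, a * b * a⁻¹ * b⁻¹ ∈ Z) {h₁ : G}
    (hh₁ : h₁ ∈ H) (y : G) : D H Z hZ (h₁ * y) ≤ D H Z hZ y := by
  rintro h ⟨hH, h1⟩
  refine ⟨hH, ?_⟩
  have hh' : y * h * y⁻¹ ∈ H := hHn.conj_mem h hH y
  have h2 := hE1 h₁ hh₁ _ hh'
  have : y * h * y⁻¹ * h⁻¹ = (h₁ * (y * h * y⁻¹) * h₁⁻¹ * (y * h * y⁻¹)⁻¹)⁻¹ *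
      (h₁ * y * h * (h₁ * y)⁻¹ * h⁻¹) := by group
  rw [this]
  exact Z.mul_mem (Z.inv_mem h2) h1

theorem card_D_conj_le [Finite G] [hHn : H.Normal] (x g : G) :
    Nat.card (D H Z hZ g) ≤ Nat.card (D H Z hZ (x * g * x⁻¹)) := by
  have hle : (D H Z hZ g).map (MulAut.conj x).toMonoidHom ≤ D H Z hZ (x * g * x⁻¹) := by
    rintro _ ⟨h, ⟨hH, h1⟩, rfl⟩
    refine ⟨by simpa [MulAut.conj_apply] using hHn.conj_mem h hH x, ?_⟩
    have hc := Subgroup.mem_center_iff.1 (hZ h1)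
    have : x * g * x⁻¹ * ((MulAut.conj x).toMonoidHom h) * (x * g * x⁻¹)⁻¹ *
        ((MulAut.conj x).toMonoidHom h)⁻¹ = g * h * g⁻¹ * h⁻¹ := by
      simp only [MulEquiv.coe_toMonoidHom, MulAut.conj_apply]
      calc x * g * x⁻¹ * (x * h * x⁻¹) * (x * g * x⁻¹)⁻¹ * (x * h * x⁻¹)⁻¹
          = x * (g * h * g⁻¹ * h⁻¹) * x⁻¹ := by group
        _ = (g * h * g⁻¹ * h⁻¹) * x * x⁻¹ := by rw [hc x]
        _ = _ := by group
    rw [this]
    exact h1
  calc Nat.card (D H Z hZ g) = Nat.card ((D H Z hZ g).map (MulAut.conj x).toMonoidHom) :=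
        (Subgroup.card_map_of_injective (MulAut.conj x).injective).symm
    _ ≤ _ := Subgroup.card_le_of_le hle

end Dlemmas

/-- The core of the argument, with the structure of `H` given elementwise. -/
theorem core {G : Type*} [Group G] [Finite G] (H Z : Subgroup G) [hHn : H.Normal]
    (hZ : Z ≤ Subgroup.center G) (hG : Nat.card G = 320) (hH : Nat.card H = 32)
    (hZ2 : Nat.card Z = 2) (hZH : Z ≤ H)
    (hE1 : ∀ a ∈ H, ∀ b ∈ H, a * b * a⁻¹ * b⁻¹ ∈ Z)
    (hE2 : ∀ a ∈ H, a * a ∈ Z)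
    (hO2 : ∀ N : Subgroup G, N.Normal → IsPGroup 2 N → N ≤ H)
    (hF : ∀ N : Subgroup G, N.Normal → (∀ a ∈ N, ∀ b ∈ N, a * b = b * a) → N ≤ H)
    (hminus : ∀ A : Subgroup G, A ≤ H → (∀ a ∈ A, a * a = 1) → Nat.card A ≤ 4)
    (T : G) (hT : T * T = 1) (hTH : T ∉ H) :
    Nat.card (H ⊓ Subgroup.centralizer ({T} : Set G) : Subgroup G) ≤ 4 := by
  haveI : Fact (Nat.Prime 5) := ⟨by norm_num⟩
  haveI : Fact (Nat.Prime 2) := ⟨Nat.prime_two⟩
  have hZsq : ∀ c ∈ Z, c * c = 1 := by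
    intro c hc
    have h1 := pow_card_eq_one' (G := Z) (x := ⟨c, hc⟩)
    rw [hZ2] at h1
    have h2 := congrArg Subtype.val h1
    simpa [pow_two] using h2
  have hZ5 : ∀ c ∈ Z, c ^ 5 = 1 → c = 1 := by
    intro c hc h5
    have h2 := hZsq c hc
    calc c = c ^ 5 * (c * c)⁻¹ * (c * c)⁻¹ := by group
      _ = 1 := by rw [h5, h2]; simp
  have hHord : ∀ y ∈ H, orderOf y ≠ 5 := by
    intro y hy h5
    have := Subgroup.orderOf_dvd_natCard H hy
    rw [h5, hH] at this
    norm_num at this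
  have hNidx : ∀ y : G, orderOf y = 5 → (H ⊔ Subgroup.zpowers y).index = 2 := by
    intro y hy
    have h1 := relIndex_sup_zpowers H (by norm_num : Nat.Prime 5) y hy (fun h => hHord y h hy)
    have h2 := Subgroup.relIndex_mul_index (le_sup_left : H ≤ H ⊔ Subgroup.zpowers y)
    have h3 := Subgroup.card_mul_index H
    rw [hH, hG] at h3
    rw [h1] at h2
    omega
  -- elements of order 5 act fixed-point-freely modulo `Z`
  have hfix : ∀ y : G, orderOf y = 5 → H ⊓ Subgroup.centralizer ({y} : Set G) = Z := by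
    intro y hy
    have hmod := Cfsg.Agent.Lib.Helper2.NC.card_modEq_card_inf_centralizer H y
      (by rw [Subgroup.normalizer_eq_top]; trivial) 5 1 (by rw [hy, pow_one])
    have hdvd : Nat.card (H ⊓ Subgroup.centralizer ({y} : Set G) : Subgroup G) ∣ 2 ^ 5 := by
      have := Subgroup.card_dvd_of_le (inf_le_left : H ⊓ Subgroup.centralizer ({y} : Set G) ≤ H)
      rw [hH] at this
      exact this
    have hZle : Z ≤ H ⊓ Subgroup.centralizer ({y} : Set G) := by
      intro c hc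
      exact ⟨hZH hc, Subgroup.mem_centralizer_singleton_iff.2
        ((Subgroup.mem_center_iff.1 (hZ hc) y).symm)⟩
    rw [hH] at hmod
    have hcases : Nat.card (H ⊓ Subgroup.centralizer ({y} : Set G) : Subgroup G) = 2 ∨
        Nat.card (H ⊓ Subgroup.centralizer ({y} : Set G) : Subgroup G) = 32 := by
      obtain ⟨k, hk, hck⟩ := (Nat.dvd_prime_pow Nat.prime_two).1 hdvd
      rw [hck] at hmod ⊢
      unfold Nat.ModEq at hmod
      interval_cases k <;> first | (exfalso; revert hmod; decide) | (left; norm_num; done) | (right; norm_num; done)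
    rcases hcases with h2 | h32
    · exact (Subgroup.eq_of_le_of_card_ge hZle (by rw [h2, hZ2])).symm
    · exfalso
      have hHle : H ≤ Subgroup.centralizer ({y} : Set G) := by
        have := Subgroup.eq_of_le_of_card_ge
          (inf_le_left : H ⊓ Subgroup.centralizer ({y} : Set G) ≤ H) (by rw [h32, hH])
        rw [← this]
        exact inf_le_right
      obtain ⟨N, hN⟩ : ∃ N, N = H ⊔ Subgroup.zpowers y := ⟨_, rfl⟩
      have hNi : N.index = 2 := by rw [hN]; exact hNidx y hy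
      haveI : N.Normal := Subgroup.normal_of_index_eq_two hNi
      have hNcent : N ≤ Subgroup.centralizer ({y} : Set G) := by
        rw [hN]
        exact sup_le hHle (by
          rw [Subgroup.zpowers_le]
          exact Subgroup.mem_centralizer_singleton_iff.2 rfl)
      have hyN : y ∈ N := by rw [hN]; exact Subgroup.mem_sup_right (Subgroup.mem_zpowers y)
      have hK : N ⊓ Subgroup.centralizer (N : Set G) ≤ H := by
        apply hF
        · infer_instance
        · rintro a ⟨ha, _⟩ b ⟨_, hb'⟩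
          exact (Subgroup.mem_centralizer_iff.1 hb' a ha)
      have hyK : y ∈ N ⊓ Subgroup.centralizer (N : Set G) := Subgroup.mem_inf.2 ⟨hyN, by
        rw [Subgroup.mem_centralizer_iff]
        intro n hn
        exact Subgroup.mem_centralizer_singleton_iff.1 (hNcent hn)⟩
      exact hHord y (hK hyK) hy
  have hDy : ∀ y : G, orderOf y = 5 → D H Z hZ y ≤ Z := by
    rintro y hy h ⟨hH', hc⟩
    obtain ⟨c, hcdef⟩ : ∃ c, c = y * h * y⁻¹ * h⁻¹ := ⟨_, rfl⟩
    rw [← hcdef] at hc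
    have h1 : y * h * y⁻¹ = c * h := by rw [hcdef]; group
    have h2 := conj_pow_central (hZ hc) h1 5
    have hy5 : y ^ 5 = 1 := by rw [← hy]; exact pow_orderOf_eq_one y
    rw [hy5] at h2
    have hc5 : c ^ 5 = 1 := by
      have h3 : 1 * h = c ^ 5 * h := by simpa using h2
      exact (mul_right_cancel h3).symm
    have hc1 := hZ5 c hc hc5
    have hcomm : h * y = y * h := by
      rw [hc1, one_mul] at h1
      calc h * y = (y * h * y⁻¹) * y := by rw [h1]
        _ = y * h := by group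
    rw [← hfix y hy]
    exact ⟨hH', Subgroup.mem_centralizer_singleton_iff.2 hcomm⟩
  obtain ⟨x, hx⟩ := exists_prime_orderOf_dvd_card' (G := G) 5 (by rw [hG]; norm_num)
  have hTinv : T⁻¹ = T := inv_eq_of_mul_eq_one_left hT
  have hT1 : T ≠ 1 := fun h => hTH (h ▸ H.one_mem)
  have hTord : orderOf T = 2 := orderOf_eq_prime (by rw [pow_two]; exact hT) hT1
  obtain ⟨w, hw⟩ : ∃ w, w = T * x * T⁻¹ * x⁻¹ := ⟨_, rfl⟩
  have hwH : w ∉ H := by
    intro hwH
    obtain ⟨S₂, hS₂⟩ : ∃ S₂, S₂ = H ⊔ Subgroup.zpowers T := ⟨_, rfl⟩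
    have hTS : T ∈ S₂ := by rw [hS₂]; exact Subgroup.mem_sup_right (Subgroup.mem_zpowers T)
    have hHS : H ≤ S₂ := by rw [hS₂]; exact le_sup_left
    have hrel : H.relIndex S₂ = 2 := by
      rw [hS₂]; exact relIndex_sup_zpowers H Nat.prime_two T hTord hTH
    have hcard : Nat.card S₂ = 64 := by
      have := Subgroup.relIndex_mul_relIndex (⊥ : Subgroup G) H S₂ bot_le hHS
      rw [Subgroup.relIndex_bot_left, Subgroup.relIndex_bot_left, hH, hrel] at this
      omega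
    have hxN : x ∈ Subgroup.normalizer (S₂ : Set G) := by
      apply mem_normalizer_of_map_le
      rw [hS₂, Subgroup.map_sup, ← hS₂]
      apply sup_le
      · rintro _ ⟨h, hh, rfl⟩
        exact hHS (by simpa [MulAut.conj_apply] using hHn.conj_mem h hh x)
      · rw [MonoidHom.map_zpowers, Subgroup.zpowers_le]
        have : (MulAut.conj x).toMonoidHom T = w⁻¹ * T := by
          simp only [MulEquiv.coe_toMonoidHom, MulAut.conj_apply]
          rw [hw]; group
        rw [this]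
        exact S₂.mul_mem (hHS (H.inv_mem hwH)) hTS
    have hdvd64 : 64 ∣ Nat.card (Subgroup.normalizer (S₂ : Set G)) :=
      hcard ▸ Subgroup.card_dvd_of_le Subgroup.le_normalizer
    have hdvd5 : 5 ∣ Nat.card (Subgroup.normalizer (S₂ : Set G)) :=
      hx ▸ Subgroup.orderOf_dvd_natCard _ hxN
    have hdvd320 : Nat.card (Subgroup.normalizer (S₂ : Set G)) ∣ 320 :=
      hG ▸ Subgroup.card_subgroup_dvd_card _
    have hNtop : Subgroup.normalizer (S₂ : Set G) = ⊤ := by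
      apply Subgroup.eq_top_of_card_eq
      rw [hG]
      have h320 : 64 * 5 ∣ Nat.card (Subgroup.normalizer (S₂ : Set G)) := by
        have hcop : Nat.Coprime 64 5 := by norm_num
        exact hcop.mul_dvd_of_dvd_of_dvd hdvd64 hdvd5
      exact Nat.dvd_antisymm hdvd320 h320
    have hSn : S₂.Normal := Subgroup.normalizer_eq_top_iff.1 hNtop
    have hS2 : IsPGroup 2 S₂ := IsPGroup.of_card (n := 6) (by rw [hcard]; norm_num)
    exact hTH (hO2 S₂ hSn hS2 hTS)
  obtain ⟨N, hN⟩ : ∃ N, N = H ⊔ Subgroup.zpowers x := ⟨_, rfl⟩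
  have hNi : N.index = 2 := by rw [hN]; exact hNidx x hx
  haveI hNn : N.Normal := Subgroup.normal_of_index_eq_two hNi
  have hxN : x ∈ N := by rw [hN]; exact Subgroup.mem_sup_right (Subgroup.mem_zpowers x)
  have hwN : w ∈ N := by
    rw [hw]
    exact N.mul_mem (hNn.conj_mem x hxN T) (N.inv_mem hxN)
  rw [hN] at hwN
  obtain ⟨h₁, hh₁, y, hy, hwy⟩ := Subgroup.mem_sup_of_normal_left.1 hwN
  have hy1 : y ≠ 1 := by
    rintro rfl
    rw [mul_one] at hwy
    exact hwH (hwy ▸ hh₁)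
  have hyord : orderOf y = 5 := by
    have hd : orderOf y ∣ orderOf x := orderOf_dvd_of_mem_zpowers hy
    rw [hx] at hd
    rcases (Nat.dvd_prime (by norm_num : Nat.Prime 5)).1 hd with h | h
    · exact absurd (orderOf_eq_one_iff.1 h) hy1
    · exact h
  have hDT8 : Nat.card (D H Z hZ T) ≤ 8 := by
    have h1 : D H Z hZ T ⊓ D H Z hZ (x * T * x⁻¹) ≤ Z := by
      have hwT : T * (x * T * x⁻¹) = h₁ * y := by
        rw [hwy, hw]
        conv_rhs => rw [hTinv]
        group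
      calc D H Z hZ T ⊓ D H Z hZ (x * T * x⁻¹) ≤ D H Z hZ (T * (x * T * x⁻¹)) := D_inf_le _ _
        _ = D H Z hZ (h₁ * y) := by rw [hwT]
        _ ≤ D H Z hZ y := D_mul_left_le hE1 hh₁ y
        _ ≤ Z := hDy y hyord
    have h2 := card_mul_card_le (D_le (H := H) (Z := Z) (hZ := hZ) (g := T))
      (D_le (H := H) (Z := Z) (hZ := hZ) (g := x * T * x⁻¹))
    have h3 : Nat.card (D H Z hZ T ⊓ D H Z hZ (x * T * x⁻¹) : Subgroup G) ≤ 2 :=
      hZ2 ▸ Subgroup.card_le_of_le h1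
    have h4 := card_D_conj_le (H := H) (Z := Z) (hZ := hZ) x T
    rw [hH] at h2
    by_contra hcon
    push Not at hcon
    have h5 : 9 * 9 ≤ Nat.card (D H Z hZ T) * Nat.card (D H Z hZ (x * T * x⁻¹)) :=
      Nat.mul_le_mul hcon (by omega)
    have h6 : Nat.card (D H Z hZ T ⊓ D H Z hZ (x * T * x⁻¹) : Subgroup G) * 32 ≤ 2 * 32 :=
      Nat.mul_le_mul h3 le_rfl
    omega
  obtain ⟨CT, hCT⟩ : ∃ CT, CT = H ⊓ Subgroup.centralizer ({T} : Set G) := ⟨_, rfl⟩
  rw [← hCT]
  have hCTD : CT ≤ D H Z hZ T := by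
    rw [hCT]
    intro h hh0
    obtain ⟨hh, hc⟩ := Subgroup.mem_inf.1 hh0
    refine ⟨hh, ?_⟩
    rw [Subgroup.mem_centralizer_singleton_iff] at hc
    have : T * h * T⁻¹ * h⁻¹ = 1 := by rw [← hc]; group
    rw [this]
    exact Z.one_mem
  have hCT8 : Nat.card CT ≤ 8 := (Subgroup.card_le_of_le hCTD).trans hDT8
  have hCTdvd : Nat.card CT ∣ 2 ^ 5 := by
    have := Subgroup.card_dvd_of_le (inf_le_left : H ⊓ Subgroup.centralizer ({T} : Set G) ≤ H)
    rw [hH, ← hCT] at this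
    exact this
  by_contra hcon
  push Not at hcon
  have hCTcard : Nat.card CT = 8 := by
    obtain ⟨k, hk, hck⟩ := (Nat.dvd_prime_pow Nat.prime_two).1 hCTdvd
    rw [hck] at hcon hCT8 ⊢
    interval_cases k <;> first | (exfalso; revert hcon; decide) | (exfalso; revert hCT8; decide) | rfl
  have hDcard : Nat.card (D H Z hZ T) = 8 :=
    le_antisymm hDT8 (hCTcard ▸ Subgroup.card_le_of_le hCTD)
  have hCTeq : CT = D H Z hZ T := Subgroup.eq_of_le_of_card_ge hCTD (by rw [hDcard, hCTcard])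
  have hκH : ∀ h ∈ H, T * h * T⁻¹ * h⁻¹ ∈ H := fun h hh =>
    H.mul_mem (hHn.conj_mem h hh T) (H.inv_mem hh)
  have hκinv : ∀ h : G, T * (T * h * T⁻¹ * h⁻¹) * T⁻¹ = (T * h * T⁻¹ * h⁻¹)⁻¹ := by
    intro h
    have e1 : T * (T * h * T⁻¹ * h⁻¹) * T⁻¹ = (T * T) * h * T⁻¹ * h⁻¹ * T⁻¹ := by group
    have e2 : (T * h * T⁻¹ * h⁻¹)⁻¹ = h * T * h⁻¹ * T⁻¹ := by group
    rw [e1, e2, hT, one_mul]
    conv_lhs => rw [hTinv]
    conv_rhs => rw [hTinv]
  have hκD : ∀ h ∈ H, T * h * T⁻¹ * h⁻¹ ∈ D H Z hZ T := by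
    intro h hh
    refine ⟨hκH h hh, ?_⟩
    rw [hκinv h]
    have := Z.inv_mem (hE2 _ (hκH h hh))
    rwa [mul_inv_rev] at this
  haveI hZn : Z.Normal := ⟨fun n hn g => by
    have := Subgroup.mem_center_iff.1 (hZ hn) g
    rw [this]
    simpa using hn⟩
  have hsq : ∀ d ∈ CT, d * d = 1 := by
    let f : ↥H →* G ⧸ Z := MonoidHom.mk'
      (fun h => ((T * (h : G) * T⁻¹ * (h : G)⁻¹ : G) : G ⧸ Z)) (by
        intro a b
        rw [← QuotientGroup.mk_mul, QuotientGroup.eq]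
        have hb' : (b : G) * (T * (b : G) * T⁻¹)⁻¹ ∈ H :=
          H.mul_mem b.2 (H.inv_mem (hHn.conj_mem _ b.2 T))
        have := hE1 (a : G) a.2 _ hb'
        have he : (T * ((a * b : H) : G) * T⁻¹ * ((a * b : H) : G)⁻¹)⁻¹ *
            (T * (a : G) * T⁻¹ * (a : G)⁻¹ * (T * (b : G) * T⁻¹ * (b : G)⁻¹)) =
            (a : G) * ((b : G) * (T * (b : G) * T⁻¹)⁻¹) * (a : G)⁻¹ *
              ((b : G) * (T * (b : G) * T⁻¹)⁻¹)⁻¹ := by
          simp only [Subgroup.coe_mul]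
          group
        rw [he]
        exact this)
    have hfapp : ∀ h : H, f h = ((T * (h : G) * T⁻¹ * (h : G)⁻¹ : G) : G ⧸ Z) := fun _ => rfl
    have hker : Nat.card f.ker = 8 := by
      rw [← hDcard]
      have : f.ker.map H.subtype = D H Z hZ T := by
        ext d
        constructor
        · rintro ⟨h, hh, rfl⟩
          have h1 : f h = 1 := hh
          rw [hfapp] at h1
          exact ⟨h.2, (QuotientGroup.eq_one_iff _).1 h1⟩
        · rintro ⟨hd, hd'⟩
          refine ⟨⟨d, hd⟩, ?_, rfl⟩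
          show f ⟨d, hd⟩ = 1
          rw [hfapp]
          exact (QuotientGroup.eq_one_iff _).2 hd'
      rw [← this, Subgroup.card_map_of_injective H.subtype_injective]
    have hrange : Nat.card f.range = 4 := by
      have h1 := Subgroup.card_mul_index f.ker
      rw [Subgroup.index_ker, hker] at h1
      have : Nat.card ↥H = 32 := hH
      omega
    obtain ⟨K₀, hK₀⟩ : ∃ K₀, K₀ = f.range.comap (QuotientGroup.mk' Z) := ⟨_, rfl⟩
    have hK₀card : Nat.card K₀ = 8 := by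
      have h1 : K₀.index = f.range.index := by
        rw [hK₀]
        exact Subgroup.index_comap_of_surjective _ (QuotientGroup.mk'_surjective Z)
      have h2 := Subgroup.card_mul_index K₀
      have h3 := Subgroup.card_mul_index f.range
      have h4 := Subgroup.card_eq_card_quotient_mul_card_subgroup Z
      rw [hG, hZ2] at h4
      rw [hrange] at h3
      rw [h1, hG] at h2
      have hpos : 0 < f.range.index := Nat.pos_of_ne_zero Subgroup.index_ne_zero_of_finite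
      have h5 : Nat.card K₀ * f.range.index = 8 * f.range.index := by
        rw [h2, h4, ← h3]; ring
      exact Nat.eq_of_mul_eq_mul_right hpos h5
    have hK₀le : K₀ ≤ D H Z hZ T := by
      intro d hd
      rw [hK₀, Subgroup.mem_comap] at hd
      obtain ⟨h, hh⟩ := hd
      have h1 : ((T * (h : G) * T⁻¹ * (h : G)⁻¹ : G) : G ⧸ Z) = (d : G ⧸ Z) := hh
      have h2 := QuotientGroup.eq.1 h1
      have h3 : d = (T * (h : G) * T⁻¹ * (h : G)⁻¹) *
          ((T * (h : G) * T⁻¹ * (h : G)⁻¹)⁻¹ * d) := by group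
      rw [h3]
      exact (D H Z hZ T).mul_mem (hκD h h.2) (Z_le_D hZH T h2)
    intro d hd
    have hdK : d ∈ K₀ := by
      have : K₀ = D H Z hZ T := Subgroup.eq_of_le_of_card_ge hK₀le (by rw [hDcard, hK₀card])
      rw [this, ← hCTeq]
      exact hd
    rw [hK₀, Subgroup.mem_comap] at hdK
    obtain ⟨h, hh⟩ := hdK
    have h1 : ((T * (h : G) * T⁻¹ * (h : G)⁻¹ : G) : G ⧸ Z) = (d : G ⧸ Z) := hh
    have h2 := QuotientGroup.eq.1 h1
    have h3 := hκinv (h : G)
    obtain ⟨κ, hκ⟩ : ∃ κ, κ = T * (h : G) * T⁻¹ * (h : G)⁻¹ := ⟨_, rfl⟩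
    rw [← hκ] at h2 h3
    obtain ⟨c, hc⟩ : ∃ c, c = κ⁻¹ * d := ⟨_, rfl⟩
    rw [← hc] at h2
    have hdκ : d = κ * c := by rw [hc]; group
    have hcc := Subgroup.mem_center_iff.1 (hZ h2)
    have hκCT : κ ∈ CT := by
      have : κ = d * c⁻¹ := by rw [hdκ]; group
      rw [this]
      refine CT.mul_mem hd (CT.inv_mem ?_)
      rw [hCT]
      exact ⟨hZH h2, Subgroup.mem_centralizer_singleton_iff.2 (hcc T).symm⟩
    have hκT : κ * T = T * κ := by
      rw [hCT] at hκCT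
      exact Subgroup.mem_centralizer_singleton_iff.1 hκCT.2
    have hκ2 : κ * κ = 1 := by
      have h4 : T * κ * T⁻¹ = κ := by rw [← hκT]; group
      rw [h4] at h3
      calc κ * κ = κ⁻¹ * κ := by rw [← h3]
        _ = 1 := inv_mul_cancel κ
    rw [hdκ]
    have e : c * κ = κ * c := (hcc κ).symm
    calc κ * c * (κ * c) = κ * (c * κ) * c := by group
      _ = κ * (κ * c) * c := by rw [e]
      _ = (κ * κ) * (c * c) := by group
      _ = 1 := by rw [hκ2, hZsq c h2, one_mul]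
  have := hminus CT (by rw [hCT]; exact inf_le_left) hsq
  omega

/-- Let G be a finite group of order 320 = 64·5 whose largest normal 2-subgroup H = O₂(G) equals the Fitting subgroup F(G) and is extraspecial of order 32 containing no elementary abelian subgroup of order 8 (so H is the central product of a quaternion group and a dihedral group of order 8). If T is an involution of G outside H whose centralizer in H contains an elementary abelian subgroup of order 4, then C_H(T) itself is elementary abelian of order 4. -/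
theorem result {G : Type*} [Group G] [Finite G]
    (hG : Nat.card G = 320) (hHF : Cfsg.pCore 2 G = Cfsg.fittingSubgroup G)
    (hex : Cfsg.IsExtraspecial 2 ↥(Cfsg.pCore 2 G)) (h32 : Nat.card ↥(Cfsg.pCore 2 G) = 32)
    (hminus : ∀ A : Subgroup G, A ≤ Cfsg.pCore 2 G → Cfsg.IsElementaryAbelian 2 A → Nat.card ↥A ≤ 4)
    (T : G) (hT : orderOf T = 2) (hTH : T ∉ Cfsg.pCore 2 G)
    (V : Subgroup G) (hV : V ≤ Cfsg.pCore 2 G ⊓ Subgroup.centralizer ({T} : Set G)) (hV4 : Nat.card ↥V = 4) (hVe : Cfsg.IsElementaryAbelian 2 V) :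
    Nat.card ↥(Cfsg.pCore 2 G ⊓ Subgroup.centralizer ({T} : Set G)) = 4 ∧
      Cfsg.IsElementaryAbelian 2 (Cfsg.pCore 2 G ⊓ Subgroup.centralizer ({T} : Set G)) := by
  haveI : Fact (Nat.Prime 2) := ⟨Nat.prime_two⟩
  have hO2 : ∀ N : Subgroup G, N.Normal → IsPGroup 2 N → N ≤ Cfsg.pCore 2 G := fun N hN hp =>
    Cfsg.Agent.Lib.Helper78.Fitting.le_pCore hN hp
  have hF : ∀ N : Subgroup G, N.Normal → (∀ a ∈ N, ∀ b ∈ N, a * b = b * a) →
      N ≤ Cfsg.pCore 2 G := by
    intro N hN hcomm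
    rw [hHF]
    apply Cfsg.Agent.Lib.Helper78.Fitting.le_fitting hN
    refine ⟨⟨1, ?_⟩⟩
    rw [Subgroup.upperCentralSeries_one, eq_top_iff]
    intro a _
    rw [Subgroup.mem_center_iff]
    intro b
    exact Subtype.ext (hcomm b b.2 a a.2)
  haveI hHn : (Cfsg.pCore 2 G).Normal := Cfsg.Agent.Lib.Helper78.Fitting.pCore_normal 2
  generalize Cfsg.pCore 2 G = H at *
  obtain ⟨⟨hP, hfr, hcomm⟩, hcen⟩ := hex
  obtain ⟨Z, hZdef⟩ : ∃ Z, Z = (Subgroup.center ↥H).map H.subtype := ⟨_, rfl⟩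
  have hZ2 : Nat.card Z = 2 := by
    rw [hZdef, Subgroup.card_map_of_injective H.subtype_injective, hcen]
  have hZH : Z ≤ H := by rw [hZdef]; exact Subgroup.map_subtype_le _
  have hZmem : ∀ c : G, c ∈ Z ↔ ∃ hc : c ∈ H, (⟨c, hc⟩ : H) ∈ Subgroup.center ↥H := by
    intro c
    rw [hZdef]
    constructor
    · rintro ⟨c₀, hc₀, rfl⟩
      exact ⟨c₀.2, hc₀⟩
    · rintro ⟨hc, hc'⟩
      exact ⟨⟨c, hc⟩, hc', rfl⟩
  -- `Z` is normalized by `G`
  have hZconj : ∀ c ∈ Z, ∀ g : G, g * c * g⁻¹ ∈ Z := by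
    intro c hc g
    obtain ⟨hcH, hcc⟩ := (hZmem c).1 hc
    rw [hZmem]
    refine ⟨hHn.conj_mem c hcH g, ?_⟩
    rw [Subgroup.mem_center_iff]
    intro h
    apply Subtype.ext
    have h1 := Subgroup.mem_center_iff.1 hcc ⟨g⁻¹ * h * g⁻¹⁻¹, hHn.conj_mem h h.2 g⁻¹⟩
    have h2 : g⁻¹ * (h : G) * g⁻¹⁻¹ * c = c * (g⁻¹ * (h : G) * g⁻¹⁻¹) := congrArg Subtype.val h1
    show (h : G) * (g * c * g⁻¹) = g * c * g⁻¹ * (h : G)
    calc (h : G) * (g * c * g⁻¹) = g * (g⁻¹ * (h : G) * g⁻¹⁻¹ * c) * g⁻¹ := by group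
      _ = g * (c * (g⁻¹ * (h : G) * g⁻¹⁻¹)) * g⁻¹ := by rw [h2]
      _ = g * c * g⁻¹ * (h : G) := by group
  have hZc : Z ≤ Subgroup.center G := by
    intro c hc
    rw [Subgroup.mem_center_iff]
    intro g
    obtain ⟨z₀, hz₀, hz₀u⟩ := (Nat.card_eq_two_iff' (1 : Z)).1 hZ2
    by_cases hc1 : c = 1
    · rw [hc1]; simp
    · have e1 : (⟨c, hc⟩ : Z) = z₀ := hz₀u _ (fun h => hc1 (congrArg Subtype.val h))
      have hne : g * c * g⁻¹ ≠ 1 := by
        intro h
        apply hc1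
        calc c = g⁻¹ * (g * c * g⁻¹) * g := by group
          _ = 1 := by rw [h]; group
      have e2 : (⟨g * c * g⁻¹, hZconj c hc g⟩ : Z) = z₀ :=
        hz₀u _ (fun h => hne (congrArg Subtype.val h))
      have e3 : g * c * g⁻¹ = c := congrArg Subtype.val (e2.trans e1.symm)
      calc g * c = (g * c * g⁻¹) * g := by group
        _ = c * g := by rw [e3]
  have hE1 : ∀ a ∈ H, ∀ b ∈ H, a * b * a⁻¹ * b⁻¹ ∈ Z := by
    intro a ha b hb
    rw [hZmem]
    refine ⟨H.mul_mem (H.mul_mem (H.mul_mem ha hb) (H.inv_mem ha)) (H.inv_mem hb), ?_⟩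
    rw [← hcomm, commutator_def]
    have := Subgroup.commutator_mem_commutator (Subgroup.mem_top (⟨a, ha⟩ : H))
      (Subgroup.mem_top (⟨b, hb⟩ : H))
    rw [commutatorElement_def] at this
    exact this
  have hE2 : ∀ a ∈ H, a * a ∈ Z := by
    intro a ha
    rw [hZmem]
    refine ⟨H.mul_mem ha ha, ?_⟩
    rw [← hfr]
    have := Cfsg.Agent.Lib.Helper70.FrattiniQuot.pow_mem_frattini hP (⟨a, ha⟩ : H)
    rw [pow_two] at this
    exact this
  have hminus' : ∀ A : Subgroup G, A ≤ H → (∀ a ∈ A, a * a = 1) → Nat.card A ≤ 4 := by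
    intro A hA hsq
    apply hminus A hA
    refine ⟨⟨⟨fun a b => ?_⟩⟩, fun a ha => by rw [pow_two]; exact hsq a ha⟩
    exact Cfsg.Agent.Lib.Helper73.MaxClass.comm_of_sq (H := A)
      (fun x => by
        apply Subtype.ext
        rw [pow_two]
        exact hsq x x.2) a b
  have hTT : T * T = 1 := by
    have := pow_orderOf_eq_one T
    rwa [hT, pow_two] at this
  have hcore := core H Z hZc hG h32 hZ2 hZH hE1 hE2 hO2 hF hminus' T hTT hTH
  have hVeq : V = H ⊓ Subgroup.centralizer ({T} : Set G) :=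
    Subgroup.eq_of_le_of_card_ge hV (by rw [hV4]; exact hcore)
  rw [← hVeq]
  exact ⟨hV4, hVe⟩

end Cfsg.Agent.S4405
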