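import Cfsg.Statements.S4406

set_option autoImplicit false
open Cfsg

namespace Cfsg.Agent.S4406

open scoped Pointwise

abbrev A4 := ↥(alternatingGroup (Fin 4))

abbrev inS (u w u' w' : A4) (p : A4 × A4) : Prop :=
  p = (1, 1) ∨ p = (u, w) ∨ p = (u', w') ∨ p = (u * u', w * w')

abbrev good (a b u w u' w' : A4) : Prop :=
  inS u w u' w' (a * u * a⁻¹, b * w * b⁻¹) ∧ inS u w u' w' (a * u' * a⁻¹, b * w' * b⁻¹)

set_option synthInstance.maxSize 4096 in
set_option maxRecDepth 100000 in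
theorem core : ∀ a b : A4, a ≠ 1 → a ^ 3 = 1 → b ≠ 1 → b ^ 3 = 1 →
    ∀ u w : A4, u ^ 4 = 1 → u ≠ 1 → w ^ 4 = 1 → w ≠ 1 →
    ∀ u' : A4, u' ^ 4 = 1 → u' ≠ 1 → u ≠ u' →
    ∀ w' : A4, w' ^ 4 = 1 → w' ≠ 1 → w ≠ w' →
      good a b u w u' w' ∨ good a b⁻¹ u w u' w' := by decide +kernel

set_option maxRecDepth 100000 in
theorem sq_of_pow_four : ∀ u : A4, u ^ 4 = 1 → u * u = 1 := by decide +kernel

theorem card_A4 : Nat.card A4 = 12 := by
  rw [Nat.card_eq_fintype_card]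
  decide +kernel

def c0 : A4 := ⟨Equiv.swap 0 1 * Equiv.swap 1 2, Equiv.Perm.mem_alternatingGroup.2 (by decide)⟩

theorem c0_ne_one : c0 ≠ 1 := by decide +kernel

theorem c0_pow : c0 ^ 3 = 1 := by decide +kernel

theorem pow_four_of_two_group (u : A4) (k : ℕ) (h : u ^ (2 ^ k) = 1) : u ^ 4 = 1 := by
  have h1 : orderOf u ∣ 2 ^ k := orderOf_dvd_of_pow_eq_one h
  have h2 : orderOf u ∣ 4 * 3 := by
    have := orderOf_dvd_natCard u
    rwa [card_A4] at this
  have h3 : (orderOf u).Coprime 3 :=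
    Nat.Coprime.coprime_dvd_left h1 (Nat.Coprime.pow_left k (by norm_num))
  exact orderOf_dvd_iff_pow_eq_one.1 (h3.dvd_of_dvd_mul_right h2)

theorem sylow_two_elem (X : Sylow 2 (A4 × A4)) (g : A4 × A4) (hg : g ∈ (X : Subgroup _)) :
    g.1 ^ 4 = 1 ∧ g.2 ^ 4 = 1 := by
  obtain ⟨k, hk⟩ := X.isPGroup' ⟨g, hg⟩
  have hk' : g ^ (2 ^ k) = 1 := by
    have := congrArg Subtype.val hk
    simpa using this
  have h1 : g.1 ^ (2 ^ k) = 1 := by
    have := congrArg Prod.fst hk'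
    simpa using this
  have h2 : g.2 ^ (2 ^ k) = 1 := by
    have := congrArg Prod.snd hk'
    simpa using this
  exact ⟨pow_four_of_two_group _ k h1, pow_four_of_two_group _ k h2⟩

theorem sylow_three_contains (Q : Sylow 3 (A4 × A4)) (x : A4 × A4) (hx : x ^ 3 = 1) :
    ∃ g : A4 × A4, g * x * g⁻¹ ∈ (Q : Subgroup _) := by
  haveI : Fact (Nat.Prime 3) := ⟨Nat.prime_three⟩
  have hP : IsPGroup 3 (Subgroup.zpowers x) := by
    rintro ⟨y, hy⟩
    obtain ⟨k, rfl⟩ := Subgroup.mem_zpowers_iff.1 hy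
    refine ⟨1, Subtype.ext ?_⟩
    simp only [pow_one, Subgroup.coe_pow, Subgroup.coe_one]
    rw [← zpow_natCast, ← zpow_mul, mul_comm, zpow_mul, zpow_natCast, hx, one_zpow]
  obtain ⟨Q₁, hQ₁⟩ := hP.exists_le_sylow
  obtain ⟨g, hg⟩ := MulAction.exists_smul_eq (A4 × A4) Q₁ Q
  refine ⟨g, ?_⟩
  have hx₁ : x ∈ (Q₁ : Subgroup _) := hQ₁ (Subgroup.mem_zpowers x)
  have : MulAut.conj g • x ∈ MulAut.conj g • (Q₁ : Subgroup (A4 × A4)) :=
    Subgroup.smul_mem_pointwise_smul _ _ _ hx₁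
  rw [← Sylow.pointwise_smul_def] at this
  have h2 : (g • Q₁ : Sylow 3 (A4 × A4)) = Q := hg
  rw [Sylow.smul_def] at h2
  rw [h2] at this
  simpa [MulAut.smul_def] using this

theorem sylow_three_elems (Q : Sylow 3 (A4 × A4)) :
    ∃ a b : A4, a ≠ 1 ∧ a ^ 3 = 1 ∧ b ≠ 1 ∧ b ^ 3 = 1 ∧
      ((a, 1) : A4 × A4) ∈ (Q : Subgroup _) ∧ ((1, b) : A4 × A4) ∈ (Q : Subgroup _) := by
  obtain ⟨g, hg⟩ := sylow_three_contains Q ((c0, 1) : A4 × A4)
    (by rw [Prod.pow_mk, c0_pow, one_pow]; rfl)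
  obtain ⟨h, hh⟩ := sylow_three_contains Q ((1, c0) : A4 × A4)
    (by rw [Prod.pow_mk, c0_pow, one_pow]; rfl)
  refine ⟨g.1 * c0 * g.1⁻¹, h.2 * c0 * h.2⁻¹, ?_, ?_, ?_, ?_, ?_, ?_⟩
  · intro h1
    apply c0_ne_one
    have : c0 = g.1⁻¹ * (g.1 * c0 * g.1⁻¹) * g.1 := by group
    rw [this, h1]; group
  · rw [conj_pow, c0_pow]; group
  · intro h1
    apply c0_ne_one
    have : c0 = h.2⁻¹ * (h.2 * c0 * h.2⁻¹) * h.2 := by group
    rw [this, h1]; group
  · rw [conj_pow, c0_pow]; group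
  · have : g * ((c0, 1) : A4 × A4) * g⁻¹ = (g.1 * c0 * g.1⁻¹, 1) := by
      ext <;> simp
    rwa [this] at hg
  · have : h * ((1, c0) : A4 × A4) * h⁻¹ = (1, h.2 * c0 * h.2⁻¹) := by
      ext <;> simp
    rwa [this] at hh

theorem exists_two_elems (B : Subgroup (A4 × A4)) (hB4 : Nat.card ↥B = 4) :
    ∃ p p' : A4 × A4, p ∈ B ∧ p' ∈ B ∧ p ≠ 1 ∧ p' ≠ 1 ∧ p ≠ p' := by
  have hB : B ≠ ⊥ := by
    rintro rfl
    simp at hB4
  obtain ⟨⟨p, hp⟩, hp1⟩ := (Subgroup.ne_bot_iff_exists_ne_one).1 hB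
  have hp1' : (p : A4 × A4) ≠ 1 := fun h => hp1 (Subtype.ext h)
  by_contra hcon
  push Not at hcon
  have hsub : (B : Set (A4 × A4)) ⊆ {1, (p : A4 × A4)} := by
    intro q hq
    by_contra hq'
    simp only [Set.mem_insert_iff, Set.mem_singleton_iff, not_or] at hq'
    exact hq'.2 (hcon p q hp hq hp1' hq'.1).symm
  have h1 : Nat.card ↥B ≤ 2 := by
    rw [← SetLike.coe_sort_coe, Nat.card_coe_set_eq]
    calc (B : Set (A4 × A4)).ncard ≤ ({1, (p : A4 × A4)} : Set (A4 × A4)).ncard :=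
          Set.ncard_le_ncard hsub (Set.toFinite _)
      _ ≤ ({(p : A4 × A4)} : Set (A4 × A4)).ncard + 1 := Set.ncard_insert_le _ _
      _ = 2 := by rw [Set.ncard_singleton]
  omega

/-- In A₄ × A₄, a subgroup of order 4 of the Sylow 2-subgroup meets a factor or is normalized by a diagonal subgroup of order 3. -/
theorem result
    (X : Sylow 2 (↥(alternatingGroup (Fin 4)) × ↥(alternatingGroup (Fin 4))))
    (Q : Sylow 3 (↥(alternatingGroup (Fin 4)) × ↥(alternatingGroup (Fin 4))))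
    (B : Subgroup (↥(alternatingGroup (Fin 4)) × ↥(alternatingGroup (Fin 4)))) (hBX : B ≤ (X : Subgroup _)) (hB4 : Nat.card ↥B = 4) :
    B ⊓ ((X : Subgroup _) ⊓ Subgroup.prod ⊤ ⊥) ≠ ⊥ ∨ B ⊓ ((X : Subgroup _) ⊓ Subgroup.prod ⊥ ⊤) ≠ ⊥ ∨
      ∃ R : Subgroup (↥(alternatingGroup (Fin 4)) × ↥(alternatingGroup (Fin 4))), R ≤ (Q : Subgroup _) ∧ Nat.card ↥R = 3 ∧
        R ≠ (Q : Subgroup _) ⊓ Subgroup.prod ⊤ ⊥ ∧ R ≠ (Q : Subgroup _) ⊓ Subgroup.prod ⊥ ⊤ ∧ R ≤ Subgroup.normalizer (B : Set _) := by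
  by_cases h1 : B ⊓ ((X : Subgroup _) ⊓ Subgroup.prod ⊤ ⊥) ≠ ⊥
  · exact Or.inl h1
  by_cases h2 : B ⊓ ((X : Subgroup _) ⊓ Subgroup.prod ⊥ ⊤) ≠ ⊥
  · exact Or.inr (Or.inl h2)
  push Not at h1 h2
  right; right
  haveI : Fact (Nat.Prime 3) := ⟨Nat.prime_three⟩
  -- elements of B with trivial coordinate are trivial
  have hfst : ∀ u : A4, ((u, 1) : A4 × A4) ∈ B → u = 1 := by
    intro u hu
    have : ((u, 1) : A4 × A4) ∈ B ⊓ ((X : Subgroup _) ⊓ Subgroup.prod ⊤ ⊥) :=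
      ⟨hu, hBX hu, by simp [Subgroup.mem_prod]⟩
    rw [h1, Subgroup.mem_bot] at this
    exact congrArg Prod.fst this
  have hsnd : ∀ w : A4, ((1, w) : A4 × A4) ∈ B → w = 1 := by
    intro w hw
    have : ((1, w) : A4 × A4) ∈ B ⊓ ((X : Subgroup _) ⊓ Subgroup.prod ⊥ ⊤) :=
      ⟨hw, hBX hw, by simp [Subgroup.mem_prod]⟩
    rw [h2, Subgroup.mem_bot] at this
    exact congrArg Prod.snd this
  obtain ⟨⟨u, w⟩, ⟨u', w'⟩, hp, hp', hp1, hp'1, hpp'⟩ := exists_two_elems B hB4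
  obtain ⟨hu4, hw4⟩ := sylow_two_elem X _ (hBX hp)
  obtain ⟨hu'4, hw'4⟩ := sylow_two_elem X _ (hBX hp')
  simp only at hu4 hw4 hu'4 hw'4
  have hu1 : u ≠ 1 := by
    rintro rfl
    exact hp1 (by rw [hsnd w hp]; rfl)
  have hw1 : w ≠ 1 := by
    rintro rfl
    exact hp1 (by rw [hfst u hp]; rfl)
  have hu'1 : u' ≠ 1 := by
    rintro rfl
    exact hp'1 (by rw [hsnd w' hp']; rfl)
  have hw'1 : w' ≠ 1 := by
    rintro rfl
    exact hp'1 (by rw [hfst u' hp']; rfl)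
  have huu' : u ≠ u' := by
    rintro rfl
    have h3 : ((u, w) : A4 × A4)⁻¹ * (u, w') ∈ B := B.mul_mem (B.inv_mem hp) hp'
    have h4 : ((u, w) : A4 × A4)⁻¹ * (u, w') = (1, w⁻¹ * w') := by ext <;> simp
    rw [h4] at h3
    have := hsnd _ h3
    exact hpp' (by rw [inv_mul_eq_one.1 this])
  have hww' : w ≠ w' := by
    rintro rfl
    have h3 : ((u, w) : A4 × A4)⁻¹ * (u', w) ∈ B := B.mul_mem (B.inv_mem hp) hp'
    have h4 : ((u, w) : A4 × A4)⁻¹ * (u', w) = (u⁻¹ * u', 1) := by ext <;> simp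
    rw [h4] at h3
    have := hfst _ h3
    exact hpp' (by rw [inv_mul_eq_one.1 this])
  -- B = {1, p, p', p p'}
  have hBS : ∀ n ∈ B, inS u w u' w' n := by
    have hsub : ({(1, 1), (u, w), (u', w'), (u * u', w * w')} : Set (A4 × A4)) ⊆ (B : Set (A4 × A4)) := by
      intro q hq
      simp only [Set.mem_insert_iff, Set.mem_singleton_iff] at hq
      rcases hq with rfl | rfl | rfl | rfl
      · exact B.one_mem
      · exact hp
      · exact hp'
      · exact B.mul_mem hp hp'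
    have hcard : ({(1, 1), (u, w), (u', w'), (u * u', w * w')} : Set (A4 × A4)).ncard = 4 := by
      have e1 : ((u * u', w * w') : A4 × A4) ∉ (∅ : Set (A4 × A4)) := by simp
      have e2 : ((u', w') : A4 × A4) ∉ ({(u * u', w * w')} : Set (A4 × A4)) := by
        simp only [Set.mem_singleton_iff, Prod.mk.injEq, not_and]
        intro h
        exact absurd (by simpa using h) hu1
      have e3 : ((u, w) : A4 × A4) ∉ ({(u', w'), (u * u', w * w')} : Set (A4 × A4)) := by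
        simp only [Set.mem_insert_iff, Set.mem_singleton_iff, Prod.mk.injEq, not_or, not_and]
        refine ⟨fun h => absurd h huu', fun h => absurd (by simpa using h) hu'1⟩
      have e4 : ((1, 1) : A4 × A4) ∉ ({(u, w), (u', w'), (u * u', w * w')} : Set (A4 × A4)) := by
        simp only [Set.mem_insert_iff, Set.mem_singleton_iff, Prod.mk.injEq, not_or, not_and]
        refine ⟨fun h => absurd h.symm hu1, fun h => absurd h.symm hu'1, fun h => ?_⟩
        have h5 := sq_of_pow_four u hu4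
        exfalso
        apply huu'
        have : u * u' = u * u := by rw [← h, h5]
        exact (mul_left_cancel this).symm
      rw [Set.ncard_insert_of_notMem e4, Set.ncard_insert_of_notMem e3, Set.ncard_insert_of_notMem e2,
        Set.ncard_singleton]
    have heq := Set.eq_of_subset_of_ncard_le hsub (by
      rw [hcard, ← Nat.card_coe_set_eq, SetLike.coe_sort_coe, hB4]) (Set.toFinite _)
    intro n hn
    have : n ∈ ({(1, 1), (u, w), (u', w'), (u * u', w * w')} : Set (A4 × A4)) := by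
      rw [heq]; exact hn
    simpa only [Set.mem_insert_iff, Set.mem_singleton_iff] using this
  obtain ⟨a, b, ha1, ha3, hb1, hb3, haQ, hbQ⟩ := sylow_three_elems Q
  -- choose the sign
  obtain ⟨b', hb'1, hb'3, hb'Q, hgood⟩ : ∃ b' : A4, b' ≠ 1 ∧ b' ^ 3 = 1 ∧
      ((1, b') : A4 × A4) ∈ (Q : Subgroup _) ∧ good a b' u w u' w' := by
    rcases core a b ha1 ha3 hb1 hb3 u w hu4 hu1 hw4 hw1 u' hu'4 hu'1 huu' w' hw'4 hw'1 hww' with hg | hg
    · exact ⟨b, hb1, hb3, hbQ, hg⟩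
    · refine ⟨b⁻¹, inv_ne_one.2 hb1, by rw [inv_pow, hb3, inv_one], ?_, hg⟩
      have := (Q : Subgroup (A4 × A4)).inv_mem hbQ
      simpa using this
  have hgQ : ((a, b') : A4 × A4) ∈ (Q : Subgroup _) := by
    have := (Q : Subgroup (A4 × A4)).mul_mem haQ hb'Q
    simpa using this
  have hg3 : ((a, b') : A4 × A4) ^ 3 = 1 := by
    rw [Prod.pow_mk, ha3, hb'3]; rfl
  have hg1 : ((a, b') : A4 × A4) ≠ 1 := by
    intro h
    exact ha1 (congrArg Prod.fst h)
  refine ⟨Subgroup.zpowers ((a, b') : A4 × A4), ?_, ?_, ?_, ?_, ?_⟩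
  · rw [Subgroup.zpowers_le]; exact hgQ
  · rw [Nat.card_zpowers]
    exact orderOf_eq_prime hg3 hg1
  · intro h
    have : ((a, b') : A4 × A4) ∈ (Q : Subgroup _) ⊓ Subgroup.prod ⊤ ⊥ := by
      rw [← h]; exact Subgroup.mem_zpowers _
    have h6 : ((a, b') : A4 × A4) ∈ Subgroup.prod ⊤ ⊥ := this.2
    rw [Subgroup.mem_prod] at h6
    exact hb'1 (by simpa using h6.2)
  · intro h
    have : ((a, b') : A4 × A4) ∈ (Q : Subgroup _) ⊓ Subgroup.prod ⊥ ⊤ := by
      rw [← h]; exact Subgroup.mem_zpowers _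
    have h6 : ((a, b') : A4 × A4) ∈ Subgroup.prod ⊥ ⊤ := this.2
    rw [Subgroup.mem_prod] at h6
    exact ha1 (by simpa using h6.1)
  · rw [Subgroup.zpowers_le]
    have hfw : ∀ n ∈ B, ((a, b') : A4 × A4) * n * ((a, b') : A4 × A4)⁻¹ ∈ B := by
      have hcp : ((a, b') : A4 × A4) * (u, w) * ((a, b') : A4 × A4)⁻¹ ∈ B := by
        have e : ((a, b') : A4 × A4) * (u, w) * ((a, b') : A4 × A4)⁻¹ = (a * u * a⁻¹, b' * w * b'⁻¹) := rfl
        rw [e]
        rcases hgood.1 with h | h | h | h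
        · rw [h]; exact B.one_mem
        · rw [h]; exact hp
        · rw [h]; exact hp'
        · rw [h]; exact B.mul_mem hp hp'
      have hcp' : ((a, b') : A4 × A4) * (u', w') * ((a, b') : A4 × A4)⁻¹ ∈ B := by
        have e : ((a, b') : A4 × A4) * (u', w') * ((a, b') : A4 × A4)⁻¹ = (a * u' * a⁻¹, b' * w' * b'⁻¹) := rfl
        rw [e]
        rcases hgood.2 with h | h | h | h
        · rw [h]; exact B.one_mem
        · rw [h]; exact hp
        · rw [h]; exact hp'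
        · rw [h]; exact B.mul_mem hp hp'
      intro n hn
      rcases hBS n hn with h | h | h | h
      · rw [h]
        have : ((a, b') : A4 × A4) * (1, 1) * ((a, b') : A4 × A4)⁻¹ = 1 := by
          ext <;> simp
        rw [this]; exact B.one_mem
      · rw [h]; exact hcp
      · rw [h]; exact hcp'
      · rw [h]
        have : ((a, b') : A4 × A4) * (u * u', w * w') * ((a, b') : A4 × A4)⁻¹ =
            (((a, b') : A4 × A4) * (u, w) * ((a, b') : A4 × A4)⁻¹) *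
            (((a, b') : A4 × A4) * (u', w') * ((a, b') : A4 × A4)⁻¹) := by
          ext <;> simp
        rw [this]; exact B.mul_mem hcp hcp'
    rw [Subgroup.mem_normalizer_iff]
    intro n
    refine ⟨hfw n, fun hn => ?_⟩
    have h7 := hfw _ (hfw _ hn)
    have h8 : ((a, b') : A4 × A4) * (((a, b') : A4 × A4) * (((a, b') : A4 × A4) * n * ((a, b') : A4 × A4)⁻¹) * ((a, b') : A4 × A4)⁻¹) * ((a, b') : A4 × A4)⁻¹ = n := by
      generalize ((a, b') : A4 × A4) = g at hg3 ⊢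
      have e : g * (g * (g * n * g⁻¹) * g⁻¹) * g⁻¹ = g ^ 3 * n * (g ^ 3)⁻¹ := by
        simp [pow_succ, mul_assoc]
      rw [e, hg3]; simp
    rwa [h8] at h7

end Cfsg.Agent.S4406
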