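import Cfsg.Statements.S4407
import Mathlib

set_option autoImplicit false
open Cfsg

namespace Cfsg.Agent.S4407

set_option linter.unusedSimpArgs false

section op

variable {M : Type*} [AddCommGroup M] [Module (ZMod 2) M]

theorem char2 (x : M) : x + x = 0 := ZModModule.add_self x

theorem invol_fix (τ : M →ₗ[ZMod 2] M) (hτ : ∀ m, τ (τ m) = m) (x : M) (hx : x ≠ 0) :
    ∃ y, y ≠ 0 ∧ τ y = y ∧ (y = x ∨ y = x + τ x) := by
  by_cases h : x + τ x = 0
  · refine ⟨x, hx, ?_, Or.inl rfl⟩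
    linear_combination (norm := module) h - char2 x
  · refine ⟨x + τ x, h, ?_, Or.inr rfl⟩
    rw [map_add, hτ, add_comm]

theorem z2 : ∀ a : ZMod 2, a = 0 ∨ a = 1 := by decide

theorem cnt4 : Set.ncard {v : ZMod 2 × ZMod 2 × ZMod 2 × ZMod 2 | v.2.1 = 0 ∧ v.2.2.2 = 0} = 4 := by
  rw [Set.ncard_eq_toFinset_card']
  decide

theorem cnt2 : Set.ncard {v : ZMod 2 × ZMod 2 × ZMod 2 × ZMod 2 |
    v.2.1 = 0 ∧ v.2.2.2 = 0 ∧ v.1 = v.2.2.1} = 2 := by
  rw [Set.ncard_eq_toFinset_card']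
  decide

theorem opLemma [Finite M]
    (α β γ σ : M →ₗ[ZMod 2] M)
    (hα3 : ∀ m, α (α (α m)) = m) (hβ3 : ∀ m, β (β (β m)) = m)
    (hαβ : ∀ m, α (β m) = β (α m))
    (hγ4 : ∀ m, γ (γ (γ (γ m))) = m) (hσ2 : ∀ m, σ (σ m) = m)
    (hσγ : ∀ m, σ (γ (σ m)) = γ (γ (γ m)))
    (hγα : ∀ m, γ (α m) = β (γ m)) (hγβ : ∀ m, γ (β m) = α (α (γ m)))
    (hσα : ∀ m, σ (α m) = α (σ m)) (hσβ : ∀ m, σ (β m) = β (β (σ m)))
    (hirr : ∀ N : Submodule (ZMod 2) M, (∀ m ∈ N, α m ∈ N) → (∀ m ∈ N, β m ∈ N) →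
      (∀ m ∈ N, γ m ∈ N) → (∀ m ∈ N, σ m ∈ N) → N = ⊥ ∨ N = ⊤)
    (hα1 : ∃ m, α m ≠ m) (hm₀ : ∃ m₀, m₀ ≠ 0 ∧ α m₀ = m₀) :
    Nat.card M = 16 ∧ Nat.card {m : M // γ (γ m) = m ∧ σ m = m} = 4 ∧
      Nat.card {m : M // γ (γ m) = m ∧ σ (γ m) = m} = 2 := by
  have hαγ : ∀ m, α (γ m) = γ (β (β m)) := fun m => by
    rw [hγβ, hγβ, hα3]
  have hσγ' : ∀ m, σ (γ m) = γ (γ (γ (σ m))) := fun m => by
    have := hσγ (σ m); rw [hσ2] at this; exact this
  have hζβ : ∀ m, γ (γ (β m)) = β (β (γ (γ m))) := fun m => by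
    rw [hγβ, hγα, hγα]
  have hσζ : ∀ m, σ (γ (γ m)) = γ (γ (σ m)) := fun m => by
    rw [hσγ', hσγ', hγ4]
  have hαζ : ∀ m, α m = m → α (γ (γ m)) = γ (γ m) := fun m hm => by
    rw [hαγ, ← hγα, ← hγα, hm, hm]
  -- M₁ ∩ M₂ = 0
  have hF1 : ∀ m, α m = m → β m = m → m = 0 := by
    let N : Submodule (ZMod 2) M :=
      { carrier := {m | α m = m ∧ β m = m}
        add_mem' := by
          rintro a b ⟨ha1, ha2⟩ ⟨hb1, hb2⟩
          exact ⟨by rw [map_add, ha1, hb1], by rw [map_add, ha2, hb2]⟩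
        zero_mem' := ⟨map_zero α, map_zero β⟩
        smul_mem' := by
          rintro c x ⟨h1, h2⟩
          exact ⟨by rw [map_smul, h1], by rw [map_smul, h2]⟩ }
    have iα : ∀ m ∈ N, α m ∈ N := by
      rintro m ⟨h1, h2⟩; exact ⟨by rw [h1, h1], by rw [← hαβ, h2]⟩
    have iβ : ∀ m ∈ N, β m ∈ N := by
      rintro m ⟨h1, h2⟩; exact ⟨by rw [hαβ, h1], by rw [h2, h2]⟩
    have iγ : ∀ m ∈ N, γ m ∈ N := by
      rintro m ⟨h1, h2⟩
      refine ⟨?_, ?_⟩
      · rw [hαγ, h2, h2]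
      · rw [← hγα, h1]
    have iσ : ∀ m ∈ N, σ m ∈ N := by
      rintro m ⟨h1, h2⟩
      refine ⟨by rw [← hσα, h1], ?_⟩
      have := hσβ m; rw [h2] at this
      calc β (σ m) = β (β (β (σ m))) := by rw [← this]
        _ = σ m := hβ3 _
    rcases hirr N iα iβ iγ iσ with h | h
    · intro m h1 h2
      have : m ∈ N := ⟨h1, h2⟩
      rw [h] at this; simpa using this
    · exfalso
      obtain ⟨m, hm⟩ := hα1
      have : m ∈ N := by rw [h]; trivial
      exact hm this.1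
  obtain ⟨m₀, hm₀0, hm₀α⟩ := hm₀
  obtain ⟨x, hx0, hxσ, hx⟩ := invol_fix σ hσ2 m₀ hm₀0
  have hxα : α x = x := by
    rcases hx with rfl | rfl
    · exact hm₀α
    · rw [map_add, ← hσα, hm₀α]
  obtain ⟨m₁, h10, h1ζ, h1⟩ := invol_fix (γ ∘ₗ γ)
    (fun m => by simp only [LinearMap.comp_apply]; exact hγ4 m) x hx0
  simp only [LinearMap.comp_apply] at h1ζ h1
  have h1α : α m₁ = m₁ := by
    rcases h1 with rfl | rfl
    · exact hxα
    · rw [map_add, hαζ x hxα, hxα]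
  have h1σ : σ m₁ = m₁ := by
    rcases h1 with rfl | rfl
    · exact hxσ
    · rw [map_add, hσζ, hxσ]
  have hβ1 : β m₁ ≠ m₁ := fun h => h10 (hF1 m₁ h1α h)
  have hββ : β (β m₁) = m₁ + β m₁ := by
    have h0 : m₁ + β m₁ + β (β m₁) = 0 := by
      apply hF1
      · simp only [map_add, hαβ, h1α]
      · rw [map_add, map_add, hβ3]; abel
    linear_combination (norm := module) char2 (β (β m₁)) - h0
  have hζβ1 : γ (γ (β m₁)) = m₁ + β m₁ := by rw [hζβ, h1ζ, hββ]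
  have hσγ1 : σ (γ m₁) = γ m₁ := by rw [hσγ', h1σ, h1ζ]
  -- W
  have hinv : ∀ f : M →ₗ[ZMod 2] M,
      f m₁ ∈ Submodule.span (ZMod 2) {m₁, β m₁, γ m₁, γ (β m₁)} →
      f (β m₁) ∈ Submodule.span (ZMod 2) {m₁, β m₁, γ m₁, γ (β m₁)} →
      f (γ m₁) ∈ Submodule.span (ZMod 2) {m₁, β m₁, γ m₁, γ (β m₁)} →
      f (γ (β m₁)) ∈ Submodule.span (ZMod 2) {m₁, β m₁, γ m₁, γ (β m₁)} →
      ∀ m ∈ Submodule.span (ZMod 2) {m₁, β m₁, γ m₁, γ (β m₁)},
        f m ∈ Submodule.span (ZMod 2) {m₁, β m₁, γ m₁, γ (β m₁)} := by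
    intro f h1 h2 h3 h4 m hm
    have : Submodule.map f (Submodule.span (ZMod 2) {m₁, β m₁, γ m₁, γ (β m₁)}) ≤
        Submodule.span (ZMod 2) {m₁, β m₁, γ m₁, γ (β m₁)} := by
      rw [Submodule.map_span_le]
      intro x hx
      simp only [Set.mem_insert_iff, Set.mem_singleton_iff] at hx
      rcases hx with rfl | rfl | rfl | rfl <;> assumption
    exact this (Submodule.mem_map_of_mem hm)
  have hW1 : m₁ ∈ Submodule.span (ZMod 2) {m₁, β m₁, γ m₁, γ (β m₁)} :=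
    Submodule.subset_span (by simp)
  have hW2 : β m₁ ∈ Submodule.span (ZMod 2) {m₁, β m₁, γ m₁, γ (β m₁)} :=
    Submodule.subset_span (by simp)
  have hW3 : γ m₁ ∈ Submodule.span (ZMod 2) {m₁, β m₁, γ m₁, γ (β m₁)} :=
    Submodule.subset_span (by simp)
  have hW4 : γ (β m₁) ∈ Submodule.span (ZMod 2) {m₁, β m₁, γ m₁, γ (β m₁)} :=
    Submodule.subset_span (by simp)
  have hWtop : Submodule.span (ZMod 2) {m₁, β m₁, γ m₁, γ (β m₁)} = ⊤ := by
    have iα : ∀ m ∈ Submodule.span (ZMod 2) {m₁, β m₁, γ m₁, γ (β m₁)},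
        α m ∈ Submodule.span (ZMod 2) {m₁, β m₁, γ m₁, γ (β m₁)} := by
      apply hinv α
      · rw [h1α]; exact hW1
      · rw [hαβ, h1α]; exact hW2
      · rw [hαγ, hββ, map_add]; exact Submodule.add_mem _ hW3 hW4
      · rw [hαγ, hβ3]; exact hW3
    have iβ : ∀ m ∈ Submodule.span (ZMod 2) {m₁, β m₁, γ m₁, γ (β m₁)},
        β m ∈ Submodule.span (ZMod 2) {m₁, β m₁, γ m₁, γ (β m₁)} := by
      apply hinv β
      · exact hW2
      · rw [hββ]; exact Submodule.add_mem _ hW1 hW2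
      · rw [← hγα, h1α]; exact hW3
      · rw [← hγα, hαβ, h1α]; exact hW4
    have iγ : ∀ m ∈ Submodule.span (ZMod 2) {m₁, β m₁, γ m₁, γ (β m₁)},
        γ m ∈ Submodule.span (ZMod 2) {m₁, β m₁, γ m₁, γ (β m₁)} := by
      apply hinv γ
      · exact hW3
      · exact hW4
      · rw [h1ζ]; exact hW1
      · rw [hζβ1]; exact Submodule.add_mem _ hW1 hW2
    have iσ : ∀ m ∈ Submodule.span (ZMod 2) {m₁, β m₁, γ m₁, γ (β m₁)},
        σ m ∈ Submodule.span (ZMod 2) {m₁, β m₁, γ m₁, γ (β m₁)} := by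
      apply hinv σ
      · rw [h1σ]; exact hW1
      · rw [hσβ, h1σ, hββ]; exact Submodule.add_mem _ hW1 hW2
      · rw [hσγ1]; exact hW3
      · rw [hσγ', hσβ, h1σ, hζβ, hζβ, h1ζ, hβ3]; exact hW4
    rcases hirr _ iα iβ iγ iσ with h | h
    · exfalso; rw [h] at hW1; exact h10 (by simpa using hW1)
    · exact h
  have hspan : ∀ m : M, ∃ a b c d : ZMod 2,
      m = a • m₁ + b • β m₁ + c • γ m₁ + d • γ (β m₁) := by
    intro m
    have hm : m ∈ Submodule.span (ZMod 2) {m₁, β m₁, γ m₁, γ (β m₁)} := by rw [hWtop]; trivial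
    rw [Submodule.mem_span_insert] at hm
    obtain ⟨a, z, hz, rfl⟩ := hm
    rw [Submodule.mem_span_insert] at hz
    obtain ⟨b, z, hz, rfl⟩ := hz
    rw [Submodule.mem_span_pair] at hz
    obtain ⟨c, d, rfl⟩ := hz
    exact ⟨a, b, c, d, by abel⟩
  have hli2 : ∀ a b : ZMod 2, a • m₁ + b • β m₁ = 0 → a = 0 ∧ b = 0 := by
    intro a b h
    rcases z2 a with rfl | rfl <;> rcases z2 b with rfl | rfl
    · exact ⟨rfl, rfl⟩
    · exfalso; simp only [zero_smul, one_smul, zero_add] at h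
      apply h10; have := congrArg (fun y => β (β y)) h
      simp only [hβ3, map_zero] at this; exact this
    · exfalso; simp only [zero_smul, one_smul, add_zero] at h; exact h10 h
    · exfalso; simp only [one_smul] at h
      apply hβ1; linear_combination (norm := module) h - char2 m₁
  have hli : ∀ a b c d : ZMod 2, a • m₁ + b • β m₁ + c • γ m₁ + d • γ (β m₁) = 0 →
      a = 0 ∧ b = 0 ∧ c = 0 ∧ d = 0 := by
    intro a b c d h
    have huv : a • m₁ + b • β m₁ = γ (c • m₁ + d • β m₁) := by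
      rw [map_add, map_smul, map_smul]
      linear_combination (norm := module) h - char2 (c • γ m₁ + d • γ (β m₁))
    have huα : α (a • m₁ + b • β m₁) = a • m₁ + b • β m₁ := by
      rw [map_add, map_smul, map_smul, hαβ, h1α]
    have hvα : α (c • m₁ + d • β m₁) = c • m₁ + d • β m₁ := by
      rw [map_add, map_smul, map_smul, hαβ, h1α]
    have huβ : β (a • m₁ + b • β m₁) = a • m₁ + b • β m₁ := by
      rw [huv, ← hγα, hvα]
    have hu0 : a • m₁ + b • β m₁ = 0 := hF1 _ huα huβ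
    have hv0 : c • m₁ + d • β m₁ = 0 := by
      have h1 : γ (c • m₁ + d • β m₁) = 0 := by rw [← huv, hu0]
      have h2 := hγ4 (c • m₁ + d • β m₁); rw [h1] at h2; simpa using h2.symm
    obtain ⟨ha, hb⟩ := hli2 a b hu0
    obtain ⟨hc, hd⟩ := hli2 c d hv0
    exact ⟨ha, hb, hc, hd⟩
  let f : ZMod 2 × ZMod 2 × ZMod 2 × ZMod 2 → M := fun v =>
    v.1 • m₁ + v.2.1 • β m₁ + v.2.2.1 • γ m₁ + v.2.2.2 • γ (β m₁)
  have hf : ∀ a b c d : ZMod 2, f (a, b, c, d) = a • m₁ + b • β m₁ + c • γ m₁ + d • γ (β m₁) :=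
    fun a b c d => rfl
  have hfinj : Function.Injective f := by
    rintro ⟨a, b, c, d⟩ ⟨a', b', c', d'⟩ h
    rw [hf, hf] at h
    obtain ⟨h1, h2, h3, h4⟩ := hli (a - a') (b - b') (c - c') (d - d')
      (by linear_combination (norm := module) h)
    simp only [Prod.mk.injEq]
    exact ⟨sub_eq_zero.mp h1, sub_eq_zero.mp h2, sub_eq_zero.mp h3, sub_eq_zero.mp h4⟩
  have hfsurj : Function.Surjective f := by
    intro m; obtain ⟨a, b, c, d, rfl⟩ := hspan m; exact ⟨(a, b, c, d), rfl⟩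
  have hcard : Nat.card M = 16 := by
    rw [← Nat.card_congr (Equiv.ofBijective f ⟨hfinj, hfsurj⟩)]
    simp
  have hζf : ∀ a b c d : ZMod 2, γ (γ (f (a, b, c, d))) = f (a + b, b, c + d, d) := by
    intro a b c d
    rw [hf, hf]
    simp only [map_add, map_smul, h1ζ, hζβ1]
    module
  have hσf : ∀ a c : ZMod 2, σ (f (a, 0, c, 0)) = f (a, 0, c, 0) := by
    intro a c
    rw [hf]
    simp only [map_add, map_smul, h1σ, hσγ1, zero_smul, map_zero]
  have hσγf : ∀ a c : ZMod 2, σ (γ (f (a, 0, c, 0))) = f (c, 0, a, 0) := by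
    intro a c
    rw [hf, hf]
    simp only [map_add, map_smul, h1σ, hσγ1, zero_smul, map_zero, h1ζ]
    module
  have hfixζ : ∀ a b c d : ZMod 2, γ (γ (f (a, b, c, d))) = f (a, b, c, d) → b = 0 ∧ d = 0 := by
    intro a b c d h
    rw [hζf] at h
    have := hfinj h
    simp only [Prod.mk.injEq] at this
    exact ⟨by linear_combination this.1, by linear_combination this.2.2.1⟩
  refine ⟨hcard, ?_, ?_⟩
  · have hset : {m : M | γ (γ m) = m ∧ σ m = m} =
        f '' {v : ZMod 2 × ZMod 2 × ZMod 2 × ZMod 2 | v.2.1 = 0 ∧ v.2.2.2 = 0} := by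
      ext m
      constructor
      · rintro ⟨h1, h2⟩
        obtain ⟨⟨a, b, c, d⟩, rfl⟩ := hfsurj m
        obtain ⟨hb, hd⟩ := hfixζ a b c d h1
        exact ⟨(a, b, c, d), ⟨hb, hd⟩, rfl⟩
      · rintro ⟨⟨a, b, c, d⟩, ⟨hb, hd⟩, rfl⟩
        simp only at hb hd
        subst hb hd
        refine ⟨?_, hσf a c⟩
        simp only [hζf, add_zero]
    have h3 : Nat.card {m : M // γ (γ m) = m ∧ σ m = m} =
        Set.ncard {m : M | γ (γ m) = m ∧ σ m = m} := Nat.card_coe_set_eq _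
    rw [h3, hset, Set.ncard_image_of_injective _ hfinj, cnt4]
  · have hset : {m : M | γ (γ m) = m ∧ σ (γ m) = m} =
        f '' {v : ZMod 2 × ZMod 2 × ZMod 2 × ZMod 2 | v.2.1 = 0 ∧ v.2.2.2 = 0 ∧ v.1 = v.2.2.1} := by
      ext m
      constructor
      · rintro ⟨h1, h2⟩
        obtain ⟨⟨a, b, c, d⟩, rfl⟩ := hfsurj m
        obtain ⟨hb, hd⟩ := hfixζ a b c d h1
        subst hb hd
        rw [hσγf] at h2
        have := hfinj h2
        simp only [Prod.mk.injEq] at this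
        exact ⟨(a, 0, c, 0), ⟨rfl, rfl, this.2.2.1⟩, rfl⟩
      · rintro ⟨⟨a, b, c, d⟩, ⟨hb, hd, hac⟩, rfl⟩
        simp only at hb hd hac
        subst hb hd hac
        refine ⟨?_, hσγf a a⟩
        simp only [hζf, add_zero]
    have h3 : Nat.card {m : M // γ (γ m) = m ∧ σ (γ m) = m} =
        Set.ncard {m : M | γ (γ m) = m ∧ σ (γ m) = m} := Nat.card_coe_set_eq _
    rw [h3, hset, Set.ncard_image_of_injective _ hfinj, cnt2]

end op

section grp

variable {S : Type*} [Group S]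

structure D8data (X : Subgroup S) (c s : S) : Prop where
  hc : c ∈ X
  hs : s ∈ X
  c4 : c * c * c * c = 1
  s2 : s * s = 1
  scs : s * c * s = c * c * c
  cc : c * c ≠ 1
  enum : ∀ x ∈ X, x = 1 ∨ x = c ∨ x = c * c ∨ x = c * c * c ∨ x = s ∨ x = s * c ∨
    x = s * c * c ∨ x = s * c * c * c

namespace D8data

variable {X : Subgroup S} {c s : S}

theorem r1' (hD : D8data X c s) (x : S) : s * (s * x) = x := by
  rw [← mul_assoc, hD.s2, one_mul]

theorem r2 (hD : D8data X c s) : c * (c * (c * c)) = 1 := by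
  rw [← mul_assoc, ← mul_assoc]; exact hD.c4

theorem r2' (hD : D8data X c s) (x : S) : c * (c * (c * (c * x))) = x := by
  rw [← mul_assoc, ← mul_assoc, ← mul_assoc, hD.c4, one_mul]

theorem r3 (hD : D8data X c s) : c * s = s * (c * (c * c)) := by
  calc c * s = s * (s * c * s) := by rw [mul_assoc s c s, hD.r1']
    _ = s * (c * (c * c)) := by rw [hD.scs, mul_assoc]

theorem r3' (hD : D8data X c s) (x : S) : c * (s * x) = s * (c * (c * (c * x))) := by
  rw [← mul_assoc, hD.r3]; simp only [mul_assoc]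

theorem zz (hD : D8data X c s) : c * c * (c * c) = 1 := by
  rw [← mul_assoc]; exact hD.c4

theorem zs (hD : D8data X c s) : c * c * s = s * (c * c) := by
  simp only [mul_assoc, hD.s2, hD.r1', hD.r2, hD.r2', hD.r3, hD.r3', mul_one, one_mul]

theorem cinv (hD : D8data X c s) : c⁻¹ = c * (c * c) := inv_eq_of_mul_eq_one_right hD.r2

theorem sinv (hD : D8data X c s) : s⁻¹ = s := inv_eq_of_mul_eq_one_right hD.s2

theorem sc_eq (hD : D8data X c s) : s * c = c * (s * (c * c)) := by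
  simp only [mul_assoc, hD.s2, hD.r1', hD.r2, hD.r2', hD.r3, hD.r3', mul_one, one_mul]

theorem sc_inv (hD : D8data X c s) : s * c = c⁻¹ * s := by
  rw [hD.cinv]
  simp only [mul_assoc, hD.s2, hD.r1', hD.r2, hD.r2', hD.r3, hD.r3', mul_one, one_mul]

theorem cs_ne (hD : D8data X c s) : s * c ≠ c * s := by
  intro h
  apply hD.cc
  have h1 : c * c * c = c := by rw [← hD.scs, h, mul_assoc, hD.s2, mul_one]
  have h2 : c * c * c = 1 * c := by rw [h1, one_mul]
  exact mul_right_cancel h2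

theorem s_ne_one (hD : D8data X c s) : s ≠ 1 := by
  intro h
  apply hD.cs_ne
  rw [h, one_mul, mul_one]

theorem swap (hD : D8data X c s) : D8data X c (s * c) where
  hc := hD.hc
  hs := X.mul_mem hD.hs hD.hc
  c4 := hD.c4
  s2 := by
    simp only [mul_assoc, hD.s2, hD.r1', hD.r2, hD.r2', hD.r3, hD.r3', mul_one, one_mul]
  scs := by
    simp only [mul_assoc, hD.s2, hD.r1', hD.r2, hD.r2', hD.r3, hD.r3', mul_one, one_mul]
  cc := hD.cc
  enum := by
    intro x hx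
    rcases hD.enum x hx with h | h | h | h | h | h | h | h
    · exact Or.inl h
    · exact Or.inr (Or.inl h)
    · exact Or.inr (Or.inr (Or.inl h))
    · exact Or.inr (Or.inr (Or.inr (Or.inl h)))
    · refine Or.inr (Or.inr (Or.inr (Or.inr (Or.inr (Or.inr (Or.inr ?_))))))
      rw [h]
      simp only [mul_assoc, hD.s2, hD.r1', hD.r2, hD.r2', hD.r3, hD.r3', mul_one, one_mul]
    · exact Or.inr (Or.inr (Or.inr (Or.inr (Or.inl h))))
    · exact Or.inr (Or.inr (Or.inr (Or.inr (Or.inr (Or.inl h)))))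
    · exact Or.inr (Or.inr (Or.inr (Or.inr (Or.inr (Or.inr (Or.inl h))))))

theorem zcent (hD : D8data X c s) (x : S) (hx : x ∈ X) : c * c * x = x * (c * c) := by
  rcases hD.enum x hx with rfl | rfl | rfl | rfl | rfl | rfl | rfl | rfl <;>
    simp only [mul_assoc, hD.s2, hD.r1', hD.r2, hD.r2', hD.r3, hD.r3', mul_one, one_mul]

end D8data

theorem exists_D8data (X : Subgroup S) (hX : Nonempty (↥X ≃* DihedralGroup 4)) :
    ∃ c s : S, D8data X c s := by
  obtain ⟨e⟩ := hX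
  have key : ∀ d : DihedralGroup 4, d = 1 ∨ d = DihedralGroup.r 1 ∨
      d = DihedralGroup.r 1 * DihedralGroup.r 1 ∨
      d = DihedralGroup.r 1 * DihedralGroup.r 1 * DihedralGroup.r 1 ∨ d = DihedralGroup.sr 0 ∨
      d = DihedralGroup.sr 0 * DihedralGroup.r 1 ∨
      d = DihedralGroup.sr 0 * DihedralGroup.r 1 * DihedralGroup.r 1 ∨
      d = DihedralGroup.sr 0 * DihedralGroup.r 1 * DihedralGroup.r 1 * DihedralGroup.r 1 := by
    decide
  have t : ∀ u v : DihedralGroup 4,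
      ((e.symm (u * v) : X) : S) = (e.symm u : S) * (e.symm v : S) := fun u v => by
    rw [map_mul]; rfl
  have t1 : ((e.symm 1 : X) : S) = 1 := by rw [map_one]; rfl
  refine ⟨(e.symm (DihedralGroup.r 1) : S), (e.symm (DihedralGroup.sr 0) : S),
    ⟨(e.symm _).2, (e.symm _).2, ?_, ?_, ?_, ?_, ?_⟩⟩
  · rw [← t, ← t, ← t, show (DihedralGroup.r 1 : DihedralGroup 4) * DihedralGroup.r 1 *
      DihedralGroup.r 1 * DihedralGroup.r 1 = 1 from by decide, t1]
  · rw [← t, show (DihedralGroup.sr 0 : DihedralGroup 4) * DihedralGroup.sr 0 = 1 from by decide,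
      t1]
  · rw [← t, ← t, ← t, ← t, show (DihedralGroup.sr 0 : DihedralGroup 4) * DihedralGroup.r 1 *
      DihedralGroup.sr 0 = DihedralGroup.r 1 * DihedralGroup.r 1 * DihedralGroup.r 1 from by
        decide]
  · rw [← t]
    intro h
    have h1 : e.symm (DihedralGroup.r 1 * DihedralGroup.r 1) = 1 := Subtype.ext h
    have h2 := e.symm.injective (h1.trans (map_one e.symm).symm)
    exact absurd h2 (by decide)
  · intro x hx
    have hx' : x = ((e.symm (e ⟨x, hx⟩) : X) : S) := by simp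
    rcases key (e ⟨x, hx⟩) with h | h | h | h | h | h | h | h <;> rw [h] at hx' <;>
      try simp only [t, t1] at hx'
    · exact Or.inl hx'
    · exact Or.inr (Or.inl hx')
    · exact Or.inr (Or.inr (Or.inl hx'))
    · exact Or.inr (Or.inr (Or.inr (Or.inl hx')))
    · exact Or.inr (Or.inr (Or.inr (Or.inr (Or.inl hx'))))
    · exact Or.inr (Or.inr (Or.inr (Or.inr (Or.inr (Or.inl hx')))))
    · exact Or.inr (Or.inr (Or.inr (Or.inr (Or.inr (Or.inr (Or.inl hx'))))))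
    · exact Or.inr (Or.inr (Or.inr (Or.inr (Or.inr (Or.inr (Or.inr hx'))))))

lemma exists_third (J : Subgroup S) (hJ : 3 ≤ Nat.card J) (x y : S) :
    ∃ z ∈ J, z ≠ x ∧ z ≠ y := by
  by_contra hcon
  push Not at hcon
  have hsub : (J : Set S) ⊆ {x, y} := by
    intro z hz
    by_cases hzx : z = x
    · left; exact hzx
    · right; exact hcon z hz hzx
  have h1 : (J : Set S).ncard ≤ ({x, y} : Set S).ncard := Set.ncard_le_ncard hsub (Set.toFinite _)
  have h2 : ({x, y} : Set S).ncard ≤ 2 := by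
    have h4 := Set.ncard_insert_le x ({y} : Set S)
    rw [Set.ncard_singleton] at h4
    exact h4
  have h3 : Nat.card J = (J : Set S).ncard := rfl
  omega

omit [Group S] in
lemma ncard_four {w x y z : S} (hwx : w ≠ x) (hwy : w ≠ y) (hwz : w ≠ z) (hxy : x ≠ y)
    (hxz : x ≠ z) (hyz : y ≠ z) : ({w, x, y, z} : Set S).ncard = 4 := by
  rw [Set.ncard_insert_of_notMem, Set.ncard_eq_three.mpr ⟨x, y, z, hxy, hxz, hyz, rfl⟩]
  simp only [Set.mem_insert_iff, Set.mem_singleton_iff, not_or]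
  exact ⟨hwx, hwy, hwz⟩

lemma four_le_card (J : Subgroup S) [Finite J] {w x y z : S} (hw : w ∈ J) (hx : x ∈ J)
    (hy : y ∈ J) (hz : z ∈ J) (hwx : w ≠ x) (hwy : w ≠ y) (hwz : w ≠ z) (hxy : x ≠ y)
    (hxz : x ≠ z) (hyz : y ≠ z) : 4 ≤ Nat.card J := by
  have hsub : ({w, x, y, z} : Set S) ⊆ (J : Set S) := by
    intro t ht
    simp only [Set.mem_insert_iff, Set.mem_singleton_iff] at ht
    rcases ht with rfl | rfl | rfl | rfl
    exacts [hw, hx, hy, hz]
  have h1 := ncard_four hwx hwy hwz hxy hxz hyz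
  have h2 := Set.ncard_le_ncard hsub (Set.toFinite _)
  have h3 : Nat.card J = (J : Set S).ncard := rfl
  omega

/-- the centralizer of `t` in `X` -/
def Bsub (X : Subgroup S) (t : S) : Subgroup S := X ⊓ Subgroup.centralizer {t}

theorem mem_Bsub {X : Subgroup S} {t x : S} : x ∈ Bsub X t ↔ x ∈ X ∧ t * x = x * t := by
  unfold Bsub
  rw [Subgroup.mem_inf, Subgroup.mem_centralizer_iff]
  simp

namespace D8data

variable {X : Subgroup S} {c s : S}

theorem memB (hD : D8data X c s) {x : S} :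
    x ∈ Bsub X s ↔ x = 1 ∨ x = c * c ∨ x = s ∨ x = s * (c * c) := by
  have hcZ : c ∉ Bsub X s := fun h => hD.cs_ne (mem_Bsub.mp h).2
  have hsZ : s ∈ Bsub X s := mem_Bsub.mpr ⟨hD.hs, rfl⟩
  have hc3Z : c * c * c ∉ Bsub X s := fun h => hcZ (by
    have h1 := (Bsub X s).inv_mem h
    rwa [inv_eq_of_mul_eq_one_right hD.c4] at h1)
  have hscZ : s * c ∉ Bsub X s := fun h => hcZ (by
    have h1 := (Bsub X s).mul_mem hsZ h
    rwa [← mul_assoc, hD.s2, one_mul] at h1)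
  have hsc3Z : s * c * c * c ∉ Bsub X s := fun h => hc3Z (by
    have h1 := (Bsub X s).mul_mem hsZ h
    simp only [← mul_assoc, hD.s2, one_mul] at h1
    exact h1)
  constructor
  · intro hx
    rcases hD.enum x (mem_Bsub.mp hx).1 with h | h | h | h | h | h | h | h
    · exact Or.inl h
    · rw [h] at hx; exact absurd hx hcZ
    · exact Or.inr (Or.inl h)
    · rw [h] at hx; exact absurd hx hc3Z
    · exact Or.inr (Or.inr (Or.inl h))
    · rw [h] at hx; exact absurd hx hscZ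
    · exact Or.inr (Or.inr (Or.inr (by rw [h, mul_assoc])))
    · rw [h] at hx; exact absurd hx hsc3Z
  · rintro (rfl | rfl | rfl | rfl)
    · exact (Bsub X s).one_mem
    · exact mem_Bsub.mpr ⟨X.mul_mem hD.hc hD.hc, hD.zs.symm⟩
    · exact hsZ
    · exact (Bsub X s).mul_mem hsZ (mem_Bsub.mpr ⟨X.mul_mem hD.hc hD.hc, hD.zs.symm⟩)

theorem cardB (hD : D8data X c s) : Nat.card (Bsub X s) = 4 := by
  have h1 : ((Bsub X s : Subgroup S) : Set S) = {1, c * c, s, s * (c * c)} := by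
    ext x; exact hD.memB
  have h2 : Nat.card (Bsub X s) = ((Bsub X s : Subgroup S) : Set S).ncard := rfl
  have hzs : c * c ≠ s := by
    intro h
    apply hD.cs_ne
    rw [← h]
    simp only [mul_assoc]
  rw [h2, h1]
  apply ncard_four
  · exact Ne.symm hD.cc
  · exact Ne.symm hD.s_ne_one
  · intro h
    apply hzs
    have h3 : s⁻¹ = c * c := inv_eq_of_mul_eq_one_right h.symm
    rw [← h3, hD.sinv]
  · exact hzs
  · intro h
    apply hD.s_ne_one
    have h3 : 1 * (c * c) = s * (c * c) := by rw [one_mul]; exact h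
    exact (mul_right_cancel h3).symm
  · intro h
    apply hD.cc
    have h3 : s * 1 = s * (c * c) := by rw [mul_one]; exact h
    exact (mul_left_cancel h3).symm

theorem expB (hD : D8data X c s) : ∀ b ∈ Bsub X s, b ^ 2 = 1 := by
  intro b hb
  rw [pow_two]
  rcases hD.memB.mp hb with rfl | rfl | rfl | rfl
  · rw [one_mul]
  · exact hD.zz
  · exact hD.s2
  · simp only [mul_assoc, hD.s2, hD.r1', hD.r2, hD.r2', hD.r3, hD.r3', mul_one, one_mul]

theorem leB (_hD : D8data X c s) : Bsub X s ≤ X := inf_le_left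

theorem classify_aux (hD : D8data X c s) (B : Subgroup S) (hBX : B ≤ X) (hB4 : Nat.card B = 4)
    (hB2 : ∀ b ∈ B, b ^ 2 = 1) {t : S} (ht : t ∈ B) (hts : t = s ∨ t = s * (c * c)) :
    B = Bsub X s := by
  have hfin : Finite B := Nat.finite_of_card_ne_zero (by omega)
  have hfin2 : Finite (Bsub X s) := Nat.finite_of_card_ne_zero (by rw [hD.cardB]; omega)
  have hcommB : ∀ x ∈ B, ∀ y ∈ B, x * y = y * x := by
    intro x hx y hy
    have h1 := hB2 x hx
    have h2 := hB2 y hy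
    have h3 := hB2 (x * y) (B.mul_mem hx hy)
    rw [pow_two] at h1 h2 h3
    have h4 : y * x = x * (x * y * (x * y)) * y := by
      calc y * x = (x * x) * (y * x) * (y * y) := by rw [h1, h2, one_mul, mul_one]
        _ = x * (x * y * (x * y)) * y := by simp only [mul_assoc]
    rw [h3, mul_one] at h4
    exact h4.symm
  apply Subgroup.eq_of_le_of_card_ge
  · intro b hb
    rw [mem_Bsub]
    refine ⟨hBX hb, ?_⟩
    rcases hts with rfl | rfl
    · exact hcommB _ ht _ hb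
    · have h1 := hcommB _ ht _ hb
      have h2 := hD.zcent b (hBX hb)
      calc s * b = s * (b * (c * c)) * (c * c) := by
            rw [mul_assoc, mul_assoc, hD.zz, mul_one]
        _ = s * (c * c * b) * (c * c) := by rw [h2]
        _ = (s * (c * c) * b) * (c * c) := by simp only [mul_assoc]
        _ = b * (s * (c * c)) * (c * c) := by rw [h1]
        _ = b * s := by rw [mul_assoc, mul_assoc, hD.zz, mul_one]
  · rw [hD.cardB, hB4]

theorem classify (hD : D8data X c s) (B : Subgroup S) (hBX : B ≤ X) (hB4 : Nat.card B = 4)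
    (hB2 : ∀ b ∈ B, b ^ 2 = 1) : B = Bsub X s ∨ B = Bsub X (s * c) := by
  obtain ⟨t, ht, ht1, htz⟩ := exists_third B (by omega) 1 (c * c)
  rcases hD.enum t (hBX ht) with h | h | h | h | h | h | h | h
  · exact absurd h ht1
  · exfalso
    have h1 := hB2 t ht
    rw [h, pow_two] at h1
    exact hD.cc h1
  · exact absurd h htz
  · exfalso
    have h1 := hB2 t ht
    rw [h, pow_two] at h1
    simp only [mul_assoc, hD.r2'] at h1
    exact hD.cc h1
  · left; exact hD.classify_aux B hBX hB4 hB2 ht (Or.inl h)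
  · right; exact hD.swap.classify_aux B hBX hB4 hB2 ht (Or.inl h)
  · left; exact hD.classify_aux B hBX hB4 hB2 ht (Or.inr (by rw [h, mul_assoc]))
  · right; exact hD.swap.classify_aux B hBX hB4 hB2 ht (Or.inr (by rw [h]; simp only [mul_assoc]))

end D8data

end grp


section mainpart

variable {S : Type*} [Group S]

theorem find_a1 (A X : Subgroup S) [hN : A.Normal] (hcomm : ∀ a ∈ A, ∀ b ∈ A, a * b = b * a)
    (hA3 : ∀ a ∈ A, a * a * a = 1) (hAC : Subgroup.centralizer (A : Set S) = A)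
    {c s : S} (hD : D8data X c s) :
    ∃ a₁ ∈ A, a₁ ≠ 1 ∧ MulAut.conj s a₁ = a₁ ∧ MulAut.conj (c * c) a₁ = a₁⁻¹ := by
  have hzA : c * c ∉ A := by
    intro h
    have h3 := hA3 _ h
    rw [hD.zz, one_mul] at h3
    exact hD.cc h3
  have hz : c * c ∉ Subgroup.centralizer (A : Set S) := by rw [hAC]; exact hzA
  rw [Subgroup.mem_centralizer_iff] at hz
  push Not at hz
  obtain ⟨a, ha, hne⟩ := hz
  have kmem : ∀ g : S, ∀ x ∈ A, MulAut.conj g x ∈ A := fun g x hx => by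
    rw [MulAut.conj_apply]; exact hN.conj_mem x hx g
  have kmul : ∀ g h x : S, MulAut.conj g (MulAut.conj h x) = MulAut.conj (g * h) x :=
    fun g h x => by rw [map_mul]; rfl
  have kzz : ∀ x : S, MulAut.conj (c * c) (MulAut.conj (c * c) x) = x := fun x => by
    rw [kmul, hD.zz, map_one]; rfl
  have kss : ∀ x : S, MulAut.conj s (MulAut.conj s x) = x := fun x => by
    rw [kmul, hD.s2, map_one]; rfl
  have kzs : ∀ x : S, MulAut.conj (c * c) (MulAut.conj s x) =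
      MulAut.conj s (MulAut.conj (c * c) x) := fun x => by
    rw [kmul, kmul, hD.zs]
  obtain ⟨a', ha'A, ha'1, ha'z⟩ : ∃ a' ∈ A, a' ≠ 1 ∧ MulAut.conj (c * c) a' = a'⁻¹ := by
    refine ⟨a * (MulAut.conj (c * c) a)⁻¹, A.mul_mem ha (A.inv_mem (kmem _ _ ha)), ?_, ?_⟩
    · intro h
      apply hne
      rw [mul_inv_eq_one, MulAut.conj_apply] at h
      calc a * (c * c) = c * c * a * (c * c)⁻¹ * (c * c) := by rw [← h]
        _ = c * c * a := by group
    · rw [map_mul, map_inv, kzz, mul_inv_rev, inv_inv]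
  by_cases hb : a' * MulAut.conj s a' = 1
  · have hsa' : MulAut.conj s a' = a'⁻¹ := eq_inv_of_mul_eq_one_right hb
    refine ⟨MulAut.conj c a', kmem _ _ ha'A, ?_, ?_, ?_⟩
    · intro h; apply ha'1; exact (MulEquiv.map_eq_one_iff _).mp h
    · rw [kmul, hD.sc_eq, ← kmul, ← kmul, ha'z, map_inv, hsa', inv_inv]
    · rw [kmul, mul_assoc, ← kmul, ha'z, map_inv]
  · refine ⟨a' * MulAut.conj s a', A.mul_mem ha'A (kmem _ _ ha'A), hb, ?_, ?_⟩
    · rw [map_mul, kss, hcomm _ (kmem s _ ha'A) _ ha'A]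
    · rw [map_mul, kzs, ha'z, map_inv, ← mul_inv_rev, hcomm _ (kmem s _ ha'A) _ ha'A]

theorem rels (A X : Subgroup S) [hN : A.Normal]
    (hA3 : ∀ a ∈ A, a * a * a = 1) {c s : S} (hD : D8data X c s)
    {a₁ : S} (ha₁ : a₁ ∈ A) (hs : MulAut.conj s a₁ = a₁) (hz : MulAut.conj (c * c) a₁ = a₁⁻¹)
    (hcomm : ∀ a ∈ A, ∀ b ∈ A, a * b = b * a) :
    c * a₁ * c⁻¹ ∈ A ∧ a₁ * a₁ * a₁ = 1 ∧
    (c * a₁ * c⁻¹) * (c * a₁ * c⁻¹) * (c * a₁ * c⁻¹) = 1 ∧
    a₁ * (c * a₁ * c⁻¹) = (c * a₁ * c⁻¹) * a₁ ∧ c * a₁ = (c * a₁ * c⁻¹) * c ∧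
    c * (c * a₁ * c⁻¹) = a₁ * a₁ * c ∧ s * a₁ = a₁ * s ∧
    s * (c * a₁ * c⁻¹) = (c * a₁ * c⁻¹) * (c * a₁ * c⁻¹) * s := by
  have h2A : c * a₁ * c⁻¹ ∈ A := hN.conj_mem a₁ ha₁ c
  have inv1 : a₁⁻¹ = a₁ * a₁ := inv_eq_of_mul_eq_one_left (hA3 a₁ ha₁)
  have inv2 : (c * a₁ * c⁻¹)⁻¹ = (c * a₁ * c⁻¹) * (c * a₁ * c⁻¹) :=
    inv_eq_of_mul_eq_one_left (hA3 _ h2A)
  have kmul : ∀ g h x : S, MulAut.conj g (MulAut.conj h x) = MulAut.conj (g * h) x :=
    fun g h x => by rw [map_mul]; rfl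
  have hz' : c * c * a₁ = a₁ * a₁ * (c * c) := by
    have h := hz
    rw [MulAut.conj_apply, mul_inv_eq_iff_eq_mul, inv1] at h
    exact h
  have hs' : s * a₁ = a₁ * s := by
    have h := hs
    rw [MulAut.conj_apply, mul_inv_eq_iff_eq_mul] at h
    exact h
  have e1 : MulAut.conj c (MulAut.conj c a₁) = a₁⁻¹ := by rw [kmul]; exact hz
  have e2 : MulAut.conj c⁻¹ a₁ = (MulAut.conj c a₁)⁻¹ := by
    apply (MulAut.conj c).injective
    rw [kmul, mul_inv_cancel, map_one, map_inv, e1, inv_inv]; rfl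
  have e3 : MulAut.conj s (MulAut.conj c a₁) = (MulAut.conj c a₁)⁻¹ := by
    rw [kmul, hD.sc_inv, ← kmul, hs, e2]
  refine ⟨h2A, hA3 a₁ ha₁, hA3 _ h2A, hcomm _ ha₁ _ h2A, by group, ?_, hs', ?_⟩
  · calc c * (c * a₁ * c⁻¹) = (c * c * a₁) * c⁻¹ := by simp only [mul_assoc]
      _ = (a₁ * a₁ * (c * c)) * c⁻¹ := by rw [hz']
      _ = a₁ * a₁ * c := by group
  · have h := e3
    simp only [MulAut.conj_apply] at h
    rw [mul_inv_eq_iff_eq_mul, inv2] at h
    exact h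

theorem a2_ne {a₁ a₂ c : S} (h1 : a₁ ≠ 1) (r7 : c * a₁ = a₂ * c)
    (r8 : c * a₂ = a₁ * a₁ * c) : a₂ ≠ 1 ∧ a₂ ≠ a₁ ∧ a₂ ≠ a₁ * a₁ := by
  have hsq' : a₁ ≠ a₁ * a₁ := by
    intro h; apply h1
    have h2 : a₁ * 1 = a₁ * a₁ := by rw [mul_one]; exact h
    exact (mul_left_cancel h2).symm
  refine ⟨?_, ?_, ?_⟩
  · intro h
    apply h1
    rw [h, one_mul] at r7
    have h2 : c * a₁ = c * 1 := by rw [mul_one]; exact r7
    exact mul_left_cancel h2
  · intro h
    rw [h] at r7 r8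
    rw [r7] at r8
    exact hsq' (mul_right_cancel r8)
  · intro h
    rw [h] at r7 r8
    rw [← r8] at r7
    exact hsq' (mul_left_cancel r7)

theorem gen [Finite S] (A X : Subgroup S) (hA9 : Nat.card A = 9) (hAX : A ⊔ X = ⊤) {c s : S}
    (hD : D8data X c s) {a₁ a₂ : S} (ha₁ : a₁ ∈ A) (ha₂ : a₂ ∈ A) (h1 : a₁ ≠ 1)
    (r1 : a₁ * a₁ * a₁ = 1) (r7 : c * a₁ = a₂ * c) (r8 : c * a₂ = a₁ * a₁ * c) :
    Subgroup.closure {a₁, a₂, c, s} = ⊤ := by
  obtain ⟨n1, n2, n3⟩ := a2_ne h1 r7 r8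
  have m1 : a₁ ∈ Subgroup.closure {a₁, a₂, c, s} := Subgroup.subset_closure (by simp)
  have m2 : a₂ ∈ Subgroup.closure {a₁, a₂, c, s} := Subgroup.subset_closure (by simp)
  have m3 : c ∈ Subgroup.closure {a₁, a₂, c, s} := Subgroup.subset_closure (by simp)
  have m4 : s ∈ Subgroup.closure {a₁, a₂, c, s} := Subgroup.subset_closure (by simp)
  have hsq : a₁ * a₁ ≠ 1 := by
    intro h; apply h1; rw [h, one_mul] at r1; exact r1
  have hsq' : a₁ ≠ a₁ * a₁ := by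
    intro h; apply h1
    have h2 : a₁ * 1 = a₁ * a₁ := by rw [mul_one]; exact h
    exact (mul_left_cancel h2).symm
  have hcard : 4 ≤ Nat.card ↥(Subgroup.closure {a₁, a₂, c, s} ⊓ A) :=
    four_le_card _ (Subgroup.one_mem _) (Subgroup.mem_inf.mpr ⟨m1, ha₁⟩)
      (Subgroup.mem_inf.mpr ⟨Subgroup.mul_mem _ m1 m1, A.mul_mem ha₁ ha₁⟩)
      (Subgroup.mem_inf.mpr ⟨m2, ha₂⟩) (Ne.symm h1) (Ne.symm hsq) (Ne.symm n1) hsq'
      (Ne.symm n2) (Ne.symm n3)
  have hdvd : Nat.card ↥(Subgroup.closure {a₁, a₂, c, s} ⊓ A) ∣ 9 := by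
    rw [← hA9]; exact Subgroup.card_dvd_of_le inf_le_right
  have h9 : Nat.card ↥(Subgroup.closure {a₁, a₂, c, s} ⊓ A) = 9 := by
    obtain ⟨k, hk⟩ := hdvd
    have hk2 : k < 3 := by
      by_contra hcon
      push Not at hcon
      have h3 : 4 * 3 ≤ Nat.card ↥(Subgroup.closure {a₁, a₂, c, s} ⊓ A) * k :=
        Nat.mul_le_mul hcard hcon
      omega
    interval_cases k <;> omega
  have hKA : Subgroup.closure {a₁, a₂, c, s} ⊓ A = A :=
    Subgroup.eq_of_le_of_card_ge inf_le_right (by rw [h9, hA9])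
  have hAK : A ≤ Subgroup.closure {a₁, a₂, c, s} := by
    intro x hx
    have h : x ∈ Subgroup.closure {a₁, a₂, c, s} ⊓ A := by rw [hKA]; exact hx
    exact (Subgroup.mem_inf.mp h).1
  have hXK : X ≤ Subgroup.closure {a₁, a₂, c, s} := by
    intro x hx
    rcases hD.enum x hx with h | h | h | h | h | h | h | h <;> rw [h]
    · exact Subgroup.one_mem _
    · exact m3
    · exact Subgroup.mul_mem _ m3 m3
    · exact Subgroup.mul_mem _ (Subgroup.mul_mem _ m3 m3) m3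
    · exact m4
    · exact Subgroup.mul_mem _ m4 m3
    · exact Subgroup.mul_mem _ (Subgroup.mul_mem _ m4 m3) m3
    · exact Subgroup.mul_mem _ (Subgroup.mul_mem _ (Subgroup.mul_mem _ m4 m3) m3) m3
  rw [eq_top_iff, ← hAX]
  exact sup_le hAK hXK

theorem wrapper {M : Type*} [AddCommGroup M] [Module (ZMod 2) M] [Finite M]
    (ρ : Representation (ZMod 2) S M) (hfaith : Function.Injective ρ)
    (hirr : ∀ N : Submodule (ZMod 2) M, (∀ s : S, ∀ m ∈ N, ρ s m ∈ N) → N = ⊥ ∨ N = ⊤)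
    (a₁ a₂ c s : S) (hgen : Subgroup.closure {a₁, a₂, c, s} = ⊤)
    (r1 : a₁ * a₁ * a₁ = 1) (r2 : a₂ * a₂ * a₂ = 1) (r3 : a₁ * a₂ = a₂ * a₁)
    (r4 : c * c * c * c = 1) (r5 : s * s = 1)
    (r6 : s * c * s = c * c * c) (r7 : c * a₁ = a₂ * c) (r8 : c * a₂ = a₁ * a₁ * c)
    (r9 : s * a₁ = a₁ * s) (r10 : s * a₂ = a₂ * a₂ * s)
    (ha1 : a₁ ≠ 1) (hfix : ∃ m₀, m₀ ≠ 0 ∧ ρ a₁ m₀ = m₀) :
    Nat.card M = 16 ∧ Nat.card {m : M // ρ c (ρ c m) = m ∧ ρ s m = m} = 4 ∧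
      Nat.card {m : M // ρ c (ρ c m) = m ∧ ρ s (ρ c m) = m} = 2 := by
  have rm : ∀ (g h : S) (m : M), ρ g (ρ h m) = ρ (g * h) m := fun g h m => by
    rw [map_mul]; rfl
  have r1m : ∀ m : M, ρ 1 m = m := fun m => by rw [map_one]; rfl
  apply opLemma (ρ a₁) (ρ a₂) (ρ c) (ρ s)
  · intro m; rw [rm, rm, r1, r1m]
  · intro m; rw [rm, rm, r2, r1m]
  · intro m; rw [rm, rm, r3]
  · intro m; rw [rm, rm, rm, r4, r1m]
  · intro m; rw [rm, r5, r1m]
  · intro m; rw [rm, rm, rm, rm, r6]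
  · intro m; rw [rm, rm, r7]
  · intro m; rw [rm, rm, rm, r8]
  · intro m; rw [rm, rm, r9]
  · intro m; rw [rm, rm, rm, r10]
  · intro N hα hβ hγ hσ
    apply hirr N
    have key : ∀ g : S, g ∈ Subgroup.closure {a₁, a₂, c, s} →
        ((∀ m ∈ N, ρ g m ∈ N) ∧ (∀ m ∈ N, ρ g⁻¹ m ∈ N)) := by
      intro g hg
      induction hg using Subgroup.closure_induction with
      | mem x hx =>
        simp only [Set.mem_insert_iff, Set.mem_singleton_iff] at hx
        rcases hx with rfl | rfl | rfl | rfl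
        · refine ⟨hα, fun m hm => ?_⟩
          rw [inv_eq_of_mul_eq_one_left r1, ← rm]
          exact hα _ (hα _ hm)
        · refine ⟨hβ, fun m hm => ?_⟩
          rw [inv_eq_of_mul_eq_one_left r2, ← rm]
          exact hβ _ (hβ _ hm)
        · refine ⟨hγ, fun m hm => ?_⟩
          rw [inv_eq_of_mul_eq_one_left r4, ← rm, ← rm]
          exact hγ _ (hγ _ (hγ _ hm))
        · refine ⟨hσ, fun m hm => ?_⟩
          rw [inv_eq_of_mul_eq_one_left r5]
          exact hσ _ hm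
      | one =>
        refine ⟨fun m hm => ?_, fun m hm => ?_⟩
        · rw [r1m]; exact hm
        · rw [inv_one, r1m]; exact hm
      | mul x y hx hy ihx ihy =>
        refine ⟨fun m hm => ?_, fun m hm => ?_⟩
        · rw [← rm]; exact ihx.1 _ (ihy.1 _ hm)
        · rw [mul_inv_rev, ← rm]; exact ihy.2 _ (ihx.2 _ hm)
      | inv x hx ih =>
        refine ⟨ih.2, fun m hm => ?_⟩
        rw [inv_inv]; exact ih.1 m hm
    intro g
    exact (key g (by rw [hgen]; trivial)).1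
  · by_contra h
    push Not at h
    apply ha1
    apply hfaith
    ext m
    rw [h m, map_one]; rfl
  · exact hfix

theorem dicho {M : Type*} [AddCommGroup M] [Module (ZMod 2) M] [Nontrivial M]
    (ρ : Representation (ZMod 2) S M) (a₁ a₂ c : S)
    (r1 : a₁ * a₁ * a₁ = 1) (r2 : a₂ * a₂ * a₂ = 1) (r3 : a₁ * a₂ = a₂ * a₁)
    (r7 : c * a₁ = a₂ * c) (r8 : c * a₂ = a₁ * a₁ * c)
    (hnf : ∀ m, ρ a₁ m = m → m = 0) : ∃ m₀, m₀ ≠ 0 ∧ ρ (a₁ * a₂ * a₂) m₀ = m₀ := by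
  have rm : ∀ (g h : S) (m : M), ρ g (ρ h m) = ρ (g * h) m := fun g h m => by
    rw [map_mul]; rfl
  have r1m : ∀ m : M, ρ 1 m = m := fun m => by rw [map_one]; rfl
  have hα3 : ∀ m, ρ a₁ (ρ a₁ (ρ a₁ m)) = m := fun m => by rw [rm, rm, r1, r1m]
  have hβ3 : ∀ m, ρ a₂ (ρ a₂ (ρ a₂ m)) = m := fun m => by rw [rm, rm, r2, r1m]
  have hαβ : ∀ m, ρ a₂ (ρ a₁ m) = ρ a₁ (ρ a₂ m) := fun m => by rw [rm, rm, r3]
  have hγα : ∀ m, ρ c (ρ a₁ m) = ρ a₂ (ρ c m) := fun m => by rw [rm, rm, r7]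
  have hγβ : ∀ m, ρ c (ρ a₂ m) = ρ a₁ (ρ a₁ (ρ c m)) := fun m => by rw [rm, rm, rm, r8]
  have hγinj : ∀ m, ρ c m = 0 → m = 0 := fun m h => by
    have h2 : ρ c⁻¹ (ρ c m) = m := by rw [rm, inv_mul_cancel, r1m]
    rw [h, map_zero] at h2; exact h2.symm
  have hαα : ∀ x, ρ a₁ (ρ a₁ x) = x + ρ a₁ x := by
    intro x
    have h0 : x + ρ a₁ x + ρ a₁ (ρ a₁ x) = 0 := by
      apply hnf
      rw [map_add, map_add, hα3]; abel
    linear_combination (norm := module) char2 (ρ a₁ (ρ a₁ x)) - h0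
  have hnfβ : ∀ m, ρ a₂ m = m → m = 0 := by
    intro m hm
    apply hγinj
    apply hnf
    have h := hγβ m
    rw [hm] at h
    calc ρ a₁ (ρ c m) = ρ a₁ (ρ a₁ (ρ a₁ (ρ c m))) := by rw [← h]
      _ = ρ c m := hα3 _
  have hββ : ∀ x, ρ a₂ (ρ a₂ x) = x + ρ a₂ x := by
    intro x
    have h0 : x + ρ a₂ x + ρ a₂ (ρ a₂ x) = 0 := by
      apply hnfβ
      rw [map_add, map_add, hβ3]; abel
    linear_combination (norm := module) char2 (ρ a₂ (ρ a₂ x)) - h0
  have hδ : ∀ m, ρ (a₁ * a₂ * a₂) m = ρ a₁ (ρ a₂ (ρ a₂ m)) := fun m => by rw [rm, rm]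
  obtain ⟨m, hm⟩ := exists_ne (0 : M)
  by_cases hp : m + ρ a₁ m + ρ a₂ m = 0
  · have hm' : m = ρ a₁ m + ρ a₂ m := by
      linear_combination (norm := module) hp - char2 (ρ a₁ m) - char2 (ρ a₂ m)
    have hε : ρ a₁ (ρ a₂ m) = m := by
      have h1 : ρ a₁ (ρ a₂ m) = ρ a₁ (ρ a₂ (ρ a₁ m + ρ a₂ m)) :=
        congrArg (fun v => ρ a₁ (ρ a₂ v)) hm'
      rw [h1]
      simp only [map_add, hαβ, hαα, hββ]
      linear_combination (norm := module) char2 (ρ a₁ (ρ a₂ m)) - hm'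
    refine ⟨ρ c m, fun h => hm (hγinj m h), ?_⟩
    rw [hδ]
    have hy : ρ c m = ρ a₂ (ρ a₁ (ρ a₁ (ρ c m))) := by
      have h1 : ρ c m = ρ c (ρ a₁ (ρ a₂ m)) := by rw [hε]
      rw [hγα, hγβ] at h1
      exact h1
    calc ρ a₁ (ρ a₂ (ρ a₂ (ρ c m)))
        = ρ a₁ (ρ a₂ (ρ a₂ (ρ a₂ (ρ a₁ (ρ a₁ (ρ c m)))))) := by rw [← hy]
      _ = ρ c m := by rw [hβ3, hα3]
  · refine ⟨m + ρ a₁ m + ρ a₂ m, hp, ?_⟩
    rw [hδ]
    simp only [map_add, hαβ, hαα, hββ]
    linear_combination (norm := module) char2 (ρ a₁ m) + char2 (ρ a₁ (ρ a₂ m)) +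
      char2 (ρ a₁ (ρ a₂ m))

theorem fixB {X : Subgroup S} {c s : S} (hD : D8data X c s) {M : Type*} [AddCommGroup M]
    [Module (ZMod 2) M] (ρ : Representation (ZMod 2) S M) :
    Nat.card {m : M // ∀ b ∈ Bsub X s, ρ b m = m} =
      Nat.card {m : M // ρ c (ρ c m) = m ∧ ρ s m = m} := by
  have rm : ∀ (g h : S) (m : M), ρ g (ρ h m) = ρ (g * h) m := fun g h m => by
    rw [map_mul]; rfl
  have r1m : ∀ m : M, ρ 1 m = m := fun m => by rw [map_one]; rfl
  apply Nat.card_congr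
  apply Equiv.subtypeEquivRight
  intro m
  constructor
  · intro h
    exact ⟨by rw [rm]; exact h _ (hD.memB.mpr (Or.inr (Or.inl rfl))),
      h _ (hD.memB.mpr (Or.inr (Or.inr (Or.inl rfl))))⟩
  · rintro ⟨h1, h2⟩ b hb
    rcases hD.memB.mp hb with rfl | rfl | rfl | rfl
    · exact r1m m
    · rw [← rm]; exact h1
    · exact h2
    · rw [← rm, ← rm, h1, h2]

end mainpart

theorem main {S : Type*} [Group S] [Finite S]
    (A : Subgroup S) [A.Normal] (hA : Cfsg.IsElementaryAbelian 3 A) (hA9 : Nat.card ↥A = 9)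
    (hAC : Subgroup.centralizer (A : Set S) = A) (X : Subgroup S)
    (hX : Nonempty (↥X ≃* DihedralGroup 4)) (hAX : A ⊔ X = ⊤)
    {M : Type*} [AddCommGroup M] [Module (ZMod 2) M] [Finite M] (ρ : Representation (ZMod 2) S M)
    (hfaith : Function.Injective ρ)
    (hirr : ∀ N : Submodule (ZMod 2) M, (∀ s : S, ∀ m ∈ N, ρ s m ∈ N) → N = ⊥ ∨ N = ⊤)
    (hM : Nontrivial M) :
    Nat.card M = 16 ∧
      ∃! B : Subgroup S, B ≤ X ∧ Nat.card ↥B = 4 ∧ (∀ b ∈ B, b ^ 2 = 1) ∧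
        Nat.card {m : M // ∀ b ∈ B, ρ b m = m} = 2 := by
  obtain ⟨c, s, hD⟩ := exists_D8data X hX
  have hcomm : ∀ a ∈ A, ∀ b ∈ A, a * b = b * a := by
    intro a ha b hb
    have h := hA.1.is_comm.comm ⟨a, ha⟩ ⟨b, hb⟩
    exact congrArg Subtype.val h
  have hA3 : ∀ a ∈ A, a * a * a = 1 := by
    intro a ha
    have h := hA.2 a ha
    rw [pow_succ, pow_two] at h
    exact h
  have rm : ∀ (g h : S) (m : M), ρ g (ρ h m) = ρ (g * h) m := fun g h m => by
    rw [map_mul]; rfl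
  obtain ⟨a₁, ha₁, h1, hs1, hz1⟩ := find_a1 A X hcomm hA3 hAC hD
  obtain ⟨ha₂, r1, r2, r3, r7, r8, r9, r10⟩ := rels A X hA3 hD ha₁ hs1 hz1 hcomm
  have hgen := gen A X hA9 hAX hD ha₁ ha₂ h1 r1 r7 r8
  have key : Nat.card M = 16 ∧
      ((Nat.card {m : M // ∀ b ∈ Bsub X s, ρ b m = m} = 4 ∧
        Nat.card {m : M // ∀ b ∈ Bsub X (s * c), ρ b m = m} = 2) ∨
       (Nat.card {m : M // ∀ b ∈ Bsub X s, ρ b m = m} = 2 ∧
        Nat.card {m : M // ∀ b ∈ Bsub X (s * c), ρ b m = m} = 4)) := by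
    by_cases hfix : ∃ m₀, m₀ ≠ 0 ∧ ρ a₁ m₀ = m₀
    · obtain ⟨h16, h4, h2⟩ := wrapper ρ hfaith hirr a₁ (c * a₁ * c⁻¹) c s hgen r1 r2 r3 hD.c4
        hD.s2 hD.scs r7 r8 r9 r10 h1 hfix
      refine ⟨h16, Or.inl ⟨?_, ?_⟩⟩
      · rw [fixB hD ρ]; exact h4
      · refine (fixB hD.swap ρ).trans (Eq.trans ?_ h2)
        apply Nat.card_congr
        apply Equiv.subtypeEquivRight
        intro m
        rw [← rm s c m]
    · push Not at hfix
      have hnf : ∀ m, ρ a₁ m = m → m = 0 := fun m hm => by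
        by_contra h0
        exact hfix m h0 hm
      obtain ⟨m₀, hm₀, hm₀fix⟩ := dicho ρ a₁ (c * a₁ * c⁻¹) c r1 r2 r3 r7 r8 hnf
      obtain ⟨n1, n2, n3⟩ := a2_ne h1 r7 r8
      generalize c * a₁ * c⁻¹ = a₂ at *
      have Rc1' : ∀ x, c * (a₁ * x) = a₂ * (c * x) := fun x => by
        rw [← mul_assoc, r7, mul_assoc]
      have Rc2 : c * a₂ = a₁ * (a₁ * c) := by rw [r8, mul_assoc]
      have Rc2' : ∀ x, c * (a₂ * x) = a₁ * (a₁ * (c * x)) := fun x => by
        rw [← mul_assoc, r8]; simp only [mul_assoc]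
      have Rs1' : ∀ x, s * (a₁ * x) = a₁ * (s * x) := fun x => by
        rw [← mul_assoc, r9, mul_assoc]
      have Rs2 : s * a₂ = a₂ * (a₂ * s) := by rw [r10, mul_assoc]
      have Rs2' : ∀ x, s * (a₂ * x) = a₂ * (a₂ * (s * x)) := fun x => by
        rw [← mul_assoc, r10]; simp only [mul_assoc]
      have C21 : a₂ * a₁ = a₁ * a₂ := r3.symm
      have C21' : ∀ x, a₂ * (a₁ * x) = a₁ * (a₂ * x) := fun x => by
        rw [← mul_assoc, C21, mul_assoc]
      have A1 : a₁ * (a₁ * a₁) = 1 := by rw [← mul_assoc]; exact r1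
      have A1' : ∀ x, a₁ * (a₁ * (a₁ * x)) = x := fun x => by
        rw [← mul_assoc, ← mul_assoc, r1, one_mul]
      have A2 : a₂ * (a₂ * a₂) = 1 := by rw [← mul_assoc]; exact r2
      have A2' : ∀ x, a₂ * (a₂ * (a₂ * x)) = x := fun x => by
        rw [← mul_assoc, ← mul_assoc, r2, one_mul]
      have haT : a₁ * a₂ * a₂ ∈ A := A.mul_mem (A.mul_mem ha₁ ha₂) ha₂
      have haT1 : a₁ * a₂ * a₂ ≠ 1 := by
        intro h
        apply n2
        calc a₂ = (a₁ * a₂ * a₂) * a₂ := by rw [h, one_mul]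
          _ = a₁ * (a₂ * a₂ * a₂) := by simp only [mul_assoc]
          _ = a₁ := by rw [r2, mul_one]
      have hsT : MulAut.conj (s * c) (a₁ * a₂ * a₂) = a₁ * a₂ * a₂ := by
        rw [MulAut.conj_apply, mul_inv_eq_iff_eq_mul]
        simp only [mul_assoc, r7, Rc1', Rc2, Rc2', r9, Rs1', Rs2, Rs2', C21, C21', A1, A1', A2,
          A2', mul_one, one_mul]
      have hinv : (a₁ * a₂ * a₂)⁻¹ = a₁ * a₁ * a₂ := by
        apply inv_eq_of_mul_eq_one_right
        simp only [mul_assoc, r7, Rc1', Rc2, Rc2', r9, Rs1', Rs2, Rs2', C21, C21', A1, A1', A2,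
          A2', mul_one, one_mul]
      have hzT : MulAut.conj (c * c) (a₁ * a₂ * a₂) = (a₁ * a₂ * a₂)⁻¹ := by
        rw [MulAut.conj_apply, mul_inv_eq_iff_eq_mul, hinv]
        simp only [mul_assoc, r7, Rc1', Rc2, Rc2', r9, Rs1', Rs2, Rs2', C21, C21', A1, A1', A2,
          A2', mul_one, one_mul]
      obtain ⟨hb₂, q1, q2, q3, q7, q8, q9, q10⟩ := rels A X hA3 hD.swap haT hsT hzT hcomm
      have hgen' := gen A X hA9 hAX hD.swap haT hb₂ haT1 q1 q7 q8
      obtain ⟨h16, h4, h2⟩ := wrapper ρ hfaith hirr (a₁ * a₂ * a₂) (c * (a₁ * a₂ * a₂) * c⁻¹) c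
        (s * c) hgen' q1 q2 q3 hD.swap.c4 hD.swap.s2 hD.swap.scs q7 q8 q9 q10 haT1
        ⟨m₀, hm₀, hm₀fix⟩
      refine ⟨h16, Or.inr ⟨?_, ?_⟩⟩
      · refine (fixB hD ρ).trans (Eq.trans ?_ h2)
        apply Nat.card_congr
        apply Equiv.subtypeEquivRight
        intro m
        constructor
        · rintro ⟨e1, e2⟩
          exact ⟨e1, by rw [← rm, e1]; exact e2⟩
        · rintro ⟨e1, e2⟩
          refine ⟨e1, ?_⟩
          rw [← rm, e1] at e2
          exact e2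
      · rw [fixB hD.swap ρ]; exact h4
  obtain ⟨h16, hcase⟩ := key
  refine ⟨h16, ?_⟩
  rcases hcase with ⟨h4, h2⟩ | ⟨h2, h4⟩
  · refine ⟨Bsub X (s * c), ⟨hD.swap.leB, hD.swap.cardB, hD.swap.expB, h2⟩, ?_⟩
    rintro B ⟨hBX, hB4, hB2, hBfix⟩
    rcases hD.classify B hBX hB4 hB2 with rfl | rfl
    · rw [h4] at hBfix; omega
    · rfl
  · refine ⟨Bsub X s, ⟨hD.leB, hD.cardB, hD.expB, h2⟩, ?_⟩
    rintro B ⟨hBX, hB4, hB2, hBfix⟩
    rcases hD.classify B hBX hB4 hB2 with rfl | rfl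
    · rfl
    · rw [h4] at hBfix; omega

/-- Let S be a finite group with a normal elementary abelian subgroup A of order 9 that is self-centralizing (C_S(A) = A), and a dihedral subgroup X of order 8 with S = AX. Let M be a finite-dimensional module for S over the field with two elements that is faithful and irreducible. Then M has 16 elements, and X contains exactly one subgroup B of order 4 and exponent 2 whose fixed points on M form a subspace with exactly 2 elements (equivalently, M is free of rank one over the group algebra of B). -/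
theorem result {S : Type*} [Group S] [Finite S]
    (A : Subgroup S) [A.Normal] (hA : Cfsg.IsElementaryAbelian 3 A) (hA9 : Nat.card ↥A = 9)
    (hAC : Subgroup.centralizer (A : Set S) = A) (X : Subgroup S) (hX : Nonempty (↥X ≃* DihedralGroup 4)) (hAX : A ⊔ X = ⊤)
    {M : Type*} [AddCommGroup M] [Module (ZMod 2) M] [Finite M] (ρ : Representation (ZMod 2) S M)
    (hfaith : Function.Injective ρ)
    (hirr : ∀ N : Submodule (ZMod 2) M, (∀ s : S, ∀ m ∈ N, ρ s m ∈ N) → N = ⊥ ∨ N = ⊤) (hM : Nontrivial M) :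
    Nat.card M = 16 ∧
      ∃! B : Subgroup S, B ≤ X ∧ Nat.card ↥B = 4 ∧ (∀ b ∈ B, b ^ 2 = 1) ∧
        Nat.card {m : M // ∀ b ∈ B, ρ b m = m} = 2 := by
  exact main A hA hA9 hAC X hX hAX ρ hfaith hirr hM

end Cfsg.Agent.S4407
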