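import Cfsg.Statements.S4412
import Mathlib
import Cfsg.Agent.Lib.Helper31.CoprimeGen

set_option autoImplicit false
open Cfsg

namespace Cfsg.Agent.S4412

open scoped commutatorElement

variable {P : Type*} [Group P]

/-- common fixed points of a subgroup of automorphisms -/
def cen (J : Subgroup (MulAut P)) : Subgroup P where
  carrier := {x | ∀ T ∈ J, T x = x}
  mul_mem' := fun {a b} ha hb T hT => by rw [map_mul, ha T hT, hb T hT]
  one_mem' := fun T _ => map_one T
  inv_mem' := fun {a} ha T hT => by rw [map_inv, ha T hT]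

lemma mem_cen {J : Subgroup (MulAut P)} {x : P} : x ∈ cen J ↔ ∀ T ∈ J, T x = x := Iff.rfl

lemma eigen {W : Type*} [Group W] (hcomm : ∀ x y : W, x * y = y * x) [Nontrivial W]
    {ι : Type*} (f : ι → MulAut W) (hf : ∀ i j, f i * f j = f j * f i) (hf2 : ∀ i, f i * f i = 1)
    (s : Finset ι) : ∃ w : W, w ≠ 1 ∧ ∀ i ∈ s, f i w = w ∨ f i w = w⁻¹ := by
  classical
  induction s using Finset.induction_on with
  | empty =>
    obtain ⟨w, hw⟩ := exists_ne (1 : W)
    exact ⟨w, hw, by simp⟩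
  | insert a s ha ih =>
    obtain ⟨w, hw, h⟩ := ih
    by_cases h1 : f a w * w = 1
    · refine ⟨w, hw, ?_⟩
      intro i hi
      rcases Finset.mem_insert.mp hi with rfl | hi
      · right; exact eq_inv_of_mul_eq_one_left h1
      · exact h i hi
    · refine ⟨f a w * w, h1, ?_⟩
      intro i hi
      rcases Finset.mem_insert.mp hi with rfl | hi
      · left
        rw [map_mul]
        have h3 : f i (f i w) = w := by
          have h4 := congrArg (fun φ : MulAut W => φ w) (hf2 i)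
          simpa using h4
        rw [h3, hcomm]
      · have hc : f i (f a w) = f a (f i w) := by
          have h4 := congrArg (fun φ : MulAut W => φ w) (hf i a)
          simpa using h4
        rcases h i hi with h2 | h2
        · left; rw [map_mul, hc, h2]
        · right; rw [map_mul, hc, h2, map_inv, mul_inv_rev, hcomm]

/-- In a finite cyclic group, `y` generates every element killed by its order. -/
theorem cyc_mem {A : Type*} [Group A] [Finite A] [IsCyclic A]
    {y c : A} (hc : c ^ orderOf y = 1) : c ∈ Subgroup.zpowers y := by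
  classical
  have := Fintype.ofFinite A
  have hpos : 0 < orderOf y := orderOf_pos y
  have h1 : (Finset.univ.filter (fun a : A => a ^ orderOf y = 1)).card ≤ orderOf y :=
    IsCyclic.card_pow_eq_one_le hpos
  have hsub : (Finset.range (orderOf y)).image (fun i => y ^ i) ⊆
      Finset.univ.filter (fun a : A => a ^ orderOf y = 1) := by
    intro x hx
    obtain ⟨i, -, rfl⟩ := Finset.mem_image.mp hx
    rw [Finset.mem_filter]
    refine ⟨Finset.mem_univ _, ?_⟩
    rw [← pow_mul, mul_comm, pow_mul, pow_orderOf_eq_one, one_pow]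
  have hcard : ((Finset.range (orderOf y)).image (fun i => y ^ i)).card = orderOf y := by
    rw [Finset.card_image_of_injOn, Finset.card_range]
    intro i hi j hj hij
    exact pow_injOn_Iio_orderOf (Finset.mem_range.mp hi) (Finset.mem_range.mp hj) hij
  have heq := Finset.eq_of_subset_of_card_le hsub (by rw [hcard]; exact h1)
  have hcm : c ∈ Finset.univ.filter (fun a : A => a ^ orderOf y = 1) := by
    rw [Finset.mem_filter]; exact ⟨Finset.mem_univ _, hc⟩
  rw [← heq] at hcm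
  obtain ⟨i, -, rfl⟩ := Finset.mem_image.mp hcm
  exact Subgroup.npow_mem_zpowers y i

/-- subgroups of a cyclic `p`-group form a chain -/
theorem chain [Finite P] {p : ℕ} (hp : p.Prime) (hP : IsPGroup p P) (g u v : P)
    (hu : u ∈ Subgroup.zpowers g) (hv : v ∈ Subgroup.zpowers g) :
    u ∈ Subgroup.zpowers v ∨ v ∈ Subgroup.zpowers u := by
  have key : ∀ u v : P, u ∈ Subgroup.zpowers g → v ∈ Subgroup.zpowers g →
      orderOf u ∣ orderOf v → u ∈ Subgroup.zpowers v := by
    intro u v hu hv hdvd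
    have h1 : (⟨u, hu⟩ : Subgroup.zpowers g) ∈ Subgroup.zpowers (⟨v, hv⟩ : Subgroup.zpowers g) := by
      apply cyc_mem
      apply Subtype.ext
      rw [Subgroup.orderOf_mk]
      show u ^ orderOf v = 1
      exact orderOf_dvd_iff_pow_eq_one.mp hdvd
    obtain ⟨k, hk⟩ := Subgroup.mem_zpowers_iff.mp h1
    have h2 : v ^ k = u := by simpa using congrArg Subtype.val hk
    exact Subgroup.mem_zpowers_iff.mpr ⟨k, h2⟩
  have : Fact p.Prime := ⟨hp⟩
  obtain ⟨r, hr⟩ := (IsPGroup.iff_orderOf.mp hP) u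
  obtain ⟨s, hs⟩ := (IsPGroup.iff_orderOf.mp hP) v
  rcases le_total r s with h | h
  · left; exact key u v hu hv (by rw [hr, hs]; exact pow_dvd_pow p h)
  · right; exact key v u hv hu (by rw [hr, hs]; exact pow_dvd_pow p h)

theorem gen_lemma [Finite P] {p : ℕ} (hp : p.Prime) (hp2 : p ≠ 2) (hP : IsPGroup p P)
    (I : Subgroup (MulAut P)) (hIc : ∀ S ∈ I, ∀ T ∈ I, S * T = T * S) (hI2 : ∀ T ∈ I, T * T = 1)
    (hI8 : Nat.card I = 8)
    (H : Subgroup P) (hHI : ∀ T ∈ I, ∀ x ∈ H, T x ∈ H)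
    (hH : ∀ J : Subgroup (MulAut P), J ≤ I → 4 ≤ Nat.card J → cen J ≤ H) : H = ⊤ := by
  classical
  have : Fact p.Prime := ⟨hp⟩
  have : Group.IsNilpotent P := hP.isNilpotent
  apply Cfsg.Agent.Lib.Helper31.CoprimeGen.eq_top_of_sup_commutator_eq_top
  by_contra hne
  set M := H ⊔ commutator P with hM
  have hcM : commutator P ≤ M := le_sup_right
  have hHM : H ≤ M := le_sup_left
  have hMn : M.Normal := by
    refine ⟨fun m hm g => ?_⟩
    have h1 : g * m * g⁻¹ = ⁅g, m⁆ * m := by simp [commutatorElement_def]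
    rw [h1]
    exact M.mul_mem (hcM (Subgroup.commutator_mem_commutator (Subgroup.mem_top g)
      (Subgroup.mem_top m))) hm
  have hMI : ∀ T ∈ I, ∀ x ∈ M, T x ∈ M := by
    intro T hT x hx
    have h1 : M.map ((T : P ≃* P) : P →* P) ≤ M := by
      rw [hM, Subgroup.map_sup]
      apply sup_le_sup
      · rintro _ ⟨y, hy, rfl⟩; exact hHI T hT y hy
      · rw [commutator_def, Subgroup.map_commutator]
        exact Subgroup.commutator_mono le_top le_top
    exact h1 (Subgroup.mem_map_of_mem _ hx)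
  have hTT : ∀ T ∈ I, ∀ x : P, T (T x) = x := by
    intro T hT x
    have h1 := congrArg (fun φ : MulAut P => φ x) (hI2 T hT)
    simpa using h1
  have hmap : ∀ T ∈ I, M.map ((T : P ≃* P) : P →* P) = M := by
    intro T hT
    apply le_antisymm
    · rintro _ ⟨y, hy, rfl⟩; exact hMI T hT y hy
    · intro x hx; exact ⟨T x, hMI T hT x hx, hTT T hT x⟩
  have hnt : Nontrivial (P ⧸ M) := QuotientGroup.nontrivial_iff.mpr hne
  have hWc : ∀ x y : P ⧸ M, x * y = y * x := by
    intro x y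
    induction x using QuotientGroup.induction_on with
    | H a =>
      induction y using QuotientGroup.induction_on with
      | H b =>
        rw [← QuotientGroup.mk_mul, ← QuotientGroup.mk_mul, QuotientGroup.eq]
        have h1 : (a * b)⁻¹ * (b * a) = ⁅b⁻¹, a⁻¹⁆ := by
          simp [commutatorElement_def, mul_assoc]
        rw [h1]
        exact hcM (Subgroup.commutator_mem_commutator (Subgroup.mem_top _) (Subgroup.mem_top _))
  let f : ↥I → MulAut (P ⧸ M) := fun T => QuotientGroup.congr M M (T.1 : P ≃* P) (hmap T.1 T.2)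
  have hfmk : ∀ (T : ↥I) (x : P), f T (x : P ⧸ M) = ((T.1 x : P) : P ⧸ M) := fun T x =>
    QuotientGroup.congr_mk _ _ _ _ x
  have hfc : ∀ S T : ↥I, f S * f T = f T * f S := by
    intro S T
    ext w
    induction w using QuotientGroup.induction_on with
    | H a =>
      rw [MulAut.mul_apply, MulAut.mul_apply, hfmk, hfmk, hfmk, hfmk]
      have h1 := congrArg (fun φ : MulAut P => φ a) (hIc S.1 S.2 T.1 T.2)
      simp only [MulAut.mul_apply] at h1
      rw [h1]
  have hf2 : ∀ T : ↥I, f T * f T = 1 := by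
    intro T
    ext w
    induction w using QuotientGroup.induction_on with
    | H a =>
      rw [MulAut.mul_apply, hfmk, hfmk, hTT T.1 T.2, MulAut.one_apply]
  have hIfin : Finite ↥I := Nat.finite_of_card_ne_zero (by rw [hI8]; norm_num)
  have : Fintype ↥I := Fintype.ofFinite _
  obtain ⟨wbar, hwbar, hw⟩ := eigen hWc f hfc hf2 Finset.univ
  obtain ⟨w, rfl⟩ := QuotientGroup.mk_surjective wbar
  have hwM : w ∉ M := fun h => hwbar ((QuotientGroup.eq_one_iff w).mpr h)
  let J : Subgroup (MulAut P) :=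
    { carrier := {T | T ∈ I ∧ ((T w : P) : P ⧸ M) = (w : P ⧸ M)}
      mul_mem' := by
        rintro S T ⟨hS, hSw⟩ ⟨hT, hTw⟩
        refine ⟨I.mul_mem hS hT, ?_⟩
        rw [MulAut.mul_apply, ← hfmk ⟨S, hS⟩, hTw, hfmk]; exact hSw
      one_mem' := ⟨I.one_mem, rfl⟩
      inv_mem' := by
        rintro T ⟨hT, hTw⟩
        have h1 : T⁻¹ = T := inv_eq_of_mul_eq_one_left (hI2 T hT)
        rw [h1]; exact ⟨hT, hTw⟩ }
  have hJI : J ≤ I := fun T hT => hT.1
  have hJ4 : 4 ≤ Nat.card J := by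
    by_cases hall : ∀ T ∈ I, T ∈ J
    · have h1 : J = I := le_antisymm hJI hall
      rw [h1, hI8]; norm_num
    · push Not at hall
      obtain ⟨T₀, hT₀, hT₀J⟩ := hall
      have hinv : ∀ T ∈ I, T ∉ J → ((T w : P) : P ⧸ M) = (w : P ⧸ M)⁻¹ := by
        intro T hT hTJ
        rcases hw ⟨T, hT⟩ (Finset.mem_univ _) with h | h
        · rw [hfmk] at h; exact absurd ⟨hT, h⟩ hTJ
        · rw [hfmk] at h; exact h
      have hprod : ∀ T ∈ I, T ∉ J → T₀ * T ∈ J := by
        intro T hT hTJ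
        refine ⟨I.mul_mem hT₀ hT, ?_⟩
        rw [MulAut.mul_apply, ← hfmk ⟨T₀, hT₀⟩, hinv T hT hTJ, map_inv, hfmk,
          hinv T₀ hT₀ hT₀J, inv_inv]
      let φ : ↥I → ↥J × Bool := fun T =>
        if h : T.1 ∈ J then (⟨T.1, h⟩, true) else (⟨T₀ * T.1, hprod T.1 T.2 h⟩, false)
      have hφ : Function.Injective φ := by
        intro S T hST
        by_cases hS : S.1 ∈ J <;> by_cases hT : T.1 ∈ J
        · simp only [φ, dif_pos hS, dif_pos hT, Prod.mk.injEq, Subtype.mk.injEq, and_true] at hST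
          exact Subtype.ext hST
        · simp [φ, dif_pos hS, dif_neg hT] at hST
        · simp [φ, dif_neg hS, dif_pos hT] at hST
        · simp only [φ, dif_neg hS, dif_neg hT, Prod.mk.injEq, Subtype.mk.injEq, and_true] at hST
          exact Subtype.ext (mul_left_cancel hST)
      have hJfin : Finite ↥J := Finite.of_injective (fun T : ↥J => (⟨T.1, hJI T.2⟩ : ↥I))
        (fun a b h => Subtype.ext (by simpa using congrArg Subtype.val h))
      have h5 := Nat.card_le_card_of_injective φ hφ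
      rw [hI8, Nat.card_prod, Nat.card_eq_fintype_card (α := Bool), Fintype.card_bool] at h5
      omega
  let α := {y : P // ((y : P) : P ⧸ M) = (w : P ⧸ M)}
  let _ : MulAction ↥J α :=
    { smul := fun T y => ⟨T.1 y.1, by
        rw [← hfmk ⟨T.1, hJI T.2⟩, y.2, hfmk]; exact T.2.2⟩
      one_smul := fun y => Subtype.ext rfl
      mul_smul := fun S T y => Subtype.ext rfl }
  have hJ2 : IsPGroup 2 ↥J := by
    intro T
    refine ⟨1, ?_⟩
    rw [pow_one, sq]
    exact Subtype.ext (hI2 T.1 (hJI T.2))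
  have hα : ¬ 2 ∣ Nat.card α := by
    have e : ↥M ≃ α :=
      { toFun := fun m => ⟨w * m.1, by
          rw [QuotientGroup.mk_mul, (QuotientGroup.eq_one_iff m.1).mpr m.2, mul_one]⟩
        invFun := fun y => ⟨w⁻¹ * y.1, QuotientGroup.eq.mp y.2.symm⟩
        left_inv := fun m => Subtype.ext (by simp)
        right_inv := fun y => Subtype.ext (by simp) }
    rw [← Nat.card_congr e]
    intro h2
    obtain ⟨n, hn⟩ := IsPGroup.iff_card.mp hP
    have h3 : 2 ∣ p ^ n := hn ▸ (h2.trans (Subgroup.card_subgroup_dvd_card M))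
    have h4 := (Nat.prime_dvd_prime_iff_eq Nat.prime_two hp).mp
      (Nat.Prime.dvd_of_dvd_pow Nat.prime_two h3)
    exact hp2 h4.symm
  obtain ⟨y, hy⟩ := hJ2.nonempty_fixed_point_of_prime_not_dvd_card α hα
  have hycen : y.1 ∈ cen J := by
    intro T hT
    have h1 := hy ⟨T, hT⟩
    exact congrArg Subtype.val h1
  have hyM : y.1 ∈ M := hHM (hH J hJI hJ4 hycen)
  apply hwM
  rw [← QuotientGroup.eq_one_iff, ← y.2, QuotientGroup.eq_one_iff]
  exact hyM

lemma odd_inv [Finite P] {p : ℕ} (hp : p.Prime) (hp2 : p ≠ 2) (hP : IsPGroup p P) {x : P}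
    (h : x = x⁻¹) : x = 1 := by
  have : Fact p.Prime := ⟨hp⟩
  obtain ⟨k, hk⟩ := (IsPGroup.iff_orderOf.mp hP) x
  have h2 : x ^ 2 = 1 := by
    rw [sq]; nth_rewrite 2 [h]; exact mul_inv_cancel x
  have h3 : orderOf x ∣ 2 := orderOf_dvd_of_pow_eq_one h2
  rw [hk] at h3
  rcases Nat.eq_zero_or_pos k with rfl | hk0
  · rw [pow_zero] at hk; exact orderOf_eq_one_iff.mp hk
  · exfalso
    have h4 : p ∣ 2 := (dvd_pow_self p hk0.ne').trans h3
    exact hp2 ((Nat.prime_dvd_prime_iff_eq hp Nat.prime_two).mp h4)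

lemma idx2 {G : Type*} [Group G] (I J : Subgroup G) (hJI : J ≤ I) (hI8 : Nat.card I = 8)
    (hJ4 : Nat.card J = 4) {a b : G} (ha : a ∈ I) (hb : b ∈ I) :
    a * b ∈ J ↔ (a ∈ J ↔ b ∈ J) := by
  have h1 : (J.subgroupOf I).index = 2 := by
    have h2 := Subgroup.card_mul_index (J.subgroupOf I)
    rw [Nat.card_congr (Subgroup.subgroupOfEquivOfLe hJI).toEquiv, hJ4, hI8] at h2
    omega
  have h3 := Subgroup.mul_mem_iff_of_index_two h1 (a := ⟨a, ha⟩) (b := ⟨b, hb⟩)
  simpa [Subgroup.mem_subgroupOf] using h3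

lemma exists_third {G : Type*} [Group G] (J : Subgroup G) (hJ : 3 ≤ Nat.card J) (x y : G) :
    ∃ z ∈ J, z ≠ x ∧ z ≠ y := by
  by_contra hcon
  push Not at hcon
  have hsub : (J : Set G) ⊆ {x, y} := by
    intro z hz
    by_cases hzx : z = x
    · left; exact hzx
    · right; exact hcon z hz hzx
  have h1 : (J : Set G).ncard ≤ ({x, y} : Set G).ncard := Set.ncard_le_ncard hsub (Set.toFinite _)
  have h2 : ({x, y} : Set G).ncard ≤ 2 := by
    have h4 := Set.ncard_insert_le x ({y} : Set G)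
    rw [Set.ncard_singleton] at h4
    exact h4
  have h3 : Nat.card J = (J : Set G).ncard := rfl
  omega

lemma three_le_card {G : Type*} [Group G] (J : Subgroup G) [Finite J] {x y z : G} (hx : x ∈ J)
    (hy : y ∈ J) (hz : z ∈ J) (hxy : x ≠ y) (hxz : x ≠ z) (hyz : y ≠ z) : 3 ≤ Nat.card J := by
  have hsub : ({x, y, z} : Set G) ⊆ (J : Set G) := by
    intro w hw
    simp only [Set.mem_insert_iff, Set.mem_singleton_iff] at hw
    rcases hw with rfl | rfl | rfl
    exacts [hx, hy, hz]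
  have h1 : ({x, y, z} : Set G).ncard = 3 := Set.ncard_eq_three.mpr ⟨x, y, z, hxy, hxz, hyz, rfl⟩
  have h2 := Set.ncard_le_ncard hsub (Set.toFinite _)
  have h3 : Nat.card J = (J : Set G).ncard := rfl
  omega

lemma enum4 {G : Type*} [Group G] (J : Subgroup G) (hJ4 : Nat.card J = 4) {a b : G} (ha : a ∈ J)
    (hb : b ∈ J) (ha1 : a ≠ 1) (hb1 : b ≠ 1) (hab : a ≠ b) (hbb : b * b = 1) {x : G}
    (hx : x ∈ J) : x = 1 ∨ x = a ∨ x = b ∨ x = a * b := by
  by_contra hcon
  push Not at hcon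
  obtain ⟨hx1, hxa, hxb, hxab⟩ := hcon
  have hfin : Finite J := Nat.finite_of_card_ne_zero (by omega)
  have hab1 : a * b ≠ 1 := by
    intro h
    apply hab
    calc a = a * (b * b) := by rw [hbb, mul_one]
      _ = a * b * b := by rw [mul_assoc]
      _ = b := by rw [h, one_mul]
  have haba : a * b ≠ a := fun h => hb1 (by simpa using h)
  have habb : a * b ≠ b := fun h => ha1 (by simpa using h)
  have hsub : ({1, a, b, a * b, x} : Set G) ⊆ (J : Set G) := by
    intro z hz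
    simp only [Set.mem_insert_iff, Set.mem_singleton_iff] at hz
    rcases hz with rfl | rfl | rfl | rfl | rfl
    exacts [J.one_mem, ha, hb, J.mul_mem ha hb, hx]
  have hcard : ({1, a, b, a * b, x} : Set G).ncard = 5 := by
    rw [Set.ncard_insert_of_notMem, Set.ncard_insert_of_notMem, Set.ncard_insert_of_notMem,
      Set.ncard_pair (Ne.symm hxab)]
    · simp only [Set.mem_insert_iff, Set.mem_singleton_iff, not_or]
      exact ⟨Ne.symm habb, Ne.symm hxb⟩
    · simp only [Set.mem_insert_iff, Set.mem_singleton_iff, not_or]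
      exact ⟨hab, Ne.symm haba, Ne.symm hxa⟩
    · simp only [Set.mem_insert_iff, Set.mem_singleton_iff, not_or]
      exact ⟨Ne.symm ha1, Ne.symm hb1, Ne.symm hab1, Ne.symm hx1⟩
  have h2 := Set.ncard_le_ncard hsub (Set.toFinite _)
  have h3 : Nat.card J = (J : Set G).ncard := rfl
  omega

/-- the fixed points of `T` form a cyclic group -/
@[reducible] def Cyc (T : MulAut P) : Prop :=
  ∃ g : P, ∀ x : P, (T x = x ↔ x ∈ Subgroup.zpowers g)

lemma pm [Finite P] {p : ℕ} (hp : p.Prime) (hp2 : p ≠ 2) (hP : IsPGroup p P)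
    (S T : MulAut P) (hST : ∀ x, S (T x) = T (S x)) (hTT : ∀ x, T (T x) = x)
    (g : P) (hg : ∀ x : P, (S x = x ↔ x ∈ Subgroup.zpowers g)) : T g = g ∨ T g = g⁻¹ := by
  have hgS : S g = g := (hg g).mpr (Subgroup.mem_zpowers g)
  have hTg : T g ∈ Subgroup.zpowers g := (hg _).mp (by rw [hST, hgS])
  have hcomm : g * T g = T g * g := by
    obtain ⟨k, hk⟩ := Subgroup.mem_zpowers_iff.mp hTg
    rw [← hk]; exact (Commute.self_zpow g k).eq
  have huz : g * T g ∈ Subgroup.zpowers g := Subgroup.mul_mem _ (Subgroup.mem_zpowers g) hTg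
  have hvz : g * (T g)⁻¹ ∈ Subgroup.zpowers g :=
    Subgroup.mul_mem _ (Subgroup.mem_zpowers g) (Subgroup.inv_mem _ hTg)
  have hTu : T (g * T g) = g * T g := by rw [map_mul, hTT, hcomm]
  have hTv : T (g * (T g)⁻¹) = (g * (T g)⁻¹)⁻¹ := by
    rw [map_mul, map_inv, hTT, mul_inv_rev, inv_inv]
  rcases chain hp hP g _ _ huz hvz with h | h
  · right
    obtain ⟨k, hk⟩ := Subgroup.mem_zpowers_iff.mp h
    have h1 : T (g * T g) = (g * T g)⁻¹ := by rw [← hk, map_zpow, hTv, inv_zpow]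
    have h2 : g * T g = 1 := odd_inv hp hp2 hP (hTu.symm.trans h1)
    exact eq_inv_of_mul_eq_one_right h2
  · left
    obtain ⟨k, hk⟩ := Subgroup.mem_zpowers_iff.mp h
    have h1 : T (g * (T g)⁻¹) = g * (T g)⁻¹ := by rw [← hk, map_zpow, hTu]
    have h2 : g * (T g)⁻¹ = 1 := odd_inv hp hp2 hP (h1.symm.trans hTv)
    exact (mul_inv_eq_one.mp h2).symm

lemma cycD [Finite P] {p : ℕ} (hp : p.Prime) (hp2 : p ≠ 2) (hP : IsPGroup p P)
    (I : Subgroup (MulAut P)) (hIc : ∀ S ∈ I, ∀ T ∈ I, ∀ x : P, S (T x) = T (S x))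
    (hTT : ∀ T ∈ I, ∀ x : P, T (T x) = x) (hI8 : Nat.card I = 8)
    (J : Subgroup (MulAut P)) (hJI : J ≤ I) (hJ4 : Nat.card J = 4) (hJc : cen J ≠ cen I)
    (S : MulAut P) (hSJ : S ∈ J) (g : P) (hg : ∀ x : P, (S x = x ↔ x ∈ Subgroup.zpowers g)) :
    g ≠ 1 ∧ (∀ T ∈ J, T g = g) ∧ (∀ T ∈ I, T ∉ J → T g = g⁻¹) := by
  have hIJ : cen I ≤ cen J := fun x hx T hT => hx T (hJI hT)
  have hex : ∃ x ∈ cen J, x ∉ cen I := by
    by_contra hcon
    push Not at hcon
    exact hJc (le_antisymm hcon hIJ)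
  obtain ⟨x, hxJ, hxI⟩ := hex
  have hxz : x ∈ Subgroup.zpowers g := (hg x).mp (hxJ S hSJ)
  obtain ⟨n, hn⟩ := Subgroup.mem_zpowers_iff.mp hxz
  have hx1 : x ≠ 1 := fun h => hxI (h ▸ (cen I).one_mem)
  have hpm : ∀ T ∈ I, T g = g ∨ T g = g⁻¹ := fun T hT =>
    pm hp hp2 hP S T (hIc S (hJI hSJ) T hT) (hTT T hT) g hg
  have hfix : ∀ T : MulAut P, T g = g → T x = x := fun T h => by rw [← hn, map_zpow, h]
  have hinv : ∀ T : MulAut P, T g = g⁻¹ → T x = x⁻¹ := fun T h => by
    rw [← hn, map_zpow, h, inv_zpow]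
  refine ⟨?_, ?_, ?_⟩
  · rintro rfl; apply hx1; rw [← hn, one_zpow]
  · intro T hT
    rcases hpm T (hJI hT) with h | h
    · exact h
    · exfalso
      exact hx1 (odd_inv hp hp2 hP ((hxJ T hT).symm.trans (hinv T h)))
  · intro T hT hTJ
    rcases hpm T hT with h | h
    · exfalso
      apply hxI
      intro T' hT'
      by_cases hT'J : T' ∈ J
      · exact hxJ T' hT'J
      · have h1 : T * T' ∈ J := (idx2 I J hJI hI8 hJ4 hT hT').mpr (by simp [hTJ, hT'J])
        have h2 := hxJ _ h1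
        rw [MulAut.mul_apply] at h2
        have h3 := congrArg T h2
        rw [hTT T hT, hfix T h] at h3
        exact h3
    · exact h

lemma broad [Finite P] {p : ℕ} (hp : p.Prime) (hP : IsPGroup p P)
    (I : Subgroup (MulAut P)) (hTT : ∀ T ∈ I, ∀ x : P, T (T x) = x) (hI8 : Nat.card I = 8)
    (J J' : Subgroup (MulAut P)) (hJI : J ≤ I) (hJ'I : J' ≤ I) (hJ4 : Nat.card J = 4)
    (hJc : cen J ≠ cen I) (hJ'c : cen J' ≠ cen I)
    (T : MulAut P) (hTJ : T ∈ J) (hTJ' : T ∈ J') (u : MulAut P) (hu : u ∈ J') (huJ : u ∉ J) :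
    ¬ Cyc T := by
  rintro ⟨g, hg⟩
  have hIJ : cen I ≤ cen J := fun x hx T hT => hx T (hJI hT)
  have hIJ' : cen I ≤ cen J' := fun x hx T hT => hx T (hJ'I hT)
  obtain ⟨x, hxJ, hxI⟩ : ∃ x ∈ cen J, x ∉ cen I := by
    by_contra hcon; push Not at hcon; exact hJc (le_antisymm hcon hIJ)
  obtain ⟨x', hx'J, hx'I⟩ : ∃ x ∈ cen J', x ∉ cen I := by
    by_contra hcon; push Not at hcon; exact hJ'c (le_antisymm hcon hIJ')
  have hxz : x ∈ Subgroup.zpowers g := (hg x).mp (hxJ T hTJ)
  have hx'z : x' ∈ Subgroup.zpowers g := (hg x').mp (hx'J T hTJ')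
  have key : ∀ y, y ∈ cen J → y ∈ cen J' → y ∈ cen I := by
    intro y hyJ hyJ' T' hT'
    by_cases hT'J : T' ∈ J
    · exact hyJ T' hT'J
    · have h1 : u * T' ∈ J := (idx2 I J hJI hI8 hJ4 (hJ'I hu) hT').mpr (by simp [huJ, hT'J])
      have h2 := hyJ _ h1
      rw [MulAut.mul_apply] at h2
      have h3 := congrArg u h2
      rw [hTT u (hJ'I hu), hyJ' u hu] at h3
      exact h3
  rcases chain hp hP g x x' hxz hx'z with h | h
  · apply hxI
    apply key x hxJ
    obtain ⟨k, hk⟩ := Subgroup.mem_zpowers_iff.mp h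
    rw [← hk]; exact (cen J').zpow_mem hx'J k
  · apply hx'I
    refine key x' ?_ hx'J
    obtain ⟨k, hk⟩ := Subgroup.mem_zpowers_iff.mp h
    rw [← hk]; exact (cen J).zpow_mem hxJ k

lemma inter {G : Type*} [Group G] (I J J' : Subgroup G) (hI2 : ∀ T ∈ I, T * T = 1)
    (hI8 : Nat.card I = 8) (hJI : J ≤ I) (hJ'I : J' ≤ I) (hJ4 : Nat.card J = 4)
    (hJ'4 : Nat.card J' = 4) {t : G} (ht : t ∈ J) (htJ' : t ∉ J') :
    ∃ u ∈ J, u ∈ J' ∧ u ≠ 1 := by
  obtain ⟨z, hzJ, hz1, hzt⟩ := exists_third J (by omega) 1 t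
  by_cases hz : z ∈ J'
  · exact ⟨z, hzJ, hz, hz1⟩
  · refine ⟨t * z, J.mul_mem ht hzJ,
      (idx2 I J' hJ'I hI8 hJ'4 (hJI ht) (hJI hzJ)).mpr (by simp [htJ', hz]), ?_⟩
    intro h
    apply hzt
    have h1 : t * t = 1 := hI2 t (hJI ht)
    calc z = (t * t) * z := by rw [h1, one_mul]
      _ = t * (t * z) := by rw [mul_assoc]
      _ = t := by rw [h, mul_one]

lemma comm_of [Finite P] (hodd : ∀ x : P, x = x⁻¹ → x = 1) (g g' : P) (t s : MulAut P)
    (ht : t g = g) (ht' : t g' = g') (hs : s g = g⁻¹) (hs' : s g' = g'⁻¹)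
    (hs2 : ∀ x, s (s x) = x) (hfix : ∀ x, s x = x → t x = x⁻¹) : g * g' = g' * g := by
  have hg : g ∈ Subgroup.closure ({g, g'} : Set P) := Subgroup.subset_closure (by simp)
  have hg' : g' ∈ Subgroup.closure ({g, g'} : Set P) := Subgroup.subset_closure (by simp)
  have htH : ∀ x ∈ Subgroup.closure ({g, g'} : Set P), t x = x := by
    intro x hx
    have hle : Subgroup.closure ({g, g'} : Set P) ≤ Lib.Helper31.CoprimeGen.fixSub t := by
      rw [Subgroup.closure_le]
      intro y hy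
      simp only [Set.mem_insert_iff, Set.mem_singleton_iff] at hy
      rcases hy with rfl | rfl
      · exact ht
      · exact ht'
    exact hle hx
  have hsH : ∀ x ∈ Subgroup.closure ({g, g'} : Set P), s x ∈ Subgroup.closure ({g, g'} : Set P) := by
    intro x hx
    have hle : Subgroup.closure ({g, g'} : Set P) ≤
        (Subgroup.closure ({g, g'} : Set P)).comap ((s : P ≃* P) : P →* P) := by
      rw [Subgroup.closure_le]
      intro y hy
      simp only [Set.mem_insert_iff, Set.mem_singleton_iff] at hy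
      rcases hy with h | h
      · rw [h]
        show s g ∈ Subgroup.closure ({g, g'} : Set P)
        rw [hs]; exact Subgroup.inv_mem _ hg
      · rw [h]
        show s g' ∈ Subgroup.closure ({g, g'} : Set P)
        rw [hs']; exact Subgroup.inv_mem _ hg'
    exact hle hx
  let φ : ↥(Subgroup.closure ({g, g'} : Set P)) →* ↥(Subgroup.closure ({g, g'} : Set P)) :=
    MonoidHom.mk' (fun x => ⟨s x.1, hsH x.1 x.2⟩) (fun a b => Subtype.ext (map_mul s a.1 b.1))
  have hφ : ∀ x : ↥(Subgroup.closure ({g, g'} : Set P)), (φ x : P) = s x.1 := fun x => rfl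
  have hfpf : MonoidHom.FixedPointFree φ := by
    intro x hx
    have h1 : s x.1 = x.1 := by rw [← hφ, hx]
    have h2 := hfix x.1 h1
    rw [htH x.1 x.2] at h2
    exact Subtype.ext (hodd x.1 h2)
  have hinv : Function.Involutive φ := fun x => Subtype.ext (by rw [hφ, hφ, hs2])
  have key := hfpf.coe_eq_inv_of_involutive hinv
  have h3 := congrFun key ⟨g * g', Subgroup.mul_mem _ hg hg'⟩
  have h4 : s (g * g') = (g * g')⁻¹ := by
    have h5 := congrArg Subtype.val h3
    rw [hφ] at h5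
    exact h5
  rw [map_mul, hs, hs', mul_inv_rev] at h4
  have h6 := congrArg (fun z => z⁻¹) h4
  simp only [mul_inv_rev, inv_inv] at h6
  exact h6.symm

lemma exists_order_p [Finite P] {p : ℕ} (hp : p.Prime) (hP : IsPGroup p P) {g : P} (hg : g ≠ 1) :
    ∃ k : ℕ, g ^ k ≠ 1 ∧ (g ^ k) ^ p = 1 := by
  have : Fact p.Prime := ⟨hp⟩
  obtain ⟨n, hn⟩ := (IsPGroup.iff_orderOf.mp hP) g
  have hn0 : n ≠ 0 := by
    rintro rfl
    rw [pow_zero] at hn
    exact hg (orderOf_eq_one_iff.mp hn)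
  refine ⟨p ^ (n - 1), ?_, ?_⟩
  · apply pow_ne_one_of_lt_orderOf (pow_ne_zero _ hp.ne_zero)
    rw [hn]
    exact Nat.pow_lt_pow_right hp.one_lt (by omega)
  · rw [← pow_mul, ← pow_succ, Nat.sub_add_cancel (by omega), ← hn, pow_orderOf_eq_one]

lemma card_lt [Finite P] {p : ℕ} (hp : p.Prime) (hP : IsPGroup p P) {A B : Subgroup P}
    (hAB : A < B) : p * Nat.card A ≤ Nat.card B := by
  have : Fact p.Prime := ⟨hp⟩
  obtain ⟨m, hm⟩ := Subgroup.card_dvd_of_le hAB.le
  obtain ⟨j, hj⟩ := IsPGroup.iff_card.mp (hP.to_subgroup B)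
  have hm1 : m ≠ 1 := by
    rintro rfl
    rw [mul_one] at hm
    exact hAB.ne (Subgroup.eq_of_le_of_card_ge hAB.le hm.le)
  have hmd : m ∣ p ^ j := hj ▸ (Dvd.intro_left _ hm.symm)
  obtain ⟨i, -, hi⟩ := (Nat.dvd_prime_pow hp).mp hmd
  have hi0 : i ≠ 0 := by
    rintro rfl
    exact hm1 (by rw [hi, pow_zero])
  have hpm : p ≤ m := by
    rw [hi]
    calc p = p ^ 1 := (pow_one p).symm
      _ ≤ p ^ i := Nat.pow_le_pow_right hp.pos (by omega)
  rw [hm, mul_comm]
  exact Nat.mul_le_mul_left _ hpm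

lemma zpow_split (x : P) (m : ℤ) {p : ℕ} (hp : 0 < p) :
    x ^ m = x ^ (m % p).toNat * (x ^ (m / p)) ^ p := by
  have hp0 : (p : ℤ) ≠ 0 := by exact_mod_cast hp.ne'
  have hm := Int.emod_nonneg m hp0
  have h1 : x ^ (m % p).toNat = x ^ (m % (p : ℤ)) := by
    rw [← zpow_natCast, Int.toNat_of_nonneg hm]
  have h2 : (x ^ (m / p)) ^ p = x ^ ((p : ℤ) * (m / p)) := by
    rw [← zpow_natCast, ← zpow_mul, mul_comm]
  rw [h1, h2, ← zpow_add, Int.emod_add_mul_ediv]

lemma rank_bound [Finite P] {p : ℕ} (hp : p.Prime) (hcomm : ∀ x y : P, x * y = y * x) (x y : P)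
    (hxy : Subgroup.closure ({x, y} : Set P) = ⊤) (S : Set P) (hS : ∀ z ∈ S, z ^ p = 1) :
    Nat.card (Subgroup.closure S) ≤ p ^ 2 := by
  let φ : P →* P := MonoidHom.mk' (fun z => z ^ p)
    (fun a b => (show Commute a b from hcomm a b).mul_pow p)
  have hφ : ∀ z, φ z = z ^ p := fun z => rfl
  have hle : Subgroup.closure S ≤ φ.ker := by
    rw [Subgroup.closure_le]
    intro z hz
    exact hS z hz
  have h1 : Nat.card (Subgroup.closure S) ≤ Nat.card φ.ker := Subgroup.card_le_of_le hle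
  have h2 : Nat.card φ.ker * φ.ker.index = Nat.card P := Subgroup.card_mul_index _
  have h3 : φ.ker.index = Nat.card φ.range := Subgroup.index_ker φ
  have h4 : Nat.card φ.range * φ.range.index = Nat.card P := Subgroup.card_mul_index _
  have h5 : Nat.card φ.ker = φ.range.index := by
    have hpos : 0 < Nat.card φ.range := Nat.card_pos
    rw [h3] at h2
    have h8 : Nat.card φ.range * Nat.card φ.ker = Nat.card φ.range * φ.range.index := by
      rw [h4, mul_comm, h2]
    exact Nat.eq_of_mul_eq_mul_left hpos h8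
  have h6 : φ.range.index ≤ p ^ 2 := by
    have hrep : ∀ z : P, ∃ m n : ℤ, z = x ^ m * y ^ n := by
      intro z
      have hz : z ∈ Subgroup.closure ({x, y} : Set P) := hxy ▸ Subgroup.mem_top z
      induction hz using Subgroup.closure_induction with
      | mem w hw =>
        simp only [Set.mem_insert_iff, Set.mem_singleton_iff] at hw
        rcases hw with rfl | rfl
        · exact ⟨1, 0, by simp⟩
        · exact ⟨0, 1, by simp⟩
      | one => exact ⟨0, 0, by simp⟩
      | mul a b _ _ iha ihb =>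
        obtain ⟨m, n, rfl⟩ := iha
        obtain ⟨m', n', rfl⟩ := ihb
        refine ⟨m + m', n + n', ?_⟩
        rw [zpow_add, zpow_add, mul_assoc, mul_assoc, ← mul_assoc (y ^ n),
          hcomm (y ^ n) (x ^ m'), mul_assoc]
      | inv a _ iha =>
        obtain ⟨m, n, rfl⟩ := iha
        refine ⟨-m, -n, ?_⟩
        rw [mul_inv_rev, zpow_neg, zpow_neg, hcomm]
    let f : Fin p × Fin p → P ⧸ φ.range :=
      fun ij => ((x ^ (ij.1 : ℕ) * y ^ (ij.2 : ℕ) : P) : P ⧸ φ.range)
    have hf : Function.Surjective f := by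
      intro w
      obtain ⟨z, rfl⟩ := QuotientGroup.mk_surjective w
      obtain ⟨m, n, rfl⟩ := hrep z
      have hp0 : (p : ℤ) ≠ 0 := by exact_mod_cast hp.ne_zero
      have hm := Int.emod_nonneg m hp0
      have hn := Int.emod_nonneg n hp0
      have hm' := Int.emod_lt_of_pos m (by exact_mod_cast hp.pos : (0 : ℤ) < p)
      have hn' := Int.emod_lt_of_pos n (by exact_mod_cast hp.pos : (0 : ℤ) < p)
      refine ⟨(⟨(m % p).toNat, by omega⟩, ⟨(n % p).toNat, by omega⟩), ?_⟩
      show ((x ^ (m % p).toNat * y ^ (n % p).toNat : P) : P ⧸ φ.range) = _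
      rw [QuotientGroup.eq]
      refine ⟨x ^ (m / p) * y ^ (n / p), ?_⟩
      rw [hφ, (show Commute (x ^ (m / p)) (y ^ (n / p)) from hcomm _ _).mul_pow]
      conv_rhs => rw [zpow_split x m hp.pos, zpow_split y n hp.pos]
      generalize x ^ (m % (p : ℤ)).toNat = X
      generalize y ^ (n % (p : ℤ)).toNat = Y
      generalize (x ^ (m / (p : ℤ))) ^ p = A
      generalize (y ^ (n / (p : ℤ))) ^ p = B
      have e : X * A * (Y * B) = X * Y * (A * B) := by
        rw [mul_assoc, ← mul_assoc A, hcomm A Y, mul_assoc, ← mul_assoc]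
      rw [e, inv_mul_cancel_left]
    have h7 := Nat.card_le_card_of_surjective f hf
    rw [Nat.card_prod, Nat.card_fin] at h7
    calc φ.range.index = Nat.card (P ⧸ φ.range) := rfl
      _ ≤ p * p := h7
      _ = p ^ 2 := (sq p).symm
  omega

theorem main {P : Type*} [Group P] [Finite P] (p : ℕ) (hp : p.Prime) (hp2 : p ≠ 2)
    (hP : IsPGroup p P)
    (I : Subgroup (MulAut P)) (hI : Cfsg.IsElementaryAbelian 2 I) (hI8 : Nat.card ↥I = 8)
    (I₀ : Subgroup (MulAut P)) (hI₀ : I₀ < I)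
    (hdisj : ∀ T ∈ I₀, T ≠ 1 → Cyc T)
    (hprod : ∀ T ∈ I, ∀ T' ∈ I, T ≠ 1 → T' ≠ 1 → ¬ Cyc T → ¬ Cyc T' → T * T' ∈ I₀) :
    IsMulCommutative P ∧ (∃ a b c : P, Subgroup.closure {a, b, c} = ⊤) ∧
      (¬ ∃ a b : P, Subgroup.closure {a, b} = ⊤) ∧
      Nat.card {T : MulAut P // T ∈ I ∧ T ≠ 1 ∧ ¬ Cyc T} = 3 ∧
      Subgroup.closure {T : MulAut P | T ∈ I ∧ T ≠ 1 ∧ ¬ Cyc T} = I ∧
      (I₀ : Set (MulAut P)) = {S : MulAut P | ∃ T T' : MulAut P, T ∈ I ∧ T' ∈ I ∧ T ≠ 1 ∧
        T' ≠ 1 ∧ ¬ Cyc T ∧ ¬ Cyc T' ∧ S = T * T'} := by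
  classical
  have hIfin : Finite ↥I := Nat.finite_of_card_ne_zero (by rw [hI8]; norm_num)
  have hsubfin : ∀ J : Subgroup (MulAut P), J ≤ I → Finite ↥J := fun J hJI =>
    Finite.of_injective (fun T : ↥J => (⟨T.1, hJI T.2⟩ : ↥I))
      (fun a b h => Subtype.ext (by simpa using congrArg Subtype.val h))
  have hIc : ∀ S ∈ I, ∀ T ∈ I, S * T = T * S := by
    intro S hS T hT
    have h1 := hI.1.is_comm.comm ⟨S, hS⟩ ⟨T, hT⟩
    exact congrArg Subtype.val h1
  have hI2 : ∀ T ∈ I, T * T = 1 := fun T hT => by rw [← sq]; exact hI.2 T hT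
  have hTT : ∀ T ∈ I, ∀ x : P, T (T x) = x := by
    intro T hT x
    have h1 := congrArg (fun φ : MulAut P => φ x) (hI2 T hT)
    simpa using h1
  have hcx : ∀ S ∈ I, ∀ T ∈ I, ∀ x : P, S (T x) = T (S x) := by
    intro S hS T hT x
    have h1 := congrArg (fun φ : MulAut P => φ x) (hIc S hS T hT)
    simpa using h1
  have hodd : ∀ x : P, x = x⁻¹ → x = 1 := fun x h => odd_inv hp hp2 hP h
  have hcard48 : ∀ J : Subgroup (MulAut P), J ≤ I → 4 ≤ Nat.card J → Nat.card J ≠ 4 → J = I := by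
    intro J hJI h4 hne
    have hJfin := hsubfin J hJI
    have hdvd : Nat.card J ∣ 8 := hI8 ▸ Subgroup.card_dvd_of_le hJI
    have hle : Nat.card J ≤ 8 := Nat.le_of_dvd (by norm_num) hdvd
    have h8 : Nat.card J = 8 := by
      obtain ⟨k, hk⟩ := hdvd
      have haux : ∀ n k : ℕ, 8 = n * k → 4 ≤ n → n ≤ 8 → n ≠ 4 → n = 8 := by
        intro n k hk h4 h8 hne
        interval_cases n <;> omega
      exact haux _ k hk h4 hle hne
    exact Subgroup.eq_of_le_of_card_ge hJI (by rw [h8, hI8])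
  -- Step A
  have A1 : ∀ T ∈ I, (∀ J : Subgroup (MulAut P), J ≤ I → Nat.card J = 4 → cen J ≠ cen I → T ∈ J)
      → T = 1 := by
    intro T hT hall
    have h1 : Lib.Helper31.CoprimeGen.fixSub T = ⊤ := by
      apply gen_lemma hp hp2 hP I hIc hI2 hI8
      · intro S hS x hx
        show T (S x) = S x
        rw [← hcx S hS T hT, show T x = x from hx]
      · intro J hJI hJ4 x hx
        show T x = x
        by_cases h4 : Nat.card J = 4
        · by_cases hc : cen J = cen I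
          · rw [hc] at hx; exact hx T hT
          · exact hx T (hall J hJI h4 hc)
        · rw [hcard48 J hJI hJ4 h4] at hx; exact hx T hT
    ext x
    have h2 : x ∈ Lib.Helper31.CoprimeGen.fixSub T := h1 ▸ Subgroup.mem_top x
    exact h2
  obtain ⟨J1, hJ1I, hJ14, hJ1c⟩ : ∃ J : Subgroup (MulAut P), J ≤ I ∧ Nat.card J = 4 ∧
      cen J ≠ cen I := by
    by_contra hcon
    push Not at hcon
    have hall : ∀ T ∈ I, T = 1 := fun T hT =>
      A1 T hT (fun J hJI hJ4 hJc => absurd (hcon J hJI hJ4) hJc)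
    have h1 : I = ⊥ := (Subgroup.eq_bot_iff_forall I).mpr hall
    rw [h1] at hI8
    simp at hI8
  obtain ⟨t, htJ1, ht1, -⟩ := exists_third J1 (by omega) 1 1
  obtain ⟨J2, hJ2I, hJ24, hJ2c, htJ2⟩ : ∃ J : Subgroup (MulAut P), J ≤ I ∧ Nat.card J = 4 ∧
      cen J ≠ cen I ∧ t ∉ J := by
    by_contra hcon
    push Not at hcon
    exact ht1 (A1 t (hJ1I htJ1) hcon)
  obtain ⟨a, haJ1, haJ2, ha1⟩ := inter I J1 J2 hI2 hI8 hJ1I hJ2I hJ14 hJ24 htJ1 htJ2
  have haI : a ∈ I := hJ1I haJ1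
  obtain ⟨J3, hJ3I, hJ34, hJ3c, haJ3⟩ : ∃ J : Subgroup (MulAut P), J ≤ I ∧ Nat.card J = 4 ∧
      cen J ≠ cen I ∧ a ∉ J := by
    by_contra hcon
    push Not at hcon
    exact ha1 (A1 a haI hcon)
  obtain ⟨b, hbJ1, hbJ3, hb1⟩ := inter I J1 J3 hI2 hI8 hJ1I hJ3I hJ14 hJ34 haJ1 haJ3
  obtain ⟨c, hcJ2, hcJ3, hc1⟩ := inter I J2 J3 hI2 hI8 hJ2I hJ3I hJ24 hJ34 haJ2 haJ3
  have hbI : b ∈ I := hJ1I hbJ1
  have hcI : c ∈ I := hJ2I hcJ2
  have hat : a ≠ t := fun h => htJ2 (h ▸ haJ2)
  have h12 : ∀ x, x ∈ J1 → x ∈ J2 → x = 1 ∨ x = a := by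
    intro x hx1 hx2
    rcases enum4 J1 hJ14 haJ1 htJ1 ha1 ht1 hat (hI2 t (hJ1I htJ1)) hx1 with h | h | h | h
    · left; exact h
    · right; exact h
    · exact absurd (h ▸ hx2) htJ2
    · exfalso; apply htJ2
      have h3 : a * t ∈ J2 := h ▸ hx2
      have h4 := J2.mul_mem (J2.inv_mem haJ2) h3
      simpa using h4
  have hbJ2 : b ∉ J2 := by
    intro h
    rcases h12 b hbJ1 h with h' | h'
    · exact hb1 h'
    · exact haJ3 (h' ▸ hbJ3)
  have hcJ1 : c ∉ J1 := by
    intro h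
    rcases h12 c h hcJ2 with h' | h'
    · exact hc1 h'
    · exact haJ3 (h' ▸ hcJ3)
  have hab : a ≠ b := fun h => haJ3 (h ▸ hbJ3)
  have hac : a ≠ c := fun h => haJ3 (h ▸ hcJ3)
  have hbc : b ≠ c := fun h => hbJ2 (h ▸ hcJ2)
  have cac : a * c = c * a := hIc a haI c hcI
  have cbc : b * c = c * b := hIc b hbI c hcI
  have aa : a * a = 1 := hI2 a haI
  have bb : b * b = 1 := hI2 b hbI
  have cc : c * c = 1 := hI2 c hcI
  have eJ1 : ∀ x ∈ J1, x = 1 ∨ x = a ∨ x = b ∨ x = a * b := fun x hx =>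
    enum4 J1 hJ14 haJ1 hbJ1 ha1 hb1 hab bb hx
  have eI : ∀ T ∈ I, T = 1 ∨ T = a ∨ T = b ∨ T = a * b ∨ T = c ∨ T = c * a ∨ T = c * b ∨
      T = c * (a * b) := by
    intro T hT
    by_cases hTJ : T ∈ J1
    · rcases eJ1 T hTJ with h | h | h | h <;> simp [h]
    · have h1 : c * T ∈ J1 := (idx2 I J1 hJ1I hI8 hJ14 hcI hT).mpr (by simp [hcJ1, hTJ])
      have h2 : T = c * (c * T) := by rw [← mul_assoc, cc, one_mul]
      rcases eJ1 _ h1 with h | h | h | h
      · right; right; right; right; left; rw [h2, h, mul_one]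
      · right; right; right; right; right; left; rw [h2, h]
      · right; right; right; right; right; right; left; rw [h2, h]
      · right; right; right; right; right; right; right; rw [h2, h]
  -- Step B
  have hBa : ¬ Cyc a :=
    broad hp hP I hTT hI8 J1 J2 hJ1I hJ2I hJ14 hJ1c hJ2c a haJ1 haJ2 c hcJ2 hcJ1
  have hBb : ¬ Cyc b :=
    broad hp hP I hTT hI8 J1 J3 hJ1I hJ3I hJ14 hJ1c hJ3c b hbJ1 hbJ3 c hcJ3 hcJ1
  have hBc : ¬ Cyc c :=
    broad hp hP I hTT hI8 J2 J3 hJ2I hJ3I hJ24 hJ2c hJ3c c hcJ2 hcJ3 b hbJ3 hbJ2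
  -- Step C
  have hI₀I : I₀ ≤ I := hI₀.le
  have haI₀ : a ∉ I₀ := fun h => hBa (hdisj a h ha1)
  have hbI₀ : b ∉ I₀ := fun h => hBb (hdisj b h hb1)
  have hcI₀ : c ∉ I₀ := fun h => hBc (hdisj c h hc1)
  have habI₀ : a * b ∈ I₀ := hprod a haI b hbI ha1 hb1 hBa hBb
  have hacI₀ : a * c ∈ I₀ := hprod a haI c hcI ha1 hc1 hBa hBc
  have hbcI₀ : b * c ∈ I₀ := hprod b hbI c hcI hb1 hc1 hBb hBc
  have habcI₀ : c * (a * b) ∉ I₀ := by
    intro h
    apply hcI₀
    have h1 := I₀.mul_mem h habI₀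
    have e : c * (a * b) * (a * b) = c := by
      have h2 : (a * b) * (a * b) = 1 := hI2 _ (I.mul_mem haI hbI)
      rw [mul_assoc, h2, mul_one]
    rwa [e] at h1
  have hab1 : a * b ≠ 1 := fun h => haI₀ (by
    have h1 : a = b := by
      calc a = a * (b * b) := by rw [bb, mul_one]
        _ = a * b * b := by rw [mul_assoc]
        _ = b := by rw [h, one_mul]
    exact absurd h1 hab)
  have hac1 : a * c ≠ 1 := fun h => haI₀ (by
    have h1 : a = c := by
      calc a = a * (c * c) := by rw [cc, mul_one]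
        _ = a * c * c := by rw [mul_assoc]
        _ = c := by rw [h, one_mul]
    exact absurd h1 hac)
  have hbc1 : b * c ≠ 1 := fun h => hbI₀ (by
    have h1 : b = c := by
      calc b = b * (c * c) := by rw [cc, mul_one]
        _ = b * c * c := by rw [mul_assoc]
        _ = c := by rw [h, one_mul]
    exact absurd h1 hbc)
  have mI₀ : ∀ T, T ∈ I₀ ↔ T = 1 ∨ T = a * b ∨ T = a * c ∨ T = b * c := by
    intro T
    constructor
    · intro hT
      rcases eI T (hI₀I hT) with h | h | h | h | h | h | h | h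
      · left; exact h
      · exact absurd (h ▸ hT) haI₀
      · exact absurd (h ▸ hT) hbI₀
      · right; left; exact h
      · exact absurd (h ▸ hT) hcI₀
      · right; right; left; rw [h, cac]
      · right; right; right; rw [h, cbc]
      · exact absurd (h ▸ hT) habcI₀
    · rintro (h | h | h | h) <;> rw [h]
      exacts [I₀.one_mem, habI₀, hacI₀, hbcI₀]
  have hI₀4 : Nat.card I₀ = 4 := by
    have hfin := hsubfin I₀ hI₀I
    have h3 : 3 ≤ Nat.card I₀ := three_le_card I₀ I₀.one_mem habI₀ hacI₀ (Ne.symm hab1)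
      (Ne.symm hac1) (fun h => hbc (mul_left_cancel h))
    by_contra hne
    exact hI₀.ne (hcard48 I₀ hI₀I (by
      have hdvd : Nat.card I₀ ∣ 8 := hI8 ▸ Subgroup.card_dvd_of_le hI₀I
      have hle : Nat.card I₀ ≤ 8 := Nat.le_of_dvd (by norm_num) hdvd
      obtain ⟨k, hk⟩ := hdvd
      have haux : ∀ n k : ℕ, 8 = n * k → 3 ≤ n → n ≤ 8 → 4 ≤ n := by
        intro n k hk h3 h8
        interval_cases n <;> omega
      exact haux _ k hk h3 hle) hne)
  -- Step D
  obtain ⟨g1, hg1⟩ := hdisj (a * b) habI₀ hab1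
  obtain ⟨g2, hg2⟩ := hdisj (a * c) hacI₀ hac1
  obtain ⟨g3, hg3⟩ := hdisj (b * c) hbcI₀ hbc1
  obtain ⟨hg11, hg1J, hg1N⟩ := cycD hp hp2 hP I hcx hTT hI8 J1 hJ1I hJ14 hJ1c (a * b)
    (J1.mul_mem haJ1 hbJ1) g1 hg1
  obtain ⟨hg21, hg2J, hg2N⟩ := cycD hp hp2 hP I hcx hTT hI8 J2 hJ2I hJ24 hJ2c (a * c)
    (J2.mul_mem haJ2 hcJ2) g2 hg2
  obtain ⟨hg31, hg3J, hg3N⟩ := cycD hp hp2 hP I hcx hTT hI8 J3 hJ3I hJ34 hJ3c (b * c)
    (J3.mul_mem hbJ3 hcJ3) g3 hg3
  have a1 : a g1 = g1 := hg1J a haJ1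
  have b1 : b g1 = g1 := hg1J b hbJ1
  have c1 : c g1 = g1⁻¹ := hg1N c hcI hcJ1
  have a2 : a g2 = g2 := hg2J a haJ2
  have b2 : b g2 = g2⁻¹ := hg2N b hbI hbJ2
  have c2 : c g2 = g2 := hg2J c hcJ2
  have a3 : a g3 = g3⁻¹ := hg3N a haI haJ3
  have b3 : b g3 = g3 := hg3J b hbJ3
  have c3 : c g3 = g3 := hg3J c hcJ3
  have m1 : g1 ∈ Subgroup.closure ({g1, g2, g3} : Set P) := Subgroup.subset_closure (by simp)
  have m2 : g2 ∈ Subgroup.closure ({g1, g2, g3} : Set P) := Subgroup.subset_closure (by simp)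
  have m3 : g3 ∈ Subgroup.closure ({g1, g2, g3} : Set P) := Subgroup.subset_closure (by simp)
  -- Step E
  have hgen : Subgroup.closure ({g1, g2, g3} : Set P) = ⊤ := by
    apply gen_lemma hp hp2 hP I hIc hI2 hI8
    · intro T hT x hx
      have hle : Subgroup.closure ({g1, g2, g3} : Set P) ≤
          (Subgroup.closure ({g1, g2, g3} : Set P)).comap ((T : P ≃* P) : P →* P) := by
        rw [Subgroup.closure_le]
        intro y hy
        simp only [Set.mem_insert_iff, Set.mem_singleton_iff] at hy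
        rcases hy with h | h | h
        · rw [h]
          show T g1 ∈ Subgroup.closure ({g1, g2, g3} : Set P)
          by_cases hTJ : T ∈ J1
          · rw [hg1J T hTJ]; exact m1
          · rw [hg1N T hT hTJ]; exact Subgroup.inv_mem _ m1
        · rw [h]
          show T g2 ∈ Subgroup.closure ({g1, g2, g3} : Set P)
          by_cases hTJ : T ∈ J2
          · rw [hg2J T hTJ]; exact m2
          · rw [hg2N T hT hTJ]; exact Subgroup.inv_mem _ m2
        · rw [h]
          show T g3 ∈ Subgroup.closure ({g1, g2, g3} : Set P)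
          by_cases hTJ : T ∈ J3
          · rw [hg3J T hTJ]; exact m3
          · rw [hg3N T hT hTJ]; exact Subgroup.inv_mem _ m3
      exact hle hx
    · intro J hJI hJ4 x hx
      obtain ⟨y, hyJ, hy1, -⟩ := exists_third J (by omega) 1 1
      obtain ⟨z, hzJ, hz1, hzy⟩ := exists_third J (by omega) 1 y
      have hS : ∃ S ∈ J, S ∈ I₀ ∧ S ≠ 1 := by
        by_cases hy0 : y ∈ I₀
        · exact ⟨y, hyJ, hy0, hy1⟩
        · by_cases hz0 : z ∈ I₀
          · exact ⟨z, hzJ, hz0, hz1⟩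
          · refine ⟨y * z, J.mul_mem hyJ hzJ,
              (idx2 I I₀ hI₀I hI8 hI₀4 (hJI hyJ) (hJI hzJ)).mpr (by simp [hy0, hz0]), ?_⟩
            intro h
            apply hzy
            have h1 : y * y = 1 := hI2 y (hJI hyJ)
            calc z = (y * y) * z := by rw [h1, one_mul]
              _ = y * (y * z) := by rw [mul_assoc]
              _ = y := by rw [h, mul_one]
      obtain ⟨S, hSJ, hS0, hS1⟩ := hS
      have hSx : S x = x := hx S hSJ
      rcases (mI₀ S).mp hS0 with h | h | h | h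
      · exact absurd h hS1
      · rw [h] at hSx
        exact (Subgroup.zpowers_le.mpr m1) ((hg1 x).mp hSx)
      · rw [h] at hSx
        exact (Subgroup.zpowers_le.mpr m2) ((hg2 x).mp hSx)
      · rw [h] at hSx
        exact (Subgroup.zpowers_le.mpr m3) ((hg3 x).mp hSx)
  -- Step F
  have hfix1 : ∀ x : P, (a * b) x = x → c x = x⁻¹ := by
    intro x hx
    obtain ⟨k, hk⟩ := Subgroup.mem_zpowers_iff.mp ((hg1 x).mp hx)
    rw [← hk, map_zpow, c1, inv_zpow]
  have hfix2 : ∀ x : P, (a * c) x = x → b x = x⁻¹ := by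
    intro x hx
    obtain ⟨k, hk⟩ := Subgroup.mem_zpowers_iff.mp ((hg2 x).mp hx)
    rw [← hk, map_zpow, b2, inv_zpow]
  have hfix3 : ∀ x : P, (b * c) x = x → a x = x⁻¹ := by
    intro x hx
    obtain ⟨k, hk⟩ := Subgroup.mem_zpowers_iff.mp ((hg3 x).mp hx)
    rw [← hk, map_zpow, a3, inv_zpow]
  have g12 : g1 * g2 = g2 * g1 := comm_of hodd g1 g2 a (b * c) a1 a2
    (by rw [MulAut.mul_apply, c1, map_inv, b1]) (by rw [MulAut.mul_apply, c2, b2])
    (fun x => hTT _ (I.mul_mem hbI hcI) x) hfix3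
  have g13 : g1 * g3 = g3 * g1 := comm_of hodd g1 g3 b (a * c) b1 b3
    (by rw [MulAut.mul_apply, c1, map_inv, a1]) (by rw [MulAut.mul_apply, c3, a3])
    (fun x => hTT _ (I.mul_mem haI hcI) x) hfix2
  have g23 : g2 * g3 = g3 * g2 := comm_of hodd g2 g3 c (a * b) c2 c3
    (by rw [MulAut.mul_apply, b2, map_inv, a2]) (by rw [MulAut.mul_apply, b3, a3])
    (fun x => hTT _ (I.mul_mem haI hbI) x) hfix1
  have hcomm : ∀ x y : P, x * y = y * x := by
    have hcen : ∀ g ∈ ({g1, g2, g3} : Set P), g ∈ Subgroup.center P := by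
      intro g hg
      rw [Subgroup.mem_center_iff]
      intro y
      have hle : Subgroup.closure ({g1, g2, g3} : Set P) ≤ Subgroup.centralizer {g} := by
        rw [Subgroup.closure_le]
        intro z hz
        rw [SetLike.mem_coe, Subgroup.mem_centralizer_iff]
        intro w hw
        rw [Set.mem_singleton_iff] at hw
        subst hw
        simp only [Set.mem_insert_iff, Set.mem_singleton_iff] at hg hz
        rcases hg with rfl | rfl | rfl <;> rcases hz with rfl | rfl | rfl <;>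
          first | rfl | assumption | (symm; assumption)
      have hy : y ∈ Subgroup.centralizer {g} := hle (hgen ▸ Subgroup.mem_top y)
      exact (Subgroup.mem_centralizer_iff.mp hy g rfl).symm
    have htop : Subgroup.center P = ⊤ := by
      rw [eq_top_iff, ← hgen, Subgroup.closure_le]; exact hcen
    intro x y
    have hx : x ∈ Subgroup.center P := htop ▸ Subgroup.mem_top x
    exact ((Subgroup.mem_center_iff.mp hx) y).symm
  -- Step G
  have hrank : ¬ ∃ x y : P, Subgroup.closure ({x, y} : Set P) = ⊤ := by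
    rintro ⟨x, y, hxy⟩
    obtain ⟨k1, hz11, hz1p⟩ := exists_order_p hp hP hg11
    obtain ⟨k2, hz21, hz2p⟩ := exists_order_p hp hP hg21
    obtain ⟨k3, hz31, hz3p⟩ := exists_order_p hp hP hg31
    have hbz1 : b (g1 ^ k1) = g1 ^ k1 := by rw [map_pow, b1]
    have hbz2 : b (g2 ^ k2) = (g2 ^ k2)⁻¹ := by rw [map_pow, b2, inv_pow]
    have haz1 : a (g1 ^ k1) = g1 ^ k1 := by rw [map_pow, a1]
    have haz2 : a (g2 ^ k2) = g2 ^ k2 := by rw [map_pow, a2]
    have haz3 : a (g3 ^ k3) = (g3 ^ k3)⁻¹ := by rw [map_pow, a3, inv_pow]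
    have hA01 : (⊥ : Subgroup P) < Subgroup.zpowers (g1 ^ k1) := by
      rw [bot_lt_iff_ne_bot]
      intro h
      exact hz11 ((Subgroup.zpowers_eq_bot).mp h)
    have hA12 : Subgroup.zpowers (g1 ^ k1) < Subgroup.closure ({g1 ^ k1, g2 ^ k2} : Set P) := by
      refine lt_of_le_of_ne (Subgroup.zpowers_le.mpr (Subgroup.subset_closure (by simp))) ?_
      intro h
      have h1 : g2 ^ k2 ∈ Subgroup.zpowers (g1 ^ k1) := by
        rw [h]; exact Subgroup.subset_closure (by simp)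
      obtain ⟨k, hk⟩ := Subgroup.mem_zpowers_iff.mp h1
      have h2 : b (g2 ^ k2) = g2 ^ k2 := by rw [← hk, map_zpow, hbz1]
      exact hz21 (hodd _ (h2.symm.trans hbz2))
    have hA23 : Subgroup.closure ({g1 ^ k1, g2 ^ k2} : Set P) <
        Subgroup.closure ({g1 ^ k1, g2 ^ k2, g3 ^ k3} : Set P) := by
      refine lt_of_le_of_ne (Subgroup.closure_mono (by
        intro w hw
        simp only [Set.mem_insert_iff, Set.mem_singleton_iff] at hw ⊢
        tauto)) ?_
      intro h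
      have h1 : g3 ^ k3 ∈ Subgroup.closure ({g1 ^ k1, g2 ^ k2} : Set P) := by
        rw [h]; exact Subgroup.subset_closure (by simp)
      have hle : Subgroup.closure ({g1 ^ k1, g2 ^ k2} : Set P) ≤
          Lib.Helper31.CoprimeGen.fixSub a := by
        rw [Subgroup.closure_le]
        intro w hw
        simp only [Set.mem_insert_iff, Set.mem_singleton_iff] at hw
        rcases hw with h | h
        · rw [h]; exact haz1
        · rw [h]; exact haz2
      have h2 : a (g3 ^ k3) = g3 ^ k3 := hle h1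
      exact hz31 (hodd _ (h2.symm.trans haz3))
    have c1' := card_lt hp hP hA01
    have c2' := card_lt hp hP hA12
    have c3' := card_lt hp hP hA23
    have c4' := rank_bound hp hcomm x y hxy ({g1 ^ k1, g2 ^ k2, g3 ^ k3} : Set P) (by
      intro w hw
      simp only [Set.mem_insert_iff, Set.mem_singleton_iff] at hw
      rcases hw with h | h | h <;> rw [h]
      exacts [hz1p, hz2p, hz3p])
    rw [Subgroup.card_bot, mul_one] at c1'
    have hp2' : 2 ≤ p := hp.two_le
    have h5 : p * (p * p) ≤ p ^ 2 :=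
      le_trans (le_trans (Nat.mul_le_mul_left p (le_trans (Nat.mul_le_mul_left p c1') c2')) c3') c4'
    nlinarith [h5]
  -- Step H
  have hinvT : ∀ x : P, (c * (a * b)) x = x⁻¹ := by
    intro x
    have hx : x ∈ Subgroup.closure ({g1, g2, g3} : Set P) := hgen ▸ Subgroup.mem_top x
    induction hx using Subgroup.closure_induction with
    | mem w hw =>
      simp only [Set.mem_insert_iff, Set.mem_singleton_iff] at hw
      rcases hw with h | h | h
      · rw [h, MulAut.mul_apply, MulAut.mul_apply, b1, a1, c1]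
      · rw [h, MulAut.mul_apply, MulAut.mul_apply, b2, map_inv, a2, map_inv, c2]
      · rw [h, MulAut.mul_apply, MulAut.mul_apply, b3, a3, map_inv, c3]
    | one => rw [map_one, inv_one]
    | mul u v _ _ ihu ihv => rw [map_mul, ihu, ihv, mul_inv_rev, hcomm]
    | inv u _ ihu => rw [map_inv, ihu]
  have hCabc : Cyc (c * (a * b)) := by
    refine ⟨1, fun x => ⟨fun h => ?_, fun h => ?_⟩⟩
    · rw [hinvT] at h
      rw [hodd x h.symm]; exact Subgroup.one_mem _
    · rw [Subgroup.zpowers_one_eq_bot, Subgroup.mem_bot] at h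
      rw [h, map_one]
  have hB : ∀ T : MulAut P, (T ∈ I ∧ T ≠ 1 ∧ ¬ Cyc T) ↔ (T = a ∨ T = b ∨ T = c) := by
    intro T
    constructor
    · rintro ⟨hT, hT1, hTC⟩
      rcases eI T hT with h | h | h | h | h | h | h | h
      · exact absurd h hT1
      · left; exact h
      · right; left; exact h
      · exact absurd (h ▸ hdisj _ habI₀ hab1) hTC
      · right; right; exact h
      · exact absurd (h ▸ cac ▸ hdisj _ hacI₀ hac1) hTC
      · exact absurd (h ▸ cbc ▸ hdisj _ hbcI₀ hbc1) hTC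
      · exact absurd (h ▸ hCabc) hTC
    · rintro (h | h | h) <;> rw [h]
      exacts [⟨haI, ha1, hBa⟩, ⟨hbI, hb1, hBb⟩, ⟨hcI, hc1, hBc⟩]
  refine ⟨⟨⟨hcomm⟩⟩, ⟨g1, g2, g3, hgen⟩, hrank, ?_, ?_, ?_⟩
  · have h1 : Nat.card {T : MulAut P // T ∈ I ∧ T ≠ 1 ∧ ¬ Cyc T} =
        Nat.card (({a, b, c} : Set (MulAut P)) : Type _) :=
      Nat.card_congr (Equiv.subtypeEquivRight (fun T => by
        rw [hB]; simp))
    rw [h1]
    exact Set.ncard_eq_three.mpr ⟨a, b, c, hab, hac, hbc, rfl⟩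
  · apply le_antisymm
    · rw [Subgroup.closure_le]
      intro T hT
      exact hT.1
    · intro T hT
      have ma : a ∈ Subgroup.closure {T : MulAut P | T ∈ I ∧ T ≠ 1 ∧ ¬ Cyc T} :=
        Subgroup.subset_closure ⟨haI, ha1, hBa⟩
      have mb : b ∈ Subgroup.closure {T : MulAut P | T ∈ I ∧ T ≠ 1 ∧ ¬ Cyc T} :=
        Subgroup.subset_closure ⟨hbI, hb1, hBb⟩
      have mc : c ∈ Subgroup.closure {T : MulAut P | T ∈ I ∧ T ≠ 1 ∧ ¬ Cyc T} :=
        Subgroup.subset_closure ⟨hcI, hc1, hBc⟩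
      rcases eI T hT with h | h | h | h | h | h | h | h <;> rw [h]
      · exact Subgroup.one_mem _
      · exact ma
      · exact mb
      · exact Subgroup.mul_mem _ ma mb
      · exact mc
      · exact Subgroup.mul_mem _ mc ma
      · exact Subgroup.mul_mem _ mc mb
      · exact Subgroup.mul_mem _ mc (Subgroup.mul_mem _ ma mb)
  · ext S
    constructor
    · intro hS
      rcases (mI₀ S).mp hS with h | h | h | h
      · exact ⟨a, a, haI, haI, ha1, ha1, hBa, hBa, by rw [h, aa]⟩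
      · exact ⟨a, b, haI, hbI, ha1, hb1, hBa, hBb, h⟩
      · exact ⟨a, c, haI, hcI, ha1, hc1, hBa, hBc, h⟩
      · exact ⟨b, c, hbI, hcI, hb1, hc1, hBb, hBc, h⟩
    · rintro ⟨T, T', hT, hT', hT1, hT'1, hTC, hT'C, rfl⟩
      exact hprod T hT T' hT' hT1 hT'1 hTC hT'C

/-- Let p be an odd prime, P a finite p-group and I an elementary abelian subgroup of order 8 of Aut(P). Call T ∈ I, T ≠ 1, broad when its fixed-point subgroup C_P(T) is not cyclic. Suppose I has a proper subgroup I₀ containing no broad element such that the product of any two broad elements lies in I₀. Then P is abelian of rank exactly 3 (generated by three elements but not by two), there are exactly three broad elements and they generate I, and I₀ is exactly the set of products of two broad elements. -/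
theorem result
    {P : Type*} [Group P] [Finite P] (p : ℕ) (hp : p.Prime) (hp2 : p ≠ 2) (hP : IsPGroup p P)
    (I : Subgroup (MulAut P)) (hI : Cfsg.IsElementaryAbelian 2 I) (hI8 : Nat.card ↥I = 8)
    (I₀ : Subgroup (MulAut P)) (hI₀ : I₀ < I)
    (hdisj : ∀ T ∈ I₀, T ≠ 1 → ∃ g : P, ∀ x : P, (T x = x ↔ x ∈ Subgroup.zpowers g))
    (hprod : ∀ T ∈ I, ∀ T' ∈ I, T ≠ 1 → T' ≠ 1 → (¬ ∃ g : P, ∀ x : P, (T x = x ↔ x ∈ Subgroup.zpowers g)) →
      (¬ ∃ g : P, ∀ x : P, (T' x = x ↔ x ∈ Subgroup.zpowers g)) → T * T' ∈ I₀) :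
    IsMulCommutative P ∧ (∃ a b c : P, Subgroup.closure {a, b, c} = ⊤) ∧ (¬ ∃ a b : P, Subgroup.closure {a, b} = ⊤) ∧
      Nat.card {T : MulAut P // T ∈ I ∧ T ≠ 1 ∧ ¬ ∃ g : P, ∀ x : P, (T x = x ↔ x ∈ Subgroup.zpowers g)} = 3 ∧
      Subgroup.closure {T : MulAut P | T ∈ I ∧ T ≠ 1 ∧ ¬ ∃ g : P, ∀ x : P, (T x = x ↔ x ∈ Subgroup.zpowers g)} = I ∧
      (I₀ : Set (MulAut P)) = {S : MulAut P | ∃ T T' : MulAut P, T ∈ I ∧ T' ∈ I ∧ T ≠ 1 ∧ T' ≠ 1 ∧
        (¬ ∃ g : P, ∀ x : P, (T x = x ↔ x ∈ Subgroup.zpowers g)) ∧ (¬ ∃ g : P, ∀ x : P, (T' x = x ↔ x ∈ Subgroup.zpowers g)) ∧ S = T * T'} := by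
  exact main p hp hp2 hP I hI hI8 I₀ hI₀ hdisj hprod

end Cfsg.Agent.S4412
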