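import Cfsg.Statements.S4413
import Cfsg.Agent.Lib.Helper30.XSAut

set_option autoImplicit false
open Cfsg

namespace Cfsg.Agent.S4413

open Cfsg.Agent.Lib.Helper93.LargeExtra2 Cfsg.Agent.Lib.Helper30.XSCount
  Cfsg.Agent.Lib.Helper30.XSIso Cfsg.Agent.Lib.Helper30.XSModel Cfsg.Agent.Lib.Helper30.XSExt
  Cfsg.Agent.Lib.Helper30.XSAut

/-- Four coordinates `(x1, y1, x2, y2)` over the field with two elements. -/
abbrev V4 : Type := ZMod 2 × ZMod 2 × ZMod 2 × ZMod 2

/-- The cocycle of minus type. -/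
def b4 (u v : V4) : ZMod 2 := u.2.1 * v.1 + u.2.2.2 * v.2.2.1 + u.1 * v.1 + u.2.1 * v.2.1

theorem b4_nondeg : ∀ v : V4, v ≠ 0 → ∃ w, b4 v w + b4 w v = 1 := by decide

theorem v4_two : ∀ v : V4, v + v = 0 := by decide

def B4 : Coc V4 where
  β := b4
  add_left u v w := by simp only [b4, Prod.fst_add, Prod.snd_add]; ring
  add_right u v w := by simp only [b4, Prod.fst_add, Prod.snd_add]; ring
  two := v4_two
  nondeg := b4_nondeg

/-- The model of `D₈ ∗ Q₈`. -/
abbrev M4 : Type := Ext B4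

/-- The five singular vectors. -/
def sg : Fin 5 → V4 := ![(0, 0, 1, 0), (0, 0, 0, 1), (1, 0, 1, 1), (0, 1, 1, 1), (1, 1, 1, 1)]

/-- The index of a singular vector. -/
def idx (v : V4) : Fin 5 :=
  if v = (0, 0, 1, 0) then 0 else if v = (0, 0, 0, 1) then 1 else if v = (1, 0, 1, 1) then 2
  else if v = (0, 1, 1, 1) then 3 else 4

theorem idx_sg : ∀ i : Fin 5, idx (sg i) = i := by decide
theorem sg_idx : ∀ v : V4, b4 v v = 0 → v ≠ 0 → sg (idx v) = v := by decide
theorem sg_sing : ∀ i : Fin 5, b4 (sg i) (sg i) = 0 := by decide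
theorem sg_ne : ∀ i : Fin 5, sg i ≠ 0 := by decide

set_option maxRecDepth 100000 in
set_option synthInstance.maxSize 2000 in
set_option synthInstance.maxHeartbeats 200000 in
theorem span4 : ∀ v : V4, ∃ s1 s2 : V4, (s1 = 0 ∨ ∃ i, s1 = sg i) ∧ (s2 = 0 ∨ ∃ j, s2 = sg j) ∧
    v = s1 + s2 := by decide

set_option maxRecDepth 100000 in
set_option synthInstance.maxSize 2000 in
set_option synthInstance.maxHeartbeats 200000 in
theorem lin4 : ∀ t : V4, ∃ w : V4, ∀ v : V4, b4 w v + b4 v w =
    v.1 * t.1 + v.2.1 * t.2.1 + v.2.2.1 * t.2.2.1 + v.2.2.2 * t.2.2.2 := by decide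

theorem chi_sum_b4 : ∑ v : V4, Mdl.chi (b4 v v) = -4 := by decide

theorem abar_sg (α : MulAut M4) (i : Fin 5) : sg (idx (abar α (sg i))) = abar α (sg i) :=
  sg_idx _ ((abar_sing α _).mpr (sg_sing i)) (abar_ne_zero α (sg_ne i))

/-- The permutation of the five singular vectors induced by an automorphism. -/
def permOf (α : MulAut M4) : Equiv.Perm (Fin 5) where
  toFun i := idx (abar α (sg i))
  invFun i := idx (abar α⁻¹ (sg i))
  left_inv i := by
    show idx (abar α⁻¹ (sg (idx (abar α (sg i))))) = i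
    rw [abar_sg, abar_inv_cancel, idx_sg]
  right_inv i := by
    show idx (abar α (sg (idx (abar α⁻¹ (sg i))))) = i
    rw [abar_sg, abar_cancel_inv, idx_sg]

theorem permOf_apply (α : MulAut M4) (i : Fin 5) : permOf α i = idx (abar α (sg i)) := rfl

/-- The action on the singular vectors as a homomorphism. -/
def Psi : MulAut M4 →* Equiv.Perm (Fin 5) := MonoidHom.mk' permOf (by
  intro α β
  apply Equiv.ext
  intro i
  rw [Equiv.Perm.mul_apply, permOf_apply, permOf_apply, permOf_apply, abar_mul, abar_sg])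

theorem Psi_apply (α : MulAut M4) (i : Fin 5) : Psi α i = idx (abar α (sg i)) := rfl

theorem psi_conj (a : M4) : Psi (MulAut.conj a) = 1 := by
  apply Equiv.ext
  intro i
  rw [Psi_apply, abar_conj, idx_sg]
  rfl

theorem lfun_expand (α : MulAut M4) (h : ∀ v, abar α v = v) (v : V4) :
    lfun α v = v.1 * lfun α (1, 0, 0, 0) + v.2.1 * lfun α (0, 1, 0, 0) +
      v.2.2.1 * lfun α (0, 0, 1, 0) + v.2.2.2 * lfun α (0, 0, 0, 1) := by
  obtain ⟨a, b, c, d⟩ := v
  show lfun α (a, b, c, d) = a * lfun α (1, 0, 0, 0) + b * lfun α (0, 1, 0, 0) +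
      c * lfun α (0, 0, 1, 0) + d * lfun α (0, 0, 0, 1)
  have hdec : ((a, b, c, d) : V4) = (a, 0, 0, 0) + (0, b, 0, 0) + (0, 0, c, 0) + (0, 0, 0, d) := by
    simp
  rw [hdec, lfun_add α h, lfun_add α h, lfun_add α h]
  have k : ∀ (t : ZMod 2) (e : V4) (f : ZMod 2 → V4), f 0 = 0 → f 1 = e →
      lfun α (f t) = t * lfun α e := by
    intro t e f h0 h1
    rcases Mdl.zmod_two_cases t with rfl | rfl
    · rw [h0, lfun_zero, zero_mul]
    · rw [h1, one_mul]
  rw [k a (1, 0, 0, 0) (fun t => (t, 0, 0, 0)) rfl rfl, k b (0, 1, 0, 0) (fun t => (0, t, 0, 0)) rfl rfl,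
    k c (0, 0, 1, 0) (fun t => (0, 0, t, 0)) rfl rfl, k d (0, 0, 0, 1) (fun t => (0, 0, 0, t)) rfl rfl]

theorem psi_ker (α : MulAut M4) (h : Psi α = 1) : ∃ a : M4, MulAut.conj a = α := by
  have hfix : ∀ i, abar α (sg i) = sg i := by
    intro i
    have h1 : idx (abar α (sg i)) = i := by
      have h2 := congrArg (fun π : Equiv.Perm (Fin 5) => π i) h
      exact h2
    have h2 := abar_sg α i
    rw [h1] at h2
    exact h2.symm
  have hid : ∀ v, abar α v = v := by
    intro v
    obtain ⟨s1, s2, h1, h2, rfl⟩ := span4 v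
    have f : ∀ s : V4, (s = 0 ∨ ∃ i, s = sg i) → abar α s = s := by
      rintro s (rfl | ⟨i, rfl⟩)
      · exact abar_zero α
      · exact hfix i
    rw [abar_add, f s1 h1, f s2 h2]
  obtain ⟨w, hw⟩ := lin4 (lfun α (1, 0, 0, 0), lfun α (0, 1, 0, 0), lfun α (0, 0, 1, 0),
    lfun α (0, 0, 0, 1))
  refine ⟨⟨0, w⟩, (eq_conj_of α hid w ?_).symm⟩
  intro v
  rw [lfun_expand α hid v]
  exact hw v

/-! ### Lifts of four transvections -/

def g0 : V4 → V4 := fun ⟨x1, y1, x2, y2⟩ => (x1, y1, y2, x2)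
def l0 : V4 → ZMod 2 := fun ⟨_, _, x2, y2⟩ => x2 * y2
def g1 : V4 → V4 := fun ⟨x1, y1, x2, y2⟩ => (x1 + y1 + y2, y1, y1 + x2 + y2, y2)
def l1 : V4 → ZMod 2 := fun ⟨x1, y1, _, y2⟩ => x1 * y1 + x1 * y2 + x1
def g2 : V4 → V4 := fun ⟨x1, y1, x2, y2⟩ => (y1, x1, x2, y2)
def l2 : V4 → ZMod 2 := fun ⟨x1, y1, _, _⟩ => x1 * y1
def g3 : V4 → V4 := fun ⟨x1, y1, x2, y2⟩ => (x1 + y1, y1, x2, y2)
def l3 : V4 → ZMod 2 := fun ⟨x1, y1, _, _⟩ => x1 * y1 + x1

set_option maxRecDepth 100000 in
set_option synthInstance.maxSize 2000 in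
set_option synthInstance.maxHeartbeats 200000 in
theorem exists_aut_swap : ∀ i : Fin 4, ∃ α : MulAut M4, Psi α = Equiv.swap i.castSucc i.succ := by
  intro i
  fin_cases i
  · refine ⟨autOf B4 g0 l0 (by decide) (by decide) (by decide) (by decide), ?_⟩
    apply Equiv.ext
    intro j
    show idx (g0 (sg j)) = Equiv.swap (Fin.castSucc (0 : Fin 4)) (Fin.succ 0) j
    revert j; decide
  · refine ⟨autOf B4 g1 l1 (by decide) (by decide) (by decide) (by decide), ?_⟩
    apply Equiv.ext
    intro j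
    show idx (g1 (sg j)) = Equiv.swap (Fin.castSucc (1 : Fin 4)) (Fin.succ 1) j
    revert j; decide
  · refine ⟨autOf B4 g2 l2 (by decide) (by decide) (by decide) (by decide), ?_⟩
    apply Equiv.ext
    intro j
    show idx (g2 (sg j)) = Equiv.swap (Fin.castSucc (2 : Fin 4)) (Fin.succ 2) j
    revert j; decide
  · refine ⟨autOf B4 g3 l3 (by decide) (by decide) (by decide) (by decide), ?_⟩
    apply Equiv.ext
    intro j
    show idx (g3 (sg j)) = Equiv.swap (Fin.castSucc (3 : Fin 4)) (Fin.succ 3) j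
    revert j; decide

theorem psi_surj : Function.Surjective Psi := by
  intro π
  have hπ : π ∈ Submonoid.closure (Set.range fun i : Fin 4 => Equiv.swap i.castSucc i.succ) := by
    rw [Equiv.Perm.mclosure_swap_castSucc_succ]
    exact Submonoid.mem_top π
  have hle : Submonoid.closure (Set.range fun i : Fin 4 => Equiv.swap i.castSucc i.succ) ≤
      MonoidHom.mrange Psi := by
    rw [Submonoid.closure_le]
    rintro _ ⟨i, rfl⟩
    obtain ⟨α, hα⟩ := exists_aut_swap i
    exact ⟨α, hα⟩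
  exact hle hπ

/-- Let P be an extraspecial 2-group of order 32 with no elementary abelian subgroup of order 8 (the central product of a dihedral and a quaternion group of order 8). Then the inner automorphism group of P has order 16 and the outer automorphism group Aut(P)/Inn(P) is isomorphic to the symmetric group of degree 5; in particular Aut(P) has order 1920. -/
theorem result {P : Type*} [Group P] [Finite P]
    (hex : Cfsg.IsExtraspecial 2 P) (h32 : Nat.card P = 32)
    (hminus : ∀ A : Subgroup P, Cfsg.IsElementaryAbelian 2 A → Nat.card ↥A ≤ 4)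
    [(MulAut.conj : P →* MulAut P).range.Normal] :
    Nat.card ↥(MulAut.conj : P →* MulAut P).range = 16 ∧ Nat.card (MulAut P) = 1920 ∧
      Nonempty ((MulAut P ⧸ (MulAut.conj : P →* MulAut P).range) ≃* Equiv.Perm (Fin 5)) := by
  have hcen : Nat.card (Subgroup.center P) = 2 := hex.2
  have hinn : Nat.card (MulAut.conj : P →* MulAut P).range = 16 := by
    have h1 := card_inn_mul (G := P)
    rw [hcen, h32] at h1
    omega
  have hM : Cfsg.IsExtraspecial 2 M4 := Ext.extraspecial
  have hMcard : Nat.card M4 = 32 := by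
    rw [Ext.card]
    simp [Nat.card_prod]
  have hMS : Ssum M4 = -8 := by
    rw [Ext.ssum_eq]
    have h4 : ∑ v : V4, Mdl.chi (B4.β v v) = -4 := chi_sum_b4
    rw [h4]
    norm_num
  have hPS : Ssum P = -8 := by
    obtain ⟨z, m', hz, -, hc', hS, -, hpl⟩ := struct hex
    have hm' : m' = 2 := by
      have h : 2 ^ (2 * m' + 1) = 2 ^ (2 * 2 + 1) := by rw [← hc', h32]; norm_num
      have := Nat.pow_right_injective (le_refl 2) h
      omega
    subst hm'
    rcases hS with hS | hS
    · exfalso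
      obtain ⟨A, hAc, hA2, hAcard⟩ := hpl (by rw [hS]; norm_num)
      have h4 := hminus A ⟨⟨⟨fun a b => Subtype.ext (hAc a a.2 b b.2)⟩⟩, hA2⟩
      rw [hAcard] at h4
      norm_num at h4
    · rw [hS]; norm_num
  obtain ⟨e⟩ := iso_of_ssum_eq hex hM (hMcard.trans h32.symm) (hPS.trans hMS.symm)
  have hΦsurj : Function.Surjective (Psi.comp (MulAut.congr e).toMonoidHom) :=
    psi_surj.comp (MulAut.congr e).surjective
  have hker : (Psi.comp (MulAut.congr e).toMonoidHom).ker =
      (MulAut.conj : P →* MulAut P).range := by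
    ext α
    rw [MonoidHom.mem_ker, MonoidHom.mem_range]
    constructor
    · intro h
      obtain ⟨a, ha⟩ := psi_ker (MulAut.congr e α) h
      refine ⟨e.symm a, ?_⟩
      apply (MulAut.congr e).injective
      rw [conj_congr, MulEquiv.apply_symm_apply, ha]
    · rintro ⟨b, rfl⟩
      show Psi (MulAut.congr e (MulAut.conj b)) = 1
      rw [conj_congr]
      exact psi_conj (e b)
  have hiso : Nonempty ((MulAut P ⧸ (MulAut.conj : P →* MulAut P).range) ≃*
      Equiv.Perm (Fin 5)) :=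
    ⟨(QuotientGroup.quotientMulEquivOfEq hker.symm).trans
      (QuotientGroup.quotientKerEquivOfSurjective _ hΦsurj)⟩
  refine ⟨hinn, ?_, hiso⟩
  obtain ⟨f⟩ := hiso
  have h1 := Subgroup.card_eq_card_quotient_mul_card_subgroup
    (MulAut.conj : P →* MulAut P).range
  have h2 : Nat.card (MulAut P ⧸ (MulAut.conj : P →* MulAut P).range) = 120 := by
    rw [Nat.card_congr f.toEquiv, Nat.card_perm]
    simp [Nat.factorial]
  rw [h1, h2, hinn]

end Cfsg.Agent.S4413
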