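import Cfsg.Statements.S4417
import Mathlib
import Cfsg.Agent.Lib.Helper42.DerLenC

set_option autoImplicit false
open Cfsg

namespace Cfsg.Agent.S4417

/-- Let F be a field with q elements, p a prime not dividing q, and e the multiplicative order of q modulo p; assume e ≤ n. Then every p-subgroup of GL_n(F) has derived length at most ⌊log₂(n/e)⌋ + 1: that term of its derived series is trivial (n/e is the integer quotient). -/
theorem result {F : Type*} [Field F] [Fintype F] (q : ℕ) (hF : Fintype.card F = q) (p : ℕ) [Fact p.Prime] (hpq : ¬ p ∣ q) (n e : ℕ) (he : e = orderOf (q : ZMod p)) (hen : e ≤ n) (P : Subgroup (GL (Fin n) F)) (hP : IsPGroup p P) : derivedSeries ↥P (Nat.log 2 (n / e) + 1) = ⊥ := by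
  subst hF
  have hp := (Fact.out : p.Prime)
  have hpF : (p : F) ≠ 0 := by
    intro h
    have hq0 : ((Fintype.card F : ℕ) : F) = 0 := Nat.cast_card_eq_zero F
    have hcop : Nat.Coprime p (Fintype.card F) := (Nat.Prime.coprime_iff_not_dvd hp).mpr hpq
    obtain ⟨a, b, hab⟩ := Nat.isCoprime_iff_coprime.mpr hcop
    have h1 := congrArg (Int.cast : ℤ → F) hab
    push_cast at h1
    rw [h, hq0] at h1
    simp at h1
  have hpK : (p : AlgebraicClosure F) ≠ 0 := by
    intro h
    apply hpF
    have h2 : algebraMap F (AlgebraicClosure F) (p : F) = 0 := by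
      rw [map_natCast]
      exact h
    exact (map_eq_zero _).mp h2
  have he1 : 1 ≤ e := by
    rw [he]
    have hq0 : ((Fintype.card F : ℕ) : ZMod p) ≠ 0 := by
      rw [Ne, ZMod.natCast_eq_zero_iff]
      exact hpq
    apply orderOf_pos_iff.mpr
    rw [isOfFinOrder_iff_pow_eq_one]
    exact ⟨p - 1, Nat.sub_pos_of_lt hp.one_lt, ZMod.pow_card_sub_one_eq_one hq0⟩
  rw [eq_bot_iff]
  intro g hg
  rw [Subgroup.mem_bot]
  apply Cfsg.Agent.Lib.Helper42.DerLenC.sig_eq_one P g
  apply LinearMap.ext
  intro v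
  exact Cfsg.Agent.Lib.Helper42.DerLenC.frob_bound P hP hpK e he he1 _ ⊤ rfl
    (fun _ _ _ => Submodule.mem_top) (fun _ _ => Submodule.mem_top) g hg v Submodule.mem_top

end Cfsg.Agent.S4417
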