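import Cfsg.Statements.S4420

set_option autoImplicit false
open Cfsg

namespace Cfsg.Agent.S4420

theorem comm_of_sq {H : Type*} [Group H] (h : ∀ x : H, x ^ 2 = 1) (a b : H) : a * b = b * a := by
  have ha := h a
  have hb := h b
  have hab := h (a * b)
  have ha' : a⁻¹ = a := by
    rw [inv_eq_iff_mul_eq_one, ← sq, ha]
  have hb' : b⁻¹ = b := by
    rw [inv_eq_iff_mul_eq_one, ← sq, hb]
  have : (a * b)⁻¹ = a * b := by
    rw [inv_eq_iff_mul_eq_one, ← sq, hab]
  rw [mul_inv_rev, ha', hb'] at this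
  exact this.symm

theorem case_elem {H : Type*} [Group H] [Finite H] (A : Subgroup H) (hA : A ≠ ⊤)
    (hall : ∀ x : H, x ^ 2 = 1) :
    ∃ B : Subgroup H, B.Normal ∧ IsMulCommutative ↥B ∧ B.index = 2 ∧
      (∀ x : H, x ∉ B → x ^ 2 = 1 ∧ ∀ b ∈ B, x * b * x⁻¹ = b⁻¹) ∧
      (¬ (IsMulCommutative H ∧ ∀ x : H, x ^ 2 = 1) →
        ∀ B' : Subgroup H, B'.Normal → IsMulCommutative ↥B' → B'.index = 2 →
          (∀ x : H, x ∉ B' → x ^ 2 = 1 ∧ ∀ b ∈ B', x * b * x⁻¹ = b⁻¹) → B' = B) := by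
  have hcomm := comm_of_sq hall
  haveI : Fact (Nat.Prime 2) := ⟨Nat.prime_two⟩
  have hP : IsPGroup 2 H := fun x => ⟨1, by simpa using hall x⟩
  obtain ⟨n, hn⟩ := IsPGroup.iff_card.1 hP
  have hn0 : n ≠ 0 := by
    rintro rfl
    apply hA
    have : Subsingleton H := (Nat.card_eq_one_iff_unique.1 (by simpa using hn)).1
    exact Subsingleton.elim _ _
  obtain ⟨m, rfl⟩ := Nat.exists_eq_succ_of_ne_zero hn0
  obtain ⟨B, hB⟩ := Sylow.exists_subgroup_card_pow_prime (G := H) 2 (n := m)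
    (by rw [hn]; exact pow_dvd_pow 2 (Nat.le_succ m))
  have hidx : B.index = 2 := by
    have h1 := B.card_mul_index
    rw [hB, hn, pow_succ] at h1
    exact Nat.eq_of_mul_eq_mul_left (pow_pos (by norm_num) m) h1
  refine ⟨B, ?_, ?_, hidx, ?_, ?_⟩
  · constructor
    intro b hb g
    have : g * b * g⁻¹ = b := by rw [hcomm g b, mul_assoc, mul_inv_cancel, mul_one]
    rw [this]; exact hb
  · rw [isMulCommutative_iff]
    intro a b
    exact Subtype.ext (hcomm a b)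
  · intro x _
    refine ⟨hall x, ?_⟩
    intro b _
    have hb' : b⁻¹ = b := by
      rw [inv_eq_iff_mul_eq_one, ← sq, hall b]
    rw [hb', hcomm x b, mul_assoc, mul_inv_cancel, mul_one]
  · intro hneg
    exact absurd ⟨isMulCommutative_iff.2 hcomm, hall⟩ hneg

/-- Structure of groups in which every element outside some proper subgroup has square 1. -/
theorem result {H : Type*} [Group H] [Finite H] (A : Subgroup H) (hA : A ≠ ⊤) (hD : ∀ x : H, x ∉ A → x ^ 2 = 1) :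
    ∃ B : Subgroup H, B.Normal ∧ IsMulCommutative ↥B ∧ B.index = 2 ∧
      (∀ x : H, x ∉ B → x ^ 2 = 1 ∧ ∀ b ∈ B, x * b * x⁻¹ = b⁻¹) ∧
      (¬ (IsMulCommutative H ∧ ∀ x : H, x ^ 2 = 1) →
        ∀ B' : Subgroup H, B'.Normal → IsMulCommutative ↥B' → B'.index = 2 →
          (∀ x : H, x ∉ B' → x ^ 2 = 1 ∧ ∀ b ∈ B', x * b * x⁻¹ = b⁻¹) → B' = B) := by
  by_cases hall : ∀ x : H, x ^ 2 = 1
  · exact case_elem A hA hall
  push Not at hall
  obtain ⟨g₀, hg₀⟩ := hall
  set B : Subgroup H := Subgroup.closure {g : H | g ^ 2 ≠ 1} with hBdef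
  have hg₀B : g₀ ∈ B := Subgroup.subset_closure hg₀
  have hBA : B ≤ A := by
    rw [hBdef, Subgroup.closure_le]
    intro g hg
    by_contra hgA
    exact hg (hD g hgA)
  have hsq : ∀ x : H, x ∉ B → x ^ 2 = 1 := by
    intro x hx
    by_contra hx2
    exact hx (Subgroup.subset_closure hx2)
  have hBtop : B ≠ ⊤ := by
    intro h
    apply hA
    rw [eq_top_iff, ← h]
    exact hBA
  obtain ⟨x₀, hx₀⟩ : ∃ x₀ : H, x₀ ∉ B := by
    by_contra hcon
    push Not at hcon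
    exact hBtop ((Subgroup.eq_top_iff' B).2 hcon)
  have hinv : ∀ x : H, x ∉ B → ∀ b ∈ B, x * b * x⁻¹ = b⁻¹ := by
    intro x hx b hb
    have hxb : x * b ∉ B := fun h => hx (by simpa using B.mul_mem h (B.inv_mem hb))
    have h1 := hsq x hx
    have h2 := hsq _ hxb
    have hx' : x⁻¹ = x := by
      rw [inv_eq_iff_mul_eq_one, ← sq, h1]
    rw [hx', eq_inv_iff_mul_eq_one]
    rw [sq] at h2
    simpa [mul_assoc] using h2
  have hBcomm : ∀ a ∈ B, ∀ b ∈ B, a * b = b * a := by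
    intro a ha b hb
    have h1 := hinv x₀ hx₀ (a * b) (B.mul_mem ha hb)
    have h2 := hinv x₀ hx₀ a ha
    have h3 := hinv x₀ hx₀ b hb
    have h4 : x₀ * (a * b) * x₀⁻¹ = (x₀ * a * x₀⁻¹) * (x₀ * b * x₀⁻¹) := by group
    rw [h4, h2, h3, mul_inv_rev] at h1
    have := congrArg (fun t => t⁻¹) h1
    have h5 : b * a = a * b := by simpa using this
    exact h5.symm
  have hprod : ∀ x y : H, x ∉ B → y ∉ B → x * y ∈ B := by
    intro x y hx hy
    by_contra hxy
    have h1 := hinv _ hxy g₀ hg₀B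
    have h2 := hinv y hy g₀ hg₀B
    have h3 := hinv x hx g₀⁻¹ (B.inv_mem hg₀B)
    have h4 : x * y * g₀ * (x * y)⁻¹ = x * (y * g₀ * y⁻¹) * x⁻¹ := by group
    rw [h4, h2, h3, inv_inv] at h1
    apply hg₀
    rw [sq]
    exact eq_inv_iff_mul_eq_one.1 h1
  refine ⟨B, ?_, ?_, ?_, ?_, ?_⟩
  · constructor
    intro b hb g
    by_cases hg : g ∈ B
    · exact B.mul_mem (B.mul_mem hg hb) (B.inv_mem hg)
    · rw [hinv g hg b hb]; exact B.inv_mem hb
  · rw [isMulCommutative_iff]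
    rintro ⟨a, ha⟩ ⟨b, hb⟩
    exact Subtype.ext (hBcomm a ha b hb)
  · rw [Subgroup.index_eq_two_iff]
    refine ⟨x₀, fun b => ?_⟩
    by_cases hb : b ∈ B
    · refine Or.inr ⟨hb, fun h => hx₀ ?_⟩
      simpa using B.mul_mem (B.inv_mem hb) h
    · exact Or.inl ⟨hprod b x₀ hb hx₀, hb⟩
  · exact fun x hx => ⟨hsq x hx, hinv x hx⟩
  · intro _ B' _ _ hidx' hB'
    have hle : B ≤ B' := by
      rw [hBdef, Subgroup.closure_le]
      intro g hg
      by_contra hgB'
      exact hg (hB' g hgB').1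
    have hB'top : B' ≠ ⊤ := by
      intro h
      rw [h, Subgroup.index_top] at hidx'
      omega
    obtain ⟨x₁, hx₁⟩ : ∃ x₁ : H, x₁ ∉ B' := by
      by_contra hcon
      push Not at hcon
      exact hB'top ((Subgroup.eq_top_iff' B').2 hcon)
    apply le_antisymm _ hle
    intro y hy
    by_contra hyB
    have h1 : y * x₁ ∈ B' := hle (hprod y x₁ hyB (fun h => hx₁ (hle h)))
    apply hx₁
    simpa using B'.mul_mem (B'.inv_mem hy) h1

end Cfsg.Agent.S4420
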