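import Cfsg.Statements.S4444
import Cfsg.Agent.Lib.Helper81.Glaub

set_option autoImplicit false
open Cfsg

namespace Cfsg.Agent.S4444

/-- The Glauberman correspondence for a p-group of operators. Inside a finite group Γ let S normalise G with the orders of G and S coprime, S a p-group, and let C = G ⊓ C(S) be the fixed points. Call an irreducible character χ of G S-invariant when χ(s g s⁻¹) = χ(g) for s ∈ S, g ∈ G. Then: (i) for every S-invariant χ there is exactly one irreducible character β of C whose multiplicity [χ_C, β] in the restriction of χ is not divisible by p; (ii) that multiplicity is ≡ 1 or ≡ −1 (mod p); (iii) distinct S-invariant χ give distinct β; (iv) every irreducible character of C arises in this way. So χ ↦ β is a bijection from the S-invariant irreducible characters of G onto the irreducible characters of C. -/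
theorem result {Γ : Type*} [Group Γ] [Fintype Γ] (G S : Subgroup Γ) [Fintype G] (hnorm : ∀ s ∈ S, ∀ g ∈ G, s * g * s⁻¹ ∈ G) (hcop : (Nat.card G).Coprime (Nat.card S)) (p : ℕ) (hp : p.Prime) (hS : IsPGroup p S) (C : Subgroup Γ) [Fintype C] (hC : C = G ⊓ Subgroup.centralizer (S : Set Γ)) (hCG : C ≤ G) : (∀ χ : Cfsg.IrrCharacter G, (∀ s ∈ S, ∀ g g' : G, (g' : Γ) = s * g * s⁻¹ → (χ : G → ℂ) g' = (χ : G → ℂ) g) → ∃! β : Cfsg.IrrCharacter C, ∃ m : ℕ, Cfsg.classInner (fun c : C => (χ : G → ℂ) ⟨c, hCG c.2⟩) (β : C → ℂ) = (m : ℂ) ∧ ¬ p ∣ m) ∧ (∀ χ : Cfsg.IrrCharacter G, (∀ s ∈ S, ∀ g g' : G, (g' : Γ) = s * g * s⁻¹ → (χ : G → ℂ) g' = (χ : G → ℂ) g) → ∀ β : Cfsg.IrrCharacter C, ∀ m : ℕ, Cfsg.classInner (fun c : C => (χ : G → ℂ) ⟨c, hCG c.2⟩) (β : C → ℂ) = (m : ℂ) → ¬ p ∣ m → ((m : ℤ) ≡ 1 [ZMOD p] ∨ (m : ℤ) ≡ -1 [ZMOD p])) ∧ (∀ χ χ' : Cfsg.IrrCharacter G, (∀ s ∈ S, ∀ g g' : G, (g' : Γ) = s * g * s⁻¹ → (χ : G → ℂ)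 g' = (χ : G → ℂ) g) → (∀ s ∈ S, ∀ g g' : G, (g' : Γ) = s * g * s⁻¹ → (χ' : G → ℂ) g' = (χ' : G → ℂ) g) → ∀ β : Cfsg.IrrCharacter C, ∀ m m' : ℕ, Cfsg.classInner (fun c : C => (χ : G → ℂ) ⟨c, hCG c.2⟩) (β : C → ℂ) = (m : ℂ) → ¬ p ∣ m → Cfsg.classInner (fun c : C => (χ' : G → ℂ) ⟨c, hCG c.2⟩) (β : C → ℂ) = (m' : ℂ) → ¬ p ∣ m' → χ = χ') ∧ (∀ β : Cfsg.IrrCharacter C, ∃ χ : Cfsg.IrrCharacter G, (∀ s ∈ S, ∀ g g' : G, (g' : Γ) = s * g * s⁻¹ → (χ : G → ℂ) g' = (χ : G → ℂ) g) ∧ ∃ m : ℕ, Cfsg.classInner (fun c : C => (χ : G → ℂ) ⟨c, hCG c.2⟩) (β : C → ℂ) = (m : ℂ) ∧ ¬ p ∣ m) := by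
  classical
  have : Fact p.Prime := ⟨hp⟩
  let ι : ↥C →* ↥G := Subgroup.inclusion hCG
  have hι : Function.Injective ι := Subgroup.inclusion_injective hCG
  have hmemC : ∀ g : Γ, g ∈ C ↔ g ∈ G ∧ ∀ s ∈ S, s * g * s⁻¹ = g := by
    intro g
    rw [hC, Subgroup.mem_inf, Subgroup.mem_centralizer_iff]
    constructor
    · rintro ⟨h1, h2⟩
      refine ⟨h1, fun s hs => ?_⟩
      rw [h2 s hs, mul_inv_cancel_right]
    · rintro ⟨h1, h2⟩
      refine ⟨h1, fun s hs => ?_⟩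
      have := h2 s hs
      calc s * g = s * g * s⁻¹ * s := by rw [inv_mul_cancel_right]
        _ = g * s := by rw [this]
  have hG : Cfsg.Agent.Lib.Helper81.GlaubCore.Glaub p ι (fun χ : Cfsg.IrrCharacter ↥G =>
      ∀ s ∈ S, ∀ g g' : G, (g' : Γ) = s * g * s⁻¹ → χ.1 g' = χ.1 g) := by
    by_cases hpG : p ∣ Nat.card G
    · have hS1 : Nat.card S = 1 := by
        obtain ⟨k, hk⟩ := IsPGroup.iff_card.1 hS
        cases k with
        | zero => simpa using hk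
        | succ k =>
          exfalso
          have h1 : p ∣ Nat.card S := by
            rw [hk]
            exact dvd_pow_self p (Nat.succ_ne_zero k)
          have h2 := Nat.dvd_gcd hpG h1
          rw [hcop] at h2
          exact hp.one_lt.ne' (Nat.dvd_one.1 h2)
      have hSbot : ∀ s ∈ S, s = 1 := by
        intro s hs
        have h1 : S = ⊥ := Subgroup.card_eq_one.1 hS1
        rw [h1] at hs
        exact Subgroup.mem_bot.1 hs
      have hbij : Function.Bijective ι := ⟨hι, fun g =>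
        ⟨⟨g.1, (hmemC g.1).2 ⟨g.2, fun s hs => by rw [hSbot s hs]; simp⟩⟩, rfl⟩⟩
      refine Cfsg.Agent.Lib.Helper81.Glaub.glaub_congr p
        (fun χ => ⟨fun _ s hs g g' hg => ?_, fun _ => trivial⟩)
        (Cfsg.Agent.Lib.Helper81.Glaub.glaub_of_bijective p hp.one_lt ι hbij)
      rw [hSbot s hs] at hg
      have h2 : g' = g := Subtype.ext (by rw [hg]; simp)
      rw [h2]
    · let S₀ : Subgroup (MulAut Γ) := S.map MulAut.conj
      have hD : ∀ a ∈ S₀, ∀ d ∈ G, a d ∈ G := by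
        rintro a ⟨s, hs, rfl⟩ d hd
        exact hnorm s hs d hd
      let r : ↥S₀ →* MulAut ↥G := Cfsg.Agent.Lib.Helper81.Glaub.restrictAut S₀ G hD
      let S' : Subgroup (MulAut ↥G) := r.range
      have hS₀ : IsPGroup p S₀ := hS.map MulAut.conj
      have hS' : IsPGroup p S' :=
        IsPGroup.of_surjective hS₀ r.rangeRestrict r.rangeRestrict_surjective
      have hrange : ∀ g, g ∈ ι.range ↔ ∀ s' ∈ S', s' g = g := by
        intro g
        constructor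
        · rintro ⟨c, rfl⟩ s' ⟨⟨a, s, hs, rfl⟩, rfl⟩
          apply Subtype.ext
          exact ((hmemC c.1).1 c.2).2 s hs
        · intro h
          have h1 : ∀ s ∈ S, s * g.1 * s⁻¹ = g.1 := fun s hs =>
            congrArg Subtype.val (h (r ⟨MulAut.conj s, ⟨s, hs, rfl⟩⟩) ⟨_, rfl⟩)
          exact ⟨⟨g.1, (hmemC g.1).2 ⟨g.2, h1⟩⟩, rfl⟩
      have hgl := Cfsg.Agent.Lib.Helper81.Glaub.glaub_pgroup p S' ι hS' hpG hι hrange
      refine Cfsg.Agent.Lib.Helper81.Glaub.glaub_congr p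
        (fun χ => ⟨fun h s hs g g' hg => ?_, fun h s' hs' g => ?_⟩) hgl
      · have h2 := h (r ⟨MulAut.conj s, ⟨s, hs, rfl⟩⟩) ⟨_, rfl⟩ g
        have h3 : (r ⟨MulAut.conj s, ⟨s, hs, rfl⟩⟩) g = g' := Subtype.ext hg.symm
        rw [h3] at h2
        exact h2
      · obtain ⟨⟨a, s, hs, rfl⟩, rfl⟩ := hs'
        exact h s hs g _ rfl
  exact Cfsg.Agent.Lib.Helper81.Glaub.glaub_statement p hp ι _ hG

end Cfsg.Agent.S4444
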