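import Mathlib
import Cfsg.Statements.S4445
import Cfsg.Agent.Lib.Helper4.GlauSolv
import Cfsg.Agent.Lib.Helper74.GlauPerm
import Cfsg.Agent.Lib.Helper3.Card
-- import your own Cfsg.Agent.* helpers here

set_option autoImplicit false
open Cfsg

namespace Cfsg.Agent.S4445

/-- A homomorphism into a permutation group from an action given by a function. -/
def permHom {K₀ X : Type*} [Group K₀] (f : K₀ → X → X) (h1 : ∀ x, f 1 x = x)
    (hm : ∀ k k' x, f (k * k') x = f k (f k' x)) : K₀ →* Equiv.Perm X :=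
  @MulAction.toPermHom K₀ X _ { smul := f, one_smul := h1, mul_smul := hm }

theorem permHom_apply {K₀ X : Type*} [Group K₀] (f : K₀ → X → X) (h1 : ∀ x, f 1 x = x)
    (hm : ∀ k k' x, f (k * k') x = f k (f k' x)) (k : K₀) (x : X) :
    permHom f h1 hm k x = f k x := rfl

/-- Coprime action: the classes of `G` fixed by `S` correspond to the classes of the
fixed-point subgroup. -/
theorem class_count {Γ : Type*} [Group Γ] [Finite Γ] (G S : Subgroup Γ)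
    (hnorm : ∀ s ∈ S, ∀ g ∈ G, s * g * s⁻¹ ∈ G) (hcop : (Nat.card G).Coprime (Nat.card S))
    (hsolv : Group.IsSolvable S) (C : Subgroup Γ) (hCG : C ≤ G)
    (hmemC : ∀ g : Γ, g ∈ C ↔ g ∈ G ∧ ∀ s ∈ S, s * g * s⁻¹ = g) :
    Nat.card (ConjClasses C) = Nat.card {K : ConjClasses G // ∀ s ∈ S, ∀ g g' : G,
      (g' : Γ) = s * g * s⁻¹ → ConjClasses.mk g = K → ConjClasses.mk g' = K} := by
  classical
  haveI : Group.IsSolvable S := hsolv
  have hF : ∀ k : ConjClasses C, ∀ s ∈ S, ∀ g g' : G, (g' : Γ) = s * g * s⁻¹ →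
      ConjClasses.mk g = ConjClasses.map (Subgroup.inclusion hCG) k →
      ConjClasses.mk g' = ConjClasses.map (Subgroup.inclusion hCG) k := by
    intro k
    obtain ⟨c, rfl⟩ := ConjClasses.mk_surjective k
    intro s hs g g' hg hgk
    have hgk' : ConjClasses.mk g = ConjClasses.mk (Subgroup.inclusion hCG c) := hgk
    show ConjClasses.mk g' = ConjClasses.mk (Subgroup.inclusion hCG c)
    rw [ConjClasses.mk_eq_mk_iff_isConj, isConj_iff] at hgk' ⊢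
    obtain ⟨h, hh⟩ := hgk'
    refine ⟨⟨s * h * s⁻¹, hnorm s hs h h.2⟩, Subtype.ext ?_⟩
    show s * (h : Γ) * s⁻¹ * (g' : Γ) * (s * (h : Γ) * s⁻¹)⁻¹ = (c : Γ)
    rw [hg]
    have h1 : (h : Γ) * g * (h : Γ)⁻¹ = c := congrArg Subtype.val hh
    have h2 := ((hmemC c).1 c.2).2 s hs
    calc s * (h : Γ) * s⁻¹ * (s * (g : Γ) * s⁻¹) * (s * (h : Γ) * s⁻¹)⁻¹
        = s * ((h : Γ) * g * (h : Γ)⁻¹) * s⁻¹ := by group
      _ = c := by rw [h1, h2]
  let F : ConjClasses C → {K : ConjClasses G // ∀ s ∈ S, ∀ g g' : G,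
      (g' : Γ) = s * g * s⁻¹ → ConjClasses.mk g = K → ConjClasses.mk g' = K} :=
    fun k => ⟨ConjClasses.map (Subgroup.inclusion hCG) k, hF k⟩
  have hinj : Function.Injective F := by
    intro k k' hkk'
    obtain ⟨c₁, rfl⟩ := ConjClasses.mk_surjective k
    obtain ⟨c₂, rfl⟩ := ConjClasses.mk_surjective k'
    have h1 : ConjClasses.mk (Subgroup.inclusion hCG c₁) =
        ConjClasses.mk (Subgroup.inclusion hCG c₂) := congrArg Subtype.val hkk'
    rw [ConjClasses.mk_eq_mk_iff_isConj, isConj_iff] at h1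
    obtain ⟨g₀, hg₀⟩ := h1
    set d₁ : G := Subgroup.inclusion hCG c₁ with hd₁
    set d₂ : G := Subgroup.inclusion hCG c₂ with hd₂
    have hs₁ : ∀ s ∈ S, s * (d₁ : Γ) * s⁻¹ = d₁ := fun s hs => ((hmemC c₁).1 c₁.2).2 s hs
    have hs₂ : ∀ s ∈ S, s * (d₂ : Γ) * s⁻¹ = d₂ := fun s hs => ((hmemC c₂).1 c₂.2).2 s hs
    let Ω : Type _ := {g : G // g * d₁ * g⁻¹ = d₂}
    haveI : Nonempty Ω := ⟨⟨g₀, hg₀⟩⟩
    let Z : Subgroup G := Subgroup.centralizer {d₁}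
    have hZ : ∀ z : Z, d₁ * (z : G) = z * d₁ := fun z =>
      Subgroup.mem_centralizer_iff.1 z.2 d₁ rfl
    let fZ : Z → Ω → Ω := fun z g => ⟨g.1 * (z : G)⁻¹, by
      have h2 := hZ z
      have h3 := g.2
      calc g.1 * (z : G)⁻¹ * d₁ * (g.1 * (z : G)⁻¹)⁻¹
          = g.1 * ((z : G)⁻¹ * (d₁ * (z : G))) * g.1⁻¹ * ((z : G) * (z : G)⁻¹) := by group
        _ = g.1 * ((z : G)⁻¹ * ((z : G) * d₁)) * g.1⁻¹ * ((z : G) * (z : G)⁻¹) := by rw [h2]
        _ = g.1 * d₁ * g.1⁻¹ := by group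
        _ = d₂ := h3⟩
    let fS : S → Ω → Ω := fun s g =>
      ⟨⟨s * (g.1 : Γ) * s⁻¹, hnorm s s.2 g.1 g.1.2⟩, by
        apply Subtype.ext
        have h3 : (g.1 : Γ) * d₁ * (g.1 : Γ)⁻¹ = d₂ := congrArg Subtype.val g.2
        show (s : Γ) * (g.1 : Γ) * (s : Γ)⁻¹ * (d₁ : Γ) * ((s : Γ) * (g.1 : Γ) * (s : Γ)⁻¹)⁻¹
          = (d₂ : Γ)
        calc (s : Γ) * (g.1 : Γ) * (s : Γ)⁻¹ * (d₁ : Γ) * ((s : Γ) * (g.1 : Γ) * (s : Γ)⁻¹)⁻¹
            = (s : Γ) * (g.1 : Γ) * (s : Γ)⁻¹ * ((s : Γ) * (d₁ : Γ) * (s : Γ)⁻¹) *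
              ((s : Γ) * (g.1 : Γ) * (s : Γ)⁻¹)⁻¹ := by rw [hs₁ s s.2]
          _ = (s : Γ) * ((g.1 : Γ) * d₁ * (g.1 : Γ)⁻¹) * (s : Γ)⁻¹ := by group
          _ = d₂ := by rw [h3, hs₂ s s.2]⟩
    let a : Z →* Equiv.Perm Ω := permHom fZ
      (fun g => Subtype.ext (by
        show g.1 * ((1 : Z) : G)⁻¹ = g.1
        simp))
      (fun z z' g => Subtype.ext (by
        show g.1 * ((z * z' : Z) : G)⁻¹ = g.1 * (z' : G)⁻¹ * (z : G)⁻¹
        rw [Subgroup.coe_mul]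
        group))
    let b : S →* Equiv.Perm Ω := permHom fS
      (fun g => Subtype.ext (Subtype.ext (by
        show ((1 : S) : Γ) * (g.1 : Γ) * ((1 : S) : Γ)⁻¹ = (g.1 : Γ)
        simp)))
      (fun s s' g => Subtype.ext (Subtype.ext (by
        show ((s * s' : S) : Γ) * (g.1 : Γ) * ((s * s' : S) : Γ)⁻¹ =
          (s : Γ) * ((s' : Γ) * (g.1 : Γ) * (s' : Γ)⁻¹) * (s : Γ)⁻¹
        rw [Subgroup.coe_mul]
        group)))
    have hn : ∀ s z, ∃ z', b s * a z * (b s)⁻¹ = a z' := by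
      intro s z
      have hz : (d₁ : Γ) * ((z : G) : Γ) = ((z : G) : Γ) * (d₁ : Γ) :=
        congrArg Subtype.val (hZ z)
      have hmem : (⟨(s : Γ) * ((z : G) : Γ) * (s : Γ)⁻¹, hnorm s s.2 _ (z : G).2⟩ : G) ∈ Z := by
        refine Subgroup.mem_centralizer_iff.2 (fun h hh => ?_)
        rw [Set.mem_singleton_iff.1 hh]
        apply Subtype.ext
        show (d₁ : Γ) * ((s : Γ) * ((z : G) : Γ) * (s : Γ)⁻¹) =
          (s : Γ) * ((z : G) : Γ) * (s : Γ)⁻¹ * (d₁ : Γ)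
        calc (d₁ : Γ) * ((s : Γ) * ((z : G) : Γ) * (s : Γ)⁻¹)
            = ((s : Γ) * (d₁ : Γ) * (s : Γ)⁻¹) * ((s : Γ) * ((z : G) : Γ) * (s : Γ)⁻¹) := by
              rw [hs₁ s s.2]
          _ = (s : Γ) * ((d₁ : Γ) * ((z : G) : Γ)) * (s : Γ)⁻¹ := by group
          _ = (s : Γ) * (((z : G) : Γ) * (d₁ : Γ)) * (s : Γ)⁻¹ := by rw [hz]
          _ = (s : Γ) * ((z : G) : Γ) * (s : Γ)⁻¹ * ((s : Γ) * (d₁ : Γ) * (s : Γ)⁻¹) := by
              group
          _ = (s : Γ) * ((z : G) : Γ) * (s : Γ)⁻¹ * (d₁ : Γ) := by rw [hs₁ s s.2]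
      refine ⟨⟨_, hmem⟩, Equiv.ext fun g => ?_⟩
      rw [Equiv.Perm.mul_apply, Equiv.Perm.mul_apply, ← map_inv]
      apply Subtype.ext
      apply Subtype.ext
      show (s : Γ) * (((s⁻¹ : S) : Γ) * (g.1 : Γ) * ((s⁻¹ : S) : Γ)⁻¹ * ((z : G) : Γ)⁻¹) *
        (s : Γ)⁻¹ = (g.1 : Γ) * ((s : Γ) * ((z : G) : Γ) * (s : Γ)⁻¹)⁻¹
      rw [Subgroup.coe_inv]
      group
    have hc : (Nat.card a.range).Coprime (Nat.card b.range) := by
      have h1 : Nat.card a.range ∣ Nat.card G :=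
        dvd_trans (Subgroup.card_range_dvd a) (Subgroup.card_subgroup_dvd_card Z)
      have h2 : Nat.card b.range ∣ Nat.card S := Subgroup.card_range_dvd b
      exact (hcop.coprime_dvd_left h1).coprime_dvd_right h2
    have ht : ∀ g g' : Ω, ∃ z, a z g = g' := by
      intro g g'
      have e1 : g.1 * d₁ = d₂ * g.1 := by
        have h3 := g.2
        calc g.1 * d₁ = (g.1 * d₁ * g.1⁻¹) * g.1 := by group
          _ = d₂ * g.1 := by rw [h3]
      have e2 : g'.1 * d₁ = d₂ * g'.1 := by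
        have h3 := g'.2
        calc g'.1 * d₁ = (g'.1 * d₁ * g'.1⁻¹) * g'.1 := by group
          _ = d₂ * g'.1 := by rw [h3]
      have hmem : g'.1⁻¹ * g.1 ∈ Z := by
        refine Subgroup.mem_centralizer_iff.2 (fun h hh => ?_)
        rw [Set.mem_singleton_iff.1 hh]
        calc d₁ * (g'.1⁻¹ * g.1) = g'.1⁻¹ * (g'.1 * d₁) * g'.1⁻¹ * g.1 := by group
          _ = g'.1⁻¹ * (d₂ * g'.1) * g'.1⁻¹ * g.1 := by rw [e2]
          _ = g'.1⁻¹ * (d₂ * g.1) := by group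
          _ = g'.1⁻¹ * (g.1 * d₁) := by rw [e1]
          _ = g'.1⁻¹ * g.1 * d₁ := by group
      refine ⟨⟨_, hmem⟩, Subtype.ext ?_⟩
      show g.1 * (g'.1⁻¹ * g.1)⁻¹ = g'.1
      group
    obtain ⟨g, hg⟩ := Cfsg.Agent.Lib.Helper74.GlauPerm.exists_fixed a b hn hc
      (Or.inr (solvable_of_surjective b.rangeRestrict_surjective)) ht
    have hgC : (g.1 : Γ) ∈ C := (hmemC _).2 ⟨g.1.2, fun s hs =>
      congrArg (fun z : Ω => (z.1 : Γ)) (hg ⟨s, hs⟩)⟩
    show ConjClasses.mk c₁ = ConjClasses.mk c₂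
    rw [ConjClasses.mk_eq_mk_iff_isConj, isConj_iff]
    refine ⟨⟨g.1, hgC⟩, Subtype.ext ?_⟩
    have h5 : ((g.1 * d₁ * g.1⁻¹ : G) : Γ) = (d₂ : Γ) := congrArg Subtype.val g.2
    exact h5
  have hsurj : Function.Surjective F := by
    rintro ⟨K, hK⟩
    obtain ⟨x₀, rfl⟩ := ConjClasses.mk_surjective K
    let X : Type _ := {x : G // ConjClasses.mk x = ConjClasses.mk x₀}
    haveI : Nonempty X := ⟨⟨x₀, rfl⟩⟩
    let fG : G → X → X := fun h x => ⟨h * x.1 * h⁻¹, by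
      refine Eq.trans ?_ x.2
      rw [ConjClasses.mk_eq_mk_iff_isConj, isConj_iff]
      exact ⟨h⁻¹, by group⟩⟩
    let fS : S → X → X := fun s x =>
      ⟨⟨s * (x.1 : Γ) * s⁻¹, hnorm s s.2 x.1 x.1.2⟩, hK s s.2 x.1 _ rfl x.2⟩
    let a : G →* Equiv.Perm X := permHom fG
      (fun x => Subtype.ext (by
        show (1 : G) * x.1 * (1 : G)⁻¹ = x.1
        group))
      (fun h h' x => Subtype.ext (by
        show (h * h') * x.1 * (h * h')⁻¹ = h * (h' * x.1 * h'⁻¹) * h⁻¹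
        group))
    let b : S →* Equiv.Perm X := permHom fS
      (fun x => Subtype.ext (Subtype.ext (by
        show ((1 : S) : Γ) * (x.1 : Γ) * ((1 : S) : Γ)⁻¹ = (x.1 : Γ)
        simp)))
      (fun s s' x => Subtype.ext (Subtype.ext (by
        show ((s * s' : S) : Γ) * (x.1 : Γ) * ((s * s' : S) : Γ)⁻¹ =
          (s : Γ) * ((s' : Γ) * (x.1 : Γ) * (s' : Γ)⁻¹) * (s : Γ)⁻¹
        rw [Subgroup.coe_mul]
        group)))
    have hn : ∀ s k, ∃ k', b s * a k * (b s)⁻¹ = a k' := by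
      intro s k
      refine ⟨⟨(s : Γ) * (k : Γ) * (s : Γ)⁻¹, hnorm s s.2 k k.2⟩, Equiv.ext fun x => ?_⟩
      rw [Equiv.Perm.mul_apply, Equiv.Perm.mul_apply, ← map_inv]
      apply Subtype.ext
      apply Subtype.ext
      show (s : Γ) * ((k : Γ) * (((s⁻¹ : S) : Γ) * (x.1 : Γ) * ((s⁻¹ : S) : Γ)⁻¹) * (k : Γ)⁻¹) *
        (s : Γ)⁻¹ = (s : Γ) * (k : Γ) * (s : Γ)⁻¹ * (x.1 : Γ) * ((s : Γ) * (k : Γ) * (s : Γ)⁻¹)⁻¹
      rw [Subgroup.coe_inv]
      group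
    have hc : (Nat.card a.range).Coprime (Nat.card b.range) := by
      have h1 : Nat.card a.range ∣ Nat.card G := Subgroup.card_range_dvd a
      have h2 : Nat.card b.range ∣ Nat.card S := Subgroup.card_range_dvd b
      exact (hcop.coprime_dvd_left h1).coprime_dvd_right h2
    have ht : ∀ x y : X, ∃ k, a k x = y := by
      intro x y
      have h1 : ConjClasses.mk x.1 = ConjClasses.mk y.1 := x.2.trans y.2.symm
      rw [ConjClasses.mk_eq_mk_iff_isConj, isConj_iff] at h1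
      obtain ⟨k, hk⟩ := h1
      exact ⟨k, Subtype.ext hk⟩
    obtain ⟨x, hx⟩ := Cfsg.Agent.Lib.Helper74.GlauPerm.exists_fixed a b hn hc
      (Or.inr (solvable_of_surjective b.rangeRestrict_surjective)) ht
    have hxC : (x.1 : Γ) ∈ C := (hmemC _).2 ⟨x.1.2, fun s hs =>
      congrArg (fun z : X => (z.1 : Γ)) (hx ⟨s, hs⟩)⟩
    refine ⟨ConjClasses.mk ⟨x.1, hxC⟩, Subtype.ext ?_⟩
    exact x.2
  exact Nat.card_congr (Equiv.ofBijective F ⟨hinj, hsurj⟩)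


/-- Inside a finite group Γ let the solvable subgroup S normalise G with the orders of G and S coprime. Then the number of S-invariant irreducible characters of G (χ(s g s⁻¹) = χ(g) for all s ∈ S, g ∈ G) equals the number of conjugacy classes of G mapped to themselves by conjugation by every element of S. -/
theorem result {Γ : Type*} [Group Γ] [Fintype Γ] (G S : Subgroup Γ) [Fintype G] (hnorm : ∀ s ∈ S, ∀ g ∈ G, s * g * s⁻¹ ∈ G) (hcop : (Nat.card G).Coprime (Nat.card S)) (hsolv : Group.IsSolvable S) : Nat.card {χ : Cfsg.IrrCharacter G // (∀ s ∈ S, ∀ g g' : G, (g' : Γ) = s * g * s⁻¹ → (χ : G → ℂ) g' = (χ : G → ℂ) g)} = Nat.card {K : ConjClasses G // ∀ s ∈ S, ∀ g g' : G, (g' : Γ) = s * g * s⁻¹ → ConjClasses.mk g = K → ConjClasses.mk g' = K} := by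
  classical
  let C : Subgroup Γ := G ⊓ Subgroup.centralizer (S : Set Γ)
  have hCG : C ≤ G := inf_le_left
  let ι : ↥C →* ↥G := Subgroup.inclusion hCG
  have hι : Function.Injective ι := Subgroup.inclusion_injective hCG
  have hmemC : ∀ g : Γ, g ∈ C ↔ g ∈ G ∧ ∀ s ∈ S, s * g * s⁻¹ = g := by
    intro g
    show g ∈ G ⊓ Subgroup.centralizer (S : Set Γ) ↔ _
    rw [Subgroup.mem_inf, Subgroup.mem_centralizer_iff]
    constructor
    · rintro ⟨h1, h2⟩
      refine ⟨h1, fun s hs => ?_⟩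
      rw [h2 s hs, mul_inv_cancel_right]
    · rintro ⟨h1, h2⟩
      refine ⟨h1, fun s hs => ?_⟩
      have := h2 s hs
      calc s * g = s * g * s⁻¹ * s := by rw [inv_mul_cancel_right]
        _ = g * s := by rw [this]
  let S₀ : Subgroup (MulAut Γ) := S.map MulAut.conj
  have hD : ∀ a ∈ S₀, ∀ d ∈ G, a d ∈ G := by
    rintro a ⟨s, hs, rfl⟩ d hd
    exact hnorm s hs d hd
  let r : ↥S₀ →* MulAut ↥G := Cfsg.Agent.Lib.Helper81.Glaub.restrictAut S₀ G hD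
  let A : Subgroup (MulAut ↥G) := r.range
  have hrange : ∀ g, g ∈ ι.range ↔ ∀ s' ∈ A, s' g = g := by
    intro g
    constructor
    · rintro ⟨c, rfl⟩ s' ⟨⟨a, s, hs, rfl⟩, rfl⟩
      apply Subtype.ext
      exact ((hmemC c.1).1 c.2).2 s hs
    · intro h
      have h1 : ∀ s ∈ S, s * g.1 * s⁻¹ = g.1 := fun s hs =>
        congrArg Subtype.val (h (r ⟨MulAut.conj s, ⟨s, hs, rfl⟩⟩) ⟨_, rfl⟩)
      exact ⟨⟨g.1, (hmemC g.1).2 ⟨g.2, h1⟩⟩, rfl⟩
  haveI : Group.IsSolvable S := hsolv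
  let φ : ↥S →* ↥A := r.rangeRestrict.comp (MulAut.conj.subgroupMap S)
  have hφ : Function.Surjective φ :=
    r.rangeRestrict_surjective.comp (MulAut.conj.subgroupMap_surjective S)
  have hAsolv : Group.IsSolvable A := solvable_of_surjective hφ
  have hAcop : (Nat.card G).Coprime (Nat.card A) :=
    hcop.coprime_dvd_right (Subgroup.card_dvd_of_surjective φ hφ)
  haveI : Finite G := Finite.of_fintype G
  have h1 := Cfsg.Agent.Lib.Helper4.GlauSolv.card_invariant_solv A ι hAsolv hAcop hι hrange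
  have h2 : Nat.card {χ : Cfsg.IrrCharacter G // (∀ s ∈ S, ∀ g g' : G, (g' : Γ) = s * g * s⁻¹ →
      (χ : G → ℂ) g' = (χ : G → ℂ) g)} =
      Nat.card {χ : Cfsg.IrrCharacter G // ∀ a ∈ A, ∀ g, χ.1 (a g) = χ.1 g} := by
    apply Nat.card_congr
    apply Equiv.subtypeEquivRight
    intro χ
    constructor
    · intro h s' hs' g
      obtain ⟨⟨a, s, hs, rfl⟩, rfl⟩ := hs'
      exact h s hs g _ rfl
    · intro h s hs g g' hg
      have h2 := h (r ⟨MulAut.conj s, ⟨s, hs, rfl⟩⟩) ⟨_, rfl⟩ g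
      have h3 : (r ⟨MulAut.conj s, ⟨s, hs, rfl⟩⟩) g = g' := Subtype.ext hg.symm
      rw [h3] at h2
      exact h2
  rw [h2, h1, Cfsg.Agent.Lib.Helper3.Card.card_irrCharacter]
  exact class_count G S hnorm hcop hsolv C hCG hmemC

end Cfsg.Agent.S4445
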