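import Cfsg.Statements.S4449
import Cfsg.Agent.Lib.Helper81.GlaubNormal

set_option autoImplicit false
open Cfsg

namespace Cfsg.Agent.S4449

universe u in
open Cfsg.Agent.Lib.Helper81.Mult Cfsg.Agent.Lib.Helper81.Glaub in
/-- Multiplicities are invariant under transport along an isomorphism. -/
theorem mult_comp_iso {A B : Type u} [Group A] [Group B] [Fintype A] [Fintype B] (e : A ≃* B)
    (F : B → ℂ) (ψ : Cfsg.IrrCharacter B) :
    mult (fun a => F (e a)) (irrComp e ψ) = mult F ψ := by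
  have h : multC (fun a => F (e a)) (irrComp e ψ) = multC F ψ := by
    rw [multC_def, multC_def, Nat.card_congr e.toEquiv]
    congr 1
    rw [← Equiv.sum_comp e.toEquiv (fun b => F b * ψ.1 b⁻¹)]
    apply Finset.sum_congr rfl
    intro a _
    show F (e a) * ψ.1 (e a⁻¹) = F (e a) * ψ.1 (e a)⁻¹
    rw [map_inv]
  unfold mult
  rw [h]

/-- Inside a finite group Γ let the solvable subgroup S normalise G with the orders of G and S coprime, and let N be a normal subgroup of G normalised by S. Then for every S-invariant irreducible character ϑ of N, the induced character ϑ^G has an S-invariant irreducible constituent. -/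
theorem result {Γ : Type*} [Group Γ] [Fintype Γ] (G S N : Subgroup Γ) [Fintype G] [Fintype N] (hnorm : ∀ s ∈ S, ∀ g ∈ G, s * g * s⁻¹ ∈ G) (hNG : N ≤ G) (hNnormal : ∀ g ∈ G, ∀ n ∈ N, g * n * g⁻¹ ∈ N) (hNS : ∀ s ∈ S, ∀ n ∈ N, s * n * s⁻¹ ∈ N) (hcop : (Nat.card G).Coprime (Nat.card S)) (hsolv : Group.IsSolvable S) (θ : Cfsg.IrrCharacter N) (hinv : (∀ s ∈ S, ∀ g g' : N, (g' : Γ) = s * g * s⁻¹ → (θ : N → ℂ) g' = (θ : N → ℂ) g)) : ∃ χ : Cfsg.IrrCharacter G, Cfsg.classInner (fun n : N => (χ : G → ℂ) ⟨n, hNG n.2⟩) (θ : N → ℂ) ≠ 0 ∧ (∀ s ∈ S, ∀ g g' : G, (g' : Γ) = s * g * s⁻¹ → (χ : G → ℂ) g' = (χ : G → ℂ) g) := by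
  classical
  let S₀ : Subgroup (MulAut Γ) := S.map MulAut.conj
  have hD : ∀ a ∈ S₀, ∀ d ∈ G, a d ∈ G := by
    rintro a ⟨s, hs, rfl⟩ d hd
    exact hnorm s hs d hd
  let r : ↥S₀ →* MulAut ↥G := Cfsg.Agent.Lib.Helper81.Glaub.restrictAut S₀ G hD
  have hsolv₀ : Group.IsSolvable ↥S₀ :=
    Group.isSolvable_of_surjective (MonoidHom.subgroupMap_surjective MulAut.conj S)
  have hsolv' : Group.IsSolvable ↥r.range :=
    Group.isSolvable_of_surjective r.rangeRestrict_surjective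
  have hcard₀ : Nat.card ↥S₀ ∣ Nat.card ↥S :=
    Subgroup.card_dvd_of_surjective (MulAut.conj.subgroupMap S)
      (MonoidHom.subgroupMap_surjective MulAut.conj S)
  have hcop' : (Nat.card ↥G).Coprime (Nat.card r.range) :=
    hcop.coprime_dvd_right ((Subgroup.card_range_dvd r).trans hcard₀)
  have hN₁ : (N.subgroupOf G).Normal :=
    ⟨fun n hn g => Subgroup.mem_subgroupOf.2 (hNnormal g.1 g.2 n.1 (Subgroup.mem_subgroupOf.1 hn))⟩
  let _ : Fintype ↥(N.subgroupOf G) := Fintype.ofFinite _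
  have hNS' : ∀ s' ∈ r.range, ∀ x ∈ N.subgroupOf G, s' x ∈ N.subgroupOf G := by
    rintro s' ⟨⟨a, s, hs, rfl⟩, rfl⟩ x hx
    exact Subgroup.mem_subgroupOf.2 (hNS s hs x.1 (Subgroup.mem_subgroupOf.1 hx))
  let ε : ↥(N.subgroupOf G) ≃* ↥N := Subgroup.subgroupOfEquivOfLe hNG
  have hε : ∀ x : ↥(N.subgroupOf G), ((ε x : ↥N) : Γ) = ((x : ↥G) : Γ) := fun x => rfl
  let θ₁ : Cfsg.IrrCharacter ↥(N.subgroupOf G) := Cfsg.Agent.Lib.Helper81.Glaub.irrComp ε θ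
  have hθ₁ : ∀ s' (hs' : s' ∈ r.range) (x : ↥(N.subgroupOf G)),
      θ₁.1 ⟨s' x.1, hNS' s' hs' x.1 x.2⟩ = θ₁.1 x := by
    rintro s' ⟨⟨a, s, hs, rfl⟩, rfl⟩ x
    exact hinv s hs (ε x) (ε ⟨_, _⟩) rfl
  obtain ⟨χ, hχS, hχθ⟩ := Cfsg.Agent.Lib.Helper81.GlaubNormal.exists_inv_over r.range hsolv'
    hcop' (N.subgroupOf G) hNS' θ₁ hθ₁
  refine ⟨χ, ?_, ?_⟩
  · have hch : Cfsg.IsCharacter ↥N (fun n : N => χ.1 ⟨n, hNG n.2⟩) :=
      Cfsg.Agent.Lib.CT.Ops.isCharacter_comp_hom (Subgroup.inclusion hNG)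
        (Cfsg.Agent.Lib.CT.Wedderburn.isCharacter_of_irr χ.2)
    have h1 : Cfsg.classInner (fun n : N => (χ : G → ℂ) ⟨n, hNG n.2⟩) (θ : N → ℂ) =
        (Cfsg.Agent.Lib.Helper81.Mult.mult (fun n : N => χ.1 ⟨n, hNG n.2⟩) θ : ℂ) :=
      Cfsg.Agent.Lib.Helper81.Glaub.classInner_eq_mult hch θ
    rw [h1]
    have h2 := mult_comp_iso ε (fun n : N => χ.1 ⟨n, hNG n.2⟩) θ
    have h3 : (fun a : ↥(N.subgroupOf G) => (fun n : N => χ.1 ⟨n, hNG n.2⟩) (ε a)) =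
        fun x : ↥(N.subgroupOf G) => χ.1 x := by
      funext a
      exact congrArg χ.1 (Subtype.ext (hε a))
    rw [h3] at h2
    rw [← h2]
    exact_mod_cast hχθ
  · intro s hs g g' hg
    have h2 := hχS (r ⟨MulAut.conj s, ⟨s, hs, rfl⟩⟩) ⟨_, rfl⟩ g
    have h3 : (r ⟨MulAut.conj s, ⟨s, hs, rfl⟩⟩) g = g' := Subtype.ext hg.symm
    rw [h3] at h2
    exact h2

end Cfsg.Agent.S4449
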