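import Cfsg.Statements.S4450
import Mathlib
import Cfsg.Agent.Lib.Helper78.InvRed
import Cfsg.Agent.S4449
import Cfsg.Agent.S4448

set_option autoImplicit false
open Cfsg

namespace Cfsg.Agent.S4450

universe u

/-- The coprime existence principle, from S4449 (operator group solvable) and S4448 (quotient
solvable). -/
theorem ce : Cfsg.Agent.Lib.Helper78.InvLin.CE.{u} := by
  intro Γ _ _ G S N _ _ hnorm hNG hNn hNS hcop hsolv θ hθ
  rcases hsolv with hs | hs
  · refine Cfsg.Agent.S4449.result G S N hnorm hNG ?_ hNS hcop hs θ hθ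
    intro g hg n hn
    have h1 := hNn.conj_mem (⟨n, hNG hn⟩ : G) (Subgroup.mem_subgroupOf.2 hn) ⟨g, hg⟩
    exact Subgroup.mem_subgroupOf.1 h1
  · refine Cfsg.Agent.S4448.result G S N hnorm hNG hNS ?_ hs θ hθ
    exact Nat.Coprime.coprime_dvd_left (Subgroup.relIndex_dvd_card N G) hcop


/-- Let N ≤ G be normal subgroups of the finite group Γ with the index of G in Γ coprime to the index of N in G, and Γ/G or G/N solvable. Then for every irreducible character ϑ of N invariant under conjugation by Γ, the induced character ϑ^G has an irreducible constituent invariant under conjugation by Γ. -/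
theorem result {Γ : Type*} [Group Γ] [Fintype Γ] (G N : Subgroup Γ) [hG : G.Normal] [hN : N.Normal] [Fintype G] [Fintype N] (hNG : N ≤ G) (hcop : (G.index).Coprime (N.relIndex G)) (hsolv : Group.IsSolvable (Γ ⧸ G) ∨ Group.IsSolvable (G ⧸ N.subgroupOf G)) (θ : Cfsg.IrrCharacter N) (hinv : ∀ (x : Γ) (n : N), (θ : N → ℂ) ⟨x * n * x⁻¹, hN.conj_mem n n.2 x⟩ = (θ : N → ℂ) n) : ∃ χ : Cfsg.IrrCharacter G, Cfsg.classInner (fun n : N => (χ : G → ℂ) ⟨n, hNG n.2⟩) (θ : N → ℂ) ≠ 0 ∧ ∀ (x : Γ) (g : G), (χ : G → ℂ) ⟨x * g * x⁻¹, hG.conj_mem g g.2 x⟩ = (χ : G → ℂ) g := by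
  exact Cfsg.Agent.Lib.Helper78.InvRed.general_case ce G N hNG hcop hsolv θ hinv

end Cfsg.Agent.S4450
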