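import Cfsg.Statements.S4459
import Cfsg.Agent.Lib.Helper3.CdPd
import Cfsg.Agent.S4457
import Cfsg.Agent.S0169
import Cfsg.Agent.Lib.Helper80.CenterDvd
import Cfsg.Agent.Lib.Helper80.Core

set_option autoImplicit false
open Cfsg

namespace Cfsg.Agent.S4459

/-- Let G be a non-abelian finite group and p a prime. Then the irreducible character degrees of G are exactly 1 and p if and only if either G has an abelian normal subgroup of index p or the centre of G has index p³. -/
theorem result {G : Type*} [Group G] [Finite G] (hG : ∃ a b : G, a * b ≠ b * a) (p : ℕ) (hp : p.Prime) : ((∀ χ : Cfsg.IrrCharacter G, Cfsg.charDegree (χ : G → ℂ) = 1 ∨ Cfsg.charDegree (χ : G → ℂ) = p) ∧ ∃ χ : Cfsg.IrrCharacter G, Cfsg.charDegree (χ : G → ℂ) = p) ↔ ((∃ A : Subgroup G, A.Normal ∧ (∀ a ∈ A, ∀ b ∈ A, a * b = b * a) ∧ A.index = p) ∨ (Subgroup.center G).index = p ^ 3) := by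
  classical
  constructor
  · rintro ⟨hcd, hm⟩
    rcases Cfsg.Agent.S4457.result p hcd hm hp.one_lt.ne' with
      h | ⟨q, e, hq, hpe, P, A, hPn, hAn, hP, hA, hPA, hsup⟩
    · exact Or.inl h
    · have hqp : q = p := by
        have he : e ≠ 0 := by
          rintro rfl
          rw [pow_zero] at hpe
          exact hp.one_lt.ne' hpe
        have hdvd : q ∣ p := by
          rw [hpe]
          exact dvd_pow_self q he
        exact (Nat.prime_dvd_prime_iff_eq hq hp).1 hdvd
      subst hqp
      haveI := hPn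
      haveI := hAn
      exact Cfsg.Agent.Lib.Helper3.CdPd.product_case q hp hcd hG P A hP hA hPA hsup
  · intro h
    have hnl : ∃ χ : IrrCharacter G, charDegree (χ : G → ℂ) ≠ 1 := by
      by_contra hall
      push Not at hall
      obtain ⟨a, b, hab⟩ := hG
      exact hab (Cfsg.Agent.Lib.Helper3.TDBasic.comm_of_forall_degree_one hall a b)
    have hcd : ∀ χ : IrrCharacter G, charDegree (χ : G → ℂ) = 1 ∨ charDegree (χ : G → ℂ) = p := by
      intro χ
      rcases h with ⟨A, hAn, hAab, hAidx⟩ | hcen
      · obtain ⟨n, ρ, hρ, hχ⟩ := χ.2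
        haveI := hAn
        have h1 := Cfsg.Agent.S0169.ito ρ hρ A hAab
        rw [hAidx] at h1
        have h2 : charDegree (χ : G → ℂ) = n := by
          rw [← hχ, Cfsg.Agent.Lib.Helper80.Integrality.charDegree_eq_finrank]
          simp
        rw [h2]
        exact (Nat.dvd_prime hp).1 h1
      · have h1 := Cfsg.Agent.Lib.Helper80.CenterDvd.charDegree_dvd_index_center χ
        have h2 := Cfsg.Agent.Lib.Helper80.Core.charDegree_sq_le_index_center χ
        rw [hcen] at h1 h2
        obtain ⟨j, hj, hjeq⟩ := (Nat.dvd_prime_pow hp).1 h1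
        rw [hjeq] at h2 ⊢
        rw [← pow_mul] at h2
        have h3 : j * 2 ≤ 3 := (Nat.pow_le_pow_iff_right hp.one_lt).1 h2
        have h4 : j = 0 ∨ j = 1 := by omega
        rcases h4 with rfl | rfl
        · left
          simp
        · right
          simp
    refine ⟨hcd, ?_⟩
    obtain ⟨χ, hχ⟩ := hnl
    exact ⟨χ, (hcd χ).resolve_left hχ⟩

end Cfsg.Agent.S4459
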