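import Cfsg.Statements.S4482
import Cfsg.Agent.Lib.Helper77.DihOrd6

set_option maxHeartbeats 400000

set_option autoImplicit false
open Cfsg

namespace Cfsg.Agent.S4482

universe u

open Cfsg.Agent.Lib.CT.Wedderburn Cfsg.Agent.Lib.Helper77.DihG Cfsg.Agent.Lib.Helper77.DihHom
  Cfsg.Agent.Lib.Helper77.DihOrd1 Cfsg.Agent.Lib.Helper77.DihOrd2 Cfsg.Agent.Lib.Helper77.DihOrd3
  Cfsg.Agent.Lib.Helper77.DihOrd4 Cfsg.Agent.Lib.Helper77.DihOrd5 Cfsg.Agent.Lib.Helper77.DihOrd6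

/-- The order formula over `ℂ`, with `h = 2 ^ (n - 2)` abstracted. -/
theorem core {G : Type u} [Group G] [Finite G] (M : Ideal AlgInt) (hM : IsPModular 2 M)
    (P : Sylow 2 G) (σ τ : G) (h : ℕ) (g : Gens (P : Subgroup G) σ τ h) (hh : h = 2 ∨ 4 ≤ h)
    (hc1 : IsConj (σ ^ h) τ) (hc2 : IsConj (σ ^ h) (σ * τ))
    (χ₁ : IrrCharacter G) (hχ₁ : χ₁ ∈ principalBlock M G) (h1 : (χ₁ : G → ℂ) ≠ fun _ => 1)
    (δ₁ : ℤ) (hδ₁ : δ₁ = 1 ∨ δ₁ = -1)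
    (hval : ∀ y : ↥(Subgroup.zpowers σ), y ≠ 1 → (χ₁ : G → ℂ) (y : G) = (δ₁ : ℂ)) :
    (charDegree (χ₁ : G → ℂ) : ℤ) ≠ δ₁ ∧
    (Nat.card G : ℂ) * ((charDegree (χ₁ : G → ℂ) : ℂ) - (δ₁ : ℂ)) ^ 2 =
      2 * (charDegree (χ₁ : G → ℂ) : ℂ) * ((charDegree (χ₁ : G → ℂ) : ℂ) + (δ₁ : ℂ)) *
        (Nat.card ↥(Subgroup.centralizer ({σ ^ h} : Set G)) : ℂ) ^ 3 *
        (1 / (Nat.card ↥(Subgroup.centralizer ({σ ^ h, τ} : Set G)) : ℂ) +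
          1 / (Nat.card ↥(Subgroup.centralizer ({σ ^ h, σ * τ} : Set G)) : ℂ)) ^ 2 := by
  classical
  let _ : Fintype G := Fintype.ofFinite G
  let _ : Fintype ↥(Subgroup.centralizer ({σ ^ h} : Set G)) := Fintype.ofFinite _
  have D := g.dihData
  obtain ⟨χ', ψ, hχ', hω, hχ'val, hoddrel⟩ := exists_phi M hM P D hh χ₁ hχ₁ h1 δ₁ hδ₁ hval
  obtain ⟨r, hr2, hr3, hr4⟩ := exists_retraction_J P D
  have hnil := nil_all P g hc1 hc2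
  have hall := conj_J_of_invol P g hc1 hc2
  have hδsq : (δ₁ : ℂ) * (δ₁ : ℂ) = 1 := by
    rcases hδ₁ with rfl | rfl <;> norm_num
  have hδ2 : (δ₁ : ℂ) ^ 2 = 1 := by
    rw [pow_two]
    exact hδsq
  obtain ⟨Φ, hΦ⟩ : ∃ Φ : G → ℂ, ∀ x, Φ x =
      1 + (δ₁ : ℂ) * (χ₁ : G → ℂ) x - (δ₁ : ℂ) * (χ' : G → ℂ) x := ⟨_, fun _ => rfl⟩
  have hΦcl : ∀ a x : G, Φ (a * x * a⁻¹) = Φ x := by
    intro a x
    rw [hΦ, hΦ, char_isClassFunction (isCharacter_of_irr χ₁.2) x a,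
      char_isClassFunction (isCharacter_of_irr χ'.2) x a]
  have hΦodd : ∀ x : G, Odd (orderOf x) → Φ x = 0 := by
    intro x hx
    rw [hΦ, hoddrel x hx, sub_self]
  have hΦr : ∀ x : ↥(Subgroup.centralizer ({σ ^ h} : Set G)), r x ∈ Subgroup.zpowers σ →
      Φ (x : G) = 2 - ext σ ψ (r x) - (ext σ ψ (r x))⁻¹ := by
    intro x hxR
    by_cases hx1 : r x = 1
    · have e0 : (⟨1, Subgroup.one_mem _⟩ : ↥(Subgroup.zpowers σ)) = 1 := rfl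
      rw [hΦodd _ (hr4 x hx1), hx1, ext_apply σ ψ 1 (Subgroup.one_mem _), e0, map_one,
        Units.val_one, inv_one]
      norm_num
    · have e1 := value_retract M hM P D hnil r hr2 hr3 x hx1 χ₁ hχ₁
      have e2 := value_retract M hM P D hnil r hr2 hr3 x hx1 χ' hχ'
      have hy1 : (⟨r x, hxR⟩ : ↥(Subgroup.zpowers σ)) ≠ 1 :=
        fun e => hx1 (congrArg Subtype.val e)
      have e3 := hval ⟨r x, hxR⟩ hy1
      have e4 := hχ'val ⟨r x, hxR⟩ hy1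
      rw [hΦ, e1, e2, e3, e4, ext_apply σ ψ (r x) hxR]
      linear_combination (1 - ((ψ ⟨r x, hxR⟩ : ℂˣ) : ℂ) - (((ψ ⟨r x, hxR⟩ : ℂˣ) : ℂ))⁻¹) * hδsq
  obtain ⟨Inv, hInvdef⟩ : ∃ Inv : Finset G,
      Inv = Finset.univ.filter (fun x : G => IsConj (σ ^ h) x) := ⟨_, rfl⟩
  have hInv : ∀ x, x ∈ Inv ↔ IsConj (σ ^ h) x := by
    intro x
    rw [hInvdef, Finset.mem_filter]
    simp
  obtain ⟨IC, hICdef⟩ : ∃ IC : Finset ↥(Subgroup.centralizer ({σ ^ h} : Set G)),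
      IC = Finset.univ.filter (fun x : ↥(Subgroup.centralizer ({σ ^ h} : Set G)) =>
        orderOf (x : G) = 2 ∧ (x : G) ≠ σ ^ h) := ⟨_, rfl⟩
  have hIC : ∀ x, x ∈ IC ↔ orderOf (x : G) = 2 ∧ (x : G) ≠ σ ^ h := by
    intro x
    rw [hICdef, Finset.mem_filter]
    simp
  have hsec := section_sum P g Inv hInv hall r hr2 hr3 hr4 Φ hΦcl hΦodd IC hIC
  rw [local_sum g r hr2 hr3 hr4 ψ hω Φ hΦr IC hIC] at hsec
  have hcardIC := card_IC P g r hr2 hr3 IC hIC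
  have hclass := card_class (σ ^ h)
  rw [← hInvdef] at hclass
  have hs1 := sum_char_pairs χ₁ (σ ^ h)
  have hs2 := sum_char_pairs χ' (σ ^ h)
  rw [← hInvdef] at hs1 hs2
  have hT : ∑ x ∈ Inv, ∑ y ∈ Inv, Φ (x * y) = (Inv.card : ℂ) ^ 2 +
      (δ₁ : ℂ) * ((Inv.card : ℂ) ^ 2 * (χ₁ : G → ℂ) (σ ^ h) ^ 2 / (χ₁ : G → ℂ) 1) -
      (δ₁ : ℂ) * ((Inv.card : ℂ) ^ 2 * (χ' : G → ℂ) (σ ^ h) ^ 2 / (χ' : G → ℂ) 1) := by
    simp only [hΦ, Finset.sum_sub_distrib, Finset.sum_add_distrib, ← Finset.mul_sum,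
      Finset.sum_const, nsmul_eq_mul, hs1, hs2]
    ring
  have hJR : σ ^ h ∈ Subgroup.zpowers σ := DihData.J_mem σ h
  have hJ1 : (⟨σ ^ h, hJR⟩ : ↥(Subgroup.zpowers σ)) ≠ 1 := by
    intro e
    have e' : σ ^ h = 1 := congrArg Subtype.val e
    have h2 := D.orderOf_J
    rw [e', orderOf_one] at h2
    exact absurd h2 (by norm_num)
  have hχ₁J : (χ₁ : G → ℂ) (σ ^ h) = (δ₁ : ℂ) := hval ⟨σ ^ h, hJR⟩ hJ1
  have hχ'J := hχ'val ⟨σ ^ h, hJR⟩ hJ1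
  have hψJ : ((ψ ⟨σ ^ h, hJR⟩ : ℂˣ) : ℂ) * ((ψ ⟨σ ^ h, hJR⟩ : ℂˣ) : ℂ) = 1 := by
    have e : (⟨σ ^ h, hJR⟩ : ↥(Subgroup.zpowers σ)) * ⟨σ ^ h, hJR⟩ = 1 := Subtype.ext D.J_sq
    rw [← Units.val_mul, ← map_mul, e, map_one, Units.val_one]
  have hχ'Jsq : (χ' : G → ℂ) (σ ^ h) ^ 2 = 4 := by
    have hinv : (((ψ ⟨σ ^ h, hJR⟩ : ℂˣ) : ℂ))⁻¹ = ((ψ ⟨σ ^ h, hJR⟩ : ℂˣ) : ℂ) :=
      inv_eq_of_mul_eq_one_left hψJ
    have e : (χ' : G → ℂ) (σ ^ h) = (δ₁ : ℂ) * (((ψ ⟨σ ^ h, hJR⟩ : ℂˣ) : ℂ) +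
        ((ψ ⟨σ ^ h, hJR⟩ : ℂˣ) : ℂ)) := by
      rw [hinv] at hχ'J
      exact hχ'J
    rw [e]
    linear_combination (4 * ((ψ ⟨σ ^ h, hJR⟩ : ℂˣ) : ℂ) * ((ψ ⟨σ ^ h, hJR⟩ : ℂˣ) : ℂ)) * hδsq +
      4 * hψJ
  have hx₁ : (charDegree (χ₁ : G → ℂ) : ℂ) = (χ₁ : G → ℂ) 1 :=
    char_natCast_charDegree (isCharacter_of_irr χ₁.2)
  have hrel1 := hoddrel 1 (by rw [orderOf_one]; exact odd_one)
  have hχ'1 : (χ' : G → ℂ) 1 = (charDegree (χ₁ : G → ℂ) : ℂ) + (δ₁ : ℂ) := by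
    rw [hx₁]
    linear_combination (-(δ₁ : ℂ)) * hrel1 + ((χ₁ : G → ℂ) 1 - (χ' : G → ℂ) 1) * hδsq
  have hx₁pos : 0 < charDegree (χ₁ : G → ℂ) := irr_charDegree_pos χ₁.2
  have hx₁ne : (charDegree (χ₁ : G → ℂ) : ℂ) ≠ 0 := Nat.cast_ne_zero.mpr hx₁pos.ne'
  have hxδne : (charDegree (χ₁ : G → ℂ) : ℂ) + (δ₁ : ℂ) ≠ 0 := by
    rw [← hχ'1]
    exact irr_apply_one_ne_zero χ'.2
  have hNpos : 0 < Inv.card := Finset.card_pos.mpr ⟨σ ^ h, (hInv _).mpr (IsConj.refl _)⟩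
  have hNne : (Inv.card : ℂ) ≠ 0 := Nat.cast_ne_zero.mpr hNpos.ne'
  have hτC : τ ∈ Subgroup.centralizer ({σ ^ h} : Set G) :=
    Cfsg.Agent.Lib.Helper77.DihG4.P_le_centralizer_J D g.hτ
  have hICpos : 0 < IC.card := Finset.card_pos.mpr ⟨⟨τ, hτC⟩, (hIC _).mpr ⟨g.ordτ, fun e =>
    g.tau_notMem (by have e' : τ = σ ^ h := e; rw [e']; exact hJR)⟩⟩
  have hICne : (IC.card : ℂ) ≠ 0 := Nat.cast_ne_zero.mpr hICpos.ne'
  have eq := hT.symm.trans hsec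
  rw [hχ₁J, hδ2, hχ'Jsq, ← hx₁, hχ'1] at eq
  have eq2 : (Inv.card : ℂ) ^ 2 * ((charDegree (χ₁ : G → ℂ) : ℂ) *
        ((charDegree (χ₁ : G → ℂ) : ℂ) + (δ₁ : ℂ))) +
      (δ₁ : ℂ) * (Inv.card : ℂ) ^ 2 * ((charDegree (χ₁ : G → ℂ) : ℂ) + (δ₁ : ℂ)) -
      4 * (δ₁ : ℂ) * (Inv.card : ℂ) ^ 2 * (charDegree (χ₁ : G → ℂ) : ℂ) =
      (Inv.card : ℂ) * (2 * (IC.card : ℂ) ^ 2) * ((charDegree (χ₁ : G → ℂ) : ℂ) *
        ((charDegree (χ₁ : G → ℂ) : ℂ) + (δ₁ : ℂ))) := by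
    rw [← eq]
    field_simp
  have hmain : (Inv.card : ℂ) * ((charDegree (χ₁ : G → ℂ) : ℂ) - (δ₁ : ℂ)) ^ 2 =
      2 * (charDegree (χ₁ : G → ℂ) : ℂ) * ((charDegree (χ₁ : G → ℂ) : ℂ) + (δ₁ : ℂ)) *
        (IC.card : ℂ) ^ 2 := by
    apply mul_left_cancel₀ hNne
    linear_combination eq2
  refine ⟨?_, ?_⟩
  · intro e
    have e' : (charDegree (χ₁ : G → ℂ) : ℂ) = (δ₁ : ℂ) := by
      have e2 := congrArg (Int.cast : ℤ → ℂ) e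
      rw [Int.cast_natCast] at e2
      exact e2
    have h0 : (Inv.card : ℂ) * ((charDegree (χ₁ : G → ℂ) : ℂ) - (δ₁ : ℂ)) ^ 2 = 0 := by
      rw [e', sub_self]
      ring
    exact mul_ne_zero (mul_ne_zero (mul_ne_zero two_ne_zero hx₁ne) hxδne) (pow_ne_zero 2 hICne)
      (hmain.symm.trans h0)
  · rw [hcardIC] at hmain
    rw [hclass]
    linear_combination (Nat.card ↥(Subgroup.centralizer ({σ ^ h} : Set G)) : ℂ) * hmain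

/-- An order formula for groups with dihedral Sylow 2-subgroups and one class of involutions. Let G be a finite group whose Sylow 2-subgroup P = ⟨σ, τ⟩ is dihedral of order 2^n ≥ 8 (σ of order 2^(n−1), τ an involution inverting σ), let J be the central involution σ^(2^(n−2)), and suppose J, τ and στ are conjugate in G. Fix M over 2 and let χ₁ be an irreducible character in the principal 2-block taking one constant value δ₁ = ±1 at every non-identity power of σ, with χ₁ ≠ 1. Then, with x₁ = χ₁(1) and c(·) denoting orders of centralizers, x₁ ≠ δ₁ and #G · (x₁ − δ₁)² = 2·x₁(x₁ + δ₁)·c(J)³·(1/c(J, τ) + 1/c(J, στ))², where c(J, y) is the order of the joint centralizer of J and y. -/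
theorem result {G : Type*} [Group G] [Finite G] (M : Ideal Cfsg.AlgInt) (hM : Cfsg.IsPModular 2 M) (n : ℕ) (hn : 3 ≤ n) (P : Sylow 2 G) (σ τ : G) (hσ : σ ∈ (P : Subgroup G)) (hτ : τ ∈ (P : Subgroup G)) (hσo : orderOf σ = 2 ^ (n - 1)) (hτo : orderOf τ = 2) (hrel : τ * σ * τ⁻¹ = σ⁻¹) (hgen : Subgroup.closure ({σ, τ} : Set G) = (P : Subgroup G)) (hconj : IsConj (σ ^ (2 ^ (n - 2))) τ ∧ IsConj (σ ^ (2 ^ (n - 2))) (σ * τ)) (χ₁ : Cfsg.IrrCharacter G) (hχ₁ : χ₁ ∈ Cfsg.principalBlock M G) (h1 : (χ₁ : G → ℂ) ≠ (fun _ => 1)) (δ₁ : ℤ) (hδ₁ : δ₁ = 1 ∨ δ₁ = -1) (hval : ∀ l : ℕ, 0 < l → l < 2 ^ (n - 1) → (χ₁ : G → ℂ) (σ ^ l) = δ₁) : (Cfsg.charDegree (χ₁ : G → ℂ) : ℤ) ≠ δ₁ ∧ (Nat.card G : ℚ) * ((Cfsg.charDegree (χ₁ : G → ℂ) : ℚ) - δ₁) ^ 2 = 2 * (Cfsg.charDegree (χ₁ : G → ℂ) : ℚ) * ((Cfsg.charDegree (χ₁ : G → ℂ) : ℚ) + δ₁) * (Nat.card (Subgroup.centralizer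 ({σ ^ (2 ^ (n - 2))} : Set G)) : ℚ) ^ 3 * (1 / (Nat.card (Subgroup.centralizer ({σ ^ (2 ^ (n - 2)), τ} : Set G)) : ℚ) + 1 / (Nat.card (Subgroup.centralizer ({σ ^ (2 ^ (n - 2)), σ * τ} : Set G)) : ℚ)) ^ 2 := by
  have h2h : 2 ^ (n - 1) = 2 * 2 ^ (n - 2) := by
    have e : n - 1 = (n - 2) + 1 := by omega
    rw [e, pow_succ]
    ring
  have hh2 : 2 ≤ 2 ^ (n - 2) := by
    calc 2 = 2 ^ 1 := by norm_num
      _ ≤ 2 ^ (n - 2) := Nat.pow_le_pow_right (by norm_num) (by omega)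
  have hh : 2 ^ (n - 2) = 2 ∨ 4 ≤ 2 ^ (n - 2) := by
    by_cases h3 : n = 3
    · left
      subst h3
      norm_num
    · right
      calc 4 = 2 ^ 2 := by norm_num
        _ ≤ 2 ^ (n - 2) := Nat.pow_le_pow_right (by norm_num) (by omega)
  have g : Cfsg.Agent.Lib.Helper77.DihOrd2.Gens (P : Subgroup G) σ τ (2 ^ (n - 2)) :=
    ⟨hh2, hσ, hτ, by rw [hσo, h2h], hτo, hrel, hgen⟩
  have hval' : ∀ y : ↥(Subgroup.zpowers σ), y ≠ 1 → (χ₁ : G → ℂ) (y : G) = (δ₁ : ℂ) := by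
    classical
    intro y hy
    have hfin : IsOfFinOrder σ := isOfFinOrder_of_finite σ
    have hm := (hfin.mem_zpowers_iff_mem_range_orderOf).mp y.2
    rw [Finset.mem_image] at hm
    obtain ⟨l, hl, hly⟩ := hm
    rw [Finset.mem_range, hσo] at hl
    have hl0 : 0 < l := by
      rcases Nat.eq_zero_or_pos l with h0 | h0
      · exfalso
        apply hy
        apply Subtype.ext
        rw [← hly, h0, pow_zero]
        rfl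
      · exact h0
    rw [← hly]
    exact hval l hl0 hl
  have hc := core M hM P σ τ (2 ^ (n - 2)) g hh hconj.1 hconj.2 χ₁ hχ₁ h1 δ₁ hδ₁ hval'
  refine ⟨hc.1, ?_⟩
  have h2 := hc.2
  apply Rat.cast_injective (α := ℂ)
  push_cast
  exact h2

end Cfsg.Agent.S4482
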