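import Cfsg.Statements.S4507
import Cfsg.Agent.Lib.Helper17.BqExc2
import Cfsg.Agent.Lib.Helper17.BqPow
import Cfsg.Agent.Lib.Helper17.BqSetup
import Cfsg.Agent.Lib.Helper17.BqTop2

set_option autoImplicit false
open Cfsg

namespace Cfsg.Agent.S4507

/-- Let G be a finite group whose order g is divisible by the prime p exactly once, g′ = g/p, and fix a maximal ideal M of the algebraic integers containing p. Call two irreducible characters p-conjugate when a field automorphism of ℂ fixing the g′-th roots of unity carries one to the other. Let B be a p-block of positive defect (its defect group is a Sylow p-subgroup). Then B contains a subset Y (the exceptional family) such that: Y is a full p-conjugacy class (its members are pairwise p-conjugate and every p-conjugate of a member of Y lies in Y); every member of B outside Y is p-conjugate only to itself; the size t of Y divides p − 1 and B has exactly t + (p − 1)/t members;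 and there are signs δ_χ = ±1 (χ ∈ B) such that for every p-regular element x and every θ ∈ Y, Σ_{χ ∈ B ∖ Y} δ_χ χ(x) + δ_θ θ(x) = 0. -/
theorem result {G : Type*} [Group G] [Finite G] (p : ℕ) [Fact p.Prime] (M : Ideal Cfsg.AlgInt) (hM : Cfsg.IsPModular p M) (hdiv : p ∣ Nat.card G) (hsq : ¬ p ^ 2 ∣ Nat.card G) (B : Set (Cfsg.IrrCharacter G)) (hB : Cfsg.IsPBlock M B) (hd : 0 < Cfsg.blockDefect p B) : ∃ Y : Set (Cfsg.IrrCharacter G), Y ⊆ B ∧ Y.Nonempty ∧ (∀ θ ∈ Y, ∀ ψ : Cfsg.IrrCharacter G, (∃ σ : ℂ ≃+* ℂ, σ (Complex.exp (2 * Real.pi * Complex.I / ((Nat.card G / p ^ (Nat.card G).factorization p) : ℕ))) = Complex.exp (2 * Real.pi * Complex.I / ((Nat.card G / p ^ (Nat.card G).factorization p) : ℕ)) ∧ (ψ : G → ℂ) = fun g => σ ((θ : G → ℂ) g)) ↔ ψ ∈ Y) ∧ (∀ χ ∈ B, χ ∉ Y → ∀ ψ : Cfsg.IrrCharacter G, (∃ σ : ℂ ≃+* ℂ, σ (Complex.exp (2 * Real.pi * Complex.I / ((Nat.card G / p ^ (Nat.card G).factorization p) : ℕ))) = Complex.exp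 (2 * Real.pi * Complex.I / ((Nat.card G / p ^ (Nat.card G).factorization p) : ℕ)) ∧ (ψ : G → ℂ) = fun g => σ ((χ : G → ℂ) g)) → ψ = χ) ∧ Nat.card Y ∣ p - 1 ∧ Nat.card B = Nat.card Y + (p - 1) / Nat.card Y ∧ ∃ δ : Cfsg.IrrCharacter G → ℤ, (∀ χ ∈ B, δ χ = 1 ∨ δ χ = -1) ∧ ∀ x : G, ¬ p ∣ orderOf x → ∀ θ ∈ Y, (∑ᶠ χ ∈ B \ Y, (δ χ : ℂ) * (χ : G → ℂ) x) + (δ θ : ℂ) * (θ : G → ℂ) x = 0 := by
  classical
  have hMp := Cfsg.Agent.Lib.Helper77.LocalRing.isPrime_of_isPModular hM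
  obtain ⟨P, hP, hBP, -, θ, hθP, hind⟩ :=
    Cfsg.Agent.Lib.Helper17.BqSetup.exists_setup p hM hdiv hsq B hB hd
  have hθb : θ ∈ Cfsg.blockOf M (θ : ↥(Subgroup.centralizer ((P : Subgroup G) : Set G)) → ℂ) :=
    Cfsg.Agent.Lib.Helper77.DefectClass.self_mem_blockOf hMp θ
  have hT : ∀ g : G, g ∈ Cfsg.Agent.Lib.Helper74.McKayDefs.stab (P : Subgroup G)
      (θ : ↥(Subgroup.centralizer ((P : Subgroup G) : Set G)) → ℂ) ↔
      (g ∈ Subgroup.normalizer ((P : Subgroup G) : Set G) ∧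
        ∀ c c' : Subgroup.centralizer ((P : Subgroup G) : Set G), (c' : G) = g * c * g⁻¹ →
          (θ : Subgroup.centralizer ((P : Subgroup G) : Set G) → ℂ) c' =
            (θ : Subgroup.centralizer ((P : Subgroup G) : Set G) → ℂ) c) := fun g => Iff.rfl
  have hlow := Cfsg.Agent.Lib.Helper17.BqTop2.lower_bound' p M hM P hP B hB _ hind θ hθb hθP _ hT
    _ rfl
  haveI : Fintype G := Fintype.ofFinite G
  have := Cfsg.Agent.Lib.CT.Wedderburn.finite_irrCharacter G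
  haveI : Fintype (Cfsg.IrrCharacter G) := Fintype.ofFinite _
  have := Cfsg.Agent.Lib.CT.Wedderburn.finite_irrCharacter
    ↥(Subgroup.centralizer ((P : Subgroup G) : Set G))
  haveI : Fintype (Cfsg.IrrCharacter ↥(Subgroup.centralizer ((P : Subgroup G) : Set G))) :=
    Fintype.ofFinite _
  have hPab : ∀ a ∈ (P : Subgroup G), ∀ b ∈ (P : Subgroup G), a * b = b * a :=
    fun a ha b hb => Cfsg.Agent.Lib.Helper80.DefOneLoc.comm_of_mem P hP ha hb
  have := Cfsg.Agent.Lib.Helper80.AbSylowCh.finite_hom (P : Subgroup G) hPab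
  haveI : Fintype (↥(P : Subgroup G) →* ℂˣ) := Fintype.ofFinite _
  haveI : Fintype ↥(Subgroup.centralizer ((P : Subgroup G) : Set G)) := Fintype.ofFinite _
  haveI : Fintype ↥(P : Subgroup G) := Fintype.ofFinite _
  haveI : Fintype ↥(Subgroup.normalizer ((P : Subgroup G) : Set G)) := Fintype.ofFinite _
  obtain ⟨π, hπP, hπreg⟩ := Cfsg.Agent.Lib.Helper80.DefOneLoc.exists_proj P hP
  obtain ⟨Y, hYB, hYne, h1, h2, h3, h4, δ, hδ, hrel⟩ :=
    Cfsg.Agent.Lib.Helper17.BqExc2.galois_structure P hP M hM π hπP hπreg B hB hBP _ hind θ hθb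
      hθP _ hT _ rfl hlow
  have hm : Nat.card G / p ^ (Nat.card G).factorization p ∣ Nat.card G :=
    Nat.ordCompl_dvd _ _
  refine ⟨Y, hYB, hYne, ?_, ?_, h3, h4, δ, hδ, hrel⟩
  · intro η hη ψ
    rw [Cfsg.Agent.Lib.Helper17.BqPow.pconj_iff _ hm (η : G → ℂ) (ψ : G → ℂ)
      (Cfsg.Agent.Lib.CT.Wedderburn.isCharacter_of_irr η.2)]
    exact h1 η hη ψ
  · intro χ hχ hχY ψ hσ
    rw [Cfsg.Agent.Lib.Helper17.BqPow.pconj_iff _ hm (χ : G → ℂ) (ψ : G → ℂ)
      (Cfsg.Agent.Lib.CT.Wedderburn.isCharacter_of_irr χ.2)] at hσ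
    exact h2 χ hχ hχY ψ hσ

end Cfsg.Agent.S4507
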