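import Cfsg.Statements.S4540
import Cfsg.Agent.Lib.Helper82.CycSum
import Cfsg.Agent.Lib.Helper82.SecSq
import Cfsg.Agent.Lib.Helper82.SecLocal
import Cfsg.Agent.Lib.Helper82.SecCong
import Cfsg.Agent.Lib.Helper82.SecRow
import Cfsg.Agent.Lib.Helper82.TwoUnits
import Cfsg.Agent.Lib.Helper82.TwoAdic
import Cfsg.Agent.Lib.Helper82.SecHeight
import Cfsg.Agent.S4431
import Cfsg.Agent.S4716
import Cfsg.Agent.S4539

set_option autoImplicit false
open Cfsg

namespace Cfsg.Agent.S4540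

open Cfsg.Agent.Lib.Helper77.LocalRing Cfsg.Agent.Lib.Helper82.SecSq
  Cfsg.Agent.Lib.Helper82.SecLocal Cfsg.Agent.Lib.Helper82.CycSum
  Cfsg.Agent.Lib.Helper82.SecCong Cfsg.Agent.Lib.Helper82.SecRow
  Cfsg.Agent.Lib.Helper82.TwoUnits Cfsg.Agent.Lib.Helper82.TwoAdic
  Cfsg.Agent.Lib.Helper82.SecHeight
  Cfsg.Agent.Lib.Helper80.Contrib Cfsg.Agent.Lib.Helper75.Section
  Cfsg.Agent.Lib.Helper75.BlockRank Cfsg.Agent.S4539
open scoped ComplexConjugate
open Finset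

/-- Let B be a 2-block of the finite group G (relative to a maximal ideal M of the algebraic integers containing 2) of defect d with defect group D. Let z be an element of D commuting with every element of D, and let b be a block of the centralizer C of z with defect group D that induces B (a major subsection (z, b)). If b has 2-regular rank at most three, then 3·k(B) ≤ 3·k₀(B) + 2·Σ 2 ^ h(χ), where k(B) is the number of members of B, k₀(B) the number of members of height zero, and the sum runs over the members χ of B of positive height h(χ); this bound is at most 3·2 ^ d, so in particular B contains at most 2 ^ d irreducible characters. -/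
theorem result {G : Type*} [Group G] [Finite G] (M : Ideal Cfsg.AlgInt) (hM : Cfsg.IsPModular 2 M) (B : Set (Cfsg.IrrCharacter G)) (hB : Cfsg.IsPBlock M B) (D : Subgroup G) (hD : Cfsg.IsDefectGroup 2 M B D) (z : G) (hzD : z ∈ D) (hzc : ∀ d ∈ D, d * z = z * d) (b : Set (Cfsg.IrrCharacter ↥(Subgroup.centralizer ({z} : Set G)))) (hb : Cfsg.IsInducedBlock M (Subgroup.centralizer ({z} : Set G)) b B) (hbD : Cfsg.IsDefectGroup 2 M b (D.subgroupOf (Subgroup.centralizer ({z} : Set G)))) (hl : Cfsg.blockRank 2 b ≤ 3) : 3 * Nat.card B ≤ 3 * Nat.card {χ : Cfsg.IrrCharacter G // χ ∈ B ∧ Cfsg.blockHeight 2 B (χ : G → ℂ) = 0} + 2 * (∑ᶠ χ ∈ {χ : Cfsg.IrrCharacter G | χ ∈ B ∧ 1 ≤ Cfsg.blockHeight 2 B (χ : G → ℂ)}, 2 ^ Cfsg.blockHeight 2 B (χ : G → ℂ)) ∧ 3 * Nat.card {χ : Cfsg.IrrCharacter G // χ ∈ B ∧ Cfsg.blockHeight 2 B (χ : G → ℂ) = 0} + 2 * (∑ᶠ χ ∈ {χ : Cfsg.IrrCharacter G | χ ∈ B ∧ 1 ≤ Cfsg.blockHeight 2 B (χ : G → ℂ)}, 2 ^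 Cfsg.blockHeight 2 B (χ : G → ℂ)) ≤ 3 * 2 ^ Cfsg.blockDefect 2 B := by
  classical
  have _hB := hB
  have hpp : (2 : ℕ).Prime := Nat.prime_two
  have hMp : M.IsPrime := isPrime_of_isPModular hM
  have : Fintype G := Fintype.ofFinite G
  have : Fintype (Subgroup.centralizer ({z} : Set G)) := Fintype.ofFinite _
  have := Cfsg.Agent.Lib.CT.Wedderburn.finite_irrCharacter G
  have : Fintype (IrrCharacter G) := Fintype.ofFinite _
  have := Cfsg.Agent.Lib.CT.Wedderburn.finite_irrCharacter (Subgroup.centralizer ({z} : Set G))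
  have : Fintype (IrrCharacter (Subgroup.centralizer ({z} : Set G))) := Fintype.ofFinite _
  have hbb : IsPBlock M b := hb.1
  have hp0 : ((2 : ℕ) : ℂ) ≠ 0 := Nat.cast_ne_zero.2 hpp.ne_zero
  have e2 : ((2 : ℕ) : ℂ) = 2 := by norm_num
  -- the defects agree and `z` is a `2`-element
  have hDC : D ≤ Subgroup.centralizer ({z} : Set G) := by
    intro d hd
    rw [Subgroup.mem_centralizer_iff]
    intro h hh
    rw [Set.mem_singleton_iff] at hh
    rw [hh]
    exact (hzc d hd).symm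
  have hcD := Cfsg.Agent.Lib.Helper16.Defect.card_defectGroup 2 hM B hB D hD
  have hcD' := Cfsg.Agent.Lib.Helper16.Defect.card_defectGroup 2 hM b hbb _ hbD
  have hdb : blockDefect 2 b = blockDefect 2 B := by
    have h1 : Nat.card (D.subgroupOf (Subgroup.centralizer ({z} : Set G))) = Nat.card D :=
      Nat.card_congr (Subgroup.subgroupOfEquivOfLe hDC).toEquiv
    rw [hcD, hcD'] at h1
    exact Nat.pow_right_injective hpp.two_le h1
  obtain ⟨k, hk⟩ : ∃ k : ℕ, orderOf z = 2 ^ k := by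
    have h1 : orderOf z ∣ Nat.card D := Subgroup.orderOf_dvd_natCard D hzD
    rw [hcD] at h1
    obtain ⟨k, -, hk⟩ := (Nat.dvd_prime_pow hpp).1 h1
    exact ⟨k, hk⟩
  -- the central element
  have hzC : z ∈ Subgroup.centralizer ({z} : Set G) := by
    rw [Subgroup.mem_centralizer_iff]
    intro h hh'
    rw [Set.mem_singleton_iff] at hh'
    rw [hh']
  obtain ⟨zz, hzdef⟩ : ∃ zz : Subgroup.centralizer ({z} : Set G), zz = ⟨z, hzC⟩ := ⟨_, rfl⟩
  have hzval : (zz : G) = z := by rw [hzdef]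
  have hz : ∀ h : Subgroup.centralizer ({z} : Set G), zz * h = h * zz := by
    intro h
    apply Subtype.ext
    rw [Subgroup.coe_mul, Subgroup.coe_mul, hzval]
    exact Subgroup.mem_centralizer_iff.1 h.2 z rfl
  have hzk : zz ^ (2 ^ k) = 1 := by
    apply Subtype.ext
    rw [Subgroup.coe_pow, hzval, ← hk, pow_orderOf_eq_one]
    rfl
  -- the restrictions
  have hres : ∀ χ : IrrCharacter G, ∃ n : IrrCharacter (Subgroup.centralizer ({z} : Set G)) → ℕ,
      (fun y : Subgroup.centralizer ({z} : Set G) => (χ : G → ℂ) y)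
        = ∑ η : IrrCharacter (Subgroup.centralizer ({z} : Set G)), (n η : ℂ) • (η : Subgroup.centralizer ({z} : Set G) → ℂ) := by
    intro χ
    obtain ⟨n, -, hn⟩ := Cfsg.Agent.Lib.CT.NormOne.exists_mult_sum
      (Cfsg.Agent.Lib.CT.Ops.isCharacter_restrict (Subgroup.centralizer ({z} : Set G))
        (Cfsg.Agent.Lib.CT.Wedderburn.isCharacter_of_irr χ.2))
    exact ⟨n, hn⟩
  choose nn hnn using hres
  have hshift : ∀ (χ : IrrCharacter G) (t : ℕ),
      (fun c : Subgroup.centralizer ({z} : Set G) => (χ : G → ℂ) (z ^ t * c))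
      = fun h : Subgroup.centralizer ({z} : Set G) => (fun c : Subgroup.centralizer ({z} : Set G) => (χ : G → ℂ) c) (zz ^ t * h) := by
    intro χ t
    funext h
    show (χ : G → ℂ) (z ^ t * h) = (χ : G → ℂ) ((zz ^ t * h : Subgroup.centralizer ({z} : Set G)) : G)
    rw [Subgroup.coe_mul, Subgroup.coe_pow, hzval]
  have hsec : ∀ χ : IrrCharacter G,
      pRegularPart 2 (fun h : Subgroup.centralizer ({z} : Set G) => (fun y : Subgroup.centralizer ({z} : Set G) => (χ : G → ℂ) y) (zz ^ 1 * h))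
        = secRes 2 z (χ : G → ℂ) := by
    intro χ
    unfold secRes
    congr 1
    funext h
    show (χ : G → ℂ) ((zz ^ 1 * h : Subgroup.centralizer ({z} : Set G)) : G) = (χ : G → ℂ) (z * (h : G))
    rw [pow_one, Subgroup.coe_mul, hzval]
  -- the set of units
  obtain ⟨U, hU⟩ : ∃ U : Finset ℕ, U = (range (2 ^ k)).filter (fun t => Nat.Coprime t (2 ^ k)) :=
    ⟨_, rfl⟩
  have hUcard : U.card = (2 ^ k).totient := by
    rw [hU, Nat.totient_eq_card_coprime]
    congr 1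
    ext t
    simp only [mem_filter, Nat.coprime_comm]
  have hφ : 0 < (2 ^ k).totient := Nat.totient_pos.2 (pow_pos hpp.pos k)
  have hφ' : (0 : ℝ) < ((2 ^ k).totient : ℝ) := by exact_mod_cast hφ
  have hUx : ∀ t ∈ U, Nat.Coprime t (orderOf z) ∧ ∃ k' : ℕ, orderOf (z ^ t) = 2 ^ k' := by
    intro t ht
    rw [hU] at ht
    have htc : Nat.Coprime t (orderOf z) := by rw [hk]; exact (mem_filter.1 ht).2
    exact ⟨htc, k, by rw [orderOf_pow, Nat.coprime_comm.1 htc, Nat.div_one, hk]⟩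
  have hlam : ∀ η ∈ (univ.filter (· ∈ b) : Finset (IrrCharacter (Subgroup.centralizer ({z} : Set G)))),
      ((η : Subgroup.centralizer ({z} : Set G) → ℂ) zz / (η : Subgroup.centralizer ({z} : Set G) → ℂ) 1) ^ (2 ^ k) = 1 :=
    fun η _ => lam_pow _ η.2 zz hz _ hzk
  -- the heights and the reduction of the statement
  obtain ⟨BF, hBF⟩ : ∃ BF : Finset (IrrCharacter G), BF = univ.filter (· ∈ B) := ⟨_, rfl⟩
  have hmemBF : ∀ χ ∈ BF, χ ∈ B := by
    intro χ hχ
    rw [hBF] at hχ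
    exact (mem_filter.1 hχ).2
  obtain ⟨ht, hht⟩ : ∃ ht : IrrCharacter G → ℕ, ∀ χ, ht χ = blockHeight 2 B (χ : G → ℂ) :=
    ⟨_, fun _ => rfl⟩
  obtain ⟨g, hg⟩ : ∃ g : IrrCharacter G → ℕ, ∀ χ, g χ = if ht χ = 0 then 3 else 2 * 2 ^ ht χ :=
    ⟨_, fun _ => rfl⟩
  have hcardB : Nat.card B = BF.card := by
    rw [Nat.card_eq_fintype_card, Fintype.card_subtype, hBF]
  have hLHS : 3 * Nat.card {χ : Cfsg.IrrCharacter G // χ ∈ B ∧ Cfsg.blockHeight 2 B (χ : G → ℂ) = 0}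
      + 2 * (∑ᶠ χ ∈ {χ : Cfsg.IrrCharacter G | χ ∈ B ∧ 1 ≤ Cfsg.blockHeight 2 B (χ : G → ℂ)},
        2 ^ Cfsg.blockHeight 2 B (χ : G → ℂ))
      = ∑ χ ∈ BF, g χ := by
    have hset : {χ : IrrCharacter G | χ ∈ B ∧ 1 ≤ blockHeight 2 B (χ : G → ℂ)}
        = ((univ.filter (fun χ : IrrCharacter G => χ ∈ B ∧ 1 ≤ blockHeight 2 B (χ : G → ℂ))
          : Finset (IrrCharacter G)) : Set (IrrCharacter G)) := by
      ext χ
      simp
    rw [hset, finsum_mem_coe_finset, Nat.card_eq_fintype_card, Fintype.card_subtype, card_filter,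
      sum_filter, hBF, sum_filter, mul_sum, mul_sum, ← sum_add_distrib]
    refine sum_congr rfl fun χ _ => ?_
    rw [hg, hht]
    by_cases hχ : χ ∈ B
    · by_cases h0 : blockHeight 2 B (χ : G → ℂ) = 0
      · simp [hχ, h0]
      · have h1 : 1 ≤ blockHeight 2 B (χ : G → ℂ) := by omega
        simp [hχ, h0, h1]
    · simp [hχ]
  rw [hLHS, hcardB]
  refine ⟨?_, ?_⟩
  · have h1 : BF.card • 3 ≤ ∑ χ ∈ BF, g χ := card_nsmul_le_sum BF g 3 (fun χ _ => by
      rw [hg]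
      split_ifs with h
      · exact le_rfl
      · have h2 : 2 ^ 1 ≤ 2 ^ ht χ :=
          Nat.pow_le_pow_right (by norm_num) (Nat.one_le_iff_ne_zero.2 h)
        omega)
    rw [smul_eq_mul] at h1
    omega
  -- the coordinate sums at `t = 1`
  have hcs1 : ∀ (n : IrrCharacter (Subgroup.centralizer ({z} : Set G)) → ℕ) (x : IrrCharacter (Subgroup.centralizer ({z} : Set G)) → ℤ),
      cs b n x zz 1 = ∑ η ∈ univ.filter (· ∈ b), (((n η : ℤ) * x η : ℤ) : ℂ)
        * ((η : Subgroup.centralizer ({z} : Set G) → ℂ) zz / (η : Subgroup.centralizer ({z} : Set G) → ℂ) 1) := by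
    intro n x
    unfold cs
    refine sum_congr rfl fun η _ => ?_
    rw [pow_one]
  -- divisibility by the height
  have hdivG : ∀ χ ∈ B, ∀ x : IrrCharacter (Subgroup.centralizer ({z} : Set G)) → ℤ, ∃ r : ℂ, MemLocalRing M r ∧
      cs b (nn χ) (fun η => ∑ ξ ∈ univ.filter (· ∈ b), x ξ * mz 2 b η ξ) zz 1
        = 2 ^ ht χ * r := by
    intro χ hχ x
    obtain ⟨r, hr, h1⟩ := lin_height 2 M hM B z ⟨k, hk⟩ b x χ hχ
    refine ⟨r, hr, ?_⟩
    rw [← lin_coords 2 M hM b hbb x _ (nn χ) (hnn χ) zz hz 1, hsec χ, hdb, h1, hht, e2]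
  -- non-vanishing
  have hneG : ∀ c : IrrCharacter (Subgroup.centralizer ({z} : Set G)) → ℤ,
      ¬ ((2 : ℕ) : ℤ) ∣ ∑ ξ ∈ univ.filter (· ∈ b), ∑ ξ' ∈ univ.filter (· ∈ b),
        c ξ * c ξ' * mz 2 b ξ ξ' →
      ∀ χ ∈ B, cs b (nn χ) (fun η => ∑ ξ ∈ univ.filter (· ∈ b), c ξ * mz 2 b η ξ) zz 1 ≠ 0 := by
    intro c hc χ hχ
    have h1 := nonvanishing 2 M hM B z ⟨k, hk⟩ b hb hdb c hc χ hχ
    rw [← lin_coords 2 M hM b hbb c _ (nn χ) (hnn χ) zz hz 1, hsec χ]
    exact mul_ne_zero (pow_ne_zero _ hp0) h1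
  by_cases hA : ∃ c : IrrCharacter (Subgroup.centralizer ({z} : Set G)) → ℤ, Bf 2 b c c = 1
  · -- a vector of norm one
    obtain ⟨c, hc1⟩ := hA
    obtain ⟨Y, hYdef⟩ : ∃ Y : IrrCharacter G → ℕ → ℂ, ∀ χ t, Y χ t = cs b (nn χ)
        (fun η => ∑ ξ ∈ univ.filter (· ∈ b), c ξ * mz 2 b η ξ) zz t := ⟨_, fun _ _ => rfl⟩
    have hY : ∀ (χ : IrrCharacter G) (t : ℕ), ((2 : ℕ) : ℂ) ^ blockDefect 2 b
        * ∑ ξ ∈ univ.filter (· ∈ b), (c ξ : ℂ) * classInner (pRegularPart 2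
            (fun y : Subgroup.centralizer ({z} : Set G) => (χ : G → ℂ) (z ^ t * y)))
            (ξ : Subgroup.centralizer ({z} : Set G) → ℂ) = Y χ t := by
      intro χ t
      rw [hYdef, hshift χ t]
      exact lin_coords 2 M hM b hbb c _ (nn χ) (hnn χ) zz hz t
    have hBfc : ∑ ξ ∈ univ.filter (· ∈ b), ∑ ξ' ∈ univ.filter (· ∈ b),
        (c ξ : ℂ) * conj ((c ξ' : ℂ))
          * classInner (pRegularPart 2 (ξ' : Subgroup.centralizer ({z} : Set G) → ℂ))
            (ξ : Subgroup.centralizer ({z} : Set G) → ℂ) * ((2 : ℕ) : ℂ) ^ blockDefect 2 b = 1 := by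
      have h1 : ((Bf 2 b c c : ℤ) : ℂ) = 1 := by rw [hc1]; norm_num
      rw [← h1]
      unfold Bf
      rw [Int.cast_sum]
      refine sum_congr rfl fun ξ hξ => ?_
      rw [Int.cast_sum]
      refine sum_congr rfl fun ξ' hξ' => ?_
      rw [map_intCast, mz_symm 2 M hM b ξ ξ' (mem_filter.1 hξ).2 (mem_filter.1 hξ').2,
        Int.cast_mul, Int.cast_mul, mz_cast 2 M hM b ξ' ξ (mem_filter.1 hξ').2]
      ring
    have hsumA : ∀ t ∈ U, ∑ χ ∈ BF, Complex.normSq (Y χ t)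
        = (2 : ℝ) ^ blockDefect 2 b := by
      intro t ht
      obtain ⟨htc, hx⟩ := hUx t ht
      have h1 := sum_lin 2 M hM B (z ^ t) hx (Subgroup.centralizer ({z} : Set G))
        (Cfsg.Agent.S4716.centralizer_pow_eq z t htc) b hb (fun ξ => (c ξ : ℂ))
        (fun ξ => (c ξ : ℂ))
      have h2 : ((∑ χ ∈ BF, Complex.normSq (Y χ t) : ℝ) : ℂ)
          = ((((2 : ℕ) : ℝ) ^ blockDefect 2 b : ℝ) : ℂ) := by
        push_cast
        have h3 : ∀ χ ∈ BF, ((Complex.normSq (Y χ t) : ℝ) : ℂ)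
            = ((2 : ℕ) : ℂ) ^ blockDefect 2 b * ((2 : ℕ) : ℂ) ^ blockDefect 2 b
              * ((∑ ξ ∈ univ.filter (· ∈ b), (c ξ : ℂ) * classInner (pRegularPart 2
                  (fun y : Subgroup.centralizer ({z} : Set G) => (χ : G → ℂ) (z ^ t * y)))
                  (ξ : Subgroup.centralizer ({z} : Set G) → ℂ))
                * conj (∑ ξ ∈ univ.filter (· ∈ b), (c ξ : ℂ) * classInner (pRegularPart 2
                  (fun y : Subgroup.centralizer ({z} : Set G) => (χ : G → ℂ) (z ^ t * y)))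
                  (ξ : Subgroup.centralizer ({z} : Set G) → ℂ))) := by
          intro χ _
          rw [← Complex.mul_conj, ← hY χ t, map_mul, map_pow, Complex.conj_natCast]
          ring
        rw [sum_congr rfl h3, ← mul_sum, hBF, h1, mul_assoc,
          mul_comm (((2 : ℕ) : ℂ) ^ blockDefect 2 b)
          (∑ ξ ∈ univ.filter (· ∈ b), ∑ ξ' ∈ univ.filter (· ∈ b), _), sum_mul]
        have h4 : ∀ ξ ∈ univ.filter (· ∈ b), (∑ ξ' ∈ univ.filter (· ∈ b),
            (c ξ : ℂ) * conj ((c ξ' : ℂ))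
              * classInner (pRegularPart 2 (ξ' : Subgroup.centralizer ({z} : Set G) → ℂ))
                (ξ : Subgroup.centralizer ({z} : Set G) → ℂ)) * ((2 : ℕ) : ℂ) ^ blockDefect 2 b
            = ∑ ξ' ∈ univ.filter (· ∈ b), (c ξ : ℂ) * conj ((c ξ' : ℂ))
              * classInner (pRegularPart 2 (ξ' : Subgroup.centralizer ({z} : Set G) → ℂ))
                (ξ : Subgroup.centralizer ({z} : Set G) → ℂ) * ((2 : ℕ) : ℂ) ^ blockDefect 2 b :=
          fun ξ _ => sum_mul _ _ _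
        rw [sum_congr rfl h4, hBfc, mul_one]
        norm_num
      have h5 : (∑ χ ∈ BF, Complex.normSq (Y χ t) : ℝ) = ((2 : ℕ) : ℝ) ^ blockDefect 2 b := by
        exact_mod_cast h2
      rw [h5]
      norm_num
    have hcodd : ¬ ((2 : ℕ) : ℤ) ∣ ∑ ξ ∈ univ.filter (· ∈ b), ∑ ξ' ∈ univ.filter (· ∈ b),
        c ξ * c ξ' * mz 2 b ξ ξ' := by
      have e : ∑ ξ ∈ univ.filter (· ∈ b), ∑ ξ' ∈ univ.filter (· ∈ b),
          c ξ * c ξ' * mz 2 b ξ ξ' = Bf 2 b c c := rfl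
      rw [e, hc1]
      intro h
      have h' : 2 ∣ 1 := by exact_mod_cast h
      omega
    have hpairA : ∀ χ ∈ B, ((2 ^ k).totient : ℝ) * 4 ^ ht χ
        ≤ ∑ t ∈ U, Complex.normSq (Y χ t) := by
      intro χ hχ
      obtain ⟨r, hr, hdiv⟩ := hdivG χ hχ c
      have hne := hneG c hcodd χ hχ
      rw [hcs1] at hdiv hne
      have h1 := cyc_div_ge hM k (univ.filter (· ∈ b))
        (fun η => (nn χ η : ℤ) * ∑ ξ ∈ univ.filter (· ∈ b), c ξ * mz 2 b η ξ)
        (fun η => (η : Subgroup.centralizer ({z} : Set G) → ℂ) zz / (η : Subgroup.centralizer ({z} : Set G) → ℂ) 1) hlam (ht χ) r hr hdiv hne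
      rw [← hU] at h1
      refine le_trans h1 (le_of_eq ?_)
      refine sum_congr rfl fun t _ => ?_
      rw [hYdef]
      rfl
    have hsum4 : (∑ χ ∈ BF, 4 ^ ht χ : ℕ) ≤ 2 ^ blockDefect 2 B := by
      have h1 : ∑ χ ∈ BF, ((2 ^ k).totient : ℝ) * 4 ^ ht χ
          ≤ ∑ χ ∈ BF, ∑ t ∈ U, Complex.normSq (Y χ t) :=
        sum_le_sum fun χ hχ => hpairA χ (hmemBF χ hχ)
      rw [sum_comm, sum_congr rfl hsumA, sum_const, hUcard, nsmul_eq_mul, ← mul_sum] at h1
      have h2 := le_of_mul_le_mul_left h1 hφ'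
      rw [hdb] at h2
      exact_mod_cast h2
    have hg4 : ∀ χ ∈ BF, g χ ≤ 3 * 4 ^ ht χ := by
      intro χ _
      rw [hg]
      have h1 : 2 ^ ht χ ≤ 4 ^ ht χ := Nat.pow_le_pow_left (by norm_num) _
      have h2 : 1 ≤ 4 ^ ht χ := Nat.one_le_pow _ _ (by norm_num)
      split_ifs <;> omega
    calc ∑ χ ∈ BF, g χ ≤ ∑ χ ∈ BF, 3 * 4 ^ ht χ := sum_le_sum hg4
      _ = 3 * ∑ χ ∈ BF, 4 ^ ht χ := by rw [mul_sum]
      _ ≤ 3 * 2 ^ blockDefect 2 B := Nat.mul_le_mul_left 3 hsum4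
  · -- no vector of norm one
    -- the conclusion of S4431 for the members of `B` of height zero
    have hS : ∀ χ ∈ B, blockHeight 2 B (χ : G → ℂ) = 0 → ∀ ψ ∈ b, ¬ MemLocalIdeal M (classInner
        (fun h : Subgroup.centralizer ({z} : Set G) => if 2 ∣ orderOf h then (0 : ℂ) else
          ((2 ^ (Nat.card (Subgroup.centralizer ({z} : Set G))).factorization 2 : ℕ) : ℂ)
            * (χ : G → ℂ) h) (ψ : Subgroup.centralizer ({z} : Set G) → ℂ)
          / (ψ : Subgroup.centralizer ({z} : Set G) → ℂ) 1) :=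
      fun χ hχ h0 ψ hψ => (Cfsg.Agent.S4431.result 2 M hM _ b B hb χ ψ hψ).2 hχ h0
    obtain ⟨Mc, hMc⟩ : ∃ Mc : ℕ → IrrCharacter G → ℂ, ∀ t χ,
        Mc t χ = mm 2 b (fun c : Subgroup.centralizer ({z} : Set G) => (χ : G → ℂ) (z ^ t * c))
          (fun c : Subgroup.centralizer ({z} : Set G) => (χ : G → ℂ) (z ^ t * c)) := ⟨_, fun _ _ => rfl⟩
    have hpairs : ∀ (t : ℕ) (χ : IrrCharacter G), (2 : ℂ) ^ blockDefect 2 b * Mc t χ
        = ∑ η ∈ univ.filter (· ∈ b), ∑ η' ∈ univ.filter (· ∈ b),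
          (((nn χ η : ℤ) * (nn χ η' : ℤ) * mz 2 b η η' : ℤ) : ℂ)
            * (((η : Subgroup.centralizer ({z} : Set G) → ℂ) zz / (η : Subgroup.centralizer ({z} : Set G) → ℂ) 1)
              * conj ((η' : Subgroup.centralizer ({z} : Set G) → ℂ) zz / (η' : Subgroup.centralizer ({z} : Set G) → ℂ) 1)) ^ t := by
      intro t χ
      have h1 := mm_pairs 2 M hM b _ _ (nn χ) (nn χ) (hnn χ) (hnn χ) zz hz t
      rw [e2] at h1
      rw [hMc, hshift χ t]
      exact h1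
    have hcore : ∀ χ : IrrCharacter G, ∃ a : ℤ, 0 ≤ a ∧
        (∑ t ∈ U, (2 : ℂ) ^ blockDefect 2 b * Mc t χ = ((2 ^ k).totient : ℂ) * a) ∧
        ((∀ x : IrrCharacter (Subgroup.centralizer ({z} : Set G)) → ℤ, ∑ η ∈ univ.filter (· ∈ b), ∑ η' ∈ univ.filter (· ∈ b),
          x η * x η' * mz 2 b η η' ≠ 1) → Odd a → 3 ≤ a) ∧
        (∀ h : ℕ,
          (∀ x : IrrCharacter (Subgroup.centralizer ({z} : Set G)) → ℤ, ∃ r : ℂ, MemLocalRing M r ∧
            ∑ η ∈ univ.filter (· ∈ b),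
              (((nn χ η : ℤ) * ∑ ξ ∈ univ.filter (· ∈ b), x ξ * mz 2 b η ξ : ℤ) : ℂ)
                * ((η : Subgroup.centralizer ({z} : Set G) → ℂ) zz / (η : Subgroup.centralizer ({z} : Set G) → ℂ) 1) = 2 ^ h * r) →
          (∃ r : ℂ, MemLocalIdeal M r ∧
            ∑ η ∈ univ.filter (· ∈ b), ∑ η' ∈ univ.filter (· ∈ b),
              (((nn χ η : ℤ) * (nn χ η' : ℤ) * mz 2 b η η' : ℤ) : ℂ)
                * (((η : Subgroup.centralizer ({z} : Set G) → ℂ) zz / (η : Subgroup.centralizer ({z} : Set G) → ℂ) 1)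
                  * conj ((η' : Subgroup.centralizer ({z} : Set G) → ℂ) zz / (η' : Subgroup.centralizer ({z} : Set G) → ℂ) 1)) = 2 ^ h * r) →
          (∃ x : IrrCharacter (Subgroup.centralizer ({z} : Set G)) → ℤ, ∑ η ∈ univ.filter (· ∈ b),
              (((nn χ η : ℤ) * ∑ ξ ∈ univ.filter (· ∈ b), x ξ * mz 2 b η ξ : ℤ) : ℂ)
                * ((η : Subgroup.centralizer ({z} : Set G) → ℂ) zz / (η : Subgroup.centralizer ({z} : Set G) → ℂ) 1) ≠ 0) →
          (2 : ℤ) ^ (h + 1) ≤ a) := by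
      intro χ
      obtain ⟨a, ha0, hasum, haB1, haB2⟩ := caseB_core hM k (univ.filter (· ∈ b))
        (fun η => (nn χ η : ℤ)) (mz 2 b) (fun η => (η : Subgroup.centralizer ({z} : Set G) → ℂ) zz / (η : Subgroup.centralizer ({z} : Set G) → ℂ) 1) hlam
        (fun η hη η' hη' => mz_symm 2 M hM b η η' (mem_filter.1 hη).2 (mem_filter.1 hη').2)
        (fun x => Bf_nonneg 2 M hM b x)
      refine ⟨a, ha0, ?_, haB1, haB2⟩
      rw [← hasum, hU]
      refine sum_congr rfl fun t _ => ?_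
      exact hpairs t χ
    choose a ha0 hasum haB1 haB2 using hcore
    -- the trace
    have htr : ∀ t ∈ U, ∑ χ ∈ BF, Mc t χ = (blockRank 2 b : ℂ) := by
      intro t ht
      obtain ⟨htc, hx⟩ := hUx t ht
      rw [hBF]
      simp only [hMc]
      exact sum_mm_diag 2 M hM B (z ^ t) hx (Subgroup.centralizer ({z} : Set G))
        (Cfsg.Agent.S4716.centralizer_pow_eq z t htc) b hb
    have hsuma : ∑ χ ∈ BF, a χ = 2 ^ blockDefect 2 b * (blockRank 2 b : ℤ) := by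
      have h1 : ∑ χ ∈ BF, ((2 ^ k).totient : ℂ) * (a χ : ℂ)
          = ((2 ^ k).totient : ℂ) * ((2 : ℂ) ^ blockDefect 2 b * (blockRank 2 b : ℂ)) := by
        rw [← sum_congr rfl (fun χ _ => hasum χ), sum_comm]
        have h3 : ∀ t ∈ U, ∑ χ ∈ BF, (2 : ℂ) ^ blockDefect 2 b * Mc t χ
            = (2 : ℂ) ^ blockDefect 2 b * (blockRank 2 b : ℂ) :=
          fun t ht => by rw [← mul_sum, htr t ht]
        rw [sum_congr rfl h3, sum_const, hUcard, nsmul_eq_mul]
      rw [← mul_sum] at h1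
      have h2 := mul_left_cancel₀ (Nat.cast_ne_zero.2 hφ.ne') h1
      exact_mod_cast h2
    have hne1 : ∀ x : IrrCharacter (Subgroup.centralizer ({z} : Set G)) → ℤ, ∑ η ∈ univ.filter (· ∈ b),
        ∑ η' ∈ univ.filter (· ∈ b), x η * x η' * mz 2 b η η' ≠ 1 := fun x hx => hA ⟨x, hx⟩
    -- height zero
    have h3B : ∀ χ ∈ B, ht χ = 0 → 3 ≤ a χ := by
      intro χ hχ h0
      rw [hht] at h0
      obtain ⟨a', hodd, ha'⟩ := local_diag M hM b hbb zz hz k hzk
        (fun c : Subgroup.centralizer ({z} : Set G) => (χ : G → ℂ) c)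
        (Cfsg.Agent.Lib.CT.Ops.isCharacter_restrict _
          (Cfsg.Agent.Lib.CT.Wedderburn.isCharacter_of_irr χ.2)) (hS χ hχ h0)
      have h1 : ((2 ^ k).totient : ℂ) * (a χ : ℂ) = ((2 ^ k).totient : ℂ) * (a' : ℂ) := by
        rw [← hasum χ, ← ha', hU]
        refine sum_congr rfl fun t _ => ?_
        rw [hMc, ← hshift χ t]
      have h2 := mul_left_cancel₀ (Nat.cast_ne_zero.2 hφ.ne') h1
      have h3 : a χ = a' := by exact_mod_cast h2
      exact haB1 χ hne1 (by rw [h3]; exact hodd)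
    -- a character of height zero in `b`
    obtain ⟨e, hae, -, ψ₀, hψ₀, hψ₀e⟩ := Cfsg.Agent.Lib.Helper75.NumMinMax.exists_defect_data 2 b
      (Cfsg.Agent.Lib.CT.DefectZeroBlock.isPBlock_nonempty hMp hbb)
    have hfc := factorization_charDegree 2 b ψ₀ hψ₀
    have h0ψ : blockHeight 2 b (ψ₀ : Subgroup.centralizer ({z} : Set G) → ℂ) = 0 := by omega
    have hcψ : ¬ ((2 : ℕ) : ℤ) ∣ ∑ ξ ∈ univ.filter (· ∈ b), ∑ ξ' ∈ univ.filter (· ∈ b),
        (if ξ = ψ₀ then (1 : ℤ) else 0) * (if ξ' = ψ₀ then (1 : ℤ) else 0) * mz 2 b ξ ξ' := by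
      rw [Bf_single 2 b ψ₀ hψ₀]
      exact not_dvd_mz_self 2 M hM b hbb ψ₀ hψ₀ h0ψ
    -- positive height
    have hposB : ∀ χ ∈ B, 1 ≤ ht χ → (2 : ℤ) ^ (ht χ + 1) ≤ a χ := by
      intro χ hχ hpos
      refine haB2 χ (ht χ) ?_ ?_ ?_
      · intro x
        obtain ⟨r, hr, h1⟩ := hdivG χ hχ x
        rw [hcs1] at h1
        exact ⟨r, hr, h1⟩
      · rw [hht] at hpos
        obtain ⟨r, hr, h1⟩ := mm_strict 2 M hM B z ⟨k, hk⟩ b hb hdb χ hχ hpos
        refine ⟨r, hr, ?_⟩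
        have h2 := hpairs 1 χ
        rw [hMc, hdb] at h2
        simp only [pow_one] at h2
        rw [← h2, hht, ← e2]
        exact h1
      · refine ⟨fun ξ => if ξ = ψ₀ then (1 : ℤ) else 0, ?_⟩
        have h1 := hneG _ hcψ χ hχ
        rw [hcs1] at h1
        exact h1
    have hga : ∀ χ ∈ BF, (g χ : ℤ) ≤ a χ := by
      intro χ hχF
      have hχ := hmemBF χ hχF
      rw [hg]
      by_cases h0 : ht χ = 0
      · rw [if_pos h0]
        exact_mod_cast h3B χ hχ h0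
      · rw [if_neg h0]
        have h1 := hposB χ hχ (by omega)
        rw [pow_succ] at h1
        push_cast
        linarith
    have h1 : ((∑ χ ∈ BF, g χ : ℕ) : ℤ) ≤ ∑ χ ∈ BF, a χ := by
      push_cast
      exact sum_le_sum hga
    rw [hsuma, hdb] at h1
    have hl' : (blockRank 2 b : ℤ) ≤ 3 := by exact_mod_cast hl
    have h2 : ((∑ χ ∈ BF, g χ : ℕ) : ℤ) ≤ 3 * 2 ^ blockDefect 2 B := by
      nlinarith [pow_pos (by norm_num : (0 : ℤ) < 2) (blockDefect 2 B)]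
    exact_mod_cast h2

end Cfsg.Agent.S4540
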