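import Cfsg.Statements.S4541
import Cfsg.Agent.Lib.Helper82.CycSum
import Cfsg.Agent.Lib.Helper82.SecSq
import Cfsg.Agent.Lib.Helper82.SecLocal
import Cfsg.Agent.Lib.Helper82.SecCong
import Cfsg.Agent.Lib.Helper82.SecRow
import Cfsg.Agent.Lib.Helper82.TwoUnits
import Cfsg.Agent.S4431
import Cfsg.Agent.S4716

set_option autoImplicit false
open Cfsg

namespace Cfsg.Agent.S4541

open Cfsg.Agent.Lib.Helper77.LocalRing Cfsg.Agent.Lib.Helper82.SecSq
  Cfsg.Agent.Lib.Helper82.SecLocal Cfsg.Agent.Lib.Helper82.CycSum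
  Cfsg.Agent.Lib.Helper82.SecCong Cfsg.Agent.Lib.Helper82.SecRow
  Cfsg.Agent.Lib.Helper82.TwoUnits
open scoped ComplexConjugate
open Finset

/-- Let B be a 2-block of the finite group G (relative to a maximal ideal M of the algebraic integers containing 2), u a 2-element, and b a block of the centralizer of u inducing B (a subsection (u, b)), of defect q and 2-regular rank l; write s for the integer square root of l and k₀(B) for the number of members of B of height zero. If s is odd then k₀(B) ≤ s·2 ^ q, and otherwise (s + 1)·k₀(B) ≤ l·2 ^ q; in particular k₀(B) ≤ 2 ^ q when l ≤ 3. -/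
theorem result {G : Type*} [Group G] [Finite G] (M : Ideal Cfsg.AlgInt) (hM : Cfsg.IsPModular 2 M) (B : Set (Cfsg.IrrCharacter G)) (hB : Cfsg.IsPBlock M B) (u : G) (hu : ∃ j : ℕ, orderOf u = 2 ^ j) (b : Set (Cfsg.IrrCharacter ↥(Subgroup.centralizer ({u} : Set G)))) (hb : Cfsg.IsInducedBlock M (Subgroup.centralizer ({u} : Set G)) b B) : (Odd (Nat.sqrt (Cfsg.blockRank 2 b)) → Nat.card {χ : Cfsg.IrrCharacter G // χ ∈ B ∧ Cfsg.blockHeight 2 B (χ : G → ℂ) = 0} ≤ Nat.sqrt (Cfsg.blockRank 2 b) * 2 ^ Cfsg.blockDefect 2 b) ∧ (¬ Odd (Nat.sqrt (Cfsg.blockRank 2 b)) → (Nat.sqrt (Cfsg.blockRank 2 b) + 1) * Nat.card {χ : Cfsg.IrrCharacter G // χ ∈ B ∧ Cfsg.blockHeight 2 B (χ : G → ℂ) = 0} ≤ Cfsg.blockRank 2 b * 2 ^ Cfsg.blockDefect 2 b) ∧ (Cfsg.blockRank 2 b ≤ 3 → Nat.card {χ : Cfsg.IrrCharacter G // χ ∈ B ∧ Cfsg.blockHeight 2 B (χ : G → ℂ) = 0} ≤ 2 ^ Cfsg.blockDefect 2 b) := by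
  classical
  have _hB := hB
  have hpp : (2 : ℕ).Prime := Nat.prime_two
  have hMp : M.IsPrime := isPrime_of_isPModular hM
  have : Fintype G := Fintype.ofFinite G
  have : Fintype (Subgroup.centralizer ({u} : Set G)) := Fintype.ofFinite _
  have := Cfsg.Agent.Lib.CT.Wedderburn.finite_irrCharacter G
  have : Fintype (IrrCharacter G) := Fintype.ofFinite _
  have := Cfsg.Agent.Lib.CT.Wedderburn.finite_irrCharacter (Subgroup.centralizer ({u} : Set G))
  have : Fintype (IrrCharacter (Subgroup.centralizer ({u} : Set G))) := Fintype.ofFinite _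
  obtain ⟨k, hk⟩ := hu
  -- the central element
  have huC : u ∈ Subgroup.centralizer ({u} : Set G) := by
    rw [Subgroup.mem_centralizer_iff]
    intro h hh'
    rw [Set.mem_singleton_iff] at hh'
    rw [hh']
  obtain ⟨z, hzdef⟩ : ∃ z : Subgroup.centralizer ({u} : Set G), z = ⟨u, huC⟩ := ⟨_, rfl⟩
  have hzval : (z : G) = u := by rw [hzdef]
  have hz : ∀ h : Subgroup.centralizer ({u} : Set G), z * h = h * z := by
    intro h
    apply Subtype.ext
    rw [Subgroup.coe_mul, Subgroup.coe_mul, hzval]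
    exact Subgroup.mem_centralizer_iff.1 h.2 u rfl
  have hzk : z ^ (2 ^ k) = 1 := by
    apply Subtype.ext
    rw [Subgroup.coe_pow, hzval, ← hk, pow_orderOf_eq_one]
    rfl
  -- the conclusion of S4431 for the members of `B` of height zero
  have hS : ∀ χ ∈ B, blockHeight 2 B (χ : G → ℂ) = 0 → ∀ ψ ∈ b, ¬ MemLocalIdeal M (classInner
      (fun h : Subgroup.centralizer ({u} : Set G) => if 2 ∣ orderOf h then (0 : ℂ) else
        ((2 ^ (Nat.card (Subgroup.centralizer ({u} : Set G))).factorization 2 : ℕ) : ℂ)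
          * (χ : G → ℂ) h) (ψ : Subgroup.centralizer ({u} : Set G) → ℂ)
        / (ψ : Subgroup.centralizer ({u} : Set G) → ℂ) 1) :=
    fun χ hχ h0 ψ hψ => (Cfsg.Agent.S4431.result 2 M hM _ b B hb χ ψ hψ).2 hχ h0
  -- the shifted restrictions
  have hshift : ∀ (χ : IrrCharacter G) (t : ℕ),
      (fun c : Subgroup.centralizer ({u} : Set G) => (χ : G → ℂ) (u ^ t * c))
      = fun h : Subgroup.centralizer ({u} : Set G) =>
          (fun c : Subgroup.centralizer ({u} : Set G) => (χ : G → ℂ) c) (z ^ t * h) := by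
    intro χ t
    funext h
    show (χ : G → ℂ) (u ^ t * h) = (χ : G → ℂ) ((z ^ t * h : Subgroup.centralizer ({u} : Set G)) : G)
    rw [Subgroup.coe_mul, Subgroup.coe_pow, hzval]
  -- the set of units
  obtain ⟨U, hU⟩ : ∃ U : Finset ℕ, U = (range (2 ^ k)).filter (fun t => Nat.Coprime t (2 ^ k)) :=
    ⟨_, rfl⟩
  have hUcard : U.card = (2 ^ k).totient := by
    rw [hU, Nat.totient_eq_card_coprime]
    congr 1
    ext t
    simp only [mem_filter, Nat.coprime_comm]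
  have hφ : 0 < (2 ^ k).totient := Nat.totient_pos.2 (pow_pos hpp.pos k)
  -- the contribution matrices
  obtain ⟨Mc, hMc⟩ : ∃ Mc : ℕ → IrrCharacter G → IrrCharacter G → ℂ, ∀ t χ ψ,
      Mc t χ ψ = mm 2 b
        (fun c : Subgroup.centralizer ({u} : Set G) => (χ : G → ℂ) (u ^ t * c))
        (fun c : Subgroup.centralizer ({u} : Set G) => (ψ : G → ℂ) (u ^ t * c)) :=
    ⟨_, fun _ _ _ => rfl⟩
  have hUx : ∀ t ∈ U, (∃ k' : ℕ, orderOf (u ^ t) = 2 ^ k') ∧
      Subgroup.centralizer ({u} : Set G) = Subgroup.centralizer ({u ^ t} : Set G) := by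
    intro t ht
    rw [hU] at ht
    have htc : Nat.Coprime t (orderOf u) := by rw [hk]; exact (mem_filter.1 ht).2
    exact ⟨⟨k, by rw [orderOf_pow, Nat.coprime_comm.1 htc, Nat.div_one, hk]⟩,
      Cfsg.Agent.S4716.centralizer_pow_eq u t htc⟩
  have hrow : ∀ t ∈ U, ∀ χ : IrrCharacter G,
      ∑ ψ ∈ univ.filter (· ∈ B), Mc t χ ψ * conj (Mc t χ ψ) = Mc t χ χ := by
    intro t ht χ
    simp only [hMc]
    exact row_sq 2 M hM B (u ^ t) (hUx t ht).1 (Subgroup.centralizer ({u} : Set G))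
      (hUx t ht).2 b hb χ
  have htr : ∀ t ∈ U, ∑ χ ∈ univ.filter (· ∈ B), Mc t χ χ = (blockRank 2 b : ℂ) := by
    intro t ht
    simp only [hMc]
    exact sum_mm_diag 2 M hM B (u ^ t) (hUx t ht).1 (Subgroup.centralizer ({u} : Set G))
      (hUx t ht).2 b hb
  -- the lower bound for each pair of characters of height zero
  have hpair : ∀ χ ∈ B, blockHeight 2 B (χ : G → ℂ) = 0 → ∀ ψ ∈ B,
      blockHeight 2 B (ψ : G → ℂ) = 0 → ((2 ^ k).totient : ℝ) ≤ ∑ t ∈ U,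
      ((2 : ℝ) ^ (2 * blockDefect 2 b)) * Complex.normSq (Mc t χ ψ) := by
    intro χ hχ hχ0 ψ hψ hψ0
    obtain ⟨s, K, μ, hμ, hval⟩ := local_main 2 M hM b hb.1 z hz k hzk
      (fun c : Subgroup.centralizer ({u} : Set G) => (χ : G → ℂ) c)
      (fun c : Subgroup.centralizer ({u} : Set G) => (ψ : G → ℂ) c)
      (Cfsg.Agent.Lib.CT.Ops.isCharacter_restrict _
        (Cfsg.Agent.Lib.CT.Wedderburn.isCharacter_of_irr χ.2))
      (Cfsg.Agent.Lib.CT.Ops.isCharacter_restrict _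
        (Cfsg.Agent.Lib.CT.Wedderburn.isCharacter_of_irr ψ.2))
      (hS χ hχ hχ0) (hS ψ hψ hψ0)
    have h1 := cyc_ge' hpp k s K μ hμ ⟨1, Nat.coprime_one_left _, (hval 1).2⟩
    rw [← hU] at h1
    refine le_trans h1 (le_of_eq ?_)
    refine sum_congr rfl fun t _ => ?_
    rw [← (hval t).1, ← hshift χ t, ← hshift ψ t, hMc, Complex.normSq_mul, map_pow,
      Complex.normSq_natCast, pow_mul, ← sq]
    norm_num
  -- the diagonal for each character of height zero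
  have hdiag : ∀ χ : IrrCharacter G, ∃ a : ℤ, χ ∈ B → blockHeight 2 B (χ : G → ℂ) = 0 →
      Odd a ∧ ∑ t ∈ U, (2 : ℂ) ^ blockDefect 2 b * Mc t χ χ = ((2 ^ k).totient : ℂ) * a := by
    intro χ
    by_cases hχ : χ ∈ B ∧ blockHeight 2 B (χ : G → ℂ) = 0
    · obtain ⟨a, hodd, ha⟩ := local_diag M hM b hb.1 z hz k hzk
        (fun c : Subgroup.centralizer ({u} : Set G) => (χ : G → ℂ) c)
        (Cfsg.Agent.Lib.CT.Ops.isCharacter_restrict _
          (Cfsg.Agent.Lib.CT.Wedderburn.isCharacter_of_irr χ.2)) (hS χ hχ.1 hχ.2)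
      refine ⟨a, fun _ _ => ⟨hodd, ?_⟩⟩
      rw [← ha, hU]
      refine sum_congr rfl fun t _ => ?_
      rw [hMc, ← hshift χ t]
    · exact ⟨0, fun h1 h2 => absurd ⟨h1, h2⟩ hχ⟩
  choose a ha using hdiag
  -- real forms
  obtain ⟨mr, hmr⟩ : ∃ mr : ℕ → IrrCharacter G → ℝ, ∀ t χ,
      mr t χ = ∑ ψ ∈ univ.filter (· ∈ B), Complex.normSq (Mc t χ ψ) := ⟨_, fun _ _ => rfl⟩
  have hMcr : ∀ t ∈ U, ∀ χ : IrrCharacter G, Mc t χ χ = ((mr t χ : ℝ) : ℂ) := by
    intro t ht χ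
    rw [← hrow t ht χ, hmr]
    push_cast
    refine sum_congr rfl fun ψ _ => ?_
    rw [Complex.mul_conj]
  obtain ⟨Q, hQ⟩ : ∃ Q : ℝ, Q = (2 : ℝ) ^ blockDefect 2 b := ⟨_, rfl⟩
  have hQpos : 0 < Q := by rw [hQ]; positivity
  have hQ2 : (2 : ℝ) ^ (2 * blockDefect 2 b) = Q * Q := by
    rw [hQ, two_mul, pow_add]
  obtain ⟨B₀, hB₀⟩ : ∃ B₀ : Finset (IrrCharacter G),
      B₀ = univ.filter (fun χ => χ ∈ B ∧ blockHeight 2 B (χ : G → ℂ) = 0) := ⟨_, rfl⟩
  have hB₀sub : B₀ ⊆ univ.filter (· ∈ B) := by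
    intro χ hχ
    rw [hB₀] at hχ
    exact mem_filter.2 ⟨mem_univ _, (mem_filter.1 hχ).2.1⟩
  have hAB := abstract_bound (univ.filter (· ∈ B)) B₀ hB₀sub U (2 ^ k).totient hUcard hφ
    (fun t χ ψ => (2 : ℝ) ^ (2 * blockDefect 2 b) * Complex.normSq (Mc t χ ψ))
    (fun t χ ψ => mul_nonneg (by positivity) (Complex.normSq_nonneg _))
    (fun t χ => Q * mr t χ) Q (blockRank 2 b : ℝ) hQpos
    (fun t ht χ hχ => by
      show ∑ ψ ∈ univ.filter (· ∈ B), (2 : ℝ) ^ (2 * blockDefect 2 b) * Complex.normSq (Mc t χ ψ)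
        = Q * (Q * mr t χ)
      rw [← mul_sum, hQ2, hmr, mul_assoc])
    (fun t ht χ hχ => by
      show (2 : ℝ) ^ (2 * blockDefect 2 b) * Complex.normSq (Mc t χ χ) = (Q * mr t χ) ^ 2
      rw [hMcr t ht χ, Complex.normSq_ofReal, hQ2]
      ring)
    (fun t ht => by
      show ∑ χ ∈ univ.filter (· ∈ B), Q * mr t χ = Q * (blockRank 2 b : ℝ)
      rw [← mul_sum]
      congr 1
      have h1 := htr t ht
      rw [sum_congr rfl (fun χ _ => hMcr t ht χ)] at h1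
      exact_mod_cast h1)
    (fun χ hχ ψ hψ => by
      rw [hB₀] at hχ hψ
      exact hpair χ (mem_filter.1 hχ).2.1 (mem_filter.1 hχ).2.2 ψ (mem_filter.1 hψ).2.1
        (mem_filter.1 hψ).2.2)
    (fun χ => (a χ : ℝ))
    (fun χ hχ => by
      rw [hB₀] at hχ
      have h1 := (ha χ (mem_filter.1 hχ).2.1 (mem_filter.1 hχ).2.2).2
      rw [sum_congr rfl (fun t ht => by rw [hMcr t ht χ])] at h1
      show ∑ t ∈ U, Q * mr t χ = ((2 ^ k).totient : ℝ) * (a χ : ℝ)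
      rw [hQ]
      exact_mod_cast h1)
  obtain ⟨hA0, hA1, hA2⟩ := hAB
  have hcard : Nat.card {χ : Cfsg.IrrCharacter G // χ ∈ B ∧ Cfsg.blockHeight 2 B (χ : G → ℂ) = 0}
      = B₀.card := by
    rw [Nat.card_eq_fintype_card, Fintype.card_subtype, hB₀]
  rw [hcard]
  rcases B₀.eq_empty_or_nonempty with hemp | hne
  · rw [hemp, card_empty]
    simp
  · obtain ⟨χ₀, hχ₀, hmin⟩ := exists_min_image B₀ a hne
    have hχ₀' := hχ₀
    rw [hB₀] at hχ₀'
    have hodd : Odd (a χ₀) := (ha χ₀ (mem_filter.1 hχ₀').2.1 (mem_filter.1 hχ₀').2.2).1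
    have h0 : 0 ≤ a χ₀ := by exact_mod_cast hA0 χ₀ hχ₀
    have h1 : 1 ≤ a χ₀ := by
      obtain ⟨x, hx⟩ := hodd
      omega
    have h2 : (B₀.card : ℤ) * a χ₀ ≤ ((2 ^ blockDefect 2 b : ℕ) : ℤ) * (blockRank 2 b : ℕ) := by
      have h3 : B₀.card • a χ₀ ≤ ∑ χ ∈ B₀, a χ := card_nsmul_le_sum B₀ a (a χ₀) hmin
      rw [nsmul_eq_mul] at h3
      have h4 : ((∑ χ ∈ B₀, a χ : ℤ) : ℝ) ≤ Q * (blockRank 2 b : ℝ) := by
        push_cast
        exact hA1
      have h5 : ((B₀.card * a χ₀ : ℤ) : ℝ) ≤ Q * (blockRank 2 b : ℝ) :=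
        le_trans (by exact_mod_cast h3) h4
      rw [hQ] at h5
      exact_mod_cast h5
    have h3 : (B₀.card : ℤ) - 1 + a χ₀ ^ 2 ≤ ((2 ^ blockDefect 2 b : ℕ) : ℤ) * a χ₀ := by
      have h4 := hA2 χ₀ hχ₀
      rw [hQ] at h4
      exact_mod_cast h4
    exact arith_final B₀.card (blockRank 2 b) (2 ^ blockDefect 2 b) (a χ₀) h1 hodd h2 h3

end Cfsg.Agent.S4541
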