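import Cfsg.Statements.S4550
import Cfsg.Agent.Lib.Helper76.GaloisConj
import Cfsg.Agent.Lib.CT.WBO
import Cfsg.Agent.Lib.Helper3.Spectral
import Mathlib

set_option autoImplicit false
open Cfsg

namespace Cfsg.Agent.S4550

open scoped ComplexConjugate

/-- `3 ^ (2 ^ s) ≡ 1` modulo `2 ^ (s + 1)`. -/
theorem three_pow_two_pow (s : ℕ) : (2 : ℤ) ^ (s + 1) ∣ 3 ^ (2 ^ s) - 1 := by
  induction s with
  | zero => norm_num
  | succ s ih =>
    obtain ⟨c, hc⟩ := ih
    refine ⟨c * (2 ^ s * c + 1), ?_⟩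
    have h1 : (3 : ℤ) ^ (2 ^ (s + 1)) = (3 ^ (2 ^ s)) ^ 2 := by
      rw [← pow_mul, pow_succ]
    have h2 : (3 : ℤ) ^ (2 ^ s) = 2 ^ (s + 1) * c + 1 := by linarith
    rw [h1, h2]
    ring

theorem three_pow_modEq (s N : ℕ) (hs : s ≤ N) : 3 ^ (2 ^ N) ≡ 1 [MOD 2 ^ s] := by
  have h1 : (2 : ℤ) ^ s ∣ 3 ^ (2 ^ N) - 1 :=
    (pow_dvd_pow 2 (by omega : s ≤ N + 1)).trans (three_pow_two_pow N)
  have h2 : 1 ≡ 3 ^ (2 ^ N) [MOD 2 ^ s] := by
    rw [Nat.modEq_iff_dvd]
    push_cast
    exact h1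
  exact h2.symm

section grp

variable {G : Type*} [Group G] [Finite G]

/-- `k` is prime to the group order. -/
theorem coprime_of_hyp (k : ℕ)
    (hk₁ : ∀ g : G, (∃ j : ℕ, orderOf g = 2 ^ j) → g ^ k = g ^ 3)
    (hk₂ : ∀ g : G, Odd (orderOf g) → g ^ k = g) : k.Coprime (Nat.card G) := by
  apply Nat.coprime_of_dvd
  intro q hq hqk hqG
  have : Fact q.Prime := ⟨hq⟩
  obtain ⟨x, hx⟩ := exists_prime_orderOf_dvd_card' q hqG
  have hxk : x ^ k = 1 := by
    rw [← orderOf_dvd_iff_pow_eq_one, hx]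
    exact hqk
  have hx1 : x ≠ 1 := by
    intro h
    rw [h, orderOf_one] at hx
    exact hq.one_lt.ne hx
  rcases hq.eq_two_or_odd' with h2 | hodd
  · subst h2
    have h3 := hk₁ x ⟨1, by rw [hx, pow_one]⟩
    rw [hxk] at h3
    have hx2 : x ^ 2 = 1 := by rw [← hx]; exact pow_orderOf_eq_one x
    have : x ^ 3 = x := by rw [pow_succ, hx2, one_mul]
    rw [this] at h3
    exact hx1 h3.symm
  · have h3 := hk₂ x (hx ▸ hodd)
    rw [hxk] at h3
    exact hx1 h3.symm

/-- The `2 ^ |G|`-th iterate of the power map is the identity. -/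
theorem pow_pow_eq (k : ℕ)
    (hk₁ : ∀ g : G, (∃ j : ℕ, orderOf g = 2 ^ j) → g ^ k = g ^ 3)
    (hk₂ : ∀ g : G, Odd (orderOf g) → g ^ k = g) (g : G) :
    g ^ (k ^ (2 ^ Nat.card G)) = g := by
  have ho : orderOf g ≠ 0 := (orderOf_pos g).ne'
  obtain ⟨s, r, hr, hsr⟩ := Nat.exists_eq_two_pow_mul_odd ho
  have hr0 : r ≠ 0 := by
    rintro rfl
    simp at hr
  have h2s : (2 : ℕ) ^ s ≠ 0 := pow_ne_zero _ (by norm_num)
  have hu : orderOf (g ^ r) = 2 ^ s := by
    rw [orderOf_pow_of_dvd hr0 (hsr ▸ Dvd.intro_left _ rfl), hsr, Nat.mul_div_cancel _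
      (Nat.pos_of_ne_zero hr0)]
  have hv : orderOf (g ^ (2 ^ s)) = r := by
    rw [orderOf_pow_of_dvd h2s (hsr ▸ Dvd.intro _ rfl), hsr, Nat.mul_div_cancel_left _
      (Nat.pos_of_ne_zero h2s)]
  have hk3 : k ≡ 3 [MOD 2 ^ s] := by
    have := hk₁ (g ^ r) ⟨s, hu⟩
    rw [pow_eq_pow_iff_modEq, hu] at this
    exact this
  have hk1 : k ≡ 1 [MOD r] := by
    have := hk₂ (g ^ (2 ^ s)) (hv ▸ hr)
    have h' : (g ^ (2 ^ s)) ^ k = (g ^ (2 ^ s)) ^ 1 := by rw [this, pow_one]
    rw [pow_eq_pow_iff_modEq, hv] at h'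
    exact h'
  have hsle : s ≤ Nat.card G := by
    have h1 : 2 ^ s ≤ Nat.card G := by
      have h2 : 2 ^ s ∣ Nat.card G := (Dvd.intro _ hsr.symm).trans (orderOf_dvd_natCard g)
      exact Nat.le_of_dvd Nat.card_pos h2
    exact (Nat.lt_two_pow_self).le.trans h1
  have e1 : k ^ (2 ^ Nat.card G) ≡ 1 [MOD 2 ^ s] :=
    (hk3.pow _).trans (three_pow_modEq s (Nat.card G) hsle)
  have e2 : k ^ (2 ^ Nat.card G) ≡ 1 [MOD r] := by
    have := hk1.pow (2 ^ Nat.card G)
    rwa [one_pow] at this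
  have hcop : (2 ^ s).Coprime r := Nat.Coprime.pow_left s (Nat.coprime_two_left.mpr hr)
  have e3 : k ^ (2 ^ Nat.card G) ≡ 1 [MOD orderOf g] := by
    rw [hsr]
    exact (Nat.modEq_and_modEq_iff_modEq_mul hcop).mp ⟨e1, e2⟩
  have : g ^ (k ^ (2 ^ Nat.card G)) = g ^ 1 := by
    rw [pow_eq_pow_iff_modEq]
    exact e3
  rw [this, pow_one]

omit [Finite G] in
/-- Centralizers of `g` and of a power prime to the order agree. -/
theorem centralizer_pow (k : ℕ) (hk : k.Coprime (Nat.card G)) (g : G) :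
    Subgroup.centralizer ({g ^ k} : Set G) = Subgroup.centralizer ({g} : Set G) := by
  ext y
  rw [Subgroup.mem_centralizer_singleton_iff, Subgroup.mem_centralizer_singleton_iff]
  constructor
  · intro h
    have hc : k.Coprime (orderOf g) := Nat.Coprime.coprime_dvd_right (orderOf_dvd_natCard g) hk
    obtain ⟨m, hm⟩ := exists_pow_eq_self_of_coprime hc
    have h1 : Commute y (g ^ k) := h
    have h2 : Commute y ((g ^ k) ^ m) := h1.pow_right m
    rw [hm] at h2
    exact h2
  · intro h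
    have h1 : Commute y g := h
    exact h1.pow_right k


/-- The value of a character at an involution differs from the degree by an even integer. -/
theorem exists_int_involution {χ : G → ℂ} (hχ : IsCharacter G χ) (t : G) (ht : orderOf t = 2) :
    ∃ b : ℤ, χ t = χ 1 - 2 * (b : ℂ) := by
  classical
  obtain ⟨n, ρ, rfl⟩ := hχ
  obtain ⟨b, μ, hb, hμ⟩ := Cfsg.Agent.Lib.Helper3.Spectral.exists_eigenbasis ρ t
  rw [ht] at hμ
  have htr : ρ.character t = ∑ i, μ i :=
    Cfsg.Agent.Lib.Helper3.Spectral.trace_eq_sum_of_eigenbasis b (ρ t) μ hb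
  have hone : ρ.character 1 = ∑ i : Fin (Module.finrank ℂ (Fin n → ℂ)), (1 : ℂ) := by
    rw [Representation.char_one]
    simp
  refine ⟨((Finset.univ.filter (fun i => μ i = -1)).card : ℤ), ?_⟩
  have hpt : ∀ i, μ i = 1 - 2 * (if μ i = -1 then (1 : ℂ) else 0) := by
    intro i
    rcases sq_eq_one_iff.mp (hμ i) with h | h
    · rw [h]
      have : ¬ ((1 : ℂ) = -1) := by norm_num
      rw [if_neg this]; ring
    · rw [h, if_pos rfl]; ring
  rw [htr, hone, Finset.sum_congr rfl (fun i _ => hpt i), Finset.sum_sub_distrib, ← Finset.mul_sum,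
    Finset.sum_boole]
  push_cast
  rfl

end grp


/-- Let G be a finite group of even order and M a maximal ideal of the algebraic integers containing 2. Let k be a natural number with g ^ k = g ^ 3 for every 2-element g and g ^ k = g for every element g of odd order (such k exist); an irreducible character χ is unchanged by g ↦ g ^ k exactly when it is fixed by the field automorphism that cubes the 2-power roots of unity and fixes the roots of unity of odd order. Then the number of members χ of the principal 2-block of odd degree with χ (g ^ k) = χ g for all g is even. -/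
theorem result {G : Type*} [Group G] [Finite G] (M : Ideal Cfsg.AlgInt) (hM : Cfsg.IsPModular 2 M) (hev : Even (Nat.card G)) (k : ℕ) (hk₁ : ∀ g : G, (∃ j : ℕ, orderOf g = 2 ^ j) → g ^ k = g ^ 3) (hk₂ : ∀ g : G, Odd (orderOf g) → g ^ k = g) : Even (Nat.card {χ : Cfsg.IrrCharacter G // χ ∈ Cfsg.principalBlock M G ∧ Odd (Cfsg.charDegree (χ : G → ℂ)) ∧ ∀ g : G, (χ : G → ℂ) (g ^ k) = (χ : G → ℂ) g}) := by
  classical
  have _instG : Fintype G := Fintype.ofFinite G
  have hfin := Cfsg.Agent.Lib.CT.Wedderburn.finite_irrCharacter G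
  have _instI : Fintype (IrrCharacter G) := Fintype.ofFinite _
  have hkcop : k.Coprime (Nat.card G) := coprime_of_hyp k hk₁ hk₂
  -- the Galois map
  let τ : IrrCharacter G → IrrCharacter G := fun χ =>
    ⟨fun g => (χ : G → ℂ) (g ^ k), Cfsg.Agent.Lib.Helper76.GaloisConj.isIrrCharacter_pow χ.2 k hkcop⟩
  have hτdeg : ∀ χ : IrrCharacter G, charDegree ((τ χ : IrrCharacter G) : G → ℂ) =
      charDegree (χ : G → ℂ) := by
    intro χ
    simp only [τ, charDegree, one_pow]
  have hτblock : ∀ χ : IrrCharacter G, χ ∈ principalBlock M G → τ χ ∈ principalBlock M G := by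
    intro χ hχ g
    have h1 := hχ (g ^ k)
    have hC := centralizer_pow k hkcop g
    simp only [centralChar, τ, one_pow] at h1 ⊢
    rw [hC] at h1
    exact h1
  -- the set Ω and the induced self-map
  let Ω : Type _ := {χ : IrrCharacter G // χ ∈ principalBlock M G ∧ Odd (charDegree (χ : G → ℂ))}
  let f : Function.End Ω := fun ω => ⟨τ ω.1, hτblock ω.1 ω.2.1, by rw [hτdeg]; exact ω.2.2⟩
  have hfpow : ∀ (j : ℕ) (ω : Ω) (g : G),
      (((f ^ j : Function.End Ω) ω).1 : G → ℂ) g = (ω.1 : G → ℂ) (g ^ (k ^ j)) := by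
    intro j
    induction j with
    | zero =>
      intro ω g
      rw [pow_zero, pow_zero, pow_one]
      rfl
    | succ j ih =>
      intro ω g
      rw [pow_succ]
      show ((((f ^ j : Function.End Ω) (f ω)).1 : IrrCharacter G) : G → ℂ) g = _
      rw [ih (f ω) g]
      show (ω.1 : G → ℂ) ((g ^ (k ^ j)) ^ k) = _
      rw [← pow_mul, ← pow_succ]
  have hf : f ^ 2 ^ Nat.card G = 1 := by
    funext ω
    apply Subtype.ext
    apply Subtype.ext
    funext g
    rw [hfpow, pow_pow_eq k hk₁ hk₂ g]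
    rfl
  have hmod := Equiv.Perm.card_fixedPoints_modEq (p := 2) (n := Nat.card G) hf
  -- |Ω| is even by weak block orthogonality at an involution
  have h2dvd : 2 ∣ Nat.card G := even_iff_two_dvd.mp hev
  obtain ⟨t, ht⟩ := exists_prime_orderOf_dvd_card' 2 h2dvd
  have hB : IsPBlock M (principalBlock M G) :=
    ⟨⟨fun _ => (1 : ℂ), Cfsg.Agent.Lib.CT.Ops.isIrrCharacter_one⟩, rfl⟩
  have hwbo := Cfsg.Agent.Lib.CT.WBO.weak_block_orthogonality 2 M hM (principalBlock M G) hB 1 t
    (by rw [orderOf_one]; norm_num) (by rw [ht])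
  have hd : ∀ χ : IrrCharacter G, (χ : G → ℂ) 1 = (charDegree (χ : G → ℂ) : ℂ) := fun χ =>
    (Cfsg.Agent.Lib.CT.Wedderburn.char_natCast_charDegree
      (Cfsg.Agent.Lib.CT.Wedderburn.isCharacter_of_irr χ.2)).symm
  choose bb hbb using fun χ : IrrCharacter G =>
    exists_int_involution (Cfsg.Agent.Lib.CT.Wedderburn.isCharacter_of_irr χ.2) t ht
  have hsumZ : ∑ χ ∈ (principalBlock M G).toFinset,
      ((charDegree (χ : G → ℂ) : ℤ) * ((charDegree (χ : G → ℂ) : ℤ) - 2 * bb χ)) = 0 := by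
    have h1 : ∑ᶠ χ ∈ principalBlock M G, (χ : G → ℂ) 1 * conj ((χ : G → ℂ) t) =
        ∑ χ ∈ (principalBlock M G).toFinset, (χ : G → ℂ) 1 * conj ((χ : G → ℂ) t) := by
      rw [← finsum_mem_coe_finset, Set.coe_toFinset]
    rw [h1] at hwbo
    have h2 : ((∑ χ ∈ (principalBlock M G).toFinset,
        ((charDegree (χ : G → ℂ) : ℤ) * ((charDegree (χ : G → ℂ) : ℤ) - 2 * bb χ)) : ℤ) : ℂ) = 0 := by
      rw [← hwbo]
      push_cast
      apply Finset.sum_congr rfl
      intro χ _
      rw [hbb χ, hd χ, map_sub, map_mul, Complex.conj_natCast, Complex.conj_ofNat]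
      have hc : conj ((bb χ : ℤ) : ℂ) = ((bb χ : ℤ) : ℂ) := map_intCast (starRingEnd ℂ) _
      rw [hc]
    exact_mod_cast h2
  have hΩcard : Fintype.card Ω =
      ((principalBlock M G).toFinset.filter
        (fun χ : IrrCharacter G => Odd (charDegree (χ : G → ℂ)))).card := by
    rw [Fintype.card_subtype]
    congr 1
    ext χ
    simp
  have hΩeven : Even (Fintype.card Ω) := by
    rw [hΩcard, even_iff_two_dvd, ← ZMod.natCast_eq_zero_iff]
    have h3 := congrArg (Int.cast : ℤ → ZMod 2) hsumZ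
    push_cast at h3
    have h4 : (((principalBlock M G).toFinset.filter
        (fun χ : IrrCharacter G => Odd (charDegree (χ : G → ℂ)))).card : ZMod 2) =
        ∑ χ ∈ (principalBlock M G).toFinset,
          (if Odd (charDegree (χ : G → ℂ)) then (1 : ZMod 2) else 0) := by
      rw [Finset.sum_boole]
    rw [h4]
    refine Eq.trans ?_ h3
    apply Finset.sum_congr rfl
    intro χ _
    have h2 : (2 : ZMod 2) = 0 := rfl
    rw [h2, zero_mul, sub_zero]
    by_cases ho : Odd (charDegree (χ : G → ℂ))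
    · rw [if_pos ho]
      have : ((charDegree (χ : G → ℂ) : ℕ) : ZMod 2) = 1 := (ZMod.natCast_eq_one_iff_odd).mpr ho
      rw [this, mul_one]
    · rw [if_neg ho]
      have he : Even (charDegree (χ : G → ℂ)) := Nat.not_odd_iff_even.mp ho
      have : ((charDegree (χ : G → ℂ) : ℕ) : ZMod 2) = 0 :=
        (ZMod.natCast_eq_zero_iff_even).mpr he
      rw [this, mul_zero]
  have hfixeven : Even (Fintype.card (Function.fixedPoints f)) := by
    rw [even_iff_two_dvd] at hΩeven ⊢
    exact (Nat.modEq_zero_iff_dvd.mp ((hmod.symm).trans (Nat.modEq_zero_iff_dvd.mpr hΩeven)))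
  -- identify the fixed points with the set of the statement
  have hfix : ∀ ω : Ω, f ω = ω ↔ ∀ g : G, (ω.1 : G → ℂ) (g ^ k) = (ω.1 : G → ℂ) g := by
    intro ω
    constructor
    · intro h g
      have := congrArg (fun ω' : Ω => (ω'.1 : G → ℂ) g) h
      exact this
    · intro h
      apply Subtype.ext
      apply Subtype.ext
      funext g
      exact h g
  let e : {χ : IrrCharacter G // χ ∈ principalBlock M G ∧ Odd (charDegree (χ : G → ℂ)) ∧
      ∀ g : G, (χ : G → ℂ) (g ^ k) = (χ : G → ℂ) g} ≃ Function.fixedPoints f :=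
    { toFun := fun x => ⟨⟨x.1, x.2.1, x.2.2.1⟩, (hfix _).mpr x.2.2.2⟩
      invFun := fun y => ⟨y.1.1, y.1.2.1, y.1.2.2, (hfix y.1).mp y.2⟩
      left_inv := fun x => rfl
      right_inv := fun y => rfl }
  rw [Nat.card_congr e, Nat.card_eq_fintype_card]
  exact hfixeven

end Cfsg.Agent.S4550
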