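import Cfsg.Statements.S4558
import Mathlib

set_option autoImplicit false
open Cfsg

namespace Cfsg.Agent.S4558

open Polynomial in
/-- A multiset of `p^(k+1)`-th roots of unity with zero sum has size divisible by `p`. -/
theorem card_dvd_of_sum_eq_zero (p : ℕ) [Fact p.Prime] (k : ℕ) (s : Multiset ℂ)
    (hs : ∀ μ ∈ s, μ ^ (p ^ (k + 1)) = 1) (h0 : s.sum = 0) : p ∣ Multiset.card s := by
  have hpos : 0 < p ^ (k + 1) := pow_pos (Fact.out : p.Prime).pos _
  obtain ⟨ζ, hζ⟩ : ∃ ζ : ℂ, IsPrimitiveRoot ζ (p ^ (k + 1)) :=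
    ⟨_, Complex.isPrimitiveRoot_exp _ hpos.ne'⟩
  have key : ∀ t : Multiset ℂ, (∀ μ ∈ t, μ ^ (p ^ (k + 1)) = 1) →
      ∃ F : ℤ[X], aeval ζ F = t.sum ∧ F.eval 1 = (Multiset.card t : ℤ) := by
    intro t
    induction t using Multiset.induction with
    | empty => intro _; exact ⟨0, by simp, by simp⟩
    | cons μ t ih =>
      intro ht
      obtain ⟨F, hF1, hF2⟩ := ih (fun ν hν => ht ν (Multiset.mem_cons_of_mem hν))
      obtain ⟨a, -, ha⟩ := hζ.eq_pow_of_pow_eq_one (ht μ (Multiset.mem_cons_self μ t))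
      refine ⟨X ^ a + F, ?_, ?_⟩
      · simp [hF1, ha]
      · simp [hF2]; ring
  obtain ⟨F, hF1, hF2⟩ := key s hs
  rw [h0] at hF1
  have hdvd : cyclotomic (p ^ (k + 1)) ℤ ∣ F := by
    rw [cyclotomic_eq_minpoly hζ hpos]
    exact minpoly.isIntegrallyClosed_dvd (hζ.isIntegral hpos) hF1
  have h1 : (cyclotomic (p ^ (k + 1)) ℤ).eval 1 ∣ F.eval 1 := by
    obtain ⟨Q, rfl⟩ := hdvd
    simp
  rw [eval_one_cyclotomic_prime_pow, hF2] at h1
  exact_mod_cast h1

/-- Let χ be a character of the finite group G and g an element of p-power order for the prime p. If χ g = 0, then p divides the degree of χ. -/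
theorem result {G : Type*} [Group G] [Finite G] (p : ℕ) [Fact p.Prime] (χ : G → ℂ) (hχ : Cfsg.IsCharacter G χ) (g : G) (hg : ∃ j : ℕ, orderOf g = p ^ j) (h0 : χ g = 0) : p ∣ Cfsg.charDegree χ := by
  obtain ⟨n, ρ, rfl⟩ := hχ
  obtain ⟨j, hj⟩ := hg
  have hdeg : Cfsg.charDegree ρ.character = n := by
    simp [Cfsg.charDegree, Representation.char_one]
  rw [hdeg]
  rcases j with _ | k
  · -- g = 1
    have hg1 : g = 1 := by simpa using hj
    subst hg1
    have : (n : ℂ) = 0 := by simpa [Representation.char_one] using h0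
    have : n = 0 := by exact_mod_cast this
    simp [this]
  · set f : Module.End ℂ (Fin n → ℂ) := ρ g with hf
    have hfpow : f ^ (p ^ (k + 1)) = 1 := by
      rw [hf, ← map_pow, ← hj, pow_orderOf_eq_one, map_one]
    have hsplit : f.charpoly.Splits := IsAlgClosed.splits _
    have htr : ρ.character g = f.charpoly.roots.sum := by
      simp only [Representation.character]
      exact Module.End.trace_eq_sum_roots_charpoly_of_splits hsplit
    have hcard : Multiset.card f.charpoly.roots = n := by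
      rw [Polynomial.splits_iff_card_roots.mp hsplit, LinearMap.charpoly_natDegree]
      simp
    have hroots : ∀ μ ∈ f.charpoly.roots, μ ^ (p ^ (k + 1)) = 1 := by
      intro μ hμ
      have hev : f.HasEigenvalue μ := by
        rw [Module.End.hasEigenvalue_iff_isRoot_charpoly]
        exact (Polynomial.mem_roots'.mp hμ).2
      obtain ⟨v, hv⟩ := hev.exists_hasEigenvector
      have h1 : (f ^ (p ^ (k + 1))) v = μ ^ (p ^ (k + 1)) • v := hv.pow_apply _
      rw [hfpow] at h1
      have h2 : (μ ^ (p ^ (k + 1)) - 1) • v = 0 := by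
        rw [sub_smul, ← h1]; simp
      rcases smul_eq_zero.mp h2 with h3 | h3
      · exact sub_eq_zero.mp h3
      · exact absurd h3 hv.2
    have := card_dvd_of_sum_eq_zero p k f.charpoly.roots hroots (by rw [← htr]; exact h0)
    rwa [hcard] at this

end Cfsg.Agent.S4558
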