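import Cfsg.Statements.S4560
import Cfsg.Agent.H41.PermChar2
import Cfsg.Agent.H41.AltElts

set_option autoImplicit false
open Cfsg

namespace Cfsg.Agent.S4560

/-- For n ≥ 7 the alternating group on n letters has an irreducible character that vanishes at some 2-element and is the restriction of an irreducible character of the symmetric group, and an irreducible character that vanishes at some element of order 3 and is the restriction of an irreducible character of the symmetric group. -/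
theorem result (n : ℕ) (hn : 7 ≤ n) : (∃ χ : Cfsg.IrrCharacter (alternatingGroup (Fin n)), (∃ x : alternatingGroup (Fin n), (∃ j : ℕ, orderOf x = 2 ^ j) ∧ (χ : alternatingGroup (Fin n) → ℂ) x = 0) ∧ ∃ ψ : Cfsg.IrrCharacter (Equiv.Perm (Fin n)), ∀ x : alternatingGroup (Fin n), (ψ : Equiv.Perm (Fin n) → ℂ) x = (χ : alternatingGroup (Fin n) → ℂ) x) ∧ (∃ χ : Cfsg.IrrCharacter (alternatingGroup (Fin n)), (∃ y : alternatingGroup (Fin n), orderOf y = 3 ∧ (χ : alternatingGroup (Fin n) → ℂ) y = 0) ∧ ∃ ψ : Cfsg.IrrCharacter (Equiv.Perm (Fin n)), ∀ x : alternatingGroup (Fin n), (ψ : Equiv.Perm (Fin n) → ℂ) x = (χ : alternatingGroup (Fin n) → ℂ) x) := by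
  classical
  have hcard : Fintype.card (Fin n) = n := Fintype.card_fin n
  have hNc : Nat.card (Fin n) = n := by rw [Nat.card_eq_fintype_card, hcard]
  have hS4 : MulAction.IsMultiplyPretransitive (Equiv.Perm (Fin n)) (Fin n) 4 :=
    Equiv.Perm.isMultiplyPretransitive (Fin n) 4
  have hS2 : MulAction.IsMultiplyPretransitive (Equiv.Perm (Fin n)) (Fin n) 2 :=
    Equiv.Perm.isMultiplyPretransitive (Fin n) 2
  have hAn : MulAction.IsMultiplyPretransitive (alternatingGroup (Fin n)) (Fin n) (n - 2) := by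
    have h := alternatingGroup.isMultiplyPretransitive (Fin n)
    rw [hNc] at h
    exact h
  have hA4 : MulAction.IsMultiplyPretransitive (alternatingGroup (Fin n)) (Fin n) 4 :=
    MulAction.isMultiplyPretransitive_of_le (n := n - 2) (by omega) (by rw [hNc]; omega)
  have hA2 : MulAction.IsMultiplyPretransitive (alternatingGroup (Fin n)) (Fin n) 2 :=
    MulAction.isMultiplyPretransitive_of_le (n := n - 2) (by omega) (by rw [hNc]; omega)
  have key : ∀ (F : ℕ → ℕ → ℂ),
      IsIrrCharacter (alternatingGroup (Fin n))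
        (fun g => F (Cfsg.Agent.H41.TwBurn.Fx (Fin n) g).card
          (Cfsg.Agent.H41.TwBurn.Sw (Fin n) g).card) →
      IsIrrCharacter (Equiv.Perm (Fin n))
        (fun g => F (Cfsg.Agent.H41.TwBurn.Fx (Fin n) g).card
          (Cfsg.Agent.H41.TwBurn.Sw (Fin n) g).card) →
      ∀ (x : Equiv.Perm (Fin n)), Equiv.Perm.sign x = 1 →
        F (Cfsg.Agent.H41.TwBurn.Fx (Fin n) x).card (Cfsg.Agent.H41.TwBurn.Sw (Fin n) x).card = 0 →
      ∀ (Q : ℕ → Prop), Q (orderOf x) →
      ∃ χ : Cfsg.IrrCharacter (alternatingGroup (Fin n)),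
        (∃ y : alternatingGroup (Fin n), Q (orderOf y) ∧ (χ : alternatingGroup (Fin n) → ℂ) y = 0)
        ∧ ∃ ψ : Cfsg.IrrCharacter (Equiv.Perm (Fin n)), ∀ z : alternatingGroup (Fin n),
          (ψ : Equiv.Perm (Fin n) → ℂ) z = (χ : alternatingGroup (Fin n) → ℂ) z := by
    intro F hA hS x hx h0 Q hQ
    refine ⟨⟨_, hA⟩, ⟨⟨x, Equiv.Perm.mem_alternatingGroup.2 hx⟩, ?_, ?_⟩, ⟨_, hS⟩, fun z => rfl⟩
    · rw [Subgroup.orderOf_mk]
      exact hQ
    · exact h0
  have hc4 : 4 ≤ Fintype.card (Fin n) := by rw [hcard]; omega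
  have hc2 : 2 ≤ Fintype.card (Fin n) := by rw [hcard]; omega
  -- the three families
  have k1 := key (fun f _ => (f : ℂ) - 1)
    (Cfsg.Agent.H41.PermChar2.theta1_irr (G := alternatingGroup (Fin n)) (X := Fin n) hc2)
    (Cfsg.Agent.H41.PermChar2.theta1_irr (G := Equiv.Perm (Fin n)) (X := Fin n) hc2)
  have k2 := key (fun f u => ((f : ℂ) ^ 2 - 3 * (f : ℂ) + (u : ℂ)) / 2)
    (Cfsg.Agent.H41.PermChar2.theta2_irr (G := alternatingGroup (Fin n)) (X := Fin n) hc4)
    (Cfsg.Agent.H41.PermChar2.theta2_irr (G := Equiv.Perm (Fin n)) (X := Fin n) hc4)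
  have k3 := key (fun f u => ((f : ℂ) ^ 2 - 3 * (f : ℂ) + 2 - (u : ℂ)) / 2)
    (Cfsg.Agent.H41.PermChar2.theta3_irr (G := alternatingGroup (Fin n)) (X := Fin n) hc4)
    (Cfsg.Agent.H41.PermChar2.theta3_irr (G := Equiv.Perm (Fin n)) (X := Fin n) hc4)
  have hpow2 : ∀ (x : Equiv.Perm (Fin n)) (t : ℕ), x ^ (2 ^ t) = 1 → ∃ j : ℕ, orderOf x = 2 ^ j := by
    intro x t h
    obtain ⟨m, _, hm⟩ := (Nat.dvd_prime_pow Nat.prime_two).1 (orderOf_dvd_of_pow_eq_one h)
    exact ⟨m, hm⟩
  refine ⟨?_, ?_⟩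
  · -- the 2-element
    have h4 : n % 4 = 0 ∨ n % 4 = 2 ∨ n % 2 = 1 := by omega
    rcases h4 with h4 | h4 | h4
    · -- n = 4a
      obtain ⟨a, rfl⟩ : ∃ a, n = 4 * a := ⟨n / 4, by omega⟩
      rcases Nat.even_or_odd a with ha | ha
      · obtain ⟨x, hx1, hx2, hx3, hx4⟩ := Cfsg.Agent.H41.AltElts.exists_elt 4 4 (a - 1) 0 (4 * a) 4
          (by norm_num) (by norm_num) (by omega) (dvd_refl _) (dvd_refl _)
        have hs : Equiv.Perm.sign x = 1 := by
          rw [hx2]
          apply Even.neg_one_pow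
          rw [Nat.even_iff] at ha ⊢
          omega
        refine k2 x hs ?_ (fun k => ∃ j : ℕ, k = 2 ^ j) (hpow2 x 2 hx1)
        rw [hx3, hx4 (by norm_num) (by norm_num)]
        norm_num
      · obtain ⟨x, hx1, hx2, hx3, hx4⟩ := Cfsg.Agent.H41.AltElts.exists_elt 8 4 (a - 2) 0 (4 * a) 8
          (by norm_num) (by norm_num) (by rw [Nat.odd_iff] at ha; omega) (dvd_refl _)
          (by norm_num)
        have hs : Equiv.Perm.sign x = 1 := by
          rw [hx2]
          apply Even.neg_one_pow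
          rw [Nat.odd_iff] at ha
          rw [Nat.even_iff]
          omega
        refine k2 x hs ?_ (fun k => ∃ j : ℕ, k = 2 ^ j) (hpow2 x 3 hx1)
        rw [hx3, hx4 (by norm_num) (by norm_num)]
        norm_num
    · -- n = 4a + 2
      obtain ⟨a, rfl⟩ : ∃ a, n = 4 * a + 2 := ⟨n / 4, by omega⟩
      rcases Nat.even_or_odd a with ha | ha
      · obtain ⟨x, hx1, hx2, hx3, hx4⟩ :=
          Cfsg.Agent.H41.AltElts.exists_elt 4 4 (a - 1) 2 (4 * a + 2) 4
          (by norm_num) (by norm_num) (by omega) (dvd_refl _) (dvd_refl _)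
        have hs : Equiv.Perm.sign x = 1 := by
          rw [hx2]
          apply Even.neg_one_pow
          rw [Nat.even_iff] at ha ⊢
          omega
        refine k3 x hs ?_ (fun k => ∃ j : ℕ, k = 2 ^ j) (hpow2 x 2 hx1)
        rw [hx3, hx4 (by norm_num) (by norm_num)]
        norm_num
      · obtain ⟨x, hx1, hx2, hx3, hx4⟩ :=
          Cfsg.Agent.H41.AltElts.exists_elt 8 4 (a - 2) 2 (4 * a + 2) 8
          (by norm_num) (by norm_num) (by rw [Nat.odd_iff] at ha; omega) (dvd_refl _)
          (by norm_num)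
        have hs : Equiv.Perm.sign x = 1 := by
          rw [hx2]
          apply Even.neg_one_pow
          rw [Nat.odd_iff] at ha
          rw [Nat.even_iff]
          omega
        refine k3 x hs ?_ (fun k => ∃ j : ℕ, k = 2 ^ j) (hpow2 x 3 hx1)
        rw [hx3, hx4 (by norm_num) (by norm_num)]
        norm_num
    · -- n odd
      obtain ⟨m, rfl⟩ : ∃ m, n = 2 * m + 1 := ⟨n / 2, by omega⟩
      rcases Nat.even_or_odd m with hm | hm
      · obtain ⟨x, hx1, hx2, hx3, hx4⟩ :=
          Cfsg.Agent.H41.AltElts.exists_elt 2 2 (m - 1) 1 (2 * m + 1) 2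
          (by norm_num) (by norm_num) (by omega) (dvd_refl _) (dvd_refl _)
        have hs : Equiv.Perm.sign x = 1 := by
          rw [hx2]
          apply Even.neg_one_pow
          rw [Nat.even_iff] at hm ⊢
          omega
        refine k1 x hs ?_ (fun k => ∃ j : ℕ, k = 2 ^ j) (hpow2 x 1 hx1)
        rw [hx3]
        norm_num
      · obtain ⟨x, hx1, hx2, hx3, hx4⟩ :=
          Cfsg.Agent.H41.AltElts.exists_elt 4 2 (m - 2) 1 (2 * m + 1) 4
          (by norm_num) (by norm_num) (by omega) (dvd_refl _) (by norm_num)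
        have hs : Equiv.Perm.sign x = 1 := by
          rw [hx2]
          apply Even.neg_one_pow
          rw [Nat.odd_iff] at hm
          rw [Nat.even_iff]
          omega
        refine k1 x hs ?_ (fun k => ∃ j : ℕ, k = 2 ^ j) (hpow2 x 2 hx1)
        rw [hx3]
        norm_num
  · -- the element of order 3
    obtain ⟨b, r, hr, rfl⟩ : ∃ b r, r < 3 ∧ n = 3 * b + r :=
      ⟨n / 3, n % 3, Nat.mod_lt _ (by norm_num), by omega⟩
    obtain ⟨x, hx1, hx2, hx3, hx4⟩ :=
      Cfsg.Agent.H41.AltElts.exists_elt 3 3 (b - 1) r (3 * b + r) 3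
      (by norm_num) (by norm_num) (by omega) (dvd_refl _) (dvd_refl _)
    have hs : Equiv.Perm.sign x = 1 := by
      rw [hx2]
      apply Even.neg_one_pow
      rw [Nat.even_iff]
      omega
    have hx5 := hx4 (by norm_num) (by norm_num)
    have hne : x ≠ 1 := by
      rintro rfl
      rw [Cfsg.Agent.H41.PermChar2.Fx_one, hcard] at hx3
      omega
    haveI : Fact (Nat.Prime 3) := ⟨by norm_num⟩
    have hord : orderOf x = 3 := orderOf_eq_prime hx1 hne
    have hr3 : r = 0 ∨ r = 1 ∨ r = 2 := by omega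
    rcases hr3 with rfl | rfl | rfl
    · refine k2 x hs ?_ (fun k => k = 3) hord
      rw [hx3, hx5]
      norm_num
    · refine k1 x hs ?_ (fun k => k = 3) hord
      rw [hx3]
      norm_num
    · refine k3 x hs ?_ (fun k => k = 3) hord
      rw [hx3, hx5]
      norm_num

end Cfsg.Agent.S4560
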