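import Cfsg.Statements.S4565
import Cfsg.Agent.Lib.CT.Wedderburn
import Cfsg.Agent.Lib.CT.ClassMult

set_option autoImplicit false
open Cfsg

namespace Cfsg.Agent.S4565

open scoped ComplexConjugate
open Cfsg.Agent.Lib.CT.Wedderburn Cfsg.Agent.Lib.CT.ClassMult

theorem sum_mul_conj {G : Type*} [Group G] [Fintype G] (χ : IrrCharacter G) :
    ∑ g : G, (χ : G → ℂ) g * conj ((χ : G → ℂ) g) = (Nat.card G : ℂ) := by
  have h := irr_orthonormal χ χ
  rw [if_pos rfl, classInner] at h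
  have hne : (Nat.card G : ℂ) ≠ 0 := Nat.cast_ne_zero.mpr Nat.card_pos.ne'
  rw [inv_mul_eq_one₀ hne] at h
  exact h.symm

theorem sum_normSq {G : Type*} [Group G] [Fintype G] (χ : IrrCharacter G) :
    ∑ g : G, Complex.normSq ((χ : G → ℂ) g) = (Nat.card G : ℝ) := by
  have h' := sum_mul_conj χ
  apply Complex.ofReal_injective
  push_cast
  rw [← h']
  refine Finset.sum_congr rfl fun g _ => ?_
  rw [Complex.mul_conj]

theorem vanish_off {H : Type*} [Group H] [Fintype H] (Z : Subgroup H) [Fintype Z]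
    (χ : IrrCharacter H) (θ : IrrCharacter Z) (e : ℕ) (he : e ^ 2 = Z.index)
    (hχZ : ∀ z : Z, (χ : H → ℂ) z = (e : ℂ) * (θ : Z → ℂ) z) (g : H) (hg : g ∉ Z) :
    (χ : H → ℂ) g = 0 := by
  classical
  have h1 := sum_normSq χ
  have h2 := sum_normSq θ
  have h3 : ∑ h ∈ Finset.univ.filter (fun h : H => h ∈ Z), Complex.normSq ((χ : H → ℂ) h)
      = (Nat.card H : ℝ) := by
    rw [Finset.sum_subtype (p := fun h : H => h ∈ Z) _ (fun x => by simp)]
    have h4 : ∀ z : Z, Complex.normSq ((χ : H → ℂ) z)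
        = (e : ℝ) ^ 2 * Complex.normSq ((θ : Z → ℂ) z) := by
      intro z
      rw [hχZ z, Complex.normSq_mul, Complex.normSq_natCast]
      ring
    have h5 : ∑ z : Z, Complex.normSq ((χ : H → ℂ) z) = (Nat.card H : ℝ) := by
      rw [Finset.sum_congr rfl fun z _ => h4 z, ← Finset.mul_sum, h2,
        ← Subgroup.card_mul_index Z, ← he]
      push_cast
      ring
    rw [← h5]
  have h4 : ∑ h ∈ Finset.univ.filter (fun h : H => h ∉ Z), Complex.normSq ((χ : H → ℂ) h) = 0 := by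
    have := Finset.sum_filter_add_sum_filter_not Finset.univ (fun h : H => h ∈ Z)
      (fun h => Complex.normSq ((χ : H → ℂ) h))
    linarith
  have h5 := (Finset.sum_eq_zero_iff_of_nonneg (fun h _ => Complex.normSq_nonneg _)).mp h4 g
    (by simp [hg])
  exact Complex.normSq_eq_zero.mp h5

/-- Coset decomposition of a sum over the group. -/
theorem sum_coset {H : Type*} [Group H] [Fintype H] (Z : Subgroup H) [Fintype Z]
    [Fintype (H ⧸ Z)] (F : H → ℂ) :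
    ∑ y : H, F y = ∑ q : H ⧸ Z, ∑ z : Z, F (q.out * z) := by
  rw [← Fintype.sum_prod_type (f := fun p : (H ⧸ Z) × Z => F (p.1.out * p.2))]
  symm
  refine Fintype.sum_bijective (fun p : (H ⧸ Z) × Z => p.1.out * (p.2 : H)) ?_ _ _ (fun _ => rfl)
  constructor
  · rintro ⟨q, z⟩ ⟨q', z'⟩ h
    simp only at h
    have hq : q = q' := by
      have h1 := congrArg (QuotientGroup.mk (s := Z)) h
      rw [QuotientGroup.mk_mul_of_mem _ z.2, QuotientGroup.mk_mul_of_mem _ z'.2,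
        QuotientGroup.out_eq', QuotientGroup.out_eq'] at h1
      exact h1
    subst hq
    have hz : (z : H) = z' := mul_left_cancel h
    rw [Subtype.ext hz]
  · intro y
    refine ⟨((y : H ⧸ Z), ⟨(y : H ⧸ Z).out⁻¹ * y, ?_⟩), ?_⟩
    · rw [← QuotientGroup.eq, QuotientGroup.out_eq']
    · simp

theorem fixsum {H : Type*} [Group H] [Fintype H] (Z : Subgroup H) [Z.Normal] [Fintype Z]
    (χ : IrrCharacter H) (hvan : ∀ g : H, g ∉ Z → (χ : H → ℂ) g = 0)
    (g : H) (hg : g ∉ Z)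
    (hcent : ∀ q : H ⧸ Z, q * (g : H ⧸ Z) = (g : H ⧸ Z) * q →
      q ∈ Subgroup.zpowers (g : H ⧸ Z)) :
    ∑ z : Z, (χ : H → ℂ) (g⁻¹ * ((z : H) * g * (z : H)⁻¹)) = 0 := by
  classical
  have : Fintype (H ⧸ Z) := Fintype.ofFinite _
  have hcl := char_isClassFunction (isCharacter_of_irr χ.2)
  set F : H → ℂ := fun y => (χ : H → ℂ) (g⁻¹ * (y * g * y⁻¹)) with hF
  have hsum : ∑ y : H, F y = 0 := by
    have h1 := irr_schur_average χ.2 g⁻¹ g
    rw [hvan g hg] at h1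
    simpa using h1
  have hinv : ∀ (i : ℤ) (y : H), F (g ^ i * y) = F y := by
    intro i y
    simp only [hF]
    have : g⁻¹ * (g ^ i * y * g * (g ^ i * y)⁻¹) = g ^ i * (g⁻¹ * (y * g * y⁻¹)) * (g ^ i)⁻¹ := by
      group
    rw [this, hcl]
  have hzero : ∀ y : H, (y : H ⧸ Z) ∉ Subgroup.zpowers (g : H ⧸ Z) → F y = 0 := by
    intro y hy
    apply hvan
    intro hmem
    apply hy
    apply hcent
    have h1 := (QuotientGroup.eq_one_iff _).mpr hmem
    simp only [QuotientGroup.mk_mul, QuotientGroup.mk_inv] at h1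
    rw [inv_mul_eq_one, eq_mul_inv_iff_mul_eq] at h1
    exact h1.symm
  rw [sum_coset Z F] at hsum
  have hq : ∀ q : H ⧸ Z, ∑ z : Z, F (q.out * z)
      = if q ∈ Subgroup.zpowers (g : H ⧸ Z) then ∑ z : Z, F z else 0 := by
    intro q
    split_ifs with hqm
    · obtain ⟨i, hi⟩ := Subgroup.mem_zpowers_iff.mp hqm
      have hz1 : (g ^ i)⁻¹ * q.out ∈ Z := by
        rw [← QuotientGroup.eq, QuotientGroup.out_eq', ← hi]
        simp
      have h2 : ∀ z : Z, F (q.out * z) = F (((⟨(g ^ i)⁻¹ * q.out, hz1⟩ : Z) * z : Z) : H) := by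
        intro z
        rw [← hinv i (((⟨(g ^ i)⁻¹ * q.out, hz1⟩ : Z) * z : Z) : H)]
        congr 1
        simp [mul_assoc]
      rw [Finset.sum_congr rfl fun z _ => h2 z]
      exact Fintype.sum_equiv (Equiv.mulLeft (⟨(g ^ i)⁻¹ * q.out, hz1⟩ : Z)) _ _ (fun _ => rfl)
    · refine Finset.sum_eq_zero fun z _ => hzero _ ?_
      rw [QuotientGroup.mk_mul_of_mem _ z.2, QuotientGroup.out_eq']
      exact hqm
  rw [Finset.sum_congr rfl fun q _ => hq q, ← Finset.sum_filter, Finset.sum_const] at hsum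
  have hne : (Finset.univ.filter fun q : H ⧸ Z => q ∈ Subgroup.zpowers (g : H ⧸ Z)).card ≠ 0 := by
    apply Finset.card_ne_zero_of_mem (a := 1)
    simp [one_mem]
  rcases smul_eq_zero.mp hsum with h | h
  · exact absurd h hne
  · exact h


/-- Let χ be an irreducible character of the finite group H that is fully ramified over the normal subgroup Z: the restriction of χ to Z is e times an irreducible character of Z with e ^ 2 equal to the index of Z. If Z ≠ H, then H/Z has no cyclic subgroup that is its own centralizer. -/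
theorem result {H : Type*} [Group H] [Finite H] (Z : Subgroup H) [Z.Normal] (χ : Cfsg.IrrCharacter H) (hfr : ∃ (θ : Cfsg.IrrCharacter ↥Z) (e : ℕ), e ^ 2 = Z.index ∧ ∀ z : ↥Z, (χ : H → ℂ) z = (e : ℂ) * (θ : ↥Z → ℂ) z) (hZ : Z ≠ ⊤) (C : Subgroup (H ⧸ Z)) (hC : IsCyclic C) : Subgroup.centralizer (C : Set (H ⧸ Z)) ≠ C := by
  classical
  obtain ⟨θ, e, he, hχZ⟩ := hfr
  have : Fintype H := Fintype.ofFinite H
  have : Fintype Z := Fintype.ofFinite Z
  intro hcc
  have hvan := vanish_off Z χ θ e he hχZ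
  obtain ⟨c, hc⟩ := hC.exists_generator
  obtain ⟨g, hg⟩ := QuotientGroup.mk_surjective (c : H ⧸ Z)
  have hCz : ∀ q : H ⧸ Z, q ∈ C → q ∈ Subgroup.zpowers (g : H ⧸ Z) := by
    intro q hq
    obtain ⟨i, hi⟩ := Subgroup.mem_zpowers_iff.mp (hc ⟨q, hq⟩)
    rw [hg]
    refine Subgroup.mem_zpowers_iff.mpr ⟨i, ?_⟩
    have := congrArg Subtype.val hi
    simpa using this
  have hgZ : g ∉ Z := by
    intro hmem
    have h1 : (g : H ⧸ Z) = 1 := (QuotientGroup.eq_one_iff _).mpr hmem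
    apply hZ
    rw [eq_top_iff]
    intro h _
    have h2 : (h : H ⧸ Z) ∈ Subgroup.centralizer (C : Set (H ⧸ Z)) := by
      rw [Subgroup.mem_centralizer_iff]
      intro q hq
      obtain ⟨i, hi⟩ := Subgroup.mem_zpowers_iff.mp (hCz q hq)
      rw [h1, one_zpow] at hi
      rw [← hi]
      simp
    rw [hcc] at h2
    obtain ⟨i, hi⟩ := Subgroup.mem_zpowers_iff.mp (hCz _ h2)
    rw [h1, one_zpow] at hi
    exact (QuotientGroup.eq_one_iff _).mp hi.symm
  have hcent : ∀ q : H ⧸ Z, q * (g : H ⧸ Z) = (g : H ⧸ Z) * q →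
      q ∈ Subgroup.zpowers (g : H ⧸ Z) := by
    intro q hq
    apply hCz
    rw [← hcc, Subgroup.mem_centralizer_iff]
    intro r hr
    obtain ⟨i, rfl⟩ := Subgroup.mem_zpowers_iff.mp (hCz r hr)
    exact (Commute.zpow_left (show Commute (g : H ⧸ Z) q from hq.symm) i).eq
  have hD : ∀ z₀ : Z,
      ∑ z : Z, (χ : H → ℂ) ((g * z₀)⁻¹ * ((z : H) * (g * z₀) * (z : H)⁻¹)) = 0 := by
    intro z₀
    have hm : ((g * z₀ : H) : H ⧸ Z) = (g : H ⧸ Z) := QuotientGroup.mk_mul_of_mem _ z₀.2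
    apply fixsum Z χ hvan (g * z₀)
    · intro hmem
      apply hgZ
      have := Z.mul_mem hmem (Z.inv_mem z₀.2)
      simpa using this
    · rw [hm]
      exact hcent
  have hcl := char_isClassFunction (isCharacter_of_irr χ.2)
  have he0 : (e : ℂ) ≠ 0 := by
    have h0 : Z.index ≠ 0 := Subgroup.index_ne_zero_of_finite
    rw [← he] at h0
    have : e ≠ 0 := fun h => h0 (by rw [h]; norm_num)
    exact_mod_cast this
  obtain ⟨n, hn, hθ1⟩ := irr_exists_apply_one_pos θ.2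
  have hθ1' : (θ : Z → ℂ) 1 ≠ 0 := by
    rw [hθ1]
    exact_mod_cast hn.ne'
  have hZne : (Nat.card Z : ℂ) ≠ 0 := Nat.cast_ne_zero.mpr Nat.card_pos.ne'
  let a : Z → Z := fun z => ⟨g⁻¹ * z * g, by
    have := (inferInstance : Z.Normal).conj_mem (z : H) z.2 g⁻¹
    simpa using this⟩
  have hθa : ∀ z : Z, (θ : Z → ℂ) (a z) = (θ : Z → ℂ) z := by
    intro z
    have h1 : (χ : H → ℂ) (a z : H) = (χ : H → ℂ) z := by
      have := hcl (z : H) g⁻¹
      simpa using this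
    rw [hχZ, hχZ] at h1
    exact mul_left_cancel₀ he0 h1
  have hterm : ∀ z z₀ : Z, (χ : H → ℂ) ((g * z₀)⁻¹ * ((z : H) * (g * z₀) * (z : H)⁻¹))
      = (e : ℂ) * (θ : Z → ℂ) (z⁻¹ * (z₀⁻¹ * a z * z₀⁻¹⁻¹)) := by
    intro z z₀
    rw [← hχZ]
    have hX : (g * z₀)⁻¹ * ((z : H) * (g * z₀) * (z : H)⁻¹)
        = (z : H) * ((z⁻¹ * (z₀⁻¹ * a z * z₀⁻¹⁻¹) : Z) : H) * (z : H)⁻¹ := by
      simp only [a, Subgroup.coe_mul, Subgroup.coe_inv]
      group
    rw [hX, hcl]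
  have hsumz : ∀ z : Z,
      ∑ z₀ : Z, (χ : H → ℂ) ((g * z₀)⁻¹ * ((z : H) * (g * z₀) * (z : H)⁻¹))
        = (e : ℂ) * ((Nat.card Z : ℂ) / (θ : Z → ℂ) 1)
            * ((θ : Z → ℂ) z * conj ((θ : Z → ℂ) z)) := by
    intro z
    rw [Finset.sum_congr rfl fun z₀ _ => hterm z z₀, ← Finset.mul_sum]
    have h1 : ∑ z₀ : Z, (θ : Z → ℂ) (z⁻¹ * (z₀⁻¹ * a z * z₀⁻¹⁻¹))
        = ∑ w : Z, (θ : Z → ℂ) (z⁻¹ * (w * a z * w⁻¹)) :=
      Fintype.sum_equiv (Equiv.inv Z) _ _ (fun _ => rfl)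
    rw [h1, irr_schur_average θ.2, hθa, char_apply_inv (isCharacter_of_irr θ.2)]
    ring
  have htot : ∑ z₀ : Z, ∑ z : Z,
      (χ : H → ℂ) ((g * z₀)⁻¹ * ((z : H) * (g * z₀) * (z : H)⁻¹)) = 0 :=
    Finset.sum_eq_zero fun z₀ _ => hD z₀
  rw [Finset.sum_comm, Finset.sum_congr rfl fun z _ => hsumz z, ← Finset.mul_sum,
    sum_mul_conj θ] at htot
  have : (e : ℂ) * ((Nat.card Z : ℂ) / (θ : Z → ℂ) 1) * (Nat.card Z : ℂ) ≠ 0 :=
    mul_ne_zero (mul_ne_zero he0 (div_ne_zero hZne hθ1')) hZne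
  exact this htot

end Cfsg.Agent.S4565
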