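import Cfsg.Statements.S4566
import Mathlib

set_option autoImplicit false
open Cfsg

namespace Cfsg.Agent.S4566

open scoped ComplexConjugate

/-- Schur: a central element acts as a scalar in an irreducible complex representation. -/
theorem schur_scalar {H : Type*} [Group H] {k : ℕ} (τ : Representation ℂ H (Fin k → ℂ))
    (hτ : τ.IsIrreducible) (z : H) (hz : z ∈ Subgroup.center H) :
    ∃ c : ℂ, τ z = c • LinearMap.id := by
  haveI := hτ
  let T : Representation.IntertwiningMap τ τ := ⟨τ z, fun g => by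
    rw [← Module.End.mul_eq_comp, ← Module.End.mul_eq_comp, ← map_mul, ← map_mul,
      (Subgroup.mem_center_iff.mp hz g)]⟩
  obtain ⟨c, hc⟩ :=
    (Representation.IsIrreducible.algebraMap_intertwiningMap_bijective_of_isAlgClosed
      (ρ := τ)).2 T
  refine ⟨c, ?_⟩
  have h := congrArg Representation.IntertwiningMap.toLinearMap hc
  rw [Representation.IntertwiningMap.algebraMap_apply] at h
  exact h.symm

theorem dim_ne_zero {H : Type*} [Group H] {k : ℕ} (τ : Representation ℂ H (Fin k → ℂ))
    (hτ : τ.IsIrreducible) : k ≠ 0 := by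
  rintro rfl
  haveI := hτ
  obtain ⟨a, b, hab⟩ := (inferInstance : Nontrivial (Subrepresentation τ))
  apply hab
  ext v
  have hv : v = 0 := Subsingleton.elim _ _
  rw [hv]
  exact ⟨fun _ => zero_mem _, fun _ => zero_mem _⟩

theorem scalar_inj {k : ℕ} (hk : k ≠ 0) {c c' : ℂ}
    (h : c • (LinearMap.id : (Fin k → ℂ) →ₗ[ℂ] (Fin k → ℂ)) = c' • LinearMap.id) : c = c' := by
  have := congrArg (fun f : (Fin k → ℂ) →ₗ[ℂ] (Fin k → ℂ) =>
    f (fun _ => (1 : ℂ)) ⟨0, Nat.pos_of_ne_zero hk⟩) h
  simpa using this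

theorem trace_scalar {k : ℕ} (c : ℂ) :
    LinearMap.trace ℂ (Fin k → ℂ) (c • LinearMap.id) = c * k := by
  rw [map_smul, LinearMap.trace_id]
  simp

theorem result {G : Type*} [Group G] [Fintype G] (N : Subgroup G) [Fintype N] (hN : N ≤ Subgroup.center G) (ψ : Cfsg.IrrCharacter ↥N) (hfaith : ∀ n : ↥N, (ψ : ↥N → ℂ) n = (ψ : ↥N → ℂ) 1 → n = 1) (χ : Cfsg.IrrCharacter G) (hover : Cfsg.classInner (fun n : ↥N => (χ : G → ℂ) n) (ψ : ↥N → ℂ) ≠ 0) (g x : G) (hcomm : x⁻¹ * g⁻¹ * x * g ∈ N) (hne : x⁻¹ * g⁻¹ * x * g ≠ 1) : (χ : G → ℂ) g = 0 := by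
  obtain ⟨χf, d, ρ, hρ, hχ⟩ := χ
  obtain ⟨ψf, m, σ, hσ, hψ⟩ := ψ
  simp only at hfaith hover ⊢
  subst hχ
  subst hψ
  have hd : d ≠ 0 := dim_ne_zero ρ hρ
  have hm : m ≠ 0 := dim_ne_zero σ hσ
  have hdC : (d : ℂ) ≠ 0 := Nat.cast_ne_zero.mpr hd
  have hmC : (m : ℂ) ≠ 0 := Nat.cast_ne_zero.mpr hm
  -- scalars
  choose lam hlam using fun n : N => schur_scalar ρ hρ (n : G) (hN n.2)
  have hcenterN : ∀ n : N, n ∈ Subgroup.center N := by
    intro n
    rw [Subgroup.mem_center_iff]
    intro a
    exact Subtype.ext ((Subgroup.mem_center_iff.mp (hN n.2)) a)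
  choose mu hmu using fun n : N => schur_scalar σ hσ n (hcenterN n)
  have hlam_mul : ∀ a b : N, lam (a * b) = lam a * lam b := by
    intro a b
    apply scalar_inj hd
    rw [← hlam, Subgroup.coe_mul, map_mul, hlam, hlam]
    ext v i
    simp [mul_smul]
    ring
  have hmu_mul : ∀ a b : N, mu (a * b) = mu a * mu b := by
    intro a b
    apply scalar_inj hm
    rw [← hmu, map_mul, hmu, hmu]
    ext v i
    simp [mul_smul]
    ring
  have hmu_one : mu 1 = 1 := by
    apply scalar_inj hm
    rw [← hmu, map_one, one_smul]; rfl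
  have hmu_pow : ∀ (a : N) (j : ℕ), mu (a ^ j) = mu a ^ j := by
    intro a j
    induction j with
    | zero => simp [hmu_one]
    | succ j ih => rw [pow_succ, hmu_mul, ih, pow_succ]
  have hmu_norm : ∀ a : N, ‖mu a‖ = 1 := by
    intro a
    apply Complex.norm_eq_one_of_pow_eq_one (n := Fintype.card N)
    · rw [← hmu_pow, pow_card_eq_one, hmu_one]
    · exact Fintype.card_ne_zero
  have hmu_conj : ∀ a : N, conj (mu a) = (mu a)⁻¹ := fun a =>
    (Complex.inv_eq_conj (hmu_norm a)).symm
  have hχN : ∀ n : N, ρ.character (n : G) = lam n * d := by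
    intro n
    rw [Representation.character, hlam, trace_scalar]
  have hψN : ∀ n : N, σ.character n = mu n * m := by
    intro n
    rw [Representation.character, hmu, trace_scalar]
  -- the sum S
  set S : ℂ := ∑ n : N, lam n * conj (mu n) with hS
  have hS0 : S ≠ 0 := by
    intro h0
    apply hover
    unfold Cfsg.classInner
    have : ∑ n : N, ρ.character (n : G) * conj (σ.character n) = (d : ℂ) * m * S := by
      rw [hS, Finset.mul_sum]
      apply Finset.sum_congr rfl
      intro n _
      rw [hχN, hψN]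
      simp
      ring
    rw [this, h0]; simp
  have hlam_eq_mu : ∀ a : N, lam a = mu a := by
    intro a
    have h1 : S = lam a * conj (mu a) * S := by
      calc S = ∑ n : N, lam (a * n) * conj (mu (a * n)) := by
              rw [hS]; exact (Fintype.sum_equiv (Equiv.mulLeft a) _ _ (fun _ => rfl)).symm
        _ = lam a * conj (mu a) * S := by
              rw [hS, Finset.mul_sum]
              apply Finset.sum_congr rfl
              intro n _
              rw [hlam_mul, hmu_mul, map_mul]; ring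
    have h2 : lam a * conj (mu a) = 1 := by
      have : (lam a * conj (mu a) - 1) * S = 0 := by linear_combination -h1
      rcases mul_eq_zero.mp this with h | h
      · exact sub_eq_zero.mp h
      · exact absurd h hS0
    rw [hmu_conj] at h2
    have hmu0 : mu a ≠ 0 := by
      intro h; have := hmu_norm a; rw [h] at this; simp at this
    field_simp at h2
    exact h2
  -- now the main computation
  set z : G := x⁻¹ * g⁻¹ * x * g with hz
  have hlamz : lam ⟨z, hcomm⟩ ≠ 1 := by
    intro h1
    apply hne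
    have : (⟨z, hcomm⟩ : N) = 1 := by
      apply hfaith
      rw [hψN, hψN, hmu_one, ← hlam_eq_mu, h1]
    exact congrArg Subtype.val this
  have hg : g = x⁻¹ * g * x⁻¹⁻¹ * z := by
    rw [hz]; group
  have h3 : ρ.character g = lam ⟨z, hcomm⟩ * ρ.character g := by
    conv_lhs => rw [hg]
    rw [Representation.character, map_mul, hlam ⟨z, hcomm⟩]
    have : ρ (x⁻¹ * g * x⁻¹⁻¹) * (lam ⟨z, hcomm⟩ • LinearMap.id) =
        lam ⟨z, hcomm⟩ • ρ (x⁻¹ * g * x⁻¹⁻¹) := by
      ext v i
      simp
    rw [this, map_smul, smul_eq_mul]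
    congr 1
    exact Representation.char_conj ρ g x⁻¹
  have h4 : (lam ⟨z, hcomm⟩ - 1) * ρ.character g = 0 := by linear_combination -h3
  rcases mul_eq_zero.mp h4 with h | h
  · exact absurd (sub_eq_zero.mp h) hlamz
  · exact h

end Cfsg.Agent.S4566
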