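import Cfsg.Statements.S4567
import Cfsg.Agent.S4566
import Cfsg.Agent.Lib.CT.Wedderburn
import Cfsg.Agent.Lib.CT.IndChar
import Cfsg.Agent.Lib.Helper3.Orth
import Cfsg.Agent.Lib.Helper3.ClassCount
import Mathlib

set_option autoImplicit false
open Cfsg

namespace Cfsg.Agent.S4567

open scoped ComplexConjugate

/-- The sum of a multiplicative function over a finite group. -/
theorem sum_mul_char {T : Type*} [Group T] [Fintype T] (ν : T → ℂ)
    (hν : ∀ a b, ν (a * b) = ν a * ν b) :
    ∑ t, ν t = if ∀ t, ν t = 1 then (Fintype.card T : ℂ) else 0 := by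
  classical
  split_ifs with h
  · simp [h]
  · obtain ⟨t₀, ht₀⟩ := not_forall.mp h
    have h1 : ∑ t, ν t = ν t₀ * ∑ t, ν t := by
      calc ∑ t, ν t = ∑ t, ν (t₀ * t) := (Equiv.sum_comp (Equiv.mulLeft t₀) ν).symm
        _ = ν t₀ * ∑ t, ν t := by
          rw [Finset.mul_sum]; exact Finset.sum_congr rfl (fun t _ => hν t₀ t)
    have h2 : (ν t₀ - 1) * ∑ t, ν t = 0 := by linear_combination -h1
    rcases mul_eq_zero.mp h2 with h3 | h3
    · exact absurd (sub_eq_zero.mp h3) ht₀
    · exact h3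

/-- Central elements act by scalars in an irreducible representation; the scalar function. -/
theorem exists_central_scalar {H : Type*} [Group H] {k : ℕ}
    (τ : Representation ℂ H (Fin k → ℂ)) (hτ : τ.IsIrreducible) :
    ∃ c : H → ℂ, c 1 = 1 ∧
      (∀ a ∈ Subgroup.center H, ∀ b ∈ Subgroup.center H, c (a * b) = c a * c b) ∧
      (∀ z ∈ Subgroup.center H, ∀ g, τ.character (g * z) = c z * τ.character g) := by
  classical
  have hk : k ≠ 0 := Cfsg.Agent.S4566.dim_ne_zero τ hτ
  let c : H → ℂ := fun z =>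
    if h : z ∈ Subgroup.center H then (Cfsg.Agent.S4566.schur_scalar τ hτ z h).choose else 0
  have hc : ∀ z ∈ Subgroup.center H, τ z = c z • LinearMap.id := by
    intro z hz
    simp only [c, dif_pos hz]
    exact (Cfsg.Agent.S4566.schur_scalar τ hτ z hz).choose_spec
  refine ⟨c, ?_, ?_, ?_⟩
  · apply Cfsg.Agent.S4566.scalar_inj hk
    rw [← hc 1 (Subgroup.one_mem _), map_one, one_smul]; rfl
  · intro a ha b hb
    apply Cfsg.Agent.S4566.scalar_inj hk
    rw [← hc _ (Subgroup.mul_mem _ ha hb), map_mul, hc a ha, hc b hb]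
    ext v i
    simp [mul_smul]
    ring
  · intro z hz g
    rw [Representation.character, Representation.character, map_mul, hc z hz]
    have : τ g * (c z • LinearMap.id) = c z • τ g := by
      ext v i; simp
    rw [this, map_smul, smul_eq_mul]


section grp

variable {G : Type*} [Group G] (N : Subgroup G)

/-- The "special" condition on an element. -/
def Good (g : G) : Prop := ∀ x : G, x⁻¹ * g⁻¹ * x * g ∈ N → x * g = g * x

theorem good_iff (g : G) :
    Good N g ↔ ∀ y : G, g⁻¹ * y * g * y⁻¹ ∈ N → g⁻¹ * y * g * y⁻¹ = 1 := by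
  constructor
  · intro h y hy
    have h1 : y⁻¹⁻¹ * g⁻¹ * y⁻¹ * g ∈ N := by
      have : y⁻¹⁻¹ * g⁻¹ * y⁻¹ * g = (g⁻¹ * y * g * y⁻¹)⁻¹ := by group
      rw [this]
      exact N.inv_mem hy
    have h2 := h y⁻¹ h1
    calc g⁻¹ * y * g * y⁻¹ = g⁻¹ * y * (g * y⁻¹) := by group
      _ = g⁻¹ * y * (y⁻¹ * g) := by rw [h2]
      _ = 1 := by group
  · intro h x hx
    have h1 : g⁻¹ * x⁻¹ * g * x⁻¹⁻¹ ∈ N := by
      have : g⁻¹ * x⁻¹ * g * x⁻¹⁻¹ = (x⁻¹ * g⁻¹ * x * g)⁻¹ := by group
      rw [this]
      exact N.inv_mem hx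
    have h2 := h x⁻¹ h1
    calc x * g = g * x * (g⁻¹ * x⁻¹ * g * x⁻¹⁻¹)⁻¹ := by group
      _ = g * x := by rw [h2, inv_one, mul_one]

theorem good_of_conj [N.Normal] (hN : N ≤ Subgroup.center G) (g g' y : G) (hg' : Good N g')
    (hn : (y * g' * y⁻¹)⁻¹ * g ∈ N) : Good N g := by
  intro x hx
  set w := y * g' * y⁻¹ with hw
  set n := w⁻¹ * g with hn'
  have hg : g = w * n := by rw [hn']; group
  have hnc : ∀ a : G, a * n = n * a := Subgroup.mem_center_iff.mp (hN hn)
  have hnc' : ∀ a : G, a * n⁻¹ = n⁻¹ * a := Subgroup.mem_center_iff.mp (hN (N.inv_mem hn))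
  have h1 : x⁻¹ * g⁻¹ * x * g = x⁻¹ * w⁻¹ * x * w := by
    rw [hg]
    calc x⁻¹ * (w * n)⁻¹ * x * (w * n) = x⁻¹ * (n⁻¹ * (w⁻¹ * x * w)) * n := by group
      _ = x⁻¹ * ((w⁻¹ * x * w) * n⁻¹) * n := by rw [hnc']
      _ = x⁻¹ * w⁻¹ * x * w := by group
  rw [h1] at hx
  have h2 : (y⁻¹ * x * y)⁻¹ * g'⁻¹ * (y⁻¹ * x * y) * g' ∈ N := by
    have : (y⁻¹ * x * y)⁻¹ * g'⁻¹ * (y⁻¹ * x * y) * g' = y⁻¹ * (x⁻¹ * w⁻¹ * x * w) * y⁻¹⁻¹ := by
      rw [hw]; group
    rw [this]
    exact Subgroup.Normal.conj_mem inferInstance _ hx _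
  have h3 := hg' _ h2
  have h4 : x * w = w * x := by
    calc x * w = y * ((y⁻¹ * x * y) * g') * y⁻¹ := by rw [hw]; group
      _ = y * (g' * (y⁻¹ * x * y)) * y⁻¹ := by rw [h3]
      _ = w * x := by rw [hw]; group
  calc x * g = x * w * n := by rw [hg]; group
    _ = w * x * n := by rw [h4]
    _ = w * (x * n) := by group
    _ = w * (n * x) := by rw [hnc]
    _ = g * x := by rw [hg]; group

theorem good_iff_class [N.Normal] (hN : N ≤ Subgroup.center G) (g : G) :
    (∃ g' : G, ConjClasses.mk (g' : G ⧸ N) = ConjClasses.mk (g : G ⧸ N) ∧ Good N g') ↔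
      Good N g := by
  constructor
  · rintro ⟨g', hC, hg'⟩
    rw [ConjClasses.mk_eq_mk_iff_isConj, isConj_iff] at hC
    obtain ⟨c, hc⟩ := hC
    obtain ⟨y, rfl⟩ := QuotientGroup.mk_surjective c
    rw [← QuotientGroup.mk_inv, ← QuotientGroup.mk_mul, ← QuotientGroup.mk_mul] at hc
    exact good_of_conj N hN g g' y hg' (QuotientGroup.eq.mp hc)
  · intro h
    exact ⟨g, rfl, h⟩

/-- The preimage of the centralizer of the image of `g` in `G ⧸ N`. -/
def cent [N.Normal] (g : G) : Subgroup G :=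
  (Subgroup.centralizer ({(g : G ⧸ N)} : Set (G ⧸ N))).comap (QuotientGroup.mk' N)

theorem mem_cent [N.Normal] (g y : G) : y ∈ cent N g ↔ g⁻¹ * y * g * y⁻¹ ∈ N := by
  show (QuotientGroup.mk' N y) ∈ Subgroup.centralizer ({(g : G ⧸ N)} : Set (G ⧸ N)) ↔ _
  rw [Subgroup.mem_centralizer_singleton_iff]
  show (QuotientGroup.mk (y * g) : G ⧸ N) = QuotientGroup.mk (g * y) ↔ _
  rw [eq_comm, QuotientGroup.eq]
  have h1 : (g * y)⁻¹ * (y * g) = y⁻¹ * (g⁻¹ * y * g) := by group
  have h2 : g⁻¹ * y * g * y⁻¹ = (g⁻¹ * y * g) * y⁻¹ := by group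
  rw [h1, h2]
  exact Subgroup.Normal.mem_comm_iff inferInstance

theorem card_cent [N.Normal] [Finite G] (g : G) :
    Nat.card (cent N g) =
      Nat.card N * Nat.card (Subgroup.centralizer ({(g : G ⧸ N)} : Set (G ⧸ N))) := by
  have h1 : (cent N g).index = (Subgroup.centralizer ({(g : G ⧸ N)} : Set (G ⧸ N))).index :=
    Subgroup.index_comap_of_surjective _ (QuotientGroup.mk'_surjective N)
  have h2 := Subgroup.card_mul_index (cent N g)
  have h3 := Subgroup.card_mul_index (Subgroup.centralizer ({(g : G ⧸ N)} : Set (G ⧸ N)))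
  have h4 := Subgroup.card_eq_card_quotient_mul_card_subgroup N
  have hpos : 0 < (Subgroup.centralizer ({(g : G ⧸ N)} : Set (G ⧸ N))).index :=
    Nat.pos_of_ne_zero Subgroup.index_ne_zero_of_finite
  rw [h1] at h2
  apply Nat.eq_of_mul_eq_mul_right hpos
  rw [h2, h4, ← h3]
  ring

end grp


section sums

variable {G : Type*} [Group G] [Fintype G] (N : Subgroup G) [Fintype N]

omit [Fintype G] in
/-- Projection identity: averaging an irreducible character against a linear character
of a central subgroup. -/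
theorem proj_sum (hN : N ≤ Subgroup.center G) {m : ℕ} (hm : m ≠ 0)
    (σ : Representation ℂ N (Fin m → ℂ)) (mu : N → ℂ)
    (hmumul : ∀ a b : N, mu (a * b) = mu a * mu b) (hψN : ∀ n : N, σ.character n = mu n * m)
    (χ : IrrCharacter G) (g : G) :
    ∑ n : N, conj (mu n) * (χ : G → ℂ) (g * n) =
      (Fintype.card N : ℂ) *
        (if classInner (fun n : N => (χ : G → ℂ) n) σ.character ≠ 0 then 1 else 0) *
        (χ : G → ℂ) g := by
  obtain ⟨χf, d, ρ, hρ, rfl⟩ := χ
  obtain ⟨lam, hlam1, hlammul, hlamchar⟩ := exists_central_scalar ρ hρ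
  have hd : d ≠ 0 := Cfsg.Agent.S4566.dim_ne_zero ρ hρ
  have hdC : (d : ℂ) ≠ 0 := Nat.cast_ne_zero.mpr hd
  have hmC : (m : ℂ) ≠ 0 := Nat.cast_ne_zero.mpr hm
  have hNC : (Fintype.card N : ℂ) ≠ 0 := Nat.cast_ne_zero.mpr Fintype.card_ne_zero
  set S : ℂ := ∑ n : N, lam n * conj (mu n) with hSdef
  have hS : S = if ∀ n : N, lam n * conj (mu n) = 1 then (Fintype.card N : ℂ) else 0 :=
    sum_mul_char (fun n : N => lam n * conj (mu n)) (by
      intro a b
      simp only [Subgroup.coe_mul]
      rw [hlammul _ (hN a.2) _ (hN b.2), hmumul, map_mul]; ring)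
  have hinner : classInner (fun n : N => ρ.character n) σ.character =
      (Nat.card N : ℂ)⁻¹ * (d * m * S) := by
    unfold classInner
    congr 1
    rw [hSdef, Finset.mul_sum]
    apply Finset.sum_congr rfl
    intro n _
    have h1 : ρ.character (n : G) = lam n * d := by
      have := hlamchar n (hN n.2) 1
      rw [one_mul] at this
      rw [this, Representation.char_one]; simp
    show ρ.character (n : G) * conj (σ.character n) = _
    rw [h1, hψN]
    simp
    ring
  have hsum : ∑ n : N, conj (mu n) * ρ.character (g * n) = S * ρ.character g := by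
    rw [hSdef, Finset.sum_mul]
    apply Finset.sum_congr rfl
    intro n _
    rw [hlamchar n (hN n.2) g]; ring
  simp only
  rw [hsum, hinner, Nat.card_eq_fintype_card]
  by_cases h : ∀ n : N, lam n * conj (mu n) = 1
  · rw [hS, if_pos h, if_pos]
    · ring
    · exact mul_ne_zero (inv_ne_zero hNC) (mul_ne_zero (mul_ne_zero hdC hmC) hNC)
  · rw [hS, if_neg h, if_neg]
    · ring
    · simp

open Classical in
/-- The weighted count of conjugating elements. -/
theorem weighted_count [DecidableEq G] [N.Normal] (hN : N ≤ Subgroup.center G) (mu : N → ℂ)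
    (hmu1 : mu 1 = 1) (hmumul : ∀ a b : N, mu (a * b) = mu a * mu b)
    (hmu_faith : ∀ n : N, mu n = 1 → n = 1) (g : G) :
    ∑ n : N, conj (mu n) * ((Finset.univ.filter (fun y : G => y * g * y⁻¹ = g * n)).card : ℂ) =
      if Good N g then (Fintype.card N : ℂ) *
        (Nat.card (Subgroup.centralizer ({(g : G ⧸ N)} : Set (G ⧸ N))) : ℂ) else 0 := by
  classical
  set T : Subgroup G := cent N g with hTdef
  have hT : ∀ y, y ∈ T ↔ g⁻¹ * y * g * y⁻¹ ∈ N := mem_cent N g
  let cg : T → N := fun y => ⟨g⁻¹ * y * g * (y : G)⁻¹, (hT y).mp y.2⟩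
  have hcg : ∀ a b : T, cg (a * b) = cg a * cg b := by
    intro a b
    apply Subtype.ext
    simp only [cg, Subgroup.coe_mul]
    have hz := Subgroup.mem_center_iff.mp (hN (cg b).2) (a : G)⁻¹
    simp only [cg] at hz
    calc g⁻¹ * ((a : G) * b) * g * ((a : G) * b)⁻¹
        = g⁻¹ * a * g * (g⁻¹ * b * g * (b : G)⁻¹ * (a : G)⁻¹) := by group
      _ = g⁻¹ * a * g * ((a : G)⁻¹ * (g⁻¹ * b * g * (b : G)⁻¹)) := by rw [hz]
      _ = g⁻¹ * a * g * (a : G)⁻¹ * (g⁻¹ * b * g * (b : G)⁻¹) := by group
  let ν : T → ℂ := fun y => conj (mu (cg y))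
  have hν : ∀ a b, ν (a * b) = ν a * ν b := by
    intro a b
    simp only [ν]
    rw [hcg, hmumul, map_mul]
  have hsumT := sum_mul_char ν hν
  have hW : ∑ n : N, conj (mu n) *
      ((Finset.univ.filter (fun y : G => y * g * y⁻¹ = g * n)).card : ℂ) = ∑ t : T, ν t := by
    have h1 : ∀ n : N, ((Finset.univ.filter (fun y : G => y * g * y⁻¹ = g * n)).card : ℂ) =
        ∑ y : G, if y * g * y⁻¹ = g * n then (1 : ℂ) else 0 :=
      fun n => (Finset.sum_boole _ _).symm
    simp_rw [h1, Finset.mul_sum]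
    rw [Finset.sum_comm]
    have h2 : ∀ y : G, ∑ n : N, conj (mu n) * (if y * g * y⁻¹ = g * n then (1 : ℂ) else 0) =
        if h : y ∈ T then ν ⟨y, h⟩ else 0 := by
      intro y
      by_cases h : y ∈ T
      · rw [dif_pos h, Finset.sum_eq_single (cg ⟨y, h⟩)]
        · rw [if_pos, mul_one]
          simp only [cg]
          group
        · intro n _ hn
          rw [if_neg, mul_zero]
          intro heq
          apply hn
          apply Subtype.ext
          simp only [cg]
          calc (n : G) = g⁻¹ * (g * n) := by group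
            _ = g⁻¹ * y * g * y⁻¹ := by rw [← heq]; group
        · intro h'
          exact absurd (Finset.mem_univ _) h'
      · rw [dif_neg h]
        apply Finset.sum_eq_zero
        intro n _
        rw [if_neg, mul_zero]
        intro heq
        apply h
        rw [hT]
        have : g⁻¹ * y * g * y⁻¹ = n := by
          calc g⁻¹ * y * g * y⁻¹ = g⁻¹ * (y * g * y⁻¹) := by group
            _ = n := by rw [heq]; group
        rw [this]
        exact n.2
    rw [Finset.sum_congr rfl (fun y _ => h2 y)]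
    have h3 : ∑ t : T, ν t = ∑ t : T, (fun y : G => if h : y ∈ T then ν ⟨y, h⟩ else 0) t := by
      apply Finset.sum_congr rfl
      intro t _
      simp only [dif_pos t.2]
    rw [h3, ← Finset.sum_subtype (Finset.univ.filter (· ∈ T)) (by simp)
      (fun y : G => if h : y ∈ T then ν ⟨y, h⟩ else 0), Finset.sum_filter]
    apply Finset.sum_congr rfl
    intro y _
    by_cases h : y ∈ T
    · rw [if_pos h]
    · rw [if_neg h, dif_neg h]
  have hiff : (∀ t : T, ν t = 1) ↔ Good N g := by
    rw [good_iff]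
    constructor
    · intro h y hy
      have h1 := h ⟨y, (hT y).mpr hy⟩
      simp only [ν] at h1
      have h2 : mu (cg ⟨y, (hT y).mpr hy⟩) = 1 := by
        have := congrArg conj h1
        simpa using this
      have h3 := hmu_faith _ h2
      exact congrArg Subtype.val h3
    · intro h t
      have h1 : cg t = 1 := Subtype.ext (h t ((hT t).mp t.2))
      simp only [ν]
      rw [h1, hmu1, map_one]
  have hcard : (Fintype.card T : ℂ) = (Fintype.card N : ℂ) *
      (Nat.card (Subgroup.centralizer ({(g : G ⧸ N)} : Set (G ⧸ N))) : ℂ) := by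
    have := card_cent N g
    rw [Nat.card_eq_fintype_card, Nat.card_eq_fintype_card] at this
    rw [← hTdef] at this
    exact_mod_cast this
  rw [hW, hsumT]
  by_cases hg : Good N g
  · rw [if_pos (hiff.mpr hg), if_pos hg, hcard]
  · rw [if_neg (fun h => hg (hiff.mp h)), if_neg hg]

end sums


/-- Let N be a central subgroup of the finite group G and ψ a faithful irreducible (hence degree-one) character of N. Call a coset g N special when every x ∈ G whose commutator x⁻¹ g⁻¹ x g lies in N actually commutes with g (this depends only on the coset). Then the number of irreducible characters of G whose restriction to N contains ψ equals the number of conjugacy classes of G/N consisting of special cosets. -/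
theorem result {G : Type*} [Group G] [Fintype G] (N : Subgroup G) [N.Normal] [Fintype N] (hN : N ≤ Subgroup.center G) (ψ : Cfsg.IrrCharacter ↥N) (hfaith : ∀ n : ↥N, (ψ : ↥N → ℂ) n = (ψ : ↥N → ℂ) 1 → n = 1) : Nat.card {χ : Cfsg.IrrCharacter G // Cfsg.classInner (fun n : ↥N => (χ : G → ℂ) n) (ψ : ↥N → ℂ) ≠ 0} = Nat.card {C : ConjClasses (G ⧸ N) // ∃ g : G, ConjClasses.mk (g : G ⧸ N) = C ∧ ∀ x : G, x⁻¹ * g⁻¹ * x * g ∈ N → x * g = g * x} := by
  classical
  have hfin : Finite (IrrCharacter G) := Cfsg.Agent.Lib.CT.Wedderburn.finite_irrCharacter G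
  let _instIrr : Fintype (IrrCharacter G) := Fintype.ofFinite _
  let _instQ : Fintype (G ⧸ N) := Fintype.ofFinite _
  obtain ⟨ψf, m, σ, hσ, hψ⟩ := ψ
  simp only at hfaith ⊢
  subst hψ
  have hm : m ≠ 0 := Cfsg.Agent.S4566.dim_ne_zero σ hσ
  have hcenterN : ∀ n : N, n ∈ Subgroup.center N := by
    intro n
    rw [Subgroup.mem_center_iff]
    intro a
    exact Subtype.ext ((Subgroup.mem_center_iff.mp (hN n.2)) a)
  obtain ⟨mu, hmu1, hmumul', hmuchar⟩ := exists_central_scalar σ hσ
  have hmumul : ∀ a b : N, mu (a * b) = mu a * mu b :=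
    fun a b => hmumul' a (hcenterN a) b (hcenterN b)
  have hψN : ∀ n : N, σ.character n = mu n * m := by
    intro n
    have := hmuchar n (hcenterN n) 1
    rw [one_mul] at this
    rw [this, Representation.char_one]; simp
  have hmu_faith : ∀ n : N, mu n = 1 → n = 1 := by
    intro n h
    apply hfaith
    rw [hψN, hψN, h, hmu1]
  let p : ConjClasses (G ⧸ N) → Prop :=
    fun C => ∃ g : G, ConjClasses.mk (g : G ⧸ N) = C ∧ Good N g
  let δ : IrrCharacter G → ℂ := fun χ =>
    if classInner (fun n : N => (χ : G → ℂ) n) σ.character ≠ 0 then 1 else 0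
  have hL : ((Nat.card {χ : IrrCharacter G //
      classInner (fun n : N => (χ : G → ℂ) n) σ.character ≠ 0} : ℕ) : ℂ) = ∑ χ, δ χ := by
    rw [Nat.card_eq_fintype_card, Fintype.card_subtype]
    exact (Finset.sum_boole _ _).symm
  have hGC : (Fintype.card G : ℂ) ≠ 0 := Nat.cast_ne_zero.mpr Fintype.card_ne_zero
  have hNC : (Fintype.card N : ℂ) ≠ 0 := Nat.cast_ne_zero.mpr Fintype.card_ne_zero
  have horth : ∀ χ : IrrCharacter G,
      ∑ g, (χ : G → ℂ) g * conj ((χ : G → ℂ) g) = (Fintype.card G : ℂ) := by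
    intro χ
    have h1 := Cfsg.Agent.Lib.CT.Wedderburn.irr_orthonormal χ χ
    rw [if_pos rfl, Cfsg.classInner, Nat.card_eq_fintype_card] at h1
    exact ((inv_mul_eq_one₀ hGC).mp h1).symm
  have hchain : (Fintype.card N : ℂ) * (Fintype.card G : ℂ) * ∑ χ, δ χ =
      ∑ g : G, ∑ n : N, conj (mu n) *
        ((Finset.univ.filter (fun y : G => y * g * y⁻¹ = g * n)).card : ℂ) := by
    calc (Fintype.card N : ℂ) * (Fintype.card G : ℂ) * ∑ χ, δ χ
        = ∑ χ : IrrCharacter G, ∑ g : G,
            ((Fintype.card N : ℂ) * δ χ * (χ : G → ℂ) g) * conj ((χ : G → ℂ) g) := by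
          rw [Finset.mul_sum]
          apply Finset.sum_congr rfl
          intro χ _
          have h1 : ∑ g : G, ((Fintype.card N : ℂ) * δ χ * (χ : G → ℂ) g) *
              conj ((χ : G → ℂ) g) =
              (Fintype.card N : ℂ) * δ χ * ∑ g, (χ : G → ℂ) g * conj ((χ : G → ℂ) g) := by
            rw [Finset.mul_sum]
            apply Finset.sum_congr rfl
            intro g _
            ring
          rw [h1, horth χ]
          ring
      _ = ∑ χ : IrrCharacter G, ∑ g : G,
            (∑ n : N, conj (mu n) * (χ : G → ℂ) (g * n)) * conj ((χ : G → ℂ) g) := by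
          apply Finset.sum_congr rfl
          intro χ _
          apply Finset.sum_congr rfl
          intro g _
          rw [proj_sum N hN hm σ mu hmumul hψN χ g]
      _ = ∑ g : G, ∑ n : N, conj (mu n) *
            ∑ χ : IrrCharacter G, (χ : G → ℂ) (g * n) * conj ((χ : G → ℂ) g) := by
          rw [Finset.sum_comm]
          apply Finset.sum_congr rfl
          intro g _
          simp_rw [Finset.sum_mul, Finset.mul_sum]
          rw [Finset.sum_comm]
          apply Finset.sum_congr rfl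
          intro n _
          apply Finset.sum_congr rfl
          intro χ _
          ring
      _ = ∑ g : G, ∑ n : N, conj (mu n) *
            ((Finset.univ.filter (fun y : G => y * g * y⁻¹ = g * n)).card : ℂ) := by
          apply Finset.sum_congr rfl
          intro g _
          apply Finset.sum_congr rfl
          intro n _
          rw [Cfsg.Agent.Lib.Helper3.Orth.second_orthogonality_count_sum]
  let F : G ⧸ N → ℂ := fun q => if p (ConjClasses.mk q) then
    (Nat.card (Subgroup.centralizer ({q} : Set (G ⧸ N))) : ℂ) else 0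
  have hW : ∀ g : G, ∑ n : N, conj (mu n) *
      ((Finset.univ.filter (fun y : G => y * g * y⁻¹ = g * n)).card : ℂ) =
      (Fintype.card N : ℂ) * F (g : G ⧸ N) := by
    intro g
    rw [weighted_count N hN mu hmu1 hmumul hmu_faith g]
    have hiff : p (ConjClasses.mk (g : G ⧸ N)) ↔ Good N g := good_iff_class N hN g
    by_cases hg : Good N g
    · simp only [F]
      rw [if_pos hg, if_pos (hiff.mpr hg)]
    · simp only [F]
      rw [if_neg hg, if_neg (fun h => hg (hiff.mp h)), mul_zero]
  have hsumF : ∑ g : G, F (g : G ⧸ N) = (Fintype.card N : ℂ) * ∑ q : G ⧸ N, F q := by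
    have h1 := Cfsg.Agent.Lib.CT.IndChar.sum_eq_card_mul_sum_rep N (fun x : G => F (x : G ⧸ N))
      (by
        intro x h
        show F ((x * (h : G) : G) : G ⧸ N) = F (x : G ⧸ N)
        rw [QuotientGroup.mk_mul_of_mem _ h.2])
    rw [h1, Nat.card_eq_fintype_card]
    congr 1
    apply Finset.sum_congr rfl
    intro q _
    show F ((Cfsg.Agent.Lib.CT.IndChar.rep N q : G) : G ⧸ N) = F q
    rw [Cfsg.Agent.Lib.CT.IndChar.mk_rep]
  have hclasses := Cfsg.Agent.Lib.Helper3.ClassCount.card_classes_eq p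
  have hcardG : (Fintype.card G : ℂ) = (Nat.card (G ⧸ N) : ℂ) * (Fintype.card N : ℂ) := by
    have := Subgroup.card_eq_card_quotient_mul_card_subgroup N
    rw [Nat.card_eq_fintype_card, Nat.card_eq_fintype_card (α := N)] at this
    exact_mod_cast this
  have hQC : (Nat.card (G ⧸ N) : ℂ) ≠ 0 := Nat.cast_ne_zero.mpr Nat.card_pos.ne'
  have hsumq : ∑ q : G ⧸ N, F q =
      (Nat.card (G ⧸ N) : ℂ) * (Nat.card {C : ConjClasses (G ⧸ N) // p C} : ℂ) := by
    rw [hclasses, ← mul_assoc, mul_inv_cancel₀ hQC, one_mul]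
  have hfinal : (Fintype.card N : ℂ) * (Fintype.card G : ℂ) * ∑ χ, δ χ =
      (Fintype.card N : ℂ) * (Fintype.card G : ℂ) *
        (Nat.card {C : ConjClasses (G ⧸ N) // p C} : ℂ) := by
    rw [hchain, Finset.sum_congr rfl (fun g _ => hW g), ← Finset.mul_sum, hsumF, hsumq, hcardG]
    ring
  have hres : ((Nat.card {χ : IrrCharacter G //
      classInner (fun n : N => (χ : G → ℂ) n) σ.character ≠ 0} : ℕ) : ℂ) =
      (Nat.card {C : ConjClasses (G ⧸ N) // p C} : ℂ) := by
    rw [hL]
    exact mul_left_cancel₀ (mul_ne_zero hNC hGC) hfinal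
  exact Nat.cast_injective hres

end Cfsg.Agent.S4567
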