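import Cfsg.Statements.S4575
import Cfsg.Agent.Lib.Helper82.CycSum
import Cfsg.Agent.Lib.Helper82.SecSq
import Cfsg.Agent.Lib.Helper82.SecLocal
import Cfsg.Agent.Lib.Helper82.SecCong
import Cfsg.Agent.Lib.Helper82.SecRow
import Cfsg.Agent.Lib.Helper82.TwoUnits
import Cfsg.Agent.Lib.Helper82.TwoAdic
import Cfsg.Agent.Lib.Helper82.TwoAdic2
import Cfsg.Agent.Lib.Helper82.SecHeight
import Cfsg.Agent.Lib.Helper82.SecHeight2
import Cfsg.Agent.S4431
import Cfsg.Agent.S4716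
import Cfsg.Agent.S4539

set_option autoImplicit false
open Cfsg

namespace Cfsg.Agent.S4575

open Cfsg.Agent.Lib.Helper77.LocalRing Cfsg.Agent.Lib.Helper82.SecSq
  Cfsg.Agent.Lib.Helper82.SecLocal Cfsg.Agent.Lib.Helper82.CycSum
  Cfsg.Agent.Lib.Helper82.SecCong Cfsg.Agent.Lib.Helper82.SecRow
  Cfsg.Agent.Lib.Helper82.TwoUnits Cfsg.Agent.Lib.Helper82.TwoAdic
  Cfsg.Agent.Lib.Helper82.TwoAdic2
  Cfsg.Agent.Lib.Helper82.SecHeight Cfsg.Agent.Lib.Helper82.SecHeight2
  Cfsg.Agent.Lib.Helper80.Contrib Cfsg.Agent.Lib.Helper75.Section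
  Cfsg.Agent.Lib.Helper75.BlockRank Cfsg.Agent.S4539
open scoped ComplexConjugate
open Finset

/-- Let B be a 2-block of the finite group G (relative to a maximal ideal M of the algebraic integers containing 2) of defect d with defect group D. Let z be an element of D commuting with every element of D, and let b be a block of the centralizer of z with defect group D that induces B (a major subsection (z, b)). If the number of irreducible characters in B exceeds the 2-regular rank of b by at most three, then B contains at most 2 ^ d irreducible characters. -/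
theorem result {G : Type*} [Group G] [Finite G] (M : Ideal Cfsg.AlgInt) (hM : Cfsg.IsPModular 2 M) (B : Set (Cfsg.IrrCharacter G)) (hB : Cfsg.IsPBlock M B) (D : Subgroup G) (hD : Cfsg.IsDefectGroup 2 M B D) (z : G) (hzD : z ∈ D) (hzc : ∀ d ∈ D, d * z = z * d) (b : Set (Cfsg.IrrCharacter ↥(Subgroup.centralizer ({z} : Set G)))) (hb : Cfsg.IsInducedBlock M (Subgroup.centralizer ({z} : Set G)) b B) (hbD : Cfsg.IsDefectGroup 2 M b (D.subgroupOf (Subgroup.centralizer ({z} : Set G)))) (h : Nat.card B ≤ Cfsg.blockRank 2 b + 3) : Nat.card B ≤ 2 ^ Cfsg.blockDefect 2 B := by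
  classical
  have _hB := hB
  have hpp : (2 : ℕ).Prime := Nat.prime_two
  have hMp : M.IsPrime := isPrime_of_isPModular hM
  have : Fintype G := Fintype.ofFinite G
  have : Fintype (Subgroup.centralizer ({z} : Set G)) := Fintype.ofFinite _
  have := Cfsg.Agent.Lib.CT.Wedderburn.finite_irrCharacter G
  have : Fintype (IrrCharacter G) := Fintype.ofFinite _
  have := Cfsg.Agent.Lib.CT.Wedderburn.finite_irrCharacter (Subgroup.centralizer ({z} : Set G))
  have : Fintype (IrrCharacter (Subgroup.centralizer ({z} : Set G))) := Fintype.ofFinite _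
  have hbb : IsPBlock M b := hb.1
  have hp0 : ((2 : ℕ) : ℂ) ≠ 0 := Nat.cast_ne_zero.2 hpp.ne_zero
  have e2 : ((2 : ℕ) : ℂ) = 2 := by norm_num
  -- the defects agree and `z` is a `2`-element
  have hDC : D ≤ Subgroup.centralizer ({z} : Set G) := by
    intro d hd
    rw [Subgroup.mem_centralizer_iff]
    intro h hh
    rw [Set.mem_singleton_iff] at hh
    rw [hh]
    exact (hzc d hd).symm
  have hcD := Cfsg.Agent.Lib.Helper16.Defect.card_defectGroup 2 hM B hB D hD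
  have hcD' := Cfsg.Agent.Lib.Helper16.Defect.card_defectGroup 2 hM b hbb _ hbD
  have hdb : blockDefect 2 b = blockDefect 2 B := by
    have h1 : Nat.card (D.subgroupOf (Subgroup.centralizer ({z} : Set G))) = Nat.card D :=
      Nat.card_congr (Subgroup.subgroupOfEquivOfLe hDC).toEquiv
    rw [hcD, hcD'] at h1
    exact Nat.pow_right_injective hpp.two_le h1
  obtain ⟨k, hk⟩ : ∃ k : ℕ, orderOf z = 2 ^ k := by
    have h1 : orderOf z ∣ Nat.card D := Subgroup.orderOf_dvd_natCard D hzD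
    rw [hcD] at h1
    obtain ⟨k, -, hk⟩ := (Nat.dvd_prime_pow hpp).1 h1
    exact ⟨k, hk⟩
  -- the central element
  have hzC : z ∈ Subgroup.centralizer ({z} : Set G) := by
    rw [Subgroup.mem_centralizer_iff]
    intro h hh'
    rw [Set.mem_singleton_iff] at hh'
    rw [hh']
  obtain ⟨zz, hzdef⟩ : ∃ zz : Subgroup.centralizer ({z} : Set G), zz = ⟨z, hzC⟩ := ⟨_, rfl⟩
  have hzval : (zz : G) = z := by rw [hzdef]
  have hz : ∀ h : Subgroup.centralizer ({z} : Set G), zz * h = h * zz := by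
    intro h
    apply Subtype.ext
    rw [Subgroup.coe_mul, Subgroup.coe_mul, hzval]
    exact Subgroup.mem_centralizer_iff.1 h.2 z rfl
  have hzk : zz ^ (2 ^ k) = 1 := by
    apply Subtype.ext
    rw [Subgroup.coe_pow, hzval, ← hk, pow_orderOf_eq_one]
    rfl
  -- the restrictions
  have hres : ∀ χ : IrrCharacter G, ∃ n : IrrCharacter (Subgroup.centralizer ({z} : Set G)) → ℕ,
      (fun y : Subgroup.centralizer ({z} : Set G) => (χ : G → ℂ) y)
        = ∑ η : IrrCharacter (Subgroup.centralizer ({z} : Set G)), (n η : ℂ) • (η : Subgroup.centralizer ({z} : Set G) → ℂ) := by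
    intro χ
    obtain ⟨n, -, hn⟩ := Cfsg.Agent.Lib.CT.NormOne.exists_mult_sum
      (Cfsg.Agent.Lib.CT.Ops.isCharacter_restrict (Subgroup.centralizer ({z} : Set G))
        (Cfsg.Agent.Lib.CT.Wedderburn.isCharacter_of_irr χ.2))
    exact ⟨n, hn⟩
  choose nn hnn using hres
  have hshift : ∀ (χ : IrrCharacter G) (t : ℕ),
      (fun c : Subgroup.centralizer ({z} : Set G) => (χ : G → ℂ) (z ^ t * c))
      = fun h : Subgroup.centralizer ({z} : Set G) => (fun c : Subgroup.centralizer ({z} : Set G) => (χ : G → ℂ) c) (zz ^ t * h) := by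
    intro χ t
    funext h
    show (χ : G → ℂ) (z ^ t * h) = (χ : G → ℂ) ((zz ^ t * h : Subgroup.centralizer ({z} : Set G)) : G)
    rw [Subgroup.coe_mul, Subgroup.coe_pow, hzval]
  have hsec : ∀ χ : IrrCharacter G,
      pRegularPart 2 (fun h : Subgroup.centralizer ({z} : Set G) => (fun y : Subgroup.centralizer ({z} : Set G) => (χ : G → ℂ) y) (zz ^ 1 * h))
        = secRes 2 z (χ : G → ℂ) := by
    intro χ
    unfold secRes
    congr 1
    funext h
    show (χ : G → ℂ) ((zz ^ 1 * h : Subgroup.centralizer ({z} : Set G)) : G) = (χ : G → ℂ) (z * (h : G))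
    rw [pow_one, Subgroup.coe_mul, hzval]
  -- the set of units
  obtain ⟨U, hU⟩ : ∃ U : Finset ℕ, U = (range (2 ^ k)).filter (fun t => Nat.Coprime t (2 ^ k)) :=
    ⟨_, rfl⟩
  have hUcard : U.card = (2 ^ k).totient := by
    rw [hU, Nat.totient_eq_card_coprime]
    congr 1
    ext t
    simp only [mem_filter, Nat.coprime_comm]
  have hφ : 0 < (2 ^ k).totient := Nat.totient_pos.2 (pow_pos hpp.pos k)
  have hφ' : (0 : ℝ) < ((2 ^ k).totient : ℝ) := by exact_mod_cast hφ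
  have hUx : ∀ t ∈ U, Nat.Coprime t (orderOf z) ∧ ∃ k' : ℕ, orderOf (z ^ t) = 2 ^ k' := by
    intro t ht
    rw [hU] at ht
    have htc : Nat.Coprime t (orderOf z) := by rw [hk]; exact (mem_filter.1 ht).2
    exact ⟨htc, k, by rw [orderOf_pow, Nat.coprime_comm.1 htc, Nat.div_one, hk]⟩
  have hlam : ∀ η ∈ (univ.filter (· ∈ b) : Finset (IrrCharacter (Subgroup.centralizer ({z} : Set G)))),
      ((η : Subgroup.centralizer ({z} : Set G) → ℂ) zz / (η : Subgroup.centralizer ({z} : Set G) → ℂ) 1) ^ (2 ^ k) = 1 :=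
    fun η _ => lam_pow _ η.2 zz hz _ hzk
  -- the heights and the reduction of the statement
  obtain ⟨BF, hBF⟩ : ∃ BF : Finset (IrrCharacter G), BF = univ.filter (· ∈ B) := ⟨_, rfl⟩
  have hmemBF : ∀ χ ∈ BF, χ ∈ B := by
    intro χ hχ
    rw [hBF] at hχ
    exact (mem_filter.1 hχ).2
  obtain ⟨ht, hht⟩ : ∃ ht : IrrCharacter G → ℕ, ∀ χ, ht χ = blockHeight 2 B (χ : G → ℂ) :=
    ⟨_, fun _ => rfl⟩
  have hcardB : Nat.card B = BF.card := by
    rw [Nat.card_eq_fintype_card, Fintype.card_subtype, hBF]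
  -- the coordinate sums at `t = 1`
  have hcs1 : ∀ (n : IrrCharacter (Subgroup.centralizer ({z} : Set G)) → ℕ) (x : IrrCharacter (Subgroup.centralizer ({z} : Set G)) → ℤ),
      cs b n x zz 1 = ∑ η ∈ univ.filter (· ∈ b), (((n η : ℤ) * x η : ℤ) : ℂ)
        * ((η : Subgroup.centralizer ({z} : Set G) → ℂ) zz / (η : Subgroup.centralizer ({z} : Set G) → ℂ) 1) := by
    intro n x
    unfold cs
    refine sum_congr rfl fun η _ => ?_
    rw [pow_one]
  -- divisibility by the height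
  have hdivG : ∀ χ ∈ B, ∀ x : IrrCharacter (Subgroup.centralizer ({z} : Set G)) → ℤ, ∃ r : ℂ, MemLocalRing M r ∧
      cs b (nn χ) (fun η => ∑ ξ ∈ univ.filter (· ∈ b), x ξ * mz 2 b η ξ) zz 1
        = 2 ^ ht χ * r := by
    intro χ hχ x
    obtain ⟨r, hr, h1⟩ := lin_height 2 M hM B z ⟨k, hk⟩ b x χ hχ
    refine ⟨r, hr, ?_⟩
    rw [← lin_coords 2 M hM b hbb x _ (nn χ) (hnn χ) zz hz 1, hsec χ, hdb, h1, hht, e2]
  rw [hcardB]
  -- the conclusion of S4431 for the members of `B` of height zero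
  have hS : ∀ χ ∈ B, blockHeight 2 B (χ : G → ℂ) = 0 → ∀ ψ ∈ b, ¬ MemLocalIdeal M (classInner
      (fun h : Subgroup.centralizer ({z} : Set G) => if 2 ∣ orderOf h then (0 : ℂ) else
        ((2 ^ (Nat.card (Subgroup.centralizer ({z} : Set G))).factorization 2 : ℕ) : ℂ)
          * (χ : G → ℂ) h) (ψ : Subgroup.centralizer ({z} : Set G) → ℂ)
        / (ψ : Subgroup.centralizer ({z} : Set G) → ℂ) 1) :=
    fun χ hχ h0 ψ hψ => (Cfsg.Agent.S4431.result 2 M hM _ b B hb χ ψ hψ).2 hχ h0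
  -- the contribution matrices
  obtain ⟨Mc, hMc⟩ : ∃ Mc : ℕ → IrrCharacter G → IrrCharacter G → ℂ, ∀ t χ ψ,
      Mc t χ ψ = mm 2 b (fun c : Subgroup.centralizer ({z} : Set G) => (χ : G → ℂ) (z ^ t * c))
        (fun c : Subgroup.centralizer ({z} : Set G) => (ψ : G → ℂ) (z ^ t * c)) := ⟨_, fun _ _ _ => rfl⟩
  have hpairs : ∀ (t : ℕ) (χ ψ : IrrCharacter G), (2 : ℂ) ^ blockDefect 2 b * Mc t χ ψ
      = ∑ η ∈ univ.filter (· ∈ b), ∑ η' ∈ univ.filter (· ∈ b),
        (((nn χ η : ℤ) * (nn ψ η' : ℤ) * mz 2 b η η' : ℤ) : ℂ)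
          * (((η : Subgroup.centralizer ({z} : Set G) → ℂ) zz / (η : Subgroup.centralizer ({z} : Set G) → ℂ) 1)
            * conj ((η' : Subgroup.centralizer ({z} : Set G) → ℂ) zz / (η' : Subgroup.centralizer ({z} : Set G) → ℂ) 1)) ^ t := by
    intro t χ ψ
    have h1 := mm_pairs 2 M hM b _ _ (nn χ) (nn ψ) (hnn χ) (hnn ψ) zz hz t
    rw [e2] at h1
    rw [hMc, hshift χ t, hshift ψ t]
    exact h1
  have hcore : ∀ χ : IrrCharacter G, ∃ a : ℤ, 0 ≤ a ∧
      (∑ t ∈ U, (2 : ℂ) ^ blockDefect 2 b * Mc t χ χ = ((2 ^ k).totient : ℂ) * a) ∧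
      (∀ h : ℕ,
        (∀ x : IrrCharacter (Subgroup.centralizer ({z} : Set G)) → ℤ, ∃ r : ℂ, MemLocalRing M r ∧
          ∑ η ∈ univ.filter (· ∈ b),
            (((nn χ η : ℤ) * ∑ ξ ∈ univ.filter (· ∈ b), x ξ * mz 2 b η ξ : ℤ) : ℂ)
              * ((η : Subgroup.centralizer ({z} : Set G) → ℂ) zz / (η : Subgroup.centralizer ({z} : Set G) → ℂ) 1) = 2 ^ h * r) →
        (∃ r : ℂ, MemLocalIdeal M r ∧
          ∑ η ∈ univ.filter (· ∈ b), ∑ η' ∈ univ.filter (· ∈ b),
            (((nn χ η : ℤ) * (nn χ η' : ℤ) * mz 2 b η η' : ℤ) : ℂ)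
              * (((η : Subgroup.centralizer ({z} : Set G) → ℂ) zz / (η : Subgroup.centralizer ({z} : Set G) → ℂ) 1)
                * conj ((η' : Subgroup.centralizer ({z} : Set G) → ℂ) zz / (η' : Subgroup.centralizer ({z} : Set G) → ℂ) 1)) = 2 ^ h * r) →
        (2 : ℤ) ^ (h + 1) ∣ a) := by
    intro χ
    obtain ⟨a, ha0, hasum, haB2⟩ := caseB_dvd hM k (univ.filter (· ∈ b))
      (fun η => (nn χ η : ℤ)) (mz 2 b) (fun η => (η : Subgroup.centralizer ({z} : Set G) → ℂ) zz / (η : Subgroup.centralizer ({z} : Set G) → ℂ) 1) hlam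
      (fun η hη η' hη' => mz_symm 2 M hM b η η' (mem_filter.1 hη).2 (mem_filter.1 hη').2)
      (fun x => Bf_nonneg 2 M hM b x)
    refine ⟨a, ha0, ?_, haB2⟩
    rw [← hasum, hU]
    refine sum_congr rfl fun t _ => ?_
    exact hpairs t χ χ
  choose a ha0 hasum haB2 using hcore
  -- the units
  have hUx' : ∀ t ∈ U, (∃ k' : ℕ, orderOf (z ^ t) = 2 ^ k') ∧
      Subgroup.centralizer ({z} : Set G) = Subgroup.centralizer ({z ^ t} : Set G) := by
    intro t ht
    obtain ⟨htc, hx⟩ := hUx t ht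
    exact ⟨hx, Cfsg.Agent.S4716.centralizer_pow_eq z t htc⟩
  have hrow : ∀ t ∈ U, ∀ χ : IrrCharacter G,
      ∑ ψ ∈ BF, Mc t χ ψ * conj (Mc t χ ψ) = Mc t χ χ := by
    intro t ht χ
    rw [hBF]
    simp only [hMc]
    exact row_sq 2 M hM B (z ^ t) (hUx' t ht).1 (Subgroup.centralizer ({z} : Set G))
      (hUx' t ht).2 b hb χ
  -- the trace
  have htr : ∀ t ∈ U, ∑ χ ∈ BF, Mc t χ χ = (blockRank 2 b : ℂ) := by
    intro t ht
    rw [hBF]
    simp only [hMc]
    exact sum_mm_diag 2 M hM B (z ^ t) (hUx' t ht).1 (Subgroup.centralizer ({z} : Set G))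
      (hUx' t ht).2 b hb
  have hsuma : ∑ χ ∈ BF, a χ = 2 ^ blockDefect 2 b * (blockRank 2 b : ℤ) := by
    have h1 : ∑ χ ∈ BF, ((2 ^ k).totient : ℂ) * (a χ : ℂ)
        = ((2 ^ k).totient : ℂ) * ((2 : ℂ) ^ blockDefect 2 b * (blockRank 2 b : ℂ)) := by
      rw [← sum_congr rfl (fun χ _ => hasum χ), sum_comm]
      have h3 : ∀ t ∈ U, ∑ χ ∈ BF, (2 : ℂ) ^ blockDefect 2 b * Mc t χ χ
          = (2 : ℂ) ^ blockDefect 2 b * (blockRank 2 b : ℂ) :=
        fun t ht => by rw [← mul_sum, htr t ht]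
      rw [sum_congr rfl h3, sum_const, hUcard, nsmul_eq_mul]
    rw [← mul_sum] at h1
    have h2 := mul_left_cancel₀ (Nat.cast_ne_zero.2 hφ.ne') h1
    exact_mod_cast h2
  -- height zero: the integer is odd
  have hoddB : ∀ χ ∈ B, ht χ = 0 → Odd (a χ) := by
    intro χ hχ h0
    rw [hht] at h0
    obtain ⟨a', hodd, ha'⟩ := local_diag M hM b hbb zz hz k hzk
      (fun c : Subgroup.centralizer ({z} : Set G) => (χ : G → ℂ) c)
      (Cfsg.Agent.Lib.CT.Ops.isCharacter_restrict _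
        (Cfsg.Agent.Lib.CT.Wedderburn.isCharacter_of_irr χ.2)) (hS χ hχ h0)
    have h1 : ((2 ^ k).totient : ℂ) * (a χ : ℂ) = ((2 ^ k).totient : ℂ) * (a' : ℂ) := by
      rw [← hasum χ, ← ha', hU]
      refine sum_congr rfl fun t _ => ?_
      rw [hMc, ← hshift χ t]
    have h2 := mul_left_cancel₀ (Nat.cast_ne_zero.2 hφ.ne') h1
    have h3 : a χ = a' := by exact_mod_cast h2
    rw [h3]
    exact hodd
  -- positive height: the integer is divisible by four
  have hdvdB : ∀ χ ∈ B, 1 ≤ ht χ → (4 : ℤ) ∣ a χ := by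
    intro χ hχ hpos
    have h1 : (2 : ℤ) ^ (ht χ + 1) ∣ a χ := by
      refine haB2 χ (ht χ) ?_ ?_
      · intro x
        obtain ⟨r, hr, h1⟩ := hdivG χ hχ x
        rw [hcs1] at h1
        exact ⟨r, hr, h1⟩
      · rw [hht] at hpos
        obtain ⟨r, hr, h1⟩ := mm_strict 2 M hM B z ⟨k, hk⟩ b hb hdb χ hχ hpos
        refine ⟨r, hr, ?_⟩
        have h2 := hpairs 1 χ χ
        rw [hMc, hdb] at h2
        simp only [pow_one] at h2
        rw [← h2, hht, ← e2]
        exact h1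
    have h2 : (4 : ℤ) ∣ 2 ^ (ht χ + 1) := by
      have h3 : (2 : ℤ) ^ 2 ∣ 2 ^ (ht χ + 1) := pow_dvd_pow 2 (by omega)
      norm_num at h3
      exact h3
    exact dvd_trans h2 h1
  -- the lower bound for each pair of characters, one of height zero
  have hpair : ∀ χ ∈ B, ∀ ψ ∈ B, (ht χ = 0 ∨ ht ψ = 0) → ((2 ^ k).totient : ℝ) ≤ ∑ t ∈ U,
      ((2 : ℝ) ^ (2 * blockDefect 2 b)) * Complex.normSq (Mc t χ ψ) := by
    intro χ hχ ψ hψ h0
    rw [hht, hht] at h0
    have hne := mm_ne_zero 2 M hM B z ⟨k, hk⟩ b hb hdb χ ψ hχ hψ h0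
    have hsum : ∀ t : ℕ, ∑ i ∈ (univ.filter (· ∈ b)) ×ˢ (univ.filter (· ∈ b)),
        (((nn χ i.1 : ℤ) * (nn ψ i.2 : ℤ) * mz 2 b i.1 i.2 : ℤ) : ℂ)
          * (((i.1 : Subgroup.centralizer ({z} : Set G) → ℂ) zz / (i.1 : Subgroup.centralizer ({z} : Set G) → ℂ) 1)
            * conj ((i.2 : Subgroup.centralizer ({z} : Set G) → ℂ) zz / (i.2 : Subgroup.centralizer ({z} : Set G) → ℂ) 1)) ^ t
        = (2 : ℂ) ^ blockDefect 2 b * Mc t χ ψ := by
      intro t
      rw [hpairs t χ ψ]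
      exact sum_product _ _ _
    have h1 := cyc_ge' hpp k ((univ.filter (· ∈ b)) ×ˢ (univ.filter (· ∈ b)))
      (fun i : IrrCharacter (Subgroup.centralizer ({z} : Set G)) × IrrCharacter (Subgroup.centralizer ({z} : Set G)) =>
        (nn χ i.1 : ℤ) * (nn ψ i.2 : ℤ) * mz 2 b i.1 i.2)
      (fun i : IrrCharacter (Subgroup.centralizer ({z} : Set G)) × IrrCharacter (Subgroup.centralizer ({z} : Set G)) =>
        ((i.1 : Subgroup.centralizer ({z} : Set G) → ℂ) zz / (i.1 : Subgroup.centralizer ({z} : Set G) → ℂ) 1) * conj ((i.2 : Subgroup.centralizer ({z} : Set G) → ℂ) zz / (i.2 : Subgroup.centralizer ({z} : Set G) → ℂ) 1))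
      (fun i _ => by
        show (((i.1 : Subgroup.centralizer ({z} : Set G) → ℂ) zz / (i.1 : Subgroup.centralizer ({z} : Set G) → ℂ) 1)
          * conj ((i.2 : Subgroup.centralizer ({z} : Set G) → ℂ) zz / (i.2 : Subgroup.centralizer ({z} : Set G) → ℂ) 1)) ^ (2 ^ k) = 1
        rw [mul_pow, lam_pow _ i.1.2 zz hz _ hzk, ← map_pow,
          lam_pow _ i.2.2 zz hz _ hzk, map_one, one_mul])
      ⟨1, Nat.coprime_one_left _, by
        rw [hsum 1, hMc]
        simp only [pow_one]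
        exact mul_ne_zero (pow_ne_zero _ (by norm_num)) hne⟩
    rw [← hU] at h1
    refine le_trans h1 (le_of_eq ?_)
    refine sum_congr rfl fun t _ => ?_
    rw [hsum t, Complex.normSq_mul, map_pow, Complex.normSq_ofNat, pow_mul]
    norm_num
  -- real forms
  obtain ⟨mr, hmr⟩ : ∃ mr : ℕ → IrrCharacter G → ℝ, ∀ t χ,
      mr t χ = ∑ ψ ∈ BF, Complex.normSq (Mc t χ ψ) := ⟨_, fun _ _ => rfl⟩
  have hMcr : ∀ t ∈ U, ∀ χ : IrrCharacter G, Mc t χ χ = ((mr t χ : ℝ) : ℂ) := by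
    intro t ht χ
    rw [← hrow t ht χ, hmr]
    push_cast
    refine sum_congr rfl fun ψ _ => ?_
    rw [Complex.mul_conj]
  obtain ⟨Q, hQ⟩ : ∃ Q : ℝ, Q = (2 : ℝ) ^ blockDefect 2 b := ⟨_, rfl⟩
  have hQ2 : (2 : ℝ) ^ (2 * blockDefect 2 b) = Q * Q := by
    rw [hQ, two_mul, pow_add]
  -- the row bounds
  have hRB : ∀ χ ∈ BF, ∀ S : Finset (IrrCharacter G), S ⊆ BF.erase χ →
      (∀ ψ ∈ S, ht χ = 0 ∨ ht ψ = 0) →
      (S.card : ℤ) + (a χ) ^ 2 ≤ 2 ^ blockDefect 2 b * a χ := by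
    intro χ hχF S hSsub hSh
    have hχ := hmemBF χ hχF
    have h1 := row_bound BF χ hχF S hSsub U (2 ^ k).totient hUcard hφ
      (fun t ψ => (2 : ℝ) ^ (2 * blockDefect 2 b) * Complex.normSq (Mc t χ ψ))
      (fun t ψ => mul_nonneg (by positivity) (Complex.normSq_nonneg _))
      (fun t => Q * mr t χ) Q
      (fun t ht => by
        show ∑ ψ ∈ BF, (2 : ℝ) ^ (2 * blockDefect 2 b) * Complex.normSq (Mc t χ ψ)
          = Q * (Q * mr t χ)
        rw [← mul_sum, hQ2, hmr, mul_assoc])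
      (fun t ht => by
        show (2 : ℝ) ^ (2 * blockDefect 2 b) * Complex.normSq (Mc t χ χ) = (Q * mr t χ) ^ 2
        rw [hMcr t ht χ, Complex.normSq_ofReal, hQ2]
        ring)
      (fun ψ hψS => hpair χ hχ ψ (hmemBF ψ (mem_of_mem_erase (hSsub hψS))) (hSh ψ hψS))
      (a χ : ℝ)
      (by
        have h1 := hasum χ
        rw [sum_congr rfl (fun t ht => by rw [hMcr t ht χ])] at h1
        show ∑ t ∈ U, Q * mr t χ = ((2 ^ k).totient : ℝ) * (a χ : ℝ)
        rw [hQ]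
        exact_mod_cast h1)
    rw [hQ] at h1
    exact_mod_cast h1
  -- a character of height zero in `B`
  obtain ⟨e, hae, -, χ₀, hχ₀, hχ₀e⟩ := Cfsg.Agent.Lib.Helper75.NumMinMax.exists_defect_data 2 B
    (Cfsg.Agent.Lib.CT.DefectZeroBlock.isPBlock_nonempty hMp hB)
  have hfc := factorization_charDegree 2 B χ₀ hχ₀
  have h0χ : ht χ₀ = 0 := by
    rw [hht]
    omega
  have hχ₀F : χ₀ ∈ BF := by
    rw [hBF]
    exact mem_filter.2 ⟨mem_univ _, hχ₀⟩
  rw [← hdb]
  refine arith_rows BF ht a (blockDefect 2 b) (blockRank 2 b) hsuma (by rw [← hcardB]; exact h)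
    ?_ ?_
  · intro χ hχF h0
    refine ⟨hoddB χ (hmemBF χ hχF) h0, ?_⟩
    have h1 := hRB χ hχF (BF.erase χ) (Subset.refl _) (fun ψ _ => Or.inl h0)
    rw [card_erase_of_mem hχF] at h1
    have h2 : 1 ≤ BF.card := card_pos.2 ⟨χ, hχF⟩
    have h3 : ((BF.card - 1 : ℕ) : ℤ) = (BF.card : ℤ) - 1 := by
      push_cast [Nat.cast_sub h2]
      ring
    rw [h3] at h1
    exact h1
  · intro χ hχF hpos
    refine ⟨hdvdB χ (hmemBF χ hχF) hpos, ?_⟩
    have hne : χ₀ ≠ χ := by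
      intro h
      rw [h] at h0χ
      omega
    have h1 := hRB χ hχF {χ₀} (by
      intro ψ hψ
      rw [mem_singleton] at hψ
      rw [hψ]
      exact mem_erase.2 ⟨hne, hχ₀F⟩) (fun ψ hψ => by
      rw [mem_singleton] at hψ
      rw [hψ]
      exact Or.inr h0χ)
    rw [card_singleton] at h1
    exact_mod_cast h1

end Cfsg.Agent.S4575
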