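import Mathlib
import Cfsg.Statements.S4580
import Cfsg.Agent.Lib.Helper78.Gallagher
import Cfsg.Agent.Lib.Helper75.BlockOrth2
import Cfsg.Agent.Lib.CT.LinChar
import Cfsg.Agent.Lib.CT.Ops
import Cfsg.Agent.Lib.CT.FrobRec
import Cfsg.Agent.Lib.Helper80.Integrality

set_option autoImplicit false

namespace Cfsg.Agent.S4580

open Cfsg
open scoped ComplexConjugate

/-- A real-valued irreducible character of a normal subgroup that extends to `G` has an
extension that is real-valued on the elements of odd order. -/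
theorem exists_ext_real_odd {G : Type*} [Group G] [Finite G] (N : Subgroup G) [hN : N.Normal]
    (θ : IrrCharacter N) (hreal : ∀ n : N, ((θ : N → ℂ) n).im = 0)
    (χ₀ : IrrCharacter G) (h₀ : ∀ n : N, (χ₀ : G → ℂ) n = (θ : N → ℂ) n) :
    ∃ χ₁ : IrrCharacter G, (∀ n : N, (χ₁ : G → ℂ) n = (θ : N → ℂ) n) ∧
      ∀ x : G, ¬ 2 ∣ orderOf x → conj ((χ₁ : G → ℂ) x) = (χ₁ : G → ℂ) x := by
  classical
  letI : Fintype G := Fintype.ofFinite G
  letI : Fintype N := Fintype.ofFinite N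
  have hχ₀c : IsCharacter G χ₀.1 := Cfsg.Agent.Lib.CT.Wedderburn.isCharacter_of_irr χ₀.2
  -- the conjugate character
  let ψ : IrrCharacter G := ⟨fun g => χ₀.1 g⁻¹, Cfsg.Agent.Lib.CT.Ops.isIrrCharacter_inv_arg χ₀.2⟩
  have hψ : ∀ g : G, ψ.1 g = conj (χ₀.1 g) := fun g =>
    Cfsg.Agent.Lib.CT.Wedderburn.char_apply_inv hχ₀c g
  have hθreal : ∀ n : N, conj (θ.1 n) = θ.1 n := fun n => Complex.conj_eq_iff_im.mpr (hreal n)
  have hprodeq : (fun n : N => (fun _ : N => (1 : ℂ)) n * χ₀.1 n) = θ.1 := by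
    funext n
    simp [h₀ n]
  have hprod : IsIrrCharacter N (fun n : N => (fun _ : N => (1 : ℂ)) n * χ₀.1 n) := by
    rw [hprodeq]; exact θ.2
  obtain ⟨-, -, h3⟩ := Cfsg.Agent.Lib.Helper78.Gallagher.gallagher_core N hN (fun _ => (1 : ℂ))
    Cfsg.Agent.Lib.CT.Ops.isIrrCharacter_one (fun _ _ => rfl) χ₀.1 χ₀.2 hprod
  have hne : classInner (indFun N (fun n : N => (fun _ : N => (1 : ℂ)) n * χ₀.1 n)) (ψ : G → ℂ) ≠ 0 := by
    rw [hprodeq, Cfsg.Agent.Lib.CT.FrobRec.frobenius_reciprocity N θ.1 ψ.1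
      (Cfsg.Agent.Lib.CT.Orth.irr_isClassFunction ψ)]
    have e : (fun h : N => ψ.1 h) = θ.1 := by
      funext n
      rw [hψ, h₀ n, hθreal n]
    rw [e, Cfsg.Agent.Lib.CT.Wedderburn.irr_orthonormal θ θ]
    simp
  obtain ⟨β, hβ1, hβ2⟩ := h3 ψ hne
  have hβc : IsCharacter G β.1 := Cfsg.Agent.Lib.CT.Wedderburn.isCharacter_of_irr β.2
  have hχ1 : χ₀.1 1 ≠ 0 := Cfsg.Agent.Lib.CT.Wedderburn.irr_apply_one_ne_zero χ₀.2
  have hβone : β.1 1 = 1 := by
    have h := congr_fun hβ2 1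
    simp only [Pi.mul_apply] at h
    have h' : ψ.1 1 = χ₀.1 1 := by show χ₀.1 (1 : G)⁻¹ = χ₀.1 1; rw [inv_one]
    rw [h'] at h
    exact mul_right_cancel₀ hχ1 (by rw [h, one_mul])
  -- β is trivial on N
  have hβN : ∀ n : N, β.1 n = 1 := by
    have hres : IsCharacter N (fun n : N => β.1 n) := Cfsg.Agent.Lib.CT.Ops.isCharacter_restrict N hβc
    have hres1 : (fun n : N => β.1 n) 1 = 1 := by
      show β.1 ((1 : N) : G) = 1
      rw [Subgroup.coe_one]; exact hβone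
    have hirr : IsIrrCharacter N (fun n : N => β.1 n) :=
      Cfsg.Agent.Lib.CT.LinChar.isIrrCharacter_of_linear hres hres1
    rw [Cfsg.Agent.Lib.CT.FrobRec.frobenius_reciprocity N (fun _ => (1 : ℂ)) β.1
      (Cfsg.Agent.Lib.CT.Orth.irr_isClassFunction β)] at hβ1
    have ho := Cfsg.Agent.Lib.CT.Wedderburn.irr_orthonormal
      (⟨fun _ => (1 : ℂ), Cfsg.Agent.Lib.CT.Ops.isIrrCharacter_one⟩ : IrrCharacter N)
      ⟨fun n : N => β.1 n, hirr⟩
    rw [ho] at hβ1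
    by_cases he : (⟨fun _ => (1 : ℂ), Cfsg.Agent.Lib.CT.Ops.isIrrCharacter_one⟩ : IrrCharacter N)
        = ⟨fun n : N => β.1 n, hirr⟩
    · intro n
      have := congr_arg (fun f : IrrCharacter N => f.1 n) he
      exact this.symm
    · rw [if_neg he] at hβ1
      exact absurd rfl hβ1
  -- odd part of the order
  obtain ⟨a, m, hm, hcard⟩ := Nat.exists_eq_two_pow_mul_odd (Nat.card_pos (α := G)).ne'
  obtain ⟨k, hk⟩ : ∃ k, k + k = m + 1 := by
    obtain ⟨j, hj⟩ := hm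
    exact ⟨j + 1, by omega⟩
  have hlin := Cfsg.Agent.Lib.CT.LinChar.isLinear_pow (⟨hβc, hβone⟩ : IsCharacter G β.1 ∧ β.1 1 = 1) k
  refine ⟨⟨χ₀.1 * β.1 ^ k,
    Cfsg.Agent.Lib.CT.LinChar.isIrrCharacter_mul_linear χ₀.2 hlin.1 hlin.2⟩, ?_, ?_⟩
  · intro n
    show χ₀.1 n * (β.1 n) ^ k = θ.1 n
    rw [hβN n, one_pow, mul_one, h₀ n]
  · intro x hx
    show conj (χ₀.1 x * (β.1 x) ^ k) = χ₀.1 x * (β.1 x) ^ k
    have hdvd : orderOf x ∣ m := by
      have h1 : orderOf x ∣ 2 ^ a * m := hcard ▸ orderOf_dvd_natCard x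
      have hcop : Nat.Coprime (orderOf x) (2 ^ a) :=
        Nat.Coprime.pow_right a ((Nat.coprime_comm).mp ((Nat.Prime.coprime_iff_not_dvd Nat.prime_two).mpr hx))
      exact hcop.dvd_of_dvd_mul_left h1
    have hbm : (β.1 x) ^ m = 1 := by
      obtain ⟨c, hc⟩ := hdvd
      rw [hc, pow_mul, Cfsg.Agent.Lib.CT.LinChar.linear_pow_orderOf hβc hβone x, one_pow]
    have hkk : (β.1 x) ^ k * (β.1 x) ^ k = β.1 x := by
      rw [← pow_add, hk, pow_succ, hbm, one_mul]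
    have hb0 : β.1 x ≠ 0 := Cfsg.Agent.Lib.CT.LinChar.linear_ne_zero hβc hβone x
    have hbk0 : (β.1 x) ^ k ≠ 0 := pow_ne_zero _ hb0
    have hcb : conj (β.1 x) = (β.1 x)⁻¹ :=
      eq_inv_of_mul_eq_one_right (Cfsg.Agent.Lib.CT.LinChar.linear_mul_conj hβc hβone x)
    have hcχ : conj (χ₀.1 x) = β.1 x * χ₀.1 x := by
      rw [← hψ x, ← hβ2]; rfl
    rw [map_mul, map_pow, hcχ, hcb, inv_pow]
    calc β.1 x * χ₀.1 x * ((β.1 x) ^ k)⁻¹
        = ((β.1 x) ^ k * (β.1 x) ^ k) * χ₀.1 x * ((β.1 x) ^ k)⁻¹ := by rw [hkk]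
      _ = χ₀.1 x * (β.1 x) ^ k := by field_simp

theorem result {G : Type*} [Group G] [Finite G] (N : Subgroup G) [N.Normal] (M : Ideal Cfsg.AlgInt) (hM : Cfsg.IsPModular 2 M) (θ : Cfsg.IrrCharacter N) (hreal : ∀ n : N, ((θ : N → ℂ) n).im = 0) (hodd : Odd (Cfsg.charDegree (θ : N → ℂ))) (hext : ∃ η : Cfsg.IrrCharacter G, ∀ n : N, (η : G → ℂ) n = (θ : N → ℂ) n) :
    ∃ η : Cfsg.IrrCharacter G, (∀ n : N, (η : G → ℂ) n = (θ : N → ℂ) n) ∧ η ∈ Cfsg.principalBlock M G := by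
  classical
  obtain ⟨χ₀, h₀⟩ := hext
  obtain ⟨χ₁, h₁, hr⟩ := exists_ext_real_odd N θ hreal χ₀ h₀
  refine ⟨χ₁, h₁, ?_⟩
  by_contra hnot
  have : Fact (Nat.Prime 2) := ⟨Nat.prime_two⟩
  letI : Fintype G := Fintype.ofFinite G
  have hnot' : ¬ SameBlock M
      ((⟨fun _ => (1 : ℂ), Cfsg.Agent.Lib.CT.Ops.isIrrCharacter_one⟩ : IrrCharacter G) : G → ℂ)
      (χ₁ : G → ℂ) := hnot
  have hS := Cfsg.Agent.Lib.Helper75.BlockOrth2.sum_pRegular_eq_zero_of_not_sameBlock 2 M hM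
    ⟨fun _ => (1 : ℂ), Cfsg.Agent.Lib.CT.Ops.isIrrCharacter_one⟩ χ₁ hnot'
  rw [finsum_mem_eq_finite_toFinset_sum _ (Set.toFinite _)] at hS
  set T : Finset G := (Set.toFinite {x : G | ¬ 2 ∣ orderOf x}).toFinset with hT
  have hmemT : ∀ x : G, x ∈ T ↔ ¬ 2 ∣ orderOf x := by
    intro x
    rw [hT, Set.Finite.mem_toFinset]; rfl
  -- the values as algebraic integers
  let av : G → AlgInt := fun x =>
    ⟨(χ₁ : G → ℂ) x, Cfsg.Agent.Lib.Helper80.Integrality.isIntegral_irrCharacter χ₁ x⟩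
  have hsum0 : ∑ x ∈ T, av x = 0 := by
    apply Subtype.ext
    rw [AddSubmonoidClass.coe_finsetSum]
    show ∑ x ∈ T, (χ₁ : G → ℂ) x = 0
    rw [← hS]
    apply Finset.sum_congr rfl
    intro x hx
    rw [one_mul, hr x ((hmemT x).mp hx)]
  have h1T : (1 : G) ∈ T := by
    rw [hmemT, orderOf_one]; decide
  have h2M : (2 : AlgInt) ∈ M := by
    have := hM.2.2
    exact_mod_cast this
  have hinv : ∑ x ∈ T.erase 1, Ideal.Quotient.mk M (av x) = 0 := by
    refine Finset.sum_involution (fun x _ => x⁻¹) ?_ ?_ ?_ ?_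
    · intro x hx
      have hxT := (hmemT x).mp (Finset.mem_of_mem_erase hx)
      have e : av x⁻¹ = av x := by
        apply Subtype.ext
        show (χ₁ : G → ℂ) x⁻¹ = (χ₁ : G → ℂ) x
        rw [Cfsg.Agent.Lib.CT.Wedderburn.char_apply_inv
          (Cfsg.Agent.Lib.CT.Wedderburn.isCharacter_of_irr χ₁.2) x, hr x hxT]
      rw [e, ← map_add, ← two_mul, Ideal.Quotient.eq_zero_iff_mem]
      exact M.mul_mem_right _ h2M
    · intro x hx _ hxx
      have hxT := (hmemT x).mp (Finset.mem_of_mem_erase hx)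
      have hx1 : x ≠ 1 := Finset.ne_of_mem_erase hx
      have hsq : x ^ 2 = 1 := by
        rw [pow_two]
        calc x * x = x * x⁻¹ := by rw [hxx]
          _ = 1 := mul_inv_cancel x
      have hd : orderOf x ∣ 2 := orderOf_dvd_of_pow_eq_one hsq
      rcases (Nat.dvd_prime Nat.prime_two).mp hd with h | h
      · exact hx1 (orderOf_eq_one_iff.mp h)
      · exact hxT (by rw [h])
    · intro x hx
      have hxT := (hmemT x).mp (Finset.mem_of_mem_erase hx)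
      have hx1 : x ≠ 1 := Finset.ne_of_mem_erase hx
      rw [Finset.mem_erase, hmemT, orderOf_inv]
      exact ⟨fun h => hx1 (inv_eq_one.mp h), hxT⟩
    · intro x _
      exact inv_inv x
  have hone : Ideal.Quotient.mk M (av 1) = 0 := by
    have h := congr_arg (Ideal.Quotient.mk M) hsum0
    rw [map_sum, map_zero, ← Finset.add_sum_erase T _ h1T, hinv, add_zero] at h
    exact h
  rw [Ideal.Quotient.eq_zero_iff_mem] at hone
  -- av 1 is the odd natural number θ(1)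
  have hav1 : av 1 = ((charDegree (θ : N → ℂ) : ℕ) : AlgInt) := by
    apply Subtype.ext
    show (χ₁ : G → ℂ) 1 = (((charDegree (θ : N → ℂ) : ℕ) : AlgInt) : ℂ)
    have h := h₁ 1
    rw [Subgroup.coe_one] at h
    rw [h, Cfsg.Agent.Lib.Helper80.Integrality.apply_one_eq_charDegree
      (Cfsg.Agent.Lib.CT.Wedderburn.isCharacter_of_irr θ.2)]
    simp
  rw [hav1] at hone
  obtain ⟨j, hj⟩ := hodd
  have h1M : (1 : AlgInt) ∈ M := by
    have e : (1 : AlgInt) = ((charDegree (θ : N → ℂ) : ℕ) : AlgInt) - 2 * (j : AlgInt) := by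
      rw [hj]; push_cast; ring
    rw [e]
    exact M.sub_mem hone (M.mul_mem_right _ h2M)
  exact hM.2.1.ne_top ((Ideal.eq_top_iff_one M).mpr h1M)

end Cfsg.Agent.S4580
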