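import Cfsg.Statements.S4582
import Mathlib

set_option autoImplicit false
open Cfsg

namespace Cfsg.Agent.S4582

open Subgroup MonoidHom
open scoped commutatorElement

/-- Core transfer argument, in a group `G = N P`. -/
theorem core {G : Type*} [Group G] [Finite G] (N : Subgroup G) [N.Normal] (P : Subgroup G)
    (hP2 : IsPGroup 2 P) (hidx : Odd P.index) (hNP : N ⊔ P = ⊤)
    (hP : ∀ x ∈ P, x ^ 2 ∈ (P ⊓ N) ⊔ ⁅P, P⁆)
    (hQ : ∀ x ∈ P ⊓ N, x ^ 2 ∈ ⁅P, P⁆)
    (hodd : Odd (Nat.card (Abelianization N))) :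
    ∀ x ∈ P, x ^ 2 ∈ ⁅P, P⁆ := by
  classical
  let π : P →* Abelianization P := Abelianization.of
  have hπ1 : ∀ c : P, (c : G) ∈ ⁅P, P⁆ → π c = 1 := by
    intro c hc
    rw [← map_subtype_commutator] at hc
    obtain ⟨c', hc', hcc⟩ := hc
    have : c' = c := Subtype.ext hcc
    subst this
    have : c' ∈ (Abelianization.of : P →* Abelianization P).ker := by
      rw [Abelianization.ker_of]; exact hc'
    exact this
  have hπ2 : ∀ c : P, π c = 1 → (c : G) ∈ ⁅P, P⁆ := by
    intro c hc
    rw [← map_subtype_commutator]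
    refine ⟨c, ?_, rfl⟩
    have : c ∈ (Abelianization.of : P →* Abelianization P).ker := hc
    rwa [Abelianization.ker_of] at this
  -- the commutator subgroup of `G` lies in `P' N`
  have hcomm : commutator G ≤ ⁅P, P⁆ ⊔ N := by
    have h1 : ⁅P, P⁆ ⊔ N =
        comap (QuotientGroup.mk' N) (map (QuotientGroup.mk' N) ⁅P, P⁆) := by
      rw [comap_map_eq, QuotientGroup.ker_mk']
    have h2 : map (QuotientGroup.mk' N) P = ⊤ := by
      have h4 : map (QuotientGroup.mk' N) (N ⊔ P) = ⊤ := by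
        rw [hNP, ← MonoidHom.range_eq_map]
        exact MonoidHom.range_eq_top.mpr (QuotientGroup.mk'_surjective N)
      rw [Subgroup.map_sup] at h4
      have h3 : map (QuotientGroup.mk' N) N = ⊥ := by
        rw [Subgroup.map_eq_bot_iff, QuotientGroup.ker_mk']
      rwa [h3, bot_sup_eq] at h4
    rw [h1, map_commutator, h2, _root_.commutator_def, ← map_le_iff_le_comap, map_commutator]
    exact commutator_mono le_top le_top
  have hb : ∀ w : P, (w : G) ∈ commutator G → π w ^ 2 = 1 := by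
    intro w hw
    have hw' := hcomm hw
    rw [← SetLike.mem_coe, mul_normal] at hw'
    obtain ⟨c, hc, n, hn, hcn⟩ := hw'
    have hc0 := hc
    rw [SetLike.mem_coe, ← map_subtype_commutator] at hc
    obtain ⟨c', hc', rfl⟩ := hc
    have hnP : n ∈ P := by
      have : n = (c' : G)⁻¹ * w := by
        rw [← hcn]; simp
      rw [this]
      exact P.mul_mem (P.inv_mem c'.2) w.2
    have hw2 : w = c' * ⟨n, hnP⟩ := Subtype.ext (by simpa using hcn.symm)
    have hn2 : π (⟨n, hnP⟩ ^ 2) = 1 := by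
      apply hπ1
      simpa using hQ n ⟨hnP, hn⟩
    rw [hw2, map_mul, hπ1 c' hc0, one_mul, ← map_pow, hn2]
  -- the transfer into the abelianization of `P`
  let V : G →* Abelianization P := transfer π
  have hA : IsPGroup 2 (Abelianization P) := hP2.to_quotient _
  have hVN : N ≤ V.ker := by
    intro n hn
    rw [MonoidHom.mem_ker]
    have h1 : V n ^ Nat.card (Abelianization N) = 1 := by
      have : V n = Abelianization.lift (V.comp N.subtype) (Abelianization.of ⟨n, hn⟩) := by
        simp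
      rw [this, ← map_pow, pow_card_eq_one', map_one]
    obtain ⟨k, hk⟩ := hA (V n)
    have hco : Nat.Coprime (Nat.card (Abelianization N)) (2 ^ k) :=
      Nat.Coprime.pow_right k (Nat.coprime_two_right.mpr hodd)
    have := pow_gcd_eq_one.mpr ⟨h1, hk⟩
    rwa [hco, pow_one] at this
  have hVC : ⁅P, P⁆ ≤ V.ker :=
    (commutator_mono le_top le_top).trans
      ((_root_.commutator_def G).ge.trans (Abelianization.commutator_subset_ker V))
  intro u hu
  have hVu : V u ^ 2 = 1 := by
    rw [← map_pow]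
    exact (sup_le (inf_le_right.trans hVN) hVC) (hP u hu)
  have hform : V u ^ 2 = π ⟨u, hu⟩ ^ (2 * P.index) := by
    have : Fintype (Quotient (MulAction.orbitRel (zpowers u) (G ⧸ P))) := Fintype.ofFinite _
    rw [pow_mul, index_eq_sum_minimalPeriod P u, ← Finset.prod_pow_eq_pow_sum]
    change (transfer π u) ^ 2 = _
    rw [transfer_eq_prod_quotient_orbitRel_zpowers_quot, ← Finset.prod_pow]
    apply Finset.prod_congr rfl
    intro q _
    set x : G := q.out.out with hx
    set n : ℕ := Function.minimalPeriod (u • ·) q.out with hn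
    have hmem : x⁻¹ * u ^ n * x ∈ P := QuotientGroup.out_conj_pow_minimalPeriod_mem P u q.out
    set w : P := ⟨x⁻¹ * u ^ n * x, hmem⟩ with hw
    have hd : ((w * (⟨u, hu⟩ ^ n)⁻¹ : P) : G) ∈ commutator G := by
      have : ((w * (⟨u, hu⟩ ^ n)⁻¹ : P) : G) = ⁅x⁻¹, u ^ n⁆ := by
        simp [hw, commutatorElement_def]
      rw [this, _root_.commutator_def]
      exact commutator_mem_commutator (mem_top _) (mem_top _)
    have hd2 := hb _ hd
    have hw3 : w = (w * (⟨u, hu⟩ ^ n)⁻¹) * ⟨u, hu⟩ ^ n := by simp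
    rw [hw3, map_mul, mul_pow, hd2, one_mul, map_pow, ← pow_mul, ← pow_mul, mul_comm]
  rw [hVu] at hform
  obtain ⟨k, hk⟩ := hA (π ⟨u, hu⟩)
  have h2 : π ⟨u, hu⟩ ^ 2 = 1 := by
    have h3 := pow_gcd_eq_one.mpr ⟨hform.symm, hk⟩
    have h4 : Nat.gcd (2 * P.index) (2 ^ k) ∣ 2 := by
      rcases k with _ | k
      · simp
      · rw [pow_succ, mul_comm (2 ^ k) 2, Nat.gcd_mul_left]
        have : Nat.Coprime P.index (2 ^ k) :=
          Nat.Coprime.pow_right k (Nat.coprime_two_right.mpr hidx)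
        rw [this, mul_one]
    obtain ⟨m, hm⟩ := h4
    rw [hm, pow_mul, h3, one_pow]
  have := hπ2 (⟨u, hu⟩ ^ 2) (by rw [map_pow, h2])
  simpa using this

theorem result {G : Type*} [Group G] [Finite G] (N : Subgroup G) [N.Normal] (P : Sylow 2 G)
    (hP : ∀ x ∈ (P : Subgroup G), x ^ 2 ∈ ((P : Subgroup G) ⊓ N) ⊔ ⁅(P : Subgroup G), (P : Subgroup G)⁆)
    (hQ : ∀ x ∈ (P : Subgroup G) ⊓ N, x ^ 2 ∈ ⁅(P : Subgroup G) ⊓ N, (P : Subgroup G) ⊓ N⁆)
    (hodd : Odd (Nat.card (Abelianization N))) :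
    ∀ x ∈ (P : Subgroup G), x ^ 2 ∈ ⁅(P : Subgroup G), (P : Subgroup G)⁆ := by
  set H : Subgroup G := N ⊔ P with hH
  have hNH : N ≤ H := le_sup_left
  have hPH : (P : Subgroup G) ≤ H := le_sup_right
  have hinj : Function.Injective H.subtype := H.subtype_injective
  have hmapN : (N.subgroupOf H).map H.subtype = N := by
    rw [subgroupOf_map_subtype]; exact inf_eq_left.mpr hNH
  have hmapP : ((P : Subgroup G).subgroupOf H).map H.subtype = P := by
    rw [subgroupOf_map_subtype]; exact inf_eq_left.mpr hPH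
  have hmapC : (⁅(P : Subgroup G).subgroupOf H, (P : Subgroup G).subgroupOf H⁆).map H.subtype
      = ⁅(P : Subgroup G), (P : Subgroup G)⁆ := by
    rw [map_commutator, hmapP]
  have hmapI : (((P : Subgroup G).subgroupOf H) ⊓ (N.subgroupOf H)).map H.subtype
      = (P : Subgroup G) ⊓ N := by
    rw [Subgroup.map_inf _ _ _ hinj, hmapP, hmapN]
  have hP2 : IsPGroup 2 ((P : Subgroup G).subgroupOf H) := P.2.comap_subtype
  have hidx : Odd ((P : Subgroup G).subgroupOf H).index := by
    have h1 : ((P : Subgroup G).subgroupOf H).index ∣ (P : Subgroup G).index :=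
      relIndex_dvd_index_of_le hPH
    have h2 : ¬ 2 ∣ (P : Subgroup G).index := P.not_dvd_index
    rw [← Nat.not_even_iff_odd, even_iff_two_dvd]
    exact fun h => h2 (h.trans h1)
  have hsup : N.subgroupOf H ⊔ (P : Subgroup G).subgroupOf H = ⊤ := by
    rw [← subgroupOf_sup hNH hPH, subgroupOf_self]
  have hodd' : Odd (Nat.card (Abelianization (N.subgroupOf H))) := by
    have e : Abelianization (N.subgroupOf H) ≃* Abelianization N :=
      (subgroupOfEquivOfLe hNH).abelianizationCongr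
    rw [Nat.card_congr e.toEquiv]; exact hodd
  have key := core (N.subgroupOf H) ((P : Subgroup G).subgroupOf H) hP2 hidx hsup ?_ ?_ hodd'
  · intro x hx
    have := key ⟨x, hPH hx⟩ (by simpa [mem_subgroupOf] using hx)
    rw [← hmapC]
    exact ⟨_, this, rfl⟩
  · intro x hx
    rw [← Subgroup.mem_map_iff_mem hinj, Subgroup.map_sup, hmapI, hmapC]
    exact hP x (by simpa [mem_subgroupOf] using hx)
  · intro x hx
    rw [← Subgroup.mem_map_iff_mem hinj, hmapC]
    have hx' : (x : G) ∈ (P : Subgroup G) ⊓ N := by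
      rw [← hmapI]; exact ⟨x, hx, rfl⟩
    exact (commutator_mono inf_le_left inf_le_left) (hQ x hx')

end Cfsg.Agent.S4582
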