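import Cfsg.Statements.S4585
import Cfsg.Agent.S4584
import Mathlib

set_option autoImplicit false
open Cfsg

namespace Cfsg.Agent.S4585

open Subgroup
open scoped commutatorElement

variable {P : Type*} [Group P]

/-- In a nilpotent group the lower central series strictly decreases until it reaches `⊥`. -/
theorem lcs_eq_bot_of_eq_succ [Group.IsNilpotent P] (n : ℕ)
    (h : (⊤ : Subgroup P).lowerCentralSeries (n + 1) = (⊤ : Subgroup P).lowerCentralSeries n) :
    (⊤ : Subgroup P).lowerCentralSeries n = ⊥ := by
  have key : ∀ m, (⊤ : Subgroup P).lowerCentralSeries (n + m) =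
      (⊤ : Subgroup P).lowerCentralSeries n := by
    intro m
    induction m with
    | zero => rfl
    | succ m ih =>
      rw [← add_assoc, Subgroup.lowerCentralSeries_succ, ih, ← Subgroup.lowerCentralSeries_succ, h]
  obtain ⟨c, hc⟩ := Subgroup.nilpotent_iff_lowerCentralSeries.mp (inferInstance : Group.IsNilpotent P)
  rw [← key c, eq_bot_iff, ← hc]
  exact Subgroup.lowerCentralSeries_antitone _ (Nat.le_add_left c n)

/-- If `P / P'` is cyclic then `P' ≤ [P', P]`. -/
theorem commutator_le_of_isCyclic (hc : IsCyclic (P ⧸ commutator P)) :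
    commutator P ≤ ⁅commutator P, (⊤ : Subgroup P)⁆ := by
  set K : Subgroup P := ⁅commutator P, (⊤ : Subgroup P)⁆ with hK
  have hKle : K ≤ commutator P := by
    rw [hK, _root_.commutator_def]
    exact Subgroup.commutator_mono le_top le_rfl
  let f : P ⧸ K →* P ⧸ commutator P :=
    QuotientGroup.map K (commutator P) (MonoidHom.id P) hKle
  have hker : f.ker ≤ center (P ⧸ K) := by
    intro q hq
    induction q using QuotientGroup.induction_on with
    | H a =>
      have ha : a ∈ commutator P := by
        rw [MonoidHom.mem_ker] at hq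
        have : f (QuotientGroup.mk a) = QuotientGroup.mk a := rfl
        rw [this, QuotientGroup.eq_one_iff] at hq
        exact hq
      rw [Subgroup.mem_center_iff]
      intro g
      induction g using QuotientGroup.induction_on with
      | H b =>
        rw [← QuotientGroup.mk_mul, ← QuotientGroup.mk_mul, QuotientGroup.eq]
        have h1 : (b * a)⁻¹ * (a * b) = ⁅a⁻¹, b⁻¹⁆ := by
          simp only [commutatorElement_def]; group
        rw [h1]
        exact commutator_mem_commutator (inv_mem ha) (mem_top _)
  have hcomm : IsMulCommutative (P ⧸ K) :=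
    f.isMulCommutative_of_isCyclic_of_ker_le_center hker
  exact Subgroup.Normal.quotient_commutative_iff_commutator_le.mp hcomm

theorem card_eq_pow_of_card [Finite P] {p : ℕ} [Fact p.Prime] {n : ℕ} (hP : Nat.card P = p ^ n)
    (H : Subgroup P) : ∃ i, i ≤ n ∧ Nat.card H = p ^ i := by
  have hp : p.Prime := Fact.out
  have h := Subgroup.card_subgroup_dvd_card H
  rw [hP] at h
  exact (Nat.dvd_prime_pow hp).mp h

theorem card_lt_of_le_of_ne [Finite P] {H K : Subgroup P} (hle : H ≤ K) (hne : H ≠ K) :
    Nat.card H < Nat.card K := by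
  by_contra hcon
  exact hne (Subgroup.eq_of_le_of_card_ge hle (not_lt.mp hcon))

/-- Let p be a prime and P a group of order p^4. Then P' has index p^2 in P if and only if P has maximal nilpotency class, that is, nilpotency class exactly 3. -/
theorem result {P : Type*} [Group P] [Finite P] (p : ℕ) [Fact p.Prime] (hP : Nat.card P = p ^ 4) :
    (commutator P).index = p ^ 2 ↔ Group.nilpotencyClass P = 3 := by
  have hp : p.Prime := Fact.out
  have hPG : IsPGroup p P := IsPGroup.of_card hP
  haveI hnil : Group.IsNilpotent P := hPG.isNilpotent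
  have h01 : (⊤ : Subgroup P).lowerCentralSeries 1 = commutator P := rfl
  have h12 : (⊤ : Subgroup P).lowerCentralSeries 2 ≤ (⊤ : Subgroup P).lowerCentralSeries 1 :=
    Subgroup.lowerCentralSeries_antitone _ (by norm_num)
  have h23 : (⊤ : Subgroup P).lowerCentralSeries 3 ≤ (⊤ : Subgroup P).lowerCentralSeries 2 :=
    Subgroup.lowerCentralSeries_antitone _ (by norm_num)
  obtain ⟨i1, hi1, hc1⟩ := card_eq_pow_of_card hP ((⊤ : Subgroup P).lowerCentralSeries 1)
  obtain ⟨i2, hi2, hc2⟩ := card_eq_pow_of_card hP ((⊤ : Subgroup P).lowerCentralSeries 2)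
  obtain ⟨i3, hi3, hc3⟩ := card_eq_pow_of_card hP ((⊤ : Subgroup P).lowerCentralSeries 3)
  have hidx : (commutator P).index * p ^ i1 = p ^ 4 := by
    rw [← hc1, h01, mul_comm, Subgroup.card_mul_index, hP]
  have hbot : ∀ n i, Nat.card ((⊤ : Subgroup P).lowerCentralSeries n) = p ^ i →
      ((⊤ : Subgroup P).lowerCentralSeries n = ⊥ ↔ i = 0) := by
    intro n i hi
    rw [← Subgroup.card_eq_one, hi]
    constructor
    · intro h
      by_contra h0
      have : 1 < p ^ i := Nat.one_lt_pow h0 hp.one_lt
      omega
    · rintro rfl; rfl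
  have hstrict : ∀ n i j, Nat.card ((⊤ : Subgroup P).lowerCentralSeries n) = p ^ i →
      Nat.card ((⊤ : Subgroup P).lowerCentralSeries (n + 1)) = p ^ j → i ≠ 0 → j < i := by
    intro n i j hi hj hi0
    have hne : (⊤ : Subgroup P).lowerCentralSeries (n + 1) ≠
        (⊤ : Subgroup P).lowerCentralSeries n := by
      intro h
      exact hi0 ((hbot n i hi).mp (lcs_eq_bot_of_eq_succ n h))
    have hlt := card_lt_of_le_of_ne (Subgroup.lowerCentralSeries_antitone _ (Nat.le_succ n)) hne
    rw [hi, hj] at hlt
    exact (Nat.pow_lt_pow_iff_right hp.one_lt).mp hlt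
  have hcls2 : Group.nilpotencyClass P ≤ 2 ↔ i2 = 0 := by
    rw [← Subgroup.lowerCentralSeries_eq_bot_iff_nilpotencyClass_le]
    exact hbot 2 i2 hc2
  have hcls3 : Group.nilpotencyClass P ≤ 3 ↔ i3 = 0 := by
    rw [← Subgroup.lowerCentralSeries_eq_bot_iff_nilpotencyClass_le]
    exact hbot 3 i3 hc3
  have hs12 := hstrict 1 i1 i2 hc1 hc2
  have hs23 := hstrict 2 i2 i3 hc2 hc3
  have hi1_4 : i1 ≠ 4 := by
    intro h4
    have h0 : Nat.card ((⊤ : Subgroup P).lowerCentralSeries 0) = p ^ 4 := by
      rw [Subgroup.lowerCentralSeries_zero, Subgroup.card_top, hP]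
    have := hstrict 0 4 i1 h0 hc1 (by norm_num)
    omega
  have hidx_iff : (commutator P).index = p ^ 2 ↔ i1 = 2 := by
    constructor
    · intro h
      rw [h, ← pow_add] at hidx
      have := Nat.pow_right_injective hp.two_le hidx
      omega
    · rintro rfl
      have h2 : 0 < p ^ 2 := pow_pos hp.pos 2
      have h3 : (commutator P).index * p ^ 2 = p ^ 2 * p ^ 2 := by rw [hidx]; ring
      exact Nat.eq_of_mul_eq_mul_right h2 h3
  rw [hidx_iff]
  constructor
  · rintro rfl
    have hi2' : i2 < 2 := hs12 (by norm_num)
    have hi3' : i3 = 0 := by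
      by_contra h3
      have : i2 ≠ 0 := by
        intro h2
        have := (hbot 2 i2 hc2).mpr h2
        have h3' : (⊤ : Subgroup P).lowerCentralSeries 3 = ⊥ := by
          rw [eq_bot_iff, ← this]; exact h23
        exact h3 ((hbot 3 i3 hc3).mp h3')
      have := hs23 this
      omega
    have hle3 := hcls3.mpr hi3'
    have hnot2 : ¬ Group.nilpotencyClass P ≤ 2 := by
      rw [hcls2]
      intro h2
      have hg2 : ⁅commutator P, (⊤ : Subgroup P)⁆ = ⊥ := (hbot 2 i2 hc2).mpr h2
      have hcz : commutator P ≤ center P := by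
        rw [Subgroup.commutator_eq_bot_iff_le_centralizer] at hg2
        intro x hx
        have := hg2 hx
        rw [Subgroup.mem_centralizer_iff] at this
        rw [Subgroup.mem_center_iff]
        intro g
        exact this g (mem_top g)
      have hcard : Nat.card (commutator P) = p ^ 2 := by rw [← h01, hc1]
      have hZdvd : (center P).index ∣ p ^ 2 := by
        have := Subgroup.index_dvd_of_le hcz
        have hidx2 : (commutator P).index = p ^ 2 := hidx_iff.mpr rfl
        rwa [hidx2] at this
      obtain ⟨k, hk, hZ⟩ := (Nat.dvd_prime_pow hp).mp hZdvd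
      have hk2 : k = 2 ∨ k ≤ 1 := by omega
      rcases hk2 with rfl | hk1
      · have := Cfsg.Agent.S4584.card_commutator_of_index_center p hZ
        rw [hcard] at this
        have h1 : p ^ 2 = p ^ 1 := by rw [pow_one]; exact this
        have := Nat.pow_right_injective hp.two_le h1
        omega
      · have hcyc : IsCyclic (P ⧸ center P) := by
          have hq : Nat.card (P ⧸ center P) = p ^ k := by rw [← index_eq_card, hZ]
          interval_cases k
          · rw [pow_zero] at hq
            have : Subsingleton (P ⧸ center P) := (Nat.card_eq_one_iff_unique.mp hq).1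
            exact isCyclic_of_subsingleton
          · rw [pow_one] at hq
            have : Fact (Nat.card (P ⧸ center P)).Prime := ⟨hq ▸ hp⟩
            exact isCyclic_of_prime_card rfl
        have hcomm : ∀ a b : P, a * b = b * a :=
          commutative_of_cyclic_center_quotient (QuotientGroup.mk' (center P))
            (by rw [QuotientGroup.ker_mk'])
        have hbotc : commutator P = ⊥ := by
          rw [_root_.commutator_def, Subgroup.commutator_eq_bot_iff_le_centralizer]
          intro x _
          rw [Subgroup.mem_centralizer_iff]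
          intro y _
          exact hcomm y x
        rw [hbotc, Subgroup.card_bot] at hcard
        have : 1 < p ^ 2 := Nat.one_lt_pow (by norm_num) hp.one_lt
        omega
    omega
  · intro hcl
    have hi3' : i3 = 0 := hcls3.mp (by omega)
    have hi2' : i2 ≠ 0 := fun h => by
      have := hcls2.mpr h
      omega
    have hi1' : i2 < i1 := by
      apply hs12
      intro h1
      have hb1 := (hbot 1 i1 hc1).mpr h1
      have hb2 : (⊤ : Subgroup P).lowerCentralSeries 2 = ⊥ := by
        rw [eq_bot_iff, ← hb1]; exact h12
      exact hi2' ((hbot 2 i2 hc2).mp hb2)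
    have hi1_3 : i1 ≠ 3 := by
      rintro rfl
      have hidx3 : (commutator P).index = p := by
        have h2 : 0 < p ^ 3 := pow_pos hp.pos 3
        have h3 : (commutator P).index * p ^ 3 = p * p ^ 3 := by rw [hidx]; ring
        exact Nat.eq_of_mul_eq_mul_right h2 h3
      have hcyc : IsCyclic (P ⧸ commutator P) := by
        have hq : Nat.card (P ⧸ commutator P) = p := by rw [← index_eq_card, hidx3]
        have : Fact (Nat.card (P ⧸ commutator P)).Prime := ⟨hq ▸ hp⟩
        exact isCyclic_of_prime_card rfl
      have hle := commutator_le_of_isCyclic hcyc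
      have heq : (⊤ : Subgroup P).lowerCentralSeries 2 = (⊤ : Subgroup P).lowerCentralSeries 1 :=
        le_antisymm h12 hle
      have := lcs_eq_bot_of_eq_succ 1 heq
      have := (hbot 1 3 hc1).mp this
      omega
    omega

end Cfsg.Agent.S4585
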