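import Cfsg.Statements.S4586
import Cfsg.Agent.S4584
import Mathlib

set_option autoImplicit false
open Cfsg

namespace Cfsg.Agent.S4586

open Subgroup
open scoped commutatorElement

variable {P : Type*} [Group P]

/-- A subgroup containing a subgroup of prime index and an element outside it is everything. -/
theorem eq_top_of_le_of_mem {p : ℕ} (hp : p.Prime) (N : Subgroup P) (hN : N.index = p) (x : P)
    (hx : x ∉ N) (H : Subgroup P) (hNH : N ≤ H) (hxH : x ∈ H) : H = ⊤ := by
  have h1 : N.relIndex H * H.index = N.index := relIndex_mul_index hNH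
  rw [hN] at h1
  have h2 : N.relIndex H ≠ 1 := fun h => hx (relIndex_eq_one.mp h hxH)
  exact index_eq_one.mp (Cfsg.Agent.S4584.eq_prime_of_mul_eq hp h1 h2).2

/-- If `P` is generated by the normal subgroup `N` and `x`, and `K ≤ N` contains `[N,N]` and all
`[x,n]`, then `K` contains the derived subgroup of `P`. -/
theorem commutator_le_of_gen [Finite P] (N : Subgroup P) (x : P)
    (hgen : ∀ H : Subgroup P, N ≤ H → x ∈ H → H = ⊤)
    (K : Subgroup P) (hKN : K ≤ N) (hDK : ⁅N, N⁆ ≤ K) (hxK : ∀ n ∈ N, ⁅x, n⁆ ∈ K) :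
    commutator P ≤ K := by
  have hpow : ∀ j : ℕ, ∀ k ∈ K, x ^ j * k * (x ^ j)⁻¹ ∈ K := by
    intro j
    induction j with
    | zero => intro k hk; simpa using hk
    | succ j ih =>
      intro k hk
      have h1 := ih k hk
      have h2 : x ^ (j + 1) * k * (x ^ (j + 1))⁻¹ =
          ⁅x, x ^ j * k * (x ^ j)⁻¹⁆ * (x ^ j * k * (x ^ j)⁻¹) := by
        rw [commutatorElement_def, pow_succ']; group
      rw [h2]
      exact K.mul_mem (hxK _ (hKN h1)) h1
  have hnorm : K.Normal := by
    rw [← Subgroup.normalizer_eq_top_iff]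
    apply hgen
    · intro n hn
      rw [Subgroup.mem_normalizer_iff]
      intro k
      constructor
      · intro hk
        have h2 : n * k * n⁻¹ = ⁅n, k⁆ * k := by rw [commutatorElement_def]; group
        rw [h2]
        exact K.mul_mem (hDK (commutator_mem_commutator hn (hKN hk))) hk
      · intro hk
        have h2 : k = ⁅n⁻¹, n * k * n⁻¹⁆ * (n * k * n⁻¹) := by
          rw [commutatorElement_def]; group
        rw [h2]
        exact K.mul_mem (hDK (commutator_mem_commutator (inv_mem hn) (hKN hk))) hk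
    · rw [Subgroup.mem_normalizer_iff]
      intro k
      constructor
      · intro hk
        simpa using hpow 1 k hk
      · intro hk
        have hinv : x⁻¹ = x ^ (orderOf x - 1) := by
          apply inv_eq_of_mul_eq_one_left
          rw [← pow_succ, Nat.sub_add_cancel (orderOf_pos x), pow_orderOf_eq_one]
        have h1 := hpow (orderOf x - 1) _ hk
        rw [← hinv] at h1
        simpa [mul_assoc] using h1
  have hmk : ∀ a b : P, (b * a)⁻¹ * (a * b) = ⁅a⁻¹, b⁻¹⁆ := by
    intro a b
    rw [commutatorElement_def]; group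
  let C : P → Subgroup P := fun a =>
    (centralizer {(QuotientGroup.mk a : P ⧸ K)}).comap (QuotientGroup.mk' K)
  have hC : ∀ a b, b ∈ C a ↔ ⁅b⁻¹, a⁻¹⁆ ∈ K := by
    intro a b
    show (QuotientGroup.mk' K b) ∈ centralizer _ ↔ _
    rw [Subgroup.mem_centralizer_singleton_iff, ← hmk]
    show (QuotientGroup.mk (b * a) : P ⧸ K) = QuotientGroup.mk (a * b) ↔ _
    rw [eq_comm, QuotientGroup.eq]
  have hsymm : ∀ a b, ⁅a, b⁆ ∈ K → ⁅b, a⁆ ∈ K := by
    intro a b h
    rw [← commutatorElement_inv]
    exact K.inv_mem h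
  have hx' : ∀ n ∈ N, ⁅x⁻¹, n⁆ ∈ K := by
    intro n hn
    have h1 : ⁅x⁻¹, n⁆ = x⁻¹ * ⁅n, x⁆ * x⁻¹⁻¹ := by
      rw [commutatorElement_def, commutatorElement_def]; group
    rw [h1]
    exact hnorm.conj_mem _ (hsymm _ _ (hxK n hn)) _
  have hCx : C x = ⊤ := by
    apply hgen
    · intro n hn
      rw [hC]
      exact hsymm _ _ (hx' _ (inv_mem hn))
    · rw [hC, commutatorElement_self]
      exact K.one_mem
  have hCn : ∀ n ∈ N, C n = ⊤ := by
    intro n hn
    apply hgen
    · intro m hm
      rw [hC]
      exact hDK (commutator_mem_commutator (inv_mem hm) (inv_mem hn))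
    · rw [hC]
      exact hx' _ (inv_mem hn)
  have hCall : ∀ b, C b = ⊤ := by
    intro b
    apply hgen
    · intro n hn
      rw [hC]
      apply hsymm
      rw [← hC, hCn n hn]
      exact mem_top b
    · rw [hC]
      apply hsymm
      rw [← hC, hCx]
      exact mem_top b
  rw [_root_.commutator_def, Subgroup.commutator_le]
  intro a _ b _
  have h1 : a⁻¹ ∈ C b⁻¹ := by rw [hCall]; exact mem_top _
  rw [hC, inv_inv, inv_inv] at h1
  exact h1

/-- The counting identity: for `N` normal of index `p` in a finite group `P` and `x ∉ N`,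
`[P : P'] · |N'| = p · c(x)`. -/
theorem index_commutator_mul [Finite P] (p : ℕ) (hp : p.Prime) (N : Subgroup P) [N.Normal]
    (hN : N.index = p) (x : P) (hx : x ∉ N) :
    (commutator P).index * Nat.card (commutator N) =
      p * Nat.card {n : N // x * n * x⁻¹ * (n : P)⁻¹ ∈ (commutator N).map N.subtype} := by
  let α : N →* N := (MulAut.conjNormal x : MulAut N).toMonoidHom
  have hα : ∀ n : N, ((α n : N) : P) = x * n * x⁻¹ := fun n => MulAut.conjNormal_apply x n
  let ψ : N →* Abelianization N := (Abelianization.of.comp α) / Abelianization.of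
  have hψ : ∀ n : N, ψ n = Abelianization.of (α n * n⁻¹) := by
    intro n
    show Abelianization.of (α n) / Abelianization.of n = _
    rw [map_mul, map_inv, div_eq_mul_inv]
  have hker : ∀ n : N, n ∈ ψ.ker ↔
      x * n * x⁻¹ * (n : P)⁻¹ ∈ (commutator N).map N.subtype := by
    intro n
    rw [MonoidHom.mem_ker, hψ, ← MonoidHom.mem_ker, Abelianization.ker_of,
      ← Subgroup.mem_map_iff_mem N.subtype_injective]
    have : N.subtype (α n * n⁻¹) = x * n * x⁻¹ * (n : P)⁻¹ := by
      simp [hα]
    rw [this]
  have hcard : Nat.card {n : N // x * n * x⁻¹ * (n : P)⁻¹ ∈ (commutator N).map N.subtype} =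
      Nat.card ψ.ker :=
    Nat.card_congr (Equiv.subtypeEquivRight fun n => (hker n).symm)
  set K₀ : Subgroup N := ψ.range.comap Abelianization.of with hK₀
  set K : Subgroup P := K₀.map N.subtype with hK
  have hmapcomm : (commutator N).map N.subtype = ⁅N, N⁆ := Subgroup.map_subtype_commutator N
  have hKN : K ≤ N := Subgroup.map_subtype_le K₀
  have hD0 : commutator N ≤ K₀ := by
    intro d hd
    rw [hK₀, Subgroup.mem_comap]
    have : Abelianization.of d = 1 := by
      rw [← MonoidHom.mem_ker, Abelianization.ker_of]; exact hd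
    rw [this]
    exact Subgroup.one_mem _
  have hDK : ⁅N, N⁆ ≤ K := by
    rw [← hmapcomm]
    exact Subgroup.map_mono hD0
  have hxK : ∀ n ∈ N, ⁅x, n⁆ ∈ K := by
    intro n hn
    have h1 : ⁅x, n⁆ = N.subtype (α ⟨n, hn⟩ * (⟨n, hn⟩ : N)⁻¹) := by
      simp [hα, commutatorElement_def]
    rw [h1]
    apply Subgroup.mem_map_of_mem
    rw [hK₀, Subgroup.mem_comap, ← hψ]
    exact ⟨_, rfl⟩
  have hgen : ∀ H : Subgroup P, N ≤ H → x ∈ H → H = ⊤ :=
    fun H => eq_top_of_le_of_mem hp N hN x hx H
  have hle : commutator P ≤ K := commutator_le_of_gen N x hgen K hKN hDK hxK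
  have hge : K ≤ commutator P := by
    rintro _ ⟨k₀, hk₀, rfl⟩
    have hk₀' : Abelianization.of k₀ ∈ ψ.range := hk₀
    obtain ⟨m, hm⟩ := hk₀'
    rw [hψ] at hm
    have hd : (α m * m⁻¹)⁻¹ * k₀ ∈ commutator N := by
      rw [← Abelianization.ker_of, MonoidHom.mem_ker, map_mul, map_inv, hm, inv_mul_cancel]
    have h1 : N.subtype k₀ = ⁅x, (m : P)⁆ * N.subtype ((α m * m⁻¹)⁻¹ * k₀) := by
      simp only [Subgroup.subtype_apply, Subgroup.coe_mul, Subgroup.coe_inv, hα,
        commutatorElement_def]
      group
    rw [h1]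
    apply Subgroup.mul_mem
    · rw [_root_.commutator_def]
      exact commutator_mem_commutator (mem_top _) (mem_top _)
    · have h2 : N.subtype ((α m * m⁻¹)⁻¹ * k₀) ∈ (commutator N).map N.subtype :=
        Subgroup.mem_map_of_mem _ hd
      rw [hmapcomm] at h2
      rw [_root_.commutator_def]
      exact Subgroup.commutator_mono le_top le_top h2
  have heq : commutator P = K := le_antisymm hle hge
  have hidxK : K.index = ψ.range.index * p := by
    rw [hK, Subgroup.index_map_subtype, hN, hK₀,
      Subgroup.index_comap_of_surjective _ (QuotientGroup.mk_surjective)]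
  have e1 : ψ.range.index * Nat.card ψ.range = Nat.card (Abelianization N) :=
    Subgroup.index_mul_card _
  have e2 : Nat.card ψ.range * Nat.card ψ.ker = Nat.card N := by
    rw [← Subgroup.index_ker, Subgroup.index_mul_card]
  have e3 : Nat.card (Abelianization N) * Nat.card (commutator N) = Nat.card N := by
    have : Nat.card (Abelianization N) = (commutator N).index := rfl
    rw [this, Subgroup.index_mul_card]
  have hr : 0 < Nat.card ψ.range := Nat.card_pos
  have e4 : ψ.range.index * Nat.card (commutator N) = Nat.card ψ.ker := by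
    apply Nat.eq_of_mul_eq_mul_left hr
    calc Nat.card ψ.range * (ψ.range.index * Nat.card (commutator N))
        = (ψ.range.index * Nat.card ψ.range) * Nat.card (commutator N) := by ring
      _ = Nat.card ψ.range * Nat.card ψ.ker := by rw [e1, e3, e2]
  rw [heq, hidxK, hcard, ← e4]
  ring

/-- Let p be a prime, P a finite p-group and N a normal subgroup of P of index p. For x ∈ P write c(x) for the number of elements n of N whose commutator x n x⁻¹ n⁻¹ lies in the derived subgroup N' (so c(x)/#N' is the order of the centralizer of x acting on N/N'). Then [P : P'] = p² if and only if c(x) = p·#N' for every x ∈ P outside N, and also if and only if c(x) = p·#N' for some x ∈ P outside N. -/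
theorem result {P : Type*} [Group P] [Finite P] (p : ℕ) [Fact p.Prime] (hP : IsPGroup p P) (N : Subgroup P) [N.Normal] (hN : N.index = p) :
    ((commutator P).index = p ^ 2 ↔ ∀ x : P, x ∉ N →
        Nat.card {n : N // x * n * x⁻¹ * (n : P)⁻¹ ∈ (commutator N).map N.subtype} = p * Nat.card (commutator N)) ∧
    ((commutator P).index = p ^ 2 ↔ ∃ x : P, x ∉ N ∧
        Nat.card {n : N // x * n * x⁻¹ * (n : P)⁻¹ ∈ (commutator N).map N.subtype} = p * Nat.card (commutator N)) := by
  have hp : p.Prime := Fact.out
  have hd : 0 < Nat.card (commutator N) := Nat.card_pos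
  have key : ∀ x : P, x ∉ N → ((commutator P).index = p ^ 2 ↔
      Nat.card {n : N // x * n * x⁻¹ * (n : P)⁻¹ ∈ (commutator N).map N.subtype} =
        p * Nat.card (commutator N)) := by
    intro x hx
    have h := index_commutator_mul p hp N hN x hx
    constructor
    · intro h2
      rw [h2] at h
      apply Nat.eq_of_mul_eq_mul_left hp.pos
      rw [← h]; ring
    · intro h2
      rw [h2] at h
      apply Nat.eq_of_mul_eq_mul_right hd
      rw [h]; ring
  have hNtop : N ≠ ⊤ := by
    intro h
    rw [h, index_top] at hN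
    exact hp.one_lt.ne hN
  obtain ⟨x₀, hx₀⟩ := Cfsg.Agent.S4584.exists_not_mem_of_ne_top N hNtop
  refine ⟨⟨fun h x hx => (key x hx).mp h, fun h => (key x₀ hx₀).mpr (h x₀ hx₀)⟩,
    ⟨fun h => ⟨x₀, hx₀, (key x₀ hx₀).mp h⟩, fun ⟨x, hx, h⟩ => (key x hx).mpr h⟩⟩

end Cfsg.Agent.S4586
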