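import Mathlib
import Cfsg.Statements.S4593
import Cfsg.Agent.S0215
import Cfsg.Agent.Lib.Helper10.AutSyl

set_option autoImplicit false
open Cfsg
open scoped Pointwise

namespace Cfsg.Agent.S4593

/-- Let G be a finite group with trivial centre and no nontrivial normal subgroup of odd order, whose Sylow 2-subgroups are abelian, and let P be a Sylow 2-subgroup. Every automorphism of G of 2-power order that fixes P elementwise is inner. -/
theorem result {G : Type*} [Group G] [Finite G] (hZ : Subgroup.center G = ⊥) (hcore : Cfsg.pPrimeCore 2 G = ⊥) (P : Sylow 2 G) (hab : IsMulCommutative (P : Subgroup G))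
    (α : MulAut G) (h2 : ∃ j : ℕ, orderOf α = 2 ^ j) (hfix : ∀ x ∈ (P : Subgroup G), α x = x) :
    ∃ g : G, ∀ x : G, α x = g * x * g⁻¹ := by
  classical
  obtain ⟨j, hj⟩ := h2
  -- conj is injective
  have hinj : Function.Injective (MulAut.conj : G →* MulAut G) := by
    rw [injective_iff_map_eq_one]
    intro g hg
    have hmem : g ∈ Subgroup.center G := by
      rw [Subgroup.mem_center_iff]
      intro h
      have h1 := congrArg (fun f : MulAut G => f h) hg
      simp only [MulAut.conj_apply, MulAut.one_apply] at h1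
      calc h * g = (g * h * g⁻¹) * g := by rw [h1]
        _ = g * h := by group
    rw [hZ] at hmem
    exact Subgroup.mem_bot.mp hmem
  have hconj : ∀ (β : MulAut G) (g : G), β * MulAut.conj g * β⁻¹ = MulAut.conj (β g) := by
    intro β g
    apply MulEquiv.ext
    intro h
    simp [MulAut.conj_apply]
  let I₀ : Subgroup (MulAut G) := (MulAut.conj : G →* MulAut G).range
  haveI hI₀n : I₀.Normal := ⟨by
    rintro _ ⟨g, rfl⟩ β
    exact ⟨β g, (hconj β g).symm⟩⟩
  let Γ₀ : Subgroup (MulAut G) := I₀ ⊔ Subgroup.zpowers α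
  have hαΓ : α ∈ Γ₀ := (le_sup_right : Subgroup.zpowers α ≤ Γ₀) (Subgroup.mem_zpowers α)
  have hIΓ : I₀ ≤ Γ₀ := le_sup_left
  let a : ↥Γ₀ := ⟨α, hαΓ⟩
  let I : Subgroup ↥Γ₀ := I₀.subgroupOf Γ₀
  haveI hIn : I.Normal := inferInstance
  let PA : Subgroup (MulAut G) := (P : Subgroup G).map (MulAut.conj : G →* MulAut G)
  let P₀ : Subgroup ↥Γ₀ := PA.subgroupOf Γ₀
  have hPAI : PA ≤ I₀ := by
    rintro _ ⟨x, -, rfl⟩
    exact ⟨x, rfl⟩
  have key : a ∈ I := by
    refine Cfsg.Agent.Lib.Helper10.AutSyl.abstract_main (Γ := ↥Γ₀)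
      (fun P u hu huP hiso => Cfsg.Agent.S0215.result P u hu huP hiso) I a j ?_ ?_ P₀ ?_ ?_ ?_ ?_ ?_ ?_ ?_
    · -- a ^ 2^j = 1
      apply Subtype.ext
      show α ^ (2 ^ j) = 1
      rw [← hj]; exact pow_orderOf_eq_one α
    · -- generation
      intro x
      have hx : (x : MulAut G) ∈ (I₀ : Set (MulAut G)) * (Subgroup.zpowers α : Set (MulAut G)) := by
        rw [← Subgroup.normal_mul]; exact x.2
      obtain ⟨i, hi, b, hb, hib⟩ := Set.mem_mul.mp hx
      obtain ⟨k, rfl⟩ := Subgroup.mem_zpowers_iff.mp hb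
      refine ⟨⟨i, hIΓ hi⟩, Subgroup.mem_subgroupOf.mpr hi, k, ?_⟩
      apply Subtype.ext
      show (x : MulAut G) = i * ((a ^ k : ↥Γ₀) : MulAut G)
      rw [Subgroup.coe_zpow]; exact hib.symm
    · -- P₀ ≤ I
      intro x hx
      exact Subgroup.mem_subgroupOf.mpr (hPAI (Subgroup.mem_subgroupOf.mp hx))
    · -- P₀ is a 2-group
      have h1 : IsPGroup 2 PA := P.2.map _
      exact h1.comap_of_injective Γ₀.subtype Subtype.val_injective
    · -- maximality
      intro Q hQ hQI hPQ x hx
      have hxI : (x : MulAut G) ∈ I₀ := Subgroup.mem_subgroupOf.mp (hQI hx)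
      obtain ⟨g, hg⟩ := hxI
      let QG : Subgroup G := (Q.map Γ₀.subtype).comap (MulAut.conj : G →* MulAut G)
      have hQG2 : IsPGroup 2 QG :=
        (hQ.map Γ₀.subtype).comap_of_injective _ hinj
      have hPQG : (P : Subgroup G) ≤ QG := by
        intro y hy
        have hy' : (MulAut.conj y : MulAut G) ∈ PA := ⟨y, hy, rfl⟩
        have hyΓ : (MulAut.conj y : MulAut G) ∈ Γ₀ := hIΓ (hPAI hy')
        have : (⟨MulAut.conj y, hyΓ⟩ : ↥Γ₀) ∈ Q := hPQ (Subgroup.mem_subgroupOf.mpr hy')
        exact ⟨⟨MulAut.conj y, hyΓ⟩, this, rfl⟩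
      have hQGP : QG = (P : Subgroup G) := P.3 hQG2 hPQG
      have hgQ : g ∈ QG := by
        show MulAut.conj g ∈ Q.map Γ₀.subtype
        rw [hg]; exact ⟨x, hx, rfl⟩
      rw [hQGP] at hgQ
      apply Subgroup.mem_subgroupOf.mpr
      rw [← hg]
      exact ⟨g, hgQ, rfl⟩
    · -- P₀ commutative
      intro x hx y hy
      obtain ⟨u, hu, hux⟩ := Subgroup.mem_subgroupOf.mp hx
      obtain ⟨v, hv, hvy⟩ := Subgroup.mem_subgroupOf.mp hy
      apply Subtype.ext
      show (x : MulAut G) * (y : MulAut G) = (y : MulAut G) * (x : MulAut G)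
      rw [← hux, ← hvy, ← map_mul, ← map_mul]
      have huv : u * v = v * u := by
        have := hab.is_comm.comm (⟨u, hu⟩ : ↥(P : Subgroup G)) ⟨v, hv⟩
        exact congrArg Subtype.val this
      rw [huv]
    · -- a centralizes P₀
      intro x hx
      obtain ⟨u, hu, hux⟩ := Subgroup.mem_subgroupOf.mp hx
      apply Subtype.ext
      show α * (x : MulAut G) = (x : MulAut G) * α
      rw [← hux]
      have h1 := hconj α u
      rw [hfix u hu] at h1
      calc α * MulAut.conj u = (α * MulAut.conj u * α⁻¹) * α := by group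
        _ = MulAut.conj u * α := by rw [h1]
    · -- no normal odd subgroups inside I
      intro M hMn hModd hMI
      let MG : Subgroup G := (M.map Γ₀.subtype).comap (MulAut.conj : G →* MulAut G)
      have hMGn : MG.Normal := ⟨by
        intro g hg h
        show MulAut.conj (h * g * h⁻¹) ∈ M.map Γ₀.subtype
        obtain ⟨m, hm, hmg⟩ := hg
        have hhΓ : (MulAut.conj h : MulAut G) ∈ Γ₀ := hIΓ ⟨h, rfl⟩
        refine ⟨⟨MulAut.conj h, hhΓ⟩ * m * ⟨MulAut.conj h, hhΓ⟩⁻¹, hMn.conj_mem m hm _, ?_⟩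
        show MulAut.conj h * (m : MulAut G) * (MulAut.conj h)⁻¹ = _
        have hmg' : (m : MulAut G) = MulAut.conj g := hmg
        rw [hmg', map_mul, map_mul, map_inv]⟩
      have hMGodd : (Nat.card MG).Coprime 2 := by
        have h1 : Nat.card MG = Nat.card (MG.map (MulAut.conj : G →* MulAut G)) :=
          (Subgroup.card_map_of_injective hinj).symm
        have h2 : MG.map (MulAut.conj : G →* MulAut G) ≤ M.map Γ₀.subtype := by
          rintro _ ⟨g, hg, rfl⟩; exact hg
        have h3 : Nat.card (M.map Γ₀.subtype) = Nat.card M :=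
          Subgroup.card_map_of_injective Subtype.val_injective
        have h4 : Nat.card MG ∣ Nat.card M := by
          rw [h1, ← h3]; exact Subgroup.card_dvd_of_le h2
        exact Nat.Coprime.symm (Nat.coprime_two_left.mpr (Odd.of_dvd_nat hModd h4))
      have hMGbot : MG = ⊥ := by
        have h1 : MG ≤ Cfsg.pPrimeCore 2 G := le_sSup ⟨hMGn, hMGodd⟩
        rw [hcore] at h1
        exact le_bot_iff.mp h1
      rw [eq_bot_iff]
      intro m hm
      obtain ⟨g, hg⟩ := Subgroup.mem_subgroupOf.mp (hMI hm)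
      have hgMG : g ∈ MG := by
        show MulAut.conj g ∈ M.map Γ₀.subtype
        rw [hg]; exact ⟨m, hm, rfl⟩
      rw [hMGbot, Subgroup.mem_bot] at hgMG
      rw [Subgroup.mem_bot]
      apply Subtype.ext
      show (m : MulAut G) = 1
      rw [← hg, hgMG, map_one]
    · -- trivial centre
      intro s hs
      apply Subtype.ext
      show (s : MulAut G) = 1
      apply MulEquiv.ext
      intro g
      have hgΓ : (MulAut.conj g : MulAut G) ∈ Γ₀ := hIΓ ⟨g, rfl⟩
      have h1 := congrArg Subtype.val (hs ⟨MulAut.conj g, hgΓ⟩)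
      have h2 : (s : MulAut G) * MulAut.conj g = MulAut.conj g * (s : MulAut G) := h1
      have h3 := hconj (s : MulAut G) g
      have h4 : MulAut.conj ((s : MulAut G) g) = MulAut.conj g := by
        rw [← h3, h2, mul_inv_cancel_right]
      exact hinj h4
  obtain ⟨g, hg⟩ := Subgroup.mem_subgroupOf.mp key
  refine ⟨g, fun x => ?_⟩
  have hg' : (MulAut.conj g : MulAut G) = α := hg
  rw [← hg', MulAut.conj_apply]

end Cfsg.Agent.S4593
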