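import Cfsg.Statements.S4620
-- import your own Cfsg.Agent.* helpers here
import Mathlib
import Cfsg.Agent.Lib.Helper95.MinNormal

set_option autoImplicit false
open scoped Pointwise
open Cfsg

namespace Cfsg.Agent.S4620

open Cfsg.Agent.Lib.Helper95.MinNormal

section helpers
variable {H : Type*} [Group H] {p : ℕ}

theorem ti_elt [Finite H] [hpf : Fact p.Prime] (P : Sylow p H)
    (hTI : ∀ g : H, g ∉ Subgroup.normalizer ((P : Subgroup H) : Set H) →
      (P : Subgroup H) ⊓ (MulAut.conj g • (P : Subgroup H)) = ⊥)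
    (P' : Sylow p H) (g x : H) (hx1 : x ≠ 1) (hx : x ∈ (P' : Subgroup H))
    (hgx : g * x * g⁻¹ ∈ (P' : Subgroup H)) :
    g ∈ Subgroup.normalizer ((P' : Subgroup H) : Set H) := by
  have base : ∀ g x : H, x ≠ 1 → x ∈ (P : Subgroup H) → g * x * g⁻¹ ∈ (P : Subgroup H) →
      g ∈ Subgroup.normalizer ((P : Subgroup H) : Set H) := by
    intro g x hx1 hx hgx
    by_contra hg
    have h := hTI g hg
    have hmem : g * x * g⁻¹ ∈ (P : Subgroup H) ⊓ (MulAut.conj g • (P : Subgroup H)) :=
      ⟨hgx, Subgroup.smul_mem_pointwise_smul x (MulAut.conj g) _ hx⟩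
    rw [h, Subgroup.mem_bot] at hmem
    apply hx1
    have e : x = g⁻¹ * (g * x * g⁻¹) * g := by group
    rw [e, hmem]; group
  obtain ⟨a, rfl⟩ := MulAction.exists_smul_eq H P P'
  have hmem : ∀ y : H, y ∈ ((a • P : Sylow p H) : Subgroup H) ↔ a⁻¹ * y * a ∈ (P : Subgroup H) := by
    intro y
    rw [Sylow.smul_def, Sylow.pointwise_smul_def, Subgroup.mem_pointwise_smul_iff_inv_smul_mem]
    simp [MulAut.smul_def]
  rw [hmem] at hx hgx
  have h1 : a⁻¹ * g * a ∈ Subgroup.normalizer ((P : Subgroup H) : Set H) := by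
    apply base (a⁻¹ * g * a) (a⁻¹ * x * a) _ hx
    · have e : a⁻¹ * g * a * (a⁻¹ * x * a) * (a⁻¹ * g * a)⁻¹ = a⁻¹ * (g * x * g⁻¹) * a := by group
      rw [e]; exact hgx
    · intro h0
      apply hx1
      have e : x = a * (a⁻¹ * x * a) * a⁻¹ := by group
      rw [e, h0]; group
  have h1' : (a⁻¹ * g * a) • P = P := Sylow.smul_eq_iff_mem_normalizer.mpr h1
  have e : g • a • P = a • ((a⁻¹ * g * a) • P) := by
    rw [← mul_smul, ← mul_smul]
    congr 1
    group
  have h2 : g • a • P = a • P := by rw [e, h1']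
  exact Sylow.smul_eq_iff_mem_normalizer.mp h2

theorem mem_sylow_of_normalizer (P' : Sylow p H) (y : H) (hy : orderOf y = p)
    (hn : y ∈ Subgroup.normalizer ((P' : Subgroup H) : Set H)) : y ∈ (P' : Subgroup H) := by
  have hpg : IsPGroup p (Subgroup.zpowers y) :=
    IsPGroup.of_card (n := 1) (by rw [Nat.card_zpowers, hy, pow_one])
  have h := hpg.inf_normalizer_sylow P'
  have hmem : y ∈ Subgroup.zpowers y ⊓ Subgroup.normalizer ((P' : Subgroup H) : Set H) :=
    ⟨Subgroup.mem_zpowers _, hn⟩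
  exact (h.le hmem).2

theorem exists_sylow_mem (y : H) (hy : orderOf y = p) : ∃ P' : Sylow p H, y ∈ (P' : Subgroup H) := by
  have hpg : IsPGroup p (Subgroup.zpowers y) :=
    IsPGroup.of_card (n := 1) (by rw [Nat.card_zpowers, hy, pow_one])
  obtain ⟨P', hP'⟩ := hpg.exists_le_sylow
  exact ⟨P', hP' (Subgroup.mem_zpowers _)⟩

theorem simple_not_le_normalizer [Finite H] [hpf : Fact p.Prime] (T : Subgroup H) (hs : IsSimpleGroup ↥T)
    (hp : p ∣ Nat.card T) (hnp : ¬ IsPGroup p T) (P' : Sylow p H)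
    (hle : T ≤ Subgroup.normalizer ((P' : Subgroup H) : Set H)) : False := by
  have hJn : (((P' : Subgroup H) ⊓ T).subgroupOf T).Normal := by
    rw [Subgroup.normal_subgroupOf_iff_le_normalizer inf_le_right]
    exact (le_inf hle Subgroup.le_normalizer).trans Subgroup.inf_normalizer_le_normalizer_inf
  rcases (Subgroup.isSimpleGroup_iff.mp hs).2 _ inf_le_right hJn with h | h
  · obtain ⟨y, hy⟩ := exists_prime_orderOf_dvd_card' p hp
    have hy' : orderOf (y : H) = p := by rw [← hy]; exact Subgroup.orderOf_coe y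
    have hmem : (y : H) ∈ (P' : Subgroup H) ⊓ T :=
      ⟨mem_sylow_of_normalizer P' _ hy' (hle y.2), y.2⟩
    rw [h, Subgroup.mem_bot] at hmem
    rw [hmem, orderOf_one] at hy'
    exact hpf.out.one_lt.ne' hy'.symm
  · exact hnp (P'.isPGroup'.to_le (h ▸ inf_le_left))

end helpers


/-- Let H be a finite group with no nontrivial normal p-subgroup and no nontrivial normal subgroup of order prime to p, whose Sylow p-subgroup P is nontrivial and a trivial-intersection set (P meets its conjugates by elements outside N_H(P) trivially). Then H has a unique minimal normal subgroup N; N is non-abelian simple with trivial centralizer in H (so H embeds in Aut(N)), and a Sylow p-subgroup of N is again a nontrivial trivial-intersection set in N. -/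
theorem result {H : Type*} [Group H] [Finite H] (p : ℕ) [Fact p.Prime] (hOp : Cfsg.pCore p H = ⊥) (hOp' : Cfsg.pPrimeCore p H = ⊥) (P : Sylow p H) (hP1 : (P : Subgroup H) ≠ ⊥)
    (hTI : ∀ g : H, g ∉ Subgroup.normalizer ((P : Subgroup H) : Set H) → (P : Subgroup H) ⊓ (MulAut.conj g • (P : Subgroup H)) = ⊥) :
    ∃ N : Subgroup H, N.Normal ∧ N ≠ ⊥ ∧ (∀ K : Subgroup H, K.Normal → K ≠ ⊥ → N ≤ K) ∧
      IsSimpleGroup N ∧ ¬ IsMulCommutative N ∧ Subgroup.centralizer (N : Set H) = ⊥ ∧
      ∀ Q : Sylow p N, (Q : Subgroup N) ≠ ⊥ ∧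
        ∀ n : N, n ∉ Subgroup.normalizer ((Q : Subgroup N) : Set N) → (Q : Subgroup N) ⊓ (MulAut.conj n • (Q : Subgroup N)) = ⊥ := by
  classical
  have hp : p.Prime := Fact.out
  have hnoP : ∀ K : Subgroup H, K.Normal → IsPGroup p K → K = ⊥ := by
    intro K hK hKp
    have h : K ≤ Cfsg.pCore p H := le_sSup ⟨hK, hKp⟩
    rw [hOp] at h
    exact eq_bot_iff.mpr h
  have hnoP' : ∀ K : Subgroup H, K.Normal → (Nat.card K).Coprime p → K = ⊥ := by
    intro K hK hKp
    have h : K ≤ Cfsg.pPrimeCore p H := le_sSup ⟨hK, hKp⟩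
    rw [hOp'] at h
    exact eq_bot_iff.mpr h
  have hdvd : ∀ K : Subgroup H, K.Normal → K ≠ ⊥ → p ∣ Nat.card K := by
    intro K hK hK1
    by_contra hnd
    exact hK1 (hnoP' K hK ((Nat.Prime.coprime_iff_not_dvd hp).mpr hnd).symm)
  have htop : (⊤ : Subgroup H) ≠ ⊥ := by
    intro h
    apply hP1
    rw [eq_bot_iff, ← h]
    exact le_top
  have hS : ∃ k : ℕ, ∃ K : Subgroup H, (K.Normal ∧ K ≠ ⊥) ∧ Nat.card K = k :=
    ⟨_, ⊤, ⟨inferInstance, htop⟩, rfl⟩
  obtain ⟨N, ⟨hNn, hN1⟩, hNmin⟩ : ∃ N : Subgroup H, (N.Normal ∧ N ≠ ⊥) ∧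
      ∀ K : Subgroup H, K.Normal → K ≠ ⊥ → Nat.card N ≤ Nat.card K := by
    obtain ⟨K, hK, hKc⟩ := Nat.find_spec hS
    refine ⟨K, hK, fun K' h1 h2 => ?_⟩
    rw [hKc]
    exact Nat.find_min' hS ⟨K', ⟨h1, h2⟩, rfl⟩
  have hmin : ∀ M : Subgroup H, M.Normal → M ≤ N → M = ⊥ ∨ M = N := by
    intro M hM hMN
    by_cases h0 : M = ⊥
    · left; exact h0
    · right; exact Subgroup.eq_of_le_of_card_ge hMN (hNmin M hM h0)
  have hpN : p ∣ Nat.card N := hdvd N hNn hN1
  have hNnp : ¬ IsPGroup p N := fun h => hN1 (hnoP N hNn h)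
  obtain ⟨T₀, hT₀N, hT₀1, hsimple, hT₀NN, ⟨m, hm, ⟨e⟩⟩, hcase⟩ := structure_thm N hN1 hmin
  have hcardN : Nat.card N = Nat.card T₀ ^ m := by
    rw [Nat.card_congr e.toEquiv, Nat.card_fun, Nat.card_fin]
  have hpT : p ∣ Nat.card T₀ := hp.dvd_of_dvd_pow (hcardN ▸ hpN)
  have hTnp : ¬ IsPGroup p T₀ := by
    intro h
    apply hNnp
    obtain ⟨k, hk⟩ := IsPGroup.iff_card.mp h
    exact IsPGroup.of_card (n := k * m) (by rw [hcardN, hk, pow_mul])
  have hTN : T₀ = N := by
    rcases hcase with h | ⟨T₁, hT₁N, hT₁card, hdisj, hcomm⟩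
    · exact h
    · exfalso
      have hpT₁ : p ∣ Nat.card T₁ := hT₁card ▸ hpT
      obtain ⟨x, hx⟩ := exists_prime_orderOf_dvd_card' p hpT₁
      have hx' : orderOf (x : H) = p := by rw [← hx]; exact Subgroup.orderOf_coe x
      have hx1 : (x : H) ≠ 1 := by
        intro h0
        rw [h0, orderOf_one] at hx'
        exact hp.one_lt.ne' hx'.symm
      obtain ⟨P', hxP'⟩ := exists_sylow_mem (x : H) hx'
      have hle : T₀ ≤ Subgroup.normalizer ((P' : Subgroup H) : Set H) := by
        intro t ht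
        apply ti_elt P hTI P' t x hx1 hxP'
        have h := hcomm x x.2 t ht
        rw [← h, mul_inv_cancel_right]
        exact hxP'
      exact simple_not_le_normalizer T₀ hsimple hpT hTnp P' hle
  have hNsimple : IsSimpleGroup ↥N := hTN ▸ hsimple
  have huniq : ∀ K : Subgroup H, K.Normal → K ≠ ⊥ → N ≤ K := by
    intro K hK hK1
    by_contra hNK
    have hinf : N ⊓ K = ⊥ := by
      rcases hmin (N ⊓ K) (Subgroup.normal_inf_normal N K) inf_le_left with h | h
      · exact h
      · exact absurd (h ▸ inf_le_right) hNK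
    have hcomm : ∀ a ∈ K, ∀ b ∈ N, a * b = b * a :=
      comm_of_disj ⊤ K N le_top le_top (fun n _ x hx => hK.conj_mem x hx n)
        (fun n _ x hx => hNn.conj_mem x hx n) (by rw [inf_comm]; exact hinf)
    obtain ⟨x, hx⟩ := exists_prime_orderOf_dvd_card' p (hdvd K hK hK1)
    have hx' : orderOf (x : H) = p := by rw [← hx]; exact Subgroup.orderOf_coe x
    have hx1 : (x : H) ≠ 1 := by
      intro h0
      rw [h0, orderOf_one] at hx'
      exact hp.one_lt.ne' hx'.symm
    obtain ⟨P', hxP'⟩ := exists_sylow_mem (x : H) hx'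
    have hle : N ≤ Subgroup.normalizer ((P' : Subgroup H) : Set H) := by
      intro t ht
      apply ti_elt P hTI P' t x hx1 hxP'
      have h := hcomm x x.2 t ht
      rw [← h, mul_inv_cancel_right]
      exact hxP'
    exact simple_not_le_normalizer N hNsimple hpN hNnp P' hle
  have hnab : ¬ IsMulCommutative ↥N := by
    intro hc
    let _ : CommGroup ↥N := { (inferInstance : Group ↥N) with mul_comm := hc.is_comm.comm }
    have hprime : (Nat.card ↥N).Prime := IsSimpleGroup.prime_card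
    have hcard : Nat.card ↥N = p := ((Nat.prime_dvd_prime_iff_eq hp hprime).mp hpN).symm
    exact hNnp (IsPGroup.of_card (n := 1) (by rw [hcard, pow_one]))
  have hcent : Subgroup.centralizer (N : Set H) = ⊥ := by
    by_contra h0
    have hle := huniq _ inferInstance h0
    apply hnab
    exact ⟨⟨fun a b => Subtype.ext (Subgroup.mem_centralizer_iff.mp (hle b.2) a a.2)⟩⟩
  refine ⟨N, hNn, hN1, huniq, hNsimple, hnab, hcent, ?_⟩
  intro Q
  constructor
  · exact Q.ne_bot_of_dvd_card hpN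
  · intro n hn
    by_contra hne
    apply hn
    obtain ⟨y, hy, hy1⟩ : ∃ y ∈ (Q : Subgroup N) ⊓ (MulAut.conj n • (Q : Subgroup N)), y ≠ 1 := by
      by_contra hall
      push Not at hall
      apply hne
      rw [eq_bot_iff]
      intro y hy
      exact Subgroup.mem_bot.mpr (hall y hy)
    have hz : n⁻¹ * y * n ∈ (Q : Subgroup N) := by
      have h := Subgroup.mem_pointwise_smul_iff_inv_smul_mem.mp hy.2
      simpa [MulAut.smul_def] using h
    obtain ⟨P', hP'⟩ := (Q.isPGroup'.map N.subtype).exists_le_sylow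
    have hQeq : ∀ w : ↥N, w ∈ (Q : Subgroup N) ↔ (w : H) ∈ (P' : Subgroup H) := by
      intro w
      constructor
      · intro hw
        exact hP' ⟨w, hw, rfl⟩
      · intro hw
        have hpg : IsPGroup p ((P' : Subgroup H).subgroupOf N) := P'.isPGroup'.comap_subtype
        have hle : (Q : Subgroup N) ≤ (P' : Subgroup H).subgroupOf N :=
          fun w hw => hP' ⟨w, hw, rfl⟩
        have h := Q.3 hpg hle
        rw [← h]
        exact hw
    have hnN : (n : H) ∈ Subgroup.normalizer ((P' : Subgroup H) : Set H) := by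
      apply ti_elt P hTI P' (n : H) ((n⁻¹ * y * n : N) : H) ?_ ((hQeq _).mp hz) ?_
      · intro h0
        apply hy1
        have h0' : n⁻¹ * y * n = 1 := Subtype.ext h0
        have e : y = n * (n⁻¹ * y * n) * n⁻¹ := by group
        rw [e, h0']; group
      · have e : (n : H) * ((n⁻¹ * y * n : N) : H) * (n : H)⁻¹ = (y : H) := by
          push_cast
          group
        rw [e]
        exact (hQeq y).mp hy.1
    rw [Subgroup.mem_normalizer_iff]
    intro w
    rw [hQeq, hQeq]
    have h := Subgroup.mem_normalizer_iff.mp hnN (w : H)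
    simpa using h

end Cfsg.Agent.S4620
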