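import Cfsg.Statements.S4629
import Mathlib
import Cfsg.Agent.Lib.Helper42.OFinal
import Cfsg.Agent.Lib.Helper42.OForm
import Cfsg.Agent.Lib.Helper14.OrthIndex
import Cfsg.Agent.Lib.Helper44.NegPairs
import Cfsg.Agent.Lib.Helper45.OrthCard

set_option autoImplicit false
open Cfsg

namespace Cfsg.Agent.S4629

/-- The `2`-part of `|O_{2m+1}(q)|`. -/
theorem v2_card_odd {F : Type*} [Field F] [Fintype F] (hF : Odd (Fintype.card F)) (m : ℕ) :
    (Nat.card ↥(Cfsg.isometryGroup F (Cfsg.quadFormOdd m F))).factorization 2 =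
      1 + (m * (padicValNat 2 (Fintype.card F - 1) + padicValNat 2 (Fintype.card F + 1)) +
        padicValNat 2 m.factorial) := by
  have hq1 : 1 < Fintype.card F := Fintype.one_lt_card
  have hq3 : 3 ≤ Fintype.card F := by
    obtain ⟨k, hk⟩ := hF
    omega
  have hc := Cfsg.Agent.Lib.Helper45.OrthCard.card_odd (F := F) rfl hF m
  have hpos : 0 < Nat.card ↥(Cfsg.isometryGroup F (Cfsg.quadFormOdd m F)) := Nat.card_pos
  rw [hc, mul_assoc] at hpos
  have hne : Fintype.card F ^ (m ^ 2) *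
      ∏ i ∈ Finset.range m, (Fintype.card F ^ (2 * (i + 1)) - 1) ≠ 0 := by
    intro h
    rw [h] at hpos
    omega
  rw [hc, mul_assoc, Nat.factorization_def _ Nat.prime_two, padicValNat.mul (by norm_num) hne,
    padicValNat.self (by norm_num), Cfsg.Agent.Lib.Helper42.SylE.v2_sp _ hF hq3 m]

/-- Let F be a finite field of odd order and m ≥ 3. For the commutator subgroup Ω of the isometry group of the non-singular quadratic form x₀² + Σ x_i y_i in dimension 2m + 1 over F, a Sylow 2-subgroup P of Ω has P/P' elementary abelian: the square of every element of P lies in the derived subgroup of P. -/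
theorem result {F : Type*} [Field F] [Fintype F] (hF : Odd (Fintype.card F)) (m : ℕ) (hm : 3 ≤ m) (P : Sylow 2 (Cfsg.Omega F (Cfsg.quadFormOdd m F))) : ∀ x : (P : Subgroup (Cfsg.Omega F (Cfsg.quadFormOdd m F))), x ^ 2 ∈ commutator (P : Subgroup (Cfsg.Omega F (Cfsg.quadFormOdd m F))) := by
  have h2 : (2 : F) ≠ 0 := Cfsg.Agent.Lib.Helper37.RankTools.two_ne_zero_of_odd_card hF
  obtain ⟨c, e, he⟩ := Cfsg.Agent.Lib.Helper42.OForm.form_const_odd hF m
  have hn : 2 ≤ Fintype.card (Unit ⊕ (Fin m ⊕ Fin m)) := by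
    simp only [Fintype.card_sum, Fintype.card_unit, Fintype.card_fin]
    omega
  have hN : Fintype.card (Unit ⊕ (Fin m ⊕ Fin m)) = 2 * m + 1 := by
    simp only [Fintype.card_sum, Fintype.card_unit, Fintype.card_fin]
    omega
  have h4 : (commutator ↥(Cfsg.isometryGroup F (Cfsg.quadFormOdd m F))).index = 4 :=
    Cfsg.Agent.Lib.Helper14.OrthIndex.index_omega h2 (Cfsg.Agent.Lib.Helper44.NegPairs.oddQ m F)
      (Cfsg.Agent.Lib.Helper44.NegPairs.sep_oddQ h2 m) hn
  have hsq : ∀ g : ↥(Cfsg.isometryGroup F (Cfsg.quadFormOdd m F)),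
      g * g ∈ commutator ↥(Cfsg.isometryGroup F (Cfsg.quadFormOdd m F)) := fun g =>
    Cfsg.Agent.Lib.Helper14.OrthIndex.sq_mem_omega h2
      (Cfsg.Agent.Lib.Helper44.NegPairs.oddQ m F)
      (Cfsg.Agent.Lib.Helper44.NegPairs.sep_oddQ h2 m) hn g
  exact Cfsg.Agent.Lib.Helper42.OFinal.final_odd hF h2 (Cfsg.quadFormOdd m F) m (by omega) hN c
    ⟨e, he⟩ h4 hsq (v2_card_odd hF m) P

end Cfsg.Agent.S4629
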