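import Cfsg.Statements.S4632
import Mathlib
import Cfsg.Agent.Lib.Helper42.G2Asm
import Cfsg.Agent.Lib.Helper20.IdemCard
import Cfsg.Agent.Lib.Helper49.G2Trans
import Cfsg.Agent.Lib.Helper14.G2Stab

set_option autoImplicit false
open Cfsg

namespace Cfsg.Agent.S4632

/-- Let F be a finite field of odd order and G₂(F) the automorphism group of the split octonion algebra over F (realized on F⁸ with the Zorn vector-matrix multiplication). A Sylow 2-subgroup P of G₂(F) has P/P' elementary abelian: the square of every element of P lies in the derived subgroup of P. -/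
theorem result {F : Type*} [Field F] [Fintype F] (hF : Odd (Fintype.card F)) (P : Sylow 2 (Cfsg.Lie.G2 F)) : ∀ x : (P : Subgroup (Cfsg.Lie.G2 F)), x ^ 2 ∈ commutator (P : Subgroup (Cfsg.Lie.G2 F)) :=
  Cfsg.Agent.Lib.Helper42.G2Asm.main hF Cfsg.Agent.Lib.Helper20.IdemCard.idem_card
    (fun e he => Cfsg.Agent.Lib.Helper49.G2Trans.idem_trans e he)
    (fun S hS hfix => Cfsg.Agent.Lib.Helper14.G2Stab.stab_card_dvd S hS hfix) P

end Cfsg.Agent.S4632
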