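import Cfsg.Statements.S4675
import Cfsg.Agent.Lib.Helper82.BlockDim
import Cfsg.Agent.S4491
import Cfsg.Agent.S0968
import Cfsg.Agent.Lib.Helper16.Defect

set_option autoImplicit false
open Cfsg

namespace Cfsg.Agent.S4675

open Cfsg.Agent.Lib.Helper82.Contrib
open Cfsg.Agent.Lib.Helper82.BlockDim
open Cfsg.Agent.Lib.Helper77.LocalRing

/-- Bezout for a finite family of natural numbers. -/
theorem bezout_finset {ι : Type*} [DecidableEq ι] (s : Finset ι) (f : ι → ℕ) :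
    ∃ n : ι → ℤ, ∑ i ∈ s, n i * (f i : ℤ) = ((s.gcd f : ℕ) : ℤ) := by
  induction s using Finset.induction_on with
  | empty => exact ⟨fun _ => 0, by simp⟩
  | insert a s ha ih =>
    obtain ⟨n, hn⟩ := ih
    refine ⟨fun i => if i = a then Nat.gcdA (f a) (s.gcd f)
      else Nat.gcdB (f a) (s.gcd f) * n i, ?_⟩
    rw [Finset.sum_insert ha, Finset.gcd_insert]
    simp only [if_true]
    have h1 : ∑ i ∈ s, (if i = a then Nat.gcdA (f a) (s.gcd f)
        else Nat.gcdB (f a) (s.gcd f) * n i) * (f i : ℤ)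
        = Nat.gcdB (f a) (s.gcd f) * ∑ i ∈ s, n i * (f i : ℤ) := by
      rw [Finset.mul_sum]
      refine Finset.sum_congr rfl fun i hi => ?_
      have hia : i ≠ a := fun h => ha (h ▸ hi)
      rw [if_neg hia]
      ring
    rw [h1, hn]
    have h2 := Nat.gcd_eq_gcd_ab (f a) (s.gcd f)
    have h3 : GCDMonoid.gcd (f a) (s.gcd f) = Nat.gcd (f a) (s.gcd f) := rfl
    rw [h3, h2]
    ring

/-- A `finsum` over a set of a fintype as a filtered finite sum. -/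
theorem finsum_mem_eq_sum_filter' {ι : Type*} [Fintype ι] {α : Type*} [AddCommMonoid α]
    (B : Set ι) [DecidablePred (· ∈ B)] (f : ι → α) :
    ∑ᶠ χ ∈ B, f χ = ∑ χ ∈ Finset.univ.filter (· ∈ B), f χ := by
  rw [finsum_mem_def, finsum_eq_sum_of_fintype, Finset.sum_filter]
  refine Finset.sum_congr rfl fun χ _ => ?_
  by_cases h : χ ∈ B <;> simp [h]

/-- Fix a prime p and a maximal ideal M of the algebraic integers containing p. Let B be a p-block of the finite group G with defect group P and p-regular rank one (a single irreducible Brauer character). Then there are a function φ on G that is, on the p-regular elements, an integer combination of the members of B, and natural numbers d_χ (χ ∈ B), such that every χ ∈ B agrees with d_χ·φ on the p-regular elements and Σ_{χ ∈ B} d_χ² equals the order of P (the single Cartan invariant of B is the order of P). -/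
theorem result {G : Type*} [Group G] [Fintype G] (p : ℕ) [Fact p.Prime] (M : Ideal Cfsg.AlgInt) (hM : Cfsg.IsPModular p M) (B : Set (Cfsg.IrrCharacter G)) (hB : Cfsg.IsPBlock M B) (P : Subgroup G) (hP : Cfsg.IsDefectGroup p M B P) (hl : Cfsg.blockRank p B = 1) : ∃ φ : G → ℂ, ∃ d : Cfsg.IrrCharacter G → ℕ, (∃ n : Cfsg.IrrCharacter G → ℤ, ∀ x : G, Cfsg.IsPRegular p x → φ x = ∑ᶠ ψ ∈ B, (n ψ : ℂ) * (ψ : G → ℂ) x) ∧ (∀ χ ∈ B, ∀ x : G, Cfsg.IsPRegular p x → (χ : G → ℂ) x = (d χ : ℂ) * φ x) ∧ ∑ᶠ χ ∈ B, d χ ^ 2 = Nat.card P := by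
  classical
  have hpp : p.Prime := Fact.out
  have hMp : M.IsPrime := isPrime_of_isPModular hM
  have := Cfsg.Agent.Lib.CT.Wedderburn.finite_irrCharacter G
  have : Fintype (IrrCharacter G) := Fintype.ofFinite _
  -- a character of minimal `p`-part of the degree
  obtain ⟨χ₀, hχ₀⟩ := Cfsg.Agent.Lib.CT.DefectZeroBlock.isPBlock_nonempty hMp hB
  have hne : ((fun ψ : IrrCharacter G => (charDegree (ψ : G → ℂ)).factorization p) '' B).Nonempty :=
    ⟨_, χ₀, hχ₀, rfl⟩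
  obtain ⟨χ₁, hχ₁, hχ₁e⟩ := Nat.sInf_mem hne
  have hχ₁e' : (charDegree (χ₁ : G → ℂ)).factorization p
      = sInf ((fun ψ : IrrCharacter G => (charDegree (ψ : G → ℂ)).factorization p) '' B) := hχ₁e
  have hmin : ∀ ξ ∈ B, (charDegree (χ₁ : G → ℂ)).factorization p
      ≤ (charDegree (ξ : G → ℂ)).factorization p := by
    intro ξ hξ
    rw [hχ₁e']
    exact Nat.sInf_le ⟨ξ, hξ, rfl⟩
  have hdef : blockDefect p B = (Nat.card G).factorization p
      - (charDegree (χ₁ : G → ℂ)).factorization p := by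
    rw [hχ₁e']
    rfl
  have hea : (charDegree (χ₁ : G → ℂ)).factorization p ≤ (Nat.card G).factorization p :=
    Cfsg.Agent.Lib.CT.DefectZeroBlock.factorization_charDegree_le p χ₁
  -- degrees
  have hdeg : ∀ ψ : IrrCharacter G, (ψ : G → ℂ) 1 = (charDegree (ψ : G → ℂ) : ℂ) := fun ψ =>
    (Cfsg.Agent.Lib.CT.Wedderburn.char_natCast_charDegree
      (Cfsg.Agent.Lib.CT.Wedderburn.isCharacter_of_irr ψ.2)).symm
  have hD0 : ∀ ψ : IrrCharacter G, charDegree (ψ : G → ℂ) ≠ 0 := fun ψ =>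
    (Cfsg.Agent.Lib.CT.Wedderburn.irr_charDegree_pos ψ.2).ne'
  have hD1 : (charDegree (χ₁ : G → ℂ) : ℂ) ≠ 0 := Nat.cast_ne_zero.2 (hD0 χ₁)
  have h1reg : ¬ p ∣ orderOf (1 : G) := by
    rw [orderOf_one]
    exact fun h => hpp.one_lt.ne' (Nat.dvd_one.1 h)
  -- proportionality on the `p`-regular elements
  have hprop : ∀ χ ∈ B, ∀ y : G, ¬ p ∣ orderOf y → (χ : G → ℂ) y
      = ((charDegree (χ : G → ℂ) : ℂ) / (charDegree (χ₁ : G → ℂ) : ℂ)) * (χ₁ : G → ℂ) y := by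
    intro χ hχ y hy
    obtain ⟨c, hc⟩ := Cfsg.Agent.S0968.prop_of_rank_one p B hl χ₁ χ hχ₁ hχ
    have h1 := hc 1 h1reg
    rw [hdeg χ, hdeg χ₁] at h1
    have h2 : c = (charDegree (χ : G → ℂ) : ℂ) / (charDegree (χ₁ : G → ℂ) : ℂ) := by
      rw [h1, mul_div_assoc, div_self hD1, mul_one]
    rw [← h2]
    exact hc y hy
  -- the gcd of the degrees
  obtain ⟨g, hg⟩ : ∃ g, g = (Finset.univ.filter (fun ξ : IrrCharacter G => ξ ∈ B)).gcd
      (fun ξ : IrrCharacter G => charDegree (ξ : G → ℂ)) := ⟨_, rfl⟩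
  have hgdvd : ∀ χ ∈ B, g ∣ charDegree (χ : G → ℂ) := fun χ hχ => by
    rw [hg]
    exact Finset.gcd_dvd (Finset.mem_filter.2 ⟨Finset.mem_univ _, hχ⟩)
  have hg0 : g ≠ 0 := fun h => hD0 χ₁ (Nat.eq_zero_of_zero_dvd (h ▸ hgdvd χ₁ hχ₁))
  have hg0' : (g : ℂ) ≠ 0 := Nat.cast_ne_zero.2 hg0
  obtain ⟨n, hn⟩ := bezout_finset (Finset.univ.filter (fun ξ : IrrCharacter G => ξ ∈ B))
    (fun ξ : IrrCharacter G => charDegree (ξ : G → ℂ))
  rw [← hg] at hn
  have hdg : ∀ χ ∈ B, charDegree (χ : G → ℂ) = g * (charDegree (χ : G → ℂ) / g) := fun χ hχ =>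
    (Nat.mul_div_cancel' (hgdvd χ hχ)).symm
  refine ⟨fun x => ((g : ℂ) / (charDegree (χ₁ : G → ℂ) : ℂ)) * (χ₁ : G → ℂ) x,
    fun χ => charDegree (χ : G → ℂ) / g, ⟨n, ?_⟩, ?_, ?_⟩
  · intro x hx
    rw [finsum_mem_eq_sum_filter']
    have h1 : ∑ ψ ∈ Finset.univ.filter (fun ξ : IrrCharacter G => ξ ∈ B),
        (n ψ : ℂ) * (ψ : G → ℂ) x
        = ∑ ψ ∈ Finset.univ.filter (fun ξ : IrrCharacter G => ξ ∈ B),
          ((n ψ : ℂ) * (charDegree (ψ : G → ℂ) : ℂ))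
            * ((χ₁ : G → ℂ) x / (charDegree (χ₁ : G → ℂ) : ℂ)) := by
      refine Finset.sum_congr rfl fun ψ hψ => ?_
      rw [hprop ψ (Finset.mem_filter.1 hψ).2 x hx]
      ring
    rw [h1, ← Finset.sum_mul]
    have h2 : ((∑ ψ ∈ Finset.univ.filter (fun ξ : IrrCharacter G => ξ ∈ B),
        n ψ * (charDegree (ψ : G → ℂ) : ℤ) : ℤ) : ℂ) = ((g : ℤ) : ℂ) := by rw [hn]
    push_cast at h2
    rw [h2]
    ring
  · intro χ hχ x hx
    rw [hprop χ hχ x hx]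
    have h1 : (charDegree (χ : G → ℂ) : ℂ)
        = (g : ℂ) * ((charDegree (χ : G → ℂ) / g : ℕ) : ℂ) := by
      rw [← Nat.cast_mul, ← hdg χ hχ]
    conv_lhs => rw [h1]
    ring
  · -- the Cartan invariant
    rw [finsum_mem_eq_sum_filter', Cfsg.Agent.Lib.Helper16.Defect.card_defectGroup p hM B hB P hP]
    obtain ⟨a, ha⟩ : ∃ a, a = (Nat.card G).factorization p := ⟨_, rfl⟩
    obtain ⟨e, he⟩ : ∃ e, e = (charDegree (χ₁ : G → ℂ)).factorization p := ⟨_, rfl⟩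
    rw [← ha, ← he] at hdef hea
    -- (A)
    have hA : ∀ χ ∈ B, ∀ ψ : IrrCharacter G, (charDegree (χ₁ : G → ℂ) : ℤ) * ctr p χ ψ
        = (charDegree (χ : G → ℂ) : ℤ) * ctr p χ₁ ψ := by
      intro χ hχ ψ
      have h1 : tw p ((p ^ (Nat.card G).factorization p : ℕ) : ℂ) (χ : G → ℂ)
          = ((charDegree (χ : G → ℂ) : ℂ) / (charDegree (χ₁ : G → ℂ) : ℂ))
            • tw p ((p ^ (Nat.card G).factorization p : ℕ) : ℂ) (χ₁ : G → ℂ) := by
        funext x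
        rw [Pi.smul_apply, tw_apply, tw_apply]
        by_cases hx : p ∣ orderOf x
        · rw [if_pos hx, if_pos hx, smul_zero]
        · rw [if_neg hx, if_neg hx, hprop χ hχ x hx, smul_eq_mul]
          ring
      have h2 : (ctr p χ ψ : ℂ) = ((charDegree (χ : G → ℂ) : ℂ) / (charDegree (χ₁ : G → ℂ) : ℂ))
          * (ctr p χ₁ ψ : ℂ) := by
        rw [← ctr_spec, h1, Cfsg.Agent.Lib.CT.Orth.classInner_smul_left, ctr_spec]
      have h3 : (((charDegree (χ₁ : G → ℂ) : ℤ) * ctr p χ ψ : ℤ) : ℂ)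
          = (((charDegree (χ : G → ℂ) : ℤ) * ctr p χ₁ ψ : ℤ) : ℂ) := by
        push_cast
        rw [h2]
        field_simp
      exact_mod_cast h3
    obtain ⟨t, ht⟩ : ∃ t, t = ctr p χ₁ χ₁ := ⟨_, rfl⟩
    obtain ⟨D₁, hD₁⟩ : ∃ D₁ : ℤ, D₁ = (charDegree (χ₁ : G → ℂ) : ℤ) := ⟨_, rfl⟩
    have hD₁0 : D₁ ≠ 0 := by
      rw [hD₁]
      exact Int.natCast_ne_zero.2 (hD0 χ₁)
    rw [← hD₁] at hA
    have hA' : ∀ ψ ∈ B, D₁ * ctr p χ₁ ψ = (charDegree (ψ : G → ℂ) : ℤ) * t := by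
      intro ψ hψ
      rw [ctr_symm, hA ψ hψ χ₁, ht]
    -- (B)
    have hBB : ∀ χ ∈ B, ∀ ψ ∈ B, D₁ ^ 2 * ctr p χ ψ
        = (charDegree (χ : G → ℂ) : ℤ) * (charDegree (ψ : G → ℂ) : ℤ) * t := by
      intro χ hχ ψ hψ
      calc D₁ ^ 2 * ctr p χ ψ = D₁ * (D₁ * ctr p χ ψ) := by ring
        _ = D₁ * ((charDegree (χ : G → ℂ) : ℤ) * ctr p χ₁ ψ) := by rw [hA χ hχ ψ]
        _ = (charDegree (χ : G → ℂ) : ℤ) * (D₁ * ctr p χ₁ ψ) := by ring
        _ = (charDegree (χ : G → ℂ) : ℤ) * ((charDegree (ψ : G → ℂ) : ℤ) * t) := by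
            rw [hA' ψ hψ]
        _ = (charDegree (χ : G → ℂ) : ℤ) * (charDegree (ψ : G → ℂ) : ℤ) * t := by ring
    -- (I)
    have hI : t * ∑ ψ ∈ Finset.univ.filter (fun ξ : IrrCharacter G => ξ ∈ B),
        (charDegree (ψ : G → ℂ) : ℤ) ^ 2 = (p : ℤ) ^ a * D₁ ^ 2 := by
      have h1 := sum_ctr_mul_deg p χ₁
      rw [← sum_block_eq p hM B hB χ₁ hχ₁, ← ha, ← hD₁] at h1
      calc t * ∑ ψ ∈ Finset.univ.filter (fun ξ : IrrCharacter G => ξ ∈ B),
            (charDegree (ψ : G → ℂ) : ℤ) ^ 2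
          = ∑ ψ ∈ Finset.univ.filter (fun ξ : IrrCharacter G => ξ ∈ B),
            D₁ * (ctr p χ₁ ψ * (charDegree (ψ : G → ℂ) : ℤ)) := by
            rw [Finset.mul_sum]
            refine Finset.sum_congr rfl fun ψ hψ => ?_
            rw [← mul_assoc, hA' ψ (Finset.mem_filter.1 hψ).2]
            ring
        _ = D₁ * ((p : ℤ) ^ a * D₁) := by rw [← Finset.mul_sum, h1]
        _ = (p : ℤ) ^ a * D₁ ^ 2 := by ring
    -- (II)
    obtain ⟨W, hW⟩ : ∃ W : ℤ, W = ∑ χ ∈ Finset.univ.filter (fun ξ : IrrCharacter G => ξ ∈ B),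
        ∑ ψ ∈ Finset.univ.filter (fun ξ : IrrCharacter G => ξ ∈ B),
          n χ * n ψ * ctr p χ ψ := ⟨_, rfl⟩
    have hII : D₁ ^ 2 * W = t * (g : ℤ) ^ 2 := by
      rw [hW, Finset.mul_sum, sq (g : ℤ), ← hn, Finset.sum_mul, Finset.mul_sum]
      refine Finset.sum_congr rfl fun χ hχ => ?_
      rw [Finset.mul_sum, Finset.mul_sum, Finset.mul_sum]
      refine Finset.sum_congr rfl fun ψ hψ => ?_
      have h1 := hBB χ (Finset.mem_filter.1 hχ).2 ψ (Finset.mem_filter.1 hψ).2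
      calc D₁ ^ 2 * (n χ * n ψ * ctr p χ ψ) = n χ * n ψ * (D₁ ^ 2 * ctr p χ ψ) := by ring
        _ = n χ * n ψ * ((charDegree (χ : G → ℂ) : ℤ) * (charDegree (ψ : G → ℂ) : ℤ) * t) := by
            rw [h1]
        _ = t * (n χ * (charDegree (χ : G → ℂ) : ℤ) * (n ψ * (charDegree (ψ : G → ℂ) : ℤ))) := by
            ring
    -- the sum of squares
    obtain ⟨S', hS'⟩ : ∃ S' : ℕ, S' = ∑ χ ∈ Finset.univ.filter (fun ξ : IrrCharacter G => ξ ∈ B),
        (charDegree (χ : G → ℂ) / g) ^ 2 := ⟨_, rfl⟩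
    rw [← hS']
    have hS : ∑ ψ ∈ Finset.univ.filter (fun ξ : IrrCharacter G => ξ ∈ B),
        charDegree (ψ : G → ℂ) ^ 2 = g ^ 2 * S' := by
      rw [hS', Finset.mul_sum]
      refine Finset.sum_congr rfl fun ψ hψ => ?_
      conv_lhs => rw [hdg ψ (Finset.mem_filter.1 hψ).2]
      ring
    have hSZ : ∑ ψ ∈ Finset.univ.filter (fun ξ : IrrCharacter G => ξ ∈ B),
        (charDegree (ψ : G → ℂ) : ℤ) ^ 2 = (g : ℤ) ^ 2 * (S' : ℤ) := by
      exact_mod_cast hS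
    rw [hSZ] at hI
    have h5 : W * (S' : ℤ) = (p : ℤ) ^ a := by
      have hgz : ((g : ℤ) ^ 2 * D₁ ^ 2) ≠ 0 :=
        mul_ne_zero (pow_ne_zero _ (Int.natCast_ne_zero.2 hg0)) (pow_ne_zero _ hD₁0)
      apply mul_left_cancel₀ hgz
      calc (g : ℤ) ^ 2 * D₁ ^ 2 * (W * (S' : ℤ)) = (D₁ ^ 2 * W) * ((g : ℤ) ^ 2 * (S' : ℤ)) := by ring
        _ = t * (g : ℤ) ^ 2 * ((g : ℤ) ^ 2 * (S' : ℤ)) := by rw [hII]
        _ = (g : ℤ) ^ 2 * (t * ((g : ℤ) ^ 2 * (S' : ℤ))) := by ring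
        _ = (g : ℤ) ^ 2 * ((p : ℤ) ^ a * D₁ ^ 2) := by rw [hI]
        _ = (g : ℤ) ^ 2 * D₁ ^ 2 * (p : ℤ) ^ a := by ring
    have h6 : S' ∣ p ^ a := by
      have h7 : (S' : ℤ) ∣ ((p ^ a : ℕ) : ℤ) := by
        push_cast
        exact ⟨W, by rw [← h5]; ring⟩
      exact Int.natCast_dvd_natCast.1 h7
    obtain ⟨j, hja, hj⟩ := (Nat.dvd_prime_pow hpp).1 h6
    rw [hj]
    congr 1
    -- valuations
    have h8 := Cfsg.Agent.S4491.result p M hM B hB
    rw [finsum_mem_eq_sum_filter', hS, hj, ← ha, hdef] at h8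
    have hge : g.factorization p = e := by
      apply le_antisymm
      · rw [he]
        exact (Nat.factorization_le_iff_dvd hg0 (hD0 χ₁)).2 (hgdvd χ₁ hχ₁) p
      · apply (Nat.Prime.pow_dvd_iff_le_factorization hpp hg0).1
        rw [hg]
        apply Finset.dvd_gcd
        intro ψ hψ
        refine dvd_trans (pow_dvd_pow p ?_) (Nat.ordProj_dvd (charDegree (ψ : G → ℂ)) p)
        rw [he]
        exact hmin ψ (Finset.mem_filter.1 hψ).2
    rw [Nat.factorization_mul (pow_ne_zero _ hg0) (pow_ne_zero _ hpp.ne_zero),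
      Nat.factorization_pow, Finsupp.add_apply, Finsupp.smul_apply, hge,
      hpp.factorization_pow, Finsupp.single_eq_same, smul_eq_mul] at h8
    rw [hdef]
    omega

end Cfsg.Agent.S4675
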