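import Cfsg.Statements.S4687
import Cfsg.Agent.Lib.Helper77.BPSub

set_option autoImplicit false
open Cfsg

namespace Cfsg.Agent.S4687

open Cfsg.Agent.Lib.Helper77.LocalRing Cfsg.Agent.Lib.Helper77.BPNormal
  Cfsg.Agent.Lib.Helper77.BPEquiv Cfsg.Agent.Lib.Helper77.BPEquiv2
  Cfsg.Agent.Lib.Helper77.BPConjMax Cfsg.Agent.Lib.Helper77.BPFix
  Cfsg.Agent.Lib.Helper77.BPSub Cfsg.Agent.Lib.Helper33.Conj

/-- Fix a prime p and a maximal ideal M of the algebraic integers containing p, and a p-block B of the finite group G with maximal Brauer pair (P, e), P abelian. Then B is nilpotent if and only if its inertial quotient is trivial: every element of N_G(P) stabilizing e centralizes P. -/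
theorem result {G : Type*} [Group G] [Fintype G] (p : ℕ) [Fact p.Prime] (M : Ideal Cfsg.AlgInt) (hM : Cfsg.IsPModular p M) (B : Set (Cfsg.IrrCharacter G)) (P : Subgroup G) (e : Set (Cfsg.IrrCharacter (Subgroup.centralizer (P : Set G)))) (hmax : Cfsg.IsMaximalBrauerPair p M B P e) (hab : ∀ x ∈ P, ∀ y ∈ P, x * y = y * x) : Cfsg.IsNilpotentBlock p M B ↔ ∀ x : G, x ∈ Subgroup.normalizer (P : Set G) → Cfsg.StabilizesBlock (Subgroup.centralizer (P : Set G)) e x → x ∈ Subgroup.centralizer (P : Set G) := by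
  have hMp := isPrime_of_isPModular hM
  have hp : p.Prime := Fact.out
  have hPe := hmax.1.1
  have hPC : P ≤ Subgroup.centralizer (P : Set G) := by
    intro u hu
    rw [Subgroup.mem_centralizer_iff]
    intro q hq
    exact hab q hq u hu
  constructor
  · intro hnil x hxN hxs
    have hxst : x ∈ stab P e := mem_stab.mpr ⟨hxN, hxs⟩
    obtain ⟨a, b, hb, hab'⟩ := Nat.exists_eq_pow_mul_and_not_dvd (orderOf_pos x).ne' p hp.ne_one
    have h2 : x ^ (p ^ a) ∈ Subgroup.centralizer (P : Set G) := by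
      have hst2 : x ^ (p ^ a) ∈ stab P e := pow_mem hxst _
      refine hnil.2 P e hmax.1 _ (mem_stab.mp hst2).1 (mem_stab.mp hst2).2 ?_
      unfold IsPRegular
      have h3 : orderOf (x ^ (p ^ a)) = b := by
        rw [orderOf_pow' x (pow_ne_zero _ hp.ne_zero), hab', Nat.gcd_eq_right (dvd_mul_right _ _)]
        exact Nat.mul_div_cancel_left _ (pow_pos hp.pos _)
      rw [h3]
      exact hb
    have h1 : x ^ b ∈ Subgroup.centralizer (P : Set G) := by
      have hst1 : x ^ b ∈ stab P e := pow_mem hxst _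
      have hpow : (x ^ b) ^ (p ^ a) = 1 := by
        rw [← pow_mul, mul_comm, ← hab', pow_orderOf_eq_one]
      obtain ⟨u, hu, huc⟩ := mem_mul_of_maximal hM hmax (x ^ b) (mem_stab.mp hst1).1
        (mem_stab.mp hst1).2 a hpow
      have h4 := mul_mem (hPC hu) huc
      rwa [mul_inv_cancel_left] at h4
    have hcop : Nat.Coprime (p ^ a) b :=
      Nat.Coprime.pow_left _ ((Nat.Prime.coprime_iff_not_dvd hp).mpr hb)
    have hbez := Nat.gcd_eq_gcd_ab (p ^ a) b
    rw [hcop.gcd_eq_one] at hbez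
    have hx : x = (x ^ (p ^ a)) ^ (Nat.gcdA (p ^ a) b) * (x ^ b) ^ (Nat.gcdB (p ^ a) b) := by
      rw [← zpow_natCast, ← zpow_natCast, ← zpow_mul, ← zpow_mul, ← zpow_add]
      have h5 : ((p ^ a : ℕ) : ℤ) * Nat.gcdA (p ^ a) b + (b : ℤ) * Nat.gcdB (p ^ a) b = 1 := by
        rw [← hbez]
        rfl
      rw [h5, zpow_one]
    rw [hx]
    exact mul_mem (zpow_mem h2 _) (zpow_mem h1 _)
  · intro h
    refine ⟨hmax.1.2.1, fun Q₀ f₀ hQf x hxN hxs _ => ?_⟩
    obtain ⟨g, hg⟩ := exists_conj_le_of_maximal hM hmax hQf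
    have hfix := cjp_eq_self hxN hxs
    have hfix' : cjp (g * x * g⁻¹) ⟨Q₀.map (MulAut.conj g).toMonoidHom, conjBlock Q₀ g f₀⟩ =
        (⟨Q₀.map (MulAut.conj g).toMonoidHom, conjBlock Q₀ g f₀⟩ : BrauerPairIdx G) := by
      have h1 := cjp_mul hMp g (g * x * g⁻¹) ⟨Q₀, f₀⟩ hQf.1.2
      have h2 : g * x * g⁻¹ * g = g * x := by group
      rw [h2, ← cjp_mul hMp x g ⟨Q₀, f₀⟩ hQf.1.2, hfix] at h1
      exact h1
    obtain ⟨hx'N, hx's⟩ := stabilizes_of_cjp_eq hfix'
    obtain ⟨c, hc, y, hyN, hys, hxy⟩ := exists_mul_of_stab hM hmax hab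
      (isPBlock_conjBlock Q₀ g hQf.1.2) hg _ hx'N hx's
    have hyC := h y hyN hys
    have hQP : Q₀.map (MulAut.conj g).toMonoidHom ≤ P :=
      le_of_subpairLE (p := p) (M := M) ⟨_, _⟩ ⟨P, e⟩ hg
    have h3 : g * x * g⁻¹ ∈ Subgroup.centralizer
        ((Q₀.map (MulAut.conj g).toMonoidHom : Subgroup G) : Set G) := by
      rw [hxy]
      exact mul_mem hc (Subgroup.centralizer_le hQP hyC)
    rw [centralizer_cj, mem_cj] at h3
    have h5 : g⁻¹ * (g * x * g⁻¹) * g = x := by group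
    rwa [h5] at h3

end Cfsg.Agent.S4687
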