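import Cfsg.Statements.S4691
import Cfsg.Agent.Lib.Helper77.BPPrincipal2
import Cfsg.Agent.S0071

set_option autoImplicit false
open Cfsg

namespace Cfsg.Agent.S4691

/-- Fix a prime p and a maximal ideal M of the algebraic integers containing p. A finite group G has a normal p-complement if and only if its principal p-block is nilpotent. -/
theorem result {G : Type*} [Group G] [Fintype G] (p : ℕ) [Fact p.Prime] (M : Ideal Cfsg.AlgInt) (hM : Cfsg.IsPModular p M) : Cfsg.HasNormalPComplement p G ↔ Cfsg.IsNilpotentBlock p M (Cfsg.principalBlock M G) := by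
  have hMp := Cfsg.Agent.Lib.Helper77.LocalRing.isPrime_of_isPModular hM
  have hp : p.Prime := Fact.out
  constructor
  · rintro ⟨P, N, hN, hc⟩
    have hF := (Cfsg.Agent.S0071.result P).mp ⟨N, hN, hc⟩
    refine ⟨Cfsg.Agent.Lib.Helper77.BPPrincipal.isPBlock_principal G,
      fun Q e hQe x hxN _ hreg => ?_⟩
    obtain ⟨y, hy⟩ := Cfsg.Agent.Lib.Helper33.Conj.exists_cj_le_sylow P hQe.1.1
    have h1 : y * x * y⁻¹ ∈ Subgroup.normalizer
        ((Q.map (MulAut.conj y).toMonoidHom : Subgroup G) : Set G) := by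
      rw [Cfsg.Agent.Lib.Helper33.Conj.normalizer_cj]
      exact Cfsg.Agent.Lib.Helper33.Conj.conj_mem_cj hxN
    have h2 : orderOf (y * x * y⁻¹) = orderOf x := by
      have := orderOf_injective (MulAut.conj y).toMonoidHom (MulAut.conj y).injective x
      simpa [MulAut.conj_apply] using this
    have h3 : Nat.Coprime (orderOf (y * x * y⁻¹)) p := by
      rw [h2]
      exact ((Nat.Prime.coprime_iff_not_dvd hp).mpr hreg).symm
    have h4 := hF _ hy _ h1 h3
    rw [Cfsg.Agent.Lib.Helper33.Conj.centralizer_cj, Cfsg.Agent.Lib.Helper33.Conj.mem_cj] at h4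
    have h5 : y⁻¹ * (y * x * y⁻¹) * y = x := by group
    rwa [h5] at h4
  · intro hnil
    obtain ⟨P⟩ : Nonempty (Sylow p G) := inferInstance
    obtain ⟨N, hN, hc⟩ := (Cfsg.Agent.S0071.result P).mpr (by
      intro Q hQP g hgN hcop
      refine hnil.2 Q _ (Cfsg.Agent.Lib.Helper77.BPPrincipal.isBrauerPairOf_principal hM Q
        (P.2.to_le hQP)) g hgN
        (Cfsg.Agent.Lib.Helper77.BPPrincipal2.stabilizesBlock_principal hMp _ g
          (Cfsg.Agent.Lib.Helper77.BPConj.normalizer_le_normalizer_centralizer Q hgN)) ?_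
      exact (Nat.Prime.coprime_iff_not_dvd hp).mp hcop.symm)
    exact ⟨P, N, hN, hc⟩

end Cfsg.Agent.S4691
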