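import Cfsg.Statements.S4713
import Cfsg.Agent.Lib.Helper80.ItoConv
import Cfsg.Agent.S0169

set_option autoImplicit false
open Cfsg

namespace Cfsg.Agent.S4713

/-- Let p be a prime and G a finite p-solvable group. Then G has a normal abelian Sylow p-subgroup if and only if the degree of every irreducible character of G is prime to p. -/
theorem result {G : Type*} [Group G] [Finite G] (p : ℕ) [Fact p.Prime] (hsolv : Cfsg.IsPSolvable p G) (P : Sylow p G) : ((P : Subgroup G).Normal ∧ IsMulCommutative P) ↔ ∀ χ : Cfsg.IrrCharacter G, ¬ p ∣ Cfsg.charDegree (χ : G → ℂ) := by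
  constructor
  · rintro ⟨hPn, hPc⟩ χ hd
    obtain ⟨n, ρ, hρ, hχ⟩ := χ.2
    have := hPn
    have := hρ
    have h1 := Cfsg.Agent.S0169.result ρ (P : Subgroup G) (fun a ha b hb => by
      have h2 : (⟨a, ha⟩ : (P : Subgroup G)) * ⟨b, hb⟩ = ⟨b, hb⟩ * ⟨a, ha⟩ :=
        hPc.is_comm.comm _ _
      exact congrArg Subtype.val h2)
    have h2 : Cfsg.charDegree (χ : G → ℂ) = Module.finrank ℂ (Fin n → ℂ) := by
      rw [← hχ]
      exact Cfsg.Agent.Lib.Helper80.Integrality.charDegree_eq_finrank ρ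
    rw [h2] at hd
    exact P.not_dvd_index (hd.trans h1)
  · intro h
    obtain ⟨Q, hQn, hQc⟩ := Cfsg.Agent.Lib.Helper80.ItoConv.ito_conv_pSolvable p hsolv h
    have hPQ : P = Q := by
      obtain ⟨g, hg⟩ := MulAction.exists_smul_eq G Q P
      rw [← hg]
      exact Sylow.smul_eq_of_normal
    subst hPQ
    refine ⟨hQn, ⟨⟨fun a b => ?_⟩⟩⟩
    exact Subtype.ext (hQc a a.2 b b.2)

end Cfsg.Agent.S4713
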