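import Cfsg.Statements.S4736
import Cfsg.Agent.Lib.Helper80.FongB0

set_option autoImplicit false
open Cfsg

namespace Cfsg.Agent.S4736

/-- Let p be a prime, M a maximal ideal of the algebraic integers containing p, and G a finite p-solvable group with Sylow p-subgroup P. Then P is abelian if and only if every irreducible character in the principal p-block of G has height zero. -/
theorem result {G : Type*} [Group G] [Finite G] (p : ℕ) [Fact p.Prime] (M : Ideal Cfsg.AlgInt) (hM : Cfsg.IsPModular p M) (hsolv : Cfsg.IsPSolvable p G) (P : Sylow p G) : IsMulCommutative P ↔ ∀ χ ∈ Cfsg.principalBlock M G, Cfsg.blockHeight p (Cfsg.principalBlock M G) (χ : G → ℂ) = 0 := by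
  have hMp := Cfsg.Agent.Lib.Helper77.LocalRing.isPrime_of_isPModular hM
  have key := Cfsg.Agent.Lib.Helper80.FongB0.sylow_comm_iff p M hM hsolv P
  constructor
  · intro hc χ hχ
    rw [Cfsg.Agent.Lib.Helper80.FongB0.blockHeight_eq_zero_iff p M hMp χ]
    refine key.mp (fun a ha b hb => ?_) χ hχ
    have h1 := hc.is_comm.comm (⟨a, ha⟩ : P) ⟨b, hb⟩
    exact congrArg Subtype.val h1
  · intro h
    have h1 := key.mpr (fun χ hχ =>
      (Cfsg.Agent.Lib.Helper80.FongB0.blockHeight_eq_zero_iff p M hMp χ).mp (h χ hχ))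
    exact ⟨⟨fun a b => Subtype.ext (h1 a a.2 b b.2)⟩⟩

end Cfsg.Agent.S4736
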