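import Cfsg.Statements.S4742
import Cfsg.Agent.Lib.CT.DefectZero

set_option autoImplicit false
open Cfsg

namespace Cfsg.Agent.S4742

open Cfsg.Agent.Lib.CT.DefectZero

/-- Let p ≠ q be primes dividing the order of the finite group G, and suppose the centralizer of every non-identity p-element of G has order prime to q. Then either G has an irreducible character of p-defect zero, or for every non-identity q-element z of G there are conjugates g, h of z such that g h⁻¹ is a non-identity p-element. -/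
theorem result {G : Type*} [Group G] [Finite G] (p q : ℕ) [Fact p.Prime] [Fact q.Prime] (hppq : p ≠ q) (hpG : p ∣ Nat.card G) (hqG : q ∣ Nat.card G) (hC : ∀ g : G, g ≠ 1 → (∃ k : ℕ, orderOf g = p ^ k) → ¬ q ∣ Nat.card ↥(Subgroup.centralizer ({g} : Set G))) : (∃ χ : Cfsg.IrrCharacter G, (Cfsg.charDegree (χ : G → ℂ)).factorization p = (Nat.card G).factorization p) ∨ ∀ z : G, z ≠ 1 → (∃ k : ℕ, orderOf z = q ^ k) → ∃ g h : G, IsConj z g ∧ IsConj z h ∧ g * h⁻¹ ≠ 1 ∧ ∃ k : ℕ, orderOf (g * h⁻¹) = p ^ k := by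
  have hp : p.Prime := Fact.out
  have hq : q.Prime := Fact.out
  by_contra hcon
  rw [not_or] at hcon
  obtain ⟨hnodz, hcon2⟩ := hcon
  push Not at hcon2
  obtain ⟨z, hz1, ⟨kq, hzq⟩, hzno⟩ := hcon2
  obtain ⟨P⟩ : Nonempty (Sylow p G) := inferInstance
  have hQ : ∀ g h : G, g * z * g⁻¹ * (h * z⁻¹ * h⁻¹) ∈ (P : Subgroup G) →
      g * z * g⁻¹ * (h * z⁻¹ * h⁻¹) = 1 := by
    intro g h hmem
    by_contra hne
    have heq : g * z * g⁻¹ * (h * z * h⁻¹)⁻¹ = g * z * g⁻¹ * (h * z⁻¹ * h⁻¹) := by group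
    obtain ⟨k, hk⟩ := IsPGroup.iff_orderOf.mp P.isPGroup' ⟨_, hmem⟩
    rw [Subgroup.orderOf_mk] at hk
    refine hzno (g * z * g⁻¹) (h * z * h⁻¹) (isConj_iff.mpr ⟨g, rfl⟩) (isConj_iff.mpr ⟨h, rfl⟩)
      ?_ k ?_
    · rw [heq]; exact hne
    · rw [heq]; exact hk
  have hdvd := dvd_card_centralizer_of_no_defect_zero hnodz hpG z P hQ
  obtain ⟨w, hw⟩ := exists_prime_orderOf_dvd_card' p hdvd
  have hw' : orderOf (w : G) = p := by rw [Subgroup.orderOf_coe]; exact hw
  have hw1 : (w : G) ≠ 1 := by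
    intro h1
    rw [h1, orderOf_one] at hw'
    exact hp.one_lt.ne hw'
  have hcomm : (w : G) * z = z * (w : G) := by
    have := w.2
    rw [Subgroup.mem_centralizer_iff] at this
    exact (this z (Set.mem_singleton z)).symm
  have hzmem : z ∈ Subgroup.centralizer ({(w : G)} : Set G) := by
    rw [Subgroup.mem_centralizer_iff]
    intro y hy
    rw [Set.mem_singleton_iff] at hy
    subst hy
    exact hcomm
  apply hC (w : G) hw1 ⟨1, by rw [hw', pow_one]⟩
  have h1 : orderOf (⟨z, hzmem⟩ : Subgroup.centralizer ({(w : G)} : Set G)) ∣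
      Nat.card (Subgroup.centralizer ({(w : G)} : Set G)) := orderOf_dvd_natCard _
  rw [Subgroup.orderOf_mk, hzq] at h1
  have hk0 : kq ≠ 0 := by
    rintro rfl
    rw [pow_zero, orderOf_eq_one_iff] at hzq
    exact hz1 hzq
  exact (dvd_pow_self q hk0).trans h1

end Cfsg.Agent.S4742
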