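import Cfsg.Statements.S4743
import Cfsg.Agent.S4742

set_option autoImplicit false
open Cfsg

namespace Cfsg.Agent.S4743

/-- The hypothesis on centralizers is symmetric in `p` and `q`. -/
theorem symm_hyp {G : Type*} [Group G] [Finite G] (p q : ℕ) [Fact p.Prime] [Fact q.Prime]
    (hC : ∀ g : G, g ≠ 1 → (∃ k : ℕ, orderOf g = p ^ k) →
      ¬ q ∣ Nat.card ↥(Subgroup.centralizer ({g} : Set G))) :
    ∀ z : G, z ≠ 1 → (∃ k : ℕ, orderOf z = q ^ k) →
      ¬ p ∣ Nat.card ↥(Subgroup.centralizer ({z} : Set G)) := by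
  have hp : p.Prime := Fact.out
  have hq : q.Prime := Fact.out
  rintro z hz1 ⟨kq, hzq⟩ hdvd
  obtain ⟨w, hw⟩ := exists_prime_orderOf_dvd_card' p hdvd
  have hw' : orderOf (w : G) = p := by rw [Subgroup.orderOf_coe]; exact hw
  have hw1 : (w : G) ≠ 1 := by
    intro h1
    rw [h1, orderOf_one] at hw'
    exact hp.one_lt.ne hw'
  have hcomm : (w : G) * z = z * (w : G) := by
    have := w.2
    rw [Subgroup.mem_centralizer_iff] at this
    exact (this z (Set.mem_singleton z)).symm
  have hzmem : z ∈ Subgroup.centralizer ({(w : G)} : Set G) := by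
    rw [Subgroup.mem_centralizer_iff]
    intro y hy
    rw [Set.mem_singleton_iff] at hy
    subst hy
    exact hcomm
  apply hC (w : G) hw1 ⟨1, by rw [hw', pow_one]⟩
  have h1 : orderOf (⟨z, hzmem⟩ : Subgroup.centralizer ({(w : G)} : Set G)) ∣
      Nat.card (Subgroup.centralizer ({(w : G)} : Set G)) := orderOf_dvd_natCard _
  rw [Subgroup.orderOf_mk, hzq] at h1
  have hk0 : kq ≠ 0 := by
    rintro rfl
    rw [pow_zero, orderOf_eq_one_iff] at hzq
    exact hz1 hzq
  exact (dvd_pow_self q hk0).trans h1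

/-- In a normal subgroup of order prime to `p`, two conjugates of an element of the subgroup
cannot differ by a non-identity `p`-element. -/
theorem no_pair {G : Type*} [Group G] [Finite G] (p : ℕ) [Fact p.Prime] (N : Subgroup G)
    [N.Normal] (hN : ¬ p ∣ Nat.card N) (z : G) (hz : z ∈ N) (g h : G) (hg : IsConj z g)
    (hh : IsConj z h) (hne : g * h⁻¹ ≠ 1) (k : ℕ) (hk : orderOf (g * h⁻¹) = p ^ k) : False := by
  have hp : p.Prime := Fact.out
  obtain ⟨a, rfl⟩ := isConj_iff.mp hg
  obtain ⟨b, rfl⟩ := isConj_iff.mp hh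
  have hmem : a * z * a⁻¹ * (b * z * b⁻¹)⁻¹ ∈ N :=
    N.mul_mem (Subgroup.Normal.conj_mem inferInstance z hz a)
      (N.inv_mem (Subgroup.Normal.conj_mem inferInstance z hz b))
  have h1 : orderOf (⟨_, hmem⟩ : N) ∣ Nat.card N := orderOf_dvd_natCard _
  rw [Subgroup.orderOf_mk, hk] at h1
  have hk0 : k ≠ 0 := by
    rintro rfl
    rw [pow_zero, orderOf_eq_one_iff] at hk
    exact hne hk
  exact hN ((dvd_pow_self p hk0).trans h1)

/-- A `p`-solvable group of order divisible by `p` has normal subgroups `N ≤ U` with `N` of order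
prime to `p` and `|U| = |N| p ^ m`, `m ≥ 1`. -/
theorem exists_step {G : Type*} [Group G] [Finite G] (p : ℕ) [Fact p.Prime]
    (hpG : p ∣ Nat.card G) (hsolv : Cfsg.IsPSolvable p G) :
    ∃ (N U : Subgroup G) (m : ℕ), N.Normal ∧ U.Normal ∧ ¬ p ∣ Nat.card N ∧ p ∣ Nat.card U ∧
      Nat.card U = Nat.card N * p ^ m := by
  have hp : p.Prime := Fact.out
  obtain ⟨n, H, h0, hlast, hmono, hnorm, hstep⟩ := hsolv
  have key : ∀ i : Fin (n + 1), p ∣ Nat.card (H i) →
      ∃ j : Fin n, ¬ p ∣ Nat.card (H j.castSucc) ∧ p ∣ Nat.card (H j.succ) := by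
    intro i
    induction i using Fin.induction with
    | zero =>
      intro h
      rw [h0, Subgroup.card_bot] at h
      exact absurd h hp.not_dvd_one
    | succ j ih =>
      intro h
      by_cases hj : p ∣ Nat.card (H j.castSucc)
      · exact ih hj
      · exact ⟨j, hj, h⟩
  obtain ⟨j, hj1, hj2⟩ := key (Fin.last n) (by rw [hlast, Subgroup.card_top]; exact hpG)
  have hle : H j.castSucc ≤ H j.succ := hmono (Fin.castSucc_le_succ j)
  have hcard : Nat.card (H j.castSucc) * (H j.castSucc).relIndex (H j.succ) =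
      Nat.card (H j.succ) := by
    have := Subgroup.relIndex_mul_relIndex (⊥ : Subgroup G) (H j.castSucc) (H j.succ) bot_le hle
    rwa [Subgroup.relIndex_bot_left, Subgroup.relIndex_bot_left] at this
  rcases hstep j with ⟨m, hm⟩ | hco
  · exact ⟨H j.castSucc, H j.succ, m, hnorm _, hnorm _, hj1, hj2, by rw [← hcard, hm]⟩
  · exfalso
    rw [← hcard] at hj2
    rcases (Nat.Prime.dvd_mul hp).mp hj2 with h | h
    · exact hj1 h
    · have := Nat.Coprime.symm hco
      rw [Nat.Prime.coprime_iff_not_dvd hp] at this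
      exact this h

/-- The main argument, for `G` `p`-solvable. -/
theorem core {G : Type*} [Group G] [Finite G] (p q : ℕ) [Fact p.Prime] [Fact q.Prime]
    (hppq : p ≠ q) (hpG : p ∣ Nat.card G) (hqG : q ∣ Nat.card G)
    (hC : ∀ g : G, g ≠ 1 → (∃ k : ℕ, orderOf g = p ^ k) →
      ¬ q ∣ Nat.card ↥(Subgroup.centralizer ({g} : Set G)))
    (hsolv : Cfsg.IsPSolvable p G) :
    (∃ χ : Cfsg.IrrCharacter G,
        (Cfsg.charDegree (χ : G → ℂ)).factorization p = (Nat.card G).factorization p) ∨
    (∃ χ : Cfsg.IrrCharacter G,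
        (Cfsg.charDegree (χ : G → ℂ)).factorization q = (Nat.card G).factorization q) := by
  have hp : p.Prime := Fact.out
  have hq : q.Prime := Fact.out
  obtain ⟨N, U, m, hNn, hUn, hpN, hpU, hcard⟩ := exists_step p hpG hsolv
  by_cases hqN : q ∣ Nat.card N
  · -- a `q`-element of the normal `p'`-subgroup `N`
    obtain ⟨z, hz⟩ := exists_prime_orderOf_dvd_card' q hqN
    have hz' : orderOf (z : G) = q := by rw [Subgroup.orderOf_coe]; exact hz
    have hz1 : (z : G) ≠ 1 := by
      intro h1
      rw [h1, orderOf_one] at hz'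
      exact hq.one_lt.ne hz'
    rcases Cfsg.Agent.S4742.result p q hppq hpG hqG hC with h | h
    · exact Or.inl h
    · exfalso
      obtain ⟨g, h', hg, hh, hne, k, hk⟩ := h (z : G) hz1 ⟨1, by rw [hz', pow_one]⟩
      exact no_pair p N hpN (z : G) z.2 g h' hg hh hne k hk
  · -- `U` has order prime to `q`; take a `p`-element of `U`
    have hqU : ¬ q ∣ Nat.card U := by
      rw [hcard]
      intro h
      rcases (Nat.Prime.dvd_mul hq).mp h with h | h
      · exact hqN h
      · have := (Nat.prime_dvd_prime_iff_eq hq hp).mp (hq.dvd_of_dvd_pow h)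
        exact hppq this.symm
    obtain ⟨w, hw⟩ := exists_prime_orderOf_dvd_card' p hpU
    have hw' : orderOf (w : G) = p := by rw [Subgroup.orderOf_coe]; exact hw
    have hw1 : (w : G) ≠ 1 := by
      intro h1
      rw [h1, orderOf_one] at hw'
      exact hp.one_lt.ne hw'
    rcases Cfsg.Agent.S4742.result q p hppq.symm hqG hpG (symm_hyp p q hC) with h | h
    · exact Or.inr h
    · exfalso
      obtain ⟨g, h', hg, hh, hne, k, hk⟩ := h (w : G) hw1 ⟨1, by rw [hw', pow_one]⟩
      exact no_pair q U hqU (w : G) w.2 g h' hg hh hne k hk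

/-- Let p ≠ q be primes dividing the order of the finite group G, suppose the centralizer of every non-identity p-element has order prime to q, and suppose G is p-solvable or q-solvable. Then G has an irreducible character of p-defect zero or an irreducible character of q-defect zero. -/
theorem result {G : Type*} [Group G] [Finite G] (p q : ℕ) [Fact p.Prime] [Fact q.Prime] (hppq : p ≠ q) (hpG : p ∣ Nat.card G) (hqG : q ∣ Nat.card G) (hC : ∀ g : G, g ≠ 1 → (∃ k : ℕ, orderOf g = p ^ k) → ¬ q ∣ Nat.card ↥(Subgroup.centralizer ({g} : Set G))) (hsolv : Cfsg.IsPSolvable p G ∨ Cfsg.IsPSolvable q G) : (∃ χ : Cfsg.IrrCharacter G, (Cfsg.charDegree (χ : G → ℂ)).factorization p = (Nat.card G).factorization p) ∨ (∃ χ : Cfsg.IrrCharacter G, (Cfsg.charDegree (χ : G → ℂ)).factorization q = (Nat.card G).factorization q) := by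
  rcases hsolv with hs | hs
  · exact core p q hppq hpG hqG hC hs
  · exact (core q p hppq.symm hqG hpG (symm_hyp p q hC) hs).symm

end Cfsg.Agent.S4743
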