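import Cfsg.Statements.S4750
import Cfsg.Agent.Lib.Helper74.TIChar
import Cfsg.Agent.Lib.CT.Wedderburn

set_option autoImplicit false
open scoped Pointwise
open Cfsg

namespace Cfsg.Agent.S4750

/-- Let P be a Sylow p-subgroup of the finite group G that meets each conjugate g P g⁻¹ with g outside N_G(P) trivially, χ a character of G with χ(1)² ≤ |P|, and H a subgroup of G containing N_G(P). Then the inner product of χ with itself over G equals the inner product over H of the restriction of χ to H. -/
theorem result {G : Type*} [Group G] [Fintype G] [DecidableEq G] (p : ℕ) [Fact p.Prime] (P : Sylow p G) (hTI : ∀ g : G, g ∉ Subgroup.normalizer ((P : Subgroup G) : Set G) → (P : Subgroup G) ⊓ (MulAut.conj g • (P : Subgroup G)) = ⊥) (χ : G → ℂ) (hχ : Cfsg.IsCharacter G χ) (hdeg : Cfsg.charDegree χ ^ 2 ≤ Nat.card ↥(P : Subgroup G)) (H : Subgroup G) [Fintype ↥H] (hH : Subgroup.normalizer ((P : Subgroup G) : Set G) ≤ H) : Cfsg.classInner χ χ = Cfsg.classInner (fun h : ↥H => χ h) (fun h : ↥H => χ h) := by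
  obtain ⟨n, ρ, rfl⟩ := hχ
  have hn : charDegree ρ.character = n := by
    apply Cfsg.Agent.Lib.CT.Wedderburn.charDegree_eq_of_apply_one
    rw [Representation.char_one]
    simp
  rw [hn] at hdeg
  have hdeg' : Module.finrank ℂ (Fin n → ℂ) ^ 2 ≤ Nat.card (P : Subgroup G) := by
    simpa using hdeg
  exact Cfsg.Agent.Lib.Helper74.TIChar.classInner_eq_of_TI p P hTI H hH ρ hdeg'

end Cfsg.Agent.S4750
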