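import Cfsg.Statements.S4754
import Cfsg.Agent.Lib.CT.ClassMult

set_option autoImplicit false
open Cfsg

namespace Cfsg.Agent.S4754

open Cfsg.Agent.Lib.CT.Wedderburn Cfsg.Agent.Lib.CT.Orth Cfsg.Agent.Lib.CT.ClassMult

/-- For elements x, y of a finite group G, the conjugacy class of x y equals the set of all products of a conjugate of x with a conjugate of y if and only if χ(1) χ(a x a⁻¹ b y b⁻¹) = χ(x) χ(y) for all a, b ∈ G and every irreducible character χ. -/
theorem result {G : Type*} [Group G] [Finite G] (x y : G) : (∀ z : G, IsConj (x * y) z ↔ ∃ a b : G, z = a * x * a⁻¹ * (b * y * b⁻¹)) ↔ ∀ (a b : G) (χ : Cfsg.IrrCharacter G), (χ : G → ℂ) 1 * (χ : G → ℂ) (a * x * a⁻¹ * (b * y * b⁻¹)) = (χ : G → ℂ) x * (χ : G → ℂ) y := by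
  classical
  have := Fintype.ofFinite G
  have hne : (Nat.card G : ℂ) ≠ 0 := Nat.cast_ne_zero.mpr Nat.card_pos.ne'
  constructor
  · intro H a b χ
    have h1 : (χ : G → ℂ) 1 ≠ 0 := irr_apply_one_ne_zero χ.2
    have hconj : ∀ a b : G, (χ : G → ℂ) (a * x * a⁻¹ * (b * y * b⁻¹)) = (χ : G → ℂ) (x * y) := by
      intro a b
      have hc : IsConj (x * y) (a * x * a⁻¹ * (b * y * b⁻¹)) := (H _).mpr ⟨a, b, rfl⟩
      obtain ⟨c, hc⟩ := isConj_iff.mp hc
      rw [← hc]
      exact irr_isClassFunction χ (x * y) c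
    have hs := irr_schur_average χ.2 x y
    have h2 : ∀ g : G, (χ : G → ℂ) (x * (g * y * g⁻¹)) = (χ : G → ℂ) (x * y) := by
      intro g
      have := hconj 1 g
      simpa using this
    simp_rw [h2] at hs
    rw [Finset.sum_const, Finset.card_univ, nsmul_eq_mul, ← Nat.card_eq_fintype_card] at hs
    rw [hconj a b]
    field_simp at hs
    rw [mul_comm]
    exact hs
  · intro K z
    constructor
    · intro hz
      obtain ⟨c, hc⟩ := isConj_iff.mp hz
      refine ⟨c, c, ?_⟩
      rw [← hc]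
      group
    · rintro ⟨a, b, rfl⟩
      apply isConj_of_irr_eq
      intro χ
      have h1 : (χ : G → ℂ) 1 ≠ 0 := irr_apply_one_ne_zero χ.2
      have e1 := K a b χ
      have e2 := K 1 1 χ
      simp only [one_mul, inv_one, mul_one] at e2
      exact mul_left_cancel₀ h1 (e2.trans e1.symm)

end Cfsg.Agent.S4754
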