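import Cfsg.Statements.S4755
import Cfsg.Agent.Lib.CT.ClassMult
import Cfsg.Agent.Lib.CT.LinChar

set_option autoImplicit false
open Cfsg

namespace Cfsg.Agent.S4755

open Cfsg.Agent.Lib.CT.Wedderburn Cfsg.Agent.Lib.CT.Orth Cfsg.Agent.Lib.CT.ClassMult
open scoped ComplexConjugate commutatorElement

/-- Let x, y be non-identity elements of the finite group G such that χ(x' y') = χ(x') χ(y') for all conjugates x' of x, y' of y and every irreducible character χ. Then the conjugacy class of x y is the set of all products of a conjugate of x with a conjugate of y; every irreducible character of degree greater than 1 vanishes at x y; and the conjugacy class of x y is the coset of the commutator subgroup containing x y. -/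
theorem result {G : Type*} [Group G] [Finite G] (x y : G) (hx : x ≠ 1) (hy : y ≠ 1) (h : ∀ (a b : G) (χ : Cfsg.IrrCharacter G), (χ : G → ℂ) (a * x * a⁻¹ * (b * y * b⁻¹)) = (χ : G → ℂ) (a * x * a⁻¹) * (χ : G → ℂ) (b * y * b⁻¹)) : (∀ z : G, IsConj (x * y) z ↔ ∃ a b : G, z = a * x * a⁻¹ * (b * y * b⁻¹)) ∧ (∀ χ : Cfsg.IrrCharacter G, (χ : G → ℂ) 1 ≠ 1 → (χ : G → ℂ) (x * y) = 0) ∧ (∀ z : G, IsConj (x * y) z ↔ (x * y)⁻¹ * z ∈ commutator G) := by
  classical
  have := Fintype.ofFinite G
  have := finite_irrCharacter G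
  have := Fintype.ofFinite (IrrCharacter G)
  have hne : (Nat.card G : ℂ) ≠ 0 := Nat.cast_ne_zero.mpr Nat.card_pos.ne'
  -- values on products of conjugates
  have hval : ∀ (a b : G) (χ : IrrCharacter G),
      (χ : G → ℂ) (a * x * a⁻¹ * (b * y * b⁻¹)) = (χ : G → ℂ) x * (χ : G → ℂ) y := by
    intro a b χ
    rw [h a b χ, irr_isClassFunction χ x a, irr_isClassFunction χ y b]
  have hxy : ∀ χ : IrrCharacter G, (χ : G → ℂ) (x * y) = (χ : G → ℂ) x * (χ : G → ℂ) y := by
    intro χ
    have := hval 1 1 χ
    simpa using this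
  -- key identity
  have key : ∀ χ : IrrCharacter G,
      (χ : G → ℂ) 1 * ((χ : G → ℂ) x * (χ : G → ℂ) y) = (χ : G → ℂ) x * (χ : G → ℂ) y := by
    intro χ
    have h1 : (χ : G → ℂ) 1 ≠ 0 := irr_apply_one_ne_zero χ.2
    have hs := irr_schur_average χ.2 x y
    have h2 : ∀ g : G, (χ : G → ℂ) (x * (g * y * g⁻¹)) = (χ : G → ℂ) x * (χ : G → ℂ) y := by
      intro g
      have := hval 1 g χ
      simpa using this
    simp_rw [h2] at hs
    rw [Finset.sum_const, Finset.card_univ, nsmul_eq_mul, ← Nat.card_eq_fintype_card] at hs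
    field_simp at hs
    linear_combination hs
  have hvan : ∀ χ : IrrCharacter G, (χ : G → ℂ) 1 ≠ 1 → (χ : G → ℂ) (x * y) = 0 := by
    intro χ hχ
    rw [hxy]
    have := key χ
    have h3 : ((χ : G → ℂ) 1 - 1) * ((χ : G → ℂ) x * (χ : G → ℂ) y) = 0 := by
      linear_combination this
    rcases mul_eq_zero.mp h3 with h4 | h4
    · exact absurd (sub_eq_zero.mp h4) hχ
    · exact h4
  refine ⟨?_, hvan, ?_⟩
  · intro z
    constructor
    · intro hz
      obtain ⟨c, hc⟩ := isConj_iff.mp hz
      refine ⟨c, c, ?_⟩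
      rw [← hc]
      group
    · rintro ⟨a, b, rfl⟩
      apply isConj_of_irr_eq
      intro χ
      rw [hval a b χ, hxy χ]
  · intro z
    constructor
    · intro hz
      obtain ⟨c, hc⟩ := isConj_iff.mp hz
      rw [← hc]
      have : (x * y)⁻¹ * (c * (x * y) * c⁻¹) = ⁅(x * y)⁻¹, c⁆ := by
        rw [commutatorElement_def]
        group
      rw [this, commutator_def]
      exact Subgroup.commutator_mem_commutator (Subgroup.mem_top _) (Subgroup.mem_top _)
    · intro hz
      set w := x * y with hw
      set k := w⁻¹ * z with hk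
      have hzk : z = w * k := by rw [hk]; group
      -- termwise equality of the orthogonality sums
      have hterm : ∀ χ : IrrCharacter G,
          (χ : G → ℂ) z * conj ((χ : G → ℂ) w) = (χ : G → ℂ) w * conj ((χ : G → ℂ) w) := by
        intro χ
        by_cases hχ : (χ : G → ℂ) 1 = 1
        · obtain ⟨f, hf⟩ := Cfsg.Agent.Lib.CT.LinChar.exists_hom_of_isCharacter (χ : G → ℂ)
            (isCharacter_of_irr χ.2) hχ
          have hk1 : f k = 1 := by
            have := Abelianization.commutator_subset_ker f hz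
            exact MonoidHom.mem_ker.mp this
          rw [hzk, hf (w * k), hf w, map_mul, hk1, mul_one]
        · rw [hvan χ hχ]
          simp
      have hsum : ∑ χ : IrrCharacter G, (χ : G → ℂ) z * conj ((χ : G → ℂ) w) =
          ∑ χ : IrrCharacter G, (χ : G → ℂ) w * conj ((χ : G → ℂ) w) :=
        Finset.sum_congr rfl fun χ _ => hterm χ
      by_contra hcon
      have hcon' : ¬ IsConj z w := fun hc => hcon hc.symm
      rw [second_orthogonality_sum_of_not_isConj z w hcon',
        second_orthogonality_sum_of_isConj w w (IsConj.refl w)] at hsum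
      have : (Nat.card (Subgroup.centralizer ({w} : Set G)) : ℂ) ≠ 0 :=
        Nat.cast_ne_zero.mpr Nat.card_pos.ne'
      exact this hsum.symm

end Cfsg.Agent.S4755
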