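import Cfsg.Statements.S4757
import Cfsg.Agent.S0154
import Cfsg.Agent.Lib.Helper3.Orth
import Cfsg.Agent.Lib.Helper3.Irr
import Cfsg.Agent.Lib.CT.LinChar
import Cfsg.Agent.Lib.CT.Ops
import Cfsg.Agent.Lib.Helper75.SelfCentCore

set_option autoImplicit false
open Cfsg

namespace Cfsg.Agent.S4757

open scoped ComplexConjugate
open Cfsg.Agent.Lib

section

set_option linter.unusedSectionVars false

variable {G : Type*} [Group G] [Finite G]

/-- The irreducible character of a homomorphism into `ℂˣ`. -/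
noncomputable def homIrr (f : G →* ℂˣ) : IrrCharacter G :=
  ⟨fun g => ((f g : ℂˣ) : ℂ), CT.LinChar.isIrrCharacter_of_hom f⟩

theorem homIrr_apply (f : G →* ℂˣ) (g : G) : ((homIrr f : IrrCharacter G) : G → ℂ) g = ((f g : ℂˣ) : ℂ) :=
  rfl

theorem homIrr_ne (f : G →* ℂˣ) (hf : f ≠ 1) :
    ((homIrr f : IrrCharacter G) : G → ℂ) ≠ (fun _ => (1 : ℂ)) := by
  intro h
  apply hf
  refine MonoidHom.ext fun g => Units.ext ?_
  have := congrFun h g
  rw [homIrr_apply] at this
  rw [this]
  simp

/-- The principal character. -/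
noncomputable def triv : IrrCharacter G := ⟨fun _ => (1 : ℂ), CT.Ops.isIrrCharacter_one⟩

theorem eq_triv {χ : IrrCharacter G} (h : (χ : G → ℂ) = (fun _ => (1 : ℂ))) : χ = triv :=
  Subtype.ext h

theorem sum_re_eq_zero (u : G) (hu : u ≠ 1) [Fintype (IrrCharacter G)] :
    ∑ χ : IrrCharacter G, ((χ : G → ℂ) 1 * (χ : G → ℂ) u).re = 0 := by
  have h := Helper3.Orth.sum_apply_one_mul (G := G) u
  rw [finsum_eq_sum_of_fintype, if_neg hu] at h
  rw [← Complex.re_sum, h, Complex.zero_re]

/-- If all nonprincipal terms of the column sum have nonnegative real part we get a contradiction. -/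
theorem false_of_nonneg (u : G) (hu : u ≠ 1)
    (h : ∀ χ : IrrCharacter G, (χ : G → ℂ) ≠ (fun _ => (1 : ℂ)) →
      0 ≤ ((χ : G → ℂ) 1 * (χ : G → ℂ) u).re) : False := by
  have hfin := Helper3.Irr.finite_irrCharacter (G := G)
  have : Fintype (IrrCharacter G) := Fintype.ofFinite _
  have h0 := sum_re_eq_zero u hu
  have hnn : ∀ χ ∈ (Finset.univ : Finset (IrrCharacter G)),
      0 ≤ ((χ : G → ℂ) 1 * (χ : G → ℂ) u).re := by
    intro χ _
    by_cases hχ : (χ : G → ℂ) = (fun _ => (1 : ℂ))
    · rw [hχ]; simp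
    · exact h χ hχ
  have h1 := Finset.single_le_sum hnn (Finset.mem_univ (triv : IrrCharacter G))
  rw [h0] at h1
  have : ((triv : IrrCharacter G) : G → ℂ) 1 * ((triv : IrrCharacter G) : G → ℂ) u = 1 := by
    simp [triv]
  rw [this] at h1
  simp at h1
  linarith

theorem c_ne_zero (u : G) (hu : u ≠ 1) (c : ℂ)
    (hyp : ∀ χ : Cfsg.IrrCharacter G, (χ : G → ℂ) ≠ (fun _ => (1 : ℂ)) →
      ((χ : G → ℂ) 1 - (χ : G → ℂ) u = c ∨ (χ : G → ℂ) u = 0)) : c ≠ 0 := by
  intro hc
  apply false_of_nonneg u hu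
  intro χ hχ
  obtain ⟨n, _, hn⟩ := Helper3.Irr.IsIrrCharacter.exists_apply_one_pos χ.2
  rcases hyp χ hχ with h | h
  · have : (χ : G → ℂ) u = n := by
      rw [hc, hn] at h
      linear_combination -h
    rw [hn, this]
    have : ((n : ℂ) * (n : ℂ)).re = (n : ℝ) * n := by
      rw [← Nat.cast_mul]; simp
    rw [this]
    positivity
  · rw [h]; simp

theorem hom_val (u : G) (c : ℂ)
    (hyp : ∀ χ : Cfsg.IrrCharacter G, (χ : G → ℂ) ≠ (fun _ => (1 : ℂ)) →
      ((χ : G → ℂ) 1 - (χ : G → ℂ) u = c ∨ (χ : G → ℂ) u = 0))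
    (f : G →* ℂˣ) (hf : f ≠ 1) : (1 : ℂ) - ((f u : ℂˣ) : ℂ) = c := by
  rcases hyp (homIrr f) (homIrr_ne f hf) with h | h
  · rw [homIrr_apply, homIrr_apply, map_one] at h
    simpa using h
  · rw [homIrr_apply] at h
    exact absurd h (Units.ne_zero _)

theorem exists_hom_of_ne_top (h : commutator G ≠ ⊤) : ∃ f : G →* ℂˣ, f ≠ 1 := by
  by_contra hcon
  push Not at hcon
  have : Subsingleton (G →* ℂˣ) := ⟨fun a b => by rw [hcon a, hcon b]⟩
  have h1 : Nat.card (G →* ℂˣ) = 1 := Nat.card_of_subsingleton 1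
  rw [Cfsg.Agent.S0154.card_hom_eq_index G] at h1
  exact h (Subgroup.index_eq_one.1 h1)

theorem all_hom_one_of_top (h : commutator G = ⊤) (f : G →* ℂˣ) : f = 1 := by
  have h1 : Nat.card (G →* ℂˣ) = 1 := by
    rw [Cfsg.Agent.S0154.card_hom_eq_index G, h, Subgroup.index_top]
  have := (Nat.card_eq_one_iff_unique.1 h1).1
  exact Subsingleton.elim _ _

/-- An irreducible character of degree one is the character of a homomorphism. -/
theorem exists_hom_of_degree_one (χ : IrrCharacter G) (h1 : (χ : G → ℂ) 1 = 1) :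
    ∃ f : G →* ℂˣ, χ = homIrr f := by
  obtain ⟨f, hf⟩ := CT.LinChar.exists_hom_of_isCharacter (χ : G → ℂ)
    (Helper3.Irr.IsIrrCharacter.isCharacter χ.2) h1
  exact ⟨f, Subtype.ext (funext hf)⟩

theorem key (u : G) (hu : u ≠ 1) (c : ℂ)
    (hyp : ∀ χ : Cfsg.IrrCharacter G, (χ : G → ℂ) ≠ (fun _ => (1 : ℂ)) →
      ((χ : G → ℂ) 1 - (χ : G → ℂ) u = c ∨ (χ : G → ℂ) u = 0))
    (h : commutator G ≠ ⊤) :
    c = 2 ∧ ∃ f : G →* ℂˣ, f ≠ 1 ∧ ((f u : ℂˣ) : ℂ) = -1 ∧ ∀ g : G →* ℂˣ, g ≠ 1 → g = f := by
  have hc0 := c_ne_zero u hu c hyp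
  obtain ⟨f, hf⟩ := exists_hom_of_ne_top h
  have hfu := hom_val u c hyp f hf
  have hff : f * f = 1 := by
    by_contra hne
    have h2 := hom_val u c hyp (f * f) hne
    rw [MonoidHom.mul_apply, Units.val_mul] at h2
    have hx : ((f u : ℂˣ) : ℂ) * (((f u : ℂˣ) : ℂ) - 1) = 0 := by
      linear_combination hfu - h2
    rcases mul_eq_zero.1 hx with h3 | h3
    · exact Units.ne_zero _ h3
    · apply hc0
      rw [← hfu]
      linear_combination -h3
  have hsq : ((f u : ℂˣ) : ℂ) * ((f u : ℂˣ) : ℂ) = 1 := by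
    have := congrArg (fun φ : G →* ℂˣ => ((φ u : ℂˣ) : ℂ)) hff
    simpa using this
  have hval : ((f u : ℂˣ) : ℂ) = -1 := by
    have hx : (((f u : ℂˣ) : ℂ) - 1) * (((f u : ℂˣ) : ℂ) + 1) = 0 := by
      linear_combination hsq
    rcases mul_eq_zero.1 hx with h3 | h3
    · exfalso
      apply hc0
      rw [← hfu]
      linear_combination -h3
    · linear_combination h3
  have hc2 : c = 2 := by
    rw [← hfu, hval]; norm_num
  refine ⟨hc2, f, hf, hval, ?_⟩
  intro g hg
  have hgu := hom_val u c hyp g hg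
  have hgf : g * f = 1 := by
    by_contra hne
    have h2 := hom_val u c hyp (g * f) hne
    rw [MonoidHom.mul_apply, Units.val_mul, hval] at h2
    have hgval : ((g u : ℂˣ) : ℂ) = -1 := by
      rw [hc2] at hgu
      linear_combination -hgu
    rw [hgval, hc2] at h2
    norm_num at h2
  exact mul_right_cancel (hgf.trans hff.symm)

/-- Under the hypothesis with `G ≠ G'`, the centralizer of `u` has order `2`. -/
theorem card_centralizer (u : G) (hu : u ≠ 1) (c : ℂ)
    (hyp : ∀ χ : Cfsg.IrrCharacter G, (χ : G → ℂ) ≠ (fun _ => (1 : ℂ)) →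
      ((χ : G → ℂ) 1 - (χ : G → ℂ) u = c ∨ (χ : G → ℂ) u = 0))
    (h : commutator G ≠ ⊤) :
    Nat.card (Subgroup.centralizer ({u} : Set G)) = 2 := by
  classical
  obtain ⟨hc2, f, hf, hval, huniq⟩ := key u hu c hyp h
  have hfin := Helper3.Irr.finite_irrCharacter (G := G)
  have : Fintype (IrrCharacter G) := Fintype.ofFinite _
  have hFt : (homIrr f : IrrCharacter G) ≠ triv := by
    intro h1
    exact homIrr_ne f hf (congrArg Subtype.val h1)
  -- the weights
  obtain ⟨w, hw⟩ : ∃ w : IrrCharacter G → ℝ, w = fun χ =>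
      (if χ = triv then (1 : ℝ) else 0) + (if χ = homIrr f then (-1 : ℝ) else 0) := ⟨_, rfl⟩
  have hwsum : ∑ χ : IrrCharacter G, w χ = 0 := by
    rw [hw, Finset.sum_add_distrib, Finset.sum_ite_eq', Finset.sum_ite_eq']
    simp
  have hclass : ∀ χ : IrrCharacter G, χ ≠ triv → χ ≠ homIrr f →
      ∃ n : ℕ, 2 ≤ n ∧ (χ : G → ℂ) 1 = n ∧ ((χ : G → ℂ) u = (n : ℂ) - 2 ∨ (χ : G → ℂ) u = 0) := by
    intro χ h1 h2
    obtain ⟨n, hn0, hn⟩ := Helper3.Irr.IsIrrCharacter.exists_apply_one_pos χ.2
    have hχ : (χ : G → ℂ) ≠ (fun _ => (1 : ℂ)) := fun hh => h1 (eq_triv hh)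
    refine ⟨n, ?_, hn, ?_⟩
    · by_contra hlt
      have hn1 : n = 1 := by omega
      rw [hn1, Nat.cast_one] at hn
      obtain ⟨g, hg⟩ := exists_hom_of_degree_one χ hn
      have hg1 : g ≠ 1 := by
        intro hh
        apply hχ
        rw [hg, hh]
        funext x
        simp [homIrr]
      exact h2 (by rw [hg, huniq g hg1])
    · rcases hyp χ hχ with h3 | h3
      · left
        rw [hn, hc2] at h3
        linear_combination -h3
      · right; exact h3
  have hle : ∀ χ ∈ (Finset.univ : Finset (IrrCharacter G)),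
      w χ ≤ ((χ : G → ℂ) 1 * (χ : G → ℂ) u).re := by
    intro χ _
    by_cases h1 : χ = triv
    · rw [hw, h1]
      simp only [if_true, if_neg hFt.symm, add_zero]
      simp [triv]
    · by_cases h2 : χ = homIrr f
      · rw [hw, h2]
        simp only [if_neg hFt, if_true, zero_add]
        rw [homIrr_apply, homIrr_apply, map_one, hval]
        simp
      · rw [hw]
        simp only [if_neg h1, if_neg h2, add_zero]
        obtain ⟨n, hn2, hn, hv⟩ := hclass χ h1 h2
        rcases hv with hv | hv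
        · rw [hn, hv]
          have : ((n : ℂ) * ((n : ℂ) - 2)).re = (n : ℝ) * ((n : ℝ) - 2) := by
            simp
          rw [this]
          have : (2 : ℝ) ≤ n := by exact_mod_cast hn2
          nlinarith
        · rw [hv]; simp
  have heq := (Finset.sum_eq_sum_iff_of_le hle).1 (by rw [hwsum, sum_re_eq_zero u hu])
  have hzero : ∀ χ : IrrCharacter G, χ ≠ triv → χ ≠ homIrr f → (χ : G → ℂ) u = 0 := by
    intro χ h1 h2
    obtain ⟨n, hn2, hn, hv⟩ := hclass χ h1 h2
    rcases hv with hv | hv
    · have h3 := heq χ (Finset.mem_univ _)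
      rw [hw] at h3
      simp only [if_neg h1, if_neg h2, add_zero] at h3
      rw [hn, hv] at h3
      have : ((n : ℂ) * ((n : ℂ) - 2)).re = (n : ℝ) * ((n : ℝ) - 2) := by
        simp
      rw [this] at h3
      have hn2' : (2 : ℝ) ≤ n := by exact_mod_cast hn2
      have hn0 : (n : ℝ) ≠ 0 := by linarith
      have h4 : (n : ℝ) - 2 = 0 := by
        rcases mul_eq_zero.1 h3.symm with h5 | h5
        · exact absurd h5 hn0
        · exact h5
      rw [hv]
      have h5 : (n : ℝ) = 2 := by linarith
      have h6 : (n : ℂ) = 2 := by exact_mod_cast h5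
      rw [h6]; ring
    · exact hv
  have h2 := Helper3.Orth.second_orthogonality_sum (G := G) u u
  rw [if_pos (IsConj.refl u)] at h2
  have hterm : ∀ χ : IrrCharacter G, (χ : G → ℂ) u * conj ((χ : G → ℂ) u) =
      (if χ = triv then (1 : ℂ) else 0) + (if χ = homIrr f then (1 : ℂ) else 0) := by
    intro χ
    by_cases h1 : χ = triv
    · rw [h1]
      simp only [if_true, if_neg hFt.symm, add_zero]
      simp [triv]
    · by_cases hh2 : χ = homIrr f
      · rw [hh2]
        simp only [if_neg hFt, if_true, zero_add]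
        rw [homIrr_apply, hval]
        simp
      · simp only [if_neg h1, if_neg hh2, add_zero]
        rw [hzero χ h1 hh2]; simp
  rw [Finset.sum_congr rfl (fun χ _ => hterm χ), Finset.sum_add_distrib, Finset.sum_ite_eq',
    Finset.sum_ite_eq'] at h2
  simp only [Finset.mem_univ, if_true] at h2
  have h3 : ((Nat.card (Subgroup.centralizer ({u} : Set G)) : ℕ) : ℂ) = ((2 : ℕ) : ℂ) := by
    rw [← h2]; norm_num
  exact_mod_cast h3

end

/-- Let u ≠ 1 be an element of the finite group G and c a complex number such that every non-principal irreducible character χ satisfies χ(1) − χ(u) = c or χ(u) = 0. Then the following are equivalent: (a) u has order 2, G is generated by u together with O(G), the largest normal subgroup of G of odd order, and the centralizer of u is {1, u}; (b) G is not perfect; (c) c = 2. -/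
theorem result {G : Type*} [Group G] [Finite G] (u : G) (hu : u ≠ 1) (c : ℂ) (hyp : ∀ χ : Cfsg.IrrCharacter G, (χ : G → ℂ) ≠ (fun _ => (1 : ℂ)) → ((χ : G → ℂ) 1 - (χ : G → ℂ) u = c ∨ (χ : G → ℂ) u = 0)) : ((orderOf u = 2 ∧ Subgroup.zpowers u ⊔ Cfsg.oddCore G = ⊤ ∧ Subgroup.centralizer ({u} : Set G) = Subgroup.zpowers u) ↔ commutator G ≠ ⊤) ∧ (commutator G ≠ ⊤ ↔ c = 2) := by
  have hcomm2 : commutator G ≠ ⊤ → c = 2 := fun h => (key u hu c hyp h).1
  have h2comm : c = 2 → commutator G ≠ ⊤ := by
    intro hc2 htop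
    apply false_of_nonneg u hu
    intro χ hχ
    obtain ⟨n, hn0, hn⟩ := Helper3.Irr.IsIrrCharacter.exists_apply_one_pos χ.2
    have hn2 : 2 ≤ n := by
      by_contra hlt
      have hn1 : n = 1 := by omega
      rw [hn1, Nat.cast_one] at hn
      obtain ⟨g, hg⟩ := exists_hom_of_degree_one χ hn
      apply hχ
      rw [hg, all_hom_one_of_top htop g]
      funext x
      simp [homIrr]
    rcases hyp χ hχ with h | h
    · have hv : (χ : G → ℂ) u = (n : ℂ) - 2 := by
        rw [hn, hc2] at h
        linear_combination -h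
      rw [hn, hv]
      have : ((n : ℂ) * ((n : ℂ) - 2)).re = (n : ℝ) * ((n : ℝ) - 2) := by
        simp
      rw [this]
      have : (2 : ℝ) ≤ n := by exact_mod_cast hn2
      nlinarith
    · rw [h]; simp
  refine ⟨⟨?_, ?_⟩, hcomm2, h2comm⟩
  · -- structure implies not perfect
    rintro ⟨ho, hsup, hC⟩ htop
    have hnorm := Helper75.SelfCentCore.pPrimeCore_normal G 2
    have hle : commutator G ≤ Cfsg.oddCore G := by
      apply Helper75.SelfCent.commutator_le_of_sup hsup
      intro n hn m hm
      obtain ⟨i, rfl⟩ := Subgroup.mem_zpowers_iff.1 hn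
      obtain ⟨j, rfl⟩ := Subgroup.mem_zpowers_iff.1 hm
      have : u ^ i * u ^ j * (u ^ i)⁻¹ * (u ^ j)⁻¹ = 1 := by
        rw [← zpow_add, add_comm, zpow_add]; group
      rw [this]
      exact one_mem _
    rw [htop, top_le_iff] at hle
    have hnd := Helper75.SelfCentCore.pPrimeCore_not_dvd G Nat.prime_two
    apply hnd
    have hmem : u ∈ Cfsg.oddCore G := by rw [hle]; exact Subgroup.mem_top u
    have := Subgroup.orderOf_dvd_natCard (Cfsg.oddCore G) hmem
    rw [ho] at this
    exact this
  · -- not perfect implies structure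
    intro hne
    have hcard := card_centralizer u hu c hyp hne
    have hzle : Subgroup.zpowers u ≤ Subgroup.centralizer ({u} : Set G) := by
      rw [Subgroup.zpowers_le]
      rw [Subgroup.mem_centralizer_iff]
      intro h hh
      rw [Set.mem_singleton_iff] at hh
      rw [hh]
    have ho : orderOf u = 2 := by
      have h1 := Subgroup.card_dvd_of_le hzle
      rw [Nat.card_zpowers, hcard] at h1
      have h2 : orderOf u ≠ 1 := by
        rw [Ne, orderOf_eq_one_iff]; exact hu
      rcases (Nat.dvd_prime Nat.prime_two).1 h1 with h3 | h3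
      · exact absurd h3 h2
      · exact h3
    have hC : Subgroup.centralizer ({u} : Set G) = Subgroup.zpowers u := by
      symm
      apply Subgroup.eq_of_le_of_card_ge hzle
      rw [Nat.card_zpowers, hcard, ho]
    have hN : Nat.card (Subgroup.normalizer (Subgroup.zpowers u : Set G)) = 2 := by
      have : Subgroup.normalizer (Subgroup.zpowers u : Set G) = Subgroup.zpowers u := by
        apply le_antisymm _ Helper75.SelfCent.zpowers_le_normalizer
        intro n hn
        have h1 := Helper75.SelfCent.conj_mem_of_mem_normalizer hn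
        have h2 := Helper75.SelfCent.conj_ne_one Nat.prime_two ho n
        rw [← hC, Subgroup.mem_centralizer_iff]
        intro h hh
        rw [Set.mem_singleton_iff] at hh
        rw [hh]
        obtain ⟨k, hk⟩ := Subgroup.mem_zpowers_iff.1 h1
        have h3 : u ^ k = u ^ (k % 2) := by
          have := zpow_mod_orderOf u k
          rw [ho] at this
          exact_mod_cast this.symm
        have h4 : k % 2 = 0 ∨ k % 2 = 1 := by omega
        rcases h4 with h4 | h4
        · rw [h3, h4, zpow_zero] at hk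
          exact absurd hk.symm h2
        · rw [h3, h4, zpow_one] at hk
          calc u * n = (n * u * n⁻¹) * n := by rw [← hk]
            _ = n * u := by group
      rw [this, Nat.card_zpowers, ho]
    obtain ⟨hcore, hcardG⟩ := Helper75.SelfCentCore.commutator_eq_core Nat.prime_two ho hC hN
    refine ⟨ho, ?_, hC⟩
    have hnd := Helper75.SelfCentCore.pPrimeCore_not_dvd G Nat.prime_two
    have hunot : u ∉ Cfsg.oddCore G := by
      intro hmem
      apply hnd
      have := Subgroup.orderOf_dvd_natCard (Cfsg.oddCore G) hmem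
      rw [ho] at this
      exact this
    have hlt : Cfsg.oddCore G < Subgroup.zpowers u ⊔ Cfsg.oddCore G := by
      apply lt_of_le_of_ne le_sup_right
      intro heq
      apply hunot
      rw [heq]
      exact (le_sup_left : Subgroup.zpowers u ≤ _) (Subgroup.mem_zpowers u)
    have hdvd := Subgroup.card_dvd_of_le hlt.le
    have hltc : Nat.card (Cfsg.oddCore G) < Nat.card (Subgroup.zpowers u ⊔ Cfsg.oddCore G : Subgroup G) := by
      by_contra hge
      push Not at hge
      exact hlt.ne (Subgroup.eq_of_le_of_card_ge hlt.le hge)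
    have hcore' : Cfsg.oddCore G = commutator G := hcore.symm
    rw [hcore'] at hdvd hltc
    rw [hcore']
    apply Subgroup.eq_top_of_le_card
    obtain ⟨k, hk⟩ := hdvd
    rw [hk] at hltc ⊢
    rw [← hcardG]
    have hpos : 0 < Nat.card (commutator G) := Nat.card_pos
    have hk2 : 2 ≤ k := by
      by_contra hlt2
      have : k = 0 ∨ k = 1 := by omega
      rcases this with h0 | h1
      · rw [h0] at hltc; simp at hltc
      · rw [h1] at hltc; simp at hltc
    exact Nat.mul_le_mul_left _ hk2

end Cfsg.Agent.S4757
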