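import Cfsg.Statements.S4762
import Cfsg.Agent.S0154
import Cfsg.Agent.S0169
import Cfsg.Agent.S0187
import Cfsg.Agent.S0894
import Cfsg.Agent.Lib.CT.Kernel
import Cfsg.Agent.Lib.CT.LinChar
import Cfsg.Agent.Lib.CT.Orth
import Cfsg.Agent.Lib.CT.Wedderburn
import Cfsg.Agent.Lib.Helper2.Nilp
import Cfsg.Agent.Lib.Helper3.Irr
import Cfsg.Agent.Lib.Helper63.PFrattini
import Cfsg.Agent.Lib.Helper80.Core
import Cfsg.Agent.Lib.Helper80.Integrality
import Cfsg.Agent.Lib.Helper90.Frattini2

set_option autoImplicit false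
open Cfsg

namespace Cfsg.Agent.S4762

open Cfsg.Agent.Lib.Helper80.Integrality
open scoped commutatorElement

/-- The number of linear characters, as a filter cardinality. -/
theorem card_linear {G : Type*} [Group G] [Finite G] [Fintype (IrrCharacter G)] :
    (Finset.univ.filter (fun χ : IrrCharacter G => charDegree (χ : G → ℂ) = 1)).card
      = (commutator G).index := by
  classical
  have hd : ∀ χ : IrrCharacter G, (χ : G → ℂ) 1 = (charDegree (χ : G → ℂ) : ℂ) := fun χ =>
    apply_one_eq_charDegree (isCharacter_of_isIrrCharacter χ.2)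
  rw [← Cfsg.Agent.S0154.result (G := G), Nat.card_eq_fintype_card, Fintype.card_subtype]
  congr 1
  ext χ
  simp only [Finset.mem_filter, Finset.mem_univ, true_and]
  rw [hd χ]
  exact_mod_cast Iff.rfl

/-- An extraspecial 2-group has exactly one irreducible character of even degree. -/
theorem converse {G : Type*} [Group G] [Finite G] (hP : IsExtraspecial 2 G) :
    Nat.card {χ : IrrCharacter G // 2 ∣ charDegree (χ : G → ℂ)} = 1 := by
  classical
  obtain ⟨⟨hpg, -, hcomm⟩, hZ⟩ := hP
  have : Fact (Nat.Prime 2) := ⟨Nat.prime_two⟩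
  have : Fintype G := Fintype.ofFinite G
  have := Cfsg.Agent.Lib.CT.Wedderburn.finite_irrCharacter G
  have : Fintype (IrrCharacter G) := Fintype.ofFinite _
  have hd : ∀ χ : IrrCharacter G, (χ : G → ℂ) 1 = (charDegree (χ : G → ℂ) : ℂ) := fun χ =>
    apply_one_eq_charDegree (isCharacter_of_isIrrCharacter χ.2)
  obtain ⟨n, hn⟩ := IsPGroup.iff_card.1 hpg
  have hdiv : ∀ χ : IrrCharacter G,
      2 ∣ charDegree (χ : G → ℂ) ↔ ¬ charDegree (χ : G → ℂ) = 1 := by
    intro χ
    constructor
    · intro h h1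
      rw [h1] at h
      omega
    · intro h
      have h1 := charDegree_dvd_card χ
      rw [hn] at h1
      obtain ⟨j, -, hj⟩ := (Nat.dvd_prime_pow Nat.prime_two).1 h1
      rw [hj] at h ⊢
      cases j with
      | zero => simp at h
      | succ j => exact dvd_pow_self 2 (Nat.succ_ne_zero j)
  have hsq : ∀ χ : IrrCharacter G, ¬ charDegree (χ : G → ℂ) = 1 →
      2 * charDegree (χ : G → ℂ) ^ 2 = Nat.card G := by
    intro χ hχ
    have hχ1 : (χ : G → ℂ) 1 ≠ 1 := by
      rw [hd χ]
      exact_mod_cast hχ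
    have h1 := Cfsg.Agent.Lib.Helper80.Core.sum_normSq_eq_card χ
    have h2 : ∀ g : G, Complex.normSq ((χ : G → ℂ) g)
        = if g ∈ Subgroup.center G then ((charDegree (χ : G → ℂ) : ℝ)) ^ 2 else 0 := by
      intro g
      by_cases hg : g ∈ Subgroup.center G
      · rw [if_pos hg, Complex.normSq_eq_norm_sq,
          Cfsg.Agent.Lib.Helper80.Core.norm_apply_of_mem_center χ g hg]
      · rw [if_neg hg, Cfsg.Agent.S0894.vanish 2 hcomm hZ χ hχ1 g hg]
        simp
    simp only [h2] at h1
    rw [← Finset.sum_filter, Finset.sum_const, nsmul_eq_mul] at h1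
    have h3 : (Finset.univ.filter (fun g : G => g ∈ Subgroup.center G)).card = 2 := by
      rw [← hZ, Nat.card_eq_fintype_card, Fintype.card_subtype]
    rw [h3] at h1
    exact_mod_cast h1
  have hsum := Cfsg.Agent.Lib.CT.Orth.sum_charDegree_sq_sum (G := G)
  have hsum2 : ∑ χ : IrrCharacter G,
      (if charDegree (χ : G → ℂ) = 1 then 2 else Nat.card G) = 2 * Nat.card G := by
    have h0 : 2 * Nat.card G = ∑ χ : IrrCharacter G, 2 * charDegree (χ : G → ℂ) ^ 2 := by
      rw [← Finset.mul_sum, hsum]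
    rw [h0]
    apply Finset.sum_congr rfl
    intro χ _
    split_ifs with h
    · rw [h]
      norm_num
    · exact (hsq χ h).symm
  rw [Finset.sum_ite, Finset.sum_const, Finset.sum_const, smul_eq_mul, smul_eq_mul] at hsum2
  have hlin := card_linear (G := G)
  have h3 := Subgroup.card_mul_index (commutator G)
  rw [hcomm, hZ] at h3
  rw [hcomm] at hlin
  have hm : 0 < Nat.card G := Nat.card_pos
  have hN : (Finset.univ.filter
      (fun χ : IrrCharacter G => ¬ charDegree (χ : G → ℂ) = 1)).card = 1 := by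
    have h4 : (Finset.univ.filter
      (fun χ : IrrCharacter G => ¬ charDegree (χ : G → ℂ) = 1)).card * Nat.card G
        = 1 * Nat.card G := by
      rw [hlin] at hsum2
      omega
    exact Nat.eq_of_mul_eq_mul_right hm h4
  rw [Nat.card_eq_fintype_card, Fintype.card_subtype, ← hN]
  congr 1
  ext χ
  simp only [Finset.mem_filter, Finset.mem_univ, true_and]
  exact hdiv χ

/-- A `p`-group with exactly one nonlinear irreducible character is an extraspecial 2-group. -/
theorem pgroup_case {G : Type*} [Group G] [Finite G] (p : ℕ) [Fact p.Prime] (hG : IsPGroup p G)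
    (h : Nat.card {χ : IrrCharacter G // p ∣ charDegree (χ : G → ℂ)} = 1) :
    p = 2 ∧ IsExtraspecial 2 G := by
  classical
  have hpp : p.Prime := Fact.out
  have : Fintype G := Fintype.ofFinite G
  have := Cfsg.Agent.Lib.CT.Wedderburn.finite_irrCharacter G
  have : Fintype (IrrCharacter G) := Fintype.ofFinite _
  obtain ⟨n, hn⟩ := IsPGroup.iff_card.1 hG
  have hdiv : ∀ χ : IrrCharacter G,
      p ∣ charDegree (χ : G → ℂ) ↔ ¬ charDegree (χ : G → ℂ) = 1 := by
    intro χ
    constructor
    · intro h h1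
      rw [h1] at h
      exact hpp.one_lt.ne' (Nat.dvd_one.1 h)
    · intro h
      have h1 := charDegree_dvd_card χ
      rw [hn] at h1
      obtain ⟨j, -, hj⟩ := (Nat.dvd_prime_pow hpp).1 h1
      rw [hj] at h ⊢
      cases j with
      | zero => simp at h
      | succ j => exact dvd_pow_self p (Nat.succ_ne_zero j)
  obtain ⟨hsub, ⟨χ₀, hχ₀⟩⟩ := Nat.card_eq_one_iff_unique.1 h
  have huniq : ∀ χ : IrrCharacter G, ¬ charDegree (χ : G → ℂ) = 1 → χ = χ₀ := by
    intro χ hχ
    have := hsub.elim ⟨χ, (hdiv χ).2 hχ⟩ ⟨χ₀, hχ₀⟩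
    exact congrArg Subtype.val this
  obtain ⟨d, hddef⟩ : ∃ d, charDegree (χ₀ : G → ℂ) = d := ⟨_, rfl⟩
  have hd1 : ¬ d = 1 := hddef ▸ (hdiv χ₀).1 hχ₀
  have hsum := Cfsg.Agent.Lib.CT.Orth.sum_charDegree_sq_sum (G := G)
  have hsum2 : ∑ χ : IrrCharacter G,
      (if charDegree (χ : G → ℂ) = 1 then 1 else d ^ 2) = Nat.card G := by
    rw [← hsum]
    apply Finset.sum_congr rfl
    intro χ _
    split_ifs with h1
    · rw [h1]
      norm_num
    · rw [huniq χ h1, hddef]
  rw [Finset.sum_ite, Finset.sum_const, Finset.sum_const, smul_eq_mul, smul_eq_mul, mul_one]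
    at hsum2
  have hnl : (Finset.univ.filter
      (fun χ : IrrCharacter G => ¬ charDegree (χ : G → ℂ) = 1)).card = 1 := by
    rw [Finset.card_eq_one]
    refine ⟨χ₀, ?_⟩
    ext χ
    simp only [Finset.mem_filter, Finset.mem_univ, true_and, Finset.mem_singleton]
    constructor
    · exact huniq χ
    · rintro rfl
      rw [hddef]
      exact hd1
  rw [hnl, card_linear, one_mul] at hsum2
  obtain ⟨a, hadef⟩ : ∃ a, (commutator G).index = a := ⟨_, rfl⟩
  obtain ⟨b, hbdef⟩ : ∃ b, Nat.card (commutator G) = b := ⟨_, rfl⟩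
  have hab : b * a = Nat.card G := by
    rw [← hadef, ← hbdef]
    exact Subgroup.card_mul_index _
  rw [hadef] at hsum2
  have hdvd : d ∣ p ^ n := by
    rw [← hn, ← hddef]
    exact charDegree_dvd_card χ₀
  obtain ⟨j, -, hj⟩ := (Nat.dvd_prime_pow hpp).1 hdvd
  have hbdvd : b ∣ p ^ n := by
    rw [← hn, ← hbdef]
    exact Subgroup.card_subgroup_dvd_card (commutator G)
  obtain ⟨c, -, hc⟩ := (Nat.dvd_prime_pow hpp).1 hbdvd
  have hbpos : 0 < b := by
    rw [← hbdef]
    exact Nat.card_pos
  have hdpos : 0 < d := by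
    rw [hj]
    exact pow_pos hpp.pos j
  obtain ⟨b', hb'⟩ : ∃ b', b = b' + 1 := ⟨b - 1, by omega⟩
  have hd2 : d ^ 2 = b' * a := by
    rw [hb', Nat.succ_mul] at hab
    omega
  have hb'dvd : b' ∣ p ^ (j * 2) := by
    rw [pow_mul, ← hj, hd2]
    exact Dvd.intro _ rfl
  obtain ⟨i, -, hi⟩ := (Nat.dvd_prime_pow hpp).1 hb'dvd
  have hc0 : c ≠ 0 := by
    rintro rfl
    rw [pow_zero] at hc
    have : b' = 0 := by omega
    rw [this, zero_mul] at hd2
    have : d = 0 := by simpa using hd2
    omega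
  have hi0 : i = 0 := by
    by_contra hi0
    have h1 : p ∣ b := by
      rw [hc]
      exact dvd_pow_self p hc0
    have h2 : p ∣ b' := by
      rw [hi]
      exact dvd_pow_self p hi0
    rw [hb'] at h1
    have h3 : p ∣ 1 := (Nat.dvd_add_right h2).1 h1
    exact hpp.one_lt.ne' (Nat.dvd_one.1 h3)
  rw [hi0, pow_zero] at hi
  have hb2 : b = 2 := by omega
  have hp2 : p = 2 := by
    have h1 : p ∣ 2 := by
      rw [← hb2, hc]
      exact dvd_pow_self p hc0
    exact (Nat.prime_dvd_prime_iff_eq hpp Nat.prime_two).1 h1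
  subst hp2
  refine ⟨rfl, ?_⟩
  rw [hi, one_mul] at hd2
  have hcard2 : 2 * a = Nat.card G := by
    rw [← hab, hb2]
  -- the commutator subgroup is central
  have hcz : commutator G ≤ Subgroup.center G :=
    Cfsg.Agent.Lib.Helper63.PFrattini.normal_card_prime_le_center hG (commutator G)
      (hbdef.trans hb2)
  -- the centre has order at most 2
  have hZle : Nat.card (Subgroup.center G) * d ^ 2 ≤ Nat.card G := by
    have h1 := Cfsg.Agent.Lib.Helper80.Core.sum_normSq_eq_card χ₀
    have h2 : ∑ g ∈ Finset.univ.filter (fun g : G => g ∈ Subgroup.center G),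
        Complex.normSq ((χ₀ : G → ℂ) g) ≤ ∑ g : G, Complex.normSq ((χ₀ : G → ℂ) g) :=
      Finset.sum_le_sum_of_subset_of_nonneg (Finset.filter_subset _ _)
        (fun g _ _ => Complex.normSq_nonneg _)
    have h3 : ∑ g ∈ Finset.univ.filter (fun g : G => g ∈ Subgroup.center G),
        Complex.normSq ((χ₀ : G → ℂ) g)
          = (Nat.card (Subgroup.center G) : ℝ) * (d : ℝ) ^ 2 := by
      rw [Finset.sum_congr rfl (fun g hg => by
        rw [Complex.normSq_eq_norm_sq,
          Cfsg.Agent.Lib.Helper80.Core.norm_apply_of_mem_center χ₀ g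
            (Finset.mem_filter.1 hg).2, hddef]), Finset.sum_const, nsmul_eq_mul]
      congr 1
      rw [Nat.card_eq_fintype_card, Fintype.card_subtype]
    rw [h3, h1] at h2
    exact_mod_cast h2
  have hapos : 0 < a := by
    rcases Nat.eq_zero_or_pos a with h0 | h0
    · rw [h0] at hd2
      have : d = 0 := by simpa using hd2
      omega
    · exact h0
  have hZ2 : Nat.card (Subgroup.center G) ≤ 2 := by
    rw [hd2, ← hcard2] at hZle
    exact Nat.le_of_mul_le_mul_right hZle hapos
  have hcomm : commutator G = Subgroup.center G :=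
    Subgroup.eq_of_le_of_card_ge hcz (by rw [hbdef, hb2]; exact hZ2)
  have hZ : Nat.card (Subgroup.center G) = 2 := by
    rw [← hcomm, hbdef, hb2]
  -- squares are central
  have hsq : ∀ x : G, x ^ 2 ∈ commutator G := by
    intro x
    rw [hcomm, Subgroup.mem_center_iff]
    intro y
    have hcmem : x * y * x⁻¹ * y⁻¹ ∈ commutator G := by
      have : x * y * x⁻¹ * y⁻¹ = ⁅x, y⁆ := by rw [commutatorElement_def]
      rw [this, commutator_def]
      exact Subgroup.commutator_mem_commutator (Subgroup.mem_top _) (Subgroup.mem_top _)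
    obtain ⟨e, he⟩ : ∃ e, x * y * x⁻¹ * y⁻¹ = e := ⟨_, rfl⟩
    rw [he] at hcmem
    have he2 : e * e = 1 := by
      have h1 : (⟨e, hcmem⟩ : commutator G) ^ Nat.card (commutator G) = 1 := pow_card_eq_one'
      rw [hbdef, hb2] at h1
      have h2 := congrArg Subtype.val h1
      simpa [pow_two] using h2
    have hec : ∀ g : G, g * e = e * g := Subgroup.mem_center_iff.1 (hcz hcmem)
    have hxy : x * y = e * (y * x) := by
      rw [← he]
      group
    calc y * x ^ 2 = (e * e) * (y * x * x) := by rw [he2, one_mul, pow_two, mul_assoc]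
      _ = e * (e * (y * x)) * x := by group
      _ = e * (x * y) * x := by rw [← hxy]
      _ = (e * x) * (y * x) := by group
      _ = (x * e) * (y * x) := by rw [hec x]
      _ = x * (e * (y * x)) := by group
      _ = x * (x * y) := by rw [← hxy]
      _ = x ^ 2 * y := by rw [pow_two, mul_assoc]
  have hfrat : frattini G = commutator G := by
    apply le_antisymm
    · apply Cfsg.Agent.Lib.Helper90.Frattini2.frattini_le_of_sq_comm (commutator G) hsq
      intro u v
      have : u * v * u⁻¹ * v⁻¹ = ⁅u, v⁆ := by rw [commutatorElement_def]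
      rw [this, commutator_def]
      exact Subgroup.commutator_mem_commutator (Subgroup.mem_top _) (Subgroup.mem_top _)
    · exact Cfsg.Agent.Lib.Helper63.PFrattini.commutator_le_frattini hG
  exact ⟨⟨hG, hfrat.trans hcomm, hcomm⟩, hZ⟩

/-- A finite nilpotent group with exactly one irreducible character of degree divisible by `p`
is a `p`-group. -/
theorem isPGroup_of_unique {G : Type*} [Group G] [Finite G] [Group.IsNilpotent G] (p : ℕ)
    [Fact p.Prime]
    (h : Nat.card {χ : IrrCharacter G // p ∣ charDegree (χ : G → ℂ)} = 1) : IsPGroup p G := by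
  classical
  have hpp : p.Prime := Fact.out
  obtain ⟨hsub, ⟨χ₀, hχ₀⟩⟩ := Nat.card_eq_one_iff_unique.1 h
  have huniq : ∀ χ : IrrCharacter G, p ∣ charDegree (χ : G → ℂ) → χ = χ₀ := by
    intro χ hχ
    have := hsub.elim ⟨χ, hχ⟩ ⟨χ₀, hχ₀⟩
    exact congrArg Subtype.val this
  obtain ⟨P⟩ : Nonempty (Sylow p G) := inferInstance
  have hPn : (P : Subgroup G).Normal :=
    Sylow.normal_of_normalizerCondition Group.normalizerCondition_of_isNilpotent P
  obtain ⟨H, hH⟩ := Subgroup.exists_right_complement'_of_coprime (Sylow.card_coprime_index P)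
  have hHcard : Nat.card H = (P : Subgroup G).index := hH.symm.index_eq_card.symm
  obtain ⟨k, hk⟩ := IsPGroup.iff_card.1 P.2
  have hHcop : ¬ p ∣ Nat.card H := by
    rw [hHcard]
    exact P.not_dvd_index
  -- elements of P and H commute
  have hcomm : ∀ x ∈ (P : Subgroup G), ∀ y ∈ H, x * y = y * x := by
    intro x hx y hy
    apply Cfsg.Agent.Lib.Helper2.Nilp.commute_of_coprime G inferInstance x y
    have h1 : orderOf x ∣ p ^ k := hk ▸ Subgroup.orderOf_dvd_natCard _ hx
    have h2 : orderOf y ∣ Nat.card H := Subgroup.orderOf_dvd_natCard _ hy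
    have h3 : (p ^ k).Coprime (Nat.card H) :=
      Nat.Coprime.pow_left k ((Nat.Prime.coprime_iff_not_dvd hpp).2 hHcop)
    exact Nat.Coprime.of_dvd h1 h2 h3
  have hHn : H.Normal := by
    constructor
    intro y hy g
    obtain ⟨⟨⟨x, hx⟩, ⟨z, hz⟩⟩, rfl⟩ := hH.2 g
    have h1 : z * y * z⁻¹ ∈ H := H.mul_mem (H.mul_mem hz hy) (H.inv_mem hz)
    have h2 := hcomm x hx _ h1
    have h3 : x * z * y * (x * z)⁻¹ = z * y * z⁻¹ := by
      calc x * z * y * (x * z)⁻¹ = x * (z * y * z⁻¹) * x⁻¹ := by group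
        _ = (z * y * z⁻¹) * x * x⁻¹ := by rw [h2]
        _ = z * y * z⁻¹ := by group
    show x * z * y * (x * z)⁻¹ ∈ H
    rw [h3]
    exact h1
  have hQcard : Nat.card (G ⧸ H) = p ^ k := by
    rw [← Subgroup.index_eq_card, hH.index_eq_card, hk]
  -- a nonlinear irreducible character of G ⧸ H
  have hex : ∃ χb : IrrCharacter (G ⧸ H), (χb : G ⧸ H → ℂ) 1 ≠ 1 := by
    by_contra hno
    push Not at hno
    have hab := Cfsg.Agent.S0187.result.2 hno
    have hPab : ∀ a ∈ (P : Subgroup G), ∀ b ∈ (P : Subgroup G), a * b = b * a := by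
      intro a ha b hb
      have h1 := hab (a : G ⧸ H) (b : G ⧸ H)
      rw [← QuotientGroup.mk_mul, ← QuotientGroup.mk_mul] at h1
      have h2 : (a * b)⁻¹ * (b * a) ∈ H := QuotientGroup.eq.1 h1
      have h3 : (a * b)⁻¹ * (b * a) ∈ (P : Subgroup G) :=
        (P : Subgroup G).mul_mem ((P : Subgroup G).inv_mem ((P : Subgroup G).mul_mem ha hb))
          ((P : Subgroup G).mul_mem hb ha)
      have h4 : (a * b)⁻¹ * (b * a) = 1 := Subgroup.disjoint_def.1 hH.disjoint h3 h2
      calc a * b = (a * b) * ((a * b)⁻¹ * (b * a)) := by rw [h4, mul_one]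
        _ = b * a := by group
    obtain ⟨m, ρ, hρ, hρχ⟩ := χ₀.2
    have hito := Cfsg.Agent.S0169.ito ρ hρ (P : Subgroup G) hPab
    have hdeg : charDegree (χ₀ : G → ℂ) = m := by
      rw [← hρχ, charDegree_eq_finrank]
      simp
    rw [hdeg] at hχ₀
    exact P.not_dvd_index (hχ₀.trans hito)
  obtain ⟨χb, hχb⟩ := hex
  have hdb : (χb : G ⧸ H → ℂ) 1 = (charDegree (χb : G ⧸ H → ℂ) : ℂ) :=
    apply_one_eq_charDegree (isCharacter_of_isIrrCharacter χb.2)
  have hpb : p ∣ charDegree (χb : G ⧸ H → ℂ) := by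
    have h1 := charDegree_dvd_card χb
    rw [hQcard] at h1
    obtain ⟨j, -, hj⟩ := (Nat.dvd_prime_pow hpp).1 h1
    rw [hj]
    cases j with
    | zero =>
      exfalso
      apply hχb
      rw [hdb, hj]
      simp
    | succ j => exact dvd_pow_self p (Nat.succ_ne_zero j)
  -- inflate to G
  obtain ⟨α, hα⟩ : ∃ α : G → ℂ, α = fun g : G => (χb : G ⧸ H → ℂ) (g : G ⧸ H) := ⟨_, rfl⟩
  have hαirr : IsIrrCharacter G α := by
    rw [hα]
    exact Cfsg.Agent.Lib.CT.Kernel.isIrrCharacter_inflation H χb.2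
  have hα1 : α 1 = (χb : G ⧸ H → ℂ) 1 := by
    rw [hα]
    rfl
  have hαdeg : charDegree α = charDegree (χb : G ⧸ H → ℂ) := by
    unfold charDegree
    rw [hα1]
  have hαχ₀ : (⟨α, hαirr⟩ : IrrCharacter G) = χ₀ := huniq _ (by rw [hαdeg]; exact hpb)
  have hHbot : H = ⊥ := by
    by_contra hne
    have hnt : Nontrivial (G ⧸ (P : Subgroup G)) := by
      rw [← Finite.one_lt_card_iff_nontrivial, ← Subgroup.index_eq_card, ← hHcard]
      exact (Subgroup.one_lt_card_iff_ne_bot H).2 hne
    have hlt := Group.IsSolvable.commutator_lt_top_of_nontrivial (G ⧸ (P : Subgroup G))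
    have hidx : (commutator (G ⧸ (P : Subgroup G))).index ≠ 1 := by
      rw [Ne, Subgroup.index_eq_one]
      exact hlt.ne
    have hcardhom := Cfsg.Agent.S0154.card_hom_eq_index (G ⧸ (P : Subgroup G))
    obtain ⟨φb, hφb⟩ : ∃ φb : (G ⧸ (P : Subgroup G)) →* ℂˣ, φb ≠ 1 := by
      by_contra hall
      push Not at hall
      have hss : Subsingleton ((G ⧸ (P : Subgroup G)) →* ℂˣ) :=
        ⟨fun a b => (hall a).trans (hall b).symm⟩
      have h1 : Nat.card ((G ⧸ (P : Subgroup G)) →* ℂˣ) = 1 :=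
        Nat.card_eq_one_iff_unique.2 ⟨hss, ⟨1⟩⟩
      rw [hcardhom] at h1
      exact hidx h1
    obtain ⟨gb, hgb⟩ : ∃ gb, φb gb ≠ 1 := by
      by_contra hall
      push Not at hall
      exact hφb (MonoidHom.ext hall)
    obtain ⟨g, rfl⟩ := QuotientGroup.mk_surjective gb
    obtain ⟨⟨⟨x, hx⟩, ⟨z, hz⟩⟩, rfl⟩ := hH.2 g
    obtain ⟨φ, hφ⟩ : ∃ φ : G →* ℂˣ, φ = φb.comp (QuotientGroup.mk' (P : Subgroup G)) :=
      ⟨_, rfl⟩
    have hφx : φ x = 1 := by
      rw [hφ, MonoidHom.comp_apply, QuotientGroup.mk'_apply, (QuotientGroup.eq_one_iff x).2 hx,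
        map_one]
    have hφz : φ z ≠ 1 := by
      intro h1
      apply hgb
      have h2 : φ (x * z) = 1 := by rw [map_mul, hφx, h1, one_mul]
      rw [hφ] at h2
      exact h2
    obtain ⟨μ, hμdef⟩ : ∃ μ : G → ℂ, μ = fun g => ((φ g : ℂˣ) : ℂ) := ⟨_, rfl⟩
    have hμ : IsCharacter G μ := by
      rw [hμdef]
      exact Cfsg.Agent.Lib.CT.LinChar.isCharacter_of_hom φ
    have hμ1 : μ 1 = 1 := by
      rw [hμdef]
      simp
    have hirr : IsIrrCharacter G (μ * α) :=
      Cfsg.Agent.Lib.CT.LinChar.isIrrCharacter_linear_mul hμ hμ1 hαirr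
    have hdeg : charDegree (μ * α) = charDegree α := by
      unfold charDegree
      rw [Pi.mul_apply, hμ1, one_mul]
    have heq : (⟨μ * α, hirr⟩ : IrrCharacter G) = χ₀ :=
      huniq _ (by rw [hdeg, hαdeg]; exact hpb)
    have heq2 : μ * α = α := congrArg Subtype.val (heq.trans hαχ₀.symm)
    have h1 := congrFun heq2 z
    rw [Pi.mul_apply] at h1
    have hαz : α z = (χb : G ⧸ H → ℂ) 1 := by
      rw [hα]
      show (χb : G ⧸ H → ℂ) (z : G ⧸ H) = _
      rw [(QuotientGroup.eq_one_iff z).2 hz]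
    have hne0 : α z ≠ 0 := by
      rw [hαz, hdb]
      have := charDegree_pos χb
      exact_mod_cast this.ne'
    have h2 : μ z = 1 := by
      have h3 : (μ z - 1) * α z = 0 := by linear_combination h1
      rcases mul_eq_zero.1 h3 with h | h
      · linear_combination h
      · exact absurd h hne0
    apply hφz
    rw [hμdef] at h2
    exact Units.ext h2
  have hGcard : Nat.card G = p ^ k := by
    rw [← hH.card_mul_card, hk, hHbot, Subgroup.card_bot, mul_one]
  exact IsPGroup.of_card hGcard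

/-- Let p be a prime and G a finite nilpotent group. Then G has exactly one irreducible complex character of degree divisible by p if and only if p = 2 and G is an extraspecial 2-group. -/
theorem result {G : Type*} [Group G] [Finite G] [Group.IsNilpotent G] (p : ℕ) [Fact p.Prime] : Nat.card {χ : Cfsg.IrrCharacter G // p ∣ Cfsg.charDegree (χ : G → ℂ)} = 1 ↔ (p = 2 ∧ Cfsg.IsExtraspecial 2 G) := by
  constructor
  · intro h
    exact pgroup_case p (isPGroup_of_unique p h) h
  · rintro ⟨rfl, hE⟩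
    exact converse hE

end Cfsg.Agent.S4762
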