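import Cfsg.Statements.S4765
import Cfsg.Agent.Lib.Helper38.PSL2Deg

set_option autoImplicit false
open Cfsg

namespace Cfsg.Agent.S4765

/-- Let F be a finite field of characteristic p with at least 4 elements. Then PSL(2,F) has exactly one irreducible complex character of degree divisible by p, and its degree is the order of F. -/
theorem result (p : ℕ) [Fact p.Prime] (F : Type*) [Field F] [Fintype F] [CharP F p] (hF : 4 ≤ Fintype.card F) : Nat.card {χ : Cfsg.IrrCharacter (Matrix.ProjectiveSpecialLinearGroup (Fin 2) F) // p ∣ Cfsg.charDegree (χ : Matrix.ProjectiveSpecialLinearGroup (Fin 2) F → ℂ)} = 1 ∧ ∀ χ : Cfsg.IrrCharacter (Matrix.ProjectiveSpecialLinearGroup (Fin 2) F), p ∣ Cfsg.charDegree (χ : Matrix.ProjectiveSpecialLinearGroup (Fin 2) F → ℂ) → Cfsg.charDegree (χ : Matrix.ProjectiveSpecialLinearGroup (Fin 2) F → ℂ) = Fintype.card F := by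
  classical
  obtain ⟨h1, h2⟩ := Cfsg.Agent.Lib.Helper38.PSL2Deg.PSL_sing F p hF
  obtain ⟨hp, k, hk, hk0⟩ := Cfsg.Agent.Lib.Helper38.PSL2Deg.card_prime_pow F p
  have hpq : p ∣ Fintype.card F := by
    rw [hk]
    exact dvd_pow_self p (by omega)
  have key : ∀ χ : Cfsg.IrrCharacter (Matrix.ProjectiveSpecialLinearGroup (Fin 2) F),
      p ∣ Cfsg.charDegree (χ : Matrix.ProjectiveSpecialLinearGroup (Fin 2) F → ℂ) ↔
        Cfsg.charDegree (χ : Matrix.ProjectiveSpecialLinearGroup (Fin 2) F → ℂ)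
          = Fintype.card F :=
    fun χ => Cfsg.Agent.Lib.Helper38.PSL2Deg.dvd_deg_iff p _ _ hp hpq (by omega) (h1 _ ⟨χ, rfl⟩)
  constructor
  · rw [Nat.card_congr (Equiv.subtypeEquivRight key)]
    exact h2
  · intro χ h
    exact (key χ).mp h

end Cfsg.Agent.S4765
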