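import Cfsg.Statements.S4774
import Cfsg.Agent.Lib.Helper38.PSL2Deg

set_option autoImplicit false
open Cfsg

namespace Cfsg.Agent.S4774

/-- Let F be a finite field of odd characteristic t with q > 5 elements and let S be isomorphic to PSL(2,F) or to SL(2,F). Then the vertices of the character degree graph of S are the primes dividing q(q²−1); the prime t is adjacent to no vertex; two distinct primes dividing q² − 1 are adjacent exactly when one of them is 2, or both divide q + 1, or both divide q − 1. -/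
theorem result (F : Type*) [Field F] [Fintype F] (t : ℕ) [Fact t.Prime] [CharP F t] (ht : t ≠ 2) (q : ℕ) (hq : Fintype.card F = q) (h5 : 5 < q) {S : Type*} [Group S] [Finite S] (hS : Nonempty (S ≃* Matrix.ProjectiveSpecialLinearGroup (Fin 2) F) ∨ Nonempty (S ≃* Matrix.SpecialLinearGroup (Fin 2) F)) : Cfsg.degreePrimes S = {r : ℕ | r.Prime ∧ r ∣ q * (q ^ 2 - 1)} ∧ ∀ r s : ℕ, (Cfsg.degreeGraph S).Adj r s ↔ (r ≠ s ∧ r.Prime ∧ s.Prime ∧ r ∣ q ^ 2 - 1 ∧ s ∣ q ^ 2 - 1 ∧ (r = 2 ∨ s = 2 ∨ (r ∣ q + 1 ∧ s ∣ q + 1) ∨ (r ∣ q - 1 ∧ s ∣ q - 1))) := by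
  subst hq
  obtain ⟨htp, k, hk, -⟩ := Cfsg.Agent.Lib.Helper38.PSL2Deg.card_prime_pow F t
  have hodd := Cfsg.Agent.Lib.Helper38.PSL2Deg.card_odd F t ht
  have hodd' : Fintype.card F % 2 = 1 := Nat.odd_iff.mp hodd
  have h7 : 7 ≤ Fintype.card F := by omega
  have hcd : (∀ d ∈ charDegrees S, d = 1 ∨ d = Fintype.card F ∨ d = Fintype.card F + 1 ∨
      d = Fintype.card F - 1 ∨ d = (Fintype.card F + 1) / 2 ∨ d = (Fintype.card F - 1) / 2) ∧
      Fintype.card F - 1 ∈ charDegrees S ∧ Fintype.card F ∈ charDegrees S ∧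
      Fintype.card F + 1 ∈ charDegrees S := by
    rcases hS with ⟨⟨e⟩⟩ | ⟨⟨e⟩⟩
    · rw [Cfsg.Agent.Lib.Helper38.PSL2Deg.charDegrees_congr e]
      obtain ⟨hsub, hc, hab⟩ := Cfsg.Agent.Lib.Helper38.PSL2Deg.PSL_odd F t ht (by omega)
      obtain ⟨ha, hb⟩ := hab h7
      exact ⟨hsub, Cfsg.Agent.Lib.Helper38.PSL2Deg.mem_charDegrees_of_degCount_pos hb,
        Cfsg.Agent.Lib.Helper38.PSL2Deg.mem_charDegrees_of_degCount_pos (by rw [hc]; norm_num),
        Cfsg.Agent.Lib.Helper38.PSL2Deg.mem_charDegrees_of_degCount_pos ha⟩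
    · rw [Cfsg.Agent.Lib.Helper38.PSL2Deg.charDegrees_congr e]
      obtain ⟨c1, c2, c3, c4, c5, c6⟩ :=
        Cfsg.Agent.Lib.Helper38.PSL2Deg.degCount_SL_odd F hodd (by omega)
      exact ⟨Cfsg.Agent.Lib.Helper38.PSL2Deg.cd_SL_odd F hodd,
        Cfsg.Agent.Lib.Helper38.PSL2Deg.mem_charDegrees_of_degCount_pos (by rw [c4]; omega),
        Cfsg.Agent.Lib.Helper38.PSL2Deg.mem_charDegrees_of_degCount_pos (by rw [c2]; norm_num),
        Cfsg.Agent.Lib.Helper38.PSL2Deg.mem_charDegrees_of_degCount_pos (by rw [c3]; omega)⟩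
  exact Cfsg.Agent.Lib.Helper38.PSL2Deg.graph_odd _ t k htp hk hodd' h5 hcd.1 hcd.2.1 hcd.2.2.1
    hcd.2.2.2

end Cfsg.Agent.S4774
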