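import Cfsg.Statements.S4784
import Cfsg.Agent.Lib.Helper74.FSCount
import Cfsg.Agent.Lib.Helper82.FourierCount
import Cfsg.Agent.Lib.CT.FrobRec
import Cfsg.Agent.Lib.CT.PairCount
import Cfsg.Agent.Lib.CT.Kernel
import Cfsg.Agent.Lib.CT.Orth
import Cfsg.Agent.Lib.Helper3.Irr
import Cfsg.Agent.Lib.Helper80.Integrality

set_option autoImplicit false
open Cfsg

namespace Cfsg.Agent.S4784

open Cfsg.Agent.Lib.CT.FSInd Cfsg.Agent.Lib.Helper74.FSCount
open Cfsg.Agent.Lib.Helper80.Integrality
open scoped ComplexConjugate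

/-- The principal character as an element of `IrrCharacter G`. -/
noncomputable def triv (G : Type*) [Group G] : IrrCharacter G :=
  ⟨fun _ => (1 : ℂ), Cfsg.Agent.Lib.CT.Ops.isIrrCharacter_one⟩

/-- The multiplicity of a character in the permutation character on the cosets of `H`. -/
theorem inner_perm {G : Type*} [Group G] [Fintype G] (H : Subgroup G) [Fintype H] {χ : G → ℂ}
    (hχ : IsCharacter G χ) (m : ℕ) (hm : ∑ w : H, χ (w : G) = (Nat.card H : ℂ) * m) :
    classInner (indFun H (fun _ : H => (1 : ℂ))) χ = m := by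
  rw [Cfsg.Agent.Lib.CT.FrobRec.frobenius_reciprocity H _ χ
    (Cfsg.Agent.Lib.Helper3.Irr.IsCharacter.isClassFunction hχ)]
  unfold classInner
  have h1 : ∑ g : H, (1 : ℂ) * conj (χ (g : G)) = conj (∑ w : H, χ (w : G)) := by
    rw [map_sum]; simp
  rw [h1, hm]
  have hne : (Nat.card H : ℂ) ≠ 0 := by exact_mod_cast Nat.card_pos.ne'
  rw [map_mul, Complex.conj_natCast, Complex.conj_natCast, ← mul_assoc, inv_mul_cancel₀ hne,
    one_mul]

/-- The permutation character is constant on the normal core. -/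
theorem perm_apply_core {G : Type*} [Group G] [Fintype G] (H : Subgroup G) (k : G)
    (hk : k ∈ H.normalCore) :
    indFun H (fun _ : H => (1 : ℂ)) k = indFun H (fun _ : H => (1 : ℂ)) 1 := by
  unfold indFun
  congr 1
  refine Finset.sum_congr rfl (fun x _ => ?_)
  have h1 : x⁻¹ * k * x ∈ H := by
    have := hk x⁻¹
    simpa using this
  have h2 : x⁻¹ * 1 * x ∈ H := by simp [H.one_mem]
  rw [Cfsg.Agent.Lib.CT.FrobRec.extendByZero_apply_of_mem H _ h1,
    Cfsg.Agent.Lib.CT.FrobRec.extendByZero_apply_of_mem H _ h2]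

/-- A constituent of the permutation character has the normal core in its kernel. -/
theorem ker_of_inner_ne {G : Type*} [Group G] [Fintype G] (H : Subgroup G) (χ : IrrCharacter G)
    (hne : classInner (indFun H (fun _ : H => (1 : ℂ))) (χ : G → ℂ) ≠ 0) (k : G)
    (hk : k ∈ H.normalCore) : (χ : G → ℂ) k = (χ : G → ℂ) 1 := by
  classical
  have : Fintype H := Fintype.ofFinite H
  have := Cfsg.Agent.Lib.CT.Wedderburn.finite_irrCharacter G
  have : Fintype (IrrCharacter G) := Fintype.ofFinite _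
  have hc : ∀ ψ : IrrCharacter G, IsCharacter G (ψ : G → ℂ) := fun ψ =>
    isCharacter_of_isIrrCharacter ψ.2
  have hm : ∀ ψ : IrrCharacter G, ∃ m : ℕ,
      ∑ w : H, (ψ : G → ℂ) (w : G) = (Nat.card H : ℂ) * m := fun ψ =>
    Cfsg.Agent.Lib.CT.PairCount.char_sum_subgroup (hc ψ) H
  choose mm hmm using hm
  have hin : ∀ ψ : IrrCharacter G,
      classInner (indFun H (fun _ : H => (1 : ℂ))) (ψ : G → ℂ) = mm ψ := fun ψ =>
    inner_perm H (hc ψ) (mm ψ) (hmm ψ)
  have hexp : ∀ g, indFun H (fun _ : H => (1 : ℂ)) g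
      = ∑ ψ : IrrCharacter G, (mm ψ : ℂ) * (ψ : G → ℂ) g := by
    intro g
    rw [Cfsg.Agent.Lib.CT.Orth.classFunction_expand_sum _
      (Cfsg.Agent.Lib.CT.FrobRec.indFun_isClassFunction H _) g]
    refine Finset.sum_congr rfl (fun ψ _ => ?_)
    rw [hin ψ]
  have h1 := perm_apply_core H k hk
  rw [hexp k, hexp 1] at h1
  have h2 : ∑ ψ : IrrCharacter G, (mm ψ : ℝ) * (((ψ : G → ℂ) 1).re - ((ψ : G → ℂ) k).re) = 0 := by
    have h := congrArg Complex.re h1
    rw [Complex.re_sum, Complex.re_sum] at h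
    simp only [Complex.mul_re, Complex.natCast_re, Complex.natCast_im, zero_mul, sub_zero] at h
    simp only [mul_sub]
    rw [Finset.sum_sub_distrib, h, sub_self]
  have h3 : ∀ ψ : IrrCharacter G,
      0 ≤ (mm ψ : ℝ) * (((ψ : G → ℂ) 1).re - ((ψ : G → ℂ) k).re) := fun ψ =>
    mul_nonneg (Nat.cast_nonneg _) (sub_nonneg.2 ((Complex.re_le_norm _).trans
      (Cfsg.Agent.Lib.Helper3.Irr.IsCharacter.norm_le (hc ψ) k)))
  have h4 := (Finset.sum_eq_zero_iff_of_nonneg (fun ψ _ => h3 ψ)).1 h2 χ (Finset.mem_univ _)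
  have hmne : (mm χ : ℝ) ≠ 0 := by
    intro h0
    apply hne
    rw [hin χ]
    exact_mod_cast h0
  have h5 : ((χ : G → ℂ) k).re = ((χ : G → ℂ) 1).re := by
    rcases mul_eq_zero.1 h4 with h | h
    · exact absurd h hmne
    · linarith
  have hle := Cfsg.Agent.Lib.Helper3.Irr.IsCharacter.norm_le (hc χ) k
  have him : ((χ : G → ℂ) k).im = 0 := by
    have h6 : ‖(χ : G → ℂ) k‖ ^ 2 = ((χ : G → ℂ) k).re ^ 2 + ((χ : G → ℂ) k).im ^ 2 := by
      rw [Complex.sq_norm, Complex.normSq_apply]; ring
    have h7 : ‖(χ : G → ℂ) k‖ ^ 2 ≤ ((χ : G → ℂ) k).re ^ 2 := by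
      rw [h5]; exact pow_le_pow_left₀ (norm_nonneg _) hle 2
    have h8 : ((χ : G → ℂ) k).im ^ 2 ≤ 0 := by linarith
    have h9 : ((χ : G → ℂ) k).im ^ 2 = 0 := le_antisymm h8 (sq_nonneg _)
    exact pow_eq_zero_iff (by norm_num) |>.1 h9
  obtain ⟨n, hn⟩ := Cfsg.Agent.Lib.Helper3.Irr.IsCharacter.exists_apply_one (hc χ)
  apply Complex.ext
  · exact h5
  · rw [him, hn]; simp

/-- If `K` is a normal subgroup of odd index in the kernel of the irreducible character `χ`
and `χ` has Frobenius–Schur indicator one, then `χ` is the principal character. -/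
theorem eq_one_of_fsInd {G : Type*} [Group G] [Fintype G] (K : Subgroup G) [K.Normal]
    (hodd : Odd K.index) (χ : IrrCharacter G)
    (hker : ∀ k ∈ K, (χ : G → ℂ) k = (χ : G → ℂ) 1)
    (hfs : (Nat.card G : ℂ)⁻¹ * ∑ g : G, (χ : G → ℂ) (g * g) = 1) :
    (χ : G → ℂ) = fun _ => (1 : ℂ) := by
  classical
  obtain ⟨χbar, hirr, hval⟩ := Cfsg.Agent.Lib.CT.Kernel.exists_quotient_irr K χ.2 hker
  have : Fintype (G ⧸ K) := Fintype.ofFinite _
  have h1 : ∑ g : G, (χ : G → ℂ) (g * g) = (Nat.card K : ℂ) * ∑ q : G ⧸ K, χbar (q * q) := by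
    rw [Cfsg.Agent.Lib.Helper82.FourierCount.sum_eq_card_mul_sum_quotient K
      (fun g => (χ : G → ℂ) (g * g))]
    · congr 1
      refine Finset.sum_congr rfl (fun q _ => ?_)
      rw [← hval, QuotientGroup.mk_mul, QuotientGroup.out_eq']
    · intro g t ht
      show (χ : G → ℂ) (g * t * (g * t)) = (χ : G → ℂ) (g * g)
      have e1 : (QuotientGroup.mk t : G ⧸ K) = 1 := (QuotientGroup.eq_one_iff t).2 ht
      rw [← hval, ← hval]
      simp only [QuotientGroup.mk_mul, e1, mul_one]
  have hcop : (Nat.card (G ⧸ K)).Coprime 2 := by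
    rw [← Subgroup.index_eq_card]
    exact Nat.coprime_two_right.2 hodd
  have h2 : ∑ q : G ⧸ K, χbar (q * q) = ∑ q : G ⧸ K, χbar q := by
    have := Equiv.sum_comp (powCoprime hcop) χbar
    simp only [powCoprime_apply, pow_two] at this
    exact this
  by_contra hne
  have hbar : (⟨χbar, hirr⟩ : IrrCharacter (G ⧸ K)) ≠ triv (G ⧸ K) := by
    intro h
    apply hne
    funext g
    rw [← hval g]
    exact congrArg (fun ψ : IrrCharacter (G ⧸ K) => (ψ : G ⧸ K → ℂ) (g : G ⧸ K)) h
  have horth := Cfsg.Agent.Lib.Helper3.Irr.irr_orthonormal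
    (⟨χbar, hirr⟩ : IrrCharacter (G ⧸ K)) (triv (G ⧸ K))
  rw [if_neg hbar] at horth
  have hcard : (Nat.card (G ⧸ K) : ℂ) ≠ 0 := by exact_mod_cast Nat.card_pos.ne'
  have h3 : ∑ q : G ⧸ K, χbar q = 0 := by
    unfold classInner at horth
    have h4 : ∑ q : G ⧸ K, χbar q * conj (((triv (G ⧸ K) : IrrCharacter (G ⧸ K)) : G ⧸ K → ℂ) q)
        = 0 := by
      rcases mul_eq_zero.1 horth with h | h
      · exact absurd (inv_eq_zero.1 h) hcard
      · exact h
    have h5 : ∀ q : G ⧸ K,
        χbar q * conj (((triv (G ⧸ K) : IrrCharacter (G ⧸ K)) : G ⧸ K → ℂ) q) = χbar q := by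
      intro q
      show χbar q * conj (1 : ℂ) = _
      simp
    simpa only [h5] using h4
  rw [h1, h2, h3] at hfs
  simp at hfs

/-- Let H be a subgroup of the finite group G and consider the permutation character of G on the cosets of H (the function induced from the principal character of H). Then exactly one irreducible constituent of it is real-valued with Frobenius–Schur indicator +1 (namely the principal character) if and only if the normal core of H has odd index in G. -/
theorem result {G : Type*} [Group G] [Fintype G] (H : Subgroup G) : Nat.card {χ : Cfsg.IrrCharacter G // Cfsg.classInner (Cfsg.indFun H (fun _ : H => (1 : ℂ))) (χ : G → ℂ) ≠ 0 ∧ (∀ g : G, (starRingEnd ℂ) ((χ : G → ℂ) g) = (χ : G → ℂ) g) ∧ (Nat.card G : ℂ)⁻¹ * ∑ g : G, (χ : G → ℂ) (g * g) = 1} = 1 ↔ Odd H.normalCore.index := by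
  classical
  have : Fintype H := Fintype.ofFinite H
  have := Cfsg.Agent.Lib.CT.Wedderburn.finite_irrCharacter G
  have : Fintype (IrrCharacter G) := Fintype.ofFinite _
  have hc : ∀ ψ : IrrCharacter G, IsCharacter G (ψ : G → ℂ) := fun ψ =>
    isCharacter_of_isIrrCharacter ψ.2
  have hm : ∀ ψ : IrrCharacter G, ∃ m : ℕ,
      ∑ w : H, (ψ : G → ℂ) (w : G) = (Nat.card H : ℂ) * m := fun ψ =>
    Cfsg.Agent.Lib.CT.PairCount.char_sum_subgroup (hc ψ) H
  choose mm hmm using hm
  have hin : ∀ ψ : IrrCharacter G,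
      classInner (indFun H (fun _ : H => (1 : ℂ))) (ψ : G → ℂ) = mm ψ := fun ψ =>
    inner_perm H (hc ψ) (mm ψ) (hmm ψ)
  have hHne : (Nat.card H : ℂ) ≠ 0 := by exact_mod_cast Nat.card_pos.ne'
  have hmtriv : mm (triv G) = 1 := by
    have h1 := hmm (triv G)
    have h2 : ∑ w : H, ((triv G : IrrCharacter G) : G → ℂ) (w : G) = (Nat.card H : ℂ) := by
      show ∑ w : H, (1 : ℂ) = _
      simp [Nat.card_eq_fintype_card]
    rw [h2] at h1
    have h3 : (Nat.card H : ℂ) * 1 = (Nat.card H : ℂ) * (mm (triv G) : ℂ) := by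
      rw [mul_one]; exact h1
    have h4 := mul_left_cancel₀ hHne h3
    exact_mod_cast h4.symm
  have htriv : classInner (indFun H (fun _ : H => (1 : ℂ))) ((triv G : IrrCharacter G) : G → ℂ) ≠ 0 ∧
      (∀ g : G, (starRingEnd ℂ) (((triv G : IrrCharacter G) : G → ℂ) g)
        = ((triv G : IrrCharacter G) : G → ℂ) g) ∧
      (Nat.card G : ℂ)⁻¹ * ∑ g : G, ((triv G : IrrCharacter G) : G → ℂ) (g * g) = 1 := by
    refine ⟨?_, ?_, ?_⟩
    · rw [hin, hmtriv]; simp
    · intro g
      show (starRingEnd ℂ) (1 : ℂ) = 1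
      simp
    · exact fsInd_one
  constructor
  · intro hcard
    by_contra hodd
    rw [Nat.not_odd_iff_even] at hodd
    obtain ⟨hsub, -⟩ := Nat.card_eq_one_iff_unique.1 hcard
    -- an element outside H with square in H
    have : Fintype (G ⧸ H.normalCore) := Fintype.ofFinite _
    have : Fact (Nat.Prime 2) := ⟨Nat.prime_two⟩
    have h2dvd : 2 ∣ Fintype.card (G ⧸ H.normalCore) := by
      rw [← Nat.card_eq_fintype_card, ← Subgroup.index_eq_card]
      exact hodd.two_dvd
    obtain ⟨q, hq⟩ := exists_prime_orderOf_dvd_card 2 h2dvd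
    induction q using QuotientGroup.induction_on with
    | H t =>
      have ht1 : t ∉ H.normalCore := by
        intro h
        have : (QuotientGroup.mk t : G ⧸ H.normalCore) = 1 := (QuotientGroup.eq_one_iff t).2 h
        rw [this, orderOf_one] at hq
        norm_num at hq
      have ht2 : t * t ∈ H.normalCore := by
        have h1 : (QuotientGroup.mk t : G ⧸ H.normalCore) ^ 2 = 1 := by
          rw [← hq]; exact pow_orderOf_eq_one _
        rw [pow_two, ← QuotientGroup.mk_mul] at h1
        exact (QuotientGroup.eq_one_iff _).1 h1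
      have hex : ∃ b : G, b * t * b⁻¹ ∉ H := by
        by_contra hall
        push Not at hall
        exact ht1 hall
      obtain ⟨b, hb⟩ := hex
      set t' := b * t * b⁻¹ with ht'
      have ht'2 : t' * t' ∈ H := by
        have h1 : t' * t' = b * (t * t) * b⁻¹ := by rw [ht']; group
        rw [h1]
        exact Subgroup.normalCore_le H
          ((inferInstance : H.normalCore.Normal).conj_mem _ ht2 b)
      -- counting
      set N : ℕ := (Finset.univ.filter (fun u : G => u * u ∈ H)).card with hN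
      have hNge : Nat.card H + 1 ≤ N := by
        have h1 : (Finset.univ.filter (fun u : G => u ∈ H)).card = Nat.card H := by
          rw [Nat.card_eq_fintype_card, Fintype.card_subtype]
        have h2 : insert t' (Finset.univ.filter (fun u : G => u ∈ H))
            ⊆ Finset.univ.filter (fun u : G => u * u ∈ H) := by
          intro u hu
          rw [Finset.mem_insert] at hu
          rw [Finset.mem_filter]
          refine ⟨Finset.mem_univ _, ?_⟩
          rcases hu with rfl | hu
          · exact ht'2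
          · exact H.mul_mem (Finset.mem_filter.1 hu).2 (Finset.mem_filter.1 hu).2
        have h3 := Finset.card_le_card h2
        rw [Finset.card_insert_of_notMem (by simp [hb]), h1] at h3
        exact h3
      have hcount : ∑ h : H, sqrtCount (h : G) = (N : ℂ) := by
        have h1 : ∀ g : G, sqrtCount g = ∑ u : G, if u * u = g then (1 : ℂ) else 0 := by
          intro g
          rw [sqrtCount_eq_card, Nat.card_eq_fintype_card, Fintype.card_subtype,
            Finset.card_filter]
          push_cast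
          rfl
        simp only [h1]
        rw [Finset.sum_comm, hN, Finset.card_filter]
        push_cast
        refine Finset.sum_congr rfl (fun u _ => ?_)
        by_cases hu : u * u ∈ H
        · rw [if_pos hu, Finset.sum_eq_single (⟨u * u, hu⟩ : H)]
          · simp
          · intro h _ hne
            rw [if_neg]
            intro h'
            exact hne (Subtype.ext h'.symm)
          · intro h
            exact absurd (Finset.mem_univ _) h
        · rw [if_neg hu]
          apply Finset.sum_eq_zero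
          intro h _
          rw [if_neg]
          intro h'
          exact hu (h' ▸ h.2)
      have hfs : ∑ h : H, sqrtCount (h : G)
          = (Nat.card H : ℂ) * ((∑ ψ : IrrCharacter G, fsInt (ψ : G → ℂ) * (mm ψ : ℤ) : ℤ) : ℂ) := by
        simp only [sqrtCount_eq_sum]
        rw [Finset.sum_comm]
        push_cast
        rw [Finset.mul_sum]
        refine Finset.sum_congr rfl (fun ψ _ => ?_)
        rw [← Finset.mul_sum, hmm ψ, fsInt_cast ψ.2]
        ring
      rw [hcount] at hfs
      set T : ℤ := ∑ ψ : IrrCharacter G, fsInt (ψ : G → ℂ) * (mm ψ : ℤ) with hT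
      have hNT : (N : ℤ) = (Nat.card H : ℤ) * T := by exact_mod_cast hfs
      have hHpos : 0 < (Nat.card H : ℤ) := by exact_mod_cast Nat.card_pos
      have hT2 : 2 ≤ T := by
        by_contra hlt
        have hT1 : T ≤ 1 := by omega
        have h1 : (Nat.card H : ℤ) * T ≤ (Nat.card H : ℤ) * 1 :=
          mul_le_mul_of_nonneg_left hT1 hHpos.le
        have h2 : (Nat.card H : ℤ) + 1 ≤ (N : ℤ) := by exact_mod_cast hNge
        linarith
      have hsplit : T = 1 + ∑ ψ ∈ Finset.univ.erase (triv G), fsInt (ψ : G → ℂ) * (mm ψ : ℤ) := by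
        rw [hT, ← Finset.add_sum_erase Finset.univ
          (fun ψ : IrrCharacter G => fsInt (ψ : G → ℂ) * (mm ψ : ℤ)) (Finset.mem_univ (triv G))]
        congr 1
        rw [hmtriv]
        have : fsInt ((triv G : IrrCharacter G) : G → ℂ) = 1 := fsInt_one
        rw [this]; simp
      have hpos : 0 < ∑ ψ ∈ Finset.univ.erase (triv G), fsInt (ψ : G → ℂ) * (mm ψ : ℤ) := by
        omega
      obtain ⟨ψ, hψmem, hψpos⟩ : ∃ ψ ∈ Finset.univ.erase (triv G),
          0 < fsInt (ψ : G → ℂ) * (mm ψ : ℤ) := by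
        by_contra hall
        push Not at hall
        have := Finset.sum_nonpos hall
        omega
      have hψne : ψ ≠ triv G := Finset.ne_of_mem_erase hψmem
      have hmpos : 0 < mm ψ := by
        rcases Nat.eq_zero_or_pos (mm ψ) with h | h
        · rw [h] at hψpos; simp at hψpos
        · exact h
      have hfpos : 0 < fsInt (ψ : G → ℂ) := by
        by_contra hle
        have h1 : fsInt (ψ : G → ℂ) ≤ 0 := by omega
        have h2 : fsInt (ψ : G → ℂ) * (mm ψ : ℤ) ≤ 0 :=
          mul_nonpos_of_nonpos_of_nonneg h1 (by exact_mod_cast hmpos.le)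
        omega
      have hf1 : fsInt (ψ : G → ℂ) = 1 := by
        have := fsInt_le_one (ψ : G → ℂ)
        omega
      have hfs1 : fsInd (ψ : G → ℂ) = 1 := by
        rw [← fsInt_cast ψ.2, hf1]; simp
      have hreal : ∀ g : G, (starRingEnd ℂ) ((ψ : G → ℂ) g) = (ψ : G → ℂ) g := by
        intro g
        apply Complex.conj_eq_iff_im.2
        exact (fsInd_ne_zero_iff_real ψ.2).1 (by rw [hfs1]; exact one_ne_zero) g
      have hψS : classInner (indFun H (fun _ : H => (1 : ℂ))) (ψ : G → ℂ) ≠ 0 ∧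
          (∀ g : G, (starRingEnd ℂ) ((ψ : G → ℂ) g) = (ψ : G → ℂ) g) ∧
          (Nat.card G : ℂ)⁻¹ * ∑ g : G, (ψ : G → ℂ) (g * g) = 1 := by
        refine ⟨?_, hreal, hfs1⟩
        rw [hin]
        exact_mod_cast hmpos.ne'
      have := hsub.elim (⟨ψ, hψS⟩ : {χ : Cfsg.IrrCharacter G // Cfsg.classInner (Cfsg.indFun H (fun _ : H => (1 : ℂ))) (χ : G → ℂ) ≠ 0 ∧ (∀ g : G, (starRingEnd ℂ) ((χ : G → ℂ) g) = (χ : G → ℂ) g) ∧ (Nat.card G : ℂ)⁻¹ * ∑ g : G, (χ : G → ℂ) (g * g) = 1}) ⟨triv G, htriv⟩
      exact hψne (congrArg Subtype.val this)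
  · intro hodd
    rw [Nat.card_eq_one_iff_unique]
    refine ⟨⟨fun a b => ?_⟩, ⟨⟨triv G, htriv⟩⟩⟩
    have key : ∀ c : {χ : Cfsg.IrrCharacter G // Cfsg.classInner (Cfsg.indFun H (fun _ : H => (1 : ℂ))) (χ : G → ℂ) ≠ 0 ∧ (∀ g : G, (starRingEnd ℂ) ((χ : G → ℂ) g) = (χ : G → ℂ) g) ∧ (Nat.card G : ℂ)⁻¹ * ∑ g : G, (χ : G → ℂ) (g * g) = 1}, c.1 = triv G := by
      intro c
      apply Subtype.ext
      exact eq_one_of_fsInd H.normalCore hodd c.1 (ker_of_inner_ne H c.1 c.2.1) c.2.2.2
    apply Subtype.ext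
    rw [key a, key b]

end Cfsg.Agent.S4784
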