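import Cfsg.Statements.S4796
import Cfsg.Agent.Lib.Helper80.PrimeCod
import Cfsg.Agent.Lib.Helper80.Restrict
import Cfsg.Agent.Lib.Helper80.Frob

set_option autoImplicit false
open Cfsg

namespace Cfsg.Agent.S4796

open Cfsg.Agent.Lib.Helper80.Codegree Cfsg.Agent.Lib.Helper80.PrimeCod
open Cfsg.Agent.Lib.Helper80.Restrict Cfsg.Agent.Lib.Helper80.Frob
open Cfsg.Agent.Lib.Helper80.Core Cfsg.Agent.Lib.Helper80.Integrality

/-- Let G be a finite group with a faithful irreducible complex character χ whose codegree #G / χ(1) is a prime p (for a faithful character the kernel is trivial, so the codegree is #G / χ(1)). Then either G is cyclic of order p, or G is a Frobenius group whose Frobenius kernel has order p: some proper non-trivial subgroup H satisfies H ∩ gHg⁻¹ = 1 for every element g outside H, and the set of elements lying in no conjugate of H, together with the identity, has exactly p elements. -/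
theorem result {G : Type*} [Group G] [Finite G] (χ : Cfsg.IrrCharacter G) (hfaith : ∀ g : G, (χ : G → ℂ) g = (χ : G → ℂ) 1 → g = 1) (p : ℕ) (hp : p.Prime) (hcod : Nat.card G = p * Cfsg.charDegree (χ : G → ℂ)) : (IsCyclic G ∧ Nat.card G = p) ∨ ∃ H : Subgroup G, Cfsg.IsFrobeniusComplement H ∧ Nat.card ↥(Cfsg.frobeniusKernel H) = p := by
  have : Fact p.Prime := ⟨hp⟩
  obtain ⟨P, hPn, hPc⟩ := exists_normal_sylow χ p hcod
  have hd_pos := charDegree_pos χ
  have hlt := charDegree_lt_of_card_eq χ p hp hcod
  set d := Cfsg.charDegree (χ : G → ℂ) with hd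
  have hidx : (P : Subgroup G).index = d := by
    have h1 := Subgroup.card_mul_index (P : Subgroup G)
    have hPc' : Nat.card (P : Subgroup G) = p := hPc
    rw [hPc', hcod] at h1
    exact Nat.eq_of_mul_eq_mul_left hp.pos h1
  have hcop : Nat.Coprime p d :=
    (Nat.Prime.coprime_iff_not_dvd hp).mpr (Nat.not_dvd_of_pos_of_lt hd_pos hlt)
  by_cases hd1 : d = 1
  · left
    have hc : Nat.card G = p := by rw [hcod, hd1, mul_one]
    exact ⟨isCyclic_of_prime_card hc, hc⟩
  · right
    have hd2 : 1 < d := by omega
    -- `P` is abelian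
    have : IsCyclic (P : Subgroup G) := isCyclic_of_prime_card (p := p) hPc
    have hPcomm : ∀ x ∈ (P : Subgroup G), ∀ y ∈ (P : Subgroup G), x * y = y * x := by
      intro x hx y hy
      have := (IsCyclic.isMulCommutative (α := (P : Subgroup G))).is_comm.comm
        (⟨x, hx⟩ : (P : Subgroup G)) ⟨y, hy⟩
      exact congrArg Subtype.val this
    set C := Subgroup.centralizer ((P : Subgroup G) : Set G) with hC
    have hPC : (P : Subgroup G) ≤ C := by
      intro x hx
      rw [hC, Subgroup.mem_centralizer_iff]
      intro y hy
      exact hPcomm y hy x hx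
    have hcen : (P : Subgroup G).subgroupOf C ≤ Subgroup.center C := by
      intro x hx
      rw [Subgroup.mem_center_iff]
      intro z
      have hx' : (x : G) ∈ (P : Subgroup G) := Subgroup.mem_subgroupOf.mp hx
      have hz : (z : G) ∈ Subgroup.centralizer ((P : Subgroup G) : Set G) := z.2
      rw [Subgroup.mem_centralizer_iff] at hz
      have := hz (x : G) hx'
      exact Subtype.ext (by simpa using this.symm)
    set r := (P : Subgroup G).relIndex C with hr
    have hrel : r * C.index = d := by
      rw [hr, Subgroup.relIndex_mul_index hPC, hidx]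
    have hr_pos : 0 < r := by
      rcases Nat.eq_zero_or_pos r with h | h
      · rw [h, zero_mul] at hrel; omega
      · exact h
    have hCi_pos : 0 < C.index := by
      rcases Nat.eq_zero_or_pos C.index with h | h
      · rw [h, mul_zero] at hrel; omega
      · exact h
    have hB : ∀ ψ : IrrCharacter C, charDegree (ψ : C → ℂ) ≤ Nat.sqrt r := by
      intro ψ
      rw [Nat.le_sqrt']
      refine le_trans (charDegree_sq_le_index_center ψ) ?_
      have : ((P : Subgroup G).subgroupOf C).index = r := rfl
      rw [← this]
      exact Subgroup.index_antitone hcen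
    have h1 := charDegree_le_index_mul χ C (Nat.sqrt r) hB
    rw [← hd, ← hrel, mul_comm] at h1
    have h2 : r ≤ Nat.sqrt r := Nat.le_of_mul_le_mul_left h1 hCi_pos
    have hr1 : r = 1 := by
      by_contra hne
      have : 1 < r := by omega
      have := Nat.sqrt_lt_self this
      omega
    have hCP : C ≤ (P : Subgroup G) := Subgroup.relIndex_eq_one.mp hr1
    exact exists_frobeniusComplement_card (P : Subgroup G) p hp hPc hCP (hidx ▸ hd2) (hidx ▸ hcop)

end Cfsg.Agent.S4796
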