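import Cfsg.Statements.S4797
import Cfsg.Agent.Lib.Helper80.PrimeCod

set_option autoImplicit false
open Cfsg

namespace Cfsg.Agent.S4797

open Cfsg.Agent.Lib.Helper80.Codegree Cfsg.Agent.Lib.Helper80.PrimeCod
open Cfsg.Agent.Lib.CT.Kernel

/-- The quotient of a perfect group is perfect. -/
theorem commutator_quotient_eq_top {G : Type*} [Group G] (K : Subgroup G) [K.Normal]
    (h : commutator G = ⊤) : commutator (G ⧸ K) = ⊤ := by
  have hsurj : Subgroup.map (QuotientGroup.mk' K) ⊤ = ⊤ := by
    rw [← MonoidHom.range_eq_map]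
    exact MonoidHom.range_eq_top.2 (QuotientGroup.mk'_surjective K)
  rw [commutator_def] at h ⊢
  have h1 := Subgroup.map_commutator (⊤ : Subgroup G) ⊤ (QuotientGroup.mk' K)
  rw [h, hsurj] at h1
  exact h1.symm

/-- The codegree of an irreducible complex character χ of a finite group G is [G : ker χ] / χ(1), where ker χ is the set of elements at which χ takes the value χ(1). A non-trivial finite group is perfect if and only if no irreducible complex character of it has prime codegree. -/
theorem result {G : Type*} [Group G] [Finite G] [Nontrivial G] : commutator G = ⊤ ↔ ∀ χ : Cfsg.IrrCharacter G, ¬ ((Nat.card G / (Nat.card {g : G // (χ : G → ℂ) g = (χ : G → ℂ) 1} * Cfsg.charDegree (χ : G → ℂ)))).Prime := by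
  constructor
  · intro hperf χ hprime
    obtain ⟨K, hKn, hK, hKcard⟩ := exists_ker χ
    obtain ⟨χbar, hirr, hbar⟩ := exists_quotient_irr K χ.2 (fun n hn => (hK n).1 hn)
    have hdeg : charDegree χbar = charDegree (χ : G → ℂ) := by
      unfold charDegree
      rw [← hbar 1]
      rfl
    have hfaith : ∀ x : G ⧸ K, χbar x = χbar 1 → x = 1 := by
      intro x hx
      obtain ⟨g, rfl⟩ := QuotientGroup.mk_surjective x
      have h1 : χbar ((1 : G) : G ⧸ K) = (χ : G → ℂ) 1 := hbar 1
      rw [hbar g] at hx
      have h2 : (χ : G → ℂ) g = (χ : G → ℂ) 1 := by rw [hx, ← h1]; rfl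
      exact (QuotientGroup.eq_one_iff g).2 ((hK g).2 h2)
    have hcard : Nat.card (G ⧸ K) = (Nat.card G / (Nat.card {g : G // (χ : G → ℂ) g = (χ : G → ℂ) 1} * Cfsg.charDegree (χ : G → ℂ))) * charDegree χbar := by
      have h1 := card_eq_ker_mul_deg_mul_cod χ
      have h2 := Subgroup.card_mul_index K
      rw [hKcard] at h1
      rw [← Subgroup.index_eq_card, hdeg, hKcard]
      have h3 : Nat.card K * K.index = Nat.card K * (Nat.card G / (Nat.card K * Cfsg.charDegree (χ : G → ℂ)) * Cfsg.charDegree (χ : G → ℂ)) := by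
        rw [h2]
        conv_lhs => rw [h1]
        ring
      exact Nat.eq_of_mul_eq_mul_left Nat.card_pos h3
    exact false_of_perfect_of_card_eq (commutator_quotient_eq_top K hperf) ⟨χbar, hirr⟩ hfaith _
      hprime hcard
  · intro h
    by_contra hne
    obtain ⟨χ, hχ⟩ := exists_irr_cod_prime hne
    exact h χ hχ

end Cfsg.Agent.S4797
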