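import Cfsg.Statements.S4798
import Cfsg.Agent.Lib.Helper80.IndIrr

set_option autoImplicit false
open Cfsg

namespace Cfsg.Agent.S4798

open Cfsg.Agent.Lib.Helper80.IndDeg Cfsg.Agent.Lib.Helper80.IndIrr
open Cfsg.Agent.Lib.Helper80.Integrality Cfsg.Agent.Lib.Helper80.Restrict
open Cfsg.Agent.Lib.CT.Wedderburn Cfsg.Agent.Lib.CT.Orth Cfsg.Agent.Lib.CT.Ops

/-- Let p be a prime and χ a faithful irreducible complex character of the finite group G (χ(g) = χ(1) only for g = 1), so that its codegree is #G / χ(1). Then #G / χ(1) is a power of p if and only if χ is induced from a character of a Sylow p-subgroup of G. -/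
theorem result {G : Type*} [Group G] [Fintype G] (p : ℕ) [Fact p.Prime] (χ : Cfsg.IrrCharacter G) (hfaith : ∀ g : G, (χ : G → ℂ) g = (χ : G → ℂ) 1 → g = 1) : (∃ k : ℕ, Nat.card G = p ^ k * Cfsg.charDegree (χ : G → ℂ)) ↔ ∃ (P : Sylow p G) (θ : ↥(P : Subgroup G) → ℂ), Cfsg.IsCharacter ↥(P : Subgroup G) θ ∧ (χ : G → ℂ) = Cfsg.indFun (P : Subgroup G) θ := by
  classical
  have hp : p.Prime := Fact.out
  constructor
  · rintro ⟨k, hk⟩
    let P : Sylow p G := default
    have := Fintype.ofFinite (P : Subgroup G)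
    have := finite_irrCharacter (P : Subgroup G)
    have := Fintype.ofFinite (IrrCharacter (P : Subgroup G))
    set a := (Nat.card G).factorization p with ha
    have hPc : Nat.card (P : Subgroup G) = p ^ a := Sylow.card_eq_multiplicity P
    set m := (P : Subgroup G).index with hm
    have hmp : ¬ p ∣ m := P.not_dvd_index
    have hmpos : 0 < m := Nat.pos_of_ne_zero (fun h => hmp (h ▸ dvd_zero p))
    have hcard : p ^ a * m = p ^ k * charDegree (χ : G → ℂ) := by
      rw [← hPc, hm, Subgroup.card_mul_index, hk]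
    have hka : k ≤ a := by
      have h1 : p ^ k ∣ p ^ a * m := ⟨_, hcard⟩
      have h2 : p ^ k ∣ p ^ a :=
        (Nat.Coprime.dvd_mul_right
          (Nat.Coprime.pow_left k ((Nat.Prime.coprime_iff_not_dvd hp).2 hmp))).1 h1
      exact (Nat.pow_dvd_pow_iff_le_right hp.one_lt).1 h2
    have hd : charDegree (χ : G → ℂ) = p ^ (a - k) * m := by
      have h1 : p ^ k * (p ^ (a - k) * m) = p ^ k * charDegree (χ : G → ℂ) := by
        rw [← mul_assoc, ← pow_add, Nat.add_sub_cancel' hka, hcard]
      exact (Nat.eq_of_mul_eq_mul_left (pow_pos hp.pos k) h1).symm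
    have hres : IsCharacter (P : Subgroup G) (fun h : ↥(P : Subgroup G) => (χ : G → ℂ) h) :=
      isCharacter_restrict _ (isCharacter_of_irr χ.2)
    obtain ⟨n, hn1, -, hn3, -⟩ := exists_mult hres
    have hdeg : charDegree (fun h : ↥(P : Subgroup G) => (χ : G → ℂ) h) =
        charDegree (χ : G → ℂ) := rfl
    rw [hdeg, hd] at hn3
    have hex : ∃ θ : IrrCharacter (P : Subgroup G), n θ ≠ 0 ∧
        charDegree (θ : ↥(P : Subgroup G) → ℂ) = p ^ (a - k) := by
      by_contra hcon
      push Not at hcon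
      apply hmp
      have hall : ∀ θ : IrrCharacter (P : Subgroup G),
          p ^ (a - k + 1) ∣ n θ * charDegree (θ : ↥(P : Subgroup G) → ℂ) := by
        intro θ
        by_cases h0 : n θ = 0
        · rw [h0, zero_mul]; exact dvd_zero _
        · refine Dvd.dvd.mul_left ?_ _
          obtain ⟨j, -, hj⟩ := (Nat.dvd_prime_pow hp).1 (hPc ▸ charDegree_dvd_card θ)
          have hle := charDegree_le_of_constituent (P : Subgroup G)
            (θ : ↥(P : Subgroup G) → ℂ) (isCharacter_of_irr θ.2) χ
            (by rw [hn1 θ]; exact_mod_cast h0)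
          rw [hd, hj, ← hm] at hle
          have h1 : p ^ (a - k) ≤ p ^ j := by
            rw [mul_comm] at hle
            exact Nat.le_of_mul_le_mul_left hle hmpos
          have h2 : a - k ≤ j := (Nat.pow_le_pow_iff_right hp.one_lt).1 h1
          have h3 : j ≠ a - k := fun h => hcon θ h0 (by rw [hj, h])
          rw [hj]
          exact pow_dvd_pow p (by omega)
      have h4 : p ^ (a - k + 1) ∣ p ^ (a - k) * m := hn3 ▸ Finset.dvd_sum fun θ _ => hall θ
      rw [pow_succ] at h4
      exact Nat.dvd_of_mul_dvd_mul_left (pow_pos hp.pos _) h4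
    obtain ⟨θ, hθ0, hθd⟩ := hex
    refine ⟨P, (θ : ↥(P : Subgroup G) → ℂ), isCharacter_of_irr θ.2, ?_⟩
    refine (indFun_eq_of_degree (P : Subgroup G) _ (isCharacter_of_irr θ.2) χ
      (by rw [hn1 θ]; exact_mod_cast hθ0) ?_).symm
    rw [hθd, hd, ← hm, mul_comm]
  · rintro ⟨P, θ, hθ, hχ⟩
    have := Fintype.ofFinite (P : Subgroup G)
    set a := (Nat.card G).factorization p with ha
    have hPc : Nat.card (P : Subgroup G) = p ^ a := Sylow.card_eq_multiplicity P
    have hd : charDegree (χ : G → ℂ) = (P : Subgroup G).index * charDegree θ := by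
      rw [hχ]; exact charDegree_indFun _ θ hθ
    have hdvd := charDegree_dvd_card χ
    rw [hd, ← Subgroup.card_mul_index (P : Subgroup G), hPc, mul_comm] at hdvd
    have hidx : 0 < (P : Subgroup G).index := Nat.pos_of_ne_zero Subgroup.index_ne_zero_of_finite
    have ht : charDegree θ ∣ p ^ a := Nat.dvd_of_mul_dvd_mul_right hidx hdvd
    obtain ⟨j, hja, hj⟩ := (Nat.dvd_prime_pow hp).1 ht
    refine ⟨a - j, ?_⟩
    rw [hd, hj, ← Subgroup.card_mul_index (P : Subgroup G), hPc]
    have : p ^ a = p ^ (a - j) * p ^ j := by rw [← pow_add, Nat.sub_add_cancel hja]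
    rw [this]; ring

end Cfsg.Agent.S4798
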