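import Cfsg.Statements.S4801
import Cfsg.Agent.Lib.Helper80.Codegree

set_option autoImplicit false
open Cfsg

namespace Cfsg.Agent.S4801

open Cfsg.Agent.Lib.Helper80.Codegree

/-- The codegree of an irreducible complex character χ of a finite group G is [G : ker χ] / χ(1), where ker χ is the set of elements at which χ takes the value χ(1). Let S be a finite simple group and G a finite group such that every codegree of an irreducible character of S is a codegree of an irreducible character of G. Then the order of S divides the order of G. -/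
theorem result {S : Type*} [Group S] [Finite S] (hS : IsSimpleGroup S) {G : Type*} [Group G] [Finite G] (hsub : ∀ χ : Cfsg.IrrCharacter S, ∃ ψ : Cfsg.IrrCharacter G, (Nat.card S / (Nat.card {g : S // (χ : S → ℂ) g = (χ : S → ℂ) 1} * Cfsg.charDegree (χ : S → ℂ))) = (Nat.card G / (Nat.card {g : G // (ψ : G → ℂ) g = (ψ : G → ℂ) 1} * Cfsg.charDegree (ψ : G → ℂ)))) : Nat.card S ∣ Nat.card G := by
  have hS0 : Nat.card S ≠ 0 := Nat.card_pos.ne'
  have hG0 : Nat.card G ≠ 0 := Nat.card_pos.ne'
  rw [← Nat.factorization_le_iff_dvd hS0 hG0]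
  intro r
  by_cases hr : r.Prime
  swap
  · rw [Nat.factorization_eq_zero_of_not_prime _ hr]; exact Nat.zero_le _
  by_cases hdvd : r ∣ Nat.card S
  swap
  · rw [Nat.factorization_eq_zero_of_not_dvd hdvd]; exact Nat.zero_le _
  obtain ⟨χ, hχ, hχr⟩ := exists_ne_triv_not_dvd r hr hdvd
  obtain ⟨ψ, hψ⟩ := hsub χ
  have hker := card_ker_eq_one_of_faithful χ (faithful_of_simple χ hχ)
  have h1 := card_eq_ker_mul_deg_mul_cod χ
  rw [hker, one_mul] at h1
  rw [hker, one_mul] at hψ
  have hd0 : charDegree (χ : S → ℂ) ≠ 0 :=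
    (Cfsg.Agent.Lib.Helper80.Integrality.charDegree_pos χ).ne'
  have hc0 : Nat.card S / charDegree (χ : S → ℂ) ≠ 0 := by
    intro h; rw [h, mul_zero] at h1; exact hS0 h1
  have h2 : (Nat.card S).factorization r = (Nat.card S / charDegree (χ : S → ℂ)).factorization r := by
    conv_lhs => rw [h1]
    rw [Nat.factorization_mul hd0 hc0, Finsupp.add_apply,
      Nat.factorization_eq_zero_of_not_dvd hχr, zero_add]
  rw [h2, hψ]
  exact (Nat.factorization_le_iff_dvd (cod_pos ψ).ne' hG0).2 (cod_dvd_card ψ) r

end Cfsg.Agent.S4801
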