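import Cfsg.Statements.S4802
import Cfsg.Agent.Lib.Helper80.Schur
import Cfsg.Agent.Lib.CT.Orth

set_option autoImplicit false
open Cfsg

namespace Cfsg.Agent.S4802

open Cfsg.Agent.Lib.Helper80.Schur
open Cfsg.Agent.Lib.CT.Wedderburn Cfsg.Agent.Lib.CT.Orth
open scoped ComplexConjugate

/-- Let N < M be normal subgroups of the finite group G and g ∈ M ∖ N. Then the conjugacy class of g is exactly M ∖ N if and only if every irreducible complex character of G whose kernel contains N takes the same value at all elements of M ∖ N, and every irreducible complex character of G whose kernel does not contain N vanishes at g. -/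
theorem result {G : Type*} [Group G] [Finite G] (N M : Subgroup G) [N.Normal] [M.Normal] (hNM : N < M) (g : G) (hgM : g ∈ M) (hgN : g ∉ N) : {h : G | IsConj g h} = (M : Set G) \ (N : Set G) ↔ ((∀ χ : Cfsg.IrrCharacter G, (∀ x ∈ N, (χ : G → ℂ) x = (χ : G → ℂ) 1) → ∀ x ∈ M, x ∉ N → ∀ y ∈ M, y ∉ N → (χ : G → ℂ) x = (χ : G → ℂ) y) ∧ (∀ χ : Cfsg.IrrCharacter G, (∃ x ∈ N, (χ : G → ℂ) x ≠ (χ : G → ℂ) 1) → (χ : G → ℂ) g = 0)) := by
  classical
  have := Fintype.ofFinite G
  have := Fintype.ofFinite N
  constructor
  · intro hcl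
    have hmem : ∀ x, x ∈ M → x ∉ N → IsConj g x := fun x hxM hxN => by
      have : x ∈ (M : Set G) \ (N : Set G) := ⟨hxM, hxN⟩
      rw [← hcl] at this
      exact this
    constructor
    · intro χ _ x hxM hxN y hyM hyN
      obtain ⟨c, rfl⟩ := isConj_iff.1 (hmem x hxM hxN)
      obtain ⟨c', rfl⟩ := isConj_iff.1 (hmem y hyM hyN)
      rw [irr_isClassFunction χ g c, irr_isClassFunction χ g c']
    · rintro χ ⟨x, hxN, hx⟩
      by_contra hg0
      apply hx
      obtain ⟨n, ρ, hρ, hχ⟩ := χ.2
      have := hρ
      set T : Module.End ℂ (Fin n → ℂ) := ∑ k : N, ρ (k : G) with hT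
      have hcomm : ∀ y : G, T * ρ y = ρ y * T := by
        intro y
        rw [hT, Finset.sum_mul, Finset.mul_sum]
        refine Fintype.sum_equiv (MulAut.conjNormal y⁻¹ : MulAut N).toEquiv _ _ (fun k => ?_)
        rw [← map_mul, ← map_mul]
        congr 1
        simp
        group
      obtain ⟨c, hc⟩ := schur_scalar ρ T hcomm
      have h1 : ∑ k : N, (χ : G → ℂ) (g * k) = c * (χ : G → ℂ) g := by
        rw [← hχ]
        have : ∑ k : N, ρ.character (g * k) = LinearMap.trace ℂ _ (ρ g * T) := by
          rw [hT, Finset.mul_sum, map_sum]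
          refine Finset.sum_congr rfl fun k _ => ?_
          rw [← map_mul]
          rfl
        rw [this, hc, mul_smul_comm, mul_one, map_smul, smul_eq_mul]
        rfl
      have h2 : ∀ k : N, (χ : G → ℂ) (g * k) = (χ : G → ℂ) g := by
        intro k
        have hgk : IsConj g (g * k) := hmem _ (M.mul_mem hgM (hNM.le k.2)) (fun h => hgN (by
          have := N.mul_mem h (N.inv_mem k.2)
          simpa using this))
        obtain ⟨c', hc'⟩ := isConj_iff.1 hgk
        rw [← hc', irr_isClassFunction χ g c']
      rw [Finset.sum_congr rfl (fun k _ => h2 k), Finset.sum_const, Finset.card_univ,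
        nsmul_eq_mul] at h1
      have hcN : c = (Fintype.card N : ℂ) := by
        have : ((Fintype.card N : ℂ) - c) * (χ : G → ℂ) g = 0 := by linear_combination h1
        rcases mul_eq_zero.1 this with h | h
        · linear_combination -h
        · exact absurd h hg0
      have h3 : ρ x * T = T := by
        rw [hT, Finset.mul_sum]
        refine Fintype.sum_equiv (Equiv.mulLeft (⟨x, hxN⟩ : N)) _ _ (fun k => ?_)
        rw [← map_mul]
        rfl
      rw [hc, mul_smul_comm, mul_one] at h3
      have hc0 : c ≠ 0 := by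
        rw [hcN]
        exact_mod_cast Fintype.card_ne_zero
      have h4 : ρ x = 1 := by
        have := congrArg (fun f => c⁻¹ • f) h3
        simpa [smul_smul, inv_mul_cancel₀ hc0] using this
      rw [← hχ]
      show LinearMap.trace ℂ _ (ρ x) = LinearMap.trace ℂ _ (ρ 1)
      rw [h4, map_one ρ]
  · rintro ⟨ha, hb⟩
    ext h
    constructor
    · intro hh
      obtain ⟨c, rfl⟩ := isConj_iff.1 hh
      exact ⟨(inferInstance : M.Normal).conj_mem g hgM c, fun h' => hgN (by
        have := (inferInstance : N.Normal).conj_mem _ h' c⁻¹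
        simpa [mul_assoc] using this)⟩
    · rintro ⟨hhM, hhN⟩
      by_contra hnc
      have h1 := second_orthogonality_of_not_isConj g h hnc
      have h2 := second_orthogonality_of_isConj g g (IsConj.refl g)
      have h3 : ∀ χ : IrrCharacter G, (χ : G → ℂ) g * conj ((χ : G → ℂ) h) =
          (χ : G → ℂ) g * conj ((χ : G → ℂ) g) := by
        intro χ
        by_cases hk : ∀ x ∈ N, (χ : G → ℂ) x = (χ : G → ℂ) 1
        · rw [ha χ hk h hhM hhN g hgM hgN]
        · push Not at hk
          rw [hb χ hk, zero_mul, zero_mul]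
      rw [finsum_congr h3, h2] at h1
      exact absurd h1 (Nat.cast_ne_zero.mpr Nat.card_pos.ne')

end Cfsg.Agent.S4802
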