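import Cfsg.Statements.S4808
import Cfsg.Agent.Lib.Helper80.Codegree
import Cfsg.Agent.Lib.Helper80.IndDeg

set_option autoImplicit false
open Cfsg

namespace Cfsg.Agent.S4808

open Cfsg.Agent.Lib.Helper80.Codegree Cfsg.Agent.Lib.Helper80.IndDeg
open Cfsg.Agent.Lib.Helper80.Integrality
open Cfsg.Agent.Lib.CT.Wedderburn Cfsg.Agent.Lib.CT.Orth
open scoped ComplexConjugate

universe u

/-- If `p` divides the order of `G`, some irreducible character of degree prime to `p` is
non-constant on a Sylow `p`-subgroup. -/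
theorem exists_irr {G : Type u} [Group G] [Finite G] (p : ℕ) [Fact p.Prime]
    (hdvd : p ∣ Nat.card G) (P : Sylow p G) :
    ∃ χ : IrrCharacter G, ¬ p ∣ charDegree (χ : G → ℂ) ∧
      ∃ x ∈ (P : Subgroup G), (χ : G → ℂ) x ≠ (χ : G → ℂ) 1 := by
  classical
  have hp : p.Prime := Fact.out
  have := Fintype.ofFinite G
  have := Fintype.ofFinite (P : Subgroup G)
  have hPcard : p ∣ Nat.card (P : Subgroup G) := by
    have h1 : Nat.card (P : Subgroup G) = p ^ (Nat.card G).factorization p :=
      Sylow.card_eq_multiplicity P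
    rw [h1]
    exact dvd_pow_self p (Nat.Prime.factorization_pos_of_dvd hp Nat.card_pos.ne' hdvd).ne'
  obtain ⟨θ, hθ1, hθ2⟩ := exists_ne_triv_not_dvd (G := (P : Subgroup G)) p hp hPcard
  have hnd : ¬ p ∣ (P : Subgroup G).index * charDegree (θ : ↥(P : Subgroup G) → ℂ) := by
    intro h
    rcases (Nat.Prime.dvd_mul hp).1 h with h | h
    · exact P.not_dvd_index h
    · exact hθ2 h
  obtain ⟨χ, hχ1, hχ2⟩ := exists_constituent_not_dvd (P : Subgroup G) (θ : ↥(P : Subgroup G) → ℂ)
    (isCharacter_of_irr θ.2) p hnd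
  refine ⟨χ, hχ2, ?_⟩
  by_contra hcon
  push Not at hcon
  apply hχ1
  have horth := irr_orthonormal θ (triv (P : Subgroup G))
  rw [if_neg hθ1] at horth
  unfold classInner at horth ⊢
  have hne : (Nat.card (P : Subgroup G) : ℂ) ≠ 0 := Nat.cast_ne_zero.mpr Nat.card_pos.ne'
  have h1 : ∑ g : ↥(P : Subgroup G), (θ : ↥(P : Subgroup G) → ℂ) g = 0 := by
    rcases mul_eq_zero.1 horth with h | h
    · exact absurd h (inv_ne_zero hne)
    · simpa [triv_apply] using h
  have h2 : ∑ g : ↥(P : Subgroup G), (θ : ↥(P : Subgroup G) → ℂ) g * conj ((χ : G → ℂ) g) =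
      (∑ g : ↥(P : Subgroup G), (θ : ↥(P : Subgroup G) → ℂ) g) * conj ((χ : G → ℂ) 1) := by
    rw [Finset.sum_mul]
    refine Finset.sum_congr rfl fun g _ => ?_
    rw [hcon g g.2]
  rw [h2, h1, zero_mul, mul_zero]

/-- The codegree of an irreducible complex character χ of a finite group G is [G : ker χ] / χ(1), where ker χ is the set of elements at which χ takes the value χ(1). A prime divides the order of G if and only if it divides the codegree of some irreducible complex character of G. -/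
theorem result {G : Type*} [Group G] [Finite G] (p : ℕ) (hp : p.Prime) : p ∣ Nat.card G ↔ ∃ χ : Cfsg.IrrCharacter G, p ∣ (Nat.card G / (Nat.card {g : G // (χ : G → ℂ) g = (χ : G → ℂ) 1} * Cfsg.charDegree (χ : G → ℂ))) := by
  constructor
  · intro hdvd
    have : Fact p.Prime := ⟨hp⟩
    obtain ⟨χ, hχ1, x, hxP, hx⟩ := exists_irr p hdvd (default : Sylow p G)
    refine ⟨χ, ?_⟩
    obtain ⟨K, hKn, hK, hcard⟩ := exists_ker χ
    have hxK : x ∉ K := fun h => hx ((hK x).1 h)
    -- `p` divides the index of the kernel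
    have hidx : p ∣ K.index := by
      by_contra hnd
      apply hxK
      obtain ⟨k, hk⟩ := (IsPGroup.iff_orderOf.mp (default : Sylow p G).isPGroup') ⟨x, hxP⟩
      rw [Subgroup.orderOf_mk] at hk
      have h1 : orderOf (QuotientGroup.mk' K x) ∣ p ^ k := hk ▸ orderOf_map_dvd _ x
      have h2 : orderOf (QuotientGroup.mk' K x) ∣ K.index := by
        rw [Subgroup.index_eq_card]
        exact orderOf_dvd_natCard _
      obtain ⟨j, -, hj⟩ := (Nat.dvd_prime_pow hp).1 h1
      have hj0 : j = 0 := by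
        by_contra hj0
        exact hnd (dvd_trans (dvd_pow_self p hj0) (hj ▸ h2))
      rw [hj0, pow_zero, orderOf_eq_one_iff] at hj
      exact (QuotientGroup.eq_one_iff x).1 hj
    have hdvd2 := card_ker_mul_charDegree_dvd_card χ
    rw [hcard, ← Subgroup.card_mul_index K] at hdvd2 ⊢
    have hdK : charDegree (χ : G → ℂ) ∣ K.index :=
      Nat.dvd_of_mul_dvd_mul_left Nat.card_pos hdvd2
    rw [Nat.mul_div_mul_left _ _ Nat.card_pos]
    obtain ⟨c, hc⟩ := hdK
    rw [hc, Nat.mul_div_cancel_left _ (charDegree_pos χ)]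
    rw [hc] at hidx
    rcases (Nat.Prime.dvd_mul hp).1 hidx with h | h
    · exact absurd h hχ1
    · exact h
  · rintro ⟨χ, hχ⟩
    exact dvd_trans hχ (cod_dvd_card χ)

end Cfsg.Agent.S4808
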