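import Cfsg.Statements.S4813
-- import your own Cfsg.Agent.* helpers here
import Mathlib
import Cfsg.Agent.S4466
import Cfsg.Agent.Lib.Helper9.MNN2
import Cfsg.Agent.Lib.Helper74.IndexP
import Cfsg.Agent.Lib.Helper74.DetTools
import Cfsg.Agent.Lib.Helper16.Cover
import Cfsg.Agent.Lib.Helper3.TDBasic
import Cfsg.Agent.Lib.CT.Clifford
import Cfsg.Agent.Lib.CT.LinChar
import Cfsg.Agent.Lib.CT.Wedderburn
import Cfsg.Agent.Lib.Helper78.HallBig

set_option autoImplicit false
open Cfsg

namespace Cfsg.Agent.S4813

open Cfsg.Agent.Lib.CT.Wedderburn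
open scoped ComplexConjugate

universe u

/-- If twisting by a linear character fixes an irreducible character, the linear character has
order dividing the degree. -/
theorem twist_pow {N : Type u} [Group N] [Finite N] {θ : N → ℂ} (hθ : IsIrrCharacter N θ)
    (μ : N →* ℂˣ) (h : ∀ n : N, ((μ n : ℂˣ) : ℂ) * θ n = θ n) (n : N) :
    (μ n) ^ charDegree θ = 1 := by
  have h1 := Cfsg.Agent.Lib.Helper74.DetTools.detChar_twist μ hθ
  have h2 : (fun g => ((μ g : ℂˣ) : ℂ) * θ g) = θ := funext h
  rw [h2] at h1
  obtain ⟨δ, hδ⟩ := Cfsg.Agent.Lib.Helper74.DetTools.exists_detHom hθ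
  have h3 := congrFun h1 n
  rw [hδ] at h3
  have h4 : ((δ n : ℂˣ) : ℂ) ≠ 0 := Units.ne_zero _
  have h5 : ((μ n : ℂˣ) : ℂ) ^ charDegree θ = 1 := by
    have h6 : ((μ n : ℂˣ) : ℂ) ^ charDegree θ * ((δ n : ℂˣ) : ℂ) = 1 * ((δ n : ℂˣ) : ℂ) := by
      rw [one_mul]
      exact h3.symm
    exact mul_right_cancel₀ h4 h6
  apply Units.ext
  rw [Units.val_pow_eq_pow_val, h5, Units.val_one]

/-- An irreducible character whose degree exceeds one has no invariant linear constituent on a
normal subgroup of index at most the degree. -/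
theorem no_invariant_linear {G : Type u} [Group G] [Fintype G] (N : Subgroup G) [Fintype N]
    (hN : N.Normal) (χ : IrrCharacter G) (hdeg : N.index < charDegree (χ : G → ℂ) ^ 2)
    (lam : N → ℂ) (hlam : IsIrrCharacter N lam) (h1 : lam 1 = 1)
    (hcon : classInner (fun n : N => (χ : G → ℂ) n) lam ≠ 0)
    (hinv : ∀ (g : G) (n : N), lam ⟨g * n * g⁻¹, hN.conj_mem n n.2 g⟩ = lam n) : False := by
  classical
  have hcl := Cfsg.Agent.Lib.CT.Clifford.clifford N hN (χ : G → ℂ) χ.2 lam hlam hcon
  have hset : {ψ : N → ℂ | ∃ g : G, ψ = fun n : N => lam ⟨g * n * g⁻¹, hN.conj_mem n n.2 g⟩}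
      = {lam} := by
    ext ψ
    simp only [Set.mem_ofPred_eq, Set.mem_singleton_iff]
    constructor
    · rintro ⟨g, rfl⟩
      funext n
      exact hinv g n
    · rintro rfl
      exact ⟨1, by funext n; exact (hinv 1 n).symm⟩
  rw [hset, finsum_mem_singleton] at hcl
  set c := classInner (fun n : N => (χ : G → ℂ) n) lam with hc
  have hχ1 : (χ : G → ℂ) 1 = (charDegree (χ : G → ℂ) : ℂ) :=
    Cfsg.Agent.Lib.Helper78.HallBig.apply_one_eq_charDegree (isCharacter_of_irr χ.2)
  have hc1 : c = (charDegree (χ : G → ℂ) : ℂ) := by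
    have h2 := congrFun hcl 1
    simp only [Pi.smul_apply, smul_eq_mul, h1, mul_one] at h2
    rw [← h2]
    exact hχ1
  have hval : ∀ n : N, ‖(χ : G → ℂ) n‖ ^ 2 = (charDegree (χ : G → ℂ) : ℝ) ^ 2 := by
    intro n
    have h2 := congrFun hcl n
    simp only [Pi.smul_apply, smul_eq_mul] at h2
    rw [h2, hc1, norm_mul, Cfsg.Agent.Lib.CT.LinChar.linear_norm (isCharacter_of_irr hlam) h1 n,
      mul_one, Complex.norm_natCast]
  have ho := irr_orthonormal χ χ
  rw [if_pos rfl] at ho
  unfold classInner at ho
  have hne0 : (Nat.card G : ℂ) ≠ 0 := Nat.cast_ne_zero.mpr Nat.card_pos.ne'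
  have hsum : ∑ g : G, (χ : G → ℂ) g * conj ((χ : G → ℂ) g) = (Nat.card G : ℂ) := by
    have h2 : (Nat.card G : ℂ) * ((Nat.card G : ℂ)⁻¹ *
        ∑ g : G, (χ : G → ℂ) g * conj ((χ : G → ℂ) g)) = (Nat.card G : ℂ) * 1 := by rw [ho]
    rw [← mul_assoc, mul_inv_cancel₀ hne0, one_mul, mul_one] at h2
    exact h2
  have hsumR : ∑ g : G, ‖(χ : G → ℂ) g‖ ^ 2 = (Nat.card G : ℝ) := by
    have h2 : ∑ g : G, (χ : G → ℂ) g * conj ((χ : G → ℂ) g)
        = ((∑ g : G, ‖(χ : G → ℂ) g‖ ^ 2 : ℝ) : ℂ) := by
      rw [Complex.ofReal_sum]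
      apply Finset.sum_congr rfl
      intro g _
      rw [Complex.mul_conj, Complex.normSq_eq_norm_sq]
    rw [h2] at hsum
    exact_mod_cast hsum
  have hle : ∑ n : N, ‖(χ : G → ℂ) n‖ ^ 2 ≤ ∑ g : G, ‖(χ : G → ℂ) g‖ ^ 2 := by
    have h2 : ∑ g ∈ Finset.univ.filter (fun g : G => g ∈ N), ‖(χ : G → ℂ) g‖ ^ 2
        = ∑ n : N, ‖(χ : G → ℂ) n‖ ^ 2 :=
      Finset.sum_subtype _ (by simp) (fun g : G => ‖(χ : G → ℂ) g‖ ^ 2)
    rw [← h2]
    exact Finset.sum_le_sum_of_subset_of_nonneg (Finset.filter_subset _ _)
      (fun _ _ _ => sq_nonneg _)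
  rw [hsumR, Finset.sum_congr rfl (fun n _ => hval n), Finset.sum_const, Finset.card_univ,
    nsmul_eq_mul, ← Nat.card_eq_fintype_card] at hle
  have hmul := Subgroup.card_mul_index N
  have hle' : Nat.card N * charDegree (χ : G → ℂ) ^ 2 ≤ Nat.card N * N.index := by
    rw [hmul]
    exact_mod_cast hle
  have hpos : 0 < Nat.card N := Nat.card_pos
  have := Nat.le_of_mul_le_mul_left hle' hpos
  omega

/-- The degree of a restriction. -/
theorem charDegree_restrict {G : Type u} [Group G] (N : Subgroup G) (χ : G → ℂ) :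
    charDegree (fun n : N => χ n) = charDegree χ := rfl

/-- Main induction: no three distinct nonlinear degrees. -/
theorem main : ∀ (m : ℕ) (G : Type u) [Group G] [Finite G], Nat.card G = m →
    (∀ χ : IrrCharacter G, charDegree (χ : G → ℂ) ≠ 1 → (charDegree (χ : G → ℂ)).Prime) →
    ∀ χ₁ χ₂ χ₃ : IrrCharacter G, charDegree (χ₁ : G → ℂ) ≠ 1 → charDegree (χ₂ : G → ℂ) ≠ 1 →
      charDegree (χ₃ : G → ℂ) ≠ 1 → charDegree (χ₁ : G → ℂ) ≠ charDegree (χ₂ : G → ℂ) →
      charDegree (χ₁ : G → ℂ) ≠ charDegree (χ₃ : G → ℂ) →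
      charDegree (χ₂ : G → ℂ) ≠ charDegree (χ₃ : G → ℂ) → False := by
  intro m
  induction m using Nat.strong_induction_on with
  | _ m ih =>
    intro G _ _ hm hP χ₁ χ₂ χ₃ h1 h2 h3 h12 h13 h23
    classical
    have := Fintype.ofFinite G
    have hsolv : Group.IsSolvable G := Cfsg.Agent.S4466.result hP
    have hnt : Nontrivial G := by
      by_contra hcon
      rw [not_nontrivial_iff_subsingleton] at hcon
      have hd := Cfsg.Agent.Lib.Helper80.Integrality.charDegree_dvd_card χ₁
      rw [Nat.card_of_subsingleton (1 : G)] at hd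
      exact h1 (Nat.dvd_one.1 hd)
    obtain ⟨N, hN, hr⟩ := Cfsg.Agent.Lib.Helper9.MNN2.exists_normal_index_prime (G := G)
    have := Fintype.ofFinite N
    set r := N.index with hrdef
    have hlt : Nat.card N < m := by
      have hmul := Subgroup.card_mul_index N
      have h2' := hr.two_le
      have hpos : 0 < Nat.card N := Nat.card_pos
      rw [← hm, ← hmul]
      nlinarith
    have hPN : ∀ θ : IrrCharacter N, charDegree (θ : N → ℂ) ≠ 1 →
        (charDegree (θ : N → ℂ)).Prime := by
      intro θ hθ
      obtain ⟨χ, -, hdvd, -⟩ := Cfsg.Agent.Lib.Helper3.TDBasic.exists_over N θ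
      by_cases hχ : charDegree (χ : G → ℂ) = 1
      · rw [hχ] at hdvd
        exact absurd (Nat.dvd_one.1 hdvd) hθ
      · have hpr := hP χ hχ
        rcases (Nat.dvd_prime hpr).1 hdvd with e | e
        · exact absurd e hθ
        · rw [e]
          exact hpr
    have ihN := ih _ hlt N rfl hPN
    -- restriction of characters of degree different from r
    have hres : ∀ χ : IrrCharacter G, charDegree (χ : G → ℂ) ≠ 1 → charDegree (χ : G → ℂ) ≠ r →
        IsIrrCharacter N (fun n : N => (χ : G → ℂ) n) := by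
      intro χ hχ1 hχr
      apply Cfsg.Agent.Lib.Helper74.IndexP.restrict_irr N hr rfl (χ : G → ℂ) χ.2
      intro hdvd
      exact hχr ((Nat.prime_dvd_prime_iff_eq hr (hP χ hχ1)).1 hdvd).symm
    have step : ∀ χa χb χc : IrrCharacter G, charDegree (χa : G → ℂ) ≠ 1 →
        charDegree (χb : G → ℂ) ≠ 1 → charDegree (χc : G → ℂ) ≠ 1 →
        charDegree (χa : G → ℂ) ≠ charDegree (χb : G → ℂ) →
        charDegree (χa : G → ℂ) ≠ charDegree (χc : G → ℂ) →
        charDegree (χb : G → ℂ) ≠ charDegree (χc : G → ℂ) →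
        charDegree (χa : G → ℂ) ≠ r → charDegree (χb : G → ℂ) ≠ r → False := by
      intro χa χb χc ha1 hb1 hc1 hab hac hbc har hbr
      have hθa := hres χa ha1 har
      have hθb := hres χb hb1 hbr
      let θa : IrrCharacter N := ⟨fun n : N => (χa : G → ℂ) n, hθa⟩
      let θb : IrrCharacter N := ⟨fun n : N => (χb : G → ℂ) n, hθb⟩
      by_cases hcr : charDegree (χc : G → ℂ) = r
      · obtain ⟨lam, hlam⟩ := Cfsg.Agent.Lib.Helper16.Cover.exists_constituent N χc
        have hdv := (Cfsg.Agent.Lib.Helper3.TDBasic.deg_of_constituent N lam χc hlam).1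
        rw [hcr] at hdv
        rcases (Nat.dvd_prime hr).1 hdv with hl1 | hlr
        · -- the linear constituent is invariant
          have hlam1 : (lam : N → ℂ) 1 = 1 := by
            rw [Cfsg.Agent.Lib.Helper78.HallBig.apply_one_eq_charDegree (isCharacter_of_irr lam.2),
              hl1, Nat.cast_one]
          have hlamc : IsCharacter N (lam : N → ℂ) := isCharacter_of_irr lam.2
          -- invariance on the support of a restricted character
          have hsupp : ∀ χ : IrrCharacter G, charDegree (χ : G → ℂ) ≠ 1 →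
              charDegree (χ : G → ℂ) ≠ r → ∀ (g : G) (n : N), (χ : G → ℂ) n ≠ 0 →
              (lam : N → ℂ) ⟨g * n * g⁻¹, hN.conj_mem n n.2 g⟩ = (lam : N → ℂ) n := by
            intro χ hχ1 hχr g n hn
            have hθ := hres χ hχ1 hχr
            have hφ : IsIrrCharacter N ((lam : N → ℂ) * fun n : N => (χ : G → ℂ) n) :=
              Cfsg.Agent.Lib.CT.LinChar.isIrrCharacter_linear_mul hlamc hlam1 hθ
            let φ : IrrCharacter N := ⟨(lam : N → ℂ) * fun n : N => (χ : G → ℂ) n, hφ⟩
            have hφdeg : charDegree (φ : N → ℂ) = charDegree (χ : G → ℂ) := by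
              show charDegree ((lam : N → ℂ) * fun n : N => (χ : G → ℂ) n) = _
              unfold charDegree
              rw [Pi.mul_apply, hlam1, one_mul]
              rfl
            obtain ⟨ψ, hψcon, hψdvd, -⟩ := Cfsg.Agent.Lib.Helper3.TDBasic.exists_over N φ
            rw [hφdeg] at hψdvd
            have hχp := hP χ hχ1
            have hψ1 : charDegree (ψ : G → ℂ) ≠ 1 := by
              intro e
              rw [e] at hψdvd
              exact hχp.one_lt.ne' (Nat.dvd_one.1 hψdvd)
            have hψeq : charDegree (ψ : G → ℂ) = charDegree (χ : G → ℂ) :=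
              ((Nat.prime_dvd_prime_iff_eq hχp (hP ψ hψ1)).1 hψdvd).symm
            have hψres := hres ψ hψ1 (by rw [hψeq]; exact hχr)
            have hirr := irr_orthonormal (⟨fun n : N => (ψ : G → ℂ) n, hψres⟩ : IrrCharacter N) φ
            have hφeq : (⟨fun n : N => (ψ : G → ℂ) n, hψres⟩ : IrrCharacter N) = φ := by
              by_contra hne
              rw [if_neg hne] at hirr
              exact hψcon hirr
            have hval : ∀ n : N, (ψ : G → ℂ) n = (lam : N → ℂ) n * (χ : G → ℂ) n := by
              intro n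
              have := congrArg (fun f : IrrCharacter N => (f : N → ℂ) n) hφeq
              exact this
            have hψcf := char_isClassFunction (isCharacter_of_irr ψ.2)
            have hχcf := char_isClassFunction (isCharacter_of_irr χ.2)
            have e1 := hval ⟨g * n * g⁻¹, hN.conj_mem n n.2 g⟩
            have e2 := hval n
            have e3 : (ψ : G → ℂ) (g * n * g⁻¹) = (ψ : G → ℂ) n := hψcf n g
            have e4 : (χ : G → ℂ) (g * n * g⁻¹) = (χ : G → ℂ) n := hχcf n g
            have e5 : (lam : N → ℂ) ⟨g * n * g⁻¹, hN.conj_mem n n.2 g⟩ * (χ : G → ℂ) n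
                = (lam : N → ℂ) n * (χ : G → ℂ) n := by
              rw [← e2, ← e3, ← e4]
              exact e1.symm
            exact mul_right_cancel₀ hn e5
          obtain ⟨f, hf⟩ := Cfsg.Agent.Lib.CT.LinChar.exists_hom_of_isCharacter (lam : N → ℂ)
            hlamc hlam1
          have hinv : ∀ (g : G) (n : N),
              (lam : N → ℂ) ⟨g * n * g⁻¹, hN.conj_mem n n.2 g⟩ = (lam : N → ℂ) n := by
            intro g n
            let cg : N →* N :=
              { toFun := fun n => ⟨g * n * g⁻¹, hN.conj_mem n n.2 g⟩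
                map_one' := by
                  apply Subtype.ext
                  simp
                map_mul' := by
                  intro a b
                  apply Subtype.ext
                  simp }
            let μ : N →* ℂˣ := (f.comp cg) / f
            have hμ : ∀ χ : IrrCharacter G, charDegree (χ : G → ℂ) ≠ 1 →
                charDegree (χ : G → ℂ) ≠ r → ∀ n : N,
                ((μ n : ℂˣ) : ℂ) * (χ : G → ℂ) n = (χ : G → ℂ) n := by
              intro χ hχ1 hχr n
              by_cases hn : (χ : G → ℂ) n = 0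
              · rw [hn, mul_zero]
              · have h5 := hsupp χ hχ1 hχr g n hn
                rw [hf, hf] at h5
                have h6 : f (cg n) = f n := Units.ext h5
                have h7 : μ n = 1 := by
                  show f (cg n) / f n = 1
                  rw [h6, div_self']
                rw [h7, Units.val_one, one_mul]
            have hpa := twist_pow hθa μ (hμ χa ha1 har) n
            have hpb := twist_pow hθb μ (hμ χb hb1 hbr) n
            rw [charDegree_restrict] at hpa hpb
            have hcop : Nat.Coprime (charDegree (χa : G → ℂ)) (charDegree (χb : G → ℂ)) :=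
              (Nat.coprime_primes (hP χa ha1) (hP χb hb1)).2 hab
            have ho : orderOf (μ n) ∣ 1 := by
              rw [← Nat.coprime_iff_gcd_eq_one.1 hcop]
              exact Nat.dvd_gcd (orderOf_dvd_of_pow_eq_one hpa) (orderOf_dvd_of_pow_eq_one hpb)
            have hμ1 : μ n = 1 := orderOf_eq_one_iff.1 (Nat.dvd_one.1 ho)
            have h8 : f (cg n) / f n = 1 := hμ1
            have h9 : f (cg n) = f n := div_eq_one.1 h8
            rw [hf, hf]
            exact congrArg Units.val h9
          apply no_invariant_linear N hN χc _ (lam : N → ℂ) lam.2 hlam1 hlam hinv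
          rw [hcr]
          have := hr.two_le
          nlinarith
        · -- a constituent of degree r
          apply ihN θa θb lam
          · exact ha1
          · exact hb1
          · rw [hlr]
            exact hr.one_lt.ne'
          · exact hab
          · rw [hlr]
            exact har
          · rw [hlr]
            exact hbr
      · have hθc := hres χc hc1 hcr
        exact ihN θa θb ⟨fun n : N => (χc : G → ℂ) n, hθc⟩ ha1 hb1 hc1 hab hac hbc
    by_cases e1 : charDegree (χ₁ : G → ℂ) = r
    · exact step χ₂ χ₃ χ₁ h2 h3 h1 h23 (Ne.symm h12) (Ne.symm h13)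
        (by rw [← e1]; exact Ne.symm h12) (by rw [← e1]; exact Ne.symm h13)
    · by_cases e2 : charDegree (χ₂ : G → ℂ) = r
      · exact step χ₁ χ₃ χ₂ h1 h3 h2 h13 h12 (Ne.symm h23) e1 (by rw [← e2]; exact Ne.symm h23)
      · exact step χ₁ χ₂ χ₃ h1 h2 h3 h12 h13 h23 e1 e2

/-- If every irreducible complex character of the finite group G of degree greater than one has prime degree, then G has at most three distinct irreducible character degrees. -/
theorem result {G : Type*} [Group G] [Finite G] (hprime : ∀ d ∈ Cfsg.charDegrees G, d = 1 ∨ d.Prime) : Nat.card ↥(Cfsg.charDegrees G) ≤ 3 := by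
  classical
  have hP : ∀ χ : IrrCharacter G, charDegree (χ : G → ℂ) ≠ 1 →
      (charDegree (χ : G → ℂ)).Prime := by
    intro χ hχ
    rcases hprime _ ⟨χ, rfl⟩ with h | h
    · exact absurd h hχ
    · exact h
  have hfinI : Finite (IrrCharacter G) := finite_irrCharacter G
  have hrange : Cfsg.charDegrees G = Set.range (fun χ : IrrCharacter G => charDegree (χ : G → ℂ)) := by
    ext d
    rfl
  have hfin : (Cfsg.charDegrees G).Finite := by
    rw [hrange]
    exact Set.finite_range _
  by_contra hcon
  push Not at hcon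
  rw [Nat.card_coe_set_eq, Set.ncard_eq_toFinset_card _ hfin] at hcon
  have hcard : 2 < (hfin.toFinset.erase 1).card := by
    have := Finset.pred_card_le_card_erase (s := hfin.toFinset) (a := 1)
    omega
  obtain ⟨a, b, c, ha, hb, hc, hab, hac, hbc⟩ := Finset.two_lt_card_iff.1 hcard
  rw [Finset.mem_erase, Set.Finite.mem_toFinset] at ha hb hc
  obtain ⟨ha1, χa, rfl⟩ := ha
  obtain ⟨hb1, χb, rfl⟩ := hb
  obtain ⟨hc1, χc, rfl⟩ := hc
  exact main _ G rfl hP χa χb χc ha1 hb1 hc1 hab hac hbc

end Cfsg.Agent.S4813
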