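import Cfsg.Statements.S4814
import Cfsg.Agent.Lib.Helper81.Expand
import Cfsg.Agent.Lib.Helper80.CenterDvd
import Cfsg.Agent.Lib.Helper3.Irr

set_option autoImplicit false
open Cfsg

namespace Cfsg.Agent.S4814

open Cfsg.Agent.Lib.Helper81.Expand Cfsg.Agent.Lib.Helper81.Irr Cfsg.Agent.Lib.Helper81.Basic

universe u

/-- Generalized orthogonality (convolution of an irreducible character with itself). -/
theorem conv {G : Type u} [Group G] [Fintype G] (χ : IrrCharacter G) (h : G) :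
    ∑ g : G, χ.1 (g⁻¹ * h) * χ.1 g = (Nat.card G : ℂ) * χ.1 h / χ.1 1 := by
  obtain ⟨χf, n, ρ, hρ, rfl⟩ := χ
  have := hρ
  have h1 := Cfsg.Agent.Lib.Helper80.CenterDvd.sum_char_smul ρ h
  have h2 := congrArg (LinearMap.trace ℂ (Fin n → ℂ)) h1
  simp only [map_smul, map_sum, smul_eq_mul] at h2
  have h2' : (Module.finrank ℂ (Fin n → ℂ) : ℂ) * ∑ g : G, ρ.character (g⁻¹ * h) * ρ.character g =
      (Fintype.card G : ℂ) * ρ.character h := h2
  have h3 : ρ.character 1 = (Module.finrank ℂ (Fin n → ℂ) : ℂ) := Representation.char_one ρ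
  have hd : (Module.finrank ℂ (Fin n → ℂ) : ℂ) ≠ 0 := by
    exact_mod_cast (Cfsg.Agent.Lib.Helper80.Integrality.finrank_pos_of_isIrreducible ρ).ne'
  show ∑ g : G, ρ.character (g⁻¹ * h) * ρ.character g =
    (Nat.card G : ℂ) * ρ.character h / ρ.character 1
  rw [h3, Nat.card_eq_fintype_card]
  field_simp
  linear_combination h2'

theorem comm_sum {G : Type u} [Group G] [Fintype G] (χ : IrrCharacter G) (x : G) :
    ∑ a : G, ∑ b : G, χ.1 (x * (a * b * a⁻¹ * b⁻¹)) =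
      (Nat.card G : ℂ) ^ 2 * χ.1 x / χ.1 1 ^ 2 := by
  rw [Finset.sum_comm]
  have h1 : ∀ b : G, ∑ a : G, χ.1 (x * (a * b * a⁻¹ * b⁻¹)) =
      (Nat.card G : ℂ) * χ.1 (b⁻¹ * x) * χ.1 b / χ.1 1 := by
    intro b
    rw [← schur_avg χ (b⁻¹ * x) b]
    refine Finset.sum_congr rfl fun a _ => ?_
    have : x * (a * b * a⁻¹ * b⁻¹) = (x * (a * b * a⁻¹)) * b⁻¹ := by group
    rw [this, irr_mul_comm]
    simp only [mul_assoc]
  rw [Finset.sum_congr rfl fun b _ => h1 b]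
  have h2 := conv χ x
  have h0 : χ.1 1 ≠ 0 := Cfsg.Agent.Lib.Helper3.Irr.IsIrrCharacter.apply_one_ne_zero χ.2
  calc ∑ b : G, (Nat.card G : ℂ) * χ.1 (b⁻¹ * x) * χ.1 b / χ.1 1
      = (Nat.card G : ℂ) / χ.1 1 * ∑ b : G, χ.1 (b⁻¹ * x) * χ.1 b := by
        rw [Finset.mul_sum]
        refine Finset.sum_congr rfl fun b _ => ?_
        ring
    _ = _ := by
        rw [h2]
        field_simp

theorem count {G : Type u} [Group G] [Fintype G] [Fintype (IrrCharacter G)] (g : G) :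
    cnt (fun t : G × G × G × G => (t.1 * t.2.1 * t.1⁻¹ * t.2.1⁻¹) *
      (t.2.2.1 * t.2.2.2 * t.2.2.1⁻¹ * t.2.2.2⁻¹)) g =
      (Nat.card G : ℂ) ^ 3 * ∑ χ : IrrCharacter G, χ.1 g / χ.1 1 ^ 3 := by
  have hne : (Nat.card G : ℂ) ≠ 0 := by
    simp [Nat.card_eq_fintype_card]
  rw [cnt_expand complete _ (by
    intro h
    refine ⟨Equiv.prodCongr (MulAut.conj h).toEquiv (Equiv.prodCongr (MulAut.conj h).toEquiv
      (Equiv.prodCongr (MulAut.conj h).toEquiv (MulAut.conj h).toEquiv)), ?_⟩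
    intro t
    simp only [Equiv.prodCongr_apply, Prod.map_fst, Prod.map_snd, MulEquiv.toEquiv_eq_coe,
      EquivLike.coe_coe, MulAut.conj_apply]
    group) g]
  rw [Finset.mul_sum, Finset.mul_sum]
  refine Finset.sum_congr rfl fun χ _ => ?_
  have h0 : χ.1 1 ≠ 0 := Cfsg.Agent.Lib.Helper3.Irr.IsIrrCharacter.apply_one_ne_zero χ.2
  have h2 : ∀ a b : G, ∑ c : G, ∑ d : G,
      χ.1 ((a * b * a⁻¹ * b⁻¹) * (c * d * c⁻¹ * d⁻¹))⁻¹ =
      (Nat.card G : ℂ) ^ 2 * χ.1 (b * a * b⁻¹ * a⁻¹) / χ.1 1 ^ 2 := by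
    intro a b
    rw [← comm_sum χ (b * a * b⁻¹ * a⁻¹), Finset.sum_comm]
    refine Finset.sum_congr rfl fun d _ => Finset.sum_congr rfl fun c _ => ?_
    have : ((a * b * a⁻¹ * b⁻¹) * (c * d * c⁻¹ * d⁻¹))⁻¹ =
        (d * c * d⁻¹ * c⁻¹) * (b * a * b⁻¹ * a⁻¹) := by group
    rw [this, irr_mul_comm]
  have h3 := comm_sum χ 1
  have h1 : ∑ t : G × G × G × G, χ.1 ((t.1 * t.2.1 * t.1⁻¹ * t.2.1⁻¹) *
      (t.2.2.1 * t.2.2.2 * t.2.2.1⁻¹ * t.2.2.2⁻¹))⁻¹ = (Nat.card G : ℂ) ^ 4 / χ.1 1 ^ 3 := by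
    simp only [Fintype.sum_prod_type]
    simp only [h2]
    rw [Finset.sum_comm]
    calc ∑ b : G, ∑ a : G, (Nat.card G : ℂ) ^ 2 * χ.1 (b * a * b⁻¹ * a⁻¹) / χ.1 1 ^ 2
        = (Nat.card G : ℂ) ^ 2 / χ.1 1 ^ 2 * ∑ b : G, ∑ a : G, χ.1 (1 * (b * a * b⁻¹ * a⁻¹)) := by
          rw [Finset.mul_sum]
          refine Finset.sum_congr rfl fun b _ => ?_
          rw [Finset.mul_sum]
          refine Finset.sum_congr rfl fun a _ => ?_
          rw [one_mul]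
          ring
      _ = _ := by
          rw [h3]
          field_simp
  rw [h1]
  field_simp

/-- Let G be a finite group such that the sum, over the irreducible complex characters χ of G, of 1/χ(1)² is less than 2. Then every element of G is a product of two commutators. -/
theorem result {G : Type*} [Group G] [Finite G]
    (h : ∑ᶠ χ : Cfsg.IrrCharacter G, 1 / ‖(χ : G → ℂ) 1‖ ^ 2 < (2 : ℝ)) (g : G) :
    ∃ a b c d : G, (a * b * a⁻¹ * b⁻¹) * (c * d * c⁻¹ * d⁻¹) = g := by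
  classical
  cases nonempty_fintype G
  have := finite_irr (G := G)
  cases nonempty_fintype (IrrCharacter G)
  rw [finsum_eq_sum_of_fintype] at h
  by_contra hcon
  push Not at hcon
  have h0 : cnt (fun t : G × G × G × G => (t.1 * t.2.1 * t.1⁻¹ * t.2.1⁻¹) *
      (t.2.2.1 * t.2.2.2 * t.2.2.1⁻¹ * t.2.2.2⁻¹)) g = 0 := by
    rw [cnt_eq_natCard]
    have : IsEmpty {t : G × G × G × G // (t.1 * t.2.1 * t.1⁻¹ * t.2.1⁻¹) *
        (t.2.2.1 * t.2.2.2 * t.2.2.1⁻¹ * t.2.2.2⁻¹) = g} :=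
      ⟨fun ⟨t, ht⟩ => hcon _ _ _ _ ht⟩
    simp
  rw [count] at h0
  have hne : (Nat.card G : ℂ) ≠ 0 := by
    simp [Nat.card_eq_fintype_card]
  have h1 : ∑ χ : IrrCharacter G, χ.1 g / χ.1 1 ^ 3 = 0 := by
    rcases mul_eq_zero.1 h0 with h | h
    · exact absurd h (pow_ne_zero _ hne)
    · exact h
  have h2 := Finset.add_sum_erase Finset.univ (fun χ : IrrCharacter G => χ.1 g / χ.1 1 ^ 3)
    (Finset.mem_univ (trivChar G))
  have ht : (trivChar G).1 g / (trivChar G).1 1 ^ 3 = 1 := by simp [trivChar]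
  simp only [h1, ht] at h2
  have h3 : ‖∑ χ ∈ Finset.univ.erase (trivChar G), χ.1 g / χ.1 1 ^ 3‖ = 1 := by
    have : ∑ χ ∈ Finset.univ.erase (trivChar G), χ.1 g / χ.1 1 ^ 3 = -1 := by
      linear_combination h2
    rw [this]
    simp
  have h4 : ‖∑ χ ∈ Finset.univ.erase (trivChar G), χ.1 g / χ.1 1 ^ 3‖ ≤
      ∑ χ ∈ Finset.univ.erase (trivChar G), 1 / ‖χ.1 1‖ ^ 2 := by
    refine (norm_sum_le _ _).trans (Finset.sum_le_sum fun χ _ => ?_)
    have hpos : 0 < ‖χ.1 1‖ :=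
      norm_pos_iff.2 (Cfsg.Agent.Lib.Helper3.Irr.IsIrrCharacter.apply_one_ne_zero χ.2)
    have hle : ‖χ.1 g‖ ≤ ‖χ.1 1‖ :=
      (Cfsg.Agent.Lib.Helper3.Irr.IsCharacter.norm_le
        (Cfsg.Agent.Lib.Helper3.Irr.IsIrrCharacter.isCharacter χ.2) g).trans
        (Complex.re_le_norm _)
    rw [norm_div, norm_pow, div_le_div_iff₀ (by positivity) (by positivity)]
    nlinarith [mul_le_mul_of_nonneg_right hle (sq_nonneg ‖χ.1 1‖)]
  have h5 := Finset.add_sum_erase Finset.univ (fun χ : IrrCharacter G => 1 / ‖χ.1 1‖ ^ 2)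
    (Finset.mem_univ (trivChar G))
  have ht' : 1 / ‖(trivChar G).1 1‖ ^ 2 = 1 := by simp [trivChar]
  simp only [ht'] at h5
  linarith

end Cfsg.Agent.S4814
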