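import Cfsg.Statements.S4825
import Cfsg.Agent.Lib.Helper16.Normal

set_option autoImplicit false
open Cfsg

namespace Cfsg.Agent.S4825

open Cfsg.Agent.Lib.Helper77.LocalRing Cfsg.Agent.Lib.Helper77.CentralChar
  Cfsg.Agent.Lib.Helper77.ClassSum Cfsg.Agent.Lib.Helper77.BlockIdem
  Cfsg.Agent.Lib.CT.Wedderburn Cfsg.Agent.Lib.Helper16.Normal

universe u

/-- A normal subgroup not containing a Sylow `p`-subgroup has index divisible by `p`. -/
theorem dvd_index_of_not_le {G : Type u} [Group G] [Finite G] (p : ℕ) [Fact p.Prime]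
    (P : Sylow p G) (N : Subgroup G) [N.Normal] (h : ¬ (P : Subgroup G) ≤ N) : p ∣ N.index := by
  by_contra hp
  apply h
  intro g hg
  obtain ⟨k, hk⟩ := P.isPGroup' ⟨g, hg⟩
  have hk' : g ^ p ^ k = 1 := by
    have := congrArg (Subtype.val) hk
    simpa using this
  have h1 : ((QuotientGroup.mk g : G ⧸ N)) ^ (p ^ k) = 1 := by
    rw [← QuotientGroup.mk_pow, hk']; rfl
  have h2 : (QuotientGroup.mk g : G ⧸ N) ^ N.index = 1 := by
    rw [Subgroup.index_eq_card]; exact pow_card_eq_one'
  have hcop : Nat.Coprime (p ^ k) N.index :=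
    Nat.Coprime.pow_left k ((Nat.Prime.coprime_iff_not_dvd Fact.out).mpr hp)
  have h3 : (QuotientGroup.mk g : G ⧸ N) = 1 := by
    have := (pow_gcd_eq_one (a := (QuotientGroup.mk g : G ⧸ N))).mpr ⟨h1, h2⟩
    rwa [hcop.gcd_eq_one, pow_one] at this
  exact (QuotientGroup.eq_one_iff g).mp h3

/-- The arithmetic: if `p` divides the sum of the squares of the `d i` over `T`, then the number
of `i ∈ T` with `p ∤ d i` is not `1`, and it is divisible by `p` when `p ≤ 3`. -/
theorem count_arith (p : ℕ) (hp : p.Prime) {ι : Type*} (T : Finset ι) (d : ι → ℕ)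
    (h : p ∣ ∑ i ∈ T, d i ^ 2) :
    ((T.filter (fun i => ¬ p ∣ d i)).card = 0 ∨ 2 ≤ (T.filter (fun i => ¬ p ∣ d i)).card) ∧
    (p ≤ 3 → p ∣ (T.filter (fun i => ¬ p ∣ d i)).card) := by
  classical
  have hsplit := Finset.sum_filter_add_sum_filter_not T (fun i => ¬ p ∣ d i) (fun i => d i ^ 2)
  have h2 : p ∣ ∑ i ∈ T.filter (fun i => ¬ ¬ p ∣ d i), d i ^ 2 := by
    apply Finset.dvd_sum
    intro i hi
    rw [Finset.mem_filter, not_not] at hi
    exact Dvd.dvd.pow hi.2 (by norm_num)
  have h1 : p ∣ ∑ i ∈ T.filter (fun i => ¬ p ∣ d i), d i ^ 2 := by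
    rw [← hsplit] at h
    exact (Nat.dvd_add_left h2).mp h
  refine ⟨?_, ?_⟩
  · by_contra hcon
    push Not at hcon
    have hc : (T.filter (fun i => ¬ p ∣ d i)).card = 1 := by omega
    obtain ⟨i, hi⟩ := Finset.card_eq_one.mp hc
    rw [hi, Finset.sum_singleton] at h1
    have hmem : i ∈ T.filter (fun i => ¬ p ∣ d i) := by rw [hi]; exact Finset.mem_singleton_self i
    exact (Finset.mem_filter.mp hmem).2 (hp.dvd_of_dvd_pow h1)
  · intro hp3
    have hmod : ∀ i ∈ T.filter (fun i => ¬ p ∣ d i), d i ^ 2 % p = 1 := by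
      intro i hi
      have hnd := (Finset.mem_filter.mp hi).2
      have hp2 := hp.two_le
      have hcases : p = 2 ∨ p = 3 := by omega
      rw [Nat.pow_mod]
      rcases hcases with rfl | rfl
      · have : d i % 2 = 1 := by omega
        rw [this]
      · have : d i % 3 = 1 ∨ d i % 3 = 2 := by omega
        rcases this with h | h <;> rw [h]
    have hs : (∑ i ∈ T.filter (fun i => ¬ p ∣ d i), d i ^ 2) % p
        = (T.filter (fun i => ¬ p ∣ d i)).card % p := by
      rw [Finset.sum_nat_mod, Finset.sum_congr rfl hmod]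
      simp
    rw [Nat.dvd_iff_mod_eq_zero] at h1 ⊢
    rw [← hs]; exact h1

/-- The key identity: the sum of `χ(1)²` over the `χ ∈ B` lying over `θ`. -/
theorem sum_sq_eq {G : Type u} [Group G] [Fintype G] [Fintype (IrrCharacter G)]
    (B : Set (IrrCharacter G)) (N : Subgroup G) [hN : N.Normal] [Fintype N]
    [Fintype (IrrCharacter N)] (θ : IrrCharacter N)
    [DecidablePred (fun χ : IrrCharacter G => χ ∈ B ∧
      classInner (fun n : N => (χ : G → ℂ) n) (θ : N → ℂ) ≠ 0)] :
    ∑ χ : IrrCharacter G, (if χ ∈ B ∧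
        classInner (fun n : N => (χ : G → ℂ) n) (θ : N → ℂ) ≠ 0 then ((χ : G → ℂ) 1) ^ 2 else 0)
      = (Nat.card G : ℂ) * (Nat.card N : ℂ)⁻¹ * ∑ n : N,
          (∑ θ' : IrrCharacter N, (orbit N hN θ).indicator
            (fun θ' : IrrCharacter N => (θ' : N → ℂ) 1 * (θ' : N → ℂ) n⁻¹) θ') *
          blockCoeff B ((n : G)⁻¹) := by
  classical
  have hpair : ∀ χ : IrrCharacter G, pair (χ : G → ℂ) (iota N (blockIdem (orbit N hN θ)))
      = if classInner (fun n : N => (χ : G → ℂ) n) (θ : N → ℂ) ≠ 0 then (χ : G → ℂ) 1 else 0 := by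
    intro χ
    have h1 : pair (χ : G → ℂ) (iota N (blockIdem (orbit N hN θ)))
        = omega (χ : G → ℂ) (iota N (blockIdem (orbit N hN θ))) * (χ : G → ℂ) 1 := by
      unfold omega
      rw [div_mul_cancel₀ _ (irr_apply_one_ne_zero χ.2)]
    rw [h1]
    by_cases hθ : classInner (fun n : N => (χ : G → ℂ) n) (θ : N → ℂ) ≠ 0
    · rw [if_pos hθ, omega_iota_blockIdem_of_exists N hN _ (gstable_orbit N hN θ) χ
        ⟨θ, mem_orbit_self N hN θ, hθ⟩, one_mul]
    · rw [if_neg hθ, omega_iota_blockIdem_of_forall N _ χ, zero_mul]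
      rintro _ ⟨g, rfl⟩
      rw [classInner_cI]
      exact not_not.mp hθ
  have hpair2 : ∀ χ : IrrCharacter G, pair (χ : G → ℂ) (iota N (blockIdem (orbit N hN θ)))
      = ∑ n : N, blockCoeff (orbit N hN θ) n * (χ : G → ℂ) n := by
    intro χ
    rw [pair_iota]
    unfold blockIdem
    rw [pair_ofFun]
  have hB : ∀ g : G, ∑ χ : IrrCharacter G, B.indicator
      (fun χ : IrrCharacter G => (χ : G → ℂ) 1 * (χ : G → ℂ) g) χ
        = (Nat.card G : ℂ) * blockCoeff B g⁻¹ := by
    intro g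
    rw [blockCoeff_eq_sum, inv_inv, ← mul_assoc, mul_inv_cancel₀, one_mul]
    exact_mod_cast Nat.card_pos.ne'
  calc ∑ χ : IrrCharacter G, (if χ ∈ B ∧
        classInner (fun n : N => (χ : G → ℂ) n) (θ : N → ℂ) ≠ 0 then ((χ : G → ℂ) 1) ^ 2 else 0)
      = ∑ χ : IrrCharacter G, ∑ n : N, blockCoeff (orbit N hN θ) n *
          B.indicator (fun χ : IrrCharacter G => (χ : G → ℂ) 1 * (χ : G → ℂ) n) χ := by
        apply Finset.sum_congr rfl
        intro χ _
        by_cases hχ : χ ∈ B
        · simp only [Set.indicator_of_mem hχ]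
          have : ∑ n : N, blockCoeff (orbit N hN θ) n * ((χ : G → ℂ) 1 * (χ : G → ℂ) n)
              = (χ : G → ℂ) 1 * ∑ n : N, blockCoeff (orbit N hN θ) n * (χ : G → ℂ) n := by
            rw [Finset.mul_sum]
            apply Finset.sum_congr rfl
            intro n _
            ring
          rw [this, ← hpair2, hpair]
          by_cases hθ : classInner (fun n : N => (χ : G → ℂ) n) (θ : N → ℂ) ≠ 0
          · rw [if_pos ⟨hχ, hθ⟩, if_pos hθ]; ring
          · rw [if_neg (fun h => hθ h.2), if_neg hθ, mul_zero]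
        · rw [if_neg (fun h => hχ h.1)]
          simp only [Set.indicator_of_notMem hχ, mul_zero, Finset.sum_const_zero]
    _ = ∑ n : N, blockCoeff (orbit N hN θ) n * ((Nat.card G : ℂ) * blockCoeff B ((n : G)⁻¹)) := by
        rw [Finset.sum_comm]
        apply Finset.sum_congr rfl
        intro n _
        rw [← Finset.mul_sum, hB]
    _ = _ := by
        rw [Finset.mul_sum]
        apply Finset.sum_congr rfl
        intro n _
        rw [blockCoeff_eq_sum]
        ring

theorem key_dvd {G : Type u} [Group G] [Fintype G] (p : ℕ) [Fact p.Prime]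
    (M : Ideal Cfsg.AlgInt) (hM : Cfsg.IsPModular p M) (B : Set (Cfsg.IrrCharacter G))
    (hB : Cfsg.IsPBlock M B) (N : Subgroup G) [hN : N.Normal] [Fintype N] (hpN : p ∣ N.index)
    (θ : Cfsg.IrrCharacter N) [Fintype (IrrCharacter G)]
    [DecidablePred (fun χ : IrrCharacter G => χ ∈ B ∧
      classInner (fun n : N => (χ : G → ℂ) n) (θ : N → ℂ) ≠ 0)] :
    p ∣ ∑ χ ∈ (Finset.univ.filter (fun χ : IrrCharacter G => χ ∈ B ∧
      classInner (fun n : N => (χ : G → ℂ) n) (θ : N → ℂ) ≠ 0)),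
        charDegree (χ : G → ℂ) ^ 2 := by
  classical
  have hMp := isPrime_of_isPModular hM
  have := finite_irrCharacter N
  have := Fintype.ofFinite (IrrCharacter N)
  rw [← memLocalIdeal_natCast_iff hM]
  have hcast : ((∑ χ ∈ (Finset.univ.filter (fun χ : IrrCharacter G => χ ∈ B ∧
      classInner (fun n : N => (χ : G → ℂ) n) (θ : N → ℂ) ≠ 0)),
        charDegree (χ : G → ℂ) ^ 2 : ℕ) : ℂ)
      = ∑ χ : IrrCharacter G, (if χ ∈ B ∧
        classInner (fun n : N => (χ : G → ℂ) n) (θ : N → ℂ) ≠ 0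
          then ((χ : G → ℂ) 1) ^ 2 else 0) := by
    rw [Finset.sum_filter, Nat.cast_sum]
    apply Finset.sum_congr rfl
    intro χ _
    split_ifs
    · rw [Nat.cast_pow, char_natCast_charDegree (isCharacter_of_irr χ.2)]
    · rw [Nat.cast_zero]
  rw [hcast, sum_sq_eq B N θ]
  have hidx : (Nat.card G : ℂ) * (Nat.card N : ℂ)⁻¹ = (N.index : ℂ) := by
    have h1 := Subgroup.card_mul_index N
    have h2 : (Nat.card N : ℂ) ≠ 0 := by exact_mod_cast Nat.card_pos.ne'
    rw [← h1, Nat.cast_mul]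
    field_simp
  rw [hidx]
  apply memLocalIdeal_mul_right hMp (memLocalIdeal_natCast_of_dvd hM hpN)
  apply memLocalRing_sum hMp
  intro n _
  apply memLocalRing_mul hMp
  · apply memLocalRing_sum hMp
    intro θ' _
    by_cases hθ' : θ' ∈ orbit N hN θ
    · rw [Set.indicator_of_mem hθ']
      exact memLocalRing_mul hMp
        (memLocalRing_of_isIntegral hMp
          (Cfsg.Agent.Lib.Helper80.Integrality.isIntegral_irrCharacter θ' _))
        (memLocalRing_of_isIntegral hMp
          (Cfsg.Agent.Lib.Helper80.Integrality.isIntegral_irrCharacter θ' _))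
    · rw [Set.indicator_of_notMem hθ']
      exact memLocalRing_zero hMp
  · exact blockCoeff_memLocalRing p M hM B hB _

/-- Let p be a prime, G a finite group with Sylow p-subgroup P, M a maximal ideal of the algebraic integers containing p, and B a p-block of G with defect group P. Let N be a normal subgroup of G not containing P and θ an irreducible character of N. Then the number of irreducible characters in B of degree prime to p lying over θ (having θ as a constituent on restriction to N) is either 0 or at least 2, and when p ≤ 3 it is divisible by p. -/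
theorem result {G : Type*} [Group G] [Fintype G] (p : ℕ) [Fact p.Prime] (P : Sylow p G) (M : Ideal Cfsg.AlgInt) (hM : Cfsg.IsPModular p M) (B : Set (Cfsg.IrrCharacter G)) (hB : Cfsg.IsPBlock M B) (hBP : Cfsg.IsDefectGroup p M B P) (N : Subgroup G) [N.Normal] [Fintype N] (hPN : ¬ (P : Subgroup G) ≤ N) (θ : Cfsg.IrrCharacter N) :
    (Nat.card {χ : Cfsg.IrrCharacter G // χ ∈ B ∧ ¬ p ∣ Cfsg.charDegree (χ : G → ℂ) ∧ Cfsg.classInner (fun n : N => (χ : G → ℂ) n) (θ : N → ℂ) ≠ 0} = 0 ∨
      2 ≤ Nat.card {χ : Cfsg.IrrCharacter G // χ ∈ B ∧ ¬ p ∣ Cfsg.charDegree (χ : G → ℂ) ∧ Cfsg.classInner (fun n : N => (χ : G → ℂ) n) (θ : N → ℂ) ≠ 0}) ∧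
    (p ≤ 3 → p ∣ Nat.card {χ : Cfsg.IrrCharacter G // χ ∈ B ∧ ¬ p ∣ Cfsg.charDegree (χ : G → ℂ) ∧ Cfsg.classInner (fun n : N => (χ : G → ℂ) n) (θ : N → ℂ) ≠ 0}) := by
  classical
  have _ := hBP
  have := finite_irrCharacter G
  have := Fintype.ofFinite (IrrCharacter G)
  have hpN := dvd_index_of_not_le p P N hPN
  have hkey := key_dvd p M hM B hB N hpN θ
  have harith := count_arith p (Fact.out : p.Prime) _ (fun χ : IrrCharacter G =>
    charDegree (χ : G → ℂ)) hkey
  have hcard : Nat.card {χ : Cfsg.IrrCharacter G // χ ∈ B ∧ ¬ p ∣ Cfsg.charDegree (χ : G → ℂ) ∧ Cfsg.classInner (fun n : N => (χ : G → ℂ) n) (θ : N → ℂ) ≠ 0}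
      = ((Finset.univ.filter (fun χ : IrrCharacter G => χ ∈ B ∧
      classInner (fun n : N => (χ : G → ℂ) n) (θ : N → ℂ) ≠ 0)).filter
        (fun χ : IrrCharacter G => ¬ p ∣ charDegree (χ : G → ℂ))).card := by
    rw [Nat.card_eq_fintype_card, Fintype.card_subtype, Finset.filter_filter]
    congr 1
    ext χ
    simp only [Finset.mem_filter, Finset.mem_univ, true_and]
    tauto
  rw [hcard]
  exact harith

end Cfsg.Agent.S4825
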