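import Cfsg.Statements.S4835
import Cfsg.Agent.Lib.Helper80.Gagola

set_option autoImplicit false
open Cfsg

namespace Cfsg.Agent.S4835

open Cfsg.Agent.Lib.Helper80.Gagola Cfsg.Agent.Lib.CT.Wedderburn Cfsg.Agent.Lib.CT.Orth

/-- Let G be a finite group of order greater than 2 with an irreducible character χ that is nonzero on exactly two conjugacy classes. Then G has a unique minimal normal subgroup N; N is an elementary abelian p-group for some prime p; χ is nonzero exactly at the elements of N; and any two nonidentity elements of N are conjugate in G. -/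
theorem result {G : Type*} [Group G] [Finite G] (hG : 2 < Nat.card G) (χ : Cfsg.IrrCharacter G) (hχ : Nat.card {C : ConjClasses G // ∃ g ∈ C.carrier, (χ : G → ℂ) g ≠ 0} = 2) :
    ∃ N : Subgroup G, N.Normal ∧ N ≠ ⊥ ∧ (∀ K : Subgroup G, K.Normal → K ≠ ⊥ → N ≤ K) ∧
      (∃ p : ℕ, p.Prime ∧ Cfsg.IsElementaryAbelian p N) ∧
      (∀ g : G, (χ : G → ℂ) g ≠ 0 ↔ g ∈ N) ∧
      (∀ x ∈ N, ∀ y ∈ N, x ≠ 1 → y ≠ 1 → ∃ g : G, g * x * g⁻¹ = y) := by
  obtain ⟨g₀, h1, h2, h3⟩ := exists_rep χ hχ
  obtain ⟨N, hNn, hN⟩ := exists_normal χ g₀ h1 h2 h3 hG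
  have hg₀N : g₀ ∈ N := (hN g₀).2 (Or.inr (IsConj.refl _))
  have hmin : ∀ K : Subgroup G, K.Normal → K ≠ ⊥ → N ≤ K := by
    intro K hK hK1 x hx
    rcases (hN x).1 hx with rfl | hc
    · exact K.one_mem
    · obtain ⟨c, rfl⟩ := isConj_iff.1 hc
      exact hK.conj_mem g₀ (mem_of_normal χ g₀ h1 h3 hG K hK hK1) c
  refine ⟨N, hNn, ?_, hmin, elementaryAbelian g₀ h1 N hN hmin, ?_, ?_⟩
  · intro hbot
    rw [hbot, Subgroup.mem_bot] at hg₀N
    exact h1 hg₀N
  · intro g
    constructor
    · intro hg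
      exact (hN g).2 (h3 g hg)
    · intro hg
      rcases (hN g).1 hg with rfl | hc
      · exact irr_apply_one_ne_zero χ.2
      · obtain ⟨c, rfl⟩ := isConj_iff.1 hc
        rw [irr_isClassFunction χ g₀ c]
        exact h2
  · intro x hx y hy hx1 hy1
    have hcx : IsConj g₀ x := by
      rcases (hN x).1 hx with h | h
      · exact absurd h hx1
      · exact h
    have hcy : IsConj g₀ y := by
      rcases (hN y).1 hy with h | h
      · exact absurd h hy1
      · exact h
    exact isConj_iff.1 (hcx.symm.trans hcy)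

end Cfsg.Agent.S4835
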