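import Cfsg.Statements.S4836
import Cfsg.Agent.Lib.Helper80.Gagola

set_option autoImplicit false
open Cfsg

namespace Cfsg.Agent.S4836

open Cfsg.Agent.Lib.Helper80.Gagola Cfsg.Agent.Lib.CT.Wedderburn Cfsg.Agent.Lib.CT.Orth

/-- Let G be a finite group of order greater than 2 with an irreducible character χ that is nonzero on exactly two conjugacy classes. Then χ is faithful (it takes the value χ(1) only at the identity), it is the only faithful irreducible character of G, and it is the only irreducible character of G that is nonzero on exactly two conjugacy classes. -/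
theorem result {G : Type*} [Group G] [Finite G] (hG : 2 < Nat.card G) (χ : Cfsg.IrrCharacter G) (hχ : Nat.card {C : ConjClasses G // ∃ g ∈ C.carrier, (χ : G → ℂ) g ≠ 0} = 2) :
    (∀ g : G, (χ : G → ℂ) g = (χ : G → ℂ) 1 → g = 1) ∧
      (∀ ψ : Cfsg.IrrCharacter G, (∀ g : G, (ψ : G → ℂ) g = (ψ : G → ℂ) 1 → g = 1) → ψ = χ) ∧
      (∀ ψ : Cfsg.IrrCharacter G, Nat.card {C : ConjClasses G // ∃ g ∈ C.carrier, (ψ : G → ℂ) g ≠ 0} = 2 → ψ = χ) := by
  obtain ⟨g₀, h1, h2, h3⟩ := exists_rep χ hχ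
  have hfaith : ∀ ψ : Cfsg.IrrCharacter G, (∀ g : G, (ψ : G → ℂ) g = (ψ : G → ℂ) 1 → g = 1) →
      ψ = χ := by
    intro ψ hψ
    by_contra hne
    exact h1 (hψ g₀ (apply_eq_of_ne χ g₀ h1 h3 hG ψ hne))
  refine ⟨faithful χ g₀ h1 h3 hG, hfaith, ?_⟩
  intro ψ hψ
  obtain ⟨g₁, k1, k2, k3⟩ := exists_rep ψ hψ
  exact hfaith ψ (faithful ψ g₁ k1 k3 hG)

end Cfsg.Agent.S4836
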