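import Cfsg.Statements.S4845
import Mathlib
import Cfsg.Agent.Lib.CT.Kernel
import Cfsg.Agent.Lib.CT.LinChar
import Cfsg.Agent.Lib.CT.Orth
import Cfsg.Agent.Lib.Helper80.Integrality
import Cfsg.Agent.Lib.Helper53.PGroupBasics
import Cfsg.Agent.Lib.Helper63.PFrattini

set_option autoImplicit false
open Cfsg

namespace Cfsg.Agent.S4845

set_option linter.unusedSectionVars false

open scoped ComplexConjugate

universe u
variable {G : Type u} [Group G] [Finite G]

theorem isChar {χ : G → ℂ} (h : IsIrrCharacter G χ) : IsCharacter G χ :=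
  Cfsg.Agent.Lib.CT.Wedderburn.isCharacter_of_irr h

theorem deg_cast {χ : G → ℂ} (h : IsIrrCharacter G χ) : χ 1 = (charDegree χ : ℂ) :=
  (Cfsg.Agent.Lib.CT.Wedderburn.char_natCast_charDegree (isChar h)).symm

theorem deg_pos {χ : G → ℂ} (h : IsIrrCharacter G χ) : 0 < charDegree χ :=
  Cfsg.Agent.Lib.CT.Wedderburn.irr_charDegree_pos h

theorem norm_sq_sum [Fintype G] {χ : G → ℂ} (h : IsIrrCharacter G χ) :
    ∑ g : G, ‖χ g‖ ^ 2 = (Nat.card G : ℝ) := by
  have h1 := Cfsg.Agent.Lib.CT.Wedderburn.irr_orthonormal (⟨χ, h⟩ : IrrCharacter G) ⟨χ, h⟩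
  rw [if_pos rfl] at h1
  unfold classInner at h1
  have hne : (Nat.card G : ℂ) ≠ 0 := Nat.cast_ne_zero.mpr Nat.card_pos.ne'
  have h2 : ∑ g : G, χ g * conj (χ g) = (Nat.card G : ℂ) := by
    have := congrArg (fun t => (Nat.card G : ℂ) * t) h1
    simpa [← mul_assoc, hne] using this
  have h3 : ∀ g : G, χ g * conj (χ g) = ((‖χ g‖ ^ 2 : ℝ) : ℂ) := fun g => by
    rw [Complex.mul_conj, Complex.normSq_eq_norm_sq]
  simp_rw [h3] at h2
  exact_mod_cast h2

theorem norm_center {χ : G → ℂ} (h : IsIrrCharacter G χ) {z : G} (hz : z ∈ Subgroup.center G) :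
    ‖χ z‖ = (charDegree χ : ℝ) := by
  rw [Cfsg.Agent.Lib.CT.Kernel.norm_eq_of_mem_center h hz, deg_cast h, Complex.natCast_re]

/-- `χ(1)² ≤ |G : Z(G)|`, with equality if `χ` vanishes off the centre. -/
theorem deg_sq_center {χ : G → ℂ} (h : IsIrrCharacter G χ) :
    charDegree χ ^ 2 ≤ (Subgroup.center G).index ∧
    ((∀ g, g ∉ Subgroup.center G → χ g = 0) → charDegree χ ^ 2 = (Subgroup.center G).index) := by
  classical
  have := Fintype.ofFinite G
  have h1 := norm_sq_sum h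
  rw [← Finset.sum_filter_add_sum_filter_not Finset.univ (fun g : G => g ∈ Subgroup.center G)] at h1
  have hZ : ∑ g ∈ Finset.univ.filter (fun g : G => g ∈ Subgroup.center G), ‖χ g‖ ^ 2
      = (Nat.card (Subgroup.center G) : ℝ) * (charDegree χ : ℝ) ^ 2 := by
    rw [Finset.sum_congr rfl (fun g hg => by rw [norm_center h (Finset.mem_filter.mp hg).2])]
    rw [Finset.sum_const, nsmul_eq_mul]
    congr 2
    exact (Nat.subtype_card _ (fun x => by simp)).symm
  rw [hZ] at h1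
  have hidx : (Nat.card (Subgroup.center G) : ℝ) * ((Subgroup.center G).index : ℝ) = (Nat.card G : ℝ) := by
    exact_mod_cast (Subgroup.center G).card_mul_index
  have hpos : (0 : ℝ) < (Nat.card (Subgroup.center G) : ℝ) := by
    exact_mod_cast Nat.card_pos
  constructor
  · have hnn : (0 : ℝ) ≤ ∑ g ∈ Finset.univ.filter (fun g : G => ¬ g ∈ Subgroup.center G), ‖χ g‖ ^ 2 :=
      Finset.sum_nonneg (fun g _ => by positivity)
    have h2 : (Nat.card (Subgroup.center G) : ℝ) * (charDegree χ : ℝ) ^ 2 ≤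
        (Nat.card (Subgroup.center G) : ℝ) * ((Subgroup.center G).index : ℝ) := by
      rw [hidx]; linarith
    have h3 := le_of_mul_le_mul_left h2 hpos
    exact_mod_cast h3
  · intro hv
    have h0 : ∑ g ∈ Finset.univ.filter (fun g : G => ¬ g ∈ Subgroup.center G), ‖χ g‖ ^ 2 = 0 :=
      Finset.sum_eq_zero (fun g hg => by rw [hv g (Finset.mem_filter.mp hg).2]; simp)
    rw [h0, add_zero, ← hidx] at h1
    have h3 := mul_left_cancel₀ hpos.ne' h1
    exact_mod_cast h3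

theorem vanish {χ : G → ℂ} (h : IsIrrCharacter G χ) {z g x : G} (hz : z ∈ Subgroup.center G)
    (hzk : χ z ≠ χ 1) (hx : x * g * x⁻¹ = z * g) : χ g = 0 := by
  have hc := isChar h
  obtain ⟨ω, h1, -, h3⟩ := Cfsg.Agent.Lib.CT.Kernel.exists_scalar_of_norm_eq hc
    (Cfsg.Agent.Lib.CT.Kernel.norm_eq_of_mem_center h hz)
  have h4 : χ (x * g * x⁻¹) = χ g := Cfsg.Agent.Lib.CT.Wedderburn.char_isClassFunction hc g x
  rw [hx, h1] at h4
  have hω : ω ≠ 1 := by
    rintro rfl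
    rw [one_mul] at h3
    exact hzk h3
  have h5 : (ω - 1) * χ g = 0 := by rw [sub_mul, h4, one_mul, sub_self]
  rcases mul_eq_zero.mp h5 with h6 | h6
  · exact absurd (sub_eq_zero.mp h6) hω
  · exact h6

theorem sep {g : G} (hg : g ≠ 1) : ∃ χ : G → ℂ, IsIrrCharacter G χ ∧ χ g ≠ χ 1 := by
  by_contra hcon
  push Not at hcon
  have h1 := Cfsg.Agent.Lib.CT.Orth.sum_apply_one_mul_of_ne g hg
  have h2 := Cfsg.Agent.Lib.CT.Orth.sum_apply_one_sq (G := G)
  have h3 : (fun χ : IrrCharacter G => (χ : G → ℂ) 1 * (χ : G → ℂ) g)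
      = fun χ : IrrCharacter G => (χ : G → ℂ) 1 ^ 2 := by
    funext χ
    rw [hcon χ.1 χ.2, sq]
  rw [h3, h2] at h1
  exact (Nat.cast_ne_zero.mpr Nat.card_pos.ne') h1

theorem linear_comm {μ : G → ℂ} (hμ : IsIrrCharacter G μ) (h1 : charDegree μ = 1) {c : G}
    (hc : c ∈ commutator G) : μ c = μ 1 := by
  have h11 : μ 1 = 1 := by rw [deg_cast hμ, h1]; simp
  obtain ⟨f, hf⟩ := Cfsg.Agent.Lib.CT.LinChar.exists_hom_of_isCharacter μ (isChar hμ) h11
  have h2 : c ∈ f.ker := Abelianization.commutator_subset_ker f hc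
  rw [hf, MonoidHom.mem_ker.mp h2, h11]; simp

theorem deg_one_of_comm (hcomm : ∀ a b : G, a * b = b * a) {χ : G → ℂ} (h : IsIrrCharacter G χ) :
    charDegree χ = 1 := by
  have hct : Subgroup.center G = ⊤ := by
    rw [Subgroup.eq_top_iff']
    intro g
    rw [Subgroup.mem_center_iff]
    intro x
    exact hcomm x g
  have h1 := (deg_sq_center h).2 (fun g hg => absurd (hct ▸ Subgroup.mem_top g) hg)
  rw [hct, Subgroup.index_top] at h1
  exact (Nat.pow_eq_one.mp h1).resolve_right (by norm_num)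

theorem comm_mem (x g : G) : x * g * x⁻¹ * g⁻¹ ∈ commutator G := by
  rw [commutator_def]
  exact Subgroup.commutator_mem_commutator (Subgroup.mem_top x) (Subgroup.mem_top g)

/-- Lemma D: a character nontrivial on every nontrivial commutator element (all central)
vanishes off the centre. -/
theorem lemD (hcz : commutator G ≤ Subgroup.center G) {χ : G → ℂ} (h : IsIrrCharacter G χ)
    (hk : ∀ c ∈ commutator G, c ≠ 1 → χ c ≠ χ 1) :
    ∀ g, g ∉ Subgroup.center G → χ g = 0 := by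
  intro g hg
  rw [Subgroup.mem_center_iff] at hg
  push Not at hg
  obtain ⟨x, hx⟩ := hg
  have hcm := comm_mem x g
  refine vanish h (hcz hcm) (hk _ hcm ?_) (x := x) (by group)
  intro h1
  apply hx
  have h2 : x * g = (x * g * x⁻¹ * g⁻¹) * (g * x) := by group
  rw [h2, h1, one_mul]

/-- A nonlinear irreducible character is nontrivial on every nontrivial element of a derived
subgroup of prime order. -/
theorem not_ker_of_nonlinear {p : ℕ} [Fact p.Prime] (hc : Nat.card (commutator G) = p)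
    {χ : G → ℂ} (h : IsIrrCharacter G χ) (hd : charDegree χ ≠ 1) :
    ∀ c ∈ commutator G, c ≠ 1 → χ c ≠ χ 1 := by
  intro c hcm hc1 hk
  apply hd
  obtain ⟨N, hN, hNmem⟩ := Cfsg.Agent.Lib.CT.Kernel.exists_normal_ker (isChar h)
  have hle : commutator G ≤ N := by
    intro y hy
    have h1 := mem_zpowers_of_prime_card (G := commutator G) hc (g := ⟨c, hcm⟩) (g' := ⟨y, hy⟩)
      (by intro h0; exact hc1 (congrArg Subtype.val h0))
    obtain ⟨k, hk'⟩ := Subgroup.mem_zpowers_iff.mp h1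
    have h2 : c ^ k = y := by simpa using congrArg Subtype.val hk'
    rw [← h2]
    exact N.zpow_mem ((hNmem c).mpr hk) k
  obtain ⟨χbar, hχbar, hval⟩ := Cfsg.Agent.Lib.CT.Kernel.exists_quotient_irr (commutator G) h
    (fun n hn => (hNmem n).mp (hle hn))
  have h1 : charDegree χbar = 1 :=
    deg_one_of_comm (fun a b => mul_comm (a : Abelianization G) b) hχbar
  have h2 : χ 1 = χbar 1 := (hval 1).symm
  unfold charDegree at h1 ⊢
  rw [h2]
  exact h1

/-- Galois conjugate characters have the same kernel. -/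
theorem ker_eq_of_conj {χ ψ : G → ℂ} (hχ : IsIrrCharacter G χ) {k : ℕ}
    (hk : Nat.Coprime k (Nat.card G)) (hψ : ∀ g, ψ g = χ (g ^ k)) (g : G) :
    ψ g = ψ 1 ↔ χ g = χ 1 := by
  obtain ⟨N, hN, hNmem⟩ := Cfsg.Agent.Lib.CT.Kernel.exists_normal_ker (isChar hχ)
  rw [hψ g, hψ 1, one_pow, ← hNmem, ← hNmem]
  constructor
  · intro h
    have hco : Nat.Coprime k (orderOf g) :=
      Nat.Coprime.coprime_dvd_right (orderOf_dvd_natCard g) hk
    obtain ⟨m, hm⟩ := exists_pow_eq_self_of_coprime hco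
    rw [← hm]
    exact N.pow_mem h m
  · intro h
    exact N.pow_mem h k

/-- The Galois-conjugacy hypothesis. -/
def GC (P : Type u) [Group P] : Prop :=
  ∀ χ ψ : IrrCharacter P, charDegree (χ : P → ℂ) ≠ 1 →
    charDegree (χ : P → ℂ) = charDegree (ψ : P → ℂ) →
    ∃ k : ℕ, Nat.Coprime k (Nat.card P) ∧ ∀ g : P, (ψ : P → ℂ) g = (χ : P → ℂ) (g ^ k)

theorem GC_ker (hGC : GC G) {χ ψ : G → ℂ} (hχ : IsIrrCharacter G χ) (hψ : IsIrrCharacter G ψ)
    (h1 : charDegree χ ≠ 1) (h2 : charDegree χ = charDegree ψ) (g : G) :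
    ψ g = ψ 1 ↔ χ g = χ 1 := by
  obtain ⟨k, hk, hkg⟩ := hGC ⟨χ, hχ⟩ ⟨ψ, hψ⟩ h1 h2
  exact ker_eq_of_conj hχ hk hkg g

theorem GC_quot (h : GC G) (N : Subgroup G) [N.Normal] : GC (G ⧸ N) := by
  intro χ ψ h1 h2
  obtain ⟨k, hk, hkg⟩ := h ⟨_, Cfsg.Agent.Lib.CT.Kernel.isIrrCharacter_inflation N χ.2⟩
    ⟨_, Cfsg.Agent.Lib.CT.Kernel.isIrrCharacter_inflation N ψ.2⟩ h1 h2
  refine ⟨k, Nat.Coprime.coprime_dvd_right (Subgroup.card_quotient_dvd_card N) hk, fun q => ?_⟩
  obtain ⟨g, rfl⟩ := QuotientGroup.mk_surjective q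
  exact hkg g

/-- Existence of an irreducible character with `N` in its kernel but not `z ∉ N`. -/
theorem exists_irr_over (N : Subgroup G) [N.Normal] {z : G} (hz : z ∉ N) :
    ∃ χ : G → ℂ, IsIrrCharacter G χ ∧ (∀ n ∈ N, χ n = χ 1) ∧ χ z ≠ χ 1 := by
  have hz1 : (z : G ⧸ N) ≠ 1 := fun h => hz ((QuotientGroup.eq_one_iff z).mp h)
  obtain ⟨χbar, hχbar, hne⟩ := sep hz1
  refine ⟨fun g => χbar (g : G ⧸ N), Cfsg.Agent.Lib.CT.Kernel.isIrrCharacter_inflation N hχbar,
    fun n hn => Cfsg.Agent.Lib.CT.Kernel.inflation_apply_of_mem N χbar hn, hne⟩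

theorem normal_of_central {z : G} (hz : z ∈ Subgroup.center G) : (Subgroup.zpowers z).Normal := by
  refine ⟨fun n hn g => ?_⟩
  obtain ⟨k, rfl⟩ := Subgroup.mem_zpowers_iff.mp hn
  have h1 : g * z ^ k = z ^ k * g := Subgroup.mem_center_iff.mp (Subgroup.zpow_mem _ hz k) g
  have h2 : g * z ^ k * g⁻¹ = z ^ k := by rw [h1]; group
  rw [h2]
  exact Subgroup.zpow_mem _ (Subgroup.mem_zpowers z) k

theorem prime_swap {p : ℕ} [Fact p.Prime] {a b : G} (ha : orderOf a = p)
    (hb : b ∈ Subgroup.zpowers a) (hb1 : b ≠ 1) : a ∈ Subgroup.zpowers b := by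
  have hc : Nat.card (Subgroup.zpowers a) = p := by rw [Nat.card_zpowers, ha]
  have h1 := mem_zpowers_of_prime_card (G := Subgroup.zpowers a) hc (g := ⟨b, hb⟩)
    (g' := ⟨a, Subgroup.mem_zpowers a⟩) (by intro h0; exact hb1 (congrArg Subtype.val h0))
  obtain ⟨k, hk⟩ := Subgroup.mem_zpowers_iff.mp h1
  have h2 : b ^ k = a := by simpa using congrArg Subtype.val hk
  rw [← h2]
  exact Subgroup.zpow_mem _ (Subgroup.mem_zpowers b) k

theorem exists_pow_prime_order {p : ℕ} [Fact p.Prime] (hP : IsPGroup p G) {g : G} (hg : g ≠ 1) :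
    ∃ m : ℕ, orderOf (g ^ m) = p := by
  have hp : p.Prime := Fact.out
  obtain ⟨n, hn⟩ := IsPGroup.iff_card.mp hP
  obtain ⟨j, -, hj⟩ := (Nat.dvd_prime_pow hp).mp (hn ▸ orderOf_dvd_natCard g)
  have hj0 : j ≠ 0 := by
    rintro rfl
    rw [pow_zero, orderOf_eq_one_iff] at hj
    exact hg hj
  obtain ⟨i, rfl⟩ := Nat.exists_eq_succ_of_ne_zero hj0
  refine ⟨p ^ i, orderOf_eq_prime ?_ ?_⟩
  · rw [← pow_mul, ← pow_succ, ← hj, pow_orderOf_eq_one]
  · apply pow_ne_one_of_lt_orderOf (pow_pos hp.pos i).ne'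
    rw [hj]
    exact Nat.pow_lt_pow_right hp.one_lt (Nat.lt_succ_self i)

theorem exists_central_comm {p : ℕ} [Fact p.Prime] (hP : IsPGroup p G)
    (hna : ¬ IsMulCommutative G) :
    ∃ z, z ∈ commutator G ∧ z ∈ Subgroup.center G ∧ orderOf z = p := by
  have hbot : commutator G ≠ ⊥ := by
    intro h
    apply hna
    have hct := (commutator_eq_bot_iff_center_eq_top G).mp h
    refine ⟨⟨fun a b => ?_⟩⟩
    have hb : b ∈ Subgroup.center G := hct ▸ Subgroup.mem_top b
    exact Subgroup.mem_center_iff.mp hb a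
  obtain ⟨z', hz'c, hz'1, hz'Z⟩ :=
    Cfsg.Agent.Lib.Helper53.PGroupBasics.exists_center_mem_normal hP (commutator G) hbot
  obtain ⟨m, hm⟩ := exists_pow_prime_order hP hz'1
  exact ⟨z' ^ m, Subgroup.pow_mem _ hz'c m, Subgroup.pow_mem _ hz'Z m, hm⟩

theorem sq_ne_prime_mul_sq {p a b : ℕ} (hp : p.Prime) (_ha : a ≠ 0) (hb : b ≠ 0) :
    a ^ 2 ≠ p * b ^ 2 := by
  intro h
  have h1 := congrArg (fun n => n.factorization p) h
  simp only [Nat.factorization_pow, Nat.factorization_mul hp.ne_zero (pow_ne_zero 2 hb),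
    Finsupp.smul_apply, Finsupp.add_apply, hp.factorization_self, smul_eq_mul] at h1
  omega

theorem deg_eq_of {p a b I : ℕ} (hp : p.Prime) (ha : 0 < a) (hb : 0 < b)
    (o1 : I = a ^ 2 ∨ I = p * a ^ 2) (o2 : I = b ^ 2 ∨ I = p * b ^ 2) : a = b := by
  rcases o1 with o1 | o1 <;> rcases o2 with o2 | o2
  · exact Nat.pow_left_injective (by norm_num : 2 ≠ 0) (o1.symm.trans o2)
  · exact absurd (o1.symm.trans o2) (sq_ne_prime_mul_sq hp ha.ne' hb.ne')
  · exact absurd (o2.symm.trans o1) (sq_ne_prime_mul_sq hp hb.ne' ha.ne')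
  · have h1 : p * a ^ 2 = p * b ^ 2 := o1.symm.trans o2
    exact Nat.pow_left_injective (by norm_num : 2 ≠ 0) (Nat.eq_of_mul_eq_mul_left hp.pos h1)

theorem mem_comap_center_iff (L : Subgroup G) [L.Normal] (g : G) :
    g ∈ (Subgroup.center (G ⧸ L)).comap (QuotientGroup.mk' L) ↔
      ∀ x : G, x * g * x⁻¹ * g⁻¹ ∈ L := by
  rw [Subgroup.mem_comap, Subgroup.mem_center_iff]
  constructor
  · intro h x
    rw [← QuotientGroup.eq_one_iff]
    have h1 : (x : G ⧸ L) * (g : G ⧸ L) = (g : G ⧸ L) * (x : G ⧸ L) := h (x : G ⧸ L)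
    show (x : G ⧸ L) * (g : G ⧸ L) * (x : G ⧸ L)⁻¹ * (g : G ⧸ L)⁻¹ = 1
    rw [h1]
    group
  · intro h q
    obtain ⟨x, rfl⟩ := QuotientGroup.mk_surjective q
    have h1 : (x : G ⧸ L) * (g : G ⧸ L) * (x : G ⧸ L)⁻¹ * (g : G ⧸ L)⁻¹ = 1 :=
      (QuotientGroup.eq_one_iff _).mpr (h x)
    show (x : G ⧸ L) * (g : G ⧸ L) = (g : G ⧸ L) * (x : G ⧸ L)
    have h2 : (x : G ⧸ L) * (g : G ⧸ L) =
        ((x : G ⧸ L) * (g : G ⧸ L) * (x : G ⧸ L)⁻¹ * (g : G ⧸ L)⁻¹) * ((g : G ⧸ L) * (x : G ⧸ L)) := by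
      group
    rw [h2, h1, one_mul]

theorem index_center_quot {p : ℕ} [Fact p.Prime] (hP : IsPGroup p G) (L : Subgroup G) [L.Normal]
    (hLc : L ≤ Subgroup.center G) (hL : Nat.card L = p)
    (hcyc : IsCyclic (Subgroup.center (G ⧸ L))) :
    (Subgroup.center G).index = (Subgroup.center (G ⧸ L)).index ∨
    (Subgroup.center G).index = p * (Subgroup.center (G ⧸ L)).index := by
  classical
  have hp : p.Prime := Fact.out
  set Z2 : Subgroup G := (Subgroup.center (G ⧸ L)).comap (QuotientGroup.mk' L) with hZ2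
  have hidx : Z2.index = (Subgroup.center (G ⧸ L)).index :=
    Subgroup.index_comap_of_surjective _ (QuotientGroup.mk'_surjective L)
  have hmemZ2 : ∀ g, g ∈ Z2 ↔ ∀ x : G, x * g * x⁻¹ * g⁻¹ ∈ L := mem_comap_center_iff L
  have hle : Subgroup.center G ≤ Z2 := by
    intro g hg
    rw [hmemZ2]
    intro x
    rw [Subgroup.mem_center_iff] at hg
    have h1 : x * g * x⁻¹ * g⁻¹ = 1 := by rw [hg x]; group
    rw [h1]; exact L.one_mem
  have hpow : ∀ g ∈ Z2, g ^ p ∈ Subgroup.center G := by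
    intro g hg
    rw [Subgroup.mem_center_iff]
    intro x
    have hc := (hmemZ2 g).mp hg x
    have hcc := Subgroup.mem_center_iff.mp (hLc hc)
    have hcp : (x * g * x⁻¹ * g⁻¹) ^ p = 1 := by
      have h1 := pow_card_eq_one' (G := L) (x := ⟨x * g * x⁻¹ * g⁻¹, hc⟩)
      rw [hL] at h1
      simpa using congrArg Subtype.val h1
    have h1 : x * g * x⁻¹ = (x * g * x⁻¹ * g⁻¹) * g := by group
    have h2 : x * g ^ p * x⁻¹ = g ^ p := by
      rw [← conj_pow, h1, (show Commute (x * g * x⁻¹ * g⁻¹) g from (hcc g).symm).mul_pow, hcp,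
        one_mul]
    calc x * g ^ p = (x * g ^ p * x⁻¹) * x := by group
      _ = g ^ p * x := by rw [h2]
  obtain ⟨⟨q0, hq0⟩, hgen⟩ := hcyc.exists_generator
  obtain ⟨g0, rfl⟩ := QuotientGroup.mk_surjective q0
  have hg0 : g0 ∈ Z2 := hq0
  have hdecomp : ∀ g ∈ Z2, ∃ j : ℤ, ∃ l ∈ L, g = g0 ^ j * l := by
    intro g hg
    have h1 := hgen ⟨(g : G ⧸ L), hg⟩
    obtain ⟨j, hj⟩ := Subgroup.mem_zpowers_iff.mp h1
    have hj' : ((g0 ^ j : G) : G ⧸ L) = (g : G ⧸ L) := by
      have h2 := congrArg Subtype.val hj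
      simpa using h2
    exact ⟨j, (g0 ^ j)⁻¹ * g, QuotientGroup.eq.mp hj', by group⟩
  have hcard : Nat.card Z2 ≤ p * Nat.card (Subgroup.center G) := by
    have hg0p := hpow g0 hg0
    let φ : Fin p × Subgroup.center G → Z2 := fun x =>
      ⟨g0 ^ (x.1 : ℕ) * (x.2 : G), Z2.mul_mem (Z2.pow_mem hg0 _) (hle x.2.2)⟩
    have hsurj : Function.Surjective φ := by
      rintro ⟨g, hg⟩
      obtain ⟨j, l, hl, rfl⟩ := hdecomp g hg
      have hpz : (p : ℤ) ≠ 0 := by exact_mod_cast hp.ne_zero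
      have hr0 : 0 ≤ j % (p : ℤ) := Int.emod_nonneg j hpz
      have hrlt : j % (p : ℤ) < p := Int.emod_lt_of_pos j (by exact_mod_cast hp.pos)
      obtain ⟨r, hr⟩ := Int.eq_ofNat_of_zero_le hr0
      have hrp : r < p := by omega
      refine ⟨(⟨r, hrp⟩, ⟨(g0 ^ p) ^ (j / (p : ℤ)) * l,
        Subgroup.mul_mem _ (Subgroup.zpow_mem _ hg0p _) (hLc hl)⟩), ?_⟩
      apply Subtype.ext
      show g0 ^ r * ((g0 ^ p) ^ (j / (p : ℤ)) * l) = g0 ^ j * l
      rw [← mul_assoc]
      congr 1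
      have hj : j = (r : ℤ) + (p : ℤ) * (j / (p : ℤ)) := by
        rw [← hr]; exact (Int.emod_add_mul_ediv j p).symm
      conv_rhs => rw [hj]
      rw [zpow_add, zpow_mul, zpow_natCast, zpow_natCast]
    have h1 := Nat.card_le_card_of_surjective φ hsurj
    rwa [Nat.card_prod, Nat.card_fin] at h1
  obtain ⟨c, hc⟩ := IsPGroup.iff_card.mp (hP.to_subgroup (Subgroup.center G))
  obtain ⟨m, hm⟩ := IsPGroup.iff_card.mp (hP.to_subgroup Z2)
  have hcm : c ≤ m := by
    have h1 := Subgroup.card_dvd_of_le hle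
    rw [hc, hm] at h1
    exact (Nat.pow_dvd_pow_iff_le_right hp.one_lt).mp h1
  have hmc : m ≤ c + 1 := by
    rw [hc, hm, ← pow_succ'] at hcard
    exact (Nat.pow_le_pow_iff_right hp.one_lt).mp hcard
  have e1 := (Subgroup.center G).card_mul_index
  have e2 := Z2.card_mul_index
  rw [hc] at e1
  rw [hm, hidx] at e2
  rcases Nat.lt_or_ge c m with h | h
  · right
    have hm1 : m = c + 1 := by omega
    subst hm1
    have h3 : p ^ c * (Subgroup.center G).index
        = p ^ c * (p * (Subgroup.center (G ⧸ L)).index) := by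
      rw [e1, ← e2, pow_succ]; ring
    exact Nat.eq_of_mul_eq_mul_left (pow_pos hp.pos c) h3
  · left
    have hm1 : m = c := by omega
    subst hm1
    exact Nat.eq_of_mul_eq_mul_left (pow_pos hp.pos m) (e1.trans e2.symm)

theorem quot_data {p : ℕ} [Fact p.Prime] (hP : IsPGroup p G) (hGC : GC G)
    (ih : ∀ (Q : Type u) [Group Q] [Finite Q], Nat.card Q < Nat.card G → IsPGroup p Q →
      ¬ IsMulCommutative Q → GC Q → IsCyclic (Subgroup.center Q) ∧ Nat.card (commutator Q) = p)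
    (L : Subgroup G) [L.Normal] (hLc : L ≤ Subgroup.center G) (hL : Nat.card L = p)
    {χ : G → ℂ} (hχ : IsIrrCharacter G χ) (hd : charDegree χ ≠ 1) (hker : ∀ n ∈ L, χ n = χ 1) :
    Nat.card (commutator (G ⧸ L)) = p ∧ charDegree χ ^ 2 = (Subgroup.center (G ⧸ L)).index ∧
    ((Subgroup.center G).index = (Subgroup.center (G ⧸ L)).index ∨
      (Subgroup.center G).index = p * (Subgroup.center (G ⧸ L)).index) := by
  have hp : p.Prime := Fact.out
  obtain ⟨χbar, hχbar, hval⟩ := Cfsg.Agent.Lib.CT.Kernel.exists_quotient_irr L hχ hker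
  have hdeg : charDegree χbar = charDegree χ := by
    have h2 : χ 1 = χbar 1 := (hval 1).symm
    unfold charDegree
    rw [h2]
  have hna : ¬ IsMulCommutative (G ⧸ L) := by
    intro hc
    apply hd
    rw [← hdeg]
    exact deg_one_of_comm (fun a b => hc.is_comm.comm a b) hχbar
  have hlt : Nat.card (G ⧸ L) < Nat.card G := by
    rw [Subgroup.card_eq_card_quotient_mul_card_subgroup L, hL]
    exact lt_mul_of_one_lt_right Nat.card_pos hp.one_lt
  have hPQ := hP.to_quotient L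
  obtain ⟨hcyc, hcomm⟩ := ih (G ⧸ L) hlt hPQ hna (GC_quot hGC L)
  refine ⟨hcomm, ?_, index_center_quot hP L hLc hL hcyc⟩
  rw [← hdeg]
  have hcz : commutator (G ⧸ L) ≤ Subgroup.center (G ⧸ L) :=
    Cfsg.Agent.Lib.Helper63.PFrattini.normal_card_prime_le_center hPQ _ hcomm
  exact (deg_sq_center hχbar).2
    (lemD hcz hχbar (not_ker_of_nonlinear hcomm hχbar (by rw [hdeg]; exact hd)))

/-- If all commutators with `a` lie in a central subgroup `N`, then `x ↦ [x, a]` is a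
homomorphism into `N`. -/
theorem comm_hom {H : Type*} [Group H] (N : Subgroup H) (hN : N ≤ Subgroup.center H) (a : H)
    (h : ∀ x, x * a * x⁻¹ * a⁻¹ ∈ N) :
    ∃ f : H →* N, ∀ x, (f x : H) = x * a * x⁻¹ * a⁻¹ := by
  refine ⟨MonoidHom.mk' (fun x => ⟨x * a * x⁻¹ * a⁻¹, h x⟩) ?_, fun x => rfl⟩
  intro x y
  apply Subtype.ext
  have hcy := Subgroup.mem_center_iff.mp (hN (h y))
  show x * y * a * (x * y)⁻¹ * a⁻¹ = (x * a * x⁻¹ * a⁻¹) * (y * a * y⁻¹ * a⁻¹)
  calc x * y * a * (x * y)⁻¹ * a⁻¹ = x * (y * a * y⁻¹ * a⁻¹) * (a * x⁻¹ * a⁻¹) := by group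
    _ = (y * a * y⁻¹ * a⁻¹) * x * (a * x⁻¹ * a⁻¹) := by rw [hcy x]
    _ = (y * a * y⁻¹ * a⁻¹) * (x * a * x⁻¹ * a⁻¹) := by group
    _ = (x * a * x⁻¹ * a⁻¹) * (y * a * y⁻¹ * a⁻¹) := (hcy _).symm

theorem index_ker_le {H K : Type*} [Group H] [Group K] [Finite K] (N : Subgroup K) (f : H →* N) :
    f.ker.index ≤ Nat.card N := by
  rw [Subgroup.index_ker]
  exact Subgroup.card_le_card_group _

theorem map_comm_mem (L : Subgroup G) [L.Normal] {b : G} (hb : b ∈ commutator G) :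
    (b : G ⧸ L) ∈ commutator (G ⧸ L) := by
  have h1 : (QuotientGroup.mk' L) b ∈ (commutator G).map (QuotientGroup.mk' L) :=
    Subgroup.mem_map_of_mem _ hb
  rw [commutator_def, Subgroup.map_commutator] at h1
  rw [commutator_def]
  exact Subgroup.commutator_mono le_top le_top h1

/-- Group theory for the non-central case: if `L` is central of order `p`, `(G/L)'` has order
`p` and `G'` is not central, then `|G/L : Z(G/L)| ≤ p²`. -/
theorem gt_index {p : ℕ} [Fact p.Prime] (hP : IsPGroup p G) (L : Subgroup G) [L.Normal]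
    (hLc : L ≤ Subgroup.center G) (hL : Nat.card L = p)
    (hQ : Nat.card (commutator (G ⧸ L)) = p) (hnc : ¬ commutator G ≤ Subgroup.center G) :
    (Subgroup.center (G ⧸ L)).index ≤ p ^ 2 := by
  classical
  have hp : p.Prime := Fact.out
  have hQc : commutator (G ⧸ L) ≤ Subgroup.center (G ⧸ L) :=
    Cfsg.Agent.Lib.Helper63.PFrattini.normal_card_prime_le_center (hP.to_quotient L) _ hQ
  obtain ⟨a, ha, hac⟩ := SetLike.not_le_iff_exists.mp hnc
  -- generation of the derived subgroup modulo `L`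
  have hgen : ∀ b₀ ∈ commutator G, (b₀ : G ⧸ L) ≠ 1 → ∀ b ∈ commutator G,
      ∃ j : ℤ, ∃ l ∈ L, b = b₀ ^ j * l := by
    intro b₀ hb₀ hne b hb
    have h1 := mem_zpowers_of_prime_card (G := commutator (G ⧸ L)) hQ
      (g := ⟨(b₀ : G ⧸ L), map_comm_mem L hb₀⟩) (g' := ⟨(b : G ⧸ L), map_comm_mem L hb⟩)
      (by intro h0; exact hne (congrArg Subtype.val h0))
    obtain ⟨j, hj⟩ := Subgroup.mem_zpowers_iff.mp h1
    have hj' : ((b₀ ^ j : G) : G ⧸ L) = (b : G ⧸ L) := by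
      have h2 := congrArg Subtype.val hj
      simpa using h2
    exact ⟨j, (b₀ ^ j)⁻¹ * b, QuotientGroup.eq.mp hj', by group⟩
  have hπa : (a : G ⧸ L) ≠ 1 := fun h => hac (hLc ((QuotientGroup.eq_one_iff a).mp h))
  have hfmem : ∀ x : G, x * a * x⁻¹ * a⁻¹ ∈ L := by
    have h1 : a ∈ (Subgroup.center (G ⧸ L)).comap (QuotientGroup.mk' L) :=
      hQc (map_comm_mem L ha)
    exact (mem_comap_center_iff L a).mp h1
  obtain ⟨f, hf⟩ := comm_hom L hLc a hfmem
  have hCmem : ∀ x, x ∈ f.ker ↔ x * a = a * x := by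
    intro x
    rw [MonoidHom.mem_ker, Subtype.ext_iff, hf]
    constructor
    · intro h
      have h2 : x * a = (x * a * x⁻¹ * a⁻¹) * (a * x) := by group
      rw [h2, h]; simp
    · intro h
      rw [h]; simp
  have hCidx : f.ker.index ≤ p := (index_ker_le L f).trans hL.le
  obtain ⟨x₀, hx₀⟩ : ∃ x₀, f x₀ ≠ 1 := by
    by_contra hcon
    push Not at hcon
    apply hac
    rw [Subgroup.mem_center_iff]
    intro x
    exact (hCmem x).mp (MonoidHom.mem_ker.mpr (hcon x))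
  have hdecomp : ∀ y : G, ∃ c ∈ f.ker, ∃ i : ℤ, y = c * x₀ ^ i := by
    intro y
    have h1 := mem_zpowers_of_prime_card (G := L) hL (g := f x₀) (g' := f y) hx₀
    obtain ⟨i, hi⟩ := Subgroup.mem_zpowers_iff.mp h1
    refine ⟨y * (x₀ ^ i)⁻¹, ?_, i, by group⟩
    rw [MonoidHom.mem_ker, map_mul, map_inv, map_zpow, hi, mul_inv_cancel]
  -- `C` centralizes the derived subgroup
  have hcent : ∀ g ∈ f.ker, ∀ b ∈ commutator G, g * b = b * g := by
    intro g hg b hb
    obtain ⟨j, l, hl, rfl⟩ := hgen a ha hπa b hb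
    have h1 : Commute g a := (hCmem g).mp hg
    have h2 : Commute g l := Subgroup.mem_center_iff.mp (hLc hl) g
    exact (h1.zpow_right j).mul_right h2
  have hcc : ⁅f.ker, f.ker⁆ ≤ Subgroup.center G := by
    rw [← Subgroup.commutator_top_right_eq_bot_iff_le_center]
    apply Subgroup.commutator_commutator_eq_bot_of_rotate
    · rw [Subgroup.commutator_eq_bot_iff_le_centralizer]
      refine le_trans (Subgroup.commutator_mono le_top le_top) ?_
      intro b hb
      rw [← commutator_def] at hb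
      rw [Subgroup.mem_centralizer_iff]
      intro g hg
      exact hcent g hg b hb
    · rw [Subgroup.commutator_eq_bot_iff_le_centralizer]
      refine le_trans (Subgroup.commutator_mono le_top le_top) ?_
      intro b hb
      rw [← commutator_def] at hb
      rw [Subgroup.mem_centralizer_iff]
      intro g hg
      exact hcent g hg b hb
  -- elements of `C` commute modulo `L`
  have hCab : ∀ g ∈ f.ker, ∀ h ∈ f.ker, Commute (g : G ⧸ L) (h : G ⧸ L) := by
    intro g hg h hh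
    have hmem : g * h * g⁻¹ * h⁻¹ ∈ ⁅f.ker, f.ker⁆ := Subgroup.commutator_mem_commutator hg hh
    have hcen := hcc hmem
    have hcomm : g * h * g⁻¹ * h⁻¹ ∈ commutator G := comm_mem g h
    have h1 : ((g * h * g⁻¹ * h⁻¹ : G) : G ⧸ L) = 1 := by
      by_contra hne
      apply hnc
      intro b hb
      obtain ⟨j, l, hl, rfl⟩ := hgen _ hcomm hne b hb
      exact Subgroup.mul_mem _ (Subgroup.zpow_mem _ hcen j) (hLc hl)
    have h2 : (g : G ⧸ L) * (h : G ⧸ L) * (g : G ⧸ L)⁻¹ * (h : G ⧸ L)⁻¹ = 1 := h1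
    show (g : G ⧸ L) * (h : G ⧸ L) = (h : G ⧸ L) * (g : G ⧸ L)
    have h3 : (g : G ⧸ L) * (h : G ⧸ L) =
        ((g : G ⧸ L) * (h : G ⧸ L) * (g : G ⧸ L)⁻¹ * (h : G ⧸ L)⁻¹) * ((h : G ⧸ L) * (g : G ⧸ L)) := by
      group
    rw [h3, h2, one_mul]
  -- the second homomorphism
  have hFmem : ∀ q : G ⧸ L, q * (x₀ : G ⧸ L) * q⁻¹ * (x₀ : G ⧸ L)⁻¹ ∈ commutator (G ⧸ L) :=
    fun q => comm_mem q _
  obtain ⟨F, hF⟩ := comm_hom (commutator (G ⧸ L)) hQc (x₀ : G ⧸ L) hFmem
  obtain ⟨F', hF'⟩ : ∃ F' : G →* commutator (G ⧸ L), ∀ g, F' g = F (g : G ⧸ L) :=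
    ⟨F.comp (QuotientGroup.mk' L), fun g => rfl⟩
  have hF'idx : F'.ker.index ≤ p := by
    have h0 := index_ker_le (commutator (G ⧸ L)) F'
    rw [hQ] at h0
    exact h0
  have hF'mem : ∀ g, g ∈ F'.ker → Commute (g : G ⧸ L) (x₀ : G ⧸ L) := by
    intro g hg
    rw [MonoidHom.mem_ker, hF' g] at hg
    have hg' : (g : G ⧸ L) * (x₀ : G ⧸ L) * (g : G ⧸ L)⁻¹ * (x₀ : G ⧸ L)⁻¹ = 1 := by
      rw [← hF, hg]; rfl
    show (g : G ⧸ L) * (x₀ : G ⧸ L) = (x₀ : G ⧸ L) * (g : G ⧸ L)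
    have h3 : (g : G ⧸ L) * (x₀ : G ⧸ L) =
        ((g : G ⧸ L) * (x₀ : G ⧸ L) * (g : G ⧸ L)⁻¹ * (x₀ : G ⧸ L)⁻¹) *
          ((x₀ : G ⧸ L) * (g : G ⧸ L)) := by
      group
    rw [h3, hg', one_mul]
  have hKle : f.ker ⊓ F'.ker ≤ (Subgroup.center (G ⧸ L)).comap (QuotientGroup.mk' L) := by
    intro g hg
    rw [Subgroup.mem_comap, Subgroup.mem_center_iff]
    intro q
    obtain ⟨y, rfl⟩ := QuotientGroup.mk_surjective q
    obtain ⟨c, hc, i, rfl⟩ := hdecomp y
    have h1 : Commute (g : G ⧸ L) (c : G ⧸ L) := hCab g hg.1 c hc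
    have h2 : Commute (g : G ⧸ L) (x₀ : G ⧸ L) := hF'mem g hg.2
    have h3 : Commute (g : G ⧸ L) ((c : G ⧸ L) * (x₀ : G ⧸ L) ^ i) := h1.mul_right (h2.zpow_right i)
    exact h3.symm
  have h1 : (Subgroup.center (G ⧸ L)).index =
      ((Subgroup.center (G ⧸ L)).comap (QuotientGroup.mk' L)).index :=
    (Subgroup.index_comap_of_surjective _ (QuotientGroup.mk'_surjective L)).symm
  rw [h1]
  have h2 : (f.ker ⊓ F'.ker).index ≤ p ^ 2 := by
    refine le_trans Subgroup.index_inf_le ?_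
    rw [sq]
    exact Nat.mul_le_mul hCidx hF'idx
  refine le_trans (Nat.le_of_dvd ?_ (Subgroup.index_dvd_of_le hKle)) h2
  exact Nat.pos_of_ne_zero Subgroup.index_ne_zero_of_finite

/-- Step 3: a faithful irreducible character exists. -/
theorem exists_faithful {p : ℕ} [Fact p.Prime] (hP : IsPGroup p G) (hna : ¬ IsMulCommutative G)
    (hGC : GC G)
    (ih : ∀ (Q : Type u) [Group Q] [Finite Q], Nat.card Q < Nat.card G → IsPGroup p Q →
      ¬ IsMulCommutative Q → GC Q → IsCyclic (Subgroup.center Q) ∧ Nat.card (commutator Q) = p) :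
    ∃ χ : G → ℂ, IsIrrCharacter G χ ∧ ∀ g, χ g = χ 1 → g = 1 := by
  have hp : p.Prime := Fact.out
  by_contra hcon
  push Not at hcon
  obtain ⟨z, hzc, hzZ, hzo⟩ := exists_central_comm hP hna
  have hz1 : z ≠ 1 := by
    intro h
    rw [h, orderOf_one] at hzo
    exact hp.one_lt.ne hzo
  obtain ⟨χ0, hχ0, hz0⟩ := sep hz1
  have hd0 : charDegree χ0 ≠ 1 := fun h => hz0 (linear_comm hχ0 h hzc)
  obtain ⟨N, hN, hNmem⟩ := Cfsg.Agent.Lib.CT.Kernel.exists_normal_ker (isChar hχ0)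
  obtain ⟨g1, hg1, hg1ne⟩ := hcon χ0 hχ0
  have hNbot : N ≠ ⊥ := by
    intro h
    apply hg1ne
    have h1 := (hNmem g1).mpr hg1
    rw [h] at h1
    exact Subgroup.mem_bot.mp h1
  have := hN
  obtain ⟨w', hw'N, hw'1, hw'Z⟩ :=
    Cfsg.Agent.Lib.Helper53.PGroupBasics.exists_center_mem_normal hP N hNbot
  obtain ⟨m, hm⟩ := exists_pow_prime_order hP hw'1
  obtain ⟨w, hwdef⟩ : ∃ w, w = w' ^ m := ⟨_, rfl⟩
  have hwN : w ∈ N := hwdef ▸ N.pow_mem hw'N m
  have hwZ : w ∈ Subgroup.center G := hwdef ▸ Subgroup.pow_mem _ hw'Z m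
  have hwo : orderOf w = p := hwdef ▸ hm
  have hzN : z ∉ N := fun h => hz0 ((hNmem z).mp h)
  have hzw : Commute z w := Subgroup.mem_center_iff.mp hwZ z
  have hzwo : orderOf (z * w) = p := by
    apply orderOf_eq_prime
    · have e1 : z ^ p = 1 := by rw [← hzo, pow_orderOf_eq_one]
      have e2 : w ^ p = 1 := by rw [← hwo, pow_orderOf_eq_one]
      rw [hzw.mul_pow, e1, e2, one_mul]
    · intro h
      apply hzN
      have h1 : z = w⁻¹ := eq_inv_of_mul_eq_one_left h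
      rw [h1]
      exact N.inv_mem hwN
  have hzL1 : z ∉ Subgroup.zpowers w := fun h => hzN ((Subgroup.zpowers_le.mpr hwN) h)
  have hw1 : w ≠ 1 := by
    intro h
    rw [h, orderOf_one] at hwo
    exact hp.one_lt.ne hwo
  have hzL2 : z ∉ Subgroup.zpowers (z * w) := by
    intro h
    have h1 : z * w ∈ Subgroup.zpowers z := prime_swap hzwo h hz1
    have h2 : w ∈ Subgroup.zpowers z := by
      have h3 := Subgroup.mul_mem _ (Subgroup.inv_mem _ (Subgroup.mem_zpowers z)) h1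
      simpa using h3
    exact hzL1 (prime_swap hzo h2 hw1)
  have hzwZ : z * w ∈ Subgroup.center G := Subgroup.mul_mem _ hzZ hwZ
  have n1 : (Subgroup.zpowers w).Normal := normal_of_central hwZ
  have n2 : (Subgroup.zpowers (z * w)).Normal := normal_of_central hzwZ
  have d1 := quot_data hP hGC ih (Subgroup.zpowers w) (Subgroup.zpowers_le.mpr hwZ)
    (by rw [Nat.card_zpowers, hwo]) hχ0 hd0
    (fun n hn => (hNmem n).mp (Subgroup.zpowers_le.mpr hwN hn))
  obtain ⟨χ2, hχ2, hker2, hz2⟩ := exists_irr_over (Subgroup.zpowers (z * w)) hzL2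
  have hd2 : charDegree χ2 ≠ 1 := fun h => hz2 (linear_comm hχ2 h hzc)
  have d2 := quot_data hP hGC ih (Subgroup.zpowers (z * w)) (Subgroup.zpowers_le.mpr hzwZ)
    (by rw [Nat.card_zpowers, hzwo]) hχ2 hd2 hker2
  have hdeg : charDegree χ0 = charDegree χ2 := by
    obtain ⟨-, e1, o1⟩ := d1
    obtain ⟨-, e2, o2⟩ := d2
    rw [← e1] at o1
    rw [← e2] at o2
    exact deg_eq_of hp (deg_pos hχ0) (deg_pos hχ2) o1 o2
  have hk := GC_ker hGC hχ0 hχ2 hd0 hdeg
  obtain ⟨N2, hN2, hN2mem⟩ := Cfsg.Agent.Lib.CT.Kernel.exists_normal_ker (isChar hχ2)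
  have hw2 : w ∈ N2 := (hN2mem w).mpr ((hk w).mpr ((hNmem w).mp hwN))
  have hzw2 : z * w ∈ N2 := (hN2mem _).mpr (hker2 _ (Subgroup.mem_zpowers _))
  have hz2' : z ∈ N2 := by
    have h3 := N2.mul_mem hzw2 (N2.inv_mem hw2)
    simpa using h3
  exact hz2 ((hN2mem z).mp hz2')

/-- Step 4: the derived subgroup has order `p`. -/
theorem card_comm_eq {p : ℕ} [Fact p.Prime] (hP : IsPGroup p G) (hna : ¬ IsMulCommutative G)
    (hGC : GC G)
    (ih : ∀ (Q : Type u) [Group Q] [Finite Q], Nat.card Q < Nat.card G → IsPGroup p Q →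
      ¬ IsMulCommutative Q → GC Q → IsCyclic (Subgroup.center Q) ∧ Nat.card (commutator Q) = p)
    {χ : G → ℂ} (hχ : IsIrrCharacter G χ) (hf : ∀ g, χ g = χ 1 → g = 1) :
    Nat.card (commutator G) = p := by
  have hp : p.Prime := Fact.out
  by_contra hne
  obtain ⟨z, hzc, hzZ, hzo⟩ := exists_central_comm hP hna
  have hz1 : z ≠ 1 := by
    intro h
    rw [h, orderOf_one] at hzo
    exact hp.one_lt.ne hzo
  have : (Subgroup.zpowers z).Normal := normal_of_central hzZ
  have hLc : Subgroup.zpowers z ≤ Subgroup.center G := Subgroup.zpowers_le.mpr hzZ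
  have hL : Nat.card (Subgroup.zpowers z) = p := by rw [Nat.card_zpowers, hzo]
  have hex : ∃ a ∈ commutator G, a ∉ Subgroup.zpowers z := by
    by_contra h
    push Not at h
    apply hne
    have h1 : commutator G = Subgroup.zpowers z := le_antisymm h (Subgroup.zpowers_le.mpr hzc)
    rw [h1, hL]
  obtain ⟨a, hac, haL⟩ := hex
  obtain ⟨ψ, hψ, hkerψ, haψ⟩ := exists_irr_over (Subgroup.zpowers z) haL
  have hdψ : charDegree ψ ≠ 1 := fun h => haψ (linear_comm hψ h hac)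
  obtain ⟨hQ, e1, o1⟩ := quot_data hP hGC ih (Subgroup.zpowers z) hLc hL hψ hdψ hkerψ
  have hdχ : charDegree χ ≠ 1 := fun h => hz1 (hf z (linear_comm hχ h hzc))
  have hdne : charDegree ψ ≠ charDegree χ := by
    intro h
    have hk := GC_ker hGC hψ hχ hdψ h z
    exact hz1 (hf z (hk.mpr (hkerψ z (Subgroup.mem_zpowers z))))
  have hle := (deg_sq_center hχ).1
  obtain ⟨n, hn⟩ := IsPGroup.iff_card.mp hP
  obtain ⟨a', -, ha'⟩ := (Nat.dvd_prime_pow hp).mp
    (hn ▸ Cfsg.Agent.Lib.Helper80.Integrality.charDegree_dvd_card (⟨χ, hχ⟩ : IrrCharacter G))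
  obtain ⟨b', -, hb'⟩ := (Nat.dvd_prime_pow hp).mp
    (hn ▸ Cfsg.Agent.Lib.Helper80.Integrality.charDegree_dvd_card (⟨ψ, hψ⟩ : IrrCharacter G))
  have ha'' : charDegree χ = p ^ a' := ha'
  have hb'' : charDegree ψ = p ^ b' := hb'
  have hidx_le : (Subgroup.center G).index ≤ p * charDegree ψ ^ 2 := by
    rcases o1 with o | o
    · rw [o, ← e1]; exact Nat.le_mul_of_pos_left _ hp.pos
    · rw [o, ← e1]
  have hab : a' < b' := by
    have h1 : charDegree χ ^ 2 ≤ p * charDegree ψ ^ 2 := hle.trans hidx_le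
    rw [ha'', hb'', ← pow_mul, ← pow_mul, ← pow_succ'] at h1
    have h2 := (Nat.pow_le_pow_iff_right hp.one_lt).mp h1
    have h3 : a' ≠ b' := by
      rintro rfl
      exact hdne (by rw [ha'', hb''])
    omega
  have hpf : p * charDegree χ ≤ charDegree ψ := by
    rw [ha'', hb'', ← pow_succ']
    exact Nat.pow_le_pow_right hp.pos (by omega)
  have hpos := deg_pos hχ
  by_cases hcz : commutator G ≤ Subgroup.center G
  · have hv := lemD hcz hχ (fun c _ hc1 hk => hc1 (hf c hk))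
    have heq := (deg_sq_center hχ).2 hv
    have hge : charDegree ψ ^ 2 ≤ charDegree χ ^ 2 := by
      rw [heq, e1]
      rcases o1 with o | o
      · rw [o]
      · rw [o]; exact Nat.le_mul_of_pos_left _ hp.pos
    have h4 : charDegree ψ ≤ charDegree χ := by
      by_contra hlt
      push Not at hlt
      exact absurd hge (not_le.mpr (Nat.pow_lt_pow_left hlt (by norm_num)))
    have h5 : 2 * charDegree χ ≤ charDegree χ :=
      (Nat.mul_le_mul_right _ hp.two_le).trans (hpf.trans h4)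
    omega
  · have hgt := gt_index hP (Subgroup.zpowers z) hLc hL hQ hcz
    rw [← e1] at hgt
    have h4 : charDegree ψ ≤ p := by
      by_contra hlt
      push Not at hlt
      exact absurd hgt (not_le.mpr (Nat.pow_lt_pow_left hlt (by norm_num)))
    have h5 : p * charDegree χ ≤ p * 1 := by rw [mul_one]; exact hpf.trans h4
    have h6 := Nat.le_of_mul_le_mul_left h5 hp.pos
    exact hdχ (by omega)

theorem cyclic_center_of_faithful {χ : G → ℂ} (hχ : IsIrrCharacter G χ)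
    (hf : ∀ g, χ g = χ 1 → g = 1) : IsCyclic (Subgroup.center G) := by
  have h1ne : χ 1 ≠ 0 := Cfsg.Agent.Lib.CT.Wedderburn.irr_apply_one_ne_zero hχ
  have hsc : ∀ z ∈ Subgroup.center G, ∀ g, χ (z * g) = χ z / χ 1 * χ g := by
    intro z hz g
    obtain ⟨ω, h1, -, h3⟩ := Cfsg.Agent.Lib.CT.Kernel.exists_scalar_of_norm_eq (isChar hχ)
      (Cfsg.Agent.Lib.CT.Kernel.norm_eq_of_mem_center hχ hz)
    rw [h1, h3, mul_div_assoc, div_self h1ne, mul_one]
  let f : Subgroup.center G →* ℂ :=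
    { toFun := fun z => χ z / χ 1
      map_one' := div_self h1ne
      map_mul' := fun a b => by
        show χ (a.1 * b.1) / χ 1 = χ a.1 / χ 1 * (χ b.1 / χ 1)
        rw [hsc a.1 a.2]; ring }
  refine isCyclic_of_injective_ringHom f ?_
  intro a b hab
  have h2 : χ a.1 = χ b.1 := by
    have h3 : χ a.1 / χ 1 = χ b.1 / χ 1 := hab
    field_simp at h3
    exact h3
  apply Subtype.ext
  have h3 : χ (a.1⁻¹ * b.1) = χ 1 := by
    rw [hsc _ (Subgroup.inv_mem _ a.2), ← h2, ← hsc _ (Subgroup.inv_mem _ a.2), inv_mul_cancel]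
  exact inv_mul_eq_one.mp (hf _ h3)

theorem main_aux (p : ℕ) [Fact p.Prime] (n : ℕ) :
    ∀ (P : Type u) [Group P] [Finite P], Nat.card P = n → IsPGroup p P →
      ¬ IsMulCommutative P → GC P →
      IsCyclic (Subgroup.center P) ∧ Nat.card (commutator P) = p := by
  induction n using Nat.strong_induction_on with
  | _ n ih =>
    intro P _ _ hn hP hna hGC
    have ih' : ∀ (Q : Type u) [Group Q] [Finite Q], Nat.card Q < Nat.card P → IsPGroup p Q →
        ¬ IsMulCommutative Q → GC Q →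
        IsCyclic (Subgroup.center Q) ∧ Nat.card (commutator Q) = p := by
      intro Q _ _ hlt hQ hnaQ hGCQ
      exact ih (Nat.card Q) (hn ▸ hlt) Q rfl hQ hnaQ hGCQ
    obtain ⟨χ, hχ, hf⟩ := exists_faithful hP hna hGC ih'
    exact ⟨cyclic_center_of_faithful hχ hf, card_comm_eq hP hna hGC ih' hχ hf⟩

/-- In a finite cyclic group, an element of order `p` generates every element killed by `p`. -/
theorem cyc_unique {A : Type*} [Group A] [Finite A] [IsCyclic A] {p : ℕ} (hp : p.Prime)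
    {y c : A} (hy : orderOf y = p) (hc : c ^ p = 1) : c ∈ Subgroup.zpowers y := by
  classical
  have := Fintype.ofFinite A
  have h1 : (Finset.univ.filter (fun a : A => a ^ p = 1)).card ≤ p :=
    IsCyclic.card_pow_eq_one_le hp.pos
  have hsub : (Finset.range p).image (fun i => y ^ i) ⊆ Finset.univ.filter (fun a : A => a ^ p = 1) := by
    intro x hx
    obtain ⟨i, -, rfl⟩ := Finset.mem_image.mp hx
    rw [Finset.mem_filter]
    refine ⟨Finset.mem_univ _, ?_⟩
    rw [← pow_mul, mul_comm, pow_mul, ← hy, pow_orderOf_eq_one, one_pow]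
  have hcard : ((Finset.range p).image (fun i => y ^ i)).card = p := by
    rw [Finset.card_image_of_injOn, Finset.card_range]
    intro i hi j hj hij
    have hi' : i < orderOf y := by rw [hy]; exact Finset.mem_range.mp hi
    have hj' : j < orderOf y := by rw [hy]; exact Finset.mem_range.mp hj
    exact pow_injOn_Iio_orderOf hi' hj' hij
  have heq := Finset.eq_of_subset_of_card_le hsub (by rw [hcard]; exact h1)
  have hcm : c ∈ Finset.univ.filter (fun a : A => a ^ p = 1) := by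
    rw [Finset.mem_filter]; exact ⟨Finset.mem_univ _, hc⟩
  rw [← heq] at hcm
  obtain ⟨i, -, rfl⟩ := Finset.mem_image.mp hcm
  exact Subgroup.pow_mem _ (Subgroup.mem_zpowers y) i

/-- With cyclic centre and derived subgroup of order `p`, a nonlinear irreducible character is
faithful on the centre. -/
theorem ker_center_trivial {p : ℕ} [Fact p.Prime] (hP : IsPGroup p G)
    (hcyc : IsCyclic (Subgroup.center G)) (hc : Nat.card (commutator G) = p)
    (hcz : commutator G ≤ Subgroup.center G)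
    {θ : G → ℂ} (hθ : IsIrrCharacter G θ) (hk : ∀ c ∈ commutator G, c ≠ 1 → θ c ≠ θ 1)
    {y : G} (hy : y ∈ Subgroup.center G) (hyk : θ y = θ 1) : y = 1 := by
  have hp : p.Prime := Fact.out
  by_contra hy1
  obtain ⟨N, hN, hNmem⟩ := Cfsg.Agent.Lib.CT.Kernel.exists_normal_ker (isChar hθ)
  obtain ⟨m, hm⟩ := exists_pow_prime_order hP hy1
  have hymN : y ^ m ∈ N := N.pow_mem ((hNmem y).mpr hyk) m
  have hymZ : y ^ m ∈ Subgroup.center G := Subgroup.pow_mem _ hy m
  have hbot : commutator G ≠ ⊥ := by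
    intro h
    rw [h, Subgroup.card_bot] at hc
    exact hp.one_lt.ne hc
  obtain ⟨c, hc1⟩ := (Subgroup.ne_bot_iff_exists_ne_one).mp hbot
  have hcc : (c : G) ≠ 1 := fun h => hc1 (Subtype.ext h)
  have hcp : (c : G) ^ p = 1 := by
    have h1 := pow_card_eq_one' (G := commutator G) (x := c)
    rw [hc] at h1
    simpa using congrArg Subtype.val h1
  have h2 : (⟨(c : G), hcz c.2⟩ : Subgroup.center G) ∈
      Subgroup.zpowers (⟨y ^ m, hymZ⟩ : Subgroup.center G) := by
    apply cyc_unique hp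
    · rw [Subgroup.orderOf_mk]; exact hm
    · apply Subtype.ext
      simpa using hcp
  obtain ⟨k, hk'⟩ := Subgroup.mem_zpowers_iff.mp h2
  have h3 : (y ^ m) ^ k = (c : G) := by simpa using congrArg Subtype.val hk'
  have h4 : (c : G) ∈ N := h3 ▸ N.zpow_mem hymN k
  exact hk c c.2 hcc ((hNmem c).mp h4)

/-- The converse direction. -/
theorem backward {p : ℕ} [Fact p.Prime] (hP : IsPGroup p G)
    (hcyc : IsCyclic (Subgroup.center G)) (hc : Nat.card (commutator G) = p) : GC G := by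
  classical
  have hp : p.Prime := Fact.out
  intro χ ψ hd hdeg
  have hcz : commutator G ≤ Subgroup.center G :=
    Cfsg.Agent.Lib.Helper63.PFrattini.normal_card_prime_le_center hP _ hc
  have hkχ := not_ker_of_nonlinear hc χ.2 hd
  have hkψ := not_ker_of_nonlinear hc ψ.2 (hdeg ▸ hd)
  have hvχ := lemD hcz χ.2 hkχ
  have hvψ := lemD hcz ψ.2 hkψ
  obtain ⟨⟨g0, hg0Z⟩, hgen⟩ := hcyc.exists_generator
  have hgen' : ∀ z ∈ Subgroup.center G, ∃ j : ℕ, g0 ^ j = z := by
    intro z hz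
    have h1 := hgen ⟨z, hz⟩
    rw [← mem_powers_iff_mem_zpowers] at h1
    obtain ⟨j, hj⟩ := (Submonoid.mem_powers_iff _ _).mp h1
    exact ⟨j, by simpa using congrArg Subtype.val hj⟩
  obtain ⟨ω, hω, -, -⟩ := Cfsg.Agent.Lib.CT.Kernel.exists_scalar_of_norm_eq (isChar χ.2)
    (Cfsg.Agent.Lib.CT.Kernel.norm_eq_of_mem_center χ.2 hg0Z)
  obtain ⟨ω', hω', -, -⟩ := Cfsg.Agent.Lib.CT.Kernel.exists_scalar_of_norm_eq (isChar ψ.2)
    (Cfsg.Agent.Lib.CT.Kernel.norm_eq_of_mem_center ψ.2 hg0Z)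
  have hpowχ : ∀ j : ℕ, χ.1 (g0 ^ j) = ω ^ j * χ.1 1 := by
    intro j
    induction j with
    | zero => simp
    | succ j ih => rw [pow_succ', hω, ih, pow_succ']; ring
  have hpowψ : ∀ j : ℕ, ψ.1 (g0 ^ j) = ω' ^ j * ψ.1 1 := by
    intro j
    induction j with
    | zero => simp
    | succ j ih => rw [pow_succ', hω', ih, pow_succ']; ring
  have h1χ : χ.1 1 ≠ 0 := Cfsg.Agent.Lib.CT.Wedderburn.irr_apply_one_ne_zero χ.2
  have h1ψ : ψ.1 1 ≠ 0 := Cfsg.Agent.Lib.CT.Wedderburn.irr_apply_one_ne_zero ψ.2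
  have h11 : ψ.1 1 = χ.1 1 := by rw [deg_cast χ.2, deg_cast ψ.2, hdeg]
  have hNpos : 0 < orderOf g0 := orderOf_pos g0
  have hprimχ : IsPrimitiveRoot ω (orderOf g0) := by
    rw [IsPrimitiveRoot.iff_def]
    constructor
    · have h2 := hpowχ (orderOf g0)
      rw [pow_orderOf_eq_one] at h2
      have h3 : ω ^ orderOf g0 * χ.1 1 = 1 * χ.1 1 := by rw [one_mul]; exact h2.symm
      exact mul_right_cancel₀ h1χ h3
    · intro l hl
      have h2 := hpowχ l
      rw [hl, one_mul] at h2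
      exact orderOf_dvd_of_pow_eq_one
        (ker_center_trivial hP hcyc hc hcz χ.2 hkχ (Subgroup.pow_mem _ hg0Z l) h2)
  have hprimψ : IsPrimitiveRoot ω' (orderOf g0) := by
    rw [IsPrimitiveRoot.iff_def]
    constructor
    · have h2 := hpowψ (orderOf g0)
      rw [pow_orderOf_eq_one] at h2
      have h3 : ω' ^ orderOf g0 * ψ.1 1 = 1 * ψ.1 1 := by rw [one_mul]; exact h2.symm
      exact mul_right_cancel₀ h1ψ h3
    · intro l hl
      have h2 := hpowψ l
      rw [hl, one_mul] at h2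
      exact orderOf_dvd_of_pow_eq_one
        (ker_center_trivial hP hcyc hc hcz ψ.2 hkψ (Subgroup.pow_mem _ hg0Z l) h2)
  have : NeZero (orderOf g0) := ⟨hNpos.ne'⟩
  obtain ⟨k, -, hk⟩ := hprimχ.eq_pow_of_pow_eq_one hprimψ.pow_eq_one
  have hkco : k.Coprime (orderOf g0) := (hprimχ.pow_iff_coprime hNpos k).mp (hk ▸ hprimψ)
  obtain ⟨n, hn⟩ := IsPGroup.iff_card.mp hP
  have hpN : p ∣ orderOf g0 := by
    obtain ⟨i, -, hi⟩ := (Nat.dvd_prime_pow hp).mp (hn ▸ orderOf_dvd_natCard g0)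
    rcases Nat.eq_zero_or_pos i with h0 | h0
    · exfalso
      rw [h0, pow_zero, orderOf_eq_one_iff] at hi
      have hbot : commutator G ≠ ⊥ := by
        intro h
        rw [h, Subgroup.card_bot] at hc
        exact hp.one_lt.ne hc
      obtain ⟨c, hc1⟩ := (Subgroup.ne_bot_iff_exists_ne_one).mp hbot
      obtain ⟨j, hj⟩ := hgen' (c : G) (hcz c.2)
      rw [hi, one_pow] at hj
      exact hc1 (Subtype.ext hj.symm)
    · rw [hi]; exact dvd_pow_self p h0.ne'
  have hkp : k.Coprime p := Nat.Coprime.coprime_dvd_right hpN hkco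
  refine ⟨k, by rw [hn]; exact Nat.Coprime.pow_right n hkp, fun g => ?_⟩
  by_cases hg : g ∈ Subgroup.center G
  · obtain ⟨j, rfl⟩ := hgen' g hg
    rw [hpowψ, ← pow_mul, hpowχ, h11, ← hk, ← pow_mul, mul_comm j k]
  · rw [hvψ g hg]
    have hgk : g ^ k ∉ Subgroup.center G := by
      intro h
      apply hg
      have hco : Nat.Coprime k (orderOf g) :=
        Nat.Coprime.coprime_dvd_right (hn ▸ orderOf_dvd_natCard g) (Nat.Coprime.pow_right n hkp)
      obtain ⟨m, hm⟩ := exists_pow_eq_self_of_coprime hco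
      rw [← hm]
      exact Subgroup.pow_mem _ h m
    rw [hvχ _ hgk]

theorem main {P : Type*} [Group P] [Finite P] (p : ℕ) [Fact p.Prime] (hP : IsPGroup p P) (hna : ¬ IsMulCommutative P) :
    (∀ χ ψ : Cfsg.IrrCharacter P, Cfsg.charDegree (χ : P → ℂ) ≠ 1 → Cfsg.charDegree (χ : P → ℂ) = Cfsg.charDegree (ψ : P → ℂ) → ∃ k : ℕ, Nat.Coprime k (Nat.card P) ∧ ∀ g : P, (ψ : P → ℂ) g = (χ : P → ℂ) (g ^ k)) ↔
      (IsCyclic (Subgroup.center P) ∧ Nat.card (commutator P) = p) := by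
  constructor
  · intro h
    exact main_aux p (Nat.card P) P rfl hP hna h
  · rintro ⟨h1, h2⟩
    exact backward hP h1 h2

/-- Let p be a prime and P a finite non-commutative p-group. Then every two irreducible characters of P of the same degree greater than 1 are Galois conjugate (one is obtained from the other by composing with g ↦ g^k for some k prime to the order of P) if and only if the centre of P is cyclic and the derived subgroup of P has order p. -/
theorem result {P : Type*} [Group P] [Finite P] (p : ℕ) [Fact p.Prime] (hP : IsPGroup p P) (hna : ¬ IsMulCommutative P) :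
    (∀ χ ψ : Cfsg.IrrCharacter P, Cfsg.charDegree (χ : P → ℂ) ≠ 1 → Cfsg.charDegree (χ : P → ℂ) = Cfsg.charDegree (ψ : P → ℂ) → ∃ k : ℕ, Nat.Coprime k (Nat.card P) ∧ ∀ g : P, (ψ : P → ℂ) g = (χ : P → ℂ) (g ^ k)) ↔
      (IsCyclic (Subgroup.center P) ∧ Nat.card (commutator P) = p) := by
  exact main p hP hna

end Cfsg.Agent.S4845
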