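import Cfsg.Statements.S4870
import Cfsg.Agent.Lib.Helper81.CliffCorr

set_option autoImplicit false
set_option linter.style.haveILetI false
open Cfsg

namespace Cfsg.Agent.S4870

open Cfsg.Agent.Lib.Helper81.Irr Cfsg.Agent.Lib.Helper81.Basic Cfsg.Agent.Lib.Helper81.Expand
  Cfsg.Agent.Lib.Helper81.Mult Cfsg.Agent.Lib.Helper81.Cliff Cfsg.Agent.Lib.Helper81.OddIndex
  Cfsg.Agent.Lib.Helper81.CliffCorr

universe u

/-- The stabilizer condition of the statement in terms of the conjugation action. -/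
theorem stab_iff {G : Type u} [Group G] (N : Subgroup G) [N.Normal] (φ : IrrCharacter ↥N)
    (g : G) :
    (∀ n n' : ↥N, (n' : G) = g * (n : G) * g⁻¹ → (φ : ↥N → ℂ) n' = (φ : ↥N → ℂ) n) ↔
      conjI N g φ = φ := by
  constructor
  · intro h
    apply Subtype.ext
    funext k
    rw [conjI_apply]
    exact (h (MulAut.conjNormal g⁻¹ k) k (by rw [MulAut.conjNormal_apply]; group)).symm
  · intro h n n' hn'
    have h1 := congrArg (fun θ : IrrCharacter ↥N => θ.1 n') h
    simp only [conjI_apply] at h1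
    have h2 : MulAut.conjNormal g⁻¹ n' = n := by
      apply Subtype.ext
      rw [MulAut.conjNormal_apply, hn']
      group
    rw [h2] at h1
    exact h1.symm

/-- Linear characters are trivial on a perfect subgroup. -/
theorem linear_trivial_on {G : Type u} [Group G] (N : Subgroup G) (hNcomm : ⁅N, N⁆ = N)
    (μ : IrrCharacter G) (hμ : μ.1 1 = 1) (n : G) (hn : n ∈ N) : μ.1 n = 1 := by
  obtain ⟨f, hf⟩ := Cfsg.Agent.Lib.CT.LinChar.exists_hom_of_isCharacter μ.1 (irr_isCharacter μ) hμ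
  have hle : ⁅N, N⁆ ≤ f.ker := by
    rw [Subgroup.commutator_le]
    intro a _ b _
    rw [MonoidHom.mem_ker, map_commutatorElement]
    exact commutatorElement_eq_one_iff_commute.mpr (Commute.all _ _)
  rw [hNcomm] at hle
  have h1 := hle hn
  rw [MonoidHom.mem_ker] at h1
  rw [hf, h1]
  rfl

/-- Let G be a finite group with a non-abelian minimal normal subgroup N, and let φ be an irreducible complex character of N with stabilizer I in G (the elements g with φ(g n g⁻¹) = φ(n) for all n ∈ N) such that φ extends to an irreducible character of I. Put d = φ(1)·[G : I]. Then the number of linear characters of G is at most [G : I] times the number of irreducible characters of G of degree d. -/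
theorem result {G : Type*} [Group G] [Finite G] (N : Subgroup G) (hN : N.Normal) (hN1 : N ≠ ⊥) (hmin : ∀ M : Subgroup G, M.Normal → M ≤ N → M = ⊥ ∨ M = N) (hna : ¬ IsMulCommutative ↥N) (φ : Cfsg.IrrCharacter ↥N) (I : Subgroup G) (hI : ∀ g : G, g ∈ I ↔ ∀ n n' : ↥N, (n' : G) = g * (n : G) * g⁻¹ → (φ : ↥N → ℂ) n' = (φ : ↥N → ℂ) n) (hNI : N ≤ I) (hext : ∃ ψ : Cfsg.IrrCharacter ↥I, ∀ n : ↥N, (ψ : ↥I → ℂ) (Subgroup.inclusion hNI n) = (φ : ↥N → ℂ) n) : Nat.card {χ : Cfsg.IrrCharacter G // Cfsg.charDegree (χ : G → ℂ) = 1} ≤ I.index * Nat.card {χ : Cfsg.IrrCharacter G // Cfsg.charDegree (χ : G → ℂ) = Cfsg.charDegree (φ : ↥N → ℂ) * I.index} := by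
  classical
  haveI := hN
  cases nonempty_fintype G
  haveI : Fintype ↥N := Fintype.ofFinite _
  haveI : Fintype ↥I := Fintype.ofFinite _
  haveI : Fintype ↥(N.subgroupOf I) := Fintype.ofFinite _
  have := finite_irr (G := G)
  cases nonempty_fintype (IrrCharacter G)
  have := finite_irr (G := ↥N)
  cases nonempty_fintype (IrrCharacter ↥N)
  have := finite_irr (G := ↥I)
  cases nonempty_fintype (IrrCharacter ↥I)
  have := finite_irr (G := ↥(N.subgroupOf I))
  cases nonempty_fintype (IrrCharacter ↥(N.subgroupOf I))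
  obtain ⟨ψ, hψ⟩ := hext
  have hI' : ∀ g : G, g ∈ I ↔ conjI N g φ = φ := fun g => (hI g).trans (stab_iff N φ g)
  -- N is perfect
  have hNcomm : ⁅N, N⁆ = N := by
    rcases hmin ⁅N, N⁆ inferInstance (Subgroup.commutator_le_right N N) with h | h
    · exfalso
      apply hna
      rw [Subgroup.commutator_eq_bot_iff_le_centralizer] at h
      refine ⟨⟨fun a b => ?_⟩⟩
      apply Subtype.ext
      have := h a.2 b b.2
      rw [Subgroup.coe_mul, Subgroup.coe_mul]
      exact this.symm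
    · exact h
  have hone : ∀ μ : IrrCharacter G, charDegree μ.1 = 1 → μ.1 1 = 1 := by
    intro μ hμ
    rw [deg_cast, hμ]
    simp
  -- the character of `I` attached to a linear character of `G`
  have hξ : ∀ μ : IrrCharacter G, charDegree μ.1 = 1 →
      ∃ ξ : IrrCharacter ↥I, ξ.1 = res I μ.1 * ψ.1 ∧ resTo hNI ξ.1 = φ.1 := by
    intro μ hμ
    refine ⟨⟨res I μ.1 * ψ.1, Cfsg.Agent.Lib.CT.LinChar.isIrrCharacter_linear_mul
      (isCharacter_res I (irr_isCharacter μ)) (hone μ hμ) ψ.2⟩, rfl, ?_⟩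
    funext n
    show res I μ.1 (Subgroup.inclusion hNI n) * ψ.1 (Subgroup.inclusion hNI n) = φ.1 n
    rw [hψ n, res_apply]
    rw [show ((Subgroup.inclusion hNI n : ↥I) : G) = (n : G) from rfl,
      linear_trivial_on N hNcomm μ (hone μ hμ) n n.2, one_mul]
  haveI : Nonempty (IrrCharacter ↥I) := ⟨ψ⟩
  haveI : Nonempty (IrrCharacter G) := ⟨trivChar G⟩
  choose! ξ hξ1 hξ2 using hξ
  have hF : ∀ μ : IrrCharacter G, charDegree μ.1 = 1 →
      ∃ χ : IrrCharacter G, indFun I (ξ μ).1 = χ.1 ∧ mult (res N χ.1) φ = 1 ∧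
        mult (res I χ.1) (ξ μ) = 1 ∧ charDegree χ.1 = I.index * charDegree φ.1 :=
    fun μ hμ => induced_isIrr N φ I hI' hNI (ξ μ) (hξ2 μ hμ)
  choose! F hF1 hF2 hF3 hF4 using hF
  -- the restriction of ψ to N (as a subgroup of I) is irreducible
  obtain ⟨φ', hφ'⟩ : ∃ φ' : IrrCharacter ↥(N.subgroupOf I), res (N.subgroupOf I) ψ.1 = φ'.1 := by
    refine ⟨⟨fun m => φ.1 (Subgroup.subgroupOfEquivOfLe hNI m),
      isIrrCharacter_comp φ.2 (Subgroup.subgroupOfEquivOfLe hNI).toMonoidHom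
        (MulEquiv.surjective _)⟩, ?_⟩
    funext m
    show ψ.1 (m : ↥I) = φ.1 (Subgroup.subgroupOfEquivOfLe hNI m)
    rw [← hψ]
    congr 1
  rw [Nat.card_eq_fintype_card, Nat.card_eq_fintype_card, Fintype.card_subtype,
    Fintype.card_subtype]
  apply Finset.card_le_mul_card_image_of_maps_to (f := F)
  · intro μ hμ
    rw [Finset.mem_filter] at hμ ⊢
    exact ⟨Finset.mem_univ _, by rw [hF4 μ hμ.2, mul_comm]⟩
  · intro χ _
    by_cases hemp : (Finset.univ.filter (fun μ : IrrCharacter G => charDegree μ.1 = 1)).filter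
        (fun μ => F μ = χ) = ∅
    · rw [hemp]
      simp
    · obtain ⟨μ₀, hμ₀⟩ := Finset.nonempty_iff_ne_empty.mpr hemp
      rw [Finset.mem_filter, Finset.mem_filter] at hμ₀
      apply card_linear_fiber_le I _ μ₀ (hone μ₀ hμ₀.1.2)
      intro ν hν i hi
      rw [Finset.mem_filter, Finset.mem_filter] at hν
      have e1 : indFun I (ξ ν).1 = indFun I (ξ μ₀).1 := by
        rw [hF1 ν hν.1.2, hF1 μ₀ hμ₀.1.2, hν.2, hμ₀.2]
      have e2 : ξ ν = ξ μ₀ :=
        induced_inj N φ I hI' hNI _ _ (hξ2 ν hν.1.2) (hξ2 μ₀ hμ₀.1.2) e1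
      have e3 : res I ν.1 * ψ.1 = res I μ₀.1 * ψ.1 := by
        rw [← hξ1 ν hν.1.2, ← hξ1 μ₀ hμ₀.1.2, e2]
      have hν1 : res I ν.1 1 = 1 := hone ν hν.1.2
      have hμ1 : res I μ₀.1 1 = 1 := hone μ₀ hμ₀.1.2
      have hνc : IsCharacter ↥I (res I ν.1) := isCharacter_res I (irr_isCharacter ν)
      have hμc : IsCharacter ↥I (res I μ₀.1) := isCharacter_res I (irr_isCharacter μ₀)
      have hβ := Cfsg.Agent.Lib.CT.LinChar.isLinear_mul ⟨hνc, hν1⟩
        (Cfsg.Agent.Lib.CT.LinChar.isLinear_inv ⟨hμc, hμ1⟩)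
      have hne : ∀ x : ↥I, res I μ₀.1 x ≠ 0 :=
        fun x => Cfsg.Agent.Lib.CT.LinChar.linear_ne_zero hμc hμ1 x
      have key := gallagher_lin (H := ↥I) (N.subgroupOf I) ψ φ' hφ'
        (res I ν.1 * fun x => (res I μ₀.1 x)⁻¹) hβ.1 hβ.2 (by
          intro m hm
          rw [Subgroup.mem_subgroupOf] at hm
          show res I ν.1 m * (res I μ₀.1 m)⁻¹ = 1
          rw [res_apply, res_apply, linear_trivial_on N hNcomm ν (hone ν hν.1.2) m hm,
            linear_trivial_on N hNcomm μ₀ (hone μ₀ hμ₀.1.2) m hm]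
          simp) (by
          intro x
          show res I ν.1 x * (res I μ₀.1 x)⁻¹ * ψ.1 x = ψ.1 x
          have h4 := congrFun e3 x
          simp only [Pi.mul_apply] at h4
          rw [mul_assoc, mul_comm (res I μ₀.1 x)⁻¹, ← mul_assoc, h4, mul_assoc,
            mul_comm (ψ.1 x), ← mul_assoc, mul_inv_cancel₀ (hne x), one_mul]) ⟨i, hi⟩
      have key' : res I ν.1 ⟨i, hi⟩ * (res I μ₀.1 ⟨i, hi⟩)⁻¹ = 1 := key
      exact (mul_inv_eq_one₀ (hne ⟨i, hi⟩)).mp key'

end Cfsg.Agent.S4870
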