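import Cfsg.Statements.S4871
import Cfsg.Agent.Lib.Helper81.SemiChar
import Cfsg.Agent.Lib.Helper81.SemiInv
import Cfsg.Agent.Lib.Helper3.Card

set_option autoImplicit false
set_option linter.style.haveILetI false
open Cfsg

namespace Cfsg.Agent.S4871

open Cfsg.Agent.Lib.Helper81.Irr Cfsg.Agent.Lib.Helper81.Basic Cfsg.Agent.Lib.Helper81.Expand
  Cfsg.Agent.Lib.Helper81.Mult Cfsg.Agent.Lib.Helper81.Cliff Cfsg.Agent.Lib.Helper81.OddIndex
  Cfsg.Agent.Lib.Helper81.CliffCorr Cfsg.Agent.Lib.Helper81.SemiChar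
  Cfsg.Agent.Lib.Helper81.SemiInv
open Cfsg.Agent.Lib.CT.FSInd

universe u

/-- The counting inequality. -/
theorem count_ineq {α : Type*} [DecidableEq α] (S : Finset α) (deg : α → ℕ) (F : α → α)
    (t : ℕ) (ht : 2 ≤ t) (hS : ∀ χ ∈ S, deg χ = 1 ∨ 2 ∣ deg χ) (hpos : ∀ χ ∈ S, 0 < deg χ)
    (hF : ∀ μ ∈ S, deg μ = 1 → F μ ∈ S ∧ deg (F μ) = t)
    (hfib : ∀ μ₀ ∈ S, deg μ₀ = 1 →
      ((S.filter (fun μ => deg μ = 1)).filter (fun μ => F μ = F μ₀)).card ≤ t) :
    4 * S.card ≤ 3 * ∑ χ ∈ S, deg χ := by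
  have hBR : (S.filter (fun μ => deg μ = 1)).image F ⊆ S.filter (fun μ => ¬ deg μ = 1) := by
    intro χ hχ
    rw [Finset.mem_image] at hχ
    obtain ⟨μ, hμ, rfl⟩ := hχ
    rw [Finset.mem_filter] at hμ ⊢
    obtain ⟨h1, h2⟩ := hF μ hμ.1 hμ.2
    exact ⟨h1, by omega⟩
  have hak : (S.filter (fun μ => deg μ = 1)).card ≤
      t * ((S.filter (fun μ => deg μ = 1)).image F).card := by
    apply Finset.card_le_mul_card_image
    intro b hb
    rw [Finset.mem_image] at hb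
    obtain ⟨μ₀, hμ₀, rfl⟩ := hb
    rw [Finset.mem_filter] at hμ₀
    exact hfib μ₀ hμ₀.1 hμ₀.2
  have hcard := Finset.card_filter_add_card_filter_not (s := S) (fun μ => deg μ = 1)
  have hsum := Finset.sum_filter_add_sum_filter_not S (fun μ => deg μ = 1) deg
  have hA : ∑ χ ∈ S.filter (fun μ => deg μ = 1), deg χ = (S.filter (fun μ => deg μ = 1)).card := by
    rw [Finset.sum_const_nat (m := 1) (fun x hx => (Finset.mem_filter.mp hx).2), mul_one]
  have hsd := Finset.sum_sdiff hBR (f := deg)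
  have hB : ∑ χ ∈ (S.filter (fun μ => deg μ = 1)).image F, deg χ =
      ((S.filter (fun μ => deg μ = 1)).image F).card * t := by
    apply Finset.sum_const_nat
    intro χ hχ
    rw [Finset.mem_image] at hχ
    obtain ⟨μ, hμ, rfl⟩ := hχ
    rw [Finset.mem_filter] at hμ
    exact (hF μ hμ.1 hμ.2).2
  have hRB : (S.filter (fun μ => ¬ deg μ = 1) \ (S.filter (fun μ => deg μ = 1)).image F).card * 2 ≤
      ∑ χ ∈ S.filter (fun μ => ¬ deg μ = 1) \ (S.filter (fun μ => deg μ = 1)).image F, deg χ := by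
    have := Finset.card_nsmul_le_sum
      (S.filter (fun μ => ¬ deg μ = 1) \ (S.filter (fun μ => deg μ = 1)).image F) deg 2 (by
        intro χ hχ
        rw [Finset.mem_sdiff, Finset.mem_filter] at hχ
        have h1 := hS χ hχ.1.1
        have h2 := hpos χ hχ.1.1
        rcases h1 with h1 | h1
        · exact absurd h1 hχ.1.2
        · exact Nat.le_of_dvd h2 h1)
    simpa [smul_eq_mul] using this
  have hcs := Finset.card_sdiff_add_card_eq_card hBR
  have hkt : ((S.filter (fun μ => deg μ = 1)).image F).card * 2 ≤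
      ((S.filter (fun μ => deg μ = 1)).image F).card * t := Nat.mul_le_mul_left _ ht
  rw [mul_comm t] at hak
  rw [← hcard, ← hsum, hA, ← hsd, hB, ← hcs]
  omega

/-- Let G be a finite group that is the semidirect product of a normal elementary abelian subgroup N of odd order by a non-trivial 2-subgroup P, with N the unique minimal normal subgroup of G. Consider the strongly real irreducible complex characters of G (Frobenius–Schur indicator +1) whose degree is 1 or even. Then their average degree is at least 4/3: four times their number is at most three times the sum of their degrees. -/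
theorem result {G : Type*} [Group G] [Finite G] (N P : Subgroup G) (hN : N.Normal) (q : ℕ) [Fact q.Prime] (hq : q ≠ 2) (hNel : Cfsg.IsElementaryAbelian q N) (hP : IsPGroup 2 ↥P) (hP1 : P ≠ ⊥) (hdisj : N ⊓ P = ⊥) (hprod : N ⊔ P = ⊤) (hmin : N ≠ ⊥ ∧ ∀ M : Subgroup G, M.Normal → M ≠ ⊥ → N ≤ M) : 4 * Nat.card {χ : Cfsg.IrrCharacter G // (Cfsg.charDegree (χ : G → ℂ) = 1 ∨ 2 ∣ Cfsg.charDegree (χ : G → ℂ)) ∧ (Nat.card G : ℂ)⁻¹ * ∑ᶠ g : G, (χ : G → ℂ) (g * g) = 1} ≤ 3 * (∑ᶠ χ : {χ : Cfsg.IrrCharacter G // (Cfsg.charDegree (χ : G → ℂ) = 1 ∨ 2 ∣ Cfsg.charDegree (χ : G → ℂ)) ∧ (Nat.card G : ℂ)⁻¹ * ∑ᶠ g : G, (χ : G → ℂ) (g * g) = 1}, Cfsg.charDegree (χ.1 : G → ℂ)) := by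
  classical
  haveI := hN
  cases nonempty_fintype G
  haveI : Fintype ↥N := Fintype.ofFinite _
  haveI : Fintype ↥P := Fintype.ofFinite _
  have := finite_irr (G := G)
  cases nonempty_fintype (IrrCharacter G)
  have := finite_irr (G := ↥N)
  cases nonempty_fintype (IrrCharacter ↥N)
  obtain ⟨hNcomm, hNexp⟩ := hNel
  have hNab : ∀ a ∈ N, ∀ b ∈ N, a * b = b * a := by
    intro a ha b hb
    exact congrArg Subtype.val (hNcomm.is_comm.comm (⟨a, ha⟩ : ↥N) ⟨b, hb⟩)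
  have hcompl : N.IsComplement' P := by
    apply Subgroup.isComplement'_of_disjoint_and_mul_eq_univ (disjoint_iff.mpr hdisj)
    rw [← Subgroup.normal_mul, hprod]
    rfl
  -- N has odd order
  have hNodd : Odd (Nat.card ↥N) := by
    have hNp : IsPGroup q ↥N := by
      intro n
      refine ⟨1, ?_⟩
      apply Subtype.ext
      rw [pow_one, Subgroup.coe_pow, Subgroup.coe_one]
      exact hNexp n n.2
    obtain ⟨k, hk⟩ := IsPGroup.iff_card.mp hNp
    rw [hk]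
    exact Odd.pow ((Fact.out : q.Prime).odd_of_ne_two hq)
  -- the central involution
  haveI : Nontrivial ↥P := (Subgroup.nontrivial_iff_ne_bot P).mpr hP1
  obtain ⟨z, hzc, hz1, hz2⟩ := exists_central_involution hP
  have hzinv := inverts N P hNab hprod hdisj hmin.1 hmin.2 (z : G) z.2
    (fun s hs => congrArg Subtype.val (hzc ⟨s, hs⟩)) (fun h => hz1 (Subtype.ext h))
    (congrArg Subtype.val hz2)
  -- a nontrivial character of N
  obtain ⟨φ, hφ⟩ : ∃ φ : IrrCharacter ↥N, φ ≠ trivChar ↥N := by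
    have h1 := Cfsg.Agent.Lib.Helper3.Card.card_irrCharacter (G := ↥N)
    haveI : Nontrivial ↥N := (Subgroup.nontrivial_iff_ne_bot N).mpr hmin.1
    obtain ⟨n, hn⟩ := exists_ne (1 : ↥N)
    haveI : Nontrivial (ConjClasses ↥N) := by
      refine ⟨⟨ConjClasses.mk 1, ConjClasses.mk n, ?_⟩⟩
      intro h
      rw [ConjClasses.mk_eq_mk_iff_isConj, isConj_one_right] at h
      exact hn h
    have h2 : 1 < Nat.card (IrrCharacter ↥N) := by
      rw [h1]
      exact Finite.one_lt_card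
    haveI : Nontrivial (IrrCharacter ↥N) := (Finite.one_lt_card_iff_nontrivial).mp h2
    exact exists_ne _
  have hφinv : invChar φ ≠ φ := by
    intro h
    apply hφ
    apply real_irr_eq_triv hNodd φ
    intro g
    have := congrArg (fun θ : IrrCharacter ↥N => θ.1 g) h
    simpa [invChar_apply] using this
  obtain ⟨I, hNI, ξ, hI, hzI, hξ1, hξres, hν⟩ :=
    exists_ext N P hcompl hNab (z : G) z.2 (congrArg Subtype.val hz2) hzinv φ hφinv
  haveI : Fintype ↥I := Fintype.ofFinite _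
  have := finite_irr (G := ↥I)
  cases nonempty_fintype (IrrCharacter ↥I)
  have hφ1 : charDegree φ.1 = 1 := by
    have h1 := abelian_linear (fun a b : ↥N => Subtype.ext (hNab a a.2 b b.2)) φ
    rw [deg_cast] at h1
    exact_mod_cast h1
  -- the index of I is a power of 2, at least 2
  have ht : 2 ∣ I.index ∧ 2 ≤ I.index := by
    have h1 : I.index ∣ N.index := Subgroup.index_dvd_of_le hNI
    rw [hcompl.symm.index_eq_card] at h1
    obtain ⟨k, hk⟩ := IsPGroup.iff_card.mp hP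
    rw [hk] at h1
    obtain ⟨j, -, hj⟩ := (Nat.dvd_prime_pow Nat.prime_two).mp h1
    have hj0 : j ≠ 0 := by
      intro h0
      rw [h0, pow_zero] at hj
      have := Subgroup.index_eq_one.mp hj
      apply hzI
      rw [this]
      trivial
    rw [hj]
    refine ⟨dvd_pow_self 2 hj0, ?_⟩
    calc 2 = 2 ^ 1 := by norm_num
      _ ≤ 2 ^ j := Nat.pow_le_pow_right (by norm_num) (Nat.one_le_iff_ne_zero.mpr hj0)
  have hfs : ∀ χ : IrrCharacter G,
      (Nat.card G : ℂ)⁻¹ * ∑ᶠ g : G, (χ : G → ℂ) (g * g) = fsInd χ.1 := by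
    intro χ
    rw [finsum_eq_sum_of_fintype]
    rfl
  -- properties of the linear characters in the family
  have hlin : ∀ μ : IrrCharacter G, charDegree μ.1 = 1 → fsInd μ.1 = 1 →
      μ.1 1 = 1 ∧ (∀ g, μ.1 g * μ.1 g = 1) ∧ ∀ n ∈ N, μ.1 n = 1 := by
    intro μ hμd hμν
    have h1 : μ.1 1 = 1 := by
      rw [deg_cast, hμd]
      simp
    have hc := irr_isCharacter μ
    have hsq : ∀ g, μ.1 g * μ.1 g = 1 := by
      intro g
      have hreal := (fsInd_ne_zero_iff' μ.2).mp (by rw [hμν]; exact one_ne_zero) g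
      rw [Cfsg.Agent.Lib.CT.LinChar.linear_inv hc h1] at hreal
      have hne := Cfsg.Agent.Lib.CT.LinChar.linear_ne_zero hc h1 g
      nth_rewrite 1 [← hreal]
      exact inv_mul_cancel₀ hne
    refine ⟨h1, hsq, ?_⟩
    intro n hn
    obtain ⟨k, hk⟩ := (Fact.out : q.Prime).odd_of_ne_two hq
    have h2 : μ.1 n ^ q = 1 := by
      rw [← Cfsg.Agent.Lib.CT.LinChar.linear_pow hc h1, hNexp n hn, h1]
    rw [hk, pow_succ, pow_mul, pow_two, hsq, one_pow, one_mul] at h2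
    exact h2
  -- the irreducible character of I attached to a linear character
  have hξ : ∀ μ : IrrCharacter G, (charDegree μ.1 = 1 ∧ fsInd μ.1 = 1) →
      ∃ ζ : IrrCharacter ↥I, ζ.1 = (fun h => ξ.1 h * μ.1 h) ∧ resTo hNI ζ.1 = φ.1 := by
    intro μ hμ
    obtain ⟨h1, -, h3⟩ := hlin μ hμ.1 hμ.2
    refine ⟨⟨fun h => ξ.1 h * μ.1 h, Cfsg.Agent.Lib.CT.LinChar.isIrrCharacter_mul_linear ξ.2
      (isCharacter_res I (irr_isCharacter μ)) h1⟩, rfl, ?_⟩
    funext n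
    show ξ.1 (Subgroup.inclusion hNI n) * μ.1 ((Subgroup.inclusion hNI n : ↥I) : G) = φ.1 n
    rw [show ((Subgroup.inclusion hNI n : ↥I) : G) = (n : G) from rfl, h3 n n.2, mul_one]
    exact congrFun hξres n
  haveI : Nonempty (IrrCharacter ↥I) := ⟨ξ⟩
  haveI : Nonempty (IrrCharacter G) := ⟨trivChar G⟩
  choose! ζ hζ1 hζ2 using hξ
  have hF : ∀ μ : IrrCharacter G, (charDegree μ.1 = 1 ∧ fsInd μ.1 = 1) →
      ∃ χ : IrrCharacter G, indFun I (ζ μ).1 = χ.1 ∧ mult (res N χ.1) φ = 1 ∧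
        mult (res I χ.1) (ζ μ) = 1 ∧ charDegree χ.1 = I.index * charDegree φ.1 :=
    fun μ hμ => induced_isIrr N φ I hI hNI (ζ μ) (hζ2 μ hμ)
  choose! F hF1 hF2 hF3 hF4 using hF
  -- the value of F μ
  have hFval : ∀ μ : IrrCharacter G, (charDegree μ.1 = 1 ∧ fsInd μ.1 = 1) →
      (F μ).1 = indFun I ξ.1 * μ.1 := by
    intro μ hμ
    rw [← hF1 μ hμ, hζ1 μ hμ]
    exact Cfsg.Agent.Lib.CT.FrobRec.indFun_mul_classFunction I ξ.1 μ.1
      (Cfsg.Agent.Lib.CT.Wedderburn.char_isClassFunction (irr_isCharacter μ))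
  have hFν : ∀ μ : IrrCharacter G, (charDegree μ.1 = 1 ∧ fsInd μ.1 = 1) →
      fsInd (F μ).1 = 1 := by
    intro μ hμ
    obtain ⟨h1, h2, -⟩ := hlin μ hμ.1 hμ.2
    rw [hFval μ hμ, ← hν, fsInd_def, fsInd_def]
    congr 1
    apply Finset.sum_congr rfl
    intro g _
    rw [Pi.mul_apply, Cfsg.Agent.Lib.CT.LinChar.linear_mul (irr_isCharacter μ) h1, h2, mul_one]
  -- reduce to finsets
  have hcard : Nat.card {χ : Cfsg.IrrCharacter G // (Cfsg.charDegree (χ : G → ℂ) = 1 ∨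
      2 ∣ Cfsg.charDegree (χ : G → ℂ)) ∧
      (Nat.card G : ℂ)⁻¹ * ∑ᶠ g : G, (χ : G → ℂ) (g * g) = 1} =
      (Finset.univ.filter (fun χ : IrrCharacter G =>
        (charDegree χ.1 = 1 ∨ 2 ∣ charDegree χ.1) ∧ fsInd χ.1 = 1)).card := by
    rw [Nat.card_eq_fintype_card, Fintype.card_subtype]
    congr 1
    ext χ
    simp only [Finset.mem_filter, Finset.mem_univ, true_and, hfs]
  have hsum : (∑ᶠ χ : {χ : Cfsg.IrrCharacter G // (Cfsg.charDegree (χ : G → ℂ) = 1 ∨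
      2 ∣ Cfsg.charDegree (χ : G → ℂ)) ∧
      (Nat.card G : ℂ)⁻¹ * ∑ᶠ g : G, (χ : G → ℂ) (g * g) = 1},
      Cfsg.charDegree (χ.1 : G → ℂ)) =
      ∑ χ ∈ Finset.univ.filter (fun χ : IrrCharacter G =>
        (charDegree χ.1 = 1 ∨ 2 ∣ charDegree χ.1) ∧ fsInd χ.1 = 1), charDegree χ.1 := by
    rw [finsum_eq_sum_of_fintype]
    symm
    apply Finset.sum_subtype
    intro χ
    simp only [Finset.mem_filter, Finset.mem_univ, true_and, hfs]
  rw [hcard, hsum]
  apply count_ineq _ (fun χ : IrrCharacter G => charDegree χ.1) F I.index ht.2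
  · intro χ hχ
    exact (Finset.mem_filter.mp hχ).2.1
  · intro χ _
    exact deg_pos χ
  · intro μ hμ hμ1
    have hμ' := (Finset.mem_filter.mp hμ).2
    have hd : charDegree (F μ).1 = I.index := by
      rw [hF4 μ ⟨hμ1, hμ'.2⟩, hφ1, mul_one]
    refine ⟨?_, hd⟩
    rw [Finset.mem_filter]
    refine ⟨Finset.mem_univ _, Or.inr ?_, hFν μ ⟨hμ1, hμ'.2⟩⟩
    rw [hd]
    exact ht.1
  · intro μ₀ hμ₀ hμ₀1
    have hμ₀' := (Finset.mem_filter.mp hμ₀).2
    obtain ⟨h01, -, -⟩ := hlin μ₀ hμ₀1 hμ₀'.2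
    apply card_linear_fiber_le I _ μ₀ h01
    intro ν hν' i hi
    rw [Finset.mem_filter, Finset.mem_filter] at hν'
    have hνS := (Finset.mem_filter.mp hν'.1.1).2
    have hν1 : charDegree ν.1 = 1 := hν'.1.2
    have e1 : indFun I (ζ ν).1 = indFun I (ζ μ₀).1 := by
      rw [hF1 ν ⟨hν1, hνS.2⟩, hF1 μ₀ ⟨hμ₀1, hμ₀'.2⟩, hν'.2]
    have e2 : ζ ν = ζ μ₀ :=
      induced_inj N φ I hI hNI _ _ (hζ2 ν ⟨hν1, hνS.2⟩) (hζ2 μ₀ ⟨hμ₀1, hμ₀'.2⟩) e1
    have e3 := congrArg (fun θ : IrrCharacter ↥I => θ.1 ⟨i, hi⟩) e2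
    simp only [hζ1 ν ⟨hν1, hνS.2⟩, hζ1 μ₀ ⟨hμ₀1, hμ₀'.2⟩] at e3
    have hne : ξ.1 ⟨i, hi⟩ ≠ 0 :=
      Cfsg.Agent.Lib.CT.LinChar.linear_ne_zero (irr_isCharacter ξ) hξ1 _
    exact mul_left_cancel₀ hne e3

end Cfsg.Agent.S4871
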