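import Cfsg.Statements.S4872
import Cfsg.Agent.S0887
import Cfsg.Agent.Lib.Helper3.Irr
import Cfsg.Agent.Lib.Helper81.CliffCorr
import Cfsg.Agent.Lib.Helper74.EvenMult
import Cfsg.Agent.Lib.Helper74.DefectZero

set_option autoImplicit false
set_option linter.style.haveILetI false
open Cfsg

namespace Cfsg.Agent.S4872

open Cfsg.Agent.Lib.CT.FSInd
open Cfsg.Agent.Lib.Helper81.Irr Cfsg.Agent.Lib.Helper81.Basic Cfsg.Agent.Lib.Helper81.Expand
  Cfsg.Agent.Lib.Helper81.Mult Cfsg.Agent.Lib.Helper81.Cliff Cfsg.Agent.Lib.Helper81.CliffCorr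

universe u

/-- The ramification index times the degree of a constituent divides the degree. -/
theorem ramif_dvd {G : Type u} [Group G] [Fintype G] (N : Subgroup G) [N.Normal] [Fintype ↥N]
    [Fintype (IrrCharacter G)] [Fintype (IrrCharacter ↥N)]
    (χ : IrrCharacter G) (φ : IrrCharacter ↥N) (h : mult (res N χ.1) φ ≠ 0) :
    mult (res N χ.1) φ * charDegree φ.1 ∣ charDegree χ.1 := by
  classical
  have hc : IsCharacter ↥N (res N χ.1) := isCharacter_res N (irr_isCharacter χ)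
  have h1 : charDegree χ.1 = charDegree (res N χ.1) := by
    have h2 : ((charDegree χ.1 : ℕ) : ℂ) = ((charDegree (res N χ.1) : ℕ) : ℂ) := by
      rw [← deg_cast χ, ← Cfsg.Agent.Lib.Helper80.Integrality.apply_one_eq_charDegree hc]
      rfl
    exact_mod_cast h2
  rw [h1, charDegree_expand hc]
  apply Finset.dvd_sum
  intro θ _
  by_cases hθ : mult (res N χ.1) θ = 0
  · rw [hθ, zero_mul]
    exact dvd_zero _
  · have hφC : multC (res N χ.1) φ ≠ 0 := by
      rw [← mult_cast hc]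
      exact_mod_cast h
    have hθC : multC (res N χ.1) θ ≠ 0 := by
      rw [← mult_cast hc]
      exact_mod_cast hθ
    obtain ⟨g, hg⟩ := clifford_conj N χ φ θ hφC hθC
    have e1 : mult (res N χ.1) θ = mult (res N χ.1) φ := by
      have h3 : ((mult (res N χ.1) θ : ℕ) : ℂ) = ((mult (res N χ.1) φ : ℕ) : ℂ) := by
        rw [mult_cast hc, mult_cast hc, ← hg, multC_res_conjI N χ.1 (fun a b => irr_conj χ a b)]
      exact_mod_cast h3
    have e2 : charDegree θ.1 = charDegree φ.1 := by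
      have h3 : ((charDegree θ.1 : ℕ) : ℂ) = ((charDegree φ.1 : ℕ) : ℂ) := by
        rw [← deg_cast, ← deg_cast, ← hg, conjI_apply, map_one]
      exact_mod_cast h3
    rw [e1, e2]

/-- The key sum: second orthogonality. -/
theorem key_sum {G : Type u} [Group G] [Fintype G] (N Q : Subgroup G) [Fintype ↥N] [Fintype ↥Q]
    [Fintype (IrrCharacter G)] (φ : IrrCharacter ↥N)
    (hvan : ∀ n : ↥N, (n : G) ≠ 1 → (∃ q : ↥Q, ∃ k : G, k * (q : G) * k⁻¹ = (n : G)) →
      φ.1 n = 0) :
    ∑ χ : IrrCharacter G, multC (res N χ.1) φ * multC (res Q χ.1) (trivChar ↥Q) =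
      (Nat.card ↥N : ℂ)⁻¹ * (Nat.card ↥Q : ℂ)⁻¹ * (φ.1 1 * (Nat.card G : ℂ)) := by
  classical
  have h1 : ∀ χ : IrrCharacter G, multC (res N χ.1) φ * multC (res Q χ.1) (trivChar ↥Q) =
      (Nat.card ↥N : ℂ)⁻¹ * (Nat.card ↥Q : ℂ)⁻¹ *
        ∑ n : ↥N, ∑ q : ↥Q, φ.1 n⁻¹ * (χ.1 (n : G) * χ.1 ((q : G)⁻¹)⁻¹) := by
    intro χ
    rw [multC_def, multC_def]
    have h2 : ∑ q : ↥Q, res Q χ.1 q * (trivChar ↥Q).1 q⁻¹ = ∑ q : ↥Q, χ.1 ((q : G)⁻¹)⁻¹ := by
      apply Finset.sum_congr rfl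
      intro q _
      rw [inv_inv, res_apply]
      show χ.1 (q : G) * 1 = _
      rw [mul_one]
    rw [h2]
    have h3 : (∑ n : ↥N, res N χ.1 n * φ.1 n⁻¹) * ∑ q : ↥Q, χ.1 ((q : G)⁻¹)⁻¹ =
        ∑ n : ↥N, ∑ q : ↥Q, φ.1 n⁻¹ * (χ.1 (n : G) * χ.1 ((q : G)⁻¹)⁻¹) := by
      rw [Finset.sum_mul_sum]
      apply Finset.sum_congr rfl
      intro n _
      apply Finset.sum_congr rfl
      intro q _
      rw [res_apply]
      ring
    rw [← h3]
    ring
  rw [Finset.sum_congr rfl (fun χ _ => h1 χ), ← Finset.mul_sum]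
  congr 1
  rw [Finset.sum_comm]
  have h4 : ∀ n : ↥N, ∑ χ : IrrCharacter G,
      ∑ q : ↥Q, φ.1 n⁻¹ * (χ.1 (n : G) * χ.1 ((q : G)⁻¹)⁻¹) =
      ∑ q : ↥Q, if n = 1 ∧ q = 1 then φ.1 1 * (Nat.card G : ℂ) else 0 := by
    intro n
    rw [Finset.sum_comm]
    apply Finset.sum_congr rfl
    intro q _
    rw [← Finset.mul_sum, ← second_orth_cnt complete (n : G) ((q : G)⁻¹)]
    by_cases hn : n = 1
    · subst hn
      by_cases hq : q = 1
      · subst hq
        rw [if_pos ⟨rfl, rfl⟩, inv_one]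
        congr 1
        rw [Nat.card_congr (Equiv.subtypeUnivEquiv (p := fun k : G =>
          k * ((1 : ↥Q) : G)⁻¹ * k⁻¹ = ((1 : ↥N) : G)) (fun k => by simp))]
      · rw [if_neg (fun h => hq h.2)]
        have hemp : IsEmpty {k : G // k * (q : G)⁻¹ * k⁻¹ = ((1 : ↥N) : G)} := by
          refine ⟨fun ⟨k, hk⟩ => hq ?_⟩
          apply Subtype.ext
          have h5 : (q : G)⁻¹ = 1 := by
            have h6 : (q : G)⁻¹ = k⁻¹ * (k * (q : G)⁻¹ * k⁻¹) * k := by group
            rw [h6, hk]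
            simp
          simpa using h5
        rw [Nat.card_of_isEmpty]
        simp
    · rw [if_neg (fun h => hn h.1)]
      by_cases hemp : IsEmpty {k : G // k * (q : G)⁻¹ * k⁻¹ = (n : G)}
      · rw [Nat.card_of_isEmpty]
        simp
      · rw [not_isEmpty_iff] at hemp
        obtain ⟨k, hk⟩ := hemp
        have h5 : φ.1 n⁻¹ = 0 := by
          apply hvan
          · intro h6
            apply hn
            apply Subtype.ext
            have h7 : ((n⁻¹ : ↥N) : G) = (n : G)⁻¹ := rfl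
            rw [h7, inv_eq_one] at h6
            exact h6
          · refine ⟨q, k, ?_⟩
            have h7 : ((n⁻¹ : ↥N) : G) = (n : G)⁻¹ := rfl
            rw [h7, ← hk]
            group
        rw [h5, zero_mul]
  rw [Finset.sum_congr rfl (fun n _ => h4 n)]
  rw [Finset.sum_eq_single (1 : ↥N)]
  · rw [Finset.sum_eq_single (1 : ↥Q)]
    · rw [if_pos ⟨rfl, rfl⟩]
    · intro q _ hq
      rw [if_neg (fun h => hq h.2)]
    · intro h
      exact absurd (Finset.mem_univ _) h
  · intro n _ hn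
    apply Finset.sum_eq_zero
    intro q _
    rw [if_neg (fun h => hn h.1)]
  · intro h
    exact absurd (Finset.mem_univ _) h

/-- Let N be a normal subgroup of the finite group G with G/N a 2-group, and let φ be an irreducible complex character of N of 2-defect zero (the 2-part of #N divides φ(1)) whose complex conjugate is G-conjugate to φ. Then some irreducible character of G with Frobenius–Schur indicator +1 contains φ with multiplicity exactly one on restriction to N. -/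
theorem result {G : Type*} [Group G] [Finite G] (N : Subgroup G) [N.Normal] (h2 : IsPGroup 2 (G ⧸ N)) (φ : Cfsg.IrrCharacter ↥N) (hdef : 2 ^ (Nat.card ↥N).factorization 2 ∣ Cfsg.charDegree (φ : ↥N → ℂ)) (hconj : ∃ g : G, ∀ n n' : ↥N, (n' : G) = g * (n : G) * g⁻¹ → (φ : ↥N → ℂ) n' = (starRingEnd ℂ) ((φ : ↥N → ℂ) n)) : ∃ χ : Cfsg.IrrCharacter G, (Nat.card G : ℂ)⁻¹ * ∑ᶠ g : G, (χ : G → ℂ) (g * g) = 1 ∧ (Nat.card ↥N : ℂ)⁻¹ * ∑ᶠ n : ↥N, (χ : G → ℂ) n * (starRingEnd ℂ) ((φ : ↥N → ℂ) n) = 1 := by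
  classical
  cases nonempty_fintype G
  haveI : Fintype ↥N := Fintype.ofFinite _
  have := finite_irr (G := G)
  cases nonempty_fintype (IrrCharacter G)
  have := finite_irr (G := ↥N)
  cases nonempty_fintype (IrrCharacter ↥N)
  haveI : Fact (Nat.Prime 2) := ⟨Nat.prime_two⟩
  obtain ⟨Q⟩ : Nonempty (Sylow 2 G) := inferInstance
  haveI : Fintype ↥(Q : Subgroup G) := Fintype.ofFinite _
  have := finite_irr (G := ↥(Q : Subgroup G))
  cases nonempty_fintype (IrrCharacter ↥(Q : Subgroup G))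
  -- arithmetic
  obtain ⟨v, hv⟩ : ∃ v : ℕ, v = (Nat.card ↥N).factorization 2 := ⟨_, rfl⟩
  rw [← hv] at hdef
  obtain ⟨m, hm⟩ := hdef
  obtain ⟨m', hm'⟩ := Cfsg.Agent.Lib.Helper80.Integrality.charDegree_dvd_card φ
  have hNpos : Nat.card ↥N ≠ 0 := Nat.card_pos.ne'
  have hnd : ¬ 2 ^ (v + 1) ∣ Nat.card ↥N := by
    rw [hv]
    exact Nat.pow_succ_factorization_not_dvd hNpos Nat.prime_two
  have hm'odd : ¬ 2 ∣ m' := by
    rintro ⟨c, rfl⟩
    exact hnd ⟨m * c, by rw [hm', hm]; ring⟩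
  have hmodd : Odd m := by
    by_contra h
    rw [Nat.not_odd_iff_even] at h
    obtain ⟨c, rfl⟩ := h.two_dvd
    exact hnd ⟨c * m', by rw [hm', hm]; ring⟩
  obtain ⟨k, hk⟩ := IsPGroup.iff_card.1 h2
  have hG : Nat.card G = 2 ^ k * Nat.card ↥N := by
    rw [Subgroup.card_eq_card_quotient_mul_card_subgroup N, hk]
  have hQ : Nat.card ↥(Q : Subgroup G) = 2 ^ (k + v) := by
    rw [Sylow.card_eq_multiplicity, hG, Nat.factorization_mul (pow_ne_zero _ two_ne_zero) hNpos,
      Finsupp.add_apply, Nat.Prime.factorization_pow Nat.prime_two, Finsupp.single_eq_same, hv]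
  -- vanishing on 2-elements
  have hvan : ∀ n : ↥N, (n : G) ≠ 1 →
      (∃ q : ↥(Q : Subgroup G), ∃ k : G, k * (q : G) * k⁻¹ = (n : G)) → φ.1 n = 0 := by
    intro n hn ⟨q, k', hq⟩
    apply Cfsg.Agent.Lib.Helper74.DefectZero.irr_eq_zero_of_defect_zero Nat.prime_two φ m' hm'
      hm'odd n
    have h3 : orderOf n = orderOf (q : G) := by
      rw [← Subgroup.orderOf_coe n, ← hq]
      have h4 : k' * (q : G) * k'⁻¹ = MulAut.conj k' (q : G) := by simp
      rw [h4, MulEquiv.orderOf_eq]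
    obtain ⟨j, hj⟩ := (IsPGroup.iff_orderOf.1 Q.isPGroup') q
    rw [h3, Subgroup.orderOf_coe, hj]
    rcases Nat.eq_zero_or_pos j with h0 | h0
    · exfalso
      apply hn
      rw [h0, pow_zero, orderOf_eq_one_iff] at hj
      rw [← hq, hj]
      simp
    · exact dvd_pow_self 2 h0.ne'
  have hsum := key_sum N (Q : Subgroup G) φ hvan
  -- the two multiplicities
  have hcN : ∀ χ : IrrCharacter G, IsCharacter ↥N (res N χ.1) :=
    fun χ => isCharacter_res N (irr_isCharacter χ)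
  have hcQ : ∀ χ : IrrCharacter G, IsCharacter ↥(Q : Subgroup G) (res (Q : Subgroup G) χ.1) :=
    fun χ => isCharacter_res (Q : Subgroup G) (irr_isCharacter χ)
  obtain ⟨a, ha⟩ : ∃ a : IrrCharacter G → ℕ, ∀ χ, a χ = mult (res N χ.1) φ := ⟨_, fun _ => rfl⟩
  obtain ⟨b, hb⟩ : ∃ b : IrrCharacter G → ℕ, ∀ χ, b χ = mult (res (Q : Subgroup G) χ.1)
      (trivChar ↥(Q : Subgroup G)) := ⟨_, fun _ => rfl⟩
  have haC : ∀ χ, (a χ : ℂ) = multC (res N χ.1) φ := fun χ => by rw [ha, mult_cast (hcN χ)]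
  have hbC : ∀ χ, (b χ : ℂ) = multC (res (Q : Subgroup G) χ.1) (trivChar ↥(Q : Subgroup G)) :=
    fun χ => by rw [hb, mult_cast (hcQ χ)]
  have hsumN : ∑ χ : IrrCharacter G, a χ * b χ = m := by
    have h3 : ((∑ χ : IrrCharacter G, a χ * b χ : ℕ) : ℂ) = (m : ℂ) := by
      rw [Nat.cast_sum]
      simp only [Nat.cast_mul, haC, hbC]
      rw [hsum, deg_cast, hm, hQ, hG]
      have hN0 : (Nat.card ↥N : ℂ) ≠ 0 := Nat.cast_ne_zero.mpr hNpos
      push_cast
      field_simp
      ring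
    exact_mod_cast h3
  -- invariance under inversion
  obtain ⟨g, hg⟩ := hconj
  have ha_inv : ∀ χ : IrrCharacter G, a (invChar χ) = a χ := by
    intro χ
    have h3 : ((a (invChar χ) : ℕ) : ℂ) = ((a χ : ℕ) : ℂ) := by
      rw [haC, haC, multC_def, multC_def]
      congr 1
      have h4 : ∑ n : ↥N, res N (invChar χ).1 n * φ.1 n⁻¹ = ∑ n : ↥N, χ.1 (n : G) * φ.1 n := by
        rw [← Equiv.sum_comp (Equiv.inv ↥N)]
        apply Finset.sum_congr rfl
        intro n _
        rw [Equiv.inv_apply, inv_inv, res_apply, invChar_apply]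
        have h5 : ((n⁻¹ : ↥N) : G)⁻¹ = (n : G) := by simp
        rw [h5]
      have h5 : ∑ n : ↥N, res N χ.1 n * φ.1 n⁻¹ = ∑ n : ↥N, χ.1 (n : G) * φ.1 n := by
        rw [← Equiv.sum_comp (MulAut.conjNormal g : ↥N ≃* ↥N).toEquiv
          (fun n : ↥N => χ.1 (n : G) * φ.1 n)]
        apply Finset.sum_congr rfl
        intro n _
        simp only [MulEquiv.toEquiv_eq_coe, EquivLike.coe_coe]
        rw [res_apply, MulAut.conjNormal_apply, irr_conj,
          hg n (MulAut.conjNormal g n) (MulAut.conjNormal_apply g n),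
          Cfsg.Agent.Lib.Helper3.Irr.IsCharacter.apply_inv (irr_isCharacter φ) n]
      rw [h4, h5]
    exact_mod_cast h3
  have hb_inv : ∀ χ : IrrCharacter G, b (invChar χ) = b χ := by
    intro χ
    have h3 : ((b (invChar χ) : ℕ) : ℂ) = ((b χ : ℕ) : ℂ) := by
      rw [hbC, hbC, multC_def, multC_def]
      congr 1
      rw [← Equiv.sum_comp (Equiv.inv ↥(Q : Subgroup G))]
      apply Finset.sum_congr rfl
      intro q _
      rw [Equiv.inv_apply, res_apply, res_apply, invChar_apply]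
      have h5 : ((q⁻¹ : ↥(Q : Subgroup G)) : G)⁻¹ = (q : G) := by simp
      rw [h5]
      rfl
    exact_mod_cast h3
  -- a real character with odd multiplicities
  have hex : ∃ χ : IrrCharacter G, invChar χ = χ ∧ Odd (a χ * b χ) := by
    by_contra hcon
    push Not at hcon
    have h0 : ∑ χ : IrrCharacter G, ((a χ * b χ : ℕ) : ZMod 2) = 0 := by
      apply Finset.sum_involution (fun χ _ => invChar χ)
      · intro χ _
        rw [ha_inv, hb_inv]
        exact CharTwo.add_self_eq_zero _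
      · intro χ _ hne heq
        apply hne
        have h3 := hcon χ heq
        rw [Nat.not_odd_iff_even] at h3
        exact (ZMod.natCast_eq_zero_iff_even).2 h3
      · intro χ _
        exact Finset.mem_univ _
      · intro χ _
        exact invChar_invChar χ
    rw [← Nat.cast_sum, hsumN, ZMod.natCast_eq_zero_iff_even] at h0
    exact (Nat.not_even_iff_odd.2 hmodd) h0
  obtain ⟨χ, hreal, hodd⟩ := hex
  obtain ⟨haodd, hbodd⟩ := Nat.odd_mul.1 hodd
  -- the indicator
  have hfs : fsInd χ.1 = 1 := by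
    rcases fsInd_trichotomy' χ.2 with h | h | h
    · exfalso
      refine (fsInd_ne_zero_iff' χ.2).2 (fun x => ?_) h
      have h3 := congrArg (fun ψ : IrrCharacter G => ψ.1 x) hreal
      simp only [invChar_apply] at h3
      exact h3
    · exact h
    · exfalso
      obtain ⟨d, ρ, hirr, hρ⟩ := χ.2
      haveI := hirr
      obtain ⟨r, hr, hr2⟩ := Cfsg.Agent.Lib.Helper74.EvenMult.even_fix_of_fsInd_neg_one ρ
        (by rw [hρ]; exact h) (Q : Subgroup G)
      have h3 : ((b χ : ℕ) : ℂ) = ((r : ℕ) : ℂ) := by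
        rw [hbC, multC_def, ← hr2, hρ]
        congr 1
        apply Finset.sum_congr rfl
        intro q _
        rw [res_apply]
        show χ.1 (q : G) * 1 = _
        rw [mul_one]
      have h4 : b χ = r := by exact_mod_cast h3
      rw [h4] at hbodd
      exact (Nat.not_even_iff_odd.2 hbodd) hr
  -- the multiplicity is one
  have ha1 : a χ = 1 := by
    have hane : mult (res N χ.1) φ ≠ 0 := by
      rw [← ha]
      intro h
      rw [h] at haodd
      exact (Nat.not_odd_iff_even.2 ⟨0, rfl⟩) haodd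
    have h3 := ramif_dvd N χ φ hane
    have hcon : classInner (fun n : ↥N => χ.1 (n : G)) φ.1 ≠ 0 := by
      have h4 : classInner (fun n : ↥N => χ.1 (n : G)) φ.1 = multC (res N χ.1) φ := by
        unfold multC classInner
        congr 1
        apply Finset.sum_congr rfl
        intro n _
        rw [Cfsg.Agent.Lib.Helper3.Irr.IsCharacter.apply_inv (irr_isCharacter φ), res_apply]
      rw [h4, ← mult_cast (hcN χ)]
      exact_mod_cast hane
    have h4 := Cfsg.Agent.S0887.result N χ.1 χ.2 φ.1 φ.2 hcon (charDegree χ.1) (charDegree φ.1)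
      (deg_cast χ) (deg_cast φ)
    obtain ⟨t, ht⟩ := h3
    have hd : 0 < charDegree φ.1 := deg_pos φ
    have h5 : charDegree χ.1 / charDegree φ.1 = a χ * t := by
      rw [ht, ha, mul_comm (mult (res N χ.1) φ) (charDegree φ.1), mul_assoc,
        Nat.mul_div_cancel_left _ hd]
    have h6 : a χ ∣ N.index := dvd_trans (Dvd.intro t h5.symm) h4.2
    have h7 : N.index = 2 ^ k := by
      rw [← hk]
      rfl
    rw [h7] at h6
    obtain ⟨j, -, hj⟩ := (Nat.dvd_prime_pow Nat.prime_two).1 h6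
    rcases Nat.eq_zero_or_pos j with h0 | h0
    · rw [hj, h0, pow_zero]
    · exfalso
      rw [hj] at haodd
      exact (Nat.not_odd_iff_even.2 ((Nat.even_pow).2 ⟨even_two, h0.ne'⟩)) haodd
  refine ⟨χ, ?_, ?_⟩
  · rw [finsum_eq_sum_of_fintype, ← fsInd_def]
    exact hfs
  · rw [finsum_eq_sum_of_fintype]
    have h4 : (Nat.card ↥N : ℂ)⁻¹ * ∑ n : ↥N, χ.1 (n : G) * (starRingEnd ℂ) (φ.1 n) =
        multC (res N χ.1) φ := by
      rw [multC_def]
      congr 1
      apply Finset.sum_congr rfl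
      intro n _
      rw [Cfsg.Agent.Lib.Helper3.Irr.IsCharacter.apply_inv (irr_isCharacter φ), res_apply]
    rw [h4, ← haC, ha1, Nat.cast_one]

end Cfsg.Agent.S4872
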