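import Cfsg.Statements.S4916
import Cfsg.Agent.Lib.Helper77.BlockIdem
import Cfsg.Agent.Lib.Helper3.Irr
import Cfsg.Agent.Lib.CT.Ops

set_option autoImplicit false
open Cfsg

namespace Cfsg.Agent.S4916

open Cfsg.Agent.Lib.Helper77.LocalRing
open scoped ComplexConjugate

/-- The principal character as an element of `IrrCharacter G`. -/
noncomputable def triv (G : Type*) [Group G] : IrrCharacter G :=
  ⟨fun _ => (1 : ℂ), Cfsg.Agent.Lib.CT.Ops.isIrrCharacter_one⟩

/-- If `p ∤ |G|`, the principal block consists of the principal character only. -/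
theorem eq_one_of_mem {G : Type*} [Group G] [Finite G] (p : ℕ) [Fact p.Prime]
    (M : Ideal Cfsg.AlgInt) (hM : Cfsg.IsPModular p M) (hp : ¬ p ∣ Nat.card G)
    (χ : IrrCharacter G) (hχ : χ ∈ principalBlock M G) :
    (χ : G → ℂ) = fun _ => (1 : ℂ) := by
  classical
  have : Fintype G := Fintype.ofFinite G
  have hMp : M.IsPrime := isPrime_of_isPModular hM
  by_contra hne
  have hne' : χ ≠ triv G := fun h => hne (by rw [h]; rfl)
  have horth := Cfsg.Agent.Lib.Helper3.Irr.irr_orthonormal χ (triv G)
  rw [if_neg hne'] at horth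
  have hcard : (Nat.card G : ℂ) ≠ 0 := by exact_mod_cast Nat.card_pos.ne'
  have hsum : ∑ g : G, (χ : G → ℂ) g = 0 := by
    unfold classInner at horth
    have h1 : ∑ g : G, (χ : G → ℂ) g * conj (((triv G : IrrCharacter G) : G → ℂ) g) = 0 := by
      rcases mul_eq_zero.1 horth with h | h
      · exact absurd (inv_eq_zero.1 h) hcard
      · exact h
    have h2 : ∀ g : G, (χ : G → ℂ) g * conj (((triv G : IrrCharacter G) : G → ℂ) g)
        = (χ : G → ℂ) g := by
      intro g
      show (χ : G → ℂ) g * conj (1 : ℂ) = _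
      simp
    simpa only [h2] using h1
  have hχ1 : (χ : G → ℂ) 1 ≠ 0 := Cfsg.Agent.Lib.Helper3.Irr.IsIrrCharacter.apply_one_ne_zero χ.2
  have hχ' : ∀ g : G, MemLocalIdeal M
      (centralChar (fun _ : G => (1 : ℂ)) g - centralChar (χ : G → ℂ) g) := hχ
  have hterm : ∀ g : G, MemLocalIdeal M (1 - (χ : G → ℂ) g / (χ : G → ℂ) 1) := by
    intro g
    have hidx : ¬ p ∣ (Subgroup.centralizer ({g} : Set G)).index := fun h =>
      hp (h.trans (Subgroup.index_dvd_card _))
    have hidx0 : ((Subgroup.centralizer ({g} : Set G)).index : ℂ) ≠ 0 := by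
      have : (Subgroup.centralizer ({g} : Set G)).index ≠ 0 := by
        intro h0
        rw [h0] at hidx
        exact hidx (dvd_zero p)
      exact_mod_cast this
    have hinv : MemLocalRing M ((Subgroup.centralizer ({g} : Set G)).index : ℂ)⁻¹ :=
      memLocalRing_inv (memLocalRing_natCast hMp _)
        (fun h => hidx ((memLocalIdeal_natCast_iff hM _).1 h))
    have := memLocalIdeal_mul_left hMp hinv (hχ' g)
    have heq : ((Subgroup.centralizer ({g} : Set G)).index : ℂ)⁻¹ *
        (centralChar (fun _ : G => (1 : ℂ)) g - centralChar (χ : G → ℂ) g)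
        = 1 - (χ : G → ℂ) g / (χ : G → ℂ) 1 := by
      unfold centralChar
      field_simp
    rwa [heq] at this
  have htot := memLocalIdeal_sum hMp Finset.univ
    (fun g : G => 1 - (χ : G → ℂ) g / (χ : G → ℂ) 1) (fun g _ => hterm g)
  have heq2 : ∑ g : G, (1 - (χ : G → ℂ) g / (χ : G → ℂ) 1) = (Nat.card G : ℂ) := by
    rw [Finset.sum_sub_distrib, ← Finset.sum_div, hsum, zero_div, sub_zero]
    simp [Nat.card_eq_fintype_card]
  rw [heq2] at htot
  exact hp ((memLocalIdeal_natCast_iff hM _).1 htot)

/-- Let G be a finite group, p a prime and M a maximal ideal of the algebraic integers containing p. Then the principal character is the only irreducible character of degree prime to p in the principal p-block of G if and only if p does not divide the order of G. -/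
theorem result {G : Type*} [Group G] [Finite G] (p : ℕ) [Fact p.Prime] (M : Ideal Cfsg.AlgInt) (hM : Cfsg.IsPModular p M) : (∀ χ : Cfsg.IrrCharacter G, χ ∈ Cfsg.principalBlock M G → ¬ p ∣ Cfsg.charDegree (χ : G → ℂ) → (χ : G → ℂ) = fun _ => (1 : ℂ)) ↔ ¬ p ∣ Nat.card G := by
  classical
  constructor
  · intro h hdvd
    have : Fintype G := Fintype.ofFinite G
    have := Cfsg.Agent.Lib.Helper3.Irr.finite_irrCharacter (G := G)
    have : Fintype (IrrCharacter G) := Fintype.ofFinite _
    have hMp : M.IsPrime := isPrime_of_isPModular hM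
    have hB : IsPBlock M (principalBlock M G) := ⟨triv G, rfl⟩
    have hloc := Cfsg.Agent.Lib.Helper77.BlockIdem.blockCoeff_memLocalRing p M hM
      (principalBlock M G) hB (1 : G)
    rw [Cfsg.Agent.Lib.Helper77.BlockIdem.blockCoeff_eq_sum] at hloc
    -- degrees
    have hdeg : ∀ χ : IrrCharacter G, ∃ n : ℕ, 0 < n ∧ (χ : G → ℂ) 1 = n := fun χ =>
      Cfsg.Agent.Lib.Helper3.Irr.IsIrrCharacter.exists_apply_one_pos χ.2
    choose d hdpos hd using hdeg
    have hcd : ∀ χ : IrrCharacter G, charDegree (χ : G → ℂ) = d χ := by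
      intro χ
      unfold charDegree
      rw [hd χ]
      simp
    have htrivmem : triv G ∈ principalBlock M G := by
      intro g
      show MemLocalIdeal M (centralChar (fun _ : G => (1 : ℂ)) g
        - centralChar (fun _ : G => (1 : ℂ)) g)
      rw [sub_self]
      exact memLocalIdeal_zero hMp
    have hdtriv : d (triv G) = 1 := by
      have h1 := hd (triv G)
      have h2 : ((triv G : IrrCharacter G) : G → ℂ) 1 = 1 := rfl
      rw [h2] at h1
      exact_mod_cast h1.symm
    set N : ℕ := ∑ χ : IrrCharacter G, (if χ ∈ principalBlock M G then d χ ^ 2 else 0) with hN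
    have hsumeq : ∑ χ : IrrCharacter G, (principalBlock M G).indicator
        (fun χ => (χ : G → ℂ) 1 * (χ : G → ℂ) (1 : G)⁻¹) χ = (N : ℂ) := by
      rw [hN, Nat.cast_sum]
      refine Finset.sum_congr rfl (fun χ _ => ?_)
      by_cases hχ : χ ∈ principalBlock M G
      · rw [Set.indicator_of_mem hχ, if_pos hχ, inv_one, hd χ]
        push_cast
        ring
      · rw [Set.indicator_of_notMem hχ, if_neg hχ]
        simp
    rw [hsumeq] at hloc
    have hNmod : ¬ p ∣ N := by
      have hsplit : N = 1 + ∑ χ ∈ Finset.univ.erase (triv G),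
          (if χ ∈ principalBlock M G then d χ ^ 2 else 0) := by
        rw [hN, ← Finset.add_sum_erase Finset.univ _ (Finset.mem_univ (triv G)),
          if_pos htrivmem, hdtriv]
        simp
      have hdvd2 : p ∣ ∑ χ ∈ Finset.univ.erase (triv G),
          (if χ ∈ principalBlock M G then d χ ^ 2 else 0) := by
        refine Finset.dvd_sum (fun χ hχ => ?_)
        have hχne : χ ≠ triv G := Finset.ne_of_mem_erase hχ
        by_cases hmem : χ ∈ principalBlock M G
        · rw [if_pos hmem]
          have hpd : p ∣ d χ := by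
            by_contra hnd
            have := h χ hmem (by rw [hcd χ]; exact hnd)
            exact hχne (Subtype.ext this)
          exact dvd_pow hpd (by norm_num)
        · rw [if_neg hmem]
          exact dvd_zero p
      intro hpN
      rw [hsplit] at hpN
      have : p ∣ 1 := (Nat.dvd_add_left hdvd2).1 hpN
      exact (Fact.out : p.Prime).one_lt.ne' (Nat.dvd_one.1 this)
    have hG : MemLocalIdeal M (Nat.card G : ℂ) := memLocalIdeal_natCast_of_dvd hM hdvd
    have hcard : (Nat.card G : ℂ) ≠ 0 := by exact_mod_cast Nat.card_pos.ne'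
    have h2 := memLocalIdeal_mul_right hMp hG hloc
    have h3 : (Nat.card G : ℂ) * ((Nat.card G : ℂ)⁻¹ * (N : ℂ)) = (N : ℂ) := by
      field_simp
    rw [h3] at h2
    exact hNmod ((memLocalIdeal_natCast_iff hM N).1 h2)
  · intro hp χ hχ _
    exact eq_one_of_mem p M hM hp χ hχ

end Cfsg.Agent.S4916
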