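import Cfsg.Statements.S4931
import Cfsg.Agent.Lib.Helper79.SNAsm
import Cfsg.Agent.Lib.Helper79.SNKERN
import Cfsg.Agent.Lib.Helper79.SNCONV
import Cfsg.Agent.Lib.Helper20.SNSEP
import Cfsg.Agent.Lib.Helper47.SNDEGP
import Cfsg.Agent.Lib.Helper61.SNNORMQ
import Cfsg.Agent.Lib.Helper59.SNBURN
import Cfsg.Agent.Lib.Helper20.SNTATEK

set_option autoImplicit false
open Cfsg

namespace Cfsg.Agent.S4931

/-- Let G be a finite group, p a prime and P a Sylow p-subgroup of G with normalizer N. Then every irreducible complex character of N of degree not divisible by p is the restriction of an irreducible character of G if and only if there is a normal subgroup K of G with KN = G and K ∩ N = 1. -/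
theorem result {G : Type*} [Group G] [Finite G] (p : ℕ) [Fact p.Prime] (P : Sylow p G) :
    (∀ θ : Cfsg.IrrCharacter ↥(Subgroup.normalizer ((P : Subgroup G) : Set G)), ¬ p ∣ Cfsg.charDegree (θ : ↥(Subgroup.normalizer ((P : Subgroup G) : Set G)) → ℂ) →
        ∃ χ : Cfsg.IrrCharacter G, ∀ x : ↥(Subgroup.normalizer ((P : Subgroup G) : Set G)), (χ : G → ℂ) x = (θ : ↥(Subgroup.normalizer ((P : Subgroup G) : Set G)) → ℂ) x) ↔
      ∃ K : Subgroup G, K.Normal ∧ K ⊔ Subgroup.normalizer ((P : Subgroup G) : Set G) = ⊤ ∧ K ⊓ Subgroup.normalizer ((P : Subgroup G) : Set G) = ⊥ := by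
  constructor
  · exact Cfsg.Agent.Lib.Helper79.SNAsm.fwd Cfsg.Agent.Lib.Helper79.SNKERN.main
      Cfsg.Agent.Lib.Helper20.SNSEP.main Cfsg.Agent.Lib.Helper47.SNDEGP.main
      (Cfsg.Agent.Lib.Helper79.SNAsm.lemB Cfsg.Agent.Lib.Helper61.SNNORMQ.main
        Cfsg.Agent.Lib.Helper59.SNBURN.main Cfsg.Agent.Lib.Helper20.SNTATEK.main) G p P
  · rintro ⟨K, hKn, hsup, hinf⟩ θ _
    exact Cfsg.Agent.Lib.Helper79.SNCONV.main G _ K hKn hsup hinf θ

end Cfsg.Agent.S4931
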