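-- Statement S4969.
import Cfsg.Statements.S4969
import Cfsg.Agent.Lib.Helper3.Irr
import Mathlib

set_option autoImplicit false
open Cfsg

namespace Cfsg.Agent.S4969

open Cfsg.Agent.Lib.Helper3.Irr
open scoped ComplexConjugate

/-- there are at most as many irreducible characters as conjugacy classes -/
theorem card_irr_le {G : Type*} [Group G] [Finite G] :
    Nat.card (IrrCharacter G) ≤ Nat.card (ConjClasses G) := by
  classical
  have : Fintype G := Fintype.ofFinite G
  have : Finite (IrrCharacter G) := finite_irrCharacter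
  have : Fintype (IrrCharacter G) := Fintype.ofFinite _
  have hli := irr_linearIndependent (G := G)
  let L : (ConjClasses G → ℂ) →ₗ[ℂ] (G → ℂ) := LinearMap.funLeft ℂ ℂ ConjClasses.mk
  let v : IrrCharacter G → (ConjClasses G → ℂ) := fun χ =>
    Quotient.lift (χ : G → ℂ) (fun a b hab => by
      obtain ⟨c, hc⟩ := isConj_iff.1 hab
      rw [← hc]
      exact ((IsIrrCharacter.isClassFunction χ.2) a c).symm)
  have hv : LinearIndependent ℂ v := by
    apply LinearIndependent.of_comp L
    have hLv : ⇑L ∘ v = fun χ : IrrCharacter G => (χ : G → ℂ) := by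
      funext χ x
      rfl
    rw [hLv]
    exact hli
  have h1 := hv.fintype_card_le_finrank
  rw [Module.finrank_fintype_fun_eq_card] at h1
  simpa [Nat.card_eq_fintype_card] using h1

/-- a Bessel-type inequality at a group element -/
theorem sum_norm_sq_le {G : Type*} [Group G] [Fintype G] [Fintype (IrrCharacter G)] (g : G) :
    ∑ χ : IrrCharacter G, ‖(χ : G → ℂ) g‖ ^ 2 ≤
      (Nat.card ↥(Subgroup.centralizer ({g} : Set G)) : ℝ) := by
  classical
  set A : ℝ := ∑ χ : IrrCharacter G, ‖(χ : G → ℂ) g‖ ^ 2 with hA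
  have hA0 : 0 ≤ A := Finset.sum_nonneg fun χ _ => sq_nonneg _
  -- the class function h
  let h : G → ℂ := fun x => ∑ χ : IrrCharacter G, conj ((χ : G → ℂ) g) * (χ : G → ℂ) x
  have hg : h g = (A : ℂ) := by
    simp only [h, hA]
    push_cast
    apply Finset.sum_congr rfl
    intro χ _
    rw [mul_comm, Complex.mul_conj, Complex.normSq_eq_norm_sq]
    push_cast; rfl
  have hconj : ∀ x, IsConj g x → h x = (A : ℂ) := by
    intro x hx
    obtain ⟨c, hc⟩ := isConj_iff.1 hx
    rw [← hg, ← hc]
    simp only [h]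
    apply Finset.sum_congr rfl
    intro χ _
    rw [(IsIrrCharacter.isClassFunction χ.2) g c]
  -- orthogonality in sum form
  have horth : ∀ χ ψ : IrrCharacter G, ∑ x : G, (χ : G → ℂ) x * conj ((ψ : G → ℂ) x) =
      if χ = ψ then (Nat.card G : ℂ) else 0 := by
    intro χ ψ
    have := irr_orthonormal χ ψ
    unfold classInner at this
    have hne : (Nat.card G : ℂ) ≠ 0 := by exact_mod_cast Nat.card_pos.ne'
    split_ifs at this ⊢ with hχ
    · field_simp at this
      rw [this]
    · rcases mul_eq_zero.1 this with h0 | h0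
      · exact absurd (inv_eq_zero.1 h0) hne
      · exact h0
  -- total norm
  have hS : ∑ x : G, h x * conj (h x) = (Nat.card G : ℂ) * (A : ℂ) := by
    simp only [h, map_sum, map_mul, Complex.conj_conj, Finset.sum_mul, Finset.mul_sum]
    rw [Finset.sum_comm]
    have : ∀ ψ : IrrCharacter G, ∑ x : G, ∑ χ : IrrCharacter G,
        conj ((χ : G → ℂ) g) * (χ : G → ℂ) x * ((ψ : G → ℂ) g * conj ((ψ : G → ℂ) x)) =
        (Nat.card G : ℂ) * ((‖(ψ : G → ℂ) g‖ ^ 2 : ℝ) : ℂ) := by
      intro ψ
      rw [Finset.sum_comm]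
      have : ∀ χ : IrrCharacter G, ∑ x : G,
          conj ((χ : G → ℂ) g) * (χ : G → ℂ) x * ((ψ : G → ℂ) g * conj ((ψ : G → ℂ) x)) =
          conj ((χ : G → ℂ) g) * (ψ : G → ℂ) g * (if χ = ψ then (Nat.card G : ℂ) else 0) := by
        intro χ
        rw [← horth χ ψ, Finset.mul_sum]
        apply Finset.sum_congr rfl
        intro x _
        ring
      rw [Finset.sum_congr rfl (fun χ _ => this χ)]
      simp only [mul_ite, mul_zero, Finset.sum_ite_eq', Finset.mem_univ, if_true]
      rw [mul_comm (conj ((ψ : G → ℂ) g)), Complex.mul_conj, Complex.normSq_eq_norm_sq]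
      push_cast; ring
    rw [Finset.sum_congr rfl (fun χ _ => this χ), ← Finset.mul_sum, hA]
    push_cast; rfl
  -- real form
  have hS' : ∑ x : G, ‖h x‖ ^ 2 = (Nat.card G : ℝ) * A := by
    have : ((∑ x : G, ‖h x‖ ^ 2 : ℝ) : ℂ) = (((Nat.card G : ℝ) * A : ℝ) : ℂ) := by
      push_cast
      rw [← hS]
      apply Finset.sum_congr rfl
      intro x _
      rw [Complex.mul_conj, Complex.normSq_eq_norm_sq]
      push_cast; rfl
    exact_mod_cast this
  -- the class of g
  let K : Finset G := Finset.univ.filter (fun x => IsConj g x)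
  have hK : (K.card : ℝ) * (Nat.card ↥(Subgroup.centralizer ({g} : Set G)) : ℝ) = (Nat.card G : ℝ) := by
    have h1 := MulAction.card_orbit_mul_card_stabilizer_eq_card_group (ConjAct G) g
    rw [← Nat.card_eq_fintype_card, ← Nat.card_eq_fintype_card, ← Nat.card_eq_fintype_card,
      ← Subgroup.nat_card_centralizer_nat_card_stabilizer] at h1
    have h2 : Nat.card (MulAction.orbit (ConjAct G) g) = K.card := by
      rw [Nat.card_eq_fintype_card]
      apply Fintype.card_of_subtype
      intro x
      simp only [K, Finset.mem_filter, Finset.mem_univ, true_and]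
      rw [ConjAct.mem_orbit_conjAct]
      exact ⟨fun hh => hh.symm, fun hh => hh.symm⟩
    rw [h2] at h1
    have h3 : Nat.card (ConjAct G) = Nat.card G := rfl
    rw [h3] at h1
    exact_mod_cast h1
  have hle : (K.card : ℝ) * A ^ 2 ≤ (Nat.card G : ℝ) * A := by
    rw [← hS']
    calc (K.card : ℝ) * A ^ 2 = ∑ x ∈ K, ‖h x‖ ^ 2 := by
          rw [Finset.sum_congr rfl (fun x hx => by
            rw [hconj x (by simpa [K] using hx)])]
          simp [abs_of_nonneg hA0]
      _ ≤ ∑ x : G, ‖h x‖ ^ 2 :=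
          Finset.sum_le_sum_of_subset_of_nonneg (Finset.subset_univ _) (fun _ _ _ => sq_nonneg _)
  rcases hA0.eq_or_lt with h0 | hpos
  · rw [← h0]; positivity
  · rw [← hK] at hle
    have hKpos : (0 : ℝ) < K.card := by
      have : g ∈ K := by
        simp only [K, Finset.mem_filter, Finset.mem_univ, true_and]
        exact IsConj.refl g
      exact_mod_cast Finset.card_pos.2 ⟨g, this⟩
    have : (K.card : ℝ) * A * A ≤ (K.card : ℝ) * A * (Nat.card ↥(Subgroup.centralizer ({g} : Set G)) : ℝ) := by
      nlinarith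
    exact le_of_mul_le_mul_left this (mul_pos hKpos hpos)

/-- Let G be a finite group with k conjugacy classes, g ∈ G, and N > 0. Then the sum over the irreducible complex characters χ of G with χ(1) ≥ N of |χ(g)|/χ(1) is at most √(k · #C_G(g)) / N. -/
theorem result {G : Type*} [Group G] [Finite G] (g : G) (N : ℝ) (hN : 0 < N) :
    ∑ᶠ χ : Cfsg.IrrCharacter G, (if N ≤ ‖(χ : G → ℂ) 1‖ then ‖(χ : G → ℂ) g‖ / ‖(χ : G → ℂ) 1‖ else 0) ≤
      Real.sqrt ((Nat.card (ConjClasses G) : ℝ) * (Nat.card ↥(Subgroup.centralizer ({g} : Set G)) : ℝ)) / N := by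
  classical
  have : Fintype G := Fintype.ofFinite G
  have : Finite (IrrCharacter G) := finite_irrCharacter
  have : Fintype (IrrCharacter G) := Fintype.ofFinite _
  rw [finsum_eq_sum_of_fintype]
  have h1 : ∀ χ : IrrCharacter G,
      (if N ≤ ‖(χ : G → ℂ) 1‖ then ‖(χ : G → ℂ) g‖ / ‖(χ : G → ℂ) 1‖ else 0) ≤
        ‖(χ : G → ℂ) g‖ / N := by
    intro χ
    split_ifs with h
    · exact div_le_div_of_nonneg_left (norm_nonneg _) hN h
    · positivity
  have hcard : (Fintype.card (IrrCharacter G) : ℝ) ≤ (Nat.card (ConjClasses G) : ℝ) := by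
    have := card_irr_le (G := G)
    rw [Nat.card_eq_fintype_card] at this
    exact_mod_cast this
  calc ∑ χ : IrrCharacter G,
        (if N ≤ ‖(χ : G → ℂ) 1‖ then ‖(χ : G → ℂ) g‖ / ‖(χ : G → ℂ) 1‖ else 0)
      ≤ ∑ χ : IrrCharacter G, ‖(χ : G → ℂ) g‖ / N := Finset.sum_le_sum fun χ _ => h1 χ
    _ = (∑ χ : IrrCharacter G, ‖(χ : G → ℂ) g‖) / N := by rw [Finset.sum_div]
    _ ≤ Real.sqrt ((Nat.card (ConjClasses G) : ℝ) *
          (Nat.card ↥(Subgroup.centralizer ({g} : Set G)) : ℝ)) / N := by
        apply div_le_div_of_nonneg_right _ hN.le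
        apply Real.le_sqrt_of_sq_le
        calc (∑ χ : IrrCharacter G, ‖(χ : G → ℂ) g‖) ^ 2
            ≤ (Finset.univ : Finset (IrrCharacter G)).card *
                ∑ χ : IrrCharacter G, ‖(χ : G → ℂ) g‖ ^ 2 := sq_sum_le_card_mul_sum_sq
          _ ≤ (Nat.card (ConjClasses G) : ℝ) *
                (Nat.card ↥(Subgroup.centralizer ({g} : Set G)) : ℝ) := by
              apply mul_le_mul
              · simpa using hcard
              · exact sum_norm_sq_le g
              · exact Finset.sum_nonneg fun χ _ => sq_nonneg _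
              · positivity

end Cfsg.Agent.S4969

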