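import Cfsg.Statements.S5011
-- import your own Cfsg.Agent.* helpers here

set_option autoImplicit false
open Cfsg

namespace Cfsg.Agent.S5011

/-- Let G be a finite non-abelian simple group and ρ an irreducible complex representation of G on a space of dimension greater than one (irreducible in the sense that the only subspaces invariant under every ρ(x) are 0 and the whole space). Then for every non-identity element g of G, the centralizer of g does not act irreducibly: there is a non-zero proper subspace invariant under ρ(c) for every c commuting with g. -/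
theorem result {G : Type*} [Group G] [Finite G] [IsSimpleGroup G]
    (hG : ¬ IsMulCommutative G) {V : Type*} [AddCommGroup V] [Module ℂ V] [FiniteDimensional ℂ V]
    (ρ : Representation ℂ G V)
    (hirr : ∀ W : Submodule ℂ V, (∀ x : G, ∀ v ∈ W, ρ x v ∈ W) → W = ⊥ ∨ W = ⊤)
    (hdim : 1 < Module.finrank ℂ V) (g : G) (hg : g ≠ 1) :
    ∃ W : Submodule ℂ V, W ≠ ⊥ ∧ W ≠ ⊤ ∧ ∀ c ∈ Subgroup.centralizer ({g} : Set G), ∀ v ∈ W, ρ c v ∈ W := by
  classical
  by_contra hcon
  push Not at hcon
  have : Nontrivial V := Module.nontrivial_of_finrank_pos (R := ℂ) (by omega)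
  obtain ⟨μ, hμ⟩ := Module.End.exists_eigenvalue (ρ g)
  have hWne : Module.End.eigenspace (ρ g) μ ≠ ⊥ := hμ
  have hWinv : ∀ c ∈ Subgroup.centralizer ({g} : Set G), ∀ v ∈ Module.End.eigenspace (ρ g) μ,
      ρ c v ∈ Module.End.eigenspace (ρ g) μ := by
    intro c hc v hv
    rw [Module.End.mem_eigenspace_iff] at hv ⊢
    have hcomm : g * c = c * g := by
      rw [Subgroup.mem_centralizer_iff] at hc
      exact hc g rfl
    have h1 : ρ g (ρ c v) = ρ c (ρ g v) := by
      rw [← Module.End.mul_apply, ← map_mul, hcomm, map_mul, Module.End.mul_apply]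
    rw [h1, hv, map_smul]
  have hWtop : Module.End.eigenspace (ρ g) μ = ⊤ := by
    by_contra h
    obtain ⟨c, hc, v, hv, hcv⟩ := hcon _ hWne h
    exact hcv (hWinv c hc v hv)
  have hscal : ∀ v, ρ g v = μ • v := by
    intro v
    have : v ∈ Module.End.eigenspace (ρ g) μ := hWtop ▸ Submodule.mem_top
    exact Module.End.mem_eigenspace_iff.mp this
  -- every element of G acts as a scalar
  have hall : ∀ x : G, ∃ c : ℂ, ∀ v, ρ x v = c • v := by
    have hN : Subgroup.normalClosure ({g} : Set G) = ⊤ := by
      rcases (Subgroup.normalClosure_normal (s := ({g} : Set G))).eq_bot_or_eq_top with h | h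
      · exfalso
        apply hg
        have : g ∈ Subgroup.normalClosure ({g} : Set G) :=
          Subgroup.subset_normalClosure (Set.mem_singleton g)
        rw [h] at this
        exact Subgroup.mem_bot.mp this
      · exact h
    intro x
    have hx : x ∈ Subgroup.normalClosure ({g} : Set G) := hN ▸ Subgroup.mem_top x
    unfold Subgroup.normalClosure at hx
    induction hx using Subgroup.closure_induction with
    | mem y hy =>
      rw [Group.mem_conjugatesOfSet_iff] at hy
      obtain ⟨z, hz, hzy⟩ := hy
      rw [Set.mem_singleton_iff] at hz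
      subst hz
      obtain ⟨h, rfl⟩ := isConj_iff.mp hzy
      refine ⟨μ, fun v => ?_⟩
      rw [map_mul, map_mul, Module.End.mul_apply, Module.End.mul_apply, hscal, map_smul,
        ← Module.End.mul_apply, ← map_mul, mul_inv_cancel, map_one, Module.End.one_apply]
    | one => exact ⟨1, fun v => by simp⟩
    | mul y z _ _ hy hz =>
      obtain ⟨c, hc⟩ := hy
      obtain ⟨d, hd⟩ := hz
      exact ⟨c * d, fun v => by
        rw [map_mul, Module.End.mul_apply, hd, map_smul, hc, smul_smul, mul_comm]⟩
    | inv y _ hy =>
      obtain ⟨c, hc⟩ := hy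
      have hc0 : c ≠ 0 := by
        rintro rfl
        obtain ⟨v, hv⟩ := exists_ne (0 : V)
        apply hv
        have : ρ y⁻¹ (ρ y v) = v := by
          rw [← Module.End.mul_apply, ← map_mul, inv_mul_cancel, map_one, Module.End.one_apply]
        rw [hc, zero_smul, map_zero] at this
        exact this.symm
      refine ⟨c⁻¹, fun v => ?_⟩
      have h1 : ρ y⁻¹ (ρ y (c⁻¹ • v)) = c⁻¹ • v := by
        rw [← Module.End.mul_apply, ← map_mul, inv_mul_cancel, map_one, Module.End.one_apply]
      rw [hc, smul_smul, mul_inv_cancel₀ hc0, one_smul] at h1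
      exact h1
  obtain ⟨v, hv⟩ := exists_ne (0 : V)
  have hspan : ∀ x : G, ∀ w ∈ Submodule.span ℂ ({v} : Set V), ρ x w ∈ Submodule.span ℂ ({v} : Set V) := by
    intro x w hw
    obtain ⟨c, hc⟩ := hall x
    rw [hc]
    exact Submodule.smul_mem _ _ hw
  rcases hirr _ hspan with h | h
  · rw [Submodule.span_singleton_eq_bot] at h
    exact hv h
  · have h1 : Module.finrank ℂ (Submodule.span ℂ ({v} : Set V)) = 1 := finrank_span_singleton hv
    rw [h, finrank_top] at h1
    omega

end Cfsg.Agent.S5011
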