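import Cfsg.Statements.S5106
import Cfsg.Agent.Lib.Helper87.FSBasic
import Cfsg.Agent.Lib.Helper87.FSSat
import Cfsg.Agent.Lib.Helper87.FSNormal

set_option autoImplicit false
open Cfsg

namespace Cfsg.Agent.S5106

/-- In a saturated fusion system over a finite p-group S, a subgroup R ≤ S is normal in the system if and only if every map of the system whose source is a subgroup of R is the restriction of an element of Aut_F(R). -/
theorem result {Ω : Type*} [Group Ω] {S : Subgroup Ω} [Finite S] (p : ℕ) [Fact p.Prime] (hS : IsPGroup p S) (F : Cfsg.FusionSystem S) (hF : F.IsSaturated p) (R : Subgroup Ω) (hRS : R ≤ S) : F.IsNormal R ↔ ∀ (P : Subgroup Ω) (hPR : P ≤ R) (φ : P →* Ω), φ ∈ F.Hom P → ∃ α ∈ F.autGroup R, ∀ x : P, ((α (Subgroup.inclusion hPR x) : R) : Ω) = φ x := by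
  open Cfsg.Agent.Lib.Helper87.FSBasic Cfsg.Agent.Lib.Helper87.FSSat
    Cfsg.Agent.Lib.Helper87.FSNormal in
  constructor
  · intro hN P hPR φ hφ
    obtain ⟨a, ha, hax⟩ := exists_aut_of_isNormal F hN hφ hPR
    exact ⟨a, ha, fun x => hax x⟩
  · intro H
    have hfin : Finite R := finite_of_le hRS
    have hRp : IsPGroup p R := hS.to_le hRS
    have hnil : Group.IsNilpotent R := hRp.isNilpotent
    -- images of characteristic subgroups of `R` are strongly closed
    have hchar : ∀ U : Subgroup R, U.Characteristic → F.StronglyClosed (U.map R.subtype) := by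
      intro U hU
      have hUR : U.map R.subtype ≤ R := by
        rintro _ ⟨u, -, rfl⟩
        exact u.2
      refine ⟨hUR.trans hRS, fun P hP φ hφ x => ?_⟩
      obtain ⟨a, -, ha⟩ := H P (hP.trans hUR) φ hφ
      rw [← ha x]
      obtain ⟨u, hu, hux⟩ := hP x.2
      have e : Subgroup.inclusion (hP.trans hUR) x = u := Subtype.ext hux.symm
      rw [e]
      have h1 : a u ∈ U.map a.toMonoidHom := ⟨u, hu, rfl⟩
      rw [Subgroup.characteristic_iff_map_eq.mp hU a] at h1
      exact ⟨a u, h1, rfl⟩
    have hR : F.StronglyClosed R := by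
      refine ⟨hRS, fun P hP φ hφ x => ?_⟩
      obtain ⟨a, -, ha⟩ := H P hP φ hφ
      rw [← ha x]
      exact (a _).2
    refine isNormal_of_chain hS F hF R hR (Group.nilpotencyClass R)
      (fun j => (Subgroup.upperCentralSeries R j).map R.subtype) ?_ ?_ ?_ ?_ ?_ ?_
    · show (Subgroup.upperCentralSeries R 0).map R.subtype = ⊥
      rw [Subgroup.upperCentralSeries_zero, Subgroup.map_bot]
    · show (Subgroup.upperCentralSeries R (Group.nilpotencyClass R)).map R.subtype = R
      rw [Subgroup.upperCentralSeries_nilpotencyClass, ← MonoidHom.range_eq_map,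
        Subgroup.range_subtype]
    · intro j _
      exact le_normalizer_of_stronglyClosed F (hchar _ inferInstance)
    · rintro j _ _ ⟨u, -, rfl⟩
      exact u.2
    · intro j _
      rw [Subgroup.commutator_le]
      rintro _ ⟨z, hz, rfl⟩ g₂ hg₂
      have hz' : z ∈ Subgroup.upperCentralSeries R (j + 1) := hz
      rw [Subgroup.mem_upperCentralSeries_succ_iff] at hz'
      exact ⟨_, hz' ⟨g₂, hg₂⟩, rfl⟩
    · intro j _ Y hY φ hφ _ x hx
      exact stronglyClosed_maps F (hchar _ inferInstance) hφ x hx

end Cfsg.Agent.S5106
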