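import Cfsg.Statements.S5125
import Cfsg.Agent.Lib.Helper87.FSBasic
import Cfsg.Agent.Lib.Helper87.FSSat
import Cfsg.Agent.Lib.Helper87.FSAlperin
import Cfsg.Agent.Lib.Helper87.FSNormal

set_option autoImplicit false
open Cfsg

namespace Cfsg.Agent.S5125

/-- Let F be a saturated fusion system over a finite p-group S and Q a subgroup strongly closed in F. If Q has a subgroup Q₁ that is normal in F, with Q/Q₁ abelian and Aut_F(Q₁) a p-group, then Q is normal in F. -/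
theorem result {Ω : Type*} [Group Ω] {S : Subgroup Ω} [Finite S] (p : ℕ) [Fact p.Prime] (hS : IsPGroup p S) (F : Cfsg.FusionSystem S) (hF : F.IsSaturated p) (Q Q₁ : Subgroup Ω) (hQ : F.StronglyClosed Q) (hQ₁Q : Q₁ ≤ Q) (hQ₁ : F.IsNormal Q₁) (hab : ⁅Q, Q⁆ ≤ Q₁) (hAut : IsPGroup p ↥(F.autGroup Q₁)) : F.IsNormal Q := by
  open Cfsg.Agent.Lib.Helper87.FSBasic Cfsg.Agent.Lib.Helper87.FSSat
    Cfsg.Agent.Lib.Helper87.FSAlperin Cfsg.Agent.Lib.Helper87.FSNormal in
  have hQS : Q ≤ S := hQ.1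
  have hQ₁S : Q₁ ≤ S := hQ₁.1
  have hQ₁sc := stronglyClosed_of_isNormal F hQ₁
  have hQ₁n := le_normalizer_of_stronglyClosed F hQ₁sc
  have hnil : Group.IsNilpotent S := hS.isNilpotent
  -- `Q₁` is fully automized
  have hfa : F.IsFullyAutomized p Q₁ := by
    obtain ⟨ρ, hρ, hfa, -⟩ := exists_far F hF hQ₁S
    have hfin : Finite Q₁ := finite_of_le hQ₁S
    have hle : ρ.range ≤ Q₁ := by
      rintro _ ⟨x, rfl⟩
      exact hQ₁sc.2 _ le_rfl ρ hρ x
    have heq : ρ.range = Q₁ := Subgroup.eq_of_le_of_card_ge hle (card_range F hρ).ge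
    rwa [heq] at hfa
  -- every map of `F` from a subgroup of `Q₁` is a conjugation by an element of `S`
  have hconj : ∀ (P : Subgroup Ω), P ≤ Q₁ → ∀ φ ∈ F.Hom P, ∀ x : P,
      ∃ g ∈ S, φ x = g * (x : Ω) * g⁻¹ := by
    intro P hP φ hφ x
    obtain ⟨a, ha, hax⟩ := exists_aut_of_isNormal F hQ₁ hφ hP
    obtain ⟨g, hg, hgx⟩ := inner_of_pGroup F hfa hAut (autGroup_hom F hQ₁S ha) (range_autHom a)
    refine ⟨g, hg, ?_⟩
    rw [← hax x]
    exact hgx ⟨x, hP x.2⟩
  let Z : ℕ → Subgroup Ω := fun j => Q₁ ⊓ (Subgroup.upperCentralSeries S j).map S.subtype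
  have hZsc : ∀ j, F.StronglyClosed (Z j) := by
    intro j
    refine ⟨inf_le_left.trans hQ₁S, fun P hP φ hφ x => ?_⟩
    obtain ⟨g, hg, hgx⟩ := hconj P (hP.trans inf_le_left) φ hφ x
    have hx := hP x.2
    obtain ⟨hx1, z, hz, hzx⟩ := Subgroup.mem_inf.mp hx
    refine Subgroup.mem_inf.mpr ⟨hQ₁sc.2 P (hP.trans inf_le_left) φ hφ x, ?_⟩
    rw [hgx]
    refine ⟨⟨g, hg⟩ * z * ⟨g, hg⟩⁻¹, Subgroup.Normal.conj_mem inferInstance z hz _, ?_⟩
    rw [← hzx]
    rfl
  have hZtop : Z (Group.nilpotencyClass S) = Q₁ := by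
    show Q₁ ⊓ (Subgroup.upperCentralSeries S (Group.nilpotencyClass S)).map S.subtype = Q₁
    rw [Subgroup.upperCentralSeries_nilpotencyClass, ← MonoidHom.range_eq_map,
      Subgroup.range_subtype]
    exact inf_eq_left.mpr hQ₁S
  have hCsc : ∀ j, F.StronglyClosed (if j ≤ Group.nilpotencyClass S then Z j else Q) := by
    intro j
    split_ifs
    · exact hZsc j
    · exact hQ
  refine isNormal_of_chain hS F hF Q hQ (Group.nilpotencyClass S + 1)
    (fun j => if j ≤ Group.nilpotencyClass S then Z j else Q) ?_ ?_ ?_ ?_ ?_ ?_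
  · show (if 0 ≤ Group.nilpotencyClass S then Z 0 else Q) = ⊥
    rw [if_pos (Nat.zero_le _)]
    show Q₁ ⊓ (Subgroup.upperCentralSeries S 0).map S.subtype = ⊥
    rw [Subgroup.upperCentralSeries_zero, Subgroup.map_bot, inf_bot_eq]
  · show (if Group.nilpotencyClass S + 1 ≤ Group.nilpotencyClass S then
      Z (Group.nilpotencyClass S + 1) else Q) = Q
    rw [if_neg (by omega)]
  · intro j _
    exact le_normalizer_of_stronglyClosed F (hCsc j)
  · intro j _
    show (if j ≤ Group.nilpotencyClass S then Z j else Q) ≤ Q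
    split_ifs
    · exact inf_le_left.trans hQ₁Q
    · exact le_rfl
  · intro j hj
    show ⁅(if j + 1 ≤ Group.nilpotencyClass S then Z (j + 1) else Q), Q⁆ ≤
      (if j ≤ Group.nilpotencyClass S then Z j else Q)
    have hjle : j ≤ Group.nilpotencyClass S := by omega
    by_cases hj' : j + 1 ≤ Group.nilpotencyClass S
    · rw [if_pos hj', if_pos hjle, Subgroup.commutator_le]
      intro g₁ hg₁ g₂ hg₂
      obtain ⟨h1, z, hz, rfl⟩ := Subgroup.mem_inf.mp hg₁
      refine Subgroup.mem_inf.mpr ⟨?_, ?_⟩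
      · have h2 : g₂ * (z : Ω)⁻¹ * g₂⁻¹ ∈ Q₁ :=
          ((Subgroup.mem_normalizer_iff.mp (hQ₁n (hQS hg₂))) _).mp (Q₁.inv_mem h1)
        have h3 := Q₁.mul_mem h1 h2
        rw [commutatorElement_def]
        have e : S.subtype z * (g₂ * (z : Ω)⁻¹ * g₂⁻¹) =
            S.subtype z * g₂ * (S.subtype z)⁻¹ * g₂⁻¹ := by
          show (z : Ω) * (g₂ * (z : Ω)⁻¹ * g₂⁻¹) = (z : Ω) * g₂ * (z : Ω)⁻¹ * g₂⁻¹
          group
        rwa [e] at h3
      · have hz' : z ∈ Subgroup.upperCentralSeries S (j + 1) := hz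
        rw [Subgroup.mem_upperCentralSeries_succ_iff] at hz'
        exact ⟨_, hz' ⟨g₂, hQS hg₂⟩, rfl⟩
    · rw [if_neg hj', if_pos hjle]
      have hj'' : j = Group.nilpotencyClass S := by omega
      rw [hj'', hZtop]
      exact hab
  · intro j _ Y hY φ hφ _ x hx
    exact stronglyClosed_maps F (hCsc j) hφ x hx

end Cfsg.Agent.S5125
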