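import Cfsg.Statements.S5126
import Cfsg.Agent.S5098
import Cfsg.Agent.H84.FusModel

set_option autoImplicit false
open Cfsg

namespace Cfsg.Agent.S5126

open Cfsg.FusionSystem Cfsg.Agent.H84 in
/-- For R fully normalized radical centric in saturated F: N_F(R) is constrained and O_p(G) = R in every model G of N_F(R). -/
theorem result {Ω : Type*} [Group Ω] {S : Subgroup Ω} [Finite S] (p : ℕ) [Fact p.Prime] (hS : IsPGroup p S) (F : Cfsg.FusionSystem S) (hF : F.IsSaturated p) (R : Subgroup Ω) (hRn : F.IsFullyNormalized R) (hRc : F.IsCentric R) (hRr : F.IsRadical p R) (E : Cfsg.FusionSystem (Cfsg.FusionSystem.normalizerIn S R)) (hE : F.IsNormalizerSystem R E) {G : Type*} [Group G] (ι : ↥(Cfsg.FusionSystem.normalizerIn S R) →* G) : E.IsConstrained p ∧ (E.IsModel p G ι → (Cfsg.pCore p G : Subgroup G) = (R.subgroupOf (Cfsg.FusionSystem.normalizerIn S R)).map ι) := by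
  have hRS : R ≤ S := hRn.1
  have hC : centralizerIn S R ≤ R := hRc.2 R (isConj_refl F hRS)
  have hRN : R ≤ normalizerIn S R := le_normalizerIn S hRS
  have hEn : E.IsNormal R := normalizerSystem_isNormal F hRS E hE
  refine ⟨⟨Cfsg.Agent.S5098.result p hS F hF R hRn E hE, R, hEn,
    normalizerSystem_isCentric F hRS hC E hE⟩, fun hM => ?_⟩
  have hnorm := model_map_normal E ι hM hEn
  have hOT : pCore p G ≤ ι.range := model_pCore_le_range E ι hM
  apply le_antisymm
  · intro z hz
    obtain ⟨n, rfl⟩ := hOT hz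
    refine ⟨n, Subgroup.mem_subgroupOf.mpr ?_, rfl⟩
    have hU₀S : ((pCore p G).comap ι).map (normalizerIn S R).subtype ≤ S :=
      (Subgroup.map_subtype_le _).trans inf_le_left
    have hnU : (n : Ω) ∈ ((pCore p G).comap ι).map (normalizerIn S R).subtype := ⟨n, hz, rfl⟩
    have hnR : (n : Ω) ∈ Subgroup.normalizer (R : Set Ω) := n.2.2
    obtain ⟨c, hc⟩ : ∃ c : MulAut R, ∀ x : R, ((c x : R) : Ω) = n * x * (n : Ω)⁻¹ :=
      ⟨R.normalizerMonoidHom ⟨n, hnR⟩, fun _ => rfl⟩
    have hcB : c ∈ autInducedBy (((pCore p G).comap ι).map (normalizerIn S R).subtype) R :=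
      Subgroup.subset_closure ⟨n, hnU, hc⟩
    have hcA : c ∈ F.autGroup R :=
      autInducedBy_le_autGroup F hRS (Subgroup.subset_closure ⟨n, n.2.1, hc⟩)
    have hBn : ((autInducedBy (((pCore p G).comap ι).map (normalizerIn S R).subtype) R).subgroupOf
        (F.autGroup R)).Normal := by
      constructor
      intro β hβ α
      rw [Subgroup.mem_subgroupOf] at hβ ⊢
      exact model_autInducedBy_conj E ι hM hRN α (normalizerSystem_aut_mem F hRS E hE α α.2) β hβ
    have hBp : IsPGroup p ((autInducedBy (((pCore p G).comap ι).map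
        (normalizerIn S R).subtype) R).subgroupOf (F.autGroup R)) :=
      (isPGroup_autInducedBy (S := ((pCore p G).comap ι).map (normalizerIn S R).subtype)
        (hS.to_le hU₀S) R).comap_subtype
    have hle := normal_pSubgroup_le_inn_of_radical F hRr _ hBn hBp
    have hcInn : c ∈ Inn R :=
      Subgroup.mem_subgroupOf.mp (hle (show (⟨c, hcA⟩ : F.autGroup R) ∈ _ from
        Subgroup.mem_subgroupOf.mpr hcB))
    exact mem_of_induces_inn hRS hC c hcInn n.2.1 hc
  · have hNp : IsPGroup p ↥(normalizerIn S R) := hS.to_le inf_le_left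
    exact le_pCore p hnorm ((hNp.to_subgroup (R.subgroupOf (normalizerIn S R))).map ι)

end Cfsg.Agent.S5126
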