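import Cfsg.Statements.S5135
import Cfsg.Agent.H85.GroupFS2

set_option autoImplicit false
open Cfsg

namespace Cfsg.Agent.S5135

open Cfsg.Agent.H85 Cfsg.FusionSystem Pointwise in
/-- Let G be a finite group, S a Sylow p-subgroup and H a normal subgroup of G. Then the fusion system of G/H on the image SH/H of S is the factor system of the fusion system of G on S modulo S ∩ H, read through the quotient map restricted to S: for each subgroup P' of SH/H, the conjugation maps by elements of G/H defined on P' with values in SH/H are exactly the homomorphisms induced by the conjugation maps by elements of G defined on the full preimage of P' in S with values in S. -/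
theorem result {G : Type*} [Group G] [Finite G] (p : ℕ) [Fact p.Prime] (S : Sylow p G) (H : Subgroup G) [H.Normal] : (Cfsg.groupFusionSystem (S : Subgroup G)).IsFactorSystem ((S : Subgroup G) ⊓ H) ((QuotientGroup.mk' H).comp (S : Subgroup G).subtype) (Cfsg.groupFusionSystem ((S : Subgroup G).map (QuotientGroup.mk' H))) := by
  obtain ⟨θ, hθdef⟩ : ∃ θ : ↥(S : Subgroup G) →* G ⧸ H,
      θ = (QuotientGroup.mk' H).comp (S : Subgroup G).subtype := ⟨_, rfl⟩
  rw [← hθdef]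
  have hθ : ∀ s : ↥(S : Subgroup G), θ s = QuotientGroup.mk' H (s : G) := by
    intro s; rw [hθdef]; rfl
  have mem_pre : ∀ (P' : Subgroup (G ⧸ H)) (x : G), x ∈ preimageAlong θ P' ↔
      x ∈ (S : Subgroup G) ∧ QuotientGroup.mk' H x ∈ P' := by
    intro P' x
    constructor
    · rintro ⟨s, hs, rfl⟩
      refine ⟨s.2, ?_⟩
      have h1 : θ s ∈ P' := hs
      rw [hθ] at h1
      exact h1
    · rintro ⟨hx, hx'⟩
      refine ⟨⟨x, hx⟩, ?_, rfl⟩
      show θ ⟨x, hx⟩ ∈ P'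
      rw [hθ]; exact hx'
  have hpreS : ∀ P' : Subgroup (G ⧸ H), preimageAlong θ P' ≤ (S : Subgroup G) :=
    fun P' x hx => ((mem_pre P' x).mp hx).1
  refine ⟨inf_le_left, fun s => ?_, ?_, fun P' φ' => ⟨?_, ?_⟩⟩
  · rw [hθ, QuotientGroup.mk'_apply, QuotientGroup.eq_one_iff]
    exact ⟨fun h => ⟨s.2, h⟩, fun h => h.2⟩
  · ext y
    constructor
    · rintro ⟨s, rfl⟩
      exact ⟨s, s.2, (hθ s).symm⟩
    · rintro ⟨x, hx, rfl⟩
      exact ⟨⟨x, hx⟩, hθ _⟩
  · rintro ⟨hP', hφ'S, gbar, hgbar⟩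
    refine ⟨hP', ?_⟩
    obtain ⟨g₀, rfl⟩ := QuotientGroup.mk'_surjective H gbar
    have hM : ∀ x ∈ preimageAlong θ P', g₀ * x * g₀⁻¹ ∈ (S : Subgroup G) ⊔ H := by
      intro x hx
      obtain ⟨hxS, hxP'⟩ := (mem_pre P' x).mp hx
      have h1 := hφ'S ⟨_, hxP'⟩
      rw [hgbar] at h1
      obtain ⟨s, hs, hs'⟩ := h1
      have h2 : QuotientGroup.mk' H s = QuotientGroup.mk' H (g₀ * x * g₀⁻¹) := by
        rw [hs']; simp
      have h3 : s⁻¹ * (g₀ * x * g₀⁻¹) ∈ H := QuotientGroup.eq.mp h2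
      have e : g₀ * x * g₀⁻¹ = s * (s⁻¹ * (g₀ * x * g₀⁻¹)) := by group
      rw [e]
      exact Subgroup.mul_mem _ (Subgroup.mem_sup_left hs) (Subgroup.mem_sup_right h3)
    have hX : IsSyl p (S : Subgroup G) ((S : Subgroup G) ⊔ H) :=
      (isSyl_top_of_sylow S).of_le le_sup_left le_top
    have hMp : IsPGroup p ((preimageAlong θ P').map (MulAut.conj g₀).toMonoidHom) :=
      (S.isPGroup'.to_le (hpreS P')).map _
    have hMX : (preimageAlong θ P').map (MulAut.conj g₀).toMonoidHom ≤ (S : Subgroup G) ⊔ H := by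
      rintro _ ⟨x, hx, rfl⟩
      exact hM x hx
    obtain ⟨y, hy, hyM⟩ := hX.exists_conj hMX hMp
    have hy' : y ∈ (((S : Subgroup G) : Set G) * (H : Set G)) := by
      rw [← Subgroup.mul_normal]
      exact hy
    obtain ⟨s, hs, h, hh, rfl⟩ := Set.mem_mul.mp hy'
    have hval : ∀ x ∈ preimageAlong θ P', h * g₀ * x * (h * g₀)⁻¹ ∈ (S : Subgroup G) := by
      intro x hx
      have h1 := hyM (g₀ * x * g₀⁻¹) ⟨x, hx, rfl⟩
      have h2 : s⁻¹ * (s * h * (g₀ * x * g₀⁻¹) * (s * h)⁻¹) * s ∈ (S : Subgroup G) :=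
        Subgroup.mul_mem _ (Subgroup.mul_mem _ (Subgroup.inv_mem _ hs) h1) hs
      have e : s⁻¹ * (s * h * (g₀ * x * g₀⁻¹) * (s * h)⁻¹) * s = h * g₀ * x * (h * g₀)⁻¹ := by
        group
      rwa [e] at h2
    have hPP' : ∀ x : ↥(preimageAlong θ P'), θ ⟨x, hpreS P' x.2⟩ ∈ P' := by
      intro x
      rw [hθ]
      exact ((mem_pre P' x).mp x.2).2
    refine ⟨conjHom _ (h * g₀), ⟨hpreS P', fun x => hval x x.2, h * g₀, fun x => rfl⟩,
      hpreS P', fun x => hval x x.2, hPP', fun x => ?_⟩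
    rw [hgbar]
    show QuotientGroup.mk' H g₀ * θ ⟨x, hpreS P' x.2⟩ * (QuotientGroup.mk' H g₀)⁻¹ =
      θ ⟨h * g₀ * (x : G) * (h * g₀)⁻¹, hval x x.2⟩
    rw [hθ, hθ]
    have hh1 : ((h : G) : G ⧸ H) = 1 := (QuotientGroup.eq_one_iff h).mpr hh
    simp [hh1]
  · rintro ⟨hP', φ, ⟨hP, hφS, g, hg⟩, hPS, hφS', hPP', hind⟩
    have lift : ∀ y : P', ∃ x : ↥(preimageAlong θ P'),
        (⟨θ ⟨x, hPS x.2⟩, hPP' x⟩ : P') = y := by
      intro y
      obtain ⟨s, hs, hsy⟩ := hP' y.2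
      have hsP : s ∈ preimageAlong θ P' := (mem_pre P' s).mpr ⟨hs, by rw [hsy]; exact y.2⟩
      refine ⟨⟨s, hsP⟩, Subtype.ext ?_⟩
      show θ ⟨s, _⟩ = y
      rw [hθ]; exact hsy
    refine ⟨hP', fun y => ?_, QuotientGroup.mk' H g, fun y => ?_⟩
    · obtain ⟨x, rfl⟩ := lift y
      rw [hind x, hθ]
      exact ⟨φ x, hφS x, rfl⟩
    · obtain ⟨x, rfl⟩ := lift y
      rw [hind x, hθ]
      show QuotientGroup.mk' H (φ x) =
        QuotientGroup.mk' H g * θ ⟨x, hPS x.2⟩ * (QuotientGroup.mk' H g)⁻¹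
      rw [hθ, hg x]
      simp

end Cfsg.Agent.S5135
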