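import Cfsg.Statements.S5214
import Cfsg.Agent.S1137
import Cfsg.Agent.Lib.Helper88.SuzCl2
import Cfsg.Agent.Lib.Helper87.FSRadical
-- import your own Cfsg.Agent.* helpers here

set_option autoImplicit false
open Cfsg

namespace Cfsg.Agent.S5214

section Aux

variable {Ω : Type*} [Group Ω] {S : Subgroup Ω}

/-- The automorphisms in `Aut_F(Y)` that fix the elements of order at most two of `Y` and move
every element by an element of order at most two. -/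
def stab (F : Cfsg.FusionSystem S) (Y : Subgroup Ω) (hY : Y ≤ S)
    (hinv : ∀ x ∈ S, x * x = 1 → ∀ s ∈ S, s * x = x * s) : Subgroup (MulAut ↥Y) where
  carrier := {β | β ∈ F.autGroup Y ∧ (∀ y : ↥Y, (y : Ω) * (y : Ω) = 1 → β y = y) ∧
    ∀ y : ↥Y, ((β y : Ω) * (y : Ω)⁻¹) * ((β y : Ω) * (y : Ω)⁻¹) = 1}
  one_mem' := by
    refine ⟨Subgroup.one_mem _, fun y _ => rfl, fun y => ?_⟩
    simp
  mul_mem' := by
    rintro β β' ⟨h1, h2, h3⟩ ⟨h1', h2', h3'⟩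
    refine ⟨Subgroup.mul_mem _ h1 h1', fun y hy => ?_, fun y => ?_⟩
    · rw [MulAut.mul_apply, h2' y hy, h2 y hy]
    · rw [MulAut.mul_apply]
      have hw1 := h3 (β' y)
      have hw2 := h3' y
      have hm1 : (β (β' y) : Ω) * (β' y : Ω)⁻¹ ∈ S :=
        hY (Subgroup.mul_mem _ (β (β' y)).2 (Subgroup.inv_mem _ (β' y).2))
      have hm2 : (β' y : Ω) * (y : Ω)⁻¹ ∈ S :=
        hY (Subgroup.mul_mem _ (β' y).2 (Subgroup.inv_mem _ y.2))
      have hc := hinv _ hm2 hw2 _ hm1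
      have e : (β (β' y) : Ω) * (y : Ω)⁻¹
          = ((β (β' y) : Ω) * (β' y : Ω)⁻¹) * ((β' y : Ω) * (y : Ω)⁻¹) := by group
      rw [e]
      calc ((β (β' y) : Ω) * (β' y : Ω)⁻¹) * ((β' y : Ω) * (y : Ω)⁻¹)
            * (((β (β' y) : Ω) * (β' y : Ω)⁻¹) * ((β' y : Ω) * (y : Ω)⁻¹))
          = ((β (β' y) : Ω) * (β' y : Ω)⁻¹) * (((β' y : Ω) * (y : Ω)⁻¹)
            * ((β (β' y) : Ω) * (β' y : Ω)⁻¹)) * ((β' y : Ω) * (y : Ω)⁻¹) := by group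
        _ = ((β (β' y) : Ω) * (β' y : Ω)⁻¹) * (((β (β' y) : Ω) * (β' y : Ω)⁻¹)
            * ((β' y : Ω) * (y : Ω)⁻¹)) * ((β' y : Ω) * (y : Ω)⁻¹) := by rw [← hc]
        _ = (((β (β' y) : Ω) * (β' y : Ω)⁻¹) * ((β (β' y) : Ω) * (β' y : Ω)⁻¹))
            * (((β' y : Ω) * (y : Ω)⁻¹) * ((β' y : Ω) * (y : Ω)⁻¹)) := by group
        _ = 1 := by rw [hw1, hw2, mul_one]
  inv_mem' := by
    rintro β ⟨h1, h2, h3⟩
    refine ⟨Subgroup.inv_mem _ h1, fun y hy => ?_, fun y => ?_⟩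
    · have := h2 y hy
      calc β⁻¹ y = β⁻¹ (β y) := by rw [this]
        _ = y := MulAut.inv_apply_self _ _ _
    · have h := h3 (β⁻¹ y)
      rw [MulAut.apply_inv_self] at h
      have e : ((β⁻¹ y : ↥Y) : Ω) * (y : Ω)⁻¹ = ((y : Ω) * ((β⁻¹ y : ↥Y) : Ω)⁻¹)⁻¹ := by group
      rw [e, ← mul_inv_rev, h, inv_one]

theorem stab_le (F : Cfsg.FusionSystem S) (Y : Subgroup Ω) (hY : Y ≤ S)
    (hinv : ∀ x ∈ S, x * x = 1 → ∀ s ∈ S, s * x = x * s) : stab F Y hY hinv ≤ F.autGroup Y :=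
  fun _ h => h.1

theorem stab_pgroup (F : Cfsg.FusionSystem S) (Y : Subgroup Ω) (hY : Y ≤ S)
    (hinv : ∀ x ∈ S, x * x = 1 → ∀ s ∈ S, s * x = x * s) : IsPGroup 2 (stab F Y hY hinv) := by
  rintro ⟨β, h1, h2, h3⟩
  refine ⟨1, Subtype.ext ?_⟩
  show β ^ 2 ^ 1 = 1
  rw [pow_one, pow_two]
  ext y
  rw [MulAut.mul_apply, MulAut.one_apply]
  let w : ↥Y := β y * y⁻¹
  have hw : (w : Ω) * (w : Ω) = 1 := h3 y
  have hβw : β w = w := h2 w hw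
  have hww : w * w = 1 := Subtype.ext hw
  have e : β y = w * y := by simp [w]
  have hfin : β (β y) = y := by
    calc β (β y) = β (w * y) := by rw [e]
      _ = β w * β y := map_mul _ _ _
      _ = w * (w * y) := by rw [hβw, e]
      _ = (w * w) * y := by group
      _ = y := by rw [hww, one_mul]
  exact congrArg Subtype.val hfin

theorem stab_normal (F : Cfsg.FusionSystem S) (Y : Subgroup Ω) (hY : Y ≤ S)
    (hinv : ∀ x ∈ S, x * x = 1 → ∀ s ∈ S, s * x = x * s) :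
    ∀ χ ∈ F.autGroup Y, ∀ β ∈ stab F Y hY hinv, χ * β * χ⁻¹ ∈ stab F Y hY hinv := by
  rintro χ hχ β ⟨h1, h2, h3⟩
  refine ⟨Subgroup.mul_mem _ (Subgroup.mul_mem _ hχ h1) (Subgroup.inv_mem _ hχ),
    fun y hy => ?_, fun y => ?_⟩
  · rw [MulAut.mul_apply, MulAut.mul_apply]
    have hyy : y * y = 1 := Subtype.ext hy
    have h' : ((χ⁻¹ y : ↥Y) : Ω) * ((χ⁻¹ y : ↥Y) : Ω) = 1 := by
      have : χ⁻¹ y * χ⁻¹ y = 1 := by rw [← map_mul, hyy, map_one]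
      exact congrArg Subtype.val this
    rw [h2 _ h', MulAut.apply_inv_self]
  · rw [MulAut.mul_apply, MulAut.mul_apply]
    have h := h3 (χ⁻¹ y)
    have hY1 : β (χ⁻¹ y) * (χ⁻¹ y)⁻¹ * (β (χ⁻¹ y) * (χ⁻¹ y)⁻¹) = 1 := Subtype.ext h
    have h4 : χ (β (χ⁻¹ y)) * y⁻¹ = χ (β (χ⁻¹ y) * (χ⁻¹ y)⁻¹) := by
      rw [map_mul, map_inv, MulAut.apply_inv_self]
    have h5 : (χ (β (χ⁻¹ y)) * y⁻¹) * (χ (β (χ⁻¹ y)) * y⁻¹) = 1 := by
      rw [h4, ← map_mul, hY1, map_one]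
    exact congrArg Subtype.val h5

theorem conj_mem_stab (F : Cfsg.FusionSystem S) (Y : Subgroup Ω) (hY : Y ≤ S)
    (hinv : ∀ x ∈ S, x * x = 1 → ∀ s ∈ S, s * x = x * s)
    (hcs : ∀ x ∈ S, ∀ y ∈ S, (x⁻¹ * y⁻¹ * x * y) * (x⁻¹ * y⁻¹ * x * y) = 1)
    {g : Ω} (hgS : g ∈ S) (hgN : g ∈ Subgroup.normalizer (Y : Set Ω)) :
    Y.normalizerMonoidHom ⟨g, hgN⟩ ∈ stab F Y hY hinv := by
  refine ⟨Cfsg.Agent.Lib.Helper87.FSBasic.autInducedBy_le_autGroup F hY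
    (Cfsg.Agent.Lib.Helper87.FSBasic.conj_mem_autInducedBy hgS hgN), fun y hy => ?_, fun y => ?_⟩
  · apply Subtype.ext
    show g * (y : Ω) * g⁻¹ = y
    rw [hinv _ (hY y.2) hy g hgS, mul_inv_cancel_right]
  · show (g * (y : Ω) * g⁻¹ * (y : Ω)⁻¹) * (g * (y : Ω) * g⁻¹ * (y : Ω)⁻¹) = 1
    have h := hcs g⁻¹ (Subgroup.inv_mem _ hgS) (y : Ω)⁻¹ (Subgroup.inv_mem _ (hY y.2))
    rw [inv_inv, inv_inv] at h
    exact h

end Aux

/-- Let S be a Suzuki 2-group (a finite nonabelian 2-group with more than one involution admitting a cyclic group of automorphisms permuting its involutions regularly). Then S is normal in every saturated fusion system over S (such a group is resistant). -/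
theorem result {Ω : Type*} [Group Ω] {S : Subgroup Ω} [Finite S] (hS : IsPGroup 2 S) (F : Cfsg.FusionSystem S) (hF : F.IsSaturated 2) (hsz : Cfsg.IsSuzukiTwoGroup ↥S) : F.IsNormal S := by
  obtain ⟨K, hSetup⟩ := Cfsg.Agent.S1137.setup_of_suzuki hsz
  have h37 := Cfsg.Agent.S1137.result hsz
  obtain ⟨-, -, hnc, ⟨x0, y0, hxy, hx1, hx2, hy1, hy2⟩, -⟩ := hsz
  have hZ : ∀ x : ↥S, x ∈ Subgroup.center ↥S ↔ x * x = 1 := by
    intro x
    constructor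
    · exact h37.2 x
    · intro hx
      by_cases hx1' : x = 1
      · rw [hx1']; exact Subgroup.one_mem _
      · exact ((h37.1 x).1 ⟨hx1', hx⟩).1
  have hK : ∃ k ∈ K, k ≠ 1 := by
    obtain ⟨k, hk, hkx⟩ := hSetup.reg x0 y0 hx1 hx2 hy1 hy2
    refine ⟨k, hk, fun h => hxy ?_⟩
    rw [← hkx, h]; rfl
  have hcc := Cfsg.Agent.Lib.Helper88.SuzCl2.comm_central hSetup hS hZ hnc hK
  have hinv : ∀ x ∈ S, x * x = 1 → ∀ s ∈ S, s * x = x * s := by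
    intro x hx hxx s hs
    have := hSetup.inv_central ⟨x, hx⟩ (Subtype.ext hxx) ⟨s, hs⟩
    exact congrArg Subtype.val this
  have hcs : ∀ x ∈ S, ∀ y ∈ S, (x⁻¹ * y⁻¹ * x * y) * (x⁻¹ * y⁻¹ * x * y) = 1 := by
    intro x hx y hy
    have := (hZ _).1 (hcc ⟨x, hx⟩ ⟨y, hy⟩)
    exact congrArg Subtype.val this
  have hSsc : F.StronglyClosed S := ⟨le_rfl, fun R _ φ hφ x => (F.le_of_mem hφ).2 x⟩
  refine Cfsg.Agent.Lib.Helper87.FSRadical.isNormal_of_normal_pSubgroups hS F hF S hSsc ?_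
  intro Y hfa _ hSY
  have hY : Y ≤ S := hfa.1
  have hne : Y ≠ S := fun h => hSY (h ▸ le_rfl)
  obtain ⟨g, hgS, hgN, hgY⟩ := Cfsg.Agent.Lib.Helper87.FSSat.exists_normalizer_not_mem hS hY hne
  exact ⟨stab F Y hY hinv, g, hgN, stab_pgroup F Y hY hinv, stab_le F Y hY hinv,
    stab_normal F Y hY hinv, hgS, hgY, conj_mem_stab F Y hY hinv hcs hgS hgN⟩

end Cfsg.Agent.S5214
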