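import Cfsg.Statements.S5219
import Cfsg.Agent.H84.FusClass
import Cfsg.Agent.H84.ExpBound

set_option autoImplicit false
open Cfsg

namespace Cfsg.Agent.S5219

/-- Let p be a prime, n a natural number, S a nontrivial finite p-group of nilpotence class at most n(p−1)+1, and F a saturated fusion system over S with no nontrivial normal subgroup (O_p(F) = 1). Then S has exponent dividing p^(n²(p−1)+n). -/
theorem result {Ω : Type*} [Group Ω] {S : Subgroup Ω} [Finite S] (p : ℕ) [Fact p.Prime] (hS : IsPGroup p S) (F : Cfsg.FusionSystem S) (hF : F.IsSaturated p) (n : ℕ) (hS1 : S ≠ ⊥) (hcl : Subgroup.lowerCentralSeries S (n * (p - 1) + 1) = ⊥) (hcore : F.core = ⊥) : Monoid.exponent ↥S ∣ p ^ (n ^ 2 * (p - 1) + n) := by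
  have hnormal := Cfsg.Agent.H84.FusClass.agemo_center_normal hS F hF n hcl
  have hbot : Cfsg.powerClosure p n (S ⊓ Subgroup.centralizer (S : Set Ω)) = ⊥ := by
    rw [← le_bot_iff, ← hcore]
    exact le_sSup hnormal
  have hZ : ∀ z ∈ Subgroup.center ↥S, z ^ (p ^ n) = 1 := by
    intro z hz
    have h1 : ((z : Ω)) ^ (p ^ n) ∈ Cfsg.powerClosure p n (S ⊓ Subgroup.centralizer (S : Set Ω)) := by
      apply Subgroup.subset_closure
      refine ⟨z, ⟨z.2, Subgroup.mem_centralizer_iff.mpr (fun g hg => ?_)⟩, rfl⟩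
      exact congrArg Subtype.val (Subgroup.mem_center_iff.mp hz ⟨g, hg⟩)
    rw [hbot, Subgroup.mem_bot] at h1
    exact Subtype.ext h1
  have hnil : Group.IsNilpotent ↥S := hS.isNilpotent
  have hlcs : Subgroup.lowerCentralSeries (⊤ : Subgroup ↥S) (n * (p - 1) + 1) = ⊥ := by
    have h1 := Subgroup.top_subtype_lowerCentralSeries S (n * (p - 1) + 1)
    rw [hcl] at h1
    exact (Subgroup.map_eq_bot_iff_of_injective _ S.subtype_injective).mp h1
  have hc : Subgroup.upperCentralSeries ↥S (n * (p - 1) + 1) = ⊤ :=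
    Subgroup.upperCentralSeries_eq_top_iff_nilpotencyClass_le.mpr
      (Subgroup.lowerCentralSeries_eq_bot_iff_nilpotencyClass_le.mp hlcs)
  apply Monoid.exponent_dvd_of_forall_pow_eq_one
  intro x
  have h2 := Cfsg.Agent.H84.ExpBound.pow_eq_one_of_class (p ^ n) (n * (p - 1) + 1) hZ hc x
  have e : (p ^ n) ^ (n * (p - 1) + 1) = p ^ (n ^ 2 * (p - 1) + n) := by
    rw [← pow_mul]
    congr 1
    ring
  rw [e] at h2
  exact h2

end Cfsg.Agent.S5219
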