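import Cfsg.Statements.S5223
import Mathlib
import Cfsg.Agent.Lib.Helper87.FSBasic
import Cfsg.Agent.Lib.Helper87.FSSat
import Cfsg.Agent.Lib.Helper87.FSAlperin
import Cfsg.Agent.Lib.Helper87.StabChain

set_option autoImplicit false
open Cfsg

namespace Cfsg.Agent.S5223

/-- Let F be a saturated fusion system over a finite p-group S. Suppose there are subgroups Q₀ = S, Q₁, …, Qₙ = 1 (not required to be nested) such that for each i < n the focal subgroup of Qᵢ (generated by the elements x⁻¹φ(x), x ∈ Qᵢ, φ a map of F defined on the cyclic group generated by x) lies in Qᵢ₊₁. Then F is the inner fusion system of S. -/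
theorem result {Ω : Type*} [Group Ω] {S : Subgroup Ω} [Finite S] (p : ℕ) [Fact p.Prime] (hS : IsPGroup p S) (F : Cfsg.FusionSystem S) (hF : F.IsSaturated p) (n : ℕ) (Q : Fin (n + 1) → Subgroup Ω) (hQ0 : Q 0 = S) (hQn : Q (Fin.last n) = ⊥) (hstep : ∀ i : Fin n, Subgroup.closure {y : Ω | ∃ x ∈ Q i.castSucc, ∃ φ ∈ F.Hom (Subgroup.zpowers x), y = x⁻¹ * φ ⟨x, Subgroup.mem_zpowers x⟩} ≤ Q i.succ) : ∀ P : Subgroup Ω, F.Hom P = (Cfsg.innerFusionSystem S).Hom P := by
  open Cfsg.Agent.Lib.Helper87.FSBasic Cfsg.Agent.Lib.Helper87.FSSat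
    Cfsg.Agent.Lib.Helper87.FSAlperin Cfsg.Agent.Lib.Helper87.StabChain in
  refine eq_inner_of_autGroup_pGroup hS F hF ?_
  intro P hP
  have hfin : Finite P := finite_of_le hP
  have hPp : IsPGroup p P := hS.to_le hP
  rintro ⟨α, hα⟩
  have hαF := autGroup_hom F hP hα
  -- the commutator chain of `α` lies in the given chain
  have hchain : ∀ i : ℕ, ∀ hi : i < n + 1, ∀ x ∈ commChain α i, (x : Ω) ∈ Q ⟨i, hi⟩ := by
    intro i
    induction i with
    | zero =>
      intro hi x _
      have : (⟨0, hi⟩ : Fin (n + 1)) = 0 := rfl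
      rw [this, hQ0]
      exact hP x.2
    | succ i ih =>
      intro hi x hx
      have hi' : i < n := by omega
      have hle : Subgroup.closure {y | ∃ x ∈ commChain α i, y = x⁻¹ * α x} ≤
          (Q ⟨i + 1, hi⟩).comap P.subtype := by
        rw [Subgroup.closure_le]
        rintro _ ⟨z, hz, rfl⟩
        have hzQ := ih (by omega) z hz
        have hzP : Subgroup.zpowers (z : Ω) ≤ P := by
          rw [Subgroup.zpowers_le]
          exact z.2
        have hφ := restrict_mem F hαF hzP
        apply hstep ⟨i, hi'⟩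
        apply Subgroup.subset_closure
        refine ⟨(z : Ω), hzQ, _, hφ, ?_⟩
        rfl
      exact hle hx
  have hbot : commChain α n = ⊥ := by
    rw [eq_bot_iff]
    intro x hx
    have := hchain n (Nat.lt_succ_self n) x hx
    have e : (⟨n, Nat.lt_succ_self n⟩ : Fin (n + 1)) = Fin.last n := rfl
    rw [e, hQn, Subgroup.mem_bot] at this
    rw [Subgroup.mem_bot]
    exact Subtype.ext this
  obtain ⟨k, hk⟩ := exists_pow_eq_one_of_commChain hPp α n hbot
  exact ⟨k, Subtype.ext hk⟩

end Cfsg.Agent.S5223
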