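import Cfsg.Statements.S5236
import Cfsg.Agent.Lib.Helper87.FSRadical
import Cfsg.Agent.Lib.Helper87.ChainStab
import Cfsg.Agent.Lib.Helper87.FSNormal

set_option autoImplicit false
open Cfsg

namespace Cfsg.Agent.S5236

open Cfsg.Agent.Lib.Helper87.FSBasic Cfsg.Agent.Lib.Helper87.FSSat
  Cfsg.Agent.Lib.Helper87.FSNormal Cfsg.Agent.Lib.Helper87.FSLocal
  Cfsg.Agent.Lib.Helper87.FSRadical Cfsg.Agent.Lib.Helper87.ChainStab

open scoped commutatorElement

variable {Ω : Type*} [Group Ω] {S : Subgroup Ω}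

theorem backward [Finite S] (p : ℕ) [Fact p.Prime] (hS : IsPGroup p S)
    (F : Cfsg.FusionSystem S) (hF : F.IsSaturated p) (hp : p ≠ 2) (P : Subgroup Ω)
    (hP : F.StronglyClosed P) (n : ℕ) (C : ℕ → Subgroup Ω) (hC0 : C 0 = ⊥)
    (hCn : C n = Cfsg.omegaOne p P) (hsc : ∀ j, F.StronglyClosed (C j))
    (hcomm : ∀ j < n, ⁅C (j + 1), P⁆ ≤ C j) : F.IsNormal P := by
  have hPS := hP.1
  have hPn := le_normalizer_of_stronglyClosed F hP
  refine isNormal_of_normal_pSubgroups hS F hF P hP ?_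
  intro Y hfa hrec hPY
  have hY : Y ≤ S := hfa.1
  have hfinY : Finite Y := finite_of_le hY
  have hYp : IsPGroup p Y := hS.to_le hY
  obtain ⟨g, hgP, hgN, hgY⟩ := exists_mem_normalizer_of_not_le hS hY hPS (hY.trans hPn) hPY
  have hgS : g ∈ S := hPS hgP
  let D₁ : ℕ → Subgroup Y := fun j =>
    match j with
    | 0 => ⊤
    | _ + 1 => P.subgroupOf Y
  let D₂ : ℕ → Subgroup Y := fun k => (C (n - k)).subgroupOf Y
  have hinv₁ : ∀ β ∈ F.autGroup Y, ∀ j, ∀ x ∈ D₁ j, β x ∈ D₁ j := by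
    intro β hβ j x hx
    have hβ' := autGroup_hom F hY hβ
    match j with
    | 0 => trivial
    | k + 1 =>
      exact Subgroup.mem_subgroupOf.mpr
        (stronglyClosed_maps F hP hβ' x (Subgroup.mem_subgroupOf.mp hx))
  have hinv₂ : ∀ β ∈ F.autGroup Y, ∀ j, ∀ x ∈ D₂ j, β x ∈ D₂ j := by
    intro β hβ j x hx
    have hβ' := autGroup_hom F hY hβ
    exact Subgroup.mem_subgroupOf.mpr
      (stronglyClosed_maps F (hsc _) hβ' x (Subgroup.mem_subgroupOf.mp hx))
  refine ⟨chainStab (F.autGroup Y) D₁ hinv₁ ⊓ chainStab (F.autGroup Y) D₂ hinv₂, g, hgN,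
    ?_, ?_, ?_, hgS, hgY, ?_⟩
  · rintro ⟨β, hβ⟩
    have hβB : β ∈ chainStab (F.autGroup Y) D₁ hinv₁ ⊓ chainStab (F.autGroup Y) D₂ hinv₂ := hβ
    obtain ⟨a, m, hm, hN⟩ := Nat.exists_eq_pow_mul_and_not_dvd (orderOf_pos β).ne' p
      (Fact.out : p.Prime).ne_one
    refine ⟨a, Subtype.ext ?_⟩
    show β ^ p ^ a = 1
    obtain ⟨hγ1, hγ2⟩ := Subgroup.mem_inf.mp (Subgroup.pow_mem _ hβB (p ^ a))
    have hγm : (β ^ p ^ a) ^ m = 1 := by rw [← pow_mul, ← hN, pow_orderOf_eq_one]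
    have hcop : Nat.Coprime (orderOf (β ^ p ^ a)) p :=
      Nat.Coprime.coprime_dvd_left (orderOf_dvd_of_pow_eq_one hγm)
        (Nat.Coprime.symm ((Nat.Prime.coprime_iff_not_dvd Fact.out).mpr hm))
    have hstep1 : ∀ j ≤ n, ∀ x : Y, (x : Ω) ∈ C j → (β ^ p ^ a) x = x := by
      intro j
      induction j with
      | zero =>
        intro _ x hx
        rw [hC0, Subgroup.mem_bot] at hx
        have e : x = 1 := Subtype.ext hx
        rw [e, map_one]
      | succ j ih =>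
        intro hj x hx
        apply fix_of_fix_quot hYp _ hcop x
        apply ih (by omega)
        have h1 : x⁻¹ * (β ^ p ^ a) x ∈ (C (n - (n - (j + 1) + 1))).subgroupOf Y :=
          hγ2.2 (n - (j + 1)) x (Subgroup.mem_subgroupOf.mpr (by
            have e : n - (n - (j + 1)) = j + 1 := by omega
            rw [e]
            exact hx))
        have e : n - (n - (j + 1) + 1) = j := by omega
        rw [e] at h1
        exact Subgroup.mem_subgroupOf.mp h1
    have hstep3 : ∀ x ∈ P.subgroupOf Y, (β ^ p ^ a) x = x := by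
      refine fix_of_fix_omega hp hYp _ hcop (P.subgroupOf Y)
        (fun x hx => hinv₁ _ hγ1.1 1 x hx) ?_
      intro x hx hxp
      apply hstep1 n le_rfl x
      rw [hCn]
      apply Subgroup.subset_closure
      refine ⟨Subgroup.mem_subgroupOf.mp hx, ?_⟩
      have h2 := congrArg Subtype.val hxp
      simpa using h2
    apply MulEquiv.ext
    intro x
    rw [MulAut.one_apply]
    exact fix_of_fix_quot hYp _ hcop x (hstep3 _ (hγ1.2 0 x trivial))
  · exact inf_le_left.trans (chainStab_le _ _ _)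
  · intro χ hχ β hβ
    exact Subgroup.mem_inf.mpr ⟨chainStab_normal _ _ _ χ hχ β (Subgroup.mem_inf.mp hβ).1,
      chainStab_normal _ _ _ χ hχ β (Subgroup.mem_inf.mp hβ).2⟩
  · have hcg : Y.normalizerMonoidHom ⟨g, hgN⟩ ∈ F.autGroup Y :=
      autInducedBy_le_autGroup F hY (conj_mem_autInducedBy hgS hgN)
    refine Subgroup.mem_inf.mpr ⟨⟨hcg, ?_⟩, ⟨hcg, ?_⟩⟩
    · intro j x hx
      apply Subgroup.mem_subgroupOf.mpr
      show (x : Ω)⁻¹ * (g * x * g⁻¹) ∈ P
      have h1 : (x : Ω)⁻¹ * g * (x : Ω)⁻¹⁻¹ ∈ P :=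
        ((Subgroup.mem_normalizer_iff.mp (hPn (S.inv_mem (hY x.2)))) g).mp hgP
      have h2 := P.mul_mem h1 (P.inv_mem hgP)
      have e : (x : Ω)⁻¹ * g * (x : Ω)⁻¹⁻¹ * g⁻¹ = (x : Ω)⁻¹ * (g * x * g⁻¹) := by group
      rw [e] at h2
      exact h2
    · intro k x hx
      apply Subgroup.mem_subgroupOf.mpr
      show (x : Ω)⁻¹ * (g * x * g⁻¹) ∈ C (n - (k + 1))
      have hx' : (x : Ω) ∈ C (n - k) := Subgroup.mem_subgroupOf.mp hx
      by_cases hk : n ≤ k
      · have e0 : n - k = 0 := by omega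
        rw [e0, hC0, Subgroup.mem_bot] at hx'
        rw [hx']
        simp
      · have e1 : n - k = (n - (k + 1)) + 1 := by omega
        rw [e1] at hx'
        have h1 := Subgroup.commutator_mem_commutator ((C _).inv_mem hx') hgP
        have e : ⁅(x : Ω)⁻¹, g⁆ = (x : Ω)⁻¹ * (g * x * g⁻¹) := by
          rw [commutatorElement_def]; group
        rw [e] at h1
        exact hcomm (n - (k + 1)) (by omega) h1

theorem forward [Finite S] (p : ℕ) [Fact p.Prime] (hS : IsPGroup p S)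
    (F : Cfsg.FusionSystem S) (P : Subgroup Ω) (hN : F.IsNormal P) :
    ∃ (n : ℕ) (Q : Fin (n + 1) → Subgroup Ω), Q 0 = ⊥ ∧ Q (Fin.last n) = Cfsg.omegaOne p P ∧
      Monotone Q ∧ (∀ i : Fin (n + 1), F.StronglyClosed (Q i)) ∧
        ∀ i : Fin n, ⁅Q i.succ, P⁆ ≤ Q i.castSucc := by
  have hPS := hN.1
  have hfin : Finite P := finite_of_le hPS
  have hPp : IsPGroup p P := hS.to_le hPS
  have hnil : Group.IsNilpotent P := hPp.isNilpotent
  obtain ⟨W, hWdef⟩ : ∃ W : Subgroup P, W = Subgroup.closure {x : P | x ^ p = 1} := ⟨_, rfl⟩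
  have hWchar : W.Characteristic := by
    rw [Subgroup.characteristic_iff_le_comap]
    intro ϕ
    rw [hWdef, Subgroup.closure_le]
    intro x hx
    show ϕ x ∈ Subgroup.closure {x : P | x ^ p = 1}
    apply Subgroup.subset_closure
    show (ϕ x) ^ p = 1
    have hx' : x ^ p = 1 := hx
    rw [← map_pow, hx', map_one]
  have hWmap : W.map P.subtype = Cfsg.omegaOne p P := by
    rw [hWdef, MonoidHom.map_closure]
    show Subgroup.closure _ = Subgroup.closure _
    congr 1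
    ext x
    constructor
    · rintro ⟨y, hy, rfl⟩
      have hy' : y ^ p = 1 := hy
      refine ⟨y.2, ?_⟩
      have h2 := congrArg Subtype.val hy'
      simpa using h2
    · rintro ⟨hxP, hxp⟩
      exact ⟨⟨x, hxP⟩, Subtype.ext (by simpa using hxp), rfl⟩
  refine ⟨Group.nilpotencyClass P,
    fun i => (W ⊓ Subgroup.upperCentralSeries P i).map P.subtype, ?_, ?_, ?_, ?_, ?_⟩
  · show (W ⊓ Subgroup.upperCentralSeries P ((0 : Fin _) : ℕ)).map P.subtype = ⊥
    rw [Fin.val_zero, Subgroup.upperCentralSeries_zero, inf_bot_eq, Subgroup.map_bot]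
  · show (W ⊓ Subgroup.upperCentralSeries P ((Fin.last _ : Fin _) : ℕ)).map P.subtype = _
    rw [Fin.val_last, Subgroup.upperCentralSeries_nilpotencyClass, inf_top_eq, hWmap]
  · intro i j hij
    exact Subgroup.map_mono
      (inf_le_inf_left _ (Subgroup.upperCentralSeries_mono P (Fin.le_def.mp hij)))
  · intro i
    exact stronglyClosed_of_characteristic F hN _
  · intro i
    rw [Subgroup.commutator_le]
    rintro _ ⟨z, ⟨hzW, hzZ⟩, rfl⟩ g hg
    have hzZ' : z ∈ Subgroup.upperCentralSeries P (i.val + 1) := hzZ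
    rw [Subgroup.mem_upperCentralSeries_succ_iff] at hzZ'
    refine ⟨⁅z, ⟨g, hg⟩⁆, ⟨?_, hzZ' ⟨g, hg⟩⟩, rfl⟩
    have hWn : W.Normal := Subgroup.normal_of_characteristic W
    have e : ⁅z, (⟨g, hg⟩ : P)⁆ = z * ((⟨g, hg⟩ : P) * z⁻¹ * (⟨g, hg⟩ : P)⁻¹) := by
      rw [commutatorElement_def]; group
    show ⁅z, (⟨g, hg⟩ : P)⁆ ∈ W
    rw [e]
    exact W.mul_mem hzW (hWn.conj_mem _ (W.inv_mem hzW) _)

/-- Let p be an odd prime, F a saturated fusion system over a finite p-group S and P a subgroup of S strongly closed in F. Then P is normal in F if and only if Ω₁(P) (the subgroup generated by the elements of order p of P) has a chain of subgroups 1 = Q₀ ≤ Q₁ ≤ ⋯ ≤ Qₙ = Ω₁(P), each strongly closed in F, with [Qᵢ₊₁, P] ≤ Qᵢ for all i. -/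
theorem result {Ω : Type*} [Group Ω] {S : Subgroup Ω} [Finite S] (p : ℕ) [Fact p.Prime] (hS : IsPGroup p S) (F : Cfsg.FusionSystem S) (hF : F.IsSaturated p) (hp : p ≠ 2) (P : Subgroup Ω) (hP : F.StronglyClosed P) : F.IsNormal P ↔ ∃ (n : ℕ) (Q : Fin (n + 1) → Subgroup Ω), Q 0 = ⊥ ∧ Q (Fin.last n) = Cfsg.omegaOne p P ∧ Monotone Q ∧ (∀ i : Fin (n + 1), F.StronglyClosed (Q i)) ∧ ∀ i : Fin n, ⁅Q i.succ, P⁆ ≤ Q i.castSucc := by
  constructor
  · intro hN
    exact forward p hS F P hN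
  · rintro ⟨n, Q, hQ0, hQn, hmono, hsc, hcomm⟩
    refine backward p hS F hF hp P hP n (fun j => Q ⟨min j n, by omega⟩) ?_ ?_
      (fun j => hsc _) ?_
    · have e : (⟨min 0 n, by omega⟩ : Fin (n + 1)) = 0 := by
        apply Fin.ext
        simp
      show Q ⟨min 0 n, _⟩ = ⊥
      rw [e]
      exact hQ0
    · have e : (⟨min n n, by omega⟩ : Fin (n + 1)) = Fin.last n := by
        apply Fin.ext
        simp
      show Q ⟨min n n, _⟩ = _
      rw [e]
      exact hQn
    · intro j hj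
      have e1 : (⟨min (j + 1) n, by omega⟩ : Fin (n + 1)) = (⟨j, hj⟩ : Fin n).succ := by
        apply Fin.ext
        simp
        omega
      have e2 : (⟨min j n, by omega⟩ : Fin (n + 1)) = (⟨j, hj⟩ : Fin n).castSucc := by
        apply Fin.ext
        simp
        omega
      show ⁅Q ⟨min (j + 1) n, _⟩, P⁆ ≤ Q ⟨min j n, _⟩
      rw [e1, e2]
      exact hcomm ⟨j, hj⟩

end Cfsg.Agent.S5236
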