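import Cfsg.Statements.S5245
import Cfsg.Agent.Lib.Helper87.FSBasic
import Cfsg.Agent.Lib.Helper87.FSSat
import Cfsg.Agent.Lib.Helper87.FSAlperin
import Cfsg.Agent.Lib.Helper87.FSHyp
import Cfsg.Agent.Lib.Helper88.FSBase
import Cfsg.Agent.Lib.Helper88.InnerSat
import Cfsg.Agent.Lib.Helper88.AutSys
-- import your own Cfsg.Agent.* helpers here

set_option autoImplicit false
open Cfsg

namespace Cfsg.Agent.S5245

section Aux

open Cfsg.FusionSystem Cfsg.Agent.Lib.Helper87 Cfsg.Agent.Lib.Helper88

variable {Ω : Type*} [Group Ω] {S : Subgroup Ω}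

/-- A saturated system that is not inner has an automorphism of prime order different from `p`. -/
theorem exists_prime_aut [Finite S] (p : ℕ) [Fact p.Prime] (hS : IsPGroup p S)
    (F : FusionSystem S) (hF : F.IsSaturated p)
    (hne : ¬ ∀ P : Subgroup Ω, F.Hom P = (innerFusionSystem S).Hom P) :
    ∃ (P : Subgroup Ω) (_ : P ≤ S) (α : MulAut P) (q : ℕ),
      α ∈ F.autGroup P ∧ q.Prime ∧ q ≠ p ∧ orderOf α = q := by
  by_contra hcon
  apply hne
  apply FSAlperin.eq_inner_of_autGroup_pGroup hS F hF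
  intro P hP
  haveI : Finite P := FSSat.finite_of_le hP
  have hcard : Nat.card (F.autGroup P) ≠ 0 := Nat.card_pos.ne'
  apply IsPGroup.of_card (n := (Nat.card (F.autGroup P)).primeFactorsList.length)
  apply Nat.eq_prime_pow_of_unique_prime_dvd hcard
  intro q hq hdvd
  by_contra hqp
  haveI : Fact q.Prime := ⟨hq⟩
  obtain ⟨x, hx⟩ := exists_prime_orderOf_dvd_card' q hdvd
  exact hcon ⟨P, hP, (x : MulAut P), q, x.2, hq, hqp, (Subgroup.orderOf_coe x).trans hx⟩

/-- An automorphism of order prime to `p` of a `p`-group that fixes all its commutators is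
trivial. -/
theorem aut_eq_one_of_fix_comm (p : ℕ) [Fact p.Prime] (hS : IsPGroup p S) (α : MulAut S)
    (q : ℕ) (hq : q.Prime) (hqp : q ≠ p) (hα : α ^ q = 1)
    (hfix : ∀ x : S, α (x⁻¹ * α x) = x⁻¹ * α x) : α = 1 := by
  have hp : p.Prime := Fact.out
  ext x
  obtain ⟨c, hc⟩ : ∃ c : S, c = x⁻¹ * α x := ⟨_, rfl⟩
  have hαx : α x = x * c := by rw [hc]; group
  have hαc : α c = c := by rw [hc]; exact hfix x
  have hpow : ∀ n : ℕ, (α ^ n) x = x * c ^ n := by
    intro n
    induction n with
    | zero => simp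
    | succ n ih =>
      rw [pow_succ', MulAut.mul_apply, ih, map_mul, map_pow, hαc, hαx, pow_succ', mul_assoc]
  have h1 : c ^ q = 1 := by
    have h2 := hpow q
    rw [hα, MulAut.one_apply] at h2
    exact (mul_eq_left.mp h2.symm)
  obtain ⟨k, hk⟩ := hS c
  have h3 : orderOf c = 1 :=
    Nat.eq_one_of_dvd_coprimes (Nat.Coprime.pow_right k ((Nat.coprime_primes hq hp).mpr hqp))
      (orderOf_dvd_of_pow_eq_one h1) (orderOf_dvd_of_pow_eq_one hk)
  rw [orderOf_eq_one_iff] at h3
  rw [hαx, h3, mul_one]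
  rfl

/-- The commutator `[S, ⟨α⟩]`, as a subgroup of `Ω`. -/
def commS (α : MulAut S) : Subgroup Ω :=
  (Subgroup.closure {y : S | ∃ (x : S) (i : ℕ), y = x⁻¹ * (α ^ i) x}).map S.subtype

theorem commS_le (α : MulAut S) : commS α ≤ S := by
  rintro _ ⟨y, -, rfl⟩
  exact y.2

theorem commS_invariant (α : MulAut S) (x : S) (hx : (x : Ω) ∈ commS α) :
    ((α x : S) : Ω) ∈ commS α := by
  obtain ⟨y, hy, hyx⟩ := hx
  have e : y = x := Subtype.ext hyx
  subst e
  clear hyx
  refine ⟨α y, ?_, rfl⟩
  induction hy using Subgroup.closure_induction with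
  | mem z hz =>
    obtain ⟨x, i, rfl⟩ := hz
    apply Subgroup.subset_closure
    refine ⟨α x, i, ?_⟩
    rw [map_mul, map_inv]
    congr 1
    rw [← MulAut.mul_apply, ← MulAut.mul_apply, ← pow_succ', ← pow_succ]
  | one => rw [map_one]; exact Subgroup.one_mem _
  | mul a b _ _ ha hb => rw [map_mul]; exact Subgroup.mul_mem _ ha hb
  | inv a _ ha => rw [map_inv]; exact Subgroup.inv_mem _ ha

theorem gen_mem_commS (α : MulAut S) (x : S) (i : ℕ) :
    (x : Ω)⁻¹ * ((α ^ i) x : S) ∈ commS α :=
  ⟨x⁻¹ * (α ^ i) x, Subgroup.subset_closure ⟨x, i, rfl⟩, rfl⟩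

/-- The conclusion, when the automorphism of prime order lives on `S` itself. -/
theorem core [Finite S] (p : ℕ) [Fact p.Prime] (hS : IsPGroup p S) (F : FusionSystem S)
    (hsp : ∀ (T : Subgroup Ω) (E : FusionSystem T), E.IsSaturated p → E.IsSubsystemOf F →
      (T = S ∧ ∀ P : Subgroup Ω, E.Hom P = F.Hom P) ∨
        (∀ P : Subgroup Ω, E.Hom P = (innerFusionSystem T).Hom P))
    (α : MulAut S) (q : ℕ) (hq : q.Prime) (hqp : q ≠ p) (hαq : orderOf α = q)
    (hEF : ∀ R : Subgroup Ω,
      (AutSys.autSys ((MulAut.conj : S →* MulAut S).range ⊔ Subgroup.zpowers α) le_sup_left).Hom R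
        = F.Hom R) :
    F.IsNormal S ∧ F.focalSubgroup = S ∧ F.hyperfocalSubgroup p = S ∧
      α ∈ F.autGroup S ∧
      (F.autGroup S : Subgroup (MulAut S)) =
        (MulAut.conj : S →* MulAut S).range ⊔ Subgroup.zpowers α := by
  have hp : p.Prime := Fact.out
  set K : Subgroup (MulAut S) := (MulAut.conj : S →* MulAut S).range ⊔ Subgroup.zpowers α with hKdef
  have hK : (MulAut.conj : S →* MulAut S).range ≤ K := le_sup_left
  have hautK : F.autGroup S = K := by
    rw [← AutSys.autGroup_autSys_self K hK]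
    unfold FusionSystem.autGroup
    rw [hEF S]
  have hαF : α ∈ F.autGroup S := by
    rw [hautK]
    exact Subgroup.mem_sup_right (Subgroup.mem_zpowers α)
  have hnorm : F.IsNormal S := by
    obtain ⟨h1, h2⟩ := AutSys.autSys_isNormal K hK
    refine ⟨h1, fun R φ hφ => ?_⟩
    obtain ⟨ψ, hψ, h3, h4⟩ := h2 R φ (by rw [hEF R]; exact hφ)
    exact ⟨ψ, by rw [← hEF]; exact hψ, h3, h4⟩
  -- the commutator subgroup
  have hHS : commS α ≤ S := commS_le α
  haveI : Finite (commS α) := FSSat.finite_of_le hHS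
  have hαq1 : α ^ q = 1 := by rw [← hαq]; exact pow_orderOf_eq_one α
  have hHeq : commS α = S := by
    have hfF : (S.subtype.comp α.toMonoidHom).comp (Subgroup.inclusion hHS) ∈ F.Hom (commS α) :=
      FSBasic.restrict_mem F (FSBasic.autGroup_hom F le_rfl hαF) hHS
    have hfv : ∀ x : commS α,
        ((S.subtype.comp α.toMonoidHom).comp (Subgroup.inclusion hHS)) x ∈ commS α :=
      fun x => commS_invariant α ⟨x, hHS x.2⟩ x.2
    have hfr := FSBase.range_eq_of_finite F hfF hfv
    set αH : MulAut (commS α) := FSBasic.autOfMap _ (F.injective_of_mem hfF) hfr with hαH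
    have hαHF : αH ∈ F.autGroup (commS α) := FSBasic.autOfMap_mem F hfF hfr
    have hrel : ∀ x : commS α, ((αH x : commS α) : Ω) = ((α ⟨x, hHS x.2⟩ : S) : Ω) :=
      fun x => rfl
    have hαHq : αH ^ q = 1 := by
      ext x
      rw [AutSys.rel_pow hHS hrel q x, hαq1]
      rfl
    set K' : Subgroup (MulAut (commS α)) :=
      (MulAut.conj : commS α →* MulAut (commS α)).range ⊔ Subgroup.zpowers αH with hK'def
    have hK' : (MulAut.conj : commS α →* MulAut (commS α)).range ≤ K' := le_sup_left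
    have hK'F : K' ≤ F.autGroup (commS α) := by
      apply sup_le
      · rintro _ ⟨x, rfl⟩
        rw [FSBasic.mem_autGroup_iff F hHS]
        exact FSBasic.mem_of_eq F (F.conj_mem hHS (hHS x.2)) (fun y => rfl)
      · rw [Subgroup.zpowers_le]
        exact hαHF
    have hidx : ((MulAut.conj : commS α →* MulAut (commS α)).range.relIndex K').Coprime p := by
      have h1 : (MulAut.conj : commS α →* MulAut (commS α)).range.relIndex K' ∣
          Nat.card (Subgroup.zpowers αH) := AutSys.relIndex_sup_dvd (Subgroup.zpowers αH)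
      rw [Nat.card_zpowers] at h1
      have h2 : orderOf αH ∣ q := orderOf_dvd_of_pow_eq_one hαHq
      exact Nat.Coprime.coprime_dvd_left (h1.trans h2) ((Nat.coprime_primes hq hp).mpr hqp)
    have hsat := AutSys.autSys_isSaturated p (hS.to_le hHS) K' hK' hidx
    have hsub := AutSys.autSys_isSubsystemOf F hHS K' hK' hK'F
    rcases hsp (commS α) (AutSys.autSys K' hK') hsat hsub with ⟨h, -⟩ | hin
    · exact h
    · exfalso
      have h1 : αH ∈ (AutSys.autSys K' hK').autGroup (commS α) := by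
        rw [AutSys.autGroup_autSys_self]
        exact Subgroup.mem_sup_right (Subgroup.mem_zpowers αH)
      have h2 : (AutSys.autSys K' hK').autGroup (commS α) =
          (innerFusionSystem (commS α)).autGroup (commS α) := by
        unfold FusionSystem.autGroup
        rw [hin (commS α)]
      rw [h2, InnerSat.autGroup_inner le_rfl] at h1
      have h3 : IsPGroup p (autInducedBy (commS α) (commS α)) :=
        FSBasic.isPGroup_autInducedBy (hS.to_le hHS) _
      obtain ⟨k, hk⟩ := h3 ⟨αH, h1⟩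
      have hk' : αH ^ p ^ k = 1 := congrArg Subtype.val hk
      have h4 : orderOf αH = 1 :=
        Nat.eq_one_of_dvd_coprimes (Nat.Coprime.pow_right k ((Nat.coprime_primes hq hp).mpr hqp))
          (orderOf_dvd_of_pow_eq_one hαHq) (orderOf_dvd_of_pow_eq_one hk')
      rw [orderOf_eq_one_iff] at h4
      have hfix : ∀ x : S, α (x⁻¹ * α x) = x⁻¹ * α x := by
        intro x
        have hmem : ((x⁻¹ * α x : S) : Ω) ∈ commS α := by
          have := gen_mem_commS α x 1
          rw [pow_one] at this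
          exact this
        have h5 := hrel ⟨_, hmem⟩
        rw [h4] at h5
        exact Subtype.ext h5.symm
      have h6 := aut_eq_one_of_fix_comm p hS α q hq hqp hαq1 hfix
      rw [h6, orderOf_one] at hαq
      exact hq.one_lt.ne' hαq.symm
  refine ⟨hnorm, ?_, ?_, hαF, hautK⟩
  · apply le_antisymm
    · unfold FusionSystem.focalSubgroup
      rw [Subgroup.closure_le]
      rintro _ ⟨P, φ, x, hφ, rfl⟩
      exact S.mul_mem (S.inv_mem (FSBasic.dom_le F hφ x.2)) (FSBasic.map_mem F hφ x)
    · intro y0 hy0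
      have hy0' : y0 ∈ commS α := by rw [hHeq]; exact hy0
      obtain ⟨y, hy, rfl⟩ := hy0'
      have hle : Subgroup.closure {y : S | ∃ (x : S) (i : ℕ), y = x⁻¹ * (α ^ i) x} ≤
          (F.focalSubgroup).comap S.subtype := by
        rw [Subgroup.closure_le]
        rintro _ ⟨x, i, rfl⟩
        apply Subgroup.subset_closure
        exact ⟨S, S.subtype.comp (α ^ i).toMonoidHom, x,
          FSBasic.autGroup_hom F le_rfl (Subgroup.pow_mem _ hαF i), rfl⟩
      exact hle hy
  · apply le_antisymm (FSHyp.hyperfocal_le F p)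
    intro y0 hy0
    have hy0' : y0 ∈ commS α := by rw [hHeq]; exact hy0
    obtain ⟨y, hy, rfl⟩ := hy0'
    have hle : Subgroup.closure {y : S | ∃ (x : S) (i : ℕ), y = x⁻¹ * (α ^ i) x} ≤
        (F.hyperfocalSubgroup p).comap S.subtype := by
      rw [Subgroup.closure_le]
      rintro _ ⟨x, i, rfl⟩
      have hres : (⟨α, hαF⟩ : F.autGroup S) ^ i ∈ pResidual p (F.autGroup S) := by
        apply Subgroup.pow_mem
        apply Subgroup.subset_closure
        show Nat.Coprime (orderOf (⟨α, hαF⟩ : F.autGroup S)) p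
        rw [Subgroup.orderOf_mk, hαq]
        exact (Nat.coprime_primes hq hp).mpr hqp
      exact FSHyp.gen_mem F p le_rfl _ hres x
    exact hle hy

end Aux

/-- Let F be an extremely sparse fusion system over a finite p-group S (saturated, not the inner system, and every saturated fusion system over any subgroup T of S contained in F is F itself or the inner system of T). Then S is normal in F, the focal and hyperfocal subgroups of F are both S, and Aut_F(S) is generated by the inner automorphisms of S together with a single automorphism of prime order q ≠ p (F is the fusion system of the semidirect product of S by a cyclic group of prime order). -/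
theorem result {Ω : Type*} [Group Ω] {S : Subgroup Ω} [Finite S] (p : ℕ) [Fact p.Prime] (hS : IsPGroup p S) (F : Cfsg.FusionSystem S) (hF : F.IsSaturated p) (hxs : ¬ (∀ P : Subgroup Ω, F.Hom P = (Cfsg.innerFusionSystem S).Hom P) ∧ ∀ (T : Subgroup Ω) (E : Cfsg.FusionSystem T), E.IsSaturated p → E.IsSubsystemOf F → (T = S ∧ ∀ P : Subgroup Ω, E.Hom P = F.Hom P) ∨ (∀ P : Subgroup Ω, E.Hom P = (Cfsg.innerFusionSystem T).Hom P)) : F.IsNormal S ∧ F.focalSubgroup = S ∧ F.hyperfocalSubgroup p = S ∧ ∃ (q : ℕ) (β : MulAut ↥S), q.Prime ∧ q ≠ p ∧ β ∈ F.autGroup S ∧ orderOf β = q ∧ (F.autGroup S : Subgroup (MulAut ↥S)) = Cfsg.Inn ↥S ⊔ Subgroup.zpowers β := by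
  have hp : p.Prime := Fact.out
  obtain ⟨P, hP, α, q, hαF, hq, hqp, hαq⟩ := Cfsg.Agent.S5245.exists_prime_aut p hS F hF hxs.1
  haveI : Finite P := Cfsg.Agent.Lib.Helper87.FSSat.finite_of_le hP
  have hK : (MulAut.conj : P →* MulAut P).range ≤
      (MulAut.conj : P →* MulAut P).range ⊔ Subgroup.zpowers α := le_sup_left
  have hKF : (MulAut.conj : P →* MulAut P).range ⊔ Subgroup.zpowers α ≤ F.autGroup P := by
    apply sup_le
    · rintro _ ⟨x, rfl⟩
      rw [Cfsg.Agent.Lib.Helper87.FSBasic.mem_autGroup_iff F hP]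
      exact Cfsg.Agent.Lib.Helper87.FSBasic.mem_of_eq F (F.conj_mem hP (hP x.2)) (fun y => rfl)
    · rw [Subgroup.zpowers_le]
      exact hαF
  have hidx : ((MulAut.conj : P →* MulAut P).range.relIndex
      ((MulAut.conj : P →* MulAut P).range ⊔ Subgroup.zpowers α)).Coprime p := by
    have h1 : (MulAut.conj : P →* MulAut P).range.relIndex
        ((MulAut.conj : P →* MulAut P).range ⊔ Subgroup.zpowers α) ∣
        Nat.card (Subgroup.zpowers α) :=
      Cfsg.Agent.Lib.Helper88.AutSys.relIndex_sup_dvd (Subgroup.zpowers α)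
    rw [Nat.card_zpowers, hαq] at h1
    exact Nat.Coprime.coprime_dvd_left h1 ((Nat.coprime_primes hq hp).mpr hqp)
  have hsat := Cfsg.Agent.Lib.Helper88.AutSys.autSys_isSaturated p (hS.to_le hP) _ hK hidx
  have hsub := Cfsg.Agent.Lib.Helper88.AutSys.autSys_isSubsystemOf F hP _ hK hKF
  rcases hxs.2 P _ hsat hsub with ⟨hPS, hEF⟩ | hin
  · subst hPS
    obtain ⟨h1, h2, h3, h4, h5⟩ :=
      Cfsg.Agent.S5245.core p hS F hxs.2 α q hq hqp hαq hEF
    exact ⟨h1, h2, h3, q, α, hq, hqp, h4, hαq, h5⟩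
  · exfalso
    have h1 : α ∈ (Cfsg.Agent.Lib.Helper88.AutSys.autSys
        ((MulAut.conj : P →* MulAut P).range ⊔ Subgroup.zpowers α) hK).autGroup P := by
      rw [Cfsg.Agent.Lib.Helper88.AutSys.autGroup_autSys_self]
      exact Subgroup.mem_sup_right (Subgroup.mem_zpowers α)
    have h2 : (Cfsg.Agent.Lib.Helper88.AutSys.autSys
        ((MulAut.conj : P →* MulAut P).range ⊔ Subgroup.zpowers α) hK).autGroup P =
        (Cfsg.innerFusionSystem P).autGroup P := by
      unfold Cfsg.FusionSystem.autGroup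
      rw [hin P]
    rw [h2, Cfsg.Agent.Lib.Helper88.InnerSat.autGroup_inner le_rfl] at h1
    have h3 : IsPGroup p (Cfsg.autInducedBy P P) :=
      Cfsg.Agent.Lib.Helper87.FSBasic.isPGroup_autInducedBy (hS.to_le hP) _
    obtain ⟨k, hk⟩ := h3 ⟨α, h1⟩
    have hk' : α ^ p ^ k = 1 := congrArg Subtype.val hk
    have h4 : q ∣ p ^ k := by
      rw [← hαq]
      exact orderOf_dvd_of_pow_eq_one hk'
    exact hqp ((Nat.prime_dvd_prime_iff_eq hq hp).mp (hq.dvd_of_dvd_pow h4))

end Cfsg.Agent.S5245
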