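import Cfsg.Statements.S5247
import Cfsg.Agent.Lib.Helper87.FSBasic
import Cfsg.Agent.Lib.Helper87.FSSat
import Cfsg.Agent.Lib.Helper88.FSBase
import Cfsg.Agent.Lib.Helper47.Syl
import Cfsg.Agent.S5077
import Cfsg.Agent.S5096
-- import your own Cfsg.Agent.* helpers here

set_option autoImplicit false
open Cfsg

namespace Cfsg.Agent.S5247

section Aux

open Cfsg Cfsg.FusionSystem

/-- A quadratically acting automorphism of a finite group has order dividing the group order. -/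
theorem quad_pow {Q : Type*} [Group Q] [Finite Q] (χ : MulAut Q)
    (h : ∀ a : Q, (χ a⁻¹) * a * (χ a⁻¹) * (χ (χ a)) = 1) : χ ^ (Nat.card Q) = 1 := by
  have h2 : ∀ a : Q, χ (χ a) = χ a * a⁻¹ * χ a := by
    intro a
    have h1 := h a
    rw [map_inv] at h1
    have h3 : χ (χ a) = ((χ a)⁻¹ * a * (χ a)⁻¹)⁻¹ := eq_inv_of_mul_eq_one_right h1
    rw [h3]
    group
  have hfix : ∀ a : Q, χ (a * (χ a)⁻¹) = a * (χ a)⁻¹ := by
    intro a
    rw [map_mul, map_inv, h2]
    group
  have hpow : ∀ (k : ℕ) (a : Q), (χ ^ k) a = ((a * (χ a)⁻¹)⁻¹) ^ k * a := by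
    intro k
    induction k with
    | zero => intro a; simp
    | succ k ih =>
      intro a
      rw [pow_succ', MulAut.mul_apply, ih, map_mul, map_pow, map_inv, hfix, pow_succ]
      have : χ a = (a * (χ a)⁻¹)⁻¹ * a := by group
      nth_rewrite 3 [this]
      group
  ext a
  rw [hpow, pow_card_eq_one', one_mul, MulAut.one_apply]

/-- Automorphisms of a cyclic group commute. -/
theorem aut_comm_of_cyclic {Q : Type*} [Group Q] [IsCyclic Q] (α β : MulAut Q) :
    α * β = β * α := by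
  apply (IsCyclic.mulAutMulEquiv (G := Q)).injective
  rw [map_mul, map_mul, mul_comm]

variable {Ω : Type*} [Group Ω] {S : Subgroup Ω}

/-- p-stability passes to any subgroup of automorphisms of a (not necessarily fully normalized)
subgroup. -/
theorem stable_sub [Finite S] (p : ℕ) [Fact p.Prime] (F : FusionSystem S)
    (hst : ∀ Q : Subgroup Ω, F.IsFullyNormalized Q → ∀ χ : MulAut ↥Q, χ ∈ F.autGroup Q →
      (∀ a : ↥Q, (χ a⁻¹) * a * (χ a⁻¹) * (χ (χ a)) = 1) →
      χ ∈ ((Cfsg.pCore p ↥(F.autGroup Q)).map (F.autGroup Q).subtype : Subgroup (MulAut ↥Q)))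
    {Q : Subgroup Ω} (hQ : Q ≤ S) (A : Subgroup (MulAut Q)) (hA : A ≤ F.autGroup Q)
    (χ : MulAut Q) (hχ : χ ∈ A) (hquad : ∀ a : ↥Q, (χ a⁻¹) * a * (χ a⁻¹) * (χ (χ a)) = 1) :
    χ ∈ ((Cfsg.pCore p ↥A).map A.subtype : Subgroup (MulAut ↥Q)) := by
  obtain ⟨Q', ⟨φ, hφ, rfl⟩, hfn⟩ := Cfsg.Agent.S5077.exists_fullyNormalized F hQ
  set e := MonoidHom.ofInjective (F.injective_of_mem hφ) with he
  have hχ' : MulAut.congr e χ ∈ F.autGroup φ.range :=
    Cfsg.Agent.Lib.Helper87.FSSat.congr_mem_autGroup F hφ (hA hχ)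
  have hquad' : ∀ a : ↥φ.range, (MulAut.congr e χ a⁻¹) * a * (MulAut.congr e χ a⁻¹) *
      (MulAut.congr e χ (MulAut.congr e χ a)) = 1 := by
    intro a
    have h1 : ∀ y : ↥φ.range, MulAut.congr e χ y = e (χ (e.symm y)) := fun y => rfl
    rw [h1, h1, h1, MulEquiv.symm_apply_apply]
    have h2 : a = e (e.symm a) := (MulEquiv.apply_symm_apply e a).symm
    nth_rewrite 2 [h2]
    rw [← map_mul, ← map_mul, ← map_mul, map_inv, hquad, map_one]
  have hmem := hst _ hfn _ hχ' hquad'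
  have hOp : IsPGroup p (Cfsg.pCoreOf p (F.autGroup φ.range)) :=
    Cfsg.Agent.Lib.Helper47.Syl.pCoreOf_isPGroup p _
  have hOn := Cfsg.Agent.Lib.Helper47.Syl.le_normalizer_pCoreOf p (F.autGroup φ.range)
  set O : Subgroup (MulAut Q) :=
    (Cfsg.pCoreOf p (F.autGroup φ.range)).comap (MulAut.congr e).toMonoidHom with hO
  have hOpg : IsPGroup p O := hOp.comap_of_injective _ (MulAut.congr e).injective
  have hχO : χ ∈ O := hmem
  have hnorm : A ≤ Subgroup.normalizer ((O ⊓ A : Subgroup (MulAut Q)) : Set (MulAut Q)) := by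
    intro α hα
    rw [Subgroup.mem_normalizer_iff]
    intro n
    have hα' : MulAut.congr e α ∈ F.autGroup φ.range :=
      Cfsg.Agent.Lib.Helper87.FSSat.congr_mem_autGroup F hφ (hA hα)
    have h1 := Subgroup.mem_normalizer_iff.mp (hOn hα') (MulAut.congr e n)
    constructor
    · rintro ⟨hn1, hn2⟩
      refine ⟨?_, A.mul_mem (A.mul_mem hα hn2) (A.inv_mem hα)⟩
      show MulAut.congr e (α * n * α⁻¹) ∈ Cfsg.pCoreOf p (F.autGroup φ.range)
      rw [map_mul, map_mul, map_inv]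
      exact h1.mp hn1
    · rintro ⟨hn1, hn2⟩
      refine ⟨?_, ?_⟩
      · have h3 : MulAut.congr e (α * n * α⁻¹) ∈ Cfsg.pCoreOf p (F.autGroup φ.range) := hn1
        rw [map_mul, map_mul, map_inv] at h3
        exact h1.mpr h3
      · have h4 := A.mul_mem (A.mul_mem (A.inv_mem hα) hn2) hα
        have h5 : α⁻¹ * (α * n * α⁻¹) * α = n := by group
        rwa [h5] at h4
  have hle := Cfsg.Agent.Lib.Helper47.Syl.le_pCoreOf (p := p) (L := A) (N := O ⊓ A) inf_le_right
    hnorm (hOpg.to_le inf_le_left)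
  exact hle ⟨hχO, hχ⟩

/-- Maps of a normalizer system with source `Q` out of `Q` itself have range `Q`. -/
theorem normalizerHom_range (F : FusionSystem S) {Q : Subgroup Ω} {φ : Q →* Ω}
    (h : φ ∈ F.normalizerHom Q Q) : φ.range = Q := by
  obtain ⟨-, -, -, ψ, -, hψ1, hψ2⟩ := h
  ext y
  constructor
  · rintro ⟨x, rfl⟩
    have h1 : ψ (Subgroup.inclusion le_sup_left x) ∈ (Q.subgroupOf (Q ⊔ Q)).map ψ :=
      ⟨_, Subgroup.mem_subgroupOf.mpr x.2, rfl⟩
    rw [hψ2, hψ1] at h1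
    exact h1
  · intro hy
    have hy' : y ∈ (Q.subgroupOf (Q ⊔ Q)).map ψ := by rw [hψ2]; exact hy
    obtain ⟨z, hz, rfl⟩ := hy'
    have hz' : (z : Ω) ∈ Q := Subgroup.mem_subgroupOf.mp hz
    exact ⟨⟨z, hz'⟩, by rw [← hψ1]; rfl⟩

/-- The automorphism group of `Q` in its own normalizer system is `Aut_F(Q)`. -/
theorem autGroup_normalizer (F : FusionSystem S) {Q : Subgroup Ω} (hQ : Q ≤ S)
    (N : FusionSystem (normalizerIn S Q)) (hN : F.IsNormalizerSystem Q N) :
    N.autGroup Q = F.autGroup Q := by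
  apply le_antisymm
  · apply Subgroup.closure_mono
    intro α hα
    have : Q.subtype.comp α.toMonoidHom ∈ F.normalizerHom Q Q := by rw [← hN Q]; exact hα
    exact this.1
  · apply Subgroup.closure_mono
    intro α hα
    show Q.subtype.comp α.toMonoidHom ∈ N.Hom Q
    rw [hN Q]
    have hQN : Q ≤ normalizerIn S Q := le_inf hQ Subgroup.le_normalizer
    obtain ⟨ψ, hψ, hψx⟩ := Cfsg.Agent.Lib.Helper88.FSBase.transport_mem F
      (sup_idem Q).symm hα
    refine ⟨hα, hQN, fun x => hQN (α x).2, ψ, hψ, fun x => ?_, ?_⟩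
    · exact hψx x x.2 _
    · ext y
      constructor
      · rintro ⟨z, hz, rfl⟩
        have hz' : (z : Ω) ∈ Q := Subgroup.mem_subgroupOf.mp hz
        have := hψx z hz' z.2
        rw [show z = ⟨(z : Ω), z.2⟩ from rfl, this]
        exact (α ⟨z, hz'⟩).2
      · intro hy
        refine ⟨⟨(α.symm ⟨y, hy⟩ : Q), Subgroup.mem_sup_left (α.symm ⟨y, hy⟩).2⟩,
          Subgroup.mem_subgroupOf.mpr (α.symm ⟨y, hy⟩).2, ?_⟩
        rw [hψx _ (α.symm ⟨y, hy⟩).2 _]
        show ((α (α.symm ⟨y, hy⟩) : Q) : Ω) = y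
        rw [MulEquiv.apply_symm_apply]

end Aux

/-- Let p be an odd prime and F a saturated fusion system over a finite p-group S. Call a fusion system E (over any subgroup) p-stable when, for every fully E-normalized subgroup Q and every χ ∈ Aut_E(Q) with χ(a⁻¹)·a·χ(a⁻¹)·χ(χ(a)) = 1 for all a ∈ Q (χ acts quadratically), χ lies in O_p(Aut_E(Q)). Then F is p-stable if and only if every normalizer fusion system N_F(R) of every non-cyclic fully F-normalized subgroup R of S is p-stable. -/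
theorem result {Ω : Type*} [Group Ω] {S : Subgroup Ω} [Finite S] (p : ℕ) [Fact p.Prime] (hS : IsPGroup p S) (F : Cfsg.FusionSystem S) (hF : F.IsSaturated p) (hp : p ≠ 2) : (∀ Q : Subgroup Ω, F.IsFullyNormalized Q → ∀ χ : MulAut ↥Q, χ ∈ F.autGroup Q → (∀ a : ↥Q, (χ a⁻¹) * a * (χ a⁻¹) * (χ (χ a)) = 1) → χ ∈ ((Cfsg.pCore p ↥(F.autGroup Q)).map (F.autGroup Q).subtype : Subgroup (MulAut ↥Q))) ↔ ∀ R : Subgroup Ω, F.IsFullyNormalized R → ¬ IsCyclic ↥R → ∀ N : Cfsg.FusionSystem (Cfsg.FusionSystem.normalizerIn S R), F.IsNormalizerSystem R N → (∀ Q : Subgroup Ω, N.IsFullyNormalized Q → ∀ χ : MulAut ↥Q, χ ∈ N.autGroup Q → (∀ a : ↥Q, (χ a⁻¹) * a * (χ a⁻¹) * (χ (χ a)) = 1) → χ ∈ ((Cfsg.pCore p ↥(N.autGroup Q)).map (N.autGroup Q).subtype : Subgroup (MulAut ↥Q))) := by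
  constructor
  · intro hst R hR hnc N hN Q hQ χ hχ hquad
    have hQS : Q ≤ S := hQ.1.trans inf_le_left
    have hle : N.autGroup Q ≤ F.autGroup Q := by
      apply Subgroup.closure_mono
      intro α hα
      have : Q.subtype.comp α.toMonoidHom ∈ F.normalizerHom R Q := by rw [← hN Q]; exact hα
      exact this.1
    exact Cfsg.Agent.S5247.stable_sub p F hst hQS (N.autGroup Q) hle χ hχ hquad
  · intro h Q hQ χ hχ hquad
    have hQS : Q ≤ S := hQ.1
    haveI : Finite Q := Cfsg.Agent.Lib.Helper87.FSSat.finite_of_le hQS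
    by_cases hcyc : IsCyclic ↥Q
    · -- cyclic case
      have hpow := Cfsg.Agent.S5247.quad_pow χ hquad
      have hQp : IsPGroup p Q := hS.to_le hQS
      obtain ⟨n, hn⟩ := IsPGroup.iff_card.mp hQp
      rw [hn] at hpow
      have hzp : IsPGroup p (Subgroup.zpowers χ) := by
        rw [IsPGroup.iff_card, Nat.card_zpowers]
        exact (Nat.dvd_prime_pow (Fact.out : p.Prime)).mp (orderOf_dvd_of_pow_eq_one hpow) |>.imp
          fun k hk => hk.2
      have hzle : Subgroup.zpowers χ ≤ F.autGroup Q := by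
        rw [Subgroup.zpowers_le]; exact hχ
      have hnorm : F.autGroup Q ≤ Subgroup.normalizer ((Subgroup.zpowers χ : Subgroup (MulAut Q)) : Set (MulAut Q)) := by
        intro α _
        rw [Subgroup.mem_normalizer_iff]
        intro n
        have h1 : α * n * α⁻¹ = n := by
          rw [Cfsg.Agent.S5247.aut_comm_of_cyclic α n, mul_inv_cancel_right]
        rw [h1]
      exact Cfsg.Agent.Lib.Helper47.Syl.le_pCoreOf (p := p) hzle hnorm hzp (Subgroup.mem_zpowers χ)
    · obtain ⟨N, hN⟩ := Cfsg.Agent.S5096.result F Q hQS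
      have hQN : Q ≤ Cfsg.FusionSystem.normalizerIn S Q := le_inf hQS Subgroup.le_normalizer
      have hfn : N.IsFullyNormalized Q := by
        refine ⟨hQN, ?_⟩
        rintro Q' ⟨φ, hφ, rfl⟩
        have hφ' : φ ∈ F.normalizerHom Q Q := by rw [← hN Q]; exact hφ
        rw [Cfsg.Agent.S5247.normalizerHom_range F hφ']
      have haut := Cfsg.Agent.S5247.autGroup_normalizer F hQS N hN
      have hχ' : χ ∈ N.autGroup Q := by rw [haut]; exact hχ
      have hres := h Q hQ hcyc N hN Q hfn χ hχ' hquad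
      rw [haut] at hres
      exact hres

end Cfsg.Agent.S5247
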