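import Cfsg.Statements.S5251
import Mathlib
import Cfsg.Agent.Lib.Helper87.FSBasic
import Cfsg.Agent.Lib.Helper87.FSSat
import Cfsg.Agent.Lib.Helper87.FSLocal
import Cfsg.Agent.Lib.Helper87.ChainStab
import Cfsg.Agent.Lib.Helper87.FSNormal
import Cfsg.Agent.Lib.Helper87.FSMisc

set_option autoImplicit false
open Cfsg

namespace Cfsg.Agent.S5251

/-- Let F be a saturated fusion system over a finite p-group S, E a normal subsystem of F over T, and P an F-centric subgroup of S such that P ∩ T is not E-centric. Then some F-conjugate P* of P satisfies Out_S(P*) ∩ O_p(Out_F(P*)) ≠ 1: there is an element of N_S(P*) outside P* whose conjugation action on P* lies in O_p(Aut_F(P*)). In particular P is not both centric and radical in F. -/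
theorem result {Ω : Type*} [Group Ω] {S : Subgroup Ω} [Finite S] (p : ℕ) [Fact p.Prime] (hS : IsPGroup p S) (F : Cfsg.FusionSystem S) (hF : F.IsSaturated p) {T : Subgroup Ω} (E : Cfsg.FusionSystem T) (hE : E.IsNormalIn F p) (P : Subgroup Ω) (hP : F.IsCentric P) (hPT : ¬ E.IsCentric (P ⊓ T)) : (∃ φ ∈ F.Hom P, ∃ x ∈ S ⊓ Subgroup.normalizer (φ.range : Set Ω), x ∉ φ.range ∧ ∃ α ∈ ((Cfsg.pCore p ↥(F.autGroup φ.range)).map (F.autGroup φ.range).subtype : Subgroup (MulAut ↥φ.range)), ∀ y : ↥φ.range, ((α y : ↥φ.range) : Ω) = x * (y : Ω) * x⁻¹) ∧ ¬ F.IsRadical p P := by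
  open Cfsg.Agent.Lib.Helper87.FSBasic Cfsg.Agent.Lib.Helper87.FSSat
    Cfsg.Agent.Lib.Helper87.FSLocal Cfsg.Agent.Lib.Helper87.ChainStab
    Cfsg.Agent.Lib.Helper87.FSNormal Cfsg.Agent.Lib.Helper87.FSMisc in
  obtain ⟨⟨-, -, hsub, hT, -, -⟩, -⟩ := hE
  have hTS : T ≤ S := hT.1
  have hTn := le_normalizer_of_stronglyClosed F hT
  have hPS : P ≤ S := hP.1
  -- a conjugate of `P ⊓ T` in `E` whose centralizer in `T` is not inside it
  have hex : ∃ φ₀ ∈ E.Hom (P ⊓ T), ¬ Cfsg.FusionSystem.centralizerIn T φ₀.range ≤ φ₀.range := by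
    by_contra hcon
    apply hPT
    refine ⟨inf_le_right, ?_⟩
    rintro Q ⟨φ₀, hφ₀, rfl⟩
    by_contra h
    exact hcon ⟨φ₀, hφ₀, h⟩
  obtain ⟨φ₀, hφ₀E, hcent⟩ := hex
  have hφ₀ : φ₀ ∈ F.Hom (P ⊓ T) := hsub _ hφ₀E
  obtain ⟨c, hc, hcQ⟩ := SetLike.not_le_iff_exists.mp hcent
  obtain ⟨hcT, hcC⟩ := Subgroup.mem_inf.mp hc
  -- a fully automized receptive conjugate and the two extensions
  obtain ⟨ρ₁, hρ₁, hfa, hrec⟩ := exists_far F hF (inf_le_left.trans hPS : P ⊓ T ≤ S)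
  obtain ⟨χ, hχ, hχr, ψ, hψ, hψe⟩ := exists_extension_normalizer hS F hρ₁ hfa hrec
  obtain ⟨ρ', hρ', hρ'e, hρ'r⟩ := exists_comp_inv F hφ₀ hρ₁
  have hfa' : F.IsFullyAutomized p ρ'.range := by rw [hρ'r]; exact hfa
  have hrec' : F.IsReceptive ρ'.range := by rw [hρ'r]; exact hrec
  obtain ⟨χ', hχ', hχ'r, ψ', hψ', hψ'e⟩ := exists_extension_normalizer hS F hρ' hfa' hrec'
  -- every element of `ρ₁.range` is `ψ z` with `z ∈ P ⊓ T`, and `ψ' y` with `y ∈ φ₀.range`
  have hsurj : ∀ r ∈ ρ₁.range, ∃ (z : ↥(P ⊓ T)) (hz : (z : Ω) ∈ Cfsg.FusionSystem.normalizerIn S (P ⊓ T)),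
      ψ ⟨z, hz⟩ = r := by
    intro r hr
    rw [← hχr] at hr
    obtain ⟨w, rfl⟩ := hr
    obtain ⟨z, hz⟩ := w.2
    refine ⟨z, le_normalizerIn (inf_le_left.trans hPS) z.2, ?_⟩
    rw [hψe]
    congr 1
    exact Subtype.ext hz
  have hsurj' : ∀ r ∈ ρ₁.range, ∃ (y : ↥φ₀.range)
      (hy : (y : Ω) ∈ Cfsg.FusionSystem.normalizerIn S φ₀.range), ψ' ⟨y, hy⟩ = r := by
    intro r hr
    rw [← hρ'r, ← hχ'r] at hr
    obtain ⟨w, rfl⟩ := hr
    obtain ⟨y, hy⟩ := w.2
    refine ⟨y, le_normalizerIn (range_le F hφ₀) y.2, ?_⟩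
    rw [hψ'e]
    congr 1
    exact Subtype.ext hy
  have hmapR : ∀ (z : ↥(P ⊓ T)) (hz : (z : Ω) ∈ Cfsg.FusionSystem.normalizerIn S (P ⊓ T)),
      ψ ⟨z, hz⟩ ∈ ρ₁.range := by
    intro z hz
    rw [hψe]
    have h1 : χ ⟨ρ₁ z, ⟨z, rfl⟩⟩ ∈ χ.range := ⟨_, rfl⟩
    exact (SetLike.ext_iff.mp hχr _).mp h1
  -- the image of `c` centralizes `ρ₁.range` and lies in `T` but not in `ρ₁.range`
  have hcN : c ∈ Cfsg.FusionSystem.normalizerIn S φ₀.range :=
    Subgroup.mem_inf.mpr ⟨hTS hcT, Subgroup.centralizer_le_normalizer _ hcC⟩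
  have hc'T : ψ' ⟨c, hcN⟩ ∈ T := stronglyClosed_maps F hT hψ' ⟨c, hcN⟩ hcT
  have hc'C : ψ' ⟨c, hcN⟩ ∈ Subgroup.centralizer (ρ₁.range : Set Ω) := by
    rw [Subgroup.mem_centralizer_iff]
    intro r hr
    obtain ⟨y, hy, rfl⟩ := hsurj' r hr
    rw [← map_mul, ← map_mul]
    congr 1
    exact Subtype.ext ((Subgroup.mem_centralizer_iff.mp hcC) y y.2)
  have hc'R : ψ' ⟨c, hcN⟩ ∉ ρ₁.range := by
    intro h
    obtain ⟨y, hy, hye⟩ := hsurj' _ h
    have h1 := F.injective_of_mem hψ' hye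
    apply hcQ
    have h2 : (y : Ω) = c := congrArg (fun z : ↥(Cfsg.FusionSystem.normalizerIn S φ₀.range) => (z : Ω)) h1
    rw [← h2]
    exact y.2
  -- the conjugate of `P`
  have hPN : P ≤ Cfsg.FusionSystem.normalizerIn S (P ⊓ T) := by
    intro g hg
    refine Subgroup.mem_inf.mpr ⟨hPS hg, ?_⟩
    have h1 := Subgroup.mem_normalizer_iff.mp (Subgroup.le_normalizer hg)
    have h2 := Subgroup.mem_normalizer_iff.mp (hTn (hPS hg))
    rw [Subgroup.mem_normalizer_iff]
    intro x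
    rw [Subgroup.mem_inf, Subgroup.mem_inf, h1 x, h2 x]
  have hφ := restrict_mem F hψ hPN
  have hφR : ∀ z : P, (z : Ω) ∈ T → (ψ.comp (Subgroup.inclusion hPN)) z ∈ ρ₁.range := by
    intro z hz
    exact hmapR ⟨z, ⟨z.2, hz⟩⟩ _
  have hrS := range_le F hφ
  have hAS : T ⊓ Subgroup.centralizer (ρ₁.range : Set Ω) ≤ S := inf_le_left.trans hTS
  have hRn : (ψ.comp (Subgroup.inclusion hPN)).range ≤ Subgroup.normalizer (ρ₁.range : Set Ω) := by
    apply le_normalizer_of_conj_mem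
    rintro _ ⟨g, rfl⟩ r hr
    obtain ⟨z, hz, rfl⟩ := hsurj r hr
    have hg : (g : Ω) ∈ Cfsg.FusionSystem.normalizerIn S (P ⊓ T) := hPN g.2
    have hmem : (g : Ω) * z * (g : Ω)⁻¹ ∈ P ⊓ T :=
      ((Subgroup.mem_normalizer_iff.mp hg.2) z).mp z.2
    have e : (ψ.comp (Subgroup.inclusion hPN)) g * ψ ⟨z, hz⟩ *
        ((ψ.comp (Subgroup.inclusion hPN)) g)⁻¹ =
        ψ ⟨(⟨(g : Ω) * z * (g : Ω)⁻¹, hmem⟩ : ↥(P ⊓ T)),
          le_normalizerIn (inf_le_left.trans hPS) hmem⟩ := by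
      show ψ ⟨g, hg⟩ * ψ ⟨z, hz⟩ * (ψ ⟨g, hg⟩)⁻¹ = _
      rw [← map_inv, ← map_mul, ← map_mul]
      rfl
    rw [e]
    exact hmapR _ _
  have hAn : (ψ.comp (Subgroup.inclusion hPN)).range ≤
      Subgroup.normalizer ((T ⊓ Subgroup.centralizer (ρ₁.range : Set Ω) : Subgroup Ω) : Set Ω) := by
    apply le_normalizer_of_conj_mem
    intro y hy a ha
    exact conj_mem_inf_centralizer (hTn (hrS hy)) (hRn hy) ha
  have hnot : ¬ T ⊓ Subgroup.centralizer (ρ₁.range : Set Ω) ≤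
      (ψ.comp (Subgroup.inclusion hPN)).range := by
    intro hle
    obtain ⟨g, hg⟩ := hle (Subgroup.mem_inf.mpr ⟨hc'T, hc'C⟩)
    apply hc'R
    rw [← hg]
    apply hφR
    rw [stronglyClosed_mem_iff F hT hφ, hg]
    exact hc'T
  obtain ⟨x, hxA, hxN, hxP⟩ := exists_mem_normalizer_of_not_le hS hrS hAS hAn hnot
  obtain ⟨hxT, hxC⟩ := Subgroup.mem_inf.mp hxA
  have hxS : x ∈ S := hTS hxT
  -- `x` commutes with the images of the elements of `P ⊓ T`
  have hxcomm : ∀ z : P, (z : Ω) ∈ T →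
      x * (ψ.comp (Subgroup.inclusion hPN)) z * x⁻¹ = (ψ.comp (Subgroup.inclusion hPN)) z := by
    intro z hz
    have h1 := (Subgroup.mem_centralizer_iff.mp hxC) _ (hφR z hz)
    rw [← h1]
    group
  have hxTconj : ∀ y : Ω, y ∈ S → y⁻¹ * (x * y * x⁻¹) ∈ T := by
    intro y hy
    have h3 : y⁻¹ * x * y⁻¹⁻¹ ∈ T :=
      ((Subgroup.mem_normalizer_iff.mp (hTn (S.inv_mem hy))) x).mp hxT
    have h4 := T.mul_mem h3 (T.inv_mem hxT)
    have e : y⁻¹ * x * y⁻¹⁻¹ * x⁻¹ = y⁻¹ * (x * y * x⁻¹) := by group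
    rwa [e] at h4
  constructor
  · -- the conjugation by `x` lies in `O_p(Aut_F(P*))`
    refine ⟨_, hφ, x, Subgroup.mem_inf.mpr ⟨hxS, hxN⟩, hxP,
      (ψ.comp (Subgroup.inclusion hPN)).range.normalizerMonoidHom ⟨x, hxN⟩, ?_, fun y => rfl⟩
    have hfinY : Finite (ψ.comp (Subgroup.inclusion hPN)).range := finite_of_le hrS
    let D : ℕ → Subgroup (ψ.comp (Subgroup.inclusion hPN)).range := fun j =>
      match j with
      | 0 => ⊤
      | 1 => T.subgroupOf _
      | _ + 2 => ⊥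
    have hinv : ∀ β ∈ F.autGroup (ψ.comp (Subgroup.inclusion hPN)).range, ∀ j, ∀ y ∈ D j,
        β y ∈ D j := by
      intro β hβ j y hy
      match j with
      | 0 => trivial
      | 1 =>
        exact Subgroup.mem_subgroupOf.mpr
          (stronglyClosed_maps F hT (autGroup_hom F hrS hβ) y (Subgroup.mem_subgroupOf.mp hy))
      | k + 2 =>
        have hy' : y = 1 := Subgroup.mem_bot.mp hy
        rw [hy', map_one]
        exact Subgroup.mem_bot.mpr rfl
    have hB : IsPGroup p (chainStab (F.autGroup (ψ.comp (Subgroup.inclusion hPN)).range) D hinv) :=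
      chainStab_isPGroup (hS.to_le hrS) _ D hinv rfl 2 rfl
    have hmem : (ψ.comp (Subgroup.inclusion hPN)).range.normalizerMonoidHom ⟨x, hxN⟩ ∈
        chainStab (F.autGroup (ψ.comp (Subgroup.inclusion hPN)).range) D hinv := by
      refine ⟨autInducedBy_le_autGroup F hrS (conj_mem_autInducedBy hxS hxN), ?_⟩
      intro j y hy
      match j with
      | 0 =>
        exact Subgroup.mem_subgroupOf.mpr (hxTconj y (hrS y.2))
      | 1 =>
        have hyT : (y : Ω) ∈ T := Subgroup.mem_subgroupOf.mp hy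
        obtain ⟨z, hz⟩ := y.2
        have hzT : (z : Ω) ∈ T := by
          rw [stronglyClosed_mem_iff F hT hφ, hz]
          exact hyT
        apply Subgroup.mem_bot.mpr
        apply Subtype.ext
        show (y : Ω)⁻¹ * (x * y * x⁻¹) = 1
        rw [← hz, hxcomm z hzT]
        group
      | k + 2 =>
        have hy' : y = 1 := Subgroup.mem_bot.mp hy
        rw [hy']
        apply Subgroup.mem_bot.mpr
        simp
    exact le_pCore_map _ _ (chainStab_le _ _ _) (chainStab_normal _ _ _) hB hmem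
  · -- `P` is not radical
    rintro ⟨-, hrad⟩
    have hfinP : Finite P := finite_of_le hPS
    let D : ℕ → Subgroup P := fun j =>
      match j with
      | 0 => ⊤
      | 1 => T.subgroupOf P
      | _ + 2 => ⊥
    have hinv : ∀ β ∈ F.autGroup P, ∀ j, ∀ y ∈ D j, β y ∈ D j := by
      intro β hβ j y hy
      match j with
      | 0 => trivial
      | 1 =>
        exact Subgroup.mem_subgroupOf.mpr
          (stronglyClosed_maps F hT (autGroup_hom F hPS hβ) y (Subgroup.mem_subgroupOf.mp hy))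
      | k + 2 =>
        have hy' : y = 1 := Subgroup.mem_bot.mp hy
        rw [hy', map_one]
        exact Subgroup.mem_bot.mpr rfl
    have hB : IsPGroup p (chainStab (F.autGroup P) D hinv) :=
      chainStab_isPGroup (hS.to_le hPS) _ D hinv rfl 2 rfl
    have hαmem : (ψ.comp (Subgroup.inclusion hPN)).range.normalizerMonoidHom ⟨x, hxN⟩ ∈
        F.autGroup (ψ.comp (Subgroup.inclusion hPN)).range :=
      autInducedBy_le_autGroup F hrS (conj_mem_autInducedBy hxS hxN)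
    have hβmem := congr_symm_mem_autGroup F hφ hαmem
    have hβval := congr_symm_apply F hφ
      ((ψ.comp (Subgroup.inclusion hPN)).range.normalizerMonoidHom ⟨x, hxN⟩)
    have hβval' : ∀ z : P, (ψ.comp (Subgroup.inclusion hPN))
        ((MulAut.congr (MonoidHom.ofInjective (F.injective_of_mem hφ))).symm
          ((ψ.comp (Subgroup.inclusion hPN)).range.normalizerMonoidHom ⟨x, hxN⟩) z) =
        x * (ψ.comp (Subgroup.inclusion hPN)) z * x⁻¹ := fun z => hβval z
    have hmem : (MulAut.congr (MonoidHom.ofInjective (F.injective_of_mem hφ))).symm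
        ((ψ.comp (Subgroup.inclusion hPN)).range.normalizerMonoidHom ⟨x, hxN⟩) ∈
        chainStab (F.autGroup P) D hinv := by
      refine ⟨hβmem, ?_⟩
      intro j y hy
      match j with
      | 0 =>
        apply Subgroup.mem_subgroupOf.mpr
        rw [stronglyClosed_mem_iff F hT hφ, map_mul, map_inv, hβval']
        exact hxTconj _ (hrS ⟨y, rfl⟩)
      | 1 =>
        have hyT : (y : Ω) ∈ T := Subgroup.mem_subgroupOf.mp hy
        apply Subgroup.mem_bot.mpr
        apply F.injective_of_mem hφ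
        rw [map_mul, map_inv, hβval', hxcomm y hyT, map_one]
        group
      | k + 2 =>
        have hy' : y = 1 := Subgroup.mem_bot.mp hy
        rw [hy']
        apply Subgroup.mem_bot.mpr
        simp
    have hInn := le_pCore_map _ _ (chainStab_le _ _ _) (chainStab_normal _ _ _) hB hmem
    rw [hrad] at hInn
    obtain ⟨u, hu⟩ := hInn
    -- `x` agrees on the image with conjugation by the image of `u`
    have hcen : ((ψ.comp (Subgroup.inclusion hPN)) u)⁻¹ * x ∈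
        Cfsg.FusionSystem.centralizerIn S (ψ.comp (Subgroup.inclusion hPN)).range := by
      refine Subgroup.mem_inf.mpr ⟨S.mul_mem (S.inv_mem (hrS ⟨u, rfl⟩)) hxS, ?_⟩
      rw [Subgroup.mem_centralizer_iff]
      rintro _ ⟨z, rfl⟩
      have h1 := hβval' z
      rw [← hu] at h1
      have h2 : (ψ.comp (Subgroup.inclusion hPN)) (MulAut.conj u z) =
          (ψ.comp (Subgroup.inclusion hPN)) u * (ψ.comp (Subgroup.inclusion hPN)) z *
            ((ψ.comp (Subgroup.inclusion hPN)) u)⁻¹ := by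
        rw [MulAut.conj_apply, map_mul, map_mul, map_inv]
      rw [h2] at h1
      calc (ψ.comp (Subgroup.inclusion hPN)) z * (((ψ.comp (Subgroup.inclusion hPN)) u)⁻¹ * x)
          = ((ψ.comp (Subgroup.inclusion hPN)) u)⁻¹ * ((ψ.comp (Subgroup.inclusion hPN)) u *
              (ψ.comp (Subgroup.inclusion hPN)) z * ((ψ.comp (Subgroup.inclusion hPN)) u)⁻¹) * x := by
            group
        _ = ((ψ.comp (Subgroup.inclusion hPN)) u)⁻¹ *
              (x * (ψ.comp (Subgroup.inclusion hPN)) z * x⁻¹) * x := by rw [h1]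
        _ = ((ψ.comp (Subgroup.inclusion hPN)) u)⁻¹ * x * (ψ.comp (Subgroup.inclusion hPN)) z := by
            group
    have hcentric := hP.2 _ ⟨_, hφ, rfl⟩ hcen
    apply hxP
    have := Subgroup.mul_mem _ (⟨u, rfl⟩ : (ψ.comp (Subgroup.inclusion hPN)) u ∈
      (ψ.comp (Subgroup.inclusion hPN)).range) hcentric
    simpa using this

end Cfsg.Agent.S5251
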