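import Cfsg.Statements.S5274
import Cfsg.Agent.Lib.Helper87.FSBasic
import Cfsg.Agent.Lib.Helper87.FSSat
import Cfsg.Agent.Lib.Helper87.FSNormal
import Cfsg.Agent.H84.FusSat
import Cfsg.Agent.H85.Core
-- import your own Cfsg.Agent.* helpers here

set_option autoImplicit false
open Cfsg

namespace Cfsg.Agent.S5274

section Aux

open Cfsg Cfsg.FusionSystem
open Cfsg.Agent.Lib.Helper87

variable {Ω : Type*} [Group Ω] {S : Subgroup Ω}

theorem conj_eq_of_central {q s : Ω} (hq : q ∈ Subgroup.centralizer (S : Set Ω)) (hs : s ∈ S) :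
    s * q * s⁻¹ = q := by
  have h1 := (Subgroup.mem_centralizer_iff.mp hq) s hs
  rw [h1, mul_inv_cancel_right]

/-- A subgroup normal in the system is central in `S`, when every element is conjugate in the system
to a central element. -/
theorem central_of_isNormal (F : FusionSystem S)
    (h : ∀ x ∈ S, ∃ z ∈ S ⊓ Subgroup.centralizer (S : Set Ω), F.IsConjElt x z)
    {B : Subgroup Ω} (hB : F.IsNormal B) {x b : Ω} (hx : x ∈ S) (hb : b ∈ B) :
    x * b * x⁻¹ = b := by
  obtain ⟨z, hz, φ, hφ, hφx⟩ := h x hx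
  obtain ⟨ψ, hψ, hext, hmap⟩ := hB.2 _ φ hφ
  have hxm : x ∈ Subgroup.zpowers x ⊔ B := (le_sup_left : Subgroup.zpowers x ≤ _) (Subgroup.mem_zpowers x)
  have hbm : b ∈ Subgroup.zpowers x ⊔ B := (le_sup_right : B ≤ _) hb
  have hψx : ψ ⟨x, hxm⟩ = z := by
    have := hext ⟨x, Subgroup.mem_zpowers x⟩
    rw [hφx] at this
    exact this
  have hψb : ψ ⟨b, hbm⟩ ∈ B := FSNormal.maps_into_of_map_eq hmap ⟨b, hb⟩
  have hψbS : ψ ⟨b, hbm⟩ ∈ S := hB.1 hψb
  have hcomm : z * ψ ⟨b, hbm⟩ * z⁻¹ = ψ ⟨b, hbm⟩ := by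
    have h1 := (Subgroup.mem_centralizer_iff.mp hz.2) (ψ ⟨b, hbm⟩) hψbS
    rw [← h1, mul_inv_cancel_right]
  have hmem : x * b * x⁻¹ ∈ Subgroup.zpowers x ⊔ B :=
    Subgroup.mul_mem _ (Subgroup.mul_mem _ hxm hbm) (Subgroup.inv_mem _ hxm)
  have he : ψ ⟨x * b * x⁻¹, hmem⟩ = ψ ⟨b, hbm⟩ := by
    have : (⟨x * b * x⁻¹, hmem⟩ : ↥(Subgroup.zpowers x ⊔ B)) = ⟨x, hxm⟩ * ⟨b, hbm⟩ * ⟨x, hxm⟩⁻¹ := rfl
    rw [this, map_mul, map_mul, map_inv, hψx, hcomm]
  have := F.injective_of_mem hψ he
  exact congrArg Subtype.val this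

/-- A subgroup conjugate in the system to a subgroup of the centre of `S` is centralized by its
normalizer in `S`. -/
theorem centralizes_of_normalizes [Finite S] {p : ℕ} [Fact p.Prime] (hS : IsPGroup p S)
    (F : FusionSystem S) (hF : F.IsSaturated p) {P : Subgroup Ω} {φ : P →* Ω} (hφ : φ ∈ F.Hom P)
    (hc : ∀ y : P, φ y ∈ Subgroup.centralizer (S : Set Ω))
    {g : Ω} (hg : g ∈ S) (hgN : g ∈ Subgroup.normalizer (P : Set Ω)) (y : P) :
    g * (y : Ω) * g⁻¹ = y := by
  have hP : P ≤ S := (F.le_of_mem hφ).1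
  have hQ : φ.range ≤ S := FSBasic.range_le F hφ
  have hQc : ∀ q ∈ φ.range, q ∈ Subgroup.centralizer (S : Set Ω) := by
    rintro _ ⟨y, rfl⟩
    exact hc y
  -- the image is fully normalized
  have hfn : F.IsFullyNormalized φ.range := by
    refine ⟨hQ, fun Q' _ => ?_⟩
    have hN : normalizerIn S φ.range = S := by
      apply le_antisymm inf_le_left
      intro s hs
      refine ⟨hs, ?_⟩
      show s ∈ Subgroup.normalizer (φ.range : Set Ω)
      rw [Subgroup.mem_normalizer_iff]
      intro q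
      constructor
      · intro hq
        rw [conj_eq_of_central (hQc q hq) hs]
        exact hq
      · intro hq
        have h2 := conj_eq_of_central (hQc _ hq) (S.inv_mem hs)
        have h3 : q = s⁻¹ * (s * q * s⁻¹) * s⁻¹⁻¹ := by group
        rw [h3, h2]
        exact hq
    rw [hN]
    exact Subgroup.card_le_of_le inf_le_left
  have hfa : F.IsFullyAutomized p φ.range := Cfsg.Agent.H84.fullyAutomized_of_fn hS F hF hfn
  -- `Aut_S` of the image is trivial
  have hbot : ∀ β ∈ autInducedBy S φ.range, β = 1 := by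
    intro β hβ
    obtain ⟨s, hs, hβs⟩ := (FSBasic.mem_autInducedBy_iff β).1 hβ
    ext q
    rw [hβs q, conj_eq_of_central (hQc q q.2) hs]
    rfl
  -- transport `Aut_S(P)` to the image
  let e : P ≃* φ.range := MonoidHom.ofInjective (F.injective_of_mem hφ)
  let K : Subgroup (MulAut φ.range) := (autInducedBy S P).map (MulAut.congr e).toMonoidHom
  have hK : IsPGroup p K := (FSBasic.isPGroup_autInducedBy hS P).map _
  have hKle : K ≤ F.autGroup φ.range := by
    rintro _ ⟨α, hα, rfl⟩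
    exact FSSat.congr_mem_autGroup F hφ (FSBasic.autInducedBy_le_autGroup F hP hα)
  obtain ⟨χ, -, hχ⟩ := FSSat.exists_conj_le_autS F hfa K hK hKle
  have hα1 : ∀ α ∈ autInducedBy S P, α = 1 := by
    intro α hα
    have h1 : χ * (MulAut.congr e α) * χ⁻¹ = 1 := hbot _ (hχ _ ⟨α, hα, rfl⟩)
    have h2 : MulAut.congr e α = 1 := by
      have : MulAut.congr e α = χ⁻¹ * (χ * (MulAut.congr e α) * χ⁻¹) * χ := by group
      rw [this, h1]; group
    have h3 : MulAut.congr e α = MulAut.congr e 1 := by rw [h2, map_one]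
    exact (MulAut.congr e).injective h3
  have h1 := hα1 _ (FSBasic.conj_mem_autInducedBy (K := S) (P := P) hg hgN)
  have h2 := congrArg (fun α : MulAut P => ((α y : P) : Ω)) h1
  exact h2

/-- Two elements of `S` whose squares lie in a subgroup normal in the system commute. -/
theorem comm_of_sq_mem [Finite S] {p : ℕ} [Fact p.Prime] (hS : IsPGroup p S) (F : FusionSystem S)
    (hF : F.IsSaturated p)
    (h : ∀ x ∈ S, ∃ z ∈ S ⊓ Subgroup.centralizer (S : Set Ω), F.IsConjElt x z)
    {B : Subgroup Ω} (hB : F.IsNormal B) {x y : Ω} (hx : x ∈ S) (hy : y ∈ S)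
    (hx2 : x * x ∈ B) (hy2 : y * y ∈ B) : x * y = y * x := by
  have hrS : x * y ∈ S := S.mul_mem hx hy
  obtain ⟨z, hz, φ, hφ, hφr⟩ := h (x * y) hrS
  obtain ⟨ψ, hψ, hext, hmap⟩ := hB.2 _ φ hφ
  have hBcent : ∀ b ∈ B, b ∈ Subgroup.centralizer (S : Set Ω) := by
    intro b hb
    rw [Subgroup.mem_centralizer_iff]
    intro s hs
    have h1 := central_of_isNormal F h hB hs hb
    calc s * b = (s * b * s⁻¹) * s := by group
      _ = b * s := by rw [h1]
  have hcentral : ∀ w : ↥(Subgroup.zpowers (x * y) ⊔ B), ψ w ∈ Subgroup.centralizer (S : Set Ω) := by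
    apply FSNormal.sup_map_mem ψ
    · intro w
      rw [hext w]
      obtain ⟨k, hk⟩ := Subgroup.mem_zpowers_iff.mp w.2
      have hw : w = (⟨x * y, Subgroup.mem_zpowers (x * y)⟩ : Subgroup.zpowers (x * y)) ^ k :=
        Subtype.ext hk.symm
      rw [hw, map_zpow, hφr]
      exact Subgroup.zpow_mem _ hz.2 k
    · intro q
      exact hBcent _ (FSNormal.maps_into_of_map_eq hmap q)
  have hrm : x * y ∈ Subgroup.zpowers (x * y) ⊔ B :=
    (le_sup_left : Subgroup.zpowers (x * y) ≤ _) (Subgroup.mem_zpowers _)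
  have hBle : B ≤ Subgroup.zpowers (x * y) ⊔ B := le_sup_right
  have h1 : Subgroup.zpowers (x * y) ⊔ B ≤
      (Subgroup.zpowers (x * y) ⊔ B).comap (MulAut.conj x).toMonoidHom := by
    refine sup_le ((Subgroup.zpowers_le).mpr ?_) ?_
    · show x * (x * y) * x⁻¹ ∈ (Subgroup.zpowers (x * y) ⊔ B : Subgroup Ω)
      have e : x * (x * y) * x⁻¹ = (x * x) * (y * y) * (x * y)⁻¹ := by group
      rw [e]
      exact Subgroup.mul_mem _ (Subgroup.mul_mem _ (hBle hx2) (hBle hy2)) (Subgroup.inv_mem _ hrm)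
    · intro b hb
      show x * b * x⁻¹ ∈ (Subgroup.zpowers (x * y) ⊔ B : Subgroup Ω)
      rw [central_of_isNormal F h hB hx hb]
      exact hBle hb
  have h2 : Subgroup.zpowers (x * y) ⊔ B ≤
      (Subgroup.zpowers (x * y) ⊔ B).comap (MulAut.conj x⁻¹).toMonoidHom := by
    refine sup_le ((Subgroup.zpowers_le).mpr ?_) ?_
    · show x⁻¹ * (x * y) * x⁻¹⁻¹ ∈ (Subgroup.zpowers (x * y) ⊔ B : Subgroup Ω)
      have e : x⁻¹ * (x * y) * x⁻¹⁻¹ = (y * y) * (x * y)⁻¹ * (x * x) := by group
      rw [e]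
      exact Subgroup.mul_mem _ (Subgroup.mul_mem _ (hBle hy2) (Subgroup.inv_mem _ hrm)) (hBle hx2)
    · intro b hb
      show x⁻¹ * b * x⁻¹⁻¹ ∈ (Subgroup.zpowers (x * y) ⊔ B : Subgroup Ω)
      rw [central_of_isNormal F h hB (S.inv_mem hx) hb]
      exact hBle hb
  have hxN : x ∈ Subgroup.normalizer ((Subgroup.zpowers (x * y) ⊔ B : Subgroup Ω) : Set Ω) := by
    rw [Subgroup.mem_normalizer_iff]
    intro w
    constructor
    · intro hw
      exact h1 hw
    · intro hw
      have h3 : x⁻¹ * (x * w * x⁻¹) * x⁻¹⁻¹ ∈ Subgroup.zpowers (x * y) ⊔ B := h2 hw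
      have e : x⁻¹ * (x * w * x⁻¹) * x⁻¹⁻¹ = w := by group
      rw [e] at h3
      exact h3
  have h3 := centralizes_of_normalizes hS F hF hψ hcentral hx hxN ⟨x * y, hrm⟩
  have h4 : x * (x * y) * x⁻¹ = x * y := h3
  have h5 : x * (x * y) * x⁻¹ * x = x * y * x := by rw [h4]
  have h6 : x * (x * y) = x * (y * x) := by
    have e1 : x * (x * y) * x⁻¹ * x = x * (x * y) := by group
    have e2 : x * y * x = x * (y * x) := by group
    rw [← e1, h5, e2]
  exact mul_left_cancel h6

end Aux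

/-- Let F be a saturated fusion system over a finite 2-group S. Suppose that every element of S is F-conjugate to an element of the centre Z(S) (some map of F defined on the cyclic subgroup it generates sends it into Z(S)). Then S is abelian. -/
theorem result {Ω : Type*} [Group Ω] {S : Subgroup Ω} [Finite S] (hS : IsPGroup 2 ↥S) (F : Cfsg.FusionSystem S) (hF : F.IsSaturated 2) (h : ∀ x ∈ S, ∃ z ∈ S ⊓ Subgroup.centralizer (S : Set Ω), F.IsConjElt x z) : IsMulCommutative ↥S := by
  have : Fact (Nat.Prime 2) := ⟨Nat.prime_two⟩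
  have hB : F.IsNormal F.core := Cfsg.Agent.H85.isNormal_core F
  let X : Subgroup Ω :=
    { carrier := {x | x ∈ S ∧ x * x ∈ F.core}
      one_mem' := ⟨S.one_mem, by rw [mul_one]; exact F.core.one_mem⟩
      mul_mem' := by
        rintro a b ⟨ha, ha2⟩ ⟨hb, hb2⟩
        refine ⟨S.mul_mem ha hb, ?_⟩
        have hc := comm_of_sq_mem hS F hF h hB ha hb ha2 hb2
        have e : a * b * (a * b) = (a * a) * (b * b) := by
          calc a * b * (a * b) = a * (b * a) * b := by group
            _ = a * (a * b) * b := by rw [hc]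
            _ = (a * a) * (b * b) := by group
        rw [e]
        exact F.core.mul_mem ha2 hb2
      inv_mem' := by
        rintro a ⟨ha, ha2⟩
        refine ⟨S.inv_mem ha, ?_⟩
        have e : a⁻¹ * a⁻¹ = (a * a)⁻¹ := by group
        rw [e]
        exact F.core.inv_mem ha2 }
  have hXmem : ∀ x, x ∈ X ↔ x ∈ S ∧ x * x ∈ F.core := fun x => Iff.rfl
  have hXS : X ≤ S := fun x hx => hx.1
  have hXsc : F.StronglyClosed X := by
    refine ⟨hXS, fun R hR φ hφ x => ?_⟩
    rw [hXmem]
    refine ⟨(F.le_of_mem hφ).2 x, ?_⟩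
    have hx := (hXmem _).1 (hR x.2)
    have e : φ x * φ x = φ (x * x) := (map_mul φ x x).symm
    rw [e]
    exact Cfsg.Agent.Lib.Helper87.FSNormal.stronglyClosed_maps F (Cfsg.Agent.Lib.Helper87.FSNormal.stronglyClosed_of_isNormal F hB) hφ (x * x) hx.2
  have hXab : ∀ a ∈ X, ∀ b ∈ X, a * b = b * a := fun a ha b hb =>
    comm_of_sq_mem hS F hF h hB ha.1 hb.1 ha.2 hb.2
  have hXn : F.IsNormal X := by
    refine Cfsg.Agent.Lib.Helper87.FSNormal.isNormal_of_chain hS F hF X hXsc 1 (fun j => if j = 0 then ⊥ else X)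
      (by simp) (by simp) ?_ ?_ ?_ ?_
    · intro j _
      by_cases h0 : j = 0
      · simp only [h0, if_true]
        intro s _
        rw [Subgroup.mem_normalizer_iff]
        intro w
        rw [Subgroup.mem_bot, Subgroup.mem_bot, conj_eq_one_iff]
      · simp only [h0, if_false]
        exact Cfsg.Agent.Lib.Helper87.FSNormal.le_normalizer_of_stronglyClosed F hXsc
    · intro j _
      by_cases h0 : j = 0 <;> simp [h0]
    · intro j hj
      have h0 : j = 0 := by omega
      subst h0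
      simp only [zero_add, one_ne_zero, if_false, if_true]
      rw [Subgroup.commutator_le]
      intro a ha b hb
      rw [Subgroup.mem_bot, commutatorElement_def, hXab a ha b hb]
      group
    · intro j hj Y _ φ _ _ x hx
      have h0 : j = 0 := by omega
      subst h0
      simp only [if_true, Subgroup.mem_bot] at hx ⊢
      have hx1 : x = 1 := Subtype.ext hx
      rw [hx1, map_one]
  have hXB : X ≤ F.core := le_sSup hXn
  have hSB : S ≤ F.core := by
    intro s hs
    have key : ∀ k : ℕ, ∀ t ∈ S, t ^ (2 ^ k) ∈ F.core → t ∈ F.core := by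
      intro k
      induction k with
      | zero =>
        intro t _ ht
        simpa using ht
      | succ k ih =>
        intro t ht htk
        apply ih t ht
        apply hXB
        rw [hXmem]
        refine ⟨S.pow_mem ht _, ?_⟩
        have e : t ^ 2 ^ k * t ^ 2 ^ k = t ^ 2 ^ (k + 1) := by
          rw [← pow_add, pow_succ, mul_two]
        rw [e]
        exact htk
    obtain ⟨k, hk⟩ := hS ⟨s, hs⟩
    apply key k s hs
    have hk' : s ^ 2 ^ k = 1 := by
      have := congrArg Subtype.val hk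
      simpa using this
    rw [hk']
    exact F.core.one_mem
  refine ⟨⟨fun a b => ?_⟩⟩
  apply Subtype.ext
  have h1 := central_of_isNormal F h hB a.2 (hSB b.2)
  show (a : Ω) * b = b * a
  calc (a : Ω) * b = ((a : Ω) * b * (a : Ω)⁻¹) * a := by group
    _ = b * a := by rw [h1]

end Cfsg.Agent.S5274
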