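import Cfsg.Statements.S5286
import Cfsg.Agent.Lib.Helper88.VFAsm
import Cfsg.Agent.Lib.Helper88.VFGENS
import Cfsg.Agent.Lib.Helper88.VFSUBG
import Cfsg.Agent.Lib.Helper88.VFRED
import Cfsg.Agent.Lib.Helper2.VFEVEN
import Cfsg.Agent.Lib.Helper2.VFFREE
import Cfsg.Agent.Lib.Helper2.VFISO
import Cfsg.Agent.Lib.Helper2.VFLCP
import Cfsg.Agent.Lib.Helper47.VFFIX
import Cfsg.Agent.Lib.Helper48.VFEQV
import Cfsg.Agent.Lib.Helper48.VFMID
import Cfsg.Agent.Lib.Helper48.VFTREE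
import Cfsg.Agent.Lib.Helper57.VFCBASE
import Cfsg.Agent.Lib.Helper57.VFCBWD
import Cfsg.Agent.Lib.Helper57.VFCFWD
import Cfsg.Agent.Lib.Helper99.VFCHAIN
import Cfsg.Agent.Lib.Helper99.VFFINCONJ
-- import your own Cfsg.Agent.* helpers here

set_option autoImplicit false
universe u
open Cfsg

namespace Cfsg.Agent.S5286

/-- Every fusion system F over a finite p-group S, saturated or not, is realized by a possibly infinite group: there are a group G and an injective homomorphism ι of S into G such that the maps of F are exactly the conjugations by elements of G between subgroups of ι(S), every finite subgroup of G is conjugate to a subgroup of ι(S), and G has a free normal subgroup whose index divides (#S)!. -/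
theorem result {Ω : Type u} [Group Ω] {S : Subgroup Ω} [Finite S] (p : ℕ) [Fact p.Prime] (hS : IsPGroup p ↥S) (F : Cfsg.FusionSystem S) : ∃ (G : Type u) (_ : Group G) (ι : ↥S →* G), F.IsRealizedBy ι ∧ (∀ H : Subgroup G, Finite ↥H → ∃ g : G, ∀ h ∈ H, g * h * g⁻¹ ∈ ι.range) ∧ ∃ N : Subgroup G, N.Normal ∧ IsFreeGroup ↥N ∧ N.index ∣ (Nat.card ↥S).factorial := by
  exact Cfsg.Agent.Lib.Helper88.VFAsm.asm.{u}
    Cfsg.Agent.Lib.Helper2.VFFREE.main.{u}
    Cfsg.Agent.Lib.Helper88.VFSUBG.main.{u}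
    Cfsg.Agent.Lib.Helper88.VFGENS.main.{u}
    (Cfsg.Agent.Lib.Helper99.VFCHAIN.main.{u} Cfsg.Agent.Lib.Helper88.VFRED.main.{u}
      Cfsg.Agent.Lib.Helper2.VFISO.main.{u})
    (Cfsg.Agent.Lib.Helper99.VFFINCONJ.main.{u}
      (Cfsg.Agent.Lib.Helper47.VFFIX.main.{u} Cfsg.Agent.Lib.Helper2.VFISO.main.{u}
        Cfsg.Agent.Lib.Helper2.VFEVEN.main.{u}
        (Cfsg.Agent.Lib.Helper48.VFTREE.main.{u} Cfsg.Agent.Lib.Helper2.VFLCP.main.{u})
        (Cfsg.Agent.Lib.Helper48.VFMID.main.{u} Cfsg.Agent.Lib.Helper2.VFLCP.main.{u}))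
      Cfsg.Agent.Lib.Helper88.VFRED.main.{u} Cfsg.Agent.Lib.Helper88.VFSUBG.main.{u})
    Cfsg.Agent.Lib.Helper48.VFEQV.main.{u}
    Cfsg.Agent.Lib.Helper57.VFCBASE.main.{u}
    Cfsg.Agent.Lib.Helper57.VFCFWD.main.{u}
    Cfsg.Agent.Lib.Helper57.VFCBWD.main.{u} F

end Cfsg.Agent.S5286
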