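import Cfsg.Statements.S5291
import Cfsg.Agent.Lib.Helper87.FSBasic
import Cfsg.Agent.Lib.Helper87.FSSat
import Cfsg.Agent.Lib.Helper87.FSNormal
import Cfsg.Agent.Lib.Helper87.FSNormal2
import Cfsg.Agent.S5106
import Cfsg.Agent.H85.Core

set_option autoImplicit false
open Cfsg

namespace Cfsg.Agent.S5291

open Cfsg.Agent.Lib.Helper87.FSBasic Cfsg.Agent.Lib.Helper87.FSSat
  Cfsg.Agent.Lib.Helper87.FSNormal Cfsg.Agent.Lib.Helper87.FSNormal2

/-- The image of a subgroup normal in `E` under an `F`-automorphism of `T` is normal in `E`, for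
`E` weakly normal in `F`. -/
theorem isNormal_img {Ω : Type*} [Group Ω] {S : Subgroup Ω} [Finite S] {p : ℕ} [Fact p.Prime]
    (hS : IsPGroup p S) (F : Cfsg.FusionSystem S) {T : Subgroup Ω} (E : Cfsg.FusionSystem T)
    (hE : E.IsWeaklyNormalIn F p) (R : Subgroup Ω) (hR : E.IsNormal R) (α : MulAut T)
    (hα : α ∈ F.autGroup T) :
    E.IsNormal ((R.subgroupOf T).map (T.subtype.comp α.toMonoidHom)) := by
  obtain ⟨hEsat, hFsat, hsub, hTsc, hinv, hfrat⟩ := hE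
  have hTS : T ≤ S := hTsc.1
  have hfinT : Finite T := finite_of_le hTS
  have hTp : IsPGroup p T := hS.to_le hTS
  have hRT : R ≤ T := hR.1
  have himgT : (R.subgroupOf T).map (T.subtype.comp α.toMonoidHom) ≤ T := by
    rintro _ ⟨t, -, rfl⟩
    exact (α t).2
  refine (Cfsg.Agent.S5106.result p hTp E hEsat _ himgT).mpr ?_
  intro P hPR φ hφ
  have hPT : P ≤ T := hPR.trans himgT
  obtain ⟨χ₀, hχ₀, hχ₀e⟩ := hinv P hPT φ hφ α⁻¹ ((F.autGroup T).inv_mem hα)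
  have hle2 : (P.subgroupOf T).map (T.subtype.comp (α⁻¹).toMonoidHom) ≤ R := by
    rintro _ ⟨t, ht, rfl⟩
    obtain ⟨r, hr, hrt⟩ := hPR (Subgroup.mem_subgroupOf.mp ht)
    have e : t = α r := Subtype.ext hrt.symm
    show ((α⁻¹ t : T) : Ω) ∈ R
    rw [e]
    have e2 : α⁻¹ (α r) = r := by simp
    rw [e2]
    exact Subgroup.mem_subgroupOf.mp hr
  obtain ⟨b, hb, hbe⟩ := exists_aut_of_isNormal E hR hχ₀ hle2
  obtain ⟨χ₁, hχ₁, hχ₁e⟩ := hinv R hRT _ (autGroup_hom E hRT hb) α hα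
  have hfinI : Finite ((R.subgroupOf T).map (T.subtype.comp α.toMonoidHom) : Subgroup Ω) :=
    Finite.of_injective (Subgroup.inclusion himgT) (Subgroup.inclusion_injective himgT)
  have hr : χ₁.range = (R.subgroupOf T).map (T.subtype.comp α.toMonoidHom) := by
    apply Subgroup.eq_of_le_of_card_ge
    · rintro _ ⟨⟨_, t, ht, rfl⟩, rfl⟩
      have h1 : ((b ⟨t, Subgroup.mem_subgroupOf.mp ht⟩ : R) : Ω) ∈ T :=
        hRT (b ⟨t, Subgroup.mem_subgroupOf.mp ht⟩).2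
      have h2 := hχ₁e ⟨t, Subgroup.mem_subgroupOf.mp ht⟩ h1 ⟨t, ht, rfl⟩
      have h3 : χ₁ ⟨(T.subtype.comp α.toMonoidHom) t, ⟨t, ht, rfl⟩⟩ =
          ((α ⟨((b ⟨t, Subgroup.mem_subgroupOf.mp ht⟩ : R) : Ω), h1⟩ : T) : Ω) := h2
      rw [h3]
      exact ⟨⟨_, h1⟩, Subgroup.mem_subgroupOf.mpr (b ⟨t, Subgroup.mem_subgroupOf.mp ht⟩).2, rfl⟩
    · exact (card_range E hχ₁).ge
  refine ⟨autOfMap χ₁ (E.injective_of_mem hχ₁) hr, autOfMap_mem E hχ₁ hr, fun x => ?_⟩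
  -- `x = α y` with `y = α⁻¹ x ∈ R`
  have hy : ((α⁻¹ ⟨x, hPT x.2⟩ : T) : Ω) ∈ (P.subgroupOf T).map (T.subtype.comp (α⁻¹).toMonoidHom) :=
    ⟨⟨x, hPT x.2⟩, Subgroup.mem_subgroupOf.mpr x.2, rfl⟩
  have hyR : ((α⁻¹ ⟨x, hPT x.2⟩ : T) : Ω) ∈ R := hle2 hy
  have hφT : φ x ∈ T := (E.le_of_mem hφ).2 x
  have h0 := hχ₀e x hφT hy
  have hb1 := hbe ⟨_, hy⟩
  have hbT : ((b ⟨_, hyR⟩ : R) : Ω) ∈ T := hRT (b ⟨_, hyR⟩).2
  have hαy : ((α ⟨((α⁻¹ ⟨x, hPT x.2⟩ : T) : Ω), hRT hyR⟩ : T) : Ω) ∈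
      (R.subgroupOf T).map (T.subtype.comp α.toMonoidHom) :=
    ⟨⟨_, hRT hyR⟩, Subgroup.mem_subgroupOf.mpr hyR, rfl⟩
  have h1 := hχ₁e ⟨_, hyR⟩ hbT hαy
  have ex : (α ⟨((α⁻¹ ⟨x, hPT x.2⟩ : T) : Ω), hRT hyR⟩ : T) = ⟨x, hPT x.2⟩ := by
    have e : (⟨((α⁻¹ ⟨x, hPT x.2⟩ : T) : Ω), hRT hyR⟩ : T) = α⁻¹ ⟨x, hPT x.2⟩ := rfl
    rw [e]
    simp
  have e3 : (Subgroup.inclusion hPR x : ↥((R.subgroupOf T).map (T.subtype.comp α.toMonoidHom))) =
      ⟨((α ⟨((α⁻¹ ⟨x, hPT x.2⟩ : T) : Ω), hRT hyR⟩ : T) : Ω), hαy⟩ := by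
    apply Subtype.ext
    exact (congrArg Subtype.val ex).symm
  rw [autOfMap_coe, e3, h1]
  have e4 : (⟨((b ⟨_, hyR⟩ : R) : Ω), hbT⟩ : T) = α⁻¹ ⟨φ x, hφT⟩ := by
    apply Subtype.ext
    show ((b ⟨_, hyR⟩ : R) : Ω) = _
    rw [hb1, h0]
  have e5 : (⟨(R.subtype.comp b.toMonoidHom) ⟨_, hyR⟩, hbT⟩ : T) = α⁻¹ ⟨φ x, hφT⟩ := e4
  rw [e5]
  simp

/-- Let F be a saturated fusion system over a finite p-group S and E a weakly normal subsystem of F over a subgroup T. Suppose a subgroup R of T is normal in E (E = N_E(R)), and let R* be the subgroup of T generated by the images of R under all maps of F with source R. Then R* is normal in F (F = N_F(R*)). -/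
theorem result {Ω : Type*} [Group Ω] {S : Subgroup Ω} [Finite S] (p : ℕ) [Fact p.Prime] (hS : IsPGroup p S)
    (F : Cfsg.FusionSystem S) (hF : F.IsSaturated p)
    {T : Subgroup Ω} (E : Cfsg.FusionSystem T) (hE : E.IsWeaklyNormalIn F p)
    (R : Subgroup Ω) (hR : E.IsNormal R) :
    F.IsNormal (Subgroup.closure {x : Ω | ∃ φ ∈ F.Hom R, ∃ r : R, x = φ r}) := by
  have hE' := hE
  obtain ⟨hEsat, hFsat, hsub, hTsc, hinv, hfrat⟩ := hE
  have hTS : T ≤ S := hTsc.1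
  have hfinT : Finite T := finite_of_le hTS
  have hRT : R ≤ T := hR.1
  have hRsc := stronglyClosed_of_isNormal E hR
  -- the subgroup generated by the conjugates of `R` lies in `T`
  have hWT : Subgroup.closure {x : Ω | ∃ φ ∈ F.Hom R, ∃ r : R, x = φ r} ≤ T := by
    rw [Subgroup.closure_le]
    rintro _ ⟨φ, hφ, r, rfl⟩
    exact hTsc.2 R hRT φ hφ r
  have hWS : Subgroup.closure {x : Ω | ∃ φ ∈ F.Hom R, ∃ r : R, x = φ r} ≤ S := hWT.trans hTS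
  have hfinW : Finite (Subgroup.closure {x : Ω | ∃ φ ∈ F.Hom R, ∃ r : R, x = φ r} : Subgroup Ω) :=
    finite_of_le hWS
  -- it is the join of the images of `R` under `Aut_F(T)`
  have hWeq : Subgroup.closure {x : Ω | ∃ φ ∈ F.Hom R, ∃ r : R, x = φ r} =
      sSup {Q : Subgroup Ω | ∃ α ∈ F.autGroup T,
        Q = (R.subgroupOf T).map (T.subtype.comp α.toMonoidHom)} := by
    apply le_antisymm
    · rw [Subgroup.closure_le]
      rintro _ ⟨φ, hφ, r, rfl⟩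
      obtain ⟨α, hα, φ₀, hφ₀, hφe⟩ := hfrat R hRT φ hφ
      have h1 : φ₀ r ∈ R := hRsc.2 R le_rfl φ₀ hφ₀ r
      have h2 : (R.subgroupOf T).map (T.subtype.comp α.toMonoidHom) ≤
          sSup {Q : Subgroup Ω | ∃ α ∈ F.autGroup T,
            Q = (R.subgroupOf T).map (T.subtype.comp α.toMonoidHom)} := le_sSup ⟨α, hα, rfl⟩
      apply h2
      rw [hφe r (hRT h1)]
      exact ⟨⟨φ₀ r, hRT h1⟩, Subgroup.mem_subgroupOf.mpr h1, rfl⟩
    · refine sSup_le ?_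
      rintro _ ⟨α, hα, rfl⟩
      rintro _ ⟨t, ht, rfl⟩
      refine Subgroup.subset_closure
        ⟨(T.subtype.comp α.toMonoidHom).comp (Subgroup.inclusion hRT),
          restrict_mem F (autGroup_hom F hTS hα) hRT, ⟨t, Subgroup.mem_subgroupOf.mp ht⟩, rfl⟩
  have hWn : E.IsNormal (Subgroup.closure {x : Ω | ∃ φ ∈ F.Hom R, ∃ r : R, x = φ r}) := by
    rw [hWeq]
    refine Cfsg.Agent.H85.sSup_induction_of_finite T E.IsNormal _ ?_ (Cfsg.Agent.H85.isNormal_bot E)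
      (fun _ ha _ hb => Cfsg.Agent.H85.isNormal_sup E ha hb) ?_
    · rintro _ ⟨α, -, rfl⟩
      rintro _ ⟨t, -, rfl⟩
      exact (α t).2
    · rintro _ ⟨α, hα, rfl⟩
      exact isNormal_img hS F E hE' R hR α hα
  -- `Aut_F(T)` maps the subgroup into itself
  have hWα : ∀ α ∈ F.autGroup T, ∀ (w : Ω)
      (hw : w ∈ Subgroup.closure {x : Ω | ∃ φ ∈ F.Hom R, ∃ r : R, x = φ r}),
      ((α ⟨w, hWT hw⟩ : T) : Ω) ∈ Subgroup.closure {x : Ω | ∃ φ ∈ F.Hom R, ∃ r : R, x = φ r} := by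
    intro α hα w hw
    induction hw using Subgroup.closure_induction with
    | mem x hx =>
      obtain ⟨φ, hφ, r, rfl⟩ := hx
      have hφT : ∀ y : R, φ y ∈ T := fun y => hTsc.2 R hRT φ hφ y
      exact Subgroup.subset_closure ⟨(T.subtype.comp α.toMonoidHom).comp (φ.codRestrict T hφT),
        F.comp_mem hφ (autGroup_hom F hTS hα) hφT, r, rfl⟩
    | one =>
      have e : (⟨1, hWT (Subgroup.one_mem _)⟩ : T) = 1 := rfl
      rw [e, map_one]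
      exact Subgroup.one_mem _
    | mul a b ha hb iha ihb =>
      have e : (⟨a * b, hWT (Subgroup.mul_mem _ ha hb)⟩ : T) = ⟨a, hWT ha⟩ * ⟨b, hWT hb⟩ := rfl
      rw [e, map_mul]
      exact Subgroup.mul_mem _ iha ihb
    | inv a ha iha =>
      have e : (⟨a⁻¹, hWT (Subgroup.inv_mem _ ha)⟩ : T) = ⟨a, hWT ha⟩⁻¹ := rfl
      rw [e, map_inv]
      exact Subgroup.inv_mem _ iha
  refine isNormal_of_char hS F hF _ hWS ?_
  intro U hU
  have hUE := stronglyClosed_of_characteristic E hWn U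
  have hUW : U.map (Subgroup.closure {x : Ω | ∃ φ ∈ F.Hom R, ∃ r : R, x = φ r}).subtype ≤
      Subgroup.closure {x : Ω | ∃ φ ∈ F.Hom R, ∃ r : R, x = φ r} := by
    rintro _ ⟨u, -, rfl⟩
    exact u.2
  -- `Aut_F(T)` maps `U` into itself
  have hUα : ∀ α ∈ F.autGroup T, ∀ u : ↥(Subgroup.closure {x : Ω | ∃ φ ∈ F.Hom R, ∃ r : R, x = φ r}),
      u ∈ U → ((α ⟨u, hWT u.2⟩ : T) : Ω) ∈
        U.map (Subgroup.closure {x : Ω | ∃ φ ∈ F.Hom R, ∃ r : R, x = φ r}).subtype := by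
    intro α hα u hu
    have hinj : Function.Injective ((T.subtype.comp α.toMonoidHom).comp (Subgroup.inclusion hWT)) := by
      intro a b hab
      have h1 : ((α (Subgroup.inclusion hWT a) : T) : Ω) = ((α (Subgroup.inclusion hWT b) : T) : Ω) := hab
      have h2 := α.injective (Subtype.ext h1)
      exact Subgroup.inclusion_injective hWT h2
    have hr : ((T.subtype.comp α.toMonoidHom).comp (Subgroup.inclusion hWT)).range =
        Subgroup.closure {x : Ω | ∃ φ ∈ F.Hom R, ∃ r : R, x = φ r} := by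
      apply Subgroup.eq_of_le_of_card_ge
      · rintro _ ⟨w, rfl⟩
        exact hWα α hα w w.2
      · exact (Nat.card_congr (MonoidHom.ofInjective hinj).toEquiv).le
    have h1 : autOfMap _ hinj hr u ∈ U.map (autOfMap _ hinj hr).toMonoidHom := ⟨u, hu, rfl⟩
    rw [Subgroup.characteristic_iff_map_eq.mp hU] at h1
    exact ⟨_, h1, rfl⟩
  refine ⟨hUW.trans hWS, fun P hP φ hφ x => ?_⟩
  obtain ⟨α, hα, φ₀, hφ₀, hφe⟩ := hfrat P ((hP.trans hUW).trans hWT) φ hφ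
  have h1 := hUE.2 P hP φ₀ hφ₀ x
  obtain ⟨u, hu, hux⟩ := h1
  have hT1 : φ₀ x ∈ T := by
    rw [← hux]
    exact hWT u.2
  rw [hφe x hT1]
  have h2 := hUα α hα u hu
  have e : (⟨φ₀ x, hT1⟩ : T) = ⟨u, hWT u.2⟩ := Subtype.ext hux.symm
  rw [e]
  exact h2

end Cfsg.Agent.S5291
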