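import Cfsg.Statements.S5297
import Cfsg.Agent.Lib.Helper88.AutOmega
import Cfsg.Agent.Lib.Helper88.MinConfig
import Cfsg.Agent.Lib.Helper88.FSBase
import Cfsg.Agent.Lib.Helper87.FSRadical
import Cfsg.Agent.Lib.Helper87.ChainStab
import Cfsg.Agent.Lib.Helper87.FSSat
import Cfsg.Agent.Lib.Helper87.FSBasic
-- import your own Cfsg.Agent.* helpers here

set_option autoImplicit false
universe u
open Cfsg

namespace Cfsg.Agent.S5297

section Aux

open Cfsg.FusionSystem Cfsg.Agent.Lib.Helper87 Cfsg.Agent.Lib.Helper88 Cfsg.Agent.Lib.Helper33.Omega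
open scoped commutatorElement

variable {Ω : Type u} [Group Ω] {S : Subgroup Ω}

theorem orderOf_conj' {G : Type*} [Group G] (a b : G) : orderOf (a * b * a⁻¹) = orderOf b := by
  have := MulEquiv.orderOf_eq (MulAut.conj a) b
  simpa [MulAut.conj_apply] using this

/-- The cyclic subgroup generated by a nontrivial element of small order has order `p` or `4`. -/
theorem card_zpowers_of_om {G : Type*} [Group G] (p : ℕ) [Fact p.Prime] {x : G} (hom : Om p x)
    (hx1 : x ≠ 1) : Nat.card (Subgroup.zpowers x) = p ∨ Nat.card (Subgroup.zpowers x) = 4 := by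
  rw [Nat.card_zpowers]
  rcases hom with hxp | ⟨h2, hx4⟩
  · left
    exact orderOf_eq_prime hxp hx1
  · have hd : orderOf x ∣ 2 ^ 2 := orderOf_dvd_of_pow_eq_one (by norm_num; exact hx4)
    obtain ⟨i, hi, hio⟩ := (Nat.dvd_prime_pow Nat.prime_two).mp hd
    have hi0 : i ≠ 0 := by
      rintro rfl
      rw [pow_zero, orderOf_eq_one_iff] at hio
      exact hx1 hio
    interval_cases i
    · exact absurd rfl hi0
    · left; rw [hio, h2]; norm_num
    · right; rw [hio]; norm_num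

theorem om_coe {p : ℕ} {Y : Subgroup Ω} {x : Y} (h : Om p x) : Om p (x : Ω) := by
  rcases h with h | ⟨h2, h⟩
  · left
    have := congrArg Subtype.val h
    simpa using this
  · right
    refine ⟨h2, ?_⟩
    have := congrArg Subtype.val h
    simpa using this

theorem om_map {G : Type*} [Group G] {p : ℕ} (χ : MulAut G) {y : G} (h : Om p y) : Om p (χ y) := by
  rcases h with h | ⟨h2, h⟩
  · left; rw [← map_pow, h, map_one]
  · right; exact ⟨h2, by rw [← map_pow, h, map_one]⟩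

/-- Under the hypothesis, the automorphisms of the system preserve the levels of the lower central
series of `S` on the elements of small order of the hyperfocal subgroup. -/
theorem level_preserved [Finite S] (p : ℕ) [Fact p.Prime] (F : Cfsg.FusionSystem S)
    (h : ∀ A B : Subgroup Ω, A ≤ (F.hyperfocalSubgroup p) → B ≤ (F.hyperfocalSubgroup p) → IsCyclic ↥A → (Nat.card ↥A = p ∨ Nat.card ↥A = 4) → IsCyclic ↥B → (Nat.card ↥B = p ∨ Nat.card ↥B = 4) →
      F.homSet A B ⊆ F.normalizerHom S A)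
    {Y : Subgroup Ω} (hY : Y ≤ S) {β : MulAut Y} (hβ : β ∈ F.autGroup Y) (x : Y) (hom : Om p x)
    (hx : (x : Ω) ∈ F.hyperfocalSubgroup p) (hβx : ((β x : Y) : Ω) ∈ F.hyperfocalSubgroup p)
    (i : ℕ) (hxi : Subgroup.inclusion hY x ∈ (⊤ : Subgroup S).lowerCentralSeries i) :
    Subgroup.inclusion hY (β x) ∈ (⊤ : Subgroup S).lowerCentralSeries i := by
  by_cases hx1 : x = 1
  · rw [hx1, map_one, map_one]
    exact Subgroup.one_mem _
  have hβx1 : β x ≠ 1 := fun h0 => hx1 (β.injective (h0.trans (map_one β).symm))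
  have hAle : Subgroup.zpowers (x : Ω) ≤ Y := Subgroup.zpowers_le.mpr x.2
  have hφ : (Y.subtype.comp β.toMonoidHom).comp (Subgroup.inclusion hAle) ∈
      F.Hom (Subgroup.zpowers (x : Ω)) :=
    FSBasic.restrict_mem F (FSBasic.autGroup_hom F hY hβ) hAle
  have hvals : ∀ a : Subgroup.zpowers (x : Ω),
      ((Y.subtype.comp β.toMonoidHom).comp (Subgroup.inclusion hAle)) a ∈
        Subgroup.zpowers ((β x : Y) : Ω) := by
    rintro ⟨a, ha⟩
    obtain ⟨j, hj⟩ := Subgroup.mem_zpowers_iff.mp ha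
    have e : (Subgroup.inclusion hAle ⟨a, ha⟩ : Y) = x ^ j := by
      apply Subtype.ext
      rw [Subgroup.coe_zpow]
      exact hj.symm
    show ((β (Subgroup.inclusion hAle ⟨a, ha⟩) : Y) : Ω) ∈ _
    rw [e, map_zpow, Subgroup.coe_zpow]
    exact Subgroup.zpow_mem_zpowers _ _
  have hx1' : (x : Ω) ≠ 1 := fun h0 => hx1 (Subtype.ext h0)
  have hβx1' : ((β x : Y) : Ω) ≠ 1 := fun h0 => hβx1 (Subtype.ext h0)
  have hin := h (Subgroup.zpowers (x : Ω)) (Subgroup.zpowers ((β x : Y) : Ω))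
    (Subgroup.zpowers_le.mpr hx) (Subgroup.zpowers_le.mpr hβx)
    inferInstance (card_zpowers_of_om p (om_coe hom) hx1') inferInstance
    (card_zpowers_of_om p (om_coe (om_map β hom)) hβx1') ⟨hφ, hvals⟩
  obtain ⟨-, -, -, ψ, hψ, hψext, -⟩ := hin
  have hf : ψ.comp (Subgroup.inclusion (le_sup_right : S ≤ Subgroup.zpowers (x : Ω) ⊔ S)) ∈ F.Hom S :=
    FSBasic.restrict_mem F hψ le_sup_right
  have hr := FSBase.range_eq_of_finite F hf (fun s => (F.le_of_mem hf).2 s)
  have key : ((FSBasic.autOfMap _ (F.injective_of_mem hf) hr (Subgroup.inclusion hY x) : S) : Ω) =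
      ((β x : Y) : Ω) := by
    rw [FSBasic.autOfMap_coe]
    have h1 := hψext ⟨(x : Ω), Subgroup.mem_zpowers _⟩
    exact h1
  have e : Subgroup.inclusion hY (β x) =
      FSBasic.autOfMap _ (F.injective_of_mem hf) hr (Subgroup.inclusion hY x) :=
    Subtype.ext key.symm
  rw [e]
  have h1 := (Subgroup.characteristic_iff_map_le.mp
    (inferInstance : ((⊤ : Subgroup S).lowerCentralSeries i).Characteristic))
    (FSBasic.autOfMap _ (F.injective_of_mem hf) hr)
  exact h1 ⟨_, hxi, rfl⟩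

/-- The subgroup generated by the conjugates of `Aut_S(Y)` in `Aut_F(Y)`. -/
def normCl (F : Cfsg.FusionSystem S) (Y : Subgroup Ω) : Subgroup (MulAut Y) :=
  Subgroup.closure {α | ∃ χ ∈ F.autGroup Y, ∃ τ ∈ autInducedBy S Y, α = χ * τ * χ⁻¹}

theorem normCl_le (F : Cfsg.FusionSystem S) {Y : Subgroup Ω} (hY : Y ≤ S) :
    normCl F Y ≤ F.autGroup Y := by
  rw [normCl, Subgroup.closure_le]
  rintro _ ⟨χ, hχ, τ, hτ, rfl⟩
  exact (F.autGroup Y).mul_mem ((F.autGroup Y).mul_mem hχ (FSBasic.autInducedBy_le_autGroup F hY hτ))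
    ((F.autGroup Y).inv_mem hχ)

theorem normCl_normal (F : Cfsg.FusionSystem S) (Y : Subgroup Ω) :
    ∀ χ ∈ F.autGroup Y, ∀ β ∈ normCl F Y, χ * β * χ⁻¹ ∈ normCl F Y := by
  intro χ hχ β hβ
  have hle : normCl F Y ≤ (normCl F Y).comap (MulAut.conj χ).toMonoidHom := by
    rw [normCl, Subgroup.closure_le]
    rintro _ ⟨χ', hχ', τ, hτ, rfl⟩
    change MulAut.conj χ (χ' * τ * χ'⁻¹) ∈
      Subgroup.closure {α | ∃ χ ∈ F.autGroup Y, ∃ τ ∈ autInducedBy S Y, α = χ * τ * χ⁻¹}
    apply Subgroup.subset_closure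
    refine ⟨χ * χ', (F.autGroup Y).mul_mem hχ hχ', τ, hτ, ?_⟩
    rw [MulAut.conj_apply]
    group
  have := hle hβ
  rwa [Subgroup.mem_comap, MulEquiv.coe_toMonoidHom, MulAut.conj_apply] at this

theorem autInducedBy_le_normCl (F : Cfsg.FusionSystem S) (Y : Subgroup Ω) :
    autInducedBy S Y ≤ normCl F Y := by
  intro τ hτ
  apply Subgroup.subset_closure
  exact ⟨1, (F.autGroup Y).one_mem, τ, hτ, by simp⟩

/-- Elements of order prime to `p` in the normal closure of `Aut_S(Y)` fix every invariant subgroup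
of small exponent contained in the hyperfocal subgroup. -/
theorem fix_of_chain [Finite S] (p : ℕ) [Fact p.Prime] (hS : IsPGroup p S) (F : Cfsg.FusionSystem S)
    (h : ∀ A B : Subgroup Ω, A ≤ (F.hyperfocalSubgroup p) → B ≤ (F.hyperfocalSubgroup p) → IsCyclic ↥A → (Nat.card ↥A = p ∨ Nat.card ↥A = 4) → IsCyclic ↥B → (Nat.card ↥B = p ∨ Nat.card ↥B = 4) →
      F.homSet A B ⊆ F.normalizerHom S A)
    {Y : Subgroup Ω} (hY : Y ≤ S) (Q : Subgroup Y)
    (hQinv : ∀ χ ∈ F.autGroup Y, ∀ x ∈ Q, χ x ∈ Q)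
    (hQom : ∀ x ∈ Q, Om p x) (hQhyp : ∀ x ∈ Q, (x : Ω) ∈ F.hyperfocalSubgroup p)
    {β : MulAut Y} (hβB : β ∈ normCl F Y) (hcop : (orderOf β).Coprime p) : ∀ x ∈ Q, β x = x := by
  have hfinY : Finite Y := FSSat.finite_of_le hY
  have hYp : IsPGroup p Y := hS.to_le hY
  have hinv : ∀ α ∈ F.autGroup Y, ∀ i, ∀ x ∈
      Q ⊓ ((⊤ : Subgroup S).lowerCentralSeries i).comap (Subgroup.inclusion hY),
      α x ∈ Q ⊓ ((⊤ : Subgroup S).lowerCentralSeries i).comap (Subgroup.inclusion hY) :=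
    fun α hα i x hx => ⟨hQinv α hα x hx.1, level_preserved p F h hY hα x (hQom x hx.1)
      (hQhyp x hx.1) (hQhyp _ (hQinv α hα x hx.1)) i hx.2⟩
  have hT : autInducedBy S Y ≤ ChainStab.chainStab (F.autGroup Y)
      (fun i => Q ⊓ ((⊤ : Subgroup S).lowerCentralSeries i).comap (Subgroup.inclusion hY)) hinv := by
    intro τ hτ
    have hτG := FSBasic.autInducedBy_le_autGroup F hY hτ
    obtain ⟨n, hn, hτn⟩ := (FSBasic.mem_autInducedBy_iff τ).1 hτ
    refine ⟨hτG, fun i x hx => ⟨Q.mul_mem (Q.inv_mem hx.1) (hQinv τ hτG x hx.1), ?_⟩⟩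
    have e : Subgroup.inclusion hY (x⁻¹ * τ x) =
        ⁅(Subgroup.inclusion hY x)⁻¹, (⟨n, hn⟩ : S)⁆ := by
      apply Subtype.ext
      rw [commutatorElement_def]
      simp only [Subgroup.coe_inclusion, Subgroup.coe_mul, Subgroup.coe_inv, inv_inv]
      rw [hτn x]
      group
    show Subgroup.inclusion hY (x⁻¹ * τ x) ∈ (⊤ : Subgroup S).lowerCentralSeries (i + 1)
    rw [e, Subgroup.lowerCentralSeries_succ]
    exact Subgroup.commutator_mem_commutator (Subgroup.inv_mem _ hx.2) (Subgroup.mem_top _)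
  have hB : normCl F Y ≤ ChainStab.chainStab (F.autGroup Y)
      (fun i => Q ⊓ ((⊤ : Subgroup S).lowerCentralSeries i).comap (Subgroup.inclusion hY)) hinv := by
    rw [normCl, Subgroup.closure_le]
    rintro _ ⟨χ, hχ, τ, hτ, rfl⟩
    exact ChainStab.chainStab_normal _ _ hinv χ hχ τ (hT hτ)
  obtain ⟨m, hm⟩ := Subgroup.nilpotent_iff_lowerCentralSeries.mp hS.isNilpotent
  obtain ⟨-, hβ'⟩ := hB hβB
  have key : ∀ j, j ≤ m → ∀ x ∈ Q ⊓ ((⊤ : Subgroup S).lowerCentralSeries (m - j)).comap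
      (Subgroup.inclusion hY), β x = x := by
    intro j
    induction j with
    | zero =>
      intro _ x hx
      have h1 : Subgroup.inclusion hY x ∈ (⊤ : Subgroup S).lowerCentralSeries m := hx.2
      rw [hm, Subgroup.mem_bot] at h1
      have h2 : x = 1 := by
        apply Subtype.ext
        have := congrArg Subtype.val h1
        simpa using this
      rw [h2, map_one]
    | succ j ih =>
      intro hj x hx
      have h1 := hβ' (m - (j + 1)) x hx
      have e : m - (j + 1) + 1 = m - j := by omega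
      rw [e] at h1
      exact FSRadical.fix_of_fix_quot hYp β hcop x (ih (by omega) _ h1)
  intro x hx
  refine key m le_rfl x ⟨hx, ?_⟩
  rw [Nat.sub_self]
  exact Subgroup.mem_top _

/-- Every element of order prime to `p` of the normal closure of `Aut_S(Y)` is trivial on every
invariant subgroup. -/
theorem pprime_trivial [Finite S] (p : ℕ) [Fact p.Prime] (hS : IsPGroup p S)
    (F : Cfsg.FusionSystem S)
    (h : ∀ A B : Subgroup Ω, A ≤ (F.hyperfocalSubgroup p) → B ≤ (F.hyperfocalSubgroup p) → IsCyclic ↥A → (Nat.card ↥A = p ∨ Nat.card ↥A = 4) → IsCyclic ↥B → (Nat.card ↥B = p ∨ Nat.card ↥B = 4) →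
      F.homSet A B ⊆ F.normalizerHom S A)
    {Y : Subgroup Ω} (hY : Y ≤ S) :
    ∀ n : ℕ, ∀ Q : Subgroup Y, Nat.card Q = n → (∀ χ ∈ F.autGroup Y, ∀ x ∈ Q, χ x ∈ Q) →
      ∀ β ∈ normCl F Y, (orderOf β).Coprime p → ∀ x ∈ Q, β x = x := by
  have hfinY : Finite Y := FSSat.finite_of_le hY
  have hYp : IsPGroup p Y := hS.to_le hY
  intro n
  induction n using Nat.strong_induction_on with
  | _ n ih =>
    intro Q hn hQinv β hβ hcop x hx
    have hQp : IsPGroup p Q := hYp.to_subgroup Q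
    by_cases hbot : Q = ⊥
    · rw [hbot, Subgroup.mem_bot] at hx
      rw [hx, map_one]
    have hQ₁le : Subgroup.closure {y | ∃ x ∈ Q, ∃ β ∈ {β : MulAut Y | β ∈ normCl F Y ∧
        (orderOf β).Coprime p}, y = x⁻¹ * β x} ≤ Q := by
      rw [Subgroup.closure_le]
      rintro _ ⟨x, hx, β, hβ, rfl⟩
      exact Q.mul_mem (Q.inv_mem hx) (hQinv β (normCl_le F hY hβ.1) x hx)
    have hQ₁inv : ∀ χ ∈ F.autGroup Y, ∀ y ∈ Subgroup.closure {y | ∃ x ∈ Q, ∃ β ∈
        {β : MulAut Y | β ∈ normCl F Y ∧ (orderOf β).Coprime p}, y = x⁻¹ * β x},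
        χ y ∈ Subgroup.closure {y | ∃ x ∈ Q, ∃ β ∈ {β : MulAut Y | β ∈ normCl F Y ∧
          (orderOf β).Coprime p}, y = x⁻¹ * β x} := by
      intro χ hχ
      have hle : Subgroup.closure {y | ∃ x ∈ Q, ∃ β ∈ {β : MulAut Y | β ∈ normCl F Y ∧
          (orderOf β).Coprime p}, y = x⁻¹ * β x} ≤
          (Subgroup.closure {y | ∃ x ∈ Q, ∃ β ∈ {β : MulAut Y | β ∈ normCl F Y ∧
            (orderOf β).Coprime p}, y = x⁻¹ * β x}).comap χ.toMonoidHom := by
        rw [Subgroup.closure_le]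
        rintro _ ⟨x, hx, β, hβ, rfl⟩
        change χ (x⁻¹ * β x) ∈ Subgroup.closure {y | ∃ x ∈ Q, ∃ β ∈ {β : MulAut Y | β ∈ normCl F Y ∧
            (orderOf β).Coprime p}, y = x⁻¹ * β x}
        apply Subgroup.subset_closure
        refine ⟨χ x, hQinv χ hχ x hx, χ * β * χ⁻¹, ⟨normCl_normal F Y χ hχ β hβ.1, ?_⟩, ?_⟩
        · rw [orderOf_conj']
          exact hβ.2
        · simp
      exact fun y hy => hle hy
    by_cases hQ₁ : Subgroup.closure {y | ∃ x ∈ Q, ∃ β ∈ {β : MulAut Y | β ∈ normCl F Y ∧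
        (orderOf β).Coprime p}, y = x⁻¹ * β x} = Q
    · -- minimal configuration
      have hcommfix : ∀ β ∈ {β : MulAut Y | β ∈ normCl F Y ∧ (orderOf β).Coprime p},
          ∀ x ∈ ⁅Q, Q⁆, β x = x := by
        intro β hβ x hx
        have hle : ⁅Q, Q⁆ ≤ Q :=
          Cfsg.Agent.Lib.Helper24.Coprime.commutator_le_of_le_normalizer Subgroup.le_normalizer
        have hlt : Nat.card (⁅Q, Q⁆ : Subgroup Y) < n := by
          rw [← hn]
          exact Cfsg.Agent.Lib.Helper24.Coprime.card_lt_of_le_of_ne hle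
            (MinConfig.commutator_ne p Q hQp hbot)
        exact ih _ hlt ⁅Q, Q⁆ rfl
          (fun χ hχ y hy => MinConfig.commutator_invariant Q χ (hQinv χ hχ) hy) β hβ.1 hβ.2 x hx
      have hpowfix : ∀ β ∈ {β : MulAut Y | β ∈ normCl F Y ∧ (orderOf β).Coprime p},
          ∀ x ∈ MinConfig.powSub p Q, β x = x := by
        intro β hβ x hx
        have hlt : Nat.card (MinConfig.powSub p Q) < n := by
          rw [← hn]
          exact Cfsg.Agent.Lib.Helper24.Coprime.card_lt_of_le_of_ne (MinConfig.powSub_le p Q)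
            (MinConfig.powSub_ne p Q hQp hbot)
        exact ih _ hlt (MinConfig.powSub p Q) rfl
          (fun χ hχ y hy => MinConfig.powSub_invariant p Q χ (hQinv χ hχ) hy) β hβ.1 hβ.2 x hx
      have hom := MinConfig.om_of_minimal_family p _ Q hQ₁
        (fun β hβ x hx => hQinv β (normCl_le F hY hβ.1) x hx) hcommfix hpowfix
      have hQhyp : ∀ x ∈ Q, (x : Ω) ∈ F.hyperfocalSubgroup p := by
        have hle : Subgroup.closure {y | ∃ x ∈ Q, ∃ β ∈ {β : MulAut Y | β ∈ normCl F Y ∧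
            (orderOf β).Coprime p}, y = x⁻¹ * β x} ≤ (F.hyperfocalSubgroup p).comap Y.subtype := by
          rw [Subgroup.closure_le]
          rintro _ ⟨x, -, β, hβ, rfl⟩
          change ((x⁻¹ * β x : Y) : Ω) ∈ F.hyperfocalSubgroup p
          apply Subgroup.subset_closure
          refine ⟨Y, ⟨β, normCl_le F hY hβ.1⟩, x, hY, ?_, rfl⟩
          apply Subgroup.subset_closure
          show Nat.Coprime (orderOf (⟨β, normCl_le F hY hβ.1⟩ : F.autGroup Y)) p
          rw [Subgroup.orderOf_mk]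
          exact hβ.2
        intro x hx
        rw [← hQ₁] at hx
        exact hle hx
      exact fix_of_chain p hS F h hY Q hQinv hom hQhyp hβ hcop x hx
    · have hlt : Nat.card (Subgroup.closure {y | ∃ x ∈ Q, ∃ β ∈ {β : MulAut Y | β ∈ normCl F Y ∧
          (orderOf β).Coprime p}, y = x⁻¹ * β x}) < n := by
        rw [← hn]
        exact Cfsg.Agent.Lib.Helper24.Coprime.card_lt_of_le_of_ne hQ₁le hQ₁
      have hfix := ih _ hlt _ rfl hQ₁inv β hβ hcop (x⁻¹ * β x)
        (Subgroup.subset_closure ⟨x, hx, β, ⟨hβ, hcop⟩, rfl⟩)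
      exact FSRadical.fix_of_fix_quot hYp β hcop x hfix

end Aux

/-- Let F be a saturated fusion system over a finite p-group S. If every map of F between cyclic subgroups of the hyperfocal subgroup of F of order p or 4 is a map of the normalizer system of S (it extends to a map of F defined on all of S), then S is normal in F. -/
theorem result {Ω : Type u} [Group Ω] {S : Subgroup Ω} [Finite S] (p : ℕ) [Fact p.Prime] (hS : IsPGroup p S)
    (F : Cfsg.FusionSystem S) (hF : F.IsSaturated p)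
    (h : ∀ A B : Subgroup Ω, A ≤ (F.hyperfocalSubgroup p) → B ≤ (F.hyperfocalSubgroup p) → IsCyclic ↥A → (Nat.card ↥A = p ∨ Nat.card ↥A = 4) → IsCyclic ↥B → (Nat.card ↥B = p ∨ Nat.card ↥B = 4) →
      F.homSet A B ⊆ F.normalizerHom S A) :
    F.IsNormal S := by
  have hSsc : F.StronglyClosed S := ⟨le_rfl, fun R _ φ hφ x => (F.le_of_mem hφ).2 x⟩
  refine Cfsg.Agent.Lib.Helper87.FSRadical.isNormal_of_normal_pSubgroups hS F hF S hSsc ?_
  intro Y hfa _ hSY
  have hY : Y ≤ S := hfa.1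
  have hne : Y ≠ S := fun h => hSY (h ▸ le_rfl)
  have hfinY : Finite Y := Cfsg.Agent.Lib.Helper87.FSSat.finite_of_le hY
  obtain ⟨g, hgS, hgN, hgY⟩ := Cfsg.Agent.Lib.Helper87.FSSat.exists_normalizer_not_mem hS hY hne
  refine ⟨normCl F Y, g, hgN, ?_, normCl_le F hY, normCl_normal F Y, hgS, hgY,
    autInducedBy_le_normCl F Y (Cfsg.Agent.Lib.Helper87.FSBasic.conj_mem_autInducedBy hgS hgN)⟩
  apply Cfsg.Agent.Lib.Helper88.AutOmega.isPGroup_of_coprime_trivial p
  intro β hβ hcop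
  ext x
  exact congrArg Subtype.val (pprime_trivial p hS F h hY _ ⊤ rfl (fun _ _ _ _ => Subgroup.mem_top _)
    β hβ hcop x (Subgroup.mem_top _))

end Cfsg.Agent.S5297
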