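import Cfsg.Statements.S5298
import Cfsg.Agent.Lib.Helper88.AutOmega
import Cfsg.Agent.Lib.Helper88.FSBase
import Cfsg.Agent.Lib.Helper87.FSRadical
import Cfsg.Agent.Lib.Helper87.FSAlperin
import Cfsg.Agent.Lib.Helper87.FSLocal
import Cfsg.Agent.Lib.Helper87.FSSat
import Cfsg.Agent.Lib.Helper87.FSBasic
-- import your own Cfsg.Agent.* helpers here

set_option autoImplicit false
universe u
open Cfsg

namespace Cfsg.Agent.S5298

section Aux

open Cfsg.FusionSystem Cfsg.Agent.Lib.Helper87 Cfsg.Agent.Lib.Helper88 Cfsg.Agent.Lib.Helper33.Omega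
open scoped commutatorElement

variable {Ω : Type u} [Group Ω] {S : Subgroup Ω}

/-- Restriction of an automorphism of the system to an invariant subgroup. -/
theorem exists_restrict [Finite S] (F : FusionSystem S) {Q : Subgroup Ω} (hQ : Q ≤ S)
    {α : MulAut Q} (hα : α ∈ F.autGroup Q) (K : Subgroup Q) (hK : ∀ x ∈ K, α x ∈ K) :
    ∃ α₁ : MulAut (K.map Q.subtype), α₁ ∈ F.autGroup (K.map Q.subtype) ∧
      (∀ (x : Q) (hx : x ∈ K), ((α₁ ⟨x, ⟨x, hx, rfl⟩⟩ : K.map Q.subtype) : Ω) = α x) ∧
      orderOf α₁ ∣ orderOf α := by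
  have hle : K.map Q.subtype ≤ Q := Subgroup.map_subtype_le K
  have hfin : Finite (K.map Q.subtype) := FSSat.finite_of_le (hle.trans hQ)
  have hf : (Q.subtype.comp α.toMonoidHom).comp (Subgroup.inclusion hle) ∈ F.Hom (K.map Q.subtype) :=
    FSBasic.restrict_mem F (FSBasic.autGroup_hom F hQ hα) hle
  have hv : ∀ y : K.map Q.subtype,
      ((Q.subtype.comp α.toMonoidHom).comp (Subgroup.inclusion hle)) y ∈ K.map Q.subtype := by
    rintro ⟨_, x, hx, rfl⟩
    exact ⟨α x, hK x hx, rfl⟩
  have hr := FSBase.range_eq_of_finite F hf hv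
  refine ⟨FSBasic.autOfMap _ (F.injective_of_mem hf) hr, FSBasic.autOfMap_mem F hf hr, ?_, ?_⟩
  · intro x hx
    rw [FSBasic.autOfMap_coe]
    rfl
  · apply orderOf_dvd_of_pow_eq_one
    have key : ∀ (m : ℕ) (y : K.map Q.subtype),
        (((FSBasic.autOfMap _ (F.injective_of_mem hf) hr) ^ m) y : Ω) =
          ((α ^ m) ⟨y, hle y.2⟩ : Q) := by
      intro m
      induction m with
      | zero => intro y; simp
      | succ m ih =>
        intro y
        rw [pow_succ', MulAut.mul_apply, FSBasic.autOfMap_coe, pow_succ', MulAut.mul_apply]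
        have e : (Subgroup.inclusion hle
            (((FSBasic.autOfMap _ (F.injective_of_mem hf) hr) ^ m) y)) = (α ^ m) ⟨y, hle y.2⟩ :=
          Subtype.ext (ih y)
        show ((α (Subgroup.inclusion hle
            (((FSBasic.autOfMap _ (F.injective_of_mem hf) hr) ^ m) y)) : Q) : Ω) = _
        rw [e]
    ext y
    rw [key, pow_orderOf_eq_one]
    rfl

/-- Under the hypothesis, every automorphism of the system of order prime to `p` is trivial. -/
theorem aut_trivial [Finite S] (p : ℕ) [Fact p.Prime] (hS : IsPGroup p S)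
    (F : Cfsg.FusionSystem S)
    (h : ∀ A B : Subgroup Ω, A ≤ (F.hyperfocalSubgroup p) → B ≤ (F.hyperfocalSubgroup p) → IsCyclic ↥A → (Nat.card ↥A = p ∨ Nat.card ↥A = 4) → IsCyclic ↥B → (Nat.card ↥B = p ∨ Nat.card ↥B = 4) →
      F.homSet A B ⊆ (Cfsg.innerFusionSystem S).Hom A) :
    ∀ n : ℕ, ∀ Q : Subgroup Ω, Q ≤ S → Nat.card Q = n → ∀ α ∈ F.autGroup Q,
      (orderOf α).Coprime p → α = 1 := by
  intro n
  induction n using Nat.strong_induction_on with
  | _ n ih =>
    intro Q hQ hn α hα hcop
    have hp : p.Prime := Fact.out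
    have hfinQ : Finite Q := FSSat.finite_of_le hQ
    have hQp : IsPGroup p Q := hS.to_le hQ
    -- every proper invariant subgroup is fixed
    have IH' : ∀ K : Subgroup Q, K ≠ ⊤ → (∀ x ∈ K, α x ∈ K) → ∀ x ∈ K, α x = x := by
      intro K hK hinv x hx
      obtain ⟨α₁, hα₁, hres, hdvd⟩ := exists_restrict F hQ hα K hinv
      have hcard : Nat.card (K.map Q.subtype) < n := by
        rw [Subgroup.card_map_of_injective Q.subtype_injective, ← hn]
        exact lt_of_le_of_ne (Subgroup.card_le_card_group K)
          (fun hc => hK (Subgroup.eq_top_of_card_eq K hc))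
      have h1 := ih _ hcard (K.map Q.subtype) ((Subgroup.map_subtype_le K).trans hQ) rfl α₁ hα₁
        (Nat.Coprime.coprime_dvd_left hdvd hcop)
      have h2 := hres x hx
      rw [h1] at h2
      exact Subtype.ext h2.symm
    have hK₀inv : ∀ y ∈ Subgroup.closure {y : Q | ∃ x : Q, y = x⁻¹ * α x},
        α y ∈ Subgroup.closure {y : Q | ∃ x : Q, y = x⁻¹ * α x} := by
      have hle : Subgroup.closure {y : Q | ∃ x : Q, y = x⁻¹ * α x} ≤
          (Subgroup.closure {y : Q | ∃ x : Q, y = x⁻¹ * α x}).comap α.toMonoidHom := by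
        rw [Subgroup.closure_le]
        rintro _ ⟨x, rfl⟩
        change α (x⁻¹ * α x) ∈ Subgroup.closure {y : Q | ∃ x : Q, y = x⁻¹ * α x}
        apply Subgroup.subset_closure
        exact ⟨α x, by rw [map_mul, map_inv]⟩
      exact fun y hy => hle hy
    by_cases hK₀ : Subgroup.closure {y : Q | ∃ x : Q, y = x⁻¹ * α x} = ⊤
    · -- minimal configuration
      have hom : ∀ x : Q, Om p x := AutOmega.om_of_minimal_aut p hQp α hK₀ IH'
      have hres : (⟨α, hα⟩ : F.autGroup Q) ∈ pResidual p (F.autGroup Q) := by
        apply Subgroup.subset_closure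
        show Nat.Coprime (orderOf (⟨α, hα⟩ : F.autGroup Q)) p
        rw [Subgroup.orderOf_mk]
        exact hcop
      have hhyp : Q ≤ F.hyperfocalSubgroup p := by
        have hle : Subgroup.closure {y : Q | ∃ x : Q, y = x⁻¹ * α x} ≤
            (F.hyperfocalSubgroup p).comap Q.subtype := by
          rw [Subgroup.closure_le]
          rintro _ ⟨x, rfl⟩
          change ((x⁻¹ * α x : Q) : Ω) ∈ F.hyperfocalSubgroup p
          apply Subgroup.subset_closure
          exact ⟨Q, ⟨α, hα⟩, x, hQ, hres, rfl⟩
        intro q hq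
        have : (⟨q, hq⟩ : Q) ∈ Subgroup.closure {y : Q | ∃ x : Q, y = x⁻¹ * α x} := by
          rw [hK₀]; exact Subgroup.mem_top _
        exact hle this
      -- orders of nontrivial elements
      have hcardz : ∀ x : Q, x ≠ 1 →
          (Nat.card (Subgroup.zpowers (x : Ω)) = p ∨ Nat.card (Subgroup.zpowers (x : Ω)) = 4) := by
        intro x hx1
        rw [Nat.card_zpowers, Subgroup.orderOf_coe]
        rcases hom x with hxp | ⟨h2, hx4⟩
        · left
          exact orderOf_eq_prime hxp hx1
        · have hd : orderOf x ∣ 2 ^ 2 := orderOf_dvd_of_pow_eq_one (by norm_num; exact hx4)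
          obtain ⟨i, hi, hio⟩ := (Nat.dvd_prime_pow Nat.prime_two).mp hd
          have hi0 : i ≠ 0 := by
            rintro rfl
            rw [pow_zero, orderOf_eq_one_iff] at hio
            exact hx1 hio
          interval_cases i
          · exact absurd rfl hi0
          · left; rw [hio, h2]; norm_num
          · right; rw [hio]; norm_num
      -- the lower central series argument
      obtain ⟨m, hm⟩ := (Subgroup.isNilpotent_iff_lowerCentralSeries S).mp hS.isNilpotent
      have key : ∀ k, Q ≤ S.lowerCentralSeries k := by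
        intro k
        induction k with
        | zero => simpa using hQ
        | succ k ihk =>
          rw [Subgroup.lowerCentralSeries_succ]
          have hle : Subgroup.closure {y : Q | ∃ x : Q, y = x⁻¹ * α x} ≤
              (⁅S.lowerCentralSeries k, S⁆).comap Q.subtype := by
            rw [Subgroup.closure_le]
            rintro _ ⟨x, rfl⟩
            change ((x⁻¹ * α x : Q) : Ω) ∈ ⁅S.lowerCentralSeries k, S⁆
            by_cases hx1 : x = 1
            · rw [hx1]
              simp
            · have hαx1 : α x ≠ 1 := fun h0 => hx1 (by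
                have := α.injective (h0.trans (map_one α).symm)
                exact this)
              have hAle : Subgroup.zpowers (x : Ω) ≤ Q := Subgroup.zpowers_le.mpr x.2
              have hφ : (Q.subtype.comp α.toMonoidHom).comp (Subgroup.inclusion hAle) ∈
                  F.Hom (Subgroup.zpowers (x : Ω)) :=
                FSBasic.restrict_mem F (FSBasic.autGroup_hom F hQ hα) hAle
              have hvals : ∀ a : Subgroup.zpowers (x : Ω),
                  ((Q.subtype.comp α.toMonoidHom).comp (Subgroup.inclusion hAle)) a ∈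
                    Subgroup.zpowers ((α x : Q) : Ω) := by
                rintro ⟨a, ha⟩
                obtain ⟨j, hj⟩ := Subgroup.mem_zpowers_iff.mp ha
                have e : (Subgroup.inclusion hAle ⟨a, ha⟩ : Q) = x ^ j := by
                  apply Subtype.ext
                  rw [Subgroup.coe_zpow]
                  exact hj.symm
                show ((α (Subgroup.inclusion hAle ⟨a, ha⟩) : Q) : Ω) ∈ _
                rw [e, map_zpow, Subgroup.coe_zpow]
                exact Subgroup.zpow_mem_zpowers _ _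
              have hin := h (Subgroup.zpowers (x : Ω)) (Subgroup.zpowers ((α x : Q) : Ω))
                (Subgroup.zpowers_le.mpr (hhyp x.2)) (Subgroup.zpowers_le.mpr (hhyp (α x).2))
                inferInstance (hcardz x hx1) inferInstance (hcardz (α x) hαx1) ⟨hφ, hvals⟩
              obtain ⟨-, s, hs, hφs⟩ := hin
              have h3 : ((α x : Q) : Ω) = s * (x : Ω) * s⁻¹ :=
                hφs ⟨(x : Ω), Subgroup.mem_zpowers _⟩
              have e : ((x⁻¹ * α x : Q) : Ω) = ⁅((x : Ω))⁻¹, s⁆ := by
                rw [commutatorElement_def, Subgroup.coe_mul, Subgroup.coe_inv, h3]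
                group
              rw [e]
              exact Subgroup.commutator_mem_commutator (ihk (Q.inv_mem x.2)) hs
          intro q hq
          have : (⟨q, hq⟩ : Q) ∈ Subgroup.closure {y : Q | ∃ x : Q, y = x⁻¹ * α x} := by
            rw [hK₀]; exact Subgroup.mem_top _
          exact hle this
      have hbot : ∀ x : Q, x = 1 := by
        intro x
        have h1 := key m x.2
        rw [hm, Subgroup.mem_bot] at h1
        exact Subtype.ext h1
      ext x
      rw [hbot (α x), hbot x]
      rfl
    · have hfix := IH' _ hK₀ hK₀inv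
      ext x
      exact congrArg Subtype.val (FSRadical.fix_of_fix_quot hQp α hcop x
        (hfix _ (Subgroup.subset_closure ⟨x, rfl⟩)))

end Aux

/-- Let F be a saturated fusion system over a finite p-group S. If every map of F between cyclic subgroups of the hyperfocal subgroup of F of order p or 4 is conjugation by an element of S, then F is the inner fusion system of S. -/
theorem result {Ω : Type u} [Group Ω] {S : Subgroup Ω} [Finite S] (p : ℕ) [Fact p.Prime] (hS : IsPGroup p S)
    (F : Cfsg.FusionSystem S) (hF : F.IsSaturated p)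
    (h : ∀ A B : Subgroup Ω, A ≤ (F.hyperfocalSubgroup p) → B ≤ (F.hyperfocalSubgroup p) → IsCyclic ↥A → (Nat.card ↥A = p ∨ Nat.card ↥A = 4) → IsCyclic ↥B → (Nat.card ↥B = p ∨ Nat.card ↥B = 4) →
      F.homSet A B ⊆ (Cfsg.innerFusionSystem S).Hom A) :
    ∀ P : Subgroup Ω, F.Hom P = (Cfsg.innerFusionSystem S).Hom P := by
  intro P
  refine Set.Subset.antisymm ?_ (Cfsg.Agent.Lib.Helper87.FSBasic.inner_le F P)
  revert P
  apply Cfsg.Agent.Lib.Helper87.FSAlperin.alperin_induction hS F hF (Cfsg.innerFusionSystem S)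
  intro Y hfa hrec _ α hα hr
  have hYS : Y ≤ S := hfa.1
  have hfinY : Finite Y := Cfsg.Agent.Lib.Helper87.FSSat.finite_of_le hYS
  have hB : IsPGroup p (F.autGroup Y) :=
    Cfsg.Agent.Lib.Helper88.AutOmega.isPGroup_of_coprime_trivial p (F.autGroup Y)
      (fun β hβ hcop => aut_trivial p hS F h _ Y hYS rfl β hβ hcop)
  have hle := Cfsg.Agent.Lib.Helper87.FSLocal.normal_pSubgroup_le_autS F hfa (F.autGroup Y) hB le_rfl
    (fun χ hχ β hβ => (F.autGroup Y).mul_mem ((F.autGroup Y).mul_mem hχ hβ) ((F.autGroup Y).inv_mem hχ))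
  have ha := hle (Cfsg.Agent.Lib.Helper87.FSBasic.autOfMap_mem F hα hr)
  obtain ⟨g, hg, hga⟩ := (Cfsg.Agent.Lib.Helper87.FSBasic.mem_autInducedBy_iff _).1 ha
  refine ⟨hYS, g, hg, fun x => ?_⟩
  rw [← hga x, Cfsg.Agent.Lib.Helper87.FSBasic.autOfMap_coe]

end Cfsg.Agent.S5298
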