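import Cfsg.Statements.S5300
import Cfsg.Agent.Lib.Helper88.AutOmega
import Cfsg.Agent.Lib.Helper87.FSRadical
import Cfsg.Agent.Lib.Helper87.FSSat
import Cfsg.Agent.Lib.Helper87.FSBasic
-- import your own Cfsg.Agent.* helpers here

set_option autoImplicit false
universe u
open Cfsg

namespace Cfsg.Agent.S5300

section Aux

open Cfsg.FusionSystem Cfsg.Agent.Lib.Helper87 Cfsg.Agent.Lib.Helper88 Cfsg.Agent.Lib.Helper33.Omega

variable {Y : Type*} [Group Y]

/-- The commutator `[Y, A]` of a group with a group of automorphisms. -/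
def commSub (A : Subgroup (MulAut Y)) : Subgroup Y :=
  Subgroup.closure {y | ∃ x : Y, ∃ β ∈ A, y = x⁻¹ * β x}

theorem mem_commSub (A : Subgroup (MulAut Y)) {β : MulAut Y} (hβ : β ∈ A) (x : Y) :
    x⁻¹ * β x ∈ commSub A :=
  Subgroup.subset_closure ⟨x, β, hβ, rfl⟩

theorem commSub_inv (A : Subgroup (MulAut Y)) {β : MulAut Y} (hβ : β ∈ A) {y : Y}
    (hy : y ∈ commSub A) : β y ∈ commSub A := by
  have h : commSub A ≤ (commSub A).comap β.toMonoidHom := by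
    rw [commSub, Subgroup.closure_le]
    rintro _ ⟨x, γ, hγ, rfl⟩
    change β (x⁻¹ * γ x) ∈ Subgroup.closure {y | ∃ x : Y, ∃ β ∈ A, y = x⁻¹ * β x}
    apply Subgroup.subset_closure
    refine ⟨β x, β * γ * β⁻¹, A.mul_mem (A.mul_mem hβ hγ) (A.inv_mem hβ), ?_⟩
    simp
  exact h hy

theorem om_map {p : ℕ} (χ : MulAut Y) {y : Y} (h : Om p y) : Om p (χ y) := by
  rcases h with h | ⟨h2, h⟩
  · left; rw [← map_pow, h, map_one]
  · right; exact ⟨h2, by rw [← map_pow, h, map_one]⟩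

theorem pow_apply_of_apply_eq_zpow (β : MulAut Y) (y : Y) (k : ℤ) (h : β y = y ^ k) (n : ℕ) :
    (β ^ n) y = y ^ (k ^ n) := by
  induction n with
  | zero => simp
  | succ n ih =>
    rw [pow_succ', MulAut.mul_apply, ih, map_zpow, h, ← zpow_mul, pow_succ']

theorem pow_fix (γ : MulAut Y) (y : Y) (h : γ y = y) (m : ℕ) : (γ ^ m) y = y := by
  induction m with
  | zero => simp
  | succ m ih => rw [pow_succ', MulAut.mul_apply, ih, h]

/-- The automorphisms in `A` that normalize every cyclic subgroup of small order of `[Y, A]` and act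
on it as a `p`-element. -/
def Bsub (p : ℕ) [Fact p.Prime] (A : Subgroup (MulAut Y)) : Subgroup (MulAut Y) where
  carrier := {β | β ∈ A ∧ ∀ y ∈ commSub A, Om p y →
    β y ∈ Subgroup.zpowers y ∧ ∃ j : ℕ, (β ^ (p ^ j)) y = y}
  one_mem' := ⟨A.one_mem, fun y _ _ => ⟨Subgroup.mem_zpowers y, 0, rfl⟩⟩
  mul_mem' := by
    rintro β₁ β₂ ⟨h₁, h₁'⟩ ⟨h₂, h₂'⟩
    refine ⟨A.mul_mem h₁ h₂, fun y hy hom => ?_⟩
    obtain ⟨hz₁, j₁, hj₁⟩ := h₁' y hy hom
    obtain ⟨hz₂, j₂, hj₂⟩ := h₂' y hy hom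
    obtain ⟨k₁, hk₁⟩ := Subgroup.mem_zpowers_iff.mp hz₁
    obtain ⟨k₂, hk₂⟩ := Subgroup.mem_zpowers_iff.mp hz₂
    have e : (β₁ * β₂) y = y ^ (k₁ * k₂) := by
      rw [MulAut.mul_apply, ← hk₂, map_zpow, ← hk₁, ← zpow_mul]
    refine ⟨by rw [e]; exact Subgroup.zpow_mem_zpowers y _, j₁ + j₂, ?_⟩
    have e1 : (β₁ ^ (p ^ (j₁ + j₂))) y = y := by
      rw [pow_add, pow_mul]
      exact pow_fix _ y hj₁ _
    have e2 : (β₂ ^ (p ^ (j₁ + j₂))) y = y := by
      rw [pow_add, mul_comm, pow_mul]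
      exact pow_fix _ y hj₂ _
    rw [pow_apply_of_apply_eq_zpow _ y _ e, mul_pow, zpow_mul,
      ← pow_apply_of_apply_eq_zpow β₁ y k₁ hk₁.symm, e1,
      ← pow_apply_of_apply_eq_zpow β₂ y k₂ hk₂.symm, e2]
  inv_mem' := by
    rintro β ⟨h, h'⟩
    refine ⟨A.inv_mem h, fun y hy hom => ?_⟩
    obtain ⟨hz, j, hj⟩ := h' y hy hom
    obtain ⟨k, hk⟩ := Subgroup.mem_zpowers_iff.mp hz
    have hpos : 0 < p ^ j := pow_pos (Fact.out : p.Prime).pos j
    have e : β⁻¹ y = (β ^ (p ^ j - 1)) y := by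
      have h1 : β ((β ^ (p ^ j - 1)) y) = y := by
        rw [← MulAut.mul_apply, ← pow_succ', Nat.sub_add_cancel hpos, hj]
      rw [← h1, MulAut.inv_apply_self, h1]
    refine ⟨?_, j, ?_⟩
    · rw [e, pow_apply_of_apply_eq_zpow β y k hk.symm]
      exact Subgroup.zpow_mem_zpowers y _
    · rw [inv_pow]
      have h2 : (β ^ p ^ j)⁻¹ ((β ^ p ^ j) y) = y := MulAut.inv_apply_self _ _ _
      rw [hj] at h2
      exact h2

theorem Bsub_le (p : ℕ) [Fact p.Prime] (A : Subgroup (MulAut Y)) : Bsub p A ≤ A := fun _ h => h.1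

theorem Bsub_normal (p : ℕ) [Fact p.Prime] (A : Subgroup (MulAut Y)) :
    ∀ χ ∈ A, ∀ β ∈ Bsub p A, χ * β * χ⁻¹ ∈ Bsub p A := by
  rintro χ hχ β ⟨hβ, hβ'⟩
  refine ⟨A.mul_mem (A.mul_mem hχ hβ) (A.inv_mem hχ), fun y hy hom => ?_⟩
  obtain ⟨hz, j, hj⟩ := hβ' (χ⁻¹ y) (commSub_inv A (A.inv_mem hχ) hy) (om_map χ⁻¹ hom)
  obtain ⟨k, hk⟩ := Subgroup.mem_zpowers_iff.mp hz
  constructor
  · have e : (χ * β * χ⁻¹) y = y ^ k := by
      rw [MulAut.mul_apply, MulAut.mul_apply, ← hk, map_zpow, MulAut.apply_inv_self]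
    rw [e]
    exact Subgroup.zpow_mem_zpowers y _
  · refine ⟨j, ?_⟩
    rw [conj_pow, MulAut.mul_apply, MulAut.mul_apply, hj, MulAut.apply_inv_self]

theorem Bsub_isPGroup [Finite Y] (p : ℕ) [Fact p.Prime] (hY : IsPGroup p Y)
    (A : Subgroup (MulAut Y)) : IsPGroup p (Bsub p A) := by
  apply AutOmega.isPGroup_of_coprime_trivial p
  rintro β ⟨hβ, hβ'⟩ hcop
  have hfix : ∀ y ∈ commSub A, Om p y → β y = y := by
    intro y hy hom
    obtain ⟨-, j, hj⟩ := hβ' y hy hom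
    have hc : (p ^ j).Coprime (orderOf β) := (Nat.Coprime.pow_right j hcop).symm
    obtain ⟨m, hm⟩ := exists_pow_eq_self_of_coprime hc
    rw [← hm]
    exact pow_fix _ y hj m
  have hY' : IsPGroup p (commSub A) := hY.to_subgroup _
  have hfix' := AutOmega.fix_of_fix_om p β hcop (commSub A) hY'
    (fun x hx => commSub_inv A hβ hx) hfix
  ext x
  exact FSRadical.fix_of_fix_quot hY β hcop x (hfix' _ (mem_commSub A hβ x))

end Aux

/-- Let F be a saturated fusion system over a finite p-group S. If every cyclic subgroup of the focal subgroup of F of order p (of order 2 or 4 when p = 2) is normal in S, then S is normal in F. -/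
theorem result {Ω : Type u} [Group Ω] {S : Subgroup Ω} [Finite S] (p : ℕ) [Fact p.Prime] (hS : IsPGroup p S)
    (F : Cfsg.FusionSystem S) (hF : F.IsSaturated p)
    (hnorm : ∀ x ∈ F.focalSubgroup, (x ^ p = 1 ∨ (p = 2 ∧ x ^ 4 = 1)) → ∀ s ∈ S, s * x * s⁻¹ ∈ Subgroup.zpowers x) :
    F.IsNormal S := by
  have hSsc : F.StronglyClosed S := ⟨le_rfl, fun R _ φ hφ x => (F.le_of_mem hφ).2 x⟩
  refine Cfsg.Agent.Lib.Helper87.FSRadical.isNormal_of_normal_pSubgroups hS F hF S hSsc ?_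
  intro Y hfa hrec hSY
  have hY : Y ≤ S := hfa.1
  have hne : Y ≠ S := fun h => hSY (h ▸ le_rfl)
  have hfinY : Finite Y := Cfsg.Agent.Lib.Helper87.FSSat.finite_of_le hY
  obtain ⟨g, hgS, hgN, hgY⟩ := Cfsg.Agent.Lib.Helper87.FSSat.exists_normalizer_not_mem hS hY hne
  refine ⟨Bsub p (F.autGroup Y), g, hgN, Bsub_isPGroup p (hS.to_le hY) _, Bsub_le p _,
    Bsub_normal p _, hgS, hgY, ?_⟩
  have hcg : Y.normalizerMonoidHom ⟨g, hgN⟩ ∈ F.autGroup Y :=
    Cfsg.Agent.Lib.Helper87.FSBasic.autInducedBy_le_autGroup F hY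
      (Cfsg.Agent.Lib.Helper87.FSBasic.conj_mem_autInducedBy hgS hgN)
  refine ⟨hcg, fun y hy hom => ?_⟩
  -- `y` lies in the focal subgroup
  have hfoc : commSub (F.autGroup Y) ≤ F.focalSubgroup.comap Y.subtype := by
    rw [commSub, Subgroup.closure_le]
    rintro _ ⟨x, β, hβ, rfl⟩
    change ((x⁻¹ * β x : Y) : Ω) ∈ F.focalSubgroup
    apply Subgroup.subset_closure
    exact ⟨Y, Y.subtype.comp β.toMonoidHom, x,
      Cfsg.Agent.Lib.Helper87.FSBasic.autGroup_hom F hY hβ, rfl⟩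
  have hyf : (y : Ω) ∈ F.focalSubgroup := hfoc hy
  have hom' : ((y : Ω) ^ p = 1 ∨ (p = 2 ∧ (y : Ω) ^ 4 = 1)) := by
    rcases hom with h | ⟨h2, h⟩
    · left
      have := congrArg Subtype.val h
      simpa using this
    · right
      refine ⟨h2, ?_⟩
      have := congrArg Subtype.val h
      simpa using this
  constructor
  · obtain ⟨k, hk⟩ := Subgroup.mem_zpowers_iff.mp (hnorm _ hyf hom' g hgS)
    rw [Subgroup.mem_zpowers_iff]
    refine ⟨k, Subtype.ext ?_⟩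
    rw [Subgroup.coe_zpow, hk]
    rfl
  · obtain ⟨j, hj⟩ := hS ⟨g, hgS⟩
    refine ⟨j, ?_⟩
    have hg1 : (⟨g, hgN⟩ : Subgroup.normalizer (Y : Set Ω)) ^ p ^ j = 1 := by
      apply Subtype.ext
      have := congrArg Subtype.val hj
      simpa using this
    rw [← map_pow, hg1, map_one]
    rfl

end Cfsg.Agent.S5300
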