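import Cfsg.Statements.S5315
import Cfsg.Agent.Lib.Helper87.FSBasic
import Cfsg.Agent.Lib.Helper87.FSSat
import Cfsg.Agent.Lib.Helper87.FSNormal
import Cfsg.Agent.Lib.Helper87.FSHyp
import Cfsg.Agent.Lib.Helper87.FSHyp2
import Cfsg.Agent.Lib.Helper87.FSQuot
import Cfsg.Agent.S5084
import Cfsg.Agent.S5144

set_option autoImplicit false
open Cfsg

namespace Cfsg.Agent.S5315

open Cfsg.Agent.Lib.Helper87.FSBasic Cfsg.Agent.Lib.Helper87.FSSat
  Cfsg.Agent.Lib.Helper87.FSNormal Cfsg.Agent.Lib.Helper87.FSHyp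
  Cfsg.Agent.Lib.Helper87.FSHyp2 Cfsg.Agent.Lib.Helper87.FSQuot

theorem comm_aux {G : Type*} [Group G] (u v c₁ c₂ : G) (h1u : Commute c₁ u) (h1v : Commute c₁ v)
    (h2u : Commute c₂ u) (h2v : Commute c₂ v) (h12 : Commute c₁ c₂) :
    (u * c₁)⁻¹ * (v * c₂) * (u * c₁) * (v * c₂)⁻¹ = u⁻¹ * v * u * v⁻¹ := by
  have e1 : u * c₁ = c₁ * u := h1u.eq.symm
  have e2 : v * c₂ = c₂ * v := h2v.eq.symm
  have h3 : Commute c₁ (c₂ * v) := h12.mul_right h1v
  have h4 : Commute c₂ (v * u * v⁻¹) := (h2v.mul_right h2u).mul_right h2v.inv_right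
  calc (u * c₁)⁻¹ * (v * c₂) * (u * c₁) * (v * c₂)⁻¹
      = u⁻¹ * (c₁⁻¹ * (c₂ * v) * c₁) * u * v⁻¹ * c₂⁻¹ := by rw [e1, e2]; group
    _ = u⁻¹ * (c₂ * v) * u * v⁻¹ * c₂⁻¹ := by rw [h3.inv_mul_cancel]
    _ = u⁻¹ * (c₂ * (v * u * v⁻¹) * c₂⁻¹) := by group
    _ = u⁻¹ * (v * u * v⁻¹) := by rw [h4.mul_inv_cancel]
    _ = u⁻¹ * v * u * v⁻¹ := by group

/-- For a perfect saturated system, the full preimage of a central subgroup of the factor system
modulo the centre is central. -/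
theorem central_preimage {Ω : Type*} [Group Ω] {S : Subgroup Ω} [Finite S] {p : ℕ} [Fact p.Prime]
    (hS : IsPGroup p S) (F : Cfsg.FusionSystem S) (hF : F.IsSaturated p)
    (hperf : F.hyperfocalSubgroup p = S) {Ω' : Type*} [Group Ω'] {S' : Subgroup Ω'}
    (θ : ↥S →* Ω') (E : Cfsg.FusionSystem S') (hE : F.IsFactorSystem F.center θ E)
    (Q' : Subgroup Ω') (hQ' : E.IsCentral Q') :
    F.IsCentral (Cfsg.FusionSystem.preimageAlong θ Q') := by
  have hE' := hE
  obtain ⟨hZS, hkerθ, hrange, hiff⟩ := hE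
  have hθ : ∀ s : S, θ s ∈ S' := by
    intro s
    rw [← hrange]
    exact ⟨s, rfl⟩
  have hZc : F.IsCentral F.center := Cfsg.Agent.S5144.result F
  -- maps of `F` fix the elements of the centre
  have hfixZ : ∀ (P : Subgroup Ω) (φ : P →* Ω), φ ∈ F.Hom P → ∀ x : P, (x : Ω) ∈ F.center →
      φ x = x := by
    intro P φ hφ x hx
    obtain ⟨ψ, -, hext, hfix⟩ := hZc.2 P φ hφ
    rw [← hext x]
    have e : Subgroup.inclusion (le_sup_left : P ≤ P ⊔ F.center) x =
        Subgroup.inclusion (le_sup_right : F.center ≤ P ⊔ F.center) ⟨x, hx⟩ := Subtype.ext rfl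
    rw [e, hfix]
  have hZsc : F.StronglyClosed F.center := by
    refine ⟨hZS, fun R hR φ hφ x => ?_⟩
    rw [hfixZ R φ hφ x (hR x.2)]
    exact hR x.2
  have hZcomm : ∀ c ∈ F.center, ∀ t ∈ S, Commute c t := by
    intro c hc t ht
    exact ((Subgroup.mem_centralizer_iff.mp (F.center_le_centralizer hc)) t ht).symm
  have hQS : Cfsg.FusionSystem.preimageAlong θ Q' ≤ S := preimageAlong_le θ Q'
  have hZQ : F.center ≤ Cfsg.FusionSystem.preimageAlong θ Q' := by
    intro x hx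
    rw [mem_preimageAlong_iff]
    refine ⟨hZS hx, ?_⟩
    rw [(hkerθ ⟨x, hZS hx⟩).mpr hx]
    exact Q'.one_mem
  -- every map of `F` moves the elements of the preimage only by elements of the centre
  have h3a : ∀ (P : Subgroup Ω) (φ : P →* Ω), φ ∈ F.Hom P → ∀ x : P,
      (x : Ω) ∈ Cfsg.FusionSystem.preimageAlong θ Q' → (x : Ω)⁻¹ * φ x ∈ F.center := by
    intro P φ hφ x hx
    obtain ⟨-, φ', hφ', hP, hφS, hP', hind⟩ := le_indSys hS F hF F.center hZsc θ E hE' hθ P hφ
    obtain ⟨ψ', -, hext', hfix'⟩ := hQ'.2 _ φ' hφ'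
    obtain ⟨hxS, hxQ'⟩ := (mem_preimageAlong_iff θ Q' x).mp hx
    have e1 : φ' ⟨θ ⟨x, hP x.2⟩, hP' x⟩ = θ ⟨x, hP x.2⟩ := by
      rw [← hext' ⟨θ ⟨x, hP x.2⟩, hP' x⟩]
      have e : Subgroup.inclusion
          (le_sup_left : Cfsg.FusionSystem.imageAlong θ P ≤ Cfsg.FusionSystem.imageAlong θ P ⊔ Q')
          ⟨θ ⟨x, hP x.2⟩, hP' x⟩ =
          Subgroup.inclusion
            (le_sup_right : Q' ≤ Cfsg.FusionSystem.imageAlong θ P ⊔ Q')
            ⟨θ ⟨x, hP x.2⟩, hxQ'⟩ := Subtype.ext rfl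
      rw [e, hfix']
    rw [hind x] at e1
    have h1 : θ (⟨x, hP x.2⟩⁻¹ * ⟨φ x, hφS x⟩) = 1 := by
      rw [map_mul, map_inv, e1, inv_mul_cancel]
    exact (hkerθ _).mp h1
  -- the preimage is central in `S`
  have h3b : ∀ z ∈ Cfsg.FusionSystem.preimageAlong θ Q', ∀ s ∈ S, s * z = z * s := by
    intro z hz
    obtain ⟨hzS, hzQ'⟩ := (mem_preimageAlong_iff θ Q' z).mp hz
    have hle : F.hyperfocalSubgroup p ≤ Subgroup.centralizer {z} := by
      refine hyperfocal_le_of F p _ (fun P hP g _ x => ?_)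
      rw [Subgroup.mem_centralizer_singleton_iff]
      obtain ⟨-, a', ha', hP₁, haS, hP', hind⟩ :=
        le_indSys hS F hF F.center hZsc θ E hE' hθ P (autGroup_hom F hP g.2)
      have hind' : ∀ w : P, a' ⟨θ ⟨w, hP w.2⟩, hP' w⟩ =
          θ ⟨((g : MulAut P) w : P), hP ((g : MulAut P) w).2⟩ := fun w => hind w
      obtain ⟨ψ', hψ', hext', hfix'⟩ := hQ'.2 _ a' ha'
      obtain ⟨-, β, hβ, hK, hβS, hKP', hind2⟩ := (hiff _ ψ').mp hψ'
      have hxK : (x : Ω) ∈ Cfsg.FusionSystem.preimageAlong θ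
          (Cfsg.FusionSystem.imageAlong θ P ⊔ Q') :=
        (mem_preimageAlong_iff θ _ _).mpr ⟨hP x.2, (le_sup_left : _ ≤ _ ⊔ Q') (hP' x)⟩
      have hzK : z ∈ Cfsg.FusionSystem.preimageAlong θ
          (Cfsg.FusionSystem.imageAlong θ P ⊔ Q') :=
        (mem_preimageAlong_iff θ _ _).mpr
          ⟨hzS, (le_sup_right : Q' ≤ Cfsg.FusionSystem.imageAlong θ P ⊔ Q') hzQ'⟩
      -- `β x ≡ g x` and `β z ≡ z` modulo the centre
      have hx1 : θ ⟨β ⟨x, hxK⟩, hβS ⟨x, hxK⟩⟩ =
          θ ⟨((g : MulAut P) x : P), hP ((g : MulAut P) x).2⟩ := by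
        rw [← hind2 ⟨x, hxK⟩, ← hind' x, ← hext' ⟨θ ⟨x, hP x.2⟩, hP' x⟩]
        rfl
      have hz1 : θ ⟨β ⟨z, hzK⟩, hβS ⟨z, hzK⟩⟩ = θ ⟨z, hzS⟩ := by
        rw [← hind2 ⟨z, hzK⟩]
        have e : (⟨θ ⟨((⟨z, hzK⟩ : Cfsg.FusionSystem.preimageAlong θ
            (Cfsg.FusionSystem.imageAlong θ P ⊔ Q')) : Ω), hK hzK⟩, hKP' ⟨z, hzK⟩⟩ :
            ↥(Cfsg.FusionSystem.imageAlong θ P ⊔ Q')) =
            Subgroup.inclusion
              (le_sup_right : Q' ≤ Cfsg.FusionSystem.imageAlong θ P ⊔ Q')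
              ⟨θ ⟨z, hzS⟩, hzQ'⟩ := Subtype.ext rfl
        rw [e, hfix']
      have hζ : (((g : MulAut P) x : P) : Ω)⁻¹ * β ⟨x, hxK⟩ ∈ F.center := by
        have h1 : θ (⟨((g : MulAut P) x : P), hP ((g : MulAut P) x).2⟩⁻¹ *
            ⟨β ⟨x, hxK⟩, hβS ⟨x, hxK⟩⟩) = 1 := by
          rw [map_mul, map_inv, hx1, inv_mul_cancel]
        exact (hkerθ _).mp h1
      have hζ' : z⁻¹ * β ⟨z, hzK⟩ ∈ F.center := by
        have h1 : θ (⟨z, hzS⟩⁻¹ * ⟨β ⟨z, hzK⟩, hβS ⟨z, hzK⟩⟩) = 1 := by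
          rw [map_mul, map_inv, hz1, inv_mul_cancel]
        exact (hkerθ _).mp h1
      have hκ : z⁻¹ * (x : Ω) * z * (x : Ω)⁻¹ ∈ F.center := by
        have h := h3a S (conjHom S x) (F.conj_mem le_rfl (hP x.2)) ⟨z, hzS⟩ hz
        have e : z⁻¹ * (x : Ω) * z * (x : Ω)⁻¹ = z⁻¹ * conjHom S (x : Ω) ⟨z, hzS⟩ := by
          show _ = z⁻¹ * ((x : Ω) * z * (x : Ω)⁻¹)
          group
        rw [e]
        exact h
      have hfix := hfixZ _ β hβ
        ((⟨z, hzK⟩ : Cfsg.FusionSystem.preimageAlong θ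
          (Cfsg.FusionSystem.imageAlong θ P ⊔ Q'))⁻¹ * ⟨x, hxK⟩ * ⟨z, hzK⟩ * ⟨x, hxK⟩⁻¹) hκ
      rw [map_mul, map_mul, map_mul, map_inv, map_inv] at hfix
      have hgS : (((g : MulAut P) x : P) : Ω) ∈ S := hP ((g : MulAut P) x).2
      have eA : β ⟨x, hxK⟩ = (((g : MulAut P) x : P) : Ω) *
          ((((g : MulAut P) x : P) : Ω)⁻¹ * β ⟨x, hxK⟩) := by group
      have eB : β ⟨z, hzK⟩ = z * (z⁻¹ * β ⟨z, hzK⟩) := by group
      rw [eA, eB, comm_aux z (((g : MulAut P) x : P) : Ω) _ _ (hZcomm _ hζ' z hzS)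
        (hZcomm _ hζ' _ hgS) (hZcomm _ hζ z hzS) (hZcomm _ hζ _ hgS)
        (hZcomm _ hζ' _ (hZS hζ))] at hfix
      have hfix' : z⁻¹ * (((g : MulAut P) x : P) : Ω) * z * (((g : MulAut P) x : P) : Ω)⁻¹ =
          z⁻¹ * (x : Ω) * z * (x : Ω)⁻¹ := hfix
      have hcomm : z * ((x : Ω)⁻¹ * (((g : MulAut P) x : P) : Ω)) =
          (x : Ω)⁻¹ * (((g : MulAut P) x : P) : Ω) * z := by
        calc z * ((x : Ω)⁻¹ * (((g : MulAut P) x : P) : Ω))
            = (x : Ω)⁻¹ * (z * (z⁻¹ * (x : Ω) * z * (x : Ω)⁻¹)) *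
                (((g : MulAut P) x : P) : Ω) := by group
          _ = (x : Ω)⁻¹ * (z * (z⁻¹ * (((g : MulAut P) x : P) : Ω) * z *
                (((g : MulAut P) x : P) : Ω)⁻¹)) * (((g : MulAut P) x : P) : Ω) := by rw [hfix']
          _ = (x : Ω)⁻¹ * (((g : MulAut P) x : P) : Ω) * z := by group
      exact hcomm.symm
    intro s hs
    have hs' : s ∈ F.hyperfocalSubgroup p := by rw [hperf]; exact hs
    have h := hle hs'
    rw [Subgroup.mem_centralizer_singleton_iff] at h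
    exact h
  -- the preimage is strongly closed, abelian, hence normal in `F`
  have hQsc : F.StronglyClosed (Cfsg.FusionSystem.preimageAlong θ Q') := by
    refine ⟨hQS, fun R hR φ hφ x => ?_⟩
    have h := h3a R φ hφ x (hR x.2)
    have h2 := (Cfsg.FusionSystem.preimageAlong θ Q').mul_mem (hR x.2) (hZQ h)
    rwa [mul_inv_cancel_left] at h2
  have hQn : F.IsNormal (Cfsg.FusionSystem.preimageAlong θ Q') := by
    refine isNormal_of_chain hS F hF _ hQsc 1
      (fun j => match j with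
        | 0 => ⊥
        | _ + 1 => Cfsg.FusionSystem.preimageAlong θ Q') rfl rfl ?_ ?_ ?_ ?_
    · intro j hj
      match j with
      | 0 =>
        intro s _
        rw [Subgroup.mem_normalizer_iff]
        intro h
        show h ∈ (⊥ : Subgroup Ω) ↔ s * h * s⁻¹ ∈ (⊥ : Subgroup Ω)
        rw [Subgroup.mem_bot, Subgroup.mem_bot]
        constructor
        · intro hh; rw [hh]; group
        · intro hh
          have e : h = s⁻¹ * (s * h * s⁻¹) * s := by group
          rw [e, hh]; group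
      | k + 1 => exact le_normalizer_of_stronglyClosed F hQsc
    · intro j hj
      match j with
      | 0 => exact bot_le
      | k + 1 => exact le_rfl
    · intro j hj
      match j with
      | 0 =>
        show ⁅Cfsg.FusionSystem.preimageAlong θ Q', Cfsg.FusionSystem.preimageAlong θ Q'⁆ ≤ ⊥
        rw [Subgroup.commutator_le]
        intro a ha b hb
        rw [Subgroup.mem_bot, commutatorElement_def, ← h3b a ha b (hQS hb)]
        group
      | k + 1 => omega
    · intro j hj Y hY φ hφ _ x hx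
      match j with
      | 0 =>
        have hx1 : x = 1 := Subtype.ext (Subgroup.mem_bot.mp hx)
        rw [hx1, map_one]
        exact Subgroup.mem_bot.mpr rfl
      | k + 1 => omega
  have hfa : F.IsFullyAutomized p (Cfsg.FusionSystem.preimageAlong θ Q') := by
    obtain ⟨ρ, hρ, hfa, -⟩ := exists_far F hF hQS
    have hfin : Finite (Cfsg.FusionSystem.preimageAlong θ Q') := finite_of_le hQS
    have hle : ρ.range ≤ Cfsg.FusionSystem.preimageAlong θ Q' := by
      rintro _ ⟨x, rfl⟩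
      exact hQsc.2 _ le_rfl ρ hρ x
    have heq : ρ.range = Cfsg.FusionSystem.preimageAlong θ Q' :=
      Subgroup.eq_of_le_of_card_ge hle (card_range F hρ).ge
    rwa [heq] at hfa
  have hQp : IsPGroup p (Cfsg.FusionSystem.preimageAlong θ Q') := hS.to_le hQS
  -- automorphisms of order prime to `p` fix every element
  have hprime : ∀ b : F.autGroup (Cfsg.FusionSystem.preimageAlong θ Q'),
      Nat.Coprime (orderOf b) p → ∀ z : Cfsg.FusionSystem.preimageAlong θ Q',
      (b : MulAut (Cfsg.FusionSystem.preimageAlong θ Q')) z = z := by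
    intro b hb z
    have hζ := h3a _ _ (autGroup_hom F hQS b.2) z z.2
    obtain ⟨ζq, hζq⟩ : ∃ ζq : Cfsg.FusionSystem.preimageAlong θ Q', (ζq : Ω) =
        (z : Ω)⁻¹ * ((b : MulAut (Cfsg.FusionSystem.preimageAlong θ Q')) z :
          Cfsg.FusionSystem.preimageAlong θ Q') := ⟨⟨_, hZQ hζ⟩, rfl⟩
    have hζqZ : (ζq : Ω) ∈ F.center := by rw [hζq]; exact hζ
    have hζfix' : (b : MulAut (Cfsg.FusionSystem.preimageAlong θ Q')) ζq = ζq :=
      Subtype.ext (hfixZ _ _ (autGroup_hom F hQS b.2) ζq hζqZ)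
    have hbz : (b : MulAut (Cfsg.FusionSystem.preimageAlong θ Q')) z = z * ζq := by
      apply Subtype.ext
      show _ = (z : Ω) * (ζq : Ω)
      rw [hζq]
      group
    have hpowζ : ∀ k : ℕ, ((b : MulAut (Cfsg.FusionSystem.preimageAlong θ Q')) ^ k) ζq = ζq := by
      intro k
      induction k with
      | zero => rfl
      | succ k ih =>
        rw [pow_succ]
        show ((b : MulAut (Cfsg.FusionSystem.preimageAlong θ Q')) ^ k)
          ((b : MulAut (Cfsg.FusionSystem.preimageAlong θ Q')) ζq) = ζq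
        rw [hζfix', ih]
    have hpow : ∀ k : ℕ, ((b : MulAut (Cfsg.FusionSystem.preimageAlong θ Q')) ^ k) z =
        z * ζq ^ k := by
      intro k
      induction k with
      | zero => simp
      | succ k ih =>
        rw [pow_succ]
        show ((b : MulAut (Cfsg.FusionSystem.preimageAlong θ Q')) ^ k)
          ((b : MulAut (Cfsg.FusionSystem.preimageAlong θ Q')) z) = _
        rw [hbz, map_mul, ih, hpowζ, pow_succ, mul_assoc]
    have hbone : (b : MulAut (Cfsg.FusionSystem.preimageAlong θ Q')) ^ orderOf b = 1 := by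
      have h1 : b ^ orderOf b = 1 := pow_orderOf_eq_one b
      exact congrArg Subtype.val h1
    have h1 := hpow (orderOf b)
    rw [hbone] at h1
    have h2 : ζq ^ orderOf b = 1 := by
      have h3 : z = z * ζq ^ orderOf b := h1
      exact mul_left_cancel (h3.symm.trans (mul_one z).symm)
    obtain ⟨j, hj⟩ := hQp ζq
    have hd1 := orderOf_dvd_of_pow_eq_one h2
    have hd2 := orderOf_dvd_of_pow_eq_one hj
    have hc : Nat.Coprime (orderOf b) (p ^ j) := Nat.Coprime.pow_right j hb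
    have hone := Nat.Coprime.eq_one_of_dvd (hc.coprime_dvd_left hd1) hd2
    rw [orderOf_eq_one_iff] at hone
    rw [hbz, hone, mul_one]
  have hresid : ∀ b : F.autGroup (Cfsg.FusionSystem.preimageAlong θ Q'),
      b ∈ pResidual p (F.autGroup (Cfsg.FusionSystem.preimageAlong θ Q')) →
      ∀ z : Cfsg.FusionSystem.preimageAlong θ Q',
      (b : MulAut (Cfsg.FusionSystem.preimageAlong θ Q')) z = z := by
    intro b hb
    unfold pResidual at hb
    induction hb using Subgroup.closure_induction with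
    | mem b hb => exact hprime b hb
    | one => intro z; rfl
    | mul a b _ _ iha ihb =>
      intro z
      show (a : MulAut (Cfsg.FusionSystem.preimageAlong θ Q'))
        ((b : MulAut (Cfsg.FusionSystem.preimageAlong θ Q')) z) = z
      rw [ihb, iha]
    | inv a _ iha =>
      intro z
      have h1 := iha z
      have h2 : (a : MulAut (Cfsg.FusionSystem.preimageAlong θ Q'))⁻¹
          ((a : MulAut (Cfsg.FusionSystem.preimageAlong θ Q')) z) = z := by simp
      rw [h1] at h2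
      exact h2
  have hautfix : ∀ a ∈ F.autGroup (Cfsg.FusionSystem.preimageAlong θ Q'),
      ∀ z : Cfsg.FusionSystem.preimageAlong θ Q', a z = z := by
    intro a ha z
    obtain ⟨n, hn, r, hr, hdec⟩ := autGroup_decomp F hfa a ha
    obtain ⟨s, hsS, hs⟩ := (mem_autInducedBy_iff r).mp hr
    have hrz : r z = z := by
      apply Subtype.ext
      rw [hs z, h3b z z.2 s hsS]
      group
    rw [hdec]
    show (n : MulAut (Cfsg.FusionSystem.preimageAlong θ Q')) (r z) = z
    rw [hrz, hresid n hn]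
  refine (Cfsg.Agent.S5084.result p hS F hF _).mpr ⟨hQS, fun z hz y hy => ?_⟩
  obtain ⟨φ, hφ, rfl⟩ := hy
  have hle : Subgroup.zpowers z ≤ Cfsg.FusionSystem.preimageAlong θ Q' :=
    (Subgroup.zpowers_le).mpr hz
  obtain ⟨a, ha, hax⟩ := exists_aut_of_isNormal F hQn hφ hle
  rw [← hax ⟨z, Subgroup.mem_zpowers z⟩]
  exact congrArg Subtype.val (hautfix a ha ⟨z, hz⟩)

/-- An analogue of Grün's lemma for fusion systems. Let F be a saturated fusion system over a finite p-group S that is perfect in the sense that its hyperfocal subgroup is all of S (F coincides with its p-residual subsystem). Then the second centre of F equals its centre: every fusion system over S/(Z(F) ∩ S) that is the factor system of F modulo its centre Z(F), read through the quotient map, has trivial centre. -/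
theorem result {Ω : Type*} [Group Ω] {S : Subgroup Ω} [Finite S] (p : ℕ) [Fact p.Prime] (hS : IsPGroup p S) (F : Cfsg.FusionSystem S) (hF : F.IsSaturated p)
    (hperf : F.hyperfocalSubgroup p = S)
    (E : Cfsg.FusionSystem (⊤ : Subgroup (↥S ⧸ (F.center).subgroupOf S)))
    (hE : F.IsFactorSystem F.center (QuotientGroup.mk' ((F.center).subgroupOf S)) E) : E.center = ⊥ := by
  rw [eq_bot_iff]
  refine sSup_le fun Q' hQ' => ?_
  intro q' hq'
  have hc := central_preimage hS F hF hperf _ E hE Q' hQ'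
  have hle : Cfsg.FusionSystem.preimageAlong (QuotientGroup.mk' ((F.center).subgroupOf S)) Q' ≤
      F.center := le_sSup hc
  obtain ⟨s, rfl⟩ := QuotientGroup.mk'_surjective ((F.center).subgroupOf S) q'
  have hs : (s : Ω) ∈ Cfsg.FusionSystem.preimageAlong
      (QuotientGroup.mk' ((F.center).subgroupOf S)) Q' :=
    (mem_preimageAlong_iff _ Q' _).mpr ⟨s.2, hq'⟩
  rw [Subgroup.mem_bot]
  exact (hE.2.1 s).mpr (hle hs)

end Cfsg.Agent.S5315
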