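import Cfsg.Statements.S5317
import Cfsg.Agent.H85.PSL2Inv

set_option autoImplicit false
open Cfsg

namespace Cfsg.Agent.S5317

/-- Let F be a finite field of odd order q with q² ≡ 1 mod 16 (so that a Sylow 2-subgroup of PSL(2,q), dihedral of order the 2-part of (q²−1)/2, has order at least 8). Then the 2-fusion system of PSL(2,F) on a Sylow 2-subgroup is simple: saturated, over a nontrivial 2-group, with no normal subsystem other than the trivial one and itself. -/
theorem result {F : Type*} [Field F] [Fintype F] (hodd : Fintype.card F % 2 = 1) (h16 : 16 ∣ Fintype.card F ^ 2 - 1)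
    (S : Sylow 2 (Matrix.ProjectiveSpecialLinearGroup (Fin 2) F)) :
    (Cfsg.groupFusionSystem (S : Subgroup (Matrix.ProjectiveSpecialLinearGroup (Fin 2) F))).IsSimple 2 := by
  have h2 : (2 : F) ≠ 0 := Cfsg.Agent.Lib.Helper42.SL2Odd.two_ne_zero_of_odd (by omega)
  exact Cfsg.Agent.H85.groupFS_isSimple_of_dihData (Cfsg.Agent.H85.PSL2Inv.dihData h2)
    (Cfsg.Agent.H85.PSL2Inv.involution_conj hodd h2)
    (Cfsg.Agent.H85.PSL2Inv.eight_dvd_card hodd h16) S

end Cfsg.Agent.S5317
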