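import Cfsg.Statements.S5328
import Cfsg.Agent.Lib.Helper87.FSBasic
import Cfsg.Agent.Lib.Helper87.Burnside
import Cfsg.Agent.Lib.Helper87.Marks
import Cfsg.Agent.Lib.Helper87.TwistDiag
import Cfsg.Agent.Lib.Helper88.FSBase

set_option autoImplicit false
universe u
open Cfsg

namespace Cfsg.Agent.S5328

open Cfsg.Agent.Lib.Helper87.FSBasic Cfsg.Agent.Lib.Helper87.Burnside
  Cfsg.Agent.Lib.Helper87.Marks Cfsg.Agent.Lib.Helper87.TwistDiag MulAction

variable {Ω : Type u} [Group Ω] {S : Subgroup Ω}

theorem card_lt_of_lt {G : Type*} [Group G] [Finite G] {H K : Subgroup G} (h : H < K) :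
    Nat.card H < Nat.card K := by
  have h1 := Set.ncard_lt_ncard (SetLike.coe_ssubset_coe.mpr h) (Set.toFinite _)
  rw [← Nat.card_coe_set_eq, ← Nat.card_coe_set_eq] at h1
  exact h1

/-- Park's group: the permutations of `X` commuting with the right action of `S`. -/
def parkGroup (S : Subgroup Ω) (X : Type u) [MulAction (S × S) X] : Subgroup (Equiv.Perm X) where
  carrier := {σ | ∀ (s : S) (x : X), σ (((1 : S), s) • x) = ((1 : S), s) • σ x}
  one_mem' := fun _ _ => rfl
  mul_mem' := by
    intro σ τ hσ hτ s x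
    show σ (τ (((1 : S), s) • x)) = ((1 : S), s) • σ (τ x)
    rw [hτ s x, hσ s (τ x)]
  inv_mem' := by
    intro σ hσ s x
    apply σ.injective
    rw [hσ]
    simp

/-- The left action of `S`, as a homomorphism into Park's group. -/
def parkHom (S : Subgroup Ω) (X : Type u) [MulAction (S × S) X] : S →* parkGroup S X :=
  MonoidHom.codRestrict ((MulAction.toPermHom (S × S) X).comp (MonoidHom.inl S S)) _
    (fun a s x => by
      show ((a, (1 : S)) : S × S) • (((1 : S), s) : S × S) • x =
        (((1 : S), s) : S × S) • ((a, (1 : S)) : S × S) • x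
      rw [smul_smul, smul_smul]
      simp)

theorem parkHom_apply (X : Type u) [MulAction (S × S) X] (a : S) (x : X) :
    ((parkHom S X a : parkGroup S X) : Equiv.Perm X) x = ((a, (1 : S)) : S × S) • x := rfl

/-- Park's biset for the weights `μ`. -/
abbrev ParkSet (F : Cfsg.FusionSystem S) (μ : graphs F → ℕ) : Type u :=
  Σ (i : Σ D : graphs F, Fin (μ D * Nat.card (D : Subgroup (S × S)))),
    (S × S) ⧸ (i.1 : Subgroup (S × S))

theorem stabilizer_mem_graphs (F : Cfsg.FusionSystem S) (μ : graphs F → ℕ) (x : ParkSet F μ) :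
    stabilizer (S × S) x ∈ graphs F := by
  obtain ⟨⟨D, j⟩, q⟩ := x
  induction q using QuotientGroup.induction_on with
  | H g =>
    rw [stabilizer_sigma, stabilizer_mk]
    exact graphs_conj F D.2 g

theorem exists_realization [Finite S] (F : Cfsg.FusionSystem S) :
    ∃ (G : Type u) (_ : Group G) (_ : Finite G) (ι : ↥S →* G), F.IsRealizedBy ι := by
  classical
  haveI : Fintype (graphs F) := Fintype.ofFinite _
  obtain ⟨μ, γ, hμ1, hμ⟩ := exists_weights (ι := graphs F)
    (fun D => Nat.card (D : Subgroup (S × S)))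
    (fun a b hab => card_lt_of_lt (show (a : Subgroup (S × S)) < b from hab))
  have hmarks : ∀ H : Subgroup (S × S),
      Nat.card {x : ParkSet F μ // H ≤ stabilizer (S × S) x} =
        if H ∈ graphs F then Nat.card (S × S) * γ (Nat.card H) else 0 :=
    fun H => marks_of_weights (graphs F) (fun D hD H hH => graphs_of_le F hD hH)
      (fun D hD g => graphs_conj F hD g) μ γ hμ H
  -- the base point
  have hpos : 0 < μ ⟨_, diag_mem_graphs F⟩ * Nat.card (graph (S := S) S S.subtype) :=
    Nat.mul_pos (hμ1 _) Nat.card_pos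
  obtain ⟨x₀, hx₀⟩ : ∃ x₀ : ParkSet F μ, stabilizer (S × S) x₀ = graph S S.subtype := by
    refine ⟨⟨⟨⟨_, diag_mem_graphs F⟩, ⟨0, hpos⟩⟩, ((1 : S × S) : (S × S) ⧸ _)⟩, ?_⟩
    rw [stabilizer_sigma]
    exact MulAction.stabilizer_quotient _
  refine ⟨parkGroup S (ParkSet F μ), inferInstance, inferInstance, parkHom S (ParkSet F μ), ?_, ?_⟩
  · rw [injective_iff_map_eq_one]
    intro a ha
    have h1 : ((parkHom S (ParkSet F μ) a : parkGroup S (ParkSet F μ)) : Equiv.Perm _) x₀ = x₀ := by
      rw [ha]; rfl
    rw [parkHom_apply] at h1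
    have h2 : ((a, (1 : S)) : S × S) ∈ stabilizer (S × S) x₀ := mem_stabilizer_iff.mpr h1
    rw [hx₀] at h2
    exact mem_diag.mp h2
  · intro P hP φ hφS
    constructor
    · intro hφ
      have hm : ∀ H' : Subgroup (P × S),
          Nat.card {x : ParkSet F μ // H'.map (MonoidHom.prodMap (Subgroup.inclusion hP)
            (MonoidHom.id S)) ≤ stabilizer (S × S) x} =
          Nat.card {x : ParkSet F μ // H'.map (MonoidHom.prodMap (φ.codRestrict S hφS)
            (MonoidHom.id S)) ≤ stabilizer (S × S) x} := by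
        intro H'
        rw [hmarks, hmarks]
        have hc1 : Nat.card (H'.map (MonoidHom.prodMap (Subgroup.inclusion hP)
            (MonoidHom.id S))) = Nat.card H' := by
          apply Subgroup.card_map_of_injective
          rw [MonoidHom.coe_prodMap]
          exact Function.Injective.prodMap (Subgroup.inclusion_injective hP) Function.injective_id
        have hc2 : Nat.card (H'.map (MonoidHom.prodMap (φ.codRestrict S hφS)
            (MonoidHom.id S))) = Nat.card H' := by
          apply Subgroup.card_map_of_injective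
          rw [MonoidHom.coe_prodMap]
          refine Function.Injective.prodMap ?_ Function.injective_id
          intro a b hab
          exact F.injective_of_mem hφ (congrArg Subtype.val hab)
        rw [hc1, hc2]
        by_cases h : H'.map (MonoidHom.prodMap (Subgroup.inclusion hP) (MonoidHom.id S)) ∈ graphs F
        · rw [if_pos h, if_pos ((map_mem_graphs_iff F hφ hP hφS H').mp h)]
        · rw [if_neg h, if_neg (fun h' => h ((map_mem_graphs_iff F hφ hP hφS H').mpr h'))]
      haveI : Finite P := Finite.of_injective _ (Subgroup.inclusion_injective hP)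
      obtain ⟨e, he⟩ := burnside_compHom (G := S × S) (G' := P × S) (X := ParkSet F μ) _ _ hm
      have hemem : e ∈ parkGroup S (ParkSet F μ) := by
        intro s x
        have h1 := he ((1 : P), s) x
        have e1 : (MonoidHom.prodMap (Subgroup.inclusion hP) (MonoidHom.id S)) ((1 : P), s) =
            ((1 : S), s) := by
          rw [MonoidHom.prodMap_def]; simp
        have e2 : (MonoidHom.prodMap (φ.codRestrict S hφS) (MonoidHom.id S)) ((1 : P), s) =
            ((1 : S), s) := by
          rw [MonoidHom.prodMap_def]; simp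
        rw [e1, e2] at h1
        exact h1
      refine ⟨⟨e, hemem⟩, fun x => ?_⟩
      rw [eq_mul_inv_iff_mul_eq]
      apply Subtype.ext
      apply Equiv.ext
      intro ω
      show ((⟨φ x, hφS x⟩, (1 : S)) : S × S) • e ω = e (((⟨x, hP x.2⟩, (1 : S)) : S × S) • ω)
      have h1 := he (x, (1 : S)) ω
      exact h1.symm
    · rintro ⟨g, hg⟩
      obtain ⟨y₀, hy₀⟩ : ∃ y₀, y₀ = (g : Equiv.Perm (ParkSet F μ)) x₀ := ⟨_, rfl⟩
      have hstab : ∀ x : P, ((⟨φ x, hφS x⟩, ⟨x, hP x.2⟩) : S × S) ∈ stabilizer (S × S) y₀ := by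
        intro x
        rw [mem_stabilizer_iff]
        have h1 := hg x
        rw [eq_mul_inv_iff_mul_eq] at h1
        have h2 : ((⟨φ x, hφS x⟩, (1 : S)) : S × S) • (g : Equiv.Perm (ParkSet F μ)) x₀ =
            (g : Equiv.Perm (ParkSet F μ)) (((⟨x, hP x.2⟩, (1 : S)) : S × S) • x₀) := by
          have h3 := congrArg (fun σ : parkGroup S (ParkSet F μ) => (σ : Equiv.Perm _) x₀) h1
          exact h3
        have h4 : ((⟨x, hP x.2⟩, ⟨x, hP x.2⟩) : S × S) • x₀ = x₀ := by
          rw [← mem_stabilizer_iff, hx₀]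
          exact mem_diag.mpr rfl
        have h5 : ((⟨x, hP x.2⟩, (1 : S)) : S × S) • x₀ =
            (((1 : S), (⟨x, hP x.2⟩ : S)⁻¹) : S × S) • x₀ := by
          conv_rhs => rw [← h4]
          rw [smul_smul]
          simp
        rw [h5, g.2 _ x₀, ← hy₀] at h2
        have h6 : ((⟨φ x, hφS x⟩, ⟨x, hP x.2⟩) : S × S) =
            (((1 : S), (⟨x, hP x.2⟩ : S)⁻¹) : S × S)⁻¹ * ((⟨φ x, hφS x⟩, (1 : S)) : S × S) := by
          simp
        rw [h6, mul_smul, h2, inv_smul_smul]
      obtain ⟨Q, χ, hχ, hQ⟩ := stabilizer_mem_graphs F μ y₀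
      have hφQ : ∀ x : P, ∃ h : φ x ∈ Q, χ ⟨φ x, h⟩ = (x : Ω) := by
        intro x
        have h1 := hstab x
        rw [hQ] at h1
        exact mem_graph.mp h1
      have hRQ : φ.range ≤ Q := by
        rintro _ ⟨x, rfl⟩
        exact (hφQ x).1
      have hχR := restrict_mem F hχ hRQ
      have hrange : (χ.comp (Subgroup.inclusion hRQ)).range = P := by
        ext z
        constructor
        · rintro ⟨⟨_, x, rfl⟩, rfl⟩
          show χ ⟨φ x, _⟩ ∈ P
          rw [(hφQ x).2]
          exact x.2
        · intro hz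
          exact ⟨⟨φ ⟨z, hz⟩, ⟨_, rfl⟩⟩, (hφQ ⟨z, hz⟩).2⟩
      obtain ⟨ψ, hψ, hψx, -⟩ := Cfsg.Agent.Lib.Helper88.FSBase.inv_mem' F hχR hrange
      refine mem_of_eq F hψ fun x => ?_
      have h1 := hψx ⟨φ x, ⟨x, rfl⟩⟩ (by
        show χ ⟨φ x, _⟩ ∈ P
        rw [(hφQ x).2]
        exact x.2)
      have e1 : (⟨(χ.comp (Subgroup.inclusion hRQ)) ⟨φ x, ⟨x, rfl⟩⟩, by
          show χ ⟨φ x, _⟩ ∈ P
          rw [(hφQ x).2]
          exact x.2⟩ : P) = x := Subtype.ext (hφQ x).2
      rw [e1] at h1
      exact h1.symm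

/-- Every fusion system over a finite p-group S, saturated or not, is realized inside some finite group: there is a finite group G and an injective homomorphism ι of S into G such that the maps of the system are exactly the homomorphisms between subgroups of S that become conjugations by elements of G (the image of S need not be a Sylow p-subgroup of G). -/
theorem result {Ω : Type u} [Group Ω] {S : Subgroup Ω} [Finite S] (p : ℕ) [Fact p.Prime] (hS : IsPGroup p S) (F : Cfsg.FusionSystem S) : ∃ (G : Type u) (_ : Group G) (_ : Finite G) (ι : ↥S →* G), F.IsRealizedBy ι := by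
  exact exists_realization F

end Cfsg.Agent.S5328
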