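import Cfsg.Statements.S5330
import Cfsg.Agent.Lib.Helper88.FSBase
import Cfsg.Agent.Lib.Helper88.FSAbelian

set_option autoImplicit false
open Cfsg

namespace Cfsg.Agent.S5330

open Cfsg.FusionSystem Cfsg.Agent.Lib.Helper88.FSBase Cfsg.Agent.Lib.Helper88.FSAbelian

variable {Ω : Type*} [Group Ω] {S : Subgroup Ω}

/-- The centre of a saturated system over a finite abelian group is the fixed subgroup of
`Aut_F(S)`. -/
theorem center_eq [Finite S] (p : ℕ) (F : Cfsg.FusionSystem S) (hF : F.IsSaturated p)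
    (hab : ∀ x ∈ S, ∀ y ∈ S, x * y = y * x) :
    F.center = (fixedSub (F.autGroup S)).map S.subtype := by
  apply le_antisymm
  · refine sSup_le fun Q hQ => ?_
    obtain ⟨hQS, hext⟩ := hQ
    intro q hq
    refine ⟨⟨q, hQS hq⟩, ?_, rfl⟩
    intro a ha
    have hα : S.subtype.comp a.toMonoidHom ∈ F.Hom S := (mem_autGroup_iff F le_rfl a).mp ha
    obtain ⟨ψ, -, hψS, hψQ⟩ := hext S _ hα
    have h1 := hψS ⟨q, hQS hq⟩
    have h2 := hψQ ⟨q, hq⟩
    have h12 : (Subgroup.inclusion (le_sup_left : S ≤ S ⊔ Q) ⟨q, hQS hq⟩) =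
        Subgroup.inclusion (le_sup_right : Q ≤ S ⊔ Q) ⟨q, hq⟩ := Subtype.ext rfl
    rw [h12, h2] at h1
    apply Subtype.ext
    exact h1.symm
  · refine le_sSup ⟨Subgroup.map_subtype_le _, fun P φ hφ => ?_⟩
    obtain ⟨a, ha, hax⟩ := exists_aut_extension_of_abelian p F hF hab hφ
    have hα : S.subtype.comp a.toMonoidHom ∈ F.Hom S := (mem_autGroup_iff F le_rfl a).mp ha
    have hle : P ⊔ (fixedSub (F.autGroup S)).map S.subtype ≤ S :=
      sup_le (dom_le F hφ) (Subgroup.map_subtype_le _)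
    refine ⟨_, restrict_mem F hle hα, fun x => ?_, fun x => ?_⟩
    · exact hax x x.2 (dom_le F hφ x.2)
    · obtain ⟨x, y, hy, rfl⟩ := x
      show ((a y : S) : Ω) = y
      rw [hy a ha]

/-- The focal subgroup of a saturated system over a finite abelian group is `[S, Aut_F(S)]`. -/
theorem focal_eq [Finite S] (p : ℕ) (F : Cfsg.FusionSystem S) (hF : F.IsSaturated p)
    (hab : ∀ x ∈ S, ∀ y ∈ S, x * y = y * x) :
    F.focalSubgroup = (commSub (F.autGroup S)).map S.subtype := by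
  apply le_antisymm
  · unfold FusionSystem.focalSubgroup
    rw [Subgroup.closure_le]
    rintro y ⟨P, φ, x, hφ, rfl⟩
    obtain ⟨a, ha, hax⟩ := exists_aut_extension_of_abelian p F hF hab hφ
    have hxS : (x : Ω) ∈ S := dom_le F hφ x.2
    refine ⟨(⟨x, hxS⟩ : S)⁻¹ * a ⟨x, hxS⟩, Subgroup.subset_closure ⟨a, ha, ⟨x, hxS⟩, rfl⟩, ?_⟩
    show (x : Ω)⁻¹ * ((a ⟨x, hxS⟩ : S) : Ω) = (x : Ω)⁻¹ * φ x
    rw [hax x x.2 hxS]
  · rw [Subgroup.map_le_iff_le_comap]
    unfold commSub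
    rw [Subgroup.closure_le]
    rintro y ⟨a, ha, x, rfl⟩
    have hα : S.subtype.comp a.toMonoidHom ∈ F.Hom S := (mem_autGroup_iff F le_rfl a).mp ha
    show ((x⁻¹ * a x : S) : Ω) ∈ F.focalSubgroup
    exact Subgroup.subset_closure ⟨S, _, x, hα, rfl⟩

/-- Let F be a saturated fusion system over a finite abelian p-group S. Then S is the internal direct product of the centre of the system and the focal subgroup: Z(F) ∩ foc(F) = 1 and Z(F)·foc(F) = S. -/
theorem result {Ω : Type*} [Group Ω] {S : Subgroup Ω} [Finite S] (p : ℕ) [Fact p.Prime] (hS : IsPGroup p S) (F : Cfsg.FusionSystem S) (hF : F.IsSaturated p) (hab : ∀ x ∈ S, ∀ y ∈ S, x * y = y * x) : F.center ⊓ F.focalSubgroup = ⊥ ∧ F.center ⊔ F.focalSubgroup = S := by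
  have hcop := coprime_card_autGroup_of_abelian p hS F hF hab
  have hcomm : ∀ x y : S, x * y = y * x := fun x y => Subtype.ext (hab x x.2 y y.2)
  obtain ⟨h1, h2⟩ := coprime_decomp hcomm (F.autGroup S) hcop
  rw [center_eq p F hF hab, focal_eq p F hF hab]
  constructor
  · rw [eq_bot_iff]
    rintro z ⟨⟨c, hc, rfl⟩, ⟨d, hd, hcd⟩⟩
    have : d = c := Subtype.ext hcd
    subst this
    have := h1 d hc hd
    rw [this]
    exact Subgroup.one_mem _
  · apply le_antisymm
    · exact sup_le (Subgroup.map_subtype_le _) (Subgroup.map_subtype_le _)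
    · intro x hx
      obtain ⟨c, d, hcd, hc, hd⟩ := h2 ⟨x, hx⟩
      have : x = (c : Ω) * (d : Ω) := congrArg Subtype.val hcd
      rw [this]
      exact Subgroup.mul_mem_sup ⟨c, hc, rfl⟩ ⟨d, hd, rfl⟩

end Cfsg.Agent.S5330
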