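import Cfsg.Statements.S5331
import Cfsg.Agent.Lib.Helper88.FSBase
import Cfsg.Agent.Lib.Helper88.FSAbelian

set_option autoImplicit false
open Cfsg

namespace Cfsg.Agent.S5331

open Cfsg.FusionSystem Cfsg.Agent.Lib.Helper88.FSBase Cfsg.Agent.Lib.Helper88.FSAbelian

/-! ### Additive maps of odd order -/

section general

variable {M : Type*} [AddCommGroup M]

/-- If `f` is additive of odd order and moves `x` by an `f`-fixed element of order two, then it
fixes `x`. -/
theorem fix_of_delta (f : M → M) (hadd : ∀ x y, f (x + y) = f x + f y) (m : ℕ) (hm : Odd m)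
    (hiter : ∀ x, f^[m] x = x) (x : M) (hfix : f (f x - x) = f x - x) (h2 : 2 • (f x - x) = 0) :
    f x = x := by
  have hzero : f 0 = 0 := by
    have := hadd 0 0
    rw [add_zero] at this
    exact left_eq_add.mp this
  have hnsmul : ∀ (k : ℕ) (y : M), f (k • y) = k • f y := by
    intro k y
    induction k with
    | zero => simp [hzero]
    | succ k ih => rw [succ_nsmul, hadd, ih, succ_nsmul]
  have key : ∀ k : ℕ, f^[k] x = x + k • (f x - x) := by
    intro k
    induction k with
    | zero => simp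
    | succ k ih =>
      rw [Function.iterate_succ_apply', ih, hadd, hnsmul, hfix, succ_nsmul]
      abel
  have h1 := key m
  rw [hiter x] at h1
  have h3 : m • (f x - x) = 0 := by
    have := h1.symm
    rwa [add_eq_left] at this
  obtain ⟨j, rfl⟩ := hm
  rw [add_smul, mul_smul, one_smul] at h3
  have h4 : j • (2 • (f x - x)) = 0 := by rw [h2, smul_zero]
  rw [smul_comm, h4, zero_add] at h3
  exact sub_eq_zero.mp h3

end general

/-! ### Coordinates in `ZMod (2 ^ A)` -/

theorem zmod_claimA (A k : ℕ) (hA : A ≠ k + 1) (x z : ZMod (2 ^ A)) (h2 : 2 • x = 0)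
    (hx : x = 2 ^ k • z) : ∃ z' : ZMod (2 ^ A), x = 2 ^ (k + 1) • z' := by
  rcases Nat.lt_or_ge k A with hkA | hkA
  · -- k + 2 ≤ A
    have hA2 : k + 2 ≤ A := by omega
    obtain ⟨v, rfl⟩ : ∃ v : ℕ, z = (v : ZMod (2 ^ A)) := ⟨z.val, (ZMod.natCast_zmod_val z).symm⟩
    have h3 : ((2 ^ (k + 1) * v : ℕ) : ZMod (2 ^ A)) = 0 := by
      have : ((2 ^ (k + 1) * v : ℕ) : ZMod (2 ^ A)) = 2 • x := by
        rw [hx]
        simp only [nsmul_eq_mul]
        push_cast
        ring
      rw [this, h2]
    rw [ZMod.natCast_eq_zero_iff] at h3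
    have h4 : 2 ^ (A - k - 1) ∣ v := by
      have e : 2 ^ A = 2 ^ (k + 1) * 2 ^ (A - k - 1) := by
        rw [← pow_add]; congr 1; omega
      rw [e] at h3
      exact Nat.dvd_of_mul_dvd_mul_left (by positivity) h3
    obtain ⟨u, rfl⟩ := h4
    refine ⟨((2 ^ (A - k - 2) * u : ℕ) : ZMod (2 ^ A)), ?_⟩
    rw [hx]
    simp only [nsmul_eq_mul]
    push_cast
    have e2 : (2 : ZMod (2 ^ A)) ^ (A - k - 1) = 2 * 2 ^ (A - k - 2) := by
      rw [← pow_succ']; congr 1; omega
    rw [e2]
    ring
  · -- A ≤ k : x = 0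
    refine ⟨0, ?_⟩
    rw [hx, smul_zero]
    have : ((2 ^ k : ℕ) : ZMod (2 ^ A)) = 0 := by
      rw [ZMod.natCast_eq_zero_iff]
      exact pow_dvd_pow 2 hkA
    rw [nsmul_eq_mul]
    push_cast at this ⊢
    rw [this, zero_mul]

theorem zmod_claimB (A k : ℕ) (hA : A = k + 1) (x z : ZMod (2 ^ A)) (hx : x = 2 ^ k • z) :
    x = 0 ∨ x = 2 ^ k • (1 : ZMod (2 ^ A)) := by
  subst hA
  have hz : z = ((z.val : ℕ) : ZMod (2 ^ (k + 1))) := (ZMod.natCast_zmod_val z).symm
  have h0 : ((2 ^ (k + 1) : ℕ) : ZMod (2 ^ (k + 1))) = 0 := ZMod.natCast_self _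
  rcases Nat.even_or_odd' z.val with ⟨u, hu | hu⟩
  · left
    rw [hx, hz, hu]
    simp only [nsmul_eq_mul]
    push_cast at h0 ⊢
    have : (2 : ZMod (2 ^ (k + 1))) ^ k * (2 * (u : ZMod (2 ^ (k + 1)))) =
        2 ^ (k + 1) * (u : ZMod (2 ^ (k + 1))) := by ring
    rw [this, h0, zero_mul]
  · right
    rw [hx, hz, hu]
    simp only [nsmul_eq_mul]
    push_cast at h0 ⊢
    have : (2 : ZMod (2 ^ (k + 1))) ^ k * (2 * (u : ZMod (2 ^ (k + 1))) + 1) =
        2 ^ (k + 1) * (u : ZMod (2 ^ (k + 1))) + 2 ^ k * 1 := by ring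
    rw [this, h0, zero_mul, zero_add]

/-! ### The product of cyclic groups of distinct 2-power orders -/

section prod

variable {n : ℕ} (a : Fin n → ℕ)

/-- The subgroup `Ω₁(M) ∩ 2^k M`, as a predicate. -/
def InV (k : ℕ) (x : (i : Fin n) → ZMod (2 ^ a i)) : Prop :=
  2 • x = 0 ∧ ∃ y : (i : Fin n) → ZMod (2 ^ a i), x = 2 ^ k • y

theorem inV_sub (k : ℕ) {v w : (i : Fin n) → ZMod (2 ^ a i)} (hv : InV a k v) (hw : InV a k w) :
    InV a k (v - w) := by
  obtain ⟨hv2, yv, rfl⟩ := hv
  obtain ⟨hw2, yw, rfl⟩ := hw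
  refine ⟨?_, yv - yw, ?_⟩
  · rw [smul_sub, hv2, hw2, sub_zero]
  · rw [smul_sub]

theorem inV_succ_of (k : ℕ) {x : (i : Fin n) → ZMod (2 ^ a i)} (hx : InV a k x)
    (h0 : ∀ i, a i = k + 1 → x i = 0) : InV a (k + 1) x := by
  obtain ⟨hx2, y, hy⟩ := hx
  refine ⟨hx2, ?_⟩
  have hcoord : ∀ i, ∃ z' : ZMod (2 ^ a i), x i = 2 ^ (k + 1) • z' := by
    intro i
    by_cases hi : a i = k + 1
    · exact ⟨0, by rw [h0 i hi, smul_zero]⟩
    · refine zmod_claimA (a i) k hi (x i) (y i) ?_ ?_
      · have := congrFun hx2 i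
        simpa using this
      · have := congrFun hy i
        simpa using this
  choose z' hz' using hcoord
  refine ⟨z', ?_⟩
  funext i
  rw [hz' i]
  simp

theorem inV_diff (ha : Function.Injective a) (k : ℕ) {v w : (i : Fin n) → ZMod (2 ^ a i)}
    (hv : InV a k v) (hw : InV a k w) (hv' : ¬ InV a (k + 1) v) (hw' : ¬ InV a (k + 1) w) :
    InV a (k + 1) (v - w) := by
  apply inV_succ_of a k (inV_sub a k hv hw)
  intro i hi
  have hvi : v i ≠ 0 := by
    intro h
    apply hv'
    apply inV_succ_of a k hv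
    intro j hj
    have : j = i := ha (hj.trans hi.symm)
    rw [this]; exact h
  have hwi : w i ≠ 0 := by
    intro h
    apply hw'
    apply inV_succ_of a k hw
    intro j hj
    have : j = i := ha (hj.trans hi.symm)
    rw [this]; exact h
  obtain ⟨-, yv, hyv⟩ := hv
  obtain ⟨-, yw, hyw⟩ := hw
  have e1 : v i = 2 ^ k • yv i := by
    have := congrFun hyv i
    simpa using this
  have e2 : w i = 2 ^ k • yw i := by
    have := congrFun hyw i
    simpa using this
  have h1 := (zmod_claimB (a i) k hi (v i) (yv i) e1).resolve_left hvi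
  have h2 := (zmod_claimB (a i) k hi (w i) (yw i) e2).resolve_left hwi
  show v i - w i = 0
  rw [h1, h2, sub_self]

theorem pow_smul_eq_zero (K : ℕ) (hK : ∀ i, a i ≤ K) (x : (i : Fin n) → ZMod (2 ^ a i)) :
    2 ^ K • x = 0 := by
  funext i
  have : ((2 ^ K : ℕ) : ZMod (2 ^ a i)) = 0 := by
    rw [ZMod.natCast_eq_zero_iff]
    exact pow_dvd_pow 2 (hK i)
  show 2 ^ K • x i = 0
  rw [nsmul_eq_mul]
  push_cast at this ⊢
  rw [this, zero_mul]

/-- An additive self-map of odd order of a product of cyclic groups of distinct 2-power orders is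
the identity. -/
theorem odd_order_trivial (ha : Function.Injective a)
    (f : ((i : Fin n) → ZMod (2 ^ a i)) → ((i : Fin n) → ZMod (2 ^ a i)))
    (hadd : ∀ x y, f (x + y) = f x + f y) (m : ℕ) (hm : Odd m) (hiter : ∀ x, f^[m] x = x)
    (x : (i : Fin n) → ZMod (2 ^ a i)) : f x = x := by
  have hzero : f 0 = 0 := by
    have := hadd 0 0
    rw [add_zero] at this
    exact left_eq_add.mp this
  have hnsmul : ∀ (k : ℕ) (y : (i : Fin n) → ZMod (2 ^ a i)), f (k • y) = k • f y := by
    intro k y
    induction k with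
    | zero => simp [hzero]
    | succ k ih => rw [succ_nsmul, hadd, ih, succ_nsmul]
  have hsub : ∀ y z, f (y - z) = f y - f z := by
    intro y z
    have := hadd (y - z) z
    rw [sub_add_cancel] at this
    rw [this, add_sub_cancel_right]
  -- f preserves each V k
  have hpres : ∀ k y, InV a k y → InV a k (f y) := by
    rintro k y ⟨h2, z, rfl⟩
    refine ⟨?_, f z, hnsmul _ _⟩
    rw [← hnsmul, h2, hzero]
  have hpres_iter : ∀ k (j : ℕ) y, InV a k y → InV a k (f^[j] y) := by
    intro k j
    induction j with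
    | zero => intro y hy; exact hy
    | succ j ih =>
      intro y hy
      rw [Function.iterate_succ_apply']
      exact hpres k _ (ih y hy)
  have hm1 : 1 ≤ m := by
    obtain ⟨j, rfl⟩ := hm; omega
  have hrefl : ∀ k y, InV a k (f y) → InV a k y := by
    intro k y hy
    have := hpres_iter k (m - 1) (f y) hy
    rw [← Function.iterate_succ_apply] at this
    have e : (m - 1).succ = m := by omega
    rw [e, hiter] at this
    exact this
  -- a bound for the exponents
  obtain ⟨K, hK⟩ : ∃ K, ∀ i, a i ≤ K :=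
    ⟨Finset.univ.sup a, fun i => Finset.le_sup (Finset.mem_univ i)⟩
  -- downward induction: f fixes V k pointwise
  have hV : ∀ j k, k + j = K → ∀ v, InV a k v → f v = v := by
    intro j
    induction j with
    | zero =>
      intro k hk v hv
      obtain ⟨-, y, rfl⟩ := hv
      have : k = K := by omega
      rw [this, pow_smul_eq_zero a K hK, hzero]
    | succ j ih =>
      intro k hk v hv
      have ih' := ih (k + 1) (by omega)
      by_cases hv1 : InV a (k + 1) v
      · exact ih' v hv1
      · have hfv1 : ¬ InV a (k + 1) (f v) := fun h => hv1 (hrefl (k + 1) v h)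
        have hδ : InV a (k + 1) (f v - v) := inV_diff a ha k (hpres k v hv) hv hfv1 hv1
        exact fix_of_delta f hadd m hm hiter v (ih' _ hδ) hδ.1
  have hV0 : ∀ v : (i : Fin n) → ZMod (2 ^ a i), 2 • v = 0 → f v = v := by
    intro v hv
    exact hV K 0 (by omega) v ⟨hv, v, by simp⟩
  -- upward induction on the exponent
  have hup : ∀ j (y : (i : Fin n) → ZMod (2 ^ a i)), 2 ^ j • y = 0 → f y = y := by
    intro j
    induction j with
    | zero =>
      intro y hy
      rw [pow_zero, one_smul] at hy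
      rw [hy, hzero]
    | succ j ih =>
      intro y hy
      have h1 : f (2 • y) = 2 • y := by
        apply ih
        rw [← mul_smul, ← pow_succ]
        exact hy
      have h2 : 2 • (f y - y) = 0 := by
        rw [smul_sub, ← hnsmul, h1, sub_self]
      exact fix_of_delta f hadd m hm hiter y (hV0 _ h2) h2
  exact hup K x (pow_smul_eq_zero a K hK x)

end prod

/-- Let S be a finite abelian 2-group that is a direct product of cyclic groups of pairwise distinct orders 2^{a_1} < 2^{a_2} < ⋯ < 2^{a_n} (all a_i ≥ 1). Then every saturated fusion system over S is the inner one: its maps are exactly the conjugations by elements of S. -/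
theorem result {Ω : Type*} [Group Ω] {S : Subgroup Ω} [Finite S] (n : ℕ) (a : Fin n → ℕ) (ha : StrictMono a) (ha1 : ∀ i, 1 ≤ a i) (e : ↥S ≃* Multiplicative ((i : Fin n) → ZMod (2 ^ a i))) (F : Cfsg.FusionSystem S) (hF : F.IsSaturated 2) (P : Subgroup Ω) : F.Hom P = (Cfsg.innerFusionSystem S).Hom P := by
  have hab : ∀ x ∈ S, ∀ y ∈ S, x * y = y * x := by
    intro x hx y hy
    have : (⟨x, hx⟩ : S) * ⟨y, hy⟩ = ⟨y, hy⟩ * ⟨x, hx⟩ := by
      apply e.injective
      rw [map_mul, map_mul, mul_comm]
    exact congrArg Subtype.val this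
  have : Fact (Nat.Prime 2) := ⟨Nat.prime_two⟩
  have hodd : ¬ 2 ∣ Nat.card (F.autGroup S) := not_dvd_card_autGroup_of_abelian 2 F hF hab
  -- every element of Aut_F(S) is trivial
  have htriv : ∀ α ∈ F.autGroup S, α = 1 := by
    intro α hα
    have : Finite (MulAut S) := Finite.of_injective (fun e : MulAut S => (e : S → S))
      (fun a b h => MulEquiv.ext (congrFun h))
    set m := Nat.card (F.autGroup S) with hm
    have hmodd : Odd m := Nat.not_even_iff_odd.mp (fun h => hodd (even_iff_two_dvd.mp h))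
    have hαm : α ^ m = 1 := by
      have := pow_card_eq_one' (G := F.autGroup S) (x := ⟨α, hα⟩)
      exact congrArg Subtype.val this
    let f : ((i : Fin n) → ZMod (2 ^ a i)) → ((i : Fin n) → ZMod (2 ^ a i)) :=
      fun x => Multiplicative.toAdd (e (α (e.symm (Multiplicative.ofAdd x))))
    have hadd : ∀ x y, f (x + y) = f x + f y := by
      intro x y
      show Multiplicative.toAdd (e (α (e.symm (Multiplicative.ofAdd (x + y))))) = _
      rw [ofAdd_add, map_mul, map_mul, map_mul, toAdd_mul]
    have hiter_gen : ∀ (k : ℕ) x, f^[k] x =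
        Multiplicative.toAdd (e ((α ^ k) (e.symm (Multiplicative.ofAdd x)))) := by
      intro k
      induction k with
      | zero => intro x; simp
      | succ k ih =>
        intro x
        rw [Function.iterate_succ_apply', ih, pow_succ']
        show Multiplicative.toAdd (e (α (e.symm (Multiplicative.ofAdd
          (Multiplicative.toAdd (e ((α ^ k) (e.symm (Multiplicative.ofAdd x)))))))))  = _
        simp
    have hiter : ∀ x, f^[m] x = x := by
      intro x
      rw [hiter_gen, hαm]
      simp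
    have hfid := odd_order_trivial a ha.injective f hadd m hmodd hiter
    ext s
    have h1 := hfid (Multiplicative.toAdd (e s))
    have h2 : e (α s) = e s := by
      have : Multiplicative.toAdd (e (α (e.symm (Multiplicative.ofAdd (Multiplicative.toAdd (e s)))))) =
          Multiplicative.toAdd (e s) := h1
      simpa using this
    have h3 : α s = s := e.injective h2
    rw [h3]
    rfl
  ext φ
  constructor
  · intro hφ
    obtain ⟨α, hα, hαx⟩ := exists_aut_extension_of_abelian 2 F hF hab hφ
    have h1 := htriv α hα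
    subst h1
    refine ⟨dom_le F hφ, 1, S.one_mem, fun x => ?_⟩
    have := hαx x x.2 (dom_le F hφ x.2)
    rw [← this]
    simp
  · rintro ⟨hP, g, hg, hφ⟩
    have : φ = conjHom P g := by
      ext x
      rw [hφ x]
      rfl
    rw [this]
    exact F.conj_mem hP hg

end Cfsg.Agent.S5331
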