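import Cfsg.Statements.S5521
import Cfsg.Agent.Lib.Helper7.M24Main

set_option autoImplicit false
open Cfsg

namespace Cfsg.Agent.S5521

open Cfsg.Agent.Lib.Helper7.GolayBase Cfsg.Agent.Lib.Helper7.ChainGen
  Cfsg.Agent.Lib.Helper7.M24Core Cfsg.Agent.Lib.Helper7.M24Main

/-- The pointwise stabiliser of the five base points contains a non-trivial element fixing any
given point. -/
theorem exists_stab (y : GolayPt) :
    ∃ h ∈ M24 ⊓ FixL [3, 2, 1, 0, 23], h ≠ 1 ∧ h y = y := by
  obtain ⟨K, hK⟩ : ∃ K : Subgroup (Equiv.Perm GolayPt), K = M24 ⊓ FixL [3, 2, 1, 0, 23] :=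
    ⟨_, rfl⟩
  have hcard : Nat.card ↥K = 48 := by rw [hK]; exact card5
  have h1 := Subgroup.card_mul_index (MulAction.stabilizer K y)
  rw [MulAction.index_stabilizer, hcard] at h1
  have h2 : (MulAction.orbit K y).ncard ≤ 24 := by
    have := Set.ncard_le_card (MulAction.orbit K y)
    rw [Nat.card_eq_fintype_card] at this
    have hc : Fintype.card GolayPt = 24 := by decide
    omega
  have h3 : 1 < Nat.card ↥(MulAction.stabilizer K y) := by
    by_contra hle
    have : Nat.card ↥(MulAction.stabilizer K y) ≤ 1 := by omega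
    have : Nat.card ↥(MulAction.stabilizer K y) * (MulAction.orbit K y).ncard ≤ 1 * 24 :=
      Nat.mul_le_mul this h2
    omega
  have hfin : Finite ↥(MulAction.stabilizer K y) := Nat.finite_of_card_ne_zero (by omega)
  have hnt : Nontrivial ↥(MulAction.stabilizer K y) := Finite.one_lt_card_iff_nontrivial.mp h3
  obtain ⟨⟨⟨h, hhK⟩, hstab⟩, hne⟩ := exists_ne (1 : ↥(MulAction.stabilizer K y))
  refine ⟨h, hK ▸ hhK, ?_, ?_⟩
  · intro h1'
    apply hne
    apply Subtype.ext
    apply Subtype.ext
    exact h1'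
  · have := MulAction.mem_stabilizer_iff.mp hstab
    exact this

/-- b(M₂₄) = 7 in the natural action on 24 points: any 6 points have a nontrivial pointwise stabiliser, some 7 points have a trivial one. -/
theorem result :
    (∀ B : Finset Cfsg.GolayPt, B.card ≤ 6 → ∃ g ∈ Cfsg.M24, g ≠ 1 ∧ ∀ b ∈ B, g b = b) ∧
    (∃ B : Finset Cfsg.GolayPt, B.card = 7 ∧ ∀ g ∈ Cfsg.M24, (∀ b ∈ B, g b = b) → g = 1) := by
  constructor
  · intro B hB
    obtain ⟨xs, hxs⟩ : ∃ xs : List GolayPt, xs = B.toList := ⟨_, rfl⟩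
    have hnd : xs.Nodup := hxs ▸ B.nodup_toList
    have hlen : xs.length ≤ 6 := by rw [hxs, Finset.length_toList]; exact hB
    obtain ⟨g₀, hg₀, hmap⟩ := exists_map_base5 (xs.take 5)
      (hnd.sublist (List.take_sublist 5 xs)) (List.length_take_le 5 xs)
    obtain ⟨h, hhK, hh1, hhy⟩ := exists_stab (g₀ (xs.getD 5 (pt 0)))
    refine ⟨g₀⁻¹ * h * g₀, M24.mul_mem (M24.mul_mem (M24.inv_mem hg₀) hhK.1) hg₀, ?_, ?_⟩
    · intro heq
      apply hh1
      have : h = g₀ * (g₀⁻¹ * h * g₀) * g₀⁻¹ := by group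
      rw [this, heq]
      group
    · intro b hb
      have hbx : b ∈ xs := by rw [hxs]; exact Finset.mem_toList.mpr hb
      rw [← List.take_append_drop 5 xs] at hbx
      show g₀⁻¹ (h (g₀ b)) = b
      rcases List.mem_append.mp hbx with h1 | h2
      · have hm : g₀ b ∈ (xs.take 5).map g₀ := List.mem_map.mpr ⟨b, h1, rfl⟩
        rw [hmap] at hm
        obtain ⟨f, hf, hfb⟩ := List.mem_map.mp hm
        have hf5 : f ∈ [3, 2, 1, 0, 23] := by
          have := List.mem_of_mem_take hf
          simp only [base5, List.mem_cons, List.not_mem_nil, or_false] at this ⊢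
          tauto
        have hfix : h (pt f) = pt f := hhK.2 f hf5
        rw [← hfb, hfix, hfb]
        simp
      · obtain ⟨n, hn, hnb⟩ := List.mem_iff_getElem.mp h2
        have hn0 : n = 0 := by
          rw [List.length_drop] at hn
          omega
        subst hn0
        have h5 : 5 < xs.length := by
          rw [List.length_drop] at hn
          omega
        have hb5 : xs.getD 5 (pt 0) = b := by
          rw [List.getD_eq_getElem _ _ h5]
          rw [← hnb, List.getElem_drop]
        rw [hb5] at hhy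
        rw [hhy]
        simp
  · refine ⟨([4, 5, 3, 2, 1, 0, 23].map pt).toFinset, by decide +kernel, ?_⟩
    intro g hg hfix
    have hmem : g ∈ M24 ⊓ FixL [4, 5, 3, 2, 1, 0, 23] := by
      refine ⟨hg, fun f hf => hfix (pt f) ?_⟩
      exact List.mem_toFinset.mpr (List.mem_map.mpr ⟨f, hf, rfl⟩)
    rw [rigid7] at hmem
    exact Subgroup.mem_bot.mp hmem

end Cfsg.Agent.S5521
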