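import Cfsg.Statements.S5529
import Cfsg.Agent.Lib.Helper35.M23Gen

set_option autoImplicit false
open Cfsg

namespace Cfsg.Agent.S5529

/-- Generation of the Mathieu group M₂₃ (the stabiliser of a point in the Mathieu group M₂₄ acting on 24 points) by triples of prime orders. Let p ≤ q ≤ r be primes dividing |M₂₃| = 10200960 = 2⁷·3²·5·7·11·23, not both p and q equal to 2. Then M₂₃ contains elements x, y, z of orders p, q, r with xyz = 1 and ⟨x, y⟩ = M₂₃ if and only if (p, q, r) is none of: (2, 3, r) for any r, (2, 5, 5), (2, 5, 7), (3, 3, 3), (3, 3, 5), (3, 3, 7). -/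
theorem result (p q r : ℕ) (hp : p.Prime) (hq : q.Prime)
    (hr : r.Prime) (hpq : p ≤ q) (hqr : q ≤ r) (hp2 : ¬ (p = 2 ∧ q = 2))
    (hdvd : p ∣ 10200960 ∧ q ∣ 10200960 ∧ r ∣ 10200960) :
    (∃ x y z : Cfsg.Spor.M23, orderOf x = p ∧ orderOf y = q ∧ orderOf z = r ∧ x * y * z = 1 ∧
        Subgroup.closure {x, y} = ⊤) ↔
      ¬ ((p = 2 ∧ q = 3) ∨ (p = 2 ∧ q = 5 ∧ r = 5) ∨ (p = 2 ∧ q = 5 ∧ r = 7) ∨ (p = 3 ∧ q = 3 ∧ r ≤ 7)) := by
  constructor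
  · rintro ⟨x, y, z, hx, hy, hz, h1, hgen⟩ hbad
    exact Cfsg.Agent.Lib.Helper35.M23Gen.neg p q r hr hqr x y z hx hy hz h1 hgen hbad
  · intro hgood
    obtain ⟨d, hd, rfl, rfl, rfl⟩ := Cfsg.Agent.Lib.Helper35.M23Gen.pos_lookup
      p (Cfsg.Agent.Lib.Helper35.M23Gen.prime_mem p hp hdvd.1)
      q (Cfsg.Agent.Lib.Helper35.M23Gen.prime_mem q hq hdvd.2.1)
      r (Cfsg.Agent.Lib.Helper35.M23Gen.prime_mem r hr hdvd.2.2) hpq hqr hp2 hgood
    exact Cfsg.Agent.Lib.Helper35.M23Gen.pos_sound d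
      (Cfsg.Agent.Lib.Helper35.M23Gen.posData_ok d hd) hp hq hr

end Cfsg.Agent.S5529
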