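import Cfsg.Statements.S5562

set_option autoImplicit false
open Cfsg

namespace Cfsg.Agent.S5562

theorem pow_odd_of_sq_one {G : Type*} [Group G] (z : G) (hz : z * z = 1) (m : ℕ) (hm : Odd m) :
    z ^ m = z := by
  obtain ⟨j, rfl⟩ := hm
  have h2 : z ^ 2 = 1 := by rw [pow_two]; exact hz
  rw [pow_succ, pow_mul, h2, one_pow, one_mul]

theorem conj_pow_inv {G : Type*} [Group G] (e r : G) (he : e * e = 1) (h : e * r * e = r⁻¹) (k : ℕ) :
    e * r ^ k * e = (r ^ k)⁻¹ := by
  induction k with
  | zero => simp [he]
  | succ k ih =>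
    have : e * r ^ (k + 1) * e = (e * r ^ k * e) * (e * r * e) := by
      rw [pow_succ]
      calc e * (r ^ k * r) * e = e * r ^ k * (1 * r) * e := by group
        _ = e * r ^ k * ((e * e) * r) * e := by rw [he]
        _ = (e * r ^ k * e) * (e * r * e) := by group
    rw [this, ih, h, pow_succ']
    group

/-- d an involution with pairwise odd-order products of conjugates, x any involution: each conjugate of d commutes with ax for exactly one conjugate a of d commuting with x (the class is partitioned by the sets C_D(ax)). -/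
theorem result {G : Type*} [Group G] [Finite G] (d : G) (hd : orderOf d = 2)
    (hodd : ∀ a ∈ conjugatesOf d, ∀ b ∈ conjugatesOf d, Odd (orderOf (a * b)))
    (x : G) (hx : orderOf x = 2) :
    ∀ e ∈ conjugatesOf d,
      ∃! a : G, a ∈ conjugatesOf d ∧ Commute a x ∧ Commute e (a * x) := by
  intro e he
  have hd2 : d * d = 1 := by
    have := pow_orderOf_eq_one d
    rw [hd, pow_two] at this
    exact this
  have hx2 : x * x = 1 := by
    have := pow_orderOf_eq_one x
    rw [hx, pow_two] at this
    exact this
  have hsq : ∀ a ∈ conjugatesOf d, a * a = 1 := by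
    intro a ha
    have ha' : IsConj d a := ha
    rw [isConj_iff] at ha'
    obtain ⟨c, rfl⟩ := ha'
    calc c * d * c⁻¹ * (c * d * c⁻¹) = c * (d * d) * c⁻¹ := by group
      _ = 1 := by rw [hd2]; group
  have hconj : ∀ a ∈ conjugatesOf d, ∀ g : G, g * a * g⁻¹ ∈ conjugatesOf d := by
    intro a ha g
    have ha' : IsConj d a := ha
    exact ha'.trans (isConj_iff.mpr ⟨g, rfl⟩)
  have he2 : e * e = 1 := hsq e he
  have hxinv : x⁻¹ = x := inv_eq_of_mul_eq_one_left hx2
  have heinv : e⁻¹ = e := inv_eq_of_mul_eq_one_left he2
  set r := e * x with hr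
  have her : e * r * e = r⁻¹ := by
    rw [hr, mul_inv_rev, hxinv, heinv]
    calc e * (e * x) * e = (e * e) * x * e := by group
      _ = x * e := by rw [he2, one_mul]
  have hxr : x * r * x = r⁻¹ := by
    rw [hr, mul_inv_rev, hxinv, heinv]
    calc x * (e * x) * x = x * e * (x * x) := by group
      _ = x * e := by rw [hx2, mul_one]
  -- r^2 is a product of two conjugates
  have hr2 : r ^ 2 = e * (x * e * x⁻¹) := by
    rw [hr, pow_two, hxinv]; group
  have hoddn : Odd (orderOf (r ^ 2)) := by
    rw [hr2]
    exact hodd e he _ (hconj e he x)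
  set n := orderOf (r ^ 2) with hn
  have hr2n : r ^ (2 * n) = 1 := by
    rw [pow_mul, hn]; exact pow_orderOf_eq_one _
  set z := r ^ n with hz
  have hz2 : z * z = 1 := by
    rw [hz, ← pow_add, ← two_mul]; exact hr2n
  have hzinv : z⁻¹ = z := inv_eq_of_mul_eq_one_left hz2
  have hez : e * z = z * e := by
    have h1 : e * z * e = z⁻¹ := conj_pow_inv e r he2 her n
    rw [hzinv] at h1
    calc e * z = e * z * (e * e) := by rw [he2, mul_one]
      _ = (e * z * e) * e := by group
      _ = z * e := by rw [h1]
  have hxz : x * z = z * x := by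
    have h1 : x * z * x = z⁻¹ := conj_pow_inv x r hx2 hxr n
    rw [hzinv] at h1
    calc x * z = x * z * (x * x) := by rw [hx2, mul_one]
      _ = (x * z * x) * x := by group
      _ = z * x := by rw [h1]
  refine ⟨z * x, ⟨?_, ?_, ?_⟩, ?_⟩
  · -- z * x is a conjugate of e
    obtain ⟨j, hj⟩ := hoddn
    have h1 : e * r ^ j * e = (r ^ j)⁻¹ := conj_pow_inv e r he2 her j
    have h2 : e * (r ^ j)⁻¹ = r ^ j * e := by
      rw [← h1]
      calc e * (e * r ^ j * e) = (e * e) * r ^ j * e := by group
        _ = r ^ j * e := by rw [he2, one_mul]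
    have h3 : z * x = r ^ j * e * (r ^ j)⁻¹ := by
      have hrx : r * x = e := by
        rw [hr, mul_assoc, hx2, mul_one]
      calc z * x = r ^ (2 * j) * (r * x) := by
            rw [hz, hj, pow_succ, mul_assoc]
        _ = r ^ j * (r ^ j * e) := by rw [hrx, two_mul, pow_add, mul_assoc]
        _ = r ^ j * (e * (r ^ j)⁻¹) := by rw [h2]
        _ = r ^ j * e * (r ^ j)⁻¹ := by group
    rw [h3]
    exact hconj e he _
  · -- Commute (z * x) x
    show z * x * x = x * (z * x)
    rw [← mul_assoc, hxz]
  · -- Commute e (z * x * x)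
    show e * (z * x * x) = z * x * x * e
    rw [mul_assoc z x x, hx2, mul_one, hez]
  · rintro a' ⟨ha', hcx, hce⟩
    have ha2 : a' * a' = 1 := hsq a' ha'
    have hcx' : a' * x = x * a' := hcx
    obtain ⟨z', hz'⟩ : ∃ z' : G, z' = a' * x := ⟨_, rfl⟩
    have hz'2 : z' * z' = 1 := by
      rw [hz']
      calc a' * x * (a' * x) = a' * (x * a') * x := by group
        _ = a' * (a' * x) * x := by rw [hcx']
        _ = (a' * a') * (x * x) := by group
        _ = 1 := by rw [ha2, hx2, one_mul]
    have hce' : e * z' = z' * e := by rw [hz']; exact hce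
    have haz : a' * z' = z' * a' := by
      rw [hz']
      calc a' * (a' * x) = a' * (x * a') := by rw [hcx']
        _ = a' * x * a' := by group
    have hcomm : Commute (e * a') z' := by
      show e * a' * z' = z' * (e * a')
      calc e * a' * z' = e * (a' * z') := by group
        _ = e * (z' * a') := by rw [haz]
        _ = (e * z') * a' := by group
        _ = z' * e * a' := by rw [hce']
        _ = z' * (e * a') := by group
    have hk : Odd (orderOf (e * a')) := hodd e he a' ha'
    set k := orderOf (e * a') with hkdef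
    have hrk : r ^ k = z' := by
      have h1 : r = e * a' * z' := by
        rw [hr, hz']
        calc e * x = e * ((a' * a') * x) := by rw [ha2, one_mul]
          _ = e * a' * (a' * x) := by group
      rw [h1, hcomm.mul_pow, hkdef, pow_orderOf_eq_one, one_mul]
      exact pow_odd_of_sq_one z' hz'2 _ hk
    -- n divides k
    have hnk : n ∣ k := by
      rw [hn]
      apply orderOf_dvd_of_pow_eq_one
      rw [← pow_mul, two_mul, pow_add, hrk, hz'2]
    obtain ⟨m, hm⟩ := hnk
    have hmodd : Odd m := by
      rcases Nat.even_or_odd m with hme | hmo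
      · exfalso
        have : Even k := by rw [hm]; exact hme.mul_left n
        exact (Nat.not_even_iff_odd.mpr hk) this
      · exact hmo
    have hzz' : z' = z := by
      rw [← hrk, hm, pow_mul, ← hz]
      exact pow_odd_of_sq_one z hz2 m hmodd
    calc a' = a' * (x * x) := by rw [hx2, mul_one]
      _ = z' * x := by rw [hz']; group
      _ = z * x := by rw [hzz']

end Cfsg.Agent.S5562
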