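import Cfsg.Statements.S5595
import Mathlib
import Cfsg.Agent.Lib.Helper93.LargeExtra

set_option autoImplicit false
open Cfsg

namespace Cfsg.Agent.S5595

open Cfsg.Agent.Lib.Helper93.LargeExtra

theorem mem_cent_singleton {G : Type*} [Group G] {a x : G} :
    a ∈ Subgroup.centralizer ({x} : Set G) ↔ x * a = a * x := by
  simp [Subgroup.mem_centralizer_iff]

section
variable {G : Type*} [Group G] {z : G} (hz : orderOf z = 2) (hE : Cfsg.IsExtraspecial 2 ↥(O2C z))
  (hC : Subgroup.centralizer ((O2C z : Subgroup G) : Set G) ≤ O2C z)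

theorem zc {a : G} (ha : a ∈ O2C z) : z * a = a * z := (commute_of_mem_O2C ha).symm

include hz hE hC in
theorem comm_cases {a b : G} (ha : a ∈ O2C z) (hb : b ∈ O2C z) :
    a * b = b * a ∨ a * b = z * (b * a) := by
  have e : a * b = (a * b * a⁻¹ * b⁻¹) * (b * a) := by group
  rcases comm_eq hz hE hC ha hb with h | h
  · left
    calc a * b = (a * b * a⁻¹ * b⁻¹) * (b * a) := e
      _ = b * a := by rw [h, one_mul]
  · right
    calc a * b = (a * b * a⁻¹ * b⁻¹) * (b * a) := e
      _ = z * (b * a) := by rw [h]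

include hz hE hC in
theorem sq_eq {s : G} (hs : s ∈ O2C z) : s * s = 1 ∨ s * s = z := by
  have hzz := z_mul_self hz
  apply central_eq hz hE hC ((O2C z).mul_mem hs hs)
  intro a ha
  rcases comm_cases hz hE hC ha hs with h | h
  · calc a * (s * s) = (a * s) * s := by group
      _ = (s * a) * s := by rw [h]
      _ = s * (a * s) := by group
      _ = s * (s * a) := by rw [h]
      _ = s * s * a := by group
  · calc a * (s * s) = (a * s) * s := by group
      _ = z * (s * a) * s := by rw [h]
      _ = z * s * (a * s) := by group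
      _ = z * s * (z * (s * a)) := by rw [h]
      _ = (z * s * z) * (s * a) := by group
      _ = (s * z * z) * (s * a) := by rw [zc hs]
      _ = s * (z * z) * (s * a) := by group
      _ = s * s * a := by rw [hzz]; group

variable {x s : G} (hx : x ∈ O2C z) (hxx : x * x = 1) (hs : s ∈ O2C z) (hsx : s * x = z * (x * s))

include hz hs hsx in
theorem sinv_x : s⁻¹ * x = z * (x * s⁻¹) := by
  have hzz := z_mul_self hz
  have h1 : x * s⁻¹ = s⁻¹ * (s * x) * s⁻¹ := by group
  rw [hsx] at h1
  have hzs' : z * s⁻¹ = s⁻¹ * z := zc ((O2C z).inv_mem hs)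
  calc s⁻¹ * x = (z * z) * (s⁻¹ * x) := by rw [hzz, one_mul]
    _ = z * ((z * s⁻¹) * x) := by group
    _ = z * ((s⁻¹ * z) * x) := by rw [hzs']
    _ = z * (s⁻¹ * (z * (x * s)) * s⁻¹) := by group
    _ = z * (x * s⁻¹) := by rw [← h1]

include hz hE hC hx hs hsx in
theorem cover : ∀ a ∈ O2C z, a * x = x * a ∨ (s⁻¹ * a) * x = x * (s⁻¹ * a) := by
  have hzz := z_mul_self hz
  intro a ha
  rcases comm_cases hz hE hC ha hx with h | h
  · exact Or.inl h
  · right
    calc s⁻¹ * a * x = s⁻¹ * (a * x) := by group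
      _ = s⁻¹ * (z * (x * a)) := by rw [h]
      _ = (s⁻¹ * z) * x * a := by group
      _ = (z * s⁻¹) * x * a := by rw [zc ((O2C z).inv_mem hs)]
      _ = z * (s⁻¹ * x) * a := by group
      _ = z * (z * (x * s⁻¹)) * a := by rw [sinv_x hz hs hsx]
      _ = (z * z) * (x * (s⁻¹ * a)) := by group
      _ = x * (s⁻¹ * a) := by rw [hzz, one_mul]

include hz hE hC hx hs hsx in
/-- An element commuting with `C_Q(x)` and with `s` commutes with all of `Q`. -/
theorem comm_all {w : G} (hwR : ∀ r ∈ O2C z, r * x = x * r → r * w = w * r) (hws : s * w = w * s) :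
    ∀ a ∈ O2C z, a * w = w * a := by
  intro a ha
  rcases cover hz hE hC hx hs hsx a ha with h' | h'
  · exact hwR a ha h'
  · have h2 := hwR (s⁻¹ * a) ((O2C z).mul_mem ((O2C z).inv_mem hs) ha) h'
    calc a * w = s * ((s⁻¹ * a) * w) := by group
      _ = s * (w * (s⁻¹ * a)) := by rw [h2]
      _ = (s * w) * (s⁻¹ * a) := by group
      _ = (w * s) * (s⁻¹ * a) := by rw [hws]
      _ = w * a := by group

include hz hE hC hx hxx hs hsx in
theorem cent_R {c : G} (hc : c ∈ O2C z) (hcR : ∀ r ∈ O2C z, r * x = x * r → r * c = c * r) :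
    c = 1 ∨ c = z ∨ c = x ∨ c = z * x := by
  have hzz := z_mul_self hz
  rcases comm_cases hz hE hC hs hc with h | h
  · have : c = 1 ∨ c = z :=
      central_eq hz hE hC hc (comm_all hz hE hC hx hs hsx hcR h)
    rcases this with h1 | h1
    · exact Or.inl h1
    · exact Or.inr (Or.inl h1)
  · have hcx : c * x ∈ O2C z := (O2C z).mul_mem hc hx
    have hs_comm : s * (c * x) = (c * x) * s := by
      calc s * (c * x) = (s * c) * x := by group
        _ = z * (c * s) * x := by rw [h]
        _ = z * c * (s * x) := by group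
        _ = z * c * (z * (x * s)) := by rw [hsx]
        _ = (z * c * z) * (x * s) := by group
        _ = (c * z * z) * (x * s) := by rw [zc hc]
        _ = c * (z * z) * (x * s) := by group
        _ = c * x * s := by rw [hzz]; group
    have hR_comm : ∀ r ∈ O2C z, r * x = x * r → r * (c * x) = (c * x) * r := by
      intro r hr hrx
      calc r * (c * x) = (r * c) * x := by group
        _ = (c * r) * x := by rw [hcR r hr hrx]
        _ = c * (r * x) := by group
        _ = c * (x * r) := by rw [hrx]
        _ = c * x * r := by group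
    have : c * x = 1 ∨ c * x = z :=
      central_eq hz hE hC hcx (comm_all hz hE hC hx hs hsx hR_comm hs_comm)
    have hxinv : x⁻¹ = x := inv_eq_of_mul_eq_one_left hxx
    rcases this with h1 | h1
    · right; right; left
      have : c = x⁻¹ := eq_inv_of_mul_eq_one_left h1
      rw [this, hxinv]
    · right; right; right
      have : c = z * x⁻¹ := by rw [← h1]; group
      rw [this, hxinv]

end

theorem main {G : Type*} [Group G] [Finite G] (z : G) (hz : orderOf z = 2)
    (hE : Cfsg.IsExtraspecial 2 ↥(O2C z))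
    (hC : Subgroup.centralizer ((O2C z : Subgroup G) : Set G) ≤ O2C z)
    (g : G) (hx : g * z * g⁻¹ ∈ O2C z) : z ∈ O2C (g * z * g⁻¹) := by
  classical
  have hzz := z_mul_self hz
  have hz1 := z_ne_one hz
  have hzQ : z ∈ O2C z := z_mem hC
  generalize hxdef : g * z * g⁻¹ = x at hx ⊢
  by_cases hxz : x = z
  · rw [hxz]; exact hzQ
  have hx1 : x ≠ 1 := by
    intro h
    apply hz1
    have : z = g⁻¹ * x * g := by rw [← hxdef]; group
    rw [this, h]; group
  have hxx : x * x = 1 := by
    rw [← hxdef]
    calc g * z * g⁻¹ * (g * z * g⁻¹) = g * (z * z) * g⁻¹ := by group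
      _ = 1 := by rw [hzz]; group
  have hxP : x ∈ O2C x := by
    have := mem_O2C_conj (s := g) hzQ
    rwa [hxdef] at this
  have hconj : ∀ a ∈ O2C z, g * a * g⁻¹ ∈ O2C x := by
    intro a ha
    have := mem_O2C_conj (s := g) ha
    rwa [hxdef] at this
  have hconj' : ∀ c ∈ O2C x, g⁻¹ * c * g ∈ O2C z := by
    intro c hc
    have := mem_O2C_conj (s := g⁻¹) hc
    have e : g⁻¹ * x * g⁻¹⁻¹ = z := by rw [← hxdef]; group
    rw [e] at this
    simpa using this
  have hCx : ∀ c : G, (∀ a ∈ O2C x, a * c = c * a) → c ∈ O2C x := by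
    intro c hc
    have h1 : g⁻¹ * c * g ∈ O2C z := by
      apply hC
      rw [Subgroup.mem_centralizer_iff]
      intro a ha
      have h2 := hc (g * a * g⁻¹) (hconj a ha)
      calc a * (g⁻¹ * c * g) = g⁻¹ * ((g * a * g⁻¹) * c) * g := by group
        _ = g⁻¹ * (c * (g * a * g⁻¹)) * g := by rw [h2]
        _ = g⁻¹ * c * g * a := by group
    have h3 := hconj _ h1
    have e : g * (g⁻¹ * c * g) * g⁻¹ = c := by group
    rwa [e] at h3
  have hcentx : ∀ c ∈ O2C x, (∀ a ∈ O2C x, a * c = c * a) → c = 1 ∨ c = x := by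
    intro c hc hcomm
    have h1 : g⁻¹ * c * g ∈ O2C z := hconj' c hc
    have h2 : ∀ a ∈ O2C z, a * (g⁻¹ * c * g) = (g⁻¹ * c * g) * a := by
      intro a ha
      have h2 := hcomm (g * a * g⁻¹) (hconj a ha)
      calc a * (g⁻¹ * c * g) = g⁻¹ * ((g * a * g⁻¹) * c) * g := by group
        _ = g⁻¹ * (c * (g * a * g⁻¹)) * g := by rw [h2]
        _ = g⁻¹ * c * g * a := by group
    have e : c = g * (g⁻¹ * c * g) * g⁻¹ := by group
    rcases central_eq hz hE hC h1 h2 with h | h
    · left
      rw [e, h]; group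
    · right
      rw [e, h, hxdef]
  have hQp : IsPGroup 2 ↥(O2C z) := hE.1.1
  have hPp : IsPGroup 2 ↥(O2C x) := by
    rw [← hxdef, O2C_conj]
    exact hQp.map _
  have hQH : O2C z ≤ Subgroup.centralizer ({z} : Set G) := O2C_le_centralizer z
  have hxz_comm : x * z = z * x := commute_of_mem_O2C hx
  have hRp : IsPGroup 2 ↥(O2C z ⊓ Subgroup.centralizer ({x} : Set G)) := hQp.to_le inf_le_left
  have hRC : O2C z ⊓ Subgroup.centralizer ({x} : Set G) ≤
      Subgroup.centralizer ({x} : Set G) ⊓ Subgroup.centralizer ({z} : Set G) :=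
    le_inf inf_le_right (inf_le_left.trans hQH)
  obtain ⟨T0, hRT0, hT0max⟩ := Finite.exists_le_maximal
    (p := fun K : Subgroup G => IsPGroup 2 ↥K ∧ O2C z ⊓ Subgroup.centralizer ({x} : Set G) ≤ K ∧
      K ≤ Subgroup.centralizer ({x} : Set G) ⊓ Subgroup.centralizer ({z} : Set G))
    (a := O2C z ⊓ Subgroup.centralizer ({x} : Set G)) ⟨hRp, le_rfl, hRC⟩
  obtain ⟨⟨hT0p, -, hT0C⟩, hT0m⟩ := hT0max
  obtain ⟨T, hT0T, hTmax⟩ := Finite.exists_le_maximal
    (p := fun K : Subgroup G => IsPGroup 2 ↥K ∧ T0 ≤ K ∧ K ≤ Subgroup.centralizer ({x} : Set G))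
    (a := T0) ⟨hT0p, le_rfl, hT0C.trans inf_le_left⟩
  obtain ⟨⟨hTp, -, hTHx⟩, hTm⟩ := hTmax
  -- O2C x ≤ T
  have hPT : O2C x ≤ T := by
    have hnorm : T ≤ Subgroup.normalizer ((O2C x : Subgroup G) : Set G) := by
      intro t ht
      rw [Subgroup.mem_normalizer_iff]
      intro a
      have htx : x * t = t * x := mem_cent_singleton.mp (hTHx ht)
      constructor
      · intro ha
        have := mem_O2C_conj (s := t) ha
        have e : t * x * t⁻¹ = x := by rw [← htx]; group
        rwa [e] at this
      · intro ha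
        have := mem_O2C_conj (s := t⁻¹) ha
        have e : t⁻¹ * x * t⁻¹⁻¹ = x := by
          calc t⁻¹ * x * t⁻¹⁻¹ = t⁻¹ * (x * t) := by group
            _ = t⁻¹ * (t * x) := by rw [htx]
            _ = x := by group
        have e2 : t⁻¹ * (t * a * t⁻¹) * t⁻¹⁻¹ = a := by group
        rwa [e, e2] at this
    have hsup : IsPGroup 2 ↥(T ⊔ O2C x) := hTp.to_sup_of_normal_right' hPp hnorm
    have := hTm ⟨hsup, hT0T.trans le_sup_left, sup_le hTHx (O2C_le_centralizer x)⟩ le_sup_left
    exact le_sup_right.trans this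
  have hZT : ∀ c ∈ T, (∀ t ∈ T, t * c = c * t) → c = 1 ∨ c = x := fun c _ hcomm =>
    hcentx c (hCx c (fun a ha => hcomm a (hPT ha))) (fun a ha => hcomm a (hPT ha))
  have hzR : z ∈ O2C z ⊓ Subgroup.centralizer ({x} : Set G) :=
    ⟨hzQ, mem_cent_singleton.mpr hxz_comm⟩
  have hzT0 : z ∈ T0 := hRT0 hzR
  have hT0z : ∀ t ∈ T0, z * t = t * z := fun t ht => mem_cent_singleton.mp (hT0C ht).2
  have hne : ¬ T ≤ T0 := by
    intro h
    have hzT : z ∈ T := hT0T hzT0
    have : z = 1 ∨ z = x := hZT z hzT (fun t ht => (hT0z t (h ht)).symm)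
    rcases this with h1 | h1
    · exact hz1 h1
    · exact hxz h1.symm
  obtain ⟨u, huT, huT0, hunorm, hunorm'⟩ : ∃ u ∈ T, u ∉ T0 ∧ (∀ t ∈ T0, u * t * u⁻¹ ∈ T0) ∧
      (∀ t ∈ T0, u⁻¹ * t * u ∈ T0) := by
    have : Fact (Nat.Prime 2) := Nat.fact_prime_two
    have : Group.IsNilpotent ↥T := hTp.isNilpotent
    have hnc : NormalizerCondition ↥T := Group.normalizerCondition_of_isNilpotent
    have hlt : T0.subgroupOf T < ⊤ := by
      rw [lt_top_iff_ne_top, Ne, Subgroup.subgroupOf_eq_top]
      exact hne
    have := hnc _ hlt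
    obtain ⟨u', hu'N, hu'K⟩ := SetLike.exists_of_lt this
    refine ⟨u', u'.2, ?_, ?_, ?_⟩
    · intro h; exact hu'K (Subgroup.mem_subgroupOf.mpr h)
    · intro t ht
      rw [Subgroup.mem_normalizer_iff] at hu'N
      have := (hu'N ⟨t, hT0T ht⟩).mp (Subgroup.mem_subgroupOf.mpr ht)
      rw [Subgroup.mem_subgroupOf] at this
      simpa using this
    · intro t ht
      have hinv := Subgroup.inv_mem _ hu'N
      rw [Subgroup.mem_normalizer_iff] at hinv
      have := (hinv ⟨t, hT0T ht⟩).mp (Subgroup.mem_subgroupOf.mpr ht)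
      rw [Subgroup.mem_subgroupOf] at this
      simpa using this
  generalize hydef : u * z * u⁻¹ = y
  have hyT0 : y ∈ T0 := by rw [← hydef]; exact hunorm z hzT0
  have hux : x * u = u * x := mem_cent_singleton.mp (hTHx huT)
  have hycomm : ∀ t ∈ T0, t * y = y * t := by
    intro t ht
    have h1 := hT0z _ (hunorm' t ht)
    rw [← hydef]
    calc t * (u * z * u⁻¹) = u * ((u⁻¹ * t * u) * z) * u⁻¹ := by group
      _ = u * (z * (u⁻¹ * t * u)) * u⁻¹ := by rw [h1]
      _ = u * z * u⁻¹ * t := by group
  have hyz : y ≠ z := by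
    intro h
    have huH : u ∈ Subgroup.centralizer ({z} : Set G) := by
      rw [mem_cent_singleton]
      calc z * u = (u * z * u⁻¹) * u := by rw [hydef, h]
        _ = u * z := by group
    have hle : T ⊓ Subgroup.centralizer ({z} : Set G) ≤ T0 :=
      hT0m ⟨hTp.to_le inf_le_left, le_inf (hRT0.trans hT0T) (hRC.trans inf_le_right),
        le_inf (inf_le_left.trans hTHx) inf_le_right⟩ (le_inf hT0T (hT0C.trans inf_le_right))
    exact huT0 (hle ⟨huT, huH⟩)
  have hyx : y ≠ x := by
    intro h
    apply hxz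
    calc x = u⁻¹ * (u * x) := by group
      _ = u⁻¹ * (x * u) := by rw [hux]
      _ = u⁻¹ * (u * z * u⁻¹ * u) := by rw [hydef, h]
      _ = z := by group
  have hy1 : y ≠ 1 := by
    intro h
    apply hz1
    have : z = u⁻¹ * (u * z * u⁻¹) * u := by group
    rw [this, hydef, h]; group
  have hyzc : z * y = y * z := hT0z y hyT0
  -- y normalizes Q
  have hyQ : ∀ a ∈ O2C z, y * a * y⁻¹ ∈ O2C z := by
    intro a ha
    have := mem_O2C_conj (s := y) ha
    have e : y * z * y⁻¹ = z := by rw [← hyzc]; group
    rwa [e] at this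
  -- y commutes with R
  have hyR : ∀ r ∈ O2C z, r * x = x * r → r * y = y * r := fun r hr hrx =>
    hycomm r (hRT0 ⟨hr, mem_cent_singleton.mpr hrx.symm⟩)
  obtain ⟨s, hs, hsconj⟩ := exists_conj_eq hz hE hC hx hx1 hxz
  have hsx : s * x = z * (x * s) := by
    calc s * x = (s * x * s⁻¹) * s := by group
      _ = z * (x * s) := by rw [hsconj]; group
  have hsx' := sinv_x hz hs hsx
  -- c
  generalize hcdef : s⁻¹ * (y * s * y⁻¹) = c
  have hcQ : c ∈ O2C z := by
    rw [← hcdef]
    exact (O2C z).mul_mem ((O2C z).inv_mem hs) (hyQ s hs)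
  have hysc : y * s * y⁻¹ = s * c := by rw [← hcdef]; group
  have hcR : ∀ r ∈ O2C z, r * x = x * r → r * c = c * r := by
    intro r hr hrx
    have hry := hyR r hr hrx
    have hry' : y⁻¹ * r = r * y⁻¹ := by
      calc y⁻¹ * r = y⁻¹ * (r * y) * y⁻¹ := by group
        _ = y⁻¹ * (y * r) * y⁻¹ := by rw [hry]
        _ = r * y⁻¹ := by group
    rcases comm_cases hz hE hC hs hr with h | h
    · have h1 : (y * s * y⁻¹) * r = r * (y * s * y⁻¹) := by
        calc (y * s * y⁻¹) * r = y * s * (y⁻¹ * r) := by group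
          _ = y * s * (r * y⁻¹) := by rw [hry']
          _ = y * (s * r) * y⁻¹ := by group
          _ = y * (r * s) * y⁻¹ := by rw [h]
          _ = (y * r) * s * y⁻¹ := by group
          _ = (r * y) * s * y⁻¹ := by rw [hry]
          _ = r * (y * s * y⁻¹) := by group
      have h2 : s⁻¹ * r = r * s⁻¹ := by
        calc s⁻¹ * r = s⁻¹ * (r * s) * s⁻¹ := by group
          _ = s⁻¹ * (s * r) * s⁻¹ := by rw [h]
          _ = r * s⁻¹ := by group
      rw [← hcdef]
      calc r * (s⁻¹ * (y * s * y⁻¹)) = (r * s⁻¹) * (y * s * y⁻¹) := by group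
        _ = (s⁻¹ * r) * (y * s * y⁻¹) := by rw [h2]
        _ = s⁻¹ * (r * (y * s * y⁻¹)) := by group
        _ = s⁻¹ * ((y * s * y⁻¹) * r) := by rw [h1]
        _ = s⁻¹ * (y * s * y⁻¹) * r := by group
    · have hzr : z * r = r * z := zc hr
      have h1 : (y * s * y⁻¹) * r = z * (r * (y * s * y⁻¹)) := by
        calc (y * s * y⁻¹) * r = y * s * (y⁻¹ * r) := by group
          _ = y * s * (r * y⁻¹) := by rw [hry']
          _ = y * (s * r) * y⁻¹ := by group
          _ = y * (z * (r * s)) * y⁻¹ := by rw [h]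
          _ = (y * z) * (r * s) * y⁻¹ := by group
          _ = (z * y) * (r * s) * y⁻¹ := by rw [hyzc]
          _ = z * ((y * r) * s * y⁻¹) := by group
          _ = z * ((r * y) * s * y⁻¹) := by rw [hry]
          _ = z * (r * (y * s * y⁻¹)) := by group
      have h2 : r * s⁻¹ = z * (s⁻¹ * r) := by
        have hzs' : z * s⁻¹ = s⁻¹ * z := zc ((O2C z).inv_mem hs)
        calc r * s⁻¹ = s⁻¹ * (s * r) * s⁻¹ := by group
          _ = s⁻¹ * (z * (r * s)) * s⁻¹ := by rw [h]
          _ = (s⁻¹ * z) * r := by group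
          _ = (z * s⁻¹) * r := by rw [hzs']
          _ = z * (s⁻¹ * r) := by group
      rw [← hcdef]
      have hzs' : z * s⁻¹ = s⁻¹ * z := zc ((O2C z).inv_mem hs)
      calc r * (s⁻¹ * (y * s * y⁻¹)) = (r * s⁻¹) * (y * s * y⁻¹) := by group
        _ = z * (s⁻¹ * r) * (y * s * y⁻¹) := by rw [h2]
        _ = z * s⁻¹ * (r * (y * s * y⁻¹)) := by group
        _ = s⁻¹ * z * (r * (y * s * y⁻¹)) := by rw [hzs']
        _ = s⁻¹ * (z * (r * (y * s * y⁻¹))) := by group
        _ = s⁻¹ * ((y * s * y⁻¹) * r) := by rw [h1]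
        _ = s⁻¹ * (y * s * y⁻¹) * r := by group
  have hc4 := cent_R hz hE hC hx hxx hs hsx hcQ hcR
  -- squares
  have hss := sq_eq hz hE hC hs
  have hyss : y * (s * s) * y⁻¹ = s * s := by
    rcases hss with h | h
    · rw [h]; group
    · rw [h, ← hyzc]; group
  have hscsc : (s * c) * (s * c) = s * s := by
    rw [← hysc]
    calc y * s * y⁻¹ * (y * s * y⁻¹) = y * (s * s) * y⁻¹ := by group
      _ = s * s := hyss
  have hsxsx : (s * x) * (s * x) = z * (x * (s * s) * x) := by
    calc (s * x) * (s * x) = (s * x) * s * x := by group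
      _ = z * (x * s) * s * x := by rw [hsx]
      _ = z * (x * (s * s) * x) := by group
  have hzx_comm : z * x = x * z := zc hx
  have hsx_ne : (s * x) * (s * x) ≠ s * s := by
    rw [hsxsx]
    rcases hss with h | h
    · rw [h]
      intro h'
      apply hz1
      calc z = z * (x * 1 * x) := by rw [mul_one, hxx, mul_one]
        _ = 1 := h'
    · rw [h]
      intro h'
      apply hz1
      have e : z * (x * z * x) = 1 := by
        calc z * (x * z * x) = z * ((x * z) * x) := by group
          _ = z * ((z * x) * x) := by rw [hzx_comm]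
          _ = (z * z) * (x * x) := by group
          _ = 1 := by rw [hzz, hxx, one_mul]
      rw [e] at h'
      exact h'.symm
  have hc2 : c = 1 ∨ c = z := by
    rcases hc4 with h | h | h | h
    · exact Or.inl h
    · exact Or.inr h
    · exfalso
      rw [h] at hscsc
      exact hsx_ne hscsc
    · exfalso
      rw [h] at hscsc
      apply hsx_ne
      have hzs : z * s = s * z := zc hs
      calc (s * x) * (s * x) = (z * z) * ((s * x) * (s * x)) := by rw [hzz, one_mul]
        _ = (z * s) * x * ((z * s) * x) := by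
            rw [hzs]
            calc (z * z) * ((s * x) * (s * x)) = z * (z * s) * x * (s * x) := by group
              _ = z * (s * z) * x * (s * x) := by rw [hzs]
              _ = (s * z) * x * (z * s * x) := by
                  calc z * (s * z) * x * (s * x) = (z * s) * (z * x) * (s * x) := by group
                    _ = (s * z) * (x * z) * (s * x) := by rw [hzs, hzx_comm]
                    _ = s * z * x * (z * s * x) := by group
              _ = (s * z) * x * (s * z * x) := by rw [hzs]
        _ = (s * (z * x)) * (s * (z * x)) := by rw [hzs]; group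
        _ = s * s := hscsc
  -- y ∈ Q
  have hyQmem : y ∈ O2C z := by
    rcases hc2 with h | h
    · rw [h, mul_one] at hysc
      have hys : s * y = y * s := by
        calc s * y = (y * s * y⁻¹) * y := by rw [hysc]
          _ = y * s := by group
      apply hC
      rw [Subgroup.mem_centralizer_iff]
      exact comm_all hz hE hC hx hs hsx hyR hys
    · rw [h] at hysc
      have hzs : z * s = s * z := zc hs
      have hxs : x * s = z * (s * x) := by
        calc x * s = (z * z) * (x * s) := by rw [hzz, one_mul]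
          _ = z * (z * (x * s)) := by group
          _ = z * (s * x) := by rw [← hsx]
      have hyxs : s * (y * x) = (y * x) * s := by
        have hys : y * s = s * z * y := by
          calc y * s = (y * s * y⁻¹) * y := by group
            _ = s * z * y := by rw [hysc]
        calc s * (y * x) = s * (z * z) * (y * x) := by rw [hzz, mul_one]
          _ = (s * z) * (z * y) * x := by group
          _ = (s * z) * (y * z) * x := by rw [hyzc]
          _ = (s * z * y) * (z * x) := by group
          _ = (y * s) * (z * x) := by rw [← hys]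
          _ = y * ((s * z) * x) := by group
          _ = y * ((z * s) * x) := by rw [hzs]
          _ = y * (z * (s * x)) := by group
          _ = y * (x * s) := by rw [← hxs]
          _ = (y * x) * s := by group
      have hyxR : ∀ r ∈ O2C z, r * x = x * r → r * (y * x) = (y * x) * r := by
        intro r hr hrx
        calc r * (y * x) = (r * y) * x := by group
          _ = (y * r) * x := by rw [hyR r hr hrx]
          _ = y * (r * x) := by group
          _ = y * (x * r) := by rw [hrx]
          _ = y * x * r := by group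
      have hyxQ : y * x ∈ O2C z := by
        apply hC
        rw [Subgroup.mem_centralizer_iff]
        exact comm_all hz hE hC hx hs hsx hyxR hyxs
      have : y = (y * x) * x⁻¹ := by group
      rw [this]
      exact (O2C z).mul_mem hyxQ ((O2C z).inv_mem hx)
  have hy4 := cent_R hz hE hC hx hxx hs hsx hyQmem hyR
  have hyzx : y = z * x := by
    rcases hy4 with h | h | h | h
    · exact absurd h hy1
    · exact absurd h hyz
    · exact absurd h hyx
    · exact h
  -- conclusion
  have h1 : x ∈ O2C (z * x) := by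
    have := mem_O2C_conj (s := u) hx
    have e : u * x * u⁻¹ = x := by rw [← hux]; group
    rwa [e, hydef, hyzx] at this
  have h2 : s⁻¹ * x * s ∈ O2C x := by
    have h1' : s * (s⁻¹ * x * s) * s⁻¹ ∈ O2C (s * x * s⁻¹) := by
      have e2 : s * (s⁻¹ * x * s) * s⁻¹ = x := by group
      rw [e2, hsconj]
      exact h1
    exact mem_O2C_conj_iff.mp h1'
  have h3 : s⁻¹ * x * s = z * x := by
    rw [hsx']; group
  rw [h3] at h2
  have : z = (z * x) * x⁻¹ := by group
  rw [this]
  exact (O2C x).mul_mem h2 ((O2C x).inv_mem hxP)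


/-- Setting: `z` is an involution of the finite group `G`; for each element `x`, `Q x` denotes the largest normal 2-subgroup of the centralizer of `x`; `Q z` is extraspecial and contains its own centralizer in `G` (a large extraspecial 2-subgroup in this sense). Call the conjugates of `z` singular, and say that singular `x` is orthogonal to singular `y` when `x ∈ Q y`. Then orthogonality is symmetric: if a conjugate `x` of `z` lies in `Q z`, then `z` lies in `Q x`. -/
theorem result {G : Type*} [Group G] [Finite G]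
    (Q : G → Subgroup G)
    (hQ : ∀ x : G, Q x = (Cfsg.pCore 2 ↥(Subgroup.centralizer ({x} : Set G))).map (Subgroup.centralizer ({x} : Set G)).subtype)
    (z : G) (hz : orderOf z = 2) (hE : Cfsg.IsExtraspecial 2 ↥(Q z))
    (hC : Subgroup.centralizer ((Q z : Subgroup G) : Set G) ≤ Q z)
    (g : G) (hx : g * z * g⁻¹ ∈ Q z) : z ∈ Q (g * z * g⁻¹) := by
  have hQ' : Q = O2C := funext hQ
  subst hQ'
  exact main z hz hE hC g hx

end Cfsg.Agent.S5595
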