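import Cfsg.Statements.S5596
import Mathlib
import Cfsg.Agent.Lib.Helper93.LargeExtra
import Cfsg.Agent.Lib.Helper93.LargeExtra2

set_option autoImplicit false
open Cfsg

namespace Cfsg.Agent.S5596

open Cfsg.Agent.Lib.Helper93.LargeExtra Cfsg.Agent.Lib.Helper93.LargeExtra2

/-- `M ∪ M y` as a subgroup of the elementary abelian group `U`. -/
def extSub {G : Type*} [Group G] (U M : Subgroup G) (hU2 : ∀ u ∈ U, u * u = 1) (hMU : M ≤ U)
    (y : G) (hy : y ∈ U) : Subgroup G where
  carrier := {t | t ∈ U ∧ (t ∈ M ∨ t * y ∈ M)}
  one_mem' := ⟨U.one_mem, Or.inl M.one_mem⟩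
  mul_mem' := by
    rintro t1 t2 ⟨h1U, h1⟩ ⟨h2U, h2⟩
    refine ⟨U.mul_mem h1U h2U, ?_⟩
    have hc := U_comm U hU2
    rcases h1 with h1 | h1
    · rcases h2 with h2 | h2
      · exact Or.inl (M.mul_mem h1 h2)
      · right
        have e : t1 * t2 * y = t1 * (t2 * y) := by group
        rw [e]; exact M.mul_mem h1 h2
    · rcases h2 with h2 | h2
      · right
        have e : t1 * t2 * y = (t1 * y) * t2 := by
          calc t1 * t2 * y = t1 * (t2 * y) := by group
            _ = t1 * (y * t2) := by rw [hc t2 h2U y hy]
            _ = (t1 * y) * t2 := by group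
        rw [e]; exact M.mul_mem h1 h2
      · left
        have e : t1 * t2 = (t1 * y) * (t2 * y) := by
          calc t1 * t2 = t1 * t2 * (y * y) := by rw [hU2 y hy, mul_one]
            _ = t1 * (t2 * y) * y := by group
            _ = t1 * (y * t2) * y := by rw [hc t2 h2U y hy]
            _ = (t1 * y) * (t2 * y) := by group
        rw [e]; exact M.mul_mem h1 h2
  inv_mem' := by
    rintro t ⟨hU, h⟩
    have : t⁻¹ = t := U_inv U hU2 t hU
    rw [this]
    exact ⟨hU, h⟩

theorem mem_extSub {G : Type*} [Group G] (U M : Subgroup G) (hU2 : ∀ u ∈ U, u * u = 1) (hMU : M ≤ U)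
    (y : G) (hy : y ∈ U) (t : G) :
    t ∈ extSub U M hU2 hMU y hy ↔ t ∈ U ∧ (t ∈ M ∨ t * y ∈ M) := Iff.rfl


/-- Setting: `z` is an involution of the finite group `G`; for each element `x`, `Q x` is the largest normal 2-subgroup of the centralizer of `x`; `Q z` is extraspecial and contains its own centralizer in `G`. A subgroup `U` is singular when it is elementary abelian, every non-identity element of `U` is conjugate to `z`, and any two non-identity elements `u`, `v` of `U` are orthogonal (`v ∈ Q u`). Write `QU` for the intersection of the `Q u` and `LU` for the join of the `Q u` over the non-identity `u` in `U`. If `U` is singular of order `2 ^ n` with `n ≥ 2`, then `U ≤ QU ≤ LU`, `LU` normalizes `U`, and `LU` induces on `U` its full automorphism group (the general linear group of dimension `n` over the field with two elements): every automorphism of `U` is conjugation by some element of `LU`. -/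
theorem result {G : Type*} [Group G] [Finite G]
    (Q : G → Subgroup G)
    (hQ : ∀ x : G, Q x = (Cfsg.pCore 2 ↥(Subgroup.centralizer ({x} : Set G))).map (Subgroup.centralizer ({x} : Set G)).subtype)
    (z : G) (hz : orderOf z = 2) (hE : Cfsg.IsExtraspecial 2 ↥(Q z))
    (hC : Subgroup.centralizer ((Q z : Subgroup G) : Set G) ≤ Q z)
    (U : Subgroup G) (hU2 : ∀ u ∈ U, u * u = 1)
    (hS : ∀ u ∈ U, u ≠ 1 → ∃ g : G, g * z * g⁻¹ = u)
    (hO : ∀ u ∈ U, ∀ v ∈ U, u ≠ 1 → v ≠ 1 → v ∈ Q u)
    (QU LU : Subgroup G) (hQU : QU = ⨅ u ∈ ((U : Set G) \ {1}), Q u) (hLU : LU = ⨆ u ∈ ((U : Set G) \ {1}), Q u)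
    (n : ℕ) (hn : 2 ≤ n) (hcard : Nat.card ↥U = 2 ^ n) :
    U ≤ QU ∧ QU ≤ LU ∧ LU ≤ Subgroup.normalizer (U : Set G) ∧
      ∀ φ : ↥U ≃* ↥U, ∃ g ∈ LU, ∀ u : ↥U, g * (u : G) * g⁻¹ = ((φ u : ↥U) : G) := by
  classical
  have hQ' : Q = O2C := funext hQ
  subst hQ'
  have hQUle : ∀ u ∈ U, u ≠ 1 → QU ≤ O2C u := by
    intro u hu hu1
    rw [hQU]
    exact iInf₂_le u ⟨hu, hu1⟩
  have hLUge : ∀ u ∈ U, u ≠ 1 → O2C u ≤ LU := by
    intro u hu hu1
    rw [hLU]
    exact le_iSup₂ (f := fun u (_ : u ∈ (U : Set G) \ {1}) => O2C u) u ⟨hu, hu1⟩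
  have hUc := U_comm U hU2
  have hne : U ≠ ⊥ := by
    intro h
    rw [h] at hcard
    have h4 : 2 ^ 2 ≤ 2 ^ n := Nat.pow_le_pow_right (by norm_num) hn
    simp at hcard
    omega
  obtain ⟨u₀, hu₀⟩ := (Subgroup.ne_bot_iff_exists_ne_one).mp hne
  have hu₀1 : (u₀ : G) ≠ 1 := fun h => hu₀ (Subtype.ext h)
  refine ⟨?_, ?_, ?_, ?_⟩
  · rw [hQU]
    exact le_iInf₂ fun u hu => U_le U hO hu.1 hu.2
  · exact (hQUle u₀ u₀.2 hu₀1).trans (hLUge u₀ u₀.2 hu₀1)
  · rw [hLU]
    refine iSup₂_le fun u hu' => ?_
    have hu : u ∈ U := hu'.1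
    have hu1 : u ≠ 1 := hu'.2
    intro a ha
    rw [Subgroup.mem_normalizer_iff]
    intro v
    constructor
    · intro hv
      exact conj_mem_U hz hE hC U hS hO hu hu1 ha hv
    · intro hv
      have := conj_mem_U' hz hE hC U hS hO hu hu1 ha hv
      have e : a⁻¹ * (a * v * a⁻¹) * a = v := by group
      rwa [e] at this
  · have key : ∀ (k : ℕ) (φ : ↥U ≃* ↥U), Nat.card {y : ↥U // φ y ≠ y} ≤ k →
        ∃ g ∈ LU, ∀ u : ↥U, g * (u : G) * g⁻¹ = ((φ u : ↥U) : G) := by
      intro k
      induction k with
      | zero =>
        intro φ hφ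
        refine ⟨1, LU.one_mem, fun u => ?_⟩
        have : φ u = u := by
          by_contra hne'
          have hpos : 0 < Nat.card {y : ↥U // φ y ≠ y} := by
            have : Nonempty {y : ↥U // φ y ≠ y} := ⟨⟨u, hne'⟩⟩
            exact Nat.card_pos
          omega
        rw [this]; group
      | succ k ih =>
        intro φ hφ
        by_cases hfix : ∀ y : ↥U, φ y = y
        · refine ⟨1, LU.one_mem, fun u => ?_⟩
          rw [hfix u]; group
        push Not at hfix
        obtain ⟨v, hv⟩ := hfix
        obtain ⟨w, hw⟩ : ∃ w : ↥U, w = φ v := ⟨φ v, rfl⟩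
        have hvU : (v : G) ∈ U := v.2
        have hwU : (w : G) ∈ U := w.2
        have hvw : (v : G) ≠ (w : G) := by
          intro h
          apply hv
          rw [← hw]
          exact (Subtype.ext h).symm
        -- fixed subgroup
        let F : Subgroup G :=
          { carrier := {y | ∃ h : y ∈ U, φ ⟨y, h⟩ = ⟨y, h⟩}
            one_mem' := ⟨U.one_mem, map_one φ⟩
            mul_mem' := by
              rintro a b ⟨ha, ha'⟩ ⟨hb, hb'⟩
              refine ⟨U.mul_mem ha hb, ?_⟩
              have := map_mul φ ⟨a, ha⟩ ⟨b, hb⟩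
              rw [ha', hb'] at this
              exact this
            inv_mem' := by
              rintro a ⟨ha, ha'⟩
              refine ⟨U.inv_mem ha, ?_⟩
              have := map_inv φ ⟨a, ha⟩
              rw [ha'] at this
              exact this }
        have hFU : F ≤ U := fun y hy => hy.1
        have hvF : (v : G) ∉ F := by
          rintro ⟨h, h'⟩
          exact hv h'
        have hwF : (w : G) ∉ F := by
          rintro ⟨h, h'⟩
          apply hv
          have h2 : φ w = w := h'
          rw [hw] at h2
          exact φ.injective h2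
        obtain ⟨M, hFM, hMmax⟩ := Finite.exists_le_maximal
          (p := fun K : Subgroup G => K ≤ U ∧ F ≤ K ∧ (v : G) ∉ K ∧ (w : G) ∉ K) (a := F)
          ⟨hFU, le_rfl, hvF, hwF⟩
        obtain ⟨⟨hMU, -, hvM, hwM⟩, hmax⟩ := hMmax
        have hstar : ∀ y ∈ U, y ∉ M → (v : G) * y ∈ M ∨ (w : G) * y ∈ M := by
          intro y hy hyM
          have hMK : M ≤ extSub U M hU2 hMU y hy := fun t ht => ⟨hMU ht, Or.inl ht⟩
          have hyK : y ∈ extSub U M hU2 hMU y hy := ⟨hy, Or.inr (by rw [hU2 y hy]; exact M.one_mem)⟩
          by_contra hcon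
          push Not at hcon
          have hvK : (v : G) ∉ extSub U M hU2 hMU y hy := by
            rintro ⟨-, h | h⟩
            · exact hvM h
            · exact hcon.1 h
          have hwK : (w : G) ∉ extSub U M hU2 hMU y hy := by
            rintro ⟨-, h | h⟩
            · exact hwM h
            · exact hcon.2 h
          have hKU : extSub U M hU2 hMU y hy ≤ U :=
            fun t ht => ((mem_extSub U M hU2 hMU y hy t).mp ht).1
          have := hmax ⟨hKU, hFM.trans hMK, hvK, hwK⟩ hMK
          exact hyM (this hyK)
        have hvv : (v : G) * (v : G) = 1 := hU2 _ hvU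
        have hww : (w : G) * (w : G) = 1 := hU2 _ hwU
        have hcM : (v : G) * (w : G) ∈ M := by
          by_contra hcon
          rcases hstar _ (U.mul_mem hvU hwU) hcon with h | h
          · apply hwM
            have e : (v : G) * ((v : G) * (w : G)) = (w : G) := by
              calc (v : G) * ((v : G) * (w : G)) = ((v : G) * (v : G)) * (w : G) := by group
                _ = (w : G) := by rw [hvv, one_mul]
            rwa [e] at h
          · apply hvM
            have e : (w : G) * ((v : G) * (w : G)) = (v : G) := by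
              calc (w : G) * ((v : G) * (w : G)) = ((w : G) * (v : G)) * (w : G) := by group
                _ = ((v : G) * (w : G)) * (w : G) := by rw [hUc _ hwU _ hvU]
                _ = (v : G) * ((w : G) * (w : G)) := by group
                _ = (v : G) := by rw [hww, mul_one]
            rwa [e] at h
        have hidx : ∀ y ∈ U, y ∉ M → (v : G) * y ∈ M := by
          intro y hy hyM
          rcases hstar y hy hyM with h | h
          · exact h
          · have e : (v : G) * y = ((v : G) * (w : G)) * ((w : G) * y) := by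
              calc (v : G) * y = (v : G) * (1 * y) := by rw [one_mul]
                _ = (v : G) * (((w : G) * (w : G)) * y) := by rw [hww]
                _ = ((v : G) * (w : G)) * ((w : G) * y) := by group
            rw [e]; exact M.mul_mem hcM h
        have hcU : (v : G) * (w : G) ∈ U := U.mul_mem hvU hwU
        have hc1 : (v : G) * (w : G) ≠ 1 := by
          intro h
          apply hvw
          calc (v : G) = (v : G) * ((w : G) * (w : G)) := by rw [hww, mul_one]
            _ = ((v : G) * (w : G)) * (w : G) := by group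
            _ = (w : G) := by rw [h, one_mul]
        have hxs := xs_of_mem hz hE hC U hS hcU hc1
        have hUle := U_le U hO hcU hc1
        have hex : ∃ a ∈ O2C ((v : G) * (w : G)), (∀ t ∈ M, t * a = a * t) ∧
            (v : G) * a ≠ a * (v : G) := by
          by_contra hcon
          push Not at hcon
          exact hvM (hxs.double_centralizer M (hMU.trans hUle) hcM (v : G) (hUle hvU) hcon)
        obtain ⟨a, ha, haM, hav⟩ := hex
        have hav' : a * (v : G) * a⁻¹ = (v : G) * (w : G) * (v : G) := by
          rcases hxs.conj_cases ha (hUle hvU) with h1 | h1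
          · exfalso
            apply hav
            calc (v : G) * a = (a * (v : G) * a⁻¹) * a := by rw [h1]
              _ = a * (v : G) := by group
          · exact h1
        have haw : a * (w : G) * a⁻¹ = (v : G) := by
          have e1 : (w : G) = ((v : G) * (w : G)) * (v : G) := by
            calc (w : G) = (w : G) * ((v : G) * (v : G)) := by rw [hvv, mul_one]
              _ = ((w : G) * (v : G)) * (v : G) := by group
              _ = ((v : G) * (w : G)) * (v : G) := by rw [hUc _ hwU _ hvU]
          have e2 : a * ((v : G) * (w : G)) * a⁻¹ = (v : G) * (w : G) := by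
            calc a * ((v : G) * (w : G)) * a⁻¹ = (((v : G) * (w : G)) * a) * a⁻¹ := by
                  rw [haM _ hcM]
              _ = (v : G) * (w : G) := by group
          calc a * (w : G) * a⁻¹ = a * (((v : G) * (w : G)) * (v : G)) * a⁻¹ := by rw [← e1]
            _ = (a * ((v : G) * (w : G)) * a⁻¹) * (a * (v : G) * a⁻¹) := by group
            _ = ((v : G) * (w : G)) * ((v : G) * (w : G) * (v : G)) := by rw [e2, hav']
            _ = (((v : G) * (w : G)) * ((v : G) * (w : G))) * (v : G) := by group
            _ = (v : G) := by rw [hU2 _ hcU, one_mul]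
        have haMfix : ∀ t ∈ M, a * t * a⁻¹ = t := by
          intro t ht
          calc a * t * a⁻¹ = (t * a) * a⁻¹ := by rw [haM t ht]
            _ = t := by group
        have hcj : ∀ t ∈ U, a * t * a⁻¹ ∈ U := fun t ht =>
          conj_mem_U hz hE hC U hS hO hcU hc1 ha ht
        have hcj' : ∀ t ∈ U, a⁻¹ * t * a ∈ U := fun t ht =>
          conj_mem_U' hz hE hC U hS hO hcU hc1 ha ht
        let φ' : ↥U ≃* ↥U :=
          { toFun := fun y => ⟨a * ((φ y : ↥U) : G) * a⁻¹, hcj _ (φ y).2⟩
            invFun := fun y => φ.symm ⟨a⁻¹ * (y : G) * a, hcj' _ y.2⟩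
            left_inv := by
              intro y
              have : (⟨a⁻¹ * (a * ((φ y : ↥U) : G) * a⁻¹) * a, hcj' _ (hcj _ (φ y).2)⟩ : ↥U) = φ y := by
                apply Subtype.ext
                show a⁻¹ * (a * ((φ y : ↥U) : G) * a⁻¹) * a = ((φ y : ↥U) : G)
                group
              show φ.symm ⟨a⁻¹ * (a * ((φ y : ↥U) : G) * a⁻¹) * a, _⟩ = y
              rw [this]
              exact φ.symm_apply_apply y
            right_inv := by
              intro y
              apply Subtype.ext
              show a * ((φ (φ.symm ⟨a⁻¹ * (y : G) * a, hcj' _ y.2⟩) : ↥U) : G) * a⁻¹ = (y : G)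
              rw [φ.apply_symm_apply]
              show a * (a⁻¹ * (y : G) * a) * a⁻¹ = (y : G)
              group
            map_mul' := by
              intro y1 y2
              apply Subtype.ext
              show a * ((φ (y1 * y2) : ↥U) : G) * a⁻¹ =
                (a * ((φ y1 : ↥U) : G) * a⁻¹) * (a * ((φ y2 : ↥U) : G) * a⁻¹)
              rw [map_mul]
              show a * (((φ y1 : ↥U) : G) * ((φ y2 : ↥U) : G)) * a⁻¹ = _
              group }
        have hφ'val : ∀ y : ↥U, ((φ' y : ↥U) : G) = a * ((φ y : ↥U) : G) * a⁻¹ := fun y => rfl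
        have hφ'fix : ∀ y : ↥U, φ y = y → φ' y = y := by
          intro y hy
          apply Subtype.ext
          rw [hφ'val, hy]
          apply haMfix
          exact hFM ⟨y.2, hy⟩
        have hφ'v : φ' v = v := by
          apply Subtype.ext
          rw [hφ'val, ← hw]
          exact haw
        have hlt : Nat.card {y : ↥U // φ' y ≠ y} < Nat.card {y : ↥U // φ y ≠ y} := by
          haveI : Fintype ↥U := Fintype.ofFinite _
          rw [Nat.card_eq_fintype_card, Nat.card_eq_fintype_card, Fintype.card_subtype,
            Fintype.card_subtype]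
          apply Finset.card_lt_card
          rw [Finset.ssubset_iff_of_subset]
          · refine ⟨v, by simp [hv], by simp [hφ'v]⟩
          · intro y hy
            simp only [Finset.mem_filter, Finset.mem_univ, true_and] at hy ⊢
            intro h
            exact hy (hφ'fix y h)
        obtain ⟨g', hg'LU, hg'⟩ := ih φ' (by omega)
        refine ⟨a⁻¹ * g', LU.mul_mem (LU.inv_mem (hLUge _ hcU hc1 ha)) hg'LU, fun u => ?_⟩
        have := hg' u
        rw [hφ'val] at this
        calc a⁻¹ * g' * (u : G) * (a⁻¹ * g')⁻¹ = a⁻¹ * (g' * (u : G) * g'⁻¹) * a := by group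
          _ = a⁻¹ * (a * ((φ u : ↥U) : G) * a⁻¹) * a := by rw [this]
          _ = ((φ u : ↥U) : G) := by group
    intro φ
    exact key _ φ le_rfl

end Cfsg.Agent.S5596
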