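import Cfsg.Statements.S5597
import Mathlib
import Cfsg.Agent.Lib.Helper93.LargeExtra
import Cfsg.Agent.Lib.Helper93.LargeExtra2

set_option autoImplicit false
open Cfsg

namespace Cfsg.Agent.S5597

open Cfsg.Agent.Lib.Helper93.LargeExtra Cfsg.Agent.Lib.Helper93.LargeExtra2

/-- Setting: `z` is an involution of the finite group `G`; for each element `x`, `Q x` is the largest normal 2-subgroup of the centralizer of `x`; `Q z` is extraspecial and contains its own centralizer in `G`. A subgroup `U` is singular when it is elementary abelian, every non-identity element of `U` is conjugate to `z`, and any two non-identity elements `u`, `v` of `U` are orthogonal (`v ∈ Q u`). Write `QU` for the intersection of the `Q u` and `LU` for the join of the `Q u` over the non-identity `u` in `U`. If `U` is a non-trivial singular subgroup, then `LU` acts trivially on `QU / U` (every commutator of an element of `LU` with an element of `QU` lies in `U`), and for every `x` in `QU` outside `U` the centralizer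 of `U` in `LU` permutes the coset `x U` transitively: each `x u` with `u ∈ U` is a conjugate of `x` by an element of `LU` centralizing `U`. -/
theorem result {G : Type*} [Group G] [Finite G]
    (Q : G → Subgroup G)
    (hQ : ∀ x : G, Q x = (Cfsg.pCore 2 ↥(Subgroup.centralizer ({x} : Set G))).map (Subgroup.centralizer ({x} : Set G)).subtype)
    (z : G) (hz : orderOf z = 2) (hE : Cfsg.IsExtraspecial 2 ↥(Q z))
    (hC : Subgroup.centralizer ((Q z : Subgroup G) : Set G) ≤ Q z)
    (U : Subgroup G) (hU2 : ∀ u ∈ U, u * u = 1)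
    (hS : ∀ u ∈ U, u ≠ 1 → ∃ g : G, g * z * g⁻¹ = u)
    (hO : ∀ u ∈ U, ∀ v ∈ U, u ≠ 1 → v ≠ 1 → v ∈ Q u)
    (QU LU : Subgroup G) (hQU : QU = ⨅ u ∈ ((U : Set G) \ {1}), Q u) (hLU : LU = ⨆ u ∈ ((U : Set G) \ {1}), Q u)
    (hU : U ≠ ⊥) :
    (∀ g ∈ LU, ∀ x ∈ QU, g * x * g⁻¹ * x⁻¹ ∈ U) ∧
      ∀ x ∈ QU, x ∉ U → ∀ u ∈ U, ∃ g ∈ LU ⊓ Subgroup.centralizer (U : Set G), g * x * g⁻¹ = x * u := by
  classical
  have hQ' : Q = O2C := funext hQ
  subst hQ'
  have hQUle : ∀ u ∈ U, u ≠ 1 → QU ≤ O2C u := by
    intro u hu hu1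
    rw [hQU]
    exact iInf₂_le u ⟨hu, hu1⟩
  have hLUge : ∀ u ∈ U, u ≠ 1 → O2C u ≤ LU := by
    intro u hu hu1
    rw [hLU]
    exact le_iSup₂ (f := fun u (_ : u ∈ (U : Set G) \ {1}) => O2C u) u ⟨hu, hu1⟩
  constructor
  · let S : Subgroup G :=
      { carrier := {g | (∀ v ∈ U, g * v * g⁻¹ ∈ U ∧ g⁻¹ * v * g ∈ U) ∧
          ∀ x ∈ QU, g * x * g⁻¹ * x⁻¹ ∈ U ∧ g⁻¹ * x * g * x⁻¹ ∈ U}
        one_mem' := by
          refine ⟨fun v hv => ?_, fun x hx => ?_⟩
          · simpa using hv
          · simp [U.one_mem]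
        mul_mem' := by
          rintro g h ⟨hg1, hg2⟩ ⟨hh1, hh2⟩
          refine ⟨fun v hv => ⟨?_, ?_⟩, fun x hx => ⟨?_, ?_⟩⟩
          · have := (hg1 _ (hh1 v hv).1).1
            have e : g * h * v * (g * h)⁻¹ = g * (h * v * h⁻¹) * g⁻¹ := by group
            rw [e]; exact this
          · have := (hh1 _ (hg1 v hv).2).2
            have e : (g * h)⁻¹ * v * (g * h) = h⁻¹ * (g⁻¹ * v * g) * h := by group
            rw [e]; exact this
          · have h1 := (hg1 _ (hh2 x hx).1).1
            have h2 := (hg2 x hx).1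
            have e : g * h * x * (g * h)⁻¹ * x⁻¹ =
                (g * (h * x * h⁻¹ * x⁻¹) * g⁻¹) * (g * x * g⁻¹ * x⁻¹) := by group
            rw [e]; exact U.mul_mem h1 h2
          · have h1 := (hh1 _ (hg2 x hx).2).2
            have h2 := (hh2 x hx).2
            have e : (g * h)⁻¹ * x * (g * h) * x⁻¹ =
                (h⁻¹ * (g⁻¹ * x * g * x⁻¹) * h) * (h⁻¹ * x * h * x⁻¹) := by group
            rw [e]; exact U.mul_mem h1 h2
        inv_mem' := by
          rintro g ⟨hg1, hg2⟩
          refine ⟨fun v hv => ⟨?_, ?_⟩, fun x hx => ⟨?_, ?_⟩⟩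
          · simpa using (hg1 v hv).2
          · simpa using (hg1 v hv).1
          · simpa using (hg2 x hx).2
          · simpa using (hg2 x hx).1 }
    have hLS : LU ≤ S := by
      rw [hLU]
      refine iSup₂_le fun u hu' => ?_
      have hu : u ∈ U := hu'.1
      have hu1 : u ≠ 1 := hu'.2
      intro a ha
      have hxs := xs_of_mem hz hE hC U hS hu hu1
      refine ⟨fun v hv => ⟨conj_mem_U hz hE hC U hS hO hu hu1 ha hv,
        conj_mem_U' hz hE hC U hS hO hu hu1 ha hv⟩, fun x hx => ⟨?_, ?_⟩⟩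
      · rcases hxs.comm a ha x (hQUle u hu hu1 hx) with h1 | h1
        · rw [h1]; exact U.one_mem
        · rw [h1]; exact hu
      · have := hxs.comm a⁻¹ ((O2C u).inv_mem ha) x (hQUle u hu hu1 hx)
        rw [inv_inv] at this
        rcases this with h1 | h1
        · rw [h1]; exact U.one_mem
        · rw [h1]; exact hu
    intro g hg x hx
    exact ((hLS hg).2 x hx).1
  · intro x hx hxU u hu
    by_cases hu1 : u = 1
    · refine ⟨1, Subgroup.one_mem _, ?_⟩
      rw [hu1]; group
    have hxs := xs_of_mem hz hE hC U hS hu hu1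
    have hxQ : x ∈ O2C u := hQUle u hu hu1 hx
    have hUle := U_le U hO hu hu1
    have hex : ∃ b ∈ O2C u, (∀ a ∈ U, a * b = b * a) ∧ x * b ≠ b * x := by
      by_contra hcon
      push Not at hcon
      exact hxU (hxs.double_centralizer U hUle hu x hxQ hcon)
    obtain ⟨b, hb, hbU, hxb⟩ := hex
    have hbc : b ∈ Subgroup.centralizer (U : Set G) := by
      rw [Subgroup.mem_centralizer_iff]
      intro a ha
      exact hbU a ha
    refine ⟨b, Subgroup.mem_inf.mpr ⟨hLUge u hu hu1 hb, hbc⟩, ?_⟩
    · rcases hxs.conj_cases hb hxQ with h1 | h1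
      · exfalso
        apply hxb
        calc x * b = (b * x * b⁻¹) * b := by rw [h1]
          _ = b * x := by group
      · rw [h1]
        exact hxs.z_comm x hxQ

end Cfsg.Agent.S5597
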