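import Cfsg.Statements.S5598
import Mathlib
import Cfsg.Agent.Lib.Helper93.LargeExtra

set_option autoImplicit false
open Cfsg

namespace Cfsg.Agent.S5598

/-- Setting: `z` is an involution of the finite group `G`; for each element `x`, `Q x` is the largest normal 2-subgroup of the centralizer of `x`; `Q z` is extraspecial and contains its own centralizer in `G`. A subgroup `U` is singular when it is elementary abelian, every non-identity element of `U` is conjugate to `z`, and any two non-identity elements `u`, `v` of `U` are orthogonal (`v ∈ Q u`). Write `QU` for the intersection of the `Q u` and `LU` for the join of the `Q u` over the non-identity `u` in `U`. If the singular subgroup `U` is generated by a set `T` of non-identity elements, then `QU` is already the intersection of the `Q t` over `t ∈ T`. -/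
theorem result {G : Type*} [Group G] [Finite G]
    (Q : G → Subgroup G)
    (hQ : ∀ x : G, Q x = (Cfsg.pCore 2 ↥(Subgroup.centralizer ({x} : Set G))).map (Subgroup.centralizer ({x} : Set G)).subtype)
    (z : G) (hz : orderOf z = 2) (hE : Cfsg.IsExtraspecial 2 ↥(Q z))
    (hC : Subgroup.centralizer ((Q z : Subgroup G) : Set G) ≤ Q z)
    (U : Subgroup G) (hU2 : ∀ u ∈ U, u * u = 1)
    (hS : ∀ u ∈ U, u ≠ 1 → ∃ g : G, g * z * g⁻¹ = u)
    (hO : ∀ u ∈ U, ∀ v ∈ U, u ≠ 1 → v ≠ 1 → v ∈ Q u)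
    (QU LU : Subgroup G) (hQU : QU = ⨅ u ∈ ((U : Set G) \ {1}), Q u) (hLU : LU = ⨆ u ∈ ((U : Set G) \ {1}), Q u)
    (T : Set G) (hT : Subgroup.closure T = U) (hT1 : (1 : G) ∉ T) :
    QU = ⨅ t ∈ T, Q t := by
  classical
  have hQ' : Q = Cfsg.Agent.Lib.Helper93.LargeExtra.O2C := funext hQ
  subst hQ'
  have hTU : ∀ t ∈ T, t ∈ U := fun t ht => hT ▸ Subgroup.subset_closure ht
  have hT1' : ∀ t ∈ T, t ≠ 1 := fun t ht h => hT1 (h ▸ ht)
  -- key step for two elements of U
  have key : ∀ x ∈ U, ∀ y ∈ U, x ≠ 1 → y ≠ 1 → x * y ≠ 1 → ∀ a : G,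
      a ∈ Cfsg.Agent.Lib.Helper93.LargeExtra.O2C x → a ∈ Cfsg.Agent.Lib.Helper93.LargeExtra.O2C y →
      a ∈ Cfsg.Agent.Lib.Helper93.LargeExtra.O2C (x * y) := by
    intro x hx y hy hx1 hy1 hxy a hax hay
    obtain ⟨g, hg⟩ := hS x hx hx1
    have ex : g⁻¹ * x * g⁻¹⁻¹ = z := by rw [← hg]; group
    have hyx : y ∈ Cfsg.Agent.Lib.Helper93.LargeExtra.O2C x := hO x hx y hy hx1 hy1
    have hxy' : x ∈ Cfsg.Agent.Lib.Helper93.LargeExtra.O2C y := hO y hy x hx hy1 hx1
    have h1 : g⁻¹ * y * g⁻¹⁻¹ ∈ Cfsg.Agent.Lib.Helper93.LargeExtra.O2C z := by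
      have := Cfsg.Agent.Lib.Helper93.LargeExtra.mem_O2C_conj (s := g⁻¹) hyx
      rwa [ex] at this
    have h2 : z ∈ Cfsg.Agent.Lib.Helper93.LargeExtra.O2C (g⁻¹ * y * g⁻¹⁻¹) := by
      have := Cfsg.Agent.Lib.Helper93.LargeExtra.mem_O2C_conj (s := g⁻¹) hxy'
      rwa [ex] at this
    have h3 : g⁻¹ * a * g⁻¹⁻¹ ∈ Cfsg.Agent.Lib.Helper93.LargeExtra.O2C z := by
      have := Cfsg.Agent.Lib.Helper93.LargeExtra.mem_O2C_conj (s := g⁻¹) hax
      rwa [ex] at this
    have h4 : g⁻¹ * a * g⁻¹⁻¹ ∈ Cfsg.Agent.Lib.Helper93.LargeExtra.O2C (g⁻¹ * y * g⁻¹⁻¹) :=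
      Cfsg.Agent.Lib.Helper93.LargeExtra.mem_O2C_conj (s := g⁻¹) hay
    have h5 : g⁻¹ * y * g⁻¹⁻¹ ≠ 1 := by
      intro h
      apply hy1
      have : y = g * (g⁻¹ * y * g⁻¹⁻¹) * g⁻¹ := by group
      rw [this, h]; group
    have h6 : g⁻¹ * y * g⁻¹⁻¹ ≠ z := by
      intro h
      apply hxy
      have : y = x := by
        have e1 : y = g * (g⁻¹ * y * g⁻¹⁻¹) * g⁻¹ := by group
        rw [e1, h, hg]
      rw [this]
      exact hU2 x hx
    have h7 := Cfsg.Agent.Lib.Helper93.LargeExtra.key_z hz hE hC h1 h5 h6 h2 h3 h4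
    have e2 : z * (g⁻¹ * y * g⁻¹⁻¹) = g⁻¹ * (x * y) * g⁻¹⁻¹ := by rw [← ex]; group
    rw [e2] at h7
    exact Cfsg.Agent.Lib.Helper93.LargeExtra.mem_O2C_conj_iff.mp h7
  rw [hQU]
  apply le_antisymm
  · refine le_iInf₂ fun t ht => ?_
    exact iInf₂_le t ⟨hTU t ht, hT1' t ht⟩
  · intro a ha
    simp only [Subgroup.mem_iInf] at ha
    have main : ∀ u ∈ Subgroup.closure T, u = 1 ∨ a ∈ Cfsg.Agent.Lib.Helper93.LargeExtra.O2C u := by
      intro u hu
      induction hu using Subgroup.closure_induction with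
      | mem x hx => exact Or.inr (ha x hx)
      | one => exact Or.inl rfl
      | mul x y hx hy ihx ihy =>
        rw [hT] at hx hy
        by_cases hxy : x * y = 1
        · exact Or.inl hxy
        · by_cases hx1 : x = 1
          · subst hx1; rw [one_mul]; exact ihy
          · by_cases hy1 : y = 1
            · subst hy1; rw [mul_one]; exact ihx
            · right
              exact key x hx y hy hx1 hy1 hxy a (ihx.resolve_left hx1) (ihy.resolve_left hy1)
      | inv x hx ihx =>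
        rw [hT] at hx
        have : x⁻¹ = x := by
          have := hU2 x hx
          exact inv_eq_of_mul_eq_one_left this
        rw [this]
        exact ihx
    simp only [Subgroup.mem_iInf]
    rintro u ⟨hu, hu1⟩
    rcases main u (hT ▸ hu) with h | h
    · exact absurd h hu1
    · exact h

end Cfsg.Agent.S5598
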