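import Cfsg.Statements.S5713
-- import your own Cfsg.Agent.* helpers here
import Mathlib
import Cfsg.Agent.Lib.Helper95.BabaiA
import Cfsg.Agent.Lib.Helper95.BabaiB

set_option autoImplicit false
open Cfsg

namespace Cfsg.Agent.S5713

section helpers

open Cfsg.Agent.Lib.Helper95

theorem nat_bound {G Ω : Type*} [Group G] [Finite G] [MulAction G Ω] [FaithfulSMul G Ω] [Fintype Ω]
    [DecidableEq Ω] (hprim : MulAction.IsPreprimitive G Ω)
    (hA : ¬ alternatingGroup Ω ≤ (MulAction.toPermHom G Ω).range)
    (g : G) (hg : g ≠ 1) :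
    Fintype.card Ω ≤ (2 * (Finset.univ.filter (fun z : Ω => g • z ≠ z)).card + 1) ^ 2 := by
  set S : Finset Ω := Finset.univ.filter (fun z : Ω => g • z ≠ z) with hS
  obtain ⟨x, hx⟩ : ∃ x : Ω, g • x ≠ x := by
    by_contra h
    push Not at h
    exact hg (FaithfulSMul.eq_of_smul_eq_smul (α := Ω) (fun a => by rw [h a, one_smul]))
  have hxS : x ∈ S := by rw [hS, Finset.mem_filter]; exact ⟨Finset.mem_univ _, hx⟩
  by_cases h2 : ∀ p q p' q' : Ω, p ≠ q → p' ≠ q' → ∃ h : G, h • p = p' ∧ h • q = q'
  · have hb := BabaiA.two_trans_bound hprim hA h2 g S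
      (by intro z; rw [hS, Finset.mem_filter]; simp) x hxS
    have hm : 0 < S.card := Finset.card_pos.mpr ⟨x, hxS⟩
    obtain ⟨k, hk⟩ : ∃ k, S.card = k + 1 := ⟨S.card - 1, by omega⟩
    rw [hk] at hb ⊢
    simp only [Nat.add_sub_cancel] at hb
    have : Fintype.card Ω ≤ k * k + 1 := by omega
    nlinarith
  · have := hprim
    have h1 := BabaiB.uniprim (G := G) h2 (x := x) (y := g • x) (Ne.symm hx)
    have h3 : (BabaiB.Dset G x (g • x)).card ≤ S.card := by
      apply Finset.card_le_card
      intro z hz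
      rw [hS, Finset.mem_filter]
      exact ⟨Finset.mem_univ _, BabaiB.Dset_moved g rfl hz⟩
    calc Fintype.card Ω ≤ (2 * (BabaiB.Dset G x (g • x)).card + 1) ^ 2 := h1
      _ ≤ (2 * S.card + 1) ^ 2 := by
          apply Nat.pow_le_pow_left
          omega

end helpers


/-- A classification-free minimal-degree bound. Let G be a finite group acting faithfully and primitively on a finite set Ω with n elements, and suppose that the image of G in the symmetric group on Ω does not contain the alternating group on Ω. Then every non-identity element of G moves at least (√n − 1)/2 points of Ω, that is, it fixes at most n − (√n − 1)/2 points. -/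
theorem result {G Ω : Type*} [Group G] [Finite G] [MulAction G Ω] [FaithfulSMul G Ω] [Fintype Ω] [DecidableEq Ω]
    (hprim : MulAction.IsPreprimitive G Ω)
    (hA : ¬ alternatingGroup Ω ≤ (MulAction.toPermHom G Ω).range)
    (g : G) (hg : g ≠ 1) :
    (Real.sqrt (Fintype.card Ω) - 1) / 2 ≤ (Fintype.card Ω : ℝ) - Nat.card (MulAction.fixedBy Ω g) := by
  have hb := nat_bound hprim hA g hg
  set m := (Finset.univ.filter (fun z : Ω => g • z ≠ z)).card with hm
  have hcard : m + Nat.card (MulAction.fixedBy Ω g) = Fintype.card Ω := by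
    have h1 : Nat.card (MulAction.fixedBy Ω g) = (Finset.univ.filter (fun z : Ω => g • z = z)).card := by
      rw [Nat.card_eq_fintype_card, ← Fintype.card_subtype]
      rfl
    rw [h1, hm, add_comm]
    have := Finset.card_filter_add_card_filter_not (s := (Finset.univ : Finset Ω)) (fun z : Ω => g • z = z)
    rw [Finset.card_univ] at this
    exact this
  have hreal : (Fintype.card Ω : ℝ) - Nat.card (MulAction.fixedBy Ω g) = (m : ℝ) := by
    rw [← hcard]; push_cast; ring
  rw [hreal]
  have hsq : Real.sqrt (Fintype.card Ω) ≤ 2 * (m : ℝ) + 1 := by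
    have h1 : ((Fintype.card Ω : ℕ) : ℝ) ≤ (2 * (m : ℝ) + 1) ^ 2 := by
      exact_mod_cast hb
    calc Real.sqrt (Fintype.card Ω) ≤ Real.sqrt ((2 * (m : ℝ) + 1) ^ 2) := Real.sqrt_le_sqrt h1
      _ = 2 * (m : ℝ) + 1 := Real.sqrt_sq (by positivity)
  linarith

end Cfsg.Agent.S5713
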