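import Cfsg.Statements.S5729
import Mathlib

set_option autoImplicit false
open Cfsg

namespace Cfsg.Agent.S5729

open MulAction

/-- number of fixed points as a finset card -/
noncomputable def fx {G Ω : Type*} [Group G] [MulAction G Ω] [Fintype Ω] (g : G) : ℕ := by
  classical exact (Finset.univ.filter (fun ω : Ω => g • ω = ω)).card

lemma fx_le {G Ω : Type*} [Group G] [MulAction G Ω] [Fintype Ω] (g : G) :
    fx (Ω := Ω) g ≤ Fintype.card Ω := by
  classical
  unfold fx
  exact Finset.card_le_univ _

lemma natCard_fixedBy {G Ω : Type*} [Group G] [MulAction G Ω] [Fintype Ω] (g : G) :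
    Nat.card (fixedBy Ω g) = fx (Ω := Ω) g := by
  classical
  unfold fx
  rw [Nat.card_eq_fintype_card, Fintype.card_subtype]
  rfl

lemma fx_eq_card_iff {G Ω : Type*} [Group G] [MulAction G Ω] [Fintype Ω] [FaithfulSMul G Ω] (g : G) :
    fx (Ω := Ω) g = Fintype.card Ω ↔ g = 1 := by
  classical
  unfold fx
  rw [← Finset.card_univ, Finset.card_filter_eq_iff]
  constructor
  · intro h
    apply FaithfulSMul.eq_of_smul_eq_smul (α := Ω)
    intro ω
    rw [one_smul]
    exact h ω (Finset.mem_univ _)
  · rintro rfl ω _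
    exact one_smul _ _

lemma fx_eq_zero_iff {G Ω : Type*} [Group G] [MulAction G Ω] [Fintype Ω] (g : G) :
    fx (Ω := Ω) g = 0 ↔ ∀ ω : Ω, g • ω ≠ ω := by
  classical
  unfold fx
  rw [Finset.card_eq_zero, Finset.filter_eq_empty_iff]
  simp

lemma sum_fx {G Ω : Type*} [Group G] [Fintype G] [MulAction G Ω] [Fintype Ω]
    (htr : MulAction.IsPretransitive G Ω) [Nonempty Ω] :
    ∑ g : G, fx (Ω := Ω) g = Fintype.card G := by
  classical
  have h := MulAction.sum_card_fixedBy_eq_card_orbits_mul_card_group G Ω
  have h1 : Fintype.card (Quotient (orbitRel G Ω)) = 1 := by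
    rw [Fintype.card_eq_one_iff_nonempty_unique]
    exact ⟨(MulAction.pretransitive_iff_unique_quotient_of_nonempty G Ω).mp htr |>.some⟩
  rw [h1, one_mul] at h
  rw [← h]
  apply Finset.sum_congr rfl
  intro g _
  rw [← natCard_fixedBy, Nat.card_eq_fintype_card]

lemma fx_prod {G Ω : Type*} [Group G] [MulAction G Ω] [Fintype Ω] (g : G) :
    fx (Ω := Ω × Ω) g = fx (Ω := Ω) g ^ 2 := by
  classical
  unfold fx
  rw [sq, ← Finset.card_product]
  congr 1
  ext ⟨a, b⟩
  simp [Prod.ext_iff]

lemma sum_fx_sq {G Ω : Type*} [Group G] [Fintype G] [MulAction G Ω] [Fintype Ω]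
    (a b : Ω) (hab : a ≠ b) :
    ∃ r : ℕ, 2 ≤ r ∧ ∑ g : G, fx (Ω := Ω) g ^ 2 = r * Fintype.card G := by
  classical
  have h := MulAction.sum_card_fixedBy_eq_card_orbits_mul_card_group G (Ω × Ω)
  refine ⟨Fintype.card (Quotient (orbitRel G (Ω × Ω))), ?_, ?_⟩
  · have : Nontrivial (Quotient (orbitRel G (Ω × Ω))) := by
      refine ⟨⟨Quotient.mk'' (a, a), Quotient.mk'' (a, b), ?_⟩⟩
      intro heq
      rw [Quotient.eq''] at heq
      change (a, a) ∈ MulAction.orbit G (a, b) at heq
      obtain ⟨g, hg⟩ := heq
      simp only [Prod.smul_mk, Prod.mk.injEq] at hg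
      exact hab (smul_left_cancel g (hg.1.trans hg.2.symm))
    exact Fintype.one_lt_card
  · rw [← h]
    apply Finset.sum_congr rfl
    intro g _
    rw [← fx_prod, ← natCard_fixedBy, Nat.card_eq_fintype_card]

/-- Let a finite group G act faithfully and transitively on a set with n ≥ 3 points. Then either G is a Frobenius permutation group (Frobenius as a permutation group: transitive, some non-identity element fixes a point, and no non-identity element fixes two points) of order n(n − 1) and exactly |G|/n of its elements are derangements (fix no point), or the number of derangements is greater than |G|/n. -/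
theorem result {G Ω : Type*} [Group G] [Finite G] [MulAction G Ω] [FaithfulSMul G Ω] [Fintype Ω] (htr : MulAction.IsPretransitive G Ω) (hn : 3 ≤ Fintype.card Ω) :
    ((MulAction.IsPretransitive G Ω ∧ (∃ g : G, g ≠ 1 ∧ ∃ ω : Ω, g • ω = ω) ∧ ∀ g : G, g ≠ 1 → Nat.card (MulAction.fixedBy Ω g) ≤ 1) ∧ Nat.card G = Fintype.card Ω * (Fintype.card Ω - 1) ∧ Fintype.card Ω * Nat.card {g : G // ∀ ω : Ω, g • ω ≠ ω} = Nat.card G) ∨
    Nat.card G < Fintype.card Ω * Nat.card {g : G // ∀ ω : Ω, g • ω ≠ ω} := by
  classical
  haveI : Fintype G := Fintype.ofFinite G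
  set n := Fintype.card Ω with hn_def
  have hnpos : 0 < n := by omega
  haveI : Nonempty Ω := Fintype.card_pos_iff.mp hnpos
  obtain ⟨a, b, hab⟩ : ∃ a b : Ω, a ≠ b := by
    have : 1 < Fintype.card Ω := by omega
    exact Fintype.exists_pair_of_one_lt_card this
  have hS1 := sum_fx (G := G) (Ω := Ω) htr
  obtain ⟨r, hr2, hS2⟩ := sum_fx_sq (G := G) a b hab
  set f : G → ℕ := fun g => fx (Ω := Ω) g with hf
  -- derangement count
  have hD : Nat.card {g : G // ∀ ω : Ω, g • ω ≠ ω} = (Finset.univ.filter (fun g : G => f g = 0)).card := by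
    rw [Nat.card_eq_fintype_card, Fintype.card_subtype]
    congr 1
    ext g
    simp only [Finset.mem_filter, Finset.mem_univ, true_and, hf]
    exact (fx_eq_zero_iff g).symm
  have hcardG : Nat.card G = Fintype.card G := Nat.card_eq_fintype_card
  have hGpos : 0 < Fintype.card G := Fintype.card_pos
  -- termwise inequality over ℤ
  have hterm : ∀ g : G, ((f g : ℤ) - 1) * ((f g : ℤ) - n) ≤ (if f g = 0 then (n : ℤ) else 0) := by
    intro g
    have hle : f g ≤ n := fx_le g
    by_cases h0 : f g = 0
    · simp [h0]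
    · rw [if_neg h0]
      have h1 : (1 : ℤ) ≤ f g := by exact_mod_cast Nat.one_le_iff_ne_zero.mpr h0
      have h2 : (f g : ℤ) ≤ n := by exact_mod_cast hle
      nlinarith
  have hsumterm : ∑ g : G, (((f g : ℤ) - 1) * ((f g : ℤ) - n)) = ((r : ℤ) - 1) * Fintype.card G := by
    have e1 : ∑ g : G, (f g : ℤ) = Fintype.card G := by exact_mod_cast hS1
    have e2 : ∑ g : G, (f g : ℤ) ^ 2 = (r : ℤ) * Fintype.card G := by exact_mod_cast hS2
    have : ∀ g : G, ((f g : ℤ) - 1) * ((f g : ℤ) - n) = (f g : ℤ) ^ 2 - ((n : ℤ) + 1) * (f g : ℤ) + n := by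
      intro g; ring
    simp_rw [this]
    rw [Finset.sum_add_distrib, Finset.sum_sub_distrib, ← Finset.mul_sum, e1, e2]
    simp only [Finset.sum_const, Finset.card_univ, nsmul_eq_mul]
    ring
  have hsumite : ∑ g : G, (if f g = 0 then (n : ℤ) else 0) = (n : ℤ) * (Finset.univ.filter (fun g : G => f g = 0)).card := by
    rw [← Finset.sum_filter, Finset.sum_const, nsmul_eq_mul, mul_comm]
  have hineq : ((r : ℤ) - 1) * Fintype.card G ≤ (n : ℤ) * (Finset.univ.filter (fun g : G => f g = 0)).card := by
    rw [← hsumterm, ← hsumite]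
    exact Finset.sum_le_sum (fun g _ => hterm g)
  by_cases hlt : Nat.card G < n * Nat.card {g : G // ∀ ω : Ω, g • ω ≠ ω}
  · exact Or.inr hlt
  · left
    rw [hD, hcardG] at hlt
    push_neg at hlt
    have hlt' : (n : ℤ) * (Finset.univ.filter (fun g : G => f g = 0)).card ≤ Fintype.card G := by exact_mod_cast hlt
    have hGposZ : (0 : ℤ) < Fintype.card G := by exact_mod_cast hGpos
    have hr2' : (2 : ℤ) ≤ r := by exact_mod_cast hr2
    have hr : r = 2 := by
      have : ((r : ℤ) - 1) * Fintype.card G ≤ 1 * Fintype.card G := by linarith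
      have := le_of_mul_le_mul_right this hGposZ
      omega
    subst hr
    have heqD : (n : ℤ) * (Finset.univ.filter (fun g : G => f g = 0)).card = Fintype.card G := by
      have : ((2 : ℕ) : ℤ) - 1 = 1 := by norm_num
      rw [this, one_mul] at hineq
      linarith
    -- equality termwise
    have hsum0 : ∑ g : G, ((if f g = 0 then (n : ℤ) else 0) - ((f g : ℤ) - 1) * ((f g : ℤ) - n)) = 0 := by
      rw [Finset.sum_sub_distrib, hsumite, hsumterm, heqD]
      push_cast
      ring
    have hterm0 : ∀ g : G, (if f g = 0 then (n : ℤ) else 0) - ((f g : ℤ) - 1) * ((f g : ℤ) - n) = 0 := by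
      intro g
      exact (Finset.sum_eq_zero_iff_of_nonneg (fun g _ => sub_nonneg.mpr (hterm g))).mp hsum0 g (Finset.mem_univ g)
    have hval : ∀ g : G, g ≠ 1 → f g ≤ 1 := by
      intro g hg
      have h := hterm0 g
      by_cases h0 : f g = 0
      · omega
      · rw [if_neg h0] at h
        have h' : ((f g : ℤ) - 1) * ((f g : ℤ) - n) = 0 := by linarith
        rcases mul_eq_zero.mp h' with h1 | h1
        · have : (f g : ℤ) = 1 := by linarith
          have : f g = 1 := by exact_mod_cast this
          omega
        · have : (f g : ℤ) = n := by linarith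
          have : f g = n := by exact_mod_cast this
          exact absurd ((fx_eq_card_iff g).mp this) hg
    have hf1 : f 1 = n := (fx_eq_card_iff (1 : G)).mpr rfl
    -- sum of squares
    have hsq : ∀ g : G, g ≠ 1 → f g ^ 2 = f g := by
      intro g hg
      have := hval g hg
      interval_cases f g <;> simp
    have hS2' : ∑ g : G, f g ^ 2 = n ^ 2 + (Fintype.card G - n) := by
      rw [← Finset.add_sum_erase _ _ (Finset.mem_univ (1 : G)), hf1]
      congr 1
      have : ∑ g ∈ Finset.univ.erase (1 : G), f g ^ 2 = ∑ g ∈ Finset.univ.erase (1 : G), f g := by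
        apply Finset.sum_congr rfl
        intro g hg
        exact hsq g (Finset.ne_of_mem_erase hg)
      rw [this]
      have h3 := Finset.add_sum_erase Finset.univ f (Finset.mem_univ (1 : G))
      rw [hS1, hf1] at h3
      omega
    have hnle : n ≤ Fintype.card G := by
      have h3 := Finset.add_sum_erase Finset.univ f (Finset.mem_univ (1 : G))
      rw [hS1, hf1] at h3
      omega
    have hcard : Fintype.card G = n * (n - 1) := by
      have h4 : n ^ 2 + (Fintype.card G - n) = 2 * Fintype.card G := by rw [← hS2', hS2]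
      have h5 : n ^ 2 = Fintype.card G + n := by omega
      have h6 : n * (n - 1) + n = n ^ 2 := by
        cases n with
        | zero => omega
        | succ m => simp; ring
      omega
    refine ⟨⟨htr, ?_, ?_⟩, ?_, ?_⟩
    · -- some nonidentity element fixes a point
      by_contra hcon
      push_neg at hcon
      have h0 : ∀ g : G, g ≠ 1 → f g = 0 := by
        intro g hg
        exact (fx_eq_zero_iff g).mpr (hcon g hg)
      have h3 := Finset.add_sum_erase Finset.univ f (Finset.mem_univ (1 : G))
      rw [hS1, hf1] at h3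
      have : ∑ g ∈ Finset.univ.erase (1 : G), f g = 0 := by
        apply Finset.sum_eq_zero
        intro g hg
        exact h0 g (Finset.ne_of_mem_erase hg)
      rw [this, add_zero] at h3
      rw [← h3] at hcard
      have : n - 1 = 1 := by
        have h7 : n * (n - 1) = n * 1 := by omega
        exact Nat.eq_of_mul_eq_mul_left hnpos h7
      omega
    · intro g hg
      rw [natCard_fixedBy]
      exact hval g hg
    · rw [hcardG, hcard]
    · rw [hD, hcardG]
      exact_mod_cast heqD

end Cfsg.Agent.S5729
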