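import Cfsg.Statements.S5738
-- import your own Cfsg.Agent.* helpers here

set_option autoImplicit false
open Cfsg

namespace Cfsg.Agent.S5738

section helpers

variable (F K : Type*) [Field F] [Field K] [Algebra F K]

/-- The Singer group of multiplications by nonzero elements. -/
abbrev singer : Subgroup (Module.End F K)ˣ :=
  (Units.map ((Algebra.lmul F K : K →ₐ[F] Module.End F K) : K →* Module.End F K)).range

variable {F K}

/-- Multiplication by a unit, as a unit of the endomorphism ring. -/
abbrev mulU (a : Kˣ) : (Module.End F K)ˣ :=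
  Units.map ((Algebra.lmul F K : K →ₐ[F] Module.End F K) : K →* Module.End F K) a

theorem mulU_apply (a : Kˣ) (x : K) : (mulU (F := F) a : Module.End F K) x = a * x := by
  simp [mulU]

theorem mulU_inv_apply (a : Kˣ) (x : K) :
    (((mulU (F := F) a)⁻¹ : (Module.End F K)ˣ) : Module.End F K) x = (a⁻¹ : Kˣ) * x := by
  rw [← map_inv]
  exact mulU_apply _ x

theorem mem_singer_iff (g : (Module.End F K)ˣ) :
    g ∈ singer F K ↔ ∃ a : Kˣ, mulU a = g := Iff.rfl

theorem unit_apply_inv_apply (g : (Module.End F K)ˣ) (x : K) :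
    (g : Module.End F K) (((g⁻¹ : (Module.End F K)ˣ) : Module.End F K) x) = x := by
  rw [← Module.End.mul_apply, ← Units.val_mul, mul_inv_cancel, Units.val_one, Module.End.one_apply]

theorem unit_inv_apply_apply (g : (Module.End F K)ˣ) (x : K) :
    ((g⁻¹ : (Module.End F K)ˣ) : Module.End F K) ((g : Module.End F K) x) = x := by
  rw [← Module.End.mul_apply, ← Units.val_mul, inv_mul_cancel, Units.val_one, Module.End.one_apply]

/-- A field automorphism as a unit of the endomorphism ring. -/
noncomputable abbrev autU (σ : K ≃ₐ[F] K) : (Module.End F K)ˣ :=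
  LinearMap.GeneralLinearGroup.ofLinearEquiv σ.toLinearEquiv

theorem autU_apply (σ : K ≃ₐ[F] K) (x : K) : (autU σ : Module.End F K) x = σ x := rfl

theorem autU_inv_apply (σ : K ≃ₐ[F] K) (x : K) :
    (((autU σ)⁻¹ : (Module.End F K)ˣ) : Module.End F K) x = σ.symm x := rfl

theorem unit_ext {g h : (Module.End F K)ˣ} (H : ∀ x, (g : Module.End F K) x = (h : Module.End F K) x) :
    g = h := Units.ext (LinearMap.ext H)

theorem autU_mem_normalizer (σ : K ≃ₐ[F] K) :
    autU σ ∈ Subgroup.normalizer ((singer F K : Subgroup (Module.End F K)ˣ) : Set (Module.End F K)ˣ) := by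
  rw [Subgroup.mem_normalizer_iff]
  intro h
  constructor
  · rintro ⟨b, rfl⟩
    refine ⟨Units.map (σ : K →* K) b, unit_ext fun x => ?_⟩
    rw [mulU_apply]
    simp only [Units.val_mul, Module.End.mul_apply]
    rw [autU_apply, mulU_apply, autU_inv_apply]
    simp
  · rintro ⟨c, hc⟩
    refine ⟨Units.map (σ.symm : K →* K) c, unit_ext fun x => ?_⟩
    have hc' : mulU c = autU σ * h * (autU σ)⁻¹ := hc
    have h1 : h = (autU σ)⁻¹ * mulU c * autU σ := by
      rw [hc']; group
    rw [h1, mulU_apply]
    simp only [Units.val_mul, Module.End.mul_apply]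
    rw [autU_apply, mulU_apply, autU_inv_apply]
    simp

/-- Elements of the normalizer are products of a multiplication and a field automorphism. -/
theorem exists_of_mem_normalizer [Finite K] (g : (Module.End F K)ˣ)
    (hg : g ∈ Subgroup.normalizer ((singer F K : Subgroup (Module.End F K)ˣ) : Set (Module.End F K)ˣ)) :
    ∃ (a : Kˣ) (σ : K ≃ₐ[F] K), g = mulU a * autU σ := by
  rw [Subgroup.mem_normalizer_iff] at hg
  set gi : Module.End F K := ((g⁻¹ : (Module.End F K)ˣ) : Module.End F K) with hgi
  -- the twisted map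
  let τl : K →ₗ[F] K := (g : Module.End F K) ∘ₗ (LinearMap.mulRight F (gi 1))
  have hτl : ∀ b, τl b = (g : Module.End F K) (b * gi 1) := fun b => rfl
  have key : ∀ b x : K, (g : Module.End F K) (b * gi x) = τl b * x := by
    intro b x
    by_cases hb : b = 0
    · subst hb; simp [hτl]
    · obtain ⟨c, hc⟩ := (hg (mulU (Units.mk0 b hb))).mp ⟨_, rfl⟩
      have hc' : ∀ y : K, (c : K) * y = (g : Module.End F K) (b * gi y) := by
        intro y
        have := congrArg (fun u : (Module.End F K)ˣ => (u : Module.End F K) y) hc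
        simp only [Units.val_mul, Module.End.mul_apply] at this
        rw [mulU_apply, mulU_apply] at this
        simpa using this
      rw [hτl, ← hc' x, ← hc' 1, mul_one]
  have hτ1 : τl 1 = 1 := by
    rw [hτl, one_mul, hgi, unit_apply_inv_apply]
  have hτmul : ∀ b c, τl (b * c) = τl b * τl c := by
    intro b c
    rw [← key b (τl c), hτl c, hgi, unit_inv_apply_apply, ← mul_assoc, hτl]
  let τ : K →ₐ[F] K := AlgHom.ofLinearMap τl hτ1 hτmul
  have hτ : ∀ b, τ b = τl b := fun b => rfl
  have hbij : Function.Bijective τ :=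
    Finite.injective_iff_bijective.mp τ.toRingHom.injective
  let σ : K ≃ₐ[F] K := AlgEquiv.ofBijective τ hbij
  have hσ : ∀ b, σ b = τl b := fun b => rfl
  have hg1 : (g : Module.End F K) 1 ≠ 0 := by
    intro h
    have := unit_inv_apply_apply g 1
    rw [h, map_zero] at this
    exact zero_ne_one this
  refine ⟨Units.mk0 _ hg1, σ, unit_ext fun x => ?_⟩
  simp only [Units.val_mul, Module.End.mul_apply]
  rw [mulU_apply, autU_apply, hσ, Units.val_mk0, mul_comm, ← key x, hgi, unit_inv_apply_apply,
    mul_one]

theorem mulU_mul_autU_injective (a a' : Kˣ) (σ σ' : K ≃ₐ[F] K)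
    (h : (mulU a * autU σ : (Module.End F K)ˣ) = mulU a' * autU σ') : a = a' ∧ σ = σ' := by
  have h1 : ∀ x : K, (a : K) * σ x = a' * σ' x := by
    intro x
    have := congrArg (fun u : (Module.End F K)ˣ => (u : Module.End F K) x) h
    simp only [Units.val_mul, Module.End.mul_apply] at this
    rw [mulU_apply, mulU_apply, autU_apply, autU_apply] at this
    exact this
  have h2 : a = a' := by
    have := h1 1
    simp only [map_one, mul_one] at this
    exact Units.ext this
  refine ⟨h2, AlgEquiv.ext fun x => ?_⟩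
  have := h1 x
  rw [h2] at this
  exact mul_left_cancel₀ a'.ne_zero this

/-- The normalizer of the Singer group is in bijection with pairs. -/
theorem card_normalizer [Finite K] :
    Nat.card (Subgroup.normalizer ((singer F K : Subgroup (Module.End F K)ˣ) : Set (Module.End F K)ˣ))
      = Nat.card Kˣ * Nat.card (K ≃ₐ[F] K) := by
  rw [← Nat.card_prod]
  symm
  apply Nat.card_congr
  refine Equiv.ofBijective (fun p : Kˣ × (K ≃ₐ[F] K) => ⟨mulU p.1 * autU p.2, ?_⟩) ⟨?_, ?_⟩
  · exact Subgroup.mul_mem _ (Subgroup.le_normalizer ⟨p.1, rfl⟩) (autU_mem_normalizer p.2)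
  · rintro ⟨a, σ⟩ ⟨a', σ'⟩ h
    have h' := congrArg Subtype.val h
    obtain ⟨h1, h2⟩ := mulU_mul_autU_injective a a' σ σ' h'
    rw [h1, h2]
  · rintro ⟨g, hg⟩
    obtain ⟨a, σ, rfl⟩ := exists_of_mem_normalizer g hg
    exact ⟨(a, σ), rfl⟩

end helpers


/-- Let F ⊆ K be finite fields with |F| = q and [K : F] = n ≥ 2, so |K| = q^n. Regard K as an n-dimensional F-vector space; the multiplications by non-zero elements of K form a cyclic subgroup of GL_F(K) of order q^n − 1 acting regularly on the non-zero vectors (a Singer group). Its normaliser in GL_F(K) has order n·(q^n − 1). -/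
theorem result {F K : Type*} [Field F] [Fintype F] [Field K] [Fintype K] [Algebra F K] (n : ℕ) (hn : 2 ≤ n) (hdim : Module.finrank F K = n) :
    Nat.card (Subgroup.normalizer (((Units.map ((Algebra.lmul F K : K →ₐ[F] Module.End F K) : K →* Module.End F K)).range : Subgroup (Module.End F K)ˣ) : Set (Module.End F K)ˣ)) = n * (Fintype.card K - 1) := by
  have h1 := card_normalizer (F := F) (K := K)
  rw [h1, IsGalois.card_aut_eq_finrank, hdim, Nat.card_units, Nat.card_eq_fintype_card, mul_comm]

end Cfsg.Agent.S5738
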