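import Cfsg.Statements.S5739
-- import your own Cfsg.Agent.* helpers here
import Cfsg.Agent.S5738

set_option autoImplicit false
open Cfsg

namespace Cfsg.Agent.S5739

open Cfsg.Agent.S5738

section helpers

variable {F K : Type*} [Field F] [Field K] [Algebra F K]

/-- The subfield of those `a` whose multiplication is a conjugate by `g` of a multiplication. -/
def interField (g : (Module.End F K)ˣ) : IntermediateField F K :=
  Subalgebra.toIntermediateField
    { carrier := {a | ∃ b : K, ∀ x, a * (g : Module.End F K) x = (g : Module.End F K) (b * x)}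
      mul_mem' := by
        rintro a a' ⟨b, hb⟩ ⟨b', hb'⟩
        refine ⟨b * b', fun x => ?_⟩
        rw [mul_assoc, hb', hb, mul_assoc]
      add_mem' := by
        rintro a a' ⟨b, hb⟩ ⟨b', hb'⟩
        refine ⟨b + b', fun x => ?_⟩
        rw [add_mul, hb, hb', add_mul, map_add]
      algebraMap_mem' := by
        intro c
        refine ⟨algebraMap F K c, fun x => ?_⟩
        rw [← Algebra.smul_def, ← Algebra.smul_def, map_smul] }
    (by
      rintro a ⟨b, hb⟩
      by_cases ha : a = 0
      · subst ha
        exact ⟨0, fun x => by simp⟩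
      · have hb0 : b ≠ 0 := by
          rintro rfl
          have h1 := hb (((g⁻¹ : (Module.End F K)ˣ) : Module.End F K) 1)
          rw [unit_apply_inv_apply, mul_one, zero_mul, map_zero] at h1
          exact ha h1
        refine ⟨b⁻¹, fun x => ?_⟩
        have h1 := hb (b⁻¹ * x)
        rw [← mul_assoc, mul_inv_cancel₀ hb0, one_mul] at h1
        rw [← h1, ← mul_assoc, inv_mul_cancel₀ ha, one_mul])

theorem mem_interField (g : (Module.End F K)ˣ) (a : K) :
    a ∈ interField g ↔ ∃ b : K, ∀ x, a * (g : Module.End F K) x = (g : Module.End F K) (b * x) :=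
  Iff.rfl

theorem mulU_mem_map_iff (g : (Module.End F K)ˣ) (a : Kˣ) :
    mulU a ∈ (singer F K).map (MulAut.conj g).toMonoidHom ↔ (a : K) ∈ interField g := by
  rw [mem_interField]
  constructor
  · rintro ⟨_, ⟨b, rfl⟩, hb⟩
    refine ⟨b, fun x => ?_⟩
    have h1 : mulU a * g = g * mulU b := by
      have : mulU a = g * mulU b * g⁻¹ := hb.symm
      rw [this]; group
    have := congrArg (fun u : (Module.End F K)ˣ => (u : Module.End F K) x) h1
    simp only [Units.val_mul, Module.End.mul_apply] at this
    rw [mulU_apply, mulU_apply] at this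
    exact this
  · rintro ⟨b, hb⟩
    have hb0 : b ≠ 0 := by
      rintro rfl
      have h1 := hb (((g⁻¹ : (Module.End F K)ˣ) : Module.End F K) 1)
      rw [unit_apply_inv_apply, mul_one, zero_mul, map_zero] at h1
      exact a.ne_zero h1
    refine ⟨mulU (Units.mk0 b hb0), ⟨_, rfl⟩, ?_⟩
    show g * mulU (Units.mk0 b hb0) * g⁻¹ = mulU a
    apply unit_ext
    intro x
    simp only [Units.val_mul, Module.End.mul_apply]
    rw [mulU_apply, mulU_apply, Units.val_mk0, ← hb, unit_apply_inv_apply]

/-- The homomorphism from the units of the intermediate field. -/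
def unitsHom (g : (Module.End F K)ˣ) : (interField g)ˣ →* (Module.End F K)ˣ :=
  (Units.map ((Algebra.lmul F K : K →ₐ[F] Module.End F K) : K →* Module.End F K)).comp
    (Units.map ((interField g).val : interField g →* K))

theorem unitsHom_apply (g : (Module.End F K)ˣ) (a : (interField g)ˣ) (x : K) :
    (unitsHom g a : Module.End F K) x = (a : interField g) * x := by
  simp [unitsHom]

theorem unitsHom_injective (g : (Module.End F K)ˣ) : Function.Injective (unitsHom g) := by
  intro a a' h
  have := congrArg (fun u : (Module.End F K)ˣ => (u : Module.End F K) 1) h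
  simp only [unitsHom_apply, mul_one] at this
  exact Units.ext (Subtype.ext this)

theorem unitsHom_range (g : (Module.End F K)ˣ) :
    (unitsHom g).range = (singer F K).map (MulAut.conj g).toMonoidHom ⊓ singer F K := by
  ext h
  constructor
  · rintro ⟨a, rfl⟩
    have h1 : unitsHom g a = mulU (Units.map ((interField g).val : interField g →* K) a) := rfl
    rw [h1]
    exact ⟨(mulU_mem_map_iff g _).mpr (a : interField g).2, ⟨_, rfl⟩⟩
  · rintro ⟨h1, ⟨a, rfl⟩⟩
    have h2 : (a : K) ∈ interField g := (mulU_mem_map_iff g a).mp h1
    refine ⟨Units.mk0 ⟨a, h2⟩ (fun h0 => a.ne_zero (congrArg Subtype.val h0)), ?_⟩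
    apply unit_ext
    intro x
    rw [unitsHom_apply, mulU_apply]
    rfl

theorem card_inter (g : (Module.End F K)ˣ) [Finite K] :
    Nat.card ↥((singer F K).map (MulAut.conj g).toMonoidHom ⊓ singer F K) =
      Nat.card (interField g) - 1 := by
  rw [← unitsHom_range, ← Nat.card_units]
  exact (Nat.card_congr (MonoidHom.ofInjective (unitsHom_injective g)).toEquiv).symm

theorem interField_ne_top (g : (Module.End F K)ˣ) [Finite (Module.End F K)ˣ]
    (hg : (singer F K).map (MulAut.conj g).toMonoidHom ≠ singer F K) : interField g ≠ ⊤ := by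
  intro htop
  apply hg
  symm
  apply Subgroup.eq_of_le_of_card_ge
  · rintro _ ⟨a, rfl⟩
    have : mulU a ∈ (singer F K).map (MulAut.conj g).toMonoidHom := by
      rw [mulU_mem_map_iff, htop]
      trivial
    exact this
  · apply le_of_eq
    exact (Nat.card_congr
      ((singer F K).equivMapOfInjective _ (MulAut.conj g).injective).toEquiv).symm

end helpers


/-- Let F ⊆ K be finite fields with |F| = q and [K : F] = n ≥ 2, and let M ≤ GL_F(K) be the Singer group of multiplications by non-zero elements of K. If g ∈ GL_F(K) does not normalise M, then the order of M ∩ gMg⁻¹ divides q^r − 1 for some proper divisor r of n. In particular, when n is prime, that order divides q − 1. -/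
theorem result {F K : Type*} [Field F] [Fintype F] [Field K] [Fintype K] [Algebra F K] (n : ℕ) (hn : 2 ≤ n) (hdim : Module.finrank F K = n)
    (g : (Module.End F K)ˣ) (hg : ((Units.map ((Algebra.lmul F K : K →ₐ[F] Module.End F K) : K →* Module.End F K)).range).map (MulAut.conj g).toMonoidHom ≠ (Units.map ((Algebra.lmul F K : K →ₐ[F] Module.End F K) : K →* Module.End F K)).range) :
    ∃ r : ℕ, 1 ≤ r ∧ r ∣ n ∧ r < n ∧ Nat.card ↥(((Units.map ((Algebra.lmul F K : K →ₐ[F] Module.End F K) : K →* Module.End F K)).range).map (MulAut.conj g).toMonoidHom ⊓ (Units.map ((Algebra.lmul F K : K →ₐ[F] Module.End F K) : K →* Module.End F K)).range) ∣ Fintype.card F ^ r - 1 := by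
  have hdvd : Module.finrank F (interField g) ∣ n := by
    rw [← hdim, ← Module.finrank_mul_finrank F (interField g) K]
    exact dvd_mul_right _ _
  have hpos : 0 < Module.finrank F (interField g) := Module.finrank_pos
  have hfin : Finite (Module.End F K)ˣ :=
    Finite.of_injective (fun u : (Module.End F K)ˣ => fun x : K => (u : Module.End F K) x)
      (fun u v h => Units.ext (LinearMap.ext (congrFun h)))
  refine ⟨Module.finrank F (interField g), hpos, hdvd, ?_, ?_⟩
  · apply lt_of_le_of_ne (Nat.le_of_dvd (by omega) hdvd)
    intro h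
    apply interField_ne_top g hg
    apply IntermediateField.eq_of_le_of_finrank_eq le_top
    rw [h, IntermediateField.finrank_top', hdim]
  · have h1 := card_inter (F := F) (K := K) g
    rw [h1]
    have h2 : Nat.card (interField g) = Fintype.card F ^ Module.finrank F (interField g) := by
      classical
      have : Fintype (interField g) := Fintype.ofFinite _
      rw [Nat.card_eq_fintype_card]
      exact Module.card_eq_pow_finrank
    rw [h2]

end Cfsg.Agent.S5739
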