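import Cfsg.Statements.S5746
import Cfsg.Agent.Lib.Helper29.G24J2.Final
import Cfsg.Agent.Lib.Helper60.J2Perm
import Cfsg.Agent.Lib.Helper60.J2Center

set_option autoImplicit false
open Cfsg

namespace Cfsg.Agent.S5746

/-- The Chevalley group G₂(4) (over the field with 4 elements) has a maximal subgroup H isomorphic to the Hall–Janko group J₂ such that for every x outside H the intersection H ∩ xHx⁻¹ is a maximal subgroup of H; that is, the action of G₂(4) on the cosets of H is extremely primitive. -/
theorem result {F : Type*} [Field F] [Fintype F] (hF : Fintype.card F = 4) :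
    ∃ H : Subgroup (Cfsg.Lie.chevG2.group F), IsCoatom H ∧ Cfsg.Spor.IsoJ2 H ∧
      ∀ x : Cfsg.Lie.chevG2.group F, x ∉ H → IsCoatom ((H ⊓ H.map (MulAut.conj x).toMonoidHom).subgroupOf H) :=
  Cfsg.Agent.Lib.Helper29.G24J2.final Cfsg.Agent.H60J2.j2Perm (fun _ _ => rfl)
    Cfsg.Agent.H60J2.j2_equiv Cfsg.Agent.H60J2.J2_card hF

end Cfsg.Agent.S5746
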