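import Cfsg.Statements.S5747
-- import your own Cfsg.Agent.* helpers here

set_option autoImplicit false
open Cfsg

namespace Cfsg.Agent.S5747

section helpers

variable (G : Type*) {Ω : Type*} [Group G] [MulAction G Ω]

/-- Irredundant sequences. -/
def Irr {t : ℕ} (f : Fin t → Ω) : Prop :=
  ∀ i : Fin t, ∃ g : G, (∀ j : Fin t, j < i → g • f j = f j) ∧ g • f i ≠ f i

/-- Bases, as sets. -/
def Base (S : Set Ω) : Prop := ∀ g : G, (∀ x ∈ S, g • x = x) → g = 1

/-- Sets in which every point is moved by the stabilizer of the others. -/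
def Indep (S : Set Ω) : Prop :=
  ∀ x ∈ S, ∃ g : G, (∀ y ∈ S, y ≠ x → g • y = y) ∧ g • x ≠ x

/-- Sets enumerated by an irredundant sequence. -/
def IS (S : Set Ω) : Prop := ∃ (t : ℕ) (f : Fin t → Ω), Irr G f ∧ Set.range f = S

variable {G}

theorem Irr.injective {t : ℕ} {f : Fin t → Ω} (hf : Irr G f) : Function.Injective f := by
  intro i j hij
  by_contra hne
  rcases lt_or_gt_of_ne hne with h | h
  · obtain ⟨g, h1, h2⟩ := hf j
    exact h2 (by rw [← hij]; exact h1 i h)
  · obtain ⟨g, h1, h2⟩ := hf i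
    exact h2 (by rw [hij]; exact h1 j h)

theorem Indep.subset {S T : Set Ω} (hS : Indep G S) (hTS : T ⊆ S) : Indep G T := by
  intro x hx
  obtain ⟨g, h1, h2⟩ := hS x (hTS hx)
  exact ⟨g, fun y hy hyx => h1 y (hTS hy) hyx, h2⟩

theorem IS.insert {S : Set Ω} (hS : IS G S) (g : G) (y : Ω) (hg : ∀ x ∈ S, g • x = x)
    (hy : g • y ≠ y) : IS G (insert y S) := by
  obtain ⟨t, f, hf, rfl⟩ := hS
  refine ⟨t + 1, Fin.snoc f y, ?_, ?_⟩
  · intro i
    refine Fin.lastCases ?_ (fun i' => ?_) i
    · refine ⟨g, fun j hj => ?_, ?_⟩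
      · revert hj
        refine Fin.lastCases ?_ (fun j' => ?_) j
        · intro hj; exact absurd hj (lt_irrefl _)
        · intro _
          rw [Fin.snoc_castSucc]
          exact hg _ ⟨j', rfl⟩
      · rw [Fin.snoc_last]; exact hy
    · obtain ⟨g', h1, h2⟩ := hf i'
      refine ⟨g', fun j hj => ?_, ?_⟩
      · revert hj
        refine Fin.lastCases ?_ (fun j' => ?_) j
        · intro hj
          exact absurd hj (not_lt.mpr (Fin.le_last _))
        · intro hj
          rw [Fin.snoc_castSucc]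
          exact h1 j' (Fin.castSucc_lt_castSucc_iff.mp hj)
      · rw [Fin.snoc_castSucc]; exact h2
  · ext z
    constructor
    · rintro ⟨i, rfl⟩
      refine Fin.lastCases ?_ (fun i' => ?_) i
      · rw [Fin.snoc_last]; exact Set.mem_insert _ _
      · rw [Fin.snoc_castSucc]; exact Set.mem_insert_of_mem _ ⟨i', rfl⟩
    · rintro (rfl | ⟨i, rfl⟩)
      · exact ⟨Fin.last t, Fin.snoc_last _ _⟩
      · exact ⟨Fin.castSucc i, Fin.snoc_castSucc _ _ _⟩

theorem IS_of_indep [Finite Ω] (S : Set Ω) (hS : Indep G S) : IS G S := by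
  revert hS
  refine Set.Finite.induction_on (motive := fun S _ => Indep G S → IS G S) S S.toFinite ?_ ?_
  · intro _
    exact ⟨0, Fin.elim0, fun i => i.elim0, by ext z; simp⟩
  · intro a s ha _ ih hS
    have h1 : IS G s := ih (hS.subset (Set.subset_insert a s))
    obtain ⟨g, hg1, hg2⟩ := hS a (Set.mem_insert a s)
    refine h1.insert g a (fun x hx => hg1 x (Set.mem_insert_of_mem a hx) ?_) hg2
    rintro rfl
    exact ha hx

theorem indep_of_perm
    (hb : ∀ (t : ℕ) (f : Fin t → Ω) (σ : Equiv.Perm (Fin t)),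
      ((∀ g : G, (∀ i : Fin t, g • f i = f i) → g = 1) ∧ ∀ i : Fin t, ∃ g : G, (∀ j : Fin t, j < i → g • f j = f j) ∧ g • f i ≠ f i) →
      ((∀ g : G, (∀ i : Fin t, g • (f ∘ σ) i = (f ∘ σ) i) → g = 1) ∧ ∀ i : Fin t, ∃ g : G, (∀ j : Fin t, j < i → g • (f ∘ σ) j = (f ∘ σ) j) ∧ g • (f ∘ σ) i ≠ (f ∘ σ) i))
    (t : ℕ) (f : Fin t → Ω) (hbase : Base G (Set.range f)) (hirr : Irr G f) :
    Indep G (Set.range f) := by
  rintro x ⟨i, rfl⟩
  cases t with
  | zero => exact i.elim0
  | succ n =>
    have hinj := hirr.injective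
    have h1 := (hb (n + 1) f (Equiv.swap i (Fin.last n))
      ⟨fun g hg => hbase g (by rintro _ ⟨k, rfl⟩; exact hg k), hirr⟩).2 (Fin.last n)
    obtain ⟨g, hg1, hg2⟩ := h1
    simp only [Function.comp_apply, Equiv.swap_apply_right] at hg2
    refine ⟨g, ?_, hg2⟩
    rintro _ ⟨k, rfl⟩ hk
    have hki : k ≠ i := fun h => hk (by rw [h])
    have h2 : Equiv.swap i (Fin.last n) k ≠ Fin.last n := by
      intro h
      apply hki
      have := congrArg (Equiv.swap i (Fin.last n)) h
      rwa [Equiv.swap_apply_self, Equiv.swap_apply_right] at this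
    have h3 := hg1 (Equiv.swap i (Fin.last n) k) (lt_of_le_of_ne (Fin.le_last _) h2)
    simpa only [Function.comp_apply, Equiv.swap_apply_self] using h3

theorem exchange [Finite Ω]
    (hb' : ∀ (t : ℕ) (f : Fin t → Ω), Base G (Set.range f) → Irr G f → Indep G (Set.range f))
    (S T : Set Ω) (hSb : Base G S) (hSi : Indep G S) (hT : Base G T) (x : Ω) (hxS : x ∈ S)
    (hxT : x ∉ T) :
    ∃ y ∈ T, y ∉ S ∧ Base G (insert y (S \ {x})) ∧ Indep G (insert y (S \ {x})) := by
  obtain ⟨h, hfix, hmove⟩ := hSi x hxS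
  have hy : ∃ y ∈ T, h • y ≠ y := by
    by_contra hcon
    push Not at hcon
    have := hT h hcon
    rw [this, one_smul] at hmove
    exact hmove rfl
  obtain ⟨y, hyT, hy⟩ := hy
  have hyS : y ∉ S := by
    intro hyS
    apply hy
    apply hfix y hyS
    rintro rfl
    exact hxT hyT
  have hS0 : IS G (S \ {x}) := IS_of_indep _ (hSi.subset Set.sdiff_subset)
  have hS1 : IS G (insert y (S \ {x})) :=
    hS0.insert h y (fun z hz => hfix z hz.1 (by simpa using hz.2)) hy
  have hbase : Base G (insert y (S \ {x})) := by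
    intro k hk
    by_contra hk1
    have hkx : k • x ≠ x := by
      intro hkx
      apply hk1
      apply hSb k
      intro z hz
      by_cases hzx : z = x
      · rw [hzx]; exact hkx
      · exact hk z (Set.mem_insert_of_mem y ⟨hz, hzx⟩)
    have hS2 : IS G (insert x (insert y (S \ {x}))) := hS1.insert k x hk hkx
    obtain ⟨t, f, hf, hrange⟩ := hS2
    have hsub : S ⊆ Set.range f := by
      intro z hz
      rw [hrange]
      by_cases hzx : z = x
      · rw [hzx]; exact Set.mem_insert _ _
      · exact Set.mem_insert_of_mem _ (Set.mem_insert_of_mem _ ⟨hz, hzx⟩)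
    have hb2 : Base G (Set.range f) := fun g hg => hSb g (fun z hz => hg z (hsub hz))
    have hi := hb' t f hb2 hf
    have hymem : y ∈ Set.range f := by
      rw [hrange]; exact Set.mem_insert_of_mem _ (Set.mem_insert _ _)
    obtain ⟨g, hg1, hg2⟩ := hi y hymem
    have hg : g = 1 := by
      apply hSb g
      intro z hz
      apply hg1 z (hsub hz)
      rintro rfl
      exact hyS hz
    rw [hg, one_smul] at hg2
    exact hg2 rfl
  refine ⟨y, hyT, hyS, hbase, ?_⟩
  obtain ⟨t, f, hf, hrange⟩ := hS1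
  have := hb' t f (by rw [hrange]; exact hbase) hf
  rwa [hrange] at this

theorem card_eq [Finite Ω]
    (hb' : ∀ (t : ℕ) (f : Fin t → Ω), Base G (Set.range f) → Irr G f → Indep G (Set.range f)) :
    ∀ (n : ℕ) (S T : Set Ω), Base G S → Indep G S → Base G T → Indep G T →
      (S \ T).ncard = n → S.ncard = T.ncard := by
  intro n
  induction n with
  | zero =>
    intro S T hSb hSi hTb hTi hn
    have hST : S ⊆ T := by
      rw [Set.ncard_eq_zero] at hn
      exact Set.sdiff_eq_empty.mp hn
    have hTS : T ⊆ S := by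
      intro z hz
      by_contra hzS
      obtain ⟨g, hg1, hg2⟩ := hTi z hz
      have hg : g = 1 := by
        apply hSb g
        intro w hw
        apply hg1 w (hST hw)
        rintro rfl
        exact hzS hw
      rw [hg, one_smul] at hg2
      exact hg2 rfl
    rw [Set.Subset.antisymm hST hTS]
  | succ n ih =>
    intro S T hSb hSi hTb hTi hn
    have hne : (S \ T).Nonempty := Set.nonempty_of_ncard_ne_zero (by omega)
    obtain ⟨x, hxS, hxT⟩ := hne
    obtain ⟨y, hyT, hyS, hb1, hi1⟩ := exchange hb' S T hSb hSi hTb x hxS hxT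
    have h1 : (insert y (S \ {x})) \ T = (S \ T) \ {x} := by
      ext z
      simp only [Set.mem_sdiff, Set.mem_insert_iff, Set.mem_singleton_iff]
      constructor
      · rintro ⟨rfl | ⟨hz, hzx⟩, hzT⟩
        · exact absurd hyT hzT
        · exact ⟨⟨hz, hzT⟩, hzx⟩
      · rintro ⟨⟨hz, hzT⟩, hzx⟩
        exact ⟨Or.inr ⟨hz, hzx⟩, hzT⟩
    have h2 : ((insert y (S \ {x})) \ T).ncard = n := by
      rw [h1, Set.ncard_sdiff_singleton_of_mem (show x ∈ S \ T from ⟨hxS, hxT⟩), hn]
      rfl
    have h3 := ih _ T hb1 hi1 hTb hTi h2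
    rw [← h3, Set.ncard_insert_of_notMem (fun h => hyS h.1), Set.ncard_sdiff_singleton_add_one hxS]

end helpers


/-- Let a finite group G act on a finite set Ω. An irredundant base is a sequence of points ω₁, …, ω_t whose pointwise stabiliser is trivial and in which each ω_i is moved by some element fixing ω₁, …, ω_{i−1}. Then all irredundant bases have the same length if and only if every reordering of an irredundant base is again an irredundant base. -/
theorem result {G Ω : Type*} [Group G] [Finite G] [MulAction G Ω] [Fintype Ω] :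
    (∀ (t t' : ℕ) (f : Fin t → Ω) (f' : Fin t' → Ω), ((∀ g : G, (∀ i : Fin t, g • f i = f i) → g = 1) ∧ ∀ i : Fin t, ∃ g : G, (∀ j : Fin t, j < i → g • f j = f j) ∧ g • f i ≠ f i) → ((∀ g : G, (∀ i : Fin t', g • f' i = f' i) → g = 1) ∧ ∀ i : Fin t', ∃ g : G, (∀ j : Fin t', j < i → g • f' j = f' j) ∧ g • f' i ≠ f' i) → t = t') ↔
    (∀ (t : ℕ) (f : Fin t → Ω) (σ : Equiv.Perm (Fin t)), ((∀ g : G, (∀ i : Fin t, g • f i = f i) → g = 1) ∧ ∀ i : Fin t, ∃ g : G, (∀ j : Fin t, j < i → g • f j = f j) ∧ g • f i ≠ f i) → ((∀ g : G, (∀ i : Fin t, g • (f ∘ σ) i = (f ∘ σ) i) → g = 1) ∧ ∀ i : Fin t, ∃ g : G, (∀ j : Fin t, j < i → g • (f ∘ σ) j = (f ∘ σ) j) ∧ g • (f ∘ σ) i ≠ (f ∘ σ) i)) := by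
  constructor
  · intro ha t f σ hf
    have hbase : ∀ g : G, (∀ i : Fin t, g • (f ∘ σ) i = (f ∘ σ) i) → g = 1 := by
      intro g hg
      apply hf.1 g
      intro i
      have := hg (σ.symm i)
      simpa using this
    refine ⟨hbase, ?_⟩
    classical
    set f' : Fin t → Ω := f ∘ σ with hf'
    let D : Finset (Fin t) := Finset.univ.filter
      (fun i => ∃ g : G, (∀ j : Fin t, j < i → g • f' j = f' j) ∧ g • f' i ≠ f' i)
    let e : Fin D.card ↪o Fin t := D.orderEmbOfFin rfl
    have hD : ∀ i, i ∈ D ↔ ∃ g : G, (∀ j : Fin t, j < i → g • f' j = f' j) ∧ g • f' i ≠ f' i := by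
      intro i
      simp [D]
    have hrange : ∀ i, i ∈ D → ∃ k, e k = i := by
      intro i hi
      have : i ∈ Set.range e := by
        rw [Finset.range_orderEmbOfFin]; exact hi
      exact this
    have hIB : ((∀ g : G, (∀ k : Fin D.card, g • (f' ∘ e) k = (f' ∘ e) k) → g = 1) ∧
        ∀ k : Fin D.card, ∃ g : G, (∀ j : Fin D.card, j < k → g • (f' ∘ e) j = (f' ∘ e) j) ∧
          g • (f' ∘ e) k ≠ (f' ∘ e) k) := by
      constructor
      · intro g hg
        apply hbase g
        intro i
        induction i using WellFoundedLT.induction with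
        | ind i ih =>
          by_cases hi : i ∈ D
          · obtain ⟨k, rfl⟩ := hrange i hi
            exact hg k
          · by_contra hcon
            exact hi ((hD i).mpr ⟨g, fun j hj => ih j hj, hcon⟩)
      · intro k
        obtain ⟨g, hg1, hg2⟩ := (hD (e k)).mp (Finset.orderEmbOfFin_mem D rfl k)
        exact ⟨g, fun j hj => hg1 (e j) (e.lt_iff_lt.mpr hj), hg2⟩
    have hcard : t = D.card := ha t D.card f (f' ∘ e) hf hIB
    have hDuniv : D = Finset.univ := by
      apply Finset.eq_univ_of_card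
      rw [Fintype.card_fin]
      exact hcard.symm
    intro i
    exact (hD i).mp (by rw [hDuniv]; exact Finset.mem_univ i)
  · intro hb t t' f f' hf hf'
    have hb' := indep_of_perm (G := G) (Ω := Ω) hb
    have hfb : Base G (Set.range f) := by
      rintro g hg
      exact hf.1 g (fun i => hg _ ⟨i, rfl⟩)
    have hfb' : Base G (Set.range f') := by
      rintro g hg
      exact hf'.1 g (fun i => hg _ ⟨i, rfl⟩)
    have hfi : Irr G f := hf.2
    have hfi' : Irr G f' := hf'.2
    have h1 := card_eq hb' _ (Set.range f) (Set.range f') hfb (hb' t f hfb hfi) hfb'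
      (hb' t' f' hfb' hfi') rfl
    have h2 : (Set.range f).ncard = t := by
      rw [← Set.image_univ, Set.ncard_image_of_injective _ hfi.injective, Set.ncard_univ,
        Nat.card_eq_fintype_card, Fintype.card_fin]
    have h3 : (Set.range f').ncard = t' := by
      rw [← Set.image_univ, Set.ncard_image_of_injective _ hfi'.injective, Set.ncard_univ,
        Nat.card_eq_fintype_card, Fintype.card_fin]
    rw [← h2, ← h3, h1]

end Cfsg.Agent.S5747
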