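import Cfsg.Statements.S5754
-- import your own Cfsg.Agent.* helpers here

set_option autoImplicit false
open Cfsg

namespace Cfsg.Agent.S5754

section helpers

variable {F V : Type*} [Field F] [AddCommGroup V] [Module F V]

theorem map_sub_eq (Q : QuadraticForm F V) (x y : V) :
    Q (x - y) = Q x + Q y - QuadraticMap.polar Q x y := by
  rw [sub_eq_add_neg, QuadraticMap.map_add Q, QuadraticMap.map_neg, QuadraticMap.polar_neg_right]
  ring

theorem polar_isometry (Q : QuadraticForm F V) (φ : Q.IsometryEquiv Q) (x y : V) :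
    QuadraticMap.polar Q (φ x) (φ y) = QuadraticMap.polar Q x y := by
  unfold QuadraticMap.polar
  rw [← map_add, φ.map_app, φ.map_app, φ.map_app]

/-- The reflection in a vector `w` as a linear map. -/
noncomputable def reflLin (Q : QuadraticForm F V) (w : V) : V →ₗ[F] V :=
  LinearMap.id - ((Q w)⁻¹ • (QuadraticMap.polarBilin Q).flip w).smulRight w

theorem reflLin_apply (Q : QuadraticForm F V) (w x : V) :
    reflLin Q w x = x - ((Q w)⁻¹ * QuadraticMap.polar Q x w) • w := by
  simp [reflLin]

theorem reflLin_map (Q : QuadraticForm F V) (w : V) (hw : Q w ≠ 0) (x : V) :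
    Q (reflLin Q w x) = Q x := by
  rw [reflLin_apply, map_sub_eq, QuadraticMap.map_smul, QuadraticMap.polar_smul_right]
  simp only [smul_eq_mul]
  field_simp
  ring

theorem reflLin_involutive (Q : QuadraticForm F V) (w : V) (hw : Q w ≠ 0) :
    Function.Involutive (reflLin Q w) := by
  intro x
  rw [reflLin_apply, reflLin_apply, QuadraticMap.polar_sub_left, QuadraticMap.polar_smul_left,
    QuadraticMap.polar_self]
  simp only [smul_eq_mul, nsmul_eq_mul, Nat.cast_ofNat]
  have : (Q w)⁻¹ * (QuadraticMap.polar (⇑Q) x w - (Q w)⁻¹ * QuadraticMap.polar (⇑Q) x w * (2 * Q w))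
      = - ((Q w)⁻¹ * QuadraticMap.polar (⇑Q) x w) := by
    field_simp
    ring
  rw [this, neg_smul]
  abel

/-- The reflection in a nonsingular vector as an isometry. -/
noncomputable def refl (Q : QuadraticForm F V) (w : V) (hw : Q w ≠ 0) : Q.IsometryEquiv Q :=
  { LinearEquiv.ofInvolutive (reflLin Q w) (reflLin_involutive Q w hw) with
    map_app' := fun m => reflLin_map Q w hw m }

theorem refl_apply (Q : QuadraticForm F V) (w : V) (hw : Q w ≠ 0) (x : V) :
    refl Q w hw x = x - ((Q w)⁻¹ * QuadraticMap.polar Q x w) • w :=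
  reflLin_apply Q w x

theorem trans_apply (Q : QuadraticForm F V) (f g : Q.IsometryEquiv Q) (x : V) :
    (f.trans g) x = g (f x) := rfl

/-- Witt extension for anisotropic forms, for finite families. -/
theorem exists_isometry (Q : QuadraticForm F V) (hQ : Q.Anisotropic) :
    ∀ (n : ℕ) (w w' : Fin n → V), (∀ i, Q (w i) = Q (w' i)) →
      (∀ i j, QuadraticMap.polar Q (w i) (w j) = QuadraticMap.polar Q (w' i) (w' j)) →
      ∃ φ : Q.IsometryEquiv Q, ∀ i, φ (w i) = w' i := by
  intro n
  induction n with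
  | zero => intro w w' _ _; exact ⟨QuadraticMap.IsometryEquiv.refl Q, fun i => i.elim0⟩
  | succ n ih =>
    intro w w' h1 h2
    obtain ⟨φ₀, hφ₀⟩ := ih (fun i => w i.succ) (fun i => w' i.succ) (fun i => h1 i.succ)
      (fun i j => h2 i.succ j.succ)
    by_cases hab : φ₀ (w 0) = w' 0
    · refine ⟨φ₀, fun i => ?_⟩
      refine Fin.cases hab (fun j => hφ₀ j) i
    · have hd : w' 0 - φ₀ (w 0) ≠ 0 := sub_ne_zero.mpr (Ne.symm hab)
      have hQd : Q (w' 0 - φ₀ (w 0)) ≠ 0 := fun h => hd (hQ _ h)
      refine ⟨φ₀.trans (refl Q _ hQd), fun i => ?_⟩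
      rw [trans_apply, refl_apply]
      refine Fin.cases ?_ (fun j => ?_) i
      · have e1 : Q (φ₀ (w 0)) = Q (w' 0) := by rw [φ₀.map_app, h1]
        have e2 : QuadraticMap.polar Q (φ₀ (w 0)) (w' 0 - φ₀ (w 0)) = - Q (w' 0 - φ₀ (w 0)) := by
          rw [map_sub_eq, QuadraticMap.polar_sub_right, QuadraticMap.polar_self, e1,
            QuadraticMap.polar_comm Q (w' 0)]
          simp only [nsmul_eq_mul, Nat.cast_ofNat]
          ring
        rw [e2]
        have e3 : (Q (w' 0 - φ₀ (w 0)))⁻¹ * -Q (w' 0 - φ₀ (w 0)) = -1 := by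
          field_simp
        rw [e3]
        simp
      · have e2 : QuadraticMap.polar Q (φ₀ (w j.succ)) (w' 0 - φ₀ (w 0)) = 0 := by
          rw [QuadraticMap.polar_sub_right, polar_isometry, hφ₀ j, h2]
          ring
        rw [e2]
        simp [hφ₀ j]

end helpers


/-- Let V be a finite-dimensional vector space over a finite field F carrying an anisotropic quadratic form Q (Q(v) = 0 only for v = 0). Then the group of all maps v ↦ φ(v) + c, with φ an isometry of Q and c ∈ V, acts on V as a binary permutation group: given n ≥ 2 and two n-tuples u, u' of vectors such that every pair of corresponding entries of u is carried to that of u' by such a map, one such map carries u to u'. -/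
theorem result {F V : Type*} [Field F] [Finite F] [AddCommGroup V] [Module F V] [Module.Finite F V]
    (Q : QuadraticForm F V) (hQ : Q.Anisotropic) (n : ℕ) (hn : 2 ≤ n) (u u' : Fin n → V)
    (h2 : ∀ i j : Fin n, i ≠ j → ∃ (φ : Q.IsometryEquiv Q) (c : V), φ (u i) + c = u' i ∧ φ (u j) + c = u' j) :
    ∃ (φ : Q.IsometryEquiv Q) (c : V), ∀ i, φ (u i) + c = u' i := by
  have hd : ∀ i j : Fin n, Q (u i - u j) = Q (u' i - u' j) := by
    intro i j
    by_cases hij : i = j
    · subst hij; simp
    · obtain ⟨φ, c, e1, e2⟩ := h2 i j hij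
      rw [← e1, ← e2, add_sub_add_right_eq_sub, ← map_sub, φ.map_app]
  let i₀ : Fin n := ⟨0, by omega⟩
  obtain ⟨φ, hφ⟩ := exists_isometry Q hQ n (fun i => u i - u i₀) (fun i => u' i - u' i₀)
    (fun i => hd i i₀) (fun i j => by
      have e1 : QuadraticMap.polar Q (u i - u i₀) (u j - u i₀) =
          Q (u i - u i₀) + Q (u j - u i₀) - Q (u i - u j) := by
        have := map_sub_eq Q (u i - u i₀) (u j - u i₀)
        rw [sub_sub_sub_cancel_right] at this
        rw [this]; ring
      have e2 : QuadraticMap.polar Q (u' i - u' i₀) (u' j - u' i₀) =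
          Q (u' i - u' i₀) + Q (u' j - u' i₀) - Q (u' i - u' j) := by
        have := map_sub_eq Q (u' i - u' i₀) (u' j - u' i₀)
        rw [sub_sub_sub_cancel_right] at this
        rw [this]; ring
      rw [e1, e2, hd, hd, hd])
  refine ⟨φ, u' i₀ - φ (u i₀), fun i => ?_⟩
  have := hφ i
  simp only [map_sub] at this
  rw [show φ (u i) + (u' i₀ - φ (u i₀)) = (φ (u i) - φ (u i₀)) + u' i₀ by abel, this]
  abel

end Cfsg.Agent.S5754
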