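import Cfsg.Statements.S5763
-- import your own Cfsg.Agent.* helpers here

set_option autoImplicit false
open Cfsg

namespace Cfsg.Agent.S5763

/-- The fixed-point-free involution pairing `2k` with `2k+1`. -/
def flipF : Fin 8 → Fin 8 := ![1, 0, 3, 2, 5, 4, 7, 6]

/-- The pair containing a point. -/
def edgeF : Fin 8 → Fin 4 := ![0, 0, 1, 1, 2, 2, 3, 3]

/-- Addition in the Klein four-group on `Fin 4`. -/
def xorF : Fin 4 → Fin 4 → Fin 4 := fun a b =>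
  ![![0, 1, 2, 3], ![1, 0, 3, 2], ![2, 3, 0, 1], ![3, 2, 1, 0]] a b

/-- Membership in the 2-group `C2 wr V4` of order 64, stated for functions. -/
def InQ (g : Fin 8 → Fin 8) : Prop :=
  ∃ k : Fin 4, ∀ i : Fin 8, g (flipF i) = flipF (g i) ∧ edgeF (g i) = xorF (edgeF i) k

instance decInQ (g : Fin 8 → Fin 8) : Decidable (InQ g) := by
  unfold InQ; infer_instance

theorem xorF_assoc : ∀ a b c : Fin 4, xorF (xorF a b) c = xorF a (xorF b c) := by decide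

theorem xorF_zero : ∀ a : Fin 4, xorF a 0 = a := by decide

theorem xorF_self : ∀ a k : Fin 4, xorF (xorF a k) k = a := by decide

theorem flipF_flipF : ∀ i : Fin 8, flipF (flipF i) = i := by decide

theorem flipF_ne : ∀ i : Fin 8, flipF i ≠ i := by decide

theorem edgeF_eq : ∀ i j : Fin 8, edgeF j = edgeF i → j = i ∨ j = flipF i := by decide

/-- The 2-group `C2 wr V4` as a subgroup of the symmetric group. -/
def Q0 : Subgroup (Equiv.Perm (Fin 8)) where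
  carrier := {σ | InQ σ}
  mul_mem' := by
    rintro a b ⟨k, hk⟩ ⟨l, hl⟩
    refine ⟨xorF l k, fun i => ?_⟩
    simp only [Equiv.Perm.coe_mul, Function.comp_apply]
    rw [(hl i).1, (hk _).1, (hk _).2, (hl i).2]
    exact ⟨rfl, xorF_assoc _ _ _⟩
  one_mem' := ⟨0, fun i => ⟨rfl, (xorF_zero _).symm⟩⟩
  inv_mem' := by
    rintro a ⟨k, hk⟩
    refine ⟨k, fun i => ?_⟩
    have h1 := hk (a⁻¹ i)
    have h0 : a (a⁻¹ i) = i := Equiv.apply_symm_apply a i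
    have h0' : a (a⁻¹ (flipF i)) = flipF i := Equiv.apply_symm_apply a (flipF i)
    rw [h0] at h1
    constructor
    · apply a.injective
      rw [h0', h1.1]
    · have h2 := h1.2
      rw [h2, xorF_self]

theorem mem_Q0 (σ : Equiv.Perm (Fin 8)) : σ ∈ Q0 ↔ InQ σ := Iff.rfl

theorem Q0_pow_four (σ : Equiv.Perm (Fin 8)) (h : σ ∈ Q0) : σ ^ 4 = 1 := by
  obtain ⟨k, hk⟩ := h
  ext i
  have h2 : σ (σ i) = i ∨ σ (σ i) = flipF i := by
    apply edgeF_eq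
    rw [(hk _).2, (hk _).2, xorF_self]
  have h4 : σ (σ (σ (σ i))) = i := by
    rcases h2 with h2 | h2
    · rw [h2, h2]
    · rw [h2, (hk _).1, (hk _).1, h2, flipF_flipF]
  have h5 : (σ ^ 4) i = σ (σ (σ (σ i))) := rfl
  rw [h5, h4]
  rfl

theorem Q0_isPGroup : IsPGroup 2 Q0 := by
  intro g
  refine ⟨2, ?_⟩
  apply Subtype.ext
  have := Q0_pow_four g.1 g.2
  simpa using this

/-- The conclusion of the enumeration, for a function `f` playing the role of an involution. -/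
def Concl (f : Fin 8 → Fin 8) : Prop :=
  ((∀ i, f (flipF (f (flipF i))) = i) → InQ (fun i => f (flipF i))) ∧
  ((¬ ∀ i, f (flipF (f (flipF i))) = i) → InQ (fun i => f (flipF (f (flipF i)))))

instance decConcl (f : Fin 8 → Fin 8) : Decidable (Concl f) := by
  unfold Concl; infer_instance

set_option synthInstance.maxSize 100000 in
set_option maxRecDepth 100000 in
theorem enum :
    ∀ a0 : Fin 8, (a0 ≠ 0 ∧ a0 ≠ 1) →
    ∀ a1 : Fin 8, (a1 ≠ 1 ∧ a1 ≠ 0 ∧ (a0 = 1 ↔ a1 = 0)) →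
    ∀ a2 : Fin 8, (a2 ≠ 2 ∧ a2 ≠ 3 ∧ (a0 = 2 ↔ a2 = 0) ∧ (a1 = 2 ↔ a2 = 1)) →
    ∀ a3 : Fin 8, (a3 ≠ 3 ∧ a3 ≠ 2 ∧ (a0 = 3 ↔ a3 = 0) ∧ (a1 = 3 ↔ a3 = 1) ∧ (a2 = 3 ↔ a3 = 2)) →
    ∀ a4 : Fin 8, (a4 ≠ 4 ∧ a4 ≠ 5 ∧ (a0 = 4 ↔ a4 = 0) ∧ (a1 = 4 ↔ a4 = 1) ∧ (a2 = 4 ↔ a4 = 2) ∧ (a3 = 4 ↔ a4 = 3)) →
    ∀ a5 : Fin 8, (a5 ≠ 5 ∧ a5 ≠ 4 ∧ (a0 = 5 ↔ a5 = 0) ∧ (a1 = 5 ↔ a5 = 1) ∧ (a2 = 5 ↔ a5 = 2) ∧ (a3 = 5 ↔ a5 = 3) ∧ (a4 = 5 ↔ a5 = 4)) →
    ∀ a6 : Fin 8, (a6 ≠ 6 ∧ a6 ≠ 7 ∧ (a0 = 6 ↔ a6 = 0) ∧ (a1 = 6 ↔ a6 = 1) ∧ (a2 = 6 ↔ a6 = 2) ∧ (a3 = 6 ↔ a6 = 3) ∧ (a4 = 6 ↔ a6 = 4) ∧ (a5 = 6 ↔ a6 = 5)) →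
    ∀ a7 : Fin 8, (a7 ≠ 7 ∧ a7 ≠ 6 ∧ (a0 = 7 ↔ a7 = 0) ∧ (a1 = 7 ↔ a7 = 1) ∧ (a2 = 7 ↔ a7 = 2) ∧ (a3 = 7 ↔ a7 = 3) ∧ (a4 = 7 ↔ a7 = 4) ∧ (a5 = 7 ↔ a7 = 5) ∧ (a6 = 7 ↔ a7 = 6)) →
    Concl ![a0, a1, a2, a3, a4, a5, a6, a7] := by
  decide +kernel

theorem concl_of (f : Fin 8 → Fin 8) (h1 : ∀ i, f (f i) = i) (h2 : ∀ i, f i ≠ i)
    (h3 : ∀ i, f i ≠ flipF i) : Concl f := by
  have key : ∀ i j : Fin 8, (f i = j ↔ f j = i) := by
    intro i j
    constructor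
    · intro h; rw [← h, h1]
    · intro h; rw [← h, h1]
  have hf : f = ![f 0, f 1, f 2, f 3, f 4, f 5, f 6, f 7] := by
    funext i
    fin_cases i <;> rfl
  rw [hf]
  exact enum (f 0) ⟨h2 0, h3 0⟩
    (f 1) ⟨h2 1, h3 1, key 0 1⟩
    (f 2) ⟨h2 2, h3 2, key 0 2, key 1 2⟩
    (f 3) ⟨h2 3, h3 3, key 0 3, key 1 3, key 2 3⟩
    (f 4) ⟨h2 4, h3 4, key 0 4, key 1 4, key 2 4, key 3 4⟩
    (f 5) ⟨h2 5, h3 5, key 0 5, key 1 5, key 2 5, key 3 5, key 4 5⟩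
    (f 6) ⟨h2 6, h3 6, key 0 6, key 1 6, key 2 6, key 3 6, key 4 6, key 5 6⟩
    (f 7) ⟨h2 7, h3 7, key 0 7, key 1 7, key 2 7, key 3 7, key 4 7, key 5 7, key 6 7⟩

/-- The involution `flipF` as a permutation. -/
def mP : Equiv.Perm (Fin 8) := ⟨flipF, flipF, flipF_flipF, flipF_flipF⟩

theorem mP_apply (i : Fin 8) : mP i = flipF i := rfl

theorem mP_mul_self : mP * mP = 1 := by
  ext i
  simp [Equiv.Perm.mul_apply, mP_apply, flipF_flipF]

theorem mP_inv : mP⁻¹ = mP := inv_eq_of_mul_eq_one_left mP_mul_self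

theorem lemmaL (n : Equiv.Perm (Fin 8)) (h1 : ∀ i, n (n i) = i) (h2 : ∀ i, n i ≠ i)
    (h3 : ∀ i, n i ≠ flipF i) :
    ((n * mP) * (n * mP) = 1 → n * mP ∈ Q0) ∧
    ((n * mP) * (n * mP) ≠ 1 → (n * mP) * (n * mP) ∈ Q0) := by
  have hc := concl_of n h1 h2 h3
  have hiff : (∀ i, n (flipF (n (flipF i))) = i) ↔ (n * mP) * (n * mP) = 1 := by
    constructor
    · intro h
      ext i
      exact congrArg Fin.val (h i)
    · intro h i
      have := congrArg (fun σ : Equiv.Perm (Fin 8) => σ i) h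
      exact this
  constructor
  · intro h
    exact hc.1 (hiff.2 h)
  · intro h
    exact hc.2 (fun h' => h (hiff.1 h'))

theorem swap_mem : ∀ j : Fin 8, InQ (Equiv.swap j (flipF j)) := by decide

theorem key (y : Equiv.Perm (Fin 8)) :
    ∃ t : Equiv.Perm (Fin 8), t ≠ 1 ∧ t ∈ Q0 ∧ y * t * y⁻¹ ∈ Q0 := by
  by_cases hex : ∃ i, y (flipF i) = flipF (y i)
  · obtain ⟨i, hi⟩ := hex
    refine ⟨Equiv.swap i (flipF i), ?_, swap_mem i, ?_⟩
    · intro h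
      have := congrArg (fun σ : Equiv.Perm (Fin 8) => σ i) h
      simp only [Equiv.swap_apply_left, Equiv.Perm.one_apply] at this
      exact flipF_ne i this
    · rw [← Equiv.swap_apply_apply, hi]
      exact swap_mem (y i)
  · have hne : ∀ i, y (flipF i) ≠ flipF (y i) := fun i h => hex ⟨i, h⟩
    -- the two conjugates of the involution
    have hyy : ∀ i, y (y⁻¹ i) = i := fun i => Equiv.apply_symm_apply y i
    have hyy' : ∀ i, y⁻¹ (y i) = i := fun i => Equiv.symm_apply_apply y i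
    have n1 : ∀ i, (y⁻¹ * mP * y) ((y⁻¹ * mP * y) i) = i := by
      intro i
      simp only [Equiv.Perm.mul_apply, mP_apply, hyy, flipF_flipF, hyy']
    have n2 : ∀ i, (y⁻¹ * mP * y) i ≠ i := by
      intro i h
      simp only [Equiv.Perm.mul_apply, mP_apply] at h
      have h' := congrArg y h
      rw [hyy] at h'
      exact flipF_ne _ h'
    have n3 : ∀ i, (y⁻¹ * mP * y) i ≠ flipF i := by
      intro i h
      simp only [Equiv.Perm.mul_apply, mP_apply] at h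
      have h' := congrArg y h
      rw [hyy] at h'
      exact hne i h'.symm
    have n1' : ∀ i, (y * mP * y⁻¹) ((y * mP * y⁻¹) i) = i := by
      intro i
      simp only [Equiv.Perm.mul_apply, mP_apply, hyy, flipF_flipF, hyy']
    have n2' : ∀ i, (y * mP * y⁻¹) i ≠ i := by
      intro i h
      simp only [Equiv.Perm.mul_apply, mP_apply] at h
      have h' := congrArg (fun z => y⁻¹ z) h
      simp only [hyy'] at h'
      exact flipF_ne _ h'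
    have n3' : ∀ i, (y * mP * y⁻¹) i ≠ flipF i := by
      intro i h
      simp only [Equiv.Perm.mul_apply, mP_apply] at h
      have := hne (y⁻¹ i)
      rw [hyy] at this
      exact this h
    obtain ⟨L1, L2⟩ := lemmaL _ n1 n2 n3
    obtain ⟨L1', L2'⟩ := lemmaL _ n1' n2' n3'
    -- d = n * mP and d' = n' * mP with y * d * y⁻¹ = d'⁻¹
    have hconj : y * (y⁻¹ * mP * y * mP) * y⁻¹ = (y * mP * y⁻¹ * mP)⁻¹ := by
      rw [mul_inv_rev, mul_inv_rev, mul_inv_rev, inv_inv, mP_inv]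
      group
    have hconj2 : y * ((y⁻¹ * mP * y * mP) * (y⁻¹ * mP * y * mP)) * y⁻¹
        = ((y * mP * y⁻¹ * mP) * (y * mP * y⁻¹ * mP))⁻¹ := by
      have : y * ((y⁻¹ * mP * y * mP) * (y⁻¹ * mP * y * mP)) * y⁻¹
          = (y * (y⁻¹ * mP * y * mP) * y⁻¹) * (y * (y⁻¹ * mP * y * mP) * y⁻¹) := by group
      rw [this, hconj, ← mul_inv_rev]
    by_cases hd : (y⁻¹ * mP * y * mP) * (y⁻¹ * mP * y * mP) = 1
    · have hd' : (y * mP * y⁻¹ * mP) * (y * mP * y⁻¹ * mP) = 1 := by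
        have := hconj2
        rw [hd] at this
        simp only [mul_one, mul_inv_cancel] at this
        exact inv_eq_one.mp this.symm
      refine ⟨y⁻¹ * mP * y * mP, ?_, L1 hd, ?_⟩
      · intro h
        have h' := congrArg (fun σ : Equiv.Perm (Fin 8) => σ (flipF 0)) h
        simp only [Equiv.Perm.mul_apply, mP_apply, flipF_flipF, Equiv.Perm.one_apply] at h'
        have h'' := congrArg y h'
        rw [hyy] at h''
        exact hne 0 h''.symm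
      · rw [hconj]
        exact Q0.inv_mem (L1' hd')
    · have hd' : (y * mP * y⁻¹ * mP) * (y * mP * y⁻¹ * mP) ≠ 1 := by
        intro h
        apply hd
        have := hconj2
        rw [h, inv_one] at this
        have h3 : (y⁻¹ * mP * y * mP) * (y⁻¹ * mP * y * mP)
            = y⁻¹ * (y * ((y⁻¹ * mP * y * mP) * (y⁻¹ * mP * y * mP)) * y⁻¹) * y := by group
        rw [h3, this]
        group
      refine ⟨(y⁻¹ * mP * y * mP) * (y⁻¹ * mP * y * mP), hd, L2 hd, ?_⟩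
      rw [hconj2]
      exact Q0.inv_mem (L2' hd')

/-- In the symmetric group on 8 letters any two Sylow 2-subgroups have non-trivial intersection: for a Sylow 2-subgroup H and every element x, H ∩ xHx⁻¹ ≠ 1. -/
theorem result (H : Sylow 2 (Equiv.Perm (Fin 8))) (x : Equiv.Perm (Fin 8)) :
    (H : Subgroup (Equiv.Perm (Fin 8))) ⊓ (H : Subgroup (Equiv.Perm (Fin 8))).map (MulAut.conj x).toMonoidHom ≠ ⊥ := by
  obtain ⟨S, hS⟩ := IsPGroup.exists_le_sylow Q0_isPGroup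
  obtain ⟨g, hg⟩ := MulAction.exists_smul_eq (Equiv.Perm (Fin 8)) S H
  obtain ⟨t, ht1, ht2, ht3⟩ := key (g⁻¹ * x * g)
  have hmem : ∀ q ∈ Q0, g * q * g⁻¹ ∈ (H : Subgroup (Equiv.Perm (Fin 8))) := by
    intro q hq
    rw [← hg, Sylow.coe_subgroup_smul]
    exact Subgroup.smul_mem_pointwise_smul q (MulAut.conj g) _ (hS hq)
  intro hbot
  have h1 : x * (g * t * g⁻¹) * x⁻¹ ∈ (H : Subgroup (Equiv.Perm (Fin 8))) ⊓
      (H : Subgroup (Equiv.Perm (Fin 8))).map (MulAut.conj x).toMonoidHom := by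
    refine ⟨?_, ?_⟩
    · have h2 := hmem _ ht3
      have h3 : g * (g⁻¹ * x * g * t * (g⁻¹ * x * g)⁻¹) * g⁻¹ = x * (g * t * g⁻¹) * x⁻¹ := by group
      rw [h3] at h2
      exact h2
    · exact ⟨g * t * g⁻¹, hmem _ ht2, rfl⟩
  rw [hbot, Subgroup.mem_bot] at h1
  apply ht1
  have h4 : t = g⁻¹ * (x⁻¹ * (x * (g * t * g⁻¹) * x⁻¹) * x) * g := by group
  rw [h4, h1]
  group

end Cfsg.Agent.S5763
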