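import Cfsg.Statements.S5885
-- import your own Cfsg.Agent.* helpers here


set_option autoImplicit false
open Cfsg

namespace Cfsg.Agent.S5885

open scoped Pointwise
open MulAction

section General

variable {G : Type*} [Group G]

/-- coatom criterion in terms of intermediate subgroups -/
lemma isCoatom_subgroupOf_of {H K : Subgroup G} (hHK : H ≤ K) (hne : ¬ K ≤ H)
    (h : ∀ L : Subgroup G, H ≤ L → L ≤ K → ¬ L ≤ H → K ≤ L) : IsCoatom (H.subgroupOf K) := by
  constructor
  · rw [Ne, Subgroup.subgroupOf_eq_top]; exact hne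
  · intro L' hlt
    have h1 : H ≤ L'.map K.subtype := by
      have h0 := Subgroup.map_mono (f := K.subtype) hlt.le
      rwa [Subgroup.map_subgroupOf_eq_of_le hHK] at h0
    have h2 : L'.map K.subtype ≤ K := Subgroup.map_subtype_le L'
    have h3 : ¬ L'.map K.subtype ≤ H := by
      intro hle
      apply hlt.not_ge
      intro x hx
      rw [Subgroup.mem_subgroupOf]
      exact hle ⟨x, hx, rfl⟩
    have h4 := h _ h1 h2 h3
    rw [eq_top_iff]
    intro x _
    obtain ⟨y, hy, hyx⟩ := h4 x.2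
    have hyx' : y = x := Subtype.ext hyx
    rwa [← hyx']

lemma le_of_isCoatom_subgroupOf {H M L : Subgroup G} (hmax : IsCoatom (H.subgroupOf M))
    (hHL : H ≤ L) (hLM : L ≤ M) (hne : ¬ L ≤ H) : M ≤ L := by
  have hlt : H.subgroupOf M < L.subgroupOf M := by
    refine lt_of_le_of_ne (Subgroup.subgroupOf_mono M hHL) ?_
    intro heq
    apply hne
    intro x hx
    have hx' : (⟨x, hLM hx⟩ : M) ∈ L.subgroupOf M := hx
    rw [← heq] at hx'
    exact hx'
  have h := hmax.2 _ hlt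
  rwa [Subgroup.subgroupOf_eq_top] at h

variable {Ω : Type*} [MulAction G Ω]

lemma smul_set_eq_of_forall_mem [Finite Ω] {g : G} {Δ : Set Ω} (h : ∀ ω ∈ Δ, g • ω ∈ Δ) :
    g • Δ = Δ := by
  apply Set.eq_of_subset_of_ncard_le
  · rintro _ ⟨ω, hω, rfl⟩
    exact h ω hω
  · rw [Set.ncard_smul_set]
  · exact Set.toFinite _

/-- Case A1: primitive -/
lemma caseA1 [Nontrivial Ω] (K : Subgroup G) (α : Ω) [IsPreprimitive K Ω] :
    IsCoatom ((K ⊓ stabilizer G α).subgroupOf K) := by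
  have h := IsPreprimitive.isCoatom_stabilizer_of_isPreprimitive K α
  have heq : stabilizer K α = (K ⊓ stabilizer G α).subgroupOf K := by
    ext x
    rw [Subgroup.mem_subgroupOf, mem_stabilizer_iff, Subgroup.mem_inf, mem_stabilizer_iff]
    constructor
    · intro hx; exact ⟨x.2, hx⟩
    · intro hx; exact hx.2
  rwa [heq] at h

variable [Fintype Ω] [DecidableEq Ω]

lemma exists_threeCycle_lift
    (hP : ∀ σ : Equiv.Perm Ω, σ ∈ alternatingGroup Ω → ∃ g : G, ∀ ω : Ω, g • ω = σ ω)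
    {x y z : Ω} (hxy : x ≠ y) (hxz : x ≠ z) (hyz : y ≠ z) :
    ∃ g : G, g • x = z ∧ g • z = y ∧ g • y = x ∧
      ∀ ω, ω ≠ x → ω ≠ y → ω ≠ z → g • ω = ω := by
  obtain ⟨g, hg⟩ := hP (Equiv.swap x y * Equiv.swap x z)
    (Equiv.Perm.IsThreeCycle.mem_alternatingGroup
      (Equiv.Perm.isThreeCycle_swap_mul_swap_same hxy hxz hyz))
  refine ⟨g, ?_, ?_, ?_, ?_⟩
  · rw [hg]; simp [Equiv.swap_apply_of_ne_of_ne hxz.symm hyz.symm]
  · rw [hg]; simp
  · rw [hg]; simp [Equiv.swap_apply_of_ne_of_ne hxy.symm hyz]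
  · intro ω h1 h2 h3
    rw [hg]
    simp [Equiv.swap_apply_of_ne_of_ne h1 h3, Equiv.swap_apply_of_ne_of_ne h1 h2]

lemma exists_doubleSwap_lift
    (hP : ∀ σ : Equiv.Perm Ω, σ ∈ alternatingGroup Ω → ∃ g : G, ∀ ω : Ω, g • ω = σ ω)
    {x y u v : Ω} (hxy : x ≠ y) (huv : u ≠ v) (hxu : x ≠ u) (hxv : x ≠ v) (hyu : y ≠ u)
    (hyv : y ≠ v) :
    ∃ g : G, g • x = y ∧ g • y = x ∧
      ∀ ω, ω ≠ x → ω ≠ y → ω ≠ u → ω ≠ v → g • ω = ω := by
  obtain ⟨g, hg⟩ := hP (Equiv.swap x y * Equiv.swap u v)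
    (by rw [Equiv.Perm.mem_alternatingGroup, Equiv.Perm.sign_mul, Equiv.Perm.sign_swap hxy,
          Equiv.Perm.sign_swap huv]; rfl)
  refine ⟨g, ?_, ?_, ?_⟩
  · rw [hg]; simp [Equiv.swap_apply_of_ne_of_ne hxu hxv]
  · rw [hg]; simp [Equiv.swap_apply_of_ne_of_ne hyu hyv]
  · intro ω h1 h2 h3 h4
    rw [hg]
    simp [Equiv.swap_apply_of_ne_of_ne h3 h4, Equiv.swap_apply_of_ne_of_ne h1 h2]

/-- Case A2: transitive imprimitive is impossible -/
lemma caseA2
    (hP : ∀ σ : Equiv.Perm Ω, σ ∈ alternatingGroup Ω → ∃ g : G, ∀ ω : Ω, g • ω = σ ω)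
    (hodd : Odd (Nat.card Ω)) (K : Subgroup G) (α : Ω)
    [IsPretransitive K Ω] (hnp : ¬ IsPreprimitive K Ω)
    (hmax : IsCoatom ((K ⊓ stabilizer G α).subgroupOf (stabilizer G α))) : False := by
  have hex : ∃ B : Set Ω, IsBlock K B ∧ ¬ IsTrivialBlock B := by
    by_contra h
    apply hnp
    exact { isTrivialBlock_of_isBlock := fun {B} hB => not_not.mp (fun hB' => h ⟨B, hB, hB'⟩) }
  obtain ⟨B₀, hB₀, hB₀t⟩ := hex
  have hB₀ne : B₀.Nonempty := by
    by_contra h
    rw [Set.not_nonempty_iff_eq_empty] at h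
    exact hB₀t (Or.inl (h ▸ Set.subsingleton_empty))
  obtain ⟨β₀, hβ₀⟩ := hB₀ne
  obtain ⟨k₀, hk₀⟩ := exists_smul_eq K β₀ α
  have hB : IsBlock K (k₀ • B₀) := hB₀.translate k₀
  have hBt : ¬ IsTrivialBlock (k₀ • B₀) := by rwa [IsTrivialBlock.smul_iff]
  have hαB : α ∈ k₀ • B₀ := ⟨β₀, hβ₀, hk₀⟩
  generalize k₀ • B₀ = B at hB hBt hαB
  have hBsub : ¬ B.Subsingleton := fun h => hBt (Or.inl h)
  have hBuniv : B ≠ Set.univ := fun h => hBt (Or.inr h)
  -- cardinalities
  have hdvd : B.ncard ∣ Nat.card Ω := hB.ncard_dvd_card ⟨α, hαB⟩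
  have ha2 : 2 ≤ B.ncard := by
    by_contra h
    apply hBsub
    rw [← Set.ncard_le_one_iff_subsingleton]
    omega
  have halt : B.ncard < Nat.card Ω := by
    rw [← Set.ncard_univ]
    exact Set.ncard_lt_ncard (lt_of_le_of_ne (Set.subset_univ B) hBuniv) (Set.toFinite _)
  have h3a : 3 * B.ncard ≤ Nat.card Ω := by
    obtain ⟨b, hb⟩ := hdvd
    have hbodd : Odd b := by
      rw [hb] at hodd
      exact Nat.Odd.of_mul_right hodd
    have hb1 : b ≠ 1 := by
      intro h1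
      rw [h1, mul_one] at hb
      omega
    have hb3 : 3 ≤ b := by
      obtain ⟨c, hc⟩ := hbodd
      omega
    rw [hb]
    calc 3 * B.ncard = B.ncard * 3 := by ring
      _ ≤ B.ncard * b := Nat.mul_le_mul_left _ hb3
  -- points
  obtain ⟨β, hβB, hβα⟩ : ∃ β ∈ B, β ≠ α := by
    by_contra h
    apply hBsub
    intro u hu v hv
    have hu' : u = α := not_not.mp (fun hne => h ⟨u, hu, hne⟩)
    have hv' : v = α := not_not.mp (fun hne => h ⟨v, hv, hne⟩)
    rw [hu', hv']
  obtain ⟨x, hxB⟩ := (Set.ne_univ_iff_exists_notMem B).mp hBuniv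
  obtain ⟨k', hk'⟩ := exists_smul_eq K α x
  have hB' : IsBlock K (k' • B) := hB.translate k'
  have hxB' : x ∈ k' • B := ⟨α, hαB, hk'⟩
  have hyB' : k' • β ∈ k' • B := ⟨β, hβB, rfl⟩
  have hyx : k' • β ≠ x := by
    rw [← hk']
    intro h
    exact hβα (MulAction.injective k' h)
  have hdisj : Disjoint (k' • B) B := by
    rcases hB.smul_eq_or_disjoint k' with h | h
    · exact absurd (h ▸ hxB') hxB
    · exact h
  have hB'card : (k' • B).ncard = B.ncard := Set.ncard_smul_set k' B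
  generalize k' • B = B' at hB' hxB' hyB' hdisj hB'card
  generalize k' • β = y at hyB' hyx
  obtain ⟨z, hz⟩ : ∃ z, z ∉ B ∪ B' := by
    rw [← Set.ne_univ_iff_exists_notMem]
    intro h
    have h1 : (B ∪ B').ncard ≤ B.ncard + B'.ncard := Set.ncard_union_le B B'
    rw [h, Set.ncard_univ] at h1
    omega
  have hzB : z ∉ B := fun h => hz (Or.inl h)
  have hzB' : z ∉ B' := fun h => hz (Or.inr h)
  have hyB : y ∉ B := fun h => Set.disjoint_left.mp hdisj hyB' h
  have hxz : x ≠ z := fun h => hzB' (h ▸ hxB')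
  have hyz : y ≠ z := fun h => hzB' (h ▸ hyB')
  -- the first lift
  obtain ⟨g, g1, g2, g3, g4⟩ := exists_threeCycle_lift hP hyx.symm hxz hyz
  have hgfix : ∀ ω ∈ B, g • ω = ω := fun ω hω =>
    g4 ω (fun h => hxB (h ▸ hω)) (fun h => hyB (h ▸ hω)) (fun h => hzB (h ▸ hω))
  have hgα : g • α = α := hgfix α hαB
  have hgB : g • B = B := smul_set_eq_of_forall_mem (fun ω hω => by rw [hgfix ω hω]; exact hω)
  have hgK : g ∉ K := by
    intro hgK
    rcases hB'.smul_eq_or_disjoint (⟨g, hgK⟩ : K) with h | h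
    · apply hzB'
      have : z ∈ (⟨g, hgK⟩ : K) • B' := ⟨x, hxB', g1⟩
      rwa [h] at this
    · have : x ∈ (⟨g, hgK⟩ : K) • B' := ⟨y, hyB', g3⟩
      exact Set.disjoint_left.mp h this hxB'
  -- the intermediate subgroup
  have hHL : K ⊓ stabilizer G α ≤ stabilizer G α ⊓ stabilizer G B := by
    intro h hh
    refine ⟨hh.2, ?_⟩
    show h • B = B
    have hα' : (⟨h, hh.1⟩ : K) • α ∈ B := by
      have : h • α = α := hh.2
      show h • α ∈ B
      rw [this]; exact hαB
    exact hB.smul_eq_of_mem (g := (⟨h, hh.1⟩ : K)) hαB hα'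
  have hLH : ¬ stabilizer G α ⊓ stabilizer G B ≤ K ⊓ stabilizer G α := by
    intro hle
    exact hgK (hle ⟨hgα, hgB⟩).1
  have hML := le_of_isCoatom_subgroupOf hmax hHL inf_le_left hLH
  -- second lift
  have hβy : β ≠ y := fun h => hyB (h ▸ hβB)
  have hβx : β ≠ x := fun h => hxB (h ▸ hβB)
  obtain ⟨g', g1', g2', g3', g4'⟩ := exists_threeCycle_lift hP hβy hβx hyx
  have hg'α : g' • α = α :=
    g4' α hβα.symm (fun h => hyB (h ▸ hαB)) (fun h => hxB (h ▸ hαB))
  have hg'B : g' • B = B := (hML hg'α).2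
  apply hxB
  rw [← hg'B, ← g1']
  exact Set.smul_mem_smul_set hβB

/-- Case B: intransitive -/
lemma caseB [IsPretransitive G Ω]
    (hP : ∀ σ : Equiv.Perm Ω, σ ∈ alternatingGroup Ω → ∃ g : G, ∀ ω : Ω, g • ω = σ ω)
    (hodd : Odd (Nat.card Ω)) (K : Subgroup G) (hK : IsCoatom K) (α : Ω)
    (hKα : ¬ K ≤ stabilizer G α) (hnt : ¬ IsPretransitive K Ω) :
    IsCoatom ((K ⊓ stabilizer G α).subgroupOf K) := by
  have hαΔ : α ∈ orbit K α := mem_orbit_self α
  have hΔuniv : orbit K α ≠ Set.univ := by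
    intro h
    apply hnt
    refine ⟨fun x y => ?_⟩
    have hx : x ∈ orbit K α := h ▸ Set.mem_univ x
    have hy : y ∈ orbit K α := h ▸ Set.mem_univ y
    obtain ⟨k₁, rfl⟩ := hx
    obtain ⟨k₂, rfl⟩ := hy
    exact ⟨k₂ * k₁⁻¹, by simp [mul_smul]⟩
  have hKle : K ≤ stabilizer G (orbit K α) := by
    intro k hk
    show k • orbit K α = orbit K α
    exact smul_orbit (⟨k, hk⟩ : K) α
  have hStop : stabilizer G (orbit K α) ≠ ⊤ := by
    intro h
    obtain ⟨ω, hω⟩ := (Set.ne_univ_iff_exists_notMem _).mp hΔuniv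
    obtain ⟨g, hg⟩ := exists_smul_eq G α ω
    have hgs : g ∈ stabilizer G (orbit K α) := h ▸ Subgroup.mem_top g
    have hgs' : g • orbit K α = orbit K α := hgs
    apply hω
    rw [← hgs', ← hg]
    exact Set.smul_mem_smul_set hαΔ
  have hKeq : stabilizer G (orbit K α) = K := (hK.le_iff_eq hStop).mp hKle
  have hmemK : ∀ k ∈ K, k • α ∈ orbit K α := fun k hk => ⟨⟨k, hk⟩, rfl⟩
  generalize orbit K α = Δ at hαΔ hΔuniv hKeq hmemK
  apply isCoatom_subgroupOf_of inf_le_left (fun h => hKα (h.trans inf_le_right))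
  intro L hHL hLK hLH
  obtain ⟨l, hlL, hlH⟩ := SetLike.not_le_iff_exists.mp hLH
  have hlK : l ∈ K := hLK hlL
  have hlα : l • α ≠ α := fun h => hlH ⟨hlK, h⟩
  have hlΔ : l • α ∈ Δ := hmemK l hlK
  have key : ∀ β ∈ Δ, ∃ l' ∈ L, l' • α = β := by
    intro β hβ
    by_cases hβα : β = α
    · exact ⟨1, L.one_mem, by rw [one_smul, hβα]⟩
    by_cases hβl : β = l • α
    · exact ⟨l, hlL, hβl.symm⟩
    suffices hsuff : ∃ h : G, h • α = α ∧ h • Δ = Δ ∧ h • (l • α) = β by
      obtain ⟨h, h1, h2, h3⟩ := hsuff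
      refine ⟨h * l, L.mul_mem (hHL ⟨?_, h1⟩) hlL, by rw [mul_smul, h3]⟩
      rw [← hKeq]; exact h2
    generalize l • α = β₀ at hlα hlΔ hβl
    by_cases hγ : ∃ γ ∈ Δ, γ ≠ α ∧ γ ≠ β₀ ∧ γ ≠ β
    · obtain ⟨γ, hγΔ, hγα, hγl, hγβ⟩ := hγ
      obtain ⟨g, g1, g2, g3, g4⟩ :=
        exists_threeCycle_lift hP (x := β₀) (y := γ) (z := β) hγl.symm (Ne.symm hβl) hγβ
      refine ⟨g, g4 α (Ne.symm hlα) (Ne.symm hγα) (Ne.symm hβα), ?_, g1⟩
      apply smul_set_eq_of_forall_mem
      intro ω hω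
      by_cases h1 : ω = β₀
      · rw [h1, g1]; exact hβ
      by_cases h2 : ω = γ
      · rw [h2, g3]; exact hlΔ
      by_cases h3 : ω = β
      · rw [h3, g2]; exact hγΔ
      rw [g4 ω h1 h2 h3]; exact hω
    · have hsub : ∀ ω ∈ Δ, ω = α ∨ ω = β₀ ∨ ω = β := by
        intro ω hω
        by_contra hcon
        exact hγ ⟨ω, hω, fun h => hcon (Or.inl h), fun h => hcon (Or.inr (Or.inl h)),
          fun h => hcon (Or.inr (Or.inr h))⟩
      obtain ⟨ω₀, hω₀⟩ := (Set.ne_univ_iff_exists_notMem _).mp hΔuniv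
      -- at least five points
      have hcard5 : 5 ≤ Fintype.card Ω := by
        have h4 : ({α, β₀, β, ω₀} : Finset Ω).card = 4 := by
          rw [Finset.card_insert_of_notMem, Finset.card_insert_of_notMem,
            Finset.card_insert_of_notMem, Finset.card_singleton]
          · simp only [Finset.mem_singleton]
            exact fun h => hω₀ (h ▸ hβ)
          · simp only [Finset.mem_insert, Finset.mem_singleton, not_or]
            exact ⟨Ne.symm hβl, fun h => hω₀ (h ▸ hlΔ)⟩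
          · simp only [Finset.mem_insert, Finset.mem_singleton, not_or]
            exact ⟨Ne.symm hlα, Ne.symm hβα, fun h => hω₀ (h ▸ hαΔ)⟩
        have h4' : 4 ≤ Fintype.card Ω := h4 ▸ Finset.card_le_univ _
        rw [Nat.card_eq_fintype_card] at hodd
        obtain ⟨c, hc⟩ := hodd
        omega
      -- two points outside {α, β₀, β}
      obtain ⟨u, hu, v, hv, huv⟩ : ∃ u ∈ (Finset.univ \ ({α, β₀, β} : Finset Ω)),
          ∃ v ∈ (Finset.univ \ ({α, β₀, β} : Finset Ω)), u ≠ v := by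
        rw [← Finset.one_lt_card]
        have h3 : ({α, β₀, β} : Finset Ω).card ≤ 3 := Finset.card_le_three
        have hsd := Finset.card_sdiff_add_card_eq_card (Finset.subset_univ ({α, β₀, β} : Finset Ω))
        rw [Finset.card_univ] at hsd
        omega
      simp only [Finset.mem_sdiff, Finset.mem_univ, true_and, Finset.mem_insert,
        Finset.mem_singleton, not_or] at hu hv
      obtain ⟨g, g1, g2, g4⟩ := exists_doubleSwap_lift hP (x := β₀) (y := β) (u := u) (v := v)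
        (Ne.symm hβl) huv (Ne.symm hu.2.1) (Ne.symm hv.2.1) (Ne.symm hu.2.2) (Ne.symm hv.2.2)
      refine ⟨g, g4 α (Ne.symm hlα) (Ne.symm hβα) (Ne.symm hu.1) (Ne.symm hv.1), ?_, g1⟩
      apply smul_set_eq_of_forall_mem
      intro ω hω
      rcases hsub ω hω with h | h | h
      · rw [h, g4 α (Ne.symm hlα) (Ne.symm hβα) (Ne.symm hu.1) (Ne.symm hv.1)]; exact hαΔ
      · rw [h, g1]; exact hβ
      · rw [h, g2]; exact hlΔ
  intro k hk
  obtain ⟨l', hl'L, hl'⟩ := key (k • α) (hmemK k hk)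
  have hmem : l'⁻¹ * k ∈ K ⊓ stabilizer G α :=
    ⟨K.mul_mem (K.inv_mem (hLK hl'L)) hk, by
      show (l'⁻¹ * k) • α = α
      rw [mul_smul, ← hl', inv_smul_smul]⟩
  have hfin := L.mul_mem hl'L (hHL hmem)
  simpa using hfin

end General

/-- the image of `G` in the symmetric group on the cosets of `M` contains the alternating group -/
lemma alternating_lift {G : Type*} [Group G] [Finite G] (n : ℕ)
    (hA : ∀ P : Subgroup (Equiv.Perm (Fin n)), MulAction.IsPreprimitive P (Fin n) →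
      alternatingGroup (Fin n) ≤ P)
    (M : Subgroup G) (hM : IsCoatom M) (hn : M.index = n) [Fintype (G ⧸ M)]
    [DecidableEq (G ⧸ M)] [Nontrivial (G ⧸ M)] :
    ∀ σ : Equiv.Perm (G ⧸ M), σ ∈ alternatingGroup (G ⧸ M) →
      ∃ g : G, ∀ ω : G ⧸ M, g • ω = σ ω := by
  have hprim : IsPreprimitive G (G ⧸ M) := by
    rw [← isCoatom_stabilizer_iff_preprimitive G ((1 : G) : G ⧸ M), stabilizer_quotient]
    exact hM
  have hcard : Nat.card (G ⧸ M) = n := hn
  let e : (G ⧸ M) ≃ Fin n := Finite.equivFinOfCardEq hcard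
  let ψ : G →* Equiv.Perm (Fin n) :=
    (e.permCongrHom).toMonoidHom.comp (MulAction.toPermHom G (G ⧸ M))
  let f : (G ⧸ M) →ₑ[ψ.rangeRestrict] Fin n :=
    { toFun := e
      map_smul' := by
        intro g ω
        show e (g • ω) = (ψ g) (e ω)
        simp [ψ, Equiv.permCongrHom] }
  have hprim' : IsPreprimitive ψ.range (Fin n) :=
    IsPreprimitive.of_surjective (f := f) e.surjective
  have hle := hA ψ.range hprim'
  intro σ hσ
  have hσ' : e.permCongr σ ∈ alternatingGroup (Fin n) := by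
    rw [Equiv.Perm.mem_alternatingGroup, Equiv.Perm.sign_permCongr]
    exact Equiv.Perm.mem_alternatingGroup.mp hσ
  obtain ⟨g, hg⟩ := hle hσ'
  refine ⟨g, fun ω => ?_⟩
  have h1 : e.permCongr (MulAction.toPerm g) = e.permCongr σ := hg
  have h2 : (MulAction.toPerm g : Equiv.Perm (G ⧸ M)) = σ := e.permCongr.injective h1
  rw [← h2]
  rfl

/-- Let n be an odd positive integer such that every primitive permutation group of degree n contains the alternating group (so the symmetric and alternating groups are the only primitive groups of degree n). Let G be a finite group, M a maximal subgroup of G of index n, and H a maximal subgroup of M. Then H is a second maximal subgroup of G: H is maximal in every maximal subgroup K of G containing H. -/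
theorem result {G : Type*} [Group G]
    [Finite G] (n : ℕ) (hodd : Odd n)
    (hA : ∀ P : Subgroup (Equiv.Perm (Fin n)), MulAction.IsPreprimitive P (Fin n) → alternatingGroup (Fin n) ≤ P)
    (M : Subgroup G) (hM : IsCoatom M) (hn : M.index = n) (H : Subgroup G) (hHM : H ≤ M)
    (hmax : IsCoatom (H.subgroupOf M)) (K : Subgroup G) (hK : IsCoatom K) (hHK : H ≤ K) :
    IsCoatom (H.subgroupOf K) := by
  classical
  by_cases hKM : K = M
  · subst hKM; exact hmax
  have hKM' : ¬ K ≤ M := fun h => hKM (((hK.le_iff_eq hM.1).mp h).symm)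
  have hMK' : ¬ M ≤ K := fun h => hKM ((hM.le_iff_eq hK.1).mp h)
  -- H = K ⊓ M
  have hHeq : H = K ⊓ M := by
    by_contra hne
    have hle : H ≤ K ⊓ M := le_inf hHK hHM
    have h1 := le_of_isCoatom_subgroupOf hmax hle inf_le_right
      (fun h => hne (le_antisymm hle h))
    exact hMK' (h1.trans inf_le_left)
  have : Fintype (G ⧸ M) := Fintype.ofFinite _
  have hcard : Nat.card (G ⧸ M) = n := hn
  have : Nontrivial (G ⧸ M) := by
    rw [← Finite.one_lt_card_iff_nontrivial, hcard]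
    have h1 : n ≠ 1 := by
      rw [← hn]
      exact fun h => hM.1 (Subgroup.index_eq_one.mp h)
    obtain ⟨c, hc⟩ := hodd
    omega
  have hP := alternating_lift n hA M hM hn
  have hstab : stabilizer G ((1 : G) : G ⧸ M) = M := stabilizer_quotient M
  have hodd' : Odd (Nat.card (G ⧸ M)) := hcard ▸ hodd
  rw [hHeq]
  rw [hHeq] at hmax
  rw [← hstab] at hmax hKM' ⊢
  by_cases htr : IsPretransitive K (G ⧸ M)
  · by_cases hpr : IsPreprimitive K (G ⧸ M)
    · exact @caseA1 _ _ _ _ _ K _ hpr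
    · exact (@caseA2 _ _ _ _ _ _ hP hodd' K _ htr hpr hmax).elim
  · exact caseB hP hodd' K hK _ hKM' htr

end Cfsg.Agent.S5885
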