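import Cfsg.Statements.S5887
-- import your own Cfsg.Agent.* helpers here

set_option autoImplicit false
set_option linter.style.haveILetI false
set_option linter.unusedSectionVars false
open Cfsg

namespace Cfsg.Agent.S5887

open Cfsg.Geo Matrix

section general

variable {F : Type*} [Field F] {n : ℕ}

/-- the stabilizer of a set of matrices under conjugation by invertible matrices -/
def setNormalizer (S : Set (Matrix (Fin n) (Fin n) F)) : Subgroup (GL (Fin n) F) where
  carrier := {g | ∀ k : Matrix (Fin n) (Fin n) F,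
    k ∈ S ↔ (g : Matrix (Fin n) (Fin n) F) * k * ((g⁻¹ : GL (Fin n) F) : Matrix (Fin n) (Fin n) F) ∈ S}
  mul_mem' {a b} ha hb := by
    intro k
    rw [hb k, ha, Units.val_mul, _root_.mul_inv_rev, Units.val_mul]
    constructor <;> intro h <;> simpa [mul_assoc] using h
  one_mem' := by
    intro k
    simp
  inv_mem' {a} ha := by
    intro k
    have h := ha (((a⁻¹ : GL (Fin n) F) : Matrix (Fin n) (Fin n) F) * k * (a : Matrix (Fin n) (Fin n) F))
    rw [inv_inv]
    rw [h]
    constructor <;> intro h' <;>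
      simpa [mul_assoc, ← Units.val_mul] using h'

lemma mem_setNormalizer (S : Set (Matrix (Fin n) (Fin n) F)) (g : GL (Fin n) F) :
    g ∈ setNormalizer S ↔ ∀ k : Matrix (Fin n) (Fin n) F,
      k ∈ S ↔ (g : Matrix (Fin n) (Fin n) F) * k * ((g⁻¹ : GL (Fin n) F) : Matrix (Fin n) (Fin n) F) ∈ S :=
  Iff.rfl

lemma mem_subalgebraNormalizer (K : Subalgebra F (Matrix (Fin n) (Fin n) F)) (g : GL (Fin n) F) :
    g ∈ subalgebraNormalizer K ↔ ∀ k : Matrix (Fin n) (Fin n) F,
      k ∈ K ↔ (g : Matrix (Fin n) (Fin n) F) * k * ((g⁻¹ : GL (Fin n) F) : Matrix (Fin n) (Fin n) F) ∈ K :=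
  Iff.rfl

/-- the abstract argument: an intermediate normalizer refutes maximality -/
theorem not_max_of_data (K : Subalgebra F (Matrix (Fin n) (Fin n) F))
    (S : Set (Matrix (Fin n) (Fin n) F))
    (hle : subalgebraNormalizer K ≤ setNormalizer S)
    (g h : GL (Fin n) F) (hg1 : g ∈ specialLinear (Fin n) F) (hgS : g ∈ setNormalizer S)
    (hgK : g ∉ subalgebraNormalizer K)
    (hh1 : h ∈ specialLinear (Fin n) F) (hhS : h ∉ setNormalizer S) :
    ¬ IsCoatom (subalgebraNormalizer K) ∧
      ¬ IsMaximalIn (specialLinear (Fin n) F)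
        (subalgebraNormalizer K ⊓ specialLinear (Fin n) F) := by
  constructor
  · intro hco
    have hlt : subalgebraNormalizer K < setNormalizer S :=
      lt_of_le_of_ne hle (fun heq => hgK (heq ▸ hgS))
    have htop := hco.2 _ hlt
    exact hhS (htop ▸ Subgroup.mem_top h)
  · rintro ⟨_, hmax⟩
    rcases hmax (setNormalizer S ⊓ specialLinear (Fin n) F) (inf_le_inf_right _ hle) inf_le_right
      with h1 | h1
    · have : g ∈ setNormalizer S ⊓ specialLinear (Fin n) F := Subgroup.mem_inf.mpr ⟨hgS, hg1⟩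
      rw [h1] at this
      exact hgK (Subgroup.mem_inf.mp this).1
    · have : h ∈ setNormalizer S ⊓ specialLinear (Fin n) F := by rw [h1]; exact hh1
      exact hhS (Subgroup.mem_inf.mp this).1

end general

section data
variable {F : Type*} [Field F] [Fintype F]

theorem exists_data (n r : ℕ) (hr1 : 1 < r) (hrp : ¬ r.Prime) (hlt : r < n)
    (K : Subalgebra F (Matrix (Fin n) (Fin n) F)) (hK : IsFieldSubalgebra r K) :
    ∃ (Q : ℕ) (E k₁ : Matrix (Fin n) (Fin n) F) (v : Fin n → F),
      (∀ k ∈ K, k ^ Q = k → E * k = k * E) ∧ E * E = 0 ∧ v ≠ 0 ∧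
      (∀ k ∈ K, E *ᵥ (k *ᵥ v) = 0) ∧ (∃ k₀ ∈ K, E * k₀ ≠ k₀ * E) ∧
      k₁ ∈ K ∧ k₁ ^ Q = k₁ ∧ k₁ ∉ Set.range (Matrix.scalar (Fin n)) := by
  classical
  obtain ⟨s, hsr, hs2, hslt⟩ := Nat.exists_dvd_of_not_prime2 hr1 hrp
  set q := Fintype.card F with hq
  have hq2 : 2 ≤ q := Fintype.one_lt_card
  haveI : NeZero n := ⟨by omega⟩
  have hIF : IsField K :=
    { exists_pair_ne := ⟨0, 1, zero_ne_one⟩
      mul_comm := fun x y => Subtype.ext (hK.comm x.1 x.2 y.1 y.2)
      mul_inv_cancel := fun {a} ha => by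
        obtain ⟨y, hy, hxy⟩ := hK.inv a.1 a.2 (fun h => ha (Subtype.ext h))
        exact ⟨⟨y, hy⟩, Subtype.ext hxy⟩ }
  letI : Field K := hIF.toField
  letI : Module K (Fin n → F) :=
    { smul := fun k v => k.1 *ᵥ v
      one_smul := fun v => Matrix.one_mulVec v
      mul_smul := fun a b v => (Matrix.mulVec_mulVec v a.1 b.1).symm
      smul_zero := fun a => Matrix.mulVec_zero a.1
      smul_add := fun a v w => Matrix.mulVec_add a.1 v w
      add_smul := fun a b v => Matrix.add_mulVec a.1 b.1 v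
      zero_smul := fun v => Matrix.zero_mulVec v }
  have hsmul : ∀ (k : K) (v : Fin n → F), k • v = k.1 *ᵥ v := fun k v => rfl
  haveI : IsScalarTower F K (Fin n → F) := ⟨fun c k v => by
    rw [hsmul, hsmul]
    show (c • k.1) *ᵥ v = c • (k.1 *ᵥ v)
    rw [Matrix.smul_mulVec]⟩
  have hfr : Module.finrank F K * Module.finrank K (Fin n → F) = Module.finrank F (Fin n → F) :=
    Module.finrank_mul_finrank F K (Fin n → F)
  rw [hK.finrank_eq, Module.finrank_fin_fun] at hfr
  have hd2 : 2 ≤ Module.finrank K (Fin n → F) := by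
    by_contra hcon
    have : Module.finrank K (Fin n → F) ≤ 1 := by omega
    have h2 : r * Module.finrank K (Fin n → F) ≤ r * 1 := Nat.mul_le_mul_left r this
    omega
  -- a basis over K and the first two basis vectors
  let b := Module.finBasis K (Fin n → F)
  let i0 : Fin (Module.finrank K (Fin n → F)) := ⟨0, by omega⟩
  let i1 : Fin (Module.finrank K (Fin n → F)) := ⟨1, by omega⟩
  have hi01 : i1 ≠ i0 := by
    intro h
    have := congrArg Fin.val h
    simp [i0, i1] at this
  let ℓ : (Fin n → F) →ₗ[K] K := b.coord i0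
  have hℓ0 : ℓ (b i0) = 1 := by
    simp [ℓ]
  have hℓ1 : ℓ (b i1) = 0 := by
    simp [ℓ, Module.Basis.coord_apply, hi01.symm]
  -- the power of Frobenius
  have hpow : ∀ (m : ℕ) (x : K), ((FiniteField.frobeniusAlgHom F K) ^ m) x = x ^ (q ^ m) := by
    intro m
    induction m with
    | zero => intro x; simp
    | succ m ih =>
      intro x
      rw [pow_succ', AlgHom.mul_apply, ih, FiniteField.frobeniusAlgHom_apply, ← pow_mul, pow_succ]
  let φ : K →ₐ[F] K := (FiniteField.frobeniusAlgHom F K) ^ s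
  have hφ : ∀ x : K, φ x = x ^ (q ^ s) := hpow s
  -- the nilpotent operator
  let El : (Fin n → F) →ₗ[F] (Fin n → F) :=
    ((LinearMap.toSpanSingleton K (Fin n → F) (b i1)).restrictScalars F) ∘ₗ φ.toLinearMap ∘ₗ
      (ℓ.restrictScalars F)
  have hEl : ∀ v, El v = φ (ℓ v) • b i1 := fun v => rfl
  let E : Matrix (Fin n) (Fin n) F := LinearMap.toMatrix' El
  have hE : ∀ v, E *ᵥ v = φ (ℓ v) • b i1 := by
    intro v
    rw [← hEl]
    show (LinearMap.toMatrix' El) *ᵥ v = El v
    rw [← Matrix.toLin'_apply, Matrix.toLin'_toMatrix']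
  have hmatext : ∀ A B : Matrix (Fin n) (Fin n) F, (∀ v, A *ᵥ v = B *ᵥ v) → A = B := by
    intro A B h
    apply Matrix.toLin'.injective
    exact LinearMap.ext (fun v => by rw [Matrix.toLin'_apply, Matrix.toLin'_apply, h])
  -- (E1)
  have hE1 : ∀ k ∈ K, k ^ (q ^ s) = k → E * k = k * E := by
    intro k hk hkQ
    apply hmatext
    intro v
    rw [← Matrix.mulVec_mulVec, ← Matrix.mulVec_mulVec, hE, hE]
    have h1 : k *ᵥ v = (⟨k, hk⟩ : K) • v := rfl
    have h2 : φ (⟨k, hk⟩ : K) = ⟨k, hk⟩ := by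
      rw [hφ]
      exact Subtype.ext hkQ
    rw [h1, map_smul, smul_eq_mul, map_mul, h2, mul_smul]
    rfl
  -- (E2)
  have hE2 : E * E = 0 := by
    apply hmatext
    intro v
    rw [← Matrix.mulVec_mulVec, hE, hE, map_smul, hℓ1, smul_zero, map_zero, zero_smul,
      Matrix.zero_mulVec]
  -- (E3)
  have hb1 : b i1 ≠ 0 := b.ne_zero i1
  have hE3 : ∀ k ∈ K, E *ᵥ (k *ᵥ b i1) = 0 := by
    intro k hk
    have h1 : k *ᵥ b i1 = (⟨k, hk⟩ : K) • b i1 := rfl
    rw [hE, h1, map_smul, hℓ1, smul_zero, map_zero, zero_smul]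
  -- units of K
  haveI : Finite K := inferInstance
  have hcardK : Nat.card K = q ^ r := by
    have := Module.natCard_eq_pow_finrank (K := F) (V := K)
    rw [hK.finrank_eq, Nat.card_eq_fintype_card (α := F)] at this
    exact this
  obtain ⟨θ, hθ⟩ := IsCyclic.exists_generator (α := Kˣ)
  have hordθ : orderOf θ = q ^ r - 1 := by
    rw [orderOf_eq_card_of_forall_mem_zpowers hθ, Nat.card_units, hcardK]
  have hqs : q ^ s < q ^ r := Nat.pow_lt_pow_right (by omega) hslt
  have hqs1 : q < q ^ s := by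
    calc q = q ^ 1 := (pow_one q).symm
      _ < q ^ s := Nat.pow_lt_pow_right (by omega) (by omega)
  have hdvd : q ^ s - 1 ∣ q ^ r - 1 := Nat.pow_sub_one_dvd_pow_sub_one q hsr
  obtain ⟨m, hm⟩ := hdvd
  have hm0 : 0 < m := by
    rcases Nat.eq_zero_or_pos m with h | h
    · rw [h, mul_zero] at hm; omega
    · exact h
  -- (E4)
  have hE4 : ∃ k₀ ∈ K, E * k₀ ≠ k₀ * E := by
    refine ⟨(θ : K).1, (θ : K).2, fun hcomm => ?_⟩
    have h1 := congrArg (fun A : Matrix (Fin n) (Fin n) F => A *ᵥ b i0) hcomm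
    simp only [← Matrix.mulVec_mulVec] at h1
    rw [hE, hE, hℓ0, map_one, one_smul] at h1
    have h2 : (θ : K).1 *ᵥ b i0 = (θ : K) • b i0 := rfl
    have h3 : (θ : K).1 *ᵥ b i1 = (θ : K) • b i1 := rfl
    rw [h2, h3, map_smul, hℓ0, smul_eq_mul, mul_one] at h1
    have h4 : (φ (θ : K) - (θ : K)) • b i1 = 0 := by rw [sub_smul, h1, sub_self]
    by_cases h5 : φ (θ : K) - (θ : K) = 0
    · rw [sub_eq_zero, hφ] at h5
      have h6 : θ ^ (q ^ s - 1) = 1 := by
        apply Units.ext
        have h7 : (θ : K) ^ (q ^ s - 1) * (θ : K) = 1 * (θ : K) := by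
          rw [← pow_succ, one_mul, Nat.sub_add_cancel (by omega)]
          exact h5
        rw [Units.val_pow_eq_pow_val, Units.val_one]
        exact mul_right_cancel₀ θ.ne_zero h7
      have h8 := orderOf_dvd_of_pow_eq_one h6
      rw [hordθ] at h8
      have h9 := Nat.le_of_dvd (by omega) h8
      omega
    · have h6 := congrArg (fun w => (φ (θ : K) - (θ : K))⁻¹ • w) h4
      simp only [smul_zero] at h6
      rw [smul_smul, inv_mul_cancel₀ h5, one_smul] at h6
      exact hb1 h6
  -- the non-scalar element of the intermediate field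
  have hθm : ((θ ^ m : Kˣ) : K) ^ (q ^ s) = ((θ ^ m : Kˣ) : K) := by
    have h1 : (θ ^ m) ^ (q ^ s - 1) = (1 : Kˣ) := by
      rw [← pow_mul, mul_comm, ← hm, ← hordθ, pow_orderOf_eq_one]
    have h2 : (θ ^ m) ^ (q ^ s) = θ ^ m := by
      have : q ^ s = (q ^ s - 1) + 1 := by omega
      rw [this, pow_succ, h1, one_mul]
    rw [← Units.val_pow_eq_pow_val, h2]
  refine ⟨q ^ s, E, ((θ ^ m : Kˣ) : K).1, b i1, hE1, hE2, hb1, hE3, hE4, ((θ ^ m : Kˣ) : K).2, ?_, ?_⟩
  · have := congrArg Subtype.val hθm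
    exact this
  · rintro ⟨c, hc⟩
    have hc' : ((θ ^ m : Kˣ) : K) = algebraMap F K c := by
      apply Subtype.ext
      rw [← hc]
      simp [Matrix.scalar_apply, Algebra.algebraMap_eq_smul_one, Matrix.smul_one_eq_diagonal]
    have hc0 : c ≠ 0 := by
      rintro rfl
      rw [map_zero] at hc'
      exact (θ ^ m).ne_zero hc'
    have h1 : ((θ ^ m : Kˣ) : K) ^ (q - 1) = 1 := by
      rw [hc', ← map_pow, FiniteField.pow_card_sub_one_eq_one c hc0, map_one]
    have h2 : θ ^ (m * (q - 1)) = 1 := by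
      apply Units.ext
      rw [pow_mul, Units.val_pow_eq_pow_val, Units.val_one]
      exact h1
    have h3 := orderOf_dvd_of_pow_eq_one h2
    rw [hordθ, hm] at h3
    have h4 := Nat.le_of_dvd (Nat.mul_pos hm0 (by omega)) h3
    rw [mul_comm] at h4
    have h5 := Nat.le_of_mul_le_mul_left h4 hm0
    omega
end data

section fin
variable {F : Type*} [Field F] [Fintype F] {n : ℕ}

/-- a square-zero matrix gives a unipotent element of determinant one -/
lemma det_one_add (hn : 0 < n) (E : Matrix (Fin n) (Fin n) F) (hE : E * E = 0) :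
    (1 + E).det = 1 := by
  haveI : NeZero n := ⟨by omega⟩
  haveI : CharP F (ringChar F) := ringChar.charP F
  haveI : Fact (Nat.Prime (ringChar F)) := ⟨CharP.char_is_prime F (ringChar F)⟩
  have hp2 : 2 ≤ ringChar F := (Fact.out : Nat.Prime (ringChar F)).two_le
  have h1 : (1 + E) ^ (ringChar F) = 1 := by
    rw [add_pow_char_of_commute (ringChar F) (Commute.one_left E), one_pow,
      pow_eq_zero_of_le hp2 (by rw [pow_two]; exact hE), add_zero]
  have h2 : (1 + E).det ^ (ringChar F) = 1 := by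
    rw [← Matrix.det_pow, h1, Matrix.det_one]
  have h3 : ((1 + E).det - 1) ^ (ringChar F) = 0 := by
    rw [sub_pow_char, h2, one_pow, sub_self]
  exact sub_eq_zero.mp (pow_eq_zero_iff (by omega) |>.mp h3)

theorem main (hn : 3 ≤ n) (K : Subalgebra F (Matrix (Fin n) (Fin n) F))
    (hcomm : ∀ x ∈ K, ∀ y ∈ K, x * y = y * x)
    (hinv : ∀ x ∈ K, x ≠ 0 → ∃ y ∈ K, x * y = 1)
    (Q : ℕ) (E k₁ : Matrix (Fin n) (Fin n) F) (v : Fin n → F)
    (hE1 : ∀ k ∈ K, k ^ Q = k → E * k = k * E) (hE2 : E * E = 0) (hv : v ≠ 0)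
    (hE3 : ∀ k ∈ K, E *ᵥ (k *ᵥ v) = 0) (hE4 : ∃ k₀ ∈ K, E * k₀ ≠ k₀ * E)
    (hk₁ : k₁ ∈ K) (hk₁Q : k₁ ^ Q = k₁) (hk₁s : k₁ ∉ Set.range (Matrix.scalar (Fin n))) :
    ¬ IsCoatom (subalgebraNormalizer K) ∧
      ¬ IsMaximalIn (specialLinear (Fin n) F)
        (subalgebraNormalizer K ⊓ specialLinear (Fin n) F) := by
  classical
  -- non-invertible elements of K vanish
  have hzero : ∀ d ∈ K, ∀ w : Fin n → F, w ≠ 0 → d *ᵥ w = 0 → d = 0 := by
    intro d hd w hw hdw
    by_contra hd0
    obtain ⟨y, hy, hdy⟩ := hinv d hd hd0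
    have hyd : y * d = 1 := by rw [hcomm y hy d hd, hdy]
    apply hw
    have := congrArg (fun A : Matrix (Fin n) (Fin n) F => A *ᵥ w) hyd
    simp only [← Matrix.mulVec_mulVec, Matrix.one_mulVec] at this
    rw [hdw, Matrix.mulVec_zero] at this
    exact this.symm
  let S : Set (Matrix (Fin n) (Fin n) F) := {k | k ∈ K ∧ k ^ Q = k}
  have hle : subalgebraNormalizer K ≤ setNormalizer S := by
    intro g hg
    rw [mem_setNormalizer]
    intro k
    rw [mem_subalgebraNormalizer] at hg
    constructor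
    · rintro ⟨hk, hkQ⟩
      exact ⟨(hg k).mp hk, by rw [Units.conj_pow, hkQ]⟩
    · rintro ⟨hk, hkQ⟩
      refine ⟨(hg k).mpr hk, ?_⟩
      rw [Units.conj_pow] at hkQ
      exact (Units.mul_right_inj g).mp ((Units.mul_left_inj g⁻¹).mp hkQ)
  -- the unipotent element
  have hg12 : (1 + E) * (1 - E) = 1 := by
    rw [mul_sub, mul_one, add_mul, one_mul, hE2]; abel
  have hg21 : (1 - E) * (1 + E) = 1 := by
    rw [mul_add, mul_one, sub_mul, one_mul, hE2]; abel
  let g : GL (Fin n) F := ⟨1 + E, 1 - E, hg12, hg21⟩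
  have hgv : (g : Matrix (Fin n) (Fin n) F) = 1 + E := rfl
  have hginv : ((g⁻¹ : GL (Fin n) F) : Matrix (Fin n) (Fin n) F) = 1 - E := rfl
  have hg1 : g ∈ specialLinear (Fin n) F := by
    show g ∈ (Matrix.GeneralLinearGroup.det : GL (Fin n) F →* Fˣ).ker
    rw [MonoidHom.mem_ker]
    apply Units.ext
    rw [Matrix.GeneralLinearGroup.val_det_apply, hgv, Units.val_one]
    exact det_one_add (by omega) E hE2
  have hgS : g ∈ setNormalizer S := by
    rw [mem_setNormalizer]
    intro k
    have hcm : ∀ k' ∈ S, (1 + E) * k' = k' * (1 + E) := by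
      rintro k' ⟨hk', hk'Q⟩
      rw [add_mul, mul_add, one_mul, mul_one, hE1 k' hk' hk'Q]
    rw [hgv, hginv]
    constructor
    · intro hk
      rw [hcm k hk, mul_assoc, hg12, mul_one]
      exact hk
    · intro hk
      have h1 := hcm _ hk
      have h3 : (1 + E) * ((1 + E) * k * (1 - E)) = (1 + E) * k := by
        rw [h1, mul_assoc, hg21, mul_one]
      have h4 : (1 + E) * k * (1 - E) = k := by
        calc (1 + E) * k * (1 - E) = (1 - E) * ((1 + E) * ((1 + E) * k * (1 - E))) := by
              rw [← mul_assoc (1 - E), hg21, one_mul]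
          _ = (1 - E) * ((1 + E) * k) := by rw [h3]
          _ = k := by rw [← mul_assoc, hg21, one_mul]
      rw [← h4]
      exact hk
  have hEv : E *ᵥ v = 0 := by
    have := hE3 1 K.one_mem
    rw [Matrix.one_mulVec] at this
    exact this
  have hgK : g ∉ subalgebraNormalizer K := by
    intro hgK
    rw [mem_subalgebraNormalizer] at hgK
    obtain ⟨k₀, hk₀, hne⟩ := hE4
    have hd : (g : Matrix (Fin n) (Fin n) F) * k₀ * ((g⁻¹ : GL (Fin n) F) : Matrix (Fin n) (Fin n) F)
        - k₀ ∈ K := K.sub_mem ((hgK k₀).mp hk₀) hk₀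
    rw [hgv, hginv] at hd
    have hdg : ((1 + E) * k₀ * (1 - E) - k₀) * (1 + E) = E * k₀ - k₀ * E := by
      rw [sub_mul, mul_assoc, hg21, mul_one, add_mul, mul_add, one_mul, mul_one]; abel
    have hdv : ((1 + E) * k₀ * (1 - E) - k₀) *ᵥ v = 0 := by
      have h1 : (1 + E) *ᵥ v = v := by rw [Matrix.add_mulVec, Matrix.one_mulVec, hEv, add_zero]
      have h2 : (((1 + E) * k₀ * (1 - E) - k₀) * (1 + E)) *ᵥ v = 0 := by
        rw [hdg, Matrix.sub_mulVec, ← Matrix.mulVec_mulVec, ← Matrix.mulVec_mulVec, hE3 k₀ hk₀, hEv,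
          Matrix.mulVec_zero, sub_zero]
      rw [← Matrix.mulVec_mulVec, h1] at h2
      exact h2
    have hd0 := hzero _ hd v hv hdv
    rw [hd0, zero_mul] at hdg
    exact hne (sub_eq_zero.mp hdg.symm)
  -- a transvection outside the intermediate normalizer
  have hex : ∃ h : GL (Fin n) F, h ∈ specialLinear (Fin n) F ∧ h ∉ setNormalizer S := by
    by_contra hcon
    have hall : ∀ h : GL (Fin n) F, h ∈ specialLinear (Fin n) F → h ∈ setNormalizer S := by
      intro h hh
      by_contra hh'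
      exact hcon ⟨h, hh, hh'⟩
    apply hk₁s
    apply Matrix.mem_range_scalar_of_commute_transvectionStruct
    intro t
    have hT12 : transvection t.i t.j t.c * transvection t.i t.j (-t.c) = 1 := by
      rw [transvection_mul_transvection_same _ _ t.hij, add_neg_cancel, transvection_zero]
    have hT21 : transvection t.i t.j (-t.c) * transvection t.i t.j t.c = 1 := by
      rw [transvection_mul_transvection_same _ _ t.hij, neg_add_cancel, transvection_zero]
    let T : GL (Fin n) F := ⟨transvection t.i t.j t.c, transvection t.i t.j (-t.c), hT12, hT21⟩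
    have hTS : T ∈ setNormalizer S := by
      apply hall
      show T ∈ (Matrix.GeneralLinearGroup.det : GL (Fin n) F →* Fˣ).ker
      rw [MonoidHom.mem_ker]
      apply Units.ext
      rw [Matrix.GeneralLinearGroup.val_det_apply, Units.val_one]
      exact det_transvection_of_ne _ _ t.hij _
    rw [mem_setNormalizer] at hTS
    have hk1S : k₁ ∈ S := ⟨hk₁, hk₁Q⟩
    have hmem := ((hTS k₁).mp hk1S).1
    have hTv : (T : Matrix (Fin n) (Fin n) F) = transvection t.i t.j t.c := rfl
    have hTinv : ((T⁻¹ : GL (Fin n) F) : Matrix (Fin n) (Fin n) F) = transvection t.i t.j (-t.c) := rfl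
    rw [hTv, hTinv] at hmem
    have hd : transvection t.i t.j t.c * k₁ * transvection t.i t.j (-t.c) - k₁ ∈ K :=
      K.sub_mem hmem hk₁
    have hdT : (transvection t.i t.j t.c * k₁ * transvection t.i t.j (-t.c) - k₁) *
        transvection t.i t.j t.c = Matrix.single t.i t.j t.c * k₁ - k₁ * Matrix.single t.i t.j t.c := by
      rw [sub_mul, mul_assoc, hT21, mul_one, transvection, add_mul, mul_add, one_mul, mul_one]; abel
    -- a vector killed by the commutator
    let f : (Fin n → F) →ₗ[F] F × F :=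
      (LinearMap.proj t.j).prod ((LinearMap.proj t.j).comp (Matrix.mulVecLin k₁))
    have hker : LinearMap.ker f ≠ ⊥ := by
      apply LinearMap.ker_ne_bot_of_finrank_lt
      rw [Module.finrank_prod, Module.finrank_self, Module.finrank_fin_fun]
      omega
    obtain ⟨w, hwker, hw0⟩ := (Submodule.ne_bot_iff _).mp hker
    rw [LinearMap.mem_ker] at hwker
    have hw1 : w t.j = 0 := congrArg Prod.fst hwker
    have hw2 : (k₁ *ᵥ w) t.j = 0 := congrArg Prod.snd hwker
    have hMw : (Matrix.single t.i t.j t.c * k₁ - k₁ * Matrix.single t.i t.j t.c) *ᵥ w = 0 := by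
      rw [Matrix.sub_mulVec, ← Matrix.mulVec_mulVec, ← Matrix.mulVec_mulVec, Matrix.single_mulVec_eq,
        Matrix.single_mulVec_eq, hw1, hw2, mul_zero, zero_smul, Matrix.mulVec_zero, sub_zero]
    have hTw : transvection t.i t.j t.c *ᵥ w ≠ 0 := by
      intro h0
      apply hw0
      have := congrArg (fun u => transvection t.i t.j (-t.c) *ᵥ u) h0
      simp only [Matrix.mulVec_mulVec, hT21, Matrix.one_mulVec, Matrix.mulVec_zero] at this
      exact this
    have hdTw : (transvection t.i t.j t.c * k₁ * transvection t.i t.j (-t.c) - k₁) *ᵥ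
        (transvection t.i t.j t.c *ᵥ w) = 0 := by
      rw [Matrix.mulVec_mulVec, hdT, hMw]
    have hd0 := hzero _ hd _ hTw hdTw
    have hfin : transvection t.i t.j t.c * k₁ = k₁ * transvection t.i t.j t.c := by
      have h1 := sub_eq_zero.mp hd0
      have h2 := congrArg (fun A : Matrix (Fin n) (Fin n) F => A * transvection t.i t.j t.c) h1
      simp only [mul_assoc, hT21, mul_one] at h2
      exact h2
    exact hfin
  obtain ⟨h, hh1, hhS⟩ := hex
  exact not_max_of_data K S hle g h hg1 hgS hgK hh1 hhS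
end fin

/-- Let F be a finite field, n a positive integer and r a composite number (r > 1, not prime) that divides n with r < n. Let K be a subalgebra of the algebra of n × n matrices over F which is a field of degree r over F (commutative, every non-zero element invertible, of dimension r over F). Then the normaliser N of K in GL_n(F) (a group of type ΓL_{n/r}(F_{q^r})) is not a maximal subgroup of GL_n(F), and N ∩ SL_n(F) is not a maximal subgroup of SL_n(F): both lie properly inside the normaliser of an intermediate subfield of prime degree over F. -/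
theorem result {F : Type*} [Field F]
    [Fintype F] (n r : ℕ) (hr1 : 1 < r) (hrp : ¬ r.Prime) (hrn : r ∣ n) (hlt : r < n)
    (K : Subalgebra F (Matrix (Fin n) (Fin n) F)) (hK : Cfsg.Geo.IsFieldSubalgebra r K) :
    ¬ IsCoatom (Cfsg.Geo.subalgebraNormalizer K) ∧
      ¬ Cfsg.Geo.IsMaximalIn (Cfsg.Geo.specialLinear (Fin n) F)
        (Cfsg.Geo.subalgebraNormalizer K ⊓ Cfsg.Geo.specialLinear (Fin n) F) := by
  obtain ⟨Q, E, k₁, v, hE1, hE2, hv, hE3, hE4, hk₁, hk₁Q, hk₁s⟩ := exists_data n r hr1 hrp hlt K hK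
  exact main (by omega) K hK.comm hK.inv Q E k₁ v hE1 hE2 hv hE3 hE4 hk₁ hk₁Q hk₁s

end Cfsg.Agent.S5887
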