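import Cfsg.Statements.S5894
-- import your own Cfsg.Agent.* helpers here
import Cfsg.Agent.Lib.Helper98.Wreath
import Cfsg.Agent.Lib.Helper98.Coatom

set_option autoImplicit false
open Cfsg

namespace Cfsg.Agent.S5894

open scoped Pointwise
open MulAction Cfsg.Agent.Lib.Helper98.Wreath Cfsg.Agent.Lib.Helper98.Coatom

/-- the labelling of `Fin (2 * m)` by the two halves -/
def half (m : ℕ) : Fin (2 * m) → Fin 2 := fun x => if x.val < m then 0 else 1

lemma half_eq_zero_iff (m : ℕ) (x : Fin (2 * m)) : half m x = 0 ↔ x.val < m := by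
  unfold half; split_ifs with h <;> simp [h]

lemma half_eq_one_iff (m : ℕ) (x : Fin (2 * m)) : half m x = 1 ↔ m ≤ x.val := by
  unfold half; split_ifs with h
  · simp; omega
  · simp; omega

lemma half_eq_iff (m : ℕ) (x y : Fin (2 * m)) : half m x = half m y ↔ (m ≤ x.val ↔ m ≤ y.val) := by
  unfold half; split_ifs with h1 h2 h2 <;> simp <;> omega

lemma card_half (m : ℕ) (i : Fin 2) : Nat.card {x : Fin (2 * m) // half m x = i} = m := by
  fin_cases i
  · have e : {x : Fin (2 * m) // half m x = 0} ≃ Fin m :=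
      { toFun := fun x => ⟨x.1.val, (half_eq_zero_iff m x.1).mp x.2⟩
        invFun := fun j => ⟨⟨j.val, by omega⟩, (half_eq_zero_iff m _).mpr j.2⟩
        left_inv := fun x => by simp
        right_inv := fun j => by simp }
    simpa using Nat.card_congr e
  · have e : {x : Fin (2 * m) // half m x = 1} ≃ Fin m :=
      { toFun := fun x => ⟨x.1.val - m, by
          have h1 := (half_eq_one_iff m x.1).mp x.2
          have h2 := x.1.2
          omega⟩
        invFun := fun j => ⟨⟨j.val + m, by omega⟩, (half_eq_one_iff m _).mpr (by simp)⟩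
        left_inv := fun x => by
          have h1 := (half_eq_one_iff m x.1).mp x.2
          apply Subtype.ext
          apply Fin.ext
          simp
          omega
        right_inv := fun j => by simp }
    simpa using Nat.card_congr e

/-- For every m ≥ 2 the symmetric group on 2m letters has a maximal subgroup M of index 2m together with a maximal subgroup H of M that is not second maximal: some maximal subgroup K of the symmetric group contains H without H being maximal in K. (One may take M the stabiliser of a letter, H ≅ S_m × S_{m−1} inside it, and K ≅ S_m ≀ S₂ the stabiliser of a partition into two m-sets, with H < S_m × S_m < K.) So the prime-index hypothesis in the second-maximality criterion cannot be relaxed to any even index ≥ 4. -/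
theorem result (m : ℕ) (hm : 2 ≤ m) :
    ∃ M H K : Subgroup (Equiv.Perm (Fin (2 * m))), IsCoatom M ∧ M.index = 2 * m ∧ H ≤ M ∧ IsCoatom (H.subgroupOf M) ∧
      IsCoatom K ∧ H ≤ K ∧ ¬ IsCoatom (H.subgroupOf K) := by
  classical
  have h2m : 0 < 2 * m := by omega
  obtain ⟨α, hα⟩ : ∃ α : Fin (2 * m), α = ⟨0, h2m⟩ := ⟨_, rfl⟩
  obtain ⟨β, hβ⟩ : ∃ β : Fin (2 * m), β = ⟨1, by omega⟩ := ⟨_, rfl⟩
  obtain ⟨γ, hγ⟩ : ∃ γ : Fin (2 * m), γ = ⟨m, by omega⟩ := ⟨_, rfl⟩
  have hαv : α.val = 0 := by rw [hα]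
  have hβv : β.val = 1 := by rw [hβ]
  have hγv : γ.val = m := by rw [hγ]
  have hβα : β ≠ α := fun h => by rw [h] at hβv; omega
  have hγα : γ ≠ α := fun h => by rw [h] at hγv; omega
  obtain ⟨A, hA⟩ : ∃ A : Set (Fin (2 * m)), A = {x | m ≤ x.val} := ⟨_, rfl⟩
  obtain ⟨A', hA'⟩ : ∃ A' : Set {x : Fin (2 * m) // x ≠ α}, A' = {x | m ≤ x.1.val} := ⟨_, rfl⟩
  have hmemA : ∀ x, x ∈ A ↔ m ≤ x.val := fun x => by rw [hA]; rfl
  have hmemA' : ∀ x, x ∈ A' ↔ m ≤ x.1.val := fun x => by rw [hA']; rfl
  have hαA : α ∉ A := by rw [hmemA]; omega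
  have hβA : β ∉ A := by rw [hmemA]; omega
  have hγA : γ ∈ A := by rw [hmemA]; omega
  -- the stabilizer of `α` is the range of `ofSubtype`
  have hrange : (Equiv.Perm.ofSubtype :
      Equiv.Perm {x : Fin (2 * m) // x ≠ α} →* Equiv.Perm (Fin (2 * m))).range =
      stabilizer (Equiv.Perm (Fin (2 * m))) α := by
    ext g
    constructor
    · rintro ⟨h', rfl⟩
      exact Equiv.Perm.ofSubtype_apply_of_not_mem h' (by simp)
    · intro hg
      have hgα : g α = α := hg
      have h₁ : ∀ x, g x ≠ α ↔ x ≠ α := by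
        intro x
        rw [not_iff_not]
        constructor
        · intro h; exact g.injective (h.trans hgα.symm)
        · intro h; rw [h]; exact hgα
      have h₂ : ∀ x, g x ≠ x → x ≠ α := by
        intro x hx h; rw [h] at hx; exact hx hgα
      exact ⟨g.subtypePerm h₁, Equiv.Perm.ofSubtype_subtypePerm h₁ h₂⟩
  -- elements of H
  have hHkey : ∀ h' ∈ stabilizer (Equiv.Perm {x : Fin (2 * m) // x ≠ α}) A',
      ∀ x, Equiv.Perm.ofSubtype h' x ∈ A ↔ x ∈ A := by
    intro h' hh' x
    by_cases hx : x = α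
    · rw [hx, Equiv.Perm.ofSubtype_apply_of_not_mem h' (by simp)]
    · rw [Equiv.Perm.ofSubtype_apply_of_mem h' hx]
      have h1 : h' • (⟨x, hx⟩ : {x : Fin (2 * m) // x ≠ α}) ∈ A' ↔ (⟨x, hx⟩ : {x // x ≠ α}) ∈ A' :=
        mem_iff_of_smul_set_eq hh' _
      rw [hmemA', hmemA'] at h1
      rw [hmemA, hmemA]
      exact h1
  refine ⟨stabilizer (Equiv.Perm (Fin (2 * m))) α,
    (stabilizer (Equiv.Perm {x : Fin (2 * m) // x ≠ α}) A').map Equiv.Perm.ofSubtype,
    W (half m), ?_, ?_, ?_, ?_, ?_, ?_, ?_⟩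
  · -- M is maximal
    have h1 : stabilizer (Equiv.Perm (Fin (2 * m))) ({α} : Set (Fin (2 * m))) =
        stabilizer (Equiv.Perm (Fin (2 * m))) α := by
      ext g
      rw [mem_stabilizer_iff, mem_stabilizer_iff, Set.smul_set_singleton,
        Set.singleton_eq_singleton_iff]
    rw [← h1]
    apply Equiv.Perm.isCoatom_stabilizer (Set.singleton_nonempty α) ⟨β, hβα⟩
    rw [Set.ncard_singleton, Nat.card_fin]
    omega
  · rw [index_stabilizer_of_transitive, Nat.card_fin]
  · rw [← hrange]
    exact Subgroup.map_le_range _ _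
  · rw [← hrange]
    apply isCoatom_map_subgroupOf_range _ Equiv.Perm.ofSubtype_injective
    apply Equiv.Perm.isCoatom_stabilizer
    · exact ⟨⟨γ, hγα⟩, by rw [hmemA']; show m ≤ γ.val; omega⟩
    · exact ⟨⟨β, hβα⟩, by rw [Set.mem_compl_iff, hmemA']; show ¬ m ≤ β.val; omega⟩
    · have hc : Nat.card {x : Fin (2 * m) // x ≠ α} = 2 * m - 1 := by
        rw [Nat.card_eq_fintype_card, Fintype.card_subtype_compl, Fintype.card_subtype_eq,
          Fintype.card_fin]
      rw [hc]
      omega
  · exact isCoatom_W (half m) m hm (le_refl 2) (card_half m)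
  · rintro _ ⟨h', hh', rfl⟩
    rw [mem_W]
    intro x y
    rw [half_eq_iff, half_eq_iff, ← hmemA, ← hmemA, ← hmemA, ← hmemA, hHkey h' hh' x, hHkey h' hh' y]
  · intro hco
    have hHL : (stabilizer (Equiv.Perm {x : Fin (2 * m) // x ≠ α}) A').map Equiv.Perm.ofSubtype ≤
        stabilizer (Equiv.Perm (Fin (2 * m))) A := by
      rintro _ ⟨h', hh', rfl⟩
      rw [mem_stabilizer_iff]
      exact smul_set_eq_of_forall_mem (fun ω hω => (hHkey h' hh' ω).mpr hω)
    have hLK : stabilizer (Equiv.Perm (Fin (2 * m))) A ≤ W (half m) := by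
      intro g hg
      rw [mem_W]
      intro x y
      have hx : g • x ∈ A ↔ x ∈ A := mem_iff_of_smul_set_eq hg x
      have hy : g • y ∈ A ↔ y ∈ A := mem_iff_of_smul_set_eq hg y
      rw [half_eq_iff, half_eq_iff, ← hmemA, ← hmemA, ← hmemA, ← hmemA]
      rw [Equiv.Perm.smul_def] at hx hy
      rw [hx, hy]
    have hLH : ¬ stabilizer (Equiv.Perm (Fin (2 * m))) A ≤
        (stabilizer (Equiv.Perm {x : Fin (2 * m) // x ≠ α}) A').map Equiv.Perm.ofSubtype := by
      intro hle
      have hs : Equiv.swap α β ∈ stabilizer (Equiv.Perm (Fin (2 * m))) A := by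
        rw [mem_stabilizer_iff]
        apply smul_set_eq_of_forall_mem
        intro ω hω
        have h1 : ω ≠ α := fun h => hαA (h ▸ hω)
        have h2 : ω ≠ β := fun h => hβA (h ▸ hω)
        rw [Equiv.Perm.smul_def, Equiv.swap_apply_of_ne_of_ne h1 h2]
        exact hω
      obtain ⟨h', -, hh'⟩ := hle hs
      have h3 : Equiv.Perm.ofSubtype h' α = α := Equiv.Perm.ofSubtype_apply_of_not_mem h' (by simp)
      rw [hh', Equiv.swap_apply_left] at h3
      exact hβα h3
    have hKL := le_of_isCoatom_subgroupOf hco hHL hLK hLH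
    obtain ⟨h, hh, hhα⟩ := exists_mem_W_map (half m) m (card_half m) α γ
    have h4 : h • α ∈ A ↔ α ∈ A := mem_iff_of_smul_set_eq (hKL hh) α
    rw [Equiv.Perm.smul_def, hhα] at h4
    exact hαA (h4.mp hγA)

end Cfsg.Agent.S5894
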