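import Cfsg.Statements.S5896
import Cfsg.Agent.S0144

set_option autoImplicit false
open Cfsg

set_option linter.style.haveILetI false
set_option linter.unnecessarySeqFocus false
set_option linter.unreachableTactic false
set_option linter.unusedTactic false

namespace Cfsg.Agent.S5896

open Matrix MatrixGroups
open scoped commutatorElement


section ring
variable {R : Type*} [CommRing R]

lemma sl2_ext (g g' : SL(2, R)) (h00 : g.1 0 0 = g'.1 0 0) (h01 : g.1 0 1 = g'.1 0 1)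
    (h10 : g.1 1 0 = g'.1 1 0) (h11 : g.1 1 1 = g'.1 1 1) : g = g' := by
  apply Subtype.ext
  ext i j
  fin_cases i <;> fin_cases j
  · exact h00
  · exact h01
  · exact h10
  · exact h11

lemma det_eq (g : SL(2, R)) : g.1 0 0 * g.1 1 1 - g.1 0 1 * g.1 1 0 = 1 := by
  have := g.2
  rw [Matrix.det_fin_two] at this
  exact this

/-- upper elementary matrices -/
def u (b : R) : SL(2, R) := ⟨!![1, b; 0, 1], by simp [Matrix.det_fin_two_of]⟩
/-- lower elementary matrices -/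
def l (c : R) : SL(2, R) := ⟨!![1, 0; c, 1], by simp [Matrix.det_fin_two_of]⟩
/-- diagonal matrices -/
def h (a : Rˣ) : SL(2, R) := ⟨!![(a : R), 0; 0, ((a⁻¹ : Rˣ) : R)], by simp [Matrix.det_fin_two_of]⟩

@[simp] lemma u00 (b : R) : (u b).1 0 0 = 1 := rfl
@[simp] lemma u01 (b : R) : (u b).1 0 1 = b := rfl
@[simp] lemma u10 (b : R) : (u b).1 1 0 = 0 := rfl
@[simp] lemma u11 (b : R) : (u b).1 1 1 = 1 := rfl
@[simp] lemma l00 (c : R) : (l c).1 0 0 = 1 := rfl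
@[simp] lemma l01 (c : R) : (l c).1 0 1 = 0 := rfl
@[simp] lemma l10 (c : R) : (l c).1 1 0 = c := rfl
@[simp] lemma l11 (c : R) : (l c).1 1 1 = 1 := rfl
@[simp] lemma h00 (a : Rˣ) : (h a).1 0 0 = a := rfl
@[simp] lemma h01 (a : Rˣ) : (h a).1 0 1 = 0 := rfl
@[simp] lemma h10 (a : Rˣ) : (h a).1 1 0 = 0 := rfl
@[simp] lemma h11 (a : Rˣ) : (h a).1 1 1 = ((a⁻¹ : Rˣ) : R) := rfl

lemma mul00 (g g' : SL(2, R)) : (g * g').1 0 0 = g.1 0 0 * g'.1 0 0 + g.1 0 1 * g'.1 1 0 := by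
  simp [Matrix.mul_apply, Fin.sum_univ_two]
lemma mul01 (g g' : SL(2, R)) : (g * g').1 0 1 = g.1 0 0 * g'.1 0 1 + g.1 0 1 * g'.1 1 1 := by
  simp [Matrix.mul_apply, Fin.sum_univ_two]
lemma mul10 (g g' : SL(2, R)) : (g * g').1 1 0 = g.1 1 0 * g'.1 0 0 + g.1 1 1 * g'.1 1 0 := by
  simp [Matrix.mul_apply, Fin.sum_univ_two]
lemma mul11 (g g' : SL(2, R)) : (g * g').1 1 1 = g.1 1 0 * g'.1 0 1 + g.1 1 1 * g'.1 1 1 := by
  simp [Matrix.mul_apply, Fin.sum_univ_two]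
lemma inv00 (g : SL(2, R)) : (g⁻¹).1 0 0 = g.1 1 1 := by
  simp [Matrix.SpecialLinearGroup.coe_inv, Matrix.adjugate_fin_two]
lemma inv01 (g : SL(2, R)) : (g⁻¹).1 0 1 = - g.1 0 1 := by
  simp [Matrix.SpecialLinearGroup.coe_inv, Matrix.adjugate_fin_two]
lemma inv10 (g : SL(2, R)) : (g⁻¹).1 1 0 = - g.1 1 0 := by
  simp [Matrix.SpecialLinearGroup.coe_inv, Matrix.adjugate_fin_two]
lemma inv11 (g : SL(2, R)) : (g⁻¹).1 1 1 = g.1 0 0 := by
  simp [Matrix.SpecialLinearGroup.coe_inv, Matrix.adjugate_fin_two]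
lemma one00 : (1 : SL(2, R)).1 0 0 = 1 := by simp
lemma one01 : (1 : SL(2, R)).1 0 1 = 0 := by simp
lemma one10 : (1 : SL(2, R)).1 1 0 = 0 := by simp
lemma one11 : (1 : SL(2, R)).1 1 1 = 1 := by simp

lemma u_mul (b b' : R) : u b * u b' = u (b + b') := by
  apply sl2_ext <;> simp [mul00, mul01, mul10, mul11] <;> ring
lemma l_mul (c c' : R) : l c * l c' = l (c + c') := by
  apply sl2_ext <;> simp [mul00, mul01, mul10, mul11] <;> ring
lemma u_zero : u (0 : R) = 1 := by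
  apply sl2_ext <;> simp
lemma l_zero : l (0 : R) = 1 := by
  apply sl2_ext <;> simp
lemma u_inv (b : R) : (u b)⁻¹ = u (-b) := by
  apply inv_eq_of_mul_eq_one_right
  rw [u_mul, add_neg_cancel, u_zero]
lemma l_inv (c : R) : (l c)⁻¹ = l (-c) := by
  apply inv_eq_of_mul_eq_one_right
  rw [l_mul, add_neg_cancel, l_zero]
lemma h_inv (a : Rˣ) : (h a)⁻¹ = h a⁻¹ := by
  apply sl2_ext <;> simp [inv00, inv01, inv10, inv11]

lemma l_pow (c : R) (m : ℕ) : (l c) ^ m = l (m * c) := by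
  induction m with
  | zero => simp [l_zero]
  | succ m ih => rw [pow_succ, ih, l_mul]; congr 1; push_cast; ring

lemma comm_h_u (a : Rˣ) (b : R) : ⁅h a, u b⁆ = u (((a : R) ^ 2 - 1) * b) := by
  rw [commutatorElement_def, h_inv, u_inv]
  apply sl2_ext <;> simp [mul00, mul01, mul10, mul11] <;> ring

lemma comm_h_l (a : Rˣ) (c : R) : ⁅h a, l c⁆ = l ((((a⁻¹ : Rˣ) : R) ^ 2 - 1) * c) := by
  rw [commutatorElement_def, h_inv, l_inv]
  apply sl2_ext <;> simp [mul00, mul01, mul10, mul11] <;> ring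

lemma h_eq (a : Rˣ) (y z : R) (hyz : y * z = (a : R) - 1) :
    h a = l (-(z * ((a⁻¹ : Rˣ) : R))) * u y * l z * u (-(y * ((a⁻¹ : Rˣ) : R))) := by
  have ha : (a : R) * ((a⁻¹ : Rˣ) : R) = 1 := a.mul_inv
  have ha' : (a : R) = 1 + y * z := by rw [hyz]; ring
  apply sl2_ext <;> simp only [mul00, mul01, mul10, mul11, u00, u01, u10, u11, l00, l01, l10, l11,
    h00, h01, h10, h11]
  · rw [ha']; ring
  · linear_combination y * ha - y * ((a⁻¹ : Rˣ) : R) * ha'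
  · linear_combination z * ha - z * ((a⁻¹ : Rˣ) : R) * ha'
  · linear_combination (1 - y * z * ((a⁻¹ : Rˣ) : R)) * ha -
      ((a⁻¹ : Rˣ) : R) * (1 - y * z * ((a⁻¹ : Rˣ) : R)) * ha'

/-- Bruhat-type decomposition when the lower left entry is a unit -/
lemma decomp_c (g : SL(2, R)) (c : Rˣ) (hc : g.1 1 0 = c) :
    g = u ((g.1 0 0 - 1) * ((c⁻¹ : Rˣ) : R)) * l (c : R) * u ((g.1 1 1 - 1) * ((c⁻¹ : Rˣ) : R)) := by
  have hcc : (c : R) * ((c⁻¹ : Rˣ) : R) = 1 := c.mul_inv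
  have hd := det_eq g
  rw [hc] at hd
  apply sl2_ext <;> simp only [mul00, mul01, mul10, mul11, u00, u01, u10, u11, l00, l01, l10, l11]
  · linear_combination (1 - g.1 0 0) * hcc
  · linear_combination (-g.1 0 1 - (g.1 0 0 - 1) * (g.1 1 1 - 1) * ((c⁻¹ : Rˣ) : R)) * hcc -
      ((c⁻¹ : Rˣ) : R) * hd
  · rw [hc]; ring
  · linear_combination (1 - g.1 1 1) * hcc

/-- LDU decomposition when the upper left entry is a unit -/
lemma decomp_a (g : SL(2, R)) (a : Rˣ) (ha : g.1 0 0 = a) :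
    g = l (g.1 1 0 * ((a⁻¹ : Rˣ) : R)) * h a * u (g.1 0 1 * ((a⁻¹ : Rˣ) : R)) := by
  have haa : (a : R) * ((a⁻¹ : Rˣ) : R) = 1 := a.mul_inv
  have hd := det_eq g
  rw [ha] at hd
  apply sl2_ext <;> simp only [mul00, mul01, mul10, mul11, u00, u01, u10, u11, l00, l01, l10, l11,
    h00, h01, h10, h11]
  · rw [ha]; ring
  · linear_combination (-g.1 0 1) * haa
  · linear_combination (-g.1 1 0) * haa
  · linear_combination ((a⁻¹ : Rˣ) : R) * hd -
      (g.1 1 1 + g.1 1 0 * g.1 0 1 * ((a⁻¹ : Rˣ) : R)) * haa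
/-- a subgroup containing all elementary matrices is everything, if first columns contain units -/
lemma gen_top (K : Subgroup SL(2, R)) (hu : ∀ b, u b ∈ K) (hl : ∀ c, l c ∈ K)
    (hloc : ∀ g : SL(2, R), IsUnit (g.1 1 0) ∨ IsUnit (g.1 0 0)) : K = ⊤ := by
  have hh : ∀ a : Rˣ, h a ∈ K := by
    intro a
    rw [h_eq a 1 ((a : R) - 1) (one_mul _)]
    exact K.mul_mem (K.mul_mem (K.mul_mem (hl _) (hu _)) (hl _)) (hu _)
  rw [eq_top_iff]
  intro g _
  rcases hloc g with hc | ha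
  · obtain ⟨c, hc⟩ := hc
    rw [decomp_c g c hc.symm]
    exact K.mul_mem (K.mul_mem (hu _) (hl _)) (hu _)
  · obtain ⟨a, ha⟩ := ha
    rw [decomp_a g a ha.symm]
    exact K.mul_mem (K.mul_mem (hl _) (hh a)) (hu _)

/-- the matrices that are upper triangular modulo an ideal -/
def Hsub (I : Ideal R) : Subgroup SL(2, R) where
  carrier := {g | g.1 1 0 ∈ I}
  mul_mem' := by
    intro a b ha hb
    show (a * b).1 1 0 ∈ I
    rw [mul10]
    exact I.add_mem (I.mul_mem_right _ ha) (I.mul_mem_left _ hb)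
  one_mem' := by
    show (1 : SL(2, R)).1 1 0 ∈ I
    rw [one10]; exact I.zero_mem
  inv_mem' := by
    intro a ha
    show (a⁻¹).1 1 0 ∈ I
    rw [inv10]; exact I.neg_mem ha

lemma mem_Hsub (I : Ideal R) (g : SL(2, R)) : g ∈ Hsub I ↔ g.1 1 0 ∈ I := Iff.rfl

end ring

section group
variable {G : Type*} [Group G]

/-- the derived series of a subgroup, computed in the ambient group -/
def Dser (H : Subgroup G) : ℕ → Subgroup G
  | 0 => H
  | (m + 1) => ⁅Dser H m, Dser H m⁆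

lemma map_derivedSeries (H : Subgroup G) (m : ℕ) :
    (derivedSeries H m).map H.subtype = Dser H m := by
  induction m with
  | zero =>
    rw [derivedSeries_zero]
    show (⊤ : Subgroup H).map H.subtype = H
    rw [← MonoidHom.range_eq_map, Subgroup.range_subtype]
  | succ m ih =>
    rw [derivedSeries_succ, Subgroup.map_commutator, ih]
    rfl

lemma Dser_conj (H : Subgroup G) (m : ℕ) (x : G) (hx : x ∈ H) (y : G) (hy : y ∈ Dser H m) :
    x * y * x⁻¹ ∈ Dser H m := by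
  induction m generalizing y with
  | zero => exact H.mul_mem (H.mul_mem hx hy) (H.inv_mem hx)
  | succ m ih =>
    have hle : (Dser H m).map (MulAut.conj x).toMonoidHom ≤ Dser H m := by
      rintro _ ⟨z, hz, rfl⟩
      exact ih z hz
    have h1 : (Dser H (m + 1)).map (MulAut.conj x).toMonoidHom ≤ Dser H (m + 1) := by
      show (⁅Dser H m, Dser H m⁆).map (MulAut.conj x).toMonoidHom ≤ ⁅Dser H m, Dser H m⁆
      rw [Subgroup.map_commutator]
      exact Subgroup.commutator_mono hle hle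
    exact h1 ⟨y, hy, rfl⟩

end group


section lower
variable {R : Type*} [CommRing R]

/-- lower bound for the derived series of the triangular subgroup modulo `π` -/
theorem lower (π : R) (hU1 : ∀ e : ℕ, 1 ≤ e → ∃ a₀ : Rˣ, (a₀ : R) = 1 + π ^ e)
    (hU2 : ∀ e : ℕ, 1 ≤ e → ∃ c₀ : Rˣ, (c₀ : R) = 2 + π ^ e) (m : ℕ) :
    (∀ b, u (π ^ (2 ^ m) * b) ∈ Dser (Hsub (Ideal.span {π})) m) ∧
    (∀ c, l (π ^ (2 ^ m) * c) ∈ Dser (Hsub (Ideal.span {π})) m) ∧
    (∀ a : Rˣ, (∃ t, (a : R) = 1 + π ^ (2 ^ m) * t) → h a ∈ Dser (Hsub (Ideal.span {π})) m) := by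
  induction m with
  | zero =>
    refine ⟨fun b => ?_, fun c => ?_, fun a _ => ?_⟩
    · show u (π ^ (2 ^ 0) * b) ∈ Hsub (Ideal.span {π})
      rw [mem_Hsub, u10]; exact Ideal.zero_mem _
    · show l (π ^ (2 ^ 0) * c) ∈ Hsub (Ideal.span {π})
      rw [mem_Hsub, l10, pow_zero, pow_one]
      exact Ideal.mul_mem_right _ _ (Ideal.mem_span_singleton_self π)
    · show h a ∈ Hsub (Ideal.span {π})
      rw [mem_Hsub, h10]; exact Ideal.zero_mem _
  | succ m ih =>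
    obtain ⟨ihu, ihl, ihh⟩ := ih
    have he : 1 ≤ 2 ^ m := Nat.one_le_two_pow
    obtain ⟨a₀, ha₀⟩ := hU1 (2 ^ m) he
    obtain ⟨c₀, hc₀⟩ := hU2 (2 ^ m) he
    have hcc : (2 + π ^ (2 ^ m)) * ((c₀⁻¹ : Rˣ) : R) = 1 := by rw [← hc₀]; exact c₀.mul_inv
    have hpow : π ^ (2 ^ (m + 1)) = π ^ (2 ^ m) * π ^ (2 ^ m) := by
      rw [pow_succ, pow_mul, sq]
    have ha₀D : h a₀ ∈ Dser (Hsub (Ideal.span {π})) m := ihh a₀ ⟨1, by rw [ha₀, mul_one]⟩
    have hu' : ∀ b, u (π ^ (2 ^ (m + 1)) * b) ∈ Dser (Hsub (Ideal.span {π})) (m + 1) := by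
      intro b
      have key : u (π ^ (2 ^ (m + 1)) * b) = ⁅h a₀, u (π ^ (2 ^ m) * (((c₀⁻¹ : Rˣ) : R) * b))⁆ := by
        rw [comm_h_u, ha₀, hpow]
        congr 1
        linear_combination (-(π ^ (2 ^ m) * π ^ (2 ^ m) * b)) * hcc
      rw [key]
      exact Subgroup.commutator_mem_commutator ha₀D (ihu _)
    have hl' : ∀ c, l (π ^ (2 ^ (m + 1)) * c) ∈ Dser (Hsub (Ideal.span {π})) (m + 1) := by
      intro c
      have key : l (π ^ (2 ^ (m + 1)) * c) = ⁅h a₀⁻¹, l (π ^ (2 ^ m) * (((c₀⁻¹ : Rˣ) : R) * c))⁆ := by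
        rw [comm_h_l, inv_inv, ha₀, hpow]
        congr 1
        linear_combination (-(π ^ (2 ^ m) * π ^ (2 ^ m) * c)) * hcc
      rw [key]
      refine Subgroup.commutator_mem_commutator ?_ (ihl _)
      rw [← h_inv]
      exact Subgroup.inv_mem _ ha₀D
    refine ⟨hu', hl', ?_⟩
    rintro a ⟨t, ht⟩
    rw [hpow] at ht
    have haa : (a : R) * ((a⁻¹ : Rˣ) : R) = 1 := a.mul_inv
    have hyz : π ^ (2 ^ m) * (π ^ (2 ^ m) * t) = (a : R) - 1 := by rw [ht]; ring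
    rw [h_eq a (π ^ (2 ^ m)) (π ^ (2 ^ m) * t) hyz]
    have hgrp : ∀ x y z w : R, l x * u y * l z * u w =
        (l x * ⁅u y, l z⁆ * (l x)⁻¹) * l (x + z) * u (y + w) := by
      intro x y z w
      rw [← l_mul, ← u_mul, commutatorElement_def]
      group
    rw [hgrp]
    have hx : l (-(π ^ (2 ^ m) * t * ((a⁻¹ : Rˣ) : R))) ∈ Hsub (Ideal.span {π}) := by
      rw [mem_Hsub, l10, Ideal.mem_span_singleton]
      exact (dvd_neg.mpr (Dvd.dvd.mul_right (Dvd.dvd.mul_right (dvd_pow_self π (by omega)) _) _))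
    have h1 : ⁅u (π ^ (2 ^ m)), l (π ^ (2 ^ m) * t)⁆ ∈ Dser (Hsub (Ideal.span {π})) (m + 1) := by
      refine Subgroup.commutator_mem_commutator ?_ (ihl t)
      have := ihu 1
      rw [mul_one] at this
      exact this
    have h2 := Dser_conj (Hsub (Ideal.span {π})) (m + 1) _ hx _ h1
    have h3 : l (-(π ^ (2 ^ m) * t * ((a⁻¹ : Rˣ) : R)) + π ^ (2 ^ m) * t) ∈
        Dser (Hsub (Ideal.span {π})) (m + 1) := by
      have e : -(π ^ (2 ^ m) * t * ((a⁻¹ : Rˣ) : R)) + π ^ (2 ^ m) * t =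
          π ^ (2 ^ (m + 1)) * (π ^ (2 ^ m) * t * t * ((a⁻¹ : Rˣ) : R)) := by
        rw [hpow]
        linear_combination (-(π ^ (2 ^ m) * t)) * haa + π ^ (2 ^ m) * t * ((a⁻¹ : Rˣ) : R) * ht
      rw [e]
      exact hl' _
    have h4 : u (π ^ (2 ^ m) + -(π ^ (2 ^ m) * ((a⁻¹ : Rˣ) : R))) ∈
        Dser (Hsub (Ideal.span {π})) (m + 1) := by
      have e : π ^ (2 ^ m) + -(π ^ (2 ^ m) * ((a⁻¹ : Rˣ) : R)) =
          π ^ (2 ^ (m + 1)) * (π ^ (2 ^ m) * t * ((a⁻¹ : Rˣ) : R)) := by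
        rw [hpow]
        linear_combination (-(π ^ (2 ^ m))) * haa + π ^ (2 ^ m) * ((a⁻¹ : Rˣ) : R) * ht
      rw [e]
      exact hu' _
    exact Subgroup.mul_mem _ (Subgroup.mul_mem _ h2 h3) h4

end lower

section zmod
variable (k : ℕ)

lemma isUnit_of_not_dvd (m : ℕ) (hm : ¬ 5 ∣ m) : IsUnit (m : ZMod (5 ^ k)) := by
  rw [ZMod.isUnit_iff_coprime]
  apply Nat.Coprime.pow_right
  rw [Nat.coprime_comm, Nat.Prime.coprime_iff_not_dvd Nat.prime_five]
  exact hm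

lemma isUnit_of_not_mem (x : ZMod (5 ^ k)) (hx : x ∉ Ideal.span {(5 : ZMod (5 ^ k))}) :
    IsUnit x := by
  have hxv := ZMod.natCast_zmod_val x
  rw [← hxv]
  apply isUnit_of_not_dvd
  rintro ⟨j, hj⟩
  apply hx
  rw [Ideal.mem_span_singleton]
  refine ⟨(j : ZMod (5 ^ k)), ?_⟩
  rw [← hxv, hj]
  push_cast
  ring

lemma one_not_mem (hk : 0 < k) : (1 : ZMod (5 ^ k)) ∉ Ideal.span {(5 : ZMod (5 ^ k))} := by
  intro h
  rw [Ideal.mem_span_singleton] at h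
  obtain ⟨y, hy⟩ := h
  have h5 : IsUnit ((5 : ℕ) : ZMod (5 ^ k)) := by
    rw [Nat.cast_ofNat]
    exact IsUnit.of_mul_eq_one y hy.symm
  rw [ZMod.isUnit_iff_coprime] at h5
  have h55 : Nat.Coprime 5 5 := Nat.Coprime.coprime_dvd_right (dvd_pow_self 5 hk.ne') h5
  norm_num at h55

lemma not_isUnit_of_mem (hk : 0 < k) (x : ZMod (5 ^ k))
    (hx : x ∈ Ideal.span {(5 : ZMod (5 ^ k))}) : ¬ IsUnit x := by
  rintro ⟨w, rfl⟩
  apply one_not_mem k hk
  have := Ideal.mul_mem_right ((w⁻¹ : (ZMod (5 ^ k))ˣ) : ZMod (5 ^ k)) _ hx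
  rwa [Units.mul_inv] at this

lemma hloc (hk : 0 < k) (g : SL(2, ZMod (5 ^ k))) : IsUnit (g.1 1 0) ∨ IsUnit (g.1 0 0) := by
  by_contra hcon
  rw [not_or] at hcon
  have h1 : g.1 1 0 ∈ Ideal.span {(5 : ZMod (5 ^ k))} := by
    by_contra h; exact hcon.1 (isUnit_of_not_mem k _ h)
  have h2 : g.1 0 0 ∈ Ideal.span {(5 : ZMod (5 ^ k))} := by
    by_contra h; exact hcon.2 (isUnit_of_not_mem k _ h)
  apply one_not_mem k hk
  rw [← det_eq g]
  exact Ideal.sub_mem _ (Ideal.mul_mem_right _ _ h2) (Ideal.mul_mem_left _ _ h1)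

lemma exists_unit (m : ℕ) (hm : ¬ 5 ∣ m) : ∃ a : (ZMod (5 ^ k))ˣ, (a : ZMod (5 ^ k)) = m :=
  ⟨(isUnit_of_not_dvd k m hm).unit, IsUnit.unit_spec _⟩

lemma not_dvd_add_pow (c e : ℕ) (hc : ¬ 5 ∣ c) (he : 1 ≤ e) : ¬ 5 ∣ c + 5 ^ e := by
  intro h
  exact hc ((Nat.dvd_add_left (dvd_pow_self 5 (by omega))).mp h)

theorem perfect (hk : 0 < k) : commutator (SL(2, ZMod (5 ^ k))) = ⊤ := by
  obtain ⟨a₂, ha₂⟩ := exists_unit k 2 (by norm_num)
  obtain ⟨c₃, hc₃⟩ := exists_unit k 3 (by norm_num)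
  have h3 : (3 : ZMod (5 ^ k)) * ((c₃⁻¹ : (ZMod (5 ^ k))ˣ) : ZMod (5 ^ k)) = 1 := by
    have := c₃.mul_inv
    rw [hc₃] at this
    exact_mod_cast this
  have ha₂' : (a₂ : ZMod (5 ^ k)) = 2 := by rw [ha₂]; norm_cast
  apply gen_top _ _ _ (hloc k hk)
  · intro b
    have key : u b = ⁅h a₂, u (((c₃⁻¹ : (ZMod (5 ^ k))ˣ) : ZMod (5 ^ k)) * b)⁆ := by
      rw [comm_h_u, ha₂']
      congr 1
      linear_combination (-b) * h3
    rw [key]
    exact Subgroup.commutator_mem_commutator (Subgroup.mem_top _) (Subgroup.mem_top _)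
  · intro c
    have key : l c = ⁅h a₂⁻¹, l (((c₃⁻¹ : (ZMod (5 ^ k))ˣ) : ZMod (5 ^ k)) * c)⁆ := by
      rw [comm_h_l, inv_inv, ha₂']
      congr 1
      linear_combination (-c) * h3
    rw [key]
    exact Subgroup.commutator_mem_commutator (Subgroup.mem_top _) (Subgroup.mem_top _)

theorem maximal (hk : 0 < k) : IsCoatom (Hsub (Ideal.span {(5 : ZMod (5 ^ k))})) := by
  constructor
  · intro htop
    have h1 : l (1 : ZMod (5 ^ k)) ∈ Hsub (Ideal.span {(5 : ZMod (5 ^ k))}) := by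
      rw [htop]; exact Subgroup.mem_top _
    rw [mem_Hsub, l10] at h1
    exact one_not_mem k hk h1
  · intro K hK
    obtain ⟨g, hgK, hgH⟩ := SetLike.exists_of_lt hK
    rw [mem_Hsub] at hgH
    obtain ⟨c₀, hc₀⟩ := isUnit_of_not_mem k _ hgH
    have hu : ∀ b, u b ∈ K := by
      intro b
      apply hK.le
      rw [mem_Hsub, u10]
      exact Ideal.zero_mem _
    have hl0 : l (c₀ : ZMod (5 ^ k)) ∈ K := by
      have h1 := decomp_c g c₀ hc₀.symm
      have hX := hu ((g.1 0 0 - 1) * ((c₀⁻¹ : (ZMod (5 ^ k))ˣ) : ZMod (5 ^ k)))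
      have hY := hu ((g.1 1 1 - 1) * ((c₀⁻¹ : (ZMod (5 ^ k))ˣ) : ZMod (5 ^ k)))
      generalize u ((g.1 0 0 - 1) * ((c₀⁻¹ : (ZMod (5 ^ k))ˣ) : ZMod (5 ^ k))) = X at h1 hX
      generalize u ((g.1 1 1 - 1) * ((c₀⁻¹ : (ZMod (5 ^ k))ˣ) : ZMod (5 ^ k))) = Y at h1 hY
      have h2 : l (c₀ : ZMod (5 ^ k)) = X⁻¹ * g * Y⁻¹ := by
        rw [h1]; group
      rw [h2]
      exact K.mul_mem (K.mul_mem (K.inv_mem hX) hgK) (K.inv_mem hY)
    have hl : ∀ c, l c ∈ K := by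
      intro c
      have h1 : c = ((c * ((c₀⁻¹ : (ZMod (5 ^ k))ˣ) : ZMod (5 ^ k))).val : ZMod (5 ^ k)) * c₀ := by
        rw [ZMod.natCast_zmod_val, mul_assoc, Units.inv_mul, mul_one]
      rw [h1, ← l_pow]
      exact K.pow_mem hl0 _
    exact gen_top K hu hl (hloc k hk)

lemma isUnit00 (hk : 0 < k) (g : SL(2, ZMod (5 ^ k)))
    (hg : g ∈ Hsub (Ideal.span {(5 : ZMod (5 ^ k))})) : IsUnit (g.1 0 0) := by
  rcases hloc k hk g with h | h
  · exact absurd h (not_isUnit_of_mem k hk _ hg)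
  · exact h

/-- coordinates on the triangular subgroup -/
noncomputable def hEquiv (hk : 0 < k) : ↥(Hsub (Ideal.span {(5 : ZMod (5 ^ k))})) ≃
    (ZMod (5 ^ k))ˣ × ↥(Ideal.span {(5 : ZMod (5 ^ k))}) × ZMod (5 ^ k) where
  toFun g := ((isUnit00 k hk g.1 g.2).unit, ⟨g.1.1 1 0, g.2⟩, g.1.1 0 1)
  invFun p := ⟨⟨!![(p.1 : ZMod (5 ^ k)), p.2.2; (p.2.1 : ZMod (5 ^ k)),
      (1 + p.2.2 * p.2.1) * ((p.1⁻¹ : (ZMod (5 ^ k))ˣ) : ZMod (5 ^ k))], by
        rw [Matrix.det_fin_two_of]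
        linear_combination (1 + p.2.2 * (p.2.1 : ZMod (5 ^ k))) * p.1.mul_inv⟩, p.2.1.2⟩
  left_inv g := by
    apply Subtype.ext
    apply sl2_ext
    · show ((isUnit00 k hk g.1 g.2).unit : ZMod (5 ^ k)) = g.1.1 0 0
      exact IsUnit.unit_spec _
    · rfl
    · rfl
    · show (1 + g.1.1 0 1 * g.1.1 1 0) *
        (((isUnit00 k hk g.1 g.2).unit⁻¹ : (ZMod (5 ^ k))ˣ) : ZMod (5 ^ k)) = g.1.1 1 1
      have h1 := det_eq g.1
      have h2 : ((isUnit00 k hk g.1 g.2).unit : ZMod (5 ^ k)) = g.1.1 0 0 := IsUnit.unit_spec _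
      have h3 := (isUnit00 k hk g.1 g.2).unit.mul_inv
      rw [h2] at h3
      linear_combination (g.1.1 1 1) * h3 -
        (((isUnit00 k hk g.1 g.2).unit⁻¹ : (ZMod (5 ^ k))ˣ) : ZMod (5 ^ k)) * h1
  right_inv p := by
    refine Prod.ext (Units.ext ?_) (Prod.ext (Subtype.ext rfl) rfl)
    exact IsUnit.unit_spec _

theorem card_H (hk : 0 < k) :
    ∃ j, Nat.card (Hsub (Ideal.span {(5 : ZMod (5 ^ k))})) = 2 ^ 2 * 5 ^ j := by
  rw [Nat.card_congr (hEquiv k hk), Nat.card_prod, Nat.card_prod, Nat.card_zmod]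
  have h1 : Nat.card (ZMod (5 ^ k))ˣ = 5 ^ (k - 1) * 4 := by
    rw [Nat.card_eq_fintype_card, ZMod.card_units_eq_totient,
      Nat.totient_prime_pow Nat.prime_five hk]
  have h2 : Nat.card ↥(Ideal.span {(5 : ZMod (5 ^ k))}) ∣ 5 ^ k := by
    have := AddSubgroup.card_addSubgroup_dvd_card
      (Submodule.toAddSubgroup (Ideal.span {(5 : ZMod (5 ^ k))}))
    rw [Nat.card_zmod] at this
    exact this
  obtain ⟨j, _, hj⟩ := (Nat.dvd_prime_pow Nat.prime_five).mp h2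
  rw [h1, hj]
  exact ⟨k - 1 + j + k, by rw [pow_add, pow_add]; ring⟩

end zmod

/-- Finite perfect groups have solvable maximal subgroups of unbounded derived length: for every d there is a finite perfect group G (equal to its commutator subgroup) with a solvable maximal subgroup H whose derived length exceeds d, i.e. the d-th term of the derived series of H is non-trivial. (Take the derived subgroup of a wreath product S ≀ A₅ with S solvable of large derived length, and H the preimage of a maximal subgroup of A₅.) -/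
theorem result (d : ℕ) :
    ∃ (G : Type) (_ : Group G) (_ : Finite G) (H : Subgroup G), commutator G = ⊤ ∧ IsCoatom H ∧ Group.IsSolvable H ∧
      derivedSeries H d ≠ ⊥ := by
  have hk : 0 < 2 ^ d + 1 := Nat.succ_pos _
  refine ⟨SL(2, ZMod (5 ^ (2 ^ d + 1))), inferInstance, inferInstance,
    Hsub (Ideal.span {(5 : ZMod (5 ^ (2 ^ d + 1)))}), perfect _ hk, maximal _ hk, ?_, ?_⟩
  · obtain ⟨j, hj⟩ := card_H _ hk
    exact Cfsg.Agent.S0144.result 2 5 2 j Nat.prime_two Nat.prime_five hj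
  · intro hbot
    have hmap := map_derivedSeries (Hsub (Ideal.span {(5 : ZMod (5 ^ (2 ^ d + 1)))})) d
    rw [hbot, Subgroup.map_bot] at hmap
    have hU1 : ∀ e : ℕ, 1 ≤ e →
        ∃ a₀ : (ZMod (5 ^ (2 ^ d + 1)))ˣ, (a₀ : ZMod (5 ^ (2 ^ d + 1))) = 1 + 5 ^ e := by
      intro e he
      obtain ⟨a, ha⟩ := exists_unit (2 ^ d + 1) (1 + 5 ^ e) (not_dvd_add_pow 1 e (by norm_num) he)
      exact ⟨a, by rw [ha]; push_cast; ring⟩
    have hU2 : ∀ e : ℕ, 1 ≤ e →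
        ∃ c₀ : (ZMod (5 ^ (2 ^ d + 1)))ˣ, (c₀ : ZMod (5 ^ (2 ^ d + 1))) = 2 + 5 ^ e := by
      intro e he
      obtain ⟨a, ha⟩ := exists_unit (2 ^ d + 1) (2 + 5 ^ e) (not_dvd_add_pow 2 e (by norm_num) he)
      exact ⟨a, by rw [ha]; push_cast; ring⟩
    have hmem := (lower (5 : ZMod (5 ^ (2 ^ d + 1))) hU1 hU2 d).1 1
    rw [← hmap, Subgroup.mem_bot, mul_one] at hmem
    have h01 := congrArg (fun g : SL(2, ZMod (5 ^ (2 ^ d + 1))) => g.1 0 1) hmem
    simp only [u01, one01] at h01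
    have h5 : ((5 ^ (2 ^ d) : ℕ) : ZMod (5 ^ (2 ^ d + 1))) = 0 := by
      push_cast; exact h01
    rw [ZMod.natCast_eq_zero_iff] at h5
    have := (Nat.pow_dvd_pow_iff_le_right (by norm_num : 1 < 5)).mp h5
    omega

end Cfsg.Agent.S5896
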