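import Cfsg.Statements.S5902
-- import your own Cfsg.Agent.* helpers here

set_option autoImplicit false
open Cfsg

namespace Cfsg.Agent.S5902

open scoped Pointwise

/-- complements inside `X` from the complemented lattice of `X`. -/
lemma exists_compl_below {G : Type*} [Group G] (X : Subgroup G)
    (hK : ComplementedLattice (Subgroup X)) (Y : Subgroup G) (hY : Y ≤ X) :
    ∃ C : Subgroup G, C ≤ X ∧ Y ⊔ C = X ∧ Y ⊓ C = ⊥ := by
  obtain ⟨C', hC'⟩ := hK.exists_isCompl (Y.subgroupOf X)
  have h1 : (Y.subgroupOf X).map X.subtype = Y := Subgroup.map_subgroupOf_eq_of_le hY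
  refine ⟨C'.map X.subtype, Subgroup.map_subtype_le C', ?_, ?_⟩
  · conv_lhs => rw [← h1]
    rw [← Subgroup.map_sup, hC'.sup_eq_top, ← MonoidHom.range_eq_map, Subgroup.range_subtype]
  · conv_lhs => rw [← h1]
    rw [← Subgroup.map_inf _ _ _ X.subtype_injective, hC'.inf_eq_bot, Subgroup.map_bot]

lemma exists_compl_of_not_le {G : Type*} [Group G] [Finite G] (X M : Subgroup G)
    (hK : ComplementedLattice (Subgroup X))
    (hXM : X ≤ M) (huniq : ∀ M' : Subgroup G, IsCoatom M' → X ≤ M' → M' = M)
    (A : Subgroup G) (hA : ¬ A ≤ M) (N : Subgroup G) [N.Normal] (hNA : N ≤ A) :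
    ∃ C : Subgroup G, N ≤ C ∧ A ⊔ C = ⊤ ∧ A ⊓ C = N := by
  obtain ⟨C₀, hC₀X, hsup, hinf⟩ := exists_compl_below X hK (A ⊓ X) inf_le_right
  refine ⟨C₀ ⊔ N, le_sup_right, ?_, ?_⟩
  · by_contra hne
    obtain ⟨M', hM', hle⟩ := (eq_top_or_exists_le_coatom (A ⊔ (C₀ ⊔ N))).resolve_left hne
    have hXle : X ≤ A ⊔ (C₀ ⊔ N) := by
      rw [← hsup]
      exact sup_le (inf_le_left.trans le_sup_left) (le_sup_left.trans le_sup_right)
    have h := huniq M' hM' (hXle.trans hle)
    subst h
    exact hA (le_sup_left.trans hle)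
  · have h0 : A ⊓ C₀ = ⊥ := by
      have h : A ⊓ C₀ ≤ (A ⊓ X) ⊓ C₀ :=
        le_inf (le_inf inf_le_left (inf_le_right.trans hC₀X)) inf_le_right
      rw [hinf] at h
      exact le_bot_iff.mp h
    apply le_antisymm
    · intro x hx
      obtain ⟨hxA, hxC⟩ := hx
      have hxC' : x ∈ ((C₀ ⊔ N : Subgroup G) : Set G) := hxC
      rw [Subgroup.mul_normal] at hxC'
      obtain ⟨c, hc, n, hn, rfl⟩ := hxC'
      have hcA : c ∈ A := by
        have h := A.mul_mem hxA (A.inv_mem (hNA hn))
        simpa using h
      have hc0 : c ∈ A ⊓ C₀ := ⟨hcA, hc⟩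
      rw [h0, Subgroup.mem_bot] at hc0
      subst hc0
      simpa using hn
    · exact le_inf hNA le_sup_right

lemma exists_conj_not_le {G : Type*} [Group G] (M A : Subgroup G) (hA : ¬ A ≤ M.normalCore) :
    ∃ b : G, ¬ (MulAut.conj b).mapSubgroup A ≤ M := by
  rw [SetLike.not_le_iff_exists] at hA
  obtain ⟨a, haA, haM⟩ := hA
  have h : ∃ b : G, b * a * b⁻¹ ∉ M := by
    by_contra h
    exact haM (fun b => not_not.mp (fun hb => h ⟨b, hb⟩))
  obtain ⟨b, hb⟩ := h
  refine ⟨b, fun hle => hb (hle ?_)⟩
  exact ⟨a, haA, by simp [MulAut.conj_apply]⟩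

lemma conj_normal {G : Type*} [Group G] (N : Subgroup G) [hN : N.Normal] (b : G) :
    (MulAut.conj b).mapSubgroup N = N := by
  ext x
  constructor
  · rintro ⟨y, hy, rfl⟩
    simpa [MulAut.conj_apply] using hN.conj_mem y hy b
  · intro h
    exact ⟨b⁻¹ * x * b, by simpa using hN.conj_mem x h b⁻¹, by simp [MulAut.conj_apply, mul_assoc]⟩

/-- Let G be a finite group, X a subgroup whose own subgroup lattice is complemented, and suppose X lies in exactly one maximal subgroup M of G. Then every subgroup H of G not contained in the normal core of M has a complement in the subgroup lattice of G (some C with H ⊔ C = G and H ⊓ C = 1); in particular the subgroup lattice of G modulo the normal core of M is complemented. -/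
theorem result {G : Type*} [Group G] [Finite G] (X M : Subgroup G)
    (hK : ComplementedLattice (Subgroup X))
    (hM : IsCoatom M) (hXM : X ≤ M) (huniq : ∀ M' : Subgroup G, IsCoatom M' → X ≤ M' → M' = M) :
    (∀ H : Subgroup G, ¬ H ≤ M.normalCore → ∃ C : Subgroup G, H ⊔ C = ⊤ ∧ H ⊓ C = ⊥) ∧
    ComplementedLattice (Subgroup (G ⧸ M.normalCore)) := by
  constructor
  · intro H hH
    obtain ⟨b, hb⟩ := exists_conj_not_le M H hH
    obtain ⟨C, -, hsup, hinf⟩ := exists_compl_of_not_le X M hK hXM huniq _ hb ⊥ bot_le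
    refine ⟨(MulAut.conj b).mapSubgroup.symm C, ?_, ?_⟩
    · apply (MulAut.conj b).mapSubgroup.injective
      rw [map_sup, OrderIso.apply_symm_apply, hsup, map_top]
    · apply (MulAut.conj b).mapSubgroup.injective
      rw [map_inf, OrderIso.apply_symm_apply, hinf, map_bot]
  · refine ⟨fun Abar => ?_⟩
    have hπs : Function.Surjective (QuotientGroup.mk' M.normalCore) :=
      QuotientGroup.mk'_surjective M.normalCore
    by_cases hbot : Abar = ⊥
    · exact ⟨⊤, hbot ▸ isCompl_bot_top⟩
    · have hNA : M.normalCore ≤ Abar.comap (QuotientGroup.mk' M.normalCore) := by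
        conv_lhs => rw [← QuotientGroup.ker_mk' M.normalCore]
        exact MonoidHom.ker_le_comap _ _
      have hA : ¬ Abar.comap (QuotientGroup.mk' M.normalCore) ≤ M.normalCore := by
        intro hle
        apply hbot
        rw [← Subgroup.map_comap_eq_self_of_surjective hπs Abar, eq_bot_iff]
        refine (Subgroup.map_mono hle).trans ?_
        rw [QuotientGroup.map_mk'_self]
      obtain ⟨b, hb⟩ := exists_conj_not_le M _ hA
      have hNconj := conj_normal M.normalCore b
      obtain ⟨C, hNC, hsup, hinf⟩ := exists_compl_of_not_le X M hK hXM huniq _ hb M.normalCore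
        (by conv_lhs => rw [← hNconj]
            exact (MulAut.conj b).mapSubgroup.monotone hNA)
      have hNC' : M.normalCore ≤ (MulAut.conj b).mapSubgroup.symm C := by
        have h := (MulAut.conj b).mapSubgroup.symm.monotone hNC
        conv_lhs at h => rw [← hNconj]
        rwa [OrderIso.symm_apply_apply] at h
      have hsup' : Abar.comap (QuotientGroup.mk' M.normalCore) ⊔
          (MulAut.conj b).mapSubgroup.symm C = ⊤ := by
        apply (MulAut.conj b).mapSubgroup.injective
        rw [map_sup, OrderIso.apply_symm_apply, hsup, map_top]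
      have hinf' : Abar.comap (QuotientGroup.mk' M.normalCore) ⊓
          (MulAut.conj b).mapSubgroup.symm C = M.normalCore := by
        apply (MulAut.conj b).mapSubgroup.injective
        rw [map_inf, OrderIso.apply_symm_apply, hinf, hNconj]
      refine ⟨((MulAut.conj b).mapSubgroup.symm C).map (QuotientGroup.mk' M.normalCore), ?_⟩
      rw [isCompl_iff]
      constructor
      · rw [disjoint_iff]
        apply Subgroup.comap_injective hπs
        rw [Subgroup.comap_inf, Subgroup.comap_map_eq, QuotientGroup.ker_mk',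
          sup_eq_left.mpr hNC', hinf', MonoidHom.comap_bot, QuotientGroup.ker_mk']
      · rw [codisjoint_iff]
        conv_lhs => rw [← Subgroup.map_comap_eq_self_of_surjective hπs Abar]
        rw [← Subgroup.map_sup, hsup', Subgroup.map_top_of_surjective _ hπs]

end Cfsg.Agent.S5902
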