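import Cfsg.Statements.S5903
import Cfsg.Agent.S5901
-- import your own Cfsg.Agent.* helpers here

set_option autoImplicit false
open Cfsg

namespace Cfsg.Agent.S5903

lemma interval_compl {G : Type*} [Group G] (X N : Subgroup G) (hNX : N ≤ X)
    [(N.subgroupOf X).Normal] (hK : ComplementedLattice (Subgroup (X ⧸ N.subgroupOf X)))
    (Y : Subgroup G) (hNY : N ≤ Y) (hYX : Y ≤ X) :
    ∃ C : Subgroup G, N ≤ C ∧ C ≤ X ∧ Y ⊔ C = X ∧ Y ⊓ C = N := by
  have hπs : Function.Surjective (QuotientGroup.mk' (N.subgroupOf X)) :=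
    QuotientGroup.mk'_surjective _
  have hker : (QuotientGroup.mk' (N.subgroupOf X)).ker = N.subgroupOf X := QuotientGroup.ker_mk' _
  obtain ⟨Cb, hCb⟩ := hK.exists_isCompl ((Y.subgroupOf X).map (QuotientGroup.mk' (N.subgroupOf X)))
  have hY' : ((Y.subgroupOf X).map (QuotientGroup.mk' (N.subgroupOf X))).comap
      (QuotientGroup.mk' (N.subgroupOf X)) = Y.subgroupOf X := by
    rw [Subgroup.comap_map_eq, hker, sup_eq_left]
    exact Subgroup.subgroupOf_mono X hNY
  have hsup : Y.subgroupOf X ⊔ Cb.comap (QuotientGroup.mk' (N.subgroupOf X)) = ⊤ := by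
    conv_lhs => rw [← hY']
    rw [Subgroup.comap_sup_eq _ _ _ hπs, hCb.sup_eq_top, Subgroup.comap_top]
  have hinf : Y.subgroupOf X ⊓ Cb.comap (QuotientGroup.mk' (N.subgroupOf X)) = N.subgroupOf X := by
    conv_lhs => rw [← hY']
    rw [← Subgroup.comap_inf, hCb.inf_eq_bot, MonoidHom.comap_bot, hker]
  refine ⟨(Cb.comap (QuotientGroup.mk' (N.subgroupOf X))).map X.subtype, ?_,
    Subgroup.map_subtype_le _, ?_, ?_⟩
  · conv_lhs => rw [← Subgroup.map_subgroupOf_eq_of_le hNX]
    apply Subgroup.map_mono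
    conv_lhs => rw [← hker]
    exact MonoidHom.ker_le_comap _ _
  · conv_lhs => rw [← Subgroup.map_subgroupOf_eq_of_le hYX]
    rw [← Subgroup.map_sup, hsup, ← MonoidHom.range_eq_map, Subgroup.range_subtype]
  · conv_lhs => rw [← Subgroup.map_subgroupOf_eq_of_le hYX]
    rw [← Subgroup.map_inf _ _ _ X.subtype_injective, hinf, Subgroup.map_subgroupOf_eq_of_le hNX]

lemma le_prime_card {G : Type*} [Group G] [Finite G] (N K : Subgroup G) (hN : (Nat.card N).Prime)
    (hKN : K ≤ N) : K = ⊥ ∨ K = N := by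
  have hdvd : Nat.card K ∣ Nat.card N := Subgroup.card_dvd_of_le hKN
  rcases (Nat.dvd_prime hN).mp hdvd with h | h
  · exact Or.inl (Subgroup.eq_bot_of_card_eq K h)
  · exact Or.inr (Subgroup.eq_of_le_of_card_ge hKN h.ge)

lemma exists_good_conj {G : Type*} [Group G] [Finite G] [IsSimpleGroup G] (M N : Subgroup G)
    (hM : IsCoatom M) (hNM : N ≤ M) (hN : (Nat.card N).Prime)
    (hcen : ∀ n ∈ N, ∀ m ∈ M, m * n = n * m) (H : Subgroup G) (hbot : H ≠ ⊥) (htop : H ≠ ⊤) :
    ∃ c : G, ¬ (∀ h ∈ H, c⁻¹ * h * c ∈ M) ∧ ¬ (∀ n ∈ N, c * n * c⁻¹ ∈ H) := by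
  by_contra hcon
  have hall : ∀ c : G, (∀ h ∈ H, c⁻¹ * h * c ∈ M) ∨ (∀ n ∈ N, c * n * c⁻¹ ∈ H) := by
    intro c
    by_contra h
    exact hcon ⟨c, fun h1 => h (Or.inl h1), fun h2 => h (Or.inr h2)⟩
  have hNbot : N ≠ ⊥ := by
    intro h
    rw [h] at hN
    simp at hN
    exact Nat.not_prime_one hN
  have hNtop : N ≠ ⊤ := fun h => hM.1 (top_le_iff.mp (h ▸ hNM))
  -- the normal closure of N is everything
  have hncl : Subgroup.normalClosure (N : Set G) = ⊤ := by
    rcases IsSimpleGroup.eq_bot_or_eq_top_of_normal (Subgroup.normalClosure (N : Set G))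
      Subgroup.normalClosure_normal with h | h
    · exact absurd (le_bot_iff.mp (h ▸ Subgroup.le_normalClosure)) hNbot
    · exact h
  set S : Set G := {x | ∃ c : G, ¬ (∀ n ∈ N, c * n * c⁻¹ ∈ H) ∧ ∃ n ∈ N, x = c * n * c⁻¹} with hS
  have hScent : S ⊆ Subgroup.centralizer (H : Set G) := by
    rintro x ⟨c, hc, n, hn, rfl⟩
    have hM' := (hall c).resolve_right hc
    rw [SetLike.mem_coe, Subgroup.mem_centralizer_iff]
    intro h hh
    have h1 := hcen n hn _ (hM' h hh)
    calc h * (c * n * c⁻¹) = c * ((c⁻¹ * h * c) * n) * c⁻¹ := by group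
      _ = c * (n * (c⁻¹ * h * c)) * c⁻¹ := by rw [h1]
      _ = c * n * c⁻¹ * h := by group
  have hEcent : Subgroup.closure S ≤ Subgroup.centralizer (H : Set G) :=
    (Subgroup.closure_le _).mpr hScent
  have hHcent : H ≤ Subgroup.centralizer (Subgroup.closure S : Set G) :=
    Subgroup.le_centralizer_iff.mpr hEcent
  have hnorm : Subgroup.normalizer (Subgroup.closure S : Set G) = ⊤ := by
    rw [eq_top_iff, ← hncl, Subgroup.normalClosure, Subgroup.closure_le]
    intro x hx
    rw [Group.mem_conjugatesOfSet_iff] at hx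
    obtain ⟨n, hn, hconj⟩ := hx
    rw [isConj_iff] at hconj
    obtain ⟨c, rfl⟩ := hconj
    by_cases hc : ∀ n ∈ N, c * n * c⁻¹ ∈ H
    · exact Subgroup.centralizer_le_normalizer _ (hHcent (hc n hn))
    · exact Subgroup.le_normalizer (Subgroup.subset_closure ⟨c, hc, n, hn, rfl⟩)
  have hEnormal : (Subgroup.closure S).Normal := Subgroup.normalizer_eq_top_iff.mp hnorm
  rcases IsSimpleGroup.eq_bot_or_eq_top_of_normal (Subgroup.closure S) hEnormal with hE | hE
  · -- all conjugates of N lie in H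
    apply htop
    rw [eq_top_iff, ← hncl, Subgroup.normalClosure, Subgroup.closure_le]
    intro x hx
    rw [Group.mem_conjugatesOfSet_iff] at hx
    obtain ⟨n, hn, hconj⟩ := hx
    rw [isConj_iff] at hconj
    obtain ⟨c, rfl⟩ := hconj
    by_contra hxH
    have hc : ¬ (∀ n ∈ N, c * n * c⁻¹ ∈ H) := fun h => hxH (h n hn)
    obtain ⟨n', hn', hn'1⟩ : ∃ n' ∈ N, n' ≠ 1 := by
      by_contra h
      apply hNbot
      rw [eq_bot_iff]
      intro y hy
      by_contra hy1
      exact h ⟨y, hy, hy1⟩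
    have hmem : c * n' * c⁻¹ ∈ Subgroup.closure S := Subgroup.subset_closure ⟨c, hc, n', hn', rfl⟩
    rw [hE, Subgroup.mem_bot] at hmem
    apply hn'1
    have : n' = c⁻¹ * (c * n' * c⁻¹) * c := by group
    rw [this, hmem]
    group
  · -- H is central
    have hHc : H ≤ Subgroup.center G := by
      rw [← Subgroup.centralizer_univ]
      have : (Subgroup.closure S : Set G) = Set.univ := by rw [hE]; rfl
      rw [← this]
      exact hHcent
    rcases IsSimpleGroup.eq_bot_or_eq_top_of_normal (Subgroup.center G) inferInstance with hZ | hZ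
    · exact hbot (le_bot_iff.mp (hZ ▸ hHc))
    · -- G commutative, N normal
      have hNn : N.Normal := by
        refine ⟨fun n hn g => ?_⟩
        have hg : g ∈ Subgroup.center G := hZ ▸ Subgroup.mem_top g
        rw [Subgroup.mem_center_iff] at hg
        have : g * n * g⁻¹ = n := by rw [← hg n]; group
        rw [this]; exact hn
      rcases IsSimpleGroup.eq_bot_or_eq_top_of_normal N hNn with h | h
      · exact hNbot h
      · exact hNtop h

/-- Let G be a finite simple group, X a subgroup lying in exactly one maximal subgroup M of G, and N a subgroup of prime order with N ≤ X that is central in M. If the subgroup lattice of X/N is complemented, then the subgroup lattice of G is complemented. -/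
theorem result {G : Type*} [Group G] [Finite G] [IsSimpleGroup G] (X M N : Subgroup G)
    (hM : IsCoatom M) (hXM : X ≤ M) (huniq : ∀ M' : Subgroup G, IsCoatom M' → X ≤ M' → M' = M)
    (hNX : N ≤ X) (hN : (Nat.card N).Prime) (hcen : ∀ n ∈ N, ∀ m ∈ M, m * n = n * m)
    [(N.subgroupOf X).Normal] (hK : ComplementedLattice (Subgroup (X ⧸ N.subgroupOf X))) :
    ComplementedLattice (Subgroup G) := by
  refine ⟨fun H => ?_⟩
  by_cases hbot : H = ⊥
  · exact ⟨⊤, hbot ▸ isCompl_bot_top⟩
  by_cases htop : H = ⊤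
  · exact ⟨⊥, htop ▸ isCompl_top_bot⟩
  obtain ⟨c, hc1, hc2⟩ := exists_good_conj M N hM (hNX.trans hXM) hN hcen H hbot htop
  have hXtop : X ≠ ⊤ := fun h => hM.1 (top_le_iff.mp (h ▸ hXM))
  have h1 : ¬ (MulAut.conj c⁻¹).mapSubgroup H ≤ M := by
    intro hle
    apply hc1
    intro h hh
    apply hle
    exact ⟨h, hh, by simp⟩
  have h2 : (MulAut.conj c⁻¹).mapSubgroup H ⊓ N = ⊥ := by
    rcases le_prime_card N _ hN (inf_le_right : (MulAut.conj c⁻¹).mapSubgroup H ⊓ N ≤ N) with h | h
    · exact h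
    · exfalso
      apply hc2
      intro n hn
      have hn' : n ∈ (MulAut.conj c⁻¹).mapSubgroup H := (inf_eq_right.mp h) hn
      obtain ⟨h', hh', rfl⟩ := hn'
      have : c * (MulAut.conj c⁻¹) h' * c⁻¹ = h' := by simp; group
      have e : c * (((MulAut.conj c⁻¹ : MulAut G) : G →* G) h') * c⁻¹ = h' := this
      rw [e]; exact hh'
  obtain ⟨C, hsup, hinf⟩ := Cfsg.Agent.S5901.result N X M hNX hXtop
    (fun Y hNY hYX => interval_compl X N hNX hK Y hNY hYX) hM hXM huniq _ h1 h2
  refine ⟨(MulAut.conj c⁻¹).mapSubgroup.symm C, ?_⟩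
  rw [isCompl_iff, disjoint_iff, codisjoint_iff]
  constructor
  · apply (MulAut.conj c⁻¹).mapSubgroup.injective
    rw [map_inf, OrderIso.apply_symm_apply, hinf, map_bot]
  · apply (MulAut.conj c⁻¹).mapSubgroup.injective
    rw [map_sup, OrderIso.apply_symm_apply, hsup, map_top]

end Cfsg.Agent.S5903
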