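import Cfsg.Statements.S5904
-- import your own Cfsg.Agent.* helpers here


set_option autoImplicit false
open scoped Pointwise
open Cfsg

namespace Cfsg.Agent.S5904

/-- Let Ω be a finite set with more than two elements and O ⊆ Ω a subset with exactly as many elements as its complement. Then the setwise stabilizer of O in the symmetric group on Ω is not a maximal subgroup (it is properly contained in the stabilizer of the partition {O, Ω ∖ O}, which is proper). -/
theorem result {Ω : Type*} [Fintype Ω] [DecidableEq Ω] (hΩ : 2 < Fintype.card Ω)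
    (O : Set Ω) (hO : Nat.card O = Nat.card ↥Oᶜ) :
    ¬ IsCoatom (MulAction.stabilizer (Equiv.Perm Ω) O) := by
  classical
  intro hco
  have hcard : Nat.card O + Nat.card ↥Oᶜ = Fintype.card Ω := by
    rw [Nat.card_coe_set_eq, Nat.card_coe_set_eq, Set.ncard_add_ncard_compl,
      Nat.card_eq_fintype_card]
  have hO2 : 1 < O.ncard := by rw [← Nat.card_coe_set_eq]; omega
  have hOc2 : 1 < Oᶜ.ncard := by rw [← Nat.card_coe_set_eq]; omega
  obtain ⟨x, hx, x', hx', hxx'⟩ := (Set.one_lt_ncard).mp hO2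
  obtain ⟨y, hy, -⟩ := (Set.one_lt_ncard).mp hOc2
  have hle : MulAction.stabilizer (Equiv.Perm Ω) O ≤
      MulAction.stabilizer (Equiv.Perm Ω) ({O, Oᶜ} : Set (Set Ω)) := by
    intro g hg
    rw [MulAction.mem_stabilizer_iff] at hg ⊢
    rw [Set.smul_set_insert, Set.smul_set_singleton, Set.smul_set_compl, hg]
  have hBtop : MulAction.stabilizer (Equiv.Perm Ω) ({O, Oᶜ} : Set (Set Ω)) ≠ ⊤ := by
    intro h
    have hs : Equiv.swap x y ∈ MulAction.stabilizer (Equiv.Perm Ω) ({O, Oᶜ} : Set (Set Ω)) :=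
      h ▸ Subgroup.mem_top _
    rw [MulAction.mem_stabilizer_iff] at hs
    have hmem : Equiv.swap x y • O ∈ ({O, Oᶜ} : Set (Set Ω)) := by
      have h0 : Equiv.swap x y • O ∈ Equiv.swap x y • ({O, Oᶜ} : Set (Set Ω)) :=
        Set.smul_mem_smul_set (Set.mem_insert _ _)
      rwa [hs] at h0
    have hy' : y ∈ Equiv.swap x y • O := ⟨x, hx, by simp⟩
    have hx'' : x' ∈ Equiv.swap x y • O :=
      ⟨x', hx', by
        have h1 : x' ≠ x := hxx'.symm
        have h2 : x' ≠ y := fun h => hy (h ▸ hx')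
        simp [Equiv.swap_apply_of_ne_of_ne h1 h2]⟩
    rcases hmem with h1 | h1
    · rw [h1] at hy'; exact hy hy'
    · rw [Set.mem_singleton_iff] at h1; rw [h1] at hx''; exact hx'' hx'
  have hlt : MulAction.stabilizer (Equiv.Perm Ω) O <
      MulAction.stabilizer (Equiv.Perm Ω) ({O, Oᶜ} : Set (Set Ω)) := by
    refine lt_of_le_of_ne hle ?_
    intro heq
    obtain ⟨e⟩ := Finite.card_eq.mp hO
    have hgO : (e.extendSubtype : Equiv.Perm Ω) • O = Oᶜ := by
      apply Set.eq_of_subset_of_ncard_le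
      · rintro _ ⟨z, hz, rfl⟩
        have : e.extendSubtype z = e ⟨z, hz⟩ := Equiv.extendSubtype_apply_of_mem e z hz
        show e.extendSubtype z ∈ Oᶜ
        rw [this]
        exact (e ⟨z, hz⟩).2
      · rw [Set.ncard_smul_set, ← Nat.card_coe_set_eq, ← Nat.card_coe_set_eq, hO]
      · exact Set.toFinite _
    have hgB : (e.extendSubtype : Equiv.Perm Ω) ∈
        MulAction.stabilizer (Equiv.Perm Ω) ({O, Oᶜ} : Set (Set Ω)) := by
      rw [MulAction.mem_stabilizer_iff, Set.smul_set_insert, Set.smul_set_singleton,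
        Set.smul_set_compl, hgO, compl_compl, Set.pair_comm]
    rw [← heq, MulAction.mem_stabilizer_iff, hgO] at hgB
    have hxc : x ∈ Oᶜ := (Set.ext_iff.mp hgB x).mpr hx
    exact hxc hx
  exact hBtop (hco.2 _ hlt)

end Cfsg.Agent.S5904
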