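import Cfsg.Statements.S5908
import Cfsg.Agent.S0827

set_option autoImplicit false
open Cfsg

namespace Cfsg.Agent.S5908

section Helpers

/-- the centre `{1, a 2}` of the quaternion group -/
def K2 : Subgroup (QuaternionGroup 2) where
  carrier := {y | y = 1 ∨ y = QuaternionGroup.a 2}
  mul_mem' := by
    rintro _ _ (rfl | rfl) (rfl | rfl) <;> decide
  one_mem' := Or.inl rfl
  inv_mem' := by
    rintro _ (rfl | rfl) <;> decide

theorem mem_K2 (y : QuaternionGroup 2) : y ∈ K2 ↔ y = 1 ∨ y = QuaternionGroup.a 2 := Iff.rfl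

theorem key : ∀ y : QuaternionGroup 2, y ≠ 1 → y = QuaternionGroup.a 2 ∨ y * y = QuaternionGroup.a 2 := by
  decide

theorem a1_not : ¬ ((QuaternionGroup.a 1 : QuaternionGroup 2) = 1 ∨
    (QuaternionGroup.a 1 : QuaternionGroup 2) = QuaternionGroup.a 2) := by decide

theorem a2_ne : (QuaternionGroup.a 2 : QuaternionGroup 2) ≠ 1 := by decide

theorem not_complemented {G : Type*} [Group G] (ψ : G →* QuaternionGroup 2)
    (hψ : Function.Surjective ψ) : ¬ ComplementedLattice (Subgroup G) := by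
  intro hc
  obtain ⟨X, hX⟩ := hc.exists_isCompl (K2.comap ψ)
  have hinf : K2.comap ψ ⊓ X = ⊥ := hX.inf_eq_bot
  have hsup : K2.comap ψ ⊔ X = ⊤ := hX.sup_eq_top
  have hXne : X ≠ ⊥ := by
    rintro rfl
    rw [sup_bot_eq] at hsup
    obtain ⟨g, hg⟩ := hψ (QuaternionGroup.a 1)
    have hmem : g ∈ K2.comap ψ := hsup ▸ Subgroup.mem_top g
    rw [Subgroup.mem_comap, hg, mem_K2] at hmem
    exact a1_not hmem
  obtain ⟨x, hx1⟩ := (Subgroup.ne_bot_iff_exists_ne_one).mp hXne
  have hbot : ∀ y : G, y ∈ X → ψ y ∈ K2 → y = 1 := by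
    intro y hy hyK
    have : y ∈ K2.comap ψ ⊓ X := ⟨hyK, hy⟩
    rw [hinf] at this
    exact Subgroup.mem_bot.mp this
  have hx1' : (x : G) ≠ 1 := fun h => hx1 (Subtype.ext h)
  have hψx : ψ x ≠ 1 := by
    intro h
    exact hx1' (hbot x x.2 (by rw [h]; exact K2.one_mem))
  rcases key (ψ x) hψx with h | h
  · exact hx1' (hbot x x.2 (by rw [h]; exact Or.inr rfl))
  · have h2 : (x : G) * x = 1 := hbot _ (X.mul_mem x.2 x.2) (by rw [map_mul, h]; exact Or.inr rfl)
    rw [← map_mul, h2, map_one] at h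
    exact a2_ne h.symm

end Helpers

/-- The subgroup lattice of PSU₃(2) (the solvable group of order 72, realised over the field with 4 elements) is not complemented: some subgroup H has no subgroup X with H ⊔ X = ⊤ and H ⊓ X = ⊥. -/
theorem result {F : Type*} [Field F] [Fintype F] (hF : Fintype.card F = 4) :
    ¬ ComplementedLattice (Subgroup (Cfsg.PSU 3 F 2)) := by
  obtain ⟨N, hN, -, -, ⟨e⟩⟩ := Cfsg.Agent.S0827.result hF
  exact not_complemented (e.toMonoidHom.comp (QuotientGroup.mk' N))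
    (e.surjective.comp (QuotientGroup.mk'_surjective N))

end Cfsg.Agent.S5908
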