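import Cfsg.Statements.S5909
import Cfsg.Agent.Lib.Helper98.Wreath
import Cfsg.Agent.Lib.Helper98.Coatom
-- import your own Cfsg.Agent.* helpers here

set_option autoImplicit false
set_option linter.style.haveILetI false
set_option linter.unusedSectionVars false
open Cfsg

namespace Cfsg.Agent.S5909

open Cfsg.Agent.Lib.Helper98.Wreath Cfsg.Agent.Lib.Helper98.Coatom
open scoped Pointwise
open MulAction

section

variable {Ω : Type*} [Fintype Ω] [DecidableEq Ω] {b : ℕ}

/-- the even part of the wreath product -/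
def Y (f : Ω → Fin b) : Subgroup (Equiv.Perm Ω) := W f ⊓ alternatingGroup Ω

lemma exists_label (s : Finset (Fin b)) (hs : s.card < b) : ∃ i, i ∉ s := by
  by_contra hcon
  have h1 : s = Finset.univ := by
    ext i
    simp only [Finset.mem_univ, iff_true]
    by_contra hi
    exact hcon ⟨i, hi⟩
  rw [h1, Finset.card_univ, Fintype.card_fin] at hs
  exact lt_irrefl _ hs

lemma exists_pair (f : Ω → Fin b) (a : ℕ) (ha : 2 ≤ a)
    (hf : ∀ i : Fin b, Nat.card {x : Ω // f x = i} = a) (i : Fin b) :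
    ∃ u u', u ≠ u' ∧ f u = i ∧ f u' = i := by
  have h0 : 1 < Nat.card {x : Ω // f x = i} := by rw [hf]; omega
  rw [Finite.one_lt_card_iff_nontrivial] at h0
  obtain ⟨⟨x, hx⟩, ⟨x', hx'⟩, hxx'⟩ := h0
  exact ⟨x, x', fun h => hxx' (Subtype.ext h), hx, hx'⟩

lemma exists_triple (f : Ω → Fin b) (a : ℕ) (ha : 3 ≤ a)
    (hf : ∀ i : Fin b, Nat.card {x : Ω // f x = i} = a) (i : Fin b) :
    ∃ c1 c2 c3, c1 ≠ c2 ∧ c1 ≠ c3 ∧ c2 ≠ c3 ∧ f c1 = i ∧ f c2 = i ∧ f c3 = i := by
  have h0 : 2 < (Finset.univ.filter (fun x => f x = i)).card := by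
    have h1 := hf i
    rw [Nat.card_eq_fintype_card, Fintype.card_subtype] at h1
    omega
  obtain ⟨c1, c2, c3, h1, h2, h3, h12, h13, h23⟩ := Finset.two_lt_card_iff.mp h0
  simp only [Finset.mem_filter, Finset.mem_univ, true_and] at h1 h2 h3
  exact ⟨c1, c2, c3, h12, h13, h23, h1, h2, h3⟩

lemma exists_pair_ne (f : Ω → Fin b) (a : ℕ) (ha : 3 ≤ a)
    (hf : ∀ i : Fin b, Nat.card {x : Ω // f x = i} = a) (x : Ω) (i : Fin b) :
    ∃ u u', u ≠ u' ∧ f u = i ∧ f u' = i ∧ x ≠ u ∧ x ≠ u' := by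
  obtain ⟨c1, c2, c3, h12, h13, h23, h1, h2, h3⟩ := exists_triple f a ha hf i
  by_cases hc1 : x = c1
  · exact ⟨c2, c3, h23, h2, h3, fun h => h12 (hc1.symm.trans h), fun h => h13 (hc1.symm.trans h)⟩
  · by_cases hc2 : x = c2
    · exact ⟨c1, c3, h13, h1, h3, hc1, fun h => h23 (hc2.symm.trans h)⟩
    · exact ⟨c1, c2, h12, h1, h2, hc1, hc2⟩

lemma evenize (f : Ω → Fin b) {h : Equiv.Perm Ω} (hh : h ∈ W f) {u u' : Ω} (huu : u ≠ u')
    (hfu : f u = f u') : ∃ h' ∈ Y f, ∀ z, z ≠ u → z ≠ u' → h' z = h z := by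
  by_cases hs : Equiv.Perm.sign h = 1
  · exact ⟨h, Subgroup.mem_inf.mpr ⟨hh, Equiv.Perm.mem_alternatingGroup.mpr hs⟩, fun _ _ _ => rfl⟩
  · have hs' : Equiv.Perm.sign h = -1 := (Int.units_eq_one_or _).resolve_left hs
    refine ⟨h * Equiv.swap u u', Subgroup.mem_inf.mpr ⟨(W f).mul_mem hh (swap_mem_W hfu), ?_⟩, ?_⟩
    · rw [Equiv.Perm.mem_alternatingGroup, map_mul, hs', Equiv.Perm.sign_swap huu]
      simp
    · intro z hz hz'
      rw [Equiv.Perm.mul_apply, Equiv.swap_apply_of_ne_of_ne hz hz']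

lemma T1 (f : Ω → Fin b) (a : ℕ) (ha : 2 ≤ a) (hb : 2 ≤ b)
    (hf : ∀ i : Fin b, Nat.card {x : Ω // f x = i} = a) (x y : Ω) : ∃ h ∈ Y f, h x = y := by
  obtain ⟨h, hh, hxy⟩ := exists_mem_W_map f a hf x y
  obtain ⟨i, hi⟩ := exists_label ({f x} : Finset (Fin b)) (by rw [Finset.card_singleton]; omega)
  rw [Finset.mem_singleton] at hi
  obtain ⟨u, u', huu, hu, hu'⟩ := exists_pair f a ha hf i
  obtain ⟨h', hh', hz⟩ := evenize f hh huu (hu.trans hu'.symm)
  refine ⟨h', hh', ?_⟩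
  rw [hz x (fun e => hi (by rw [e]; exact hu.symm)) (fun e => hi (by rw [e]; exact hu'.symm)), hxy]

lemma T2 (f : Ω → Fin b) (a : ℕ) (ha : 2 ≤ a) (hab : 3 ≤ a ∨ 3 ≤ b)
    (hf : ∀ i : Fin b, Nat.card {x : Ω // f x = i} = a) {x y y' : Ω}
    (hy : f y ≠ f x) (hy' : f y' ≠ f x) : ∃ h ∈ Y f, h x = x ∧ h y = y' := by
  obtain ⟨h, hh, h1, h2⟩ := exists_mem_W_fix_map f a hf hy hy'
  obtain ⟨u, u', huu, hfu, hxu, hxu', hyu, hyu'⟩ :
      ∃ u u', u ≠ u' ∧ f u = f u' ∧ x ≠ u ∧ x ≠ u' ∧ y ≠ u ∧ y ≠ u' := by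
    rcases hab with h3 | h3
    · obtain ⟨u, u', huu, hu, hu', hxu, hxu'⟩ := exists_pair_ne f a h3 hf x (f x)
      exact ⟨u, u', huu, hu.trans hu'.symm, hxu, hxu',
        fun e => hy (by rw [e]; exact hu), fun e => hy (by rw [e]; exact hu')⟩
    · obtain ⟨i, hi⟩ := exists_label ({f x, f y} : Finset (Fin b))
        (lt_of_le_of_lt Finset.card_le_two (by omega))
      simp only [Finset.mem_insert, Finset.mem_singleton, not_or] at hi
      obtain ⟨u, u', huu, hu, hu'⟩ := exists_pair f a ha hf i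
      exact ⟨u, u', huu, hu.trans hu'.symm,
        fun e => hi.1 (by rw [e]; exact hu.symm), fun e => hi.1 (by rw [e]; exact hu'.symm),
        fun e => hi.2 (by rw [e]; exact hu.symm), fun e => hi.2 (by rw [e]; exact hu'.symm)⟩
  obtain ⟨h', hh', hz⟩ := evenize f hh huu hfu
  exact ⟨h', hh', by rw [hz x hxu hxu', h1], by rw [hz y hyu hyu', h2]⟩

lemma T3 (f : Ω → Fin b) (a : ℕ) (ha : 2 ≤ a) (hb : 2 ≤ b)
    (hf : ∀ i : Fin b, Nat.card {x : Ω // f x = i} = a) {x y y' : Ω}
    (hy : f y = f x) (hy' : f y' = f x) (hyx : y ≠ x) (hy'x : y' ≠ x) :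
    ∃ h ∈ Y f, h x = x ∧ h y = y' := by
  obtain ⟨i, hi⟩ := exists_label ({f x} : Finset (Fin b)) (by rw [Finset.card_singleton]; omega)
  rw [Finset.mem_singleton] at hi
  obtain ⟨u, u', huu, hu, hu'⟩ := exists_pair f a ha hf i
  have hs : Equiv.swap y y' ∈ W f := swap_mem_W (hy.trans hy'.symm)
  obtain ⟨h', hh', hz⟩ := evenize f hs huu (hu.trans hu'.symm)
  have hxu : x ≠ u := fun e => hi (by rw [e]; exact hu.symm)
  have hxu' : x ≠ u' := fun e => hi (by rw [e]; exact hu'.symm)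
  have hyu : y ≠ u := fun e => hi (by rw [← hy, e]; exact hu.symm)
  have hyu' : y ≠ u' := fun e => hi (by rw [← hy, e]; exact hu'.symm)
  refine ⟨h', hh', ?_, ?_⟩
  · rw [hz x hxu hxu', Equiv.swap_apply_of_ne_of_ne hyx.symm hy'x.symm]
  · rw [hz y hyu hyu', Equiv.swap_apply_left]

/-- a subgroup `X` not contained in `W f` but containing a subgroup `Y'` of `W f` with enough
transitivity is primitive -/
theorem isPreprimitive_of_props (f : Ω → Fin b) (Y' X : Subgroup (Equiv.Perm Ω))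
    (hYW : Y' ≤ W f) (hYX : Y' ≤ X) (hXW : ¬ X ≤ W f)
    (t1 : ∀ x y, ∃ h ∈ Y', h x = y)
    (t2 : ∀ x y y', f y ≠ f x → f y' ≠ f x → ∃ h ∈ Y', h x = x ∧ h y = y')
    (t3 : ∀ x y y', f y = f x → f y' = f x → y ≠ x → y' ≠ x → ∃ h ∈ Y', h x = x ∧ h y = y') :
    IsPreprimitive X Ω := by
  have htrans : IsPretransitive X Ω := by
    refine ⟨fun x y => ?_⟩
    obtain ⟨h, hh, hxy⟩ := t1 x y
    exact ⟨⟨h, hYX hh⟩, hxy⟩
  refine { toIsPretransitive := htrans, isTrivialBlock_of_isBlock := ?_ }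
  intro B hB
  by_contra hBt
  have hBsub : ¬ B.Subsingleton := fun h => hBt (Or.inl h)
  have hBuniv : B ≠ Set.univ := fun h => hBt (Or.inr h)
  rw [Set.not_subsingleton_iff] at hBsub
  obtain ⟨x, hx, y, hy, hxy⟩ := hBsub
  have hfix : ∀ (h : Equiv.Perm Ω), h ∈ X → ∀ p ∈ B, h p = p → ∀ q ∈ B, h q ∈ B := by
    intro h hh p hp hpp q hq
    have h1 : (⟨h, hh⟩ : X) • B = B :=
      hB.smul_eq_of_mem (g := (⟨h, hh⟩ : X)) hp (by show h p ∈ B; rw [hpp]; exact hp)
    rw [← h1]
    exact ⟨q, hq, rfl⟩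
  by_cases hcase : ∃ z ∈ B, f z ≠ f x
  · obtain ⟨z, hz, hzx⟩ := hcase
    apply hBuniv
    have helper : ∀ p ∈ B, ∀ q ∈ B, f q ≠ f p → ∀ q', f q' ≠ f p → q' ∈ B := by
      intro p hp q hq hqp q' hq'p
      obtain ⟨h, hh, h1, h2⟩ := t2 p q q' hqp hq'p
      rw [← h2]
      exact hfix h (hYX hh) p hp h1 q hq
    rw [Set.eq_univ_iff_forall]
    intro w
    by_cases hw : f w = f x
    · exact helper z hz x hx (Ne.symm hzx) w (by rw [hw]; exact Ne.symm hzx)
    · exact helper x hx z hz hzx w hw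
  · have hBf : ∀ z ∈ B, f z = f x := fun z hz => not_not.mp (fun h => hcase ⟨z, hz, h⟩)
    have hfB : ∀ y', f y' = f x → y' ∈ B := by
      intro y' hy'
      by_cases h1 : y' = x
      · rw [h1]; exact hx
      obtain ⟨h, hh, hhx, hhy⟩ := t3 x y y' (hBf y hy) hy' (Ne.symm hxy) h1
      rw [← hhy]
      exact hfix h (hYX hh) x hx hhx y hy
    have hstep : ∀ g ∈ X, ∀ u v, f u = f v → f (g u) = f (g v) := by
      intro g hg u v huv
      obtain ⟨w, hw, hwx⟩ := t1 x u
      obtain ⟨w₂, hw₂, hw₂x⟩ := t1 x (g u)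
      have hv : w⁻¹ v ∈ B := by
        apply hfB
        have h1 := (mem_W.mp (hYW hw)) (w⁻¹ v) x
        rw [h1, hwx]
        simp [huv]
      have hne : (((⟨g * w, X.mul_mem hg (hYX hw)⟩ : X) • B) ∩
          ((⟨w₂, hYX hw₂⟩ : X) • B)).Nonempty := by
        refine ⟨g u, ⟨x, hx, ?_⟩, ⟨x, hx, hw₂x⟩⟩
        show (g * w) x = g u
        rw [Equiv.Perm.mul_apply, hwx]
      have heq := hB.smul_eq_smul_of_nonempty hne
      have hgv : g v ∈ (⟨w₂, hYX hw₂⟩ : X) • B := by
        rw [← heq]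
        refine ⟨w⁻¹ v, hv, ?_⟩
        show (g * w) (w⁻¹ v) = g v
        simp
      obtain ⟨p, hp, hpv⟩ := hgv
      have hpv' : w₂ p = g v := hpv
      rw [← hpv', ← hw₂x]
      exact ((mem_W.mp (hYW hw₂)) x p).mp (hBf p hp).symm
    apply hXW
    intro g hg
    rw [mem_W]
    intro u v
    refine ⟨hstep g hg u v, fun h => ?_⟩
    have h1 := hstep g⁻¹ (X.inv_mem hg) (g u) (g v) h
    simpa using h1

lemma double_swap_mem_Y (f : Ω → Fin b) {x x' y y' : Ω} (hx : x ≠ x') (hy : y ≠ y')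
    (hfx : f x = f x') (hfy : f y = f y') : Equiv.swap x x' * Equiv.swap y y' ∈ Y f := by
  refine Subgroup.mem_inf.mpr ⟨(W f).mul_mem (swap_mem_W hfx) (swap_mem_W hfy), ?_⟩
  rw [Equiv.Perm.mem_alternatingGroup, map_mul, Equiv.Perm.sign_swap hx, Equiv.Perm.sign_swap hy]
  simp

/-- with at least five blocks, a subgroup containing `Y f` and not contained in `W f`
contains a 3-cycle -/
lemma exists_threeCycle_of_five (f : Ω → Fin b) (a : ℕ) (ha : 2 ≤ a) (hb : 5 ≤ b)
    (hf : ∀ i : Fin b, Nat.card {x : Ω // f x = i} = a) (L : Subgroup (Equiv.Perm Ω))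
    (hYL : Y f ≤ L) (hLW : ¬ L ≤ W f) : ∃ c ∈ L, Equiv.Perm.IsThreeCycle c := by
  -- an element of `L` separating two points of a block
  obtain ⟨g, hgL, p, p', hpp, hgp⟩ :
      ∃ g ∈ L, ∃ p p', f p = f p' ∧ f (g p) ≠ f (g p') := by
    obtain ⟨g, hgL, hgW⟩ := SetLike.not_le_iff_exists.mp hLW
    rw [mem_W] at hgW
    have hgW' : ∃ x y, ¬ (f x = f y ↔ f (g x) = f (g y)) := by
      by_contra hcon
      exact hgW (fun x y => not_not.mp (fun h => hcon ⟨x, y, h⟩))
    obtain ⟨x, y, hxy⟩ := hgW'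
    by_cases h1 : f x = f y
    · exact ⟨g, hgL, x, y, h1, fun h2 => hxy ⟨fun _ => h2, fun _ => h1⟩⟩
    · have h2 : f (g x) = f (g y) := by
        by_contra h2
        exact hxy ⟨fun h => absurd h h1, fun h => absurd h h2⟩
      refine ⟨g⁻¹, L.inv_mem hgL, g x, g y, h2, ?_⟩
      simpa using h1
  set q := g p with hq
  set r := g p' with hr
  have hqr : q ≠ r := fun h => hgp (by rw [h])
  have hpp' : p ≠ p' := fun h => hqr (by rw [hq, hr, h])
  -- the mate of q
  obtain ⟨q', hq'q, hfq'⟩ : ∃ q', q' ≠ q ∧ f q' = f q := by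
    obtain ⟨u, u', huu, hu, hu'⟩ := exists_pair f a ha hf (f q)
    by_cases h : u = q
    · exact ⟨u', fun h' => huu (h.trans h'.symm), hu'⟩
    · exact ⟨u, h, hu⟩
  have hq'r : q' ≠ r := fun h => hgp (by rw [← h]; exact hfq'.symm)
  -- a block avoiding p and the preimage of q'
  obtain ⟨i, hi⟩ := exists_label ({f p, f (g⁻¹ q')} : Finset (Fin b))
    (lt_of_le_of_lt Finset.card_le_two (by omega))
  simp only [Finset.mem_insert, Finset.mem_singleton, not_or] at hi
  obtain ⟨k, k', hkk, hk, hk'⟩ := exists_pair f a ha hf i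
  set u := g k with hu
  set v := g k' with hv
  have huv : u ≠ v := fun h => hkk (g.injective h)
  have hkp : k ≠ p := fun h => hi.1 (by rw [← hk, h])
  have hkp' : k ≠ p' := fun h => hi.1 (by rw [← hk, h, hpp])
  have hk'p : k' ≠ p := fun h => hi.1 (by rw [← hk', h])
  have hk'p' : k' ≠ p' := fun h => hi.1 (by rw [← hk', h, hpp])
  have huq : u ≠ q := fun h => hkp (g.injective h)
  have hur : u ≠ r := fun h => hkp' (g.injective h)
  have hvq : v ≠ q := fun h => hk'p (g.injective h)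
  have hvr : v ≠ r := fun h => hk'p' (g.injective h)
  have huq' : u ≠ q' := fun h => hi.2 (by rw [← hk, ← h, hu]; simp)
  have hvq' : v ≠ q' := fun h => hi.2 (by rw [← hk', ← h, hv]; simp)
  -- a block avoiding everything
  obtain ⟨j, hj⟩ := exists_label ({f q, f r, f u, f v} : Finset (Fin b))
    (lt_of_le_of_lt Finset.card_le_four (by omega))
  simp only [Finset.mem_insert, Finset.mem_singleton, not_or] at hj
  obtain ⟨e, e', hee, he, he'⟩ := exists_pair f a ha hf j
  have heq : e ≠ q := fun h => hj.1 (by rw [← he, h])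
  have heq' : e ≠ q' := fun h => hj.1 (by rw [← he, h, hfq'])
  have her : e ≠ r := fun h => hj.2.1 (by rw [← he, h])
  have heu : e ≠ u := fun h => hj.2.2.1 (by rw [← he, h])
  have hev : e ≠ v := fun h => hj.2.2.2 (by rw [← he, h])
  have he'q : e' ≠ q := fun h => hj.1 (by rw [← he', h])
  have he'q' : e' ≠ q' := fun h => hj.1 (by rw [← he', h, hfq'])
  have he'r : e' ≠ r := fun h => hj.2.1 (by rw [← he', h])
  have he'u : e' ≠ u := fun h => hj.2.2.1 (by rw [← he', h])
  have he'v : e' ≠ v := fun h => hj.2.2.2 (by rw [← he', h])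
  -- the two double transpositions
  have ht : Equiv.swap p p' * Equiv.swap k k' ∈ L :=
    hYL (double_swap_mem_Y f hpp' hkk hpp (hk.trans hk'.symm))
  have hs : Equiv.swap q r * Equiv.swap u v ∈ L := by
    have h1 : Equiv.swap q r * Equiv.swap u v =
        g * (Equiv.swap p p' * Equiv.swap k k') * g⁻¹ := by
      rw [hq, hr, hu, hv, Equiv.swap_apply_apply, Equiv.swap_apply_apply]
      group
    rw [h1]
    exact L.mul_mem (L.mul_mem hgL ht) (L.inv_mem hgL)
  have ht' : Equiv.swap q q' * Equiv.swap e e' ∈ L :=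
    hYL (double_swap_mem_Y f (Ne.symm hq'q) hee hfq'.symm (he.trans he'.symm))
  set s := Equiv.swap q r * Equiv.swap u v with hs_def
  have hsq : s q = r := by
    rw [hs_def, Equiv.Perm.mul_apply, Equiv.swap_apply_of_ne_of_ne (Ne.symm huq) (Ne.symm hvq),
      Equiv.swap_apply_left]
  have hsq' : s q' = q' := by
    rw [hs_def, Equiv.Perm.mul_apply, Equiv.swap_apply_of_ne_of_ne (Ne.symm huq') (Ne.symm hvq'),
      Equiv.swap_apply_of_ne_of_ne hq'q hq'r]
  have hse : s e = e := by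
    rw [hs_def, Equiv.Perm.mul_apply, Equiv.swap_apply_of_ne_of_ne heu hev,
      Equiv.swap_apply_of_ne_of_ne heq her]
  have hse' : s e' = e' := by
    rw [hs_def, Equiv.Perm.mul_apply, Equiv.swap_apply_of_ne_of_ne he'u he'v,
      Equiv.swap_apply_of_ne_of_ne he'q he'r]
  refine ⟨s * (Equiv.swap q q' * Equiv.swap e e') * s⁻¹ * (Equiv.swap q q' * Equiv.swap e e')⁻¹,
    L.mul_mem (L.mul_mem (L.mul_mem hs ht') (L.inv_mem hs)) (L.inv_mem ht'), ?_⟩
  have h1 : s * (Equiv.swap q q' * Equiv.swap e e') * s⁻¹ =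
      Equiv.swap (s q) (s q') * Equiv.swap (s e) (s e') := by
    rw [Equiv.swap_apply_apply, Equiv.swap_apply_apply]
    group
  have h2 : (Equiv.swap q q' * Equiv.swap e e')⁻¹ = Equiv.swap e e' * Equiv.swap q q' := by
    rw [mul_inv_rev, Equiv.swap_inv, Equiv.swap_inv]
  rw [h1, h2, hsq, hsq', hse, hse', mul_assoc, ← mul_assoc (Equiv.swap e e'), Equiv.swap_mul_self,
    one_mul, Equiv.swap_comm r q', Equiv.swap_comm q q']
  exact Equiv.Perm.isThreeCycle_swap_mul_swap_same hq'r hq'q (Ne.symm hqr)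

/-- a proper subgroup of a finite simple group has large index -/
lemma eq_top_of_index_factorial_lt {G : Type*} [Group G] [Finite G] [IsSimpleGroup G]
    (H : Subgroup G) (h : H.index.factorial < Nat.card G) : H = ⊤ := by
  have hn : H.normalCore.Normal := inferInstance
  rcases hn.eq_bot_or_eq_top with h0 | h1
  · exfalso
    have hinj : Function.Injective (MulAction.toPermHom G (G ⧸ H)) := by
      rw [← MonoidHom.ker_eq_bot_iff, ← Subgroup.normalCore_eq_ker]; exact h0
    have h2 := Nat.card_le_card_of_injective _ hinj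
    rw [Nat.card_perm, ← Subgroup.index_eq_card] at h2
    omega
  · rw [eq_top_iff, ← h1]; exact Subgroup.normalCore_le H

lemma card_eq (f : Ω → Fin b) (a : ℕ) (hf : ∀ i : Fin b, Nat.card {x : Ω // f x = i} = a) :
    Nat.card Ω = b * a := by
  rw [Nat.card_congr (Equiv.sigmaFiberEquiv f).symm, Nat.card_sigma]
  simp only [hf, Finset.sum_const, Finset.card_univ, Fintype.card_fin, smul_eq_mul]

lemma card_Y_eq (f : Ω → Fin b) (a : ℕ) (ha : 2 ≤ a) (hb : 2 ≤ b)
    (hf : ∀ i : Fin b, Nat.card {x : Ω // f x = i} = a) (x : Ω) :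
    Nat.card (Y f) = Nat.card Ω * Nat.card (stabilizer (Y f) x) := by
  haveI : IsPretransitive (Y f) Ω := ⟨fun x y => by
    obtain ⟨h, hh, hxy⟩ := T1 f a ha hb hf x y
    exact ⟨⟨h, hh⟩, hxy⟩⟩
  rw [← MulAction.index_stabilizer_of_transitive (Y f) x, Subgroup.index_mul_card]

lemma card_stab_dvd (f : Ω → Fin b) (a : ℕ) (ha : 2 ≤ a) (hab : 3 ≤ a ∨ 3 ≤ b)
    (hf : ∀ i : Fin b, Nat.card {x : Ω // f x = i} = a) (x y : Ω) (hy : f y ≠ f x) :
    Nat.card {y' : Ω // f y' ≠ f x} ∣ Nat.card (stabilizer (Y f) x) := by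
  have horb : orbit (stabilizer (Y f) x) y = {y' | f y' ≠ f x} := by
    ext y'
    constructor
    · rintro ⟨z, rfl⟩
      have hzW : ((z : Y f) : Equiv.Perm Ω) ∈ W f := (Subgroup.mem_inf.mp (z : Y f).2).1
      have hzx : ((z : Y f) : Equiv.Perm Ω) x = x := z.2
      intro h
      apply hy
      exact (mem_W.mp hzW y x).mpr (by rw [hzx]; exact h)
    · intro hy'
      obtain ⟨h, hh, h1, h2⟩ := T2 f a ha hab hf hy hy'
      exact ⟨⟨⟨h, hh⟩, h1⟩, h2⟩
  have h1 := MulAction.index_stabilizer (stabilizer (Y f) x) y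
  rw [horb, ← Nat.card_coe_set_eq] at h1
  have h2 := Subgroup.index_dvd_card (stabilizer (stabilizer (Y f) x) y)
  rw [h1] at h2
  exact h2

lemma card_compl (f : Ω → Fin b) (a : ℕ) (hf : ∀ i : Fin b, Nat.card {x : Ω // f x = i} = a)
    (x : Ω) : Nat.card {y' : Ω // f y' ≠ f x} + a = Nat.card Ω := by
  have h := Nat.card_congr (Equiv.sumCompl (fun y' : Ω => f y' = f x))
  rw [Nat.card_sum, hf] at h
  show Nat.card {y' : Ω // ¬ f y' = f x} + a = Nat.card Ω
  omega

lemma order_case (f : Ω → Fin b) (hb : b = 2 ∨ b = 3)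
    (hf : ∀ i : Fin b, Nat.card {x : Ω // f x = i} = 2)
    (L : Subgroup (Equiv.Perm Ω)) (hYL : Y f ≤ L) (hLA : L ≤ alternatingGroup Ω)
    (hLY : ¬ L ≤ Y f) : alternatingGroup Ω ≤ L := by
  have hΩ : Nat.card Ω = b * 2 := card_eq f 2 hf
  have hb2 : 2 ≤ b := by omega
  haveI : Nontrivial Ω := by
    rw [← Finite.one_lt_card_iff_nontrivial, hΩ]; omega
  have hA : 2 * Nat.card (alternatingGroup Ω) = (b * 2).factorial := by
    rw [two_mul_nat_card_alternatingGroup, Nat.card_perm, hΩ]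
  obtain ⟨x⟩ : Nonempty Ω := inferInstance
  have hYX : Nat.card (Y f) ∣ Nat.card L := Subgroup.card_dvd_of_le hYL
  have hXA : Nat.card L ∣ Nat.card (alternatingGroup Ω) := Subgroup.card_dvd_of_le hLA
  have hne : Nat.card (Y f) ≠ Nat.card L := by
    intro h
    apply hLY
    rw [Subgroup.eq_of_le_of_card_ge hYL (le_of_eq h.symm)]
  have hLpos : 0 < Nat.card L := Nat.card_pos
  have hYpos : 0 < Nat.card (Y f) := Nat.card_pos
  have h2Y : 2 * Nat.card (Y f) ≤ Nat.card L := by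
    obtain ⟨j, hj⟩ := hYX
    have hj2 : 2 ≤ j := by
      rcases j with _ | _ | j
      · simp at hj; omega
      · simp at hj; omega
      · omega
    rw [hj, mul_comm]; exact Nat.mul_le_mul_left _ hj2
  have hYeq := card_Y_eq f 2 (le_refl 2) hb2 hf x
  have hSpos : 0 < Nat.card (stabilizer (Y f) x) := Nat.card_pos
  rcases hb with rfl | rfl
  · -- four points
    have hA12 : Nat.card (alternatingGroup Ω) = 12 := by
      have h24 : (2 * 2).factorial = 24 := by decide
      omega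
    rw [hA12] at hXA
    have h4 : 4 ≤ Nat.card (Y f) := by
      rw [hYeq, hΩ]
      omega
    have hle : Nat.card L ≤ 12 := Nat.le_of_dvd (by norm_num) hXA
    have hL12 : Nat.card L = 12 := by
      obtain ⟨c, hc⟩ : ∃ c, c = Nat.card L := ⟨_, rfl⟩
      rw [← hc] at hXA hle h2Y ⊢
      interval_cases c <;> omega
    apply le_of_eq
    exact (Subgroup.eq_of_le_of_card_ge hLA (by rw [hA12, hL12])).symm
  · -- six points
    have hA360 : Nat.card (alternatingGroup Ω) = 360 := by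
      have h720 : (3 * 2).factorial = 720 := by decide
      omega
    obtain ⟨y, hy⟩ : ∃ y, f y ≠ f x := by
      obtain ⟨i, hi⟩ := exists_label ({f x} : Finset (Fin 3))
        (by rw [Finset.card_singleton]; omega)
      rw [Finset.mem_singleton] at hi
      obtain ⟨u, u', -, hu, -⟩ := exists_pair f 2 (le_refl 2) hf i
      exact ⟨u, by rw [hu]; exact hi⟩
    have h4 : Nat.card {y' : Ω // f y' ≠ f x} = 4 := by
      have h5 := card_compl f 2 hf x
      omega
    have hst := card_stab_dvd f 2 (le_refl 2) (Or.inr (le_refl 3)) hf x y hy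
    rw [h4] at hst
    have h24 : 24 ∣ Nat.card (Y f) := by
      rw [hYeq, hΩ]
      obtain ⟨c, hc⟩ := hst
      rw [hc]
      exact ⟨c, by ring⟩
    obtain ⟨j, hj⟩ := dvd_trans h24 hYX
    rw [hA360] at hXA
    have h48 : 48 ≤ Nat.card L := by
      have h5 := Nat.le_of_dvd hYpos h24
      omega
    have hj15 : j ∣ 15 := by
      rw [hj] at hXA
      exact Nat.dvd_of_mul_dvd_mul_left (by norm_num : 0 < 24) hXA
    have hj2 : 2 ≤ j := by omega
    have hjle : j ≤ 15 := Nat.le_of_dvd (by norm_num) hj15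
    have hidx : (L.subgroupOf (alternatingGroup Ω)).index * Nat.card L = 360 := by
      rw [← hA360, ← Subgroup.index_mul_card (L.subgroupOf (alternatingGroup Ω))]
      congr 1
      exact (Nat.card_congr (Subgroup.subgroupOfEquivOfLe hLA).toEquiv).symm
    haveI : IsSimpleGroup (alternatingGroup Ω) :=
      alternatingGroup.isSimpleGroup (by rw [hΩ]; norm_num)
    have htop : L.subgroupOf (alternatingGroup Ω) = ⊤ := by
      apply eq_top_of_index_factorial_lt
      rw [hA360]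
      generalize (L.subgroupOf (alternatingGroup Ω)).index = k at hidx
      rw [hj] at hidx
      interval_cases j <;> first
        | omega
        | (have hk : k = 5 := by omega
           subst hk; decide)
        | (have hk : k = 3 := by omega
           subst hk; decide)
        | (have hk : k = 1 := by omega
           subst hk; decide)
    exact Subgroup.subgroupOf_eq_top.mp htop

end

/-- Let Ω be a finite set whose size is not 8, and f : Ω → Fin b a labelling with b ≥ 2 whose fibres all have the same size a ≥ 2 (a partition into b blocks of size a). Then the even permutations preserving the partition — the intersection of the imprimitive wreath product S_a ≀ S_b with the alternating group — form a maximal subgroup of the alternating group on Ω. -/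
theorem result {Ω : Type*} [Fintype Ω] [DecidableEq Ω] (h8 : Fintype.card Ω ≠ 8) (a b : ℕ) (ha : 2 ≤ a) (hb : 2 ≤ b)
    (f : Ω → Fin b) (hf : ∀ i : Fin b, Nat.card {x : Ω // f x = i} = a) :
    IsCoatom ((Subgroup.closure {g : Equiv.Perm Ω | ∀ x y : Ω, f x = f y ↔ f (g x) = f (g y)} ⊓ alternatingGroup Ω).subgroupOf (alternatingGroup Ω)) := by
  rw [closure_eq_W]
  have hΩ : Nat.card Ω = b * a := card_eq f a hf
  have h8' : b * a ≠ 8 := by rw [← hΩ, Nat.card_eq_fintype_card]; exact h8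
  apply isCoatom_subgroupOf_of (inf_le_right : W f ⊓ alternatingGroup Ω ≤ alternatingGroup Ω)
  · intro hle
    obtain ⟨x, x', hxx, hx, hx'⟩ := exists_pair f a ha hf ⟨0, by omega⟩
    obtain ⟨z, z', hzz, hz, hz'⟩ := exists_pair f a ha hf ⟨1, by omega⟩
    have h01 : (⟨0, by omega⟩ : Fin b) ≠ ⟨1, by omega⟩ := by
      intro h
      have h1 := congrArg Fin.val h
      simp at h1
    have hxz : x ≠ z := fun h => h01 (by rw [← hx, ← hz, h])
    have hxz' : x ≠ z' := fun h => h01 (by rw [← hx, ← hz', h])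
    have hx'z : x' ≠ z := fun h => h01 (by rw [← hx', ← hz, h])
    have hx'z' : x' ≠ z' := fun h => h01 (by rw [← hx', ← hz', h])
    have hc : Equiv.swap x z * Equiv.swap x z' ∈ alternatingGroup Ω :=
      (Equiv.Perm.isThreeCycle_swap_mul_swap_same hxz hxz' hzz).mem_alternatingGroup
    have hcW := (Subgroup.mem_inf.mp (hle hc)).1
    have h1 := (mem_W.mp hcW x x').mp (hx.trans hx'.symm)
    rw [Equiv.Perm.mul_apply, Equiv.Perm.mul_apply, Equiv.swap_apply_left,
      Equiv.swap_apply_of_ne_of_ne (Ne.symm hxz') (Ne.symm hzz),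
      Equiv.swap_apply_of_ne_of_ne (Ne.symm hxx) hx'z',
      Equiv.swap_apply_of_ne_of_ne (Ne.symm hxx) hx'z] at h1
    exact h01 (by rw [← hx', ← h1, hz'])
  · intro L hYL hLA hLY
    have hLW : ¬ L ≤ W f := fun h => hLY (le_inf h hLA)
    by_cases hcase : 3 ≤ a ∨ 5 ≤ b
    · have hprim : IsPreprimitive L Ω := isPreprimitive_of_props f (Y f) L inf_le_left hYL hLW
        (T1 f a ha hb hf) (fun x y y' => T2 f a ha (by omega) hf)
        (fun x y y' => T3 f a ha hb hf)
      obtain ⟨c, hc, hc3⟩ : ∃ c ∈ L, Equiv.Perm.IsThreeCycle c := by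
        rcases hcase with h3 | h5
        · obtain ⟨c1, c2, c3, h12, h13, h23, h1, h2, h3'⟩ :=
            exists_triple f a h3 hf ⟨0, by omega⟩
          have h3c := Equiv.Perm.isThreeCycle_swap_mul_swap_same h12 h13 h23
          exact ⟨_, hYL (Subgroup.mem_inf.mpr ⟨(W f).mul_mem (swap_mem_W (h1.trans h2.symm))
            (swap_mem_W (h1.trans h3'.symm)), h3c.mem_alternatingGroup⟩), h3c⟩
        · exact exists_threeCycle_of_five f a ha h5 hf L hYL hLW
      exact Equiv.Perm.alternatingGroup_le_of_isPreprimitive_of_isThreeCycle_mem hprim hc3 hc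
    · have ha2 : a = 2 := by omega
      subst ha2
      have hb23 : b = 2 ∨ b = 3 := by omega
      exact order_case f hb23 hf L hYL hLA hLY

end Cfsg.Agent.S5909
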