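import Cfsg.Statements.S5910
import Cfsg.Agent.Lib.Helper98.Wreath
import Cfsg.Agent.Lib.Helper98.Coatom
import Cfsg.Agent.Lib.Helper98.AffModel
-- import your own Cfsg.Agent.* helpers here

set_option autoImplicit false
set_option linter.style.haveILetI false
set_option linter.unusedSectionVars false
open Cfsg

namespace Cfsg.Agent.S5910

open Cfsg.Agent.Lib.Helper98.Wreath Cfsg.Agent.Lib.Helper98.Coatom
open Cfsg.Agent.Lib.Helper98.AffModel

/-- an even permutation of the model preserving the fibres of the first projection is affine -/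
lemma M1 (g : Equiv.Perm M) (hW : ∀ p q : M, p.1 = q.1 ↔ (g p).1 = (g q).1)
    (hs : Equiv.Perm.sign g = 1) : g ∈ X₀ := by
  have hπinj : Function.Injective (fun v : L => (g (v, 0)).1) := by
    intro v v' h
    exact (hW (v, 0) (v', 0)).mpr h
  let π : Equiv.Perm L :=
    Equiv.ofBijective _ ⟨hπinj, Finite.surjective_of_injective hπinj⟩
  have hfst : ∀ (v : L) (z : ZMod 2), (g (v, z)).1 = π v :=
    fun v z => (hW (v, z) (v, 0)).mp rfl
  have hσinj : ∀ v : L, Function.Injective (fun z : ZMod 2 => (g (v, z)).2) := by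
    intro v z z' h
    have h1 : g (v, z) = g (v, z') := Prod.ext ((hfst v z).trans (hfst v z').symm) h
    have h2 := g.injective h1
    exact (Prod.mk.inj h2).2
  let σ : L → Equiv.Perm (ZMod 2) := fun v =>
    Equiv.ofBijective _ ⟨hσinj v, Finite.surjective_of_injective (hσinj v)⟩
  have hg : g = build π σ := by
    apply Equiv.ext
    rintro ⟨v, z⟩
    exact Prod.ext (hfst v z) rfl
  rw [hg] at hs ⊢
  rw [sign_build] at hs
  have hbin := dec_lemma π σ hs
  have h2 : ∀ x : M, x + x = 0 := by decide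
  rw [mem_X₀]
  intro a b c
  have e1 := hbin (a + b) c
  have e2 := hbin a b
  have e1' : build π σ (a + b + c) = build π σ (a + b) + build π σ c + build π σ 0 := by
    calc build π σ (a + b + c)
        = build π σ (a + b + c) + (build π σ 0 + build π σ 0) := by rw [h2, add_zero]
      _ = (build π σ (a + b + c) + build π σ 0) + build π σ 0 := (add_assoc _ _ _).symm
      _ = build π σ (a + b) + build π σ c + build π σ 0 := by rw [e1]
  have e2' : build π σ (a + b) = build π σ a + build π σ b + build π σ 0 := by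
    calc build π σ (a + b)
        = build π σ (a + b) + (build π σ 0 + build π σ 0) := by rw [h2, add_zero]
      _ = (build π σ (a + b) + build π σ 0) + build π σ 0 := (add_assoc _ _ _).symm
      _ = build π σ a + build π σ b + build π σ 0 := by rw [e2]
  rw [e1', e2']
  calc build π σ a + build π σ b + build π σ 0 + build π σ c + build π σ 0
      = build π σ a + build π σ b + build π σ c + (build π σ 0 + build π σ 0) := by abel
    _ = build π σ a + build π σ b + build π σ c := by rw [h2, add_zero]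

/-- an even affine permutation not preserving the fibres -/
def g₀ : Equiv.Perm M :=
  Equiv.swap ((1, 0), 0) ((0, 0), 1) * Equiv.swap ((1, 1), 0) ((0, 1), 1)

/-- an even permutation which is not affine -/
def c₀ : Equiv.Perm M :=
  Equiv.swap ((0, 0), 0) ((1, 0), 0) * Equiv.swap ((0, 0), 0) ((0, 1), 0)

lemma g₀_mem : g₀ ∈ X₀ := by
  rw [mem_X₀]
  decide

lemma g₀_sign : Equiv.Perm.sign g₀ = 1 := by
  rw [g₀, map_mul, Equiv.Perm.sign_swap (by decide), Equiv.Perm.sign_swap (by decide)]
  rfl

lemma g₀_not : ¬ ∀ p q : M, p.1 = q.1 ↔ (g₀ p).1 = (g₀ q).1 := by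
  decide

lemma c₀_sign : Equiv.Perm.sign c₀ = 1 := by
  rw [c₀, map_mul, Equiv.Perm.sign_swap (by decide), Equiv.Perm.sign_swap (by decide)]
  rfl

lemma c₀_not_mem : c₀ ∉ X₀ := by
  rw [mem_X₀]
  decide

lemma exists_equiv {Ω : Type*} [Fintype Ω] [DecidableEq Ω] (f : Ω → Fin 4)
    (hf : ∀ i : Fin 4, Nat.card {x : Ω // f x = i} = 2) :
    ∃ e : Ω ≃ M, ∀ x y, f x = f y ↔ (e x).1 = (e y).1 := by
  have he : ∀ i, Nonempty ({x // f x = i} ≃ ZMod 2) := fun i =>
    Finite.card_eq.mp (by rw [hf i, Nat.card_zmod])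
  obtain ⟨lam⟩ : Nonempty (Fin 4 ≃ L) :=
    Finite.card_eq.mp (by rw [Nat.card_prod, Nat.card_zmod, Nat.card_fin])
  let e : Ω ≃ M := (Equiv.sigmaFiberEquiv f).symm.trans
    ((Equiv.sigmaCongrRight (fun i => (he i).some)).trans
      ((Equiv.sigmaEquivProd (Fin 4) (ZMod 2)).trans (Equiv.prodCongr lam (Equiv.refl _))))
  refine ⟨e, fun x y => ?_⟩
  have h1 : ∀ x, (e x).1 = lam (f x) := fun x => rfl
  rw [h1, h1, lam.injective.eq_iff]

/-- Let Ω be a set with 8 elements and f : Ω → Fin 4 a labelling whose four fibres all have size 2 (a partition of the 8 points into 4 pairs). Then the group of even permutations preserving this partition, (S₂ ≀ S₄) ∩ A₈, is not a maximal subgroup of the alternating group A₈ (it lies in a subgroup isomorphic to the affine group AGL₃(2)). -/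
theorem result {Ω : Type*} [Fintype Ω] [DecidableEq Ω] (h8 : Fintype.card Ω = 8)
    (f : Ω → Fin 4) (hf : ∀ i : Fin 4, Nat.card {x : Ω // f x = i} = 2) :
    ¬ IsCoatom ((Subgroup.closure {g : Equiv.Perm Ω | ∀ x y : Ω, f x = f y ↔ f (g x) = f (g y)} ⊓ alternatingGroup Ω).subgroupOf (alternatingGroup Ω)) := by
  rw [closure_eq_W]
  intro hmax
  obtain ⟨e, he⟩ := exists_equiv f hf
  let X : Subgroup (Equiv.Perm Ω) :=
    (X₀.comap (e.permCongrHom : Equiv.Perm Ω ≃* Equiv.Perm M).toMonoidHom) ⊓ alternatingGroup Ω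
  have hmemX : ∀ g : Equiv.Perm Ω, g ∈ X ↔ e.permCongr g ∈ X₀ ∧ Equiv.Perm.sign g = 1 := by
    intro g
    rw [Subgroup.mem_inf, Subgroup.mem_comap, Equiv.Perm.mem_alternatingGroup]
    rfl
  have hround : ∀ g₁ : Equiv.Perm M, e.permCongr (e.symm.permCongr g₁) = g₁ := by
    intro g₁
    apply Equiv.ext
    intro x
    simp [Equiv.permCongr_apply]
  have hYX : W f ⊓ alternatingGroup Ω ≤ X := by
    intro g hg
    obtain ⟨hgW, hgA⟩ := Subgroup.mem_inf.mp hg
    rw [Equiv.Perm.mem_alternatingGroup] at hgA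
    rw [hmemX]
    refine ⟨M1 _ ?_ (by rw [Equiv.Perm.sign_permCongr]; exact hgA), hgA⟩
    intro p q
    rw [Equiv.permCongr_apply, Equiv.permCongr_apply, ← he, ← (mem_W.mp hgW), he,
      Equiv.apply_symm_apply, Equiv.apply_symm_apply]
  have hXA : X ≤ alternatingGroup Ω := inf_le_right
  have hXY : ¬ X ≤ W f ⊓ alternatingGroup Ω := by
    intro hle
    have hg : e.symm.permCongr g₀ ∈ X := by
      rw [hmemX]
      refine ⟨?_, by rw [Equiv.Perm.sign_permCongr]; exact g₀_sign⟩
      rw [hround]
      exact g₀_mem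
    have hgW := (Subgroup.mem_inf.mp (hle hg)).1
    apply g₀_not
    intro p q
    have h := mem_W.mp hgW (e.symm p) (e.symm q)
    rw [he, he] at h
    simp only [Equiv.permCongr_apply, Equiv.symm_symm, Equiv.apply_symm_apply] at h
    exact h
  have hAX := le_of_isCoatom_subgroupOf hmax hYX hXA hXY
  have hc : e.symm.permCongr c₀ ∈ alternatingGroup Ω := by
    rw [Equiv.Perm.mem_alternatingGroup, Equiv.Perm.sign_permCongr]
    exact c₀_sign
  have hcX := (hmemX _).mp (hAX hc)
  apply c₀_not_mem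
  rw [← hround c₀]
  exact hcX.1

end Cfsg.Agent.S5910
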