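import Cfsg.Statements.S5911
-- import your own Cfsg.Agent.* helpers here

set_option autoImplicit false
set_option linter.style.haveILetI false
set_option linter.unusedSectionVars false
open Cfsg

namespace Cfsg.Agent.S5911

open Equiv Equiv.Perm

section arith

lemma arith_A : ∀ j : ℕ, 2 ≤ j →
    2 ^ (j + 2) * (j + 2).factorial < (2 * j + 2).factorial * 2 := by
  intro j hj
  induction j, hj using Nat.le_induction with
  | base => decide
  | succ j hj ih =>
    have h1 : (2 * (j + 1) + 2).factorial =
        (2 * j + 4) * ((2 * j + 3) * (2 * j + 2).factorial) := by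
      have h : 2 * (j + 1) + 2 = (2 * j + 2) + 1 + 1 := by ring
      rw [h, Nat.factorial_succ, Nat.factorial_succ]
    have h2 : (j + 1 + 2).factorial = (j + 3) * (j + 2).factorial := by
      have h : j + 1 + 2 = (j + 2) + 1 := by ring
      rw [h, Nat.factorial_succ]
    rw [h1, h2, pow_succ]
    have h3 : 2 * (j + 3) ≤ (2 * j + 4) * (2 * j + 3) := by nlinarith
    calc 2 ^ (j + 2) * 2 * ((j + 3) * (j + 2).factorial)
        = 2 * (j + 3) * (2 ^ (j + 2) * (j + 2).factorial) := by ring
      _ < 2 * (j + 3) * ((2 * j + 2).factorial * 2) :=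
          (Nat.mul_lt_mul_left (by omega)).mpr ih
      _ ≤ (2 * j + 4) * (2 * j + 3) * ((2 * j + 2).factorial * 2) :=
          Nat.mul_le_mul_right _ h3
      _ = (2 * j + 4) * ((2 * j + 3) * (2 * j + 2).factorial) * 2 := by ring

lemma arith (m j : ℕ) (h5 : 5 ≤ m + 2 * j + 4) (h6 : m + 2 * j + 4 ≠ 6) :
    m.factorial * 2 ^ (j + 2) * (j + 2).factorial < (m + 2 * j + 2).factorial * 2 := by
  have hm : 0 < m.factorial := Nat.factorial_pos m
  rcases j with _ | _ | j
  · have hm1 : 1 ≤ m := by omega
    show m.factorial * 2 ^ 2 * (2).factorial < (m + 2).factorial * 2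
    have h1 : (m + 2).factorial = (m + 2) * ((m + 1) * m.factorial) := by
      rw [Nat.factorial_succ, Nat.factorial_succ]
    have h6' : 6 ≤ (m + 2) * (m + 1) := by nlinarith
    have h2 : (2 : ℕ).factorial = 2 := rfl
    rw [h1, h2]
    have h3 := Nat.mul_le_mul_right m.factorial h6'
    nlinarith
  · have hm1 : 1 ≤ m := by omega
    show m.factorial * 2 ^ 3 * (3).factorial < (m + 4).factorial * 2
    have h1 : (m + 4).factorial = (m + 4) * ((m + 3) * ((m + 2) * ((m + 1) * m.factorial))) := by
      rw [Nat.factorial_succ, Nat.factorial_succ, Nat.factorial_succ, Nat.factorial_succ]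
    have h20 : 20 ≤ (m + 4) * (m + 3) := by nlinarith
    have h6' : 6 ≤ (m + 2) * (m + 1) := by nlinarith
    have h120 : 120 ≤ (m + 4) * (m + 3) * ((m + 2) * (m + 1)) := by
      have := Nat.mul_le_mul h20 h6'
      omega
    have h2 : (3 : ℕ).factorial = 6 := rfl
    rw [h1, h2]
    have h3 := Nat.mul_le_mul_right m.factorial h120
    nlinarith
  · have hA := arith_A (j + 2) (by omega)
    have hle : m.factorial * (2 * (j + 2) + 2).factorial ≤ (m + (2 * (j + 2) + 2)).factorial :=
      Nat.le_of_dvd (Nat.factorial_pos _) (Nat.factorial_mul_factorial_dvd_factorial_add _ _)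
    have h1 : m + 2 * (j + 1 + 1) + 2 = m + (2 * (j + 2) + 2) := by ring
    rw [h1]
    calc m.factorial * 2 ^ (j + 1 + 1 + 2) * (j + 1 + 1 + 2).factorial
        = m.factorial * (2 ^ (j + 2 + 2) * (j + 2 + 2).factorial) := by ring
      _ < m.factorial * ((2 * (j + 2) + 2).factorial * 2) :=
          (Nat.mul_lt_mul_left hm).mpr hA
      _ = m.factorial * (2 * (j + 2) + 2).factorial * 2 := by ring
      _ ≤ (m + (2 * (j + 2) + 2)).factorial * 2 := Nat.mul_le_mul_right _ hle

end arith

section main

variable {Ω : Type*} [Fintype Ω] [DecidableEq Ω]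

/-- an injective endomorphism of the symmetric group maps transpositions to transpositions
(degree at least 5 and different from 6) -/
lemma isSwap_map (h5 : 5 ≤ Fintype.card Ω) (h6 : Fintype.card Ω ≠ 6) (ψ : Perm Ω →* Perm Ω)
    (hψ : Function.Injective ψ) {τ : Perm Ω} (hτ : τ.IsSwap) : (ψ τ).IsSwap := by
  have hsurj : Function.Surjective ψ := Finite.surjective_of_injective hψ
  have hτc : τ.cycleType = {2} := isSwap_iff_cycleType.mp hτ
  have hne : ψ τ ≠ 1 := by
    intro h
    have h1 : τ = 1 := hψ (by rw [h, map_one])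
    rw [h1, cycleType_one] at hτc
    exact absurd hτc (by simp)
  have hsq : ψ τ ^ 2 = 1 := by
    rw [← map_pow]
    obtain ⟨x, y, hxy, rfl⟩ := hτ
    rw [pow_two, swap_mul_self, map_one]
  have hord : orderOf (ψ τ) = 2 := orderOf_eq_prime hsq hne
  obtain ⟨k, hk⟩ := cycleType_prime_order (σ := ψ τ) (by rw [hord]; exact Nat.prime_two)
  rw [hord] at hk
  have hcard : (Finset.univ.filter (fun g : Perm Ω => g.cycleType = {2})).card =
      (Finset.univ.filter (fun g : Perm Ω => g.cycleType = Multiset.replicate (k + 1) 2)).card := by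
    apply Finset.card_bij (fun g _ => ψ g)
    · intro g hg
      simp only [Finset.mem_filter, Finset.mem_univ, true_and] at hg ⊢
      have hc : IsConj τ g := isConj_iff_cycleType_eq.mpr (hτc.trans hg.symm)
      have hc' : IsConj (ψ τ) (ψ g) := ψ.map_isConj hc
      rw [← isConj_iff_cycleType_eq.mp hc', hk]
    · intro g1 _ g2 _ h
      exact hψ h
    · intro σ hσ
      simp only [Finset.mem_filter, Finset.mem_univ, true_and] at hσ
      have hc : IsConj (ψ τ) σ := isConj_iff_cycleType_eq.mpr (hk.trans hσ.symm)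
      obtain ⟨c, hc⟩ := isConj_iff.mp hc
      obtain ⟨g, rfl⟩ := hsurj c
      refine ⟨g * τ * g⁻¹, ?_, ?_⟩
      · simp only [Finset.mem_filter, Finset.mem_univ, true_and]
        rw [cycleType_conj, hτc]
      · rw [map_mul, map_mul, map_inv, hc]
  have hpos : 0 < (Finset.univ.filter (fun g : Perm Ω => g.cycleType = {2})).card :=
    Finset.card_pos.mpr ⟨τ, by simp [hτc]⟩
  have h1 := card_of_cycleType_mul_eq Ω ({2} : Multiset ℕ)
  have h2 := card_of_cycleType_mul_eq Ω (Multiset.replicate (k + 1) 2)
  have hsum : (Multiset.replicate (k + 1) 2).sum ≤ Fintype.card Ω := by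
    rw [← hk]; exact sum_cycleType_le _
  rw [if_pos ⟨by simp; omega, by simp⟩] at h1
  rw [if_pos ⟨hsum, fun a ha => by rw [Multiset.eq_of_mem_replicate ha]⟩] at h2
  rw [← hcard, ← h1] at h2
  have h3 := Nat.eq_of_mul_eq_mul_left hpos h2
  have hT : (Multiset.replicate (k + 1) 2).toFinset = {2} := by
    ext x
    rw [Multiset.mem_toFinset, Multiset.mem_replicate, Finset.mem_singleton]
    constructor
    · exact fun h => h.2
    · exact fun h => ⟨by omega, h⟩
  simp only [Multiset.sum_replicate, Multiset.prod_replicate, smul_eq_mul, hT,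
    Finset.prod_singleton, Multiset.count_replicate_self, Multiset.sum_singleton,
    Multiset.prod_singleton, Multiset.toFinset_singleton, Multiset.count_singleton_self,
    Nat.factorial_one, mul_one] at h3 hsum
  obtain ⟨m, hm⟩ := Nat.exists_eq_add_of_le' hsum
  rcases k with _ | j
  · rw [isSwap_iff_cycleType, hk]
    rfl
  · exfalso
    have h4 := arith m j (by omega) (by omega)
    have e1 : Fintype.card Ω - (j + 1 + 1) * 2 = m := by omega
    have e2 : Fintype.card Ω - 2 = m + 2 * j + 2 := by omega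
    rw [e1, e2] at h3
    have e3 : j + 1 + 1 = j + 2 := rfl
    rw [e3] at h3
    omega

/-- the core statement: the preimage of a point stabilizer under an injective endomorphism
fixes a point -/
theorem key (h5 : 5 ≤ Fintype.card Ω) (h6 : Fintype.card Ω ≠ 6) (ψ : Perm Ω →* Perm Ω)
    (hψ : Function.Injective ψ) (x0 : Ω) (H : Subgroup (Perm Ω))
    (hH : ∀ g, g ∈ H ↔ ψ g x0 = x0) (hHtop : H ≠ ⊤) :
    ∃ y : Ω, H ≤ MulAction.stabilizer (Perm Ω) y := by
  classical
  have hall : ¬ ∀ a b : Ω, a ≠ b → swap a b ∈ H := by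
    intro hall
    apply hHtop
    rw [eq_top_iff, ← closure_isSwap, Subgroup.closure_le]
    rintro σ ⟨a, b, hab, rfl⟩
    exact hall a b hab
  let B : Finset (Perm Ω) := Finset.univ.filter (fun τ => τ.IsSwap ∧ τ ∉ H)
  have hBmem : ∀ τ, τ ∈ B ↔ τ.IsSwap ∧ τ ∉ H := fun τ => by
    simp only [B, Finset.mem_filter, Finset.mem_univ, true_and]
  have hkey : ∀ τ, τ.IsSwap → τ ∉ H → ψ τ = swap x0 (ψ τ x0) := by
    intro τ hτ hτH
    obtain ⟨u, v, huv, huv'⟩ := isSwap_map h5 h6 ψ hψ hτ
    have hne : ψ τ x0 ≠ x0 := fun h => hτH ((hH τ).mpr h)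
    rw [huv'] at hne ⊢
    by_cases hu : x0 = u
    · subst hu; rw [swap_apply_left]
    · by_cases hv : x0 = v
      · subst hv; rw [swap_apply_right, swap_comm]
      · exact absurd (swap_apply_of_ne_of_ne hu hv) hne
  have hBcard : B.card ≤ Fintype.card Ω - 1 := by
    have h1 : B.card ≤ (Finset.univ.erase x0).card := by
      apply Finset.card_le_card_of_injOn (fun τ => ψ τ x0)
      · intro τ hτ
        have hτ' := (hBmem τ).mp hτ
        rw [Finset.mem_coe, Finset.mem_erase]
        exact ⟨fun h => hτ'.2 ((hH τ).mpr h), Finset.mem_univ _⟩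
      · intro τ1 h1 τ2 h2 heq
        have h1' := (hBmem τ1).mp h1
        have h2' := (hBmem τ2).mp h2
        apply hψ
        have heq' : ψ τ1 x0 = ψ τ2 x0 := heq
        rw [hkey τ1 h1'.1 h1'.2, hkey τ2 h2'.1 h2'.2, heq']
    rwa [Finset.card_erase_of_mem (Finset.mem_univ _), Finset.card_univ] at h1
  have hex : ∃ x, (B.filter (fun τ => τ x ≠ x)).card ≤ 1 := by
    by_contra hcon
    have hcon' : ∀ x, 2 ≤ (B.filter (fun τ => τ x ≠ x)).card := fun x => by
      by_contra h
      exact hcon ⟨x, by omega⟩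
    have hdc := Finset.sum_card_bipartiteAbove_eq_sum_card_bipartiteBelow (s := B)
      (t := (Finset.univ : Finset Ω)) (r := fun τ x => τ x ≠ x)
    have hL : ∀ τ ∈ B,
        (Finset.univ.bipartiteAbove (fun (τ : Perm Ω) (x : Ω) => τ x ≠ x) τ).card = 2 := by
      intro τ hτ
      have hsw : τ.IsSwap := ((hBmem τ).mp hτ).1
      rw [← card_support_eq_two] at hsw
      rw [← hsw]
      congr 1
    have hR : ∀ x ∈ (Finset.univ : Finset Ω),
        2 ≤ (B.bipartiteBelow (fun (τ : Perm Ω) (x : Ω) => τ x ≠ x) x).card :=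
      fun x _ => hcon' x
    rw [Finset.sum_congr rfl hL] at hdc
    have h2 := Finset.sum_le_sum hR
    rw [← hdc] at h2
    simp only [Finset.sum_const, Finset.card_univ, smul_eq_mul] at h2
    have h5' := h5
    omega
  obtain ⟨x, hx⟩ := hex
  have huniq : ∀ z1 z2, z1 ≠ x → z2 ≠ x → swap x z1 ∉ H → swap x z2 ∉ H → z1 = z2 := by
    intro z1 z2 h1 h2 hb1 hb2
    by_contra hne
    have hm1 : swap x z1 ∈ B.filter (fun τ => τ x ≠ x) := by
      rw [Finset.mem_filter, hBmem]
      exact ⟨⟨⟨x, z1, Ne.symm h1, rfl⟩, hb1⟩, by rw [swap_apply_left]; exact h1⟩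
    have hm2 : swap x z2 ∈ B.filter (fun τ => τ x ≠ x) := by
      rw [Finset.mem_filter, hBmem]
      exact ⟨⟨⟨x, z2, Ne.symm h2, rfl⟩, hb2⟩, by rw [swap_apply_left]; exact h2⟩
    have hne' : swap x z1 ≠ swap x z2 := by
      intro h
      apply hne
      have h3 := congrArg (fun σ : Perm Ω => σ x) h
      simpa using h3
    have h4 : 1 < (B.filter (fun τ => τ x ≠ x)).card :=
      Finset.one_lt_card.mpr ⟨_, hm1, _, hm2, hne'⟩
    omega
  -- conjugation formula
  have hconj : ∀ (S : ∀ z, z ≠ x → Prop), ∀ a b : Ω, a ≠ b → a ≠ x → b ≠ x →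
      swap a b = swap x a * swap x b * (swap x a)⁻¹ := by
    intro _ a b hab ha hb
    have h1 := swap_apply_apply (swap x a) x b
    rw [swap_apply_left, swap_apply_of_ne_of_ne hb (Ne.symm hab)] at h1
    exact h1
  by_cases hgood : ∀ z, z ≠ x → swap x z ∈ H
  · exfalso
    apply hall
    intro a b hab
    by_cases ha : a = x
    · subst ha; exact hgood b (Ne.symm hab)
    by_cases hb : b = x
    · subst hb; rw [swap_comm]; exact hgood a ha
    rw [hconj (fun _ _ => True) a b hab ha hb]
    exact H.mul_mem (H.mul_mem (hgood a ha) (hgood b hb)) (H.inv_mem (hgood a ha))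
  · obtain ⟨y, hyx, hybad⟩ : ∃ y, y ≠ x ∧ swap x y ∉ H := by
      by_contra h
      exact hgood (fun z hz => by
        by_contra hz'
        exact h ⟨z, hz, hz'⟩)
    have hgood' : ∀ z, z ≠ x → z ≠ y → swap x z ∈ H := by
      intro z hzx hzy
      by_contra hbad
      exact hzy (huniq z y hzx hyx hbad hybad)
    have hav : ∀ a b, a ≠ b → a ≠ y → b ≠ y → swap a b ∈ H := by
      intro a b hab hay hby
      by_cases ha : a = x
      · subst ha; exact hgood' b (Ne.symm hab) hby
      by_cases hb : b = x
      · subst hb; rw [swap_comm]; exact hgood' a ha hay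
      rw [hconj (fun _ _ => True) a b hab ha hb]
      exact H.mul_mem (H.mul_mem (hgood' a ha hay) (hgood' b hb hby))
        (H.inv_mem (hgood' a ha hay))
    refine ⟨y, fun h hh => ?_⟩
    rw [MulAction.mem_stabilizer_iff]
    by_contra hhy
    have hhy' : h y ≠ y := hhy
    apply hall
    have hav' : ∀ a b, a ≠ b → a ≠ h y → b ≠ h y → swap a b ∈ H := by
      intro a b hab ha hb
      have h1 := swap_apply_apply h (h⁻¹ a) (h⁻¹ b)
      have ea : h (h⁻¹ a) = a := by simp
      have eb : h (h⁻¹ b) = b := by simp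
      rw [ea, eb] at h1
      rw [h1]
      refine H.mul_mem (H.mul_mem hh (hav _ _ ?_ ?_ ?_)) (H.inv_mem hh)
      · intro e; exact hab (h⁻¹.injective e)
      · intro e; apply ha; rw [← e]; simp
      · intro e; apply hb; rw [← e]; simp
    obtain ⟨c, hcy, hcy'⟩ : ∃ c, c ≠ y ∧ c ≠ h y := by
      by_contra hcon
      have h1 : (Finset.univ : Finset Ω) ⊆ {y, h y} := fun c _ => by
        by_contra hc
        simp only [Finset.mem_insert, Finset.mem_singleton, not_or] at hc
        exact hcon ⟨c, hc.1, hc.2⟩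
      have h2 := Finset.card_le_card h1
      have h3 : ({y, h y} : Finset Ω).card ≤ 2 := Finset.card_le_two
      rw [Finset.card_univ] at h2
      omega
    have hyy' : swap y (h y) ∈ H := by
      have h1 := swap_apply_apply (swap y c) c (h y)
      rw [swap_apply_right, swap_apply_of_ne_of_ne hhy' (Ne.symm hcy')] at h1
      rw [h1]
      have hyc : swap y c ∈ H := hav' y c (Ne.symm hcy) (Ne.symm hhy') hcy'
      have hcy2 : swap c (h y) ∈ H := hav c (h y) hcy' hcy hhy'
      exact H.mul_mem (H.mul_mem hyc hcy2) (H.inv_mem hyc)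
    intro a b hab
    by_cases ha : a = y
    · subst ha
      by_cases hb : b = h a
      · subst hb; exact hyy'
      · exact hav' a b hab (Ne.symm hhy') hb
    · by_cases hb : b = y
      · subst hb
        by_cases ha' : a = h b
        · subst ha'; rw [swap_comm]; exact hyy'
        · exact hav' a b hab ha' (Ne.symm hhy')
      · exact hav a b hab ha hb

/-- degrees three and four -/
lemma small_case (hn : Fintype.card Ω = 3 ∨ Fintype.card Ω = 4) (H : Subgroup (Perm Ω))
    (hH : H.index = Fintype.card Ω) : ∃ y : Ω, H ≤ MulAction.stabilizer (Perm Ω) y := by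
  classical
  have hcardH : Nat.card H = (Fintype.card Ω - 1).factorial := by
    have h1 := Subgroup.index_mul_card H
    rw [hH, Nat.card_perm, Nat.card_eq_fintype_card (α := Ω)] at h1
    rcases hn with h | h
    · rw [h] at h1 ⊢
      have h2 : (3 : ℕ).factorial = 6 := rfl
      have h3 : (3 - 1 : ℕ).factorial = 2 := rfl
      omega
    · rw [h] at h1 ⊢
      have h2 : (4 : ℕ).factorial = 24 := rfl
      have h3 : (4 - 1 : ℕ).factorial = 6 := rfl
      omega
  have hp : (Fintype.card Ω - 1).Prime := by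
    rcases hn with h | h
    · rw [h]; exact Nat.prime_two
    · rw [h]; exact Nat.prime_three
  haveI : Fact (Fintype.card Ω - 1).Prime := ⟨hp⟩
  have hdvd : (Fintype.card Ω - 1) ∣ Nat.card H := by
    rw [hcardH]; exact Nat.dvd_factorial hp.pos le_rfl
  obtain ⟨c, hc⟩ := exists_prime_orderOf_dvd_card' (Fintype.card Ω - 1) hdvd
  have hc' : orderOf (c : Perm Ω) = Fintype.card Ω - 1 := by
    rw [Subgroup.orderOf_coe]; exact hc
  obtain ⟨k, hk⟩ := cycleType_prime_order (σ := (c : Perm Ω)) (by rw [hc']; exact hp)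
  rw [hc'] at hk
  have hk0 : k = 0 := by
    have h1 := sum_cycleType_le (c : Perm Ω)
    rw [hk, Multiset.sum_replicate, smul_eq_mul] at h1
    rcases hn with h | h
    · rw [h] at h1
      rcases k with _ | k
      · rfl
      · exfalso
        have h2 : (k + 1 + 1) * (3 - 1) = 2 * k + 4 := by ring
        omega
    · rw [h] at h1
      rcases k with _ | k
      · rfl
      · exfalso
        have h2 : (k + 1 + 1) * (4 - 1) = 3 * k + 6 := by ring
        omega
  subst hk0
  have hcyc : (c : Perm Ω).IsCycle := by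
    rw [← card_cycleType_eq_one, hk]; simp
  have hsupp : (c : Perm Ω).support.card = Fintype.card Ω - 1 := by
    rw [← sum_cycleType, hk]; simp
  obtain ⟨y, hy⟩ : ∃ y, (c : Perm Ω) y = y := by
    by_contra hcon
    have h1 : (c : Perm Ω).support = Finset.univ := by
      ext z
      simp only [mem_support, Finset.mem_univ, iff_true]
      exact fun h => hcon ⟨z, h⟩
    rw [h1, Finset.card_univ] at hsupp
    omega
  have hyuniq : ∀ w, (c : Perm Ω) w = w → w = y := by
    intro w hw
    by_contra hwy
    have h1 : (c : Perm Ω).support ⊆ (Finset.univ.erase y).erase w := by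
      intro z hz
      rw [mem_support] at hz
      rw [Finset.mem_erase, Finset.mem_erase]
      exact ⟨fun h => hz (by rw [h]; exact hw), fun h => hz (by rw [h]; exact hy), Finset.mem_univ _⟩
    have h2 := Finset.card_le_card h1
    rw [Finset.card_erase_of_mem (by rw [Finset.mem_erase]; exact ⟨hwy, Finset.mem_univ _⟩),
      Finset.card_erase_of_mem (Finset.mem_univ _), Finset.card_univ, hsupp] at h2
    omega
  refine ⟨y, fun h hh => ?_⟩
  rw [MulAction.mem_stabilizer_iff]
  by_contra hhy
  have hhy' : h y ≠ y := hhy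
  have htr : ∀ w, ∃ g ∈ H, g y = w := by
    intro w
    by_cases hw : w = y
    · exact ⟨1, H.one_mem, by rw [hw]; rfl⟩
    · have hw' : (c : Perm Ω) w ≠ w := fun e => hw (hyuniq w e)
      have hz' : (c : Perm Ω) (h y) ≠ h y := fun e => hhy' (hyuniq _ e)
      obtain ⟨i, hi⟩ := hcyc.exists_pow_eq hz' hw'
      exact ⟨(c : Perm Ω) ^ i * h, H.mul_mem (H.pow_mem c.2 i) hh, by
        rw [Perm.mul_apply, hi]⟩
  haveI : MulAction.IsPretransitive H Ω := ⟨fun a b => by
    obtain ⟨g1, hg1, h1⟩ := htr a
    obtain ⟨g2, hg2, h2⟩ := htr b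
    refine ⟨⟨g2 * g1⁻¹, H.mul_mem hg2 (H.inv_mem hg1)⟩, ?_⟩
    show (g2 * g1⁻¹) a = b
    rw [Perm.mul_apply, ← h1]
    simp [h2]⟩
  have hdiv : Fintype.card Ω ∣ Nat.card H := by
    have h1 := MulAction.index_stabilizer_of_transitive H y
    rw [Nat.card_eq_fintype_card] at h1
    rw [← h1]
    exact Subgroup.index_dvd_card _
  rw [hcardH] at hdiv
  rcases hn with h | h
  · rw [h] at hdiv; revert hdiv; decide
  · rw [h] at hdiv; revert hdiv; decide

/-- degree at least five and different from six -/
lemma pipeline (h5 : 5 ≤ Fintype.card Ω) (h6 : Fintype.card Ω ≠ 6) (H : Subgroup (Perm Ω))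
    (hH : H.index = Fintype.card Ω) : ∃ y : Ω, H ≤ MulAction.stabilizer (Perm Ω) y := by
  classical
  haveI : Nontrivial Ω := by
    rw [← Fintype.one_lt_card_iff_nontrivial]; omega
  have hcore : H.normalCore = ⊥ := by
    haveI : IsSimpleGroup (alternatingGroup Ω) :=
      alternatingGroup.isSimpleGroup (by rw [Nat.card_eq_fintype_card]; exact h5)
    have hN : H.normalCore.Normal := inferInstance
    have hNA : (H.normalCore.subgroupOf (alternatingGroup Ω)).Normal := inferInstance
    rcases hNA.eq_bot_or_eq_top with h0 | h1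
    · rw [Subgroup.subgroupOf_eq_bot] at h0
      have h0' : H.normalCore ⊓ alternatingGroup Ω = ⊥ := h0.eq_bot
      rw [eq_bot_iff]
      intro z hz
      rw [Subgroup.mem_bot]
      by_contra hz1
      have hsign : ∀ w ∈ H.normalCore, w ≠ 1 → sign w = -1 := by
        intro w hw hw1
        by_contra hs
        have hs1 : sign w = 1 := (Int.units_eq_one_or _).resolve_right hs
        have h2 : w ∈ H.normalCore ⊓ alternatingGroup Ω :=
          Subgroup.mem_inf.mpr ⟨hw, mem_alternatingGroup.mpr hs1⟩
        rw [h0', Subgroup.mem_bot] at h2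
        exact hw1 h2
      have hcomm : ∀ g : Perm Ω, g * z * g⁻¹ = z := by
        intro g
        have hconj : g * z * g⁻¹ ∈ H.normalCore := hN.conj_mem z hz g
        have hconj1 : g * z * g⁻¹ ≠ 1 := by
          intro h
          apply hz1
          have h2 : z = g⁻¹ * (g * z * g⁻¹) * g := by group
          rw [h2, h]; group
        have hprod : g * z * g⁻¹ * z⁻¹ ∈ H.normalCore ⊓ alternatingGroup Ω := by
          refine Subgroup.mem_inf.mpr
            ⟨H.normalCore.mul_mem hconj (H.normalCore.inv_mem hz), ?_⟩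
          rw [mem_alternatingGroup, map_mul, map_inv, hsign _ hconj hconj1, hsign z hz hz1]
          simp
        rw [h0', Subgroup.mem_bot] at hprod
        exact mul_inv_eq_one.mp hprod
      -- z moves a point
      obtain ⟨a, ha⟩ : ∃ a, z a ≠ a := by
        by_contra hcon
        apply hz1
        ext a
        by_contra h
        exact hcon ⟨a, h⟩
      obtain ⟨c, hca, hcb⟩ : ∃ c, c ≠ a ∧ c ≠ z a := by
        by_contra hcon
        have h1 : (Finset.univ : Finset Ω) ⊆ {a, z a} := fun c _ => by
          by_contra hc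
          simp only [Finset.mem_insert, Finset.mem_singleton, not_or] at hc
          exact hcon ⟨c, hc.1, hc.2⟩
        have h2 := Finset.card_le_card h1
        have h3 : ({a, z a} : Finset Ω).card ≤ 2 := Finset.card_le_two
        rw [Finset.card_univ] at h2
        omega
      have h4 := congrArg (fun σ : Perm Ω => σ a) (hcomm (swap (z a) c))
      simp only [Perm.mul_apply, swap_inv] at h4
      rw [swap_apply_of_ne_of_ne (Ne.symm ha) (Ne.symm hca), swap_apply_left] at h4
      exact hcb h4
    · exfalso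
      have hA : alternatingGroup Ω ≤ H :=
        (Subgroup.subgroupOf_eq_top.mp h1).trans (Subgroup.normalCore_le H)
      have hd := Subgroup.index_dvd_of_le hA
      rw [alternatingGroup.index_eq_two, hH] at hd
      have h2 := Nat.le_of_dvd (by norm_num) hd
      omega
  have hinj : Function.Injective (MulAction.toPermHom (Perm Ω) (Perm Ω ⧸ H)) := by
    rw [← MonoidHom.ker_eq_bot_iff, ← Subgroup.normalCore_eq_ker]; exact hcore
  have hcardq : Nat.card (Perm Ω ⧸ H) = Nat.card Ω := by
    rw [← Subgroup.index_eq_card, hH, Nat.card_eq_fintype_card]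
  obtain ⟨e⟩ := Finite.card_eq.mp hcardq
  let ψ : Perm Ω →* Perm Ω :=
    (e.permCongrHom : Perm (Perm Ω ⧸ H) →* Perm Ω).comp
      (MulAction.toPermHom (Perm Ω) (Perm Ω ⧸ H))
  have hψ : Function.Injective ψ := e.permCongrHom.injective.comp hinj
  refine key h5 h6 ψ hψ (e (QuotientGroup.mk 1)) H ?_ ?_
  · intro g
    have h1 : ψ g (e (QuotientGroup.mk 1)) = e (QuotientGroup.mk g) := by
      show e ((MulAction.toPermHom (Perm Ω) (Perm Ω ⧸ H) g) (e.symm (e (QuotientGroup.mk 1)))) = _
      rw [Equiv.symm_apply_apply]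
      show e (g • (QuotientGroup.mk 1 : Perm Ω ⧸ H)) = _
      rw [MulAction.Quotient.smul_mk, smul_eq_mul, mul_one]
    rw [h1, e.injective.eq_iff, QuotientGroup.eq, mul_one, inv_mem_iff]
  · intro htop
    rw [htop, Subgroup.index_top] at hH
    omega

end main

/-- Let Ω be a finite set whose size n is not 6. Then every subgroup of the symmetric group on Ω of index n is the stabilizer of a point. -/
theorem result {Ω : Type*} [Fintype Ω] [DecidableEq Ω] (h6 : Fintype.card Ω ≠ 6)
    (H : Subgroup (Equiv.Perm Ω)) (hH : H.index = Fintype.card Ω) :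
    ∃ x : Ω, H = MulAction.stabilizer (Equiv.Perm Ω) x := by
  classical
  have hn : 0 < Fintype.card Ω := by
    rw [← hH]; exact Nat.pos_of_ne_zero Subgroup.index_ne_zero_of_finite
  have hstab : ∀ x : Ω, (MulAction.stabilizer (Perm Ω) x).index = Fintype.card Ω := fun x => by
    rw [MulAction.index_stabilizer_of_transitive, Nat.card_eq_fintype_card]
  have hcards : ∀ x : Ω, Nat.card H = Nat.card (MulAction.stabilizer (Perm Ω) x) := by
    intro x
    have h1 := Subgroup.index_mul_card H
    have h2 := Subgroup.index_mul_card (MulAction.stabilizer (Perm Ω) x)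
    rw [hH] at h1
    rw [hstab x] at h2
    exact Nat.eq_of_mul_eq_mul_left hn (h1.trans h2.symm)
  have heq_of_le : ∀ x : Ω, H ≤ MulAction.stabilizer (Perm Ω) x →
      H = MulAction.stabilizer (Perm Ω) x := fun x hle =>
    Subgroup.eq_of_le_of_card_ge hle (le_of_eq (hcards x).symm)
  rcases Nat.lt_or_ge (Fintype.card Ω) 3 with hsmall | h3
  · obtain ⟨x⟩ : Nonempty Ω := Fintype.card_pos_iff.mp hn
    refine ⟨x, ?_⟩
    have hfac : (Fintype.card Ω).factorial = Fintype.card Ω := by
      have h12 : Fintype.card Ω = 1 ∨ Fintype.card Ω = 2 := by omega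
      rcases h12 with h | h <;> rw [h] <;> rfl
    have hc1 : Nat.card H = 1 := by
      have h1 := Subgroup.index_mul_card H
      rw [hH, Nat.card_perm, Nat.card_eq_fintype_card (α := Ω), hfac] at h1
      exact Nat.eq_of_mul_eq_mul_left hn (by rw [h1, mul_one])
    have hc2 : Nat.card (MulAction.stabilizer (Perm Ω) x) = 1 := by rw [← hcards x, hc1]
    rw [Subgroup.eq_bot_of_card_eq H hc1, Subgroup.eq_bot_of_card_eq _ hc2]
  · rcases Nat.lt_or_ge (Fintype.card Ω) 5 with h34 | h5
    · obtain ⟨y, hy⟩ := small_case (by omega) H hH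
      exact ⟨y, heq_of_le y hy⟩
    · obtain ⟨y, hy⟩ := pipeline h5 h6 H hH
      exact ⟨y, heq_of_le y hy⟩

end Cfsg.Agent.S5911
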