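import Cfsg.Statements.S5912
-- import your own Cfsg.Agent.* helpers here

set_option autoImplicit false
set_option linter.style.haveILetI false
set_option linter.unusedSectionVars false
open Cfsg

namespace Cfsg.Agent.S5912

open Equiv Equiv.Perm

section main

variable {Ω : Type*} [Fintype Ω] [DecidableEq Ω]

/-- the preimage of a point stabilizer under an injective endomorphism preserving transpositions
fixes a point -/
theorem key' (h5 : 3 ≤ Fintype.card Ω) (ψ : Perm Ω →* Perm Ω)
    (hψ : Function.Injective ψ) (hsw : ∀ τ : Perm Ω, τ.IsSwap → (ψ τ).IsSwap) (x0 : Ω)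
    (H : Subgroup (Perm Ω))
    (hH : ∀ g, g ∈ H ↔ ψ g x0 = x0) (hHtop : H ≠ ⊤) :
    ∃ y : Ω, H ≤ MulAction.stabilizer (Perm Ω) y := by
  classical
  have hall : ¬ ∀ a b : Ω, a ≠ b → swap a b ∈ H := by
    intro hall
    apply hHtop
    rw [eq_top_iff, ← closure_isSwap, Subgroup.closure_le]
    rintro σ ⟨a, b, hab, rfl⟩
    exact hall a b hab
  let B : Finset (Perm Ω) := Finset.univ.filter (fun τ => τ.IsSwap ∧ τ ∉ H)
  have hBmem : ∀ τ, τ ∈ B ↔ τ.IsSwap ∧ τ ∉ H := fun τ => by
    simp only [B, Finset.mem_filter, Finset.mem_univ, true_and]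
  have hkey : ∀ τ, τ.IsSwap → τ ∉ H → ψ τ = swap x0 (ψ τ x0) := by
    intro τ hτ hτH
    obtain ⟨u, v, huv, huv'⟩ := hsw τ hτ
    have hne : ψ τ x0 ≠ x0 := fun h => hτH ((hH τ).mpr h)
    rw [huv'] at hne ⊢
    by_cases hu : x0 = u
    · subst hu; rw [swap_apply_left]
    · by_cases hv : x0 = v
      · subst hv; rw [swap_apply_right, swap_comm]
      · exact absurd (swap_apply_of_ne_of_ne hu hv) hne
  have hBcard : B.card ≤ Fintype.card Ω - 1 := by
    have h1 : B.card ≤ (Finset.univ.erase x0).card := by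
      apply Finset.card_le_card_of_injOn (fun τ => ψ τ x0)
      · intro τ hτ
        have hτ' := (hBmem τ).mp hτ
        rw [Finset.mem_coe, Finset.mem_erase]
        exact ⟨fun h => hτ'.2 ((hH τ).mpr h), Finset.mem_univ _⟩
      · intro τ1 h1 τ2 h2 heq
        have h1' := (hBmem τ1).mp h1
        have h2' := (hBmem τ2).mp h2
        apply hψ
        have heq' : ψ τ1 x0 = ψ τ2 x0 := heq
        rw [hkey τ1 h1'.1 h1'.2, hkey τ2 h2'.1 h2'.2, heq']
    rwa [Finset.card_erase_of_mem (Finset.mem_univ _), Finset.card_univ] at h1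
  have hex : ∃ x, (B.filter (fun τ => τ x ≠ x)).card ≤ 1 := by
    by_contra hcon
    have hcon' : ∀ x, 2 ≤ (B.filter (fun τ => τ x ≠ x)).card := fun x => by
      by_contra h
      exact hcon ⟨x, by omega⟩
    have hdc := Finset.sum_card_bipartiteAbove_eq_sum_card_bipartiteBelow (s := B)
      (t := (Finset.univ : Finset Ω)) (r := fun τ x => τ x ≠ x)
    have hL : ∀ τ ∈ B,
        (Finset.univ.bipartiteAbove (fun (τ : Perm Ω) (x : Ω) => τ x ≠ x) τ).card = 2 := by
      intro τ hτ
      have hsw : τ.IsSwap := ((hBmem τ).mp hτ).1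
      rw [← card_support_eq_two] at hsw
      rw [← hsw]
      congr 1
    have hR : ∀ x ∈ (Finset.univ : Finset Ω),
        2 ≤ (B.bipartiteBelow (fun (τ : Perm Ω) (x : Ω) => τ x ≠ x) x).card :=
      fun x _ => hcon' x
    rw [Finset.sum_congr rfl hL] at hdc
    have h2 := Finset.sum_le_sum hR
    rw [← hdc] at h2
    simp only [Finset.sum_const, Finset.card_univ, smul_eq_mul] at h2
    have h5' := h5
    omega
  obtain ⟨x, hx⟩ := hex
  have huniq : ∀ z1 z2, z1 ≠ x → z2 ≠ x → swap x z1 ∉ H → swap x z2 ∉ H → z1 = z2 := by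
    intro z1 z2 h1 h2 hb1 hb2
    by_contra hne
    have hm1 : swap x z1 ∈ B.filter (fun τ => τ x ≠ x) := by
      rw [Finset.mem_filter, hBmem]
      exact ⟨⟨⟨x, z1, Ne.symm h1, rfl⟩, hb1⟩, by rw [swap_apply_left]; exact h1⟩
    have hm2 : swap x z2 ∈ B.filter (fun τ => τ x ≠ x) := by
      rw [Finset.mem_filter, hBmem]
      exact ⟨⟨⟨x, z2, Ne.symm h2, rfl⟩, hb2⟩, by rw [swap_apply_left]; exact h2⟩
    have hne' : swap x z1 ≠ swap x z2 := by
      intro h
      apply hne
      have h3 := congrArg (fun σ : Perm Ω => σ x) h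
      simpa using h3
    have h4 : 1 < (B.filter (fun τ => τ x ≠ x)).card :=
      Finset.one_lt_card.mpr ⟨_, hm1, _, hm2, hne'⟩
    omega
  -- conjugation formula
  have hconj : ∀ (S : ∀ z, z ≠ x → Prop), ∀ a b : Ω, a ≠ b → a ≠ x → b ≠ x →
      swap a b = swap x a * swap x b * (swap x a)⁻¹ := by
    intro _ a b hab ha hb
    have h1 := swap_apply_apply (swap x a) x b
    rw [swap_apply_left, swap_apply_of_ne_of_ne hb (Ne.symm hab)] at h1
    exact h1
  by_cases hgood : ∀ z, z ≠ x → swap x z ∈ H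
  · exfalso
    apply hall
    intro a b hab
    by_cases ha : a = x
    · subst ha; exact hgood b (Ne.symm hab)
    by_cases hb : b = x
    · subst hb; rw [swap_comm]; exact hgood a ha
    rw [hconj (fun _ _ => True) a b hab ha hb]
    exact H.mul_mem (H.mul_mem (hgood a ha) (hgood b hb)) (H.inv_mem (hgood a ha))
  · obtain ⟨y, hyx, hybad⟩ : ∃ y, y ≠ x ∧ swap x y ∉ H := by
      by_contra h
      exact hgood (fun z hz => by
        by_contra hz'
        exact h ⟨z, hz, hz'⟩)
    have hgood' : ∀ z, z ≠ x → z ≠ y → swap x z ∈ H := by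
      intro z hzx hzy
      by_contra hbad
      exact hzy (huniq z y hzx hyx hbad hybad)
    have hav : ∀ a b, a ≠ b → a ≠ y → b ≠ y → swap a b ∈ H := by
      intro a b hab hay hby
      by_cases ha : a = x
      · subst ha; exact hgood' b (Ne.symm hab) hby
      by_cases hb : b = x
      · subst hb; rw [swap_comm]; exact hgood' a ha hay
      rw [hconj (fun _ _ => True) a b hab ha hb]
      exact H.mul_mem (H.mul_mem (hgood' a ha hay) (hgood' b hb hby))
        (H.inv_mem (hgood' a ha hay))
    refine ⟨y, fun h hh => ?_⟩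
    rw [MulAction.mem_stabilizer_iff]
    by_contra hhy
    have hhy' : h y ≠ y := hhy
    apply hall
    have hav' : ∀ a b, a ≠ b → a ≠ h y → b ≠ h y → swap a b ∈ H := by
      intro a b hab ha hb
      have h1 := swap_apply_apply h (h⁻¹ a) (h⁻¹ b)
      have ea : h (h⁻¹ a) = a := by simp
      have eb : h (h⁻¹ b) = b := by simp
      rw [ea, eb] at h1
      rw [h1]
      refine H.mul_mem (H.mul_mem hh (hav _ _ ?_ ?_ ?_)) (H.inv_mem hh)
      · intro e; exact hab (h⁻¹.injective e)
      · intro e; apply ha; rw [← e]; simp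
      · intro e; apply hb; rw [← e]; simp
    obtain ⟨c, hcy, hcy'⟩ : ∃ c, c ≠ y ∧ c ≠ h y := by
      by_contra hcon
      have h1 : (Finset.univ : Finset Ω) ⊆ {y, h y} := fun c _ => by
        by_contra hc
        simp only [Finset.mem_insert, Finset.mem_singleton, not_or] at hc
        exact hcon ⟨c, hc.1, hc.2⟩
      have h2 := Finset.card_le_card h1
      have h3 : ({y, h y} : Finset Ω).card ≤ 2 := Finset.card_le_two
      rw [Finset.card_univ] at h2
      omega
    have hyy' : swap y (h y) ∈ H := by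
      have h1 := swap_apply_apply (swap y c) c (h y)
      rw [swap_apply_right, swap_apply_of_ne_of_ne hhy' (Ne.symm hcy')] at h1
      rw [h1]
      have hyc : swap y c ∈ H := hav' y c (Ne.symm hcy) (Ne.symm hhy') hcy'
      have hcy2 : swap c (h y) ∈ H := hav c (h y) hcy' hcy hhy'
      exact H.mul_mem (H.mul_mem hyc hcy2) (H.inv_mem hyc)
    intro a b hab
    by_cases ha : a = y
    · subst ha
      by_cases hb : b = h a
      · subst hb; exact hyy'
      · exact hav' a b hab (Ne.symm hhy') hb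
    · by_cases hb : b = y
      · subst hb
        by_cases ha' : a = h b
        · subst ha'; rw [swap_comm]; exact hyy'
        · exact hav' a b hab ha' (Ne.symm hhy')
      · exact hav a b hab ha hb

/-- a normal subgroup of the symmetric group of degree at least five is trivial or contains the
alternating group -/
lemma normal_dichotomy (h5 : 5 ≤ Fintype.card Ω) (N : Subgroup (Perm Ω)) (hN : N.Normal) :
    N = ⊥ ∨ alternatingGroup Ω ≤ N := by
  haveI : IsSimpleGroup (alternatingGroup Ω) :=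
    alternatingGroup.isSimpleGroup (by rw [Nat.card_eq_fintype_card]; exact h5)
  have hNA : (N.subgroupOf (alternatingGroup Ω)).Normal := inferInstance
  rcases hNA.eq_bot_or_eq_top with h0 | h1
  · left
    rw [Subgroup.subgroupOf_eq_bot] at h0
    have h0' : N ⊓ alternatingGroup Ω = ⊥ := h0.eq_bot
    rw [eq_bot_iff]
    intro z hz
    rw [Subgroup.mem_bot]
    by_contra hz1
    have hsign : ∀ w ∈ N, w ≠ 1 → sign w = -1 := by
      intro w hw hw1
      by_contra hs
      have hs1 : sign w = 1 := (Int.units_eq_one_or _).resolve_right hs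
      have h2 : w ∈ N ⊓ alternatingGroup Ω :=
        Subgroup.mem_inf.mpr ⟨hw, mem_alternatingGroup.mpr hs1⟩
      rw [h0', Subgroup.mem_bot] at h2
      exact hw1 h2
    have hcomm : ∀ g : Perm Ω, g * z * g⁻¹ = z := by
      intro g
      have hconj : g * z * g⁻¹ ∈ N := hN.conj_mem z hz g
      have hconj1 : g * z * g⁻¹ ≠ 1 := by
        intro h
        apply hz1
        have h2 : z = g⁻¹ * (g * z * g⁻¹) * g := by group
        rw [h2, h]; group
      have hprod : g * z * g⁻¹ * z⁻¹ ∈ N ⊓ alternatingGroup Ω := by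
        refine Subgroup.mem_inf.mpr
          ⟨N.mul_mem hconj (N.inv_mem hz), ?_⟩
        rw [mem_alternatingGroup, map_mul, map_inv, hsign _ hconj hconj1, hsign z hz hz1]
        simp
      rw [h0', Subgroup.mem_bot] at hprod
      exact mul_inv_eq_one.mp hprod
    -- z moves a point
    obtain ⟨a, ha⟩ : ∃ a, z a ≠ a := by
      by_contra hcon
      apply hz1
      ext a
      by_contra h
      exact hcon ⟨a, h⟩
    obtain ⟨c, hca, hcb⟩ : ∃ c, c ≠ a ∧ c ≠ z a := by
      by_contra hcon
      have h1 : (Finset.univ : Finset Ω) ⊆ {a, z a} := fun c _ => by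
        by_contra hc
        simp only [Finset.mem_insert, Finset.mem_singleton, not_or] at hc
        exact hcon ⟨c, hc.1, hc.2⟩
      have h2 := Finset.card_le_card h1
      have h3 : ({a, z a} : Finset Ω).card ≤ 2 := Finset.card_le_two
      rw [Finset.card_univ] at h2
      omega
    have h4 := congrArg (fun σ : Perm Ω => σ a) (hcomm (swap (z a) c))
    simp only [Perm.mul_apply, swap_inv] at h4
    rw [swap_apply_of_ne_of_ne (Ne.symm ha) (Ne.symm hca), swap_apply_left] at h4
    exact hcb h4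
  · right
    exact Subgroup.subgroupOf_eq_top.mp h1

lemma core_eq_bot (h5 : 5 ≤ Fintype.card Ω) (H : Subgroup (Perm Ω))
    (hH : H.index = Fintype.card Ω) : H.normalCore = ⊥ := by
  haveI : Nontrivial Ω := by
    rw [← Fintype.one_lt_card_iff_nontrivial]; omega
  rcases normal_dichotomy h5 H.normalCore inferInstance with h | h
  · exact h
  · exfalso
    have hd := Subgroup.index_dvd_of_le (h.trans (Subgroup.normalCore_le H))
    rw [alternatingGroup.index_eq_two, hH] at hd
    have h2 := Nat.le_of_dvd (by norm_num) hd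
    omega

/-- a subgroup of index `n` with trivial core is the preimage of a point stabilizer under an
injective endomorphism -/
lemma exists_psi (H : Subgroup (Perm Ω)) (hH : H.index = Fintype.card Ω)
    (hcore : H.normalCore = ⊥) (x0 : Ω) :
    ∃ ψ : Perm Ω →* Perm Ω, Function.Injective ψ ∧ ∀ g, g ∈ H ↔ ψ g x0 = x0 := by
  have hinj : Function.Injective (MulAction.toPermHom (Perm Ω) (Perm Ω ⧸ H)) := by
    rw [← MonoidHom.ker_eq_bot_iff, ← Subgroup.normalCore_eq_ker]; exact hcore
  have hcardq : Nat.card (Perm Ω ⧸ H) = Nat.card Ω := by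
    rw [← Subgroup.index_eq_card, hH, Nat.card_eq_fintype_card]
  obtain ⟨e0⟩ := Finite.card_eq.mp hcardq
  let e : (Perm Ω ⧸ H) ≃ Ω := e0.trans (swap (e0 (QuotientGroup.mk 1)) x0)
  have he1 : e (QuotientGroup.mk 1) = x0 := by
    show swap (e0 (QuotientGroup.mk 1)) x0 (e0 (QuotientGroup.mk 1)) = x0
    rw [swap_apply_left]
  let ψ : Perm Ω →* Perm Ω :=
    (e.permCongrHom : Perm (Perm Ω ⧸ H) →* Perm Ω).comp
      (MulAction.toPermHom (Perm Ω) (Perm Ω ⧸ H))
  refine ⟨ψ, e.permCongrHom.injective.comp hinj, fun g => ?_⟩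
  have h1 : ψ g x0 = e (QuotientGroup.mk g) := by
    rw [← he1]
    show e ((MulAction.toPermHom (Perm Ω) (Perm Ω ⧸ H) g) (e.symm (e (QuotientGroup.mk 1)))) = _
    rw [Equiv.symm_apply_apply]
    show e (g • (QuotientGroup.mk 1 : Perm Ω ⧸ H)) = _
    rw [MulAction.Quotient.smul_mk, smul_eq_mul, mul_one]
  rw [h1, ← he1, e.injective.eq_iff, QuotientGroup.eq, mul_one, inv_mem_iff]

/-- an injective endomorphism of the symmetric group preserving transpositions is inner -/
lemma inner_of_swaps (h3 : 3 ≤ Fintype.card Ω) (θ : Perm Ω →* Perm Ω)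
    (hθ : Function.Injective θ) (hsw : ∀ τ : Perm Ω, τ.IsSwap → (θ τ).IsSwap) :
    ∃ π : Perm Ω, ∀ g, θ g = π * g * π⁻¹ := by
  classical
  have hsurj : Function.Surjective θ := Finite.surjective_of_injective hθ
  have hthird : ∀ a b : Ω, ∃ c, c ≠ a ∧ c ≠ b := by
    intro a b
    by_contra hcon
    have h1 : (Finset.univ : Finset Ω) ⊆ {a, b} := fun c _ => by
      by_contra hc
      simp only [Finset.mem_insert, Finset.mem_singleton, not_or] at hc
      exact hcon ⟨c, hc.1, hc.2⟩
    have h2 := Finset.card_le_card h1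
    have h3' : ({a, b} : Finset Ω).card ≤ 2 := Finset.card_le_two
    rw [Finset.card_univ] at h2
    omega
  -- the point map
  have hex : ∀ x : Ω, ∃ y : Ω, ∀ g : Perm Ω, θ g x = x ↔ g y = y := by
    intro x
    let K : Subgroup (Perm Ω) := (MulAction.stabilizer (Perm Ω) x).comap θ
    have hK : ∀ g, g ∈ K ↔ θ g x = x := fun g => Iff.rfl
    have hKtop : K ≠ ⊤ := by
      intro htop
      obtain ⟨c, hc, -⟩ := hthird x x
      obtain ⟨g, hg⟩ := hsurj (swap x c)
      have h1 : g ∈ K := htop ▸ Subgroup.mem_top g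
      rw [hK, hg, swap_apply_left] at h1
      exact hc h1
    obtain ⟨y, hy⟩ := key' h3 θ hθ hsw x K hK hKtop
    refine ⟨y, fun g => ⟨fun h => hy ((hK g).mpr h), fun h => ?_⟩⟩
    have hidx1 : K.index = Fintype.card Ω := by
      rw [Subgroup.index_comap_of_surjective _ hsurj, MulAction.index_stabilizer_of_transitive,
        Nat.card_eq_fintype_card]
    have hidx2 : (MulAction.stabilizer (Perm Ω) y).index = Fintype.card Ω := by
      rw [MulAction.index_stabilizer_of_transitive, Nat.card_eq_fintype_card]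
    have hn : 0 < Fintype.card Ω := by omega
    have hcards : Nat.card K = Nat.card (MulAction.stabilizer (Perm Ω) y) := by
      have h1 := Subgroup.index_mul_card K
      have h2 := Subgroup.index_mul_card (MulAction.stabilizer (Perm Ω) y)
      rw [hidx1] at h1
      rw [hidx2] at h2
      exact Nat.eq_of_mul_eq_mul_left hn (h1.trans h2.symm)
    have heq : K = MulAction.stabilizer (Perm Ω) y :=
      Subgroup.eq_of_le_of_card_ge hy (le_of_eq hcards.symm)
    have h1 : g ∈ K := by rw [heq]; exact h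
    exact (hK g).mp h1
  choose ρ hρ using hex
  have hρinj : Function.Injective ρ := by
    intro x x' hxx
    by_contra hne
    obtain ⟨c, hcx, hcx'⟩ := hthird x x'
    obtain ⟨g, hg⟩ := hsurj (swap x' c)
    have h1 : θ g x = x := by
      rw [hg, swap_apply_of_ne_of_ne hne (Ne.symm hcx)]
    have h2 : θ g x' = x' := (hρ x' g).mpr (hxx ▸ (hρ x g).mp h1)
    rw [hg, swap_apply_left] at h2
    exact hcx' h2
  let π₀ : Perm Ω := Equiv.ofBijective ρ ⟨hρinj, Finite.surjective_of_injective hρinj⟩
  have hπ₀ : ∀ x, π₀ x = ρ x := fun x => rfl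
  refine ⟨π₀⁻¹, ?_⟩
  -- agreement on swaps
  have hswap : ∀ a b : Ω, a ≠ b → θ (swap a b) = π₀⁻¹ * swap a b * π₀⁻¹⁻¹ := by
    intro a b hab
    rw [← swap_apply_apply]
    obtain ⟨u, v, huv, huv'⟩ := hsw (swap a b) ⟨a, b, hab, rfl⟩
    have hfix : ∀ x, swap u v x = x ↔ swap a b (ρ x) = ρ x := by
      intro x
      rw [← huv']
      exact hρ x (swap a b)
    have hmem : ∀ x, (x = u ∨ x = v) ↔ (x = π₀⁻¹ a ∨ x = π₀⁻¹ b) := by
      intro x
      have h1 : (x = u ∨ x = v) ↔ ¬ swap u v x = x := by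
        constructor
        · rintro (rfl | rfl)
          · rw [swap_apply_left]; exact Ne.symm huv
          · rw [swap_apply_right]; exact huv
        · intro h
          by_contra hcon
          rw [not_or] at hcon
          exact h (swap_apply_of_ne_of_ne hcon.1 hcon.2)
      have h2 : (x = π₀⁻¹ a ∨ x = π₀⁻¹ b) ↔ ¬ swap a b (ρ x) = ρ x := by
        have e1 : x = π₀⁻¹ a ↔ ρ x = a := by
          rw [← hπ₀, Perm.eq_inv_iff_eq]
        have e2 : x = π₀⁻¹ b ↔ ρ x = b := by
          rw [← hπ₀, Perm.eq_inv_iff_eq]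
        rw [e1, e2]
        constructor
        · rintro (h | h)
          · rw [h, swap_apply_left]; exact Ne.symm hab
          · rw [h, swap_apply_right]; exact hab
        · intro h
          by_contra hcon
          rw [not_or] at hcon
          exact h (swap_apply_of_ne_of_ne hcon.1 hcon.2)
      rw [h1, h2, hfix]
    rw [huv']
    have hu := (hmem u).mp (Or.inl rfl)
    have hv := (hmem v).mp (Or.inr rfl)
    rcases hu with hu | hu
    · rcases hv with hv | hv
      · exact absurd (hu.trans hv.symm) huv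
      · rw [hu, hv]
    · rcases hv with hv | hv
      · rw [hu, hv, swap_comm]
      · exact absurd (hu.trans hv.symm) huv
  let c : Perm Ω →* Perm Ω := (MulAut.conj π₀⁻¹).toMonoidHom
  have hc : ∀ g, c g = π₀⁻¹ * g * π₀⁻¹⁻¹ := fun g => rfl
  have heqOn : Set.EqOn θ c {σ : Perm Ω | σ.IsSwap} := by
    rintro σ ⟨a, b, hab, rfl⟩
    rw [hc]
    exact hswap a b hab
  have hcl := MonoidHom.eqOn_closure heqOn
  rw [closure_isSwap] at hcl
  intro g
  rw [← hc]
  exact hcl (Subgroup.mem_top g)

/-- an injective endomorphism maps conjugacy classes onto conjugacy classes -/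
lemma class_card (ψ : Perm Ω →* Perm Ω) (hψ : Function.Injective ψ) (σ : Perm Ω) :
    (Finset.univ.filter (fun g : Perm Ω => g.cycleType = σ.cycleType)).card =
      (Finset.univ.filter (fun g : Perm Ω => g.cycleType = (ψ σ).cycleType)).card := by
  have hsurj : Function.Surjective ψ := Finite.surjective_of_injective hψ
  apply Finset.card_bij (fun g _ => ψ g)
  · intro g hg
    simp only [Finset.mem_filter, Finset.mem_univ, true_and] at hg ⊢
    have hc : IsConj σ g := isConj_iff_cycleType_eq.mpr hg.symm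
    exact (isConj_iff_cycleType_eq.mp (ψ.map_isConj hc)).symm
  · intro g1 _ g2 _ h
    exact hψ h
  · intro σ' hσ'
    simp only [Finset.mem_filter, Finset.mem_univ, true_and] at hσ'
    have hc : IsConj (ψ σ) σ' := isConj_iff_cycleType_eq.mpr hσ'.symm
    obtain ⟨c, hc⟩ := isConj_iff.mp hc
    obtain ⟨g, rfl⟩ := hsurj c
    refine ⟨g * σ * g⁻¹, ?_, ?_⟩
    · simp only [Finset.mem_filter, Finset.mem_univ, true_and]
      rw [cycleType_conj]
    · rw [map_mul, map_mul, map_inv, hc]

lemma class_surj (ψ : Perm Ω →* Perm Ω) (hψ : Function.Injective ψ) (σ σ' : Perm Ω)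
    (h : σ'.cycleType = (ψ σ).cycleType) : ∃ g : Perm Ω, g.cycleType = σ.cycleType ∧ ψ g = σ' := by
  have hsurj : Function.Surjective ψ := Finite.surjective_of_injective hψ
  have hc : IsConj (ψ σ) σ' := isConj_iff_cycleType_eq.mpr h.symm
  obtain ⟨c, hc⟩ := isConj_iff.mp hc
  obtain ⟨g, rfl⟩ := hsurj c
  exact ⟨g * σ * g⁻¹, cycleType_conj, by rw [map_mul, map_mul, map_inv, hc]⟩

lemma card_type (h6 : Fintype.card Ω = 6) (k : ℕ) (hk : k ≤ 2) :
    (Finset.univ.filter (fun g : Perm Ω => g.cycleType = Multiset.replicate (k + 1) 2)).card =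
      if k = 1 then 45 else 15 := by
  have h2 := card_of_cycleType_mul_eq Ω (Multiset.replicate (k + 1) 2)
  have hT : (Multiset.replicate (k + 1) 2).toFinset = {2} := by
    ext x
    rw [Multiset.mem_toFinset, Multiset.mem_replicate, Finset.mem_singleton]
    constructor
    · exact fun h => h.2
    · exact fun h => ⟨by omega, h⟩
  have hsum : (Multiset.replicate (k + 1) 2).sum ≤ Fintype.card Ω := by
    rw [Multiset.sum_replicate, smul_eq_mul, h6]; omega
  rw [if_pos ⟨hsum, fun a ha => by rw [Multiset.eq_of_mem_replicate ha]⟩] at h2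
  simp only [Multiset.sum_replicate, Multiset.prod_replicate, smul_eq_mul, hT,
    Finset.prod_singleton, Multiset.count_replicate_self, h6] at h2
  have h720 : (6 : ℕ).factorial = 720 := rfl
  rw [h720] at h2
  interval_cases k
  · have e1 : ((6 - (0 + 1) * 2 : ℕ).factorial * 2 ^ (0 + 1) * (0 + 1).factorial) = 48 := rfl
    rw [e1] at h2
    simp only [if_neg (by norm_num : (0 : ℕ) ≠ 1)]
    omega
  · have e1 : ((6 - (1 + 1) * 2 : ℕ).factorial * 2 ^ (1 + 1) * (1 + 1).factorial) = 16 := rfl
    rw [e1] at h2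
    simp only [if_true]
    omega
  · have e1 : ((6 - (2 + 1) * 2 : ℕ).factorial * 2 ^ (2 + 1) * (2 + 1).factorial) = 48 := rfl
    rw [e1] at h2
    simp only [if_neg (by norm_num : (2 : ℕ) ≠ 1)]
    omega

/-- in degree six, the image of a transposition or a triple transposition is again of one of
these two types -/
lemma involution_type (h6 : Fintype.card Ω = 6) (ψ : Perm Ω →* Perm Ω)
    (hψ : Function.Injective ψ) (σ : Perm Ω)
    (hσ : σ.cycleType = Multiset.replicate 1 2 ∨ σ.cycleType = Multiset.replicate 3 2) :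
    (ψ σ).cycleType = Multiset.replicate 1 2 ∨ (ψ σ).cycleType = Multiset.replicate 3 2 := by
  have hord : orderOf σ = 2 := by
    rw [← lcm_cycleType]
    rcases hσ with h | h <;> rw [h] <;> rfl
  have hσ1 : σ ≠ 1 := by
    intro h
    rw [h, orderOf_one] at hord
    omega
  have hne : ψ σ ≠ 1 := by
    intro h
    exact hσ1 (hψ (by rw [h, map_one]))
  have hsq : ψ σ ^ 2 = 1 := by
    rw [← map_pow, ← hord, pow_orderOf_eq_one, map_one]
  have hord' : orderOf (ψ σ) = 2 := orderOf_eq_prime hsq hne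
  obtain ⟨k, hk⟩ := cycleType_prime_order (σ := ψ σ) (by rw [hord']; exact Nat.prime_two)
  rw [hord'] at hk
  have hk2 : k ≤ 2 := by
    have h1 := sum_cycleType_le (ψ σ)
    rw [hk, Multiset.sum_replicate, smul_eq_mul, h6] at h1
    omega
  have hcard := class_card ψ hψ σ
  rw [hk, card_type h6 k hk2] at hcard
  have hcσ : (Finset.univ.filter (fun g : Perm Ω => g.cycleType = σ.cycleType)).card = 15 := by
    rcases hσ with h | h
    · rw [h, card_type h6 0 (by norm_num)]; rfl
    · rw [h, card_type h6 2 (by norm_num)]; rfl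
  rw [hcσ] at hcard
  rw [hk]
  interval_cases k
  · left; rfl
  · simp at hcard
  · right; rfl

/-- the image type of a transposition does not depend on the transposition -/
lemma swap_type_const (ψ : Perm Ω →* Perm Ω) (τ τ' : Perm Ω) (hτ : τ.IsSwap) (hτ' : τ'.IsSwap) :
    (ψ τ).cycleType = (ψ τ').cycleType := by
  have hc : IsConj τ τ' := isConj_iff_cycleType_eq.mpr
    (by rw [isSwap_iff_cycleType.mp hτ, isSwap_iff_cycleType.mp hτ'])
  exact isConj_iff_cycleType_eq.mp (ψ.map_isConj hc)

lemma exists_swap (h6 : Fintype.card Ω = 6) : ∃ τ : Perm Ω, τ.IsSwap := by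
  haveI : Nontrivial Ω := by rw [← Fintype.one_lt_card_iff_nontrivial]; omega
  obtain ⟨a, b, hab⟩ := exists_pair_ne Ω
  exact ⟨swap a b, a, b, hab, rfl⟩

lemma type_dichotomy (h6 : Fintype.card Ω = 6) (ψ : Perm Ω →* Perm Ω)
    (hψ : Function.Injective ψ) :
    (∀ τ : Perm Ω, τ.IsSwap → (ψ τ).IsSwap) ∨
      (∀ τ : Perm Ω, τ.IsSwap → (ψ τ).cycleType = Multiset.replicate 3 2) := by
  obtain ⟨τ0, hτ0⟩ := exists_swap (Ω := Ω) h6
  rcases involution_type h6 ψ hψ τ0 (Or.inl (isSwap_iff_cycleType.mp hτ0)) with h | h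
  · left
    intro τ hτ
    rw [isSwap_iff_cycleType, swap_type_const ψ τ τ0 hτ hτ0]
    exact h
  · right
    intro τ hτ
    rw [swap_type_const ψ τ τ0 hτ hτ0]
    exact h

lemma typeII_surj (h6 : Fintype.card Ω = 6) (ψ : Perm Ω →* Perm Ω) (hψ : Function.Injective ψ)
    (hII : ∀ τ : Perm Ω, τ.IsSwap → (ψ τ).cycleType = Multiset.replicate 3 2) (ρ : Perm Ω)
    (hρ : (ψ ρ).cycleType = Multiset.replicate 3 2) : ρ.IsSwap := by
  obtain ⟨τ0, hτ0⟩ := exists_swap (Ω := Ω) h6
  obtain ⟨g, hg1, hg2⟩ := class_surj ψ hψ τ0 (ψ ρ) (by rw [hρ, hII _ hτ0])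
  have hgρ : g = ρ := hψ hg2
  subst hgρ
  rw [isSwap_iff_cycleType, hg1]
  exact isSwap_iff_cycleType.mp hτ0

/-- the symmetric group of degree five has six Sylow 5-subgroups -/
lemma card_sylow_five : Nat.card (Sylow 5 (Perm (Fin 5))) = 6 := by
  classical
  haveI : Fact (Nat.Prime 5) := ⟨by norm_num⟩
  have hcardG : Nat.card (Perm (Fin 5)) = 120 := by
    rw [Nat.card_eq_fintype_card, Fintype.card_perm, Fintype.card_fin]; rfl
  have h1 : Nat.card (Sylow 5 (Perm (Fin 5))) ≡ 1 [MOD 5] := card_sylow_modEq_one 5 _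
  have P : Sylow 5 (Perm (Fin 5)) := default
  have h2 : Nat.card (Sylow 5 (Perm (Fin 5))) ∣ (P : Subgroup (Perm (Fin 5))).index :=
    Sylow.card_dvd_index P
  have h3 : ¬ 5 ∣ (P : Subgroup (Perm (Fin 5))).index := P.not_dvd_index
  have h4 : (P : Subgroup (Perm (Fin 5))).index ∣ 5 * 24 := by
    have := Subgroup.index_dvd_card (P : Subgroup (Perm (Fin 5)))
    rw [hcardG] at this
    exact this
  have h5 : (P : Subgroup (Perm (Fin 5))).index ∣ 24 := by
    refine Nat.Coprime.dvd_of_dvd_mul_left ?_ h4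
    exact (Nat.Coprime.symm ((Nat.Prime.coprime_iff_not_dvd (by norm_num)).mpr h3))
  have h6' : Nat.card (Sylow 5 (Perm (Fin 5))) ∣ 24 := h2.trans h5
  have h7 : Nat.card (Sylow 5 (Perm (Fin 5))) ≤ 24 := Nat.le_of_dvd (by norm_num) h6'
  have h8 : Nat.card (Sylow 5 (Perm (Fin 5))) ≠ 1 := by
    intro hone
    haveI : Subsingleton (Sylow 5 (Perm (Fin 5))) :=
      (Nat.card_eq_one_iff_unique.mp hone).1
    have hN : (P : Subgroup (Perm (Fin 5))).Normal := Sylow.normal_of_subsingleton P
    rcases normal_dichotomy (Ω := Fin 5) (by simp) (P : Subgroup (Perm (Fin 5))) hN with h | h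
    · exact P.ne_bot_of_dvd_card (by rw [hcardG]; norm_num) h
    · have hA : 2 * Nat.card (alternatingGroup (Fin 5)) = 120 := by
        rw [two_mul_nat_card_alternatingGroup, hcardG]
      have hA' : Nat.card (alternatingGroup (Fin 5)) = 60 := by omega
      have hd := Subgroup.card_dvd_of_le h
      obtain ⟨k, hk⟩ := IsPGroup.iff_card.mp P.isPGroup'
      rw [hk, hA'] at hd
      have h3d : 3 ∣ 5 ^ k := Dvd.dvd.trans (by norm_num) hd
      have := Nat.Prime.dvd_of_dvd_pow (by norm_num) h3d
      omega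
  generalize Nat.card (Sylow 5 (Perm (Fin 5))) = n at h1 h6' h7 h8 ⊢
  interval_cases n <;> first | rfl | omega | (exfalso; revert h1 h6'; decide)

/-- the exotic subgroup of index six: the image of the symmetric group of degree five acting on
its six Sylow 5-subgroups -/
lemma exists_exotic (h6 : Fintype.card Ω = 6) :
    ∃ H₂ : Subgroup (Perm Ω), H₂.index = 6 ∧
      ∀ y : Ω, ¬ H₂ ≤ MulAction.stabilizer (Perm Ω) y := by
  classical
  haveI : Fact (Nat.Prime 5) := ⟨by norm_num⟩
  have hcardG : Nat.card (Perm (Fin 5)) = 120 := by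
    rw [Nat.card_eq_fintype_card, Fintype.card_perm, Fintype.card_fin]; rfl
  have hn5 := card_sylow_five
  haveI : MulAction.IsPretransitive (Perm (Fin 5)) (Sylow 5 (Perm (Fin 5))) :=
    Sylow.isPretransitive_of_finite
  have hinj : Function.Injective (MulAction.toPermHom (Perm (Fin 5)) (Sylow 5 (Perm (Fin 5)))) := by
    rw [← MonoidHom.ker_eq_bot_iff]
    rcases normal_dichotomy (Ω := Fin 5) (by simp)
      (MulAction.toPermHom (Perm (Fin 5)) (Sylow 5 (Perm (Fin 5)))).ker inferInstance with h | h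
    · exact h
    · exfalso
      have P : Sylow 5 (Perm (Fin 5)) := default
      have hle : alternatingGroup (Fin 5) ≤ MulAction.stabilizer (Perm (Fin 5)) P := by
        intro g hg
        have hg' := h hg
        rw [MonoidHom.mem_ker] at hg'
        rw [MulAction.mem_stabilizer_iff]
        have := congrArg (fun σ : Perm (Sylow 5 (Perm (Fin 5))) => σ P) hg'
        exact this
      have hd := Subgroup.index_dvd_of_le hle
      rw [alternatingGroup.index_eq_two, MulAction.index_stabilizer_of_transitive, hn5] at hd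
      omega
  have hcardΩ : Nat.card (Sylow 5 (Perm (Fin 5))) = Nat.card Ω := by
    rw [hn5, Nat.card_eq_fintype_card, h6]
  obtain ⟨e⟩ := Finite.card_eq.mp hcardΩ
  let φ : Perm (Fin 5) →* Perm Ω :=
    (e.permCongrHom : Perm (Sylow 5 (Perm (Fin 5))) →* Perm Ω).comp
      (MulAction.toPermHom (Perm (Fin 5)) (Sylow 5 (Perm (Fin 5))))
  have hφ : Function.Injective φ := e.permCongrHom.injective.comp hinj
  have hφapp : ∀ (g : Perm (Fin 5)) (y : Ω), φ g y = e (g • e.symm y) := fun g y => rfl
  refine ⟨φ.range, ?_, ?_⟩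
  · have hc : Nat.card φ.range = 120 := by
      rw [← Nat.card_congr (MonoidHom.ofInjective hφ).toEquiv, hcardG]
    have h1 := Subgroup.index_mul_card φ.range
    rw [hc, Nat.card_eq_fintype_card, Fintype.card_perm, h6] at h1
    have h720 : (6 : ℕ).factorial = 720 := rfl
    rw [h720] at h1
    omega
  · intro y hle
    haveI : Nontrivial (Sylow 5 (Perm (Fin 5))) := by
      rw [← Finite.one_lt_card_iff_nontrivial, hn5]; norm_num
    obtain ⟨Q, hQ⟩ := exists_ne (e.symm y)
    obtain ⟨g, hg⟩ := MulAction.exists_smul_eq (Perm (Fin 5)) (e.symm y) Q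
    have h1 : φ g ∈ MulAction.stabilizer (Perm Ω) y := hle ⟨g, rfl⟩
    rw [MulAction.mem_stabilizer_iff] at h1
    have h2 : φ g y = y := h1
    rw [hφapp, hg] at h2
    apply hQ
    rw [← h2, Equiv.symm_apply_apply]

end main

/-- The symmetric group on a 6-element set Ω has exactly two conjugacy classes of subgroups of index 6: there are two non-conjugate subgroups of index 6 (a point stabilizer and a transitive subgroup isomorphic to S₅), and every subgroup of index 6 is conjugate to one of them. -/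
theorem result {Ω : Type*} [Fintype Ω] [DecidableEq Ω] (h6 : Fintype.card Ω = 6) :
    ∃ H₁ H₂ : Subgroup (Equiv.Perm Ω), H₁.index = 6 ∧ H₂.index = 6 ∧
      (¬ ∃ g : Equiv.Perm Ω, Subgroup.map (MulAut.conj g).toMonoidHom H₁ = H₂) ∧
      ∀ H : Subgroup (Equiv.Perm Ω), H.index = 6 →
        ∃ g : Equiv.Perm Ω, Subgroup.map (MulAut.conj g).toMonoidHom H₁ = H ∨ Subgroup.map (MulAut.conj g).toMonoidHom H₂ = H := by
  classical
  haveI : Nonempty Ω := by
    rw [← Fintype.card_pos_iff]; omega
  obtain ⟨x0⟩ := ‹Nonempty Ω›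
  obtain ⟨H₂, hH₂, hex⟩ := exists_exotic (Ω := Ω) h6
  have hst : ∀ y : Ω, (MulAction.stabilizer (Perm Ω) y).index = 6 := by
    intro y
    rw [MulAction.index_stabilizer_of_transitive, Nat.card_eq_fintype_card, h6]
  have hconj : ∀ (g : Perm Ω) (y : Ω),
      Subgroup.map (MulAut.conj g).toMonoidHom (MulAction.stabilizer (Perm Ω) y) =
        MulAction.stabilizer (Perm Ω) (g y) := by
    intro g y
    exact (MulAction.stabilizer_smul_eq_stabilizer_map_conj g y).symm
  have hcore₂ : H₂.normalCore = ⊥ := core_eq_bot (by omega) H₂ (by rw [hH₂, h6])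
  obtain ⟨ψ₂, hψ₂, hmem₂⟩ := exists_psi H₂ (by rw [hH₂, h6]) hcore₂ x0
  have hne_top : ∀ H : Subgroup (Perm Ω), H.index = 6 → H ≠ ⊤ := by
    intro H hH htop
    rw [htop, Subgroup.index_top] at hH
    omega
  have hII₂ : ∀ τ : Perm Ω, τ.IsSwap → (ψ₂ τ).cycleType = Multiset.replicate 3 2 := by
    rcases type_dichotomy h6 ψ₂ hψ₂ with h | h
    · exfalso
      obtain ⟨y, hy⟩ := key' (by omega) ψ₂ hψ₂ h x0 H₂ hmem₂ (hne_top H₂ hH₂)
      exact hex y hy
    · exact h
  refine ⟨MulAction.stabilizer (Perm Ω) x0, H₂, hst x0, hH₂, ?_, ?_⟩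
  · rintro ⟨g, hg⟩
    rw [hconj] at hg
    exact hex (g x0) (le_of_eq hg.symm)
  · intro H hH
    have hcore : H.normalCore = ⊥ := core_eq_bot (by omega) H (by rw [hH, h6])
    obtain ⟨ψ, hψ, hmem⟩ := exists_psi H (by rw [hH, h6]) hcore x0
    rcases type_dichotomy h6 ψ hψ with h | h
    · obtain ⟨y, hy⟩ := key' (by omega) ψ hψ h x0 H hmem (hne_top H hH)
      have hHy : H = MulAction.stabilizer (Perm Ω) y := by
        apply Subgroup.eq_of_le_of_card_ge hy
        have h1 := Subgroup.index_mul_card H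
        have h2 := Subgroup.index_mul_card (MulAction.stabilizer (Perm Ω) y)
        rw [hH] at h1
        rw [hst y] at h2
        have h3 : 6 * Nat.card (MulAction.stabilizer (Perm Ω) y) = 6 * Nat.card H := by
          rw [h1, h2]
        omega
      refine ⟨swap x0 y, Or.inl ?_⟩
      rw [hconj, swap_apply_left, hHy]
    · have hsurj₂ : Function.Surjective ψ₂ := Finite.surjective_of_injective hψ₂
      let e₂ : Perm Ω ≃* Perm Ω := MulEquiv.ofBijective ψ₂ ⟨hψ₂, hsurj₂⟩
      have he₂ : ∀ g, ψ₂ (e₂.symm g) = g := fun g => e₂.apply_symm_apply g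
      let θ : Perm Ω →* Perm Ω := e₂.symm.toMonoidHom.comp ψ
      have hθapp : ∀ g, θ g = e₂.symm (ψ g) := fun g => rfl
      have hθ : Function.Injective θ := e₂.symm.injective.comp hψ
      have hθsw : ∀ τ : Perm Ω, τ.IsSwap → (θ τ).IsSwap := by
        intro τ hτ
        apply typeII_surj h6 ψ₂ hψ₂ hII₂
        rw [hθapp, he₂]
        exact h τ hτ
      obtain ⟨π, hπ⟩ := inner_of_swaps (by omega) θ hθ hθsw
      refine ⟨π⁻¹, Or.inr ?_⟩
      ext g
      rw [Subgroup.mem_map_equiv, MulAut.conj_symm_apply, inv_inv, ← hπ, hmem₂, hθapp, he₂, hmem]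

end Cfsg.Agent.S5912
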