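import Cfsg.Statements.S5939
import Cfsg.Agent.Lib.Helper98.PSL2Max
import Cfsg.Agent.Lib.Helper98.SL2Quad
import Cfsg.Agent.Lib.Helper5.SL2Card
import Cfsg.Agent.S0804

set_option autoImplicit false
open Cfsg

namespace Cfsg.Agent.S5939

open Matrix MatrixGroups
open Cfsg.Agent.Lib.Helper98.PSL2Max Cfsg.Agent.Lib.Helper98.SL2Quad
open Cfsg.Agent.Lib.Helper98.SL2Sub

lemma not_comm_sq : ¬ ∀ a b : alternatingGroup (Fin 5), a ^ 2 * b ^ 2 = b ^ 2 * a ^ 2 := by
  intro h
  exact absurd (h ⟨Equiv.swap 0 1 * Equiv.swap 1 2, Equiv.Perm.mem_alternatingGroup.2 (by decide)⟩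
    ⟨Equiv.swap 0 1 * Equiv.swap 1 3, Equiv.Perm.mem_alternatingGroup.2 (by decide)⟩) (by decide)

lemma comm1 : ∀ a b : Equiv.Perm (Fin 1), Equiv.Perm.sign a = 1 → Equiv.Perm.sign b = 1 →
    a * b = b * a := by decide

lemma comm2 : ∀ a b : Equiv.Perm (Fin 2), Equiv.Perm.sign a = 1 → Equiv.Perm.sign b = 1 →
    a * b = b * a := by decide

lemma comm3 : ∀ a b : Equiv.Perm (Fin 3), Equiv.Perm.sign a = 1 → Equiv.Perm.sign b = 1 →
    a * b = b * a := by decide

lemma sq_mod_a {n : ℕ} (h : n % 10 = 1 ∨ n % 10 = 9) : n ^ 2 % 5 = 1 := by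
  rw [Nat.pow_mod]
  have : n % 5 = 1 ∨ n % 5 = 4 := by omega
  rcases this with h | h <;> rw [h]

lemma sq_mod_b {n : ℕ} (h : n % 10 = 3 ∨ n % 10 = 7) : n ^ 2 % 5 = 4 := by
  rw [Nat.pow_mod]
  have : n % 5 = 3 ∨ n % 5 = 2 := by omega
  rcases this with h | h <;> rw [h]

lemma five_dvd (q : ℕ) (h : q ^ 2 % 5 = 1) : 5 ∣ q * (q ^ 2 - 1) := by
  have : 5 ∣ q ^ 2 - 1 := by omega
  exact Dvd.dvd.mul_left this q

/-- Let p be a prime and F a finite field of characteristic p such that either F has p elements and p ≡ ±1 (mod 10), or F has p² elements and p ≡ ±3 (mod 10). Then PSL_2(F) has a maximal subgroup isomorphic to the alternating group A_5. -/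
theorem result {F : Type*} [Field F] [Fintype F] (p : ℕ) [Fact p.Prime] [CharP F p] (h : (Fintype.card F = p ∧ (p % 10 = 1 ∨ p % 10 = 9)) ∨ (Fintype.card F = p ^ 2 ∧ (p % 10 = 3 ∨ p % 10 = 7))) : ∃ H : Subgroup (Matrix.ProjectiveSpecialLinearGroup (Fin 2) F), IsCoatom H ∧ Nonempty (H ≃* alternatingGroup (Fin 5)) := by
  classical
  have hpp : p.Prime := Fact.out
  obtain ⟨q, hq⟩ : ∃ q, Fintype.card F = q := ⟨_, rfl⟩
  rw [hq] at h
  have hp2 := hpp.two_le
  have hp9 : p ≠ 9 := by
    intro h9
    rw [h9] at hpp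
    norm_num at hpp
  have hp3 : 3 ≤ p := by
    rcases h with ⟨-, h⟩ | ⟨-, h⟩ <;> omega
  have h2 : (2 : F) ≠ 0 := by
    intro h
    have h' : ((2 : ℕ) : F) = 0 := by exact_mod_cast h
    rw [CharP.cast_eq_zero_iff F p] at h'
    have := Nat.le_of_dvd (by norm_num) h'
    omega
  have hpodd : p % 2 = 1 := by
    rcases h with ⟨-, h⟩ | ⟨-, h⟩ <;> omega
  have hqodd : q % 2 = 1 := by
    rcases h with ⟨rfl, -⟩ | ⟨rfl, -⟩
    · exact hpodd
    · rw [Nat.pow_mod, hpodd]
  have h5 : 5 ∣ q * (q ^ 2 - 1) := by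
    rcases h with ⟨rfl, h⟩ | ⟨rfl, h⟩
    · exact five_dvd _ (sq_mod_a h)
    · apply five_dvd
      rw [Nat.pow_mod, sq_mod_b h]
  have hq9 : 9 ≤ q := by
    rcases h with ⟨rfl, h⟩ | ⟨rfl, h⟩
    · omega
    · have := Nat.pow_le_pow_left hp3 2
      omega
  obtain ⟨M, ⟨e⟩⟩ := (Cfsg.Agent.S0804.result hq).2 h5
  refine ⟨M, ?_, ⟨e⟩⟩
  have hcardM : Nat.card M = 60 := by
    rw [Nat.card_congr e.toEquiv]
    have := two_mul_nat_card_alternatingGroup (α := Fin 5)
    rw [Nat.card_perm, Nat.card_eq_fintype_card (α := Fin 5), Fintype.card_fin] at this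
    have h120 : Nat.factorial 5 = 120 := rfl
    omega
  have hG := Cfsg.Agent.Lib.Helper5.SL2Card.card_PSL_two hq
  have hgcd : Nat.gcd 2 (q - 1) = 2 := Nat.gcd_eq_left (by omega)
  rw [hgcd] at hG
  have hGbig : 60 < Nat.card (Matrix.ProjectiveSpecialLinearGroup (Fin 2) F) := by
    have h81 : 9 ^ 2 ≤ q ^ 2 := Nat.pow_le_pow_left hq9 2
    have : 9 * 80 ≤ q * (q ^ 2 - 1) := Nat.mul_le_mul hq9 (by omega)
    omega
  have hsq : ¬ ∀ s ∈ M, ∀ t ∈ M, s ^ 2 * t ^ 2 = t ^ 2 * s ^ 2 := by
    intro h
    apply not_comm_sq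
    intro a b
    have h1 := h (e.symm a) (e.symm a).2 (e.symm b) (e.symm b).2
    have h2 : (e.symm a) ^ 2 * (e.symm b) ^ 2 = (e.symm b) ^ 2 * (e.symm a) ^ 2 :=
      Subtype.ext (by simpa using h1)
    have h3 := congrArg e h2
    simpa using h3
  haveI : Finite (Matrix.SpecialLinearGroup (Fin 2) F) := finite_SL
  constructor
  · intro htop
    have : Nat.card M = Nat.card (Matrix.ProjectiveSpecialLinearGroup (Fin 2) F) := by
      rw [htop]; exact Subgroup.card_top
    omega
  · intro L hlt
    have hML : 60 ∣ Nat.card L := hcardM ▸ Subgroup.card_dvd_of_le hlt.le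
    have hLne : Nat.card L ≠ 60 := fun h =>
      hlt.ne (Subgroup.eq_of_le_of_card_ge hlt.le (by omega))
    have top_of_comap : L.comap (proj (F := F)) = ⊤ → L = ⊤ := by
      intro htop
      rw [← Subgroup.map_comap_eq_self_of_surjective proj_surj L, htop, ← MonoidHom.range_eq_map,
        MonoidHom.range_eq_top.2 proj_surj]
    by_cases hp3' : p = 3
    · -- the field with nine elements
      have hq9' : q = 9 := by
        rcases h with ⟨rfl, h⟩ | ⟨rfl, h⟩
        · omega
        · rw [hp3']; norm_num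
      rw [hq9'] at hG
      have hGc : Nat.card (Matrix.ProjectiveSpecialLinearGroup (Fin 2) F) = 360 := by
        have e9 : 9 * (9 ^ 2 - 1) = 720 := by norm_num
        rw [e9] at hG
        omega
      have hidx := Subgroup.card_mul_index L
      obtain ⟨j, hj⟩ := hML
      have hLpos : 0 < Nat.card L := Nat.card_pos
      have hji : j * L.index = 6 := by
        rw [hj, hGc] at hidx
        exact Nat.eq_of_mul_eq_mul_left (by norm_num : 0 < 60) (by rw [← mul_assoc]; exact hidx)
      have hj2 : 2 ≤ j := by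
        by_contra hlt2
        have : j = 0 ∨ j = 1 := by omega
        rcases this with h0 | h1
        · rw [h0] at hj; omega
        · rw [h1] at hj; omega
      have hi3 : L.index ≤ 3 := by
        by_contra hc
        push Not at hc
        have : j * 4 ≤ j * L.index := Nat.mul_le_mul_left _ hc
        omega
      have hci : (L.comap (proj (F := F))).index = L.index :=
        Subgroup.index_comap_of_surjective L proj_surj
      obtain ⟨n, hn⟩ : ∃ n, L.index = n := ⟨_, rfl⟩
      rw [hn] at hji hi3 hci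
      have hn0 : n ≠ 0 := by
        intro h0
        rw [h0, mul_zero] at hji
        omega
      have hF3 : 3 < Fintype.card F := by rw [hq, hq9']; norm_num
      apply top_of_comap
      have hn123 : n = 1 ∨ n = 2 ∨ n = 3 := by omega
      rcases hn123 with rfl | rfl | rfl
      · exact eq_top_of_index hF3 _ 1 hci hn0 comm1
      · exact eq_top_of_index hF3 _ 2 hci hn0 comm2
      · exact eq_top_of_index hF3 _ 3 hci hn0 comm3
    · have hp7 : 7 ≤ p := by
        rcases h with ⟨-, h⟩ | ⟨-, h⟩ <;> omega
      have h3 : (3 : F) ≠ 0 := by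
        intro h
        have h' : ((3 : ℕ) : F) = 0 := by exact_mod_cast h
        rw [CharP.cast_eq_zero_iff F p] at h'
        have := Nat.le_of_dvd (by norm_num) h'
        omega
      have hpM : ¬ p ∣ 2 * Nat.card M := by
        rw [hcardM]
        intro h
        have := prime_le_five_of_dvd (a := 3) hpp (by simpa using h)
        omega
      rcases psl_overgroup p h2 M L hlt.le hsq hpM with h12 | h24 | h60 | ⟨g, a, c, ha, hc, hu, hl⟩
      · exfalso
        rw [h12] at hML
        omega
      · exfalso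
        rw [h24] at hML
        omega
      · exact absurd h60 hLne
      · rcases h with ⟨hqp, -⟩ | ⟨hqp, hp10⟩
        · exact eq_top_of_prime_psl p hpp (by rw [Nat.card_eq_fintype_card, hq, hqp]) L g a c
            ha hc hu hl
        · obtain ⟨k, hkcard, hkint, hSkcard⟩ := prime_data (F := F) p
          have hcard : Nat.card F = Nat.card k ^ 2 := by
            rw [hkcard, Nat.card_eq_fintype_card, hq, hqp]
          obtain ⟨X, hX⟩ : ∃ X, X = (L.comap (proj (F := F))).map (MulAut.conj g).toMonoidHom :=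
            ⟨_, rfl⟩
          have huX : u a ∈ X := by
            rw [hX]
            refine ⟨g⁻¹ * u a * g, hu, ?_⟩
            show g * (g⁻¹ * u a * g) * g⁻¹ = u a
            group
          have hlX : l c ∈ X := by
            rw [hX]
            refine ⟨g⁻¹ * l c * g, hl, ?_⟩
            show g * (g⁻¹ * l c * g) * g⁻¹ = l c
            group
          rcases top_or_sq_mem k h2 h3 hcard hkint X a c ha hc huX hlX with htop | hsqS
          · apply top_of_comap
            rw [eq_top_iff]
            intro y _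
            have hy : g * y * g⁻¹ ∈ X := by rw [htop]; trivial
            rw [hX] at hy
            obtain ⟨x, hx, hxy⟩ := hy
            have hxy' : g * x * g⁻¹ = g * y * g⁻¹ := hxy
            have hxy2 : x = y := by
              have := congrArg (fun t => g⁻¹ * t * g) hxy'
              simpa [mul_assoc] using this
            rw [← hxy2]; exact hx
          · exfalso
            haveI : Fact (Nat.Prime 5) := ⟨by norm_num⟩
            have h5L : 5 ∣ Nat.card (L.comap (proj (F := F))) := by
              rw [card_comap h2 L]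
              exact Dvd.dvd.mul_left (dvd_trans (by norm_num) hML) 2
            obtain ⟨y, hy⟩ := exists_prime_orderOf_dvd_card' 5 h5L
            have hy5 : orderOf (y : SL(2, F)) = 5 := by rw [Subgroup.orderOf_coe]; exact hy
            have hconj : orderOf (g * y.1 * g⁻¹) = 5 := by
              have := orderOf_injective (MulAut.conj g).toMonoidHom (MulAut.conj g).injective y.1
              rw [hy5] at this
              exact this
            obtain ⟨y₁, hy₁⟩ : ∃ y₁, y₁ = diagConj a ha (g * y.1 * g⁻¹) := ⟨_, rfl⟩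
            have hy₁5 : orderOf y₁ = 5 := by
              rw [hy₁, orderOf_injective _ (diagConj_injective a ha), hconj]
            have hyX : g * y.1 * g⁻¹ ∈ X := by rw [hX]; exact ⟨y.1, y.2, rfl⟩
            have hmem := hsqS _ hyX
            rw [← hy₁] at hmem
            have hord2 : orderOf (y₁ * y₁) = 5 := by
              rw [← pow_two, Nat.Coprime.orderOf_pow (by rw [hy₁5]; norm_num), hy₁5]
            have hdvd : orderOf (y₁ * y₁) ∣ Nat.card (Sk k) := by
              have := orderOf_dvd_natCard (⟨y₁ * y₁, hmem⟩ : Sk k)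
              rwa [← Subgroup.orderOf_coe] at this
            rw [hord2, hSkcard] at hdvd
            rcases (Nat.Prime.dvd_mul Nat.prime_five).1 hdvd with h | h
            · have := (Nat.prime_dvd_prime_iff_eq Nat.prime_five hpp).1 h
              omega
            · have h6 := sq_mod_b hp10
              have : 1 ≤ p ^ 2 := Nat.one_le_pow _ _ (by omega)
              omega

end Cfsg.Agent.S5939
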