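import Cfsg.Statements.S5940
import Cfsg.Agent.Lib.Helper98.PSL2Max
import Cfsg.Agent.Lib.Helper5.SL2Card
import Cfsg.Agent.S0802

set_option autoImplicit false
open Cfsg

namespace Cfsg.Agent.S5940

open Cfsg.Agent.Lib.Helper98.PSL2Max

lemma sq_mod {n : ℕ} (h : n % 8 = 3 ∨ n % 8 = 5) : n ^ 2 % 16 = 9 := by
  rw [Nat.pow_mod]
  have : n % 16 = 3 ∨ n % 16 = 5 ∨ n % 16 = 11 ∨ n % 16 = 13 := by omega
  rcases this with h | h | h | h <;> rw [h]

lemma mod_five {n : ℕ} (h : n ^ 2 % 5 = 1) : n % 5 = 1 ∨ n % 5 = 4 := by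
  rw [Nat.pow_mod] at h
  have : n % 5 < 5 := Nat.mod_lt _ (by norm_num)
  interval_cases (n % 5) <;> simp_all

lemma not_comm_sq : ¬ ∀ a b : alternatingGroup (Fin 4), a ^ 2 * b ^ 2 = b ^ 2 * a ^ 2 := by
  intro h
  exact absurd (h ⟨Equiv.swap 0 1 * Equiv.swap 1 2, Equiv.Perm.mem_alternatingGroup.2 (by decide)⟩
    ⟨Equiv.swap 0 1 * Equiv.swap 1 3, Equiv.Perm.mem_alternatingGroup.2 (by decide)⟩) (by decide)

/-- Let p ≥ 5 be a prime with p ≡ ±3 (mod 8) and p ≢ ±1 (mod 10), and F a field with p elements. Then PSL_2(F) has a maximal subgroup isomorphic to the alternating group A_4. -/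
theorem result {F : Type*} [Field F] [Fintype F] (p : ℕ) [Fact p.Prime] (hF : Fintype.card F = p) (h5 : 5 ≤ p) (h8 : p % 8 = 3 ∨ p % 8 = 5) (h10 : p % 10 ≠ 1 ∧ p % 10 ≠ 9) : ∃ H : Subgroup (Matrix.ProjectiveSpecialLinearGroup (Fin 2) F), IsCoatom H ∧ Nonempty (H ≃* alternatingGroup (Fin 4)) := by
  classical
  have hpp : p.Prime := Fact.out
  haveI : CharP F p := charP_of_card_eq_prime hF
  have h2 : (2 : F) ≠ 0 := by
    intro h
    have h' : ((2 : ℕ) : F) = 0 := by exact_mod_cast h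
    rw [CharP.cast_eq_zero_iff F p] at h'
    have := Nat.le_of_dvd (by norm_num) h'
    omega
  obtain ⟨M, ⟨e⟩⟩ := (Cfsg.Agent.S0802.result p 1 (by rw [hF, pow_one])).2
    (by rintro ⟨rfl, -⟩; omega)
  refine ⟨M, ?_, ⟨e⟩⟩
  have hcardM : Nat.card M = 12 := by
    rw [Nat.card_congr e.toEquiv]
    have := two_mul_nat_card_alternatingGroup (α := Fin 4)
    rw [Nat.card_perm, Nat.card_eq_fintype_card (α := Fin 4), Fintype.card_fin] at this
    have h24 : Nat.factorial 4 = 24 := rfl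
    omega
  have hG := Cfsg.Agent.Lib.Helper5.SL2Card.card_PSL_two hF
  have hgcd : Nat.gcd 2 (p - 1) = 2 := Nat.gcd_eq_left (by omega)
  rw [hgcd] at hG
  have h25 : 5 ^ 2 ≤ p ^ 2 := Nat.pow_le_pow_left h5 2
  have hGbig : 12 < Nat.card (Matrix.ProjectiveSpecialLinearGroup (Fin 2) F) := by
    have : 5 * 24 ≤ p * (p ^ 2 - 1) := Nat.mul_le_mul h5 (by omega)
    omega
  have hsq : ¬ ∀ s ∈ M, ∀ t ∈ M, s ^ 2 * t ^ 2 = t ^ 2 * s ^ 2 := by
    intro h
    apply not_comm_sq
    intro a b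
    have h1 := h (e.symm a) (e.symm a).2 (e.symm b) (e.symm b).2
    have h2 : (e.symm a) ^ 2 * (e.symm b) ^ 2 = (e.symm b) ^ 2 * (e.symm a) ^ 2 :=
      Subtype.ext (by simpa using h1)
    have h3 := congrArg e h2
    simpa using h3
  have hpM : ¬ p ∣ 2 * Nat.card M := by
    rw [hcardM]
    intro h
    have := prime_le_three_of_dvd (a := 3) hpp (by simpa using h)
    omega
  haveI : Finite (Matrix.SpecialLinearGroup (Fin 2) F) := finite_SL
  constructor
  · intro htop
    have : Nat.card M = Nat.card (Matrix.ProjectiveSpecialLinearGroup (Fin 2) F) := by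
      rw [htop]; exact Subgroup.card_top
    omega
  · intro L hlt
    have hLdvd := Subgroup.card_subgroup_dvd_card L
    rcases psl_overgroup p h2 M L hlt.le hsq hpM with h | h | h | ⟨g, a, c, ha, hc, hu, hl⟩
    · exfalso
      exact hlt.ne (Subgroup.eq_of_le_of_card_ge hlt.le (by omega))
    · exfalso
      rw [h] at hLdvd
      obtain ⟨j, hj⟩ : ∃ j, p ^ 2 = 16 * j + 9 := ⟨p ^ 2 / 16, by have := sq_mod h8; omega⟩
      have h8' : p ^ 2 - 1 = 8 * (2 * j + 1) := by omega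
      rw [h8'] at hG
      obtain ⟨t, ht⟩ := hLdvd
      rw [ht] at hG
      have h3 : 2 ∣ p * (2 * j + 1) := by
        have h4 : 8 * (p * (2 * j + 1)) = 8 * (2 * (3 * t)) := by
          have : p * (8 * (2 * j + 1)) = 8 * (p * (2 * j + 1)) := by ring
          rw [← this, ← hG]; ring
        exact ⟨3 * t, Nat.eq_of_mul_eq_mul_left (by norm_num) h4⟩
      rcases (Nat.Prime.dvd_mul Nat.prime_two).1 h3 with h | h
      · omega
      · omega
    · by_cases hp5 : p = 5
      · apply Subgroup.eq_top_of_card_eq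
        rw [h]
        rw [hp5] at hG
        omega
      · exfalso
        rw [h] at hLdvd
        obtain ⟨t, ht⟩ := hLdvd
        rw [ht] at hG
        have h5' : 5 ∣ p * (p ^ 2 - 1) := ⟨24 * t, by rw [← hG]; ring⟩
        rcases (Nat.Prime.dvd_mul Nat.prime_five).1 h5' with h | h
        · exact hp5 ((Nat.prime_dvd_prime_iff_eq Nat.prime_five hpp).1 h).symm
        · have h6 : p ^ 2 % 5 = 1 := by omega
          have := mod_five h6
          omega
    · exact eq_top_of_prime_psl p hpp (by rw [Nat.card_eq_fintype_card, hF]) L g a c ha hc hu hl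

end Cfsg.Agent.S5940
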